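import Cfsg.Statements.S0991
import Mathlib

set_option autoImplicit false
open Cfsg

namespace Cfsg.Agent.S0991

/-- Embedding Theorem: if a non-abelian finite simple group has a proper subgroup of index n, then it is isomorphic to a subgroup of the alternating group of degree n. -/
theorem result {G : Type*} [Group G] [Finite G] [IsSimpleGroup G] (hG : ¬ IsMulCommutative G) (H : Subgroup G) (hH : H ≠ ⊤) : ∃ f : G →* ↥(alternatingGroup (Fin H.index)), Function.Injective f := by
  classical
  have hcard : Nat.card (G ⧸ H) = H.index := rfl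
  let e : (G ⧸ H) ≃ Fin H.index := Finite.equivFinOfCardEq hcard
  let φ : G →* Equiv.Perm (Fin H.index) :=
    (Equiv.permCongrHom e).toMonoidHom.comp (MulAction.toPermHom G (G ⧸ H))
  have hφ : ∀ g : G, φ g = e.permCongr (MulAction.toPerm g) := fun g => rfl
  have hinj : Function.Injective φ := by
    rw [injective_iff_map_eq_one]
    intro g hg
    rcases (MonoidHom.normal_ker φ).eq_bot_or_eq_top with h | h
    · have : g ∈ φ.ker := hg
      rw [h] at this
      exact this
    · exfalso
      apply hH
      rw [eq_top_iff]
      intro x _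
      have hx : x ∈ φ.ker := by rw [h]; trivial
      have hx' : φ x = 1 := hx
      have h1 : (MulAction.toPerm x : Equiv.Perm (G ⧸ H)) = 1 := by
        have : e.permCongr (MulAction.toPerm x) = 1 := by rw [← hφ]; exact hx'
        apply (Equiv.permCongr e).injective
        rw [this]; ext; simp
      have h2 : x • ((1 : G) : G ⧸ H) = ((1 : G) : G ⧸ H) := by
        have := congrArg (fun σ : Equiv.Perm (G ⧸ H) => σ ((1 : G) : G ⧸ H)) h1
        simpa using this
      have h3 : ((x : G) : G ⧸ H) = ((1 : G) : G ⧸ H) := by
        simpa [MulAction.Quotient.smul_coe] using h2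
      have h4 := QuotientGroup.eq.mp h3
      simpa using h4
  have hsign : ∀ g : G, Equiv.Perm.sign (φ g) = 1 := by
    intro g
    let ψ : G →* ℤˣ := (Equiv.Perm.sign).comp φ
    rcases (MonoidHom.normal_ker ψ).eq_bot_or_eq_top with h | h
    · exfalso
      apply hG
      have hψ : Function.Injective ψ := (MonoidHom.ker_eq_bot_iff ψ).mp h
      refine ⟨⟨fun a b => hψ ?_⟩⟩
      rw [map_mul, map_mul, mul_comm]
    · have hx : g ∈ ψ.ker := by rw [h]; trivial
      exact hx
  refine ⟨φ.codRestrict (alternatingGroup (Fin H.index)) (fun g => Equiv.Perm.mem_alternatingGroup.mpr (hsign g)), ?_⟩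
  intro a b hab
  apply hinj
  exact congrArg Subtype.val hab

end Cfsg.Agent.S0991
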