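import Cfsg.Statements.S1010
import Cfsg.Agent.Lib.Perm.SylowNumber
import Cfsg.Agent.Lib.Basic.SylowCount

set_option autoImplicit false
set_option linter.unusedSectionVars false
open Cfsg

namespace Cfsg.Agent.S1010

open MulAction Cfsg.Agent.Lib.Perm.SylowNumber

universe u

instance fact_five : Fact (Nat.Prime 5) := ⟨by norm_num⟩
instance fact_seven : Fact (Nat.Prime 7) := ⟨by norm_num⟩

section core
variable {G : Type u} [Group G] [Finite G]

theorem hdiv21 : ∀ d, d ∣ 21 → d % 5 = 1 % 5 → d = 1 ∨ d = 21 := by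
  intro d hd hm
  have h1 : d ≤ 21 := Nat.le_of_dvd (by norm_num) hd
  interval_cases d <;> omega

theorem fix_one_or_six (hX : Nat.card (Sylow 5 G) = 21)
    (hfaith : Function.Injective (toPermHom G (Sylow 5 G))) (x : G) (k : ℕ)
    (hk : orderOf x = 5 ^ k) (hx : x ≠ 1) :
    (fixSet x : Set (Sylow 5 G)).ncard = 1 ∨ (fixSet x : Set (Sylow 5 G)).ncard = 6 := by
  have h1 := two_mul_fix_le 21 hX (by norm_num) hdiv21 hfaith x k hk hx
  have h2 := card_fix_modEq (α := Sylow 5 G) 5 x k hk
  rw [hX] at h2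
  have h3 : 21 % 5 = (fixSet x : Set (Sylow 5 G)).ncard % 5 := h2
  omega

/-- Fixed set of a nontrivial element of `a` fixing a further point `b`. -/
theorem fix_eq_of_mem (hX : Nat.card (Sylow 5 G) = 21)
    (hfaith : Function.Injective (toPermHom G (Sylow 5 G))) (a b : Sylow 5 G) (hab : b ≠ a)
    (z : G) (hz : z ∈ (a : Subgroup G)) (hz1 : z ≠ 1) (hzb : z • b = b) :
    (fixSet z : Set (Sylow 5 G)) = insert a (orbit (a : Subgroup G) b) := by
  obtain ⟨k, hk⟩ := exists_orderOf_of_mem a hz
  have hc : ∀ u ∈ (a : Subgroup G), z * u = u * z := fun u hu =>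
    sylow_commute 21 hX (by norm_num) hfaith a hz hu
  have hsub : insert a (orbit (a : Subgroup G) b) ⊆ (fixSet z : Set (Sylow 5 G)) := by
    rintro y (rfl | ⟨⟨u, hu⟩, rfl⟩)
    · exact smul_self_of_mem y hz
    · exact fixSet_invariant _ z hc u hu b hzb
  have hcard : (insert a (orbit (a : Subgroup G) b)).ncard = 6 := by
    rw [Set.ncard_insert_of_notMem (not_mem_orbit a b hab), card_orbit_eq 21 hX (by norm_num) a b hab]
  refine (Set.eq_of_subset_of_ncard_le hsub ?_ (Set.toFinite _)).symm
  rw [hcard]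
  rcases fix_one_or_six hX hfaith z k hk hz1 with h | h
  · have := Set.ncard_le_ncard hsub (Set.toFinite _)
    omega
  · omega

/-- All Sylow subgroups act "freely" off their fixed point. -/
theorem free (hX : Nat.card (Sylow 5 G) = 21)
    (hfaith : Function.Injective (toPermHom G (Sylow 5 G))) (a : Sylow 5 G) :
    ∀ x ∈ (a : Subgroup G), x ≠ 1 → ∀ y : Sylow 5 G, x • y = y → y = a := by
  by_contra hcon
  simp only [not_forall] at hcon
  obtain ⟨x₀, hx₀, hx₀1, y₀, hy₀, hy₀a⟩ := hcon
  -- two-point stabilizers in Sylow subgroups are nontrivial for all pairs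
  have hos : ∀ (c d : Sylow 5 G), d ≠ c →
      Nat.card (c : Subgroup G) = 5 * Nat.card (stabilizer (c : Subgroup G) d) := by
    intro c d hd
    have h := Nat.card_congr (orbitProdStabilizerEquivGroup (c : Subgroup G) d)
    rw [Nat.card_prod, Nat.card_coe_set_eq, card_orbit_eq 21 hX (by norm_num) c d hd] at h
    exact h.symm
  have hone : 1 < Nat.card (stabilizer (a : Subgroup G) y₀) := by
    have hnt : Nontrivial (stabilizer (a : Subgroup G) y₀) := by
      refine ⟨⟨⟨⟨x₀, hx₀⟩, hy₀⟩, 1, ?_⟩⟩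
      intro h
      apply hx₀1
      have := congrArg (fun w : stabilizer (a : Subgroup G) y₀ => ((w : (a : Subgroup G)) : G)) h
      exact this
    exact Finite.one_lt_card
  have hstab : ∀ (c d : Sylow 5 G), d ≠ c → ∃ z ∈ (c : Subgroup G), z ≠ 1 ∧ z • d = d := by
    intro c d hd
    have h1 := hos c d hd
    have h2 := hos a y₀ hy₀a
    have h3 : Nat.card (c : Subgroup G) = Nat.card (a : Subgroup G) :=
      Nat.card_congr (Sylow.equiv c a).toEquiv
    have h4 : 1 < Nat.card (stabilizer (c : Subgroup G) d) := by omega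
    have hnt : Nontrivial (stabilizer (c : Subgroup G) d) := Finite.one_lt_card_iff_nontrivial.mp h4
    obtain ⟨z, hz⟩ := exists_ne (1 : stabilizer (c : Subgroup G) d)
    refine ⟨((z : (c : Subgroup G)) : G), (z : (c : Subgroup G)).2, ?_, z.2⟩
    intro h
    exact hz (Subtype.ext (Subtype.ext h))
  -- the "line" through `a` and `y₀`
  have hL := fix_eq_of_mem hX hfaith a y₀ hy₀a x₀ hx₀ hx₀1 hy₀
  have hLc : (fixSet x₀ : Set (Sylow 5 G)).ncard = 6 := by
    rw [hL, Set.ncard_insert_of_notMem (not_mem_orbit a y₀ hy₀a),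
      card_orbit_eq 21 hX (by norm_num) a y₀ hy₀a]
  obtain ⟨e, -, he⟩ : ∃ e, e ∈ (Set.univ : Set (Sylow 5 G)) ∧ e ∉ (fixSet x₀ : Set (Sylow 5 G)) := by
    apply Set.exists_mem_notMem_of_ncard_lt_ncard _ (Set.toFinite _)
    rw [Set.ncard_univ, hX, hLc]
    norm_num
  obtain ⟨y, hy, w, hw, hwo, hwy⟩ : ∃ y ∈ (fixSet x₀ : Set (Sylow 5 G)),
      ∃ w ∈ (fixSet x₀ : Set (Sylow 5 G)), w ∈ orbit (e : Subgroup G) y ∧ w ≠ y := by
    by_contra hcon
    simp only [not_exists, not_and, not_not] at hcon
    have h1 := mul_ncard_add_one_le 21 hX (by norm_num) e (fixSet x₀ : Set (Sylow 5 G))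
      (fun y hy h => he (h ▸ hy)) (fun y hy w hw hwo => hcon y hy w hw hwo)
    rw [hLc] at h1
    omega
  have hye : y ≠ e := fun h => he (h ▸ hy)
  obtain ⟨z', hz', hz'1, hz'y⟩ := hstab e y hye
  have hz'w : z' • w = w := by
    have h1 := fix_eq_of_mem hX hfaith e y hye z' hz' hz'1 hz'y
    have h2 : w ∈ (fixSet z' : Set (Sylow 5 G)) := by
      rw [h1]; exact Or.inr hwo
    exact h2
  obtain ⟨k, hk⟩ := exists_orderOf_of_mem a hx₀
  obtain ⟨k', hk'⟩ := exists_orderOf_of_mem e hz'
  have h1 := fix_eq_of_mem hX hfaith y w hwy x₀ ((smul_eq_iff_mem x₀ k hk y).mp hy) hx₀1 hw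
  have h2 := fix_eq_of_mem hX hfaith y w hwy z' ((smul_eq_iff_mem z' k' hk' y).mp hz'y) hz'1 hz'w
  apply he
  rw [h1, ← h2]
  exact smul_self_of_mem e hz'

theorem card_P (hX : Nat.card (Sylow 5 G) = 21)
    (hfaith : Function.Injective (toPermHom G (Sylow 5 G))) (P : Sylow 5 G) :
    Nat.card (P : Subgroup G) = 5 :=
  card_eq_of_free 21 hX (by norm_num) (by norm_num) P (free hX hfaith P)

/-- Number of fixed points of an involution. -/
theorem invol_fix_mod (hX : Nat.card (Sylow 5 G) = 21)
    (hfaith : Function.Injective (toPermHom G (Sylow 5 G)))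
    (hno : ∀ K : Subgroup G, K.Normal → ¬ 5 ∣ K.index → K = ⊤) (c : G) (hc : orderOf c = 2) :
    (fixSet c : Set (Sylow 5 G)).ncard % 4 = 1 := by
  have h4 := four_dvd_moved_sylow (p := 5) (by norm_num) hno hfaith c hc
  have hm := moved_add_fix 21 hX c
  omega

theorem ne_one_of_order_two {c : G} (hc : orderOf c = 2) : c ≠ 1 := by
  intro h
  rw [h, orderOf_one] at hc
  omega

theorem fix_ge_two {c : G} {a b : Sylow 5 G} (hab : a ≠ b) (hca : c • a = a) (hcb : c • b = b) :
    2 ≤ (fixSet c : Set (Sylow 5 G)).ncard := by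
  have hsub : ({a, b} : Set (Sylow 5 G)) ⊆ fixSet c := by
    intro y hy
    rcases hy with rfl | hy
    · exact hca
    · rw [Set.mem_singleton_iff] at hy
      rw [hy]; exact hcb
  have h1 := Set.ncard_le_ncard hsub (Set.toFinite _)
  rwa [Set.ncard_pair hab] at h1

/-- An involution fixing two points does not centralize the Sylow subgroup of one of them. -/
theorem invol_not_commute (hX : Nat.card (Sylow 5 G) = 21)
    (hfaith : Function.Injective (toPermHom G (Sylow 5 G)))
    (hno : ∀ K : Subgroup G, K.Normal → ¬ 5 ∣ K.index → K = ⊤) (a b : Sylow 5 G) (hab : a ≠ b)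
    (c : G) (hc : orderOf c = 2) (hca : c • a = a) (hcb : c • b = b) :
    ¬ ∀ u ∈ (a : Subgroup G), c * u = u * c := by
  intro hcomm
  have hmod := fix_mod_of_commute a c hca hcomm
  have hm4 := invol_fix_mod hX hfaith hno c hc
  have hge := fix_ge_two hab hca hcb
  have hle := fix_le 21 hX c
  have hne : (fixSet c : Set (Sylow 5 G)).ncard ≠ 21 := fun h =>
    ne_one_of_order_two hc (eq_one_of_fix_all 21 hX hfaith c h)
  omega

/-- Structure of an involution fixing two points. -/
theorem invol_struct (hX : Nat.card (Sylow 5 G) = 21)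
    (hfaith : Function.Injective (toPermHom G (Sylow 5 G)))
    (hno : ∀ K : Subgroup G, K.Normal → ¬ 5 ∣ K.index → K = ⊤) (a b : Sylow 5 G) (hab : a ≠ b)
    (c : G) (hc : orderOf c = 2) (hca : c • a = a) (hcb : c • b = b) :
    (∀ u ∈ (a : Subgroup G), c * u * c⁻¹ = u⁻¹) ∧ (fixSet c : Set (Sylow 5 G)).ncard = 5 ∧
      ∀ y : Sylow 5 G, y ≠ a → c • y ∈ orbit (a : Subgroup G) y := by
  have hcc : c * c = 1 := by
    have := pow_orderOf_eq_one c
    rw [hc, pow_two] at this
    exact this
  have hn : c ∈ Subgroup.normalizer ((a : Subgroup G) : Set G) :=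
    Sylow.smul_eq_iff_mem_normalizer.mp hca
  have hinv := inverts_of_not_centralizes (a : Subgroup G) (card_P hX hfaith a) c hcc hn
    (invol_not_commute hX hfaith hno a b hab c hc hca hcb)
  have huniq : ∀ y ∈ (fixSet c : Set (Sylow 5 G)) \ {a}, ∀ z ∈ (fixSet c : Set (Sylow 5 G)) \ {a},
      z ∈ orbit (a : Subgroup G) y → z = y := fun y hy z hz hzo =>
    fix_orbit_unique a (card_P hX hfaith a) (by norm_num) (free hX hfaith a) c hinv hy.1 hy.2 hz.1 hzo
  have hS := mul_ncard_add_one_le 21 hX (by norm_num) a ((fixSet c : Set (Sylow 5 G)) \ {a})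
    (fun y hy => hy.2) huniq
  have h5 := Set.ncard_sdiff_singleton_add_one (show a ∈ (fixSet c : Set (Sylow 5 G)) from hca)
    (Set.toFinite _)
  have hm4 := invol_fix_mod hX hfaith hno c hc
  have hge := fix_ge_two hab hca hcb
  have h55 : (fixSet c : Set (Sylow 5 G)).ncard = 5 := by omega
  refine ⟨hinv, h55, ?_⟩
  intro y hy
  obtain ⟨w, hw, hyw⟩ : ∃ w ∈ (fixSet c : Set (Sylow 5 G)) \ {a}, y ∈ orbit (a : Subgroup G) w := by
    by_contra hcon
    simp only [not_exists, not_and] at hcon
    have hyn : y ∉ (fixSet c : Set (Sylow 5 G)) \ {a} := fun h => hcon y h (mem_orbit_self y)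
    have hS' := mul_ncard_add_one_le 21 hX (by norm_num) a
      (insert y ((fixSet c : Set (Sylow 5 G)) \ {a}))
      (by
        rintro w (rfl | hw)
        · exact hy
        · exact hw.2)
      (by
        rintro w (rfl | hw) v (rfl | hv) hwv
        · rfl
        · exact absurd (by rw [orbit_eq_iff.mpr hwv]; exact mem_orbit_self w) (hcon v hv)
        · exact absurd hwv (hcon w hw)
        · exact huniq w hw v hv hwv)
    rw [Set.ncard_insert_of_notMem hyn] at hS'
    omega
  obtain ⟨⟨u, hu⟩, rfl⟩ := hyw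
  have hw' : c • w = w := hw.1
  change c • u • w ∈ orbit (a : Subgroup G) (u • w)
  have h1 : c • u • w = u⁻¹ • w := by
    have : c • u • w = (c * u * c⁻¹) • c • w := by
      simp only [mul_smul, inv_smul_smul]
    rw [this, hinv u hu, hw']
  rw [h1]
  refine ⟨⟨u⁻¹ * u⁻¹, mul_mem (inv_mem hu) (inv_mem hu)⟩, ?_⟩
  change (u⁻¹ * u⁻¹) • u • w = u⁻¹ • w
  rw [mul_smul, inv_smul_smul]

/-- The centralizer part of a two-point stabilizer has order dividing 3. -/
theorem card_Z_dvd (hX : Nat.card (Sylow 5 G) = 21)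
    (hfaith : Function.Injective (toPermHom G (Sylow 5 G)))
    (hno : ∀ K : Subgroup G, K.Normal → ¬ 5 ∣ K.index → K = ⊤) (a b : Sylow 5 G) (hab : a ≠ b) :
    Nat.card ((stabilizer G a ⊓ stabilizer G b) ⊓
      Subgroup.centralizer ((a : Subgroup G) : Set G) : Subgroup G) ∣ 3 := by
  set Z : Subgroup G := (stabilizer G a ⊓ stabilizer G b) ⊓
      Subgroup.centralizer ((a : Subgroup G) : Set G) with hZ
  have hb : b ≠ a := Ne.symm hab
  have hZc : ∀ d ∈ Z, ∀ u ∈ (a : Subgroup G), d * u = u * d := fun d hd u hu =>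
    (Subgroup.mem_centralizer_iff.mp hd.2 u hu).symm
  have hZa : ∀ d ∈ Z, d • a = a := fun d hd => hd.1.1
  have hZb : ∀ d ∈ Z, d • b = b := fun d hd => hd.1.2
  let R : Set (Sylow 5 G) := (insert a (orbit (a : Subgroup G) b))ᶜ
  have hRc : R.ncard = 15 := by
    have h1 := Set.ncard_add_ncard_compl (insert a (orbit (a : Subgroup G) b))
    rw [Set.ncard_insert_of_notMem (not_mem_orbit a b hb), card_orbit_eq 21 hX (by norm_num) a b hb,
      hX] at h1
    change (insert a (orbit (a : Subgroup G) b))ᶜ.ncard = 15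
    omega
  -- elements of `Z` fix `a` and the orbit of `b`
  have hZfix : ∀ d ∈ Z, ∀ y ∈ insert a (orbit (a : Subgroup G) b), d • y = y := by
    rintro d hd y (rfl | ⟨⟨u, hu⟩, rfl⟩)
    · exact hZa d hd
    · exact fixSet_invariant _ d (hZc d hd) u hu b (hZb d hd)
  have hfree : ∀ d ∈ Z, d ≠ 1 → ∀ y ∈ R, d • y ≠ y := by
    intro d hd hd1 y hy hdy
    obtain ⟨r, m, hrp, hro, -⟩ := exists_pow_prime_order d hd1
    haveI : Fact r.Prime := ⟨hrp⟩
    set e := d ^ m with he
    have he1 : e ≠ 1 := by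
      intro h
      rw [h, orderOf_one] at hro
      exact hrp.one_lt.ne hro
    have hez : e ∈ Z := pow_mem hd m
    have hey : e • y = y := pow_smul_fix hdy m
    have hya : y ≠ a := fun h => hy (by rw [h]; exact Or.inl rfl)
    have hyo : y ∉ orbit (a : Subgroup G) b := fun h => hy (Or.inr h)
    -- at least eleven fixed points
    have hge : 11 ≤ (fixSet e : Set (Sylow 5 G)).ncard := by
      have hsub : insert y ((insert a (orbit (a : Subgroup G) b)) \ {y}) ⊆ (insert a (orbit (a : Subgroup G) b)) ∪ orbit (a : Subgroup G) y := by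
        intro w hw
        rcases hw with rfl | hw
        · exact Or.inr (mem_orbit_self w)
        · exact Or.inl hw.1
      have hsub2 : insert a (orbit (a : Subgroup G) b) ∪ orbit (a : Subgroup G) y ⊆ (fixSet e : Set (Sylow 5 G)) := by
        rintro w (hw | ⟨⟨u, hu⟩, rfl⟩)
        · exact hZfix e hez w hw
        · exact fixSet_invariant _ e (hZc e hez) u hu y hey
      have hdisj : Disjoint (insert a (orbit (a : Subgroup G) b)) (orbit (a : Subgroup G) y) := by
        rw [Set.disjoint_left]
        rintro w (rfl | hw) hw2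
        · exact not_mem_orbit w y hya hw2
        · apply hyo
          rw [← orbit_eq_iff.mpr hw, orbit_eq_iff.mpr hw2]
          exact mem_orbit_self y
      have h1 := Set.ncard_union_eq hdisj (Set.toFinite _) (Set.toFinite _)
      rw [Set.ncard_insert_of_notMem (not_mem_orbit a b hb), card_orbit_eq 21 hX (by norm_num) a b hb,
        card_orbit_eq 21 hX (by norm_num) a y hya] at h1
      have h2 := Set.ncard_le_ncard hsub2 (Set.toFinite _)
      omega
    have hle := fix_le 21 hX e
    have hne : (fixSet e : Set (Sylow 5 G)).ncard ≠ 21 := fun h =>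
      he1 (eq_one_of_fix_all 21 hX hfaith e h)
    have hmod := fix_mod_of_commute a e (hZa e hez) (hZc e hez)
    have hf : (fixSet e : Set (Sylow 5 G)).ncard = 11 ∨ (fixSet e : Set (Sylow 5 G)).ncard = 16 := by
      omega
    have hr := card_fix_modEq (α := Sylow 5 G) r e 1 (by rw [hro, pow_one])
    rw [hX] at hr
    have hrdvd : r ∣ 21 - (fixSet e : Set (Sylow 5 G)).ncard :=
      (Nat.modEq_iff_dvd' (by omega)).mp hr.symm
    have hr25 : r = 2 ∨ r = 5 := by
      rcases hf with h | h
      · rw [h] at hrdvd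
        have h10 : r ∣ 2 * 5 := hrdvd
        rcases (Nat.Prime.dvd_mul hrp).mp h10 with h3 | h3
        · exact Or.inl ((Nat.prime_dvd_prime_iff_eq hrp (by norm_num)).mp h3)
        · exact Or.inr ((Nat.prime_dvd_prime_iff_eq hrp (by norm_num)).mp h3)
      · rw [h] at hrdvd
        exact Or.inr ((Nat.prime_dvd_prime_iff_eq hrp (by norm_num)).mp hrdvd)
    rcases hr25 with h2 | h5
    · -- an involution
      exact invol_not_commute hX hfaith hno a b hab e (by rw [hro, h2]) (hZa e hez) (hZb e hez) (hZc e hez)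
    · -- a `5`-element
      have := fix_one_or_six hX hfaith e 1 (by rw [hro, h5, pow_one]) he1
      omega
  have hinv : ∀ u ∈ Z, ∀ y ∈ R, u • y ∈ R := by
    intro u hu y hy h
    apply hy
    have h1 := hZfix u hu _ h
    have h2 : u • y = y := by
      have h3 := smul_left_cancel u h1
      rw [h3]
    rw [← h2]
    exact h
  have h15 := card_dvd_ncard_of_free Z R hinv hfree
  rw [hRc] at h15
  have h5 : ¬ 5 ∣ Nat.card Z := by
    intro h5
    obtain ⟨e, he⟩ := exists_prime_orderOf_dvd_card' 5 h5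
    have he' : orderOf (e : G) = 5 := by rw [Subgroup.orderOf_coe, he]
    have he1 : (e : G) ≠ 1 := by
      intro h
      rw [h, orderOf_one] at he'
      omega
    have hea : (e : G) ∈ (a : Subgroup G) :=
      (smul_eq_iff_mem (e : G) 1 (by rw [he', pow_one]) a).mp (hZa _ e.2)
    exact hb (free hX hfaith a _ hea he1 b (hZb _ e.2))
  have hd := Nat.le_of_dvd (by norm_num) h15
  generalize Nat.card Z = m at *
  interval_cases m <;> omega

/-- Two-point stabilizers have order dividing 12. -/
theorem card_T_dvd (hX : Nat.card (Sylow 5 G) = 21)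
    (hfaith : Function.Injective (toPermHom G (Sylow 5 G)))
    (hno : ∀ K : Subgroup G, K.Normal → ¬ 5 ∣ K.index → K = ⊤) (a b : Sylow 5 G) (hab : a ≠ b) :
    Nat.card (stabilizer G a ⊓ stabilizer G b : Subgroup G) ∣ 12 := by
  have hle : (stabilizer G a ⊓ stabilizer G b : Subgroup G) ≤
      Subgroup.normalizer ((a : Subgroup G) : Set G) := fun d hd =>
    Sylow.smul_eq_iff_mem_normalizer.mp hd.1
  have h1 := card_dvd_mul_mulAut (a : Subgroup G) _ hle
  haveI hcyc : IsCyclic (a : Subgroup G) := isCyclic_of_prime_card (p := 5) (card_P hX hfaith a)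
  rw [hcyc.card_mulAut, card_P hX hfaith a] at h1
  have htot : Nat.totient 5 = 4 := by decide
  rw [htot] at h1
  exact h1.trans (Nat.mul_dvd_mul_right (card_Z_dvd hX hfaith hno a b hab) 4)

/-- The order of the normalizer in terms of an orbit and a two-point stabilizer. -/
theorem card_M (hX : Nat.card (Sylow 5 G) = 21) (a b : Sylow 5 G) (hab : a ≠ b) :
    ∃ s : ℕ, 1 ≤ s ∧ s ≤ 4 ∧
      (orbit (Subgroup.normalizer ((a : Subgroup G) : Set G)) b).ncard = 5 * s ∧
      Nat.card (Subgroup.normalizer ((a : Subgroup G) : Set G)) =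
        5 * s * Nat.card (stabilizer G a ⊓ stabilizer G b : Subgroup G) := by
  set M := Subgroup.normalizer ((a : Subgroup G) : Set G) with hM
  have hb : b ≠ a := Ne.symm hab
  have hnotP : a ∉ orbit M b := by
    rintro ⟨m, hm⟩
    apply hb
    have hm' : (m : G) • b = a := hm
    have hmP : (m : G)⁻¹ • a = a :=
      Sylow.smul_eq_iff_mem_normalizer.mpr (inv_mem m.2)
    have h3 : b = (m : G)⁻¹ • a := by rw [← hm', inv_smul_smul]
    exact h3.trans hmP
  have h5 : 5 ∣ (orbit M b).ncard := by
    have h1 := dvd_ncard_sdiff a (orbit M b) (by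
      rintro u hu _ ⟨m, rfl⟩
      exact ⟨⟨u, a.le_normalizer hu⟩ * m, by
        change ((u * (m : G))) • b = u • (m : G) • b
        rw [mul_smul]⟩)
    rwa [Set.sdiff_singleton_eq_self hnotP] at h1
  have hle : (orbit M b).ncard ≤ 20 := by
    have hsub : orbit M b ⊆ ({a} : Set (Sylow 5 G))ᶜ := by
      intro y hy h
      rw [Set.mem_singleton_iff] at h
      exact hnotP (h ▸ hy)
    have h1 := Set.ncard_le_ncard hsub (Set.toFinite _)
    have h2 := Set.ncard_add_ncard_compl ({a} : Set (Sylow 5 G))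
    rw [Set.ncard_singleton, hX] at h2
    omega
  have hpos : 0 < (orbit M b).ncard := by
    rw [Set.ncard_pos (Set.toFinite _)]
    exact ⟨b, mem_orbit_self b⟩
  obtain ⟨s, hs⟩ := h5
  refine ⟨s, by omega, by omega, hs, ?_⟩
  have h := Nat.card_congr (orbitProdStabilizerEquivGroup M b)
  rw [Nat.card_prod, Nat.card_coe_set_eq, hs] at h
  rw [← h]
  congr 1
  refine Nat.card_congr (Equiv.ofBijective (fun x => ⟨((x : M) : G), ?_, x.2⟩) ⟨?_, ?_⟩)
  · exact Sylow.smul_eq_iff_mem_normalizer.mpr (x : M).2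
  · rintro ⟨⟨x, hx⟩, hx2⟩ ⟨⟨y, hy⟩, hy2⟩ h
    have : x = y := congrArg (fun z : (stabilizer G a ⊓ stabilizer G b : Subgroup G) => (z : G)) h
    subst this
    rfl
  · rintro ⟨x, hx1, hx2⟩
    exact ⟨⟨⟨x, Sylow.smul_eq_iff_mem_normalizer.mp hx1⟩, hx2⟩, rfl⟩

/-- Arithmetic of the orders. -/
theorem arith (s t w n : ℕ) (hs1 : 1 ≤ s) (hs4 : s ≤ 4) (ht : t ∣ 12) (hw : w ∣ 18)
    (h : 15 * (s * t) = w * n) (hn : n % 7 = 1) :
    ((s * t = 1 ∨ s * t = 3 ∨ s * t = 9) ∧ n = 15) ∨ (s * t = 2 ∨ s * t = 6 ∨ s * t = 18) ∨ w = 1 ∨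
      (s * t = 16 ∨ s * t = 24 ∨ s * t = 48) := by
  have ht' : t = 1 ∨ t = 2 ∨ t = 3 ∨ t = 4 ∨ t = 6 ∨ t = 12 := by
    have h1 : t ≤ 12 := Nat.le_of_dvd (by norm_num) ht
    interval_cases t <;> omega
  have hw' : w = 1 ∨ w = 2 ∨ w = 3 ∨ w = 6 ∨ w = 9 ∨ w = 18 := by
    have h1 : w ≤ 18 := Nat.le_of_dvd (by norm_num) hw
    interval_cases w <;> omega
  interval_cases s <;> rcases ht' with rfl | rfl | rfl | rfl | rfl | rfl <;>
    rcases hw' with rfl | rfl | rfl | rfl | rfl | rfl <;> omega

theorem even_of (s t : ℕ) (hs4 : s ≤ 4) (ht : t ∣ 12)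
    (h : s * t = 16 ∨ s * t = 24 ∨ s * t = 48) : 2 ∣ t := by
  have ht' : t = 1 ∨ t = 2 ∨ t = 3 ∨ t = 4 ∨ t = 6 ∨ t = 12 := by
    have h1 : t ≤ 12 := Nat.le_of_dvd (by norm_num) ht
    interval_cases t <;> omega
  rcases ht' with rfl | rfl | rfl | rfl | rfl | rfl <;> omega

/-- A group whose order is exactly once divisible by `2` has a normal subgroup of index `2`. -/
theorem exists_index_two (h2 : 2 ∣ Nat.card G) (h4 : ¬ 4 ∣ Nat.card G) :
    ∃ K : Subgroup G, K.Normal ∧ K.index = 2 := by
  obtain ⟨S⟩ : Nonempty (Sylow 2 G) := inferInstance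
  have hS2 : Nat.card (S : Subgroup G) = 2 :=
    haveI : Fact (Nat.Prime 2) := ⟨Nat.prime_two⟩
    Cfsg.Agent.Lib.Basic.SylowCount.card_sylow_eq_prime h2 (by simpa using h4) S
  have hcyc : IsCyclic (S : Subgroup G) := isCyclic_of_prime_card (p := 2) hS2
  have hp : (Nat.card G).minFac = 2 := (Nat.minFac_eq_two_iff _).mpr h2
  have hc := IsCyclic.isComplement' hp hcyc
  refine ⟨(MonoidHom.transferSylow S (hcyc.normalizer_le_centralizer hp)).ker,
    MonoidHom.normal_ker _, ?_⟩
  rw [hc.symm.index_eq_card, hS2]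

/-- A group of odd order, exactly once divisible by `5`, has a normal subgroup of index `5`. -/
theorem exists_index_five (h1 : Odd (Nat.card G)) (h5 : 5 ∣ Nat.card G) (h25 : ¬ 25 ∣ Nat.card G) :
    ∃ K : Subgroup G, K.Normal ∧ K.index = 5 := by
  obtain ⟨S⟩ : Nonempty (Sylow 5 G) := inferInstance
  have hS5 : Nat.card (S : Subgroup G) = 5 :=
    Cfsg.Agent.Lib.Basic.SylowCount.card_sylow_eq_prime h5 (by simpa using h25) S
  have hcyc : IsCyclic (S : Subgroup G) := isCyclic_of_prime_card (p := 5) hS5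
  have hnc : Subgroup.normalizer ((S : Subgroup G) : Set G) ≤
      Subgroup.centralizer ((S : Subgroup G) : Set G) := by
    have key := Subgroup.card_dvd_of_injective _
      (QuotientGroup.kerLift_injective (S : Subgroup G).normalizerMonoidHom)
    rw [Subgroup.normalizerMonoidHom_ker, ← Subgroup.index, ← Subgroup.relIndex,
      hcyc.card_mulAut, hS5] at key
    have h4 : Nat.totient 5 = 4 := by decide
    rw [h4] at key
    have h6 : (Subgroup.centralizer ((S : Subgroup G) : Set G)).relIndex
        (Subgroup.normalizer ((S : Subgroup G) : Set G)) ∣ Nat.card G :=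
      (Subgroup.relIndex_dvd_card _ _).trans (Subgroup.card_subgroup_dvd_card _)
    have h7 : Nat.Coprime 4 (Nat.card G) := by
      have : Nat.Coprime 2 (Nat.card G) := Nat.coprime_two_left.mpr h1
      exact Nat.Coprime.pow_left 2 this
    exact Subgroup.relIndex_eq_one.mp (Nat.eq_one_of_dvd_coprimes h7 key h6)
  have hc := MonoidHom.ker_transferSylow_isComplement' S hnc
  refine ⟨(MonoidHom.transferSylow S hnc).ker, MonoidHom.normal_ker _, ?_⟩
  rw [hc.symm.index_eq_card, hS5]

/-- Sylow `7`-subgroups: local structure. -/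
theorem sylow_seven (hX : Nat.card (Sylow 5 G) = 21)
    (hfaith : Function.Injective (toPermHom G (Sylow 5 G)))
    (hno : ∀ K : Subgroup G, K.Normal → ¬ 5 ∣ K.index → K = ⊤)
    (hM7 : ∀ a : Sylow 5 G, ¬ 7 ∣ Nat.card (stabilizer G a))
    (hG7 : 7 ∣ Nat.card G) (hG49 : ¬ 49 ∣ Nat.card G) (Y : Sylow 7 G) :
    Nat.card (Subgroup.normalizer ((Y : Subgroup G) : Set G)) ∣ 126 := by
  have hY7 : Nat.card (Y : Subgroup G) = 7 :=
    Cfsg.Agent.Lib.Basic.SylowCount.card_sylow_eq_prime hG7 (by simpa using hG49) Y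
  -- no element of order 7 fixes a point
  have hseven : ∀ y : G, orderOf y = 7 → ∀ a : Sylow 5 G, y • a ≠ a := by
    intro y hy a hya
    apply hM7 a
    have h0 : y ∈ stabilizer G a := hya
    have h1 : orderOf (⟨y, h0⟩ : stabilizer G a) = 7 := by
      rw [Subgroup.orderOf_mk, hy]
    rw [← h1]
    exact orderOf_dvd_natCard _
  have hYfree : ∀ u ∈ (Y : Subgroup G), u ≠ 1 → ∀ a : Sylow 5 G, u • a ≠ a := by
    intro u hu hu1 a
    apply hseven
    have hd : orderOf (⟨u, hu⟩ : (Y : Subgroup G)) ∣ 7 := by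
      have := orderOf_dvd_natCard (⟨u, hu⟩ : (Y : Subgroup G))
      rwa [hY7] at this
    rw [Subgroup.orderOf_mk] at hd
    exact ((Nat.dvd_prime (by norm_num)).mp hd).resolve_left (fun h => hu1 (orderOf_eq_one_iff.mp h))
  set C := Subgroup.centralizer ((Y : Subgroup G) : Set G) with hC
  have hCfree : ∀ c ∈ C, c ≠ 1 → ∀ a ∈ (Set.univ : Set (Sylow 5 G)), c • a ≠ a := by
    intro c hc hc1 a _ hca
    obtain ⟨r, m, hrp, hro, -⟩ := exists_pow_prime_order c hc1
    haveI : Fact r.Prime := ⟨hrp⟩
    set e := c ^ m with he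
    have he1 : e ≠ 1 := by
      intro h
      rw [h, orderOf_one] at hro
      exact hrp.one_lt.ne hro
    have hec : ∀ u ∈ (Y : Subgroup G), e * u = u * e := fun u hu =>
      (Commute.pow_left (show Commute c u from (Subgroup.mem_centralizer_iff.mp hc u hu).symm) m)
    have hea : e • a = a := pow_smul_fix hca m
    -- `7` divides the number of fixed points
    have h7 : 7 ∣ (fixSet e : Set (Sylow 5 G)).ncard := by
      apply dvd_ncard_of_invariant (Y : Subgroup G) Y.isPGroup' _ (fixSet_invariant _ e hec)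
      intro y _
      obtain ⟨v, hv⟩ : ∃ v : (Y : Subgroup G), v ≠ 1 := by
        have : Nontrivial (Y : Subgroup G) := Finite.one_lt_card_iff_nontrivial.mp (by rw [hY7]; norm_num)
        exact exists_ne 1
      refine ⟨v, v.2, ?_⟩
      exact hYfree v v.2 (fun h => hv (Subtype.ext h)) y
    have hle := fix_le 21 hX e
    have hne : (fixSet e : Set (Sylow 5 G)).ncard ≠ 21 := fun h =>
      he1 (eq_one_of_fix_all 21 hX hfaith e h)
    have hpos : 0 < (fixSet e : Set (Sylow 5 G)).ncard := by
      rw [Set.ncard_pos (Set.toFinite _)]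
      exact ⟨a, hea⟩
    have hr := card_fix_modEq (α := Sylow 5 G) r e 1 (by rw [hro, pow_one])
    rw [hX] at hr
    have hrdvd : r ∣ 21 - (fixSet e : Set (Sylow 5 G)).ncard :=
      (Nat.modEq_iff_dvd' hle).mp hr.symm
    have hf : (fixSet e : Set (Sylow 5 G)).ncard = 7 ∨ (fixSet e : Set (Sylow 5 G)).ncard = 14 := by
      omega
    have hr27 : r = 2 ∨ r = 7 := by
      rcases hf with h | h
      · rw [h] at hrdvd
        have h10 : r ∣ 2 * 7 := hrdvd
        rcases (Nat.Prime.dvd_mul hrp).mp h10 with h3 | h3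
        · exact Or.inl ((Nat.prime_dvd_prime_iff_eq hrp (by norm_num)).mp h3)
        · exact Or.inr ((Nat.prime_dvd_prime_iff_eq hrp (by norm_num)).mp h3)
      · rw [h] at hrdvd
        exact Or.inr ((Nat.prime_dvd_prime_iff_eq hrp (by norm_num)).mp hrdvd)
    rcases hr27 with h2 | h7'
    · have := invol_fix_mod hX hfaith hno e (by rw [hro, h2])
      omega
    · exact hseven e (by rw [hro, h7']) a hea
  have hCd : Nat.card C ∣ 21 := by
    have h1 := card_dvd_ncard_of_free C (Set.univ : Set (Sylow 5 G)) (fun _ _ _ _ => trivial) hCfree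
    rwa [Set.ncard_univ, hX] at h1
  have h1 := card_dvd_mul_mulAut (Y : Subgroup G) (Subgroup.normalizer ((Y : Subgroup G) : Set G)) le_rfl
  haveI hcyc : IsCyclic (Y : Subgroup G) := isCyclic_of_prime_card (p := 7) hY7
  rw [hcyc.card_mulAut, hY7] at h1
  have htot : Nat.totient 7 = 6 := by decide
  rw [htot] at h1
  have h2 : Nat.card (Subgroup.normalizer ((Y : Subgroup G) : Set G) ⊓ C : Subgroup G) ∣ Nat.card C :=
    Subgroup.card_dvd_of_le inf_le_right
  exact h1.trans (Nat.mul_dvd_mul_right (h2.trans hCd) 6)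

/-- Two involutions fixing two common points coincide. -/
theorem invol_unique (hX : Nat.card (Sylow 5 G) = 21)
    (hfaith : Function.Injective (toPermHom G (Sylow 5 G)))
    (hno : ∀ K : Subgroup G, K.Normal → ¬ 5 ∣ K.index → K = ⊤) (a b : Sylow 5 G) (hab : a ≠ b)
    (c c' : G) (hc : orderOf c = 2) (hc' : orderOf c' = 2) (hca : c • a = a) (hcb : c • b = b)
    (hca' : c' • a = a) (hcb' : c' • b = b) : c = c' := by
  obtain ⟨hinv, -, hpres⟩ := invol_struct hX hfaith hno a b hab c hc hca hcb
  obtain ⟨hinv', -, hpres'⟩ := invol_struct hX hfaith hno a b hab c' hc' hca' hcb'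
  have hcomm : ∀ u ∈ (a : Subgroup G), (c * c') * u = u * (c * c') := by
    intro u hu
    have h1 := hinv' u hu
    have h2 := hinv u⁻¹ (inv_mem hu)
    have h3 : c * (c' * u * c'⁻¹) * c⁻¹ = u := by rw [h1, h2, inv_inv]
    calc c * c' * u = (c * (c' * u * c'⁻¹) * c⁻¹) * (c * c') := by group
      _ = u * (c * c') := by rw [h3]
  have hdZ : c * c' ∈ ((stabilizer G a ⊓ stabilizer G b) ⊓
      Subgroup.centralizer ((a : Subgroup G) : Set G) : Subgroup G) := by
    refine ⟨⟨?_, ?_⟩, ?_⟩
    · exact (mul_smul c c' a).trans (by rw [hca', hca])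
    · exact (mul_smul c c' b).trans (by rw [hcb', hcb])
    · exact Subgroup.mem_centralizer_iff.mpr (fun u hu => (hcomm u hu).symm)
  have hd3 : (c * c') ^ 3 = 1 := by
    have h1 := orderOf_dvd_natCard (⟨c * c', hdZ⟩ : ((stabilizer G a ⊓ stabilizer G b) ⊓
      Subgroup.centralizer ((a : Subgroup G) : Set G) : Subgroup G))
    rw [Subgroup.orderOf_mk] at h1
    exact orderOf_dvd_iff_pow_eq_one.mp (h1.trans (card_Z_dvd hX hfaith hno a b hab))
  have hd1 : c * c' = 1 := by
    apply hfaith
    rw [map_one]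
    refine Equiv.ext fun y => ?_
    change (c * c') • y = y
    by_cases hy : y = a
    · rw [hy, mul_smul, hca', hca]
    · have h1 := hpres' y hy
      have h2 : c • c' • y ∈ orbit (a : Subgroup G) y := by
        have hne : c' • y ≠ a := by
          intro h
          apply hy
          have h3 := congrArg (fun w => c'⁻¹ • w) h
          simp only [inv_smul_smul] at h3
          rw [h3]
          exact (inv_smul_eq_iff.mpr hca'.symm)
        have h3 := hpres _ hne
        rw [orbit_eq_iff.mpr h1] at h3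
        exact h3
      obtain ⟨⟨u, hu⟩, hu2⟩ := h2
      have hu2' : u • y = c • c' • y := hu2
      have hdy : (c * c') • y = u • y := by rw [mul_smul, hu2']
      have hu3 : (u ^ 3) • y = y := by
        have h3 : ((c * c') ^ 3) • y = (u ^ 3) • y := by
          have step : ∀ k : ℕ, ((c * c') ^ k) • y = (u ^ k) • y := by
            intro k
            induction k with
            | zero => simp
            | succ k ih =>
              rw [pow_succ, mul_smul, hdy, pow_succ, mul_smul]
              have hck : ((c * c') ^ k) * u = u * ((c * c') ^ k) :=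
                (Commute.pow_left (show Commute (c * c') u from hcomm u hu) k)
              rw [← mul_smul, hck, mul_smul, ih, ← mul_smul, ← mul_smul]
              congr 1
              exact (Commute.pow_left (Commute.refl u) k).eq.symm
          exact step 3
        rw [← h3, hd3, one_smul]
      have hu31 : u ^ 3 = 1 := by
        by_contra hne
        exact hy (free hX hfaith a _ (pow_mem hu 3) hne y hu3)
      have hu1 : u = 1 := by
        have hd : orderOf u ∣ 3 := orderOf_dvd_of_pow_eq_one hu31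
        have hd2 : orderOf u ∣ 5 := by
          have := orderOf_dvd_natCard (⟨u, hu⟩ : (a : Subgroup G))
          rw [card_P hX hfaith a, Subgroup.orderOf_mk] at this
          exact this
        have : orderOf u = 1 := Nat.eq_one_of_dvd_coprimes (by norm_num) hd hd2
        exact orderOf_eq_one_iff.mp this
      rw [hdy, hu1, one_smul]
  have hcc' : c' * c' = 1 := by
    have := pow_orderOf_eq_one c'
    rw [hc', pow_two] at this
    exact this
  calc c = c * (c' * c') := by rw [hcc', mul_one]
    _ = (c * c') * c' := by group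
    _ = c' := by rw [hd1, one_mul]

open scoped Pointwise in
/-- If every pair of points is fixed by an involution, we get a projective plane of order 4;
a Sylow subgroup fixes a unique line. -/
theorem plane (hX : Nat.card (Sylow 5 G) = 21)
    (hfaith : Function.Injective (toPermHom G (Sylow 5 G)))
    (hno : ∀ K : Subgroup G, K.Normal → ¬ 5 ∣ K.index → K = ⊤)
    (hall : ∀ a b : Sylow 5 G, a ≠ b → ∃ c : G, orderOf c = 2 ∧ c • a = a ∧ c • b = b)
    (P : Sylow 5 G) :
    ∃ b : Sylow 5 G, b ≠ P ∧ (orbit (Subgroup.normalizer ((P : Subgroup G) : Set G)) b).ncard ≤ 5 := by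
  classical
  haveI : Fintype (Sylow 5 G) := Fintype.ofFinite _
  have hch : ∀ a b : Sylow 5 G, ∃ c : G, a ≠ b → orderOf c = 2 ∧ c • a = a ∧ c • b = b := by
    intro a b
    by_cases h : a = b
    · exact ⟨1, fun h' => absurd h h'⟩
    · obtain ⟨c, hc⟩ := hall a b h
      exact ⟨c, fun _ => hc⟩
  choose C hC using hch
  let L : Sylow 5 G → Sylow 5 G → Finset (Sylow 5 G) := fun a b =>
    (fixSet (C a b) : Set (Sylow 5 G)).toFinset
  have hmem : ∀ a b y, y ∈ L a b ↔ (C a b) • y = y := by
    intro a b y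
    simp only [L, Set.mem_toFinset]
    exact Iff.rfl
  have hLc : ∀ a b, a ≠ b → (L a b).card = 5 := fun a b hab => by
    have h3 := (invol_struct hX hfaith hno a b hab (C a b) (hC a b hab).1 (hC a b hab).2.1 (hC a b hab).2.2).2.1
    rw [Set.ncard_eq_toFinset_card'] at h3
    exact h3
  have hcount := design_count 5 L
    (fun a b hab => ⟨(hmem a b a).mpr (hC a b hab).2.1, (hmem a b b).mpr (hC a b hab).2.2⟩)
    hLc
    (fun a b a' b' hab hab' ha hb => by
      have h1 := invol_unique hX hfaith hno a' b' hab' (C a' b') (C a b) (hC a' b' hab').1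
        (hC a b hab).1 (hC a' b' hab').2.1 (hC a' b' hab').2.2 ((hmem a b a').mp ha) ((hmem a b b').mp hb)
      simp only [L, h1])
  have hc21 : Fintype.card (Sylow 5 G) = 21 := by rw [← Nat.card_eq_fintype_card, hX]
  rw [hc21] at hcount
  set D := (Finset.univ : Finset (Sylow 5 G)).offDiag with hD
  set LL := D.image (fun q => L q.1 q.2) with hLL
  have hLLc : LL.card = 21 := by omega
  -- translates of lines
  have htrans : ∀ (g : G) (a b : Sylow 5 G), a ≠ b → g • L a b = L (g • a) (g • b) := by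
    intro g a b hab
    have hab' : g • a ≠ g • b := fun h => hab (smul_left_cancel g h)
    have hord : orderOf (g * C a b * g⁻¹) = 2 := by
      have h1 : g * C a b * g⁻¹ = MulAut.conj g (C a b) := rfl
      rw [h1, MulEquiv.orderOf_eq, (hC a b hab).1]
    have hfixa : (g * C a b * g⁻¹) • g • a = g • a := by
      simp only [mul_smul, inv_smul_smul, (hC a b hab).2.1]
    have hfixb : (g * C a b * g⁻¹) • g • b = g • b := by
      simp only [mul_smul, inv_smul_smul, (hC a b hab).2.2]
    have h1 := invol_unique hX hfaith hno _ _ hab' (C (g • a) (g • b)) (g * C a b * g⁻¹)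
      (hC _ _ hab').1 hord (hC _ _ hab').2.1 (hC _ _ hab').2.2 hfixa hfixb
    ext y
    rw [Finset.mem_smul_finset, hmem, h1]
    constructor
    · rintro ⟨z, hz, rfl⟩
      have hz' := (hmem a b z).mp hz
      simp only [mul_smul, inv_smul_smul, hz']
    · intro hy
      refine ⟨g⁻¹ • y, (hmem a b _).mpr ?_, by simp⟩
      have h2 : g • (C a b) • g⁻¹ • y = y := by simpa [mul_smul] using hy
      exact (smul_eq_iff_eq_inv_smul g).mp h2
  have hLLinv : ∀ (g : G), ∀ l ∈ LL, g • l ∈ LL := by
    intro g l hl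
    obtain ⟨⟨a, b⟩, hq, rfl⟩ := Finset.mem_image.mp hl
    have hab : a ≠ b := by simpa [hD] using hq
    have hab' : g • a ≠ g • b := fun h => hab (smul_left_cancel g h)
    simp only
    rw [htrans g a b hab]
    exact Finset.mem_image.mpr ⟨(g • a, g • b), by simpa [hD] using hab', rfl⟩
  have hLLcard : ∀ l ∈ LL, l.card = 5 := by
    intro l hl
    obtain ⟨⟨a, b⟩, hq, rfl⟩ := Finset.mem_image.mp hl
    have hab : a ≠ b := by simpa [hD] using hq
    exact hLc a b hab
  -- the lines fixed by `P`
  let FL := LL.filter (fun l => ∀ u ∈ (P : Subgroup G), u • l = l)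
  let NF := LL.filter (fun l => ¬ ∀ u ∈ (P : Subgroup G), u • l = l)
  have hsum : FL.card + NF.card = 21 := by
    rw [← hLLc]
    exact Finset.card_filter_add_card_filter_not _
  have hNF : 5 ∣ NF.card := by
    have h1 := dvd_ncard_of_invariant (p := 5) (α := Finset (Sylow 5 G)) (P : Subgroup G) P.isPGroup'
      (NF : Set (Finset (Sylow 5 G))) (by
        intro u hu l hl
        have hl' := Finset.mem_filter.mp (Finset.mem_coe.mp hl)
        refine Finset.mem_coe.mpr (Finset.mem_filter.mpr ⟨hLLinv u l hl'.1, ?_⟩)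
        intro hfix
        apply hl'.2
        intro v hv
        have h2 := hfix v hv
        have h3 : v * u = u * v := commute_of_card_prime (P : Subgroup G) (card_P hX hfaith P) hv hu
        rw [← mul_smul, h3, mul_smul] at h2
        exact smul_left_cancel u h2)
      (by
        intro l hl
        have hl' := Finset.mem_filter.mp (Finset.mem_coe.mp hl)
        simpa using hl'.2)
    rwa [Set.ncard_coe_finset] at h1
  have hFLmem : ∀ l ∈ FL, ∀ u ∈ (P : Subgroup G), ∀ y ∈ l, u • y ∈ l := by
    intro l hl u hu y hy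
    have h1 := (Finset.mem_filter.mp hl).2 u hu
    rw [← h1]
    exact Finset.smul_mem_smul_finset hy
  have hFLP : ∀ l ∈ FL, P ∉ l := by
    intro l hl hPl
    have h1 := dvd_ncard_sdiff P (l : Set (Sylow 5 G)) (fun u hu y hy => hFLmem l hl u hu y hy)
    have h2 := Set.ncard_sdiff_singleton_add_one (show P ∈ (l : Set (Sylow 5 G)) from hPl)
      (Set.toFinite _)
    rw [Set.ncard_coe_finset, hLLcard l (Finset.mem_filter.mp hl).1] at h2
    omega
  have hFLorb : ∀ l ∈ FL, ∀ y ∈ l, (l : Set (Sylow 5 G)) = orbit (P : Subgroup G) y := by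
    intro l hl y hy
    have hyP : y ≠ P := fun h => hFLP l hl (h ▸ hy)
    have hsub : orbit (P : Subgroup G) y ⊆ (l : Set (Sylow 5 G)) := by
      rintro _ ⟨⟨u, hu⟩, rfl⟩
      exact hFLmem l hl u hu y hy
    refine (Set.eq_of_subset_of_ncard_le hsub ?_ (Set.toFinite _)).symm
    rw [Set.ncard_coe_finset, hLLcard l (Finset.mem_filter.mp hl).1,
      card_orbit_eq 21 hX (by norm_num) P y hyP]
  have hFLdisj : (FL : Set (Finset (Sylow 5 G))).PairwiseDisjoint id := by
    intro l hl l' hl' hne
    change Disjoint l l'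
    rw [Finset.disjoint_iff_ne]
    intro y hy z hz hyz
    subst hyz
    apply hne
    have h1 := hFLorb l hl y hy
    have h2 := hFLorb l' hl' y hz
    exact Finset.coe_injective (h1.trans h2.symm)
  have hFLle : FL.card ≤ 4 := by
    have hcardU : (FL.biUnion id).card = FL.card * 5 := by
      rw [Finset.card_biUnion hFLdisj]
      exact Finset.sum_const_nat (fun l hl => hLLcard l (Finset.mem_filter.mp hl).1)
    have hnot : P ∉ FL.biUnion id := by
      intro h
      obtain ⟨l, hl, hl2⟩ := Finset.mem_biUnion.mp h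
      exact hFLP l hl hl2
    have h3 := Finset.card_le_univ (insert P (FL.biUnion id))
    rw [Finset.card_insert_of_notMem hnot, hcardU, hc21] at h3
    omega
  have hFL1 : FL.card = 1 := by
    obtain ⟨k, hk⟩ := hNF
    omega
  obtain ⟨l, hl⟩ := Finset.card_eq_one.mp hFL1
  have hlmem : l ∈ FL := by rw [hl]; exact Finset.mem_singleton_self l
  have hlne : l.Nonempty := by
    rw [← Finset.card_pos, hLLcard l (Finset.mem_filter.mp hlmem).1]
    norm_num
  obtain ⟨b, hb⟩ := hlne
  refine ⟨b, fun h => hFLP l hlmem (h ▸ hb), ?_⟩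
  have hMl : ∀ m ∈ Subgroup.normalizer ((P : Subgroup G) : Set G), m • l = l := by
    intro m hm
    have h1 : m • l ∈ FL := by
      refine Finset.mem_filter.mpr ⟨hLLinv m l (Finset.mem_filter.mp hlmem).1, ?_⟩
      intro u hu
      have h2 : m⁻¹ * u * m ∈ (P : Subgroup G) := by
        have h3 := (Subgroup.mem_normalizer_iff.mp (inv_mem hm) u).mp hu
        simpa using h3
      have h4 := (Finset.mem_filter.mp hlmem).2 _ h2
      calc u • m • l = m • (m⁻¹ * u * m) • l := by
            simp only [mul_smul, smul_inv_smul]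
        _ = m • l := by rw [h4]
    rw [hl, Finset.mem_singleton] at h1
    exact h1
  have hsub : orbit (Subgroup.normalizer ((P : Subgroup G) : Set G)) b ⊆ (l : Set (Sylow 5 G)) := by
    rintro _ ⟨⟨m, hm⟩, rfl⟩
    have h1 := hMl m hm
    change m • b ∈ l
    rw [← h1]
    exact Finset.smul_mem_smul_finset hb
  have h2 := Set.ncard_le_ncard hsub (Set.toFinite _)
  rwa [Set.ncard_coe_finset, hLLcard l (Finset.mem_filter.mp hlmem).1] at h2

theorem core (hX : Nat.card (Sylow 5 G) = 21)
    (hfaith : Function.Injective (toPermHom G (Sylow 5 G)))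
    (hno : ∀ K : Subgroup G, K.Normal → ¬ 5 ∣ K.index → K = ⊤) : False := by
  have hnt : 1 < Nat.card (Sylow 5 G) := by rw [hX]; norm_num
  have : Nontrivial (Sylow 5 G) := Finite.one_lt_card_iff_nontrivial.mp hnt
  obtain ⟨P⟩ : Nonempty (Sylow 5 G) := inferInstance
  obtain ⟨y, hy⟩ := exists_ne P
  have hPy : P ≠ y := Ne.symm hy
  set M := Subgroup.normalizer ((P : Subgroup G) : Set G) with hM
  obtain ⟨s, hs1, hs4, -, hcM⟩ := card_M hX P y hPy
  have ht := card_T_dvd hX hfaith hno P y hPy
  set t := Nat.card (stabilizer G P ⊓ stabilizer G y : Subgroup G) with htdef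
  have hidx : M.index = 21 := by
    rw [← hX]
    exact (Sylow.card_eq_index_normalizer P).symm
  have hG : Nat.card G = 105 * (s * t) := by
    have := Subgroup.card_mul_index M
    rw [hcM, hidx] at this
    rw [← this]
    ring
  -- order of point stabilizers
  have hM7 : ∀ a : Sylow 5 G, ¬ 7 ∣ Nat.card (stabilizer G a) := by
    intro a
    have hstab : stabilizer G a = Subgroup.normalizer ((a : Subgroup G) : Set G) := by
      ext g
      exact Sylow.smul_eq_iff_mem_normalizer
    obtain ⟨b, hb⟩ := exists_ne a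
    obtain ⟨s', hs1', hs4', -, hcM'⟩ := card_M hX a b (Ne.symm hb)
    have ht' := card_T_dvd hX hfaith hno a b (Ne.symm hb)
    rw [hstab, hcM']
    generalize Nat.card (stabilizer G a ⊓ stabilizer G b : Subgroup G) = t' at ht'
    have ht'' : t' = 1 ∨ t' = 2 ∨ t' = 3 ∨ t' = 4 ∨ t' = 6 ∨ t' = 12 := by
      have h1 : t' ≤ 12 := Nat.le_of_dvd (by norm_num) ht'
      interval_cases t' <;> omega
    interval_cases s' <;> rcases ht'' with rfl | rfl | rfl | rfl | rfl | rfl <;> omega
  have ht'' : t = 1 ∨ t = 2 ∨ t = 3 ∨ t = 4 ∨ t = 6 ∨ t = 12 := by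
    have h1 : t ≤ 12 := Nat.le_of_dvd (by norm_num) ht
    clear_value t
    interval_cases t <;> omega
  have hG7 : 7 ∣ Nat.card G := by
    rw [hG]
    exact ⟨15 * (s * t), by ring⟩
  have hG49 : ¬ 49 ∣ Nat.card G := by
    rw [hG]
    clear_value t
    interval_cases s <;> rcases ht'' with rfl | rfl | rfl | rfl | rfl | rfl <;> omega
  obtain ⟨Y⟩ : Nonempty (Sylow 7 G) := inferInstance
  have hY7 : Nat.card (Y : Subgroup G) = 7 :=
    Cfsg.Agent.Lib.Basic.SylowCount.card_sylow_eq_prime hG7 (by simpa using hG49) Y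
  have hN := sylow_seven hX hfaith hno hM7 hG7 hG49 Y
  set N := Subgroup.normalizer ((Y : Subgroup G) : Set G) with hNdef
  have hYN : (Y : Subgroup G) ≤ N := Y.le_normalizer
  have h7N : 7 ∣ Nat.card N := hY7 ▸ Subgroup.card_dvd_of_le hYN
  obtain ⟨w, hw⟩ := h7N
  have hw18 : w ∣ 18 := by
    rw [hw] at hN
    exact Nat.dvd_of_mul_dvd_mul_left (by norm_num : 0 < 7) (by simpa using hN)
  have hn7 : N.index = Nat.card (Sylow 7 G) := (Sylow.card_eq_index_normalizer Y).symm
  have hmod : Nat.card (Sylow 7 G) % 7 = 1 := by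
    have h3 := card_sylow_modEq_one 7 G
    have h4 : Nat.card (Sylow 7 G) % 7 = 1 % 7 := h3
    omega
  have hGN : 15 * (s * t) = w * Nat.card (Sylow 7 G) := by
    have := Subgroup.card_mul_index N
    rw [hw, hn7, hG] at this
    nlinarith
  rcases arith s t w _ hs1 hs4 ht hw18 hGN hmod with ⟨hu, hn⟩ | hu | hw1 | hu
  · -- `s * t` odd: a normal subgroup of index `5`
    obtain ⟨K, hKn, hK5⟩ := exists_index_five (G := G)
      (by rw [hG]; rcases hu with h | h | h <;> rw [h] <;> decide)
      (by rw [hG]; exact ⟨21 * (s * t), by ring⟩)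
      (by rw [hG]; rcases hu with h | h | h <;> rw [h] <;> decide)
    have hK7 : ¬ 7 ∣ K.index := by rw [hK5]; norm_num
    have hc := card_sylow_normal (p := 7) K hK7
    obtain ⟨Y'⟩ : Nonempty (Sylow 7 K) := inferInstance
    have hd := (Sylow.card_dvd_index Y').trans (Subgroup.index_dvd_card _)
    rw [hc, hn] at hd
    have hKc := Subgroup.card_mul_index K
    rw [hK5, hG] at hKc
    have hKc' : Nat.card K = 21 * (s * t) := by omega
    rw [hKc'] at hd
    rcases hu with h | h | h <;> rw [h] at hd <;> omega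
  · -- `s * t ≡ 2 mod 4`: a normal subgroup of index `2`
    obtain ⟨K, hKn, hK2⟩ := exists_index_two (G := G)
      (by rw [hG]; rcases hu with h | h | h <;> rw [h] <;> decide)
      (by rw [hG]; rcases hu with h | h | h <;> rw [h] <;> decide)
    have := hno K hKn (by rw [hK2]; norm_num)
    rw [this, Subgroup.index_top] at hK2
    omega
  · -- `N(Y) = Y`: a normal subgroup of index `7`
    have hNY : N = (Y : Subgroup G) :=
      (Subgroup.eq_of_le_of_card_ge hYN (by rw [hw, hw1, hY7])).symm
    have hnc : Subgroup.normalizer ((Y : Subgroup G) : Set G) ≤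
        Subgroup.centralizer ((Y : Subgroup G) : Set G) := by
      rw [← hNdef, hNY]
      exact fun a ha => Subgroup.mem_centralizer_iff.mpr fun b hb =>
        commute_of_card_prime (Y : Subgroup G) hY7 hb ha
    have hc := MonoidHom.ker_transferSylow_isComplement' Y hnc
    have hK7 : (MonoidHom.transferSylow Y hnc).ker.index = 7 := by
      rw [hc.symm.index_eq_card, hY7]
    have := hno _ (MonoidHom.normal_ker _) (by rw [hK7]; norm_num)
    rw [this, Subgroup.index_top] at hK7
    omega
  · -- the plane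
    have hb_even : ∀ b : Sylow 5 G, b ≠ P → ∃ c : G, orderOf c = 2 ∧ c • P = P ∧ c • b = b := by
      intro b hb
      obtain ⟨s', hs1', hs4', -, hcM'⟩ := card_M hX P b (Ne.symm hb)
      have ht' := card_T_dvd hX hfaith hno P b (Ne.symm hb)
      have heq : s' * Nat.card (stabilizer G P ⊓ stabilizer G b : Subgroup G) = s * t := by
        rw [hcM] at hcM'
        nlinarith
      have h2 := even_of s' _ hs4' ht' (by rw [heq]; exact hu)
      obtain ⟨c, hc⟩ := exists_prime_orderOf_dvd_card' 2 h2
      have hc' : orderOf (c : G) = 2 := by rw [Subgroup.orderOf_coe, hc]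
      exact ⟨c, hc', c.2.1, c.2.2⟩
    have hall : ∀ a b : Sylow 5 G, a ≠ b → ∃ c : G, orderOf c = 2 ∧ c • a = a ∧ c • b = b := by
      intro a b hab
      obtain ⟨g, rfl⟩ := MulAction.exists_smul_eq G P a
      have hz : g⁻¹ • b ≠ P := by
        intro h
        apply hab
        rw [← h, smul_inv_smul]
      obtain ⟨c, hc, hcP, hcz⟩ := hb_even _ hz
      have hord : orderOf (g * c * g⁻¹) = 2 := by
        have h1 : g * c * g⁻¹ = MulAut.conj g c := rfl
        rw [h1, MulEquiv.orderOf_eq, hc]
      refine ⟨g * c * g⁻¹, hord, ?_, ?_⟩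
      · simp only [mul_smul, inv_smul_smul, hcP]
      · simp only [mul_smul, hcz, smul_inv_smul]
    obtain ⟨b, hbP, hble⟩ := plane hX hfaith hno hall P
    obtain ⟨s', hs1', hs4', hso, hcM'⟩ := card_M hX P b (Ne.symm hbP)
    have hs'1 : s' = 1 := by
      rw [hso] at hble
      omega
    have ht' := card_T_dvd hX hfaith hno P b (Ne.symm hbP)
    rw [hs'1, hcM] at hcM'
    have heq : s * t = Nat.card (stabilizer G P ⊓ stabilizer G b : Subgroup G) := by
      nlinarith
    rw [← heq] at ht'
    rcases hu with h | h | h <;> rw [h] at ht' <;> omega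

end core

/-- No finite group has exactly twenty-one Sylow 5-subgroups. -/
theorem result {G : Type*} [Group G] [Finite G] : Nat.card (Sylow 5 G) ≠ 21 :=
  strong_reduction 21 (fun _ _ _ hX hf hn => core hX hf hn) _ G rfl

end Cfsg.Agent.S1010
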