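import Cfsg.Statements.S0609
import Mathlib
import Cfsg.Agent.Lib.PGroup.PConstr
import Cfsg.Agent.Lib.PGroup.ThompsonG
import Cfsg.Agent.Lib.Signalizer.CoreBalance
-- import your own Cfsg.Agent.* helpers here

set_option autoImplicit false
open Cfsg

namespace Cfsg.Agent.S0609

open Subgroup Cfsg Cfsg.Agent.Lib.PGroup.PConstr Cfsg.Agent.Lib.Components.PConstrained Cfsg.Agent.Lib.Components.PComponent Cfsg.Agent.Lib.Basic.PCore Cfsg.Agent.Lib.PGroup.ThompsonG

section Aux

variable {G : Type*} [Group G] [Finite G] {p : ℕ} [Fact p.Prime]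

local notation "π" => QuotientGroup.mk' (pPrimeCore p G)

theorem inj_on (S : Sylow p G) {a b : G} (ha : a ∈ (S : Subgroup G)) (hb : b ∈ (S : Subgroup G))
    (h : (π) a = (π) b) : a = b := by
  have h1 : a⁻¹ * b ∈ pPrimeCore p G := QuotientGroup.eq.mp h
  have h2 := eq_one_of_mem_pgroup_of_mem_core S.isPGroup' (mul_mem (inv_mem ha) hb) h1
  rw [inv_mul_eq_one] at h2
  exact h2

theorem card_map_of_le (S : Sylow p G) {A : Subgroup G} (hA : A ≤ (S : Subgroup G)) :
    Nat.card (A.map (π)) = Nat.card A := by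
  symm
  apply Nat.card_eq_of_bijective ((π).subgroupMap A)
  constructor
  · intro a b hab
    apply Subtype.ext
    apply inj_on S (hA a.2) (hA b.2)
    exact congrArg Subtype.val hab
  · exact (π).subgroupMap_surjective A

/-- the pullback of a subgroup of the image -/
theorem map_pull (S : Sylow p G) {B : Subgroup (G ⧸ pPrimeCore p G)}
    (hB : B ≤ (S : Subgroup G).map (π)) :
    ((S : Subgroup G) ⊓ B.comap (π)).map (π) = B := by
  apply le_antisymm
  · rintro _ ⟨a, ha, rfl⟩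
    exact ha.2
  · intro b hb
    obtain ⟨s, hs, rfl⟩ := hB hb
    exact ⟨s, ⟨hs, hb⟩, rfl⟩

theorem ea_pull (S : Sylow p G) {B : Subgroup (G ⧸ pPrimeCore p G)}
    (hB : IsElementaryAbelian p B) :
    IsElementaryAbelian p ((S : Subgroup G) ⊓ B.comap (π)) := by
  refine ⟨⟨⟨?_⟩⟩, ?_⟩
  · rintro ⟨a, ha1, ha2⟩ ⟨b, hb1, hb2⟩
    apply Subtype.ext
    apply inj_on S (mul_mem ha1 hb1) (mul_mem hb1 ha1)
    rw [map_mul, map_mul]
    exact ea_comm hB ha2 hb2
  · rintro a ⟨ha1, ha2⟩
    apply inj_on S (pow_mem ha1 p) (one_mem _)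
    rw [map_pow, map_one]
    exact hB.2 _ ha2

theorem map_mem_gMaxEA (S : Sylow p G) {A : Subgroup G} (hA : A ∈ gMaxEA p (S : Subgroup G)) :
    A.map (π) ∈ gMaxEA p ((S : Subgroup G).map (π)) := by
  refine ⟨Subgroup.map_mono hA.1, ea_map _ hA.2.1, ?_⟩
  intro B hB hBe
  rw [card_map_of_le S hA.1, ← map_pull S hB, card_map_of_le S inf_le_left]
  exact hA.2.2 _ inf_le_left (ea_pull S hBe)

theorem pull_mem_gMaxEA (S : Sylow p G) {B : Subgroup (G ⧸ pPrimeCore p G)}
    (hB : B ∈ gMaxEA p ((S : Subgroup G).map (π))) :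
    (S : Subgroup G) ⊓ B.comap (π) ∈ gMaxEA p (S : Subgroup G) := by
  refine ⟨inf_le_left, ea_pull S hB.2.1, ?_⟩
  intro A hA hAe
  have h1 := hB.2.2 (A.map (π)) (Subgroup.map_mono hA) (ea_map _ hAe)
  rw [card_map_of_le S hA, ← map_pull S hB.1, card_map_of_le S inf_le_left] at h1
  exact h1

theorem map_thompson (S : Sylow p G) :
    (thompsonSubgroupOf p (S : Subgroup G)).map (π) =
      thompsonSubgroupOf p ((S : Subgroup G).map (π)) := by
  apply le_antisymm
  · rw [Subgroup.map_le_iff_le_comap, thompsonSubgroupOf_le_iff]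
    intro A hA
    rw [← Subgroup.map_le_iff_le_comap]
    exact le_thompsonSubgroupOf (map_mem_gMaxEA S hA)
  · rw [thompsonSubgroupOf_le_iff]
    intro B hB
    rw [← map_pull S hB.1]
    exact Subgroup.map_mono (le_thompsonSubgroupOf (pull_mem_gMaxEA S hB))

theorem map_center (S : Sylow p G) :
    ((S : Subgroup G) ⊓ centralizer ((S : Subgroup G) : Set G)).map (π) =
      (S : Subgroup G).map (π) ⊓ centralizer (((S : Subgroup G).map (π) : Subgroup _) : Set _) := by
  apply le_antisymm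
  · rintro _ ⟨a, ha, rfl⟩
    have ha' := Subgroup.mem_inf.mp ha
    refine Subgroup.mem_inf.mpr ⟨⟨a, ha'.1, rfl⟩, ?_⟩
    rw [mem_centralizer_iff]
    rintro _ ⟨b, hb, rfl⟩
    rw [← map_mul, ← map_mul, mem_centralizer_iff.mp ha'.2 b hb]
  · intro y hy
    have hy' := Subgroup.mem_inf.mp hy
    obtain ⟨a, ha1, rfl⟩ := hy'.1
    have ha2 := hy'.2
    refine ⟨a, Subgroup.mem_inf.mpr ⟨ha1, ?_⟩, rfl⟩
    rw [mem_centralizer_iff]
    intro b hb
    apply inj_on S (mul_mem hb ha1) (mul_mem ha1 hb)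
    rw [map_mul, map_mul]
    exact mem_centralizer_iff.mp ha2 _ ⟨b, hb, rfl⟩

theorem map_omega (S : Sylow p G) :
    (omegaOne p ((S : Subgroup G) ⊓ centralizer ((S : Subgroup G) : Set G))).map (π) =
      omegaOne p ((S : Subgroup G).map (π) ⊓
        centralizer (((S : Subgroup G).map (π) : Subgroup _) : Set _)) := by
  unfold omegaOne
  rw [MonoidHom.map_closure, ← map_center]
  congr 1
  ext y
  constructor
  · rintro ⟨a, ⟨ha1, ha2⟩, rfl⟩
    exact ⟨⟨a, ha1, rfl⟩, by rw [← map_pow]; simp [ha2]⟩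
  · rintro ⟨⟨a, ha1, rfl⟩, ha2⟩
    refine ⟨a, ⟨ha1, ?_⟩, rfl⟩
    apply inj_on S (pow_mem ha1.1 p) (one_mem _)
    rw [map_pow, map_one]
    exact ha2

end Aux


/-- Thompson factorizability passes to and from the quotient by the largest normal subgroup of order prime to p. -/
theorem result {G : Type*} [Group G] [Finite G] {p : ℕ} [Fact p.Prime] : Cfsg.IsThompsonFactorizable p G ↔ Cfsg.IsThompsonFactorizable p (G ⧸ Cfsg.pPrimeCore p G) := by
  have hπ1 : ∀ x ∈ pPrimeCore p G, QuotientGroup.mk' (pPrimeCore p G) x = 1 := by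
    intro x hx
    simpa [QuotientGroup.eq_one_iff] using hx
  constructor
  · intro h S₁ q
    obtain ⟨S, rfl⟩ := Sylow.mapSurjective_surjective (QuotientGroup.mk'_surjective (pPrimeCore p G)) p S₁
    obtain ⟨g, rfl⟩ := QuotientGroup.mk'_surjective _ q
    obtain ⟨x, hx, c, hc, n, hn, rfl⟩ := h S g
    refine ⟨1, one_mem _, QuotientGroup.mk' (pPrimeCore p G) c, ?_, QuotientGroup.mk' (pPrimeCore p G) n, ?_, ?_⟩
    · change _ ∈ centralizer ((omegaOne p ((S : Subgroup G).map (QuotientGroup.mk' (pPrimeCore p G)) ⊓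
        centralizer (((S : Subgroup G).map (QuotientGroup.mk' (pPrimeCore p G)) : Subgroup _) : Set (G ⧸ pPrimeCore p G))) : Subgroup _) : Set (G ⧸ pPrimeCore p G))
      rw [← map_omega, mem_centralizer_iff]
      rintro _ ⟨a, ha, rfl⟩
      rw [← map_mul, ← map_mul, mem_centralizer_iff.mp hc a ha]
    · change _ ∈ normalizer ((thompsonSubgroupOf p ((S : Subgroup G).map (QuotientGroup.mk' (pPrimeCore p G))) : Subgroup _) : Set (G ⧸ pPrimeCore p G))
      rw [← map_thompson]
      apply Cfsg.Agent.Lib.Coprime.Three.mem_normalizer_of_conj_mem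
      rintro _ ⟨a, ha, rfl⟩
      refine ⟨n * a * n⁻¹, (mem_normalizer_iff.mp hn a).mp ha, ?_⟩
      simp only [map_mul, map_inv]
    · simp [map_mul, hπ1 x hx]
  · intro h S g
    obtain ⟨xb, hxb, cb, hcb, nb, hnb, he⟩ := h (S.mapSurjective (QuotientGroup.mk'_surjective _))
      (QuotientGroup.mk' (pPrimeCore p G) g)
    rw [pPrimeCore_quotient_eq_bot, Subgroup.mem_bot] at hxb
    subst hxb
    obtain ⟨c₀, rfl⟩ := QuotientGroup.mk'_surjective _ cb
    obtain ⟨n₀, rfl⟩ := QuotientGroup.mk'_surjective _ nb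
    have hΩp : IsPGroup p (omegaOne p ((S : Subgroup G) ⊓ centralizer ((S : Subgroup G) : Set G))) := by
      refine S.isPGroup'.to_le ?_
      exact (Subgroup.closure_le _).mpr (fun x hx => hx.1.1)
    have hJp : IsPGroup p (thompsonSubgroupOf p (S : Subgroup G)) :=
      S.isPGroup'.to_le (thompsonSubgroupOf_le_self _)
    obtain ⟨c, hc, hce⟩ := Cfsg.Agent.Lib.Signalizer.CoreBalance.exists_centralizer_lift hΩp c₀ (by
      intro e he
      have h1 : QuotientGroup.mk' (pPrimeCore p G) e ∈ omegaOne p (((S : Subgroup G).map (QuotientGroup.mk' (pPrimeCore p G))) ⊓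
          centralizer (((S : Subgroup G).map (QuotientGroup.mk' (pPrimeCore p G)) : Subgroup _) : Set _)) := by
        rw [← map_omega]
        exact ⟨e, he, rfl⟩
      exact (mem_centralizer_iff.mp hcb _ h1).symm)
    obtain ⟨n, hn, hne⟩ := exists_normalizer_lift hJp (x := n₀) (by
      rw [map_thompson]
      exact hnb)
    refine ⟨g * (c * n)⁻¹, ?_, c, hc, n, hn, by group⟩
    have h1 : QuotientGroup.mk' (pPrimeCore p G) (g * (c * n)⁻¹) = 1 := by
      rw [map_mul, map_inv, map_mul, hce, hne, he, one_mul]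
      simp
    exact (QuotientGroup.eq_one_iff _).mp h1


end Cfsg.Agent.S0609
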