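import Cfsg.Statements.S0601
import Mathlib
import Cfsg.Agent.Lib.Basic.PCore
import Cfsg.Agent.Lib.Basic.StrongP
import Cfsg.Agent.Lib.Basic.SylowUtil
-- import your own Cfsg.Agent.* helpers here

set_option autoImplicit false
open Cfsg

namespace Cfsg.Agent.S0601

/-- When O_p(G) contains its centralizer, the normal closure of Ω₁(Z(S)) is elementary abelian and G has no nontrivial normal p-subgroup modulo its centralizer. -/
theorem result {G : Type*} [Group G] [Finite G] {p : ℕ} [Fact p.Prime] (hc : Subgroup.centralizer (Cfsg.pCore p G : Set G) ≤ Cfsg.pCore p G) : (⨆ S : Sylow p G, Cfsg.omegaOne p (((S : Subgroup G)) ⊓ Subgroup.centralizer ((S : Subgroup G) : Set G))).Normal ∧ Cfsg.IsElementaryAbelian p (⨆ S : Sylow p G, Cfsg.omegaOne p (((S : Subgroup G)) ⊓ Subgroup.centralizer ((S : Subgroup G) : Set G))) ∧ ∀ D : Subgroup G, D.Normal → Subgroup.centralizer ((⨆ S : Sylow p G, Cfsg.omegaOne p (((S : Subgroup G)) ⊓ Subgroup.centralizer ((S : Subgroup G) : Set G)) : Subgroup G) : Set G) ≤ D →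 (∃ k : ℕ, (Subgroup.centralizer ((⨆ S : Sylow p G, Cfsg.omegaOne p (((S : Subgroup G)) ⊓ Subgroup.centralizer ((S : Subgroup G) : Set G)) : Subgroup G) : Set G)).relIndex D = p ^ k) → D = Subgroup.centralizer ((⨆ S : Sylow p G, Cfsg.omegaOne p (((S : Subgroup G)) ⊓ Subgroup.centralizer ((S : Subgroup G) : Set G)) : Subgroup G) : Set G) := by
  set W : Subgroup G := ⨆ S : Sylow p G, Cfsg.omegaOne p (((S : Subgroup G)) ⊓ Subgroup.centralizer ((S : Subgroup G) : Set G)) with hW
  have hgen : ∀ (S : Sylow p G) (x : G), x ∈ (S : Subgroup G) →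
      x ∈ Subgroup.centralizer ((S : Subgroup G) : Set G) → x ^ p = 1 → x ∈ W := by
    intro S x h1 h2 h3
    exact (le_iSup (fun S : Sylow p G => Cfsg.omegaOne p (((S : Subgroup G)) ⊓ Subgroup.centralizer ((S : Subgroup G) : Set G))) S)
      (Subgroup.subset_closure ⟨⟨h1, h2⟩, h3⟩)
  have hind : ∀ T : Subgroup G, (∀ (S : Sylow p G) (x : G), x ∈ (S : Subgroup G) →
      x ∈ Subgroup.centralizer ((S : Subgroup G) : Set G) → x ^ p = 1 → x ∈ T) → W ≤ T := by
    intro T hT
    refine iSup_le fun S => (Subgroup.closure_le _).2 ?_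
    rintro x ⟨⟨h1, h2⟩, h3⟩
    exact hT S x h1 h2 h3
  have hWC : W ≤ Subgroup.centralizer (Cfsg.pCore p G : Set G) := by
    refine hind _ fun S x _ h2 _ => ?_
    exact Subgroup.centralizer_le (Cfsg.Agent.Lib.Basic.PCore.pCore_le_sylow S) h2
  have hCcomm : ∀ a ∈ Subgroup.centralizer (Cfsg.pCore p G : Set G),
      ∀ b ∈ Subgroup.centralizer (Cfsg.pCore p G : Set G), a * b = b * a := by
    intro a ha b hb
    exact (Subgroup.mem_centralizer_iff.1 hb a (hc ha))
  have hpow : ∀ w ∈ W, w ^ p = 1 := by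
    let T : Subgroup G :=
      { carrier := {x | x ∈ Subgroup.centralizer (Cfsg.pCore p G : Set G) ∧ x ^ p = 1}
        mul_mem' := by
          rintro a b ⟨ha, ha'⟩ ⟨hb, hb'⟩
          refine ⟨mul_mem ha hb, ?_⟩
          rw [(show Commute a b from hCcomm a ha b hb).mul_pow, ha', hb', one_mul]
        one_mem' := ⟨one_mem _, one_pow _⟩
        inv_mem' := by
          rintro a ⟨ha, ha'⟩
          exact ⟨inv_mem ha, by rw [inv_pow, ha', inv_one]⟩ }
    have hWT : W ≤ T := by
      refine hind _ fun S x h1 h2 h3 => ?_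
      exact ⟨Subgroup.centralizer_le (Cfsg.Agent.Lib.Basic.PCore.pCore_le_sylow S) h2, h3⟩
    intro w hw
    exact (hWT hw).2
  refine ⟨?_, ⟨⟨?_⟩, hpow⟩, ?_⟩
  · -- normality
    refine ⟨fun w hw g => ?_⟩
    have hle : W ≤ W.comap (MulAut.conj g).toMonoidHom := by
      refine hind _ fun S x h1 h2 h3 => ?_
      show g * x * g⁻¹ ∈ W
      refine hgen (g • S) _ ?_ ?_ ?_
      · rw [Cfsg.Agent.Lib.Basic.StrongP.mem_smul_sylow]
        convert h1 using 1
        group
      · rw [Subgroup.mem_centralizer_iff]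
        intro y hy
        have hy' : y ∈ ((g • S : Sylow p G) : Subgroup G) := hy
        rw [Cfsg.Agent.Lib.Basic.StrongP.mem_smul_sylow] at hy'
        have := Subgroup.mem_centralizer_iff.1 h2 _ hy'
        calc y * (g * x * g⁻¹) = g * ((g⁻¹ * y * g) * x) * g⁻¹ := by group
          _ = g * (x * (g⁻¹ * y * g)) * g⁻¹ := by rw [this]
          _ = (g * x * g⁻¹) * y := by group
      · rw [conj_pow, h3]
        simp
    exact hle hw
  · -- commutativity
    refine ⟨?_⟩
    rintro ⟨a, ha⟩ ⟨b, hb⟩
    exact Subtype.ext (hCcomm a (hWC ha) b (hWC hb))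
  · -- third part
    rintro D _ hCD ⟨k, hk⟩
    refine le_antisymm (fun d hd => ?_) hCD
    -- suffices: `W` centralizes `d`.
    have hWd : W ≤ Subgroup.centralizer ({d} : Set G) := by
      refine hind _ fun S x h1 h2 h3 => ?_
      have hxW : x ∈ W := hgen S x h1 h2 h3
      set C := Subgroup.centralizer (W : Set G) with hC
      have hE : C ⊔ (D ⊓ S) ≤ D := sup_le hCD inf_le_left
      -- index computation
      have hindex1 : (C ⊔ (D ⊓ (S : Subgroup G))).relIndex D ∣ p ^ k := by
        rw [← hk, ← Subgroup.relIndex_mul_relIndex C (C ⊔ (D ⊓ (S : Subgroup G))) D le_sup_left hE]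
        exact dvd_mul_left _ _
      have hindex2 : (C ⊔ (D ⊓ (S : Subgroup G))).relIndex D ∣ (D ⊓ (S : Subgroup G)).relIndex D := by
        rw [← Subgroup.relIndex_mul_relIndex (D ⊓ (S : Subgroup G)) (C ⊔ (D ⊓ (S : Subgroup G))) D le_sup_right hE]
        exact dvd_mul_left _ _
      have hcop : ¬ p ∣ (D ⊓ (S : Subgroup G)).relIndex D := by
        obtain ⟨Q, hQ⟩ := Cfsg.Agent.Lib.Basic.SylowUtil.exists_sylow_inf_normal S D
        have hQ' : (D ⊓ (S : Subgroup G)).subgroupOf D = (Q : Subgroup D) := by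
          ext y
          rw [Subgroup.mem_subgroupOf, inf_comm, ← hQ]
          simp
        rw [Subgroup.relIndex, hQ']
        exact Q.not_dvd_index
      have hone : (C ⊔ (D ⊓ (S : Subgroup G))).relIndex D = 1 := by
        obtain ⟨j, _, hj⟩ := (Nat.dvd_prime_pow (Fact.out : p.Prime)).1 hindex1
        rcases j with _ | j
        · simpa using hj
        · exfalso
          apply hcop
          refine dvd_trans ?_ hindex2
          rw [hj]
          exact dvd_pow_self p (by omega)
      have hd' : D ≤ C ⊔ (D ⊓ (S : Subgroup G)) := Subgroup.relIndex_eq_one.1 hone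
      have hle : C ⊔ (D ⊓ (S : Subgroup G)) ≤ Subgroup.centralizer ({x} : Set G) := by
        refine sup_le ?_ ?_
        · intro c hc'
          rw [Subgroup.mem_centralizer_singleton_iff]
          exact (Subgroup.mem_centralizer_iff.1 hc' x hxW).symm
        · intro c hc'
          rw [Subgroup.mem_centralizer_singleton_iff]
          exact (Subgroup.mem_centralizer_iff.1 h2 c hc'.2).symm ▸ rfl
      have := hle (hd' hd)
      rw [Subgroup.mem_centralizer_singleton_iff] at this
      rw [Subgroup.mem_centralizer_singleton_iff]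
      exact this.symm
    rw [Subgroup.mem_centralizer_iff]
    intro w hw
    have := hWd hw
    rw [Subgroup.mem_centralizer_singleton_iff] at this
    exact this

end Cfsg.Agent.S0601
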