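import Cfsg.Statements.S0603
import Mathlib

set_option autoImplicit false
open Cfsg

namespace Cfsg.Agent.S0603

variable {G : Type*} [Group G]

theorem ea_map {p : ℕ} (U : Subgroup G) (D : Subgroup U) (hD : Cfsg.IsElementaryAbelian p D) :
    Cfsg.IsElementaryAbelian p (D.map U.subtype) := by
  refine ⟨⟨⟨?_⟩⟩, ?_⟩
  · rintro ⟨_, x, hx, rfl⟩ ⟨_, y, hy, rfl⟩
    apply Subtype.ext
    have := hD.1.is_comm.comm ⟨x, hx⟩ ⟨y, hy⟩
    have h2 := congrArg (fun z : D => ((z : U) : G)) this
    exact h2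
  · rintro _ ⟨x, hx, rfl⟩
    have := hD.2 x hx
    have h2 := congrArg (fun z : U => (z : G)) this
    simpa using h2

theorem ea_subgroupOf {p : ℕ} (U A : Subgroup G) (hA : Cfsg.IsElementaryAbelian p A) :
    Cfsg.IsElementaryAbelian p (A.subgroupOf U) := by
  refine ⟨⟨⟨?_⟩⟩, ?_⟩
  · rintro ⟨x, hx⟩ ⟨y, hy⟩
    apply Subtype.ext
    apply Subtype.ext
    have := hA.1.is_comm.comm ⟨x, Subgroup.mem_subgroupOf.mp hx⟩ ⟨y, Subgroup.mem_subgroupOf.mp hy⟩
    have h2 : (x : G) * (y : G) = (y : G) * (x : G) := congrArg Subtype.val this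
    exact h2
  · rintro x hx
    have := hA.2 x (Subgroup.mem_subgroupOf.mp hx)
    apply Subtype.ext
    simpa using this

theorem card_map_subtype (U : Subgroup G) (D : Subgroup U) :
    Nat.card (D.map U.subtype) = Nat.card D :=
  Nat.card_congr (Subgroup.equivMapOfInjective D U.subtype U.subtype_injective).toEquiv.symm

theorem map_subgroupOf_eq {U A : Subgroup G} (h : A ≤ U) : (A.subgroupOf U).map U.subtype = A := by
  rw [Subgroup.subgroupOf_map_subtype]
  exact inf_eq_left.mpr h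

/-- The Thompson subgroup of any subgroup containing J(G) is J(G) itself. -/
theorem result {G : Type*} [Group G] [Finite G] {p : ℕ} [Fact p.Prime] (U : Subgroup G) (hU : Cfsg.thompsonSubgroup p G ≤ U) : Cfsg.thompsonSubgroupOf p U = Cfsg.thompsonSubgroup p G := by
  -- existence of a maximal elementary abelian subgroup
  obtain ⟨A₀, hA₀⟩ : ∃ A₀ : Subgroup G, A₀ ∈ Cfsg.maxElementaryAbelianSubgroups p G := by
    let T := {A : Subgroup G // Cfsg.IsElementaryAbelian p A}
    haveI : Nonempty T := ⟨⟨⊥, ⟨⟨⟨fun x y => by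
      apply Subtype.ext
      have hx := Subgroup.mem_bot.mp x.2
      have hy := Subgroup.mem_bot.mp y.2
      simp [hx, hy]⟩⟩, fun a ha => by
      have hx := Subgroup.mem_bot.mp ha
      simp [hx]⟩⟩⟩
    haveI : Finite T := Subtype.finite
    obtain ⟨⟨A, hA⟩, hmax⟩ := Finite.exists_max (fun A : T => Nat.card (A.1 : Subgroup G))
    exact ⟨A, hA, fun B hB => hmax ⟨B, hB⟩⟩
  have hA₀U : A₀ ≤ U := (le_sSup hA₀).trans hU
  have hcard_sub : ∀ A : Subgroup G, A ≤ U → Nat.card (A.subgroupOf U) = Nat.card A := by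
    intro A hA
    rw [← card_map_subtype U (A.subgroupOf U), map_subgroupOf_eq hA]
  apply le_antisymm
  · rw [Cfsg.thompsonSubgroupOf, Cfsg.thompsonSubgroup, Subgroup.map_le_iff_le_comap]
    apply sSup_le
    intro B hB
    rw [← Subgroup.map_le_iff_le_comap]
    apply le_sSup
    refine ⟨ea_map U B hB.1, fun C hC => ?_⟩
    rw [card_map_subtype]
    calc Nat.card C ≤ Nat.card A₀ := hA₀.2 C hC
      _ = Nat.card (A₀.subgroupOf U) := (hcard_sub A₀ hA₀U).symm
      _ ≤ Nat.card B := hB.2 _ (ea_subgroupOf U A₀ hA₀.1)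
  · apply sSup_le
    intro A hA
    have hAU : A ≤ U := (le_sSup hA).trans hU
    have h1 : A.subgroupOf U ∈ Cfsg.maxElementaryAbelianSubgroups p U := by
      refine ⟨ea_subgroupOf U A hA.1, fun D hD => ?_⟩
      rw [hcard_sub A hAU, ← card_map_subtype U D]
      exact hA.2 _ (ea_map U D hD)
    have h2 : A.subgroupOf U ≤ Cfsg.thompsonSubgroup p U := le_sSup h1
    have h3 := Subgroup.map_mono (f := U.subtype) h2
    rwa [map_subgroupOf_eq hAU] at h3

end Cfsg.Agent.S0603
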