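import Cfsg.Statements.S0608
import Mathlib
import Cfsg.Agent.S0603
import Cfsg.Agent.Lib.Basic.SylowUtil
-- import your own Cfsg.Agent.* helpers here

set_option autoImplicit false
open Cfsg

namespace Cfsg.Agent.S0608


open Subgroup Cfsg.Agent.S0603

variable {G : Type*} [Group G]

lemma ea_conj {p : ℕ} {A : Subgroup G} (hA : Cfsg.IsElementaryAbelian p A) (g : G) :
    Cfsg.IsElementaryAbelian p (A.map (MulAut.conj g).toMonoidHom) := by
  refine ⟨⟨⟨?_⟩⟩, ?_⟩
  · rintro ⟨_, x, hx, rfl⟩ ⟨_, y, hy, rfl⟩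
    apply Subtype.ext
    have := hA.1.is_comm.comm ⟨x, hx⟩ ⟨y, hy⟩
    have h2 : x * y = y * x := congrArg Subtype.val this
    show (MulAut.conj g).toMonoidHom x * (MulAut.conj g).toMonoidHom y =
      (MulAut.conj g).toMonoidHom y * (MulAut.conj g).toMonoidHom x
    rw [← map_mul, ← map_mul, h2]
  · rintro _ ⟨x, hx, rfl⟩
    rw [← map_pow, hA.2 x hx, map_one]

lemma card_conj (A : Subgroup G) (g : G) :
    Nat.card (A.map (MulAut.conj g).toMonoidHom) = Nat.card A :=
  Nat.card_congr (Subgroup.equivMapOfInjective A _ (MulAut.conj g).injective).toEquiv.symm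

lemma isPGroup_of_ea {p : ℕ} {A : Subgroup G} (hA : Cfsg.IsElementaryAbelian p A) : IsPGroup p A := by
  intro a
  refine ⟨1, ?_⟩
  apply Subtype.ext
  simpa using hA.2 a a.2

variable [Finite G] {p : ℕ} [Fact p.Prime]

/-- A member of `maxEA` of a Sylow subgroup is a member of `maxEA` of the group. -/
lemma map_mem_maxEA (S : Sylow p G) {A : Subgroup (S : Subgroup G)}
    (hA : A ∈ Cfsg.maxElementaryAbelianSubgroups p (S : Subgroup G)) :
    A.map (S : Subgroup G).subtype ∈ Cfsg.maxElementaryAbelianSubgroups p G := by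
  refine ⟨ea_map _ A hA.1, ?_⟩
  intro B hB
  obtain ⟨S', hS'⟩ := (isPGroup_of_ea hB).exists_le_sylow
  obtain ⟨h, hh⟩ := MulAction.exists_smul_eq G S' S
  have hB' : B.map (MulAut.conj h).toMonoidHom ≤ (S : Subgroup G) := by
    rw [← hh, Sylow.coe_subgroup_smul]
    rintro _ ⟨b, hb, rfl⟩
    exact ⟨b, hS' hb, rfl⟩
  have h1 := hA.2 _ (ea_subgroupOf (S : Subgroup G) _ (ea_conj hB h))
  rw [card_map_subtype]
  calc Nat.card B = Nat.card (B.map (MulAut.conj h).toMonoidHom) := (card_conj B h).symm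
    _ = Nat.card ((B.map (MulAut.conj h).toMonoidHom).subgroupOf (S : Subgroup G)) := by
      rw [← card_map_subtype (S : Subgroup G) ((B.map (MulAut.conj h).toMonoidHom).subgroupOf (S : Subgroup G)),
        map_subgroupOf_eq hB']
    _ ≤ Nat.card A := h1

/-- A member of `maxEA` of the group lying in a subgroup is a member of `maxEA` of the subgroup. -/
lemma subgroupOf_mem_maxEA (U : Subgroup G) {A : Subgroup G}
    (hA : A ∈ Cfsg.maxElementaryAbelianSubgroups p G) (hAU : A ≤ U) :
    A.subgroupOf U ∈ Cfsg.maxElementaryAbelianSubgroups p U := by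
  refine ⟨ea_subgroupOf U A hA.1, ?_⟩
  intro D hD
  rw [← card_map_subtype U (A.subgroupOf U), map_subgroupOf_eq hAU, ← card_map_subtype U D]
  exact hA.2 _ (ea_map U D hD)

lemma le_thompsonOf (U : Subgroup G) {A : Subgroup G}
    (hA : A ∈ Cfsg.maxElementaryAbelianSubgroups p G) (hAU : A ≤ U) :
    A ≤ Cfsg.thompsonSubgroupOf p U := by
  have h1 : A.subgroupOf U ≤ Cfsg.thompsonSubgroup p U := le_sSup (subgroupOf_mem_maxEA U hA hAU)
  have h2 := Subgroup.map_mono (f := U.subtype) h1
  rwa [map_subgroupOf_eq hAU] at h2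

/-- The subgroup generated by the Ω₁Z(S). -/
lemma sup_normal : (⨆ S : Sylow p G, Cfsg.omegaOne p (((S : Subgroup G)) ⊓
    Subgroup.centralizer ((S : Subgroup G) : Set G))).Normal := by
  constructor
  intro v hv g
  have hle : (⨆ S : Sylow p G, Cfsg.omegaOne p (((S : Subgroup G)) ⊓
      Subgroup.centralizer ((S : Subgroup G) : Set G))) ≤
      (⨆ S : Sylow p G, Cfsg.omegaOne p (((S : Subgroup G)) ⊓
      Subgroup.centralizer ((S : Subgroup G) : Set G))).comap (MulAut.conj g).toMonoidHom := by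
    apply iSup_le
    intro S
    rw [Cfsg.omegaOne, Subgroup.closure_le]
    rintro w ⟨hwS, hwp⟩
    obtain ⟨hw1, hw2⟩ := Subgroup.mem_inf.mp hwS
    rw [SetLike.mem_coe, Subgroup.mem_comap]
    apply Subgroup.mem_iSup_of_mem (g • S)
    apply Subgroup.subset_closure
    refine ⟨Subgroup.mem_inf.mpr ⟨?_, ?_⟩, ?_⟩
    · rw [Sylow.coe_subgroup_smul]
      exact ⟨w, hw1, rfl⟩
    · rw [Subgroup.mem_centralizer_iff]
      intro y hy
      rw [SetLike.mem_coe, Sylow.coe_subgroup_smul] at hy
      obtain ⟨s, hs, rfl⟩ := hy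
      have := (Subgroup.mem_centralizer_iff.mp hw2) s hs
      show (MulAut.conj g).toMonoidHom s * (MulAut.conj g).toMonoidHom w =
        (MulAut.conj g).toMonoidHom w * (MulAut.conj g).toMonoidHom s
      rw [← map_mul, ← map_mul, this]
    · rw [← map_pow, hwp, map_one]
  exact hle hv

/-- With trivial p'-core, Thompson factorizability is equivalent to J(G) centralizing the subgroup generated by all Ω₁(Z(S)), S Sylow. -/
theorem result {G : Type*} [Group G] [Finite G] {p : ℕ} [Fact p.Prime] (hO : Cfsg.pPrimeCore p G = ⊥) : Cfsg.IsThompsonFactorizable p G ↔ Cfsg.thompsonSubgroup p G ≤ Subgroup.centralizer ((⨆ S : Sylow p G, Cfsg.omegaOne p (((S : Subgroup G)) ⊓ Subgroup.centralizer ((S : Subgroup G) : Set G)) : Subgroup G) : Set G) := by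
  classical
  constructor
  · intro hfac
    rw [Cfsg.thompsonSubgroup]
    apply sSup_le
    intro A hA
    rw [Subgroup.le_centralizer_iff]
    apply iSup_le
    intro S'
    intro v hv
    rw [Subgroup.mem_centralizer_iff]
    intro a ha
    obtain ⟨S'', hS''⟩ := (isPGroup_of_ea hA.1).exists_le_sylow
    obtain ⟨g, hg⟩ := MulAction.exists_smul_eq G S' S''
    obtain ⟨x, hx, c, hc, n, hn, hgeq⟩ := hfac S' g
    rw [hO, Subgroup.mem_bot] at hx
    subst hx
    rw [one_mul] at hgeq
    have ha' := hS'' ha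
    rw [← hg, Sylow.coe_subgroup_smul] at ha'
    have hA1 : A.map (MulAut.conj g⁻¹).toMonoidHom ≤ (S' : Subgroup G) := by
      rintro _ ⟨b, hb, rfl⟩
      have hb' := hS'' hb
      rw [← hg, Sylow.coe_subgroup_smul] at hb'
      obtain ⟨s, hs, hsb⟩ := hb'
      have : s = (MulAut.conj g⁻¹).toMonoidHom b := by
        rw [← hsb]
        show s = g⁻¹ * (g * s * g⁻¹) * g⁻¹⁻¹
        group
      rw [← this]; exact hs
    have hmax : A.map (MulAut.conj g⁻¹).toMonoidHom ∈ Cfsg.maxElementaryAbelianSubgroups p G := by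
      refine ⟨ea_conj hA.1 g⁻¹, ?_⟩
      intro B hB
      rw [card_conj]
      exact hA.2 B hB
    have hJ := le_thompsonOf (S' : Subgroup G) hmax hA1
    have ha1 : g⁻¹ * a * g ∈ Cfsg.thompsonSubgroupOf p (S' : Subgroup G) := by
      apply hJ
      refine ⟨a, ha, ?_⟩
      show g⁻¹ * a * g⁻¹⁻¹ = _
      simp
    have hn' := (Subgroup.mem_normalizer_iff.mp hn _).mp ha1
    have e : n * (g⁻¹ * a * g) * n⁻¹ = c⁻¹ * a * c := by
      rw [hgeq]; group
    rw [e] at hn'
    have hJS : Cfsg.thompsonSubgroupOf p (S' : Subgroup G) ≤ (S' : Subgroup G) := by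
      rintro _ ⟨j, -, rfl⟩
      exact j.2
    have hj := hJS hn'
    -- `v` commutes with `c` and with `c⁻¹ a c`
    have hvc : c * v = v * c := ((Subgroup.mem_centralizer_iff.mp hc) v hv).symm
    have hv' : v ∈ centralizer (({c⁻¹ * a * c} : Set G)) := by
      have hle : Cfsg.omegaOne p ((S' : Subgroup G) ⊓ centralizer ((S' : Subgroup G) : Set G)) ≤
          centralizer (({c⁻¹ * a * c} : Set G)) := by
        rw [Cfsg.omegaOne, Subgroup.closure_le]
        rintro w ⟨hwS, -⟩
        rw [SetLike.mem_coe, Subgroup.mem_centralizer_iff]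
        rintro _ rfl
        exact (Subgroup.mem_centralizer_iff.mp (Subgroup.mem_inf.mp hwS).2) _ hj
      exact hle hv
    have h1 : c⁻¹ * a * c * v = v * (c⁻¹ * a * c) :=
      (Subgroup.mem_centralizer_iff.mp hv') _ rfl
    have hvc' : c⁻¹ * v = v * c⁻¹ := by
      calc c⁻¹ * v = c⁻¹ * (v * c) * c⁻¹ := by group
        _ = c⁻¹ * (c * v) * c⁻¹ := by rw [hvc]
        _ = v * c⁻¹ := by group
    calc a * v = c * (c⁻¹ * a * c) * c⁻¹ * v := by group
      _ = c * (c⁻¹ * a * c) * (c⁻¹ * v) := by group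
      _ = c * (c⁻¹ * a * c) * (v * c⁻¹) := by rw [hvc']
      _ = c * ((c⁻¹ * a * c) * v) * c⁻¹ := by group
      _ = c * (v * (c⁻¹ * a * c)) * c⁻¹ := by rw [h1]
      _ = (c * v) * (c⁻¹ * a * c) * c⁻¹ := by group
      _ = (v * c) * (c⁻¹ * a * c) * c⁻¹ := by rw [hvc]
      _ = v * a := by group
  · intro hJ S g
    haveI hVn := sup_normal (G := G) (p := p)
    set V : Subgroup G := ⨆ S : Sylow p G, Cfsg.omegaOne p (((S : Subgroup G)) ⊓
      Subgroup.centralizer ((S : Subgroup G) : Set G)) with hV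
    set D := centralizer (V : Set G) with hD
    haveI hDn : D.Normal := Subgroup.normal_centralizer
    -- `J(S)` is inside `D`
    have hJS : ∀ A ∈ Cfsg.maxElementaryAbelianSubgroups p (S : Subgroup G), A.map (S : Subgroup G).subtype ≤ D := by
      intro A hA
      exact (le_sSup (map_mem_maxEA S hA)).trans hJ
    obtain ⟨Q, hQ⟩ := Cfsg.Agent.Lib.Basic.SylowUtil.exists_sylow_inf_normal S D
    have hfr := Sylow.normalizer_sup_eq_top Q
    rw [hQ, sup_comm] at hfr
    have hg : g ∈ ((D ⊔ normalizer ((((S : Subgroup G) ⊓ D : Subgroup G)) : Set G) : Subgroup G) : Set G) := by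
      rw [hfr]; trivial
    rw [Subgroup.normal_mul] at hg
    obtain ⟨d, hd, n, hn, rfl⟩ := Set.mem_mul.mp hg
    refine ⟨1, Subgroup.one_mem _, d, ?_, n, ?_, by simp⟩
    · exact Subgroup.centralizer_le (SetLike.coe_subset_coe.mpr (le_iSup (fun S : Sylow p G => Cfsg.omegaOne p (((S : Subgroup G)) ⊓
        Subgroup.centralizer ((S : Subgroup G) : Set G))) S)) hd
    · apply mem_normalizer_fintype
      intro j hj
      have hle : Cfsg.thompsonSubgroupOf p (S : Subgroup G) ≤
          (Cfsg.thompsonSubgroupOf p (S : Subgroup G)).comap (MulAut.conj n).toMonoidHom := by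
        rw [Cfsg.thompsonSubgroupOf, Subgroup.map_le_iff_le_comap, Cfsg.thompsonSubgroup]
        apply sSup_le
        intro A hA
        rw [← Subgroup.map_le_iff_le_comap, ← Subgroup.map_le_iff_le_comap]
        have hA' := hJS A hA
        -- the conjugate of `A` lies in `S ⊓ D`
        have hAS : A.map (S : Subgroup G).subtype ≤ (S : Subgroup G) ⊓ D :=
          le_inf (by rintro _ ⟨a, -, rfl⟩; exact a.2) hA'
        have hconj : (A.map (S : Subgroup G).subtype).map (MulAut.conj n).toMonoidHom ≤ (S : Subgroup G) ⊓ D := by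
          rintro _ ⟨x, hx, rfl⟩
          exact (Subgroup.mem_normalizer_iff.mp hn x).mp (hAS hx)
        have hconjS := hconj.trans inf_le_left
        have hmax : (A.map (S : Subgroup G).subtype).map (MulAut.conj n).toMonoidHom ∈
            Cfsg.maxElementaryAbelianSubgroups p G := by
          have h1 := map_mem_maxEA S hA
          refine ⟨ea_conj h1.1 n, ?_⟩
          intro B hB
          rw [card_conj]
          exact h1.2 B hB
        exact le_thompsonOf (S : Subgroup G) hmax hconjS
      exact hle hj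

end Cfsg.Agent.S0608
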