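import Cfsg.Statements.S0618
import Cfsg.Agent.Lib.PGroup.FFTrans
import Cfsg.Agent.S0601
import Cfsg.Agent.S0608
import Cfsg.Agent.S0617
import Mathlib

set_option autoImplicit false
open Cfsg

namespace Cfsg.Agent.S0618

open Cfsg.Agent.Lib.PGroup.FFTrans Cfsg.Agent.Lib.PGroup.FFStruct Cfsg.Agent.Lib.PGroup.FFPair

universe u

/-- Lifting a subgroup of the ambient group. -/
theorem lift_subgroup {G : Type u} [Group G] [Finite G] {V : Subgroup G} [V.Normal] (E : Subgroup (TT V))
    (hE : E ≤ (pi V).range) :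
    ∃ hn : ((Subgroup.centralizer (V : Set G)).subgroupOf (E.comap (pi V))).Normal,
      Nonempty ((↥(E.comap (pi V)) ⧸ (Subgroup.centralizer (V : Set G)).subgroupOf (E.comap (pi V))) ≃* ↥E) := by
  haveI hCn : (Subgroup.centralizer (V : Set G)).Normal := Subgroup.normal_centralizer
  haveI hn : ((Subgroup.centralizer (V : Set G)).subgroupOf (E.comap (pi V))).Normal :=
    Subgroup.normal_subgroupOf
  refine ⟨hn, ?_⟩
  let f : ↥(E.comap (pi V)) →* ↥E := ((pi V).comp (E.comap (pi V)).subtype).codRestrict E (fun x => x.2)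
  have hf : Function.Surjective f := by
    rintro ⟨e, he⟩
    obtain ⟨g, hg⟩ := hE he
    refine ⟨⟨g, ?_⟩, Subtype.ext hg⟩
    rw [Subgroup.mem_comap, hg]
    exact he
  have hker : (Subgroup.centralizer (V : Set G)).subgroupOf (E.comap (pi V)) = f.ker := by
    ext x
    rw [Subgroup.mem_subgroupOf, MonoidHom.mem_ker, ← pi_eq_one_iff]
    constructor
    · intro h
      exact Subtype.ext h
    · intro h
      exact congrArg Subtype.val h
  exact ⟨(QuotientGroup.quotientMulEquivOfEq hker).trans (QuotientGroup.quotientKerEquivOfSurjective f hf)⟩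

/-- A p-separable group with trivial p'-core in which the Thompson factorization fails has p = 2 or 3, and J(G) induces on the normal closure of Ω₁(Z(S)) a group containing a normal SL(2, p). -/
theorem result {G : Type*} [Group G] [Finite G] {p : ℕ} [Fact p.Prime] (hsep : Cfsg.IsPSolvable p G) (hO : Cfsg.pPrimeCore p G = ⊥) (hnf : ¬ Cfsg.IsThompsonFactorizable p G) : (p = 2 ∨ p = 3) ∧ ∃ E : Subgroup G, Subgroup.centralizer ((⨆ S : Sylow p G, Cfsg.omegaOne p ((S : Subgroup G) ⊓ Subgroup.centralizer ((S : Subgroup G) : Set G))) : Set G) ≤ E ∧ E ≤ Cfsg.thompsonSubgroup p G ⊔ Subgroup.centralizer ((⨆ S : Sylow p G, Cfsg.omegaOne p ((S : Subgroup G) ⊓ Subgroup.centralizer ((S : Subgroup G) : Set G))) : Set G) ∧ Cfsg.thompsonSubgroup p G ⊔ Subgroup.centralizer ((⨆ S : Sylow p G, Cfsg.omegaOne p ((S : Subgroup G) ⊓ Subgroup.centralizer ((S : Subgroup G) : Set G))) : Set G) ≤ Subgroup.normalizer (E : Set G) ∧ ∃ hn : ((Subgroup.centralizer ((⨆ S : Sylow p G, Cfsg.omegaOne p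 ((S : Subgroup G) ⊓ Subgroup.centralizer ((S : Subgroup G) : Set G))) : Set G)).subgroupOf E).Normal, Nonempty ((↥E ⧸ (Subgroup.centralizer ((⨆ S : Sylow p G, Cfsg.omegaOne p ((S : Subgroup G) ⊓ Subgroup.centralizer ((S : Subgroup G) : Set G))) : Set G)).subgroupOf E) ≃* Matrix.SpecialLinearGroup (Fin 2) (ZMod p)) := by
  classical
  have hc := Cfsg.Agent.Lib.Solvable.PSeries.centralizer_pCore_le hsep hO
  obtain ⟨hVn, hV, hOC⟩ := Cfsg.Agent.S0601.result hc
  have hJ := (Cfsg.Agent.S0608.result hO).not.mp hnf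
  set V : Subgroup G := ⨆ S : Sylow p G, Cfsg.omegaOne p ((S : Subgroup G) ⊓ Subgroup.centralizer ((S : Subgroup G) : Set G)) with hVdef
  haveI : V.Normal := hVn
  have hCeq : Subgroup.centralizer ((⨆ S : Sylow p G, Cfsg.omegaOne p ((S : Subgroup G) ⊓ Subgroup.centralizer ((S : Subgroup G) : Set G))) : Set G) = Subgroup.centralizer (V : Set G) := by
    apply le_antisymm
    · intro x hx
      have hle : V ≤ Subgroup.centralizer {x} := by
        apply iSup_le
        intro S y hy
        rw [Subgroup.mem_centralizer_singleton_iff]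
        rw [Subgroup.mem_centralizer_iff] at hx
        exact (hx y (Set.mem_iUnion.mpr ⟨S, hy⟩))
      rw [Subgroup.mem_centralizer_iff]
      intro y hy
      exact (Subgroup.mem_centralizer_singleton_iff.mp (hle hy))
    · apply Subgroup.centralizer_le
      intro y hy
      obtain ⟨S, hS⟩ := Set.mem_iUnion.mp hy
      exact (le_iSup (fun S : Sylow p G => Cfsg.omegaOne p ((S : Subgroup G) ⊓ Subgroup.centralizer ((S : Subgroup G) : Set G))) S) hS
  rw [hCeq]
  haveI hJc : (Cfsg.thompsonSubgroup p G).Characteristic :=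
    (Cfsg.Agent.S0602.result (p := p) (G := G)).1
  haveI hJn : (Cfsg.thompsonSubgroup p G).Normal := Subgroup.normal_of_characteristic _
  obtain ⟨hE, hHV, hf, hS1, hS3⟩ := setup_map hV hsep hOC (Cfsg.thompsonSubgroup p G)
    (Cfsg.maxElementaryAbelianSubgroups p G) rfl (fun B hB => Cfsg.Agent.S0606.result V hV B hB)
  set H := (Cfsg.thompsonSubgroup p G).map (pi V) with hH
  have hHne : H ≠ ⊥ := by
    intro h
    apply hJ
    intro j hj
    have : pi V j ∈ H := ⟨j, hj, rfl⟩
    rw [h, Subgroup.mem_bot] at this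
    exact (pi_eq_one_iff j).mp this
  have hres := Cfsg.Agent.S0617.result (V0 V) H hE hHV hf hS1 hS3 hHne
  have S : Setup p (V0 V) H := ⟨hE, hHV, hf, hS1⟩
  have hHs := H_le_sSup S hS3
  have hne : ({A | IsMinBO p (V0 V) H A} : Set (Subgroup (TT V))).Nonempty := by
    by_contra hno
    rw [Set.not_nonempty_iff_eq_empty] at hno
    rw [hno, sSup_empty] at hHs
    exact hHne (le_bot_iff.mp hHs)
  obtain ⟨A, hAH, hAb, hAV, hAmin⟩ := hne
  set E : Subgroup (TT V) := ⁅((Cfsg.pPrimeCore p ↥H).map H.subtype), A⁆ ⊔ A with hEdef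
  obtain ⟨hN, ⟨e⟩, -⟩ := hres.2.1 ⟨E, A, hAH, hAb, hAV, hAmin, rfl⟩
  have hEH : E ≤ H := by
    apply sup_le _ hAH
    rw [Subgroup.commutator_le]
    rintro _ ⟨c, -, rfl⟩ a ha
    have ha' := hAH ha
    have h1 : H.subtype c ∈ H := c.2
    rw [commutatorElement_def]
    exact H.mul_mem (H.mul_mem (H.mul_mem h1 ha') (H.inv_mem h1)) (H.inv_mem ha')
  have hErange : E ≤ (pi V).range := by
    intro x hx
    obtain ⟨j, -, hj⟩ := hEH hx
    exact ⟨j, hj⟩
  obtain ⟨hn, ⟨e2⟩⟩ := lift_subgroup E hErange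
  refine ⟨hres.1, E.comap (pi V), ?_, ?_, ?_, hn, ⟨e2.trans e⟩⟩
  · intro c hc
    rw [Subgroup.mem_comap, (pi_eq_one_iff c).mpr hc]
    exact E.one_mem
  · intro x hx
    obtain ⟨j, hj, hjx⟩ := hEH (Subgroup.mem_comap.mp hx)
    have hc : j⁻¹ * x ∈ Subgroup.centralizer (V : Set G) := by
      rw [← pi_eq_one_iff, map_mul, map_inv, hjx]
      group
    have : x = j * (j⁻¹ * x) := by group
    rw [this]
    exact Subgroup.mul_mem _ ((le_sup_left : _ ≤ Cfsg.thompsonSubgroup p G ⊔ _) hj)
      ((le_sup_right : _ ≤ Cfsg.thompsonSubgroup p G ⊔ _) hc)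
  · intro g hg
    have hgH : pi V g ∈ H := by
      have hle : Cfsg.thompsonSubgroup p G ⊔ Subgroup.centralizer (V : Set G) ≤ H.comap (pi V) := by
        apply sup_le
        · intro j hj
          exact ⟨j, hj, rfl⟩
        · intro c hc
          rw [Subgroup.mem_comap, (pi_eq_one_iff c).mpr hc]
          exact H.one_mem
      exact hle hg
    rw [Subgroup.mem_normalizer_iff]
    intro y
    have h1 := Subgroup.mem_normalizer_iff.mp (hN hgH) (pi V y)
    rw [Subgroup.mem_comap, Subgroup.mem_comap, map_mul, map_mul, map_inv]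
    exact h1

end Cfsg.Agent.S0618
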