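import Cfsg.Statements.S0414
import Cfsg.Agent.S0410
import Cfsg.Agent.Lib.BasicSteiner.Witt.Stab2

set_option autoImplicit false
open Cfsg

namespace Cfsg.Agent.S0414

/-- The preimage of a subgroup under an isomorphism. -/
noncomputable def comapEquiv {G G' : Type*} [Group G] [Group G'] (f : G ≃* G') (K : Subgroup G') :
    K.comap f.toMonoidHom ≃* K where
  toFun x := ⟨f x.1, x.2⟩
  invFun y := ⟨f.symm y.1, by simp⟩
  left_inv x := by
    apply Subtype.ext
    simp
  right_inv y := by
    apply Subtype.ext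
    simp
  map_mul' x y := by
    apply Subtype.ext
    exact map_mul f x.1 y.1

/-- Aut of an S(3, 6, 22) has order 887040, is 3-transitive, and contains a simple subgroup of index 2. -/
theorem result {α : Type*} [Fintype α] [DecidableEq α] (hα : Fintype.card α = 22) {B : Set (Finset α)} (hB : Cfsg.IsSteinerSystem 3 6 B) : Nat.card (Cfsg.setSystemAut B) = 887040 ∧ MulAction.IsMultiplyPretransitive (Cfsg.setSystemAut B) α 3 ∧ ∃ H : Subgroup (Cfsg.setSystemAut B), H.index = 2 ∧ Cfsg.IsM22 H := by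
  classical
  open Cfsg.Agent.Lib.BasicSteiner.WittAut Cfsg.Agent.Lib.BasicSteiner.WittStab2 in
  obtain ⟨e, he⟩ := Cfsg.Agent.S0410.result hα card_Om2 hB hex_steiner
  open Cfsg.Agent.Lib.BasicSteiner.WittAut Cfsg.Agent.Lib.BasicSteiner.WittStab2 in
  refine ⟨?_, ?_, ?_⟩
  · open Cfsg.Agent.Lib.BasicSteiner.WittAut Cfsg.Agent.Lib.BasicSteiner.WittStab2 in
    rw [card_of_iso e he]
    exact card_A2
  · open Cfsg.Agent.Lib.BasicSteiner.WittAut Cfsg.Agent.Lib.BasicSteiner.WittStab2 in
    have := hex_threeTrans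
    open Cfsg.Agent.Lib.BasicSteiner.WittAut Cfsg.Agent.Lib.BasicSteiner.WittStab2 in
    exact pretransitive_of_iso e he 3
  · open Cfsg.Agent.Lib.BasicSteiner.WittAut Cfsg.Agent.Lib.BasicSteiner.WittStab2 in
    let f := autEquiv e he
    open Cfsg.Agent.Lib.BasicSteiner.WittAut Cfsg.Agent.Lib.BasicSteiner.WittStab2 in
    refine ⟨H2.comap f.toMonoidHom, ?_, ?_, ?_⟩
    · rw [Subgroup.index_comap_of_surjective _ f.surjective]
      exact Cfsg.Agent.Lib.BasicSteiner.WittStab2.h2_index
    · have hs := Cfsg.Agent.Lib.BasicSteiner.WittStab2.simple_H2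
      exact (comapEquiv f _).isSimpleGroup
    · rw [Nat.card_congr (comapEquiv f _).toEquiv]
      exact Cfsg.Agent.Lib.BasicSteiner.WittStab2.card_H2

end Cfsg.Agent.S0414
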