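import Cfsg.Statements.S0958
import Mathlib
import Cfsg.Agent.Lib.Blocks.BrauerCoeff
import Cfsg.Agent.S0959
-- import your own Cfsg.Agent.* helpers here

set_option autoImplicit false
open Cfsg

namespace Cfsg.Agent.S0958

open Cfsg.Agent.Lib.Blocks.Local Cfsg.Agent.Lib.Blocks.Central Cfsg.Agent.Lib.Blocks.Osima
  Cfsg.Agent.Lib.Blocks.BrauerCoeff

/-- Let P be a p-subgroup of the finite group G and H a subgroup with P ⊔ C_G(P) ≤ H ≤ N_G(P); fix a maximal ideal M of the algebraic integers containing p. Then a block B of G is induced by some block of H if and only if some conjugate of P is contained in a defect group of B. -/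
theorem result {G : Type*} [Group G] [Finite G] (p : ℕ) [Fact p.Prime] (M : Ideal Cfsg.AlgInt) (hM : Cfsg.IsPModular p M) (P H : Subgroup G) (hP : IsPGroup p P) (hPH : P ⊔ Subgroup.centralizer (P : Set G) ≤ H) (hHN : H ≤ Subgroup.normalizer (P : Set G)) (B : Set (Cfsg.IrrCharacter G)) (hB : Cfsg.IsPBlock M B) : (∃ b : Set (Cfsg.IrrCharacter H), Cfsg.IsInducedBlock M H b B) ↔ ∃ D : Subgroup G, Cfsg.IsDefectGroup p M B D ∧ ∃ x : G, P.map (MulAut.conj x).toMonoidHom ≤ D := by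
  classical
  letI := Fintype.ofFinite G
  letI : Fintype H := Fintype.ofFinite H
  haveI := isPrime_of_isPModular hM
  have hPH' : P ≤ H := le_trans le_sup_left hPH
  have hCH : Subgroup.centralizer (P : Set G) ≤ H := le_trans le_sup_right hPH
  obtain ⟨χ, hBχ⟩ := id hB
  have hχ : χ ∈ B := by
    rw [hBχ]
    exact mem_blockOf_self χ
  constructor
  · rintro ⟨b, hb⟩
    obtain ⟨ξ, hbξ⟩ := id hb.1
    have hξ : ξ ∈ b := by
      rw [hbξ]
      exact mem_blockOf_self ξ
    obtain ⟨g, hgC, hg⟩ := exists_coeff_of_isInducedBlock hM hP hPH' hHN (hb.2.2 ξ hξ χ hχ)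
    rw [← hBχ] at hg
    obtain ⟨y₀, hy₀⟩ := exists_isDefectClass hB
    obtain ⟨S⟩ : Nonempty (Sylow p (Subgroup.centralizer ({y₀} : Set G))) := inferInstance
    have hD : Cfsg.IsDefectGroup p M B ((S : Subgroup _).map (Subgroup.centralizer ({y₀} : Set G)).subtype) :=
      ⟨y₀, hy₀, S, rfl⟩
    refine ⟨_, hD, ?_⟩
    refine (Cfsg.Agent.S0959.result p M hM B hB _ hD P hP).mp ⟨g, ?_, hg, g, IsConj.refl g, hgC⟩
    exact memLocalRing_blockCoeff hB g
  · rintro ⟨D, hD, x, hx⟩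
    obtain ⟨g, -, hg, c, hgc, hcC⟩ := (Cfsg.Agent.S0959.result p M hM B hB D hD P hP).mpr ⟨x, hx⟩
    have hc : ¬ Cfsg.MemLocalIdeal M (Cfsg.blockCoeff B c) := by
      obtain ⟨t, rfl⟩ := isConj_iff.mp hgc
      rw [isClassFunction_blockCoeff B g t]
      exact hg
    obtain ⟨ξ, hξ⟩ := exists_brauer_of_coeff hM hP hCH hHN hB hcC hc hχ
    refine ⟨Cfsg.blockOf M (ξ : H → ℂ), ?_⟩
    rw [hBχ]
    exact isInducedBlock_of_brauer hM hP hPH' hHN hξ

end Cfsg.Agent.S0958
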