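import Cfsg.Statements.S0973
import Mathlib
import Cfsg.Agent.Lib.Blocks.FirstMain2
import Cfsg.Agent.Lib.Blocks.Covering2
import Cfsg.Agent.S0918
import Cfsg.Agent.S0908

set_option autoImplicit false
open Cfsg

namespace Cfsg.Agent.S0973

open Cfsg.Agent.Lib.Blocks.Local Cfsg.Agent.Lib.Blocks.Central Cfsg.Agent.Lib.Blocks.Osima
open Cfsg.Agent.Lib.Blocks.FirstMain Cfsg.Agent.Lib.Blocks.FirstMain2 Cfsg.Agent.Lib.Blocks.Transport
open Cfsg.Agent.Lib.Blocks.BrauerMap Cfsg.Agent.Lib.Blocks.Covering Cfsg.Agent.Lib.Blocks.Covering2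


section Aux

open Cfsg.Agent.Lib.Blocks.Local Cfsg.Agent.Lib.Blocks.Central Cfsg.Agent.Lib.Blocks.Osima
open Cfsg.Agent.Lib.Blocks.BrauerMap Cfsg.Agent.Lib.Blocks.Covering Cfsg.Agent.Lib.Blocks.Transport

variable {G : Type*} [Group G] [Fintype G] {P H K : Subgroup G}

/-- Brauer central characters along constituents. -/
lemma brauerCentralChar_eq_of_constituent [Fintype K] [Fintype H] [Fintype (H.subgroupOf K)]
    (hCH : Subgroup.centralizer (P : Set G) ≤ H)
    (hHK : H ≤ K) (hKN : K ≤ Subgroup.normalizer (P : Set G)) [hn : (H.subgroupOf K).Normal]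
    {η : K → ℂ} (hη : IsIrrCharacter K η) (θ : IrrCharacter H)
    (hcon : classInner (fun n : H.subgroupOf K => η n)
      (irrComap (Subgroup.subgroupOfEquivOfLe hHK) θ : H.subgroupOf K → ℂ) ≠ 0) (g : G) :
    brauerCentralChar P K η g = brauerCentralChar P H (θ : H → ℂ) g := by
  classical
  set φ := Subgroup.subgroupOfEquivOfLe hHK with hφ
  set T' : Set (H.subgroupOf K) := {n | IsConj g ((n : K) : G) ∧ ((n : K) : G) ∈ Subgroup.centralizer (P : Set G)} with hT'
  set TK : Set K := {h | IsConj g (h : G) ∧ (h : G) ∈ Subgroup.centralizer (P : Set G)} with hTK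
  set TH : Set H := {h | IsConj g (h : G) ∧ (h : G) ∈ Subgroup.centralizer (P : Set G)} with hTH
  have hpush : push (H.subgroupOf K) (indicator T') = indicator TK := by
    apply ext_coeff
    intro x
    by_cases hx : x ∈ H.subgroupOf K
    · have h1 := coeff_push_coe (H.subgroupOf K) (indicator T') ⟨x, hx⟩
      have h2 : (((⟨x, hx⟩ : H.subgroupOf K) : K)) = x := rfl
      rw [h2] at h1
      rw [h1, coeff_indicator, coeff_indicator]
      rfl
    · rw [coeff_push_of_notMem _ _ hx, coeff_indicator, if_neg]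
      rintro ⟨_, h2⟩
      exact hx (by rw [Subgroup.mem_subgroupOf]; exact hCH h2)
  have hclass : IsClassFunction K (push (H.subgroupOf K) (indicator T')).coeff := by
    rw [hpush]
    intro x y
    rw [coeff_indicator, coeff_indicator]
    have h1 : y * x * y⁻¹ ∈ TK ↔ x ∈ TK := by
      have h2 : ((y * x * y⁻¹ : K) : G) = (y : G) * x * (y : G)⁻¹ := by simp
      simp only [hTK, Set.mem_ofPred_eq, h2]
      rw [conj_mem_centralizer_iff hKN y (x : G)]
      refine and_congr_left fun _ => ?_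
      constructor
      · intro h
        exact h.trans (isConj_iff.mpr ⟨(y : G)⁻¹, by group⟩)
      · intro h
        exact h.trans (isConj_iff.mpr ⟨(y : G), rfl⟩)
    by_cases hx : x ∈ TK
    · rw [if_pos hx, if_pos (h1.2 hx)]
    · rw [if_neg hx, if_neg (fun h => hx (h1.1 h))]
  have h1 : brauerCentralChar P K η g = omega η (indicator TK) := by
    rw [brauerCentralChar, finsum_mem_eq_omega_indicator]
  have h2 : omega η (indicator TK) =
      omega (irrComap φ θ : H.subgroupOf K → ℂ) (indicator T') := by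
    rw [← hpush]
    exact omega_push_eq_of_constituent hη (irrComap φ θ).2 hcon hclass
  have h3 : brauerCentralChar P H (θ : H → ℂ) g =
      omega (irrComap φ θ : H.subgroupOf K → ℂ) (indicator T') := by
    rw [← finsum_mem_eq_omega_indicator, brauerCentralChar]
    have himg : TH = φ '' T' := by
      ext h
      constructor
      · intro hh
        refine ⟨φ.symm h, ?_, by simp⟩
        exact hh
      · rintro ⟨n, hn, rfl⟩
        exact hn
    show ∑ᶠ h ∈ TH, _ = _
    rw [himg, finsum_mem_image φ.injective.injOn]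
    refine finsum_congr fun n => finsum_congr fun _ => ?_
    simp
  rw [h1, h2, h3]

end Aux

/-- Let B be a block of the finite group G with defect group P (relative to a maximal ideal M of the algebraic integers containing p), and let L = P ⊔ C_G(P). Then (i) some block b of L with defect group P (viewed in L) induces B, and (ii) if b and b' are blocks of L both inducing B, there is n ∈ N_G(P) carrying b to b': for every θ ∈ b there is θ' ∈ b' with θ' x = θ (n x n⁻¹) for all x ∈ L. -/
theorem result {G : Type*} [Group G] [Finite G] (p : ℕ) [Fact p.Prime] (M : Ideal Cfsg.AlgInt) (hM : Cfsg.IsPModular p M) (B : Set (Cfsg.IrrCharacter G)) (hB : Cfsg.IsPBlock M B) (P : Subgroup G) (hP : Cfsg.IsDefectGroup p M B P) : (∃ b : Set (Cfsg.IrrCharacter ↥(P ⊔ Subgroup.centralizer (P : Set G))), Cfsg.IsDefectGroup p M b (P.subgroupOf (P ⊔ Subgroup.centralizer (P : Set G))) ∧ Cfsg.IsInducedBlock M (P ⊔ Subgroup.centralizer (P : Set G)) b B) ∧ ∀ b b' : Set (Cfsg.IrrCharacter ↥(P ⊔ Subgroup.centralizer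 (P : Set G))), Cfsg.IsInducedBlock M (P ⊔ Subgroup.centralizer (P : Set G)) b B → Cfsg.IsInducedBlock M (P ⊔ Subgroup.centralizer (P : Set G)) b' B → ∃ n ∈ Subgroup.normalizer (P : Set G), ∀ θ ∈ b, ∃ θ' ∈ b', ∀ x : ↥(P ⊔ Subgroup.centralizer (P : Set G)), ∀ hx : n * (x : G) * n⁻¹ ∈ P ⊔ Subgroup.centralizer (P : Set G), (θ' : ↥(P ⊔ Subgroup.centralizer (P : Set G)) → ℂ) x = (θ : ↥(P ⊔ Subgroup.centralizer (P : Set G)) → ℂ) ⟨n * (x : G) * n⁻¹, hx⟩ := by
  classical
  haveI := Fintype.ofFinite G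
  have hMp := isPrime_of_isPModular hM
  have hPg : IsPGroup p P := by
    obtain ⟨g, -, S, rfl⟩ := hP
    exact Cfsg.Agent.Lib.Blocks.Defect.isPGroup_sylow_map S
  set L := P ⊔ Subgroup.centralizer (P : Set G) with hL
  set N := Subgroup.normalizer (P : Set G) with hN
  have hPL : P ≤ L := le_sup_left
  have hCL : Subgroup.centralizer (P : Set G) ≤ L := le_sup_right
  have hPN : P ≤ N := le_normalizer' P
  have hCN : Subgroup.centralizer (P : Set G) ≤ N := centralizer_le_normalizer' P
  have hLN : L ≤ N := sup_le hPN hCN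
  haveI : Fintype L := Fintype.ofFinite _
  haveI : Fintype N := Fintype.ofFinite _
  haveI : Fintype (L.subgroupOf N) := Fintype.ofFinite _
  haveI hnP : (P.subgroupOf N).Normal := (Subgroup.normal_subgroupOf_iff_le_normalizer hPN).mpr le_rfl
  haveI hnC : ((Subgroup.centralizer (P : Set G)).subgroupOf N).Normal :=
    ⟨fun x hx y => by
      rw [Subgroup.mem_subgroupOf] at hx ⊢
      have h2 : (((y * x * y⁻¹ : N)) : G) = (y : G) * x * (y : G)⁻¹ := by simp
      rw [h2]
      exact (Cfsg.Agent.Lib.Blocks.BrauerMap.conj_mem_centralizer_iff' y.2).2 hx⟩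
  haveI hnL : (L.subgroupOf N).Normal := by
    have : L.subgroupOf N = P.subgroupOf N ⊔ (Subgroup.centralizer (P : Set G)).subgroupOf N := by
      rw [hL, Subgroup.subgroupOf_sup hPN hCN]
    rw [this]
    infer_instance
  set φ := Subgroup.subgroupOfEquivOfLe hLN with hφ
  -- central characters of blocks of `N`
  have hsame : ∀ {X : Subgroup G} [Fintype X], X ≤ N → ∀ {ξ ξ' : IrrCharacter X},
      SameBlock M (ξ : X → ℂ) (ξ' : X → ℂ) → ∀ g : G,
      MemLocalIdeal M (brauerCentralChar P X (ξ : X → ℂ) g - brauerCentralChar P X (ξ' : X → ℂ) g) := by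
    intro X _ hX ξ ξ' h g
    rw [brauerCentralChar_eq_omega, brauerCentralChar_eq_omega]
    exact memLocalIdeal_omega_sub ξ.2 ξ'.2 h (brauer_mem_localCenter hX (classSum_mem_localCenter g))
  have hS0918L := Cfsg.Agent.S0918.result p M hM P L hPg hPL hCL hLN
  have hS0918N := Cfsg.Agent.S0918.result p M hM P N hPg hPN hCN le_rfl
  -- the passage from `N` to `L`
  have hdown : ∀ {η : IrrCharacter N} {θ : IrrCharacter L} {b₀ : Set (IrrCharacter N)},
      classInner (fun n : L.subgroupOf N => (η : N → ℂ) n) (irrComap φ θ : L.subgroupOf N → ℂ) ≠ 0 →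
      IsInducedBlock M N b₀ B → η ∈ b₀ → IsInducedBlock M L (blockOf M (θ : L → ℂ)) B := by
    intro η θ b₀ hcon hind hη
    refine (hS0918L _ ⟨θ, rfl⟩ B hB).2 fun ξ hξ χ hχ g => ?_
    have h1 := hsame hLN (ξ := ξ) (ξ' := θ) (sameBlock_symm hξ) g
    have h2 := (hS0918N b₀ hind.1 B hB).1 hind η hη χ hχ g
    rw [brauerCentralChar_eq_of_constituent hCL hLN le_rfl (P := P) η.2 θ hcon] at h2
    have h3 := memLocalIdeal_add h1 h2
    convert h3 using 1
    ring
  have hup : ∀ {η : IrrCharacter N} {θ : IrrCharacter L} {b : Set (IrrCharacter L)},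
      classInner (fun n : L.subgroupOf N => (η : N → ℂ) n) (irrComap φ θ : L.subgroupOf N → ℂ) ≠ 0 →
      IsInducedBlock M L b B → θ ∈ b → IsInducedBlock M N (blockOf M (η : N → ℂ)) B := by
    intro η θ b hcon hind hθ
    refine (hS0918N _ ⟨η, rfl⟩ B hB).2 fun ξ hξ χ hχ g => ?_
    have h1 := hsame (le_refl N) (ξ := ξ) (ξ' := η) (sameBlock_symm hξ) g
    have h2 := (hS0918L b hind.1 B hB).1 hind θ hθ χ hχ g
    rw [← brauerCentralChar_eq_of_constituent hCL hLN le_rfl (P := P) η.2 θ hcon] at h2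
    have h3 := memLocalIdeal_add h1 h2
    convert h3 using 1
    ring
  obtain ⟨b₀, hb₀, hdb₀, hind₀⟩ := exists_isInducedBlock_of_isDefectGroup hM hPg hB hP
  refine ⟨?_, ?_⟩
  · -- existence
    obtain ⟨η₀, rfl⟩ := id hb₀
    have hη₀ : η₀ ∈ blockOf M (η₀ : N → ℂ) := mem_blockOf_self η₀
    obtain ⟨θ', hθ'⟩ := exists_constituent (G := N) (N := L.subgroupOf N) η₀.2
    set θ : IrrCharacter L := irrComap φ.symm θ' with hθ
    have hθθ' : irrComap φ θ = θ' := irrComap_irrComap_symm φ θ'
    have hcon : classInner (fun n : L.subgroupOf N => (η₀ : N → ℂ) n) (irrComap φ θ : L.subgroupOf N → ℂ) ≠ 0 := by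
      rw [hθθ']; exact hθ'
    have hind := hdown hcon hind₀ hη₀
    refine ⟨_, ?_, hind⟩
    -- the defect group
    have hbb : IsPBlock M (blockOf M (θ : L → ℂ)) := ⟨θ, rfl⟩
    obtain ⟨k, hk⟩ := exists_isDefectClass (M := M) hbb
    obtain ⟨S'⟩ : Nonempty (Sylow p (Subgroup.centralizer ({k} : Set L))) := inferInstance
    have hdb : IsDefectGroup p M (blockOf M (θ : L → ℂ)) ((S' : Subgroup _).map
        (Subgroup.centralizer ({k} : Set L)).subtype) := ⟨k, hk, S', rfl⟩
    have hcore := Cfsg.Agent.S0912.result p M hM _ hbb _ hdb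
    have hDn : (P.subgroupOf L).Normal :=
      (Subgroup.normal_subgroupOf_iff_le_normalizer hPL).mpr hLN
    have hDp : IsPGroup p (P.subgroupOf L) :=
      hPg.comap_of_injective _ (Subgroup.subtype_injective _)
    have hDcore := Cfsg.Agent.Lib.Basic.PCore.le_pCore hDn hDp
    obtain ⟨E, hE, hDbE⟩ := Cfsg.Agent.Lib.Blocks.Induced.induced_block_defect_group_le hM _ _ hbb B hB hind _ hdb
    have hcardE := Cfsg.Agent.S0908.result p M hM B hB E hE
    have hcardD := Cfsg.Agent.S0908.result p M hM B hB P hP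
    have hcardP : Nat.card (P.subgroupOf L) = Nat.card P := by
      exact Nat.card_congr (Subgroup.subgroupOfEquivOfLe hPL).toEquiv
    have hle2 : Nat.card ((S' : Subgroup _).map
        (Subgroup.centralizer ({k} : Set L)).subtype) ≤ Nat.card (P.subgroupOf L) := by
      rw [hcardP, hcardD, ← hcardE]
      refine le_trans (le_of_eq ?_) (Subgroup.card_le_of_le hDbE)
      exact Nat.card_congr (Subgroup.equivMapOfInjective _ _ (Subgroup.subtype_injective _)).toEquiv
    have heq := Subgroup.eq_of_le_of_card_ge (hDcore.trans hcore) hle2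
    rw [heq]
    exact hdb
  · -- conjugacy
    intro b b' hind hind'
    obtain ⟨θ₁, rfl⟩ := id hind.1
    obtain ⟨θ₂, hθ₂⟩ := id hind'.1
    have hθ₂m : θ₂ ∈ b' := by rw [hθ₂]; exact mem_blockOf_self θ₂
    have hθ₁m : θ₁ ∈ blockOf M (θ₁ : L → ℂ) := mem_blockOf_self θ₁
    obtain ⟨η, hη⟩ := exists_irr_of_constituent (G := N) (N := L.subgroupOf N) (irrComap φ θ₁).2
    obtain ⟨η', hη'⟩ := exists_irr_of_constituent (G := N) (N := L.subgroupOf N) (irrComap φ θ₂).2
    have hi := hup hη hind hθ₁m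
    have hi' := hup hη' hind' hθ₂m
    have he₁ := eq_of_isInducedBlock hM hPg hB hb₀ hi.1 hdb₀ hind₀ hi
    have he₂ := eq_of_isInducedBlock hM hPg hB hb₀ hi'.1 hdb₀ hind₀ hi'
    have hηη' : SameBlock M (η : N → ℂ) (η' : N → ℂ) := by
      have : η' ∈ blockOf M (η : N → ℂ) := by
        rw [← he₁, he₂]; exact mem_blockOf_self η'
      exact this
    set c := blockMap φ (blockOf M (θ₁ : L → ℂ)) with hc
    have hcb : IsPBlock M c := isPBlock_blockMap φ hind.1
    have hmem : irrComap φ θ₂ ∈ Cfsg.Agent.Lib.Blocks.Covering.conjOrbit (G := N) c :=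
      mem_of_sameBlock_of_constituent (isConjStable_conjOrbit _)
        (fun n => (blockElt_conjOrbit_mem_localCenter hcb).2 n) η.2 η'.2 hηη' hη
        (subset_conjOrbit _ (irrComap_mem_blockMap φ hθ₁m)) hη'
    obtain ⟨n, θ₀, hθ₀, hn⟩ := hmem
    refine ⟨(n : G), n.2, fun θ hθ => ?_⟩
    have hθc : irrComap φ θ ∈ c := irrComap_mem_blockMap φ hθ
    have hs : SameBlock M (θ₀ : L.subgroupOf N → ℂ) (irrComap φ θ : L.subgroupOf N → ℂ) := by
      rw [hc, ← blockOf_comap] at hθ₀ hθc
      exact sameBlock_trans (sameBlock_symm hθ₀) hθc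
    have hs' := sameBlock_conjIrr n hs
    rw [← hn] at hs'
    -- the block of `θ₂`
    refine ⟨irrComap φ.symm (conjIrr n (irrComap φ θ)), ?_, fun x hx => ?_⟩
    · have h1 : conjIrr n (irrComap φ θ) ∈ blockMap φ b' := by
        rw [hθ₂, ← blockOf_comap]
        exact hs'
      exact (mem_blockMap_iff φ).1 h1
    · rw [coe_irrComap, conjIrr_apply, coe_irrComap]
      congr 1

end Cfsg.Agent.S0973
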