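import Cfsg.Statements.S2478
import Mathlib
import Cfsg.Agent.Lib.Linalg.SemisimpleClasses

set_option autoImplicit false
open Cfsg

namespace Cfsg.Agent.S2478

open Polynomial
open Cfsg.Agent.Lib.Linalg.RCF Cfsg.Agent.Lib.Linalg.RCFType

section Count

variable {F : Type*} [Field F]

/-- Types with all parts at most `J` and total size `n`. -/
def S (F : Type*) [Field F] (J n : ℕ) : Type _ :=
  {τ : Multiset (F[X] × ℕ) // (∀ a ∈ τ, (Adm a ∧ a.1 ≠ X) ∧ a.2 ≤ J) ∧ (τ.map fun a => a.2 * a.1.natDegree).sum = n}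

/-- Monic polynomials of degree `d` with nonzero constant term. -/
def Mon (F : Type*) [Field F] (d : ℕ) : Type _ :=
  {f : F[X] // f.Monic ∧ f.natDegree = d ∧ f.coeff 0 ≠ 0}

/-- the part of exponent `j`. -/
noncomputable def hPart (j : ℕ) (τ : Multiset (F[X] × ℕ)) : F[X] :=
  ((τ.filter fun a => a.2 = j).map Prod.fst).prod

theorem hPart_monic (j : ℕ) (τ : Multiset (F[X] × ℕ)) (h : ∀ a ∈ τ, Adm a) : (hPart j τ).Monic := by
  apply Polynomial.monic_multiset_prod_of_monic
  intro a ha
  exact (h a (Multiset.mem_filter.mp ha).1).1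

theorem hPart_coeff (j : ℕ) (τ : Multiset (F[X] × ℕ)) (h : ∀ a ∈ τ, Adm a ∧ a.1 ≠ X) :
    (hPart j τ).coeff 0 ≠ 0 := by
  unfold hPart
  rw [Polynomial.coeff_zero_eq_eval_zero, Polynomial.eval_multiset_prod]
  rw [Ne, Multiset.prod_eq_zero_iff, Multiset.mem_map]
  simp only [Multiset.mem_map]
  intro hmem
  obtain ⟨p, ⟨a, ha, rfl⟩, h0⟩ := hmem
  replace ha := (Multiset.mem_filter.mp ha).1
  obtain ⟨⟨hm, hi, -⟩, hX⟩ := h a ha
  have hd : (X : F[X]) ∣ a.1 := by
    rw [Polynomial.X_dvd_iff, Polynomial.coeff_zero_eq_eval_zero]; exact h0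
  have : a.1 = X := by
    have h1 := (Polynomial.irreducible_X (R := F)).associated_of_dvd hi hd
    exact (Polynomial.eq_of_monic_of_associated Polynomial.monic_X hm h1).symm
  exact hX this

theorem hPart_natDegree (j : ℕ) (τ : Multiset (F[X] × ℕ)) (h : ∀ a ∈ τ, Adm a) :
    (hPart j τ).natDegree = ((τ.filter fun a => a.2 = j).map fun a => a.1.natDegree).sum := by
  unfold hPart
  rw [Polynomial.natDegree_multiset_prod_of_monic]
  · simp [Multiset.map_map]
  · intro f hf
    obtain ⟨a, ha, rfl⟩ := Multiset.mem_map.mp hf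
    exact (h a (Multiset.mem_filter.mp ha).1).1

/-- The `j`-part is recovered from the polynomial. -/
theorem filter_eq_of_hPart (j : ℕ) (τ : Multiset (F[X] × ℕ)) (h : ∀ a ∈ τ, Adm a) [DecidableEq F] :
    τ.filter (fun a => a.2 = j) = (UniqueFactorizationMonoid.normalizedFactors (hPart j τ)).map (fun f => (f, j)) := by
  have h1 : UniqueFactorizationMonoid.normalizedFactors (hPart j τ) = (τ.filter fun a => a.2 = j).map Prod.fst := by
    unfold hPart
    rw [UniqueFactorizationMonoid.normalizedFactors_prod_eq]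
    · conv_rhs => rw [← Multiset.map_id ((τ.filter fun a => a.2 = j).map Prod.fst)]
      apply Multiset.map_congr rfl
      intro f hf
      obtain ⟨a, ha, rfl⟩ := Multiset.mem_map.mp hf
      obtain ⟨hm, hi, -⟩ := h a (Multiset.mem_filter.mp ha).1
      exact hm.normalize_eq_self
    · intro f hf
      obtain ⟨a, ha, rfl⟩ := Multiset.mem_map.mp hf
      exact (h a (Multiset.mem_filter.mp ha).1).2.1
  rw [h1, Multiset.map_map]
  conv_lhs => rw [← Multiset.map_id (τ.filter fun a => a.2 = j)]
  apply Multiset.map_congr rfl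
  intro a ha
  have := (Multiset.mem_filter.mp ha).2
  ext <;> simp [this]

theorem sum_split (j : ℕ) (τ : Multiset (F[X] × ℕ)) (h : ∀ a ∈ τ, Adm a) :
    (τ.map fun a => a.2 * a.1.natDegree).sum =
      j * (hPart j τ).natDegree + ((τ.filter fun a => a.2 ≠ j).map fun a => a.2 * a.1.natDegree).sum := by
  classical
  conv_lhs => rw [← Multiset.filter_add_not (fun a : F[X] × ℕ => a.2 = j) τ]
  rw [Multiset.map_add, Multiset.sum_add, hPart_natDegree j τ h]
  congr 1
  rw [← Multiset.sum_map_mul_left]
  apply congrArg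
  apply Multiset.map_congr rfl
  intro a ha
  rw [(Multiset.mem_filter.mp ha).2]

theorem finite_S_zero (n : ℕ) : Subsingleton (S F 0 n) := by
  constructor
  rintro ⟨τ, hτ, -⟩ ⟨τ', hτ', -⟩
  have h0 : ∀ (σ : Multiset (F[X] × ℕ)), (∀ a ∈ σ, (Adm a ∧ a.1 ≠ X) ∧ a.2 ≤ 0) → σ = 0 := by
    intro σ hσ
    apply Multiset.eq_zero_of_forall_notMem
    intro a ha
    have h1 := (hσ a ha).1.1.2.2
    have h2 := (hσ a ha).2
    omega
  apply Subtype.ext
  simp only [h0 τ hτ, h0 τ' hτ']

theorem card_S_zero_pos {n : ℕ} (hn : 1 ≤ n) : IsEmpty (S F 0 n) := by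
  constructor
  rintro ⟨τ, hτ, hs⟩
  have h0 : τ = 0 := by
    apply Multiset.eq_zero_of_forall_notMem
    intro a ha
    have h1 := (hτ a ha).1.1.2.2
    have h2 := (hτ a ha).2
    omega
  subst h0
  simp at hs
  omega

theorem step_inj (J n : ℕ) (hJ : ∀ m, Finite (S F J m)) [Finite F] :
    Finite (S F (J + 1) n) ∧ Nat.card (S F (J + 1) n) ≤
      ∑ d ∈ Finset.range (n / (J + 1) + 1), Nat.card (Mon F d) * Nat.card (S F J (n - (J + 1) * d)) := by
  classical
  have hfm : ∀ d, Finite (Mon F d) := by
    intro d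
    have : Finite {f : F[X] // f.Monic ∧ f.natDegree = d} :=
      Finite.of_equiv _ (Cfsg.Agent.Lib.Linalg.SemisimpleClasses.monicEquivFun (F := F) d).symm
    refine Finite.of_injective (β := {f : F[X] // f.Monic ∧ f.natDegree = d})
      (fun f : Mon F d => ⟨f.1, f.2.1, f.2.2.1⟩) ?_
    intro a b hab
    exact Subtype.ext (congrArg (fun x : {f : F[X] // f.Monic ∧ f.natDegree = d} => x.1) hab)
  let T := Σ d : Fin (n / (J + 1) + 1), Mon F d.1 × S F J (n - (J + 1) * d.1)
  have hfT : Finite T := by
    have := hfm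
    have := hJ
    infer_instance
  have hbd : ∀ τ : S F (J + 1) n, (hPart (J + 1) τ.1).natDegree < n / (J + 1) + 1 := by
    rintro ⟨τ, hτ, hs⟩
    have := sum_split (J + 1) τ (fun a ha => (hτ a ha).1.1)
    rw [hs] at this
    have h2 : (hPart (J + 1) τ).natDegree ≤ n / (J + 1) := by
      rw [Nat.le_div_iff_mul_le (Nat.succ_pos J), mul_comm]
      change (J + 1) * _ ≤ n
      omega
    exact Nat.lt_succ_of_le h2
  let φ : S F (J + 1) n → T := fun τ =>
    ⟨⟨(hPart (J + 1) τ.1).natDegree, hbd τ⟩,
      ⟨hPart (J + 1) τ.1, hPart_monic _ _ (fun a ha => (τ.2.1 a ha).1.1), rfl,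
        hPart_coeff _ _ (fun a ha => (τ.2.1 a ha).1)⟩,
      ⟨τ.1.filter (fun a => a.2 ≠ J + 1), by
        intro a ha
        obtain ⟨ha1, ha2⟩ := Multiset.mem_filter.mp ha
        have := τ.2.1 a ha1
        exact ⟨this.1, by have := this.2; omega⟩, by
        have := sum_split (J + 1) τ.1 (fun a ha => (τ.2.1 a ha).1.1)
        rw [τ.2.2] at this
        exact Nat.eq_sub_of_add_eq' this.symm⟩⟩
  let ψ : T → F[X] × Multiset (F[X] × ℕ) := fun t => (t.2.1.1, t.2.2.1)
  have hφ : Function.Injective φ := by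
    apply Function.Injective.of_comp (f := ψ)
    rintro ⟨τ, hτ⟩ ⟨τ', hτ'⟩ heq
    have h1 : hPart (J + 1) τ = hPart (J + 1) τ' := congrArg Prod.fst heq
    have h2 : τ.filter (fun a => a.2 ≠ J + 1) = τ'.filter (fun a => a.2 ≠ J + 1) := congrArg Prod.snd heq
    apply Subtype.ext
    change τ = τ'
    rw [← Multiset.filter_add_not (fun a : F[X] × ℕ => a.2 = J + 1) τ,
      ← Multiset.filter_add_not (fun a : F[X] × ℕ => a.2 = J + 1) τ', h2,
      filter_eq_of_hPart (J + 1) τ (fun a ha => (hτ.1 a ha).1.1),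
      filter_eq_of_hPart (J + 1) τ' (fun a ha => (hτ'.1 a ha).1.1), h1]
  refine ⟨Finite.of_injective φ hφ, ?_⟩
  have h1 := Nat.card_le_card_of_injective φ hφ
  refine h1.trans (le_of_eq ?_)
  rw [Nat.card_sigma]
  rw [Finset.sum_range (fun d => Nat.card (Mon F d) * Nat.card (S F J (n - (J + 1) * d)))]
  apply Finset.sum_congr rfl
  intro d _
  rw [Nat.card_prod]

theorem card_Mon_zero : Nat.card (Mon F 0) = 1 := by
  rw [Nat.card_eq_one_iff_unique]
  refine ⟨⟨?_⟩, ⟨⟨1, Polynomial.monic_one, by simp, by simp⟩⟩⟩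
  rintro ⟨f, hf, hd, -⟩ ⟨g, hg, hd', -⟩
  apply Subtype.ext
  change f = g
  rw [hf.natDegree_eq_zero] at hd
  rw [hg.natDegree_eq_zero] at hd'
  rw [hd, hd']

theorem card_Mon_succ [Fintype F] (d : ℕ) :
    Nat.card (Mon F (d + 1)) = (Fintype.card F - 1) * Fintype.card F ^ d := by
  classical
  have := Cfsg.Agent.Lib.Linalg.SemisimpleClasses.card_monic_coeff_zero (F := F) d (fun c => c ≠ 0)
  unfold Mon
  rw [this, Nat.card_eq_fintype_card (α := F)]
  congr 1
  rw [← Nat.card_congr (unitsEquivNeZero (G₀ := F)), Nat.card_eq_fintype_card, Fintype.card_units]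

/-- The main bound. -/
theorem bound [Fintype F] (J : ℕ) :
    ∀ n, Finite (S F J n) ∧ Nat.card (S F J n) ≤ Fintype.card F ^ n ∧
      (1 ≤ n → J ≤ n → Nat.card (S F J n) + Fintype.card F ^ (n - J) ≤ Fintype.card F ^ n) := by
  have hq : 2 ≤ Fintype.card F := Fintype.one_lt_card
  set q := Fintype.card F with hqdef
  induction J with
  | zero =>
    intro n
    have := finite_S_zero (F := F) n
    refine ⟨inferInstance, ?_, ?_⟩
    · have h1 : Nat.card (S F 0 n) ≤ 1 := Finite.card_le_one_iff_subsingleton.mpr this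
      exact h1.trans (Nat.one_le_pow _ _ (by omega))
    · intro h1 _
      have := card_S_zero_pos (F := F) h1
      simp
  | succ J ih =>
    have hf : ∀ m, Finite (S F J m) := fun m => (ih m).1
    have hle : ∀ m, Nat.card (S F J m) ≤ q ^ m := fun m => (ih m).2.1
    have hstep := fun n => step_inj (F := F) J n hf
    -- auxiliary sum
    have hb : ∀ n, ∑ d ∈ Finset.range (n / (J + 1) + 1), q ^ d * Nat.card (S F J (n - (J + 1) * d)) ≤ q ^ n := by
      intro n
      induction n using Nat.strong_induction_on with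
      | _ n IH =>
        by_cases hn : n < J + 1
        · rw [Nat.div_eq_of_lt hn]
          simpa using hle n
        · push Not at hn
          obtain ⟨m, rfl⟩ : ∃ m, n = m + (J + 1) := ⟨n - (J + 1), by omega⟩
          have hdiv : (m + (J + 1)) / (J + 1) = m / (J + 1) + 1 := by
            rw [Nat.add_div_right _ (Nat.succ_pos J)]
          rw [hdiv, Finset.sum_range_succ']
          have h3 := IH m (by omega)
          have h4 := (ih (m + (J + 1))).2.2 (by omega) (by omega)
          have h5 : ∑ d ∈ Finset.range (m / (J + 1) + 1),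
              q ^ (d + 1) * Nat.card (S F J (m + (J + 1) - (J + 1) * (d + 1))) =
              q * ∑ d ∈ Finset.range (m / (J + 1) + 1), q ^ d * Nat.card (S F J (m - (J + 1) * d)) := by
            rw [Finset.mul_sum]
            apply Finset.sum_congr rfl
            intro d _
            have : m + (J + 1) - (J + 1) * (d + 1) = m - (J + 1) * d := by
              rw [Nat.mul_succ]; omega
            rw [this, pow_succ]; ring
          rw [h5]
          have h6 : m + (J + 1) - J = m + 1 := by omega
          rw [h6] at h4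
          simp only [pow_zero, one_mul, Nat.mul_zero, Nat.sub_zero]
          have h7 : q * ∑ d ∈ Finset.range (m / (J + 1) + 1), q ^ d * Nat.card (S F J (m - (J + 1) * d)) ≤ q ^ (m + 1) := by
            rw [pow_succ, mul_comm q]
            exact Nat.mul_le_mul_right _ h3
          omega
    intro n
    obtain ⟨hf1, hc⟩ := hstep n
    have hsplit : Nat.card (S F (J + 1) n) ≤ Nat.card (S F J n) +
        (if J + 1 ≤ n then (q - 1) * q ^ (n - (J + 1)) else 0) := by
      refine hc.trans ?_
      rw [Finset.sum_range_succ']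
      simp only [Nat.mul_zero, Nat.sub_zero, card_Mon_zero, one_mul]
      rw [add_comm]
      apply Nat.add_le_add_left
      split_ifs with hn
      · obtain ⟨m, rfl⟩ : ∃ m, n = m + (J + 1) := ⟨n - (J + 1), by omega⟩
        have h8 := hb m
        rw [Nat.add_sub_cancel]
        have hdiv : (m + (J + 1)) / (J + 1) = m / (J + 1) + 1 := by
          rw [Nat.add_div_right _ (Nat.succ_pos J)]
        rw [hdiv]
        calc _ = (q - 1) * ∑ d ∈ Finset.range (m / (J + 1) + 1), q ^ d * Nat.card (S F J (m - (J + 1) * d)) := by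
              rw [Finset.mul_sum]
              apply Finset.sum_congr rfl
              intro d _
              rw [card_Mon_succ]
              have : m + (J + 1) - (J + 1) * (d + 1) = m - (J + 1) * d := by
                rw [Nat.mul_succ]; omega
              rw [this]; ring
          _ ≤ _ := Nat.mul_le_mul_left _ h8
      · have : n / (J + 1) = 0 := Nat.div_eq_of_lt (by omega)
        rw [this]; simp
    refine ⟨hf1, ?_, ?_⟩
    · split_ifs at hsplit with hn
      · have h4 := (ih n).2.2 (by omega) (by omega)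
        have h9 : n - J = (n - (J + 1)) + 1 := by omega
        rw [h9, pow_succ] at h4
        have : (q - 1) * q ^ (n - (J + 1)) ≤ q ^ (n - (J + 1)) * q := by
          rw [mul_comm]; exact Nat.mul_le_mul_left _ (by omega)
        omega
      · simpa using hsplit.trans (hle n)
    · intro h1 h2
      rw [if_pos h2] at hsplit
      have h4 := (ih n).2.2 (by omega) (by omega)
      have h9 : n - J = (n - (J + 1)) + 1 := by omega
      rw [h9, pow_succ] at h4
      have h10 : (q - 1) * q ^ (n - (J + 1)) + q ^ (n - (J + 1)) = q ^ (n - (J + 1)) * q := by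
        obtain ⟨r, hr⟩ : ∃ r, q = r + 1 := ⟨q - 1, by omega⟩
        rw [hr]; simp; ring
      omega

end Count

/-- The number of conjugacy classes of GL(n,q): for F a finite field with q elements and n ≥ 1, the number k of conjugacy classes of GL(n,F) satisfies q^n − q^(n−1) ≤ k ≤ q^n. -/
theorem result {F : Type*} [Field F] [Fintype F] (n : ℕ) (hn : 1 ≤ n) :
    Fintype.card F ^ n - Fintype.card F ^ (n - 1) ≤ Nat.card (ConjClasses (Matrix.GeneralLinearGroup (Fin n) F)) ∧ Nat.card (ConjClasses (Matrix.GeneralLinearGroup (Fin n) F)) ≤ Fintype.card F ^ n := by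
  classical
  constructor
  · obtain ⟨p, hp⟩ := CharP.exists F
    have hpp : p.Prime := by
      rcases CharP.char_is_prime_or_zero F p with h | h
      · exact h
      · subst h
        exact absurd hp (by
          intro h
          have := CharP.charP_to_charZero F
          exact (not_finite F))
    have : Fact p.Prime := ⟨hpp⟩
    have h1 := Cfsg.Agent.Lib.Linalg.SemisimpleClasses.card_ss_classes (F := F) p n
    obtain ⟨k, rfl⟩ : ∃ k, n = k + 1 := ⟨n - 1, by omega⟩
    have h2 := card_Mon_succ (F := F) k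
    have h3 : Nat.card {C : ConjClasses (Matrix.GeneralLinearGroup (Fin (k + 1)) F) //
      ∃ g, (orderOf g).Coprime p ∧ ConjClasses.mk g = C} ≤ Nat.card (ConjClasses (Matrix.GeneralLinearGroup (Fin (k + 1)) F)) :=
      Nat.card_le_card_of_injective _ Subtype.val_injective
    rw [h1] at h3
    have h4 : Nat.card {f : F[X] // f.Monic ∧ f.natDegree = k + 1 ∧ f.coeff 0 ≠ 0} = Nat.card (Mon F (k + 1)) := rfl
    rw [h4, h2] at h3
    refine le_trans (le_of_eq ?_) h3
    rw [Nat.add_sub_cancel, pow_succ]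
    rw [Nat.sub_mul, one_mul, mul_comm]
  · have h1 := card_classes_eq (ι := Fin n) (F := F) (fun _ => True) (fun _ => True) (fun g => Iff.rfl)
    have h2 : Nat.card (ConjClasses (Matrix.GeneralLinearGroup (Fin n) F)) = Nat.card {C : ConjClasses (Matrix.GeneralLinearGroup (Fin n) F) // ∃ g, True ∧ ConjClasses.mk g = C} := by
      apply Nat.card_congr
      refine (Equiv.subtypeUnivEquiv ?_).symm
      intro C
      obtain ⟨g, rfl⟩ := ConjClasses.mk_surjective C
      exact ⟨g, trivial, rfl⟩
    rw [h2, h1]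
    obtain ⟨hf, hle, -⟩ := bound (F := F) n n
    refine le_trans ?_ hle
    refine Nat.card_le_card_of_injective
      (fun τ : {τ : Multiset (F[X] × ℕ) // IsGLType (Fin n) F τ ∧ True} => (⟨τ.1, ?_, ?_⟩ : S F n n)) ?_
    · intro a ha
      refine ⟨τ.2.1.1 a ha, ?_⟩
      have h3 := τ.2.1.2
      rw [Fintype.card_fin] at h3
      have h4 : a.2 * a.1.natDegree ≤ (τ.1.map fun a => a.2 * a.1.natDegree).sum :=
        Multiset.single_le_sum (fun _ _ => Nat.zero_le _) _ (Multiset.mem_map_of_mem _ ha)
      have h5 : 0 < a.1.natDegree := (τ.2.1.1 a ha).1.2.1.natDegree_pos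
      rw [h3] at h4
      nlinarith
    · have h3 := τ.2.1.2
      rwa [Fintype.card_fin] at h3
    · intro a b hab
      apply Subtype.ext
      exact congrArg (fun x : S F n n => x.1) hab

end Cfsg.Agent.S2478
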