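import Cfsg.Statements.S2253
import Cfsg.Agent.Lib.Nilpotent.Elements

set_option autoImplicit false
open Cfsg

namespace Cfsg.Agent.S2253

open Nat

/-- The exponent of 2 in `n!`. -/
noncomputable def h (n : ℕ) : ℕ := padicValNat 2 n !

theorem h_succ (n : ℕ) : h (n + 1) = h n + padicValNat 2 (n + 1) := by
  unfold h
  rw [Nat.factorial_succ, padicValNat.mul (by omega) (factorial_ne_zero n)]
  ring

theorem h_le_succ (n : ℕ) : h n ≤ h (n + 1) := by rw [h_succ]; omega

theorem h_mono : Monotone h := monotone_nat_of_le_succ h_le_succ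

theorem v_odd (k : ℕ) : padicValNat 2 (2 * k + 1) = 0 :=
  padicValNat.eq_zero_of_not_dvd (by omega)

theorem v_two (k : ℕ) : padicValNat 2 (4 * k + 2) = 1 := by
  have : 4 * k + 2 = 2 * (2 * k + 1) := by ring
  rw [this, padicValNat.mul (by omega) (by omega), padicValNat.self (by norm_num), v_odd]

theorem v_four (k : ℕ) : 2 ≤ padicValNat 2 (4 * k + 4) := by
  refine (padicValNat_dvd_iff_le (by omega)).mp ?_
  exact ⟨k + 1, by ring⟩

theorem hA (k : ℕ) : h (4 * k + 1) = h (4 * k) := by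
  rw [h_succ, show 4 * k + 1 = 2 * (2 * k) + 1 by ring, v_odd]; simp

theorem hB (k : ℕ) : h (4 * k + 2) = h (4 * k) + 1 := by
  rw [show 4 * k + 2 = (4 * k + 1) + 1 by ring, h_succ, hA, show 4 * k + 1 + 1 = 4 * k + 2 by ring,
    v_two]

theorem hC (k : ℕ) : h (4 * k + 3) = h (4 * k) + 1 := by
  rw [show 4 * k + 3 = (4 * k + 2) + 1 by ring, h_succ, hB,
    show 4 * k + 2 + 1 = 2 * (2 * k + 1) + 1 by ring, v_odd]

theorem hD (k : ℕ) : h (4 * k) + 3 ≤ h (4 * k + 4) := by
  rw [show 4 * k + 4 = (4 * k + 3) + 1 by ring, h_succ, hC, show 4 * k + 3 + 1 = 4 * k + 4 by ring]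
  have := v_four k
  omega

/-- Superadditivity. -/
theorem h_super (m k : ℕ) : h m + h k ≤ h (m + k) := by
  refine (padicValNat_dvd_iff_le (factorial_ne_zero _)).mp ?_
  rw [pow_add]
  refine dvd_trans (mul_dvd_mul ?_ ?_) (Nat.factorial_mul_factorial_dvd_factorial_add m k)
  · exact pow_padicValNat_dvd
  · exact pow_padicValNat_dvd

/-- The bound. -/
noncomputable def B (n : ℕ) : ℕ := if n % 4 = 3 then 3 * 2 ^ h (n - 3) else 2 ^ h n

theorem B_ne {n : ℕ} (hn : n % 4 ≠ 3) : B n = 2 ^ h n := by simp [B, hn]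

theorem B_eq {n : ℕ} (hn : n % 4 = 3) : B n = 3 * 2 ^ h (n - 3) := by simp [B, hn]

/-- (a) -/
theorem h_a {n : ℕ} (hn : n % 4 ≠ 3) (h3 : 3 ≤ n) : h (n - 3) + 2 ≤ h n := by
  obtain ⟨k, r, hr, rfl⟩ : ∃ k r, r < 4 ∧ n = 4 * k + 4 + r :=
    ⟨(n - 4) / 4, (n - 4) % 4, Nat.mod_lt _ (by norm_num), by omega⟩
  have h1 := hD k
  have h2 := hA k
  have h3' := hB k
  have h4' := hC k
  interval_cases r
  · rw [show 4 * k + 4 + 0 - 3 = 4 * k + 1 by omega]
    simp only [add_zero]; omega
  · rw [show 4 * k + 4 + 1 - 3 = 4 * k + 2 by omega, show 4 * k + 4 + 1 = 4 * (k + 1) + 1 by ring, hA,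
      show 4 * (k + 1) = 4 * k + 4 by ring]
    omega
  · rw [show 4 * k + 4 + 2 - 3 = 4 * k + 3 by omega, show 4 * k + 4 + 2 = 4 * (k + 1) + 2 by ring, hB,
      show 4 * (k + 1) = 4 * k + 4 by ring]
    omega
  · omega

/-- (b) -/
theorem h_b {n : ℕ} (hn : n % 4 = 3) : h n = h (n - 3) + 1 := by
  obtain ⟨k, rfl⟩ : ∃ k, n = 4 * k + 3 := ⟨n / 4, by omega⟩
  rw [hC]; simp

theorem B_pos (n : ℕ) : 0 < B n := by
  unfold B; split_ifs <;> positivity

theorem two_pow_le_B (n : ℕ) : 2 ^ h n ≤ B n := by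
  by_cases hn : n % 4 = 3
  · rw [B_eq hn, h_b hn, pow_succ]; nlinarith [pow_pos (show 0 < 2 by norm_num) (h (n - 3))]
  · rw [B_ne hn]

theorem B_le_succ (n : ℕ) : B n ≤ B (n + 1) := by
  by_cases h3 : n % 4 = 3
  · rw [B_eq h3, B_ne (by omega)]
    have h1 := h_a (n := n + 1) (by omega) (by omega)
    have h2 : h (n - 3) ≤ h (n + 1 - 3) := h_mono (by omega)
    have : 2 ^ (h (n - 3) + 2) ≤ 2 ^ h (n + 1) := Nat.pow_le_pow_right (by norm_num) (by omega)
    rw [pow_add] at this
    nlinarith [pow_pos (show 0 < 2 by norm_num) (h (n - 3))]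
  by_cases h2 : n % 4 = 2
  · rw [B_ne (by omega), B_eq (by omega)]
    obtain ⟨k, rfl⟩ : ∃ k, n = 4 * k + 2 := ⟨n / 4, by omega⟩
    rw [hB, show 4 * k + 2 + 1 - 3 = 4 * k by omega, pow_succ]
    nlinarith [pow_pos (show 0 < 2 by norm_num) (h (4 * k))]
  · rw [B_ne h3, B_ne (by omega)]
    exact Nat.pow_le_pow_right (by norm_num) (h_le_succ n)

theorem B_mono : Monotone B := monotone_nat_of_le_succ B_le_succ

/-- Superadditivity of `B`. -/
theorem B_super (m k : ℕ) : B m * B k ≤ B (m + k) := by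
  by_cases hm : m % 4 = 3 <;> by_cases hk : k % 4 = 3
  · rw [B_eq hm, B_eq hk, B_ne (by omega)]
    have h1 := h_super (m - 3) (k - 3)
    have h2 := h_super (m - 3 + (k - 3)) 6
    have h6 : 4 ≤ h 6 := by
      refine (padicValNat_dvd_iff_le (factorial_ne_zero _)).mp ?_
      norm_num [Nat.factorial]
    rw [show m - 3 + (k - 3) + 6 = m + k by omega] at h2
    have : 2 ^ (h (m - 3) + h (k - 3) + 4) ≤ 2 ^ h (m + k) :=
      Nat.pow_le_pow_right (by norm_num) (by omega)
    rw [pow_add, pow_add] at this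
    nlinarith [pow_pos (show 0 < 2 by norm_num) (h (m - 3)), pow_pos (show 0 < 2 by norm_num) (h (k - 3)),
      mul_pos (pow_pos (show 0 < 2 by norm_num) (h (m - 3))) (pow_pos (show 0 < 2 by norm_num) (h (k - 3)))]
  · rw [B_eq hm, B_ne hk]
    have h1 := h_super (m - 3) k
    rw [show m - 3 + k = m + k - 3 by omega] at h1
    by_cases hs : (m + k) % 4 = 3
    · rw [B_eq hs]
      have : 2 ^ (h (m - 3) + h k) ≤ 2 ^ h (m + k - 3) := Nat.pow_le_pow_right (by norm_num) h1
      rw [pow_add] at this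
      nlinarith
    · rw [B_ne hs]
      have h2 := h_a hs (by omega)
      have : 2 ^ (h (m - 3) + h k + 2) ≤ 2 ^ h (m + k) := Nat.pow_le_pow_right (by norm_num) (by omega)
      rw [pow_add, pow_add] at this
      nlinarith [mul_pos (pow_pos (show 0 < 2 by norm_num) (h (m - 3))) (pow_pos (show 0 < 2 by norm_num) (h k))]
  · rw [B_ne hm, B_eq hk]
    have h1 := h_super m (k - 3)
    rw [show m + (k - 3) = m + k - 3 by omega] at h1
    by_cases hs : (m + k) % 4 = 3
    · rw [B_eq hs]
      have : 2 ^ (h m + h (k - 3)) ≤ 2 ^ h (m + k - 3) := Nat.pow_le_pow_right (by norm_num) h1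
      rw [pow_add] at this
      nlinarith
    · rw [B_ne hs]
      have h2 := h_a hs (by omega)
      have : 2 ^ (h m + h (k - 3) + 2) ≤ 2 ^ h (m + k) := Nat.pow_le_pow_right (by norm_num) (by omega)
      rw [pow_add, pow_add] at this
      nlinarith [mul_pos (pow_pos (show 0 < 2 by norm_num) (h m)) (pow_pos (show 0 < 2 by norm_num) (h (k - 3)))]
  · rw [B_ne hm, B_ne hk, ← pow_add]
    exact le_trans (Nat.pow_le_pow_right (by norm_num) (h_super m k)) (two_pow_le_B _)

/-- Growth in steps of eight. -/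
theorem B_eight (n : ℕ) : 128 * B n ≤ B (n + 8) := by
  have h8 : 7 ≤ h 8 := by
    refine (padicValNat_dvd_iff_le (factorial_ne_zero _)).mp ?_
    norm_num [Nat.factorial]
  by_cases hn : n % 4 = 3
  · rw [B_eq hn, B_eq (by omega)]
    have h1 := h_super (n - 3) 8
    rw [show n - 3 + 8 = n + 8 - 3 by omega] at h1
    have : 2 ^ (h (n - 3) + 7) ≤ 2 ^ h (n + 8 - 3) := Nat.pow_le_pow_right (by norm_num) (by omega)
    rw [pow_add] at this
    nlinarith
  · rw [B_ne hn, B_ne (by omega)]
    have h1 := h_super n 8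
    have : 2 ^ (h n + 7) ≤ 2 ^ h (n + 8) := Nat.pow_le_pow_right (by norm_num) (by omega)
    rw [pow_add] at this
    nlinarith

theorem h_ge (n j : ℕ) (hd : 2 ^ j ∣ n !) : j ≤ h n :=
  (padicValNat_dvd_iff_le (factorial_ne_zero _)).mp hd

theorem B_ge_two_pow {n j : ℕ} (hd : 2 ^ j ∣ n !) : 2 ^ j ≤ B n :=
  le_trans (Nat.pow_le_pow_right (by norm_num) (h_ge n j hd)) (two_pow_le_B n)

/-- `3^(n-1) ≤ B(n)^2` for `n ≥ 9`. -/
theorem three_pow_le (n : ℕ) (hn : 9 ≤ n) : 3 ^ (n - 1) ≤ B n ^ 2 := by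
  induction n using Nat.strong_induction_on with
  | _ n ih =>
  by_cases h17 : 17 ≤ n
  · have h1 := ih (n - 8) (by omega) (by omega)
    have h2 := B_eight (n - 8)
    rw [show n - 8 + 8 = n by omega] at h2
    calc 3 ^ (n - 1) = 3 ^ 8 * 3 ^ (n - 8 - 1) := by rw [← pow_add]; congr 1; omega
      _ ≤ 128 ^ 2 * B (n - 8) ^ 2 := by
          apply Nat.mul_le_mul (by norm_num) h1
      _ = (128 * B (n - 8)) ^ 2 := by ring
      _ ≤ B n ^ 2 := Nat.pow_le_pow_left h2 2
  · have h8 : 2 ^ 7 ∣ 8 ! := by norm_num [Nat.factorial]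
    have key : ∀ (a : ℕ), 3 ^ (n - 1) ≤ a ^ 2 → a ≤ B n → 3 ^ (n - 1) ≤ B n ^ 2 :=
      fun a h1 h2 => le_trans h1 (Nat.pow_le_pow_left h2 2)
    interval_cases n
    · exact key (2 ^ 7) (by norm_num) (B_ge_two_pow (by norm_num [Nat.factorial]))
    · exact key (2 ^ 8) (by norm_num) (B_ge_two_pow (by norm_num [Nat.factorial]))
    · refine key (3 * 2 ^ 7) (by norm_num) ?_
      rw [B_eq (by norm_num)]
      have := h_ge 8 7 h8
      exact Nat.mul_le_mul (le_refl 3) (Nat.pow_le_pow_right (by norm_num) (by simpa using this))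
    · exact key (2 ^ 10) (by norm_num) (B_ge_two_pow (by norm_num [Nat.factorial]))
    · exact key (2 ^ 10) (by norm_num) (B_ge_two_pow (by norm_num [Nat.factorial]))
    · exact key (2 ^ 11) (by norm_num) (B_ge_two_pow (by norm_num [Nat.factorial]))
    · refine key (3 * 2 ^ 10) (by norm_num) ?_
      rw [B_eq (by norm_num)]
      have := h_ge 12 10 (by norm_num [Nat.factorial])
      exact Nat.mul_le_mul (le_refl 3) (Nat.pow_le_pow_right (by norm_num) (by simpa using this))
    · exact key (2 ^ 15) (by norm_num) (B_ge_two_pow (by norm_num [Nat.factorial]))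

/-- `p^2 ≤ 3^(p-1)` for `p ≥ 3`. -/
theorem sq_le_three_pow (p : ℕ) (hp : 3 ≤ p) : p ^ 2 ≤ 3 ^ (p - 1) := by
  induction p, hp using Nat.le_induction with
  | base => norm_num
  | succ p hp ih =>
    rw [show p + 1 - 1 = p - 1 + 1 by omega, pow_succ 3 (p - 1)]
    nlinarith

/-- Bounding an exponent through a non-divisibility. -/
theorem pow_le_of_not_dvd {a k K N : ℕ} (ha : 1 < a) (hd : a ^ k ∣ N) (hN : ¬ a ^ (K + 1) ∣ N) :
    a ^ k ≤ a ^ K := by
  apply Nat.pow_le_pow_right (by omega)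
  by_contra hlt
  push Not at hlt
  exact hN (dvd_trans (pow_dvd_pow a hlt) hd)

/-- Prime powers dividing `n!` are bounded by `B n`. -/
theorem prime_pow_le_B {p k n : ℕ} (hp : p.Prime) (hd : p ^ k ∣ n !) : p ^ k ≤ B n := by
  rcases Nat.eq_zero_or_pos k with rfl | hk
  · simpa using Nat.succ_le_of_lt (B_pos n)
  have hp2 := hp.two_le
  rcases hp2.eq_or_lt with rfl | hp3
  · exact B_ge_two_pow hd
  have hpn : p ≤ n := (Nat.Prime.dvd_factorial hp).mp (dvd_trans (dvd_pow_self p hk.ne') hd)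
  haveI : Fact p.Prime := ⟨hp⟩
  by_cases hn9 : 9 ≤ n
  · have h0 : n ≠ 0 := by omega
    have h1 := sub_one_mul_padicValNat_factorial_lt_of_ne_zero p h0
    have h2 : k ≤ padicValNat p n ! := (padicValNat_dvd_iff_le (factorial_ne_zero _)).mp hd
    have h3 : (p - 1) * k ≤ n - 1 := by
      have : (p - 1) * k ≤ (p - 1) * padicValNat p n ! := Nat.mul_le_mul_left _ h2
      omega
    have h4 : (p ^ k) ^ 2 ≤ B n ^ 2 := by
      calc (p ^ k) ^ 2 = (p ^ 2) ^ k := by ring
        _ ≤ (3 ^ (p - 1)) ^ k := Nat.pow_le_pow_left (sq_le_three_pow p hp3) k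
        _ = 3 ^ ((p - 1) * k) := by rw [pow_mul]
        _ ≤ 3 ^ (n - 1) := Nat.pow_le_pow_right (by norm_num) h3
        _ ≤ B n ^ 2 := three_pow_le n hn9
    exact (Nat.pow_le_pow_iff_left (by norm_num)).mp h4
  · push Not at hn9
    have hp' : p ≤ 8 := by omega
    -- small values of `B`
    have hB3 : 3 ≤ B 3 := by
      rw [B_eq (by norm_num)]; nlinarith [pow_pos (show 0 < 2 by norm_num) (h (3 - 3))]
    have hB4 : 8 ≤ B 4 := B_ge_two_pow (j := 3) (by norm_num [Nat.factorial])
    have hB6 : 16 ≤ B 6 := B_ge_two_pow (j := 4) (by norm_num [Nat.factorial])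
    have hmono := B_mono
    -- the prime power is small
    have hle9 : p ^ k ≤ 9 := by
      have hd8 : p ^ k ∣ 8 ! := dvd_trans hd (Nat.factorial_dvd_factorial (by omega))
      interval_cases p
      · exact le_trans (pow_le_of_not_dvd (K := 2) (by norm_num) hd8 (by norm_num [Nat.factorial])) (by norm_num)
      · exact absurd hp (by norm_num)
      · exact le_trans (pow_le_of_not_dvd (K := 1) (by norm_num) hd8 (by norm_num [Nat.factorial])) (by norm_num)
      · exact absurd hp (by norm_num)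
      · exact le_trans (pow_le_of_not_dvd (K := 1) (by norm_num) hd8 (by norm_num [Nat.factorial])) (by norm_num)
      · exact absurd hp (by norm_num)
    by_cases hn6 : 6 ≤ n
    · exact le_trans hle9 (le_trans (by norm_num) (le_trans hB6 (hmono hn6)))
    · push Not at hn6
      have hd5 : p ^ k ∣ 5 ! := dvd_trans hd (Nat.factorial_dvd_factorial (by omega))
      have hle5 : p ^ k ≤ 5 := by
        have hp5 : p ≤ 5 := by omega
        interval_cases p
        · exact le_trans (pow_le_of_not_dvd (K := 1) (by norm_num) hd5 (by norm_num [Nat.factorial])) (by norm_num)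
        · exact absurd hp (by norm_num)
        · exact le_trans (pow_le_of_not_dvd (K := 1) (by norm_num) hd5 (by norm_num [Nat.factorial])) (by norm_num)
      by_cases hn4 : 4 ≤ n
      · exact le_trans hle5 (le_trans (by norm_num) (le_trans hB4 (hmono hn4)))
      · have hn3 : n = 3 := by omega
        subst hn3
        have hp3' : p = 3 := by omega
        subst hp3'
        exact le_trans (pow_le_of_not_dvd (K := 1) (by norm_num) hd (by norm_num [Nat.factorial])) (by simpa using hB3)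

section Action

open MulAction

/-- The faithfulness trick: a subgroup commuting with a transversal acts faithfully on its orbits. -/
theorem faithful_orbit {H X : Type} [Group H] [MulAction H X] [FaithfulSMul H X]
    [IsPretransitive H X] (A B : Subgroup H) (hAB : ∀ a ∈ A, ∀ b ∈ B, a * b = b * a)
    (hsup : ∀ g : H, ∃ b ∈ B, ∃ a ∈ A, g = b * a) (x : X) :
    FaithfulSMul ↥A (orbit ↥A x) := by
  refine ⟨fun {u v} huv => ?_⟩
  apply Subtype.ext
  apply FaithfulSMul.eq_of_smul_eq_smul (α := X)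
  intro w
  obtain ⟨g, rfl⟩ := MulAction.exists_smul_eq H x w
  obtain ⟨b, hb, a, ha, rfl⟩ := hsup g
  have hmem : a • x ∈ orbit ↥A x := ⟨⟨a, ha⟩, rfl⟩
  have h1 := congrArg Subtype.val (huv ⟨a • x, hmem⟩)
  have h1' : (u : H) • (a • x) = (v : H) • (a • x) := h1
  calc (u : H) • ((b * a) • x) = ((u : H) * b) • (a • x) := by rw [mul_smul, mul_smul]
    _ = (b * (u : H)) • (a • x) := by rw [hAB _ u.2 b hb]
    _ = b • ((u : H) • (a • x)) := by rw [mul_smul]
    _ = b • ((v : H) • (a • x)) := by rw [h1']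
    _ = (b * (v : H)) • (a • x) := by rw [mul_smul]
    _ = ((v : H) * b) • (a • x) := by rw [hAB _ v.2 b hb]
    _ = (v : H) • ((b * a) • x) := by rw [mul_smul, mul_smul]

/-- The induction hypothesis used below. -/
def IH (n : ℕ) : Prop :=
  ∀ m < n, ∀ (H X : Type) [Group H] [Finite H] [Group.IsNilpotent H] [Finite X] [MulAction H X]
    [FaithfulSMul H X], Nat.card X = m → Nat.card H ≤ B m

theorem range_bound {n : ℕ} (ih : IH n) (H Y : Type) [Group H] [Finite H] [Group.IsNilpotent H]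
    [Finite Y] [MulAction H Y] (hY : Nat.card Y < n) :
    Nat.card (toPermHom H Y).range ≤ B (Nat.card Y) := by
  haveI : Group.IsNilpotent (toPermHom H Y).range :=
    Group.nilpotent_of_surjective (toPermHom H Y).rangeRestrict (toPermHom H Y).rangeRestrict_surjective
  exact ih _ hY _ Y rfl

/-- Intransitive case. -/
theorem split_case {n : ℕ} (ih : IH n) (H X : Type) [Group H] [Finite H] [Group.IsNilpotent H]
    [Finite X] [MulAction H X] [FaithfulSMul H X] (hX : Nat.card X = n) (A : Set X)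
    (hA : ∀ (g : H), ∀ x ∈ A, g • x ∈ A) (hne : A.Nonempty) (hne' : Aᶜ.Nonempty) :
    Nat.card H ≤ B n := by
  have hA' : ∀ (g : H), ∀ x ∈ Aᶜ, g • x ∈ Aᶜ := by
    intro g x hx hgx
    apply hx
    have := hA g⁻¹ _ hgx
    simpa using this
  let S₁ : SubMulAction H X := ⟨A, fun g x hx => hA g x hx⟩
  let S₂ : SubMulAction H X := ⟨Aᶜ, fun g x hx => hA' g x hx⟩
  have hc1 : Nat.card S₁ = A.ncard := rfl
  have hc2 : Nat.card S₂ = Aᶜ.ncard := rfl
  have hsum : A.ncard + Aᶜ.ncard = n := by rw [Set.ncard_add_ncard_compl, hX]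
  have hpos1 : 0 < A.ncard := (Set.ncard_pos).mpr hne
  have hpos2 : 0 < Aᶜ.ncard := (Set.ncard_pos).mpr hne'
  have h1 := range_bound ih H S₁ (by omega)
  have h2 := range_bound ih H S₂ (by omega)
  -- embed
  let f : H → (toPermHom H S₁).range × (toPermHom H S₂).range :=
    fun g => ((toPermHom H S₁).rangeRestrict g, (toPermHom H S₂).rangeRestrict g)
  have hf : Function.Injective f := by
    intro u v huv
    apply FaithfulSMul.eq_of_smul_eq_smul (α := X)
    intro x
    by_cases hx : x ∈ A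
    · have h3 : (toPermHom H S₁).rangeRestrict u = (toPermHom H S₁).rangeRestrict v := congrArg Prod.fst huv
      have h4 : toPermHom H S₁ u = toPermHom H S₁ v := congrArg Subtype.val h3
      have h5 := congrArg (fun e : Equiv.Perm S₁ => ((e ⟨x, hx⟩ : S₁) : X)) h4
      exact h5
    · have h3 : (toPermHom H S₂).rangeRestrict u = (toPermHom H S₂).rangeRestrict v := congrArg Prod.snd huv
      have h4 : toPermHom H S₂ u = toPermHom H S₂ v := congrArg Subtype.val h3
      have h5 := congrArg (fun e : Equiv.Perm S₂ => ((e ⟨x, hx⟩ : S₂) : X)) h4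
      exact h5
  have hle := Nat.card_le_card_of_injective f hf
  rw [Nat.card_prod] at hle
  calc Nat.card H ≤ _ := hle
    _ ≤ B (Nat.card S₁) * B (Nat.card S₂) := Nat.mul_le_mul h1 h2
    _ ≤ B (Nat.card S₁ + Nat.card S₂) := B_super _ _
    _ = B n := by rw [hc1, hc2, hsum]

/-- Transitive, not of prime power order. -/
theorem trans_case {n : ℕ} (ih : IH n) (H X : Type) [Group H] [Finite H] [Group.IsNilpotent H]
    [Finite X] [MulAction H X] [FaithfulSMul H X] [IsPretransitive H X] (hX : Nat.card X = n)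
    (x : X) (hpg : ¬ ∃ p, p.Prime ∧ IsPGroup p H) : Nat.card H ≤ B n := by
  have hcard1 : Nat.card H ≠ 1 := by
    intro h1
    apply hpg
    exact ⟨2, Nat.prime_two, IsPGroup.of_card (n := 0) (by simpa using h1)⟩
  set p := (Nat.card H).minFac with hp_def
  have hp : p.Prime := Nat.minFac_prime hcard1
  haveI : Fact p.Prime := ⟨hp⟩
  have hpdvd : p ∣ Nat.card H := Nat.minFac_dvd _
  let P : Sylow p H := Classical.arbitrary _
  haveI hPn : (P : Subgroup H).Normal := inferInstance
  have hcop := P.card_coprime_index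
  obtain ⟨K, hK⟩ := Subgroup.exists_right_complement'_of_coprime hcop
  have hmul : Nat.card (P : Subgroup H) * Nat.card K = Nat.card H := hK.card_mul
  have hKcard : Nat.card K = (P : Subgroup H).index := by
    have h1 := (P : Subgroup H).card_mul_index
    have hpos : 0 < Nat.card (P : Subgroup H) := Nat.card_pos
    exact Nat.eq_of_mul_eq_mul_left hpos (hmul.trans h1.symm)
  have hcoprime : (Nat.card (P : Subgroup H)).Coprime (Nat.card K) := by rw [hKcard]; exact hcop
  -- commute
  have hcomm : ∀ a ∈ (P : Subgroup H), ∀ b ∈ K, a * b = b * a := by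
    intro a ha b hb
    have h1 : orderOf a ∣ Nat.card (P : Subgroup H) := Subgroup.orderOf_dvd_natCard _ ha
    have h2 : orderOf b ∣ Nat.card K := Subgroup.orderOf_dvd_natCard _ hb
    exact Cfsg.Agent.Lib.Nilpotent.Elements.commute_of_coprime_orderOf (Nat.Coprime.of_dvd h1 h2 hcoprime)
  have hdecomp1 : ∀ g : H, ∃ b ∈ K, ∃ a ∈ (P : Subgroup H), g = b * a := by
    intro g
    obtain ⟨⟨⟨a, ha⟩, ⟨b, hb⟩⟩, hab⟩ := hK.existsUnique g |>.exists
    refine ⟨b, hb, a, ha, ?_⟩
    rw [← hab]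
    exact hcomm a ha b hb
  have hdecomp2 : ∀ g : H, ∃ a ∈ (P : Subgroup H), ∃ b ∈ K, g = a * b := by
    intro g
    obtain ⟨⟨⟨a, ha⟩, ⟨b, hb⟩⟩, hab⟩ := hK.existsUnique g |>.exists
    exact ⟨a, ha, b, hb, hab.symm⟩
  haveI hKn : K.Normal := by
    constructor
    intro k hk g
    obtain ⟨a, ha, b, hb, rfl⟩ := hdecomp2 g
    have h1 : a * b * k * (a * b)⁻¹ = b * k * b⁻¹ := by
      have e1 := hcomm a ha (b * k * b⁻¹) (K.mul_mem (K.mul_mem hb hk) (K.inv_mem hb))
      calc a * b * k * (a * b)⁻¹ = a * (b * k * b⁻¹) * a⁻¹ := by group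
        _ = (b * k * b⁻¹) * a * a⁻¹ := by rw [e1]
        _ = b * k * b⁻¹ := by group
    rw [h1]
    exact K.mul_mem (K.mul_mem hb hk) (K.inv_mem hb)
  -- the orbits
  haveI fY : FaithfulSMul ↥(P : Subgroup H) (orbit ↥(P : Subgroup H) x) :=
    faithful_orbit (P : Subgroup H) K hcomm hdecomp1 x
  haveI fZ : FaithfulSMul ↥K (orbit ↥K x) :=
    faithful_orbit K (P : Subgroup H) (fun a ha b hb => (hcomm b hb a ha).symm) hdecomp2 x
  have hYne : (orbit ↥(P : Subgroup H) x).Nonempty := ⟨x, mem_orbit_self x⟩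
  have hZne : (orbit ↥K x).Nonempty := ⟨x, mem_orbit_self x⟩
  have hYdvd : (orbit ↥(P : Subgroup H) x).ncard ∣ Nat.card X :=
    (IsBlock.orbit_of_normal x).ncard_dvd_card hYne
  have hZdvd : (orbit ↥K x).ncard ∣ Nat.card X :=
    (IsBlock.orbit_of_normal x).ncard_dvd_card hZne
  have hYP : (orbit ↥(P : Subgroup H) x).ncard ∣ Nat.card (P : Subgroup H) := by
    rw [← index_stabilizer]; exact Subgroup.index_dvd_card _
  have hZK : (orbit ↥K x).ncard ∣ Nat.card K := by
    rw [← index_stabilizer]; exact Subgroup.index_dvd_card _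
  have hYZ : (orbit ↥(P : Subgroup H) x).ncard * (orbit ↥K x).ncard ∣ Nat.card X :=
    Nat.Coprime.mul_dvd_of_dvd_of_dvd (Nat.Coprime.of_dvd hYP hZK hcoprime) hYdvd hZdvd
  haveI : Nonempty X := ⟨x⟩
  have hXpos : 0 < Nat.card X := Nat.card_pos
  -- both orbits are nontrivial
  have hY2 : 2 ≤ (orbit ↥(P : Subgroup H) x).ncard := by
    by_contra hlt
    have h1 : (orbit ↥(P : Subgroup H) x).ncard ≤ 1 := by omega
    have hsub : Subsingleton (orbit ↥(P : Subgroup H) x) := by
      rw [Set.subsingleton_coe]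
      exact (Set.ncard_le_one_iff_subsingleton).mp h1
    have htriv : Subsingleton ↥(P : Subgroup H) := by
      refine ⟨fun u v => ?_⟩
      apply fY.eq_of_smul_eq_smul
      intro y
      exact Subsingleton.elim _ _
    have hc1 : Nat.card (P : Subgroup H) = 1 := Nat.card_of_subsingleton (1 : ↥(P : Subgroup H))
    rw [Sylow.card_eq_multiplicity] at hc1
    have hf : 0 < (Nat.card H).factorization p :=
      hp.factorization_pos_of_dvd Nat.card_pos.ne' hpdvd
    have := Nat.one_lt_pow hf.ne' hp.one_lt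
    omega
  have hZ2 : 2 ≤ (orbit ↥K x).ncard := by
    by_contra hlt
    have h1 : (orbit ↥K x).ncard ≤ 1 := by omega
    have hsub : Subsingleton (orbit ↥K x) := by
      rw [Set.subsingleton_coe]
      exact (Set.ncard_le_one_iff_subsingleton).mp h1
    have htriv : Subsingleton ↥K := by
      refine ⟨fun u v => ?_⟩
      apply fZ.eq_of_smul_eq_smul
      intro y
      exact Subsingleton.elim _ _
    have hc1 : Nat.card K = 1 := Nat.card_of_subsingleton (1 : ↥K)
    apply hpg
    refine ⟨p, hp, IsPGroup.of_card (n := (Nat.card H).factorization p) ?_⟩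
    calc Nat.card H = Nat.card (P : Subgroup H) * Nat.card K := hmul.symm
      _ = Nat.card (P : Subgroup H) := by rw [hc1, mul_one]
      _ = _ := Sylow.card_eq_multiplicity P
  have hle : (orbit ↥(P : Subgroup H) x).ncard * (orbit ↥K x).ncard ≤ n := by
    rw [← hX]; exact Nat.le_of_dvd hXpos hYZ
  have hY1 : (orbit ↥(P : Subgroup H) x).ncard < n := by nlinarith
  have hZ1 : (orbit ↥K x).ncard < n := by nlinarith
  have h1 : Nat.card (P : Subgroup H) ≤ B (orbit ↥(P : Subgroup H) x).ncard :=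
    ih _ hY1 ↥(P : Subgroup H) (orbit ↥(P : Subgroup H) x) rfl
  have h2 : Nat.card K ≤ B (orbit ↥K x).ncard :=
    ih _ hZ1 ↥K (orbit ↥K x) rfl
  calc Nat.card H = Nat.card (P : Subgroup H) * Nat.card K := hmul.symm
    _ ≤ B (orbit ↥(P : Subgroup H) x).ncard * B (orbit ↥K x).ncard := Nat.mul_le_mul h1 h2
    _ ≤ B ((orbit ↥(P : Subgroup H) x).ncard + (orbit ↥K x).ncard) := B_super _ _
    _ ≤ B n := B_mono (by nlinarith)

/-- The main bound. -/
theorem main (n : ℕ) : ∀ (H X : Type) [Group H] [Finite H] [Group.IsNilpotent H] [Finite X]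
    [MulAction H X] [FaithfulSMul H X], Nat.card X = n → Nat.card H ≤ B n := by
  induction n using Nat.strong_induction_on with
  | _ n ih =>
  intro H X _ _ _ _ _ _ hX
  by_cases hpg : ∃ p, p.Prime ∧ IsPGroup p H
  · obtain ⟨p, hp, hH⟩ := hpg
    haveI := Fact.mk hp
    obtain ⟨k, hk⟩ := IsPGroup.iff_card.mp hH
    rw [hk]
    apply prime_pow_le_B hp
    rw [← hk, ← hX]
    have hinj : Function.Injective (toPermHom H X) := toPerm_injective
    have := Subgroup.card_dvd_of_injective _ hinj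
    rwa [Nat.card_perm] at this
  by_cases hnt : ∃ x y : X, y ∉ orbit H x
  · obtain ⟨x, y, hy⟩ := hnt
    refine split_case ih H X hX (orbit H x) (fun g z hz => ?_) ⟨x, mem_orbit_self x⟩ ⟨y, hy⟩
    obtain ⟨k, rfl⟩ := hz
    exact ⟨g * k, mul_smul _ _ _⟩
  · push Not at hnt
    haveI : Nontrivial H := by
      by_contra hnon
      rw [not_nontrivial_iff_subsingleton] at hnon
      exact hpg ⟨2, Nat.prime_two, IsPGroup.of_card (n := 0) (by simp)⟩
    obtain ⟨g, hg⟩ := exists_ne (1 : H)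
    obtain ⟨x, -⟩ : ∃ x : X, g • x ≠ (1 : H) • x := by
      by_contra hcon
      push Not at hcon
      exact hg (FaithfulSMul.eq_of_smul_eq_smul hcon)
    haveI : IsPretransitive H X := by
      constructor
      intro a b
      exact hnt a b
    exact trans_case ih H X hX x hpg

end Action

/-- Let n be a natural number not congruent to 3 modulo 4. Then every nilpotent subgroup of the symmetric group on n letters has order at most the order of a Sylow 2-subgroup (so the nilpotent subgroups of largest order are exactly the Sylow 2-subgroups). -/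
theorem result (n : ℕ) (hn : n % 4 ≠ 3)
    (N : Subgroup (Equiv.Perm (Fin n))) (hN : Group.IsNilpotent N)
    (P : Sylow 2 (Equiv.Perm (Fin n))) :
    Nat.card N ≤ Nat.card P := by
  have h1 := main n ↥N (Fin n) (by simp)
  rw [B_ne hn] at h1
  rw [Sylow.card_eq_multiplicity, Nat.card_perm]
  simpa [h, Nat.factorization_def _ Nat.prime_two] using h1

end Cfsg.Agent.S2253
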