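import Cfsg.Statements.S2510
import Mathlib

set_option autoImplicit false
open Cfsg

namespace Cfsg.Agent.S2510

open Polynomial

section Poly
variable {F : Type*} [Field F] [Fintype F] (p : ℕ) [hp : Fact p.Prime] [CharP F p]

/-- The `p`-part criterion. -/
lemma dvd_iff_aux (f : F[X]) (hf : Irreducible f) (hfX : ¬ f ∣ X) (e t : ℕ) (he : 1 ≤ e) (ht : t ≠ 0) :
    (∃ c : F, f ^ e ∣ X ^ t - C c) ↔
      (∃ c : F, f ∣ X ^ t - C c) ∧ e ≤ p ^ (t.factorization p) := by
  set b := t.factorization p with hb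
  set t' := t / p ^ b with ht'
  have htt : p ^ b * t' = t := Nat.ordProj_mul_ordCompl_eq_self t p
  have hnd : ¬ p ∣ t' := Nat.not_dvd_ordCompl hp.out ht
  have hinj : Function.Injective (fun x : F => x ^ p ^ b) := by
    have := (iterateFrobenius F p b).injective
    intro x y hxy
    apply this
    simpa [iterateFrobenius_def] using hxy
  have hsurj : Function.Surjective (fun x : F => x ^ p ^ b) := Finite.injective_iff_surjective.1 hinj
  have hroot : ∀ c : F, ∃ c' : F, c' ^ p ^ b = c ∧ (X : F[X]) ^ t - C c = (X ^ t' - C c') ^ p ^ b := by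
    intro c
    obtain ⟨c', hc'⟩ := hsurj c
    refine ⟨c', hc', ?_⟩
    rw [sub_pow_char_pow, ← pow_mul, ← C_pow, mul_comm t', htt]
    congr 2
    exact hc'.symm
  have hprime : Prime f := hf.prime
  constructor
  · rintro ⟨c, hc⟩
    have h1 : f ∣ (X : F[X]) ^ t - C c := (dvd_pow_self f (by omega)).trans hc
    refine ⟨⟨c, h1⟩, ?_⟩
    by_contra hlt
    push Not at hlt
    have hc0 : c ≠ 0 := by
      rintro rfl
      rw [C_0, sub_zero] at h1
      exact hfX (hprime.dvd_of_dvd_pow h1)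
    obtain ⟨c', hc', heq⟩ := hroot c
    have hc'0 : c' ≠ 0 := by
      rintro rfl
      apply hc0
      rw [← hc', zero_pow (by have := hp.out.pos; positivity)]
    have hsep : (X ^ t' - C c' : F[X]).Separable := separable_X_pow_sub_C' p t' c' hnd hc'0
    have hsqf := hsep.squarefree
    rw [heq] at hc h1
    have h2 : f ∣ X ^ t' - C c' := hprime.dvd_of_dvd_pow h1
    obtain ⟨h₁, hh₁⟩ := h2
    have hnf : ¬ f ∣ h₁ := by
      rintro ⟨k, hk⟩
      have : f * f ∣ (X ^ t' - C c' : F[X]) := ⟨k, by rw [hh₁, hk]; ring⟩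
      exact hf.not_isUnit (hsqf f this)
    rw [hh₁, mul_pow] at hc
    have h3 : f ^ (p ^ b + 1) ∣ f ^ p ^ b * h₁ ^ p ^ b := (pow_dvd_pow f hlt).trans hc
    rw [pow_succ] at h3
    have h4 : f ∣ h₁ ^ p ^ b := (mul_dvd_mul_iff_left (pow_ne_zero _ hf.ne_zero)).1 h3
    exact hnf (hprime.dvd_of_dvd_pow h4)
  · rintro ⟨⟨c, hc⟩, hle⟩
    refine ⟨c, ?_⟩
    obtain ⟨c', hc', heq⟩ := hroot c
    rw [heq] at hc ⊢
    have h2 : f ∣ X ^ t' - C c' := hprime.dvd_of_dvd_pow hc
    exact (pow_dvd_pow f hle).trans (pow_dvd_pow_of_dvd h2 _)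

/-- The unipotent case. -/
lemma dvd_X_sub_one_iff (e t : ℕ) (he : 1 ≤ e) (ht : t ≠ 0) (c : F) :
    ((X - C 1 : F[X]) ^ e ∣ X ^ t - C c) ↔ c = 1 ∧ e ≤ p ^ (t.factorization p) := by
  have hirr : Irreducible (X - C 1 : F[X]) := irreducible_X_sub_C 1
  have hnX : ¬ (X - C 1 : F[X]) ∣ X := by
    intro h
    rw [dvd_iff_isRoot] at h
    simp at h
  have h1 : ∀ c : F, (X - C 1 : F[X]) ∣ X ^ t - C c ↔ c = 1 := by
    intro c
    rw [dvd_iff_isRoot]
    simp only [IsRoot.def, eval_sub, eval_pow, eval_X, eval_C, one_pow]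
    rw [sub_eq_zero, eq_comm]
  have key := dvd_iff_aux p (X - C 1 : F[X]) hirr hnX e t he ht
  constructor
  · intro h
    have h2 : (X - C 1 : F[X]) ∣ X ^ t - C c := (dvd_pow_self _ (by omega)).trans h
    have hc := (h1 c).1 h2
    exact ⟨hc, (key.1 ⟨c, h⟩).2⟩
  · rintro ⟨rfl, hle⟩
    obtain ⟨c, hc⟩ := key.2 ⟨⟨1, (h1 1).2 rfl⟩, hle⟩
    have h2 : (X - C 1 : F[X]) ∣ X ^ t - C c := (dvd_pow_self _ (by omega)).trans hc
    have := (h1 c).1 h2
    rwa [this] at hc

end Poly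

section Frob

variable {F E : Type*} [Field F] [Fintype F] [Field E] [Algebra F E]

/-- Elements fixed by the `q`-power map come from the base field. -/
lemma mem_range_of_pow_card (u : E) (hu : u ^ Fintype.card F = u) : ∃ c : F, algebraMap F E c = u := by
  classical
  have hq : 1 < Fintype.card F := Fintype.one_lt_card
  let P : E[X] := X ^ Fintype.card F - X
  have hP : P ≠ 0 := FiniteField.X_pow_card_sub_X_ne_zero E hq
  have hdeg : P.natDegree = Fintype.card F := FiniteField.X_pow_card_sub_X_natDegree_eq E hq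
  let S : Finset E := Finset.univ.image (algebraMap F E)
  have hS : S.card = Fintype.card F := by
    rw [Finset.card_image_of_injective _ (algebraMap F E).injective, Finset.card_univ]
  have hsub : S ⊆ P.roots.toFinset := by
    intro x hx
    obtain ⟨c, -, rfl⟩ := Finset.mem_image.1 hx
    rw [Multiset.mem_toFinset, mem_roots hP]
    simp only [P, IsRoot.def, eval_sub, eval_pow, eval_X]
    rw [← map_pow, FiniteField.pow_card, sub_self]
  have hcard : P.roots.toFinset.card ≤ S.card := by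
    rw [hS, ← hdeg]
    exact (Multiset.toFinset_card_le _).trans (card_roots' P)
  have heq := Finset.eq_of_subset_of_card_le hsub hcard
  have hu' : u ∈ P.roots.toFinset := by
    rw [Multiset.mem_toFinset, mem_roots hP]
    simp only [P, IsRoot.def, eval_sub, eval_pow, eval_X]
    rw [hu, sub_self]
  rw [← heq] at hu'
  obtain ⟨c, -, hc⟩ := Finset.mem_image.1 hu'
  exact ⟨c, hc⟩

/-- `y ^ (q-1)` detects when powers of `y` lie in the base field. -/
lemma pow_sub_one_pow_eq_one_iff (y : E) (hy : y ≠ 0) (t : ℕ) :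
    (y ^ (Fintype.card F - 1)) ^ t = 1 ↔ ∃ c : F, y ^ t = algebraMap F E c := by
  have hq : 1 < Fintype.card F := Fintype.one_lt_card
  constructor
  · intro h
    have h1 : (y ^ t) ^ Fintype.card F = y ^ t := by
      have h0 : (y ^ t) ^ (Fintype.card F - 1) = 1 := by
        rw [← pow_mul, mul_comm, pow_mul]
        exact h
      have h2 : (y ^ t) ^ Fintype.card F = (y ^ t) ^ (Fintype.card F - 1 + 1) := by
        rw [Nat.sub_add_cancel hq.le]
      rw [h2, pow_succ, h0, one_mul]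
    obtain ⟨c, hc⟩ := mem_range_of_pow_card (F := F) _ h1
    exact ⟨c, hc.symm⟩
  · rintro ⟨c, hc⟩
    have hc0 : c ≠ 0 := by
      rintro rfl
      rw [map_zero] at hc
      exact pow_ne_zero _ hy hc
    rw [← pow_mul, mul_comm, pow_mul, hc, ← map_pow, FiniteField.pow_card_sub_one_eq_one c hc0, map_one]

end Frob

section Decomp

open Matrix

variable {F : Type*} [Field F] [Fintype F] {n : ℕ}

/-- The natural map onto `PSL`. -/
abbrev piL : Matrix.SpecialLinearGroup (Fin n) F →* Matrix.ProjectiveSpecialLinearGroup (Fin n) F :=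
  QuotientGroup.mk' _

lemma piL_surjective : Function.Surjective (piL : Matrix.SpecialLinearGroup (Fin n) F → _) :=
  QuotientGroup.mk'_surjective _

/-- Powers in `PSL` are trivial exactly when the power in `SL` is scalar. -/
lemma piL_pow_eq_one_iff [NeZero n] (g : Matrix.SpecialLinearGroup (Fin n) F) (t : ℕ) :
    piL g ^ t = 1 ↔ ∃ c : F, (g.1) ^ t = c • (1 : Matrix (Fin n) (Fin n) F) := by
  rw [← map_pow]
  show (QuotientGroup.mk (g ^ t) : Matrix.ProjectiveSpecialLinearGroup (Fin n) F) = 1 ↔ _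
  rw [QuotientGroup.eq_one_iff, Matrix.SpecialLinearGroup.mem_center_iff]
  constructor
  · rintro ⟨c, -, hc⟩
    refine ⟨c, ?_⟩
    have h1 : (g ^ t).1 = g.1 ^ t := Matrix.SpecialLinearGroup.coe_pow g t
    rw [← h1, ← hc]
    ext i j
    simp [Matrix.scalar_apply, Matrix.one_apply, Matrix.diagonal_apply]
  · rintro ⟨c, hc⟩
    have h1 : (g ^ t).1 = c • (1 : Matrix (Fin n) (Fin n) F) := by
      rw [Matrix.SpecialLinearGroup.coe_pow, hc]
    have h2 : ((c • (1 : Matrix (Fin n) (Fin n) F)).det) = 1 := by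
      rw [← h1]
      exact (g ^ t).2
    refine ⟨c, ?_, ?_⟩
    · rw [Matrix.det_smul, Matrix.det_one, mul_one] at h2
      simpa using h2
    · rw [h1]
      ext i j
      simp [Matrix.scalar_apply, Matrix.one_apply, Matrix.diagonal_apply]

lemma orderOf_piL_dvd_iff [NeZero n] (g : Matrix.SpecialLinearGroup (Fin n) F) (t : ℕ) :
    orderOf (piL g) ∣ t ↔ ∃ c : F, (g.1) ^ t = c • (1 : Matrix (Fin n) (Fin n) F) := by
  rw [orderOf_dvd_iff_pow_eq_one, piL_pow_eq_one_iff]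

/-- The two eigenvalue element attached to an idempotent. -/
def Dd (P : Matrix (Fin n) (Fin n) F) (a b : F) : Matrix (Fin n) (Fin n) F := a • P + b • (1 - P)

lemma Dd_mul (P : Matrix (Fin n) (Fin n) F) (hP : P * P = P) (a b a' b' : F) :
    Dd P a b * Dd P a' b' = Dd P (a * a') (b * b') := by
  unfold Dd
  have h1 : (1 - P) * (1 - P) = 1 - P := by
    rw [Matrix.sub_mul, Matrix.mul_sub, Matrix.mul_sub, hP]
    simp
  have h2 : P * (1 - P) = 0 := by
    rw [Matrix.mul_sub, hP]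
    simp
  have h3 : (1 - P) * P = 0 := by
    rw [Matrix.sub_mul, hP]
    simp
  simp only [Matrix.add_mul, Matrix.mul_add, Matrix.smul_mul, Matrix.mul_smul, hP, h1, h2, h3,
    smul_zero, add_zero, zero_add, smul_smul]
  rw [mul_comm a' a, mul_comm b' b]

lemma Dd_one (P : Matrix (Fin n) (Fin n) F) : Dd P 1 1 = 1 := by
  unfold Dd
  simp

lemma Dd_pow (P : Matrix (Fin n) (Fin n) F) (hP : P * P = P) (a b : F) (k : ℕ) :
    (Dd P a b) ^ k = Dd P (a ^ k) (b ^ k) := by
  induction k with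
  | zero => simp [Dd_one]
  | succ k ih => rw [pow_succ, ih, Dd_mul P hP, pow_succ, pow_succ]

/-- The existence of an element of order `r` in `SL` commuting with a given idempotent. -/
lemma exists_Dd (r : ℕ) (hr : r.Prime) (hrq : r ∣ Fintype.card F - 1) (hrn : ¬ r ∣ n)
    (P : Matrix (Fin n) (Fin n) F) (hP : P * P = P) (hP0 : P ≠ 0) (hP1 : P ≠ 1) :
    ∃ a b : F, a ≠ b ∧ a ^ r = 1 ∧ b ^ r = 1 ∧ (Dd P a b).det = 1 := by
  have hq : 1 < Fintype.card F := Fintype.one_lt_card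
  obtain ⟨ω, hω⟩ := IsCyclic.exists_monoid_generator (α := Fˣ)
  have hordω : orderOf ω = Fintype.card F - 1 := by
    rw [orderOf_eq_card_of_forall_mem_powers hω, Nat.card_units, Nat.card_eq_fintype_card]
  let d (a b : Fˣ) : F := (Dd P (a : F) (b : F)).det
  have hd : ∀ a b a' b' : Fˣ, d (a * a') (b * b') = d a b * d a' b' := by
    intro a b a' b'
    simp only [d]
    rw [← Matrix.det_mul, Dd_mul P hP]
    simp
  have hd1 : d 1 1 = 1 := by
    simp only [d, Units.val_one]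
    rw [Dd_one, Matrix.det_one]
  have hdpow : ∀ (a b : Fˣ) (k : ℕ), d (a ^ k) (b ^ k) = d a b ^ k := by
    intro a b k
    simp only [d]
    rw [← Matrix.det_pow, Dd_pow P hP]
    simp
  have hdunit : ∀ a b : Fˣ, d a b ≠ 0 := by
    intro a b h
    have h1 := hd a b a⁻¹ b⁻¹
    rw [mul_inv_cancel, mul_inv_cancel, hd1, h, zero_mul] at h1
    exact one_ne_zero h1
  -- exponents
  obtain ⟨k, hk⟩ : ∃ k : ℕ, d ω 1 = ((ω ^ k : Fˣ) : F) := by
    have := hω (Units.mk0 (d ω 1) (hdunit ω 1))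
    obtain ⟨k, hk⟩ := this
    refine ⟨k, ?_⟩
    have := congrArg Units.val hk
    simpa using this.symm
  obtain ⟨l, hl⟩ : ∃ l : ℕ, d 1 ω = ((ω ^ l : Fˣ) : F) := by
    have := hω (Units.mk0 (d 1 ω) (hdunit 1 ω))
    obtain ⟨l, hl⟩ := this
    refine ⟨l, ?_⟩
    have := congrArg Units.val hl
    simpa using this.symm
  have hkl : ω ^ (k + l) = ω ^ n := by
    apply Units.ext
    have h1 : d ω ω = d ω 1 * d 1 ω := by
      have := hd ω 1 1 ω
      simpa using this
    have h2 : d ω ω = ((ω : F)) ^ n := by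
      simp only [d]
      have : Dd P (ω : F) (ω : F) = (ω : F) • (1 : Matrix (Fin n) (Fin n) F) := by
        unfold Dd
        rw [smul_sub, ← add_sub_assoc, add_comm, add_sub_assoc, sub_self, add_zero]
      rw [this, Matrix.det_smul, Matrix.det_one, mul_one, Fintype.card_fin]
    rw [h1, hk, hl] at h2
    simp only [Units.val_pow_eq_pow_val, pow_add] 
    exact h2
  -- an element of order r
  obtain ⟨s, hs⟩ := hrq
  have hs0 : s ≠ 0 := by
    rintro rfl
    omega
  set lam : Fˣ := ω ^ s with hlam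
  have hlamr : lam ^ r = 1 := by
    rw [hlam, ← pow_mul, mul_comm, ← hs, ← hordω, pow_orderOf_eq_one]
  have hlampow : ∀ m : ℕ, lam ^ m = 1 → r ∣ m := by
    intro m hm
    rw [hlam, ← pow_mul] at hm
    have h1 := orderOf_dvd_of_pow_eq_one hm
    rw [hordω, hs, mul_comm] at h1
    exact Nat.dvd_of_mul_dvd_mul_right (Nat.pos_of_ne_zero hs0) (by rwa [mul_comm s m, mul_comm r s] at *)
  -- the pair
  refine ⟨((lam ^ l : Fˣ) : F), (((lam ^ k)⁻¹ : Fˣ) : F), ?_, ?_, ?_, ?_⟩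
  · intro h
    have h1 : lam ^ l = (lam ^ k)⁻¹ := Units.ext h
    have h2 : lam ^ (k + l) = 1 := by
      rw [pow_add, h1, mul_inv_cancel]
    have h3 : lam ^ n = 1 := by
      rw [hlam, ← pow_mul, mul_comm, pow_mul, ← hkl, ← pow_mul, mul_comm, pow_mul, ← hlam, h2]
    exact hrn (hlampow n h3)
  · rw [← Units.val_pow_eq_pow_val, ← pow_mul, mul_comm, pow_mul, hlamr, one_pow, Units.val_one]
  · rw [← Units.val_pow_eq_pow_val, inv_pow, ← pow_mul, mul_comm, pow_mul, hlamr, one_pow, inv_one, Units.val_one]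
  · -- the determinant
    have h1 : d (lam ^ l) ((lam ^ k)⁻¹) = 1 := by
      have h2 : d (lam ^ l) ((lam ^ k)⁻¹) = d (lam ^ l) 1 * d 1 ((lam ^ k)⁻¹) := by
        have := hd (lam ^ l) 1 1 ((lam ^ k)⁻¹)
        simpa using this
      have h3 : d (lam ^ l) 1 = d ω 1 ^ (s * l) := by
        rw [← hdpow]
        simp [hlam, pow_mul]
      have h4 : d 1 (lam ^ k) = d 1 ω ^ (s * k) := by
        rw [← hdpow]
        simp [hlam, pow_mul]
      have h5 : d 1 ((lam ^ k)⁻¹) * d 1 (lam ^ k) = 1 := by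
        have := hd 1 ((lam ^ k)⁻¹) 1 (lam ^ k)
        rw [inv_mul_cancel, mul_one, hd1] at this
        exact this.symm
      have h6 : d (lam ^ l) 1 = d 1 (lam ^ k) := by
        rw [h3, h4, hk, hl, ← Units.val_pow_eq_pow_val, ← Units.val_pow_eq_pow_val]
        congr 1
        rw [← pow_mul, ← pow_mul]
        congr 1
        ring
      rw [h2, h6, mul_comm, h5]
    exact h1

end Decomp

section Decomp2

open Matrix

variable {F : Type*} [Field F] [Fintype F] {n : ℕ}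

instance : Finite (Matrix.SpecialLinearGroup (Fin n) F) :=
  inferInstanceAs (Finite {A : Matrix (Fin n) (Fin n) F // A.det = 1})

/-- Multiplying by a commuting element of order `r` built from an idempotent. -/
theorem exists_order_mul [NeZero n] (r : ℕ) (hr : r.Prime) (hrq : r ∣ Fintype.card F - 1) (hrn : ¬ r ∣ n)
    (z : Matrix.SpecialLinearGroup (Fin n) F) (hrz : ¬ r ∣ orderOf (piL z))
    (P : Matrix (Fin n) (Fin n) F) (hP : P * P = P) (hP0 : P ≠ 0) (hP1 : P ≠ 1)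
    (hc : P * z.1 = z.1 * P) :
    ∃ z' : Matrix.SpecialLinearGroup (Fin n) F, orderOf (piL z') = r * orderOf (piL z) := by
  obtain ⟨a, b, hab, har, hbr, hdet⟩ := exists_Dd r hr hrq hrn P hP hP0 hP1
  set N := orderOf (piL z) with hN
  have hN0 : 0 < N := orderOf_pos _
  have hn0 : n ≠ 0 := NeZero.ne n
  let d : Matrix.SpecialLinearGroup (Fin n) F := ⟨Dd P a b, hdet⟩
  have hdval : d.1 = Dd P a b := rfl
  have hcomm : Commute z d := by
    apply Subtype.ext
    show z.1 * Dd P a b = Dd P a b * z.1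
    unfold Dd
    simp only [Matrix.mul_add, Matrix.add_mul, Matrix.mul_smul, Matrix.smul_mul, Matrix.mul_sub,
      Matrix.sub_mul, Matrix.mul_one, Matrix.one_mul, hc]
  have hdr : d ^ r = 1 := by
    apply Subtype.ext
    rw [Matrix.SpecialLinearGroup.coe_pow, hdval, Dd_pow P hP, har, hbr, Dd_one]
    rfl
  -- `z ^ (N * n) = 1`
  obtain ⟨c, hc0⟩ := (orderOf_piL_dvd_iff z N).1 (dvd_refl N)
  have hzN : (z ^ N).1 = c • (1 : Matrix (Fin n) (Fin n) F) := by
    rw [Matrix.SpecialLinearGroup.coe_pow, hc0]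
  have hzs : z ^ (N * n) = 1 := by
    apply Subtype.ext
    rw [Matrix.SpecialLinearGroup.coe_pow, pow_mul, hc0]
    have h2 := (z ^ N).2
    rw [hzN, Matrix.det_smul, Matrix.det_one, mul_one, Fintype.card_fin] at h2
    rw [_root_.smul_pow, one_pow, h2, one_smul]
    rfl
  have hcop : Nat.Coprime r (N * n) :=
    hr.coprime_iff_not_dvd.2 (fun h => (hr.dvd_mul.1 h).elim hrz hrn)
  -- the element is not scalar
  have hDscalar : ∀ c' : F, d.1 ≠ c' • (1 : Matrix (Fin n) (Fin n) F) := by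
    intro c' h
    have h1 : Dd P a b * P = a • P := by
      unfold Dd
      simp only [Matrix.add_mul, Matrix.smul_mul, Matrix.sub_mul, Matrix.one_mul, hP, sub_self,
        smul_zero, add_zero]
    have h2 : Dd P a b * (1 - P) = b • (1 - P) := by
      unfold Dd
      simp only [Matrix.add_mul, Matrix.smul_mul, Matrix.mul_sub, Matrix.mul_one, hP, sub_self,
        smul_zero, zero_add, Matrix.sub_mul, Matrix.one_mul]
      simp
    rw [← hdval, h, Matrix.smul_mul, Matrix.one_mul] at h1 h2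
    have h3 : c' = a := by
      have : (c' - a) • P = 0 := by rw [sub_smul, h1, sub_self]
      rcases smul_eq_zero.1 this with h4 | h4
      · exact sub_eq_zero.1 h4
      · exact absurd h4 hP0
    have h5 : c' = b := by
      have : (c' - b) • (1 - P) = 0 := by rw [sub_smul, h2, sub_self]
      rcases smul_eq_zero.1 this with h4 | h4
      · exact sub_eq_zero.1 h4
      · exact absurd (sub_eq_zero.1 h4).symm hP1
    exact hab (h3.symm.trans h5)
  refine ⟨z * d, ?_⟩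
  apply Nat.dvd_antisymm
  · rw [orderOf_piL_dvd_iff]
    refine ⟨c ^ r, ?_⟩
    rw [← Matrix.SpecialLinearGroup.coe_pow, hcomm.mul_pow, mul_comm r N, pow_mul z, mul_comm N r,
      pow_mul d, hdr, one_pow, mul_one, Matrix.SpecialLinearGroup.coe_pow, hzN, _root_.smul_pow, one_pow]
  · set t := orderOf (piL (z * d)) with ht
    obtain ⟨c', hc'⟩ := (orderOf_piL_dvd_iff (z * d) t).1 (dvd_refl t)
    have h1 : (z ^ t * d ^ t).1 = c' • (1 : Matrix (Fin n) (Fin n) F) := by
      rw [← hcomm.mul_pow, Matrix.SpecialLinearGroup.coe_pow]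
      exact hc'
    have hrt : r ∣ t := by
      by_contra hnt
      have hcop2 : Nat.Coprime (t * (N * n)) r :=
        Nat.Coprime.symm (Nat.Coprime.mul_right (hr.coprime_iff_not_dvd.2 hnt) hcop)
      obtain ⟨u, hu⟩ := Nat.exists_mul_mod_eq_one_of_coprime hcop2 hr.one_lt
      have h2 : d ^ (t * (N * n)) = z ^ (t * (N * n)) * d ^ (t * (N * n)) := by
        rw [mul_comm t, pow_mul z, hzs, one_pow, one_mul]
      have h3 : (d ^ (t * (N * n))).1 = (c' ^ (N * n)) • (1 : Matrix (Fin n) (Fin n) F) := by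
        rw [h2, pow_mul z, pow_mul d, ← (hcomm.pow_pow _ _).mul_pow, Matrix.SpecialLinearGroup.coe_pow,
          h1, _root_.smul_pow, one_pow]
      have h4 : d = (d ^ (t * (N * n))) ^ u := by
        rw [← pow_mul]
        have h5 : orderOf d ∣ r := orderOf_dvd_of_pow_eq_one hdr
        have h6 : (t * (N * n) * u) ≡ 1 [MOD orderOf d] :=
          Nat.ModEq.of_dvd h5 (by
            show t * (N * n) * u % r = 1 % r
            rw [hu.2, Nat.mod_eq_of_lt hr.one_lt])
        exact ((pow_eq_pow_iff_modEq.2 h6).trans (pow_one d)).symm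
      apply hDscalar ((c' ^ (N * n)) ^ u)
      rw [h4, Matrix.SpecialLinearGroup.coe_pow, h3, _root_.smul_pow, one_pow]
    have hNt : N ∣ t := by
      rw [hN, orderOf_piL_dvd_iff]
      refine ⟨c', ?_⟩
      have h2 : d ^ t = 1 := by
        obtain ⟨s, hs⟩ := hrt
        rw [hs, pow_mul, hdr, one_pow]
      rw [h2, mul_one, Matrix.SpecialLinearGroup.coe_pow] at h1
      exact h1
    exact Nat.Coprime.mul_dvd_of_dvd_of_dvd (hr.coprime_iff_not_dvd.2 hrz) hrt hNt

/-- There is an element of order `r` in `PSL`. -/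
theorem exists_order_r (hn : 2 ≤ n) (r : ℕ) (hr : r.Prime) (hrq : r ∣ Fintype.card F - 1) (hrn : ¬ r ∣ n) :
    ∃ z' : Matrix.SpecialLinearGroup (Fin n) F, orderOf (piL z') = r := by
  haveI : NeZero n := ⟨by omega⟩
  let i0 : Fin n := ⟨0, by omega⟩
  let i1 : Fin n := ⟨1, by omega⟩
  have h01 : i0 ≠ i1 := by
    intro h
    have := congrArg Fin.val h
    simp [i0, i1] at this
  have hP : (Matrix.single i0 i0 (1 : F)) * (Matrix.single i0 i0 (1 : F)) = Matrix.single i0 i0 (1 : F) := by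
    rw [Matrix.single_mul_single_same, mul_one]
  have hP0 : (Matrix.single i0 i0 (1 : F)) ≠ 0 := by
    intro h
    have := congrFun (congrFun h i0) i0
    simp at this
  have hP1 : (Matrix.single i0 i0 (1 : F)) ≠ 1 := by
    intro h
    have := congrFun (congrFun h i1) i1
    simp [Matrix.single] at this
    exact h01 this
  obtain ⟨z', hz'⟩ := exists_order_mul r hr hrq hrn (1 : Matrix.SpecialLinearGroup (Fin n) F)
    (by rw [map_one, orderOf_one]; exact hr.one_lt.not_ge ∘ Nat.le_of_dvd one_pos) _ hP hP0 hP1 (by simp)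
  refine ⟨z', ?_⟩
  rw [hz', map_one, orderOf_one, mul_one]

end Decomp2

section Structure
open Module

variable {F : Type*} [Field F] {n : ℕ}

/-- A polynomial-linear idempotent gives an idempotent matrix. -/
lemma idem_of_linear (φ : Module.End F (Fin n → F))
    (E : AEval' φ →ₗ[F[X]] AEval' φ) (h2 : ∀ x, E (E x) = E x)
    (x y : AEval' φ) (hx : E x ≠ 0) (hy : E y ≠ y) :
    ∃ P : Matrix (Fin n) (Fin n) F, P * P = P ∧ P ≠ 0 ∧ P ≠ 1 ∧
      P * LinearMap.toMatrix' φ = LinearMap.toMatrix' φ * P := by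
  let of' := AEval'.of φ
  let π₀ : (Fin n → F) →ₗ[F] (Fin n → F) :=
    of'.symm.toLinearMap ∘ₗ (E.restrictScalars F) ∘ₗ of'.toLinearMap
  have hπ : ∀ v, π₀ v = of'.symm (E (of' v)) := fun v => rfl
  refine ⟨LinearMap.toMatrix' π₀, ?_, ?_, ?_, ?_⟩
  · rw [← LinearMap.toMatrix'_comp]
    congr 1
    apply LinearMap.ext
    intro v
    rw [LinearMap.comp_apply, hπ, hπ, LinearEquiv.apply_symm_apply, h2]
  · intro h
    have h1 : π₀ = 0 := by
      apply LinearMap.toMatrix'.injective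
      rw [h, map_zero]
    have h3 := congrArg (fun g => of' (g (of'.symm x))) h1
    simp only [hπ, LinearEquiv.apply_symm_apply] at h3
    apply hx
    simpa using h3
  · intro h
    have h1 : π₀ = LinearMap.id := by
      apply LinearMap.toMatrix'.injective
      rw [h, LinearMap.toMatrix'_id]
    have h3 := congrArg (fun g => of' (g (of'.symm y))) h1
    simp only [hπ, LinearEquiv.apply_symm_apply, LinearMap.id_apply] at h3
    exact hy h3
  · rw [← LinearMap.toMatrix'_comp, ← LinearMap.toMatrix'_comp]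
    congr 1
    apply LinearMap.ext
    intro v
    show π₀ (φ v) = φ (π₀ v)
    rw [hπ, hπ]
    have h4 : of' (φ v) = (X : F[X]) • of' v := (AEval'.X_smul_of φ v).symm
    rw [h4, map_smul]
    exact AEval'.of_symm_X_smul φ _

/-- Dichotomy: a matrix either commutes with a nontrivial idempotent or generates a primary cyclic
module. -/
theorem structure_thm [NeZero n] (T : Matrix (Fin n) (Fin n) F) :
    (∃ P : Matrix (Fin n) (Fin n) F, P * P = P ∧ P ≠ 0 ∧ P ≠ 1 ∧ P * T = T * P) ∨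
    (∃ (f : F[X]) (e : ℕ), f.Monic ∧ Irreducible f ∧ 1 ≤ e ∧ f.natDegree * e = n ∧
      ∀ q : F[X], aeval T q = 0 ↔ f ^ e ∣ q) := by
  classical
  set φ : Module.End F (Fin n → F) := Matrix.toLin' T with hφ
  have hφT : LinearMap.toMatrix' φ = T := by rw [hφ, LinearMap.toMatrix'_toLin']
  let N := AEval' φ
  have hM : Module.IsTorsion F[X] N := by
    intro x
    have h0 : minpoly F φ ≠ 0 := minpoly.ne_zero (Algebra.IsIntegral.isIntegral φ)
    refine ⟨⟨minpoly F φ, mem_nonZeroDivisors_of_ne_zero h0⟩, ?_⟩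
    obtain ⟨v, rfl⟩ := (AEval'.of φ).surjective x
    show minpoly F φ • (AEval'.of φ v) = 0
    rw [← AEval.of_aeval_smul, minpoly.aeval]
    simp
  obtain ⟨ι, _, p, hp, e, ⟨l⟩⟩ := Module.equiv_directSum_of_isTorsion hM
  let W := fun i => F[X] ⧸ Submodule.span F[X] {p i ^ e i}
  let one' : ∀ i, W i := fun i => Submodule.Quotient.mk 1
  have hone : ∀ i, e i ≠ 0 → one' i ≠ 0 := by
    intro i hi h
    rw [Submodule.Quotient.mk_eq_zero, Submodule.mem_span_singleton] at h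
    obtain ⟨a, ha⟩ := h
    have h1 : p i ^ e i ∣ 1 := ⟨a, by rw [← ha, smul_eq_mul, mul_comm]⟩
    have h2 : IsUnit (p i ^ e i) := isUnit_of_dvd_one h1
    rw [isUnit_pow_iff hi] at h2
    exact (hp i).not_isUnit h2
  have hsub : ∀ i, e i = 0 → Subsingleton (W i) := by
    intro i hi
    apply Submodule.Quotient.subsingleton_iff.2
    rw [hi, pow_zero]
    exact Ideal.span_singleton_one
  by_cases hex : ∃ i j, i ≠ j ∧ e i ≠ 0 ∧ e j ≠ 0
  · left
    obtain ⟨i, j, hij, hi, hj⟩ := hex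
    let Ei : (DirectSum ι W) →ₗ[F[X]] (DirectSum ι W) :=
      (DirectSum.lof F[X] ι W i) ∘ₗ (DirectSum.component F[X] ι W i)
    let E : N →ₗ[F[X]] N := l.symm.toLinearMap ∘ₗ Ei ∘ₗ l.toLinearMap
    have hEi : ∀ a, Ei a = DirectSum.lof F[X] ι W i (DirectSum.component F[X] ι W i a) := fun a => rfl
    have hE : ∀ a, E a = l.symm (Ei (l a)) := fun a => rfl
    obtain ⟨P, h1, h2, h3, h4⟩ := idem_of_linear φ E
      (by
        intro x
        rw [hE, hE, LinearEquiv.apply_symm_apply, hEi (Ei (l x)), hEi (l x),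
          DirectSum.component.lof_self])
      (l.symm (DirectSum.lof F[X] ι W i (one' i))) (l.symm (DirectSum.lof F[X] ι W j (one' j)))
      (by
        rw [hE, LinearEquiv.apply_symm_apply, hEi, DirectSum.component.lof_self]
        intro h
        have h5 := l.symm.injective (h.trans (map_zero l.symm).symm)
        have h6 := congrArg (DirectSum.component F[X] ι W i) h5
        rw [DirectSum.component.lof_self, map_zero] at h6
        exact hone i hi h6)
      (by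
        rw [hE, LinearEquiv.apply_symm_apply, hEi, DirectSum.component.of, dif_neg hij.symm, map_zero, map_zero]
        intro h
        have h5 := l.symm.injective (h.symm.trans (map_zero l.symm).symm)
        have h6 := congrArg (DirectSum.component F[X] ι W j) h5
        rw [DirectSum.component.lof_self, map_zero] at h6
        exact hone j hj h6)
    rw [hφT] at h4
    exact ⟨P, h1, h2, h3, h4⟩
  · right
    push Not at hex
    have hnontriv : Nontrivial N := by
      have : Nontrivial (Fin n → F) := by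
        haveI : Nonempty (Fin n) := ⟨⟨0, Nat.pos_of_ne_zero (NeZero.ne n)⟩⟩
        infer_instance
      exact (AEval'.of φ).symm.toEquiv.nontrivial
    obtain ⟨i₀, hi₀⟩ : ∃ i, e i ≠ 0 := by
      by_contra h
      push Not at h
      have : Subsingleton (DirectSum ι W) := by
        haveI := fun i => hsub i (h i)
        exact ⟨fun a b => DFinsupp.ext fun i => Subsingleton.elim _ _⟩
      exact not_subsingleton N l.toEquiv.subsingleton
    -- the other summands vanish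
    have hother : ∀ j, j ≠ i₀ → Subsingleton (W j) := fun j hj => hsub j (hex i₀ j hj.symm hi₀)
    let comp : N →ₗ[F[X]] W i₀ := (DirectSum.component F[X] ι W i₀) ∘ₗ l.toLinearMap
    have hcompinj : Function.Injective comp := by
      rw [← LinearMap.ker_eq_bot, LinearMap.ker_eq_bot']
      intro m hm
      have h1 : l m = 0 := by
        apply DFinsupp.ext
        intro j
        by_cases hj : j = i₀
        · subst hj
          exact hm
        · haveI := hother j hj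
          exact Subsingleton.elim _ _
      simpa using h1
    have hcompsurj : Function.Surjective comp := by
      intro w
      refine ⟨l.symm (DirectSum.lof F[X] ι W i₀ w), ?_⟩
      show DirectSum.component F[X] ι W i₀ (l (l.symm _)) = w
      rw [LinearEquiv.apply_symm_apply, DirectSum.component.lof_self]
    let l₁ : N ≃ₗ[F[X]] W i₀ := LinearEquiv.ofBijective comp ⟨hcompinj, hcompsurj⟩
    -- monic generator
    have hp0 : p i₀ ≠ 0 := (hp i₀).ne_zero
    set f : F[X] := p i₀ * C (p i₀).leadingCoeff⁻¹ with hf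
    have hfmonic : f.Monic := monic_mul_leadingCoeff_inv hp0
    have hassoc : Associated (p i₀) f := by
      refine ⟨⟨C (p i₀).leadingCoeff⁻¹, C (p i₀).leadingCoeff, ?_, ?_⟩, rfl⟩
      · rw [← C_mul, inv_mul_cancel₀ (leadingCoeff_ne_zero.2 hp0), C_1]
      · rw [← C_mul, mul_inv_cancel₀ (leadingCoeff_ne_zero.2 hp0), C_1]
    have hfirr : Irreducible f := hassoc.irreducible (hp i₀)
    have hfdeg : f.natDegree = (p i₀).natDegree := natDegree_mul_leadingCoeff_inv _ hp0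
    have hassocpow : Associated (p i₀ ^ e i₀) (f ^ e i₀) := hassoc.pow_pow
    refine ⟨f, e i₀, hfmonic, hfirr, Nat.pos_of_ne_zero hi₀, ?_, ?_⟩
    · -- the dimension
      have hspan : Submodule.span F[X] {p i₀ ^ e i₀} = Submodule.span F[X] {f ^ e i₀} :=
        Ideal.span_singleton_eq_span_singleton.2 hassocpow
      have hfm : (f ^ e i₀).Monic := hfmonic.pow _
      have h1 : Module.finrank F (W i₀) = Module.finrank F (AdjoinRoot (f ^ e i₀)) :=
        LinearEquiv.finrank_eq ((Submodule.quotEquivOfEq _ _ hspan).restrictScalars F)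
      have h2 : Module.finrank F (AdjoinRoot (f ^ e i₀)) = (f ^ e i₀).natDegree := by
        rw [(AdjoinRoot.powerBasis' hfm).finrank]
        rfl
      have h3 : Module.finrank F (Fin n → F) = Module.finrank F (W i₀) :=
        LinearEquiv.finrank_eq ((AEval'.of φ).trans (l₁.restrictScalars F))
      rw [Module.finrank_fin_fun, h1, h2, hfmonic.natDegree_pow] at h3
      rw [h3, mul_comm]
    · intro q
      have hq1 : aeval T q = 0 ↔ aeval φ q = 0 := by
        have h1 : aeval φ q = Matrix.toLinAlgEquiv' (aeval T q) := by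
          have : φ = Matrix.toLinAlgEquiv' T := rfl
          rw [this, aeval_algEquiv]
          rfl
        rw [h1, map_eq_zero_iff _ (Matrix.toLinAlgEquiv' (R := F) (n := Fin n)).injective]
      rw [hq1]
      have hq2 : aeval φ q = 0 ↔ ∀ w : W i₀, q • w = 0 := by
        constructor
        · intro h w
          obtain ⟨m, rfl⟩ := l₁.surjective w
          rw [← map_smul]
          obtain ⟨v, rfl⟩ := (AEval'.of φ).surjective m
          have h5 : q • AEval'.of φ v = AEval'.of φ ((aeval φ q) • v) := (AEval.of_aeval_smul φ q v).symm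
          show l₁ (q • AEval'.of φ v) = 0
          rw [h5, h, zero_smul, map_zero, map_zero]
        · intro h
          apply LinearMap.ext
          intro v
          have h5 : q • AEval'.of φ v = AEval'.of φ ((aeval φ q) • v) := (AEval.of_aeval_smul φ q v).symm
          have h6 : q • AEval'.of φ v = 0 := by
            apply l₁.injective
            rw [map_smul, h, map_zero]
          rw [h5] at h6
          exact (AEval'.of φ).injective (h6.trans (map_zero _).symm)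
      rw [hq2]
      have hq3 : (∀ w : W i₀, q • w = 0) ↔ (p i₀ ^ e i₀ ∣ q) := by
        constructor
        · intro h
          have h1 := h (one' i₀)
          have h2 : q • one' i₀ = Submodule.Quotient.mk q := by
            show q • (Submodule.Quotient.mk (1 : F[X])) = _
            rw [← Submodule.Quotient.mk_smul, smul_eq_mul, mul_one]
          rw [h2, Submodule.Quotient.mk_eq_zero, Submodule.mem_span_singleton] at h1
          obtain ⟨a, ha⟩ := h1
          exact ⟨a, by rw [← ha, smul_eq_mul, mul_comm]⟩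
        · rintro ⟨a, rfl⟩ w
          obtain ⟨b, rfl⟩ := Submodule.Quotient.mk_surjective _ w
          rw [← Submodule.Quotient.mk_smul, Submodule.Quotient.mk_eq_zero,
            Submodule.mem_span_singleton]
          exact ⟨a * b, by simp only [smul_eq_mul]; ring⟩
      rw [hq3]
      exact hassocpow.dvd_iff_dvd_left

end Structure

section Construct

open Module

variable {F : Type*} [Field F] [Fintype F] {n : ℕ}

/-- Building the replacement element. -/
theorem exists_replacement (p : ℕ) [hp : Fact p.Prime] [CharP F p] (f : F[X]) (hfm : f.Monic)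
    (hfi : Irreducible f) (hfX : ¬ f ∣ X) (e' : ℕ) (he' : 1 ≤ e') (hn : f.natDegree + e' ≤ n) :
    ∃ (z : Matrix.SpecialLinearGroup (Fin n) F) (P : Matrix (Fin n) (Fin n) F),
      P * P = P ∧ P ≠ 0 ∧ P ≠ 1 ∧ P * z.1 = z.1 * P ∧
      ∀ t : ℕ, t ≠ 0 → ((∃ c : F, z.1 ^ t = c • (1 : Matrix (Fin n) (Fin n) F)) ↔
        (∃ c : F, f ∣ X ^ t - C c) ∧ e' ≤ p ^ (t.factorization p)) := by
  classical
  haveI : Fact (Irreducible f) := ⟨hfi⟩
  have hf0 : f ≠ 0 := hfi.ne_zero
  let E := AdjoinRoot f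
  haveI : Module.Finite F E := (AdjoinRoot.powerBasis hf0).finite
  have hEfin : Module.finrank F E = f.natDegree := by
    rw [(AdjoinRoot.powerBasis hf0).finrank, AdjoinRoot.powerBasis_dim]
  let y : E := AdjoinRoot.root f
  have hy0 : y ≠ 0 := by
    intro h
    apply hfX
    rw [← AdjoinRoot.mk_eq_zero, AdjoinRoot.mk_X]
    exact h
  let w : E := y ^ (Fintype.card F - 1)
  let g : F[X] := (X - C 1) ^ e'
  have hgm : g.Monic := (monic_X_sub_C 1).pow _
  have hgdeg : g.natDegree = e' := by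
    show ((X - C 1 : F[X]) ^ e').natDegree = e'
    rw [(monic_X_sub_C (1 : F)).natDegree_pow, natDegree_X_sub_C, mul_one]
  let G := AdjoinRoot g
  haveI : Module.Finite F G := (AdjoinRoot.powerBasis' hgm).finite
  have hGfin : Module.finrank F G = e' := by
    rw [(AdjoinRoot.powerBasis' hgm).finrank]
    exact hgdeg
  let ρ : G := AdjoinRoot.root g
  have hρmk : ∀ (t : ℕ) (c : F), ρ ^ t = algebraMap F G c ↔ g ∣ X ^ t - C c := by
    intro t c
    rw [← AdjoinRoot.mk_eq_zero, map_sub, map_pow, AdjoinRoot.mk_X, AdjoinRoot.mk_C, sub_eq_zero]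
    rfl
  have hymk : ∀ (t : ℕ) (c : F), y ^ t = algebraMap F E c ↔ f ∣ X ^ t - C c := by
    intro t c
    rw [← AdjoinRoot.mk_eq_zero, map_sub, map_pow, AdjoinRoot.mk_X, AdjoinRoot.mk_C, sub_eq_zero]
    rfl
  let h := n - (f.natDegree + e')
  let W := E × G × (Fin h → F)
  let Z₁ : Module.End F E := Algebra.lmul F E w
  let Z₂ : Module.End F G := Algebra.lmul F G ρ
  let Z : Module.End F W := LinearMap.prodMap Z₁ (LinearMap.prodMap Z₂ 1)
  have hZpow : ∀ t : ℕ, Z ^ t = LinearMap.prodMap (Algebra.lmul F E (w ^ t))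
      (LinearMap.prodMap (Algebra.lmul F G (ρ ^ t)) 1) := by
    intro t
    induction t with
    | zero =>
      simp only [pow_zero, map_one]
      rw [LinearMap.prodMap_one, LinearMap.prodMap_one]
    | succ t ih =>
      rw [pow_succ, ih, pow_succ, pow_succ, map_mul, map_mul]
      show (LinearMap.prodMap _ _) * (LinearMap.prodMap _ _) = _
      rw [LinearMap.prodMap_mul, LinearMap.prodMap_mul, mul_one]
  have hZpow_apply : ∀ (t : ℕ) (a : E) (b : G) (d : Fin h → F),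
      (Z ^ t) (a, b, d) = (w ^ t * a, ρ ^ t * b, d) := by
    intro t a b d
    rw [hZpow]
    rfl
  -- determinants
  have hdetZ₁ : LinearMap.det Z₁ = 1 := by
    show Algebra.norm F w = 1
    have hN : Algebra.norm F y ≠ 0 := Algebra.norm_ne_zero_iff.2 hy0
    show Algebra.norm F (y ^ (Fintype.card F - 1)) = 1
    rw [map_pow, FiniteField.pow_card_sub_one_eq_one _ hN]
  have hp0 : 0 < p := hp.out.pos
  have hρB : ρ ^ (p ^ e') = 1 := by
    have h1 : g ∣ X ^ (p ^ e') - C (1 : F) := by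
      have h2 : (X : F[X]) ^ (p ^ e') - C 1 = (X - C 1) ^ (p ^ e') := by
        rw [sub_pow_char_pow, ← C_pow, one_pow]
      rw [h2]
      exact pow_dvd_pow _ (Nat.lt_pow_self hp.out.one_lt).le
    have h3 := (hρmk _ 1).2 h1
    rw [h3, map_one]
  have hdetZ₂ : LinearMap.det Z₂ = 1 := by
    have h1 : Z₂ ^ (p ^ e') = 1 := by
      show (Algebra.lmul F G ρ) ^ (p ^ e') = 1
      rw [← map_pow, hρB, map_one]
    have h2 : (LinearMap.det Z₂) ^ (p ^ e') = 1 := by
      rw [← map_pow, h1, map_one]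
    have hinj := (iterateFrobenius F p e').injective
    apply hinj
    simp only [iterateFrobenius_def, one_pow]
    exact h2
  have hdetZ : LinearMap.det Z = 1 := by
    show LinearMap.det (LinearMap.prodMap Z₁ (LinearMap.prodMap Z₂ (1 : Module.End F (Fin h → F)))) = 1
    rw [LinearMap.det_prodMap, LinearMap.det_prodMap, hdetZ₁, hdetZ₂]
    simp
  -- the idempotent
  let Pr : Module.End F W := LinearMap.prodMap LinearMap.id 0
  have hPr : ∀ (a : E) (b : G) (d : Fin h → F), Pr (a, b, d) = (a, 0, 0) := fun a b d => rfl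
  have hGne : Nontrivial G := by
    apply Module.nontrivial_of_finrank_pos (R := F)
    rw [hGfin]
    exact he'
  -- transfer
  have hWfin : Module.finrank F W = Module.finrank F (Fin n → F) := by
    show Module.finrank F (E × G × (Fin h → F)) = _
    rw [Module.finrank_prod, Module.finrank_prod, hEfin, hGfin, Module.finrank_fin_fun,
      Module.finrank_fin_fun]
    omega
  let e₀ : W ≃ₗ[F] (Fin n → F) := LinearEquiv.ofFinrankEq _ _ hWfin
  let Φ : Module.End F W ≃ₐ[F] Matrix (Fin n) (Fin n) F :=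
    (e₀.conjAlgEquiv F).trans LinearMap.toMatrixAlgEquiv'
  have hΦdet : ∀ A : Module.End F W, (Φ A).det = LinearMap.det A := by
    intro A
    show (LinearMap.toMatrix' (e₀.conjAlgEquiv F A)).det = _
    rw [LinearMap.det_toMatrix', LinearEquiv.conjAlgEquiv_apply, LinearMap.det_conj]
  let z : Matrix.SpecialLinearGroup (Fin n) F := ⟨Φ Z, by rw [hΦdet, hdetZ]⟩
  have hzval : z.1 = Φ Z := rfl
  have hPrZ : Pr * Z = Z * Pr := by
    apply LinearMap.ext
    rintro ⟨a, b, d⟩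
    show Pr (Z (a, b, d)) = Z (Pr (a, b, d))
    have : Z (a, b, d) = (w * a, ρ * b, d) := rfl
    rw [this, hPr, hPr]
    have : Z (a, 0, 0) = (w * a, ρ * 0, 0) := rfl
    rw [this, mul_zero]
  refine ⟨z, Φ Pr, ?_, ?_, ?_, ?_, ?_⟩
  · rw [← map_mul]
    congr 1
  · intro h0
    have h1 : Pr = 0 := Φ.injective (by rw [h0, map_zero])
    have h2 := congrArg (fun A : Module.End F W => (A ((1 : E), (0 : G), (0 : Fin h → F))).1) h1
    exact one_ne_zero h2
  · intro h0
    have h1 : Pr = 1 := Φ.injective (by rw [h0, map_one])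
    have h2 := congrArg (fun A : Module.End F W => (A ((0 : E), (1 : G), (0 : Fin h → F))).2.1) h1
    exact zero_ne_one h2
  · rw [hzval, ← map_mul, ← map_mul, hPrZ]
  · intro t ht
    have hΦpow : z.1 ^ t = Φ (Z ^ t) := by rw [hzval, map_pow]
    have hΦs : ∀ c : F, c • (1 : Matrix (Fin n) (Fin n) F) = Φ (c • 1) := by
      intro c
      rw [map_smul, map_one]
    have hrhs : ∀ c : F, z.1 ^ t = c • (1 : Matrix (Fin n) (Fin n) F) ↔ Z ^ t = c • 1 := by
      intro c
      rw [hΦpow, hΦs]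
      exact Φ.injective.eq_iff
    constructor
    · rintro ⟨c, hc⟩
      have h1 := (hrhs c).1 hc
      have h2 : ρ ^ t = algebraMap F G c := by
        have h3 := congrArg (fun A : Module.End F W => (A ((0 : E), (1 : G), (0 : Fin h → F))).2.1) h1
        simp only [hZpow_apply, mul_one] at h3
        rw [h3]
        show c • (1 : G) = _
        rw [Algebra.smul_def, mul_one]
      have h4 := (dvd_X_sub_one_iff p e' t he' ht c).1 ((hρmk t c).1 h2)
      have h5 : w ^ t = 1 := by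
        have h3 := congrArg (fun A : Module.End F W => (A ((1 : E), (0 : G), (0 : Fin h → F))).1) h1
        simp only [hZpow_apply, mul_one] at h3
        rw [h3, h4.1]
        show (1 : F) • (1 : E) = 1
        rw [one_smul]
      obtain ⟨c', hc'⟩ := (pow_sub_one_pow_eq_one_iff (F := F) y hy0 t).1 h5
      exact ⟨⟨c', (hymk t c').1 hc'⟩, h4.2⟩
    · rintro ⟨⟨c, hc⟩, hle⟩
      refine ⟨1, (hrhs 1).2 ?_⟩
      have h5 : w ^ t = 1 := (pow_sub_one_pow_eq_one_iff (F := F) y hy0 t).2 ⟨c, (hymk t c).2 hc⟩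
      have h6 : ρ ^ t = 1 := by
        have h7 := (hρmk t 1).2 ((dvd_X_sub_one_iff p e' t he' ht 1).2 ⟨rfl, hle⟩)
        rw [h7, map_one]
      rw [hZpow, h5, h6, one_smul, map_one, map_one, LinearMap.prodMap_one, LinearMap.prodMap_one]

end Construct

section Classify

open Module

variable {F : Type*} [Field F] [Fintype F] {n : ℕ}

lemma nat_eq_of_dvd_iff {a b : ℕ} (h : ∀ t, a ∣ t ↔ b ∣ t) : a = b :=
  Nat.dvd_antisymm ((h b).2 dvd_rfl) ((h a).1 dvd_rfl)

lemma order_eq_of_nonzero {G H : Type*} [Monoid G] [Monoid H] (x : G) (y : H)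
    (h : ∀ t : ℕ, t ≠ 0 → (orderOf x ∣ t ↔ orderOf y ∣ t)) : orderOf x = orderOf y := by
  apply nat_eq_of_dvd_iff
  intro t
  by_cases ht : t = 0
  · subst ht
    simp
  · exact h t ht

lemma pow_eq_smul_iff (T : Matrix (Fin n) (Fin n) F) (t : ℕ) (c : F) :
    T ^ t = c • (1 : Matrix (Fin n) (Fin n) F) ↔ aeval T (X ^ t - C c : F[X]) = 0 := by
  rw [map_sub, map_pow, aeval_X, aeval_C, sub_eq_zero, Algebra.algebraMap_eq_smul_one]

lemma not_dvd_X_of_aeval [NeZero n] (T : Matrix.SpecialLinearGroup (Fin n) F) (f : F[X]) (e : ℕ)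
    (h : ∀ q : F[X], aeval T.1 q = 0 ↔ f ^ e ∣ q) : ¬ f ∣ X := by
  intro hX
  have h1 : f ^ e ∣ X ^ e := pow_dvd_pow_of_dvd hX e
  have h2 := (h _).2 h1
  rw [map_pow, aeval_X] at h2
  have h3 : (T.1 ^ e).det = 0 := by
    rw [h2]
    haveI : Nonempty (Fin n) := ⟨⟨0, Nat.pos_of_ne_zero (NeZero.ne n)⟩⟩
    exact Matrix.det_zero
  rw [Matrix.det_pow, T.2, one_pow] at h3
  exact one_ne_zero h3

lemma order_predicate (p : ℕ) [Fact p.Prime] [CharP F p] [NeZero n]
    (T : Matrix.SpecialLinearGroup (Fin n) F) (f : F[X]) (e : ℕ) (hf : Irreducible f) (he : 1 ≤ e)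
    (h : ∀ q : F[X], aeval T.1 q = 0 ↔ f ^ e ∣ q) (t : ℕ) (ht : t ≠ 0) :
    (∃ c : F, T.1 ^ t = c • (1 : Matrix (Fin n) (Fin n) F)) ↔
      (∃ c : F, f ∣ X ^ t - C c) ∧ e ≤ p ^ (t.factorization p) := by
  rw [← dvd_iff_aux p f hf (not_dvd_X_of_aeval T f e h) e t he ht]
  simp only [pow_eq_smul_iff, h]

theorem classify (p : ℕ) [hpf : Fact p.Prime] [CharP F p] [NeZero n] (hn : 2 ≤ n) (r : ℕ) (hr : r.Prime)
    (hrq : r ∣ Fintype.card F - 1) (hrn : ¬ r ∣ n) (x : Matrix.SpecialLinearGroup (Fin n) F)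
    (hrx : ¬ r ∣ orderOf (piL x)) :
    (∃ z : Matrix.SpecialLinearGroup (Fin n) F, orderOf (piL z) = r * orderOf (piL x)) ∨
    (∃ f : F[X], f.Monic ∧ Irreducible f ∧ f.natDegree = n ∧ ∀ q : F[X], aeval x.1 q = 0 ↔ f ∣ q) ∨
    ((∃ j, n - 1 = p ^ j) ∧ ∀ t : ℕ, t ≠ 0 → (orderOf (piL x) ∣ t ↔ n ≤ p ^ (t.factorization p))) := by
  rcases structure_thm x.1 with ⟨P, hP, hP0, hP1, hc⟩ | ⟨f, e, hfm, hfi, he, hdeg, h⟩
  · left
    exact exists_order_mul r hr hrq hrn x hrx P hP hP0 hP1 hc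
  have hfX := not_dvd_X_of_aeval x f e h
  have hpred := order_predicate p x f e hfi he h
  have hδ : 0 < f.natDegree := hfi.natDegree_pos
  by_cases he1 : e = 1
  · right
    left
    subst he1
    exact ⟨f, hfm, hfi, by simpa using hdeg, by simpa using h⟩
  by_cases hδ1 : f.natDegree = 1
  · have hen : e = n := by
      rw [hδ1, one_mul] at hdeg
      exact hdeg
    by_cases hj : ∃ j, n - 1 = p ^ j
    · right
      right
      refine ⟨hj, ?_⟩
      intro t ht
      rw [orderOf_piL_dvd_iff, hpred t ht, hen]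
      have hf_eq : f = X + C (f.coeff 0) := hfm.eq_X_add_C hδ1
      constructor
      · exact fun h => h.2
      · intro hle
        refine ⟨⟨(-(f.coeff 0)) ^ t, ?_⟩, hle⟩
        have h5 : f = X - C (-(f.coeff 0)) := by
          rw [C_neg, sub_neg_eq_add]
          exact hf_eq
        rw [h5, dvd_iff_isRoot, ← h5]
        simp [IsRoot.def]
    · left
      obtain ⟨z, P, hP, hP0, hP1, hc, hz⟩ := exists_replacement (n := n) p f hfm hfi hfX (n - 1) (by omega) (by rw [hδ1]; omega)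
      have hord : orderOf (piL z) = orderOf (piL x) := by
        apply order_eq_of_nonzero
        intro t ht
        rw [orderOf_piL_dvd_iff, orderOf_piL_dvd_iff, hz t ht, hpred t ht, hen]
        have h1 : n - 1 ≠ p ^ (t.factorization p) := fun h => hj ⟨_, h⟩
        have h2 : n - 1 ≤ p ^ (t.factorization p) ↔ n ≤ p ^ (t.factorization p) := by
          generalize p ^ (t.factorization p) = u at h1
          omega
        rw [h2]
      obtain ⟨z', hz'⟩ := exists_order_mul r hr hrq hrn z (by rwa [hord]) P hP hP0 hP1 hc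
      exact ⟨z', by rw [hz', hord]⟩
  · left
    have h2 : f.natDegree + e ≤ n := by
      have h3 : 2 ≤ f.natDegree := by omega
      have h4 : 2 ≤ e := by omega
      rw [← hdeg]
      nlinarith
    obtain ⟨z, P, hP, hP0, hP1, hc, hz⟩ := exists_replacement p f hfm hfi hfX e he h2
    have hord : orderOf (piL z) = orderOf (piL x) := by
      apply order_eq_of_nonzero
      intro t ht
      rw [orderOf_piL_dvd_iff, orderOf_piL_dvd_iff, hz t ht, hpred t ht]
    obtain ⟨z', hz'⟩ := exists_order_mul r hr hrq hrn z (by rwa [hord]) P hP hP0 hP1 hc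
    exact ⟨z', by rw [hz', hord]⟩

/-- Two elements with irreducible characteristic polynomial: there is an element of order the lcm. -/
theorem merge_irreducible (p : ℕ) [hpf : Fact p.Prime] [CharP F p] [NeZero n]
    (T₁ T₂ : Matrix.SpecialLinearGroup (Fin n) F) (f₁ f₂ : F[X])
    (hm₁ : f₁.Monic) (hi₁ : Irreducible f₁) (hd₁ : f₁.natDegree = n)
    (h₁ : ∀ q : F[X], aeval T₁.1 q = 0 ↔ f₁ ∣ q)
    (hm₂ : f₂.Monic) (hi₂ : Irreducible f₂) (hd₂ : f₂.natDegree = n)
    (h₂ : ∀ q : F[X], aeval T₂.1 q = 0 ↔ f₂ ∣ q) :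
    ∃ w : Matrix.ProjectiveSpecialLinearGroup (Fin n) F,
      orderOf w = (orderOf (piL T₁)).lcm (orderOf (piL T₂)) := by
  classical
  haveI : Fact (Irreducible f₁) := ⟨hi₁⟩
  haveI : Fact (Irreducible f₂) := ⟨hi₂⟩
  have hfin₁ : Module.finrank F (AdjoinRoot f₁) = n := by
    rw [(AdjoinRoot.powerBasis hi₁.ne_zero).finrank, AdjoinRoot.powerBasis_dim, hd₁]
  have hfin₂ : Module.finrank F (AdjoinRoot f₂) = n := by
    rw [(AdjoinRoot.powerBasis hi₂.ne_zero).finrank, AdjoinRoot.powerBasis_dim, hd₂]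
  let e₁ := FiniteField.algEquivExtension F p n (AdjoinRoot f₁) hfin₁
  let e₂ := FiniteField.algEquivExtension F p n (AdjoinRoot f₂) hfin₂
  let e : AdjoinRoot f₂ ≃ₐ[F] AdjoinRoot f₁ := e₂.trans e₁.symm
  let φ : AdjoinRoot f₁ →ₐ[F] Matrix (Fin n) (Fin n) F :=
    Ideal.Quotient.liftₐ (Ideal.span {f₁}) (aeval T₁.1) (by
      intro a ha
      obtain ⟨b, rfl⟩ := Ideal.mem_span_singleton'.1 ha
      exact (h₁ _).2 (dvd_mul_left _ _))
  have hφroot : φ (AdjoinRoot.root f₁) = T₁.1 := by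
    show aeval T₁.1 X = T₁.1
    rw [aeval_X]
  let ρ : Matrix (Fin n) (Fin n) F := φ (e (AdjoinRoot.root f₂))
  have hρ0 : aeval ρ f₂ = 0 := by
    have h3 : aeval (AdjoinRoot.root f₂) f₂ = 0 := by
      rw [aeval_def]
      simpa [AdjoinRoot.algebraMap_eq] using AdjoinRoot.eval₂_root f₂
    have h4 : aeval ρ f₂ = φ (e (aeval (AdjoinRoot.root f₂) f₂)) := by
      show _ = (φ.comp e.toAlgHom) _
      rw [← aeval_algHom_apply]
      rfl
    rw [h4, h3, map_zero, map_zero]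
  have hρint : IsIntegral F ρ := Algebra.IsIntegral.isIntegral ρ
  have hminρ : minpoly F ρ = f₂ := (minpoly.eq_of_irreducible_of_monic hi₂ hρ0 hm₂).symm
  have hminT : minpoly F T₂.1 = f₂ := by
    exact (minpoly.eq_of_irreducible_of_monic hi₂ ((h₂ f₂).2 dvd_rfl) hm₂).symm
  have hchar : ∀ A : Matrix (Fin n) (Fin n) F, minpoly F A = f₂ → A.charpoly = f₂ := by
    intro A hA
    have h3 : f₂ ∣ A.charpoly := by
      rw [← hA]
      exact Matrix.minpoly_dvd_charpoly A
    have h5 : A.charpoly.natDegree = n := by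
      have := Matrix.charpoly_natDegree_eq_dim A
      simpa using this
    exact eq_of_monic_of_dvd_of_natDegree_le hm₂ (Matrix.charpoly_monic A) h3 (by omega)
  have hdet : ρ.det = T₂.1.det := by
    rw [Matrix.det_eq_sign_charpoly_coeff, Matrix.det_eq_sign_charpoly_coeff, hchar ρ hminρ,
      hchar T₂.1 hminT]
  let R : Matrix.SpecialLinearGroup (Fin n) F := ⟨ρ, by rw [hdet]; exact T₂.2⟩
  have hR : R.1 = ρ := rfl
  have hcomm : Commute T₁ R := by
    apply Subtype.ext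
    show T₁.1 * ρ = ρ * T₁.1
    rw [← hφroot]
    show φ _ * φ _ = φ _ * φ _
    rw [← map_mul, ← map_mul, mul_comm]
  have hordR : orderOf (piL R) = orderOf (piL T₂) := by
    apply nat_eq_of_dvd_iff
    intro t
    rw [orderOf_piL_dvd_iff, orderOf_piL_dvd_iff]
    simp only [pow_eq_smul_iff]
    have h6 : ∀ c : F, aeval R.1 (X ^ t - C c : F[X]) = 0 ↔ f₂ ∣ X ^ t - C c := by
      intro c
      rw [← hminρ]
      exact minpoly.dvd_iff.symm
    simp only [h6, h₂]
  have hcomm' : Commute (piL T₁) (piL R) := hcomm.map piL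
  obtain ⟨w, hw⟩ := hcomm'.exists_orderOf_eq_lcm
  exact ⟨w, by rw [hw.2, hordR]⟩

end Classify

section Final

lemma mul_dvd_iff_of_not_dvd {r a t : ℕ} (hr : r.Prime) (h : ¬ r ∣ a) : r * a ∣ t ↔ r ∣ t ∧ a ∣ t := by
  constructor
  · intro h1
    exact ⟨(dvd_mul_right r a).trans h1, (dvd_mul_left a r).trans h1⟩
  · rintro ⟨h1, h2⟩
    exact Nat.Coprime.mul_dvd_of_dvd_of_dvd (hr.coprime_iff_not_dvd.2 h) h1 h2

theorem final_three {G : Type*} [Group G] (r : ℕ) (hr : r.Prime) (w : G) (hw : orderOf w = r)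
    (B C : G → Prop)
    (hclass : ∀ x : G, ¬ r ∣ orderOf x → (∃ z : G, orderOf z = r * orderOf x) ∨ B x ∨ C x)
    (hB : ∀ x y, B x → B y → ∃ w : G, orderOf w = (orderOf x).lcm (orderOf y))
    (hC : ∀ x y, C x → C y → orderOf x = orderOf y)
    (x₁ x₂ x₃ : G) :
    ∃ y₁ y₂ y₃ : G, ∀ t : ℕ, (orderOf y₁ ∣ t ∧ orderOf y₂ ∣ t ∧ orderOf y₃ ∣ t) ↔
      (orderOf x₁ ∣ t ∧ orderOf x₂ ∣ t ∧ orderOf x₃ ∣ t ∧ r ∣ t) := by
  by_cases h₁ : r ∣ orderOf x₁
  · refine ⟨x₁, x₂, x₃, fun t => ⟨fun h => ⟨h.1, h.2.1, h.2.2, h₁.trans h.1⟩, fun h => ⟨h.1, h.2.1, h.2.2.1⟩⟩⟩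
  by_cases h₂ : r ∣ orderOf x₂
  · refine ⟨x₁, x₂, x₃, fun t => ⟨fun h => ⟨h.1, h.2.1, h.2.2, h₂.trans h.2.1⟩, fun h => ⟨h.1, h.2.1, h.2.2.1⟩⟩⟩
  by_cases h₃ : r ∣ orderOf x₃
  · refine ⟨x₁, x₂, x₃, fun t => ⟨fun h => ⟨h.1, h.2.1, h.2.2, h₃.trans h.2.2⟩, fun h => ⟨h.1, h.2.1, h.2.2.1⟩⟩⟩
  have hBB₁₂ : B x₁ → B x₂ → ∃ y₁ y₂ y₃ : G, ∀ t : ℕ, (orderOf y₁ ∣ t ∧ orderOf y₂ ∣ t ∧ orderOf y₃ ∣ t) ↔
      (orderOf x₁ ∣ t ∧ orderOf x₂ ∣ t ∧ orderOf x₃ ∣ t ∧ r ∣ t) := by
    intro ha hb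
    obtain ⟨u, hu⟩ := hB _ _ ha hb
    refine ⟨u, w, x₃, fun t => ?_⟩
    simp only [hu, hw, Nat.lcm_dvd_iff]
    exact ⟨fun ⟨⟨a, b⟩, d, c⟩ => ⟨a, b, c, d⟩, fun ⟨a, b, c, d⟩ => ⟨⟨a, b⟩, d, c⟩⟩
  have hBB₁₃ : B x₁ → B x₃ → ∃ y₁ y₂ y₃ : G, ∀ t : ℕ, (orderOf y₁ ∣ t ∧ orderOf y₂ ∣ t ∧ orderOf y₃ ∣ t) ↔
      (orderOf x₁ ∣ t ∧ orderOf x₂ ∣ t ∧ orderOf x₃ ∣ t ∧ r ∣ t) := by
    intro ha hb
    obtain ⟨u, hu⟩ := hB _ _ ha hb
    refine ⟨u, w, x₂, fun t => ?_⟩
    simp only [hu, hw, Nat.lcm_dvd_iff]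
    exact ⟨fun ⟨⟨a, c⟩, d, b⟩ => ⟨a, b, c, d⟩, fun ⟨a, b, c, d⟩ => ⟨⟨a, c⟩, d, b⟩⟩
  have hBB₂₃ : B x₂ → B x₃ → ∃ y₁ y₂ y₃ : G, ∀ t : ℕ, (orderOf y₁ ∣ t ∧ orderOf y₂ ∣ t ∧ orderOf y₃ ∣ t) ↔
      (orderOf x₁ ∣ t ∧ orderOf x₂ ∣ t ∧ orderOf x₃ ∣ t ∧ r ∣ t) := by
    intro ha hb
    obtain ⟨u, hu⟩ := hB _ _ ha hb
    refine ⟨u, w, x₁, fun t => ?_⟩
    simp only [hu, hw, Nat.lcm_dvd_iff]
    exact ⟨fun ⟨⟨b, c⟩, d, a⟩ => ⟨a, b, c, d⟩, fun ⟨a, b, c, d⟩ => ⟨⟨b, c⟩, d, a⟩⟩
  have hCC₁₂ : C x₁ → C x₂ → ∃ y₁ y₂ y₃ : G, ∀ t : ℕ, (orderOf y₁ ∣ t ∧ orderOf y₂ ∣ t ∧ orderOf y₃ ∣ t) ↔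
      (orderOf x₁ ∣ t ∧ orderOf x₂ ∣ t ∧ orderOf x₃ ∣ t ∧ r ∣ t) := by
    intro ha hb
    have hu := hC _ _ ha hb
    refine ⟨x₁, w, x₃, fun t => ?_⟩
    simp only [← hu, hw]
    exact ⟨fun ⟨a, d, c⟩ => ⟨a, a, c, d⟩, fun ⟨a, _, c, d⟩ => ⟨a, d, c⟩⟩
  have hCC₁₃ : C x₁ → C x₃ → ∃ y₁ y₂ y₃ : G, ∀ t : ℕ, (orderOf y₁ ∣ t ∧ orderOf y₂ ∣ t ∧ orderOf y₃ ∣ t) ↔
      (orderOf x₁ ∣ t ∧ orderOf x₂ ∣ t ∧ orderOf x₃ ∣ t ∧ r ∣ t) := by
    intro ha hb
    have hu := hC _ _ ha hb
    refine ⟨x₁, w, x₂, fun t => ?_⟩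
    simp only [← hu, hw]
    exact ⟨fun ⟨a, d, b⟩ => ⟨a, b, a, d⟩, fun ⟨a, b, _, d⟩ => ⟨a, d, b⟩⟩
  have hCC₂₃ : C x₂ → C x₃ → ∃ y₁ y₂ y₃ : G, ∀ t : ℕ, (orderOf y₁ ∣ t ∧ orderOf y₂ ∣ t ∧ orderOf y₃ ∣ t) ↔
      (orderOf x₁ ∣ t ∧ orderOf x₂ ∣ t ∧ orderOf x₃ ∣ t ∧ r ∣ t) := by
    intro ha hb
    have hu := hC _ _ ha hb
    refine ⟨x₁, w, x₂, fun t => ?_⟩
    simp only [← hu, hw]
    exact ⟨fun ⟨a, d, b⟩ => ⟨a, b, b, d⟩, fun ⟨a, b, _, d⟩ => ⟨a, d, b⟩⟩
  rcases hclass x₁ h₁ with ⟨z, hz⟩ | hb₁ | hc₁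
  · refine ⟨z, x₂, x₃, fun t => ?_⟩
    simp only [hz, mul_dvd_iff_of_not_dvd hr h₁]
    exact ⟨fun ⟨⟨d, a⟩, b, c⟩ => ⟨a, b, c, d⟩, fun ⟨a, b, c, d⟩ => ⟨⟨d, a⟩, b, c⟩⟩
  · rcases hclass x₂ h₂ with ⟨z, hz⟩ | hb₂ | hc₂
    · refine ⟨x₁, z, x₃, fun t => ?_⟩
      simp only [hz, mul_dvd_iff_of_not_dvd hr h₂]
      exact ⟨fun ⟨a, ⟨d, b⟩, c⟩ => ⟨a, b, c, d⟩, fun ⟨a, b, c, d⟩ => ⟨a, ⟨d, b⟩, c⟩⟩
    · exact hBB₁₂ hb₁ hb₂
    · rcases hclass x₃ h₃ with ⟨z, hz⟩ | hb₃ | hc₃
      · refine ⟨x₁, x₂, z, fun t => ?_⟩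
        simp only [hz, mul_dvd_iff_of_not_dvd hr h₃]
        exact ⟨fun ⟨a, b, d, c⟩ => ⟨a, b, c, d⟩, fun ⟨a, b, c, d⟩ => ⟨a, b, d, c⟩⟩
      · exact hBB₁₃ hb₁ hb₃
      · exact hCC₂₃ hc₂ hc₃
  · rcases hclass x₂ h₂ with ⟨z, hz⟩ | hb₂ | hc₂
    · refine ⟨x₁, z, x₃, fun t => ?_⟩
      simp only [hz, mul_dvd_iff_of_not_dvd hr h₂]
      exact ⟨fun ⟨a, ⟨d, b⟩, c⟩ => ⟨a, b, c, d⟩, fun ⟨a, b, c, d⟩ => ⟨a, ⟨d, b⟩, c⟩⟩
    · rcases hclass x₃ h₃ with ⟨z, hz⟩ | hb₃ | hc₃
      · refine ⟨x₁, x₂, z, fun t => ?_⟩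
        simp only [hz, mul_dvd_iff_of_not_dvd hr h₃]
        exact ⟨fun ⟨a, b, d, c⟩ => ⟨a, b, c, d⟩, fun ⟨a, b, c, d⟩ => ⟨a, b, d, c⟩⟩
      · exact hBB₂₃ hb₂ hb₃
      · exact hCC₁₃ hc₁ hc₃
    · exact hCC₁₂ hc₁ hc₂

theorem final_two {G : Type*} [Group G] (r : ℕ) (hr : r.Prime) (w : G) (hw : orderOf w = r)
    (B : G → Prop)
    (hclass : ∀ x : G, ¬ r ∣ orderOf x → (∃ z : G, orderOf z = r * orderOf x) ∨ B x)
    (hB : ∀ x y, B x → B y → ∃ w : G, orderOf w = (orderOf x).lcm (orderOf y))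
    (x₁ x₂ : G) :
    ∃ y₁ y₂ : G, ∀ t : ℕ, (orderOf y₁ ∣ t ∧ orderOf y₂ ∣ t) ↔
      (orderOf x₁ ∣ t ∧ orderOf x₂ ∣ t ∧ r ∣ t) := by
  by_cases h₁ : r ∣ orderOf x₁
  · refine ⟨x₁, x₂, fun t => ⟨fun h => ⟨h.1, h.2, h₁.trans h.1⟩, fun h => ⟨h.1, h.2.1⟩⟩⟩
  by_cases h₂ : r ∣ orderOf x₂
  · refine ⟨x₁, x₂, fun t => ⟨fun h => ⟨h.1, h.2, h₂.trans h.2⟩, fun h => ⟨h.1, h.2.1⟩⟩⟩
  rcases hclass x₁ h₁ with ⟨z, hz⟩ | hb₁
  · refine ⟨z, x₂, fun t => ?_⟩
    simp only [hz, mul_dvd_iff_of_not_dvd hr h₁]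
    exact ⟨fun ⟨⟨d, a⟩, b⟩ => ⟨a, b, d⟩, fun ⟨a, b, d⟩ => ⟨⟨d, a⟩, b⟩⟩
  · rcases hclass x₂ h₂ with ⟨z, hz⟩ | hb₂
    · refine ⟨x₁, z, fun t => ?_⟩
      simp only [hz, mul_dvd_iff_of_not_dvd hr h₂]
      exact ⟨fun ⟨a, d, b⟩ => ⟨a, b, d⟩, fun ⟨a, b, d⟩ => ⟨a, d, b⟩⟩
    · obtain ⟨u, hu⟩ := hB _ _ hb₁ hb₂
      refine ⟨u, w, fun t => ?_⟩
      simp only [hu, hw, Nat.lcm_dvd_iff]
      exact ⟨fun ⟨⟨a, b⟩, d⟩ => ⟨a, b, d⟩, fun ⟨a, b, d⟩ => ⟨⟨a, b⟩, d⟩⟩

lemma orderOf_vec (r m : ℕ) (hr : r.Prime) (v : Multiplicative (Fin m → ZMod r)) :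
    orderOf v = 1 ∨ orderOf v = r := by
  have hv : v ^ r = 1 := by
    show Multiplicative.ofAdd (r • Multiplicative.toAdd v) = 1
    have : r • Multiplicative.toAdd v = 0 := by
      funext i
      simp
    rw [this]
    rfl
  exact (Nat.dvd_prime hr).1 (orderOf_dvd_of_pow_eq_one hv)

lemma charP_of_card {F : Type*} [Field F] [Fintype F] (p a : ℕ) (hp : p.Prime)
    (hF : Fintype.card F = p ^ a) : CharP F p := by
  obtain ⟨c, hc⟩ := CharP.exists F
  haveI := hc
  obtain ⟨k, hcp, hk⟩ := FiniteField.card F c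
  have h1 : c ∣ p ^ a := by
    rw [← hF, hk]
    exact dvd_pow_self _ k.ne_zero
  have h2 := (Nat.prime_dvd_prime_iff_eq hcp hp).1 (hcp.dvd_of_dvd_pow h1)
  subst h2
  exact hc

end Final

/-- Let F be a finite field with q = p^a elements, n ≥ 2 (with q ≥ 4 when n = 2), L = PSL(n, F), and let r be a prime dividing q − 1 and not dividing n. Then for every m the direct product L × L × L × (ℤ/r)^m has the same set of element orders as L × L × L; and if n − 1 ≠ p^j for every j ≥ 0 (so never when n = 2, since 1 = p^0), then already L × L × (ℤ/r)^m has the same set of element orders as L × L. -/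
theorem result {F : Type*} [Field F] [Fintype F] (p a n r m : ℕ) (hp : p.Prime) (ha : 1 ≤ a) (hF : Fintype.card F = p ^ a)
    (hn : 2 ≤ n) (hn2 : n = 2 → 4 ≤ Fintype.card F) (hr : r.Prime) (hrq : r ∣ Fintype.card F - 1) (hrn : ¬ r ∣ n) :
    Set.range (orderOf : Matrix.ProjectiveSpecialLinearGroup (Fin n) F × Matrix.ProjectiveSpecialLinearGroup (Fin n) F × Matrix.ProjectiveSpecialLinearGroup (Fin n) F × Multiplicative (Fin m → ZMod r) → ℕ) =
      Set.range (orderOf : Matrix.ProjectiveSpecialLinearGroup (Fin n) F × Matrix.ProjectiveSpecialLinearGroup (Fin n) F × Matrix.ProjectiveSpecialLinearGroup (Fin n) F → ℕ) ∧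
    ((¬ ∃ j : ℕ, n - 1 = p ^ j) →
      Set.range (orderOf : Matrix.ProjectiveSpecialLinearGroup (Fin n) F × Matrix.ProjectiveSpecialLinearGroup (Fin n) F × Multiplicative (Fin m → ZMod r) → ℕ) =
        Set.range (orderOf : Matrix.ProjectiveSpecialLinearGroup (Fin n) F × Matrix.ProjectiveSpecialLinearGroup (Fin n) F → ℕ)) := by
  haveI : Fact p.Prime := ⟨hp⟩
  haveI : CharP F p := charP_of_card p a hp hF
  haveI : NeZero n := ⟨by omega⟩
  obtain ⟨w', hw'⟩ := exists_order_r (F := F) hn r hr hrq hrn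
  let B : Matrix.ProjectiveSpecialLinearGroup (Fin n) F → Prop := fun x =>
    ∃ (T : Matrix.SpecialLinearGroup (Fin n) F) (f : F[X]), piL T = x ∧ f.Monic ∧ Irreducible f ∧
      f.natDegree = n ∧ ∀ q : F[X], aeval T.1 q = 0 ↔ f ∣ q
  let D : Matrix.ProjectiveSpecialLinearGroup (Fin n) F → Prop := fun x =>
    (∃ j, n - 1 = p ^ j) ∧ ∀ t : ℕ, t ≠ 0 → (orderOf x ∣ t ↔ n ≤ p ^ (t.factorization p))
  have hclass : ∀ x : Matrix.ProjectiveSpecialLinearGroup (Fin n) F, ¬ r ∣ orderOf x →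
      (∃ z : Matrix.ProjectiveSpecialLinearGroup (Fin n) F, orderOf z = r * orderOf x) ∨ B x ∨ D x := by
    intro x hx
    obtain ⟨T, rfl⟩ := piL_surjective x
    rcases classify p hn r hr hrq hrn T hx with ⟨z, hz⟩ | ⟨f, h1, h2, h3, h4⟩ | h
    · exact Or.inl ⟨piL z, hz⟩
    · exact Or.inr (Or.inl ⟨T, f, rfl, h1, h2, h3, h4⟩)
    · exact Or.inr (Or.inr h)
  have hB : ∀ x y, B x → B y → ∃ w : Matrix.ProjectiveSpecialLinearGroup (Fin n) F,
      orderOf w = (orderOf x).lcm (orderOf y) := by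
    rintro x y ⟨T₁, f₁, rfl, h1, h2, h3, h4⟩ ⟨T₂, f₂, rfl, h5, h6, h7, h8⟩
    exact merge_irreducible p T₁ T₂ f₁ f₂ h1 h2 h3 h4 h5 h6 h7 h8
  have hD : ∀ x y, D x → D y → orderOf x = orderOf y := by
    rintro x y ⟨-, h1⟩ ⟨-, h2⟩
    apply order_eq_of_nonzero
    intro t ht
    rw [h1 t ht, h2 t ht]
  constructor
  · apply Set.Subset.antisymm
    · rintro _ ⟨⟨x₁, x₂, x₃, v⟩, rfl⟩
      rcases orderOf_vec r m hr v with hv | hv
      · refine ⟨(x₁, x₂, x₃), ?_⟩
        apply nat_eq_of_dvd_iff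
        intro t
        simp only [Prod.orderOf, Nat.lcm_dvd_iff, hv, one_dvd, and_true]
      · obtain ⟨y₁, y₂, y₃, hy⟩ := final_three r hr (piL w') hw' B D hclass hB hD x₁ x₂ x₃
        refine ⟨(y₁, y₂, y₃), ?_⟩
        apply nat_eq_of_dvd_iff
        intro t
        simp only [Prod.orderOf, Nat.lcm_dvd_iff, hv]
        exact hy t
    · rintro _ ⟨⟨x₁, x₂, x₃⟩, rfl⟩
      refine ⟨(x₁, x₂, x₃, 1), ?_⟩
      apply nat_eq_of_dvd_iff
      intro t
      simp only [Prod.orderOf, Nat.lcm_dvd_iff, orderOf_one, one_dvd, and_true]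
  · intro hj
    have hclass' : ∀ x : Matrix.ProjectiveSpecialLinearGroup (Fin n) F, ¬ r ∣ orderOf x →
        (∃ z : Matrix.ProjectiveSpecialLinearGroup (Fin n) F, orderOf z = r * orderOf x) ∨ B x := by
      intro x hx
      rcases hclass x hx with h | h | h
      · exact Or.inl h
      · exact Or.inr h
      · exact absurd h.1 hj
    apply Set.Subset.antisymm
    · rintro _ ⟨⟨x₁, x₂, v⟩, rfl⟩
      rcases orderOf_vec r m hr v with hv | hv
      · refine ⟨(x₁, x₂), ?_⟩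
        apply nat_eq_of_dvd_iff
        intro t
        simp only [Prod.orderOf, Nat.lcm_dvd_iff, hv, one_dvd, and_true]
      · obtain ⟨y₁, y₂, hy⟩ := final_two r hr (piL w') hw' B hclass' hB x₁ x₂
        refine ⟨(y₁, y₂), ?_⟩
        apply nat_eq_of_dvd_iff
        intro t
        simp only [Prod.orderOf, Nat.lcm_dvd_iff, hv]
        exact hy t
    · rintro _ ⟨⟨x₁, x₂⟩, rfl⟩
      refine ⟨(x₁, x₂, 1), ?_⟩
      apply nat_eq_of_dvd_iff
      intro t
      simp only [Prod.orderOf, Nat.lcm_dvd_iff, orderOf_one, one_dvd, and_true]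

end Cfsg.Agent.S2510
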