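import Cfsg.Statements.S4309
import Mathlib
-- import your own Cfsg.Agent.* helpers here

set_option autoImplicit false
open Cfsg

namespace Cfsg.Agent.S4309

theorem aux_card {G : Type*} [Group G] {H K : Subgroup G} (h : H ≤ K) :
    Nat.card H * H.relIndex K = Nat.card K := by
  rw [Subgroup.relIndex, ← Nat.card_congr (Subgroup.subgroupOfEquivOfLe h).toEquiv,
    Subgroup.card_mul_index]

theorem aux_relIndex {G : Type*} [Group G] [Finite G] (H A : Subgroup G) [A.Normal] :
    H.relIndex A = H.relIndex (H ⊔ A) := by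
  have h1 := aux_card (le_sup_right : A ≤ H ⊔ A)
  have h2 := aux_card (inf_le_left : H ⊓ A ≤ H)
  have h3 := aux_card (inf_le_right : H ⊓ A ≤ A)
  have h4 := aux_card (le_sup_left : H ≤ H ⊔ A)
  rw [Subgroup.relIndex_sup_right] at h1
  have h5 : (H ⊓ A).relIndex H = A.relIndex H := by
    rw [inf_comm, Subgroup.inf_relIndex_right]
  rw [h5] at h2
  rw [Subgroup.inf_relIndex_right] at h3
  have hi : 0 < Nat.card ↥(H ⊓ A) := Nat.card_pos
  have hH' : 0 < Nat.card H := Nat.card_pos
  have hr : 0 < A.relIndex H := by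
    by_contra hh
    have h0 : A.relIndex H = 0 := by omega
    rw [h0, mul_zero] at h2
    omega
  have h6 : (Nat.card ↥(H ⊓ A) * A.relIndex H) * H.relIndex A =
      (Nat.card ↥(H ⊓ A) * A.relIndex H) * H.relIndex (H ⊔ A) := by
    calc (Nat.card ↥(H ⊓ A) * A.relIndex H) * H.relIndex A
        = (Nat.card ↥(H ⊓ A) * H.relIndex A) * A.relIndex H := by ring
      _ = Nat.card A * A.relIndex H := by rw [h3]
      _ = Nat.card ↥(H ⊔ A) := h1
      _ = Nat.card H * H.relIndex (H ⊔ A) := h4.symm
      _ = (Nat.card ↥(H ⊓ A) * A.relIndex H) * H.relIndex (H ⊔ A) := by rw [h2]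
  exact Nat.eq_of_mul_eq_mul_left (Nat.mul_pos hi hr) h6


/-- Let `π` be a set of primes, `G` a finite group with a Hall `π`-subgroup `H` (every prime divisor of the order of `H` lies in `π` and no prime of `π` divides its index), and `A` a normal subgroup of `G`. Then `H ∩ A` is a Hall `π`-subgroup of `A` and the image of `H` in `G/A` is a Hall `π`-subgroup of `G/A`. -/
theorem result {G : Type*} [Group G] [Finite G] (π : Set ℕ)
    (H A : Subgroup G) [A.Normal] (hH : Cfsg.IsPiHall π H) :
    Cfsg.IsPiHall π ((H ⊓ A).subgroupOf A) ∧ Cfsg.IsPiHall π (H.map (QuotientGroup.mk' A)) := by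
  obtain ⟨h1, h2⟩ := hH
  refine ⟨⟨?_, ?_⟩, ⟨?_, ?_⟩⟩
  · intro p hp hd
    apply h1 p hp
    have e1 : Nat.card ((H ⊓ A).subgroupOf A) = Nat.card ↥(H ⊓ A) :=
      Nat.card_congr (Subgroup.subgroupOfEquivOfLe inf_le_right).toEquiv
    rw [e1] at hd
    have e2 : Nat.card ↥(H ⊓ A) ∣ Nat.card H := Subgroup.card_dvd_of_le inf_le_left
    exact hd.trans e2
  · intro p hp hpi hd
    apply h2 p hp hpi
    have e1 : ((H ⊓ A).subgroupOf A).index = H.relIndex A := Subgroup.inf_relIndex_right H A
    rw [e1, aux_relIndex] at hd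
    exact hd.trans (Subgroup.relIndex_dvd_index_of_le le_sup_left)
  · intro p hp hd
    apply h1 p hp
    exact hd.trans (Subgroup.card_map_dvd _ _)
  · intro p hp hpi hd
    apply h2 p hp hpi
    exact hd.trans (Subgroup.index_map_dvd _ (QuotientGroup.mk'_surjective A))

end Cfsg.Agent.S4309
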