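import Cfsg.Statements.S0877
import Mathlib
import Cfsg.Agent.Lib.Char.HallHat

set_option autoImplicit false
open Cfsg Cfsg.Agent.Lib.Char.HallHat

namespace Cfsg.Agent.S0877

/-- Let H be a subgroup of the finite group G whose order is coprime to its index. Suppose that elements of H conjugate in G are conjugate in H, and that every subgroup E of G that is elementary for some prime (in the sense used for Brauer's characterisation of characters) and whose order divides the order of H is conjugate to a subgroup of H. Then there is a normal subgroup K with K ⊔ H = ⊤ and K ⊓ H trivial. -/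
theorem result {G : Type*} [Group G] [Finite G] (H : Subgroup G) (hHall : Nat.Coprime (Nat.card H) H.index) (hfus : ∀ x ∈ H, ∀ y ∈ H, IsConj x y → ∃ h ∈ H, h * x * h⁻¹ = y) (helem : ∀ (E : Subgroup G) (p : ℕ), p.Prime → Cfsg.IsElementary p E → Nat.card E ∣ Nat.card H → ∃ g : G, E.map (MulAut.conj g).toMonoidHom ≤ H) : ∃ K : Subgroup G, K.Normal ∧ K ⊔ H = ⊤ ∧ K ⊓ H = ⊥ := by
  classical
  cases nonempty_fintype G
  have : Fintype H := Fintype.ofFinite _
  have hcard : Nat.card G = Nat.card H * H.index := (Subgroup.card_mul_index H).symm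
  have hfus' : Controls H := hfus
  have hT : ∀ y : G, y ^ Nat.card H = 1 → ∃ x : H, IsConj (x : G) y := by
    intro y hy
    obtain ⟨p, hp1, hp⟩ := Nat.exists_infinite_primes (Nat.card G + 1)
    have hE : Cfsg.IsElementary p (Subgroup.zpowers y) := by
      refine ⟨⟨y, Subgroup.mem_zpowers y⟩, ?_, ?_, 0, ?_⟩
      · rw [Subgroup.mem_center_iff]
        rintro ⟨g, hg⟩
        obtain ⟨i, rfl⟩ := Subgroup.mem_zpowers_iff.1 hg
        ext
        simp only [Subgroup.coe_mul]
        exact (Commute.zpow_left (Commute.refl y) i)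
      · rw [Subgroup.orderOf_mk]
        refine Nat.Coprime.symm ((Nat.Prime.coprime_iff_not_dvd hp).2 ?_)
        intro hd
        have h1 : orderOf y ∣ Nat.card G := orderOf_dvd_natCard y
        have h2 := Nat.le_of_dvd Nat.card_pos (hd.trans h1)
        omega
      · rw [pow_zero, Subgroup.index_eq_one, Subgroup.eq_top_iff']
        rintro ⟨g, hg⟩
        obtain ⟨i, rfl⟩ := Subgroup.mem_zpowers_iff.1 hg
        refine Subgroup.mem_zpowers_iff.2 ⟨i, ?_⟩
        ext
        simp
    have hdvd : Nat.card (Subgroup.zpowers y) ∣ Nat.card H := by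
      rw [Nat.card_zpowers]
      exact orderOf_dvd_of_pow_eq_one hy
    obtain ⟨u, hu⟩ := helem _ p hp hE hdvd
    have h1 : u * y * u⁻¹ ∈ H := by
      apply hu
      exact Subgroup.mem_map.2 ⟨y, Subgroup.mem_zpowers y, by simp⟩
    exact ⟨⟨_, h1⟩, (isConj_iff.2 ⟨u, rfl⟩).symm⟩
  refine exists_normal_complement hHall hfus hT ?_
  · intro a b h θ hθ
    have hθc := Cfsg.Agent.Lib.Char.CompleteCor.isIrr_classFunction hθ
    refine Cfsg.Agent.Lib.Char.BrauerInd.isGeneralized_of_restrict (hat_class h hT hfus hθc) ?_
    · intro E p hp hE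
      obtain ⟨L, φ, hL, hφ⟩ := exists_hom_of_isElementary (h.subgroup E) hp hE
      set L' : Subgroup G := L.map E.subtype with hL'
      have hE' : Cfsg.IsElementary p L' :=
        Cfsg.Agent.Lib.Char.BrauerInd.IsElementary.congr
          (L.equivMapOfInjective E.subtype Subtype.val_injective)
          (Cfsg.Agent.Lib.Char.BrauerInd.IsElementary.subgroup hp hE L)
      have hdvd : Nat.card L' ∣ Nat.card H := by
        refine card_dvd_of_forall_pow hHall hcard L' ?_
        intro x hx
        obtain ⟨e, he, rfl⟩ := Subgroup.mem_map.1 hx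
        have := hL e he
        simpa using congrArg (Subtype.val) this
      obtain ⟨u, hu⟩ := helem L' p hp hE' hdvd
      have hmem : ∀ e : E, u * ((φ e : L) : E).1 * u⁻¹ ∈ H := by
        intro e
        apply hu
        refine Subgroup.mem_map.2 ⟨((φ e : L) : E).1, ?_, by simp⟩
        exact Subgroup.mem_map.2 ⟨(φ e : L), (φ e).2, rfl⟩
      let ψ : E →* H :=
        (((MulAut.conj u).toMonoidHom.comp (E.subtype.comp (L.subtype.comp φ)))).codRestrict H
          (fun e => by simpa using hmem e)
      have hψ : ∀ e : E, ((ψ e : H) : G) = u * (e : G) ^ a * u⁻¹ := by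
        intro e
        have := hφ e
        show u * ((φ e : L) : E).1 * u⁻¹ = _
        rw [this]
        simp
      have hfun : (fun e : E => hat H a θ (e : G)) = fun e => θ (ψ e) := by
        funext e
        refine hat_eq hfus hθc (ψ e) ?_
        rw [hψ]
        exact (isConj_iff.2 ⟨u, rfl⟩).symm
      rw [hfun]
      exact Cfsg.Agent.Lib.Char.Virtual.isGeneralized_of_isCharacter
        (Cfsg.Agent.Lib.Char.Basic.isCharacter_comp_hom
          (Cfsg.Agent.Lib.Char.Basic.isCharacter_of_isIrrCharacter hθ) ψ)

end Cfsg.Agent.S0877
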