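import Cfsg.Statements.S3012
import Mathlib
-- import your own Cfsg.Agent.* helpers here

set_option autoImplicit false
open Cfsg

namespace Cfsg.Agent.S3012

/-- Let G be a finite group, V a nontrivial elementary abelian 2-subgroup of G satisfying the Sidki pair condition (every odd-order element inverted by an element of V commutes with a nontrivial element of V), and K a normal subgroup of G with V ∩ K = 1. Then the image of V in G/K satisfies the Sidki pair condition in G/K. -/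
theorem result {G : Type*} [Group G] [Finite G] (V K : Subgroup G) [K.Normal] (hV : Cfsg.IsElementaryAbelian 2 V) (hV1 : V ≠ ⊥) (hS : Cfsg.IsSidkiPair V) (hVK : V ⊓ K = ⊥) : Cfsg.IsSidkiPair (V.map (QuotientGroup.mk' K)) := by
  rintro hbar _ ⟨v, hv, rfl⟩ hodd hinv
  have hvv : v * v = 1 := by
    have := hV.2 v hv
    rwa [pow_two] at this
  have hvinv : v⁻¹ = v := inv_eq_of_mul_eq_one_left hvv
  set mk := QuotientGroup.mk' K with hmk
  obtain ⟨r, hr⟩ := hodd
  -- square root of hbar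
  set kbar := hbar ^ (r + 1) with hkbar
  have hkk : kbar * kbar = hbar := by
    have h1 : hbar ^ (2 * r + 1) = 1 := by rw [← hr]; exact pow_orderOf_eq_one hbar
    calc kbar * kbar = hbar ^ (2 * r + 1) * hbar := by
          rw [hkbar, ← pow_add, ← pow_succ]; congr 1; ring
      _ = hbar := by rw [h1, one_mul]
  have hkinv : mk v * kbar * (mk v)⁻¹ = kbar⁻¹ := by
    rw [hkbar, ← conj_pow, hinv, inv_pow]
  obtain ⟨y, hy⟩ := QuotientGroup.mk'_surjective K kbar
  set u := v * (y * v * y⁻¹) with hu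
  have hubar : mk u = hbar⁻¹ := by
    have h1 : mk v⁻¹ = (mk v)⁻¹ := map_inv _ _
    rw [hvinv] at h1
    rw [hu, map_mul, map_mul, map_mul, map_inv, hy]
    calc mk v * (kbar * mk v * kbar⁻¹) = (mk v * kbar * (mk v)⁻¹) * kbar⁻¹ := by
          rw [← h1]; group
      _ = kbar⁻¹ * kbar⁻¹ := by rw [hkinv]
      _ = hbar⁻¹ := by rw [← hkk, mul_inv_rev]
  have huinv : v * u * v⁻¹ = u⁻¹ := by
    rw [hu, hvinv, mul_inv_rev, mul_inv_rev, mul_inv_rev, inv_inv, hvinv]
    calc v * (v * (y * v * y⁻¹)) * v = (v * v) * (y * v * y⁻¹) * v := by group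
      _ = y * v * y⁻¹ * v := by rw [hvv, one_mul]
      _ = _ := by group
  -- the odd part of u
  obtain ⟨e, m, hm, hN⟩ := Nat.exists_eq_two_pow_mul_odd (orderOf_pos u).ne'
  have hcop : IsCoprime ((2 : ℤ) ^ e) (m : ℤ) := by
    have : Nat.Coprime (2 ^ e) m := Nat.Coprime.pow_left e (Nat.coprime_two_left.mpr hm)
    exact_mod_cast Nat.isCoprime_iff_coprime.mpr this
  obtain ⟨a, b, hab⟩ := hcop
  set t : ℤ := a * 2 ^ e with ht
  set u' := u ^ t with hu'
  have hu'm : u' ^ m = 1 := by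
    have h1 : u ^ ((orderOf u : ℕ) : ℤ) = 1 := by
      rw [zpow_natCast]; exact pow_orderOf_eq_one u
    rw [hu', ← zpow_natCast, ← zpow_mul]
    have h2 : t * (m : ℤ) = ((orderOf u : ℕ) : ℤ) * a := by
      rw [hN, ht]; push_cast; ring
    rw [h2, zpow_mul, h1, one_zpow]
  have hoddu' : Odd (orderOf u') := Odd.of_dvd_nat hm (orderOf_dvd_of_pow_eq_one hu'm)
  have hinvu' : v * u' * v⁻¹ = u'⁻¹ := by
    rw [hu', ← conj_zpow, huinv, inv_zpow]
  obtain ⟨w, hwV, hw1, hwc⟩ := hS u' v hv hoddu' hinvu'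
  -- the image of u' is hbar⁻¹
  have hordbar : orderOf (hbar⁻¹) ∣ m := by
    have h1 : (hbar⁻¹) ^ (orderOf u) = 1 := by
      rw [← hubar, ← map_pow, pow_orderOf_eq_one, map_one]
    have h2 : orderOf (hbar⁻¹) ∣ 2 ^ e * m := by
      rw [← hN]; exact orderOf_dvd_of_pow_eq_one h1
    have h3 : Nat.Coprime (orderOf (hbar⁻¹)) (2 ^ e) := by
      rw [orderOf_inv, hr]
      apply Nat.Coprime.pow_right
      simp
    exact h3.dvd_of_dvd_mul_left h2
  have hbarm : (hbar⁻¹) ^ m = 1 := orderOf_dvd_iff_pow_eq_one.mp hordbar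
  have hu'bar : mk u' = hbar⁻¹ := by
    rw [hu', map_zpow, hubar]
    have h1 : t = 1 - b * m := by rw [ht]; linarith
    rw [h1, zpow_sub, zpow_one, zpow_mul', zpow_natCast, hbarm, one_zpow, inv_one, mul_one]
  refine ⟨mk w, ⟨w, hwV, rfl⟩, ?_, ?_⟩
  · intro h
    apply hw1
    have hwK : w ∈ K := (QuotientGroup.eq_one_iff w).mp h
    have : w ∈ V ⊓ K := ⟨hwV, hwK⟩
    rw [hVK] at this
    exact this
  · have h1 : mk w * hbar⁻¹ = hbar⁻¹ * mk w := by
      rw [← hu'bar, ← map_mul, ← map_mul, hwc]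
    exact (Commute.inv_right_iff.mp h1)

end Cfsg.Agent.S3012
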