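import Cfsg.Statements.S2040
import Mathlib
import Cfsg.Agent.Lib.Compute.Schur2.J2Data
import Cfsg.Agent.Lib.Compute.Schur2.U33
import Cfsg.Agent.Lib.Sporadic.J2.Group

set_option autoImplicit false
set_option maxRecDepth 1000000
open Cfsg

namespace Cfsg.Agent.S2040

open Cfsg.Agent.Lib.Compute.SchurLin Cfsg.Agent.Lib.Compute.PermCert Cfsg.Agent.Lib.Compute.Schur2
open Cfsg.Agent.Lib.Compute.Schur2.J2
open Cfsg.Agent.Lib.Sporadic.J2.Group Cfsg.Agent.Lib.Sporadic.J2.Data3 Cfsg.Agent.Lib.Sporadic.J2.ChainCheck

universe u

theorem certChk : certB c eE 910 130 eP rT 21 = true := by decide +kernel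

theorem sound : TC.Sound.{u} c := sound_of_check certChk

/-- The correspondence of relators with the inner relators. -/
def mp (k : ℕ) : ℕ := bif Nat.blt k 2 then k else Nat.succ k

theorem nestChk : nestB c U33.c mp = true := by decide +kernel

theorem hSB : SubBound.{u} c (U33.c.N * 7) := subBound_nest U33.sound U33.hSB nestChk

theorem upChk : u.check = true := by decide +kernel

theorem tailChk : UP.tailCheck u d = true := by decide +kernel

theorem lcChk : l.check = true := by decide +kernel

theorem hnormC : normB c.n c.W = true := by decide +kernel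

theorem hnormU : normB u.n u.W = true := by decide +kernel

theorem validEs : es.all (validB 9 511 315) = true := by decide +kernel

theorem siftEs : es.all (fun e => sift 9 511 315 [lv0, lv1, lv2] (get 9 511 e.f)) = true := by decide +kernel

theorem hmem (j : ℕ) : gPerm 9 511 315 es j ∈ J315 := gPerm_mem_chain chain_ok validEs siftEs j

theorem relsChk : allB (fun k => allB (fun i => Nat.beq (wordPt 9 511 es (c.W.getD k []) i) i) 315) c.nrel = true := by
  decide +kernel

theorem wordsChk : wordsB 9 511 315 es 3 (nextGens [lv0, lv1, lv2]) us = true := by decide +kernel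

/-- The generators. -/
noncomputable abbrev gJ : ℕ → J315 := gP 9 511 315 es J315

theorem hrel : ∀ k < c.nrel, Cfsg.Agent.Lib.Compute.ToddCoxeterCore.wordEl (ltr gJ) (c.W.getD k []) = 1 := by
  intro k hk
  apply rel_of_check validEs hmem
  have := (allB_iff _ _).mp relsChk k hk
  exact this

theorem hgen (x : J315) : x ∈ Subgroup.closure (gJ '' Set.Iio c.n) :=
  gen_of_words validEs hmem (k := 3) (gens := nextGens [lv0, lv1, lv2]) (us := us) rfl wordsChk x

theorem hcard : Nat.card J315 = c.N * (U33.c.N * 7) := by
  rw [card_J315]
  rfl

theorem hsec : HasSec c gJ :=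
  hasSec_of_nest sound hSB U33.presTriv nestChk hrel hgen hcard

theorem main : HasSchurMultiplier J315 (Multiplicative (ZMod 2)) :=
  hasSchur_main (g := gJ) sound hSB (fun j hj => gP_ge hmem hj) hrel hgen hcard (by decide) hnormC hsec
    u rfl rfl rfl rfl rfl rfl (m := 21) (by decide) hnormU rfl rfl upChk d tailChk
    (fun B _ h => UP.Gen.hom1 h) l rfl rfl rfl rfl rfl lcChk (a := a1 2)
    (fun j hj => by
      obtain rfl : j = 0 := by
        have : j < 1 := hj
        omega
      exact a1_pow) a1_gen

/-- The Schur multiplier of the Hall–Janko group J₂ (the icosian reflection group modulo its centre) is cyclic of order 2; here the Schur multiplier is described through stem extensions, as in the definitions: surjective homomorphisms onto the group from a finite group, whose kernel is central in that finite group and contained in that finite group's commutator subgroup. -/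
theorem result : Cfsg.HasCyclicSchurMultiplier Cfsg.Spor.J2 2 :=
  hasSchur_transport isoJ.symm main

end Cfsg.Agent.S2040
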