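import Cfsg.Statements.S5421
import Mathlib

set_option autoImplicit false
open Cfsg

namespace Cfsg.Agent.S5421

theorem pCore_spec (p : ℕ) (G : Type*) [Group G] [Finite G] :
    (Cfsg.pCore p G).Normal ∧ IsPGroup p (Cfsg.pCore p G) := by
  classical
  have hS : {N : Subgroup G | N.Normal ∧ IsPGroup p N}.Finite := Set.toFinite _
  have hne : {N : Subgroup G | N.Normal ∧ IsPGroup p N}.Nonempty :=
    ⟨⊥, inferInstance, IsPGroup.of_bot⟩
  obtain ⟨M, hM⟩ := hS.exists_maximal hne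
  have key : Cfsg.pCore p G = M := by
    unfold Cfsg.pCore
    apply le_antisymm
    · apply sSup_le
      intro N hN
      have := hN.1
      have := hM.prop.1
      have h1 : M ⊔ N ∈ {N : Subgroup G | N.Normal ∧ IsPGroup p N} :=
        ⟨inferInstance, IsPGroup.to_sup_of_normal_right hM.prop.2 hN.2⟩
      have h2 := hM.le_of_ge h1 le_sup_left
      exact le_trans le_sup_right h2
    · exact le_sSup hM.prop
  rw [key]
  exact hM.prop

/-- A fixed-point-free involutive conjugation inverts. -/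
theorem inverts_of_fpf {G : Type*} [Group G] [Finite G] (K : Subgroup G) (b : G) (hb : b * b = 1)
    (hbK : ∀ x ∈ K, b * x * b⁻¹ ∈ K)
    (hfix : ∀ x ∈ K, b * x = x * b → x = 1) (x : G) (hx : x ∈ K) : b * x * b⁻¹ = x⁻¹ := by
  classical
  have hbinv : b⁻¹ = b := by
    rw [inv_eq_iff_mul_eq_one]; exact hb
  have hb' : ∀ w : G, b * (b * w) = w := by
    intro w; rw [← mul_assoc, hb, one_mul]
  let f : K → K := fun y => ⟨y⁻¹ * (b * y * b⁻¹), mul_mem (inv_mem y.2) (hbK _ y.2)⟩
  have hinj : Function.Injective f := by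
    intro y y' hyy
    have h : (y : G)⁻¹ * (b * y * b⁻¹) = (y' : G)⁻¹ * (b * y' * b⁻¹) := congrArg Subtype.val hyy
    rw [hbinv] at h
    have h2 : b * ((y' : G) * (y : G)⁻¹) = ((y' : G) * (y : G)⁻¹) * b := by
      have e1 : (y' : G) * ((y' : G)⁻¹ * (b * y' * b)) * (b * (y : G)⁻¹) = b * ((y' : G) * (y : G)⁻¹) := by
        simp [mul_assoc, hb']
      have e2 : (y' : G) * ((y : G)⁻¹ * (b * y * b)) * (b * (y : G)⁻¹) = ((y' : G) * (y : G)⁻¹) * b := by
        simp [mul_assoc, hb']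
      rw [← e1, ← e2, h]
    have h4 := hfix _ (mul_mem y'.2 (inv_mem y.2)) h2
    have h5 : (y' : G) = y := by
      rwa [mul_inv_eq_one] at h4
    exact Subtype.ext h5.symm
  have hsurj : Function.Surjective f := Finite.surjective_of_injective hinj
  obtain ⟨y, hy⟩ := hsurj ⟨x, hx⟩
  have hy' : (y : G)⁻¹ * (b * y * b⁻¹) = x := congrArg Subtype.val hy
  rw [← hy']
  simp [mul_assoc, hbinv, hb]

/-- Let Q be an extraspecial 2-subgroup of the finite group G whose centralizer in G is its centre Z and which is normal in the centralizer of Z. If some involution b of Q outside Z has Z inside the largest normal 2-subgroup of the centralizer of b, then Q is a large extraspecial 2-subgroup of G. -/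
theorem result {G : Type*} [Group G] [Finite G] (Q : Subgroup G) (hL1 : Cfsg.IsExtraspecial 2 ↥Q) (hL2 : Subgroup.centralizer (Q : Set G) = ((Subgroup.center ↥Q).map Q.subtype)) (hL3 : Subgroup.centralizer (((Subgroup.center ↥Q).map Q.subtype) : Set G) ≤ Subgroup.normalizer (Q : Set G)) (b : G) (hbQ : b ∈ Q) (hbZ : b ∉ ((Subgroup.center ↥Q).map Q.subtype)) (hb : orderOf b = 2) (hZ : ((Subgroup.center ↥Q).map Q.subtype) ≤ (Cfsg.pCore 2 ↥(Subgroup.centralizer ({b} : Set G))).map (Subgroup.centralizer ({b} : Set G)).subtype) : Cfsg.IsLargeExtraspecial Q := by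
  refine ⟨hL1, hL2, hL3, ?_⟩
  intro K hKodd hQK
  -- an element of K in a 2-subgroup is trivial
  have hcop : ∀ (T : Subgroup G), IsPGroup 2 T → ∀ y, y ∈ K → y ∈ T → y = 1 := by
    intro T hT y hyK hyT
    obtain ⟨n, hn⟩ := hT ⟨y, hyT⟩
    have h1 : orderOf y ∣ 2 ^ n := by
      apply orderOf_dvd_of_pow_eq_one
      simpa [Subtype.ext_iff] using hn
    have h2 : orderOf y ∣ Nat.card K := Subgroup.orderOf_dvd_natCard K hyK
    have h3 : Nat.Coprime (2 ^ n) (Nat.card K) :=
      Nat.Coprime.pow_left n (Nat.coprime_two_left.mpr hKodd)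
    have h4 : orderOf y = 1 := Nat.eq_one_of_dvd_coprimes h3 h1 h2
    exact orderOf_eq_one_iff.mp h4
  have hnormK : ∀ q ∈ Q, ∀ x ∈ K, q * x * q⁻¹ ∈ K := by
    intro q hq x hx
    have := (Subgroup.mem_normalizer_iff.mp (hQK hq)) x
    exact this.mp hx
  have hQ2 : IsPGroup 2 Q := hL1.1.1
  have hbb : b * b = 1 := by
    rw [← pow_two, ← hb]; exact pow_orderOf_eq_one b
  -- elements of Z lie in Q and commute with Q
  have hZQ : ∀ z ∈ (Subgroup.center ↥Q).map Q.subtype, z ∈ Q ∧ ∀ q ∈ Q, z * q = q * z := by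
    intro z hz
    obtain ⟨w, hw, rfl⟩ := hz
    refine ⟨w.2, fun q hq => ?_⟩
    have := (Subgroup.mem_center_iff.mp hw) ⟨q, hq⟩
    have h := congrArg Subtype.val this
    exact h.symm
  -- any subset of K that centralizes Z centralizes Q, hence is trivial
  have hkill : ∀ x ∈ K, x ∈ Subgroup.centralizer (((Subgroup.center ↥Q).map Q.subtype) : Set G) → x = 1 := by
    intro x hx hxC
    have hxQ : x ∈ Subgroup.centralizer (Q : Set G) := by
      rw [Subgroup.mem_centralizer_iff]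
      intro q hq
      have hxN := hL3 hxC
      have hq' : x * q * x⁻¹ ∈ Q := (Subgroup.mem_normalizer_iff.mp hxN q).mp hq
      have ha : x * q * x⁻¹ * q⁻¹ ∈ Q := mul_mem hq' (inv_mem hq)
      have hb' : x * q * x⁻¹ * q⁻¹ ∈ K := by
        have : x * q * x⁻¹ * q⁻¹ = x * (q * x⁻¹ * q⁻¹) := by group
        rw [this]
        exact mul_mem hx (hnormK q hq _ (inv_mem hx))
      have := hcop Q hQ2 _ hb' ha
      have h' : x * q * x⁻¹ = q := by
        calc x * q * x⁻¹ = x * q * x⁻¹ * q⁻¹ * q := by group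
          _ = q := by rw [this, one_mul]
      calc q * x = x * q * x⁻¹ * x := by rw [h']
        _ = x * q := by group
    rw [hL2] at hxQ
    exact hcop Q hQ2 x hx (hZQ x hxQ).1
  -- C_K(b) trivial
  have hfix : ∀ x ∈ K, b * x = x * b → x = 1 := by
    intro x hx hxb
    apply hkill x hx
    rw [Subgroup.mem_centralizer_iff]
    intro z hz
    obtain ⟨hzQ, hzc⟩ := hZQ z hz
    set C := Subgroup.centralizer ({b} : Set G) with hC
    have hxC : x ∈ C := by
      rw [hC, Subgroup.mem_centralizer_singleton_iff]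
      exact hxb.symm
    obtain ⟨hcN, hcP⟩ := pCore_spec 2 ↥C
    have hzO := hZ hz
    obtain ⟨z', hz', rfl⟩ := hzO
    -- the commutator lies in O_2(C) and K
    have h1 : ((⟨x, hxC⟩ : C) * z'⁻¹ * (⟨x, hxC⟩ : C)⁻¹) ∈ Cfsg.pCore 2 ↥C :=
      hcN.conj_mem _ (inv_mem hz') _
    have h2 : z' * ((⟨x, hxC⟩ : C) * z'⁻¹ * (⟨x, hxC⟩ : C)⁻¹) ∈ Cfsg.pCore 2 ↥C :=
      mul_mem hz' h1
    have h3 : IsPGroup 2 ((Cfsg.pCore 2 ↥C).map C.subtype) := hcP.map _
    have h4 : (z' : G) * x * (z' : G)⁻¹ * x⁻¹ ∈ K :=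
      mul_mem (hnormK _ hzQ x hx) (inv_mem hx)
    have h5 : (z' : G) * x * (z' : G)⁻¹ * x⁻¹ ∈ (Cfsg.pCore 2 ↥C).map C.subtype := by
      refine ⟨_, h2, ?_⟩
      simp [mul_assoc]
    have h6 := hcop _ h3 _ h4 h5
    have h' : (z' : G) * x * (z' : G)⁻¹ = x := by
      calc (z' : G) * x * (z' : G)⁻¹ = (z' : G) * x * (z' : G)⁻¹ * x⁻¹ * x := by group
        _ = x := by rw [h6, one_mul]
    calc (z' : G) * x = (z' : G) * x * (z' : G)⁻¹ * z' := by group
      _ = x * z' := by rw [h']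
  have hbK : ∀ x ∈ K, b * x * b⁻¹ ∈ K := fun x hx => hnormK b hbQ x hx
  have hinv := inverts_of_fpf K b hbb hbK hfix
  -- b is not central in Q
  have hbnc : ∃ q ∈ Q, q * b * q⁻¹ * b⁻¹ ≠ 1 := by
    by_contra hcon
    push Not at hcon
    apply hbZ
    refine ⟨⟨b, hbQ⟩, ?_, rfl⟩
    show (⟨b, hbQ⟩ : Q) ∈ Subgroup.center ↥Q
    rw [Subgroup.mem_center_iff]
    intro q
    have := hcon q q.2
    apply Subtype.ext
    show (q : G) * b = b * q
    calc (q : G) * b = (q : G) * b * (q : G)⁻¹ * b⁻¹ * (b * q) := by group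
      _ = b * q := by rw [this, one_mul]
  obtain ⟨q, hqQ, hqb⟩ := hbnc
  -- the commutator w lies in the centre, of order two
  have hcomm : q * b * q⁻¹ * b⁻¹ ∈ (Subgroup.center ↥Q).map Q.subtype := by
    have hc : (⟨q, hqQ⟩ : Q) * ⟨b, hbQ⟩ * (⟨q, hqQ⟩ : Q)⁻¹ * (⟨b, hbQ⟩ : Q)⁻¹ ∈ commutator ↥Q :=
      Subgroup.commutator_mem_commutator (Subgroup.mem_top _) (Subgroup.mem_top _)
    rw [hL1.1.2.2] at hc
    exact ⟨_, hc, by simp⟩
  have htwo : ∀ z ∈ (Subgroup.center ↥Q).map Q.subtype, z ≠ 1 → z = q * b * q⁻¹ * b⁻¹ := by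
    intro z hz hz1
    obtain ⟨z', hz', rfl⟩ := hz
    obtain ⟨w', hw', hww⟩ := hcomm
    have hcard : Nat.card (Subgroup.center ↥Q) = 2 := hL1.2
    obtain ⟨y0, _, huniq⟩ := (Nat.card_eq_two_iff' (1 : Subgroup.center ↥Q)).mp hcard
    have hzn : (⟨z', hz'⟩ : Subgroup.center ↥Q) ≠ 1 := by
      intro h
      apply hz1
      have := congrArg (fun t : Subgroup.center ↥Q => ((t : Q) : G)) h
      simpa using this
    have hwn : (⟨w', hw'⟩ : Subgroup.center ↥Q) ≠ 1 := by
      intro h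
      apply hqb
      have := congrArg (fun t : Subgroup.center ↥Q => ((t : Q) : G)) h
      simp only at this
      rw [← hww]
      simpa using this
    have e1 := huniq _ hzn
    have e2 := huniq _ hwn
    have e3 : (⟨z', hz'⟩ : Subgroup.center ↥Q) = ⟨w', hw'⟩ := e1.trans e2.symm
    have e4 : z' = w' := congrArg Subtype.val e3
    rw [e4]
    exact hww
  have hcen : ∀ x ∈ K, x ∈ Subgroup.centralizer (((Subgroup.center ↥Q).map Q.subtype) : Set G) := by
    intro x hx
    rw [Subgroup.mem_centralizer_iff]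
    intro z hz
    by_cases hz1 : z = 1
    · simp [hz1]
    have hzw := htwo z hz hz1
    have hzb : z * b = q * b * q⁻¹ := by
      rw [hzw]; group
    have h1 : q⁻¹ * x * q ∈ K := by
      have := hnormK q⁻¹ (inv_mem hqQ) x hx
      simpa using this
    have h2 := hinv _ h1
    have h3 : z * (b * x * b⁻¹) * z⁻¹ = x⁻¹ := by
      have e : z * (b * x * b⁻¹) * z⁻¹ = (z * b) * x * (z * b)⁻¹ := by group
      rw [e, hzb]
      have e2 : q * b * q⁻¹ * x * (q * b * q⁻¹)⁻¹ = q * (b * (q⁻¹ * x * q) * b⁻¹) * q⁻¹ := by group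
      rw [e2, h2]
      group
    rw [hinv x hx] at h3
    have h4 : z * x * z⁻¹ = x := by
      have := congrArg (fun t => t⁻¹) h3
      simpa [mul_assoc] using this
    calc z * x = z * x * z⁻¹ * z := by group
      _ = x * z := by rw [h4]
  rw [eq_bot_iff]
  intro x hx
  exact (Subgroup.mem_bot).mpr (hkill x hx (hcen x hx))

end Cfsg.Agent.S5421
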