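import Cfsg.Statements.S5422
import Mathlib
import Cfsg.Agent.Lib.PGroup.LargeQ
import Cfsg.Agent.S5421
-- import your own Cfsg.Agent.* helpers here

set_option autoImplicit false
open Cfsg

namespace Cfsg.Agent.S5422

/-- Let Q be an extraspecial 2-subgroup of the finite group G whose centralizer in G is its centre Z and which is normal in the centralizer of Z; suppose Q has width at least 2 (order 2^(2w+1) with w ≥ 2) and g is an element of G not normalizing Z with g Z g⁻¹ inside Q. Then Z lies inside g Q g⁻¹; writing V for the subgroup generated by Z and g Z g⁻¹ (a four-group), the normalizer of V induces on V its full automorphism group, that is, the centralizer of V has index 6 in the normalizer of V; and Q is a large extraspecial 2-subgroup of G. -/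
theorem result {G : Type*} [Group G] [Finite G] (Q : Subgroup G) (hL1 : Cfsg.IsExtraspecial 2 ↥Q) (hL2 : Subgroup.centralizer (Q : Set G) = ((Subgroup.center ↥Q).map Q.subtype)) (hL3 : Subgroup.centralizer (((Subgroup.center ↥Q).map Q.subtype) : Set G) ≤ Subgroup.normalizer (Q : Set G)) (w : ℕ) (hw : 2 ≤ w) (hcard : Nat.card ↥Q = 2 ^ (2 * w + 1)) (g : G) (hg : g ∉ Subgroup.normalizer (((Subgroup.center ↥Q).map Q.subtype) : Set G)) (hZg : (((Subgroup.center ↥Q).map Q.subtype)).map (MulAut.conj g).toMonoidHom ≤ Q) : ((Subgroup.center ↥Q).map Q.subtype) ≤ (Q).map (MulAut.conj g).toMonoidHom ∧ (Subgroup.centralizer ((((Subgroup.center ↥Q).map Q.subtype) ⊔ (((Subgroup.center ↥Q).map Q.subtype)).map (MulAut.conj g).toMonoidHom : Subgroup G) : Set G)).relIndex (Subgroup.normalizer ((((Subgroup.center ↥Q).map Q.subtype) ⊔ (((Subgroup.center ↥Q).map Q.subtype)).map (MulAut.conj g).toMonoidHom : Subgroup G) : Set G)) = 6 ∧ Cfsg.IsLargeExtraspecial Q := by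
  have hp : Fact (Nat.Prime 2) := ⟨Nat.prime_two⟩
  obtain ⟨z, hZ, L⟩ := Lib.PGroup.LargeQ.exists_large hL1 hL2
  have hQp : IsPGroup 2 ↥Q := hL1.1.1
  have hN : ∀ c : G, c * z = z * c → ∀ y ∈ Q, c * y * c⁻¹ ∈ Q := by
    intro c hc y hy
    have hcC : c ∈ Subgroup.centralizer (((Subgroup.center ↥Q).map Q.subtype : Subgroup G) : Set G) := by
      rw [Subgroup.mem_centralizer_iff]
      intro x hx
      rcases (hZ x).mp hx with rfl | rfl
      · simp
      · exact hc.symm
    exact (Subgroup.mem_normalizer_iff.mp (hL3 hcC) y).mp hy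
  have hzZ : z ∈ (Subgroup.center ↥Q).map Q.subtype := (hZ z).mpr (Or.inr rfl)
  set a := g * z * g⁻¹ with ha
  have haQ : a ∈ Q := hZg ⟨z, hzZ, rfl⟩
  have haz : a ≠ z := by
    intro h
    apply hg
    apply Lib.PGroup.LargeQ.mem_normalizer_of_forall
    intro x hx
    rcases (hZ x).mp hx with rfl | rfl
    · simp [one_mem]
    · rw [show g * x * g⁻¹ = a from rfl, h]
      exact hx
  have ha2 : a * a = 1 := by
    rw [ha]
    calc g * z * g⁻¹ * (g * z * g⁻¹) = g * (z * z) * g⁻¹ := by group
      _ = 1 := by rw [L.z_sq]; group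
  have ha1 : a ≠ 1 := by
    intro h
    apply L.z_ne
    have : z = g⁻¹ * a * g := by rw [ha]; group
    rw [this, h]; group
  have hza := L.z_comm a haQ
  obtain ⟨u, hu, w, hua, hwa, hwz⟩ := Lib.PGroup.LargeQ.exists_u_w L hQp hN rfl haQ haz
  have hmem := Lib.PGroup.LargeQ.mem_conj_of_conj_mem L hQp hN haQ
  have h1 : (Subgroup.center ↥Q).map Q.subtype ≤ Q.map (MulAut.conj g).toMonoidHom := by
    intro x hx
    rcases (hZ x).mp hx with rfl | rfl
    · exact one_mem _
    · refine ⟨g⁻¹ * x * g, hmem, ?_⟩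
      simp [mul_assoc]
  -- the four-group
  have hV : ∀ x, x ∈ (((Subgroup.center ↥Q).map Q.subtype) ⊔
      ((Subgroup.center ↥Q).map Q.subtype).map (MulAut.conj g).toMonoidHom : Subgroup G) ↔
      x = 1 ∨ x = z ∨ x = a ∨ x = a * z := by
    intro x
    have hle : (((Subgroup.center ↥Q).map Q.subtype) ⊔
      ((Subgroup.center ↥Q).map Q.subtype).map (MulAut.conj g).toMonoidHom : Subgroup G) ≤
        Lib.PGroup.LargeQ.four L.z_sq ha2 hza := by
      refine sup_le ?_ ?_
      · intro y hy
        rcases (hZ y).mp hy with rfl | rfl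
        · exact Or.inl rfl
        · exact Or.inr (Or.inl rfl)
      · rintro _ ⟨y, hy, rfl⟩
        rcases (hZ y).mp hy with rfl | rfl
        · left; simp
        · exact Or.inr (Or.inr (Or.inl rfl))
    constructor
    · intro hx
      exact hle hx
    · have h3 : z ∈ (((Subgroup.center ↥Q).map Q.subtype) ⊔
        ((Subgroup.center ↥Q).map Q.subtype).map (MulAut.conj g).toMonoidHom : Subgroup G) :=
        Subgroup.mem_sup_left hzZ
      have h4 : a ∈ (((Subgroup.center ↥Q).map Q.subtype) ⊔
        ((Subgroup.center ↥Q).map Q.subtype).map (MulAut.conj g).toMonoidHom : Subgroup G) :=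
        Subgroup.mem_sup_right ⟨z, hzZ, rfl⟩
      rintro (rfl | rfl | rfl | rfl)
      · exact one_mem _
      · exact h3
      · exact h4
      · exact mul_mem h4 h3
  have h2 := Lib.PGroup.LargeQ.relIndex_eq_six hV L.z_ne ha1 haz L.z_sq ha2 hza (L.z_comm u hu) hua
    hwa hwz
  refine ⟨h1, h2, ?_⟩
  -- largeness
  have hoa : orderOf a = 2 := by
    have hpp : Fact (Nat.Prime 2) := ⟨Nat.prime_two⟩
    exact orderOf_eq_prime (by rw [pow_two]; exact ha2) ha1
  have haZ : a ∉ (Subgroup.center ↥Q).map Q.subtype := by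
    intro h
    rcases (hZ a).mp h with h | h
    · exact ha1 h
    · exact haz h
  have hle : Q.map (MulAut.conj g).toMonoidHom ≤
      Lib.PGroup.LargeExtraspecial.o2c a := by
    apply Lib.PGroup.LargeExtraspecial.le_o2c
    · rintro _ ⟨y, hy, rfl⟩
      have hyz : y ∈ Subgroup.centralizer ({z} : Set G) :=
        Subgroup.mem_centralizer_singleton_iff.mpr (L.z_comm y hy)
      simpa using Lib.PGroup.LargeExtraspecial.conj_mem_centralizer g hyz
    · exact hQp.map _
    · rintro c hc _ ⟨y, hy, rfl⟩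
      have hc' : (g⁻¹ * c * g) * z = z * (g⁻¹ * c * g) := by
        have := Subgroup.mem_centralizer_singleton_iff.mp hc
        calc (g⁻¹ * c * g) * z = g⁻¹ * (c * a) * g := by rw [ha]; group
          _ = g⁻¹ * (a * c) * g := by rw [this]
          _ = z * (g⁻¹ * c * g) := by rw [ha]; group
      refine ⟨(g⁻¹ * c * g) * y * (g⁻¹ * c * g)⁻¹, hN _ hc' y hy, ?_⟩
      simp [mul_assoc]
  have hZle : (Subgroup.center ↥Q).map Q.subtype ≤
      (Cfsg.pCore 2 ↥(Subgroup.centralizer ({a} : Set G))).map
        (Subgroup.centralizer ({a} : Set G)).subtype := h1.trans hle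
  exact Cfsg.Agent.S5421.result Q hL1 hL2 hL3 a haQ haZ hoa hZle

end Cfsg.Agent.S5422
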