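import Cfsg.Statements.S4702
import Mathlib
import Cfsg.Agent.S0727
import Cfsg.Agent.Lib.PSL2.Basic
import Cfsg.Agent.Lib.PSL2.FieldEmbed

set_option autoImplicit false
open Cfsg

namespace Cfsg.Agent.S4702

open MulAction
open scoped MatrixGroups

/-- In characteristic two, `SL(2, F)` and `PGL(2, F)` are isomorphic. -/
theorem nonempty_sl_equiv_pgl (F : Type*) [Field F] [Fintype F] (h2 : (2 : F) = 0) :
    Nonempty (Matrix.SpecialLinearGroup (Fin 2) F ≃* Matrix.ProjGenLinGroup (Fin 2) F) := by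
  classical
  let φ : Matrix.SpecialLinearGroup (Fin 2) F →* Matrix.ProjGenLinGroup (Fin 2) F :=
    Matrix.SpecialLinearGroup.toPGL
  have hinj : Function.Injective φ := by
    rw [← MonoidHom.ker_eq_bot_iff, Matrix.SpecialLinearGroup.toPGL_ker, eq_bot_iff]
    intro A hA
    obtain ⟨r, hr1, hr2⟩ := Matrix.SpecialLinearGroup.mem_center_iff.mp hA
    rw [Subgroup.mem_bot]
    have hr : r = 1 := by
      have h3 : (r - 1) ^ 2 = 0 := by
        have : (r - 1) ^ 2 = r ^ 2 + 1 - 2 * r := by ring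
        rw [this, h2, zero_mul]
        simp only [Fintype.card_fin] at hr1
        rw [hr1]
        have h4 : (1 : F) + 1 = 2 := by norm_num
        rw [h4, h2]
        simp
      have h5 := pow_eq_zero_iff (two_ne_zero) |>.mp h3
      exact sub_eq_zero.mp h5
    apply Subtype.ext
    rw [← hr2, hr]
    simp
  haveI : Finite (Matrix.ProjGenLinGroup (Fin 2) F) :=
    Finite.of_surjective _ (Matrix.ProjGenLinGroup.mk_surjective (n := Fin 2) (R := F))
  have hbij : Function.Bijective φ := by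
    rw [Nat.bijective_iff_injective_and_card]
    refine ⟨hinj, ?_⟩
    rw [Cfsg.Agent.Lib.PSL2.Basic.card_SL2, Cfsg.Agent.Lib.PSL2.FieldEmbed.card_PGL]
  exact ⟨MulEquiv.ofBijective φ hbij⟩

/-- Let G be a triply transitive permutation group on a finite set of odd size m ≥ 3 in which only the identity fixes three or more points. Then m = 2^a + 1 for some a ≥ 1 and G is isomorphic to SL(2, 2^a). -/
theorem result {α : Type*} [Fintype α] [DecidableEq α] (hm : 3 ≤ Fintype.card α) (hodd : Odd (Fintype.card α)) (G : Subgroup (Equiv.Perm α)) (h3 : MulAction.IsMultiplyPretransitive G α 3) (hfix : ∀ g : G, 3 ≤ Nat.card (MulAction.fixedBy α g) → g = 1) : ∃ a : ℕ, 1 ≤ a ∧ Fintype.card α = 2 ^ a + 1 ∧ ∃ (F : Type) (_ : Field F) (_ : Fintype F), Fintype.card F = 2 ^ a ∧ Nonempty (G ≃* Matrix.SpecialLinearGroup (Fin 2) F) := by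
  classical
  have hemb : ∀ a b c : α, a ≠ b → a ≠ c → b ≠ c → ∃ x : Fin 3 ↪ α, x 0 = a ∧ x 1 = b ∧ x 2 = c := by
    intro a b c hab hac hbc
    refine ⟨⟨![a, b, c], ?_⟩, rfl, rfl, rfl⟩
    intro i j hij
    fin_cases i <;> fin_cases j <;> simp_all
  have htr : ∀ a b c a' b' c' : α, a ≠ b → a ≠ c → b ≠ c → a' ≠ b' → a' ≠ c' → b' ≠ c' →
      ∃ g : G, g • a = a' ∧ g • b = b' ∧ g • c = c' := by
    intro a b c a' b' c' h1 h2 h4 h5 h6 h7
    obtain ⟨x, rfl, rfl, rfl⟩ := hemb a b c h1 h2 h4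
    obtain ⟨y, rfl, rfl, rfl⟩ := hemb a' b' c' h5 h6 h7
    obtain ⟨g, hg⟩ := h3.exists_smul_eq x y
    refine ⟨g, ?_, ?_, ?_⟩
    · rw [← hg]
      rfl
    · rw [← hg]
      rfl
    · rw [← hg]
      rfl
  have hfix' : ∀ (g : G) (a b c : α), a ≠ b → a ≠ c → b ≠ c → g • a = a → g • b = b → g • c = c →
      g = 1 := by
    intro g a b c h1 h2 h4 h5 h6 h7
    apply hfix
    have hsub : (({a, b, c} : Finset α) : Set α) ⊆ MulAction.fixedBy α g := by
      intro x hx
      simp only [Finset.coe_insert, Finset.coe_singleton, Set.mem_insert_iff,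
        Set.mem_singleton_iff] at hx
      rcases hx with rfl | rfl | rfl
      · exact h5
      · exact h6
      · exact h7
    have hc : ({a, b, c} : Finset α).card = 3 := Finset.card_eq_three.mpr ⟨a, b, c, h1, h2, h4, rfl⟩
    calc 3 = Nat.card (({a, b, c} : Finset α) : Set α) := by
          rw [Nat.card_coe_set_eq, Set.ncard_coe_finset, hc]
      _ ≤ Nat.card (MulAction.fixedBy α g) := Nat.card_mono (Set.toFinite _) hsub
  obtain ⟨F, iF, iK, hF, ⟨hiso⟩⟩ := Cfsg.Agent.S0727.main_theorem (G := G) htr hfix' hodd hm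
  -- the order of `F` is a power of `2`
  have hFeven : Even (Fintype.card F) := by
    by_contra hne
    rw [Nat.not_even_iff_odd] at hne
    have := hne.add_one
    rw [hF] at this
    exact (Nat.not_even_iff_odd.mpr hodd) this
  obtain ⟨p, hpc⟩ := CharP.exists F
  obtain ⟨n, hp, hcard⟩ := FiniteField.card F p
  have hp2 : p = 2 := by
    have h : 2 ∣ p ^ (n : ℕ) := by
      rw [← hcard]
      exact hFeven.two_dvd
    exact ((Nat.prime_dvd_prime_iff_eq Nat.prime_two hp).mp
      (Nat.Prime.dvd_of_dvd_pow Nat.prime_two h)).symm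
  subst hp2
  refine ⟨n, n.pos, ?_, F, iF, iK, hcard, ?_⟩
  · rw [← hF, hcard]
  obtain ⟨e⟩ := nonempty_sl_equiv_pgl F CharTwo.two_eq_zero
  exact ⟨hiso.trans e.symm⟩

end Cfsg.Agent.S4702
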