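import Cfsg.Statements.S3043
import Mathlib
import Cfsg.Agent.S0265
import Cfsg.Agent.S4702
import Cfsg.Agent.Lib.PSL2.Dickson
import Cfsg.Agent.Lib.PSL2.CosetIso
import Cfsg.Agent.Lib.Frobenius.SylowFpf
import Cfsg.Agent.Lib.Perm.TICountC
import Cfsg.Agent.Lib.Perm.TICountE
import Cfsg.Agent.Lib.Perm.TICountF
import Cfsg.Agent.Lib.Perm.TICountG

set_option autoImplicit false
open Cfsg

namespace Cfsg.Agent.S3043

open MulAction Subgroup
open scoped MatrixGroups
open Cfsg.Agent.Lib.Perm.TICount Cfsg.Agent.Lib.PSL2.Basic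

section cyc

theorem even_card_psl (K : Type*) [Field K] [Fintype K] : 2 ∣ Nat.card PSL(2, K) := by
  have hww : (w : SL(2, K)) * w = -1 := by
    apply ext2 <;> simp
  have h1 : mkP (w : SL(2, K)) ≠ 1 := by
    rw [Ne, mkP_eq_one_iff]
    rintro (h | h)
    · have h2 := congrArg (fun A : SL(2, K) => A.1 0 0) h
      simp at h2
    · have h2 := congrArg (fun A : SL(2, K) => A.1 0 0) h
      simp at h2
  have h2 : orderOf (mkP (w : SL(2, K))) = 2 := by
    apply orderOf_eq_prime
    · rw [pow_two, ← map_mul, hww, mkP_neg_one]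
    · exact h1
  have h3 := orderOf_dvd_natCard (mkP (w : SL(2, K)))
  rwa [h2] at h3

theorem even_card_pgl (K : Type*) [Field K] [Fintype K] :
    2 ∣ Nat.card (Matrix.ProjGenLinGroup (Fin 2) K) := by
  rw [Cfsg.Agent.S0265.result, card_SL2_eq_mul]
  exact Dvd.dvd.mul_right (even_card_psl K) _

/-- A subgroup of `PSL(2, F)`, `F` of characteristic two, of odd order, not normalising a Sylow
2-subgroup, is cyclic. -/
theorem cyclic_of_odd {F : Type*} [Field F] [Fintype F] [CharP F 2] (H : Subgroup PSL(2, F))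
    (hodd : Odd (Nat.card H))
    (hno : ∀ P : Sylow 2 PSL(2, F), ¬ H ≤ normalizer ((P : Subgroup PSL(2, F)) : Set PSL(2, F))) :
    IsCyclic H := by
  haveI : Fact (Nat.Prime 2) := ⟨Nat.prime_two⟩
  have hev : ¬ 2 ∣ Nat.card H := by
    rw [← even_iff_two_dvd, Nat.not_even_iff_odd]
    exact hodd
  rcases Cfsg.Agent.Lib.PSL2.Dickson.dickson (p := 2) H with
    ⟨k, -, ⟨hc, -⟩ | ⟨⟨e⟩⟩⟩ | ⟨P, hP⟩ | ⟨⟨e⟩⟩ | ⟨⟨e⟩⟩ | ⟨⟨e⟩⟩ | ⟨K, iK, iKf, m, -, ⟨⟨e⟩⟩ | ⟨⟨e⟩⟩⟩
  · exact hc
  · exfalso
    apply hev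
    rw [Nat.card_congr e.toEquiv, DihedralGroup.nat_card]
    exact dvd_mul_right _ _
  · exact absurd hP (hno P)
  · exfalso
    apply hev
    have h1 := two_mul_nat_card_alternatingGroup (α := Fin 4)
    rw [Nat.card_congr e.toEquiv]
    have h2 : Nat.card (Equiv.Perm (Fin 4)) = 24 := by
      rw [Nat.card_eq_fintype_card, Fintype.card_perm]; rfl
    omega
  · exfalso
    apply hev
    have h2 : Nat.card (Equiv.Perm (Fin 4)) = 24 := by
      rw [Nat.card_eq_fintype_card, Fintype.card_perm]; rfl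
    rw [Nat.card_congr e.toEquiv, h2]
    norm_num
  · exfalso
    apply hev
    have h1 := two_mul_nat_card_alternatingGroup (α := Fin 5)
    rw [Nat.card_congr e.toEquiv]
    have h2 : Nat.card (Equiv.Perm (Fin 5)) = 120 := by
      rw [Nat.card_eq_fintype_card, Fintype.card_perm]; rfl
    omega
  · exfalso
    apply hev
    rw [Nat.card_congr e.toEquiv]
    exact even_card_psl K
  · exfalso
    apply hev
    rw [Nat.card_congr e.toEquiv]
    exact even_card_pgl K

end cyc

variable {G : Type*} [Group G] {M : Subgroup G} {z : G} {Ω : Type*} [MulAction G Ω] {p₀ : Ω}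

/-- Factorisation of the elements of `M ⊔ (N ⊓ C(z))`. -/
theorem fac_of_sup (M : Subgroup G) (z : G)
    (hfac : M ⊔ (Subgroup.normalizer (M : Set G) ⊓ Subgroup.centralizer ({z} : Set G)) =
      Subgroup.normalizer (M : Set G)) (g : G) (hg : g ∈ Subgroup.normalizer (M : Set G)) :
    ∃ m ∈ M, ∃ c ∈ normalizer (M : Set G), c * z = z * c ∧ g = m * c := by
  rw [← hfac, Subgroup.sup_eq_closure] at hg
  induction hg using Subgroup.closure_induction with
  | mem x hx =>
    rcases hx with hx | hx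
    · exact ⟨x, hx, 1, one_mem _, by simp, by simp⟩
    · refine ⟨1, one_mem _, x, hx.1, Subgroup.mem_centralizer_singleton_iff.mp hx.2, by simp⟩
  | one => exact ⟨1, one_mem _, 1, one_mem _, by simp, by simp⟩
  | mul x y _ _ hx hy =>
    obtain ⟨m, hm, c, hc, hcz, rfl⟩ := hx
    obtain ⟨m', hm', c', hc', hcz', rfl⟩ := hy
    refine ⟨m * (c * m' * c⁻¹), M.mul_mem hm ((mem_normalizer_iff.mp hc m').mp hm'), c * c',
      mul_mem hc hc', ?_, by group⟩
    calc c * c' * z = c * (c' * z) := by group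
      _ = c * (z * c') := by rw [hcz']
      _ = (c * z) * c' := by group
      _ = (z * c) * c' := by rw [hcz]
      _ = z * (c * c') := by group
  | inv x _ hx =>
    obtain ⟨m, hm, c, hc, hcz, rfl⟩ := hx
    have hci : c⁻¹ ∈ normalizer (M : Set G) := inv_mem hc
    refine ⟨c⁻¹ * m⁻¹ * c⁻¹⁻¹, (mem_normalizer_iff.mp hci _).mp (M.inv_mem hm), c⁻¹, hci, ?_, by group⟩
    calc c⁻¹ * z = c⁻¹ * (z * c) * c⁻¹ := by group
      _ = c⁻¹ * (c * z) * c⁻¹ := by rw [hcz]
      _ = z * c⁻¹ := by group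

/-- The case of all the non-trivial elements of `C(z)` having fixed points: `PSL(2, 2^e)`. -/
theorem three_psl [Fintype G] [Fintype Ω] (P : PlaneHyp M z p₀) (hf : 3 ≤ (fixF Ω z).card)
    (ha : Nat.card M = 2 * (fixF Ω z).card + 1) (hm : (Par Ω z).card = 2 * (fixF Ω z).card - 1) :
    ∃ (F : Type) (_ : Field F) (_ : Fintype F) (e : ℕ), 1 < e ∧ Fintype.card F = 2 ^ e ∧
      IsCyclic ↥M ∧ Nat.card M = 2 ^ e + 1 ∧
      Nonempty (G ≃* Matrix.ProjectiveSpecialLinearGroup (Fin 2) F) := by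
  classical
  set f := (fixF Ω z).card with hfdef
  set A := centralizer ({z} : Set G) with hAdef
  have hAmem : ∀ g, g ∈ A ↔ g * z = z * g := fun g => Subgroup.mem_centralizer_singleton_iff
  have hAcard : Nat.card A = 2 * f := P.card_A_three hf
  obtain ⟨hBB, hsq⟩ := P.three_data hf
  -- every non-trivial element of `A` has a fixed point
  have hPar : ∀ t ∈ A, t ≠ 1 → t ∈ Par Ω z := by
    have h1 : Par Ω z ⊆ (Finset.univ.filter fun g : G => g * z = z * g).erase 1 := by
      intro s hs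
      obtain ⟨h1, -, h3⟩ := mem_Par.mp hs
      exact Finset.mem_erase.mpr ⟨h1.2, Finset.mem_filter.mpr ⟨Finset.mem_univ _, h3⟩⟩
    have h3 : (Finset.univ.filter fun g : G => g * z = z * g).card = Nat.card A := by
      rw [Nat.card_eq_fintype_card, Fintype.card_subtype]
      congr 1
      ext g
      simp only [Finset.mem_filter, Finset.mem_univ, true_and]
      rw [hAmem]
    have h4 : ((Finset.univ.filter fun g : G => g * z = z * g).erase 1).card ≤ (Par Ω z).card := by
      rw [Finset.card_erase_of_mem (Finset.mem_filter.mpr ⟨Finset.mem_univ _, by simp⟩), h3, hAcard,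
        hm]
    have h5 := Finset.eq_of_subset_of_card_le h1 h4
    intro t ht ht1
    rw [h5]
    exact Finset.mem_erase.mpr ⟨ht1, Finset.mem_filter.mpr ⟨Finset.mem_univ _, (hAmem t).mp ht⟩⟩
  have hzA : z ∈ A := (hAmem z).mpr rfl
  have H : Sharp3Hyp A z := by
    refine ⟨hzA, P.zinv.2, fun t ht => hsq t ((hAmem t).mp ht), ?_, ?_⟩
    · intro t ht ht1 g hg
      obtain ⟨h1, ⟨q, h2⟩, h3⟩ := mem_Par.mp (hPar t ht ht1)
      rw [hAmem]
      exact P.comm_of_conj hf h1 h2 hg h3.symm
    · intro t ht ht1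
      obtain ⟨h1, ⟨q, h2⟩, h3⟩ := mem_Par.mp (hPar t ht ht1)
      obtain ⟨g, h4, -⟩ := P.conj_of_fix h1 h2
      exact ⟨g, h4⟩
  -- the order of `G`
  have hfpos : 0 < f := by omega
  have hn : Fintype.card Ω = f * (2 * f - 1) := by
    rw [P.card_parallel P.zinv, hm]
  have hG : Nat.card G = (2 * f + 1) * (2 * f * (2 * f - 1)) := by
    rw [P.card_G, P.card_N, P.card_B_two hf, Nat.card_eq_fintype_card (α := Ω), hn, ha]
    ring
  have hoddA : Odd (Nat.card A - 1) := by
    rw [hAcard]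
    exact ⟨f - 1, by omega⟩
  obtain ⟨F, iF, iK, hF, ⟨e₁⟩⟩ := H.exists_pgl hoddA (by rw [hAcard, hG])
  rw [hAcard] at hF
  -- characteristic two
  obtain ⟨p, hpc⟩ := CharP.exists F
  haveI hpp : Fact p.Prime := ⟨(CharP.char_is_prime_or_zero F p).resolve_right
    (fun h => by
      subst h
      exact CharP.char_ne_zero_of_finite F 0 rfl)⟩
  obtain ⟨n, hpn, hcard⟩ := FiniteField.card F p
  have hp2 : p = 2 := by
    have h : 2 ∣ p ^ (n : ℕ) := by
      rw [← hcard, hF]
      exact dvd_mul_right _ _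
    exact ((Nat.prime_dvd_prime_iff_eq Nat.prime_two hpn).mp
      (Nat.Prime.dvd_of_dvd_pow Nat.prime_two h)).symm
  subst hp2
  have h2 : (2 : F) = 0 := CharTwo.two_eq_zero
  obtain ⟨e₂⟩ := Cfsg.Agent.S4702.nonempty_sl_equiv_pgl F h2
  let φ : G ≃* PSL(2, F) := e₁.trans (e₂.symm.trans (pslEquivSL h2).symm)
  have hM2 : Nat.card M = 2 ^ (n : ℕ) + 1 := by
    rw [ha, ← hcard, hF]
  have hn1 : 1 < (n : ℕ) := by
    by_contra hlt
    have : (n : ℕ) = 1 := by
      have := n.pos
      omega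
    rw [this] at hcard
    omega
  refine ⟨F, iF, iK, n, hn1, hcard, ?_, hM2, ⟨φ⟩⟩
  -- `M` is cyclic
  let H' : Subgroup PSL(2, F) := M.map φ.toMonoidHom
  let eM : M ≃* H' := Subgroup.equivMapOfInjective M φ.toMonoidHom φ.injective
  have hModdcard : Odd (Nat.card M) := P.toTIHyp.odd_card
  have hH'odd : Odd (Nat.card H') := by
    rw [← Nat.card_congr eM.toEquiv]
    exact hModdcard
  haveI : Fact (Nat.Prime 2) := ⟨Nat.prime_two⟩
  have hcyc : IsCyclic H' := by
    apply cyclic_of_odd H' hH'odd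
    intro S hS
    -- `A` is a Sylow subgroup
    have hAp : IsPGroup 2 A := by
      intro g
      refine ⟨1, ?_⟩
      apply Subtype.ext
      show ((g : A) : G) ^ 2 ^ 1 = 1
      rw [pow_one, pow_two]
      exact hsq g ((hAmem g).mp g.2)
    have hAidx : ¬ 2 ∣ A.index := by
      have h1 := Subgroup.card_mul_index A
      rw [hAcard, hG] at h1
      have h5 : A.index = (2 * f + 1) * (2 * f - 1) := by
        have h6 : 2 * f * A.index = 2 * f * ((2 * f + 1) * (2 * f - 1)) := by
          rw [h1]; ring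
        exact Nat.eq_of_mul_eq_mul_left (by omega) h6
      rw [h5]
      have h7 : Odd ((2 * f + 1) * (2 * f - 1)) := by
        apply Odd.mul
        · exact ⟨f, rfl⟩
        · exact ⟨f - 1, by omega⟩
      rwa [← even_iff_two_dvd, Nat.not_even_iff_odd]
    let SA : Sylow 2 G := hAp.toSylow hAidx
    have hφrange : (S : Subgroup PSL(2, F)) ≤ φ.toMonoidHom.range := by
      intro y _
      exact ⟨φ.symm y, by simp⟩
    let Q : Sylow 2 G := S.comapOfInjective φ.toMonoidHom φ.injective hφrange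
    have hQ : ∀ y, y ∈ (Q : Subgroup G) ↔ φ y ∈ (S : Subgroup PSL(2, F)) := fun y => Iff.rfl
    obtain ⟨g, hg⟩ := MulAction.exists_smul_eq G SA Q
    have hQmem : ∀ y, y ∈ (Q : Subgroup G) ↔ g⁻¹ * y * g ∈ A := by
      intro y
      rw [← hg, Sylow.coe_subgroup_smul, Subgroup.mem_pointwise_smul_iff_inv_smul_mem]
      rw [MulAut.smul_def, ← map_inv, MulAut.conj_apply, inv_inv]
      exact Iff.rfl
    -- the conjugate of `M` lies in `N(A)`
    have hNle : ∀ x ∈ M, g⁻¹ * x * g ∈ normalizer (A : Set G) := by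
      intro x hx
      rw [mem_normalizer_iff]
      intro a
      have hφx : φ x ∈ normalizer ((S : Subgroup PSL(2, F)) : Set PSL(2, F)) := hS ⟨x, hx, rfl⟩
      rw [mem_normalizer_iff] at hφx
      have h1 : a ∈ A ↔ g * a * g⁻¹ ∈ (Q : Subgroup G) := by
        rw [hQmem]
        have : g⁻¹ * (g * a * g⁻¹) * g = a := by group
        rw [this]
      have h3 : g * a * g⁻¹ ∈ (Q : Subgroup G) ↔ x * (g * a * g⁻¹) * x⁻¹ ∈ (Q : Subgroup G) := by
        rw [hQ, hQ, hφx (φ (g * a * g⁻¹))]
        simp only [map_mul, map_inv]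
      have h4 : x * (g * a * g⁻¹) * x⁻¹ ∈ (Q : Subgroup G) ↔
          g⁻¹ * x * g * a * (g⁻¹ * x * g)⁻¹ ∈ A := by
        rw [hQmem]
        have : g⁻¹ * (x * (g * a * g⁻¹) * x⁻¹) * g = g⁻¹ * x * g * a * (g⁻¹ * x * g)⁻¹ := by group
        rw [this]
      rw [h1, h3, h4]
    let M' : Subgroup G := M.map (MulAut.conj g⁻¹).toMonoidHom
    have hM'le : M' ≤ normalizer (A : Set G) := by
      rintro _ ⟨x, hx, rfl⟩
      have := hNle x hx
      simpa [MulAut.conj_apply] using this
    have hM'card : Nat.card M' = Nat.card M :=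
      (Nat.card_congr (Subgroup.equivMapOfInjective M (MulAut.conj g⁻¹).toMonoidHom
        (MulAut.conj g⁻¹).injective).toEquiv).symm
    have hdvd := Subgroup.card_dvd_of_le hM'le
    rw [hM'card, H.card_normalizer, hAcard, ha] at hdvd
    have hc1 : Nat.Coprime (2 * f + 1) (2 * f) := by
      simp
    have hc2 : Nat.Coprime (2 * f + 1) (2 * f - 1) := by
      have h5 : 2 * f + 1 = (2 * f - 1) + 2 := by omega
      rw [h5]
      simp only [Nat.coprime_add_self_left, Nat.coprime_self_add_left]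
      have : Odd (2 * f - 1) := ⟨f - 1, by omega⟩
      exact Nat.coprime_two_left.mpr this
    have h6 := (hc1.mul_right hc2).eq_one_of_dvd hdvd
    omega
  exact isCyclic_of_surjective eM.symm.toMonoidHom eM.symm.surjective

/-- The case of a regular normal elementary abelian subgroup. -/
theorem three_affine [Fintype G] [Fintype Ω] (P : PlaneHyp M z p₀) (hf : 3 ≤ (fixF Ω z).card)
    (ha : Nat.card M = (fixF Ω z).card + 1) (hm : (Par Ω z).card = (fixF Ω z).card) :
    ∃ (d : ℕ) (E : Subgroup G), 1 ≤ d ∧ E.Normal ∧ Cfsg.IsElementaryAbelian 2 E ∧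
      Nat.card E = 2 ^ (2 * d) ∧ E ⊓ Subgroup.normalizer (M : Set G) = ⊥ ∧
      E ⊔ Subgroup.normalizer (M : Set G) = ⊤ ∧
      Nonempty (↥(Subgroup.normalizer (M : Set G)) ≃* DihedralGroup (2 ^ d + 1)) := by
  classical
  set f := (fixF Ω z).card with hfdef
  have hn : Fintype.card Ω = f * f := by
    rw [P.card_parallel P.zinv, hm]
  obtain ⟨E, hEn, hEsq, hE1, hE2, hEcard'⟩ := P.exists_regular_normal hf ha hn
  have hEcard : Nat.card E = f * f := hEcard'
  set A := centralizer ({z} : Set G) with hAdef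
  have hAmem : ∀ g, g ∈ A ↔ g * z = z * g := fun g => Subgroup.mem_centralizer_singleton_iff
  have hAcard : Nat.card A = 2 * f := P.card_A_three hf
  obtain ⟨hBB, hsq⟩ := P.three_data hf
  haveI : Fact (Nat.Prime 2) := ⟨Nat.prime_two⟩
  have hAp : IsPGroup 2 A := by
    intro g
    refine ⟨1, ?_⟩
    apply Subtype.ext
    show ((g : A) : G) ^ 2 ^ 1 = 1
    rw [pow_one, pow_two]
    exact hsq g ((hAmem g).mp g.2)
  obtain ⟨k, hk⟩ := IsPGroup.iff_card.mp hAp
  rw [hAcard] at hk
  obtain ⟨d, rfl⟩ : ∃ d, k = d + 1 := by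
    cases k with
    | zero => simp at hk
    | succ d => exact ⟨d, rfl⟩
  have hfd : f = 2 ^ d := by
    rw [pow_succ] at hk
    omega
  have hd : 1 ≤ d := by
    by_contra hlt
    have : d = 0 := by omega
    rw [this] at hfd
    omega
  have hEcomm : ∀ a ∈ E, ∀ b ∈ E, a * b = b * a := by
    intro a ha b hb
    have h1 := hEsq _ (E.mul_mem ha hb)
    have h2 := eq_inv_of_mul_eq_one_left h1
    rw [mul_inv_rev, inv_eq_of_mul_eq_one_left (hEsq a ha), inv_eq_of_mul_eq_one_left (hEsq b hb)]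
      at h2
    exact h2
  have hEab : Cfsg.IsElementaryAbelian 2 E := by
    refine ⟨⟨⟨fun a b => Subtype.ext (hEcomm _ a.2 _ b.2)⟩⟩, fun a ha => ?_⟩
    rw [pow_two]
    exact hEsq a ha
  have hEne : E ≠ ⊥ := by
    intro h
    rw [h, Subgroup.card_bot] at hEcard
    have : 9 ≤ f * f := Nat.mul_le_mul hf hf
    omega
  -- `M` is cyclic
  have hZ : IsZGroup M := by
    refine ⟨fun p hp Q => ?_⟩
    haveI : Fact p.Prime := ⟨hp⟩
    let Q' : Subgroup G := (Q : Subgroup M).map M.subtype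
    have hQ'M : Q' ≤ M := by
      rintro _ ⟨x, -, rfl⟩
      exact x.2
    let eQ : (Q : Subgroup M) ≃* Q' := Subgroup.equivMapOfInjective _ _ M.subtype_injective
    have hQ'p : IsPGroup p Q' := IsPGroup.of_equiv Q.isPGroup' eQ
    have hfpf : ∀ a ∈ Q', a ≠ 1 → ∀ v ∈ E, a * v = v * a → v = 1 := by
      intro a ha ha1 v hv hav
      by_contra hv1
      exact P.noinv a (hQ'M ha) ha1 v ⟨hEsq v hv, hv1⟩ hav.symm
    have hQ'N : Q' ≤ normalizer (E : Set G) := by
      rw [Subgroup.normalizer_eq_top_iff.mpr hEn]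
      exact le_top
    rcases Cfsg.Agent.Lib.Frobenius.SylowFpf.isCyclic_or_quaternion_of_fpf hEne hQ'N hfpf hQ'p with
      h | ⟨rfl, -⟩
    · exact isCyclic_of_surjective eQ.symm.toMonoidHom eQ.symm.surjective
    · -- a Sylow 2-subgroup of a group of odd order
      have hod := P.toTIHyp.odd_card
      have h1 : Nat.card Q ∣ Nat.card M := Subgroup.card_subgroup_dvd_card _
      obtain ⟨j, hj⟩ := IsPGroup.iff_card.mp Q.isPGroup'
      have h2 : j = 0 := by
        by_contra hne
        have h3 : 2 ∣ Nat.card Q := by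
          rw [hj]
          exact dvd_pow_self 2 hne
        exact (Nat.not_even_iff_odd.mpr hod) (even_iff_two_dvd.mpr (h3.trans h1))
      rw [h2, pow_zero] at hj
      haveI : Subsingleton (Q : Subgroup M) := (Nat.card_eq_one_iff_unique.mp hj).1
      exact isCyclic_of_subsingleton
  have hMcyc : IsCyclic M := by
    letI : CommGroup M := { (inferInstance : Group M) with
      mul_comm := fun a b => Subtype.ext (P.comm a.2 b.2) }
    haveI : Group.IsNilpotent M := CommGroup.isNilpotent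
    exact inferInstance
  -- `N` is dihedral
  set N := normalizer (M : Set G) with hN
  have hMN : M ≤ N := P.le_normalizer
  let M₁ : Subgroup N := M.subgroupOf N
  have hM₁card : Nat.card M₁ = Nat.card M := Nat.card_congr (Subgroup.subgroupOfEquivOfLe hMN).toEquiv
  have hM₁cyc : IsCyclic M₁ :=
    isCyclic_of_surjective (Subgroup.subgroupOfEquivOfLe hMN).symm.toMonoidHom
      (Subgroup.subgroupOfEquivOfLe hMN).symm.surjective
  have hNcard : Nat.card N = Nat.card M * 2 := by
    rw [hN, P.card_N, P.card_B_two hf]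
  have hidx : M₁.index = 2 := by
    have h1 := Subgroup.card_mul_index M₁
    rw [hM₁card, hNcard] at h1
    exact Nat.eq_of_mul_eq_mul_left Nat.card_pos h1
  have hzM₁ : (⟨z, P.zN⟩ : N) ∉ M₁ := by
    intro h
    exact P.z_not_mem (Subgroup.mem_subgroupOf.mp h)
  obtain ⟨e⟩ := Cfsg.Agent.Lib.PSL2.CosetIso.nonempty_equiv_dihedral M₁ hM₁cyc hidx ⟨z, P.zN⟩ hzM₁
    (Subtype.ext P.zinv.1)
    (by
      intro a ha
      apply Subtype.ext
      have h1 := P.inverts P.zN P.zinv (Subgroup.mem_subgroupOf.mp ha)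
      show z * (a : G) * z⁻¹ = (a : G)⁻¹
      rw [P.zinv.inv_eq]
      exact h1)
  refine ⟨d, E, hd, hEn, hEab, ?_, hE1, hE2, ?_⟩
  · rw [hEcard, hfd, two_mul, pow_add]
  · rw [hM₁card, ha, hfd] at e
    exact ⟨e⟩

/-- Let M be a nontrivial subgroup of a finite group G meeting each of its other conjugates trivially, with N_G(M) = M · C_{N_G(M)}(z) for some involution z ∈ N_G(M), and with C_G(x) of odd order for every nontrivial x ∈ M. Then one of the following holds: M is normal in G; the number of involutions of G is at most |G : M|; G is isomorphic to PGL₂(F) or to PSL₂(F) for a finite field F with |F| = |M|, M is an elementary abelian p-group for the characteristic p of F, and |F| ≡ 1 (mod 4) in the PSL₂ case; G is isomorphic to PSL₂(F) with |F| = 2^e, e > 1, and M is cyclic of order 2^e + 1; or for some d ≥ 1, G has an elementary abelian normal subgroup of order 2^{2d} complemented by N_G(M), and N_G(M) is dihedral of order 2(2^d + 1). -/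
theorem result {G : Type*} [Group G] [Finite G] (M : Subgroup G) (hM1 : M ≠ ⊥)
    (hTI : ∀ g : G, M ⊓ M.map (MulAut.conj g).toMonoidHom ≠ ⊥ → M.map (MulAut.conj g).toMonoidHom = M)
    (z : G) (hz : orderOf z = 2) (hzN : z ∈ Subgroup.normalizer (M : Set G))
    (hfac : M ⊔ (Subgroup.normalizer (M : Set G) ⊓ Subgroup.centralizer ({z} : Set G)) = Subgroup.normalizer (M : Set G))
    (hodd : ∀ x ∈ M, x ≠ 1 → Odd (Nat.card ↥(Subgroup.centralizer ({x} : Set G)))) :
    M.Normal ∨
    Nat.card {g : G // orderOf g = 2} ≤ M.index ∨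
    (∃ (F : Type) (_ : Field F) (_ : Fintype F) (p : ℕ) (_ : Fact p.Prime) (_ : CharP F p), Fintype.card F = Nat.card M ∧ Cfsg.IsElementaryAbelian p M ∧
        (Nonempty (G ≃* (GL (Fin 2) F ⧸ Subgroup.center (GL (Fin 2) F))) ∨
         (Fintype.card F % 4 = 1 ∧ Nonempty (G ≃* Matrix.ProjectiveSpecialLinearGroup (Fin 2) F)))) ∨
    (∃ (F : Type) (_ : Field F) (_ : Fintype F) (e : ℕ), 1 < e ∧ Fintype.card F = 2 ^ e ∧ IsCyclic ↥M ∧ Nat.card M = 2 ^ e + 1 ∧
        Nonempty (G ≃* Matrix.ProjectiveSpecialLinearGroup (Fin 2) F)) ∨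
    (∃ (d : ℕ) (E : Subgroup G), 1 ≤ d ∧ E.Normal ∧ Cfsg.IsElementaryAbelian 2 E ∧ Nat.card E = 2 ^ (2 * d) ∧
        E ⊓ Subgroup.normalizer (M : Set G) = ⊥ ∧ E ⊔ Subgroup.normalizer (M : Set G) = ⊤ ∧
        Nonempty (↥(Subgroup.normalizer (M : Set G)) ≃* DihedralGroup (2 ^ d + 1))) := by
  classical
  by_cases hn : M.Normal
  · exact Or.inl hn
  right
  by_cases hI : Nat.card {g : G // orderOf g = 2} ≤ M.index
  · exact Or.inl hI
  right
  push Not at hI
  haveI : Fintype G := Fintype.ofFinite G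
  have hzi : IsInv z := (isInv_iff_orderOf z).mpr hz
  have S : TIHyp M z := by
    refine ⟨hM1, ?_, hzi, hzN, ?_, ?_⟩
    · intro g x hx hx1 hg
      have h1 : M ⊓ M.map (MulAut.conj g).toMonoidHom ≠ ⊥ := by
        intro h
        have h2 : g * x * g⁻¹ ∈ M ⊓ M.map (MulAut.conj g).toMonoidHom :=
          ⟨hg, x, hx, by simp [MulAut.conj_apply]⟩
        rw [h, Subgroup.mem_bot] at h2
        apply hx1
        have : x = g⁻¹ * (g * x * g⁻¹) * g := by group
        rw [this, h2]; simp
      have h3 := hTI g h1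
      rw [mem_normalizer_iff]
      intro y
      constructor
      · intro hy
        rw [← h3]
        exact ⟨y, hy, by simp [MulAut.conj_apply]⟩
      · intro hy
        rw [← h3] at hy
        obtain ⟨y', hy', he⟩ := hy
        have : y' = y := by
          have h5 : g * y' * g⁻¹ = g * y * g⁻¹ := by
            simpa [MulAut.conj_apply] using he
          simpa using h5
        rwa [← this]
    · intro g hg
      exact fac_of_sup M z hfac g hg
    · intro x hx hx1 i hi h
      have h1 : Odd (Nat.card (centralizer ({x} : Set G))) := hodd x hx hx1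
      have h2 : i ∈ centralizer ({x} : Set G) := Subgroup.mem_centralizer_singleton_iff.mpr h
      have h3 : orderOf (⟨i, h2⟩ : centralizer ({x} : Set G)) = 2 := by
        rw [Subgroup.orderOf_mk]
        exact (isInv_iff_orderOf i).mp hi
      have h4 := orderOf_dvd_natCard (⟨i, h2⟩ : centralizer ({x} : Set G))
      rw [h3] at h4
      exact (Nat.not_even_iff_odd.mpr h1) (even_iff_two_dvd.mpr h4)
  -- the `G`-set `G / N`
  set N : Subgroup G := normalizer (M : Set G) with hN
  let Ω := G ⧸ N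
  haveI : Fintype Ω := Fintype.ofFinite Ω
  let p₀ : Ω := QuotientGroup.mk 1
  have hP : PlaneHyp M z p₀ := by
    refine ⟨S, ?_, ?_, S.exists_invol hI⟩
    · intro p
      obtain ⟨g, rfl⟩ := QuotientGroup.mk_surjective p
      refine ⟨g, ?_⟩
      show (QuotientGroup.mk (g * 1) : Ω) = _
      rw [mul_one]
    · intro g
      show (QuotientGroup.mk (g * 1) : Ω) = QuotientGroup.mk 1 ↔ _
      rw [QuotientGroup.eq]
      simp
      exact Iff.rfl
  have hfpos : 0 < (fixF Ω z).card := Finset.card_pos.mpr ⟨p₀, mem_fixF.mpr hP.z_fix⟩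
  by_cases hf3 : 3 ≤ (fixF Ω z).card
  · rcases hP.three_cases hf3 with ⟨ha, hm⟩ | ⟨ha, hm⟩
    · right; right
      exact three_affine hP hf3 ha hm
    · right; left
      exact three_psl hP hf3 ha hm
  · have hf12 : (fixF Ω z).card = 1 ∨ (fixF Ω z).card = 2 := by omega
    rcases hf12 with hf | hf
    · exfalso
      apply hn
      have h1 := hP.card_points
      rw [hf] at h1
      simp only [Nat.sub_self, mul_zero, add_zero] at h1
      have h2 : N.index = 1 := by
        rw [Subgroup.index, Nat.card_eq_fintype_card]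
        exact h1
      have h3 : N = ⊤ := Subgroup.index_eq_one.mp h2
      exact Subgroup.normalizer_eq_top_iff.mp h3
    · left
      obtain ⟨q₀, hq₀, hzq, hfixz⟩ := hP.exists_other hf
      rcases hP.two_cases hf hq₀ hzq hfixz with hb | hb
      · obtain ⟨F, iF, iK, p, hpp, hpc, h1, h2, ⟨e⟩⟩ := hP.two_pgl hf hq₀ hzq hfixz hb
        exact ⟨F, iF, iK, p, hpp, hpc, h1, h2, Or.inl ⟨e⟩⟩
      · obtain ⟨F, iF, iK, p, hpp, hpc, h1, h2, h3, h4⟩ := hP.two_psl hf hq₀ hzq hfixz hb
        exact ⟨F, iF, iK, p, hpp, hpc, h1, h2, Or.inr ⟨h3, h4⟩⟩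

end Cfsg.Agent.S3043
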