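import Cfsg.Statements.S1479
import Mathlib
import Cfsg.Agent.Lib.Nilpotent.CNMinimal
-- import your own Cfsg.Agent.* helpers here

set_option autoImplicit false
open Cfsg

namespace Cfsg.Agent.S1479

open Cfsg.Agent.Lib.Nilpotent.CNMinimal Cfsg.Agent.Lib.Nilpotent.CN

/-- Let G be a minimal simple group of odd order in which every non-identity element has nilpotent centralizer, and H a nilpotent subgroup contained in no larger nilpotent subgroup. Then the order of H is coprime to its index, H ∩ gHg⁻¹ = 1 whenever gHg⁻¹ ≠ H, N_G(H) is a maximal subgroup, and N_G(H) has a complement E to H acting on H without non-identity fixed points. Conversely, every maximal subgroup M of G has a normal nilpotent subgroup H, maximal among nilpotent subgroups of G, with a complement in M acting on H without non-identity fixed points. -/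
theorem result {G : Type*} [Group G] [Finite G] (hG : Cfsg.IsMinSimpleOddOrder G) (hCN : Cfsg.IsCNGroup G)  :
    (∀ H : Subgroup G, Group.IsNilpotent H → (∀ L : Subgroup G, Group.IsNilpotent L → H ≤ L → L = H) →
        (Nat.card H).Coprime H.index ∧ (∀ g : G, H.map (MulAut.conj g).toMonoidHom ≠ H → H ⊓ H.map (MulAut.conj g).toMonoidHom = ⊥) ∧
        IsCoatom (Subgroup.normalizer (H : Set G)) ∧
        ∃ E : Subgroup G, Cfsg.IsComplIn H E (Subgroup.normalizer (H : Set G)) ∧ E ≠ ⊥ ∧
          ∀ e ∈ E, e ≠ 1 → H ⊓ Subgroup.centralizer ({e} : Set G) = ⊥) ∧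
      ∀ M : Subgroup G, IsCoatom M → ∃ H E : Subgroup G, Group.IsNilpotent H ∧ (∀ L : Subgroup G, Group.IsNilpotent L → H ≤ L → L = H) ∧
        M ≤ Subgroup.normalizer (H : Set G) ∧ Cfsg.IsComplIn H E M ∧ H ≠ ⊥ ∧ E ≠ ⊥ ∧
        ∀ e ∈ E, e ≠ 1 → H ⊓ Subgroup.centralizer ({e} : Set G) = ⊥ := by
  classical
  refine ⟨?_, ?_⟩
  · intro H hH hmax
    have hH1 := maxNil_ne_bot hG hmax
    have hH2 := maxNil_ne_top hG hH
    have hNtop := normalizer_ne_top_of_ne hG hH1 hH2
    obtain ⟨M, hM, hle⟩ := (eq_top_or_exists_le_coatom (Subgroup.normalizer (H : Set G))).resolve_left hNtop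
    obtain ⟨E, hF⟩ := exists_frobData hG hCN hM
    obtain ⟨hHK, hNM⟩ := eq_kernel hG hCN hF hH hmax hle
    refine ⟨coprime_card_index hCN hH hmax, maxNil_TI hG hCN hH hmax, hNM ▸ hM, E, ?_, hF.hE1, ?_⟩
    · rw [hNM, hHK]
      exact ⟨hF.hKM, hF.hEM, hF.hinf, hF.hprod⟩
    · rw [hHK]
      exact hF.hfpf
  · intro M hM
    obtain ⟨E, hF⟩ := exists_frobData hG hCN hM
    exact ⟨Cfsg.fittingHallOf M, E, hF.hKnil, kernel_maxNil hG hCN hM hF, hF.hnorm,
      ⟨hF.hKM, hF.hEM, hF.hinf, hF.hprod⟩, hF.hK1, hF.hE1, hF.hfpf⟩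

end Cfsg.Agent.S1479
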