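import Cfsg.Statements.S1484
import Mathlib
import Cfsg.Agent.Lib.Nilpotent.CNMinimal
-- import your own Cfsg.Agent.* helpers here

set_option autoImplicit false
open Cfsg

namespace Cfsg.Agent.S1484

open Cfsg.Agent.Lib.Nilpotent.CNMinimal Cfsg.Agent.Lib.Nilpotent.CN Cfsg.Agent.Lib.Nilpotent.Elements

/-- Let G be a minimal simple group of odd order in which every non-identity element has nilpotent centralizer, and M₁, …, M_k maximal subgroups, pairwise non-conjugate, such that every maximal subgroup is conjugate to some M_i. Let H_i be the largest normal nilpotent Hall subgroup of M_i. Then the orders of the H_i are pairwise coprime, their product is the order of G, and every element of G is conjugate to an element of some H_i. -/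
theorem result {G : Type*} [Group G] [Finite G] (hG : Cfsg.IsMinSimpleOddOrder G) (hCN : Cfsg.IsCNGroup G) (k : ℕ) (Mrep : Fin k → Subgroup G) (hmax : ∀ i, IsCoatom (Mrep i))
    (hnc : ∀ i j, i ≠ j → ∀ g : G, Mrep j ≠ (Mrep i).map (MulAut.conj g).toMonoidHom) (hall : ∀ M : Subgroup G, IsCoatom M → ∃ i, ∃ g : G, M = (Mrep i).map (MulAut.conj g).toMonoidHom) :
    (∀ i j, i ≠ j → (Nat.card (Cfsg.fittingHallOf (Mrep i))).Coprime (Nat.card (Cfsg.fittingHallOf (Mrep j)))) ∧
      ∏ i, Nat.card (Cfsg.fittingHallOf (Mrep i)) = Nat.card G ∧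
      ∀ x : G, ∃ i, ∃ g : G, g * x * g⁻¹ ∈ Cfsg.fittingHallOf (Mrep i) := by
  classical
  -- the kernels
  have hdata : ∀ i, ∃ E, FrobData (Mrep i) (Cfsg.fittingHallOf (Mrep i)) E :=
    fun i => exists_frobData hG hCN (hmax i)
  choose E hF using hdata
  have hnil : ∀ i, Group.IsNilpotent (Cfsg.fittingHallOf (Mrep i)) := fun i => (hF i).hKnil
  have hmx : ∀ i, ∀ L : Subgroup G, Group.IsNilpotent L → Cfsg.fittingHallOf (Mrep i) ≤ L →
      L = Cfsg.fittingHallOf (Mrep i) := fun i => kernel_maxNil hG hCN (hmax i) (hF i)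
  have hN : ∀ i, Subgroup.normalizer (Cfsg.fittingHallOf (Mrep i) : Set G) = Mrep i := by
    intro i
    have hle : Mrep i ≤ Subgroup.normalizer (Cfsg.fittingHallOf (Mrep i) : Set G) := (hF i).hnorm
    have h1 := maxNil_ne_bot hG (hmx i)
    have h2 := maxNil_ne_top hG (hnil i)
    have htop := normalizer_ne_top_of_ne hG h1 h2
    apply le_antisymm _ hle
    by_contra hnot
    exact htop ((hmax i).2 _ (lt_of_le_of_ne hle (fun h => hnot (le_of_eq h.symm))))
  -- naturality of normalizers
  have hNconj : ∀ (K : Subgroup G) (g : G), Subgroup.normalizer ((K.map (MulAut.conj g).toMonoidHom : Subgroup G) : Set G)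
      = (Subgroup.normalizer (K : Set G)).map (MulAut.conj g).toMonoidHom := by
    intro K g
    apply le_antisymm
    · intro m hm
      refine ⟨g⁻¹ * m * g, Cfsg.Agent.S1478.conj_inv_mem_of_mem_normalizer_map hm, ?_⟩
      show g * (g⁻¹ * m * g) * g⁻¹ = m
      group
    · rintro _ ⟨m, hm, rfl⟩
      apply Cfsg.Agent.Lib.Coprime.Three.mem_normalizer_of_conj_mem
      rintro _ ⟨u, hu, rfl⟩
      refine ⟨m * u * m⁻¹, (Subgroup.mem_normalizer_iff.1 hm u).1 hu, ?_⟩
      show g * (m * u * m⁻¹) * g⁻¹ = (g * m * g⁻¹) * (g * u * g⁻¹) * (g * m * g⁻¹)⁻¹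
      group
  have hcop : ∀ i j, i ≠ j → (Nat.card (Cfsg.fittingHallOf (Mrep i))).Coprime (Nat.card (Cfsg.fittingHallOf (Mrep j))) := by
    intro i j hij
    by_contra hno
    obtain ⟨p, hp, h₁, h₂⟩ := Nat.Prime.not_coprime_iff_dvd.1 hno
    haveI : Fact p.Prime := ⟨hp⟩
    obtain ⟨g, hg⟩ := maxNil_conj_of_prime_dvd hG hCN (hnil i) (hmx i) (hnil j) (hmx j) h₁ h₂
    apply hnc i j hij g
    have := hNconj (Cfsg.fittingHallOf (Mrep i)) g
    rw [← hg, hN j, hN i] at this
    exact this
  have hconj : ∀ x : G, ∃ i, ∃ g : G, g * x * g⁻¹ ∈ Cfsg.fittingHallOf (Mrep i) := by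
    intro x
    by_cases hx : x = 1
    · subst hx
      have hne : (⊥ : Subgroup G) ≠ ⊤ := by
        haveI := hG.2.1
        exact bot_ne_top
      obtain ⟨M, hM⟩ : ∃ M : Subgroup G, IsCoatom M := by
        obtain ⟨M, hM, -⟩ := (eq_top_or_exists_le_coatom (⊥ : Subgroup G)).resolve_left hne
        exact ⟨M, hM⟩
      obtain ⟨i, -, -⟩ := hall M hM
      exact ⟨i, 1, by simp⟩
    · obtain ⟨H, hCH, hH, hmaxH⟩ := exists_maxNil_ge (hCN x hx)
      have hxH : x ∈ H := hCH (Subgroup.mem_centralizer_singleton_iff.2 rfl)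
      have hH1 := maxNil_ne_bot hG hmaxH
      have hH2 := maxNil_ne_top hG hH
      have hNtop := normalizer_ne_top_of_ne hG hH1 hH2
      obtain ⟨M, hM, hle⟩ := (eq_top_or_exists_le_coatom (Subgroup.normalizer (H : Set G))).resolve_left hNtop
      obtain ⟨E', hF'⟩ := exists_frobData hG hCN hM
      obtain ⟨hHK, hNM⟩ := eq_kernel hG hCN hF' hH hmaxH hle
      obtain ⟨i, g, hMi⟩ := hall M hM
      set K := Cfsg.fittingHallOf (Mrep i) with hK
      -- `K^g` is maximal nilpotent with normalizer `M`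
      have hKgnil := isNilpotent_map_conj (hnil i) g
      have hKgmax := maximal_map_conj (hmx i) g
      have hKgN : Subgroup.normalizer ((K.map (MulAut.conj g).toMonoidHom : Subgroup G) : Set G) = M := by
        rw [hNconj, hK, hN i, hMi]
      obtain ⟨h1, -⟩ := eq_kernel hG hCN hF' hKgnil hKgmax (le_of_eq hKgN)
      have hHeq : H = K.map (MulAut.conj g).toMonoidHom := hHK.trans h1.symm
      refine ⟨i, g⁻¹, ?_⟩
      have hx' : x ∈ K.map (MulAut.conj g).toMonoidHom := hHeq ▸ hxH
      obtain ⟨u, hu, huz⟩ := hx'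
      have huz' : g * u * g⁻¹ = x := huz
      rw [← huz']
      have : g⁻¹ * (g * u * g⁻¹) * g⁻¹⁻¹ = u := by group
      rw [this]
      exact hu
  refine ⟨hcop, ?_, hconj⟩
  -- the product formula
  set P := ∏ i, Nat.card (Cfsg.fittingHallOf (Mrep i)) with hP
  have hGpos : Nat.card G ≠ 0 := Nat.card_pos.ne'
  have hdvd1 : P ∣ Nat.card G := by
    have hall' : ∀ s : Finset (Fin k), ∏ i ∈ s, Nat.card (Cfsg.fittingHallOf (Mrep i)) ∣ Nat.card G := by
      intro s
      induction s using Finset.induction_on with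
      | empty => simp
      | insert a s ha ih =>
        rw [Finset.prod_insert ha]
        apply Nat.Coprime.mul_dvd_of_dvd_of_dvd
        · apply Nat.Coprime.prod_right
          intro j hj
          exact hcop a j (fun h => ha (h ▸ hj))
        · exact Subgroup.card_subgroup_dvd_card _
        · exact ih
    exact hall' Finset.univ
  have hPpos : P ≠ 0 := by
    intro h
    rw [h, zero_dvd_iff] at hdvd1
    exact hGpos hdvd1
  apply Nat.dvd_antisymm hdvd1
  rw [← Nat.factorization_prime_le_iff_dvd hGpos hPpos]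
  intro p hp
  haveI : Fact p.Prime := ⟨hp⟩
  by_cases hpG : p ∣ Nat.card G
  · obtain ⟨x, hx⟩ := exists_prime_orderOf_dvd_card' p hpG
    obtain ⟨i, g, hi⟩ := hconj x
    have hord : orderOf (g * x * g⁻¹) = p := by
      have := (MulAut.conj g).orderOf_eq x
      rw [MulAut.conj_apply] at this
      rw [this, hx]
    have hpi : p ∣ Nat.card (Cfsg.fittingHallOf (Mrep i)) := by
      rw [← hord]
      exact Subgroup.orderOf_dvd_natCard _ hi
    have hcop' := coprime_card_index hCN (hnil i) (hmx i)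
    have hmul := Subgroup.card_mul_index (Cfsg.fittingHallOf (Mrep i))
    have hpidx : ¬ p ∣ (Cfsg.fittingHallOf (Mrep i)).index := by
      intro hd
      exact hp.one_lt.ne' (Nat.eq_one_of_dvd_coprimes hcop' hpi hd)
    have hidx0 : (Cfsg.fittingHallOf (Mrep i)).index ≠ 0 := Subgroup.index_ne_zero_of_finite
    have hcard0 : Nat.card (Cfsg.fittingHallOf (Mrep i)) ≠ 0 := Nat.card_pos.ne'
    have h1 : (Nat.card G).factorization p = (Nat.card (Cfsg.fittingHallOf (Mrep i))).factorization p := by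
      rw [← hmul, Nat.factorization_mul hcard0 hidx0, Finsupp.add_apply,
        Nat.factorization_eq_zero_of_not_dvd hpidx, add_zero]
    rw [h1]
    have h2 : Nat.card (Cfsg.fittingHallOf (Mrep i)) ∣ P := Finset.dvd_prod_of_mem _ (Finset.mem_univ i)
    exact (Nat.factorization_le_iff_dvd hcard0 hPpos).2 h2 p
  · rw [Nat.factorization_eq_zero_of_not_dvd hpG]
    exact Nat.zero_le _

end Cfsg.Agent.S1484
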