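import Cfsg.Statements.S0670
import Mathlib
import Cfsg.Prelude.Def_Perm
import Cfsg.Agent.Lib.Perm.SylowTrans
import Cfsg.Agent.Lib.Blocks.PFixed

set_option autoImplicit false
open Cfsg

namespace Cfsg.Agent.S0670

/-- In characteristic `p`, the permutation module of a transitive action of degree `p ^ f` has the line of constant functions as its only irreducible submodule: every non-zero subrepresentation contains it. -/
theorem result {G : Type*} [Group G] [Finite G] {K : Type*} [Field K] {p f : ℕ} [Fact p.Prime] [CharP K p] {Ω : Type*} [Fintype Ω] [MulAction G Ω] [MulAction.IsPretransitive G Ω] (hf : 1 ≤ f) (hcard : Fintype.card Ω = p ^ f) (W : Subrepresentation (Cfsg.permRep K G Ω)) (hW : W.toSubmodule ≠ ⊥) : (Cfsg.permConstants K G Ω).toSubmodule ≤ W.toSubmodule := by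
  classical
  obtain ⟨P⟩ : Nonempty (Sylow p G) := inferInstance
  have htrans : MulAction.IsPretransitive (P : Subgroup G) Ω :=
    Cfsg.Agent.Lib.Perm.SylowTrans.isPretransitive_sylow (by rw [Nat.card_eq_fintype_card]; exact hcard) P
  obtain ⟨v, hv, hv0⟩ := W.toSubmodule.ne_bot_iff.mp hW
  -- the restriction of the representation to `W` and to `P`
  let ρ : Representation K (P : Subgroup G) W.toSubmodule :=
    W.toRepresentation.comp (P : Subgroup G).subtype
  obtain ⟨w, hw0, hw⟩ := Cfsg.Agent.Lib.Blocks.PFixed.exists_fixed_ne_zero (F := K) (p := p)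
    P.isPGroup' ρ ⟨v, hv⟩ (fun h => hv0 (congrArg Subtype.val h))
  have hw0' : (w : Ω → K) ≠ 0 := fun h => hw0 (Subtype.ext h)
  -- `w` is constant
  have hconst : ∀ x y : Ω, (w : Ω → K) x = (w : Ω → K) y := by
    intro x y
    obtain ⟨u, hu⟩ := MulAction.exists_smul_eq (P : Subgroup G) y x
    have h1 : (permRep K G Ω (u : G)) (w : Ω → K) = w := congrArg Subtype.val (hw u)
    have h2 := congrFun h1 x
    have h3 : (permRep K G Ω (u : G)) (w : Ω → K) x = (w : Ω → K) ((u : G)⁻¹ • x) := rfl
    rw [h3] at h2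
    rw [← h2]
    have h4 : ((u : G))⁻¹ • x = y := by
      rw [inv_smul_eq_iff]
      exact hu.symm
    rw [h4]
  obtain ⟨x, hx⟩ := Function.ne_iff.mp hw0'
  have hone : (fun _ : Ω => (1 : K)) ∈ W.toSubmodule := by
    have : (fun _ : Ω => (1 : K)) = ((w : Ω → K) x)⁻¹ • (w : Ω → K) := by
      funext y
      simp only [Pi.smul_apply, smul_eq_mul]
      rw [hconst y x, inv_mul_cancel₀ hx]
    rw [this]
    exact W.toSubmodule.smul_mem _ w.2
  change Submodule.span K {fun _ : Ω => (1 : K)} ≤ _
  rw [Submodule.span_le]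
  simpa using hone

end Cfsg.Agent.S0670
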