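import Cfsg.Statements.S0671
import Mathlib
import Cfsg.Prelude.Def_Perm
import Cfsg.Agent.S0670
import Cfsg.Agent.Lib.Perm.Basic

set_option autoImplicit false
open Cfsg

namespace Cfsg.Agent.S0671

open MulAction

variable {G : Type*} [Group G] [Finite G] {K : Type*} [Field K] {p f : ℕ} [Fact p.Prime] [CharP K p]
  {Ω : Type*} [Fintype Ω] [MulAction G Ω] [MulAction.IsPretransitive G Ω]

/-- The dual statement of `S0670`: every proper invariant subspace lies in the sum-zero functions. -/
theorem le_sumZero_of_ne_top (hf : 1 ≤ f) (hcard : Fintype.card Ω = p ^ f)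
    (U : Subrepresentation (permRep K G Ω)) (hU : U.toSubmodule ≠ ⊤) :
    U.toSubmodule ≤ (permSumZero K G Ω).toSubmodule := by
  classical
  -- a non-zero functional vanishing on `U`
  obtain ⟨φ, hφ0, hφU⟩ := Submodule.exists_le_ker_of_lt_top _ (lt_top_iff_ne_top.mpr hU)
  let w : Ω → K := fun x => φ (Pi.single x 1)
  have hφ : ∀ u : Ω → K, φ u = ∑ x, u x * w x := by
    intro u
    have hu : u = ∑ x, u x • (Pi.single x (1 : K) : Ω → K) := by
      funext y
      simp [Finset.sum_apply, Pi.single_apply]
    conv_lhs => rw [hu]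
    simp [map_sum, w]
  -- the annihilator of `U`
  let A : Subrepresentation (permRep K G Ω) :=
    { toSubmodule :=
        { carrier := {v | ∀ u ∈ U.toSubmodule, ∑ x, u x * v x = 0}
          add_mem' := by
            intro v₁ v₂ h₁ h₂ u hu
            simp only [Set.mem_ofPred_eq] at h₁ h₂
            simp only [Pi.add_apply, mul_add, Finset.sum_add_distrib, h₁ u hu, h₂ u hu, add_zero]
          zero_mem' := by intro u _; simp
          smul_mem' := by
            intro c v hv u hu
            simp only [Set.mem_ofPred_eq] at hv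
            simp only [Pi.smul_apply, smul_eq_mul]
            have := hv u hu
            calc ∑ x, u x * (c * v x) = c * ∑ x, u x * v x := by
                  rw [Finset.mul_sum]; exact Finset.sum_congr rfl fun x _ => by ring
              _ = 0 := by rw [this, mul_zero] }
      apply_mem_toSubmodule := by
        intro g v hv u hu
        have h1 := hv _ (U.apply_mem_toSubmodule g⁻¹ hu)
        have h2 : ∑ x, u x * (permRep K G Ω g v) x = ∑ x, (permRep K G Ω g⁻¹ u) x * v x := by
          refine Fintype.sum_equiv (MulAction.toPerm g⁻¹) _ _ fun x => ?_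
          show u x * v (g⁻¹ • x) = u (g⁻¹⁻¹ • (g⁻¹ • x)) * v (g⁻¹ • x)
          simp
        rw [h2]
        exact h1 }
  have hwA : w ∈ A.toSubmodule := by
    intro u hu
    rw [← hφ]
    exact hφU hu
  have hw0 : w ≠ 0 := by
    intro hw
    apply hφ0
    apply LinearMap.ext
    intro u
    rw [hφ]
    simp [hw]
  have hA : A.toSubmodule ≠ ⊥ := by
    intro h
    rw [h, Submodule.mem_bot] at hwA
    exact hw0 hwA
  have hone := Cfsg.Agent.S0670.result hf hcard A hA
  intro u hu
  have h1 : (fun _ : Ω => (1 : K)) ∈ A.toSubmodule :=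
    hone (Submodule.subset_span rfl)
  have h2 := h1 u hu
  show ∑ x, u x = 0
  simpa using h2

/-- If the heart of the permutation module in characteristic `p` of a transitive action of degree `p ^ f` has no trivial composition factor, the action is doubly transitive. The hypothesis is phrased without composition series: no invariant subspaces `W < W'` between the constants and the sum-zero functions with trivial action on the quotient. -/
theorem result {G : Type*} [Group G] [Finite G] {K : Type*} [Field K] {p f : ℕ} [Fact p.Prime] [CharP K p] {Ω : Type*} [Fintype Ω] [MulAction G Ω] [MulAction.IsPretransitive G Ω] (hf : 1 ≤ f) (hcard : Fintype.card Ω = p ^ f) (h : ∀ W W' : Subrepresentation (Cfsg.permRep K G Ω), (Cfsg.permConstants K G Ω).toSubmodule ≤ W.toSubmodule → W.toSubmodule < W'.toSubmodule → W'.toSubmodule ≤ (Cfsg.permSumZero K G Ω).toSubmodule → ∃ g : G, ∃ v ∈ W'.toSubmodule, Cfsg.permRep K G Ω g v - v ∉ W.toSubmodule) : MulAction.IsMultiplyPretransitive G Ω 2 := by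
  classical
  by_contra hnot
  obtain ⟨a⟩ : Nonempty Ω := by
    rw [← Fintype.card_pos_iff, hcard]
    exact pow_pos (Fact.out : p.Prime).pos f
  -- two points in different `G_a`-orbits
  obtain ⟨b, c, hb, hc, hbc⟩ : ∃ b c : Ω, b ≠ a ∧ c ≠ a ∧ ∀ g ∈ stabilizer G a, g • b ≠ c := by
    by_contra hcon
    push Not at hcon
    apply hnot
    exact Cfsg.Agent.Lib.Perm.Basic.isTwoPretransitive_of_stabilizer a hcon
  -- the orbital
  let D : Ω → Ω → Prop := fun x y => ∃ g : G, g • a = x ∧ g • b = y
  have hD : ∀ (g : G) (x y : Ω), D (g • x) (g • y) ↔ D x y := by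
    intro g x y
    constructor
    · rintro ⟨u, h1, h2⟩
      exact ⟨g⁻¹ * u, by rw [mul_smul, h1, inv_smul_smul], by rw [mul_smul, h2, inv_smul_smul]⟩
    · rintro ⟨u, h1, h2⟩
      exact ⟨g * u, by rw [mul_smul, h1], by rw [mul_smul, h2]⟩
  let T : (Ω → K) →ₗ[K] (Ω → K) :=
    { toFun := fun v x => ∑ y, if D x y then v y else 0
      map_add' := by
        intro v₁ v₂
        funext x
        simp only [Pi.add_apply]
        rw [← Finset.sum_add_distrib]
        refine Finset.sum_congr rfl fun y _ => ?_
        split_ifs <;> simp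
      map_smul' := by
        intro c v
        funext x
        simp only [Pi.smul_apply, smul_eq_mul, RingHom.id_apply]
        rw [Finset.mul_sum]
        refine Finset.sum_congr rfl fun y _ => ?_
        split_ifs <;> simp }
  have hTapply : ∀ (v : Ω → K) (x : Ω), T v x = ∑ y, if D x y then v y else 0 := fun _ _ => rfl
  set ρ := permRep K G Ω with hρ
  have hρapply : ∀ (g : G) (v : Ω → K) (x : Ω), ρ g v x = v (g⁻¹ • x) := fun _ _ _ => rfl
  have hcomm : ∀ (g : G) (v : Ω → K), T (ρ g v) = ρ g (T v) := by
    intro g v
    funext x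
    rw [hTapply, hρapply, hTapply]
    refine Fintype.sum_equiv (MulAction.toPerm g⁻¹) _ _ fun y => ?_
    have : D x y ↔ D (g⁻¹ • x) (g⁻¹ • y) := (hD g⁻¹ x y).symm
    simp only [this, hρapply]
    rfl
  have hone : ∀ g : G, ρ g (fun _ => (1 : K)) = fun _ => 1 := fun g => rfl
  -- `T` acts on constants by a scalar
  set l : K := T (fun _ => 1) a with hl
  have hTone : T (fun _ => 1) = l • fun _ => 1 := by
    funext x
    obtain ⟨g, hg⟩ := MulAction.exists_smul_eq G x a
    have h1 := congrFun (hcomm g (fun _ => 1)) a
    rw [hone, hρapply] at h1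
    simp only [Pi.smul_apply, smul_eq_mul, mul_one]
    have hx : g⁻¹ • a = x := by rw [inv_smul_eq_iff, hg]
    rw [hx] at h1
    exact h1.symm
  let T1 : (Ω → K) →ₗ[K] (Ω → K) := T - l • LinearMap.id
  have hT1apply : ∀ v, T1 v = T v - l • v := fun _ => rfl
  have hT1one : T1 (fun _ => 1) = 0 := by
    rw [hT1apply, hTone]; simp
  have hcomm1 : ∀ (g : G) (v : Ω → K), T1 (ρ g v) = ρ g (T1 v) := by
    intro g v
    rw [hT1apply, hT1apply, map_sub, map_smul, hcomm]
  set one : Ω → K := fun _ => 1 with hone_def
  have hconst : (permConstants K G Ω).toSubmodule = Submodule.span K {one} := rfl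
  -- the kernel and the preimage of the constants
  let W : Subrepresentation ρ :=
    { toSubmodule := LinearMap.ker T1
      apply_mem_toSubmodule := by
        intro g v hv
        rw [LinearMap.mem_ker] at hv ⊢
        rw [hcomm1, hv, map_zero] }
  let W' : Subrepresentation ρ :=
    { toSubmodule := (Submodule.span K {one}).comap T1
      apply_mem_toSubmodule := by
        intro g v hv
        rw [Submodule.mem_comap, Submodule.mem_span_singleton] at hv ⊢
        obtain ⟨t, ht⟩ := hv
        refine ⟨t, ?_⟩
        rw [hcomm1, ← ht, map_smul]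
        rfl }
  have hWW' : W.toSubmodule ≤ W'.toSubmodule := by
    intro v hv
    change T1 v ∈ Submodule.span K {one}
    have hv' : T1 v = 0 := hv
    rw [hv']
    exact Submodule.zero_mem _
  -- `T1` of the delta function at `c` is not constant
  have hnotconst : ¬ ∃ t : K, T1 (Pi.single c 1) = t • one := by
    rintro ⟨t, ht⟩
    obtain ⟨g, hg⟩ := MulAction.exists_smul_eq G b c
    have hval : ∀ x, T1 (Pi.single c 1) x = (if D x c then (1 : K) else 0) - l * (if x = c then 1 else 0) := by
      intro x
      rw [hT1apply]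
      simp only [Pi.sub_apply, Pi.smul_apply, smul_eq_mul]
      congr 1
      · rw [hTapply]
        rw [Finset.sum_eq_single c]
        · simp
        · intro y _ hy
          simp [hy]
        · simp
      · congr 1
        simp only [Pi.single_apply]
    have h1 := congrFun ht (g • a)
    have h2 := congrFun ht a
    rw [hval] at h1 h2
    have hgac : g • a ≠ c := by
      rw [← hg]
      exact fun h => hb (MulAction.injective g h).symm
    have hDg : D (g • a) c := ⟨g, rfl, hg⟩
    have hDa : ¬ D a c := by
      rintro ⟨u, hu1, hu2⟩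
      exact hbc u hu1 hu2
    simp only [hDg, if_true, hgac, if_false, mul_zero, sub_zero, Pi.smul_apply, smul_eq_mul, hone_def,
      mul_one] at h1
    simp only [hDa, if_false, hc.symm, mul_zero, sub_zero, Pi.smul_apply, smul_eq_mul, hone_def,
      mul_one] at h2
    rw [← h1] at h2
    exact one_ne_zero h2.symm
  -- so `W'` is proper
  have hW'top : W'.toSubmodule ≠ ⊤ := by
    intro htop
    have : Pi.single c (1 : K) ∈ W'.toSubmodule := by rw [htop]; trivial
    have h3 : T1 (Pi.single c 1) ∈ Submodule.span K {one} := this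
    rw [Submodule.mem_span_singleton] at h3
    obtain ⟨t, ht⟩ := h3
    exact hnotconst ⟨t, ht.symm⟩
  have hW'Z := le_sumZero_of_ne_top hf hcard W' hW'top
  -- the image of `T1` contains the constants
  let I : Subrepresentation ρ :=
    { toSubmodule := LinearMap.range T1
      apply_mem_toSubmodule := by
        rintro g _ ⟨v, rfl⟩
        exact ⟨ρ g v, hcomm1 g v⟩ }
  have hI : I.toSubmodule ≠ ⊥ := by
    intro hbot
    have : T1 (Pi.single c 1) = 0 := by
      have h1 : T1 (Pi.single c 1) ∈ I.toSubmodule := ⟨_, rfl⟩
      rw [hbot, Submodule.mem_bot] at h1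
      exact h1
    exact hnotconst ⟨0, by rw [this, zero_smul]⟩
  have hIone : one ∈ I.toSubmodule := Cfsg.Agent.S0670.result hf hcard I hI (Submodule.subset_span rfl)
  obtain ⟨v, hv⟩ := hIone
  have hvW' : v ∈ W'.toSubmodule := by
    change T1 v ∈ Submodule.span K {one}
    rw [hv]
    exact Submodule.subset_span rfl
  have hvW : v ∉ W.toSubmodule := by
    intro hvW
    have : T1 v = 0 := hvW
    rw [hv] at this
    have := congrFun this a
    simp [hone_def] at this
  have hlt : W.toSubmodule < W'.toSubmodule := lt_of_le_of_ne hWW' (fun heq => hvW (heq ▸ hvW'))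
  have hconstW : (permConstants K G Ω).toSubmodule ≤ W.toSubmodule := by
    rw [hconst, Submodule.span_le]
    rintro _ rfl
    exact hT1one
  obtain ⟨g, u, hu, hgu⟩ := h W W' hconstW hlt hW'Z
  apply hgu
  change T1 (ρ g u - u) = 0
  rw [map_sub, hcomm1]
  have hu' : T1 u ∈ Submodule.span K {one} := hu
  rw [Submodule.mem_span_singleton] at hu'
  obtain ⟨t, ht⟩ := hu'
  rw [← ht, map_smul]
  have : ρ g one = one := rfl
  rw [this, sub_self]

end Cfsg.Agent.S0671
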