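import Cfsg.Statements.S0675
import Mathlib
import Cfsg.Agent.S0671
import Cfsg.Agent.S0674
-- import your own Cfsg.Agent.* helpers here

set_option autoImplicit false
open Cfsg

namespace Cfsg.Agent.S0675

/-- Burnside's Theorem on permutation groups of prime degree: a transitive permutation group of prime degree that is not solvable is doubly transitive. -/
theorem result {α : Type*} [Fintype α] [DecidableEq α] (hα : (Fintype.card α).Prime) (G : Subgroup (Equiv.Perm α)) [MulAction.IsPretransitive G α] : Group.IsSolvable G ∨ MulAction.IsMultiplyPretransitive G α 2 := by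
  classical
  by_cases hsol : Group.IsSolvable G
  · exact Or.inl hsol
  right
  set p := Fintype.card α with hp
  haveI hpF : Fact p.Prime := ⟨hα⟩
  let K := ZMod p
  refine Cfsg.Agent.S0671.result (G := G) (K := ZMod p) (p := p) (f := 1) le_rfl (by simp [hp]) ?_
  intro W W' hcW hWW' hW'S
  have hWS : W.toSubmodule ≤ (Cfsg.permSumZero (ZMod p) G α).toSubmodule := hWW'.le.trans hW'S
  have hcW' : (Cfsg.permConstants (ZMod p) G α).toSubmodule ≤ W'.toSubmodule := hcW.trans hWW'.le
  have h1 := Cfsg.Agent.S0674.result (K := ZMod p) hp.symm G hsol W hcW hWS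
  have h2 := Cfsg.Agent.S0674.result (K := ZMod p) hp.symm G hsol W' hcW' hW'S
  have hWc : W = Cfsg.permConstants (ZMod p) G α := by
    rcases h1 with h | h
    · exact h
    · exfalso
      rw [h] at hWW'
      exact absurd hW'S (not_le_of_gt hWW')
  have hW'c : W' = Cfsg.permSumZero (ZMod p) G α := by
    rcases h2 with h | h
    · exfalso
      rw [h] at hWW'
      exact absurd hcW (not_le_of_gt hWW')
    · exact h
  subst hWc
  subst hW'c
  by_contra hcon
  push Not at hcon
  apply hsol
  -- every element of `G` has `p`-power order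
  have hpg : IsPGroup p G := by
    intro g
    refine ⟨2, ?_⟩
    let T : Module.End (ZMod p) (α → ZMod p) := Cfsg.permRep (ZMod p) G α g
    have hT : ∀ (v : α → ZMod p) (x : α), T v x = v (g⁻¹ • x) := fun _ _ => rfl
    have hA1 : ∀ u : α → ZMod p, (T - 1) u ∈ (Cfsg.permSumZero (ZMod p) G α).toSubmodule := by
      intro u
      show ∑ x, ((T - 1) u) x = 0
      simp only [LinearMap.sub_apply, Module.End.one_apply, Pi.sub_apply, hT]
      rw [Finset.sum_sub_distrib, sub_eq_zero]
      exact Fintype.sum_equiv (MulAction.toPerm g⁻¹) _ _ (fun x => rfl)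
    have hA2 : ∀ u ∈ (Cfsg.permSumZero (ZMod p) G α).toSubmodule,
        (T - 1) u ∈ (Cfsg.permConstants (ZMod p) G α).toSubmodule := by
      intro u hu
      exact hcon g u hu
    have hA3 : ∀ u ∈ (Cfsg.permConstants (ZMod p) G α).toSubmodule, (T - 1) u = 0 := by
      intro u hu
      obtain ⟨c, rfl⟩ := Submodule.mem_span_singleton.mp hu
      ext x
      simp [LinearMap.sub_apply, hT]
    have hcube : (T - 1) ^ 3 = 0 := by
      refine LinearMap.ext fun u => ?_
      rw [pow_succ, pow_two, Module.End.mul_apply, Module.End.mul_apply]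
      exact hA3 _ (hA2 _ (hA1 u))
    have hnt : Nontrivial (Module.End (ZMod p) (α → ZMod p)) := by
      haveI : Nonempty α := Fintype.card_pos_iff.mp hα.pos
      infer_instance
    haveI : CharP (Module.End (ZMod p) (α → ZMod p)) p :=
      charP_of_injective_algebraMap (algebraMap (ZMod p) _).injective p
    have hTp : T ^ (p ^ 2) = 1 := by
      have h3 := sub_pow_char_pow_of_commute (p := p) (n := 2) (Commute.one_right T)
      rw [one_pow] at h3
      have h4 : (T - 1) ^ (p ^ 2) = 0 := by
        apply pow_eq_zero_of_le _ hcube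
        have : 2 ≤ p := hα.two_le
        nlinarith
      rw [h4] at h3
      exact (sub_eq_zero.mp h3.symm)
    have hrep : Cfsg.permRep (ZMod p) G α (g ^ (p ^ 2)) = 1 := by
      rw [map_pow]
      exact hTp
    apply Subtype.ext
    ext x
    have h5 := LinearMap.congr_fun hrep (Pi.single x 1)
    have h6 := congrFun h5 x
    have h7 : (Pi.single x (1 : ZMod p) : α → ZMod p) ((g ^ (p ^ 2))⁻¹ • x) =
        (Pi.single x (1 : ZMod p) : α → ZMod p) x := h6
    rw [Pi.single_eq_same] at h7
    have h8 : (g ^ (p ^ 2))⁻¹ • x = x := by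
      by_contra hne
      rw [Pi.single_eq_of_ne hne] at h7
      exact zero_ne_one h7
    have h9 : (g ^ (p ^ 2)) • x = x := by
      conv_lhs => rw [← h8]
      rw [smul_inv_smul]
    exact h9
  haveI : Group.IsNilpotent G := hpg.isNilpotent
  infer_instance

end Cfsg.Agent.S0675
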