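import Cfsg.Statements.S3058
import Cfsg.Agent.S3056
import Cfsg.Agent.Lib.Coprime.FrattiniAct
import Cfsg.Agent.Lib.Coprime.Coset
import Cfsg.Agent.Lib.PGroup.Basic
import Mathlib

set_option autoImplicit false
open Cfsg

namespace Cfsg.Agent.S3058

open Cfsg.Agent.Lib.Coprime.Three Cfsg.Agent.S3056

/-- An element whose order is a power of `p` generates a `p`-group. -/
theorem isPGroup_zpowers_of_order {G : Type*} [Group G] {p : ℕ} {y : G} (hy : y ^ p = 1) :
    IsPGroup p (Subgroup.zpowers y) := by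
  rintro ⟨_, i, rfl⟩
  refine ⟨1, ?_⟩
  apply Subtype.ext
  show (y ^ i) ^ p ^ 1 = 1
  rw [pow_one, ← zpow_natCast, ← zpow_mul, mul_comm, zpow_mul, zpow_natCast, hy, one_zpow]

/-- Let p be a prime and G a finite group whose Sylow p-subgroups are not chain-connected through nontrivial intersections (so G has a strongly p-embedded subgroup). If N and M are normal subgroups of G whose orders are both divisible by p, then the order of N ∩ M is divisible by p. Consequently, among the normal subgroups of G whose order is divisible by p there is a smallest one (the intersection of all of them). -/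
theorem result {G : Type*} [Group G] [Finite G]
    (p : ℕ) [Fact p.Prime] (hG : ¬ Cfsg.IsSylowChainConnected p G)
    (N M : Subgroup G) [N.Normal] [M.Normal] (hN : p ∣ Nat.card N) (hM : p ∣ Nat.card M) :
    p ∣ Nat.card ↥(N ⊓ M) := by
  classical
  have hpp : p.Prime := Fact.out
  by_contra hD
  obtain ⟨H, hHne, hHp, hH⟩ := (Cfsg.Agent.S3056.result p).mp hG
  obtain ⟨S, hSH, hSne⟩ := exists_sylow_le_of_strongly_embedded hHp hH
  have key := mem_of_strongly_embedded hH
  -- elements of order `p` of a normal subgroup in `S`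
  have hsel : ∀ L : Subgroup G, L.Normal → p ∣ Nat.card L →
      ∃ a ∈ L, a ∈ (S : Subgroup G) ∧ orderOf a = p := by
    intro L hL hLd
    obtain ⟨a₀, ha₀⟩ := exists_prime_orderOf_dvd_card' (G := L) p hLd
    have hao : orderOf (a₀ : G) = p := (Subgroup.orderOf_coe a₀).trans ha₀
    have ha₀p : (a₀ : G) ^ p = 1 := by rw [← hao]; exact pow_orderOf_eq_one _
    obtain ⟨T, hT⟩ := (isPGroup_zpowers_of_order ha₀p).exists_le_sylow
    obtain ⟨k, hk⟩ := MulAction.exists_smul_eq G S T
    have h1 : (a₀ : G) ∈ (T : Subgroup G) := hT (Subgroup.mem_zpowers _)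
    rw [← hk, coe_smul] at h1
    obtain ⟨s, hs, hse⟩ := h1
    have hse' : k * s * k⁻¹ = (a₀ : G) := hse
    have hsa : s = k⁻¹ * (a₀ : G) * k⁻¹⁻¹ := by rw [← hse']; group
    refine ⟨s, ?_, hs, ?_⟩
    · rw [hsa]
      exact hL.conj_mem _ a₀.2 _
    · rw [← hao, ← hse', ← MulAut.conj_apply, MulEquiv.orderOf_eq]
  obtain ⟨a, haN, haS, hao⟩ := hsel N inferInstance hN
  obtain ⟨b, hbM, hbS, hbo⟩ := hsel M inferInstance hM
  have hDn : (N ⊓ M).Normal := Subgroup.normal_inf_normal N M
  have hcopD : ∀ (x : G), x ∈ (N ⊓ M) → ∀ m : ℕ, x ^ p ^ m = 1 → x = 1 := by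
    intro x hx m hxm
    have hd1 : orderOf x ∣ p ^ m := orderOf_dvd_of_pow_eq_one hxm
    have hd2 : orderOf x ∣ Nat.card ↥(N ⊓ M) := Subgroup.orderOf_dvd_natCard _ hx
    have hcop : (p ^ m).Coprime (Nat.card ↥(N ⊓ M)) :=
      Nat.Coprime.pow_left m ((Nat.Prime.coprime_iff_not_dvd hpp).mpr hD)
    have := Nat.dvd_gcd hd1 hd2
    rw [hcop] at this
    exact orderOf_eq_one_iff.mp (Nat.dvd_one.mp this)
  have hbD : b ∉ N ⊓ M := by
    intro hbin
    have h1 : orderOf b ∣ Nat.card ↥(N ⊓ M) := Subgroup.orderOf_dvd_natCard _ hbin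
    rw [hbo] at h1
    exact hD h1
  have hcomN : ∀ n ∈ N, ∀ m ∈ M, n * m * n⁻¹ * m⁻¹ ∈ N ⊓ M := by
    intro n hn m hm
    constructor
    · have h1 : n * m * n⁻¹ * m⁻¹ = n * (m * n⁻¹ * m⁻¹) := by group
      rw [h1]
      exact N.mul_mem hn ((inferInstance : N.Normal).conj_mem _ (N.inv_mem hn) m)
    · exact M.mul_mem ((inferInstance : M.Normal).conj_mem _ hm n) (M.inv_mem hm)
  have hab : a * b = b * a := by
    have h1 : a * b * a⁻¹ * b⁻¹ ∈ N ⊓ M := hcomN a haN b hbM
    have h2 : a * b * a⁻¹ * b⁻¹ ∈ (S : Subgroup G) :=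
      Subgroup.mul_mem _ (Subgroup.mul_mem _ (Subgroup.mul_mem _ haS hbS) (Subgroup.inv_mem _ haS))
        (Subgroup.inv_mem _ hbS)
    obtain ⟨m, hm⟩ := S.isPGroup' ⟨_, h2⟩
    have h3 : (a * b * a⁻¹ * b⁻¹) ^ p ^ m = 1 := by
      have := congrArg Subtype.val hm
      simpa using this
    have h4 := hcopD _ h1 m h3
    rw [mul_inv_eq_one, mul_inv_eq_iff_eq_mul] at h4
    exact h4
  have hap : a ^ p = 1 := by rw [← hao]; exact pow_orderOf_eq_one a
  have hbp : b ^ p = 1 := by rw [← hbo]; exact pow_orderOf_eq_one b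
  -- the noncyclic elementary abelian subgroup
  set A₁ : Subgroup G := (⊥ : Subgroup G) ⊔ Subgroup.zpowers a with hA₁
  have hA₁e : Cfsg.IsElementaryAbelian p A₁ :=
    Cfsg.Agent.Lib.PGroup.Basic.IsElementaryAbelian.sup_zpowers
      Cfsg.Agent.Lib.PGroup.Basic.isElementaryAbelian_bot hap
      (fun x hx => by rw [Subgroup.mem_bot] at hx; rw [hx]; group)
  have hA₁z : A₁ = Subgroup.zpowers a := bot_sup_eq _
  set U : Subgroup G := A₁ ⊔ Subgroup.zpowers b with hU
  have hUe : Cfsg.IsElementaryAbelian p U :=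
    Cfsg.Agent.Lib.PGroup.Basic.IsElementaryAbelian.sup_zpowers hA₁e hbp
      (fun x hx => by
        rw [hA₁z] at hx
        obtain ⟨i, rfl⟩ := hx
        exact ((Commute.zpow_left (show Commute a b from hab) i).eq).symm)
  have haU : a ∈ U := (le_sup_left : A₁ ≤ U) (by rw [hA₁z]; exact Subgroup.mem_zpowers a)
  have hbU : b ∈ U := (le_sup_right : Subgroup.zpowers b ≤ U) (Subgroup.mem_zpowers b)
  have hUnc : ¬ IsCyclic ↥U := by
    intro hcyc
    obtain ⟨g, hg⟩ := hcyc.exists_generator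
    have hgp : g ^ p = 1 := by
      apply Subtype.ext
      exact hUe.2 g g.2
    have hcard : Nat.card U ≤ p := by
      have h1 : Nat.card U = orderOf g := by
        rw [← Nat.card_zpowers]
        have : Subgroup.zpowers g = ⊤ := by
          rw [eq_top_iff]
          intro x _
          exact hg x
        rw [this, Subgroup.card_top]
      rw [h1]
      exact Nat.le_of_dvd hpp.pos (orderOf_dvd_of_pow_eq_one hgp)
    have hzle : Subgroup.zpowers a ≤ U := Subgroup.zpowers_le.mpr haU
    have hzcard : Nat.card (Subgroup.zpowers a) = p := by rw [Nat.card_zpowers, hao]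
    have hzeq : Subgroup.zpowers a = U :=
      Subgroup.eq_of_le_of_card_ge hzle (by rw [hzcard]; exact hcard)
    apply hbD
    refine ⟨?_, hbM⟩
    have h1 : b ∈ Subgroup.zpowers a := by rw [hzeq]; exact hbU
    exact (Subgroup.zpowers_le.mpr haN) h1
  have hUp : IsPGroup p U := Cfsg.Agent.Lib.Coprime.GenerationE.isPGroup_of_isElementaryAbelian hUe
  have hUH : U ≤ H := by
    refine sup_le (sup_le bot_le ?_) ?_
    · exact Subgroup.zpowers_le.mpr (hSH haS)
    · exact Subgroup.zpowers_le.mpr (hSH hbS)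
  have hnormD : ∀ g : G, g ∈ Subgroup.normalizer ((N ⊓ M : Subgroup G) : Set G) := fun g =>
    mem_normalizer_of_conj_mem fun e he => hDn.conj_mem e he g
  have hDH : N ⊓ M ≤ H := by
    refine Cfsg.Agent.Lib.Coprime.FrattiniAct.le_of_forall_centralizer hUe hUnc hD
      (fun u _ => hnormD u) ?_
    rintro u hu hu1 x ⟨-, hxC⟩
    have hxu : u * x = x * u := (Subgroup.mem_centralizer_iff.mp hxC) u rfl
    have huk : u ^ p = 1 := hUe.2 u hu
    refine key (Subgroup.zpowers u) x (isPGroup_zpowers_of_order huk) (by simpa using hu1)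
      (Subgroup.zpowers_le.mpr (hUH hu)) ?_
    rw [Subgroup.zpowers_le]
    refine ⟨u, hUH hu, ?_⟩
    show x * u * x⁻¹ = u
    rw [← hxu]; group
  have hNH : N ≤ H := by
    intro n hn
    have hnbc : n * b * n⁻¹ * b⁻¹ ∈ N ⊓ M := hcomN n hn b hbM
    have hcop : (Nat.card (Subgroup.zpowers b)).Coprime (Nat.card ↥(N ⊓ M)) := by
      rw [Nat.card_zpowers, hbo]
      exact (Nat.Prime.coprime_iff_not_dvd hpp).mpr hD
    obtain ⟨d, hdD, hdmap⟩ := Cfsg.Agent.Lib.Coprime.Coset.exists_conj_eq_of_card_eq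
      (A := Subgroup.zpowers b) (N := N ⊓ M) (A' := Subgroup.zpowers (n * b * n⁻¹))
      (fun u _ => hnormD u) hcop (Or.inl inferInstance)
      (by
        rw [Subgroup.zpowers_le]
        have h1 : n * b * n⁻¹ = (n * b * n⁻¹ * b⁻¹) * b := by group
        rw [h1]
        exact Subgroup.mul_mem _ ((le_sup_left : N ⊓ M ≤ _) hnbc)
          ((le_sup_right : Subgroup.zpowers b ≤ _) (Subgroup.mem_zpowers b)))
      (by
        rw [Nat.card_zpowers, Nat.card_zpowers, ← MulAut.conj_apply, MulEquiv.orderOf_eq])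
    have hdH : d ∈ H := hDH hdD
    have hx : d⁻¹ * n ∈ H := by
      refine key (Subgroup.zpowers b) _ (isPGroup_zpowers_of_order hbp) (by
        intro hb
        rw [Subgroup.zpowers_eq_bot] at hb
        rw [hb, orderOf_one] at hbo
        exact hpp.one_lt.ne hbo) (Subgroup.zpowers_le.mpr (hSH hbS)) ?_
      rw [Subgroup.zpowers_le]
      -- `b` is conjugate into `H`
      have h1 : b ∈ Subgroup.zpowers b := Subgroup.mem_zpowers b
      -- the map by `d⁻¹ n` fixes `⟨b⟩`
      have hfix : (Subgroup.zpowers b).map (MulAut.conj (d⁻¹ * n)).toMonoidHom = Subgroup.zpowers b := by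
        rw [Cfsg.Agent.Lib.Coprime.InvSylow.map_conj_mul]
        have h2 : (Subgroup.zpowers b).map (MulAut.conj n).toMonoidHom = Subgroup.zpowers (n * b * n⁻¹) := by
          rw [MonoidHom.map_zpowers]
          rfl
        rw [h2, ← hdmap, ← Cfsg.Agent.Lib.Coprime.InvSylow.map_conj_mul, inv_mul_cancel]
        ext y
        simp
      rw [← hfix] at h1
      obtain ⟨z, hz, hze⟩ := h1
      exact ⟨z, (Subgroup.zpowers_le.mpr (hSH hbS)) hz, hze⟩
    have h3 : n = d * (d⁻¹ * n) := by group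
    rw [h3]
    exact H.mul_mem hdH hx
  -- every element of `G` lies in `H`
  apply hHne
  rw [eq_top_iff]
  intro g _
  have ha1 : a ≠ 1 := by
    intro h
    rw [h, orderOf_one] at hao
    exact hpp.one_lt.ne hao
  have hga : g * a * g⁻¹ ∈ N := (inferInstance : N.Normal).conj_mem a haN g
  refine key (Subgroup.zpowers (g * a * g⁻¹)) g ?_ ?_ (Subgroup.zpowers_le.mpr (hNH hga)) ?_
  · apply isPGroup_zpowers_of_order
    rw [conj_pow, hap]; group
  · intro hb
    rw [Subgroup.zpowers_eq_bot] at hb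
    apply ha1
    have : g * a * g⁻¹ = g * 1 * g⁻¹ := by rw [hb]; group
    simpa using this
  · rw [Subgroup.zpowers_le]
    exact ⟨a, hSH haS, rfl⟩

end Cfsg.Agent.S3058
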