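import Cfsg.Statements.S0607
import Mathlib
import Cfsg.Agent.Lib.PGroup.Timmesfeld

set_option autoImplicit false
open Cfsg

namespace Cfsg.Agent.S0607

open scoped commutatorElement

open Cfsg.Agent.Lib.PGroup.Timmesfeld

theorem ea_comm' {G : Type*} [Group G] {p : ℕ} {A : Subgroup G} (hA : IsElementaryAbelian p A) {a b : G}
    (ha : a ∈ A) (hb : b ∈ A) : a * b = b * a := by
  have := hA.1.is_comm.comm (⟨a, ha⟩ : A) ⟨b, hb⟩
  exact congrArg Subtype.val this

theorem ea_mono' {G : Type*} [Group G] {p : ℕ} {A B : Subgroup G} (hA : IsElementaryAbelian p A) (h : B ≤ A) :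
    IsElementaryAbelian p B := by
  refine ⟨⟨⟨fun x y => ?_⟩⟩, fun a ha => hA.2 a (h ha)⟩
  exact Subtype.ext (ea_comm' hA (h x.2) (h y.2))

/-- The join of two commuting elementary abelian subgroups is elementary abelian. -/
theorem ea_sup' {G : Type*} [Group G] {p : ℕ} {X Y : Subgroup G} (hX : IsElementaryAbelian p X)
    (hY : IsElementaryAbelian p Y) (hc : ∀ x ∈ X, ∀ y ∈ Y, x * y = y * x) :
    IsElementaryAbelian p (X ⊔ Y) := by
  have h1 : X ⊔ Y ≤ Subgroup.centralizer ((X ⊔ Y : Subgroup G) : Set G) := by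
    intro g hg
    rw [Subgroup.mem_centralizer_iff]
    intro h hh
    have hXc : X ⊔ Y ≤ Subgroup.centralizer (X : Set G) := by
      refine sup_le (fun x hx => Subgroup.mem_centralizer_iff.2 (fun z hz => ea_comm' hX hz hx))
        (fun y hy => Subgroup.mem_centralizer_iff.2 (fun z hz => hc z hz y hy))
    have hYc : X ⊔ Y ≤ Subgroup.centralizer (Y : Set G) := by
      refine sup_le (fun x hx => Subgroup.mem_centralizer_iff.2 (fun z hz => (hc x hx z hz).symm))
        (fun y hy => Subgroup.mem_centralizer_iff.2 (fun z hz => ea_comm' hY hz hy))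
    have h2 : g ∈ Subgroup.centralizer ((X ⊔ Y : Subgroup G) : Set G) :=
      mem_centralizer_sup_iff.2 ⟨hXc hg, hYc hg⟩
    exact Subgroup.mem_centralizer_iff.1 h2 h hh
  have hcomm : ∀ g ∈ X ⊔ Y, ∀ h ∈ X ⊔ Y, g * h = h * g := by
    intro g hg h hh
    exact (Subgroup.mem_centralizer_iff.1 (h1 hg) h hh).symm
  refine ⟨⟨⟨fun x y => Subtype.ext (hcomm x x.2 y y.2)⟩⟩, ?_⟩
  intro x hx
  have hle : X ⊔ Y ≤ Subgroup.closure (((X ⊔ Y : Subgroup G) : Set G) ∩ {g : G | g ^ p = 1}) := by
    refine sup_le (fun w hw => Subgroup.subset_closure ⟨Subgroup.mem_sup_left hw, hX.2 w hw⟩)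
      (fun w hw => Subgroup.subset_closure ⟨Subgroup.mem_sup_right hw, hY.2 w hw⟩)
  have : ∀ y ∈ Subgroup.closure (((X ⊔ Y : Subgroup G) : Set G) ∩ {g : G | g ^ p = 1}),
      y ∈ X ⊔ Y ∧ y ^ p = 1 := by
    intro y hy
    induction hy using Subgroup.closure_induction with
    | mem y hy => exact ⟨hy.1, hy.2⟩
    | one => exact ⟨one_mem _, one_pow _⟩
    | mul u v _ _ hu hv =>
      refine ⟨mul_mem hu.1 hv.1, ?_⟩
      have : Commute u v := hcomm u hu.1 v hv.1
      rw [this.mul_pow, hu.2, hv.2, one_mul]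
    | inv u _ hu => exact ⟨inv_mem hu.1, by rw [inv_pow, hu.2, inv_one]⟩
  exact (this x (hle hx)).2


/-- The replacement Theorem for the Thompson subgroup: from A of maximal order among elementary abelian p-subgroups one obtains A₀ = [V, A] C_A([V, A]) of the same kind, quadratic on V and nontrivial on V when A is. -/
theorem result {G : Type*} [Group G] [Finite G] {p : ℕ} [Fact p.Prime] (V : Subgroup G) [V.Normal] (hV : Cfsg.IsElementaryAbelian p V) (A : Subgroup G) (hA : A ∈ Cfsg.maxElementaryAbelianSubgroups p G) : (⁅V, A⁆ ⊔ (A ⊓ Subgroup.centralizer ((⁅V, A⁆ : Subgroup G) : Set G))) ∈ Cfsg.maxElementaryAbelianSubgroups p G ∧ ⁅⁅V, ⁅V, A⁆ ⊔ (A ⊓ Subgroup.centralizer ((⁅V, A⁆ : Subgroup G) : Set G))⁆, ⁅V, A⁆ ⊔ (A ⊓ Subgroup.centralizer ((⁅V, A⁆ : Subgroup G) : Set G))⁆ = ⊥ ∧ (⁅V, A⁆ ≠ ⊥ → ⁅V, ⁅V, A⁆ ⊔ (A ⊓ Subgroup.centralizer ((⁅V, A⁆ : Subgroup G) : Set G))⁆ ≠ ⊥) := by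
  classical
  have hVc : ∀ x ∈ V, ∀ y ∈ V, x * y = y * x := fun x hx y hy => ea_comm' hV hx hy
  obtain ⟨hAea, hAmax⟩ := hA
  have hAV : A ≤ Subgroup.normalizer (V : Set G) := by
    rw [Subgroup.normalizer_eq_top]; exact le_top
  set C := V ⊓ Subgroup.centralizer (A : Set G) with hC
  -- `C ≤ A`
  have hCA : C ≤ A := by
    have h1 : IsElementaryAbelian p (A ⊔ C) :=
      ea_sup' hAea (ea_mono' hV inf_le_left) (fun x hx y hy =>
        (Subgroup.mem_centralizer_iff.1 hy.2 x hx))
    have h2 : A = A ⊔ C := Subgroup.eq_of_le_of_card_ge le_sup_left (hAmax _ h1)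
    rw [h2]; exact le_sup_right
  -- `A ⊓ V ≤ C`
  have hAVC : A ⊓ V ≤ C := fun x hx =>
    ⟨hx.2, Subgroup.mem_centralizer_iff.2 (fun z hz => ea_comm' hAea hz hx.1)⟩
  -- best offender
  have hbest : IsBestOffenderOn p V A := by
    refine ⟨?_, ?_, ?_⟩
    · intro B hB
      set X := V ⊓ Subgroup.centralizer (B : Set G) with hX
      have hBea : IsElementaryAbelian p B := ea_mono' hAea hB
      have hXea : IsElementaryAbelian p X := ea_mono' hV inf_le_left
      have hcomm : ∀ x ∈ B, ∀ y ∈ X, x * y = y * x := fun x hx y hy =>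
        (Subgroup.mem_centralizer_iff.1 hy.2 x hx)
      have h1 : IsElementaryAbelian p (B ⊔ X) := ea_sup' hBea hXea hcomm
      have h2 := hAmax _ h1
      have hn : B ≤ Subgroup.normalizer (X : Set G) := by
        rw [Subgroup.le_normalizer_iff]
        intro b hb x hx
        rw [hcomm b hb x hx]
        simpa using hx
      have h3 := card_sup_mul_card_inf_of_le_normalizer B X hn
      have h4 : B ⊓ X ≤ C := fun x hx => hAVC ⟨hB hx.1, hx.2.1⟩
      have h5 := Subgroup.card_le_of_le h4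
      rw [← h3]
      exact Nat.mul_le_mul h2 h5
    · have : ⁅A, A⁆ = ⊥ := by
        rw [Subgroup.commutator_eq_bot_iff_le_centralizer]
        intro x hx
        exact Subgroup.mem_centralizer_iff.2 (fun z hz => ea_comm' hAea hz hx)
      rw [this]; exact bot_le
    · intro a ha
      rw [hAea.2 a ha]; exact one_mem _
  obtain ⟨_, h2, h3, h4⟩ := timmesfeld V A hV hAV hbest V le_rfl
  set W := ⁅V, A⁆ with hW
  set Astar := A ⊓ Subgroup.centralizer ((W : Subgroup G) : Set G) with hAstar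
  have hWV : W ≤ V := by
    rw [hW, Subgroup.commutator_le]
    intro v hv a ha
    exact commElt_mem hAV ha hv
  have hWea : IsElementaryAbelian p W := ea_mono' hV hWV
  have hAstarA : Astar ≤ A := inf_le_left
  have hAstarea : IsElementaryAbelian p Astar := ea_mono' hAea hAstarA
  have hcWA : ∀ x ∈ W, ∀ y ∈ Astar, x * y = y * x := fun x hx y hy =>
    (Subgroup.mem_centralizer_iff.1 hy.2 x hx)
  have hA0ea : IsElementaryAbelian p (W ⊔ Astar) := ea_sup' hWea hAstarea hcWA
  have hCAstar : C ≤ Astar := by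
    refine le_inf hCA ?_
    intro c hc
    exact Subgroup.mem_centralizer_iff.2 (fun z hz => hVc z (hWV hz) c hc.1)
  -- the order of `A₀`
  have hA0eq : W ⊔ Astar = Astar ⊔ (W ⊔ C) := by
    apply le_antisymm
    · exact sup_le (le_sup_of_le_right le_sup_left) le_sup_left
    · exact sup_le le_sup_right (sup_le le_sup_left (hCAstar.trans le_sup_right))
  have hn2 : Astar ≤ Subgroup.normalizer ((W ⊔ C : Subgroup G) : Set G) := by
    rw [Subgroup.le_normalizer_iff]
    intro a ha x hx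
    have hxc : x ∈ Subgroup.centralizer ((Astar : Subgroup G) : Set G) := by
      rw [← h2] at hx
      exact hx.2
    have := Subgroup.mem_centralizer_iff.1 hxc a ha
    rw [this]
    simpa using hx
  have hcard := card_sup_mul_card_inf_of_le_normalizer Astar (W ⊔ C) hn2
  have hinf : Astar ⊓ (W ⊔ C) = C := by
    apply le_antisymm
    · intro x hx
      refine hAVC ⟨hAstarA hx.1, ?_⟩
      exact (sup_le hWV inf_le_left : W ⊔ C ≤ V) hx.2
    · exact le_inf hCAstar le_sup_right
  rw [hinf, ← hA0eq, ← h2, h4] at hcard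
  have hcardA0 : Nat.card ↥(W ⊔ Astar) = Nat.card A := by
    exact Nat.eq_of_mul_eq_mul_right Nat.card_pos hcard
  -- normal closure of centralizer
  have hCVn : (Subgroup.centralizer (V : Set G)).Normal := inferInstance
  have hA0le : W ⊔ Astar ≤ Astar ⊔ Subgroup.centralizer (V : Set G) := by
    refine sup_le ?_ le_sup_left
    refine le_trans ?_ le_sup_right
    intro w hw
    exact Subgroup.mem_centralizer_iff.2 (fun z hz => hVc z hz w (hWV hw))
  have hcomm1 : ⁅V, W ⊔ Astar⁆ ≤ ⁅V, Astar⁆ := by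
    rw [Subgroup.commutator_le]
    intro v hv g hg
    have hg' := hA0le hg
    obtain ⟨a, ha, m, hm, rfl⟩ := Subgroup.mem_sup_of_normal_right.1 hg'
    have hvm : v * m = m * v := (Subgroup.mem_centralizer_iff.1 hm v hv)
    have hval : ⁅v, a * m⁆ = ⁅v, a⁆ := by
      simp only [commutatorElement_def]
      have hvm' : m * v⁻¹ = v⁻¹ * m := by
        have hcm : Commute m v := hvm.symm
        exact hcm.inv_right.eq
      calc v * (a * m) * v⁻¹ * (a * m)⁻¹ = v * a * (m * v⁻¹) * m⁻¹ * a⁻¹ := by group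
        _ = v * a * v⁻¹ * a⁻¹ := by rw [hvm']; group
    rw [hval]
    exact Subgroup.commutator_mem_commutator hv ha
  have hcomm2 : ⁅V, Astar⁆ ≤ ⁅V, W ⊔ Astar⁆ := Subgroup.commutator_mono le_rfl le_sup_right
  refine ⟨⟨hA0ea, fun B hB => (hAmax B hB).trans hcardA0.ge⟩, ?_, ?_⟩
  · rw [Subgroup.commutator_eq_bot_iff_le_centralizer]
    have hle : ⁅V, W ⊔ Astar⁆ ≤ W :=
      hcomm1.trans (Subgroup.commutator_mono le_rfl hAstarA)
    intro x hx
    have hxW := hle hx
    have hsub : W ⊔ Astar ≤ Subgroup.centralizer ({x} : Set G) := by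
      refine sup_le (fun y hy => ?_) (fun y hy => ?_)
      · rw [Subgroup.mem_centralizer_singleton_iff]
        exact hVc y (hWV hy) x (hWV hxW)
      · rw [Subgroup.mem_centralizer_singleton_iff]
        exact (hcWA x hxW y hy).symm
    rw [Subgroup.mem_centralizer_iff]
    intro g hg
    have := hsub hg
    rw [Subgroup.mem_centralizer_singleton_iff] at this
    exact this
  · intro hne hbot
    apply h3 hne
    rw [eq_bot_iff, ← hbot]
    exact hcomm2

end Cfsg.Agent.S0607
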