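import Cfsg.Statements.S4207
import Mathlib
import Cfsg.Agent.Lib.PGroup.FrattiniBasis

set_option autoImplicit false
open Cfsg

namespace Cfsg.Agent.S4207

/-- Let `P` be a group of order `p^n` whose Frattini subgroup has index `p^r`. Then any group of automorphisms of `P` each of which induces the identity on the Frattini quotient has order dividing `p^(r(n-r))`; in particular it is a `p`-group. -/
theorem result {P : Type*} [Group P] [Finite P] {p n r : ℕ} [Fact p.Prime] (hP : Nat.card P = p ^ n) (hr : (frattini P).index = p ^ r) (A : Subgroup (MulAut P)) (hA : ∀ α ∈ A, ∀ x : P, α x * x⁻¹ ∈ frattini P) : Nat.card A ∣ p ^ (r * (n - r)) := by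
  classical
  have hG : IsPGroup p P := IsPGroup.of_card hP
  obtain ⟨hΦ, hrn⟩ := Cfsg.Agent.Lib.PGroup.FrattiniBasis.card_frattini_eq hP hr
  obtain ⟨x, hx⟩ := Cfsg.Agent.Lib.PGroup.FrattiniBasis.exists_generating_tuple hG hr
  obtain ⟨V, _, _, π, hπ, hker⟩ := Cfsg.Agent.Lib.PGroup.FrattiniBasis.exists_vector_space hG
  let X : Set (Fin r → P) := {y | ∀ i, y i * (x i)⁻¹ ∈ frattini P}
  have hinv : ∀ α ∈ A, ∀ y ∈ X, (fun i => α (y i)) ∈ X := by
    intro α hα y hy i
    have h1 : α (y i) * (y i)⁻¹ ∈ frattini P := hA α hα (y i)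
    have h2 := mul_mem h1 (hy i)
    simpa [mul_assoc] using h2
  have hgen : ∀ y ∈ X, Subgroup.closure (Set.range y) = ⊤ := by
    intro y hy
    apply Cfsg.Agent.Lib.PGroup.FrattiniBasis.closure_eq_top_of_span (p := p) hπ hker
    have h1 := Cfsg.Agent.Lib.PGroup.FrattiniBasis.span_eq_top_of_closure (p := p) hπ hx
    have h2 : (fun g => Multiplicative.toAdd (π g)) '' Set.range y =
        (fun g => Multiplicative.toAdd (π g)) '' Set.range x := by
      have h3 : ∀ i, π (y i) = π (x i) := by
        intro i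
        have : y i * (x i)⁻¹ ∈ π.ker := by rw [hker]; exact hy i
        rw [MonoidHom.mem_ker, map_mul, map_inv] at this
        exact mul_inv_eq_one.1 this
      ext v
      constructor
      · rintro ⟨_, ⟨i, rfl⟩, rfl⟩
        exact ⟨x i, ⟨i, rfl⟩, by simp [h3]⟩
      · rintro ⟨_, ⟨i, rfl⟩, rfl⟩
        exact ⟨y i, ⟨i, rfl⟩, by simp [h3]⟩
    rw [h2, h1]
  have hdvd := Cfsg.Agent.Lib.PGroup.FrattiniBasis.card_subgroup_dvd_of_tuples A X hinv hgen
  let e : X ≃ (Fin r → frattini P) :=
    { toFun := fun y i => ⟨y.1 i * (x i)⁻¹, y.2 i⟩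
      invFun := fun c => ⟨fun i => (c i : P) * x i, fun i => by simp⟩
      left_inv := fun y => by
        apply Subtype.ext
        funext i
        simp
      right_inv := fun c => by
        funext i
        apply Subtype.ext
        simp }
  have hcard : Nat.card X = p ^ (r * (n - r)) := by
    rw [Nat.card_congr e, Nat.card_fun, Nat.card_fin, hΦ, ← pow_mul, mul_comm]
  rwa [hcard] at hdvd

end Cfsg.Agent.S4207
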