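import Cfsg.Statements.S0904
import Mathlib
import Cfsg.Agent.Lib.Char.NoMixed

set_option autoImplicit false
open Cfsg
open scoped commutatorElement

namespace Cfsg.Agent.S0904

/-- Let G be a finite simple group of order p ^ a * q ^ b * r with p, q, r distinct primes. Then every Sylow r-subgroup S of G satisfies C_G(S) = S. -/
theorem result {G : Type*} [Group G] [Finite G] [IsSimpleGroup G] (p q r a b : ℕ) (hp : p.Prime) (hq : q.Prime) [Fact r.Prime] (hpq : p ≠ q) (hpr : p ≠ r) (hqr : q ≠ r) (hcard : Nat.card G = p ^ a * q ^ b * r) (S : Sylow r G) : Subgroup.centralizer (S : Set G) = (S : Subgroup G) := by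
  classical
  letI := Fintype.ofFinite G
  have hr : r.Prime := Fact.out
  have hne : p ^ a * q ^ b ≠ 0 := mul_ne_zero (pow_ne_zero _ hp.ne_zero) (pow_ne_zero _ hq.ne_zero)
  have hrnd : ¬ r ∣ p ^ a * q ^ b := by
    intro h
    rcases (Nat.Prime.dvd_mul hr).mp h with h | h
    · exact hpr ((Nat.prime_dvd_prime_iff_eq hr hp).mp (hr.dvd_of_dvd_pow h)).symm
    · exact hqr ((Nat.prime_dvd_prime_iff_eq hr hq).mp (hr.dvd_of_dvd_pow h)).symm
  have hS : Nat.card (S : Subgroup G) = r := by
    rw [S.card_eq_multiplicity, hcard, Nat.factorization_mul hne hr.ne_zero, Finsupp.add_apply,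
      Nat.factorization_eq_zero_of_not_dvd hrnd, hr.factorization_self, zero_add, pow_one]
  obtain ⟨x, hxS, hx⟩ : ∃ x ∈ (S : Subgroup G), orderOf x = r := by
    have hdvd : r ∣ Nat.card (S : Subgroup G) := by rw [hS]
    obtain ⟨x, hx⟩ := exists_prime_orderOf_dvd_card' r hdvd
    exact ⟨x, x.2, by simpa using hx⟩
  have hScomm : ∀ u ∈ (S : Subgroup G), ∀ v ∈ (S : Subgroup G), u * v = v * u := by
    haveI : Fact (Nat.card (S : Subgroup G)).Prime := ⟨by rw [hS]; exact hr⟩
    have hcyc : IsCyclic (S : Subgroup G) := isCyclic_of_prime_card rfl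
    intro u hu v hv
    have := (IsCyclic.isMulCommutative (α := (S : Subgroup G))).is_comm.comm ⟨u, hu⟩ ⟨v, hv⟩
    exact congrArg Subtype.val this
  apply le_antisymm
  · intro g hg
    by_contra hgS
    have hgx : Commute g x := by
      have := (Subgroup.mem_centralizer_iff.mp hg) x hxS
      exact this.symm
    rcases (inferInstance : (commutator G).Normal).eq_bot_or_eq_top with hc | hcomm
    · -- the abelian case
      have hall : ∀ u v : G, u * v = v * u := by
        intro u v
        have h1 : ⁅u, v⁆ ∈ commutator G := Subgroup.commutator_mem_commutator (Subgroup.mem_top u) (Subgroup.mem_top v)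
        rw [hc, Subgroup.mem_bot] at h1
        exact commutatorElement_eq_one_iff_mul_comm.mp h1
      have hnorm : (S : Subgroup G).Normal := by
        constructor
        intro n hn g
        have : g * n * g⁻¹ = n := by rw [hall g n]; group
        rw [this]
        exact hn
      rcases hnorm.eq_bot_or_eq_top with h | h
      · rw [h] at hS
        simp at hS
        exact hr.one_lt.ne' hS.symm
      · exact hgS (by rw [h]; trivial)
    -- the element `g` has order not a power of `r`
    have hn0 : orderOf g ≠ 0 := (orderOf_pos g).ne'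
    obtain ⟨e, m, hrm, hm⟩ := Nat.exists_eq_pow_mul_and_not_dvd hn0 r hr.ne_one
    by_cases hm1 : m = 1
    · apply hgS
      have hpg : IsPGroup r (Subgroup.zpowers g) :=
        IsPGroup.of_card (n := e) (by rw [Nat.card_zpowers, hm, hm1, mul_one])
      have hN : g ∈ Subgroup.normalizer ((S : Subgroup G) : Set G) := by
        rw [Subgroup.mem_normalizer_iff]
        intro h
        have hcm := Subgroup.mem_centralizer_iff.mp hg
        constructor
        · intro hh
          have : g * h * g⁻¹ = h := by
            rw [(hcm h hh).symm]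
            group
          rw [this]
          exact hh
        · intro hh
          have h1 := hcm _ hh
          have : h = g * h * g⁻¹ := by
            have h2 : g * h * g⁻¹ * g = g * h := by group
            have h3 : g * (g * h * g⁻¹) = g * h := by rw [← h1, h2]
            exact (mul_left_cancel h3).symm
          rw [this]
          exact hh
      have h1 : g ∈ Subgroup.zpowers g ⊓ Subgroup.normalizer ((S : Subgroup G) : Set G) :=
        ⟨Subgroup.mem_zpowers g, hN⟩
      exact ((hpg.inf_normalizer_sylow S).le h1).2
    · -- a prime divisor of `m`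
      obtain ⟨s, hs, hsm⟩ := Nat.exists_prime_and_dvd hm1
      have hsg : s ∣ orderOf g := by
        rw [hm]
        exact Dvd.dvd.mul_left hsm _
      have hsr : s ≠ r := by
        rintro rfl
        exact hrm hsm
      set y := g ^ (orderOf g / s) with hy
      have hyord : orderOf y = s := orderOf_pow_orderOf_div hn0 hsg
      have hy1 : y ≠ 1 := by
        intro h0
        rw [h0, orderOf_one] at hyord
        exact hs.one_lt.ne hyord
      have hcy : Commute y x := hgx.pow_left _
      have hsG : s ∣ p ^ a * q ^ b * r := by
        rw [← hcard, ← hyord]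
        exact orderOf_dvd_natCard y
      rcases (Nat.Prime.dvd_mul hs).mp hsG with h | h
      · rcases (Nat.Prime.dvd_mul hs).mp h with h | h
        · have hsp : s = p := (Nat.prime_dvd_prime_iff_eq hs hp).mp (hs.dvd_of_dvd_pow h)
          subst hsp
          haveI : Fact s.Prime := ⟨hs⟩
          exact Cfsg.Agent.Lib.Char.NoMixed.no_mixed hcomm hq hr hpq hpr hqr hcard hx (j := 1)
            (by rw [pow_one]; exact hyord) hy1 hcy
        · have hsq : s = q := (Nat.prime_dvd_prime_iff_eq hs hq).mp (hs.dvd_of_dvd_pow h)
          subst hsq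
          haveI : Fact s.Prime := ⟨hs⟩
          exact Cfsg.Agent.Lib.Char.NoMixed.no_mixed (p := s) (q := p) (a := b) (b := a) hcomm hp hr hpq.symm hqr hpr
            (by rw [hcard]; ring) hx (j := 1) (by rw [pow_one]; exact hyord) hy1 hcy
      · exact hsr ((Nat.prime_dvd_prime_iff_eq hs hr).mp h)
  · intro u hu
    rw [Subgroup.mem_centralizer_iff]
    intro v hv
    exact hScomm v hv u hu

end Cfsg.Agent.S0904
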