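import Cfsg.Statements.S3378
import Mathlib
import Cfsg.Agent.S3377
import Cfsg.Agent.S0493
import Cfsg.Agent.S0494
import Cfsg.Agent.S0201
import Cfsg.Agent.Lib.PSL2.FieldEmbed

set_option autoImplicit false
set_option linter.style.haveILetI false
set_option linter.unusedVariables false
set_option linter.unusedSectionVars false
set_option linter.unusedSimpArgs false
open Cfsg

namespace Cfsg.Agent.S3378

open Subgroup Cfsg.Agent.Lib.PSL2.Basic Cfsg.Agent.Lib.PSL2.FieldEmbed
open scoped MatrixGroups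

universe u

instance fact5 : Fact (Nat.Prime 5) := ⟨by norm_num⟩

theorem solv_lt60 : ∀ (n : ℕ) (G : Type u) [Group G] [Finite G], Nat.card G = n → n < 60 →
    Group.IsSolvable G := by
  intro n
  induction n using Nat.strong_induction_on with
  | _ n ih =>
    intro G _ _ hcard hlt
    by_cases ht : Subsingleton G
    · infer_instance
    · rw [not_subsingleton_iff_nontrivial] at ht
      by_cases hs : IsSimpleGroup G
      · by_cases hc : IsCyclic G
        · exact Group.isSolvable_of_comm (fun a b => IsCyclic.commutative.is_comm.comm a b)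
        · have := Cfsg.Agent.S0493.result hc (by omega)
          omega
      · have : ∃ N : Subgroup G, N.Normal ∧ N ≠ ⊥ ∧ N ≠ ⊤ := by
          by_contra hN
          push Not at hN
          apply hs
          refine ⟨fun N hN' => ?_⟩
          by_cases h : N = ⊥
          · exact Or.inl h
          · exact Or.inr (hN N hN' h)
        obtain ⟨N, hN, hN1, hN2⟩ := this
        have hc := Subgroup.card_eq_card_quotient_mul_card_subgroup N
        have h1 : 1 < Nat.card N := by
          haveI : Nontrivial N := (Subgroup.nontrivial_iff_ne_bot N).2 hN1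
          exact Finite.one_lt_card
        have h2 : 1 < Nat.card (G ⧸ N) := by
          have h3 : N.index ≠ 1 := fun h => hN2 (Subgroup.index_eq_one.1 h)
          have h4 : N.index ≠ 0 := Subgroup.index_ne_zero_of_finite
          have : Nat.card (G ⧸ N) = N.index := rfl
          omega
        have hn : 0 < n := by have := Nat.card_pos (α := G); omega
        rw [hcard] at hc
        have hNlt : Nat.card N < n := by
          calc Nat.card N = 1 * Nat.card N := (one_mul _).symm
            _ < Nat.card (G ⧸ N) * Nat.card N := Nat.mul_lt_mul_of_pos_right h2 (by omega)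
            _ = n := hc.symm
        have hQlt : Nat.card (G ⧸ N) < n := by
          calc Nat.card (G ⧸ N) = Nat.card (G ⧸ N) * 1 := (mul_one _).symm
            _ < Nat.card (G ⧸ N) * Nat.card N := Nat.mul_lt_mul_of_pos_left h1 (by omega)
            _ = n := hc.symm
        haveI := ih _ hNlt N rfl (by omega)
        haveI := ih _ hQlt (G ⧸ N) rfl (by omega)
        exact Group.isSolvable_of_ker_le_range N.subtype (QuotientGroup.mk' N)
          (by rw [QuotientGroup.ker_mk', Subgroup.range_subtype])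

abbrev R0 : Set (FreeGroup (Fin 2)) := {FreeGroup.of (0 : Fin 2) ^ 3, FreeGroup.of (1 : Fin 2) ^ 5,
        (FreeGroup.of (0 : Fin 2) * FreeGroup.of 1) ^ 2}

abbrev R3 : Set (FreeGroup (Fin 3)) := {FreeGroup.of (0 : Fin 3) ^ 3, FreeGroup.of (1 : Fin 3) ^ 5, FreeGroup.of (2 : Fin 3) ^ 2,
        (FreeGroup.of (2 : Fin 3))⁻¹ * FreeGroup.of 0 * FreeGroup.of 2 * (FreeGroup.of (0 : Fin 3))⁻¹,
        (FreeGroup.of (2 : Fin 3))⁻¹ * FreeGroup.of 1 * FreeGroup.of 2 * (FreeGroup.of (1 : Fin 3))⁻¹,
        (FreeGroup.of (0 : Fin 3) * FreeGroup.of 1) ^ 2 * (FreeGroup.of (2 : Fin 3))⁻¹}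

theorem card_P0 : Nat.card (PresentedGroup R0) = 60 := by
  obtain ⟨e⟩ := Cfsg.Agent.S3377.result
  rw [Nat.card_congr e.toEquiv, Nat.card_eq_fintype_card]
  decide

/-- Any group generated by elements satisfying the relations has at most 120 elements. -/
theorem card_le_of_rel {Γ : Type u} [Group Γ] (x y z : Γ) (hx : x ^ 3 = 1) (hy : y ^ 5 = 1)
    (hz : z ^ 2 = 1) (hzx : z * x = x * z) (hzy : z * y = y * z) (hxy : (x * y) ^ 2 = z)
    (hgen : Subgroup.closure ({x, y, z} : Set Γ) = ⊤) : Finite Γ ∧ Nat.card Γ ≤ 120 := by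
  have hcent : ∀ g : Γ, z * g = g * z := by
    intro g
    have hg : g ∈ Subgroup.closure ({x, y, z} : Set Γ) := by rw [hgen]; trivial
    induction hg using Subgroup.closure_induction with
    | mem a ha =>
      simp only [Set.mem_insert_iff, Set.mem_singleton_iff] at ha
      rcases ha with rfl | rfl | rfl
      · exact hzx
      · exact hzy
      · rfl
    | one => simp
    | mul a b _ _ ha hb => rw [← mul_assoc, ha, mul_assoc, hb, mul_assoc]
    | inv a _ ha =>
      have : a⁻¹ * (a * z) * a⁻¹ = a⁻¹ * (z * a) * a⁻¹ := by rw [ha]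
      simpa [mul_assoc] using this
  let N : Subgroup Γ := zpowers z
  haveI hN : N.Normal := by
    constructor
    intro n hn g
    obtain ⟨k, rfl⟩ := mem_zpowers_iff.1 hn
    have hc : Commute g (z ^ k) := ((show Commute z g from hcent g).zpow_left k).symm
    show g * z ^ k * g⁻¹ ∈ N
    rw [hc.eq, mul_assoc, mul_inv_cancel, mul_one]
    exact zpow_mem (mem_zpowers z) k
  let π : Γ →* Γ ⧸ N := QuotientGroup.mk' N
  have hπz : π z = 1 := (QuotientGroup.eq_one_iff z).2 (mem_zpowers z)
  let f : Fin 2 → Γ ⧸ N := ![π x, π y]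
  have hrel : ∀ r ∈ R0, FreeGroup.lift f r = 1 := by
    intro r hr
    simp only [R0, Set.mem_insert_iff, Set.mem_singleton_iff] at hr
    rcases hr with rfl | rfl | rfl
    · simp only [map_pow, FreeGroup.lift_apply_of, f]
      show (π x) ^ 3 = 1
      rw [← map_pow, hx, map_one]
    · simp only [map_pow, FreeGroup.lift_apply_of, f]
      show (π y) ^ 5 = 1
      rw [← map_pow, hy, map_one]
    · simp only [map_pow, map_mul, FreeGroup.lift_apply_of, f]
      show (π x * π y) ^ 2 = 1
      rw [← map_mul, ← map_pow, hxy, hπz]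
  let φ : PresentedGroup R0 →* Γ ⧸ N := PresentedGroup.toGroup hrel
  have hφx : φ (PresentedGroup.of 0) = π x := PresentedGroup.toGroup.of hrel
  have hφy : φ (PresentedGroup.of 1) = π y := PresentedGroup.toGroup.of hrel
  have hsurj : Function.Surjective φ := by
    have key : ∀ g : Γ, π g ∈ φ.range := by
      intro g
      have hg : g ∈ Subgroup.closure ({x, y, z} : Set Γ) := by rw [hgen]; trivial
      induction hg using Subgroup.closure_induction with
      | mem a ha =>
        simp only [Set.mem_insert_iff, Set.mem_singleton_iff] at ha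
        rcases ha with rfl | rfl | rfl
        · exact ⟨_, hφx⟩
        · exact ⟨_, hφy⟩
        · rw [hπz]; exact one_mem _
      | one => rw [map_one]; exact one_mem _
      | mul a b _ _ ha hb => rw [map_mul]; exact mul_mem ha hb
      | inv a _ ha => rw [map_inv]; exact inv_mem ha
    intro q
    obtain ⟨g, rfl⟩ := QuotientGroup.mk'_surjective N q
    exact key g
  haveI hP0 : Finite (PresentedGroup R0) := Nat.finite_of_card_ne_zero (by rw [card_P0]; norm_num)
  haveI hQ : Finite (Γ ⧸ N) := Finite.of_surjective φ hsurj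
  have hzo : orderOf z ≤ 2 := by
    apply Nat.le_of_dvd (by norm_num)
    exact orderOf_dvd_of_pow_eq_one hz
  have hz0 : 0 < orderOf z := orderOf_pos_iff.2 (isOfFinOrder_iff_pow_eq_one.2 ⟨2, by norm_num, hz⟩)
  haveI hNf : Finite N := Nat.finite_of_card_ne_zero (by
    show Nat.card (zpowers z) ≠ 0
    rw [Nat.card_zpowers]; omega)
  haveI hfin : Finite Γ := Finite.of_subgroup_quotient N
  refine ⟨hfin, ?_⟩
  rw [Subgroup.card_eq_card_quotient_mul_card_subgroup N]
  have h1 : Nat.card (Γ ⧸ N) ≤ 60 := by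
    rw [← card_P0]
    exact Nat.card_le_card_of_surjective φ hsurj
  have h2 : Nat.card N ≤ 2 := by
    show Nat.card (zpowers z) ≤ 2
    rw [Nat.card_zpowers]; exact hzo
  calc Nat.card (Γ ⧸ N) * Nat.card N ≤ 60 * 2 := Nat.mul_le_mul h1 h2
    _ = 120 := rfl

def xS : SL(2, ZMod 5) := sl2 0 (-1) 1 (-1) (by decide)
def yS : SL(2, ZMod 5) := sl2 1 1 0 1 (by decide)
def zS : SL(2, ZMod 5) := -1

theorem xS3 : xS ^ 3 = 1 := by decide
theorem yS5 : yS ^ 5 = 1 := by decide
theorem zS2 : zS ^ 2 = 1 := by decide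
theorem zSx : zS * xS = xS * zS := by decide
theorem zSy : zS * yS = yS * zS := by decide
theorem xyS : (xS * yS) ^ 2 = zS := by decide

theorem closure_S : Subgroup.closure ({xS, yS, zS} : Set SL(2, ZMod 5)) = ⊤ := by
  set H := Subgroup.closure ({xS, yS, zS} : Set SL(2, ZMod 5)) with hH
  have hxm : xS ∈ H := Subgroup.subset_closure (by simp)
  have hym : yS ∈ H := Subgroup.subset_closure (by simp)
  have hzm : zS ∈ H := Subgroup.subset_closure (by simp)
  have hX : ∀ t : ZMod 5, x t ∈ H := by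
    have h : ∀ t : ZMod 5, ∃ k : Fin 5, x t = yS ^ (k : ℕ) := by decide
    intro t
    obtain ⟨k, hk⟩ := h t
    rw [hk]
    exact pow_mem hym k
  have hY : ∀ t : ZMod 5, y t ∈ H := by
    have h : ∀ t : ZMod 5, ∃ k : Fin 5, y t = (xS * yS * xS⁻¹) ^ (k : ℕ) := by decide
    intro t
    obtain ⟨k, hk⟩ := h t
    rw [hk]
    exact pow_mem (mul_mem (mul_mem hxm hym) (inv_mem hxm)) k
  rw [eq_top_iff]
  intro M _
  have h := mem_of_gens (ι := RingHom.id (ZMod 5)) (H₁ := H.map mkP)
    (fun t => ⟨x t, hX t, rfl⟩) (fun t => ⟨y t, hY t, rfl⟩) M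
  obtain ⟨h', hh', he⟩ := h
  have hmap : mapι (RingHom.id (ZMod 5)) M = M := by
    ext i j
    simp [mapι]
  rw [hmap] at he
  rcases mkP_eq_iff.1 he with h1 | h1
  · rw [h1]; exact hh'
  · rw [h1]
    have : -h' = zS * h' := by simp [zS]
    rw [this]
    exact mul_mem hzm hh'

theorem gens_R3 : Subgroup.closure ({PresentedGroup.of 0, PresentedGroup.of 1, PresentedGroup.of 2} :
    Set (PresentedGroup R3)) = ⊤ := by
  rw [eq_top_iff, ← PresentedGroup.closure_range_of]
  apply Subgroup.closure_mono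
  rintro _ ⟨i, rfl⟩
  fin_cases i <;> simp

theorem rel3 {Γ : Type u} [Group Γ] (x y z : Γ) (hx : x ^ 3 = 1) (hy : y ^ 5 = 1)
    (hz : z ^ 2 = 1) (hzx : z * x = x * z) (hzy : z * y = y * z) (hxy : (x * y) ^ 2 = z) :
    ∀ r ∈ R3, FreeGroup.lift ![x, y, z] r = 1 := by
  intro r hr
  simp only [R3, Set.mem_insert_iff, Set.mem_singleton_iff] at hr
  have h0 : FreeGroup.lift ![x, y, z] (FreeGroup.of 0) = x := by simp
  have h1 : FreeGroup.lift ![x, y, z] (FreeGroup.of 1) = y := by simp
  have h2 : FreeGroup.lift ![x, y, z] (FreeGroup.of 2) = z := by simp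
  rcases hr with rfl | rfl | rfl | rfl | rfl | rfl
  · rw [map_pow, h0, hx]
  · rw [map_pow, h1, hy]
  · rw [map_pow, h2, hz]
  · simp only [map_mul, map_inv, h0, h2]
    have : z⁻¹ * x * z = x := by rw [mul_assoc, ← hzx, ← mul_assoc, inv_mul_cancel, one_mul]
    rw [this, mul_inv_cancel]
  · simp only [map_mul, map_inv, h1, h2]
    have : z⁻¹ * y * z = y := by rw [mul_assoc, ← hzy, ← mul_assoc, inv_mul_cancel, one_mul]
    rw [this, mul_inv_cancel]
  · simp only [map_mul, map_inv, map_pow, h0, h1, h2]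
    rw [hxy, mul_inv_cancel]

/-- The hom out of the presented group. -/
noncomputable def homR3 {Γ : Type u} [Group Γ] (x y z : Γ) (hx : x ^ 3 = 1) (hy : y ^ 5 = 1)
    (hz : z ^ 2 = 1) (hzx : z * x = x * z) (hzy : z * y = y * z) (hxy : (x * y) ^ 2 = z) :
    PresentedGroup R3 →* Γ :=
  PresentedGroup.toGroup (rel3 x y z hx hy hz hzx hzy hxy)

theorem homR3_range {Γ : Type u} [Group Γ] (x y z : Γ) (hx : x ^ 3 = 1) (hy : y ^ 5 = 1)
    (hz : z ^ 2 = 1) (hzx : z * x = x * z) (hzy : z * y = y * z) (hxy : (x * y) ^ 2 = z)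
    (hgen : Subgroup.closure ({x, y, z} : Set Γ) = ⊤) :
    Function.Surjective (homR3 x y z hx hy hz hzx hzy hxy) := by
  rw [← MonoidHom.range_eq_top, eq_top_iff, ← hgen, Subgroup.closure_le]
  have h0 : homR3 x y z hx hy hz hzx hzy hxy (PresentedGroup.of 0) = x :=
    PresentedGroup.toGroup.of (rel3 x y z hx hy hz hzx hzy hxy)
  have h1 : homR3 x y z hx hy hz hzx hzy hxy (PresentedGroup.of 1) = y :=
    PresentedGroup.toGroup.of (rel3 x y z hx hy hz hzx hzy hxy)
  have h2 : homR3 x y z hx hy hz hzx hzy hxy (PresentedGroup.of 2) = z :=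
    PresentedGroup.toGroup.of (rel3 x y z hx hy hz hzx hzy hxy)
  rintro g (rfl | rfl | rfl)
  · exact ⟨_, h0⟩
  · exact ⟨_, h1⟩
  · exact ⟨_, h2⟩

theorem finite_P : Finite (PresentedGroup R3) ∧ Nat.card (PresentedGroup R3) ≤ 120 := by
  have hof : ∀ r ∈ R3, PresentedGroup.mk R3 r = 1 := fun r hr => PresentedGroup.one_of_mem hr
  refine card_le_of_rel (PresentedGroup.of 0) (PresentedGroup.of 1) (PresentedGroup.of 2)
    ?_ ?_ ?_ ?_ ?_ ?_ gens_R3
  · exact hof _ (by simp [R3])
  · exact hof _ (by simp [R3])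
  · exact hof _ (by simp [R3])
  · have := hof ((FreeGroup.of (2 : Fin 3))⁻¹ * FreeGroup.of 0 * FreeGroup.of 2 * (FreeGroup.of (0 : Fin 3))⁻¹) (by simp [R3])
    simp only [map_mul, map_inv] at this
    have h2 : (PresentedGroup.of 2 : PresentedGroup R3)⁻¹ * PresentedGroup.of 0 * PresentedGroup.of 2 *
        (PresentedGroup.of 0)⁻¹ = 1 := this
    rw [mul_inv_eq_one] at h2
    calc (PresentedGroup.of 2 : PresentedGroup R3) * PresentedGroup.of 0
        = PresentedGroup.of 2 * ((PresentedGroup.of 2)⁻¹ * PresentedGroup.of 0 * PresentedGroup.of 2) := by rw [h2]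
      _ = PresentedGroup.of 0 * PresentedGroup.of 2 := by group
  · have := hof ((FreeGroup.of (2 : Fin 3))⁻¹ * FreeGroup.of 1 * FreeGroup.of 2 * (FreeGroup.of (1 : Fin 3))⁻¹) (by simp [R3])
    simp only [map_mul, map_inv] at this
    have h2 : (PresentedGroup.of 2 : PresentedGroup R3)⁻¹ * PresentedGroup.of 1 * PresentedGroup.of 2 *
        (PresentedGroup.of 1)⁻¹ = 1 := this
    rw [mul_inv_eq_one] at h2
    calc (PresentedGroup.of 2 : PresentedGroup R3) * PresentedGroup.of 1
        = PresentedGroup.of 2 * ((PresentedGroup.of 2)⁻¹ * PresentedGroup.of 1 * PresentedGroup.of 2) := by rw [h2]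
      _ = PresentedGroup.of 1 * PresentedGroup.of 2 := by group
  · have := hof ((FreeGroup.of (0 : Fin 3) * FreeGroup.of 1) ^ 2 * (FreeGroup.of (2 : Fin 3))⁻¹) (by simp [R3])
    simp only [map_mul, map_inv, map_pow] at this
    have h2 : (PresentedGroup.of 0 * PresentedGroup.of 1 : PresentedGroup R3) ^ 2 * (PresentedGroup.of 2)⁻¹ = 1 := this
    exact mul_inv_eq_one.1 h2

theorem card_SL25 : Nat.card SL(2, ZMod 5) = 120 := by
  rw [card_SL2, ZMod.card]
  norm_num

/-- The presented group is `SL(2, 5)`. -/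
theorem equiv_P : Nonempty (PresentedGroup R3 ≃* SL(2, ZMod 5)) := by
  obtain ⟨hf, hc⟩ := finite_P
  have hs := homR3_range xS yS zS xS3 yS5 zS2 zSx zSy xyS closure_S
  have hb : Function.Bijective (homR3 xS yS zS xS3 yS5 zS2 zSx zSy xyS) := by
    rw [Nat.bijective_iff_surjective_and_card]
    refine ⟨hs, ?_⟩
    apply le_antisymm
    · rw [card_SL25]; exact hc
    · exact Nat.card_le_card_of_surjective _ hs
  exact ⟨MulEquiv.ofBijective _ hb⟩

theorem card_P : Nat.card (PresentedGroup R3) = 120 := by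
  obtain ⟨e⟩ := equiv_P
  rw [Nat.card_congr e.toEquiv, card_SL25]

/-- Main part: the recognition of `SL(2,5)`. -/
theorem recog (G : Type u) [Group G] [Finite G] (hcard : Nat.card G = 120)
    (hns : ¬ Group.IsSolvable G)
    (hS : ∀ P : Sylow 2 G, Nonempty ((P : Subgroup G) ≃* QuaternionGroup 2)) :
    Nonempty (G ≃* SL(2, ZMod 5)) := by
  classical
  haveI : Fact (Nat.Prime 2) := ⟨by norm_num⟩
  obtain ⟨S⟩ : Nonempty (Sylow 2 G) := inferInstance
  obtain ⟨e⟩ := hS S
  -- no odd normal subgroups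
  have hO : ∀ N : Subgroup G, N.Normal → Odd (Nat.card N) → N = ⊥ := by
    intro N hN hodd
    by_contra hne
    have hc := Subgroup.card_eq_card_quotient_mul_card_subgroup N
    rw [hcard] at hc
    have h1 : 1 < Nat.card N := by
      haveI : Nontrivial N := (Subgroup.nontrivial_iff_ne_bot N).2 hne
      exact Finite.one_lt_card
    have hd : Nat.card N ∣ 15 := by
      have h2 : Nat.card N ∣ 8 * 15 := ⟨_, by rw [mul_comm] at hc; exact hc⟩
      have hco : Nat.Coprime (Nat.card N) 8 := by
        have : Nat.Coprime (Nat.card N) 2 := Nat.Coprime.symm (Nat.coprime_two_left.2 hodd)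
        exact Nat.Coprime.pow_right 3 this
      exact hco.dvd_of_dvd_mul_left h2
    have hle : Nat.card N ≤ 15 := Nat.le_of_dvd (by norm_num) hd
    have hq : Nat.card (G ⧸ N) ≤ 40 := by
      by_contra hgt
      push Not at hgt
      have : 41 * 3 ≤ Nat.card (G ⧸ N) * Nat.card N := by
        have h3 : 3 ≤ Nat.card N := by
          rcases hodd with ⟨k, hk⟩
          omega
        exact Nat.mul_le_mul hgt h3
      omega
    haveI := solv_lt60 _ N rfl (by omega)
    haveI := solv_lt60 _ (G ⧸ N) rfl (by omega)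
    exact hns (Group.isSolvable_of_ker_le_range N.subtype (QuotientGroup.mk' N)
      (by rw [QuotientGroup.ker_mk', Subgroup.range_subtype]))
  have hZ := Cfsg.Agent.S0201.result S 0 (by simpa using e) hO
  -- the central involution
  haveI : Nontrivial (center G) := Finite.one_lt_card_iff_nontrivial.1 (by rw [hZ]; norm_num)
  obtain ⟨⟨z, hzc⟩, hz1⟩ := exists_ne (1 : center G)
  have hz1' : z ≠ 1 := fun h => hz1 (Subtype.ext h)
  have hzz : z ^ 2 = 1 := by
    have := pow_card_eq_one' (G := center G) (x := ⟨z, hzc⟩)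
    rw [hZ] at this
    simpa using congrArg Subtype.val this
  have hcomm : ∀ g : G, z * g = g * z := fun g => (mem_center_iff.1 hzc g).symm
  -- uniqueness of the involution
  have hq8 : ∀ a b : QuaternionGroup 2, a ^ 2 = 1 → b ^ 2 = 1 → a ≠ 1 → b ≠ 1 → a = b := by decide
  have huniq : ∀ u : G, u ^ 2 = 1 → u ≠ 1 → u = z := by
    intro u hu hu1
    have hpu : IsPGroup 2 (zpowers u) := by
      rw [IsPGroup.iff_card]
      refine ⟨1, ?_⟩
      rw [Nat.card_zpowers, orderOf_eq_prime (p := 2) hu hu1]; rfl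
    have hpz : IsPGroup 2 (zpowers z) := by
      rw [IsPGroup.iff_card]
      refine ⟨1, ?_⟩
      rw [Nat.card_zpowers, orderOf_eq_prime (p := 2) hzz hz1']; rfl
    obtain ⟨T, hT⟩ := hpu.exists_le_sylow
    obtain ⟨T', hT'⟩ := hpz.exists_le_sylow
    obtain ⟨g, hg⟩ := MulAction.exists_smul_eq G T' T
    have hzT : z ∈ (T : Subgroup G) := by
      rw [← hg]
      have : z = g * z * g⁻¹ := by rw [← hcomm g, mul_assoc, mul_inv_cancel, mul_one]
      rw [this, Sylow.coe_subgroup_smul, Subgroup.mem_pointwise_smul_iff_inv_smul_mem]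
      simp only [MulAut.smul_def, map_inv, MulAut.conj_inv_apply]
      have h2 : g⁻¹ * (g * z * g⁻¹) * g = z := by group
      rw [h2]
      exact hT' (mem_zpowers z)
    have huT : u ∈ (T : Subgroup G) := hT (mem_zpowers u)
    obtain ⟨eT⟩ := hS T
    have h := hq8 (eT ⟨u, huT⟩) (eT ⟨z, hzT⟩)
      (by rw [← map_pow, show (⟨u, huT⟩ : (T : Subgroup G)) ^ 2 = 1 from Subtype.ext hu, map_one])
      (by rw [← map_pow, show (⟨z, hzT⟩ : (T : Subgroup G)) ^ 2 = 1 from Subtype.ext hzz, map_one])
      (by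
        intro h0
        have := eT.injective (h0.trans (map_one eT).symm)
        exact hu1 (congrArg Subtype.val this))
      (by
        intro h0
        have := eT.injective (h0.trans (map_one eT).symm)
        exact hz1' (congrArg Subtype.val this))
    exact congrArg Subtype.val (eT.injective h)
  -- the quotient
  let N : Subgroup G := zpowers z
  haveI hN : N.Normal := by
    constructor
    intro n hn g
    obtain ⟨k, rfl⟩ := mem_zpowers_iff.1 hn
    have hc : Commute g (z ^ k) := ((show Commute z g from hcomm g).zpow_left k).symm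
    show g * z ^ k * g⁻¹ ∈ N
    rw [hc.eq, mul_assoc, mul_inv_cancel, mul_one]
    exact zpow_mem (mem_zpowers z) k
  have hNc : Nat.card N = 2 := by
    show Nat.card (zpowers z) = 2
    rw [Nat.card_zpowers, orderOf_eq_prime (p := 2) hzz hz1']
  have hQc : Nat.card (G ⧸ N) = 60 := by
    have hc := Subgroup.card_eq_card_quotient_mul_card_subgroup N
    rw [hcard, hNc] at hc
    omega
  have hNsolv : Group.IsSolvable N := solv_lt60 _ N rfl (by omega)
  have hQns : ¬ Group.IsSolvable (G ⧸ N) := by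
    intro h
    exact hns (Group.isSolvable_of_ker_le_range N.subtype (QuotientGroup.mk' N)
      (by rw [QuotientGroup.ker_mk', Subgroup.range_subtype]))
  haveI hQsimple : IsSimpleGroup (G ⧸ N) := by
    haveI : Nontrivial (G ⧸ N) := Finite.one_lt_card_iff_nontrivial.1 (by rw [hQc]; norm_num)
    refine ⟨fun K hK => ?_⟩
    by_contra hne
    push Not at hne
    obtain ⟨hK1, hK2⟩ := hne
    have hc := Subgroup.card_eq_card_quotient_mul_card_subgroup K
    rw [hQc] at hc
    have h1 : 1 < Nat.card K := by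
      haveI : Nontrivial K := (Subgroup.nontrivial_iff_ne_bot K).2 hK1
      exact Finite.one_lt_card
    have h2 : 1 < Nat.card ((G ⧸ N) ⧸ K) := by
      have h3 : K.index ≠ 1 := fun h => hK2 (Subgroup.index_eq_one.1 h)
      have h4 : K.index ≠ 0 := Subgroup.index_ne_zero_of_finite
      have : Nat.card ((G ⧸ N) ⧸ K) = K.index := rfl
      omega
    have hKlt : Nat.card K < 60 := by
      calc Nat.card K = 1 * Nat.card K := (one_mul _).symm
        _ < Nat.card ((G ⧸ N) ⧸ K) * Nat.card K := Nat.mul_lt_mul_of_pos_right h2 (by omega)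
        _ = 60 := hc.symm
    have hQlt : Nat.card ((G ⧸ N) ⧸ K) < 60 := by
      calc Nat.card ((G ⧸ N) ⧸ K) = Nat.card ((G ⧸ N) ⧸ K) * 1 := (mul_one _).symm
        _ < Nat.card ((G ⧸ N) ⧸ K) * Nat.card K := Nat.mul_lt_mul_of_pos_left h1 (by omega)
        _ = 60 := hc.symm
    haveI := solv_lt60 _ K rfl hKlt
    haveI := solv_lt60 _ ((G ⧸ N) ⧸ K) rfl hQlt
    exact hQns (Group.isSolvable_of_ker_le_range K.subtype (QuotientGroup.mk' K)
      (by rw [QuotientGroup.ker_mk', Subgroup.range_subtype]))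
  obtain ⟨e₁⟩ := Cfsg.Agent.S0494.result (G := G ⧸ N) hQc
  obtain ⟨e₀⟩ := Cfsg.Agent.S3377.result
  let e₂ : PresentedGroup R0 ≃* G ⧸ N := e₀.trans e₁.symm
  -- generators of the quotient and lifts
  let a₀ : G ⧸ N := e₂ (PresentedGroup.of 0)
  let b₀ : G ⧸ N := e₂ (PresentedGroup.of 1)
  have hof : ∀ r ∈ R0, PresentedGroup.mk R0 r = 1 := fun r hr => PresentedGroup.one_of_mem hr
  have ha3 : a₀ ^ 3 = 1 := by
    show e₂ _ ^ 3 = 1
    rw [← map_pow]
    have : (PresentedGroup.of 0 : PresentedGroup R0) ^ 3 = 1 := hof _ (by simp [R0])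
    rw [this, map_one]
  have hb5 : b₀ ^ 5 = 1 := by
    show e₂ _ ^ 5 = 1
    rw [← map_pow]
    have : (PresentedGroup.of 1 : PresentedGroup R0) ^ 5 = 1 := hof _ (by simp [R0])
    rw [this, map_one]
  have hab2 : (a₀ * b₀) ^ 2 = 1 := by
    show (e₂ _ * e₂ _) ^ 2 = 1
    rw [← map_mul, ← map_pow]
    have : ((PresentedGroup.of 0 : PresentedGroup R0) * PresentedGroup.of 1) ^ 2 = 1 := by
      have := hof ((FreeGroup.of (0 : Fin 2) * FreeGroup.of 1) ^ 2) (by simp [R0])
      simp only [map_pow, map_mul] at this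
      exact this
    rw [this, map_one]
  have hgen0 : Subgroup.closure ({a₀, b₀} : Set (G ⧸ N)) = ⊤ := by
    rw [eq_top_iff]
    intro q _
    obtain ⟨w, rfl⟩ := e₂.surjective q
    clear * -
    have hw : w ∈ Subgroup.closure (Set.range (PresentedGroup.of : Fin 2 → PresentedGroup R0)) := by
      rw [PresentedGroup.closure_range_of]; trivial
    induction hw using Subgroup.closure_induction with
    | mem c hc =>
      obtain ⟨i, rfl⟩ := hc
      apply Subgroup.subset_closure
      fin_cases i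
      · left; rfl
      · right; rfl
    | one => rw [map_one]; exact one_mem _
    | mul c d _ _ hc hd => rw [map_mul]; exact mul_mem hc hd
    | inv c _ hc => rw [map_inv]; exact inv_mem hc
  have hab1 : a₀ * b₀ ≠ 1 := by
    intro h
    have hb : b₀ = a₀⁻¹ := eq_inv_of_mul_eq_one_right h
    have hcomm' : ∀ p q : G ⧸ N, p * q = q * p := by
      have hc : IsCyclic (G ⧸ N) := by
        refine ⟨a₀, fun q => ?_⟩
        have hq : q ∈ Subgroup.closure ({a₀, b₀} : Set (G ⧸ N)) := by rw [hgen0]; trivial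
        have hle : Subgroup.closure ({a₀, b₀} : Set (G ⧸ N)) ≤ zpowers a₀ := by
          rw [Subgroup.closure_le]
          intro c hc
          rcases hc with rfl | hc
          · exact mem_zpowers _
          · rw [Set.mem_singleton_iff.1 hc, hb]; exact inv_mem (mem_zpowers _)
        exact hle hq
      exact fun p q => hc.commutative.is_comm.comm p q
    exact hQns (Group.isSolvable_of_comm hcomm')
  obtain ⟨a, ha⟩ := QuotientGroup.mk'_surjective N a₀
  obtain ⟨b, hb⟩ := QuotientGroup.mk'_surjective N b₀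
  have hmem : ∀ g : G, QuotientGroup.mk' N g = 1 → g = 1 ∨ g = z := by
    intro g hg
    have : g ∈ N := (QuotientGroup.eq_one_iff g).1 hg
    by_cases h1 : g = 1
    · exact Or.inl h1
    · refine Or.inr (huniq g ?_ h1)
      obtain ⟨k, rfl⟩ := mem_zpowers_iff.1 this
      rw [← zpow_natCast, ← zpow_mul, mul_comm, zpow_mul]
      simp [hzz]
  -- adjusted lifts
  obtain ⟨x, hx, hx3⟩ : ∃ x, QuotientGroup.mk' N x = a₀ ∧ x ^ 3 = 1 := by
    have h0 : QuotientGroup.mk' N (a ^ 3) = 1 := by rw [map_pow, ha, ha3]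
    rcases hmem _ h0 with h1 | h1
    · exact ⟨a, ha, h1⟩
    · refine ⟨a * z, ?_, ?_⟩
      · have hzN : QuotientGroup.mk' N z = 1 := (QuotientGroup.eq_one_iff z).2 (mem_zpowers z)
        rw [map_mul, ha, hzN, mul_one]
      · rw [(show Commute a z from (hcomm a).symm).mul_pow, h1]
        have : z * z ^ 3 = (z ^ 2) ^ 2 := by group
        rw [this, hzz, one_pow]
  obtain ⟨y, hy, hy5⟩ : ∃ y, QuotientGroup.mk' N y = b₀ ∧ y ^ 5 = 1 := by
    have h0 : QuotientGroup.mk' N (b ^ 5) = 1 := by rw [map_pow, hb, hb5]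
    rcases hmem _ h0 with h1 | h1
    · exact ⟨b, hb, h1⟩
    · refine ⟨b * z, ?_, ?_⟩
      · have hzN : QuotientGroup.mk' N z = 1 := (QuotientGroup.eq_one_iff z).2 (mem_zpowers z)
        rw [map_mul, hb, hzN, mul_one]
      · rw [(show Commute b z from (hcomm b).symm).mul_pow, h1]
        have : z * z ^ 5 = (z ^ 2) ^ 3 := by group
        rw [this, hzz, one_pow]
  have hxy : (x * y) ^ 2 = z := by
    have h0 : QuotientGroup.mk' N ((x * y) ^ 2) = 1 := by
      rw [map_pow, map_mul, hx, hy, hab2]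
    rcases hmem _ h0 with h1 | h1
    · exfalso
      by_cases h2 : x * y = 1
      · apply hab1
        rw [← hx, ← hy, ← map_mul, h2, map_one]
      · have h3 := huniq _ h1 h2
        apply hab1
        rw [← hx, ← hy, ← map_mul, h3]
        exact (QuotientGroup.eq_one_iff z).2 (mem_zpowers z)
    · exact h1
  have hgen : Subgroup.closure ({x, y, z} : Set G) = ⊤ := by
    set H := Subgroup.closure ({x, y, z} : Set G) with hH
    have hxm : x ∈ H := Subgroup.subset_closure (by simp)
    have hym : y ∈ H := Subgroup.subset_closure (by simp)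
    have hzm : z ∈ H := Subgroup.subset_closure (by simp)
    have key : Subgroup.closure ({a₀, b₀} : Set (G ⧸ N)) ≤ H.map (QuotientGroup.mk' N) := by
      rw [Subgroup.closure_le]
      rintro c (rfl | rfl)
      · exact ⟨x, hxm, hx⟩
      · exact ⟨y, hym, hy⟩
    rw [eq_top_iff]
    intro g _
    have h1 : QuotientGroup.mk' N g ∈ H.map (QuotientGroup.mk' N) := key (by rw [hgen0]; trivial)
    obtain ⟨h, hh, he⟩ := h1
    have h2 : QuotientGroup.mk' N (h⁻¹ * g) = 1 := by rw [map_mul, map_inv, he, inv_mul_cancel]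
    have h3 : g = h * (h⁻¹ * g) := by group
    rw [h3]
    rcases hmem _ h2 with h4 | h4
    · rw [h4, mul_one]; exact hh
    · rw [h4]; exact mul_mem hh hzm
  have hs := homR3_range x y z hx3 hy5 hzz (hcomm x) (hcomm y) hxy hgen
  obtain ⟨hfP, -⟩ := finite_P
  have hb' : Function.Bijective (homR3 x y z hx3 hy5 hzz (hcomm x) (hcomm y) hxy) := by
    rw [Nat.bijective_iff_surjective_and_card]
    exact ⟨hs, by rw [card_P, hcard]⟩
  obtain ⟨e₃⟩ := equiv_P
  exact ⟨(MulEquiv.ofBijective _ hb').symm.trans e₃⟩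

/-- Every non-solvable group of order 120 whose Sylow 2-subgroups are quaternion of order 8 is isomorphic to SL(2,5), and SL(2,5) has the presentation ⟨x, y, z | x³ = y⁵ = z² = 1, z⁻¹xz = x, z⁻¹yz = y, (xy)² = z⟩. -/
theorem result :
    (∀ (G : Type*) [Group G] [Finite G], Nat.card G = 120 → ¬ Group.IsSolvable G →
      (∀ P : Sylow 2 G, Nonempty ((P : Subgroup G) ≃* QuaternionGroup 2)) →
      Nonempty (G ≃* Matrix.SpecialLinearGroup (Fin 2) (ZMod 5))) ∧
    Nonempty (PresentedGroup ({FreeGroup.of (0 : Fin 3) ^ 3, FreeGroup.of (1 : Fin 3) ^ 5, FreeGroup.of (2 : Fin 3) ^ 2,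
        (FreeGroup.of (2 : Fin 3))⁻¹ * FreeGroup.of 0 * FreeGroup.of 2 * (FreeGroup.of (0 : Fin 3))⁻¹,
        (FreeGroup.of (2 : Fin 3))⁻¹ * FreeGroup.of 1 * FreeGroup.of 2 * (FreeGroup.of (1 : Fin 3))⁻¹,
        (FreeGroup.of (0 : Fin 3) * FreeGroup.of 1) ^ 2 * (FreeGroup.of (2 : Fin 3))⁻¹} : Set (FreeGroup (Fin 3)))
      ≃* Matrix.SpecialLinearGroup (Fin 2) (ZMod 5)) := by
  exact ⟨fun G _ _ h1 h2 h3 => recog G h1 h2 h3, equiv_P⟩

end Cfsg.Agent.S3378
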