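import Cfsg.Statements.S0191
import Mathlib
import Cfsg.Agent.Lib.Char.Galois

set_option autoImplicit false
open Cfsg

namespace Cfsg.Agent.S0191

open Cfsg.Agent.Lib.Char.Galois Cfsg.Agent.Lib.Char.OrthoBasic in
theorem amgm_aux {ι : Type*} [Fintype ι] [Nonempty ι] (a : ι → ℝ) (h0 : ∀ i, 0 ≤ a i)
    (h1 : 1 ≤ ∏ i, a i) : (Fintype.card ι : ℝ) ≤ ∑ i, a i := by
  have hc : (0 : ℝ) < Fintype.card ι := by exact_mod_cast Fintype.card_pos
  have h2 := Real.geom_mean_le_arith_mean_weighted (Finset.univ : Finset ι)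
    (fun _ => (Fintype.card ι : ℝ)⁻¹) a (fun _ _ => by positivity)
    (by simp [Finset.card_univ, hc.ne']) (fun i _ => h0 i)
  rw [Real.finsetProd_rpow _ _ (fun i _ => h0 i)] at h2
  have h3 : 1 ≤ (∏ i, a i) ^ (Fintype.card ι : ℝ)⁻¹ := Real.one_le_rpow h1 (by positivity)
  have h4 := h3.trans h2
  rw [← Finset.mul_sum] at h4
  rw [inv_mul_eq_div, one_le_div hc] at h4
  exact h4

open Cfsg.Agent.Lib.Char.Galois Cfsg.Agent.Lib.Char.OrthoBasic in

/-- An irreducible complex representation of a finite group of degree greater than 1 has a character that vanishes somewhere. -/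
theorem result {G : Type*} [Group G] [Finite G] {V : Type*} [AddCommGroup V] [Module ℂ V] [FiniteDimensional ℂ V] (ρ : Representation ℂ G V) [ρ.IsIrreducible] (hdeg : 1 < Module.finrank ℂ V) : ∃ g : G, ρ.character g = 0 := by
  classical
  by_contra hne
  push Not at hne
  haveI := Fintype.ofFinite G
  haveI : NeZero (Nat.card G) := ⟨Nat.card_pos.ne'⟩
  let F : G → ℝ := fun g => ‖ρ.character g‖ ^ 2
  -- Step 1
  have hstep : ∀ g : G, (Fintype.card (ZMod (Nat.card G))ˣ : ℝ) ≤
      ∑ u : (ZMod (Nat.card G))ˣ, F (g ^ (u : ZMod (Nat.card G)).val) := by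
    intro g
    obtain ⟨ι, hι, z, h1, h2⟩ := character_eigen ρ g (n := Nat.card G) Nat.card_pos pow_card_eq_one'
    obtain ⟨m, hm⟩ := prod_int (Nat.card G) z h1
    apply amgm_aux
    · intro u
      exact sq_nonneg _
    · have h3 : ∏ u : (ZMod (Nat.card G))ˣ, ρ.character (g ^ (u : ZMod (Nat.card G)).val) = m := by
        rw [← hm]
        exact Finset.prod_congr rfl fun u _ => h2 _
      have h4 : (m : ℂ) ≠ 0 := by
        rw [← h3]
        exact Finset.prod_ne_zero_iff.2 fun u _ => hne _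
      have h5 : m ≠ 0 := by exact_mod_cast h4
      have h6 : (1 : ℝ) ≤ ‖(m : ℂ)‖ := by
        rw [Complex.norm_intCast]
        exact_mod_cast Int.one_le_abs h5
      have h7 : ∏ u : (ZMod (Nat.card G))ˣ, F (g ^ (u : ZMod (Nat.card G)).val) = ‖(m : ℂ)‖ ^ 2 := by
        rw [← h3, norm_prod, Finset.prod_pow]
      rw [h7]
      exact one_le_pow₀ h6
  -- Step 2
  have hsum : ∑ g, F g = Nat.card G := by
    have h1 := norm_one_of_isIrreducible ρ
    have h2 : ∀ g : G, ρ.character g * ρ.character g⁻¹ = ((F g : ℝ) : ℂ) := by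
      intro g
      rw [character_inv, Complex.mul_conj, Complex.normSq_eq_norm_sq]
    simp_rw [h2] at h1
    exact_mod_cast h1
  have hperm : ∀ u : (ZMod (Nat.card G))ˣ, ∑ g, F (g ^ (u : ZMod (Nat.card G)).val) = Nat.card G := by
    intro u
    have hc : (Nat.card G).Coprime (u : ZMod (Nat.card G)).val :=
      (ZMod.val_coe_unit_coprime u).symm
    rw [← hsum]
    exact Equiv.sum_comp (powCoprime hc) F
  have hd : F 1 = (Module.finrank ℂ V : ℝ) ^ 2 := by
    simp only [F]
    rw [Representation.char_one]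
    simp
  set U := Fintype.card (ZMod (Nat.card G))ˣ with hU
  have hUpos : (0 : ℝ) < U := by exact_mod_cast Fintype.card_pos
  have htotal : ∑ g, ∑ u : (ZMod (Nat.card G))ˣ, F (g ^ (u : ZMod (Nat.card G)).val)
      = U * Nat.card G := by
    rw [Finset.sum_comm]
    simp_rw [hperm]
    simp [hU]
  have hsplit := Finset.add_sum_erase (Finset.univ : Finset G)
    (fun g => ∑ u : (ZMod (Nat.card G))ˣ, F (g ^ (u : ZMod (Nat.card G)).val)) (Finset.mem_univ 1)
  have hone : ∑ u : (ZMod (Nat.card G))ˣ, F ((1 : G) ^ (u : ZMod (Nat.card G)).val)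
      = U * (Module.finrank ℂ V : ℝ) ^ 2 := by
    simp [hU, hd]
  have hrest : ((Nat.card G : ℝ) - 1) * U ≤ ∑ g ∈ (Finset.univ : Finset G).erase 1,
      ∑ u : (ZMod (Nat.card G))ˣ, F (g ^ (u : ZMod (Nat.card G)).val) := by
    have := Finset.card_nsmul_le_sum ((Finset.univ : Finset G).erase 1)
      (fun g => ∑ u : (ZMod (Nat.card G))ˣ, F (g ^ (u : ZMod (Nat.card G)).val)) (U : ℝ)
      (fun g _ => hstep g)
    rw [Finset.card_erase_of_mem (Finset.mem_univ _), Finset.card_univ, nsmul_eq_mul,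
      Nat.cast_sub Fintype.card_pos, ← Nat.card_eq_fintype_card] at this
    simpa using this
  rw [hone, htotal] at hsplit
  have h2 : (2 : ℝ) ≤ Module.finrank ℂ V := by exact_mod_cast hdeg
  have h3 : (Module.finrank ℂ V : ℝ) ^ 2 ≤ 1 := by
    have h4 : U * (Module.finrank ℂ V : ℝ) ^ 2 + ((Nat.card G : ℝ) - 1) * U ≤ U * Nat.card G := by
      rw [← hsplit]
      linarith
    have h5 : U * ((Module.finrank ℂ V : ℝ) ^ 2 - 1) ≤ 0 := by nlinarith
    have h6 := (mul_nonpos_iff_pos_imp_nonpos).1 h5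
    linarith [h6.1 hUpos]
  nlinarith

end Cfsg.Agent.S0191
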