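import Cfsg.Statements.S4481
import Mathlib
import Mathlib
import Cfsg.Agent.Lib.Blocks.DihE

set_option autoImplicit false
open Cfsg

namespace Cfsg.Agent.S4481

/-- The principal 2-block of a group with dihedral Sylow 2-subgroups. Let G be a finite group whose Sylow 2-subgroup P is dihedral of order 2^n ≥ 8, let σ be an element of P of order 2^(n−1), ζ a primitive 2^(n−1)-th root of unity, and M a maximal ideal of the algebraic integers containing 2. Then the principal 2-block consists of exactly 3 + 2^(n−2) irreducible characters, which can be labelled 1, χ₁, χ₂, χ₃ and χ^(j) for 1 ≤ j ≤ 2^(n−2) − 1 (all distinct), with signs δ₁, δ₂, δ₃ such that for 0 < λ < 2^(n−1): χ₁(σ^λ) = δ₁, χ₂(σ^λ) = δ₂(−1)^(λ+1), χ₃(σ^λ) = δ₃(−1)^(λ+1) and χ^(j)(σ^λ) = δ₁(ζ^(jλ) + ζ^(−jλ)); and for every element ρ of odd order and every j: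 1 + δ₁χ₁(ρ) = −δ₂χ₂(ρ) − δ₃χ₃(ρ) = δ₁χ^(j)(ρ). -/
theorem result {G : Type*} [Group G] [Finite G] (M : Ideal Cfsg.AlgInt) (hM : Cfsg.IsPModular 2 M) (n : ℕ) (hn : 3 ≤ n) (P : Sylow 2 G) (hP : Nonempty ((P : Subgroup G) ≃* DihedralGroup (2 ^ (n - 1)))) (σ : G) (hσ : σ ∈ (P : Subgroup G)) (hσo : orderOf σ = 2 ^ (n - 1)) (ζ : ℂ) (hζ : IsPrimitiveRoot ζ (2 ^ (n - 1))) : Nat.card (Cfsg.principalBlock M G) = 3 + 2 ^ (n - 2) ∧ ∃ (χ₁ χ₂ χ₃ : Cfsg.IrrCharacter G) (χ' : Fin (2 ^ (n - 2) - 1) → Cfsg.IrrCharacter G) (δ₁ δ₂ δ₃ : ℤ), (δ₁ = 1 ∨ δ₁ = -1) ∧ (δ₂ = 1 ∨ δ₂ = -1) ∧ (δ₃ = 1 ∨ δ₃ = -1) ∧ Function.Injective χ' ∧ (χ₁ : G → ℂ) ≠ (fun _ => 1) ∧ (χ₂ : G → ℂ) ≠ (fun _ => 1) ∧ (χ₃ : G → ℂ) ≠ (fun _ => 1) ∧ χ₁ ≠ χ₂ ∧ χ₁ ≠ χ₃ ∧ χ₂ ≠ χ₃ ∧ (∀ j, χ' j ≠ χ₁ ∧ χ' j ≠ χ₂ ∧ χ' j ≠ χ₃ ∧ (χ' j : G → ℂ) ≠ (fun _ => 1)) ∧ Cfsg.principalBlock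 M G = {χ : Cfsg.IrrCharacter G | (χ : G → ℂ) = (fun _ => 1) ∨ χ = χ₁ ∨ χ = χ₂ ∨ χ = χ₃ ∨ ∃ j, χ = χ' j} ∧ (∀ l : ℕ, 0 < l → l < 2 ^ (n - 1) → (χ₁ : G → ℂ) (σ ^ l) = δ₁ ∧ (χ₂ : G → ℂ) (σ ^ l) = δ₂ * (-1) ^ (l + 1) ∧ (χ₃ : G → ℂ) (σ ^ l) = δ₃ * (-1) ^ (l + 1) ∧ ∀ j : Fin (2 ^ (n - 2) - 1), (χ' j : G → ℂ) (σ ^ l) = δ₁ * (ζ ^ (((j : ℕ) + 1) * l) + (ζ ^ (((j : ℕ) + 1) * l))⁻¹)) ∧ ∀ ρ : G, Odd (orderOf ρ) → ∀ j : Fin (2 ^ (n - 2) - 1), 1 + δ₁ * (χ₁ : G → ℂ) ρ = -δ₂ * (χ₂ : G → ℂ) ρ - δ₃ * (χ₃ : G → ℂ) ρ ∧ 1 + δ₁ * (χ₁ : G → ℂ) ρ = δ₁ * (χ' j : G → ℂ) ρ := by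
  classical
  letI : Fintype G := Fintype.ofFinite G
  have h : Cfsg.Agent.Lib.Blocks.DihS.DSig G (n - 1) P σ := ⟨by omega, hP, hσ, hσo⟩
  have hk' : 2 ^ (n - 1 - 1) = 2 ^ (n - 2) - 1 + 1 := by
    have h1 : 0 < 2 ^ (n - 1 - 1) := by positivity
    have h2 : n - 1 - 1 = n - 2 := by omega
    rw [h2] at h1 ⊢
    omega
  obtain ⟨hcard, χ₁, χ₂, χ₃, χ', δ₁, δ₂, δ₃, h1, h2, h3, hinj, hm1, hm2, hm3, h12, h13, h23, hj, hmem, hval, hrel⟩ :=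
    h.main_aux hM hζ hk'
  have hne : ∀ x ∈ (Cfsg.Agent.Lib.Blocks.DihS.TB M G).erase (Cfsg.Agent.Lib.Blocks.Principal.trivChar G),
      (x : G → ℂ) ≠ (fun _ => 1) := by
    intro x hx he
    exact (Finset.mem_erase.mp hx).1 (Subtype.ext he)
  have hsub : ∀ x ∈ (Cfsg.Agent.Lib.Blocks.DihS.TB M G).erase (Cfsg.Agent.Lib.Blocks.Principal.trivChar G),
      x ∈ Cfsg.principalBlock M G := by
    intro x hx
    exact (Finset.mem_filter.mp (Finset.mem_erase.mp hx).2).2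
  have hset : Cfsg.principalBlock M G = ((Cfsg.Agent.Lib.Blocks.DihS.TB M G : Finset _) : Set (Cfsg.IrrCharacter G)) := by
    ext x
    simp
  refine ⟨?_, χ₁, χ₂, χ₃, χ', δ₁, δ₂, δ₃, h1, h2, h3, hinj, hne _ hm1, hne _ hm2, hne _ hm3, h12, h13, h23, ?_, ?_, ?_, ?_⟩
  · rw [hset, Nat.card_coe_set_eq, Set.ncard_coe_finset, hcard]
    have h4 : 0 < 2 ^ (n - 2) := by positivity
    omega
  · intro j
    obtain ⟨h4, h5, h6, h7⟩ := hj j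
    exact ⟨h4, h5, h6, hne _ h7⟩
  · ext x
    simp only [Set.mem_ofPred_eq]
    constructor
    · intro hx
      have hxT : x ∈ Cfsg.Agent.Lib.Blocks.DihS.TB M G := Finset.mem_filter.mpr ⟨Finset.mem_univ _, hx⟩
      rcases hmem x hxT with h4 | h4 | h4 | h4 | h4
      · left
        rw [h4]
        rfl
      · exact Or.inr (Or.inl h4)
      · exact Or.inr (Or.inr (Or.inl h4))
      · exact Or.inr (Or.inr (Or.inr (Or.inl h4)))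
      · exact Or.inr (Or.inr (Or.inr (Or.inr h4)))
    · rintro (h4 | h4 | h4 | h4 | ⟨j, h4⟩)
      · have h5 : x = Cfsg.Agent.Lib.Blocks.Principal.trivChar G := Subtype.ext h4
        rw [h5]
        haveI := Cfsg.Agent.Lib.Blocks.Local.isPrime_of_isPModular hM
        exact Cfsg.Agent.Lib.Blocks.Principal.trivChar_mem_principalBlock
      · rw [h4]
        exact hsub _ hm1
      · rw [h4]
        exact hsub _ hm2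
      · rw [h4]
        exact hsub _ hm3
      · rw [h4]
        exact hsub _ (hj j).2.2.2
  · exact hval
  · exact hrel

end Cfsg.Agent.S4481
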