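import Cfsg.Statements.S4482
import Mathlib
import Mathlib
import Cfsg.Agent.Lib.Blocks.DihI

set_option autoImplicit false
open Cfsg

namespace Cfsg.Agent.S4482

/-- An order formula for groups with dihedral Sylow 2-subgroups and one class of involutions. Let G be a finite group whose Sylow 2-subgroup P = ⟨σ, τ⟩ is dihedral of order 2^n ≥ 8 (σ of order 2^(n−1), τ an involution inverting σ), let J be the central involution σ^(2^(n−2)), and suppose J, τ and στ are conjugate in G. Fix M over 2 and let χ₁ be an irreducible character in the principal 2-block taking one constant value δ₁ = ±1 at every non-identity power of σ, with χ₁ ≠ 1. Then, with x₁ = χ₁(1) and c(·) denoting orders of centralizers, x₁ ≠ δ₁ and #G · (x₁ − δ₁)² = 2·x₁(x₁ + δ₁)·c(J)³·(1/c(J, τ) + 1/c(J, στ))², where c(J, y) is the order of the joint centralizer of J and y. -/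
theorem result {G : Type*} [Group G] [Finite G] (M : Ideal Cfsg.AlgInt) (hM : Cfsg.IsPModular 2 M) (n : ℕ) (hn : 3 ≤ n) (P : Sylow 2 G) (σ τ : G) (hσ : σ ∈ (P : Subgroup G)) (hτ : τ ∈ (P : Subgroup G)) (hσo : orderOf σ = 2 ^ (n - 1)) (hτo : orderOf τ = 2) (hrel : τ * σ * τ⁻¹ = σ⁻¹) (hgen : Subgroup.closure ({σ, τ} : Set G) = (P : Subgroup G)) (hconj : IsConj (σ ^ (2 ^ (n - 2))) τ ∧ IsConj (σ ^ (2 ^ (n - 2))) (σ * τ)) (χ₁ : Cfsg.IrrCharacter G) (hχ₁ : χ₁ ∈ Cfsg.principalBlock M G) (h1 : (χ₁ : G → ℂ) ≠ (fun _ => 1)) (δ₁ : ℤ) (hδ₁ : δ₁ = 1 ∨ δ₁ = -1) (hval : ∀ l : ℕ, 0 < l → l < 2 ^ (n - 1) → (χ₁ : G → ℂ) (σ ^ l) = δ₁) : (Cfsg.charDegree (χ₁ : G → ℂ) : ℤ) ≠ δ₁ ∧ (Nat.card G : ℚ) * ((Cfsg.charDegree (χ₁ : G → ℂ) : ℚ) - δ₁) ^ 2 = 2 * (Cfsg.charDegree (χ₁ : G → ℂ) : ℚ) * ((Cfsg.charDegree (χ₁ : G → ℂ) : ℚ) + δ₁) * (Nat.card (Subgroup.centralizer ({σ ^ (2 ^ (n - 2))} : Set G)) : ℚ) ^ 3 * (1 / (Nat.card (Subgroup.centralizer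 ({σ ^ (2 ^ (n - 2)), τ} : Set G)) : ℚ) + 1 / (Nat.card (Subgroup.centralizer ({σ ^ (2 ^ (n - 2)), σ * τ} : Set G)) : ℚ)) ^ 2 := by
  classical
  letI : Fintype G := Fintype.ofFinite G
  haveI : Fact (Nat.Prime 2) := ⟨by norm_num⟩
  haveI hMp := Cfsg.Agent.Lib.Blocks.Local.isPrime_of_isPModular hM
  have hττ : τ * τ = 1 := by
    have := pow_orderOf_eq_one τ
    rwa [hτo, pow_two] at this
  have hk : 2 ≤ n - 1 := by omega
  have h2k : 2 ≤ orderOf σ := by
    rw [hσo]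
    have : (2 : ℕ) ^ 2 ≤ 2 ^ (n - 1) := Nat.pow_le_pow_right (by norm_num) hk
    omega
  have hσσ : σ * σ ≠ 1 := Cfsg.Agent.Lib.Blocks.DihS.sq_ne_one_of_order hσo hk
  have hτA : τ ∉ Subgroup.zpowers σ := by
    intro hA
    obtain ⟨z, hz⟩ := hA
    have hc : τ * σ = σ * τ := by
      rw [← hz]
      exact ((Commute.refl σ).zpow_left z).eq
    rw [hc, mul_inv_cancel_right] at hrel
    apply hσσ
    nth_rewrite 1 [hrel]
    simp
  -- the Sylow subgroup is dihedral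
  have hdih : Nonempty ((P : Subgroup G) ≃* DihedralGroup (2 ^ (n - 1))) := by
    have hσN := Cfsg.Agent.Lib.PGroup.PowZ.pow_eq_one_of_orderOf hσo
    have hinj := Cfsg.Agent.Lib.PGroup.PowZ.dihedralHom_injective hσo hττ hrel hτA
    have hrange : (Cfsg.Agent.Lib.PGroup.PowZ.dihedralHom σ τ hσN hττ hrel).range = (P : Subgroup G) := by
      rw [← hgen]
      apply le_antisymm
      · rintro _ ⟨x, rfl⟩
        rcases x with i | i
        · have : Cfsg.Agent.Lib.PGroup.PowZ.dihedralHom σ τ hσN hττ hrel (DihedralGroup.r i) =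
              Cfsg.Agent.Lib.PGroup.PowZ.powZ σ i := rfl
          rw [this]
          exact (Subgroup.zpowers_le.mpr (Subgroup.subset_closure (by simp)))
            (Cfsg.Agent.Lib.PGroup.PowZ.powZ_mem_zpowers σ i)
        · have : Cfsg.Agent.Lib.PGroup.PowZ.dihedralHom σ τ hσN hττ hrel (DihedralGroup.sr i) =
              τ * Cfsg.Agent.Lib.PGroup.PowZ.powZ σ i := rfl
          rw [this]
          refine Subgroup.mul_mem _ (Subgroup.subset_closure (by simp)) ?_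
          exact (Subgroup.zpowers_le.mpr (Subgroup.subset_closure (by simp)))
            (Cfsg.Agent.Lib.PGroup.PowZ.powZ_mem_zpowers σ i)
      · rw [Subgroup.closure_le]
        rintro _ (rfl | h)
        · refine ⟨DihedralGroup.r 1, ?_⟩
          exact Cfsg.Agent.Lib.PGroup.PowZ.powZ_one_of_one_lt hσN
        · rw [Set.mem_singleton_iff] at h
          rw [h]
          refine ⟨DihedralGroup.sr 0, ?_⟩
          have : Cfsg.Agent.Lib.PGroup.PowZ.dihedralHom σ τ hσN hττ hrel (DihedralGroup.sr 0) =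
              τ * Cfsg.Agent.Lib.PGroup.PowZ.powZ σ 0 := rfl
          rw [this, Cfsg.Agent.Lib.PGroup.PowZ.powZ_zero, mul_one]
    exact ⟨(MulEquiv.subgroupCongr hrange.symm).trans (MonoidHom.ofInjective hinj).symm⟩
  have e : n - 1 - 1 = n - 2 := by omega
  have hone : Cfsg.Agent.Lib.Blocks.DihS.DOne G (n - 1) P σ τ :=
    ⟨⟨hk, hdih, hσ, hσo⟩, hτ, hrel, hττ, hτA, by rw [e]; exact hconj.1, by rw [e]; exact hconj.2⟩
  have h1' : χ₁ ≠ Cfsg.Agent.Lib.Blocks.Principal.trivChar G := by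
    intro he
    exact h1 (by rw [he]; rfl)
  obtain ⟨hne, hform⟩ := hone.formula hM hχ₁ h1' hδ₁ hval
  rw [e] at hform
  have hdeg : ((Cfsg.charDegree (χ₁ : G → ℂ) : ℕ) : ℂ) = (χ₁ : G → ℂ) 1 :=
    Cfsg.Agent.Lib.Char.Values.IsCharacter.charDegree_cast
      (Cfsg.Agent.Lib.Char.Basic.isCharacter_of_isIrrCharacter χ₁.2)
  rw [← hdeg] at hne hform
  refine ⟨?_, ?_⟩
  · intro he
    apply hne
    rw [← he]
    push_cast
    rfl
  · apply Rat.cast_injective (α := ℂ)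
    push_cast
    exact hform

end Cfsg.Agent.S4482
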