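import Cfsg.Statements.S4441
import Cfsg.Agent.Lib.DefectOne.BlockD

set_option autoImplicit false
open Cfsg

namespace Cfsg.Agent.S4441

open Cfsg.Agent.Lib.DefectOne Subgroup Finset Cfsg.Agent.Lib.Blocks.Local Cfsg.Agent.Lib.Blocks.Central

set_option maxHeartbeats 2000000 in
/-- Let p be an odd prime and G a finite group whose Sylow p-subgroup P has order p; let C = C_G(P), N = N_G(P), e the index of C in N and t = (p − 1)/e; fix a maximal ideal M of the algebraic integers containing p and let B₀ be the principal block. Then B₀ is the disjoint union of a set X of e characters and a set Y of t characters such that: each χ ∈ X has a sign ε_χ with χ(1) ≡ ε_χ (mod p) and χ(x y) = ε_χ for every non-identity x ∈ P and every p-regular y ∈ C; all members of Y agree on the p-regular elements of G; there is one sign ε with θ(1) ≡ ε e (mod p) for every θ ∈ Y; and for every θ ∈ Y and every p-regular g, ε θ(g) = Σ_{χ ∈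 X} ε_χ χ(g). -/
theorem result {G : Type*} [Group G] [Fintype G] (p : ℕ) [Fact p.Prime] (M : Ideal Cfsg.AlgInt) (hM : Cfsg.IsPModular p M) (hodd : p ≠ 2) (P : Sylow p G) (hP : Nat.card P = p) (e : ℕ) (he : (Subgroup.centralizer ((P : Subgroup G) : Set G)).relIndex (Subgroup.normalizer ((P : Subgroup G) : Set G)) = e) : ∃ X Y : Set (Cfsg.IrrCharacter G), Cfsg.principalBlock M G = X ∪ Y ∧ Disjoint X Y ∧ Nat.card X = e ∧ Nat.card Y = (p - 1) / e ∧ ∃ (εX : Cfsg.IrrCharacter G → ℤ) (ε : ℤ), (∀ χ ∈ X, (εX χ = 1 ∨ εX χ = -1) ∧ (Cfsg.charDegree (χ : G → ℂ) : ℤ) ≡ εX χ [ZMOD p] ∧ ∀ x : G, x ∈ (P : Subgroup G) → x ≠ 1 → ∀ y : G, y ∈ Subgroup.centralizer ((P : Subgroup G) : Set G) → ¬ p ∣ orderOf y → (χ : G → ℂ) (x * y) = (εX χ : ℂ)) ∧ (ε = 1 ∨ ε = -1) ∧ (∀ θ ∈ Y, (Cfsg.charDegree (θ : G → ℂ) : ℤ) ≡ ε * (e : ℤ) [ZMOD p]) ∧ (∀ θ ∈ Y, ∀ θ' ∈ Y, ∀ g : G, ¬ p ∣ orderOf g → (θ : G → ℂ) g = (θ' : G → ℂ) g) ∧ ∀ θ ∈ Y, ∀ g : G,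 ¬ p ∣ orderOf g → (ε : ℂ) * (θ : G → ℂ) g = ∑ᶠ χ ∈ X, (εX χ : ℂ) * (χ : G → ℂ) g := by
  classical
  haveI : Fact p.Prime := inferInstance
  have hp := (Fact.out : p.Prime)
  -- the data
  have hnt : Nontrivial (P : Subgroup G) := by
    have h1 : 1 < Nat.card (P : Subgroup G) := by
      show 1 < Nat.card P
      rw [hP]
      exact hp.one_lt
    exact Finite.one_lt_card_iff_nontrivial.1 h1
  obtain ⟨⟨x, hxP⟩, hx1⟩ := exists_ne (1 : (P : Subgroup G))
  have hx1' : x ≠ 1 := fun h => hx1 (Subtype.ext h)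
  obtain ⟨hz, H, hL⟩ := exists_localData P hP hxP hx1'
  letI : Fintype H := Fintype.ofFinite _
  letI : Fintype (IrrCharacter G) := Fintype.ofFinite _
  haveI hMp : M.IsPrime := isPrime_of_isPModular hM
  have hζ : IsPrimitiveRoot (Complex.exp (2 * Real.pi * Complex.I / p)) p := Complex.isPrimitiveRoot_exp p hp.ne_zero
  set ζ := Complex.exp (2 * Real.pi * Complex.I / p) with hζdef
  have hcen : centralizer ((P : Subgroup G) : Set G) = centralizer (zpowers x : Set G) := by rw [hz]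
  have hnor : normalizer ((P : Subgroup G) : Set G) = normalizer (zpowers x : Set G) := by rw [hz]
  -- the trivial character of `H`
  let φ₁ : IrrCharacter H := Cfsg.Agent.Lib.Blocks.Principal.trivChar H
  have hφ₁ : (φ₁ : H → ℂ) = fun _ => 1 := rfl
  have hTT : ∀ g, g ∈ TT hL (φ₁ : H → ℂ) ↔ g ∈ normalizer (zpowers x : Set G) := by
    intro g
    constructor
    · exact fun h => TT_le hL _ h
    · intro h
      exact ⟨h, fun y => by simp [hφ₁]⟩
  obtain ⟨A, e₀, t, hI⟩ := exists_inertiaData hL (isClassFunction_of_irr φ₁.2)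
  have he₀ : e₀ = e := by
    rw [← hI.idx, ← he, hcen, hnor]
    congr 1
    ext g
    exact hTT g
  subst he₀
  obtain ⟨X, Y, εX, ε₀, bY, hS⟩ := exists_rowStructure hL φ₁.2 hζ hI.epos hI.het hI.Acard hI.hA hI.T1 hI.T2 hI.fib
  -- the trivial character of `G`
  let τ : IrrCharacter G := Cfsg.Agent.Lib.Blocks.Principal.trivChar G
  have hτ : (τ : G → ℂ) = fun _ => 1 := rfl
  have hHc : (Nat.card H : ℂ) ≠ 0 := by exact_mod_cast Nat.card_pos.ne'
  have hSSτ : SS H (τ : G → ℂ) (φ₁ : H → ℂ) 1 = 1 := by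
    unfold SS idemCoeff
    simp only [hτ, hφ₁, mul_one, one_mul]
    rw [sum_const, card_univ, nsmul_eq_mul, ← Nat.card_eq_fintype_card]
    field_simp
  have hτm : mTot (p := p) x H (τ : G → ℂ) (φ₁ : H → ℂ) ζ = 1 := by
    have h1 := SS_one hL τ.2 φ₁.2 hζ
    rw [hSSτ] at h1
    simp only [hφ₁, one_mul] at h1
    exact_mod_cast h1.symm
  have hτrow : ∃ a : ZMod p, rr x H (φ₁ : H → ℂ) ζ (τ : G → ℂ) a ≠ 0 := by
    by_contra hno
    push Not at hno
    have hR : Rsum (p := p) x H (φ₁ : H → ℂ) ζ (τ : G → ℂ) = 0 := sum_eq_zero fun a _ => hno a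
    have h1 := mTot_eq (p := p) (x := x) (φ₁ : H → ℂ) ζ (τ : G → ℂ)
    rw [hR, hτm, add_zero] at h1
    have h2 : (p : ℤ) ∣ 1 := by
      rw [show (1 : ℤ) = ((1 : ℕ) : ℤ) from rfl, h1]
      exact dvd_mul_right _ _
    have h3 : p ∣ 1 := by exact_mod_cast h2
    exact hp.one_lt.ne' (Nat.dvd_one.1 h3)
  have hτmem : τ ∈ X ∪ Y := (hS.supp τ).2 hτrow
  have hτdeg : charDegree (τ : G → ℂ) = 1 := by
    unfold charDegree
    simp [hτ]
  have hdeg : ∀ χ ∈ blockOf M (τ : G → ℂ), ¬ p ∣ charDegree (χ : G → ℂ) := by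
    intro χ hχ
    refine not_dvd_of_mem_block hM hL.syl ?_ hχ
    rw [hτdeg]
    exact fun h => hp.one_lt.ne' (Nat.dvd_one.1 h)
  have hblock : principalBlock M G = ((X ∪ Y : Finset (IrrCharacter G)) : Set (IrrCharacter G)) :=
    block_eq_rows hL hM φ₁.2 hζ hS hI hτmem hdeg
  have hdc : ∀ χ : IrrCharacter G, (χ : G → ℂ) 1 = (charDegree (χ : G → ℂ) : ℂ) := fun χ =>
    (Cfsg.Agent.Lib.Char.Values.IsCharacter.charDegree_cast
      (Cfsg.Agent.Lib.Char.Basic.isCharacter_of_isIrrCharacter χ.2)).symm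
  have hφ1 : (φ₁ : H → ℂ) 1 = ((1 : ℕ) : ℂ) := by simp [hφ₁]
  have hepos := hI.epos
  have helt := e_lt_p hL hI
  have hpe : ¬ (p : ℤ) ∣ (e₀ : ℤ) := by
    intro h
    have h1 : p ∣ e₀ := by exact_mod_cast h
    have h2 := Nat.le_of_dvd hepos h1
    omega
  have hpi : Prime (p : ℤ) := Nat.prime_iff_prime_int.1 hp
  -- the index modulo `p`
  obtain ⟨u, hu⟩ : ∃ u : ℤ, ((centralizer (zpowers x : Set G)).index : ℤ) = e₀ + p * u := by
    have h1 := index_centralizer_modEq P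
    rw [he, hcen] at h1
    have h2 : ((e₀ : ℤ)) ≡ ((centralizer (zpowers x : Set G)).index : ℤ) [ZMOD p] :=
      ((Int.natCast_modEq_iff).2 h1).symm
    obtain ⟨u, hu⟩ := Int.modEq_iff_dvd.1 h2
    exact ⟨u, by linear_combination hu⟩
  -- vanishing of the other rows
  have hvan : ∀ χ ∈ X ∪ Y, ∀ φ : IrrCharacter H, φ ≠ φ₁ → ∀ a : ZMod p, rr x H (φ : H → ℂ) ζ (χ : G → ℂ) a = 0 := by
    intro χ hχ φ hφ a
    by_contra ha
    apply hφ
    obtain ⟨A', e', t', hI'⟩ := exists_inertiaData hL (isClassFunction_of_irr φ.2)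
    obtain ⟨X', Y', εX', ε₀', bY', hS'⟩ := exists_rowStructure hL φ.2 hζ hI'.epos hI'.het hI'.Acard hI'.hA hI'.T1 hI'.T2 hI'.fib
    have h1 : χ ∈ X' ∪ Y' := (hS'.supp χ).2 ⟨a, ha⟩
    obtain ⟨g, hg, hgy⟩ := rel_of_rows hL hM χ φ₁.2 φ.2 hζ hI ((hS.supp χ).1 hχ) (hdc χ)
      (not_dvd_deg hL φ₁.2 hζ hS hI hχ (hdc χ)) (not_dvd_mTot hL hS' hI' h1)
    apply Subtype.ext
    funext y
    have h2 := hgy ((conjH hL g hg).symm y)
    rw [MulEquiv.apply_symm_apply] at h2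
    rw [h2]
    rfl
  -- values
  have hval : ∀ χ ∈ X, ∀ i : ZMod p, i ≠ 0 → ∀ y : H, (χ : G → ℂ) (XX x i * y) = ((-εX χ : ℤ) : ℂ) := by
    intro χ hχ i hi y
    letI : Fintype (IrrCharacter H) := Fintype.ofFinite _
    rw [← sum_SS (H := H) (χ : G → ℂ) (XX x i * y)]
    rw [Finset.sum_eq_single φ₁]
    · rw [SS_row hL χ.2 φ₁.2 hζ hi]
      have hφy : (φ₁ : H → ℂ) y = 1 := rfl
      rw [hφy, one_mul, ← add_sum_erase univ _ (mem_univ (0 : ZMod p)), rr_zero, Int.cast_zero, zero_mul, zero_add]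
      have h1 : ∀ a ∈ univ.erase (0 : ZMod p), ((rr x H (φ₁ : H → ℂ) ζ (χ : G → ℂ) a : ℤ) : ℂ) * ζ ^ (a * i).val =
          (εX χ : ℂ) * ζ ^ (a * i).val := by
        intro a ha
        rw [(hS.rowX χ hχ).2 a (mem_erase.1 ha).1]
      rw [sum_congr rfl h1, ← mul_sum]
      have h2 := sum_zeta hζ i
      rw [if_neg hi, ← add_sum_erase univ _ (mem_univ (0 : ZMod p))] at h2
      simp only [zero_mul, ZMod.val_zero, pow_zero] at h2
      have h3 : ∑ a ∈ univ.erase (0 : ZMod p), ζ ^ (a * i).val = -1 := by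
        linear_combination h2
      rw [h3]
      push_cast
      ring
    · intro φ _ hφ
      rw [SS_row hL χ.2 φ.2 hζ hi]
      have h1 : ∀ a : ZMod p, rr x H (φ : H → ℂ) ζ (χ : G → ℂ) a = 0 := hvan χ (mem_union_left _ hχ) φ hφ
      simp [h1]
    · intro h
      exact absurd (mem_univ _) h
  have hcardc : ∀ S : Finset (IrrCharacter G), Nat.card ((S : Set (IrrCharacter G))) = S.card := by
    intro S
    simp
  refine ⟨(X : Set (IrrCharacter G)), (Y : Set (IrrCharacter G)), ?_, ?_, ?_, ?_, fun χ => -εX χ, ε₀, ?_, hS.sign₀, ?_, ?_, ?_⟩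
  · rw [hblock, Finset.coe_union]
  · exact Finset.disjoint_coe.2 hS.disj
  · rw [hcardc, hS.cardX]
  · rw [hcardc, hS.cardY]
    exact (Nat.div_eq_of_eq_mul_right hepos hI.het).symm
  · intro χ hχ
    have hχ' : χ ∈ X := hχ
    obtain ⟨hs, hr⟩ := hS.rowX χ hχ'
    refine ⟨?_, ?_, ?_⟩
    · rcases hs with h | h
      · right
        show -εX χ = -1
        rw [h]
      · left
        show -εX χ = 1
        rw [h]
        rfl
    · obtain ⟨k, hk⟩ := degree_cong hL χ φ₁.2 hζ hI _ 1 (hdc χ) hφ1 ((hS.supp χ).1 (mem_union_left _ hχ'))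
      rw [Rsum_of_X hS hχ'] at hk
      rw [Int.modEq_iff_dvd]
      have h1 : (p : ℤ) ∣ (e₀ : ℤ) * (-εX χ - (charDegree (χ : G → ℂ) : ℤ)) := by
        refine ⟨k - e₀ * εX χ - u * εX χ * (p - 1), ?_⟩
        rw [Nat.mul_one, hu] at hk
        linear_combination hk
      exact (hpi.dvd_or_dvd h1).resolve_left hpe
    · intro x' hx' hx'1 y hy hyo
      rw [← hz] at hx'
      obtain ⟨i, rfl⟩ := exists_XX_of_mem hL.ord hx'
      have hi : i ≠ 0 := by
        rintro rfl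
        exact hx'1 (XX_zero x)
      have hyH : y ∈ H := by
        refine hL.mem_iff.2 ⟨?_, hyo⟩
        rw [hcen] at hy
        exact (Subgroup.mem_centralizer_iff.1 hy x (Subgroup.mem_zpowers x)).symm
      exact hval χ hχ' i hi ⟨y, hyH⟩
  · intro θ hθ
    have hθ' : θ ∈ Y := hθ
    obtain ⟨k, hk⟩ := degree_cong hL θ φ₁.2 hζ hI _ 1 (hdc θ) hφ1 ((hS.supp θ).1 (mem_union_right _ hθ'))
    rw [Rsum_of_Y hS hI.Acard hI.hA hθ'] at hk
    rw [Int.modEq_iff_dvd]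
    have h1 : (p : ℤ) ∣ (e₀ : ℤ) * (ε₀ * (e₀ : ℤ) - (charDegree (θ : G → ℂ) : ℤ)) := by
      refine ⟨k - u * ε₀ * e₀, ?_⟩
      rw [Nat.mul_one, hu] at hk
      linear_combination hk
    exact (hpi.dvd_or_dvd h1).resolve_left hpe
  · intro θ hθ θ' hθ' g hg
    have h1 := hS.rel g hg θ hθ
    have h2 := hS.rel g hg θ' hθ'
    have h3 : (ε₀ : ℂ) * (θ : G → ℂ) g = (ε₀ : ℂ) * (θ' : G → ℂ) g := by linear_combination h1 - h2
    have h4 : (ε₀ : ℂ) ≠ 0 := by
      rcases hS.sign₀ with h | h <;> rw [h] <;> norm_num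
    exact mul_left_cancel₀ h4 h3
  · intro θ hθ g hg
    have h1 := hS.rel g hg θ hθ
    rw [finsum_mem_coe_finset]
    have h2 : ∑ χ ∈ X, ((-εX χ : ℤ) : ℂ) * (χ : G → ℂ) g = - ∑ χ ∈ X, (εX χ : ℂ) * (χ : G → ℂ) g := by
      rw [← sum_neg_distrib]
      refine sum_congr rfl fun χ _ => ?_
      push_cast
      ring
    rw [h2]
    linear_combination h1

end Cfsg.Agent.S4441
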