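import Cfsg.Statements.S0992
import Cfsg.Agent.Lib.Transfer.SmallSylow

set_option autoImplicit false
open Cfsg

namespace Cfsg.Agent.S0992

open Cfsg.Agent.Lib.Transfer.SmallSylow

/-- A group of order `4` has at most `6` automorphisms. -/
theorem card_mulAut_dvd_six {V : Type*} [Group V] [Finite V] (h : Nat.card V = 4) :
    Nat.card (MulAut V) ∣ 6 := by
  classical
  let Ψ : MulAut V →* Equiv.Perm {x : V // x ≠ 1} :=
    { toFun := fun σ => σ.toEquiv.subtypeEquiv (fun a => by
        simp only [ne_eq]
        constructor
        · intro ha hb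
          apply ha
          have : σ a = σ 1 := by rw [map_one]; exact hb
          exact σ.injective this
        · intro ha hb
          apply ha
          show σ a = 1
          rw [hb, map_one])
      map_one' := by
        ext x
        rfl
      map_mul' := by
        intro a b
        ext x
        rfl }
  have hinj : Function.Injective Ψ := by
    intro σ τ hστ
    ext x
    by_cases hx : x = 1
    · rw [hx, map_one, map_one]
    · have := congrArg (fun f : Equiv.Perm {x : V // x ≠ 1} => ((f ⟨x, hx⟩ : {x : V // x ≠ 1}) : V)) hστ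
      exact this
  have hd := Subgroup.card_dvd_of_injective Ψ hinj
  have hc : Nat.card {x : V // x ≠ 1} = 3 := by
    let _ : Fintype V := Fintype.ofFinite V
    rw [Nat.card_eq_fintype_card, Fintype.card_subtype_compl, Fintype.card_subtype_eq,
      ← Nat.card_eq_fintype_card, h]
  rw [Nat.card_perm, hc] at hd
  exact hd

/-- Let G be a non-abelian finite simple group of even order not divisible by 8, and T a Sylow 2-subgroup. Then T is a Klein four-group and the centralizer of T has index 3 in the normalizer of T. -/
theorem result {G : Type*} [Group G] [Finite G] [IsSimpleGroup G] (hG : ¬ IsMulCommutative G) (h2 : Even (Nat.card G)) (h8 : ¬ 8 ∣ Nat.card G) (T : Sylow 2 G) : IsKleinFour ↥(T : Subgroup G) ∧ (Subgroup.centralizer ((T : Subgroup G) : Set G)).relIndex (Subgroup.normalizer ((T : Subgroup G) : Set G)) = 3 := by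
  classical
  have hGne : ∃ x y : G, x * y ≠ y * x := by
    by_contra hno
    push Not at hno
    exact hG ⟨⟨hno⟩⟩
  haveI : Fact (Nat.Prime 2) := ⟨Nat.prime_two⟩
  have hdvd : 2 ∣ Nat.card G := even_iff_two_dvd.mp h2
  obtain ⟨d, hd⟩ := IsPGroup.iff_card.mp T.isPGroup'
  have hTG : Nat.card T ∣ Nat.card G := Subgroup.card_subgroup_dvd_card _
  have hd2 : d ≤ 2 := by
    by_contra hd3
    apply h8
    have : (8 : ℕ) = 2 ^ 3 := by norm_num
    rw [this]
    refine (pow_dvd_pow 2 (by omega : 3 ≤ d)).trans ?_
    rw [← hd]; exact hTG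
  have hcT : IsMulCommutative T := isMulCommutative_of_card hd hd2
  have hnc : ¬ IsCyclic T := by
    intro hc
    refine false_of_complement hGne hdvd
      (Cfsg.Agent.Lib.Basic.BurnsideAut.hasNormalPComplement_of_aut T hcT ?_)
    intro q hq hq2 _ σ hσ
    exfalso
    have h1 := orderOf_dvd_natCard σ
    rw [hσ, IsCyclic.card_mulAut, hd] at h1
    have h2' : Nat.totient (2 ^ d) ∣ 2 := by
      interval_cases d <;> decide
    have h3 := (Nat.prime_dvd_prime_iff_eq hq Nat.prime_two).mp (h1.trans h2')
    exact hq2 h3
  have hd4 : d = 2 := by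
    by_contra hne
    have hle : d = 0 ∨ d = 1 := by omega
    rcases hle with rfl | rfl
    · apply T.not_dvd_index
      have := (T : Subgroup G).card_mul_index
      rw [hd, pow_zero, one_mul] at this
      rw [this]; exact hdvd
    · apply hnc
      rw [pow_one] at hd
      exact isCyclic_of_prime_card hd
  subst hd4
  have hcard4 : Nat.card T = 4 := by rw [hd]; norm_num
  have hsq : ∀ x : T, x ^ 2 = 1 := by
    intro x
    by_contra hx
    apply hnc
    have h1 : orderOf x ∣ 2 ^ 2 := by
      rw [← hd]; exact orderOf_dvd_natCard x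
    obtain ⟨i, hi, hi2⟩ := (Nat.dvd_prime_pow Nat.prime_two).mp h1
    have hi3 : i = 2 := by
      by_contra hne
      apply hx
      have : orderOf x ∣ 2 := by
        rw [hi2]
        exact pow_dvd_pow 2 (by omega : i ≤ 1) |>.trans (by norm_num)
      exact orderOf_dvd_iff_pow_eq_one.mp this
    refine isCyclic_of_orderOf_eq_card x ?_
    rw [hi2, hi3, hd]
  have hKlein : IsKleinFour T := by
    refine ⟨hcard4, ?_⟩
    have h1 : Monoid.exponent T ∣ 2 := Monoid.exponent_dvd_of_forall_pow_eq_one hsq
    have h2' : Monoid.exponent T ≠ 1 := by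
      intro h
      rw [Monoid.exp_eq_one_iff] at h
      have := Nat.card_of_subsingleton (α := T) 1
      rw [hcard4] at this
      omega
    rcases (Nat.dvd_prime Nat.prime_two).mp h1 with h | h
    · exact absurd h h2'
    · exact h
  refine ⟨hKlein, ?_⟩
  let φ := (T : Subgroup G).normalizerMonoidHom
  have hker : φ.ker = (Subgroup.centralizer ((T : Subgroup G) : Set G)).subgroupOf (Subgroup.normalizer ((T : Subgroup G) : Set G)) :=
    (T : Subgroup G).normalizerMonoidHom_ker
  have hTker : (T : Subgroup G).subgroupOf (Subgroup.normalizer ((T : Subgroup G) : Set G)) ≤ φ.ker := by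
    rw [hker]
    intro x hx
    rw [Subgroup.mem_subgroupOf] at hx ⊢
    rw [Subgroup.mem_centralizer_iff]
    intro y hy
    have := hcT.is_comm.comm ⟨y, hy⟩ ⟨x.1, hx⟩
    exact congrArg Subtype.val this
  have hdvd2 : Nat.card φ.range ∣ (T : Subgroup G).index := by
    rw [← Subgroup.index_ker]
    refine (Subgroup.index_dvd_of_le hTker).trans ?_
    exact Subgroup.relIndex_dvd_index_of_le T.le_normalizer
  have hrel : (Subgroup.centralizer ((T : Subgroup G) : Set G)).relIndex (Subgroup.normalizer ((T : Subgroup G) : Set G)) = Nat.card φ.range := by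
    rw [← Subgroup.index_ker, hker]
    rfl
  rw [hrel]
  have h6 : Nat.card φ.range ∣ 6 :=
    (Subgroup.card_subgroup_dvd_card _).trans (card_mulAut_dvd_six hcard4)
  have hodd : ¬ 2 ∣ Nat.card φ.range := fun h => T.not_dvd_index (h.trans hdvd2)
  have hne1 : Nat.card φ.range ≠ 1 := by
    intro hI
    have hN : Subgroup.normalizer ((T : Subgroup G) : Set G) ≤ Subgroup.centralizer ((T : Subgroup G) : Set G) := by
      intro g hg
      have hmem : (⟨g, hg⟩ : Subgroup.normalizer ((T : Subgroup G) : Set G)) ∈ φ.ker := by
        rw [MonoidHom.mem_ker]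
        have hsub : Subsingleton φ.range := (Nat.card_eq_one_iff_unique.mp hI).1
        have := hsub.elim (φ.rangeRestrict ⟨g, hg⟩) 1
        exact congrArg Subtype.val this
      rw [hker, Subgroup.mem_subgroupOf] at hmem
      exact hmem
    exact false_of_complement hGne hdvd ⟨T, (MonoidHom.transferSylow T hN).ker, inferInstance,
      MonoidHom.ker_transferSylow_isComplement' T hN⟩
  have hle : Nat.card φ.range ≤ 6 := Nat.le_of_dvd (by norm_num) h6
  have hpos : 0 < Nat.card φ.range := Nat.card_pos
  interval_cases Nat.card φ.range <;> simp_all <;> omega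

end Cfsg.Agent.S0992
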