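import Cfsg.Statements.S0006
import Mathlib
import Cfsg.Agent.S0144
import Cfsg.Agent.Lib.Solvable.Hall
import Cfsg.Agent.Lib.Solvable.HallSystem
import Cfsg.Agent.Lib.Solvable.MinimalNormal
import Cfsg.Agent.Lib.Coprime.Factor

set_option autoImplicit false

namespace Cfsg.Agent.S0006

open Subgroup

/-- Coprime indices: `|G : A ⊓ B| = |G : A| |G : B|`. -/
theorem relIndex_eq_index_of_coprime {G : Type*} [Group G] [Finite G] {A B : Subgroup G}
    (h : A.index.Coprime B.index) : A.relIndex B = A.index := by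
  have h1 : A.index ∣ (A ⊓ B).index := index_dvd_of_le inf_le_left
  have h2 : B.index ∣ (A ⊓ B).index := index_dvd_of_le inf_le_right
  have h3 : A.index * B.index ∣ (A ⊓ B).index := h.mul_dvd_of_dvd_of_dvd h1 h2
  have hpos : 0 < (A ⊓ B).index := Nat.pos_of_ne_zero (index_ne_zero_of_finite)
  have h4 : (A ⊓ B).index ≤ A.index * B.index := index_inf_le
  have h5 : (A ⊓ B).index = A.index * B.index :=
    le_antisymm h4 (Nat.le_of_dvd hpos h3)
  have h6 : (A ⊓ B).relIndex B * B.index = (A ⊓ B).index := relIndex_mul_index inf_le_right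
  rw [inf_relIndex_right, h5] at h6
  exact Nat.eq_of_mul_eq_mul_right (Nat.pos_of_ne_zero index_ne_zero_of_finite) h6

/-- Hall's converse, in the form with a `p`-power index and order prime to `p`. -/
theorem main {G : Type*} [Group G] [Finite G]
    (h : ∀ p : ℕ, p.Prime → ∃ H : Subgroup G, (∃ c, H.index = p ^ c) ∧ ¬ p ∣ Nat.card H) :
    Group.IsSolvable G := by
  classical
  induction hn : Nat.card G using Nat.strong_induction_on generalizing G with
  | _ n ih =>
  rcases subsingleton_or_nontrivial G with hs | hnt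
  · infer_instance
  have hn0 : Nat.card G ≠ 0 := Nat.card_pos.ne'
  -- complements are solvable
  have hsolv : ∀ (r : ℕ), r.Prime → r ∣ Nat.card G → ∀ H : Subgroup G, (∃ c, H.index = r ^ c) →
      ¬ r ∣ Nat.card H → Group.IsSolvable H := by
    intro r hr hrd H hc hnd
    have hlt : Nat.card H < Nat.card G := by
      have hle : Nat.card H ≤ Nat.card G := Nat.le_of_dvd Nat.card_pos (card_subgroup_dvd_card H)
      refine lt_of_le_of_ne hle ?_
      intro he
      exact hnd (he ▸ hrd)
    refine ih _ (hn ▸ hlt) (G := H) ?_ rfl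
    intro q hq
    by_cases hqr : q = r
    · subst hqr
      refine ⟨⊤, ⟨0, by simp⟩, ?_⟩
      rwa [card_top]
    · obtain ⟨K, ⟨c, hKc⟩, hKn⟩ := h q hq
      refine ⟨K.subgroupOf H, ?_, ?_⟩
      · obtain ⟨c', hc'⟩ := hc
        have hco : K.index.Coprime H.index := by
          rw [hKc, hc']
          exact Nat.Coprime.pow _ _ ((Nat.coprime_primes hq hr).mpr hqr)
        refine ⟨c, ?_⟩
        show K.relIndex H = _
        rw [relIndex_eq_index_of_coprime hco, hKc]
      · intro hd
        apply hKn
        refine hd.trans ?_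
        refine Subgroup.card_dvd_of_injective
          (MonoidHom.codRestrict (H.subtype.comp (K.subgroupOf H).subtype) K
            (fun x => x.2)) ?_
        intro x y hxy
        have : ((x : H) : G) = ((y : H) : G) := by
          simpa [MonoidHom.codRestrict] using congrArg (fun z : K => (z : G)) hxy
        exact Subtype.ext (Subtype.ext this)
  -- choose a prime
  obtain ⟨p, hp, hpd⟩ := Nat.exists_prime_and_dvd (Finite.one_lt_card (α := G)).ne'
  obtain ⟨H1, ⟨c1, hc1⟩, hn1⟩ := h p hp
  haveI hH1 : Group.IsSolvable H1 := hsolv p hp hpd H1 ⟨c1, hc1⟩ hn1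
  rcases subsingleton_or_nontrivial H1 with hs1 | hnt1
  · -- `G` is a `p`-group
    have hcard : Nat.card G = p ^ c1 * p ^ 0 := by
      rw [← hc1, pow_zero, mul_one, ← index_bot]
      congr 1
      exact ((Subgroup.eq_bot_iff_forall _).mpr fun x hx => by
        have := Subsingleton.elim (⟨x, hx⟩ : H1) 1
        simpa using congrArg Subtype.val this).symm
    exact Cfsg.Agent.S0144.result p p c1 0 hp hp hcard
  obtain ⟨t, N, ht, hNn, hNne, hNp, -, -⟩ :=
    Cfsg.Agent.Lib.Solvable.Hall.exists_normal_abelian_pSubgroup H1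
  by_cases hq : ∃ q : ℕ, q.Prime ∧ q ∣ Nat.card G ∧ q ≠ p ∧ q ≠ t
  · obtain ⟨q, hq, hqd, hqp, hqt⟩ := hq
    obtain ⟨H2, ⟨c2, hc2⟩, hn2⟩ := h q hq
    haveI hH2 : Group.IsSolvable H2 := hsolv q hq hqd H2 ⟨c2, hc2⟩ hn2
    have hco21 : H2.index.Coprime H1.index := by
      rw [hc1, hc2]
      exact Nat.Coprime.pow _ _ ((Nat.coprime_primes hq hp).mpr hqp)
    -- `N ≤ H2`
    haveI : Fact t.Prime := ⟨ht⟩
    have hNK : N ≤ H2.subgroupOf H1 := by
      refine Cfsg.Agent.Lib.Solvable.HallSystem.le_of_coprime_index N (H2.subgroupOf H1) ?_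
      obtain ⟨k, hk⟩ := IsPGroup.iff_card.mp hNp
      rw [hk]
      show (t ^ k).Coprime (H2.relIndex H1)
      rw [relIndex_eq_index_of_coprime hco21, hc2]
      exact Nat.Coprime.pow _ _ ((Nat.coprime_primes ht hq).mpr (Ne.symm hqt))
    -- factorization
    have hfac : ∀ g : G, ∃ b ∈ H2, b⁻¹ * g ∈ H1 := by
      intro g
      have heq : H1.relIndex H2 = H1.relIndex ⊤ := by
        rw [relIndex_eq_index_of_coprime hco21.symm, relIndex_top_right]
      exact Cfsg.Agent.Lib.Coprime.Factor.exists_mul_of_relIndex_eq le_top heq g (mem_top g)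
    -- the core
    set M := H2.normalCore with hM
    haveI hMn : M.Normal := normalCore_normal H2
    have hMne : M ≠ ⊥ := by
      intro hbot
      apply hNne
      refine (Subgroup.eq_bot_iff_forall _).mpr ?_
      intro x hx
      have hxM : (x : G) ∈ M := by
        intro g
        obtain ⟨b, hb, ha⟩ := hfac g
        set a : H1 := ⟨b⁻¹ * g, ha⟩ with ha'
        have h1 : a * x * a⁻¹ ∈ N := hNn.conj_mem x hx a
        have h2 : ((a * x * a⁻¹ : H1) : G) ∈ H2 := hNK h1
        have h3 : g * x * g⁻¹ = b * ((a * x * a⁻¹ : H1) : G) * b⁻¹ := by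
          simp [ha']; group
        rw [h3]
        exact H2.mul_mem (H2.mul_mem hb h2) (H2.inv_mem hb)
      rw [hbot, mem_bot] at hxM
      exact Subtype.ext hxM
    have hlt := Cfsg.Agent.Lib.Solvable.MinimalNormal.card_quotient_lt M hMne
    have hquot : Group.IsSolvable (G ⧸ M) := by
      refine ih _ (hn ▸ hlt) (G := G ⧸ M) ?_ rfl
      intro r hr
      obtain ⟨K, ⟨c, hc⟩, hrn⟩ := h r hr
      refine ⟨K.map (QuotientGroup.mk' M), ?_, ?_⟩
      · have hd : (K.map (QuotientGroup.mk' M)).index ∣ K.index :=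
          index_map_dvd K (QuotientGroup.mk'_surjective M)
        rw [hc] at hd
        obtain ⟨c', -, hc'⟩ := (Nat.dvd_prime_pow hr).mp hd
        exact ⟨c', hc'⟩
      · intro hd
        exact hrn (hd.trans (card_map_dvd K _))
    haveI hMs : Group.IsSolvable M :=
      Group.isSolvable_of_isSolvable_injective
        (Subgroup.inclusion_injective (normalCore_le H2))
    exact Group.isSolvable_of_ker_le_range M.subtype (QuotientGroup.mk' M) (by simp)
  · -- two primes: Burnside
    push Not at hq
    obtain ⟨a, m, hm, hma⟩ := Nat.exists_eq_pow_mul_and_not_dvd hn0 p hp.ne_one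
    have htp : t ≠ p := by
      rintro rfl
      apply hn1
      have : t ∣ Nat.card N := by
        obtain ⟨x, hx⟩ := (Subgroup.ne_bot_iff_exists_ne_one).mp hNne
        haveI : Fact t.Prime := ⟨ht⟩
        haveI : Nontrivial N := ⟨⟨x, 1, hx⟩⟩
        exact (hNp.nontrivial_iff_card.mp inferInstance).elim fun k hk => by
          rw [hk.2]; exact dvd_pow_self t hk.1.ne'
      exact this.trans (card_subgroup_dvd_card N)
    obtain ⟨b, m', hm', hmb⟩ := Nat.exists_eq_pow_mul_and_not_dvd
      (n := m) (by rintro rfl; simp at hm) t ht.ne_one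
    have hm'1 : m' = 1 := by
      by_contra hne
      obtain ⟨s, hs, hsd⟩ := Nat.exists_prime_and_dvd hne
      have hsG : s ∣ Nat.card G := by
        rw [hma, hmb]
        exact (hsd.trans (dvd_mul_left _ _)).trans (dvd_mul_left _ _)
      by_cases hsp : s = p
      · subst hsp
        apply hm
        rw [hmb]
        exact hsd.trans (dvd_mul_left _ _)
      · have := hq s hs hsG hsp
        subst this
        exact hm' hsd
    refine Cfsg.Agent.S0144.result p t a b hp ht ?_
    rw [hma, hmb, hm'1, mul_one]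

/-- Converse of Hall's Theorem: if for every prime p a finite group has a subgroup of index equal to the p-part of the group order (a Hall p-complement), then the group is solvable. -/
theorem result {G : Type*} [Group G] [Finite G]
    (h : ∀ p : ℕ, p.Prime → ∃ H : Subgroup G, H.index = p ^ (Nat.card G).factorization p) :
    Group.IsSolvable G := by
  refine main ?_
  intro p hp
  obtain ⟨H, hH⟩ := h p hp
  refine ⟨H, ⟨_, hH⟩, ?_⟩
  intro hd
  have hn0 : Nat.card G ≠ 0 := Nat.card_pos.ne'
  have h1 : Nat.card H * H.index = Nat.card G := card_mul_index H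
  rw [hH] at h1
  obtain ⟨k, hk⟩ := hd
  have h2 : p ^ ((Nat.card G).factorization p + 1) ∣ Nat.card G := by
    refine ⟨k, ?_⟩
    conv_lhs => rw [← h1, hk]
    rw [pow_succ]
    ring
  exact Nat.pow_succ_factorization_not_dvd hn0 hp h2

end Cfsg.Agent.S0006
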