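import Cfsg.Statements.S0017
import Mathlib

set_option autoImplicit false
set_option linter.style.haveILetI false
open Cfsg

namespace Cfsg.Agent.S0017

variable {G : Type*} [Group G]

/-- Commutator-chain starting from a normal subgroup. -/
def chain (C : Subgroup G) : ℕ → Subgroup G
  | 0 => C
  | n + 1 => ⁅chain C n, chain C n⁆

theorem chain_normal (C : Subgroup G) [hC : C.Normal] (n : ℕ) : (chain C n).Normal := by
  induction n with
  | zero => exact hC
  | succ n ih =>
    haveI := ih
    show (⁅chain C n, chain C n⁆ : Subgroup G).Normal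
    exact Subgroup.commutator_normal _ _

theorem chain_le_derived (C : Subgroup G) (n : ℕ) : chain C n ≤ derivedSeries G n := by
  induction n with
  | zero => exact le_top
  | succ n ih =>
    show ⁅chain C n, chain C n⁆ ≤ ⁅derivedSeries G n, derivedSeries G n⁆
    exact Subgroup.commutator_mono ih ih

theorem chain_le_self (C : Subgroup G) [hC : C.Normal] (n : ℕ) : chain C n ≤ C := by
  induction n with
  | zero => exact le_refl _
  | succ n ih =>
    show ⁅chain C n, chain C n⁆ ≤ C
    haveI := chain_normal C n
    exact (Subgroup.commutator_le_left _ _).trans ih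

/-- A finite nilpotent normal subgroup of a group with trivial `p'`-core is a `p`-group. -/
theorem isPGroup_of_nilpotent_normal [Finite G] (p : ℕ) [Fact p.Prime]
    (h : Cfsg.pPrimeCore p G = ⊥) (A : Subgroup G) [hA : A.Normal] [hN : Group.IsNilpotent A] :
    IsPGroup p A := by
  classical
  have hne : Nat.card A ≠ 0 := Nat.card_pos.ne'
  have huniq : ∀ q : ℕ, q.Prime → q ∣ Nat.card A → q = p := by
    intro q hq hqd
    by_contra hqp
    haveI : Fact q.Prime := ⟨hq⟩
    let Q : Sylow q A := default
    haveI hQn : (Q : Subgroup A).Normal := by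
      exact Sylow.normal_of_normalizerCondition (Group.normalizerCondition_of_isNilpotent) Q
    haveI hQc : (Q : Subgroup A).Characteristic := Sylow.characteristic_of_normal Q hQn
    have hmapn : ((Q : Subgroup A).map A.subtype).Normal :=
      inferInstance
    have hcardQ : Nat.card ((Q : Subgroup A).map A.subtype : Subgroup G) = Nat.card (Q : Subgroup A) :=
      Subgroup.card_map_of_injective A.subtype_injective
    obtain ⟨k, hk⟩ := IsPGroup.iff_card.mp Q.2
    have hcop : (Nat.card ((Q : Subgroup A).map A.subtype : Subgroup G)).Coprime p := by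
      rw [hcardQ, hk]
      exact Nat.Coprime.pow_left _ ((Nat.coprime_primes hq (Fact.out)).mpr hqp)
    have hle : (Q : Subgroup A).map A.subtype ≤ Cfsg.pPrimeCore p G :=
      le_sSup ⟨hmapn, hcop⟩
    rw [h, le_bot_iff] at hle
    have hq1 : Nat.card ((Q : Subgroup A).map A.subtype : Subgroup G) = 1 := by
      rw [hle]; simp
    rw [hcardQ] at hq1
    have hd : q ∣ Nat.card (Q : Subgroup A) := Q.dvd_card_of_dvd_card hqd
    rw [hq1] at hd
    exact hq.one_lt.ne' (Nat.dvd_one.mp hd)
  have := Nat.eq_prime_pow_of_unique_prime_dvd hne (fun {d} hd hdvd => huniq d hd hdvd)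
  exact IsPGroup.of_card this

theorem nilpotent_of_comm_central (A P : Subgroup G)
    (h1 : ⁅A, A⁆ ≤ P) (h2 : A ≤ Subgroup.centralizer (P : Set G)) : Group.IsNilpotent A := by
  rw [Subgroup.nilpotent_iff_lowerCentralSeries]
  refine ⟨2, ?_⟩
  have hstep : Subgroup.lowerCentralSeries (⊤ : Subgroup A) 2 =
      ⁅Subgroup.lowerCentralSeries (⊤ : Subgroup A) 1, ⊤⁆ := rfl
  rw [hstep, Subgroup.top_lowerCentralSeries_one]
  have : commutator A ≤ Subgroup.centralizer ((⊤ : Subgroup A) : Set A) := by
    intro x hx
    rw [Subgroup.mem_centralizer_iff]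
    intro y _
    have hx' : (x : G) ∈ P := by
      apply h1
      have : (commutator A).map A.subtype ≤ ⁅A, A⁆ := by
        rw [commutator_def, Subgroup.map_commutator]
        have hm : (⊤ : Subgroup A).map A.subtype ≤ A := by
          rintro _ ⟨a, _, rfl⟩
          exact a.2
        exact Subgroup.commutator_mono hm hm
      exact this ⟨x, hx, rfl⟩
    have hy : (y : G) ∈ Subgroup.centralizer (P : Set G) := h2 y.2
    have := Subgroup.mem_centralizer_iff.mp hy x hx'
    exact Subtype.ext this.symm
  exact Subgroup.commutator_eq_bot_iff_le_centralizer.mpr this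

/-- In a finite solvable group whose largest normal subgroup of order prime to p is trivial, the centralizer of the p-core is contained in the p-core. -/
theorem result {G : Type*} [Group G] [Finite G] [Group.IsSolvable G] (p : ℕ) [Fact p.Prime]
    (h : Cfsg.pPrimeCore p G = ⊥) :
    Subgroup.centralizer (Cfsg.pCore p G : Set G) ≤ Cfsg.pCore p G := by
  classical
  set P := Cfsg.pCore p G with hP
  haveI hPn : P.Normal := by
    apply Subgroup.sSup_normal
    intro H hH
    exact hH.1
  set C := Subgroup.centralizer (P : Set G) with hC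
  haveI hCn : C.Normal := Subgroup.normal_centralizer
  by_contra hcon
  obtain ⟨n, hn⟩ := (Group.isSolvable_def G).mp inferInstance
  have hex : ∃ m, chain C m ≤ P := ⟨n, by
    have := chain_le_derived C n
    rw [hn] at this
    exact this.trans bot_le⟩
  let m := Nat.find hex
  have hm : chain C m ≤ P := Nat.find_spec hex
  have hm0 : m ≠ 0 := by
    intro h0
    rw [h0] at hm
    exact hcon hm
  obtain ⟨i, hi⟩ := Nat.exists_eq_succ_of_ne_zero hm0
  have hnot : ¬ chain C i ≤ P := Nat.find_min hex (by omega)
  haveI hAn : (chain C i).Normal := chain_normal C i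
  have hcomm : ⁅chain C i, chain C i⁆ ≤ P := by
    have : chain C m = ⁅chain C i, chain C i⁆ := by rw [hi]; rfl
    rw [← this]; exact hm
  haveI hnil : Group.IsNilpotent (chain C i) :=
    nilpotent_of_comm_central _ P hcomm (chain_le_self C i)
  have hp := isPGroup_of_nilpotent_normal p h (chain C i)
  exact hnot (le_sSup ⟨hAn, hp⟩)

end Cfsg.Agent.S0017
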