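import Cfsg.Statements.S0107
import Mathlib
import Cfsg.Agent.Lib.Transfer.Basic
import Cfsg.Agent.Lib.Transfer.Frobenius
import Cfsg.Agent.S0111
-- import your own Cfsg.Agent.* helpers here

set_option autoImplicit false
open Cfsg

namespace Cfsg.Agent.S0107

open Subgroup Cfsg.Agent.Lib.Transfer.Basic

theorem rot_index (m : ℕ) [NeZero m] :
    (zpowers (DihedralGroup.r (1 : ZMod m))).index = 2 := by
  have h := (zpowers (DihedralGroup.r (1 : ZMod m))).card_mul_index
  rw [Nat.card_zpowers, DihedralGroup.orderOf_r_one, DihedralGroup.nat_card, mul_comm 2 m] at h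
  exact Nat.eq_of_mul_eq_mul_left (Nat.pos_of_ne_zero (NeZero.ne m)) h

theorem r_eq_of_orderOf {n : ℕ} (hn : 1 ≤ n) (j : ZMod (2 ^ n))
    (h : orderOf (DihedralGroup.r j) = 2) : j = ((2 ^ (n - 1) : ℕ) : ZMod (2 ^ n)) := by
  haveI : NeZero (2 ^ n) := ⟨by positivity⟩
  have h1 : DihedralGroup.r j ^ 2 = 1 := orderOf_dvd_iff_pow_eq_one.1 (dvd_of_eq h)
  rw [DihedralGroup.r_pow, DihedralGroup.one_def] at h1
  have h2 : j * ((2 : ℕ) : ZMod (2 ^ n)) = 0 := DihedralGroup.r.inj h1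
  have h3 : ((j.val * 2 : ℕ) : ZMod (2 ^ n)) = 0 := by
    rw [Nat.cast_mul, ZMod.natCast_zmod_val]
    exact h2
  rw [ZMod.natCast_eq_zero_iff] at h3
  have h4 : (2 : ℕ) ^ n = 2 ^ (n - 1) * 2 := by
    obtain ⟨n', rfl⟩ : ∃ n', n = n' + 1 := ⟨n - 1, by omega⟩
    simp [pow_succ]
  have h5 : 2 ^ (n - 1) ∣ j.val := by
    exact Nat.dvd_of_mul_dvd_mul_right (by norm_num) ((dvd_of_eq h4.symm).trans h3)
  obtain ⟨t, ht⟩ := h5
  have h6 : j.val < 2 ^ n := ZMod.val_lt j
  have hpos : 0 < 2 ^ (n - 1) := by positivity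
  have ht2 : t < 2 := by
    by_contra hcon
    have : 2 ^ (n - 1) * 2 ≤ 2 ^ (n - 1) * t := Nat.mul_le_mul_left _ (by omega)
    omega
  have ht0 : t ≠ 0 := by
    rintro rfl
    have hj : j = 0 := by
      rw [← ZMod.natCast_zmod_val j, ht]
      simp
    rw [hj] at h
    have : (DihedralGroup.r (0 : ZMod (2 ^ n))) = 1 := rfl
    rw [this, orderOf_one] at h
    omega
  have ht1 : t = 1 := by omega
  rw [ht1, mul_one] at ht
  rw [← ht, ZMod.natCast_zmod_val]

/-- A finite group with no nontrivial 2-group quotient and dihedral Sylow 2-subgroups of order at least 8 has a single class of involutions. -/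
theorem result {G : Type*} [Group G] [Finite G] (T : Sylow 2 G) (n : ℕ) (hn : 2 ≤ n) (hT : Nonempty ((T : Subgroup G) ≃* DihedralGroup (2 ^ n))) (hO : Cfsg.pResidual 2 G = ⊤) (x y : G) (hx : orderOf x = 2) (hy : orderOf y = 2) : ∃ g : G, g * x * g⁻¹ = y := by
  
  classical
  haveI : Fact (Nat.Prime 2) := ⟨Nat.prime_two⟩
  obtain ⟨e⟩ := hT
  have hn1 : 1 ≤ n := by omega
  haveI : NeZero (2 ^ n) := ⟨by positivity⟩
  let rot : Subgroup (DihedralGroup (2 ^ n)) := zpowers (DihedralGroup.r (1 : ZMod (2 ^ n)))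
  let R : Subgroup (T : Subgroup G) := rot.comap (e : (T : Subgroup G) →* DihedralGroup (2 ^ n))
  let Q : Subgroup G := R.map (T : Subgroup G).subtype
  have hmemQ : ∀ (u : G) (hu : u ∈ (T : Subgroup G)), u ∈ Q ↔ e ⟨u, hu⟩ ∈ rot := by
    intro u hu
    constructor
    · rintro ⟨v, hv, rfl⟩
      exact hv
    · intro h
      exact ⟨⟨u, hu⟩, h, rfl⟩
  have hQT : Q ≤ (T : Subgroup G) := by
    rintro _ ⟨v, -, rfl⟩
    exact v.2
  have hQi : Q.relIndex (T : Subgroup G) = 2 := by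
    have h1 : Q.subgroupOf (T : Subgroup G) = R :=
      Subgroup.comap_map_eq_self_of_injective (T : Subgroup G).subtype_injective R
    rw [Subgroup.relIndex, h1]
    show (rot.comap (e : (T : Subgroup G) →* DihedralGroup (2 ^ n))).index = 2
    rw [Subgroup.index_comap_of_surjective _ e.surjective]
    exact rot_index _
  let zD : DihedralGroup (2 ^ n) := DihedralGroup.r ((2 ^ (n - 1) : ℕ) : ZMod (2 ^ n))
  let z : G := (e.symm zD : (T : Subgroup G))
  -- an involution in `Q` is `z`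
  have hinQ : ∀ (u : G) (hu : u ∈ (T : Subgroup G)), orderOf u = 2 → u ∈ Q → u = z := by
    intro u hu ho huQ
    have h1 := (hmemQ u hu).1 huQ
    obtain ⟨k, hk⟩ := h1
    have h2 : e ⟨u, hu⟩ = DihedralGroup.r (((k : ZMod (2 ^ n)) : ZMod (2 ^ n))) := by
      rw [← hk]
      have := DihedralGroup.r_zpow (1 : ZMod (2 ^ n)) k
      simpa using this
    have h3 : orderOf (e ⟨u, hu⟩) = 2 := by
      rw [MulEquiv.orderOf_eq, Subgroup.orderOf_mk]
      exact ho
    rw [h2] at h3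
    have h4 := r_eq_of_orderOf hn1 _ h3
    have h5 : e ⟨u, hu⟩ = zD := by rw [h2, h4]
    have h6 : (⟨u, hu⟩ : (T : Subgroup G)) = e.symm zD := by rw [← h5, e.symm_apply_apply]
    exact congrArg Subtype.val h6
  have key : ∀ x : G, orderOf x = 2 → ∃ g : G, g * x * g⁻¹ = z := by
    intro x hx
    have hW : IsPGroup 2 (zpowers x) := by
      apply IsPGroup.of_card (n := 1)
      rw [Nat.card_zpowers, hx, pow_one]
    obtain ⟨y, hy⟩ := Cfsg.Agent.Lib.Transfer.Frobenius.exists_conj_mem_of_isPGroup T hW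
    have huT := hy x (mem_zpowers x)
    have huo : orderOf (y * x * y⁻¹) = 2 := by
      rw [orderOf_conj_eq]
      exact hx
    by_cases huQ : y * x * y⁻¹ ∈ Q
    · exact ⟨y, hinQ _ huT huo huQ⟩
    · rcases Cfsg.Agent.S0111.result T Q hQT hQi (y * x * y⁻¹) huo huT huQ with ⟨M, hMn, hMi, hM⟩ | ⟨g, hg⟩
      · exfalso
        haveI := hMn
        have hp : IsPGroup 2 (G ⧸ M) := IsPGroup.of_card (n := 1) (by
          rw [pow_one]
          exact hMi)
        have := pResidual_le_of_isPGroup_quotient M hp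
        rw [hO, top_le_iff] at this
        rw [this, Subgroup.index_top] at hMi
        omega
      · refine ⟨g * y, ?_⟩
        have h1 : g * (y * x * y⁻¹) * g⁻¹ = z := hinQ _ (hQT hg) (by
          rw [orderOf_conj_eq]
          exact huo) hg
        rw [← h1]
        group
  obtain ⟨g₁, hg₁⟩ := key x hx
  obtain ⟨g₂, hg₂⟩ := key y hy
  refine ⟨g₂⁻¹ * g₁, ?_⟩
  calc g₂⁻¹ * g₁ * x * (g₂⁻¹ * g₁)⁻¹ = g₂⁻¹ * (g₁ * x * g₁⁻¹) * g₂ := by group
    _ = g₂⁻¹ * (g₂ * y * g₂⁻¹) * g₂ := by rw [hg₁, hg₂]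
    _ = y := by group

end Cfsg.Agent.S0107
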