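import Cfsg.Statements.S0160
import Mathlib
import Cfsg.Agent.S0860
import Cfsg.Agent.Lib.Char.Galois

set_option autoImplicit false
open Cfsg

namespace Cfsg.Agent.S0160

open Cfsg.Agent.Lib.Char.Galois Cfsg.Agent.Lib.Char.OrthoBasic in
/-- an involution gives an action of `ℤˣ`. -/
abbrev actOfInvolution {X : Type*} (f : X → X) (hf : ∀ x, f (f x) = x) : MulAction ℤˣ X where
  smul u x := if u = 1 then x else f x
  one_smul x := if_pos rfl
  mul_smul u v x := by
    change (if u * v = 1 then x else f x) = if u = 1 then (if v = 1 then x else f x)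
      else f (if v = 1 then x else f x)
    rcases Int.units_eq_one_or u with rfl | rfl <;> rcases Int.units_eq_one_or v with rfl | rfl <;>
      simp [hf]

open Cfsg.Agent.Lib.Char.Galois Cfsg.Agent.Lib.Char.OrthoBasic in

/-- A finite group has as many real-valued irreducible complex characters as conjugacy classes closed under taking inverses. -/
theorem result {G : Type*} [Group G] [Finite G] : Nat.card {χ : Cfsg.IrrCharacter G // ∀ g : G, ((χ : G → ℂ) g).im = 0} = Nat.card {C : ConjClasses G // ∀ g : G, ConjClasses.mk g = C → IsConj g g⁻¹} := by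
  classical
  haveI := Fintype.ofFinite G
  have hinv : ∀ (χ : Cfsg.IrrCharacter G), (fun g => (χ : G → ℂ) (g ^ (Nat.card G - 1)))
      = fun g => (χ : G → ℂ) g⁻¹ := by
    intro χ
    funext g
    have h1 : g ^ (Nat.card G - 1) = g⁻¹ := by
      rw [eq_inv_iff_mul_eq_one, ← pow_succ, Nat.sub_add_cancel Nat.card_pos, pow_card_eq_one']
    rw [h1]
  have hcop : (Nat.card G - 1).Coprime (Nat.card G) := by
    have h1 := Nat.card_pos (α := G)
    obtain ⟨m, hm⟩ : ∃ m, Nat.card G = m + 1 := ⟨Nat.card G - 1, by omega⟩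
    rw [hm]
    simp
  let f : Cfsg.IrrCharacter G → Cfsg.IrrCharacter G := fun χ =>
    ⟨fun g => (χ : G → ℂ) g⁻¹, by
      rw [← hinv χ]
      exact isIrrCharacter_pow_of_coprime χ.2 hcop⟩
  have hf : ∀ χ, f (f χ) = χ := by
    intro χ
    apply Subtype.ext
    funext g
    simp [f]
  let cinv : ConjClasses G → ConjClasses G := fun C =>
    Quotient.map' (fun g : G => g⁻¹) (by
      intro a b hab
      have h1 : IsConj a b := hab
      obtain ⟨c, rfl⟩ := isConj_iff.1 h1
      refine isConj_iff.2 ⟨c, ?_⟩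
      show c * a⁻¹ * c⁻¹ = (c * a * c⁻¹)⁻¹
      group) C
  have hcinvmk : ∀ g, cinv (ConjClasses.mk g) = ConjClasses.mk g⁻¹ := fun g => rfl
  have hcinv : ∀ C, cinv (cinv C) = C := by
    intro C
    obtain ⟨g, rfl⟩ := ConjClasses.mk_surjective C
    rw [hcinvmk, hcinvmk, inv_inv]
  letI inst1 : MulAction ℤˣ (Cfsg.IrrCharacter G) := actOfInvolution f hf
  letI inst2 : MulAction ℤˣ (ConjClasses G) := actOfInvolution cinv hcinv
  have hsm1 : ∀ χ : Cfsg.IrrCharacter G, (-1 : ℤˣ) • χ = f χ := fun χ => if_neg (by decide)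
  have hsm2 : ∀ C : ConjClasses G, (-1 : ℤˣ) • C = cinv C := fun χ => if_neg (by decide)
  have hsp1 : ∀ χ : Cfsg.IrrCharacter G, (1 : ℤˣ) • χ = χ := one_smul _
  have hsp2 : ∀ C : ConjClasses G, (1 : ℤˣ) • C = C := one_smul _
  have hcompat : ∀ (a : ℤˣ) (χ : Cfsg.IrrCharacter G) (g g' : G),
      ConjClasses.mk g' = a • ConjClasses.mk g →
        ((a • χ : Cfsg.IrrCharacter G) : G → ℂ) g' = (χ : G → ℂ) g := by
    intro a χ g g' h
    rcases Int.units_eq_one_or a with rfl | rfl
    · rw [hsp1]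
      rw [hsp2] at h
      exact Cfsg.Agent.Lib.Char.CompleteCor.irr_apply_of_isConj
        (ConjClasses.mk_eq_mk_iff_isConj.1 h) χ
    · rw [hsm1]
      rw [hsm2, hcinvmk] at h
      have h1 : IsConj g' g⁻¹ := ConjClasses.mk_eq_mk_iff_isConj.1 h
      obtain ⟨c, rfl⟩ := isConj_iff.1 h1.symm
      have h2 : IsConj g (c * g⁻¹ * c⁻¹)⁻¹ := by
        refine isConj_iff.2 ⟨c, ?_⟩
        group
      exact (Cfsg.Agent.Lib.Char.CompleteCor.irr_apply_of_isConj h2 χ).symm
  have key := Cfsg.Agent.S0860.result hcompat (-1)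
  have e1 : Nat.card {χ : Cfsg.IrrCharacter G // ∀ g : G, ((χ : G → ℂ) g).im = 0}
      = Nat.card {χ : Cfsg.IrrCharacter G // (-1 : ℤˣ) • χ = χ} := by
    refine Nat.card_congr (Equiv.subtypeEquivRight fun χ => ?_)
    rw [hsm1]
    have hconj : ∀ g, (χ : G → ℂ) g⁻¹ = (starRingEnd ℂ) ((χ : G → ℂ) g) := by
      intro g
      obtain ⟨n, ρ, hρ, hχ⟩ := χ.2
      rw [← hχ]
      exact character_inv ρ g
    constructor
    · intro h
      apply Subtype.ext
      funext g
      show (χ : G → ℂ) g⁻¹ = (χ : G → ℂ) g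
      rw [hconj]
      exact Complex.conj_eq_iff_im.2 (h g)
    · intro h g
      have h1 := congrFun (congrArg Subtype.val h) g
      have h2 : (χ : G → ℂ) g⁻¹ = (χ : G → ℂ) g := h1
      rw [hconj] at h2
      exact Complex.conj_eq_iff_im.1 h2
  have e2 : Nat.card {C : ConjClasses G // ∀ g : G, ConjClasses.mk g = C → IsConj g g⁻¹}
      = Nat.card {C : ConjClasses G // (-1 : ℤˣ) • C = C} := by
    refine Nat.card_congr (Equiv.subtypeEquivRight fun C => ?_)
    rw [hsm2]
    constructor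
    · intro h
      obtain ⟨g, rfl⟩ := ConjClasses.mk_surjective C
      rw [hcinvmk]
      exact (ConjClasses.mk_eq_mk_iff_isConj.2 (h g rfl)).symm
    · rintro h g rfl
      rw [hcinvmk] at h
      exact ConjClasses.mk_eq_mk_iff_isConj.1 h.symm
  rw [e1, e2, key]

end Cfsg.Agent.S0160
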