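import Cfsg.Statements.S0183
import Mathlib
import Cfsg.Agent.S1524
import Cfsg.Agent.Lib.OddOrder.CNReduce
import Cfsg.Agent.Lib.OddOrder.CNSimple

set_option autoImplicit false
open Cfsg

namespace Cfsg.Agent.S0183

/-- The CN-Theorem for odd order: a finite group of odd order in which every non-identity element has a nilpotent centralizer (a CN-group) is solvable. -/
theorem result {G : Type*} [Group G] [Finite G] (hodd : Odd (Nat.card G)) (hCN : Cfsg.IsCNGroup G) : Group.IsSolvable G := by
  refine Cfsg.Agent.Lib.OddOrder.CNReduce.solvable_of_no_minSimple ?_ _ G rfl hodd hCN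
  intro X _ _ hX hXCN
  classical
  haveI : Fintype X := Fintype.ofFinite X
  refine Cfsg.Agent.Lib.OddOrder.CNSimple.no_minSimple hX hXCN ?_
  intro H L W₁ _ hHL hW₁L hH1 hW1 hnil hHn hinf hsup hfpf hTI hN
  exact Cfsg.Agent.S1524.result H L W₁
    (Odd.of_dvd_nat hX.1 (Subgroup.card_subgroup_dvd_card _)) hHL hW₁L hH1 hW1 hnil hHn hinf hsup hfpf hTI hN

end Cfsg.Agent.S0183
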