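import Cfsg.Statements.S0202
import Cfsg.Agent.Lib.Basic.SylowConj
import Mathlib

set_option autoImplicit false
open Cfsg

namespace Cfsg.Agent.S0202

open Cfsg.Agent.Lib.Basic.SylowConj

theorem no_swap {G : Type*} [Group G] [Finite G] (P : Sylow 2 G)
    (hcomm : ∀ u ∈ (P : Subgroup G), ∀ v ∈ (P : Subgroup G), u * v = v * u)
    (x y z : G) (hx : x ∈ (P : Subgroup G)) (hy : y ∈ (P : Subgroup G)) (hz : z ∈ (P : Subgroup G))
    (hall : ∀ u ∈ (P : Subgroup G), u ≠ 1 → u = x ∨ u = y ∨ u = z)
    (hy1 : y ≠ 1) (hz1 : z ≠ 1) (hxy : x ≠ y) (hyz : y ≠ z)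
    (hconj : IsConj x y) (hnconj : ¬ IsConj x z) : False := by
  obtain ⟨g, hg⟩ := isConj_iff.mp hconj
  have hinvX : ∀ w ∈ (P : Subgroup G), ∀ t ∈ (P : Subgroup G),
      (fun s => w * s * w⁻¹) '' ({t} : Set G) = {t} := by
    intro w hw t ht
    rw [Set.image_singleton]
    simp only [Set.singleton_eq_singleton_iff]
    rw [hcomm w hw t ht]
    group
  obtain ⟨n, hn, hnxy⟩ := exists_normalizer_conj_of_invariant P {x} {y}
    (fun w hw => hinvX w hw x hx) (fun w hw => hinvX w hw y hy) g
    (by rw [Set.image_singleton, hg])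
  rw [Set.image_singleton, Set.singleton_eq_singleton_iff] at hnxy
  have hnP : ∀ u, u ∈ (P : Subgroup G) → n * u * n⁻¹ ∈ (P : Subgroup G) := fun u hu =>
    (Subgroup.mem_normalizer_iff.mp hn u).mp hu
  have hnz : n * z * n⁻¹ = z := by
    have hne : n * z * n⁻¹ ≠ 1 := by
      intro h
      apply hz1
      have : z = n⁻¹ * (n * z * n⁻¹) * n := by group
      rw [this, h]; group
    rcases hall _ (hnP z hz) hne with h | h | h
    · exact absurd (IsConj.symm (isConj_iff.mpr ⟨n, h⟩)) hnconj
    · exact absurd (hconj.trans (IsConj.symm (isConj_iff.mpr ⟨n, h⟩))) hnconj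
    · exact h
  have hny : n * y * n⁻¹ = x := by
    have hne : n * y * n⁻¹ ≠ 1 := by
      intro h
      apply hy1
      have : y = n⁻¹ * (n * y * n⁻¹) * n := by group
      rw [this, h]; group
    rcases hall _ (hnP y hy) hne with h | h | h
    · exact h
    · exfalso
      apply hxy
      have h2 : n * x * n⁻¹ = n * y * n⁻¹ := by rw [hnxy, h]
      exact mul_left_cancel (mul_right_cancel h2)
    · exfalso
      apply hyz
      have h2 : n * y * n⁻¹ = n * z * n⁻¹ := by rw [h, hnz]
      exact mul_left_cancel (mul_right_cancel h2)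
  -- odd powers of n still swap x and y
  have hodd : ∀ k : ℕ, n ^ (2 * k + 1) * x * (n ^ (2 * k + 1))⁻¹ = y := by
    intro k
    induction k with
    | zero => simpa using hnxy
    | succ k ih =>
      have : n ^ (2 * (k + 1) + 1) = n * n * n ^ (2 * k + 1) := by
        rw [show 2 * (k + 1) + 1 = 2 + (2 * k + 1) by ring, pow_add, pow_two]
      rw [this]
      have h3 : n * n * n ^ (2 * k + 1) * x * (n * n * n ^ (2 * k + 1))⁻¹ =
          n * (n * (n ^ (2 * k + 1) * x * (n ^ (2 * k + 1))⁻¹) * n⁻¹) * n⁻¹ := by group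
      rw [h3, ih, hny, hnxy]
  have hn0 : orderOf n ≠ 0 := (orderOf_pos n).ne'
  obtain ⟨a, r, hr, har⟩ := Nat.exists_eq_two_pow_mul_odd hn0
  obtain ⟨k, rfl⟩ := hr
  set m := n ^ (2 * k + 1) with hm
  have hmP : IsPGroup 2 (Subgroup.zpowers m) := by
    have hpow : m ^ 2 ^ a = 1 := by
      rw [hm, ← pow_mul, mul_comm, ← har, pow_orderOf_eq_one]
    have hd : orderOf m ∣ 2 ^ a := orderOf_dvd_of_pow_eq_one hpow
    obtain ⟨b, -, hb⟩ := (Nat.dvd_prime_pow Nat.prime_two).mp hd
    apply IsPGroup.of_card (n := b)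
    rw [Nat.card_zpowers, hb]
  have hmn : m ∈ Subgroup.normalizer ((P : Subgroup G) : Set G) := Subgroup.pow_mem _ hn _
  have hle : Subgroup.zpowers m ≤ Subgroup.normalizer ((P : Subgroup G) : Set G) :=
    (Subgroup.zpowers_le).mpr hmn
  have hsup : IsPGroup 2 ↥(Subgroup.zpowers m ⊔ (P : Subgroup G)) :=
    IsPGroup.to_sup_of_normal_right' hmP P.isPGroup' hle
  have heq : Subgroup.zpowers m ⊔ (P : Subgroup G) = P := P.is_maximal' hsup le_sup_right
  have hmem : m ∈ (P : Subgroup G) := by
    rw [← heq]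
    exact Subgroup.mem_sup_left (Subgroup.mem_zpowers m)
  apply hxy
  have h4 := hodd k
  rw [← hm, hcomm m hmem x hx] at h4
  simpa using h4

/-- If a Sylow 2-subgroup of a finite group is a Klein four-group, the group has one or three conjugacy classes of involutions. -/
theorem result {G : Type*} [Group G] [Finite G] (P : Sylow 2 G) (hP : IsKleinFour (P : Subgroup G)) : Nat.card {C : ConjClasses G // ∃ t : G, orderOf t = 2 ∧ ConjClasses.mk t = C} = 1 ∨ Nat.card {C : ConjClasses G // ∃ t : G, orderOf t = 2 ∧ ConjClasses.mk t = C} = 3 := by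
  classical
  haveI := hP
  have hcomm : ∀ u ∈ (P : Subgroup G), ∀ v ∈ (P : Subgroup G), u * v = v * u := by
    intro u hu v hv
    have h := (IsKleinFour.isMulCommutative (G := (P : Subgroup G))).is_comm.comm ⟨u, hu⟩ ⟨v, hv⟩
    exact congrArg Subtype.val h
  have hcard : Nat.card (P : Subgroup G) = 4 := IsKleinFour.card_four
  haveI : Fintype (P : Subgroup G) := Fintype.ofFinite _
  have hcard' : Fintype.card (P : Subgroup G) = 4 := by rwa [← Nat.card_eq_fintype_card]
  obtain ⟨a, ha⟩ : ∃ a : (P : Subgroup G), a ≠ 1 := by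
    haveI : Nontrivial (P : Subgroup G) := Fintype.one_lt_card_iff_nontrivial.mp (by omega)
    exact exists_ne 1
  obtain ⟨b, -, hb⟩ := Finset.exists_mem_notMem_of_card_lt_card
    (s := ({1, a} : Finset (P : Subgroup G))) (t := Finset.univ) (by
      rw [Finset.card_univ, hcard']
      exact lt_of_le_of_lt (Finset.card_le_two) (by norm_num))
  simp only [Finset.mem_insert, Finset.mem_singleton, not_or] at hb
  obtain ⟨hb1, hba⟩ := hb
  have huniv := IsKleinFour.eq_finset_univ ha hb1 (Ne.symm hba)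
  set c : (P : Subgroup G) := a * b with hc
  have hc1 : c ≠ 1 := by
    intro h
    have : a * b = a * a := by rw [← hc, h, IsKleinFour.mul_self]
    exact hba (mul_left_cancel this)
  have hca : c ≠ a := by
    intro h
    have : a * b = a * 1 := by rw [← hc, h, mul_one]
    exact hb1 (mul_left_cancel this)
  have hcb : c ≠ b := by
    intro h
    have : a * b = 1 * b := by rw [← hc, h, one_mul]
    exact ha (mul_right_cancel this)
  have hall : ∀ u : (P : Subgroup G), u = c ∨ u = a ∨ u = b ∨ u = 1 := by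
    intro u
    have := Finset.mem_univ u
    rw [← huniv] at this
    simpa using this
  have hall' : ∀ u ∈ (P : Subgroup G), u ≠ 1 → u = (a : G) ∨ u = (b : G) ∨ u = (c : G) := by
    intro u hu hu1
    rcases hall ⟨u, hu⟩ with h | h | h | h
    · right; right; exact congrArg Subtype.val h
    · left; exact congrArg Subtype.val h
    · right; left; exact congrArg Subtype.val h
    · exact absurd (congrArg Subtype.val h) hu1
  have hG1 : ∀ x : (P : Subgroup G), x ≠ 1 → orderOf (x : G) = 2 := by
    intro x hx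
    have h1 : (x : G) ^ 2 = 1 := by
      have := IsKleinFour.mul_self x
      rw [pow_two]
      exact congrArg Subtype.val this
    have h2 : (x : G) ≠ 1 := fun h => hx (Subtype.ext h)
    exact orderOf_eq_prime h1 h2
  have hane : (a : G) ≠ b := fun h => hba (Subtype.ext h.symm)
  have hanec : (a : G) ≠ c := fun h => hca (Subtype.ext h.symm)
  have hbnec : (b : G) ≠ c := fun h => hcb (Subtype.ext h.symm)
  have ha1 : (a : G) ≠ 1 := fun h => ha (Subtype.ext h)
  have hb1' : (b : G) ≠ 1 := fun h => hb1 (Subtype.ext h)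
  have hc1' : (c : G) ≠ 1 := fun h => hc1 (Subtype.ext h)
  let T : Set (ConjClasses G) := {C | ∃ t : G, orderOf t = 2 ∧ ConjClasses.mk t = C}
  have hT : T = {ConjClasses.mk (a : G), ConjClasses.mk (b : G), ConjClasses.mk (c : G)} := by
    ext C
    simp only [T, Set.mem_setOf_eq, Set.mem_insert_iff, Set.mem_singleton_iff]
    constructor
    · rintro ⟨t, ht, rfl⟩
      -- conjugate t into P
      have hpt : IsPGroup 2 (Subgroup.zpowers t) := by
        apply IsPGroup.of_card (n := 1)
        rw [Nat.card_zpowers, ht, pow_one]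
      obtain ⟨Q, hQ⟩ := hpt.exists_le_sylow
      obtain ⟨g, hg⟩ := MulAction.exists_smul_eq G Q P
      have hmem : g * t * g⁻¹ ∈ (P : Subgroup G) := by
        have h1 : t ∈ (Q : Subgroup G) := hQ (Subgroup.mem_zpowers t)
        rw [← hg, Sylow.coe_subgroup_smul]
        exact Subgroup.mem_smul_pointwise_iff_exists _ _ _ |>.mpr ⟨t, h1, by simp [MulAut.smul_def]⟩
      have hne : g * t * g⁻¹ ≠ 1 := by
        intro h
        have ht1 : t = 1 := by
          have : t = g⁻¹ * (g * t * g⁻¹) * g := by group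
          rw [this, h]; group
        rw [ht1, orderOf_one] at ht
        omega
      have hconj : ConjClasses.mk t = ConjClasses.mk (g * t * g⁻¹) :=
        ConjClasses.mk_eq_mk_iff_isConj.mpr (isConj_iff.mpr ⟨g, rfl⟩)
      rcases hall' _ hmem hne with h | h | h <;> rw [hconj, h]
      · left; rfl
      · right; left; rfl
      · right; right; rfl
    · rintro (rfl | rfl | rfl)
      · exact ⟨a, hG1 a ha, rfl⟩
      · exact ⟨b, hG1 b hb1, rfl⟩
      · exact ⟨c, hG1 c hc1, rfl⟩
  have hgoal : Nat.card {C : ConjClasses G // ∃ t : G, orderOf t = 2 ∧ ConjClasses.mk t = C} = T.ncard := by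
    rw [← Nat.card_coe_set_eq]
    rfl
  rw [hgoal, hT]
  have hall1 : ∀ u ∈ (P : Subgroup G), u ≠ 1 → u = (a : G) ∨ u = (c : G) ∨ u = (b : G) := by
    intro u hu hu1
    rcases hall' u hu hu1 with h | h | h
    · exact Or.inl h
    · exact Or.inr (Or.inr h)
    · exact Or.inr (Or.inl h)
  have hall2 : ∀ u ∈ (P : Subgroup G), u ≠ 1 → u = (b : G) ∨ u = (c : G) ∨ u = (a : G) := by
    intro u hu hu1
    rcases hall' u hu hu1 with h | h | h
    · exact Or.inr (Or.inr h)
    · exact Or.inl h
    · exact Or.inr (Or.inl h)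
  have hmk : ∀ x y : G, ConjClasses.mk x = ConjClasses.mk y ↔ IsConj x y := fun x y =>
    ConjClasses.mk_eq_mk_iff_isConj
  have ha2 : (a : G) ∈ (P : Subgroup G) := a.2
  have hb2 : (b : G) ∈ (P : Subgroup G) := b.2
  have hc2 : (c : G) ∈ (P : Subgroup G) := c.2
  by_cases hab : ConjClasses.mk (a : G) = ConjClasses.mk (b : G)
  · by_cases hbc : ConjClasses.mk (b : G) = ConjClasses.mk (c : G)
    · left
      rw [← hbc, ← hab]
      simp
    · exfalso
      exact no_swap P hcomm a b c ha2 hb2 hc2 hall' hb1' hc1' hane hbnec ((hmk _ _).mp hab)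
        (fun h => hbc (by rw [← hab]; exact (hmk _ _).mpr h))
  · by_cases hac : ConjClasses.mk (a : G) = ConjClasses.mk (c : G)
    · exfalso
      exact no_swap P hcomm a c b ha2 hc2 hb2 hall1 hc1' hb1' hanec hbnec.symm ((hmk _ _).mp hac)
        (fun h => hab ((hmk _ _).mpr h))
    · by_cases hbc : ConjClasses.mk (b : G) = ConjClasses.mk (c : G)
      · exfalso
        exact no_swap P hcomm b c a hb2 hc2 ha2 hall2 hc1' ha1 hbnec hanec.symm ((hmk _ _).mp hbc)
          (fun h => hab (((hmk _ _).mpr h).symm))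
      · right
        rw [Set.ncard_insert_of_notMem (by
          simp only [Set.mem_insert_iff, Set.mem_singleton_iff, not_or]; exact ⟨hab, hac⟩)]
        rw [Set.ncard_pair hbc]

end Cfsg.Agent.S0202
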