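import Cfsg.Statements.S0203
import Mathlib

set_option autoImplicit false
open Cfsg

namespace Cfsg.Agent.S0203

/-- If a Sylow 2-subgroup P of a finite group G is a Klein four-group, then G has three classes of involutions if and only if P has a normal complement in G. -/
theorem result {G : Type*} [Group G] [Finite G] (P : Sylow 2 G) (hP : IsKleinFour (P : Subgroup G)) : Nat.card {C : ConjClasses G // ∃ t : G, orderOf t = 2 ∧ ConjClasses.mk t = C} = 3 ↔ ∃ N : Subgroup G, N.Normal ∧ Subgroup.IsComplement' N (P : Subgroup G) := by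
  classical
  haveI : Fact (Nat.Prime 2) := ⟨Nat.prime_two⟩
  -- nonidentity elements of P have order 2
  have hord : ∀ x : (P : Subgroup G), x ≠ 1 → orderOf (x : G) = 2 := by
    intro x hx
    have h1 : orderOf x ∣ 2 := by
      have := Monoid.order_dvd_exponent x
      rwa [hP.exponent_two] at this
    have h2 : orderOf x ≠ 1 := by
      rwa [Ne, orderOf_eq_one_iff]
    have h3 : orderOf (x : G) = orderOf x := Subgroup.orderOf_coe x
    rw [h3]
    rcases (Nat.dvd_prime Nat.prime_two).1 h1 with h | h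
    · exact absurd h h2
    · exact h
  -- the elementwise commutativity of P
  have hcomm : ∀ x y : (P : Subgroup G), x * y = y * x := by
    intro x y
    have := (IsKleinFour.isMulCommutative (G := (P : Subgroup G))).is_comm.comm x y
    exact this
  -- every involution is conjugate into P
  have hconj : ∀ t : G, orderOf t = 2 → ∃ x : (P : Subgroup G), x ≠ 1 ∧ IsConj (x : G) t := by
    intro t ht
    have hpg : IsPGroup 2 (Subgroup.zpowers t) := by
      rw [IsPGroup.iff_card, Nat.card_zpowers, ht]
      exact ⟨1, by simp⟩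
    obtain ⟨R, hR⟩ := hpg.exists_le_sylow
    obtain ⟨g, rfl⟩ := MulAction.exists_smul_eq G P R
    have htR : t ∈ ((g • P : Sylow 2 G) : Subgroup G) := hR (Subgroup.mem_zpowers t)
    rw [Sylow.coe_subgroup_smul, Subgroup.mem_pointwise_smul_iff_inv_smul_mem] at htR
    refine ⟨⟨_, htR⟩, ?_, ?_⟩
    · intro h
      have h1 : ((MulAut.conj g)⁻¹ • t) = 1 := congrArg Subtype.val h
      have h2 : t = 1 := by
        have h3 : g⁻¹ * t * g = 1 := by simpa using h1
        have h4 : g * (g⁻¹ * t * g) * g⁻¹ = 1 := by rw [h3]; simp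
        simpa [mul_assoc] using h4
      rw [h2, orderOf_one] at ht
      omega
    · rw [isConj_iff]
      refine ⟨g, ?_⟩
      simp [mul_assoc]
  let Inv := {x : (P : Subgroup G) // x ≠ 1}
  have hInv : Nat.card Inv = 3 := by
    letI : Fintype (P : Subgroup G) := Fintype.ofFinite _
    rw [Nat.card_eq_fintype_card, Fintype.card_subtype_compl, Fintype.card_subtype_eq,
      ← Nat.card_eq_fintype_card, hP.card_four]
  let f : Inv → {C : ConjClasses G // ∃ t : G, orderOf t = 2 ∧ ConjClasses.mk t = C} :=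
    fun x => ⟨ConjClasses.mk (x.1 : G), (x.1 : G), hord x.1 x.2, rfl⟩
  have hsurj : Function.Surjective f := by
    rintro ⟨C, t, ht, rfl⟩
    obtain ⟨x, hx, hxt⟩ := hconj t ht
    refine ⟨⟨x, hx⟩, ?_⟩
    apply Subtype.ext
    exact ConjClasses.mk_eq_mk_iff_isConj.2 hxt
  constructor
  · intro h3
    have hbij : Function.Bijective f :=
      hsurj.bijective_of_nat_card_le (by rw [hInv, h3])
    have hle : Subgroup.normalizer ((P : Subgroup G) : Set G) ≤ Subgroup.centralizer (P : Set G) := by
      intro g hg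
      rw [Subgroup.mem_centralizer_iff]
      intro x hx
      have hxP : x ∈ (P : Subgroup G) := hx
      by_cases hx1 : x = 1
      · simp [hx1]
      have hy : g * x * g⁻¹ ∈ (P : Subgroup G) := (Subgroup.mem_normalizer_iff.1 hg x).1 hxP
      have hy1 : g * x * g⁻¹ ≠ 1 := by
        intro h
        apply hx1
        simpa using h
      have : f ⟨⟨x, hxP⟩, by simpa [Subtype.ext_iff] using hx1⟩ =
          f ⟨⟨g * x * g⁻¹, hy⟩, by simpa [Subtype.ext_iff] using hy1⟩ := by
        apply Subtype.ext
        exact ConjClasses.mk_eq_mk_iff_isConj.2 (isConj_iff.2 ⟨g, rfl⟩)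
      have h4 := hbij.1 this
      have h5 : x = g * x * g⁻¹ := congrArg (fun z : Inv => ((z.1 : (P : Subgroup G)) : G)) h4
      have h6 : x * g = g * x := by
        rw [eq_mul_inv_iff_mul_eq] at h5
        exact h5
      exact h6
    exact ⟨_, MonoidHom.normal_ker _, MonoidHom.ker_transferSylow_isComplement' P hle⟩
  · rintro ⟨N, hN, hc⟩
    have hdisj : N ⊓ (P : Subgroup G) = ⊥ := hc.disjoint.eq_bot
    have hinj : Function.Injective f := by
      rintro ⟨x, hx⟩ ⟨y, hy⟩ hxy
      have h1 : IsConj (x : G) (y : G) := ConjClasses.mk_eq_mk_iff_isConj.1 (congrArg Subtype.val hxy)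
      obtain ⟨g, hg⟩ := isConj_iff.1 h1
      obtain ⟨⟨⟨n, hn⟩, ⟨a, ha⟩⟩, hna⟩ := hc.2 g
      simp only at hna
      have hax : a * (x : G) * a⁻¹ = x := by
        have := hcomm ⟨a, ha⟩ x
        have h2 : a * (x : G) = x * a := congrArg Subtype.val this
        rw [h2]; simp
      have hy2 : (y : G) = n * x * n⁻¹ := by
        rw [← hg, ← hna]
        calc n * a * (x : G) * (n * a)⁻¹ = n * (a * (x : G) * a⁻¹) * n⁻¹ := by group
          _ = n * x * n⁻¹ := by rw [hax]
      have h3 : (y : G) * (x : G)⁻¹ ∈ N := by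
        rw [hy2]
        have h4 : (x : G) * n⁻¹ * (x : G)⁻¹ ∈ N := hN.conj_mem _ (N.inv_mem hn) _
        have h5 := N.mul_mem hn h4
        convert h5 using 1
        group
      have h4 : (y : G) * (x : G)⁻¹ ∈ (P : Subgroup G) :=
        Subgroup.mul_mem _ y.2 (Subgroup.inv_mem _ x.2)
      have h5 : (y : G) * (x : G)⁻¹ ∈ N ⊓ (P : Subgroup G) := ⟨h3, h4⟩
      rw [hdisj, Subgroup.mem_bot, mul_inv_eq_one] at h5
      apply Subtype.ext
      apply Subtype.ext
      exact h5.symm
    rw [← Nat.card_congr (Equiv.ofBijective f ⟨hinj, hsurj⟩), hInv]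

end Cfsg.Agent.S0203
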