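import Cfsg.Statements.S0219
import Mathlib
-- import your own Cfsg.Agent.* helpers here

set_option autoImplicit false
open Cfsg

namespace Cfsg.Agent.S0219

lemma sign_mulRight_generator {T : Type*} [Group T] [Fintype T] [DecidableEq T] (t : T)
    (ht : ∀ y : T, ∃ k : ℕ, t ^ k = y) (heven : Even (Fintype.card T)) (ht1 : t ≠ 1) :
    Equiv.Perm.sign (Equiv.mulRight t) = -1 := by
  have hcycle : (Equiv.mulRight t : Equiv.Perm T).IsCycle := by
    refine ⟨1, ?_, ?_⟩
    · simpa using ht1
    · intro y _
      obtain ⟨k, hk⟩ := ht y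
      refine ⟨k, ?_⟩
      have : ∀ m : ℕ, ((Equiv.mulRight t : Equiv.Perm T) ^ m) 1 = t ^ m := by
        intro m
        induction m with
        | zero => simp
        | succ m ih =>
          rw [pow_succ', Equiv.Perm.mul_apply, ih]
          simp [pow_succ]
      have h2 := this (k : ℕ)
      rw [← hk, ← h2]
      norm_cast
  have hsupp : (Equiv.mulRight t : Equiv.Perm T).support = Finset.univ := by
    ext y
    simp [Equiv.Perm.mem_support, ht1]
  rw [hcycle.sign, hsupp, Finset.card_univ, heven.neg_one_pow]

/-- right multiplication on `G` decomposed along left cosets -/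
noncomputable def cosetProdEquiv {G : Type*} [Group G] (T : Subgroup G) :
    (G ⧸ T) × ↥T ≃ G where
  toFun p := p.1.out * p.2
  invFun g := ((g : G ⧸ T), ⟨(g : G ⧸ T).out⁻¹ * g, by
    have h : ((g : G ⧸ T).out : G ⧸ T) = g := Quotient.out_eq' _
    exact QuotientGroup.eq.1 h⟩)
  left_inv := by
    rintro ⟨q, s⟩
    have h1 : ((q.out * s : G) : G ⧸ T) = q := by
      rw [QuotientGroup.mk_mul_of_mem _ s.2]
      exact Quotient.out_eq' _
    refine Prod.ext h1 ?_
    apply Subtype.ext
    show ((q.out * (s : G) : G) : G ⧸ T).out⁻¹ * (q.out * (s : G)) = s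
    rw [h1]
    group
  right_inv := by
    intro g
    show (g : G ⧸ T).out * ((g : G ⧸ T).out⁻¹ * g) = g
    group


/-- If a finite group has even order and a cyclic Sylow 2-subgroup, then it has a subgroup of index 2 (consider the parity of permutations in the regular representation). -/
theorem result {G : Type*} [Group G] [Finite G] (heven : Even (Nat.card G)) (T : Sylow 2 G) (hT : IsCyclic (T : Subgroup G)) : ∃ H : Subgroup G, H.index = 2 := by
  classical
  have : Fintype G := Fintype.ofFinite G
  -- the sign of right multiplication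
  let ε : G →* ℤˣ := MonoidHom.mk' (fun g => Equiv.Perm.sign (Equiv.mulRight g)) (by
    intro a b
    have : (Equiv.mulRight (a * b) : Equiv.Perm G) = Equiv.mulRight b * Equiv.mulRight a := by
      ext x
      simp [mul_assoc]
    rw [this, map_mul, mul_comm])
  -- T has even order
  have hTp : IsPGroup 2 ↥(T : Subgroup G) := T.isPGroup'
  have hT2 : 2 ∣ Nat.card ↥(T : Subgroup G) := by
    by_contra hnd
    have h1 : Nat.card ↥(T : Subgroup G) = 1 := by
      obtain ⟨n, hn⟩ := IsPGroup.iff_card.1 hTp
      cases n with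
      | zero => simpa using hn
      | succ n => exact absurd (hn ▸ dvd_pow_self 2 (Nat.succ_ne_zero n)) hnd
    have h2 := T.not_dvd_index
    have h3 := Subgroup.card_mul_index (T : Subgroup G)
    rw [h1, one_mul] at h3
    rw [h3] at h2
    exact h2 heven.two_dvd
  obtain ⟨t, ht⟩ := hT.exists_generator
  have hcardT : Nat.card ↥(T : Subgroup G) = orderOf t := (orderOf_eq_card_of_forall_mem_zpowers ht).symm
  have ht1 : t ≠ 1 := by
    rintro rfl
    rw [orderOf_one] at hcardT
    rw [hcardT] at hT2
    omega
  have htpow : ∀ y : ↥(T : Subgroup G), ∃ k : ℕ, t ^ k = y := by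
    intro y
    exact mem_powers_iff_mem_zpowers.2 (ht y)
  have : Fintype ↥(T : Subgroup G) := Fintype.ofFinite _
  have hsignT : Equiv.Perm.sign (Equiv.mulRight t) = -1 :=
    sign_mulRight_generator t htpow (by
      rw [← Nat.card_eq_fintype_card]; exact even_iff_two_dvd.2 hT2) ht1
  -- transport to (G/T) × T
  have : Fintype (G ⧸ (T : Subgroup G)) := Fintype.ofFinite _
  let e := cosetProdEquiv (T : Subgroup G)
  have hconj : (e.trans (Equiv.mulRight (t : G))).trans e.symm =
      Equiv.prodCongrRight (fun _ => Equiv.mulRight t) := by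
    ext1 p
    obtain ⟨q, s⟩ := p
    apply e.injective
    simp only [Equiv.trans_apply, Equiv.apply_symm_apply, Equiv.coe_mulRight, Equiv.prodCongrRight_apply]
    show q.out * (s : G) * (t : G) = q.out * ((s * t : ↥(T : Subgroup G)) : G)
    simp [mul_assoc]
  have hsign : ε (t : G) = -1 := by
    show Equiv.Perm.sign (Equiv.mulRight (t : G)) = -1
    rw [← Equiv.Perm.sign_trans_trans_symm _ e, hconj, Equiv.Perm.sign_prodCongrRight]
    rw [Finset.prod_const, hsignT, Finset.card_univ]
    apply Odd.neg_one_pow
    rw [← Nat.card_eq_fintype_card]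
    have := T.not_dvd_index
    rw [Subgroup.index] at this
    exact Nat.not_even_iff_odd.1 (fun h => this h.two_dvd)
  refine ⟨ε.ker, ?_⟩
  rw [Subgroup.index_ker]
  have htop : ε.range = ⊤ := by
    rw [eq_top_iff]
    intro u _
    rcases Int.units_eq_one_or u with rfl | rfl
    · exact one_mem _
    · exact ⟨t, hsign⟩
  rw [htop, Subgroup.card_top]
  simp

end Cfsg.Agent.S0219
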