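import Cfsg.Statements.S3208
import Mathlib
-- import your own Cfsg.Agent.* helpers here

set_option autoImplicit false
open Cfsg

namespace Cfsg.Agent.S3208

/-- Let j be an involution of a finite group G, H a subgroup of G, and T a Sylow 2-subgroup of H ∩ C_G(j) containing j such that ⟨j⟩ is a characteristic subgroup of T. Then T is a Sylow 2-subgroup of H. -/
theorem result {G : Type*} [Group G] [Finite G]
    (j : G) (hj : orderOf j = 2) (H T : Subgroup G) (hT : T ≤ H ⊓ Subgroup.centralizer ({j} : Set G)) (h2 : IsPGroup 2 ↥T)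
    (hSyl : ¬ 2 ∣ T.relIndex (H ⊓ Subgroup.centralizer ({j} : Set G))) (hjT : j ∈ T)
    (hchar : ((Subgroup.zpowers j).subgroupOf T).Characteristic) :
    ¬ 2 ∣ T.relIndex H := by
  classical
  intro h2dvd
  have hTH : T ≤ H := hT.trans inf_le_left
  obtain ⟨n, hn⟩ := IsPGroup.iff_card.1 h2
  set T' : Subgroup ↥H := T.subgroupOf H with hT'
  have hcardT' : Nat.card ↥T' = 2 ^ n := by
    rw [← hn]
    exact Nat.card_congr (Subgroup.subgroupOfEquivOfLe hTH).toEquiv
  have hHcard : Nat.card ↥T' * T'.index = Nat.card ↥H := Subgroup.card_mul_index T'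
  have h1 : 2 ^ (n + 1) ∣ Nat.card ↥H := by
    rw [← hHcard, hcardT', pow_succ]
    exact Nat.mul_dvd_mul_left _ h2dvd
  have hN : 2 ^ (n + 1) ∣ Nat.card (Subgroup.normalizer (T' : Set ↥H)) :=
    Sylow.prime_pow_dvd_card_normalizer h1 hcardT'
  set D := H ⊓ Subgroup.centralizer ({j} : Set G) with hD
  let W : Subgroup G := (Subgroup.normalizer (T' : Set ↥H)).map H.subtype
  have hWcard : Nat.card ↥W = Nat.card (Subgroup.normalizer (T' : Set ↥H)) :=
    Subgroup.card_map_of_injective H.subtype_injective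
  have hj2 : j * j = 1 := by
    have := pow_orderOf_eq_one j
    rw [hj, pow_two] at this
    exact this
  have hWD : W ≤ D := by
    rintro _ ⟨⟨x, hxH⟩, hxN, rfl⟩
    refine ⟨hxH, ?_⟩
    show x ∈ Subgroup.centralizer ({j} : Set G)
    have hxN' := (Subgroup.mem_set_normalizer_iff).1 hxN
    have hmem : ∀ y, y ∈ T → x * y * x⁻¹ ∈ T := by
      intro y hy
      have := (hxN' ⟨y, hTH hy⟩).1 (by simpa [hT', Subgroup.mem_subgroupOf] using hy)
      simpa [hT', Subgroup.mem_subgroupOf] using this
    have hmem' : ∀ y, y ∈ T → x⁻¹ * y * x ∈ T := by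
      intro y hy
      have hm : x⁻¹ * y * x ∈ H := mul_mem (mul_mem (inv_mem hxH) (hTH hy)) hxH
      have := (hxN' ⟨x⁻¹ * y * x, hm⟩).2 (by
        have e : x * (x⁻¹ * y * x) * x⁻¹ = y := by group
        simpa [hT', Subgroup.mem_subgroupOf, e] using hy)
      simpa [hT', Subgroup.mem_subgroupOf] using this
    let φ : ↥T ≃* ↥T :=
      { toFun := fun y => ⟨x * y * x⁻¹, hmem y y.2⟩
        invFun := fun y => ⟨x⁻¹ * y * x, hmem' y y.2⟩
        left_inv := fun y => Subtype.ext (by
          show x⁻¹ * (x * (y : G) * x⁻¹) * x = y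
          group)
        right_inv := fun y => Subtype.ext (by
          show x * (x⁻¹ * (y : G) * x) * x⁻¹ = y
          group)
        map_mul' := fun a b => Subtype.ext (by
          show x * ((a : G) * (b : G)) * x⁻¹ = (x * (a : G) * x⁻¹) * (x * (b : G) * x⁻¹)
          group) }
    have hfix := hchar.fixed φ
    have hj1 : (⟨j, hjT⟩ : ↥T) ∈ (Subgroup.zpowers j).subgroupOf T := by
      rw [Subgroup.mem_subgroupOf]
      exact Subgroup.mem_zpowers j
    rw [← hfix] at hj1
    have hj3 : x * j * x⁻¹ ∈ Subgroup.zpowers j := by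
      have := (Subgroup.mem_comap.1 hj1)
      rw [Subgroup.mem_subgroupOf] at this
      exact this
    obtain ⟨k, hk⟩ := hj3
    replace hk : j ^ k = x * j * x⁻¹ := hk
    have hk' : x * j * x⁻¹ = j ∨ x * j * x⁻¹ = 1 := by
      have hkm : j ^ k = j ^ (k % 2) := by
        have := zpow_mod_orderOf j k
        rw [hj] at this
        exact this.symm
      rcases Int.emod_two_eq_zero_or_one k with h0 | h0
      · right
        rw [← hk, hkm, h0, zpow_zero]
      · left
        rw [← hk, hkm, h0, zpow_one]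
    have hne : x * j * x⁻¹ ≠ 1 := by
      intro h
      have : j = 1 := by
        have e : j = x⁻¹ * (x * j * x⁻¹) * x := by group
        rw [e, h]
        group
      rw [this, orderOf_one] at hj
      omega
    have hcomm : x * j * x⁻¹ = j := hk'.resolve_right hne
    rw [Subgroup.mem_centralizer_iff]
    intro y hy
    have hy' : y = j := hy
    rw [hy']
    exact (mul_inv_eq_iff_eq_mul.1 hcomm).symm
  have hdvdD : Nat.card ↥W ∣ Nat.card ↥D := Subgroup.card_dvd_of_le hWD
  have hTD : T ≤ D := hT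
  have hDcard : Nat.card ↥(T.subgroupOf D) * (T.subgroupOf D).index = Nat.card ↥D :=
    Subgroup.card_mul_index _
  have hc2 : Nat.card ↥(T.subgroupOf D) = 2 ^ n := by
    rw [← hn]
    exact Nat.card_congr (Subgroup.subgroupOfEquivOfLe hTD).toEquiv
  rw [hc2] at hDcard
  have h3 : 2 ^ (n + 1) ∣ 2 ^ n * (T.subgroupOf D).index := by
    rw [hDcard]
    exact (hWcard ▸ hN).trans hdvdD
  rw [pow_succ] at h3
  have h4 : 2 ∣ (T.subgroupOf D).index :=
    (Nat.mul_dvd_mul_iff_left (by positivity)).1 h3
  exact hSyl h4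

end Cfsg.Agent.S3208
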