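import Cfsg.Statements.S0220
import Mathlib
import Cfsg.Agent.S0219
import Cfsg.Agent.S3208
-- import your own Cfsg.Agent.* helpers here

set_option autoImplicit false
open Cfsg

namespace Cfsg.Agent.S0220

/-- If x is an involution of a finite group G and a Sylow 2-subgroup of the centralizer of x is cyclic, then G has a subgroup of index 2; in particular G is not simple unless it has order 2. -/
theorem result {G : Type*} [Group G] [Finite G] (x : G) (hx : orderOf x = 2) (S : Sylow 2 ↥(Subgroup.centralizer ({x} : Set G))) (hS : IsCyclic (S : Subgroup ↥(Subgroup.centralizer ({x} : Set G)))) : ∃ H : Subgroup G, H.index = 2 := by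
  classical
  have hxC : x ∈ Subgroup.centralizer ({x} : Set G) := by
    rw [Subgroup.mem_centralizer_iff]
    intro y hy
    rw [Set.mem_singleton_iff.1 hy]
  let xC : ↥(Subgroup.centralizer ({x} : Set G)) := ⟨x, hxC⟩
  have hxC2 : orderOf xC = 2 := by
    rw [← Subgroup.orderOf_coe]
    exact hx
  -- x is in S
  have hxS : xC ∈ (S : Subgroup ↥(Subgroup.centralizer ({x} : Set G))) := by
    have hnorm : (Subgroup.zpowers xC).Normal := by
      refine ⟨?_⟩
      intro n hn g
      obtain ⟨k, rfl⟩ := hn
      have hcomm : g * xC * g⁻¹ = xC := by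
        apply Subtype.ext
        have := Subgroup.mem_centralizer_iff.1 g.2 x rfl
        show (g : G) * x * (g : G)⁻¹ = x
        rw [← this]
        group
      show g * xC ^ k * g⁻¹ ∈ _
      rw [← conj_zpow, hcomm]
      exact ⟨k, rfl⟩
    have hp : IsPGroup 2 ↥(Subgroup.zpowers xC) := by
      rw [IsPGroup.iff_card, Nat.card_zpowers, hxC2]
      exact ⟨1, by norm_num⟩
    exact hp.le_sylow_of_normal S (Subgroup.mem_zpowers xC)
  let T : Subgroup G := (S : Subgroup ↥(Subgroup.centralizer ({x} : Set G))).map (Subgroup.centralizer ({x} : Set G)).subtype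
  have hTC : T ≤ Subgroup.centralizer ({x} : Set G) := by
    rintro _ ⟨y, -, rfl⟩
    exact y.2
  have hxT : x ∈ T := ⟨xC, hxS, rfl⟩
  have hTp : IsPGroup 2 ↥T := S.isPGroup'.map _
  have hTcyc : IsCyclic ↥T :=
    isCyclic_of_surjective ((S : Subgroup ↥(Subgroup.centralizer ({x} : Set G))).equivMapOfInjective (Subgroup.centralizer ({x} : Set G)).subtype (Subgroup.subtype_injective _)).toMonoidHom
      (MulEquiv.surjective _)
  -- uniqueness of the involution in T
  have huniq : ∀ y : ↥T, y ^ 2 = 1 → y = 1 ∨ y = ⟨x, hxT⟩ := by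
    intro y hy
    have : Fintype ↥T := Fintype.ofFinite _
    have hle := IsCyclic.card_pow_eq_one_le (α := ↥T) (n := 2) (by norm_num)
    by_contra hcon
    push Not at hcon
    obtain ⟨h1, h2⟩ := hcon
    have hsub : ({1, ⟨x, hxT⟩, y} : Finset ↥T) ⊆ Finset.univ.filter (fun a : ↥T => a ^ 2 = 1) := by
      intro a ha
      simp only [Finset.mem_insert, Finset.mem_singleton] at ha
      simp only [Finset.mem_filter, Finset.mem_univ, true_and]
      rcases ha with rfl | rfl | rfl
      · simp
      · apply Subtype.ext
        show x ^ 2 = 1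
        have := pow_orderOf_eq_one x
        rwa [hx] at this
      · exact hy
    have hc := Finset.card_le_card hsub
    have hne : (1 : ↥T) ≠ ⟨x, hxT⟩ := by
      intro h
      have h2 : x = 1 := (congrArg Subtype.val h).symm
      rw [h2, orderOf_one] at hx
      omega
    have h3 : ({1, ⟨x, hxT⟩, y} : Finset ↥T).card = 3 := by
      rw [Finset.card_eq_three]
      exact ⟨1, ⟨x, hxT⟩, y, hne, h1.symm, h2.symm, rfl⟩
    omega
  have hchar : ((Subgroup.zpowers x).subgroupOf T).Characteristic := by
    rw [Subgroup.characteristic_iff_comap_le]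
    intro φ z hz
    rw [Subgroup.mem_comap, Subgroup.mem_subgroupOf] at hz
    rw [Subgroup.mem_subgroupOf]
    have hz2 : (φ z : G) ^ 2 = 1 := by
      obtain ⟨k, hk⟩ := hz
      have hk' : x ^ k = (φ z : G) := hk
      rw [← hk', ← zpow_natCast, ← zpow_mul, mul_comm, zpow_mul]
      have := pow_orderOf_eq_one x
      rw [hx] at this
      simp [this]
    have hz3 : φ z ^ 2 = 1 := Subtype.ext hz2
    have hz4 : z ^ 2 = 1 := by
      apply φ.injective
      simpa using hz3
    rcases huniq z hz4 with rfl | rfl
    · exact one_mem _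
    · exact Subgroup.mem_zpowers x
  have hSyl : ¬ 2 ∣ T.relIndex (⊤ ⊓ Subgroup.centralizer ({x} : Set G)) := by
    rw [top_inf_eq]
    have e : T.relIndex (Subgroup.centralizer ({x} : Set G)) = (S : Subgroup ↥(Subgroup.centralizer ({x} : Set G))).index := by
      show (Subgroup.comap (Subgroup.subtype (Subgroup.centralizer ({x} : Set G))) ((S : Subgroup ↥(Subgroup.centralizer ({x} : Set G))).map (Subgroup.subtype (Subgroup.centralizer ({x} : Set G))))).index = _
      rw [Subgroup.comap_map_eq_self_of_injective (Subgroup.subtype_injective (Subgroup.centralizer ({x} : Set G)))]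
    rw [e]
    exact S.not_dvd_index
  have hT2 := Cfsg.Agent.S3208.result x hx ⊤ T (le_inf le_top hTC) hTp hSyl hxT hchar
  rw [Subgroup.relIndex_top_right] at hT2
  have hEven : Even (Nat.card G) := by
    have : orderOf x ∣ Nat.card G := orderOf_dvd_natCard x
    rw [hx] at this
    exact even_iff_two_dvd.2 this
  exact Cfsg.Agent.S0219.result hEven (hTp.toSylow hT2) hTcyc

end Cfsg.Agent.S0220
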