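import Cfsg.Statements.S0228
import Mathlib
import Cfsg.Agent.Lib.Basic.SylowCount
-- import your own Cfsg.Agent.* helpers here

set_option autoImplicit false
open Cfsg

namespace Cfsg.Agent.S0228


open Subgroup Cfsg.Agent.Lib.Basic.SylowCount

/-- A group of order 12 in which no involution is central is isomorphic to the alternating group on four letters. -/
theorem result {G : Type*} [Group G] [Finite G] (hG : Nat.card G = 12) (hz : ∀ z : G, orderOf z = 2 → z ∉ Subgroup.center G) : Nonempty (G ≃* alternatingGroup (Fin 4)) := by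
  classical
  haveI : Fact (Nat.Prime 3) := ⟨Nat.prime_three⟩
  haveI : Fact (Nat.Prime 2) := ⟨Nat.prime_two⟩
  have hPc := card_sylow_eq_prime (G := G) (s := 3) (by rw [hG]; norm_num) (by rw [hG]; norm_num)
  obtain ⟨P⟩ : Nonempty (Sylow 3 G) := inferInstance
  obtain ⟨T⟩ : Nonempty (Sylow 2 G) := inferInstance
  have hTc : Nat.card T = 2 ^ 2 := by
    have h1 := T.2
    obtain ⟨k, hk⟩ := IsPGroup.iff_card.mp h1
    have h2 : (2 : ℕ) ^ 2 ∣ Nat.card T := Sylow.pow_dvd_card_of_pow_dvd_card T (by rw [hG]; norm_num)
    have h3 : Nat.card T ∣ 12 := by rw [← hG]; exact Subgroup.card_subgroup_dvd_card _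
    rw [hk] at h2 h3 ⊢
    have hk2 : k ≤ 2 := by
      by_contra hge
      have : (2 : ℕ) ^ 3 ∣ 2 ^ k := pow_dvd_pow 2 (by omega)
      have := this.trans h3
      norm_num at this
    have hk3 : 2 ≤ k := by
      by_contra hlt
      have : (2 : ℕ) ^ k ≤ 2 ^ 1 := Nat.pow_le_pow_right (by norm_num) (by omega)
      have := Nat.le_of_dvd (by positivity) h2
      norm_num at this
      omega
    have : k = 2 := by omega
    rw [this]
  -- number of Sylow 3-subgroups
  have hmod : Nat.card (Sylow 3 G) ≡ 1 [MOD 3] := card_sylow_modEq_one 3 G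
  have hdvd : Nat.card (Sylow 3 G) ∣ 4 := by
    have h1 : Nat.card (Sylow 3 G) ∣ (P : Subgroup G).index := P.card_dvd_index
    have h2 : Nat.card P * (P : Subgroup G).index = Nat.card G := Subgroup.card_mul_index _
    rw [hPc P, hG] at h2
    have h3 : (P : Subgroup G).index = 4 := by omega
    rwa [h3] at h1
  have hcases : Nat.card (Sylow 3 G) = 1 ∨ Nat.card (Sylow 3 G) = 4 := by
    have h1 := Nat.le_of_dvd (by norm_num) hdvd
    have hmod' : Nat.card (Sylow 3 G) % 3 = 1 % 3 := hmod
    interval_cases (Nat.card (Sylow 3 G)) <;> simp_all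
  rcases hcases with h1 | h4
  · -- normal Sylow 3: there is a central involution
    exfalso
    have hsub := (Nat.card_eq_one_iff_unique.mp h1).1
    haveI hPn : (P : Subgroup G).Normal := Sylow.normal_of_subsingleton P
    set C := centralizer ((P : Subgroup G) : Set G) with hC
    haveI hCn : C.Normal := Subgroup.normal_centralizer
    have hCidx : C.index ∣ 2 := by
      have key := Subgroup.card_dvd_of_injective _
        (QuotientGroup.kerLift_injective (normalizerMonoidHom (P : Subgroup G)))
      rw [normalizerMonoidHom_ker, ← index] at key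
      have hnt : normalizer ((P : Subgroup G) : Set G) = ⊤ := Subgroup.normalizer_eq_top_iff.mpr hPn
      have hcyc : IsCyclic (P : Subgroup G) := by
        haveI : Fact (Nat.card (P : Subgroup G)).Prime := by rw [hPc P]; exact ⟨Nat.prime_three⟩
        exact isCyclic_of_prime_card rfl
      rw [hcyc.card_mulAut, hPc P, show Nat.totient 3 = 2 from rfl] at key
      have e : (C.subgroupOf (normalizer ((P : Subgroup G) : Set G))).index = C.index := by
        rw [hnt]
        exact Subgroup.relIndex_top_right C
      rw [e] at key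
      simpa using key
    -- `T ⊓ C` contains an involution
    have h2 : 2 ∣ Nat.card ((T : Subgroup G) ⊓ C : Subgroup G) := by
      have h3 : C.relIndex T ∣ C.index := Subgroup.relIndex_dvd_index_of_normal C T
      have h4 : Nat.card (C.subgroupOf (T : Subgroup G)) * C.relIndex T = Nat.card T :=
        Subgroup.card_mul_index _
      have h5 : Nat.card (C.subgroupOf (T : Subgroup G)) = Nat.card ((T : Subgroup G) ⊓ C : Subgroup G) := by
        have e : C.subgroupOf (T : Subgroup G) = ((T : Subgroup G) ⊓ C).subgroupOf T := by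
          rw [Subgroup.inf_subgroupOf_left]
        rw [e]
        exact Nat.card_congr (Subgroup.subgroupOfEquivOfLe inf_le_left).toEquiv
      rw [h5, hTc] at h4
      have h6 : C.relIndex T ∣ 2 := h3.trans hCidx
      have h7 : C.relIndex T ≤ 2 := Nat.le_of_dvd (by norm_num) h6
      have h8 : 0 < C.relIndex T := Nat.pos_of_dvd_of_pos h6 (by norm_num)
      interval_cases (C.relIndex T)
      · have : Nat.card ((T : Subgroup G) ⊓ C : Subgroup G) = 4 := by simpa using h4
        rw [this]; norm_num
      · have : Nat.card ((T : Subgroup G) ⊓ C : Subgroup G) = 2 := by omega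
        rw [this]
    obtain ⟨t, ht⟩ := exists_prime_orderOf_dvd_card' 2 h2
    have htord : orderOf (t : G) = 2 := (Subgroup.orderOf_coe t).trans ht
    apply hz _ htord
    -- `t` is central
    have htT : (t : G) ∈ (T : Subgroup G) := t.2.1
    have htC : (t : G) ∈ C := t.2.2
    have hTcomm : ∀ a ∈ (T : Subgroup G), ∀ b ∈ (T : Subgroup G), a * b = b * a := by
      intro a ha b hb
      have := IsPGroup.isMulCommutative_of_card_eq_prime_sq hTc
      exact congrArg Subtype.val (mul_comm' (M := (T : Subgroup G)) ⟨a, ha⟩ ⟨b, hb⟩)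
    have hsup : (P : Subgroup G) ⊔ (T : Subgroup G) = ⊤ := by
      apply Subgroup.eq_top_of_card_eq
      apply le_antisymm (Subgroup.card_le_card_group _)
      have h3 : (3 : ℕ) ∣ Nat.card ((P : Subgroup G) ⊔ (T : Subgroup G) : Subgroup G) := by
        have := Subgroup.card_dvd_of_le (le_sup_left : (P : Subgroup G) ≤ (P : Subgroup G) ⊔ T)
        rwa [hPc P] at this
      have h4' : (4 : ℕ) ∣ Nat.card ((P : Subgroup G) ⊔ (T : Subgroup G) : Subgroup G) := by
        have := Subgroup.card_dvd_of_le (le_sup_right : (T : Subgroup G) ≤ (P : Subgroup G) ⊔ T)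
        rwa [hTc] at this
      have h5 : (12 : ℕ) ∣ Nat.card ((P : Subgroup G) ⊔ (T : Subgroup G) : Subgroup G) :=
        Nat.Coprime.mul_dvd_of_dvd_of_dvd (by norm_num) h3 h4'
      rw [hG]
      exact Nat.le_of_dvd Nat.card_pos h5
    have hcent : (P : Subgroup G) ⊔ (T : Subgroup G) ≤ centralizer ({(t : G)} : Set G) := by
      apply sup_le
      · intro x hx
        rw [Subgroup.mem_centralizer_iff]
        rintro _ rfl
        exact (Subgroup.mem_centralizer_iff.mp htC) x hx |>.symm
      · intro x hx
        rw [Subgroup.mem_centralizer_iff]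
        rintro _ rfl
        exact hTcomm _ htT _ hx
    rw [hsup] at hcent
    rw [Subgroup.mem_center_iff]
    intro g
    exact ((Subgroup.mem_centralizer_iff.mp (hcent (Subgroup.mem_top g))) _ rfl).symm
  · -- four Sylow 3-subgroups
    obtain ⟨Q, hQ⟩ : ∃ Q : Sylow 3 G, Q ≠ P := by
      by_contra hcon
      push Not at hcon
      have : Subsingleton (Sylow 3 G) := ⟨fun a b => (hcon a).trans (hcon b).symm⟩
      have := Nat.card_of_subsingleton (α := Sylow 3 G) P
      omega
    have hnorm : ∀ R : Sylow 3 G, normalizer ((R : Subgroup G) : Set G) = R := by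
      intro R
      have h1 : Nat.card (Sylow 3 G) = (normalizer ((R : Subgroup G) : Set G)).index :=
        Sylow.card_eq_index_normalizer R
      have h2 := Subgroup.card_mul_index (normalizer ((R : Subgroup G) : Set G))
      rw [← h1, h4, hG] at h2
      have h3 : Nat.card (normalizer ((R : Subgroup G) : Set G)) = 3 := by omega
      symm
      apply Subgroup.eq_of_le_of_card_ge Subgroup.le_normalizer
      rw [h3, hPc R]
    let φ : G →* Equiv.Perm (Sylow 3 G) := MulAction.toPermHom G (Sylow 3 G)
    have hφ : Function.Injective φ := by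
      rw [injective_iff_map_eq_one]
      intro x hx
      have hfix : ∀ R : Sylow 3 G, x ∈ (R : Subgroup G) := by
        intro R
        have h1 : x • R = R := by
          have := congrArg (fun f : Equiv.Perm (Sylow 3 G) => f R) hx
          simpa [φ] using this
        have h2 : x ∈ normalizer ((R : Subgroup G) : Set G) := (Sylow.smul_eq_iff_mem_normalizer).mp h1
        rw [hnorm R] at h2
        exact h2
      have h1 := inf_eq_bot_of_card Q P (hPc Q) (hPc P) hQ
      have h2 : x ∈ (Q : Subgroup G) ⊓ (P : Subgroup G) := Subgroup.mem_inf.mpr ⟨hfix Q, hfix P⟩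
      rw [h1, Subgroup.mem_bot] at h2
      exact h2
    let e : Sylow 3 G ≃ Fin 4 := Finite.equivFinOfCardEq h4
    let ψ : G →* Equiv.Perm (Fin 4) := (Equiv.permCongrHom e).toMonoidHom.comp φ
    have hψ : Function.Injective ψ := (Equiv.permCongrHom e).injective.comp hφ
    have hrange : ψ.range = alternatingGroup (Fin 4) := by
      apply Equiv.Perm.eq_alternatingGroup_of_index_eq_two
      have h1 : Nat.card ψ.range = 12 := by
        rw [← hG]
        exact Nat.card_congr (MonoidHom.ofInjective hψ).toEquiv.symm
      have h2 := Subgroup.card_mul_index ψ.range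
      rw [h1, Nat.card_eq_fintype_card, Fintype.card_perm, Fintype.card_fin] at h2
      have : Nat.factorial 4 = 24 := rfl
      omega
    exact ⟨(MonoidHom.ofInjective hψ).trans (MulEquiv.subgroupCongr hrange)⟩

end Cfsg.Agent.S0228
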