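import Cfsg.Statements.S0281
import Mathlib
import Cfsg.Agent.Lib.Classical.Herm.Subfield
import Cfsg.Agent.S0755
-- import your own Cfsg.Agent.* helpers here

set_option autoImplicit false
open Cfsg

open Cfsg.Agent.Lib.Classical.Herm.Basic
open Cfsg.Agent.Lib.Classical.Herm.GU
open Cfsg.Agent.Lib.Classical.Herm.SU
open Cfsg.Agent.Lib.Classical.Herm.Subfield
open scoped Matrix

namespace Cfsg.Agent.S0281

variable {F : Type*} [Field F] [Fintype F] {q : ℕ}

/-- The auxiliary Hermitian form `ε (u₀ v₁^q - u₁ v₀^q)`. -/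
def Hf (ε : F) (q : ℕ) (u v : Fin 2 → F) : F := ε * (u 0 * v 1 ^ q - u 1 * v 0 ^ q)

/-- The form as a sesquilinear form: semilinear in the first argument. -/
noncomputable def formH (hF : Fintype.card F = q ^ 2) (ε : F) :
    (Fin 2 → F) →ₛₗ[sigma hF] (Fin 2 → F) →ₗ[F] F :=
  LinearMap.mk₂'ₛₗ (sigma hF) (RingHom.id F) (fun x y => Hf ε q y x)
    (fun x x' y => by
      simp only [Hf, Pi.add_apply, pow_q_add hF]; ring)
    (fun c x y => by
      simp only [Hf, Pi.smul_apply, smul_eq_mul, mul_pow, sigma_apply]; ring)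
    (fun x y y' => by
      simp only [Hf, Pi.add_apply]; ring)
    (fun c x y => by
      simp only [Hf, Pi.smul_apply, smul_eq_mul, RingHom.id_apply]; ring)

@[simp] theorem formH_apply (hF : Fintype.card F = q ^ 2) (ε : F) (x y : Fin 2 → F) :
    formH hF ε x y = Hf ε q y x := rfl

theorem formH_isSymm (hF : Fintype.card F = q ^ 2) (ε : F) (hεq : ε ^ q = -ε) :
    (formH hF ε).IsSymm := ⟨fun x y => by
  simp only [formH_apply, sigma_apply, Hf, mul_pow, hεq, pow_q_sub hF, pow_q_pow_q hF]
  ring⟩

theorem formH_nondegenerate (hF : Fintype.card F = q ^ 2) (ε : F) (hε0 : ε ≠ 0) :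
    (formH hF ε).Nondegenerate := by
  have hq := two_le_q hF
  have hq0 : q ≠ 0 := by omega
  constructor
  · intro x hx
    have h0 := hx (fun i => if i = 0 then 1 else 0)
    have h1 := hx (fun i => if i = 1 then 1 else 0)
    simp only [formH_apply, Hf] at h0 h1
    simp at h0 h1
    funext i
    fin_cases i
    · simpa using (h1.resolve_left hε0).1
    · simpa using (h0.resolve_left hε0).1
  · intro y hy
    have h0 := hy (fun i => if i = 0 then 1 else 0)
    have h1 := hy (fun i => if i = 1 then 1 else 0)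
    simp only [formH_apply, Hf] at h0 h1
    simp [zero_pow hq0] at h0 h1
    funext i
    fin_cases i
    · simpa using (h1.resolve_left hε0)
    · simpa using (h0.resolve_left hε0)

theorem presH_of_fixed (hF : Fintype.card F = q ^ 2) (ε : F) (C : Matrix (Fin 2) (Fin 2) F)
    (hdet : C.det = 1) (hfix : ∀ i k, C i k ^ q = C i k) (x y : Fin 2 → F) :
    Hf ε q (C *ᵥ x) (C *ᵥ y) = Hf ε q x y := by
  rw [Matrix.det_fin_two] at hdet
  simp only [Hf, Matrix.mulVec, dotProduct, Fin.sum_univ_two, pow_q_add hF, mul_pow, hfix]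
  linear_combination (ε * (x 0 * y 1 ^ q - x 1 * y 0 ^ q)) * hdet

theorem fixed_of_presH (hF : Fintype.card F = q ^ 2) (ε : F) (hε0 : ε ≠ 0) (C : Matrix (Fin 2) (Fin 2) F)
    (hdet : C.det = 1) (hC : ∀ x y : Fin 2 → F, Hf ε q (C *ᵥ x) (C *ᵥ y) = Hf ε q x y) (i k : Fin 2) :
    C i k ^ q = C i k := by
  have hq := two_le_q hF
  have hq0 : q ≠ 0 := by omega
  rw [Matrix.det_fin_two] at hdet
  have e0 : (Pi.single 0 1 : Fin 2 → F) = fun i => if i = 0 then 1 else 0 := by
    funext i; simp [Pi.single_apply]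
  have e1 : (Pi.single 1 1 : Fin 2 → F) = fun i => if i = 1 then 1 else 0 := by
    funext i; simp [Pi.single_apply]
  have h00 := hC (Pi.single 0 1) (Pi.single 0 1)
  have h01 := hC (Pi.single 0 1) (Pi.single 1 1)
  have h10 := hC (Pi.single 1 1) (Pi.single 0 1)
  have h11 := hC (Pi.single 1 1) (Pi.single 1 1)
  simp only [Hf, e0, e1] at h00 h01 h10 h11
  simp [zero_pow hq0] at h00 h01 h10 h11
  set a := C 0 0
  set b := C 0 1
  set c := C 1 0
  set d := C 1 1
  have h1 : a * c ^ q = c * a ^ q := by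
    rcases h00 with h | h
    · exact absurd h hε0
    · exact sub_eq_zero.mp h
  have h2 : b * d ^ q = d * b ^ q := by
    rcases h11 with h | h
    · exact absurd h hε0
    · exact sub_eq_zero.mp h
  have h3 : a * d ^ q - c * b ^ q = 1 := by
    have : ε * (a * d ^ q - c * b ^ q) = ε * 1 := by linear_combination h01
    exact mul_left_cancel₀ hε0 this
  have h4 : b * c ^ q - d * a ^ q = -1 := by
    have : ε * (b * c ^ q - d * a ^ q) = ε * (-1) := by linear_combination h10
    exact mul_left_cancel₀ hε0 this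
  fin_cases i <;> fin_cases k
  · change a ^ q = a
    linear_combination (-a ^ q) * hdet - a * h4 + b * h1
  · change b ^ q = b
    linear_combination (-b ^ q) * hdet - a * h2 + b * h3
  · change c ^ q = c
    linear_combination (-c ^ q) * hdet + d * h1 - c * h4
  · change d ^ q = d
    linear_combination (-d ^ q) * hdet + d * h3 - c * h2

/-- SU_2(q) is isomorphic to SL_2(q). -/
theorem result {F K : Type*} [Field F] [Fintype F] [Field K] [Fintype K] {q : ℕ} (hF : Fintype.card F = q ^ 2) (hK : Fintype.card K = q) : Nonempty (Cfsg.SU 2 F q ≃* Matrix.SpecialLinearGroup (Fin 2) K) := by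
  classical
  have hq := two_le_q hF
  obtain ⟨j, hj1, hj2⟩ := exists_fixed_embedding hF hK
  obtain ⟨ε, hε0, hεq⟩ := exists_trace_zero hF
  have hsym := formH_isSymm hF ε hεq
  have hnd := formH_nondegenerate hF ε hε0
  -- an orthonormal pair for the auxiliary form
  obtain ⟨p0, -, hp00⟩ := Cfsg.Agent.S0755.exists_orthonormal_step (sigma hF) (sigma_ne_id hF)
    (sigma_sigma hF) (formH hF ε) hsym hnd 0 Fin.elim0 (fun i => i.elim0) (by simp)
  obtain ⟨p1, hp1, hp11⟩ := Cfsg.Agent.S0755.exists_orthonormal_step (sigma hF) (sigma_ne_id hF)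
    (sigma_sigma hF) (formH hF ε) hsym hnd 1 (fun _ => p0)
    (fun i k => by
      have : i = k := Subsingleton.elim i k
      simpa [this] using hp00) (by simp)
  have hp01 : Hf ε q p1 p0 = 0 := hp1 0
  have hp10 : Hf ε q p0 p1 = 0 := by
    have h1 := hsym.eq p1 p0
    rw [formH_apply, formH_apply, hp01] at h1
    exact (map_eq_zero (sigma hF)).1 h1
  have hp00' : Hf ε q p0 p0 = 1 := hp00
  have hp11' : Hf ε q p1 p1 = 1 := hp11
  let P : Matrix (Fin 2) (Fin 2) F := Matrix.of fun i k => (![p0, p1] k) i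
  have hPv : ∀ u : Fin 2 → F, P *ᵥ u = u 0 • p0 + u 1 • p1 := by
    intro u
    funext i
    simp [P, Matrix.mulVec, dotProduct, Fin.sum_univ_two, mul_comm]
  have hPH : ∀ u v : Fin 2 → F, Hf ε q (P *ᵥ u) (P *ᵥ v) = hermForm 2 F q u v := by
    intro u v
    change formH hF ε (P *ᵥ v) (P *ᵥ u) = _
    rw [hPv u, hPv v]
    simp only [map_add, map_smulₛₗ, LinearMap.add_apply, LinearMap.smul_apply, formH_apply, hp00',
      hp01, hp10, hp11', smul_eq_mul, hermForm, Fin.sum_univ_two, sigma_apply, RingHom.id_apply]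
    ring
  have hPunit : IsUnit P := by
    rw [← Matrix.mulVec_injective_iff_isUnit]
    intro u v huv
    have huv' : u - v = 0 := by
      apply hermForm_nondegenerate_left hF 2
      intro w
      rw [← hPH, Matrix.mulVec_sub, huv, sub_self]
      simp [Hf]
    exact sub_eq_zero.mp huv'
  have hPdet : IsUnit P.det := (Matrix.isUnit_iff_isUnit_det P).1 hPunit
  let Pi : Matrix (Fin 2) (Fin 2) F := P⁻¹
  have hPiP : Pi * P = 1 := Matrix.nonsing_inv_mul P hPdet
  have hPPi : P * Pi = 1 := Matrix.mul_nonsing_inv P hPdet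
  have hdetconj : ∀ C : Matrix (Fin 2) (Fin 2) F, (Pi * C * P).det = C.det := by
    intro C
    rw [Matrix.det_mul, Matrix.det_mul, mul_comm Pi.det, mul_assoc, ← Matrix.det_mul, hPiP, Matrix.det_one, mul_one]
  have hdetconj' : ∀ C : Matrix (Fin 2) (Fin 2) F, (P * C * Pi).det = C.det := by
    intro C
    rw [Matrix.det_mul, Matrix.det_mul, mul_comm P.det, mul_assoc, ← Matrix.det_mul, hPPi, Matrix.det_one, mul_one]
  have hPHinv : ∀ x y : Fin 2 → F, Hf ε q x y = hermForm 2 F q (Pi *ᵥ x) (Pi *ᵥ y) := by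
    intro x y
    rw [← hPH, Matrix.mulVec_mulVec, Matrix.mulVec_mulVec, hPPi, Matrix.one_mulVec, Matrix.one_mulVec]
  -- the homomorphism from SL₂(K)
  let jm : Matrix (Fin 2) (Fin 2) K → Matrix (Fin 2) (Fin 2) F := fun B => B.map j
  have hjdet : ∀ B : Matrix.SpecialLinearGroup (Fin 2) K, (jm B.1).det = 1 := by
    intro B
    have h1 := (j.map_det B.1).symm
    rw [B.2, map_one] at h1
    exact h1
  have hjfix : ∀ (B : Matrix (Fin 2) (Fin 2) K) (i k : Fin 2), (jm B i k) ^ q = jm B i k := by
    intro B i k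
    exact hj1 _
  have hpres : ∀ B : Matrix.SpecialLinearGroup (Fin 2) K, Preserves q (Pi * jm B.1 * P) := by
    intro B u v
    rw [← hPH, Matrix.mulVec_mulVec, Matrix.mulVec_mulVec]
    have e : P * (Pi * jm B.1 * P) = jm B.1 * P := by
      rw [← Matrix.mul_assoc, ← Matrix.mul_assoc, hPPi, Matrix.one_mul]
    rw [e, ← Matrix.mulVec_mulVec, ← Matrix.mulVec_mulVec, presH_of_fixed hF ε _ (hjdet B) (hjfix _), hPH]
  let Φ : Matrix.SpecialLinearGroup (Fin 2) K →* SU 2 F q :=
    { toFun := fun B => mkSU (Pi * jm B.1 * P) (by rw [hdetconj, hjdet]) (hpres B)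
      map_one' := by
        apply Subtype.ext
        apply Subtype.ext
        change Pi * jm 1 * P = 1
        have : jm 1 = 1 := by
          simp [jm, Matrix.map_one]
        rw [this, Matrix.mul_one, hPiP]
      map_mul' := fun A B => by
        apply Subtype.ext
        apply Subtype.ext
        change Pi * jm (A.1 * B.1) * P = (Pi * jm A.1 * P) * (Pi * jm B.1 * P)
        have : jm (A.1 * B.1) = jm A.1 * jm B.1 := by
          simp [jm, Matrix.map_mul]
        rw [this]
        calc Pi * (jm A.1 * jm B.1) * P = Pi * jm A.1 * (P * Pi) * jm B.1 * P := by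
              rw [hPPi]; simp only [Matrix.mul_assoc, Matrix.mul_one]
          _ = _ := by simp only [Matrix.mul_assoc] }
  have hΦ : Function.Bijective Φ := by
    constructor
    · intro A B hAB
      have h1 : Pi * jm A.1 * P = Pi * jm B.1 * P :=
        congrArg (fun x : SU 2 F q => ((x : Matrix.SpecialLinearGroup (Fin 2) F) : Matrix (Fin 2) (Fin 2) F)) hAB
      have h2 : jm A.1 = jm B.1 := by
        have h3 : P * (Pi * jm A.1 * P) * Pi = P * (Pi * jm B.1 * P) * Pi := by rw [h1]
        have e : ∀ C, P * (Pi * C * P) * Pi = C := by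
          intro C
          calc P * (Pi * C * P) * Pi = (P * Pi) * C * (P * Pi) := by simp only [Matrix.mul_assoc]
            _ = C := by rw [hPPi, Matrix.one_mul, Matrix.mul_one]
        rwa [e, e] at h3
      apply Subtype.ext
      ext i k
      have := congrFun (congrFun h2 i) k
      exact j.injective this
    · intro A
      let Am : Matrix (Fin 2) (Fin 2) F := ((A : Matrix.SpecialLinearGroup (Fin 2) F) : Matrix (Fin 2) (Fin 2) F)
      let C : Matrix (Fin 2) (Fin 2) F := P * Am * Pi
      have hCdet : C.det = 1 := by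
        rw [hdetconj']
        exact A.1.2
      have hCpres : ∀ x y : Fin 2 → F, Hf ε q (C *ᵥ x) (C *ᵥ y) = Hf ε q x y := by
        intro x y
        have hA : Preserves q Am := preserves_su A
        rw [hPHinv (C *ᵥ x), hPHinv x y, Matrix.mulVec_mulVec, Matrix.mulVec_mulVec]
        have e : Pi * C = Am * Pi := by
          simp only [C]
          rw [← Matrix.mul_assoc, ← Matrix.mul_assoc, hPiP, Matrix.one_mul]
        rw [e, ← Matrix.mulVec_mulVec, ← Matrix.mulVec_mulVec, hA]
      have hfix := fixed_of_presH hF ε hε0 C hCdet hCpres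
      choose B hB using fun i k => hj2 (C i k) (hfix i k)
      let Bm : Matrix (Fin 2) (Fin 2) K := Matrix.of B
      have hjB : jm Bm = C := by
        ext i k
        exact hB i k
      have hBdet : Bm.det = 1 := by
        apply j.injective
        rw [map_one, j.map_det]
        exact (congrArg Matrix.det hjB).trans hCdet
      refine ⟨⟨Bm, hBdet⟩, ?_⟩
      apply Subtype.ext
      apply Subtype.ext
      change Pi * jm Bm * P = Am
      rw [hjB]
      calc Pi * C * P = (Pi * P) * Am * (Pi * P) := by simp only [C, Matrix.mul_assoc]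
        _ = Am := by rw [hPiP, Matrix.one_mul, Matrix.mul_one]
  exact ⟨(MulEquiv.ofBijective Φ hΦ).symm⟩

end Cfsg.Agent.S0281
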