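import Cfsg.Statements.S2444
import Cfsg.Agent.Lib.Linalg.Lev.Scalar

set_option autoImplicit false
open Cfsg

namespace Cfsg.Agent.S2444

open Cfsg.Agent.Lib.Linalg.Lev Module

theorem comm_of_isComm {F : Type*} [Field F] {n : ℕ} (g : Matrix.SpecialLinearGroup (Fin n) F)
    (h : IsComm (Matrix.toLin' (g : Matrix (Fin n) (Fin n) F))) :
    ∃ a b : Matrix.SpecialLinearGroup (Fin n) F, g = a * b * a⁻¹ * b⁻¹ := by
  obtain ⟨a, b, ha, hb, hT⟩ := h
  let A : Matrix.SpecialLinearGroup (Fin n) F :=
    ⟨LinearMap.toMatrix' (a : (Fin n → F) →ₗ[F] (Fin n → F)), by rw [LinearMap.det_toMatrix']; exact ha⟩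
  let B : Matrix.SpecialLinearGroup (Fin n) F :=
    ⟨LinearMap.toMatrix' (b : (Fin n → F) →ₗ[F] (Fin n → F)), by rw [LinearMap.det_toMatrix']; exact hb⟩
  refine ⟨A, B, ?_⟩
  have key : g * B * A = A * B := by
    apply Subtype.ext
    apply Matrix.toLin'.injective
    change Matrix.toLin' ((g : Matrix (Fin n) (Fin n) F) * LinearMap.toMatrix' (b : (Fin n → F) →ₗ[F] (Fin n → F)) *
      LinearMap.toMatrix' (a : (Fin n → F) →ₗ[F] (Fin n → F))) =
      Matrix.toLin' (LinearMap.toMatrix' (a : (Fin n → F) →ₗ[F] (Fin n → F)) *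
        LinearMap.toMatrix' (b : (Fin n → F) →ₗ[F] (Fin n → F)))
    rw [Matrix.toLin'_mul, Matrix.toLin'_mul, Matrix.toLin'_mul, Matrix.toLin'_toMatrix', Matrix.toLin'_toMatrix']
    refine LinearMap.ext fun x => ?_
    change Matrix.toLin' (g : Matrix (Fin n) (Fin n) F) (b (a x)) = a (b x)
    rw [hT, b.symm_apply_apply, a.symm_apply_apply]
  rw [← key]
  group

/-- In the special linear group SL(n,F) over a finite field F, with n ≥ 2 and (n, |F|) not (2,2) or (2,3), every element is a commutator a·b·a⁻¹·b⁻¹ of two elements of SL(n,F). -/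
theorem result {F : Type*} [Field F] [Fintype F] (n : ℕ) (hn : 2 ≤ n) (hex : n = 2 → 4 ≤ Fintype.card F) :
    ∀ g : Matrix.SpecialLinearGroup (Fin n) F, ∃ a b : Matrix.SpecialLinearGroup (Fin n) F, g = a * b * a⁻¹ * b⁻¹ := by
  intro g
  apply comm_of_isComm
  set T : (Fin n → F) →ₗ[F] (Fin n → F) := Matrix.toLin' (g : Matrix (Fin n) (Fin n) F) with hTdef
  have hdet : LinearMap.det T = 1 := by
    rw [hTdef, LinearMap.det_toLin']
    exact g.2
  have hfr : finrank F (Fin n → F) = n := by simp
  have hinj : Function.Injective T := by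
    have h0 : LinearMap.det T ≠ 0 := by rw [hdet]; exact one_ne_zero
    exact (LinearMap.equivOfDetNeZero T h0).injective
  by_cases hs : ∃ a : F, ∀ x, T x = a • x
  · obtain ⟨a, ha⟩ := hs
    have hT : T = a • LinearMap.id := LinearMap.ext fun x => by rw [ha]; rfl
    rw [hT] at hdet ⊢
    rw [LinearMap.det_smul, LinearMap.det_id, mul_one] at hdet
    exact isComm_smul a (by omega) hdet
  · refine isComm_of_nonscalar T hinj hdet hs ?_
    rcases Nat.lt_or_ge 2 n with h | h
    · exact Or.inl (by omega)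
    · have hn2 : n = 2 := by omega
      refine Or.inr ⟨by omega, ?_⟩
      by_contra hcon
      push Not at hcon
      classical
      have hsub : (Finset.univ : Finset F) ⊆ {0, 1, -1} := by
        intro ρ _
        by_cases hρ : ρ = 0
        · simp [hρ]
        · have h1 := hcon ρ hρ
          rw [sq] at h1
          rcases mul_self_eq_one_iff.1 h1 with h2 | h2 <;> simp [h2]
      have h1 := Finset.card_le_card hsub
      have h2 : ({0, 1, -1} : Finset F).card ≤ 3 := Finset.card_le_three
      have h3 := hex hn2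
      rw [Finset.card_univ] at h1
      omega

end Cfsg.Agent.S2444
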