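import Cfsg.Statements.S0300
import Mathlib
import Cfsg.Agent.Lib.Classical.Herm.ExcMinus4
import Cfsg.Agent.S0288
import Cfsg.Agent.S2444

set_option autoImplicit false
open Cfsg

namespace Cfsg.Agent.S0300

/-- PΩ^-_4(q) is isomorphic to PSL_2(q^2). -/
theorem result {F K : Type*} [Field F] [Fintype F] [Field K] [Fintype K] {q : ℕ} (hF : Fintype.card F = q) (hK : Fintype.card K = q ^ 2) (a b : F) (hab : ∀ z₁ z₂ : F, z₁ ^ 2 + a * z₁ * z₂ + b * z₂ ^ 2 = 0 → z₁ = 0 ∧ z₂ = 0) : Nonempty (Cfsg.POmega F (Cfsg.quadFormMinus 1 F a b) ≃* Matrix.ProjectiveSpecialLinearGroup (Fin 2) K) := by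
  classical
  obtain ⟨E⟩ := Cfsg.Agent.Lib.Classical.Herm.ExcQuad.exists_quadExt hF hK hab
  have hq : 2 ≤ q := hF ▸ Fintype.one_lt_card
  have hK4 : 4 ≤ Fintype.card K := by
    rw [hK]
    nlinarith
  have hperf : commutator (Matrix.SpecialLinearGroup (Fin 2) K) = ⊤ := by
    rw [eq_top_iff]
    intro g _
    obtain ⟨x, y, h⟩ := Cfsg.Agent.S2444.result (F := K) 2 le_rfl (fun _ => hK4) g
    rw [h]
    exact Subgroup.commutator_mem_commutator (Subgroup.mem_top _) (Subgroup.mem_top _)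
  refine Cfsg.Agent.Lib.Classical.Herm.ExcMinus4.main E hperf hab ?_
  have h1 := Cfsg.Agent.S0288.result hF 2 (by norm_num) a b hab
  have h2 : (2 : ℕ) - 1 = 1 := rfl
  rw [h2] at h1
  rw [h1, Cfsg.Agent.Lib.Classical.Herm.ExcTwo.card_sl2 hK]
  simp
  have hq2 : 1 ≤ q ^ 2 := Nat.one_le_pow _ _ (by omega)
  have h3 : (q ^ 2) ^ 2 - 1 = (q ^ 2 + 1) * (q ^ 2 - 1) := by
    zify [hq2, show 1 ≤ (q ^ 2) ^ 2 from Nat.one_le_pow _ _ (by omega)]
    ring
  rw [h3]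
  ring

end Cfsg.Agent.S0300
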