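import Cfsg.Statements.S0430
import Cfsg.Agent.S0410
import Cfsg.Agent.Lib.BasicSteiner.Witt.Srg100

set_option autoImplicit false
open Cfsg

namespace Cfsg.Agent.S0430

/-- Uniqueness of the strongly regular graph with parameters (100, 22, 0, 6). -/
theorem result {V W : Type*} [Fintype V] [Fintype W] {G : SimpleGraph V} {H : SimpleGraph W} [DecidableRel G.Adj] [DecidableRel H.Adj] (hG : G.IsSRGWith 100 22 0 6) (hH : H.IsSRGWith 100 22 0 6) : Nonempty (G ≃g H) := by
  classical
  open Cfsg.Agent.Lib.BasicSteiner.Witt.Srg100 in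
  have hV : Nonempty V := by
    apply Fintype.card_pos_iff.mp
    rw [hG.card]
    norm_num
  have hW : Nonempty W := by
    apply Fintype.card_pos_iff.mp
    rw [hH.card]
    norm_num
  obtain ⟨v⟩ := hV
  obtain ⟨w⟩ := hW
  open Cfsg.Agent.Lib.BasicSteiner.Witt.Srg100 in
  exact iso_of_des hG hH v w (Cfsg.Agent.S0410.result (card_Pt hG v) (card_Pt hH w) (des_steiner hG v) (des_steiner hH w))

end Cfsg.Agent.S0430
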