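import Cfsg.Statements.S0431
import Cfsg.Agent.S0410
import Cfsg.Agent.S0414
import Cfsg.Agent.Lib.BasicSteiner.Witt.HSSimple
-- import your own Cfsg.Agent.* helpers here

set_option autoImplicit false
open Cfsg

namespace Cfsg.Agent.S0431

/-- Aut of the point-block graph of an S(3, 6, 22) contains a simple subgroup of order 44352000. -/
theorem result {α : Type*} [Fintype α] (hα : Fintype.card α = 22) {B : Set (Finset α)} (hB : Cfsg.IsSteinerSystem 3 6 B) : ∃ H : Subgroup (Cfsg.pointBlockGraph B ≃g Cfsg.pointBlockGraph B), Cfsg.IsHS H := by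
  classical
  obtain ⟨e, he⟩ := Cfsg.Agent.S0410.result hα Cfsg.Agent.Lib.BasicSteiner.WittStab2.card_Om2 hB
    Cfsg.Agent.Lib.BasicSteiner.WittStab2.hex_steiner
  let ψ := Cfsg.Agent.Lib.BasicSteiner.Witt.HSSimple.conjIso (Cfsg.Agent.Lib.BasicSteiner.Witt.HSGraph.pbIso e he)
  refine ⟨Cfsg.Agent.Lib.BasicSteiner.Witt.HSSimple.Hh.comap ψ.toMonoidHom, ?_, ?_⟩
  · have hs := Cfsg.Agent.Lib.BasicSteiner.Witt.HSSimple.simple_Hh
    exact (Cfsg.Agent.S0414.comapEquiv ψ _).isSimpleGroup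
  · rw [Nat.card_congr (Cfsg.Agent.S0414.comapEquiv ψ _).toEquiv]
    exact Cfsg.Agent.Lib.BasicSteiner.Witt.HSSimple.card_Hh

end Cfsg.Agent.S0431
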