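import Cfsg.Statements.S0436
import Mathlib
-- import your own Cfsg.Agent.* helpers here

set_option autoImplicit false
open Cfsg

namespace Cfsg.Agent.S0436

/-- For distinct commuting members a, b of a set of 3-transpositions E, a member e of E centralises the product a * b if and only if it centralises both a and b. -/
theorem result {G : Type*} [Group G] {E : Set G} (hE : Cfsg.IsThreeTranspositionSet E) {a b e : G} (ha : a ∈ E) (hb : b ∈ E) (he : e ∈ E) (hab : a ≠ b) (hcomm : Commute a b) : Commute e (a * b) ↔ (Commute e a ∧ Commute e b) := by
  constructor
  · intro hc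
    have ha2 : a * a = 1 := by
      have h2 : a ^ 2 = 1 := by rw [← hE.1 a ha]; exact pow_orderOf_eq_one a
      rwa [pow_two] at h2
    have hb2 : b * b = 1 := by
      have h2 : b ^ 2 = 1 := by rw [← hE.1 b hb]; exact pow_orderOf_eq_one b
      rwa [pow_two] at h2
    have he2 : e * e = 1 := by
      have h2 : e ^ 2 = 1 := by rw [← hE.1 e he]; exact pow_orderOf_eq_one e
      rwa [pow_two] at h2
    -- the key lemma, applied with the two factors in either order
    have key : ∀ {a b : G}, a ∈ E → b ∈ E → a ≠ b → Commute a b → a * a = 1 → b * b = 1 →
        Commute e (a * b) → Commute e a := by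
      intro a b ha hb hab hcomm ha2 hb2 hc
      by_contra hnc
      have hai : a⁻¹ = a := inv_eq_of_mul_eq_one_left ha2
      have hbi : b⁻¹ = b := inv_eq_of_mul_eq_one_left hb2
      have hei : e⁻¹ = e := inv_eq_of_mul_eq_one_left he2
      -- `x = e * a` has order dividing 3
      have hx3 : (e * a) ^ 3 = 1 := by
        rcases hE.2 e he a ha with h | h
        · exfalso
          apply hnc
          have h1 : e * a * (e * a) = 1 := by rw [← pow_two]; exact h
          have h2 : e * a = (e * a)⁻¹ := eq_inv_of_mul_eq_one_left h1
          rw [mul_inv_rev, hai, hei] at h2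
          exact h2
        · exact h
      have hy2 : (a * b) * (a * b) = 1 := by
        calc a * b * (a * b) = a * (b * a) * b := by group
          _ = a * (a * b) * b := by rw [hcomm.eq.symm]
          _ = (a * a) * (b * b) := by group
          _ = 1 := by rw [ha2, hb2, one_mul]
      have hy1 : a * b ≠ 1 := by
        intro h
        apply hab
        have : a = b⁻¹ := eq_inv_of_mul_eq_one_left h
        rw [this, hbi]
      have hax : Commute (e * a) (a * b) := by
        apply Commute.mul_left hc
        show a * (a * b) = a * b * a
        calc a * (a * b) = a * (b * a) := by rw [hcomm.eq]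
          _ = a * b * a := by group
      have heb : e * b = (e * a) * (a * b) := by
        calc e * b = e * (a * a) * b := by rw [ha2, mul_one]
          _ = e * a * (a * b) := by group
      rcases hE.2 e he b hb with h | h
      · rw [heb, hax.mul_pow, pow_two (a * b), hy2, mul_one] at h
        -- so `(e * a) ^ 2 = 1`, hence `e * a = 1`
        apply hnc
        have h3 : e * a = 1 := by
          calc e * a = (e * a) ^ 3 * ((e * a) ^ 2)⁻¹ := by group
            _ = 1 := by rw [hx3, h]; simp
        have hea : e = a := by
          have : e = a⁻¹ := eq_inv_of_mul_eq_one_left h3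
          rw [this, hai]
        rw [hea]
      · rw [heb, hax.mul_pow, hx3, one_mul] at h
        apply hy1
        calc a * b = (a * b) ^ 3 * ((a * b) * (a * b))⁻¹ := by
              simp only [pow_succ, pow_zero, one_mul, mul_inv_rev]; group
          _ = 1 := by rw [h, hy2]; simp
    exact ⟨key ha hb hab hcomm ha2 hb2 hc,
      key hb ha hab.symm hcomm.symm hb2 ha2 (by rwa [hcomm.symm.eq])⟩
  · rintro ⟨h1, h2⟩
    exact h1.mul_right h2

end Cfsg.Agent.S0436
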