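import Cfsg.Statements.S0437
import Cfsg.Agent.S0436
import Cfsg.Agent.Lib.Fischer.Basic

set_option autoImplicit false
open Cfsg

namespace Cfsg.Agent.S0437

/-- For three distinct, pairwise commuting members a, b, c of a set of 3-transpositions E, a member e of E centralises a * b * c if and only if it centralises each of a, b and c. -/
theorem result {G : Type*} [Group G] {E : Set G} (hE : Cfsg.IsThreeTranspositionSet E) {a b c e : G} (ha : a ∈ E) (hb : b ∈ E) (hc : c ∈ E) (he : e ∈ E) (hab : a ≠ b) (hac : a ≠ c) (hbc : b ≠ c) (h₁ : Commute a b) (h₂ : Commute a c) (h₃ : Commute b c) : Commute e (a * b * c) ↔ (Commute e a ∧ Commute e b ∧ Commute e c) := by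
  have hsq := Cfsg.Agent.Lib.Fischer.Basic.sq_of_set hE
  have hbr := Cfsg.Agent.Lib.Fischer.Basic.br_of_set hE
  have s0436 : ∀ {a b : G}, a ∈ E → b ∈ E → a ≠ b → Commute a b →
      (Commute e (a * b) ↔ (Commute e a ∧ Commute e b)) := fun ha hb hab hc =>
    Cfsg.Agent.S0436.result hE ha hb he hab hc
  constructor
  · intro hz
    by_cases hec : Commute e c
    · have h1 : Commute e (a * b) := by
        have : a * b = (a * b * c) * c⁻¹ := by group
        rw [this]
        exact hz.mul_right hec.inv_right
      obtain ⟨h2, h3⟩ := (s0436 ha hb hab h₁).1 h1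
      exact ⟨h2, h3, hec⟩
    by_cases hea : Commute e a
    · have h1 : Commute e (b * c) := by
        have : b * c = a⁻¹ * (a * b * c) := by group
        rw [this]
        exact hea.inv_right.mul_right hz
      obtain ⟨h2, h3⟩ := (s0436 hb hc hbc h₃).1 h1
      exact ⟨hea, h2, h3⟩
    by_cases heb : Commute e b
    · have h1 : Commute e (a * c) := by
        have : a * c = (a * b * c) * (c⁻¹ * b⁻¹ * c) := by group
        rw [this]
        refine hz.mul_right ?_
        have hbc' : c⁻¹ * b⁻¹ * c = b⁻¹ := by
          calc c⁻¹ * b⁻¹ * c = c⁻¹ * (b⁻¹ * c) := by group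
            _ = c⁻¹ * (c * b⁻¹) := by rw [h₃.inv_left.eq]
            _ = b⁻¹ := by group
        rw [hbc']
        exact heb.inv_right
      obtain ⟨h2, h3⟩ := (s0436 ha hc hac h₂).1 h1
      exact ⟨h2, heb, h3⟩
    exfalso
    have eae : e * a * e = a * e * a := (hbr e he a ha).resolve_left hea
    have ebe : e * b * e = b * e * b := (hbr e he b hb).resolve_left heb
    have aa := hsq a ha
    have bb := hsq b hb
    have cc := hsq c hc
    have ee := hsq e he
    have hab' : a * b = b * a := h₁.eq
    have hp2 : (e * a * b) * (e * a * b) = a * (e * (a * b) * e) * a := by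
      calc (e * a * b) * (e * a * b) = e * a * (b * e * a * b) := by group
        _ = e * a * (b * e * (a * b)) := by group
        _ = e * a * (b * e * (b * a)) := by rw [hab']
        _ = e * a * (b * e * b) * a := by group
        _ = e * a * (e * b * e) * a := by rw [ebe]
        _ = (e * a * e) * b * (e * a) := by group
        _ = (a * e * a) * b * (e * a) := by rw [eae]
        _ = a * (e * (a * b) * e) * a := by group
    have hp4 : (e * a * b) * (e * a * b) * ((e * a * b) * (e * a * b)) = 1 := by
      rw [hp2]
      have hx : (a * b) * (a * b) = 1 := by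
        calc a * b * (a * b) = a * (b * a) * b := by group
          _ = a * (a * b) * b := by rw [hab']
          _ = (a * a) * (b * b) := by group
          _ = 1 := by rw [aa, bb, one_mul]
      generalize a * b = X at hx
      calc a * (e * X * e) * a * (a * (e * X * e) * a)
          = a * (e * X * e) * (a * a) * (e * X * e) * a := by group
        _ = a * e * X * (e * e) * X * e * a := by rw [aa]; group
        _ = a * e * (X * X) * e * a := by rw [ee]; group
        _ = a * (e * e) * a := by rw [hx]; group
        _ = 1 := by rw [ee, mul_one, aa]
    have hzc : c = (a * b) * (a * b * c) := by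
      have hx : (a * b) * (a * b) = 1 := by
        calc a * b * (a * b) = a * (b * a) * b := by group
          _ = a * (a * b) * b := by rw [hab']
          _ = (a * a) * (b * b) := by group
          _ = 1 := by rw [aa, bb, one_mul]
      calc c = ((a * b) * (a * b)) * c := by rw [hx, one_mul]
        _ = _ := by group
    -- `z = a b c` commutes with `a, b, e`
    have hza : Commute (a * b * c) a := ((Commute.refl a).mul_left h₁.symm).mul_left h₂.symm
    have hzb : Commute (a * b * c) b := (h₁.mul_left (Commute.refl b)).mul_left h₃.symm
    have hze : Commute (a * b * c) e := hz.symm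
    have hzp : Commute (a * b * c) (e * a * b) := (hze.mul_right hza).mul_right hzb
    have hz2 : (a * b * c) * (a * b * c) = 1 := by
      have hx : (a * b) * (a * b) = 1 := by
        calc a * b * (a * b) = a * (b * a) * b := by group
          _ = a * (a * b) * b := by rw [hab']
          _ = (a * a) * (b * b) := by group
          _ = 1 := by rw [aa, bb, one_mul]
      have hcab : Commute c (a * b) := (h₂.symm.mul_right h₃.symm)
      calc a * b * c * (a * b * c) = (a * b) * (c * (a * b)) * c := by group
        _ = (a * b) * ((a * b) * c) * c := by rw [hcab.eq]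
        _ = ((a * b) * (a * b)) * (c * c) := by group
        _ = 1 := by rw [hx, cc, one_mul]
    have hec2 : (e * c) * (e * c) = (e * a * b) * (e * a * b) := by
      have h1 : e * c = (e * a * b) * (a * b * c) := by
        calc e * c = e * ((a * b) * (a * b * c)) := by rw [← hzc]
          _ = _ := by group
      rw [h1]
      calc (e * a * b) * (a * b * c) * ((e * a * b) * (a * b * c))
          = (e * a * b) * ((a * b * c) * (e * a * b)) * (a * b * c) := by group
        _ = (e * a * b) * ((e * a * b) * (a * b * c)) * (a * b * c) := by rw [hzp.eq]
        _ = (e * a * b) * (e * a * b) * ((a * b * c) * (a * b * c)) := by group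
        _ = _ := by rw [hz2, mul_one]
    have hec4 : (e * c) * (e * c) * ((e * c) * (e * c)) = 1 := by rw [hec2]; exact hp4
    have ece : e * c * e = c * e * c := (hbr e he c hc).resolve_left hec
    have hec3 : (e * c) * (e * c) * (e * c) = 1 := by
      calc (e * c) * (e * c) * (e * c) = (e * c * e) * (c * e * c) := by group
        _ = (e * c * e) * (e * c * e) := by rw [ece]
        _ = e * c * (e * e) * c * e := by group
        _ = e * (c * c) * e := by rw [ee]; group
        _ = 1 := by rw [cc, mul_one, ee]
    have hec1 : e * c = 1 := by
      calc e * c = ((e * c) * (e * c) * (e * c)) * (e * c) := by rw [hec3, one_mul]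
        _ = (e * c) * (e * c) * ((e * c) * (e * c)) := by group
        _ = 1 := hec4
    apply hec
    have : e = c := by
      have h1 : e = c⁻¹ := eq_inv_of_mul_eq_one_left hec1
      rw [h1, inv_eq_of_mul_eq_one_left cc]
    rw [this]
  · rintro ⟨h2, h3, h4⟩
    exact (h2.mul_right h3).mul_right h4

end Cfsg.Agent.S0437
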