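import Cfsg.Statements.S0438
import Mathlib
-- import your own Cfsg.Agent.* helpers here

set_option autoImplicit false
open Cfsg

namespace Cfsg.Agent.S0438

/-- Let E be a set of 3-transpositions closed under conjugation, and x an involutory automorphism of the group mapping E to itself. If some a in E fails to commute with its image x a, then x fixes an element of E. -/
theorem result {G : Type*} [Group G] {E : Set G} (hE : Cfsg.IsThreeTranspositionSet E) (hconj : ∀ g : G, ∀ d ∈ E, g * d * g⁻¹ ∈ E) (x : G ≃* G) (hx : ∀ g : G, x (x g) = g) (hxE : ∀ d ∈ E, x d ∈ E) {a : G} (ha : a ∈ E) (h : ¬ Commute a (x a)) : ∃ d ∈ E, x d = d := by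
  have hb : x a ∈ E := hxE a ha
  have ha2 : a ^ 2 = 1 := by
    have := hE.1 a ha
    rw [← this]; exact pow_orderOf_eq_one a
  have hb2 : (x a) ^ 2 = 1 := by
    have := hE.1 _ hb
    rw [← this]; exact pow_orderOf_eq_one _
  have hab : (a * x a) ^ 3 = 1 := by
    rcases hE.2 a ha (x a) hb with h2 | h3
    · exfalso
      apply h
      have hai : a⁻¹ = a := inv_eq_of_mul_eq_one_left (by rw [← pow_two]; exact ha2)
      have hbi : (x a)⁻¹ = x a := inv_eq_of_mul_eq_one_left (by rw [← pow_two]; exact hb2)
      have h4 : a * x a * (a * x a) = 1 := by rw [← pow_two]; exact h2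
      show a * x a = x a * a
      calc a * x a = (x a)⁻¹ * a⁻¹ := by
            exact eq_inv_of_mul_eq_one_left h4 |>.trans (by group)
        _ = x a * a := by rw [hbi, hai]
    · exact h3
  have hai : a⁻¹ = a := inv_eq_of_mul_eq_one_left (by rw [← pow_two]; exact ha2)
  have hbi : (x a)⁻¹ = x a := inv_eq_of_mul_eq_one_left (by rw [← pow_two]; exact hb2)
  refine ⟨a * x a * a, ?_, ?_⟩
  · have := hconj a (x a) hb
    rwa [hai] at this
  · have hxx : x (x a) = a := hx a
    simp only [map_mul, hxx]
    -- goal: x a * a * x a = a * x a * a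
    have h5 : a * x a * (a * x a) * (a * x a) = 1 := by
      have : (a * x a) ^ 3 = a * x a * (a * x a) * (a * x a) := by
        simp [pow_succ]
      rw [← this]; exact hab
    have h6 : a * x a * a = (x a * a * x a)⁻¹ := by
      apply eq_inv_of_mul_eq_one_left
      calc a * x a * a * (x a * a * x a) = a * x a * (a * x a) * (a * x a) := by group
        _ = 1 := h5
    rw [h6]
    simp only [mul_inv_rev, hai, hbi]
    group

end Cfsg.Agent.S0438
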