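import Cfsg.Statements.S0447
import Mathlib
import Cfsg.Agent.Lib.Schur.AltInv
import Cfsg.Agent.Lib.Schur.Alt2Eight
-- import your own Cfsg.Agent.* helpers here

set_option autoImplicit false
open Cfsg

namespace Cfsg.Agent.S0447


/-- Involutions in double covers of alternating groups: for n ≤ 7, a finite non-split double cover of the alternating group of degree n has exactly one element of order 2 (the central one); for degree 8 there is a non-split double cover with two distinct involutions. -/
theorem result : (∀ (n : ℕ) (H : Type) (_ : Group H) (_ : Finite H), n ≤ 7 → Cfsg.IsNonsplitDoubleCover H (alternatingGroup (Fin n)) → ∀ x y : H, orderOf x = 2 → orderOf y = 2 → x = y) ∧ ∃ (H : Type) (_ : Group H) (_ : Finite H), Cfsg.IsNonsplitDoubleCover H (alternatingGroup (Fin 8)) ∧ ∃ x y : H, x ≠ y ∧ orderOf x = 2 ∧ orderOf y = 2 := by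
  refine ⟨?_, Cfsg.Agent.Lib.Schur.Alt2Eight.exists_double⟩
  intro n H _ _ hn hD x y hx hy
  by_cases h4 : 4 ≤ n
  · have hxz := Cfsg.Agent.Lib.Schur.AltInv.mem_center_of_orderOf h4 hn hD hx
    have hyz := Cfsg.Agent.Lib.Schur.AltInv.mem_center_of_orderOf h4 hn hD hy
    have hne : ∀ z : H, orderOf z = 2 → z ≠ 1 := by
      rintro z hz rfl
      rw [orderOf_one] at hz
      omega
    obtain ⟨b, -, hb⟩ := (Nat.card_eq_two_iff' (1 : Subgroup.center H)).mp hD.1
    have e1 := hb ⟨x, hxz⟩ (fun h => hne x hx (congrArg Subtype.val h))
    have e2 := hb ⟨y, hyz⟩ (fun h => hne y hy (congrArg Subtype.val h))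
    exact congrArg Subtype.val (e1.trans e2.symm)
  · exfalso
    obtain ⟨-, ⟨e⟩, hnc⟩ := hD
    have hcyc : IsCyclic (alternatingGroup (Fin n)) := by
      have hn3 : n ≤ 3 := by omega
      interval_cases n
      · infer_instance
      · infer_instance
      · have : Subsingleton (alternatingGroup (Fin 2)) := by
          constructor
          decide
        infer_instance
      · have hc : Nat.card (alternatingGroup (Fin 3)) = 3 := by
          rw [Nat.card_eq_fintype_card]
          decide
        have : Fact (Nat.Prime (Nat.card (alternatingGroup (Fin 3)))) := ⟨by rw [hc]; exact Nat.prime_three⟩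
        exact isCyclic_of_prime_card rfl
    let f : H →* alternatingGroup (Fin n) := e.toMonoidHom.comp (QuotientGroup.mk' _)
    have hf : f.ker ≤ Subgroup.center H := by
      rw [MonoidHom.ker_comp_of_injective _ _ e.injective, QuotientGroup.ker_mk']
    have hcomm := commutative_of_cyclic_center_quotient f hf
    have htop : Subgroup.center H = ⊤ := by
      rw [eq_top_iff]
      intro g _
      rw [Subgroup.mem_center_iff]
      intro h
      exact hcomm h g
    apply hnc ⊥
    rw [htop]
    exact Subgroup.isComplement'_top_bot


end Cfsg.Agent.S0447
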