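-- Statement S0472: Fi23 as a 3-transposition group, from the presented group and the double cosets of its
-- largest subgroup.
import Cfsg.Statements.S0472
import Cfsg.Agent.S1688
import Cfsg.Agent.Lib.Compute.TransClass

set_option autoImplicit false
open Cfsg

namespace Cfsg.Agent.S0472

open Cfsg.Agent.Lib.Compute.ToddCoxeterCore Cfsg.Agent.Lib.Compute.ToddCoxeterPresented
  Cfsg.Agent.Lib.Compute.TCFast Cfsg.Agent.Lib.Compute.TCChain Cfsg.Agent.Lib.Compute.TransClass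
open Cfsg.Agent.Lib.Compute.TC
open Cfsg.Agent.S1688 (G H R23 zG zE)

/-- the long double coset representative, as a word -/
def r2F : FreeGroup Cfsg.Spor.Fi23.Gen :=
  Cfsg.Spor.Fi23.j * Cfsg.Spor.Fi23.g * Cfsg.Spor.Fi23.f * Cfsg.Spor.Fi23.e * Cfsg.Spor.Fi23.d * Cfsg.Spor.Fi23.h *
    Cfsg.Spor.Fi23.c * Cfsg.Spor.Fi23.d * Cfsg.Spor.Fi23.e * Cfsg.Spor.Fi23.f * Cfsg.Spor.Fi23.g * Cfsg.Spor.Fi23.j

/-- the double coset representatives, as words -/
def rF : ℕ → FreeGroup Cfsg.Spor.Fi23.Gen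
  | 0 => 1
  | 1 => Cfsg.Spor.Fi23.j
  | _ => r2F

/-- the long double coset representative, as an expression -/
def r2E : PE :=
  .mul (.mul (.mul (.mul (.mul (.mul (.mul (.mul (.mul (.mul (.mul (.lt 7) (.lt 6)) (.lt 5)) (.lt 4)) (.lt 3)) (.lt 8))
    (.lt 2)) (.lt 3)) (.lt 4)) (.lt 5)) (.lt 6)) (.lt 7)

theorem r2E_el : r2E.el (elG Fi23a.D R23) = PresentedGroup.mk R23 r2F := by
  obtain ⟨h0, h1, h2, h3, h4, h5, h6, h7, h8, h9⟩ := Cfsg.Agent.S1688.elG_letters
  simp only [r2E, PE.el, h2, h3, h4, h5, h6, h7, h8]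
  simp only [r2F, map_mul]
  rfl

/-- the double coset representatives, as expressions -/
def rE : ℕ → PE
  | 0 => .one
  | 1 => .lt 7
  | _ => r2E

theorem rE_el (i : ℕ) : (rE i).el (elG Fi23a.D R23) = PresentedGroup.mk R23 (rF i) := by
  obtain ⟨h0, h1, h2, h3, h4, h5, h6, h7, h8, h9⟩ := Cfsg.Agent.S1688.elG_letters
  match i with
  | 0 => simp [rE, rF, PE.el]
  | 1 => simp only [rE, rF, PE.el, h7]; rfl
  | n + 2 => exact r2E_el

/-- the conjugate of the central involution, as an expression -/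
def cE (i : ℕ) : PE := .mul (.mul (rE i) zE) (.inv (rE i))

theorem cE_el (i : ℕ) : (cE i).el (elG Fi23a.D R23) =
    PresentedGroup.mk R23 (rF i) * zG * (PresentedGroup.mk R23 (rF i))⁻¹ := by
  simp only [cE, PE.el, rE_el, Cfsg.Agent.S1688.zE_el]

/-- the product of the involution with its conjugate, as an expression -/
def pE (i : ℕ) : PE := .mul zE (cE i)

theorem pE_el (i : ℕ) : (pE i).el (elG Fi23a.D R23) =
    zG * (PresentedGroup.mk R23 (rF i) * zG * (PresentedGroup.mk R23 (rF i))⁻¹) := by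
  simp only [pE, PE.el, cE_el, Cfsg.Agent.S1688.zE_el]

theorem ord1 : eqOn (ev0 Fi23a.cfg) ((pE 1).pw 3) .one (0 :: Fi23C.ls.map (·.b)) = true := by
  decide +kernel

theorem ord2 : eqOn (ev0 Fi23a.cfg) ((pE 2).pw 2) .one (0 :: Fi23C.ls.map (·.b)) = true := by
  decide +kernel

theorem ord0 : eqOn (ev0 Fi23a.cfg) ((pE 0).pw 2) .one (0 :: Fi23C.ls.map (·.b)) = true := by
  decide +kernel

theorem hord (i : ℕ) (hi : i < 3) :
    (zG * (PresentedGroup.mk R23 (rF i) * zG * (PresentedGroup.mk R23 (rF i))⁻¹)) ^ 2 = 1 ∨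
    (zG * (PresentedGroup.mk R23 (rF i) * zG * (PresentedGroup.mk R23 (rF i))⁻¹)) ^ 3 = 1 := by
  have key : ∀ i k, eqOn (ev0 Fi23a.cfg) ((pE i).pw k) .one (0 :: Fi23C.ls.map (·.b)) = true →
      (zG * (PresentedGroup.mk R23 (rF i) * zG * (PresentedGroup.mk R23 (rF i))⁻¹)) ^ k = 1 := by
    intro i k h
    have h1 := Cfsg.Agent.S1688.base_eq _ _ h
    rw [PE.el_pw, pE_el] at h1
    exact h1
  interval_cases i
  · exact Or.inl (key 0 2 ord0)
  · exact Or.inr (key 1 3 ord1)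
  · exact Or.inl (key 2 2 ord2)

theorem mv1 : PE.ev (ev0 Fi23a.cfg) (cE 1) true 1 ≠ PE.ev (ev0 Fi23a.cfg) zE true 1 := by
  decide +kernel

theorem mv2 : PE.ev (ev0 Fi23a.cfg) (cE 2) true 1 ≠ PE.ev (ev0 Fi23a.cfg) zE true 1 := by
  decide +kernel

theorem hne (i : ℕ) (hi : i < 3) (hi0 : i ≠ 0) :
    PresentedGroup.mk R23 (rF i) * zG * (PresentedGroup.mk R23 (rF i))⁻¹ ≠ zG := by
  have hev := ev0_ok Fi23a.hR Fi23a.small Fi23a.big Fi23a.hgens
  have key : ∀ i x, x < Fi23a.cfg.N → PE.ev (ev0 Fi23a.cfg) (cE i) true x ≠ PE.ev (ev0 Fi23a.cfg) zE true x →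
      PresentedGroup.mk R23 (rF i) * zG * (PresentedGroup.mk R23 (rF i))⁻¹ ≠ zG := by
    intro i x hx h he
    apply h
    have h2 := (PE.ev_spec hev zE ⟨x, hx⟩).1
    have h3 := (PE.ev_spec hev (cE i) ⟨x, hx⟩).1
    rw [← PE.el_map, Cfsg.Agent.S1688.zE_el] at h2
    rw [← PE.el_map, cE_el, he] at h3
    simp only at h2 h3
    rw [h2, h3]
  interval_cases i
  · exact absurd rfl hi0
  · exact key 1 1 (by decide +kernel) mv1
  · exact key 2 1 (by decide +kernel) mv2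

theorem repsW : ∀ i, i < 3 → Fi23a.cfg.walkEnd (toLetters Fi23a.D.lets (rF i)) 0 = Fi23a.oc.rep i := by
  decide +kernel

theorem oidChk : allFrom (fun j => Nat.blt (Fi23a.oc.oid j) (nat_lit 3)) (nat_lit 31671) (nat_lit 0) = true := by
  decide +kernel

theorem oidLt (j : ℕ) (hj : j < Fi23a.cfg.N) : Fi23a.oc.oid j < 3 :=
  blt_iff.1 (allFrom_all oidChk rfl j (Nat.zero_le j) hj)

theorem hdc (g : G) : ∃ i, i < 3 ∧ ∃ h ∈ H, ∃ h' ∈ H, g = h * PresentedGroup.mk R23 (rF i) * h' := by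
  obtain ⟨e, he, he1⟩ := exists_equiv Fi23a.hR Fi23a.small Fi23a.big Fi23a.hgens
  refine exists_double_coset Fi23a.small Fi23a.oc
    (fun j hj => allFrom_all Fi23a.orbT rfl j (Nat.zero_le j) hj) e he rF oidLt ?_ g
  intro i hi
  refine ⟨(Fi23a.repsOK i hi).1, ?_⟩
  rw [he, he1]
  exact repsW i hi

theorem H_cent : Subgroup.centralizer ({zG} : Set G) = H :=
  centralizer_eq H zG Cfsg.Agent.S1688.zG_comm 3 (fun i => PresentedGroup.mk R23 (rF i)) (map_one _) hdc hne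

/-- The Fischer group of order 4089470473293004800 exists as a 3-transposition group: a simple group of that order generated by a conjugacy class of 31671 3-transpositions, the centraliser of each being a non-split double cover of a simple group of order 64561751654400. -/
theorem result : ∃ (G : Type) (_ : Group G) (_ : Finite G), Cfsg.IsFi23 G ∧ ∃ D : Set G, Cfsg.IsThreeTranspositionClass D ∧ Nat.card D = 31671 ∧ ∀ d ∈ D, ∃ (K : Type) (_ : Group K), Cfsg.IsFi22 K ∧ Cfsg.IsNonsplitDoubleCover (Subgroup.centralizer ({d} : Set G)) K := by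
  haveI : IsSimpleGroup G := Cfsg.Agent.S1697.result.1
  obtain ⟨h1, h2⟩ := class_of_double_cosets H zG Cfsg.Agent.S1688.zG_sq Cfsg.Agent.S1688.zG_ne
    Cfsg.Agent.S1688.zG_comm 3 (fun i => PresentedGroup.mk R23 (rF i)) (map_one _) hdc hne hord
  refine ⟨G, inferInstance, Cfsg.Agent.S1697.finG, Cfsg.Agent.S1697.result, conjugatesOf zG, h1, ?_, ?_⟩
  · rw [h2]
    exact Fi23a.index
  · intro d hd
    obtain ⟨g, rfl⟩ := isConj_iff.1 hd
    refine ⟨Cfsg.Spor.Fi22, inferInstance, Cfsg.Agent.S1696.result, ?_⟩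
    have hb : Cfsg.IsNonsplitDoubleCover H Cfsg.Spor.Fi22 := by
      have h3 := Cfsg.Agent.S1688.result
      rw [Fi23a.hset] at h3
      exact h3
    exact nonsplit_congr ((MulEquiv.subgroupCongr H_cent.symm).trans (centralizerConj zG g)) hb

end Cfsg.Agent.S0472
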