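import Cfsg.Statements.S0502
import Mathlib

set_option autoImplicit false
open Cfsg

namespace Cfsg.Agent.S0502

variable {P : Type*} [Group P]

/-- The four-group generated by two commuting involutions. -/
def four (a b : P) (ha : a ^ 2 = 1) (hb : b ^ 2 = 1) (hab : a * b = b * a) : Subgroup P where
  carrier := {x | x = 1 ∨ x = a ∨ x = b ∨ x = a * b}
  one_mem' := Or.inl rfl
  mul_mem' := by
    have ha' : a * a = 1 := by rwa [pow_two] at ha
    have hb' : b * b = 1 := by rwa [pow_two] at hb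
    have h1 : a * (a * b) = b := by rw [← mul_assoc, ha', one_mul]
    have h2 : b * (a * b) = a := by rw [hab, ← mul_assoc, hb', one_mul]
    have h3 : a * b * a = b := by rw [hab, mul_assoc, ha', mul_one]
    have h4 : a * b * b = a := by rw [mul_assoc, hb', mul_one]
    have h5 : a * b * (a * b) = 1 := by
      rw [← mul_assoc, h3, hb']
    rintro x y (rfl | rfl | rfl | rfl) (rfl | rfl | rfl | rfl) <;>
      simp [ha', hb', h1, h2, h3, h4, h5, ← hab]
  inv_mem' := by
    have ha' : a⁻¹ = a := by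
      rw [inv_eq_iff_mul_eq_one, ← pow_two, ha]
    have hb' : b⁻¹ = b := by
      rw [inv_eq_iff_mul_eq_one, ← pow_two, hb]
    rintro x (rfl | rfl | rfl | rfl)
    · simp
    · simp [ha']
    · simp [hb']
    · right; right; right
      rw [mul_inv_rev, ha', hb', hab]

theorem mem_four {a b : P} {ha : a ^ 2 = 1} {hb : b ^ 2 = 1} {hab : a * b = b * a} {x : P} :
    x ∈ four a b ha hb hab ↔ x = 1 ∨ x = a ∨ x = b ∨ x = a * b := Iff.rfl

theorem isKleinFour_four {a b : P} (ha : a ^ 2 = 1) (hb : b ^ 2 = 1) (hab : a * b = b * a)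
    (ha1 : a ≠ 1) (hb1 : b ≠ 1) (hne : a ≠ b) : IsKleinFour (four a b ha hb hab) := by
  classical
  have hcard : Nat.card (four a b ha hb hab) = 4 := by
    have h1 : ((four a b ha hb hab : Subgroup P) : Set P) =
        (({1, a, b, a * b} : Finset P) : Set P) := by
      ext x
      simp [mem_four]
    have h2 : Nat.card (four a b ha hb hab) = Nat.card ((({1, a, b, a * b} : Finset P) : Set P)) := by
      rw [← h1]; rfl
    rw [h2, Nat.card_coe_set_eq, Set.ncard_coe_finset]
    have h3 : a * b ≠ 1 := by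
      intro h
      apply hne
      have hb' : b⁻¹ = b := by rw [inv_eq_iff_mul_eq_one, ← pow_two, hb]
      rw [mul_eq_one_iff_eq_inv] at h
      rw [h, hb']
    have h4 : a * b ≠ a := by simpa using hb1
    have h5 : a * b ≠ b := by simpa using ha1
    rw [Finset.card_insert_of_notMem, Finset.card_insert_of_notMem, Finset.card_insert_of_notMem,
      Finset.card_singleton]
    · simp [h5.symm]
    · simp [hne, h4.symm]
    · simp [ha1.symm, hb1.symm, h3.symm]
  haveI : Nat.Prime 2 := Nat.prime_two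
  have hnt : Nontrivial (four a b ha hb hab) := by
    have h1 : 1 < Nat.card (four a b ha hb hab) := by rw [hcard]; norm_num
    haveI : Finite (four a b ha hb hab) := Nat.finite_of_card_ne_zero (by rw [hcard]; norm_num)
    exact Finite.one_lt_card_iff_nontrivial.1 h1
  refine ⟨hcard, ?_⟩
  rw [Monoid.exponent_eq_prime_iff Nat.prime_two]
  rintro ⟨x, hx⟩ hx1
  have hx1' : x ≠ 1 := fun h => hx1 (Subtype.ext h)
  have hx2 : x ^ 2 = 1 := by
    rcases hx with rfl | rfl | rfl | rfl
    · simp
    · exact ha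
    · exact hb
    · rw [pow_two]
      calc a * b * (a * b) = (a * a) * (b * b) := by
            rw [mul_assoc, ← mul_assoc b, ← hab]; group
        _ = 1 := by rw [← pow_two, ← pow_two, ha, hb, one_mul]
  have : orderOf (⟨x, hx⟩ : four a b ha hb hab) = orderOf x := Subgroup.orderOf_mk x hx
  rw [this]
  exact orderOf_eq_prime hx2 hx1'

/-- Generators of an abstract Klein four subgroup. -/
theorem exists_gens (U : Subgroup P) (hU : IsKleinFour U) :
    ∃ u v : P, ∃ hu : u ^ 2 = 1, ∃ hv : v ^ 2 = 1, ∃ huv : u * v = v * u,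
      u ≠ 1 ∧ v ≠ 1 ∧ u ≠ v ∧ U = four u v hu hv huv := by
  classical
  have hfin : Finite U := IsKleinFour.instFinite
  have : Fintype U := Fintype.ofFinite _
  have hc : Fintype.card U = 4 := IsKleinFour.card_four'
  obtain ⟨a, b, hab, hne⟩ : ∃ a b : U, a ≠ 1 ∧ b ≠ 1 ∧ a ≠ b := by
    obtain ⟨a, b, c, h1, h2, h3⟩ := Fintype.two_lt_card_iff.1 (by rw [hc]; norm_num : 2 < Fintype.card U)
    by_cases ha : a = 1
    · subst ha
      exact ⟨b, c, h1.symm, h2.symm, h3⟩
    · by_cases hb : b = 1
      · subst hb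
        exact ⟨a, c, ha, h3.symm, h2⟩
      · exact ⟨a, b, ha, hb, h1⟩
  obtain ⟨hb1, hab'⟩ := hne
  have hsq : ∀ x : U, (x : P) ^ 2 = 1 := by
    intro x
    have := IsKleinFour.mul_self x
    rw [pow_two]
    exact congrArg Subtype.val this
  have hcomm : (a : P) * b = b * a := by
    have := (IsKleinFour.isMulCommutative (G := U)).is_comm.comm a b
    exact congrArg Subtype.val this
  refine ⟨a, b, hsq a, hsq b, hcomm, fun h => hab (Subtype.ext h), fun h => hb1 (Subtype.ext h),
    fun h => hab' (Subtype.ext h), ?_⟩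
  apply le_antisymm
  · intro x hx
    rw [mem_four]
    by_cases h1 : (⟨x, hx⟩ : U) = 1
    · left; exact congrArg Subtype.val h1
    · by_cases h2 : (⟨x, hx⟩ : U) = a
      · right; left; exact congrArg Subtype.val h2
      · by_cases h3 : (⟨x, hx⟩ : U) = b
        · right; right; left; exact congrArg Subtype.val h3
        · right; right; right
          have := IsKleinFour.eq_mul_of_ne_all hab hb1 hab' h1 h2 h3
          exact congrArg Subtype.val this
  · intro x hx
    rcases hx with rfl | rfl | rfl | rfl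
    · exact U.one_mem
    · exact a.2
    · exact b.2
    · exact U.mul_mem a.2 b.2

/-- Key count: an elementary abelian group normalized by an involution has large fixed points. -/
theorem card_le_fixed_sq [Finite P] (A : Subgroup P) (hAc : ∀ x ∈ A, ∀ y ∈ A, x * y = y * x)
    (hA2 : ∀ x ∈ A, x ^ 2 = 1) (u : P) (hu : u ^ 2 = 1) (hAu : ∀ x ∈ A, u * x * u⁻¹ ∈ A) :
    Nat.card A ≤ Nat.card (A ⊓ Subgroup.centralizer ({u} : Set P) : Subgroup P) ^ 2 := by
  have hu' : u⁻¹ = u := by rw [inv_eq_iff_mul_eq_one, ← pow_two, hu]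
  let φ : A →* A :=
    { toFun := fun x => ⟨x.1 * (u * x.1 * u⁻¹), A.mul_mem x.2 (hAu _ x.2)⟩
      map_one' := by ext; simp
      map_mul' := fun x y => by
        ext
        simp only [Subgroup.coe_mul]
        have h1 := hAc (u * x.1 * u⁻¹) (hAu _ x.2) y.1 y.2
        calc x.1 * y.1 * (u * (x.1 * y.1) * u⁻¹)
            = x.1 * (y.1 * (u * x.1 * u⁻¹)) * (u * y.1 * u⁻¹) := by group
          _ = x.1 * ((u * x.1 * u⁻¹) * y.1) * (u * y.1 * u⁻¹) := by rw [h1]
          _ = x.1 * (u * x.1 * u⁻¹) * (y.1 * (u * y.1 * u⁻¹)) := by group }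
  have hφ : ∀ x : A, (φ x : P) = x.1 * (u * x.1 * u⁻¹) := fun _ => rfl
  have hmemc : ∀ x : P, x ∈ Subgroup.centralizer ({u} : Set P) ↔ u * x = x * u := by
    intro x
    rw [Subgroup.mem_centralizer_singleton_iff]
    exact eq_comm
  have h1 := Subgroup.card_mul_index φ.ker
  rw [Subgroup.index_ker] at h1
  have h2 : Nat.card φ.ker ≤ Nat.card (A ⊓ Subgroup.centralizer ({u} : Set P) : Subgroup P) := by
    refine Nat.card_le_card_of_injective (fun x => ⟨x.1.1, Subgroup.mem_inf.2 ⟨x.1.2, ?_⟩⟩) ?_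
    · rw [hmemc]
      have hx := x.2
      rw [MonoidHom.mem_ker] at hx
      have h3 := congrArg Subtype.val hx
      rw [hφ] at h3
      have h4 : (x.1.1 : P) * x.1.1 = 1 := by
        have := hA2 _ x.1.2
        rwa [pow_two] at this
      have h5 : u * (x.1.1 : P) * u⁻¹ = x.1.1 := by
        have h6 : (x.1.1 : P)⁻¹ = x.1.1 := by
          rw [inv_eq_iff_mul_eq_one, h4]
        have h7 : (x.1.1 : P) * (u * (x.1.1 : P) * u⁻¹) = 1 := h3
        exact (mul_eq_one_iff_eq_inv'.1 h7).trans h6
      rw [mul_inv_eq_iff_eq_mul] at h5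
      exact h5
    · intro x y hxy
      apply Subtype.ext
      apply Subtype.ext
      exact congrArg (fun z : (A ⊓ Subgroup.centralizer ({u} : Set P) : Subgroup P) => (z : P)) hxy
  have h3 : Nat.card φ.range ≤ Nat.card (A ⊓ Subgroup.centralizer ({u} : Set P) : Subgroup P) := by
    refine Nat.card_le_card_of_injective (fun x => ⟨x.1.1, Subgroup.mem_inf.2 ⟨x.1.2, ?_⟩⟩) ?_
    · rw [hmemc]
      obtain ⟨y, hy⟩ := x.2
      rw [← hy, hφ]
      have h4 := hAc _ y.2 _ (hAu _ y.2)
      calc u * (y.1 * (u * y.1 * u⁻¹)) = (u * y.1 * u⁻¹) * y.1 * u := by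
            rw [hu']; simp only [mul_assoc]
        _ = y.1 * (u * y.1 * u⁻¹) * u := by rw [h4]
    · intro x y hxy
      apply Subtype.ext
      apply Subtype.ext
      exact congrArg (fun z : (A ⊓ Subgroup.centralizer ({u} : Set P) : Subgroup P) => (z : P)) hxy
  rw [← h1, pow_two]
  exact Nat.mul_le_mul h2 h3

/-- The commuting relation. -/
abbrev R (A B : Subgroup P) : Prop :=
  IsKleinFour A ∧ IsKleinFour B ∧ ∀ a ∈ A, ∀ b ∈ B, a * b = b * a

theorem R_symm : ∀ A B : Subgroup P, R A B → R B A := fun _ _ h =>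
  ⟨h.2.1, h.1, fun b hb a ha => (h.2.2 a ha b hb).symm⟩

theorem result_aux {P : Type*} [Group P] [Finite P] (hP : IsPGroup 2 P)
    (E : Subgroup P) [E.Normal] (hE : IsMulCommutative E) (hE2 : ∀ e ∈ E, e ^ 2 = 1) (hE8 : 8 ≤ Nat.card E)
    (U : Subgroup P) (hU : IsKleinFour U) :
    ∃ F : Subgroup P, F ≤ E ∧ IsKleinFour F ∧ Relation.ReflTransGen R U F := by
  classical
  have hEc : ∀ x ∈ E, ∀ y ∈ E, x * y = y * x := fun x hx y hy =>
    congrArg Subtype.val (hE.is_comm.comm ⟨x, hx⟩ ⟨y, hy⟩)
  obtain ⟨u, v, hu, hv, huv, hu1, hv1, hne, rfl⟩ := exists_gens U hU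
  set U := four u v hu hv huv with hUdef
  have hfix : ∀ w : P, w ^ 2 = 1 → 4 ≤ Nat.card (E ⊓ Subgroup.centralizer ({w} : Set P) : Subgroup P) := by
    intro w hw
    have h1 := card_le_fixed_sq E hEc hE2 w hw (fun x hx => ‹E.Normal›.conj_mem x hx w)
    have h2 : IsPGroup 2 (E ⊓ Subgroup.centralizer ({w} : Set P) : Subgroup P) := hP.to_subgroup _
    obtain ⟨k, hk⟩ := IsPGroup.iff_card.1 h2
    rw [hk] at h1 ⊢
    have h3 : 8 ≤ (2 ^ k) ^ 2 := hE8.trans h1
    by_contra h4
    have h5 : k < 2 := by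
      by_contra h6
      apply h4
      calc 4 = 2 ^ 2 := by norm_num
        _ ≤ 2 ^ k := Nat.pow_le_pow_right (by norm_num) (by omega)
    interval_cases k <;> omega
  -- a nontrivial element of `E` commuting with `U`
  obtain ⟨e, heE, he1, heu, hev⟩ : ∃ e ∈ E, e ≠ 1 ∧ u * e = e * u ∧ v * e = e * v := by
    set C : Subgroup P := E ⊓ Subgroup.centralizer ({u} : Set P) with hC
    have h1 := card_le_fixed_sq C (fun x hx y hy => hEc x hx.1 y hy.1) (fun x hx => hE2 x hx.1) v hv
      (by
        intro x hx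
        refine Subgroup.mem_inf.2 ⟨‹E.Normal›.conj_mem x hx.1 v, ?_⟩
        have hxu := (Subgroup.mem_inf.1 hx).2
        rw [Subgroup.mem_centralizer_singleton_iff] at hxu ⊢
        have hv' : v⁻¹ = v := by rw [inv_eq_iff_mul_eq_one, ← pow_two, hv]
        rw [hv']
        calc v * x * v * u = v * x * (v * u) := by group
          _ = v * x * (u * v) := by rw [huv]
          _ = v * (x * u) * v := by group
          _ = v * (u * x) * v := by rw [hxu]
          _ = (v * u) * x * v := by group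
          _ = (u * v) * x * v := by rw [huv]
          _ = u * (v * x * v) := by group)
    have h2 : 2 ≤ Nat.card (C ⊓ Subgroup.centralizer ({v} : Set P) : Subgroup P) := by
      by_contra h3
      have h4 : Nat.card (C ⊓ Subgroup.centralizer ({v} : Set P) : Subgroup P) ≤ 1 := by omega
      have h5 : Nat.card C ≤ 1 := by
        refine h1.trans ?_
        calc _ ≤ 1 ^ 2 := Nat.pow_le_pow_left h4 2
          _ = 1 := by norm_num
      have h6 := hfix u hu
      rw [← hC] at h6
      omega
    have h3 : Nontrivial (C ⊓ Subgroup.centralizer ({v} : Set P) : Subgroup P) :=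
      Finite.one_lt_card_iff_nontrivial.1 h2
    obtain ⟨⟨e, he⟩, he1⟩ := exists_ne (1 : (C ⊓ Subgroup.centralizer ({v} : Set P) : Subgroup P))
    refine ⟨e, he.1.1, fun h => he1 (Subtype.ext h), ?_, ?_⟩
    · have := (Subgroup.mem_inf.1 (Subgroup.mem_inf.1 he).1).2
      rw [Subgroup.mem_centralizer_singleton_iff] at this
      exact this.symm
    · have := (Subgroup.mem_inf.1 he).2
      rw [Subgroup.mem_centralizer_singleton_iff] at this
      exact this.symm
  have heU : ∀ x ∈ U, x * e = e * x := by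
    intro x hx
    rcases hx with rfl | rfl | rfl | rfl
    · simp
    · exact heu
    · exact hev
    · rw [mul_assoc, hev, ← mul_assoc, heu, mul_assoc]
  have heU' : ∀ (w : P), w ∈ U → ∀ x ∈ U, w * x = x * w := by
    intro w hw x hx
    exact congrArg Subtype.val ((IsKleinFour.isMulCommutative (G := U)).is_comm.comm ⟨w, hw⟩ ⟨x, hx⟩)
  -- choose an involution `w ∈ U` different from `e`
  obtain ⟨w, hwU, hw2, hw1, hwe⟩ : ∃ w ∈ U, w ^ 2 = 1 ∧ w ≠ 1 ∧ w ≠ e := by
    by_cases h : u = e
    · exact ⟨v, Or.inr (Or.inr (Or.inl rfl)), hv, hv1, fun h2 => hne (h.trans h2.symm)⟩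
    · exact ⟨u, Or.inr (Or.inl rfl), hu, hu1, h⟩
  have he2 := hE2 e heE
  have hwe' : w * e = e * w := heU w hwU
  -- another element of `C_E(w)`
  obtain ⟨f, hfE, hfw, hf1, hfe⟩ : ∃ f ∈ E, w * f = f * w ∧ f ≠ 1 ∧ f ≠ e := by
    by_contra hcon
    push Not at hcon
    have h1 := hfix w hw2
    have h2 : ((E ⊓ Subgroup.centralizer ({w} : Set P) : Subgroup P) : Set P) ⊆
        (({1, e} : Finset P) : Set P) := by
      intro x hx
      have hx2 := (Subgroup.mem_inf.1 hx).2
      rw [Subgroup.mem_centralizer_singleton_iff] at hx2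
      by_cases hx1 : x = 1
      · simp [hx1]
      · have := hcon x hx.1 hx2.symm hx1
        simp [this]
    have h3 := Set.ncard_le_ncard h2 (Finset.finite_toSet _)
    rw [Set.ncard_coe_finset] at h3
    have h4 : Nat.card (E ⊓ Subgroup.centralizer ({w} : Set P) : Subgroup P) =
        ((E ⊓ Subgroup.centralizer ({w} : Set P) : Subgroup P) : Set P).ncard := by
      rw [← Nat.card_coe_set_eq]; rfl
    rw [← h4] at h3
    have h5 : ({1, e} : Finset P).card ≤ 2 := Finset.card_le_two
    omega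
  have hf2 := hE2 f hfE
  have hef : e * f = f * e := hEc e heE f hfE
  let W := four w e hw2 he2 hwe'
  let F := four e f he2 hf2 hef
  have hWK : IsKleinFour W := isKleinFour_four _ _ _ hw1 he1 hwe
  have hFK : IsKleinFour F := isKleinFour_four _ _ _ he1 hf1 hfe.symm
  have hFE : F ≤ E := by
    intro x hx
    rcases hx with rfl | rfl | rfl | rfl
    · exact E.one_mem
    · exact heE
    · exact hfE
    · exact E.mul_mem heE hfE
  refine ⟨F, hFE, hFK, ?_⟩
  have hUW : R U W := by
    refine ⟨hU, hWK, fun a ha b hb => ?_⟩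
    rcases hb with rfl | rfl | rfl | rfl
    · simp
    · exact heU' a ha _ hwU
    · exact heU a ha
    · rw [← mul_assoc, heU' a ha _ hwU, mul_assoc, heU a ha, ← mul_assoc]
  have hWF : R W F := by
    refine ⟨hWK, hFK, fun a ha b hb => ?_⟩
    have hwF : w * b = b * w := by
      rcases hb with rfl | rfl | rfl | rfl
      · simp
      · exact hwe'
      · exact hfw
      · rw [← mul_assoc, hwe', mul_assoc, hfw, ← mul_assoc]
    have heF : e * b = b * e := hEc _ heE _ (hFE hb)
    rcases ha with rfl | rfl | rfl | rfl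
    · simp
    · exact hwF
    · exact heF
    · rw [mul_assoc, heF, ← mul_assoc, hwF, mul_assoc]
  exact (Relation.ReflTransGen.single hUW).tail hWF

theorem result {P : Type*} [Group P] [Finite P] (hP : IsPGroup 2 P)
    (E : Subgroup P) [E.Normal] (hE : IsMulCommutative E) (hE2 : ∀ e ∈ E, e ^ 2 = 1) (hE8 : 8 ≤ Nat.card E) :
    Cfsg.IsFourConnected P := by
  intro U V hU hV
  obtain ⟨F, hF, hFK, h1⟩ := result_aux hP E hE hE2 hE8 U hU
  obtain ⟨F', hF', hFK', h2⟩ := result_aux hP E hE hE2 hE8 V hV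
  have hFF : R F F' := ⟨hFK, hFK', fun a ha b hb =>
    congrArg Subtype.val (hE.is_comm.comm ⟨a, hF ha⟩ ⟨b, hF' hb⟩)⟩
  haveI : Std.Symm (R (P := P)) := ⟨R_symm⟩
  have h3 : Relation.ReflTransGen R F' V := Relation.ReflTransGen.stdSymm.symm _ _ h2
  exact (h1.tail hFF).trans h3

end Cfsg.Agent.S0502
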