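import Cfsg.Statements.S0520
import Mathlib
import Cfsg.Agent.S4088

set_option autoImplicit false
open Cfsg

namespace Cfsg.Agent.S0520

open Subgroup

section
variable {G : Type*} [Group G]

/-- The commuting relation of Klein four-subgroups. -/
abbrev RK (A B : Subgroup G) : Prop :=
  IsKleinFour A ∧ IsKleinFour B ∧ ∀ a ∈ A, ∀ b ∈ B, a * b = b * a

/-- conjugate of a subgroup -/
abbrev cj (g : G) (A : Subgroup G) : Subgroup G := A.map (MulAut.conj g).toMonoidHom

theorem mem_cj {g x : G} {A : Subgroup G} : x ∈ cj g A ↔ g⁻¹ * x * g ∈ A := by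
  constructor
  · rintro ⟨a, ha, rfl⟩
    have e : g⁻¹ * ((MulAut.conj g).toMonoidHom a) * g = a := by
      simp [MulAut.conj_apply, mul_assoc]
    rwa [e]
  · intro h
    refine ⟨_, h, ?_⟩
    simp [MulAut.conj_apply, mul_assoc]

theorem conj_mem_cj {g a : G} {A : Subgroup G} (h : a ∈ A) : g * a * g⁻¹ ∈ cj g A :=
  ⟨a, h, rfl⟩

theorem cj_mul (g h : G) (A : Subgroup G) : cj (g * h) A = cj g (cj h A) := by
  ext x
  simp only [mem_cj]
  have e : (g * h)⁻¹ * x * (g * h) = h⁻¹ * (g⁻¹ * x * g) * h := by group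
  rw [e]

theorem cj_one (A : Subgroup G) : cj (1 : G) A = A := by
  ext x
  simp [mem_cj]

theorem cj_inv_cj (g : G) (A : Subgroup G) : cj g⁻¹ (cj g A) = A := by
  rw [← cj_mul, inv_mul_cancel, cj_one]

theorem cj_mono {g : G} {A B : Subgroup G} (h : A ≤ B) : cj g A ≤ cj g B :=
  Subgroup.map_mono h

theorem card_cj (g : G) (A : Subgroup G) : Nat.card (cj g A) = Nat.card A :=
  Subgroup.card_map_of_injective (MulAut.conj g).injective

theorem klein_cj {A : Subgroup G} (g : G) (h : IsKleinFour A) : IsKleinFour (cj g A) := by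
  constructor
  · rw [card_cj]; exact h.card_four
  · rw [← h.exponent_two]
    exact (Monoid.exponent_eq_of_mulEquiv ((MulAut.conj g).subgroupMap A)).symm

theorem rk_symm {A B : Subgroup G} : RK A B → RK B A := by
  rintro ⟨h1, h2, h3⟩
  exact ⟨h2, h1, fun a ha b hb => (h3 b hb a ha).symm⟩

theorem rk_cj (g : G) {A B : Subgroup G} (h : RK A B) : RK (cj g A) (cj g B) := by
  obtain ⟨h1, h2, h3⟩ := h
  refine ⟨klein_cj g h1, klein_cj g h2, ?_⟩
  rintro _ ⟨a, ha, rfl⟩ _ ⟨b, hb, rfl⟩
  have := h3 a ha b hb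
  simp only [MulEquiv.coe_toMonoidHom, MulAut.conj_apply]
  calc g * a * g⁻¹ * (g * b * g⁻¹) = g * (a * b) * g⁻¹ := by group
    _ = g * (b * a) * g⁻¹ := by rw [this]
    _ = _ := by group

theorem conn_cj (g : G) {A B : Subgroup G} (h : Relation.ReflTransGen RK A B) :
    Relation.ReflTransGen RK (cj g A) (cj g B) :=
  by
  induction h with
  | refl => exact .refl
  | tail _ hbc ih => exact ih.tail (rk_cj g hbc)

theorem conn_symm {A B : Subgroup G} (h : Relation.ReflTransGen RK A B) :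
    Relation.ReflTransGen RK B A := by
  induction h with
  | refl => exact .refl
  | tail _ hbc ih => exact ih.head (rk_symm hbc)

theorem klein_comm {A : Subgroup G} (h : IsKleinFour A) {a b : G} (ha : a ∈ A) (hb : b ∈ A) :
    a * b = b * a := by
  haveI := h
  have h1 := IsKleinFour.isMulCommutative (G := A)
  have := h1.is_comm.comm ⟨a, ha⟩ ⟨b, hb⟩
  exact congrArg Subtype.val this

theorem klein_sq {A : Subgroup G} (h : IsKleinFour A) {a : G} (ha : a ∈ A) : a * a = 1 := by
  haveI := h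
  have := IsKleinFour.mul_self (G := A) ⟨a, ha⟩
  exact congrArg Subtype.val this

/-- Klein four-subgroups inside a subgroup: transfer along the inclusion. -/
theorem klein_of_sub {D : Subgroup G} {V : Subgroup D} (h : IsKleinFour V) :
    IsKleinFour (V.map D.subtype) := by
  constructor
  · rw [Subgroup.card_map_of_injective D.subtype_injective]; exact h.card_four
  · rw [← h.exponent_two]
    exact (Monoid.exponent_eq_of_mulEquiv (V.equivMapOfInjective D.subtype D.subtype_injective)).symm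

theorem klein_subgroupOf {D V : Subgroup G} (hle : V ≤ D) (h : IsKleinFour V) :
    IsKleinFour (V.subgroupOf D) := by
  constructor
  · rw [Nat.card_congr (Subgroup.subgroupOfEquivOfLe hle).toEquiv]; exact h.card_four
  · rw [← h.exponent_two]
    exact Monoid.exponent_eq_of_mulEquiv (Subgroup.subgroupOfEquivOfLe hle)

theorem not_prank_of_klein {D V : Subgroup G} (hle : V ≤ D) (h : IsKleinFour V) :
    ¬ Cfsg.PRankLE 2 1 D := by
  intro hr
  have h1 := klein_subgroupOf hle h
  have h2 := hr (V.subgroupOf D) ?_ ?_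
  · rw [h1.card_four] at h2
    omega
  · haveI := h1
    exact IsKleinFour.isMulCommutative
  · intro a ha
    have := klein_sq h ha
    apply Subtype.ext
    show (a : G) ^ 2 = 1
    rw [pow_two]; exact this

theorem exists_klein_of_not_prank [Finite G] (h : ¬ Cfsg.PRankLE 2 1 G) :
    ∃ V : Subgroup G, IsKleinFour V := by
  unfold Cfsg.PRankLE at h
  push Not at h
  obtain ⟨A, hAc, hAe, hAcard⟩ := h
  haveI : Fact (Nat.Prime 2) := ⟨Nat.prime_two⟩
  have hp : IsPGroup 2 A := by
    intro a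
    refine ⟨1, Subtype.ext ?_⟩
    simpa using hAe a a.2
  obtain ⟨k, hk⟩ := IsPGroup.iff_card.mp hp
  have hk2 : 2 ≤ k := by
    by_contra hlt
    have : k ≤ 1 := by omega
    have h3 : 2 ^ k ≤ 2 ^ 1 := Nat.pow_le_pow_right (by norm_num) this
    omega
  have h4 : 2 ^ 2 ∣ Nat.card A := by
    rw [hk]; exact pow_dvd_pow 2 hk2
  obtain ⟨K, hK⟩ := Sylow.exists_subgroup_card_pow_prime 2 h4
  refine ⟨K.map A.subtype, ?_⟩
  have hsq : ∀ g : (K.map A.subtype), g ^ 2 = 1 := by
    rintro ⟨_, x, _, rfl⟩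
    apply Subtype.ext
    simpa using hAe x x.2
  constructor
  · rw [Subgroup.card_map_of_injective A.subtype_injective, hK]; norm_num
  · apply Nat.dvd_antisymm
    · exact Monoid.exponent_dvd_of_forall_pow_eq_one hsq
    · have hnt : Nontrivial (K.map A.subtype) := by
        apply Finite.one_lt_card_iff_nontrivial.mp
        rw [Subgroup.card_map_of_injective A.subtype_injective, hK]; norm_num
      obtain ⟨g, hg⟩ := exists_ne (1 : (K.map A.subtype))
      have h5 : orderOf g = 2 := orderOf_eq_prime (hsq g) hg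
      rw [← h5]
      exact Monoid.order_dvd_exponent g

/-- connectivity of the Sylow subgroup transfers to the ambient group. -/
theorem conn_of_le {S : Subgroup G} (hS : Cfsg.IsFourConnected S) {U V : Subgroup G} (hU : U ≤ S)
    (hV : V ≤ S) (hUk : IsKleinFour U) (hVk : IsKleinFour V) :
    Relation.ReflTransGen RK U V := by
  have h := hS (U.subgroupOf S) (V.subgroupOf S) (klein_subgroupOf hU hUk) (klein_subgroupOf hV hVk)
  have key : ∀ W : Subgroup S, Relation.ReflTransGen
      (fun A B : Subgroup S => IsKleinFour A ∧ IsKleinFour B ∧ ∀ a ∈ A, ∀ b ∈ B, a * b = b * a)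
      (U.subgroupOf S) W → Relation.ReflTransGen RK U (W.map S.subtype) := by
    intro W hW
    induction hW with
    | refl =>
      rw [Subgroup.map_subgroupOf_eq_of_le hU]
    | tail _ hbc ih =>
      obtain ⟨h1, h2, h3⟩ := hbc
      refine ih.tail ⟨klein_of_sub h1, klein_of_sub h2, ?_⟩
      rintro _ ⟨a, ha, rfl⟩ _ ⟨b, hb, rfl⟩
      exact congrArg Subtype.val (h3 a ha b hb)
  have := key _ h
  rwa [Subgroup.map_subgroupOf_eq_of_le hV] at this

theorem isP_subgroupOf {p : ℕ} {X Y N : Subgroup G} (hY : IsPGroup p Y) (hXY : X ≤ Y) :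
    IsPGroup p (X.subgroupOf N) := by
  rintro ⟨x, hx⟩
  obtain ⟨k, hk⟩ := hY ⟨x.1, hXY hx⟩
  refine ⟨k, Subtype.ext (Subtype.ext ?_)⟩
  simpa using congrArg Subtype.val hk

theorem lt_card [Finite G] {A B : Subgroup G} (h : A < B) : Nat.card A < Nat.card B := by
  by_contra hle
  push Not at hle
  exact h.ne (Subgroup.eq_of_le_of_card_ge h.le hle)

end

section
variable {G : Type*} [Group G] [Finite G]

theorem mem_smul_sylow {p : ℕ} [Fact p.Prime] (x g : G) (Q : Sylow p G) :
    x ∈ ((g • Q : Sylow p G) : Subgroup G) ↔ g⁻¹ * x * g ∈ (Q : Subgroup G) := by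
  rw [Sylow.coe_subgroup_smul, Subgroup.mem_pointwise_smul_iff_inv_smul_mem]
  simp [MulAut.smul_def, MulAut.conj_apply]

theorem mul_smul_eq {p : ℕ} [Fact p.Prime] (g h : G) (Q : Sylow p G) :
    ((g * h) • Q : Sylow p G) = g • (h • Q) := mul_smul g h Q

theorem sylow_eq_of_le {p : ℕ} [Fact p.Prime] {P Q : Sylow p G}
    (h : (P : Subgroup G) ≤ Q) : P = Q :=
  Sylow.ext (P.is_maximal' Q.isPGroup' h).symm

/-- Lemma A: two Sylow subgroups meeting in a Klein four-group are `M`-conjugate. -/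
theorem lemmaA (S : Sylow 2 G) (M : Subgroup G)
    (hM : ∀ D : Subgroup G, D ≤ S → (∃ V : Subgroup G, V ≤ D ∧ IsKleinFour V) →
      normalizer (D : Set G) ≤ M) :
    ∀ (n : ℕ) (S' : Sylow 2 G), Nat.card (S : Subgroup G) - Nat.card ((S : Subgroup G) ⊓ S' : Subgroup G) = n →
      (∃ V : Subgroup G, V ≤ (S : Subgroup G) ⊓ S' ∧ IsKleinFour V) → ∃ m ∈ M, m • S = S' := by
  intro n
  induction n using Nat.strong_induction_on with
  | _ n ih =>
    intro S' hn hV
    by_cases hle : (S : Subgroup G) ≤ S'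
    · exact ⟨1, M.one_mem, by rw [one_smul]; exact sylow_eq_of_le hle⟩
    obtain ⟨V, hVD, hVk⟩ := hV
    set D : Subgroup G := (S : Subgroup G) ⊓ S' with hD
    have hDS : D < S := by
      refine lt_of_le_of_ne inf_le_left ?_
      intro h
      apply hle
      rw [← h]
      exact inf_le_right
    have hDS' : D < S' := by
      refine lt_of_le_of_ne inf_le_right ?_
      intro h
      have h2 : (S' : Subgroup G) ≤ S := by rw [← h]; exact inf_le_left
      apply hle
      rw [sylow_eq_of_le h2]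
    have hNM : normalizer (D : Set G) ≤ M := hM D inf_le_left ⟨V, hVD, hVk⟩
    have hA := Cfsg.Agent.S4088.lt_inf_normalizer S.isPGroup' hDS
    have hB := Cfsg.Agent.S4088.lt_inf_normalizer S'.isPGroup' hDS'
    set Nn := normalizer (D : Set G) with hNn
    set A : Subgroup G := (S : Subgroup G) ⊓ Nn with hAdef
    set B : Subgroup G := (S' : Subgroup G) ⊓ Nn with hBdef
    have hAp : IsPGroup 2 (A.subgroupOf Nn) := isP_subgroupOf S.isPGroup' inf_le_left
    have hBp : IsPGroup 2 (B.subgroupOf Nn) := isP_subgroupOf S'.isPGroup' inf_le_left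
    obtain ⟨T, hT⟩ := hAp.exists_le_sylow
    obtain ⟨T₂, hT₂⟩ := hBp.exists_le_sylow
    obtain ⟨c, hc⟩ := MulAction.exists_smul_eq Nn T₂ T
    obtain ⟨S₁, hS₁⟩ := (T.isPGroup'.map Nn.subtype).exists_le_sylow
    have hAS₁ : A ≤ S₁ := by
      intro x hx
      apply hS₁
      exact ⟨⟨x, hx.2⟩, hT hx, rfl⟩
    have hBS₁ : ∀ x ∈ B, c.1 * x * c.1⁻¹ ∈ (S₁ : Subgroup G) := by
      intro x hx
      apply hS₁
      have h1 : (⟨x, hx.2⟩ : Nn) ∈ (T₂ : Subgroup Nn) := hT₂ hx
      have h2 : c * ⟨x, hx.2⟩ * c⁻¹ ∈ (T : Subgroup Nn) := by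
        rw [← hc, mem_smul_sylow]
        have e : c⁻¹ * (c * ⟨x, hx.2⟩ * c⁻¹) * c = ⟨x, hx.2⟩ := by group
        rwa [e]
      exact ⟨_, h2, rfl⟩
    have hcM : c.1 ∈ M := hNM c.2
    have hcard1 : Nat.card D < Nat.card (S : Subgroup G) := lt_card hDS
    -- first step
    have h1 : Nat.card D < Nat.card ((S : Subgroup G) ⊓ S₁ : Subgroup G) :=
      lt_of_lt_of_le (lt_card hA) (Subgroup.card_le_of_le (le_inf inf_le_left hAS₁))
    have h1' : Nat.card ((S : Subgroup G) ⊓ S₁ : Subgroup G) ≤ Nat.card (S : Subgroup G) :=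
      Subgroup.card_le_of_le inf_le_left
    have hVS : V ≤ (S : Subgroup G) ⊓ S₁ :=
      le_inf (hVD.trans inf_le_left) ((hVD.trans hA.le).trans hAS₁)
    obtain ⟨m₁, hm₁, hm₁S⟩ := ih (Nat.card (S : Subgroup G) - Nat.card ((S : Subgroup G) ⊓ S₁ : Subgroup G))
      (by omega) S₁ rfl ⟨V, hVS, hVk⟩
    -- second step
    set m₀ : G := m₁⁻¹ * c.1 with hm₀
    have hm₀M : m₀ ∈ M := M.mul_mem (M.inv_mem hm₁) hcM
    set S₃ : Sylow 2 G := m₀ • S' with hS₃
    have hBt : cj m₀ B ≤ (S : Subgroup G) ⊓ S₃ := by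
      rintro _ ⟨b, hb, rfl⟩
      have e : (MulAut.conj m₀).toMonoidHom b = m₀ * b * m₀⁻¹ := rfl
      rw [e]
      constructor
      · have h2 := hBS₁ b hb
        rw [← hm₁S, mem_smul_sylow] at h2
        have e2 : m₁⁻¹ * (c.1 * b * c.1⁻¹) * m₁ = m₀ * b * m₀⁻¹ := by
          rw [hm₀]; group
        rwa [e2] at h2
      · show _ ∈ (S₃ : Subgroup G)
        rw [hS₃, mem_smul_sylow]
        have e2 : m₀⁻¹ * (m₀ * b * m₀⁻¹) * m₀ = b := by group
        rw [e2]
        exact hb.1
    have h2 : Nat.card D < Nat.card ((S : Subgroup G) ⊓ S₃ : Subgroup G) := by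
      refine lt_of_lt_of_le (lt_card hB) ?_
      rw [← card_cj m₀ B]
      exact Subgroup.card_le_of_le hBt
    have h2' : Nat.card ((S : Subgroup G) ⊓ S₃ : Subgroup G) ≤ Nat.card (S : Subgroup G) :=
      Subgroup.card_le_of_le inf_le_left
    have hVB : V ≤ B := hVD.trans hB.le
    obtain ⟨m₂, hm₂, hm₂S⟩ := ih (Nat.card (S : Subgroup G) - Nat.card ((S : Subgroup G) ⊓ S₃ : Subgroup G))
      (by omega) S₃ rfl ⟨cj m₀ V, (cj_mono hVB).trans hBt, klein_cj m₀ hVk⟩
    refine ⟨m₀⁻¹ * m₂, M.mul_mem (M.inv_mem hm₀M) hm₂, ?_⟩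
    rw [mul_smul, hm₂S, hS₃, inv_smul_smul]

/-- connectivity gives an `M`-conjugate inside `S`. -/
theorem lemmaC (S : Sylow 2 G) (M : Subgroup G)
    (hM : ∀ D : Subgroup G, D ≤ S → (∃ V : Subgroup G, V ≤ D ∧ IsKleinFour V) →
      normalizer (D : Set G) ≤ M) {V₀ U : Subgroup G} (hV₀ : V₀ ≤ S)
    (h : Relation.ReflTransGen RK V₀ U) : ∃ x ∈ M, cj x U ≤ S := by
  induction h with
  | refl => exact ⟨1, M.one_mem, by rw [cj_one]; exact hV₀⟩
  | @tail U W _ hUW ih =>
    obtain ⟨x, hx, hxU⟩ := ih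
    obtain ⟨h1, h2, h3⟩ := rk_cj x hUW
    -- `cj x U` and `cj x W` lie in a common Sylow subgroup
    have hU2 : IsPGroup 2 (cj x U) := IsPGroup.of_card (n := 2) (by rw [h1.card_four]; norm_num)
    have hW2 : IsPGroup 2 (cj x W) := IsPGroup.of_card (n := 2) (by rw [h2.card_four]; norm_num)
    have hnorm : cj x U ≤ normalizer ((cj x W : Subgroup G) : Set G) := by
      intro u hu
      rw [Subgroup.mem_normalizer_iff]
      intro w
      have e : ∀ w ∈ cj x W, u * w * u⁻¹ = w := by
        intro w hw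
        rw [h3 u hu w hw]; group
      constructor
      · intro hw
        rw [e w hw]; exact hw
      · intro hw
        have hw' := e _ hw
        have e2 : u * w * u⁻¹ = w := by
          have h4 : u * (u * w * u⁻¹) * u⁻¹ = u * w * u⁻¹ := hw'
          have h5 : u * (u * w * u⁻¹) = u * w := by
            have := congrArg (fun z => z * u) h4
            simpa using this
          exact (mul_left_cancel h5)
        rwa [e2] at hw
    have hsup := hU2.to_sup_of_normal_right' hW2 hnorm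
    obtain ⟨S', hS'⟩ := hsup.exists_le_sylow
    have hUS' : cj x U ≤ S' := le_sup_left.trans hS'
    have hWS' : cj x W ≤ S' := le_sup_right.trans hS'
    obtain ⟨m, hm, hmS⟩ := lemmaA S M hM _ S' rfl ⟨cj x U, le_inf hxU hUS', h1⟩
    refine ⟨m⁻¹ * x, M.mul_mem (M.inv_mem hm) hx, ?_⟩
    rw [cj_mul]
    rintro _ ⟨w, hw, rfl⟩
    have h6 := hWS' hw
    rw [← hmS, mem_smul_sylow] at h6
    have e : (MulAut.conj m⁻¹).toMonoidHom w = m⁻¹ * w * m := by
      simp [MulAut.conj_apply]
    rwa [e]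

end

/-- Let G be a finite group of 2-rank at least 2 and S a Sylow 2-subgroup whose commuting graph of Klein four-subgroups is
connected. Then the commuting graph of Klein four-subgroups of G is disconnected if and only if the 2-generated core — the
subgroup generated by the normalizers N_G(Q) of the subgroups Q of S that contain a Klein four-group — is a proper
subgroup of G. -/
theorem result {G : Type*} [Group G] [Finite G] (h2 : ¬ Cfsg.PRankLE 2 1 G)
    (S : Sylow 2 G) (hS : Cfsg.IsFourConnected (S : Subgroup G)) :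
    ¬ Cfsg.IsFourConnected G ↔
      (⨆ Q : {Q : Subgroup G // Q ≤ (S : Subgroup G) ∧ ¬ Cfsg.PRankLE 2 1 Q},
          Subgroup.normalizer ((Q : Subgroup G) : Set G)) ≠ ⊤ := by
  classical
  set M : Subgroup G := ⨆ Q : {Q : Subgroup G // Q ≤ (S : Subgroup G) ∧ ¬ Cfsg.PRankLE 2 1 Q},
          Subgroup.normalizer ((Q : Subgroup G) : Set G) with hMdef
  have hM : ∀ D : Subgroup G, D ≤ S → (∃ V : Subgroup G, V ≤ D ∧ IsKleinFour V) →
      normalizer (D : Set G) ≤ M := by
    intro D hD ⟨V, hVD, hVk⟩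
    exact le_iSup_of_le ⟨D, hD, not_prank_of_klein hVD hVk⟩ le_rfl
  -- a Klein four-group in `S`
  obtain ⟨V₁, hV₁⟩ := exists_klein_of_not_prank h2
  have hV₁2 : IsPGroup 2 V₁ := IsPGroup.of_card (n := 2) (by rw [hV₁.card_four]; norm_num)
  obtain ⟨S₀, hS₀⟩ := hV₁2.exists_le_sylow
  obtain ⟨g₀, hg₀⟩ := MulAction.exists_smul_eq G S₀ S
  set V₀ : Subgroup G := cj g₀ V₁ with hV₀def
  have hV₀k : IsKleinFour V₀ := klein_cj g₀ hV₁
  have hV₀S : V₀ ≤ S := by
    rintro _ ⟨v, hv, rfl⟩
    rw [← hg₀, mem_smul_sylow]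
    have e : g₀⁻¹ * ((MulAut.conj g₀).toMonoidHom v) * g₀ = v := by
      simp [MulAut.conj_apply, mul_assoc]
    rw [e]
    exact hS₀ hv
  -- every Klein four-group has a conjugate in `S`
  have hconjS : ∀ U : Subgroup G, IsKleinFour U → ∃ g : G, cj g U ≤ S := by
    intro U hU
    have hU2 : IsPGroup 2 U := IsPGroup.of_card (n := 2) (by rw [hU.card_four]; norm_num)
    obtain ⟨S₁, hS₁⟩ := hU2.exists_le_sylow
    obtain ⟨g, hg⟩ := MulAction.exists_smul_eq G S₁ S
    refine ⟨g, ?_⟩
    rintro _ ⟨v, hv, rfl⟩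
    rw [← hg, mem_smul_sylow]
    have e : g⁻¹ * ((MulAut.conj g).toMonoidHom v) * g = v := by
      simp [MulAut.conj_apply, mul_assoc]
    rw [e]
    exact hS₁ hv
  constructor
  · -- disconnected ⇒ proper
    intro hdis hMtop
    apply hdis
    -- the stabiliser of the component of `V₀`
    let L : Subgroup G :=
      { carrier := {g | Relation.ReflTransGen RK V₀ (cj g V₀)}
        one_mem' := by
          show Relation.ReflTransGen RK V₀ (cj 1 V₀)
          rw [cj_one]
        mul_mem' := by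
          intro g h hg hh
          show Relation.ReflTransGen RK V₀ (cj (g * h) V₀)
          rw [cj_mul]
          exact Relation.ReflTransGen.trans hg (conn_cj g hh)
        inv_mem' := by
          intro g hg
          show Relation.ReflTransGen RK V₀ (cj g⁻¹ V₀)
          have h1 := conn_cj g⁻¹ hg
          rw [cj_inv_cj] at h1
          exact conn_symm h1 }
    have hLtop : L = ⊤ := by
      rw [eq_top_iff, ← hMtop]
      refine iSup_le ?_
      rintro ⟨Q, hQS, hQr⟩ n hn
      -- a Klein four-group in `Q`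
      obtain ⟨K, hK⟩ := exists_klein_of_not_prank hQr
      set V₂ : Subgroup G := K.map Q.subtype with hV₂
      have hV₂k : IsKleinFour V₂ := klein_of_sub hK
      have hV₂Q : V₂ ≤ Q := Subgroup.map_subtype_le K
      have hV₂n : cj n V₂ ≤ Q := by
        rintro _ ⟨v, hv, rfl⟩
        exact (Subgroup.mem_normalizer_iff.mp hn v).mp (hV₂Q hv)
      have c1 : Relation.ReflTransGen RK V₀ V₂ :=
        conn_of_le hS hV₀S (hV₂Q.trans hQS) hV₀k hV₂k
      have c2 : Relation.ReflTransGen RK V₀ (cj n V₂) :=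
        conn_of_le hS hV₀S (hV₂n.trans hQS) hV₀k (klein_cj n hV₂k)
      show Relation.ReflTransGen RK V₀ (cj n V₀)
      exact c2.trans (conn_symm (conn_cj n c1))
    -- conclude
    have key : ∀ U : Subgroup G, IsKleinFour U → Relation.ReflTransGen RK V₀ U := by
      intro U hU
      obtain ⟨g, hg⟩ := hconjS U hU
      have c1 : Relation.ReflTransGen RK V₀ (cj g U) :=
        conn_of_le hS hV₀S hg hV₀k (klein_cj g hU)
      have c2 := conn_cj g⁻¹ c1
      rw [cj_inv_cj] at c2
      have c3 : g⁻¹ ∈ L := by rw [hLtop]; exact Subgroup.mem_top _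
      exact Relation.ReflTransGen.trans c3 c2
    intro U W hU hW
    exact (conn_symm (key U hU)).trans (key W hW)
  · -- proper ⇒ disconnected
    intro hne hconn
    apply hne
    rw [eq_top_iff]
    intro g _
    have c := hconn V₀ (cj g V₀) hV₀k (klein_cj g hV₀k)
    -- the relation in the definition is `RK`
    obtain ⟨x, hx, hxU⟩ := lemmaC S M hM hV₀S c
    rw [← cj_mul] at hxU
    set h := x * g with hh
    -- `h` conjugates `V₀` into `S`
    have h1 : cj h V₀ ≤ (S : Subgroup G) ⊓ ((h • S : Sylow 2 G) : Subgroup G) := by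
      refine le_inf hxU ?_
      rintro _ ⟨v, hv, rfl⟩
      rw [mem_smul_sylow]
      have e : h⁻¹ * ((MulAut.conj h).toMonoidHom v) * h = v := by
        simp [MulAut.conj_apply, mul_assoc]
      rw [e]
      exact hV₀S hv
    obtain ⟨m, hm, hmS⟩ := lemmaA S M hM _ (h • S) rfl ⟨cj h V₀, h1, klein_cj h hV₀k⟩
    -- `m⁻¹ h` normalises `S`
    have h2 : (m⁻¹ * h) • S = S := by
      rw [mul_smul, ← hmS, inv_smul_smul]
    have h3 : m⁻¹ * h ∈ normalizer ((S : Subgroup G) : Set G) :=
      Sylow.smul_eq_iff_mem_normalizer.mp h2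
    have h4 : m⁻¹ * h ∈ M := hM S le_rfl ⟨V₀, hV₀S, hV₀k⟩ h3
    have h5 : h ∈ M := by
      have e : h = m * (m⁻¹ * h) := by group
      rw [e]
      exact M.mul_mem hm h4
    have e : g = x⁻¹ * h := by rw [hh]; group
    rw [e]
    exact M.mul_mem (M.inv_mem hx) h5

end Cfsg.Agent.S0520
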