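import Cfsg.Statements.S0721
import Mathlib

set_option autoImplicit false
open Cfsg

namespace Cfsg.Agent.S0721

/-- A finite group without nontrivial proper normal subgroups invariant under a group `𝒜` of
automorphisms is a direct power of a simple group. -/
theorem char_simple_power {Γ : Type*} [Group Γ] [Finite Γ] [Nontrivial Γ] (𝒜 : Subgroup (MulAut Γ))
    (hmin : ∀ M : Subgroup Γ, M.Normal → (∀ f ∈ 𝒜, M.map (f : Γ ≃* Γ).toMonoidHom ≤ M) → M = ⊥ ∨ M = ⊤) :
    ∃ (T : Type) (_ : Group T) (m : ℕ), IsSimpleGroup T ∧ 0 < m ∧ Nonempty (Γ ≃* (Fin m → T)) := by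
  classical
  let U := {S : Subgroup Γ // S ≠ ⊥ ∧ S.Normal}
  haveI : Nonempty U := ⟨⟨⊤, top_ne_bot, inferInstance⟩⟩
  haveI : Finite U := Subtype.finite
  obtain ⟨⟨S, hS1, hS2⟩, hSmin⟩ := Finite.exists_min (fun S : U => Nat.card (S.1 : Subgroup Γ))
  have hSmin' : ∀ K : Subgroup Γ, K.Normal → K ≠ ⊥ → K ≤ S → K = S := by
    intro K hK hK1 hle
    exact Subgroup.eq_of_le_of_card_ge hle (hSmin ⟨K, hK1, hK⟩)
  let F : Set (Subgroup Γ) := {X | ∃ f ∈ 𝒜, X = S.map (f : Γ ≃* Γ).toMonoidHom}
  have hFnormal : ∀ X ∈ F, X.Normal := by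
    rintro X ⟨f, -, rfl⟩
    exact hS2.map _ f.surjective
  have hSF : S ∈ F := ⟨1, 𝒜.one_mem, by
    ext x
    constructor
    · intro hx
      exact ⟨x, hx, rfl⟩
    · rintro ⟨y, hy, rfl⟩
      exact hy⟩
  have hFmin : ∀ X ∈ F, ∀ K : Subgroup Γ, K.Normal → K ≠ ⊥ → K ≤ X → K = X := by
    rintro X ⟨f, -, rfl⟩ K hK hK1 hle
    have h1 : K.map (f⁻¹ : Γ ≃* Γ).toMonoidHom = S := by
      apply hSmin' _ (hK.map _ (f⁻¹ : MulAut Γ).surjective)
      · intro hbot
        apply hK1
        exact (Subgroup.map_eq_bot_iff_of_injective _ (f⁻¹ : MulAut Γ).injective).mp hbot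
      · rintro _ ⟨k, hk, rfl⟩
        obtain ⟨s, hs, rfl⟩ := hle hk
        have : (f⁻¹ : MulAut Γ) (f s) = s := MulAut.inv_apply_self Γ f s
        show (f⁻¹ : MulAut Γ) (f s) ∈ S
        rw [this]
        exact hs
    rw [← h1]
    ext x
    constructor
    · intro hx
      refine ⟨(f⁻¹ : MulAut Γ) x, ⟨x, hx, rfl⟩, ?_⟩
      show f ((f⁻¹ : MulAut Γ) x) = x
      exact MulAut.apply_inv_self Γ f x
    · rintro ⟨_, ⟨k, hk, rfl⟩, rfl⟩
      have : f ((f⁻¹ : MulAut Γ) k) = k := MulAut.apply_inv_self Γ f k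
      show f ((f⁻¹ : MulAut Γ) k) ∈ K
      rw [this]
      exact hk
  have hFne : ∀ X ∈ F, X ≠ ⊥ := by
    rintro X ⟨f, -, rfl⟩ h
    exact hS1 ((Subgroup.map_eq_bot_iff_of_injective _ f.injective).mp h)
  -- a largest independent subfamily
  let W := {I : Set (Subgroup Γ) // I ⊆ F ∧ sSupIndep I}
  haveI : Nonempty W := ⟨⟨∅, Set.empty_subset _, sSupIndep_empty⟩⟩
  haveI : Finite W := Subtype.finite
  obtain ⟨⟨I, hIF, hind⟩, hImax⟩ := Finite.exists_max (fun I : W => (I.1 : Set (Subgroup Γ)).ncard)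
  have hInormal : ∀ X ∈ I, X.Normal := fun X hX => hFnormal X (hIF hX)
  set P : Subgroup Γ := sSup I with hP
  have hPnormal : P.Normal := Subgroup.sSup_normal I hInormal
  have hall : ∀ Y ∈ F, Y ≤ P := by
    intro Y hY
    by_contra hYP
    have hYnormal := hFnormal Y hY
    have hinf : Y ⊓ P = ⊥ := by
      by_contra hne
      have h1 : Y ⊓ P = Y := hFmin Y hY (Y ⊓ P) inferInstance hne inf_le_left
      exact hYP (inf_eq_left.mp h1)
    have hYI : Y ∉ I := fun h => hYP (le_sSup h)
    have hJ : sSupIndep (insert Y I) := by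
      intro a ha
      rcases ha with rfl | haI
      · rw [Set.insert_sdiff_self_of_notMem hYI]
        exact disjoint_iff.mpr hinf
      · have haY : a ≠ Y := fun h => hYI (h ▸ haI)
        have : (insert Y I) \ {a} = insert Y (I \ {a}) := by
          ext z
          simp only [Set.mem_sdiff, Set.mem_insert_iff, Set.mem_singleton_iff]
          constructor
          · rintro ⟨h1 | h1, h2⟩
            · exact Or.inl h1
            · exact Or.inr ⟨h1, h2⟩
          · rintro (h1 | ⟨h1, h2⟩)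
            · exact ⟨Or.inl h1, h1 ▸ haY.symm⟩
            · exact ⟨Or.inr h1, h2⟩
        rw [this, sSup_insert, sup_comm, Subgroup.disjoint_def]
        intro x hxa hx
        have hxmem : x ∈ ((sSup (I \ {a}) ⊔ Y : Subgroup Γ) : Set Γ) := hx
        rw [Subgroup.mul_normal] at hxmem
        obtain ⟨w, hw, y, hy, rfl⟩ := Set.mem_mul.mp hxmem
        have hwP : w ∈ P := (sSup_le_sSup Set.sdiff_subset : sSup (I \ {a}) ≤ P) hw
        have hxP : w * y ∈ P := (le_sSup haI : a ≤ P) hxa
        have hyP : y ∈ P := by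
          have := P.mul_mem (P.inv_mem hwP) hxP
          simpa using this
        have hy1 : y = 1 := by
          have : y ∈ Y ⊓ P := ⟨hy, hyP⟩
          rw [hinf] at this
          exact Subgroup.mem_bot.mp this
        subst hy1
        rw [mul_one] at hxa ⊢
        exact Subgroup.disjoint_def.mp (hind haI) hxa hw
    have h1 := hImax ⟨insert Y I, Set.insert_subset hY hIF, hJ⟩
    simp only at h1
    rw [Set.ncard_insert_of_notMem hYI (Set.toFinite _)] at h1
    omega
  have hPtop : P = ⊤ := by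
    have hQ := hmin (sSup F) (Subgroup.sSup_normal F hFnormal) (by
      intro f hf
      rw [Subgroup.map_le_iff_le_comap]
      apply sSup_le
      rintro X ⟨g, hg, rfl⟩
      rw [← Subgroup.map_le_iff_le_comap, Subgroup.map_map]
      exact le_sSup ⟨f * g, 𝒜.mul_mem hf hg, rfl⟩)
    rcases hQ with hQ | hQ
    · exfalso
      have : S ≤ sSup F := le_sSup hSF
      rw [hQ] at this
      exact hS1 (le_bot_iff.mp this)
    · rw [eq_top_iff, ← hQ]
      exact sSup_le hall
  -- each member of I is simple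
  have hsimple : ∀ X ∈ I, IsSimpleGroup X := by
    intro X hX
    have hXnormal := hInormal X hX
    have hXne := hFne X (hIF hX)
    set Z : Subgroup Γ := sSup (I \ {X}) with hZ
    have hZnormal : Z.Normal := Subgroup.sSup_normal _ (fun Y hY => hInormal Y hY.1)
    have hXZ : (X ⊔ Z : Subgroup Γ) = ⊤ := by
      rw [hZ, ← sSup_insert, Set.insert_sdiff_singleton, Set.insert_eq_of_mem hX, ← hP, hPtop]
    have hdisj : Disjoint X Z := hind hX
    have hcomm := Subgroup.commute_of_normal_of_disjoint X Z hXnormal hZnormal hdisj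
    haveI : Nontrivial X := by
      rw [Subgroup.nontrivial_iff_ne_bot]
      exact hXne
    refine ⟨fun K hK => ?_⟩
    have hK'normal : (K.map X.subtype).Normal := by
      constructor
      rintro _ ⟨k, hk, rfl⟩ g
      have hg : g ∈ ((X ⊔ Z : Subgroup Γ) : Set Γ) := by rw [hXZ]; trivial
      rw [Subgroup.mul_normal] at hg
      obtain ⟨x, hx, z, hz, rfl⟩ := Set.mem_mul.mp hg
      have h1 : z * (k : Γ) * z⁻¹ = k := by
        have := (hcomm k z k.2 hz).eq
        rw [← this]
        group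
      have h2 : x * z * (k : Γ) * (x * z)⁻¹ = x * (z * (k : Γ) * z⁻¹) * x⁻¹ := by group
      rw [Subgroup.subtype_apply, h2, h1]
      have h3 := hK.conj_mem k hk ⟨x, hx⟩
      exact ⟨_, h3, rfl⟩
    by_cases hKbot : K = ⊥
    · exact Or.inl hKbot
    · right
      have hne : K.map X.subtype ≠ ⊥ := by
        intro h
        exact hKbot ((Subgroup.map_eq_bot_iff_of_injective _ X.subtype_injective).mp h)
      have heq := hFmin X (hIF hX) _ hK'normal hne (Subgroup.map_subtype_le _)
      rw [eq_top_iff]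
      rintro x -
      have hx : (x : Γ) ∈ K.map X.subtype := by rw [heq]; exact x.2
      obtain ⟨y, hy, hyx⟩ := hx
      have : y = x := Subtype.ext hyx
      rwa [← this]
  have hIne : I.Nonempty := by
    by_contra hne
    rw [Set.not_nonempty_iff_eq_empty] at hne
    rw [hne] at hP
    rw [hP, sSup_empty] at hPtop
    exact bot_ne_top hPtop
  obtain ⟨X₀, hX₀⟩ := hIne
  -- the isomorphisms between members
  have hiso : ∀ X ∈ F, Nonempty (X ≃* S) := by
    rintro X ⟨f, -, rfl⟩
    exact ⟨(S.equivMapOfInjective _ f.injective).symm⟩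
  haveI : Fintype I := Fintype.ofFinite _
  let e : I ≃ Fin (Fintype.card I) := Fintype.equivFin I
  let H : Fin (Fintype.card I) → Subgroup Γ := fun i => (e.symm i).1
  have hHI : ∀ i, H i ∈ I := fun i => (e.symm i).2
  have hindH : iSupIndep H := ((sSupIndep_iff I).mp hind).comp e.symm.injective
  have hcomm : Pairwise fun i j => ∀ x y : Γ, x ∈ H i → y ∈ H j → Commute x y := by
    intro i j hij x y hx hy
    exact Subgroup.commute_of_normal_of_disjoint (H i) (H j) (hInormal _ (hHI i)) (hInormal _ (hHI j))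
      (hindH.pairwiseDisjoint hij) x y hx hy
  have hinj := Subgroup.injective_noncommPiCoprod_of_iSupIndep (hcomm := hcomm) hindH
  have hrange : (Subgroup.noncommPiCoprod hcomm).range = ⊤ := by
    rw [Subgroup.noncommPiCoprod_range]
    have h1 : (⨆ i, H i) = ⨆ X : I, (X : Subgroup Γ) :=
      e.symm.surjective.iSup_comp (fun X : I => (X : Subgroup Γ))
    rw [h1, ← sSup_eq_iSup', ← hP, hPtop]
  let E₁ : (∀ i, H i) ≃* Γ :=
    (MonoidHom.ofInjective hinj).trans ((MulEquiv.subgroupCongr hrange).trans Subgroup.topEquiv)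
  -- a model of S in Type
  let T₀ : Type := {x : ℕ // x < Nat.card S}
  let e₀ : T₀ ≃ S := (Fin.equivSubtype.symm.trans (Finite.equivFin S).symm)
  letI gT : Group T₀ := e₀.group
  let E₀ : T₀ ≃* S := e₀.mulEquiv
  have hSsimple : IsSimpleGroup S := by
    obtain ⟨i⟩ := hiso X₀ (hIF hX₀)
    haveI := hsimple X₀ hX₀
    exact i.symm.isSimpleGroup
  have hTsimple : IsSimpleGroup T₀ := E₀.isSimpleGroup
  have hEach : ∀ i, H i ≃* T₀ := fun i =>
    (Classical.choice (hiso (H i) (hIF (hHI i)))).trans E₀.symm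
  refine ⟨T₀, gT, Fintype.card I, hTsimple, ?_, ⟨E₁.symm.trans (MulEquiv.piCongrRight hEach)⟩⟩
  exact Fintype.card_pos_iff.mpr ⟨⟨X₀, hX₀⟩⟩

/-- A minimal normal subgroup of a finite group is isomorphic to a direct power `T ^ m` of a simple group `T` (possibly of prime order). -/
theorem result {H : Type*} [Group H] [Finite H] (N : Subgroup H) [N.Normal] (hN : N ≠ ⊥) (hmin : ∀ M : Subgroup H, M.Normal → M ≤ N → M = ⊥ ∨ M = N) : ∃ (T : Type) (_ : Group T) (m : ℕ), IsSimpleGroup T ∧ 0 < m ∧ Nonempty (N ≃* (Fin m → T)) := by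
  haveI : Nontrivial N := (Subgroup.nontrivial_iff_ne_bot N).mpr hN
  apply char_simple_power (MulAut.conjNormal (G := H) (H := N)).range
  intro M _ hinv
  have hnormal : (M.map N.subtype).Normal := by
    constructor
    rintro _ ⟨m, hm, rfl⟩ g
    have h1 := hinv (MulAut.conjNormal g) ⟨g, rfl⟩
    have h2 : MulAut.conjNormal g m ∈ M := h1 ⟨m, hm, rfl⟩
    refine ⟨_, h2, ?_⟩
    simp
  rcases hmin _ hnormal (Subgroup.map_subtype_le _) with h | h
  · left
    exact (Subgroup.map_eq_bot_iff_of_injective _ N.subtype_injective).mp h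
  · right
    rw [eq_top_iff]
    rintro x -
    have hx : (x : H) ∈ M.map N.subtype := by rw [h]; exact x.2
    obtain ⟨y, hy, hyx⟩ := hx
    have : y = x := Subtype.ext hyx
    rwa [← this]

end Cfsg.Agent.S0721
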