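import Cfsg.Statements.S0802
import Cfsg.Agent.Lib.PSL2.Icosian
import Cfsg.Agent.Lib.PSL2.Unipotent

set_option autoImplicit false
open Cfsg

namespace Cfsg.Agent.S0802

section Aux

open Matrix Matrix.SpecialLinearGroup
open scoped MatrixGroups
open Cfsg.Agent.Lib.PSL2.Basic Cfsg.Agent.Lib.PSL2.Unipotent Cfsg.Agent.Lib.PSL2.Icosian

lemma a4_elts : ∃ v c : alternatingGroup (Fin 4), v * v = 1 ∧ v ≠ 1 ∧ c ^ 3 = 1 ∧ c ≠ 1 ∧
    (c * v * c⁻¹) * v = v * (c * v * c⁻¹) := by
  refine ⟨⟨Equiv.swap 0 1 * Equiv.swap 2 3, Equiv.Perm.mem_alternatingGroup.2 (by decide)⟩,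
    ⟨Equiv.swap 0 1 * Equiv.swap 1 2, Equiv.Perm.mem_alternatingGroup.2 (by decide)⟩,
    by decide, by decide, by decide, by decide, by decide⟩

lemma two_pow_mod (n : ℕ) (hn : Odd n) : 2 ^ n % 3 = 2 := by
  obtain ⟨k, rfl⟩ := hn
  induction k with
  | zero => rfl
  | succ k ih =>
    have : 2 ^ (2 * (k + 1) + 1) = 4 * 2 ^ (2 * k + 1) := by ring
    rw [this]
    generalize 2 ^ (2 * k + 1) = X at ih ⊢
    omega

variable {F : Type*} [Field F] [Fintype F]

/-- In characteristic two, odd degree: no `A₄`. -/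
lemma no_a4 (n : ℕ) (h2 : (2 : F) = 0) (hF : Fintype.card F = 2 ^ n) (hn : Odd n)
    (H : Subgroup PSL(2, F)) (φ : H ≃* alternatingGroup (Fin 4)) : False := by
  classical
  obtain ⟨v, c, hv2, hv1, hc3, hc1, hcomm⟩ := a4_elts
  let f : alternatingGroup (Fin 4) →* PSL(2, F) := H.subtype.comp φ.symm.toMonoidHom
  have hf : Function.Injective f := H.subtype_injective.comp φ.symm.injective
  obtain ⟨V, hV⟩ := mkP_surjective (f v)
  obtain ⟨C, hC⟩ := mkP_surjective (f c)
  have hinj := mkP_injective_of_two_eq_zero h2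
  have hV2 : V * V = 1 := hinj (by rw [map_mul, hV, ← map_mul, hv2, map_one, map_one])
  have hV1 : V ≠ 1 := by
    rintro rfl
    apply hv1
    apply hf
    rw [← hV, map_one, map_one]
  have hC3 : C ^ 3 = 1 := hinj (by rw [map_pow, hC, ← map_pow, hc3, map_one, map_one])
  have hC1 : C ≠ 1 := by
    rintro rfl
    apply hc1
    apply hf
    rw [← hC, map_one, map_one]
  have hcm : (C * V * C⁻¹) * V = V * (C * V * C⁻¹) := hinj (by
    have := congrArg f hcomm
    simp only [map_mul, map_inv] at this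
    simp only [map_mul, map_inv, hV, hC]
    exact this)
  haveI : CharP F 2 := CharTwo.of_one_ne_zero_of_two_eq_zero one_ne_zero h2
  haveI : Fact (Nat.Prime 2) := ⟨Nat.prime_two⟩
  have htr : tr V = 2 := tr_eq_two_of_pow_prime_pow 2 V 1 (by rw [pow_one, pow_two]; exact hV2)
  obtain ⟨g, b, hb, hgb⟩ := exists_conj_x_ne_of_tr_eq_two V htr hV1
  set C' := g * C * g⁻¹ with hC'
  have e1 : C' * x b * C'⁻¹ = g * (C * V * C⁻¹) * g⁻¹ := by
    rw [← hgb, hC']; group
  have e2 : (C' * x b * C'⁻¹) * x b = x b * (C' * x b * C'⁻¹) := by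
    rw [e1, ← hgb]
    calc g * (C * V * C⁻¹) * g⁻¹ * (g * V * g⁻¹) = g * ((C * V * C⁻¹) * V) * g⁻¹ := by group
      _ = g * (V * (C * V * C⁻¹)) * g⁻¹ := by rw [hcm]
      _ = _ := by group
  have hC'3 : C' ^ 3 = 1 := by
    rw [hC', conj_pow, hC3]; simp
  have hC'1 : C' ≠ 1 := by
    intro e
    apply hC1
    rw [hC', mul_inv_eq_one] at e
    exact mul_left_cancel (a := g) (by rw [e, mul_one])
  have hγ : C'.1 1 0 = 0 := by
    have h3 : ∃ t, C' * x b * C'⁻¹ = x t := by
      rcases eq_x_or_neg_x_of_commute hb e2 with ⟨t, ht⟩ | ⟨t, ht⟩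
      · exact ⟨t, ht⟩
      · exact ⟨t, by rw [ht, neg_eq_self_of_two_eq_zero h2]⟩
    obtain ⟨t, ht⟩ := h3
    have ht0 : t ≠ 0 := by
      rintro rfl
      rw [x_zero, mul_inv_eq_one] at ht
      have h4 : x b = 1 := mul_left_cancel (a := C') (by rw [ht, mul_one])
      have := congrArg (fun A : SL(2, F) => A.1 0 1) h4
      simp at this
      exact hb this
    exact ((conj_x_eq_x_iff ht0).1 ht).1
  have hdet := det_entries C'
  rw [hγ, mul_zero, sub_zero] at hdet
  have h00 := congrArg (fun A : SL(2, F) => A.1 0 0) hC'3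
  have h01 := congrArg (fun A : SL(2, F) => A.1 0 1) hC'3
  simp only [pow_three, mul_00, mul_01, mul_10, mul_11, hγ, one_00, one_01] at h00 h01
  set α := C'.1 0 0
  set β := C'.1 0 1
  set δ := C'.1 1 1
  have hα3 : α * α * α = 1 := by linear_combination h00
  have hα0 : α ≠ 0 := by
    rintro e
    rw [e] at hdet
    simp at hdet
  have hα1 : α ≠ 1 := by
    intro e
    have hδ : δ = 1 := by rw [e, one_mul] at hdet; exact hdet
    rw [e, hδ] at h01
    have hβ : β = 0 := by linear_combination h01 - β * h2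
    apply hC'1
    apply ext2
    · simpa using e
    · simpa using hβ
    · simpa using hγ
    · simpa using hδ
  let u : Fˣ := Units.mk0 α hα0
  have hu : orderOf u = 3 := by
    apply orderOf_eq_prime
    · ext
      simp [u, pow_three, mul_assoc] at hα3 ⊢
      exact hα3
    · intro e
      apply hα1
      have := congrArg Units.val e
      simpa [u] using this
  have h3 : 3 ∣ Fintype.card Fˣ := hu ▸ orderOf_dvd_card
  rw [Fintype.card_units, hF] at h3
  have h4 := two_pow_mod n hn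
  have h5 : 2 ^ n ≥ 1 := Nat.one_le_two_pow
  omega

theorem main_aux (p n : ℕ) [Fact p.Prime] [CharP F p] (hF : Fintype.card F = p ^ n) :
    (∃ H : Subgroup PSL(2, F), Nonempty (H ≃* alternatingGroup (Fin 4))) ↔ ¬ (p = 2 ∧ Odd n) := by
  constructor
  · rintro ⟨H, ⟨φ⟩⟩ ⟨rfl, hn⟩
    have h2 : (2 : F) = 0 := by exact_mod_cast CharP.cast_eq_zero F 2
    exact no_a4 n h2 hF hn H φ
  · intro h
    by_cases hp : p = 2
    · subst hp
      have hn : Even n := by
        rw [← Nat.not_odd_iff_even]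
        exact fun hn => h ⟨rfl, hn⟩
      have h2 : (2 : F) = 0 := by exact_mod_cast CharP.cast_eq_zero F 2
      obtain ⟨k, rfl⟩ := hn
      have h3 : 3 ∣ Fintype.card F - 1 := by
        rw [hF, ← two_mul, pow_mul]
        have := Nat.sub_dvd_pow_sub_pow (2 ^ 2) 1 k
        simpa using this
      obtain ⟨ω, hω⟩ := exists_omega h3
      exact exists_A4_two h2 hω
    · have h2 : (2 : F) ≠ 0 := by
        intro e
        have h4 : ((2 : ℕ) : F) = 0 := by exact_mod_cast e
        rw [CharP.cast_eq_zero_iff F p] at h4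
        have h5 := (Nat.prime_dvd_prime_iff_eq Fact.out Nat.prime_two).1 h4
        exact hp h5
      exact exists_A4_odd h2

end Aux

/-- PSL_2(p^n) has a subgroup isomorphic to A_4 if and only if it is not the case that p = 2 and n is odd. -/
theorem result {F : Type*} [Field F] [Fintype F] (p n : ℕ) [Fact p.Prime] [CharP F p] (hF : Fintype.card F = p ^ n) : (∃ H : Subgroup (Matrix.ProjectiveSpecialLinearGroup (Fin 2) F), Nonempty (H ≃* alternatingGroup (Fin 4))) ↔ ¬ (p = 2 ∧ Odd n) :=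
  main_aux p n hF

end Cfsg.Agent.S0802
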