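import Cfsg.Statements.S0803
import Cfsg.Agent.Lib.PSL2.Icosian
import Cfsg.Agent.Lib.PSL2.Unipotent
import Cfsg.Agent.Lib.PSL2.TorusCore
import Cfsg.Agent.Lib.PSL2.Torus

set_option autoImplicit false
open Cfsg

namespace Cfsg.Agent.S0803

section Aux

open Matrix Matrix.SpecialLinearGroup
open scoped MatrixGroups
open Cfsg.Agent.Lib.PSL2.Basic Cfsg.Agent.Lib.PSL2.Unipotent Cfsg.Agent.Lib.PSL2.Icosian

lemma s4_elt : ∃ s : Equiv.Perm (Fin 4), s ^ 4 = 1 ∧ s * s ≠ 1 :=
  ⟨Equiv.swap 0 1 * Equiv.swap 1 2 * Equiv.swap 2 3, by decide, by decide⟩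

variable {F : Type*} [Field F] [Fintype F]

/-- In characteristic two, no `S₄`. -/
lemma no_s4 (h2 : (2 : F) = 0) (H : Subgroup PSL(2, F)) (φ : H ≃* Equiv.Perm (Fin 4)) : False := by
  classical
  obtain ⟨s, hs4, hs2⟩ := s4_elt
  let f : Equiv.Perm (Fin 4) →* PSL(2, F) := H.subtype.comp φ.symm.toMonoidHom
  have hf : Function.Injective f := H.subtype_injective.comp φ.symm.injective
  obtain ⟨S, hS⟩ := mkP_surjective (f s)
  have hinj := mkP_injective_of_two_eq_zero h2
  have hS4 : S ^ 4 = 1 := hinj (by rw [map_pow, hS, ← map_pow, hs4, map_one, map_one])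
  have : CharP F 2 := CharTwo.of_one_ne_zero_of_two_eq_zero one_ne_zero h2
  have : Fact (Nat.Prime 2) := ⟨Nat.prime_two⟩
  have htr : tr S = 2 := tr_eq_two_of_pow_prime_pow 2 S 2 (by simpa using hS4)
  have hSS : S * S = 1 := by
    rw [(Cfsg.Agent.Lib.PSL2.Torus.mul_self_eq_neg_one_iff S).2 (by rw [htr, h2]),
      neg_eq_self_of_two_eq_zero h2]
  apply hs2
  apply hf
  rw [map_mul, ← hS, ← map_mul, hSS, map_one, map_one]

theorem main_aux {q : ℕ} (hF : Fintype.card F = q) :
    (∃ H : Subgroup PSL(2, F), Nonempty (H ≃* Equiv.Perm (Fin 4))) ↔ q ^ 2 % 16 = 1 := by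
  constructor
  · rintro ⟨H, ⟨φ⟩⟩
    by_cases h2 : (2 : F) = 0
    · exact (no_s4 h2 H φ).elim
    · have hodd : q % 2 = 1 := by
        rw [← hF]
        apply FiniteField.odd_card_of_char_ne_two
        intro hc
        apply h2
        have := ringChar.Nat.cast_ringChar (R := F)
        rw [hc] at this
        exact_mod_cast this
      have hH : Nat.card H = 24 := by
        rw [Nat.card_congr φ.toEquiv, Nat.card_eq_fintype_card, Fintype.card_perm]
        rfl
      have hd : Nat.card H ∣ Nat.card PSL(2, F) := Subgroup.card_subgroup_dvd_card H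
      rw [hH] at hd
      have hc := card_PSL2_of_two_ne_zero h2
      rw [hF] at hc
      have h8 : 16 ∣ q * (q ^ 2 - 1) := by
        rw [← hc]
        obtain ⟨k, hk⟩ := hd
        exact ⟨3 * k, by rw [hk]; ring⟩
      have hcop : Nat.Coprime 16 q := by
        have : Nat.Coprime (2 ^ 4) q := Nat.Coprime.pow_left 4
          ((Nat.Prime.coprime_iff_not_dvd Nat.prime_two).2 (by omega))
        simpa using this
      have h9 : 16 ∣ q ^ 2 - 1 := hcop.dvd_of_dvd_mul_left h8
      have h10 : q ^ 2 ≥ 1 := Nat.one_le_pow _ _ (by omega)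
      omega
  · intro h
    have hm : q % 16 = 1 ∨ q % 16 = 7 ∨ q % 16 = 9 ∨ q % 16 = 15 := by
      rw [Nat.pow_mod] at h
      have h3 : q % 16 < 16 := Nat.mod_lt _ (by norm_num)
      generalize q % 16 = m at h h3 ⊢
      interval_cases m <;> simp_all
    have hodd : Odd q := Nat.odd_iff.2 (by omega)
    have h2 : (2 : F) ≠ 0 := Cfsg.Agent.Lib.PSL2.TorusCore.two_ne_zero_of_odd_card (by rw [hF]; exact hodd)
    have hsq : IsSquare (2 : F) := by
      rw [FiniteField.isSquare_two_iff, hF]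
      omega
    obtain ⟨t, ht⟩ := hsq
    have ht0 : t ≠ 0 := by
      rintro rfl
      apply h2
      rw [ht, mul_zero]
    refine exists_S4_odd h2 (r := t⁻¹) ?_
    rw [ht]
    field_simp

end Aux

/-- PSL_2(q) has a subgroup isomorphic to S_4 iff q² ≡ 1 (mod 16). -/
theorem result {F : Type*} [Field F] [Fintype F] {q : ℕ} (hF : Fintype.card F = q) : (∃ H : Subgroup (Matrix.ProjectiveSpecialLinearGroup (Fin 2) F), Nonempty (H ≃* Equiv.Perm (Fin 4))) ↔ q ^ 2 % 16 = 1 :=
  main_aux hF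

end Cfsg.Agent.S0803
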