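import Cfsg.Statements.S0848
import Mathlib
import Cfsg.Agent.Lib.SmallCen.D8Char

set_option autoImplicit false
open Cfsg

namespace Cfsg.Agent.S0848

/-- If a finite group equals its own commutator subgroup and contains an involution whose centralizer is isomorphic to the dihedral group of order 8, then the group has order 168 or 360. -/
theorem result {G : Type*} [Group G] [Finite G] (hperf : commutator G = ⊤) (t : G) (ht : orderOf t = 2) (e : Subgroup.centralizer ({t} : Set G) ≃* DihedralGroup 4) : Nat.card G = 168 ∨ Nat.card G = 360 := by
  have h2 : ∀ H : Subgroup G, H.index ≠ 2 := by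
    intro H hH
    have hle : commutator G ≤ H := by
      rw [commutator_def, Subgroup.commutator_le]
      intro g _ h _
      rw [commutatorElement_def]
      have key := @Subgroup.mul_mem_iff_of_index_two G _ H hH
      have hinv : ∀ x : G, x⁻¹ ∈ H ↔ x ∈ H := fun x => H.inv_mem_iff
      rw [key, key, key, hinv, hinv]
      tauto
    rw [hperf, top_le_iff] at hle
    rw [hle, Subgroup.index_top] at hH
    omega
  exact (Cfsg.Agent.Lib.SmallCen.D8Char.main e ht h2).1

end Cfsg.Agent.S0848
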