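import Cfsg.Statements.S0857
import Mathlib
import Cfsg.Agent.Lib.Char.GoingDown
import Cfsg.Agent.Lib.Char.Monomial
-- import your own Cfsg.Agent.* helpers here

set_option autoImplicit false
open Cfsg

namespace Cfsg.Agent.S0857

open Cfsg.Agent.Lib.Char.Basic Cfsg.Agent.Lib.Char.Ortho Cfsg.Agent.Lib.Char.Induced
  Cfsg.Agent.Lib.Char.IndRep Cfsg.Agent.Lib.Char.Clifford Cfsg.Agent.Lib.Char.CliffordCorr
  Cfsg.Agent.Lib.Char.GoingDown
open scoped ComplexConjugate

/-- Let L < K be normal subgroups of the finite group G with no normal subgroup of G strictly between them and with K / L abelian (the commutator subgroup of K lies in L). Let ϑ be an irreducible character of K invariant under conjugation by G. Then the restriction of ϑ to L is irreducible; or it equals e times an irreducible character of L with e ^ 2 equal to the index of L in K; or it is the sum of a family of pairwise distinct irreducible characters of L indexed by a set whose size is the index of L in K. -/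
theorem result {G : Type*} [Group G] [Fintype G] (K L : Subgroup G) [hK : K.Normal] [L.Normal] (hLK : L < K) (hchief : ∀ M : Subgroup G, M.Normal → L ≤ M → M ≤ K → M = L ∨ M = K) (hab : ⁅K, K⁆ ≤ L) (ϑ : K → ℂ) (hϑ : Cfsg.IsIrrCharacter K ϑ) (hinv : ∀ (g : G) (n : K), ϑ ⟨g * n * g⁻¹, hK.conj_mem (n : G) n.2 g⟩ = ϑ n) : Cfsg.IsIrrCharacter L (fun x : L => ϑ ⟨(x : G), hLK.le x.2⟩) ∨ (∃ (φ : L → ℂ) (e : ℕ), Cfsg.IsIrrCharacter L φ ∧ (fun x : L => ϑ ⟨(x : G), hLK.le x.2⟩) = (e : ℂ) • φ ∧ e ^ 2 = L.relIndex K) ∨ (∃ F : Finset (L → ℂ), (∀ φ ∈ F, Cfsg.IsIrrCharacter L φ) ∧ F.card = L.relIndex K ∧ (fun x : L => ϑ ⟨(x : G), hLK.le x.2⟩) = ∑ φ ∈ F, φ) := by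
  classical
  letI : Fintype K := Fintype.ofFinite _
  letI : Fintype L := Fintype.ofFinite _
  have hLK' : L ≤ K := hLK.le
  let N : Subgroup K := L.subgroupOf K
  haveI hNn : N.Normal := Subgroup.normal_subgroupOf
  letI : Fintype N := Fintype.ofFinite _
  let e₀ : N ≃* L := Subgroup.subgroupOfEquivOfLe hLK'
  have habN : ∀ x y : K, x * y * x⁻¹ * y⁻¹ ∈ N := by
    intro x y
    rw [Subgroup.mem_subgroupOf]
    exact hab (Subgroup.commutator_mem_commutator x.2 y.2)
  have hϑc := isCharacter_of_isIrrCharacter hϑ
  -- the subgroup generated by `L` and the nonvanishing set of `ϑ`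
  let S : Set G := (L : Set G) ∪ {x | ∃ h : x ∈ K, ϑ ⟨x, h⟩ ≠ 0}
  let M : Subgroup G := Subgroup.closure S
  have hSconj : ∀ g : G, ∀ x ∈ S, g * x * g⁻¹ ∈ S := by
    intro g x hx
    rcases hx with hx | ⟨h, hx⟩
    · left
      exact (inferInstance : L.Normal).conj_mem x hx g
    · right
      refine ⟨hK.conj_mem x h g, ?_⟩
      have := hinv g ⟨x, h⟩
      rw [show (⟨g * x * g⁻¹, hK.conj_mem x h g⟩ : K) = ⟨g * ((⟨x, h⟩ : K) : G) * g⁻¹, hK.conj_mem _ h g⟩ from rfl, this]
      exact hx
  have hMnormal : M.Normal := by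
    constructor
    intro x hx g
    induction hx using Subgroup.closure_induction with
    | mem x hx => exact Subgroup.subset_closure (hSconj g x hx)
    | one => simp
    | mul a b _ _ ha hb =>
      have : g * (a * b) * g⁻¹ = (g * a * g⁻¹) * (g * b * g⁻¹) := by group
      rw [this]
      exact M.mul_mem ha hb
    | inv a _ ha =>
      have : g * a⁻¹ * g⁻¹ = (g * a * g⁻¹)⁻¹ := by group
      rw [this]
      exact M.inv_mem ha
  have hLM : L ≤ M := fun x hx => Subgroup.subset_closure (Or.inl hx)
  have hMK : M ≤ K := by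
    rw [Subgroup.closure_le]
    rintro x (hx | ⟨h, -⟩)
    · exact hLK' hx
    · exact h
  rcases hchief M hMnormal hLM hMK with hML | hMK'
  · -- `ϑ` vanishes off `L`
    have hv : ∀ x : K, x ∉ N → ϑ x = 0 := by
      intro x hx
      by_contra hne
      apply hx
      rw [Subgroup.mem_subgroupOf, ← hML]
      exact Subgroup.subset_closure (Or.inr ⟨x.2, hne⟩)
    have hnorm := classInner_res_self_of_vanish N hϑ hv
    right
    have hres := isCharacter_restrict hϑc N
    have h1 : (fun n : N => ϑ n) 1 ≠ 0 := by
      simpa using irr_apply_one_ne_zero hϑ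
    obtain ⟨φ, hφ, hne⟩ := exists_irr_constituent hres h1
    have hφcl := isClassFunction_of_isCharacter (isCharacter_of_isIrrCharacter hφ)
    let φ₀ : L → ℂ := fun x => φ (e₀.symm x)
    let I : Subgroup G := Cfsg.Agent.Lib.Char.Monomial.inertiaOf L φ₀
    have hφ₀cl : IsClassFunction L φ₀ := by
      intro g x
      simp only [φ₀, map_mul, map_inv]
      exact hφcl _ _
    have hLI : L ≤ I := by
      intro h hh
      refine (Cfsg.Agent.Lib.Char.Monomial.mem_inertiaOf L φ₀ h).mpr (fun n => ?_)
      exact hφ₀cl n ⟨h, hh⟩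
    -- Frattini argument
    have hfrat : ∀ g : G, ∃ k ∈ K, ∃ i ∈ I, g = i * k := by
      intro g
      let τ : N ≃* N :=
        { toFun := fun n => ⟨⟨g * ((n : K) : G) * g⁻¹, hK.conj_mem _ (n : K).2 g⟩,
            (inferInstance : L.Normal).conj_mem _ n.2 g⟩
          invFun := fun n => ⟨⟨g⁻¹ * ((n : K) : G) * g, by
              simpa using hK.conj_mem _ (n : K).2 g⁻¹⟩, by
              have := (inferInstance : L.Normal).conj_mem _ n.2 g⁻¹
              rw [inv_inv] at this
              exact this⟩
          left_inv := by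
            intro n
            ext
            simp [mul_assoc]
          right_inv := by
            intro n
            ext
            simp [mul_assoc]
          map_mul' := by
            intro a b
            ext
            simp [mul_assoc] }
      have hτ : ∀ n : N, ((τ n : K) : G) = g * ((n : K) : G) * g⁻¹ := fun n => rfl
      have hφg : IsIrrCharacter N (fun n => φ (τ n)) :=
        isIrrCharacter_comp_surjective hφ τ.toMonoidHom τ.surjective
      have hne' : classInner (fun n : N => ϑ n) (fun n => φ (τ n)) ≠ 0 := by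
        have h3 : (fun n : N => ϑ n) = (fun n : N => (fun n : N => ϑ n) (τ n)) := by
          funext n
          exact (hinv g (n : K)).symm
        have h4 := classInner_comp_equiv τ (fun n : N => ϑ n) φ
        rw [h3]
        rw [h4]
        exact hne
      obtain ⟨k, hk⟩ := exists_conj_of_classInner_ne_zero N hϑ hφ hφg hne hne'
      refine ⟨k, k.2, g * (k : G)⁻¹, ?_, by group⟩
      have hi : (k : G) * g⁻¹ ∈ I := by
        refine (Cfsg.Agent.Lib.Char.Monomial.mem_inertiaOf L φ₀ _).mpr (fun x => ?_)
        let n : N := τ.symm (e₀.symm x)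
        have h3 := congrFun hk n
        simp only [conjFun] at h3
        simp only [φ₀]
        have h4 : e₀.symm x = τ n := by simp [n]
        rw [h4, h3]
        congr 1
        ext
        simp [n, τ, e₀, conjFun, mul_assoc]
        rfl
      have := I.inv_mem hi
      simpa using this
    let T₀ : Subgroup G := K ⊓ I
    have hLT : L ≤ T₀ := le_inf hLK' hLI
    have hT₀n : T₀.Normal := by
      constructor
      intro t ht g
      obtain ⟨k, hk, i, hi, rfl⟩ := hfrat g
      have ht1 : k * t * k⁻¹ ∈ T₀ := by
        have h3 : k * t * k⁻¹ = (k * t * k⁻¹ * t⁻¹) * t := by group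
        rw [h3]
        refine T₀.mul_mem (hLT ?_) ht
        exact hab (Subgroup.commutator_mem_commutator hk ht.1)
      have h4 : i * k * t * (i * k)⁻¹ = i * (k * t * k⁻¹) * i⁻¹ := by group
      rw [h4]
      exact ⟨hK.conj_mem _ ht1.1 i, I.mul_mem (I.mul_mem hi ht1.2) (I.inv_mem hi)⟩
    have hTcases := hchief T₀ hT₀n hLT inf_le_left
    let T : Subgroup K := T₀.subgroupOf K
    have hT : ∀ k : K, k ∈ T ↔ ∀ n : N, φ ⟨k * n * k⁻¹, hNn.conj_mem _ n.2 k⟩ = φ n := by
      intro k
      constructor
      · intro hk n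
        have hk2 : (k : G) ∈ I := (Subgroup.mem_subgroupOf.mp hk).2
        have h3 := (Cfsg.Agent.Lib.Char.Monomial.mem_inertiaOf L φ₀ k).mp hk2 (e₀ n)
        simp only [φ₀] at h3
        have h5 : e₀.symm (e₀ n) = n := e₀.symm_apply_apply n
        rw [h5] at h3
        rw [← h3]
        congr 1
      · intro h
        rw [Subgroup.mem_subgroupOf]
        refine ⟨k.2, (Cfsg.Agent.Lib.Char.Monomial.mem_inertiaOf L φ₀ k).mpr (fun x => ?_)⟩
        simp only [φ₀]
        have h3 := h (e₀.symm x)
        rw [← h3]
        congr 1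
    have hcl := res_eq_smul_finsum N hϑ hφ hne
    have hfin := orbitSet_finite N hφ
    rw [finsum_mem_eq_finite_toFinset_sum _ hfin] at hcl
    set O := hfin.toFinset with hO
    have hOcard : O.card = T.index := by
      rw [hO, ← Set.ncard_eq_toFinset_card _ hfin]
      exact ncard_orbitSet N φ T hT
    have hOirr : ∀ ψ ∈ O, IsIrrCharacter N ψ := fun ψ hψ =>
      orbitSet_subset_irr N hφ ((Set.Finite.mem_toFinset hfin).mp hψ)
    obtain ⟨e, he⟩ := exists_nat_classInner_of_isCharacter hres (isCharacter_of_isIrrCharacter hφ)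
    rw [he] at hcl
    have hnorm2 : (e : ℂ) ^ 2 * O.card = N.index := by
      rw [← hnorm, hcl, classInner_smul_left, classInner_smul_right, classInner_sum_self hOirr]
      simp only [Complex.conj_natCast]
      ring
    -- transport to `L`
    have hcomp : ∀ ψ : N → ℂ, IsIrrCharacter N ψ → IsIrrCharacter L (fun x => ψ (e₀.symm x)) := by
      intro ψ hψ
      exact isIrrCharacter_comp_surjective hψ e₀.symm.toMonoidHom e₀.symm.surjective
    have hres2 : (fun x : L => ϑ ⟨(x : G), hLK.le x.2⟩) =
        fun x : L => (fun n : N => ϑ n) (e₀.symm x) := rfl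
    rcases hTcases with hTL | hTK
    · -- `T₀ = L`
      right
      have hTN : T = N := by
        simp only [T, N, hTL]
      have hcard : O.card = N.index := by rw [hOcard, hTN]
      rw [hcard] at hnorm2
      have hI : (N.index : ℂ) ≠ 0 := by
        exact_mod_cast (Subgroup.index_ne_zero_of_finite (H := N))
      have he2 : (e : ℂ) ^ 2 = 1 := mul_right_cancel₀ hI (by rw [hnorm2, one_mul])
      have he1 : e = 1 := by
        have : e ^ 2 = 1 := by exact_mod_cast he2
        simpa using this
      subst he1
      let F : (N → ℂ) → (L → ℂ) := fun ψ x => ψ (e₀.symm x)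
      have hFinj : Function.Injective F := by
        intro a b h
        funext n
        have := congrFun h (e₀ n)
        simpa [F] using this
      refine ⟨O.image F, ?_, ?_, ?_⟩
      · intro ψ hψ
        obtain ⟨ψ', hψ', rfl⟩ := Finset.mem_image.mp hψ
        exact hcomp ψ' (hOirr ψ' hψ')
      · rw [Finset.card_image_of_injective _ hFinj, hcard]
        rfl
      · rw [Finset.sum_image hFinj.injOn]
        funext x
        have h6 := congrFun hcl (e₀.symm x)
        rw [Nat.cast_one, one_smul] at h6
        rw [Finset.sum_apply] at h6 ⊢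
        exact h6
    · -- `T₀ = K`
      left
      have hTtop : T = ⊤ := by
        rw [eq_top_iff]
        intro k _
        rw [Subgroup.mem_subgroupOf, hTK]
        exact k.2
      have hcard : O.card = 1 := by
        rw [hOcard, hTtop, Subgroup.index_top]
      have hφO : φ ∈ O := (Set.Finite.mem_toFinset hfin).mpr (mem_orbitSet_self N φ)
      have hOs : O = {φ} := by
        obtain ⟨a, ha⟩ := Finset.card_eq_one.mp hcard
        rw [ha] at hφO ⊢
        rw [Finset.mem_singleton.mp hφO]
      rw [hOs, Finset.sum_singleton] at hcl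
      refine ⟨fun x => φ (e₀.symm x), e, hcomp φ hφ, ?_, ?_⟩
      · funext x
        exact congrFun hcl (e₀.symm x)
      · rw [hcard, Nat.cast_one, mul_one] at hnorm2
        have : e ^ 2 = N.index := by exact_mod_cast hnorm2
        exact this
  · left
    have := isIrr_res_of_generates N habN hϑ ?_
    · exact isIrrCharacter_comp_surjective this e₀.symm.toMonoidHom e₀.symm.surjective
    · intro ξ hξN hξm hξϑ x
      have hξ1 : ξ 1 = 1 := by
        have := hξN 1
        simpa using this
      have hinv' : ∀ a : K, ξ a = 1 → ξ a⁻¹ = 1 := by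
        intro a ha
        have h2 := hξm a a⁻¹
        rw [mul_inv_cancel, hξ1, ha, one_mul] at h2
        exact h2.symm
      have key : ∀ y ∈ M, ∃ h : y ∈ K, ξ ⟨y, h⟩ = 1 := by
        intro y hy
        induction hy using Subgroup.closure_induction with
        | mem x hx =>
          rcases hx with hx | ⟨h, hx⟩
          · exact ⟨hLK' hx, hξN ⟨⟨x, hLK' hx⟩, hx⟩⟩
          · exact ⟨h, hξϑ _ hx⟩
        | one => exact ⟨K.one_mem, hξ1⟩
        | mul a b _ _ ha hb =>
          obtain ⟨h1, h2⟩ := ha
          obtain ⟨h3, h4⟩ := hb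
          refine ⟨K.mul_mem h1 h3, ?_⟩
          have := hξm ⟨a, h1⟩ ⟨b, h3⟩
          rw [h2, h4, one_mul] at this
          exact this
        | inv a _ ha =>
          obtain ⟨h1, h2⟩ := ha
          exact ⟨K.inv_mem h1, hinv' _ h2⟩
      obtain ⟨h, hx⟩ := key x (by rw [hMK']; exact x.2)
      exact hx

end Cfsg.Agent.S0857
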