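import Cfsg.Statements.S0858
import Mathlib
import Cfsg.Agent.Lib.Char.GoingDown
import Cfsg.Agent.Lib.Char.Monomial
import Cfsg.Agent.S0857
-- import your own Cfsg.Agent.* helpers here

set_option autoImplicit false
open Cfsg

namespace Cfsg.Agent.S0858

open Cfsg.Agent.Lib.Char.Basic Cfsg.Agent.Lib.Char.Ortho Cfsg.Agent.Lib.Char.Induced
  Cfsg.Agent.Lib.Char.IndRep Cfsg.Agent.Lib.Char.Clifford Cfsg.Agent.Lib.Char.CliffordCorr
  Cfsg.Agent.Lib.Char.GoingDown Cfsg.Agent.Lib.Char.Monomial
open scoped ComplexConjugate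

universe u


/-- A chief factor above `N`, with `G/N` solvable, is abelian. -/
theorem commutator_le_of_chief {G : Type*} [Group G] (N K L : Subgroup G) [hNn : N.Normal]
    [hKn : K.Normal] [hLn : L.Normal] (hsolv : Group.IsSolvable (G ⧸ N)) (hNL : N ≤ L) (hLK : L < K)
    (hchief : ∀ M : Subgroup G, M.Normal → L ≤ M → M ≤ K → M = L ∨ M = K) : ⁅K, K⁆ ≤ L := by
  have hcn : (⁅K, K⁆ : Subgroup G).Normal := Subgroup.commutator_normal K K
  have hMn : (L ⊔ ⁅K, K⁆).Normal := Subgroup.sup_normal _ _
  have hcK : (⁅K, K⁆ : Subgroup G) ≤ K := Subgroup.commutator_le_left K K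
  rcases hchief (L ⊔ ⁅K, K⁆) hMn le_sup_left (sup_le hLK.le hcK) with h | h
  · rw [← h]
    exact le_sup_right
  · exfalso
    -- `G ⧸ L` is solvable
    let f : G ⧸ N →* G ⧸ L := QuotientGroup.map N L (MonoidHom.id G) hNL
    have hf : Function.Surjective f := by
      intro q
      obtain ⟨g, rfl⟩ := QuotientGroup.mk'_surjective L q
      exact ⟨(g : G ⧸ N), rfl⟩
    haveI hs : IsSolvable (G ⧸ L) := solvable_of_surjective hf
    let π : G →* G ⧸ L := QuotientGroup.mk' L
    have hπL : L.map π = ⊥ := by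
      rw [Subgroup.map_eq_bot_iff, QuotientGroup.ker_mk']
    have hπK : K.map π = ⁅K.map π, K.map π⁆ := by
      conv_lhs => rw [← h]
      rw [Subgroup.map_sup, hπL, bot_sup_eq, Subgroup.map_commutator]
    have key : ∀ n : ℕ, K.map π ≤ derivedSeries (G ⧸ L) n := by
      intro n
      induction n with
      | zero => exact le_top
      | succ n ih =>
        rw [derivedSeries_succ, hπK]
        exact Subgroup.commutator_mono ih ih
    obtain ⟨n, hn⟩ := hs.solvable
    have h0 := key n
    rw [hn, le_bot_iff, Subgroup.map_eq_bot_iff, QuotientGroup.ker_mk'] at h0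
    exact absurd h0 (not_le_of_gt hLK)

/-- Solvability passes to subgroups of a quotient. -/
theorem isSolvable_quotient_subgroupOf {G : Type*} [Group G] (N T : Subgroup G) [hNn : N.Normal]
    (hsolv : Group.IsSolvable (G ⧸ N)) : Group.IsSolvable (T ⧸ (N.subgroupOf T)) := by
  let f : T ⧸ (N.subgroupOf T) →* G ⧸ N :=
    QuotientGroup.map (N.subgroupOf T) N T.subtype (fun x hx => hx)
  have hf : Function.Injective f := by
    rw [injective_iff_map_eq_one]
    intro q
    obtain ⟨x, rfl⟩ := QuotientGroup.mk'_surjective (N.subgroupOf T) q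
    intro h
    have h2 : ((x : G) : G ⧸ N) = 1 := h
    rw [QuotientGroup.eq_one_iff] at h2
    exact (QuotientGroup.eq_one_iff x).mpr h2
  exact solvable_of_solvable_injective hf

/-- The inductive statement. -/
theorem aux : ∀ (m : ℕ) (G : Type u) [Group G] [Fintype G] (N : Subgroup G) [hNn : N.Normal],
    Nat.card G = m → Group.IsSolvable (G ⧸ N) →
    (∀ (H K L : Subgroup G), N ≤ L → L < K → K ≤ H → (∀ h ∈ H, ∀ k ∈ K, h * k * h⁻¹ ∈ K) →
      (∀ h ∈ H, ∀ l ∈ L, h * l * h⁻¹ ∈ L) →
      (∀ M : Subgroup G, L ≤ M → M ≤ K → (∀ h ∈ H, ∀ m ∈ M, h * m * h⁻¹ ∈ M) → M = L ∨ M = K) →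
      ¬ IsSquare (L.relIndex K)) →
    ∀ χ : G → ℂ, IsIrrCharacter G χ →
    ∃ (H : Subgroup G) (hNH : N ≤ H) (ψ : H → ℂ), IsIrrCharacter H ψ ∧ indFun H ψ = χ ∧
      IsIrrCharacter N (fun n : N => ψ ⟨(n : G), hNH n.2⟩) := by
  intro m
  induction m using Nat.strong_induction_on with
  | _ m ih =>
    intro G _ _ N _ hm hsolv hchief χ hχ
    classical
    by_cases hind : ∃ T : Subgroup G, T ≠ ⊤ ∧ N ≤ T ∧ ∃ ψ : T → ℂ, IsIrrCharacter T ψ ∧ indFun T ψ = χ
    · obtain ⟨T, hT, hNT, ψ, hψ, hψχ⟩ := hind
      let _ : Fintype T := Fintype.ofFinite _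
      have hcard : Nat.card T < m := hm ▸ card_lt_of_ne_top hT
      let N' : Subgroup T := N.subgroupOf T
      haveI : N'.Normal := Subgroup.normal_subgroupOf
      have hsolv' : Group.IsSolvable (T ⧸ N') := isSolvable_quotient_subgroupOf N T hsolv
      have hchief' : ∀ (H K L : Subgroup T), N' ≤ L → L < K → K ≤ H →
          (∀ h ∈ H, ∀ k ∈ K, h * k * h⁻¹ ∈ K) → (∀ h ∈ H, ∀ l ∈ L, h * l * h⁻¹ ∈ L) →
          (∀ M : Subgroup T, L ≤ M → M ≤ K → (∀ h ∈ H, ∀ m ∈ M, h * m * h⁻¹ ∈ M) → M = L ∨ M = K) →
          ¬ IsSquare (L.relIndex K) := by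
        intro H K L hNL hLK hKH hHK hHL hmin
        have h0 := hchief (H.map T.subtype) (K.map T.subtype) (L.map T.subtype) ?_
          ((Subgroup.map_lt_map_iff_of_injective T.subtype_injective).mpr hLK) (Subgroup.map_mono hKH)
          ?_ ?_ ?_
        · rwa [Subgroup.relIndex_map_map_of_injective _ _ T.subtype_injective] at h0
        · intro n hn
          exact ⟨⟨n, hNT hn⟩, hNL hn, rfl⟩
        · rintro _ ⟨h, hh, rfl⟩ _ ⟨k, hk, rfl⟩
          exact ⟨h * k * h⁻¹, hHK h hh k hk, rfl⟩
        · rintro _ ⟨h, hh, rfl⟩ _ ⟨k, hk, rfl⟩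
          exact ⟨h * k * h⁻¹, hHL h hh k hk, rfl⟩
        · intro M hLM hMK hnorm
          have hMT : M ≤ T := by
            intro x hx
            obtain ⟨y, -, rfl⟩ := hMK hx
            exact y.2
          have hcases := hmin (M.subgroupOf T) ?_ ?_ ?_
          · rcases hcases with h1 | h1
            · left
              rw [← h1, Subgroup.map_subgroupOf_eq_of_le hMT]
            · right
              rw [← h1, Subgroup.map_subgroupOf_eq_of_le hMT]
          · intro x hx
            rw [Subgroup.mem_subgroupOf]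
            exact hLM ⟨x, hx, rfl⟩
          · intro x hx
            rw [Subgroup.mem_subgroupOf] at hx
            obtain ⟨y, hy, hyx⟩ := hMK hx
            have : y = x := Subtype.ext hyx
            rwa [← this]
          · intro h hh x hx
            rw [Subgroup.mem_subgroupOf] at hx ⊢
            exact hnorm _ ⟨h, hh, rfl⟩ _ hx
      obtain ⟨U, hNU, ν, hν, hνψ, hνN⟩ := ih _ hcard T N' rfl hsolv' hchief' ψ hψ
      let eU := U.equivMapOfInjective T.subtype T.subtype_injective
      have hNH : N ≤ U.map T.subtype := by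
        intro n hn
        exact ⟨⟨n, hNT hn⟩, hNU hn, rfl⟩
      refine ⟨U.map T.subtype, hNH, fun x => ν (eU.symm x), ?_, ?_, ?_⟩
      · exact isIrrCharacter_comp_surjective hν eU.symm.toMonoidHom eU.symm.surjective
      · rw [← hψχ, ← hνψ, ind_ind]
      · let eN : N ≃* N' := (Subgroup.subgroupOfEquivOfLe hNT).symm
        have h1 := isIrrCharacter_comp_surjective hνN eN.toMonoidHom eN.surjective
        convert h1 using 2
        show ν (eU.symm _) = ν _
        congr 1
        apply eU.injective
        rw [MulEquiv.apply_symm_apply]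
        apply Subtype.ext
        rfl
    · -- `χ` is not induced from a proper subgroup containing `N`
      have hχc := isCharacter_of_isIrrCharacter hχ
      have hχcl := isClassFunction_of_isCharacter hχc
      suffices hirrN : IsIrrCharacter N (fun n : N => χ n) by
        refine ⟨⊤, le_top, fun h => χ h, ?_, indFun_top hχcl, hirrN⟩
        exact isIrrCharacter_comp_surjective hχ (⊤ : Subgroup G).subtype
          (fun g => ⟨⟨g, Subgroup.mem_top g⟩, rfl⟩)
      -- minimal normal subgroup above `N` with irreducible restriction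
      let P : Subgroup G → Prop := fun K =>
        K.Normal ∧ N ≤ K ∧ IsIrrCharacter K (fun k : K => χ k)
      have hPtop : P ⊤ := ⟨inferInstance, le_top, isIrrCharacter_comp_surjective hχ
        (⊤ : Subgroup G).subtype (fun g => ⟨⟨g, Subgroup.mem_top g⟩, rfl⟩)⟩
      obtain ⟨K, hKmin⟩ := (Set.toFinite {K | P K}).exists_minimal ⟨⊤, hPtop⟩
      obtain ⟨⟨hKn, hNK, hKirr⟩, hKm⟩ := hKmin
      by_cases hKN : K = N
      · subst hKN
        exact hKirr
      exfalso
      have hNK' : N < K := lt_of_le_of_ne hNK (Ne.symm hKN)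
      -- a maximal normal subgroup below `K`
      obtain ⟨L, hLmax⟩ := (Set.toFinite {L : Subgroup G | L.Normal ∧ N ≤ L ∧ L < K}).exists_maximal
        ⟨N, inferInstance, le_rfl, hNK'⟩
      obtain ⟨⟨hLn, hNL, hLK⟩, hLm⟩ := hLmax
      haveI := hKn
      haveI := hLn
      have hchiefK : ∀ M : Subgroup G, M.Normal → L ≤ M → M ≤ K → M = L ∨ M = K := by
        intro M hM hLM hMK
        by_cases hMK' : M = K
        · exact Or.inr hMK'
        · left
          exact le_antisymm (hLm ⟨hM, hNL.trans hLM, lt_of_le_of_ne hMK hMK'⟩ hLM) hLM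
      have hab := commutator_le_of_chief N K L hsolv hNL hLK hchiefK
      have hinv : ∀ (g : G) (n : K), (fun k : K => χ k) ⟨g * n * g⁻¹, hKn.conj_mem (n : G) n.2 g⟩ =
          (fun k : K => χ k) n := fun g n => hχcl _ _
      have hres := Cfsg.Agent.S0857.result K L hLK hchiefK hab (fun k : K => χ k) hKirr hinv
      rcases hres with h1 | ⟨φ, e, hφ, h2, h3⟩ | ⟨F, hF, hFc, hFs⟩
      · -- the restriction to `L` is irreducible: contradicts minimality
        have := hKm (y := L) ⟨hLn, hNL, h1⟩ hLK.le
        exact absurd this (not_le_of_gt hLK)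
      · -- square index
        refine hchief ⊤ K L hNL hLK le_top (fun h _ k hk => hKn.conj_mem k hk h)
          (fun h _ l hl => hLn.conj_mem l hl h) ?_ ⟨e, ?_⟩
        · intro M hLM hMK hM
          exact hchiefK M ⟨fun m hm g => hM g trivial m hm⟩ hLM hMK
        · rw [← h3, sq]
      · -- sum of distinct characters
        let _ : Fintype L := Fintype.ofFinite _
        have hidx : 1 < L.relIndex K := by
          have h0 : L.relIndex K ≠ 0 := by
            exact Subgroup.index_ne_zero_of_finite
          have h1 : L.relIndex K ≠ 1 := by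
            intro h
            rw [Subgroup.relIndex_eq_one] at h
            exact absurd h (not_le_of_gt hLK)
          omega
        have hχL : (fun x : L => χ x) = ∑ φ ∈ F, φ := hFs
        have hin : ∀ φ ∈ F, classInner (fun x : L => χ x) φ ≠ 0 := by
          intro φ hφ
          rw [hχL, classInner_sum_left, Finset.sum_eq_single φ]
          · rw [classInner_irr_self (hF φ hφ)]
            exact one_ne_zero
          · intro φ' hφ' hne
            exact classInner_irr_of_ne (hF φ' hφ') (hF φ hφ) hne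
          · intro h
            exact absurd hφ h
        have hFne : F.Nonempty := by
          rw [← Finset.card_pos, hFc]
          omega
        obtain ⟨φ, hφ⟩ := hFne
        let T : Subgroup G := inertiaOf L φ
        let _ : Fintype T := Fintype.ofFinite _
        have hT : ∀ g : G, g ∈ T ↔ ∀ n : L, φ ⟨g * n * g⁻¹, hLn.conj_mem (n : G) n.2 g⟩ = φ n :=
          fun g => mem_inertiaOf L φ g
        have hφcl := isClassFunction_of_isCharacter (isCharacter_of_isIrrCharacter (hF φ hφ))
        have hLT : L ≤ T := by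
          intro h hh
          refine (hT h).mpr (fun n => ?_)
          exact hφcl n ⟨h, hh⟩
        obtain ⟨ψ, hψ, hψχ, -⟩ := exists_indFun_eq L φ T hLT (hF φ hφ) hT hχ (hin φ hφ)
        have hTtop : T = ⊤ := by
          by_contra hne
          exact hind ⟨T, hne, hNL.trans hLT, ψ, hψ, hψχ⟩
        obtain ⟨φ', hφ', hne⟩ := Finset.exists_mem_ne (by rw [hFc]; exact hidx) φ
        obtain ⟨g, hg⟩ := exists_conj_of_classInner_ne_zero L hχ (hF φ hφ) (hF φ' hφ') (hin φ hφ) (hin φ' hφ')
        apply hne
        rw [hg]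
        funext n
        exact (hT g).mp (by rw [hTtop]; trivial) n

/-- Let N be a normal subgroup of the finite group G with G / N solvable, and suppose that for every subgroup H containing N and all subgroups L < K between N and H that are normal in H with no subgroup normal in H strictly between them, the index of L in K is not a perfect square. Then every irreducible character χ of G is induced from an irreducible character ψ of some subgroup H containing N such that the restriction of ψ to N is irreducible. -/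
theorem result {G : Type*} [Group G] [Fintype G] (N : Subgroup G) [N.Normal] (hsolv : Group.IsSolvable (G ⧸ N)) (hchief : ∀ (H K L : Subgroup G), N ≤ L → L < K → K ≤ H → (∀ h ∈ H, ∀ k ∈ K, h * k * h⁻¹ ∈ K) → (∀ h ∈ H, ∀ l ∈ L, h * l * h⁻¹ ∈ L) → (∀ M : Subgroup G, L ≤ M → M ≤ K → (∀ h ∈ H, ∀ m ∈ M, h * m * h⁻¹ ∈ M) → M = L ∨ M = K) → ¬ IsSquare (L.relIndex K)) (χ : G → ℂ) (hχ : Cfsg.IsIrrCharacter G χ) : ∃ (H : Subgroup G) (hNH : N ≤ H) (ψ : H → ℂ), Cfsg.IsIrrCharacter H ψ ∧ Cfsg.indFun H ψ = χ ∧ Cfsg.IsIrrCharacter N (fun n : N => ψ ⟨(n : G), hNH n.2⟩) := by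
  exact aux _ G N rfl hsolv hchief χ hχ

end Cfsg.Agent.S0858
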