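import Cfsg.Statements.S0875
import Mathlib
import Cfsg.Agent.Lib.Char.PiRegular
import Cfsg.Agent.Lib.Char.Galois
import Cfsg.Agent.Lib.Char.Ortho
import Cfsg.Agent.Lib.Char.ClassMul
import Cfsg.Agent.Lib.Char.Complete
import Cfsg.Agent.Lib.Char.CompleteCor

set_option autoImplicit false
open Cfsg

namespace Cfsg.Agent.S0875

section

variable {G : Type*} [Group G] [Fintype G]

/-- Uniqueness of the decomposition. -/
theorem decomp_unique {m n : ℕ} (hmn : Nat.card G = m * n) (hcop : Nat.Coprime m n) {u₁ v₁ u₂ v₂ : G}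
    (hc₁ : Commute u₁ v₁) (hc₂ : Commute u₂ v₂) (h₁ : Nat.Coprime (orderOf u₁) n)
    (h₂ : Nat.Coprime (orderOf v₁) m) (h₃ : Nat.Coprime (orderOf u₂) n)
    (h₄ : Nat.Coprime (orderOf v₂) m) (he : u₁ * v₁ = u₂ * v₂) : u₁ = u₂ ∧ v₁ = v₂ := by
  have hdv : ∀ x : G, orderOf x ∣ m * n := fun x => hmn ▸ orderOf_dvd_natCard x
  have d1 : ∀ x : G, Nat.Coprime (orderOf x) n → orderOf x ∣ m := fun x hx =>
    hx.dvd_of_dvd_mul_right (hdv x)
  have d2 : ∀ x : G, Nat.Coprime (orderOf x) m → orderOf x ∣ n := fun x hx =>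
    hx.dvd_of_dvd_mul_left (hdv x)
  let a := Nat.chineseRemainder hcop 1 0
  have ha1 : (a : ℕ) ≡ 1 [MOD m] := a.2.1
  have ha0 : (a : ℕ) ≡ 0 [MOD n] := a.2.2
  have key : ∀ u v : G, Commute u v → Nat.Coprime (orderOf u) n → Nat.Coprime (orderOf v) m →
      (u * v) ^ (a : ℕ) = u := by
    intro u v hc hu hv
    rw [hc.mul_pow]
    have h1 : u ^ (a : ℕ) = u := by
      have := Cfsg.Agent.Lib.Char.Galois.pow_congr_of_modEq
        (orderOf_dvd_iff_pow_eq_one.1 (d1 u hu)) ha1
      rwa [pow_one] at this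
    have h2 : v ^ (a : ℕ) = 1 := by
      have := Cfsg.Agent.Lib.Char.Galois.pow_congr_of_modEq
        (orderOf_dvd_iff_pow_eq_one.1 (d2 v hv)) ha0
      rwa [pow_zero] at this
    rw [h1, h2, mul_one]
  have h5 : u₁ = u₂ := by
    rw [← key u₁ v₁ hc₁ h₁ h₂, he, key u₂ v₂ hc₂ h₃ h₄]
  refine ⟨h5, ?_⟩
  rw [h5] at he
  exact mul_left_cancel he

omit [Fintype G] in
theorem conj_aux (h₀ c g : G) (hc : c * g = g * c) : (h₀ * c) * g * (h₀ * c)⁻¹ = h₀ * g * h₀⁻¹ := by
  calc (h₀ * c) * g * (h₀ * c)⁻¹ = h₀ * (c * g) * c⁻¹ * h₀⁻¹ := by group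
    _ = h₀ * (g * c) * c⁻¹ * h₀⁻¹ := by rw [hc]
    _ = h₀ * g * h₀⁻¹ := by group

/-- The decomposition predicate. -/
def InS (m n : ℕ) (g x : G) : Prop :=
  ∃ v : G, IsConj v g ∧ ∃ u : G, x = u * v ∧ Commute u v ∧ Nat.Coprime (orderOf u) n ∧
    Nat.Coprime (orderOf v) m

theorem inS_conj {m n : ℕ} {g x : G} (h : InS m n g x) (k : G) : InS m n g (k * x * k⁻¹) := by
  obtain ⟨v, hv, u, rfl, hc, hu, hv2⟩ := h
  have hor : ∀ y : G, orderOf (k * y * k⁻¹) = orderOf y := fun y => by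
    rw [← MulAut.conj_apply, MulEquiv.orderOf_eq]
  refine ⟨k * v * k⁻¹, ?_, k * u * k⁻¹, by group, ?_, by rwa [hor], by rwa [hor]⟩
  · exact (isConj_iff.2 ⟨k⁻¹, by group⟩ : IsConj (k * v * k⁻¹) v).trans hv
  · show k * u * k⁻¹ * (k * v * k⁻¹) = k * v * k⁻¹ * (k * u * k⁻¹)
    have := hc.eq
    calc k * u * k⁻¹ * (k * v * k⁻¹) = k * (u * v) * k⁻¹ := by group
      _ = k * (v * u) * k⁻¹ := by rw [this]
      _ = k * v * k⁻¹ * (k * u * k⁻¹) := by group

open Classical in
/-- The counting step: summing a class function over the decomposition set. -/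
theorem count_sum {m n : ℕ} (hmn : Nat.card G = m * n) (hcop : Nat.Coprime m n) (g : G)
    [Fintype (Subgroup.centralizer ({g} : Set G))]
    (hg : Nat.Coprime (orderOf g) m) (F : G → ℂ) (hF : IsClassFunction G F) (ϑ : G → ℂ)
    (hϑ1 : ∀ x, InS m n g x → ϑ x = n) (hϑ0 : ∀ x, ¬ InS m n g x → ϑ x = 0) :
    (Nat.card (Subgroup.centralizer ({g} : Set G)) : ℂ) * ∑ x : G, ϑ x * F x =
      (n : ℂ) * (Nat.card G : ℂ) * ∑ u : (Subgroup.centralizer ({g} : Set G)),
        if Nat.Coprime (orderOf u) n then F ((u : G) * g) else 0 := by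
  set C := Subgroup.centralizer ({g} : Set G) with hC
  have hgc : ∀ u : C, Commute (u : G) g := fun u =>
    (Subgroup.mem_centralizer_singleton_iff.1 u.2)
  let M : Finset C := Finset.univ.filter fun u => Nat.Coprime (orderOf u) n
  let Pairs : Finset (G × C) := Finset.univ ×ˢ M
  let τ : G × C → G := fun p => p.1 * ((p.2 : G) * g) * p.1⁻¹
  -- the fibres
  have hfib : ∀ x : G, (n : ℂ) * ((Pairs.filter fun p => τ p = x).card : ℂ) =
      (Nat.card C : ℂ) * ϑ x := by
    intro x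
    by_cases hx : InS m n g x
    · rw [hϑ1 x hx, mul_comm]
      congr 1
      obtain ⟨v₀, hv₀, u₀, rfl, hc₀, hu₀, hv₀2⟩ := hx
      obtain ⟨h₀, hh₀⟩ := isConj_iff.1 hv₀.symm
      have hcard : (Pairs.filter fun p => τ p = u₀ * v₀).card = Fintype.card C := by
        rw [← Finset.card_univ]
        have hprop : ∀ p ∈ Pairs.filter (fun p => τ p = u₀ * v₀),
            (p.1 * (p.2 : G) * p.1⁻¹ = u₀ ∧ p.1 * g * p.1⁻¹ = v₀) := by
          intro p hp
          obtain ⟨hp1, hp2⟩ := Finset.mem_filter.1 hp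
          have hu := (Finset.mem_filter.1 (Finset.mem_product.1 hp1).2).2
          have hor : ∀ y : G, orderOf (p.1 * y * p.1⁻¹) = orderOf y := fun y => by
            rw [← MulAut.conj_apply, MulEquiv.orderOf_eq]
          refine decomp_unique hmn hcop ?_ hc₀ ?_ ?_ hu₀ hv₀2 ?_
          · show p.1 * (p.2 : G) * p.1⁻¹ * (p.1 * g * p.1⁻¹) = p.1 * g * p.1⁻¹ * (p.1 * (p.2 : G) * p.1⁻¹)
            have := (hgc p.2).eq
            calc p.1 * (p.2 : G) * p.1⁻¹ * (p.1 * g * p.1⁻¹) = p.1 * ((p.2 : G) * g) * p.1⁻¹ := by group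
              _ = p.1 * (g * (p.2 : G)) * p.1⁻¹ := by rw [this]
              _ = p.1 * g * p.1⁻¹ * (p.1 * (p.2 : G) * p.1⁻¹) := by group
          · rw [hor, Subgroup.orderOf_coe]
            exact hu
          · rwa [hor]
          · rw [← hp2]
            show p.1 * (p.2 : G) * p.1⁻¹ * (p.1 * g * p.1⁻¹) = p.1 * ((p.2 : G) * g) * p.1⁻¹
            group
        refine Finset.card_bij (fun p hp => (⟨h₀⁻¹ * p.1, ?_⟩ : C)) (fun _ _ => Finset.mem_univ _) ?_ ?_
        · have h1 := (hprop p hp).2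
          rw [← hh₀] at h1
          refine Subgroup.mem_centralizer_singleton_iff.2 ?_
          have h2 : h₀⁻¹ * p.1 * g * (h₀⁻¹ * p.1)⁻¹ = g := by
            calc h₀⁻¹ * p.1 * g * (h₀⁻¹ * p.1)⁻¹ = h₀⁻¹ * (p.1 * g * p.1⁻¹) * h₀ := by group
              _ = g := by rw [h1]; group
          calc h₀⁻¹ * p.1 * g = h₀⁻¹ * p.1 * g * (h₀⁻¹ * p.1)⁻¹ * (h₀⁻¹ * p.1) := by group
            _ = g * (h₀⁻¹ * p.1) := by rw [h2]
        · intro p hp q hq hpq
          have h1 : h₀⁻¹ * p.1 = h₀⁻¹ * q.1 := congrArg Subtype.val hpq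
          have h2 : p.1 = q.1 := mul_left_cancel h1
          have h3 := (Finset.mem_filter.1 hp).2
          have h4 := (Finset.mem_filter.1 hq).2
          have h5 : τ p = τ q := h3.trans h4.symm
          simp only [τ, ← h2] at h5
          have h6 : (p.2 : G) * g = (q.2 : G) * g := by
            have := mul_left_cancel (mul_right_cancel h5)
            exact this
          have h7 : (p.2 : G) = q.2 := mul_right_cancel h6
          exact Prod.ext h2 (Subtype.ext h7)
        · intro c _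
          let h : G := h₀ * c
          have hgh : h * g * h⁻¹ = v₀ := by
            rw [← hh₀]
            exact conj_aux h₀ (c : G) g (hgc c).eq
          have hcomm : Commute (h⁻¹ * u₀ * h) g := by
            show h⁻¹ * u₀ * h * g = g * (h⁻¹ * u₀ * h)
            have h1 : v₀ * u₀ = u₀ * v₀ := hc₀.eq.symm
            have h2 : g = h⁻¹ * v₀ * h := by rw [← hgh]; group
            rw [h2]
            calc h⁻¹ * u₀ * h * (h⁻¹ * v₀ * h) = h⁻¹ * (u₀ * v₀) * h := by group
              _ = h⁻¹ * (v₀ * u₀) * h := by rw [h1]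
              _ = h⁻¹ * v₀ * h * (h⁻¹ * u₀ * h) := by group
          let u : C := ⟨h⁻¹ * u₀ * h, Subgroup.mem_centralizer_singleton_iff.2 hcomm⟩
          refine ⟨(h, u), ?_, ?_⟩
          · refine Finset.mem_filter.2 ⟨Finset.mem_product.2 ⟨Finset.mem_univ _, Finset.mem_filter.2 ⟨Finset.mem_univ _, ?_⟩⟩, ?_⟩
            · have h1 : orderOf u = orderOf (h⁻¹ * u₀ * h⁻¹⁻¹) := by
                rw [inv_inv, ← Subgroup.orderOf_coe]
              rw [h1, ← MulAut.conj_apply, MulEquiv.orderOf_eq]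
              exact hu₀
            · show h * (h⁻¹ * u₀ * h * g) * h⁻¹ = u₀ * v₀
              rw [← hgh]
              group
          · apply Subtype.ext
            show h₀⁻¹ * (h₀ * c) = c
            group
      rw [hcard, Nat.card_eq_fintype_card]
    · rw [hϑ0 x hx, mul_zero]
      have hempty : Pairs.filter (fun p => τ p = x) = ∅ := by
        rw [Finset.filter_eq_empty_iff]
        intro p hp hτ
        apply hx
        have hu := (Finset.mem_filter.1 (Finset.mem_product.1 hp).2).2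
        have hor : ∀ y : G, orderOf (p.1 * y * p.1⁻¹) = orderOf y := fun y => by
          rw [← MulAut.conj_apply, MulEquiv.orderOf_eq]
        refine ⟨p.1 * g * p.1⁻¹, (isConj_iff.2 ⟨p.1⁻¹, by group⟩), p.1 * (p.2 : G) * p.1⁻¹, ?_, ?_, ?_, ?_⟩
        · rw [← hτ]
          show p.1 * ((p.2 : G) * g) * p.1⁻¹ = p.1 * (p.2 : G) * p.1⁻¹ * (p.1 * g * p.1⁻¹)
          group
        · show p.1 * (p.2 : G) * p.1⁻¹ * (p.1 * g * p.1⁻¹) = p.1 * g * p.1⁻¹ * (p.1 * (p.2 : G) * p.1⁻¹)
          have := (hgc p.2).eq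
          calc p.1 * (p.2 : G) * p.1⁻¹ * (p.1 * g * p.1⁻¹) = p.1 * ((p.2 : G) * g) * p.1⁻¹ := by group
            _ = p.1 * (g * (p.2 : G)) * p.1⁻¹ := by rw [this]
            _ = p.1 * g * p.1⁻¹ * (p.1 * (p.2 : G) * p.1⁻¹) := by group
        · rw [hor, Subgroup.orderOf_coe]
          exact hu
        · rwa [hor]
      rw [hempty]
      simp
  -- double counting
  have hpairs : ∑ p ∈ Pairs, F (τ p) = ∑ x : G, ((Pairs.filter fun p => τ p = x).card : ℂ) * F x := by
    rw [← Finset.sum_fiberwise Pairs τ (fun p => F (τ p))]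
    refine Finset.sum_congr rfl fun x _ => ?_
    rw [Finset.sum_congr rfl (g := fun _ => F x)]
    · rw [Finset.sum_const, nsmul_eq_mul]
    · intro p hp
      rw [(Finset.mem_filter.1 hp).2]
  have hpairs2 : ∑ p ∈ Pairs, F (τ p) = (Nat.card G : ℂ) * ∑ u : C,
      if Nat.Coprime (orderOf u) n then F ((u : G) * g) else 0 := by
    rw [Finset.sum_product]
    have h1 : ∀ h : G, ∑ u ∈ M, F (τ (h, u)) = ∑ u : C,
        if Nat.Coprime (orderOf u) n then F ((u : G) * g) else 0 := by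
      intro h
      rw [Finset.sum_filter]
      refine Finset.sum_congr rfl fun u _ => ?_
      split_ifs
      · exact hF _ h
      · rfl
    simp only [h1, Finset.sum_const, Finset.card_univ, nsmul_eq_mul, Nat.card_eq_fintype_card]
  calc (Nat.card C : ℂ) * ∑ x : G, ϑ x * F x = ∑ x : G, ((Nat.card C : ℂ) * ϑ x) * F x := by
        rw [Finset.mul_sum]
        exact Finset.sum_congr rfl fun x _ => by ring
    _ = ∑ x : G, ((n : ℂ) * ((Pairs.filter fun p => τ p = x).card : ℂ)) * F x := by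
        exact Finset.sum_congr rfl fun x _ => by rw [hfib]
    _ = (n : ℂ) * ∑ p ∈ Pairs, F (τ p) := by
        rw [hpairs, Finset.mul_sum]
        exact Finset.sum_congr rfl fun x _ => by ring
    _ = _ := by rw [hpairs2, mul_assoc]; congr!

open Cfsg Cfsg.Agent.Lib.Char.Integrality Cfsg.Agent.Lib.Char.ClassMul Cfsg.Agent.Lib.Char.Ortho
  Cfsg.Agent.Lib.Char.PiRegular Cfsg.Agent.Lib.Char.Virtual Cfsg.Agent.Lib.Char.Basic
open scoped ComplexConjugate in
theorem key_irr {C : Type*} [Group C] [Fintype C] (n d : ℕ) (hn : n ≠ 0) (hdn : d ∣ n)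
    (hd : ∀ k : ℕ, k ∣ Nat.card C → (∀ q : ℕ, q.Prime → q ∣ k → q ∣ n) → k ∣ d)
    (z : C) (hz : ∀ a, a * z = z * a) (ξ : Cfsg.IrrCharacter C) :
    IsIntegral ℤ ((n : ℂ) * (Nat.card C : ℂ)⁻¹ *
      ∑ u : C, if Nat.Coprime (orderOf u) n then conj ((ξ : C → ℂ) (u * z)) else 0) := by
  classical
  have hcard : (Nat.card C : ℂ) ≠ 0 := by exact_mod_cast Nat.card_pos.ne'
  have h1ne : (ξ : C → ℂ) 1 ≠ 0 := irr_apply_one_ne_zero ξ.2
  let ω : ℂ := (ξ : C → ℂ) z / (ξ : C → ℂ) 1
  have hω : IsIntegral ℤ ω := by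
    obtain ⟨f, k, ρ, hirr, hρ⟩ := ξ
    subst hρ
    haveI := hirr
    have h := isIntegral_classSize_mul_character_div_finrank ρ z
    have hidx : (Subgroup.centralizer ({z} : Set C)).index = 1 := by
      rw [Subgroup.index_eq_one, eq_top_iff]
      intro a _
      exact Subgroup.mem_centralizer_singleton_iff.2 (hz a)
    rw [hidx] at h
    simp only [Nat.cast_one, one_mul, Module.finrank_fin_fun] at h
    have h2 : ρ.character 1 = (k : ℂ) := by
      simp [Representation.char_one]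
    show IsIntegral ℤ (ρ.character z / ρ.character 1)
    rwa [h2]
  have hmul : ∀ y : C, (ξ : C → ℂ) (y * z) = ω * (ξ : C → ℂ) y := by
    intro y
    have h := irr_one_mul_sum ξ z y
    have h' : ∑ a : C, (ξ : C → ℂ) (a * z * a⁻¹ * y) = (Nat.card C : ℂ) * (ξ : C → ℂ) (y * z) := by
      have hcomm : ∀ a : C, a * z * a⁻¹ * y = y * z := by
        intro a
        have h3 : a * z * a⁻¹ = z := by rw [hz a]; group
        rw [h3]
        have h4 := hz y
        exact h4.symm
      simp only [hcomm, Finset.sum_const, Finset.card_univ, nsmul_eq_mul, Nat.card_eq_fintype_card]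
    rw [h'] at h
    have h5 : (Nat.card C : ℂ) * ((ξ : C → ℂ) 1 * (ξ : C → ℂ) (y * z)) =
        (Nat.card C : ℂ) * ((ξ : C → ℂ) z * (ξ : C → ℂ) y) := by
      rw [← h]; ring
    have h6 := mul_left_cancel₀ hcard h5
    show (ξ : C → ℂ) (y * z) = (ξ : C → ℂ) z / (ξ : C → ℂ) 1 * (ξ : C → ℂ) y
    field_simp
    linear_combination h6
  obtain ⟨e, rfl⟩ := hdn
  have hβ := isGeneralized_piPart (C := C) (d * e) d hn hd
  have hξ : IsGeneralizedCharacter C (ξ : C → ℂ) :=
    isGeneralized_of_isCharacter (isCharacter_of_isIrrCharacter ξ.2)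
  obtain ⟨a, ha⟩ := exists_int_classInner hβ hξ
  have key : ((d * e : ℕ) : ℂ) * (Nat.card C : ℂ)⁻¹ *
      (∑ u : C, if Nat.Coprime (orderOf u) (d * e) then conj ((ξ : C → ℂ) (u * z)) else 0) =
      conj ω * (e : ℂ) * (a : ℂ) := by
    rw [← ha, classInner]
    push_cast
    simp only [Finset.mul_sum]
    refine Finset.sum_congr rfl fun u _ => ?_
    rw [hmul u, map_mul]
    split_ifs <;> ring
  rw [key]
  have hconj : IsIntegral ℤ (conj ω) := by
    exact hω.map ((starRingEnd ℂ : ℂ →+* ℂ).toIntAlgHom)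
  refine (hconj.mul ?_).mul ?_
  · exact isIntegral_algebraMap (R := ℤ) (A := ℂ) (x := (e : ℤ)) |> fun h => by simpa using h
  · exact isIntegral_algebraMap (R := ℤ) (A := ℂ) (x := a) |> fun h => by simpa using h

end

open Cfsg Cfsg.Agent.Lib.Char.Integrality Cfsg.Agent.Lib.Char.ClassMul Cfsg.Agent.Lib.Char.Ortho
  Cfsg.Agent.Lib.Char.PiRegular Cfsg.Agent.Lib.Char.Virtual Cfsg.Agent.Lib.Char.Basic in
open scoped ComplexConjugate in

/-- Let G be a finite group of order m * n with m and n coprime, and g an element whose order is coprime to m. Every x in G factors uniquely as x = u * v with u, v commuting, the order of u coprime to n and the order of v coprime to m; let ϑ be the function on G equal to n at those x whose factor v is conjugate to g and equal to 0 elsewhere. Then ϑ is a linear combination of the irreducible characters of G with algebraic-integer coefficients. -/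
theorem result {G : Type*} [Group G] [Fintype G] (m n : ℕ) (hmn : Nat.card G = m * n) (hcop : Nat.Coprime m n) (g : G) (hg : Nat.Coprime (orderOf g) m) (ϑ : G → ℂ) (hϑ1 : ∀ x : G, (∃ v : G, IsConj v g ∧ (∃ u : G, x = u * v ∧ Commute u v ∧ Nat.Coprime (orderOf u) n ∧ Nat.Coprime (orderOf v) m)) → ϑ x = n) (hϑ0 : ∀ x : G, (¬ ∃ v : G, IsConj v g ∧ (∃ u : G, x = u * v ∧ Commute u v ∧ Nat.Coprime (orderOf u) n ∧ Nat.Coprime (orderOf v) m)) → ϑ x = 0) : ∃ c : Cfsg.IrrCharacter G → ℂ, (∀ χ, c χ ∈ Cfsg.AlgInt) ∧ ϑ = ∑ᶠ χ : Cfsg.IrrCharacter G, c χ • (χ : G → ℂ) := by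
  classical
  haveI : Fintype (IrrCharacter G) := fintype_irr
  haveI : Fintype (Subgroup.centralizer ({g} : Set G)) := Fintype.ofFinite _
  have hn : n ≠ 0 := by
    rintro rfl
    simp only [mul_zero] at hmn
    exact Nat.card_pos.ne' hmn
  have hϑ1' : ∀ x, InS m n g x → ϑ x = n := fun x hx => hϑ1 x hx
  have hϑ0' : ∀ x, ¬ InS m n g x → ϑ x = 0 := fun x hx => hϑ0 x hx
  have hϑclass : IsClassFunction G ϑ := by
    intro x k
    by_cases hx : InS m n g x
    · rw [hϑ1' _ hx, hϑ1' _ (inS_conj hx k)]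
    · have h2 : ¬ InS m n g (k * x * k⁻¹) := fun h => hx (by
        have := inS_conj h k⁻¹
        have h3 : k⁻¹ * (k * x * k⁻¹) * k⁻¹⁻¹ = x := by group
        rwa [h3] at this)
      rw [hϑ0' _ hx, hϑ0' _ h2]
  refine ⟨fun χ => classInner ϑ (χ : G → ℂ), ?_, ?_⟩
  · intro χ
    show classInner ϑ (χ : G → ℂ) ∈ integralClosure ℤ ℂ
    set C := Subgroup.centralizer ({g} : Set G) with hC
    have hFclass : IsClassFunction G (fun x => conj ((χ : G → ℂ) x)) := by
      intro x k
      show conj ((χ : G → ℂ) (k * x * k⁻¹)) = conj ((χ : G → ℂ) x)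
      rw [Cfsg.Agent.Lib.Char.CompleteCor.irr_apply_of_isConj (isConj_iff.2 ⟨k, rfl⟩).symm χ] 
    have hcount := count_sum hmn hcop g hg (fun x => conj ((χ : G → ℂ) x)) hFclass ϑ hϑ1' hϑ0'
    have hGne : (Nat.card G : ℂ) ≠ 0 := by exact_mod_cast Nat.card_pos.ne'
    have hCne : (Nat.card C : ℂ) ≠ 0 := by exact_mod_cast Nat.card_pos.ne'
    have hform : classInner ϑ (χ : G → ℂ) = (n : ℂ) * (Nat.card C : ℂ)⁻¹ * ∑ u : C,
        if Nat.Coprime (orderOf u) n then conj ((χ : G → ℂ) ((u : G) * g)) else 0 := by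
      rw [classInner]
      field_simp
      linear_combination hcount
    rw [hform]
    let g' : C := ⟨g, Subgroup.mem_centralizer_singleton_iff.2 rfl⟩
    have hz : ∀ a : C, a * g' = g' * a := fun a => by
      apply Subtype.ext
      exact Subgroup.mem_centralizer_singleton_iff.1 a.2
    obtain ⟨r, hr⟩ := exists_nat_decomp (isCharacter_restrict (isCharacter_of_isIrrCharacter χ.2) C)
    have hd : ∀ k : ℕ, k ∣ Nat.card C → (∀ q : ℕ, q.Prime → q ∣ k → q ∣ n) → k ∣ Nat.gcd (Nat.card C) n := by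
      intro k hk hq
      refine Nat.dvd_gcd hk ?_
      have h1 : k ∣ m * n := hmn ▸ hk.trans (Subgroup.card_subgroup_dvd_card C)
      have h2 : Nat.Coprime k m := by
        refine Nat.Coprime.symm (Nat.coprime_of_dvd ?_)
        intro q hq1 hq2 hq3
        have := Nat.dvd_gcd hq2 (hq q hq1 hq3)
        rw [hcop] at this
        exact hq1.one_lt.ne' (Nat.dvd_one.1 this)
      exact h2.dvd_of_dvd_mul_left h1
    have hkey := fun ξ => key_irr (C := C) n (Nat.gcd (Nat.card C) n) hn (Nat.gcd_dvd_right _ _) hd g' hz ξ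
    have hexp : (n : ℂ) * (Nat.card C : ℂ)⁻¹ * (∑ u : C,
        if Nat.Coprime (orderOf u) n then conj ((χ : G → ℂ) ((u : G) * g)) else 0) =
        ∑ ξ : IrrCharacter C, (r ξ : ℂ) * ((n : ℂ) * (Nat.card C : ℂ)⁻¹ * ∑ u : C,
          if Nat.Coprime (orderOf u) n then conj ((ξ : C → ℂ) (u * g')) else 0) := by
      have h1 : ∀ u : C, (χ : G → ℂ) ((u : G) * g) = ∑ ξ : IrrCharacter C, (r ξ : ℂ) * (ξ : C → ℂ) (u * g') := by
        intro u
        have := congrFun hr (u * g')
        simp only [Finset.sum_apply, Pi.smul_apply, nsmul_eq_mul] at this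
        exact this
      simp only [h1, map_sum, map_mul, map_natCast]
      rw [Finset.mul_sum]
      simp only [Finset.mul_sum]
      rw [Finset.sum_comm]
      refine Finset.sum_congr rfl fun u _ => ?_
      split_ifs
      · simp only [Finset.mul_sum]
        refine Finset.sum_congr rfl fun ξ _ => ?_
        ring
      · simp
    rw [hexp]
    refine Subalgebra.sum_mem _ fun ξ _ => Subalgebra.mul_mem _ ?_ (hkey ξ)
    exact Subalgebra.natCast_mem _ _
  · rw [finsum_eq_sum_of_fintype]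
    exact Cfsg.Agent.Lib.Char.Complete.eq_sum_classInner ϑ hϑclass

end Cfsg.Agent.S0875
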