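import Cfsg.Statements.S0876
import Mathlib
import Cfsg.Agent.S0875
import Cfsg.Agent.Lib.Char.FrobCong
import Cfsg.Agent.Lib.Char.Basic
import Cfsg.Agent.Lib.Char.CompleteCor
import Cfsg.Agent.Lib.Char.Ortho

set_option autoImplicit false
open Cfsg

namespace Cfsg.Agent.S0876

open Cfsg Cfsg.Agent.Lib.Char.FrobCong in
theorem val_eq_of_isConj {G : Type*} [Group G] [Finite G] {χ : G → ℂ} (hχ : IsCharacter G χ)
    (hirr : IsIrrCharacter G χ) {u v : G} (h : IsConj u v) : val hχ u = val hχ v := by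
  cases nonempty_fintype G
  apply Subtype.ext
  show χ u = χ v
  exact Cfsg.Agent.Lib.Char.CompleteCor.irr_apply_of_isConj h ⟨χ, hirr⟩

open Cfsg Cfsg.Agent.Lib.Char.FrobCong in
/-- Forward direction, in `M`. -/
theorem val_sub_mem {G : Type*} [Group G] [Finite G] (p : ℕ) (M : Ideal AlgInt)
    (hM : IsPModular p M) (x y a b : G) (ha : IsPPart p x a) (hb : IsPPart p y b)
    {χ : G → ℂ} (hχ : IsCharacter G χ) :
    val hχ x - val hχ (a⁻¹ * x) ∈ M ∧ val hχ y - val hχ (b⁻¹ * y) ∈ M := by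
  obtain ⟨hp, hmax, hpM⟩ := hM
  haveI := hmax
  constructor
  · obtain ⟨w, rfl, hc, ⟨k, hk⟩, -⟩ := ha
    have h := val_mul_sub_mem hχ p hp M hpM a w hc k hk
    simpa using h
  · obtain ⟨w, rfl, hc, ⟨k, hk⟩, -⟩ := hb
    have h := val_mul_sub_mem hχ p hp M hpM b w hc k hk
    simpa using h

open Cfsg Cfsg.Agent.Lib.Char.FrobCong in
/-- The `p`-section separation: if `u, v` have order prime to `p` and all irreducible characters
agree on them modulo `M`, they are conjugate. -/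
theorem isConj_of_forall_mem {G : Type*} [Group G] [Finite G] (p : ℕ) (M : Ideal AlgInt)
    (hM : IsPModular p M) (u v : G) (hu : ¬ p ∣ orderOf u) (hv : ¬ p ∣ orderOf v)
    (h : ∀ χ : IrrCharacter G, ∀ hχ : IsCharacter G (χ : G → ℂ), val hχ u - val hχ v ∈ M) :
    IsConj u v := by
  classical
  cases nonempty_fintype G
  obtain ⟨hp, hmax, hpM⟩ := hM
  have hcard : Nat.card G ≠ 0 := Nat.card_pos.ne'
  obtain ⟨e, n, hpn, hn⟩ := Nat.exists_eq_pow_mul_and_not_dvd hcard p hp.ne_one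
  have hcop : Nat.Coprime (p ^ e) n :=
    Nat.Coprime.pow_left _ ((Nat.Prime.coprime_iff_not_dvd hp).2 hpn)
  have hu' : Nat.Coprime (orderOf u) (p ^ e) :=
    Nat.Coprime.pow_right _ (((Nat.Prime.coprime_iff_not_dvd hp).2 hu).symm)
  have hv' : Nat.Coprime (orderOf v) (p ^ e) :=
    Nat.Coprime.pow_right _ (((Nat.Prime.coprime_iff_not_dvd hp).2 hv).symm)
  by_contra hne
  let S : G → Prop := fun x => ∃ w : G, IsConj w u ∧ (∃ t : G, x = t * w ∧ Commute t w ∧
    Nat.Coprime (orderOf t) n ∧ Nat.Coprime (orderOf w) (p ^ e))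
  let ϑ : G → ℂ := fun x => if S x then (n : ℂ) else 0
  obtain ⟨c, hc, hϑ⟩ := Cfsg.Agent.S0875.result (p ^ e) n hn hcop u hu' ϑ
    (fun x hx => if_pos hx) (fun x hx => if_neg hx)
  haveI : Fintype (IrrCharacter G) := Cfsg.Agent.Lib.Char.Ortho.fintype_irr
  rw [finsum_eq_sum_of_fintype] at hϑ
  have hSu : S u := ⟨u, IsConj.refl u, 1, by simp, Commute.one_left u, by simp, hu'⟩
  have hSv : ¬ S v := by
    rintro ⟨w, hw, t, htw, hc1, hc2, hc3⟩
    have := Cfsg.Agent.S0875.decomp_unique hn hcop hc1 (Commute.one_left v) hc2 hc3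
      (by simp) hv' (htw.symm.trans (one_mul v).symm)
    rw [this.2] at hw
    exact hne hw.symm
  have hval : (n : ℂ) = ∑ χ : IrrCharacter G, c χ * ((χ : G → ℂ) u - (χ : G → ℂ) v) := by
    have h1 := congrFun hϑ u
    have h2 := congrFun hϑ v
    simp only [Finset.sum_apply, Pi.smul_apply, smul_eq_mul] at h1 h2
    have h3 : ϑ u = n := if_pos hSu
    have h4 : ϑ v = 0 := if_neg hSv
    rw [h3] at h1
    rw [h4] at h2
    rw [h1]
    simp only [mul_sub, Finset.sum_sub_distrib]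
    rw [← h2, sub_zero]
  -- `n ∈ M`
  have hnM : (n : AlgInt) ∈ M := by
    let hCh : ∀ χ : IrrCharacter G, IsCharacter G (χ : G → ℂ) := fun χ =>
      Cfsg.Agent.Lib.Char.Basic.isCharacter_of_isIrrCharacter χ.2
    have heq : (n : AlgInt) = ∑ χ : IrrCharacter G, (⟨c χ, hc χ⟩ : AlgInt) *
        (val (hCh χ) u - val (hCh χ) v) := by
      apply Subtype.ext
      push_cast
      rw [hval]
      rfl
    rw [heq]
    exact Ideal.sum_mem _ fun χ _ => Ideal.mul_mem_left _ _ (h χ (hCh χ))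
  have hcp : Nat.Coprime p n := (Nat.Prime.coprime_iff_not_dvd hp).2 hpn
  have h1 : (1 : AlgInt) ∈ M := by
    obtain ⟨a, b, hab⟩ : ∃ a b : ℤ, a * (p : ℤ) + b * (n : ℤ) = 1 := by
      have := Nat.gcd_eq_gcd_ab p n
      rw [hcp.gcd_eq_one] at this
      exact ⟨p.gcdA n, p.gcdB n, by
        have h5 : ((1 : ℕ) : ℤ) = (p : ℤ) * p.gcdA n + (n : ℤ) * p.gcdB n := this
        push_cast at h5
        linarith⟩
    have : (1 : AlgInt) = (a : AlgInt) * (p : AlgInt) + (b : AlgInt) * (n : AlgInt) := by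
      have := congrArg (Int.cast : ℤ → AlgInt) hab
      push_cast at this
      exact this.symm
    rw [this]
    exact Ideal.add_mem _ (Ideal.mul_mem_left _ _ hpM) (Ideal.mul_mem_left _ _ hnM)
  exact hmax.ne_top ((Ideal.eq_top_iff_one _).2 h1)


/-- Let G be a finite group, p a prime and M a maximal ideal of the ring of algebraic integers containing p. Let x, y be elements with p-parts a and b (so a⁻¹ * x and b⁻¹ * y are their p-regular parts). Then a⁻¹ * x and b⁻¹ * y are conjugate in G if and only if, for every irreducible character χ, the difference χ x - χ y lies in the local ideal at M. -/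
theorem result {G : Type*} [Group G] [Finite G] (p : ℕ) (M : Ideal Cfsg.AlgInt) (hM : Cfsg.IsPModular p M) (x y a b : G) (ha : Cfsg.IsPPart p x a) (hb : Cfsg.IsPPart p y b) : IsConj (a⁻¹ * x) (b⁻¹ * y) ↔ ∀ χ : Cfsg.IrrCharacter G, Cfsg.MemLocalIdeal M ((χ : G → ℂ) x - (χ : G → ℂ) y) := by
  classical
  have hprime := hM
  obtain ⟨hp, hmax, hpM⟩ := hprime
  haveI := hmax
  have hCh : ∀ χ : Cfsg.IrrCharacter G, Cfsg.IsCharacter G (χ : G → ℂ) := fun χ =>
    Cfsg.Agent.Lib.Char.Basic.isCharacter_of_isIrrCharacter χ.2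
  have hreg : ¬ p ∣ orderOf (a⁻¹ * x) ∧ ¬ p ∣ orderOf (b⁻¹ * y) := by
    constructor
    · obtain ⟨w, rfl, -, -, hw⟩ := ha
      simpa using hw
    · obtain ⟨w, rfl, -, -, hw⟩ := hb
      simpa using hw
  constructor
  · intro hconj χ
    obtain ⟨h1, h2⟩ := val_sub_mem p M hM x y a b ha hb (hCh χ)
    have h3 := val_eq_of_isConj (hCh χ) χ.2 hconj
    have h4 : Cfsg.Agent.Lib.Char.FrobCong.val (hCh χ) x - Cfsg.Agent.Lib.Char.FrobCong.val (hCh χ) y =
        (Cfsg.Agent.Lib.Char.FrobCong.val (hCh χ) x - Cfsg.Agent.Lib.Char.FrobCong.val (hCh χ) (a⁻¹ * x)) -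
        (Cfsg.Agent.Lib.Char.FrobCong.val (hCh χ) y - Cfsg.Agent.Lib.Char.FrobCong.val (hCh χ) (b⁻¹ * y)) := by
      rw [h3]; ring
    refine ⟨_, 1, h4 ▸ Ideal.sub_mem _ h1 h2, ?_, ?_⟩
    · intro h1M
      exact hmax.ne_top ((Ideal.eq_top_iff_one _).2 h1M)
    · show (((_ : Cfsg.AlgInt) : ℂ)) / ((1 : Cfsg.AlgInt) : ℂ) = _
      simp [Cfsg.Agent.Lib.Char.FrobCong.val]
  · intro h
    refine isConj_of_forall_mem p M hM _ _ hreg.1 hreg.2 fun χ hχ => ?_
    obtain ⟨h1, h2⟩ := val_sub_mem p M hM x y a b ha hb hχ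
    obtain ⟨A, B, hA, hB, hAB⟩ := h χ
    have h5 : Cfsg.Agent.Lib.Char.FrobCong.val hχ x - Cfsg.Agent.Lib.Char.FrobCong.val hχ y ∈ M := by
      have hB0 : ((B : Cfsg.AlgInt) : ℂ) ≠ 0 := by
        intro h0
        apply hB
        have : B = 0 := Subtype.ext h0
        rw [this]
        exact M.zero_mem
      have h6 : (Cfsg.Agent.Lib.Char.FrobCong.val hχ x - Cfsg.Agent.Lib.Char.FrobCong.val hχ y) * B = A := by
        apply Subtype.ext
        push_cast
        have h7 : (χ : G → ℂ) x - (χ : G → ℂ) y = (A : ℂ) / (B : ℂ) := hAB.symm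
        show ((χ : G → ℂ) x - (χ : G → ℂ) y) * (B : ℂ) = (A : ℂ)
        rw [h7]
        field_simp
      have h8 : (Cfsg.Agent.Lib.Char.FrobCong.val hχ x - Cfsg.Agent.Lib.Char.FrobCong.val hχ y) * B ∈ M := h6 ▸ hA
      exact (hmax.isPrime.mem_or_mem h8).resolve_right hB
    have h9 : Cfsg.Agent.Lib.Char.FrobCong.val hχ (a⁻¹ * x) - Cfsg.Agent.Lib.Char.FrobCong.val hχ (b⁻¹ * y) =
        (Cfsg.Agent.Lib.Char.FrobCong.val hχ x - Cfsg.Agent.Lib.Char.FrobCong.val hχ y) -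
        (Cfsg.Agent.Lib.Char.FrobCong.val hχ x - Cfsg.Agent.Lib.Char.FrobCong.val hχ (a⁻¹ * x)) +
        (Cfsg.Agent.Lib.Char.FrobCong.val hχ y - Cfsg.Agent.Lib.Char.FrobCong.val hχ (b⁻¹ * y)) := by ring
    rw [h9]
    exact Ideal.add_mem _ (Ideal.sub_mem _ h5 h1) h2

end Cfsg.Agent.S0876
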