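import Cfsg.Statements.S0885
import Mathlib
import Cfsg.Agent.Lib.Zass.Ito3

set_option autoImplicit false
set_option linter.style.haveILetI false
open Cfsg

namespace Cfsg.Agent.S0885

open MulAction Cfsg.Agent.Lib.Zass.Basic Cfsg.Agent.Lib.Zass.Simple

/-- The subgroup generated by the kernels is simple. -/
theorem join_simple' {G : Type*} {Ω : Type*} [Group G] [MulAction G Ω] [Finite G] [Finite Ω]
    (hZ : IsZassenhausGroup G Ω) : IsSimpleGroup (joinKernels hZ) := by
  classical
  have hL1 := join_ne_bot hZ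
  have hLn := join_normal hZ
  haveI : Nontrivial (joinKernels hZ) := by
    obtain ⟨x, hx1⟩ := Subgroup.ne_bot_iff_exists_ne_one.mp hL1
    exact ⟨⟨x, 1, hx1⟩⟩
  refine IsSimpleGroup.mk ?_
  intro K hKn
  by_cases hK : K = ⊥
  · exact Or.inl hK
  · right
    have hZL : IsZassenhausGroup (joinKernels hZ) Ω := normal_isZassenhaus hZ _ hLn hL1
    have htr : IsPretransitive K Ω := normal_transitive hZL K hKn hK
    have hK'tr : IsPretransitive (K.map (joinKernels hZ).subtype) Ω := by
      refine ⟨fun x y => ?_⟩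
      obtain ⟨k, hk⟩ := htr.exists_smul_eq x y
      exact ⟨⟨((k : joinKernels hZ) : G), ⟨k, k.2, rfl⟩⟩, hk⟩
    have hle := join_le_of_normal_normal hZ (joinKernels hZ) le_rfl
      (K.map (joinKernels hZ).subtype) (Subgroup.map_subtype_le _)
      (by
        rintro n hn _ ⟨k, hk, rfl⟩
        exact ⟨⟨n, hn⟩ * k * (⟨n, hn⟩ : joinKernels hZ)⁻¹, hKn.conj_mem k hk ⟨n, hn⟩, by simp⟩)
      hK'tr
    rw [eq_top_iff]
    intro x _
    obtain ⟨k, hk, hkx⟩ := hle x.2
    have : k = x := Subtype.ext hkx
    rwa [← this]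

/-- The kernels of `L` are the kernels of `G`. -/
noncomputable def kernelEquiv {G : Type*} {Ω : Type*} [Group G] [MulAction G Ω] [Finite Ω]
    (hZ : IsZassenhausGroup G Ω) (hZL : IsZassenhausGroup (joinKernels hZ) Ω) (a : Ω) :
    kernel hZL a ≃* kernel hZ a where
  toFun w := ⟨((w : joinKernels hZ) : G), by
    rw [mem_kernel]
    refine ⟨kernel_smul hZL w.2, ?_⟩
    by_cases hw1 : ((w : joinKernels hZ) : G) = 1
    · exact Or.inl hw1
    · right
      intro c hc
      have hw1' : (w : joinKernels hZ) ≠ 1 := fun h => hw1 (by rw [h]; rfl)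
      exact kernel_fix hZL w.2 hw1' hc⟩
  invFun u := ⟨⟨u, kernel_le_join hZ a u.2⟩, by
    rw [mem_kernel]
    refine ⟨kernel_smul hZ u.2, ?_⟩
    by_cases hu1 : (u : G) = 1
    · left
      exact Subtype.ext hu1
    · right
      intro c hc
      exact kernel_fix hZ u.2 hu1 hc⟩
  left_inv _ := rfl
  right_inv _ := rfl
  map_mul' _ _ := rfl

/-- Let G be a finite Zassenhaus group on Ω with h + 1 points whose two-point stabilizer E has odd order e, and let H be the subgroup of the stabilizer of a consisting of the identity and the elements fixing no point other than a (given here as a subgroup of the stabilizer of order one less than the number of points whose non-identity elements fix only a; it is the Frobenius kernel of the stabilizer). Then either h - 1 ≤ 2 * e, or H is a non-abelian 2-group whose commutator subgroup has index at most 4 * e ^ 2 + 1 in H. -/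
theorem result {G Ω : Type*} [Group G] [Finite G] [MulAction G Ω] [Fintype Ω] (hZ : Cfsg.IsZassenhausGroup G Ω) {a b : Ω} (hab : a ≠ b) (h e : ℕ) (hh : Fintype.card Ω = h + 1) (he : Nat.card ↥(MulAction.stabilizer G a ⊓ MulAction.stabilizer G b : Subgroup G) = e) (hodd : Odd e) (H : Subgroup G) (hHa : H ≤ MulAction.stabilizer G a) (hHcard : Nat.card H + 1 = Fintype.card Ω) (hHfix : ∀ u ∈ H, u ≠ 1 → ∀ c : Ω, u • c = c → c = a) : h - 1 ≤ 2 * e ∨ (IsPGroup 2 H ∧ (∃ u v : H, u * v ≠ v * u) ∧ (commutator H).index ≤ 4 * e ^ 2 + 1) := by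
  classical
  haveI := Fintype.ofFinite G
  have hHeq : H = kernel hZ a := eq_kernel hZ H hHa (by rw [Nat.card_eq_fintype_card (α := Ω)]; exact hHcard) hHfix
  subst hHeq
  set L := joinKernels hZ with hL
  have hL1 := join_ne_bot hZ
  have hLn := join_normal hZ
  have hZL : IsZassenhausGroup L Ω := normal_isZassenhaus hZ _ hLn hL1
  haveI : IsSimpleGroup L := join_simple' hZ
  haveI : Fintype L := Fintype.ofFinite _
  -- the two-point stabilisers of `L`
  have hdvd : Nat.card ↥(stabilizer L a ⊓ stabilizer L b) ∣ e := by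
    rw [← he]
    let f : ↥(stabilizer L a ⊓ stabilizer L b) →* ↥(stabilizer G a ⊓ stabilizer G b) :=
      { toFun := fun y => ⟨((y : L) : G), y.2.1, y.2.2⟩
        map_one' := rfl
        map_mul' := fun _ _ => rfl }
    have hf : Function.Injective f := by
      intro y z h
      have h1 : ((f y : ↥(stabilizer G a ⊓ stabilizer G b)) : G)
          = ((f z : ↥(stabilizer G a ⊓ stabilizer G b)) : G) := by rw [h]
      exact Subtype.ext (Subtype.ext h1)
    exact Subgroup.card_dvd_of_injective f hf
  have hoddL : Odd (Nat.card ↥(stabilizer L a ⊓ stabilizer L b)) := Odd.of_dvd_nat hodd hdvd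
  have hle : Nat.card ↥(stabilizer L a ⊓ stabilizer L b) ≤ e := Nat.le_of_dvd hodd.pos hdvd
  rcases Cfsg.Agent.Lib.Zass.Ito3.feit_simple hZL hab hoddL with h1 | ⟨h2, h3, h4⟩
  · left
    omega
  · right
    let φ := kernelEquiv hZ hZL a
    refine ⟨?_, ?_, ?_⟩
    · exact h2.of_injective φ.symm.toMonoidHom φ.symm.injective
    · obtain ⟨u, v, huv⟩ := h3
      refine ⟨φ u, φ v, fun h => huv ?_⟩
      apply φ.injective
      rw [map_mul, map_mul, h]
    · have h5 : (commutator (kernel hZ a)).index = (commutator (kernel hZL a)).index :=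
        Nat.card_congr φ.symm.abelianizationCongr.toEquiv
      rw [h5]
      refine h4.trans ?_
      have h6 := Nat.pow_le_pow_left hle 2
      omega

end Cfsg.Agent.S0885
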