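import Cfsg.Statements.S0890
import Mathlib
import Cfsg.Agent.Lib.Char.MackeyNormal
import Cfsg.Agent.Lib.Char.GoingDown
import Cfsg.Agent.Lib.PGroup.Basic
import Cfsg.Agent.S0858
import Cfsg.Agent.S0887
-- import your own Cfsg.Agent.* helpers here

set_option autoImplicit false
open Cfsg

namespace Cfsg.Agent.S0890

open Cfsg.Agent.Lib.Char.Basic Cfsg.Agent.Lib.Char.Ortho Cfsg.Agent.Lib.Char.Induced
  Cfsg.Agent.Lib.Char.IndRep Cfsg.Agent.Lib.Char.Clifford Cfsg.Agent.Lib.Char.CliffordCorr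
  Cfsg.Agent.Lib.Char.GoingDown Cfsg.Agent.Lib.Char.MackeyNormal
open scoped ComplexConjugate


section GroupTheory

variable {G : Type*} [Group G]

/-- A chief factor directly above a proper normal subgroup. -/
theorem exists_chief_above [Finite G] (N : Subgroup G) [N.Normal] (hN : N ≠ ⊤) :
    ∃ K : Subgroup G, K.Normal ∧ N < K ∧
      ∀ M : Subgroup G, M.Normal → N ≤ M → M ≤ K → M = N ∨ M = K := by
  obtain ⟨K, hK⟩ := (Set.toFinite {K : Subgroup G | K.Normal ∧ N < K}).exists_minimal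
    ⟨⊤, inferInstance, lt_top_iff_ne_top.mpr hN⟩
  obtain ⟨⟨hKn, hNK⟩, hKm⟩ := hK
  refine ⟨K, hKn, hNK, fun M hM hNM hMK => ?_⟩
  by_cases hMN : M = N
  · exact Or.inl hMN
  · right
    exact le_antisymm hMK (hKm ⟨hM, lt_of_le_of_ne hNM (Ne.symm hMN)⟩ hMK)

/-- An abelian chief factor whose order is divisible by `r` has exponent `r`. -/
theorem pow_mem_of_chief [Finite G] (U K : Subgroup G) [hUn : U.Normal] [hKn : K.Normal]
    (hchief : ∀ M : Subgroup G, M.Normal → U ≤ M → M ≤ K → M = U ∨ M = K) (hUK : U ≤ K)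
    (hab : ⁅K, K⁆ ≤ U) {r : ℕ} (hr : r.Prime) (hdvd : r ∣ U.relIndex K) : ∀ x ∈ K, x ^ r ∈ U := by
  classical
  haveI : Fact r.Prime := ⟨hr⟩
  let π : G →* G ⧸ U := QuotientGroup.mk' U
  have hπ : ∀ x, π x = 1 ↔ x ∈ U := fun x => QuotientGroup.eq_one_iff x
  have hcomm : ∀ a ∈ K, ∀ b ∈ K, Commute (π a) (π b) := by
    intro a ha b hb
    have h1 : a * b * a⁻¹ * b⁻¹ ∈ U := hab (Subgroup.commutator_mem_commutator ha hb)
    have h2 := (hπ _).mpr h1
    simp only [map_mul, map_inv] at h2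
    have h3 : π a * π b = π b * π a := by
      rw [mul_inv_eq_one, mul_inv_eq_iff_eq_mul] at h2
      exact h2
    exact h3
  let W : Subgroup G :=
    { carrier := {x | x ∈ K ∧ x ^ r ∈ U}
      mul_mem' := by
        rintro a b ⟨ha, ha2⟩ ⟨hb, hb2⟩
        refine ⟨K.mul_mem ha hb, ?_⟩
        rw [← hπ, map_pow, map_mul, (hcomm a ha b hb).mul_pow, ← map_pow, ← map_pow,
          (hπ _).mpr ha2, (hπ _).mpr hb2, one_mul]
      one_mem' := ⟨K.one_mem, by simp [U.one_mem]⟩
      inv_mem' := by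
        rintro a ⟨ha, ha2⟩
        refine ⟨K.inv_mem ha, ?_⟩
        rw [inv_pow]
        exact U.inv_mem ha2 }
  have hWn : W.Normal := by
    constructor
    rintro x ⟨hx, hx2⟩ g
    refine ⟨hKn.conj_mem x hx g, ?_⟩
    rw [conj_pow]
    exact hUn.conj_mem _ hx2 g
  have hUW : U ≤ W := fun u hu => ⟨hUK hu, U.pow_mem hu r⟩
  have hWK : W ≤ K := fun x hx => hx.1
  -- Cauchy
  have hcard : r ∣ Nat.card (K ⧸ U.subgroupOf K) := hdvd
  obtain ⟨a, ha⟩ := exists_prime_orderOf_dvd_card' r hcard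
  obtain ⟨x, rfl⟩ := QuotientGroup.mk'_surjective (U.subgroupOf K) a
  have hxU : (x : G) ∉ U := by
    intro h
    have h1 : (QuotientGroup.mk' (U.subgroupOf K)) x = 1 :=
      (QuotientGroup.eq_one_iff x).mpr (Subgroup.mem_subgroupOf.mpr h)
    rw [h1, orderOf_one] at ha
    exact hr.one_lt.ne ha
  have hxr : (x : G) ^ r ∈ U := by
    have h1 := pow_orderOf_eq_one ((QuotientGroup.mk' (U.subgroupOf K)) x)
    rw [ha, ← map_pow, QuotientGroup.mk'_apply, QuotientGroup.eq_one_iff,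
      Subgroup.mem_subgroupOf] at h1
    simpa using h1
  rcases hchief W hWn hUW hWK with h | h
  · exact absurd (h ▸ (⟨x.2, hxr⟩ : (x : G) ∈ W)) hxU
  · intro y hy
    have : y ∈ W := h ▸ hy
    exact this.2

/-- Two abelian chief factors with a common prime: the lower one is central in the upper one. -/
theorem comm_mem_of_prime_dvd [Finite G] (U K M : Subgroup G) [hUn : U.Normal] [hKn : K.Normal]
    [hMn : M.Normal] (hUK : U < K) (hKM : K ≤ M)
    (hchiefK : ∀ X : Subgroup G, X.Normal → U ≤ X → X ≤ K → X = U ∨ X = K)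
    (hchiefM : ∀ X : Subgroup G, X.Normal → K ≤ X → X ≤ M → X = K ∨ X = M)
    (habK : ⁅K, K⁆ ≤ U) (habM : ⁅M, M⁆ ≤ K) {r : ℕ} (hr : r.Prime)
    (h1 : r ∣ U.relIndex K) (h2 : r ∣ K.relIndex M) : ∀ y ∈ K, ∀ z ∈ M, y * z * y⁻¹ * z⁻¹ ∈ U := by
  classical
  haveI : Fact r.Prime := ⟨hr⟩
  have hr1 := pow_mem_of_chief U K hchiefK hUK.le habK hr h1
  have hr2 := pow_mem_of_chief K M hchiefM hKM habM hr h2
  let U' : Subgroup M := U.subgroupOf M
  haveI hU'n : U'.Normal := Subgroup.normal_subgroupOf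
  let Q := M ⧸ U'
  have hQ : IsPGroup r Q := by
    intro q
    obtain ⟨z, rfl⟩ := QuotientGroup.mk'_surjective U' q
    refine ⟨2, ?_⟩
    rw [← map_pow, QuotientGroup.mk'_apply, QuotientGroup.eq_one_iff, Subgroup.mem_subgroupOf]
    have h3 := hr1 _ (hr2 _ z.2)
    rw [← pow_mul, ← sq] at h3
    simpa using h3
  let K' : Subgroup M := K.subgroupOf M
  haveI hK'n : K'.Normal := Subgroup.normal_subgroupOf
  let Kb : Subgroup Q := K'.map (QuotientGroup.mk' U')
  haveI hKbn : Kb.Normal := Subgroup.Normal.map hK'n _ (QuotientGroup.mk'_surjective U')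
  have hKb : Kb ≠ ⊥ := by
    obtain ⟨x, hxK, hxU⟩ := SetLike.exists_of_lt hUK
    intro h0
    have hmem : (QuotientGroup.mk' U') ⟨x, hKM hxK⟩ ∈ Kb :=
      ⟨⟨x, hKM hxK⟩, Subgroup.mem_subgroupOf.mpr hxK, rfl⟩
    rw [h0, Subgroup.mem_bot, QuotientGroup.mk'_apply, QuotientGroup.eq_one_iff,
      Subgroup.mem_subgroupOf] at hmem
    exact hxU hmem
  have hcent := Cfsg.Agent.Lib.PGroup.Basic.inf_center_ne_bot hQ hKb
  haveI : Nontrivial ↥(Kb ⊓ Subgroup.center Q) := (Subgroup.nontrivial_iff_ne_bot _).mpr hcent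
  obtain ⟨q, hq, hq1⟩ := Subgroup.exists_ne_one_of_nontrivial (Kb ⊓ Subgroup.center Q)
  obtain ⟨⟨y₀, hy₀K, rfl⟩, hy₀c⟩ := hq
  have hy₀U : (y₀ : G) ∉ U := by
    intro h
    apply hq1
    rw [QuotientGroup.mk'_apply, QuotientGroup.eq_one_iff, Subgroup.mem_subgroupOf]
    exact h
  let W : Subgroup G :=
    { carrier := {y | y ∈ K ∧ ∀ z ∈ M, y * z * y⁻¹ * z⁻¹ ∈ U}
      mul_mem' := by
        rintro a b ⟨ha, ha2⟩ ⟨hb, hb2⟩
        refine ⟨K.mul_mem ha hb, fun z hz => ?_⟩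
        have h3 : a * b * z * (a * b)⁻¹ * z⁻¹ =
            (a * (b * z * b⁻¹ * z⁻¹) * a⁻¹) * (a * z * a⁻¹ * z⁻¹) := by group
        rw [h3]
        exact U.mul_mem (hUn.conj_mem _ (hb2 z hz) a) (ha2 z hz)
      one_mem' := ⟨K.one_mem, fun z _ => by simp [U.one_mem]⟩
      inv_mem' := by
        rintro a ⟨ha, ha2⟩
        refine ⟨K.inv_mem ha, fun z hz => ?_⟩
        have h3 : a⁻¹ * z * a⁻¹⁻¹ * z⁻¹ = a⁻¹ * (a * z * a⁻¹ * z⁻¹)⁻¹ * a⁻¹⁻¹ := by group
        rw [h3]
        exact hUn.conj_mem _ (U.inv_mem (ha2 z hz)) a⁻¹ }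
  have hWn : W.Normal := by
    constructor
    rintro y ⟨hy, hy2⟩ g
    refine ⟨hKn.conj_mem y hy g, fun z hz => ?_⟩
    have h3 : g * y * g⁻¹ * z * (g * y * g⁻¹)⁻¹ * z⁻¹ =
        g * (y * (g⁻¹ * z * g) * y⁻¹ * (g⁻¹ * z * g)⁻¹) * g⁻¹ := by group
    rw [h3]
    refine hUn.conj_mem _ (hy2 _ ?_) g
    have := hMn.conj_mem z hz g⁻¹
    simpa using this
  have hUW : U ≤ W := by
    intro u hu
    refine ⟨hUK.le hu, fun z _ => ?_⟩
    have h3 : u * z * u⁻¹ * z⁻¹ = u * (z * u⁻¹ * z⁻¹) := by group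
    rw [h3]
    exact U.mul_mem hu (hUn.conj_mem _ (U.inv_mem hu) z)
  have hWK : W ≤ K := fun x hx => hx.1
  have hy₀W : (y₀ : G) ∈ W := by
    refine ⟨hy₀K, fun z hz => ?_⟩
    have h3 := (Subgroup.mem_center_iff.mp hy₀c) ((QuotientGroup.mk' U') ⟨z, hz⟩)
    rw [← map_mul, ← map_mul] at h3
    have h4 : ((⟨z, hz⟩ : M) * y₀)⁻¹ * (y₀ * (⟨z, hz⟩ : M)) ∈ U' := QuotientGroup.eq.mp h3
    rw [Subgroup.mem_subgroupOf] at h4
    have h5 : (y₀ : G) * z * (y₀ : G)⁻¹ * z⁻¹ =
        (z * y₀) * (((z * y₀)⁻¹ * ((y₀ : G) * z))) * (z * y₀)⁻¹ := by group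
    rw [h5]
    refine hUn.conj_mem _ ?_ _
    simpa using h4
  rcases hchiefK W hWn hUW hWK with h | h
  · exact absurd (h ▸ hy₀W) hy₀U
  · intro y hy z hz
    have : y ∈ W := h ▸ hy
    exact this.2 z hz

/-- An element of `H` centralizing `K` modulo the core of `H` lies in the core, if `G = K H`. -/
theorem mem_normalCore_of_comm (H K : Subgroup G) [hKn : K.Normal]
    (hG : ∀ g : G, ∃ k ∈ K, ∃ h ∈ H, g = k * h) {x : G} (hx : x ∈ H)
    (hc : ∀ k ∈ K, k * x * k⁻¹ * x⁻¹ ∈ H.normalCore) : x ∈ H.normalCore := by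
  intro g
  obtain ⟨k, hk, h, hh, rfl⟩ := hG g
  have hk' : h⁻¹ * k * h ∈ K := by
    have := hKn.conj_mem k hk h⁻¹
    simpa using this
  have h1 := hc _ hk'
  have h2 : (k * h) * x * (k * h)⁻¹ =
      (h * ((h⁻¹ * k * h) * x * (h⁻¹ * k * h)⁻¹ * x⁻¹) * h⁻¹) * (h * x * h⁻¹) := by group
  rw [h2]
  refine H.mul_mem ?_ (H.mul_mem (H.mul_mem hh hx) (H.inv_mem hh))
  exact H.normalCore_le ((inferInstance : H.normalCore.Normal).conj_mem _ h1 h)

end GroupTheory

/-- Let L ≤ H < G with L normal in G, H a maximal subgroup and G / L solvable. Let ϑ be an irreducible character of H whose restriction to L is irreducible and whose induction χ to G is irreducible. Then there is a normal subgroup M of G containing L such that the restriction of χ to M is not a natural-number multiple of a single irreducible character of M. -/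
theorem result {G : Type*} [Group G] [Fintype G] (L H : Subgroup G) [L.Normal] (hLH : L ≤ H) (hmax : IsCoatom H) (hsolv : Group.IsSolvable (G ⧸ L)) (ϑ : H → ℂ) (hϑ : Cfsg.IsIrrCharacter H ϑ) (hϑL : Cfsg.IsIrrCharacter L (fun x : L => ϑ ⟨(x : G), hLH x.2⟩)) (hind : Cfsg.IsIrrCharacter G (Cfsg.indFun H ϑ)) : ∃ M : Subgroup G, M.Normal ∧ L ≤ M ∧ ¬ ∃ (φ : M → ℂ) (e : ℕ), Cfsg.IsIrrCharacter M φ ∧ (fun m : M => Cfsg.indFun H ϑ m) = (e : ℂ) • φ := by
  classical
  by_contra hcon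
  push Not at hcon
  set χ : G → ℂ := indFun H ϑ with hχdef
  letI : Fintype H := Fintype.ofFinite _
  letI : Fintype L := Fintype.ofFinite _
  have hϑc := isCharacter_of_isIrrCharacter hϑ
  have hϑcl := isClassFunction_of_isCharacter hϑc
  have hχc := isCharacter_of_isIrrCharacter hind
  have hχcl := isClassFunction_of_isCharacter hχc
  have hχ1 : χ 1 ≠ 0 := irr_apply_one_ne_zero hind
  -- irreducibility of restrictions of `ϑ` to groups above `L`
  have hirrA : ∀ (A : Type _) [Group A] [Fintype A] (f : L →* A) (g : A →* H),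
      (∀ x : L, ((g (f x) : H) : G) = x) → IsIrrCharacter A (fun a => ϑ (g a)) := by
    intro A _ _ f g hfg
    apply isIrr_of_comp f (isCharacter_comp_hom hϑc g)
    convert hϑL using 2 with x
    congr 1
    exact Subtype.ext (hfg x)
  let U : Subgroup G := H.normalCore
  haveI hUn : U.Normal := inferInstance
  have hLU : L ≤ U := Subgroup.normal_le_normalCore.mpr hLH
  have hUH : U ≤ H := Subgroup.normalCore_le H
  have hHtop : H ≠ ⊤ := hmax.1
  have hUtop : U ≠ ⊤ := fun h => hHtop (top_le_iff.mp (h ▸ hUH))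
  letI : Fintype U := Fintype.ofFinite _
  -- `ϑ` lies under `χ`
  have hχH : classInner (fun h : H => χ h) ϑ ≠ 0 := by
    have h1 := frobenius_reciprocity H ϑ χ hχcl
    rw [← hχdef, classInner_irr_self hind] at h1
    intro h0
    have h2 := classInner_conj_symm (fun h : H => χ h) ϑ
    rw [h0, ← h1] at h2
    simp at h2
  obtain ⟨Ξ, hΞ, hadd⟩ := exists_char_add (isCharacter_restrict hχc H) hϑ hχH
  -- the restriction to `U`
  let ϑU : U → ℂ := fun u => ϑ ⟨(u : G), hUH u.2⟩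
  have hϑU : IsIrrCharacter U ϑU :=
    hirrA U (Subgroup.inclusion hLU) (Subgroup.inclusion hUH) (fun _ => rfl)
  obtain ⟨φ₀, e₀, hφ₀, hχU⟩ := hcon U hUn hLU
  have hφ₀eq : φ₀ = ϑU := by
    by_contra hne
    have h1 : (fun u : U => χ u) = ϑU + (fun u : U => Ξ ⟨(u : G), hUH u.2⟩) := by
      funext u
      have := congrFun hadd ⟨(u : G), hUH u.2⟩
      simpa using this
    have h2 : classInner (fun u : U => χ u) ϑU = 0 := by
      rw [hχU, classInner_smul_left, classInner_irr_of_ne hφ₀ hϑU hne, mul_zero]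
    rw [h1, classInner_add_left, classInner_irr_self hϑU] at h2
    obtain ⟨n, hn⟩ := exists_nat_classInner_of_isCharacter
      (isCharacter_comp_hom hΞ (Subgroup.inclusion hUH)) (isCharacter_of_isIrrCharacter hϑU)
    have hn' : classInner (fun u : U => Ξ ⟨(u : G), hUH u.2⟩) ϑU = n := hn
    rw [hn'] at h2
    have h3 : ((1 + n : ℕ) : ℂ) = 0 := by
      push_cast
      exact h2
    have h4 : 1 + n = 0 := by exact_mod_cast h3
    omega
  subst hφ₀eq
  have he₀ : (e₀ : ℂ) ≠ 0 := by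
    intro h0
    apply hχ1
    have := congrFun hχU 1
    simpa [h0] using this
  -- invariance of `ϑ` on `U`
  have hϑUinv : ∀ (g : G) (u : U), ϑ ⟨g * u * g⁻¹, hUH (hUn.conj_mem u u.2 g)⟩ = ϑ ⟨u, hUH u.2⟩ := by
    intro g u
    have h1 := congrFun hχU ⟨g * u * g⁻¹, hUn.conj_mem u u.2 g⟩
    have h2 := congrFun hχU u
    simp only [Pi.smul_apply, smul_eq_mul] at h1 h2
    have h3 : χ (g * u * g⁻¹) = χ u := hχcl _ _
    rw [h3, h2] at h1
    exact (mul_left_cancel₀ he₀ h1).symm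
  -- the chief factor above `U`
  obtain ⟨K, hKn, hUK, hchiefK⟩ := exists_chief_above U hUtop
  haveI := hKn
  letI : Fintype K := Fintype.ofFinite _
  have hKab : ⁅K, K⁆ ≤ U := Cfsg.Agent.S0858.commutator_le_of_chief L K U hsolv hLU hUK hchiefK
  have hKH : ¬ K ≤ H := by
    intro h
    exact absurd (Subgroup.normal_le_normalCore.mpr h) (not_le_of_gt hUK)
  have hGK : ∀ g : G, ∃ k ∈ K, ∃ h ∈ H, g = k * h := by
    have h1 : K ⊔ H = ⊤ := by
      apply hmax.2
      exact lt_of_le_of_ne le_sup_right (fun h => hKH (h ▸ le_sup_left))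
    intro g
    have h2 : g ∈ ((K ⊔ H : Subgroup G) : Set G) := by rw [h1]; trivial
    rw [Subgroup.normal_mul] at h2
    obtain ⟨k, hk, h, hh, rfl⟩ := Set.mem_mul.mp h2
    exact ⟨k, hk, h, hh, rfl⟩
  have hHK : H ⊓ K = U := by
    have hn : (H ⊓ K).Normal := by
      constructor
      rintro x ⟨hxH, hxK⟩ g
      obtain ⟨k, hk, h, hh, rfl⟩ := hGK g
      have hc : h * x * h⁻¹ ∈ H ⊓ K :=
        ⟨H.mul_mem (H.mul_mem hh hxH) (H.inv_mem hh), hKn.conj_mem x hxK h⟩
      have h1 : k * h * x * (k * h)⁻¹ =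
          (k * (h * x * h⁻¹) * k⁻¹ * (h * x * h⁻¹)⁻¹) * (h * x * h⁻¹) := by group
      rw [h1]
      refine (H ⊓ K).mul_mem ?_ hc
      have h2 : k * (h * x * h⁻¹) * k⁻¹ * (h * x * h⁻¹)⁻¹ ∈ U :=
        hKab (Subgroup.commutator_mem_commutator hk hc.2)
      exact ⟨hUH h2, hUK.le h2⟩
    rcases hchiefK (H ⊓ K) hn (le_inf hUH hUK.le) inf_le_right with h | h
    · exact h
    · exact absurd (h ▸ inf_le_left) hKH
  -- Mackey for `K`
  let Ub : Subgroup K := H.subgroupOf K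
  letI : Fintype Ub := Fintype.ofFinite _
  have hUbU : Ub = U.subgroupOf K := by
    ext y
    simp only [Ub, Subgroup.mem_subgroupOf]
    constructor
    · intro h
      rw [← hHK]
      exact ⟨h, y.2⟩
    · intro h
      exact hUH h
  haveI hUbn : Ub.Normal := by
    rw [hUbU]
    exact Subgroup.normal_subgroupOf
  let φb : Ub → ℂ := fun y => ϑ ⟨((y : K) : G), Subgroup.mem_subgroupOf.mp y.2⟩
  have hφb : IsIrrCharacter Ub φb := by
    have hLKU : ∀ x : L, (⟨(x : G), hLU.trans hUK.le x.2⟩ : K) ∈ Ub := fun x => hLH x.2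
    exact hirrA Ub
      { toFun := fun x => ⟨⟨(x : G), hLU.trans hUK.le x.2⟩, hLKU x⟩
        map_one' := rfl
        map_mul' := fun _ _ => rfl }
      { toFun := fun y => ⟨((y : K) : G), Subgroup.mem_subgroupOf.mp y.2⟩
        map_one' := rfl
        map_mul' := fun _ _ => rfl } (fun _ => rfl)
  have hχK : (fun x : K => χ x) = indFun Ub φb := by
    funext x
    exact indFun_res_of_forall_mul H K hGK ϑ (isClassFunction_of_isCharacter hϑc) x
  have hφbinv : ∀ (k : K) (y : Ub),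
      φb ⟨k * y * k⁻¹, hUbn.conj_mem (y : K) y.2 k⟩ = φb y := by
    intro k y
    have hyU : ((y : K) : G) ∈ U := by
      have h5 : (y : K) ∈ U.subgroupOf K := hUbU ▸ y.2
      exact Subgroup.mem_subgroupOf.mp h5
    exact hϑUinv (k : G) ⟨((y : K) : G), hyU⟩
  have hUbidx : classInner (indFun Ub φb) (indFun Ub φb) = (Ub.index : ℂ) :=
    Cfsg.Agent.Lib.Char.Gallagher.classInner_indFun_self_of_invariant Ub hφb hφbinv
  obtain ⟨ξ, e₂, hξ, hχKe⟩ := hcon K hKn (hLU.trans hUK.le)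
  have he₂sq : e₂ ^ 2 = Ub.index := by
    have h1 : classInner (fun x : K => χ x) (fun x : K => χ x) = (e₂ : ℂ) ^ 2 := by
      rw [hχKe, classInner_smul_left, classInner_smul_right, classInner_irr_self hξ]
      simp only [Complex.conj_natCast]
      ring
    rw [hχK, hUbidx] at h1
    exact_mod_cast h1.symm
  have hKtop : K ≠ ⊤ := by
    intro hK
    have hirrK : IsIrrCharacter K (fun x : K => χ x) :=
      isIrrCharacter_comp_surjective hind K.subtype (fun g => ⟨⟨g, hK ▸ Subgroup.mem_top g⟩, rfl⟩)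
    have h1 := classInner_irr_self hirrK
    rw [hχK, hUbidx] at h1
    have h2 : Ub.index = 1 := by exact_mod_cast h1
    have h3 : H.relIndex K = 1 := h2
    rw [Subgroup.relIndex_eq_one] at h3
    exact hKH h3
  have hUbidx2 : Ub.index = U.relIndex K := by
    rw [hUbU]
    rfl
  -- the second chief factor
  obtain ⟨M, hMn, hKM, hchiefM⟩ := exists_chief_above K hKtop
  haveI := hMn
  letI : Fintype M := Fintype.ofFinite _
  have hMab : ⁅M, M⁆ ≤ K :=
    Cfsg.Agent.S0858.commutator_le_of_chief L M K hsolv (hLU.trans hUK.le) hKM hchiefM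
  have hGM : ∀ g : G, ∃ m ∈ M, ∃ h ∈ H, g = m * h := by
    intro g
    obtain ⟨k, hk, h, hh, rfl⟩ := hGK g
    exact ⟨k, hKM.le hk, h, hh, rfl⟩
  -- `H ⊓ M` cannot lie in `U`
  have hFU : ¬ H ⊓ M ≤ U := by
    intro hle
    obtain ⟨y, hyM, hyK⟩ := SetLike.exists_of_lt hKM
    obtain ⟨k, hk, h, hh, rfl⟩ := hGK y
    apply hyK
    refine K.mul_mem hk (hUK.le (hle ⟨hh, ?_⟩))
    have : h = k⁻¹ * (k * h) := by group
    rw [this]
    exact M.mul_mem (M.inv_mem (hKM.le hk)) hyM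
  -- an element of `H` that centralizes `K` modulo `U` lies in `U`
  have hcent : ∀ x ∈ H, (∀ k ∈ K, k * x * k⁻¹ * x⁻¹ ∈ U) → x ∈ U :=
    fun x hx hc => mem_normalCore_of_comm H K hGK hx hc
  -- Mackey for `M`
  let F : Subgroup M := H.subgroupOf M
  letI : Fintype F := Fintype.ofFinite _
  let β : F → ℂ := fun y => ϑ ⟨((y : M) : G), Subgroup.mem_subgroupOf.mp y.2⟩
  have hβ : IsIrrCharacter F β := by
    have hLMU : ∀ x : L, (⟨(x : G), hKM.le (hUK.le (hLU x.2))⟩ : M) ∈ F := fun x => hLH x.2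
    exact hirrA F
      { toFun := fun x => ⟨⟨(x : G), hKM.le (hUK.le (hLU x.2))⟩, hLMU x⟩
        map_one' := rfl
        map_mul' := fun _ _ => rfl }
      { toFun := fun y => ⟨((y : M) : G), Subgroup.mem_subgroupOf.mp y.2⟩
        map_one' := rfl
        map_mul' := fun _ _ => rfl } (fun _ => rfl)
  have hχM : (fun x : M => χ x) = indFun F β := by
    funext x
    exact indFun_res_of_forall_mul H M hGM ϑ (isClassFunction_of_isCharacter hϑc) x
  obtain ⟨τ, f, hτ, hχMe⟩ := hcon M hMn (hLU.trans (hUK.le.trans hKM.le))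
  have hτc := isCharacter_of_isIrrCharacter hτ
  have hτcl := isClassFunction_of_isCharacter hτc
  -- the subgroup `K` of `M`
  let A : Subgroup M := K.subgroupOf M
  haveI hAn : A.Normal := Subgroup.normal_subgroupOf
  letI : Fintype A := Fintype.ofFinite _
  let eA : A ≃* K := Subgroup.subgroupOfEquivOfLe hKM.le
  let ξ' : A → ℂ := fun a => ξ (eA a)
  have hξ' : IsIrrCharacter A ξ' :=
    isIrrCharacter_comp_surjective hξ eA.toMonoidHom eA.surjective
  have hfτ : ∀ a : A, (f : ℂ) * τ a = e₂ * ξ' a := by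
    intro a
    have h1 := congrFun hχMe (a : M)
    have h2 := congrFun hχKe (eA a)
    simp only [Pi.smul_apply, smul_eq_mul] at h1 h2
    rw [← h1, ← h2]
    rfl
  have he₂ : (e₂ : ℂ) ≠ 0 := by
    intro h0
    apply hχ1
    have := congrFun hχKe 1
    simpa [h0] using this
  have hf : (f : ℂ) ≠ 0 := by
    intro h0
    apply hχ1
    have := congrFun hχMe 1
    simpa [h0] using this
  have hτA : classInner (fun a : A => τ a) ξ' ≠ 0 := by
    have h1 : (f : ℂ) • (fun a : A => τ a) = (e₂ : ℂ) • ξ' := by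
      funext a
      simpa using hfτ a
    intro h0
    have h2 := congrArg (fun φ => classInner φ ξ') h1
    simp only [classInner_smul_left, h0, mul_zero, classInner_irr_self hξ', mul_one] at h2
    exact he₂ h2.symm
  obtain ⟨c, hc⟩ := exists_degree_of_isCharacter hτc
  obtain ⟨d, hd⟩ := exists_degree_of_isCharacter (isCharacter_of_isIrrCharacter hξ')
  obtain ⟨hdc, hcd⟩ := Cfsg.Agent.S0887.result A τ hτ ξ' hξ' hτA c d hc hd
  obtain ⟨a, rfl⟩ := hdc
  have hd0 : d ≠ 0 := by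
    rintro rfl
    have := irr_apply_one_ne_zero hξ'
    rw [hd] at this
    simp at this
  have hcd' : a ∣ A.index := by
    rwa [Nat.mul_div_cancel_left _ (Nat.pos_of_ne_zero hd0)] at hcd
  have hfa : f * a = e₂ := by
    have h1 := hfτ 1
    simp only [Subgroup.coe_one] at h1
    have h1' : (f : ℂ) * τ 1 = e₂ * ξ' 1 := h1
    rw [hc, hd] at h1'
    have h2 : f * (d * a) = e₂ * d := by exact_mod_cast h1'
    have h3 : d * (f * a) = d * e₂ := by linarith
    exact Nat.eq_of_mul_eq_mul_left (Nat.pos_of_ne_zero hd0) h3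
  have ha1 : a = 1 := by
    by_contra hne
    obtain ⟨r, hr, hra⟩ := Nat.exists_prime_and_dvd hne
    have hr1 : r ∣ U.relIndex K := by
      rw [← hUbidx2, ← he₂sq, ← hfa]
      exact Dvd.dvd.pow (Dvd.dvd.mul_left hra f) two_ne_zero
    have hr2 : r ∣ K.relIndex M := hra.trans hcd'
    have hcomm := comm_mem_of_prime_dvd U K M hUK hKM.le hchiefK hchiefM hKab hMab hr hr1 hr2
    apply hFU
    rintro x ⟨hxH, hxM⟩
    refine hcent x hxH (fun k hk => ?_)
    exact hcomm k hk x hxM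
  subst ha1
  rw [mul_one] at hfa
  subst hfa
  rw [mul_one] at hc
  -- degrees
  have hϑ1 : ϑ 1 ≠ 0 := irr_apply_one_ne_zero hϑ
  have hφb1 : φb 1 = ϑ 1 := rfl
  have hβ1 : β 1 = ϑ 1 := rfl
  have hχ1K : χ 1 = f * d := by
    have h1 := congrFun hχKe 1
    simp only [Pi.smul_apply, smul_eq_mul, Subgroup.coe_one] at h1
    rw [h1, ← hd]
    simp only [ξ']
    congr 2
  have hχ1K2 : χ 1 = (f : ℂ) ^ 2 * ϑ 1 := by
    have h1 := congrFun hχK 1
    simp only [Subgroup.coe_one] at h1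
    rw [h1, indFun_one, hφb1]
    congr 1
    rw [← he₂sq]
    push_cast
    rfl
  have hdf : (d : ℂ) = f * ϑ 1 := by
    have h1 := hχ1K.symm.trans hχ1K2
    have h2 : (f : ℂ) * (d : ℂ) = (f : ℂ) * (f * ϑ 1) := by rw [h1]; ring
    exact mul_left_cancel₀ hf h2
  have hτ1 : τ 1 = f * ϑ 1 := by rw [hc, hdf]
  have hχ1M : χ 1 = (f : ℂ) * τ 1 := by
    have h1 := congrFun hχMe 1
    simpa using h1
  have hFidx : F.index = f ^ 2 := by
    have h1 := congrFun hχM 1
    simp only [Subgroup.coe_one] at h1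
    rw [indFun_one, hβ1, hχ1M, hτ1] at h1
    have h2 : ((f ^ 2 : ℕ) : ℂ) * ϑ 1 = (F.index : ℂ) * ϑ 1 := by
      rw [← h1]
      push_cast
      ring
    have h3 := mul_right_cancel₀ hϑ1 h2
    exact_mod_cast h3.symm
  -- `τ_F = f β`
  have hτF : (fun y : F => τ y) = (f : ℂ) • β := by
    apply eq_smul_of_degree (isCharacter_restrict hτc F) hβ
    · have h1 := frobenius_reciprocity F β τ hτcl
      rw [← hχM, hχMe, classInner_smul_left, classInner_irr_self hτ, mul_one] at h1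
      rw [← classInner_conj_symm, ← h1]
      simp
    · simp only [Subgroup.coe_one]
      rw [hτ1, hβ1]
  have hτFy : ∀ y : F, τ y = (f : ℂ) * β y := fun y => by
    have := congrFun hτF y
    simpa using this
  -- the norm of `τ` is concentrated on `F`
  have hsumF : ∑ y : F, ‖τ y‖ ^ 2 = (Nat.card M : ℝ) := by
    have h1 : ∀ y : F, ‖τ y‖ ^ 2 = (f : ℝ) ^ 2 * ‖β y‖ ^ 2 := by
      intro y
      rw [hτFy y, norm_mul, mul_pow]
      simp
    rw [Finset.sum_congr rfl (fun y _ => h1 y), ← Finset.mul_sum, sum_norm_sq_eq_card hβ]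
    rw [← Subgroup.index_mul_card F, hFidx]
    push_cast
    ring
  have hvan : ∀ y : M, y ∉ F → τ y = 0 := by
    have hsum := sum_norm_sq_eq_card hτ
    rw [← Finset.sum_filter_add_sum_filter_not Finset.univ (fun y : M => y ∈ F)] at hsum
    have h1 : ∑ y ∈ Finset.univ.filter (fun y : M => y ∈ F), ‖τ y‖ ^ 2 = ∑ y : F, ‖τ y‖ ^ 2 := by
      symm
      refine Finset.sum_of_injOn (fun y : F => (y : M)) ?_ ?_ ?_ (fun _ _ => rfl)
      · exact fun a _ b _ h => Subtype.ext h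
      · intro y _
        simp
      · intro y hy hy2
        exfalso
        apply hy2
        exact ⟨⟨y, (Finset.mem_filter.mp hy).2⟩, by simp, rfl⟩
    rw [h1, hsumF] at hsum
    have h2 : ∑ y ∈ Finset.univ.filter (fun y : M => ¬ y ∈ F), ‖τ y‖ ^ 2 = 0 := by linarith
    intro y hy
    have h3 := (Finset.sum_eq_zero_iff_of_nonneg (fun _ _ => by positivity)).mp h2 y (by simp [hy])
    have h4 : ‖τ y‖ = 0 := by simpa using h3
    exact norm_eq_zero.mp h4
  -- `β` vanishes off `U`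
  have hβU : ∀ y : F, β y ≠ 0 → ((y : M) : G) ∈ U := by
    intro y hy
    refine hcent _ (Subgroup.mem_subgroupOf.mp y.2) (fun k hk => ?_)
    let k' : M := ⟨k, hKM.le hk⟩
    have h1 : τ (k' * y * k'⁻¹) = τ y := hτcl _ _
    have h2 : τ y ≠ 0 := by
      rw [hτFy y]
      exact mul_ne_zero hf hy
    have h3 : k' * y * k'⁻¹ ∈ F := by
      by_contra hcon2
      rw [hvan _ hcon2] at h1
      exact h2 h1.symm
    have h4 : k * ((y : M) : G) * k⁻¹ ∈ H := Subgroup.mem_subgroupOf.mp h3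
    have hyH : ((y : M) : G) ∈ H := Subgroup.mem_subgroupOf.mp y.2
    rw [← hHK]
    refine ⟨H.mul_mem h4 (H.inv_mem hyH), ?_⟩
    have h5 : k * ((y : M) : G) * k⁻¹ * ((y : M) : G)⁻¹ = k * (((y : M) : G) * k⁻¹ * ((y : M) : G)⁻¹) := by
      group
    rw [h5]
    exact K.mul_mem hk (hKn.conj_mem _ (K.inv_mem hk) _)
  -- the subgroup of `F` corresponding to `U`
  let ι : F →* G := M.subtype.comp F.subtype
  let W : Subgroup F := U.comap ι
  haveI hWn : W.Normal := Subgroup.Normal.comap hUn ι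
  letI : Fintype W := Fintype.ofFinite _
  have hv : ∀ y : F, y ∉ W → β y = 0 := by
    intro y hy
    by_contra hne
    exact hy (hβU y hne)
  have hnormW := classInner_res_self_of_vanish W hβ hv
  have hβW : IsIrrCharacter W (fun y : W => β y) := by
    have hLW : ∀ x : L, (⟨⟨(x : G), hKM.le (hUK.le (hLU x.2))⟩, hLH x.2⟩ : F) ∈ W := fun x => hLU x.2
    exact hirrA W
      { toFun := fun x => ⟨⟨⟨(x : G), hKM.le (hUK.le (hLU x.2))⟩, hLH x.2⟩, hLW x⟩
        map_one' := rfl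
        map_mul' := fun _ _ => rfl }
      { toFun := fun y => ⟨(((y : F) : M) : G), Subgroup.mem_subgroupOf.mp (y : F).2⟩
        map_one' := rfl
        map_mul' := fun _ _ => rfl } (fun _ => rfl)
  rw [classInner_irr_self hβW] at hnormW
  have hWidx : W.index = 1 := by exact_mod_cast hnormW.symm
  have hWtop : W = ⊤ := Subgroup.index_eq_one.mp hWidx
  apply hFU
  rintro x ⟨hxH, hxM⟩
  have h1 : (⟨⟨x, hxM⟩, hxH⟩ : F) ∈ W := by
    rw [hWtop]
    trivial
  exact h1

end Cfsg.Agent.S0890
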