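import Cfsg.Statements.S0915
import Mathlib
import Cfsg.Agent.Lib.Blocks.BrauerMap
import Cfsg.Agent.Lib.Basic.PCore
import Cfsg.Agent.Lib.Solvable.PSeries
-- import your own Cfsg.Agent.* helpers here

set_option autoImplicit false
open Cfsg

namespace Cfsg.Agent.S0915

/-- Let G be a finite p-solvable group with trivial largest normal subgroup of order prime to p. Then any two irreducible characters of G lie in the same block relative to every maximal ideal M of the algebraic integers containing p: G has a single p-block. -/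
theorem result {G : Type*} [Group G] [Finite G] (p : ℕ) [Fact p.Prime] (M : Ideal Cfsg.AlgInt) (hM : Cfsg.IsPModular p M) (hsolv : Cfsg.IsPSolvable p G) (hcore : Cfsg.pPrimeCore p G = ⊥) (χ ψ : Cfsg.IrrCharacter G) : Cfsg.SameBlock M (χ : G → ℂ) (ψ : G → ℂ) := by
  classical
  haveI := Fintype.ofFinite G
  haveI hprime : M.IsPrime := Cfsg.Agent.Lib.Blocks.Local.isPrime_of_isPModular hM
  haveI hPn : (Cfsg.pCore p G).Normal := Cfsg.Agent.Lib.Basic.PCore.pCore_normal p G
  have hPp : IsPGroup p (Cfsg.pCore p G) := Cfsg.Agent.Lib.Basic.PCore.pCore_isPGroup p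
  have hCle := Cfsg.Agent.Lib.Solvable.PSeries.centralizer_pCore_le hsolv hcore
  -- the key congruence
  have key : ∀ (θ : Cfsg.IrrCharacter G) (g : G), g ∈ Subgroup.centralizer (Cfsg.pCore p G : Set G) →
      Cfsg.MemLocalIdeal M (Cfsg.centralChar (θ : G → ℂ) g -
        ((Subgroup.centralizer ({g} : Set G)).index : ℂ)) := by
    intro θ g hg
    have hgP : g ∈ Cfsg.pCore p G := hCle hg
    have hK : ∀ x : G, IsConj g x → x ∈ Cfsg.pCore p G := by
      intro x hx
      obtain ⟨c, rfl⟩ := isConj_iff.mp hx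
      exact hPn.conj_mem g hgP c
    set k : ℂ := ((Subgroup.centralizer ({g} : Set G)).index : ℂ) with hk
    let a : MonoidAlgebra ℂ G := Cfsg.Agent.Lib.Blocks.Central.classSum g - k • 1
    have hkloc : Cfsg.MemLocalRing M k := Cfsg.Agent.Lib.Blocks.Local.memLocalRing_natCast _
    have ha : a ∈ Cfsg.Agent.Lib.Blocks.Central.localCenter G M :=
      (Cfsg.Agent.Lib.Blocks.Central.localCenter G M).sub_mem
        (Cfsg.Agent.Lib.Blocks.Central.classSum_mem_localCenter g)
        (Cfsg.Agent.Lib.Blocks.Central.algebraMap_mem_localCenter hkloc)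
    have hval : Cfsg.Agent.Lib.Blocks.Central.omega (θ : G → ℂ) a = Cfsg.centralChar (θ : G → ℂ) g - k := by
      simp only [a, Cfsg.Agent.Lib.Blocks.Central.omega_sub, Cfsg.Agent.Lib.Blocks.Central.omega_smul,
        Cfsg.Agent.Lib.Blocks.Central.omega_one θ.2,
        Cfsg.Agent.Lib.Blocks.Central.omega_classSum (Cfsg.Agent.Lib.Blocks.Central.isClassFunction_of_irr θ.2),
        mul_one]
    rw [← hval]
    apply Cfsg.Agent.Lib.Blocks.BlockHom.memLocalIdeal_omega_of_coset_sum hM (Cfsg.pCore p G) hPp θ.2 ha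
    intro g0 s hs
    have hcoeff : ∀ x : G, a.coeff x = (if IsConj g x then 1 else 0) - k * (if x = 1 then 1 else 0) := by
      intro x
      simp only [a, MonoidAlgebra.coeff_sub, Finsupp.sub_apply, MonoidAlgebra.coeff_smul_apply,
        smul_eq_mul, Cfsg.Agent.Lib.Blocks.Central.coeff_one_apply]
      congr 1
      by_cases h : IsConj g x
      · rw [if_pos h, Cfsg.Agent.Lib.Blocks.Central.coeff_classSum_of_isConj h]
      · rw [if_neg h, Cfsg.Agent.Lib.Blocks.Central.coeff_classSum_of_not_isConj h]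
    simp only [hcoeff]
    by_cases hg0 : g0 ∈ Cfsg.pCore p G
    · -- the coset is `P`
      have hmem : ∀ x, x ∈ s ↔ x ∈ Cfsg.pCore p G := by
        intro x
        rw [hs]
        constructor
        · intro h
          have := (Cfsg.pCore p G).mul_mem hg0 h
          simpa using this
        · intro h
          exact (Cfsg.pCore p G).mul_mem ((Cfsg.pCore p G).inv_mem hg0) h
      have h1 : ∑ x ∈ s, (if IsConj g x then (1 : ℂ) else 0) = k := by
        rw [hk, ← Cfsg.Agent.Lib.Char.Integrality.card_classFinset, Finset.sum_boole]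
        congr 2
        ext x
        simp only [Finset.mem_filter, Cfsg.Agent.Lib.Char.Integrality.mem_classFinset, hmem]
        exact ⟨fun h => h.2, fun h => ⟨hK x h, h⟩⟩
      have h2 : ∑ x ∈ s, (if x = 1 then (1 : ℂ) else 0) = 1 := by
        rw [Finset.sum_ite_eq' s 1]
        rw [if_pos ((hmem 1).2 (Cfsg.pCore p G).one_mem)]
      rw [Finset.sum_sub_distrib, ← Finset.mul_sum, h1, h2, mul_one, sub_self]
      exact Cfsg.Agent.Lib.Blocks.Local.memLocalIdeal_zero
    · -- the coset misses `P`
      have hnot : ∀ x ∈ s, x ∉ Cfsg.pCore p G := by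
        intro x hx hxP
        apply hg0
        have h1 := (hs x).1 hx
        have := (Cfsg.pCore p G).mul_mem hxP ((Cfsg.pCore p G).inv_mem h1)
        simpa using this
      rw [Finset.sum_eq_zero]
      · exact Cfsg.Agent.Lib.Blocks.Local.memLocalIdeal_zero
      · intro x hx
        have h1 : ¬ IsConj g x := fun h => hnot x hx (hK x h)
        have h2 : x ≠ 1 := fun h => hnot x hx (h ▸ (Cfsg.pCore p G).one_mem)
        rw [if_neg h1, if_neg h2, mul_zero, sub_zero]
  intro g
  by_cases hg : g ∈ Subgroup.centralizer (Cfsg.pCore p G : Set G)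
  · have h1 := key χ g hg
    have h2 := key ψ g hg
    have h3 := Cfsg.Agent.Lib.Blocks.Local.memLocalIdeal_sub h1 h2
    convert h3 using 1
    ring
  · exact Cfsg.Agent.Lib.Blocks.Local.memLocalIdeal_sub
      (Cfsg.Agent.Lib.Blocks.BrauerMap.memLocalIdeal_centralChar_of_not_centralizer hM (Cfsg.pCore p G) hPp χ.2 hg)
      (Cfsg.Agent.Lib.Blocks.BrauerMap.memLocalIdeal_centralChar_of_not_centralizer hM (Cfsg.pCore p G) hPp ψ.2 hg)

end Cfsg.Agent.S0915
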