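import Cfsg.Statements.S0974
import Mathlib
import Cfsg.Agent.Lib.Char.BrauerSCNum
-- import your own Cfsg.Agent.* helpers here

set_option autoImplicit false
open Cfsg

namespace Cfsg.Agent.S0974

open Cfsg.Agent.Lib.Char.BrauerSCNum

/-- No finite simple group has order 3648 = 2^6 * 3 * 19. -/
theorem result {G : Type*} [Group G] [Finite G] [IsSimpleGroup G] : Nat.card G ≠ 3648 := by
  intro hN
  obtain ⟨s, c, d, h1, h2, h3⟩ := simple_numeric (G := G) 19 192 96 2 (by norm_num) (by simpa using hN)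
    (by norm_num) (by norm_num) (by norm_num) (by norm_num) (by norm_num) (by decide +kernel) (by norm_num)
  obtain ⟨Y, rfl, hcY⟩ := form_e2 s c (by simpa using h2) (fun Y hY => (h3 Y hY).1)
  obtain ⟨-, h4, h5, h6⟩ := h3 Y (Finset.mem_singleton_self Y)
  have key1 : ∀ x ∈ (192 : ℕ).divisors, x % 19 = 18 → False := by decide +kernel
  have key2 : ∀ x ∈ (192 : ℕ).divisors, x % 19 = 1 → x = 1 ∨ x = 96 := by decide +kernel
  rw [Finset.sum_singleton] at h1
  rcases hcY with h | h
  · rw [h] at h5 h6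
    have h7 : d Y ∈ (192 : ℕ).divisors := Nat.mem_divisors.2 ⟨by simpa using h5, by norm_num⟩
    exact key1 _ h7 (by omega)
  · rw [h] at h5 h6 h1
    have h7 : d Y ∈ (192 : ℕ).divisors := Nat.mem_divisors.2 ⟨by simpa using h5, by norm_num⟩
    rcases key2 _ h7 (by omega) with h8 | h8
    · omega
    · rw [h8] at h1
      norm_num at h1

end Cfsg.Agent.S0974
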