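import Cfsg.Statements.S0977
import Mathlib
import Cfsg.Agent.Lib.SmallOrd.PNFour
-- import your own Cfsg.Agent.* helpers here

set_option autoImplicit false
open Cfsg

namespace Cfsg.Agent.S0977

open Cfsg.Agent.Lib.SmallOrd.PN

/-- The possible degrees. -/
def ds : List ℕ := [4, 6, 9, 16, 24, 36, 54, 96, 144, 216, 864]

/-- The sign of a degree. -/
def sg (d : ℕ) : ℤ := if d % 5 = 1 then 1 else -1

/-- The possible values at an involution. -/
def vals (c d : ℕ) : List ℤ := ((List.range (2 * d + 1)).map (fun i : ℕ => (i : ℤ) - d)).filter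
  (fun a => decide ((4 : ℤ) ∣ (d : ℤ) - a) && decide (d ∣ c * a.natAbs) && decide (a.natAbs < d))

theorem mem_vals {c d : ℕ} {a : ℤ} (h4 : (4 : ℤ) ∣ (d : ℤ) - a) (hd : d ∣ c * a.natAbs) (hlt : a.natAbs < d) :
    a ∈ vals c d := by
  unfold vals
  rw [List.mem_filter]
  refine ⟨?_, by simp [h4, hd, hlt]⟩
  rw [List.mem_map]
  refine ⟨(a + d).toNat, ?_, ?_⟩
  · rw [List.mem_range]
    omega
  · omega

/-- The numerical check. -/
theorem num4320 : ∀ c ∈ [5, 15, 45, 135], ∀ d₁ ∈ ds, ∀ d₂ ∈ ds, ∀ d₃ ∈ ds, ∀ d₄ ∈ ds,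
    1 + sg d₁ * d₁ + sg d₂ * d₂ + sg d₃ * d₃ + sg d₄ * d₄ = 0 →
    ∀ a₁ ∈ vals c d₁, ∀ a₂ ∈ vals c d₂, ∀ a₃ ∈ vals c d₃, ∀ a₄ ∈ vals c d₄,
    1 + sg d₁ * a₁ + sg d₂ * a₂ + sg d₃ * a₃ + sg d₄ * a₄ = 0 →
    1 + a₁ ^ 2 + a₂ ^ 2 + a₃ ^ 2 + a₄ ^ 2 ≤ ((4320 / c : ℕ) : ℤ) →
    ¬ ((0 : ℤ) ≤ (c : ℤ) ^ 2 * ((d₁ * d₂ * d₃ * d₄ : ℕ) + sg d₁ * a₁ ^ 2 * (d₂ * d₃ * d₄ : ℕ) + sg d₂ * a₂ ^ 2 * (d₁ * d₃ * d₄ : ℕ)
        + sg d₃ * a₃ ^ 2 * (d₁ * d₂ * d₄ : ℕ) + sg d₄ * a₄ ^ 2 * (d₁ * d₂ * d₃ : ℕ)) ∧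
      ((4320 * (d₁ * d₂ * d₃ * d₄) : ℕ) : ℤ) ∣ (c : ℤ) ^ 2 * ((d₁ * d₂ * d₃ * d₄ : ℕ) + sg d₁ * a₁ ^ 2 * (d₂ * d₃ * d₄ : ℕ) + sg d₂ * a₂ ^ 2 * (d₁ * d₃ * d₄ : ℕ)
        + sg d₃ * a₃ ^ 2 * (d₁ * d₂ * d₄ : ℕ) + sg d₄ * a₄ ^ 2 * (d₁ * d₂ * d₃ : ℕ))) := by
  decide +kernel

/-- No finite simple group has order 4320 = 2^5 * 3^3 * 5. -/
theorem result {G : Type*} [Group G] [Finite G] [IsSimpleGroup G] : Nat.card G ≠ 4320 := by
  classical
  intro h
  cases nonempty_fintype G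
  haveI h7 : Fact (Nat.Prime 5) := ⟨by norm_num⟩
  haveI h33 : Fact (Nat.Prime 3) := ⟨by norm_num⟩
  obtain ⟨hperf, P, x, M, e, hP, hx, hx1, hM, he, hed, he0, he1, hNC, hNS, hSm, hCx, hPC⟩ :=
    setup (p := 5) (m := 864) (G := G) (by norm_num) (by rw [h]) (by norm_num) (by norm_num)
  obtain ⟨D⟩ := exists_data hM (by norm_num) P hP e he
  have hd7 : 5 ∣ Nat.card (Subgroup.centralizer ((P : Subgroup G) : Set G)) := by
    have := Subgroup.card_dvd_of_le hPC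
    rwa [show Nat.card (P : Subgroup G) = 5 from hP] at this
  obtain ⟨w, hw⟩ := hd7
  have hGc : w * e * Nat.card (Sylow 5 G) = 864 := by
    rw [hNC, hw, h] at hNS
    nlinarith
  have hee : e = 2 ∨ e = 4 := by
    have hle : e ≤ 4 := Nat.le_of_dvd (by norm_num) hed
    have hed' : e ∣ 4 := hed
    interval_cases e
    · omega
    · omega
    · exact Or.inl rfl
    · exact absurd hed' (by norm_num)
    · exact Or.inr rfl
  have h2 : ¬ 2 ∣ Nat.card (Subgroup.centralizer ((P : Subgroup G) : Set G)) := by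
    intro h2
    obtain ⟨z, hz⟩ := exists_prime_orderOf_dvd_card' 2 h2
    have hz' : orderOf (z : G) = 2 := by rw [Subgroup.orderOf_coe, hz]
    rcases hee with rfl | rfl
    · obtain ⟨χ₁, θ, hχ₁, hθne, hX, hθ, hs1, hs, hd1, hd2, hl1, hl2, hc1, hc2, hsum, hrel⟩ :=
        D.two_degrees hM (by norm_num) (by norm_num) hperf (m := 864) (by rw [h]) (by norm_num)
      have b1 := D.even_bound hM (by norm_num) hperf hP hx hx1 z.2 hz' χ₁ (Or.inl (by rw [hX]; simp))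
        (fun h => hχ₁ (Subtype.ext h))
      have b2 := D.even_bound hM (by norm_num) hperf hP hx hx1 z.2 hz' θ (Or.inr hθ)
        (fun h => hθne (Subtype.ext h))
      have hm1 := Int.modEq_iff_dvd.1 hc1
      have hm2 := Int.modEq_iff_dvd.1 hc2
      generalize charDegree ((χ₁ : IrrCharacter G) : G → ℂ) = d at *
      generalize charDegree ((θ : IrrCharacter G) : G → ℂ) = D' at *
      have hmem1 : d ∈ (864 : ℕ).divisors := Nat.mem_divisors.2 ⟨hd1, by norm_num⟩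
      have hmem2 : D' ∈ (864 : ℕ).divisors := Nat.mem_divisors.2 ⟨hd2, by norm_num⟩
      push_cast at hm1 hm2
      have key1 : ∀ d ∈ (864 : ℕ).divisors, d % 5 = 1 → 10 ≤ d → (1 + d) ∣ 864 → False := by decide +kernel
      have key2 : ∀ D ∈ (864 : ℕ).divisors, D % 5 = 3 → 10 ≤ D → (D + 1) ∣ 864 → False := by decide +kernel
      rcases hs1 with h5 | h5 <;> rcases hs with h6 | h6 <;> rw [h5] at hm1 hsum <;> rw [h6] at hm2 hsum
      · have hD' : D' = 1 + d := by omega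
        subst hD'
        exact key1 d hmem1 (by omega) (by omega) hd2
      · omega
      · omega
      · have hD' : d = D' + 1 := by omega
        subst hD'
        exact key2 D' hmem2 (by omega) (by omega) hd1
    · refine D.false_of_parity hM (by norm_num) hperf hP hx hx1 z.2 hz' (m := 864) (by rw [h]) hed he0 ?_
      intro d hd h14 hcong
      have key : ∀ d ∈ (864 : ℕ).divisors, 10 ≤ d → (d % 5 = 1 ∨ d % 5 = 4) → Even d := by decide +kernel
      refine key d (Nat.mem_divisors.2 ⟨hd, by norm_num⟩) (by omega) ?_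
      rcases hcong with h5 | h5 | h5 | h5 <;> have h6 := Int.modEq_iff_dvd.1 h5 <;> push_cast at h6 <;> omega
  have hoddw : ¬ 2 ∣ w := by
    intro h5
    exact h2 (by rw [hw]; exact Dvd.dvd.mul_left h5 _)
  have hwd : w ∣ 864 := ⟨e * Nat.card (Sylow 5 G), by rw [← hGc]; ring⟩
  have hwl : w = 1 ∨ w = 3 ∨ w = 9 ∨ w = 27 := by
    have key : ∀ w ∈ (864 : ℕ).divisors, ¬ 2 ∣ w → w = 1 ∨ w = 3 ∨ w = 9 ∨ w = 27 := by decide +kernel
    exact key w (Nat.mem_divisors.2 ⟨hwd, by norm_num⟩) hoddw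
  have hnp : ¬ (Nat.card G).Prime := by rw [h]; norm_num
  rcases hee with rfl | rfl <;> rcases hwl with rfl | rfl | rfl | rfl
  · omega
  · omega
  · omega
  · -- `|C| = 135`
    have hcC : Nat.card (Subgroup.centralizer ((P : Subgroup G) : Set G)) = 3 ^ 3 * 5 := by
      rw [hw]; norm_num
    obtain ⟨y, hy, hyc⟩ := exists_central_prime (q := 3) (a := 3) (m' := 5) hcC (by norm_num) (by norm_num)
    have hy' : orderOf ((y : Subgroup.centralizer ((P : Subgroup G) : Set G)) : G) = 3 := by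
      rw [Subgroup.orderOf_coe, hy]
    have hy1 : ((y : Subgroup.centralizer ((P : Subgroup G) : Set G)) : G) ≠ 1 := by
      intro h5
      rw [h5, orderOf_one] at hy'
      omega
    have hle1 : (Subgroup.centralizer ({y} : Set (Subgroup.centralizer ((P : Subgroup G) : Set G)))).map (Subgroup.subtype _) ≤
        Subgroup.centralizer ({((y : Subgroup.centralizer ((P : Subgroup G) : Set G)) : G)} : Set G) := by
      rintro _ ⟨c, hc, rfl⟩
      have hc' : c ∈ Subgroup.centralizer ({y} : Set (Subgroup.centralizer ((P : Subgroup G) : Set G))) := hc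
      rw [Subgroup.mem_centralizer_singleton_iff] at hc' ⊢
      exact congrArg Subtype.val hc'
    have hcard1 : Nat.card ((Subgroup.centralizer ({y} : Set (Subgroup.centralizer ((P : Subgroup G) : Set G)))).map (Subgroup.subtype _)) =
        Nat.card (Subgroup.centralizer ({y} : Set (Subgroup.centralizer ((P : Subgroup G) : Set G)))) :=
      Subgroup.card_map_of_injective (Subgroup.subtype_injective _)
    have h27 : 3 ^ 3 ∣ Nat.card (Subgroup.centralizer ({((y : Subgroup.centralizer ((P : Subgroup G) : Set G)) : G)} : Set G)) := by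
      refine hyc.trans ?_
      rw [← hcard1]
      exact Subgroup.card_dvd_of_le hle1
    have hle2 : (P : Subgroup G) ≤ Subgroup.centralizer ({((y : Subgroup.centralizer ((P : Subgroup G) : Set G)) : G)} : Set G) := by
      intro q hq
      rw [Subgroup.mem_centralizer_singleton_iff]
      exact Subgroup.mem_centralizer_iff.1 y.2 q hq
    have h5' : 5 ∣ Nat.card (Subgroup.centralizer ({((y : Subgroup.centralizer ((P : Subgroup G) : Set G)) : G)} : Set G)) := by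
      have := Subgroup.card_dvd_of_le hle2
      rwa [show Nat.card (P : Subgroup G) = 5 from hP] at this
    have hcop : Nat.Coprime (3 ^ 3) 5 := by norm_num
    exact false_of_class hnp hy1 (a := 5) (m := 135) (by rw [h]; norm_num) (by norm_num) (hcop.mul_dvd_of_dvd_of_dvd h27 h5')
  · -- `C = P`, `e = 4`
    have hC : ∀ y : G, Commute y x → y ∈ (P : Subgroup G) := by
      intro y hy
      have h5 := (hCx y).2 hy
      have h6 : (P : Subgroup G) = Subgroup.centralizer ((P : Subgroup G) : Set G) := by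
        apply Subgroup.eq_of_le_of_card_ge hPC
        rw [hw, show Nat.card (P : Subgroup G) = 5 from hP]
      rw [h6]
      exact h5
    obtain ⟨u, hu, hcu⟩ := exists_central_involution (G := G) (a := 5) (m' := 135) (by rw [h]; norm_num) (by norm_num) (by norm_num)
    have hc5 := not_dvd_index_of_selfCen (p := 5) (m := 864) (by rw [h]) (by norm_num) (P : Subgroup G) hP hx hx1 hC hu (by norm_num)
    obtain ⟨d, s, a, n, hs, hds, hdm, hd1, ha4, halt, had, hsd, hsa, hnorm, hcount⟩ :=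
      D.four_data hM hperf hP hx hx1 hC (m := 864) (by rw [h]) hu
    set c := (Subgroup.centralizer ({u} : Set G)).index with hc
    have hcmem : c ∈ [5, 15, 45, 135] := by
      have key : ∀ c ∈ (135 : ℕ).divisors, 5 ∣ c → c ∈ [5, 15, 45, 135] := by decide +kernel
      exact key c (Nat.mem_divisors.2 ⟨hcu, by norm_num⟩) hc5
    have hcC : 4320 / c = Nat.card (Subgroup.centralizer ({u} : Set G)) := by
      have h5 := Subgroup.card_mul_index (Subgroup.centralizer ({u} : Set G))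
      rw [h] at h5
      have hc0 : 0 < c := Nat.pos_of_ne_zero (by rintro h6; rw [h6] at hc5; exact absurd hcu (by rw [h6]; norm_num))
      exact Nat.div_eq_of_eq_mul_left hc0 h5.symm
    have hdmem : ∀ i, d i ∈ ds := by
      intro i
      have key : ∀ d ∈ (864 : ℕ).divisors, (d % 5 = 1 ∨ d % 5 = 4) → 1 < d → d ∈ ds := by decide +kernel
      refine key (d i) (Nat.mem_divisors.2 ⟨hdm i, by norm_num⟩) ?_ (hd1 i)
      have h6 := Int.modEq_iff_dvd.1 (hds i)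
      rcases hs i with h5 | h5 <;> rw [h5] at h6 <;> push_cast at h6 <;> omega
    have hsg : ∀ i, s i = sg (d i) := by
      intro i
      have h6 := Int.modEq_iff_dvd.1 (hds i)
      unfold sg
      rcases hs i with h5 | h5 <;> rw [h5] at h6 <;> push_cast at h6
      · rw [h5, if_pos (by omega)]
      · rw [h5, if_neg (by omega)]
    have hamem : ∀ i, a i ∈ vals c (d i) := fun i => mem_vals (ha4 i) (had i) (halt i)
    rw [Fin.sum_univ_four] at hsd hsa hnorm hcount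
    simp only [hsg] at hsd hsa hcount
    have hnum := num4320 c hcmem _ (hdmem 0) _ (hdmem 1) _ (hdmem 2) _ (hdmem 3) (by linarith)
      _ (hamem 0) _ (hamem 1) _ (hamem 2) _ (hamem 3) (by linarith) (by rw [hcC]; linarith)
    apply hnum
    have h6' : (Nat.card G : ℂ) = 4320 := by rw [h]; norm_num
    rw [h6'] at hcount
    have hne : ∀ i, (d i : ℂ) ≠ 0 := fun i => Nat.cast_ne_zero.2 (by have := hd1 i; omega)
    have e0 := div_mul_cancel₀ ((sg (d 0) : ℂ) * (a 0 : ℂ) ^ 2) (hne 0)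
    have e1 := div_mul_cancel₀ ((sg (d 1) : ℂ) * (a 1 : ℂ) ^ 2) (hne 1)
    have e2 := div_mul_cancel₀ ((sg (d 2) : ℂ) * (a 2 : ℂ) ^ 2) (hne 2)
    have e3 := div_mul_cancel₀ ((sg (d 3) : ℂ) * (a 3 : ℂ) ^ 2) (hne 3)
    have hC' : ((c : ℂ)) ^ 2 * ((d 0 * d 1 * d 2 * d 3 : ℂ) + (sg (d 0) : ℂ) * (a 0 : ℂ) ^ 2 * (d 1 * d 2 * d 3 : ℂ) +
        (sg (d 1) : ℂ) * (a 1 : ℂ) ^ 2 * (d 0 * d 2 * d 3 : ℂ) + (sg (d 2) : ℂ) * (a 2 : ℂ) ^ 2 * (d 0 * d 1 * d 3 : ℂ) +
        (sg (d 3) : ℂ) * (a 3 : ℂ) ^ 2 * (d 0 * d 1 * d 2 : ℂ)) = 4320 * (d 0 * d 1 * d 2 * d 3 : ℂ) * n := by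
      linear_combination ((d 0 * d 1 * d 2 * d 3 : ℂ)) * hcount - ((c : ℂ)) ^ 2 * (d 1 * d 2 * d 3 : ℂ) * e0 -
        ((c : ℂ)) ^ 2 * (d 0 * d 2 * d 3 : ℂ) * e1 - ((c : ℂ)) ^ 2 * (d 0 * d 1 * d 3 : ℂ) * e2 -
        ((c : ℂ)) ^ 2 * (d 0 * d 1 * d 2 : ℂ) * e3
    have hZ : (c : ℤ) ^ 2 * ((d 0 * d 1 * d 2 * d 3 : ℕ) + sg (d 0) * a 0 ^ 2 * (d 1 * d 2 * d 3 : ℕ) +
        sg (d 1) * a 1 ^ 2 * (d 0 * d 2 * d 3 : ℕ) + sg (d 2) * a 2 ^ 2 * (d 0 * d 1 * d 3 : ℕ) +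
        sg (d 3) * a 3 ^ 2 * (d 0 * d 1 * d 2 : ℕ)) = ((4320 * (d 0 * d 1 * d 2 * d 3) : ℕ) : ℤ) * n := by
      have : (((c : ℤ) ^ 2 * ((d 0 * d 1 * d 2 * d 3 : ℕ) + sg (d 0) * a 0 ^ 2 * (d 1 * d 2 * d 3 : ℕ) +
        sg (d 1) * a 1 ^ 2 * (d 0 * d 2 * d 3 : ℕ) + sg (d 2) * a 2 ^ 2 * (d 0 * d 1 * d 3 : ℕ) +
        sg (d 3) * a 3 ^ 2 * (d 0 * d 1 * d 2 : ℕ)) : ℤ) : ℂ) = ((((4320 * (d 0 * d 1 * d 2 * d 3) : ℕ) : ℤ) * n : ℤ) : ℂ) := by
        push_cast
        exact hC'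
      exact_mod_cast this
    rw [hZ]
    exact ⟨by positivity, Dvd.intro _ rfl⟩
  · omega
  · omega
  · omega

end Cfsg.Agent.S0977
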