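import Cfsg.Statements.S1016
import Mathlib
import Cfsg.Agent.Lib.SmallOrd.ClassSign
import Cfsg.Agent.Lib.Basic.ConjCount

set_option autoImplicit false
open Cfsg

namespace Cfsg.Agent.S1016

open Subgroup Cfsg.Agent.Lib.SmallCen.SmallOrder Cfsg.Agent.Lib.SmallOrd
open Cfsg.Agent.Lib.Basic.SmallSimple Cfsg.Agent.Lib.SmallOrd.ClassSign Cfsg.Agent.Lib.Basic.ConjCount

section Final

variable {G : Type*} [Group G] [Finite G]

/-- The last step: the fusion of the involutions in an elementary abelian subgroup of order `8`. -/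
theorem final_step (C T : Subgroup G) (u m : G) (hu1 : u ≠ 1) (hu2 : u * u = 1)
    (huT : u ∈ T) (hmT : m ∈ T) (hTc : Nat.card T = 8) (hTm : ∀ t ∈ T, t * m = m * t)
    (hTu : ∀ t ∈ T, t * u = u * t) (huC : u ∈ C) (hmC : m ∉ C)
    (hidx : ∀ a ∈ T, ∀ b ∈ T, a ∉ C → b ∉ C → a * b ∈ C)
    (hK : ∀ t ∈ T, t ∉ C → t ≠ m → IsConj u t)
    (hCu : ∀ v ∈ C, IsConj u v → v = u)
    (hcard : ∀ v, IsConj u v → Nat.card (centralizer ({v} : Set G)) = 40) : False := by
  classical
  haveI : Fintype G := Fintype.ofFinite G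
  haveI : Fact (Nat.Prime 2) := ⟨Nat.prime_two⟩
  have hmuT : m * u ∈ T := T.mul_mem hmT huT
  have hmuC : m * u ∉ C := fun h => hmC ((C.mul_mem_cancel_right huC).1 h)
  have hmum : m * u ≠ m := fun h => hu1 (by simpa using h)
  have hconj : IsConj u (m * u) := hK _ hmuT hmuC hmum
  obtain ⟨g, hg⟩ := isConj_iff.1 hconj
  have hsq : (m * u) * (m * u) = 1 := by
    rw [← hg]
    calc g * u * g⁻¹ * (g * u * g⁻¹) = g * (u * u) * g⁻¹ := by group
      _ = 1 := by rw [hu2]; simp
  have hcomm : u * m = m * u := (hTu m hmT).symm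
  have hm2 : m * m = 1 := by
    calc m * m = m * m * (u * u) := by rw [hu2, mul_one]
      _ = m * (m * u) * u := by group
      _ = m * (u * m) * u := by rw [hcomm]
      _ = (m * u) * (m * u) := by group
      _ = 1 := hsq
  obtain ⟨t, htT, ht⟩ : ∃ t ∈ T, t ∉ ({1, u, m, m * u} : Finset G) := by
    by_contra hno
    push_neg at hno
    have h1 : (Finset.univ.filter (· ∈ T)) ⊆ ({1, u, m, m * u} : Finset G) :=
      fun t ht => hno t (Finset.mem_filter.1 ht).2
    have h2 := Finset.card_le_card h1
    have h3 : ({1, u, m, m * u} : Finset G).card ≤ 4 := Finset.card_le_four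
    have h4 : (Finset.univ.filter (· ∈ T)).card = 8 := by
      rw [← hTc, Nat.card_eq_fintype_card, Fintype.card_subtype]
    omega
  obtain ⟨q, hqT, hqC, hq1, hqu⟩ : ∃ q ∈ T, q ∈ C ∧ q ≠ 1 ∧ q ≠ u := by
    simp only [Finset.mem_insert, Finset.mem_singleton, not_or] at ht
    obtain ⟨h1, h2, h3, h4⟩ := ht
    by_cases htC : t ∈ C
    · exact ⟨t, htT, htC, h1, h2⟩
    · refine ⟨m * t, T.mul_mem hmT htT, hidx m hmT t htT hmC htC, ?_, ?_⟩
      · intro h
        apply h3
        calc t = m * m * t := by rw [hm2, one_mul]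
          _ = m * (m * t) := by group
          _ = m := by rw [h, mul_one]
      · intro h
        apply h4
        calc t = m * m * t := by rw [hm2, one_mul]
          _ = m * (m * t) := by group
          _ = m * u := by rw [h]
  -- the conjugate of `T`
  let A : Subgroup G := T.map (MulAut.conj g).toMonoidHom
  have hAc : Nat.card A = 2 ^ 3 := by
    rw [Subgroup.card_map_of_injective (MulAut.conj g).injective, hTc]
    norm_num
  have hA : A ≤ centralizer ({m * u} : Set G) := by
    rintro _ ⟨s, hs, rfl⟩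
    rw [Subgroup.mem_centralizer_singleton_iff, ← hg]
    have h1 := hTu s hs
    simp only [MulEquiv.coe_toMonoidHom, MulAut.conj_apply]
    calc g * s * g⁻¹ * (g * u * g⁻¹) = g * (s * u) * g⁻¹ := by group
      _ = g * (u * s) * g⁻¹ := by rw [h1]
      _ = _ := by group
  have hT : T ≤ centralizer ({m * u} : Set G) := by
    intro s hs
    rw [Subgroup.mem_centralizer_singleton_iff]
    calc s * (m * u) = (s * m) * u := by group
      _ = (m * s) * u := by rw [hTm s hs]
      _ = m * (s * u) := by group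
      _ = m * (u * s) := by rw [hTu s hs]
      _ = _ := by group
  obtain ⟨c, hc, hcA⟩ := exists_conj_of_card (p := 2) hA hT (a := 3) (m := 5) hAc
    (by rw [hTc]; norm_num) (by rw [hcard _ hconj]; norm_num) (by norm_num)
  set h := c * g with hh
  have hhT : ∀ s ∈ T, h * s * h⁻¹ ∈ T := by
    intro s hs
    have h1 := hcA (g * s * g⁻¹) ⟨s, hs, by simp⟩
    have h2 : h * s * h⁻¹ = c * (g * s * g⁻¹) * c⁻¹ := by
      rw [hh]; group
    rw [h2]
    exact h1
  have hhu : h * u * h⁻¹ = m * u := by
    have h2 : h * u * h⁻¹ = c * (g * u * g⁻¹) * c⁻¹ := by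
      rw [hh]; group
    rw [h2, hg]
    rw [Subgroup.mem_centralizer_singleton_iff] at hc
    rw [hc]
    simp
  set w := h * q * h⁻¹ with hw
  have hwT : w ∈ T := hhT q hqT
  have hw' : m * u * w = h * (u * q) * h⁻¹ := by
    rw [← hhu, hw]
    group
  have hmuwT : m * u * w ∈ T := T.mul_mem hmuT hwT
  have hnc1 : ¬ IsConj u w := fun hh' => hqu (hCu q hqC (hh'.trans (isConj_comm.1 (isConj_iff.2 ⟨h, rfl⟩))))
  have huq : u * q ∈ C := C.mul_mem huC hqC
  have huqne : u * q ≠ u := fun h' => hq1 (by simpa using h')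
  have hnc2 : ¬ IsConj u (m * u * w) := by
    rw [hw']
    exact fun hh' => huqne (hCu _ huq (hh'.trans (isConj_comm.1 (isConj_iff.2 ⟨h, rfl⟩))))
  by_cases hwC : w ∈ C
  · have hwu : w ≠ u := fun h' => hnc1 (h' ▸ IsConj.refl _)
    have h1 : m * u * w ∉ C := fun h' => hmuC ((C.mul_mem_cancel_right hwC).1 h')
    have h2 : m * u * w ≠ m := by
      intro h'
      apply hwu
      have h3 : u * w = 1 := by
        have : m * (u * w) = m * 1 := by rw [mul_one, ← mul_assoc, h']
        exact mul_left_cancel this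
      calc w = u * u * w := by rw [hu2, one_mul]
        _ = u * (u * w) := by group
        _ = u := by rw [h3, mul_one]
    exact hnc2 (hK _ hmuwT h1 h2)
  · by_cases hwm : w = m
    · apply hnc2
      rw [hwm]
      have h1 : m * u * m = u := by
        calc m * u * m = m * (u * m) := by group
          _ = m * (m * u) := by rw [hcomm]
          _ = (m * m) * u := by group
          _ = u := by rw [hm2, one_mul]
      rw [h1]
    · exact hnc1 (hK w hwT hwC hwm)

end Final

section Middle

variable {G : Type*} [Group G] [Finite G]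

/-- The generator of the Sylow subgroup of order `5`. -/
theorem exists_pow_of_mem (P : Sylow 5 G) (hP : Nat.card (P : Subgroup G) = 5) (x : G)
    (hxP : x ∈ (P : Subgroup G)) (hx : orderOf x = 5) (g : G)
    (hg : g ∈ normalizer ((P : Subgroup G) : Set G)) : ∃ k < 5, g * x * g⁻¹ = x ^ k := by
  classical
  have hzx : zpowers x = (P : Subgroup G) := by
    apply Subgroup.eq_of_le_of_card_ge
    · exact (Subgroup.zpowers_le).2 hxP
    · rw [Nat.card_zpowers, hx, hP]
  have h1 : g * x * g⁻¹ ∈ zpowers x := by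
    rw [hzx]
    exact (mem_normalizer_iff.1 hg x).1 hxP
  rw [mem_zpowers_iff_mem_range_orderOf, hx] at h1
  obtain ⟨k, hk, hk'⟩ := Finset.mem_image.1 h1
  exact ⟨k, Finset.mem_range.1 hk, hk'.symm⟩

/-- An element of the normalizer with square centralizing `x` but not itself centralizing `x`
inverts `x`. -/
theorem conj_eq_inv (P : Sylow 5 G) (hP : Nat.card (P : Subgroup G) = 5) (x : G)
    (hxP : x ∈ (P : Subgroup G)) (hx : orderOf x = 5) (v : G)
    (hv : v ∈ normalizer ((P : Subgroup G) : Set G)) (hvv : (v * v) * x = x * (v * v))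
    (hvx : v * x ≠ x * v) : v * x * v⁻¹ = x⁻¹ := by
  obtain ⟨k, hk, hk'⟩ := exists_pow_of_mem P hP x hxP hx v hv
  have hgen : x = x ^ (k * k) := by
    calc x = (v * v) * x * (v * v)⁻¹ := by rw [hvv]; group
      _ = v * (v * x * v⁻¹) * v⁻¹ := by group
      _ = v * x ^ k * v⁻¹ := by rw [hk']
      _ = (v * x * v⁻¹) ^ k := (conj_pow).symm
      _ = (x ^ k) ^ k := by rw [hk']
      _ = x ^ (k * k) := (pow_mul x k k).symm
  have hne : ∀ n : ℕ, 0 < n → n < 5 → x ^ n ≠ 1 := by
    intro n h0 h5 hn
    have := orderOf_dvd_of_pow_eq_one hn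
    rw [hx] at this
    exact absurd (Nat.le_of_dvd h0 this) (by omega)
  have hx5 : x ^ 5 = 1 := by rw [← hx]; exact pow_orderOf_eq_one x
  interval_cases k
  · exfalso
    apply hne 1 (by norm_num) (by norm_num)
    rw [pow_one]
    simpa using hk'
  · exfalso
    apply hvx
    rw [pow_one] at hk'
    calc v * x = v * x * v⁻¹ * v := by group
      _ = x * v := by rw [hk']
  · exfalso
    apply hne 3 (by norm_num) (by norm_num)
    have : x ^ 3 * x = 1 * x := by
      rw [one_mul]
      conv_rhs => rw [hgen]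
      rw [← pow_succ]
    exact mul_right_cancel this
  · exfalso
    apply hne 3 (by norm_num) (by norm_num)
    have : x ^ 3 * x = 1 * x := by
      rw [one_mul]
      conv_rhs => rw [hgen]
      rw [← pow_succ]
      calc x ^ 4 = x ^ 4 * 1 := by rw [mul_one]
        _ = x ^ 4 * x ^ 5 := by rw [hx5]
        _ = x ^ 9 := by rw [← pow_add]
    exact mul_right_cancel this
  · rw [hk']
    apply eq_inv_of_mul_eq_one_left
    rw [← pow_succ]
    exact hx5

/-- The centralizer is normal in the normalizer. -/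
theorem conj_mem_centralizer (P : Sylow 5 G) (hP : Nat.card (P : Subgroup G) = 5) (x : G)
    (hxP : x ∈ (P : Subgroup G)) (hx : orderOf x = 5) (g c : G)
    (hg : g ∈ normalizer ((P : Subgroup G) : Set G)) (hc : c ∈ centralizer ({x} : Set G)) :
    g * c * g⁻¹ ∈ centralizer ({x} : Set G) := by
  rw [Subgroup.mem_centralizer_singleton_iff] at hc ⊢
  obtain ⟨k, -, hk'⟩ := exists_pow_of_mem P hP x hxP hx g⁻¹ (inv_mem hg)
  rw [inv_inv] at hk'
  have hck : c * x ^ k = x ^ k * c := ((Commute.pow_right (show Commute c x from hc) k)).eq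
  calc g * c * g⁻¹ * x = g * c * (g⁻¹ * x * g) * g⁻¹ := by group
    _ = g * (c * x ^ k) * g⁻¹ := by rw [hk']; group
    _ = g * (x ^ k * c) * g⁻¹ := by rw [hck]
    _ = g * (g⁻¹ * x * g * c) * g⁻¹ := by rw [hk']
    _ = x * (g * c * g⁻¹) := by group

/-- An involution in the centralizer centralized by the normalizer. -/
theorem exists_u [IsSimpleGroup G] (P : Sylow 5 G) (hP : Nat.card (P : Subgroup G) = 5) (x : G)
    (hxP : x ∈ (P : Subgroup G)) (hx : orderOf x = 5)
    (hNc : Nat.card (normalizer ((P : Subgroup G) : Set G)) = 40)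
    (hC2 : 2 ∣ Nat.card (centralizer ({x} : Set G)))
    (S : Subgroup G) (hSN : S ≤ normalizer ((P : Subgroup G) : Set G)) (hSc : Nat.card S = 8) :
    ∃ u, u ∈ centralizer ({x} : Set G) ∧ u * u = 1 ∧ u ≠ 1 ∧
      normalizer ((P : Subgroup G) : Set G) ≤ centralizer ({u} : Set G) := by
  classical
  haveI : Fintype G := Fintype.ofFinite G
  haveI : Fact (Nat.Prime 2) := ⟨Nat.prime_two⟩
  set N := normalizer ((P : Subgroup G) : Set G) with hN
  set C := centralizer ({x} : Set G) with hC
  let Cf : Finset G := Finset.univ.filter (· ∈ C)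
  have hCf : Cf.card = Nat.card C := by
    rw [Nat.card_eq_fintype_card, Fintype.card_subtype]
  have hodd := odd_card_involutions Cf (fun c hc => by
      simp only [Cf, Finset.mem_filter, Finset.mem_univ, true_and] at hc ⊢
      exact inv_mem hc)
    (by simp [Cf, C.one_mem]) (by rw [hCf]; exact (even_iff_two_dvd.2 hC2))
  have hS2 : IsPGroup 2 S := IsPGroup.of_card (n := 3) (by rw [hSc]; norm_num)
  obtain ⟨u, hu, hSu⟩ := exists_comm_of_odd S hS2 (Cf.filter fun c => c * c = 1 ∧ c ≠ 1) (by
      intro s hs a ha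
      simp only [Cf, Finset.mem_filter, Finset.mem_univ, true_and] at ha ⊢
      obtain ⟨ha1, ha2, ha3⟩ := ha
      refine ⟨conj_mem_centralizer P hP x hxP hx s a (hSN hs) ha1, ?_, ?_⟩
      · calc s * a * s⁻¹ * (s * a * s⁻¹) = s * (a * a) * s⁻¹ := by group
          _ = 1 := by rw [ha2]; simp
      · intro h
        apply ha3
        have : a = s⁻¹ * (s * a * s⁻¹) * s := by group
        rw [this, h]
        simp) (by
      intro h2
      have := hodd.not_two_dvd_nat
      exact this h2)
  simp only [Cf, Finset.mem_filter, Finset.mem_univ, true_and] at hu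
  obtain ⟨hu1, hu2, hu3⟩ := hu
  refine ⟨u, hu1, hu2, hu3, ?_⟩
  have hle : N ⊓ centralizer ({u} : Set G) ≤ N := inf_le_left
  have hSle : S ≤ N ⊓ centralizer ({u} : Set G) := by
    intro s hs
    refine ⟨hSN hs, ?_⟩
    change s ∈ centralizer ({u} : Set G)
    rw [Subgroup.mem_centralizer_singleton_iff]
    exact hSu s hs
  have hxN : x ∈ N := (Subgroup.le_normalizer (H := (P : Subgroup G))) hxP
  have hxle : x ∈ N ⊓ centralizer ({u} : Set G) := by
    refine ⟨hxN, ?_⟩
    change x ∈ centralizer ({u} : Set G)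
    rw [Subgroup.mem_centralizer_singleton_iff]
    rw [Subgroup.mem_centralizer_singleton_iff] at hu1
    exact hu1.symm
  have h8 : 8 ∣ Nat.card (N ⊓ centralizer ({u} : Set G) : Subgroup G) := by
    rw [← hSc]
    exact Subgroup.card_dvd_of_le hSle
  have h5 : 5 ∣ Nat.card (N ⊓ centralizer ({u} : Set G) : Subgroup G) := by
    have := orderOf_dvd_natCard (⟨x, hxle⟩ : ↥(N ⊓ centralizer ({u} : Set G)))
    rwa [Subgroup.orderOf_mk, hx] at this
  have h40 : 40 ∣ Nat.card (N ⊓ centralizer ({u} : Set G) : Subgroup G) :=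
    Nat.Coprime.mul_dvd_of_dvd_of_dvd (by norm_num : Nat.Coprime 8 5) h8 h5
  have heq : N ⊓ centralizer ({u} : Set G) = N := by
    apply Subgroup.eq_of_le_of_card_ge hle
    rw [hNc]
    exact Nat.le_of_dvd Nat.card_pos h40
  exact inf_eq_left.1 heq

/-- The centralizer of `u` is the normalizer. -/
theorem centralizer_eq [IsSimpleGroup G] (h : Nat.card G = 1440) (P : Sylow 5 G)
    (hNc : Nat.card (normalizer ((P : Subgroup G) : Set G)) = 40) (u : G) (hu1 : u ≠ 1)
    (hNu : normalizer ((P : Subgroup G) : Set G) ≤ centralizer ({u} : Set G)) :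
    centralizer ({u} : Set G) = normalizer ((P : Subgroup G) : Set G) := by
  haveI : Fact (Nat.Prime 5) := ⟨by norm_num⟩
  have hne : centralizer ({u} : Set G) ≠ ⊤ := by
    intro htop
    have hu : u ∈ center G := by
      rw [Subgroup.mem_center_iff]
      intro g
      have : g ∈ centralizer ({u} : Set G) := by rw [htop]; trivial
      rwa [Subgroup.mem_centralizer_singleton_iff] at this
    have hz : center G = ⊤ := by
      rcases (inferInstance : (center G).Normal).eq_bot_or_eq_top with h0 | h0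
      · rw [h0] at hu
        exact absurd ((Subgroup.mem_bot).1 hu) hu1
      · exact h0
    have hNtop : normalizer ((P : Subgroup G) : Set G) = ⊤ := by
      rw [eq_top_iff]
      intro g _
      rw [mem_normalizer_iff]
      intro y
      have hg : g ∈ center G := by rw [hz]; trivial
      have : g * y = y * g := ((Subgroup.mem_center_iff.1 hg) y).symm
      rw [this]
      simp
    rw [hNtop, Subgroup.card_top, h] at hNc
    omega
  have hlt := lt_index (n := 7) (by rw [h]; decide +kernel) _ hne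
  obtain ⟨k, hk, hk5⟩ := exists_card_eq_normalizer_mul P _ hNu
  have hmul := Subgroup.card_mul_index (centralizer ({u} : Set G))
  rw [hk, hNc, h] at hmul
  have hk1 : k = 1 := by
    have hk4 : k ≤ 4 := by
      by_contra hcon
      have : 5 * 8 ≤ k * (centralizer ({u} : Set G)).index :=
        Nat.mul_le_mul (by omega) (by omega)
      nlinarith
    omega
  symm
  apply Subgroup.eq_of_le_of_card_ge hNu
  rw [hk, hNc, hk1]

/-- A conjugate of `u` in `C` is `u`. -/
theorem conj_in_C (P : Sylow 5 G) (hP : Nat.card (P : Subgroup G) = 5) (x : G)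
    (hxP : x ∈ (P : Subgroup G)) (hx : orderOf x = 5) (u : G)
    (hM : centralizer ({u} : Set G) = normalizer ((P : Subgroup G) : Set G))
    (v : G) (hvC : v ∈ centralizer ({x} : Set G)) (hv : IsConj u v) : v = u := by
  haveI : Fact (Nat.Prime 5) := ⟨by norm_num⟩
  obtain ⟨g, rfl⟩ := isConj_iff.1 hv
  rw [Subgroup.mem_centralizer_singleton_iff] at hvC
  have h1 : g⁻¹ * x * g ∈ centralizer ({u} : Set G) := by
    rw [Subgroup.mem_centralizer_singleton_iff]
    have h2 : u = g⁻¹ * (g * u * g⁻¹) * g := by group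
    have h3 : x = g * (g⁻¹ * x * g) * g⁻¹ := by group
    calc g⁻¹ * x * g * u = g⁻¹ * (x * (g * u * g⁻¹)) * g := by group
      _ = g⁻¹ * ((g * u * g⁻¹) * x) * g := by rw [hvC]
      _ = u * (g⁻¹ * x * g) := by group
  rw [hM] at h1
  have h2 := mem_normalizer_of_conj_mem P hP x hxP hx g h1
  rw [← hM, Subgroup.mem_centralizer_singleton_iff] at h2
  rw [h2]
  simp

end Middle

section KSet

variable {G : Type*} [Group G] [Finite G]

/-- The conjugacy class of `u`. -/
noncomputable def cls (u : G) : Finset G := (Set.toFinite {v | IsConj u v}).toFinset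

/-- The elements of the class of `u` commuting with `u`. -/
noncomputable def Kset (u : G) : Finset G := (Set.toFinite {v | IsConj u v ∧ u * v = v * u}).toFinset

theorem mem_cls (u v : G) : v ∈ cls u ↔ IsConj u v := by
  simp [cls]

theorem mem_Kset (u v : G) : v ∈ Kset u ↔ IsConj u v ∧ u * v = v * u := by
  simp [Kset]

theorem card_cls_mul (u : G) : (cls u).card * Nat.card (centralizer ({u} : Set G)) = Nat.card G := by
  rw [← card_isConj_mul_card_centralizer u]
  congr 1
  rw [Nat.subtype_card (cls u) (fun v => mem_cls u v)]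

theorem iter_conj (x : G) (n : ℕ) (v : G) :
    (fun v => x * v * x⁻¹)^[n] v = x ^ n * v * (x ^ n)⁻¹ := by
  induction n with
  | zero => simp
  | succ n ih =>
    rw [Function.iterate_succ_apply', ih, pow_succ']
    group

/-- The number of commuting conjugates of `u`. -/
theorem card_Kset [IsSimpleGroup G] (h : Nat.card G = 1440) (x u : G) (hx : orderOf x = 5)
    (hu2 : u * u = 1) (hu1 : u ≠ 1) (hxu : x * u = u * x)
    (hMc : Nat.card (centralizer ({u} : Set G)) = 40) (hMtop : centralizer ({u} : Set G) ≠ ⊤)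
    (hCu : ∀ v, v * x = x * v → IsConj u v → v = u) : (Kset u).card = 16 := by
  classical
  have h36 : (cls u).card = 36 := by
    have := card_cls_mul u
    rw [hMc, h] at this
    omega
  have hinv : ∀ g : G, ∀ v ∈ cls u, g * v * g⁻¹ ∈ cls u := by
    intro g v hv
    rw [mem_cls] at hv ⊢
    exact hv.trans (isConj_iff.2 ⟨g, rfl⟩)
  have h4 := card_comm_modEq_four (by omega) (cls u) hinv u hu2
  have hKeq : Kset u = (cls u).filter fun v => u * v = v * u := by
    ext v
    simp [mem_Kset, mem_cls]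
  rw [← hKeq, h36] at h4
  have hxinv : x⁻¹ * u = u * x⁻¹ := by
    calc x⁻¹ * u = x⁻¹ * (u * x) * x⁻¹ := by group
      _ = x⁻¹ * (x * u) * x⁻¹ := by rw [hxu]
      _ = u * x⁻¹ := by group
  have h5 := card_modEq_fixed (Kset u) (fun v => x * v * x⁻¹) (by
      intro v hv
      rw [mem_Kset] at hv ⊢
      refine ⟨hv.1.trans (isConj_iff.2 ⟨x, rfl⟩), ?_⟩
      calc u * (x * v * x⁻¹) = (u * x) * v * x⁻¹ := by group
        _ = x * (u * v) * x⁻¹ := by rw [← hxu]; group
        _ = x * (v * u) * x⁻¹ := by rw [hv.2]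
        _ = x * v * (u * x⁻¹) := by group
        _ = x * v * (x⁻¹ * u) := by rw [hxinv]
        _ = _ := by group) Nat.prime_five (by
      intro v _
      rw [iter_conj, ← hx, pow_orderOf_eq_one]
      simp)
  have hfix : ((Kset u).filter fun a => x * a * x⁻¹ = a) = {u} := by
    ext v
    simp only [Finset.mem_filter, mem_Kset, Finset.mem_singleton]
    constructor
    · rintro ⟨⟨hv1, -⟩, hv2⟩
      apply hCu v _ hv1
      calc v * x = x * v * x⁻¹ * x := by rw [hv2]
        _ = x * v := by group
    · rintro rfl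
      refine ⟨⟨IsConj.refl _, rfl⟩, ?_⟩
      rw [hxu]
      group
  rw [hfix, Finset.card_singleton] at h5
  have hlt : (Kset u).card < (cls u).card := by
    apply Finset.card_lt_card
    rw [Finset.ssubset_iff_of_subset]
    · by_contra hcon
      push_neg at hcon
      have hcomm : ∀ v, IsConj u v → u * v = v * u := by
        intro v hv
        have := hcon v ((mem_cls u v).2 hv)
        exact ((mem_Kset u v).1 this).2
      have hle : normalClosure ({u} : Set G) ≤ centralizer ({u} : Set G) := by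
        rw [normalClosure, closure_le]
        intro v hv
        rw [Group.mem_conjugatesOfSet_iff] at hv
        obtain ⟨a, ha, hav⟩ := hv
        rw [Set.mem_singleton_iff] at ha
        subst ha
        change v ∈ centralizer ({a} : Set G)
        rw [Subgroup.mem_centralizer_singleton_iff]
        exact (hcomm v hav).symm
      have hne : normalClosure ({u} : Set G) ≠ ⊥ := by
        intro hbot
        have : u ∈ normalClosure ({u} : Set G) :=
          Subgroup.subset_normalClosure (Set.mem_singleton u)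
        rw [hbot] at this
        exact hu1 (Subgroup.mem_bot.1 this)
      rcases (inferInstance : (normalClosure ({u} : Set G)).Normal).eq_bot_or_eq_top with h0 | h0
      · exact hne h0
      · rw [h0] at hle
        exact hMtop (top_le_iff.1 hle)
    · intro v hv
      rw [mem_Kset] at hv
      rw [mem_cls]
      exact hv.1
  rw [h36] at hlt
  omega

end KSet

section Main

variable {G : Type*} [Group G] [Finite G]

/-- The main case: `N_G(P)` has order `40`. -/
theorem main_36 [IsSimpleGroup G] (h : Nat.card G = 1440) (P : Sylow 5 G)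
    (hP : Nat.card (P : Subgroup G) = 5) (x : G) (hxP : x ∈ (P : Subgroup G)) (hx : orderOf x = 5)
    (hNc : Nat.card (normalizer ((P : Subgroup G) : Set G)) = 40)
    (hCc : Nat.card (centralizer ({x} : Set G)) = 10 ∨ Nat.card (centralizer ({x} : Set G)) = 20) :
    False := by
  classical
  haveI : Fintype G := Fintype.ofFinite G
  haveI : Fact (Nat.Prime 2) := ⟨Nat.prime_two⟩
  haveI : Fact (Nat.Prime 5) := ⟨by norm_num⟩
  set N := normalizer ((P : Subgroup G) : Set G) with hN
  set C := centralizer ({x} : Set G) with hC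
  have hxN : x ∈ N := (Subgroup.le_normalizer (H := (P : Subgroup G))) hxP
  have hzx : zpowers x = (P : Subgroup G) := by
    apply Subgroup.eq_of_le_of_card_ge
    · exact (Subgroup.zpowers_le).2 hxP
    · rw [Nat.card_zpowers, hx, hP]
  have hCP : ∀ c ∈ C, ∀ y ∈ (P : Subgroup G), c * y = y * c := by
    intro c hc y hy
    rw [← hzx, Subgroup.mem_zpowers_iff] at hy
    obtain ⟨k, rfl⟩ := hy
    rw [hC, Subgroup.mem_centralizer_singleton_iff] at hc
    exact (Commute.zpow_right (show Commute c x from hc) k).eq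
  have hCN : C ≤ N := by
    intro c hc
    rw [hN, mem_normalizer_iff]
    intro y
    constructor
    · intro hy
      rw [hCP c hc y hy]
      simpa using hy
    · intro hy
      have h1 := hCP c hc _ hy
      have h2 : c * y * c⁻¹ = y := by
        have h3 : c * (c * y * c⁻¹) = c * y := by
          rw [h1]; group
        exact mul_left_cancel h3
      rwa [h2] at hy
  -- the subgroup of order `8` in `N`
  obtain ⟨S', hS'⟩ := Sylow.exists_subgroup_card_pow_prime (G := N) 2 (n := 3) (by rw [hNc]; norm_num)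
  let S : Subgroup G := S'.map N.subtype
  have hSN : S ≤ N := Subgroup.map_subtype_le S'
  have hSc : Nat.card S = 8 := by
    rw [Subgroup.card_map_of_injective N.subtype_injective, hS']
    norm_num
  have hC2 : 2 ∣ Nat.card C := by
    rcases hCc with h1 | h1 <;> rw [h1] <;> norm_num
  obtain ⟨u, huC, hu2, hu1, hNu⟩ := exists_u P hP x hxP hx hNc hC2 S hSN hSc
  have hM : centralizer ({u} : Set G) = N := centralizer_eq h P hNc u hu1 hNu
  have hMc : Nat.card (centralizer ({u} : Set G)) = 40 := by rw [hM, hNc]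
  have hNtop : N ≠ ⊤ := by
    intro ht
    rw [ht, Subgroup.card_top, h] at hNc
    omega
  have hMtop : centralizer ({u} : Set G) ≠ ⊤ := by rwa [hM]
  have hCu : ∀ v ∈ C, IsConj u v → v = u := fun v hv hv' =>
    conj_in_C P hP x hxP hx u hM v hv hv'
  have hxu : x * u = u * x := by
    have := hNu hxN
    rwa [Subgroup.mem_centralizer_singleton_iff] at this
  have hKc : (Kset u).card = 16 := card_Kset h x u hx hu2 hu1 hxu hMc hMtop (fun v hv hv' => hCu v
    (by rw [hC, Subgroup.mem_centralizer_singleton_iff]; exact hv) hv')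
  have huK : u ∈ Kset u := (mem_Kset u u).2 ⟨IsConj.refl _, rfl⟩
  have hK'c : ((Kset u).erase u).card = 15 := by
    rw [Finset.card_erase_of_mem huK, hKc]
  -- elements of `K` other than `u`
  have hK' : ∀ v ∈ (Kset u).erase u, v ∈ N ∧ v ∉ C ∧ v * v = 1 := by
    intro v hv
    obtain ⟨hv1, hv2⟩ := Finset.mem_erase.1 hv
    obtain ⟨hv3, hv4⟩ := (mem_Kset u v).1 hv2
    refine ⟨?_, fun hc => hv1 (hCu v hc hv3), ?_⟩
    · rw [← hM, Subgroup.mem_centralizer_singleton_iff]
      exact hv4.symm
    · obtain ⟨g, rfl⟩ := isConj_iff.1 hv3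
      calc g * u * g⁻¹ * (g * u * g⁻¹) = g * (u * u) * g⁻¹ := by group
        _ = 1 := by rw [hu2]; simp
  have hnC : ∀ v, v ∉ C → v * x ≠ x * v := by
    intro v hv hc
    apply hv
    rw [hC, Subgroup.mem_centralizer_singleton_iff]
    exact hc
  have hKinv : ∀ v ∈ (Kset u).erase u, v * x * v⁻¹ = x⁻¹ := by
    intro v hv
    obtain ⟨h1, h2, h3⟩ := hK' v hv
    exact conj_eq_inv P hP x hxP hx v h1 (by rw [h3]; simp) (hnC v h2)
  -- `|C| = 20`
  obtain ⟨v₀, hv₀⟩ : ((Kset u).erase u).Nonempty := by
    rw [← Finset.card_pos, hK'c]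
    norm_num
  have hCf : (Finset.univ.filter (· ∈ C)).card = Nat.card C := by
    rw [Nat.card_eq_fintype_card, Fintype.card_subtype]
  have hC15 : 15 ≤ Nat.card C := by
    rw [← hCf, ← hK'c]
    apply Finset.card_le_card_of_injOn (fun v => v * v₀⁻¹)
    · intro v hv
      have hv' := hKinv v hv
      have hv₀' := hKinv v₀ hv₀
      simp only [Finset.coe_filter, Finset.mem_univ, true_and, Set.mem_ofPred_eq]
      rw [hC, Subgroup.mem_centralizer_singleton_iff]
      have h1 : v₀⁻¹ * x = x⁻¹ * v₀⁻¹ := by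
        have h2 : v₀⁻¹ * (v₀ * x * v₀⁻¹) * v₀ = x := by group
        rw [hv₀'] at h2
        calc v₀⁻¹ * x = v₀⁻¹ * (v₀⁻¹ * x⁻¹ * v₀) := by rw [h2]
          _ = (v₀⁻¹ * v₀⁻¹) * x⁻¹ * v₀ := by group
          _ = x⁻¹ * v₀⁻¹ := by
            have h3 : v₀ * v₀ = 1 := (hK' v₀ hv₀).2.2
            have h4 : v₀⁻¹ = v₀ := inv_eq_of_mul_eq_one_left h3
            rw [h4, h3]
            have h5 : v₀ * x * v₀⁻¹ = x⁻¹ := hv₀'
            rw [h4] at h5
            calc 1 * x⁻¹ * v₀ = x⁻¹ * v₀ := by group
              _ = v₀ * x * v₀ * v₀ := by rw [h5]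
              _ = v₀ * x * (v₀ * v₀) := by group
              _ = v₀ * x := by rw [h3, mul_one]
              _ = x⁻¹ * v₀ := by
                calc v₀ * x = v₀ * x * v₀ * v₀ := by rw [mul_assoc (v₀ * x), h3, mul_one]
                  _ = x⁻¹ * v₀ := by rw [h5]
      have h6 : v * x⁻¹ = x * v := by
        have h7 : v * x⁻¹ * v⁻¹ = x := by
          have : (v * x * v⁻¹)⁻¹ = v * x⁻¹ * v⁻¹ := by group
          rw [← this, hv', inv_inv]
        calc v * x⁻¹ = v * x⁻¹ * v⁻¹ * v := by group
          _ = x * v := by rw [h7]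
      calc v * v₀⁻¹ * x = v * (v₀⁻¹ * x) := by group
        _ = v * (x⁻¹ * v₀⁻¹) := by rw [h1]
        _ = (v * x⁻¹) * v₀⁻¹ := by group
        _ = (x * v) * v₀⁻¹ := by rw [h6]
        _ = x * (v * v₀⁻¹) := by group
    · intro a _ b _ hab
      exact mul_right_cancel hab
  have hC20 : Nat.card C = 20 := by
    rcases hCc with h1 | h1
    · omega
    · exact h1
  -- `C` has index two in `N`
  have hidx : (C.subgroupOf N).index = 2 := by
    have h1 := Cfsg.Agent.Lib.Perm.SylowIn.card_mul_relIndex hCN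
    rw [hC20, hNc] at h1
    have h2 : C.relIndex N = (C.subgroupOf N).index := rfl
    omega
  have hNC : ∀ a ∈ N, ∀ b ∈ N, a ∉ C → b ∉ C → a * b ∈ C := by
    intro a ha b hb hac hbc
    have h1 := Subgroup.mul_mem_iff_of_index_two hidx (a := ⟨a, ha⟩) (b := ⟨b, hb⟩)
    have h2 : (⟨a, ha⟩ * ⟨b, hb⟩ : ↥N) ∈ C.subgroupOf N :=
      h1.2 (iff_of_false (by rwa [Subgroup.mem_subgroupOf]) (by rwa [Subgroup.mem_subgroupOf]))
    exact Subgroup.mem_subgroupOf.1 h2
  have hinv : ∀ v ∈ N, v ∉ C → v * x * v⁻¹ = x⁻¹ := by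
    intro v hv hvC
    have h1 := hNC v hv v hv hvC hvC
    rw [hC, Subgroup.mem_centralizer_singleton_iff] at h1
    exact conj_eq_inv P hP x hxP hx v hv h1 (hnC v hvC)
  -- the coset of `C`
  let D : Finset G := Finset.univ.filter fun g => g ∈ N ∧ g ∉ C
  have hNf : (Finset.univ.filter (· ∈ N)).card = Nat.card N := by
    rw [Nat.card_eq_fintype_card, Fintype.card_subtype]
  have hDc : D.card = 20 := by
    have h1 := Finset.card_filter_add_card_filter_not (s := Finset.univ.filter (· ∈ N)) (fun g => g ∈ C)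
    have h2 : ((Finset.univ.filter (· ∈ N)).filter fun g => g ∈ C) = Finset.univ.filter (· ∈ C) := by
      ext g
      simp only [Finset.mem_filter, Finset.mem_univ, true_and]
      exact ⟨fun h => h.2, fun h => ⟨hCN h, h⟩⟩
    have h3 : ((Finset.univ.filter (· ∈ N)).filter fun g => ¬ g ∈ C) = D := by
      ext g
      simp [D]
    rw [h2, h3, hCf, hNf, hC20, hNc] at h1
    omega
  have hDK : D ∩ Kset u = (Kset u).erase u := by
    ext v
    simp only [Finset.mem_inter, Finset.mem_erase, D, Finset.mem_filter, Finset.mem_univ, true_and]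
    constructor
    · rintro ⟨⟨-, hv2⟩, hv3⟩
      refine ⟨?_, hv3⟩
      rintro rfl
      exact hv2 huC
    · rintro ⟨hv1, hv2⟩
      have := hK' v (Finset.mem_erase.2 ⟨hv1, hv2⟩)
      exact ⟨⟨this.1, this.2.1⟩, hv2⟩
  let Mm : Finset G := D \ Kset u
  have hMmc : Mm.card = 5 := by
    have h1 : Mm.card + (D ∩ Kset u).card = D.card := Finset.card_sdiff_add_card_inter D (Kset u)
    rw [hDK, hK'c, hDc] at h1
    omega
  have hKN : ∀ g ∈ N, ∀ v ∈ Kset u, g * v * g⁻¹ ∈ Kset u := by
    intro g hg v hv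
    obtain ⟨hv1, hv2⟩ := (mem_Kset u v).1 hv
    have hgu : g * u = u * g := by
      have := hNu hg
      rwa [Subgroup.mem_centralizer_singleton_iff] at this
    rw [mem_Kset]
    refine ⟨hv1.trans (isConj_iff.2 ⟨g, rfl⟩), ?_⟩
    calc u * (g * v * g⁻¹) = (u * g) * v * g⁻¹ := by group
      _ = g * (u * v) * g⁻¹ := by rw [← hgu]; group
      _ = g * (v * u) * g⁻¹ := by rw [hv2]
      _ = (g * v * g⁻¹) * (g * u) * g⁻¹ := by group
      _ = (g * v * g⁻¹) * (u * g) * g⁻¹ := by rw [hgu]
      _ = _ := by group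
  have hMinv : ∀ g ∈ N, ∀ a ∈ Mm, g * a * g⁻¹ ∈ Mm := by
    intro g hg a ha
    simp only [Mm, D, Finset.mem_sdiff, Finset.mem_filter, Finset.mem_univ, true_and] at ha ⊢
    obtain ⟨⟨ha1, ha2⟩, ha3⟩ := ha
    refine ⟨⟨N.mul_mem (N.mul_mem hg ha1) (inv_mem hg), ?_⟩, ?_⟩
    · intro hc
      apply ha2
      have := conj_mem_centralizer P hP x hxP hx g⁻¹ _ (inv_mem hg) hc
      have h2 : g⁻¹ * (g * a * g⁻¹) * g⁻¹⁻¹ = a := by group
      rwa [h2] at this
    · intro hc
      apply ha3
      have := hKN g⁻¹ (inv_mem hg) _ hc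
      have h2 : g⁻¹ * (g * a * g⁻¹) * g⁻¹⁻¹ = a := by group
      rwa [h2] at this
  have hS2 : IsPGroup 2 S := IsPGroup.of_card (n := 3) (by rw [hSc]; norm_num)
  obtain ⟨m, hmM, hSm⟩ := exists_comm_of_odd S hS2 Mm (fun s hs a ha => hMinv s (hSN hs) a ha)
    (by rw [hMmc]; norm_num)
  have hmM' := hmM
  simp only [Mm, D, Finset.mem_sdiff, Finset.mem_filter, Finset.mem_univ, true_and] at hmM'
  obtain ⟨⟨hmN, hmC⟩, hmK⟩ := hmM'
  have hmx := hinv m hmN hmC
  -- the subgroup `T`
  let T : Subgroup G := N ⊓ centralizer ({m} : Set G)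
  have hTN : T ≤ N := inf_le_left
  have hTmem : ∀ t, t ∈ T ↔ t ∈ N ∧ t * m = m * t := by
    intro t
    rw [← Subgroup.mem_centralizer_singleton_iff]
    rfl
  have hSle : S ≤ T := fun s hs => (hTmem s).2 ⟨hSN hs, hSm s hs⟩
  have hTc : Nat.card T = 8 := by
    have h8 : 8 ∣ Nat.card T := by
      rw [← hSc]
      exact Subgroup.card_dvd_of_le hSle
    have h40 : Nat.card T ∣ 40 := by
      rw [← hNc]
      exact Subgroup.card_dvd_of_le hTN
    have key : ∀ d ∈ (40 : ℕ).divisors, 8 ∣ d → d = 8 ∨ d = 40 := by decide +kernel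
    rcases key _ (Nat.mem_divisors.2 ⟨h40, by norm_num⟩) h8 with h1 | h1
    · exact h1
    · exfalso
      have h2 : T = N := Subgroup.eq_of_le_of_card_ge hTN (by rw [hNc, h1])
      have h3 : x ∈ T := h2.symm ▸ hxN
      have h4 := ((hTmem x).1 h3).2
      apply hmC
      rw [hC, Subgroup.mem_centralizer_singleton_iff]
      exact h4.symm
  have huN : u ∈ N := hCN huC
  have hmu : m * u = u * m := by
    have := hNu hmN
    rwa [Subgroup.mem_centralizer_singleton_iff] at this
  have huT : u ∈ T := (hTmem u).2 ⟨huN, hmu.symm⟩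
  have hmT : m ∈ T := (hTmem m).2 ⟨hmN, rfl⟩
  -- powers of `x` and `m`
  have hx5 : x ^ 5 = 1 := by rw [← hx]; exact pow_orderOf_eq_one x
  have hmxi : m * x⁻¹ = x * m := by
    have h7 : m * x⁻¹ * m⁻¹ = x := by
      have : (m * x * m⁻¹)⁻¹ = m * x⁻¹ * m⁻¹ := by group
      rw [← this, hmx, inv_inv]
    calc m * x⁻¹ = m * x⁻¹ * m⁻¹ * m := by group
      _ = x * m := by rw [h7]
  have hconjm : ∀ n : ℕ, m * (x ^ n)⁻¹ = x ^ n * m := by
    intro n
    induction n with
    | zero => simp
    | succ n ih =>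
      calc m * (x ^ (n + 1))⁻¹ = (m * x⁻¹) * (x ^ n)⁻¹ := by rw [pow_succ']; group
        _ = x * (m * (x ^ n)⁻¹) := by rw [hmxi]; group
        _ = x * (x ^ n * m) := by rw [ih]
        _ = x ^ (n + 1) * m := by rw [pow_succ']; group
  have hmxn : ∀ n : ℕ, m * x ^ n = (x ^ n)⁻¹ * m := by
    intro n
    have h1 := hconjm n
    calc m * x ^ n = (x ^ n)⁻¹ * (x ^ n * m) * x ^ n := by group
      _ = (x ^ n)⁻¹ * (m * (x ^ n)⁻¹) * x ^ n := by rw [h1]
      _ = (x ^ n)⁻¹ * m := by group
  have himg : ∀ j : ℕ, x ^ j * m ∈ Mm := by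
    intro j
    have h1 := hMinv (x ^ (3 * j)) (N.pow_mem hxN _) m hmM
    have h2 : x ^ (3 * j) * m * (x ^ (3 * j))⁻¹ = x ^ j * m := by
      calc x ^ (3 * j) * m * (x ^ (3 * j))⁻¹ = x ^ (3 * j) * (m * (x ^ (3 * j))⁻¹) := by group
        _ = x ^ (3 * j) * (x ^ (3 * j) * m) := by rw [hconjm]
        _ = x ^ (3 * j + 3 * j) * m := by rw [pow_add]; group
        _ = x ^ (j + 5 * j) * m := by congr 2; ring
        _ = x ^ j * m := by rw [pow_add, pow_mul, hx5, one_pow, mul_one]
    rwa [h2] at h1
  have hsub : ((Finset.range 5).image fun j => x ^ j * m) ⊆ Mm := by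
    intro t ht
    obtain ⟨j, -, rfl⟩ := Finset.mem_image.1 ht
    exact himg j
  have hcardimg : ((Finset.range 5).image fun j => x ^ j * m).card = 5 := by
    rw [Finset.card_image_of_injOn, Finset.card_range]
    intro i hi j hj hij
    have h1 : x ^ i = x ^ j := mul_right_cancel hij
    have hinj := pow_injOn_Iio_orderOf (x := x)
    rw [hx] at hinj
    exact hinj (by simpa using hi) (by simpa using hj) h1
  have hMeq : ((Finset.range 5).image fun j => x ^ j * m) = Mm :=
    Finset.eq_of_subset_of_card_le hsub (by rw [hMmc, hcardimg])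
  have hKey : ∀ t ∈ Mm, t * m = m * t → t = m := by
    intro t ht hcomm
    rw [← hMeq] at ht
    obtain ⟨j, hj, rfl⟩ := Finset.mem_image.1 ht
    have hj5 := Finset.mem_range.1 hj
    have h1 : x ^ j * m = m * x ^ j := by
      apply mul_right_cancel (b := m)
      rw [hcomm]
      group
    rw [hmxn] at h1
    have h2 : x ^ j = (x ^ j)⁻¹ := mul_right_cancel h1
    have h3 : x ^ (j + j) = 1 := by
      rw [pow_add]
      nth_rewrite 1 [h2]
      simp
    have h4 := orderOf_dvd_of_pow_eq_one h3
    rw [hx] at h4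
    have h5 : j = 0 := by omega
    rw [h5]
    simp
  have hK : ∀ t ∈ T, t ∉ C → t ≠ m → IsConj u t := by
    intro t ht htC htm
    obtain ⟨ht1, ht2⟩ := (hTmem t).1 ht
    by_cases htK : t ∈ Kset u
    · exact ((mem_Kset u t).1 htK).1
    · exfalso
      apply htm
      apply hKey t _ ht2
      simp only [Mm, D, Finset.mem_sdiff, Finset.mem_filter, Finset.mem_univ, true_and]
      exact ⟨⟨ht1, htC⟩, htK⟩
  have hcard : ∀ v, IsConj u v → Nat.card (centralizer ({v} : Set G)) = 40 := by
    intro v hv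
    have h1 := card_cls_mul v
    have h2 := card_cls_mul u
    have h3 : cls v = cls u := by
      ext y
      rw [mem_cls, mem_cls]
      exact ⟨fun h' => hv.trans h', fun h' => hv.symm.trans h'⟩
    rw [h3] at h1
    rw [hMc, h] at h2
    rw [h] at h1
    nlinarith
  exact final_step C T u m hu1 hu2 huT hmT hTc (fun t ht => ((hTmem t).1 ht).2)
    (fun t ht => by
      have := hNu (hTN ht)
      rwa [Subgroup.mem_centralizer_singleton_iff] at this) huC hmC
    (fun a ha b hb => hNC a (hTN ha) b (hTN hb)) hK hCu hcard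

end Main

/-- No finite simple group has order 1440 = 2^5 * 3^2 * 5. -/
theorem result {G : Type*} [Group G] [Finite G] [IsSimpleGroup G] : Nat.card G ≠ 1440 := by
  classical
  intro h
  haveI h5 : Fact (Nat.Prime 5) := ⟨by norm_num⟩
  obtain ⟨P⟩ : Nonempty (Sylow 5 G) := inferInstance
  have hc5 : Nat.card (P : Subgroup G) = 5 := by
    have := card_sylow_eq (p := 5) (a := 1) (m := 288) (by rw [h]; norm_num) (by norm_num) P
    simpa using this
  obtain ⟨x, hxP, hx⟩ : ∃ x ∈ (P : Subgroup G), orderOf x = 5 := by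
    haveI : Nontrivial (P : Subgroup G) := by
      apply Finite.one_lt_card_iff_nontrivial.1
      omega
    obtain ⟨y, hy⟩ := exists_ne (1 : (P : Subgroup G))
    refine ⟨y, y.2, ?_⟩
    have h1 : orderOf y ∣ 5 := by
      have := orderOf_dvd_natCard y
      rwa [hc5] at this
    rw [Subgroup.orderOf_coe]
    rcases (Nat.dvd_prime (by norm_num : Nat.Prime 5)).1 h1 with h2 | h2
    · exact absurd (orderOf_eq_one_iff.1 h2) hy
    · exact h2
  set N := normalizer ((P : Subgroup G) : Set G) with hN
  have hzx : zpowers x = (P : Subgroup G) := by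
    apply Subgroup.eq_of_le_of_card_ge
    · exact (Subgroup.zpowers_le).2 hxP
    · rw [Nat.card_zpowers, hx, hc5]
  have hCeq : centralizer ((P : Subgroup G) : Set G) = centralizer ({x} : Set G) := by
    apply le_antisymm
    · exact Subgroup.centralizer_le (Set.singleton_subset_iff.2 hxP)
    · intro c hc
      rw [Subgroup.mem_centralizer_singleton_iff] at hc
      rw [Subgroup.mem_centralizer_iff]
      intro y hy
      rw [SetLike.mem_coe, ← hzx, Subgroup.mem_zpowers_iff] at hy
      obtain ⟨k, rfl⟩ := hy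
      exact (Commute.zpow_right (show Commute c x from hc) k).eq.symm
  set C := centralizer ({x} : Set G) with hC
  have hNne : N ≠ ⊤ := normalizer_ne_top P (by rw [hc5]; norm_num) (by rw [hc5, h]; norm_num)
  have hcard : Nat.card N * Nat.card (Sylow 5 G) = 1440 := by
    rw [← h]
    exact card_normalizer_mul P
  have hidxN : N.index = Nat.card (Sylow 5 G) := (Sylow.card_eq_index_normalizer P).symm
  obtain ⟨e, he, hNC'⟩ := exists_card_normalizer_eq (p := 5) (by norm_num) (P : Subgroup G) hc5
  rw [hCeq] at hNC'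
  have hNC : Nat.card N = Nat.card C * e := hNC'
  have he4 : e ∣ 4 := he
  have hd : Nat.card (Sylow 5 G) ∣ 288 := by
    have h1 : (P : Subgroup G).index = 288 := by
      have := Subgroup.card_mul_index (P : Subgroup G)
      rw [hc5, h] at this
      omega
    exact h1 ▸ P.card_dvd_index
  have hm : Nat.card (Sylow 5 G) % 5 = 1 := card_sylow_modEq_one 5 G
  have hn5 : Nat.card (Sylow 5 G) = 1 ∨ Nat.card (Sylow 5 G) = 6 ∨ Nat.card (Sylow 5 G) = 16 ∨
      Nat.card (Sylow 5 G) = 36 ∨ Nat.card (Sylow 5 G) = 96 := by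
    have key : ∀ d ∈ (288 : ℕ).divisors, d % 5 = 1 → d = 1 ∨ d = 6 ∨ d = 16 ∨ d = 36 ∨ d = 96 := by
      decide +kernel
    exact key _ (Nat.mem_divisors.2 ⟨hd, by norm_num⟩) hm
  have he' : e = 1 ∨ e = 2 ∨ e = 4 := by
    have key : ∀ d ∈ (4 : ℕ).divisors, d = 1 ∨ d = 2 ∨ d = 4 := by decide +kernel
    exact key _ (Nat.mem_divisors.2 ⟨he4, by norm_num⟩)
  -- Burnside's transfer theorem
  have hburn : e ≠ 1 := by
    rintro rfl
    have hle : N ≤ centralizer ((P : Subgroup G) : Set G) := by
      rw [hCeq]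
      symm at hNC
      rw [mul_one] at hNC
      have hCN : C ≤ N := by
        rw [← hCeq]
        exact Subgroup.centralizer_le_normalizer _
      exact (Subgroup.eq_of_le_of_card_ge hCN (by rw [hNC])).symm.le
    have h9 := card_eq_of_le_centralizer (p := 5) (by rw [h]; norm_num) P hle
    omega
  rcases hn5 with hn | hn | hn | hn | hn
  · rw [hn, Subgroup.index_eq_one] at hidxN
    exact hNne hidxN
  · have := lt_index (n := 7) (by rw [h]; decide +kernel) N hNne
    omega
  · -- `n₅ = 16`
    rw [hn] at hcard hidxN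
    have hNc : Nat.card N = 90 := by omega
    have huniq : ∀ c d : G ⧸ N, act N x c = c → act N x d = d → c = d := by
      have h1 : ∀ c : G ⧸ N, act N x c = c → c = ((1 : G) : G ⧸ N) := by
        intro c
        induction c using QuotientGroup.induction_on with
        | H g =>
          intro hc
          have h2 : (x • ((g : G) : G ⧸ N)) = ((g : G) : G ⧸ N) := hc
          rw [MulAction.Quotient.smul_mk] at h2
          have h3 := QuotientGroup.eq.mp h2.symm
          have h4 : g⁻¹ * x * g ∈ N := by simpa [mul_assoc] using h3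
          have h5 := mem_normalizer_of_conj_mem P hc5 x hxP hx g h4
          rw [QuotientGroup.eq, mul_one]
          exact inv_mem h5
      intro c d hc hd
      rw [h1 c hc, h1 d hd]
    obtain ⟨b, hb1, hb2, hb3⟩ := exists_cycle_data_unique (p := 5) (by norm_num) N hNne x hx huniq
    rw [hidxN] at hb1 hb2 hb3
    have hb : b = 3 := by omega
    subst hb
    have h5 := hb3 C le_rfl
    norm_num [Nat.factorial] at h5
    rw [hNc] at hNC
    rcases he' with rfl | rfl | rfl
    · exact hburn rfl
    · have hC45 : Nat.card C = 45 := by omega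
      rw [hC45] at h5
      omega
    · omega
  · -- the main case
    rw [hn] at hcard
    have hNc : Nat.card N = 40 := by omega
    refine main_36 h P hc5 x hxP hx hNc ?_
    show Nat.card C = 10 ∨ Nat.card C = 20
    rw [hNc] at hNC
    rcases he' with rfl | rfl | rfl
    · exact absurd rfl hburn
    · right; omega
    · left; omega
  · -- `n₅ = 96`
    rw [hn] at hcard
    have hNc : Nat.card N = 15 := by omega
    rw [hNc] at hNC
    rcases he' with rfl | rfl | rfl
    · exact hburn rfl
    · omega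
    · omega

end Cfsg.Agent.S1016
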