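import Cfsg.Statements.S0978
import Mathlib
import Cfsg.Agent.Lib.SmallOrd.InvolTools
import Cfsg.Agent.Lib.SmallOrd.OrderEight
import Cfsg.Agent.S0991
import Cfsg.Agent.S1010
import Cfsg.Agent.S1016

set_option autoImplicit false
open Cfsg

namespace Cfsg.Agent.S0978

open Subgroup Cfsg.Agent.Lib.SmallCen.SmallOrder Cfsg.Agent.Lib.SmallOrd
open Cfsg.Agent.Lib.Basic.SmallSimple Cfsg.Agent.Lib.SmallOrd.ClassSign
open Cfsg.Agent.Lib.SmallOrd.InvolTools Cfsg.Agent.Lib.SmallOrd.OrderEight

section Tools

variable {G : Type*} [Group G] [Finite G]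

theorem not_prime_card (h : Nat.card G = 5040) : ¬ (Nat.card G).Prime := by
  rw [h]
  norm_num

/-- A proper subgroup has index at least `8`: the group embeds in the alternating group. -/
theorem index_ge [IsSimpleGroup G] (h : Nat.card G = 5040) (H : Subgroup G) (hH : H ≠ ⊤) :
    8 ≤ H.index := by
  classical
  have hG : ¬ IsMulCommutative G := by
    intro hc
    letI : CommGroup G := { (inferInstance : Group G) with mul_comm := hc.is_comm.comm }
    exact not_prime_card h IsSimpleGroup.prime_card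
  obtain ⟨f, hf⟩ := Cfsg.Agent.S0991.result hG H hH
  have h1 := Nat.card_le_card_of_injective f hf
  by_contra hlt
  push_neg at hlt
  have h0 : H.index ≠ 0 := Subgroup.index_ne_zero_of_finite
  have h11 : H.index ≠ 1 := by
    intro h1'
    exact hH (Subgroup.index_eq_one.1 h1')
  haveI : Nontrivial (Fin H.index) := Fin.nontrivial_iff_two_le.2 (by omega)
  have h2 := two_mul_nat_card_alternatingGroup (α := Fin H.index)
  rw [Nat.card_eq_fintype_card (α := Equiv.Perm (Fin H.index)), Fintype.card_perm, Fintype.card_fin] at h2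
  have h3 : H.index.factorial ≤ Nat.factorial 7 := Nat.factorial_le (by omega)
  norm_num [Nat.factorial] at h3
  rw [h] at h1
  omega

/-- A generator of a Sylow subgroup of prime order. -/
theorem exists_generator {p : ℕ} [Fact p.Prime] (P : Sylow p G) (hP : Nat.card (P : Subgroup G) = p) :
    ∃ x ∈ (P : Subgroup G), orderOf x = p := by
  have hpp : p.Prime := Fact.out
  haveI : Nontrivial (P : Subgroup G) := by
    apply Finite.one_lt_card_iff_nontrivial.1
    rw [hP]
    exact hpp.one_lt
  obtain ⟨y, hy⟩ := exists_ne (1 : (P : Subgroup G))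
  refine ⟨y, y.2, ?_⟩
  have h1 : orderOf y ∣ p := by
    have := orderOf_dvd_natCard y
    rwa [hP] at this
  rw [Subgroup.orderOf_coe]
  rcases (Nat.dvd_prime hpp).1 h1 with h2 | h2
  · exact absurd (orderOf_eq_one_iff.1 h2) hy
  · exact h2

theorem conj_involution (a g : G) (h : a * a = 1) : (g * a * g⁻¹) * (g * a * g⁻¹) = 1 := by
  calc g * a * g⁻¹ * (g * a * g⁻¹) = g * (a * a) * g⁻¹ := by group
    _ = 1 := by rw [h]; group

theorem conj_ne_one (a g : G) (h : a ≠ 1) : g * a * g⁻¹ ≠ 1 := by
  intro h1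
  apply h
  have : a = g⁻¹ * (g * a * g⁻¹) * g := by group
  rw [this, h1]
  group

/-- Involution of the class. -/
theorem involution_of_isConj {a b : G} (h : IsConj a b) (ha : a * a = 1) : b * b = 1 := by
  obtain ⟨g, rfl⟩ := isConj_iff.1 h
  exact conj_involution a g ha

end Tools

section Lemma240

variable {G : Type*} [Group G] [Finite G]

/-- An involution commuting with an element `v` of order `5` has centralizer of order different from
`240` when `|C(v)| ≤ 20`. -/
theorem not_card_240 [IsSimpleGroup G] (h : Nat.card G = 5040) (v q : G) (hv : orderOf v = 5)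
    (hCc : Nat.card (centralizer ({v} : Set G)) ≤ 20) (hq1 : q ≠ 1) (hq2 : q * q = 1)
    (hvq : v * q = q * v) (hqc : Nat.card (centralizer ({q} : Set G)) = 240) : False := by
  classical
  have hcls : (cls q).card = 21 := by
    have := card_cls_mul q
    rw [hqc, h] at this
    omega
  have hfix := card_modEq_fixed (cls q) (fun w => v * w * v⁻¹) (by
      intro a ha
      rw [mem_cls] at ha ⊢
      exact ha.trans (isConj_iff.2 ⟨v, rfl⟩)) Nat.prime_five (by
      intro a _
      rw [iter_conj, ← hv, pow_orderOf_eq_one]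
      simp)
  have hcommF : ∀ a : G, v * a * v⁻¹ = a → a * v = v * a := by
    intro a ha
    calc a * v = v * a * v⁻¹ * v := by rw [ha]
      _ = v * a := by group
  have hFb := card_mul_le_of_involutions (p := 5) (by decide) v hv
    ((cls q).filter fun a => v * a * v⁻¹ = a) (by
      intro w hw
      obtain ⟨hw1, hw2⟩ := Finset.mem_filter.1 hw
      rw [mem_cls] at hw1
      exact ⟨involution_of_isConj hw1 hq2, hcommF w hw2⟩)
  rw [hcls] at hfix
  have hF1 : ((cls q).filter fun a => v * a * v⁻¹ = a).card = 1 := by omega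
  have hqF : q ∈ (cls q).filter fun a => v * a * v⁻¹ = a := by
    rw [Finset.mem_filter, mem_cls]
    refine ⟨IsConj.refl _, ?_⟩
    rw [hvq]
    group
  have hCu : ∀ w, w * v = v * w → IsConj q w → w = q := by
    intro w hw hw'
    have hwF : w ∈ (cls q).filter fun a => v * a * v⁻¹ = a := by
      rw [Finset.mem_filter, mem_cls]
      refine ⟨hw', ?_⟩
      rw [← hw]
      group
    exact Finset.card_le_one.1 hF1.le w hwF q hqF
  obtain ⟨h4, h5, hlt⟩ := Kset_congr (by omega) v q Nat.prime_five hv hq2 hq1 hvq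
    (centralizer_ne_top (not_prime_card h) q hq1) hCu
  rw [hcls] at h4 hlt
  have hK1 : (Kset q).card = 1 := by omega
  obtain ⟨P, huP, hP⟩ := exists_sylow_le_centralizer (a := 4) (m := 315) (by rw [h]; norm_num)
    (by norm_num) q hq2 hq1 (by rw [hqc]; norm_num)
  exact false_of_Kset_card_one (not_prime_card h) (by rw [h]; norm_num) q hq2 hq1 P huP hP hK1

/-- The centralizer of an involution commuting with the normalizer. -/
theorem centralizer_eq_of_le [IsSimpleGroup G] (h : Nat.card G = 5040) (P : Sylow 5 G)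
    (hNc : Nat.card (normalizer ((P : Subgroup G) : Set G)) = 40) (v q : G) (hvP : v ∈ (P : Subgroup G))
    (hv : orderOf v = 5) (hCc : Nat.card (centralizer ({v} : Set G)) ≤ 20) (hq1 : q ≠ 1)
    (hq2 : q * q = 1) (hNq : normalizer ((P : Subgroup G) : Set G) ≤ centralizer ({q} : Set G)) :
    centralizer ({q} : Set G) = normalizer ((P : Subgroup G) : Set G) := by
  haveI : Fact (Nat.Prime 5) := ⟨by norm_num⟩
  obtain ⟨k, hk, hk5⟩ := exists_card_eq_normalizer_mul P _ hNq
  have hidx := index_ge h _ (centralizer_ne_top (not_prime_card h) q hq1)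
  have hmul := Subgroup.card_mul_index (centralizer ({q} : Set G))
  rw [hk, hNc, h] at hmul
  have hvN : v ∈ normalizer ((P : Subgroup G) : Set G) :=
    (Subgroup.le_normalizer (H := (P : Subgroup G))) hvP
  have hvq : v * q = q * v := by
    have := hNq hvN
    rwa [Subgroup.mem_centralizer_singleton_iff] at this
  have hmul' : k * (centralizer ({q} : Set G)).index = 126 := by nlinarith
  have hkd : k ∣ 126 := ⟨_, hmul'.symm⟩
  have hkl : k ≤ 15 := by
    by_contra hcon
    have : 16 * 8 ≤ k * (centralizer ({q} : Set G)).index := Nat.mul_le_mul (by omega) hidx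
    omega
  have key : ∀ d ∈ (126 : ℕ).divisors, d ≤ 15 → d % 5 = 1 → d = 1 ∨ d = 6 := by decide +kernel
  rcases key k (Nat.mem_divisors.2 ⟨hkd, by norm_num⟩) hkl hk5 with h1 | h1
  · symm
    apply Subgroup.eq_of_le_of_card_ge hNq
    rw [hk, hNc, h1]
  · exfalso
    exact not_card_240 h v q hv hCc hq1 hq2 hvq (by rw [hk, hNc, h1])

end Lemma240

section Main126

variable {G : Type*} [Group G] [Finite G]

/-- The case `|N_G(P₅)| = 40`. -/
theorem main_126 [IsSimpleGroup G] (h : Nat.card G = 5040) (P : Sylow 5 G)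
    (hP : Nat.card (P : Subgroup G) = 5) (v : G) (hvP : v ∈ (P : Subgroup G)) (hv : orderOf v = 5)
    (hNc : Nat.card (normalizer ((P : Subgroup G) : Set G)) = 40)
    (hCc : Nat.card (centralizer ({v} : Set G)) = 10 ∨ Nat.card (centralizer ({v} : Set G)) = 20) :
    False := by
  classical
  haveI : Fintype G := Fintype.ofFinite G
  haveI : Fact (Nat.Prime 2) := ⟨Nat.prime_two⟩
  haveI : Fact (Nat.Prime 5) := ⟨by norm_num⟩
  set N := normalizer ((P : Subgroup G) : Set G) with hN
  set C := centralizer ({v} : Set G) with hC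
  have hvN : v ∈ N := (Subgroup.le_normalizer (H := (P : Subgroup G))) hvP
  have hCN : C ≤ N := centralizer_le_normalizer' P hP v hvP hv
  have hCle : Nat.card C ≤ 20 := by
    rcases hCc with h1 | h1 <;> omega
  -- the involution `u`
  obtain ⟨S', hS'⟩ := Sylow.exists_subgroup_card_pow_prime (G := N) 2 (n := 3) (by rw [hNc]; norm_num)
  have hC2 : 2 ∣ Nat.card C := by
    rcases hCc with h1 | h1 <;> rw [h1] <;> norm_num
  obtain ⟨u, huC, hu2, hu1, hNu⟩ := Cfsg.Agent.S1016.exists_u P hP v hvP hv hNc hC2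
    (S'.map N.subtype) (Subgroup.map_subtype_le S')
    (by rw [Subgroup.card_map_of_injective N.subtype_injective, hS']; norm_num)
  have hM : centralizer ({u} : Set G) = N := centralizer_eq_of_le h P hNc v u hvP hv hCle hu1 hu2 hNu
  have hCu : ∀ w ∈ C, IsConj u w → w = u := fun w hw hw' =>
    Cfsg.Agent.S1016.conj_in_C P hP v hvP hv u hM w hw hw'
  have huN : u ∈ N := hCN huC
  have hord : orderOf u = 2 := orderOf_eq_prime (by rw [pow_two]; exact hu2) hu1
  -- a subgroup `T` of order `8` in `N` containing `u`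
  have hQ : IsPGroup 2 (zpowers (⟨u, huN⟩ : ↥N)) := by
    apply IsPGroup.of_card (n := 1)
    rw [Nat.card_zpowers, pow_one, Subgroup.orderOf_mk, hord]
  obtain ⟨R, hR⟩ := hQ.exists_le_sylow
  have hRc : Nat.card (R : Subgroup ↥N) = 2 ^ 3 :=
    card_sylow_eq (p := 2) (a := 3) (m := 5) (by rw [hNc]; norm_num) (by norm_num) R
  let T : Subgroup G := (R : Subgroup ↥N).map N.subtype
  have hTN : T ≤ N := Subgroup.map_subtype_le _
  have hTc : Nat.card T = 8 := by
    rw [Subgroup.card_map_of_injective N.subtype_injective, hRc]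
    norm_num
  have huT : u ∈ T := ⟨⟨u, huN⟩, hR (mem_zpowers _), rfl⟩
  have hTu : ∀ t ∈ T, t * u = u * t := by
    intro t ht
    have := hNu (hTN ht)
    rwa [Subgroup.mem_centralizer_singleton_iff] at this
  -- the Sylow subgroup of order `16`
  have hT2 : IsPGroup 2 T := IsPGroup.of_card (n := 3) (by rw [hTc]; norm_num)
  obtain ⟨S, hTS⟩ := hT2.exists_le_sylow
  have hSc : Nat.card (S : Subgroup G) = 16 := by
    have := card_sylow_eq (p := 2) (a := 4) (m := 315) (by rw [h]; norm_num) (by norm_num) S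
    rw [this]
    norm_num
  have hidx : T.relIndex (S : Subgroup G) = 2 := by
    have h1 := Cfsg.Agent.Lib.Perm.SylowIn.card_mul_relIndex hTS
    rw [hTc, hSc] at h1
    omega
  have hlt : T < (S : Subgroup G) := by
    refine lt_of_le_of_ne hTS ?_
    intro he
    rw [← he, hTc] at hSc
    omega
  obtain ⟨s, hsS, hsT⟩ := SetLike.exists_of_lt hlt
  have hSnorm : (S : Subgroup G) ≤ normalizer (T : Set G) :=
    le_normalizer_of_index_prime Nat.prime_two hTS S.2 hidx
  have hsn : ∀ t ∈ T, s * t * s⁻¹ ∈ T := fun t ht => (mem_normalizer_iff.1 (hSnorm hsS) t).1 ht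
  have hsn' : ∀ t ∈ T, s⁻¹ * t * s ∈ T := by
    intro t ht
    have := (mem_normalizer_iff.1 (inv_mem (hSnorm hsS)) t).1 ht
    simpa using this
  have hs2 : s * s ∈ T := mul_mem_of_relIndex_two hidx hsS hsS hsT hsT
  have hsN : s ∉ N := by
    intro hs
    have hle : T ≤ N ⊓ (S : Subgroup G) := le_inf hTN hTS
    have h1 : Nat.card (N ⊓ (S : Subgroup G) : Subgroup G) ∣ 40 := by
      rw [← hNc]
      exact Subgroup.card_dvd_of_le inf_le_left
    have h2 : Nat.card (N ⊓ (S : Subgroup G) : Subgroup G) ∣ 16 := by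
      rw [← hSc]
      exact Subgroup.card_dvd_of_le inf_le_right
    have h3 : Nat.card (N ⊓ (S : Subgroup G) : Subgroup G) ≤ 8 := by
      have h4 : Nat.card (N ⊓ (S : Subgroup G) : Subgroup G) ≤ Nat.gcd 40 16 :=
        Nat.le_of_dvd (by norm_num) (Nat.dvd_gcd h1 h2)
      have h5 : Nat.gcd 40 16 = 8 := by norm_num
      omega
    have h5 : T = N ⊓ (S : Subgroup G) := Subgroup.eq_of_le_of_card_ge hle (by rw [hTc]; exact h3)
    apply hsT
    rw [h5]
    exact ⟨hs, hsS⟩
  have hne : s * u * s⁻¹ ≠ u := by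
    intro he
    apply hsN
    rw [← hM, Subgroup.mem_centralizer_singleton_iff]
    calc s * u = s * u * s⁻¹ * s := by group
      _ = u * s := by rw [he]
  set u' := s * u * s⁻¹ with hu'
  have hu'T : u' ∈ T := hsn u huT
  have hu'2 : u' * u' = 1 := conj_involution u s hu2
  have hu'1 : u' ≠ 1 := conj_ne_one u s hu1
  have hTu' : ∀ t ∈ T, t * u' = u' * t := by
    intro t ht
    have h1 := hTu _ (hsn' t ht)
    calc t * u' = s * (s⁻¹ * t * s * u) * s⁻¹ := by rw [hu']; group
      _ = s * (u * (s⁻¹ * t * s)) * s⁻¹ := by rw [h1]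
      _ = u' * t := by rw [hu']; group
  -- `T` is abelian
  have hTcomm : ∀ a ∈ T, ∀ b ∈ T, a * b = b * a := by
    intro a ha b hb
    have h1 := comm_of_card_eight hTc (⟨u, huT⟩ : ↥T) (⟨u', hu'T⟩ : ↥T) (by
        rw [Subgroup.mem_center_iff]
        intro d
        exact Subtype.ext (hTu d.1 d.2)) (by
        rw [Subgroup.mem_center_iff]
        intro d
        exact Subtype.ext (hTu' d.1 d.2))
      (fun h0 => hu1 (congrArg Subtype.val h0)) (fun h0 => hu'1 (congrArg Subtype.val h0))
      (fun h0 => hne (congrArg Subtype.val h0).symm) ⟨a, ha⟩ ⟨b, hb⟩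
    exact congrArg Subtype.val h1
  -- the central involution
  have hcomm : u * u' = u' * u := hTcomm u huT u' hu'T
  have hss : ∀ t ∈ T, s * (s * t * s⁻¹) * s⁻¹ = t := by
    intro t ht
    have h1 := hTcomm _ hs2 t ht
    calc s * (s * t * s⁻¹) * s⁻¹ = (s * s) * t * (s * s)⁻¹ := by group
      _ = t * (s * s) * (s * s)⁻¹ := by rw [h1]
      _ = t := by group
  have hsu' : s * u' * s⁻¹ = u := hss u huT
  have hzS : (S : Subgroup G) ≤ centralizer ({u * u'} : Set G) := by
    intro r hr
    rw [Subgroup.mem_centralizer_singleton_iff]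
    have hzT : u * u' ∈ T := T.mul_mem huT hu'T
    have hszz : s * (u * u') = (u * u') * s := by
      have h1 : s * (u * u') * s⁻¹ = u * u' := by
        calc s * (u * u') * s⁻¹ = (s * u * s⁻¹) * (s * u' * s⁻¹) := by group
          _ = u' * u := by rw [hsu']
          _ = u * u' := hcomm.symm
      calc s * (u * u') = s * (u * u') * s⁻¹ * s := by group
        _ = (u * u') * s := by rw [h1]
    by_cases hrT : r ∈ T
    · exact hTcomm r hrT _ hzT
    · have h1 : s⁻¹ * r ∈ T := mul_mem_of_relIndex_two hidx (inv_mem hsS) hr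
        (fun h' => hsT (by simpa using T.inv_mem h')) hrT
      have h2 := hTcomm _ h1 _ hzT
      calc r * (u * u') = s * (s⁻¹ * r * (u * u')) := by group
        _ = s * ((u * u') * (s⁻¹ * r)) := by rw [h2]
        _ = (s * (u * u')) * (s⁻¹ * r) := by group
        _ = ((u * u') * s) * (s⁻¹ * r) := by rw [hszz]
        _ = (u * u') * r := by group
  have hMc : Nat.card (centralizer ({u} : Set G)) = 40 := by rw [hM, hNc]
  have hzconj : ¬ IsConj u (u * u') := by
    intro hc
    have h1 := card_centralizer_of_isConj hc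
    have h2 := Subgroup.card_dvd_of_le hzS
    rw [hSc, h1, hMc] at h2
    omega
  rcases hCc with hC10 | hC20
  · -- `|C| = 10`
    have hTC : ∀ t ∈ T, t ∈ C → t = 1 ∨ t = u := by
      have h1 : Nat.card (T ⊓ C : Subgroup G) ∣ 8 := by
        rw [← hTc]
        exact Subgroup.card_dvd_of_le inf_le_left
      have h2 : Nat.card (T ⊓ C : Subgroup G) ∣ 10 := by
        rw [← hC10]
        exact Subgroup.card_dvd_of_le inf_le_right
      have h3 : Nat.card (T ⊓ C : Subgroup G) ≤ 2 := by
        have h4 : Nat.card (T ⊓ C : Subgroup G) ≤ Nat.gcd 8 10 :=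
          Nat.le_of_dvd (by norm_num) (Nat.dvd_gcd h1 h2)
        have h5 : Nat.gcd 8 10 = 2 := by norm_num
        omega
      intro t ht htC
      by_contra hcon
      push_neg at hcon
      have hsub : ({1, u, t} : Finset G) ⊆ Finset.univ.filter (· ∈ (T ⊓ C : Subgroup G)) := by
        intro c hc
        simp only [Finset.mem_insert, Finset.mem_singleton] at hc
        simp only [Finset.mem_filter, Finset.mem_univ, true_and]
        rcases hc with rfl | rfl | rfl
        · exact (T ⊓ C).one_mem
        · exact ⟨huT, huC⟩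
        · exact ⟨ht, htC⟩
      have h5 := Finset.card_le_card hsub
      have h6 : ({1, u, t} : Finset G).card = 3 := by
        rw [Finset.card_eq_three]
        exact ⟨1, u, t, hu1.symm, hcon.1.symm, hcon.2.symm, rfl⟩
      have h7 : (Finset.univ.filter (· ∈ (T ⊓ C : Subgroup G))).card = Nat.card (T ⊓ C : Subgroup G) := by
        rw [Nat.card_eq_fintype_card, Fintype.card_subtype]
      omega
    have hu'C : u' ∉ C := fun hc => hne (hCu _ hc (isConj_iff.2 ⟨s, rfl⟩))
    have hnC : ∀ w, w ∉ C → w * v ≠ v * w := by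
      intro w hw hc
      apply hw
      rw [hC, Subgroup.mem_centralizer_singleton_iff]
      exact hc
    have hu'inv : u' * v * u'⁻¹ = v⁻¹ :=
      Cfsg.Agent.S1016.conj_eq_inv P hP v hvP hv u' (hTN hu'T) (by rw [hu'2]; simp) (hnC u' hu'C)
    have hV : ∀ t ∈ T, t * t = 1 → t = 1 ∨ t = u ∨ t = u' ∨ t = u * u' := by
      intro t ht ht2
      by_cases htC : t ∈ C
      · rcases hTC t ht htC with h1 | h1
        · exact Or.inl h1
        · exact Or.inr (Or.inl h1)
      · have htinv : t * v * t⁻¹ = v⁻¹ :=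
          Cfsg.Agent.S1016.conj_eq_inv P hP v hvP hv t (hTN ht) (by rw [ht2]; simp) (hnC t htC)
        have h1 : t * u' ∈ C := by
          rw [hC, Subgroup.mem_centralizer_singleton_iff]
          have h2 : t * v⁻¹ * t⁻¹ = v := by
            have : (t * v * t⁻¹)⁻¹ = t * v⁻¹ * t⁻¹ := by group
            rw [← this, htinv, inv_inv]
          calc t * u' * v = t * (u' * v * u'⁻¹) * u' := by group
            _ = t * v⁻¹ * u' := by rw [hu'inv]
            _ = t * v⁻¹ * t⁻¹ * (t * u') := by group
            _ = v * (t * u') := by rw [h2]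
        have hu'inv' : u'⁻¹ = u' := inv_eq_of_mul_eq_one_left hu'2
        rcases hTC _ (T.mul_mem ht hu'T) h1 with h2 | h2
        · right; right; left
          have : t = t * u' * u'⁻¹ := by group
          rw [this, h2, one_mul, hu'inv']
        · right; right; right
          have : t = t * u' * u'⁻¹ := by group
          rw [this, h2, hu'inv']
    obtain ⟨W, hWc, hWm⟩ := exists_W_local T u s hTc hTcomm huT hu2 hu1 hsT hs2 hsn hne hV
    have hWidx : W.index = 630 := by
      have h1 := Subgroup.card_mul_index W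
      rw [hWc, h] at h1
      omega
    obtain ⟨g, hg⟩ := exists_conj_mem_of_index (by omega) W (by rw [hWidx]) u hu2
    have hg' : g⁻¹ * u * g = g⁻¹ * u * g⁻¹⁻¹ := by simp
    rcases hWm _ hg (by rw [hg']; exact conj_involution u g⁻¹ hu2) with h1 | h1
    · exact conj_ne_one u g⁻¹ hu1 (by rw [← hg']; exact h1)
    · apply hzconj
      rw [← h1]
      exact isConj_iff.2 ⟨g⁻¹, by simp⟩
  · -- `|C| = 20`
    set T₁ : Subgroup G := T ⊓ C with hT₁
    have hT₁T : T₁ ≤ T := inf_le_left
    have hT₁C : T₁ ≤ C := inf_le_right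
    have hrelN : C.relIndex N = 2 := by
      have h1 := Cfsg.Agent.Lib.Perm.SylowIn.card_mul_relIndex hCN
      rw [hC20, hNc] at h1
      omega
    have hrelT : T₁.relIndex T ≤ 2 := by
      rw [hT₁, Subgroup.inf_relIndex_left, ← hrelN]
      exact Subgroup.relIndex_le_of_le_right hTN (by rw [hrelN]; norm_num)
    have hT₁c : Nat.card T₁ = 4 := by
      have h1 := Cfsg.Agent.Lib.Perm.SylowIn.card_mul_relIndex hT₁T
      rw [hTc] at h1
      have h2 : Nat.card T₁ ∣ 8 := ⟨_, h1.symm⟩
      have h3 : Nat.card T₁ ∣ 20 := by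
        rw [← hC20]
        exact Subgroup.card_dvd_of_le hT₁C
      have h4 : Nat.card T₁ ≤ Nat.gcd 8 20 := Nat.le_of_dvd (by norm_num) (Nat.dvd_gcd h2 h3)
      have h5 : Nat.gcd 8 20 = 4 := by norm_num
      have h6 : 4 ≤ Nat.card T₁ := by
        by_contra hcon
        have : Nat.card T₁ * T₁.relIndex T ≤ 3 * 2 := Nat.mul_le_mul (by omega) hrelT
        omega
      omega
    -- the image of `T₁`
    let T₂ : Subgroup G := T₁.map (MulAut.conj s).toMonoidHom
    have hT₂c : Nat.card T₂ = 4 := by
      rw [Subgroup.card_map_of_injective (MulAut.conj s).injective, hT₁c]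
    have hT₂T : T₂ ≤ T := by
      rintro _ ⟨a, ha, rfl⟩
      exact hsn a (hT₁T ha)
    have hrel2 : T₁.relIndex T₂ ≤ 2 := by
      have h1 : T₁.relIndex T₂ ≤ T₁.relIndex T :=
        Subgroup.relIndex_le_of_le_right hT₂T (by
          intro h0
          have h1 := Cfsg.Agent.Lib.Perm.SylowIn.card_mul_relIndex hT₁T
          rw [h0, hTc] at h1
          omega)
      omega
    have hinf : 2 ≤ Nat.card (T₁ ⊓ T₂ : Subgroup G) := by
      have h1 := Cfsg.Agent.Lib.Perm.SylowIn.card_mul_relIndex (inf_le_right : T₁ ⊓ T₂ ≤ T₂)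
      rw [Subgroup.inf_relIndex_right, hT₂c] at h1
      by_contra hcon
      have : Nat.card (T₁ ⊓ T₂ : Subgroup G) * T₁.relIndex T₂ ≤ 1 * 2 := Nat.mul_le_mul (by omega) hrel2
      omega
    haveI : Nontrivial (T₁ ⊓ T₂ : Subgroup G) := Finite.one_lt_card_iff_nontrivial.1 (by omega)
    obtain ⟨⟨q, hq⟩, hq1⟩ := exists_ne (1 : (T₁ ⊓ T₂ : Subgroup G))
    have hq1' : q ≠ 1 := fun h0 => hq1 (Subtype.ext h0)
    obtain ⟨q₀, hq₀, hq₀1, hq₀2⟩ : ∃ q₀ ∈ (T₁ ⊓ T₂ : Subgroup G), q₀ ≠ 1 ∧ q₀ * q₀ = 1 := by
      have h4 : q * q * (q * q) = 1 := by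
        have h5 : (⟨q, hq.1⟩ : ↥T₁) ^ Nat.card T₁ = 1 := pow_card_eq_one'
        rw [hT₁c] at h5
        have h6 : q ^ 4 = 1 := by simpa using congrArg Subtype.val h5
        calc q * q * (q * q) = q ^ 4 := by simp only [pow_succ, pow_zero, one_mul, mul_assoc]
          _ = 1 := h6
      by_cases hqq : q * q = 1
      · exact ⟨q, hq, hq1', hqq⟩
      · exact ⟨q * q, (T₁ ⊓ T₂).mul_mem hq hq, hqq, h4⟩
    obtain ⟨t₀, ht₀, ht₀q⟩ := hq₀.2
    have ht₀q' : s * t₀ * s⁻¹ = q₀ := ht₀q
    have ht₀1 : t₀ ≠ 1 := by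
      rintro rfl
      apply hq₀1
      rw [← ht₀q']
      group
    have ht₀2 : t₀ * t₀ = 1 := by
      have h1 : t₀ = s⁻¹ * q₀ * s := by rw [← ht₀q']; group
      rw [h1]
      calc s⁻¹ * q₀ * s * (s⁻¹ * q₀ * s) = s⁻¹ * (q₀ * q₀) * s := by group
        _ = 1 := by rw [hq₀2]; group
    have hNT₁ : ∀ a ∈ T₁, N ≤ centralizer ({a} : Set G) := by
      intro a ha
      have h1 : T ≤ N ⊓ centralizer ({a} : Set G) := by
        intro t ht
        refine ⟨hTN ht, ?_⟩
        change t ∈ centralizer ({a} : Set G)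
        rw [Subgroup.mem_centralizer_singleton_iff]
        exact hTcomm t ht a (hT₁T ha)
      have h2 : v ∈ N ⊓ centralizer ({a} : Set G) := by
        refine ⟨hvN, ?_⟩
        change v ∈ centralizer ({a} : Set G)
        rw [Subgroup.mem_centralizer_singleton_iff]
        have := hT₁C ha
        rw [hC, Subgroup.mem_centralizer_singleton_iff] at this
        exact this.symm
      have h8 : 8 ∣ Nat.card (N ⊓ centralizer ({a} : Set G) : Subgroup G) := by
        rw [← hTc]
        exact Subgroup.card_dvd_of_le h1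
      have h5 : 5 ∣ Nat.card (N ⊓ centralizer ({a} : Set G) : Subgroup G) := by
        have := orderOf_dvd_natCard (⟨v, h2⟩ : ↥(N ⊓ centralizer ({a} : Set G)))
        rwa [Subgroup.orderOf_mk, hv] at this
      have h40 : 40 ∣ Nat.card (N ⊓ centralizer ({a} : Set G) : Subgroup G) :=
        Nat.Coprime.mul_dvd_of_dvd_of_dvd (by norm_num : Nat.Coprime 8 5) h8 h5
      have heq : N ⊓ centralizer ({a} : Set G) = N := by
        apply Subgroup.eq_of_le_of_card_ge inf_le_left
        rw [hNc]
        exact Nat.le_of_dvd Nat.card_pos h40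
      exact inf_eq_left.1 heq
    have hCq : centralizer ({q₀} : Set G) = N :=
      centralizer_eq_of_le h P hNc v q₀ hvP hv hCle hq₀1 hq₀2 (hNT₁ q₀ hq₀.1)
    have hCt : centralizer ({t₀} : Set G) = N :=
      centralizer_eq_of_le h P hNc v t₀ hvP hv hCle ht₀1 ht₀2 (hNT₁ t₀ ht₀)
    have hvt : v * t₀ = t₀ * v := by
      have := hvN
      rw [← hCt, Subgroup.mem_centralizer_singleton_iff] at this
      exact this
    have hsv : s * v * s⁻¹ ∈ N := by
      rw [← hCq, Subgroup.mem_centralizer_singleton_iff, ← ht₀q']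
      calc s * v * s⁻¹ * (s * t₀ * s⁻¹) = s * (v * t₀) * s⁻¹ := by group
        _ = s * (t₀ * v) * s⁻¹ := by rw [hvt]
        _ = s * t₀ * s⁻¹ * (s * v * s⁻¹) := by group
    have h1 : s⁻¹ ∈ N := mem_normalizer_of_conj_mem P hP v hvP hv s⁻¹ (by rw [inv_inv]; exact hsv)
    have h2 := N.inv_mem h1
    rw [inv_inv] at h2
    exact hsN h2

end Main126

section Others

variable {G : Type*} [Group G] [Finite G]

/-- A `2`-group normalizing `⟨x⟩` centralizes an involution of `C(x)`. -/
theorem exists_involution_comm {p : ℕ} [Fact p.Prime] (P : Sylow p G) (hP : Nat.card (P : Subgroup G) = p)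
    (x : G) (hxP : x ∈ (P : Subgroup G)) (hx : orderOf x = p)
    (hC2 : 2 ∣ Nat.card (centralizer ({x} : Set G)))
    (S : Subgroup G) (hSN : S ≤ normalizer ((P : Subgroup G) : Set G)) (hS2 : IsPGroup 2 S) :
    ∃ u, u ∈ centralizer ({x} : Set G) ∧ u * u = 1 ∧ u ≠ 1 ∧ ∀ s ∈ S, s * u = u * s := by
  classical
  haveI : Fintype G := Fintype.ofFinite G
  haveI : Fact (Nat.Prime 2) := ⟨Nat.prime_two⟩
  set C := centralizer ({x} : Set G) with hC
  let Cf : Finset G := Finset.univ.filter (· ∈ C)
  have hCf : Cf.card = Nat.card C := by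
    rw [Nat.card_eq_fintype_card, Fintype.card_subtype]
  have hodd := odd_card_involutions Cf (fun c hc => by
      simp only [Cf, Finset.mem_filter, Finset.mem_univ, true_and] at hc ⊢
      exact inv_mem hc)
    (by simp [Cf, C.one_mem]) (by rw [hCf]; exact (even_iff_two_dvd.2 hC2))
  obtain ⟨u, hu, hSu⟩ := exists_comm_of_odd S hS2 (Cf.filter fun c => c * c = 1 ∧ c ≠ 1) (by
      intro s hs a ha
      simp only [Cf, Finset.mem_filter, Finset.mem_univ, true_and] at ha ⊢
      obtain ⟨ha1, ha2, ha3⟩ := ha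
      exact ⟨conj_mem_centralizer' P hP x hxP hx s a (hSN hs) ha1, conj_involution a s ha2,
        conj_ne_one a s ha3⟩) (by
      intro h2
      have := hodd.not_two_dvd_nat
      exact this h2)
  simp only [Cf, Finset.mem_filter, Finset.mem_univ, true_and] at hu
  exact ⟨u, hu.1, hu.2.1, hu.2.2, hSu⟩

/-- `x` of prime order generating a Sylow subgroup fixes only one coset of the normalizer. -/
theorem act_fixed_unique {p : ℕ} [Fact p.Prime] (P : Sylow p G) (hP : Nat.card (P : Subgroup G) = p)
    (x : G) (hxP : x ∈ (P : Subgroup G)) (hx : orderOf x = p) :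
    ∀ c d : G ⧸ normalizer ((P : Subgroup G) : Set G),
      act (normalizer ((P : Subgroup G) : Set G)) x c = c →
      act (normalizer ((P : Subgroup G) : Set G)) x d = d → c = d := by
  have h1 : ∀ c : G ⧸ normalizer ((P : Subgroup G) : Set G),
      act (normalizer ((P : Subgroup G) : Set G)) x c = c →
      c = ((1 : G) : G ⧸ normalizer ((P : Subgroup G) : Set G)) := by
    intro c
    induction c using QuotientGroup.induction_on with
    | H g =>
      intro hc
      have h2 : (x • ((g : G) : G ⧸ normalizer ((P : Subgroup G) : Set G))) =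
          ((g : G) : G ⧸ normalizer ((P : Subgroup G) : Set G)) := hc
      rw [MulAction.Quotient.smul_mk] at h2
      have h3 := QuotientGroup.eq.mp h2.symm
      have h4 : g⁻¹ * x * g ∈ normalizer ((P : Subgroup G) : Set G) := by
        simpa [mul_assoc] using h3
      have h5 := mem_normalizer_of_conj_mem P hP x hxP hx g h4
      rw [QuotientGroup.eq, mul_one]
      exact inv_mem h5
  intro c d hc hd
  rw [h1 c hc, h1 d hd]

/-- `N_G(P₅)` of order `90`. -/
theorem three_part [IsSimpleGroup G] (h : Nat.card G = 5040) (P₇ : Sylow 7 G)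
    (hP₇ : Nat.card (P₇ : Subgroup G) = 7) (x : G) (hxP : x ∈ (P₇ : Subgroup G)) (hx : orderOf x = 7)
    (hCx : Nat.card (centralizer ({x} : Set G)) = 7 ∨ Nat.card (centralizer ({x} : Set G)) = 21)
    (P : Sylow 5 G) (hP : Nat.card (P : Subgroup G) = 5) (v : G) (hvP : v ∈ (P : Subgroup G))
    (hv : orderOf v = 5) (hNc : Nat.card (normalizer ((P : Subgroup G) : Set G)) = 90)
    (hCc : Nat.card (centralizer ({v} : Set G)) = 45) : False := by
  classical
  haveI : Fintype G := Fintype.ofFinite G
  haveI : Fact (Nat.Prime 3) := ⟨by norm_num⟩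
  haveI : Fact (Nat.Prime 5) := ⟨by norm_num⟩
  haveI : Fact (Nat.Prime 7) := ⟨by norm_num⟩
  set N₅ := normalizer ((P : Subgroup G) : Set G) with hN₅
  set C₅ := centralizer ({v} : Set G) with hC₅
  have hC₅N₅ : C₅ ≤ N₅ := centralizer_le_normalizer' P hP v hvP hv
  have hvN₅ : v ∈ N₅ := (Subgroup.le_normalizer (H := (P : Subgroup G))) hvP
  -- a Sylow `3`-subgroup centralizing `v`
  obtain ⟨R⟩ : Nonempty (Sylow 3 ↥C₅) := inferInstance
  have hRc : Nat.card (R : Subgroup ↥C₅) = 3 ^ 2 :=
    card_sylow_eq (p := 3) (a := 2) (m := 5) (by rw [hCc]; norm_num) (by norm_num) R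
  have hQ'c : Nat.card ((R : Subgroup ↥C₅).map C₅.subtype) = 9 := by
    rw [Subgroup.card_map_of_injective C₅.subtype_injective, hRc]
    norm_num
  have hQ'p : IsPGroup 3 ((R : Subgroup ↥C₅).map C₅.subtype) :=
    IsPGroup.of_card (n := 2) (by rw [hQ'c]; norm_num)
  obtain ⟨Q, hQ⟩ := hQ'p.exists_le_sylow
  have hQc : Nat.card (Q : Subgroup G) = 9 := by
    have := card_sylow_eq (p := 3) (a := 2) (m := 560) (by rw [h]; norm_num) (by norm_num) Q
    rw [this]
    norm_num
  have hQeq : (R : Subgroup ↥C₅).map C₅.subtype = (Q : Subgroup G) :=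
    Subgroup.eq_of_le_of_card_ge hQ (by rw [hQc, hQ'c])
  have hQC : (Q : Subgroup G) ≤ C₅ := by
    rw [← hQeq]
    exact Subgroup.map_subtype_le _
  set N₃ := normalizer ((Q : Subgroup G) : Set G) with hN₃
  have hQN₃ : (Q : Subgroup G) ≤ N₃ := Subgroup.le_normalizer
  have hvcent : v ∈ centralizer ((Q : Subgroup G) : Set G) := by
    rw [Subgroup.mem_centralizer_iff]
    intro y hy
    have := hQC hy
    rw [hC₅, Subgroup.mem_centralizer_singleton_iff] at this
    exact this
  have hvN₃ : v ∈ N₃ := Subgroup.centralizer_le_normalizer _ hvcent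
  have hdvd45 : ∀ X : Subgroup G, (Q : Subgroup G) ≤ X → v ∈ X → 45 ∣ Nat.card X := by
    intro X hQX hvX
    have h9 : 9 ∣ Nat.card X := by
      rw [← hQc]
      exact Subgroup.card_dvd_of_le hQX
    have h5 : 5 ∣ Nat.card X := by
      have := orderOf_dvd_natCard (⟨v, hvX⟩ : ↥X)
      rwa [Subgroup.orderOf_mk, hv] at this
    exact Nat.Coprime.mul_dvd_of_dvd_of_dvd (by norm_num : Nat.Coprime 9 5) h9 h5
  have hcard : Nat.card N₃ * Nat.card (Sylow 3 G) = 5040 := by
    rw [← h]
    exact card_normalizer_mul Q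
  have hidx : N₃.index = Nat.card (Sylow 3 G) := (Sylow.card_eq_index_normalizer Q).symm
  have hNne : N₃ ≠ ⊤ := normalizer_ne_top Q (by rw [hQc]; norm_num) (by rw [hQc, h]; norm_num)
  have hidx8 := index_ge h N₃ hNne
  rw [hidx] at hidx8
  have hm : Nat.card (Sylow 3 G) % 3 = 1 := card_sylow_modEq_one 3 G
  obtain ⟨j, hj⟩ := hdvd45 N₃ hQN₃ hvN₃
  have hjn : j * Nat.card (Sylow 3 G) = 112 := by
    rw [hj] at hcard
    nlinarith
  have hd : Nat.card (Sylow 3 G) ∣ 112 := ⟨j, by rw [← hjn, mul_comm]⟩
  have key : ∀ d ∈ (112 : ℕ).divisors, d % 3 = 1 → 8 ≤ d → d = 16 ∨ d = 28 ∨ d = 112 := by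
    decide +kernel
  rcases key _ (Nat.mem_divisors.2 ⟨hd, by norm_num⟩) hm hidx8 with hn | hn | hn
  · -- `n₃ = 16`: an element of order `7` centralizes `Q`
    rw [hn] at hcard
    have hNc₃ : Nat.card N₃ = 315 := by omega
    obtain ⟨y, hy⟩ := exists_prime_orderOf_dvd_card' (G := N₃) 7 (by rw [hNc₃]; norm_num)
    have hy' : orderOf (y : G) = 7 := by rwa [Subgroup.orderOf_coe]
    let Qf : Finset G := Finset.univ.filter (· ∈ (Q : Subgroup G))
    have hfix := card_modEq_fixed (p := 7) Qf (fun w => (y : G) * w * (y : G)⁻¹) (by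
        intro a ha
        simp only [Qf, Finset.mem_filter, Finset.mem_univ, true_and] at ha ⊢
        exact (mem_normalizer_iff.1 y.2 a).1 ha) (by norm_num) (by
        intro a _
        rw [iter_conj, ← hy', pow_orderOf_eq_one]
        simp)
    have hQf : Qf.card = 9 := by
      rw [← hQc, Nat.card_eq_fintype_card, Fintype.card_subtype]
    have hinter : (Qf.filter fun a => (y : G) * a * (y : G)⁻¹ = a) =
        Finset.univ.filter (· ∈ ((Q : Subgroup G) ⊓ centralizer ({(y : G)} : Set G) : Subgroup G)) := by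
      ext a
      simp only [Qf, Finset.mem_filter, Finset.mem_univ, true_and, Subgroup.mem_inf,
        Subgroup.mem_centralizer_singleton_iff]
      constructor
      · rintro ⟨h1, h2⟩
        refine ⟨h1, ?_⟩
        calc a * y = y * a * (y : G)⁻¹ * y := by rw [h2]
          _ = y * a := by group
      · rintro ⟨h1, h2⟩
        refine ⟨h1, ?_⟩
        rw [← h2]
        group
    have hcardI : (Qf.filter fun a => (y : G) * a * (y : G)⁻¹ = a).card =
        Nat.card ((Q : Subgroup G) ⊓ centralizer ({(y : G)} : Set G) : Subgroup G) := by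
      rw [hinter, Nat.card_eq_fintype_card, Fintype.card_subtype]
    rw [hQf, hcardI] at hfix
    have hdI : Nat.card ((Q : Subgroup G) ⊓ centralizer ({(y : G)} : Set G) : Subgroup G) ∣ 9 := by
      rw [← hQc]
      exact Subgroup.card_dvd_of_le inf_le_left
    have key2 : ∀ d ∈ (9 : ℕ).divisors, 2 = d % 7 → d = 9 := by decide +kernel
    have hI9 := key2 _ (Nat.mem_divisors.2 ⟨hdI, by norm_num⟩) (by omega)
    have hle : (Q : Subgroup G) ≤ centralizer ({(y : G)} : Set G) := by
      have : (Q : Subgroup G) ⊓ centralizer ({(y : G)} : Set G) = (Q : Subgroup G) :=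
        Subgroup.eq_of_le_of_card_ge inf_le_left (by rw [hI9, hQc])
      exact inf_eq_left.1 this
    have h9 := Subgroup.card_dvd_of_le hle
    rw [hQc, card_centralizer_eq_of_orderOf P₇ hP₇ x hxP hx _ hy'] at h9
    rcases hCx with h1 | h1 <;> rw [h1] at h9 <;> omega
  · -- `n₃ = 28`
    rw [hn] at hcard
    have hNc₃ : Nat.card N₃ = 180 := by omega
    have hzv : zpowers v = (P : Subgroup G) := by
      apply Subgroup.eq_of_le_of_card_ge
      · exact (Subgroup.zpowers_le).2 hvP
      · rw [Nat.card_zpowers, hv, hP]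
    have hPN₃ : (P : Subgroup G) ≤ N₃ := by
      rw [← hzv]
      exact (Subgroup.zpowers_le).2 hvN₃
    obtain ⟨k, hk, hk5⟩ := exists_card_eq_inf_mul P N₃ hPN₃
    rw [hNc₃] at hk
    obtain ⟨i, hi⟩ := hdvd45 (N₃ ⊓ N₅) (le_inf hQN₃ (hQC.trans hC₅N₅)) ⟨hvN₃, hvN₅⟩
    rw [hi] at hk
    have hik : i * k = 4 := by nlinarith
    have hkd : k ∣ 4 := ⟨i, by rw [← hik, mul_comm]⟩
    have key3 : ∀ d ∈ (4 : ℕ).divisors, d % 5 = 1 → d = 1 := by decide +kernel
    have hk1 := key3 k (Nat.mem_divisors.2 ⟨hkd, by norm_num⟩) hk5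
    have hi4 : i = 4 := by
      rw [hk1] at hik
      omega
    have hle : N₃ ⊓ N₅ = N₃ := Subgroup.eq_of_le_of_card_ge inf_le_left (by rw [hi, hi4, hNc₃])
    have hle' : N₃ ≤ N₅ := inf_eq_left.1 hle
    have := Subgroup.card_le_of_le hle'
    omega
  · -- `n₃ = 112`: Burnside
    rw [hn] at hcard
    have hNc₃ : Nat.card N₃ = 45 := by omega
    have hcomm := IsPGroup.commutative_of_card_eq_prime_sq (p := 3) (G := (Q : Subgroup G))
      (by rw [hQc]; norm_num)
    have hQcent : (Q : Subgroup G) ≤ centralizer ((Q : Subgroup G) : Set G) := by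
      intro a ha
      rw [Subgroup.mem_centralizer_iff]
      intro b hb
      exact congrArg Subtype.val (hcomm ⟨b, hb⟩ ⟨a, ha⟩)
    obtain ⟨i, hi⟩ := hdvd45 (N₃ ⊓ centralizer ((Q : Subgroup G) : Set G))
      (le_inf hQN₃ hQcent) ⟨hvN₃, hvcent⟩
    have hd45 : Nat.card (N₃ ⊓ centralizer ((Q : Subgroup G) : Set G) : Subgroup G) ∣ 45 := by
      rw [← hNc₃]
      exact Subgroup.card_dvd_of_le inf_le_left
    have hle : N₃ ⊓ centralizer ((Q : Subgroup G) : Set G) = N₃ := by
      apply Subgroup.eq_of_le_of_card_ge inf_le_left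
      rw [hNc₃, hi]
      have hi0 : i ≠ 0 := by
        rintro rfl
        rw [mul_zero] at hi
        have : 0 < Nat.card (N₃ ⊓ centralizer ((Q : Subgroup G) : Set G) : Subgroup G) := Nat.card_pos
        omega
      have : 1 ≤ i := Nat.one_le_iff_ne_zero.2 hi0
      nlinarith
    have h9 := card_eq_of_le_centralizer (p := 3) (by rw [h]; norm_num) Q (inf_eq_left.1 hle)
    omega

/-- The `5`-local analysis when `C(x)` has order `7` or `21`. -/
theorem five_part [IsSimpleGroup G] (h : Nat.card G = 5040) (P₇ : Sylow 7 G)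
    (hP₇ : Nat.card (P₇ : Subgroup G) = 7) (x : G) (hxP : x ∈ (P₇ : Subgroup G)) (hx : orderOf x = 7)
    (hCx : Nat.card (centralizer ({x} : Set G)) = 7 ∨ Nat.card (centralizer ({x} : Set G)) = 21) :
    False := by
  classical
  haveI h5 : Fact (Nat.Prime 5) := ⟨by norm_num⟩
  haveI h7 : Fact (Nat.Prime 7) := ⟨by norm_num⟩
  obtain ⟨P⟩ : Nonempty (Sylow 5 G) := inferInstance
  have hP : Nat.card (P : Subgroup G) = 5 := by
    have := card_sylow_eq (p := 5) (a := 1) (m := 1008) (by rw [h]; norm_num) (by norm_num) P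
    simpa using this
  obtain ⟨v, hvP, hv⟩ := exists_generator P hP
  set N := normalizer ((P : Subgroup G) : Set G) with hN
  have hzv : zpowers v = (P : Subgroup G) := by
    apply Subgroup.eq_of_le_of_card_ge
    · exact (Subgroup.zpowers_le).2 hvP
    · rw [Nat.card_zpowers, hv, hP]
  have hCeq : centralizer ((P : Subgroup G) : Set G) = centralizer ({v} : Set G) := by
    apply le_antisymm
    · exact Subgroup.centralizer_le (Set.singleton_subset_iff.2 hvP)
    · intro c hc
      rw [Subgroup.mem_centralizer_singleton_iff] at hc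
      rw [Subgroup.mem_centralizer_iff]
      intro y hy
      rw [SetLike.mem_coe, ← hzv, Subgroup.mem_zpowers_iff] at hy
      obtain ⟨k, rfl⟩ := hy
      exact (Commute.zpow_right (show Commute c v from hc) k).eq.symm
  set C := centralizer ({v} : Set G) with hC
  have hNne : N ≠ ⊤ := normalizer_ne_top P (by rw [hP]; norm_num) (by rw [hP, h]; norm_num)
  have hcard : Nat.card N * Nat.card (Sylow 5 G) = 5040 := by
    rw [← h]
    exact card_normalizer_mul P
  have hidxN : N.index = Nat.card (Sylow 5 G) := (Sylow.card_eq_index_normalizer P).symm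
  obtain ⟨e, he, hNC'⟩ := exists_card_normalizer_eq (p := 5) (by norm_num) (P : Subgroup G) hP
  rw [hCeq] at hNC'
  have hNC : Nat.card N = Nat.card C * e := hNC'
  have he4 : e ∣ 4 := he
  have hd : Nat.card (Sylow 5 G) ∣ 1008 := by
    have h1 : (P : Subgroup G).index = 1008 := by
      have := Subgroup.card_mul_index (P : Subgroup G)
      rw [hP, h] at this
      omega
    exact h1 ▸ P.card_dvd_index
  have hm : Nat.card (Sylow 5 G) % 5 = 1 := card_sylow_modEq_one 5 G
  have hidx8 := index_ge h N hNne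
  rw [hidxN] at hidx8
  have hn5 : Nat.card (Sylow 5 G) = 16 ∨ Nat.card (Sylow 5 G) = 21 ∨ Nat.card (Sylow 5 G) = 36 ∨
      Nat.card (Sylow 5 G) = 56 ∨ Nat.card (Sylow 5 G) = 126 ∨ Nat.card (Sylow 5 G) = 336 := by
    have key : ∀ d ∈ (1008 : ℕ).divisors, d % 5 = 1 → 8 ≤ d →
        d = 16 ∨ d = 21 ∨ d = 36 ∨ d = 56 ∨ d = 126 ∨ d = 336 := by
      decide +kernel
    exact key _ (Nat.mem_divisors.2 ⟨hd, by norm_num⟩) hm hidx8
  have he' : e = 1 ∨ e = 2 ∨ e = 4 := by
    have key : ∀ d ∈ (4 : ℕ).divisors, d = 1 ∨ d = 2 ∨ d = 4 := by decide +kernel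
    exact key _ (Nat.mem_divisors.2 ⟨he4, by norm_num⟩)
  have hburn : e ≠ 1 := by
    rintro rfl
    have hle : N ≤ centralizer ((P : Subgroup G) : Set G) := by
      rw [hCeq]
      symm at hNC
      rw [mul_one] at hNC
      have hCN : C ≤ N := by
        rw [← hCeq]
        exact Subgroup.centralizer_le_normalizer _
      exact (Subgroup.eq_of_le_of_card_ge hCN (by rw [hNC])).symm.le
    have h9 := card_eq_of_le_centralizer (p := 5) (by rw [h]; norm_num) P hle
    omega
  rcases hn5 with hn | hn | hn | hn | hn | hn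
  · rw [hn] at hcard
    have hNc : Nat.card N = 315 := by omega
    rw [hNc] at hNC
    rcases he' with rfl | rfl | rfl
    · exact hburn rfl
    · omega
    · omega
  · exact Cfsg.Agent.S1010.result hn
  · rw [hn] at hcard
    have hNc : Nat.card N = 140 := by omega
    rw [hNc] at hNC
    have h7C : 7 ∣ Nat.card C := by
      rcases he' with rfl | rfl | rfl
      · exact absurd rfl hburn
      · have : Nat.card C = 70 := by omega
        rw [this]; norm_num
      · have : Nat.card C = 35 := by omega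
        rw [this]; norm_num
    obtain ⟨y, hy⟩ := exists_prime_orderOf_dvd_card' (G := C) 7 h7C
    have hy' : orderOf (y : G) = 7 := by rwa [Subgroup.orderOf_coe]
    have hvy : v ∈ centralizer ({(y : G)} : Set G) := by
      have : (y : G) * v = v * y := Subgroup.mem_centralizer_singleton_iff.1 y.2
      rw [Subgroup.mem_centralizer_singleton_iff]
      exact this.symm
    have h5C := orderOf_dvd_natCard (⟨v, hvy⟩ : ↥(centralizer ({(y : G)} : Set G)))
    rw [Subgroup.orderOf_mk, hv, card_centralizer_eq_of_orderOf P₇ hP₇ x hxP hx _ hy'] at h5C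
    rcases hCx with h1 | h1 <;> rw [h1] at h5C <;> omega
  · rw [hn] at hcard
    have hNc : Nat.card N = 90 := by omega
    rw [hNc] at hNC
    have hCc : Nat.card C = 45 := by
      rcases he' with rfl | rfl | rfl
      · exact absurd rfl hburn
      · omega
      · omega
    exact three_part h P₇ hP₇ x hxP hx hCx P hP v hvP hv hNc hCc
  · rw [hn] at hcard
    have hNc : Nat.card N = 40 := by omega
    rw [hNc] at hNC
    refine main_126 h P hP v hvP hv hNc ?_
    show Nat.card C = 10 ∨ Nat.card C = 20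
    rcases he' with rfl | rfl | rfl
    · exact absurd rfl hburn
    · right; omega
    · left; omega
  · rw [hn] at hcard
    have hNc : Nat.card N = 15 := by omega
    rw [hNc] at hNC
    rcases he' with rfl | rfl | rfl
    · exact hburn rfl
    · omega
    · omega

/-- `n₇ = 36`. -/
theorem seven_36 [IsSimpleGroup G] (h : Nat.card G = 5040) (P : Sylow 7 G)
    (hP : Nat.card (P : Subgroup G) = 7) (x : G) (hxP : x ∈ (P : Subgroup G)) (hx : orderOf x = 7)
    (hNc : Nat.card (normalizer ((P : Subgroup G) : Set G)) = 140)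
    (hCc : Nat.card (centralizer ({x} : Set G)) = 70) : False := by
  classical
  haveI : Fact (Nat.Prime 2) := ⟨Nat.prime_two⟩
  haveI : Fact (Nat.Prime 7) := ⟨by norm_num⟩
  set N := normalizer ((P : Subgroup G) : Set G) with hN
  obtain ⟨S', hS'⟩ := Sylow.exists_subgroup_card_pow_prime (G := N) 2 (n := 2) (by rw [hNc]; norm_num)
  have hTc : Nat.card (S'.map N.subtype) = 4 := by
    rw [Subgroup.card_map_of_injective N.subtype_injective, hS']
    norm_num
  obtain ⟨u, huC, hu2, hu1, hTu⟩ := exists_involution_comm P hP x hxP hx (by rw [hCc]; norm_num)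
    (S'.map N.subtype) (Subgroup.map_subtype_le S') (IsPGroup.of_card (n := 2) (by rw [hTc]; norm_num))
  set M := centralizer ({u} : Set G) with hM
  have hxM : x ∈ M := by
    rw [hM, Subgroup.mem_centralizer_singleton_iff]
    rw [Subgroup.mem_centralizer_singleton_iff] at huC
    exact huC.symm
  have hzx : zpowers x = (P : Subgroup G) := by
    apply Subgroup.eq_of_le_of_card_ge
    · exact (Subgroup.zpowers_le).2 hxP
    · rw [Nat.card_zpowers, hx, hP]
  have hPM : (P : Subgroup G) ≤ M := by
    rw [← hzx]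
    exact (Subgroup.zpowers_le).2 hxM
  obtain ⟨k, hk, hk7⟩ := exists_card_eq_inf_mul P M hPM
  have hxN : x ∈ N := (Subgroup.le_normalizer (H := (P : Subgroup G))) hxP
  have h4 : 4 ∣ Nat.card (M ⊓ N : Subgroup G) := by
    rw [← hTc]
    apply Subgroup.card_dvd_of_le
    intro t ht
    have htM : t ∈ M := by
      rw [hM, Subgroup.mem_centralizer_singleton_iff]
      exact hTu t ht
    exact ⟨htM, Subgroup.map_subtype_le S' ht⟩
  have h7 : 7 ∣ Nat.card (M ⊓ N : Subgroup G) := by
    have hxMN : x ∈ M ⊓ N := ⟨hxM, hxN⟩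
    have := orderOf_dvd_natCard (⟨x, hxMN⟩ : ↥(M ⊓ N))
    rwa [Subgroup.orderOf_mk, hx] at this
  have h28 : 28 ∣ Nat.card (M ⊓ N : Subgroup G) :=
    Nat.Coprime.mul_dvd_of_dvd_of_dvd (by norm_num : Nat.Coprime 4 7) h4 h7
  have h140 : Nat.card (M ⊓ N : Subgroup G) ∣ 140 := by
    rw [← hNc]
    exact Subgroup.card_dvd_of_le inf_le_right
  have key : ∀ d ∈ (140 : ℕ).divisors, 28 ∣ d → d = 28 ∨ d = 140 := by decide +kernel
  have h8 : 8 ∣ Nat.card M := eight_dvd_card_centralizer (m := 315) (by rw [h]) (by decide)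
    (by omega) u hu2
  have hidx := index_ge h M (centralizer_ne_top (not_prime_card h) u hu1)
  have hmul := Subgroup.card_mul_index M
  rw [h] at hmul
  rw [hk] at hmul h8
  rcases key _ (Nat.mem_divisors.2 ⟨h140, by norm_num⟩) h28 with h1 | h1 <;> rw [h1] at hmul h8
  · have hmul' : k * M.index = 180 := by nlinarith
    have hkd : k ∣ 180 := ⟨_, hmul'.symm⟩
    have hk2 : 2 ∣ k := by omega
    have hkl : k ≤ 22 := by
      by_contra hcon
      have : 23 * 8 ≤ k * M.index := Nat.mul_le_mul (by omega) hidx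
      omega
    have key2 : ∀ d ∈ (180 : ℕ).divisors, 2 ∣ d → d % 7 = 1 → d ≤ 22 → False := by decide +kernel
    exact key2 k (Nat.mem_divisors.2 ⟨hkd, by norm_num⟩) hk2 hk7 hkl
  · have hmul' : k * M.index = 36 := by nlinarith
    have hkl : k ≤ 4 := by
      by_contra hcon
      have : 5 * 8 ≤ k * M.index := Nat.mul_le_mul (by omega) hidx
      omega
    have hk1 : k = 1 := by omega
    rw [hk1] at h8
    omega

/-- `n₇ = 120` and `|C(x)| = 14`. -/
theorem seven_14 [IsSimpleGroup G] (h : Nat.card G = 5040) (P : Sylow 7 G)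
    (hP : Nat.card (P : Subgroup G) = 7) (x : G) (hxP : x ∈ (P : Subgroup G)) (hx : orderOf x = 7)
    (hNc : Nat.card (normalizer ((P : Subgroup G) : Set G)) = 42)
    (hCc : Nat.card (centralizer ({x} : Set G)) = 14) : False := by
  classical
  haveI : Fintype G := Fintype.ofFinite G
  haveI : Fact (Nat.Prime 2) := ⟨Nat.prime_two⟩
  haveI : Fact (Nat.Prime 7) := ⟨by norm_num⟩
  set N := normalizer ((P : Subgroup G) : Set G) with hN
  set C := centralizer ({x} : Set G) with hC
  -- the involutions of `C`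
  let Cf : Finset G := Finset.univ.filter (· ∈ C)
  have hCf : Cf.card = Nat.card C := by
    rw [Nat.card_eq_fintype_card, Fintype.card_subtype]
  have hodd := odd_card_involutions Cf (fun c hc => by
      simp only [Cf, Finset.mem_filter, Finset.mem_univ, true_and] at hc ⊢
      exact inv_mem hc)
    (by simp [Cf, C.one_mem]) (by rw [hCf, hCc]; decide)
  have hbound := card_mul_le_of_involutions (p := 7) (by decide) x hx
    (Cf.filter fun c => c * c = 1 ∧ c ≠ 1) (by
      intro w hw
      simp only [Cf, Finset.mem_filter, Finset.mem_univ, true_and] at hw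
      refine ⟨hw.2.1, ?_⟩
      have := hw.1
      rwa [hC, Subgroup.mem_centralizer_singleton_iff] at this)
  have hone : (Cf.filter fun c => c * c = 1 ∧ c ≠ 1).card = 1 := by
    rw [← hC, hCc] at hbound
    obtain ⟨k, hk⟩ := hodd
    omega
  obtain ⟨u, hu⟩ := Finset.card_eq_one.1 hone
  have huniq : ∀ w ∈ C, w * w = 1 → w ≠ 1 → w = u := by
    intro w hw hw2 hw1
    have : w ∈ Cf.filter fun c => c * c = 1 ∧ c ≠ 1 := by
      simp only [Cf, Finset.mem_filter, Finset.mem_univ, true_and]
      exact ⟨hw, hw2, hw1⟩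
    rw [hu, Finset.mem_singleton] at this
    exact this
  have hu' : u ∈ Cf.filter fun c => c * c = 1 ∧ c ≠ 1 := by
    rw [hu, Finset.mem_singleton]
  simp only [Cf, Finset.mem_filter, Finset.mem_univ, true_and] at hu'
  obtain ⟨huC, hu2, hu1⟩ := hu'
  have hNM : N ≤ centralizer ({u} : Set G) := by
    intro g hg
    rw [Subgroup.mem_centralizer_singleton_iff]
    have h1 := huniq _ (conj_mem_centralizer' P hP x hxP hx g u hg huC) (conj_involution u g hu2)
      (conj_ne_one u g hu1)
    calc g * u = g * u * g⁻¹ * g := by group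
      _ = u * g := by rw [h1]
  obtain ⟨k, hk, hk7⟩ := exists_card_eq_normalizer_mul P _ hNM
  have h8 : 8 ∣ Nat.card (centralizer ({u} : Set G)) :=
    eight_dvd_card_centralizer (m := 315) (by rw [h]) (by decide) (by omega) u hu2
  have hidx := index_ge h _ (centralizer_ne_top (not_prime_card h) u hu1)
  have hmul := Subgroup.card_mul_index (centralizer ({u} : Set G))
  rw [hk, hNc, h] at hmul
  rw [hk, hNc] at h8
  have hmul' : k * (centralizer ({u} : Set G)).index = 120 := by nlinarith
  have hkl : k ≤ 15 := by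
    by_contra hcon
    have : 16 * 8 ≤ k * (centralizer ({u} : Set G)).index := Nat.mul_le_mul (by omega) hidx
    omega
  have hk8 : k = 8 := by omega
  have hcls : (cls u).card = 15 := by
    have := card_cls_mul u
    rw [hk, hNc, hk8, h] at this
    omega
  have hxu : x * u = u * x := by
    have := huC
    rw [hC, Subgroup.mem_centralizer_singleton_iff] at this
    exact this.symm
  obtain ⟨h4, h5, hlt⟩ := Kset_congr (by omega) x u (by norm_num) hx hu2 hu1 hxu
    (centralizer_ne_top (not_prime_card h) u hu1) (by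
      intro w hw hw'
      refine huniq w ?_ (involution_of_isConj hw' hu2) ?_
      · rw [hC, Subgroup.mem_centralizer_singleton_iff]
        exact hw
      · rintro rfl
        apply hu1
        have := hw'.symm
        rwa [isConj_one_right] at this)
  rw [hcls] at h4 hlt
  omega

end Others

/-- No finite simple group has order 5040 = 2^4 * 3^2 * 5 * 7. -/
theorem result {G : Type*} [Group G] [Finite G] [IsSimpleGroup G] : Nat.card G ≠ 5040 := by
  classical
  intro h
  haveI h7 : Fact (Nat.Prime 7) := ⟨by norm_num⟩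
  obtain ⟨P⟩ : Nonempty (Sylow 7 G) := inferInstance
  have hP : Nat.card (P : Subgroup G) = 7 := by
    have := card_sylow_eq (p := 7) (a := 1) (m := 720) (by rw [h]; norm_num) (by norm_num) P
    simpa using this
  obtain ⟨x, hxP, hx⟩ := exists_generator P hP
  set N := normalizer ((P : Subgroup G) : Set G) with hN
  have hzx : zpowers x = (P : Subgroup G) := by
    apply Subgroup.eq_of_le_of_card_ge
    · exact (Subgroup.zpowers_le).2 hxP
    · rw [Nat.card_zpowers, hx, hP]
  have hCeq : centralizer ((P : Subgroup G) : Set G) = centralizer ({x} : Set G) := by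
    apply le_antisymm
    · exact Subgroup.centralizer_le (Set.singleton_subset_iff.2 hxP)
    · intro c hc
      rw [Subgroup.mem_centralizer_singleton_iff] at hc
      rw [Subgroup.mem_centralizer_iff]
      intro y hy
      rw [SetLike.mem_coe, ← hzx, Subgroup.mem_zpowers_iff] at hy
      obtain ⟨k, rfl⟩ := hy
      exact (Commute.zpow_right (show Commute c x from hc) k).eq.symm
  set C := centralizer ({x} : Set G) with hC
  have hNne : N ≠ ⊤ := normalizer_ne_top P (by rw [hP]; norm_num) (by rw [hP, h]; norm_num)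
  have hcard : Nat.card N * Nat.card (Sylow 7 G) = 5040 := by
    rw [← h]
    exact card_normalizer_mul P
  have hidxN : N.index = Nat.card (Sylow 7 G) := (Sylow.card_eq_index_normalizer P).symm
  obtain ⟨e, he, hNC'⟩ := exists_card_normalizer_eq (p := 7) (by norm_num) (P : Subgroup G) hP
  rw [hCeq] at hNC'
  have hNC : Nat.card N = Nat.card C * e := hNC'
  have he6 : e ∣ 6 := he
  have hd : Nat.card (Sylow 7 G) ∣ 720 := by
    have h1 : (P : Subgroup G).index = 720 := by
      have := Subgroup.card_mul_index (P : Subgroup G)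
      rw [hP, h] at this
      omega
    exact h1 ▸ P.card_dvd_index
  have hm : Nat.card (Sylow 7 G) % 7 = 1 := card_sylow_modEq_one 7 G
  have hidx8 := index_ge h N hNne
  rw [hidxN] at hidx8
  have hn7 : Nat.card (Sylow 7 G) = 8 ∨ Nat.card (Sylow 7 G) = 15 ∨ Nat.card (Sylow 7 G) = 36 ∨
      Nat.card (Sylow 7 G) = 120 := by
    have key : ∀ d ∈ (720 : ℕ).divisors, d % 7 = 1 → 8 ≤ d → d = 8 ∨ d = 15 ∨ d = 36 ∨ d = 120 := by
      decide +kernel
    exact key _ (Nat.mem_divisors.2 ⟨hd, by norm_num⟩) hm hidx8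
  have he' : e = 1 ∨ e = 2 ∨ e = 3 ∨ e = 6 := by
    have key : ∀ d ∈ (6 : ℕ).divisors, d = 1 ∨ d = 2 ∨ d = 3 ∨ d = 6 := by decide +kernel
    exact key _ (Nat.mem_divisors.2 ⟨he6, by norm_num⟩)
  have hburn : e ≠ 1 := by
    rintro rfl
    have hle : N ≤ centralizer ((P : Subgroup G) : Set G) := by
      rw [hCeq]
      symm at hNC
      rw [mul_one] at hNC
      have hCN : C ≤ N := by
        rw [← hCeq]
        exact Subgroup.centralizer_le_normalizer _
      exact (Subgroup.eq_of_le_of_card_ge hCN (by rw [hNC])).symm.le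
    have h9 := card_eq_of_le_centralizer (p := 7) (by rw [h]; norm_num) P hle
    omega
  have hCdvd : ∃ b : ℕ, b * 7 ≤ Nat.card (Sylow 7 G) ∧ Nat.card (Sylow 7 G) ≤ b * 7 + 1 ∧
      Nat.card C ∣ (Nat.card (Sylow 7 G) - b * 7).factorial * 7 ^ b * b.factorial := by
    obtain ⟨b, hb1, hb2, hb3⟩ := exists_cycle_data_unique (p := 7) (by norm_num) N hNne x hx
      (act_fixed_unique P hP x hxP hx)
    rw [hidxN] at hb1 hb2 hb3
    exact ⟨b, hb1, hb2, hb3 C le_rfl⟩
  obtain ⟨b, hb1, hb2, hb3⟩ := hCdvd
  rcases hn7 with hn | hn | hn | hn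
  · rw [hn] at hb1 hb2 hb3 hcard
    have hb : b = 1 := by omega
    subst hb
    norm_num [Nat.factorial] at hb3
    have hNc : Nat.card N = 630 := by omega
    rw [hNc] at hNC
    have hle := Nat.le_of_dvd (by norm_num) hb3
    rcases he' with rfl | rfl | rfl | rfl <;> omega
  · rw [hn] at hb1 hb2 hb3 hcard
    have hb : b = 2 := by omega
    subst hb
    norm_num [Nat.factorial] at hb3
    have hNc : Nat.card N = 336 := by omega
    rw [hNc] at hNC
    rcases he' with rfl | rfl | rfl | rfl
    · exact hburn rfl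
    · have : Nat.card C = 168 := by omega
      rw [this] at hb3
      omega
    · have : Nat.card C = 112 := by omega
      rw [this] at hb3
      omega
    · have : Nat.card C = 56 := by omega
      rw [this] at hb3
      omega
  · rw [hn] at hcard
    have hNc : Nat.card N = 140 := by omega
    rw [hNc] at hNC
    refine seven_36 h P hP x hxP hx hNc ?_
    show Nat.card C = 70
    rcases he' with rfl | rfl | rfl | rfl
    · exact absurd rfl hburn
    · omega
    · omega
    · omega
  · rw [hn] at hcard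
    have hNc : Nat.card N = 42 := by omega
    rw [hNc] at hNC
    rcases he' with rfl | rfl | rfl | rfl
    · exact hburn rfl
    · have hCc : Nat.card C = 21 := by omega
      exact five_part h P hP x hxP hx (Or.inr hCc)
    · have hCc : Nat.card C = 14 := by omega
      exact seven_14 h P hP x hxP hx hNc hCc
    · have hCc : Nat.card C = 7 := by omega
      exact five_part h P hP x hxP hx (Or.inl hCc)

end Cfsg.Agent.S0978
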