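import Cfsg.Statements.S0980
import Mathlib
import Cfsg.Agent.Lib.SmallOrd.PN
-- import your own Cfsg.Agent.* helpers here

set_option autoImplicit false
open Cfsg

namespace Cfsg.Agent.S0980

open Cfsg.Agent.Lib.SmallOrd.PN

/-- No finite simple group has order 5760 = 2^7 * 3^2 * 5. -/
theorem result {G : Type*} [Group G] [Finite G] [IsSimpleGroup G] : Nat.card G ≠ 5760 := by
  classical
  intro h
  cases nonempty_fintype G
  haveI h7 : Fact (Nat.Prime 5) := ⟨by norm_num⟩
  obtain ⟨hperf, P, x, M, e, hP, hx, hx1, hM, he, hed, he0, he1, hNC, hNS, hSm, hCx, hPC⟩ :=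
    setup (p := 5) (m := 1152) (G := G) (by norm_num) (by rw [h]) (by norm_num) (by norm_num)
  obtain ⟨D⟩ := exists_data hM (by norm_num) P hP e he
  have h2 : ¬ 2 ∣ Nat.card (Subgroup.centralizer ((P : Subgroup G) : Set G)) := by
    intro h2
    obtain ⟨z, hz⟩ := exists_prime_orderOf_dvd_card' 2 h2
    have hz' : orderOf (z : G) = 2 := by rw [Subgroup.orderOf_coe, hz]
    refine D.false_of_parity hM (by norm_num) hperf hP hx hx1 z.2 hz' (m := 1152) (by rw [h]) hed he0 ?_
    intro d hd h14 _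
    have key : ∀ d ∈ (1152 : ℕ).divisors, 10 ≤ d → Even d := by decide +kernel
    exact key d (Nat.mem_divisors.2 ⟨hd, by norm_num⟩) (by omega)
  have h3 : ¬ 3 ∣ Nat.card (Subgroup.centralizer ((P : Subgroup G) : Set G)) := by
    intro h3
    obtain ⟨y, hy⟩ := exists_prime_orderOf_dvd_card' 3 h3
    have hy' : orderOf (y : G) = 3 := by rw [Subgroup.orderOf_coe, hy]
    exact false_of_three (p := 5) (a := 7) (by norm_num) (by norm_num) (by norm_num) (by rw [h]; norm_num) (P : Subgroup G) hP hy' y.2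
  -- the centralizer is `P`
  have hd7 : 5 ∣ Nat.card (Subgroup.centralizer ((P : Subgroup G) : Set G)) := by
    have := Subgroup.card_dvd_of_le hPC
    rwa [show Nat.card (P : Subgroup G) = 5 from hP] at this
  obtain ⟨w, hw⟩ := hd7
  have hGc : w * e * Nat.card (Sylow 5 G) = 1152 := by
    rw [hNC, hw, h] at hNS
    nlinarith
  have hw1 : w = 1 := by
    have key : ∀ w ∈ (1152 : ℕ).divisors, ¬ 2 ∣ w → ¬ 3 ∣ w → w = 1 := by decide +kernel
    refine key w (Nat.mem_divisors.2 ⟨⟨e * Nat.card (Sylow 5 G), by rw [← hGc]; ring⟩, by norm_num⟩) ?_ ?_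
    · intro h5
      exact h2 (by rw [hw]; exact Dvd.dvd.mul_left h5 _)
    · intro h5
      exact h3 (by rw [hw]; exact Dvd.dvd.mul_left h5 _)
  subst hw1
  have he2 : e = 2 := by
    have hle : e ≤ 4 := Nat.le_of_dvd (by norm_num) hed
    have hed' : e ∣ 4 := hed
    interval_cases e
    · omega
    · omega
    · rfl
    · exact absurd hed' (by norm_num)
    · exfalso
      have : Nat.card (Sylow 5 G) = 288 := by omega
      omega
  subst he2
  have hC : ∀ y : G, Commute y x → y ∈ (P : Subgroup G) := by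
    intro y hy
    have h5 := (hCx y).2 hy
    have h6 : (P : Subgroup G) = Subgroup.centralizer ((P : Subgroup G) : Set G) := by
      apply Subgroup.eq_of_le_of_card_ge hPC
      rw [hw, show Nat.card (P : Subgroup G) = 5 from hP]
    rw [h6]
    exact h5
  obtain ⟨u, hu, hcu⟩ := exists_central_involution (G := G) (a := 7) (m' := 45) (by rw [h]; norm_num) (by norm_num) (by norm_num)
  obtain ⟨d, D', ε₁, ε, a, b, n, hs1, hs, hd1, hd2, hl1, hl2, hc1, hc2, hsum, hab, ha4, halt, hb4, hblt, had, hbd, hcount⟩ :=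
    D.two_count hM (by norm_num) (by norm_num) hperf hP hx hx1 hC (m := 1152) (by rw [h]) (by norm_num) hu
  set c := (Subgroup.centralizer ({u} : Set G)).index with hc
  have hcodd : ¬ 2 ∣ c := fun h5 => absurd (h5.trans hcu) (by norm_num)
  have hcop2 : ∀ t : ℕ, Nat.Coprime (2 ^ t) c := fun t =>
    Nat.Coprime.pow_left t ((Nat.Prime.coprime_iff_not_dvd Nat.prime_two).2 hcodd)
  have hc0 : c % 2 = 1 := by omega
  have hc2' : c ^ 2 % 2 = 1 := by
    rw [Nat.pow_mod, hc0]
  have hm1 := Int.modEq_iff_dvd.1 hc1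
  have hm2 := Int.modEq_iff_dvd.1 hc2
  have hmem1 : d ∈ (1152 : ℕ).divisors := Nat.mem_divisors.2 ⟨hd1, by norm_num⟩
  have hmem2 : D' ∈ (1152 : ℕ).divisors := Nat.mem_divisors.2 ⟨hd2, by norm_num⟩
  push_cast at hm1 hm2
  have h6' : (Nat.card G : ℂ) = 5760 := by rw [h]; norm_num
  rw [h6'] at hcount
  have key1 : ∀ d ∈ (1152 : ℕ).divisors, d % 5 = 1 → 1 < d → (1 + d) ∣ 1152 → False := by decide +kernel
  have key2 : ∀ D ∈ (1152 : ℕ).divisors, D % 5 = 3 → 1 < D → (D + 1) ∣ 1152 → D = 3 ∨ D = 8 := by decide +kernel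
  rcases hs1 with rfl | rfl <;> rcases hs with rfl | rfl
  · have hD' : D' = 1 + d := by omega
    subst hD'
    exact key1 d hmem1 (by omega) hl1 hd2
  · omega
  · omega
  · have hD' : d = D' + 1 := by omega
    subst hD'
    rcases key2 D' hmem2 (by omega) hl2 hd1 with rfl | rfl
    · -- degrees 4 and 3
      have h8a : 4 ∣ a.natAbs := by
        have : 2 ^ 2 ∣ c * a.natAbs := had
        exact (hcop2 2).dvd_of_dvd_mul_left this
      have ha0 : a.natAbs = 0 := Nat.eq_zero_of_dvd_of_lt h8a halt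
      have ha0' : a = 0 := Int.natAbs_eq_zero.1 ha0
      subst ha0'
      have hb1 : b = -1 := by omega
      subst hb1
      norm_num at hcount
      have h5 : (4 * c ^ 2 : ℂ) = (17280 * n : ℂ) := by
        linear_combination 3 * hcount
      have h6 : 4 * c ^ 2 = 17280 * n := by exact_mod_cast h5
      omega
    · -- degrees 9 and 8
      have h8b : 8 ∣ b.natAbs := by
        have : 2 ^ 3 ∣ c * b.natAbs := hbd
        exact (hcop2 3).dvd_of_dvd_mul_left this
      have hb0 : b.natAbs = 0 := Nat.eq_zero_of_dvd_of_lt h8b hblt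
      have hb0' : b = 0 := Int.natAbs_eq_zero.1 hb0
      subst hb0'
      have ha1 : a = 1 := by omega
      subst ha1
      norm_num at hcount
      have h5 : (8 * c ^ 2 : ℂ) = (51840 * n : ℂ) := by
        linear_combination 9 * hcount
      have h6 : 8 * c ^ 2 = 51840 * n := by exact_mod_cast h5
      omega

end Cfsg.Agent.S0980
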