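import Cfsg.Statements.S0981
import Mathlib
import Cfsg.Agent.S0999
import Cfsg.Agent.Lib.PSL2.Basic
import Cfsg.Agent.Lib.Compute.SmallField

set_option autoImplicit false
open Cfsg

namespace Cfsg.Agent.S0981

/-- A simple group of order 4080 is isomorphic to the projective special linear group of dimension 2 over the field with 16 elements. -/
theorem result {G : Type*} [Group G] [Finite G] [IsSimpleGroup G] (h : Nat.card G = 4080) {F : Type*} [Field F] [Fintype F] (hF : Fintype.card F = 16) : Nonempty (G ≃* Matrix.ProjectiveSpecialLinearGroup (Fin 2) F) := by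
  have hcyc : ¬ IsCyclic G := by
    intro hc
    have : IsMulCommutative G := IsCyclic.isMulCommutative
    have := (Group.is_simple_iff_prime_card (α := G)).1 ‹_›
    rw [h] at this
    exact absurd this (by norm_num)
  rcases Cfsg.Agent.S0999.result hcyc 17 (by norm_num) (by rw [h]; norm_num) (by rw [h]; norm_num)
    with ⟨K, _, _, hK, _, ⟨e⟩⟩ | ⟨m, K, _, _, hK, hm, _, ⟨e⟩⟩
  · exfalso
    by_cases h2K : (2 : K) = 0
    · have hcK := Cfsg.Agent.Lib.PSL2.Basic.card_PSL2_of_two_eq_zero h2K
      rw [← Nat.card_congr e.toEquiv, h, hK] at hcK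
      norm_num at hcK
    · have hcK := Cfsg.Agent.Lib.PSL2.Basic.card_PSL2_of_two_ne_zero h2K
      rw [← Nat.card_congr e.toEquiv, h, hK] at hcK
      norm_num at hcK
  · have hm4 : m = 4 := by
      have h16 : 2 ^ m = 2 ^ 4 := by omega
      exact Nat.pow_right_injective (le_refl 2) h16
    subst hm4
    exact ⟨e.trans (Cfsg.Agent.Lib.Compute.SmallField.pslCongr
      (FiniteField.ringEquivOfCardEq (hK.trans hF.symm)))⟩

end Cfsg.Agent.S0981
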