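import Cfsg.Statements.S0984
import Mathlib
import Cfsg.Agent.S0991
import Cfsg.Agent.Lib.A7Rec.Final

set_option autoImplicit false
open Cfsg

namespace Cfsg.Agent.S0984

/-- A simple group of order 2520 is isomorphic to the alternating group of degree 7. -/
theorem result {G : Type*} [Group G] [Finite G] [IsSimpleGroup G] (h : Nat.card G = 2520) : Nonempty (G ≃* alternatingGroup (Fin 7)) := by
  classical
  by_cases hex : ∃ H : Subgroup G, H.index = 7
  · obtain ⟨H, hH⟩ := hex
    have hHt : H ≠ ⊤ := by
      rintro rfl
      simp at hH
    have hG : ¬ IsMulCommutative G := by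
      intro hcomm
      let _ : CommGroup G := { (inferInstance : Group G) with mul_comm := hcomm.is_comm.comm }
      have hp : (Nat.card G).Prime := IsSimpleGroup.prime_card
      rw [h] at hp
      norm_num at hp
    obtain ⟨f, hf⟩ := Cfsg.Agent.S0991.result hG H hHt
    generalize H.index = k at f hf hH
    subst hH
    have hcard : Nat.card (alternatingGroup (Fin 7)) = 2520 := by
      have h2 := two_mul_nat_card_alternatingGroup (α := Fin 7)
      rw [Nat.card_perm, Nat.card_fin] at h2
      have h3 : Nat.factorial 7 = 5040 := rfl
      omega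
    have hbij : Function.Bijective f := (Nat.bijective_iff_injective_and_card f).2 ⟨hf, by rw [h, hcard]⟩
    exact ⟨MulEquiv.ofBijective f hbij⟩
  · push_neg at hex
    exact (Cfsg.Agent.Lib.A7Rec.main_contra ⟨h, hex⟩).elim

end Cfsg.Agent.S0984
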