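import Cfsg.Statements.S0986
import Mathlib
import Cfsg.Agent.S4088

set_option autoImplicit false
open Cfsg

namespace Cfsg.Agent.S0986

open Subgroup

/-- Let P and Q be distinct Sylow p-subgroups of a finite group G chosen so that the order of P ∩ Q is as large as possible among intersections of two distinct Sylow p-subgroups, and let N be the normalizer of P ∩ Q. Then N has more than one Sylow p-subgroup, any two distinct Sylow p-subgroups of N intersect exactly in P ∩ Q, and each Sylow p-subgroup of N lies in exactly one Sylow p-subgroup of G. -/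
theorem result {G : Type*} [Group G] [Finite G] (p : ℕ) [Fact p.Prime] (P Q : Sylow p G) (hPQ : P ≠ Q) (hmax : ∀ P' Q' : Sylow p G, P' ≠ Q' → Nat.card ↥((P' : Subgroup G) ⊓ (Q' : Subgroup G)) ≤ Nat.card ↥((P : Subgroup G) ⊓ (Q : Subgroup G))) : 1 < Nat.card (Sylow p ↥(Subgroup.normalizer (((P : Subgroup G) ⊓ (Q : Subgroup G) : Subgroup G) : Set G))) ∧ (∀ S T : Sylow p ↥(Subgroup.normalizer (((P : Subgroup G) ⊓ (Q : Subgroup G) : Subgroup G) : Set G)), S ≠ T → (S : Subgroup _) ⊓ (T : Subgroup _) = ((P : Subgroup G) ⊓ (Q : Subgroup G)).subgroupOf (Subgroup.normalizer (((P : Subgroup G) ⊓ (Q : Subgroup G) : Subgroup G) : Set G))) ∧ ∀ S : Sylow p ↥(Subgroup.normalizer (((P : Subgroup G) ⊓ (Q : Subgroup G) : Subgroup G) : Set G)), ∃! T : Sylow p G, (S : Subgroup _).map (Subgroup.normalizer (((P : Subgroup G) ⊓ (Q : Subgroup G) : Subgroup G) : Set G)).subtype ≤ (T : Subgroup G) := by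
  classical
  set D : Subgroup G := (P : Subgroup G) ⊓ (Q : Subgroup G) with hD
  set N : Subgroup G := Subgroup.normalizer ((D : Subgroup G) : Set G) with hN
  have hDp : IsPGroup p D := P.isPGroup'.to_le inf_le_left
  have hDN : D ≤ N := le_normalizer
  -- two distinct Sylows intersect in at most |D|
  have hbig : ∀ T₁ T₂ : Sylow p G, ∀ X : Subgroup G, X ≤ T₁ → X ≤ T₂ → Nat.card D < Nat.card X → T₁ = T₂ := by
    intro T₁ T₂ X h1 h2 h3
    by_contra hne
    have h4 := hmax T₁ T₂ hne
    have h5 : Nat.card X ≤ Nat.card ↥((T₁ : Subgroup G) ⊓ (T₂ : Subgroup G)) :=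
      Subgroup.card_le_of_le (le_inf h1 h2)
    omega
  have hDltP : D < P := by
    refine lt_of_le_of_ne inf_le_left ?_
    intro h
    have hPQ' : (P : Subgroup G) ≤ Q := by
      rw [← h]; exact inf_le_right
    exact hPQ (Sylow.ext (P.is_maximal' Q.isPGroup' hPQ').symm)
  have hDltQ : D < Q := by
    refine lt_of_le_of_ne inf_le_right ?_
    intro h
    have hPQ' : (Q : Subgroup G) ≤ P := by
      rw [← h]; exact inf_le_left
    exact hPQ (Sylow.ext (Q.is_maximal' P.isPGroup' hPQ'))
  have h1P := Cfsg.Agent.S4088.lt_inf_normalizer P.isPGroup' hDltP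
  have h1Q := Cfsg.Agent.S4088.lt_inf_normalizer Q.isPGroup' hDltQ
  have hcardlt : ∀ X : Subgroup G, D < X → Nat.card D < Nat.card X := by
    intro X hX
    by_contra h
    exact hX.ne (Subgroup.eq_of_le_of_card_ge hX.le (by omega))
  -- images of Sylow subgroups of N
  have himgp : ∀ S : Sylow p N, IsPGroup p ((S : Subgroup N).map N.subtype) :=
    fun S => S.isPGroup'.map N.subtype
  have hDS : ∀ S : Sylow p N, D ≤ (S : Subgroup N).map N.subtype := by
    intro S x hx
    have hnorm : (Subgroup.comap N.subtype D).Normal := Subgroup.normal_in_normalizer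
    have hle : D.subgroupOf N ≤ (S : Subgroup N) :=
      (hDp.comap_subtype (K := N)).le_sylow_of_normal S
    exact ⟨⟨x, hDN hx⟩, hle (mem_subgroupOf.mpr hx), rfl⟩
  -- extremal property
  have hcardS : ∀ S : Sylow p N, Nat.card D < Nat.card ((S : Subgroup N).map N.subtype) := by
    intro S
    have h1 : IsPGroup p ((((P : Subgroup G) ⊓ N).subgroupOf N)) :=
      (P.isPGroup'.to_le inf_le_left).comap_subtype
    obtain ⟨S0, hS0⟩ := h1.exists_le_sylow
    have h2 : (P : Subgroup G) ⊓ N ≤ (S0 : Subgroup N).map N.subtype := by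
      intro x hx
      exact ⟨⟨x, hx.2⟩, hS0 (mem_subgroupOf.mpr hx), rfl⟩
    have h3 : Nat.card D < Nat.card ((S0 : Subgroup N).map N.subtype) :=
      hcardlt _ (lt_of_lt_of_le h1P h2)
    have h4 : Nat.card ((S0 : Subgroup N).map N.subtype) = Nat.card ((S : Subgroup N).map N.subtype) := by
      rw [Subgroup.card_map_of_injective N.subtype_injective, Subgroup.card_map_of_injective N.subtype_injective]
      rw [Sylow.card_eq_multiplicity, Sylow.card_eq_multiplicity]
    omega
  -- the third claim: uniqueness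
  have huniq : ∀ S : Sylow p N, ∀ T₁ T₂ : Sylow p G,
      (S : Subgroup N).map N.subtype ≤ T₁ → (S : Subgroup N).map N.subtype ≤ T₂ → T₁ = T₂ :=
    fun S T₁ T₂ h1 h2 => hbig T₁ T₂ _ h1 h2 (hcardS S)
  refine ⟨?_, ?_, ?_⟩
  · -- more than one Sylow
    by_contra hone
    have hsub : Subsingleton (Sylow p N) := by
      have : Nat.card (Sylow p N) ≤ 1 := by omega
      exact (Finite.card_le_one_iff_subsingleton).mp this
    have hP' : IsPGroup p (((P : Subgroup G) ⊓ N).subgroupOf N) :=
      (P.isPGroup'.to_le inf_le_left).comap_subtype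
    have hQ' : IsPGroup p (((Q : Subgroup G) ⊓ N).subgroupOf N) :=
      (Q.isPGroup'.to_le inf_le_left).comap_subtype
    obtain ⟨S, hS⟩ := hP'.exists_le_sylow
    obtain ⟨S', hS'⟩ := hQ'.exists_le_sylow
    have hSS : S = S' := Subsingleton.elim _ _
    subst hSS
    obtain ⟨T, hT⟩ := (himgp S).exists_le_sylow
    have hPS : (P : Subgroup G) ⊓ N ≤ (S : Subgroup N).map N.subtype := by
      intro x hx
      exact ⟨⟨x, hx.2⟩, hS (mem_subgroupOf.mpr hx), rfl⟩
    have hQS : (Q : Subgroup G) ⊓ N ≤ (S : Subgroup N).map N.subtype := by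
      intro x hx
      exact ⟨⟨x, hx.2⟩, hS' (mem_subgroupOf.mpr hx), rfl⟩
    have e1 : P = T := hbig P T _ inf_le_left (hPS.trans hT) (hcardlt _ h1P)
    have e2 : Q = T := hbig Q T _ inf_le_left (hQS.trans hT) (hcardlt _ h1Q)
    exact hPQ (e1.trans e2.symm)
  · intro S T hST
    obtain ⟨S', hS'⟩ := (himgp S).exists_le_sylow
    obtain ⟨T', hT'⟩ := (himgp T).exists_le_sylow
    have hne : S' ≠ T' := by
      intro h
      subst h
      have hp : IsPGroup p (((S' : Subgroup G) ⊓ N).subgroupOf N) :=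
        (S'.isPGroup'.to_le inf_le_left).comap_subtype
      have hS1 : (S : Subgroup N) ≤ ((S' : Subgroup G) ⊓ N).subgroupOf N := by
        intro x hx
        exact mem_subgroupOf.mpr ⟨hS' ⟨x, hx, rfl⟩, x.2⟩
      have hT1 : (T : Subgroup N) ≤ ((S' : Subgroup G) ⊓ N).subgroupOf N := by
        intro x hx
        exact mem_subgroupOf.mpr ⟨hT' ⟨x, hx, rfl⟩, x.2⟩
      have e1 := S.is_maximal' hp hS1
      have e2 := T.is_maximal' hp hT1
      exact hST (Sylow.ext (e1.symm.trans e2))
    have hDle : D.subgroupOf N ≤ (S : Subgroup N) ⊓ (T : Subgroup N) := by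
      intro x hx
      have hnorm : (Subgroup.comap N.subtype D).Normal := Subgroup.normal_in_normalizer
      exact ⟨(hDp.comap_subtype (K := N)).le_sylow_of_normal S hx,
        (hDp.comap_subtype (K := N)).le_sylow_of_normal T hx⟩
    apply le_antisymm _ hDle
    -- reverse inclusion by cardinality
    set X : Subgroup G := ((S : Subgroup N) ⊓ (T : Subgroup N)).map N.subtype with hX
    have hXS : X ≤ (S' : Subgroup G) := (Subgroup.map_mono inf_le_left).trans hS'
    have hXT : X ≤ (T' : Subgroup G) := (Subgroup.map_mono inf_le_right).trans hT'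
    have hDX : D ≤ X := by
      intro x hx
      exact ⟨⟨x, hDN hx⟩, hDle (mem_subgroupOf.mpr hx), rfl⟩
    have hcard : Nat.card X ≤ Nat.card D := by
      by_contra hlt
      exact hne (hbig S' T' X hXS hXT (by omega))
    have hXD : D = X := Subgroup.eq_of_le_of_card_ge hDX hcard
    intro x hx
    apply mem_subgroupOf.mpr
    rw [hXD]
    exact ⟨x, hx, rfl⟩
  · intro S
    obtain ⟨T, hT⟩ := (himgp S).exists_le_sylow
    exact ⟨T, hT, fun T' hT' => huniq S T' T hT' hT⟩

end Cfsg.Agent.S0986
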