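import Cfsg.Statements.S0995
import Mathlib
import Cfsg.Agent.S4088
import Cfsg.Agent.Lib.Perm.SylowConj

set_option autoImplicit false
open Cfsg

namespace Cfsg.Agent.S0995

open Subgroup

variable {G : Type*} [Group G] [Finite G]

lemma card_conj_mul (g0 : G) :
    Nat.card G = Nat.card {x : G // IsConj g0 x} * Nat.card ↥(centralizer ({g0} : Set G)) := by
  classical
  apply Cfsg.Agent.S4088.card_eq_mul_of_fibers
    (fun a : G => (⟨a * g0 * a⁻¹, isConj_iff.mpr ⟨a, rfl⟩⟩ : {x : G // IsConj g0 x}))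
  rintro ⟨x, hx⟩
  obtain ⟨a0, rfl⟩ := isConj_iff.mp hx
  symm
  apply Nat.card_congr
  refine Equiv.ofBijective (fun c => ⟨a0 * c.1, ?_⟩) ⟨?_, ?_⟩
  · apply Subtype.ext
    have hc : (c.1 : G) * g0 = g0 * c.1 := mem_centralizer_singleton_iff.mp c.2
    show a0 * c.1 * g0 * (a0 * c.1)⁻¹ = a0 * g0 * a0⁻¹
    calc a0 * c.1 * g0 * (a0 * c.1)⁻¹ = a0 * ((c.1 : G) * g0) * (c.1 : G)⁻¹ * a0⁻¹ := by group
      _ = a0 * g0 * a0⁻¹ := by rw [hc]; group
  · intro c d hcd
    have := congrArg Subtype.val hcd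
    simp only [mul_right_inj] at this
    exact Subtype.ext this
  · rintro ⟨a, ha⟩
    have ha' : a * g0 * a⁻¹ = a0 * g0 * a0⁻¹ := congrArg Subtype.val ha
    refine ⟨⟨a0⁻¹ * a, ?_⟩, ?_⟩
    · rw [mem_centralizer_singleton_iff]
      have : a * g0 = a0 * g0 * a0⁻¹ * a := by rw [← ha']; group
      calc a0⁻¹ * a * g0 = a0⁻¹ * (a * g0) := by group
        _ = g0 * (a0⁻¹ * a) := by rw [this]; group
    · apply Subtype.ext
      show a0 * (a0⁻¹ * a) = a
      group

lemma card_centralizer_le_conj (g x : G) :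
    Nat.card ↥(centralizer ({g} : Set G)) ≤ Nat.card ↥(centralizer ({x⁻¹ * g * x} : Set G)) := by
  apply Nat.card_le_card_of_injective (fun c : ↥(centralizer ({g} : Set G)) =>
    (⟨x⁻¹ * c.1 * x, by
      rw [mem_centralizer_singleton_iff]
      have hc : (c.1 : G) * g = g * c.1 := mem_centralizer_singleton_iff.mp c.2
      calc x⁻¹ * c.1 * x * (x⁻¹ * g * x) = x⁻¹ * ((c.1 : G) * g) * x := by group
        _ = x⁻¹ * g * x * (x⁻¹ * c.1 * x) := by rw [hc]; group⟩ : ↥(centralizer ({x⁻¹ * g * x} : Set G))))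
  intro a b hab
  have h := congrArg (Subtype.val : ↥(centralizer ({x⁻¹ * g * x} : Set G)) → G) hab
  have h2 : x⁻¹ * (a : G) * x = x⁻¹ * (b : G) * x := h
  apply Subtype.ext
  simpa using h2

lemma card_centralizer_conj (g x : G) :
    Nat.card ↥(centralizer ({x⁻¹ * g * x} : Set G)) = Nat.card ↥(centralizer ({g} : Set G)) := by
  apply le_antisymm _ (card_centralizer_le_conj g x)
  have := card_centralizer_le_conj (x⁻¹ * g * x) x⁻¹
  have e : x⁻¹⁻¹ * (x⁻¹ * g * x) * x⁻¹ = g := by group
  rwa [e] at this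

lemma zpowers_eq_of_mem {p : ℕ} [Fact p.Prime] {z h : G} (hz : orderOf z = p)
    (hh : h ∈ zpowers z) (h1 : h ≠ 1) : zpowers h = zpowers z := by
  have hpp : p.Prime := Fact.out
  have hle : zpowers h ≤ zpowers z := zpowers_le.mpr hh
  apply Subgroup.eq_of_le_of_card_ge hle
  rw [Nat.card_zpowers, Nat.card_zpowers, hz]
  have hd : orderOf h ∣ p := by rw [← hz]; exact orderOf_dvd_of_mem_zpowers hh
  rcases (Nat.dvd_prime hpp).mp hd with h2 | h2
  · exact absurd (orderOf_eq_one_iff.mp h2) h1
  · exact h2.ge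

/-- Let G be a finite perfect group containing an element z of prime order p whose centralizer is the cyclic group it generates. Let t be the number of conjugacy classes of elements of order p. Then t divides p - 1, the number of Sylow p-subgroups has the form 1 + n * p, and |G| * t = (p - 1) * p * (1 + n * p). -/
theorem result {G : Type*} [Group G] [Finite G] (hperf : commutator G = ⊤) (p : ℕ) [Fact p.Prime] (z : G) (hz : orderOf z = p) (hC : Subgroup.centralizer ({z} : Set G) = Subgroup.zpowers z) : ∃ n t : ℕ, t = Nat.card {c : ConjClasses G // ∃ g : G, ConjClasses.mk g = c ∧ orderOf g = p} ∧ t ∣ p - 1 ∧ Nat.card (Sylow p G) = 1 + n * p ∧ Nat.card G * t = (p - 1) * p * (1 + n * p) := by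
  classical
  have hpp : p.Prime := Fact.out
  set Z := zpowers z with hZ
  have hZc : Nat.card Z = p := by rw [hZ, Nat.card_zpowers, hz]
  have hz1 : z ≠ 1 := by
    intro h; rw [h, orderOf_one] at hz; exact hpp.one_lt.ne hz
  have hCh : ∀ h ∈ Z, h ≠ 1 → centralizer ({h} : Set G) = Z := by
    intro h hh h1
    have e : zpowers h = Z := zpowers_eq_of_mem hz hh h1
    rw [← hC]
    apply le_antisymm
    · intro c hc
      rw [mem_centralizer_singleton_iff] at hc ⊢
      have hzm : z ∈ zpowers h := by rw [e]; exact mem_zpowers z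
      obtain ⟨k, rfl⟩ := mem_zpowers_iff.mp hzm
      exact ((show Commute c h from hc).zpow_right k)
    · intro c hc
      rw [mem_centralizer_singleton_iff] at hc ⊢
      obtain ⟨k, rfl⟩ := mem_zpowers_iff.mp hh
      exact ((show Commute c z from hc).zpow_right k)
  -- Z is Sylow
  have hZp : IsPGroup p Z := IsPGroup.of_card (n := 1) (by rw [hZc, pow_one])
  obtain ⟨S0, hS0⟩ := hZp.exists_le_sylow
  have hS0Z : (S0 : Subgroup G) = Z := by
    apply le_antisymm _ hS0
    have hzS : z ∈ (S0 : Subgroup G) := hS0 (mem_zpowers z)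
    haveI : Nontrivial ↥(S0 : Subgroup G) := ⟨⟨⟨z, hzS⟩, 1, fun h => hz1 (congrArg Subtype.val h)⟩⟩
    haveI := S0.isPGroup'.center_nontrivial
    obtain ⟨c, hc1⟩ := exists_ne (1 : Subgroup.center ↥(S0 : Subgroup G))
    set c0 : G := ((c : ↥(S0 : Subgroup G)) : G) with hc0
    have hc01 : c0 ≠ 1 := by
      intro h
      apply hc1
      apply Subtype.ext
      apply Subtype.ext
      exact h
    have hcomm : ∀ s ∈ (S0 : Subgroup G), s * c0 = c0 * s := by
      intro s hs
      have := (Subgroup.mem_center_iff.mp c.2) ⟨s, hs⟩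
      exact congrArg Subtype.val this
    have hc0Z : c0 ∈ Z := by
      rw [← hC, mem_centralizer_singleton_iff]
      exact (hcomm z hzS).symm
    intro s hs
    rw [← hCh c0 hc0Z hc01, mem_centralizer_singleton_iff]
    exact hcomm s hs
  have hcardS : ∀ T : Sylow p G, Nat.card ↥(T : Subgroup G) = p := by
    intro T
    rw [Sylow.card_eq_multiplicity, ← Sylow.card_eq_multiplicity S0, hS0Z, hZc]
  -- centralizers of elements of order p
  have hCg : ∀ g : G, orderOf g = p → Nat.card ↥(centralizer ({g} : Set G)) = p := by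
    intro g hg
    have hgp : IsPGroup p (zpowers g) := IsPGroup.of_card (n := 1) (by rw [Nat.card_zpowers, hg, pow_one])
    obtain ⟨T, hT⟩ := hgp.exists_le_sylow
    obtain ⟨x, hx⟩ := MulAction.exists_smul_eq G S0 T
    have hgT : g ∈ ((x • S0 : Sylow p G) : Subgroup G) := by rw [hx]; exact hT (mem_zpowers g)
    rw [Cfsg.Agent.Lib.Perm.SylowConj.mem_smul_iff, hS0Z] at hgT
    have hne : x⁻¹ * g * x ≠ 1 := by
      intro h
      have : g = 1 := by
        have e : g = x * (x⁻¹ * g * x) * x⁻¹ := by group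
        rw [e, h]; group
      rw [this, orderOf_one] at hg
      exact hpp.one_lt.ne hg
    rw [← card_centralizer_conj g x, hCh _ hgT hne, hZc]
  -- the element sets
  let X := {g : G // orderOf g = p}
  let Tt := {c : ConjClasses G // ∃ g : G, ConjClasses.mk g = c ∧ orderOf g = p}
  have hdvd : p ∣ Nat.card G := by rw [← hz]; exact orderOf_dvd_natCard z
  obtain ⟨m, hm⟩ := hdvd
  -- count by classes
  have hXT : Nat.card X = Nat.card Tt * m := by
    apply Cfsg.Agent.S4088.card_eq_mul_of_fibers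
      (fun x : X => (⟨ConjClasses.mk x.1, x.1, rfl, x.2⟩ : Tt))
    rintro ⟨c, g0, rfl, hg0⟩
    have h1 := card_conj_mul g0
    rw [hCg g0 hg0, hm, mul_comm] at h1
    have h2 : m = Nat.card {x : G // IsConj g0 x} := Nat.eq_of_mul_eq_mul_right hpp.pos h1
    rw [h2]
    apply Nat.card_congr
    refine ⟨fun x => ⟨x.1.1, ?_⟩, fun y => ⟨⟨y.1, ?_⟩, ?_⟩, ?_, ?_⟩
    · have : ConjClasses.mk x.1.1 = ConjClasses.mk g0 := congrArg Subtype.val x.2
      exact ConjClasses.mk_eq_mk_iff_isConj.mp this.symm
    · obtain ⟨c, hc⟩ := isConj_iff.mp y.2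
      rw [← hg0, ← hc]
      exact (MulAut.conj c).orderOf_eq g0
    · apply Subtype.ext
      exact (ConjClasses.mk_eq_mk_iff_isConj.mpr y.2).symm
    · intro x; rfl
    · intro y; rfl
  -- count by Sylow subgroups
  have hmemS : ∀ (T : Sylow p G) (g : G), orderOf g = p → g ∈ (T : Subgroup G) → zpowers g = T := by
    intro T g hg hgT
    apply Subgroup.eq_of_le_of_card_ge (zpowers_le.mpr hgT)
    rw [hcardS, Nat.card_zpowers, hg]
  have hex : ∀ g : X, ∃ T : Sylow p G, g.1 ∈ (T : Subgroup G) := by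
    intro g
    have hgp : IsPGroup p (zpowers g.1) := IsPGroup.of_card (n := 1) (by rw [Nat.card_zpowers, g.2, pow_one])
    obtain ⟨T, hT⟩ := hgp.exists_le_sylow
    exact ⟨T, hT (mem_zpowers _)⟩
  choose F hF using hex
  have hXS : Nat.card X = Nat.card (Sylow p G) * (p - 1) := by
    apply Cfsg.Agent.S4088.card_eq_mul_of_fibers F
    intro T
    have e1 : Nat.card {x : X // F x = T} = Nat.card {h : ↥(T : Subgroup G) // h ≠ 1} := by
      apply Nat.card_congr
      refine ⟨fun x => ⟨⟨x.1.1, by have h5 := hF x.1; rw [x.2] at h5; exact h5⟩, ?_⟩, fun y => ⟨⟨y.1.1, ?_⟩, ?_⟩, ?_, ?_⟩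
      · intro h
        have h0 : x.1.1 = 1 := congrArg Subtype.val h
        have := x.1.2
        rw [h0, orderOf_one] at this
        exact hpp.one_lt.ne this
      · have hd : orderOf y.1.1 ∣ p := by
          have := Subgroup.orderOf_dvd_natCard _ y.1.2
          rwa [hcardS T] at this
        rcases (Nat.dvd_prime hpp).mp hd with h2 | h2
        · exact absurd (Subtype.ext (orderOf_eq_one_iff.mp h2)) y.2
        · exact h2
      · have hd : orderOf y.1.1 ∣ p := by
          have := Subgroup.orderOf_dvd_natCard _ y.1.2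
          rwa [hcardS T] at this
        have ho : orderOf y.1.1 = p := by
          rcases (Nat.dvd_prime hpp).mp hd with h2 | h2
          · exact absurd (Subtype.ext (orderOf_eq_one_iff.mp h2)) y.2
          · exact h2
        have h3 := hmemS T y.1.1 ho y.1.2
        have h4 := hmemS (F ⟨y.1.1, ho⟩) y.1.1 ho (hF ⟨y.1.1, ho⟩)
        exact Sylow.ext (h4.symm.trans h3)
      · intro x; rfl
      · intro y; rfl
    rw [e1]
    have e2 : Nat.card {h : ↥(T : Subgroup G) // h ≠ 1} = Nat.card ↥(T : Subgroup G) - 1 := by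
      haveI : Fintype ↥(T : Subgroup G) := Fintype.ofFinite _
      rw [Nat.card_eq_fintype_card, Nat.card_eq_fintype_card]
      simp [Fintype.card_subtype_compl]
    rw [e2, hcardS]
  -- arithmetic
  set s := Nat.card (Sylow p G) with hs
  have hspos : 0 < s := Nat.card_pos
  have hmod : s % p = 1 := by
    have := card_sylow_modEq_one p G
    have h1 : s % p = 1 % p := this
    rw [h1, Nat.mod_eq_of_lt hpp.one_lt]
  have hs1 : s = 1 + (s / p) * p := by
    have := Nat.div_add_mod s p
    rw [hmod] at this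
    rw [mul_comm] at this
    omega
  have hNZ : Z ≤ normalizer ((S0 : Subgroup G) : Set G) := by
    rw [← hS0Z]; exact le_normalizer
  have hcardN : Nat.card ↥(normalizer ((S0 : Subgroup G) : Set G)) * s = Nat.card G := by
    have e0 := Sylow.card_eq_index_normalizer S0
    rw [hs, e0]
    exact Subgroup.card_mul_index _
  obtain ⟨e, he⟩ : p ∣ Nat.card ↥(normalizer ((S0 : Subgroup G) : Set G)) := by
    have := Subgroup.card_dvd_of_le hNZ
    rwa [hZc] at this
  have hms : m = e * s := by
    rw [he, hm, mul_assoc] at hcardN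
    exact (Nat.eq_of_mul_eq_mul_left hpp.pos hcardN).symm
  have htm : Nat.card Tt * m = s * (p - 1) := hXT.symm.trans hXS
  have hte : Nat.card Tt * e = p - 1 := by
    rw [hms] at htm
    have : s * (Nat.card Tt * e) = s * (p - 1) := by rw [← htm]; ring
    exact Nat.eq_of_mul_eq_mul_left hspos this
  refine ⟨s / p, Nat.card Tt, rfl, ⟨e, hte.symm⟩, hs1, ?_⟩
  rw [← hs1, hm]
  calc p * m * Nat.card Tt = p * (Nat.card Tt * m) := by ring
    _ = p * (s * (p - 1)) := by rw [htm]
    _ = (p - 1) * p * s := by ring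

end Cfsg.Agent.S0995
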