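import Cfsg.Statements.S1153
import Cfsg.Agent.Lib.Ree.Pts

set_option autoImplicit false
open Cfsg

namespace Cfsg.Agent.S1153

/-- In the small Ree group ²G₂(q), q = 3^(2m+1), realised as G¹ inside the Chevalley group G₂ over the field with q elements, with `B¹ = G¹ ∩ B`: in the action of `G¹` on the cosets of `B¹`, the joint stabiliser of any three distinct cosets has order at most 2, and for some three distinct cosets it has order exactly 2. -/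
theorem result {K : Type*} [Field K] [Fintype K] {m : ℕ} (hK : Fintype.card K = 3 ^ (2 * m + 1)) :
    (∀ x y z : ↥(Cfsg.Lie.twistedG2 K (3 ^ m)) ⧸ ((Cfsg.Lie.chevG2.borelSubgroup K ⊓ Cfsg.Lie.twistedG2 K (3 ^ m))).subgroupOf (Cfsg.Lie.twistedG2 K (3 ^ m)), x ≠ y → x ≠ z → y ≠ z →
        Nat.card ↥(MulAction.stabilizer ↥(Cfsg.Lie.twistedG2 K (3 ^ m)) x ⊓ MulAction.stabilizer ↥(Cfsg.Lie.twistedG2 K (3 ^ m)) y ⊓ MulAction.stabilizer ↥(Cfsg.Lie.twistedG2 K (3 ^ m)) z) ≤ 2) ∧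
      ∃ x y z : ↥(Cfsg.Lie.twistedG2 K (3 ^ m)) ⧸ ((Cfsg.Lie.chevG2.borelSubgroup K ⊓ Cfsg.Lie.twistedG2 K (3 ^ m))).subgroupOf (Cfsg.Lie.twistedG2 K (3 ^ m)), x ≠ y ∧ x ≠ z ∧ y ≠ z ∧
        Nat.card ↥(MulAction.stabilizer ↥(Cfsg.Lie.twistedG2 K (3 ^ m)) x ⊓ MulAction.stabilizer ↥(Cfsg.Lie.twistedG2 K (3 ^ m)) y ⊓ MulAction.stabilizer ↥(Cfsg.Lie.twistedG2 K (3 ^ m)) z) = 2 := by
  haveI := Cfsg.Agent.Lib.Ree.Main.charP_of_card hK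
  have hq := Cfsg.Agent.Lib.Ree.Main.sq_or_neg hK
  have hθ := Cfsg.Agent.Lib.Ree.Main.frOf_θ hK
  exact ⟨fun x y z hxy hxz hyz => Cfsg.Agent.Lib.Ree.Pts.stab_three_le (Cfsg.Agent.Lib.Ree.Main.frOf hK) hq hθ x y z hxy hxz hyz,
    Cfsg.Agent.Lib.Ree.Pts.exists_stab_three (Cfsg.Agent.Lib.Ree.Main.frOf hK) hq hθ⟩

end Cfsg.Agent.S1153
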