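import Cfsg.Statements.S1312
import Mathlib
import Cfsg.Agent.Lib.Components.BenderPair
-- import your own Cfsg.Agent.* helpers here

set_option autoImplicit false
open Cfsg

namespace Cfsg.Agent.S1312

/-- Let G be a non-abelian finite simple group and M ≠ N maximal subgroups of G with F*(M) ≤ N and F*(N) ≤ M. Then there is a prime p such that F*(M) and F*(N) are both p-groups. -/
theorem result {G : Type*} [Group G] [Finite G] [IsSimpleGroup G] (hna : ¬ IsMulCommutative G) (M N : Subgroup G) (hM : IsCoatom M) (hN : IsCoatom N) (hMN : M ≠ N) (h1 : (Cfsg.generalizedFittingSubgroup ↥M).map M.subtype ≤ N) (h2 : (Cfsg.generalizedFittingSubgroup ↥N).map N.subtype ≤ M) : ∃ p : ℕ, p.Prime ∧ IsPGroup p ↥(Cfsg.generalizedFittingSubgroup ↥M) ∧ IsPGroup p ↥(Cfsg.generalizedFittingSubgroup ↥N) := by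
  open Cfsg.Agent.Lib.Components.BenderPair in
  refine bender_pair hMN ?_ h1 h2
  intro A h0 hA
  have key : ∀ X Y : Subgroup G, IsCoatom X → A ≤ X → X ≤ Subgroup.normalizer (A : Set G) → Y ⊓ Subgroup.normalizer (A : Set G) = X ⊓ Y := by
    intro X Y hX hAX hXN
    have hne : Subgroup.normalizer (A : Set G) ≠ ⊤ := by
      intro htop
      have hnA : A.Normal := Subgroup.normalizer_eq_top_iff.mp htop
      rcases hnA.eq_bot_or_eq_top with h | h
      · exact h0 h
      · exact hX.1 (top_le_iff.mp (h ▸ hAX))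
    have hXeq : X = Subgroup.normalizer (A : Set G) := by
      exact (hX.le_iff.mp hXN).resolve_left hne |>.symm
    rw [← hXeq, inf_comm]
  refine ⟨fun h => key M N hM (hA.trans inf_le_left) h, fun h => ?_⟩
  rw [key N M hN (hA.trans inf_le_right) h, inf_comm]

end Cfsg.Agent.S1312
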