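-- Statement S1633: the 352 minimal vectors of the Higman-Sims configuration.
import Cfsg.Statements.S1633
import Mathlib
import Cfsg.Agent.Lib.Sporadic.HS352.Data
import Cfsg.Agent.Lib.Sporadic.LeechMcL
import Cfsg.Agent.Lib.Compute.Schur2.U35Main
import Cfsg.Agent.Lib.Compute.Schur2.PresIso

set_option autoImplicit false
set_option maxRecDepth 1000000
set_option Elab.async false
open Cfsg

namespace Cfsg.Agent.S1633

open Cfsg.Agent.Lib.Compute.SchurLin Cfsg.Agent.Lib.Compute.PermCert Cfsg.Agent.Lib.Compute.Schur2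
open Cfsg.Agent.Lib.Compute.OutChain Cfsg.Agent.Lib.Compute.OutFinal Cfsg.Agent.Lib.Compute.PermOut
open Cfsg.Agent.Lib.Sporadic.GolayCore Cfsg.Agent.Lib.Sporadic.LeechBasic Cfsg.Agent.Lib.Sporadic.LeechMat Cfsg.Agent.Lib.Sporadic.LeechKey
  Cfsg.Agent.Lib.Sporadic.LeechEnum
  Cfsg.Agent.Lib.Sporadic.LeechNorm Cfsg.Agent.Lib.Sporadic.LeechAut Cfsg.Agent.Lib.Sporadic.LeechA0
  Cfsg.Agent.Lib.Sporadic.LeechCo3 Cfsg.Agent.Lib.Sporadic.LeechHS
  Cfsg.Agent.Lib.Sporadic.LeechRep Cfsg.Agent.Lib.Sporadic.LeechTree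
  Cfsg.Agent.Lib.Sporadic.HS352

theorem validEs2 : es2.all (validB 9 511 352) = true := by decide +kernel

theorem validEs4 : es4.all (validB 9 511 352) = true := by decide +kernel

theorem fixEs2 : es2.all (fun e => Nat.beq (get 9 511 e.f 0) 0) = true := by decide +kernel

/-- The group generated by two elements fixing the root. -/
abbrev P : Subgroup (Equiv.Perm (Fin 352)) := genGroup 9 511 352 es2

theorem hmemP (j : ℕ) : gPerm 9 511 352 es2 j ∈ P := by
  unfold gPerm letterPerm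
  have h1 : Nat.div (2 * j) 2 = j := by
    show (2 * j) / 2 = j
    omega
  have h2 : Nat.mod (2 * j) 2 = 0 := by
    show (2 * j) % 2 = 0
    omega
  rw [h1, h2]
  cases hn : nth es2 j with
  | none => exact one_mem _
  | some e => exact Subgroup.subset_closure ⟨e, nth_mem hn, rfl⟩

theorem relsChk : allB (fun k => allB (fun i => Nat.beq (wordPt 9 511 es2 (U35D.c.W.getD k []) i) i) 352)
    U35D.c.nrel = true := by
  decide +kernel

theorem wordsChk2 : wordsB 9 511 352 es2 2 es2 [[0], [2]] = true := by decide +kernel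

/-- The generators. -/
noncomputable abbrev gJ : ℕ → P := gP 9 511 352 es2 P

theorem hrel : ∀ k < U35D.c.nrel, Cfsg.Agent.Lib.Compute.ToddCoxeterCore.wordEl (ltr gJ) (U35D.c.W.getD k []) = 1 := by
  intro k hk
  apply rel_of_check validEs2 hmemP
  have := (allB_iff _ _).mp relsChk k hk
  exact this

theorem hgen (x : P) : x ∈ Subgroup.closure (gJ '' Set.Iio U35D.c.n) :=
  gen_of_words validEs2 hmemP (k := 2) (gens := es2) (us := [[0], [2]]) rfl wordsChk2 x

theorem nontrivial_P : Nontrivial P := by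
  have hne : permOf 9 511 352 ex ≠ 1 :=
    ne_one_of_point (by decide +kernel) (i := 1) (by norm_num) (by decide +kernel)
  refine ⟨⟨⟨permOf 9 511 352 ex, Subgroup.subset_closure ⟨ex, by simp [es2], rfl⟩⟩, 1, ?_⟩⟩
  intro h
  exact hne (congrArg Subtype.val h)

theorem nonempty_P : Nonempty (P ≃* U35Main.H) :=
  haveI := nontrivial_P
  U35Main.nonempty_of_rel hrel hgen

theorem card_P : Nat.card P = 126000 := by
  obtain ⟨κ⟩ := nonempty_P
  rw [Nat.card_congr κ.toEquiv]
  exact U35Main.hcardG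

theorem gen0_ok : (List.range 352).all (fun i => permL hI0 (X352.getD i []) == X352.getD (get 9 511 e0.f i) []) = true := by
  decide +kernel
theorem gen1_ok : (List.range 352).all (fun i => permL hI1 (X352.getD i []) == X352.getD (get 9 511 e1.f i) []) = true := by
  decide +kernel
theorem gen2_ok : (List.range 352).all (fun i => permL hI2 (X352.getD i []) == X352.getD (get 9 511 e2.f i) []) = true := by
  decide +kernel
theorem gen3_ok : (List.range 352).all (fun i => matL hM3 4 (X352.getD i []) == X352.getD (get 9 511 e3.f i) []) = true := by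
  decide +kernel

theorem mem_es4 : ∀ e ∈ es4, permOf 9 511 352 e ∈ phi.range := by
  intro e he
  have hv : validB 9 511 352 e = true := List.all_eq_true.mp validEs4 e he
  simp only [es4, List.mem_cons, List.not_mem_nil, or_false] at he
  rcases he with rfl | rfl | rfl | rfl
  · exact permOf_mem_range hN352 X352_len X352_nodup X352_mem_lat _ hpres hv
      (acts_memH hact0 (by decide +kernel) (by decide +kernel)) hact0 gen0_ok
  · exact permOf_mem_range hN352 X352_len X352_nodup X352_mem_lat _ hpres hv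
      (acts_memH hact1 (by decide +kernel) (by decide +kernel)) hact1 gen1_ok
  · exact permOf_mem_range hN352 X352_len X352_nodup X352_mem_lat _ hpres hv
      (acts_memH hact2 (by decide +kernel) (by decide +kernel)) hact2 gen2_ok
  · exact permOf_mem_range hN352 X352_len X352_nodup X352_mem_lat _ hpres hv
      (acts_memH hact3 (by decide +kernel) (by decide +kernel)) hact3 gen3_ok

theorem gPerm_mem (j : ℕ) : gPerm 9 511 352 es4 j ∈ phi.range := by
  unfold gPerm letterPerm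
  have h1 : Nat.div (2 * j) 2 = j := by
    show (2 * j) / 2 = j
    omega
  have h2 : Nat.mod (2 * j) 2 = 0 := by
    show (2 * j) % 2 = 0
    omega
  rw [h1, h2]
  cases hn : nth es4 j with
  | none => exact one_mem _
  | some e => exact mem_es4 e (nth_mem hn)

theorem wordsChk : wordsB 9 511 352 es4 4 es2 us = true := by decide +kernel

/-- The elements given by words in the generators are in the image. -/
theorem mem_of_words : ∀ (gens : List Elt) (us : List (List ℕ)), wordsB 9 511 352 es4 4 gens us = true →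
    ∀ t ∈ gens, permOf 9 511 352 t ∈ phi.range := by
  intro gens
  induction gens with
  | nil => simp
  | cons a ts ih =>
    intro us h
    cases us with
    | nil => simp [wordsB] at h
    | cons u us =>
      simp only [wordsB, Bool.and_eq_true] at h
      obtain ⟨⟨⟨h1, h2⟩, h3⟩, h4⟩ := h
      intro t ht
      rcases List.mem_cons.mp ht with rfl | ht
      · have h5 : permOf 9 511 352 t = Cfsg.Agent.Lib.Compute.ToddCoxeterCore.wordEl (ltr (gPerm 9 511 352 es4)) u := by
          ext i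
          rw [permOf_apply h2, wordEl_gPerm validEs4]
          rw [allB_iff] at h3
          exact Nat.eq_of_beq_eq_true (h3 i i.2)
        rw [h5]
        have h6 : ∀ (v : List ℕ), Cfsg.Agent.Lib.Compute.ToddCoxeterCore.wordEl (ltr (gPerm 9 511 352 es4)) v ∈ phi.range := by
          intro v
          induction v with
          | nil => exact one_mem _
          | cons x v ih2 =>
            rw [Cfsg.Agent.Lib.Compute.ToddCoxeterCore.wordEl_cons]
            refine mul_mem ih2 ?_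
            unfold ltr
            split_ifs
            · exact gPerm_mem _
            · exact inv_mem (gPerm_mem _)
        exact h6 u
      · exact ih us h4 t ht

/-- The stabiliser of the root. -/
abbrev T : Subgroup Co0 := KH ⊓ MulAction.stabilizer Co0 B0

theorem card_KH : Nat.card KH = 44352000 := card_HS U0 W0 sqNorm_U0 sqNorm_W0 dot_U0_W0

theorem card_T : Nat.card T = 126000 := by
  have h := Cfsg.Agent.Lib.Sporadic.LeechOrders.card_inf_stab KH B0 S352 B0_mem
    (fun k hk z hz => smul_mem_S352 hk hz)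
    (fun z hz => by
      obtain ⟨k, hk, e⟩ := orbit_std hz
      refine ⟨k⁻¹, inv_mem hk, ?_⟩
      rw [← e, inv_smul_smul])
  rw [ncard_S352, card_KH] at h
  have h2 : Nat.card T * 352 = 44352000 := h
  omega

theorem phi_inj : Function.Injective phi := by
  have hs : IsSimpleGroup KH := simple_HS U0 W0 sqNorm_U0 sqNorm_W0 dot_U0_W0
  rcases (MonoidHom.normal_ker phi).eq_bot_or_eq_top with h | h
  · exact (MonoidHom.ker_eq_bot_iff phi).mp h
  · exfalso
    have hne : permOf 9 511 352 e0 ≠ 1 :=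
      ne_one_of_point (by decide +kernel) (i := 1) (by norm_num) (by decide +kernel)
    obtain ⟨y, hy⟩ := mem_es4 e0 (by simp [es4])
    apply hne
    rw [← hy]
    have : y ∈ phi.ker := by
      rw [h]
      trivial
    exact (MonoidHom.mem_ker).mp this

/-- The action of the stabiliser on the 352 points. -/
noncomputable def rho : T →* Equiv.Perm (Fin 352) := phi.comp (Subgroup.inclusion inf_le_left)

theorem rho_inj : Function.Injective rho :=
  phi_inj.comp (Subgroup.inclusion_injective _)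

theorem ptOf_zero : ptOf hN352 X352_mem_lat (0 : Fin 352) = B0 := rfl

theorem P_le : P ≤ rho.range := by
  refine (Subgroup.closure_le _).mpr ?_
  rintro _ ⟨e, he, rfl⟩
  have hv : validB 9 511 352 e = true := List.all_eq_true.mp validEs2 e he
  have hf : Nat.beq (get 9 511 e.f 0) 0 = true := List.all_eq_true.mp fixEs2 e he
  obtain ⟨g, hg⟩ := mem_of_words es2 us wordsChk e he
  have h2 := rep_spec hN352 X352_len X352_nodup X352_mem_lat KH hpres g (0 : Fin 352)
  have h3 : (rep hN352 X352_len X352_nodup X352_mem_lat KH hpres g (0 : Fin 352)) = 0 := by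
    apply Fin.ext
    show ((phi g (0 : Fin 352) : Fin 352) : ℕ) = 0
    rw [hg, permOf_apply hv]
    exact Nat.eq_of_beq_eq_true hf
  rw [h3, ptOf_zero] at h2
  have h4 : (g : Co0) • B0 = B0 := h2.symm
  exact ⟨⟨g.1, Subgroup.mem_inf.2 ⟨g.2, h4⟩⟩, hg⟩

theorem P_eq : P = rho.range := by
  refine Subgroup.eq_of_le_of_card_ge P_le ?_
  rw [card_P]
  have h := Nat.card_congr (MonoidHom.ofInjective rho_inj).toEquiv
  rw [← h, card_T]

/-- The standard point stabiliser. -/
theorem nonempty_std : Nonempty (T ≃* PSU 3 SU35.K9 5) := by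
  obtain ⟨κ⟩ := nonempty_P
  obtain ⟨e⟩ := U35Main.nonempty_H
  exact ⟨(MonoidHom.ofInjective rho_inj).trans ((MulEquiv.subgroupCongr P_eq.symm).trans (κ.trans e))⟩

/-- The Higman–Sims group acts transitively on 352 vectors, a set closed under x ↦ −w − x, with vector stabiliser isomorphic to PSU(3, 5). -/
theorem result (v w : ↥Cfsg.leechLattice) (hv : Cfsg.sqNorm (v : Cfsg.GolayPt → ℤ) = 48) (hw : Cfsg.sqNorm (w : Cfsg.GolayPt → ℤ) = 48) (hvw : Cfsg.dotInt (v : Cfsg.GolayPt → ℤ) (w : Cfsg.GolayPt → ℤ) = -32) (F : Type) [Field F] [Fintype F] (hF : Fintype.card F = 25) : {x : ↥Cfsg.leechLattice | Cfsg.sqNorm (x : Cfsg.GolayPt → ℤ) = 32 ∧ Cfsg.dotInt (v : Cfsg.GolayPt → ℤ) (x : Cfsg.GolayPt → ℤ) = 16 ∧ Cfsg.dotInt (w : Cfsg.GolayPt → ℤ) (x : Cfsg.GolayPt → ℤ) = -24}.ncard = 352 ∧ (∀ x ∈ {x : ↥Cfsg.leechLattice | Cfsg.sqNorm (x : Cfsg.GolayPt → ℤ) = 32 ∧ Cfsg.dotInt (v : Cfsg.GolayPt → ℤ) (x : Cfsg.GolayPt → ℤ) = 16 ∧ Cfsg.dotInt (w : Cfsg.GolayPt → ℤ)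 (x : Cfsg.GolayPt → ℤ) = -24}, -w - x ∈ {x : ↥Cfsg.leechLattice | Cfsg.sqNorm (x : Cfsg.GolayPt → ℤ) = 32 ∧ Cfsg.dotInt (v : Cfsg.GolayPt → ℤ) (x : Cfsg.GolayPt → ℤ) = 16 ∧ Cfsg.dotInt (w : Cfsg.GolayPt → ℤ) (x : Cfsg.GolayPt → ℤ) = -24}) ∧ (∀ x ∈ {x : ↥Cfsg.leechLattice | Cfsg.sqNorm (x : Cfsg.GolayPt → ℤ) = 32 ∧ Cfsg.dotInt (v : Cfsg.GolayPt → ℤ) (x : Cfsg.GolayPt → ℤ) = 16 ∧ Cfsg.dotInt (w : Cfsg.GolayPt → ℤ) (x : Cfsg.GolayPt → ℤ) = -24}, ∀ x' ∈ {x : ↥Cfsg.leechLattice | Cfsg.sqNorm (x : Cfsg.GolayPt → ℤ) = 32 ∧ Cfsg.dotInt (v : Cfsg.GolayPt → ℤ) (x : Cfsg.GolayPt → ℤ) = 16 ∧ Cfsg.dotInt (w : Cfsg.GolayPt → ℤ) (x : Cfsg.GolayPt → ℤ) = -24}, ∃ g : ↥Cfsg.Co0, g • v = v ∧ g • w = w ∧ g • x = x') ∧ ∀ x ∈ {x : ↥Cfsg.leechLattice | Cfsg.sqNorm (x : Cfsg.GolayPt → ℤ) = 32 ∧ Cfsg.dotInt (v : Cfsg.GolayPt → ℤ) (x : Cfsg.GolayPt → ℤ) = 16 ∧ Cfsg.dotInt (w : Cfsg.GolayPt → ℤ) (x : Cfsg.GolayPt → ℤ) = -24}, Nonempty (↥(MulAction.stabilizer ↥Cfsg.Co0 v ⊓ MulAction.stabilizer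 ↥Cfsg.Co0 w ⊓ MulAction.stabilizer ↥Cfsg.Co0 x) ≃* Cfsg.PSU 3 F 5) := by
  obtain ⟨g, hg1, hg2⟩ := exists_frame v w hv hw hvw
  have hmem : ∀ y : leechLattice, (sqNorm (y : GolayPt → ℤ) = 32 ∧ dotInt (v : GolayPt → ℤ) (y : GolayPt → ℤ) = 16 ∧
      dotInt (w : GolayPt → ℤ) (y : GolayPt → ℤ) = -24) ↔ g • y ∈ S352 := by
    intro y
    show _ ↔ (sqNorm ((g • y : leechLattice) : GolayPt → ℤ) = 32 ∧ dotInt (U0 : GolayPt → ℤ) ((g • y : leechLattice) : GolayPt → ℤ) = 16 ∧
      dotInt (W0 : GolayPt → ℤ) ((g • y : leechLattice) : GolayPt → ℤ) = -24)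
    rw [co0_sqNorm, ← hg1, ← hg2, co0_dotInt, co0_dotInt]
  refine ⟨?_, ?_, ?_, ?_⟩
  · rw [← ncard_S352]
    exact Cfsg.Agent.Lib.Sporadic.LeechMcL.image_card g (fun y => (hmem y).symm)
  · rintro x ⟨h1, h2, h3⟩
    have e : (((-w - x : leechLattice)) : GolayPt → ℤ) = -((w : GolayPt → ℤ) + (x : GolayPt → ℤ)) := by
      funext p
      show -(w : GolayPt → ℤ) p - (x : GolayPt → ℤ) p = -((w : GolayPt → ℤ) p + (x : GolayPt → ℤ) p)
      ring
    refine ⟨?_, ?_, ?_⟩
    · rw [e, sqNorm_neg, sqNorm_add, hw, h1, h3]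
      norm_num
    · rw [e, dotInt_neg_right, dotInt_add_right, hvw, h2]
      norm_num
    · rw [e, dotInt_neg_right, dotInt_add_right, dotInt_self, hw, h3]
      norm_num
  · rintro x hx x' hx'
    obtain ⟨k, hk, e⟩ := orbit_std ((hmem x).1 hx)
    obtain ⟨k', hk', e'⟩ := orbit_std ((hmem x').1 hx')
    obtain ⟨hk1, hk2⟩ := Subgroup.mem_inf.1 hk
    obtain ⟨hk1', hk2'⟩ := Subgroup.mem_inf.1 hk'
    have a1 : k • U0 = U0 := hk1
    have a2 : k • W0 = W0 := hk2
    have b1 : k' • U0 = U0 := hk1'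
    have b2 : k' • W0 = W0 := hk2'
    have b3 : k'⁻¹ • U0 = U0 := by
      conv_lhs => rw [← b1]
      rw [inv_smul_smul]
    have b4 : k'⁻¹ • W0 = W0 := by
      conv_lhs => rw [← b2]
      rw [inv_smul_smul]
    refine ⟨g⁻¹ * (k'⁻¹ * (k * g)), ?_, ?_, ?_⟩
    · simp only [mul_smul]
      rw [hg1, a1, b3, ← hg1, inv_smul_smul]
    · simp only [mul_smul]
      rw [hg2, a2, b4, ← hg2, inv_smul_smul]
    · simp only [mul_smul]
      rw [e, ← e', inv_smul_smul, inv_smul_smul]
  · rintro x hx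
    obtain ⟨k, hk, e⟩ := orbit_std ((hmem x).1 hx)
    obtain ⟨hk1, hk2⟩ := Subgroup.mem_inf.1 hk
    have a1 : k • U0 = U0 := hk1
    have a2 : k • W0 = W0 := hk2
    obtain ⟨e1⟩ := nonempty_std
    obtain ⟨e2⟩ := SU35.nonempty_equiv hF
    set G : Co0 := k * g with hG
    have hGv : G • v = U0 := by rw [hG, mul_smul, hg1, a1]
    have hGw : G • w = W0 := by rw [hG, mul_smul, hg2, a2]
    have hGx : G • x = B0 := by rw [hG, mul_smul, e]
    have hm : (MulAction.stabilizer Co0 v ⊓ MulAction.stabilizer Co0 w ⊓ MulAction.stabilizer Co0 x).map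
        (MulAut.conj G).toMonoidHom = T := by
      ext y
      rw [Subgroup.mem_map_equiv]
      have e3 : (MulAut.conj G).symm y = G⁻¹ * y * G := by
        simp [MulAut.conj_symm_apply]
      rw [e3]
      have c1 : ∀ z : leechLattice, G⁻¹ * y * G ∈ MulAction.stabilizer Co0 z ↔ y ∈ MulAction.stabilizer Co0 (G • z) := by
        intro z
        have h0 := conj_mem_stab G (G⁻¹ * y * G) z
        have h1 : G * (G⁻¹ * y * G) * G⁻¹ = y := by group
        rw [h1] at h0
        exact h0.symm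
      simp only [Subgroup.mem_inf, c1, hGv, hGw, hGx]
      show _ ↔ (y ∈ KH ∧ _)
      rfl
    exact ⟨((MulAut.conj G).subgroupMap _).trans ((MulEquiv.subgroupCongr hm).trans (e1.trans e2.symm))⟩

end Cfsg.Agent.S1633
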