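import Cfsg.Statements.S1666
import Mathlib
import Cfsg.Agent.Lib.HSRank3.HSSide
import Cfsg.Agent.Lib.BasicSteiner.Witt.HSGraph
import Cfsg.Agent.S0378
import Cfsg.Agent.S0410

set_option autoImplicit false
open Cfsg

namespace Cfsg.Agent.S1666

open MulAction

/-- Two subgroups of order `n` in a group of order `2 n`, the second simple, coincide. -/
theorem index_two_eq {A : Type*} [Group A] [Finite A] (G₁ G₂ : Subgroup A) (n : ℕ) (hA : Nat.card A = 2 * n)
    (h1 : Nat.card G₁ = n) (h2 : Nat.card G₂ = n) (hn : 2 < n) (hs : IsSimpleGroup G₂) : G₁ = G₂ := by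
  have hidx : G₁.index = 2 := by
    have h3 := G₁.card_mul_index
    rw [h1, hA] at h3
    have h4 : n * G₁.index = n * 2 := by rw [h3]; ring
    exact Nat.eq_of_mul_eq_mul_left (by omega) h4
  haveI hnorm : G₁.Normal := Subgroup.normal_of_index_eq_two hidx
  have hN : (G₁.subgroupOf G₂).Normal := inferInstance
  rcases hs.eq_bot_or_eq_top_of_normal _ hN with h | h
  · exfalso
    let q : G₂ →* A ⧸ G₁ := (QuotientGroup.mk' G₁).comp G₂.subtype
    have hinj : Function.Injective q := by
      rw [← MonoidHom.ker_eq_bot_iff]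
      rw [eq_bot_iff]
      intro x hx
      have hx' : ((x : A) : A ⧸ G₁) = 1 := hx
      rw [QuotientGroup.eq_one_iff] at hx'
      have : x ∈ G₁.subgroupOf G₂ := Subgroup.mem_subgroupOf.2 hx'
      rw [h] at this
      exact this
    have h5 := Nat.card_le_card_of_injective q hinj
    rw [h2, show Nat.card (A ⧸ G₁) = G₁.index from rfl, hidx] at h5
    omega
  · have hle : G₂ ≤ G₁ := Subgroup.subgroupOf_eq_top.1 h
    exact (Subgroup.eq_of_le_of_card_ge hle (by rw [h1, h2])).symm

/-- The order of `Spor.M22`. -/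
theorem card_M22 : Nat.card Spor.M22 = 443520 := by
  have e : ↥(stabilizer Cfsg.M24 (none : GolayPt) ⊓ stabilizer Cfsg.M24 (some 0 : GolayPt)) ≃* Spor.M22 :=
    { toFun := fun g => ⟨g.1.1, ⟨⟨g.1.2, (Subgroup.mem_inf.1 g.2).1⟩, (Subgroup.mem_inf.1 g.2).2⟩⟩
      invFun := fun p => ⟨⟨p.1, p.2.1.1⟩, Subgroup.mem_inf.2 ⟨p.2.1.2, p.2.2⟩⟩
      left_inv := fun _ => rfl
      right_inv := fun _ => rfl
      map_mul' := fun _ _ => rfl }
  rw [← Nat.card_congr e.toEquiv]
  exact Cfsg.Agent.S0378.result none (some 0) (by simp)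

/-- Recognition of the Higman–Sims group as a rank 3 permutation group: a transitive permutation group on 100 points in which the stabiliser of a point is isomorphic to the Mathieu group M₂₂ and has two further orbits, of sizes 22 and 77, is isomorphic to the Higman–Sims group. -/
theorem result {Ω : Type*} [Fintype Ω] [DecidableEq Ω] (hΩ : Fintype.card Ω = 100) (G : Subgroup (Equiv.Perm Ω)) [MulAction.IsPretransitive G Ω] (a : Ω)  (e : MulAction.stabilizer G a ≃* Cfsg.Spor.M22) (b c : Ω) (hb : (MulAction.orbit (MulAction.stabilizer G a) b).ncard = 22) (hc : (MulAction.orbit (MulAction.stabilizer G a) c).ncard = 77) : Cfsg.Spor.IsoHS G := by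
  classical
  obtain ⟨Γ, inst, hΓ, hinv⟩ := Cfsg.Agent.Lib.HSRank3.Graph.exists_srg (H := G) hΩ a b c hb hc
  obtain ⟨Ω', i1, i2, Γ', i3, φ, hΓ', hφ⟩ := Cfsg.Agent.Lib.HSRank3.HSSide.hs_data
  obtain ⟨hs, hcs⟩ := Cfsg.Agent.Lib.HSRank3.HSSide.isHS
  -- the two graphs are isomorphic
  have hne' : Nonempty Ω' := by
    apply Fintype.card_pos_iff.mp
    rw [hΓ'.card]
    norm_num
  obtain ⟨a'⟩ := hne'
  obtain ⟨f⟩ : Nonempty (Γ' ≃g Γ) := by
    open Cfsg.Agent.Lib.BasicSteiner.Witt.Srg100 in
    exact iso_of_des hΓ' hΓ a' a (Cfsg.Agent.S0410.result (card_Pt hΓ' a') (card_Pt hΓ a) (des_steiner hΓ' a')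
      (des_steiner hΓ a))
  -- the automorphism group
  have hA : Nat.card (Γ ≃g Γ) = 2 * 44352000 := by
    rw [Cfsg.Agent.Lib.BasicSteiner.Witt.HSGraph.card_aut hΓ]
  haveI hfinA : Finite (Γ ≃g Γ) := by
    apply Nat.finite_of_card_ne_zero
    rw [hA]
    norm_num
  -- the given group
  let ψ : G →* (Γ ≃g Γ) := Cfsg.Agent.Lib.HSRank3.HSSide.toAut Γ hinv
  have hψ : Function.Injective ψ := by
    intro g g' h
    apply Subtype.ext
    ext x
    have := congrArg (fun u : Γ ≃g Γ => u x) h
    exact this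
  have hcG : Nat.card G = 44352000 := by
    have h1 := (stabilizer G a).card_mul_index
    have h2 : (stabilizer G a).index = 100 := by
      rw [index_stabilizer, orbit_eq_univ, Set.ncard_univ, Nat.card_eq_fintype_card, hΩ]
    rw [h2, Nat.card_congr e.toEquiv, card_M22] at h1
    omega
  -- transport of the automorphisms
  let cj : (Γ' ≃g Γ') →* (Γ ≃g Γ) :=
    { toFun := fun u => f.symm.trans (u.trans f)
      map_one' := by
        ext x
        simp
      map_mul' := fun u u' => by
        ext x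
        simp [RelIso.mul_apply] }
  have hcj : Function.Injective cj := by
    intro u u' h
    ext x
    have h1 := congrArg (fun t : Γ ≃g Γ => t (f x)) h
    have h2 : f (u x) = f (u' x) := by simpa [cj] using h1
    exact f.injective h2
  let χ : Spor.HS →* (Γ ≃g Γ) := cj.comp φ
  have hχ : Function.Injective χ := hcj.comp hφ
  let E1 : G ≃* ψ.range := MonoidHom.ofInjective hψ
  let E2 : Spor.HS ≃* χ.range := MonoidHom.ofInjective hχ
  have hEq : ψ.range = χ.range := by
    refine index_two_eq ψ.range χ.range 44352000 hA ?_ ?_ (by norm_num) ?_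
    · rw [← Nat.card_congr E1.toEquiv, hcG]
    · rw [← Nat.card_congr E2.toEquiv, hcs]
    · haveI := hs
      exact E2.symm.isSimpleGroup
  exact ⟨E1.trans ((MulEquiv.subgroupCongr hEq).trans E2.symm)⟩

end Cfsg.Agent.S1666
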