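-- Statement S1707: the index from a table and a double coset enumeration.
import Cfsg.Statements.S1707
import Cfsg.Agent.Lib.Compute.HNTop

set_option autoImplicit false
open Cfsg

namespace Cfsg.Agent.S1707

/-- In the presented Harada–Norton group (generators x, y, z, t), the subgroup generated by the images of x, y, z has index 1539000. -/
theorem result : (((Subgroup.closure ({Cfsg.Spor.HN.x, Cfsg.Spor.HN.y, Cfsg.Spor.HN.z} : Set (FreeGroup Cfsg.Spor.HN.Gen))).map (PresentedGroup.mk (Cfsg.Spor.coxRelators Cfsg.Spor.HN.edges ∪ {r | r ∈ Cfsg.Spor.HN.extra})))).index = 1539000 := by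
  have h : ({Cfsg.Spor.HN.x, Cfsg.Spor.HN.y, Cfsg.Spor.HN.z} : Set (FreeGroup Cfsg.Spor.HN.Gen)) =
      {h | h ∈ Cfsg.Agent.Lib.Compute.HNUp.HsG} := by
    ext x
    simp [Cfsg.Agent.Lib.Compute.HNUp.HsG]
  rw [h]
  exact Cfsg.Agent.Lib.Compute.HNTop.index_eq

end Cfsg.Agent.S1707
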