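import Cfsg.Statements.S1892
import Cfsg.Agent.Lib.Coprime.Three
import Cfsg.Agent.Lib.Coprime.StabilityElem
import Cfsg.Agent.Lib.Coprime.Coset
import Cfsg.Agent.Lib.Solvable.PSeries
import Cfsg.Agent.Lib.Basic.PCore
import Mathlib

set_option autoImplicit false
open Cfsg

namespace Cfsg.Agent.S1892

open Cfsg.Agent.Lib.Coprime.Three
open scoped commutatorElement

/-- Let S be a finite p-solvable group with no nontrivial normal subgroup of order prime to p, A a p-subgroup of S, and Q a nontrivial A-invariant subgroup of order prime to p with [A, Q] = Q. Then the commutator [O_p(S), A, Q] is nontrivial. -/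
theorem result {S : Type*} [Group S] [Finite S] {p : ℕ} [Fact p.Prime]
    (hS : Cfsg.IsPSolvable p S) (hred : Cfsg.pPrimeCore p S = ⊥)
    (A Q : Subgroup S) (hA : IsPGroup p A) (hQ : ¬ p ∣ Nat.card Q) (hQ1 : Q ≠ ⊥)
    (hinv : ∀ a ∈ A, ∀ x ∈ Q, a * x * a⁻¹ ∈ Q) (hAQ : ⁅A, Q⁆ = Q) :
    ⁅⁅Cfsg.pCore p S, A⁆, Q⁆ ≠ ⊥ := by
  classical
  intro hbot
  have hpp : p.Prime := Fact.out
  set P : Subgroup S := Cfsg.pCore p S with hP
  haveI hPn : P.Normal := Cfsg.Agent.Lib.Basic.PCore.pCore_normal p S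
  have hPp : IsPGroup p P := Cfsg.Agent.Lib.Basic.PCore.pCore_isPGroup p
  set W : Subgroup S := ⁅P, A⁆ with hW
  have hWP : W ≤ P := Subgroup.commutator_le_left P A
  -- `Q` centralizes `W`
  have hQW : ∀ x ∈ Q, ∀ w ∈ W, x * w = w * x := by
    intro x hx w hw
    have h1 : ⁅w, x⁆ ∈ (⊥ : Subgroup S) := hbot ▸ Subgroup.commutator_mem_commutator hw hx
    rw [Subgroup.mem_bot, commutatorElement_eq_one_iff_mul_comm] at h1
    exact h1.symm
  -- `A` normalizes `W`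
  have hAW : ∀ a ∈ A, ∀ w ∈ W, a * w * a⁻¹ ∈ W := by
    intro a ha w hw
    refine conj_mem_of_mem_normalizer
      (commutator_mem_normalizer (mem_normalizer_of_conj_mem fun e he => hPn.conj_mem e he a)
        (Subgroup.le_normalizer ha)) hw
  -- the commutators with `a`
  have hcomm : ∀ a ∈ A, ∀ y ∈ P, a * y * a⁻¹ * y⁻¹ ∈ W := by
    intro a ha y hy
    have h1 := Subgroup.commutator_mem_commutator hy ha
    have h2 := W.inv_mem h1
    have h3 : ⁅y, a⁆⁻¹ = a * y * a⁻¹ * y⁻¹ := by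
      rw [commutatorElement_def]; group
    rwa [h3] at h2
  -- each commutator `⁅a, x⁆` centralizes `P`
  have hz : ∀ a ∈ A, ∀ x ∈ Q, ⁅a, x⁆ ∈ Subgroup.centralizer (P : Set S) := by
    intro a ha x hx
    have hzQ : ⁅a, x⁆ ∈ Q := by
      rw [commutatorElement_def]
      exact Q.mul_mem (hinv a ha x hx) (Q.inv_mem hx)
    have hstep : ∀ y ∈ P, ⁅a, x⁆ * y * ⁅a, x⁆⁻¹ * y⁻¹ ∈ W := by
      intro y hy
      have hy1 : x⁻¹ * y * x ∈ P := by
        have := hPn.conj_mem y hy x⁻¹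
        simpa using this
      have hw1 := hcomm a⁻¹ (A.inv_mem ha) _ hy1
      have hw2 := hcomm a ha y hy
      have hxw : x * (a⁻¹ * (x⁻¹ * y * x) * a⁻¹⁻¹ * (x⁻¹ * y * x)⁻¹) =
          (a⁻¹ * (x⁻¹ * y * x) * a⁻¹⁻¹ * (x⁻¹ * y * x)⁻¹) * x := hQW x hx _ hw1
      have h1 : ⁅a, x⁆ * y * ⁅a, x⁆⁻¹ * y⁻¹ =
          (a * (a⁻¹ * (x⁻¹ * y * x) * a⁻¹⁻¹ * (x⁻¹ * y * x)⁻¹) * a⁻¹) * (a * y * a⁻¹ * y⁻¹) := by
        rw [commutatorElement_def]
        calc a * x * a⁻¹ * x⁻¹ * y * (a * x * a⁻¹ * x⁻¹)⁻¹ * y⁻¹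
            = a * (x * ((a⁻¹ * (x⁻¹ * y * x) * a⁻¹⁻¹ * (x⁻¹ * y * x)⁻¹) * (x⁻¹ * y * x))) * x⁻¹ * a⁻¹ * y⁻¹ := by group
          _ = a * ((x * (a⁻¹ * (x⁻¹ * y * x) * a⁻¹⁻¹ * (x⁻¹ * y * x)⁻¹)) * (x⁻¹ * y * x)) * x⁻¹ * a⁻¹ * y⁻¹ := by group
          _ = a * (((a⁻¹ * (x⁻¹ * y * x) * a⁻¹⁻¹ * (x⁻¹ * y * x)⁻¹) * x) * (x⁻¹ * y * x)) * x⁻¹ * a⁻¹ * y⁻¹ := by rw [hxw]
          _ = _ := by group
      rw [h1]
      exact W.mul_mem (hAW a ha _ hw1) hw2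
    refine Subgroup.mem_centralizer_iff.mpr ?_
    intro y hy
    -- the form required by the stability lemma
    have h2 := hstep y⁻¹ (P.inv_mem hy)
    have h3 := W.inv_mem h2
    have h4 : (⁅a, x⁆ * y⁻¹ * ⁅a, x⁆⁻¹ * y⁻¹⁻¹)⁻¹ = y⁻¹ * ⁅a, x⁆ * y * ⁅a, x⁆⁻¹ := by group
    rw [h4] at h3
    have hcop : (Nat.card W).Coprime (orderOf ⁅a, x⁆) := by
      have h5 : IsPGroup p W := hPp.to_le hWP
      obtain ⟨n, hn⟩ := IsPGroup.iff_card.mp h5
      rw [hn]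
      apply Nat.Coprime.pow_left
      rw [Nat.Prime.coprime_iff_not_dvd hpp]
      exact fun h => hQ (h.trans (Subgroup.orderOf_dvd_natCard Q hzQ))
    have h6 := Cfsg.Agent.Lib.Coprime.StabilityElem.comm_of_mem_centralized h3
      (fun n hn => hQW _ hzQ n hn) hcop (by simp [pow_orderOf_eq_one])
    exact h6.symm
  have hQC : Q ≤ Subgroup.centralizer (P : Set S) := by
    rw [← hAQ, Subgroup.commutator_le]
    exact hz
  have hQP : Q ≤ P := hQC.trans (Cfsg.Agent.Lib.Solvable.PSeries.centralizer_pCore_le hS hred)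
  apply hQ1
  have hQp : IsPGroup p Q := hPp.to_le hQP
  have := (IsPGroup.iff_card.mp hQp)
  obtain ⟨n, hn⟩ := this
  rw [hn] at hQ
  have hn0 : n = 0 := by
    by_contra h
    exact hQ (dvd_pow_self p h)
  rw [hn0, pow_zero] at hn
  exact Subgroup.card_eq_one.mp hn

end Cfsg.Agent.S1892
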