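import Cfsg.Statements.S1893
import Mathlib
import Cfsg.Agent.Lib.Solvable.AxB
import Cfsg.Agent.Lib.PGroup.QdStable
import Cfsg.Agent.Lib.PGroup.QdRadical
import Cfsg.Agent.Lib.PSL2.Overgroups
import Cfsg.Agent.Lib.Basic.PCore
import Cfsg.Agent.Lib.Components.Fitting
import Cfsg.Agent.Lib.Components.PiCore
import Cfsg.Agent.Lib.Nilpotent.Elements
import Cfsg.Agent.Lib.PGroup.Timmesfeld
-- import your own Cfsg.Agent.* helpers here

set_option autoImplicit false
open Cfsg

namespace Cfsg.Agent.S1893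

open Subgroup Cfsg
open scoped MatrixGroups commutatorElement
open Cfsg.Agent.Lib.Components.PiCore (IsPi)

section partA

/-- A solvable group has no section `Qd(r)`, `r ≥ 5`. -/
theorem not_sec_qd {S : Type*} [Group S] [hS : Group.IsSolvable S] {r : ℕ} [hr : Fact r.Prime] (hr5 : 5 ≤ r) :
    ¬ Cfsg.Agent.Lib.PGroup.QdSplit.Sec (qd r) S := by
  rintro ⟨K, Φ, hΦ⟩
  haveI hK : Group.IsSolvable K := solvable_of_solvable_injective K.subtype_injective
  haveI hQ : Group.IsSolvable (qd r) := solvable_of_surjective hΦ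
  haveI hSL : Group.IsSolvable (SL(2, ZMod r)) :=
    solvable_of_surjective (Cfsg.Agent.Lib.PGroup.QdRadical.qdLin_surjective (p := r))
  have hPSL : Group.IsSolvable (PSL(2, ZMod r)) :=
    solvable_of_surjective (f := QuotientGroup.mk' _) (QuotientGroup.mk'_surjective _)
  refine Cfsg.Agent.Lib.PSL2.Overgroups.not_solvable_psl (K := ZMod r) ?_ hPSL
  rw [ZMod.card]
  omega

end partA

section partB

variable {S : Type*} [Group S] [Finite S]

/-- Decomposition of an element into its `q`-part and `q'`-part. -/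
theorem exists_parts (a : S) {q : ℕ} (hq : q.Prime) :
    ∃ (a₁ a₂ : S) (i m : ℕ), a = a₁ * a₂ ∧ a₁ ^ q ^ i = 1 ∧ a₂ ^ m = 1 ∧ m.Coprime q ∧
      a₁ ∈ zpowers a ∧ a₂ ∈ zpowers a := by
  obtain ⟨i, m, hm, hem⟩ := Nat.exists_eq_pow_mul_and_not_dvd (n := orderOf a) (orderOf_pos a).ne' q hq.ne_one
  have hc : Nat.Coprime (q ^ i) m := Nat.Coprime.pow_left i ((Nat.Prime.coprime_iff_not_dvd hq).2 hm)
  have hc' : IsCoprime ((q ^ i : ℕ) : ℤ) (m : ℤ) := Nat.isCoprime_iff_coprime.2 hc
  obtain ⟨u, v, huv⟩ := hc'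
  refine ⟨a ^ (v * m), a ^ (u * (q ^ i : ℕ)), i, m, ?_, ?_, ?_, ?_, ?_, ?_⟩
  · rw [← zpow_add, add_comm, huv, zpow_one]
  · rw [← zpow_natCast, ← zpow_mul]
    have : v * (m : ℤ) * ((q ^ i : ℕ) : ℤ) = v * ((orderOf a : ℕ) : ℤ) := by
      rw [hem]; push_cast; ring
    rw [this, mul_comm, zpow_mul, zpow_natCast, pow_orderOf_eq_one, one_zpow]
  · rw [← zpow_natCast, ← zpow_mul]
    have : u * ((q ^ i : ℕ) : ℤ) * (m : ℤ) = u * ((orderOf a : ℕ) : ℤ) := by
      rw [hem]; push_cast; ring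
    rw [this, mul_comm, zpow_mul, zpow_natCast, pow_orderOf_eq_one, one_zpow]
  · exact (Nat.Prime.coprime_iff_not_dvd hq).2 hm |>.symm
  · exact ⟨_, rfl⟩
  · exact ⟨_, rfl⟩

/-- Step 1 of the core: the `r`-element `x` centralizes `O_q(S)`, `q ≠ r`. -/
theorem centralizes_pCore {F A : Subgroup S} (hFnil : Group.IsNilpotent F) (hEF : fittingSubgroup S ≤ F)
    (hAF : A ≤ F) (hFA : F ≤ normalizer (A : Set S)) (hFC : F ⊓ centralizer (A : Set S) = A)
    {x : S} (hxA : x ∈ centralizer (A : Set S)) {r k : ℕ} (hxk : orderOf x = r ^ k)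
    {q : ℕ} [hq : Fact q.Prime] (hr : r.Prime) (hqr : q ≠ r) (y : S) (hy : y ∈ pCore q S) :
    y * x = x * y := by
  have hAc : ∀ a ∈ A, ∀ b ∈ A, a * b = b * a := by
    intro a ha b hb
    have h1 : b ∈ F ⊓ centralizer (A : Set S) := by rw [hFC]; exact hb
    exact (mem_centralizer_iff.1 h1.2) a ha
  -- the `q`-part of `A`
  let B : Subgroup S := (pCore q A).map A.subtype
  have hBp : IsPGroup q B := (Cfsg.Agent.Lib.Basic.PCore.pCore_isPGroup q).map _
  have hBA : B ≤ A := map_subtype_le _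
  have hQp : IsPGroup q (pCore q S) := Cfsg.Agent.Lib.Basic.PCore.pCore_isPGroup q
  have hcop : (Nat.card (zpowers x)).Coprime q := by
    rw [Nat.card_zpowers, hxk]
    exact Nat.Coprime.pow_left k ((Nat.coprime_primes hr hq.out).2 (Ne.symm hqr))
  have hNQ : normalizer ((pCore q S : Subgroup S) : Set S) = ⊤ :=
    normalizer_eq_top_iff.2 (Cfsg.Agent.Lib.Basic.PCore.pCore_normal q S)
  have key := Cfsg.Agent.Lib.Solvable.AxB.ab_lemma (A := zpowers x) (B := B) (P := pCore q S) hQp hBp hcop ?_ ?_ ?_ ?_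
  · have h1 := mem_centralizer_iff.1 (key hy) x (mem_zpowers x)
    exact h1.symm
  · -- `x` centralizes `B`
    rw [zpowers_le]
    rw [mem_centralizer_iff]
    intro b hb
    exact ((mem_centralizer_iff.1 hxA) b (hBA hb))
  · rw [hNQ]; exact le_top
  · rw [hNQ]; exact le_top
  · -- `C_Q(B) ≤ A`
    rintro w ⟨hwQ, hwB⟩
    have hwF : w ∈ F := hEF (Cfsg.Agent.Lib.Basic.PCore.pCore_le_fittingSubgroup q hwQ)
    have hwA : w ∈ centralizer (A : Set S) := by
      rw [mem_centralizer_iff]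
      intro a ha
      obtain ⟨a₁, a₂, i, m, rfl, h1, h2, hm, ha₁, ha₂⟩ := exists_parts a hq.out
      have ha₁A : a₁ ∈ A := (zpowers_le.2 ha) ha₁
      have ha₂A : a₂ ∈ A := (zpowers_le.2 ha) ha₂
      -- commutes with the `q`-part
      have hc1 : a₁ * w = w * a₁ := by
        have hmem : (⟨a₁, ha₁A⟩ : A) ∈ pCore q A := by
          obtain ⟨j, -, hj⟩ := (Nat.dvd_prime_pow hq.out).1 (orderOf_dvd_of_pow_eq_one h1)
          have hnil : Group.IsNilpotent (⊤ : Subgroup A) := by
            rw [Group.isNilpotent_top]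
            letI : CommGroup A := { (inferInstance : Group A) with
              mul_comm := fun u v => Subtype.ext (hAc _ u.2 _ v.2) }
            infer_instance
          refine Cfsg.Agent.Lib.Basic.PCore.mem_pCore_of_normal_nilpotent (N := ⊤) normal_top hnil (mem_top _) hq.out (k := j) ?_
          rw [Subgroup.orderOf_mk]
          exact hj
        exact (mem_centralizer_iff.1 hwB) a₁ ⟨_, hmem, rfl⟩
      -- commutes with the `q'`-part
      have hc2 : a₂ * w = w * a₂ := by
        haveI := hFnil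
        have ho1 : orderOf (⟨a₂, hAF ha₂A⟩ : F) ∣ m := by
          apply orderOf_dvd_of_pow_eq_one
          apply Subtype.ext
          exact h2
        obtain ⟨j, hj⟩ := Cfsg.Agent.Lib.Nilpotent.Elements.exists_pow_eq_one_of_mem hQp hwQ
        have ho2 : orderOf (⟨w, hwF⟩ : F) ∣ q ^ j := by
          apply orderOf_dvd_of_pow_eq_one
          apply Subtype.ext
          exact hj
        have hcop2 : (orderOf (⟨a₂, hAF ha₂A⟩ : F)).Coprime (orderOf (⟨w, hwF⟩ : F)) :=
          Nat.Coprime.coprime_dvd_left ho1 (Nat.Coprime.coprime_dvd_right ho2 (Nat.Coprime.pow_right j hm))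
        have := Cfsg.Agent.Lib.Nilpotent.Elements.commute_of_coprime_orderOf hcop2
        exact congrArg Subtype.val this.eq
      calc a₁ * a₂ * w = a₁ * (a₂ * w) := by group
        _ = a₁ * (w * a₂) := by rw [hc2]
        _ = a₁ * w * a₂ := by group
        _ = w * a₁ * a₂ := by rw [hc1]
        _ = w * (a₁ * a₂) := by group
    have hwA' : w ∈ A := by
      rw [← hFC]; exact ⟨hwF, hwA⟩
    rw [mem_centralizer_iff]
    rintro _ ⟨n, rfl⟩
    have h1 := mem_centralizer_iff.1 hxA w hwA'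
    have h2 : x ^ n ∈ centralizer ({w} : Set S) := by
      apply zpow_mem
      rw [mem_centralizer_iff]
      rintro _ rfl
      exact h1
    exact ((mem_centralizer_iff.1 h2) w rfl).symm

end partB


section partB2

variable {S : Type*} [Group S] [Finite S]

theorem pCore_commute {q r : ℕ} [hq : Fact q.Prime] [hr : Fact r.Prime] (h : q ≠ r) {u v : S}
    (hu : u ∈ pCore q S) (hv : v ∈ pCore r S) : u * v = v * u := by
  have hd := IsPGroup.disjoint_of_ne q r h _ _ (Cfsg.Agent.Lib.Basic.PCore.pCore_isPGroup (G := S) q)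
    (Cfsg.Agent.Lib.Basic.PCore.pCore_isPGroup (G := S) r)
  have h1 : u * v * u⁻¹ * v⁻¹ ∈ pCore q S := by
    have : u * v * u⁻¹ * v⁻¹ = u * (v * u⁻¹ * v⁻¹) := by group
    rw [this]
    exact mul_mem hu ((Cfsg.Agent.Lib.Basic.PCore.pCore_normal q S).conj_mem _ (inv_mem hu) v)
  have h2 : u * v * u⁻¹ * v⁻¹ ∈ pCore r S :=
    mul_mem ((Cfsg.Agent.Lib.Basic.PCore.pCore_normal r S).conj_mem _ hv u) (inv_mem hv)
  have h3 : u * v * u⁻¹ * v⁻¹ = 1 := by
    have := (Subgroup.disjoint_def.1 hd) h1 h2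
    exact this
  calc u * v = (u * v * u⁻¹ * v⁻¹) * (v * u) := by group
    _ = v * u := by rw [h3, one_mul]

/-- The core of the argument: `r`-elements of `C_S(A)` lie in `A`, when `F(S) ≤ F`. -/
theorem core [hS : Group.IsSolvable S] {r : ℕ} [hr : Fact r.Prime] (hr5 : 5 ≤ r) {F A : Subgroup S}
    (hFnil : Group.IsNilpotent F) (hEF : fittingSubgroup S ≤ F)
    (hAF : A ≤ F) (hFA : F ≤ normalizer (A : Set S)) (hFC : F ⊓ centralizer (A : Set S) = A)
    {x : S} (hxA : x ∈ centralizer (A : Set S)) {k : ℕ} (hxk : orderOf x = r ^ k) : x ∈ A := by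
  classical
  set P : Subgroup S := pCore r S with hP
  haveI hPn : P.Normal := Cfsg.Agent.Lib.Basic.PCore.pCore_normal r S
  have hPp : IsPGroup r P := Cfsg.Agent.Lib.Basic.PCore.pCore_isPGroup r
  have hNP : normalizer (P : Set S) = ⊤ := normalizer_eq_top_iff.2 hPn
  -- the `r'`-part of the Fitting subgroup
  let W : Subgroup S := ⨆ p : {p : (Nat.card S).primeFactors // p.1 ≠ r}, pCore p.1.1 S
  haveI hWn : W.Normal := Subgroup.iSup_normal _
  have hE : fittingSubgroup S = P ⊔ W := by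
    rw [Cfsg.Agent.Lib.Basic.PCore.fittingSubgroup_eq_iSup_pCore]
    apply le_antisymm
    · refine iSup_le ?_
      rintro ⟨q, hq⟩
      by_cases hqr : q = r
      · subst hqr
        exact le_sup_left
      · exact (le_iSup (fun p : {p : (Nat.card S).primeFactors // p.1 ≠ r} => pCore p.1.1 S) ⟨⟨q, hq⟩, hqr⟩).trans
          le_sup_right
    · refine sup_le ?_ ?_
      · rw [← Cfsg.Agent.Lib.Basic.PCore.fittingSubgroup_eq_iSup_pCore]
        exact Cfsg.Agent.Lib.Basic.PCore.pCore_le_fittingSubgroup r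
      · refine iSup_le ?_
        rintro ⟨⟨q, hq⟩, hqr⟩
        exact le_iSup (fun p : (Nat.card S).primeFactors => pCore p.1 S) ⟨q, hq⟩
  have hWP : ∀ w ∈ W, ∀ u ∈ P, w * u = u * w := by
    intro w hw
    have hle : W ≤ centralizer (P : Set S) := by
      refine iSup_le ?_
      rintro ⟨⟨q, hq⟩, hqr⟩ w hw
      rw [mem_centralizer_iff]
      intro u hu
      haveI : Fact q.Prime := ⟨Nat.prime_of_mem_primeFactors hq⟩
      exact (pCore_commute (q := q) (r := r) hqr hw hu).symm
    intro u hu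
    exact ((mem_centralizer_iff.1 (hle hw)) u hu).symm
  have hxW : x ∈ centralizer (W : Set S) := by
    have hle : W ≤ centralizer ({x} : Set S) := by
      refine iSup_le ?_
      rintro ⟨⟨q, hq⟩, hqr⟩ w hw
      rw [mem_centralizer_iff]
      rintro _ rfl
      haveI : Fact q.Prime := ⟨Nat.prime_of_mem_primeFactors hq⟩
      exact (centralizes_pCore hFnil hEF hAF hFA hFC hxA hxk hr.out hqr w hw).symm
    rw [mem_centralizer_iff]
    intro w hw
    exact ((mem_centralizer_iff.1 (hle hw)) x rfl).symm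
  -- stability
  have hst : IsNormalizerPStable r S :=
    Cfsg.Agent.Lib.PGroup.QdStable.stable_of_sec_free (by omega) (not_sec_qd hr5)
  have hxN : x ∈ normalizer (P : Set S) := by rw [hNP]; exact mem_top x
  have hzA : zpowers x ≤ centralizer (A : Set S) := zpowers_le.2 hxA
  have hcommA : ⁅P, zpowers x⁆ ≤ A := by
    rw [commutator_le]
    intro y hy g hg
    have hgA := hzA hg
    have hyF : y ∈ F := hEF (by rw [hE]; exact mem_sup_left hy)
    have h1 : ⁅y, g⁆ ∈ P := by
      rw [commutatorElement_def]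
      have : y * g * y⁻¹ * g⁻¹ = y * (g * y⁻¹ * g⁻¹) := by group
      rw [this]
      exact mul_mem hy (hPn.conj_mem _ (inv_mem hy) g)
    have h2 : ⁅y, g⁆ ∈ F := hEF (by rw [hE]; exact mem_sup_left h1)
    have h3 : ⁅y, g⁆ ∈ centralizer (A : Set S) := by
      rw [mem_centralizer_iff]
      intro a ha
      have ha' : y⁻¹ * a * y ∈ A := by
        have := (mem_normalizer_iff.1 (hFA (inv_mem hyF)) a).1 ha
        simpa using this
      have hc1 : a * g = g * a := (mem_centralizer_iff.1 hgA) a ha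
      have hc2 : (y⁻¹ * a * y) * g = g * (y⁻¹ * a * y) := (mem_centralizer_iff.1 hgA) _ ha'
      rw [commutatorElement_def]
      have hc1' : a * g⁻¹ = g⁻¹ * a := by
        calc a * g⁻¹ = g⁻¹ * (g * a) * g⁻¹ := by group
          _ = g⁻¹ * (a * g) * g⁻¹ := by rw [hc1]
          _ = g⁻¹ * a := by group
      calc a * (y * g * y⁻¹ * g⁻¹) = y * (y⁻¹ * a * y) * g * y⁻¹ * g⁻¹ := by group
        _ = y * ((y⁻¹ * a * y) * g) * y⁻¹ * g⁻¹ := by group
        _ = y * (g * (y⁻¹ * a * y)) * y⁻¹ * g⁻¹ := by rw [hc2]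
        _ = y * g * y⁻¹ * (a * g⁻¹) := by group
        _ = y * g * y⁻¹ * (g⁻¹ * a) := by rw [hc1']
        _ = y * g * y⁻¹ * g⁻¹ * a := by group
    rw [← hFC]
    exact ⟨h2, h3⟩
  have hq : ⁅⁅P, zpowers x⁆, zpowers x⁆ = ⊥ := by
    rw [eq_bot_iff, commutator_le]
    intro u hu g hg
    have h1 : u * g = g * u := (mem_centralizer_iff.1 (hzA hg)) u (hcommA hu)
    rw [mem_bot, commutatorElement_eq_one_iff_mul_comm]
    exact h1
  have hx0 := hst P hPp x hxN hq
  -- the normal subgroup `M`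
  set N : Subgroup S := normalizer (P : Set S) with hN
  set Z : Subgroup N := (centralizer (P : Set S)).subgroupOf N with hZ
  let μ : N →* N ⧸ Z := QuotientGroup.mk' Z
  let O : Subgroup (N ⧸ Z) := pCore r (N ⧸ Z)
  have hOp : IsPGroup r O := Cfsg.Agent.Lib.Basic.PCore.pCore_isPGroup r
  have hOn : O.Normal := Cfsg.Agent.Lib.Basic.PCore.pCore_normal r _
  let M₁ : Subgroup S := (O.comap μ).map N.subtype
  have hNs : Function.Surjective N.subtype := fun g => ⟨⟨g, by rw [hNP]; exact mem_top g⟩, rfl⟩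
  haveI hM₁n : M₁.Normal := (Subgroup.Normal.comap hOn μ).map N.subtype hNs
  let M : Subgroup S := M₁ ⊓ centralizer (W : Set S)
  haveI hMn : M.Normal := inferInstance
  have hxM : x ∈ M := ⟨⟨⟨x, hxN⟩, hx0, rfl⟩, hxW⟩
  have hCE : centralizer (fittingSubgroup S : Set S) ≤ fittingSubgroup S := by
    apply Cfsg.Agent.Lib.Components.Fitting.le_fitting_of_solvable_of_le_centralizer _ le_rfl
      Subgroup.le_normalizer
    exact solvable_of_solvable_injective (Subgroup.subtype_injective _)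
  have hpow : ∀ m ∈ M, ∃ j : ℕ, m ^ r ^ j ∈ W := by
    rintro m ⟨⟨n, hn, rfl⟩, hmW⟩
    obtain ⟨i, hi⟩ := Cfsg.Agent.Lib.Nilpotent.Elements.exists_pow_eq_one_of_mem hOp hn
    have h1 : μ (n ^ r ^ i) = 1 := by rw [map_pow]; exact hi
    have h2 : n ^ r ^ i ∈ Z := (QuotientGroup.eq_one_iff _).1 h1
    have h3 : (n : S) ^ r ^ i ∈ centralizer (P : Set S) := by
      have : ((n ^ r ^ i : N) : S) ∈ centralizer (P : Set S) := h2
      simpa using this
    have h4 : (n : S) ^ r ^ i ∈ centralizer (W : Set S) := pow_mem hmW _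
    set z := (n : S) ^ r ^ i with hz
    have h5 : z ∈ centralizer (fittingSubgroup S : Set S) := by
      have hle : fittingSubgroup S ≤ centralizer ({z} : Set S) := by
        rw [hE]
        refine sup_le ?_ ?_
        · intro u hu
          rw [mem_centralizer_iff]
          rintro _ rfl
          exact ((mem_centralizer_iff.1 h3) u hu).symm
        · intro u hu
          rw [mem_centralizer_iff]
          rintro _ rfl
          exact ((mem_centralizer_iff.1 h4) u hu).symm
      rw [mem_centralizer_iff]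
      intro u hu
      exact ((mem_centralizer_iff.1 (hle hu)) z rfl).symm
    have h6 : z ∈ ((P ⊔ W : Subgroup S) : Set S) := by
      rw [← hE]; exact hCE h5
    rw [Subgroup.mul_normal] at h6
    obtain ⟨u, hu, w, hw, huw⟩ := Set.mem_mul.1 h6
    obtain ⟨j, hj⟩ := Cfsg.Agent.Lib.Nilpotent.Elements.exists_pow_eq_one_of_mem hPp hu
    refine ⟨i + j, ?_⟩
    have hcomm : Commute u w := (hWP w hw u hu).symm
    have h7 : (n : S) ^ r ^ (i + j) = z ^ r ^ j := by
      rw [hz, ← pow_mul, pow_add]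
    show (n : S) ^ r ^ (i + j) ∈ W
    rw [h7, ← huw, hcomm.mul_pow, hj, one_mul]
    exact pow_mem hw _
  have hnil : Group.IsNilpotent M := by
    have hQ : IsPGroup r (M ⧸ center M) := by
      intro g
      obtain ⟨m, rfl⟩ := QuotientGroup.mk'_surjective (center M) g
      obtain ⟨j, hj⟩ := hpow m.1 m.2
      refine ⟨j, ?_⟩
      rw [← map_pow]
      apply (QuotientGroup.eq_one_iff _).2
      rw [mem_center_iff]
      intro g
      apply Subtype.ext
      show (g : S) * (m : S) ^ r ^ j = (m : S) ^ r ^ j * g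
      exact ((mem_centralizer_iff.1 g.2.2) _ hj).symm
    have hQn : Group.IsNilpotent (M ⧸ center M) := hQ.isNilpotent
    haveI := hQn
    refine Subgroup.isNilpotent_of_ker_le_center (QuotientGroup.mk' (center M)) ?_
    rw [QuotientGroup.ker_mk']
  have hME : M ≤ fittingSubgroup S := Cfsg.Agent.Lib.Basic.PCore.le_fittingSubgroup hMn hnil
  rw [← hFC]
  exact ⟨hEF (hME hxM), hxA⟩

end partB2

section partC

variable {S : Type*} [Group S] [Finite S]

/-- The statement on `r`-elements of `C_S(A)`. -/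
theorem star [hS : Group.IsSolvable S] (π : Set ℕ) (h2 : 2 ∉ π) (h3 : 3 ∉ π) (H : Subgroup S)
    (hH : Cfsg.IsPiHall π H) (A : Subgroup S)
    (hA : Cfsg.IsSCN ((Cfsg.fittingSubgroup H).map H.subtype) A) {r : ℕ} [hr : Fact r.Prime] (hrπ : r ∈ π)
    {x : S} (hxA : x ∈ centralizer (A : Set S)) {k : ℕ} (hxk : orderOf x = r ^ k) : x ∈ A := by
  classical
  have hr5 : 5 ≤ r := by
    have h1 := hr.out.two_le
    have h4 : r ≠ 4 := by
      rintro rfl
      exact absurd hr.out (by norm_num)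
    have h5 : r ≠ 2 := fun h => h2 (h ▸ hrπ)
    have h6 : r ≠ 3 := fun h => h3 (h ▸ hrπ)
    omega
  obtain ⟨hH1, hH2⟩ := hH
  set F : Subgroup S := (Cfsg.fittingSubgroup H).map H.subtype with hF
  obtain ⟨hAF, hFA, hFC⟩ := hA
  have hFH : F ≤ H := map_subtype_le _
  have hAH : A ≤ H := hAF.trans hFH
  let σ : Set ℕ := {q | q ∉ π}
  let K : Subgroup S := piCore σ S
  have hKpi : ∀ q : ℕ, q.Prime → q ∣ Nat.card K → q ∉ π :=
    Cfsg.Agent.Lib.Components.PiCore.isPi_piCore σ
  haveI hKn : K.Normal := Cfsg.piCore_normal σ S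
  let p : S →* S ⧸ K := QuotientGroup.mk' K
  have hp : Function.Surjective p := QuotientGroup.mk'_surjective K
  have hp1 : ∀ g, p g = 1 ↔ g ∈ K := fun g => QuotientGroup.eq_one_iff g
  -- `H` and `K` are disjoint
  have hHK : ∀ g ∈ H, g ∈ K → g = 1 := by
    intro g hgH hgK
    by_contra hg1
    have ho : orderOf g ≠ 1 := fun h => hg1 (orderOf_eq_one_iff.1 h)
    obtain ⟨q, hq, hqd⟩ := Nat.exists_prime_and_dvd ho
    exact hKpi q hq (hqd.trans (Subgroup.orderOf_dvd_natCard K hgK))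
      (hH1 q hq (hqd.trans (Subgroup.orderOf_dvd_natCard H hgH)))
  -- the Fitting subgroup of the quotient
  have hEF : fittingSubgroup (S ⧸ K) ≤ F.map p := by
    set N₀ : Subgroup (S ⧸ K) := fittingSubgroup (S ⧸ K) with hN₀
    haveI hN₀n : N₀.Normal := Cfsg.Agent.Lib.Basic.PCore.fittingSubgroup_normal (S ⧸ K)
    have hN₀nil : Group.IsNilpotent N₀ := Cfsg.Agent.Lib.Basic.PCore.fittingSubgroup_isNilpotent
    have hN₀π : ∀ q : ℕ, q.Prime → q ∣ Nat.card N₀ → q ∈ π := by
      intro q hq hqd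
      by_contra hqπ
      haveI : Fact q.Prime := ⟨hq⟩
      obtain ⟨g, hg⟩ := exists_prime_orderOf_dvd_card' q hqd
      have h1 : (g : S ⧸ K) ∈ pCore q (S ⧸ K) := by
        refine Cfsg.Agent.Lib.Basic.PCore.mem_pCore_of_normal_nilpotent hN₀n hN₀nil g.2 hq (k := 1) ?_
        rw [pow_one, ← hg]
        exact Subgroup.orderOf_coe g
      have h2 : pCore q (S ⧸ K) ≤ piCore σ (S ⧸ K) := by
        refine Cfsg.Agent.Lib.Components.PiCore.le_piCore (Cfsg.Agent.Lib.Basic.PCore.pCore_normal q _) ?_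
        intro q' hq' hqd'
        obtain ⟨n, hn⟩ := IsPGroup.iff_card.1 (Cfsg.Agent.Lib.Basic.PCore.pCore_isPGroup (G := S ⧸ K) q)
        rw [hn] at hqd'
        have h3 := (Nat.prime_dvd_prime_iff_eq hq' hq).1 (hq'.dvd_of_dvd_pow hqd')
        rw [h3]
        exact hqπ
      have h4 : (g : S ⧸ K) = 1 := by
        have := h2 h1
        rw [Cfsg.Agent.Lib.Components.PiCore.piCore_quotient_eq_bot σ] at this
        exact this
      have h5 : g = 1 := Subtype.ext h4
      rw [h5, orderOf_one] at hg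
      exact hq.ne_one hg.symm
    set Hb : Subgroup (S ⧸ K) := H.map p with hHb
    have hHbi : ∀ q : ℕ, q.Prime → q ∈ π → ¬ q ∣ Hb.index := by
      intro q hq hqπ hqd
      exact hH2 q hq hqπ (hqd.trans (Subgroup.index_map_dvd H hp))
    have hN₀Hb : N₀ ≤ Hb := by
      have hle : Hb ≤ Hb ⊔ N₀ := le_sup_left
      have hnorm : Hb ≤ normalizer (N₀ : Set (S ⧸ K)) := by
        rw [normalizer_eq_top_iff.2 hN₀n]; exact le_top
      have hc := Cfsg.Agent.Lib.PGroup.Timmesfeld.card_sup_mul_card_inf_of_le_normalizer Hb N₀ hnorm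
      have hc2 : Nat.card Hb * Hb.relIndex (Hb ⊔ N₀) = Nat.card ↥(Hb ⊔ N₀) := by
        have h1 := (Hb.subgroupOf (Hb ⊔ N₀)).card_mul_index
        rw [Nat.card_congr (Subgroup.subgroupOfEquivOfLe hle).toEquiv] at h1
        exact h1
      have hdvd : Hb.relIndex (Hb ⊔ N₀) ∣ Nat.card N₀ := by
        refine ⟨Nat.card ↥(Hb ⊓ N₀), ?_⟩
        rw [← hc2] at hc
        have hpos : 0 < Nat.card Hb := Nat.card_pos
        apply Nat.eq_of_mul_eq_mul_left hpos
        rw [← hc, mul_assoc]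
      have hone : Hb.relIndex (Hb ⊔ N₀) = 1 := by
        by_contra hne
        obtain ⟨q, hq, hqd⟩ := Nat.exists_prime_and_dvd hne
        have h1 : q ∣ Hb.index := hqd.trans ⟨_, (Subgroup.relIndex_mul_index hle).symm⟩
        exact hHbi q hq (hN₀π q hq (hqd.trans hdvd)) h1
      rw [Subgroup.relIndex_eq_one] at hone
      exact le_sup_right.trans hone
    -- `N₀` lifts to a normal nilpotent subgroup of `H`
    let φ : H →* S ⧸ K := p.comp H.subtype
    have hφ : Function.Injective φ := by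
      rw [injective_iff_map_eq_one]
      intro h hh
      apply Subtype.ext
      exact hHK h.1 h.2 ((hp1 _).1 hh)
    let N₂ : Subgroup H := N₀.comap φ
    haveI hN₂n : N₂.Normal := Subgroup.Normal.comap hN₀n φ
    have hN₂nil : Group.IsNilpotent N₂ := by
      let f : N₂ →* N₀ := (φ.comp N₂.subtype).codRestrict N₀ (fun n => n.2)
      haveI := hN₀nil
      refine Subgroup.isNilpotent_of_ker_le_center f ?_
      intro n hn
      have h1 : φ n.1 = 1 := congrArg Subtype.val hn
      have h2 : n.1 = 1 := hφ (by rw [h1, map_one])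
      have h3 : n = 1 := Subtype.ext h2
      rw [h3]
      exact one_mem _
    have hN₂F : N₂ ≤ Cfsg.fittingSubgroup H := Cfsg.Agent.Lib.Basic.PCore.le_fittingSubgroup hN₂n hN₂nil
    intro g hg
    obtain ⟨h, hh, rfl⟩ := hN₀Hb hg
    exact ⟨h, ⟨⟨h, hh⟩, hN₂F hg, rfl⟩, rfl⟩
  have hFnil : Group.IsNilpotent (F.map p) :=
    Cfsg.Agent.Lib.Basic.PCore.isNilpotent_map
      (Cfsg.Agent.Lib.Basic.PCore.isNilpotent_map Cfsg.Agent.Lib.Basic.PCore.fittingSubgroup_isNilpotent H.subtype) p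
  have hFA' : F.map p ≤ normalizer ((A.map p : Subgroup (S ⧸ K)) : Set (S ⧸ K)) :=
    (map_mono hFA).trans (le_normalizer_map p)
  have hAc : ∀ a ∈ A, ∀ b ∈ A, a * b = b * a := by
    intro a ha b hb
    have h1 : b ∈ F ⊓ centralizer (A : Set S) := by rw [hFC]; exact hb
    exact (mem_centralizer_iff.1 h1.2) a ha
  have hFC' : F.map p ⊓ centralizer ((A.map p : Subgroup (S ⧸ K)) : Set (S ⧸ K)) = A.map p := by
    apply le_antisymm
    · rintro _ ⟨⟨f, hf, rfl⟩, hfc⟩
      have hfC : f ∈ centralizer (A : Set S) := by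
        rw [mem_centralizer_iff]
        intro a ha
        have h1 : p a * p f = p f * p a := (mem_centralizer_iff.1 hfc) (p a) ⟨a, ha, rfl⟩
        have h2 : a * f * a⁻¹ * f⁻¹ ∈ K := by
          rw [← hp1, map_mul, map_mul, map_mul, map_inv, map_inv, h1]
          group
        have h3 : a * f * a⁻¹ * f⁻¹ ∈ H :=
          mul_mem (mul_mem (mul_mem (hAH ha) (hFH hf)) (inv_mem (hAH ha))) (inv_mem (hFH hf))
        have h4 := hHK _ h3 h2
        calc a * f = (a * f * a⁻¹ * f⁻¹) * (f * a) := by group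
          _ = f * a := by rw [h4, one_mul]
      have : f ∈ A := by
        rw [← hFC]; exact ⟨hf, hfC⟩
      exact ⟨f, this, rfl⟩
    · refine le_inf (map_mono hAF) ?_
      rintro _ ⟨a, ha, rfl⟩
      rw [mem_centralizer_iff]
      rintro _ ⟨b, hb, rfl⟩
      rw [← map_mul, ← map_mul, hAc b hb a ha]
  have hxA' : p x ∈ centralizer ((A.map p : Subgroup (S ⧸ K)) : Set (S ⧸ K)) := by
    rw [mem_centralizer_iff]
    rintro _ ⟨a, ha, rfl⟩
    rw [← map_mul, ← map_mul, (mem_centralizer_iff.1 hxA) a ha]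
  obtain ⟨k', hk'⟩ : ∃ k' : ℕ, orderOf (p x) = r ^ k' := by
    have h1 : orderOf (p x) ∣ r ^ k := by
      rw [← hxk]; exact orderOf_map_dvd p x
    obtain ⟨j, -, hj⟩ := (Nat.dvd_prime_pow hr.out).1 h1
    exact ⟨j, hj⟩
  obtain ⟨a, ha, hax⟩ := core hr5 hFnil hEF (map_mono hAF) hFA' hFC' hxA' hk'
  -- `a⁻¹ x` lies in `K` and is a `π`-element
  have hk₀ : a⁻¹ * x ∈ K := by
    rw [← hp1, map_mul, map_inv, hax, inv_mul_cancel]
  have hcomm : Commute a⁻¹ x := by
    have h1 : a * x = x * a := (mem_centralizer_iff.1 hxA) a ha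
    exact (show Commute a x from h1).inv_left
  have hpw : (a⁻¹ * x) ^ (Nat.card A * r ^ k) = 1 := by
    rw [hcomm.mul_pow]
    have h1 : a⁻¹ ^ (Nat.card A * r ^ k) = 1 := by
      rw [pow_mul]
      have h2 := pow_card_eq_one' (G := A) (x := ⟨a, ha⟩)
      have h3' : a ^ Nat.card A = 1 := congrArg Subtype.val h2
      have h3 : a⁻¹ ^ Nat.card A = 1 := by rw [inv_pow, h3', inv_one]
      rw [h3, one_pow]
    have h2 : x ^ (Nat.card A * r ^ k) = 1 := by
      rw [mul_comm, pow_mul, ← hxk, pow_orderOf_eq_one, one_pow]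
    rw [h1, h2, one_mul]
  have hone : a⁻¹ * x = 1 := by
    by_contra hne
    have ho : orderOf (a⁻¹ * x) ≠ 1 := fun h => hne (orderOf_eq_one_iff.1 h)
    obtain ⟨q, hq, hqd⟩ := Nat.exists_prime_and_dvd ho
    have h1 : q ∉ π := hKpi q hq (hqd.trans (Subgroup.orderOf_dvd_natCard K hk₀))
    have h2 : q ∣ Nat.card A * r ^ k := hqd.trans (orderOf_dvd_of_pow_eq_one hpw)
    rcases (Nat.Prime.dvd_mul hq).1 h2 with h3 | h3
    · exact h1 (hH1 q hq (h3.trans (Subgroup.card_dvd_of_le hAH)))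
    · have h4 := (Nat.prime_dvd_prime_iff_eq hq hr.out).1 (hq.dvd_of_dvd_pow h3)
      exact h1 (h4 ▸ hrπ)
  have hxa : x = a := (inv_injective (mul_eq_one_iff_eq_inv.1 hone)).symm
  rw [hxa]
  exact ha

end partC

/-- Let S be a finite solvable group, π a set of primes containing neither 2 nor 3, H a Hall π-subgroup of S, and A a self-centralizing normal subgroup of the Fitting subgroup F(H). Then C_S(A) = A × D for a normal subgroup D of C_S(A) whose order has no prime divisor in π. -/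
theorem result {S : Type*} [Group S] [Finite S] [Group.IsSolvable S]
    (π : Set ℕ) (h2 : 2 ∉ π) (h3 : 3 ∉ π) (H : Subgroup S) (hH : Cfsg.IsPiHall π H)
    (A : Subgroup S) (hA : Cfsg.IsSCN ((Cfsg.fittingSubgroup H).map H.subtype) A) :
    ∃ D : Subgroup S, D ≤ Subgroup.centralizer (A : Set S) ∧
      (∀ c ∈ Subgroup.centralizer (A : Set S), ∀ d ∈ D, c * d * c⁻¹ ∈ D) ∧
      A ⊓ D = ⊥ ∧ A ⊔ D = Subgroup.centralizer (A : Set S) ∧
      ∀ q : ℕ, q.Prime → q ∣ Nat.card D → q ∉ π := by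
  classical
  have hst := fun (r : ℕ) (hr : Fact r.Prime) (hrπ : r ∈ π) (x : S) (hxA : x ∈ centralizer (A : Set S)) (k : ℕ)
    (hxk : orderOf x = r ^ k) => star π h2 h3 H hH A hA (r := r) hrπ hxA hxk
  obtain ⟨hH1, hH2⟩ := hH
  obtain ⟨hAF, hFA, hFC⟩ := hA
  have hFH : (Cfsg.fittingSubgroup H).map H.subtype ≤ H := map_subtype_le _
  have hAH : A ≤ H := hAF.trans hFH
  have hAC : A ≤ centralizer (A : Set S) := by
    intro b hb
    have h1 : b ∈ (Cfsg.fittingSubgroup H).map H.subtype ⊓ centralizer (A : Set S) := by rw [hFC]; exact hb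
    exact h1.2
  set C : Subgroup S := centralizer (A : Set S) with hC
  let A' : Subgroup C := A.subgroupOf C
  have hcentral : ∀ a ∈ A', ∀ c : C, c * a = a * c := by
    intro a ha c
    apply Subtype.ext
    show (c : S) * a = a * c
    exact ((mem_centralizer_iff.1 c.2) a.1 ha).symm
  haveI hA'n : A'.Normal := by
    constructor
    intro a ha c
    have : c * a * c⁻¹ = a := by rw [hcentral a ha c]; group
    rw [this]; exact ha
  have hcardA' : Nat.card A' = Nat.card A := Nat.card_congr (Subgroup.subgroupOfEquivOfLe hAC).toEquiv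
  -- primes of `π` do not divide the index
  have hidx : ∀ r : ℕ, r.Prime → r ∈ π → ¬ r ∣ A'.index := by
    intro r hr hrπ hrd
    haveI : Fact r.Prime := ⟨hr⟩
    obtain ⟨R⟩ : Nonempty (Sylow r C) := inferInstance
    have hRA : (R : Subgroup C) ≤ A' := by
      intro c hc
      obtain ⟨k, hk⟩ := IsPGroup.iff_orderOf.1 R.isPGroup' ⟨c, hc⟩
      have hk' : orderOf (c : S) = r ^ k := by
        rw [← hk, Subgroup.orderOf_mk, Subgroup.orderOf_coe]
      exact hst r ⟨hr⟩ hrπ c.1 c.2 k hk'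
    exact R.not_dvd_index (hrd.trans (Subgroup.index_dvd_of_le hRA))
  have hcop : Nat.Coprime (Nat.card A') A'.index := by
    apply Nat.Coprime.symm
    apply Nat.coprime_of_dvd
    intro q hq hq1 hq2
    rw [hcardA'] at hq2
    exact hidx q hq (hH1 q hq (hq2.trans (Subgroup.card_dvd_of_le hAH))) hq1
  obtain ⟨D₀, hD₀⟩ := Subgroup.exists_right_complement'_of_coprime hcop
  refine ⟨D₀.map C.subtype, map_subtype_le _, ?_, ?_, ?_, ?_⟩
  · -- normality
    rintro c hc _ ⟨d, hd, rfl⟩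
    have hmem : (⟨c, hc⟩ : C) ∈ ((A' ⊔ D₀ : Subgroup C) : Set C) := by
      rw [hD₀.sup_eq_top]; exact mem_top _
    rw [Subgroup.normal_mul] at hmem
    obtain ⟨a, ha, h, hh, hah⟩ := Set.mem_mul.1 hmem
    refine ⟨h * d * h⁻¹, mul_mem (mul_mem hh hd) (inv_mem hh), ?_⟩
    have h1 : (⟨c, hc⟩ : C) * d * (⟨c, hc⟩ : C)⁻¹ = h * d * h⁻¹ := by
      rw [← hah]
      have h2 : a * (h * d * h⁻¹) * a⁻¹ = h * d * h⁻¹ := by
        rw [← hcentral a ha]; group
      calc a * h * d * (a * h)⁻¹ = a * (h * d * h⁻¹) * a⁻¹ := by group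
        _ = h * d * h⁻¹ := h2
    exact (congrArg Subtype.val h1).symm
  · -- intersection
    rw [eq_bot_iff]
    rintro _ ⟨hxA, ⟨d, hd, rfl⟩⟩
    have h1 : d ∈ A' ⊓ D₀ := ⟨hxA, hd⟩
    rw [hD₀.disjoint.eq_bot, mem_bot] at h1
    rw [h1]
    exact one_mem _
  · -- join
    apply le_antisymm
    · exact sup_le hAC (map_subtype_le _)
    · intro c hc
      have hmem : (⟨c, hc⟩ : C) ∈ ((A' ⊔ D₀ : Subgroup C) : Set C) := by
        rw [hD₀.sup_eq_top]; exact mem_top _
      rw [Subgroup.normal_mul] at hmem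
      obtain ⟨a, ha, h, hh, hah⟩ := Set.mem_mul.1 hmem
      have h1 : c = a.1 * h.1 := (congrArg Subtype.val hah).symm
      rw [h1]
      exact mul_mem (mem_sup_left ha) (mem_sup_right ⟨h, hh, rfl⟩)
  · -- primes
    intro q hq hqd hqπ
    have hcard : Nat.card ↥(D₀.map C.subtype) = Nat.card D₀ :=
      Nat.card_congr (Subgroup.equivMapOfInjective _ _ C.subtype_injective).toEquiv.symm
    rw [hcard, ← hD₀.symm.index_eq_card] at hqd
    exact hidx q hq hqπ hqd

end Cfsg.Agent.S1893
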