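import Cfsg.Statements.S1894
import Mathlib
import Cfsg.Agent.Lib.PGroup.NormalRank

set_option autoImplicit false
open Cfsg

namespace Cfsg.Agent.S1894

/-- Let P be a finite p-group, A a normal subgroup of P and B an abelian subgroup of A that is normal in P. Then some subgroup C of A containing B is normal in P and is self-centralizing and normal in A (C ∈ SCN(A)). -/
theorem result {P : Type*} [Group P] [Finite P] {p : ℕ} [Fact p.Prime] (hP : IsPGroup p P)
    (A : Subgroup P) [A.Normal] (B : Subgroup P) [B.Normal] (hBA : B ≤ A) (hB : IsMulCommutative B) :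
    ∃ C : Subgroup P, C.Normal ∧ B ≤ C ∧ Cfsg.IsSCN A C := by
  let F : Set (Subgroup P) := {C | B ≤ C ∧ C ≤ A ∧ C.Normal ∧ IsMulCommutative C}
  obtain ⟨C, ⟨hBC, hCA, hCn, hCc⟩, hmax⟩ :=
    F.toFinite.exists_maximal ⟨B, le_rfl, hBA, inferInstance, hB⟩
  haveI := hCn
  refine ⟨C, hCn, hBC, hCA, ?_, ?_⟩
  · intro x _
    rw [Subgroup.mem_normalizer_iff]
    intro c
    exact ⟨fun hc => hCn.conj_mem c hc x, fun hc => by
      have := hCn.conj_mem _ hc x⁻¹
      simpa [mul_assoc] using this⟩
  · apply le_antisymm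
    · by_contra hnot
      haveI : (A ⊓ Subgroup.centralizer (C : Set P)).Normal := by infer_instance
      obtain ⟨y, ⟨hyS, hyC⟩, hyA, -, hyc⟩ :=
        Cfsg.Agent.Lib.PGroup.Critical.exists_mem_central_mod hP C _ hnot
      have hnew : C ⊔ Subgroup.zpowers y ∈ F :=
        ⟨le_trans hBC le_sup_left, sup_le hCA (Subgroup.zpowers_le.mpr hyS),
          Cfsg.Agent.Lib.PGroup.Critical.normal_sup_zpowers C hyc,
          Cfsg.Agent.Lib.PGroup.NormalRank.isMulCommutative_sup_zpowers hCc hyC⟩
      have := hmax hnew le_sup_left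
      exact hyA (this ((le_sup_right : Subgroup.zpowers y ≤ C ⊔ Subgroup.zpowers y)
        (Subgroup.mem_zpowers y)))
    · exact le_inf hCA (Subgroup.le_centralizer_iff_isMulCommutative.mpr hCc)

end Cfsg.Agent.S1894
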