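import Cfsg.Statements.S1895
import Mathlib
import Cfsg.Agent.Lib.PGroup.ChiefRankTwo

set_option autoImplicit false
open Cfsg

namespace Cfsg.Agent.S1895

open Subgroup Cfsg.Agent.Lib.PGroup
open scoped commutatorElement

/-- Commutators lie below a `p`-chief factor. -/
theorem comm_le {G : Type*} [Group G] [Finite G] {p : ℕ} [hp : Fact p.Prime]
    (H K : Subgroup G) [hH : H.Normal] [hK : K.Normal] (hKH : K < H)
    (hpow : ∃ n : ℕ, K.relIndex H = p ^ n)
    (hchief : ∀ L : Subgroup G, L.Normal → K ≤ L → L ≤ H → L = K ∨ L = H) :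
    ⁅H, H⁆ ≤ K := by
  have hnorm : (⁅H, H⁆ ⊔ K).Normal := Subgroup.sup_normal _ _
  have hle : ⁅H, H⁆ ⊔ K ≤ H := sup_le (Subgroup.commutator_le_left _ _) hKH.le
  rcases hchief _ hnorm le_sup_right hle with h | h
  · rw [← h]; exact le_sup_left
  · exfalso
    let K' : Subgroup H := K.subgroupOf H
    haveI : K'.Normal := inferInstance
    obtain ⟨n, hn⟩ := hpow
    have hcard : Nat.card (H ⧸ K') = p ^ n := hn
    have hY : IsPGroup p (H ⧸ K') := IsPGroup.of_card hcard
    have hnt : Nontrivial (H ⧸ K') := by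
      rw [← Finite.one_lt_card_iff_nontrivial]
      have h1 : Nat.card (H ⧸ K') ≠ 1 := by
        intro h1
        have h2 : K'.index = 1 := h1
        rw [Subgroup.index_eq_one] at h2
        have h3 : H ≤ K := Subgroup.subgroupOf_eq_top.1 h2
        exact absurd (le_antisymm hKH.le h3) hKH.ne
      have h2 : 0 < Nat.card (H ⧸ K') := Nat.card_pos
      omega
    have hfr : frattini (H ⧸ K') ≠ ⊤ := by
      intro h2
      have h3 : (⊥ : Subgroup (H ⧸ K')) = ⊤ := frattini_nongenerating (by rw [h2, sup_top_eq])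
      exact bot_ne_top h3
    apply hfr
    rw [eq_top_iff]
    rintro y -
    refine Basic.commutator_le_frattini hY ?_
    obtain ⟨y, rfl⟩ := QuotientGroup.mk_surjective y
    have hmem : (y : G) ∈ ⁅H, H⁆ ⊔ K := by rw [h]; exact y.2
    obtain ⟨c, hc, k, hk, hck⟩ := Subgroup.mem_sup_of_normal_right.1 hmem
    have hcm : c ∈ (commutator H).map H.subtype := by
      rw [Subgroup.map_subtype_commutator]; exact hc
    obtain ⟨c', hc', rfl⟩ := hcm
    have hkH : k ∈ H := hKH.le hk
    have e : y = c' * ⟨k, hkH⟩ := Subtype.ext hck.symm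
    rw [e, QuotientGroup.mk_mul]
    have hk1 : ((⟨k, hkH⟩ : H) : H ⧸ K') = 1 := (QuotientGroup.eq_one_iff _).2 hk
    rw [hk1, mul_one]
    have hmap : (commutator H).map (QuotientGroup.mk' K') ≤ commutator (H ⧸ K') := by
      rw [_root_.commutator_def, Subgroup.map_commutator]
      exact Subgroup.commutator_mono le_top le_top
    exact hmap ⟨c', hc', rfl⟩

/-- Let p be an odd prime and G a finite p-solvable group with no elementary abelian subgroup of order p³. Then every chief factor H/K of G (H, K normal in G with no normal subgroup of G strictly between them) whose order is a power of p has order p or p². -/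
theorem result {G : Type*} [Group G] [Finite G] {p : ℕ} [Fact p.Prime] (hp : p ≠ 2)
    (hG : Cfsg.IsPSolvable p G) (hr : Cfsg.PRankLE p 2 G)
    (H K : Subgroup G) [H.Normal] [K.Normal] (hKH : K < H) (hpow : ∃ n : ℕ, K.relIndex H = p ^ n)
    (hchief : ∀ L : Subgroup G, L.Normal → K ≤ L → L ≤ H → L = K ∨ L = H) :
    K.relIndex H = p ∨ K.relIndex H = p ^ 2 := by
  classical
  have hpp : p.Prime := Fact.out
  have hcomm := comm_le H K hKH hpow hchief
  obtain ⟨n, hn⟩ := hpow
  have hn0 : n ≠ 0 := by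
    rintro rfl
    rw [pow_zero, Subgroup.relIndex_eq_one] at hn
    exact absurd (le_antisymm hKH.le hn) hKH.ne
  -- a Sylow subgroup of `H` and the Frattini argument
  obtain ⟨S₀⟩ : Nonempty (Sylow p H) := inferInstance
  let S : Subgroup G := (S₀ : Subgroup H).map H.subtype
  have hSH : S ≤ H := Subgroup.map_subtype_le _
  have hF : normalizer (S : Set G) ⊔ H = ⊤ := Sylow.normalizer_sup_eq_top S₀
  -- `S` covers `H / K`
  have hcover : S ⊔ K = H := by
    let K' : Subgroup H := K.subgroupOf H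
    let T : Subgroup H := (S₀ : Subgroup H) ⊔ K'
    have h1 : T.index ∣ p ^ n := by
      rw [← hn]
      exact Subgroup.index_dvd_of_le le_sup_right
    have h2 : T.index ∣ (S₀ : Subgroup H).index := Subgroup.index_dvd_of_le le_sup_left
    obtain ⟨j, _, hj⟩ := (Nat.dvd_prime_pow hpp).1 h1
    have hj0 : j = 0 := by
      by_contra hne
      apply S₀.not_dvd_index
      rw [hj] at h2
      exact (dvd_pow_self p hne).trans h2
    rw [hj0, pow_zero, Subgroup.index_eq_one] at hj
    apply le_antisymm (sup_le hSH hKH.le)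
    intro h hh
    have hmem : (⟨h, hh⟩ : H) ∈ T := by rw [hj]; trivial
    have hmap : T.map H.subtype ≤ S ⊔ K := by
      rw [Subgroup.map_sup]
      refine sup_le_sup le_rfl ?_
      rintro _ ⟨x, hx, rfl⟩
      exact hx
    exact hmap ⟨⟨h, hh⟩, hmem, rfl⟩
  -- the predicate
  let Inv : Subgroup S → Prop := fun L => ∀ g ∈ normalizer (S : Set G),
    (L.map S.subtype).map (MulAut.conj g).toMonoidHom ≤ L.map S.subtype
  have hchar : ∀ L : Subgroup S, L.Characteristic → Inv L := by
    intro L hL g hg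
    have hg1 : ∀ x ∈ S, g * x * g⁻¹ ∈ S := fun x hx => (Subgroup.mem_normalizer_iff.1 hg x).1 hx
    have hg2 : ∀ x ∈ S, g⁻¹ * x * g ∈ S := fun x hx => by
      have := (Subgroup.mem_normalizer_iff.1 hg (g⁻¹ * x * g)).2 (by
        have e : g * (g⁻¹ * x * g) * g⁻¹ = x := by group
        rwa [e])
      exact this
    let ψ : S ≃* S :=
      { toFun := fun a => ⟨g * a * g⁻¹, hg1 a a.2⟩
        invFun := fun a => ⟨g⁻¹ * a * g, hg2 a a.2⟩
        left_inv := fun a => Subtype.ext (by simp only; group)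
        right_inv := fun a => Subtype.ext (by simp only; group)
        map_mul' := fun a b => Subtype.ext (by simp only [Subgroup.coe_mul]; group) }
    rintro _ ⟨_, ⟨l, hl, rfl⟩, rfl⟩
    exact ⟨ψ l, (characteristic_iff_map_le.1 hL ψ) ⟨l, hl, rfl⟩, rfl⟩
  have hsup : ∀ L M : Subgroup S, Inv L → Inv M → Inv (L ⊔ M) := by
    intro L M hL hM g hg
    rw [Subgroup.map_sup, Subgroup.map_sup]
    exact sup_le_sup (hL g hg) (hM g hg)
  have hinf : ∀ L M : Subgroup S, Inv L → Inv M → Inv (L ⊓ M) := by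
    intro L M hL hM g hg
    rw [Subgroup.map_inf _ _ _ S.subtype_injective]
    intro x hx
    obtain ⟨y, hy, rfl⟩ := hx
    exact Subgroup.mem_inf.2 ⟨hL g hg ⟨y, (Subgroup.mem_inf.1 hy).1, rfl⟩,
      hM g hg ⟨y, (Subgroup.mem_inf.1 hy).2, rfl⟩⟩
  have hR : Inv (K.subgroupOf S) := by
    intro g hg
    rw [Subgroup.subgroupOf_map_subtype]
    rintro _ ⟨y, hy, rfl⟩
    refine Subgroup.mem_inf.2 ⟨‹K.Normal›.conj_mem y (Subgroup.mem_inf.1 hy).1 g, ?_⟩
    exact (Subgroup.mem_normalizer_iff.1 hg y).1 (Subgroup.mem_inf.1 hy).2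
  have hRne : K.subgroupOf S ≠ ⊤ := by
    intro h
    have h1 : S ≤ K := Subgroup.subgroupOf_eq_top.1 h
    rw [sup_of_le_right h1] at hcover
    exact hKH.ne hcover
  have hch : ∀ L : Subgroup S, Inv L → K.subgroupOf S ≤ L → L = K.subgroupOf S ∨ L = ⊤ := by
    intro L hL hRL
    have hLH : L.map S.subtype ≤ H := (Subgroup.map_subtype_le L).trans hSH
    have hMH : L.map S.subtype ⊔ K ≤ H := sup_le hLH hKH.le
    have hNormal : (L.map S.subtype ⊔ K).Normal := by
      refine ⟨fun m hm g => ?_⟩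
      have hg : g ∈ normalizer (S : Set G) ⊔ H := by rw [hF]; trivial
      obtain ⟨a, ha, h', hh', rfl⟩ := Subgroup.mem_sup_of_normal_right.1 hg
      -- first conjugate by `h'`
      have h1 : h' * m * h'⁻¹ ∈ L.map S.subtype ⊔ K := by
        have hc : ⁅h', m⁆ ∈ K := hcomm (Subgroup.commutator_mem_commutator hh' (hMH hm))
        have e : h' * m * h'⁻¹ = ⁅h', m⁆ * m := by
          rw [commutatorElement_def]; group
        rw [e]
        exact Subgroup.mul_mem _ (Subgroup.mem_sup_right hc) hm
      -- then by `a`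
      have h2 : ∀ t ∈ L.map S.subtype ⊔ K, a * t * a⁻¹ ∈ L.map S.subtype ⊔ K := by
        intro t ht
        obtain ⟨l, hl, k, hk, rfl⟩ := Subgroup.mem_sup_of_normal_right.1 ht
        have e : a * (l * k) * a⁻¹ = (a * l * a⁻¹) * (a * k * a⁻¹) := by group
        rw [e]
        refine Subgroup.mul_mem _ (Subgroup.mem_sup_left ?_) (Subgroup.mem_sup_right ?_)
        · exact hL a ha ⟨l, hl, rfl⟩
        · exact ‹K.Normal›.conj_mem k hk a
      have e : a * h' * m * (a * h')⁻¹ = a * (h' * m * h'⁻¹) * a⁻¹ := by group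
      rw [e]
      exact h2 _ h1
    rcases hchief _ hNormal le_sup_right hMH with h | h
    · left
      apply le_antisymm _ hRL
      intro l hl
      have : (l : G) ∈ K := by
        rw [← h]
        exact Subgroup.mem_sup_left ⟨l, hl, rfl⟩
      exact this
    · right
      rw [eq_top_iff]
      intro s _
      have hsH : (s : G) ∈ L.map S.subtype ⊔ K := by rw [h]; exact hSH s.2
      obtain ⟨l, hl, k, hk, hlk⟩ := Subgroup.mem_sup_of_normal_right.1 hsH
      obtain ⟨l', hl', rfl⟩ := hl
      have hkS : k ∈ S := by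
        have e : k = (l' : G)⁻¹ * s := by
          rw [← hlk]
          simp
        rw [e]
        exact S.mul_mem (S.inv_mem l'.2) s.2
      have hkL : (⟨k, hkS⟩ : S) ∈ L := hRL hk
      have e2 : s = l' * ⟨k, hkS⟩ := Subtype.ext hlk.symm
      rw [e2]
      exact L.mul_mem hl' hkL
  have hSp : IsPGroup p S := (S₀.isPGroup').map H.subtype
  have hmain := ChiefRankTwo.main hp _ S rfl hSp (RankTwo.prankLE_subgroup hr S) Inv hchar hsup hinf
    _ hR hRne hch
  have hidx : (K.subgroupOf S).index = K.relIndex H := by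
    have e1 : (K.subgroupOf S).index = K.relIndex S := rfl
    rw [e1, ← Subgroup.relIndex_sup_right, hcover]
  rw [hidx, hn] at hmain
  have hn2 : n ≤ 2 := (Nat.pow_le_pow_iff_right hpp.one_lt).1 hmain
  rw [hn]
  rcases (by omega : n = 1 ∨ n = 2) with rfl | rfl
  · left; exact pow_one p
  · right; rfl

end Cfsg.Agent.S1895
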