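import Cfsg.Statements.S1898
import Mathlib
import Cfsg.Agent.Lib.PGroup.Critical
-- import your own Cfsg.Agent.* helpers here

set_option autoImplicit false
open Cfsg

namespace Cfsg.Agent.S1898

open scoped commutatorElement

/-- Let X be a finite 2-group whose derived subgroup is elementary abelian and central. Then the subgroup generated by the elements of order dividing 4 has exponent dividing 4, and every automorphism of X fixing each element of order dividing 4 has 2-power order. -/
theorem result {X : Type*} [Group X] [Finite X] (hX : IsPGroup 2 X)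
    (hel : Cfsg.IsElementaryAbelian 2 (commutator X)) (hcen : commutator X ≤ Subgroup.center X) :
    (∀ x ∈ Subgroup.closure {g : X | g ^ 4 = 1}, x ^ 4 = 1) ∧
      ∀ φ : MulAut X, (∀ g : X, g ^ 4 = 1 → φ g = g) → ∃ k : ℕ, φ ^ (2 ^ k) = 1 := by
  have hcen' : ∀ x y : X, ⁅y, x⁆ ∈ Subgroup.center X := fun x y =>
    hcen (Subgroup.commutator_mem_commutator (Subgroup.mem_top y) (Subgroup.mem_top x))
  have hmul : ∀ x y : X, (x * y) ^ 4 = x ^ 4 * y ^ 4 := by
    intro x y
    have hcx : Commute x ⁅y, x⁆ := (Subgroup.mem_center_iff.mp (hcen' x y)) x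
    have hcy : Commute y ⁅y, x⁆ := (Subgroup.mem_center_iff.mp (hcen' x y)) y
    rw [Cfsg.Agent.Lib.PGroup.Basic.mul_pow_of_commutator_central hcx hcy 4]
    have h2 : ⁅y, x⁆ ^ 2 = 1 := hel.2 _
      (Subgroup.commutator_mem_commutator (Subgroup.mem_top y) (Subgroup.mem_top x))
    have : (4 : ℕ).choose 2 = 2 * 3 := by decide
    rw [this, pow_mul, h2, one_pow, mul_one]
  constructor
  · intro x hx
    induction hx using Subgroup.closure_induction with
    | mem x hx => exact hx
    | one => simp
    | mul a b _ _ ha hb => rw [hmul, ha, hb, one_mul]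
    | inv a _ ha => rw [inv_pow, ha, inv_one]
  · intro φ hφ
    classical
    have hord : 0 < orderOf φ := orderOf_pos φ
    obtain ⟨k, m, hm, hkm⟩ := Nat.exists_eq_two_pow_mul_odd hord.ne'
    refine ⟨k, ?_⟩
    -- `ψ = φ ^ 2 ^ k` has odd order and fixes the same elements
    have hψord : orderOf (φ ^ 2 ^ k) ∣ m := by
      apply orderOf_dvd_of_pow_eq_one
      rw [← pow_mul, ← hkm, pow_orderOf_eq_one]
    have hcop : Nat.Coprime (orderOf (φ ^ 2 ^ k)) 2 := by
      have : Odd (orderOf (φ ^ 2 ^ k)) := Odd.of_dvd_nat hm hψord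
      exact Nat.coprime_two_right.mpr this
    have hfix : ∀ n : ℕ, ∀ g : X, g ^ 4 = 1 → (φ ^ n) g = g := by
      intro n
      induction n with
      | zero => intro g _; simp
      | succ n ih =>
        intro g hg
        rw [pow_succ, MulAut.mul_apply, hφ g hg, ih g hg]
    exact Cfsg.Agent.Lib.PGroup.Critical.coprime_aut_eq_one_of_fixes hX (φ ^ 2 ^ k) hcop
      (n := 4) (by norm_num) (by decide) (fun g hg => hfix _ g hg)

end Cfsg.Agent.S1898
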