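import Cfsg.Statements.S1899
import Mathlib
-- import your own Cfsg.Agent.* helpers here

set_option autoImplicit false
open Cfsg

namespace Cfsg.Agent.S1899

/-- Let a dihedral group of order 2n, n odd and n > 1, act on a finite abelian 2-group A through automorphisms d and t with d^n = 1, t² = 1 and t d t⁻¹ = d⁻¹, and suppose that d fixes only the identity. Then A is the internal direct product of C_A(t) and its image under d. -/
theorem result {A : Type*} [CommGroup A] [Finite A] (hA : IsPGroup 2 A)
    {n : ℕ} (hn : Odd n) (hn1 : 1 < n) (d t : MulAut A) (hd : d ^ n = 1) (ht : t ^ 2 = 1) (hdt : t * d * t⁻¹ = d⁻¹)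
    (hfix : ∀ a : A, d a = a → a = 1) :
    (MulEquiv.toMonoidHom t).eqLocus (MonoidHom.id A) ⊓ ((MulEquiv.toMonoidHom t).eqLocus (MonoidHom.id A)).map d.toMonoidHom = ⊥ ∧
      (MulEquiv.toMonoidHom t).eqLocus (MonoidHom.id A) ⊔ ((MulEquiv.toMonoidHom t).eqLocus (MonoidHom.id A)).map d.toMonoidHom = ⊤ := by
  obtain ⟨k, hk⟩ := hn
  have htt : ∀ x : A, t (t x) = x := by
    intro x
    have : (t ^ 2) x = x := by rw [ht]; rfl
    simpa [pow_two, MulAut.mul_apply] using this
  have hrel : t * d = d⁻¹ * t := by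
    calc t * d = t * d * t⁻¹ * t := by group
      _ = d⁻¹ * t := by rw [hdt]
  have htd : ∀ x : A, t (d x) = d⁻¹ (t x) := by
    intro x
    have := congrArg (fun f : MulAut A => f x) hrel
    simpa [MulAut.mul_apply] using this
  have hrel2 : t * d⁻¹ = d * t := by
    have h1 : t * d⁻¹ * t⁻¹ = d := by
      have : (t * d * t⁻¹)⁻¹ = t * d⁻¹ * t⁻¹ := by group
      rw [← this, hdt, inv_inv]
    calc t * d⁻¹ = t * d⁻¹ * t⁻¹ * t := by group
      _ = d * t := by rw [h1]
  have htd' : ∀ x : A, t (d⁻¹ x) = d (t x) := by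
    intro x
    have := congrArg (fun f : MulAut A => f x) hrel2
    simpa [MulAut.mul_apply] using this
  -- d^2 has only trivial fixed points
  have hfix2 : ∀ x : A, d (d x) = x → x = 1 := by
    intro x hx
    apply hfix
    have h2 : ∀ m : ℕ, (d ^ (2 * m)) x = x := by
      intro m
      induction m with
      | zero => simp
      | succ m ih =>
        have : d ^ (2 * (m + 1)) = d ^ (2 * m) * (d * d) := by
          rw [Nat.mul_succ, pow_add, pow_two]
        rw [this, MulAut.mul_apply, MulAut.mul_apply, hx, ih]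
    have h3 := h2 (k + 1)
    have h4 : d ^ (2 * (k + 1)) = d ^ n * d := by
      rw [hk]; rw [← pow_succ]; congr 1
    rw [h4, hd, one_mul] at h3
    exact h3
  -- the map e = d - d⁻¹
  let e : A →* A :=
    { toFun := fun x => d x * (d⁻¹ x)⁻¹
      map_one' := by simp
      map_mul' := by
        intro x y
        simp only [map_mul, mul_inv]
        exact mul_mul_mul_comm _ _ _ _ }
  have he : ∀ x, e x = d x * (d⁻¹ x)⁻¹ := fun x => rfl
  have heinj : Function.Injective e := by
    rw [injective_iff_map_eq_one]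
    intro x hx
    rw [he, mul_inv_eq_one] at hx
    apply hfix2
    have : d (d⁻¹ x) = x := by simp
    rw [hx]; exact this
  have hesurj : Function.Surjective e := Finite.injective_iff_surjective.mp heinj
  constructor
  · rw [eq_bot_iff]
    rintro x ⟨hx1, ⟨c, hc, hcx⟩⟩
    have hx1' : t x = x := hx1
    have hc' : t c = c := hc
    have hcx' : d c = x := hcx
    rw [Subgroup.mem_bot]
    apply hfix2
    -- t x = x with x = d c, so d⁻¹ c = d c
    have h1 : t (d c) = d⁻¹ c := by rw [htd, hc']
    rw [hcx', hx1'] at h1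
    -- x = d⁻¹ c, so d x = c and d (d x) = d c = x
    have h2 : d x = c := by rw [h1]; simp
    rw [h2, hcx']
  · rw [eq_top_iff]
    intro a _
    obtain ⟨c', hc'⟩ := hesurj (a * (t a)⁻¹)
    have hfixc' : t c' = c' := by
      apply heinj
      have h3 : d⁻¹ (t c') * (d (t c'))⁻¹ = t a * a⁻¹ := by
        have := congrArg t hc'
        rw [he] at this
        simpa only [map_mul, map_inv, htt, htd, htd'] using this
      rw [hc', he]
      have h4 := congrArg (·⁻¹) h3
      simp only [mul_inv, inv_inv] at h4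
      rw [mul_comm (d (t c')), h4, mul_comm]
    rw [Subgroup.mem_sup]
    refine ⟨a * (d c')⁻¹, ?_, d c', ⟨c', hfixc', rfl⟩, by simp⟩
    show t (a * (d c')⁻¹) = a * (d c')⁻¹
    rw [map_mul, map_inv, htd, hfixc']
    have h2 : d c' * (d⁻¹ c')⁻¹ = a * (t a)⁻¹ := hc'
    generalize t a = u at *
    generalize d c' = Y at *
    generalize d⁻¹ c' = X at *
    have : a = Y * X⁻¹ * u := by rw [h2]; group
    rw [eq_mul_inv_iff_mul_eq, this]
    ac_rfl

end Cfsg.Agent.S1899
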