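import Cfsg.Statements.S1901
import Mathlib
import Cfsg.Agent.Lib.Solvable.PSeries

set_option autoImplicit false
set_option linter.style.haveILetI false
open Cfsg

namespace Cfsg.Agent.S1901

open Cfsg.Agent.Lib.Solvable.PSeries Cfsg.Agent.Lib.Basic.PCore

universe u

/-- A `p`-subgroup meets a subgroup of order prime to `p` trivially. -/
lemma eq_one_of_mem_of_mem {G : Type u} [Group G] [Finite G] {p : ℕ} [Fact p.Prime] {R Q : Subgroup G}
    (hR : IsPGroup p R) (hQ : ¬ p ∣ Nat.card Q) {x : G} (hxR : x ∈ R) (hxQ : x ∈ Q) : x = 1 := by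
  obtain ⟨k, hk⟩ := (IsPGroup.iff_orderOf.mp hR) ⟨x, hxR⟩
  have h1 : orderOf x = p ^ k := by rw [← hk, Subgroup.orderOf_mk]
  have h2 : orderOf x ∣ Nat.card Q := Subgroup.orderOf_dvd_natCard Q hxQ
  rw [h1] at h2
  cases k with
  | zero => simpa [pow_zero] using h1
  | succ k => exact absurd ((dvd_pow_self p (Nat.succ_ne_zero k)).trans h2) hQ

/-- The key claim: if `Q` is a `p'`-subgroup normalising a Sylow `p`-subgroup `P` then
every `p`-element normalising `Q` centralises `Q`. -/
theorem key {G : Type u} [Group G] [Finite G] {p : ℕ} [Fact p.Prime] (hG : IsPSolvable p G)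
    (Q : Subgroup G) (hQ : ¬ p ∣ Nat.card Q) (P : Sylow p G)
    (hQP : Q ≤ Subgroup.normalizer ((P : Subgroup G) : Set G))
    (x : G) (hx : x ∈ Subgroup.normalizer (Q : Set G)) (k : ℕ) (hxk : x ^ (p ^ k) = 1) :
    ∀ q ∈ Q, x * q * x⁻¹ = q := by
  classical
  induction' hn : Nat.card G using Nat.strong_induction_on with n ih generalizing G
  -- quotient step
  have step : ∀ (N : Subgroup G) [N.Normal], N ≠ ⊥ → ∀ q ∈ Q, x * q * x⁻¹ * q⁻¹ ∈ N := by
    intro N _ hN q hq
    let π : G →* G ⧸ N := QuotientGroup.mk' N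
    have hπ : Function.Surjective π := QuotientGroup.mk'_surjective N
    have hlt : Nat.card (G ⧸ N) < n := by
      rw [← hn]
      have h1 := Subgroup.card_mul_index N
      have h2 : 1 < Nat.card N := Subgroup.one_lt_card_iff_ne_bot N |>.mpr hN
      have h3 : 0 < N.index := Nat.pos_of_ne_zero Subgroup.index_ne_zero_of_finite
      change N.index < _
      rw [← h1]
      nlinarith
    have hQ' : ¬ p ∣ Nat.card (Q.map π) := fun h => hQ (h.trans (Subgroup.card_map_dvd _ _))
    let P' : Sylow p (G ⧸ N) := P.mapSurjective hπ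
    have hP' : (P' : Subgroup (G ⧸ N)) = (P : Subgroup G).map π := Sylow.coe_mapSurjective _ _
    have hQP' : Q.map π ≤ Subgroup.normalizer ((P' : Subgroup (G ⧸ N)) : Set (G ⧸ N)) := by
      rw [hP']
      exact (Subgroup.map_mono hQP).trans (Subgroup.le_normalizer_map π)
    have hx' : π x ∈ Subgroup.normalizer ((Q.map π : Subgroup (G ⧸ N)) : Set (G ⧸ N)) :=
      Subgroup.le_normalizer_map π ⟨x, hx, rfl⟩
    have hxk' : (π x) ^ (p ^ k) = 1 := by rw [← map_pow, hxk, map_one]
    have := ih _ hlt (isPSolvable_quotient hG N) (Q.map π) hQ' P' hQP' (π x) hx' hxk' rfl (π q) ⟨q, hq, rfl⟩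
    have h2 : π (x * q * x⁻¹ * q⁻¹) = 1 := by
      rw [map_mul, map_mul, map_mul, map_inv, map_inv, this, mul_inv_cancel]
    exact (QuotientGroup.eq_one_iff _).mp h2
  -- conjugating by `x` preserves `Q`
  have hxQ : ∀ q ∈ Q, x * q * x⁻¹ ∈ Q := fun q hq => (Subgroup.mem_normalizer_iff.mp hx q).mp hq
  by_cases htriv : Nontrivial G
  · rcases isPSolvable_core_ne_bot hG with h1 | h1
    · -- `O_p(G) ≠ 1`
      have hN := pCore_normal p G
      intro q hq
      have h2 := step (pCore p G) h1 q hq
      have h3 : x * q * x⁻¹ * q⁻¹ ∈ Q := Q.mul_mem (hxQ q hq) (Q.inv_mem hq)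
      have h4 := eq_one_of_mem_of_mem (pCore_isPGroup p) hQ h2 h3
      exact mul_inv_eq_one.mp h4
    · -- `O_{p'}(G) ≠ 1`
      have hN := pPrimeCore_normal p G
      set N := pPrimeCore p G with hNdef
      have hNc : (Nat.card N).Coprime p := pPrimeCore_coprime p
      set D : Subgroup G := Q ⊓ N with hD
      -- `P` centralises `D`
      have hPN : ∀ y ∈ (P : Subgroup G), y ∈ N → y = 1 := by
        intro y hy hyN
        have : ¬ p ∣ Nat.card N := fun h => by
          have := Nat.Coprime.eq_one_of_dvd hNc.symm h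
          exact (Fact.out : p.Prime).one_lt.ne' this
        exact eq_one_of_mem_of_mem P.2 this hy hyN
      have hPcent : ∀ g ∈ (P : Subgroup G), ∀ d ∈ D, g * d * g⁻¹ = d := by
        intro g hg d hd
        have h1 : d * g * d⁻¹ ∈ (P : Subgroup G) :=
          (Subgroup.mem_normalizer_iff.mp (hQP hd.1) g).mp hg
        have h2 : d * g * d⁻¹ * g⁻¹ ∈ (P : Subgroup G) := Subgroup.mul_mem _ h1 (Subgroup.inv_mem _ hg)
        have h3 : d * g * d⁻¹ * g⁻¹ ∈ N := by
          have := hN.conj_mem d⁻¹ (N.inv_mem hd.2) g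
          have h4 : d * g * d⁻¹ * g⁻¹ = d * (g * d⁻¹ * g⁻¹) := by group
          rw [h4]
          exact N.mul_mem hd.2 this
        have h5 := hPN _ h2 h3
        have h6 : d * g = g * d := by
          have : d * g * d⁻¹ = g := mul_inv_eq_one.mp h5
          exact mul_inv_eq_iff_eq_mul.mp this
        rw [← h6, mul_inv_cancel_right]
      -- `x` normalises `D`
      have hxD : x ∈ Subgroup.normalizer (D : Set G) := by
        rw [Subgroup.mem_normalizer_iff]
        intro h
        constructor
        · intro hh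
          exact ⟨hxQ h hh.1, hN.conj_mem h hh.2 x⟩
        · intro hh
          refine ⟨(Subgroup.mem_normalizer_iff.mp hx h).mpr hh.1, ?_⟩
          have := hN.conj_mem _ hh.2 x⁻¹
          simpa [mul_assoc] using this
      -- `x` centralises `D`
      set T := Subgroup.normalizer (D : Set G) with hT
      have hPT : (P : Subgroup G) ≤ T := by
        intro g hg
        rw [hT, Subgroup.mem_normalizer_iff]
        intro h
        constructor
        · intro hh
          have := hPcent g hg h hh
          rw [this]; exact hh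
        · intro hh
          have h1 := hPcent g⁻¹ (Subgroup.inv_mem _ hg) _ hh
          have h2 : g⁻¹ * (g * h * g⁻¹) * g⁻¹⁻¹ = h := by group
          rw [h2] at h1
          rw [h1]; exact hh
      have hxT : x ∈ T := hxD
      let PT : Sylow p T := P.subtype hPT
      have hR : IsPGroup p (Subgroup.zpowers (⟨x, hxT⟩ : T)) := by
        rintro ⟨z, i, rfl⟩
        refine ⟨k, ?_⟩
        apply Subtype.ext
        apply Subtype.ext
        show (x ^ i) ^ (p ^ k) = 1
        rw [← zpow_natCast, ← zpow_mul, mul_comm, zpow_mul, zpow_natCast, hxk, one_zpow]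
      obtain ⟨S, hS⟩ := IsPGroup.exists_le_sylow hR
      obtain ⟨t, ht⟩ := MulAction.exists_smul_eq T PT S
      have hmem : (⟨x, hxT⟩ : T) ∈ (S : Subgroup T) := hS (Subgroup.mem_zpowers _)
      rw [← ht, Sylow.coe_subgroup_smul, Subgroup.mem_pointwise_smul_iff_inv_smul_mem] at hmem
      have hg : (t : G)⁻¹ * x * t ∈ (P : Subgroup G) := by
        have h1 : t⁻¹ * (⟨x, hxT⟩ : T) * t ∈ (PT : Subgroup T) := by
          simpa [MulAut.smul_def] using hmem
        rw [Sylow.coe_subtype, Subgroup.mem_subgroupOf] at h1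
        simpa using h1
      have hxcentD : ∀ d ∈ D, x * d * x⁻¹ = d := by
        intro d hd
        have htT : (t : G)⁻¹ ∈ T := T.inv_mem t.2
        have hd' : (t : G)⁻¹ * d * t ∈ D := by
          have := (Subgroup.mem_normalizer_iff.mp htT d).mp hd
          simpa using this
        have h2 := hPcent _ hg _ hd'
        have h3 : x * d * x⁻¹ = t * (((t : G)⁻¹ * x * t) * ((t : G)⁻¹ * d * t) * ((t : G)⁻¹ * x * t)⁻¹) * (t : G)⁻¹ := by
          group
        rw [h3, h2]
        group
      intro q hq
      set d := x * q * x⁻¹ * q⁻¹ with hd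
      have hdN : d ∈ N := step N h1 q hq
      have hdQ : d ∈ Q := Q.mul_mem (hxQ q hq) (Q.inv_mem hq)
      have hdD : d ∈ D := ⟨hdQ, hdN⟩
      have hxq : x * q * x⁻¹ = d * q := by rw [hd]; group
      have hpow : ∀ j : ℕ, x ^ j * q * (x ^ j)⁻¹ = d ^ j * q := by
        intro j
        induction j with
        | zero => simp
        | succ j ih2 =>
          have hcomm : ∀ i : ℕ, x * d ^ i * x⁻¹ = d ^ i := by
            intro i
            rw [← conj_pow, hxcentD d hdD]
          calc x ^ (j + 1) * q * (x ^ (j + 1))⁻¹ = x * (x ^ j * q * (x ^ j)⁻¹) * x⁻¹ := by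
                rw [pow_succ']; group
            _ = x * (d ^ j * q) * x⁻¹ := by rw [ih2]
            _ = (x * d ^ j * x⁻¹) * (x * q * x⁻¹) := by group
            _ = d ^ j * (d * q) := by rw [hcomm, hxq]
            _ = d ^ (j + 1) * q := by rw [pow_succ, mul_assoc (d ^ j) d q]
      have h5 := hpow (p ^ k)
      rw [hxk] at h5
      have h6 : d ^ (p ^ k) = 1 := by simpa using h5.symm
      have h7 : orderOf d ∣ p ^ k := orderOf_dvd_of_pow_eq_one h6
      have h8 : orderOf d ∣ Nat.card Q := Subgroup.orderOf_dvd_natCard Q hdQ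
      obtain ⟨i, -, hi⟩ := (Nat.dvd_prime_pow (Fact.out : p.Prime)).mp h7
      have hd1 : d = 1 := by
        cases i with
        | zero =>
          rw [pow_zero] at hi
          exact orderOf_eq_one_iff.mp hi
        | succ i =>
          rw [hi] at h8
          exact absurd ((dvd_pow_self p (Nat.succ_ne_zero i)).trans h8) hQ
      exact mul_inv_eq_one.mp hd1
  · rw [not_nontrivial_iff_subsingleton] at htriv
    intro q _
    exact Subsingleton.elim _ _

/-- Let G be a finite p-solvable group and Q a subgroup of order prime to p such that p divides the index of C_G(Q) in N_G(Q). Then Q normalizes no Sylow p-subgroup of G. -/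
theorem result {G : Type*} [Group G] [Finite G] {p : ℕ} [Fact p.Prime]
    (hG : Cfsg.IsPSolvable p G) (Q : Subgroup G) (hQ : ¬ p ∣ Nat.card Q)
    (hA : p ∣ (Subgroup.centralizer (Q : Set G)).relIndex (Subgroup.normalizer (Q : Set G)))
    (P : Sylow p G) : ¬ Q ≤ Subgroup.normalizer ((P : Subgroup G) : Set G) := by
  classical
  intro hQP
  set T := Subgroup.normalizer (Q : Set G) with hT
  set C := Subgroup.centralizer (Q : Set G) with hC
  have hCT : (C.subgroupOf T).Normal := by
    constructor
    intro c hc g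
    rw [Subgroup.mem_subgroupOf] at hc ⊢
    rw [hC, Subgroup.mem_centralizer_iff]
    intro q hq
    have hq' : (g : G)⁻¹ * q * g ∈ Q := by
      have := (Subgroup.mem_normalizer_iff.mp (T.inv_mem g.2) q).mp hq
      simpa using this
    have := Subgroup.mem_centralizer_iff.mp hc _ hq'
    simp only [Subgroup.coe_mul, Subgroup.coe_inv]
    have h2 : q * ((g : G) * c * (g : G)⁻¹) = (g : G) * (((g : G)⁻¹ * q * g) * c) * (g : G)⁻¹ := by group
    rw [h2, this]
    group
  have hfin : Finite (T ⧸ C.subgroupOf T) := inferInstance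
  have hp : p ∣ Nat.card (T ⧸ C.subgroupOf T) := hA
  haveI : Fact p.Prime := inferInstance
  obtain ⟨ybar, hy⟩ := exists_prime_orderOf_dvd_card' (G := T ⧸ C.subgroupOf T) p hp
  obtain ⟨y, rfl⟩ := QuotientGroup.mk'_surjective (C.subgroupOf T) ybar
  -- the `p`-part of `y`
  set m := ordCompl[p] (orderOf (y : G)) with hm
  have hord : orderOf (y : G) = p ^ (orderOf (y : G)).factorization p * m :=
    (Nat.ordProj_mul_ordCompl_eq_self _ _).symm
  set k := (orderOf (y : G)).factorization p with hk
  have hxk : ((y : G) ^ m) ^ (p ^ k) = 1 := by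
    rw [← pow_mul, mul_comm, ← hord, pow_orderOf_eq_one]
  have hxT : (y : G) ^ m ∈ T := T.pow_mem y.2 _
  have hcent := key hG Q hQ P hQP _ hxT k hxk
  have hyC : (y : G) ^ m ∈ C := by
    rw [hC, Subgroup.mem_centralizer_iff]
    intro q hq
    have := hcent q hq
    have h2 : (y : G) ^ m * q = q * (y : G) ^ m := by
      rwa [mul_inv_eq_iff_eq_mul] at this
    exact h2.symm
  have hone : (QuotientGroup.mk' (C.subgroupOf T) y) ^ m = 1 := by
    rw [← map_pow]
    apply (QuotientGroup.eq_one_iff _).mpr
    rw [Subgroup.mem_subgroupOf]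
    simpa using hyC
  have hd := orderOf_dvd_of_pow_eq_one hone
  rw [hy] at hd
  have hnd : ¬ p ∣ m := Nat.not_dvd_ordCompl (Fact.out : p.Prime) (orderOf_pos _).ne'
  exact hnd hd

end Cfsg.Agent.S1901
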