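import Cfsg.Statements.S1902
import Cfsg.Agent.S0629
import Cfsg.Agent.S1302
import Cfsg.Agent.Lib.Coprime.PSolvable
import Cfsg.Agent.Lib.Coprime.Three
import Cfsg.Agent.Lib.PGroup.Basic
import Mathlib

set_option autoImplicit false
open Cfsg

namespace Cfsg.Agent.S1902

open scoped Pointwise

/-- Let p be an odd prime, G a finite p-solvable group, and B an elementary abelian subgroup of order p² such that B is the subgroup generated by the elements of order p of some Sylow p-subgroup of C_G(b₀), for some nontrivial b₀ ∈ B. Then every B-invariant subgroup of G of order prime to p lies in O_{p'}(G). -/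
theorem result {G : Type*} [Group G] [Finite G] {p : ℕ} [Fact p.Prime] (hp : p ≠ 2)
    (hG : Cfsg.IsPSolvable p G) (B : Subgroup G) (hB : Cfsg.IsElementaryAbelian p B) (hBc : Nat.card B = p ^ 2)
    (b₀ : G) (hb₀ : b₀ ∈ B) (hb₁ : b₀ ≠ 1) (P : Sylow p ↥(Subgroup.centralizer ({b₀} : Set G)))
    (hBP : B = Subgroup.closure {x : G | x ∈ ((P : Subgroup ↥(Subgroup.centralizer ({b₀} : Set G))).map
      (Subgroup.centralizer ({b₀} : Set G)).subtype : Subgroup G) ∧ orderOf x = p})
    (Q : Subgroup G) (hQ : ¬ p ∣ Nat.card Q) (hinv : ∀ b ∈ B, ∀ x ∈ Q, b * x * b⁻¹ ∈ Q) :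
    Q ≤ Cfsg.pPrimeCore p G := by
  classical
  have hpp : p.Prime := Fact.out
  have hB' := Cfsg.Agent.Lib.PGroup.Basic.isElementaryAbelian_iff.mp hB
  have hBcomm := hB'.1
  have hBexp := hB'.2
  have hBp : IsPGroup p B := Cfsg.Agent.Lib.PGroup.Basic.IsElementaryAbelian.isPGroup hB
  have hcons : IsPConstrained p G := by
    obtain ⟨R⟩ : Nonempty (Sylow p (pPrimePCore p G)) := inferInstance
    exact Cfsg.Agent.S0629.result R (Cfsg.Agent.Lib.Coprime.PSolvable.isPSolvable_subgroup hpp _ hG)
  have hΩ : ∀ x ∈ Subgroup.centralizer (B : Set G), orderOf x = p → x ∈ B := by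
    intro x hx hxo
    have hBC : B ≤ Subgroup.centralizer ({b₀} : Set G) := by
      intro b hb
      rw [Subgroup.mem_centralizer_singleton_iff]
      exact hBcomm _ hb _ hb₀
    have hxC : x ∈ Subgroup.centralizer ({b₀} : Set G) := by
      rw [Subgroup.mem_centralizer_singleton_iff]
      exact (Subgroup.mem_centralizer_iff.mp hx b₀ hb₀).symm
    let E : Subgroup G := B ⊔ Subgroup.zpowers x
    have hEe : Cfsg.IsElementaryAbelian p E :=
      Cfsg.Agent.Lib.PGroup.Basic.IsElementaryAbelian.sup_zpowers hB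
        (by rw [← hxo]; exact pow_orderOf_eq_one x)
        (fun a ha => (Subgroup.mem_centralizer_iff.mp hx a ha).symm)
    have hEC : E ≤ Subgroup.centralizer ({b₀} : Set G) :=
      sup_le hBC (by simpa using hxC)
    have hEp : IsPGroup p E := Cfsg.Agent.Lib.PGroup.Basic.IsElementaryAbelian.isPGroup hEe
    have hE'p : IsPGroup p (E.subgroupOf (Subgroup.centralizer ({b₀} : Set G))) :=
      hEp.comap_of_injective (Subgroup.centralizer ({b₀} : Set G)).subtype Subtype.val_injective
    obtain ⟨S, hS⟩ := hE'p.exists_le_sylow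
    obtain ⟨g, hg⟩ := MulAction.exists_smul_eq (Subgroup.centralizer ({b₀} : Set G)) P S
    let φ : G ≃* G := MulAut.conj (g : G)
    have hSmap : (S : Subgroup _).map (Subgroup.centralizer ({b₀} : Set G)).subtype
        = ((P : Subgroup _).map (Subgroup.centralizer ({b₀} : Set G)).subtype).map φ.toMonoidHom := by
      rw [← hg]
      ext y
      constructor
      · rintro ⟨z, hz, rfl⟩
        have hz' : z ∈ (MulAut.conj g • (P : Subgroup _)) := by
          rw [← Sylow.pointwise_smul_def, ← Sylow.smul_def]; exact hz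
        rw [Subgroup.mem_smul_pointwise_iff_exists] at hz'
        obtain ⟨w, hw, rfl⟩ := hz'
        exact ⟨(w : G), ⟨w, hw, rfl⟩, rfl⟩
      · rintro ⟨_, ⟨w, hw, rfl⟩, rfl⟩
        refine ⟨MulAut.conj g • w, ?_, rfl⟩
        have : MulAut.conj g • w ∈ (MulAut.conj g • (P : Subgroup _)) :=
          Subgroup.smul_mem_pointwise_smul _ _ _ hw
        rw [← Sylow.pointwise_smul_def, ← Sylow.smul_def] at this
        exact this
    have hEmem : E ≤ (S : Subgroup _).map (Subgroup.centralizer ({b₀} : Set G)).subtype := by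
      intro y hy
      exact ⟨⟨y, hEC hy⟩, hS (Subgroup.mem_subgroupOf.mpr hy), rfl⟩
    let B' : Subgroup G := Subgroup.closure
      {y : G | y ∈ (S : Subgroup _).map (Subgroup.centralizer ({b₀} : Set G)).subtype ∧ orderOf y = p}
    have hB'eq : B' = B.map φ.toMonoidHom := by
      rw [hBP, MonoidHom.map_closure]
      show Subgroup.closure _ = Subgroup.closure _
      congr 1
      ext y
      rw [hSmap]
      constructor
      · rintro ⟨h1, h2⟩
        obtain ⟨z, hz, rfl⟩ := h1
        refine ⟨z, ⟨hz, ?_⟩, rfl⟩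
        rw [← h2]
        exact (orderOf_injective φ.toMonoidHom φ.injective z).symm
      · rintro ⟨z, ⟨hz, hzo⟩, rfl⟩
        refine ⟨⟨z, hz, rfl⟩, ?_⟩
        rw [← hzo]
        exact orderOf_injective φ.toMonoidHom φ.injective z
    have hcard : Nat.card B' = Nat.card B := by
      rw [hB'eq]
      exact Subgroup.card_map_of_injective φ.injective
    have hle : B ≤ B' := by
      intro b hb
      by_cases hb1 : b = 1
      · rw [hb1]; exact Subgroup.one_mem _
      · apply Subgroup.subset_closure
        exact ⟨hEmem (Subgroup.mem_sup_left hb), orderOf_eq_prime (hBexp b hb) hb1⟩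
    have heq : B = B' := Subgroup.eq_of_le_of_card_ge hle hcard.le
    rw [heq]
    apply Subgroup.subset_closure
    exact ⟨hEmem (Subgroup.mem_sup_right (Subgroup.mem_zpowers x)), hxo⟩
  have hnorm : B ≤ Subgroup.normalizer (Q : Set G) := fun b hb =>
    Cfsg.Agent.Lib.Coprime.Three.mem_normalizer_of_conj_mem (hinv b hb)
  exact Cfsg.Agent.S1302.result p hp hcons B ⟨⟨fun a b => Subtype.ext (hBcomm _ a.2 _ b.2)⟩⟩ hBp hΩ Q hQ hnorm

end Cfsg.Agent.S1902
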