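import Cfsg.Statements.S1903
import Cfsg.Agent.Lib.Classical.Lin.Ord320G
import Cfsg.Agent.Lib.Classical.Lin.Ord320U

set_option autoImplicit false
open Cfsg

namespace Cfsg.Agent.S1903

open Cfsg.Agent.Lib.Classical.Lin

/-- A finite group of order 320 whose derived subgroup has order 64 and has centre a Klein four-group is isomorphic to the centralizer of an involution in PSU₃(4). -/
theorem result {G : Type*} [Group G] [Finite G] (hG : Nat.card G = 320) (hD : Nat.card (commutator G) = 64)
    (hZ : IsKleinFour (Subgroup.center (commutator G)))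
    {F : Type*} [Field F] [Fintype F] (hF : Fintype.card F = 16) :
    ∃ t : Cfsg.PSU 3 F 4, orderOf t = 2 ∧ Nonempty (G ≃* Subgroup.centralizer ({t} : Set (Cfsg.PSU 3 F 4))) := by
  classical
  have h2 : (2 : F) = 0 := by
    have h16 : ((Fintype.card F : ℕ) : F) = 0 := FiniteField.cast_card_eq_zero F
    rw [hF] at h16
    have : (2 : F) ^ 4 = 0 := by
      have e : (2 : F) ^ 4 = ((16 : ℕ) : F) := by norm_num
      rw [e, h16]
    exact pow_eq_zero_iff (by norm_num) |>.1 this
  haveI : CharP F 2 := CharTwo.of_one_ne_zero_of_two_eq_zero one_ne_zero h2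
  have hF' : Fintype.card F = 4 ^ 2 := by rw [hF]; norm_num
  -- a primitive fifth root of unity
  haveI : Fact (Nat.Prime 5) := ⟨by norm_num⟩
  have hcardU : Nat.card Fˣ = 15 := by
    rw [Nat.card_eq_fintype_card, Fintype.card_units, hF]
  obtain ⟨u, hu⟩ := exists_prime_orderOf_dvd_card' (G := Fˣ) 5 (by rw [hcardU]; norm_num)
  have hu5 : (u : F) ^ 5 = 1 := by
    have := pow_orderOf_eq_one u
    rw [hu] at this
    have h3 := congrArg Units.val this
    simpa using h3
  have hu1 : (u : F) ≠ 1 := by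
    intro h
    have : u = 1 := Units.ext h
    rw [this, orderOf_one] at hu
    omega
  have hz : (u : F) ^ 4 + (u : F) ^ 3 + (u : F) ^ 2 + (u : F) + 1 = 0 := by
    have h3 : ((u : F) - 1) * ((u : F) ^ 4 + (u : F) ^ 3 + (u : F) ^ 2 + (u : F) + 1) = 0 := by
      linear_combination hu5
    exact (mul_eq_zero.1 h3).resolve_left (sub_ne_zero.2 hu1)
  -- the two sides
  obtain ⟨x0, x1, x2, x3, x4, z, A, B, r, hgen⟩ := Ord320G.exists_rel_of_card hG hD hZ
  obtain ⟨x0', x1', x2', x3', x4', z', A', B', r', hN'⟩ := Ord320U.exists_model hF' hz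
  obtain ⟨e⟩ := Ord320Rel.nonempty_mulEquiv r r' hgen (Ord320Rel.nf_bijective hG r hgen) hN'
  -- passing to the projective group
  have hcen : Subgroup.center (SU 3 F 4) = ⊥ := by
    rw [← Subgroup.card_eq_one]
    rw [Cfsg.Agent.Lib.Classical.Herm.SU.card_center_SU hF' (by norm_num)]
    norm_num
  let π : SU 3 F 4 →* PSU 3 F 4 := QuotientGroup.mk' _
  have hπ : Function.Bijective π := by
    constructor
    · rw [injective_iff_map_eq_one]
      intro g hg
      have : g ∈ Subgroup.center (SU 3 F 4) := (QuotientGroup.eq_one_iff g).1 hg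
      rw [hcen] at this
      exact this
    · exact QuotientGroup.mk'_surjective _
  let Φ : SU 3 F 4 ≃* PSU 3 F 4 := MulEquiv.ofBijective π hπ
  refine ⟨Φ (Ord320U.tt hF'), ?_, ?_⟩
  · rw [MulEquiv.orderOf_eq]
    exact Ord320U.tt_order hF'
  · refine ⟨e.trans ?_⟩
    refine (Φ.subgroupMap _).trans (MulEquiv.subgroupCongr ?_)
    ext x
    constructor
    · rintro ⟨y, hy, rfl⟩
      have hy' : y ∈ Subgroup.centralizer ({Ord320U.tt hF'} : Set (SU 3 F 4)) := hy
      rw [Subgroup.mem_centralizer_singleton_iff] at hy' ⊢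
      have h1 : y * Ord320U.tt hF' = Ord320U.tt hF' * y := hy'
      change Φ y * Φ (Ord320U.tt hF') = Φ (Ord320U.tt hF') * Φ y
      rw [← map_mul, ← map_mul, h1]
    · intro hx
      rw [Subgroup.mem_centralizer_singleton_iff] at hx
      refine ⟨Φ.symm x, ?_, by simp⟩
      change Φ.symm x ∈ Subgroup.centralizer ({Ord320U.tt hF'} : Set (SU 3 F 4))
      rw [Subgroup.mem_centralizer_singleton_iff]
      apply Φ.injective
      rw [map_mul, map_mul, MulEquiv.apply_symm_apply]
      exact hx

end Cfsg.Agent.S1903
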