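-- Statement S1904: see Cfsg/Templates/S1904.lean.txt.
import Cfsg.Statements.S1904
import Cfsg.Agent.Lib.Scn3.Final

set_option autoImplicit false
open Cfsg

namespace Cfsg.Agent.S1904

open Cfsg.Agent.Lib.Scn3 in
/-- `|Ω₁(Z(X))|` is two or four. -/
theorem om_card {X : Type*} [Group X] [Finite X] {A : Subgroup (MulAut X)} (H : Hyp A) :
    Nat.card (om X) = 2 ∨ Nat.card (om X) = 4 := by
  haveI : Fact (Nat.Prime 2) := ⟨Nat.prime_two⟩
  obtain ⟨a, b, hab⟩ := H.hna
  haveI : Nontrivial X := ⟨⟨a * b, b * a, hab⟩⟩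
  haveI : Nontrivial (Subgroup.center X) := H.hX.center_nontrivial
  have hZp : IsPGroup 2 (Subgroup.center X) := H.hX.to_subgroup _
  have hdvd : 2 ∣ Nat.card (Subgroup.center X) := by
    rcases hZp.card_eq_or_dvd with h | h
    · exfalso
      have := Finite.one_lt_card_iff_nontrivial.mpr (inferInstance : Nontrivial (Subgroup.center X))
      omega
    · exact h
  obtain ⟨z, hz⟩ := exists_prime_orderOf_dvd_card' 2 hdvd
  have hzo : (z : X) ∈ om X := by
    refine ⟨z.2, ?_⟩
    have h1 : z ^ 2 = 1 := by rw [← hz]; exact pow_orderOf_eq_one z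
    exact congrArg Subtype.val h1
  have hz1 : (z : X) ≠ 1 := by
    intro h
    have h1 : z = 1 := Subtype.ext h
    rw [h1, orderOf_one] at hz
    omega
  have hp : IsPGroup 2 (om X) := H.hX.to_subgroup _
  obtain ⟨k, hk⟩ := IsPGroup.iff_card.mp hp
  have hk0 : k ≠ 0 := by
    rintro rfl
    rw [pow_zero] at hk
    have h2 : (⟨z, hzo⟩ : om X) = 1 := by
      haveI := (Nat.card_eq_one_iff_unique.mp hk).1
      exact Subsingleton.elim _ _
    exact hz1 (congrArg Subtype.val h2)
  have hk3 : k < 3 := by
    by_contra h3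
    have hd8 : 2 ^ 3 ∣ Nat.card (om X) := by
      rw [hk]
      exact pow_dvd_pow 2 (by omega)
    obtain ⟨E', hE'⟩ := Sylow.exists_subgroup_card_pow_prime 2 hd8
    let E : Subgroup X := E'.map (om X).subtype
    have hEom : E ≤ om X := by
      rintro _ ⟨y, _, rfl⟩
      exact y.2
    have hEcard : Nat.card E = 8 := by
      have : Nat.card E = Nat.card E' :=
        Subgroup.card_map_of_injective (Subgroup.subtype_injective _)
      rw [this, hE']
      norm_num
    have hE : Cfsg.IsElementaryAbelian 2 E := by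
      refine ⟨⟨⟨fun a b => Subtype.ext ?_⟩⟩, fun a ha => (hEom ha).2⟩
      exact (Subgroup.mem_center_iff.mp (hEom b.2).1 a.1)
    exact no_E8 H.hX H.hs (Subgroup.center X)
      (fun a ha b hb => (Subgroup.mem_center_iff.mp hb a)) E (hEom.trans om_le_center) hE hEcard
  have hk12 : k = 1 ∨ k = 2 := by omega
  rcases hk12 with rfl | rfl
  · left; rw [hk]; norm_num
  · right; rw [hk]; norm_num

open Cfsg.Agent.Lib.Scn3 in
/-- Let X be a finite nonabelian 2-group with no normal abelian subgroup that is self-centralizing and contains an elementary abelian subgroup of order 8. Suppose a group A of automorphisms of X of odd order satisfies [X, A] = X. Then X is the quaternion group of order 8, or X is special of order 64 with exactly three involutions, all central, or X is extraspecial of order 32 with exactly eleven involutions (the central product of a quaternion group and a dihedral group of order 8). -/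
theorem result {X : Type*} [Group X] [Finite X] (hX : IsPGroup 2 X) (hna : ¬ IsMulCommutative X)
    (hscn : ¬ ∃ A : Subgroup X, A.Normal ∧ Subgroup.centralizer (A : Set X) = A ∧
      ∃ E : Subgroup X, E ≤ A ∧ Cfsg.IsElementaryAbelian 2 E ∧ Nat.card E = 8)
    (A : Subgroup (MulAut X)) (hA : Odd (Nat.card A))
    (hXA : Subgroup.closure {g : X | ∃ φ ∈ A, ∃ x : X, g = x⁻¹ * φ x} = ⊤) :
    Nonempty (X ≃* QuaternionGroup 2) ∨
      (Cfsg.IsSpecial 2 X ∧ Nat.card X = 64 ∧ Nat.card {x : X // orderOf x = 2} = 3 ∧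
        ∀ x : X, orderOf x = 2 → x ∈ Subgroup.center X) ∨
      (Cfsg.IsExtraspecial 2 X ∧ Nat.card X = 32 ∧ Nat.card {x : X // orderOf x = 2} = 11) := by
  have hna' : ∃ a b : X, a * b ≠ b * a := by
    by_contra hcon
    push Not at hcon
    exact hna ⟨⟨hcon⟩⟩
  have H : Hyp A := ⟨hX, hna', hscn, hA, hXA⟩
  rcases om_card H with h2 | h4
  · have hT : ∀ φ ∈ A, ∀ w ∈ om X, φ w = w := by
      intro φ hφ w hw
      by_cases hw1 : w = 1
      · rw [hw1, map_one]
      obtain ⟨y, -, hy⟩ := (Nat.card_eq_two_iff' (1 : om X)).mp h2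
      have e1 : (⟨φ w, aut_mem_om φ hw⟩ : om X) = y := hy _ (fun h => hw1 (φ.injective
        ((congrArg Subtype.val h).trans (map_one φ).symm)))
      have e2 : (⟨w, hw⟩ : om X) = y := hy _ (fun h => hw1 (congrArg Subtype.val h))
      exact congrArg Subtype.val (e1.trans e2.symm)
    rcases case_one H hT h2 with h | h
    · exact Or.inl h
    · exact Or.inr (Or.inr h)
  · by_cases hT : ∀ φ ∈ A, ∀ w ∈ om X, φ w = w
    · exact Or.inr (Or.inl (case_two H hT h4))
    · push Not at hT
      obtain ⟨φ, hφ, v, hv, hne⟩ := hT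
      obtain ⟨σ, S⟩ := exists_sig H h4 hφ hv hne
      exact Or.inr (Or.inl S.case_three)

end Cfsg.Agent.S1904
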