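import Cfsg.Statements.S1905
import Mathlib
import Cfsg.Agent.S1225
import Cfsg.Agent.Lib.Components.ZStarIso
-- import your own Cfsg.Agent.* helpers here

set_option autoImplicit false
open Cfsg

namespace Cfsg.Agent.S1905


variable {S : Type*} [Group S] [Finite S]

theorem orderOf_conj_eq_aux' {X : Type*} [Group X] (a b : X) : orderOf (a * b * a⁻¹) = orderOf b := by
  have h : a * b * a⁻¹ = (MulAut.conj a) b := rfl
  rw [h]
  exact MulEquiv.orderOf_eq (MulAut.conj a) b

theorem exists_inv_comm {a b : S} (ha : a * a = 1) (hb : b * b = 1) (he : Even (orderOf (a * b))) :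
    ∃ w : S, orderOf w = 2 ∧ a * w = w * a ∧ b * w = w * b := by
  set m := a * b with hm
  have hai : a⁻¹ = a := inv_eq_of_mul_eq_one_left ha
  have hbi : b⁻¹ = b := inv_eq_of_mul_eq_one_left hb
  obtain ⟨r, hr⟩ := he
  have hr2 : orderOf m = 2 * r := by omega
  have hrpos : 0 < r := by
    have := orderOf_pos m
    omega
  set w := m ^ r with hw
  have hw1 : w ≠ 1 := by
    apply pow_ne_one_of_lt_orderOf hrpos.ne'
    omega
  have hww : w ^ 2 = 1 := by
    rw [hw, ← pow_mul, mul_comm, ← hr2, pow_orderOf_eq_one]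
  have hword : orderOf w = 2 := orderOf_eq_prime hww hw1
  have hwi : w⁻¹ = w := by
    have : w * w = 1 := by rw [← pow_two, hww]
    exact inv_eq_of_mul_eq_one_left this
  have hma : a * m * a⁻¹ = m⁻¹ := by
    rw [hm, hai, mul_inv_rev, hbi, hai]
    calc a * (a * b) * a = (a * a) * b * a := by group
      _ = b * a := by rw [ha, one_mul]
  have hmb : b * m * b⁻¹ = m⁻¹ := by
    rw [hm, hbi, mul_inv_rev, hbi, hai]
    calc b * (a * b) * b = b * a * (b * b) := by group
      _ = b * a := by rw [hb, mul_one]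
  have hwa : a * w * a⁻¹ = w := by
    rw [hw, ← conj_pow, hma, inv_pow, ← hw, hwi]
  have hwb : b * w * b⁻¹ = w := by
    rw [hw, ← conj_pow, hmb, inv_pow, ← hw, hwi]
  refine ⟨w, hword, ?_, ?_⟩
  · calc a * w = (a * w * a⁻¹) * a := by group
      _ = w * a := by rw [hwa]
  · calc b * w = (b * w * b⁻¹) * b := by group
      _ = w * b := by rw [hwb]

theorem sq_of_order_two {a : S} (ha : orderOf a = 2) : a * a = 1 := by
  rw [← pow_two, ← ha, pow_orderOf_eq_one]

theorem conj_of_in_out (M : Subgroup S)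
    (hC : ∀ i ∈ M, orderOf i = 2 → Subgroup.centralizer ({i} : Set S) ≤ M)
    {i j : S} (hi : orderOf i = 2) (hiM : i ∈ M) (hj : orderOf j = 2) (hjM : j ∉ M) : IsConj i j := by
  by_cases he : Even (orderOf (i * j))
  · exfalso
    obtain ⟨w, hw, hwi, hwj⟩ := exists_inv_comm (sq_of_order_two hi) (sq_of_order_two hj) he
    have hwM : w ∈ M := hC i hiM hi (Subgroup.mem_centralizer_singleton_iff.2 hwi.symm)
    exact hjM (hC w hwM hw (Subgroup.mem_centralizer_singleton_iff.2 hwj))
  · rw [Nat.not_even_iff_odd] at he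
    obtain ⟨c, -, hc⟩ := Cfsg.Agent.Lib.Components.ZStarIso.conj_of_odd_mul
      (sq_of_order_two hi) (sq_of_order_two hj) he
    exact (isConj_iff.2 ⟨c, hc⟩).symm

theorem exists_inv_mem {X : Type*} [Group X] [Finite X] (h : Even (Nat.card X)) : ∃ x : X, orderOf x = 2 := by
  haveI : Fact (Nat.Prime 2) := ⟨Nat.prime_two⟩
  exact exists_prime_orderOf_dvd_card' 2 h.two_dvd

/-- All involutions are conjugate. -/
theorem all_conj (M : Subgroup S) (hM : Even (Nat.card M))
    (hC : ∀ i ∈ M, orderOf i = 2 → Subgroup.centralizer ({i} : Set S) ≤ M)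
    (hcore : Odd (Nat.card M.normalCore)) :
    (∃ u : S, orderOf u = 2 ∧ u ∉ M) ∧ ∀ x y : S, orderOf x = 2 → orderOf y = 2 → IsConj x y := by
  obtain ⟨⟨i, hiM⟩, hi⟩ := exists_inv_mem hM
  rw [Subgroup.orderOf_mk] at hi
  have hu : ∃ u : S, orderOf u = 2 ∧ u ∉ M := by
    by_contra hno
    push_neg at hno
    have hiC : i ∈ M.normalCore := by
      intro g
      apply hno
      rw [← hi]
      simpa using (orderOf_conj_eq_aux' g i)
    obtain h2 : 2 ∣ Nat.card M.normalCore := by
      have := orderOf_dvd_natCard (⟨i, hiC⟩ : M.normalCore)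
      rwa [Subgroup.orderOf_mk, hi] at this
    exact (Nat.not_even_iff_odd.2 hcore) (even_iff_two_dvd.2 h2)
  refine ⟨hu, ?_⟩
  obtain ⟨u, hu2, huM⟩ := hu
  have key : ∀ x : S, orderOf x = 2 → IsConj i x := by
    intro x hx
    by_cases hxM : x ∈ M
    · exact (conj_of_in_out M hC hi hiM hu2 huM).trans (conj_of_in_out M hC hx hxM hu2 huM).symm
    · exact conj_of_in_out M hC hi hiM hx hxM
  intro x y hx hy
  exact (key x hx).symm.trans (key y hy)


/-- Let M be a subgroup of even order of a finite group S such that M contains the centralizer in S of each of its involutions and the normal core of M in S has odd order. Then all involutions of S are conjugate. If moreover N_S(X) ≤ M for a Sylow 2-subgroup X of M and I is an involution in the centre of X, then all involutions of M are conjugate in M and M = M₀ C_M(I) for some subgroup M₀ of M of odd order. -/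
theorem result {S : Type*} [Group S] [Finite S] (M : Subgroup S) (hM : Even (Nat.card M))
    (hC : ∀ i ∈ M, orderOf i = 2 → Subgroup.centralizer ({i} : Set S) ≤ M) (hcore : Odd (Nat.card M.normalCore)) :
    (∀ x y : S, orderOf x = 2 → orderOf y = 2 → IsConj x y) ∧
      ∀ (X : Sylow 2 M) (I : M), I ∈ (Subgroup.center ↥(X : Subgroup ↥M)).map (X : Subgroup ↥M).subtype → orderOf I = 2 →
        Subgroup.normalizer (((X : Subgroup M).map M.subtype : Subgroup S) : Set S) ≤ M →
        (∀ x y : M, orderOf x = 2 → orderOf y = 2 → IsConj x y) ∧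
          ∃ M₀ : Subgroup M, Odd (Nat.card M₀) ∧
            ∀ m : M, ∃ a ∈ M₀, ∃ c ∈ Subgroup.centralizer ({I} : Set M), m = a * c := by
  classical
  obtain ⟨⟨u, hu2, huM⟩, hall⟩ := all_conj M hM hC hcore
  refine ⟨hall, ?_⟩
  intro X I hI hI2 hN
  have hI2' : orderOf (I : S) = 2 := by rw [Subgroup.orderOf_coe]; exact hI2
  obtain ⟨I₀, hI₀, hI₀I⟩ := hI
  have hIX : I ∈ (X : Subgroup M) := by
    rw [← hI₀I]
    exact (I₀ : (X : Subgroup M)).2
  have hIc : ∀ x ∈ (X : Subgroup M), x * I = I * x := by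
    intro x hx
    have := (Subgroup.mem_center_iff.1 hI₀) ⟨x, hx⟩
    have h2 := congrArg Subtype.val this
    rw [← hI₀I]
    exact h2
  set Xs : Subgroup S := (X : Subgroup M).map M.subtype with hXs
  -- an element conjugating `I` to an involution of `M` lies in `M`
  have hkey : ∀ a : S, a * (I : S) * a⁻¹ ∈ M → a ∈ M := by
    intro a ha
    have ht2 : orderOf (a * (I : S) * a⁻¹) = 2 := by
      rw [← hI2']; exact orderOf_conj_eq_aux' a (I : S)
    set Y : Subgroup S := Xs.map (MulAut.conj a).toMonoidHom with hY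
    have hYM : Y ≤ M := by
      rintro _ ⟨_, ⟨x, hx, rfl⟩, rfl⟩
      apply hC _ ha ht2
      rw [Subgroup.mem_centralizer_singleton_iff]
      have h1 : (x : S) * (I : S) = (I : S) * (x : S) := congrArg Subtype.val (hIc x hx)
      show a * (x : S) * a⁻¹ * (a * (I : S) * a⁻¹) = a * (I : S) * a⁻¹ * (a * (x : S) * a⁻¹)
      calc a * (x : S) * a⁻¹ * (a * (I : S) * a⁻¹) = a * ((x : S) * (I : S)) * a⁻¹ := by group
        _ = a * ((I : S) * (x : S)) * a⁻¹ := by rw [h1]
        _ = a * (I : S) * a⁻¹ * (a * (x : S) * a⁻¹) := by group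
    set Y' : Subgroup M := Y.subgroupOf M with hY'
    have hcardY : Nat.card Y' = Nat.card (X : Subgroup M) := by
      have h1 : Nat.card Y' = Nat.card Y := Nat.card_congr (Subgroup.subgroupOfEquivOfLe hYM).toEquiv
      have h2 : Nat.card Y = Nat.card Xs := by
        rw [hY]
        exact Subgroup.card_map_of_injective (MulEquiv.injective _)
      have h3 : Nat.card Xs = Nat.card (X : Subgroup M) := by
        rw [hXs]
        exact Subgroup.card_map_of_injective M.subtype_injective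
      rw [h1, h2, h3]
    have hp : IsPGroup 2 Y' := by
      rw [IsPGroup.iff_card]
      obtain ⟨n, hn⟩ := IsPGroup.iff_card.1 X.isPGroup'
      exact ⟨n, by rw [hcardY, hn]⟩
    obtain ⟨Q, hQ⟩ := hp.exists_le_sylow
    have hQc : Nat.card Q = Nat.card (X : Subgroup M) := by
      rw [Sylow.card_eq_multiplicity, Sylow.card_eq_multiplicity]
    have hYQ : Y' = (Q : Subgroup M) := by
      apply Subgroup.eq_of_le_of_card_ge hQ
      rw [hcardY, hQc]
    obtain ⟨m, hm⟩ := MulAction.exists_smul_eq M X Q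
    -- `a⁻¹ * m` normalizes `Xs`
    have hnorm : a⁻¹ * (m : S) ∈ Subgroup.normalizer (Xs : Set S) := by
      have hmem : ∀ x ∈ (X : Subgroup M), ((m : S) * (x : S) * (m : S)⁻¹) ∈ Y := by
        intro x hx
        have h1 : m * x * m⁻¹ ∈ (Q : Subgroup M) := by
          rw [← hm, Sylow.coe_subgroup_smul]
          exact ⟨x, hx, rfl⟩
        rw [← hYQ, hY', Subgroup.mem_subgroupOf] at h1
        exact h1
      have hmem2 : ∀ y ∈ Y, ∃ x ∈ (X : Subgroup M), y = (m : S) * (x : S) * (m : S)⁻¹ := by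
        intro y hy
        have hyM := hYM hy
        have h1 : (⟨y, hyM⟩ : M) ∈ (Q : Subgroup M) := by
          rw [← hYQ, hY', Subgroup.mem_subgroupOf]
          exact hy
        rw [← hm, Sylow.coe_subgroup_smul] at h1
        obtain ⟨x, hx, hxy⟩ := h1
        refine ⟨x, hx, ?_⟩
        exact (congrArg Subtype.val hxy).symm
      rw [Subgroup.mem_normalizer_iff]
      intro h
      constructor
      · intro hh
        obtain ⟨x, hx, rfl⟩ := hh
        have h1 := hmem x hx
        obtain ⟨_, ⟨x', hx', rfl⟩, h2⟩ := h1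
        have h3 : (MulAut.conj a) (M.subtype x') = (m : S) * (x : S) * (m : S)⁻¹ := h2
        have h4 : (a⁻¹ * (m : S)) * (M.subtype x) * (a⁻¹ * (m : S))⁻¹ = M.subtype x' := by
          have h5 : a * (x' : S) * a⁻¹ = (m : S) * (x : S) * (m : S)⁻¹ := h3
          show (a⁻¹ * (m : S)) * (x : S) * (a⁻¹ * (m : S))⁻¹ = (x' : S)
          calc (a⁻¹ * (m : S)) * (x : S) * (a⁻¹ * (m : S))⁻¹
              = a⁻¹ * ((m : S) * (x : S) * (m : S)⁻¹) * a := by group
            _ = a⁻¹ * (a * (x' : S) * a⁻¹) * a := by rw [h5]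
            _ = (x' : S) := by group
        rw [h4]
        exact ⟨x', hx', rfl⟩
      · intro hh
        obtain ⟨x', hx', hx'h⟩ := hh
        have h1 : a * (x' : S) * a⁻¹ ∈ Y := ⟨M.subtype x', ⟨x', hx', rfl⟩, rfl⟩
        obtain ⟨x, hx, hxe⟩ := hmem2 _ h1
        have h2 : (x' : S) = (a⁻¹ * (m : S)) * h * (a⁻¹ * (m : S))⁻¹ := hx'h
        have h3 : h = (x : S) := by
          have h4 : a * ((a⁻¹ * (m : S)) * h * (a⁻¹ * (m : S))⁻¹) * a⁻¹ = (m : S) * (x : S) * (m : S)⁻¹ := by
            rw [← h2]; exact hxe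
          have h5 : a * ((a⁻¹ * (m : S)) * h * (a⁻¹ * (m : S))⁻¹) * a⁻¹ = (m : S) * h * (m : S)⁻¹ := by group
          rw [h5] at h4
          exact mul_left_cancel (mul_right_cancel h4)
        rw [h3]
        exact ⟨x, hx, rfl⟩
    have h1 := hN hnorm
    have h2 : a⁻¹ ∈ M := by
      have := M.mul_mem h1 (M.inv_mem m.2)
      simpa using this
    simpa using M.inv_mem h2
  -- all involutions of `M` are `M`-conjugate to `I`
  have hconjI : ∀ x : M, orderOf x = 2 → ∃ a : M, a * I * a⁻¹ = x := by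
    intro x hx
    have hx' : orderOf (x : S) = 2 := by rw [Subgroup.orderOf_coe]; exact hx
    obtain ⟨a, ha⟩ := isConj_iff.1 (hall _ _ hI2' hx')
    have haM : a ∈ M := hkey a (by rw [ha]; exact x.2)
    exact ⟨⟨a, haM⟩, Subtype.ext ha⟩
  -- strongly embedded
  have hSE : Cfsg.IsStronglyEmbedded M := by
    refine ⟨?_, hM, ?_⟩
    · intro htop
      exact huM (by rw [htop]; trivial)
    · intro g hg
      by_contra hne
      rw [Nat.not_odd_iff_even] at hne
      obtain ⟨⟨t, htM⟩, ht⟩ := exists_inv_mem hne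
      rw [Subgroup.orderOf_mk] at ht
      obtain ⟨ht1, t', ht', hgt⟩ := htM
      have hgt' : g * t' * g⁻¹ = t := hgt
      have ht'2 : orderOf t' = 2 := by
        rw [← ht, ← hgt']; exact (orderOf_conj_eq_aux' g t').symm
      obtain ⟨a, ha⟩ := isConj_iff.1 (hall _ _ hI2' ht)
      obtain ⟨b, hb⟩ := isConj_iff.1 (hall _ _ hI2' ht'2)
      have haM : a ∈ M := hkey a (by rw [ha]; exact ht1)
      have hbM : b ∈ M := hkey b (by rw [hb]; exact ht')
      have hc : a⁻¹ * g * b ∈ Subgroup.centralizer ({(I : S)} : Set S) := by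
        rw [Subgroup.mem_centralizer_singleton_iff]
        have h1 : g * (b * (I : S) * b⁻¹) * g⁻¹ = a * (I : S) * a⁻¹ := by rw [hb, hgt', ha]
        have h2 : g * b * (I : S) * b⁻¹ * g⁻¹ = a * (I : S) * a⁻¹ := by
          rw [← h1]; group
        calc a⁻¹ * g * b * (I : S) = a⁻¹ * (g * b * (I : S) * b⁻¹ * g⁻¹) * (g * b) := by group
          _ = a⁻¹ * (a * (I : S) * a⁻¹) * (g * b) := by rw [h2]
          _ = (I : S) * (a⁻¹ * g * b) := by group
      have h3 : a⁻¹ * g * b ∈ M := hC _ I.2 hI2' hc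
      apply hg
      have h4 := M.mul_mem (M.mul_mem haM h3) (M.inv_mem hbM)
      have h5 : a * (a⁻¹ * g * b) * b⁻¹ = g := by group
      rwa [h5] at h4
  refine ⟨?_, ?_⟩
  · intro x y hx hy
    obtain ⟨a, ha⟩ := hconjI x hx
    obtain ⟨b, hb⟩ := hconjI y hy
    exact (isConj_iff.2 ⟨a, ha⟩).symm.trans (isConj_iff.2 ⟨b, hb⟩)
  · set D : Subgroup S := M ⊓ M.map (MulAut.conj u).toMonoidHom with hD
    refine ⟨D.subgroupOf M, ?_, ?_⟩
    · have h1 := hSE.2.2 u huM
      have h2 : Nat.card (D.subgroupOf M) = Nat.card D :=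
        Nat.card_congr (Subgroup.subgroupOfEquivOfLe inf_le_left).toEquiv
      rw [h2]
      exact h1
    · intro m
      have hx2 : orderOf (m * I * m⁻¹) = 2 := by
        rw [← hI2]; exact orderOf_conj_eq_aux' m I
      have hx2' : orderOf (((m * I * m⁻¹ : M)) : S) = 2 := by
        rw [Subgroup.orderOf_coe]; exact hx2
      obtain ⟨⟨d, hd, hdc⟩, -⟩ := Cfsg.Agent.S1225.result M hSE u hu2 huM (I : S) (m * I * m⁻¹ : M) hI2' I.2 hx2' (m * I * m⁻¹ : M).2
      have hdM : d ∈ M := hd.1
      refine ⟨⟨d, hdM⟩, ?_, ⟨d, hdM⟩⁻¹ * m, ?_, by group⟩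
      · rw [Subgroup.mem_subgroupOf]
        exact hd
      · rw [Subgroup.mem_centralizer_singleton_iff]
        have h1 : (⟨d, hdM⟩ : M) * I * (⟨d, hdM⟩ : M)⁻¹ = m * I * m⁻¹ := Subtype.ext hdc
        calc (⟨d, hdM⟩ : M)⁻¹ * m * I = (⟨d, hdM⟩ : M)⁻¹ * (m * I * m⁻¹) * m := by group
          _ = (⟨d, hdM⟩ : M)⁻¹ * ((⟨d, hdM⟩ : M) * I * (⟨d, hdM⟩ : M)⁻¹) * m := by rw [h1]
          _ = I * ((⟨d, hdM⟩ : M)⁻¹ * m) := by group


end Cfsg.Agent.S1905
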