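import Cfsg.Statements.S1906
import Mathlib
import Cfsg.Agent.Lib.Components.GL3E1
import Cfsg.Agent.Lib.Components.GL3E2
import Cfsg.Agent.Lib.Components.GL3F
-- import your own Cfsg.Agent.* helpers here

set_option autoImplicit false
open Cfsg

namespace Cfsg.Agent.S1906

/-- Let G be a finite group with no subgroup of index 2 whose Sylow 2-subgroup X embeds in GL₃(F) for a finite field F of odd order. If X contains an elementary abelian subgroup of order 8, then X is abelian. -/
theorem result {G : Type*} [Group G] [Finite G] (hG : ∀ H : Subgroup G, H.index ≠ 2) (X : Sylow 2 G)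
    {F : Type*} [Field F] [Fintype F] (hF : Odd (Fintype.card F))
    (f : ↥(X : Subgroup G) →* GL (Fin 3) F) (hf : Function.Injective f)
    (E : Subgroup G) (hE : E ≤ (X : Subgroup G)) (hEa : Cfsg.IsElementaryAbelian 2 E) (hE8 : Nat.card E = 8) :
    IsMulCommutative (X : Subgroup G) := by
  by_contra hna
  have hS : IsPGroup 2 (X : Subgroup G) := X.isPGroup'
  obtain ⟨α, ρ, hinj⟩ := Cfsg.Agent.Lib.Components.GL3E1.exists_decomp hS hF f hf
  have h2 := Cfsg.Agent.Lib.Components.GL3E1.two_ne_zero_of_odd hF
  obtain ⟨A, a, z, U⟩ := Cfsg.Agent.Lib.Components.GL3E2.exists_setup hS h2 α ρ hinj hna hE hEa hE8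
  exact Cfsg.Agent.Lib.Components.GL3F.no_setup hG X U

end Cfsg.Agent.S1906
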