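import Cfsg.Statements.S1907
import Cfsg.Agent.Lib.Coprime.CosetFixed
import Cfsg.Agent.Lib.Solvable.PSeries
import Cfsg.Agent.Lib.Basic.SylowUtil
import Cfsg.Agent.Lib.Basic.PCore
import Mathlib

set_option autoImplicit false
set_option linter.unusedSectionVars false
set_option linter.style.haveILetI false
open Cfsg

namespace Cfsg.Agent.S1907

open Cfsg.Agent.Lib.Coprime.CosetFixed Cfsg.Agent.Lib.Solvable.PSeries
open Cfsg.Agent.Lib.Basic.SylowUtil Cfsg.Agent.Lib.Basic.PCore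

section
variable {G : Type*} [Group G] [Finite G] {p : ℕ} [hp : Fact p.Prime]

local notation "D" => Cfsg.pPrimeCore p G
local notation "K" => Cfsg.pPrimePCore p G

theorem pPrimePCore_normal : (K).Normal := by
  unfold Cfsg.pPrimePCore
  exact Subgroup.Normal.comap inferInstance _

theorem le_K : D ≤ K := by
  intro d hd
  show QuotientGroup.mk' (Cfsg.pPrimeCore p G) d ∈ Cfsg.pCore p (G ⧸ Cfsg.pPrimeCore p G)
  have : QuotientGroup.mk' (Cfsg.pPrimeCore p G) d = 1 := (QuotientGroup.eq_one_iff d).mpr hd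
  rw [this]
  exact Subgroup.one_mem _

/-- `K = D (P ∩ K)`. -/
theorem exists_decomp (P : Sylow p G) {n : G} (hn : n ∈ K) :
    ∃ d ∈ D, ∃ h ∈ (P : Subgroup G) ⊓ K, n = d * h := by
  let Pbar : Sylow p (G ⧸ Cfsg.pPrimeCore p G) :=
    P.mapSurjective (QuotientGroup.mk'_surjective (Cfsg.pPrimeCore p G))
  have h1 : QuotientGroup.mk' (Cfsg.pPrimeCore p G) n ∈ (Pbar : Subgroup _) :=
    pCore_le_sylow Pbar hn
  have h1' : QuotientGroup.mk' (Cfsg.pPrimeCore p G) n ∈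
      (P : Subgroup G).map (QuotientGroup.mk' (Cfsg.pPrimeCore p G)) := h1
  obtain ⟨r, hr, hrn⟩ := Subgroup.mem_map.mp h1'
  have h2 : n * r⁻¹ ∈ Cfsg.pPrimeCore p G := by
    have h3 : ((n * r⁻¹ : G) : G ⧸ Cfsg.pPrimeCore p G) = 1 := by
      have hrn' : ((r : G) : G ⧸ Cfsg.pPrimeCore p G) = n := hrn
      rw [QuotientGroup.mk_mul, QuotientGroup.mk_inv, ← hrn', mul_inv_cancel]
    exact (QuotientGroup.eq_one_iff _).mp h3
  refine ⟨n * r⁻¹, h2, r, ⟨hr, ?_⟩, by group⟩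
  have h4 : r = (n * r⁻¹)⁻¹ * n := by group
  rw [h4]
  exact (K).mul_mem ((K).inv_mem (le_K h2)) hn

/-- `D ∩ (P ∩ K) = 1` -/
theorem inf_D_eq (P : Sylow p G) {x : G} (hxD : x ∈ D) (hxP : x ∈ (P : Subgroup G)) : x = 1 := by
  have hc := pPrimeCore_coprime (G := G) p
  obtain ⟨k, hk⟩ := orderOf_eq_pow_of_mem P hxP
  have hd : orderOf x ∣ Nat.card (Cfsg.pPrimeCore p G) := Subgroup.orderOf_dvd_natCard _ hxD
  have h1 : orderOf x = 1 :=
    Nat.eq_one_of_dvd_coprimes (hc.pow_right k) hd (by rw [hk])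
  exact orderOf_eq_one_iff.mp h1

theorem le_normalizer (P : Sylow p G) :
    (P : Subgroup G) ≤ Subgroup.normalizer (((P : Subgroup G) ⊓ K : Subgroup G) : Set G) := by
  intro r hr
  have hnK : (K).Normal := pPrimePCore_normal
  rw [Subgroup.mem_normalizer_iff]
  intro h
  constructor
  · rintro ⟨h1, h2⟩
    exact ⟨(P : Subgroup G).mul_mem ((P : Subgroup G).mul_mem hr h1) ((P : Subgroup G).inv_mem hr),
      hnK.conj_mem h h2 r⟩
  · rintro ⟨h1, h2⟩
    have h3 : h = r⁻¹ * (r * h * r⁻¹) * r := by group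
    rw [h3]
    refine ⟨(P : Subgroup G).mul_mem ((P : Subgroup G).mul_mem ((P : Subgroup G).inv_mem hr) h1) hr, ?_⟩
    have := hnK.conj_mem _ h2 r⁻¹
    simpa using this

/-- `G = D N`. -/
theorem exists_mul_normalizer (P : Sylow p G) (g : G) :
    ∃ d ∈ D, ∃ n ∈ Subgroup.normalizer (((P : Subgroup G) ⊓ K : Subgroup G) : Set G), g = d * n := by
  haveI hnK : (K).Normal := pPrimePCore_normal
  obtain ⟨Q, hQ⟩ := exists_sylow_inf_normal P (K)
  obtain ⟨k, hk, n, hn, hg⟩ := frattini_argument' Q g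
  rw [hQ] at hn
  obtain ⟨d, hd, h, hh, hkd⟩ := exists_decomp P hk
  refine ⟨d, hd, h * n, ?_, by rw [hg, hkd]; group⟩
  exact Subgroup.mul_mem _ (le_normalizer P hh.1) hn

/-- part (a) -/
theorem part_a (P : Sylow p G) (y : G)
    (hy : y ∈ Subgroup.normalizer (((P : Subgroup G) ⊓ K : Subgroup G) : Set G))
    (hyo : ∃ k : ℕ, orderOf y = p ^ k) (d : G) (hd : d ∈ D)
    (hdy : d⁻¹ * y * d ∈ Subgroup.normalizer (((P : Subgroup G) ⊓ K : Subgroup G) : Set G)) :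
    ∃ d₁ ∈ D ⊓ Subgroup.centralizer ({y} : Set G),
      ∃ d₂ ∈ D ⊓ Subgroup.centralizer (((P : Subgroup G) ⊓ K : Subgroup G) : Set G), d = d₁ * d₂ := by
  set N := Subgroup.normalizer (((P : Subgroup G) ⊓ K : Subgroup G) : Set G) with hN
  have hDn : (D).Normal := inferInstance
  obtain ⟨k, hk⟩ := hyo
  have hyk : y ^ p ^ k = 1 := by rw [← hk]; exact pow_orderOf_eq_one y
  -- the centralizer
  set C := D ⊓ Subgroup.centralizer (((P : Subgroup G) ⊓ K : Subgroup G) : Set G) with hC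
  have hCc : (Nat.card C).Coprime p :=
    Nat.Coprime.coprime_dvd_left (Subgroup.card_dvd_of_le inf_le_left) (pPrimeCore_coprime (G := G) p)
  -- elements of D ∩ N centralize P ∩ K
  have hDN : ∀ w ∈ D, w ∈ N → w ∈ C := by
    intro w hwD hwN
    refine ⟨hwD, Subgroup.mem_centralizer_iff.mpr ?_⟩
    intro h hh
    have h1 : w * h * w⁻¹ ∈ (P : Subgroup G) ⊓ K := (Subgroup.mem_normalizer_iff.mp hwN h).mp hh
    have h2 : h * w * h⁻¹ * w⁻¹ ∈ D := by
      have := hDn.conj_mem w hwD h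
      exact (D).mul_mem this ((D).inv_mem hwD)
    have h3 : h * (w * h⁻¹ * w⁻¹) ∈ (P : Subgroup G) ⊓ K := by
      refine Subgroup.mul_mem _ hh ?_
      exact (Subgroup.mem_normalizer_iff.mp hwN h⁻¹).mp (Subgroup.inv_mem _ hh)
    have h4 : h * w * h⁻¹ * w⁻¹ = h * (w * h⁻¹ * w⁻¹) := by group
    rw [h4] at h2
    have h5 := inf_D_eq P h2 h3.1
    have h7 : (h * (w * h⁻¹ * w⁻¹)) * (w * h * w⁻¹) * w = h * w := by group
    rw [h5] at h7
    exact (by simpa using h7 : w * h = h * w).symm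
  -- w
  have hw : y⁻¹ * (d⁻¹ * y * d) ∈ C := by
    apply hDN
    · have h1 : y⁻¹ * d⁻¹ * y ∈ D := by
        have := hDn.conj_mem d⁻¹ ((D).inv_mem hd) y⁻¹
        simpa using this
      have h2 : y⁻¹ * (d⁻¹ * y * d) = (y⁻¹ * d⁻¹ * y) * d := by group
      rw [h2]
      exact (D).mul_mem h1 hd
    · exact N.mul_mem (N.inv_mem hy) hdy
  -- y normalizes C
  have hyC : y ∈ Subgroup.normalizer (C : Set G) := by
    have hcmem : ∀ z ∈ N, ∀ c ∈ C, z * c * z⁻¹ ∈ C := by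
      intro z hz c hc
      refine ⟨hDn.conj_mem c hc.1 z, Subgroup.mem_centralizer_iff.mpr ?_⟩
      intro h hh
      have h1 : z⁻¹ * h * z⁻¹⁻¹ ∈ (P : Subgroup G) ⊓ K :=
        (Subgroup.mem_normalizer_iff.mp (N.inv_mem hz) h).mp hh
      have h2 := (Subgroup.mem_centralizer_iff.mp hc.2) _ h1
      simp only [inv_inv] at h2
      have h3 : h = z * (z⁻¹ * h * z) * z⁻¹ := by group
      calc h * (z * c * z⁻¹) = z * ((z⁻¹ * h * z) * c) * z⁻¹ := by group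
        _ = z * (c * (z⁻¹ * h * z)) * z⁻¹ := by rw [h2]
        _ = z * c * z⁻¹ * h := by group
    rw [Subgroup.mem_normalizer_iff]
    intro c
    refine ⟨fun hc => hcmem y hy c hc, fun hc => ?_⟩
    have := hcmem y⁻¹ (N.inv_mem hy) _ hc
    simpa [mul_assoc] using this
  -- the coset
  have hcoset : d⁻¹ * (y⁻¹ * d * y) ∈ C := by
    have hinv := Subgroup.inv_mem _ hw
    have h2 : (y⁻¹ * (d⁻¹ * y * d))⁻¹ = d⁻¹ * (y⁻¹ * d * y) := by group
    rw [h2] at hinv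
    exact hinv
  obtain ⟨c, hc, hcomm⟩ := exists_commute_in_coset C hCc y k hyk hyC d hcoset
  refine ⟨d * c, ⟨(D).mul_mem hd hc.1, Subgroup.mem_centralizer_iff.mpr ?_⟩, c⁻¹, Subgroup.inv_mem _ hc, by group⟩
  intro z hz
  rw [Set.mem_singleton_iff] at hz
  subst hz
  exact hcomm.eq

end

/-- Let P be a Sylow p-subgroup of a finite group G, H = P ∩ O_{p',p}(G), N = N_G(H) and D = O_{p'}(G). (a) If y is an element of p-power order of N and d ∈ D with d⁻¹ y d ∈ N, then d = d₁ d₂ with d₁ ∈ C_D(y) and d₂ ∈ C_D(H). (b) Two elements of P that are conjugate in G are conjugate in N. -/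
theorem result {G : Type*} [Group G] [Finite G] {p : ℕ} [Fact p.Prime] (P : Sylow p G) :
    (∀ y ∈ Subgroup.normalizer (((P : Subgroup G) ⊓ Cfsg.pPrimePCore p G : Subgroup G) : Set G), (∃ k : ℕ, orderOf y = p ^ k) →
      ∀ d ∈ Cfsg.pPrimeCore p G, d⁻¹ * y * d ∈ Subgroup.normalizer (((P : Subgroup G) ⊓ Cfsg.pPrimePCore p G : Subgroup G) : Set G) →
        ∃ d₁ ∈ Cfsg.pPrimeCore p G ⊓ Subgroup.centralizer ({y} : Set G),
          ∃ d₂ ∈ Cfsg.pPrimeCore p G ⊓ Subgroup.centralizer (((P : Subgroup G) ⊓ Cfsg.pPrimePCore p G : Subgroup G) : Set G), d = d₁ * d₂) ∧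
    ∀ x y : G, x ∈ (P : Subgroup G) → y ∈ (P : Subgroup G) → IsConj x y →
      ∃ n ∈ Subgroup.normalizer (((P : Subgroup G) ⊓ Cfsg.pPrimePCore p G : Subgroup G) : Set G), n * x * n⁻¹ = y := by
  refine ⟨fun y hy hyo d hd hdy => part_a P y hy hyo d hd hdy, ?_⟩
  intro x y hx hy hxy
  set N := Subgroup.normalizer (((P : Subgroup G) ⊓ Cfsg.pPrimePCore p G : Subgroup G) : Set G) with hN
  have hPN : (P : Subgroup G) ≤ N := le_normalizer P
  obtain ⟨g, hg⟩ := isConj_iff.mp hxy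
  -- g⁻¹ = e n₀
  obtain ⟨e, he, n₀, hn₀, hge⟩ := exists_mul_normalizer P g⁻¹
  -- g = n₀⁻¹ e⁻¹
  have hgeq : g = n₀⁻¹ * e⁻¹ := by
    have := congrArg (fun z => z⁻¹) hge
    simpa using this
  have hexe : e⁻¹ * x * e = n₀ * y * n₀⁻¹ := by
    rw [← hg, hgeq]; group
  have hmem : e⁻¹ * x * e ∈ N := by
    rw [hexe]
    exact N.mul_mem (N.mul_mem hn₀ (hPN hy)) (N.inv_mem hn₀)
  obtain ⟨d₁, hd₁, d₂, hd₂, hed⟩ := part_a P x (hPN hx) (orderOf_eq_pow_of_mem P hx) e he hmem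
  have hd₂N : d₂ ∈ N := by
    rw [hN, Subgroup.mem_normalizer_iff]
    intro h
    have hcomm : ∀ z ∈ (P : Subgroup G) ⊓ Cfsg.pPrimePCore p G, d₂ * z * d₂⁻¹ = z := by
      intro z hz
      have := (Subgroup.mem_centralizer_iff.mp hd₂.2) z hz
      calc d₂ * z * d₂⁻¹ = z * d₂ * d₂⁻¹ := by rw [this]
        _ = z := by group
    constructor
    · intro hh
      rw [hcomm h hh]
      exact hh
    · intro hh
      have h1 := hcomm _ hh
      have h2 : d₂ * (d₂ * h * d₂⁻¹) * d₂⁻¹ = d₂ * h * d₂⁻¹ := h1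
      have h3 : d₂ * h * d₂⁻¹ = h := by
        have := mul_left_cancel (a := d₂) (b := (d₂ * h * d₂⁻¹) * d₂⁻¹) (c := h * d₂⁻¹) (by
          calc d₂ * ((d₂ * h * d₂⁻¹) * d₂⁻¹) = d₂ * (d₂ * h * d₂⁻¹) * d₂⁻¹ := by group
            _ = d₂ * h * d₂⁻¹ := h2
            _ = d₂ * (h * d₂⁻¹) := by group)
        exact mul_right_cancel this
      rw [h3] at hh
      exact hh
  have hd₁c : Commute x d₁ := by
    exact (Subgroup.mem_centralizer_iff.mp hd₁.2) x (Set.mem_singleton x)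
  refine ⟨n₀⁻¹ * d₂⁻¹, N.mul_mem (N.inv_mem hn₀) (N.inv_mem hd₂N), ?_⟩
  have hexe2 : e⁻¹ * x * e = d₂⁻¹ * x * d₂ := by
    rw [hed]
    have : (d₁ * d₂)⁻¹ * x * (d₁ * d₂) = d₂⁻¹ * (d₁⁻¹ * (x * d₁)) * d₂ := by group
    rw [this, hd₁c.eq]
    group
  have h5 : y = n₀⁻¹ * (e⁻¹ * x * e) * n₀ := by rw [hexe]; group
  rw [h5, hexe2]
  group

end Cfsg.Agent.S1907
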