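import Cfsg.Statements.S1924
import Mathlib
import Cfsg.Agent.Lib.Transfer.Basic
import Cfsg.Agent.Lib.Basic.ElementFusion
import Cfsg.Agent.Lib.Basic.SylowUtil
-- import your own Cfsg.Agent.* helpers here

set_option autoImplicit false
open Cfsg

namespace Cfsg.Agent.S1924

open Subgroup Cfsg.Agent.Lib.Transfer.Basic

/-- A permutation all of whose cycles have length `2 ^ e`, `e > 0`, an odd number of them, is odd. -/
theorem sign_free {X : Type*} [Fintype X] [DecidableEq X] (f : Equiv.Perm X) (e : ℕ) (he : 0 < e)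
    (h1 : f ^ 2 ^ e = 1) (hfree : ∀ y, (f ^ 2 ^ (e - 1)) y ≠ y) (k : ℕ) (hk : Odd k)
    (hcard : Fintype.card X = 2 ^ e * k) : Equiv.Perm.sign f = -1 := by
  open Equiv.Perm in
  have hsupp : f.support = Finset.univ := by
    ext y
    simp only [mem_support, Finset.mem_univ, iff_true]
    intro hy
    apply hfree y
    have : ∀ j : ℕ, (f ^ j) y = y := by
      intro j
      induction j with
      | zero => simp
      | succ j ih => rw [pow_succ, Equiv.Perm.mul_apply, hy, ih]
    exact this _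
  have hmem : ∀ n ∈ f.cycleType, n = 2 ^ e := by
    intro n hn
    obtain ⟨c, τ, rfl, hd, hc, rfl⟩ := Equiv.Perm.mem_cycleType_iff.1 hn
    obtain ⟨y, hy, -⟩ := id hc
    have hτ : τ y = y := (hd y).resolve_left hy
    have hpow : ∀ j : ℕ, ((c * τ) ^ j) y = (c ^ j) y := by
      intro j
      rw [hd.commute.mul_pow, Equiv.Perm.mul_apply]
      congr 1
      induction j with
      | zero => simp
      | succ j ih => rw [pow_succ, Equiv.Perm.mul_apply, hτ, ih]
    have h2 : c ^ 2 ^ e = 1 := by
      rw [hc.pow_eq_one_iff]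
      refine ⟨y, hy, ?_⟩
      rw [← hpow, h1]
      rfl
    have h3 : orderOf c ∣ 2 ^ e := orderOf_dvd_of_pow_eq_one h2
    obtain ⟨v, hv, hvv⟩ := (Nat.dvd_prime_pow Nat.prime_two).1 h3
    rw [← hc.orderOf, hvv]
    congr 1
    by_contra hne
    have hlt : v ≤ e - 1 := by omega
    have h4 : c ^ 2 ^ (e - 1) = 1 :=
      orderOf_dvd_iff_pow_eq_one.1 (hvv ▸ pow_dvd_pow 2 hlt)
    apply hfree y
    rw [hpow, h4]
    rfl
  have hrep := Multiset.eq_replicate.2 ⟨rfl, hmem⟩
  have hsum := Equiv.Perm.sum_cycleType f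
  rw [hsupp, Finset.card_univ, hcard, hrep, Multiset.sum_replicate, smul_eq_mul, mul_comm] at hsum
  have hk' : Multiset.card f.cycleType = k :=
    Nat.eq_of_mul_eq_mul_left (pow_pos (by norm_num) e) hsum
  rw [Equiv.Perm.sign_of_cycleType]
  have hs2 : f.cycleType.sum = 2 ^ e * k := by
    rw [hrep, Multiset.sum_replicate, smul_eq_mul, mul_comm, hk']
  rw [hs2, hk']
  have hev : Even (2 ^ e * k) := Even.mul_right (Nat.even_pow.2 ⟨even_two, he.ne'⟩) k
  have : Odd (2 ^ e * k + k) := hev.add_odd hk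
  exact this.neg_one_pow

/-- A free element with the right index gives an odd permutation on cosets, impossible when
`O²(H) = H`. -/
theorem no_free {H : Type*} [Group H] [Finite H] (htop : Cfsg.pResidual 2 H = ⊤) (W : Subgroup H)
    (a : H) (e : ℕ) (he : 0 < e) (h1 : a ^ 2 ^ e = 1)
    (hfree : ∀ g : H, g⁻¹ * a ^ 2 ^ (e - 1) * g ∉ W) (k : ℕ) (hk : Odd k)
    (hidx : W.index = 2 ^ e * k) : False := by
  classical
  haveI : Fact (Nat.Prime 2) := ⟨Nat.prime_two⟩
  haveI : Fintype (H ⧸ W) := Fintype.ofFinite _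
  let ρ : H →* Equiv.Perm (H ⧸ W) := MulAction.toPermHom H (H ⧸ W)
  have hs : Equiv.Perm.sign (ρ a) = -1 := by
    apply sign_free (ρ a) e he ?_ ?_ k hk ?_
    · rw [← map_pow, h1, map_one]
    · intro y
      obtain ⟨g, rfl⟩ := QuotientGroup.mk_surjective y
      rw [← map_pow]
      intro hy
      have h2 : ((a ^ 2 ^ (e - 1) * g : H) : H ⧸ W) = g := hy
      rw [eq_comm, QuotientGroup.eq] at h2
      exact hfree g (by simpa [mul_assoc] using h2)
    · rw [← Nat.card_eq_fintype_card]
      exact hidx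
  let f : H →* ℤˣ := Equiv.Perm.sign.comp ρ
  have hp : IsPGroup 2 ℤˣ := IsPGroup.of_card (n := 1) (by simp)
  have hf : f a = 1 := pResidual_le_ker hp f (htop ▸ mem_top a)
  have hf' : f a = -1 := hs
  rw [hf'] at hf
  exact absurd hf (by decide)

theorem no_free' {G : Type*} [Group G] [Finite G] (H W : Subgroup G)
    (htop : Cfsg.pResidual 2 H = ⊤) (a : G) (ha : a ∈ H) (e : ℕ) (he : 0 < e) (h1 : a ^ 2 ^ e = 1)
    (hfree : ∀ g ∈ H, g⁻¹ * a ^ 2 ^ (e - 1) * g ∉ W) (k : ℕ) (hk : Odd k)
    (hidx : W.relIndex H = 2 ^ e * k) : False := by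
  refine no_free htop (W.subgroupOf H) ⟨a, ha⟩ e he (Subtype.ext h1) ?_ k hk hidx
  intro g hg
  exact hfree g g.2 (Subgroup.mem_subgroupOf.mp hg)

theorem dih_outside {n : ℕ} (hn : 2 ≤ n) (C : Subgroup (DihedralGroup n)) (hC : IsCyclic C)
    (hi : C.index = 2) (y : DihedralGroup n) (hy : y ∉ C) : orderOf y = 2 := by
  classical
  haveI : NeZero n := ⟨by omega⟩
  cases y with
  | sr i => exact DihedralGroup.orderOf_sr i
  | r i =>
    obtain ⟨g, hg⟩ := hC.exists_generator
    have hcard : Nat.card C = n := by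
      have := C.card_mul_index
      rw [hi, DihedralGroup.nat_card] at this
      omega
    have hord : orderOf (g : DihedralGroup n) = n := by
      rw [Subgroup.orderOf_coe, orderOf_eq_card_of_forall_mem_zpowers hg, hcard]
    obtain ⟨g', hg'⟩ := g
    cases g' with
    | sr j =>
      have hn2 : n = 2 := by
        rw [← hord]
        exact DihedralGroup.orderOf_sr j
      subst hn2
      have hi0 : i ≠ 0 := by
        rintro rfl
        exact hy C.one_mem
      rw [DihedralGroup.orderOf_r]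
      have hall : ∀ i : ZMod 2, i ≠ 0 → i.val = 1 := by decide
      rw [hall i hi0]
      norm_num
    | r j =>
      exfalso
      apply hy
      have h1 : orderOf (DihedralGroup.r j) = n := hord
      rw [DihedralGroup.orderOf_r] at h1
      have hgcd : Nat.gcd n j.val = 1 := by
        have hd : Nat.gcd n j.val ∣ n := Nat.gcd_dvd_left _ _
        obtain ⟨c, hc⟩ := hd
        have hpos : 0 < Nat.gcd n j.val := Nat.gcd_pos_of_pos_left _ (by omega)
        have h3 : n / Nat.gcd n j.val = c := by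
          rw [Nat.div_eq_iff_eq_mul_right hpos ⟨c, hc⟩]
          exact hc
        rw [h3] at h1
        rw [h1] at hc
        have : Nat.gcd n j.val * n = 1 * n := by
          rw [one_mul]
          exact hc.symm
        exact Nat.eq_of_mul_eq_mul_right (by omega) this
      have hu : IsUnit j := by
        have := (ZMod.isUnit_iff_coprime j.val n).2 (Nat.Coprime.symm hgcd)
        rwa [ZMod.natCast_zmod_val] at this
      have hmem : DihedralGroup.r j ^ (j⁻¹ * i).val = DihedralGroup.r i := by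
        rw [DihedralGroup.r_pow, ZMod.natCast_zmod_val, ← mul_assoc, ZMod.mul_inv_of_unit j hu, one_mul]
      rw [← hmem]
      exact C.pow_mem hg' _

theorem card_mul_relIndex {G : Type*} [Group G] {H K : Subgroup G} (h : H ≤ K) :
    Nat.card H * H.relIndex K = Nat.card K := by
  rw [← Nat.card_congr (subgroupOfEquivOfLe h).toEquiv]
  exact (H.subgroupOf K).card_mul_index

/-- A consequence of Thompson's transfer lemma. Let G be a finite group, L a subgroup with O²(L) = L, T a Sylow 2-subgroup of L and S a Sylow 2-subgroup of G containing T. Suppose D ≤ S is a dihedral subgroup of order at least 4 (the four-group counts) with D ∩ T = 1 and S = TD as a set of products (so |S| = |T|·|D|), and C ≤ D is cyclic of index 2 in D. If no involution of D outside C is G-conjugate to an involution of the subgroup generated by T and C, and the involution of C is not G-conjugate to any involution of T, then G has a normal subgroup K, containing every Sylow 2-subgroup of L as a Sylow 2-subgroup,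 with G = KD. -/
theorem result {G : Type*} [Group G] [Finite G] (L T S D C : Subgroup G) (hL : Cfsg.pResidual 2 ↥L = ⊤)
    (hTL : T ≤ L) (hT2 : IsPGroup 2 T) (hTsyl : ¬ 2 ∣ T.relIndex L)
    (hS2 : IsPGroup 2 S) (hSsyl : ¬ 2 ∣ S.index) (hTS : T ≤ S)
    (hDS : D ≤ S) (hDih : ∃ n : ℕ, 2 ≤ n ∧ Nonempty (↥D ≃* DihedralGroup n)) (hDT : D ⊓ T = ⊥) (hTD : T ⊔ D = S) (hTDc : Nat.card T * Nat.card D = Nat.card S)
    (hCD : C ≤ D) (hC : IsCyclic ↥C) (hCi : C.relIndex D = 2)
    (h1 : ∀ x ∈ D, x ∉ C → orderOf x = 2 → ∀ g : G, g * x * g⁻¹ ∈ T ⊔ C → False)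
    (h2 : ∀ c ∈ C, orderOf c = 2 → ∀ g : G, g * c * g⁻¹ ∈ T → False) :
    ∃ K : Subgroup G, K.Normal ∧ K ⊔ D = ⊤ ∧
      ∀ T' : Subgroup G, T' ≤ L → IsPGroup 2 T' → ¬ 2 ∣ T'.relIndex L → T' ≤ K ∧ ¬ 2 ∣ T'.relIndex K := by
  
  classical
  haveI : Fact (Nat.Prime 2) := ⟨Nat.prime_two⟩
  let H : Subgroup G := Cfsg.pResidual 2 G
  have hHn : H.Normal := pResidual_normal 2 G
  have hHH : Cfsg.pResidual 2 H = ⊤ :=
    Cfsg.Agent.Lib.Basic.ElementFusion.pResidual_pResidual_eq_top 2
  have hLH : L ≤ H := by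
    intro x hx
    have hc : (⟨x, hx⟩ : L) ∈ Cfsg.pResidual 2 L := hL ▸ mem_top _
    have hle : (Cfsg.pResidual 2 L).map L.subtype ≤ H := by
      rw [Cfsg.pResidual, MonoidHom.map_closure, closure_le]
      rintro _ ⟨y, hy, rfl⟩
      apply Subgroup.subset_closure
      show Nat.Coprime _ _
      have := hy
      simp only [Set.mem_ofPred_eq] at this
      rwa [Subgroup.coe_subtype, Subgroup.orderOf_coe]
    exact hle ⟨_, hc, rfl⟩
  have hTH : T ≤ H := hTL.trans hLH
  let S₀ : Sylow 2 G := hS2.toSylow hSsyl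
  have hS₀ : (S₀ : Subgroup G) = S := rfl
  -- products
  have hdecomp : ∀ s ∈ S, ∃ t ∈ T, ∃ d ∈ D, s = t * d := by
    let f : T × D → S := fun p => ⟨p.1 * p.2, S.mul_mem (hTS p.1.2) (hDS p.2.2)⟩
    have hinj : Function.Injective f := by
      rintro ⟨t, d⟩ ⟨t', d'⟩ h
      have h0 : (t : G) * d = t' * d' := congrArg Subtype.val h
      have h1 : (t' : G)⁻¹ * t = d' * (d : G)⁻¹ := by
        calc (t' : G)⁻¹ * t = (t' : G)⁻¹ * (t * d) * (d : G)⁻¹ := by group
          _ = (t' : G)⁻¹ * (t' * d') * (d : G)⁻¹ := by rw [h0]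
          _ = d' * (d : G)⁻¹ := by group
      have h2 : (t' : G)⁻¹ * t ∈ D ⊓ T := ⟨h1 ▸ D.mul_mem d'.2 (D.inv_mem d.2),
        T.mul_mem (T.inv_mem t'.2) t.2⟩
      rw [hDT, Subgroup.mem_bot] at h2
      have ht : (t : G) = t' := (inv_mul_eq_one.mp h2).symm
      have hd : (d : G) = d' := by
        rw [ht] at h0
        exact mul_left_cancel h0
      exact Prod.ext (Subtype.ext ht) (Subtype.ext hd)
    have hbij : Function.Bijective f := by
      refine hinj.bijective_of_nat_card_le ?_
      rw [Nat.card_prod, hTDc]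
    intro s hs
    obtain ⟨⟨t, d⟩, e⟩ := hbij.2 ⟨s, hs⟩
    exact ⟨t, t.2, d, d.2, (congrArg Subtype.val e).symm⟩
  -- structure of `D`
  have hF1 : ∀ y ∈ D, y ∉ C → orderOf y = 2 := by
    obtain ⟨n, hn, ⟨e⟩⟩ := hDih
    intro y hy hyC
    let C' : Subgroup (DihedralGroup n) := (C.subgroupOf D).map (e : D →* DihedralGroup n)
    have hC'i : C'.index = 2 := by
      rw [Subgroup.index_map_equiv]
      exact hCi
    have hC'c : IsCyclic C' := by
      have hcyc : IsCyclic (C.subgroupOf D) :=
        isCyclic_of_surjective (subgroupOfEquivOfLe hCD).symm.toMonoidHom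
          (subgroupOfEquivOfLe hCD).symm.surjective
      exact isCyclic_of_surjective (MonoidHom.subgroupMap (e : D →* DihedralGroup n) (C.subgroupOf D))
        (MonoidHom.subgroupMap_surjective _ _)
    have hout : e ⟨y, hy⟩ ∉ C' := by
      rintro ⟨z, hz, hze⟩
      have h1 : z = ⟨y, hy⟩ := e.injective hze
      rw [h1] at hz
      exact hyC hz
    have h2 := dih_outside hn C' hC'c hC'i _ hout
    rw [MulEquiv.orderOf_eq, Subgroup.orderOf_mk] at h2
    exact h2
  obtain ⟨x, hxD, hxC⟩ : ∃ x ∈ D, x ∉ C := by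
    by_contra hcon
    push Not at hcon
    have : C.relIndex D = 1 := Subgroup.relIndex_eq_one.mpr hcon
    omega
  let M : Subgroup G := T ⊔ C
  have hCT : C ⊓ T = ⊥ := by
    rw [eq_bot_iff, ← hDT]
    exact inf_le_inf_right _ hCD
  have hMS : M ≤ S := sup_le hTS (hCD.trans hDS)
  have hxM : x ∉ M := fun hx' =>
    h1 x hxD hxC (hF1 x hxD hxC) 1 (by simpa using hx')
  have hcardM : Nat.card T * Nat.card C ≤ Nat.card M := by
    let f : T × C → M := fun p => ⟨p.1 * p.2, M.mul_mem (le_sup_left (a := T) p.1.2)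
      (le_sup_right (b := C) p.2.2)⟩
    have hinj : Function.Injective f := by
      rintro ⟨t, d⟩ ⟨t', d'⟩ h
      have h0 : (t : G) * d = t' * d' := congrArg Subtype.val h
      have h1 : (t' : G)⁻¹ * t = d' * (d : G)⁻¹ := by
        calc (t' : G)⁻¹ * t = (t' : G)⁻¹ * (t * d) * (d : G)⁻¹ := by group
          _ = (t' : G)⁻¹ * (t' * d') * (d : G)⁻¹ := by rw [h0]
          _ = d' * (d : G)⁻¹ := by group
      have h2 : (t' : G)⁻¹ * t ∈ C ⊓ T := ⟨h1 ▸ C.mul_mem d'.2 (C.inv_mem d.2),
        T.mul_mem (T.inv_mem t'.2) t.2⟩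
      rw [hCT, Subgroup.mem_bot] at h2
      have ht : (t : G) = t' := (inv_mul_eq_one.mp h2).symm
      have hd : (d : G) = d' := by
        rw [ht] at h0
        exact mul_left_cancel h0
      exact Prod.ext (Subtype.ext ht) (Subtype.ext hd)
    rw [← Nat.card_prod]
    exact Nat.card_le_card_of_injective f hinj
  have hMi : M.relIndex S = 2 := by
    have h1' := card_mul_relIndex hMS
    have h2' := card_mul_relIndex hCD
    rw [hCi] at h2'
    rw [← hTDc, ← h2'] at h1'
    have hne1 : M.relIndex S ≠ 1 := by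
      intro h
      exact hxM (Subgroup.relIndex_eq_one.mp h (hDS hxD))
    have hMpos : 0 < Nat.card M := Nat.card_pos
    have hTCpos : 0 < Nat.card T * Nat.card C := Nat.mul_pos Nat.card_pos Nat.card_pos
    have hne0 : M.relIndex S ≠ 0 := by
      intro h
      rw [h] at h1'
      have : 0 < Nat.card T * (Nat.card C * 2) :=
        Nat.mul_pos Nat.card_pos (Nat.mul_pos Nat.card_pos (by norm_num))
      omega
    have hle : M.relIndex S ≤ 2 := by
      by_contra hcon
      have h3 : Nat.card M * 3 ≤ Nat.card M * M.relIndex S := Nat.mul_le_mul_left _ (by omega)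
      have h4 : Nat.card T * (Nat.card C * 2) = 2 * (Nat.card T * Nat.card C) := by ring
      omega
    omega
  -- the intersection with `H`
  let A : Subgroup G := H ⊓ D
  have hAD : A ≤ D := inf_le_right
  have hAH : A ≤ H := inf_le_left
  have hcardS' : Nat.card ((S ⊓ H : Subgroup G)) = Nat.card T * Nat.card A := by
    let f : T × A → (S ⊓ H : Subgroup G) := fun p => ⟨p.1 * p.2,
      (S ⊓ H).mul_mem ⟨hTS p.1.2, hTH p.1.2⟩ ⟨hDS (hAD p.2.2), hAH p.2.2⟩⟩
    have hinj : Function.Injective f := by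
      rintro ⟨t, d⟩ ⟨t', d'⟩ h
      have h0 : (t : G) * d = t' * d' := congrArg Subtype.val h
      have h1 : (t' : G)⁻¹ * t = d' * (d : G)⁻¹ := by
        calc (t' : G)⁻¹ * t = (t' : G)⁻¹ * (t * d) * (d : G)⁻¹ := by group
          _ = (t' : G)⁻¹ * (t' * d') * (d : G)⁻¹ := by rw [h0]
          _ = d' * (d : G)⁻¹ := by group
      have h2 : (t' : G)⁻¹ * t ∈ D ⊓ T := ⟨h1 ▸ D.mul_mem (hAD d'.2) (D.inv_mem (hAD d.2)),
        T.mul_mem (T.inv_mem t'.2) t.2⟩
      rw [hDT, Subgroup.mem_bot] at h2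
      have ht : (t : G) = t' := (inv_mul_eq_one.mp h2).symm
      have hd : (d : G) = d' := by
        rw [ht] at h0
        exact mul_left_cancel h0
      exact Prod.ext (Subtype.ext ht) (Subtype.ext hd)
    have hsurj : Function.Surjective f := by
      rintro ⟨s, hsS, hsH⟩
      obtain ⟨t, ht, d, hd, rfl⟩ := hdecomp s hsS
      have hdH : d ∈ H := by
        have : d = t⁻¹ * (t * d) := by group
        rw [this]
        exact H.mul_mem (H.inv_mem (hTH ht)) hsH
      exact ⟨⟨⟨t, ht⟩, ⟨d, hdH, hd⟩⟩, rfl⟩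
    rw [← Nat.card_prod]
    exact (Nat.card_congr (Equiv.ofBijective f ⟨hinj, hsurj⟩)).symm
  have hodd : ¬ 2 ∣ (S ⊓ H).relIndex H := by
    obtain ⟨Q, hQ⟩ := Cfsg.Agent.Lib.Basic.SylowUtil.exists_sylow_inf_normal S₀ H
    have h1' : (S ⊓ H).relIndex H = (Q : Subgroup H).index := by
      rw [Subgroup.relIndex]
      have : S ⊓ H = (Q : Subgroup H).map H.subtype := hQ.symm
      rw [this, Subgroup.subgroupOf, Subgroup.comap_map_eq_self_of_injective H.subtype_injective]
    rw [h1']
    exact Q.not_dvd_index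
  have hSH : S ⊓ H ≤ H := inf_le_right
  have hT_SH : T ≤ S ⊓ H := le_inf hTS hTH
  have hA : A = ⊥ := by
    by_contra hne
    by_cases hAC : A ≤ C
    · -- cyclic case
      haveI : IsCyclic C := hC
      haveI hAcyc : IsCyclic A := Subgroup.isCyclic_of_le hAC
      obtain ⟨a, ha⟩ := hAcyc.exists_generator
      have hord : orderOf (a : G) = Nat.card A := by
        rw [Subgroup.orderOf_coe, orderOf_eq_card_of_forall_mem_zpowers ha]
      have hA2 : IsPGroup 2 A := hS2.to_le (hAD.trans hDS)
      obtain ⟨e, hAe⟩ := IsPGroup.iff_card.mp hA2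
      have he : 0 < e := by
        rcases Nat.eq_zero_or_pos e with rfl | h
        · exfalso
          apply hne
          rw [pow_zero] at hAe
          exact (Subgroup.card_eq_one).mp hAe
        · exact h
      have hz : orderOf ((a : G) ^ 2 ^ (e - 1)) = 2 := by
        have h3 := orderOf_pow_orderOf_div (x := (a : G)) (n := 2) (by rw [hord, hAe]; positivity)
          (by rw [hord, hAe]; exact dvd_pow_self 2 he.ne')
        have h4 : orderOf (a : G) / 2 = 2 ^ (e - 1) := by
          rw [hord, hAe]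
          obtain ⟨e', rfl⟩ : ∃ e', e = e' + 1 := ⟨e - 1, by omega⟩
          simp [pow_succ]
        rwa [h4] at h3
      have hzC : (a : G) ^ 2 ^ (e - 1) ∈ C := C.pow_mem (hAC a.2) _
      have hindex : T.relIndex H = 2 ^ e * (S ⊓ H).relIndex H := by
        have h5 := card_mul_relIndex (hT_SH.trans hSH)
        have h6 := card_mul_relIndex hSH
        rw [hcardS', hAe] at h6
        rw [← h5, mul_assoc] at h6
        exact (Nat.eq_of_mul_eq_mul_left Nat.card_pos h6).symm
      refine no_free' H T hHH a (hAH a.2) e he ?_ ?_ _ ?_ hindex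
      · rw [← hAe, ← hord]
        exact pow_orderOf_eq_one _
      · intro g _ hg
        exact h2 _ hzC hz g⁻¹ (by simpa using hg)
      · exact Nat.odd_iff.mpr (by omega)
    · -- reflection case
      obtain ⟨y, hyA, hyC⟩ := SetLike.not_le_iff_exists.mp hAC
      have hyo := hF1 y (hAD hyA) hyC
      have hyC' : y ∉ M := fun hy' => h1 y (hAD hyA) hyC hyo 1 (by simpa using hy')
      have hindex : M.relIndex H = 2 ^ 1 * (S ⊓ H).relIndex H := by
        have hMH : (M ⊓ H) = M ⊓ (S ⊓ H) := le_antisymm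
          (le_inf inf_le_left (le_inf (inf_le_left.trans hMS) inf_le_right))
          (inf_le_inf_left _ inf_le_right)
        have h5 : M.relIndex H = (M ⊓ H).relIndex H := (Subgroup.inf_relIndex_right _ _).symm
        have h6 := Subgroup.relIndex_mul_relIndex (M ⊓ H) (S ⊓ H) H
          (le_inf (inf_le_left.trans hMS) inf_le_right) hSH
        have h7 : (M ⊓ H).relIndex (S ⊓ H) = M.relIndex (S ⊓ H) := by
          rw [hMH]
          exact Subgroup.inf_relIndex_right _ _
        have h8 : M.relIndex (S ⊓ H) ≤ 2 :=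
          hMi ▸ Subgroup.relIndex_le_of_le_right inf_le_left (by omega)
        have h9 : M.relIndex (S ⊓ H) ≠ 1 := by
          intro h
          exact hyC' (Subgroup.relIndex_eq_one.mp h ⟨hDS (hAD hyA), hAH hyA⟩)
        have h10 : M.relIndex (S ⊓ H) ≠ 0 := by
          intro h
          have h11 := card_mul_relIndex (show M ⊓ (S ⊓ H) ≤ S ⊓ H from inf_le_right)
          rw [Subgroup.inf_relIndex_right, h, mul_zero] at h11
          exact (Nat.card_pos (α := (S ⊓ H : Subgroup G))).ne h11
        have h12 : M.relIndex (S ⊓ H) = 2 := by omega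
        rw [h5, ← h6, h7, h12, pow_one]
      refine no_free' H M hHH y (hAH hyA) 1 one_pos ?_ ?_ _ ?_ hindex
      · rw [pow_one, ← hyo]
        exact pow_orderOf_eq_one _
      · intro g _ hg
        apply h1 y (hAD hyA) hyC hyo g⁻¹
        simpa using hg
      · exact Nat.odd_iff.mpr (by omega)
  -- conclusion
  have hcardA : Nat.card A = 1 := by
    rw [hA]
    exact Nat.card_unique
  have hcardT : Nat.card ((S ⊓ H : Subgroup G)) = Nat.card T := by
    rw [hcardS', hcardA, mul_one]
  have hTrel : T.relIndex H = (S ⊓ H).relIndex H := by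
    have h5 := card_mul_relIndex (hT_SH.trans hSH)
    have h6 := card_mul_relIndex hSH
    rw [hcardT, ← h5] at h6
    exact (Nat.eq_of_mul_eq_mul_left Nat.card_pos h6).symm
  refine ⟨H, hHn, ?_, ?_⟩
  · rw [eq_top_iff]
    intro g _
    have hS_sup : S ≤ H ⊔ D := by
      rw [← hTD]
      exact sup_le_sup_right hTH D
    have hpg : IsPGroup 2 (G ⧸ H) := isPGroup_quotient_pResidual
    have hmap : (S₀ : Subgroup G).map (QuotientGroup.mk' H) = ⊤ :=
      ((S₀.mapSurjective (QuotientGroup.mk'_surjective H)).is_maximal' (hpg.to_subgroup ⊤) le_top).symm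
    have : (g : G ⧸ H) ∈ (S₀ : Subgroup G).map (QuotientGroup.mk' H) := hmap ▸ mem_top _
    obtain ⟨s, hs, hsg⟩ := this
    have hsg' : (s : G ⧸ H) = (g : G ⧸ H) := hsg
    rw [QuotientGroup.eq] at hsg'
    have e : g = s * (s⁻¹ * g) := by group
    rw [e]
    exact (H ⊔ D).mul_mem (hS_sup hs) (le_sup_left (a := H) hsg')
  · intro T' hT'L hT'2 hT'odd
    refine ⟨hT'L.trans hLH, ?_⟩
    have h5 := card_mul_relIndex hTL
    have h6 := card_mul_relIndex hT'L
    have h7 : Nat.card T' ∣ Nat.card T := by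
      obtain ⟨n, hn⟩ := IsPGroup.iff_card.mp hT'2
      have h8 : Nat.Coprime (Nat.card T') (T.relIndex L) := by
        rw [hn]
        exact Nat.Coprime.pow_left n ((Nat.Prime.coprime_iff_not_dvd Nat.prime_two).mpr hTsyl)
      exact h8.dvd_of_dvd_mul_right (h5 ▸ h6 ▸ Dvd.intro _ rfl)
    have h9 : Nat.card T ∣ Nat.card T' := by
      obtain ⟨n, hn⟩ := IsPGroup.iff_card.mp hT2
      have h8 : Nat.Coprime (Nat.card T) (T'.relIndex L) := by
        rw [hn]
        exact Nat.Coprime.pow_left n ((Nat.Prime.coprime_iff_not_dvd Nat.prime_two).mpr hT'odd)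
      exact h8.dvd_of_dvd_mul_right (h6 ▸ h5 ▸ Dvd.intro _ rfl)
    have h10 : Nat.card T' = Nat.card T := Nat.dvd_antisymm h7 h9
    have h11 := card_mul_relIndex (hT'L.trans hLH)
    have h12 := card_mul_relIndex (hT_SH.trans hSH)
    rw [h10, ← h12] at h11
    have h13 : T'.relIndex H = T.relIndex H := Nat.eq_of_mul_eq_mul_left Nat.card_pos h11
    rw [h13, hTrel]
    exact hodd

end Cfsg.Agent.S1924
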