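import Cfsg.Statements.S1932
import Mathlib
import Cfsg.Agent.Lib.PGroup.SFourClassTwo

set_option autoImplicit false
open Cfsg

namespace Cfsg.Agent.S1932

/-- Let G be a finite group that is 2-constrained and has no section isomorphic to the symmetric group of degree 4, and let S be a Sylow 2-subgroup of G of nilpotency class at most 2. Then G = N_G(J(S))·O_{2'}(G), where J(S) is the Thompson subgroup generated by the elementary abelian subgroups of S of largest order. -/
theorem result {G : Type*} [Group G] [Finite G] (hcon : Cfsg.IsPConstrained 2 G) (hS4 : ¬ Cfsg.Involves (Equiv.Perm (Fin 4)) G) (S : Sylow 2 G) (hcl : Subgroup.lowerCentralSeries (S : Subgroup G) 2 = ⊥) : Subgroup.normalizer ((Cfsg.thompsonSubgroupOf 2 (S : Subgroup G)) : Set G) ⊔ Cfsg.pPrimeCore 2 G = ⊤ := by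
  exact Cfsg.Agent.Lib.PGroup.SFourClassTwo.normalizer_thompson_sup_constrained hcon hS4 S
    (Cfsg.Agent.Lib.PGroup.SFourFree.comm_comm_of_lower hcl)

end Cfsg.Agent.S1932
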