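import Cfsg.Statements.S1939
import Mathlib
-- import your own Cfsg.Agent.* helpers here

set_option autoImplicit false
open Cfsg

namespace Cfsg.Agent.S1939

/-- Let S be a Sylow p-subgroup of the finite group G and a an element of S that is the only G-conjugate of a lying in S. Then every power of a has the same property: for every n, the only G-conjugate of a^n lying in S is a^n. -/
theorem result {G : Type*} [Group G] [Finite G] {p : ℕ} [Fact p.Prime] (S : Sylow p G) (a : G)
    (haS : a ∈ (S : Subgroup G)) (hwc : ∀ g : G, g * a * g⁻¹ ∈ (S : Subgroup G) → g * a * g⁻¹ = a) (n : ℕ) :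
    ∀ g : G, g * a ^ n * g⁻¹ ∈ (S : Subgroup G) → g * a ^ n * g⁻¹ = a ^ n := by
  intro g hy
  set y := g * a ^ n * g⁻¹ with hydef
  have hcentral : ∀ s ∈ (S : Subgroup G), s * a = a * s := by
    intro s hs
    have h1 : s * a * s⁻¹ ∈ (S : Subgroup G) :=
      Subgroup.mul_mem _ (Subgroup.mul_mem _ hs haS) (Subgroup.inv_mem _ hs)
    have h2 := hwc s h1
    calc s * a = s * a * s⁻¹ * s := by group
      _ = a * s := by rw [h2]
  have hcentralpow : ∀ s ∈ (S : Subgroup G), s * a ^ n = a ^ n * s := by
    intro s hs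
    exact (Commute.pow_right (hcentral s hs) n)
  set H := Subgroup.centralizer ({y} : Set G) with hH
  have hmemH : ∀ x, x * y = y * x → x ∈ H := by
    intro x hx
    rw [hH, Subgroup.mem_centralizer_singleton_iff]
    exact hx
  have hgS : (((g • S : Sylow p G)) : Subgroup G) ≤ H := by
    intro x hx
    rw [Sylow.coe_subgroup_smul] at hx
    obtain ⟨s, hs, rfl⟩ := Subgroup.mem_smul_pointwise_iff_exists _ _ _ |>.mp hx
    apply hmemH
    simp only [MulAut.smul_def, MulAut.conj_apply, hydef]
    have := hcentralpow s hs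
    calc g * s * g⁻¹ * (g * a ^ n * g⁻¹) = g * (s * a ^ n) * g⁻¹ := by group
      _ = g * (a ^ n * s) * g⁻¹ := by rw [this]
      _ = g * a ^ n * g⁻¹ * (g * s * g⁻¹) := by group
  have haH : a ∈ H := hmemH a (hcentral y hy).symm
  have hp : IsPGroup p ((S : Subgroup G).comap H.subtype) :=
    S.isPGroup'.comap_of_injective H.subtype H.subtype_injective
  obtain ⟨Q, hQ⟩ := hp.exists_le_sylow
  obtain ⟨h, hh⟩ := MulAction.exists_smul_eq H ((g • S).subtype hgS) Q
  have haQ : (⟨a, haH⟩ : H) ∈ (Q : Subgroup H) := hQ (Subgroup.mem_comap.mpr haS)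
  rw [← hh, Sylow.coe_subgroup_smul] at haQ
  obtain ⟨z, hz, hza⟩ := Subgroup.mem_smul_pointwise_iff_exists _ _ _ |>.mp haQ
  simp only [MulAut.smul_def, MulAut.conj_apply] at hza
  have hzg : ((z : H) : G) ∈ ((g • S : Sylow p G) : Subgroup G) := by
    have := hz
    rw [Sylow.coe_subtype] at this
    exact this
  rw [Sylow.coe_subgroup_smul] at hzg
  obtain ⟨s, hs, hsz⟩ := Subgroup.mem_smul_pointwise_iff_exists _ _ _ |>.mp hzg
  simp only [MulAut.smul_def, MulAut.conj_apply] at hsz
  have hza' : (h : G) * (z : G) * (h : G)⁻¹ = a := by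
    have := congrArg Subtype.val hza
    simpa using this
  have hs' : ((h : G) * g)⁻¹ * a * ((h : G) * g) = s := by
    rw [← hza', ← hsz]
    group
  have h4 := hwc (((h : G) * g)⁻¹) (by rw [inv_inv, hs']; exact hs)
  rw [inv_inv] at h4
  -- so h g commutes with a
  have h5 : ((h : G) * g) * a = a * ((h : G) * g) := by
    have : a = ((h : G) * g)⁻¹ * a * ((h : G) * g) := h4.symm
    calc ((h : G) * g) * a = ((h : G) * g) * (((h : G) * g)⁻¹ * a * ((h : G) * g)) := by rw [← this]
      _ = a * ((h : G) * g) := by group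
  have h6 : ((h : G) * g) * a ^ n = a ^ n * ((h : G) * g) := (Commute.pow_right h5 n)
  have hhy : (h : G) * y = y * (h : G) := by
    have := h.2
    exact Subgroup.mem_centralizer_singleton_iff.mp this
  calc y = (h : G) * y * (h : G)⁻¹ := by rw [hhy]; group
    _ = ((h : G) * g) * a ^ n * ((h : G) * g)⁻¹ := by rw [hydef]; group
    _ = a ^ n := by rw [h6]; group

end Cfsg.Agent.S1939
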