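import Cfsg.Statements.S1940
import Mathlib
-- import your own Cfsg.Agent.* helpers here

set_option autoImplicit false
open Cfsg

namespace Cfsg.Agent.S1940

/-- Let the finite group L act by automorphisms on the finite abelian group M, and let N be an L-invariant subgroup of M such that M/N is a p-group on which L acts trivially (every l • m lies in the coset mN). If every element of M is a product of an element of N and an element fixed by a Sylow p-subgroup T of L, then every element of M is a product of an element of N and an element fixed by all of L. -/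
theorem result {L : Type*} [Group L] [Finite L] {M : Type*} [CommGroup M] [Finite M] [MulDistribMulAction L M]
    {p : ℕ} [Fact p.Prime] (N : Subgroup M) (hN : ∀ (l : L) (m : M), m ∈ N → l • m ∈ N)
    (hquot : IsPGroup p (M ⧸ N)) (htriv : ∀ (l : L) (m : M), (l • m) * m⁻¹ ∈ N) (T : Sylow p L)
    (hT : ∀ m : M, ∃ n ∈ N, ∃ c : M, (∀ t ∈ (T : Subgroup L), t • c = c) ∧ m = n * c) :
    ∀ m : M, ∃ n ∈ N, ∃ c : M, (∀ l : L, l • c = c) ∧ m = n * c := by
  classical
  have : Fintype (L ⧸ (T : Subgroup L)) := Fintype.ofFinite _
  set Q := M ⧸ N with hQ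
  set π := QuotientGroup.mk' N with hπ
  -- the averaging map
  let F : M → M := fun c => ∏ x : L ⧸ (T : Subgroup L), (Quotient.out x) • c
  have hFfix : ∀ c : M, (∀ t ∈ (T : Subgroup L), t • c = c) → ∀ l : L, l • F c = F c := by
    intro c hc l
    show (MulDistribMulAction.toMonoidHom M l) (∏ x : L ⧸ (T : Subgroup L), (Quotient.out x) • c) = _
    rw [map_prod]
    simp only [MulDistribMulAction.toMonoidHom_apply]
    symm
    refine Fintype.prod_equiv (MulAction.toPerm l : Equiv.Perm (L ⧸ (T : Subgroup L))).symm _ _ ?_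
    intro x
    set y := (MulAction.toPerm l : Equiv.Perm (L ⧸ (T : Subgroup L))).symm x with hy
    have hxy : l • y = x := by
      rw [hy]
      exact (MulAction.toPerm l : Equiv.Perm (L ⧸ (T : Subgroup L))).apply_symm_apply x
    have hmk : ((l * Quotient.out y : L) : L ⧸ (T : Subgroup L)) = x := by
      have h1 : ((Quotient.out y : L) : L ⧸ (T : Subgroup L)) = y := Quotient.out_eq' y
      have h2 : ((l * Quotient.out y : L) : L ⧸ (T : Subgroup L)) =
          l • ((Quotient.out y : L) : L ⧸ (T : Subgroup L)) := rfl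
      rw [h2, h1, hxy]
    have hmk2 : (Quotient.out x : L)⁻¹ * (l * Quotient.out y) ∈ (T : Subgroup L) := by
      apply QuotientGroup.eq.1
      rw [hmk]
      exact Quotient.out_eq' x
    have := hc _ hmk2
    rw [mul_smul, inv_smul_eq_iff] at this
    rw [smul_smul] at *
    exact this.symm
  have hFmk : ∀ c : M, π (F c) = (π c) ^ (T : Subgroup L).index := by
    intro c
    show π (∏ x : L ⧸ (T : Subgroup L), (Quotient.out x) • c) = _
    rw [map_prod]
    have h2 : ∀ x : L ⧸ (T : Subgroup L), π ((Quotient.out x) • c) = π c := by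
      intro x
      have := htriv (Quotient.out x) c
      have h3 : π ((Quotient.out x • c) * c⁻¹) = 1 := by
        rw [hπ, QuotientGroup.mk'_apply]
        exact (QuotientGroup.eq_one_iff _).2 this
      rw [map_mul, map_inv, mul_inv_eq_one] at h3
      exact h3
    rw [Finset.prod_congr rfl (fun x _ => h2 x), Finset.prod_const, Finset.card_univ,
      Subgroup.index_eq_card, Nat.card_eq_fintype_card]
  have hcop : (Nat.card Q).Coprime (T : Subgroup L).index := by
    obtain ⟨a, ha⟩ := IsPGroup.iff_card.1 hquot
    rw [ha]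
    apply Nat.Coprime.pow_left
    exact (Nat.Prime.coprime_iff_not_dvd Fact.out).2 T.not_dvd_index
  intro m
  let e := powCoprime hcop
  obtain ⟨y, hy⟩ := e.surjective (π m)
  obtain ⟨m', rfl⟩ := QuotientGroup.mk'_surjective N y
  obtain ⟨n, hn, c, hc, rfl⟩ := hT m'
  refine ⟨m * (F c)⁻¹, ?_, F c, hFfix c hc, by group⟩
  have h1 : π n = 1 := by
    rw [hπ, QuotientGroup.mk'_apply]
    exact (QuotientGroup.eq_one_iff _).2 hn
  have h2 : π m = π (F c) := by
    rw [hFmk, ← hy]
    show (π (n * c)) ^ (T : Subgroup L).index = _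
    rw [map_mul, h1, one_mul]
  have h3 : π (m * (F c)⁻¹) = 1 := by
    rw [map_mul, map_inv, h2, mul_inv_cancel]
  rw [hπ, QuotientGroup.mk'_apply] at h3
  exact (QuotientGroup.eq_one_iff _).1 h3

end Cfsg.Agent.S1940
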