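import Cfsg.Statements.S1944
import Mathlib
import Cfsg.Agent.Lib.Solvable.PSeries
import Cfsg.Agent.Lib.Coprime.Three
import Cfsg.Agent.Lib.Basic.SylowUtil

set_option autoImplicit false
open Cfsg

namespace Cfsg.Agent.S1944

open Subgroup Cfsg.Agent.Lib.Basic.PCore Cfsg.Agent.Lib.Solvable.PSeries
open Cfsg.Agent.Lib.Coprime.Three

set_option linter.style.haveILetI false

/-- A decomposition of the fixed points of a subgroup of coprime index, obtained from the norm. -/
theorem norm_decomp {A N : Type*} [Group A] [Finite A] [Group N] [Finite N]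
    [MulDistribMulAction N A] (hcomm : ∀ a b : A, a * b = b * a) (S : Subgroup N)
    (hcop : (Nat.card A).Coprime S.index) :
    ∃ L : Subgroup A, (∀ l ∈ L, ∀ s ∈ S, s • l = l) ∧ (∀ a ∈ L, (∀ n : N, n • a = a) → a = 1) ∧
      ∀ z : A, (∀ s ∈ S, s • z = z) → ∃ c l, (∀ n : N, n • c = c) ∧ l ∈ L ∧ z = c * l := by
  classical
  letI : CommGroup A := { ‹Group A› with mul_comm := hcomm }
  haveI := Fintype.ofFinite (N ⧸ S)
  let τ : A →* A :=
    { toFun := fun a => ∏ q : N ⧸ S, q.out • a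
      map_one' := by simp
      map_mul' := fun a b => by simp [smul_mul', Finset.prod_mul_distrib] }
  have hτ : ∀ a, τ a = ∏ q : N ⧸ S, q.out • a := fun _ => rfl
  have hrep : ∀ z : A, (∀ s ∈ S, s • z = z) → ∀ x y : N, (x : N ⧸ S) = y → x • z = y • z := by
    intro z hz x y hxy
    have h1 : x⁻¹ * y ∈ S := QuotientGroup.eq.mp hxy
    have h2 : (x⁻¹ * y) • z = z := hz _ h1
    calc x • z = x • ((x⁻¹ * y) • z) := by rw [h2]
      _ = y • z := by rw [smul_smul, mul_inv_cancel_left]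
  have hτ_fixed : ∀ z : A, (∀ s ∈ S, s • z = z) → ∀ n : N, n • τ z = τ z := by
    intro z hz n
    rw [hτ, Finset.smul_prod']
    refine Fintype.prod_equiv (MulAction.toPerm n) _ _ (fun q => ?_)
    rw [smul_smul]
    apply hrep z hz
    simp only [MulAction.toPerm_apply, QuotientGroup.out_eq']
    conv_rhs => rw [← QuotientGroup.out_eq' q]
    rfl
  have hτ_pow : ∀ c : A, (∀ n : N, n • c = c) → τ c = c ^ S.index := by
    intro c hc
    rw [hτ]
    simp [hc, Finset.prod_const, Finset.card_univ, Subgroup.index, Nat.card_eq_fintype_card]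
  let L : Subgroup A :=
    { carrier := {a | (∀ s ∈ S, s • a = a) ∧ τ a = 1}
      mul_mem' := by
        rintro a b ⟨ha, ha'⟩ ⟨hb, hb'⟩
        refine ⟨fun s hs => ?_, ?_⟩
        · rw [smul_mul', ha s hs, hb s hs]
        · rw [map_mul, ha', hb', one_mul]
      one_mem' := ⟨fun s _ => smul_one s, map_one τ⟩
      inv_mem' := by
        rintro a ⟨ha, ha'⟩
        refine ⟨fun s hs => ?_, ?_⟩
        · rw [smul_inv', ha s hs]
        · rw [map_inv, ha', inv_one] }
  refine ⟨L, fun l hl => hl.1, ?_, ?_⟩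
  · intro a ha hfix
    have h1 : a ^ S.index = 1 := by rw [← hτ_pow a hfix]; exact ha.2
    have h2 : a ^ Nat.card A = 1 := pow_card_eq_one'
    have h3 : orderOf a = 1 := Nat.Coprime.eq_one_of_dvd
      (Nat.Coprime.coprime_dvd_left (orderOf_dvd_of_pow_eq_one h2) hcop) (orderOf_dvd_of_pow_eq_one h1)
    exact orderOf_eq_one_iff.mp h3
  · intro z hz
    set y : A := (τ z) ^ (Nat.card A).gcdB S.index with hy
    have hy1 : y ^ S.index = τ z := (powCoprime hcop).apply_symm_apply (τ z)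
    have hyfix : ∀ n : N, n • y = y := by
      intro n
      rw [hy, smul_zpow', hτ_fixed z hz n]
    refine ⟨y, y⁻¹ * z, hyfix, ⟨fun s hs => ?_, ?_⟩, by group⟩
    · rw [smul_mul', smul_inv', hyfix, hz s hs]
    · rw [map_mul, map_inv, hτ_pow y hyfix, hy1, inv_mul_cancel]

/-- Let S be a Sylow p-subgroup of the finite group G and suppose that the centre Z(S) lies in O_{p',p}(G). The elements of S each of which is its only G-conjugate in S form a subgroup W of Z(S); W is then a direct factor of Z(S): there is a subgroup K of Z(S) with W ∩ K = 1 and WK = Z(S). -/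
theorem result {G : Type*} [Group G] [Finite G] {p : ℕ} [Fact p.Prime] (S : Sylow p G)
    (hZ : ((S : Subgroup G) ⊓ Subgroup.centralizer ((S : Subgroup G) : Set G)) ≤ Cfsg.pPrimePCore p G) :
    ∃ W K : Subgroup G, (∀ x : G, x ∈ W ↔ (x ∈ (S : Subgroup G) ∧ ∀ g : G, g * x * g⁻¹ ∈ (S : Subgroup G) → g * x * g⁻¹ = x)) ∧
      K ≤ ((S : Subgroup G) ⊓ Subgroup.centralizer ((S : Subgroup G) : Set G)) ∧ W ⊓ K = ⊥ ∧ W ⊔ K = ((S : Subgroup G) ⊓ Subgroup.centralizer ((S : Subgroup G) : Set G)) := by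
  classical
  set K₀ := pPrimeCore p G with hK₀
  haveI hK₀n : K₀.Normal := pPrimeCore_normal p G
  set R := pPrimePCore p G with hR
  haveI hRn : R.Normal := by rw [hR, pPrimePCore]; infer_instance
  set π : G →* G ⧸ K₀ := QuotientGroup.mk' K₀ with hπ
  have hπs : Function.Surjective π := QuotientGroup.mk'_surjective K₀
  obtain ⟨Q, hQ⟩ := Cfsg.Agent.Lib.Basic.SylowUtil.exists_sylow_inf_normal S R
  set P : Subgroup G := (S : Subgroup G) ⊓ R with hP
  set N : Subgroup G := normalizer (P : Set G) with hN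
  have htop : N ⊔ R = ⊤ := by
    have := Sylow.normalizer_sup_eq_top Q
    rwa [hQ] at this
  have hPN : P ≤ N := le_normalizer
  have hRfac : ∀ r ∈ R, ∃ n ∈ P, ∃ k ∈ K₀, r = n * k := by
    intro r hr
    have h1 : pCore p (G ⧸ K₀) ≤ ((S.mapSurjective hπs : Sylow p (G ⧸ K₀)) : Subgroup (G ⧸ K₀)) :=
      pCore_le_sylow _
    rw [Sylow.coe_mapSurjective] at h1
    obtain ⟨s, hs, hsx⟩ := h1 hr
    have hk : s⁻¹ * r ∈ K₀ := by
      rw [← QuotientGroup.eq_one_iff, QuotientGroup.mk_mul, QuotientGroup.mk_inv]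
      have : (s : G ⧸ K₀) = (r : G ⧸ K₀) := hsx
      rw [this, inv_mul_cancel]
    have hK₀R : K₀ ≤ R := by
      intro x hx
      show π x ∈ pCore p (G ⧸ K₀)
      have h0 : π x = 1 := (QuotientGroup.eq_one_iff x).mpr hx
      rw [h0]
      exact one_mem _
    have hsR : s ∈ R := by
      have h3 := R.mul_mem hr (R.inv_mem (hK₀R hk))
      have h4 : r * (s⁻¹ * r)⁻¹ = s := by group
      rwa [h4] at h3
    exact ⟨s, ⟨hs, hsR⟩, s⁻¹ * r, hk, by group⟩
  have hfac : ∀ g : G, ∃ k ∈ K₀, ∃ n ∈ N, g = k * n := by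
    intro g
    have hg : g⁻¹ ∈ ((N ⊔ R : Subgroup G) : Set G) := by rw [htop]; trivial
    rw [mul_normal] at hg
    obtain ⟨n, hn, r, hr, hnr⟩ := Set.mem_mul.mp hg
    obtain ⟨m, hm, k, hk, rfl⟩ := hRfac r hr
    refine ⟨k⁻¹, K₀.inv_mem hk, (n * m)⁻¹, N.inv_mem (N.mul_mem hn (hPN hm)), ?_⟩
    have : g = (n * (m * k))⁻¹ := by rw [hnr, inv_inv]
    rw [this]
    group
  have hSN : (S : Subgroup G) ≤ N := by
    intro s hs
    apply inf_mem_normalizer (le_normalizer hs)
    rw [normalizer_eq_top_iff.mpr hRn]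
    trivial
  have hcopK₀S : (Nat.card K₀).Coprime (Nat.card (S : Subgroup G)) := by
    obtain ⟨k, hk⟩ := IsPGroup.iff_card.mp S.isPGroup'
    rw [hk]
    exact Nat.Coprime.pow_right k (pPrimeCore_coprime p)
  have hK₀S : ∀ z, z ∈ K₀ → z ∈ (S : Subgroup G) → z = 1 := by
    intro z hz hz'
    have h1 : orderOf z ∣ Nat.card K₀ := Subgroup.orderOf_dvd_natCard K₀ hz
    have h2 : orderOf z ∣ Nat.card (S : Subgroup G) := Subgroup.orderOf_dvd_natCard _ hz'
    exact orderOf_eq_one_iff.mp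
      (Nat.Coprime.eq_one_of_dvd (Nat.Coprime.coprime_dvd_left h1 hcopK₀S) h2)
  have hcomm : ∀ k ∈ K₀, ∀ y ∈ (S : Subgroup G), k * y * k⁻¹ ∈ (S : Subgroup G) → k * y = y * k := by
    intro k hk y hy hky
    have h1 : k * y * k⁻¹ * y⁻¹ ∈ (S : Subgroup G) := Subgroup.mul_mem _ hky (Subgroup.inv_mem _ hy)
    have h2 : k * (y * k⁻¹ * y⁻¹) ∈ K₀ :=
      K₀.mul_mem hk (hK₀n.conj_mem _ (K₀.inv_mem hk) y)
    have h3 : k * y * k⁻¹ * y⁻¹ = k * (y * k⁻¹ * y⁻¹) := by group
    have h4 := hK₀S _ h2 (h3 ▸ h1)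
    rw [← h3] at h4
    have h5 := mul_inv_eq_one.mp h4
    exact mul_inv_eq_iff_eq_mul.mp h5
  -- the group `A = Z(P)`
  set A : Subgroup G := P ⊓ centralizer (P : Set G) with hA
  have hAS : A ≤ (S : Subgroup G) := fun x hx => hx.1.1
  have hNA : N ≤ normalizer (A : Set G) := by
    intro n hn
    exact inf_mem_normalizer hn (centralizer_mem_normalizer hn)
  have hAcomm : ∀ a b : A, a * b = b * a := by
    intro a b
    apply Subtype.ext
    exact (mem_centralizer_iff.mp b.2.2 a a.2.1)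
  have hAp : IsPGroup p A := S.isPGroup'.to_le hAS
  letI act : MulDistribMulAction N A :=
    { smul := fun n a => ⟨(n : G) * a * (n : G)⁻¹, conj_mem_of_mem_normalizer (hNA n.2) a.2⟩
      one_smul := fun a => Subtype.ext (by show (1 : G) * a * (1 : G)⁻¹ = a; group)
      mul_smul := fun m n a => Subtype.ext (by
        show ((m : G) * n) * a * ((m : G) * n)⁻¹ = (m : G) * (n * a * (n : G)⁻¹) * (m : G)⁻¹
        group)
      smul_mul := fun n a b => Subtype.ext (by
        show (n : G) * (a * b) * (n : G)⁻¹ = (n * a * (n : G)⁻¹) * (n * b * (n : G)⁻¹)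
        group)
      smul_one := fun n => Subtype.ext (by
        show (n : G) * 1 * (n : G)⁻¹ = 1
        group) }
  have hsmul : ∀ (n : N) (a : A), ((n • a : A) : G) = n * a * (n : G)⁻¹ := fun _ _ => rfl
  have hidx : (Nat.card A).Coprime ((S : Subgroup G).subgroupOf N).index := by
    obtain ⟨e, he⟩ := IsPGroup.iff_card.mp hAp
    rw [he]
    apply Nat.Coprime.pow_left
    have h1 : ((S : Subgroup G).subgroupOf N).index ∣ (S : Subgroup G).index := by
      rw [← Subgroup.relIndex, ← Subgroup.relIndex_mul_index hSN]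
      exact dvd_mul_right _ _
    exact (Nat.Coprime.coprime_dvd_right h1
      ((Nat.Prime.coprime_iff_not_dvd Fact.out).mpr S.not_dvd_index))
  obtain ⟨L, hL1, hL2, hL3⟩ := norm_decomp hAcomm ((S : Subgroup G).subgroupOf N) hidx
  have hfixS : ∀ a : A, ∀ s ∈ (S : Subgroup G), (hs : s ∈ N) → (⟨s, hs⟩ : N) • a = a →
      s * a = a * s := by
    intro a s _ hs h
    have h1 : s * a * s⁻¹ = a := congrArg Subtype.val h
    exact mul_inv_eq_iff_eq_mul.mp h1
  have hASC : (A : Subgroup G) ⊓ centralizer (N : Set G) ≤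
      (S : Subgroup G) ⊓ centralizer ((S : Subgroup G) : Set G) := by
    intro x hx
    refine Subgroup.mem_inf.mpr ⟨hAS hx.1, ?_⟩
    rw [mem_centralizer_iff]
    intro s hs
    exact mem_centralizer_iff.mp hx.2 s (hSN hs)
  have hLS : ∀ l ∈ L, ((l : A) : G) ∈ (S : Subgroup G) ⊓ centralizer ((S : Subgroup G) : Set G) := by
    intro l hl
    refine Subgroup.mem_inf.mpr ⟨hAS l.2, ?_⟩
    rw [mem_centralizer_iff]
    intro s hs
    have h1 := hL1 l hl ⟨s, hSN hs⟩ hs
    exact hfixS l s hs (hSN hs) h1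
  have hZA : (S : Subgroup G) ⊓ centralizer ((S : Subgroup G) : Set G) ≤ A := by
    intro z hz
    have hzP : z ∈ P := ⟨hz.1, hZ hz⟩
    refine Subgroup.mem_inf.mpr ⟨hzP, ?_⟩
    rw [mem_centralizer_iff]
    intro y hy
    exact mem_centralizer_iff.mp hz.2 y hy.1
  refine ⟨A ⊓ centralizer (N : Set G), L.map A.subtype, ?_, ?_, ?_, ?_⟩
  · intro x
    constructor
    · intro hx
      refine ⟨hAS hx.1, ?_⟩
      intro g hg
      obtain ⟨k, hk, n, hn, rfl⟩ := hfac g
      have hnx : n * x * n⁻¹ = x := by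
        have := mem_centralizer_iff.mp hx.2 n hn
        rw [this, mul_inv_cancel_right]
      have h1 : k * n * x * (k * n)⁻¹ = k * x * k⁻¹ := by
        have : k * n * x * (k * n)⁻¹ = k * (n * x * n⁻¹) * k⁻¹ := by group
        rw [this, hnx]
      rw [h1] at hg ⊢
      have h2 := hcomm k hk x (hAS hx.1) hg
      rw [h2, mul_inv_cancel_right]
    · rintro ⟨hxS, hxw⟩
      have hxZ : x ∈ (S : Subgroup G) ⊓ centralizer ((S : Subgroup G) : Set G) := by
        refine Subgroup.mem_inf.mpr ⟨hxS, ?_⟩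
        rw [mem_centralizer_iff]
        intro s hs
        have h1 := hxw s (Subgroup.mul_mem _ (Subgroup.mul_mem _ hs hxS) (Subgroup.inv_mem _ hs))
        exact (mul_inv_eq_iff_eq_mul.mp h1)
      have hxA := hZA hxZ
      refine Subgroup.mem_inf.mpr ⟨hxA, ?_⟩
      rw [mem_centralizer_iff]
      intro n hn
      have h1 := hxw n (hAS (conj_mem_of_mem_normalizer (hNA hn) hxA))
      exact (mul_inv_eq_iff_eq_mul.mp h1)
  · rintro _ ⟨l, hl, rfl⟩
    exact hLS l hl
  · rw [eq_bot_iff]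
    rintro x ⟨hx1, l, hl, rfl⟩
    rw [mem_bot]
    have h1 : l = 1 := by
      apply hL2 l hl
      intro n
      apply Subtype.ext
      rw [hsmul]
      have := mem_centralizer_iff.mp hx1.2 n n.2
      rw [show ((l : A) : G) = (A.subtype l) from rfl, this, mul_inv_cancel_right]
    rw [h1]
    rfl
  · apply le_antisymm
    · apply sup_le hASC
      rintro _ ⟨l, hl, rfl⟩
      exact hLS l hl
    · intro z hz
      have hzA := hZA hz
      have hfix : ∀ s ∈ (S : Subgroup G).subgroupOf N, s • (⟨z, hzA⟩ : A) = ⟨z, hzA⟩ := by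
        intro s hs
        apply Subtype.ext
        rw [hsmul]
        have := mem_centralizer_iff.mp hz.2 s hs
        show (s : G) * z * (s : G)⁻¹ = z
        rw [this, mul_inv_cancel_right]
      obtain ⟨c, l, hc, hl, hzeq⟩ := hL3 ⟨z, hzA⟩ hfix
      have hz' : z = (c : G) * ((l : A) : G) := congrArg Subtype.val hzeq
      rw [hz']
      apply Subgroup.mul_mem
      · apply (le_sup_left : (A ⊓ centralizer (N : Set G)) ≤ _)
        refine Subgroup.mem_inf.mpr ⟨c.2, ?_⟩
        rw [mem_centralizer_iff]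
        intro n hn
        have h1 : n * c * n⁻¹ = c := congrArg Subtype.val (hc ⟨n, hn⟩)
        exact (mul_inv_eq_iff_eq_mul.mp h1)
      · apply (le_sup_right : L.map A.subtype ≤ _)
        exact ⟨l, hl, rfl⟩

end Cfsg.Agent.S1944
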