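import Cfsg.Statements.S1947
import Mathlib
import Cfsg.Agent.Lib.Transfer.Frobenius
import Cfsg.Agent.Lib.Coprime.OmegaOne
import Cfsg.Agent.Lib.PGroup.Critical
import Cfsg.Agent.Lib.Nilpotent.Elements
-- import your own Cfsg.Agent.* helpers here

set_option autoImplicit false
open Cfsg

namespace Cfsg.Agent.S1947

open Cfsg.Agent.Lib.Transfer.Frobenius Cfsg.Agent.Lib.Coprime.OmegaOne

/-- The upper central series restricts to subgroups. -/
theorem subgroupOf_upper_le {G : Type*} [Group G] (H : Subgroup G) (i : ℕ) :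
    (Subgroup.upperCentralSeries G i).subgroupOf H ≤ Subgroup.upperCentralSeries H i := by
  induction i with
  | zero =>
    intro x hx
    rw [Subgroup.mem_subgroupOf, Subgroup.upperCentralSeries_zero, Subgroup.mem_bot] at hx
    rw [Subgroup.upperCentralSeries_zero, Subgroup.mem_bot]
    exact Subtype.ext hx
  | succ i ih =>
    intro x hx
    rw [Subgroup.mem_subgroupOf, Subgroup.mem_upperCentralSeries_succ_iff] at hx
    rw [Subgroup.mem_upperCentralSeries_succ_iff]
    intro y
    apply ih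
    rw [Subgroup.mem_subgroupOf]
    exact hx y

/-- A hypercentral element commutes with every element of coprime order. -/
theorem commute_of_mem_upper {G : Type*} [Group G] [Finite G] {n : ℕ} {x g : G}
    (hx : x ∈ Subgroup.upperCentralSeries G n) (hc : (orderOf x).Coprime (orderOf g)) : Commute x g := by
  let K := Subgroup.upperCentralSeries G n
  have hKn : K.Normal := inferInstance
  let H : Subgroup G := K ⊔ Subgroup.zpowers g
  have hdec : ∀ y ∈ H, ∃ k ∈ K, ∃ i : ℤ, y = k * g ^ i := by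
    intro y hy
    rw [Subgroup.mem_sup_of_normal_left] at hy
    obtain ⟨k, hk, z, ⟨i, rfl⟩, rfl⟩ := hy
    exact ⟨k, hk, i, rfl⟩
  have hcomm : ∀ y ∈ H, ∀ z ∈ H, y * z * y⁻¹ * z⁻¹ ∈ K := by
    intro y hy z hz
    obtain ⟨k₁, hk₁, i, rfl⟩ := hdec y hy
    obtain ⟨k₂, hk₂, j, rfl⟩ := hdec z hz
    rw [← QuotientGroup.eq_one_iff]
    have e1 : ((k₁ : G) : G ⧸ K) = 1 := (QuotientGroup.eq_one_iff _).mpr hk₁
    have e2 : ((k₂ : G) : G ⧸ K) = 1 := (QuotientGroup.eq_one_iff _).mpr hk₂
    simp only [QuotientGroup.mk_mul, QuotientGroup.mk_inv, e1, e2, one_mul, QuotientGroup.mk_zpow, mul_inv_rev, inv_one, mul_one]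
    group
  have htop : Subgroup.upperCentralSeries H (n + 1) = ⊤ := by
    rw [eq_top_iff]
    intro y _
    rw [Subgroup.mem_upperCentralSeries_succ_iff]
    intro z
    apply subgroupOf_upper_le H n
    rw [Subgroup.mem_subgroupOf]
    exact hcomm y y.2 z z.2
  have hnil : Group.IsNilpotent H := ⟨⟨n + 1, htop⟩⟩
  have hxH : x ∈ H := Subgroup.mem_sup_left hx
  have hgH : g ∈ H := Subgroup.mem_sup_right (Subgroup.mem_zpowers g)
  have : Commute (⟨x, hxH⟩ : H) ⟨g, hgH⟩ :=
    Cfsg.Agent.Lib.Nilpotent.Elements.commute_of_coprime_orderOf (by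
      rw [Subgroup.orderOf_mk, Subgroup.orderOf_mk]; exact hc)
  exact congrArg Subtype.val this.eq

/-- Let G be a finite group and p a prime. If every element of G of order dividing p (dividing 4 when p = 2) lies in some fixed term Z_n(G) of the upper central series, then G has a normal p-complement. -/
theorem result {G : Type*} [Group G] [Finite G] {p : ℕ} [Fact p.Prime] (n : ℕ)
    (h : ∀ a : G, (a ^ p = 1 ∨ (p = 2 ∧ a ^ 4 = 1)) → a ∈ Subgroup.upperCentralSeries G n) : Cfsg.HasNormalPComplement p G  := by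
  classical
  refine hasNormalPComplement_of_hyp ?_
  intro Q hQ g hg hc
  -- exponent
  obtain ⟨m, hm1, hm2, hm3⟩ : ∃ m : ℕ, p ∣ m ∧ p ∣ m.choose 2 ∧
      ∀ a : G, a ^ m = 1 → a ∈ Subgroup.upperCentralSeries G n := by
    by_cases hp2 : p = 2
    · subst hp2
      exact ⟨4, by norm_num, by decide, fun a ha => h a (Or.inr ⟨rfl, ha⟩)⟩
    · exact ⟨p, dvd_rfl, Cfsg.Agent.Lib.PGroup.Critical.prime_dvd_choose_two hp2,
        fun a ha => h a (Or.inl ha)⟩
  have hc' : (orderOf (conjAut Q g hg)).Coprime p :=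
    Nat.Coprime.coprime_dvd_left (orderOf_conjAut_dvd Q g hg) hc
  have h1 : conjAut Q g hg = 1 := by
    refine Cfsg.Agent.Lib.PGroup.Critical.coprime_aut_eq_one_of_fixes hQ _ hc' hm1 hm2 ?_
    intro x hx
    apply Subtype.ext
    rw [conjAut_apply_coe]
    have hx' : (x : G) ^ m = 1 := by
      have := congrArg (fun y : Q => (y : G)) hx
      simpa using this
    obtain ⟨k, hk⟩ := (IsPGroup.iff_orderOf.mp hQ) x
    have hcop : (orderOf (x : G)).Coprime (orderOf g) := by
      rw [Subgroup.orderOf_coe, hk]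
      exact Nat.Coprime.pow_left _ hc.symm
    have hcomm := commute_of_mem_upper (hm3 _ hx') hcop
    rw [← hcomm.eq]
    group
  rw [Subgroup.mem_centralizer_iff]
  intro q hq
  have h2 := congrArg (fun φ : MulAut Q => ((φ ⟨q, hq⟩ : Q) : G)) h1
  simp only [conjAut_apply_coe, MulAut.one_apply] at h2
  calc q * g = (g * q * g⁻¹) * g := by rw [h2]
    _ = g * q := by group

end Cfsg.Agent.S1947
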