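import Cfsg.Statements.S1948
import Mathlib
import Cfsg.Agent.Lib.PGroup.PConstr
-- import your own Cfsg.Agent.* helpers here

set_option autoImplicit false
open Cfsg

namespace Cfsg.Agent.S1948

open Subgroup Cfsg Cfsg.Agent.Lib.PGroup.PConstr Cfsg.Agent.Lib.Components.PConstrained Cfsg.Agent.Lib.Components.PComponent Cfsg.Agent.Lib.Basic.PCore

/-- Let S be a Sylow p-subgroup of the finite group G. Then G = N_G(S)·O_{p'}(G) if and only if G is p-constrained and N_G(S) controls fusion in S, in the sense that whenever a subgroup Q of S has a conjugate g Q g⁻¹ inside S, the element g is a product n c with n normalizing S and c centralizing Q. -/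
theorem result {G : Type*} [Group G] [Finite G] {p : ℕ} [Fact p.Prime] (S : Sylow p G) :
    Subgroup.normalizer ((S : Subgroup G) : Set G) ⊔ Cfsg.pPrimeCore p G = ⊤ ↔
      (Cfsg.IsPConstrained p G ∧
        ∀ Q : Subgroup G, Q ≤ (S : Subgroup G) → ∀ g : G, Q.map (MulAut.conj g).toMonoidHom ≤ (S : Subgroup G) →
          ∃ n ∈ Subgroup.normalizer ((S : Subgroup G) : Set G), ∃ c ∈ Subgroup.centralizer (Q : Set G), g = n * c) := by
  set π := QuotientGroup.mk' (pPrimeCore p G) with hπ
  have hker : ∀ x ∈ pPrimeCore p G, π x = 1 := by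
    intro x hx
    simpa [hπ, QuotientGroup.eq_one_iff] using hx
  constructor
  · intro htop
    have hfac : ∀ g : G, ∃ n ∈ normalizer ((S : Subgroup G) : Set G), ∃ x ∈ pPrimeCore p G, g = n * x := by
      intro g
      have hg : g ∈ normalizer ((S : Subgroup G) : Set G) ⊔ pPrimeCore p G := by
        rw [htop]
        trivial
      rw [← SetLike.mem_coe, Subgroup.mul_normal] at hg
      obtain ⟨n, hn, x, hx, rfl⟩ := Set.mem_mul.mp hg
      exact ⟨n, hn, x, hx, rfl⟩
    refine ⟨isPConstrained_of_normal_sylow_image S ⟨?_⟩, ?_⟩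
    · rintro _ ⟨s, hs, rfl⟩ q
      obtain ⟨g, rfl⟩ := QuotientGroup.mk'_surjective _ q
      obtain ⟨n, hn, x, hx, rfl⟩ := hfac g
      refine ⟨n * s * n⁻¹, (mem_normalizer_iff.mp hn s).mp hs, ?_⟩
      change π (n * s * n⁻¹) = π (n * x) * π s * (π (n * x))⁻¹
      simp only [map_mul, map_inv, hker x hx, mul_one]
    · intro Q' hQ' g hg
      obtain ⟨n, hn, x, hx, rfl⟩ := hfac g
      refine ⟨n, hn, x, ?_, rfl⟩
      rw [mem_centralizer_iff]
      intro y hy
      have h1 : (n * x) * y * (n * x)⁻¹ ∈ (S : Subgroup G) := hg ⟨y, hy, rfl⟩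
      have h2 : x * y * x⁻¹ ∈ (S : Subgroup G) := by
        have h0 : x * y * x⁻¹ = n⁻¹ * ((n * x) * y * (n * x)⁻¹) * n⁻¹⁻¹ := by group
        rw [h0]
        exact (mem_normalizer_iff.mp (inv_mem hn) _).mp h1
      have h3 : x * y * x⁻¹ * y⁻¹ ∈ (S : Subgroup G) := mul_mem h2 (inv_mem (hQ' hy))
      have h4 : x * y * x⁻¹ * y⁻¹ ∈ pPrimeCore p G := by
        have h0 : x * y * x⁻¹ * y⁻¹ = x * (y * x⁻¹ * y⁻¹) := by group
        rw [h0]
        exact mul_mem hx ((inferInstance : (pPrimeCore p G).Normal).conj_mem _ (inv_mem hx) y)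
      have h5 := eq_one_of_mem_pgroup_of_mem_core S.isPGroup' h3 h4
      have h6 : x * y * x⁻¹ = y := by
        rw [mul_inv_eq_one] at h5
        exact h5
      rw [mul_inv_eq_iff_eq_mul] at h6
      exact h6.symm
  · rintro ⟨hc, hfus⟩
    have hT := isPConstrained_iff_centralizer.mp hc
    let S' : Sylow p (G ⧸ pPrimeCore p G) := S.mapSurjective (QuotientGroup.mk'_surjective _)
    have hS' : (S' : Subgroup (G ⧸ pPrimeCore p G)) = (S : Subgroup G).map π := rfl
    have hTS : pCore p (G ⧸ pPrimeCore p G) ≤ (S : Subgroup G).map π := by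
      rw [← hS']
      exact pCore_le_sylow S'
    set P : Subgroup G := (S : Subgroup G) ⊓ (pCore p (G ⧸ pPrimeCore p G)).comap π with hP
    have hPp : IsPGroup p P := S.isPGroup'.to_le inf_le_left
    have hPmap : P.map π = pCore p (G ⧸ pPrimeCore p G) := by
      apply le_antisymm
      · rintro _ ⟨a, ha, rfl⟩
        exact ha.2
      · intro t ht
        obtain ⟨s, hs, rfl⟩ := hTS ht
        exact ⟨s, ⟨hs, ht⟩, rfl⟩
    have hSn : ∀ g : G, π g ∈ normalizer (((S : Subgroup G).map π : Subgroup _) : Set (G ⧸ pPrimeCore p G)) := by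
      intro g
      have hgN : π g ∈ normalizer ((P.map π : Subgroup _) : Set (G ⧸ pPrimeCore p G)) := by
        rw [hPmap, Subgroup.normalizer_eq_top_iff.mpr inferInstance]
        trivial
      obtain ⟨z, hz, hze⟩ := exists_normalizer_lift hPp hgN
      have hmap : P.map (MulAut.conj z).toMonoidHom ≤ (S : Subgroup G) := by
        rintro _ ⟨a, ha, rfl⟩
        exact ((mem_normalizer_iff.mp hz a).mp ha).1
      obtain ⟨m, hm, c, hc', hzmc⟩ := hfus P inf_le_left z hmap
      have hze' : π z = π g := hze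
      rw [← hze', hzmc, map_mul]
      apply mul_mem
      · apply Cfsg.Agent.Lib.Coprime.Three.mem_normalizer_of_conj_mem
        rintro _ ⟨a, ha, rfl⟩
        refine ⟨m * a * m⁻¹, (mem_normalizer_iff.mp hm a).mp ha, ?_⟩
        simp only [map_mul, map_inv]
      · apply Subgroup.le_normalizer
        apply hTS
        apply hT
        rw [mem_centralizer_iff, ]
        intro t ht
        rw [SetLike.mem_coe, ← hPmap] at ht
        obtain ⟨a, ha, rfl⟩ := ht
        have h1 := mem_centralizer_iff.mp hc' a ha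
        rw [← map_mul, ← map_mul, h1]
    rw [eq_top_iff]
    intro g _
    obtain ⟨z, hz, hze⟩ := exists_normalizer_lift S.isPGroup' (hSn g)
    have h1 : z⁻¹ * g ∈ pPrimeCore p G := QuotientGroup.eq.mp hze
    have h2 : g = z * (z⁻¹ * g) := by group
    rw [h2]
    exact Subgroup.mul_mem_sup hz h1


end Cfsg.Agent.S1948
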