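import Cfsg.Statements.S1949
import Cfsg.Agent.Lib.PGroup.Critical
import Cfsg.Agent.Lib.Transfer.Basic

set_option autoImplicit false
open Cfsg
open scoped commutatorElement

namespace Cfsg.Agent.S1949

theorem mul_pow_of_sq {P : Type*} [Group P] {p : ℕ}
    (X : Subgroup P) (hcomm : ∀ x ∈ X, ∀ y ∈ X, ⁅x, y⁆ ∈ Subgroup.centralizer (X : Set P))
    (hpow : ∀ x ∈ X, x ^ p ∈ Subgroup.centralizer (X : Set P)) {n : ℕ} (hn : p ∣ n.choose 2)
    {x y : P} (hx : x ∈ X) (hy : y ∈ X) : (x * y) ^ n = x ^ n * y ^ n := by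
  have hcent : ⁅y, x⁆ ∈ Subgroup.centralizer (X : Set P) := hcomm y hy x hx
  have hcx : Commute x ⁅y, x⁆ := (Subgroup.mem_centralizer_iff.mp hcent x hx)
  have hcy : Commute y ⁅y, x⁆ := (Subgroup.mem_centralizer_iff.mp hcent y hy)
  have hpp : ⁅y, x⁆ ^ p = 1 := by
    rw [← Cfsg.Agent.Lib.PGroup.Basic.commutator_pow_left hcy p]
    have hc := hpow y hy
    have : y ^ p * x = x * y ^ p := (Subgroup.mem_centralizer_iff.mp hc x hx).symm
    rw [commutatorElement_def, this]
    group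
  rw [Cfsg.Agent.Lib.PGroup.Basic.mul_pow_of_commutator_central hcx hcy n]
  obtain ⟨k, hk⟩ := hn
  rw [hk, pow_mul, hpp, one_pow, mul_one]

theorem eq_of_diff_fixed {P : Type*} [Group P] [Finite P] {p : ℕ} [hp : Fact p.Prime]
    (hP : IsPGroup p P) (a : MulAut P) (ha : Nat.Coprime (orderOf a) p) (x : P)
    (hw : a ((a x)⁻¹ * x) = (a x)⁻¹ * x) : a x = x := by
  have h2 : a (x⁻¹ * a x) = x⁻¹ * a x := by
    have h3 : x⁻¹ * a x = ((a x)⁻¹ * x)⁻¹ := by group
    rw [h3, map_inv, hw]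
  exact Cfsg.Agent.Lib.PGroup.Critical.eq_of_fixed_diff hP a ha x h2

theorem comm_of_comm_eq {P : Type*} [Group P] {x y z : P} (h : ⁅x, y⁆ = ⁅x, z⁆) :
    x * (z⁻¹ * y) = (z⁻¹ * y) * x := by
  rw [commutatorElement_def, commutatorElement_def] at h
  have h1 : y * x⁻¹ * y⁻¹ = z * x⁻¹ * z⁻¹ := by
    have := congrArg (x⁻¹ * ·) h
    simpa [mul_assoc] using this
  have h2 : y * x * y⁻¹ = z * x * z⁻¹ := by
    have := congrArg (·⁻¹) h1
    simpa [mul_assoc] using this
  symm
  calc z⁻¹ * y * x = z⁻¹ * (y * x * y⁻¹) * y := by group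
    _ = z⁻¹ * (z * x * z⁻¹) * y := by rw [h2]
    _ = x * (z⁻¹ * y) := by group

/-- Let P be a finite p-group and G a group of automorphisms of P containing the inner automorphisms. Then there is a G-invariant subgroup D of P, contained in the subgroup generated by the elements x⁻¹α(x) with x in P and α in O^p(G), of exponent dividing p when p is odd and dividing 4 when p = 2, with [D, P] ≤ Z(D), such that every automorphism in G of order prime to p that fixes D elementwise is the identity; moreover every maximal abelian subgroup A of D is normal in P and every automorphism in G fixing A elementwise has p-power order. -/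
theorem result {P : Type*} [Group P] [Finite P] {p : ℕ} [Fact p.Prime] (hP : IsPGroup p P)
    (G : Subgroup (MulAut P)) (hG : Cfsg.Inn P ≤ G) :
    ∃ D : Subgroup P,
      (∀ α ∈ G, D.map α.toMonoidHom = D) ∧
      D ≤ Subgroup.closure {y : P | ∃ α ∈ Cfsg.pResidual p ↥G, ∃ x : P, y = x⁻¹ * (α : MulAut P) x} ∧
      (∀ d ∈ D, d ^ p = 1 ∨ (p = 2 ∧ d ^ 4 = 1)) ∧
      ⁅D, (⊤ : Subgroup P)⁆ ≤ D ⊓ Subgroup.centralizer (D : Set P) ∧
      (∀ α ∈ G, (orderOf α).Coprime p → (∀ d ∈ D, α d = d) → α = 1) ∧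
      ∀ A : Subgroup P, A ≤ D → IsMulCommutative ↥A →
        (∀ B : Subgroup P, A ≤ B → B ≤ D → IsMulCommutative ↥B → B = A) →
        A.Normal ∧ ∀ α ∈ G, (∀ a ∈ A, α a = a) → ∃ k : ℕ, orderOf α = p ^ k := by
  classical
  have hresn := Cfsg.Agent.Lib.Transfer.Basic.pResidual_normal p ↥G
  set Q : Subgroup P := Subgroup.closure
    {y : P | ∃ α ∈ Cfsg.pResidual p ↥G, ∃ x : P, y = x⁻¹ * (α : MulAut P) x} with hQdef
  have hconjG : ∀ g : P, MulAut.conj g ∈ G := fun g => hG ⟨g, rfl⟩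
  -- invariance of `Q`
  have hQinv : ∀ β ∈ G, ∀ y ∈ Q, β y ∈ Q := by
    intro β hβ y hy
    induction hy using Subgroup.closure_induction with
    | mem y hy =>
      obtain ⟨α, hα, x, rfl⟩ := hy
      apply Subgroup.subset_closure
      refine ⟨(⟨β, hβ⟩ : ↥G) * α * (⟨β, hβ⟩ : ↥G)⁻¹, hresn.conj_mem α hα _, β x, ?_⟩
      simp [MulAut.mul_apply, map_mul, map_inv]
    | one => simp [one_mem]
    | mul a b _ _ ha hb => rw [map_mul]; exact mul_mem ha hb
    | inv a _ ha => rw [map_inv]; exact inv_mem ha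
  -- a prime-to-`p` automorphism in `G` moves everything into `Q`
  have hmoveQ : ∀ α ∈ G, (orderOf α).Coprime p → ∀ x : P, x⁻¹ * α x ∈ Q := by
    intro α hα hc x
    apply Subgroup.subset_closure
    refine ⟨⟨α, hα⟩, Subgroup.subset_closure ?_, x, rfl⟩
    change Nat.Coprime (orderOf (⟨α, hα⟩ : ↥G)) p
    rw [Subgroup.orderOf_mk]; exact hc
  have hQn : Q.Normal := by
    refine ⟨fun x hx g => ?_⟩
    have := hQinv _ (hconjG g) x hx
    simpa [MulAut.conj_apply] using this
  -- the family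
  let F : Subgroup P → Prop := fun X =>
    X ≤ Q ∧ (∀ β ∈ G, ∀ x ∈ X, β x ∈ X) ∧
      (∀ x ∈ X, ∀ g : P, ⁅x, g⁆ ∈ X ⊓ Subgroup.centralizer (X : Set P)) ∧
      (∀ x ∈ X, x ^ p ∈ Subgroup.centralizer (X : Set P))
  have hF0 : F ⊥ := by
    refine ⟨bot_le, ?_, ?_, ?_⟩
    · intro β _ x hx
      rw [Subgroup.mem_bot] at hx ⊢
      rw [hx, map_one]
    · intro x hx g
      rw [Subgroup.mem_bot] at hx
      rw [hx]
      simp [one_mem]
    · intro x hx
      rw [Subgroup.mem_bot] at hx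
      rw [hx]
      simp [one_mem]
  obtain ⟨X, hXmax⟩ : ∃ X : Subgroup P, Maximal F X := by
    obtain ⟨X, _, hX⟩ := (Set.toFinite {X : Subgroup P | F X}).exists_le_maximal (a := ⊥) hF0
    exact ⟨X, hX⟩
  have hXF : F X := hXmax.prop
  obtain ⟨hXQ, hXinv, hXcomm, hXpow⟩ := hXF
  have hXn : X.Normal := by
    refine ⟨fun x hx g => ?_⟩
    have := hXinv _ (hconjG g) x hx
    simpa [MulAut.conj_apply] using this
  -- centralizers are invariant
  have hCinv : ∀ β ∈ G, ∀ c ∈ Subgroup.centralizer (X : Set P),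
      β c ∈ Subgroup.centralizer (X : Set P) := by
    intro β hβ c hc
    rw [Subgroup.mem_centralizer_iff] at hc ⊢
    intro x hx
    have hx' : β⁻¹ x ∈ X := hXinv _ (inv_mem hβ) x hx
    have h := hc _ hx'
    have h2 := congrArg β h
    rw [map_mul, map_mul] at h2
    have e : β (β⁻¹ x) = x := by simp
    rwa [e] at h2
  -- `C_Q(X) ≤ X`
  have hCQ : ∀ c ∈ Q, c ∈ Subgroup.centralizer (X : Set P) → c ∈ X := by
    intro c hcQ hcC
    by_contra hcX
    set Z : Subgroup P := X ⊓ Subgroup.centralizer (X : Set P) with hZdef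
    have hCn : (Subgroup.centralizer (X : Set P)).Normal := Subgroup.normal_centralizer
    have hZn : Z.Normal := inferInstance
    set C : Subgroup P := Q ⊓ Subgroup.centralizer (X : Set P) with hCdef
    have hCCn : C.Normal := inferInstance
    have hZinv : ∀ β ∈ G, ∀ z ∈ Z, β z ∈ Z := fun β hβ z hz =>
      ⟨hXinv β hβ z hz.1, hCinv β hβ z hz.2⟩
    have hnle : ¬ C ≤ Z := fun h => hcX (h ⟨hcQ, hcC⟩).1
    obtain ⟨w₀, hw₀C, hw₀Z, hw₀p, hw₀c⟩ :=
      Cfsg.Agent.Lib.PGroup.Critical.exists_mem_central_mod hP Z C hnle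
    set W : Subgroup P := Cfsg.Agent.Lib.PGroup.Critical.omegaCentralMod p Z ⊓ C with hWdef
    have hWmem : ∀ w, w ∈ W ↔ ((∀ y : P, ⁅w, y⁆ ∈ Z) ∧ w ^ p ∈ Z) ∧ w ∈ Q ∧
        w ∈ Subgroup.centralizer (X : Set P) := fun w => Iff.rfl
    have hWn : W.Normal := by
      refine ⟨fun w hw g => ?_⟩
      rw [hWmem] at hw ⊢
      obtain ⟨⟨h1, h2⟩, h3, h4⟩ := hw
      refine ⟨⟨fun y => ?_, ?_⟩, hQn.conj_mem w h3 g, hCn.conj_mem w h4 g⟩
      · have h5 := hZn.conj_mem _ (h1 (g⁻¹ * y * g)) g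
        have e : g * ⁅w, g⁻¹ * y * g⁆ * g⁻¹ = ⁅g * w * g⁻¹, y⁆ := by
          simp only [commutatorElement_def]; group
        rwa [e] at h5
      · have h5 := hZn.conj_mem _ h2 g
        rwa [← conj_pow] at h5
    set Y : Subgroup P := X ⊔ W with hYdef
    have hYmem : ∀ y ∈ Y, ∃ x ∈ X, ∃ w ∈ W, y = x * w := by
      intro y hy
      have : y ∈ ((X ⊔ W : Subgroup P) : Set P) := hy
      rw [Subgroup.mul_normal] at this
      obtain ⟨x, hx, w, hw, rfl⟩ := Set.mem_mul.mp this
      exact ⟨x, hx, w, hw, rfl⟩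
    have hZY : Z ≤ Y := le_trans inf_le_left le_sup_left
    have hZcY : Z ≤ Subgroup.centralizer (Y : Set P) := by
      intro z hz
      rw [Subgroup.mem_centralizer_iff]
      intro y hy
      obtain ⟨x, hx, w, hw, rfl⟩ := hYmem y hy
      have h1 : x * z = z * x := (Subgroup.mem_centralizer_iff.mp hz.2) x hx
      have h2 : z * w = w * z := (Subgroup.mem_centralizer_iff.mp ((hWmem w).mp hw).2.2) z hz.1
      calc x * w * z = x * (w * z) := by group
        _ = x * (z * w) := by rw [h2]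
        _ = (x * z) * w := by group
        _ = z * x * w := by rw [h1]
        _ = z * (x * w) := by group
    have hFY : F Y := by
      refine ⟨sup_le hXQ (fun w hw => ((hWmem w).mp hw).2.1), ?_, ?_, ?_⟩
      · intro β hβ y hy
        obtain ⟨x, hx, w, hw, rfl⟩ := hYmem y hy
        rw [map_mul]
        refine mul_mem ((le_sup_left : X ≤ Y) (hXinv β hβ x hx))
          ((le_sup_right : W ≤ Y) ?_)
        obtain ⟨⟨h1, h2⟩, h3, h4⟩ := (hWmem w).mp hw
        refine (hWmem _).mpr ⟨⟨fun g => ?_, ?_⟩, hQinv β hβ w h3, hCinv β hβ w h4⟩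
        · have h5 := hZinv β hβ _ (h1 (β⁻¹ g))
          have e : β ⁅w, β⁻¹ g⁆ = ⁅β w, g⁆ := by
            simp [commutatorElement_def, map_mul, map_inv]
          rwa [e] at h5
        · rw [← map_pow]; exact hZinv β hβ _ h2
      · intro y hy g
        obtain ⟨x, hx, w, hw, rfl⟩ := hYmem y hy
        have h1 : ⁅x * w, g⁆ ∈ Z := by
          have e : ⁅x * w, g⁆ = x * ⁅w, g⁆ * x⁻¹ * ⁅x, g⁆ := by
            simp only [commutatorElement_def]; group
          rw [e]
          exact mul_mem (hZn.conj_mem _ (((hWmem w).mp hw).1.1 g) x) (hXcomm x hx g)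
        exact ⟨hZY h1, hZcY h1⟩
      · intro y hy
        obtain ⟨x, hx, w, hw, rfl⟩ := hYmem y hy
        have hc : Commute x w :=
          ((Subgroup.mem_centralizer_iff.mp ((hWmem w).mp hw).2.2) x hx)
        rw [hc.mul_pow]
        refine mul_mem (hZcY ⟨pow_mem hx p, hXpow x hx⟩) (hZcY ((hWmem w).mp hw).1.2)
    have hYle : Y ≤ X := hXmax.2 hFY le_sup_left
    have hw₀ : w₀ ∈ W := (hWmem _).mpr ⟨⟨hw₀c, hw₀p⟩, hw₀C.1, hw₀C.2⟩
    exact hw₀Z ⟨hYle ((le_sup_right : W ≤ Y) hw₀), hw₀C.2⟩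
  -- prime-to-`p` automorphisms are detected on `X`
  have hfixX : ∀ α ∈ G, (orderOf α).Coprime p → (∀ x ∈ X, α x = x) → α = 1 := by
    intro α hα hc hfix
    have hstep : ∀ y : P, ∀ x ∈ X, x * ((α y)⁻¹ * y) = ((α y)⁻¹ * y) * x := by
      intro y x hx
      apply comm_of_comm_eq
      have h1 : ⁅x, y⁆ ∈ X := (hXcomm x hx y).1
      have h2 := hfix _ h1
      have e : α ⁅x, y⁆ = ⁅α x, α y⁆ := by simp [commutatorElement_def, map_mul, map_inv]
      rw [e, hfix x hx] at h2
      exact h2.symm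
    have hQfix : ∀ y ∈ Q, α y = y := by
      intro y hy
      apply eq_of_diff_fixed hP α hc
      apply hfix
      apply hCQ
      · exact mul_mem (inv_mem (hQinv α hα y hy)) hy
      · rw [Subgroup.mem_centralizer_iff]
        intro x hx
        exact hstep y x hx
    ext y
    rw [MulAut.one_apply]
    apply Cfsg.Agent.Lib.PGroup.Critical.eq_of_fixed_diff hP α hc
    exact hQfix _ (hmoveQ α hα hc y)
  -- the exponent
  obtain ⟨n, hpn, hn2, hexp⟩ : ∃ n : ℕ, p ∣ n ∧ p ∣ n.choose 2 ∧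
      ∀ d : P, d ^ n = 1 → (d ^ p = 1 ∨ (p = 2 ∧ d ^ 4 = 1)) := by
    by_cases hp2 : p = 2
    · refine ⟨4, by rw [hp2]; norm_num, ?_, fun d hd => Or.inr ⟨hp2, hd⟩⟩
      rw [hp2]
      norm_num [Nat.choose]
    · exact ⟨p, dvd_rfl, Cfsg.Agent.Lib.PGroup.Critical.prime_dvd_choose_two hp2,
        fun d hd => Or.inl hd⟩
  have hXmulpow : ∀ x ∈ X, ∀ y ∈ X, (x * y) ^ n = x ^ n * y ^ n := fun x hx y hy =>
    mul_pow_of_sq X (fun a ha b hb => (hXcomm a ha b).2) hXpow hn2 hx hy
  let D : Subgroup P :=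
    { carrier := {x | x ∈ X ∧ x ^ n = 1}
      one_mem' := ⟨one_mem _, one_pow _⟩
      mul_mem' := by
        rintro a b ⟨ha, ha'⟩ ⟨hb, hb'⟩
        exact ⟨mul_mem ha hb, by rw [hXmulpow a ha b hb, ha', hb', one_mul]⟩
      inv_mem' := by
        rintro a ⟨ha, ha'⟩
        exact ⟨inv_mem ha, by rw [inv_pow, ha', inv_one]⟩ }
  have hDmem : ∀ x, x ∈ D ↔ x ∈ X ∧ x ^ n = 1 := fun x => Iff.rfl
  have hDX : D ≤ X := fun x hx => ((hDmem x).mp hx).1
  have hDinv : ∀ β ∈ G, ∀ x ∈ D, β x ∈ D := by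
    intro β hβ x hx
    obtain ⟨h1, h2⟩ := (hDmem x).mp hx
    exact (hDmem _).mpr ⟨hXinv β hβ x h1, by rw [← map_pow, h2, map_one]⟩
  have hDn : D.Normal := by
    refine ⟨fun x hx g => ?_⟩
    have := hDinv _ (hconjG g) x hx
    simpa [MulAut.conj_apply] using this
  have hDcomm : ∀ d ∈ D, ∀ g : P, ⁅d, g⁆ ∈ D ⊓ Subgroup.centralizer (D : Set P) := by
    intro d hd g
    refine ⟨?_, Subgroup.centralizer_le hDX (hXcomm d (hDX hd) g).2⟩
    rw [commutatorElement_def]
    have h1 := hDn.conj_mem _ (inv_mem hd) g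
    have e : d * g * d⁻¹ * g⁻¹ = d * (g * d⁻¹ * g⁻¹) := by group
    rw [e]
    exact mul_mem hd h1
  have hDfix : ∀ α ∈ G, (orderOf α).Coprime p → (∀ d ∈ D, α d = d) → α = 1 := by
    intro α hα hc hfix
    apply hfixX α hα hc
    exact Cfsg.Agent.Lib.PGroup.Critical.fixes_of_fixes_kernel hP X α hc (hXinv α hα) hpn
      hXmulpow (fun x hx hx' => hfix x ((hDmem x).mpr ⟨hx, hx'⟩))
  refine ⟨D, ?_, le_trans hDX hXQ, ?_, ?_, hDfix, ?_⟩
  · intro α hα
    apply le_antisymm
    · rintro _ ⟨x, hx, rfl⟩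
      exact hDinv α hα x hx
    · intro x hx
      refine ⟨α⁻¹ x, hDinv _ (inv_mem hα) x hx, ?_⟩
      simp
  · intro d hd
    exact hexp d ((hDmem d).mp hd).2
  · rw [Subgroup.commutator_le]
    intro d hd g _
    exact hDcomm d hd g
  · intro A hAD hAc hAmax
    have hCA : ∀ c ∈ D, (∀ a ∈ A, c * a = a * c) → c ∈ A := by
      intro c hc hca
      have hB : IsMulCommutative ↥(Subgroup.closure ((A : Set P) ∪ {c})) := by
        apply Subgroup.isMulCommutative_closure
        rintro a (ha | ha) b (hb | hb)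
        · have := hAc.is_comm.comm (⟨a, ha⟩ : A) ⟨b, hb⟩
          simpa using congrArg Subtype.val this
        · rw [Set.mem_singleton_iff.mp hb]; exact (hca a ha).symm
        · rw [Set.mem_singleton_iff.mp ha]; exact hca b hb
        · rw [Set.mem_singleton_iff.mp ha, Set.mem_singleton_iff.mp hb]
      have hBe := hAmax _ (fun a ha => Subgroup.subset_closure (Or.inl ha))
        (by
          refine (Subgroup.closure_le D).mpr ?_
          rintro x (hx | hx)
          · exact hAD hx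
          · rw [Set.mem_singleton_iff.mp hx]; exact hc) hB
      rw [← hBe]
      exact Subgroup.subset_closure (Or.inr rfl)
    have hZA : ∀ z ∈ D, z ∈ Subgroup.centralizer (D : Set P) → z ∈ A := by
      intro z hz hz'
      apply hCA z hz
      intro a ha
      exact (Subgroup.mem_centralizer_iff.mp hz' a (hAD ha)).symm
    refine ⟨⟨fun a ha g => ?_⟩, ?_⟩
    · have h1 := hDcomm a (hAD ha) g
      have h2 : ⁅a, g⁆ ∈ A := hZA _ h1.1 h1.2
      have e : g * a * g⁻¹ = ⁅a, g⁆⁻¹ * a := by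
        simp only [commutatorElement_def]; group
      rw [e]
      exact mul_mem (inv_mem h2) ha
    · intro α hα hfix
      have hord : orderOf α ≠ 0 := (orderOf_pos α).ne'
      obtain ⟨e, m, hm, hem⟩ := Nat.exists_eq_pow_mul_and_not_dvd hord p (Fact.out : p.Prime).ne_one
      set β : MulAut P := α ^ (p ^ e) with hβdef
      have hβG : β ∈ G := pow_mem hα _
      have hβord : orderOf β = m := by
        have hdvd : p ^ e ∣ orderOf α := ⟨m, hem⟩
        rw [hβdef, orderOf_pow_of_dvd (pow_ne_zero _ (Fact.out : p.Prime).ne_zero) hdvd, hem]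
        exact Nat.mul_div_cancel_left _ (pow_pos (Fact.out : p.Prime).pos _)
      have hβc : (orderOf β).Coprime p := by
        rw [hβord]
        exact ((Nat.Prime.coprime_iff_not_dvd Fact.out).mpr hm).symm
      have hβfixA : ∀ a ∈ A, β a = a := by
        intro a ha
        have : ∀ k : ℕ, (α ^ k) a = a := by
          intro k
          induction k with
          | zero => simp
          | succ k ih => rw [pow_succ, MulAut.mul_apply, hfix a ha, ih]
        exact this _
      have hβ1 : β = 1 := by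
        apply hDfix β hβG hβc
        intro d hd
        apply eq_of_diff_fixed hP β hβc
        apply hβfixA
        have hβd : β d ∈ D := hDinv β hβG d hd
        apply hCA _ (mul_mem (inv_mem hβd) hd)
        intro a ha
        have h1 := hDcomm d hd a
        have h2 : ⁅a, d⁆ ∈ A := by
          rw [← commutatorElement_inv]
          exact inv_mem (hZA _ h1.1 h1.2)
        have h3 := hβfixA _ h2
        have e' : β ⁅a, d⁆ = ⁅β a, β d⁆ := by simp [commutatorElement_def, map_mul, map_inv]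
        rw [e', hβfixA a ha] at h3
        exact (comm_of_comm_eq h3.symm).symm
      have hm1 : m = 1 := by
        rw [← hβord, hβ1, orderOf_one]
      exact ⟨e, by rw [hem, hm1, mul_one]⟩

end Cfsg.Agent.S1949
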