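import Cfsg.Statements.S1952
import Mathlib
-- import your own Cfsg.Agent.* helpers here

set_option autoImplicit false
open Cfsg

namespace Cfsg.Agent.S1952

open Polynomial

section linalg

variable {p : ℕ} [hp : Fact p.Prime]

theorem X_sub_one_pow : ((X : (ZMod p)[X]) - 1) ^ (p - 1) = ∑ i ∈ Finset.range p, X ^ i := by
  have h1 : ((X : (ZMod p)[X]) - 1) * ∑ i ∈ Finset.range p, X ^ i = X ^ p - 1 := mul_geom_sum _ _
  have h2 : ((X : (ZMod p)[X]) - 1) ^ p = X ^ p - 1 := by
    rw [sub_pow_char, one_pow]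
  have h3 : ((X : (ZMod p)[X]) - 1) * (X - 1) ^ (p - 1) = (X - 1) ^ p := by
    rw [← pow_succ', Nat.sub_add_cancel hp.out.one_le]
  have h0 : (X : (ZMod p)[X]) - 1 ≠ 0 := by
    have := X_sub_C_ne_zero (1 : ZMod p)
    simpa using this
  exact mul_left_cancel₀ h0 (by rw [h3, h2, h1])

variable {V : Type*} [AddCommGroup V] [Module (ZMod p) V]

theorem exists_surj (τ : Module.End (ZMod p) V) (hτ : τ ^ p = 1) (x : V)
    (hN : ∑ i ∈ Finset.range p, (τ ^ i) x ≠ 0) :
    ∃ l : V →ₗ[ZMod p] ZMod p, l (∑ i ∈ Finset.range p, (τ ^ i) x) ≠ 0 ∧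
      Function.Surjective
        (LinearMap.pi (fun i : Fin p => l ∘ₗ (τ ^ (i : ℕ))) : V →ₗ[ZMod p] (Fin p → ZMod p)) := by
  obtain ⟨l, hl⟩ : ∃ l : Module.Dual (ZMod p) V, l (∑ i ∈ Finset.range p, (τ ^ i) x) ≠ 0 := by
    by_contra hcon
    push Not at hcon
    exact hN ((Module.forall_dual_apply_eq_zero_iff (ZMod p) _).1 hcon)
  refine ⟨l, hl, ?_⟩
  obtain ⟨Θ, hΘ⟩ : ∃ Θ : V →ₗ[ZMod p] (Fin p → ZMod p),
      Θ = LinearMap.pi (fun i : Fin p => l ∘ₗ (τ ^ (i : ℕ))) := ⟨_, rfl⟩
  rw [← hΘ]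
  obtain ⟨Ψ, hΨ⟩ : ∃ Ψ : (Fin p → ZMod p) →ₗ[ZMod p] V,
      Ψ = Fintype.linearCombination (ZMod p) (fun j : Fin p => (τ ^ (j : ℕ)) x) := ⟨_, rfl⟩
  let E : (ZMod p)[X] →ₐ[ZMod p] Module.End (ZMod p) V := aeval τ
  have hEX1 : E (X - 1) = τ - 1 := by simp [E]
  -- polynomial operators preserve the vanishing
  have hstar : ∀ (v : V), (∀ i : Fin p, l ((τ ^ (i : ℕ)) v) = 0) → ∀ h : (ZMod p)[X],
      l (E h v) = 0 := by
    intro v hv h
    have h1 : ∀ k : ℕ, l ((τ ^ k) v) = 0 := by
      intro k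
      rw [pow_eq_pow_mod k hτ]
      exact hv ⟨k % p, Nat.mod_lt _ hp.out.pos⟩
    show l ((aeval τ h) v) = 0
    rw [aeval_eq_sum_range, LinearMap.sum_apply, map_sum]
    refine Finset.sum_eq_zero fun i _ => ?_
    rw [LinearMap.smul_apply, map_smul, h1 i, smul_zero]
  have hNE : E (∑ i ∈ Finset.range p, X ^ i) x = ∑ i ∈ Finset.range p, (τ ^ i) x := by
    simp [E, LinearMap.sum_apply]
  have hp1 : E ((X - 1) ^ p) = 0 := by
    have h2 : ((X : (ZMod p)[X]) - 1) ^ p = X ^ p - 1 := by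
      rw [sub_pow_char, one_pow]
    rw [h2]
    simp [E, hτ]
  have hinj : Function.Injective (Θ ∘ₗ Ψ) := by
    rw [← LinearMap.ker_eq_bot, LinearMap.ker_eq_bot']
    intro c hc
    by_contra hc0
    -- the polynomial attached to `c`
    obtain ⟨g, hg⟩ : ∃ g : (ZMod p)[X], g = ∑ j : Fin p, C (c j) * X ^ (j : ℕ) := ⟨_, rfl⟩
    have hgE : E g x = Ψ c := by
      rw [hg, hΨ, Fintype.linearCombination_apply, map_sum, LinearMap.sum_apply]
      refine Finset.sum_congr rfl fun j _ => ?_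
      simp [E]
    have hgcoeff : ∀ j : Fin p, g.coeff j = c j := by
      intro j
      rw [hg, finsetSum_coeff]
      simp only [coeff_C_mul, coeff_X_pow]
      rw [Finset.sum_eq_single j]
      · simp
      · intro b _ hb
        have : (j : ℕ) ≠ b := fun h => hb (Fin.ext h.symm)
        simp [this]
      · simp
    have hg0 : g ≠ 0 := by
      intro h0
      apply hc0
      funext j
      rw [← hgcoeff j, h0]
      simp
    have hdeg : g.natDegree ≤ p - 1 := by
      rw [hg]
      refine natDegree_sum_le_of_forall_le _ _ fun j _ => ?_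
      refine (natDegree_C_mul_X_pow_le _ _).trans ?_
      have := j.2
      omega
    obtain ⟨U, hU, hndvd⟩ := exists_eq_pow_rootMultiplicity_mul_and_not_dvd g hg0 (1 : ZMod p)
    obtain ⟨k, hk⟩ : ∃ k, k = g.rootMultiplicity 1 := ⟨_, rfl⟩
    rw [← hk] at hU
    have hU0 : U ≠ 0 := by
      rintro rfl
      exact hg0 (by rw [hU, mul_zero])
    have hkle : k ≤ p - 1 := by
      have h1 : g.natDegree = k + U.natDegree := by
        rw [hU, natDegree_mul (pow_ne_zero _ (X_sub_C_ne_zero _)) hU0, natDegree_pow,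
          natDegree_X_sub_C, mul_one]
      omega
    have hu0 : U.eval 1 ≠ 0 := by
      intro h0
      exact hndvd ((dvd_iff_isRoot).2 h0)
    obtain ⟨U₁, hU₁⟩ : (X - C (1 : ZMod p)) ∣ U - C (U.eval 1) := by
      rw [dvd_iff_isRoot]
      simp
    have hUe : U = C (U.eval 1) + (X - C 1) * U₁ := by
      rw [← hU₁]
      ring
    have hC1 : (C (1 : ZMod p)) = 1 := map_one C
    rw [hC1] at hU hU₁ hUe
    have hpk : (p - 1 - k) + k = p - 1 := by omega
    have hpp : (p - 1) + 1 = p := Nat.sub_add_cancel hp.out.one_le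
    have hprod : (X - 1) ^ (p - 1 - k) * g =
        C (U.eval 1) * (∑ i ∈ Finset.range p, X ^ i) + (X - 1) ^ p * U₁ := by
      rw [← X_sub_one_pow, hU, ← mul_assoc, ← pow_add, hpk]
      conv_lhs => rw [hUe]
      rw [mul_add, ← mul_assoc, ← pow_succ, hpp, mul_comm (C _)]
    have hv : ∀ i : Fin p, l ((τ ^ (i : ℕ)) (E g x)) = 0 := by
      intro i
      have := congrFun hc i
      rw [hgE]
      simpa [hΘ] using this
    have h1 := hstar _ hv ((X - 1) ^ (p - 1 - k))
    have h2 : E ((X - 1) ^ (p - 1 - k) * g) x = E ((X - 1) ^ (p - 1 - k)) (E g x) := by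
      rw [map_mul]; rfl
    rw [← h2, hprod, map_add, map_mul, map_mul, hp1, zero_mul, add_zero] at h1
    have h3 : (E (C (U.eval 1)) * E (∑ i ∈ Finset.range p, X ^ i)) x =
        (U.eval 1) • ∑ i ∈ Finset.range p, (τ ^ i) x := by
      have h4 : E (C (U.eval 1)) = algebraMap (ZMod p) (Module.End (ZMod p) V) (U.eval 1) :=
        aeval_C _ _
      rw [Module.End.mul_apply, h4, Module.algebraMap_end_apply, hNE]
    rw [h3, map_smul, smul_eq_mul] at h1
    exact (mul_ne_zero hu0 hl) h1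
  have hsurj : Function.Surjective (Θ ∘ₗ Ψ) := LinearMap.injective_iff_surjective.1 hinj
  intro w
  obtain ⟨c, hc⟩ := hsurj w
  exact ⟨Ψ c, hc⟩

end linalg

section multiplicative

variable {p : ℕ} [hp : Fact p.Prime] {A : Type*} [CommGroup A]

/-- The multiplicative form of `exists_surj`. -/
theorem exists_functional_aux [Module (ZMod p) (Additive A)] (α : MulAut A) (hα : α ^ p = 1)
    (x : A) (hx : ∏ i ∈ Finset.range p, (α ^ i) x ≠ 1) :
    ∃ (l : A →* Multiplicative (ZMod p)) (K : Subgroup A), (∃ a, l a ≠ 1) ∧ K.index = p ^ p ∧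
      ∀ a, (∀ i : ℕ, l ((α ^ i) a) = 1) → a ∈ K := by
  let τ : Module.End (ZMod p) (Additive A) :=
    AddMonoidHom.toZModLinearMap p (MonoidHom.toAdditive (α : A ≃* A).toMonoidHom)
  have hτ : ∀ (i : ℕ) (a : A), (τ ^ i) (Additive.ofMul a) = Additive.ofMul ((α ^ i) a) := by
    intro i
    induction i with
    | zero => intro a; simp
    | succ i ih =>
      intro a
      rw [pow_succ', Module.End.mul_apply, ih, pow_succ', MulAut.mul_apply]
      rfl
  have hτp : τ ^ p = 1 := by
    ext v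
    have h1 := hτ p v.toMul
    rw [hα] at h1
    exact h1
  have hN : ∑ i ∈ Finset.range p, (τ ^ i) (Additive.ofMul x) ≠ 0 := by
    have h1 : ∑ i ∈ Finset.range p, (τ ^ i) (Additive.ofMul x) =
        Additive.ofMul (∏ i ∈ Finset.range p, (α ^ i) x) := by
      rw [ofMul_prod]
      exact Finset.sum_congr rfl fun i _ => hτ i x
    rw [h1]
    exact fun h => hx (Additive.ofMul.injective h)
  obtain ⟨l, hl, hsurj⟩ := exists_surj τ hτp _ hN
  let l' : A →* Multiplicative (ZMod p) :=
    { toFun := fun a => Multiplicative.ofAdd (l (Additive.ofMul a))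
      map_one' := by
        show Multiplicative.ofAdd (l (Additive.ofMul 1)) = 1
        rw [ofMul_one, map_zero]
        rfl
      map_mul' := by
        intro a b
        show Multiplicative.ofAdd (l (Additive.ofMul (a * b))) = _
        rw [ofMul_mul, map_add]
        rfl }
  have hl' : ∀ a, (l' a).toAdd = l (Additive.ofMul a) := fun a => rfl
  obtain ⟨Θ₀, hΘ₀⟩ : ∃ Θ₀ : Additive A →ₗ[ZMod p] (Fin p → ZMod p),
      Θ₀ = LinearMap.pi (fun i : Fin p => l ∘ₗ (τ ^ (i : ℕ))) := ⟨_, rfl⟩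
  rw [← hΘ₀] at hsurj
  let Θ : A →* Multiplicative (Fin p → ZMod p) :=
    { toFun := fun a => Multiplicative.ofAdd (Θ₀ (Additive.ofMul a))
      map_one' := by
        show Multiplicative.ofAdd (Θ₀ (Additive.ofMul 1)) = 1
        rw [ofMul_one, map_zero]
        rfl
      map_mul' := by
        intro a b
        show Multiplicative.ofAdd (Θ₀ (Additive.ofMul (a * b))) = _
        rw [ofMul_mul, map_add]
        rfl }
  have hΘs : Function.Surjective Θ := by
    intro w
    obtain ⟨v, hv⟩ := hsurj w.toAdd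
    exact ⟨v.toMul, hv⟩
  refine ⟨l', Θ.ker, ?_, ?_, ?_⟩
  · by_contra hcon
    push Not at hcon
    apply hl
    have h1 : ∀ a : A, l (Additive.ofMul a) = 0 := by
      intro a
      rw [← hl', hcon a]
      rfl
    have h2 : ∀ v : Additive A, l v = 0 := fun v => h1 v.toMul
    exact h2 _
  · rw [Subgroup.index_ker, MonoidHom.range_eq_top.2 hΘs, Nat.card_congr (Subgroup.topEquiv).toEquiv,
      Nat.card_congr (Multiplicative.toAdd (α := Fin p → ZMod p))]
    simp [Nat.card_eq_fintype_card, ZMod.card]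
  · intro a ha
    rw [MonoidHom.mem_ker]
    apply Multiplicative.toAdd.injective
    funext i
    show Θ₀ (Additive.ofMul a) i = 0
    rw [hΘ₀]
    show l ((τ ^ (i : ℕ)) (Additive.ofMul a)) = 0
    rw [hτ, ← hl', ha i]
    rfl

theorem exists_functional (hexp : ∀ a : A, a ^ p = 1) (α : MulAut A) (hα : α ^ p = 1)
    (x : A) (hx : ∏ i ∈ Finset.range p, (α ^ i) x ≠ 1) :
    ∃ (l : A →* Multiplicative (ZMod p)) (K : Subgroup A), (∃ a, l a ≠ 1) ∧ K.index = p ^ p ∧
      ∀ a, (∀ i : ℕ, l ((α ^ i) a) = 1) → a ∈ K := by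
  letI : Module (ZMod p) (Additive A) := AddCommGroup.zmodModule (by
    intro v
    have := hexp v.toMul
    exact congrArg Additive.ofMul this)
  exact exists_functional_aux α hα x hx

end multiplicative


/-- Let P be a finite p-group with a normal elementary abelian subgroup A of index p, and let x ∈ A and y ∈ P with y outside A. If the product of the p conjugates y^(-i) x y^i (i = 0, …, p−1) is not the identity, then the wreath product Z_p ≀ Z_p, realised as a Sylow p-subgroup of the symmetric group of degree p², is a homomorphic image of P. -/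
theorem result {P : Type*} [Group P] [Finite P] {p : ℕ} [Fact p.Prime] (hP : IsPGroup p P) (A : Subgroup P) [A.Normal]
    (hA : Cfsg.IsElementaryAbelian p A) (hidx : A.index = p) (x y : P) (hx : x ∈ A) (hy : y ∉ A)
    (hprod : ((List.range p).map (fun i => (y ^ i)⁻¹ * x * y ^ i)).prod ≠ 1) :
    ∃ (Q : Sylow p (Equiv.Perm (Fin (p ^ 2)))) (f : P →* ↥(Q : Subgroup (Equiv.Perm (Fin (p ^ 2))))), Function.Surjective f := by

  classical
  obtain ⟨hcomm, hpow⟩ := hA
  haveI hpp : Fact p.Prime := inferInstance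
  have hp2 := (Fact.out : p.Prime).two_le
  letI cgA : CommGroup A := { (inferInstance : Group A) with mul_comm := hcomm.is_comm.comm }
  have hcm : ∀ a b : P, a ∈ A → b ∈ A → a * b = b * a := by
    intro a b ha hb
    have := hcomm.is_comm.comm ⟨a, ha⟩ ⟨b, hb⟩
    exact congrArg Subtype.val this
  let α : MulAut A := MulAut.conjNormal y⁻¹
  have hαi : ∀ (i : ℕ) (a : A), (((α ^ i) a : A) : P) = (y ^ i)⁻¹ * a * y ^ i := by
    intro i a
    have h1 : α ^ i = MulAut.conjNormal (y⁻¹ ^ i) := (map_pow _ _ _).symm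
    rw [h1, MulAut.conjNormal_apply, inv_pow, inv_inv]
  have hyp : y ^ p ∈ A := by
    have := Subgroup.pow_index_mem A y
    rwa [hidx] at this
  have hα : α ^ p = 1 := by
    ext a
    rw [hαi]
    show _ = (a : P)
    rw [mul_assoc, hcm a (y ^ p) a.2 hyp]
    group
  have hprod' : ∏ i ∈ Finset.range p, (α ^ i) ⟨x, hx⟩ ≠ 1 := by
    intro h1
    apply hprod
    have h2 : ∀ n : ℕ, (((List.range n).map (fun i => (y ^ i)⁻¹ * x * y ^ i)).prod : P) =
        ((∏ i ∈ Finset.range n, (α ^ i) ⟨x, hx⟩ : A) : P) := by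
      intro n
      induction n with
      | zero => simp
      | succ n ih =>
        rw [List.range_succ, List.map_append, List.prod_append, ih, Finset.prod_range_succ,
          Subgroup.coe_mul, hαi]
        simp
    rw [h2, h1]
    rfl
  obtain ⟨l, K, ⟨a₀, ha₀⟩, hKi, hK⟩ := exists_functional
    (fun a : A => Subtype.ext (hpow a a.2)) α hα _ hprod'
  -- `ker l` has index `p` in `A`
  have hlk : l.ker.index = p := by
    rw [Subgroup.index_ker]
    have h1 : Nat.card l.range ∣ p := by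
      have h2 := Subgroup.card_subgroup_dvd_card l.range
      have h3 : Nat.card (Multiplicative (ZMod p)) = p := by
        rw [Nat.card_congr (Multiplicative.toAdd (α := ZMod p))]
        simp [Nat.card_eq_fintype_card, ZMod.card]
      rwa [h3] at h2
    rcases (Nat.dvd_prime Fact.out).1 h1 with h2 | h2
    · exfalso
      apply ha₀
      have h3 : l a₀ ∈ l.range := ⟨a₀, rfl⟩
      have h4 := Subgroup.eq_bot_of_card_eq _ h2
      rw [h4] at h3
      exact h3
    · exact h2
  obtain ⟨B, hB⟩ : ∃ B : Subgroup P, B = l.ker.map A.subtype := ⟨_, rfl⟩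
  have hBi : B.index = p ^ 2 := by
    rw [hB, Subgroup.index_map_subtype, hlk, hidx, sq]
  have hcard : Nat.card (P ⧸ B) = p ^ 2 := by
    rw [← Subgroup.index_eq_card, hBi]
  haveI : Finite (P ⧸ B) := inferInstance
  let e : P ⧸ B ≃ Fin (p ^ 2) := Finite.equivFinOfCardEq hcard
  let ψ : P →* Equiv.Perm (Fin (p ^ 2)) :=
    (Equiv.permCongrHom e).toMonoidHom.comp (MulAction.toPermHom P (P ⧸ B))
  have hker : ψ.ker ≤ K.map A.subtype := by
    intro g hg
    have h1 : ∀ c : P ⧸ B, g • c = c := by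
      intro c
      have h2 : ψ g = 1 := hg
      have h3 : MulAction.toPermHom P (P ⧸ B) g = 1 := by
        apply (Equiv.permCongrHom e).injective
        rw [map_one]
        exact h2
      exact congrArg (fun s : Equiv.Perm (P ⧸ B) => s c) h3
    have hcos : ∀ i : ℕ, (y ^ i)⁻¹ * g * y ^ i ∈ B := by
      intro i
      have h2 := h1 ((y ^ i : P) : P ⧸ B)
      have h3 : ((g * y ^ i : P) : P ⧸ B) = ((y ^ i : P) : P ⧸ B) := h2
      have h4 := QuotientGroup.eq.1 h3.symm
      rwa [← mul_assoc] at h4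
    have hgB : g ∈ B := by simpa using hcos 0
    have hgA : g ∈ A := by
      rw [hB] at hgB
      obtain ⟨b, _, rfl⟩ := hgB
      exact b.2
    refine ⟨⟨g, hgA⟩, hK _ fun i => ?_, rfl⟩
    have h2 := hcos i
    rw [hB] at h2
    obtain ⟨b, hb, hbe⟩ := h2
    have h3 : b = (α ^ i) ⟨g, hgA⟩ := by
      apply Subtype.ext
      rw [hαi]
      exact hbe
    rw [← h3]
    exact hb
  have hdvd : p ^ (p + 1) ∣ Nat.card ψ.range := by
    rw [← Subgroup.index_ker]
    have h1 := Subgroup.index_dvd_of_le hker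
    rw [Subgroup.index_map_subtype, hKi, hidx, ← pow_succ] at h1
    exact h1
  have hRp : IsPGroup p ψ.range :=
    IsPGroup.of_surjective hP ψ.rangeRestrict ψ.rangeRestrict_surjective
  obtain ⟨Q, hQ⟩ := hRp.exists_le_sylow
  have hQc : Nat.card (Q : Subgroup (Equiv.Perm (Fin (p ^ 2)))) = p ^ (p + 1) := by
    rw [Sylow.card_eq_multiplicity, Nat.card_eq_fintype_card, Fintype.card_perm, Fintype.card_fin,
      Nat.factorization_def _ Fact.out,
      padicValNat_factorial (b := 3) (by rw [Nat.log_pow (Fact.out : p.Prime).one_lt]; omega)]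
    have h1 : p ^ 2 / p = p := by
      rw [sq, Nat.mul_div_cancel _ (Fact.out : p.Prime).pos]
    have h2 : p ^ 2 / p ^ 2 = 1 := Nat.div_self (pow_pos (Fact.out : p.Prime).pos 2)
    simp [Finset.sum_Ico_succ_top, h1, h2]
  have hRQ : ψ.range = Q := by
    apply Subgroup.eq_of_le_of_card_ge hQ
    rw [hQc]
    apply Nat.le_of_dvd Nat.card_pos hdvd
  refine ⟨Q, ψ.codRestrict (Q : Subgroup _) (fun g => hQ ⟨g, rfl⟩), ?_⟩
  rintro ⟨q, hq⟩
  rw [← hRQ] at hq
  obtain ⟨g, rfl⟩ := hq
  exact ⟨g, rfl⟩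

end Cfsg.Agent.S1952
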