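import Cfsg.Statements.S1953
import Mathlib
import Cfsg.Agent.Lib.PGroup.QdRadical
-- import your own Cfsg.Agent.* helpers here

set_option autoImplicit false
open Cfsg

namespace Cfsg.Agent.S1953

open Cfsg.Agent.Lib.PGroup.QdRadical Cfsg.Agent.Lib.PGroup.ZJControl Cfsg.Agent.Lib.PGroup.QdControl Cfsg.Agent.Lib.PGroup.ZJCore Cfsg.Agent.Lib.PGroup.ZJ

/-- Let p be an odd prime and P a Sylow p-subgroup of the finite group G, and suppose that for no p-subgroup Q of G does N_G(Q)/C_G(Q) have a section isomorphic to SL₂(p). Call a subgroup Q of P centric-radical when Z(Q) is a Sylow p-subgroup of C_G(Q) and the only normal subgroup X of N_G(Q) containing Q·C_G(Q) such that the index of Q·C_G(Q) in X is a power of p is Q·C_G(Q) itself (that is, N_G(Q)/Q·C_G(Q) has no nontrivial normal p-subgroup). Then there is a centric-radical subgroup Q of P contained in every centric-radical subgroup of P; it is normal in P, and N_G(Q) controls strong fusion in P: whenever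 a subgroup A of P has g A g⁻¹ ≤ P, the element g is a product h c with h in N_G(Q) and c centralizing A. -/
theorem result {G : Type*} [Group G] [Finite G] {p : ℕ} [Fact p.Prime] (hp : p ≠ 2) (P : Sylow p G)
    (hfree : ∀ Q : Subgroup G, IsPGroup p ↥Q → ¬ ∃ (H K : Subgroup G) (_ : (K.subgroupOf H).Normal),
      Subgroup.centralizer (Q : Set G) ≤ K ∧ K ≤ H ∧ H ≤ Subgroup.normalizer (Q : Set G) ∧
      Nonempty ((↥H ⧸ K.subgroupOf H) ≃* Matrix.SpecialLinearGroup (Fin 2) (ZMod p)))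
    (cr : Subgroup G → Prop)
    (hcr : ∀ Q : Subgroup G, cr Q ↔ (Q ≤ (P : Subgroup G) ∧
      (∃ R : Sylow p ↥(Subgroup.centralizer (Q : Set G)),
        (R : Subgroup ↥(Subgroup.centralizer (Q : Set G))).map (Subgroup.centralizer (Q : Set G)).subtype = Q ⊓ Subgroup.centralizer (Q : Set G)) ∧
      ∀ X : Subgroup G, X ≤ Subgroup.normalizer (Q : Set G) →
        (∀ n ∈ Subgroup.normalizer (Q : Set G), X.map (MulAut.conj n).toMonoidHom = X) →
        Q ⊔ Subgroup.centralizer (Q : Set G) ≤ X → (∃ k : ℕ, (Q ⊔ Subgroup.centralizer (Q : Set G)).relIndex X = p ^ k) →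
        X = Q ⊔ Subgroup.centralizer (Q : Set G))) :
    ∃ Q : Subgroup G, cr Q ∧ (∀ R : Subgroup G, cr R → Q ≤ R) ∧ (∀ x ∈ (P : Subgroup G), Q.map (MulAut.conj x).toMonoidHom = Q) ∧
      ∀ A : Subgroup G, A ≤ (P : Subgroup G) → ∀ g : G, A.map (MulAut.conj g).toMonoidHom ≤ (P : Subgroup G) →
        ∃ h ∈ Subgroup.normalizer (Q : Set G), ∃ c ∈ Subgroup.centralizer (A : Set G), g = h * c := by
  classical
  have hSec : ¬ Cfsg.Agent.Lib.PGroup.QdSplit.Sec (Cfsg.qd p) G := by
    intro hs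
    obtain ⟨Q, hQ, H⟩ := exists_local_section hs
    exact hfree Q hQ H
  obtain ⟨Q, hQ, hmax⟩ := exists_max_ctl P
  have hc := inf_centralizer_le hp hSec hQ hmax
  have hQcr : cr Q := by
    rw [hcr]
    refine ⟨hQ.1, ?_, fun X h1 h2 h3 h4 => radical_of_max hQ hmax hc X h1 h2 h3 h4⟩
    obtain ⟨R₀, hR₀⟩ := exists_sylow_centralizer P hQ.2.1
    exact ⟨R₀, hR₀.trans (le_antisymm (le_inf hc inf_le_right) (inf_le_inf_right _ hQ.1))⟩
  refine ⟨Q, hQcr, ?_, ?_, ?_⟩
  · intro R hR
    rw [hcr] at hR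
    obtain ⟨hRP, ⟨R₀, hR₀⟩, hRr⟩ := hR
    refine le_of_radical hQ hRP ?_ hRr
    have hU : IsPGroup p (((P : Subgroup G) ⊓ Subgroup.centralizer (R : Set G)).subgroupOf
        (Subgroup.centralizer (R : Set G))) :=
      isPGroup_subgroupOf ((P.isPGroup').to_le inf_le_left)
    have hle : (R₀ : Subgroup (Subgroup.centralizer (R : Set G))) ≤
        ((P : Subgroup G) ⊓ Subgroup.centralizer (R : Set G)).subgroupOf
          (Subgroup.centralizer (R : Set G)) := by
      intro y hy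
      have h1 : (y : G) ∈ R ⊓ Subgroup.centralizer (R : Set G) := by
        rw [← hR₀]
        exact ⟨y, hy, rfl⟩
      exact Subgroup.mem_subgroupOf.mpr ⟨hRP h1.1, h1.2⟩
    have heq := R₀.is_maximal' hU hle
    intro x hx
    have h1 : (⟨x, hx.2⟩ : Subgroup.centralizer (R : Set G)) ∈
        (R₀ : Subgroup (Subgroup.centralizer (R : Set G))) := by
      rw [← heq]
      exact Subgroup.mem_subgroupOf.mpr hx
    have h2 : x ∈ R ⊓ Subgroup.centralizer (R : Set G) := by
      rw [← hR₀]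
      exact ⟨_, h1, rfl⟩
    exact h2.1
  · intro x hx
    ext y
    constructor
    · rintro ⟨z, hz, rfl⟩
      exact (Subgroup.mem_normalizer_iff.mp (hQ.2.1 hx) z).mp hz
    · intro hy
      refine ⟨x⁻¹ * y * x⁻¹⁻¹, (Subgroup.mem_normalizer_iff.mp (hQ.2.1 (inv_mem hx)) y).mp hy, ?_⟩
      simp only [MulEquiv.coe_toMonoidHom, MulAut.conj_apply]
      group
  · intro A hA g hg
    obtain ⟨x, hx, hxe⟩ := hQ.2.2 A g hA (fun b hb => hg ⟨b, hb, rfl⟩)
    refine ⟨x, hx, x⁻¹ * g, ?_, by group⟩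
    rw [Subgroup.mem_centralizer_iff]
    intro b hb
    have h1 := hxe b hb
    have h2 : b * (x⁻¹ * g) = x⁻¹ * (x * b * x⁻¹) * g := by group
    rw [h2, ← h1]
    group

end Cfsg.Agent.S1953
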