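import Cfsg.Statements.S1954
import Mathlib
import Cfsg.Agent.Lib.PGroup.ControlNormal
-- import your own Cfsg.Agent.* helpers here

set_option autoImplicit false
open Cfsg

namespace Cfsg.Agent.S1954

open Subgroup Cfsg.Agent.Lib.PGroup.ControlNormal Cfsg.Agent.Lib.PGroup.ZJControl
open Cfsg.Agent.Lib.PGroup.QdControl (frattini_fusion)
open Cfsg.Agent.Lib.PGroup.Replacement (mem_normalizer_of_conj_mem)

/-- Let N be a normal subgroup of the finite group G, P a Sylow p-subgroup of G, and V a subgroup of P ∩ N normal in P ∩ N such that N_N(V) controls strong fusion in P ∩ N with respect to N (whenever a subgroup A of P ∩ N has n A n⁻¹ ≤ P ∩ N for some n in N, then n = h c with h in N_N(V) and c in C_N(A)). Let W be the subgroup generated by the conjugates of V under N_G(P ∩ N). Then N_G(W) controls strong fusion in P with respect to G. -/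
theorem result {G : Type*} [Group G] [Finite G] {p : ℕ} [Fact p.Prime] (N : Subgroup G) [N.Normal] (P : Sylow p G) (V : Subgroup G)
    (hV : V ≤ (P : Subgroup G) ⊓ N) (hVn : ∀ x ∈ (P : Subgroup G) ⊓ N, V.map (MulAut.conj x).toMonoidHom = V)
    (hctrl : ∀ A : Subgroup G, A ≤ (P : Subgroup G) ⊓ N → ∀ n ∈ N, A.map (MulAut.conj n).toMonoidHom ≤ (P : Subgroup G) ⊓ N →
      ∃ h ∈ N ⊓ Subgroup.normalizer (V : Set G), ∃ c ∈ N ⊓ Subgroup.centralizer (A : Set G), n = h * c)
    (W : Subgroup G) (hW : W = Subgroup.closure (⋃ x ∈ Subgroup.normalizer (((P : Subgroup G) ⊓ N : Subgroup G) : Set G),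
      ((V.map (MulAut.conj x).toMonoidHom : Subgroup G) : Set G))) :
    ∀ A : Subgroup G, A ≤ (P : Subgroup G) → ∀ g : G, A.map (MulAut.conj g).toMonoidHom ≤ (P : Subgroup G) →
        ∃ h ∈ Subgroup.normalizer (W : Set G), ∃ c ∈ Subgroup.centralizer (A : Set G), g = h * c := by
  classical
  set R := (P : Subgroup G) ⊓ N with hR
  have hNn : N.Normal := inferInstance
  have hVR : ∀ x ∈ normalizer (R : Set G), V.map (MulAut.conj x).toMonoidHom ≤ R := by
    rintro x hx _ ⟨v, hv, rfl⟩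
    exact (mem_normalizer_iff.mp hx v).mp (hV hv)
  have hWR : W ≤ R := by
    rw [hW, Subgroup.closure_le]
    intro y hy
    simp only [Set.mem_iUnion] at hy
    obtain ⟨x, hx, hy⟩ := hy
    exact hVR x hx hy
  have hsub : ∀ x ∈ normalizer (R : Set G), V.map (MulAut.conj x).toMonoidHom ≤ W := by
    intro x hx y hy
    rw [hW]
    apply Subgroup.subset_closure
    simp only [Set.mem_iUnion]
    exact ⟨x, hx, hy⟩
  -- normalizing a family
  have hWgen : ∀ h : G, (∀ x ∈ normalizer (R : Set G), ∀ v ∈ V, h * (x * v * x⁻¹) * h⁻¹ ∈ W) →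
      h ∈ normalizer (W : Set G) := by
    intro h hh
    apply mem_normalizer_of_conj_mem
    intro w hw
    have hw' := hw
    rw [hW] at hw'
    induction hw' using Subgroup.closure_induction with
    | mem y hy =>
      simp only [Set.mem_iUnion] at hy
      obtain ⟨x, hx, v, hv, rfl⟩ := hy
      exact hh x hx v hv
    | one => simp
    | mul a b _ _ iha ihb =>
      have h1 : h * (a * b) * h⁻¹ = (h * a * h⁻¹) * (h * b * h⁻¹) := by group
      rw [h1]
      exact mul_mem (iha (by rw [hW]; assumption)) (ihb (by rw [hW]; assumption))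
    | inv a _ iha =>
      have h1 : h * a⁻¹ * h⁻¹ = (h * a * h⁻¹)⁻¹ := by group
      rw [h1]
      exact inv_mem (iha (by rw [hW]; assumption))
  have hWN : normalizer (R : Set G) ≤ normalizer (W : Set G) := by
    intro y hy
    apply hWgen
    intro x hx v hv
    have h1 : y * (x * v * x⁻¹) * y⁻¹ = (y * x) * v * (y * x)⁻¹ := by group
    rw [h1]
    exact hsub _ (mul_mem hy hx) ⟨v, hv, rfl⟩
  -- control for a conjugate of `V`
  have hconj : ∀ x ∈ normalizer (R : Set G), ∀ A : Subgroup G, A ≤ R → ∀ n ∈ N,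
      (∀ a ∈ A, n * a * n⁻¹ ∈ R) →
      ∃ h ∈ N ⊓ normalizer ((V.map (MulAut.conj x).toMonoidHom : Subgroup G) : Set G),
        ∀ a ∈ A, n * a * n⁻¹ = h * a * h⁻¹ := by
    intro x hx A hA n hn hnA
    have hxi : x⁻¹ ∈ normalizer (R : Set G) := inv_mem hx
    obtain ⟨h', hh', c', hc', he⟩ := hctrl (A.map (MulAut.conj x⁻¹).toMonoidHom)
      (by
        rintro _ ⟨a, ha, rfl⟩
        exact (mem_normalizer_iff.mp hxi a).mp (hA ha))
      (x⁻¹ * n * x) (by simpa using hNn.conj_mem n hn x⁻¹)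
      (by
        rintro _ ⟨_, ⟨a, ha, rfl⟩, rfl⟩
        have h1 : (MulAut.conj (x⁻¹ * n * x)).toMonoidHom ((MulAut.conj x⁻¹).toMonoidHom a) =
            x⁻¹ * (n * a * n⁻¹) * x⁻¹⁻¹ := by
          simp only [MulEquiv.coe_toMonoidHom, MulAut.conj_apply]
          group
        rw [h1]
        exact (mem_normalizer_iff.mp hxi _).mp (hnA a ha))
    have hh'' := Subgroup.mem_inf.mp hh'
    have hc'' := Subgroup.mem_inf.mp hc'
    refine ⟨x * h' * x⁻¹, Subgroup.mem_inf.mpr ⟨hNn.conj_mem _ hh''.1 x, ?_⟩, fun a ha => ?_⟩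
    · apply mem_normalizer_of_conj_mem
      rintro _ ⟨v, hv, rfl⟩
      refine ⟨h' * v * h'⁻¹, (mem_normalizer_iff.mp hh''.2 v).mp hv, ?_⟩
      simp only [MulEquiv.coe_toMonoidHom, MulAut.conj_apply]
      group
    · have h1 := mem_centralizer_iff.mp hc''.2 _ (⟨a, ha, rfl⟩ : (MulAut.conj x⁻¹).toMonoidHom a ∈
        A.map (MulAut.conj x⁻¹).toMonoidHom)
      simp only [MulEquiv.coe_toMonoidHom, MulAut.conj_apply] at h1
      have h2 : n = x * (h' * c') * x⁻¹ := by
        rw [← he]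
        group
      calc n * a * n⁻¹ = x * h' * (c' * (x⁻¹ * a * x⁻¹⁻¹) * c'⁻¹) * h'⁻¹ * x⁻¹ := by
            rw [h2]
            group
        _ = x * h' * ((x⁻¹ * a * x⁻¹⁻¹) * c' * c'⁻¹) * h'⁻¹ * x⁻¹ := by rw [← h1]
        _ = _ := by group
  -- combining the whole family
  have hcomb : ∀ A : Subgroup G, A ≤ R → ∀ n ∈ N, (∀ a ∈ A, n * a * n⁻¹ ∈ R) →
      ∃ h ∈ N ⊓ normalizer (W : Set G), ∀ a ∈ A, n * a * n⁻¹ = h * a * h⁻¹ := by
    intro A hA n hn hnA
    have hfam : ∀ 𝒮 : Finset (normalizer (R : Set G)), ∃ h ∈ N,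
        (∀ x ∈ 𝒮, h ∈ normalizer ((V.map (MulAut.conj (x : G)).toMonoidHom : Subgroup G) : Set G)) ∧
          ∀ a ∈ A, n * a * n⁻¹ = h * a * h⁻¹ := by
      intro 𝒮
      induction 𝒮 using Finset.induction_on with
      | empty => exact ⟨n, hn, by simp, fun _ _ => rfl⟩
      | insert x 𝒮 _ ih =>
        obtain ⟨h, hh, hnorm, he⟩ := ih
        set A' : Subgroup G := A ⊔ ⨆ y ∈ 𝒮, V.map (MulAut.conj (y : G)).toMonoidHom with hA'
        have hA'R : A' ≤ R := by
          refine sup_le hA (iSup₂_le fun y _ => hVR _ y.2)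
        have hhA' : A' ≤ R.comap (MulAut.conj h).toMonoidHom := by
          refine sup_le ?_ (iSup₂_le fun y hy => ?_)
          · intro a ha
            show h * a * h⁻¹ ∈ R
            rw [← he a ha]
            exact hnA a ha
          · intro v hv
            show h * v * h⁻¹ ∈ R
            exact hVR _ y.2 ((mem_normalizer_iff.mp (hnorm y hy) v).mp hv)
        obtain ⟨h₂, hh₂, he₂⟩ := hconj x x.2 A' hA'R h hh (fun a ha => hhA' ha)
        have hh₂' := Subgroup.mem_inf.mp hh₂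
        refine ⟨h₂, hh₂'.1, ?_, fun a ha => ?_⟩
        · intro y hy
          rcases Finset.mem_insert.mp hy with rfl | hy
          · exact hh₂'.2
          · apply mem_normalizer_of_conj_mem
            intro v hv
            have hvA' : v ∈ A' := (le_sup_right : _ ≤ A')
              (Subgroup.mem_iSup_of_mem y (Subgroup.mem_iSup_of_mem hy hv))
            rw [← he₂ v hvA']
            exact (mem_normalizer_iff.mp (hnorm y hy) v).mp hv
        · rw [he a ha]
          exact he₂ a ((le_sup_left : A ≤ A') ha)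
    haveI : Fintype (normalizer (R : Set G)) := Fintype.ofFinite _
    obtain ⟨h, hh, hnorm, he⟩ := hfam Finset.univ
    refine ⟨h, Subgroup.mem_inf.mpr ⟨hh, ?_⟩, he⟩
    apply hWgen
    intro x hx v hv
    have h1 := (mem_normalizer_iff.mp (hnorm ⟨x, hx⟩ (Finset.mem_univ _)) _).mp
      (⟨v, hv, rfl⟩ : (MulAut.conj x).toMonoidHom v ∈ V.map (MulAut.conj x).toMonoidHom)
    exact hsub x hx h1
  -- passage to `H = N ⊔ P`
  intro A hA g hg
  have hgA : ∀ b ∈ A, g * b * g⁻¹ ∈ (P : Subgroup G) := fun b hb => hg ⟨b, hb, rfl⟩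
  obtain ⟨g₁, hg₁, g₂, hg₂, rfl, hg₁B⟩ := frattini_fusion (M := N) P hA hgA
  set H := N ⊔ (P : Subgroup G) with hH
  have hNH : N ≤ H := le_sup_left
  have hPH : (P : Subgroup G) ≤ H := le_sup_right
  haveI hN' : (N.subgroupOf H).Normal := inferInstance
  let S' : Sylow p ↥H := P.subtype hPH
  have hS' : (S' : Subgroup ↥H) = (P : Subgroup G).subgroupOf H := P.coe_subtype hPH
  have hq : ∀ x : ↥H, ∃ a : ℕ, x ^ p ^ a ∈ N.subgroupOf H := by
    intro x
    have hx : (x : G) ∈ N ⊔ (P : Subgroup G) := x.2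
    rw [← SetLike.mem_coe, Subgroup.normal_mul] at hx
    obtain ⟨n, hn, s, hs, hns⟩ := Set.mem_mul.mp hx
    obtain ⟨a, ha⟩ := P.isPGroup' ⟨s, hs⟩
    have ha' : s ^ p ^ a = 1 := by
      have h0 := congrArg Subtype.val ha
      simpa using h0
    refine ⟨a, ?_⟩
    rw [Subgroup.mem_subgroupOf]
    have h1 : ((x ^ p ^ a : ↥H) : G) = (n * s) ^ p ^ a := by
      simp [hns]
    rw [h1, ← QuotientGroup.eq_one_iff, QuotientGroup.mk_pow, QuotientGroup.mk_mul,
      (QuotientGroup.eq_one_iff n).mpr hn, one_mul, ← QuotientGroup.mk_pow, ha']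
    rfl
  have hmem : ∀ y : ↥H, y ∈ (S' : Subgroup ↥H) ⊓ N.subgroupOf H ↔ (y : G) ∈ R := by
    intro y
    rw [hS', Subgroup.mem_inf, Subgroup.mem_subgroupOf, Subgroup.mem_subgroupOf, hR, Subgroup.mem_inf]
  have hWH : W ≤ H := hWR.trans (inf_le_left.trans hPH)
  have hnW : ∀ y : ↥H, (y : G) ∈ normalizer (W : Set G) →
      y ∈ normalizer ((W.subgroupOf H : Subgroup ↥H) : Set ↥H) := by
    intro y hy
    apply mem_normalizer_of_conj_mem
    intro z hz
    rw [Subgroup.mem_subgroupOf] at hz ⊢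
    exact (mem_normalizer_iff.mp hy z).mp hz
  have hfin := control_normal (N := N.subgroupOf H) S' hq (W := W.subgroupOf H)
    (by
      intro y hy
      rw [hmem]
      exact hWR (Subgroup.mem_subgroupOf.mp hy))
    (by
      intro y hy
      apply hnW
      apply hWN
      apply mem_normalizer_of_conj_mem
      intro x hx
      have hxH : x ∈ H := hPH (Subgroup.mem_inf.mp hx).1
      have h1 : (⟨x, hxH⟩ : ↥H) ∈ (S' : Subgroup ↥H) ⊓ N.subgroupOf H := (hmem _).mpr hx
      have h2 := (mem_normalizer_iff.mp hy _).mp h1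
      exact (hmem _).mp h2)
    (by
      intro A' hA' n' hn' hnA'
      obtain ⟨h, hh, he⟩ := hcomb (A'.map H.subtype)
        (by
          rintro _ ⟨a, ha, rfl⟩
          exact (hmem _).mp (hA' ha))
        (n' : G) (Subgroup.mem_subgroupOf.mp hn')
        (by
          rintro _ ⟨a, ha, rfl⟩
          exact (hmem _).mp (hnA' a ha))
      have hh' := Subgroup.mem_inf.mp hh
      refine ⟨⟨h, hNH hh'.1⟩, hnW _ hh'.2, fun a ha => ?_⟩
      apply Subtype.ext
      exact he _ ⟨a, ha, rfl⟩)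
    ((A.map (MulAut.conj g₁).toMonoidHom).subgroupOf H) ⟨g₂, hNH hg₂⟩
    (by
      intro y hy
      rw [hS', Subgroup.mem_subgroupOf]
      obtain ⟨b, hb, hbe⟩ := Subgroup.mem_subgroupOf.mp hy
      rw [← hbe]
      exact hg₁B b hb)
    (by
      intro y hy
      rw [hS', Subgroup.mem_subgroupOf]
      obtain ⟨b, hb, hbe⟩ := Subgroup.mem_subgroupOf.mp hy
      show g₂ * (y : G) * g₂⁻¹ ∈ (P : Subgroup G)
      rw [← hbe]
      have h1 : g₂ * (MulAut.conj g₁).toMonoidHom b * g₂⁻¹ = (g₂ * g₁) * b * (g₂ * g₁)⁻¹ := by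
        simp only [MulEquiv.coe_toMonoidHom, MulAut.conj_apply]
        group
      rw [h1]
      exact hgA b hb)
  obtain ⟨x, hx, hxe⟩ := hfin
  have hxW : (x : G) ∈ normalizer (W : Set G) := by
    apply mem_normalizer_of_conj_mem
    intro w hw
    have h1 : (⟨w, hWH hw⟩ : ↥H) ∈ W.subgroupOf H := Subgroup.mem_subgroupOf.mpr hw
    have h2 := (mem_normalizer_iff.mp hx _).mp h1
    exact Subgroup.mem_subgroupOf.mp h2
  have hg₁W := hWN hg₁
  refine ⟨(x : G) * g₁, mul_mem hxW hg₁W, ((x : G) * g₁)⁻¹ * (g₂ * g₁), ?_, by group⟩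
  rw [mem_centralizer_iff]
  intro b hb
  have hb' : (MulAut.conj g₁).toMonoidHom b ∈ A.map (MulAut.conj g₁).toMonoidHom := ⟨b, hb, rfl⟩
  have hbH : (MulAut.conj g₁).toMonoidHom b ∈ H := hPH (hg₁B b hb)
  have h1 := hxe ⟨_, hbH⟩ (Subgroup.mem_subgroupOf.mpr hb')
  have h2 : g₂ * (g₁ * b * g₁⁻¹) * g₂⁻¹ = (x : G) * (g₁ * b * g₁⁻¹) * (x : G)⁻¹ :=
    congrArg Subtype.val h1
  have h4 : (g₂ * g₁) * b * (g₂ * g₁)⁻¹ = ((x : G) * g₁) * b * ((x : G) * g₁)⁻¹ := by
    calc (g₂ * g₁) * b * (g₂ * g₁)⁻¹ = g₂ * (g₁ * b * g₁⁻¹) * g₂⁻¹ := by group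
      _ = (x : G) * (g₁ * b * g₁⁻¹) * (x : G)⁻¹ := h2
      _ = _ := by group
  calc b * (((x : G) * g₁)⁻¹ * (g₂ * g₁))
      = ((x : G) * g₁)⁻¹ * (((x : G) * g₁) * b * ((x : G) * g₁)⁻¹) * (g₂ * g₁) := by group
    _ = ((x : G) * g₁)⁻¹ * ((g₂ * g₁) * b * (g₂ * g₁)⁻¹) * (g₂ * g₁) := by rw [h4]
    _ = _ := by group

end Cfsg.Agent.S1954
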