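import Cfsg.Statements.S1956
import Mathlib
-- import your own Cfsg.Agent.* helpers here

set_option autoImplicit false
open Cfsg

namespace Cfsg.Agent.S1956

/-- Let P be a Sylow p-subgroup of the finite group G such that every element of P of order dividing p (dividing 4 when p = 2) is central in P. Then the fusion of these elements is controlled by N_G(P): if such an element a of P has g a g⁻¹ in P, then g = n c with n normalizing P and c commuting with a. -/
theorem result {G : Type*} [Group G] [Finite G] {p : ℕ} [Fact p.Prime] (P : Sylow p G)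
    (hcen : ∀ a ∈ (P : Subgroup G), (a ^ p = 1 ∨ (p = 2 ∧ a ^ 4 = 1)) → ∀ y ∈ (P : Subgroup G), a * y = y * a) :
    ∀ a ∈ (P : Subgroup G), (a ^ p = 1 ∨ (p = 2 ∧ a ^ 4 = 1)) → ∀ g : G, g * a * g⁻¹ ∈ (P : Subgroup G) →
      ∃ n ∈ Subgroup.normalizer ((P : Subgroup G) : Set G), ∃ c : G, c * a = a * c ∧ g = n * c := by
  classical
  intro a ha hsmall g hg
  set b := g * a * g⁻¹ with hb
  -- `b` is again of small order, so central in `P`.
  have hbsmall : b ^ p = 1 ∨ (p = 2 ∧ b ^ 4 = 1) := by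
    have hpow : ∀ k : ℕ, b ^ k = g * a ^ k * g⁻¹ := fun k => by
      rw [hb, conj_pow]
    rcases hsmall with h | ⟨h2, h⟩
    · left; rw [hpow, h]; simp
    · right; refine ⟨h2, ?_⟩; rw [hpow, h]; simp
  have hbcen := hcen b hg hbsmall
  have hacen := hcen a ha hsmall
  let C : Subgroup G := Subgroup.centralizer ({b} : Set G)
  have hPC : (P : Subgroup G) ≤ C := by
    intro y hy
    rw [Subgroup.mem_centralizer_singleton_iff]
    exact (hbcen y hy).symm
  have hQC : ((g • P : Sylow p G) : Subgroup G) ≤ C := by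
    intro y hy
    rw [Subgroup.mem_centralizer_singleton_iff]
    have hy' : g⁻¹ * y * g ∈ (P : Subgroup G) := by
      have hmem : y ∈ (((g • P : Sylow p G)) : Set G) := hy
      rw [Sylow.coe_smul, Set.mem_smul_set_iff_inv_smul_mem] at hmem
      have h' : g⁻¹ * (y * g) ∈ P := by
        simpa [MulAut.smul_def, MulAut.conj_apply, mul_assoc] using hmem
      rw [mul_assoc]
      exact h'
    have h1 := hacen _ hy'
    have h2 : y * b * y⁻¹ = b := by
      rw [hb]
      have h3 : g⁻¹ * y * g * a * (g⁻¹ * y * g)⁻¹ = a := by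
        rw [← h1]; group
      calc y * (g * a * g⁻¹) * y⁻¹ = g * (g⁻¹ * y * g * a * (g⁻¹ * y * g)⁻¹) * g⁻¹ := by group
        _ = g * a * g⁻¹ := by rw [h3]
    calc y * b = y * b * y⁻¹ * y := by group
      _ = b * y := by rw [h2]
  obtain ⟨c, hc⟩ := MulAction.exists_smul_eq C ((g • P).subtype hQC) (P.subtype hPC)
  simp_rw [Sylow.smul_subtype, Subgroup.smul_def, smul_smul] at hc
  have hc' := Sylow.subtype_injective hc
  have hn : ((c : G) * g) ∈ Subgroup.normalizer ((P : Subgroup G) : Set G) :=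
    Sylow.smul_eq_iff_mem_normalizer.mp hc'
  refine ⟨(c : G) * g, hn, g⁻¹ * (c : G)⁻¹ * g, ?_, by group⟩
  have hcb : (c : G) * b = b * (c : G) := by
    have := c.2
    rw [Subgroup.mem_centralizer_singleton_iff] at this
    exact this
  have hcb' : (c : G)⁻¹ * b = b * (c : G)⁻¹ := by
    calc (c : G)⁻¹ * b = (c : G)⁻¹ * (b * (c : G)) * (c : G)⁻¹ := by group
      _ = (c : G)⁻¹ * ((c : G) * b) * (c : G)⁻¹ := by rw [hcb]
      _ = b * (c : G)⁻¹ := by group
  calc g⁻¹ * (c : G)⁻¹ * g * a = g⁻¹ * ((c : G)⁻¹ * (g * a * g⁻¹)) * g := by group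
    _ = g⁻¹ * (b * (c : G)⁻¹) * g := by rw [← hb, hcb']
    _ = g⁻¹ * ((g * a * g⁻¹) * (c : G)⁻¹) * g := by rw [hb]
    _ = a * (g⁻¹ * (c : G)⁻¹ * g) := by group

end Cfsg.Agent.S1956
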