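import Cfsg.Statements.S1987
import Cfsg.Agent.Lib.PGroup.KInfQuartic
import Cfsg.Agent.Lib.PGroup.KInfIso
import Cfsg.Agent.Lib.Transfer.FusionApps
open Cfsg.Agent.Lib.Transfer.SectionBasic Cfsg.Agent.Lib.Transfer.FusionApps
set_option autoImplicit false
universe u
open Cfsg

namespace Cfsg.Agent.S1987

/-- Let p be an odd prime and G a finite group every section of which is p-stable in the normalizer form (in each section, an element of the normalizer of a p-subgroup Q acting quadratically on Q maps into O_p of N(Q)/C(Q)). Then for every Sylow p-subgroup S of G the lower K-infinity subgroup of S controls strong fusion in G. -/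
theorem result {G : Type u} [Group G] [Finite G] {p : ℕ} [Fact p.Prime] (hp : p ≠ 2) (hst : ∀ (K R : Subgroup G) [hR : (R.subgroupOf K).Normal], Cfsg.IsNormalizerPStable p (↥K ⧸ R.subgroupOf K)) (S : Sylow p G) : Cfsg.ControlsStrongFusion p (Cfsg.inducedFunctor Cfsg.kInfLower (S : Subgroup G)) := by
  have hW := Cfsg.Agent.Lib.PGroup.KInfIso.isCharPFunctor_kInfLower.{u} p
  have main := FF_single_all (G := G) hW (by
    intro Y _ _ hY hc T
    by_contra hn
    obtain ⟨g, -, -, -, -, h⟩ := Cfsg.Agent.Lib.PGroup.KInfQuartic.main T (Or.inl hn)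
    obtain ⟨N, hN, hNs⟩ := h hc
    apply hNs
    obtain ⟨K, R, hR, ⟨e⟩⟩ := ((IsSec.quotient N).trans hY).exists_equiv
    haveI : Finite (Y ⧸ N) := inferInstance
    exact normalizerPStable_of_equiv e.symm (hst K R))
  exact controlsStrongFusion_of_FF hW (main G (IsSec.refl G)) S

end Cfsg.Agent.S1987
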