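import Cfsg.Statements.S2162
import Mathlib
import Cfsg.Agent.Lib.Linalg.SquareZero
-- import your own Cfsg.Agent.* helpers here

set_option autoImplicit false
open Cfsg

namespace Cfsg.Agent.S2162

open Module Cfsg.Agent.Lib.Linalg.SquareZero

theorem sq_zero {F : Type*} [Field F] [CharP F 2] {n : ℕ} (a : Matrix.SpecialLinearGroup (Fin n) F)
    (ha : orderOf a = 2) :
    ((a : Matrix (Fin n) (Fin n) F) - 1) * ((a : Matrix (Fin n) (Fin n) F) - 1) = 0 := by
  have h1 : a ^ 2 = 1 := by
    rw [← ha]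
    exact pow_orderOf_eq_one a
  have h2 : (a : Matrix (Fin n) (Fin n) F) * (a : Matrix (Fin n) (Fin n) F) = 1 := by
    have := congrArg (fun x : Matrix.SpecialLinearGroup (Fin n) F =>
      (x : Matrix (Fin n) (Fin n) F)) h1
    simpa [pow_two] using this
  have h3 : ∀ X : Matrix (Fin n) (Fin n) F, X + X = 0 := by
    intro X
    ext i j
    exact CharTwo.add_self_eq_zero _
  have h4 : ((a : Matrix (Fin n) (Fin n) F) - 1) * ((a : Matrix (Fin n) (Fin n) F) - 1) =
      (a : Matrix (Fin n) (Fin n) F) * (a : Matrix (Fin n) (Fin n) F) -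
        ((a : Matrix (Fin n) (Fin n) F) + (a : Matrix (Fin n) (Fin n) F)) + 1 := by
    noncomm_ring
  rw [h4, h2, h3, sub_zero]
  exact h3 1

theorem sq_zero_lin {F : Type*} [Field F] [CharP F 2] {n : ℕ}
    (a : Matrix.SpecialLinearGroup (Fin n) F) (ha : orderOf a = 2) (v : Fin n → F) :
    ((a : Matrix (Fin n) (Fin n) F) - 1).mulVecLin (((a : Matrix (Fin n) (Fin n) F) - 1).mulVecLin v)
      = 0 := by
  simp only [Matrix.mulVecLin_apply, Matrix.mulVec_mulVec, sq_zero a ha, Matrix.zero_mulVec]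

theorem rank_pos {F : Type*} [Field F] {n : ℕ} (a : Matrix.SpecialLinearGroup (Fin n) F)
    (ha : orderOf a = 2) : 0 < ((a : Matrix (Fin n) (Fin n) F) - 1).rank := by
  rw [Nat.pos_iff_ne_zero]
  intro h
  have h1 : ((a : Matrix (Fin n) (Fin n) F) - 1) = 0 := by
    have h2 : LinearMap.range ((a : Matrix (Fin n) (Fin n) F) - 1).mulVecLin = ⊥ :=
      Submodule.finrank_eq_zero.mp h
    rw [LinearMap.range_eq_bot] at h2
    exact Matrix.ext_iff_mulVec.mpr (fun v => by
      rw [Matrix.zero_mulVec]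
      exact LinearMap.congr_fun h2 v)
  have h3 : a = 1 := by
    apply Subtype.ext
    exact sub_eq_zero.mp h1
  rw [h3, orderOf_one] at ha
  omega

/-- Conjugacy of involutions in the special linear group over a finite field of characteristic two, in dimension at least 3: two elements of order 2 of SL_n(F) are conjugate in SL_n(F) exactly when the matrices a − 1 and b − 1 have the same rank (the rank of a − 1 is the dimension of the commutator space [V, a]). -/
theorem result {F : Type*} [Field F] [Fintype F] [CharP F 2] {n : ℕ} (hn : 3 ≤ n) (a b : Matrix.SpecialLinearGroup (Fin n) F) (ha : orderOf a = 2) (hb : orderOf b = 2) :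
    IsConj a b ↔ ((a : Matrix (Fin n) (Fin n) F) - 1).rank = ((b : Matrix (Fin n) (Fin n) F) - 1).rank := by
  classical
  constructor
  · intro h
    obtain ⟨c, hc⟩ := isConj_iff.mp h
    have hb' : (b : Matrix (Fin n) (Fin n) F) - 1 =
        (c : Matrix (Fin n) (Fin n) F) * ((a : Matrix (Fin n) (Fin n) F) - 1) *
          ((c⁻¹ : Matrix.SpecialLinearGroup (Fin n) F) : Matrix (Fin n) (Fin n) F) := by
      have h1 : (c : Matrix (Fin n) (Fin n) F) *
          ((c⁻¹ : Matrix.SpecialLinearGroup (Fin n) F) : Matrix (Fin n) (Fin n) F) = 1 := by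
        have := congrArg (fun x : Matrix.SpecialLinearGroup (Fin n) F =>
          (x : Matrix (Fin n) (Fin n) F)) (mul_inv_cancel c)
        exact this
      have h2 : (b : Matrix (Fin n) (Fin n) F) =
          (c : Matrix (Fin n) (Fin n) F) * (a : Matrix (Fin n) (Fin n) F) *
          ((c⁻¹ : Matrix.SpecialLinearGroup (Fin n) F) : Matrix (Fin n) (Fin n) F) := by
        rw [← hc]
        rfl
      rw [h2, mul_sub, sub_mul, mul_one, h1]
    rw [hb', Matrix.rank_mul_eq_left_of_isUnit_det _ _ (by rw [(c⁻¹).2]; exact isUnit_one),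
      Matrix.rank_mul_eq_right_of_isUnit_det _ _ (by rw [c.2]; exact isUnit_one)]
  · intro hrank
    set Na : Matrix (Fin n) (Fin n) F := (a : Matrix (Fin n) (Fin n) F) - 1 with hNa
    set Nb : Matrix (Fin n) (Fin n) F := (b : Matrix (Fin n) (Fin n) F) - 1 with hNb
    set ℓ := Na.rank with hℓ
    have hℓa : finrank F (LinearMap.range Na.mulVecLin) = ℓ := rfl
    have hℓb : finrank F (LinearMap.range Nb.mulVecLin) = ℓ := hrank.symm
    have hdim : finrank F (Fin n → F) = n := by simp
    have h2ℓ := two_rank_le Na.mulVecLin (sq_zero_lin a ha)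
    rw [hℓa, hdim] at h2ℓ
    obtain ⟨m, hm⟩ : ∃ m, n = ℓ + ℓ + m := ⟨n - (ℓ + ℓ), by omega⟩
    have hdim' : finrank F (Fin n → F) = ℓ + ℓ + m := by rw [hdim]; exact hm
    obtain ⟨Ba, hBa1, hBa2⟩ := exists_basis Na.mulVecLin (sq_zero_lin a ha) ℓ m hℓa hdim'
    obtain ⟨Bb0, hBb1, hBb2⟩ := exists_basis Nb.mulVecLin (sq_zero_lin b hb) ℓ m hℓb hdim'
    have hpos : 0 < ℓ := rank_pos a ha
    -- normalising the determinant
    set δ : F := Ba.det Bb0 with hδ
    have hδ0 : δ ≠ 0 := by
      have h1 : IsUnit δ := (Ba.isUnit_det Bb0)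
      exact h1.ne_zero
    have hchar : ringChar F = 2 := ringChar.eq F 2
    obtain ⟨c, hc⟩ := FiniteField.isSquare_of_char_two hchar δ⁻¹
    have hc0 : c ≠ 0 := by
      rintro rfl
      rw [mul_zero] at hc
      exact inv_ne_zero hδ0 hc
    obtain ⟨Bb, hBb1', hBb2', hBbdet⟩ := exists_basis_det_eq Nb.mulVecLin ℓ m Bb0 hBb1 hBb2
      ⟨0, hpos⟩ c hc0 Ba (by rw [← hc, mul_inv_cancel₀ hδ0])
    -- the conjugating map
    let g : (Fin n → F) ≃ₗ[F] (Fin n → F) := Ba.equiv Bb (Equiv.refl _)
    have hgB : ∀ x, g (Ba x) = Bb x := fun x => by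
      simp [g]
    have hgdet : LinearMap.det (g : (Fin n → F) →ₗ[F] (Fin n → F)) = 1 := by
      have h1 := Ba.det_comp (g : (Fin n → F) →ₗ[F] (Fin n → F)) Ba
      have h2 : (g : (Fin n → F) →ₗ[F] (Fin n → F)) ∘ Ba = Bb := by
        funext x
        exact hgB x
      rw [h2, hBbdet, Ba.det_self, mul_one] at h1
      exact h1.symm
    have hgc : ∀ v, g (Na.mulVecLin v) = Nb.mulVecLin (g v) := by
      intro v
      have h1 : (g : (Fin n → F) →ₗ[F] (Fin n → F)) ∘ₗ Na.mulVecLin =
          Nb.mulVecLin ∘ₗ (g : (Fin n → F) →ₗ[F] (Fin n → F)) := by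
        apply Ba.ext
        rintro (i | i)
        · simp only [LinearMap.comp_apply, LinearEquiv.coe_coe]
          rw [hBa1, hgB, hgB, hBb1']
        · simp only [LinearMap.comp_apply, LinearEquiv.coe_coe]
          rw [hBa2, map_zero, hgB, hBb2']
      exact LinearMap.congr_fun h1 v
    set M : Matrix (Fin n) (Fin n) F := LinearMap.toMatrix' (g : (Fin n → F) →ₗ[F] (Fin n → F))
      with hM
    have hMv : ∀ v, M.mulVec v = g v := by
      intro v
      rw [hM, LinearMap.toMatrix'_mulVec]
      rfl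
    have hMdet : M.det = 1 := by
      rw [hM, LinearMap.det_toMatrix', hgdet]
    have hMN : M * Na = Nb * M := by
      rw [Matrix.ext_iff_mulVec]
      intro v
      rw [← Matrix.mulVec_mulVec, ← Matrix.mulVec_mulVec, hMv, hMv]
      exact hgc v
    have hMab : M * (a : Matrix (Fin n) (Fin n) F) = (b : Matrix (Fin n) (Fin n) F) * M := by
      have h1 : M * Na = M * (a : Matrix (Fin n) (Fin n) F) - M := by
        rw [hNa, mul_sub, mul_one]
      have h2 : Nb * M = (b : Matrix (Fin n) (Fin n) F) * M - M := by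
        rw [hNb, sub_mul, one_mul]
      rw [h1, h2] at hMN
      exact sub_left_injective hMN
    let s : Matrix.SpecialLinearGroup (Fin n) F := ⟨M, hMdet⟩
    rw [isConj_iff]
    refine ⟨s, ?_⟩
    have h3 : s * a = b * s := Subtype.ext hMab
    rw [h3, mul_inv_cancel_right]

end Cfsg.Agent.S2162
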