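import Cfsg.Statements.S2163
import Mathlib
import Cfsg.Agent.Lib.Linalg.RankCols
-- import your own Cfsg.Agent.* helpers here

set_option autoImplicit false
open Cfsg

namespace Cfsg.Agent.S2163

/-- Over a finite field of characteristic two and for n ≥ 3: for every ℓ with 1 ≤ ℓ and 2ℓ ≤ n, the matrix j_ℓ that is the identity plus the entries 1 in positions (n − ℓ + i, i) for i < ℓ (an identity block of size ℓ in the lower left corner) lies in SL_n(F), has order 2, and j_ℓ − 1 has rank ℓ. Together with the conjugacy criterion by rank, these matrices represent the conjugacy classes of involutions of SL_n(F). -/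
theorem result {F : Type*} [Field F] [Fintype F] [CharP F 2] {n : ℕ} (hn : 3 ≤ n) (ℓ : ℕ) (h1 : 1 ≤ ℓ) (h2 : 2 * ℓ ≤ n) :
    ∃ a : Matrix.SpecialLinearGroup (Fin n) F, (a : Matrix (Fin n) (Fin n) F) = 1 + Matrix.of (fun i j : Fin n => if j.val < ℓ ∧ i.val = j.val + (n - ℓ) then (1 : F) else 0) ∧ orderOf a = 2 ∧ ((a : Matrix (Fin n) (Fin n) F) - 1).rank = ℓ := by
  classical
  set N : Matrix (Fin n) (Fin n) F :=
    Matrix.of (fun i j : Fin n => if j.val < ℓ ∧ i.val = j.val + (n - ℓ) then (1 : F) else 0)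
    with hN
  have hNa : ∀ i j, N i j = if j.val < ℓ ∧ i.val = j.val + (n - ℓ) then (1 : F) else 0 :=
    fun i j => rfl
  have hNN : N * N = 0 := by
    ext i k
    rw [Matrix.mul_apply, Matrix.zero_apply]
    apply Finset.sum_eq_zero
    intro j _
    rw [hNa, hNa]
    by_cases h3 : j.val < ℓ ∧ i.val = j.val + (n - ℓ)
    · have : ¬ (k.val < ℓ ∧ j.val = k.val + (n - ℓ)) := by
        rintro ⟨_, h5⟩
        omega
      rw [if_neg this, mul_zero]
    · rw [if_neg h3, zero_mul]
  have hdet : (1 + N).det = 1 := by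
    rw [Matrix.det_of_lowerTriangular]
    · apply Finset.prod_eq_one
      intro i _
      rw [Matrix.add_apply, Matrix.one_apply_eq, hNa, if_neg, add_zero]
      rintro ⟨_, h5⟩
      omega
    · intro i j hij
      have hij' : i < j := hij
      have hij'' : i.val < j.val := hij'
      rw [Matrix.add_apply, Matrix.one_apply_ne (ne_of_lt hij'), hNa, if_neg, add_zero]
      rintro ⟨_, h5⟩
      omega
  have h2' : (2 : F) = 0 := CharTwo.two_eq_zero
  set a : Matrix.SpecialLinearGroup (Fin n) F := ⟨1 + N, hdet⟩ with ha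
  have ha_coe : (a : Matrix (Fin n) (Fin n) F) = 1 + N := rfl
  have hsq : a ^ 2 = 1 := by
    apply Subtype.ext
    rw [pow_two]
    change (1 + N) * (1 + N) = 1
    have h5 : (1 + N) * (1 + N) = 1 + (N + N) + N * N := by noncomm_ring
    have h6 : N + N = 0 := by
      ext i j
      exact CharTwo.add_self_eq_zero _
    rw [h5, hNN, h6, add_zero, add_zero]
  have hi0 : n - ℓ < n := by omega
  have hj0 : 0 < n := by omega
  have hNne : N ⟨n - ℓ, hi0⟩ ⟨0, hj0⟩ = 1 := by
    rw [hNa, if_pos]
    refine ⟨?_, by simp⟩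
    change 0 < ℓ
    omega
  have hne1 : a ≠ 1 := by
    intro h
    have h5 : (a : Matrix (Fin n) (Fin n) F) = 1 := by
      rw [h]; rfl
    rw [ha_coe] at h5
    have h6 : N = 0 := by simpa using h5
    rw [h6] at hNne
    simp at hNne
  refine ⟨a, rfl, orderOf_eq_prime hsq hne1, ?_⟩
  rw [ha_coe, add_sub_cancel_left]
  -- the rank
  have hlt : ∀ j : Fin ℓ, j.val + (n - ℓ) < n := fun j => by
    have := j.2
    omega
  have hlt0 : ∀ j : Fin ℓ, j.val < n := fun j => by
    have := j.2
    omega
  let f : Fin ℓ → Fin n := fun j => ⟨j.val + (n - ℓ), hlt j⟩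
  have hf : Function.Injective f := by
    intro x y hxy
    have h5 : x.val + (n - ℓ) = y.val + (n - ℓ) := congrArg Fin.val hxy
    apply Fin.ext
    omega
  have hv : LinearIndependent F (fun j : Fin ℓ => (Pi.single (f j) 1 : Fin n → F)) := by
    have := (Pi.basisFun F (Fin n)).linearIndependent.comp f hf
    convert this using 1
    funext j
    simp [Function.comp]
  have hcol : ∀ c : Fin ℓ, N.col ⟨c.val, hlt0 c⟩ = Pi.single (f c) 1 := by
    intro c
    funext i
    rw [Matrix.col_apply, hNa]
    by_cases hi : i = f c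
    · subst hi
      rw [if_pos ⟨c.2, rfl⟩]
      simp
    · rw [if_neg, Pi.single_eq_of_ne hi]
      rintro ⟨_, h5⟩
      apply hi
      apply Fin.ext
      exact h5
  have := Cfsg.Agent.Lib.Linalg.RankCols.rank_eq_of_cols N _ hv ?_ ?_
  · simpa using this
  · intro j
    by_cases hj : j.val < ℓ
    · have h5 := hcol ⟨j.val, hj⟩
      have h6 : N.col j = Pi.single (f ⟨j.val, hj⟩) 1 := h5
      rw [h6]
      exact Submodule.subset_span ⟨⟨j.val, hj⟩, rfl⟩
    · have h6 : N.col j = 0 := by
        funext i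
        rw [Matrix.col_apply, hNa, if_neg]
        · rfl
        · rintro ⟨h7, _⟩
          exact hj h7
      rw [h6]
      exact Submodule.zero_mem _
  · intro c
    rw [← hcol c]
    exact Submodule.subset_span ⟨_, rfl⟩

end Cfsg.Agent.S2163
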