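import Cfsg.Statements.S2164
import Mathlib
import Cfsg.Agent.Lib.Classical.Herm.InvolChar2
import Cfsg.Agent.S2162


set_option autoImplicit false
open Cfsg

namespace Cfsg.Agent.S2164

/-- Conjugacy of involutions in the special unitary group SU_n(q), q even, n ≥ 3, realised over the field F with q² elements as the matrices of determinant 1 preserving the form Σ u_i v_i^q: for two elements of order 2 of SU_n(q) the following are equivalent — they are conjugate in SU_n(q); they are conjugate in SL_n(F); the matrices a − 1 and b − 1 have the same rank. -/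
theorem result {F : Type*} [Field F] [Fintype F] [CharP F 2] {n q : ℕ} (hF : Fintype.card F = q ^ 2) (hn : 3 ≤ n) (a b : ↥(Cfsg.SU n F q)) (ha : orderOf a = 2) (hb : orderOf b = 2) :
    (IsConj a b ↔ IsConj (a : Matrix.SpecialLinearGroup (Fin n) F) (b : Matrix.SpecialLinearGroup (Fin n) F)) ∧
    (IsConj a b ↔ (((a : Matrix.SpecialLinearGroup (Fin n) F) : Matrix (Fin n) (Fin n) F) - 1).rank = (((b : Matrix.SpecialLinearGroup (Fin n) F) : Matrix (Fin n) (Fin n) F) - 1).rank) := by
  have hsq : ∀ x : ↥(Cfsg.SU n F q), orderOf x = 2 → x * x = 1 := fun x hx => by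
    rw [← pow_two, ← hx, pow_orderOf_eq_one]
  have hne : a ≠ 1 := by
    rintro rfl
    rw [orderOf_one] at ha
    omega
  have ha' : orderOf (a : Matrix.SpecialLinearGroup (Fin n) F) = 2 := by
    rw [Subgroup.orderOf_coe, ha]
  have hb' : orderOf (b : Matrix.SpecialLinearGroup (Fin n) F) = 2 := by
    rw [Subgroup.orderOf_coe, hb]
  have h1 : IsConj a b → IsConj (a : Matrix.SpecialLinearGroup (Fin n) F) (b : Matrix.SpecialLinearGroup (Fin n) F) := fun h =>
    MonoidHom.map_isConj (Cfsg.SU n F q).subtype h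
  have h2 := Cfsg.Agent.S2162.result hn (a : Matrix.SpecialLinearGroup (Fin n) F) (b : Matrix.SpecialLinearGroup (Fin n) F) ha' hb'
  have h3 := Cfsg.Agent.Lib.Classical.Herm.InvolChar2.isConj_of_rank_eq hF (hsq a ha) (hsq b hb) hne
  exact ⟨⟨h1, fun h => h3 (h2.1 h)⟩, ⟨fun h => h2.1 (h1 h), h3⟩⟩

end Cfsg.Agent.S2164
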