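import Cfsg.Statements.S2165
import Mathlib
import Cfsg.Agent.Lib.Linalg.RankCols
-- import your own Cfsg.Agent.* helpers here

set_option autoImplicit false
open Cfsg

namespace Cfsg.Agent.S2165

/-- The involution exchanging `i` and `n - ℓ + i` for `i < ℓ`. -/
def piFun (n ℓ : ℕ) (h2 : 2 * ℓ ≤ n) (j : Fin n) : Fin n :=
  if h : j.val < ℓ then ⟨j.val + (n - ℓ), by omega⟩
  else if h' : n - ℓ ≤ j.val then ⟨j.val - (n - ℓ), by omega⟩ else j

theorem piFun_val (n ℓ : ℕ) (h2 : 2 * ℓ ≤ n) (j : Fin n) :
    (piFun n ℓ h2 j).val = if j.val < ℓ then j.val + (n - ℓ)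
      else if n - ℓ ≤ j.val then j.val - (n - ℓ) else j.val := by
  unfold piFun
  split_ifs <;> rfl

theorem piFun_invol (n ℓ : ℕ) (h1 : 1 ≤ ℓ) (h2 : 2 * ℓ ≤ n) :
    Function.Involutive (piFun n ℓ h2) := by
  intro j
  apply Fin.ext
  rw [piFun_val, piFun_val]
  have := j.2
  split_ifs <;> omega

theorem cond_iff (n ℓ : ℕ) (h1 : 1 ≤ ℓ) (h2 : 2 * ℓ ≤ n) (i j : Fin n) :
    ((j.val < ℓ ∧ i.val = j.val + (n - ℓ)) ∨ (i.val < ℓ ∧ j.val = i.val + (n - ℓ)) ∨
      (i = j ∧ ℓ ≤ i.val ∧ i.val < n - ℓ)) ↔ piFun n ℓ h2 j = i := by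
  rw [Fin.ext_iff (a := i) (b := j), Fin.ext_iff (a := piFun n ℓ h2 j) (b := i), piFun_val]
  have := j.2
  have := i.2
  split_ifs <;> omega

/-- In SU_n(q), q even, n ≥ 3 (matrices of determinant 1 over the field with q² elements preserving Σ u_i v_i^q): for every ℓ with 1 ≤ ℓ and 2ℓ ≤ n, the permutation matrix of the involution of {0, …, n−1} exchanging i and n − ℓ + i for each i < ℓ lies in SU_n(q), has order 2, and differs from the identity by a matrix of rank ℓ. So every rank between 1 and n/2 occurs for involutions of SU_n(q). -/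
theorem result {F : Type*} [Field F] [Fintype F] [CharP F 2] {n q : ℕ} (hF : Fintype.card F = q ^ 2) (hn : 3 ≤ n) (ℓ : ℕ) (h1 : 1 ≤ ℓ) (h2 : 2 * ℓ ≤ n) :
    ∃ a : ↥(Cfsg.SU n F q), (((a : Matrix.SpecialLinearGroup (Fin n) F) : Matrix (Fin n) (Fin n) F) = Matrix.of (fun i j : Fin n => if (j.val < ℓ ∧ i.val = j.val + (n - ℓ)) ∨ (i.val < ℓ ∧ j.val = i.val + (n - ℓ)) ∨ (i = j ∧ ℓ ≤ i.val ∧ i.val < n - ℓ) then (1 : F) else 0)) ∧ orderOf a = 2 ∧ ((((a : Matrix.SpecialLinearGroup (Fin n) F) : Matrix (Fin n) (Fin n) F)) - 1).rank = ℓ := by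
  classical
  set π : Equiv.Perm (Fin n) := (piFun_invol n ℓ h1 h2).toPerm with hπ
  have hπa : ∀ j, π j = piFun n ℓ h2 j := fun j => rfl
  have hππ : ∀ j, π (π j) = j := piFun_invol n ℓ h1 h2
  set P : Matrix (Fin n) (Fin n) F := Matrix.of (fun i j : Fin n => if (j.val < ℓ ∧ i.val = j.val + (n - ℓ)) ∨ (i.val < ℓ ∧ j.val = i.val + (n - ℓ)) ∨ (i = j ∧ ℓ ≤ i.val ∧ i.val < n - ℓ) then (1 : F) else 0) with hP
  have hPa : ∀ i j, P i j = if π j = i then (1 : F) else 0 := by
    intro i j
    simp only [hP, Matrix.of_apply, cond_iff n ℓ h1 h2 i j, hπa]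
  have hPperm : P = π.permMatrix F := by
    ext i j
    rw [hPa, Equiv.Perm.permMatrix, PEquiv.toMatrix_apply]
    simp only [Equiv.toPEquiv_apply, Option.mem_def, Option.some.injEq]
    by_cases h : π j = i
    · rw [if_pos h, if_pos]
      rw [← h, hππ]
    · rw [if_neg h, if_neg]
      intro h'
      apply h
      rw [← h', hππ]
  have hdet : P.det = 1 := by
    rw [hPperm, Matrix.det_permutation]
    rcases Int.units_eq_one_or (Equiv.Perm.sign π) with h | h
    · rw [h]; simp
    · rw [h]; simp [CharTwo.neg_eq]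
  have hmv : ∀ (u : Fin n → F) (i : Fin n), (P.mulVec u) i = u (π i) := by
    intro u i
    change ∑ j, P i j * u j = _
    rw [Finset.sum_eq_single (π i)]
    · rw [hPa, if_pos (hππ i), one_mul]
    · intro j _ hj
      rw [hPa, if_neg, zero_mul]
      intro h
      apply hj
      rw [← h, hππ]
    · simp
  set a0 : Matrix.SpecialLinearGroup (Fin n) F := ⟨P, hdet⟩ with ha0
  have ha0mem : a0 ∈ Cfsg.SU n F q := by
    intro u v
    change Cfsg.hermForm n F q (P.mulVec u) (P.mulVec v) = Cfsg.hermForm n F q u v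
    unfold Cfsg.hermForm
    simp only [hmv]
    exact Equiv.sum_comp π (fun i => u i * v i ^ q)
  set a : ↥(Cfsg.SU n F q) := ⟨a0, ha0mem⟩ with ha
  have hPP : P * P = 1 := by
    ext i k
    rw [Matrix.mul_apply, Finset.sum_eq_single (π k)]
    · rw [hPa, hPa, if_pos rfl, mul_one, hππ, Matrix.one_apply]
      by_cases h : i = k
      · rw [if_pos h, if_pos h.symm]
      · rw [if_neg h, if_neg (Ne.symm h)]
    · intro j _ hj
      rw [hPa j k, if_neg (Ne.symm hj), mul_zero]
    · simp
  have hsq : a ^ 2 = 1 := by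
    apply Subtype.ext
    apply Subtype.ext
    rw [pow_two]
    exact hPP
  have hn0 : 0 < n := by omega
  have hne1 : a ≠ 1 := by
    intro h
    have h5 : P = 1 := by
      have := congrArg (fun x : ↥(Cfsg.SU n F q) =>
        ((x : Matrix.SpecialLinearGroup (Fin n) F) : Matrix (Fin n) (Fin n) F)) h
      exact this
    have h6 := congrFun (congrFun h5 ⟨0, hn0⟩) ⟨0, hn0⟩
    rw [hPa, Matrix.one_apply_eq, if_neg] at h6
    · exact zero_ne_one h6
    · intro h7
      have h8 : (π ⟨0, hn0⟩).val = 0 := congrArg Fin.val h7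
      rw [hπa] at h8
      unfold piFun at h8
      simp only at h8
      rw [dif_pos (by omega)] at h8
      simp only at h8
      omega
  refine ⟨a, rfl, orderOf_eq_prime hsq hne1, ?_⟩
  change (P - 1).rank = ℓ
  -- the rank
  have hlt0 : ∀ j : Fin ℓ, j.val < n := fun j => by
    have := j.2
    omega
  let f : Fin ℓ → Fin n := fun j => ⟨j.val, hlt0 j⟩
  let w : Fin ℓ → (Fin n → F) := fun j => (P - 1).col (f j)
  have hcolP : ∀ c i, (P - 1).col c i =
      (if π c = i then (1 : F) else 0) - (if c = i then 1 else 0) := by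
    intro c i
    rw [Matrix.col_apply, Matrix.sub_apply, hPa, Matrix.one_apply]
    by_cases h : i = c
    · subst h; simp
    · rw [if_neg h, if_neg (Ne.symm h)]
  have hπf : ∀ j : Fin ℓ, (π (f j)).val = j.val + (n - ℓ) := by
    intro j
    rw [hπa]
    unfold piFun
    rw [dif_pos j.2]
  have hw1 : ∀ j : Fin ℓ, w j (f j) = -1 := by
    intro j
    simp only [w]
    rw [hcolP, if_neg, if_pos rfl, zero_sub]
    intro h6
    have h7 : (π (f j)).val = (f j).val := congrArg Fin.val h6
    rw [hπf] at h7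
    have h8 : (f j).val = j.val := rfl
    have := j.2
    omega
  have hw0 : ∀ b j : Fin ℓ, b ≠ j → w b (f j) = 0 := by
    intro b j hb
    simp only [w]
    rw [hcolP, if_neg, if_neg, sub_zero]
    · intro h6
      apply hb
      apply Fin.ext
      have h7 : (f b).val = (f j).val := congrArg Fin.val h6
      exact h7
    · intro h6
      have h7 : (π (f b)).val = (f j).val := congrArg Fin.val h6
      rw [hπf] at h7
      have h8 : (f j).val = j.val := rfl
      have := b.2
      have := j.2
      omega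
  have hv : LinearIndependent F w := by
    rw [Fintype.linearIndependent_iff]
    intro g hg j
    have h5 := congrFun hg (f j)
    simp only [Finset.sum_apply, Pi.smul_apply, smul_eq_mul, Pi.zero_apply] at h5
    rw [Finset.sum_eq_single j (fun b _ hb => by rw [hw0 b j hb, mul_zero]) (by simp), hw1] at h5
    simpa using h5
  have := Cfsg.Agent.Lib.Linalg.RankCols.rank_eq_of_cols (P - 1) w hv ?_ ?_
  · simpa using this
  · intro j
    by_cases hj : j.val < ℓ
    · exact Submodule.subset_span ⟨⟨j.val, hj⟩, rfl⟩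
    · by_cases hj2 : n - ℓ ≤ j.val
      · -- `col j = - col (π j)`
        have hk : j.val - (n - ℓ) < ℓ := by
          have := j.2
          omega
        have hπj : (π j).val = j.val - (n - ℓ) := by
          rw [hπa]
          unfold piFun
          rw [dif_neg hj, dif_pos hj2]
        have h6 : (P - 1).col j = -(w ⟨j.val - (n - ℓ), hk⟩) := by
          funext i
          have h7 : f ⟨j.val - (n - ℓ), hk⟩ = π j := by
            apply Fin.ext
            exact hπj.symm
          simp only [w, h7, hcolP, Pi.neg_apply, hππ]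
          ring
        rw [h6]
        exact Submodule.neg_mem _ (Submodule.subset_span ⟨_, rfl⟩)
      · have hπj : π j = j := by
          apply Fin.ext
          rw [hπa]
          unfold piFun
          rw [dif_neg hj, dif_neg hj2]
        have h6 : (P - 1).col j = 0 := by
          funext i
          rw [hcolP, hπj]
          simp
        rw [h6]
        exact Submodule.zero_mem _
  · intro c
    exact Submodule.subset_span ⟨_, rfl⟩

end Cfsg.Agent.S2165
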