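import Cfsg.Statements.S2166
import Mathlib
import Cfsg.Agent.Lib.Classical.Symp.InvolChar2Mat

set_option autoImplicit false
open Cfsg

namespace Cfsg.Agent.S2166

/-- Conjugacy of involutions in the symplectic group Sp_{2m}(F), F a finite field of characteristic two, m ≥ 2 (Sp taken as the matrices A with A J Aᵀ = J, acting on column vectors, with the alternating form f(u, v) = u ⬝ (J v)). For an involution t write V(t) for the set of vectors v with f(v, t v) = 0 (a subspace). Two involutions a, b are conjugate in Sp_{2m}(F) exactly when a − 1 and b − 1 have the same rank and, in case that rank is even, V(a) and V(b) have the same number of elements. -/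
theorem result {F : Type*} [Field F] [Fintype F] [CharP F 2] {m : ℕ} (hm : 2 ≤ m) (a b : ↥(Matrix.symplecticGroup (Fin m) F)) (ha : orderOf a = 2) (hb : orderOf b = 2) :
    IsConj a b ↔ ((((a : ↥(Matrix.symplecticGroup (Fin m) F)) : Matrix (Fin m ⊕ Fin m) (Fin m ⊕ Fin m) F) - 1).rank = (((b : ↥(Matrix.symplecticGroup (Fin m) F)) : Matrix (Fin m ⊕ Fin m) (Fin m ⊕ Fin m) F) - 1).rank ∧
      (Even (((a : ↥(Matrix.symplecticGroup (Fin m) F)) : Matrix (Fin m ⊕ Fin m) (Fin m ⊕ Fin m) F) - 1).rank → Nat.card {v : Fin m ⊕ Fin m → F // Cfsg.sympForm m F v (Matrix.mulVec ((a : ↥(Matrix.symplecticGroup (Fin m) F)) : Matrix (Fin m ⊕ Fin m) (Fin m ⊕ Fin m) F) v) = 0} = Nat.card {v : Fin m ⊕ Fin m → F // Cfsg.sympForm m F v (Matrix.mulVec ((b : ↥(Matrix.symplecticGroup (Fin m) F)) : Matrix (Fin m ⊕ Fin m) (Fin m ⊕ Fin m) F) v) = 0})) := by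
  classical
  have hsq : ∀ c : ↥(Matrix.symplecticGroup (Fin m) F), orderOf c = 2 → (c : Matrix (Fin m ⊕ Fin m) (Fin m ⊕ Fin m) F) * c = 1 := by
    intro c hc
    have h1 : c ^ orderOf c = 1 := pow_orderOf_eq_one c
    rw [hc, pow_two] at h1
    exact congrArg Subtype.val h1
  constructor
  · intro h
    refine ⟨Cfsg.Agent.Lib.Classical.Symp.InvolChar2Mat.rank_eq_of_isConj h, fun _ => ?_⟩
    obtain ⟨c, rfl⟩ := isConj_iff.1 h
    have hci : ∀ v, ((c⁻¹ : ↥(Matrix.symplecticGroup (Fin m) F)) : Matrix (Fin m ⊕ Fin m) (Fin m ⊕ Fin m) F).mulVec ((c : Matrix (Fin m ⊕ Fin m) (Fin m ⊕ Fin m) F).mulVec v) = v := by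
      intro v
      rw [Matrix.mulVec_mulVec]
      have h1 : ((c⁻¹ : ↥(Matrix.symplecticGroup (Fin m) F)) : Matrix (Fin m ⊕ Fin m) (Fin m ⊕ Fin m) F) * (c : Matrix (Fin m ⊕ Fin m) (Fin m ⊕ Fin m) F) = 1 :=
        congrArg Subtype.val (inv_mul_cancel c)
      rw [h1, Matrix.one_mulVec]
    have hic : ∀ v, (c : Matrix (Fin m ⊕ Fin m) (Fin m ⊕ Fin m) F).mulVec (((c⁻¹ : ↥(Matrix.symplecticGroup (Fin m) F)) : Matrix (Fin m ⊕ Fin m) (Fin m ⊕ Fin m) F).mulVec v) = v := by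
      intro v
      rw [Matrix.mulVec_mulVec]
      have h1 : (c : Matrix (Fin m ⊕ Fin m) (Fin m ⊕ Fin m) F) * ((c⁻¹ : ↥(Matrix.symplecticGroup (Fin m) F)) : Matrix (Fin m ⊕ Fin m) (Fin m ⊕ Fin m) F) = 1 :=
        congrArg Subtype.val (mul_inv_cancel c)
      rw [h1, Matrix.one_mulVec]
    let e : (Fin m ⊕ Fin m → F) ≃ (Fin m ⊕ Fin m → F) :=
      { toFun := fun v => (c : Matrix (Fin m ⊕ Fin m) (Fin m ⊕ Fin m) F).mulVec v
        invFun := fun v => ((c⁻¹ : ↥(Matrix.symplecticGroup (Fin m) F)) : Matrix (Fin m ⊕ Fin m) (Fin m ⊕ Fin m) F).mulVec v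
        left_inv := hci
        right_inv := hic }
    apply Nat.card_congr
    refine Equiv.subtypeEquiv e (fun v => ?_)
    have hiso := Cfsg.Agent.Lib.Classical.Symp.Basic.mem_symplecticGroup_iff_forall.1 c.2
    change _ ↔ Cfsg.sympForm m F ((c : Matrix (Fin m ⊕ Fin m) (Fin m ⊕ Fin m) F).mulVec v) (((c * a * c⁻¹ : ↥(Matrix.symplecticGroup (Fin m) F)) : Matrix (Fin m ⊕ Fin m) (Fin m ⊕ Fin m) F).mulVec ((c : Matrix (Fin m ⊕ Fin m) (Fin m ⊕ Fin m) F).mulVec v)) = 0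
    have e1 : ((c * a * c⁻¹ : ↥(Matrix.symplecticGroup (Fin m) F)) : Matrix (Fin m ⊕ Fin m) (Fin m ⊕ Fin m) F).mulVec ((c : Matrix (Fin m ⊕ Fin m) (Fin m ⊕ Fin m) F).mulVec v) = (c : Matrix (Fin m ⊕ Fin m) (Fin m ⊕ Fin m) F).mulVec ((a : Matrix (Fin m ⊕ Fin m) (Fin m ⊕ Fin m) F).mulVec v) := by
      have : ((c * a * c⁻¹ : ↥(Matrix.symplecticGroup (Fin m) F)) : Matrix (Fin m ⊕ Fin m) (Fin m ⊕ Fin m) F) = (c : Matrix (Fin m ⊕ Fin m) (Fin m ⊕ Fin m) F) * (a : Matrix (Fin m ⊕ Fin m) (Fin m ⊕ Fin m) F) * ((c⁻¹ : ↥(Matrix.symplecticGroup (Fin m) F)) : Matrix (Fin m ⊕ Fin m) (Fin m ⊕ Fin m) F) := rfl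
      rw [this, ← Matrix.mulVec_mulVec, ← Matrix.mulVec_mulVec, hci]
    rw [e1, hiso]
  · rintro ⟨hr, hcard⟩
    apply Cfsg.Agent.Lib.Classical.Symp.InvolChar2Mat.isConj_of_type a b (hsq a ha) (hsq b hb) hr
    have hfull : ∀ c : ↥(Matrix.symplecticGroup (Fin m) F), (∀ x, Cfsg.sympForm m F x ((c : Matrix (Fin m ⊕ Fin m) (Fin m ⊕ Fin m) F).mulVec x) = 0) ↔ Nat.card {v : Fin m ⊕ Fin m → F // Cfsg.sympForm m F v (Matrix.mulVec (c : Matrix (Fin m ⊕ Fin m) (Fin m ⊕ Fin m) F) v) = 0} = Nat.card (Fin m ⊕ Fin m → F) := by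
      intro c
      constructor
      · intro h
        exact Nat.card_congr (Equiv.subtypeUnivEquiv h)
      · intro h x
        have hb := Function.Injective.bijective_of_nat_card_le (Subtype.val_injective (p := fun v : Fin m ⊕ Fin m → F => Cfsg.sympForm m F v (Matrix.mulVec (c : Matrix (Fin m ⊕ Fin m) (Fin m ⊕ Fin m) F) v) = 0)) h.ge
        obtain ⟨⟨y, hy⟩, rfl⟩ := hb.2 x
        exact hy
    have hoddfalse : ∀ c : ↥(Matrix.symplecticGroup (Fin m) F), orderOf c = 2 → (∀ x, Cfsg.sympForm m F x ((c : Matrix (Fin m ⊕ Fin m) (Fin m ⊕ Fin m) F).mulVec x) = 0) → Even ((c : Matrix (Fin m ⊕ Fin m) (Fin m ⊕ Fin m) F) - 1).rank := by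
      intro c hc hx
      rw [Cfsg.Agent.Lib.Classical.Symp.InvolChar2Mat.rank_eq]
      apply Cfsg.Agent.Lib.Classical.Symp.InvolChar2.even_of_alt_type Cfsg.Agent.Lib.Classical.Symp.Basic.sympBilin_nondegenerate Cfsg.Agent.Lib.Classical.Symp.Basic.sympBilin_isAlt
        (Cfsg.Agent.Lib.Classical.Symp.InvolChar2Mat.isSqZeroAdj_nMap c.2 (hsq c hc))
      intro x
      rw [Cfsg.Agent.Lib.Classical.Symp.InvolChar2Mat.sympForm_nMap]
      exact hx x
    by_cases he : Even (((a : ↥(Matrix.symplecticGroup (Fin m) F)) : Matrix (Fin m ⊕ Fin m) (Fin m ⊕ Fin m) F) - 1).rank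
    · rw [hfull a, hfull b, hcard he]
    · constructor
      · intro h
        exact absurd (hoddfalse a ha h) he
      · intro h
        exact absurd (hr ▸ hoddfalse b hb h) he

end Cfsg.Agent.S2166
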