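import Cfsg.Statements.S2167
import Mathlib
import Cfsg.Agent.Lib.Linalg.AltRank
import Cfsg.Agent.Lib.Classical.Symp.SpGL
import Cfsg.Agent.Lib.Classical.Symp.Count
-- import your own Cfsg.Agent.* helpers here

set_option autoImplicit false
open Cfsg

namespace Cfsg.Agent.S2167

/-- For an involution t of the symplectic group Sp_{2m}(F), m ≥ 2, F a finite field of characteristic two (matrices A with A J Aᵀ = J acting on column vectors, alternating form f(u, v) = u ⬝ (J v)): the set V(t) of vectors v with f(v, t v) = 0 has either q^{2m} or q^{2m−1} elements, q the order of F (it is a subspace of codimension at most 1), and if it is the whole space then t − 1 has even rank. -/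
theorem result {F : Type*} [Field F] [Fintype F] [CharP F 2] {m : ℕ} (hm : 2 ≤ m) (a : ↥(Matrix.symplecticGroup (Fin m) F)) (ha : orderOf a = 2) :
    (Nat.card {v : Fin m ⊕ Fin m → F // Cfsg.sympForm m F v (Matrix.mulVec ((a : ↥(Matrix.symplecticGroup (Fin m) F)) : Matrix (Fin m ⊕ Fin m) (Fin m ⊕ Fin m) F) v) = 0} = Fintype.card F ^ (2 * m) ∨ Nat.card {v : Fin m ⊕ Fin m → F // Cfsg.sympForm m F v (Matrix.mulVec ((a : ↥(Matrix.symplecticGroup (Fin m) F)) : Matrix (Fin m ⊕ Fin m) (Fin m ⊕ Fin m) F) v) = 0} * Fintype.card F = Fintype.card F ^ (2 * m)) ∧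
    ((∀ v : Fin m ⊕ Fin m → F, Cfsg.sympForm m F v (Matrix.mulVec ((a : ↥(Matrix.symplecticGroup (Fin m) F)) : Matrix (Fin m ⊕ Fin m) (Fin m ⊕ Fin m) F) v) = 0) → Even (((a : ↥(Matrix.symplecticGroup (Fin m) F)) : Matrix (Fin m ⊕ Fin m) (Fin m ⊕ Fin m) F) - 1).rank) := by
  classical
  set t : Matrix (Fin m ⊕ Fin m) (Fin m ⊕ Fin m) F := (a : Matrix (Fin m ⊕ Fin m) (Fin m ⊕ Fin m) F) with ht
  have hsq : t * t = 1 := by
    have h1 : a ^ orderOf a = 1 := pow_orderOf_eq_one a
    rw [ha, pow_two] at h1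
    exact congrArg Subtype.val h1
  have hiso : ∀ u v, Cfsg.sympForm m F (t.mulVec u) (t.mulVec v) = Cfsg.sympForm m F u v :=
    Cfsg.Agent.Lib.Classical.Symp.Basic.mem_symplecticGroup_iff_forall.mp a.2
  have hsymm : ∀ u v, Cfsg.sympForm m F u v = Cfsg.sympForm m F v u := by
    intro u v
    rw [Cfsg.Agent.Lib.Classical.Symp.SpGL.sympForm_swap, CharTwo.neg_eq]
  let B := Cfsg.Agent.Lib.Classical.Symp.Basic.sympBilin m F
  have hB : ∀ u v, B u v = Cfsg.sympForm m F u v := fun _ _ => rfl
  let φ : (Fin m ⊕ Fin m → F) → F := fun v => Cfsg.sympForm m F v (t.mulVec v)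
  have hadd : ∀ u v, φ (u + v) = φ u + φ v := by
    intro u v
    change Cfsg.sympForm m F (u + v) (t.mulVec (u + v)) = Cfsg.sympForm m F u (t.mulVec u) + Cfsg.sympForm m F v (t.mulVec v)
    simp only [← hB]
    rw [Matrix.mulVec_add, map_add, map_add, LinearMap.add_apply, LinearMap.add_apply]
    have h1 : B v (t.mulVec u) = B u (t.mulVec v) := by
      rw [hB, ← hiso v (t.mulVec u), Matrix.mulVec_mulVec, hsq, Matrix.one_mulVec, hsymm, hB]
    rw [h1]
    have h2 : B u (t.mulVec v) + B u (t.mulVec v) = 0 := CharTwo.add_self_eq_zero _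
    linear_combination h2
  have hsm : ∀ (c : F) v, φ (c • v) = c ^ 2 * φ v := by
    intro c v
    change Cfsg.sympForm m F (c • v) (t.mulVec (c • v)) = c ^ 2 * Cfsg.sympForm m F v (t.mulVec v)
    simp only [← hB]
    rw [Matrix.mulVec_smul, map_smul, map_smul, LinearMap.smul_apply, smul_eq_mul, smul_eq_mul]
    ring
  let Fr : F ≃+* F := frobeniusEquiv F 2
  have hFr : ∀ x, Fr x = x ^ 2 := fun x => by
    change frobenius F 2 x = x ^ 2
    rw [frobenius_def]
  let ψ : (Fin m ⊕ Fin m → F) →ₗ[F] F :=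
    { toFun := fun v => Fr.symm (φ v)
      map_add' := fun u v => by rw [hadd, map_add]
      map_smul' := fun c v => by
        apply Fr.injective
        rw [RingEquiv.apply_symm_apply, hsm, RingHom.id_apply, smul_eq_mul, map_mul, hFr,
          RingEquiv.apply_symm_apply] }
  have hψ : ∀ v, ψ v = 0 ↔ φ v = 0 := by
    intro v
    change Fr.symm (φ v) = 0 ↔ _
    exact map_eq_zero_iff Fr.symm Fr.symm.injective
  constructor
  · have hcard : Nat.card {v : Fin m ⊕ Fin m → F // φ v = 0} = Nat.card (LinearMap.ker ψ) :=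
      Nat.card_congr (Equiv.subtypeEquivRight fun v => by rw [LinearMap.mem_ker, hψ])
    have hq : Nat.card F = Fintype.card F := Nat.card_eq_fintype_card
    have hK := Cfsg.Agent.Lib.Classical.Symp.Count.natCard_eq_pow_finrank F (LinearMap.ker ψ)
    have hdim : Module.finrank F (Fin m ⊕ Fin m → F) = 2 * m := by
      simp [two_mul]
    have hrn := LinearMap.finrank_range_add_finrank_ker ψ
    have hr1 : Module.finrank F (LinearMap.range ψ) ≤ 1 := by
      have := Submodule.finrank_le (LinearMap.range ψ)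
      rwa [Module.finrank_self] at this
    rw [hdim] at hrn
    change Nat.card {v : Fin m ⊕ Fin m → F // φ v = 0} = _ ∨ Nat.card {v : Fin m ⊕ Fin m → F // φ v = 0} * _ = _
    rw [hcard, hK, hq]
    have : Module.finrank F (LinearMap.range ψ) = 0 ∨ Module.finrank F (LinearMap.range ψ) = 1 := by omega
    rcases this with h0 | h1
    · left
      rw [show Module.finrank F (LinearMap.ker ψ) = 2 * m by omega]
    · right
      rw [← pow_succ]
      congr 1
      omega
  · intro hall
    have hJ := Matrix.isUnit_det_J (Fin m) F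
    rw [← Matrix.rank_mul_eq_right_of_isUnit_det _ _ hJ]
    apply Cfsg.Agent.Lib.Linalg.AltRank.even_rank_of_alt
    intro v
    rw [← Matrix.mulVec_mulVec, Matrix.sub_mulVec, Matrix.one_mulVec, Matrix.mulVec_sub, dotProduct_sub]
    have h1 := hall v
    have h2 := Cfsg.Agent.Lib.Classical.Symp.Basic.sympForm_self (m := m) (F := F) v
    simp only [Cfsg.sympForm] at h1 h2
    rw [h1, h2, sub_zero]

end Cfsg.Agent.S2167
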