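import Cfsg.Statements.S2170
import Mathlib
import Cfsg.Agent.Lib.Classical.Witt.InvolChar2
import Cfsg.Agent.Lib.Classical.Orth.Models

set_option autoImplicit false
open Cfsg

namespace Cfsg.Agent.S2170

/-- Involutions in the full isometry group O of the quadratic form Σ x_i y_i + (z₁² + c z₁ z₂ + d z₂²) in dimension 2m with anisotropic binary part over a finite field F of characteristic two, m ≥ 4 (minus type): two elements of order 2 of O are conjugate in O exactly when they are conjugate under the group of all invertible matrices preserving the polar bilinear form (u, v) ↦ Q(u + v) − Q(u) − Q(v) (the symplectic group of that form). -/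
theorem result {F : Type*} [Field F] [Fintype F] [CharP F 2] {m : ℕ} (hm : 4 ≤ m) (c d : F) (hcd : ∀ z₁ z₂ : F, z₁ ^ 2 + c * z₁ * z₂ + d * z₂ ^ 2 = 0 → z₁ = 0 ∧ z₂ = 0) (t s : ↥(Cfsg.isometryGroup F (Cfsg.quadFormMinus (m - 1) F c d))) (ht : orderOf t = 2) (hs : orderOf s = 2) :
    IsConj t s ↔ ∃ g ∈ Cfsg.preserving (Units.coeHom (Matrix ((Fin (m - 1) ⊕ Fin (m - 1)) ⊕ Fin 2) ((Fin (m - 1) ⊕ Fin (m - 1)) ⊕ Fin 2) F)) (fun u v => Cfsg.quadFormMinus (m - 1) F c d (u + v) - Cfsg.quadFormMinus (m - 1) F c d u - Cfsg.quadFormMinus (m - 1) F c d v), g * ((t : ↥(Cfsg.isometryGroup F (Cfsg.quadFormMinus (m - 1) F c d))) : GL ((Fin (m - 1) ⊕ Fin (m - 1)) ⊕ Fin 2) F) * g⁻¹ = ((s : ↥(Cfsg.isometryGroup F (Cfsg.quadFormMinus (m - 1) F c d))) : GL ((Fin (m - 1) ⊕ Fin (m - 1)) ⊕ Fin 2) F) := by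
  revert t s
  rw [← Cfsg.Agent.Lib.Classical.Orth.Models.coe_minusForm (m - 1) F c d]
  intro t s ht hs
  have hsq : ∀ x : ↥(Cfsg.isometryGroup F (⇑(Cfsg.Agent.Lib.Classical.Orth.Models.minusForm (m - 1) F c d))), orderOf x = 2 → x * x = 1 := by
    intro x hx
    have h1 : x ^ orderOf x = 1 := pow_orderOf_eq_one x
    rwa [hx, pow_two] at h1
  exact Cfsg.Agent.Lib.Classical.Witt.InvolChar2.isConj_iff_exists_polar
    (Cfsg.Agent.Lib.Classical.Orth.Models.minusForm_nondegenerate (m - 1) c d hcd) t s (hsq t ht) (hsq s hs)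

end Cfsg.Agent.S2170
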