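import Cfsg.Statements.S2172
import Mathlib
import Cfsg.Agent.Lib.Classical.Witt.InvolChar2Omega

set_option autoImplicit false
open Cfsg

namespace Cfsg.Agent.S2172

/-- Splitting of involution classes from O to Ω for the hyperbolic quadratic form Q = Σ x_i y_i in dimension 2m over a finite field F of characteristic two, m ≥ 4. Let t, s be involutions of the commutator subgroup Ω that are conjugate in the full isometry group O. If it is not the case that t − 1 has rank m and Q(v + t v) = 0 for every vector v, then t and s are conjugate by an element of Ω. If t − 1 has rank m and Q(v + t v) = 0 for all v, then t and s are conjugate by an element of Ω exactly when the intersection of the images of t − 1 and s − 1 has even dimension (so the class of t in O meets at most two classes of Ω). -/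
theorem result {F : Type*} [Field F] [Fintype F] [CharP F 2] {m : ℕ} (hm : 4 ≤ m) (t s : ↥(Cfsg.isometryGroup F (Cfsg.quadFormPlus m F))) (ht : orderOf t = 2) (hs : orderOf s = 2) (htO : t ∈ Cfsg.Omega F (Cfsg.quadFormPlus m F)) (hsO : s ∈ Cfsg.Omega F (Cfsg.quadFormPlus m F)) (hconj : IsConj t s) :
    (¬ (((((t : ↥(Cfsg.isometryGroup F (Cfsg.quadFormPlus m F))) : GL (Fin m ⊕ Fin m) F) : Matrix (Fin m ⊕ Fin m) (Fin m ⊕ Fin m) F) - 1).rank = m ∧ ∀ v : Fin m ⊕ Fin m → F, Cfsg.quadFormPlus m F (v + Matrix.mulVec (((t : ↥(Cfsg.isometryGroup F (Cfsg.quadFormPlus m F))) : GL (Fin m ⊕ Fin m) F) : Matrix (Fin m ⊕ Fin m) (Fin m ⊕ Fin m) F) v) = 0) →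
      ∃ g ∈ Cfsg.Omega F (Cfsg.quadFormPlus m F), g * t * g⁻¹ = s) ∧
    ((((((t : ↥(Cfsg.isometryGroup F (Cfsg.quadFormPlus m F))) : GL (Fin m ⊕ Fin m) F) : Matrix (Fin m ⊕ Fin m) (Fin m ⊕ Fin m) F) - 1).rank = m ∧ ∀ v : Fin m ⊕ Fin m → F, Cfsg.quadFormPlus m F (v + Matrix.mulVec (((t : ↥(Cfsg.isometryGroup F (Cfsg.quadFormPlus m F))) : GL (Fin m ⊕ Fin m) F) : Matrix (Fin m ⊕ Fin m) (Fin m ⊕ Fin m) F) v) = 0) →
      ((∃ g ∈ Cfsg.Omega F (Cfsg.quadFormPlus m F), g * t * g⁻¹ = s) ↔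
        Even (Module.finrank F ↥(LinearMap.range (Matrix.toLin' ((((t : ↥(Cfsg.isometryGroup F (Cfsg.quadFormPlus m F))) : GL (Fin m ⊕ Fin m) F) : Matrix (Fin m ⊕ Fin m) (Fin m ⊕ Fin m) F) - 1)) ⊓ LinearMap.range (Matrix.toLin' ((((s : ↥(Cfsg.isometryGroup F (Cfsg.quadFormPlus m F))) : GL (Fin m ⊕ Fin m) F) : Matrix (Fin m ⊕ Fin m) (Fin m ⊕ Fin m) F) - 1)))))) := by
  revert t s
  rw [← Cfsg.Agent.Lib.Classical.Orth.Models.coe_plusForm m F]
  intro t s ht hs htO hsO hconj
  have hsq : t * t = 1 := by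
    have h1 : t ^ orderOf t = 1 := pow_orderOf_eq_one t
    rwa [ht, pow_two] at h1
  have hnd := Cfsg.Agent.Lib.Classical.Orth.Models.plusForm_nondegenerate (F := F) m
  have hF : (∃ c : F, c ≠ 0 ∧ c ≠ 1) ∨ Fintype.card (Fin m ⊕ Fin m) ≠ 4 := by
    right
    rw [Fintype.card_sum, Fintype.card_fin]
    omega
  constructor
  · intro hno
    obtain ⟨v, hv, hfix⟩ := Cfsg.Agent.Lib.Classical.Witt.InvolChar2Omega.exists_fixed_plus t hsq hno
    obtain ⟨g, hg⟩ := isConj_iff.1 hconj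
    exact Cfsg.Agent.Lib.Classical.Witt.InvolChar2Omega.omega_conj_of_refl hnd hF hg hv hfix
  · rintro ⟨hr, h0⟩
    refine Cfsg.Agent.Lib.Classical.Witt.InvolChar2Omega.omega_conj_iff_even hF hnd (by simp; ring) htO hconj hr ?_
    intro v
    have e : Cfsg.Agent.Lib.Classical.Witt.InvolChar2.nM t v = v + Matrix.mulVec (((t : ↥(Cfsg.isometryGroup F (⇑(Cfsg.Agent.Lib.Classical.Orth.Models.plusForm m F)))) : GL (Fin m ⊕ Fin m) F) : Matrix (Fin m ⊕ Fin m) (Fin m ⊕ Fin m) F) v := by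
      rw [Cfsg.Agent.Lib.Classical.Witt.InvolChar2.nM_apply, add_comm, sub_eq_add_neg]
      congr 1
      ext i
      simp only [Pi.neg_apply]
      have : v i + v i = 0 := by
        rw [← two_mul, Cfsg.Agent.Lib.Classical.Symp.InvolChar2.two_eq_zero' F, zero_mul]
      linear_combination (-1 : F) * this
    rw [e]
    exact h0 v

end Cfsg.Agent.S2172
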