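import Cfsg.Statements.S2173
import Mathlib
import Cfsg.Agent.Lib.Classical.Witt.InvolChar2Omega

set_option autoImplicit false
open Cfsg

namespace Cfsg.Agent.S2173

/-- For the quadratic form Σ x_i y_i + (z₁² + c z₁ z₂ + d z₂²) in dimension 2m with anisotropic binary part over a finite field F of characteristic two, m ≥ 4 (minus type): two involutions of the commutator subgroup Ω that are conjugate in the full isometry group O are conjugate by an element of Ω (no class of involutions of O inside Ω splits). -/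
theorem result {F : Type*} [Field F] [Fintype F] [CharP F 2] {m : ℕ} (hm : 4 ≤ m) (c d : F) (hcd : ∀ z₁ z₂ : F, z₁ ^ 2 + c * z₁ * z₂ + d * z₂ ^ 2 = 0 → z₁ = 0 ∧ z₂ = 0) (t s : ↥(Cfsg.isometryGroup F (Cfsg.quadFormMinus (m - 1) F c d))) (ht : orderOf t = 2) (hs : orderOf s = 2) (htO : t ∈ Cfsg.Omega F (Cfsg.quadFormMinus (m - 1) F c d)) (hsO : s ∈ Cfsg.Omega F (Cfsg.quadFormMinus (m - 1) F c d)) (hconj : IsConj t s) :
    ∃ g ∈ Cfsg.Omega F (Cfsg.quadFormMinus (m - 1) F c d), g * t * g⁻¹ = s := by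
  revert t s
  rw [← Cfsg.Agent.Lib.Classical.Orth.Models.coe_minusForm (m - 1) F c d]
  intro t s ht hs htO hsO hconj
  have hsq : t * t = 1 := by
    have h1 : t ^ orderOf t = 1 := pow_orderOf_eq_one t
    rwa [ht, pow_two] at h1
  obtain ⟨v, hv, hfix⟩ := Cfsg.Agent.Lib.Classical.Witt.InvolChar2Omega.exists_fixed_minus (by omega) hcd t hsq
  obtain ⟨g, hg⟩ := isConj_iff.1 hconj
  refine Cfsg.Agent.Lib.Classical.Witt.InvolChar2Omega.omega_conj_of_refl
    (Cfsg.Agent.Lib.Classical.Orth.Models.minusForm_nondegenerate (m - 1) c d hcd) (Or.inr ?_) hg hv hfix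
  rw [Fintype.card_sum, Fintype.card_sum, Fintype.card_fin, Fintype.card_fin]
  omega

end Cfsg.Agent.S2173
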