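import Cfsg.Statements.S2174
import Cfsg.Agent.Lib.ChevBN.InvMain
import Cfsg.Agent.Lib.ChevBN.InvNFF4

set_option autoImplicit false
open Cfsg

namespace Cfsg.Agent.S2174

open Cfsg.Lie Cfsg.Agent.Lib.ChevBN.Elem Cfsg.Agent.Lib.ChevBN.Table Cfsg.Agent.Lib.ChevBN.Rel
open Cfsg.Agent.Lib.ChevBN.GraphFix Cfsg.Agent.Lib.ChevBN.InvNF Cfsg.Agent.Lib.ChevBN.InvRed
open Cfsg.Agent.Lib.ChevBN.InvMain Cfsg.Agent.Lib.ChevBN.CentTab Cfsg.Agent.Lib.ChevOrder.Chev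
open Cfsg.Agent.Lib.ChevOrder.BNCount Cfsg.Agent.Lib.ChevBN.Pair Cfsg.Agent.Lib.ChevBN.RootCent

/-- The inverse matrix of the torus. -/
def mF4 (j r : ℕ) : ℤ :=
  if (r = 47 ∧ j = 3) ∨ (r = 44 ∧ j = 0) ∨ (r = 39 ∧ j = 1) ∨ (r = 45 ∧ j = 1) ∨ (r = 45 ∧ j = 2) then 1
  else if r = 39 ∧ j = 2 then 2 else 0

theorem hposL : ∀ x ∈ Lib.ChevBN.InvNFF4.posL, chevF4.IsPosRoot x := by decide +kernel

theorem hmemL : ∀ x < chevF4.nroots, chevF4.IsPosRoot x → x ∈ Lib.ChevBN.InvNFF4.posL := by decide +kernel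

theorem hTT (s r : ℕ) (hs : chevF4.IsPosRoot s) (hr : chevF4.IsPosRoot r) :
    Lib.ChevBN.InvNFF4.tt s r = oddT chevF4 s r :=
  Lib.ChevBN.InvNFF4.tt_eq s (hmemL s hs.1 hs) r (hmemL r hr.1 hr)

theorem h0A : ∀ x < chevF4.nroots, chevF4.IsPosRoot x → x ∈ (Lib.ChevBN.InvNFF4.nodes 0).A := by decide +kernel

theorem hrep : ∀ L ∈ Lib.ChevBN.InvNFF4.reps, L.Nodup ∧ (∀ x ∈ L, x < chevF4.nroots) ∧
    ∀ r ∈ L, ∀ r' ∈ L, Ad chevF4 (fun j => mF4 j r') r = if r = r' then 1 else 0 := by decide +kernel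

theorem hact₁ (L : List ℕ) : ∀ s < chevF4.nroots, chevF4.IsPosRoot s → ∀ r ∈ [44, 47], s ≠ r → ∀ c ∈ oddT chevF4 s r,
    c.1 ∈ [44, 47] ∧ c.1 ∉ L := by
  have h : ∀ s < chevF4.nroots, chevF4.IsPosRoot s → ∀ r ∈ [44, 47], s ≠ r → oddT chevF4 s r = [] := by decide +kernel
  intro s hs hp r hr hne c hc
  rw [h s hs hp r hr hne] at hc
  simp at hc

theorem hact₂ : ∀ s < chevF4.nroots, chevF4.IsPosRoot s → ∀ r ∈ [39, 40, 44, 45, 46, 47], s ≠ r → ∀ c ∈ oddT chevF4 s r,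
    c.1 ∈ [39, 40, 44, 45, 46, 47] ∧ c.1 ∉ [39, 45] := by decide +kernel

theorem hcen : ∀ s < chevF4.nroots, chevF4.IsPosRoot s → ∀ r ∈ [47, 44], s = r ∨ oddT chevF4 s r = [] := by decide +kernel

section

variable {F : Type*} [Field F] [CharP F 2] {η : ℕ → ℕ → ℤ} (hR : Sys chevF4 F η) (hT : Tbl chevF4)
include hR hT

/-- The root elements of the central roots are central, and a central element is conjugate to
a representative on the first block only via the Weyl group. -/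
theorem sep₁ {L₁ L₂ : List ℕ} (h1 : L₁.Nodup) (h2 : L₂.Nodup) (h3 : ∀ r ∈ L₁, r ∈ [47, 44]) (h4 : ∀ r ∈ L₂, r ∈ [47, 44])
    {h : GL chevF4.Idx F} (hh : h ∈ chevF4.group F)
    (hc : h * bl hR.toAddRel L₁ (fun _ => (1 : F)) * h⁻¹ = bl hR.toAddRel L₂ (fun _ => (1 : F))) :
    ∃ w : WW (pair hR hT), ∀ r (hr : r ∈ L₂) (hr' : r < chevF4.nroots), ((σW hR hT w ⟨r, hr'⟩ : Fin chevF4.nroots) : ℕ) ∈ L₁ := by
  have e : ∀ r, r ∈ [47, 44] → r ∈ [44, 47] := by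
    intro r hr
    simp only [List.mem_cons, List.not_mem_nil, or_false] at hr ⊢
    tauto
  obtain ⟨w, hw⟩ := sep_central hR hT (Ψ := [44, 47]) (L₁ := L₁) (L₂ := L₂) (by decide) (by decide +kernel)
    (by decide +kernel) (fun s hs => hact₁ L₂ s hs.1 hs) h1 h2 (fun r hr => e r (h3 r hr)) (fun r hr => e r (h4 r hr))
    (fun s hs r hr => hcen s hs.1 hs r (h3 r hr)) hh hc
  exact ⟨w, fun r hr _ => hw r hr⟩

theorem sep₂ {L₁ : List ℕ} (h1 : L₁.Nodup) (h3 : ∀ r ∈ L₁, r ∈ [47, 44])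
    {h : GL chevF4.Idx F} (hh : h ∈ chevF4.group F)
    (hc : h * bl hR.toAddRel L₁ (fun _ => (1 : F)) * h⁻¹ = bl hR.toAddRel [39, 45] (fun _ => (1 : F))) :
    ∃ w : WW (pair hR hT), ∀ r (hr : r ∈ [39, 45]) (hr' : r < chevF4.nroots), ((σW hR hT w ⟨r, hr'⟩ : Fin chevF4.nroots) : ℕ) ∈ L₁ := by
  have e : ∀ r, r ∈ [47, 44] → r ∈ [39, 40, 44, 45, 46, 47] := by
    intro r hr
    simp only [List.mem_cons, List.not_mem_nil, or_false] at hr ⊢
    tauto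
  obtain ⟨w, hw⟩ := sep_central hR hT (Ψ := [39, 40, 44, 45, 46, 47]) (L₁ := L₁) (L₂ := [39, 45]) (by decide) (by decide +kernel)
    (by decide +kernel) (fun s hs => hact₂ s hs.1 hs) h1 (by decide) (fun r hr => e r (h3 r hr)) (by decide)
    (fun s hs r hr => hcen s hs.1 hs r (h3 r hr)) hh hc
  exact ⟨w, fun r hr _ => hw r hr⟩

theorem nc_ab {h : GL chevF4.Idx F} (hh : h ∈ chevF4.group F)
    (hc : h * bl hR.toAddRel [47] (fun _ => (1 : F)) * h⁻¹ = bl hR.toAddRel [44] (fun _ => (1 : F))) : False := by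
  obtain ⟨w, hw⟩ := sep₁ hR hT (by decide) (by decide) (by decide) (by decide) hh hc
  have hlt : 44 < chevF4.nroots := by decide +kernel
  have h1 := hw 44 (by simp) hlt
  have h2 := orb_σW hR hT ct_w.orb_refl w ⟨44, hlt⟩
  have h3 : ((σW hR hT w ⟨44, hlt⟩ : Fin chevF4.nroots) : ℕ) = 47 := by simpa using h1
  rw [h3] at h2
  exact absurd (show orbF4 47 = orbF4 44 from h2) (by decide)

theorem nc_inj {a b : ℕ} (hab : a ≠ b) (w : WW (pair hR hT)) (q : ℕ) (ha : a < chevF4.nroots) (hb : b < chevF4.nroots)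
    (h1 : ((σW hR hT w ⟨a, ha⟩ : Fin chevF4.nroots) : ℕ) = q) (h2 : ((σW hR hT w ⟨b, hb⟩ : Fin chevF4.nroots) : ℕ) = q) : False := by
  have h3 : (σW hR hT w ⟨a, ha⟩ : Fin chevF4.nroots) = σW hR hT w ⟨b, hb⟩ := Fin.ext (h1.trans h2.symm)
  have h4 := (σW hR hT w).injective h3
  exact hab (congrArg Fin.val h4)

theorem nc_ac {r : ℕ} (hr : r = 47 ∨ r = 44) {h : GL chevF4.Idx F} (hh : h ∈ chevF4.group F)
    (hc : h * bl hR.toAddRel [r] (fun _ => (1 : F)) * h⁻¹ = bl hR.toAddRel [47, 44] (fun _ => (1 : F))) : False := by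
  obtain ⟨w, hw⟩ := sep₁ hR hT (L₁ := [r]) (by simp) (by decide) (by rcases hr with rfl | rfl <;> decide) (by decide) hh hc
  have hlt : 44 < chevF4.nroots := by decide +kernel
  have hlt' : 47 < chevF4.nroots := by decide +kernel
  have h1 := hw 44 (by simp) hlt
  have h2 := hw 47 (by simp) hlt'
  exact nc_inj hR hT (a := 44) (b := 47) (by decide) w r hlt hlt' (by simpa using h1) (by simpa using h2)

theorem nc_ad {r : ℕ} (hr : r = 47 ∨ r = 44) {h : GL chevF4.Idx F} (hh : h ∈ chevF4.group F)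
    (hc : h * bl hR.toAddRel [r] (fun _ => (1 : F)) * h⁻¹ = bl hR.toAddRel [39, 45] (fun _ => (1 : F))) : False := by
  obtain ⟨w, hw⟩ := sep₂ hR hT (L₁ := [r]) (by simp) (by rcases hr with rfl | rfl <;> decide) hh hc
  have hlt : 39 < chevF4.nroots := by decide +kernel
  have hlt' : 45 < chevF4.nroots := by decide +kernel
  have h1 := hw 39 (by simp) hlt
  have h2 := hw 45 (by simp) hlt'
  exact nc_inj hR hT (a := 39) (b := 45) (by decide) w r hlt hlt' (by simpa using h1) (by simpa using h2)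

theorem nc_cd {h : GL chevF4.Idx F} (hh : h ∈ chevF4.group F)
    (hc : h * bl hR.toAddRel [47, 44] (fun _ => (1 : F)) * h⁻¹ = bl hR.toAddRel [39, 45] (fun _ => (1 : F))) : False := by
  obtain ⟨w, hw⟩ := sep₂ hR hT (L₁ := [47, 44]) (by decide) (by decide) hh hc
  have hlt : 39 < chevF4.nroots := by decide +kernel
  have hlt' : 45 < chevF4.nroots := by decide +kernel
  have h1 := hw 39 (by simp) hlt
  have h2 := hw 45 (by simp) hlt'
  have o1 := orb_σW hR hT ct_w.orb_refl w ⟨39, hlt⟩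
  have o2 := orb_σW hR hT ct_w.orb_refl w ⟨45, hlt'⟩
  have h3 : ((σW hR hT w ⟨39, hlt⟩ : Fin chevF4.nroots) : ℕ) = 44 := by
    simp only [List.mem_cons, List.not_mem_nil, or_false] at h1
    rcases h1 with h1 | h1
    · rw [h1] at o1
      exact absurd (show orbF4 47 = orbF4 39 from o1) (by decide)
    · exact h1
  have h4 : ((σW hR hT w ⟨45, hlt'⟩ : Fin chevF4.nroots) : ℕ) = 47 := by
    simp only [List.mem_cons, List.not_mem_nil, or_false] at h2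
    rcases h2 with h2 | h2
    · exact h2
    · rw [h2] at o2
      exact absurd (show orbF4 44 = orbF4 45 from o2) (by decide)
  have h5 := Ad_σW hR hT w ⟨39, hlt⟩ ⟨45, hlt'⟩
  rw [h3, h4] at h5
  exact absurd (show Ad chevF4 (cr chevF4 44) 47 = Ad chevF4 (cr chevF4 39) 45 from h5) (by decide +kernel)

end

theorem result {F : Type*} [Field F] [Fintype F] [CharP F 2] :
    (∀ y : GL Cfsg.Lie.chevF4.Idx F, ((y : GL Cfsg.Lie.chevF4.Idx F) : Matrix Cfsg.Lie.chevF4.Idx Cfsg.Lie.chevF4.Idx F) ∈ [Cfsg.Lie.chevF4.x F 47 1, Cfsg.Lie.chevF4.x F 44 1, Cfsg.Lie.chevF4.x F 47 1 * Cfsg.Lie.chevF4.x F 44 1, Cfsg.Lie.chevF4.x F 39 1 * Cfsg.Lie.chevF4.x F 45 1] → y ∈ Cfsg.Lie.chevF4.group F ∧ orderOf y = 2) ∧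
    (∀ g ∈ Cfsg.Lie.chevF4.group F, orderOf g = 2 → ∃ y ∈ Cfsg.Lie.chevF4.group F, ((y : GL Cfsg.Lie.chevF4.Idx F) : Matrix Cfsg.Lie.chevF4.Idx Cfsg.Lie.chevF4.Idx F) ∈ [Cfsg.Lie.chevF4.x F 47 1, Cfsg.Lie.chevF4.x F 44 1, Cfsg.Lie.chevF4.x F 47 1 * Cfsg.Lie.chevF4.x F 44 1, Cfsg.Lie.chevF4.x F 39 1 * Cfsg.Lie.chevF4.x F 45 1] ∧ ∃ h ∈ Cfsg.Lie.chevF4.group F, h * g * h⁻¹ = y) ∧
    (∀ y₁ ∈ Cfsg.Lie.chevF4.group F, ∀ y₂ ∈ Cfsg.Lie.chevF4.group F, ((y₁ : GL Cfsg.Lie.chevF4.Idx F) : Matrix Cfsg.Lie.chevF4.Idx Cfsg.Lie.chevF4.Idx F) ∈ [Cfsg.Lie.chevF4.x F 47 1, Cfsg.Lie.chevF4.x F 44 1, Cfsg.Lie.chevF4.x F 47 1 * Cfsg.Lie.chevF4.x F 44 1, Cfsg.Lie.chevF4.x F 39 1 * Cfsg.Lie.chevF4.x F 45 1] → ((y₂ : GL Cfsg.Lie.chevF4.Idx F) : Matrix Cfsg.Lie.chevF4.Idx Cfsg.Lie.chevF4.Idx F) ∈ [Cfsg.Lie.chevF4.x F 47 1, Cfsg.Lie.chevF4.x F 44 1, Cfsg.Lie.chevF4.x F 47 1 * Cfsg.Lie.chevF4.x F 44 1, Cfsg.Lie.chevF4.x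 F 39 1 * Cfsg.Lie.chevF4.x F 45 1] →
      (∃ h ∈ Cfsg.Lie.chevF4.group F, h * y₁ * h⁻¹ = y₂) → ((y₁ : GL Cfsg.Lie.chevF4.Idx F) : Matrix Cfsg.Lie.chevF4.Idx Cfsg.Lie.chevF4.Idx F) = ((y₂ : GL Cfsg.Lie.chevF4.Idx F) : Matrix Cfsg.Lie.chevF4.Idx Cfsg.Lie.chevF4.Idx F)) := by
  have hR := Cfsg.Agent.Lib.Chevalley.Tbl.F4.sys (F := F)
  have hT := Cfsg.Agent.Lib.ChevBN.FastData.tbl_chevF4
  set ya := bl hR.toAddRel [47] (fun _ => (1 : F)) with hya
  set yb := bl hR.toAddRel [44] (fun _ => (1 : F)) with hyb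
  set yc := bl hR.toAddRel [47, 44] (fun _ => (1 : F)) with hyc
  set yd := bl hR.toAddRel [39, 45] (fun _ => (1 : F)) with hyd
  have ca : (ya : Matrix chevF4.Idx chevF4.Idx F) = chevF4.x F 47 1 := by
    rw [hya]
    simp
  have cb : (yb : Matrix chevF4.Idx chevF4.Idx F) = chevF4.x F 44 1 := by
    rw [hyb]
    simp
  have cc : (yc : Matrix chevF4.Idx chevF4.Idx F) = chevF4.x F 47 1 * chevF4.x F 44 1 := by
    rw [hyc]
    simp
  have cd : (yd : Matrix chevF4.Idx chevF4.Idx F) = chevF4.x F 39 1 * chevF4.x F 45 1 := by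
    rw [hyd]
    simp
  have hmem : ∀ y : GL chevF4.Idx F, ((y : GL chevF4.Idx F) : Matrix chevF4.Idx chevF4.Idx F) ∈
      [chevF4.x F 47 1, chevF4.x F 44 1, chevF4.x F 47 1 * chevF4.x F 44 1, chevF4.x F 39 1 * chevF4.x F 45 1] →
      y = ya ∨ y = yb ∨ y = yc ∨ y = yd := by
    intro y hy
    simp only [List.mem_cons, List.not_mem_nil, or_false] at hy
    rcases hy with hy | hy | hy | hy
    · exact Or.inl (Units.ext (hy.trans ca.symm))
    · exact Or.inr (Or.inl (Units.ext (hy.trans cb.symm)))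
    · exact Or.inr (Or.inr (Or.inl (Units.ext (hy.trans cc.symm))))
    · exact Or.inr (Or.inr (Or.inr (Units.ext (hy.trans cd.symm))))
  have sym : ∀ {x y : GL chevF4.Idx F}, (∀ h ∈ chevF4.group F, h * x * h⁻¹ = y → False) →
      ∀ h ∈ chevF4.group F, h * y * h⁻¹ = x → False := by
    intro x y hn h hh e
    refine hn h⁻¹ (Subgroup.inv_mem _ hh) ?_
    rw [← e]
    group
  have nab : ∀ h ∈ chevF4.group F, h * ya * h⁻¹ = yb → False := fun h hh e => nc_ab hR hT hh e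
  have nac : ∀ h ∈ chevF4.group F, h * ya * h⁻¹ = yc → False := fun h hh e => nc_ac hR hT (Or.inl rfl) hh e
  have nbc : ∀ h ∈ chevF4.group F, h * yb * h⁻¹ = yc → False := fun h hh e => nc_ac hR hT (Or.inr rfl) hh e
  have nad : ∀ h ∈ chevF4.group F, h * ya * h⁻¹ = yd → False := fun h hh e => nc_ad hR hT (Or.inl rfl) hh e
  have nbd : ∀ h ∈ chevF4.group F, h * yb * h⁻¹ = yd → False := fun h hh e => nc_ad hR hT (Or.inr rfl) hh e
  have ncd : ∀ h ∈ chevF4.group F, h * yc * h⁻¹ = yd → False := fun h hh e => nc_cd hR hT hh e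
  refine ⟨?_, ?_, ?_⟩
  · intro y hy
    rcases hmem y hy with rfl | rfl | rfl | rfl
    · exact ⟨bl_mem_G hR hT (by decide +kernel) _, rep_order hR hT (by decide) (by decide +kernel) (by decide +kernel) (by decide)⟩
    · exact ⟨bl_mem_G hR hT (by decide +kernel) _, rep_order hR hT (by decide) (by decide +kernel) (by decide +kernel) (by decide)⟩
    · exact ⟨bl_mem_G hR hT (by decide +kernel) _, rep_order hR hT (by decide) (by decide +kernel) (by decide +kernel) (by decide)⟩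
    · exact ⟨bl_mem_G hR hT (by decide +kernel) _, rep_order hR hT (by decide) (by decide +kernel) (by decide +kernel) (by decide)⟩
  · intro g hg h2
    obtain ⟨L, hL, h, hh, e⟩ := inv_conj_rep hR hT hTT hposL Lib.ChevBN.InvNFF4.nodes_ok (by decide)
      (by decide +kernel) (fun x hx => h0A x hx.1 hx) Lib.ChevBN.InvNFF4.paths_ok mF4 hrep hg h2
    have hL' : L = [47] ∨ L = [44] ∨ L = [47, 44] ∨ L = [39, 45] := by simpa [Lib.ChevBN.InvNFF4.reps] using hL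
    rcases hL' with rfl | rfl | rfl | rfl
    · exact ⟨_, bl_mem_G hR hT (by decide +kernel) _, by rw [ca]; simp, h, hh, e⟩
    · exact ⟨_, bl_mem_G hR hT (by decide +kernel) _, by rw [cb]; simp, h, hh, e⟩
    · exact ⟨_, bl_mem_G hR hT (by decide +kernel) _, by rw [cc]; simp, h, hh, e⟩
    · exact ⟨_, bl_mem_G hR hT (by decide +kernel) _, by rw [cd]; simp, h, hh, e⟩
  · rintro y₁ - y₂ - h₁ h₂ ⟨h, hh, e⟩
    rcases hmem y₁ h₁ with rfl | rfl | rfl | rfl <;> rcases hmem y₂ h₂ with rfl | rfl | rfl | rfl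
    · rfl
    · exact (nab h hh e).elim
    · exact (nac h hh e).elim
    · exact (nad h hh e).elim
    · exact (sym nab h hh e).elim
    · rfl
    · exact (nbc h hh e).elim
    · exact (nbd h hh e).elim
    · exact (sym nac h hh e).elim
    · exact (sym nbc h hh e).elim
    · rfl
    · exact (ncd h hh e).elim
    · exact (sym nad h hh e).elim
    · exact (sym nbd h hh e).elim
    · exact (sym ncd h hh e).elim
    · rfl

end Cfsg.Agent.S2174
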