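import Cfsg.Statements.S2177
import Cfsg.Agent.Lib.ChevBN.InvMain
import Cfsg.Agent.Lib.ChevBN.InvNFG2

set_option autoImplicit false
open Cfsg

namespace Cfsg.Agent.S2177

open Cfsg.Lie Cfsg.Agent.Lib.ChevBN.Elem Cfsg.Agent.Lib.ChevBN.Table Cfsg.Agent.Lib.ChevBN.Rel
open Cfsg.Agent.Lib.ChevBN.GraphFix Cfsg.Agent.Lib.ChevBN.InvNF Cfsg.Agent.Lib.ChevBN.InvRed
open Cfsg.Agent.Lib.ChevBN.InvMain Cfsg.Agent.Lib.ChevBN.CentTab Cfsg.Agent.Lib.ChevOrder.Chev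
open Cfsg.Agent.Lib.ChevOrder.BNCount Cfsg.Agent.Lib.ChevBN.Pair

/-- The inverse matrix of the torus. -/
def mG2 (j r : ℕ) : ℤ := if (r = 11 ∧ j = 1) ∨ (r = 9 ∧ j = 0) then 1 else 0

theorem hposL : ∀ x ∈ Lib.ChevBN.InvNFG2.posL, chevG2.IsPosRoot x := by decide +kernel

theorem hmemL : ∀ x < chevG2.nroots, chevG2.IsPosRoot x → x ∈ Lib.ChevBN.InvNFG2.posL := by decide +kernel

theorem hTT (s r : ℕ) (hs : chevG2.IsPosRoot s) (hr : chevG2.IsPosRoot r) :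
    Lib.ChevBN.InvNFG2.tt s r = oddT chevG2 s r :=
  Lib.ChevBN.InvNFG2.tt_eq s (hmemL s hs.1 hs) r (hmemL r hr.1 hr)

theorem h0A : ∀ x < chevG2.nroots, chevG2.IsPosRoot x → x ∈ (Lib.ChevBN.InvNFG2.nodes 0).A := by decide +kernel

theorem hrep : ∀ L ∈ Lib.ChevBN.InvNFG2.reps, L.Nodup ∧ (∀ x ∈ L, x < chevG2.nroots) ∧
    ∀ r ∈ L, ∀ r' ∈ L, Ad chevG2 (fun j => mG2 j r') r = if r = r' then 1 else 0 := by decide +kernel

theorem hact : ∀ s < chevG2.nroots, chevG2.IsPosRoot s → ∀ r ∈ [9, 10, 11], s ≠ r → ∀ c ∈ oddT chevG2 s r,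
    c.1 ∈ [9, 10, 11] ∧ c.1 ∉ [9] := by decide +kernel

theorem hcen : ∀ s < chevG2.nroots, chevG2.IsPosRoot s → ∀ r ∈ [11], s = r ∨ oddT chevG2 s r = [] := by decide +kernel

section

variable {F : Type*} [Field F] [CharP F 2]

theorem no_conj {η : ℕ → ℕ → ℤ} (hR : Sys chevG2 F η) (hT : Tbl chevG2) {h : GL chevG2.Idx F} (hh : h ∈ chevG2.group F)
    (hc : h * bl hR.toAddRel [11] (fun _ => (1 : F)) * h⁻¹ = bl hR.toAddRel [9] (fun _ => (1 : F))) : False := by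
  obtain ⟨w, hw⟩ := sep_central hR hT (Ψ := [9, 10, 11]) (L₁ := [11]) (L₂ := [9]) (by decide) (by decide +kernel)
    (by decide +kernel) (fun s hs => hact s hs.1 hs) (by decide) (by decide) (by decide) (by decide)
    (fun s hs => hcen s hs.1 hs) hh hc
  have h1 := hw 9 (by simp)
  have h2 := orb_σW hR hT ct_t.orb_refl w ⟨9, by decide +kernel⟩
  have h3 : ((σW hR hT w ⟨9, by decide +kernel⟩ : Fin chevG2.nroots) : ℕ) = 11 := by simpa using h1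
  rw [h3] at h2
  revert h2
  decide

end

theorem result {F : Type*} [Field F] [Fintype F] [CharP F 2] (hF : 4 ≤ Fintype.card F) :
    (∀ y : GL Cfsg.Lie.chevG2.Idx F, ((y : GL Cfsg.Lie.chevG2.Idx F) : Matrix Cfsg.Lie.chevG2.Idx Cfsg.Lie.chevG2.Idx F) ∈ [Cfsg.Lie.chevG2.x F 11 1, Cfsg.Lie.chevG2.x F 9 1] → y ∈ Cfsg.Lie.chevG2.group F ∧ orderOf y = 2) ∧
    (∀ g ∈ Cfsg.Lie.chevG2.group F, orderOf g = 2 → ∃ y ∈ Cfsg.Lie.chevG2.group F, ((y : GL Cfsg.Lie.chevG2.Idx F) : Matrix Cfsg.Lie.chevG2.Idx Cfsg.Lie.chevG2.Idx F) ∈ [Cfsg.Lie.chevG2.x F 11 1, Cfsg.Lie.chevG2.x F 9 1] ∧ ∃ h ∈ Cfsg.Lie.chevG2.group F, h * g * h⁻¹ = y) ∧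
    (∀ y₁ ∈ Cfsg.Lie.chevG2.group F, ∀ y₂ ∈ Cfsg.Lie.chevG2.group F, ((y₁ : GL Cfsg.Lie.chevG2.Idx F) : Matrix Cfsg.Lie.chevG2.Idx Cfsg.Lie.chevG2.Idx F) ∈ [Cfsg.Lie.chevG2.x F 11 1, Cfsg.Lie.chevG2.x F 9 1] → ((y₂ : GL Cfsg.Lie.chevG2.Idx F) : Matrix Cfsg.Lie.chevG2.Idx Cfsg.Lie.chevG2.Idx F) ∈ [Cfsg.Lie.chevG2.x F 11 1, Cfsg.Lie.chevG2.x F 9 1] →
      (∃ h ∈ Cfsg.Lie.chevG2.group F, h * y₁ * h⁻¹ = y₂) → ((y₁ : GL Cfsg.Lie.chevG2.Idx F) : Matrix Cfsg.Lie.chevG2.Idx Cfsg.Lie.chevG2.Idx F) = ((y₂ : GL Cfsg.Lie.chevG2.Idx F) : Matrix Cfsg.Lie.chevG2.Idx Cfsg.Lie.chevG2.Idx F)) := by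
  have hR := Cfsg.Agent.Lib.Chevalley.Tbl.G2.sys (F := F)
  have hT := Cfsg.Agent.Lib.ChevBN.FastData.tbl_chevG2
  have e11 : bl hR.toAddRel [11] (fun _ => (1 : F)) = X hR.toAddRel 11 1 := by simp
  have e9 : bl hR.toAddRel [9] (fun _ => (1 : F)) = X hR.toAddRel 9 1 := by simp
  have hmem : ∀ y : GL chevG2.Idx F, ((y : GL chevG2.Idx F) : Matrix chevG2.Idx chevG2.Idx F) ∈ [chevG2.x F 11 1, chevG2.x F 9 1] →
      y = bl hR.toAddRel [11] (fun _ => (1 : F)) ∨ y = bl hR.toAddRel [9] (fun _ => (1 : F)) := by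
    intro y hy
    simp only [List.mem_cons, List.not_mem_nil, or_false] at hy
    rcases hy with hy | hy
    · exact Or.inl (by rw [e11]; exact (eq_X hR.toAddRel).mp hy)
    · exact Or.inr (by rw [e9]; exact (eq_X hR.toAddRel).mp hy)
  refine ⟨?_, ?_, ?_⟩
  · intro y hy
    rcases hmem y hy with rfl | rfl
    · exact ⟨bl_mem_G hR hT (by decide +kernel) _, rep_order hR hT (by decide) (by decide +kernel) (by decide +kernel) (by decide)⟩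
    · exact ⟨bl_mem_G hR hT (by decide +kernel) _, rep_order hR hT (by decide) (by decide +kernel) (by decide +kernel) (by decide)⟩
  · intro g hg h2
    obtain ⟨L, hL, h, hh, e⟩ := inv_conj_rep hR hT hTT hposL Lib.ChevBN.InvNFG2.nodes_ok (by decide)
      (by decide +kernel) (fun x hx => h0A x hx.1 hx) Lib.ChevBN.InvNFG2.paths_ok mG2 hrep hg h2
    have hL' : L = [11] ∨ L = [9] := by simpa [Lib.ChevBN.InvNFG2.reps] using hL
    rcases hL' with rfl | rfl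
    · refine ⟨_, bl_mem_G hR hT (by decide +kernel) _, ?_, h, hh, e⟩
      rw [e11, coe_X]
      simp
    · refine ⟨_, bl_mem_G hR hT (by decide +kernel) _, ?_, h, hh, e⟩
      rw [e9, coe_X]
      simp
  · rintro y₁ - y₂ - h₁ h₂ ⟨h, hh, e⟩
    rcases hmem y₁ h₁ with rfl | rfl <;> rcases hmem y₂ h₂ with rfl | rfl
    · rfl
    · exact (no_conj hR hT hh e).elim
    · refine (no_conj hR hT (Subgroup.inv_mem _ hh) ?_).elim
      rw [← e]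
      group
    · rfl

end Cfsg.Agent.S2177
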