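import Cfsg.Statements.S2178
import Cfsg.Agent.Lib.ChevOrder.RootCent
import Cfsg.Agent.Lib.Chevalley.Tbl.F4Sys
import Cfsg.Agent.Lib.ChevBN.FastData
-- import your own Cfsg.Agent.* helpers here

set_option autoImplicit false
open Cfsg

namespace Cfsg.Agent.S2178

open Cfsg.Lie Cfsg.Agent.Lib.ChevBN.Elem in
theorem sup_three {D : ChevalleyDatum} {F : Type*} [Field F] (hA : Cfsg.Agent.Lib.ChevBN.Elem.AddRel D F)
    (U : Subgroup (GL D.Idx F)) (a b c : ℕ) :
    U ⊔ D.rootSubgroup F a ⊔ D.rootSubgroup F b ⊔ D.rootSubgroup F c = U ⊔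
      Subgroup.closure {g : GL D.Idx F | ∃ s ∈ [a, b, c], ∃ t : F,
        (g : Matrix D.Idx D.Idx F) = D.x F s t} := by
  apply le_antisymm
  · refine sup_le (sup_le (sup_le le_sup_left ?_) ?_) ?_ <;>
    · unfold ChevalleyDatum.rootSubgroup
      refine le_trans (Subgroup.closure_mono ?_) le_sup_right
      rintro g ⟨t, ht⟩
      exact ⟨_, by simp, t, ht⟩
  · refine sup_le (le_trans (le_trans le_sup_left le_sup_left) le_sup_left) ?_
    rw [Subgroup.closure_le]
    rintro g ⟨s, hs, t, ht⟩
    simp only [List.mem_cons, List.not_mem_nil, or_false] at hs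
    have hg : g ∈ D.rootSubgroup F s := Subgroup.subset_closure ⟨t, ht⟩
    rcases hs with rfl | rfl | rfl
    · exact SetLike.le_def.1 (le_sup_right.trans (le_sup_left.trans le_sup_left)) hg
    · exact SetLike.le_def.1 (le_sup_right.trans le_sup_left) hg
    · exact SetLike.le_def.1 le_sup_right hg

/-- Centralizers of the long and the short root involutions in the Chevalley group G of type F₄ over a finite field F of characteristic two (this problem's root numbering for type F₄, from the Chevalley data module: fundamental roots p₁, p₂ short, p₃, p₄ long, with indices 33, 27, 25, 24, their negatives 14, 20, 22, 23; highest root 47, highest short root 44; U the subgroup generated by the positive root subgroups). For an element t of G with matrix x_47(1): the centralizer of t in G is the subgroup generated by U and the root subgroups X_{−p₁}, X_{−p₂}, X_{−p₃} (the unipotent radical of the maximal parabolic subgroup whose Levi factor has fundamental roots p₁, p₂, p₃, together with that Levi factor's root subgroups; the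 Levi factor is of type C₃). For an element u of G with matrix x_44(1): the centralizer of u in G is generated by U and X_{−p₂}, X_{−p₃}, X_{−p₄} (the same construction for the Levi factor with fundamental roots p₂, p₃, p₄, of type B₃). -/
theorem result {F : Type*} [Field F] [Fintype F] [CharP F 2] (t u : GL Cfsg.Lie.chevF4.Idx F) (ht : (t : Matrix Cfsg.Lie.chevF4.Idx Cfsg.Lie.chevF4.Idx F) = Cfsg.Lie.chevF4.x F 47 1) (hu : (u : Matrix Cfsg.Lie.chevF4.Idx Cfsg.Lie.chevF4.Idx F) = Cfsg.Lie.chevF4.x F 44 1) :
    Cfsg.Lie.chevF4.group F ⊓ Subgroup.centralizer {t} = Cfsg.Lie.chevF4.posUnipotent F ⊔ Cfsg.Lie.chevF4.rootSubgroup F 14 ⊔ Cfsg.Lie.chevF4.rootSubgroup F 20 ⊔ Cfsg.Lie.chevF4.rootSubgroup F 22 ∧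
    Cfsg.Lie.chevF4.group F ⊓ Subgroup.centralizer {u} = Cfsg.Lie.chevF4.posUnipotent F ⊔ Cfsg.Lie.chevF4.rootSubgroup F 20 ⊔ Cfsg.Lie.chevF4.rootSubgroup F 22 ⊔ Cfsg.Lie.chevF4.rootSubgroup F 23 := by
  open Cfsg.Agent.Lib.ChevOrder.RootCent in
  have hR := Cfsg.Agent.Lib.Chevalley.Tbl.F4.sys (F := F)
  have hT := Cfsg.Agent.Lib.ChevBN.FastData.tbl_chevF4
  have hC := Cfsg.Agent.Lib.Chevalley.Tbl.F4.comm (F := F)
  constructor
  · rw [sup_three hR.toAddRel]
    exact cent_even_list (j₀ := 3) hR hT hC (by decide +kernel) (by decide +kernel) ht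
  · rw [sup_three hR.toAddRel]
    exact cent_even_list (j₀ := 0) hR hT hC (by decide +kernel) (by decide +kernel) hu

end Cfsg.Agent.S2178
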