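import Cfsg.Statements.S2182
import Cfsg.Agent.Lib.Twisted.E6Inv.Main

set_option autoImplicit false
open Cfsg


namespace Cfsg.Agent.S2182

/-- The twisted group ²E₆(q), q even, realised inside the Chevalley group of type E₆ over the field K with q² elements, has exactly three conjugacy classes of elements of order 2. -/
theorem result {K : Type*} [Field K] [Fintype K] [CharP K 2] (q : ℕ) (hK : Fintype.card K = q ^ 2) :
    (ConjClasses.mk '' {g : ↥(Cfsg.Lie.twistedE6 K q) | orderOf g = 2}).ncard = 3 := by
  obtain ⟨n, -, hn⟩ := FiniteField.card K 2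
  have hd : q ∣ 2 ^ (n : ℕ) := by
    rw [← hn, hK]
    exact dvd_pow_self q (by omega)
  obtain ⟨f, -, hf⟩ := (Nat.dvd_prime_pow Nat.prime_two).1 hd
  have hf0 : f ≠ 0 := by
    rintro rfl
    have h1 : Fintype.card K = 1 := by
      rw [hK, hf]
      simp
    have := Fintype.one_lt_card (α := K)
    omega
  have hq : IsPrimePow q := by
    rw [hf]
    exact Nat.prime_two.isPrimePow.pow hf0
  exact Cfsg.Agent.Lib.Twisted.E6Inv.card_classes hq f hf hK

end Cfsg.Agent.S2182
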