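import Cfsg.Statements.S2190
import Mathlib
import Cfsg.Agent.Lib.SubMax.Main

set_option autoImplicit false
open Cfsg

namespace Cfsg.Agent.S2190

/-- Subfield subgroups of prime degree are maximal. Let K be a finite field with q^r elements, r a prime, q a power of the characteristic, and G the Chevalley group of type G₂, B₂, D₄, F₄, E₆, E₇ or E₈ over K (the matrix group generated by the root elements). Let M be the subgroup of G consisting of the matrices all of whose entries lie in the subfield with q elements (entries c with c^q = c). Then M is a proper subgroup of G and is maximal: every subgroup of G containing M is M or G. -/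
theorem result {K : Type*} [Field K] [Fintype K] (p : ℕ) [Fact p.Prime] [CharP K p] (D : Cfsg.Lie.ChevalleyDatum) (hD : D ∈ [Cfsg.Lie.chevG2, Cfsg.Lie.chevB2, Cfsg.Lie.chevD4, Cfsg.Lie.chevF4, Cfsg.Lie.chevE6, Cfsg.Lie.chevE7, Cfsg.Lie.chevE8]) (a r : ℕ) (ha : 1 ≤ a) (hr : r.Prime) (hK : Fintype.card K = (p ^ a) ^ r) (M : Subgroup (GL D.Idx K))
    (hM : ∀ g : GL D.Idx K, g ∈ M ↔ g ∈ D.group K ∧ ∀ i j : D.Idx, ((g : Matrix D.Idx D.Idx K) i j) ^ (p ^ a) = (g : Matrix D.Idx D.Idx K) i j) :
    M ≠ D.group K ∧ ∀ H : Subgroup (GL D.Idx K), M ≤ H → H ≤ D.group K → H = M ∨ H = D.group K := by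
  exact Cfsg.Agent.Lib.SubMax.Main.result_all p D hD a r ha hr hK M hM

end Cfsg.Agent.S2190
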