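import Cfsg.Statements.S2191
import Mathlib
import Cfsg.Agent.Lib.Tw2E6Max.Final

set_option autoImplicit false
open Cfsg

namespace Cfsg.Agent.S2191

/-- In the twisted group ²E₆(q), realised inside the Chevalley group of type E₆ over the field K with q² elements (q a power of the characteristic) as the subgroup generated by the root elements, and products of root elements, that the twisting map fixes, the subgroup of matrices all of whose entries lie in the subfield with q elements (entries c with c^q = c; it contains the subgroup of type F₄ over that subfield) is a proper maximal subgroup. -/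
theorem result {K : Type*} [Field K] [Fintype K] (p : ℕ) [Fact p.Prime] [CharP K p] (q : ℕ) (hq : ∃ a : ℕ, 1 ≤ a ∧ q = p ^ a) (hK : Fintype.card K = q ^ 2) (M : Subgroup (GL Cfsg.Lie.chevE6.Idx K))
    (hM : ∀ g : GL Cfsg.Lie.chevE6.Idx K, g ∈ M ↔ g ∈ Cfsg.Lie.twistedE6 K q ∧ ∀ i j : Cfsg.Lie.chevE6.Idx, ((g : Matrix Cfsg.Lie.chevE6.Idx Cfsg.Lie.chevE6.Idx K) i j) ^ q = (g : Matrix Cfsg.Lie.chevE6.Idx Cfsg.Lie.chevE6.Idx K) i j) :
    M ≠ Cfsg.Lie.twistedE6 K q ∧ ∀ H : Subgroup (GL Cfsg.Lie.chevE6.Idx K), M ≤ H → H ≤ Cfsg.Lie.twistedE6 K q → H = M ∨ H = Cfsg.Lie.twistedE6 K q := by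
  classical
  have hq' : IsPrimePow q := by
    obtain ⟨a, ha, rfl⟩ := hq
    exact (Fact.out : p.Prime).isPrimePow.pow (by omega)
  obtain ⟨φ, T, hφ, hφ2, hρ, hτ, I⟩ := Cfsg.Agent.Lib.Twisted.E6.main hq' hK
  have hMM : M = Cfsg.Agent.Lib.Tw2E6Max.MM q φ := by
    ext g
    rw [hM, Cfsg.Agent.Lib.Tw2E6Max.mem_MM]
    refine and_congr_right fun _ => ⟨fun h => ?_, fun h i j => ?_⟩
    · apply Units.ext
      ext i j
      rw [Cfsg.Agent.Lib.ChevBN.Fix.coe_mapG, Matrix.map_apply, hφ, h i j]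
    · have h2 := congrArg (fun g : GL Cfsg.Lie.chevE6.Idx K => (g : Matrix Cfsg.Lie.chevE6.Idx Cfsg.Lie.chevE6.Idx K) i j) h
      simp only [Cfsg.Agent.Lib.ChevBN.Fix.coe_mapG, Matrix.map_apply, hφ] at h2
      exact h2
  subst hMM
  exact ⟨Cfsg.Agent.Lib.Tw2E6Max.MM_ne hφ hφ2 hρ hτ I hq' hK,
    fun H h1 h2 => Cfsg.Agent.Lib.Tw2E6Max.max_main hφ hφ2 hρ hτ I hq' hK h1 h2⟩

end Cfsg.Agent.S2191
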