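import Cfsg.Statements.S2192
import Cfsg.Agent.Lib.Tw3D4Max.Final

set_option autoImplicit false
open Cfsg

namespace Cfsg.Agent.S2192

/-- In the twisted group ³D₄(q), realised inside the Chevalley group of type D₄ over the field K with q³ elements (q a power of the characteristic) as the subgroup generated by the root elements, and products of root elements, that the twisting map fixes, the subgroup of matrices all of whose entries lie in the subfield with q elements (it contains the subgroup of type G₂ over that subfield) is a proper maximal subgroup. -/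
theorem result {K : Type*} [Field K] [Fintype K] (p : ℕ) [Fact p.Prime] [CharP K p] (q : ℕ) (hq : ∃ a : ℕ, 1 ≤ a ∧ q = p ^ a) (hK : Fintype.card K = q ^ 3) (M : Subgroup (GL Cfsg.Lie.chevD4.Idx K))
    (hM : ∀ g : GL Cfsg.Lie.chevD4.Idx K, g ∈ M ↔ g ∈ Cfsg.Lie.twistedD4 K q ∧ ∀ i j : Cfsg.Lie.chevD4.Idx, ((g : Matrix Cfsg.Lie.chevD4.Idx Cfsg.Lie.chevD4.Idx K) i j) ^ q = (g : Matrix Cfsg.Lie.chevD4.Idx Cfsg.Lie.chevD4.Idx K) i j) :
    M ≠ Cfsg.Lie.twistedD4 K q ∧ ∀ H : Subgroup (GL Cfsg.Lie.chevD4.Idx K), M ≤ H → H ≤ Cfsg.Lie.twistedD4 K q → H = M ∨ H = Cfsg.Lie.twistedD4 K q := by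
  classical
  have hq' : IsPrimePow q := by
    obtain ⟨a, ha, rfl⟩ := hq
    exact (Fact.out : p.Prime).isPrimePow.pow (by omega)
  obtain ⟨φ, T, hφ, hφ3, hρ, hτ, I⟩ := Cfsg.Agent.Lib.Twisted.D4.main hq' hK
  have hMM : M = Cfsg.Agent.Lib.Tw3D4Max.MM q φ := by
    ext g
    rw [hM, Cfsg.Agent.Lib.Tw3D4Max.mem_MM]
    refine and_congr_right fun _ => ⟨fun h => ?_, fun h i j => ?_⟩
    · apply Units.ext
      ext i j
      rw [Cfsg.Agent.Lib.ChevBN.Fix.coe_mapG, Matrix.map_apply, hφ, h i j]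
    · have h2 := congrArg (fun g : GL Cfsg.Lie.chevD4.Idx K => (g : Matrix Cfsg.Lie.chevD4.Idx Cfsg.Lie.chevD4.Idx K) i j) h
      simp only [Cfsg.Agent.Lib.ChevBN.Fix.coe_mapG, Matrix.map_apply, hφ] at h2
      exact h2
  subst hMM
  refine ⟨?_, fun H h1 h2 => Cfsg.Agent.Lib.Tw3D4Max.max_main hφ hφ3 hρ hτ I hq' hK h1 h2⟩
  intro he
  obtain ⟨μ, hμ⟩ := Cfsg.Agent.Lib.Tw3D4Max.exists_mu hφ hq' hK
  have hx := Cfsg.Agent.Lib.Tw3D4Max.xh_mem hφ hφ3 hρ hτ I μ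
  rw [← he] at hx
  have h3 : Cfsg.Agent.Lib.ChevBN.Fix.mapG Cfsg.Lie.chevD4 φ (Cfsg.Agent.Lib.Tw3D4Max.xh φ μ) = Cfsg.Agent.Lib.Tw3D4Max.xh φ μ := hx.2
  rw [Cfsg.Agent.Lib.Tw3D4Max.xh, Cfsg.Agent.Lib.Tw3D4Max.map_pr φ φ (fun _ => rfl)] at h3
  obtain ⟨h4, -⟩ := Cfsg.Agent.Lib.Tw3D4Max.pr_inj φ h3
  exact hμ h4

end Cfsg.Agent.S2192
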