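import Cfsg.Statements.S2205
import Mathlib
import Cfsg.Agent.Lib.P2205.Final
import Cfsg.Agent.Lib.P2205.NormalReg
import Cfsg.Agent.Lib.P2205.Semireg
import Cfsg.Agent.Lib.P2205.Diamond
import Cfsg.Agent.Lib.P2205.CaseTwo

set_option autoImplicit false
open Cfsg

namespace Cfsg.Agent.S2205

open Cfsg.Agent.Lib.P2205 in
/-- A finite group acting faithfully and 2-transitively on a set with p² + 1 points, p a prime, is doubly primitive — a point stabilizer acts primitively on the remaining p² points — unless p = 2 and the group is the Frobenius group of order 20. -/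
theorem result {G Ω : Type*} [Group G] [Finite G] [Fintype Ω] [MulAction G Ω] [FaithfulSMul G Ω] (p : ℕ) (hp : p.Prime) (hΩ : Fintype.card Ω = p ^ 2 + 1) (h2 : MulAction.IsMultiplyPretransitive G Ω 2) (a : Ω) :
    MulAction.IsPreprimitive ↥(MulAction.stabilizer G a) ↥(SubMulAction.ofStabilizer G a) ∨ (p = 2 ∧ Nat.card G = 20) := by
  by_cases hpre : MulAction.IsPreprimitive ↥(MulAction.stabilizer G a) ↥(SubMulAction.ofStabilizer G a)
  · exact Or.inl hpre
  · right
    by_cases hp2 : p = 2
    · subst hp2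
      exact ⟨rfl, case_two (by rw [hΩ]; norm_num) h2 a hpre⟩
    · exfalso
      obtain ⟨F⟩ := exists_fam_of_not_preprimitive hp hΩ h2 a hpre
      have hcop : ∀ a b : Ω, a ≠ b → ¬ p ∣ Nat.card (G2 G a b) :=
        fun a b hab => not_dvd_G2 F hp hΩ h2 hab
      have hsemi : ∀ (F' : Fam G Ω p) (a b : Ω), a ≠ b → ∀ k ∈ F'.K a, k • b = b → k = 1 :=
        fun F' a b hab k hk hkb => kernel_semiregular_of_diamond F' hp hΩ h2 hcop
          (fun hab' hac' => diamond F' hp hp2 hΩ h2 hcop hab' hac') hab hk hkb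
      exact final_false F hp hp2 hΩ h2 hcop hsemi
        (fun a => exists_normal_reg F hp hp2 hΩ h2 hcop hsemi a)

end Cfsg.Agent.S2205
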