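import Cfsg.Statements.S2214
import Cfsg.Agent.Lib.Chevalley.All
import Cfsg.Agent.Lib.ChevBN.FastData2
import Cfsg.Agent.Lib.ChevBN.Cent
-- import your own Cfsg.Agent.* helpers here

set_option autoImplicit false
open Cfsg

namespace Cfsg.Agent.S2214

/-- Let k be an algebraically closed field of prime characteristic p, G the adjoint Chevalley group of type G₂, B₂, D₄, F₄, E₆, E₇ or E₈ over k (the matrix group generated by the root elements x_s(t), t ∈ k, acting on the Lie algebra), q = p^a with a ≥ 1, and K a subgroup of G containing every root element x_s(t) with t^q = t and consisting of matrices all of whose entries c satisfy c^q = c. Then the centralizer of K in G is trivial, and the normalizer of K in G is exactly the set of elements of G all of whose entries c satisfy c^q = c. -/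
theorem result {k : Type*} [Field k] [IsAlgClosed k] (p : ℕ) [Fact p.Prime] [CharP k p] (D : Cfsg.Lie.ChevalleyDatum) (hD : D ∈ [Cfsg.Lie.chevG2, Cfsg.Lie.chevB2, Cfsg.Lie.chevD4, Cfsg.Lie.chevF4, Cfsg.Lie.chevE6, Cfsg.Lie.chevE7, Cfsg.Lie.chevE8]) (a : ℕ) (ha : 1 ≤ a) (K : Subgroup (GL D.Idx k)) (hKG : K ≤ D.group k)
    (hLK : Subgroup.closure {g : GL D.Idx k | ∃ (s : ℕ) (t : k), t ^ (p ^ a) = t ∧ (g : Matrix D.Idx D.Idx k) = D.x k s t} ≤ K)
    (hKfix : ∀ g ∈ K, ∀ i j : D.Idx, ((g : Matrix D.Idx D.Idx k) i j) ^ (p ^ a) = (g : Matrix D.Idx D.Idx k) i j) :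
    D.group k ⊓ Subgroup.centralizer (K : Set (GL D.Idx k)) = ⊥ ∧
    ∀ g : GL D.Idx k, g ∈ D.group k → (g ∈ Subgroup.normalizer (K : Set (GL D.Idx k)) ↔ ∀ i j : D.Idx, ((g : Matrix D.Idx D.Idx k) i j) ^ (p ^ a) = (g : Matrix D.Idx D.Idx k) i j) := by
  obtain ⟨η, hη⟩ := Cfsg.Agent.Lib.Chevalley.All.exists_sys D hD
  have hR := hη k
  have hT := Cfsg.Agent.Lib.ChevBN.FastData.tbl_of_mem hD
  have hT2 := Cfsg.Agent.Lib.ChevBN.FastData.tbl2_of_mem hD
  haveI : ExpChar k p := ExpChar.prime (Fact.out)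
  let σ : k →+* k := iterateFrobenius k p a
  have hσ : ∀ x : k, σ x = x ^ (p ^ a) := fun x => iterateFrobenius_def p a x
  have hmap : ∀ g : GL D.Idx k, Cfsg.Agent.Lib.ChevBN.Fix.mapG D σ g = g ↔
      ∀ i j : D.Idx, ((g : Matrix D.Idx D.Idx k) i j) ^ (p ^ a) = (g : Matrix D.Idx D.Idx k) i j := by
    intro g
    constructor
    · intro h i j
      have := congrArg (fun y : GL D.Idx k => (y : Matrix D.Idx D.Idx k) i j) h
      simpa [hσ] using this
    · intro h
      apply Units.ext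
      ext i j
      simpa [hσ] using h i j
  have hLK' : Cfsg.Agent.Lib.ChevBN.Fix.fixL hR σ ≤ K := by
    refine le_trans ?_ hLK
    rw [Cfsg.Agent.Lib.ChevBN.Fix.fixL]
    apply Subgroup.closure_mono
    rintro g ⟨r, hr, t, ht, rfl⟩
    exact ⟨r, t, by rw [← hσ, ht], Cfsg.Agent.Lib.ChevBN.Elem.coe_X _ _ _⟩
  obtain ⟨h1, h2⟩ := Cfsg.Agent.Lib.ChevBN.Cent.subfield_cent_norm hR hT hT2 σ K hKG hLK'
    (fun g hg => (hmap g).2 (hKfix g hg))
  exact ⟨h1, fun g hg => by rw [h2 g hg, hmap]⟩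

end Cfsg.Agent.S2214
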