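import Cfsg.Statements.S2221
import Mathlib
import Cfsg.Agent.Lib.Perm.SylowDecompC

set_option autoImplicit false

open Cfsg

namespace Cfsg.Agent.S2221

open Equiv Equiv.Perm
open Cfsg.Agent.Lib.Perm.SylowDecomp
open Cfsg.Agent.Lib.Perm.SylowTwoSym

/-- Elements of the join of two commuting subgroups. -/
theorem mem_sup_of_comm {G : Type*} [Group G] {A B : Subgroup G} (hc : ∀ a ∈ A, ∀ b ∈ B, a * b = b * a)
    {g : G} (hg : g ∈ A ⊔ B) : ∃ a ∈ A, ∃ b ∈ B, g = a * b := by
  rw [Subgroup.sup_eq_closure] at hg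
  induction hg using Subgroup.closure_induction with
  | mem x hx =>
    rcases hx with hx | hx
    · exact ⟨x, hx, 1, B.one_mem, (mul_one x).symm⟩
    · exact ⟨1, A.one_mem, x, hx, (one_mul x).symm⟩
  | one => exact ⟨1, A.one_mem, 1, B.one_mem, (mul_one 1).symm⟩
  | mul x y _ _ hx hy =>
    obtain ⟨a, ha, b, hb, rfl⟩ := hx
    obtain ⟨a', ha', b', hb', rfl⟩ := hy
    refine ⟨a * a', A.mul_mem ha ha', b * b', B.mul_mem hb hb', ?_⟩
    have h1 : b * a' = a' * b := (hc a' ha' b hb).symm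
    calc a * b * (a' * b') = a * (b * a') * b' := by group
      _ = a * (a' * b) * b' := by rw [h1]
      _ = a * a' * (b * b') := by group
  | inv x _ hx =>
    obtain ⟨a, ha, b, hb, rfl⟩ := hx
    refine ⟨a⁻¹, A.inv_mem ha, b⁻¹, B.inv_mem hb, ?_⟩
    rw [mul_inv_rev]
    have h1 : Commute a b := hc a ha b hb
    exact (h1.inv_inv).eq.symm

variable {α : Type*} [Fintype α] [DecidableEq α]

/-- From the alternating group to the symmetric group. -/
theorem decomp_of_alt {P : Sylow 2 (alternatingGroup α)} {R : Sylow 2 (Perm α)}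
    (hPR : ∀ g : alternatingGroup α, g ∈ (P : Subgroup (alternatingGroup α)) ↔ (g : Perm α) ∈ R)
    {S₁ S₂ : Subgroup (alternatingGroup α)}
    (hS : Cfsg.IsInternalDirectProduct S₁ S₂ (P : Subgroup (alternatingGroup α)))
    (h1 : S₁ ≠ ⊥) (h2 : S₂ ≠ ⊥) :
    ∃ X Y : Subgroup (Perm α), X ≠ ⊥ ∧ Y ≠ ⊥ ∧ Decomp R X Y := by
  obtain ⟨hle1, hle2, hcomm, hinf, hsup⟩ := hS
  have hmapne : ∀ {S : Subgroup (alternatingGroup α)}, S ≠ ⊥ → S.map (alternatingGroup α).subtype ≠ ⊥ := by
    intro S hS h0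
    apply hS
    rw [Subgroup.map_eq_bot_iff_of_injective _ (Subgroup.subtype_injective _)] at h0
    exact h0
  have hle : ∀ {S : Subgroup (alternatingGroup α)}, S ≤ (P : Subgroup (alternatingGroup α)) →
      S.map (alternatingGroup α).subtype ≤ P0 R := by
    rintro S hS _ ⟨x, hx, rfl⟩
    exact mem_P0.mpr ⟨(hPR x).mp (hS hx), mem_alternatingGroup.mp x.2⟩
  refine ⟨_, _, hmapne h1, hmapne h2, ⟨hle hle1, hle hle2, ?_, ?_, ?_⟩⟩
  · rintro _ ⟨x, hx, rfl⟩ _ ⟨y, hy, rfl⟩
    exact congrArg Subtype.val (hcomm x hx y hy)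
  · rw [eq_bot_iff]
    rintro _ ⟨⟨x, hx, rfl⟩, ⟨y, hy, e⟩⟩
    have hxy : y = x := Subtype.ext e
    subst hxy
    have h3 : y ∈ S₁ ⊓ S₂ := ⟨hx, hy⟩
    rw [hinf, Subgroup.mem_bot] at h3
    rw [h3]
    exact Subgroup.one_mem _
  · intro g hg
    obtain ⟨hgR, hgs⟩ := mem_P0.mp hg
    have hgA : g ∈ alternatingGroup α := mem_alternatingGroup.mpr hgs
    have hgP : (⟨g, hgA⟩ : alternatingGroup α) ∈ (P : Subgroup (alternatingGroup α)) :=
      (hPR _).mpr hgR
    rw [← hsup] at hgP
    obtain ⟨a, ha, b, hb, e⟩ := mem_sup_of_comm hcomm hgP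
    exact ⟨a, ⟨a, ha, rfl⟩, b, ⟨b, hb, rfl⟩, congrArg Subtype.val e⟩

/-- From the symmetric group to the alternating group. -/
theorem alt_of_decomp {P : Sylow 2 (alternatingGroup α)} {R : Sylow 2 (Perm α)}
    (hPR : ∀ g : alternatingGroup α, g ∈ (P : Subgroup (alternatingGroup α)) ↔ (g : Perm α) ∈ R)
    {X Y : Subgroup (Perm α)} (h : Decomp R X Y) (hX : X ≠ ⊥) (hY : Y ≠ ⊥) :
    ∃ S₁ S₂ : Subgroup (alternatingGroup α), S₁ ≠ ⊥ ∧ S₂ ≠ ⊥ ∧
      Cfsg.IsInternalDirectProduct S₁ S₂ (P : Subgroup (alternatingGroup α)) := by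
  have hA : ∀ {Z : Subgroup (Perm α)}, Z ≤ P0 R → ∀ z ∈ Z, z ∈ alternatingGroup α := by
    intro Z hZ z hz
    exact mem_alternatingGroup.mpr (mem_P0.mp (hZ hz)).2
  have hne : ∀ {Z : Subgroup (Perm α)}, Z ≤ P0 R → Z ≠ ⊥ → Z.subgroupOf (alternatingGroup α) ≠ ⊥ := by
    intro Z hZ hZ0 h0
    apply hZ0
    rw [eq_bot_iff]
    intro z hz
    have h1 : (⟨z, hA hZ z hz⟩ : alternatingGroup α) ∈ Z.subgroupOf (alternatingGroup α) := hz
    rw [h0, Subgroup.mem_bot] at h1
    exact (Subgroup.mem_bot).mpr (congrArg Subtype.val h1)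
  have hle : ∀ {Z : Subgroup (Perm α)}, Z ≤ P0 R →
      Z.subgroupOf (alternatingGroup α) ≤ (P : Subgroup (alternatingGroup α)) := by
    intro Z hZ z hz
    exact (hPR z).mpr (mem_P0.mp (hZ hz)).1
  refine ⟨X.subgroupOf _, Y.subgroupOf _, hne h.leX hX, hne h.leY hY, hle h.leX, hle h.leY, ?_, ?_, ?_⟩
  · intro a ha b hb
    exact Subtype.ext (h.comm a.1 ha b.1 hb)
  · rw [eq_bot_iff]
    rintro z ⟨hz1, hz2⟩
    have h3 : (z : Perm α) ∈ X ⊓ Y := ⟨hz1, hz2⟩
    rw [h.inf, Subgroup.mem_bot] at h3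
    exact (Subgroup.mem_bot).mpr (Subtype.ext h3)
  · apply le_antisymm
    · exact sup_le (hle h.leX) (hle h.leY)
    · intro g hg
      have hg1 : (g : Perm α) ∈ P0 R :=
        mem_P0.mpr ⟨(hPR g).mp hg, mem_alternatingGroup.mp g.2⟩
      obtain ⟨x, hx, y, hy, e⟩ := h.cover _ hg1
      have hxA := hA h.leX x hx
      have hyA := hA h.leY y hy
      have h2 : g = ⟨x, hxA⟩ * ⟨y, hyA⟩ := Subtype.ext e
      rw [h2]
      exact Subgroup.mul_mem_sup hx hy

/-- A subgroup of order four of exponent two decomposes. -/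
theorem decomp_of_card_four {G : Type*} [Group G] [Finite G] (P : Subgroup G) (hc : Nat.card P = 4)
    (hsq : ∀ g ∈ P, g ^ 2 = 1) :
    ∃ S₁ S₂ : Subgroup G, S₁ ≠ ⊥ ∧ S₂ ≠ ⊥ ∧ Cfsg.IsInternalDirectProduct S₁ S₂ P := by
  classical
  have hcarr : (P : Set G).ncard = 4 := by
    rw [← Nat.card_coe_set_eq]
    exact hc
  have h1le : ({1} : Set G).ncard < (P : Set G).ncard := by
    rw [hcarr, Set.ncard_singleton]
    norm_num
  obtain ⟨a, haP, ha⟩ := Set.exists_mem_notMem_of_ncard_lt_ncard h1le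
  have ha1 : a ≠ 1 := ha
  have h2le : ({1, a} : Set G).ncard < (P : Set G).ncard := by
    rw [hcarr]
    have := Set.ncard_pair ha1.symm
    omega
  obtain ⟨b, hbP, hb⟩ := Set.exists_mem_notMem_of_ncard_lt_ncard h2le
  simp only [Set.mem_insert_iff, Set.mem_singleton_iff, not_or] at hb
  obtain ⟨hb1, hba⟩ := hb
  have haP' : a ∈ P := haP
  have hbP' : b ∈ P := hbP
  have hz : ∀ {c x : G}, c ^ 2 = 1 → x ∈ Subgroup.zpowers c → x = 1 ∨ x = c := by
    intro c x hc2 hx
    obtain ⟨k, rfl⟩ := hx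
    rcases Int.even_or_odd' k with ⟨m, rfl | rfl⟩
    · left
      show c ^ (2 * m) = 1
      rw [zpow_mul]
      norm_cast
      rw [hc2, one_zpow]
    · right
      show c ^ (2 * m + 1) = c
      rw [zpow_add, zpow_mul]
      norm_cast
      rw [hc2, one_zpow, one_mul, pow_one]
  have ha2 := hsq a haP'
  have hb2 := hsq b hbP'
  have hcomm : a * b = b * a := by
    have h1 := hsq _ (P.mul_mem haP' hbP')
    rw [pow_two] at h1
    have h2 : a⁻¹ = a := inv_eq_of_mul_eq_one_left (by rw [← pow_two]; exact ha2)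
    have h3 : b⁻¹ = b := inv_eq_of_mul_eq_one_left (by rw [← pow_two]; exact hb2)
    have h4 : a * b = (a * b)⁻¹ := eq_inv_of_mul_eq_one_left h1
    rw [mul_inv_rev, h2, h3] at h4
    exact h4
  have hzle : ∀ {c : G}, c ∈ P → Subgroup.zpowers c ≤ P := fun hc => (Subgroup.zpowers_le).mpr hc
  refine ⟨Subgroup.zpowers a, Subgroup.zpowers b, Subgroup.zpowers_ne_bot.mpr ha1,
    Subgroup.zpowers_ne_bot.mpr hb1, hzle haP', hzle hbP', ?_, ?_, ?_⟩
  · intro x hx y hy
    rcases hz ha2 hx with rfl | rfl <;> rcases hz hb2 hy with rfl | rfl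
    · simp
    · simp
    · simp
    · exact hcomm
  · rw [eq_bot_iff]
    rintro x ⟨hx1, hx2⟩
    rw [Subgroup.mem_bot]
    rcases hz ha2 hx1 with h | h
    · exact h
    · rcases hz hb2 hx2 with h' | h'
      · exact h'
      · exact absurd (h'.symm.trans h) hba
  · apply Subgroup.eq_of_le_of_card_ge (sup_le (hzle haP') (hzle hbP'))
    rw [hc]
    set T := Subgroup.zpowers a ⊔ Subgroup.zpowers b with hT
    have hTle : T ≤ P := sup_le (hzle haP') (hzle hbP')
    have hd : Nat.card T ∣ 4 := hc ▸ Subgroup.card_dvd_of_le hTle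
    have h3 : 3 ≤ Nat.card T := by
      have hsub : (({1, a, b} : Finset G) : Set G) ⊆ (T : Set G) := by
        intro x hx
        simp only [Finset.coe_insert, Finset.coe_singleton, Set.mem_insert_iff,
          Set.mem_singleton_iff] at hx
        rcases hx with rfl | rfl | rfl
        · exact T.one_mem
        · exact (le_sup_left : Subgroup.zpowers x ≤ T) (Subgroup.mem_zpowers x)
        · exact (le_sup_right : Subgroup.zpowers x ≤ T) (Subgroup.mem_zpowers x)
      have h4 := Set.ncard_le_ncard hsub (Set.toFinite _)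
      rw [Set.ncard_coe_finset] at h4
      have h5 : ({1, a, b} : Finset G).card = 3 := by
        have a1 : a ∉ ({b} : Finset G) := by
          rw [Finset.mem_singleton]; exact fun e => hba e.symm
        have a2 : (1 : G) ∉ ({a, b} : Finset G) := by
          simp only [Finset.mem_insert, Finset.mem_singleton, not_or]
          exact ⟨ha1.symm, fun e => hb1 e.symm⟩
        rw [Finset.card_insert_of_notMem a2, Finset.card_insert_of_notMem a1, Finset.card_singleton]
      rw [← Nat.card_coe_set_eq] at h4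
      have h6 : Nat.card (T : Set G) = Nat.card T := rfl
      omega
    have h5 := Nat.le_of_dvd (by norm_num) hd
    interval_cases h : Nat.card T
    · omega
    · omega

theorem small_sq4 : ∀ g : Perm (Fin 4), sign g = 1 → g ^ 4 = 1 → g ^ 2 = 1 := by decide +kernel
theorem small_sq5 : ∀ g : Perm (Fin 5), sign g = 1 → g ^ 4 = 1 → g ^ 2 = 1 := by decide +kernel

/-- Order of a Sylow 2-subgroup from an odd index. -/
theorem card_sylow_four {G : Type*} [Group G] [Finite G] (P : Sylow 2 G) {d : ℕ}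
    (hG : Nat.card G = 4 * d) (hd : Odd d) : Nat.card P = 4 := by
  obtain ⟨k, hk⟩ := IsPGroup.iff_card.mp P.isPGroup'
  have h1 := Subgroup.card_mul_index (P : Subgroup G)
  have h2 := P.not_dvd_index
  rw [hG] at h1
  change Nat.card P * _ = _ at h1
  rw [hk] at h1 ⊢
  obtain ⟨m, rfl⟩ := hd
  have hdpos : 0 < 4 * (2 * m + 1) := by omega
  generalize (P : Subgroup G).index = i at h1 h2
  have h3 : k = 2 := by
    by_contra hne
    have hlt : k < 2 ∨ 2 < k := by omega
    rcases hlt with hlt | hlt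
    · have hk' : k = 0 ∨ k = 1 := by omega
      rcases hk' with rfl | rfl
      · apply h2
        simp only [pow_zero, one_mul] at h1
        rw [h1]
        exact ⟨2 * (2 * m + 1), by ring⟩
      · apply h2
        simp only [pow_one] at h1
        exact ⟨2 * m + 1, by omega⟩
    · obtain ⟨j, rfl⟩ : ∃ j, k = j + 3 := ⟨k - 3, by omega⟩
      have h4 : 2 ^ (j + 3) * i = 8 * (2 ^ j * i) := by ring
      omega
  rw [h3]
  norm_num

theorem pow_four_of_card {G : Type*} [Group G] (P : Subgroup G) (hc : Nat.card P = 4) (g : G)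
    (hg : g ∈ P) : g ^ 4 = 1 := by
  have h0 : (⟨g, hg⟩ : P) ^ Nat.card P = 1 := pow_card_eq_one'
  rw [hc] at h0
  exact congrArg Subtype.val h0

theorem small_case (n : ℕ) (hn : n = 4 ∨ n = 5) (P : Sylow 2 (alternatingGroup (Fin n))) :
    ∃ S₁ S₂ : Subgroup (alternatingGroup (Fin n)), S₁ ≠ ⊥ ∧ S₂ ≠ ⊥ ∧
        Cfsg.IsInternalDirectProduct S₁ S₂ (P : Subgroup (alternatingGroup (Fin n))) := by
  rcases hn with rfl | rfl
  · have hc : Nat.card P = 4 := by
      refine card_sylow_four P (d := 3) ?_ (by decide)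
      rw [nat_card_alternatingGroup]
      simp [Nat.factorial]
    refine decomp_of_card_four _ hc ?_
    intro g hg
    have h2 : g ^ 4 = 1 := pow_four_of_card _ hc g hg
    have h3 : (g : Perm (Fin 4)) ^ 4 = 1 := congrArg Subtype.val h2
    exact Subtype.ext (small_sq4 g (mem_alternatingGroup.mp g.2) h3)
  · have hc : Nat.card P = 4 := by
      refine card_sylow_four P (d := 15) ?_ (by decide)
      rw [nat_card_alternatingGroup]
      simp [Nat.factorial]
    refine decomp_of_card_four _ hc ?_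
    intro g hg
    have h2 : g ^ 4 = 1 := pow_four_of_card _ hc g hg
    have h3 : (g : Perm (Fin 5)) ^ 4 = 1 := congrArg Subtype.val h2
    exact Subtype.ext (small_sq5 g (mem_alternatingGroup.mp g.2) h3)

/-- Direct decomposability of the Sylow 2-subgroups of the alternating groups. Let n ≥ 4 and let P be a Sylow 2-subgroup of the alternating group of degree n. Then P is the internal direct product of two nontrivial subgroups if and only if n = 4, n = 5, or n ≡ 2, 3 (mod 4) with 4⌊n/4⌋ not a power of 2. In the remaining cases (n ≡ 0, 1 (mod 4) with n ≥ 8, or n ≡ 2, 3 (mod 4) with 4⌊n/4⌋ a power of 2) P is directly indecomposable. -/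
theorem result (n : ℕ) (hn : 4 ≤ n)
    (P : Sylow 2 (alternatingGroup (Fin n))) :
    (∃ S₁ S₂ : Subgroup (alternatingGroup (Fin n)), S₁ ≠ ⊥ ∧ S₂ ≠ ⊥ ∧
        Cfsg.IsInternalDirectProduct S₁ S₂ (P : Subgroup (alternatingGroup (Fin n)))) ↔
      (n = 4 ∨ n = 5 ∨ ((n % 4 = 2 ∨ n % 4 = 3) ∧ ∀ r : ℕ, 4 * (n / 4) ≠ 2 ^ r)) := by
  by_cases h45 : n = 4 ∨ n = 5
  · refine ⟨fun _ => ?_, fun _ => small_case n h45 P⟩
    rcases h45 with h | h
    · exact Or.inl h
    · exact Or.inr (Or.inl h)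
  have hn6 : 6 ≤ n := by omega
  obtain ⟨R, hPR⟩ := exists_sylow_of_sylow_alternating P
  obtain ⟨σ, hσ⟩ := exists_matched R
  have hcard : Fintype.card (Fin n) = n := Fintype.card_fin n
  obtain ⟨harith, hblock⟩ := hσ.arith
  rw [hcard] at harith hblock
  by_cases hT : ∃ r, 4 * (n / 4) = 2 ^ r
  · obtain ⟨r, hr⟩ := hT
    have htr : ∀ x ∈ Xi R σ, ∀ y ∈ Xi R σ, ∃ u ∈ R, u x = y := fun x hx y hy =>
      trans_of_ncard hσ.inv_Xi (harith.trans hr) hx hy
    constructor
    · rintro ⟨S₁, S₂, h1, h2, hS⟩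
      obtain ⟨X, Y, hX, hY, hD⟩ := decomp_of_alt hPR hS h1 h2
      exact (hσ.indec_of_trans (by rw [hcard]; omega) htr hD hX hY).elim
    · rintro (h | h | ⟨_, h⟩)
      · omega
      · omega
      · exact absurd hr (h r)
  · push Not at hT
    have hne : (Xi R σ).Nonempty := by
      rw [← Set.ncard_pos]
      rw [harith]
      omega
    obtain ⟨p, hp⟩ := hne
    have hOX : orb R p ⊆ Xi R σ := by
      rintro _ ⟨r, hr, rfl⟩
      exact (hσ.inv_Xi r hr p).mpr hp
    have hex : ∃ q ∈ Xi R σ, q ∉ orb R p := by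
      by_contra hcon
      push Not at hcon
      have h1 : Xi R σ = orb R p := Set.Subset.antisymm hcon hOX
      obtain ⟨j, hj⟩ := ncard_orb (R := R) p
      rw [← h1, harith] at hj
      exact hT j hj
    obtain ⟨q, hq, hpq⟩ := hex
    by_cases hb : n % 4 = 2 ∨ n % 4 = 3
    · constructor
      · intro _
        exact Or.inr (Or.inr ⟨hb, hT⟩)
      · intro _
        obtain ⟨u, hum, hus⟩ := hblock.mp hb
        have hvs : Small R σ (σ u) := by
          intro r hr
          rw [hσ.sq]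
          exact hσ.inv_pair hus hr
        have hJ : Inv R (Xi R σ \ orb R p) := by
          apply inv_of_forward
          rintro s hs z ⟨hz1, hz2⟩
          exact ⟨(hσ.inv_Xi s hs z).mpr hz1, fun h5 => hz2 ((inv_orb p s hs z).mp h5)⟩
        obtain ⟨X, Y, hX, hY, hD⟩ := hσ.decomposable hum hus (O := orb R p)
          (J := Xi R σ \ orb R p) (inv_orb p) hJ (fun w hw h => h.2 hw)
          (fun w => by
            by_cases hw : w ∈ Xi R σ
            · by_cases hw' : w ∈ orb R p
              · exact Or.inl hw'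
              · exact Or.inr (Or.inl ⟨hw, hw'⟩)
            · have hws : Small R σ w := by
                by_contra h
                exact hw h
              by_cases hwm : σ w = w
              · exact Or.inr (Or.inr (Or.inr (Or.inr hwm)))
              · rcases hσ.two_small hum hwm hus hws with h | h
                · exact Or.inr (Or.inr (Or.inl h))
                · exact Or.inr (Or.inr (Or.inr (Or.inl h))))
          (fun h => hOX h hus) (fun h => hOX h hvs) (fun h => h.1 hus) (fun h => h.1 hvs)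
          (mem_orb_self p) ⟨hq, hpq⟩ (hσ.mem_Xi_moved hp) (hσ.mem_Xi_moved hq)
        exact alt_of_decomp hPR hD hX hY
    · constructor
      · rintro ⟨S₁, S₂, h1, h2, hS⟩
        obtain ⟨X, Y, hX, hY, hD⟩ := decomp_of_alt hPR hS h1 h2
        have hnb : ∀ x, σ x ≠ x → x ∈ Xi R σ := fun x hx hs => hb (hblock.mpr ⟨x, hx, hs⟩)
        exact (hσ.indec_no_block hnb (hσ.mem_Xi_moved hp) (hσ.mem_Xi_moved hq) hpq hD hX hY).elim
      · rintro (h | h | ⟨h, _⟩)
        · exact absurd (Or.inl h) h45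
        · exact absurd (Or.inr h) h45
        · exact absurd h hb

end Cfsg.Agent.S2221
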