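import Cfsg.Statements.S2222
import Mathlib
import Cfsg.Agent.Lib.Perm.SylowIn
import Cfsg.Agent.Lib.Perm.SylowSym

set_option autoImplicit false
open Cfsg

namespace Cfsg.Agent.S2222

open Cfsg.Agent.Lib.Perm.SylowIn Cfsg.Agent.Lib.Perm.SylowSym Equiv Equiv.Perm MulAction

/-- If a Sylow 2-subgroup `Q` of `G` in `H` either has `N(Q) ≤ H` or is `H`, then `H` is pronormal. -/
theorem pronormal_of_normalizer_le {G : Type*} [Group G] [Finite G] (H Q : Subgroup G)
    (hQ : IsSylowIn 2 Q ⊤) (hQH : Q ≤ H)
    (hN : Subgroup.normalizer (Q : Set G) ≤ H ∨ H = Q) : Cfsg.IsPronormal H := by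
  have hfact : Fact (Nat.Prime 2) := ⟨Nat.prime_two⟩
  intro g
  set Hg := H.map (MulAut.conj g).toMonoidHom with hHg
  have hQJ : IsSylowIn 2 Q (H ⊔ Hg) := hQ.of_le (hQH.trans le_sup_left) le_top
  obtain ⟨h, hh, hw⟩ := hQJ.exists_mem_mul_mem_normalizer g (fun q hq =>
    Subgroup.mem_sup_right ⟨q, hQH hq, rfl⟩)
  refine ⟨h⁻¹, inv_mem hh, ?_⟩
  ext y
  rw [hHg, mem_map_conj_iff, mem_map_conj_iff]
  have e : g = h⁻¹ * (h * g) := by group
  set w := h * g with hwdef
  have hiff : g⁻¹ * y * g = w⁻¹ * (h * y * h⁻¹) * w := by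
    rw [hwdef]; group
  rw [hiff, inv_inv]
  rcases hN with hN | hN
  · have hwH := hN hw
    constructor
    · intro h1
      have := H.mul_mem (H.mul_mem hwH h1) (H.inv_mem hwH)
      simpa [mul_assoc] using this
    · intro h1
      exact H.mul_mem (H.mul_mem (H.inv_mem hwH) h1) hwH
  · rw [hN]
    exact ((Subgroup.mem_normalizer_iff''.mp hw _).symm)

/-- Existence of a Sylow 2-subgroup of `G` inside a subgroup of odd index. -/
theorem exists_sylow_le {G : Type*} [Group G] [Finite G] (H : Subgroup G) (hH : Odd H.index) :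
    ∃ Q : Subgroup G, IsSylowIn 2 Q ⊤ ∧ IsSylowIn 2 Q H ∧ Q ≤ H := by
  have hfact : Fact (Nat.Prime 2) := ⟨Nat.prime_two⟩
  obtain ⟨Q, hQ⟩ := exists_isSylowIn 2 H
  refine ⟨Q, ⟨le_top, hQ.isPGroup, ?_⟩, hQ, hQ.le⟩
  rw [Subgroup.relIndex_top_right, ← Subgroup.relIndex_mul_index hQ.le]
  intro h2
  rcases (Nat.Prime.dvd_mul Nat.prime_two).mp h2 with h3 | h3
  · exact hQ.not_dvd h3
  · exact (Nat.not_even_iff_odd.mpr hH) (even_iff_two_dvd.mpr h3)

/-- The finite fact about `A_5`: a nontrivial even 2-element fixes exactly one point. -/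
theorem fix_card_five : ∀ x : Perm (Fin 5), sign x = 1 → x ^ 4 = 1 → x ≠ 1 →
    (Finset.univ.filter (fun a => x a = a)).card = 1 := by
  decide +kernel

theorem card_A5 : Nat.card (alternatingGroup (Fin 5)) = 60 := by
  rw [Nat.card_eq_fintype_card, card_alternatingGroup]
  simp [Nat.factorial]

section A5

local notation "G" => alternatingGroup (Fin 5)

theorem normalizer_le_or_eq (H Q : Subgroup G) (hH : Odd H.index) (hQ : IsSylowIn 2 Q ⊤)
    (hQH : Q ≤ H) : Subgroup.normalizer (Q : Set G) ≤ H ∨ H = Q := by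
  have hfact : Fact (Nat.Prime 2) := ⟨Nat.prime_two⟩
  classical
  -- the order of `Q`
  have hQcard : Nat.card Q = 4 := by
    obtain ⟨k, hk⟩ := (IsPGroup.iff_card.mp hQ.isPGroup)
    have h1 := card_mul_relIndex hQ.le
    rw [Subgroup.relIndex_top_right, Nat.card_congr Subgroup.topEquiv.toEquiv, card_A5, hk] at h1
    have h2 := hQ.not_dvd
    rw [Subgroup.relIndex_top_right] at h2
    have hk3 : k ≤ 5 := by
      by_contra hcon
      have : 2 ^ 6 ≤ 2 ^ k := Nat.pow_le_pow_right (by norm_num) (by omega)
      have hpos : 0 < Q.index := Nat.pos_of_ne_zero (by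
        intro h0; rw [h0] at h2; exact h2 (dvd_zero _))
      nlinarith
    interval_cases k <;> first | omega | rfl | skip
  -- a fixed point
  have hfin5 : ¬ 2 ∣ Nat.card (Fin 5) := by simp
  obtain ⟨a, ha⟩ := hQ.isPGroup.nonempty_fixed_point_of_prime_not_dvd_card (Fin 5) hfin5
  have hQfix : ∀ q ∈ Q, ((q : G) : Perm (Fin 5)) a = a := fun q hq => ha ⟨q, hq⟩
  -- unique fixed points of nontrivial elements
  have hQ2 : ∀ q ∈ Q, ((q : G) : Perm (Fin 5)) ^ 4 = 1 := by
    intro q hq
    have h1 : (⟨q, hq⟩ : Q) ^ 4 = 1 := by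
      rw [← hQcard]
      exact pow_card_eq_one'
    have h2 := congrArg (fun z : Q => ((z : G) : Perm (Fin 5))) h1
    simpa using h2
  have huniq : ∀ q ∈ Q, q ≠ 1 → ∀ b : Fin 5, ((q : G) : Perm (Fin 5)) b = b → b = a := by
    intro q hq hq1 b hb
    have h1 := fix_card_five (q : G) (Equiv.Perm.mem_alternatingGroup.mp q.2) (hQ2 q hq)
      (fun he => hq1 (Subtype.ext he))
    have h2 : a ∈ Finset.univ.filter (fun c => ((q : G) : Perm (Fin 5)) c = c) := by
      simp [hQfix q hq]
    have h3 : b ∈ Finset.univ.filter (fun c => ((q : G) : Perm (Fin 5)) c = c) := by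
      simp [hb]
    exact (Finset.card_le_one.mp h1.le) b h3 a h2
  obtain ⟨q₀, hq₀, hq₀1⟩ : ∃ q ∈ Q, q ≠ 1 := by
    by_contra hcon
    push Not at hcon
    have : Q = ⊥ := (Subgroup.eq_bot_iff_forall Q).mpr hcon
    rw [this, Subgroup.card_bot] at hQcard
    omega
  -- the stabilizer
  set S : Subgroup G := stabilizer G a with hS
  have hScard : Nat.card S = 12 := by
    have := alternatingGroup.isPretransitive_of_three_le_card (α := Fin 5) (by simp)
    have h1 := S.card_mul_index
    have h2 : S.index = 5 := by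
      rw [hS, index_stabilizer_of_transitive]
      simp
    rw [h2, card_A5] at h1
    omega
  have hNS : Subgroup.normalizer (Q : Set G) ≤ S := by
    intro w hw
    have h1 : w⁻¹ * q₀ * w ∈ Q := (Subgroup.mem_normalizer_iff''.mp hw q₀).mp hq₀
    have h2 := hQfix _ h1
    have h3 : ((q₀ : G) : Perm (Fin 5)) ((w : Perm (Fin 5)) a) = (w : Perm (Fin 5)) a := by
      have h4 : (((w⁻¹ * q₀ * w : G) : Perm (Fin 5))) a = (w : Perm (Fin 5))⁻¹ ((q₀ : Perm (Fin 5)) ((w : Perm (Fin 5)) a)) := rfl
      rw [h4] at h2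
      have h5 := congrArg (w : Perm (Fin 5)) h2
      simpa using h5
    exact huniq q₀ hq₀ hq₀1 _ h3
  by_cases hHS : H ≤ S
  · -- `H` is `Q` or `S`
    have h1 : Nat.card H ∣ 12 := hScard ▸ Subgroup.card_dvd_of_le hHS
    have h2 : 4 ∣ Nat.card H := hQcard ▸ Subgroup.card_dvd_of_le hQH
    have h3 : Nat.card H = 4 ∨ Nat.card H = 12 := by
      have h4 := Nat.le_of_dvd (by norm_num) h1
      obtain ⟨k, hk⟩ := h2
      have : k ≤ 3 := by omega
      interval_cases k <;> simp_all <;> omega
    rcases h3 with h3 | h3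
    · right
      exact (Subgroup.eq_of_le_of_card_ge hQH (by omega)).symm
    · left
      have : H = S := Subgroup.eq_of_le_of_card_ge hHS (by omega)
      rw [this]
      exact hNS
  · -- `H` is transitive
    left
    obtain ⟨h, hh, hha⟩ := SetLike.not_le_iff_exists.mp hHS
    set b : Fin 5 := (h : Perm (Fin 5)) a with hb
    have hba : b ≠ a := hha
    have hQtrans : ∀ c : Fin 5, c ≠ a → ∃ q ∈ Q, ((q : G) : Perm (Fin 5)) b = c := by
      let f : Q → {c : Fin 5 // c ≠ a} := fun q => ⟨((q : G) : Perm (Fin 5)) b, by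
        intro he
        have h1 := hQfix _ q.2
        rw [← h1] at he
        exact hba (Equiv.injective _ he)⟩
      have hf : Function.Injective f := by
        intro q q' he
        have he' : ((q : G) : Perm (Fin 5)) b = ((q' : G) : Perm (Fin 5)) b := congrArg Subtype.val he
        by_contra hne
        have hne' : (q' : G)⁻¹ * q ≠ 1 := by
          intro h1
          apply hne
          apply Subtype.ext
          exact (inv_mul_eq_one.mp h1).symm
        have hmem : (q' : G)⁻¹ * q ∈ Q := mul_mem (inv_mem q'.2) q.2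
        refine hba (huniq _ hmem hne' b ?_)
        change ((q' : Perm (Fin 5)))⁻¹ ((q : Perm (Fin 5)) b) = b
        rw [he']
        simp
      have hcard : Nat.card Q = Nat.card {c : Fin 5 // c ≠ a} := by
        rw [hQcard, Nat.card_eq_fintype_card, Fintype.card_subtype_compl]
        simp
      have hsurj := (Nat.bijective_iff_injective_and_card f).mpr ⟨hf, hcard⟩
      intro c hc
      obtain ⟨q, hq⟩ := hsurj.2 ⟨c, hc⟩
      exact ⟨q, q.2, congrArg Subtype.val hq⟩
    have horb : orbit H a = Set.univ := by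
      ext x
      simp only [Set.mem_univ, iff_true]
      by_cases hx : x = a
      · rw [hx]; exact mem_orbit_self a
      · obtain ⟨q, hq, hqx⟩ := hQtrans x hx
        refine ⟨⟨q * h, mul_mem (hQH hq) hh⟩, ?_⟩
        exact hqx
    have h5 : 5 ∣ Nat.card H := by
      have h1 := (stabilizer H a).card_mul_index
      rw [index_stabilizer, horb] at h1
      rw [← h1]
      simp
    have h4 : 4 ∣ Nat.card H := hQcard ▸ Subgroup.card_dvd_of_le hQH
    have h60 : Nat.card H ∣ 60 := by
      rw [← card_A5]
      exact Subgroup.card_subgroup_dvd_card H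
    have h20 : 20 ∣ Nat.card H :=
      Nat.Coprime.mul_dvd_of_dvd_of_dvd (by norm_num : Nat.Coprime 4 5) h4 h5
    have hcases : Nat.card H = 20 ∨ Nat.card H = 60 := by
      obtain ⟨k, hk⟩ := h20
      have hk0 : k ≠ 0 := by
        rintro rfl
        simp at hk
      have hle := Nat.le_of_dvd (by norm_num) h60
      have : k ≤ 3 := by omega
      interval_cases k <;> simp_all <;> omega
    have htop : H = ⊤ := by
      rcases hcases with h20' | h60'
      · exfalso
        have hidx : H.index = 3 := by
          have := H.card_mul_index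
          rw [card_A5, h20'] at this
          omega
        have hnc := (H.normalCore_normal)
        rcases hnc.eq_bot_or_eq_top with hbot | htop
        · have h1 : H.normalCore.index ∣ H.index.factorial := by
            rw [Subgroup.normalCore_eq_ker, Subgroup.index_ker, Subgroup.index_eq_card, ← Nat.card_perm]
            exact Subgroup.card_subgroup_dvd_card (toPermHom G (G ⧸ H)).range
          rw [hbot, hidx, Subgroup.index_bot, card_A5] at h1
          revert h1
          decide
        · have h1 := H.normalCore_le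
          rw [htop, top_le_iff] at h1
          rw [h1, Subgroup.index_top] at hidx
          omega
      · apply Subgroup.eq_top_of_card_eq
        rw [h60', card_A5]
    rw [htop]
    exact le_top

end A5

/-- In the alternating group of degree n ≥ 5 every subgroup H of odd index is pronormal: for every element g, the subgroups H and gHg⁻¹ are conjugate by an element of the subgroup they generate. -/
theorem result (n : ℕ) (hn : 5 ≤ n)
    (H : Subgroup (alternatingGroup (Fin n))) (hH : Odd H.index) : Cfsg.IsPronormal H := by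
  have hfact : Fact (Nat.Prime 2) := ⟨Nat.prime_two⟩
  obtain ⟨Q, hQ, -, hQH⟩ := exists_sylow_le H hH
  rcases eq_or_lt_of_le hn with rfl | h6
  · exact pronormal_of_normalizer_le H Q hQ hQH (normalizer_le_or_eq H Q hH hQ hQH)
  · refine pronormal_of_normalizer_le H Q hQ hQH (Or.inl ?_)
    have hp : ¬ 2 ∣ Q.index := by
      have := hQ.not_dvd
      rwa [Subgroup.relIndex_top_right] at this
    have := normalizer_sylow_alternating_le (Ω := Fin n) (by simp; omega) (hQ.isPGroup.toSylow hp)
    simp only [IsPGroup.toSylow_coe] at this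
    exact this.trans hQH

end Cfsg.Agent.S2222
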