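import Cfsg.Statements.S2231
import Cfsg.Agent.Lib.PSL2.SylowU
import Mathlib

set_option autoImplicit false
open Cfsg

namespace Cfsg.Agent.S2231

open Cfsg.Agent.Lib.PSL2.Basic Cfsg.Agent.Lib.PSL2.Unipotent Cfsg.Agent.Lib.PSL2.SylowU

section Aux

variable {p : ℕ} [Fact p.Prime]

/-- Heisenberg matrices in `SL(3, ZMod p)`. -/
def hmat (a b c : ZMod p) : Matrix.SpecialLinearGroup (Fin 3) (ZMod p) :=
  ⟨!![1, a, c; 0, 1, b; 0, 0, 1], by simp [Matrix.det_fin_three]⟩

theorem hmat_coe (a b c : ZMod p) :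
    ((hmat a b c : Matrix.SpecialLinearGroup (Fin 3) (ZMod p)) : Matrix (Fin 3) (Fin 3) (ZMod p)) =
      !![1, a, c; 0, 1, b; 0, 0, 1] := rfl

theorem hmat_mul (a b c a' b' c' : ZMod p) :
    hmat a b c * hmat a' b' c' = hmat (a + a') (b + b') (c + c' + a * b') := by
  apply Matrix.SpecialLinearGroup.ext
  intro i j
  rw [Matrix.SpecialLinearGroup.coe_mul, hmat_coe, hmat_coe, hmat_coe]
  fin_cases i <;> fin_cases j <;> simp [Matrix.mul_apply, Fin.sum_univ_three] <;> ring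

theorem hmat_zero : hmat (0 : ZMod p) 0 0 = 1 := by
  apply Matrix.SpecialLinearGroup.ext
  intro i j
  rw [hmat_coe]
  fin_cases i <;> fin_cases j <;> simp

theorem hmat_pow (a b c : ZMod p) (n : ℕ) :
    hmat a b c ^ n = hmat ((n : ZMod p) * a) ((n : ZMod p) * b) ((n : ZMod p) * c + ((n.choose 2 : ℕ) : ZMod p) * (a * b)) := by
  induction n with
  | zero => simp [hmat_zero]
  | succ k ih =>
    rw [pow_succ, ih, hmat_mul]
    have : ((k + 1).choose 2 : ZMod p) = (k.choose 2 : ZMod p) + k := by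
      have h1 : (k + 1).choose 2 = k.choose 2 + k := by
        rw [Nat.choose_succ_succ' k 1, Nat.choose_one_right, add_comm]
      rw [h1]; push_cast; ring
    congr 1
    · push_cast; ring
    · push_cast; ring
    · rw [this]; push_cast; ring

theorem hmat_mem_qd (a b c : ZMod p) : hmat a b c ∈ Cfsg.qd p := by
  apply Subgroup.subset_closure
  refine ⟨?_, ?_, ?_⟩ <;> simp [hmat_coe]

/-- The Heisenberg group inside `qd p`. -/
def heis (p : ℕ) [Fact p.Prime] : Subgroup (Cfsg.qd p) where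
  carrier := {g | ∃ a b c : ZMod p, g.1 = hmat a b c}
  mul_mem' := by
    rintro _ _ ⟨a, b, c, h⟩ ⟨a', b', c', h'⟩
    exact ⟨a + a', b + b', c + c' + a * b', by rw [Subgroup.coe_mul, h, h', hmat_mul]⟩
  one_mem' := ⟨0, 0, 0, by rw [hmat_zero]; rfl⟩
  inv_mem' := by
    rintro g ⟨a, b, c, h⟩
    refine ⟨-a, -b, a * b - c, ?_⟩
    rw [Subgroup.coe_inv, h]
    apply inv_eq_of_mul_eq_one_right
    rw [hmat_mul, ← hmat_zero]
    congr 1 <;> ring

theorem isPGroup_heis (hp : p ≠ 2) : IsPGroup p (heis p) := by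
  have hpp := (Fact.out : p.Prime)
  have h2 : 2 < p := lt_of_le_of_ne hpp.two_le (Ne.symm hp)
  rintro ⟨⟨g, hg⟩, a, b, c, h⟩
  refine ⟨1, ?_⟩
  apply Subtype.ext
  apply Subtype.ext
  have hd : (p.choose 2 : ZMod p) = 0 := by
    rw [ZMod.natCast_eq_zero_iff]
    exact hpp.dvd_choose_self (by norm_num) h2
  simp only at h
  simp only [pow_one, Subgroup.coe_pow, Subgroup.coe_one]
  rw [h, hmat_pow, hd]
  simp [hmat_zero]

end Aux

/-- Let p be an odd prime and K a finite field of characteristic p. Then Qd(p) (the natural semidirect product of an elementary abelian group of order p² by SL₂(p)) is not involved in the projective special linear group PSL₂(K). -/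
theorem result {p : ℕ} [Fact p.Prime] (hp : p ≠ 2) {K : Type*} [Field K] [Fintype K] [CharP K p] : ¬ Cfsg.Involves ↥(Cfsg.qd p) (Matrix.ProjectiveSpecialLinearGroup (Fin 2) K) := by
  rintro ⟨A, R, hR, ⟨e⟩⟩
  let φ : A →* Cfsg.qd p := e.toMonoidHom.comp (QuotientGroup.mk' (R.subgroupOf A))
  have hφ : Function.Surjective φ := e.surjective.comp (QuotientGroup.mk'_surjective _)
  haveI : Finite A := inferInstance
  obtain ⟨P, hP, hmap⟩ := exists_isPGroup_map_eq p φ hφ (heis p) (isPGroup_heis hp)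
  let a1 : Cfsg.qd p := ⟨hmat 1 0 0, hmat_mem_qd _ _ _⟩
  let a2 : Cfsg.qd p := ⟨hmat 0 1 0, hmat_mem_qd _ _ _⟩
  have ha1 : a1 ∈ heis p := ⟨1, 0, 0, rfl⟩
  have ha2 : a2 ∈ heis p := ⟨0, 1, 0, rfl⟩
  rw [← hmap] at ha1 ha2
  obtain ⟨b1, hb1, hb1'⟩ := ha1
  obtain ⟨b2, hb2, hb2'⟩ := ha2
  have hP' : IsPGroup p (P.map A.subtype) := hP.map _
  have hcomm : (b1 : Matrix.ProjectiveSpecialLinearGroup (Fin 2) K) * b2 = b2 * b1 :=
    comm_of_isPGroup_psl p hP' ⟨b1, hb1, rfl⟩ ⟨b2, hb2, rfl⟩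
  have hcomm' : b1 * b2 = b2 * b1 := Subtype.ext hcomm
  have h3 : a1 * a2 = a2 * a1 := by
    rw [← hb1', ← hb2', ← map_mul, ← map_mul, hcomm']
  have h4 := congrArg Subtype.val h3
  simp only [Subgroup.coe_mul, a1, a2, hmat_mul] at h4
  have h5 := congrArg (fun M : Matrix.SpecialLinearGroup (Fin 3) (ZMod p) => (M : Matrix (Fin 3) (Fin 3) (ZMod p)) 0 2) h4
  simp [hmat_coe] at h5

end Cfsg.Agent.S2231
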