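import Cfsg.Statements.S2232
import Mathlib
import Cfsg.Agent.Lib.Classical.Herm.SU3Sylow
import Cfsg.Agent.Lib.PGroup.QdRadical

set_option autoImplicit false
open Cfsg

namespace Cfsg.Agent.S2232

open scoped MatrixGroups

theorem mem_of_normal_sylow {X : Type*} [Group X] [Finite X] {p : ℕ} [Fact p.Prime] (P : Sylow p X)
    (hn : (P : Subgroup X).Normal) (x : X) (k : ℕ) (hx : x ^ p ^ k = 1) : x ∈ P := by
  have h1 : IsPGroup p (Subgroup.zpowers x) := by
    rintro ⟨_, m, rfl⟩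
    refine ⟨k, Subtype.ext ?_⟩
    change ((fun t : ℤ => x ^ t) m) ^ p ^ k = 1
    simp only
    rw [← zpow_natCast, ← zpow_mul, mul_comm, zpow_mul, zpow_natCast, hx, one_zpow]
  obtain ⟨Q, hQ⟩ := h1.exists_le_sylow
  haveI := Sylow.unique_of_normal P hn
  have hQP : Q = P := Subsingleton.elim _ _
  rw [← hQP]
  exact hQ (Subgroup.mem_zpowers x)

/-- Trivial intersection of Sylow subgroups passes to sections having a normal `p`-subgroup. -/
theorem normal_sylow_of_TI {G X : Type*} [Group G] [Finite G] [Group X] [Finite X] {p : ℕ} [hp : Fact p.Prime]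
    (hTI : ∀ (U V : Sylow p G) (x : G), x ∈ U → x ∈ V → x ≠ 1 → U = V)
    (K : Subgroup G) (φ : K →* X) (hφ : Function.Surjective φ) (V : Subgroup X) [hVn : V.Normal]
    (hV : IsPGroup p V) (hV1 : V ≠ ⊥) : ∃ P : Sylow p X, (P : Subgroup X).Normal := by
  classical
  let D : Subgroup K := V.comap φ
  haveI hDn : D.Normal := Subgroup.Normal.comap hVn φ
  obtain ⟨PD⟩ : Nonempty (Sylow p D) := inferInstance
  let Q : Subgroup K := (PD : Subgroup D).map D.subtype
  let ψ : D →* V := φ.subgroupComap V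
  have hψ : Function.Surjective ψ := φ.subgroupComap_surjective_of_surjective V hφ
  have hPV : ((PD.mapSurjective hψ : Sylow p V) : Subgroup V) = ⊤ :=
    ((PD.mapSurjective hψ).is_maximal' (IsPGroup.to_subgroup hV ⊤) le_top).symm
  -- a nontrivial element of `Q`
  obtain ⟨y, hyQ, hy1⟩ : ∃ y : K, y ∈ Q ∧ y ≠ 1 := by
    obtain ⟨v, hv1⟩ := (Subgroup.ne_bot_iff_exists_ne_one.mp hV1)
    have hv2 : v ∈ ((PD.mapSurjective hψ : Sylow p V) : Subgroup V) := by rw [hPV]; trivial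
    rw [Sylow.coe_mapSurjective] at hv2
    obtain ⟨d, hd, hdv⟩ := hv2
    refine ⟨(d : K), ⟨d, hd, rfl⟩, ?_⟩
    intro h1
    apply hv1
    rw [← hdv]
    have h2 : d = 1 := Subtype.ext h1
    rw [h2, map_one]
  have hQp : IsPGroup p Q := PD.isPGroup'.map D.subtype
  have hQ'p : IsPGroup p (Q.map K.subtype) := hQp.map K.subtype
  obtain ⟨Qt, hQt⟩ := hQ'p.exists_le_sylow
  have hyQt : (y : G) ∈ Qt := hQt ⟨y, hyQ, rfl⟩
  have hy1' : (y : G) ≠ 1 := fun h => hy1 (Subtype.ext h)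
  -- the normaliser of `Q` normalises `Qt`
  have hN : ∀ g ∈ Subgroup.normalizer (Q : Set K), ∀ r ∈ (Qt : Subgroup G), ((g : K) : G) * r * ((g : K) : G)⁻¹ ∈ (Qt : Subgroup G) := by
    intro g hg r hr
    have h1 : (g * y * g⁻¹ : K) ∈ Q := (Subgroup.mem_normalizer_iff.mp hg y).mp hyQ
    have h2 : ((g * y * g⁻¹ : K) : G) ∈ (Qt : Subgroup G) := hQt ⟨_, h1, rfl⟩
    have h3 : ((g * y * g⁻¹ : K) : G) ∈ (((g : G) • Qt : Sylow p G) : Subgroup G) := by
      rw [Sylow.coe_subgroup_smul]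
      exact Subgroup.smul_mem_pointwise_smul (y : G) (MulAut.conj (g : G)) _ hyQt
    have h4 : ((g * y * g⁻¹ : K) : G) ≠ 1 := by
      intro h0
      apply hy1'
      have h5 : ((g : G) * (y : G) * (g : G)⁻¹) = MulAut.conj (g : G) (y : G) := rfl
      have h6 : MulAut.conj (g : G) (y : G) = 1 := h0
      exact (MulAut.conj (g : G)).injective (by rw [h6, map_one])
    have h5 := hTI _ _ _ h3 h2 h4
    have h6 : ((g : G) * r * (g : G)⁻¹) ∈ (((g : G) • Qt : Sylow p G) : Subgroup G) := by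
      rw [Sylow.coe_subgroup_smul]
      exact Subgroup.smul_mem_pointwise_smul r (MulAut.conj (g : G)) _ hr
    rw [h5] at h6
    exact h6
  -- the Sylow subgroup of `K`
  let R : Subgroup K := (Qt : Subgroup G).comap K.subtype
  have hRp : IsPGroup p R := Qt.isPGroup'.comap_of_injective K.subtype K.subtype_injective
  obtain ⟨Rs, hRs⟩ := hRp.exists_le_sylow
  have hRs_eq : (Rs : Subgroup K) = R := by
    apply le_antisymm _ hRs
    have h1 : IsPGroup p ((Rs : Subgroup K).map K.subtype) := Rs.isPGroup'.map K.subtype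
    obtain ⟨Qt', hQt'⟩ := h1.exists_le_sylow
    have hyR : y ∈ R := by
      change (y : G) ∈ (Qt : Subgroup G)
      exact hyQt
    have h2 : (y : G) ∈ (Qt' : Subgroup G) := hQt' ⟨y, hRs hyR, rfl⟩
    have h3 := hTI _ _ _ h2 hyQt hy1'
    intro r hr
    change (r : G) ∈ (Qt : Subgroup G)
    rw [← h3]
    exact hQt' ⟨r, hr, rfl⟩
  let P : Sylow p X := Rs.mapSurjective hφ
  have hPm : ∀ a, a ∈ (P : Subgroup X) ↔ ∃ r ∈ R, φ r = a := by
    intro a
    have h1 : (P : Subgroup X) = (Rs : Subgroup K).map φ := Sylow.coe_mapSurjective hφ Rs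
    rw [h1, hRs_eq]
    rfl
  have hVP : V ≤ (P : Subgroup X) := by
    have h1 := P.is_maximal' (P.isPGroup'.to_sup_of_normal_right hV) le_sup_left
    rw [← h1]
    exact le_sup_right
  refine ⟨P, ⟨fun a ha x => ?_⟩⟩
  obtain ⟨k, rfl⟩ := hφ x
  have hFr := Sylow.normalizer_sup_eq_top (p := p) (N := D) PD
  have hk : k ∈ Subgroup.normalizer (Q : Set K) ⊔ D := by
    have h0 : Subgroup.normalizer (Q : Set K) ⊔ D = ⊤ := hFr
    rw [h0]
    trivial
  obtain ⟨n, hn, d, hd, rfl⟩ := Subgroup.mem_sup_of_normal_right.mp hk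
  have hd' : φ d ∈ V := hd
  have h1 : φ d * a * (φ d)⁻¹ ∈ (P : Subgroup X) :=
    Subgroup.mul_mem _ (Subgroup.mul_mem _ (hVP hd') ha) (Subgroup.inv_mem _ (hVP hd'))
  obtain ⟨r, hr, hra⟩ := (hPm _).mp h1
  rw [hPm]
  refine ⟨n * r * n⁻¹, ?_, ?_⟩
  · exact hN n hn r hr
  · rw [map_mul, map_mul, map_inv, hra, map_mul, mul_inv_rev]
    group

/-- Let p be an odd prime, q a power of p and K a finite field with q² elements. Then Qd(p) (the natural semidirect product of an elementary abelian group of order p² by SL₂(p)) is not involved in the projective special unitary group PSU₃(q) realised over K. -/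
theorem result {p : ℕ} [Fact p.Prime] (hp : p ≠ 2) {K : Type*} [Field K] [Fintype K] [CharP K p] (n : ℕ) (hn : 1 ≤ n) (hK : Fintype.card K = (p ^ n) ^ 2) : ¬ Cfsg.Involves ↥(Cfsg.qd p) (Cfsg.PSU 3 K (p ^ n)) := by
  classical
  rintro ⟨K₁, R₁, hN, ⟨e⟩⟩
  have hpq : p ∣ p ^ n := dvd_pow_self p (by omega)
  let π : Cfsg.SU 3 K (p ^ n) →* Cfsg.PSU 3 K (p ^ n) := QuotientGroup.mk' _
  have hπ : Function.Surjective π := QuotientGroup.mk'_surjective _
  let π₁ : K₁.comap π →* K₁ := π.subgroupComap K₁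
  have hπ₁ : Function.Surjective π₁ := π.subgroupComap_surjective_of_surjective K₁ hπ
  let φ : K₁.comap π →* Cfsg.qd p := e.toMonoidHom.comp ((QuotientGroup.mk' (R₁.subgroupOf K₁)).comp π₁)
  have hφ : Function.Surjective φ :=
    e.surjective.comp ((QuotientGroup.mk'_surjective _).comp hπ₁)
  have hV1 : (Cfsg.Agent.Lib.PGroup.QdRadical.qdLin p).ker ≠ ⊥ := by
    rw [Subgroup.ne_bot_iff_exists_ne_one]
    refine ⟨⟨⟨Cfsg.Agent.Lib.PGroup.QdSplit.aff 1 ![1, 0], Cfsg.Agent.Lib.PGroup.QdSplit.aff_mem_qd _ _⟩, ?_⟩, ?_⟩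
    · rw [MonoidHom.mem_ker]
      exact Cfsg.Agent.Lib.PGroup.QdRadical.qdLin_aff 1 _
    · intro h0
      have h1 := congrArg (fun z : (Cfsg.Agent.Lib.PGroup.QdRadical.qdLin p).ker =>
        ((z : Cfsg.qd p) : Matrix.SpecialLinearGroup (Fin 3) (ZMod p)).1 0 2) h0
      simp [Cfsg.Agent.Lib.PGroup.QdSplit.aff] at h1
  obtain ⟨P, hP⟩ := normal_sylow_of_TI (p := p)
    (fun U V x hxU hxV hx => Cfsg.Agent.Lib.Classical.Herm.SU3Sylow.sylow_TI hpq hK U V x hxU hxV hx)
    (K₁.comap π) φ hφ (Cfsg.Agent.Lib.PGroup.QdRadical.qdLin p).ker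
    Cfsg.Agent.Lib.PGroup.QdRadical.isPGroup_ker_qdLin hV1
  -- the normal Sylow subgroup contains the two root groups
  let u : SL(2, ZMod p) := ⟨!![1, 1; 0, 1], by simp [Matrix.det_fin_two_of]⟩
  let l : SL(2, ZMod p) := ⟨!![1, 0; 1, 1], by simp [Matrix.det_fin_two_of]⟩
  have hu : ∀ m : ℕ, (u ^ m).1 = !![1, (m : ZMod p); 0, 1] := by
    intro m
    induction m with
    | zero =>
      ext i j
      fin_cases i <;> fin_cases j <;> simp
    | succ m ih =>
      rw [pow_succ, Matrix.SpecialLinearGroup.coe_mul, ih]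
      ext i j
      fin_cases i <;> fin_cases j <;> simp [u, Matrix.mul_apply, Fin.sum_univ_two]
      ring
  have hl : ∀ m : ℕ, (l ^ m).1 = !![1, 0; (m : ZMod p), 1] := by
    intro m
    induction m with
    | zero =>
      ext i j
      fin_cases i <;> fin_cases j <;> simp
    | succ m ih =>
      rw [pow_succ, Matrix.SpecialLinearGroup.coe_mul, ih]
      ext i j
      fin_cases i <;> fin_cases j <;> simp [l, Matrix.mul_apply, Fin.sum_univ_two]
  have hup : u ^ p = 1 := by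
    apply Subtype.ext
    rw [hu, ZMod.natCast_self]
    ext i j
    fin_cases i <;> fin_cases j <;> simp
  have hlp : l ^ p = 1 := by
    apply Subtype.ext
    rw [hl, ZMod.natCast_self]
    ext i j
    fin_cases i <;> fin_cases j <;> simp
  have hlift : ∀ A : SL(2, ZMod p), A ^ p = 1 → ∀ x : Cfsg.qd p,
      Cfsg.Agent.Lib.PGroup.QdRadical.qdLin p x = A → x ∈ P := by
    intro A hA x hx
    have h1 : x ^ p ∈ (Cfsg.Agent.Lib.PGroup.QdRadical.qdLin p).ker := by
      rw [MonoidHom.mem_ker, map_pow, hx, hA]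
    obtain ⟨k, hk⟩ := Cfsg.Agent.Lib.PGroup.QdRadical.isPGroup_ker_qdLin ⟨x ^ p, h1⟩
    have hk' : (x ^ p) ^ p ^ k = 1 := congrArg Subtype.val hk
    apply mem_of_normal_sylow P hP x (k + 1)
    rw [pow_succ', pow_mul]
    exact hk'
  obtain ⟨xu, hxu⟩ := Cfsg.Agent.Lib.PGroup.QdRadical.qdLin_surjective (p := p) u
  obtain ⟨xl, hxl⟩ := Cfsg.Agent.Lib.PGroup.QdRadical.qdLin_surjective (p := p) l
  have hxuP := hlift u hup xu hxu
  have hxlP := hlift l hlp xl hxl
  have hwP : xu * xl⁻¹ * xu ∈ P :=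
    Subgroup.mul_mem _ (Subgroup.mul_mem _ hxuP (Subgroup.inv_mem _ hxlP)) hxuP
  obtain ⟨k, hk⟩ := P.isPGroup' ⟨_, hwP⟩
  have hk' : (xu * xl⁻¹ * xu) ^ p ^ k = 1 := congrArg Subtype.val hk
  have hk2 := congrArg (Cfsg.Agent.Lib.PGroup.QdRadical.qdLin p) hk'
  rw [map_pow, map_mul, map_mul, map_inv, hxu, hxl, map_one] at hk2
  have hm1 : (-1 : ZMod p) ≠ 1 := by
    intro h0
    have h1 : ((2 : ℕ) : ZMod p) = 0 := by
      push_cast
      linear_combination -h0
    rw [ZMod.natCast_eq_zero_iff] at h1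
    exact hp ((Nat.prime_dvd_prime_iff_eq (Fact.out) Nat.prime_two).mp h1)
  let l' : SL(2, ZMod p) := ⟨!![1, 0; -1, 1], by simp [Matrix.det_fin_two_of]⟩
  have hll : l⁻¹ = l' := by
    rw [inv_eq_iff_mul_eq_one]
    apply Subtype.ext
    rw [Matrix.SpecialLinearGroup.coe_mul]
    ext i j
    fin_cases i <;> fin_cases j <;> simp [l, l', Matrix.mul_apply, Fin.sum_univ_two]
  let w : SL(2, ZMod p) := ⟨!![0, 1; -1, 0], by simp [Matrix.det_fin_two_of]⟩
  have hw : u * l⁻¹ * u = w := by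
    rw [hll]
    apply Subtype.ext
    rw [Matrix.SpecialLinearGroup.coe_mul, Matrix.SpecialLinearGroup.coe_mul]
    ext i j
    fin_cases i <;> fin_cases j <;> simp [u, l', w, Matrix.mul_apply, Fin.sum_univ_two]
  rw [hw] at hk2
  have hw2 : (w ^ 2).1 = !![-1, 0; 0, -1] := by
    rw [pow_two, Matrix.SpecialLinearGroup.coe_mul]
    ext i j
    fin_cases i <;> fin_cases j <;> simp [w, Matrix.mul_apply, Fin.sum_univ_two]
  have hw4 : w ^ 4 = 1 := by
    have h1 : w ^ 4 = w ^ 2 * w ^ 2 := by rw [← pow_add]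
    apply Subtype.ext
    rw [h1, Matrix.SpecialLinearGroup.coe_mul, hw2]
    ext i j
    fin_cases i <;> fin_cases j <;> simp [Matrix.mul_apply, Fin.sum_univ_two]
  have hw2ne : w ^ 2 ≠ 1 := by
    intro h0
    have h1 := congrArg (fun z : SL(2, ZMod p) => z.1 0 0) h0
    simp only [hw2] at h1
    simp at h1
    exact hm1 h1
  have hord : orderOf w = 2 ^ (1 + 1) := by
    haveI : Fact (Nat.Prime 2) := ⟨Nat.prime_two⟩
    exact orderOf_eq_prime_pow (by simpa using hw2ne) (by simpa using hw4)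
  have h4 := orderOf_dvd_of_pow_eq_one hk2
  rw [hord] at h4
  have h2 : 2 ∣ p ^ k := (dvd_pow_self 2 (by norm_num)).trans h4
  exact hp ((Nat.prime_dvd_prime_iff_eq Nat.prime_two (Fact.out)).mp (Nat.prime_two.dvd_of_dvd_pow h2)).symm

end Cfsg.Agent.S2232
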