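import Cfsg.Statements.S2239
import Cfsg.Agent.Lib.Suzuki.Classify

set_option autoImplicit false
open Cfsg

namespace Cfsg.Agent.S2239

open Cfsg.Agent.Lib.Suzuki.Basic Cfsg.Agent.Lib.Suzuki.Struct Cfsg.Agent.Lib.Suzuki.Classify
  Cfsg.Agent.Lib.Suzuki.SubEmb Cfsg.Agent.Lib.Suzuki.SubG


/-- Subfield subgroups of the Suzuki group: let q = 2^(2m+1) and s = 2^(2k+1) with m, k ≥ 1 and 2k+1 dividing 2m+1 (so q is a power of s), both groups realised as stabilisers in SL₄ of the Suzuki–Tits ovoid. Then Sz(q) has a subgroup isomorphic to Sz(s), and any two subgroups of Sz(q) isomorphic to Sz(s) are conjugate. -/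
theorem result {F : Type*} [Field F] [Fintype F] {m : ℕ} (hm : 1 ≤ m) (hF : Fintype.card F = 2 ^ (2 * m + 1)) {K : Type*} [Field K] [Fintype K] {k : ℕ} (hk : 1 ≤ k) (hK : Fintype.card K = 2 ^ (2 * k + 1)) (hdiv : 2 * k + 1 ∣ 2 * m + 1) :
    (∃ S : Subgroup ↥(Cfsg.Sz F m), Nonempty (↥S ≃* ↥(Cfsg.Sz K k))) ∧
    ∀ S₁ S₂ : Subgroup ↥(Cfsg.Sz F m), Nonempty (↥S₁ ≃* ↥(Cfsg.Sz K k)) → Nonempty (↥S₂ ≃* ↥(Cfsg.Sz K k)) →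
      ∃ g : ↥(Cfsg.Sz F m), S₂ = S₁.map (MulAut.conj g).toMonoidHom := by
  have h : Hyp F m := ⟨hm, hF⟩
  have hK' : Hyp K k := ⟨hk, hK⟩
  have hc := h.charP
  obtain ⟨K₀, hcard, -⟩ := Cfsg.Agent.Lib.Suzuki.Subfield.exists_subfield hF hdiv (by omega)
  obtain ⟨ι, -⟩ := exists_iota h hK K₀ hcard
  refine ⟨⟨(emb hK' h hdiv ι).range, ⟨(rangeEquiv hK' h hdiv ι).symm⟩⟩, ?_⟩
  rintro S₁ S₂ ⟨e₁⟩ ⟨e₂⟩
  obtain ⟨x₁, hx₁⟩ := conj_range_of_iso h hK' hdiv ι e₁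
  obtain ⟨x₂, hx₂⟩ := conj_range_of_iso h hK' hdiv ι e₂
  refine ⟨x₂⁻¹ * x₁, ?_⟩
  rw [map_conj_mul h, hx₁, ← hx₂, map_conj_inv_map h]

end Cfsg.Agent.S2239
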