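import Cfsg.Statements.S2240
import Mathlib
import Cfsg.Agent.Lib.Suzuki.Types
import Cfsg.Agent.Lib.Suzuki.Subfield

set_option autoImplicit false
open Cfsg

namespace Cfsg.Agent.S2240

open Cfsg.Agent.Lib.Suzuki.Basic Cfsg.Agent.Lib.Suzuki.Struct Cfsg.Agent.Lib.Suzuki.Zass
  Cfsg.Agent.Lib.Suzuki.Sub Cfsg.Agent.Lib.Suzuki.Gen Cfsg.Agent.Lib.Suzuki.Fix
  Cfsg.Agent.Lib.Suzuki.Order Cfsg.Agent.Lib.Suzuki.Syl Cfsg.Agent.Lib.Suzuki.Types

variable {F : Type*} [Field F] [Fintype F] {m : ℕ}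

/-- `D(k)` conjugates `L(0,b)` by the factor `κ(k)`. -/
theorem conj_Dg_Z (h : Hyp F m) (k : Fˣ) (b : F) :
    Dg h k * Lg h 0 b * (Dg h k)⁻¹ = Lg h 0 ((k : F) ^ (2 ^ (m + 1)) * k * b) := by
  rw [Dg_conj_Lg h, mul_zero]

/-- `κ` is onto the nonzero elements. -/
theorem exists_kappa (h : Hyp F m) {l : F} (hl : l ≠ 0) : ∃ k : Fˣ, (k : F) ^ (2 ^ (m + 1)) * k = l := by
  obtain ⟨k0, hk0⟩ := (pow_sg_mul_self_bij h).2 l
  simp only at hk0
  have hk00 : k0 ≠ 0 := by
    rintro rfl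
    apply hl
    rw [← hk0]
    simp
  exact ⟨Units.mk0 k0 hk00, by simpa using hk0⟩

/-- The `⇒` direction. -/
theorem forward (h : Hyp F m) {n : ℕ} (E : Subgroup (G F m)) (hE : Cfsg.IsElementaryAbelian 2 E)
    (hcard : Nat.card E = 2 ^ n) (hn : 2 ≤ n)
    (hTI : ∀ x : G F m, E ⊓ E.map (MulAut.conj x).toMonoidHom ≠ ⊥ →
      x ∈ Subgroup.normalizer (E : Set (G F m))) : n ∣ 2 * m + 1 := by
  classical
  have hpg : IsPGroup 2 E := by
    intro a
    exact ⟨1, Subtype.ext (by simpa using hE.2 a.1 a.2)⟩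
  obtain ⟨Q, hQ⟩ := hpg.exists_le_sylow
  obtain ⟨y, hy⟩ := exists_conj h Q
  rw [hy] at hQ
  -- description of the members
  have hform : ∀ a ∈ E, ∃ b : F, a = y * Lg h 0 b * y⁻¹ := by
    intro a ha
    obtain ⟨u, ⟨c, d, rfl⟩, rfl⟩ := hQ ha
    have h1 := hE.2 _ ha
    have hc : c = 0 := by
      have e : (MulAut.conj y).toMonoidHom (Lg h c d) ^ 2 =
          (MulAut.conj y).toMonoidHom (Lg h c d * Lg h c d) := by
        rw [pow_two, map_mul]
      rw [e, Lg_sq h] at h1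
      have h2 : Lg h 0 (c ^ (2 ^ (m + 1)) * c) = 1 := (MulAut.conj y).injective (by
        rw [map_one]; exact h1)
      by_contra hc
      exact Lg_ne_one h (Or.inr (mul_ne_zero (pow_ne_zero _ hc) hc)) h2
    subst hc
    exact ⟨d, rfl⟩
  -- the additive subgroup `W`
  let W : AddSubgroup F :=
    { carrier := {b | y * Lg h 0 b * y⁻¹ ∈ E}
      add_mem' := by
        intro a b ha hb
        have := E.mul_mem ha hb
        have e : y * Lg h 0 a * y⁻¹ * (y * Lg h 0 b * y⁻¹) = y * Lg h 0 (a + b) * y⁻¹ := by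
          have e2 : Lg h 0 (a + b) = Lg h 0 a * Lg h 0 b := by
            rw [Lg_mul h, add_zero, zero_pow_sg h, zero_mul, add_zero]
          rw [e2]
          group
        rwa [e] at this
      zero_mem' := by
        change y * Lg h 0 0 * y⁻¹ ∈ E
        rw [Lg_zero h]
        simp [E.one_mem]
      neg_mem' := by
        intro a ha
        change y * Lg h 0 (-a) * y⁻¹ ∈ E
        rw [h.neg_eq]
        exact ha }
  have hW : ∀ b, b ∈ W ↔ y * Lg h 0 b * y⁻¹ ∈ E := fun b => Iff.rfl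
  -- `E ≃ W`
  have hcW : Nat.card W = 2 ^ n := by
    rw [← hcard]
    apply Nat.card_congr
    refine Equiv.ofBijective (fun b : W => (⟨y * Lg h 0 b.1 * y⁻¹, b.2⟩ : E)) ⟨?_, ?_⟩
    · intro a b he
      have h1 : y * Lg h 0 a.1 * y⁻¹ = y * Lg h 0 b.1 * y⁻¹ := congrArg Subtype.val he
      have h2 := mul_left_cancel (mul_right_cancel h1)
      exact Subtype.ext (Lg_inj h h2).2
    · rintro ⟨a, ha⟩
      obtain ⟨b, rfl⟩ := hform a ha
      exact ⟨⟨b, ha⟩, rfl⟩
  -- the scaling property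
  have hscale : ∀ (b b' c : F), b ∈ W → b ≠ 0 → b' ∈ W → b' ≠ 0 → c ∈ W → (b / b') * c ∈ W := by
    intro b b' c hb hb0 hb' hb'0 hc
    obtain ⟨k, hk⟩ := exists_kappa h (div_ne_zero hb0 hb'0)
    set x := y * Dg h k * y⁻¹ with hx
    have hconj : ∀ t : F, x * (y * Lg h 0 t * y⁻¹) * x⁻¹ = y * Lg h 0 ((b / b') * t) * y⁻¹ := by
      intro t
      rw [← hk, ← conj_Dg_Z h k t, hx]
      group
    have hne : E ⊓ E.map (MulAut.conj x).toMonoidHom ≠ ⊥ := by
      rw [Subgroup.ne_bot_iff_exists_ne_one]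
      refine ⟨⟨y * Lg h 0 b * y⁻¹, hb, ?_⟩, ?_⟩
      · refine ⟨y * Lg h 0 b' * y⁻¹, hb', ?_⟩
        have := hconj b'
        have e : b / b' * b' = b := by field_simp
        rw [e] at this
        exact this
      · intro hc1
        have h1 : y * Lg h 0 b * y⁻¹ = 1 := congrArg Subtype.val hc1
        apply Lg_ne_one h (Or.inr hb0)
        have : Lg h 0 b = y⁻¹ * (y * Lg h 0 b * y⁻¹) * y := by group
        rw [this, h1]
        group
    have hN := hTI x hne
    rw [Subgroup.mem_normalizer_iff] at hN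
    have h1 := (hN (y * Lg h 0 c * y⁻¹)).mp hc
    rw [hconj] at h1
    exact h1
  -- choose a nonzero element
  have hWnt : ∃ b₀ ∈ W, b₀ ≠ 0 := by
    by_contra hcon
    push Not at hcon
    have h1 : Nat.card W = 1 := by
      have : Subsingleton W := ⟨fun a b => Subtype.ext (by rw [hcon a.1 a.2, hcon b.1 b.2])⟩
      exact Nat.card_unique
    rw [hcW] at h1
    have h2 : 1 < 2 ^ n := Nat.one_lt_two_pow (by omega)
    omega
  obtain ⟨b₀, hb₀, hb₀0⟩ := hWnt
  -- the subfield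
  let K : Subfield F :=
    { carrier := {t | t * b₀ ∈ W}
      mul_mem' := by
        intro s t hs ht
        change s * t * b₀ ∈ W
        by_cases hs0 : s = 0
        · subst hs0
          simp [W.zero_mem]
        · have hsb : s * b₀ ≠ 0 := mul_ne_zero hs0 hb₀0
          have := hscale (s * b₀) b₀ (t * b₀) hs hsb hb₀ hb₀0 ht
          have e : s * b₀ / b₀ * (t * b₀) = s * t * b₀ := by
            field_simp
          rwa [e] at this
      one_mem' := by
        change 1 * b₀ ∈ W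
        rwa [one_mul]
      add_mem' := by
        intro s t hs ht
        change (s + t) * b₀ ∈ W
        rw [add_mul]
        exact W.add_mem hs ht
      zero_mem' := by
        change 0 * b₀ ∈ W
        rw [zero_mul]
        exact W.zero_mem
      neg_mem' := by
        intro s hs
        change -s * b₀ ∈ W
        rw [h.neg_eq]
        exact hs
      inv_mem' := by
        intro s hs
        change s⁻¹ * b₀ ∈ W
        by_cases hs0 : s = 0
        · subst hs0
          simp [W.zero_mem]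
        · have hsb : s * b₀ ≠ 0 := mul_ne_zero hs0 hb₀0
          have := hscale b₀ (s * b₀) b₀ hb₀ hb₀0 hs hsb hb₀
          have e : b₀ / (s * b₀) * b₀ = s⁻¹ * b₀ := by
            field_simp
          rwa [e] at this }
  have hcK : Nat.card K = 2 ^ n := by
    rw [← hcW]
    apply Nat.card_congr
    refine Equiv.ofBijective (fun t : K => (⟨t.1 * b₀, t.2⟩ : W)) ⟨?_, ?_⟩
    · intro a b he
      have h1 : a.1 * b₀ = b.1 * b₀ := congrArg Subtype.val he
      exact Subtype.ext (mul_right_cancel₀ hb₀0 h1)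
    · rintro ⟨c, hc⟩
      refine ⟨⟨c / b₀, ?_⟩, ?_⟩
      · change c / b₀ * b₀ ∈ W
        rwa [div_mul_cancel₀ _ hb₀0]
      · apply Subtype.ext
        change c / b₀ * b₀ = c
        rw [div_mul_cancel₀ _ hb₀0]
  exact Cfsg.Agent.Lib.Suzuki.Subfield.dvd_of_subfield h.hF K hcK

/-- The `⇐` direction. -/
theorem backward (h : Hyp F m) {n : ℕ} (hn : 2 ≤ n) (hdvd : n ∣ 2 * m + 1) :
    ∃ E : Subgroup (G F m), Cfsg.IsElementaryAbelian 2 E ∧ Nat.card E = 2 ^ n ∧
      ∀ x : G F m, E ⊓ E.map (MulAut.conj x).toMonoidHom ≠ ⊥ →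
        x ∈ Subgroup.normalizer (E : Set (G F m)) := by
  classical
  have hc : CharP F 2 := h.charP
  obtain ⟨K, hcK, -⟩ := Cfsg.Agent.Lib.Suzuki.Subfield.exists_subfield h.hF hdvd (by omega)
  let E : Subgroup (G F m) :=
    { carrier := {g | ∃ b ∈ K, g = Lg h 0 b}
      mul_mem' := by
        rintro _ _ ⟨a, ha, rfl⟩ ⟨c, hc, rfl⟩
        refine ⟨a + c, K.add_mem ha hc, ?_⟩
        rw [Lg_mul h, add_zero, zero_pow_sg h, zero_mul, add_zero]
      one_mem' := ⟨0, K.zero_mem, (Lg_zero h).symm⟩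
      inv_mem' := by
        rintro _ ⟨a, ha, rfl⟩
        refine ⟨a, ha, ?_⟩
        rw [Lg_inv h, zero_pow_sg h, zero_mul, add_zero] }
  have hE : ∀ g, g ∈ E ↔ ∃ b ∈ K, g = Lg h 0 b := fun g => Iff.rfl
  have hcardE : Nat.card E = 2 ^ n := by
    rw [← hcK]
    apply Nat.card_congr
    refine (Equiv.ofBijective (fun b : K => (⟨Lg h 0 b.1, b.1, b.2, rfl⟩ : E)) ⟨?_, ?_⟩).symm
    · intro a b he
      exact Subtype.ext (Lg_inj h (congrArg Subtype.val he)).2
    · rintro ⟨_, b, hb, rfl⟩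
      exact ⟨⟨b, hb⟩, rfl⟩
  refine ⟨E, ⟨⟨⟨?_⟩⟩, ?_⟩, hcardE, ?_⟩
  · rintro ⟨_, a, ha, rfl⟩ ⟨_, b, hb, rfl⟩
    apply Subtype.ext
    exact Lg_zero_comm h a 0 b
  · rintro _ ⟨a, ha, rfl⟩
    rw [pow_two]
    exact Lg_zero_sq h a
  · intro x hx
    rw [Subgroup.ne_bot_iff_exists_ne_one] at hx
    obtain ⟨⟨g, hg1, g', ⟨b', hb', rfl⟩, rfl⟩, hne⟩ := hx
    obtain ⟨b, hb, hg⟩ := hg1
    have hb'0 : b' ≠ 0 := by
      rintro rfl
      apply hne
      apply Subtype.ext
      change x * Lg h 0 0 * x⁻¹ = 1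
      rw [Lg_zero h]
      group
    have hxB : x ∈ Bor F m := mem_Bor_of_conj h (Or.inr hb'0) hg
    obtain ⟨c, d, k, rfl⟩ := stab_oI h x (MulAction.mem_stabilizer_iff.mp hxB)
    have hform : ∀ t : F, (Lg h c d * Dg h k) * Lg h 0 t * (Lg h c d * Dg h k)⁻¹ =
        Lg h 0 ((k : F) ^ (2 ^ (m + 1)) * k * t) := by
      intro t
      rw [conj_Bor_Lg h, mul_zero, zero_pow_sg h, mul_zero, zero_mul, add_zero, add_zero]
    have hg' : (Lg h c d * Dg h k) * Lg h 0 b' * (Lg h c d * Dg h k)⁻¹ = Lg h 0 b := hg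
    rw [hform] at hg'
    have hb3 := (Lg_inj h hg').2
    -- `κ ∈ K`
    have hκ : (k : F) ^ (2 ^ (m + 1)) * k ∈ K := by
      have : (k : F) ^ (2 ^ (m + 1)) * k = b / b' := by
        rw [← hb3]
        field_simp
      rw [this]
      exact K.div_mem hb hb'
    -- conjugation maps `E` into `E`
    have hmap : E.map (MulAut.conj (Lg h c d * Dg h k)).toMonoidHom ≤ E := by
      rintro _ ⟨_, ⟨t, ht, rfl⟩, rfl⟩
      refine ⟨_, K.mul_mem hκ ht, ?_⟩
      exact hform t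
    have hEq : E.map (MulAut.conj (Lg h c d * Dg h k)).toMonoidHom = E := by
      apply Subgroup.eq_of_le_of_card_ge hmap
      exact (Nat.card_congr ((MulAut.conj (Lg h c d * Dg h k)).subgroupMap E).symm.toEquiv).symm.le
    exact Subgroup.mem_normalizer_iff_map_conj_eq.mpr hEq

/-- The statement. -/
theorem result {F : Type*} [Field F] [Fintype F] {m : ℕ} (hm : 1 ≤ m) (hF : Fintype.card F = 2 ^ (2 * m + 1)) (n : ℕ) (hn : 2 ≤ n) :
    (∃ E : Subgroup ↥(Cfsg.Sz F m), Cfsg.IsElementaryAbelian 2 E ∧ Nat.card ↥E = 2 ^ n ∧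
      ∀ x : ↥(Cfsg.Sz F m), E ⊓ E.map (MulAut.conj x).toMonoidHom ≠ ⊥ → x ∈ Subgroup.normalizer (E : Set ↥(Cfsg.Sz F m))) ↔ n ∣ 2 * m + 1 := by
  have h : Hyp F m := ⟨hm, hF⟩
  constructor
  · rintro ⟨E, hE, hc, hTI⟩
    exact forward h E hE hc hn hTI
  · exact backward h hn

end Cfsg.Agent.S2240
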