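import Cfsg.Statements.S2241
import Mathlib
import Cfsg.Agent.Lib.Suzuki.Fix

set_option autoImplicit false
open Cfsg

namespace Cfsg.Agent.S2241

open Cfsg.Agent.Lib.Suzuki.Basic Cfsg.Agent.Lib.Suzuki.Struct Cfsg.Agent.Lib.Suzuki.Zass
  Cfsg.Agent.Lib.Suzuki.Sub Cfsg.Agent.Lib.Suzuki.Gen Cfsg.Agent.Lib.Suzuki.Fix

variable {F : Type*} [Field F] [Fintype F] {m : ℕ}

theorem not_real (h : Hyp F m) {a : F} (ha : a ≠ 0) (b : F) : ¬ IsConj (Lg h a b) (Lg h a b)⁻¹ := by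
  rw [isConj_iff]
  rintro ⟨x, hx⟩
  rw [Lg_inv h] at hx
  have hB := mem_Bor_of_conj h (Or.inl ha) hx
  obtain ⟨c, d, k, rfl⟩ := Cfsg.Agent.Lib.Suzuki.Struct.stab_oI h x (MulAction.mem_stabilizer_iff.mp hB)
  rw [conj_Bor_Lg h] at hx
  obtain ⟨e1, e2⟩ := Lg_inj h hx
  have hk : (k : F) = 1 := by
    have : (k : F) * a = 1 * a := by rw [e1, one_mul]
    exact mul_right_cancel₀ ha this
  rw [hk] at e2
  simp only [one_pow, one_mul] at e2
  -- `t = c / a`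
  have hc : c = (c / a) * a := by field_simp
  set t := c / a with ht
  have h5 : (a ^ (2 ^ (m + 1)) * a) * (t ^ (2 ^ (m + 1)) + t + 1) = 0 := by
    rw [hc, mul_pow] at e2
    have h2 := h.two_eq_zero
    generalize t ^ (2 ^ (m + 1)) = T at *
    generalize a ^ (2 ^ (m + 1)) = A at *
    linear_combination e2 + (A * a) * h2
  rcases mul_eq_zero.mp h5 with h6 | h6
  · exact mul_ne_zero (pow_ne_zero _ ha) ha h6
  · exact h.as_ne_zero t h6

theorem real_iff (h : Hyp F m) (P : Sylow 2 (G F m)) (g : G F m)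
    (hg : g ∈ (P : Subgroup (G F m))) (h1 : g ≠ 1) : IsConj g g⁻¹ ↔ orderOf g = 2 := by
  obtain ⟨x, a, b, rfl⟩ := exists_conj_of_mem_sylow h P hg
  have hord : orderOf (x * Lg h a b * x⁻¹) = orderOf (Lg h a b) :=
    MulEquiv.orderOf_eq (MulAut.conj x) (Lg h a b)
  have hconj : IsConj (x * Lg h a b * x⁻¹) (x * Lg h a b * x⁻¹)⁻¹ ↔
      IsConj (Lg h a b) (Lg h a b)⁻¹ := by
    have e : (x * Lg h a b * x⁻¹)⁻¹ = x * (Lg h a b)⁻¹ * x⁻¹ := by group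
    rw [e]
    have e1 : IsConj (x * Lg h a b * x⁻¹) (Lg h a b) := by
      rw [isConj_iff]
      exact ⟨x⁻¹, by group⟩
    have e2 : IsConj (x * (Lg h a b)⁻¹ * x⁻¹) (Lg h a b)⁻¹ := by
      rw [isConj_iff]
      exact ⟨x⁻¹, by group⟩
    exact ⟨fun hc => e1.symm.trans (hc.trans e2), fun hc => e1.trans (hc.trans e2.symm)⟩
  rw [hord, hconj]
  by_cases ha : a = 0
  · subst ha
    have hb : b ≠ 0 := by
      rintro rfl
      apply h1
      rw [Lg_zero h]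
      group
    rw [orderOf_Lg_zero h hb]
    have e : (Lg h 0 b)⁻¹ = Lg h 0 b := inv_eq_of_mul_eq_one_left (Lg_zero_sq h b)
    rw [e]
    exact ⟨fun _ => rfl, fun _ => IsConj.refl _⟩
  · rw [orderOf_Lg_of_ne h b ha]
    exact ⟨fun hc => absurd hc (not_real h ha b), fun hc => absurd hc (by norm_num)⟩

/-- Real 2-elements of the Suzuki group. -/
theorem result {F : Type*} [Field F] [Fintype F] {m : ℕ} (hm : 1 ≤ m) (hF : Fintype.card F = 2 ^ (2 * m + 1)) (P : Sylow 2 ↥(Cfsg.Sz F m)) (g : ↥(Cfsg.Sz F m)) (hg : g ∈ (P : Subgroup ↥(Cfsg.Sz F m))) (h1 : g ≠ 1) :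
    IsConj g g⁻¹ ↔ orderOf g = 2 :=
  real_iff ⟨hm, hF⟩ P g hg h1

end Cfsg.Agent.S2241
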