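import Cfsg.Statements.S2249
import Mathlib
import Cfsg.Agent.Lib.NRank.GL
-- import your own Cfsg.Agent.* helpers here

set_option autoImplicit false
open Cfsg

namespace Cfsg.Agent.S2249



/-- The normal 2-rank of the general linear group over a finite field of odd order q: for n ≥ 1 and S a Sylow 2-subgroup of GL_n(F), the largest rank of an elementary abelian subgroup of S that is normal in S equals n when q ≡ 1 (mod 4) and ⌊(n + 1)/2⌋ when q ≡ 3 (mod 4). -/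
theorem result {F : Type*} [Field F] [Fintype F] {q : ℕ} (hF : Fintype.card F = q) (hodd : Odd q) (n : ℕ) (hn : 1 ≤ n) (S : Sylow 2 (Matrix.GeneralLinearGroup (Fin n) F)) :
    (q % 4 = 1 → ((∃ E : Subgroup ↥(S : Subgroup (Matrix.GeneralLinearGroup (Fin n) F)), E.Normal ∧ Cfsg.IsElementaryAbelian 2 E ∧ 2 ^ (n) ≤ Nat.card ↥E) ∧
      ∀ E : Subgroup ↥(S : Subgroup (Matrix.GeneralLinearGroup (Fin n) F)), E.Normal → Cfsg.IsElementaryAbelian 2 E → Nat.card ↥E ≤ 2 ^ (n))) ∧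
    (q % 4 = 3 → ((∃ E : Subgroup ↥(S : Subgroup (Matrix.GeneralLinearGroup (Fin n) F)), E.Normal ∧ Cfsg.IsElementaryAbelian 2 E ∧ 2 ^ ((n + 1) / 2) ≤ Nat.card ↥E) ∧
      ∀ E : Subgroup ↥(S : Subgroup (Matrix.GeneralLinearGroup (Fin n) F)), E.Normal → Cfsg.IsElementaryAbelian 2 E → Nat.card ↥E ≤ 2 ^ ((n + 1) / 2))) := by
  classical
  subst hF
  have hcases : ∀ (m : ℕ) (L : Type) [Fintype L] [DecidableEq L], Fintype.card L ≤ 1 → n = 2 * m + Fintype.card L →
      Fintype.card F % 4 = 3 → Cfsg.Agent.Lib.NRank.Main.LowerB (S : Subgroup (Matrix.GeneralLinearGroup (Fin n) F)) ((n + 1) / 2) ∧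
      Cfsg.Agent.Lib.NRank.Main.UpperB (S : Subgroup (Matrix.GeneralLinearGroup (Fin n) F)) ((n + 1) / 2) := by
    intro m L _ _ hL hn h3
    exact Cfsg.Agent.Lib.NRank.GL.case_three h3 m L hL n hn S
  refine ⟨fun h1 => ?_, fun h3 => ?_⟩
  · obtain ⟨h4, h5⟩ := Cfsg.Agent.Lib.NRank.GL.case_one (F := F) h1 n S
    exact ⟨h4, h5⟩
  · rcases Nat.even_or_odd' n with ⟨m, hm | hm⟩
    · obtain ⟨h4, h5⟩ := hcases m Empty (by simp) (by simpa using hm) h3
      exact ⟨h4, h5⟩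
    · obtain ⟨h4, h5⟩ := hcases m Unit (by simp) (by simpa using hm) h3
      exact ⟨h4, h5⟩

end Cfsg.Agent.S2249
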