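import Cfsg.Statements.S2257
import Cfsg.Agent.Lib.PSL2.Solubilizer

set_option autoImplicit false
open Cfsg

namespace Cfsg.Agent.S2257

/-- Let G = PSL_2(F) with F a field of order q = 2^p, p prime, and for x ∈ G call the solubilizer of x the set of y ∈ G such that x and y generate a solvable subgroup. Then the solubilizer of an involution has 3q(q − 1) elements; that of a non-identity element of order dividing q − 1 has 2q(q − 1) elements; and that of a non-identity element of order dividing q + 1 has 2(q + 1) elements. -/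
theorem result (p : ℕ) (hp : p.Prime) {F : Type*} [Field F] [Fintype F]
    (hF : Fintype.card F = 2 ^ p) (x : Matrix.ProjectiveSpecialLinearGroup (Fin 2) F) :
    (orderOf x = 2 → Nat.card {y : Matrix.ProjectiveSpecialLinearGroup (Fin 2) F // Group.IsSolvable ↥(Subgroup.closure ({x, y} : Set (Matrix.ProjectiveSpecialLinearGroup (Fin 2) F)))} = 3 * 2 ^ p * (2 ^ p - 1)) ∧
    (x ≠ 1 → orderOf x ∣ 2 ^ p - 1 → Nat.card {y : Matrix.ProjectiveSpecialLinearGroup (Fin 2) F // Group.IsSolvable ↥(Subgroup.closure ({x, y} : Set (Matrix.ProjectiveSpecialLinearGroup (Fin 2) F)))} = 2 * 2 ^ p * (2 ^ p - 1)) ∧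
    (x ≠ 1 → orderOf x ∣ 2 ^ p + 1 → Nat.card {y : Matrix.ProjectiveSpecialLinearGroup (Fin 2) F // Group.IsSolvable ↥(Subgroup.closure ({x, y} : Set (Matrix.ProjectiveSpecialLinearGroup (Fin 2) F)))} = 2 * (2 ^ p + 1)) := by
  have h2 := Cfsg.Agent.Lib.PSL2.Solubilizer.two_eq_zero_of_card hp.ne_zero hF
  have hq : ∃ r : ℕ, r.Prime ∧ Fintype.card F = 2 ^ r := ⟨p, hp, hF⟩
  refine ⟨fun h => ?_, fun h1 h => ?_, fun h1 h => ?_⟩
  · have := Cfsg.Agent.Lib.PSL2.Solubilizer.count_involution h2 hq x h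
    rwa [hF] at this
  · have := Cfsg.Agent.Lib.PSL2.Solubilizer.count_split h2 hq x h1 (by rwa [hF])
    rwa [hF] at this
  · have := Cfsg.Agent.Lib.PSL2.Solubilizer.count_nonsplit h2 hq x h1 (by rwa [hF])
    rwa [hF] at this

end Cfsg.Agent.S2257
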