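import Cfsg.Statements.S2259
import Cfsg.Agent.Lib.Suzuki.Solub6
import Cfsg.Agent.Lib.Suzuki.Iso

set_option autoImplicit false
open Cfsg

namespace Cfsg.Agent.S2259

open Cfsg.Agent.Lib.Suzuki.Basic Cfsg.Agent.Lib.Suzuki.Struct Cfsg.Agent.Lib.Suzuki.Solub3 Cfsg.Agent.Lib.Suzuki.Solub6 Cfsg.Agent.Lib.Suzuki.Iso

/-- Let G be the Suzuki group Sz(q), q = 2^(2m+1) with 2m + 1 prime and m ≥ 1, realised inside Sp_4(F) for F the field of order q, write r = 2^(m+1) (so r² = 2q), and for x ∈ G call the solubilizer of x the set of y ∈ G such that x and y generate a solvable subgroup. Then the solubilizer of an involution has q²(4q − 3) elements; that of an element of order 4 has q²(q + 3) elements; that of a non-identity element of order dividing q − 1 has 2q²(q − 1) elements; that of a non-identity element of order dividing q + r + 1 has 4(q + r + 1) elements; and that of a non-identity element of order dividing q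 − r + 1 has 4(q − r + 1) elements. -/
theorem result {F : Type*} [Field F] [Fintype F] {m : ℕ} (hm : 1 ≤ m)
    (hp : (2 * m + 1).Prime) (hF : Fintype.card F = 2 ^ (2 * m + 1)) (x : ↥(Cfsg.Lie.Sz F (2 ^ (m + 1)))) :
    (orderOf x = 2 → Nat.card {y : ↥(Cfsg.Lie.Sz F (2 ^ (m + 1))) // Group.IsSolvable ↥(Subgroup.closure ({x, y} : Set (↥(Cfsg.Lie.Sz F (2 ^ (m + 1))))))} = (2 ^ (2 * m + 1)) ^ 2 * (4 * 2 ^ (2 * m + 1) - 3)) ∧
    (orderOf x = 4 → Nat.card {y : ↥(Cfsg.Lie.Sz F (2 ^ (m + 1))) // Group.IsSolvable ↥(Subgroup.closure ({x, y} : Set (↥(Cfsg.Lie.Sz F (2 ^ (m + 1))))))} = (2 ^ (2 * m + 1)) ^ 2 * (2 ^ (2 * m + 1) + 3)) ∧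
    (x ≠ 1 → orderOf x ∣ 2 ^ (2 * m + 1) - 1 →
      Nat.card {y : ↥(Cfsg.Lie.Sz F (2 ^ (m + 1))) // Group.IsSolvable ↥(Subgroup.closure ({x, y} : Set (↥(Cfsg.Lie.Sz F (2 ^ (m + 1))))))} = 2 * (2 ^ (2 * m + 1)) ^ 2 * (2 ^ (2 * m + 1) - 1)) ∧
    (x ≠ 1 → orderOf x ∣ 2 ^ (2 * m + 1) + 2 ^ (m + 1) + 1 → Nat.card {y : ↥(Cfsg.Lie.Sz F (2 ^ (m + 1))) // Group.IsSolvable ↥(Subgroup.closure ({x, y} : Set (↥(Cfsg.Lie.Sz F (2 ^ (m + 1))))))} = 4 * (2 ^ (2 * m + 1) + 2 ^ (m + 1) + 1)) ∧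
    (x ≠ 1 → orderOf x ∣ 2 ^ (2 * m + 1) - 2 ^ (m + 1) + 1 → Nat.card {y : ↥(Cfsg.Lie.Sz F (2 ^ (m + 1))) // Group.IsSolvable ↥(Subgroup.closure ({x, y} : Set (↥(Cfsg.Lie.Sz F (2 ^ (m + 1))))))} = 4 * (2 ^ (2 * m + 1) - 2 ^ (m + 1) + 1)) := by
  have h : Hyp F m := ⟨hm, hF⟩
  let E := suzEquiv h
  set x₀ := E.symm x with hx₀
  have hxE : E x₀ = x := E.apply_symm_apply x
  have hcard : Nat.card {y : ↥(Cfsg.Lie.Sz F (2 ^ (m + 1))) // Group.IsSolvable ↥(Subgroup.closure ({x, y} : Set (↥(Cfsg.Lie.Sz F (2 ^ (m + 1))))))} =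
      (Sol x₀).ncard := by
    rw [← Nat.card_coe_set_eq]
    apply Nat.card_congr
    refine Equiv.subtypeEquiv E.symm.toEquiv (fun y => ?_)
    have key : (Subgroup.closure ({x, y} : Set (↥(Cfsg.Lie.Sz F (2 ^ (m + 1)))))).map E.symm.toMonoidHom =
        Subgroup.closure ({x₀, E.symm y} : Set (G F m)) := by
      rw [MonoidHom.map_closure, Set.image_pair]
      rfl
    have he := (Subgroup.closure ({x, y} : Set (↥(Cfsg.Lie.Sz F (2 ^ (m + 1)))))).equivMapOfInjective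
      E.symm.toMonoidHom E.symm.injective
    rw [key] at he
    change _ ↔ Group.IsSolvable ↥(Subgroup.closure ({x₀, E.symm y} : Set (G F m)))
    constructor
    · intro hs
      exact Group.isSolvable_of_surjective (f := he.toMonoidHom) he.surjective
    · intro hs
      exact Group.isSolvable_of_surjective (f := he.symm.toMonoidHom) he.symm.surjective
  have ho : orderOf x₀ = orderOf x := MulEquiv.orderOf_eq E.symm x
  have hne : x ≠ 1 → x₀ ≠ 1 := by
    intro hx hc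
    apply hx
    rw [← hxE, hc, map_one]
  obtain ⟨h1, h2, h3, h4, h5⟩ := sol_main h hp x₀
  simp only [hcard]
  refine ⟨fun hx => h1 (ho.trans hx), fun hx => h2 (ho.trans hx), fun hx hd => h3 (hne hx) (ho ▸ hd),
    fun hx hd => h4 (hne hx) (ho ▸ hd), fun hx hd => h5 (hne hx) (ho ▸ hd)⟩

end Cfsg.Agent.S2259
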