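import Cfsg.Statements.S2268
import Mathlib
import Cfsg.Agent.Lib.Basic.SylowConj

set_option autoImplicit false
open Cfsg

namespace Cfsg.Agent.S2268

open Subgroup

/-- Let G be a finite group with an abelian Sylow p-subgroup P and let Q ≤ P. Then N_G(Q) = (N_G(Q) ∩ N_G(P))·C_G(Q), so that N_G(Q)/C_G(Q) is a homomorphic image of the subgroup (N_G(Q) ∩ N_G(P))/C_G(P) of N_G(P)/C_G(P); in particular the order of N_G(Q)/C_G(Q) divides the order of N_G(P)/C_G(P). -/
theorem result {G : Type*} [Group G] [Finite G] {p : ℕ} [Fact p.Prime]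
    (P : Sylow p G) (hP : IsMulCommutative (P : Subgroup G)) (Q : Subgroup G) (hQ : Q ≤ (P : Subgroup G)) :
    Subgroup.normalizer (Q : Set G) =
      (Subgroup.normalizer (Q : Set G) ⊓ Subgroup.normalizer ((P : Subgroup G) : Set G)) ⊔ Subgroup.centralizer (Q : Set G) ∧
    ((Subgroup.centralizer (Q : Set G)).subgroupOf (Subgroup.normalizer (Q : Set G))).index ∣ ((Subgroup.centralizer ((P : Subgroup G) : Set G)).subgroupOf (Subgroup.normalizer ((P : Subgroup G) : Set G))).index := by
  classical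
  set NQ := normalizer (Q : Set G) with hNQ
  set NP := normalizer ((P : Subgroup G) : Set G) with hNP
  set CQ := centralizer (Q : Set G) with hCQ
  set CP := centralizer ((P : Subgroup G) : Set G) with hCP
  have hPcomm : ∀ a ∈ (P : Subgroup G), ∀ b ∈ (P : Subgroup G), a * b = b * a := by
    intro a ha b hb
    have := hP.is_comm.comm ⟨a, ha⟩ ⟨b, hb⟩
    exact congrArg Subtype.val this
  have hPCQ : (P : Subgroup G) ≤ CQ := fun a ha =>
    mem_centralizer_iff.mpr (fun q hq => hPcomm q (hQ hq) a ha)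
  have hCQNQ : CQ ≤ NQ := centralizer_le_normalizer _
  have hCPCQ : CP ≤ CQ := centralizer_le (fun q hq => hQ hq)
  have hCPNP : CP ≤ NP := centralizer_le_normalizer _
  have hfact : ∀ g ∈ NQ, ∃ c ∈ CQ, c * g ∈ NP := by
    intro g hg
    have hgP : ((g • P : Sylow p G) : Subgroup G) ≤ CQ := by
      intro x hx
      rw [Sylow.coe_subgroup_smul] at hx
      have hy : g⁻¹ * x * g ∈ (P : Subgroup G) := by
        have := Subgroup.mem_pointwise_smul_iff_inv_smul_mem.mp hx
        simpa [MulAut.smul_def, MulAut.conj_apply] using this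
      refine mem_centralizer_iff.mpr (fun q hq => ?_)
      have hq' : g⁻¹ * q * g ∈ Q := (mem_normalizer_iff''.mp hg q).mp hq
      have h1 := hPcomm _ (hQ hq') _ hy
      calc q * x = g * ((g⁻¹ * q * g) * (g⁻¹ * x * g)) * g⁻¹ := by group
        _ = g * ((g⁻¹ * x * g) * (g⁻¹ * q * g)) * g⁻¹ := by rw [h1]
        _ = x * q := by group
    obtain ⟨c, hc, hcg⟩ := Cfsg.Agent.Lib.Basic.SylowConj.exists_mem_smul_eq CQ (g • P) P hgP hPCQ
    refine ⟨c, hc, ?_⟩
    have h2 : (c * g) • P = P := by rw [mul_smul, hcg]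
    exact Sylow.smul_eq_iff_mem_normalizer.mp h2
  have hfact' : ∀ g ∈ NQ, ∃ c ∈ CQ, g * c ∈ NP := by
    intro g hg
    obtain ⟨c, hc, h⟩ := hfact g⁻¹ (inv_mem hg)
    refine ⟨c⁻¹, inv_mem hc, ?_⟩
    have := inv_mem h
    rwa [mul_inv_rev, inv_inv] at this
  refine ⟨?_, ?_⟩
  · apply le_antisymm
    · intro g hg
      obtain ⟨c, hc, h⟩ := hfact g hg
      have h1 : c * g ∈ NQ := mul_mem (hCQNQ hc) hg
      have h2 : g = c⁻¹ * (c * g) := by group
      rw [h2]
      exact mul_mem (mem_sup_right (inv_mem hc)) (mem_sup_left ⟨h1, h⟩)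
    · exact sup_le inf_le_left hCQNQ
  · set B := NQ ⊓ NP with hB
    have hnormal : (CQ.subgroupOf NQ).Normal := normal_subgroupOf_centralizer_normalizer _
    let φ : B →* NQ ⧸ CQ.subgroupOf NQ :=
      (QuotientGroup.mk' (CQ.subgroupOf NQ)).comp (Subgroup.inclusion (inf_le_left : B ≤ NQ))
    have hsurj : Function.Surjective φ := by
      intro x
      induction x using QuotientGroup.induction_on with
      | H g =>
        obtain ⟨c, hc, h⟩ := hfact' g g.2
        have h1 : (g : G) * c ∈ NQ := mul_mem g.2 (hCQNQ hc)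
        refine ⟨⟨g * c, h1, h⟩, ?_⟩
        show (QuotientGroup.mk _ : NQ ⧸ CQ.subgroupOf NQ) = QuotientGroup.mk g
        rw [QuotientGroup.eq, mem_subgroupOf]
        have h2 : ((⟨(g : G) * c, h1⟩ : NQ)⁻¹ * g : NQ).1 = c⁻¹ := by
          show ((g : G) * c)⁻¹ * g = c⁻¹
          group
        show (_ : G) ∈ CQ
        exact h2 ▸ inv_mem hc
    have h1 : (CQ.subgroupOf NQ).index = φ.ker.index := by
      rw [Subgroup.index_ker, MonoidHom.range_eq_top.mpr hsurj, Subgroup.card_top]
      rfl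
    have hCPB : CP ≤ B := le_inf (hCPCQ.trans hCQNQ) hCPNP
    have h2 : CP.subgroupOf B ≤ φ.ker := by
      intro b hb
      rw [MonoidHom.mem_ker]
      show (QuotientGroup.mk _ : NQ ⧸ CQ.subgroupOf NQ) = 1
      rw [QuotientGroup.eq_one_iff, mem_subgroupOf]
      exact hCPCQ hb
    have h3 : φ.ker.index ∣ (CP.subgroupOf B).index := Subgroup.index_dvd_of_le h2
    have h4 : CP.relIndex B * B.relIndex NP = CP.relIndex NP :=
      relIndex_mul_relIndex _ _ _ hCPB inf_le_right
    rw [h1]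
    refine h3.trans ?_
    show CP.relIndex B ∣ CP.relIndex NP
    rw [← h4]
    exact dvd_mul_right _ _

end Cfsg.Agent.S2268
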