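import Cfsg.Statements.S2270
import Mathlib
import Cfsg.Agent.Lib.Perm.OrbitInversion

set_option autoImplicit false
open Cfsg

namespace Cfsg.Agent.S2270

open Subgroup Equiv Equiv.Perm Cfsg.Agent.Lib.Perm.OrbitInversion

variable {G : Type*} [Group G]

/-- The centralizer of a subgroup, in its normalizer, is normal. -/
lemma centralizer_subgroupOf_normal (P : Subgroup G) :
    ((Subgroup.centralizer (P : Set G)).subgroupOf (Subgroup.normalizer (P : Set G))).Normal := by
  constructor
  rintro ⟨c, hc⟩ hcC ⟨g, hg⟩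
  apply mem_subgroupOf.mpr
  have hcC' : c ∈ Subgroup.centralizer (P : Set G) := mem_subgroupOf.mp hcC
  show g * c * g⁻¹ ∈ Subgroup.centralizer (P : Set G)
  rw [Subgroup.mem_centralizer_iff]
  intro q hq
  have hq' : g⁻¹ * q * g ∈ P := by
    have := (mem_normalizer_iff.mp hg (g⁻¹ * q * g)).mpr (by
      have e : g * (g⁻¹ * q * g) * g⁻¹ = q := by group
      rw [e]; exact hq)
    exact this
  have h1 := (Subgroup.mem_centralizer_iff.mp hcC') _ hq'
  calc q * (g * c * g⁻¹) = g * ((g⁻¹ * q * g) * c) * g⁻¹ := by group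
    _ = g * (c * (g⁻¹ * q * g)) * g⁻¹ := by rw [h1]
    _ = g * c * g⁻¹ * q := by group

/-- An element of the normalizer outside the centralizer with square in the centralizer. -/
lemma two_dvd_index_of_inv [Finite G] (P : Subgroup G) {t : G} (ht : t ∈ Subgroup.normalizer (P : Set G))
    (ht2 : t * t = 1) (hC : t ∉ Subgroup.centralizer (P : Set G)) :
    2 ∣ ((Subgroup.centralizer (P : Set G)).subgroupOf (Subgroup.normalizer (P : Set G))).index := by
  haveI := centralizer_subgroupOf_normal P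
  set K := (Subgroup.centralizer (P : Set G)).subgroupOf (Subgroup.normalizer (P : Set G)) with hK
  let τ : ↥(Subgroup.normalizer (P : Set G)) := ⟨t, ht⟩
  have hτ1 : (τ : ↥(Subgroup.normalizer (P : Set G)) ⧸ K) ≠ 1 := by
    intro h
    rw [QuotientGroup.eq_one_iff] at h
    exact hC (mem_subgroupOf.mp h)
  have hτ2 : ((τ : ↥(Subgroup.normalizer (P : Set G)) ⧸ K)) ^ 2 = 1 := by
    rw [← QuotientGroup.mk_pow, QuotientGroup.eq_one_iff]
    have : τ ^ 2 = 1 := by
      ext
      show t ^ 2 = 1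
      rw [pow_two]; exact ht2
    rw [this]
    exact K.one_mem
  have ho : orderOf (τ : ↥(Subgroup.normalizer (P : Set G)) ⧸ K) = 2 := orderOf_eq_prime hτ2 hτ1
  rw [← ho]
  exact orderOf_dvd_natCard _

/-- Let n ≥ 3, p an odd prime, and P an abelian Sylow p-subgroup of the symmetric group S_n (with p dividing n!, so that P ≠ 1). Then N(P)/C(P) has even order. -/
theorem result (n : ℕ) (hn : 3 ≤ n) {p : ℕ} [Fact p.Prime] (hp : p ≠ 2) (hpn : p ≤ n)
    (P : Sylow p (Equiv.Perm (Fin n))) (hP : IsMulCommutative (P : Subgroup (Equiv.Perm (Fin n)))) :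
    2 ∣ ((Subgroup.centralizer ((P : Subgroup (Equiv.Perm (Fin n))) : Set (Equiv.Perm (Fin n)))).subgroupOf (Subgroup.normalizer ((P : Subgroup (Equiv.Perm (Fin n))) : Set (Equiv.Perm (Fin n))))).index := by
  classical
  have hpp : p.Prime := Fact.out
  set P' : Subgroup (Perm (Fin n)) := (P : Subgroup (Perm (Fin n))) with hP'
  haveI : IsMulCommutative P' := hP
  have hPp : IsPGroup p P' := P.isPGroup'
  have hPmax : ∀ J : Subgroup (Perm (Fin n)), IsPGroup p J → P' ≤ J → P' = J :=
    fun J hJ hle => (P.is_maximal' hJ hle).symm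
  have hQ : ∀ z ∈ P', ∀ a : Fin n, z a ∈ (Set.univ : Set (Fin n)) ↔ a ∈ (Set.univ : Set (Fin n)) := by
    intro z _ a; simp
  set t := tQ (P := P') Set.univ hQ with ht
  have hN : t ∈ normalizer (P' : Set (Perm (Fin n))) := tQ_mem_normalizer hPmax hPp
  have ht2 : t * t = 1 := tQ_mul_self
  -- P is nontrivial
  have hdvd : p ∣ Nat.card (Perm (Fin n)) := by
    rw [Nat.card_eq_fintype_card, Fintype.card_perm, Fintype.card_fin]
    exact (Nat.Prime.dvd_factorial hpp).mpr hpn
  have hne : P' ≠ ⊥ := P.ne_bot_of_dvd_card hdvd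
  obtain ⟨z, hz, hz1⟩ := (Subgroup.bot_or_exists_ne_one P').resolve_left hne
  apply two_dvd_index_of_inv P' hN ht2
  intro hC
  -- z commutes with t
  have h1 : t * z * t⁻¹ = z := by
    have h2 := (Subgroup.mem_centralizer_iff.mp hC) z hz
    rw [← h2]; group
  have h3 : ∀ a, z⁻¹ a = z a := by
    intro a
    have h4 := tQ_conj_apply (P := P') (Q := Set.univ) (hQ := hQ) hz a
    rw [← ht, h1, if_pos (Set.mem_univ a)] at h4
    exact h4.symm
  have h4 : z ^ 2 = 1 := by
    apply Equiv.ext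
    intro a
    have := h3 (z a)
    rw [pow_two]
    show z (z a) = a
    rw [← this]
    simp
  obtain ⟨k, hk⟩ := (IsPGroup.iff_orderOf.mp hPp) ⟨z, hz⟩
  have hk' : orderOf z = p ^ k := by rw [← Subgroup.orderOf_mk z hz]; exact hk
  have h5 : orderOf z ∣ 2 := orderOf_dvd_of_pow_eq_one h4
  have hcop : Nat.Coprime (orderOf z) 2 := by
    rw [hk']
    exact Nat.Coprime.pow_left k ((Nat.coprime_primes hpp Nat.prime_two).mpr hp)
  exact hz1 (orderOf_eq_one_iff.mp (Nat.Coprime.eq_one_of_dvd hcop h5))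

end Cfsg.Agent.S2270
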