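import Cfsg.Statements.S2269
import Mathlib
import Cfsg.Agent.S2270
import Cfsg.Agent.S0699
import Cfsg.Agent.Lib.Perm.OrbitInversion
import Cfsg.Agent.Lib.Perm.SylowConj

set_option autoImplicit false
open Cfsg

namespace Cfsg.Agent.S2269

open Subgroup Equiv Equiv.Perm Cfsg.Agent.Lib.Perm.OrbitInversion

lemma fix_of_sq_fix {α : Type*} {z : Perm α} (hodd : Odd (orderOf z)) {a : α} (h : z (z a) = a) : z a = a := by
  obtain ⟨m, hm⟩ := hodd
  have h1 : z ^ (2 * m + 1) = 1 := by rw [← hm]; exact pow_orderOf_eq_one z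
  have h2 : (z ^ 2) a = a := by rw [pow_two]; exact h
  have h3 : ((z ^ 2) ^ m) a = a := Equiv.Perm.pow_apply_eq_self_of_apply_eq_self h2 m
  have h4 : (z * (z ^ 2) ^ m) a = a := by
    rw [← pow_mul, ← pow_succ', h1]; rfl
  have h5 : z (((z ^ 2) ^ m) a) = a := h4
  rwa [h3] at h5

lemma aux_arith {p : ℕ} (hp3 : 3 ≤ p) (m : ℕ) : m + 3 ≤ p ^ (m + 1) := by
  induction m with
  | zero => simpa using hp3
  | succ m ih =>
    have : p ^ (m + 1 + 1) = p ^ (m + 1) * p := pow_succ _ _
    rw [this]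
    nlinarith

lemma aux_pow {p k : ℕ} (hp : p.Prime) (hp2 : p ≠ 2) (hk : 1 < k) : p ^ (k + 1) ∣ (p ^ k).factorial := by
  have hlog : Nat.log p (p ^ k) < k + 1 := by rw [Nat.log_pow hp.one_lt]; omega
  rw [Nat.Prime.pow_dvd_factorial_iff hp hlog]
  have h1 : p ^ k / p ^ 1 ≤ ∑ i ∈ Finset.Ico 1 (k + 1), p ^ k / p ^ i :=
    Finset.single_le_sum (f := fun i => p ^ k / p ^ i) (fun _ _ => Nat.zero_le _)
      (by simp only [Finset.mem_Ico]; omega)
  have h2 : p ^ k / p ^ 1 = p ^ (k - 1) := Nat.pow_div (by omega) hp.pos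
  have hp3 : 3 ≤ p := by
    have := hp.two_le
    omega
  have h3 : k + 1 ≤ p ^ (k - 1) := by
    obtain ⟨m, rfl⟩ : ∃ m, k = m + 2 := ⟨k - 2, by omega⟩
    have e : m + 2 - 1 = m + 1 := by omega
    rw [e]
    have := aux_arith hp3 m
    omega
  rw [h2] at h1
  omega

theorem odd_case (n : ℕ) {p : ℕ} [Fact p.Prime] (hp2 : p ≠ 2)
    (P : Sylow p (alternatingGroup (Fin n))) (hP : IsMulCommutative (P : Subgroup (alternatingGroup (Fin n)))) :
    2 ∣ ((Subgroup.centralizer ((P : Subgroup (alternatingGroup (Fin n))) : Set (alternatingGroup (Fin n)))).subgroupOf (Subgroup.normalizer ((P : Subgroup (alternatingGroup (Fin n))) : Set (alternatingGroup (Fin n))))).index ∨ IsCyclic (P : Subgroup (alternatingGroup (Fin n))) := by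
  classical
  have hpp : p.Prime := Fact.out
  set S : Subgroup (alternatingGroup (Fin n)) := (P : Subgroup (alternatingGroup (Fin n))) with hS
  set P' : Subgroup (Perm (Fin n)) := S.map (alternatingGroup (Fin n)).subtype with hP'
  have hmem : ∀ g : alternatingGroup (Fin n), (g : Perm (Fin n)) ∈ P' ↔ g ∈ S := by
    intro g
    constructor
    · rintro ⟨h, hh, e⟩
      have : h = g := Subtype.ext e
      rwa [← this]
    · intro hg; exact ⟨g, hg, rfl⟩
  have hSc : ∀ x ∈ S, ∀ y ∈ S, x * y = y * x := fun x hx y hy =>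
    congrArg Subtype.val (hP.is_comm.comm ⟨x, hx⟩ ⟨y, hy⟩)
  haveI hab : IsMulCommutative P' := by
    refine ⟨⟨?_⟩⟩
    rintro ⟨x, g, hg, rfl⟩ ⟨y, h, hh, rfl⟩
    apply Subtype.ext
    exact (congrArg Subtype.val (hSc g hg h hh) : ((g * h : alternatingGroup (Fin n)) : Perm (Fin n)) = ((h * g : alternatingGroup (Fin n)) : Perm (Fin n)))
  have hPp : IsPGroup p P' := P.isPGroup'.map _
  have hoddz : ∀ z ∈ P', Odd (orderOf z) := by
    intro z hz
    obtain ⟨k, hk⟩ := (IsPGroup.iff_orderOf.mp hPp) ⟨z, hz⟩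
    have hk' : orderOf z = p ^ k := by rw [← Subgroup.orderOf_mk z hz]; exact hk
    rw [hk']
    exact (hpp.odd_of_ne_two hp2).pow
  have hPmax : ∀ J : Subgroup (Perm (Fin n)), IsPGroup p J → P' ≤ J → P' = J := by
    intro J hJ hle
    have hJA : ∀ z ∈ J, z ∈ alternatingGroup (Fin n) := by
      intro z hz
      rw [mem_alternatingGroup]
      obtain ⟨k, hk⟩ := (IsPGroup.iff_orderOf.mp hJ) ⟨z, hz⟩
      have hk' : orderOf z = p ^ k := by rw [← Subgroup.orderOf_mk z hz]; exact hk
      have hodd : Odd (orderOf z) := by rw [hk']; exact (hpp.odd_of_ne_two hp2).pow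
      have h1 : sign z ^ orderOf z = 1 := by rw [← map_pow, pow_orderOf_eq_one, map_one]
      rcases Int.units_eq_one_or (sign z) with h | h
      · exact h
      · rw [h, hodd.neg_one_pow] at h1
        exact absurd h1 (by decide)
    have hJ' : IsPGroup p (J.subgroupOf (alternatingGroup (Fin n))) := hJ.comap_subtype
    have h1 : S ≤ J.subgroupOf (alternatingGroup (Fin n)) := fun g hg => mem_subgroupOf.mpr (hle ⟨g, hg, rfl⟩)
    have h2 := P.is_maximal' hJ' h1
    apply le_antisymm hle
    intro z hz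
    have h3 : (⟨z, hJA z hz⟩ : alternatingGroup (Fin n)) ∈ J.subgroupOf _ := mem_subgroupOf.mpr hz
    rw [h2] at h3
    exact ⟨_, h3, rfl⟩
  -- key step
  have hdone : ∀ (Q : Set (Fin n)) (hQ : ∀ z ∈ P', ∀ a, z a ∈ Q ↔ a ∈ Q), (∃ a ∈ Q, ∃ z ∈ P', z a ≠ a) →
      sign (tQ Q hQ) = 1 → 2 ∣ ((Subgroup.centralizer (S : Set (alternatingGroup (Fin n)))).subgroupOf (Subgroup.normalizer (S : Set (alternatingGroup (Fin n))))).index := by
    rintro Q hQ ⟨a, haQ, z, hz, hza⟩ hs
    have ht2 : tQ Q hQ * tQ Q hQ = 1 := tQ_mul_self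
    have hN : tQ Q hQ ∈ normalizer (P' : Set (Perm (Fin n))) := tQ_mem_normalizer hPmax hPp
    let τ : alternatingGroup (Fin n) := ⟨tQ Q hQ, mem_alternatingGroup.mpr hs⟩
    apply Cfsg.Agent.S2270.two_dvd_index_of_inv S (t := τ)
    · rw [mem_normalizer_iff]
      intro g
      rw [← hmem g, ← hmem (τ * g * τ⁻¹)]
      exact mem_normalizer_iff.mp hN (g : Perm _)
    · exact Subtype.ext ht2
    · intro hC
      have hz0 := hz
      obtain ⟨g, hg, rfl⟩ := hz
      have h1 := (Subgroup.mem_centralizer_iff.mp hC) g hg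
      have h2 : tQ Q hQ * (g : Perm (Fin n)) * (tQ Q hQ)⁻¹ = g := by
        have h3 : (g : Perm (Fin n)) * tQ Q hQ = tQ Q hQ * g := congrArg Subtype.val h1
        rw [← h3]; group
      have h3 := tQ_conj_apply (P := P') (Q := Q) (hQ := hQ) (z := (g : Perm (Fin n))) hz0 a
      rw [h2, if_pos haQ] at h3
      have h4 : (g : Perm (Fin n)) ((g : Perm (Fin n)) a) = a := by
        rw [h3]; simp
      exact hza (fix_of_sq_fix (hoddz _ hz0) h4)
  let orb : Fin n → Set (Fin n) := fun a => {b | ∃ u ∈ P', u a = b}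
  have horb : ∀ a, ∀ z ∈ P', ∀ b, z b ∈ orb a ↔ b ∈ orb a := by
    intro a z hz b
    constructor
    · rintro ⟨u, hu, e⟩
      refine ⟨z⁻¹ * u, P'.mul_mem (P'.inv_mem hz) hu, ?_⟩
      show z⁻¹ (u a) = b
      rw [e]; simp
    · rintro ⟨u, hu, e⟩
      refine ⟨z * u, P'.mul_mem hz hu, ?_⟩
      show z (u a) = z b
      rw [e]
  have hself : ∀ a, a ∈ orb a := fun a => ⟨1, P'.one_mem, rfl⟩
  by_cases hm : ∃ a, ∃ z ∈ P', z a ≠ a
  swap
  · right
    push Not at hm
    have hbot : ∀ x : S, x = 1 := by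
      rintro ⟨x, hx⟩
      apply Subtype.ext
      apply Subtype.ext
      apply Equiv.ext
      intro a
      exact hm a _ ((hmem x).mpr hx)
    haveI : Subsingleton S := ⟨fun x y => by rw [hbot x, hbot y]⟩
    exact isCyclic_of_subsingleton
  obtain ⟨a, z, hz, hza⟩ := hm
  by_cases hs1 : sign (tQ (orb a) (horb a)) = 1
  · left; exact hdone _ _ ⟨a, hself a, z, hz, hza⟩ hs1
  by_cases hb : ∃ b, (∃ y ∈ P', y b ≠ b) ∧ b ∉ orb a
  · left
    obtain ⟨b, ⟨y, hy, hyb⟩, hbn⟩ := hb
    by_cases hs2 : sign (tQ (orb b) (horb b)) = 1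
    · exact hdone _ _ ⟨b, hself b, y, hy, hyb⟩ hs2
    have hU : ∀ z ∈ P', ∀ c, z c ∈ (orb a ∪ orb b) ↔ c ∈ (orb a ∪ orb b) := by
      intro z hz c
      simp only [Set.mem_union]
      rw [horb a z hz c, horb b z hz c]
    have hdisj : ∀ c, c ∈ orb a → c ∉ orb b := by
      rintro c ⟨u, hu, e⟩ ⟨v, hv, e2⟩
      apply hbn
      refine ⟨v⁻¹ * u, P'.mul_mem (P'.inv_mem hv) hu, ?_⟩
      show v⁻¹ (u a) = b
      rw [e, ← e2]; simp
    have hprod : tQ (orb a ∪ orb b) hU = tQ (orb a) (horb a) * tQ (orb b) (horb b) := by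
      apply Equiv.ext
      intro c
      show _ = tQ (orb a) (horb a) (tQ (orb b) (horb b) c)
      by_cases h1 : c ∈ orb a
      · have h2 := hdisj c h1
        rw [tQ_apply_notMem h2, tQ_apply_mem h1, tQ_apply_mem (show c ∈ orb a ∪ orb b from Or.inl h1)]
      · by_cases h2 : c ∈ orb b
        · obtain ⟨u, hu, e⟩ := exists_inv0 (P := P') c
          have h3 : inv0 P' c ∈ orb b := by rw [e]; exact (horb b u hu c).mpr h2
          have h4 : inv0 P' c ∉ orb a := fun h5 => hdisj _ h5 h3
          rw [tQ_apply_mem h2, tQ_apply_notMem h4, tQ_apply_mem (show c ∈ orb a ∪ orb b from Or.inr h2)]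
        · have h3 : c ∉ orb a ∪ orb b := by
            rintro (h | h)
            · exact h1 h
            · exact h2 h
          rw [tQ_apply_notMem h2, tQ_apply_notMem h1, tQ_apply_notMem h3]
    apply hdone (orb a ∪ orb b) hU ⟨a, Or.inl (hself a), z, hz, hza⟩
    rw [hprod, map_mul]
    rcases Int.units_eq_one_or (sign (tQ (orb a) (horb a))) with h | h
    · exact absurd h hs1
    rcases Int.units_eq_one_or (sign (tQ (orb b) (horb b))) with h' | h'
    · exact absurd h' hs2
    rw [h, h']; decide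
  -- all moved points are in the orbit of a
  push Not at hb
  right
  have hinj : Function.Injective (fun u : P' => (u : Perm (Fin n)) a) := by
    intro u v huv
    have huv' : (u : Perm (Fin n)) a = (v : Perm (Fin n)) a := huv
    have hwP : (v : Perm (Fin n))⁻¹ * u ∈ P' := P'.mul_mem (P'.inv_mem v.2) u.2
    have hwa : ((v : Perm (Fin n))⁻¹ * u) a = a := by
      show (v : Perm (Fin n))⁻¹ ((u : Perm (Fin n)) a) = a
      rw [huv']; simp
    have hw1 : (v : Perm (Fin n))⁻¹ * u = 1 := by
      apply Equiv.ext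
      intro c
      by_cases hc : ∃ y ∈ P', y c ≠ c
      · obtain ⟨x, hx, e⟩ := hb c hc
        have h1 := congrArg (fun f : Perm (Fin n) => f a) (comm_of_mem hwP hx)
        have h2 : ((v : Perm (Fin n))⁻¹ * u) (x a) = x (((v : Perm (Fin n))⁻¹ * u) a) := h1
        rw [hwa, e] at h2
        exact h2
      · push Not at hc
        exact hc _ hwP
    apply Subtype.ext
    exact (inv_mul_eq_one.mp hw1).symm
  have hle : Nat.card P' ≤ n := by
    have := Nat.card_le_card_of_injective _ hinj
    simpa using this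
  let Pt : Sylow p (Perm (Fin n)) :=
    { toSubgroup := P', isPGroup' := hPp, is_maximal' := fun {Q} hQ hle => (hPmax Q hQ hle).symm }
  have hcardPt : Nat.card P' = p ^ (Nat.card (Perm (Fin n))).factorization p := Pt.card_eq_multiplicity
  set k := (Nat.card (Perm (Fin n))).factorization p with hk
  have hk1 : k ≤ 1 := by
    by_contra hkk
    push Not at hkk
    have h1 : p ^ k ≤ n := hcardPt ▸ hle
    have h2 : (p ^ k).factorial ∣ n.factorial := Nat.factorial_dvd_factorial h1
    have h4 : p ^ (k + 1) ∣ n.factorial := (aux_pow hpp hp2 hkk).trans h2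
    have h5 : Nat.card (Perm (Fin n)) = n.factorial := by
      simp [Nat.card_eq_fintype_card, Fintype.card_perm]
    have h6 : k + 1 ≤ k := by
      rw [hk] at h4 ⊢
      nth_rewrite 2 [h5]
      exact (hpp.pow_dvd_iff_le_factorization (Nat.factorial_ne_zero n)).mp h4
    omega
  have hcardS : Nat.card S = p ^ k := by
    rw [← hcardPt]
    exact (Subgroup.card_map_of_injective (Subtype.val_injective)).symm
  rcases Nat.le_one_iff_eq_zero_or_eq_one.mp hk1 with h0 | h0
  · rw [h0, pow_zero] at hcardS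
    haveI : Subsingleton S := (Nat.card_eq_one_iff_unique.mp hcardS).1
    exact isCyclic_of_subsingleton
  · rw [h0, pow_one] at hcardS
    exact isCyclic_of_prime_card hcardS

lemma isPGroup_zpowers' {G : Type*} [Group G] {p : ℕ} (hp : p.Prime) {x : G} {k : ℕ} (h : x ^ (p ^ k) = 1) :
    IsPGroup p (zpowers x) := by
  haveI : Fact p.Prime := ⟨hp⟩
  rw [IsPGroup.iff_orderOf]
  rintro ⟨g, hg⟩
  have h2 : orderOf g ∣ orderOf x := orderOf_dvd_of_mem_zpowers hg
  have h3 : orderOf x ∣ p ^ k := orderOf_dvd_of_pow_eq_one h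
  obtain ⟨j, -, hj⟩ := (Nat.dvd_prime_pow hp).mp (h2.trans h3)
  exact ⟨j, by rw [Subgroup.orderOf_mk]; exact hj⟩

lemma two_case (n : ℕ) (hn : 6 ≤ n) [Fact (Nat.Prime 2)] (P : Sylow 2 (alternatingGroup (Fin n)))
    (hP : IsMulCommutative (P : Subgroup (alternatingGroup (Fin n)))) : False := by
  classical
  let ι : Fin 6 ↪ Fin n := Fin.castLEEmb hn
  let φ : Perm (Fin 6) →* Perm (Fin n) := viaEmbeddingHom ι
  have hφ : Function.Injective φ := viaEmbeddingHom_injective ι
  have hsign : ∀ σ, sign (φ σ) = sign σ := by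
    intro σ
    change sign (viaEmbedding σ ι) = _
    rw [viaEmbedding, sign_extendDomain]
  let a6 : Perm (Fin 6) := swap 0 1 * swap 1 2 * swap 2 3 * swap 4 5
  let b6 : Perm (Fin 6) := swap 0 2 * swap 4 5
  have ha6 : sign a6 = 1 := by decide
  have hb6 : sign b6 = 1 := by decide
  have h4 : a6 ^ 4 = 1 := by decide
  have h2 : b6 ^ 2 = 1 := by decide
  have hc6 : b6 * a6 * b6⁻¹ = a6⁻¹ := by decide
  have hne6 : a6 * b6 ≠ b6 * a6 := by decide
  let α : alternatingGroup (Fin n) := ⟨φ a6, mem_alternatingGroup.mpr ((hsign a6).trans ha6)⟩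
  let β : alternatingGroup (Fin n) := ⟨φ b6, mem_alternatingGroup.mpr ((hsign b6).trans hb6)⟩
  have hα4 : α ^ (2 ^ 2) = 1 := by
    apply Subtype.ext
    show (φ a6) ^ 4 = 1
    rw [← map_pow, h4, map_one]
  have hβ2 : β ^ (2 ^ 1) = 1 := by
    apply Subtype.ext
    show (φ b6) ^ 2 = 1
    rw [← map_pow, h2, map_one]
  have hba : β * α * β⁻¹ = α⁻¹ := by
    apply Subtype.ext
    show φ b6 * φ a6 * (φ b6)⁻¹ = (φ a6)⁻¹
    rw [← map_inv, ← map_mul, ← map_mul, hc6, map_inv]
  have hne : α * β ≠ β * α := by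
    intro h
    have h1 : φ a6 * φ b6 = φ b6 * φ a6 := congrArg Subtype.val h
    rw [← map_mul, ← map_mul] at h1
    exact hne6 (hφ h1)
  have hle : zpowers β ≤ normalizer ((zpowers α : Subgroup _) : Set (alternatingGroup (Fin n))) := by
    rw [zpowers_le]
    apply Cfsg.Agent.S0699.mem_normalizer_of_forall
    intro t ht
    obtain ⟨k, rfl⟩ := mem_zpowers_iff.mp ht
    rw [← conj_zpow, hba]
    exact Subgroup.zpow_mem _ (Subgroup.inv_mem _ (mem_zpowers α)) k
  have hJ : IsPGroup 2 ↥(zpowers β ⊔ zpowers α) :=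
    (isPGroup_zpowers' Nat.prime_two hβ2).to_sup_of_normal_right' (isPGroup_zpowers' Nat.prime_two hα4) hle
  obtain ⟨R, hR⟩ := hJ.exists_le_sylow
  obtain ⟨g, hg⟩ := MulAction.exists_smul_eq (alternatingGroup (Fin n)) P R
  have hαR : α ∈ ((g • P : Sylow 2 _) : Subgroup _) := by
    rw [hg]
    exact hR ((le_sup_right : zpowers α ≤ _) (mem_zpowers α))
  have hβR : β ∈ ((g • P : Sylow 2 _) : Subgroup _) := by
    rw [hg]
    exact hR ((le_sup_left : zpowers β ≤ _) (mem_zpowers β))
  rw [Cfsg.Agent.Lib.Perm.SylowConj.mem_smul_iff] at hαR hβR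
  have hcomm := congrArg Subtype.val (hP.is_comm.comm ⟨_, hαR⟩ ⟨_, hβR⟩)
  have hcomm' : g⁻¹ * α * g * (g⁻¹ * β * g) = g⁻¹ * β * g * (g⁻¹ * α * g) := hcomm
  apply hne
  have e1 : g⁻¹ * (α * β) * g = g⁻¹ * (β * α) * g := by
    calc g⁻¹ * (α * β) * g = g⁻¹ * α * g * (g⁻¹ * β * g) := by group
      _ = g⁻¹ * β * g * (g⁻¹ * α * g) := hcomm'
      _ = g⁻¹ * (β * α) * g := by group
  exact mul_left_cancel (mul_right_cancel e1)

set_option maxRecDepth 100000 in
lemma no4 : ∀ g : Perm (Fin 5), sign g = 1 → g ^ 4 = 1 → g ^ 2 = 1 := by decide +kernel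

set_option maxRecDepth 100000 in
set_option synthInstance.maxHeartbeats 2000000 in
set_option synthInstance.maxSize 100000 in
lemma klein_cards : ∀ a b : Perm (Fin 5), a ≠ 1 → b ≠ 1 → a ≠ b → a * a = 1 → b * b = 1 → a * b = b * a → sign a = 1 → sign b = 1 →
    (Finset.univ.filter (fun g : Perm (Fin 5) => sign g = 1 ∧ g * a = a * g ∧ g * b = b * g)).card = 4 ∧
    (Finset.univ.filter (fun g : Perm (Fin 5) => sign g = 1 ∧ (g * a * g⁻¹ = 1 ∨ g * a * g⁻¹ = a ∨ g * a * g⁻¹ = b ∨ g * a * g⁻¹ = a * b) ∧ (g * b * g⁻¹ = 1 ∨ g * b * g⁻¹ = a ∨ g * b * g⁻¹ = b ∨ g * b * g⁻¹ = a * b))).card = 12 := by decide +kernel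

lemma card_of_pred (C : Subgroup (alternatingGroup (Fin 5))) (F : Finset (Perm (Fin 5)))
    (hF : ∀ g : Perm (Fin 5), g ∈ F ↔ ∃ h : g ∈ alternatingGroup (Fin 5), (⟨g, h⟩ : alternatingGroup (Fin 5)) ∈ C) :
    Nat.card C = F.card := by
  have h1 : Nat.card C = Nat.card (C.map (alternatingGroup (Fin 5)).subtype) :=
    (Subgroup.card_map_of_injective (Subtype.val_injective)).symm
  rw [h1]
  have h2 : ((C.map (alternatingGroup (Fin 5)).subtype : Subgroup _) : Set (Perm (Fin 5))) = (F : Set (Perm (Fin 5))) := by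
    ext g
    rw [Finset.mem_coe, hF]
    constructor
    · rintro ⟨c, hc, rfl⟩
      exact ⟨c.2, hc⟩
    · rintro ⟨h, hc⟩
      exact ⟨_, hc, rfl⟩
  show Nat.card ((C.map (alternatingGroup (Fin 5)).subtype : Subgroup _) : Set (Perm (Fin 5))) = _
  rw [h2, Nat.card_coe_set_eq, Set.ncard_coe_finset]

lemma case5 [Fact (Nat.Prime 2)] (P : Sylow 2 (alternatingGroup (Fin 5))) :
    ((Subgroup.centralizer ((P : Subgroup (alternatingGroup (Fin 5))) : Set (alternatingGroup (Fin 5)))).subgroupOf (Subgroup.normalizer ((P : Subgroup (alternatingGroup (Fin 5))) : Set (alternatingGroup (Fin 5))))).index = 3 ∧ IsKleinFour (P : Subgroup (alternatingGroup (Fin 5))) := by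
  classical
  set S : Subgroup (alternatingGroup (Fin 5)) := (P : Subgroup (alternatingGroup (Fin 5))) with hS
  have hcardA : Nat.card (alternatingGroup (Fin 5)) = 60 := by
    rw [nat_card_alternatingGroup]
    simp [Nat.factorial]
  have hcard : Nat.card S = 4 := by
    have h1 := P.card_eq_multiplicity
    rw [hcardA] at h1
    have h2 : (60 : ℕ).factorization 2 = 2 := by
      have e : (60 : ℕ) = 2 ^ 2 * 15 := by norm_num
      rw [e, Nat.factorization_mul (by norm_num) (by norm_num), Nat.factorization_pow]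
      simp [Nat.Prime.factorization Nat.prime_two]
      exact Nat.factorization_eq_zero_of_not_dvd (by norm_num)
    rw [h2] at h1
    simpa using h1
  have hinv : ∀ x ∈ S, x * x = 1 := by
    intro x hx
    have h1 : x ^ 4 = 1 := by
      have := pow_card_eq_one' (G := S) (x := ⟨x, hx⟩)
      rw [hcard] at this
      exact congrArg Subtype.val this
    have h2 := no4 (x : Perm (Fin 5)) (mem_alternatingGroup.mp x.2) (congrArg Subtype.val h1)
    apply Subtype.ext
    rw [← pow_two]
    exact h2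
  haveI : Nontrivial S := by
    rw [← Finite.one_lt_card_iff_nontrivial, hcard]; norm_num
  have hK : IsKleinFour S := by
    refine ⟨hcard, ?_⟩
    rw [Monoid.exponent_eq_prime_iff Nat.prime_two]
    intro g hg
    apply orderOf_eq_prime _ hg
    apply Subtype.ext
    rw [pow_two]
    exact hinv g g.2
  refine ⟨?_, hK⟩
  obtain ⟨a, ha, ha1⟩ : ∃ a ∈ S, a ≠ 1 := by
    obtain ⟨x, hx⟩ := exists_ne (1 : S)
    exact ⟨x, x.2, fun h => hx (Subtype.ext h)⟩
  obtain ⟨b, hb, hb1, hba⟩ : ∃ b ∈ S, b ≠ 1 ∧ b ≠ a := by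
    by_contra h
    push Not at h
    have hsub : (S : Set (alternatingGroup (Fin 5))) ⊆ {1, a} := by
      intro x hx
      by_cases hx1 : x = 1
      · left; exact hx1
      · right; exact h x hx hx1
    have h1 : Nat.card S ≤ 2 := by
      show Nat.card ((S : Set (alternatingGroup (Fin 5)))) ≤ 2
      rw [Nat.card_coe_set_eq]
      exact (Set.ncard_le_ncard hsub (Set.toFinite _)).trans (Set.ncard_pair (Ne.symm ha1)).le
    omega
  have ia : a⁻¹ = a := inv_eq_of_mul_eq_one_left (hinv a ha)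
  have ib : b⁻¹ = b := inv_eq_of_mul_eq_one_left (hinv b hb)
  have hab : a * b = b * a := by
    have iab : (a * b)⁻¹ = a * b := inv_eq_of_mul_eq_one_left (hinv _ (S.mul_mem ha hb))
    calc a * b = (a * b)⁻¹ := iab.symm
      _ = b⁻¹ * a⁻¹ := mul_inv_rev a b
      _ = b * a := by rw [ia, ib]
  have hset : ∀ x ∈ S, x = 1 ∨ x = a ∨ x = b ∨ x = a * b := by
    have hne1 : (1 : alternatingGroup (Fin 5)) ≠ a := ha1.symm
    have hne2 : (1 : alternatingGroup (Fin 5)) ≠ b := hb1.symm
    have hne3 : (1 : alternatingGroup (Fin 5)) ≠ a * b := by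
      intro h
      apply hba
      have := eq_inv_of_mul_eq_one_right h.symm
      rw [this, ia]
    have hne4 : a ≠ b := hba.symm
    have hne5 : a ≠ a * b := by
      intro h
      exact hb1 (left_eq_mul.mp h)
    have hne6 : b ≠ a * b := by
      intro h
      exact ha1 (right_eq_mul.mp h)
    have hsub : ({1, a, b, a * b} : Set (alternatingGroup (Fin 5))) ⊆ S := by
      rintro x (rfl | rfl | rfl | rfl)
      · exact S.one_mem
      · exact ha
      · exact hb
      · exact S.mul_mem ha hb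
    have hn : ({1, a, b, a * b} : Set (alternatingGroup (Fin 5))).ncard = 4 := by
      rw [Set.ncard_insert_of_notMem (by simp [hne1, hne2, hne3]), Set.ncard_insert_of_notMem (by simp [hne4, hne5]),
        Set.ncard_pair hne6]
    have hSn : (S : Set (alternatingGroup (Fin 5))).ncard = 4 := by
      rw [← Nat.card_coe_set_eq]; exact hcard
    have heq : ({1, a, b, a * b} : Set (alternatingGroup (Fin 5))) = S :=
      Set.eq_of_subset_of_ncard_le hsub (by rw [hn, hSn])
    intro x hx
    have : x ∈ ({1, a, b, a * b} : Set (alternatingGroup (Fin 5))) := by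
      rw [heq]; exact hx
    simpa using this
  have hCmem : ∀ g : alternatingGroup (Fin 5), g ∈ Subgroup.centralizer (S : Set (alternatingGroup (Fin 5))) ↔ g * a = a * g ∧ g * b = b * g := by
    intro g
    rw [Subgroup.mem_centralizer_iff]
    constructor
    · intro h
      exact ⟨(h a ha).symm, (h b hb).symm⟩
    · rintro ⟨h1, h2⟩ x hx
      rcases hset x hx with rfl | rfl | rfl | rfl
      · simp
      · exact h1.symm
      · exact h2.symm
      · calc a * b * g = a * (b * g) := mul_assoc _ _ _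
          _ = a * (g * b) := by rw [h2]
          _ = (a * g) * b := by group
          _ = g * a * b := by rw [h1]
          _ = g * (a * b) := mul_assoc _ _ _
  have hNmem : ∀ g : alternatingGroup (Fin 5), g ∈ Subgroup.normalizer (S : Set (alternatingGroup (Fin 5))) ↔ (g * a * g⁻¹ ∈ S) ∧ (g * b * g⁻¹ ∈ S) := by
    intro g
    constructor
    · intro h
      exact ⟨(mem_normalizer_iff.mp h a).mp ha, (mem_normalizer_iff.mp h b).mp hb⟩
    · rintro ⟨h1, h2⟩
      apply Cfsg.Agent.S0699.mem_normalizer_of_forall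
      intro x hx
      rcases hset x hx with rfl | rfl | rfl | rfl
      · simp [S.one_mem]
      · exact h1
      · exact h2
      · have : g * (a * b) * g⁻¹ = (g * a * g⁻¹) * (g * b * g⁻¹) := by group
        rw [this]
        exact S.mul_mem h1 h2
  have hSmem : ∀ x : alternatingGroup (Fin 5), x ∈ S ↔ (x : Perm (Fin 5)) = 1 ∨ (x : Perm (Fin 5)) = a ∨ (x : Perm (Fin 5)) = b ∨ (x : Perm (Fin 5)) = (a : Perm (Fin 5)) * b := by
    intro x
    constructor
    · intro hx
      rcases hset x hx with rfl | rfl | rfl | rfl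
      · left; rfl
      · right; left; rfl
      · right; right; left; rfl
      · right; right; right; rfl
    · rintro (h | h | h | h)
      · have : x = 1 := Subtype.ext h
        rw [this]; exact S.one_mem
      · have : x = a := Subtype.ext h
        rw [this]; exact ha
      · have : x = b := Subtype.ext h
        rw [this]; exact hb
      · have : x = a * b := Subtype.ext h
        rw [this]; exact S.mul_mem ha hb
  have hne' : ∀ x y : alternatingGroup (Fin 5), x ≠ y → (x : Perm (Fin 5)) ≠ y := fun x y h e => h (Subtype.ext e)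
  have hk := klein_cards (a : Perm (Fin 5)) b (hne' _ _ ha1) (hne' _ _ hb1) (hne' _ _ hba.symm)
    (congrArg Subtype.val (hinv a ha)) (congrArg Subtype.val (hinv b hb)) (congrArg Subtype.val hab)
    (mem_alternatingGroup.mp a.2) (mem_alternatingGroup.mp b.2)
  have hCc : Nat.card (Subgroup.centralizer (S : Set (alternatingGroup (Fin 5)))) = 4 := by
    rw [← hk.1]
    apply card_of_pred
    intro g
    simp only [Finset.mem_filter, Finset.mem_univ, true_and]
    constructor
    · rintro ⟨hs, h1, h2⟩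
      refine ⟨mem_alternatingGroup.mpr hs, ?_⟩
      rw [hCmem]
      exact ⟨Subtype.ext h1, Subtype.ext h2⟩
    · rintro ⟨h, hg⟩
      rw [hCmem] at hg
      exact ⟨mem_alternatingGroup.mp h, congrArg Subtype.val hg.1, congrArg Subtype.val hg.2⟩
  have hNc : Nat.card (Subgroup.normalizer (S : Set (alternatingGroup (Fin 5)))) = 12 := by
    rw [← hk.2]
    apply card_of_pred
    intro g
    simp only [Finset.mem_filter, Finset.mem_univ, true_and]
    constructor
    · rintro ⟨hs, h1, h2⟩
      refine ⟨mem_alternatingGroup.mpr hs, ?_⟩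
      rw [hNmem, hSmem, hSmem]
      exact ⟨h1, h2⟩
    · rintro ⟨h, hg⟩
      rw [hNmem, hSmem, hSmem] at hg
      exact ⟨mem_alternatingGroup.mp h, hg.1, hg.2⟩
  have hle : Subgroup.centralizer (S : Set (alternatingGroup (Fin 5))) ≤ Subgroup.normalizer (S : Set (alternatingGroup (Fin 5))) := by
    intro g hg
    have hg' := (hCmem g).mp hg
    rw [hNmem]
    constructor
    · rw [hg'.1, mul_inv_cancel_right]; exact ha
    · rw [hg'.2, mul_inv_cancel_right]; exact hb
  have h1 := Subgroup.card_mul_index ((Subgroup.centralizer (S : Set (alternatingGroup (Fin 5)))).subgroupOf (Subgroup.normalizer (S : Set (alternatingGroup (Fin 5)))))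
  have h2 : Nat.card ↥((Subgroup.centralizer (S : Set (alternatingGroup (Fin 5)))).subgroupOf (Subgroup.normalizer (S : Set (alternatingGroup (Fin 5))))) = 4 := by
    rw [← hCc]
    exact Nat.card_congr (Subgroup.subgroupOfEquivOfLe hle).toEquiv
  rw [h2, hNc] at h1
  omega

/-- Let n ≥ 5 and let P be an abelian Sylow p-subgroup of the alternating group A_n. Then N(P)/C(P) (taken in A_n) has even order, or P is cyclic, except when n = 5 and p = 2, where P is a four-group and N(P)/C(P) has order 3. -/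
theorem result (n : ℕ) (hn : 5 ≤ n) {p : ℕ} [Fact p.Prime]
    (P : Sylow p (alternatingGroup (Fin n))) (hP : IsMulCommutative (P : Subgroup (alternatingGroup (Fin n)))) :
    (¬ (n = 5 ∧ p = 2) → 2 ∣ ((Subgroup.centralizer ((P : Subgroup (alternatingGroup (Fin n))) : Set (alternatingGroup (Fin n)))).subgroupOf (Subgroup.normalizer ((P : Subgroup (alternatingGroup (Fin n))) : Set (alternatingGroup (Fin n))))).index ∨ IsCyclic (P : Subgroup (alternatingGroup (Fin n)))) ∧
    ((n = 5 ∧ p = 2) → ((Subgroup.centralizer ((P : Subgroup (alternatingGroup (Fin n))) : Set (alternatingGroup (Fin n)))).subgroupOf (Subgroup.normalizer ((P : Subgroup (alternatingGroup (Fin n))) : Set (alternatingGroup (Fin n))))).index = 3 ∧ IsKleinFour (P : Subgroup (alternatingGroup (Fin n)))) := by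
  constructor
  · intro hne
    by_cases hp2 : p = 2
    · subst hp2
      have h6 : 6 ≤ n := by
        by_contra h
        have : n = 5 := by omega
        exact hne ⟨this, rfl⟩
      exact (two_case n h6 P hP).elim
    · exact odd_case n hp2 P hP
  · rintro ⟨rfl, rfl⟩
    exact case5 P

end Cfsg.Agent.S2269
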