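import Cfsg.Statements.S2280
import Cfsg.Agent.Lib.Classical.Lin.RootSeed

set_option autoImplicit false
open Cfsg

namespace Cfsg.Agent.S2280

open Matrix Cfsg.Agent.Lib.Classical.Lin.RootSeed

section aux

variable {F : Type*} [Field F] {n : ℕ}

theorem N_pow_apply (k : ℕ) (i j : Fin n) :
    (N n F ^ k) i j = if i.val + k = j.val then 1 else 0 := by
  induction k generalizing j with
  | zero =>
    simp [Matrix.one_apply, Fin.ext_iff]
  | succ k ih =>
    rw [pow_succ, Matrix.mul_apply]
    simp only [ih, N_apply]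
    by_cases h : i.val + (k + 1) = j.val
    · rw [if_pos h, Finset.sum_eq_single (⟨i.val + k, by omega⟩ : Fin n)]
      · rw [if_pos rfl, if_pos (by simp only []; omega), mul_one]
      · intro b _ hb
        rw [if_neg, zero_mul]
        intro hc
        exact hb (Fin.ext (by simp only []; omega))
      · intro hc
        exact absurd (Finset.mem_univ _) hc
    · rw [if_neg h]
      apply Finset.sum_eq_zero
      intro b _
      by_cases h1 : i.val + k = b.val
      · rw [if_neg (show ¬ b.val + 1 = j.val by omega), mul_zero]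
      · rw [if_neg h1, zero_mul]

theorem det_one_add_N : (1 + N n F).det = 1 := by
  rw [Matrix.det_of_isUpperTriangular]
  · apply Finset.prod_eq_one
    intro i _
    simp [N_apply]
  · intro i j hij
    have h1 : j.val < i.val := hij
    have h2 : i ≠ j := fun h => by
      rw [h] at h1
      omega
    rw [Matrix.add_apply, Matrix.one_apply_ne h2, N_apply, if_neg (by omega), add_zero]

theorem exists_h (hn : 0 < n) : ∃ (h : SpecialLinearGroup (Fin n) F)
    (L : Matrix (Fin n) (Fin n) F),
    (∀ i j : Fin n, i.val ≠ j.val + 1 → L i j = 0) ∧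
    (∀ i j : Fin n, i.val = j.val + 1 → L i j ≠ 0) ∧
    (h : Matrix (Fin n) (Fin n) F) * N n F = L * h := by
  set rev : Equiv.Perm (Fin n) := Fin.revPerm with hrev
  set ε : F := (((Equiv.Perm.sign rev : ℤˣ) : ℤ) : F) with hε
  have hεε : ε * ε = 1 := by
    rw [hε, ← Int.cast_mul, ← Units.val_mul, Int.units_mul_self]
    simp
  have hε0 : ε ≠ 0 := left_ne_zero_of_mul_eq_one hεε
  set i0 : Fin n := ⟨0, hn⟩ with hi0
  set d : Fin n → F := Function.update 1 i0 ε with hd'
  have hd : ∀ k, d k ≠ 0 := by
    intro k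
    by_cases hk : k = i0
    · rw [hk, hd', Function.update_self]
      exact hε0
    · rw [hd', Function.update_of_ne hk]
      exact one_ne_zero
  have hdet : ((diagonal d).submatrix rev id).det = 1 := by
    rw [Matrix.det_permute, det_diagonal, hd', Finset.prod_update_of_mem (Finset.mem_univ _)]
    simp only [Pi.one_apply, Finset.prod_const_one, mul_one]
    exact hεε
  have hrevrev : ∀ k, rev (rev k) = k := fun k => by
    simp [hrev]
  have hrevval : ∀ k : Fin n, (rev k).val = n - 1 - k.val := fun k => by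
    simp [hrev, Fin.val_rev]
    omega
  refine ⟨⟨(diagonal d).submatrix rev id, hdet⟩,
    of fun i j => if i.val = j.val + 1 then d (rev i) * (d (rev j))⁻¹ else 0, ?_, ?_, ?_⟩
  · intro i j hij
    simp only [of_apply, if_neg hij]
  · intro i j hij
    simp only [of_apply, if_pos hij]
    exact mul_ne_zero (hd _) (inv_ne_zero (hd _))
  · ext i j
    change (((diagonal d).submatrix rev id) * N n F) i j =
      ((of fun i j => if i.val = j.val + 1 then d (rev i) * (d (rev j))⁻¹ else 0) *
        ((diagonal d).submatrix rev id)) i j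
    rw [Matrix.mul_apply, Matrix.mul_apply, Finset.sum_eq_single (rev i),
      Finset.sum_eq_single (rev j)]
    · simp only [submatrix_apply, id, diagonal_apply, of_apply, N_apply, hrevrev, if_true]
      have hi := i.isLt
      have hj := j.isLt
      by_cases h : (rev i).val + 1 = j.val
      · rw [if_pos h, if_pos, mul_one]
        · rw [mul_assoc, inv_mul_cancel₀ (hd _), mul_one]
        · rw [hrevval] at h ⊢
          omega
      · rw [if_neg h, if_neg, mul_zero, zero_mul]
        rw [hrevval] at h ⊢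
        omega
    · intro b _ hb
      simp only [submatrix_apply, id, diagonal_apply]
      rw [if_neg, mul_zero]
      intro hc
      apply hb
      rw [← hc, hrevrev]
    · intro hc
      exact absurd (Finset.mem_univ _) hc
    · intro b _ hb
      simp only [submatrix_apply, id, diagonal_apply]
      rw [if_neg (Ne.symm hb), zero_mul]
    · intro hc
      exact absurd (Finset.mem_univ _) hc

end aux

/-- Let F be a finite field and n ≥ 3. Then SL_n(F) is generated by three conjugate regular unipotent elements: there are u with u − 1 nilpotent and (u − 1)^(n−1) ≠ 0, and g, h, such that u, g u g⁻¹ and h u h⁻¹ generate SL_n(F). -/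
theorem result {F : Type*} [Field F] [Fintype F] (n : ℕ) (hn : 3 ≤ n) :
    ∃ u g h : Matrix.SpecialLinearGroup (Fin n) F, (IsNilpotent ((u : Matrix (Fin n) (Fin n) F) - 1) ∧ ((u : Matrix (Fin n) (Fin n) F) - 1) ^ (n - 1) ≠ 0) ∧
      Subgroup.closure ({u, g * u * g⁻¹, h * u * h⁻¹} : Set (Matrix.SpecialLinearGroup (Fin n) F)) = ⊤ := by
  have hn0 : 0 < n := by omega
  set u : SpecialLinearGroup (Fin n) F := ⟨1 + N n F, det_one_add_N⟩ with hu'
  have hu : (u : Matrix (Fin n) (Fin n) F) = 1 + N n F := rfl
  obtain ⟨h, L, hL0, hL1, hhN⟩ := exists_h (F := F) hn0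
  have hw : ((h * u * h⁻¹ : SpecialLinearGroup (Fin n) F) : Matrix (Fin n) (Fin n) F) = 1 + L := by
    rw [Matrix.SpecialLinearGroup.coe_mul, Matrix.SpecialLinearGroup.coe_mul, hu, Matrix.mul_add,
      Matrix.mul_one, hhN, Matrix.add_mul, Matrix.mul_assoc L, coe_mul_inv, Matrix.mul_one]
  obtain ⟨a, ha⟩ := IsCyclic.exists_generator (α := Fˣ)
  have hlast : n - 1 < n := by omega
  have hprev : n - 2 < n := by omega
  set μ : F := xOf hn0 (h * u * h⁻¹) ⟨n - 1, hlast⟩ * L ⟨n - 1, hlast⟩ ⟨n - 2, hprev⟩ with hμ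
  have hμ0 : μ ≠ 0 := mul_ne_zero (xOf_ne_zero hn0 _ hw hL0 hL1 _) (hL1 _ _ (by simp only []; omega))
  set c : F := (a : F) / μ with hc
  have hc' : μ * c = a := by
    rw [hc]
    field_simp
  set e₀ : Fin n → F := Pi.single (⟨0, hn0⟩ : Fin n) (1 : F) with he₀
  set ψ : Fin n → F := c • Pi.single (⟨n - 2, hprev⟩ : Fin n) (1 : F) with hψ
  have hψe : ψ ⬝ᵥ e₀ = 0 := by
    rw [hψ, he₀, smul_dotProduct, dotProduct_single, mul_one, Pi.single_apply, if_neg]
    · simp
    · intro hc
      have := congrArg Fin.val hc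
      simp only [] at this
      omega
  have hg1 : T e₀ ψ * T e₀ (-ψ) = 1 := T_neg hψe
  have hgdet : (T e₀ ψ).det = 1 := by
    have : T e₀ ψ = Matrix.transvection (⟨0, hn0⟩ : Fin n) ⟨n - 2, hprev⟩ c := by
      ext i j
      simp [T, Matrix.transvection, vecMulVec_apply, he₀, hψ, Matrix.single_apply, Pi.single_apply]
      by_cases h1 : j = ⟨n - 2, hprev⟩
      · by_cases h2 : i = ⟨0, hn0⟩
        · simp [h1, h2]
        · simp [h1, h2, Ne.symm h2]
      · simp [h1, Ne.symm h1]
    rw [this, Matrix.det_transvection_of_ne]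
    intro hc
    have := congrArg Fin.val hc
    simp only [] at this
    omega
  set g : SpecialLinearGroup (Fin n) F := ⟨T e₀ ψ, hgdet⟩ with hg'
  refine ⟨u, g, h, ⟨?_, ?_⟩, ?_⟩
  · refine ⟨n, ?_⟩
    rw [hu, add_sub_cancel_left]
    ext i j
    rw [N_pow_apply, if_neg (by have := i.isLt; have := j.isLt; omega)]
    rfl
  · rw [hu, add_sub_cancel_left]
    intro hc
    have := congrFun (congrFun hc ⟨0, hn0⟩) ⟨n - 1, hlast⟩
    rw [N_pow_apply, if_pos (by simp only []; omega)] at this
    exact one_ne_zero this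
  · set H := Subgroup.closure ({u, g * u * g⁻¹, h * u * h⁻¹} :
      Set (Matrix.SpecialLinearGroup (Fin n) F)) with hH
    have huH : u ∈ H := Subgroup.subset_closure (by simp)
    have hvH : g * u * g⁻¹ ∈ H := Subgroup.subset_closure (by simp)
    have hwH : h * u * h⁻¹ ∈ H := Subgroup.subset_closure (by simp)
    refine eq_top_of_seed hn hL0 hL1 hu huH hw hwH a ha hc' ?_
    -- the seed
    refine ⟨u⁻¹ * (g * u * g⁻¹), H.mul_mem (H.inv_mem huH) hvH, ?_⟩
    have hG' : ((g⁻¹ : SpecialLinearGroup (Fin n) F) : Matrix (Fin n) (Fin n) F) = T e₀ (-ψ) := by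
      have h1 : ((g⁻¹ : SpecialLinearGroup (Fin n) F) : Matrix (Fin n) (Fin n) F) * T e₀ ψ = 1 :=
        coe_inv_mul g
      calc ((g⁻¹ : SpecialLinearGroup (Fin n) F) : Matrix (Fin n) (Fin n) F)
          = ((g⁻¹ : SpecialLinearGroup (Fin n) F) : Matrix (Fin n) (Fin n) F) *
              (T e₀ ψ * T e₀ (-ψ)) := by rw [hg1, Matrix.mul_one]
        _ = T e₀ (-ψ) := by rw [← Matrix.mul_assoc, h1, Matrix.one_mul]
    have hNe : N n F *ᵥ e₀ = 0 := by
      funext k
      rw [Matrix.mulVec, dotProduct, Pi.zero_apply]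
      apply Finset.sum_eq_zero
      intro l _
      by_cases hl : l = ⟨0, hn0⟩
      · rw [hl, N_apply, if_neg (by simp only []; omega), zero_mul]
      · rw [he₀, Pi.single_eq_of_ne hl, mul_zero]
    have hAe : (u : Matrix (Fin n) (Fin n) F) *ᵥ e₀ = e₀ := by
      rw [hu, Matrix.add_mulVec, Matrix.one_mulVec, hNe, add_zero]
    have hA'e : ((u⁻¹ : SpecialLinearGroup (Fin n) F) : Matrix (Fin n) (Fin n) F) *ᵥ e₀ = e₀ := by
      conv_lhs => rw [← hAe]
      rw [Matrix.mulVec_mulVec, coe_inv_mul, Matrix.one_mulVec]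
    have hψA : ψ ᵥ* (u : Matrix (Fin n) (Fin n) F) =
        ψ + c • Pi.single (⟨n - 1, hlast⟩ : Fin n) (1 : F) := by
      rw [hu, Matrix.vecMul_add, Matrix.vecMul_one, hψ, smul_single_vecMul]
      congr 2
      funext j
      rw [N_apply, Pi.single_apply]
      by_cases hj : j = ⟨n - 1, hlast⟩
      · rw [if_pos hj, if_pos]
        rw [hj]
        simp only []
        omega
      · rw [if_neg hj, if_neg]
        intro hc
        apply hj
        apply Fin.ext
        simp only [] at hc ⊢
        omega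
    have hlaste : (ψ + c • Pi.single (⟨n - 1, hlast⟩ : Fin n) (1 : F)) ⬝ᵥ e₀ = 0 := by
      rw [add_dotProduct, hψe, zero_add, he₀, smul_dotProduct, dotProduct_single, mul_one,
        Pi.single_apply, if_neg]
      · simp
      · intro hc
        have := congrArg Fin.val hc
        simp only [] at this
        omega
    rw [Matrix.SpecialLinearGroup.coe_mul, Matrix.SpecialLinearGroup.coe_mul,
      Matrix.SpecialLinearGroup.coe_mul, hG']
    have hgg : ((g : SpecialLinearGroup (Fin n) F) : Matrix (Fin n) (Fin n) F) = T e₀ ψ := rfl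
    rw [hgg, ← Matrix.mul_assoc, ← Matrix.mul_assoc,
      conj_T _ _ (coe_inv_mul u), hA'e, hψA, T_add hlaste]
    congr 1
    abel

end Cfsg.Agent.S2280
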