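import Cfsg.Statements.S2281
import Cfsg.Agent.Lib.Classical.Symp.RegModel6
import Cfsg.Agent.Lib.Classical.Symp.SympBasis
import Cfsg.Agent.Lib.Classical.Symp.Basic

set_option autoImplicit false
open Cfsg

namespace Cfsg.Agent.S2281

open Matrix
open Cfsg.Agent.Lib.Classical.Symp.AltForm
open Cfsg.Agent.Lib.Classical.Symp.Basic
open Cfsg.Agent.Lib.Classical.Symp.SympBasis
open Cfsg.Agent.Lib.Classical.Symp.RegModel

/-- Let F be a finite field and n ≥ 2, excluding the case n = 2 with F of two elements (where the group is not quasisimple). Then the symplectic group Sp_2n(F) is generated by three conjugate regular unipotent elements: there are u ∈ Sp_2n(F) with u − 1 nilpotent and (u − 1)^(2n−1) ≠ 0, and g, h ∈ Sp_2n(F), such that u, g u g⁻¹ and h u h⁻¹ generate Sp_2n(F). -/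
theorem result {F : Type*} [Field F] [Fintype F] (n : ℕ) (hn : 2 ≤ n) (h22 : ¬ (n = 2 ∧ Fintype.card F = 2)) :
    ∃ u g h : Matrix.symplecticGroup (Fin n) F,
      IsNilpotent ((u : Matrix (Fin n ⊕ Fin n) (Fin n ⊕ Fin n) F) - 1) ∧
      ((u : Matrix (Fin n ⊕ Fin n) (Fin n ⊕ Fin n) F) - 1) ^ (2 * n - 1) ≠ 0 ∧
      Subgroup.closure ({u, g * u * g⁻¹, h * u * h⁻¹} : Set (Matrix.symplecticGroup (Fin n) F)) = ⊤ := by
  obtain ⟨g, hg, h, hh', hH⟩ := model_main (F := F) hn h22
  have hdim : Module.finrank F (Fin (2 * n) → F) = 2 * n := by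
    simp [Module.finrank_fintype_fun_eq_card]
  obtain ⟨e, he⟩ := exists_sympEquiv (form n F) form_isAlt form_nondeg hdim
  let φ : IsomGroup (form n F) ≃* symplecticGroup (Fin n) F :=
    (isomEquiv (B' := sympBilin n F) e (fun a b => he a b)).trans spEquivIsom.symm
  have hφ : ∀ (a : IsomGroup (form n F)) (y : Fin n ⊕ Fin n → F),
      ((φ a : symplecticGroup (Fin n) F) : Matrix _ _ F) *ᵥ y =
        e ((a : (Fin (2 * n) → F) ≃ₗ[F] (Fin (2 * n) → F)) (e.symm y)) := by
    intro a y
    have h1 : spEquivIsom (φ a) = isomEquiv (B' := sympBilin n F) e (fun a b => he a b) a := by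
      simp [φ]
    have h2 := congrArg (fun z : IsomGroup (sympBilin n F) =>
      (z : (Fin n ⊕ Fin n → F) ≃ₗ[F] (Fin n ⊕ Fin n → F)) y) h1
    have h3 : ((φ a : symplecticGroup (Fin n) F) : Matrix _ _ F) *ᵥ y =
        ((isomEquiv (B' := sympBilin n F) e (fun a b => he a b) a : IsomGroup (sympBilin n F)) :
          (Fin n ⊕ Fin n → F) ≃ₗ[F] (Fin n ⊕ Fin n → F)) y := by
      simpa using h2
    exact h3.trans (isomEquiv_apply e (fun a b => he a b) a y)
  let û : IsomGroup (form n F) := ⟨uu n F, uu_mem⟩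
  let ĝ : IsomGroup (form n F) := ⟨g, hg⟩
  let ĥ : IsomGroup (form n F) := ⟨h, hh'⟩
  have hpow : ∀ (k : ℕ) (y : Fin n ⊕ Fin n → F),
      (((φ û : symplecticGroup (Fin n) F) : Matrix _ _ F) - 1) ^ k *ᵥ y =
        e ((NN n F ^ k) (e.symm y)) := by
    intro k
    induction k with
    | zero => simp
    | succ k ih =>
      intro y
      rw [pow_succ', ← Matrix.mulVec_mulVec, ih, Matrix.sub_mulVec, hφ, Matrix.one_mulVec,
        pow_succ', Module.End.mul_apply, NN_apply]
      simp [û, map_sub]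
  refine ⟨φ û, φ ĝ, φ ĥ, ⟨2 * n, ?_⟩, ?_, ?_⟩
  · apply Matrix.toLin'.injective
    refine LinearMap.ext fun y => ?_
    rw [Matrix.toLin'_apply, hpow, NN_pow_eq_zero]
    simp
  · intro hzero
    apply NN_pow_ne_zero (n := n) (F := F) (by omega)
    refine LinearMap.ext fun x => ?_
    have h1 := hpow (2 * n - 1) (e x)
    rw [hzero, Matrix.zero_mulVec, e.symm_apply_apply] at h1
    have h2 : e ((NN n F ^ (2 * n - 1)) x) = e 0 := by
      rw [← h1, map_zero]
    simpa using e.injective h2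
  · have h1 : Subgroup.closure ({û, ĝ * û * ĝ⁻¹, ĥ * û * ĥ⁻¹} : Set (IsomGroup (form n F))) = ⊤ := by
      apply Subgroup.map_injective (IsomGroup (form n F)).subtype_injective
      rw [MonoidHom.map_closure, ← MonoidHom.range_eq_map, Subgroup.range_subtype]
      refine Eq.trans ?_ hH
      unfold HH
      congr 1
      simp only [Set.image_insert_eq, Set.image_singleton]
      rfl
    have h2 : ({φ û, φ ĝ * φ û * (φ ĝ)⁻¹, φ ĥ * φ û * (φ ĥ)⁻¹} : Set (symplecticGroup (Fin n) F)) =
        (φ : IsomGroup (form n F) →* symplecticGroup (Fin n) F) '' {û, ĝ * û * ĝ⁻¹, ĥ * û * ĥ⁻¹} := by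
      simp only [Set.image_insert_eq, Set.image_singleton, map_mul, map_inv]
      rfl
    rw [h2, ← MonoidHom.map_closure, h1]
    exact Subgroup.map_top_of_surjective _ φ.surjective

end Cfsg.Agent.S2281
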