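import Cfsg.Statements.S2283
import Cfsg.Agent.Lib.Classical.Herm.SU3Gen

set_option autoImplicit false
set_option linter.unusedSectionVars false
set_option linter.unusedSimpArgs false
set_option linter.unnecessarySeqFocus false
set_option linter.unusedVariables false
open Cfsg

namespace Cfsg.Agent.S2283

open Matrix Cfsg.Agent.Lib.Classical.Herm.SU3Gen Cfsg.Agent.Lib.Classical.Herm.Basic
open Cfsg.Agent.Lib.Classical.Lin.RootSeed (coe_mul_inv coe_inv_mul)

variable {F : Type*} [Field F] [Fintype F] {q : ℕ}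

/-- The family, in the parameters `s` with `s^q = 1 - s` and `κ = 1/(s (1-s))`. -/
def zF (s κ : F) : F := κ ^ 2 * s * (2 - 3 * s + 2 * s ^ 2)

def vM (s : F) : Matrix (Fin 3) (Fin 3) F := !![1, 0, 0; 1, 1, 0; 1 - s, 1, 1]

def gM (s κ : F) : Matrix (Fin 3) (Fin 3) F :=
  !![0, 0, κ; 0, -1, -κ * (1 - s) ^ 3; s * (1 - s), s ^ 3, s ^ 3 * (1 - s) ^ 2]

theorem kappa_q (hF : Fintype.card F = q ^ 2) {s κ : F} (hsq : s ^ q = 1 - s)
    (hκ : κ * s * (1 - s) = 1) : κ ^ q = κ := by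
  have h1 : (κ * s * (1 - s)) ^ q = 1 := by rw [hκ, one_pow]
  rw [mul_pow, mul_pow, pow_q_sub hF, hsq, one_pow] at h1
  have hs : s ≠ 0 := by
    rintro rfl
    simp at hκ
  have hs1 : 1 - s ≠ 0 := by
    intro h
    rw [h] at hκ
    simp at hκ
  have h2 : (κ ^ q - κ) * (s * (1 - s)) = 0 := by
    linear_combination h1 - hκ
  have h3 := (mul_eq_zero.1 h2).resolve_right (mul_ne_zero hs hs1)
  exact sub_eq_zero.1 h3

theorem g_conj {s κ : F} (hκ : κ * s * (1 - s) = 1)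
    (hκq : (-κ) ^ q = -κ) : gM s κ * xM q (-κ) (zF s κ) = vM s * gM s κ := by
  ext i j
  fin_cases i <;> fin_cases j <;>
    simp [vM, xM, gM, hκq, zF, Matrix.mul_apply, Fin.sum_univ_three] <;> grind

theorem det_g {s κ : F} (hκ : κ * s * (1 - s) = 1) : (gM s κ).det = 1 := by
  rw [Matrix.det_fin_three]
  simp [gM]
  grind

theorem W_entries {s κ : F} (hκ : κ * s * (1 - s) = 1) (hκq : (-κ) ^ q = -κ) :
    vM s * xM q (-κ) (zF s κ) * vM s = !![κ * (1 - s) ^ 2, zF s κ - κ, zF s κ;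
      0, κ ^ 2 * s ^ 4, zF s κ - κ; 0, 0, κ * (1 - s) ^ 2] := by
  ext i j
  fin_cases i <;> fin_cases j <;>
    simp [vM, xM, hκq, zF, Matrix.mul_apply, Fin.sum_univ_three] <;> grind

theorem g_mem (hF : Fintype.card F = q ^ 2) {s κ : F} (hsq : s ^ q = 1 - s) (hκq : κ ^ q = κ)
    (hκ : κ * s * (1 - s) = 1) {g : SpecialLinearGroup (Fin 3) F}
    (hg : (g : Matrix (Fin 3) (Fin 3) F) = gM s κ) : g ∈ G0 F q := by
  have hq := q_ne_zero hF
  have hσs : sigma hF s = 1 - s := hsq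
  have hσκ : sigma hF κ = κ := hκq
  have hm1 : (-1 : F) ^ q = -1 := by rw [pow_q_neg hF, one_pow]
  refine mem_G0_of_entries hF hg ?_
  intro i j
  simp only [hJ, ← sigma_apply hF]
  fin_cases i <;> fin_cases j <;>
    simp [-sigma_apply, gM, Matrix.mulVec, dotProduct, Fin.sum_univ_three, hσs, hσκ, hq, hm1] <;> grind

theorem xM_mem (hF : Fintype.card F = q ^ 2) {a β : F} (h : β + β ^ q = a ^ (q + 1))
    {g : SpecialLinearGroup (Fin 3) F}
    (hg : (g : Matrix (Fin 3) (Fin 3) F) = xM q a β) : g ∈ G0 F q := by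
  have hq := q_ne_zero hF
  refine mem_G0_of_entries hF hg ?_
  intro i j
  rw [pow_succ] at h
  fin_cases i <;> fin_cases j <;>
    simp [xM, hJ, Matrix.mulVec, dotProduct, Fin.sum_univ_three, hq, pow_q_pow_q hF] <;> grind

theorem z_trace (hF : Fintype.card F = q ^ 2) {s κ : F} (hsq : s ^ q = 1 - s) (hκq : κ ^ q = κ)
    (hκ : κ * s * (1 - s) = 1) : zF s κ + zF s κ ^ q = (-κ) ^ (q + 1) := by
  have hq := q_ne_zero hF
  have hσs : sigma hF s = 1 - s := hsq
  have hσκ : sigma hF κ = κ := hκq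
  have h1 : zF s κ ^ q = κ ^ 2 * (1 - s) * (2 - 3 * (1 - s) + 2 * (1 - s) ^ 2) := by
    rw [← sigma_apply hF]
    simp [-sigma_apply, zF, hσs, hσκ, map_ofNat]
  have h2 : (-κ) ^ (q + 1) = κ ^ 2 := by
    rw [pow_succ, pow_q_neg hF, hκq]
    ring
  rw [h1, h2, zF]
  grind

/-- The family gives the theorem as soon as `p³` generates the field. -/
theorem family (hF : Fintype.card F = q ^ 2) (hq3 : 3 ≤ q) {s κ : F} (hsq : s ^ q = 1 - s)
    (hκ : κ * s * (1 - s) = 1)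
    (hρ : Subring.closure ({(κ * (1 - s) ^ 2) / (κ ^ 2 * s ^ 4)} : Set F) = ⊤) :
    ∃ u' g' : ↥(Cfsg.SU 3 F q),
      (IsNilpotent (((u' : Matrix.SpecialLinearGroup (Fin 3) F) : Matrix (Fin 3) (Fin 3) F) - 1) ∧
        (((u' : Matrix.SpecialLinearGroup (Fin 3) F) : Matrix (Fin 3) (Fin 3) F) - 1) ^ (3 - 1) ≠ 0) ∧
      Subgroup.closure ({u', g' * u' * g'⁻¹} : Set ↥(Cfsg.SU 3 F q)) = ⊤ := by
  have hκq := kappa_q hF hsq hκ
  have hκ0 : κ ≠ 0 := by
    rintro rfl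
    simp at hκ
  have hs0 : s ≠ 0 := by
    rintro rfl
    simp at hκ
  have hs1 : 1 - s ≠ 0 := by
    intro h
    rw [h] at hκ
    simp at hκ
  have hκq' : (-κ) ^ q = -κ := by rw [pow_q_neg hF, hκq]
  let u : SpecialLinearGroup (Fin 3) F := ⟨xM q (-κ) (zF s κ), by
    rw [Matrix.det_fin_three]
    simp [xM]⟩
  have hdetg := det_g hκ
  let g : SpecialLinearGroup (Fin 3) F := ⟨gM s κ, hdetg⟩
  have hconj : (g : Matrix (Fin 3) (Fin 3) F) * (u : Matrix (Fin 3) (Fin 3) F) =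
      vM s * (g : Matrix (Fin 3) (Fin 3) F) := g_conj hκ hκq'
  have hv : ((g * u * g⁻¹ : SpecialLinearGroup (Fin 3) F) : Matrix (Fin 3) (Fin 3) F) = vM s :=
    coe_conj_of hconj
  have huH : u ∈ Subgroup.closure ({u, g * u * g⁻¹} : Set (SpecialLinearGroup (Fin 3) F)) :=
    Subgroup.subset_closure (by simp)
  have hvH : g * u * g⁻¹ ∈ Subgroup.closure ({u, g * u * g⁻¹} : Set (SpecialLinearGroup (Fin 3) F)) :=
    Subgroup.subset_closure (by simp)
  have hW := W_entries hκ hκq'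
  have hWc : (((g * u * g⁻¹) * u * (g * u * g⁻¹) : SpecialLinearGroup (Fin 3) F) :
      Matrix (Fin 3) (Fin 3) F) = !![κ * (1 - s) ^ 2, zF s κ - κ, zF s κ;
      0, κ ^ 2 * s ^ 4, zF s κ - κ; 0, 0, κ * (1 - s) ^ 2] := by
    rw [Matrix.SpecialLinearGroup.coe_mul, Matrix.SpecialLinearGroup.coe_mul, hv]
    exact hW
  refine main_instance hF hq3 (u := u) (g := g) (W := (g * u * g⁻¹) * u * (g * u * g⁻¹))
    (w := g * u * g⁻¹) (a := -κ) (β := zF s κ) rfl (neg_ne_zero.2 hκ0)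
    (xM_mem hF (z_trace hF hsq hκq hκ) rfl) (g_mem hF hsq hκq hκ rfl)
    (mul_mem (mul_mem hvH huH) hvH) ?_ ?_ ?_ ?_ hvH ?_
  · rw [hWc]; simp
  · rw [hWc]; simp
  · rw [hWc]; simp
  · rw [hWc]; simpa using hρ
  · rw [hv]; simpa [vM] using hs1

/-- If `ρ` lies in no proper subfield then it generates the field as a ring. -/
theorem closure_top_of {ρ : F}
    (h : ∀ m d : ℕ, m ^ d = Fintype.card F → 2 ≤ d → 2 ≤ m → ρ ^ m ≠ ρ) :
    Subring.closure ({ρ} : Set F) = ⊤ := by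
  classical
  set K := Subring.closure ({ρ} : Set F) with hK
  have h2 : 2 ≤ Fintype.card F := Fintype.one_lt_card
  have hinv : ∀ x ∈ K, x⁻¹ ∈ K := by
    intro x hx
    by_cases hx0 : x = 0
    · simp [hx0, K.zero_mem]
    · have h1 : x ^ (Fintype.card F - 1) = 1 := FiniteField.pow_card_sub_one_eq_one x hx0
      have h3 : x⁻¹ = x ^ (Fintype.card F - 2) := by
        have h4 : x ^ (Fintype.card F - 2) * x = 1 := by
          rw [← pow_succ, ← h1]
          congr 1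
          omega
        exact (eq_inv_of_mul_eq_one_left h4).symm
      rw [h3]
      exact K.pow_mem hx _
  let L : Subfield F := { K with inv_mem' := hinv }
  have hmem : ∀ x : F, x ∈ L ↔ x ∈ K := fun x => Iff.rfl
  have hρL : ρ ∈ L := (hmem ρ).2 (Subring.subset_closure rfl)
  have : Fintype L := Fintype.ofFinite L
  have hcard : Fintype.card F = Fintype.card L ^ Module.finrank L F :=
    Module.card_eq_pow_finrank (K := L) (V := F)
  set m := Fintype.card L with hm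
  have hm2 : 2 ≤ m := Fintype.one_lt_card
  set d := Module.finrank L F with hd
  have hd1 : 1 ≤ d := by
    by_contra hc
    have : d = 0 := by omega
    rw [this, pow_zero] at hcard
    omega
  by_cases hd2 : d = 1
  · rw [hd2, pow_one] at hcard
    have hbij : Function.Bijective (Subtype.val : L → F) :=
      (Fintype.bijective_iff_injective_and_card _).2 ⟨Subtype.val_injective, hcard.symm⟩
    rw [eq_top_iff]
    intro x _
    obtain ⟨y, rfl⟩ := hbij.2 x
    exact y.2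
  · exfalso
    have hd3 : 2 ≤ d := by omega
    refine h m d hcard.symm hd3 hm2 ?_
    have h5 := FiniteField.pow_card (⟨ρ, hρL⟩ : L)
    have h6 := congrArg Subtype.val h5
    simpa using h6

/-- The number theory for the generic parameter. -/
theorem exists_param (hF : Fintype.card F = q ^ 2) (hq3 : 3 ≤ q) (h5 : q ≠ 5) (h8 : q ≠ 8) :
    ∃ p : F, p ^ (q + 1) = 1 ∧ p + 1 ≠ 0 ∧ Subring.closure ({p ^ 3} : Set F) = ⊤ := by
  classical
  obtain ⟨a₀, ha₀⟩ := IsCyclic.exists_generator (α := Fˣ)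
  have hord₀ : orderOf a₀ = Fintype.card F - 1 := by
    rw [orderOf_eq_card_of_forall_mem_zpowers ha₀, Nat.card_eq_fintype_card, Fintype.card_units]
  set a : F := (a₀ : F) with ha
  have ha0 : a ≠ 0 := a₀.ne_zero
  have hord : ∀ n : ℕ, a ^ n = 1 → Fintype.card F - 1 ∣ n := by
    intro n hn
    rw [← hord₀]
    apply orderOf_dvd_of_pow_eq_one
    apply Units.ext
    simpa using hn
  have hcard : Fintype.card F - 1 = (q - 1) * (q + 1) := by
    rw [hF]
    obtain ⟨k, rfl⟩ : ∃ k, q = k + 1 := ⟨q - 1, by omega⟩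
    simp only [Nat.add_sub_cancel]
    have : (k + 1) ^ 2 = k * (k + 1 + 1) + 1 := by ring
    rw [this]
    simp
  have hq1 : 0 < q - 1 := by omega
  set p := a ^ (q - 1) with hp
  have hp0 : p ≠ 0 := pow_ne_zero _ ha0
  have hpord : ∀ n : ℕ, p ^ n = 1 → q + 1 ∣ n := by
    intro n hn
    rw [hp, ← pow_mul] at hn
    have := hord _ hn
    rw [hcard] at this
    exact Nat.dvd_of_mul_dvd_mul_left hq1 this
  have hpq : p ^ (q + 1) = 1 := by
    rw [hp, ← pow_mul, ← hcard]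
    exact FiniteField.pow_card_sub_one_eq_one a ha0
  refine ⟨p, hpq, ?_, ?_⟩
  · intro h
    have h1 : p ^ 2 = 1 := by
      have : p = -1 := by linear_combination h
      rw [this]
      ring
    have := Nat.le_of_dvd (by norm_num) (hpord 2 h1)
    omega
  · refine closure_top_of ?_
    intro m d hm hd hm2 hc
    rw [hF] at hm
    have h3 : p ^ (3 * (m - 1)) = 1 := by
      have h30 : p ^ 3 ≠ 0 := pow_ne_zero _ hp0
      have : (p ^ 3) ^ (m - 1) * p ^ 3 = 1 * p ^ 3 := by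
        rw [← pow_succ, one_mul]
        rw [show m - 1 + 1 = m by omega]
        exact hc
      rw [pow_mul]
      exact mul_right_cancel₀ h30 this
    have hdvd := hpord _ h3
    have hle : q + 1 ≤ 3 * (m - 1) := Nat.le_of_dvd (by omega) hdvd
    have hm3 : q + 4 ≤ 3 * m := by omega
    by_cases hd2 : d = 2
    · subst hd2
      have hmq : m = q := by
        have := Nat.pow_left_injective (n := 2) (by norm_num) hm
        exact this
      subst hmq
      have h6 : m + 1 ∣ 6 := by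
        have h7 : 3 * (m - 1) + 6 = 3 * (m + 1) := by omega
        have h8 : m + 1 ∣ 3 * (m - 1) + 6 := by rw [h7]; exact Dvd.intro_left _ rfl
        exact (Nat.dvd_add_right hdvd).1 h8
      have h9 := Nat.le_of_dvd (by norm_num) h6
      have : m = 3 ∨ m = 4 ∨ m = 5 := by omega
      rcases this with rfl | rfl | rfl
      · norm_num at h6
      · norm_num at h6
      · exact h5 rfl
    · have hd3 : 3 ≤ d := by omega
      have hle3 : m ^ 3 ≤ q ^ 2 := by
        rw [← hm]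
        exact Nat.pow_le_pow_right (by omega) hd3
      have h27 : (q + 4) ^ 3 ≤ 27 * q ^ 2 := by
        calc (q + 4) ^ 3 ≤ (3 * m) ^ 3 := Nat.pow_le_pow_left hm3 3
          _ = 27 * m ^ 3 := by ring
          _ ≤ 27 * q ^ 2 := by omega
      have h28 : ((q : ℤ) + 4) ^ 3 ≤ 27 * (q : ℤ) ^ 2 := by exact_mod_cast h27
      have hne : (q : ℤ) - 8 ≠ 0 := by
        intro h
        apply h8
        have : (q : ℤ) = 8 := by linarith
        exact_mod_cast this
      have hpos : 0 < ((q : ℤ) - 8) ^ 2 := by positivity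
      have hq0 : (0 : ℤ) < (q : ℤ) + 1 := by positivity
      have := mul_pos hpos hq0
      nlinarith

/-- The exceptional case `q = 5`. -/
theorem case5 (hF : Fintype.card F = 5 ^ 2) :
    ∃ u' g' : ↥(Cfsg.SU 3 F 5),
      (IsNilpotent (((u' : Matrix.SpecialLinearGroup (Fin 3) F) : Matrix (Fin 3) (Fin 3) F) - 1) ∧
        (((u' : Matrix.SpecialLinearGroup (Fin 3) F) : Matrix (Fin 3) (Fin 3) F) - 1) ^ (3 - 1) ≠ 0) ∧
      Subgroup.closure ({u', g' * u' * g'⁻¹} : Set ↥(Cfsg.SU 3 F 5)) = ⊤ := by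
  have h5 : (5 : F) = 0 := by
    have h := FiniteField.cast_card_eq_zero F
    rw [hF] at h
    have h25 : (5 : F) * 5 = 0 := by
      have e : ((5 ^ 2 : ℕ) : F) = 5 * 5 := by norm_num
      rw [← e, h]
    simpa using h25
  have h2ne : (2 : F) ≠ 0 := by
    intro h
    have : (1 : F) = 0 := by linear_combination h5 - 2 * h
    exact one_ne_zero this
  obtain ⟨i, hi⟩ : IsSquare (2 : F) := by
    rw [FiniteField.isSquare_iff ?_ h2ne]
    · rw [hF]
      norm_num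
      linear_combination 819 * h5
    · intro hc
      apply h2ne
      have := ringChar.Nat.cast_ringChar (R := F)
      rw [hc] at this
      simpa using this
  have hii : i * i = 2 := hi.symm
  have hi0 : i ≠ 0 := by
    rintro rfl
    simp at hii
    exact h2ne hii.symm
  have hσi : i ^ 5 = -i := by
    have : i ^ 5 = (i * i) * (i * i) * i := by ring
    rw [this, hii]
    linear_combination i * h5
  have hσ : sigma hF i = -i := hσi
  have ha5 : (2 * i) ^ 5 = 3 * i := by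
    rw [mul_pow, hσi]
    linear_combination (-7 * i) * h5
  let uM : Matrix (Fin 3) (Fin 3) F := !![1, 2 * i, 1 + 2 * i; 0, 1, 3 * i; 0, 0, 1]
  have huM : uM = xM 5 (2 * i) (1 + 2 * i) := by
    simp only [uM, xM, ha5]
  let u : SpecialLinearGroup (Fin 3) F := ⟨uM, by
    rw [Matrix.det_fin_three]
    simp [uM]⟩
  let gM : Matrix (Fin 3) (Fin 3) F := !![0, 0, 2 + i; 0, 2 + 2 * i, 1 + 2 * i; 1 + 3 * i, 2, 2]
  have hdetg : gM.det = 1 := by
    rw [Matrix.det_fin_three]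
    simp [gM]
    grind
  let g : SpecialLinearGroup (Fin 3) F := ⟨gM, hdetg⟩
  let vM : Matrix (Fin 3) (Fin 3) F := !![1, 0, 0; 1, 1, 0; 3 + 3 * i, 1, 1]
  have hconj : (g : Matrix (Fin 3) (Fin 3) F) * (u : Matrix (Fin 3) (Fin 3) F) =
      vM * (g : Matrix (Fin 3) (Fin 3) F) := by
    change gM * uM = vM * gM
    ext a b
    fin_cases a <;> fin_cases b <;>
      simp [gM, uM, vM, Matrix.mul_apply, Fin.sum_univ_three] <;> grind
  have hv : ((g * u * g⁻¹ : SpecialLinearGroup (Fin 3) F) : Matrix (Fin 3) (Fin 3) F) = vM :=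
    coe_conj_of hconj
  have hq0 : (5 : ℕ) ≠ 0 := by norm_num
  have huG : u ∈ G0 F 5 := by
    refine xM_mem hF ?_ huM
    have e1 : (1 + 2 * i) ^ 5 = 1 - 2 * i := by
      have : sigma hF (1 + 2 * i) = 1 - 2 * i := by
        simp [-sigma_apply, hσ, map_ofNat]
        ring
      exact this
    rw [e1, pow_succ, ha5]
    grind
  have hgG : g ∈ G0 F 5 := by
    refine mem_G0_of_entries hF (A := gM) rfl ?_
    intro a b
    simp only [hJ, ← sigma_apply hF]
    fin_cases a <;> fin_cases b <;>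
      simp [-sigma_apply, gM, Matrix.mulVec, dotProduct, Fin.sum_univ_three, hσ, map_ofNat] <;> grind
  have huH : u ∈ Subgroup.closure ({u, g * u * g⁻¹} : Set (SpecialLinearGroup (Fin 3) F)) :=
    Subgroup.subset_closure (by simp)
  have hvH : g * u * g⁻¹ ∈ Subgroup.closure ({u, g * u * g⁻¹} : Set (SpecialLinearGroup (Fin 3) F)) :=
    Subgroup.subset_closure (by simp)
  have hWc : (((g * u * g⁻¹) * u * (g * u * g⁻¹) * (g * u * g⁻¹) : SpecialLinearGroup (Fin 3) F) :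
      Matrix (Fin 3) (Fin 3) F) = !![2 + 4 * i, 2 + i, 1 + 2 * i; 0, 3 + 2 * i, 1; 0, 0, 1 + 2 * i] := by
    rw [Matrix.SpecialLinearGroup.coe_mul, Matrix.SpecialLinearGroup.coe_mul,
      Matrix.SpecialLinearGroup.coe_mul, hv]
    change vM * uM * vM * vM = _
    ext a b
    fin_cases a <;> fin_cases b <;>
      simp [uM, vM, Matrix.mul_apply, Fin.sum_univ_three] <;> grind
  have h32 : (3 + 2 * i) * (3 - 2 * i) = 1 := by
    linear_combination (-4) * hii
  have h32' : (3 + 2 * i) ≠ 0 := left_ne_zero_of_mul_eq_one h32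
  have hρ : (2 + 4 * i) / (3 + 2 * i) = 3 * i := by
    rw [div_eq_iff h32']
    linear_combination (-6) * hii + (-2 - i) * h5
  refine main_instance hF (by norm_num) (u := u) (g := g)
    (W := (g * u * g⁻¹) * u * (g * u * g⁻¹) * (g * u * g⁻¹))
    (w := g * u * g⁻¹) (a := 2 * i) (β := 1 + 2 * i) huM (mul_ne_zero h2ne hi0) huG hgG
    (mul_mem (mul_mem (mul_mem hvH huH) hvH) hvH) ?_ ?_ ?_ ?_ hvH ?_
  · rw [hWc]; simp
  · rw [hWc]; simp
  · rw [hWc]; simp
  · rw [hWc]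
    change Subring.closure ({(2 + 4 * i) / (3 + 2 * i)} : Set F) = ⊤
    rw [hρ]
    refine closure_top_of ?_
    intro m d hm hd hm2
    rw [hF] at hm
    have hm5 : m = 5 := by
      have hdvd : m ∣ 5 ^ 2 := by
        rw [← hm]
        exact dvd_pow_self m (by omega)
      have hle : m ^ 2 ≤ 5 ^ 2 := by
        rw [← hm]
        exact Nat.pow_le_pow_right (by omega) hd
      have hle5 : m ≤ 5 := by nlinarith
      interval_cases m <;> first | rfl | (exfalso; revert hdvd; norm_num)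
    subst hm5
    intro hc
    rw [mul_pow, hσi] at hc
    apply hi0
    linear_combination (-1) * hc - (49 * i) * h5
  · rw [hv]
    have : (3 + 3 * i) * (3 - 3 * i) = 1 := by
      linear_combination (-9) * hii + (-2) * h5
    simpa [vM] using left_ne_zero_of_mul_eq_one this

theorem exists_y (hF : Fintype.card F = 8 ^ 2) (h2 : (2 : F) = 0) : ∃ y : F, y ^ 6 + y ^ 3 + 1 = 0 := by
  classical
  obtain ⟨a₀, ha₀⟩ := IsCyclic.exists_generator (α := Fˣ)
  have hord₀ : orderOf a₀ = 63 := by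
    rw [orderOf_eq_card_of_forall_mem_zpowers ha₀, Nat.card_eq_fintype_card, Fintype.card_units, hF]
    norm_num
  set a : F := (a₀ : F) with ha
  have ha0 : a ≠ 0 := a₀.ne_zero
  have hord : ∀ n : ℕ, a ^ n = 1 → 63 ∣ n := by
    intro n hn
    rw [← hord₀]
    apply orderOf_dvd_of_pow_eq_one
    apply Units.ext
    simpa using hn
  have h63 : a ^ 63 = 1 := by
    have := FiniteField.pow_card_sub_one_eq_one a ha0
    rw [hF] at this
    simpa using this
  refine ⟨a ^ 7, ?_⟩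
  have h21 : a ^ 21 - 1 ≠ 0 := by
    intro h
    have := hord 21 (sub_eq_zero.1 h)
    norm_num at this
  have h3 : (a ^ 21 - 1) * ((a ^ 7) ^ 6 + (a ^ 7) ^ 3 + 1) = 0 := by
    have e : (a ^ 21 - 1) * ((a ^ 7) ^ 6 + (a ^ 7) ^ 3 + 1) = a ^ 63 - 1 := by ring
    rw [e, h63, sub_self]
  exact (mul_eq_zero.1 h3).resolve_left h21

section eight

variable {y : F}

def uM8 (y : F) : Matrix (Fin 3) (Fin 3) F :=
  !![1, y + y ^ 2, 1 + y + y ^ 4 + y ^ 5; 0, 1, y + y ^ 2 + y ^ 4 + y ^ 5; 0, 0, 1]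

def gM8 (y : F) : Matrix (Fin 3) (Fin 3) F :=
  !![0, 0, 1 + y ^ 3 + y ^ 5; 0, y + y ^ 4, y + y ^ 2; 1 + y + y ^ 2, y ^ 2, 1 + y ^ 3]

def vM8 (y : F) : Matrix (Fin 3) (Fin 3) F := !![1, 0, 0; 1, 1, 0; y + y ^ 2 + y ^ 3 + y ^ 5, 1, 1]

theorem det_g8 (hy : y ^ 6 + y ^ 3 + 1 = 0) (h2 : (2 : F) = 0) : (gM8 y).det = 1 := by
  rw [Matrix.det_fin_three]
  simp [gM8]
  grind

theorem conj_8 (hy : y ^ 6 + y ^ 3 + 1 = 0) (h2 : (2 : F) = 0) :
    gM8 y * uM8 y = vM8 y * gM8 y := by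
  ext a b
  fin_cases a <;> fin_cases b <;>
    simp [gM8, uM8, vM8, Matrix.mul_apply, Fin.sum_univ_three] <;> grind

theorem s1_8 (hy : y ^ 6 + y ^ 3 + 1 = 0) (h2 : (2 : F) = 0) :
    vM8 y * uM8 y = !![1, y + y^2, 1 + y + y^4 + y^5; 1, 1 + y + y^2, 1 + y^2;
      y + y^2 + y^3 + y^5, y + y^2 + y^3 + y^4 + y^5, 1 + y + y^3] := by
  ext a b
  fin_cases a <;> fin_cases b <;>
    simp [uM8, vM8, Matrix.mul_apply, Fin.sum_univ_three] <;> grind

theorem s2_8 (hy : y ^ 6 + y ^ 3 + 1 = 0) (h2 : (2 : F) = 0) :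
    vM8 y * uM8 y * vM8 y = !![1 + y + y^3 + y^4 + y^5, 1 + y^2 + y^4 + y^5, 1 + y + y^4 + y^5;
      y, y, 1 + y^2; y + y^2 + y^4 + y^5, 1 + y^2 + y^4 + y^5, 1 + y + y^3] := by
  rw [s1_8 hy h2]
  ext a b
  fin_cases a <;> fin_cases b <;>
    simp [vM8, Matrix.mul_apply, Fin.sum_univ_three] <;> grind

theorem s3_8 (hy : y ^ 6 + y ^ 3 + 1 = 0) (h2 : (2 : F) = 0) :
    vM8 y * uM8 y * vM8 y * uM8 y = !![1 + y + y^3 + y^4 + y^5, 1 + y^2 + y^3 + y^4 + y^5,
        1 + y + y^2 + y^3 + y^4;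
      y, y + y^2 + y^3, 1 + y + y^2 + y^3;
      y + y^2 + y^4 + y^5, 1 + y + y^4, 1 + y^2 + y^3 + y^5] := by
  rw [s2_8 hy h2]
  ext a b
  fin_cases a <;> fin_cases b <;>
    simp [uM8, Matrix.mul_apply, Fin.sum_univ_three] <;> grind

theorem s4_8 (hy : y ^ 6 + y ^ 3 + 1 = 0) (h2 : (2 : F) = 0) :
    vM8 y * uM8 y * vM8 y * uM8 y * uM8 y = !![1 + y + y^3 + y^4 + y^5, 1 + y^2 + y^4 + y^5,
        1 + y^2 + y^4 + y^5;
      y, y, 0; y + y^2 + y^4 + y^5, 1 + y^2 + y^4 + y^5, 1 + y^2 + y^4 + y^5] := by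
  rw [s3_8 hy h2]
  ext a b
  fin_cases a <;> fin_cases b <;>
    simp [uM8, Matrix.mul_apply, Fin.sum_univ_three] <;> grind

theorem s5_8 (hy : y ^ 6 + y ^ 3 + 1 = 0) (h2 : (2 : F) = 0) :
    vM8 y * uM8 y * vM8 y * uM8 y * uM8 y * vM8 y = !![1 + y^2 + y^3, 0, 1 + y^2 + y^4 + y^5;
      0, y, 0; 0, 0, 1 + y^2 + y^4 + y^5] := by
  rw [s4_8 hy h2]
  ext a b
  fin_cases a <;> fin_cases b <;>
    simp [vM8, Matrix.mul_apply, Fin.sum_univ_three] <;> grind

theorem g8_mem (hF : Fintype.card F = 8 ^ 2) (hy : y ^ 6 + y ^ 3 + 1 = 0) (h2 : (2 : F) = 0)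
    (hσ : sigma hF y = y ^ 5 + y ^ 2) {g : SpecialLinearGroup (Fin 3) F}
    (hg : (g : Matrix (Fin 3) (Fin 3) F) = gM8 y) : g ∈ G0 F 8 := by
  refine mem_G0_of_entries hF hg ?_
  intro a b
  simp only [hJ, ← sigma_apply hF]
  fin_cases a <;> fin_cases b <;>
    simp [-sigma_apply, gM8, Matrix.mulVec, dotProduct, Fin.sum_univ_three, hσ, map_ofNat] <;> grind

end eight

set_option maxHeartbeats 2000000 in
/-- The exceptional case `q = 8`. -/
theorem case8 (hF : Fintype.card F = 8 ^ 2) :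
    ∃ u' g' : ↥(Cfsg.SU 3 F 8),
      (IsNilpotent (((u' : Matrix.SpecialLinearGroup (Fin 3) F) : Matrix (Fin 3) (Fin 3) F) - 1) ∧
        (((u' : Matrix.SpecialLinearGroup (Fin 3) F) : Matrix (Fin 3) (Fin 3) F) - 1) ^ (3 - 1) ≠ 0) ∧
      Subgroup.closure ({u', g' * u' * g'⁻¹} : Set ↥(Cfsg.SU 3 F 8)) = ⊤ := by
  have h2 : (2 : F) = 0 := by
    have h := FiniteField.cast_card_eq_zero F
    rw [hF] at h
    have h64 : (2 : F) ^ 6 = 0 := by
      have e : ((8 ^ 2 : ℕ) : F) = 2 ^ 6 := by norm_num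
      rw [← e, h]
    exact pow_eq_zero_iff (by norm_num) |>.1 h64
  obtain ⟨y, hy⟩ := exists_y hF h2
  have hy8 : y ^ 8 = y ^ 5 + y ^ 2 := by
    linear_combination y ^ 2 * hy - (y ^ 2 + y ^ 5) * h2
  have hσ : sigma hF y = y ^ 5 + y ^ 2 := hy8
  have hy0 : y ≠ 0 := by
    rintro rfl
    simp at hy
  have ha8 : (y + y ^ 2) ^ 8 = y + y ^ 2 + y ^ 4 + y ^ 5 := by
    have : sigma hF (y + y ^ 2) = y + y ^ 2 + y ^ 4 + y ^ 5 := by
      simp only [map_add, map_pow, hσ]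
      grind
    exact this
  have huM : uM8 y = xM 8 (y + y ^ 2) (1 + y + y ^ 4 + y ^ 5) := by
    simp only [uM8, xM, ha8]
  let u : SpecialLinearGroup (Fin 3) F := ⟨uM8 y, by
    rw [Matrix.det_fin_three]
    simp [uM8]⟩
  let g : SpecialLinearGroup (Fin 3) F := ⟨gM8 y, det_g8 hy h2⟩
  have hv : ((g * u * g⁻¹ : SpecialLinearGroup (Fin 3) F) : Matrix (Fin 3) (Fin 3) F) = vM8 y :=
    coe_conj_of (conj_8 hy h2)
  have huG : u ∈ G0 F 8 := by
    refine xM_mem hF ?_ huM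
    have e1 : (1 + y + y ^ 4 + y ^ 5) ^ 8 = 1 + y ^ 2 + y ^ 4 := by
      have : sigma hF (1 + y + y ^ 4 + y ^ 5) = 1 + y ^ 2 + y ^ 4 := by
        simp only [map_add, map_pow, hσ, map_one]
        grind
      exact this
    rw [e1, pow_succ (y + y ^ 2) 8, ha8]
    grind
  have hgG : g ∈ G0 F 8 := g8_mem hF hy h2 hσ rfl
  have huH : u ∈ Subgroup.closure ({u, g * u * g⁻¹} : Set (SpecialLinearGroup (Fin 3) F)) :=
    Subgroup.subset_closure (by simp)
  have hvH : g * u * g⁻¹ ∈ Subgroup.closure ({u, g * u * g⁻¹} : Set (SpecialLinearGroup (Fin 3) F)) :=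
    Subgroup.subset_closure (by simp)
  have hWc : (((g * u * g⁻¹) * u * (g * u * g⁻¹) * u * u * (g * u * g⁻¹) : SpecialLinearGroup (Fin 3) F) :
      Matrix (Fin 3) (Fin 3) F) = !![1 + y^2 + y^3, 0, 1 + y^2 + y^4 + y^5; 0, y, 0;
      0, 0, 1 + y^2 + y^4 + y^5] := by
    rw [Matrix.SpecialLinearGroup.coe_mul, Matrix.SpecialLinearGroup.coe_mul,
      Matrix.SpecialLinearGroup.coe_mul, Matrix.SpecialLinearGroup.coe_mul,
      Matrix.SpecialLinearGroup.coe_mul, hv]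
    exact s5_8 hy h2
  have hρ : (1 + y ^ 2 + y ^ 3) / y = y + y ^ 5 := by
    rw [div_eq_iff hy0]
    grind
  have hne4 : (y + y ^ 5) ^ 4 ≠ y + y ^ 5 := by
    intro hc
    apply one_ne_zero (α := F)
    linear_combination ((1) + (1*y^1) + (1*y^3) + (1*y^4) + (1*y^5)) * hc - ((1) + (9*y^1) + (5*y^2) + (-11*y^3) + (-7*y^4) + (8*y^5) + (8*y^6) + (-1*y^7) + (-9*y^8) + (7*y^9) + (7*y^10) + (5*y^11) + (-5*y^12) + (4*y^13) + (4*y^14) + (4*y^15) + (-1*y^16) + (1*y^17) + (1*y^18) + (1*y^19)) * hy - ((-1) + (-5*y^1) + (-3*y^2) + (5*y^3) + (-1*y^4) + (-7*y^5)) * h2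
  have hne8 : (y + y ^ 5) ^ 8 ≠ y + y ^ 5 := by
    intro hc
    apply one_ne_zero (α := F)
    linear_combination ((1) + (1*y^4) + (1*y^5)) * hc - ((145) + (-61*y^1) + (-144*y^2) + (-1*y^3) + (143*y^4) + (62*y^5) + (-145*y^6) + (-82*y^7) + (83*y^8) + (145*y^9) + (-62*y^10) + (-145*y^11) + (9*y^12) + (145*y^13) + (62*y^14) + (-154*y^15) + (-47*y^16) + (91*y^17) + (145*y^18) + (-98*y^19) + (-69*y^20) + (37*y^21) + (145*y^22) + (-22*y^23) + (-56*y^24) + (9*y^25) + (91*y^26) + (19*y^27) + (-28*y^28) + (1*y^29) + (37*y^30) + (19*y^31) + (-8*y^32) + (9*y^34) + (7*y^35) + (-1*y^36) + (1*y^38) + (1*y^39)) * hy - ((-73) + (30*y^1) + (72*y^2) + (-72*y^3) + (-41*y^4) + (40*y^5)) * h2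
  refine main_instance hF (by norm_num) (u := u) (g := g)
    (W := (g * u * g⁻¹) * u * (g * u * g⁻¹) * u * u * (g * u * g⁻¹))
    (w := g * u * g⁻¹) (a := y + y ^ 2) (β := 1 + y + y ^ 4 + y ^ 5) huM ?_ huG hgG
    (mul_mem (mul_mem (mul_mem (mul_mem (mul_mem hvH huH) hvH) huH) huH) hvH) ?_ ?_ ?_ ?_ hvH ?_
  · intro h
    grind
  · rw [hWc]; simp
  · rw [hWc]; simp
  · rw [hWc]; simp
  · have h00 : ((g * u * g⁻¹ * u * (g * u * g⁻¹) * u * u * (g * u * g⁻¹) : SpecialLinearGroup (Fin 3) F) :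
        Matrix (Fin 3) (Fin 3) F) 0 0 = 1 + y ^ 2 + y ^ 3 := by rw [hWc]; simp
    have h11 : ((g * u * g⁻¹ * u * (g * u * g⁻¹) * u * u * (g * u * g⁻¹) : SpecialLinearGroup (Fin 3) F) :
        Matrix (Fin 3) (Fin 3) F) 1 1 = y := by rw [hWc]; simp
    rw [h00, h11, hρ]
    refine closure_top_of ?_
    intro m d hm hd hm2 hc
    rw [hF] at hm
    have hm5 : m = 2 ∨ m = 4 ∨ m = 8 := by
      have hdvd : m ∣ 8 ^ 2 := by
        rw [← hm]
        exact dvd_pow_self m (by omega)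
      have hle : m ^ 2 ≤ 8 ^ 2 := by
        rw [← hm]
        exact Nat.pow_le_pow_right (by omega) hd
      have hle5 : m ≤ 8 := by nlinarith
      interval_cases m <;> first | omega | (exfalso; revert hdvd; norm_num)
    rcases hm5 with rfl | rfl | rfl
    · apply hne4
      have : (y + y ^ 5) ^ 4 = ((y + y ^ 5) ^ 2) ^ 2 := by ring
      rw [this, hc, hc]
    · exact hne4 hc
    · exact hne8 hc
  · rw [hv]
    have : (y + y ^ 2 + y ^ 3 + y ^ 5) * (1 + y + y ^ 4) = 1 := by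
      grind
    simpa [vM8] using left_ne_zero_of_mul_eq_one this

/-- The generic case, from the parameter `p`. -/
theorem case_generic (hF : Fintype.card F = q ^ 2) (hq3 : 3 ≤ q) (h5 : q ≠ 5) (h8 : q ≠ 8) :
    ∃ u' g' : ↥(Cfsg.SU 3 F q),
      (IsNilpotent (((u' : Matrix.SpecialLinearGroup (Fin 3) F) : Matrix (Fin 3) (Fin 3) F) - 1) ∧
        (((u' : Matrix.SpecialLinearGroup (Fin 3) F) : Matrix (Fin 3) (Fin 3) F) - 1) ^ (3 - 1) ≠ 0) ∧
      Subgroup.closure ({u', g' * u' * g'⁻¹} : Set ↥(Cfsg.SU 3 F q)) = ⊤ := by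
  obtain ⟨p, hp, hp1, hρ⟩ := exists_param hF hq3 h5 h8
  have hp0 : p ≠ 0 := by
    rintro rfl
    simp at hp
  have hpq : p ^ q = p⁻¹ := by
    rw [pow_succ] at hp
    exact eq_inv_of_mul_eq_one_left hp
  have hs : ((p + 1)⁻¹) ^ q = 1 - (p + 1)⁻¹ := by
    rw [inv_pow, pow_q_add hF, hpq, one_pow]
    have e : p⁻¹ + 1 = (p + 1) / p := by
      field_simp
      ring
    rw [e, inv_div, eq_sub_iff_add_eq]
    field_simp
  refine family hF hq3 (s := (p + 1)⁻¹) (κ := (p + 1) ^ 2 / p) hs ?_ ?_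
  · field_simp
    ring
  · have e : (p + 1) ^ 2 / p * (1 - (p + 1)⁻¹) ^ 2 / (((p + 1) ^ 2 / p) ^ 2 * (p + 1)⁻¹ ^ 4) = p ^ 3 := by
      field_simp
      ring
    rw [e]
    exact hρ

end Cfsg.Agent.S2283

/-- SU₃(q), q ≥ 3, is generated by two conjugate regular unipotent elements. -/
theorem Cfsg.Agent.S2283.result {F : Type*} [Field F] [Fintype F] (q : ℕ) (hq : 3 ≤ q) (hF : Fintype.card F = q ^ 2) :
    ∃ u g : ↥(Cfsg.SU 3 F q), (IsNilpotent (((u : Matrix.SpecialLinearGroup (Fin 3) F) : Matrix (Fin 3) (Fin 3) F) - 1) ∧ (((u : Matrix.SpecialLinearGroup (Fin 3) F) : Matrix (Fin 3) (Fin 3) F) - 1) ^ (3 - 1) ≠ 0) ∧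
      Subgroup.closure ({u, g * u * g⁻¹} : Set ↥(Cfsg.SU 3 F q)) = ⊤ := by
  by_cases h5 : q = 5
  · subst h5
    exact Cfsg.Agent.S2283.case5 hF
  by_cases h8 : q = 8
  · subst h8
    exact Cfsg.Agent.S2283.case8 hF
  exact Cfsg.Agent.S2283.case_generic hF hq h5 h8
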