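import Cfsg.Statements.S2282
import Cfsg.Agent.S2283
import Cfsg.Agent.Lib.Classical.Herm.RegUAssemble

set_option autoImplicit false
open Cfsg

namespace Cfsg.Agent.S2282

open Cfsg.Agent.Lib.Classical.Herm.RegU

/-- Let F be a field with q² elements, n ≥ 3 odd with (n, q) ≠ (3, 2), and SU_n(q) the special unitary group of the standard Hermitian form Σ u_i v_i^q. Then SU_n(q) is generated by three conjugate regular unipotent elements: there are u ∈ SU_n(q) with u − 1 nilpotent and (u − 1)^(n−1) ≠ 0, and g, h ∈ SU_n(q), such that u, g u g⁻¹ and h u h⁻¹ generate SU_n(q). -/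
theorem result {F : Type*} [Field F] [Fintype F] (q : ℕ) (hF : Fintype.card F = q ^ 2) (n : ℕ) (hn : 3 ≤ n) (hodd : Odd n) (h32 : ¬ (n = 3 ∧ q = 2)) :
    ∃ u g h : ↥(Cfsg.SU n F q), (IsNilpotent (((u : Matrix.SpecialLinearGroup (Fin n) F) : Matrix (Fin n) (Fin n) F) - 1) ∧ (((u : Matrix.SpecialLinearGroup (Fin n) F) : Matrix (Fin n) (Fin n) F) - 1) ^ (n - 1) ≠ 0) ∧
      Subgroup.closure ({u, g * u * g⁻¹, h * u * h⁻¹} : Set ↥(Cfsg.SU n F q)) = ⊤ := by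
  obtain ⟨c, rfl⟩ := hodd
  by_cases hc : c = 1
  · subst hc
    have hq3 : 3 ≤ q := by
      have h2 := Cfsg.Agent.Lib.Classical.Herm.Basic.two_le_q hF
      by_contra hlt
      exact h32 ⟨rfl, by omega⟩
    obtain ⟨u, g, ⟨h1, h2⟩, h3⟩ := Cfsg.Agent.S2283.result q hq3 hF
    refine ⟨u, g, g, ⟨h1, h2⟩, ?_⟩
    have e : ({u, g * u * g⁻¹, g * u * g⁻¹} : Set ↥(Cfsg.SU 3 F q)) = {u, g * u * g⁻¹} := by simp
    exact e.symm ▸ h3
  have hc2 : 2 ≤ c := by omega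
  obtain ⟨u, b, hd, hnil, htop⟩ := exists_regData (F := F) (q := q) hF hc2
  obtain ⟨g, k, hgen⟩ := reg_main hF ⟨c, rfl⟩ hd
  refine ⟨u, g, k, ⟨hnil, ?_⟩, hgen⟩
  simpa using htop

end Cfsg.Agent.S2282
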