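import Cfsg.Statements.S2288
import Cfsg.Agent.Lib.PresSL.Final
-- import your own Cfsg.Agent.* helpers here

set_option autoImplicit false
open Cfsg

namespace Cfsg.Agent.S2288

open Cfsg.Agent.Lib.PresSL.Glue Cfsg.Agent.Lib.PresSL.Final

/-- For every finite field F and n ≥ 4: SL_n(F) has a presentation with 7 generators and at most 25 relations, and PSL_n(F) one with 7 generators and at most 26 relations; moreover SL_4(F) has one with 6 generators and at most 21 relations and SL_5(F) one with 6 generators and at most 22 relations. -/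
theorem result {F : Type*} [Field F] [Fintype F] (n : ℕ) (hn : 4 ≤ n) :
    (∃ rels : Finset (FreeGroup (Fin 7)), rels.card ≤ 25 ∧ Nonempty (PresentedGroup (↑rels : Set (FreeGroup (Fin 7))) ≃* Matrix.SpecialLinearGroup (Fin n) F)) ∧ (∃ rels : Finset (FreeGroup (Fin 7)), rels.card ≤ 26 ∧ Nonempty (PresentedGroup (↑rels : Set (FreeGroup (Fin 7))) ≃* Matrix.ProjectiveSpecialLinearGroup (Fin n) F)) ∧
    (∃ rels : Finset (FreeGroup (Fin 6)), rels.card ≤ 21 ∧ Nonempty (PresentedGroup (↑rels : Set (FreeGroup (Fin 6))) ≃* Matrix.SpecialLinearGroup (Fin 4) F)) ∧ (∃ rels : Finset (FreeGroup (Fin 6)), rels.card ≤ 22 ∧ Nonempty (PresentedGroup (↑rels : Set (FreeGroup (Fin 6))) ≃* Matrix.SpecialLinearGroup (Fin 5) F)) := by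
  have h4 : ∃ rels : Finset (FreeGroup (Fin 6)), rels.card ≤ 21 ∧
      Nonempty (PresentedGroup (↑rels : Set (FreeGroup (Fin 6))) ≃*
        Matrix.SpecialLinearGroup (Fin 4) F) := by
    obtain ⟨r, hr, ⟨E⟩⟩ := sl_four (F := F)
    obtain ⟨r', hr', hE⟩ := pad E
    exact ⟨r', by omega, hE⟩
  have h5 : ∃ rels : Finset (FreeGroup (Fin 6)), rels.card ≤ 22 ∧
      Nonempty (PresentedGroup (↑rels : Set (FreeGroup (Fin 6))) ≃*
        Matrix.SpecialLinearGroup (Fin 5) F) := by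
    obtain ⟨r, hr, ⟨E⟩⟩ := sl_five (F := F)
    obtain ⟨r', hr', hE⟩ := pad E
    exact ⟨r', by omega, hE⟩
  have h7 : ∃ rels : Finset (FreeGroup (Fin 7)), rels.card ≤ 25 ∧
      Nonempty (PresentedGroup (↑rels : Set (FreeGroup (Fin 7))) ≃*
        Matrix.SpecialLinearGroup (Fin n) F) := by
    by_cases h6 : 6 ≤ n
    · obtain ⟨r, hr, ⟨E⟩⟩ := sl_ge6 (F := F) n h6
      obtain ⟨r', hr', hE⟩ := pad E
      exact ⟨r', by omega, hE⟩
    · obtain rfl | rfl : n = 4 ∨ n = 5 := by omega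
      · obtain ⟨r, hr, ⟨E⟩⟩ := h4
        obtain ⟨r', hr', hE⟩ := pad E
        exact ⟨r', by omega, hE⟩
      · obtain ⟨r, hr, ⟨E⟩⟩ := h5
        obtain ⟨r', hr', hE⟩ := pad E
        exact ⟨r', by omega, hE⟩
  refine ⟨h7, ?_, h4, h5⟩
  obtain ⟨r, hr, ⟨E⟩⟩ := h7
  obtain ⟨r', hr', hE⟩ := psl_of_sl E
  exact ⟨r', by omega, hE⟩

end Cfsg.Agent.S2288
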