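import Cfsg.Statements.S2332
import Cfsg.Agent.Lib.MinDeg.SLn.Lower
import Cfsg.Agent.Lib.MinDeg.SLn.Exist
import Cfsg.Agent.Lib.MinDeg.Weights

set_option autoImplicit false
open Cfsg

namespace Cfsg.Agent.S2332

open Cfsg.Agent.Lib.MinDeg.SLn Matrix
open scoped LinearAlgebra.Projectivization

/-- Schur's lemma on `Fin k → ℂ`. -/
theorem schur_fin {G : Type*} [Group G] {k : ℕ} {ρ : Representation ℂ G (Fin k → ℂ)}
    (hρ : ρ.IsIrreducible) (hk : 2 ≤ k) (T : Module.End ℂ (Fin k → ℂ))
    (hT : ∀ g, ρ g * T = T * ρ g) : ∃ c : ℂ, T = c • 1 := by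
  have : Nonempty (Fin k) := ⟨⟨0, by omega⟩⟩
  obtain ⟨μ, hμ⟩ := Module.End.exists_eigenvalue T
  refine ⟨μ, ?_⟩
  let S : Subrepresentation ρ :=
    ⟨Module.End.eigenspace T μ, fun g v hv => by
      rw [Module.End.mem_eigenspace_iff] at hv ⊢
      have h1 : T (ρ g v) = (T * ρ g) v := rfl
      rw [h1, ← hT g, Module.End.mul_apply, hv, map_smul]⟩
  rcases hρ.eq_bot_or_eq_top S with hS | hS
  · exfalso
    have h2 : Module.End.eigenspace T μ = ⊥ := congrArg Subrepresentation.toSubmodule hS
    exact hμ h2
  · have h2 : Module.End.eigenspace T μ = ⊤ := congrArg Subrepresentation.toSubmodule hS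
    apply LinearMap.ext
    intro v
    have hv : v ∈ Module.End.eigenspace T μ := by rw [h2]; trivial
    rw [Module.End.mem_eigenspace_iff] at hv
    rw [hv]
    rfl

theorem good_of_hex {F : Type*} [Field F] [Fintype F] (n : ℕ) (hn : 3 ≤ n)
    (hex : (n, Fintype.card F) ≠ (3, 2) ∧ (n, Fintype.card F) ≠ (3, 4) ∧
      (n, Fintype.card F) ≠ (4, 2) ∧ (n, Fintype.card F) ≠ (4, 3)) :
    GoodSL (Fin n) F := by
  obtain ⟨h1, h2, h3, h4⟩ := hex
  have hq : 2 ≤ Fintype.card F := Fintype.one_lt_card
  unfold GoodSL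
  simp only [Fintype.card_fin]
  by_cases hn3 : n = 3
  · subst hn3
    left
    refine ⟨rfl, ?_⟩
    by_contra hc
    push Not at hc
    have hd : Fintype.card F - 1 ∣ 3 := by
      rw [← FiniteField.forall_pow_eq_one_iff]
      intro x
      apply Units.ext
      rw [Units.val_pow_eq_pow_val, Units.val_one]
      exact hc x.1 x.ne_zero
    have := (Nat.dvd_prime Nat.prime_three).mp hd
    rcases this with h | h
    · apply h1
      have : Fintype.card F = 2 := by omega
      rw [this]
    · apply h2
      have : Fintype.card F = 4 := by omega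
      rw [this]
  by_cases hn4 : n = 4
  · subst hn4
    right; left
    refine ⟨rfl, ?_⟩
    by_contra hc
    push Not at hc
    have hd : Fintype.card F - 1 ∣ 2 := by
      rw [← FiniteField.forall_pow_eq_one_iff]
      intro x
      apply Units.ext
      rw [Units.val_pow_eq_pow_val, Units.val_one]
      exact hc x.1 x.ne_zero
    have := (Nat.dvd_prime Nat.prime_two).mp hd
    rcases this with h | h
    · apply h3
      have : Fintype.card F = 2 := by omega
      rw [this]
    · apply h4
      have : Fintype.card F = 3 := by omega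
      rw [this]
  · right; right
    omega

/-- Smallest degree of a non-linear irreducible complex representation of SL_n over a finite field with q elements, for n ≥ 3 and (n, q) not one of (3, 2), (3, 4), (4, 2), (4, 3): every irreducible complex representation of SL_n(F) of degree at least 2 has degree at least (q^n − q)/(q − 1), and there is an irreducible complex representation of exactly that degree. -/
theorem result {F : Type*} [Field F] [Fintype F] [DecidableEq F] (n : ℕ) (hn : 3 ≤ n)
    (hex : (n, Fintype.card F) ≠ (3, 2) ∧ (n, Fintype.card F) ≠ (3, 4) ∧ (n, Fintype.card F) ≠ (4, 2) ∧ (n, Fintype.card F) ≠ (4, 3)) :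
    (∀ (k : ℕ) (ρ : Representation ℂ (Matrix.SpecialLinearGroup (Fin n) F) (Fin k → ℂ)), ρ.IsIrreducible → 2 ≤ k → (Fintype.card F ^ n - Fintype.card F) / (Fintype.card F - 1) ≤ k) ∧
    (∃ ρ : Representation ℂ (Matrix.SpecialLinearGroup (Fin n) F) (Fin ((Fintype.card F ^ n - Fintype.card F) / (Fintype.card F - 1)) → ℂ), ρ.IsIrreducible) := by
  have hq : 2 ≤ Fintype.card F := Fintype.one_lt_card
  have hpow : Fintype.card F ^ n = Fintype.card F * Fintype.card F ^ (n - 1) := by
    rw [← pow_succ']
    congr 1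
    omega
  have hsub : Fintype.card F ^ n - Fintype.card F =
      Fintype.card F * (Fintype.card F ^ (n - 1) - 1) := by
    rw [hpow, Nat.mul_sub_one]
  constructor
  · intro k ρ hρ hk
    obtain ⟨ψ, hψ⟩ : ∃ ψ : AddChar F ℂ, ψ 1 ≠ 1 :=
      AddChar.exists_apply_ne_zero.mpr one_ne_zero
    let a : Fin n := ⟨0, by omega⟩
    let b : Fin n := ⟨1, by omega⟩
    let c : Fin n := ⟨2, by omega⟩
    have hab : a ≠ b := by simp [a, b, Fin.ext_iff]
    have hac : a ≠ c := by simp [a, c, Fin.ext_iff]
    have hbc : b ≠ c := by simp [b, c, Fin.ext_iff]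
    have h1 := abstract_bound (ρ := ρ) ψ hψ hab hac hbc (good_of_hex n hn hex)
      (Cfsg.Agent.Lib.MinDeg.Weights.exists_ne_one_of_irreducible hρ hk) (schur_fin hρ hk)
    rw [Module.finrank_fin_fun, Fintype.card_fin] at h1
    apply Nat.div_le_of_le_mul
    rw [hsub]
    exact h1
  · classical
    have hfin : Finite (Matrix.SpecialLinearGroup (Fin n) F) := inferInstance
    let _ : Fintype (ℙ F (Fin n → F)) := Fintype.ofFinite _
    have hcard : Fintype.card (ℙ F (Fin n → F)) = ∑ i ∈ Finset.range n, Fintype.card F ^ i := by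
      rw [← Nat.card_eq_fintype_card, Projectivization.card_of_finrank F (Fin n → F)
        (n := n) (by simp), Nat.card_eq_fintype_card]
    have h2 : ∀ {a b c d : ℙ F (Fin n → F)}, a ≠ b → c ≠ d →
        ∃ g : Matrix.SpecialLinearGroup (Fin n) F, g • a = c ∧ g • b = d :=
      fun hab hcd => (MulAction.is_two_pretransitive_iff
        (G := Matrix.SpecialLinearGroup (Fin n) F) (α := ℙ F (Fin n → F))).mp inferInstance hab hcd
    have hgeom : (∑ i ∈ Finset.range n, Fintype.card F ^ i) * (Fintype.card F - 1) =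
        Fintype.card F ^ n - 1 := by
      have := Nat.geomSum_eq hq n
      rw [this, Nat.div_mul_cancel]
      exact Nat.sub_one_dvd_pow_sub_one _ _ 
    have hcard2 : 2 ≤ Fintype.card (ℙ F (Fin n → F)) := by
      rw [hcard]
      have : Finset.range 2 ⊆ Finset.range n := by
        intro i hi
        simp only [Finset.mem_range] at hi ⊢
        omega
      calc 2 ≤ ∑ i ∈ Finset.range 2, Fintype.card F ^ i := by
            simp [Finset.sum_range_succ]
            omega
        _ ≤ _ := Finset.sum_le_sum_of_subset this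
    refine Cfsg.Agent.Lib.MinDeg.SLn.exists_irred_two_trans h2 hcard2 ?_
    rw [hcard]
    symm
    apply Nat.div_eq_of_eq_mul_left (by omega)
    have hq1 : 1 ≤ Fintype.card F - 1 := by omega
    have hs1 : 1 ≤ ∑ i ∈ Finset.range n, Fintype.card F ^ i := by omega
    rw [Nat.sub_mul, hgeom, one_mul]
    have h5 : 1 ≤ Fintype.card F ^ n := Nat.one_le_pow _ _ (by omega)
    omega

end Cfsg.Agent.S2332
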