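import Cfsg.Statements.S2334
import Mathlib
import Cfsg.Agent.Lib.MinDeg.SUOdd

set_option autoImplicit false
open Cfsg

namespace Cfsg.Agent.S2334

/-- For odd n ≥ 3 and a finite field F with q² elements, (n, q) ≠ (3, 2), every irreducible complex representation of the special unitary group SU_n(q) (the determinant-one isometries of the standard Hermitian form over F) of degree at least 2 has degree at least (q^n − q)/(q + 1). -/
theorem result {F : Type*} [Field F] [Fintype F] [DecidableEq F] (n q : ℕ) (hn : 3 ≤ n) (hodd : Odd n) (hF : Fintype.card F = q ^ 2) (hex : (n, q) ≠ (3, 2)) :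
    (∀ (k : ℕ) (ρ : Representation ℂ (Cfsg.SU n F q) (Fin k → ℂ)), ρ.IsIrreducible → 2 ≤ k → (q ^ n - q) / (q + 1) ≤ k) := by
  intro k ρ hρ hk
  classical
  obtain ⟨m, hm⟩ := hodd
  have hm1 : 1 ≤ m := by omega
  obtain ⟨fr, r, hr, hre, hrf⟩ := Cfsg.Agent.Lib.MinDeg.SUSiegel.exists_frame_odd (n := n) (m := m) hF hm
  obtain ⟨ε, hε0, hε⟩ := Cfsg.Agent.Lib.Classical.Herm.Subfield.exists_trace_zero hF
  obtain ⟨ψ, hψ⟩ := Cfsg.Agent.Lib.MinDeg.HermChar.exists_psi (F := F)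
  have h32 : ¬ (n = 3 ∧ q = 2) := fun h => hex (by rw [h.1, h.2])
  have hρ' := Cfsg.Agent.Lib.MinDeg.Weights.exists_ne_one_of_irreducible hρ hk
  have hq2 := Cfsg.Agent.Lib.Classical.Herm.Basic.two_le_q hF
  have hd := fun T hT hT0 hW => Cfsg.Agent.Lib.MinDeg.SUOdd.q_le_finrank (r := r) hF hε hε0 fr hr hre ρ hψ
    (T := T) hT hT0 hW
  apply Nat.div_le_of_le_mul
  rcases Nat.lt_or_ge m 2 with hm2 | hm2
  · obtain rfl : m = 1 := by omega
    obtain rfl : n = 3 := by omega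
    have hb := Cfsg.Agent.Lib.MinDeg.SUOdd.bound_one (k := k) hF hε hε0 fr (fun l hl => by
        have hfe := fr.ef 0 0
        simp only [if_true] at hfe
        exact Cfsg.Agent.Lib.MinDeg.SUOdd.exists_torus3 hF (fr.ee 0 0) (fr.ff 0 0) hfe hr (hre 0) (hrf 0) hl)
      ρ (Cfsg.Agent.Lib.MinDeg.SUSiegel.exists_ne_tauH hF hε hε0 (by omega) h32 0 ρ hρ') q ψ hψ hd
    obtain ⟨p, rfl⟩ : ∃ p, q = p + 1 := ⟨q - 1, by omega⟩
    have h1 : (p + 1) ^ 3 - (p + 1) = (p + 1 + 1) * ((p + 1 - 1) * (p + 1)) := by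
      simp only [Nat.add_sub_cancel]
      have : (p + 1) ^ 3 = (p + 1 + 1) * (p * (p + 1)) + (p + 1) := by ring
      omega
    rw [h1]
    exact Nat.mul_le_mul_left _ hb
  · obtain ⟨k', hk'⟩ : ∃ k', m = k' + 1 := ⟨m - 1, by omega⟩
    have hb := Cfsg.Agent.Lib.MinDeg.SUSiegel.bound_of_frame (m := m) (k' := k') hF hk' (by omega)
      (by omega) h32 fr ρ hρ' q ψ hψ hε hε0 hd
    have hq : (q ^ 2) ^ (k' + 1) = q ^ (n - 1) := by
      rw [← pow_mul]
      congr 1
      omega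
    rw [hq] at hb
    have h2 : q ^ n - q = (q ^ (n - 1) - 1) * q := by
      rw [Nat.sub_mul, one_mul, ← pow_succ]
      congr 2
      omega
    rw [h2]
    exact hb

end Cfsg.Agent.S2334
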