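import Cfsg.Statements.S2335
import Mathlib
import Cfsg.Agent.Lib.MinDeg.SUSiegel

set_option autoImplicit false
open Cfsg

namespace Cfsg.Agent.S2335

/-- For even n ≥ 4 and a finite field F with q² elements, (n, q) not (4, 2) or (4, 3), every irreducible complex representation of the special unitary group SU_n(q) (the determinant-one isometries of the standard Hermitian form over F) of degree at least 2 has degree at least (q^n − 1)/(q + 1). -/
theorem result {F : Type*} [Field F] [Fintype F] [DecidableEq F] (n q : ℕ) (hn : 4 ≤ n) (heven : Even n) (hF : Fintype.card F = q ^ 2) (hex : (n, q) ≠ (4, 2) ∧ (n, q) ≠ (4, 3)) :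
    (∀ (k : ℕ) (ρ : Representation ℂ (Cfsg.SU n F q) (Fin k → ℂ)), ρ.IsIrreducible → 2 ≤ k → (q ^ n - 1) / (q + 1) ≤ k) := by
  intro k ρ hρ hk
  classical
  obtain ⟨m, rfl⟩ := heven
  obtain ⟨k', hk'⟩ : ∃ k', m = k' + 1 := ⟨m - 1, by omega⟩
  obtain ⟨fr⟩ := Cfsg.Agent.Lib.MinDeg.SUSiegel.exists_frame (n := m + m) (m := m) hF (by omega)
  obtain ⟨ε, hε0, hε⟩ := Cfsg.Agent.Lib.Classical.Herm.Subfield.exists_trace_zero hF
  obtain ⟨ψ, hψ⟩ := Cfsg.Agent.Lib.MinDeg.HermChar.exists_psi (F := F)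
  have hb := Cfsg.Agent.Lib.MinDeg.SUSiegel.bound_of_frame (m := m) (k' := k') hF hk' (by omega)
    (by omega) (by omega) fr ρ (Cfsg.Agent.Lib.MinDeg.Weights.exists_ne_one_of_irreducible hρ hk)
    1 ψ hψ hε hε0 (fun T _ _ hW => by
      rw [Nat.one_le_iff_ne_zero]
      intro h0
      exact hW (Submodule.finrank_eq_zero.mp h0))
  have hq : (q ^ 2) ^ (k' + 1) = q ^ (m + m) := by
    rw [← pow_mul]
    congr 1
    omega
  rw [hq, mul_one] at hb
  apply Nat.div_le_of_le_mul
  exact hb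

end Cfsg.Agent.S2335
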