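import Cfsg.Statements.S2336
import Mathlib
import Cfsg.Agent.Lib.MinDeg.SLn.PermVec
import Cfsg.Agent.Lib.Linalg.Bridge

set_option autoImplicit false
open Cfsg

namespace Cfsg.Agent.S2336

open Cfsg.Agent.Lib.MinDeg.SLn

/-- Nonzero vectors. -/
abbrev Vx (F : Type*) [Field F] (n : ℕ) := {v : Fin n → F // v ≠ 0}

section conc

variable {F : Type*} [Field F] {n : ℕ}

instance instSLVx [Fintype F] [DecidableEq F] : MulAction (Matrix.SpecialLinearGroup (Fin n) F) (Vx F n) where
  smul g v := ⟨(g : Matrix (Fin n) (Fin n) F).mulVec v.1, by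
    intro hc
    apply v.2
    have h1 : ((g⁻¹ : Matrix.SpecialLinearGroup (Fin n) F) : Matrix (Fin n) (Fin n) F).mulVec
        ((g : Matrix (Fin n) (Fin n) F).mulVec v.1) = v.1 := by
      rw [Matrix.mulVec_mulVec, ← Matrix.SpecialLinearGroup.coe_mul]
      simp
    rw [← h1, hc, Matrix.mulVec_zero]⟩
  one_smul v := by
    apply Subtype.ext
    show ((1 : Matrix.SpecialLinearGroup (Fin n) F) : Matrix (Fin n) (Fin n) F).mulVec v.1 = v.1
    simp
  mul_smul g g' v := by
    apply Subtype.ext
    show ((g * g' : Matrix.SpecialLinearGroup (Fin n) F) : Matrix (Fin n) (Fin n) F).mulVec v.1 =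
      (g : Matrix (Fin n) (Fin n) F).mulVec ((g' : Matrix (Fin n) (Fin n) F).mulVec v.1)
    rw [Matrix.mulVec_mulVec, Matrix.SpecialLinearGroup.coe_mul]

theorem coe_sl_smul [Fintype F] [DecidableEq F] (g : Matrix.SpecialLinearGroup (Fin n) F) (v : Vx F n) :
    ((g • v : Vx F n) : Fin n → F) = (g : Matrix (Fin n) (Fin n) F).mulVec v.1 := rfl

instance instUnitsVx : MulAction Fˣ (Vx F n) where
  smul γ v := ⟨(γ : F) • v.1, smul_ne_zero γ.ne_zero v.2⟩
  one_smul v := by
    apply Subtype.ext
    show ((1 : Fˣ) : F) • v.1 = v.1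
    simp
  mul_smul γ τ v := by
    apply Subtype.ext
    show ((γ * τ : Fˣ) : F) • v.1 = (γ : F) • ((τ : F) • v.1)
    rw [Units.val_mul, mul_smul]

theorem coe_units_smul (γ : Fˣ) (v : Vx F n) : ((γ • v : Vx F n) : Fin n → F) = (γ : F) • v.1 := rfl

instance instCommVx [Fintype F] [DecidableEq F] :
    SMulCommClass (Matrix.SpecialLinearGroup (Fin n) F) Fˣ (Vx F n) where
  smul_comm g γ v := by
    apply Subtype.ext
    rw [coe_sl_smul, coe_units_smul, coe_units_smul, coe_sl_smul, Matrix.mulVec_smul]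

theorem vx_li [Fintype F] [DecidableEq F] {x y : Vx F n} (hy : ∀ γ : Fˣ, y ≠ γ • x) : LinearIndependent F ![x.1, y.1] := by
  apply li_two
  intro α β hc
  by_cases hβ : β = 0
  · subst hβ
    simp only [zero_smul, add_zero, smul_eq_zero] at hc
    exact ⟨hc.resolve_right x.2, rfl⟩
  · exfalso
    have hα : α ≠ 0 := by
      rintro rfl
      simp only [zero_smul, zero_add, smul_eq_zero] at hc
      exact y.2 (hc.resolve_left hβ)
    apply hy (Units.mk0 (-(α / β)) (neg_ne_zero.mpr (div_ne_zero hα hβ)))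
    apply Subtype.ext
    rw [coe_units_smul, Units.val_mk0]
    have h1 : y.1 = β⁻¹ • (β • y.1) := by
      rw [smul_smul, inv_mul_cancel₀ hβ, one_smul]
    have h2 : β • y.1 = -(α • x.1) := by
      rw [eq_neg_iff_add_eq_zero, add_comm]
      exact hc
    rw [h1, h2, smul_neg, smul_smul, neg_smul, div_eq_inv_mul]

theorem good [Fintype F] [DecidableEq F] (hn : 3 ≤ n) :
    GoodAct (Matrix.SpecialLinearGroup (Fin n) F) Fˣ (Vx F n) where
  trans x y := by
    obtain ⟨g, hg⟩ := Cfsg.Agent.Lib.Linalg.Bridge.exists_SL_mulVec_eq (ι := Fin n) (F := F)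
      (by simp; omega) x.2 y.2
    exact ⟨g, Subtype.ext hg⟩
  free γ x hc := by
    obtain ⟨i, hi⟩ := Function.ne_iff.mp x.2
    have h1 := congrFun (congrArg Subtype.val hc) i
    rw [coe_units_smul, Pi.smul_apply, smul_eq_mul] at h1
    apply Units.ext
    exact mul_right_cancel₀ hi (by rw [h1, Units.val_one, one_mul])
  two x y y' hy hy' := by
    obtain ⟨g, hg⟩ := Cfsg.Agent.Lib.Linalg.Bridge.exists_SL_of_linearIndependent (vx_li hy)
      (vx_li (x := x) (y := y') hy') (by simp; omega)
    refine ⟨g, Subtype.ext (hg 0), Subtype.ext (hg 1)⟩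
  exi := by
    have h0 : 0 < n := by omega
    have h1 : 1 < n := by omega
    refine ⟨⟨Pi.single ⟨0, h0⟩ 1, ?_⟩, ⟨Pi.single ⟨1, h1⟩ 1, ?_⟩, ?_⟩
    · intro hc
      have := congrFun hc ⟨0, h0⟩
      simp at this
    · intro hc
      have := congrFun hc ⟨1, h1⟩
      simp at this
    · intro γ hc
      have := congrFun (congrArg Subtype.val hc) ⟨1, h1⟩
      rw [coe_units_smul] at this
      simp at this

end conc


/-- Let F be a finite field with q elements and n ≥ 3. The permutation character of SL_n(F) on the non-zero vectors of F^n (the function sending a matrix to the number of non-zero vectors it fixes) is the sum of the principal character and q − 1 pairwise distinct irreducible complex characters. -/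
theorem result {F : Type*} [Field F] [Fintype F] [DecidableEq F] (n : ℕ) (hn : 3 ≤ n) :
    ∃ χ : Fin (Fintype.card F - 1) → (Matrix.SpecialLinearGroup (Fin n) F → ℂ),
      (∀ i, Cfsg.IsIrrCharacter (Matrix.SpecialLinearGroup (Fin n) F) (χ i)) ∧ Function.Injective χ ∧
      ∀ g : Matrix.SpecialLinearGroup (Fin n) F,
        (Nat.card {v : Fin n → F // v ≠ 0 ∧ (g : Matrix (Fin n) (Fin n) F).mulVec v = v} : ℂ) = 1 + ∑ i, χ i g := by
  classical
  have hfin := finite_dual Fˣ
  let _ : Fintype (Fˣ →* ℂˣ) := Fintype.ofFinite _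
  have hcard : Fintype.card (Fˣ →* ℂˣ) = Fintype.card F - 1 := by
    rw [← Nat.card_eq_fintype_card, card_dual, Fintype.card_units]
  let e : Fin (Fintype.card F - 1) ≃ (Fˣ →* ℂˣ) := (Fintype.equivFinOfCardEq hcard).symm
  have hG := good (F := F) hn
  refine ⟨fun i => chi (Vx F n) (e i), fun i => hG.isIrr _, fun i j hij => ?_, fun g => ?_⟩
  · exact e.injective (hG.chi_injective hij)
  · have h1 := hG.trace_eq_sum g
    rw [trace_permMon] at h1
    rw [Equiv.sum_comp e (fun θ => chi (Vx F n) θ g), ← h1]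
    have e1 : {v : Fin n → F // v ≠ 0 ∧ (g : Matrix (Fin n) (Fin n) F).mulVec v = v} ≃
        {x : Vx F n // g • x = x} :=
      { toFun := fun v => ⟨⟨v.1, v.2.1⟩, Subtype.ext v.2.2⟩
        invFun := fun x => ⟨x.1.1, x.1.2, congrArg Subtype.val x.2⟩
        left_inv := fun v => rfl
        right_inv := fun x => rfl }
    rw [Nat.card_congr e1, Nat.card_eq_fintype_card, Fintype.card_subtype]

end Cfsg.Agent.S2336
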