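import Cfsg.Statements.S2337
import Cfsg.Agent.Lib.Suzuki.Rep
import Cfsg.Agent.Lib.Suzuki.Iso

set_option autoImplicit false
open Cfsg

namespace Cfsg.Agent.S2337

open Cfsg.Agent.Lib.Suzuki.Basic Cfsg.Agent.Lib.Suzuki.Struct Cfsg.Agent.Lib.Suzuki.Gen Cfsg.Agent.Lib.Suzuki.Rep Cfsg.Agent.Lib.Suzuki.Iso

/-- For the Suzuki group Sz(q), q = 2^(2m+1) with m ≥ 1 (realised inside Sp₄ over the field with q elements), every irreducible complex representation of degree at least 2 has degree at least 2^m·(q − 1). -/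
theorem result {F : Type*} [Field F] [Fintype F] (m : ℕ) (hm : 1 ≤ m) (hF : Fintype.card F = 2 ^ (2 * m + 1)) :
    (∀ (k : ℕ) (ρ : Representation ℂ (Cfsg.Lie.Sz F (2 ^ (m + 1))) (Fin k → ℂ)), ρ.IsIrreducible → 2 ≤ k → 2 ^ m * (2 ^ (2 * m + 1) - 1) ≤ k) := by
  intro k ρ hρ hk
  classical
  have h : Hyp F m := ⟨hm, hF⟩
  let E := suzEquiv h
  let ρ' : Representation ℂ (G F m) (Fin k → ℂ) := ρ.comp E.toMonoidHom
  have hne : ρ' (Lg h 0 1) ≠ 1 := by
    intro hc
    have hsimple := isSimple h
    have hN : ρ'.ker = ⊥ ∨ ρ'.ker = ⊤ := Subgroup.Normal.eq_bot_or_eq_top inferInstance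
    rcases hN with hN | hN
    · have h1 : Lg h 0 1 ∈ ρ'.ker := hc
      rw [hN, Subgroup.mem_bot] at h1
      have h2 := Cfsg.Agent.Lib.Suzuki.Sub.Lg_inj h (h1.trans (Lg_zero h).symm)
      exact one_ne_zero h2.2
    · have h1 : ∀ g, ρ g = 1 := by
        intro g
        have h2 : E.symm g ∈ ρ'.ker := by
          rw [hN]
          exact Subgroup.mem_top _
        have h3 : ρ' (E.symm g) = 1 := h2
        have h4 : ρ' (E.symm g) = ρ (E (E.symm g)) := rfl
        rwa [h4, E.apply_symm_apply] at h3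
      let i₀ : Fin k := ⟨0, by omega⟩
      let e₀ : Fin k → ℂ := Pi.single i₀ 1
      have he₀ : e₀ ≠ 0 := by
        intro hc
        have := congrFun hc i₀
        simp [e₀] at this
      let S : Subrepresentation ρ :=
        ⟨Submodule.span ℂ {e₀}, fun g v hv => by
          rw [h1 g]
          exact hv⟩
      rcases hρ.eq_bot_or_eq_top S with hS | hS
      · have h2 : Submodule.span ℂ {e₀} = ⊥ := congrArg Subrepresentation.toSubmodule hS
        rw [Submodule.span_singleton_eq_bot] at h2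
        exact he₀ h2
      · have h2 : Submodule.span ℂ {e₀} = ⊤ := congrArg Subrepresentation.toSubmodule hS
        have h3 := finrank_span_singleton (K := ℂ) he₀
        rw [h2, finrank_top, Module.finrank_fin_fun] at h3
        omega
  have h1 := rep_bound h ρ' hne
  rwa [Module.finrank_fin_fun] at h1

end Cfsg.Agent.S2337
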