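import Cfsg.Statements.S2343
import Cfsg.Agent.Lib.Ree.Abs35
import Cfsg.Agent.S1073

set_option autoImplicit false
open Cfsg

namespace Cfsg.Agent.S2343

/-- For the Ree group ²G₂(q), q = 3^(2m+1) with m ≥ 1 (realised over the field with q elements), every irreducible complex representation of degree at least 2 has degree at least q² − q + 1. -/
theorem result {K : Type*} [Field K] [Fintype K] (m : ℕ) (hm : 1 ≤ m) (hK : Fintype.card K = 3 ^ (2 * m + 1)) :
    (∀ (k : ℕ) (ρ : Representation ℂ (Cfsg.Lie.twistedG2 K (3 ^ m)) (Fin k → ℂ)), ρ.IsIrreducible → 2 ≤ k → (3 ^ (2 * m + 1)) ^ 2 - 3 ^ (2 * m + 1) + 1 ≤ k) := by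
  intro k ρ hρ hk
  classical
  haveI := Cfsg.Agent.Lib.Ree.Main.charP_of_card hK
  haveI := (Cfsg.Agent.Lib.Ree.Abs.dat hK).finite_of_card
  have hsimple := (Cfsg.Agent.S1073.result hm hK).1
  have hne : ρ ((Cfsg.Agent.Lib.Ree.Abs.dat hK).u 0 0 1) ≠ 1 := by
    intro hc
    have hN : ρ.ker = ⊥ ∨ ρ.ker = ⊤ := Subgroup.Normal.eq_bot_or_eq_top inferInstance
    rcases hN with hN | hN
    · have h1 : (Cfsg.Agent.Lib.Ree.Abs.dat hK).u 0 0 1 ∈ ρ.ker := hc
      rw [hN, Subgroup.mem_bot] at h1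
      have h2 := (Cfsg.Agent.Lib.Ree.Abs.dat hK).u_inj (h1.trans (Cfsg.Agent.Lib.Ree.Abs.dat hK).u_zero.symm)
      exact one_ne_zero h2.2.2
    · have h1 : ∀ g, ρ g = 1 := by
        intro g
        have h2 : g ∈ ρ.ker := by
          rw [hN]
          exact Subgroup.mem_top _
        exact h2
      let i₀ : Fin k := ⟨0, by omega⟩
      let e₀ : Fin k → ℂ := Pi.single i₀ 1
      have he₀ : e₀ ≠ 0 := by
        intro hc
        have := congrFun hc i₀
        simp [e₀] at this
      let S : Subrepresentation ρ :=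
        ⟨Submodule.span ℂ {e₀}, fun g v hv => by
          rw [h1 g]
          exact hv⟩
      rcases hρ.eq_bot_or_eq_top S with hS | hS
      · have h2 : Submodule.span ℂ {e₀} = ⊥ := congrArg Subrepresentation.toSubmodule hS
        rw [Submodule.span_singleton_eq_bot] at h2
        exact he₀ h2
      · have h2 : Submodule.span ℂ {e₀} = ⊤ := congrArg Subrepresentation.toSubmodule hS
        have h3 := finrank_span_singleton (K := ℂ) he₀
        rw [h2, finrank_top, Module.finrank_fin_fun] at h3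
        omega
  have h1 := (Cfsg.Agent.Lib.Ree.Abs.dat hK).rep_final ρ hm hne
  rw [Module.finrank_fin_fun] at h1
  have h2 : (Cfsg.Agent.Lib.Ree.Abs.dat hK).q = 3 ^ (2 * m + 1) := rfl
  rw [h2] at h1
  have h3 : (3 ^ (2 * m + 1)) ^ 2 - 3 ^ (2 * m + 1) = 3 ^ (2 * m + 1) * (3 ^ (2 * m + 1) - 1) := by
    rw [Nat.mul_sub, mul_one, pow_two]
  rw [h3]
  exact h1

end Cfsg.Agent.S2343
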