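import Cfsg.Statements.S2344
import Mathlib
import Cfsg.Agent.Lib.MinDeg.Omega.Count
import Cfsg.Agent.Lib.MinDeg.Weights

set_option autoImplicit false
open Cfsg

namespace Cfsg.Agent.S2344

open Cfsg.Agent.Lib.MinDeg.Omega Cfsg.Agent.Lib.Classical.Orth.Models Cfsg.Agent.Lib.Linalg.OrthModels QuadraticMap

section Model

variable {F : Type*} [Field F]

/-- Standard basis vectors. -/
abbrev ep {n : ℕ} (j : Fin n) : Unit ⊕ (Fin n ⊕ Fin n) → F := Pi.single (Sum.inr (Sum.inl j)) 1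

/-- Standard basis vectors. -/
abbrev fp {n : ℕ} (j : Fin n) : Unit ⊕ (Fin n ⊕ Fin n) → F := Pi.single (Sum.inr (Sum.inr j)) 1

/-- Standard basis vectors. -/
abbrev zp {n : ℕ} : Unit ⊕ (Fin n ⊕ Fin n) → F := Pi.single (Sum.inl ()) 1

theorem Q_ep {n : ℕ} (j : Fin n) : oddQ n F (ep j) = 0 := by
  rw [oddQ_apply]
  simp [quadFormOdd, ep, Pi.single_apply]

theorem Q_fp {n : ℕ} (j : Fin n) : oddQ n F (fp j) = 0 := by
  rw [oddQ_apply]
  simp [quadFormOdd, fp, Pi.single_apply]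

theorem pol_ep {n : ℕ} (j : Fin n) (v : Unit ⊕ (Fin n ⊕ Fin n) → F) :
    polar (⇑(oddQ n F)) (ep j) v = v (Sum.inr (Sum.inr j)) :=
  polar_odd_single_inl n j v

theorem pol_fp {n : ℕ} (j : Fin n) (v : Unit ⊕ (Fin n ⊕ Fin n) → F) :
    polar (⇑(oddQ n F)) (fp j) v = v (Sum.inr (Sum.inl j)) :=
  polar_odd_single_inr n j v

theorem hf {n : ℕ} {i j : Fin n} (h : i ≠ j) : HF (oddQ n F) (ep i) (fp i) (ep j) (fp j) where
  Qa := Q_ep i
  Qa' := Q_fp i
  Qb := Q_ep j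
  Qb' := Q_fp j
  aa' := by rw [pol_ep]; simp
  bb' := by rw [pol_ep]; simp
  ab := by rw [pol_ep]; simp
  ab' := by rw [pol_ep]; simp [h]
  a'b := by rw [pol_fp]; simp [h]
  a'b' := by rw [pol_fp]; simp

theorem hc {n : ℕ} [Fintype F] [DecidableEq F] [OmCtx (oddQ n F)] {i j k : Fin n} (hij : i ≠ j)
    (hik : i ≠ k) (hjk : j ≠ k) :
    Cplx (oddQ n F) (ep i) (fp i) (ep j) (fp j) (ep k) (fp k) zp where
  hu := by
    refine mem_Vpp.2 ⟨?_, ?_, ?_, ?_⟩
    · rw [pol_ep]; simp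
    · rw [pol_fp]; simp [hik]
    · rw [pol_ep]; simp
    · rw [pol_fp]; simp [hjk]
  hu' := by
    refine mem_Vpp.2 ⟨?_, ?_, ?_, ?_⟩
    · rw [pol_ep]; simp [hik]
    · rw [pol_fp]; simp
    · rw [pol_ep]; simp [hjk]
    · rw [pol_fp]; simp
  hy := by
    refine mem_Vpp.2 ⟨?_, ?_, ?_, ?_⟩
    · rw [pol_ep]; simp
    · rw [pol_fp]; simp
    · rw [pol_ep]; simp
    · rw [pol_fp]; simp
  Qu := Q_ep k
  Qu' := Q_fp k
  uu' := by rw [pol_ep]; simp
  uy := by rw [pol_ep]; simp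
  u'y := by rw [pol_fp]; simp
  Qy := by
    rw [oddQ_apply]
    have : quadFormOdd n F zp = 1 := by
      simp [quadFormOdd, Pi.single_apply]
    rw [this]
    exact one_ne_zero

theorem ctx (n : ℕ) (hn : 3 ≤ n) (h2 : (2 : F) ≠ 0) : OmCtx (oddQ n F) where
  hQ := by
    have : oddQ n F = oddForm n F := DFunLike.coe_injective (by rw [coe_oddQ, coe_oddForm])
    rw [this]
    exact oddForm_nondegenerate h2 n
  hn := by
    simp
    omega

end Model

/-- The arithmetic of the large case. -/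
theorem arith_large (q w : ℕ) (hq : 4 ≤ q) :
    q ^ 3 * w - 1 ≤ (q ^ 2 - 1) * (2 * ((q - 1) * w)) := by
  obtain ⟨s, rfl⟩ : ∃ s, q = s + 4 := ⟨q - 4, by omega⟩
  have e1 : (s + 4) ^ 2 - 1 = s ^ 2 + 8 * s + 15 := by
    have : (s + 4) ^ 2 = s ^ 2 + 8 * s + 15 + 1 := by ring
    omega
  have e2 : s + 4 - 1 = s + 3 := by omega
  rw [e1, e2]
  calc _ ≤ (s + 4) ^ 3 * w := Nat.sub_le _ _
    _ ≤ _ := by
      nlinarith [Nat.zero_le (s ^ 3 * w), Nat.zero_le (s ^ 2 * w), Nat.zero_le (s * w), Nat.zero_le w]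


/-- For a finite field F of odd order q > 3 and n ≥ 3, every irreducible complex representation of degree at least 2 of Ω_{2n+1}(F) (the commutator subgroup of the isometry group of the quadratic form x₀² + x₁y₁ + ⋯ + x_ny_n) has degree at least (q^{2n} − 1)/(q² − 1). -/
theorem result {F : Type*} [Field F] [Fintype F] (n : ℕ) (hn : 3 ≤ n) (hodd : Odd (Fintype.card F)) (h3 : 3 < Fintype.card F) :
    (∀ (k : ℕ) (ρ : Representation ℂ (Cfsg.Omega F (Cfsg.quadFormOdd n F)) (Fin k → ℂ)), ρ.IsIrreducible → 2 ≤ k → (Fintype.card F ^ (2 * n) - 1) / (Fintype.card F ^ 2 - 1) ≤ k) := by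
  intro k ρ hρ hk
  classical
  have h2 : (2 : F) ≠ 0 := by
    apply Ring.two_ne_zero
    intro hc
    have := FiniteField.even_card_iff_char_two.1 hc
    rw [Nat.odd_iff] at hodd
    omega
  obtain ⟨μ, hμ0, hμ⟩ := exists_mu h3
  obtain ⟨ψ, hψ⟩ : ∃ ψ : AddChar F ℂ, ψ 1 ≠ 1 := AddChar.exists_apply_ne_zero.mpr one_ne_zero
  obtain ⟨r, rfl⟩ : ∃ r, n = r + 2 := ⟨n - 2, by omega⟩
  haveI : OmCtx (oddQ (r + 2) F) := ctx (r + 2) hn h2
  let i0 : Fin (r + 2) := ⟨0, by omega⟩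
  let i1 : Fin (r + 2) := ⟨1, by omega⟩
  let i2 : Fin (r + 2) := ⟨2, by omega⟩
  have hF : HF (oddQ (r + 2) F) (ep i0) (fp i0) (ep i1) (fp i1) := hf (by simp [i0, i1])
  have hC : Cplx (oddQ (r + 2) F) (ep i0) (fp i0) (ep i1) (fp i1) (ep i2) (fp i2) zp :=
    hc (by simp [i0, i1]) (by simp [i0, i2, Fin.ext_iff]) (by simp [i1, i2, Fin.ext_iff])
  have h := main_alt (ρ := ρ) (ψ := ψ) (μ := μ) hF hC hψ hμ0 hμ
    (Cfsg.Agent.Lib.MinDeg.Weights.exists_ne_one_of_irreducible hρ hk) (schur_fin' hρ hk)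
  rw [Module.finrank_fin_fun] at h
  have hM := card_Vpp_eq hF (N := 2 * r + 1) (by simp; omega)
  have hZ := singular_count hF
  have hZ' := ZZ_odd (F := F) (r + 2)
  rw [hM] at h hZ
  set q := Fintype.card F with hq
  have h4 : 4 ≤ q := h3
  have hqC : (q : ℂ) ≠ 0 := by
    have : q ≠ 0 := by omega
    exact_mod_cast this
  set A : ℂ := ((AA (oddQ (r + 2) F) (ep i0) (fp i0) (ep i1) (fp i1) : ℕ) : ℂ) with hA
  have hZ0 : ZZ (⇑(oddQ (r + 2) F)) = ZZ (quadFormOdd (r + 2) F) := rfl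
  rw [hZ0] at hZ
  have e1 : q ^ (2 * (r + 2)) = q ^ 3 * q ^ (2 * r + 1) := by ring
  rw [e1]
  have hZ2 : (q : ℂ) ^ (2 * (r + 2)) = (q : ℂ) ^ 3 * ((q ^ (2 * r + 1) : ℕ) : ℂ) := by
    push_cast
    ring
  rw [hZ2] at hZ'
  set w := q ^ (2 * r + 1) with hw
  have hw0 : (w : ℂ) ≠ 0 := by
    have : w ≠ 0 := by
      rw [hw]
      positivity
    exact_mod_cast this
  have hqA : (q : ℂ) * A = (w : ℂ) := by
    have e2 : (q : ℂ) ^ 2 * ((q : ℂ) * A) = (q : ℂ) ^ 2 * (w : ℂ) := by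
      rw [hZ'] at hZ
      linear_combination (q : ℂ) * (-hZ)
    exact mul_left_cancel₀ (pow_ne_zero 2 hqC) e2
  have hq1 : 1 ≤ q ^ 3 * w := by
    have h5 : 0 < w := by
      rw [hw]
      positivity
    have h6 : 0 < q ^ 3 := by positivity
    exact Nat.mul_pos h6 h5
  have hq2 : 1 ≤ q ^ 2 := by
    have : 0 < q ^ 2 := by positivity
    omega
  apply Nat.div_le_of_le_mul
  rcases h with h | ⟨α, h1, h5, -⟩ | ⟨-, h5⟩
  · exact (arith_large q w h4).trans (Nat.mul_le_mul_left _ h)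
  · exfalso
    rw [hqA] at h5
    have h6 : (w : ℂ) * (((q : ℂ) - 1) * α) = 0 := by
      linear_combination -h5
    have hq3 : (q : ℂ) - 1 ≠ 0 := by
      intro h7
      have h8 : (q : ℂ) = ((1 : ℕ) : ℂ) := by
        push_cast
        linear_combination h7
      have h9 := Nat.cast_injective h8
      omega
    have h7 : α = 0 := by
      rcases mul_eq_zero.1 h6 with h8 | h8
      · exact absurd h8 hw0
      · exact (mul_eq_zero.1 h8).resolve_left hq3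
    rw [h7] at h1
    simp at h1
  · have h6 : (((q ^ 2 - 1) * k : ℕ) : ℂ) = ((q ^ 3 * w - 1 : ℕ) : ℂ) := by
      push_cast [Nat.cast_sub hq1, Nat.cast_sub hq2]
      linear_combination h5
    exact (Nat.cast_injective h6).ge

end Cfsg.Agent.S2344
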