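import Cfsg.Statements.S2345
import Mathlib
import Cfsg.Agent.Lib.MinDeg.Omega.Count
import Cfsg.Agent.Lib.MinDeg.Weights

set_option autoImplicit false
open Cfsg

namespace Cfsg.Agent.S2345

open Cfsg.Agent.Lib.MinDeg.Omega Cfsg.Agent.Lib.Classical.Orth.Models Cfsg.Agent.Lib.Linalg.OrthModels QuadraticMap

section Model

variable {F : Type*} [Field F]

/-- Standard basis vectors. -/
abbrev ep {n : ℕ} (j : Fin n) : Fin n ⊕ Fin n → F := Pi.single (Sum.inl j) 1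

/-- Standard basis vectors. -/
abbrev fp {n : ℕ} (j : Fin n) : Fin n ⊕ Fin n → F := Pi.single (Sum.inr j) 1

theorem Q_ep {n : ℕ} (j : Fin n) : plusQ n F (ep j) = 0 := by
  rw [plusQ_apply]
  simp [quadFormPlus, ep, Pi.single_apply]

theorem Q_fp {n : ℕ} (j : Fin n) : plusQ n F (fp j) = 0 := by
  rw [plusQ_apply]
  simp [quadFormPlus, fp, Pi.single_apply]

theorem pol_ep {n : ℕ} (j : Fin n) (v : Fin n ⊕ Fin n → F) : polar (⇑(plusQ n F)) (ep j) v = v (Sum.inr j) :=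
  polar_plus_single_inl n j v

theorem pol_fp {n : ℕ} (j : Fin n) (v : Fin n ⊕ Fin n → F) : polar (⇑(plusQ n F)) (fp j) v = v (Sum.inl j) :=
  polar_plus_single_inr n j v

theorem hf {n : ℕ} {i j : Fin n} (h : i ≠ j) : HF (plusQ n F) (ep i) (fp i) (ep j) (fp j) where
  Qa := Q_ep i
  Qa' := Q_fp i
  Qb := Q_ep j
  Qb' := Q_fp j
  aa' := by rw [pol_ep]; simp
  bb' := by rw [pol_ep]; simp
  ab := by rw [pol_ep]; simp
  ab' := by rw [pol_ep]; simp [h, Pi.single_apply]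
  a'b := by rw [pol_fp]; simp [h, Pi.single_apply]
  a'b' := by rw [pol_fp]; simp

theorem hc {n : ℕ} [Fintype F] [DecidableEq F] [OmCtx (plusQ n F)] {i j k l : Fin n} (hij : i ≠ j) (hik : i ≠ k) (hil : i ≠ l) (hjk : j ≠ k) (hjl : j ≠ l) (hkl : k ≠ l) :
    Cplx (plusQ n F) (ep i) (fp i) (ep j) (fp j) (ep k) (fp k) (ep l + fp l) where
  hu := by
    refine mem_Vpp.2 ⟨?_, ?_, ?_, ?_⟩
    · rw [pol_ep]; simp
    · rw [pol_fp]; simp [hik]
    · rw [pol_ep]; simp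
    · rw [pol_fp]; simp [hjk]
  hu' := by
    refine mem_Vpp.2 ⟨?_, ?_, ?_, ?_⟩
    · rw [pol_ep]; simp [hik]
    · rw [pol_fp]; simp
    · rw [pol_ep]; simp [hjk]
    · rw [pol_fp]; simp
  hy := by
    refine mem_Vpp.2 ⟨?_, ?_, ?_, ?_⟩
    · rw [pol_ep]; simp [hil]
    · rw [pol_fp]; simp [hil]
    · rw [pol_ep]; simp [hjl]
    · rw [pol_fp]; simp [hjl]
  Qu := Q_ep k
  Qu' := Q_fp k
  uu' := by rw [pol_ep]; simp
  uy := by rw [pol_ep]; simp [hkl]
  u'y := by rw [pol_fp]; simp [hkl]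
  Qy := by
    rw [plusQ_apply]
    have : quadFormPlus n F (ep l + fp l) = 1 := by
      simp [quadFormPlus, Pi.single_apply]
    rw [this]
    exact one_ne_zero

theorem ctx (n : ℕ) (hn : 4 ≤ n) : OmCtx (plusQ n F) where
  hQ := by
    have : plusQ n F = plusForm n F := DFunLike.coe_injective (by rw [coe_plusQ, coe_plusForm])
    rw [this]
    exact plusForm_nondegenerate n
  hn := by
    simp
    omega

end Model

/-- The arithmetic of the large case. -/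
theorem arith_large (q t : ℕ) (hq : 4 ≤ q) (ht : q ^ 2 ≤ t) :
    (q ^ 2 * t - 1) * (q * t + q) ≤ (q ^ 2 - 1) * (2 * ((q - 1) * t ^ 2)) := by
  obtain ⟨s, rfl⟩ : ∃ s, q = s + 4 := ⟨q - 4, by omega⟩
  have ht3 : 3 ≤ t := by nlinarith
  obtain ⟨v, rfl⟩ : ∃ v, t = v + 3 := ⟨t - 3, by omega⟩
  have e1 : (s + 4) ^ 2 - 1 = s ^ 2 + 8 * s + 15 := by
    have : (s + 4) ^ 2 = s ^ 2 + 8 * s + 15 + 1 := by ring
    omega
  have e2 : s + 4 - 1 = s + 3 := by omega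
  rw [e1, e2]
  have key : (s + 4) ^ 3 * (v + 3) + (s + 4) ^ 3 ≤ 2 * (s ^ 2 + 8 * s + 15) * (s + 3) * (v + 3) := by
    nlinarith [Nat.zero_le (s ^ 3 * v), Nat.zero_le (s ^ 2 * v), Nat.zero_le (s * v), Nat.zero_le v,
      Nat.zero_le (s ^ 3), Nat.zero_le (s ^ 2), Nat.zero_le s]
  calc _ ≤ (s + 4) ^ 2 * (v + 3) * ((s + 4) * (v + 3) + (s + 4)) :=
        Nat.mul_le_mul_right _ (Nat.sub_le _ _)
    _ = (v + 3) * ((s + 4) ^ 3 * (v + 3) + (s + 4) ^ 3) := by ring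
    _ ≤ (v + 3) * (2 * (s ^ 2 + 8 * s + 15) * (s + 3) * (v + 3)) := Nat.mul_le_mul_left _ key
    _ = _ := by ring

/-- The arithmetic of the main case. -/
theorem arith_main {q t D : ℂ} (h0 : q ^ 2 * t ^ 2 - 1 ≠ 0) {A : ℂ} (hA : q * A = t ^ 2 + (q - 1) * t)
    (h : D * (q ^ 2 - 1) * (q ^ 2 * t ^ 2 - 1) =
      q * ((q ^ 2 - 1) * q * t ^ 2 + q ^ 2 * A - 1) * ((q - 1) * t ^ 2 + q * A - 1)) :
    D * (q ^ 2 - 1) = (q ^ 2 * t - 1) * (q * t + q) := by
  apply mul_right_cancel₀ h0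
  rw [h]
  rw [hA]
  have e : q ^ 2 * A = q * (t ^ 2 + (q - 1) * t) := by
    rw [← hA]
    ring
  rw [e]
  ring


/-- For a finite field F with q > 3 elements and n ≥ 4, every irreducible complex representation of degree at least 2 of Ω⁺_{2n}(F) (the commutator subgroup of the isometry group of the hyperbolic quadratic form x₁y₁ + ⋯ + x_ny_n) has degree at least (q^n − 1)(q^{n−1} + q)/(q² − 1). -/
theorem result {F : Type*} [Field F] [Fintype F] (n : ℕ) (hn : 4 ≤ n) (h3 : 3 < Fintype.card F) :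
    (∀ (k : ℕ) (ρ : Representation ℂ (Cfsg.Omega F (Cfsg.quadFormPlus n F)) (Fin k → ℂ)), ρ.IsIrreducible → 2 ≤ k → (Fintype.card F ^ n - 1) * (Fintype.card F ^ (n - 1) + Fintype.card F) / (Fintype.card F ^ 2 - 1) ≤ k) := by
  intro k ρ hρ hk
  classical
  obtain ⟨μ, hμ0, hμ⟩ := exists_mu h3
  obtain ⟨ψ, hψ⟩ : ∃ ψ : AddChar F ℂ, ψ 1 ≠ 1 := AddChar.exists_apply_ne_zero.mpr one_ne_zero
  obtain ⟨r, rfl⟩ : ∃ r, n = r + 2 := ⟨n - 2, by omega⟩
  haveI : OmCtx (plusQ (r + 2) F) := ctx (r + 2) hn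
  let i0 : Fin (r + 2) := ⟨0, by omega⟩
  let i1 : Fin (r + 2) := ⟨1, by omega⟩
  let i2 : Fin (r + 2) := ⟨2, by omega⟩
  let i3 : Fin (r + 2) := ⟨3, by omega⟩
  have hF : HF (plusQ (r + 2) F) (ep i0) (fp i0) (ep i1) (fp i1) := hf (by simp [i0, i1])
  have hC : Cplx (plusQ (r + 2) F) (ep i0) (fp i0) (ep i1) (fp i1) (ep i2) (fp i2) (ep i3 + fp i3) :=
    hc (by simp [i0, i1]) (by simp [i0, i2, Fin.ext_iff]) (by simp [i0, i3, Fin.ext_iff])
      (by simp [i1, i2, Fin.ext_iff]) (by simp [i1, i3, Fin.ext_iff]) (by simp [i2, i3, Fin.ext_iff])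
  have h := main_alt (ρ := ρ) (ψ := ψ) (μ := μ) hF hC hψ hμ0 hμ
    (Cfsg.Agent.Lib.MinDeg.Weights.exists_ne_one_of_irreducible hρ hk) (schur_fin' hρ hk)
  rw [Module.finrank_fin_fun] at h
  have hM := card_Vpp_eq hF (N := 2 * r) (by simp; omega)
  have hZ := singular_count hF
  have hZ' := ZZ_plus (F := F) (r + 2)
  rw [hM] at h hZ
  set q := Fintype.card F with hq
  have h4 : 4 ≤ q := h3
  have hqC : (q : ℂ) ≠ 0 := by
    have : q ≠ 0 := by omega
    exact_mod_cast this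
  set A : ℂ := ((AA (plusQ (r + 2) F) (ep i0) (fp i0) (ep i1) (fp i1) : ℕ) : ℂ) with hA
  have hZ0 : ZZ (⇑(plusQ (r + 2) F)) = ZZ (quadFormPlus (r + 2) F) := rfl
  rw [hZ0] at hZ
  have hqA : (q : ℂ) * A = ((q ^ r : ℕ) : ℂ) ^ 2 + ((q : ℂ) - 1) * ((q ^ r : ℕ) : ℂ) := by
    have e1 : (q : ℂ) ^ 2 * ((q : ℂ) * A) = (q : ℂ) ^ 2 * (((q ^ r : ℕ) : ℂ) ^ 2 + ((q : ℂ) - 1) * ((q ^ r : ℕ) : ℂ)) := by
      rw [hZ] at hZ'
      push_cast at hZ' ⊢
      ring_nf at hZ' ⊢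
      linear_combination hZ'
    exact mul_left_cancel₀ (pow_ne_zero 2 hqC) e1
  have hr : 2 ≤ r := by omega
  have ht : q ^ 2 ≤ q ^ r := Nat.pow_le_pow_right (by omega) hr
  have e1 : q ^ (r + 2) = q ^ 2 * q ^ r := by ring
  have e2 : q ^ (r + 2 - 1) = q * q ^ r := by
    rw [show r + 2 - 1 = r + 1 by omega]
    ring
  have e3 : q ^ (2 * r) = (q ^ r) ^ 2 := by
    rw [mul_comm, pow_mul]
  rw [e1, e2]
  rw [e3] at h
  set t := q ^ r with ht'
  have ht0 : (t : ℂ) ≠ 0 := by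
    have : t ≠ 0 := by
      have : 0 < q ^ 2 := by positivity
      omega
    exact_mod_cast this
  have hq1 : 1 ≤ q ^ 2 * t := by
    have : 0 < q ^ 2 := by positivity
    nlinarith
  have hq2 : 1 ≤ q ^ 2 := by
    have : 0 < q ^ 2 := by positivity
    omega
  apply Nat.div_le_of_le_mul
  rcases h with h | ⟨α, -, -, h⟩ | ⟨h1, -⟩
  · exact (arith_large q t h4 ht).trans (Nat.mul_le_mul_left _ h)
  · rw [Nat.cast_pow t 2] at h
    have hne : (q : ℂ) ^ 2 * (t : ℂ) ^ 2 - 1 ≠ 0 := by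
      intro h5
      have h6 : ((q ^ 2 * t ^ 2 : ℕ) : ℂ) = ((1 : ℕ) : ℂ) := by
        push_cast
        linear_combination h5
      have h7 := Nat.cast_injective h6
      have h8 : 1 ≤ t := by
        by_contra hc
        apply ht0
        have : t = 0 := by omega
        simp [this]
      nlinarith
    have h5 := arith_main hne hqA h
    have h6 : (((q ^ 2 - 1) * k : ℕ) : ℂ) = (((q ^ 2 * t - 1) * (q * t + q) : ℕ) : ℂ) := by
      push_cast [Nat.cast_sub hq1, Nat.cast_sub hq2]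
      linear_combination h5
    exact (Nat.cast_injective h6).ge
  · exfalso
    rw [Nat.cast_pow t 2] at h1
    have h5 : ((q : ℂ) - 1) * (t : ℂ) = 0 := by
      linear_combination -hqA - h1
    rcases mul_eq_zero.1 h5 with h6 | h6
    · have h7 : (q : ℂ) = ((1 : ℕ) : ℂ) := by
        push_cast
        linear_combination h6
      have h8 := Nat.cast_injective h7
      omega
    · exact ht0 h6

end Cfsg.Agent.S2345
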