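import Cfsg.Statements.S2346
import Mathlib
import Cfsg.Agent.Lib.MinDeg.Omega.MinusModel
import Cfsg.Agent.Lib.MinDeg.Weights

set_option autoImplicit false
open Cfsg

namespace Cfsg.Agent.S2346

open Cfsg.Agent.Lib.MinDeg.Omega Cfsg.Agent.Lib.MinDeg.Omega.MinusM Cfsg.Agent.Lib.Classical.Orth.Models
open Cfsg.Agent.Lib.Linalg.OrthModels QuadraticMap Cfsg.Agent.Lib.Classical.Orth.Basic Module

/-- The target number. -/
abbrev BB (q t : ℕ) : ℕ := (q ^ 2 * t + 1) * (q * t - q)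

/-- The arithmetic of the large case. -/
theorem arith_large (q t : ℕ) (hq : 4 ≤ q) :
    BB q t ≤ (q ^ 2 - 1) * (2 * ((q - 1) * t ^ 2)) := by
  obtain ⟨s, rfl⟩ : ∃ s, q = s + 4 := ⟨q - 4, by omega⟩
  have e1 : (s + 4) ^ 2 - 1 = s ^ 2 + 8 * s + 15 := by
    have : (s + 4) ^ 2 = s ^ 2 + 8 * s + 15 + 1 := by ring
    omega
  have e2 : s + 4 - 1 = s + 3 := by omega
  rw [e1, e2]
  rcases Nat.eq_zero_or_pos t with rfl | ht
  · simp [BB]
  obtain ⟨v, rfl⟩ : ∃ v, t = v + 1 := ⟨t - 1, by omega⟩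
  have e3 : (s + 4) * (v + 1) - (s + 4) = (s + 4) * v := by
    have : (s + 4) * (v + 1) = (s + 4) * v + (s + 4) := by ring
    omega
  simp only [BB]
  rw [e3]
  nlinarith [Nat.zero_le (s ^ 3 * v), Nat.zero_le (s ^ 2 * v), Nat.zero_le (s * v), Nat.zero_le v,
    Nat.zero_le (s ^ 3 * v ^ 2), Nat.zero_le (s ^ 2 * v ^ 2), Nat.zero_le (s * v ^ 2), Nat.zero_le (v ^ 2),
    Nat.zero_le (s ^ 3), Nat.zero_le (s ^ 2), Nat.zero_le s]

/-- The arithmetic of the main case. -/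
theorem arith_main {q t D A : ℂ} (h0 : q ^ 2 * t ^ 2 - 1 ≠ 0) (hA : q * A = t ^ 2 - (q - 1) * t)
    (h : D * (q ^ 2 - 1) * (q ^ 2 * t ^ 2 - 1) =
      q * ((q ^ 2 - 1) * q * t ^ 2 + q ^ 2 * A - 1) * ((q - 1) * t ^ 2 + q * A - 1)) :
    D * (q ^ 2 - 1) = (q ^ 2 * t + 1) * (q * t - q) := by
  apply mul_right_cancel₀ h0
  rw [h, hA]
  have e : q ^ 2 * A = q * (t ^ 2 - (q - 1) * t) := by
    rw [← hA]
    ring
  rw [e]
  ring

/-- The arithmetic for two weights. -/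
theorem arith_two {q t W : ℕ} (hq : q = 2 ∨ q = 3) (ht : 1 ≤ t) (hW : W + 1 + (q - 1) * t = q * t ^ 2) :
    BB q t ≤ (q ^ 2 - 1) * (2 * W) := by
  obtain ⟨s, rfl⟩ : ∃ s, t = s + 1 := ⟨t - 1, by omega⟩
  have e : (s + 1) ^ 2 = s ^ 2 + 2 * s + 1 := by ring
  rw [e] at hW
  simp only [BB]
  rcases hq with rfl | rfl
  · have e3 : 2 * (s + 1) - 2 = 2 * s := by omega
    have hW' : W = 2 * s ^ 2 + 3 * s := by omega
    rw [e3, hW']
    norm_num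
    nlinarith [Nat.zero_le s, Nat.zero_le (s ^ 2)]
  · have e3 : 3 * (s + 1) - 3 = 3 * s := by omega
    have hW' : W = 3 * s ^ 2 + 4 * s := by omega
    rw [e3, hW']
    norm_num
    nlinarith [Nat.zero_le s, Nat.zero_le (s ^ 2)]

/-- The arithmetic for one weight in the base case. -/
theorem arith_base {q W k m₀ : ℕ} (hq : q = 2 ∨ q = 3) (hW : W = q * (q ^ 2) ^ 2 + q ^ 2) (hk : k = m₀ + W) :
    BB q (q ^ 2) ≤ (q ^ 2 - 1) * k := by
  subst hk hW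
  rcases hq with rfl | rfl
  · norm_num [BB]
    omega
  · norm_num [BB]
    omega

/-- The arithmetic of the inductive step. -/
theorem arith_step {q t' W k m₀ : ℕ} (hq : q = 2 ∨ q = 3) (ht : q ≤ t') (hm : BB q t' ≤ (q ^ 2 - 1) * m₀)
    (hW : W = q * (q * t') ^ 2 + q * t') (hk : k = m₀ + W) :
    BB q (q * t') ≤ (q ^ 2 - 1) * k := by
  subst hk hW
  simp only [BB] at hm ⊢
  rcases hq with rfl | rfl
  · obtain ⟨s, rfl⟩ : ∃ s, t' = s + 2 := ⟨t' - 2, by omega⟩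
    have e1 : 2 * (s + 2) - 2 = 2 * s + 2 := by omega
    have e2 : 2 * (2 * (s + 2)) - 2 = 4 * s + 6 := by omega
    rw [e1] at hm
    rw [e2]
    norm_num at hm ⊢
    nlinarith [Nat.zero_le s, Nat.zero_le (s ^ 2)]
  · obtain ⟨s, rfl⟩ : ∃ s, t' = s + 3 := ⟨t' - 3, by omega⟩
    have e1 : 3 * (s + 3) - 3 = 3 * s + 6 := by omega
    have e2 : 3 * (3 * (s + 3)) - 3 = 9 * s + 24 := by omega
    rw [e1] at hm
    rw [e2]
    norm_num at hm ⊢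
    nlinarith [Nat.zero_le s, Nat.zero_le (s ^ 2)]

/-- The bound in the first case of the main alternative. -/
theorem typeI_bound {q t k : ℕ} {A : ℂ} (hq : 2 ≤ q) (ht : 1 ≤ t) (hqA : (q : ℂ) * A = (t : ℂ) ^ 2 - ((q : ℂ) - 1) * t)
    (h : (k : ℂ) * ((q : ℂ) ^ 2 - 1) * ((q : ℂ) ^ 2 * ((t ^ 2 : ℕ) : ℂ) - 1) =
      (q : ℂ) * (((q : ℂ) ^ 2 - 1) * (q : ℂ) * ((t ^ 2 : ℕ) : ℂ) + (q : ℂ) ^ 2 * A - 1) *
        (((q : ℂ) - 1) * ((t ^ 2 : ℕ) : ℂ) + (q : ℂ) * A - 1)) :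
    BB q t ≤ (q ^ 2 - 1) * k := by
  rw [Nat.cast_pow t 2] at h
  have hne : (q : ℂ) ^ 2 * (t : ℂ) ^ 2 - 1 ≠ 0 := by
    intro h5
    have h6 : ((q ^ 2 * t ^ 2 : ℕ) : ℂ) = ((1 : ℕ) : ℂ) := by
      push_cast
      linear_combination h5
    have h7 := Nat.cast_injective h6
    have h8 : 4 ≤ q ^ 2 := by nlinarith
    have h9 : 1 ≤ t ^ 2 := Nat.one_le_pow _ _ ht
    nlinarith
  have h5 := arith_main hne hqA h
  have hq1 : q ≤ q * t := Nat.le_mul_of_pos_right _ ht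
  have hq2 : 1 ≤ q ^ 2 := by
    have : 0 < q ^ 2 := by positivity
    omega
  have h6 : (((q ^ 2 - 1) * k : ℕ) : ℂ) = ((BB q t : ℕ) : ℂ) := by
    simp only [BB]
    push_cast [Nat.cast_sub hq1, Nat.cast_sub hq2]
    linear_combination h5
  exact (Nat.cast_injective h6).ge

/-- The second case of the main alternative does not occur. -/
theorem typeII_false {q t : ℕ} {A : ℂ} (hq : 2 ≤ q) (ht : 1 ≤ t) (hqA : (q : ℂ) * A = (t : ℂ) ^ 2 - ((q : ℂ) - 1) * t)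
    (h1 : ((t ^ 2 : ℕ) : ℂ) = (q : ℂ) * A) : False := by
  rw [Nat.cast_pow t 2] at h1
  have h5 : ((q : ℂ) - 1) * (t : ℂ) = 0 := by
    linear_combination hqA + h1
  rcases mul_eq_zero.1 h5 with h6 | h6
  · have h7 : (q : ℂ) = ((1 : ℕ) : ℂ) := by
      push_cast
      linear_combination h6
    have h8 := Nat.cast_injective h7
    omega
  · have h7 : t = 0 := by exact_mod_cast h6
    omega

universe u

section Core

variable {F : Type u} [Field F] [Fintype F] [DecidableEq F] {a b : F}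

/-- Indices. -/
abbrev i0 (r : ℕ) : Fin (r + 3) := ⟨0, by omega⟩
/-- Indices. -/
abbrev i1 (r : ℕ) : Fin (r + 3) := ⟨1, by omega⟩
/-- Indices. -/
abbrev i2 (r : ℕ) : Fin (r + 3) := ⟨2, by omega⟩

theorem h01 (r : ℕ) : i0 r ≠ i1 r := by simp [Fin.ext_iff]
theorem h02 (r : ℕ) : i0 r ≠ i2 r := by simp [Fin.ext_iff]
theorem h12 (r : ℕ) : i1 r ≠ i2 r := by simp [Fin.ext_iff]

/-- **The large fields.** -/
theorem large_core (h3 : 3 < Fintype.card F)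
    (hab : ∀ z₁ z₂ : F, z₁ ^ 2 + a * z₁ * z₂ + b * z₂ ^ 2 = 0 → z₁ = 0 ∧ z₂ = 0) {r : ℕ}
    [OmCtx (minusQ (r + 3) F a b)] {k : ℕ}
    (ρ : Representation ℂ (Om (minusQ (r + 3) F a b)) (Fin k → ℂ)) (hρ : ρ.IsIrreducible) (hk : 2 ≤ k) :
    BB (Fintype.card F) (Fintype.card F ^ (r + 2)) ≤ (Fintype.card F ^ 2 - 1) * k := by
  obtain ⟨μ, hμ0, hμ⟩ := exists_mu h3
  obtain ⟨ψ, hψ⟩ : ∃ ψ : AddChar F ℂ, ψ 1 ≠ 1 := AddChar.exists_apply_ne_zero.mpr one_ne_zero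
  have h := main_alt (ρ := ρ) (ψ := ψ) (μ := μ) (hf (a := a) (b := b) (h01 r))
    (hc (h01 r) (h02 r) (h12 r)) hψ hμ0 hμ
    (Cfsg.Agent.Lib.MinDeg.Weights.exists_ne_one_of_irreducible hρ hk) (schur_fin' hρ hk)
  rw [Module.finrank_fin_fun] at h
  have hM := card_VppM (F := F) (a := a) (b := b) (r := r + 1) (i := i0 r) (j := i1 r) (h01 r)
  rw [hM] at h
  have hA := AA_value (r := r + 1) hab (i := i0 r) (j := i1 r) (h01 r)
  have hq2 : 2 ≤ Fintype.card F := by omega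
  have ht : 1 ≤ Fintype.card F ^ (r + 2) := Nat.one_le_pow _ _ (by omega)
  rcases h with h | ⟨α, -, -, h⟩ | ⟨h1, -⟩
  · exact (arith_large _ _ (by omega)).trans (Nat.mul_le_mul_left _ h)
  · exact typeI_bound hq2 ht hA h
  · exact (typeII_false hq2 ht hA h1).elim

/-- **The small fields**: the reduction to the representations with one anisotropic weight. -/
theorem small_core (h3 : ¬3 < Fintype.card F)
    (hab : ∀ z₁ z₂ : F, z₁ ^ 2 + a * z₁ * z₂ + b * z₂ ^ 2 = 0 → z₁ = 0 ∧ z₂ = 0) {r : ℕ}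
    [OmCtx (minusQ (r + 3) F a b)] {k : ℕ}
    (ρ : Representation ℂ (Om (minusQ (r + 3) F a b)) (Fin k → ℂ)) (hρ : ρ.IsIrreducible) (hk : 2 ≤ k)
    (hTN : ∀ ψ : AddChar F ℂ, ψ 1 ≠ 1 → ∀ c₀ : F, c₀ ≠ 0 →
      nn ρ ψ (ep (i0 r)) (ep (i1 r) + c₀ • fp (i1 r)) = 1 →
      (∀ c : F, c ≠ c₀ → nn ρ ψ (ep (i0 r)) (ep (i1 r) + c • fp (i1 r)) = 0) →
      k = nn ρ ψ (ep (i0 r)) 0 + WW (minusQ (r + 3) F a b) (ep (i0 r)) (fp (i0 r)) (ep (i1 r)) (fp (i1 r)) c₀ →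
      BB (Fintype.card F) (Fintype.card F ^ (r + 2)) ≤ (Fintype.card F ^ 2 - 1) * k) :
    BB (Fintype.card F) (Fintype.card F ^ (r + 2)) ≤ (Fintype.card F ^ 2 - 1) * k := by
  obtain ⟨ψ, hψ⟩ : ∃ ψ : AddChar F ℂ, ψ 1 ≠ 1 := AddChar.exists_apply_ne_zero.mpr one_ne_zero
  have D := smData (F := F) (a := a) (b := b) (m := r + 3) h3 hab (h01 r) (h02 r) (h12 r)
  have hW0 := WW_zero (r := r + 1) hab (i := i0 r) (j := i1 r) (h01 r)
  have hWc := fun {c : F} (hc : c ≠ 0) => WW_ne (r := r + 1) h3 hab (i := i0 r) (j := i1 r) (h01 r) hc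
  have hW : ∀ c : F, c ≠ 0 → WW (minusQ (r + 3) F a b) (ep (i0 r)) (fp (i0 r)) (ep (i1 r)) (fp (i1 r)) 0 ≤
      WW (minusQ (r + 3) F a b) (ep (i0 r)) (fp (i0 r)) (ep (i1 r)) (fp (i1 r)) c := by
    intro c hc
    rw [hWc hc]
    have : WW (minusQ (r + 3) F a b) (ep (i0 r)) (fp (i0 r)) (ep (i1 r)) (fp (i1 r)) 0 ≤ _ := (Nat.le_add_right _ _).trans
      ((Nat.le_add_right _ _).trans hW0.le)
    exact this.trans (Nat.le_add_right _ _)
  have h := small_cases (ρ := ρ) (ψ := ψ) D hψ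
    (Cfsg.Agent.Lib.MinDeg.Weights.exists_ne_one_of_irreducible hρ hk) (schur_fin' hρ hk) hW
  rw [Module.finrank_fin_fun] at h
  have hM := card_VppM (F := F) (a := a) (b := b) (r := r + 1) (i := i0 r) (j := i1 r) (h01 r)
  rw [hM] at h
  have hA := AA_value (r := r + 1) hab (i := i0 r) (j := i1 r) (h01 r)
  have hq2 : 2 ≤ Fintype.card F := Fintype.one_lt_card
  have ht : 1 ≤ Fintype.card F ^ (r + 2) := Nat.one_le_pow _ _ (by omega)
  have hq : Fintype.card F = 2 ∨ Fintype.card F = 3 := card_cases h3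
  rcases h with h | ⟨α, -, -, h⟩ | ⟨h1, -⟩ | ⟨c₀, hc₀, h1, h2, h4⟩
  · exact (arith_two hq ht hW0).trans (Nat.mul_le_mul_left _ h)
  · exact typeI_bound hq2 ht hA h
  · exact (typeII_false hq2 ht hA h1).elim
  · exact hTN ψ hψ c₀ hc₀ h1 h2 h4

/-- The case `n = 4` of the representations with one anisotropic weight. -/
theorem typeN_base (h3 : ¬3 < Fintype.card F)
    (hab : ∀ z₁ z₂ : F, z₁ ^ 2 + a * z₁ * z₂ + b * z₂ ^ 2 = 0 → z₁ = 0 ∧ z₂ = 0)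
    [OmCtx (minusQ 3 F a b)] {k m₀ : ℕ} {c₀ : F} (hc₀ : c₀ ≠ 0)
    (hk : k = m₀ + WW (minusQ 3 F a b) (ep (i0 0)) (fp (i0 0)) (ep (i1 0)) (fp (i1 0)) c₀) :
    BB (Fintype.card F) (Fintype.card F ^ 2) ≤ (Fintype.card F ^ 2 - 1) * k := by
  have hW := WW_ne (r := 1) h3 hab (i := i0 0) (j := i1 0) (h01 0) hc₀
  exact arith_base (card_cases h3) hW hk

theorem E_ep {m : ℕ} (j : Fin m) : consMinusF F m (0, 0, ep j) = ep j.succ := by
  funext s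
  rcases s with (l | l) | z
  · refine Fin.cases ?_ (fun p => ?_) l
    · simp [consMinusF, Pi.single_apply, (Fin.succ_ne_zero _).symm]
    · simp [consMinusF, Pi.single_apply]
  · refine Fin.cases ?_ (fun p => ?_) l
    · simp [consMinusF, Pi.single_apply]
    · simp [consMinusF, Pi.single_apply]
  · simp [consMinusF, Pi.single_apply]

theorem E_fp {m : ℕ} (j : Fin m) : consMinusF F m (0, 0, fp j) = fp j.succ := by
  funext s
  rcases s with (l | l) | z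
  · refine Fin.cases ?_ (fun p => ?_) l
    · simp [consMinusF, Pi.single_apply]
    · simp [consMinusF, Pi.single_apply]
  · refine Fin.cases ?_ (fun p => ?_) l
    · simp [consMinusF, Pi.single_apply, (Fin.succ_ne_zero _).symm]
    · simp [consMinusF, Pi.single_apply]
  · simp [consMinusF, Pi.single_apply]

theorem E_x0 {m : ℕ} : consMinusF F m (1, 0, 0) = ep (0 : Fin (m + 1)) := by
  funext s
  rcases s with (l | l) | z
  · refine Fin.cases ?_ (fun p => ?_) l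
    · simp [consMinusF, Pi.single_apply]
    · simp [consMinusF, Pi.single_apply, (Fin.succ_ne_zero _)]
  · refine Fin.cases ?_ (fun p => ?_) l
    · simp [consMinusF, Pi.single_apply]
    · simp [consMinusF, Pi.single_apply]
  · simp [consMinusF, Pi.single_apply]

/-- The abstract form of the nontriviality. -/
theorem typeN_abs {ι : Type} [Fintype ι] [DecidableEq ι] {Q : QuadraticForm F (ι → F)} [OmCtx Q]
    {U : Type*} [AddCommGroup U] [Module ℂ U] [FiniteDimensional ℂ U] {ρ : Om Q →* Module.End ℂ U}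
    {ψ : AddChar F ℂ} (hψ : ψ 1 ≠ 1) {x₀ x e f u₀ u₀' y₀ : ι → F} (hF : HF Q x₀ x e f)
    (hC : Cplx Q x₀ x e f u₀ u₀' y₀) {c₀ : F} (hc₀ : c₀ ≠ 0) (h1 : nn ρ ψ x₀ (e + c₀ • f) = 1)
    (h2 : ∀ c : F, c ≠ c₀ → nn ρ ψ x₀ (e + c • f) = 0) {z z' b' : ι → F}
    (hz : z ∈ Y0 Q x₀ x e f u₀ u₀') (hz' : z' ∈ Y0 Q x₀ x e f u₀ u₀') (hb' : b' ∈ Y0 Q x₀ x e f u₀ u₀')
    (hQz : Q z = 0) (hQz' : Q z' = 0) (hzz' : polar (⇑Q) z z' = 1) (hbb' : polar (⇑Q) y₀ b' = 1)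
    (hzb : polar (⇑Q) z y₀ = 0) (hzb' : polar (⇑Q) z b' = 0) (hz'b : polar (⇑Q) z' y₀ = 0)
    (hz'b' : polar (⇑Q) z' b' = 0) :
    LL ρ ψ x₀ 0 * ρ (tt Q f (c₀⁻¹ • u₀)) ≠ LL ρ ψ x₀ 0 := by
  have hw₀ : u₀ + c₀ • u₀' ∈ Vpp Q x₀ x e f := Submodule.add_mem _ hC.hu (Submodule.smul_mem _ _ hC.hu')
  have hQw₀ : Q (u₀ + c₀ • u₀') = c₀ := by
    rw [Q_add, Q_smul, hC.Qu, hC.Qu', polar_smul_right', hC.uu']
    ring
  have hw₀0 : u₀ + c₀ • u₀' ≠ 0 := by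
    intro h
    rw [h] at hQw₀
    apply hc₀
    rw [← hQw₀]
    simp
  have hn1 : nn ρ ψ x₀ (u₀ + c₀ • u₀') = 1 := by
    have h3 := nn_wt (ρ := ρ) (ψ := ψ) hF hC 0 0 hw₀ (Or.inr (Or.inr hw₀0))
    simp only [zero_smul, zero_add, zero_mul, hQw₀, h1] at h3
    exact h3
  have htr : LinearMap.trace ℂ U (LL ρ ψ x₀ (u₀ + c₀ • u₀')) = 1 := by
    rw [← nn_cast hF.Qa, hn1, Nat.cast_one]
  have hsing : ∀ β' : F, β' ≠ 0 → LL ρ ψ x₀ (β' • f) = 0 := by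
    intro β' hβ'
    apply nn_zero_iff hF.Qa
    have h3 := nn_wt (ρ := ρ) (ψ := ψ) hF hC (0 : F) β' (Submodule.zero_mem _) (Or.inr (Or.inl hβ'))
    have e1 : (0 : F) * β' + Q 0 = 0 := by simp
    rw [e1, h2 0 hc₀.symm] at h3
    simpa using h3
  have hyY : ∀ {y : ι → F}, y ∈ Y0 Q x₀ x e f u₀ u₀' → polar (⇑Q) (u₀ + c₀ • u₀') y = 0 := by
    intro y hy
    rw [polar_add_left, polar_smul_left', hy.1.2.2.1, hy.1.2.2.2]
    ring
  have hφ : ∀ {y : ι → F}, y ∈ Vpp Q x₀ x e f → polar (⇑Q) (u₀ + c₀ • u₀') y = 0 →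
      ff ρ ψ x₀ (u₀ + c₀ • u₀') (tt Q f y) = 1 := by
    intro y hy hy0
    have hmem : ∀ {v : ι → F}, v ∈ Y0 Q x₀ x e f u₀ u₀' →
        v ∈ Vpp Q x₀ x (u₀ + c₀ • u₀') (u₀ + c₀ • u₀') ⊓ Vpp Q x₀ x e f := fun {v} hv =>
      ⟨⟨hv.2.1, hv.2.2.1, hyY hv, hyY hv⟩, hv.2⟩
    refine char_triv hF.Qa htr (a := f) (z := z) (z' := z') (b := y₀) (b' := b')
      (Vpp Q x₀ x (u₀ + c₀ • u₀') (u₀ + c₀ • u₀') ⊓ Vpp Q x₀ x e f) hF.Qb' hF.b'a ?_ ?_
      (hmem hz) (hmem hz') (hmem (mem_Y0 hC.hy hC.uy hC.u'y)) (hmem hb') hQz hQz' hzz' hbb' hzb hzb' hz'b hz'b'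
      ⟨⟨hy.1, hy.2.1, hy0, hy0⟩, hy⟩
    · rw [polar_comm]
      exact (frame_perp hF hw₀).2.2.2
    · intro v hv
      have h3 := frame_perp hF hv.2
      refine ⟨h3.1, ?_, h3.2.2.2⟩
      rw [polar_comm]
      exact hv.1.2.2.1
  have hy₁ : c₀⁻¹ • u₀ ∈ Vpp Q x₀ x e f := Submodule.smul_mem _ _ hC.hu
  have hy₁1 : polar (⇑Q) (u₀ + c₀ • u₀') (c₀⁻¹ • u₀) = 1 := by
    rw [polar_smul_right', polar_add_left, polar_smul_left', polar_self_of hC.Qu, polar_comm _ u₀' u₀, hC.uu']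
    field_simp
    ring
  exact typeN_nontrivial hF hψ hw₀ hy₁ htr hsing hφ (by rw [hy₁1]; exact hψ)

/-- The inductive step for the representations with one anisotropic weight. -/
theorem typeN_step (h3 : ¬3 < Fintype.card F)
    (hab : ∀ z₁ z₂ : F, z₁ ^ 2 + a * z₁ * z₂ + b * z₂ ^ 2 = 0 → z₁ = 0 ∧ z₂ = 0) {r : ℕ}
    [OmCtx (minusQ (r + 3) F a b)] [OmCtx (minusQ (r + 1 + 3) F a b)]
    (IH : ∀ (k' : ℕ) (ρ' : Representation ℂ (Om (minusQ (r + 3) F a b)) (Fin k' → ℂ)), ρ'.IsIrreducible → 2 ≤ k' →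
      BB (Fintype.card F) (Fintype.card F ^ (r + 2)) ≤ (Fintype.card F ^ 2 - 1) * k')
    {k : ℕ} (ρ : Representation ℂ (Om (minusQ (r + 1 + 3) F a b)) (Fin k → ℂ)) (ψ : AddChar F ℂ) (hψ : ψ 1 ≠ 1)
    (c₀ : F) (hc₀ : c₀ ≠ 0)
    (h1 : nn ρ ψ (ep (i0 (r + 1))) (ep (i1 (r + 1)) + c₀ • fp (i1 (r + 1))) = 1)
    (h2 : ∀ c : F, c ≠ c₀ → nn ρ ψ (ep (i0 (r + 1))) (ep (i1 (r + 1)) + c • fp (i1 (r + 1))) = 0)
    (hk : k = nn ρ ψ (ep (i0 (r + 1))) 0 +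
      WW (minusQ (r + 1 + 3) F a b) (ep (i0 (r + 1))) (fp (i0 (r + 1))) (ep (i1 (r + 1))) (fp (i1 (r + 1))) c₀) :
    BB (Fintype.card F) (Fintype.card F ^ (r + 1 + 2)) ≤ (Fintype.card F ^ 2 - 1) * k := by
  have hF := hf (a := a) (b := b) (h01 (r + 1))
  have hC := hc (F := F) (a := a) (b := b) (h01 (r + 1)) (h02 (r + 1)) (h12 (r + 1))
  let i3' : Fin (r + 1 + 3) := ⟨3, by omega⟩
  obtain ⟨y', hy', hy'1⟩ := exists_plane_partner (F := F) (a := a) (b := b) (m := r + 1 + 3) h3 hab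
  have hne := typeN_abs (ρ := ρ) hψ hF hC hc₀ h1 h2 (z := ep i3') (z' := fp i3') (b' := y')
    (mem_Y0M.2 (by simp [Pi.single_apply, Fin.ext_iff, i3']))
    (mem_Y0M.2 (by simp [Pi.single_apply, Fin.ext_iff, i3']))
    (plane_mem hy') (Q_ep _) (Q_fp _) (by rw [pol_ep]; simp) hy'1
    (by rw [pol_ep]; simp) (by rw [pol_ep]; exact hy' _) (by rw [pol_fp]; simp) (by rw [pol_fp]; exact hy' _)
  -- the restriction
  let E := consMinusF F (r + 3)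
  have hE : ∀ t, minusQ (r + 1 + 3) F a b (E t) = t.1 * t.2.1 + minusQ (r + 3) F a b t.2.2 :=
    fun t => quadFormMinus_consMinusF (r + 3) a b t
  let φ : Om (minusQ (r + 3) F a b) →* Om (minusQ (r + 1 + 3) F a b) := extOm E hE
  let σ : Representation ℂ (Om (minusQ (r + 3) F a b)) (Fin k → ℂ) := ρ.comp φ
  have hfix : ∀ h, av (φ h) (ep (i0 (r + 1))) = ep (i0 (r + 1)) := by
    intro h
    have e1 : E (1, 0, 0) = ep (i0 (r + 1)) := E_x0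
    rw [← e1]
    have e2 := av_extOm E hE h (1, 0, 0)
    rw [e2]
    simp
  have hR : ∀ h, σ h * LL ρ ψ (ep (i0 (r + 1))) 0 = LL ρ ψ (ep (i0 (r + 1))) 0 * σ h := by
    intro h
    exact comm_of_fix hF.Qa (hfix h) (av_zero _)
  -- the element
  have hg₀ : Cfsg.Agent.Lib.MinDeg.Omega.tt (minusQ (r + 3) F a b) (fp (i0 r)) (c₀⁻¹ • ep (i1 r)) ∈
      commutator (Om (minusQ (r + 3) F a b)) := by
    refine tt_comm_mem (z := ep (i2 r)) (z' := -fp (i2 r)) (by rw [Q_smul, Q_ep, mul_zero]) (Q_fp _) ?_ ?_ ?_ ?_ ?_ ?_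
    · rw [polar_smul_left', pol_ep]
      simp [Pi.single_apply]
    · rw [polar_smul_left', pol_ep]
      simp [Pi.single_apply]
    · rw [polar_smul_left', pol_ep]
      simp [Pi.single_apply, Fin.ext_iff]
    · rw [pol_fp]
      simp [Pi.single_apply, Fin.ext_iff]
    · rw [pol_fp]
      simp [Pi.single_apply]
    · rw [pol_ep]
      simp [Pi.single_apply]
  have hφg : φ (Cfsg.Agent.Lib.MinDeg.Omega.tt (minusQ (r + 3) F a b) (fp (i0 r)) (c₀⁻¹ • ep (i1 r))) =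
      Cfsg.Agent.Lib.MinDeg.Omega.tt (minusQ (r + 1 + 3) F a b) (fp (i1 (r + 1))) (c₀⁻¹ • ep (i2 (r + 1))) := by
    have e1 := extOm_tt E hE (a := fp (i0 r)) (b := c₀⁻¹ • ep (i1 r)) (Q_fp _) (by
      rw [polar_smul_right', pol_fp]
      simp [Pi.single_apply, Fin.ext_iff])
    have e2 : E (0, 0, fp (i0 r)) = fp (i1 (r + 1)) := E_fp _
    have e3 : E (0, 0, c₀⁻¹ • ep (i1 r)) = c₀⁻¹ • ep (i2 (r + 1)) := by
      have e4 : ((0 : F), (0 : F), c₀⁻¹ • (ep (i1 r) : (Fin (r + 3) ⊕ Fin (r + 3)) ⊕ Fin 2 → F)) =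
          c₀⁻¹ • ((0 : F), (0 : F), (ep (i1 r) : (Fin (r + 3) ⊕ Fin (r + 3)) ⊕ Fin 2 → F)) := by simp
      rw [e4, map_smul]
      congr 1
      exact E_ep _
    rw [e2, e3] at e1
    exact e1
  have hne' : LL ρ ψ (ep (i0 (r + 1))) 0 * σ (Cfsg.Agent.Lib.MinDeg.Omega.tt (minusQ (r + 3) F a b) (fp (i0 r)) (c₀⁻¹ • ep (i1 r))) ≠
      LL ρ ψ (ep (i0 (r + 1))) 0 := by
    have e1 : σ (Cfsg.Agent.Lib.MinDeg.Omega.tt (minusQ (r + 3) F a b) (fp (i0 r)) (c₀⁻¹ • ep (i1 r))) =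
        ρ (Cfsg.Agent.Lib.MinDeg.Omega.tt (minusQ (r + 1 + 3) F a b) (fp (i1 (r + 1))) (c₀⁻¹ • ep (i2 (r + 1)))) := by
      rw [← hφg]
      rfl
    rw [e1]
    exact hne
  obtain ⟨k', ρ', hirr, hk', hle⟩ := exists_irr_range σ _ hR hg₀ hne'
  have hm := IH k' ρ' hirr hk'
  have hle' : k' ≤ nn ρ ψ (ep (i0 (r + 1))) 0 := hle
  have hW := WW_ne (r := r + 2) h3 hab (i := i0 (r + 1)) (j := i1 (r + 1)) (h01 (r + 1)) hc₀
  have e5 : Fintype.card F ^ (r + 2 + 1) = Fintype.card F * Fintype.card F ^ (r + 2) := pow_succ' _ _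
  rw [e5] at hW
  have e6 : Fintype.card F ^ (r + 1 + 2) = Fintype.card F * Fintype.card F ^ (r + 2) := pow_succ' _ _
  rw [e6]
  refine arith_step (card_cases h3) ?_ (hm.trans (Nat.mul_le_mul_left _ hle')) hW hk
  exact le_self_pow₀ Fintype.card_pos (by omega)

/-- **The small fields.** -/
theorem minus_small (h3 : ¬3 < Fintype.card F)
    (hab : ∀ z₁ z₂ : F, z₁ ^ 2 + a * z₁ * z₂ + b * z₂ ^ 2 = 0 → z₁ = 0 ∧ z₂ = 0) (r : ℕ) :
    ∀ (k : ℕ) (ρ : Representation ℂ (Om (minusQ (r + 3) F a b)) (Fin k → ℂ)), ρ.IsIrreducible → 2 ≤ k →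
      BB (Fintype.card F) (Fintype.card F ^ (r + 2)) ≤ (Fintype.card F ^ 2 - 1) * k := by
  induction r with
  | zero =>
    intro k ρ hρ hk
    haveI : OmCtx (minusQ (0 + 3) F a b) := ctx (by omega) hab
    exact small_core h3 hab ρ hρ hk fun ψ hψ c₀ hc₀ h1 h2 h4 => typeN_base h3 hab hc₀ h4
  | succ r ih =>
    intro k ρ hρ hk
    haveI : OmCtx (minusQ (r + 3) F a b) := ctx (by omega) hab
    haveI : OmCtx (minusQ (r + 1 + 3) F a b) := ctx (by omega) hab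
    exact small_core h3 hab ρ hρ hk fun ψ hψ c₀ hc₀ h1 h2 h4 => typeN_step h3 hab ih ρ ψ hψ c₀ hc₀ h1 h2 h4

end Core

/-- For a finite field F with q elements, n ≥ 4, and a, b ∈ F with z₁² + a z₁z₂ + b z₂² anisotropic, every irreducible complex representation of degree at least 2 of Ω⁻_{2n}(F) (the commutator subgroup of the isometry group of x₁y₁ + ⋯ + x_{n−1}y_{n−1} + z₁² + a z₁z₂ + b z₂²) has degree at least (q^n + 1)(q^{n−1} − q)/(q² − 1). -/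
theorem result {F : Type*} [Field F] [Fintype F] (n : ℕ) (hn : 4 ≤ n) (a b : F) (hab : ∀ z₁ z₂ : F, z₁ ^ 2 + a * z₁ * z₂ + b * z₂ ^ 2 = 0 → z₁ = 0 ∧ z₂ = 0) :
    (∀ (k : ℕ) (ρ : Representation ℂ (Cfsg.Omega F (Cfsg.quadFormMinus (n - 1) F a b)) (Fin k → ℂ)), ρ.IsIrreducible → 2 ≤ k → (Fintype.card F ^ n + 1) * (Fintype.card F ^ (n - 1) - Fintype.card F) / (Fintype.card F ^ 2 - 1) ≤ k) := by
  intro k ρ hρ hk
  classical
  obtain ⟨r, rfl⟩ : ∃ r, n = r + 4 := ⟨n - 4, by omega⟩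
  have h : BB (Fintype.card F) (Fintype.card F ^ (r + 2)) ≤ (Fintype.card F ^ 2 - 1) * k := by
    by_cases h3 : 3 < Fintype.card F
    · haveI : OmCtx (minusQ (r + 3) F a b) := ctx (by omega) hab
      exact large_core h3 hab ρ hρ hk
    · exact minus_small h3 hab r k ρ hρ hk
  apply Nat.div_le_of_le_mul
  have e1 : Fintype.card F ^ (r + 4) = Fintype.card F ^ 2 * Fintype.card F ^ (r + 2) := by ring
  have e2 : Fintype.card F ^ (r + 4 - 1) = Fintype.card F * Fintype.card F ^ (r + 2) := by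
    rw [show r + 4 - 1 = r + 3 by omega]
    ring
  rw [e1, e2]
  exact h

end Cfsg.Agent.S2346
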