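import Cfsg.Statements.S2352
import Mathlib

set_option autoImplicit false
open Cfsg

namespace Cfsg.Agent.S2352

open Equiv Equiv.Perm

/-- A partial injection of a finite type extends to a permutation. -/
theorem exists_perm_extend {α : Type*} [Finite α] (f : α → α) (s : Set α) (hf : Set.InjOn f s) :
    ∃ σ : Perm α, ∀ x ∈ s, σ x = f x := by
  classical
  have := Fintype.ofFinite α
  let e : s ≃ f '' s := Equiv.Set.imageOfInjOn f s hf
  refine ⟨Equiv.extendSubtype e, fun x hx => ?_⟩
  have := Equiv.extendSubtype_apply_of_mem e x hx
  rw [this]
  rfl

/-- Free groups embed in finite symmetric groups "word by word". -/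
theorem exists_perm_lift_ne_one (L : List (ℕ × Bool)) (hL : FreeGroup.IsReduced L) (hne : L ≠ []) :
    ∃ (m : ℕ) (g : ℕ → Perm (Fin m)), FreeGroup.lift g (FreeGroup.mk L) ≠ 1 := by
  classical
  set k := L.length with hk
  have hkpos : 0 < k := List.length_pos_iff.mpr hne
  -- the two kinds of constraints on the generator `a`
  let up : ℕ → ℕ → Prop := fun a x => L[x]? = some (a, false)
  let down : ℕ → ℕ → Prop := fun a x => ∃ y, x = y + 1 ∧ L[y]? = some (a, true)
  have hup : ∀ a x, up a x → x + 1 < k + 1 := by
    intro a x h
    have : x < L.length := by
      by_contra hcon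
      have : L[x]? = none := List.getElem?_eq_none (by omega)
      rw [show L[x]? = some (a, false) from h] at this
      cases this
    omega
  have hdownlt : ∀ a y, L[y]? = some (a, true) → y < k := by
    intro a y h
    by_contra hcon
    have : L[y]? = none := List.getElem?_eq_none (by omega)
    rw [h] at this
    cases this
  -- no cancelling pair of consecutive letters
  have hred : ∀ a y, L[y]? = some (a, true) → L[y + 1]? = some (a, false) → False := by
    intro a y h1 h2
    have hchain := List.isChain_iff_getElem.mp hL
    have hy : y + 1 < L.length := by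
      by_contra hcon
      have : L[y + 1]? = none := List.getElem?_eq_none (by omega)
      rw [h2] at this
      cases this
    have := hchain y hy
    have e1 : L[y] = (a, true) := by
      rw [List.getElem_eq_iff]; exact h1
    have e2 : L[y + 1] = (a, false) := by
      rw [List.getElem_eq_iff]; exact h2
    rw [e1, e2] at this
    simp at this
  have hred' : ∀ a y, L[y]? = some (a, false) → L[y + 1]? = some (a, true) → False := by
    intro a y h1 h2
    have hchain := List.isChain_iff_getElem.mp hL
    have hy : y + 1 < L.length := by
      by_contra hcon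
      have : L[y + 1]? = none := List.getElem?_eq_none (by omega)
      rw [h2] at this
      cases this
    have := hchain y hy
    have e1 : L[y] = (a, false) := by
      rw [List.getElem_eq_iff]; exact h1
    have e2 : L[y + 1] = (a, true) := by
      rw [List.getElem_eq_iff]; exact h2
    rw [e1, e2] at this
    simp at this
  -- the partial map
  let f : ℕ → Fin (k + 1) → Fin (k + 1) := fun a x =>
    if h : up a x then ⟨x + 1, hup a x h⟩
    else ⟨x - 1, by omega⟩
  let s : ℕ → Set (Fin (k + 1)) := fun a => {x | up a x ∨ down a x}
  have hinj : ∀ a, Set.InjOn (f a) (s a) := by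
    intro a x hx y hy hxy
    have hval : ∀ z : Fin (k + 1), (up a z → (f a z).val = z.val + 1) ∧
        (¬ up a z → (f a z).val = z.val - 1) := by
      intro z
      constructor
      · intro h; simp only [f, dif_pos h]
      · intro h; simp only [f, dif_neg h]
    apply Fin.ext
    have hxyv : (f a x).val = (f a y).val := congrArg Fin.val hxy
    by_cases hux : up a x <;> by_cases huy : up a y
    · have := (hval x).1 hux; have := (hval y).1 huy; omega
    · have h1 := (hval x).1 hux
      have h2 := (hval y).2 huy
      obtain ⟨z, hz, hz2⟩ := (hy.resolve_left huy)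
      -- `y = z + 1`, `x + 1 = z`: letters `x`, `x + 1` cancel
      have hxz : x.val + 1 = z := by omega
      exfalso
      have hu : L[x.val]? = some (a, false) := hux
      rw [← hxz] at hz2
      exact hred' a x.val hu hz2
    · have h1 := (hval x).2 hux
      have h2 := (hval y).1 huy
      obtain ⟨z, hz, hz2⟩ := (hx.resolve_left hux)
      have hyz : y.val + 1 = z := by omega
      exfalso
      have hu : L[y.val]? = some (a, false) := huy
      rw [← hyz] at hz2
      exact hred' a y.val hu hz2
    · have h1 := (hval x).2 hux
      have h2 := (hval y).2 huy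
      obtain ⟨z, hz, _⟩ := (hx.resolve_left hux)
      obtain ⟨z', hz', _⟩ := (hy.resolve_left huy)
      omega
  choose g hg using fun a => exists_perm_extend (f a) (s a) (hinj a)
  refine ⟨k + 1, g, ?_⟩
  rw [FreeGroup.lift_mk]
  -- the suffix products
  have key : ∀ (d j : ℕ) (hj : j + d = k), ((L.drop j).map (fun x => cond x.2 (g x.1) (g x.1)⁻¹)).prod
      (Fin.last k) = ⟨j, by omega⟩ := by
    intro d
    induction d with
    | zero =>
      intro j hj
      have hjk : j = k := by omega
      have : L.drop j = [] := by
        rw [hjk, hk]; exact List.drop_length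
      rw [this]
      simp [Fin.last, hjk]
    | succ d ih =>
      intro j hj
      · have hjlt : j < L.length := by omega
        have hdrop : L.drop j = L[j] :: L.drop (j + 1) := List.drop_eq_getElem_cons hjlt
        have hrec := ih (j + 1) (by omega)
        rw [hdrop, List.map_cons, List.prod_cons, Perm.mul_apply, hrec]
        -- now the letter `L[j]`
        rcases hLj : L[j] with ⟨a, b⟩
        have hget : L[j]? = some (a, b) := by
          rw [List.getElem?_eq_getElem hjlt, hLj]
        cases b with
        | true =>
          have hdn : (⟨j + 1, by omega⟩ : Fin (k + 1)) ∈ s a := Or.inr ⟨j, rfl, hget⟩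
          have := hg a _ hdn
          simp only [cond_true]
          rw [this]
          apply Fin.ext
          have hnu : ¬ up a (j + 1) := by
            intro hu
            exact hred a j hget hu
          simp [f, hnu]
        | false =>
          have hu : (⟨j, by omega⟩ : Fin (k + 1)) ∈ s a := Or.inl hget
          have := hg a _ hu
          simp only [cond_false]
          rw [Perm.inv_eq_iff_eq, this]
          apply Fin.ext
          have hu' : up a j := hget
          simp [f, hu']
  intro hone
  have h0 := key k 0 (Nat.zero_add _)
  rw [List.drop_zero, hone] at h0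
  have := congrArg Fin.val h0
  simp at this
  omega

/-- The doubling embedding of a symmetric group in an alternating group. -/
theorem exists_hom_alternating (m n : ℕ) (h : 2 * m ≤ n) :
    ∃ φ : Perm (Fin m) →* alternatingGroup (Fin n), Function.Injective φ := by
  classical
  have hcard : Fintype.card (Fin m ⊕ Fin m) ≤ Fintype.card (Fin n) := by
    simp; omega
  obtain ⟨ι⟩ := Function.Embedding.nonempty_of_card_le hcard
  let ψ : Perm (Fin m) →* Perm (Fin n) :=
    (Equiv.Perm.viaEmbeddingHom ι).comp
      ((Equiv.Perm.sumCongrHom (Fin m) (Fin m)).comp (MonoidHom.prod (MonoidHom.id _) (MonoidHom.id _)))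
  have hψ : Function.Injective ψ := by
    intro a b hab
    have h1 := Equiv.Perm.viaEmbeddingHom_injective ι hab
    have h2 := Equiv.Perm.sumCongrHom_injective h1
    exact congrArg Prod.fst h2
  have hsign : ∀ σ, ψ σ ∈ alternatingGroup (Fin n) := by
    intro σ
    rw [Equiv.Perm.mem_alternatingGroup]
    simp only [ψ, MonoidHom.comp_apply]
    change Equiv.Perm.sign (Equiv.Perm.viaEmbedding _ ι) = 1
    rw [Equiv.Perm.viaEmbedding, Equiv.Perm.sign_extendDomain]
    simp only [MonoidHom.prod_apply, MonoidHom.id_apply, Equiv.Perm.sumCongrHom_apply]
    rw [Equiv.Perm.sign_sumCongr]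
    rcases Int.units_eq_one_or (Equiv.Perm.sign σ) with h | h <;> simp [h]
  refine ⟨ψ.codRestrict (alternatingGroup (Fin n)) hsign, fun a b hab => hψ ?_⟩
  exact congrArg Subtype.val hab

/-- A non-trivial law holds in only finitely many alternating groups: for every non-trivial element w of the free group on countably many generators there is N such that for all n ≥ N some substitution of elements of the alternating group of degree n into w is not the identity. -/
theorem result (w : FreeGroup ℕ) (hw : w ≠ 1) :
    ∃ N : ℕ, ∀ n : ℕ, N ≤ n → ∃ f : ℕ → alternatingGroup (Fin n), FreeGroup.lift f w ≠ 1 := by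
  classical
  obtain ⟨m, g, hg⟩ := exists_perm_lift_ne_one w.toWord FreeGroup.isReduced_toWord
    (fun h => hw (FreeGroup.toWord_eq_nil_iff.mp h))
  rw [FreeGroup.mk_toWord] at hg
  refine ⟨2 * m, fun n hn => ?_⟩
  obtain ⟨φ, hφ⟩ := exists_hom_alternating m n hn
  refine ⟨fun a => φ (g a), fun hone => hg ?_⟩
  apply hφ
  rw [map_one, ← hone]
  have : φ.comp (FreeGroup.lift g) = FreeGroup.lift (fun a => φ (g a)) := by
    apply FreeGroup.ext_hom
    intro a
    simp
  exact DFunLike.congr_fun this w

end Cfsg.Agent.S2352
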