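import Cfsg.Statements.S2353
import Mathlib

set_option autoImplicit false
open Cfsg

namespace Cfsg.Agent.S2353

open Polynomial Matrix

variable {F : Type*} [Field F]

/-- Rank one matrix with image spanned by `(a,1)` and kernel spanned by `(d,1)`. -/
def E (a d : F) : Matrix (Fin 2) (Fin 2) F := !![a, -(a * d); 1, -d]

theorem E_mul_E (a b c d : F) : E a b * E c d = (c - b) • E a d := by
  ext i j
  fin_cases i <;> fin_cases j <;> simp [E, Matrix.mul_apply, Fin.sum_univ_two] <;> ring

/-- The idempotent projecting onto `(a,1)` along `(b,1)`. -/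
noncomputable def proj (a b : F) : Matrix (Fin 2) (Fin 2) F := (a - b)⁻¹ • E a b

theorem proj_add {a b : F} (hab : a ≠ b) : proj a b + proj b a = 1 := by
  have h : a - b ≠ 0 := sub_ne_zero.2 hab
  have h' : b - a ≠ 0 := sub_ne_zero.2 hab.symm
  ext i j
  fin_cases i <;> fin_cases j <;> simp [proj, E] <;> field_simp <;> ring

theorem proj_mul_self {a b : F} (hab : a ≠ b) : proj a b * proj a b = proj a b := by
  have h : a - b ≠ 0 := sub_ne_zero.2 hab
  simp only [proj, Matrix.smul_mul, Matrix.mul_smul, E_mul_E, smul_smul]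
  congr 1
  field_simp

theorem proj_mul_swap {a b : F} : proj a b * proj b a = 0 := by
  simp [proj, Matrix.smul_mul, Matrix.mul_smul, E_mul_E]

/-- The semisimple element with eigenvalue `s` on `(a,1)` and `s⁻¹` on `(b,1)`. -/
noncomputable def xM (a b s : F) : Matrix (Fin 2) (Fin 2) F := s • proj a b + s⁻¹ • proj b a

theorem det_xM {a b s : F} (hab : a ≠ b) (hs : s ≠ 0) : (xM a b s).det = 1 := by
  have h : a - b ≠ 0 := sub_ne_zero.2 hab
  have h' : b - a ≠ 0 := sub_ne_zero.2 hab.symm
  rw [Matrix.det_fin_two]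
  simp [xM, proj, E]
  field_simp
  ring

/-- `xM` as an element of `SL₂` (junk value when the hypotheses fail). -/
noncomputable def xS (a b s : F) : Matrix.SpecialLinearGroup (Fin 2) F :=
  open Classical in
  if h : a ≠ b ∧ s ≠ 0 then ⟨xM a b s, det_xM h.1 h.2⟩ else 1

theorem xS_coe {a b s : F} (hab : a ≠ b) (hs : s ≠ 0) :
    ((xS a b s : Matrix.SpecialLinearGroup (Fin 2) F) : Matrix (Fin 2) (Fin 2) F) = xM a b s := by
  simp [xS, hab, hs]

theorem xM_mul_swap {a b s : F} (hab : a ≠ b) (hs : s ≠ 0) : xM a b s * xM b a s = 1 := by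
  have h1 : proj a b * proj a b = proj a b := proj_mul_self hab
  have h2 : proj b a * proj b a = proj b a := proj_mul_self hab.symm
  have h3 : proj a b * proj b a = 0 := proj_mul_swap
  have h4 : proj b a * proj a b = 0 := proj_mul_swap
  simp only [xM, Matrix.add_mul, Matrix.mul_add, Matrix.smul_mul, Matrix.mul_smul, h1, h2, h3, h4,
    smul_zero, smul_smul, add_zero, zero_add, mul_inv_cancel₀ hs, inv_mul_cancel₀ hs, one_smul]
  exact proj_add hab.symm

theorem xS_inv {a b s : F} (hab : a ≠ b) (hs : s ≠ 0) : (xS a b s)⁻¹ = xS b a s := by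
  rw [inv_eq_iff_mul_eq_one]
  apply Subtype.ext
  simp only [Matrix.SpecialLinearGroup.coe_mul, Matrix.SpecialLinearGroup.coe_one]
  rw [xS_coe hab hs, xS_coe hab.symm hs]
  exact xM_mul_swap hab hs

/-- The polynomial letter; at `t ≠ 0` it evaluates to `t • xM a b t⁻¹`. -/
noncomputable def lp (a b : F) : Matrix (Fin 2) (Fin 2) F[X] :=
  (proj a b).map C + (X ^ 2 : F[X]) • (proj b a).map C

theorem lp_eval (a b t : F) (ht : t ≠ 0) :
    (lp a b).map (eval t) = t • xM a b t⁻¹ := by
  ext i j
  simp [lp, xM, Matrix.map_apply]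
  field_simp

theorem lp_eval_zero (a b : F) : (lp a b).map (eval 0) = proj a b := by
  ext i j
  simp [lp, Matrix.map_apply]

theorem lp_natDegree (a b : F) (i j : Fin 2) : ((lp a b) i j).natDegree ≤ 2 := by
  simp only [lp, Matrix.add_apply, Matrix.map_apply, Matrix.smul_apply, smul_eq_mul]
  refine (natDegree_add_le _ _).trans (max_le (by simp) ?_)
  refine (natDegree_mul_le).trans ?_
  simp

/-- The product of polynomial letters. -/
noncomputable def Q (l : List (F × F)) : Matrix (Fin 2) (Fin 2) F[X] :=
  (l.map fun p => lp p.1 p.2).prod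

theorem Q_natDegree (l : List (F × F)) (i j : Fin 2) : ((Q l) i j).natDegree ≤ 2 * l.length := by
  induction l generalizing i j with
  | nil =>
    simp only [Q, List.map_nil, List.prod_nil, Matrix.one_apply]
    split_ifs <;> simp
  | cons p l ih =>
    have h : Q (p :: l) = lp p.1 p.2 * Q l := by simp [Q]
    rw [h, Matrix.mul_apply, Fin.sum_univ_two]
    refine (natDegree_add_le _ _).trans (max_le ?_ ?_)
    all_goals
      refine natDegree_mul_le.trans ?_
      have h1 := lp_natDegree p.1 p.2 i
      have h2 := ih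
      simp only [List.length_cons]
      have h3 := h1 0
      have h4 := h1 1
      have h5 := h2 0 j
      have h6 := h2 1 j
      omega

theorem Q_eval (l : List (F × F)) (t : F) :
    (Q l).map (eval t) = (l.map fun p => (lp p.1 p.2).map (eval t)).prod := by
  have key : ∀ M : Matrix (Fin 2) (Fin 2) F[X],
      M.map (eval t) = (evalRingHom t).mapMatrix M := fun M => by
    ext i j; simp
  rw [key, Q, map_list_prod, List.map_map]
  rfl

/-- The product of idempotents along a reduced word. -/
theorem top_prod {ι : Type*} (pt : ι → F) (l : List ι) (y : ι) (bar : ι → ι)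
    (hne : ∀ u ∈ (y :: l), pt u ≠ pt (bar u))
    (hchain : (y :: l).IsChain fun a b => pt b ≠ pt (bar a)) :
    ∃ r : F, r ≠ 0 ∧ ∃ d : F,
      (((y :: l).map fun y => proj (pt y) (pt (bar y))).prod) = r • E (pt y) d := by
  induction l generalizing y with
  | nil =>
    refine ⟨(pt y - pt (bar y))⁻¹, inv_ne_zero (sub_ne_zero.2 (hne y (by simp))), pt (bar y), ?_⟩
    simp [proj]
  | cons z l ih =>
    rw [List.isChain_cons_cons] at hchain
    obtain ⟨r, hr, d, h⟩ := ih z (fun u hu => hne u (List.mem_cons_of_mem _ hu)) hchain.2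
    refine ⟨(pt y - pt (bar y))⁻¹ * (pt z - pt (bar y)) * r, ?_, d, ?_⟩
    · have h1 := sub_ne_zero.2 (hne y (by simp))
      have h2 := sub_ne_zero.2 hchain.1
      exact mul_ne_zero (mul_ne_zero (inv_ne_zero h1) h2) hr
    · rw [List.map_cons, List.prod_cons, h]
      simp only [proj, Matrix.smul_mul, Matrix.mul_smul, E_mul_E, smul_smul]
      congr 1
      ring

theorem exists_nonroot (p : F[X]) (hp : p ≠ 0) [Fintype F] (h : p.natDegree + 1 < Fintype.card F) :
    ∃ t : F, t ≠ 0 ∧ p.eval t ≠ 0 := by
  classical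
  by_contra hcon
  push Not at hcon
  have hsub : (Finset.univ.erase (0 : F)) ⊆ p.roots.toFinset := by
    intro t ht
    rw [Finset.mem_erase] at ht
    simp only [Multiset.mem_toFinset, mem_roots hp, IsRoot]
    exact hcon t ht.1
  have h1 := Finset.card_le_card hsub
  have h2 := Multiset.toFinset_card_le p.roots
  have h3 := Polynomial.card_roots' p
  rw [Finset.card_erase_of_mem (Finset.mem_univ _), Finset.card_univ] at h1
  omega

/-- A non-trivial law holds in PSL_2 over only finitely many finite fields: for every non-trivial element w of the free group on countably many generators there is N such that over every finite field with at least N elements some substitution of elements of PSL_2 into w is not the identity. -/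
theorem result (w : FreeGroup ℕ) (hw : w ≠ 1) :
    ∃ N : ℕ, ∀ (F : Type*) [Field F] [Fintype F], N ≤ Fintype.card F →
      ∃ f : ℕ → Matrix.ProjectiveSpecialLinearGroup (Fin 2) F, FreeGroup.lift f w ≠ 1 := by
  classical
  obtain ⟨K, hK⟩ := Finset.exists_nat_subset_range ((w.toWord.map Prod.fst).toFinset)
  have hK' : ∀ y ∈ w.toWord, y.1 < K := fun y hy => by
    have : y.1 ∈ (w.toWord.map Prod.fst).toFinset := by
      simp only [List.mem_toFinset, List.mem_map]
      exact ⟨y, hy, rfl⟩
    simpa using hK this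
  set L := w.toWord.length with hL
  refine ⟨2 * K + 2 * L + 2, fun F _ _ hcard => ?_⟩
  -- distinct points
  obtain ⟨c⟩ : Nonempty (Fin (2 * K + 1) ↪ F) :=
    Function.Embedding.nonempty_of_card_le (by simp; omega)
  let cc : ℕ → F := fun n => if h : n < 2 * K + 1 then c ⟨n, h⟩ else 0
  have hcc : ∀ m n, m < 2 * K + 1 → n < 2 * K + 1 → cc m = cc n → m = n := by
    intro m n hm hn h
    simp only [cc, hm, hn, dif_pos] at h
    simpa using c.injective h
  let pt : ℕ × Bool → F := fun y => cc (2 * y.1 + (if y.2 then 0 else 1))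
  let bar : ℕ × Bool → ℕ × Bool := fun y => (y.1, !y.2)
  have hpt : ∀ y z : ℕ × Bool, y.1 < K → z.1 < K → pt y = pt z → y = z := by
    rintro ⟨a, α⟩ ⟨b, β⟩ ha hb h
    have := hcc _ _ (by simp only at ha ⊢; cases α <;> simp <;> omega)
      (by simp only at hb ⊢; cases β <;> simp <;> omega) h
    cases α <;> cases β <;> simp at this ⊢ <;> omega
  have hptbar : ∀ y : ℕ × Bool, y.1 < K → pt y ≠ pt (bar y) := by
    intro y hy h
    have := hpt y (bar y) hy hy h
    cases y with
    | mk a α => cases α <;> simp [bar] at this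
  set l := w.toWord with hl
  have hlne : l ≠ [] := by
    rw [hl]
    intro h
    exact hw (FreeGroup.toWord_eq_nil_iff.1 h)
  obtain ⟨y₀, l₀, hl₀⟩ := List.exists_cons_of_ne_nil hlne
  have hred : FreeGroup.IsReduced l := FreeGroup.isReduced_toWord
  -- the top coefficient
  have hchain : (y₀ :: l₀).IsChain fun a b => pt b ≠ pt (bar a) := by
    have hall : ∀ y ∈ y₀ :: l₀, y.1 < K := fun y hy => hK' y (by rw [hl₀]; exact hy)
    have hred' : FreeGroup.IsReduced (y₀ :: l₀) := hl₀ ▸ hred
    clear hl₀
    induction l₀ generalizing y₀ with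
    | nil => exact List.isChain_singleton _
    | cons z l₀ ih =>
      rw [FreeGroup.isReduced_cons_cons] at hred'
      rw [List.isChain_cons_cons]
      refine ⟨?_, ih z (fun y hy => hall y (List.mem_cons_of_mem _ hy)) hred'.2⟩
      intro h
      have h1 := hpt z (bar y₀) (hall z (by simp)) (hall y₀ (by simp)) h
      have h2 : z.1 = y₀.1 := by rw [h1]
      have h3 := hred'.1 h2.symm
      rw [h1] at h3
      cases y₀ with
      | mk a α => cases α <;> simp [bar] at h3
  have hallne : ∀ y ∈ y₀ :: l₀, pt y ≠ pt (bar y) := fun y hy =>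
    hptbar y (hK' y (by rw [hl₀]; exact hy))
  obtain ⟨r, hr, d, htop⟩ := top_prod pt l₀ y₀ bar hallne hchain
  let pairs : List (F × F) := l.map fun y => (pt y, pt (bar y))
  have hQ0 : (Q pairs) 1 0 ≠ 0 := by
    intro h0
    have h1 := congrFun (congrFun (Q_eval pairs 0) 1) 0
    simp only [Matrix.map_apply, h0, eval_zero] at h1
    have h2 : (pairs.map fun p => (lp p.1 p.2).map (eval (0 : F))).prod = r • E (pt y₀) d := by
      rw [← htop, ← hl₀]
      simp [pairs, lp_eval_zero, Function.comp_def]
    rw [h2] at h1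
    simp [E] at h1
    exact hr h1.symm
  have hdeg : ((Q pairs) 1 0).natDegree ≤ 2 * L := by
    have := Q_natDegree pairs 1 0
    simpa [pairs, hL, hl] using this
  obtain ⟨t, ht, hpt0⟩ := exists_nonroot _ hQ0 (by omega)
  have ht' : t⁻¹ ≠ 0 := inv_ne_zero ht
  -- the substitution in `SL₂`
  let g : ℕ → Matrix.SpecialLinearGroup (Fin 2) F := fun i => xS (pt (i, true)) (pt (i, false)) t⁻¹
  let π : Matrix.SpecialLinearGroup (Fin 2) F →* Matrix.ProjectiveSpecialLinearGroup (Fin 2) F :=
    QuotientGroup.mk' _
  refine ⟨fun i => π (g i), ?_⟩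
  have hlift : FreeGroup.lift (fun i => π (g i)) w = π (FreeGroup.lift g w) := by
    have : (π.comp (FreeGroup.lift g)) = FreeGroup.lift (fun i => π (g i)) := by
      ext i
      simp
    rw [← this]
    rfl
  rw [hlift]
  -- the word in `SL₂`
  have hword : FreeGroup.lift g w =
      (l.map fun y => xS (pt y) (pt (bar y)) t⁻¹).prod := by
    conv_lhs => rw [← FreeGroup.mk_toWord (x := w), FreeGroup.lift_mk]
    rw [← hl]
    congr 1
    apply List.map_congr_left
    rintro ⟨a, α⟩ hy
    have ha : a < K := hK' _ hy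
    cases α with
    | true => rfl
    | false =>
      change (xS (pt (a, true)) (pt (a, false)) t⁻¹)⁻¹ = xS (pt (a, false)) (pt (a, true)) t⁻¹
      exact xS_inv (hptbar (a, true) ha) ht'
  have hcoe : ∀ l' : List (ℕ × Bool), (∀ y ∈ l', y.1 < K) →
      t ^ l'.length • (((l'.map fun y => xS (pt y) (pt (bar y)) t⁻¹).prod :
        Matrix.SpecialLinearGroup (Fin 2) F) : Matrix (Fin 2) (Fin 2) F) =
        (Q (l'.map fun y => (pt y, pt (bar y)))).map (eval t) := by
    intro l'
    induction l' with
    | nil =>
      intro _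
      simp [Q]
    | cons y l' ih =>
      intro hall
      have ih' := ih (fun z hz => hall z (List.mem_cons_of_mem _ hz))
      have hy := hall y (by simp)
      rw [Q_eval] at ih' ⊢
      simp only [List.map_cons, List.prod_cons, List.length_cons, Matrix.SpecialLinearGroup.coe_mul]
      rw [← ih', xS_coe (hptbar y hy) ht', lp_eval _ _ _ ht, pow_succ']
      simp only [Matrix.smul_mul, Matrix.mul_smul, smul_smul]
      rw [mul_comm]
  intro hone
  have hcenter : FreeGroup.lift g w ∈
      Subgroup.center (Matrix.SpecialLinearGroup (Fin 2) F) := by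
    have := (QuotientGroup.eq_one_iff (N := Subgroup.center (Matrix.SpecialLinearGroup (Fin 2) F))
      (FreeGroup.lift g w)).1 hone
    exact this
  obtain ⟨z, _, hz⟩ := Matrix.SpecialLinearGroup.mem_center_iff.1 hcenter
  have h10 : ((FreeGroup.lift g w : Matrix.SpecialLinearGroup (Fin 2) F) :
      Matrix (Fin 2) (Fin 2) F) 1 0 = 0 := by
    rw [← hz]
    simp
  have h3 := congrFun (congrFun (hcoe l (fun y hy => hK' y hy)) 1) 0
  rw [← hword] at h3
  simp only [Matrix.smul_apply, h10, smul_zero, Matrix.map_apply] at h3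
  exact hpt0 h3.symm

end Cfsg.Agent.S2353
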