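import Cfsg.Statements.S2354
import Mathlib
import Cfsg.Agent.Lib.Suzuki.LieEmbed

set_option autoImplicit false
set_option linter.unusedSectionVars false
set_option linter.unusedVariables false
open Cfsg

namespace Cfsg.Agent.S2354

open Polynomial Matrix Cfsg.Agent.Lib.Suzuki.Basic Cfsg.Agent.Lib.Suzuki.Group
  Cfsg.Agent.Lib.Suzuki.Struct Cfsg.Agent.Lib.Suzuki.LieEmbed

section aux

variable {F : Type*} [Field F] [Fintype F] {m : ℕ}

/-- The matrix of an element. -/
def M (g : G F m) : Matrix (Fin 4) (Fin 4) F := g.1.1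

theorem M_mul (a b : G F m) : M (a * b) = M a * M b := rfl

theorem M_one : M (1 : G F m) = 1 := rfl

theorem M_inv_mul_self (g : G F m) : M g⁻¹ * M g = 1 := by
  rw [← M_mul, inv_mul_cancel, M_one]

theorem M_self_mul_inv (g : G F m) : M g * M g⁻¹ = 1 := by
  rw [← M_mul, mul_inv_cancel, M_one]

/-- The polynomial diagonal. -/
noncomputable def dpoly (F : Type*) [Field F] (m : ℕ) : Matrix (Fin 4) (Fin 4) F[X] :=
  diagonal ![1, X ^ (2 ^ (m + 1)), X ^ (2 ^ (m + 1) + 2), X ^ (2 * 2 ^ (m + 1) + 2)]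

/-- The polynomial letter. -/
noncomputable def lp (g : G F m) : Matrix (Fin 4) (Fin 4) F[X] :=
  (M g).map C * dpoly F m * (M g⁻¹).map C

theorem map_eval_eq (t : F) (A : Matrix (Fin 4) (Fin 4) F[X]) :
    A.map (eval t) = (evalRingHom t).mapMatrix A := by
  ext i j
  simp

theorem map_C_map_eval (t : F) (A : Matrix (Fin 4) (Fin 4) F) :
    (A.map C).map (eval t) = A := by
  ext i j
  simp

theorem lp_eval (g : G F m) (t : F) :
    (lp g).map (eval t) = M g *
      diagonal ![1, t ^ (2 ^ (m + 1)), t ^ (2 ^ (m + 1) + 2), t ^ (2 * 2 ^ (m + 1) + 2)] * M g⁻¹ := by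
  have h1 : (evalRingHom t).mapMatrix (dpoly F m) =
      diagonal ![1, t ^ (2 ^ (m + 1)), t ^ (2 ^ (m + 1) + 2), t ^ (2 * 2 ^ (m + 1) + 2)] := by
    ext i j
    by_cases hij : i = j
    · subst hij
      fin_cases i <;> simp [dpoly]
    · simp [dpoly, hij]
  have h2 : ∀ A : Matrix (Fin 4) (Fin 4) F, (evalRingHom t).mapMatrix (A.map C) = A := fun A => by
    rw [← map_eval_eq, map_C_map_eval]
  rw [map_eval_eq, lp, map_mul, map_mul, h1, h2, h2]

/-- The parameter. -/
noncomputable def kk (t : F) (ht : t ≠ 0) (m : ℕ) : Fˣ :=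
  Units.mk0 (t⁻¹ ^ (2 ^ (m + 1))) (pow_ne_zero _ (inv_ne_zero ht))

theorem Dm_eval (h : Hyp F m) (t : F) (ht : t ≠ 0) :
    diagonal ![1, t ^ (2 ^ (m + 1)), t ^ (2 ^ (m + 1) + 2), t ^ (2 * 2 ^ (m + 1) + 2)] =
      t ^ (2 ^ (m + 1) + 1) • Dm m ((kk t ht m : Fˣ) : F) := by
  have e : ((kk t ht m : Fˣ) : F) ^ 2 ^ m = t⁻¹ := by
    change (t⁻¹ ^ (2 ^ (m + 1))) ^ 2 ^ m = t⁻¹
    rw [← pow_mul, show 2 ^ (m + 1) * 2 ^ m = 2 ^ (2 * m + 1) by ring]
    exact h.pow_card _
  have e2 : ((kk t ht m : Fˣ) : F) = (t ^ (2 ^ (m + 1)))⁻¹ := by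
    change t⁻¹ ^ (2 ^ (m + 1)) = _
    rw [inv_pow]
  have ht' : t ^ 2 ^ (m + 1) ≠ 0 := pow_ne_zero _ ht
  have e3 : t ^ (2 * 2 ^ (m + 1) + 2) = t ^ (2 ^ (m + 1)) * t ^ (2 ^ (m + 1)) * t * t := by ring
  have e4 : t ^ (2 ^ (m + 1) + 2) = t ^ (2 ^ (m + 1)) * t * t := by ring
  have e5 : t ^ (2 ^ (m + 1) + 1) = t ^ (2 ^ (m + 1)) * t := by ring
  generalize ((kk t ht m : Fˣ) : F) = K at *
  ext i j
  by_cases hij : i = j
  · subst hij
    fin_cases i <;> simp [Dm, e, e3, e4, e5] <;> (try rw [e2]) <;>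
      generalize t ^ (2 ^ (m + 1)) = A at * <;> (try field_simp)
  · fin_cases i <;> fin_cases j <;> simp_all [Dm]

theorem lp_eval_ne (h : Hyp F m) (g : G F m) (t : F) (ht : t ≠ 0) :
    (lp g).map (eval t) = t ^ (2 ^ (m + 1) + 1) • M (g * Dg h (kk t ht m) * g⁻¹) := by
  rw [lp_eval, Dm_eval h t ht]
  simp only [Matrix.smul_mul, Matrix.mul_smul, M_mul]
  rfl

/-- Value at zero. -/
def P (g : G F m) : Matrix (Fin 4) (Fin 4) F :=
  vecMulVec (fun i => M g i 0) (fun j => M g⁻¹ 0 j)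

theorem lp_eval_zero (g : G F m) : (lp g).map (eval 0) = P g := by
  rw [lp_eval]
  have h0 : (0 : F) ^ 2 ^ (m + 1) = 0 := zero_pow (by positivity)
  have h1 : (0 : F) ^ (2 ^ (m + 1) + 2) = 0 := zero_pow (by positivity)
  have h2 : (0 : F) ^ (2 * 2 ^ (m + 1) + 2) = 0 := zero_pow (by positivity)
  rw [h0, h1, h2]
  ext i j
  simp only [Matrix.mul_apply, Matrix.mul_diagonal, Fin.sum_univ_four, P, vecMulVec_apply]
  simp

theorem lp_natDegree (g : G F m) (i j : Fin 4) :
    ((lp g) i j).natDegree ≤ 2 * 2 ^ (m + 1) + 2 := by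
  rw [lp, dpoly, Matrix.mul_apply]
  refine natDegree_sum_le_of_forall_le _ _ (fun k _ => ?_)
  rw [Matrix.mul_diagonal, Matrix.map_apply, Matrix.map_apply]
  refine (natDegree_mul_C_le _ _).trans ((natDegree_C_mul_le _ _).trans ?_)
  have h1 : 2 ^ (m + 1) ≤ 2 * 2 ^ (m + 1) + 2 := by omega
  fin_cases k <;> simp <;> omega

/-- The product of polynomial letters. -/
noncomputable def Q (l : List (G F m)) : Matrix (Fin 4) (Fin 4) F[X] := (l.map lp).prod

theorem Q_natDegree (l : List (G F m)) (i j : Fin 4) :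
    ((Q l) i j).natDegree ≤ l.length * (2 * 2 ^ (m + 1) + 2) := by
  induction l generalizing i j with
  | nil =>
    simp only [Q, List.map_nil, List.prod_nil, Matrix.one_apply]
    split_ifs <;> simp
  | cons g l ih =>
    have h : Q (g :: l) = lp g * Q l := by simp [Q]
    rw [h, Matrix.mul_apply]
    refine natDegree_sum_le_of_forall_le _ _ (fun k _ => ?_)
    refine natDegree_mul_le.trans ?_
    have h1 := lp_natDegree g i k
    have h2 := ih k j
    simp only [List.length_cons, add_mul, one_mul]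
    omega

theorem Q_eval_zero (l : List (G F m)) : (Q l).map (eval 0) = (l.map P).prod := by
  rw [map_eval_eq, Q, map_list_prod, List.map_map]
  congr 1
  apply List.map_congr_left
  intro g _
  simp only [Function.comp]
  rw [← map_eval_eq, lp_eval_zero]

/-- The product of conjugates of a torus element. -/
def W (h : Hyp F m) (k : Fˣ) (l : List (G F m)) : G F m :=
  (l.map fun g => g * Dg h k * g⁻¹).prod

theorem Q_eval (h : Hyp F m) (l : List (G F m)) (t : F) (ht : t ≠ 0) :
    (Q l).map (eval t) =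
      (t ^ (2 ^ (m + 1) + 1)) ^ l.length • M (W h (kk t ht m) l) := by
  induction l with
  | nil =>
    ext i j
    by_cases hij : i = j
    · subst hij
      simp [Q, W, M_one]
    · simp [Q, W, M_one, hij]
  | cons g l ih =>
    have e1 : Q (g :: l) = lp g * Q l := by simp [Q]
    have e2 : W h (kk t ht m) (g :: l) = (g * Dg h (kk t ht m) * g⁻¹) * W h (kk t ht m) l := by
      simp [W]
    rw [map_eval_eq, e1, map_mul, ← map_eval_eq, ← map_eval_eq, lp_eval_ne h g t ht, ih, e2, M_mul]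
    simp only [Matrix.smul_mul, Matrix.mul_smul, smul_smul, List.length_cons, pow_succ]
    congr 1

theorem col_ne (g : G F m) : (fun i => M g i 0) ≠ 0 := by
  intro h0
  have h1 := congrFun (congrFun (M_inv_mul_self g) 0) 0
  rw [Matrix.mul_apply] at h1
  have h2 : ∀ k, M g k 0 = 0 := fun k => congrFun h0 k
  simp [h2] at h1

theorem row_ne (g : G F m) : (fun j => M g⁻¹ 0 j) ≠ 0 := by
  intro h0
  have h1 := congrFun (congrFun (M_inv_mul_self g) 0) 0
  rw [Matrix.mul_apply] at h1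
  have h2 : ∀ k, M g⁻¹ 0 k = 0 := fun k => congrFun h0 k
  simp [h2] at h1

theorem top_prod (l : List (G F m)) (g : G F m)
    (hchain : (g :: l).IsChain fun a b => M (a⁻¹ * b) 0 0 ≠ 0) :
    ∃ ψ : Fin 4 → F, ψ ≠ 0 ∧ ((g :: l).map P).prod = vecMulVec (fun i => M g i 0) ψ := by
  induction l generalizing g with
  | nil =>
    refine ⟨_, row_ne g, ?_⟩
    simp [P]
  | cons b l ih =>
    rw [List.isChain_cons_cons] at hchain
    obtain ⟨ψ, hψ, hp⟩ := ih b hchain.2
    refine ⟨M (g⁻¹ * b) 0 0 • ψ, smul_ne_zero hchain.1 hψ, ?_⟩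
    rw [List.map_cons, List.prod_cons, hp]
    ext i j
    simp only [P, Matrix.mul_apply, vecMulVec_apply, Pi.smul_apply, smul_eq_mul, M_mul]
    simp only [Finset.mul_sum, Finset.sum_mul]
    apply Finset.sum_congr rfl
    intro k _
    ring

theorem exists_nonroot (p : F[X]) (hp : p ≠ 0) (h : p.natDegree + 1 < Fintype.card F) :
    ∃ t : F, t ≠ 0 ∧ p.eval t ≠ 0 := by
  classical
  by_contra hcon
  push Not at hcon
  have hsub : (Finset.univ.erase (0 : F)) ⊆ p.roots.toFinset := by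
    intro t ht
    rw [Finset.mem_erase] at ht
    simp only [Multiset.mem_toFinset, mem_roots hp, IsRoot]
    exact hcon t ht.1
  have h1 := Finset.card_le_card hsub
  have h2 := Multiset.toFinset_card_le p.roots
  have h3 := Polynomial.card_roots' p
  rw [Finset.card_erase_of_mem (Finset.mem_univ _), Finset.card_univ] at h1
  omega

/-- If a point of the ovoid is not the base point, the corner entry does not vanish. -/
theorem entry00_ne_zero (h : Hyp F m) (g : G F m) (hg : g • (oI : Om F m) ≠ oA 0 0) :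
    M g 0 0 ≠ 0 := by
  have hmul : M g 0 0 = (M g *ᵥ vecI) 0 := by
    simp [Matrix.mulVec, dotProduct, Fin.sum_univ_four, vecI]
  rcases om_cases (g • (oI : Om F m)) with h1 | ⟨x, y, h1⟩
  · obtain ⟨c, hc, hcv⟩ := exists_of_smul_mk (g.1) vecI_ne vecI_ne
      (congrArg Subtype.val h1)
    rw [hmul]
    change (g.1.1 *ᵥ vecI) 0 ≠ 0
    rw [hcv]
    simpa [vecI] using hc
  · obtain ⟨c, hc, hcv⟩ := exists_of_smul_mk (g.1) vecI_ne (vecA_ne m x y)
      (congrArg Subtype.val h1)
    rw [hmul]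
    change (g.1.1 *ᵥ vecI) 0 ≠ 0
    rw [hcv]
    have hne : fz m x y ≠ 0 := by
      intro h0
      obtain ⟨rfl, rfl⟩ := (fz_eq_zero_iff h).1 h0
      exact hg h1
    simpa [vecA] using ⟨hc, hne⟩

theorem Tg_Dg_Tg (h : Hyp F m) (k : Fˣ) : Tg h * Dg h k * (Tg h)⁻¹ = (Dg h k)⁻¹ := by
  rw [Tg_inv, Dg_inv]
  apply Subtype.ext
  apply Subtype.ext
  change Tm F * Dm m (k : F) * Tm F = Dm m ((k⁻¹ : Fˣ) : F)
  ext i j
  fin_cases i <;> fin_cases j <;> simp [Tm, Dm, Matrix.mul_apply, Fin.sum_univ_four, mul_comm]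

end aux

/-- Failure of the law in the ovoid model. -/
theorem law_fails (w : FreeGroup ℕ) (hw : w ≠ 1) :
    ∃ N : ℕ, ∀ (F : Type*) [Field F] [Fintype F] (m : ℕ), Hyp F m → N ≤ m →
      ∃ f : ℕ → G F m, FreeGroup.lift f w ≠ 1 := by
  classical
  obtain ⟨K, hK⟩ := Finset.exists_nat_subset_range ((w.toWord.map Prod.fst).toFinset)
  have hK' : ∀ y ∈ w.toWord, y.1 < K := fun y hy => by
    have : y.1 ∈ (w.toWord.map Prod.fst).toFinset := by
      simp only [List.mem_toFinset, List.mem_map]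
      exact ⟨y, hy, rfl⟩
    simpa using hK this
  set L := w.toWord.length with hL
  refine ⟨4 * L + K + 2, fun F _ _ m h hN => ?_⟩
  have hq := h.hF
  -- `2 ^ m` is large
  have h2m : 4 * L + K + 2 < 2 ^ m := lt_of_le_of_lt hN Nat.lt_two_pow_self
  have hqeq : 2 ^ (2 * m + 1) = 2 ^ m * 2 ^ (m + 1) := by ring
  have hσ : 2 ^ (m + 1) = 2 * 2 ^ m := by ring
  have hbig : 2 ^ m * 2 ^ m ≤ 2 ^ (2 * m) := by rw [two_mul, pow_add]
  have hcardK : 2 * K + 1 ≤ Fintype.card F := by
    rw [hq, hqeq, hσ]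
    nlinarith
  obtain ⟨c⟩ : Nonempty (Fin (2 * K + 1) ↪ F) :=
    Function.Embedding.nonempty_of_card_le (by simpa using hcardK)
  let cc : ℕ → F := fun n => if h : n < 2 * K + 1 then c ⟨n, h⟩ else 0
  have hcc : ∀ m n, m < 2 * K + 1 → n < 2 * K + 1 → cc m = cc n → m = n := by
    intro m n hm hn h
    simp only [cc, hm, hn, dif_pos] at h
    simpa using c.injective h
  let a : ℕ × Bool → Om F m := fun y => oA (cc (2 * y.1 + (if y.2 then 0 else 1))) 0
  have ha : ∀ y z : ℕ × Bool, y.1 < K → z.1 < K → a y = a z → y = z := by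
    rintro ⟨i, α⟩ ⟨j, β⟩ hi hj hyz
    have h1 := (oA_inj hyz).1
    have := hcc _ _ (by simp only at hi ⊢; cases α <;> simp <;> omega)
      (by simp only at hj ⊢; cases β <;> simp <;> omega) h1
    cases α <;> cases β <;> simp at this ⊢ <;> omega
  have hex : ∀ i, ∃ g : G F m, i < K → g • (oI : Om F m) = a (i, true) ∧
      g • (oA 0 0 : Om F m) = a (i, false) := by
    intro i
    by_cases hi : i < K
    · have hne : a (i, true) ≠ a (i, false) := fun he => by
        have := ha _ _ hi hi he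
        simp at this
      obtain ⟨g, hg1, hg2⟩ := two_trans h (oA_ne_oI 0 0).symm hne
      exact ⟨g, fun _ => ⟨hg1, hg2⟩⟩
    · exact ⟨1, fun hc => absurd hc hi⟩
  choose g hg using hex
  let gy : ℕ × Bool → G F m := fun y => if y.2 then g y.1 else g y.1 * Tg h
  have hgy1 : ∀ y : ℕ × Bool, y.1 < K → gy y • (oI : Om F m) = a y := by
    rintro ⟨i, α⟩ hi
    cases α with
    | true => exact (hg i hi).1
    | false =>
      change (g i * Tg h) • (oI : Om F m) = a (i, false)
      rw [mul_smul, Tg_oI]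
      exact (hg i hi).2
  have hgy2 : ∀ y : ℕ × Bool, y.1 < K → gy y • (oA 0 0 : Om F m) = a (y.1, !y.2) := by
    rintro ⟨i, α⟩ hi
    cases α with
    | true => exact (hg i hi).2
    | false =>
      change (g i * Tg h) • (oA 0 0 : Om F m) = a (i, true)
      rw [mul_smul, Tg_oA_zero]
      exact (hg i hi).1
  set l := w.toWord with hl
  have hlne : l ≠ [] := by
    rw [hl]
    intro h
    exact hw (FreeGroup.toWord_eq_nil_iff.1 h)
  obtain ⟨y₀, l₀, hl₀⟩ := List.exists_cons_of_ne_nil hlne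
  have hred : FreeGroup.IsReduced l := FreeGroup.isReduced_toWord
  -- the chain condition
  have hchain : ((y₀ :: l₀).map gy).IsChain fun a b => M (a⁻¹ * b) 0 0 ≠ 0 := by
    have hall : ∀ y ∈ y₀ :: l₀, y.1 < K := fun y hy => hK' y (by rw [hl₀]; exact hy)
    have hred' : FreeGroup.IsReduced (y₀ :: l₀) := hl₀ ▸ hred
    clear hl₀
    induction l₀ generalizing y₀ with
    | nil => exact List.isChain_singleton _
    | cons z l₀ ih =>
      rw [FreeGroup.isReduced_cons_cons] at hred'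
      simp only [List.map_cons]
      rw [List.isChain_cons_cons]
      refine ⟨?_, ih z (fun y hy => hall y (List.mem_cons_of_mem _ hy)) hred'.2⟩
      apply entry00_ne_zero h
      intro he
      rw [mul_smul, inv_smul_eq_iff, hgy1 z (hall z (by simp)), hgy2 y₀ (hall y₀ (by simp))] at he
      have h1 := ha z (y₀.1, !y₀.2) (hall z (by simp)) (hall y₀ (by simp)) he
      have h2 : z.1 = y₀.1 := by rw [h1]
      have h3 := hred'.1 h2.symm
      rw [h1] at h3
      simp at h3
  obtain ⟨ψ, hψ, htop⟩ := top_prod _ _ hchain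
  have hQ0 : (Q (l.map gy)).map (eval 0) = vecMulVec (fun i => M (gy y₀) i 0) ψ := by
    rw [Q_eval_zero, hl₀]
    exact htop
  -- a non-zero entry
  obtain ⟨i, hi⟩ : ∃ i, M (gy y₀) i 0 ≠ 0 := by
    by_contra hcon
    push Not at hcon
    exact col_ne (gy y₀) (funext hcon)
  obtain ⟨j, hj⟩ : ∃ j, ψ j ≠ 0 := by
    by_contra hcon
    push Not at hcon
    exact hψ (funext hcon)
  have hLpos : 0 < L := by
    rw [hL, hl₀]
    simp
  set σ := 2 ^ (m + 1) with hσdef
  let p : F[X] := Q (l.map gy) i j - C ((1 : Matrix (Fin 4) (Fin 4) F) i j) * X ^ (L * (σ + 1))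
  have hp0 : p.eval 0 ≠ 0 := by
    have h1 := congrFun (congrFun hQ0 i) j
    simp only [Matrix.map_apply, vecMulVec_apply] at h1
    simp only [p, eval_sub, eval_mul, eval_C, eval_pow, eval_X]
    rw [h1, zero_pow (by positivity), mul_zero, sub_zero]
    exact mul_ne_zero hi hj
  have hp : p ≠ 0 := fun he => hp0 (by rw [he]; simp)
  have hdeg : p.natDegree ≤ L * (2 * σ + 2) := by
    refine (natDegree_sub_le _ _).trans (max_le ?_ ?_)
    · have := Q_natDegree (l.map gy) i j
      simpa [hL, hl] using this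
    · refine (natDegree_C_mul_le _ _).trans ?_
      simp only [natDegree_pow, natDegree_X, mul_one]
      exact Nat.mul_le_mul_left _ (by omega)
  obtain ⟨t, ht, hpt⟩ := exists_nonroot p hp (by
    refine lt_of_le_of_lt (Nat.add_le_add_right hdeg 1) ?_
    rw [hq, hqeq]
    have h4 : 2 * σ + 2 ≤ 4 * σ := by
      have : 1 ≤ σ := Nat.one_le_two_pow
      omega
    have h5 : L * (2 * σ + 2) ≤ L * (4 * σ) := Nat.mul_le_mul_left _ h4
    have h6 : (4 * L + 1) * σ ≤ 2 ^ m * σ := Nat.mul_le_mul_right _ (by omega)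
    have h7 : 1 ≤ σ := Nat.one_le_two_pow
    nlinarith)
  -- the substitution
  set k := kk t ht m with hk
  refine ⟨fun i => g i * Dg h k * (g i)⁻¹, ?_⟩
  have hword : FreeGroup.lift (fun i => g i * Dg h k * (g i)⁻¹) w = W h k (l.map gy) := by
    conv_lhs => rw [← FreeGroup.mk_toWord (x := w), FreeGroup.lift_mk]
    rw [← hl, W, List.map_map]
    congr 1
    apply List.map_congr_left
    rintro ⟨i, α⟩ hy
    cases α with
    | true => rfl
    | false =>
      change (g i * Dg h k * (g i)⁻¹)⁻¹ = (g i * Tg h) * Dg h k * (g i * Tg h)⁻¹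
      have := Tg_Dg_Tg h k
      calc (g i * Dg h k * (g i)⁻¹)⁻¹ = g i * (Dg h k)⁻¹ * (g i)⁻¹ := by group
        _ = g i * (Tg h * Dg h k * (Tg h)⁻¹) * (g i)⁻¹ := by rw [this]
        _ = _ := by group
  rw [hword]
  intro hone
  have h1 := congrFun (congrFun (Q_eval h (l.map gy) t ht) i) j
  rw [← hk, hone] at h1
  apply hpt
  simp only [Matrix.map_apply, Matrix.smul_apply, M_one, smul_eq_mul, List.length_map] at h1
  simp only [p, eval_sub, eval_mul, eval_C, eval_pow, eval_X]
  rw [h1, ← hL, ← pow_mul, mul_comm (2 ^ (m + 1) + 1) L, hσdef]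
  ring

/-- A non-trivial law holds in only finitely many Suzuki groups: for every non-trivial element w of the free group on countably many generators there is N such that for q = 2^(2m+1) with m ≥ N some substitution of elements of the Suzuki group over the field with q elements into w is not the identity. -/
theorem result (w : FreeGroup ℕ) (hw : w ≠ 1) :
    ∃ N : ℕ, ∀ (F : Type*) [Field F] [Fintype F] (m : ℕ), 1 ≤ m → N ≤ m →
      Fintype.card F = 2 ^ (2 * m + 1) →
      ∃ f : ℕ → ↥(Cfsg.Lie.Sz F (2 ^ (m + 1))), FreeGroup.lift f w ≠ 1 := by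
  obtain ⟨N, hN⟩ := law_fails.{u_1} w hw
  refine ⟨N, fun F _ _ m hm hNm hF => ?_⟩
  have h : Hyp F m := ⟨hm, hF⟩
  obtain ⟨f, hf⟩ := hN F m h hNm
  refine ⟨fun i => toLie h (f i), fun he => hf ?_⟩
  apply toLie_injective h
  rw [map_one]
  have : (toLie h).comp (FreeGroup.lift f) = FreeGroup.lift (fun i => toLie h (f i)) := by
    ext i
    simp
  rw [← he, ← this]
  rfl

end Cfsg.Agent.S2354
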