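import Cfsg.Statements.S2355
import Mathlib
import Cfsg.Prelude.Def_Classical
import Cfsg.Agent.Lib.Classical.Lin.Blocks
import Cfsg.Agent.Lib.Linalg.Transvection
import Cfsg.Agent.S2352
import Cfsg.Agent.S2353
import Cfsg.Agent.S0281

set_option autoImplicit false
set_option linter.unusedSectionVars false
open Cfsg Matrix
open Cfsg.Agent.Lib.Classical.Lin.Blocks

namespace Cfsg.Agent.S2355

/-- The word `w` is a law of `G`. -/
def IsLaw (w : FreeGroup ℕ) (G : Type*) [Group G] : Prop := ∀ f : ℕ → G, FreeGroup.lift f w = 1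

theorem map_lift {G H : Type*} [Group G] [Group H] (φ : G →* H) (f : ℕ → G) (w : FreeGroup ℕ) :
    φ (FreeGroup.lift f w) = FreeGroup.lift (fun i => φ (f i)) w := by
  have : φ.comp (FreeGroup.lift f) = FreeGroup.lift (fun i => φ (f i)) := by
    ext i
    simp
  rw [← this]
  rfl

theorem IsLaw.of_mulEquiv {w : FreeGroup ℕ} {G G' : Type*} [Group G] [Group G'] (e : G ≃* G')
    (h : IsLaw w G) : IsLaw w G' := by
  intro f
  have h1 := map_lift e.toMonoidHom (fun i => e.symm (f i)) w
  rw [h] at h1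
  simpa using h1.symm

/-- Laws of projective quotients descend along injective homs. -/
theorem law_of_embedding {w : FreeGroup ℕ} {H X : Type*} [Group H] [Group X] (φ : H →* X)
    (hφ : Function.Injective φ) (h : IsLaw w (X ⧸ Subgroup.center X)) :
    IsLaw w (H ⧸ Subgroup.center H) := by
  intro f
  choose g hg using fun i => QuotientGroup.mk_surjective (f i)
  have hf : f = fun i => (QuotientGroup.mk' (Subgroup.center H)) (g i) := by
    funext i
    exact (hg i).symm
  rw [hf, ← map_lift]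
  have h1 : (QuotientGroup.mk' (Subgroup.center X)) (φ (FreeGroup.lift g w)) = 1 := by
    rw [map_lift φ, map_lift]
    exact h _
  have h2 : φ (FreeGroup.lift g w) ∈ Subgroup.center X := (QuotientGroup.eq_one_iff _).1 h1
  have h3 : FreeGroup.lift g w ∈ Subgroup.center H := by
    rw [Subgroup.mem_center_iff]
    intro x
    apply hφ
    rw [map_mul, map_mul]
    exact Subgroup.mem_center_iff.1 h2 (φ x)
  exact (QuotientGroup.eq_one_iff _).2 h3

theorem law_of_center_eq_bot {w : FreeGroup ℕ} {H : Type*} [Group H]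
    (hc : Subgroup.center H = ⊥) (h : IsLaw w (H ⧸ Subgroup.center H)) : IsLaw w H := by
  intro f
  have h1 := h (fun i => (QuotientGroup.mk' (Subgroup.center H)) (f i))
  rw [← map_lift] at h1
  have h2 : FreeGroup.lift f w ∈ Subgroup.center H := (QuotientGroup.eq_one_iff _).1 h1
  rw [hc] at h2
  exact h2

section homs

variable {H : Type*} [Group H] {ι : Type} [Fintype ι] [DecidableEq ι] {F : Type*} [Field F]

/-- A matrix representation of determinant one, as a hom into `SL`. -/
def toSL (τ : H →* Matrix ι ι F) (hdet : ∀ h, (τ h).det = 1) : H →* SpecialLinearGroup ι F where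
  toFun h := ⟨τ h, hdet h⟩
  map_one' := Subtype.ext (map_one τ)
  map_mul' a b := Subtype.ext (map_mul τ a b)

theorem toSL_injective (τ : H →* Matrix ι ι F) (hdet : ∀ h, (τ h).det = 1)
    (hτ : Function.Injective τ) : Function.Injective (toSL τ hdet) := fun a b hab =>
  hτ (congrArg Subtype.val hab)

/-- A form preserving representation as a hom into the isometry group. -/
def toO {Q : (ι → F) → F} (τ : H →* Matrix ι ι F) (hp : ∀ h v, Q (τ h *ᵥ v) = Q v) :
    H →* Cfsg.isometryGroup F Q :=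
  (τ.toHomUnits).codRestrict _ (fun h u _ => hp h u)

theorem toO_injective {Q : (ι → F) → F} (τ : H →* Matrix ι ι F) (hp : ∀ h v, Q (τ h *ᵥ v) = Q v)
    (hτ : Function.Injective τ) : Function.Injective (toO τ hp) := fun a b hab => by
  apply hτ
  have := congrArg (fun g : Cfsg.isometryGroup F Q => ((g : Matrix.GeneralLinearGroup ι F) :
    Matrix ι ι F)) hab
  exact this

/-- A hom from a perfect group lands in the commutator subgroup. -/
def toCommutator {X : Type*} [Group X] (hperf : commutator H = ⊤) (φ : H →* X) :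
    H →* commutator X :=
  φ.codRestrict _ (fun h => by
    have h1 : h ∈ commutator H := by rw [hperf]; trivial
    have h2 : φ h ∈ (commutator H).map φ := Subgroup.mem_map_of_mem _ h1
    rw [commutator_def, Subgroup.map_commutator] at h2
    exact Subgroup.commutator_mono le_top le_top h2)

theorem toCommutator_injective {X : Type*} [Group X] (hperf : commutator H = ⊤) (φ : H →* X)
    (hφ : Function.Injective φ) : Function.Injective (toCommutator hperf φ) := fun a b hab =>
  hφ (congrArg Subtype.val hab)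

end homs

section perfect

variable (F : Type*) [Field F] [Fintype F]

theorem exists_sq_ne_one (h : 4 ≤ Fintype.card F) : ∃ x : F, x ≠ 0 ∧ x ^ 2 ≠ 1 := by
  classical
  by_contra hcon
  push Not at hcon
  have hsub : (Finset.univ : Finset F) ⊆ {0, 1, -1} := by
    intro x _
    by_cases hx : x = 0
    · simp [hx]
    · have := hcon x hx
      rw [sq] at this
      rcases mul_self_eq_one_iff.1 this with h | h <;> simp [h]
  have h1 := Finset.card_le_card hsub
  have h2 : ({0, 1, -1} : Finset F).card ≤ 3 := Finset.card_le_three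
  rw [Finset.card_univ] at h1
  omega

theorem perfect_sl2 (h : 4 ≤ Fintype.card F) : commutator (SpecialLinearGroup (Fin 2) F) = ⊤ := by
  obtain ⟨x, hx0, hx2⟩ := exists_sq_ne_one F h
  rw [eq_top_iff]
  intro M _
  refine Cfsg.Agent.Lib.Linalg.Transvection.sl_transvection_induction
    (fun M => M ∈ commutator (SpecialLinearGroup (Fin 2) F)) (one_mem _)
    (fun i j hij a => ?_) (fun A B hA hB => mul_mem hA hB) M
  rw [commutator_eq_closure]
  exact Subgroup.subset_closure
    (Cfsg.Agent.Lib.Linalg.Transvection.transvection_mem_commutatorSet_of_sq hij hx0 hx2 a)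

end perfect

section bounds

variable {w : FreeGroup ℕ}

/-- Representations of `A_n` give the law on `A_n`. -/
theorem alt_law_of_embedding {n : ℕ} (hn : 5 ≤ n) {X : Type*} [Group X]
    (φ : alternatingGroup (Fin n) →* X) (hφ : Function.Injective φ)
    (h : IsLaw w (X ⧸ Subgroup.center X)) : IsLaw w (alternatingGroup (Fin n)) := by
  refine law_of_center_eq_bot ?_ (law_of_embedding φ hφ h)
  exact alternatingGroup.center_eq_bot (by simp; omega)

variable (F : Type) [Field F]

/-- The embedding `A_n → SL_n(F)`. -/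
def altRep (ι : Type) [Fintype ι] [DecidableEq ι] : alternatingGroup ι →* Matrix ι ι F :=
  (permHom (ι := ι) (F := F)).comp (alternatingGroup ι).subtype

theorem altRep_injective (ι : Type) [Fintype ι] [DecidableEq ι] :
    Function.Injective (altRep F ι) := fun a b hab =>
  Subtype.ext (permHom_injective hab)

theorem altRep_det (ι : Type) [Fintype ι] [DecidableEq ι] (h : alternatingGroup ι) :
    (altRep F ι h).det = 1 := by
  change (permHom (h : Equiv.Perm ι) : Matrix ι ι F).det = 1
  rw [det_permHom, Equiv.Perm.mem_alternatingGroup.1 h.2]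
  simp

/-- `SL₂(F)` acting on a block. -/
def sl2Rep {k n : ℕ} (e : Fin 2 ⊕ Fin k ≃ Fin n) : SpecialLinearGroup (Fin 2) F →* Matrix (Fin n) (Fin n) F :=
  (extendHom e).comp (Cfsg.slToMat 2 F)

theorem slToMat_injective {ι : ℕ} : Function.Injective (Cfsg.slToMat ι F) := fun _ _ hab =>
  Subtype.ext hab

theorem sl2Rep_injective {k n : ℕ} (e : Fin 2 ⊕ Fin k ≃ Fin n) :
    Function.Injective (sl2Rep F e) :=
  (extendHom_injective e).comp (slToMat_injective F)

theorem sl2Rep_det {k n : ℕ} (e : Fin 2 ⊕ Fin k ≃ Fin n)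
    (h : SpecialLinearGroup (Fin 2) F) : (sl2Rep F e h).det = 1 := by
  change (extendHom e (h : Matrix (Fin 2) (Fin 2) F)).det = 1
  rw [det_extendHom]
  exact h.2

/-- The equivalence `Fin 2 ⊕ Fin (n-2) ≃ Fin n`. -/
def blockEquiv {n : ℕ} (hn : 2 ≤ n) : Fin 2 ⊕ Fin (n - 2) ≃ Fin n :=
  finSumFinEquiv.trans (finCongr (by omega))

/-- Linear case. -/
theorem psl_law_sl2 {n : ℕ} (hn : 2 ≤ n)
    (h : IsLaw w (Matrix.ProjectiveSpecialLinearGroup (Fin n) F)) :
    IsLaw w (Matrix.ProjectiveSpecialLinearGroup (Fin 2) F) :=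
  law_of_embedding (toSL (sl2Rep F (blockEquiv hn)) (sl2Rep_det F _))
    (toSL_injective _ _ (sl2Rep_injective F _)) h

theorem psl_law_alt {n : ℕ} (hn : 5 ≤ n)
    (h : IsLaw w (Matrix.ProjectiveSpecialLinearGroup (Fin n) F)) :
    IsLaw w (alternatingGroup (Fin n)) :=
  alt_law_of_embedding hn (toSL (altRep F (Fin n)) (altRep_det F _))
    (toSL_injective _ _ (altRep_injective F _)) h

/-- Symplectic case. -/
theorem psp_law_sl2 {m : ℕ} (hm : 1 ≤ m)
    (h : IsLaw w (Cfsg.PSp m F)) :
    IsLaw w (Matrix.ProjectiveSpecialLinearGroup (Fin 2) F) := by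
  let φ : SpecialLinearGroup (Fin 2) F →* Matrix.symplecticGroup (Fin m) F :=
    ((spBlock (F := F) (⟨0, hm⟩ : Fin m)).comp (Cfsg.slToMat 2 F)).codRestrict
      (Matrix.symplecticGroup (Fin m) F) (fun g => spBlock_mem_symplectic _ _ g.2)
  refine law_of_embedding φ (fun a b hab => ?_) h
  exact slToMat_injective F (spBlock_injective _ (congrArg Subtype.val hab))

theorem psp_law_alt {m : ℕ} (hm : 5 ≤ m) (h : IsLaw w (Cfsg.PSp m F)) :
    IsLaw w (alternatingGroup (Fin m)) := by
  let φ : alternatingGroup (Fin m) →* Matrix.symplecticGroup (Fin m) F :=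
    ((doubleHom (ι := Fin m) (F := F)).comp (alternatingGroup (Fin m)).subtype).codRestrict
      (Matrix.symplecticGroup (Fin m) F) (fun g => doubleHom_mem_symplectic _)
  refine alt_law_of_embedding hm φ (fun a b hab => ?_) h
  exact Subtype.ext (doubleHom_injective (congrArg Subtype.val hab))

/-- Unitary case. -/
theorem hermForm_extend {q k n : ℕ} (e : Fin 2 ⊕ Fin k ≃ Fin n) {M : Matrix (Fin 2) (Fin 2) F}
    (hM : ∀ u v, Cfsg.hermForm 2 F q (M *ᵥ u) (M *ᵥ v) = Cfsg.hermForm 2 F q u v)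
    (u v : Fin n → F) :
    Cfsg.hermForm n F q (extendHom e M *ᵥ u) (extendHom e M *ᵥ v) = Cfsg.hermForm n F q u v := by
  simp only [Cfsg.hermForm]
  rw [sum_extend e, sum_extend e (fun i => u i * v i ^ q)]
  simp only [extendHom_mulVec_inr]
  congr 1
  simp only [extendHom_mulVec_inl]
  exact hM (fun k => u (e (.inl k))) (fun k => v (e (.inl k)))

theorem hermForm_perm {q n : ℕ} (σ : Equiv.Perm (Fin n)) (u v : Fin n → F) :
    Cfsg.hermForm n F q (permHom σ *ᵥ u) (permHom σ *ᵥ v) = Cfsg.hermForm n F q u v := by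
  simp only [Cfsg.hermForm, permHom_mulVec_apply]
  exact Equiv.sum_comp (σ⁻¹ : Equiv.Perm (Fin n)) (fun i => u i * v i ^ q)

theorem psu_law_alt {q n : ℕ} (hn : 5 ≤ n) (h : IsLaw w (Cfsg.PSU n F q)) :
    IsLaw w (alternatingGroup (Fin n)) := by
  let φ : alternatingGroup (Fin n) →* Cfsg.SU n F q :=
    (toSL (altRep F (Fin n)) (altRep_det F _)).codRestrict (Cfsg.SU n F q)
      (fun g u v => hermForm_perm F (g : Equiv.Perm (Fin n)) u v)
  refine alt_law_of_embedding hn φ (fun a b hab => ?_) h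
  exact toSL_injective _ _ (altRep_injective F _) (congrArg Subtype.val hab)

/-- `SU₂ → SU_n`. -/
def su2Rep {q : ℕ} {n : ℕ} (hn : 2 ≤ n) : Cfsg.SU 2 F q →* Matrix (Fin n) (Fin n) F :=
  (extendHom (blockEquiv hn)).comp ((Cfsg.slToMat 2 F).comp (Cfsg.SU 2 F q).subtype)

theorem psu_law_su2 {q n : ℕ} (hn : 2 ≤ n) (K : Type) [Field K]
    (e : Cfsg.SU 2 F q ≃* SpecialLinearGroup (Fin 2) K)
    (h : IsLaw w (Cfsg.PSU n F q)) :
    IsLaw w (Matrix.ProjectiveSpecialLinearGroup (Fin 2) K) := by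
  have hdet : ∀ g : Cfsg.SU 2 F q, (su2Rep F (q := q) hn g).det = 1 := fun g => by
    change (extendHom (blockEquiv hn) ((g.1 : SpecialLinearGroup (Fin 2) F) :
      Matrix (Fin 2) (Fin 2) F)).det = 1
    rw [det_extendHom]
    exact g.1.2
  let φ₀ : Cfsg.SU 2 F q →* Cfsg.SU n F q :=
    (toSL (su2Rep F (q := q) hn) hdet).codRestrict (Cfsg.SU n F q)
      (fun g u v => hermForm_extend F (blockEquiv hn) (fun u v => g.2 u v) u v)
  have hφ₀ : Function.Injective φ₀ := fun a b hab => by
    have h1 := congrArg (fun x : Cfsg.SU n F q => ((x.1 : SpecialLinearGroup (Fin n) F) :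
      Matrix (Fin n) (Fin n) F)) hab
    have h2 := extendHom_injective _ h1
    exact Subtype.ext (Subtype.ext h2)
  refine law_of_embedding (φ₀.comp e.symm.toMonoidHom) (hφ₀.comp e.symm.injective) h

/-! ### Orthogonal case -/

theorem quadFormPlus_double {m : ℕ} (σ : Equiv.Perm (Fin m)) (v : Fin m ⊕ Fin m → F) :
    Cfsg.quadFormPlus m F (doubleHom σ *ᵥ v) = Cfsg.quadFormPlus m F v := by
  simp only [Cfsg.quadFormPlus, doubleHom_mulVec_inl, doubleHom_mulVec_inr]
  exact Equiv.sum_comp (σ⁻¹ : Equiv.Perm (Fin m)) (fun i => v (.inl i) * v (.inr i))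

/-- `(Fin 2 ⊕ Fin 2) ⊕ (Fin k ⊕ Fin k) ≃ Fin (2 + k) ⊕ Fin (2 + k)`. -/
def plusEquiv (k : ℕ) : (Fin 2 ⊕ Fin 2) ⊕ (Fin k ⊕ Fin k) ≃ Fin (2 + k) ⊕ Fin (2 + k) :=
  (Equiv.sumSumSumComm _ _ _ _).trans (Equiv.sumCongr finSumFinEquiv finSumFinEquiv)

theorem plus_split (k : ℕ) (v : Fin (2 + k) ⊕ Fin (2 + k) → F) :
    Cfsg.quadFormPlus (2 + k) F v =
      Cfsg.quadFormPlus 2 F (fun i => v (plusEquiv k (.inl i))) +
      Cfsg.quadFormPlus k F (fun r => v (plusEquiv k (.inr r))) := by
  simp only [Cfsg.quadFormPlus]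
  rw [Fin.sum_univ_add]
  rfl

variable {ι ρ : Type} [Fintype ι] [DecidableEq ι] [Fintype ρ] [DecidableEq ρ]
  {Q : (ι → F) → F} {R : (ρ → F) → F}

theorem orth_law_alt {m : ℕ} (hm : 5 ≤ m) (e : (Fin m ⊕ Fin m) ⊕ ρ ≃ ι)
    (hQ : ∀ v, Q v = Cfsg.quadFormPlus m F (fun k => v (e (.inl k))) + R (fun r => v (e (.inr r))))
    (h : IsLaw w (Cfsg.POmega F Q)) : IsLaw w (alternatingGroup (Fin m)) := by
  have hperf : commutator (alternatingGroup (Fin m)) = ⊤ :=
    commutator_alternatingGroup_eq_top (by simpa using hm)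
  let τ : alternatingGroup (Fin m) →* Matrix ι ι F :=
    (extendHom e).comp ((doubleHom (ι := Fin m) (F := F)).comp (alternatingGroup (Fin m)).subtype)
  have hτ : Function.Injective τ := (extendHom_injective e).comp
    (doubleHom_injective.comp (Subgroup.subtype_injective _))
  have hp : ∀ g v, Q (τ g *ᵥ v) = Q v := fun g v =>
    preserves_extend e hQ (fun v => quadFormPlus_double F _ v) v
  exact alt_law_of_embedding hm (toCommutator hperf (toO τ hp))
    (toCommutator_injective _ _ (toO_injective _ _ hτ)) h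

theorem orth_law_sl2 [Fintype F] (hF : 4 ≤ Fintype.card F) {k : ℕ}
    (e : (Fin (2 + k) ⊕ Fin (2 + k)) ⊕ ρ ≃ ι)
    (hQ : ∀ v, Q v = Cfsg.quadFormPlus (2 + k) F (fun k => v (e (.inl k))) +
      R (fun r => v (e (.inr r))))
    (h : IsLaw w (Cfsg.POmega F Q)) :
    IsLaw w (Matrix.ProjectiveSpecialLinearGroup (Fin 2) F) := by
  have hperf := perfect_sl2 F hF
  let τ₀ : SpecialLinearGroup (Fin 2) F →* Matrix (Fin 2 ⊕ Fin 2) (Fin 2 ⊕ Fin 2) F :=
    (orthHom (F := F)).comp (Cfsg.slToMat 2 F)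
  have h₀ : Function.Injective τ₀ := orthHom_injective.comp (slToMat_injective F)
  have p₀ : ∀ g v, Cfsg.quadFormPlus 2 F (τ₀ g *ᵥ v) = Cfsg.quadFormPlus 2 F v := fun g v => by
    change Cfsg.quadFormPlus 2 F (orthHom (g : Matrix (Fin 2) (Fin 2) F) *ᵥ v) = _
    rw [quadFormPlus_orthHom, g.2, one_mul]
  let τ₁ : SpecialLinearGroup (Fin 2) F →* Matrix _ _ F := (extendHom (plusEquiv k)).comp τ₀
  have h₁ : Function.Injective τ₁ := (extendHom_injective _).comp h₀
  have p₁ : ∀ g v, Cfsg.quadFormPlus (2 + k) F (τ₁ g *ᵥ v) = Cfsg.quadFormPlus (2 + k) F v :=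
    fun g v => preserves_extend _ (plus_split F k) (fun v => p₀ g v) v
  let τ : SpecialLinearGroup (Fin 2) F →* Matrix ι ι F := (extendHom e).comp τ₁
  have hτ : Function.Injective τ := (extendHom_injective e).comp h₁
  have hp : ∀ g v, Q (τ g *ᵥ v) = Q v := fun g v =>
    preserves_extend e hQ (fun v => p₁ g v) v
  exact law_of_embedding (toCommutator hperf (toO τ hp))
    (toCommutator_injective _ _ (toO_injective _ _ hτ)) h

/-! ### Cardinality bounds -/

theorem card_matrix_le (ι : Type) [Fintype ι] [Fintype F] {B : ℕ} (hB : 1 ≤ B)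
    (hι : Fintype.card ι ≤ B) (hF : Fintype.card F ≤ B) :
    Nat.card (Matrix ι ι F) ≤ B ^ (B * B) := by
  classical
  have h1 : Nat.card (Matrix ι ι F) = (Fintype.card F) ^ (Fintype.card ι * Fintype.card ι) := by
    change Nat.card (ι → ι → F) = _
    rw [Nat.card_eq_fintype_card, Fintype.card_fun, Fintype.card_fun, ← pow_mul]
  rw [h1]
  calc (Fintype.card F) ^ (Fintype.card ι * Fintype.card ι)
      ≤ B ^ (Fintype.card ι * Fintype.card ι) := Nat.pow_le_pow_left hF _
    _ ≤ B ^ (B * B) := Nat.pow_le_pow_right hB (Nat.mul_le_mul hι hι)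

theorem card_quot_le {G : Type*} [Group G] [Finite G] (N : Subgroup G) [N.Normal] :
    Nat.card (G ⧸ N) ≤ Nat.card G :=
  Nat.card_le_card_of_surjective (QuotientGroup.mk' N) (QuotientGroup.mk'_surjective N)

theorem card_psl_le [Fintype F] {n B : ℕ} (hB : 1 ≤ B) (hn : n ≤ B) (hF : Fintype.card F ≤ B) :
    Nat.card (Matrix.ProjectiveSpecialLinearGroup (Fin n) F) ≤ B ^ (B * B) := by
  refine (card_quot_le _).trans (le_trans ?_ (card_matrix_le F (Fin n) hB (by simpa using hn) hF))
  exact Nat.card_le_card_of_injective (Subtype.val) Subtype.val_injective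

theorem card_psp_le [Fintype F] {m B : ℕ} (hB : 1 ≤ B) (hm : 2 * m ≤ B)
    (hF : Fintype.card F ≤ B) :
    Nat.card (Cfsg.PSp m F) ≤ B ^ (B * B) := by
  refine (card_quot_le _).trans (le_trans ?_
    (card_matrix_le F (Fin m ⊕ Fin m) hB (by simp; omega) hF))
  exact Nat.card_le_card_of_injective (Subtype.val) Subtype.val_injective

theorem card_psu_le [Fintype F] {n q B : ℕ} (hB : 1 ≤ B) (hn : n ≤ B) (hF : Fintype.card F ≤ B) :
    Nat.card (Cfsg.PSU n F q) ≤ B ^ (B * B) := by
  refine (card_quot_le _).trans (le_trans ?_ (card_matrix_le F (Fin n) hB (by simpa using hn) hF))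
  exact Nat.card_le_card_of_injective (fun x => ((x.1 : SpecialLinearGroup (Fin n) F) :
    Matrix (Fin n) (Fin n) F)) (fun a b h => Subtype.ext (Subtype.ext h))

theorem card_pomega_le [Fintype F] {B : ℕ} (hB : 1 ≤ B) (hι : Fintype.card ι ≤ B)
    (hF : Fintype.card F ≤ B) : Nat.card (Cfsg.POmega F Q) ≤ B ^ (B * B) := by
  refine (card_quot_le _).trans (le_trans ?_ (card_matrix_le F ι hB hι hF))
  exact Nat.card_le_card_of_injective (fun x => ((x.1.1 : Matrix.GeneralLinearGroup ι F) :
    Matrix ι ι F)) (fun a b h => Subtype.ext (Subtype.ext (Units.ext h)))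

end bounds

/-- A non-trivial law is satisfied by only finitely many finite simple groups that are alternating or classical, up to isomorphism: for every non-trivial element w of the free group on countably many generators there is a bound N such that every alternating group of degree ≥ 5 and every simple classical group (linear, symplectic, unitary or orthogonal, in this problem's sense) in which w is a law has order at most N. -/
theorem result (w : FreeGroup ℕ) (hw : w ≠ 1) :
    ∃ N : ℕ, ∀ (G : Type*) [Group G] [Finite G],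
      (Cfsg.IsAlternating G ∨ Cfsg.IsPSL G ∨ Cfsg.IsPSp G ∨ Cfsg.IsPSU G ∨ Cfsg.IsPOmegaOdd G ∨
          Cfsg.IsPOmegaPlus G ∨ Cfsg.IsPOmegaMinus G) →
      (∀ f : ℕ → G, FreeGroup.lift f w = 1) → Nat.card G ≤ N := by
  classical
  obtain ⟨N₁, hN₁⟩ := Cfsg.Agent.S2352.result w hw
  obtain ⟨N₂, hN₂⟩ := Cfsg.Agent.S2353.result.{0} w hw
  have hA : ∀ n, 5 + N₁ ≤ n → ¬ IsLaw w (alternatingGroup (Fin n)) := by
    intro n hn hl
    obtain ⟨f, hf⟩ := hN₁ n (by omega)
    exact hf (hl f)
  have hP : ∀ (F : Type) [Field F] [Fintype F], 4 + N₂ ≤ Fintype.card F →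
      ¬ IsLaw w (Matrix.ProjectiveSpecialLinearGroup (Fin 2) F) := by
    intro F _ _ hn hl
    obtain ⟨f, hf⟩ := hN₂ F (by omega)
    exact hf (hl f)
  set M := 5 + N₁ + (4 + N₂) with hM
  set B := M * M + 2 * M + 2 with hB
  have hMB : M ≤ B := by nlinarith
  have hB1 : 1 ≤ B := by omega
  have h2MB : 2 * M + 2 ≤ B := by nlinarith
  refine ⟨B ^ (B * B) + (5 + N₁).factorial, ?_⟩
  intro G _ _ hG hlaw
  -- an auxiliary
  have key : ∀ X : Type, ∀ [Group X], (G ≃* X) → IsLaw w X ∧ Nat.card G = Nat.card X := by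
    intro X _ e
    exact ⟨IsLaw.of_mulEquiv e hlaw, Nat.card_congr e.toEquiv⟩
  rcases hG with ⟨n, hn, ⟨e⟩⟩ | ⟨F, _, _, n, hn, hn2, ⟨e⟩⟩ | ⟨F, _, _, m, hm, hm2, ⟨e⟩⟩ |
    ⟨F, _, _, n, q, hq, hn, hn2, ⟨e⟩⟩ | ⟨F, _, _, m, hm, hodd, ⟨e⟩⟩ | ⟨F, _, _, m, hm, ⟨e⟩⟩ |
    ⟨F, _, _, m, a, b, hm, hab, ⟨e⟩⟩
  · -- alternating
    obtain ⟨hl, hc⟩ := key _ e
    have hn' : n < 5 + N₁ := by
      by_contra hcon
      exact hA n (by omega) hl
    rw [hc]
    calc Nat.card (alternatingGroup (Fin n)) ≤ Nat.card (Equiv.Perm (Fin n)) :=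
          Nat.card_le_card_of_injective Subtype.val Subtype.val_injective
      _ = n.factorial := by rw [Nat.card_eq_fintype_card, Fintype.card_perm, Fintype.card_fin]
      _ ≤ (5 + N₁).factorial := Nat.factorial_le hn'.le
      _ ≤ _ := Nat.le_add_left _ _
  · -- linear
    obtain ⟨hl, hc⟩ := key _ e
    have hn' : n < 5 + N₁ := by
      by_contra hcon
      exact hA n (by omega) (psl_law_alt F (by omega) hl)
    have hF' : Fintype.card F < 4 + N₂ := by
      by_contra hcon
      exact hP F (by omega) (psl_law_sl2 F hn hl)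
    rw [hc]
    exact (card_psl_le F hB1 (by omega) (by omega)).trans (Nat.le_add_right _ _)
  · -- symplectic
    obtain ⟨hl, hc⟩ := key _ e
    have hn' : m < 5 + N₁ := by
      by_contra hcon
      exact hA m (by omega) (psp_law_alt F (by omega) hl)
    have hF' : Fintype.card F < 4 + N₂ := by
      by_contra hcon
      exact hP F (by omega) (psp_law_sl2 F (by omega) hl)
    rw [hc]
    exact (card_psp_le F hB1 (by omega) (by omega)).trans (Nat.le_add_right _ _)
  · -- unitary
    obtain ⟨hl, hc⟩ := key _ e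
    have hn' : n < 5 + N₁ := by
      by_contra hcon
      exact hA n (by omega) (psu_law_alt F (by omega) hl)
    obtain ⟨p, k, hp, -, rfl⟩ := Cfsg.Agent.Lib.Classical.Herm.Basic.exists_char_pow hq
    have hk : k ≠ 0 := by
      rintro rfl
      have := Fintype.one_lt_card (α := F)
      rw [hq] at this
      simp at this
    have : Fact p.Prime := ⟨hp⟩
    let K := GaloisField p k
    have hKc : Nat.card K = p ^ k := GaloisField.card p k hk
    have : Fintype K := Fintype.ofFinite K
    have hKc' : Fintype.card K = p ^ k := by rw [← Nat.card_eq_fintype_card, hKc]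
    obtain ⟨e'⟩ := Cfsg.Agent.S0281.result (F := F) (K := K) hq hKc'
    have hF' : p ^ k < 4 + N₂ := by
      by_contra hcon
      exact hP K (by omega) (psu_law_su2 F (by omega) K e' hl)
    rw [hc]
    refine (card_psu_le F hB1 (by omega) ?_).trans (Nat.le_add_right _ _)
    rw [hq]
    have : p ^ k ≤ M := by omega
    nlinarith
  · -- odd orthogonal
    obtain ⟨hl, hc⟩ := key _ e
    let eQ : (Fin m ⊕ Fin m) ⊕ Unit ≃ Unit ⊕ (Fin m ⊕ Fin m) := Equiv.sumComm _ _
    have hQ : ∀ v, Cfsg.quadFormOdd m F v =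
        Cfsg.quadFormPlus m F (fun k => v (eQ (.inl k))) +
          (fun r : Unit → F => r () ^ 2) (fun r => v (eQ (.inr r))) := fun v => by
      simp only [Cfsg.quadFormOdd, Cfsg.quadFormPlus]
      rw [add_comm]
      rfl
    have hn' : m < 5 + N₁ := by
      by_contra hcon
      exact hA m (by omega) (orth_law_alt F (by omega) eQ (R := fun r : Unit → F => r () ^ 2) hQ hl)
    have hF' : Fintype.card F < 4 + N₂ := by
      by_contra hcon
      obtain ⟨k, rfl⟩ : ∃ k, m = 2 + k := ⟨m - 2, by omega⟩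
      exact hP F (by omega) (orth_law_sl2 F (by omega) eQ (R := fun r : Unit → F => r () ^ 2) hQ hl)
    rw [hc]
    refine (card_pomega_le F hB1 ?_ (by omega)).trans (Nat.le_add_right _ _)
    simp
    omega
  · -- plus orthogonal
    obtain ⟨hl, hc⟩ := key _ e
    let eQ : (Fin m ⊕ Fin m) ⊕ Empty ≃ (Fin m ⊕ Fin m) := Equiv.sumEmpty _ _
    have hQ : ∀ v, Cfsg.quadFormPlus m F v =
        Cfsg.quadFormPlus m F (fun k => v (eQ (.inl k))) +
          (fun _ : Empty → F => (0 : F)) (fun r => v (eQ (.inr r))) := fun v => by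
      simp only [add_zero]
      rfl
    have hn' : m < 5 + N₁ := by
      by_contra hcon
      exact hA m (by omega) (orth_law_alt F (by omega) eQ (R := fun _ : Empty → F => (0 : F)) hQ hl)
    have hF' : Fintype.card F < 4 + N₂ := by
      by_contra hcon
      obtain ⟨k, rfl⟩ : ∃ k, m = 2 + k := ⟨m - 2, by omega⟩
      exact hP F (by omega) (orth_law_sl2 F (by omega) eQ (R := fun _ : Empty → F => (0 : F)) hQ hl)
    rw [hc]
    refine (card_pomega_le F hB1 ?_ (by omega)).trans (Nat.le_add_right _ _)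
    simp
    omega
  · -- minus orthogonal
    obtain ⟨m', rfl⟩ : ∃ m', m = m' + 1 := ⟨m - 1, by omega⟩
    have e' : G ≃* Cfsg.POmega F (Cfsg.quadFormMinus m' F a b) := e
    obtain ⟨hl, hc⟩ := key _ e'
    let eQ : (Fin m' ⊕ Fin m') ⊕ Fin 2 ≃ (Fin m' ⊕ Fin m') ⊕ Fin 2 := Equiv.refl _
    have hQ : ∀ v, Cfsg.quadFormMinus m' F a b v =
        Cfsg.quadFormPlus m' F (fun k => v (eQ (.inl k))) +
          (fun r : Fin 2 → F => r 0 ^ 2 + a * r 0 * r 1 + b * r 1 ^ 2)
            (fun r => v (eQ (.inr r))) := fun v => rfl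
    have hn' : m' < 5 + N₁ := by
      by_contra hcon
      exact hA m' (by omega) (orth_law_alt F (by omega) eQ
        (R := fun r : Fin 2 → F => r 0 ^ 2 + a * r 0 * r 1 + b * r 1 ^ 2) hQ hl)
    have hF' : Fintype.card F < 4 + N₂ := by
      by_contra hcon
      obtain ⟨k, rfl⟩ : ∃ k, m' = 2 + k := ⟨m' - 2, by omega⟩
      exact hP F (by omega) (orth_law_sl2 F (by omega) eQ
        (R := fun r : Fin 2 → F => r 0 ^ 2 + a * r 0 * r 1 + b * r 1 ^ 2) hQ hl)
    rw [hc]
    refine (card_pomega_le F hB1 ?_ (by omega)).trans (Nat.le_add_right _ _)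
    simp
    omega

end Cfsg.Agent.S2355
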