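import Cfsg.Statements.S2356
import Mathlib
import Cfsg.Agent.Lib.Classical.Herm.SU3Invol

set_option autoImplicit false
open Cfsg

namespace Cfsg.Agent.S2356

/-- Let q be odd, F the field with q² elements, S = SU_3(F) (determinant-one isometries of the standard Hermitian form) and t an involution of S. Then: exactly q(q−1) involutions other than t commute with t; exactly q(q−2)(q²−1) involutions do not commute with t but commute with some involution commuting with t; exactly (q+1)(q²−1) involutions x do not commute with t and admit no involution commuting with both t and x; and every involution can be reached from t in at most three steps, each step going to an involution that commutes with the previous one (the commuting involution graph is connected of diameter 3). -/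
theorem result {F : Type*} [Field F] [Fintype F] {q : ℕ} (hq : Odd q)
    (hF : Fintype.card F = q ^ 2) (t : ↥(Cfsg.SU 3 F q)) (ht : t ≠ 1) (ht2 : t * t = 1) :
    Nat.card {x : ↥(Cfsg.SU 3 F q) // x ≠ 1 ∧ x * x = 1 ∧ x ≠ t ∧ Commute t x} = q * (q - 1) ∧
    Nat.card {x : ↥(Cfsg.SU 3 F q) // x ≠ 1 ∧ x * x = 1 ∧ ¬ Commute t x ∧
        ∃ y : ↥(Cfsg.SU 3 F q), y ≠ 1 ∧ y * y = 1 ∧ Commute t y ∧ Commute y x} = q * (q - 2) * (q ^ 2 - 1) ∧
    Nat.card {x : ↥(Cfsg.SU 3 F q) // x ≠ 1 ∧ x * x = 1 ∧ ¬ Commute t x ∧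
        ∀ y : ↥(Cfsg.SU 3 F q), y ≠ 1 → y * y = 1 → ¬ (Commute t y ∧ Commute y x)} = (q + 1) * (q ^ 2 - 1) ∧
    ∀ x : ↥(Cfsg.SU 3 F q), x ≠ 1 → x * x = 1 →
      ∃ y z : ↥(Cfsg.SU 3 F q), y ≠ 1 ∧ y * y = 1 ∧ z ≠ 1 ∧ z * z = 1 ∧
        Commute t y ∧ Commute y z ∧ Commute z x := by
  have h2 : (2 : F) ≠ 0 := Cfsg.Agent.Lib.Classical.Herm.SU3Invol.two_ne_zero_of_odd hF hq
  have hq2 := Cfsg.Agent.Lib.Classical.Herm.Basic.two_le_q hF
  have hq3 : 3 ≤ q := by
    obtain ⟨k, hk⟩ := hq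
    omega
  obtain ⟨v₀, hv⟩ := Cfsg.Agent.Lib.Classical.Herm.SU3Invol.exists_isRefl_of_invol hF h2 ht ht2
  obtain ⟨v₁, hv₁, h01⟩ := Cfsg.Agent.Lib.Classical.Herm.SU3Invol.exists_second hF hv.1
  obtain ⟨v₂, hb⟩ := Cfsg.Agent.Lib.Classical.Herm.SU3Invol.exists_third hF hv.1 hv₁ h01
  have hpos : 0 < q + 1 := by omega
  have hsq : q ^ 2 - 1 = (q - 1) * (q + 1) := by
    obtain ⟨r, rfl⟩ : ∃ r, q = r + 1 := ⟨q - 1, by omega⟩
    simp only [Nat.add_sub_cancel]
    have : (r + 1) ^ 2 = r * (r + 1 + 1) + 1 := by ring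
    rw [this, Nat.add_sub_cancel]
  refine ⟨?_, ?_, ?_, ?_⟩
  · apply Nat.eq_of_mul_eq_mul_right hpos
    rw [Cfsg.Agent.Lib.Classical.Herm.SU3Invol.card_dist_one hF h2 hv hb, hsq]
    ring
  · apply Nat.eq_of_mul_eq_mul_right hpos
    rw [Cfsg.Agent.Lib.Classical.Herm.SU3Invol.card_dist_two hF h2 hv hb]
    have hG := Cfsg.Agent.Lib.Classical.Herm.SU3Invol.card_generic_set (F := F) hF
    have hG' : Nat.card {a : F // a ≠ 0 ∧ a ^ (q + 1) ≠ 1} = (q + 1) * (q - 2) := by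
      obtain ⟨r, rfl⟩ : ∃ r, q = r + 2 := ⟨q - 2, by omega⟩
      simp only [Nat.add_sub_cancel]
      nlinarith
    rw [hG']
    ring
  · apply Nat.eq_of_mul_eq_mul_right hpos
    rw [Cfsg.Agent.Lib.Classical.Herm.SU3Invol.card_dist_three hF h2 hv hb]
    ring
  · intro x hx hxx
    exact Cfsg.Agent.Lib.Classical.Herm.SU3Invol.exists_path hF h2 hv hb hx hxx

end Cfsg.Agent.S2356
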