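import Cfsg.Statements.S2360
import Mathlib
import Cfsg.Agent.Lib.Classical.Herm.SU3Invol

set_option autoImplicit false
open Cfsg

namespace Cfsg.Agent.S2360

/-- Let q be odd, F the field with q² elements and S = SU_3(F) (determinant-one isometries of the standard Hermitian form). Then all involutions of S are conjugate; there are exactly q²(q²−q+1) of them; the centralizer of an involution has order q(q+1)(q²−1), the order of the full unitary group of degree 2; and for two distinct commuting involutions t and x there is exactly one further involution commuting with both. -/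
theorem result {F : Type*} [Field F] [Fintype F] {q : ℕ} (hq : Odd q)
    (hF : Fintype.card F = q ^ 2) (t : ↥(Cfsg.SU 3 F q)) (ht : t ≠ 1) (ht2 : t * t = 1) :
    (∀ x : ↥(Cfsg.SU 3 F q), x ≠ 1 → x * x = 1 → ∃ g : ↥(Cfsg.SU 3 F q), g * t * g⁻¹ = x) ∧
    Nat.card {x : ↥(Cfsg.SU 3 F q) // x ≠ 1 ∧ x * x = 1} = q ^ 2 * (q ^ 2 - q + 1) ∧
    Nat.card ↥(Subgroup.centralizer ({t} : Set ↥(Cfsg.SU 3 F q))) = q * (q + 1) * (q ^ 2 - 1) ∧
    ∀ x : ↥(Cfsg.SU 3 F q), x ≠ 1 → x * x = 1 → x ≠ t → Commute t x →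
      Nat.card {y : ↥(Cfsg.SU 3 F q) // y ≠ 1 ∧ y * y = 1 ∧ y ≠ t ∧ y ≠ x ∧ Commute t y ∧ Commute x y} = 1 := by
  have h2 : (2 : F) ≠ 0 := Cfsg.Agent.Lib.Classical.Herm.SU3Invol.two_ne_zero_of_odd hF hq
  have hq2 := Cfsg.Agent.Lib.Classical.Herm.Basic.two_le_q hF
  obtain ⟨r, hr, hr'⟩ : ∃ r, q ^ 2 - q + 1 = r ∧ r + q = q ^ 2 + 1 := by
    refine ⟨_, rfl, ?_⟩
    have : q ≤ q ^ 2 := by nlinarith
    omega
  have hr3 : (q + 1) * r = q ^ 3 + 1 := by
    have h3 : ((q + 1) * r : ℤ) = q ^ 3 + 1 := by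
      have h4 : (r : ℤ) = q ^ 2 + 1 - q := by
        have : ((r + q : ℕ) : ℤ) = ((q ^ 2 + 1 : ℕ) : ℤ) := by rw [hr']
        push_cast at this
        linarith
      rw [h4]
      ring
    exact_mod_cast h3
  have hrpos : 0 < r := by
    have : q ≤ q ^ 2 := by nlinarith
    omega
  have hI := Cfsg.Agent.Lib.Classical.Herm.SU3Invol.card_invol hF h2
  have hI' : Nat.card {x : ↥(Cfsg.SU 3 F q) // x ≠ 1 ∧ x * x = 1} = q ^ 2 * r := by
    apply Nat.eq_of_mul_eq_mul_right (show 0 < q + 1 by omega)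
    rw [hI, ← hr3]
    ring
  refine ⟨fun x hx hxx => Cfsg.Agent.Lib.Classical.Herm.SU3Invol.exists_conj hF h2 ht ht2 hx hxx, ?_, ?_, ?_⟩
  · rw [hI', hr]
  · have hC := Cfsg.Agent.Lib.Classical.Herm.SU3Invol.card_centralizer_mul hF h2 ht ht2
    have hS := Cfsg.Agent.Lib.Classical.Herm.SU.card_SU hF (n := 3) (by norm_num)
    simp only [Finset.prod_range_succ, Finset.prod_range_zero] at hS
    norm_num at hS
    rw [hI'] at hC
    have hq0 : 0 < q := by omega
    apply Nat.eq_of_mul_eq_mul_right (show 0 < q ^ 2 * r by positivity)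
    rw [hC]
    apply Nat.eq_of_mul_eq_mul_left (show 0 < q + 1 by omega)
    rw [hS, ← hr3]
    ring
  · intro x hx hxx hne hc
    exact Cfsg.Agent.Lib.Classical.Herm.SU3Invol.exists_unique_third hF h2 ht ht2 hx hxx hne hc

end Cfsg.Agent.S2360
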