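import Cfsg.Statements.S2385
import Mathlib
import Cfsg.Agent.Lib.Classical.Herm.SpReal
import Cfsg.Agent.S2389

set_option autoImplicit false
open Cfsg

namespace Cfsg.Agent.S2385

/-- In the symplectic group `Sp_{2n}(q)`, `q` a power of the prime `p`, the number of conjugacy classes of elements of order prime to `p` is `q^n`. -/
theorem result {F : Type*} [Field F] [Fintype F] {q : ℕ} (hq : Fintype.card F = q) (p : ℕ) [Fact p.Prime] [CharP F p] (n : ℕ) :
    Nat.card {c : ConjClasses ↥(Matrix.symplecticGroup (Fin n) F) //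
      ∃ g : ↥(Matrix.symplecticGroup (Fin n) F), ConjClasses.mk g = c ∧ (orderOf g).Coprime p} = q ^ n := by
  classical
  subst hq
  open Cfsg.Agent.Lib.Classical.Herm.SpReal Cfsg.Agent.Lib.Classical.Herm.Palin in
  have hc : ∀ f : {f : Polynomial F // IsPal n f}, ∃ u : Matrix.symplecticGroup (Fin n) F, (orderOf u).Coprime p ∧
      (u : Matrix (Fin n ⊕ Fin n) (Fin n ⊕ Fin n) F).charpoly = f.1 := fun f => exists_sp_of_isPal f.2
  choose u hu hcu using hc
  open Cfsg.Agent.Lib.Classical.Herm.SpReal Cfsg.Agent.Lib.Classical.Herm.Palin in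
  let Ψ : {f : Polynomial F // IsPal n f} → {c : ConjClasses ↥(Matrix.symplecticGroup (Fin n) F) //
      ∃ g : ↥(Matrix.symplecticGroup (Fin n) F), ConjClasses.mk g = c ∧ (orderOf g).Coprime p} :=
    fun f => ⟨ConjClasses.mk (u f), u f, rfl, hu f⟩
  open Cfsg.Agent.Lib.Classical.Herm.SpReal Cfsg.Agent.Lib.Classical.Herm.Palin in
  have hΨ : Function.Bijective Ψ := by
    constructor
    · intro f f' h
      have h1 : ConjClasses.mk (u f) = ConjClasses.mk (u f') := congrArg Subtype.val h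
      have h2 : IsConj (u f) (u f') := ConjClasses.mk_eq_mk_iff_isConj.1 h1
      obtain ⟨w, hw⟩ := isConj_iff.1 h2
      apply Subtype.ext
      rw [← hcu f, ← hcu f', ← hw]
      let W : (Matrix (Fin n ⊕ Fin n) (Fin n ⊕ Fin n) F)ˣ := (Matrix.symplecticGroup (Fin n) F).subtype.toHomUnits w
      have h3 : ((w * u f * w⁻¹ : Matrix.symplecticGroup (Fin n) F) : Matrix (Fin n ⊕ Fin n) (Fin n ⊕ Fin n) F)
          = W.val * (u f : Matrix (Fin n ⊕ Fin n) (Fin n ⊕ Fin n) F) * (W⁻¹).val := by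
        rfl
      rw [h3]
      have h4 := Matrix.charpoly_units_conj W (u f : Matrix (Fin n ⊕ Fin n) (Fin n ⊕ Fin n) F)
      have h5 : (W.val)⁻¹ = (W⁻¹).val := by
        rw [Matrix.coe_units_inv]
      rw [h5] at h4
      exact h4.symm
    · rintro ⟨c, g, rfl, hg⟩
      refine ⟨⟨_, isPal_charpoly g⟩, ?_⟩
      apply Subtype.ext
      apply ConjClasses.mk_eq_mk_iff_isConj.2
      exact Cfsg.Agent.S2389.result p n _ _ (hu _) hg (hcu _)
  rw [← Nat.card_congr (Equiv.ofBijective Ψ hΨ)]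
  rw [Cfsg.Agent.Lib.Classical.Herm.SpReal.card_isPal (p := p), Nat.card_eq_fintype_card]

end Cfsg.Agent.S2385
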