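import Cfsg.Statements.S2390
import Mathlib
import Cfsg.Agent.Lib.Classical.Herm.SSCent

set_option autoImplicit false
open Cfsg

namespace Cfsg.Agent.S2390

/-- In the special unitary group `SU_n(q)` (inside `SL_n` over the field with `q²` elements), `q` a power of the prime `p`, two elements of order prime to `p` with the same characteristic polynomial are conjugate in `SU_n(q)`. -/
theorem result {F : Type*} [Field F] [Fintype F] {q : ℕ} (hF : Fintype.card F = q ^ 2) (p : ℕ) [Fact p.Prime] [CharP F p] (n : ℕ)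
    (g h : ↥(Cfsg.SU n F q)) (hg : (orderOf g).Coprime p) (hh : (orderOf h).Coprime p)
    (hc : ((g : Matrix.SpecialLinearGroup (Fin n) F) : Matrix (Fin n) (Fin n) F).charpoly =
      ((h : Matrix.SpecialLinearGroup (Fin n) F) : Matrix (Fin n) (Fin n) F).charpoly) : IsConj g h := by
  classical
  rcases Nat.eq_zero_or_pos n with rfl | hn
  · have : Subsingleton (Matrix.SpecialLinearGroup (Fin 0) F) := inferInstance
    have h1 : g = h := by
      apply Subtype.ext
      exact Subsingleton.elim _ _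
    rw [h1]
  let toGU : Cfsg.SU n F q → Cfsg.GU n F q := fun s => ⟨Matrix.SpecialLinearGroup.toGL s.1, s.2⟩
  have hord : ∀ s : Cfsg.SU n F q, orderOf (Matrix.SpecialLinearGroup.toGL s.1) = orderOf s := by
    intro s
    rw [Cfsg.Agent.Lib.Linalg.SemisimpleClasses.orderOf_toGL]
    exact orderOf_injective (Cfsg.SU n F q).subtype Subtype.val_injective s
  have hg' : (orderOf (Matrix.SpecialLinearGroup.toGL g.1)).Coprime p := by rw [hord]; exact hg
  have hh' : (orderOf (Matrix.SpecialLinearGroup.toGL h.1)).Coprime p := by rw [hord]; exact hh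
  have hGL := Cfsg.Agent.Lib.Linalg.SemisimpleClasses.isConj_GL_of_charpoly_eq p hg' hh' hc
  have hGU := Cfsg.Agent.Lib.Classical.Herm.NormMat.isConj_of_GL hF (toGU g) (toGU h) hGL
  obtain ⟨c, hc'⟩ := isConj_iff.1 hGU
  have hdc : ((c : GL (Fin n) F) : Matrix (Fin n) (Fin n) F).det ^ (q + 1) = 1 :=
    Cfsg.Agent.Lib.Classical.Herm.SU.det_pow_succ hF _ c.2
  have hdc0 : ((c : GL (Fin n) F) : Matrix (Fin n) (Fin n) F).det ≠ 0 := by
    intro h0
    rw [h0, zero_pow (by omega)] at hdc
    exact zero_ne_one hdc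
  have hz : (((c : GL (Fin n) F) : Matrix (Fin n) (Fin n) F).det)⁻¹ ^ (q + 1) = 1 := by
    rw [inv_pow, hdc, inv_one]
  obtain ⟨d, hd1, hd2⟩ := Cfsg.Agent.Lib.Classical.Herm.SSCent.exists_det_commute hF (n := n) hn (toGU g)
    ((Cfsg.Agent.Lib.Linalg.SemisimpleClasses.orderOf_coprime_iff p _).1 hg') hz
  set e : Cfsg.GU n F q := c * d with he
  have hdet : ((e : GL (Fin n) F) : Matrix (Fin n) (Fin n) F).det = 1 := by
    show (((c : GL (Fin n) F) * (d : GL (Fin n) F) : GL (Fin n) F) : Matrix (Fin n) (Fin n) F).det = 1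
    rw [Units.val_mul, Matrix.det_mul, hd2, mul_inv_cancel₀ hdc0]
  let s : Cfsg.SU n F q := Cfsg.Agent.Lib.Classical.Herm.SU.mkSU _ hdet e.2
  apply isConj_iff.2
  refine ⟨s, ?_⟩
  have hcong : toGU s = e := by
    apply Subtype.ext
    apply Units.ext
    rfl
  have hinj : Function.Injective toGU := by
    intro a b hab
    apply Subtype.ext
    apply Matrix.SpecialLinearGroup.toGL_injective
    exact congrArg Subtype.val hab
  apply hinj
  have hmul : ∀ a b : Cfsg.SU n F q, toGU (a * b) = toGU a * toGU b := fun a b =>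
    Subtype.ext (map_mul _ _ _)
  have hinv : ∀ a : Cfsg.SU n F q, toGU a⁻¹ = (toGU a)⁻¹ := fun a =>
    Subtype.ext (map_inv (Matrix.SpecialLinearGroup.toGL) _)
  rw [hmul, hmul, hinv, hcong, he, ← hc']
  calc c * d * toGU g * (c * d)⁻¹ = c * (d * toGU g) * d⁻¹ * c⁻¹ := by group
    _ = c * (toGU g * d) * d⁻¹ * c⁻¹ := by rw [hd1]
    _ = c * toGU g * c⁻¹ := by group

end Cfsg.Agent.S2390
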