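import Cfsg.Statements.S2386
import Mathlib
import Cfsg.Agent.Lib.Classical.Herm.SSCount
import Cfsg.Agent.S2390

set_option autoImplicit false
open Cfsg

open Cfsg.Agent.Lib.Classical.Herm.Wall

namespace Cfsg.Agent.S2386

/-- In the special unitary group `SU_n(q)` (matrices of determinant one over the field with `q²` elements preserving the standard Hermitian form), `q` a power of the prime `p`, the number of conjugacy classes of elements of order prime to `p` is `q^(n-1)`. -/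
theorem result {F : Type*} [Field F] [Fintype F] {q : ℕ} (hF : Fintype.card F = q ^ 2) (p : ℕ) [Fact p.Prime] [CharP F p] (n : ℕ) (hn : 1 ≤ n) :
    Nat.card {c : ConjClasses ↥(Cfsg.SU n F q) // ∃ g : ↥(Cfsg.SU n F q), ConjClasses.mk g = c ∧ (orderOf g).Coprime p} = q ^ (n - 1) := by
  classical
  obtain ⟨m, rfl⟩ : ∃ m, n = m + 1 := ⟨n - 1, by omega⟩
  rw [Nat.add_sub_cancel, ← Cfsg.Agent.Lib.Classical.Herm.SSCount.card_selfdual hF m]
  have hord : ∀ s : Cfsg.SU (m + 1) F q, orderOf (Matrix.SpecialLinearGroup.toGL s.1) = orderOf s := by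
    intro s
    rw [Cfsg.Agent.Lib.Linalg.SemisimpleClasses.orderOf_toGL]
    exact orderOf_injective (Cfsg.SU (m + 1) F q).subtype Subtype.val_injective s
  have hcp : ∀ g : Cfsg.SU (m + 1) F q,
      ((g : Matrix.SpecialLinearGroup (Fin (m + 1)) F) : Matrix (Fin (m + 1)) (Fin (m + 1)) F).charpoly.Monic ∧
      ((g : Matrix.SpecialLinearGroup (Fin (m + 1)) F) : Matrix (Fin (m + 1)) (Fin (m + 1)) F).charpoly.natDegree = m + 1 ∧
      ((g : Matrix.SpecialLinearGroup (Fin (m + 1)) F) : Matrix (Fin (m + 1)) (Fin (m + 1)) F).charpoly.coeff 0 = (-1) ^ (m + 1) ∧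
      dualP hF ((g : Matrix.SpecialLinearGroup (Fin (m + 1)) F) : Matrix (Fin (m + 1)) (Fin (m + 1)) F).charpoly =
        ((g : Matrix.SpecialLinearGroup (Fin (m + 1)) F) : Matrix (Fin (m + 1)) (Fin (m + 1)) F).charpoly := by
    intro g
    refine ⟨Matrix.charpoly_monic _, by rw [Matrix.charpoly_natDegree_eq_dim, Fintype.card_fin], ?_,
      Cfsg.Agent.Lib.Classical.Herm.SSCount.dualP_charpoly hF (Matrix.SpecialLinearGroup.toGL g.1) g.2⟩
    have h1 := Matrix.det_eq_sign_charpoly_coeff ((g : Matrix.SpecialLinearGroup (Fin (m + 1)) F) : Matrix (Fin (m + 1)) (Fin (m + 1)) F)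
    rw [Matrix.SpecialLinearGroup.det_coe, Fintype.card_fin] at h1
    have h2 : ((-1 : F) ^ (m + 1)) * (-1) ^ (m + 1) = 1 := by
      rw [← mul_pow]; simp
    calc ((g : Matrix.SpecialLinearGroup (Fin (m + 1)) F) : Matrix (Fin (m + 1)) (Fin (m + 1)) F).charpoly.coeff 0
        = ((-1 : F) ^ (m + 1) * (-1) ^ (m + 1)) * ((g : Matrix.SpecialLinearGroup (Fin (m + 1)) F) : Matrix (Fin (m + 1)) (Fin (m + 1)) F).charpoly.coeff 0 := by rw [h2, one_mul]
      _ = (-1) ^ (m + 1) * ((-1) ^ (m + 1) * ((g : Matrix.SpecialLinearGroup (Fin (m + 1)) F) : Matrix (Fin (m + 1)) (Fin (m + 1)) F).charpoly.coeff 0) := by ring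
      _ = (-1) ^ (m + 1) := by rw [← h1, mul_one]
  refine Nat.card_congr (Equiv.ofBijective (fun C => ⟨((C.2.choose : Cfsg.SU (m + 1) F q) : Matrix.SpecialLinearGroup (Fin (m + 1)) F).1.charpoly,
    hcp C.2.choose⟩) ⟨?_, ?_⟩)
  · rintro ⟨C, hC⟩ ⟨D, hD⟩ h
    simp only [Subtype.mk.injEq] at h
    apply Subtype.ext
    change C = D
    rw [← hC.choose_spec.1, ← hD.choose_spec.1]
    exact ConjClasses.mk_eq_mk_iff_isConj.mpr
      (Cfsg.Agent.S2390.result hF p (m + 1) _ _ hC.choose_spec.2 hD.choose_spec.2 h)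
  · rintro ⟨f, hfm, hfd, hf0, hfdual⟩
    have had := Cfsg.Agent.Lib.Linalg.SemisimpleClasses.adm_ofPoly (f := f)
    have hadm : ∀ a ∈ Cfsg.Agent.Lib.Linalg.SemisimpleClasses.ofPoly f, Cfsg.Agent.Lib.Linalg.RCF.Adm a := fun a ha => (had a ha).1
    have hp := Cfsg.Agent.Lib.Linalg.SemisimpleClasses.prod_ofPoly hfm
    have hne : (f.coeff 0) ≠ 0 := by
      rw [hf0]
      exact pow_ne_zero _ (by simp)
    have h1 := Cfsg.Agent.Lib.Linalg.SemisimpleClasses.coeff_zero_prod_type_ne_zero hadm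
    rw [hp] at h1
    have hX := h1.mp hne
    have hsum : ((Cfsg.Agent.Lib.Linalg.SemisimpleClasses.ofPoly f).map fun a => a.2 * a.1.natDegree).sum = Fintype.card (Fin (m + 1)) := by
      rw [← Cfsg.Agent.Lib.Linalg.SemisimpleClasses.natDegree_prod_type hadm, hp, hfd, Fintype.card_fin]
    -- self-duality of the type
    have hdual : dualT hF (Cfsg.Agent.Lib.Linalg.SemisimpleClasses.ofPoly f) = Cfsg.Agent.Lib.Linalg.SemisimpleClasses.ofPoly f := by
      have h2 := Cfsg.Agent.Lib.Linalg.SemisimpleClasses.ofPoly_prod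
        (τ := dualT hF (Cfsg.Agent.Lib.Linalg.SemisimpleClasses.ofPoly f)) (by
          intro a ha
          obtain ⟨b, hb, rfl⟩ := Multiset.mem_map.1 ha
          have hb0 := coeff_zero_ne_of_irreducible (hadm b hb).1 (hadm b hb).2.1 (hX b hb)
          exact ⟨⟨dualP_monic hF (hadm b hb).1 hb0, irreducible_dualP hF (hadm b hb).1 hb0 (hadm b hb).2.1,
            (hadm b hb).2.2⟩, (had b hb).2⟩)
      rw [← Cfsg.Agent.Lib.Classical.Herm.SSCount.dualP_prod_type hF, hp, hfdual] at h2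
      exact h2.symm
    obtain ⟨G, hG⟩ := exists_GU_of_type hF (n := m + 1) (τ := Cfsg.Agent.Lib.Linalg.SemisimpleClasses.ofPoly f)
      ⟨fun a ha => ⟨hadm a ha, hX a ha⟩, hsum⟩ hdual
    have hcpG : ((G : GL (Fin (m + 1)) F) : Matrix (Fin (m + 1)) (Fin (m + 1)) F).charpoly = f := by
      rw [Cfsg.Agent.Lib.Linalg.RCFType.charpoly_eq_prod_matType, hG, hp]
    have hdet : Matrix.det ((G : GL (Fin (m + 1)) F) : Matrix (Fin (m + 1)) (Fin (m + 1)) F) = 1 := by
      rw [Matrix.det_eq_sign_charpoly_coeff, hcpG, hf0, Fintype.card_fin, ← mul_pow]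
      simp
    let g : Cfsg.SU (m + 1) F q := Cfsg.Agent.Lib.Classical.Herm.SU.mkSU _ hdet G.2
    have hgG : Matrix.SpecialLinearGroup.toGL g.1 = (G : GL (Fin (m + 1)) F) := by
      apply Units.ext
      rfl
    have hordg : (orderOf g).Coprime p := by
      rw [← hord, hgG, Cfsg.Agent.Lib.Linalg.SemisimpleClasses.orderOf_coprime_iff p, hG]
      exact fun a ha => (had a ha).2
    have hex : ∃ g' : Cfsg.SU (m + 1) F q, ConjClasses.mk g' = ConjClasses.mk g ∧ (orderOf g').Coprime p := ⟨g, rfl, hordg⟩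
    refine ⟨⟨ConjClasses.mk g, hex⟩, ?_⟩
    apply Subtype.ext
    have h3 : IsConj hex.choose g := ConjClasses.mk_eq_mk_iff_isConj.1 hex.choose_spec.1
    show ((hex.choose : Cfsg.SU (m + 1) F q) : Matrix.SpecialLinearGroup (Fin (m + 1)) F).1.charpoly = f
    have h4 := Cfsg.Agent.Lib.Linalg.SemisimpleClasses.charpoly_eq_of_isConj_SL ((Cfsg.SU (m + 1) F q).subtype.map_isConj h3)
    exact h4.trans hcpG

end Cfsg.Agent.S2386
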