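import Cfsg.Statements.S2904
import Mathlib


set_option autoImplicit false
open Cfsg

namespace Cfsg.Agent.S2904

open Polynomial in
lemma isPrimitiveRoot_of_dvd_eval {r n s d a : ℕ} (hr : r.Prime) (hn : n = r ^ s * d)
    (hd : ¬ r ∣ d) (h : (r : ℤ) ∣ eval (a : ℤ) (cyclotomic n ℤ)) :
    IsPrimitiveRoot (a : ZMod r) d := by
  haveI := Fact.mk hr
  haveI : NeZero ((d : ℕ) : ZMod r) := ⟨fun h0 => hd ((ZMod.natCast_eq_zero_iff _ _).1 h0)⟩
  rw [← isRoot_cyclotomic_prime_pow_mul_iff_of_charP (k := s) (p := r), IsRoot.def, ← hn]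
  have h1 := cyclotomic.eval_apply (a : ℤ) n (Int.castRingHom (ZMod r))
  simp only [eq_intCast, Int.cast_natCast] at h1
  rw [h1]
  exact (ZMod.intCast_zmod_eq_zero_iff_dvd _ _).2 h

open Polynomial in
lemma not_sq_dvd_eval_cyclotomic {r m a : ℕ} (hr : r.Prime) (hm : 0 < m) (ha : 1 < a)
    (hmod : (r : ℤ) ∣ (a : ℤ) ^ m - 1) (hodd : Odd r ∨ (r = 2 ∧ Even m)) :
    ¬ ((r : ℤ) ^ 2 ∣ eval (a : ℤ) (cyclotomic (m * r) ℤ)) := by
  intro hsq
  have hmem : m ∈ (m * r).properDivisors := by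
    rw [Nat.mem_properDivisors]
    refine ⟨Dvd.intro _ rfl, ?_⟩
    nlinarith [hr.two_le]
  have hp := X_pow_sub_one_mul_cyclotomic_dvd_X_pow_sub_one_of_dvd ℤ hmem
  have he := eval_dvd (x := (a : ℤ)) hp
  simp only [eval_mul, eval_sub, eval_pow, eval_X, eval_one] at he
  have hgeom : ((a : ℤ) ^ m) ^ r - 1 = ((a : ℤ) ^ m - 1) * ∑ i ∈ Finset.range r, ((a : ℤ) ^ m) ^ i :=
    (mul_geom_sum _ _).symm
  rw [pow_mul, hgeom] at he
  have hne : (a : ℤ) ^ m - 1 ≠ 0 := by
    have h2 : (1 : ℤ) < (a : ℤ) ^ m := by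
      have : (1 : ℕ) < a ^ m := Nat.one_lt_pow hm.ne' ha
      exact_mod_cast this
    omega
  have hS := hsq.trans ((mul_dvd_mul_iff_left hne).1 he)
  rcases hodd with hodd | ⟨rfl, m', hm'⟩
  · obtain ⟨t, ht⟩ := hmod
    have hb : (a : ℤ) ^ m = 1 + r * t := by omega
    have h3 := odd_sq_dvd_geom_sum₂_sub (R := ℤ) (p := r) 1 t hodd
    simp only [one_pow, mul_one] at h3
    rw [hb] at hS
    have h4 : (r : ℤ) ^ 2 ∣ (r : ℤ) := by
      have := dvd_sub hS h3
      simpa using this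
    have h5 : r ^ 2 ∣ r := by exact_mod_cast h4
    have h6 := Nat.le_of_dvd hr.pos h5
    nlinarith [hr.two_le]
  · -- r = 2
    have hm'0 : 0 < m' := by omega
    have ha' : Odd a := by
      have h1 : ((a : ℤ) ^ m - 1) % 2 = 0 := Int.emod_eq_zero_of_dvd (by simpa using hmod)
      by_contra hne'
      rw [Nat.not_odd_iff_even] at hne'
      have : Even ((a : ℤ) ^ m) := by
        apply Even.pow_of_ne_zero _ hm.ne'
        exact_mod_cast hne'
      obtain ⟨w, hw⟩ := this
      omega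
    obtain ⟨u, hu⟩ := (ha'.pow : Odd (a ^ m'))
    have hb : (a : ℤ) ^ m = 4 * ((u : ℤ) ^ 2 + u) + 1 := by
      have : (a : ℤ) ^ m' = 2 * u + 1 := by exact_mod_cast hu
      rw [hm', ← two_mul, mul_comm 2 m', pow_mul, this]
      ring
    simp only [Finset.sum_range_succ, Finset.sum_range_zero, pow_zero, pow_one, zero_add, hb] at hS
    obtain ⟨e, he'⟩ := hS
    push_cast at he'
    omega

lemma succ_lt_two_pow_of_three_le {r : ℕ} (hr : 3 ≤ r) : r + 1 < 2 ^ r := by
  induction r, hr using Nat.le_induction with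
  | base => norm_num
  | succ k hk ih => rw [pow_succ]; omega

lemma three_mul_lt_two_pow {r : ℕ} (hr : 5 ≤ r) : 3 * r + 1 ≤ 2 ^ r := by
  induction r, hr using Nat.le_induction with
  | base => norm_num
  | succ k hk ih => rw [pow_succ]; omega

open Polynomial in
lemma natAbs_eval_cyclotomic_le (d : ℕ) :
    (eval (2 : ℤ) (cyclotomic d ℤ)).natAbs ≤ 3 ^ d.totient := by
  have h1 := cyclotomic_eval_le_add_one_pow_totient (q := (2 : ℝ)) (by norm_num) d
  have h2 := cyclotomic.eval_apply (2 : ℤ) d (Int.castRingHom ℝ)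
  simp only [eq_intCast, Int.cast_ofNat] at h2
  have h3 : (0 : ℝ) ≤ eval 2 (cyclotomic d ℝ) := cyclotomic_nonneg d (by norm_num)
  have h4 : (((eval (2 : ℤ) (cyclotomic d ℤ)).natAbs : ℕ) : ℝ) = eval 2 (cyclotomic d ℝ) := by
    rw [Nat.cast_natAbs, h2]
    simp only [Int.cast_abs]
    rw [← h2]
    exact abs_of_nonneg h3
  have h5 : (((eval (2 : ℤ) (cyclotomic d ℤ)).natAbs : ℕ) : ℝ) ≤ ((3 ^ d.totient : ℕ) : ℝ) := by
    rw [h4]
    push_cast
    refine h1.trans_eq ?_
    norm_num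
  exact_mod_cast h5

/-- Zsigmondy's Theorem: for natural numbers a > 1 and n > 1 there is a prime dividing aⁿ − 1 that divides aᵏ − 1 for no natural number 0 < k < n, unless a = 2 and n = 6, or n = 2 and a + 1 is a power of two. -/
theorem result (a n : ℕ) (ha : 1 < a) (hn : 1 < n) (h6 : ¬ (a = 2 ∧ n = 6)) (h2 : ¬ (n = 2 ∧ ∃ m : ℕ, a + 1 = 2 ^ m)) : ∃ r : ℕ, r.Prime ∧ r ∣ a ^ n - 1 ∧ ∀ k : ℕ, 0 < k → k < n → ¬ r ∣ a ^ k - 1 := by
  by_contra hno
  push Not at hno
  set Φ : ℤ := Polynomial.eval (a : ℤ) (Polynomial.cyclotomic n ℤ) with hΦ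
  have hΦdvd : Φ ∣ (a : ℤ) ^ n - 1 := by
    have := Polynomial.eval_dvd (x := (a : ℤ)) (Polynomial.cyclotomic.dvd_X_pow_sub_one n ℤ)
    simpa using this
  have hn0 : n ≠ 0 := by omega
  -- the structure of prime divisors
  have key : ∀ q : ℕ, q.Prime → (q : ℤ) ∣ Φ →
      ∃ s d, 0 < s ∧ n = q ^ s * d ∧ ¬ q ∣ d ∧ d ∣ q - 1 ∧ (a : ZMod q) ^ d = 1 := by
    intro q hq hqΦ
    haveI := Fact.mk hq
    obtain ⟨s, d, hd, hnd⟩ := Nat.exists_eq_pow_mul_and_not_dvd hn0 q hq.ne_one
    have hd0 : d ≠ 0 := by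
      rintro rfl
      simp at hd
    have hprim := isPrimitiveRoot_of_dvd_eval hq hnd hd hqΦ
    have hs : 0 < s := by
      rcases Nat.eq_zero_or_pos s with rfl | hs
      · exfalso
        simp only [pow_zero, one_mul] at hnd
        subst hnd
        have h1 : (q : ℤ) ∣ (a : ℤ) ^ n - 1 := hqΦ.trans hΦdvd
        have h2 : q ∣ a ^ n - 1 := by
          have h3 : 1 ≤ a ^ n := Nat.one_le_pow _ _ (by omega)
          have : ((a ^ n - 1 : ℕ) : ℤ) = (a : ℤ) ^ n - 1 := by
            rw [Nat.cast_sub h3]; push_cast; ring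
          rw [← this] at h1
          exact_mod_cast h1
        obtain ⟨k, hk0, hkn, hk⟩ := hno q hq h2
        have h3 : (a : ZMod q) ^ k = 1 := by
          have h4 : 1 ≤ a ^ k := Nat.one_le_pow _ _ (by omega)
          have h5 := (ZMod.natCast_eq_zero_iff (a ^ k - 1) q).2 hk
          rw [Nat.cast_sub h4] at h5
          push_cast at h5
          exact sub_eq_zero.1 h5
        exact absurd (Nat.le_of_dvd hk0 (hprim.dvd_of_pow_eq_one k h3)) (by omega)
      · exact hs
    have hne : (a : ZMod q) ≠ 0 := hprim.ne_zero hd0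
    refine ⟨s, d, hs, hnd, hd, ?_, hprim.pow_eq_one⟩
    exact hprim.dvd_of_pow_eq_one _ (ZMod.pow_card_sub_one_eq_one hne)
  have hdvdn : ∀ q : ℕ, q.Prime → (q : ℤ) ∣ Φ → q ∣ n := by
    intro q hq hqΦ
    obtain ⟨s, d, hs, hnd, -, -, -⟩ := key q hq hqΦ
    rw [hnd]
    exact dvd_mul_of_dvd_left (dvd_pow_self q hs.ne') d
  have hle : ∀ q : ℕ, q.Prime → (q : ℤ) ∣ Φ → ∀ p : ℕ, p.Prime → p ∣ n → p ≤ q := by
    intro q hq hqΦ p hp hpn
    obtain ⟨s, d, hs, hnd, -, hdq, -⟩ := key q hq hqΦ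
    rw [hnd] at hpn
    rcases (Nat.Prime.dvd_mul hp).1 hpn with h | h
    · exact (((Nat.prime_dvd_prime_iff_eq hp hq).1 (hp.dvd_of_dvd_pow h))).le
    · have h1 := Nat.le_of_dvd (by have := hq.two_le; omega) (h.trans hdq)
      have := hq.two_le
      omega
  set N := Φ.natAbs with hN
  have hN1 : 1 < N := by
    have h1 := Polynomial.sub_one_pow_totient_lt_natAbs_cyclotomic_eval hn ha.ne'
    have h2 : 1 ≤ (a - 1) ^ n.totient := Nat.one_le_pow _ _ (by omega)
    omega
  have hdvdN : ∀ q : ℕ, q ∣ N → (q : ℤ) ∣ Φ := fun q h => Int.natCast_dvd.2 h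
  obtain ⟨r, hr, hrN⟩ : ∃ r, r.Prime ∧ r ∣ N :=
    ⟨N.minFac, Nat.minFac_prime (by omega), Nat.minFac_dvd N⟩
  have hrΦ := hdvdN r hrN
  have huniq : ∀ {q : ℕ}, q.Prime → q ∣ N → q = r := by
    intro q hq hqN
    have hqΦ := hdvdN q hqN
    exact le_antisymm (hle r hr hrΦ q hq (hdvdn q hq hqΦ)) (hle q hq hqΦ r hr (hdvdn r hr hrΦ))
  have hNr := Nat.eq_prime_pow_of_unique_prime_dvd (by omega : N ≠ 0)
    (fun {d} hd hdN => huniq hd hdN)
  obtain ⟨s, d, hs, hnd, hrd, hdr, had⟩ := key r hr hrΦ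
  have hrn := hdvdn r hr hrΦ
  have hd0 : d ≠ 0 := by
    rintro rfl
    simp at hnd
    omega
  -- n = 2 is excluded
  have hn2 : n ≠ 2 := by
    rintro rfl
    have hr2 : r = 2 := (Nat.prime_dvd_prime_iff_eq hr Nat.prime_two).1 hrn
    apply h2
    refine ⟨rfl, N.primeFactorsList.length, ?_⟩
    rw [← hr2, ← hNr, hN, hΦ]
    simp only [Polynomial.cyclotomic_two, Polynomial.eval_add, Polynomial.eval_X,
      Polynomial.eval_one]
    omega
  -- decomposition of n
  obtain ⟨s', rfl⟩ : ∃ s', s = s' + 1 := ⟨s - 1, by omega⟩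
  obtain ⟨m, hm⟩ : ∃ m, m = r ^ s' * d := ⟨_, rfl⟩
  have hnm : n = m * r := by rw [hnd, hm]; ring
  have hm0 : 0 < m := by
    rw [hm]
    exact Nat.mul_pos (pow_pos hr.pos _) (Nat.pos_of_ne_zero hd0)
  have hmod : (r : ℤ) ∣ (a : ℤ) ^ m - 1 := by
    haveI := Fact.mk hr
    have h1 : (a : ZMod r) ^ m = 1 := by
      rw [hm, mul_comm, pow_mul, had, one_pow]
    have h2 : (((a : ℤ) ^ m - 1 : ℤ) : ZMod r) = 0 := by
      push_cast
      rw [h1, sub_self]
    exact (ZMod.intCast_zmod_eq_zero_iff_dvd _ _).1 h2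
  have hodd : Odd r ∨ (r = 2 ∧ Even m) := by
    rcases hr.eq_two_or_odd' with hr2 | hr2
    · right
      refine ⟨hr2, ?_⟩
      subst hr2
      have hd1 : d = 1 := by simpa using hdr
      subst hd1
      have hs' : s' ≠ 0 := by
        rintro rfl
        simp at hnd
        exact hn2 hnd
      rw [hm, mul_one]
      exact (Nat.even_pow' hs').2 even_two
    · exact Or.inl hr2
  have hnsq : ¬ ((r : ℤ) ^ 2 ∣ Φ) := by
    rw [hΦ, hnm]
    exact not_sq_dvd_eval_cyclotomic hr hm0 ha hmod hodd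
  -- therefore N = r
  have hNeq : N = r := by
    generalize N.primeFactorsList.length = k at hNr
    rcases k with _ | _ | k
    · simp at hNr
      omega
    · simpa using hNr
    · exfalso
      have h1 : r ^ 2 ∣ N := by
        rw [hNr]
        exact pow_dvd_pow r (by omega)
      have h2 : ((r ^ 2 : ℕ) : ℤ) ∣ Φ := hdvdN _ h1
      apply hnsq
      simpa using h2
  -- size bounds
  have hφ : r - 1 ≤ n.totient := by
    have h1 := Nat.totient_dvd_of_dvd hrn
    rw [Nat.totient_prime hr] at h1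
    exact Nat.le_of_dvd (Nat.totient_pos.2 (by omega)) h1
  have hrle : r ≤ 2 ^ (r - 1) := by
    have := Nat.lt_two_pow_self (n := r - 1)
    have := hr.two_le
    omega
  have hlow := Polynomial.sub_one_pow_totient_lt_natAbs_cyclotomic_eval hn ha.ne'
  rw [← hΦ, ← hN, hNeq] at hlow
  rcases (by omega : a = 2 ∨ 3 ≤ a) with rfl | ha3
  · -- the case a = 2
    simp only [Nat.cast_ofNat] at hΦ hΦdvd
    have hΦ' : Φ = Polynomial.eval (2 : ℤ) (Polynomial.cyclotomic (m * r) ℤ) := by rw [hΦ, hnm]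
    rcases Nat.eq_zero_or_pos s' with rfl | hs'
    · -- s = 1
      simp only [pow_zero, one_mul] at hm
      have hmd : d = m := hm.symm
      subst hmd
      have hexp := congrArg (Polynomial.eval (2 : ℤ))
        (Polynomial.cyclotomic_expand_eq_cyclotomic_mul hr hrd ℤ)
      rw [Polynomial.expand_eval, Polynomial.eval_mul, ← hΦ'] at hexp
      have hexpabs := congrArg Int.natAbs hexp
      rw [Int.natAbs_mul, ← hN, hNeq] at hexpabs
      have hr3 : 3 ≤ r := by
        by_contra hlt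
        have hr2 : r = 2 := by have := hr.two_le; omega
        subst hr2
        have hd1 : d = 1 := by simpa using hdr
        subst hd1
        simp at hnd
        exact hn2 hnd
      rcases (by omega : d = 1 ∨ 2 ≤ d) with rfl | hd2
      · -- d = 1
        simp only [Polynomial.cyclotomic_one, Polynomial.eval_sub, Polynomial.eval_X,
          Polynomial.eval_one] at hexpabs
        norm_num at hexpabs
        have h3 := succ_lt_two_pow_of_three_le hr3
        have h4 : ((2 : ℤ) ^ r - 1).natAbs = 2 ^ r - 1 := by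
          have h5 : 1 ≤ 2 ^ r := Nat.one_le_two_pow
          zify [h5]
          rw [abs_of_nonneg]
          have h6 : (1 : ℤ) ≤ 2 ^ r := by exact_mod_cast h5
          omega
        omega
      · -- d ≥ 2
        rcases (by
          have hnot4 : r ≠ 4 := by rintro rfl; norm_num at hr
          omega : r = 3 ∨ 5 ≤ r) with rfl | hr5
        · have hd2' : d = 2 := by
            have := Nat.le_of_dvd (by norm_num) hdr
            omega
          subst hd2'
          exact h6 ⟨rfl, by rw [hnm]⟩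
        · have hq : (2 ^ r : ℕ) ≠ 1 := by
            have : 1 < 2 ^ r := Nat.one_lt_two_pow (by omega)
            omega
          have hlow2 := Polynomial.sub_one_pow_totient_lt_natAbs_cyclotomic_eval
            (n := d) (q := 2 ^ r) (by omega) hq
          have hcast : (((2 ^ r : ℕ) : ℤ)) = (2 : ℤ) ^ r := by push_cast; ring
          rw [hcast, hexpabs] at hlow2
          have hup := natAbs_eval_cyclotomic_le d
          have hφd : 0 < d.totient := Nat.totient_pos.2 (by omega)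
          have h3r := three_mul_lt_two_pow hr5
          have h7 : (3 * r) ^ d.totient ≤ (2 ^ r - 1) ^ d.totient :=
            Nat.pow_le_pow_left (by omega) _
          have h8 : r ≤ r ^ d.totient := Nat.le_self_pow hφd.ne' r
          rw [mul_pow] at h7
          have h9 : r * (Polynomial.eval 2 (Polynomial.cyclotomic d ℤ)).natAbs ≤ r * 3 ^ d.totient :=
            Nat.mul_le_mul_left _ hup
          have h10 : 3 ^ d.totient * r ≤ 3 ^ d.totient * r ^ d.totient :=
            Nat.mul_le_mul_left _ h8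
          rw [mul_comm (3 ^ d.totient) r] at h10
          omega
    · -- s ≥ 2
      have hrm : r ∣ m := by
        rw [hm]
        exact dvd_mul_of_dvd_left (dvd_pow_self r hs'.ne') d
      have hm1 : 1 < m := by
        have := Nat.le_of_dvd hm0 hrm
        have := hr.two_le
        omega
      have hexp := congrArg (Polynomial.eval (2 : ℤ))
        (Polynomial.cyclotomic_expand_eq_cyclotomic hr hrm ℤ)
      rw [Polynomial.expand_eval, ← hΦ'] at hexp
      have hq : (2 ^ r : ℕ) ≠ 1 := by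
        have : 1 < 2 ^ r := Nat.one_lt_two_pow (by have := hr.two_le; omega)
        omega
      have hlow2 := Polynomial.sub_one_lt_natAbs_cyclotomic_eval (n := m) (q := 2 ^ r) hm1 hq
      have hcast : (((2 ^ r : ℕ) : ℤ)) = (2 : ℤ) ^ r := by push_cast; ring
      rw [hcast, hexp, ← hN, hNeq] at hlow2
      have := Nat.lt_two_pow_self (n := r)
      omega
  · -- a ≥ 3
    have h1 : 2 ^ n.totient ≤ (a - 1) ^ n.totient := Nat.pow_le_pow_left (by omega) _
    have h2 : 2 ^ (r - 1) ≤ 2 ^ n.totient := Nat.pow_le_pow_right (by norm_num) hφ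
    omega

end Cfsg.Agent.S2904
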