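import Cfsg.Statements.S2394
import Mathlib
import Cfsg.Agent.S2904
import Cfsg.Agent.Lib.Classical.Symp.Count

set_option autoImplicit false
open Cfsg

namespace Cfsg.Agent.S2394

open Cfsg.Agent.Lib.Classical.Symp.Count

theorem prime_not_dvd_prod {r q d : ℕ} (hr : r.Prime) (hrq : ¬ r ∣ q) (hq : 1 ≤ q)
    (h : ∀ k, 0 < k → k ≤ d → ¬ r ∣ q ^ k - 1) :
    ¬ r ∣ ∏ i : Fin d, (q ^ d - q ^ (i : ℕ)) := by
  rw [Prime.dvd_finsetProd_iff hr.prime]
  rintro ⟨i, -, hi⟩
  have hid : (i : ℕ) < d := i.2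
  have h1 : q ^ d - q ^ (i : ℕ) = q ^ (i : ℕ) * (q ^ (d - i) - 1) := by
    rw [Nat.mul_sub, mul_one, ← pow_add]
    congr 2
    omega
  rw [h1] at hi
  rcases (Nat.Prime.dvd_mul hr).mp hi with h2 | h2
  · exact hrq (hr.dvd_of_dvd_pow h2)
  · exact h (d - i) (by omega) (by omega) h2

/-- Every faithful representation of Sp_{2n}(q) over F_q has degree at least 2n. -/
theorem result {F : Type*} [Field F] [Fintype F] (n : ℕ) {d : ℕ}
    (ρ : ↥(Matrix.symplecticGroup (Fin n) F) →* GL (Fin d) F) (hρ : Function.Injective ρ) : 2 * n ≤ d := by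
  by_contra hd
  push Not at hd
  set q := Fintype.card F with hq
  have hq2 : 2 ≤ q := Fintype.one_lt_card
  have hcard : Nat.card F = q := Nat.card_eq_fintype_card
  have hSp := card_symplecticGroup (F := F) hcard n
  have hGL : Nat.card (GL (Fin d) F) = ∏ i : Fin d, (q ^ d - q ^ (i : ℕ)) := Matrix.card_GL_field d
  have hdvd : Nat.card (Matrix.symplecticGroup (Fin n) F) ∣ Nat.card (GL (Fin d) F) :=
    Subgroup.card_dvd_of_injective ρ hρ
  rw [hSp, hGL] at hdvd
  have hn : 1 ≤ n := by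
    by_contra h0
    have : n = 0 := by omega
    omega
  have hprodpos : 0 < ∏ i : Fin d, (q ^ d - q ^ (i : ℕ)) := by
    apply Finset.prod_pos
    intro i _
    have hid : (i : ℕ) < d := i.2
    exact Nat.sub_pos_of_lt (Nat.pow_lt_pow_right (by omega) hid)
  by_cases h6 : q = 2 ∧ 2 * n = 6
  · -- Sp_6(2)
    obtain ⟨h2, h3⟩ := h6
    have hn3 : n = 3 := by omega
    subst hn3
    rw [h2] at hdvd
    have hd5 : d ≤ 5 := by omega
    interval_cases d <;> simp [Finset.prod_range_succ, Fin.prod_univ_succ] at hdvd <;> omega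
  by_cases h2 : 2 * n = 2 ∧ ∃ m : ℕ, q + 1 = 2 ^ m
  · -- SL_2
    have hn1 : n = 1 := by omega
    subst hn1
    have hd1 : d ≤ 1 := by omega
    have h3 := Nat.le_of_dvd hprodpos hdvd
    interval_cases d
    · simp at h3
      have : 2 ^ 2 ≤ q ^ 2 := Nat.pow_le_pow_left hq2 2
      have h4 : 1 ≤ q ^ 2 - 1 := by omega
      nlinarith
    · simp at h3
      have : q ≤ q ^ 2 - 1 := by
        have : q ^ 2 = q * q := by ring
        have h5 : 2 * q ≤ q * q := Nat.mul_le_mul_right q hq2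
        omega
      have h4 : q ≤ q * (q ^ 2 - 1) := Nat.le_mul_of_pos_right q (by omega)
      omega
  -- the general case
  obtain ⟨r, hr, hr1, hr2⟩ := Cfsg.Agent.S2904.result q (2 * n) hq2 (by omega) h6 h2
  have hrq : ¬ r ∣ q := by
    intro h
    have h1 : r ∣ q ^ (2 * n) := dvd_pow h (by omega)
    have h3 : r ∣ 1 := by
      have h4 : q ^ (2 * n) - 1 + 1 = q ^ (2 * n) := Nat.sub_add_cancel (Nat.one_le_pow _ _ (by omega))
      rw [← h4] at h1
      exact (Nat.dvd_add_right hr1).mp h1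
    exact hr.one_lt.ne' (Nat.dvd_one.mp h3)
  have h3 : r ∣ ∏ i ∈ Finset.range n, (q ^ (2 * (i + 1)) - 1) := by
    have : n - 1 ∈ Finset.range n := Finset.mem_range.mpr (by omega)
    refine Dvd.dvd.trans ?_ (Finset.dvd_prod_of_mem _ this)
    have e : 2 * (n - 1 + 1) = 2 * n := by omega
    rw [e]
    exact hr1
  have h4 : r ∣ ∏ i : Fin d, (q ^ d - q ^ (i : ℕ)) :=
    Dvd.dvd.trans (Dvd.dvd.trans h3 (Nat.dvd_mul_left _ _)) hdvd
  exact prime_not_dvd_prod hr hrq (by omega)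
    (fun k hk hkd => hr2 k hk (by omega)) h4

end Cfsg.Agent.S2394
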