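import Cfsg.Statements.S2412
import Mathlib
import Cfsg.Agent.Lib.Classical.Herm.UTwoGenBig
import Cfsg.Agent.Lib.Classical.Herm.UTwoGenTwo
import Cfsg.Agent.S2283

set_option autoImplicit false
open Cfsg

namespace Cfsg.Agent.S2412

/-- The projective special unitary group `PSU_n(q)` with `n ≥ 3`, realised over the field with `q²` elements, `(n, q) ≠ (3, 2)`, is generated by two of its elements. -/
theorem result {F : Type*} [Field F] [Fintype F] {q : ℕ} (hq : IsPrimePow q) (hF : Fintype.card F = q ^ 2) (n : ℕ) (hn : 3 ≤ n) (h32 : n = 3 → q ≠ 2) :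
    ∃ a b : Cfsg.PSU n F q, Subgroup.closure ({a, b} : Set (Cfsg.PSU n F q)) = ⊤ := by
  have hq2 := Cfsg.Agent.Lib.Classical.Herm.Basic.two_le_q hF
  obtain ⟨a, b, hab⟩ : ∃ a b : Cfsg.SU n F q, Subgroup.closure ({a, b} : Set (Cfsg.SU n F q)) = ⊤ := by
    by_cases h3 : n = 3
    · subst h3
      have hq3 : 3 ≤ q := by
        have := h32 rfl
        omega
      obtain ⟨u, g, -, h⟩ := Cfsg.Agent.S2283.result q hq3 hF
      exact ⟨u, g * u * g⁻¹, h⟩
    by_cases h2 : q = 2
    · exact Cfsg.Agent.Lib.Classical.Herm.UTwoGen.main_two hF h2 (by omega)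
    · exact Cfsg.Agent.Lib.Classical.Herm.UTwoGen.main_big hF (by omega) (by omega)
  refine ⟨QuotientGroup.mk' _ a, QuotientGroup.mk' _ b, ?_⟩
  have h1 := MonoidHom.map_closure (QuotientGroup.mk' (Subgroup.center (Cfsg.SU n F q))) ({a, b} : Set (Cfsg.SU n F q))
  rw [hab, Set.image_pair, Subgroup.map_top_of_surjective _ (QuotientGroup.mk'_surjective _)] at h1
  exact h1.symm

end Cfsg.Agent.S2412
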