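import Cfsg.Statements.S2445
import Mathlib
import Cfsg.Agent.Lib.Classical.Ore.Three

set_option autoImplicit false
open Cfsg

namespace Cfsg.Agent.S2445

open Cfsg.Agent.Lib.Classical.Symp.AltForm Cfsg.Agent.Lib.Classical.Symp.Basic
open Cfsg.Agent.Lib.Classical.Ore.Lagr Cfsg.Agent.Lib.Classical.Ore.Sum
open Cfsg.Agent.Lib.Classical.Ore.Comm Cfsg.Agent.Lib.Classical.Ore.Three
open Cfsg.Agent.Lib.Classical.Ore.Decomp

section

universe u v

theorem comm_of_ge_four {F : Type u} [Field F] [Fintype F] (hq : 4 ≤ Fintype.card F) (V : Type v) [AddCommGroup V]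
    [Module F V] [FiniteDimensional F V] [Nontrivial V] (B : LinearMap.BilinForm F V) (g : V ≃ₗ[F] V)
    (hA : B.IsAlt) (hB : B.Nondegenerate) (hg : g ∈ IsomGroup B) : IsComm B g := by
  refine induct (fun V _ _ B g => IsComm B g) ?_ ?_ ?_ ?_ V B g hA hB hg
  · intro V V' _ _ _ _ B B' g g' e he hge h
    exact IsComm.congr e he hge h
  · intro V₁ V₂ _ _ _ _ _ _ _ _ B₁ B₂ g₁ g₂ _ _ _ _ _ _ h₁ h₂
    exact IsComm.prod h₁ h₂
  · intro V _ _ _ _ B g hA hB hg h
    obtain ⟨m, hm⟩ := Cfsg.Agent.Lib.Classical.Symp.DecompMax.even_finrank _ B hA hB rfl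
    have hpos : 0 < Module.finrank F V := Module.finrank_pos
    refine isComm_of_isA_one hA hB hg hm (by omega) ?_ h
    by_cases hm1 : m = 1
    · exact Or.inr ⟨hm1, hq⟩
    · left
      calc 5 ≤ 4 ^ 2 := by norm_num
        _ ≤ Fintype.card F ^ 2 := Nat.pow_le_pow_left hq 2
        _ ≤ Fintype.card F ^ m := Nat.pow_le_pow_right (by omega) (by omega)
  · intro V _ _ _ _ B g _ _ _ _ _ h _
    exact h

theorem isA_of_two {F : Type u} [Field F] (h2 : (2 : F) = 0) [Finite F] (V : Type v) [AddCommGroup V]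
    [Module F V] [FiniteDimensional F V] [Nontrivial V] (B : LinearMap.BilinForm F V) (g : V ≃ₗ[F] V)
    (hA : B.IsAlt) (hB : B.Nondegenerate) (hg : g ∈ IsomGroup B) : IsA B 1 g := by
  refine induct (fun V _ _ B g => IsA B 1 g) ?_ ?_ ?_ ?_ V B g hA hB hg
  · intro V V' _ _ _ _ B B' g g' e he hge h
    exact IsA.congr e he hge h
  · intro V₁ V₂ _ _ _ _ _ _ _ _ B₁ B₂ g₁ g₂ _ _ _ _ _ _ h₁ h₂
    exact IsA.prod h₁ h₂
  · intro V _ _ _ _ B g _ _ _ h
    exact h
  · intro V _ _ _ _ B g _ _ _ h _ _ _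
    exact absurd h2 h

end

/-- In the symplectic group Sp(2m,F) over a finite field F (m ≥ 1), other than Sp(2,2), Sp(2,3) and Sp(4,2), every element is a commutator a·b·a⁻¹·b⁻¹ of two elements of Sp(2m,F). -/
theorem result {F : Type*} [Field F] [Fintype F] (m : ℕ) (hm : 1 ≤ m) (h1 : m = 1 → 4 ≤ Fintype.card F)
    (h2 : m = 2 → 3 ≤ Fintype.card F) : ∀ g : Matrix.symplecticGroup (Fin m) F, ∃ a b : Matrix.symplecticGroup (Fin m) F, g = a * b * a⁻¹ * b⁻¹ := by
  intro g
  haveI : Nonempty (Fin m) := ⟨⟨0, hm⟩⟩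
  have hA := sympBilin_isAlt (m := m) (F := F)
  have hB := sympBilin_nondegenerate (m := m) (F := F)
  have hdim : Module.finrank F (Fin m ⊕ Fin m → F) = 2 * m := by
    simp [Module.finrank_fintype_fun_eq_card, two_mul]
  have hg := (spEquivIsom g).2
  have key : IsComm (sympBilin m F) ((spEquivIsom g : IsomGroup (sympBilin m F)) : (Fin m ⊕ Fin m → F) ≃ₗ[F] (Fin m ⊕ Fin m → F)) := by
    have hq2 : 2 ≤ Fintype.card F := Fintype.one_lt_card
    by_cases hq4 : 4 ≤ Fintype.card F
    · exact comm_of_ge_four hq4 _ _ _ hA hB hg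
    by_cases hq3 : Fintype.card F = 3
    · rcases (three_all hq3 _ _ _ hA hB hg).2 with h | h
      · exact h
      · exfalso
        rw [hdim] at h
        have := h1 (by omega)
        omega
    · have hc2 : Fintype.card F = 2 := by omega
      have h20 : (2 : F) = 0 := by
        have := FiniteField.cast_card_eq_zero F
        rw [hc2] at this
        exact_mod_cast this
      have hm3 : 3 ≤ m := by
        by_contra hlt
        have h5 : m = 1 ∨ m = 2 := by omega
        rcases h5 with h5 | h5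
        · have := h1 h5
          omega
        · have := h2 h5
          omega
      refine isComm_of_isA_one hA hB hg hdim hm (Or.inl ?_) (isA_of_two h20 _ _ _ hA hB hg)
      rw [hc2]
      calc 5 ≤ 2 ^ 3 := by norm_num
        _ ≤ 2 ^ m := Nat.pow_le_pow_right (by norm_num) hm3
  obtain ⟨a, b, hab⟩ := key
  refine ⟨spEquivIsom.symm a, spEquivIsom.symm b, ?_⟩
  apply spEquivIsom.injective
  apply Subtype.ext
  rw [hab]
  simp only [map_mul, map_inv, MulEquiv.apply_symm_apply]

end Cfsg.Agent.S2445
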