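import Cfsg.Statements.S2446
import Cfsg.Agent.Lib.OreU.Assemble
import Cfsg.Agent.Lib.OreU.PosTwo
import Cfsg.Agent.Lib.OreU.FacTwoLarge

set_option autoImplicit false
open Cfsg

namespace Cfsg.Agent.S2446

/-- In the special unitary group SU(n,q), n ≥ 3, realised over the field F with q² elements as the determinant-one isometries of the standard Hermitian form, and with (n,q) ≠ (3,2), every element is a commutator a·b·a⁻¹·b⁻¹ of two elements of SU(n,q). -/
theorem result {F : Type*} [Field F] [Fintype F] (n q : ℕ) (hn : 3 ≤ n) (hF : Fintype.card F = q ^ 2) (hex : ¬ (n = 3 ∧ q = 2)) :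
    ∀ g : Cfsg.SU n F q, ∃ a b : Cfsg.SU n F q, g = a * b * a⁻¹ * b⁻¹ := by
  intro g
  refine Cfsg.Agent.Lib.OreU.ore_su_of_inputs n q hn hF hex ?_ ?_ g
  · intro m ε hε hF' hm c e d hR hc hdet hns y φ hd
    obtain ⟨Z, S, hadm, hd1, hcase⟩ := Cfsg.Agent.Lib.OreU.exists_upd_two hF' hε hm c e d hR hc hdet hns y φ hd
    refine ⟨Z, S, hadm, hd1, ?_⟩
    rcases hcase with h | ⟨h1, h2⟩
    · exact Or.inl h
    · exact Or.inr ⟨h1, fun _ _ => h2⟩
  · intro hF' m hm T hdet hT
    exact Cfsg.Agent.Lib.OreU.fac_two_large hF' hm T hdet hT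

end Cfsg.Agent.S2446
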