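import Cfsg.Statements.S2447
import Cfsg.Agent.Lib.OreOmega.Main

set_option autoImplicit false
open Cfsg

namespace Cfsg.Agent.S2447

/-- Let F be a finite field of odd order and n ≥ 3, and let Ω(2n+1,F) be the commutator subgroup of the orthogonal group of the non-singular quadratic form x₀² + Σ xᵢyᵢ in dimension 2n+1. Then every element of Ω(2n+1,F) is a commutator a·b·a⁻¹·b⁻¹ of two elements of Ω(2n+1,F). -/
theorem result {F : Type*} [Field F] [Fintype F] (hodd : Odd (Fintype.card F)) (n : ℕ) (hn : 3 ≤ n) :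
    ∀ g : Cfsg.Omega F (Cfsg.quadFormOdd n F), ∃ a b : Cfsg.Omega F (Cfsg.quadFormOdd n F), g = a * b * a⁻¹ * b⁻¹ := by
  have h2 : (2 : F) ≠ 0 := by
    intro h
    have h1 : ringChar F = 2 := CharP.ringChar_of_prime_eq_zero Nat.prime_two (by exact_mod_cast h)
    have h3 := FiniteField.even_card_iff_char_two.1 h1
    rw [Nat.odd_iff] at hodd
    omega
  have hq : 3 ≤ Fintype.card F := by
    have h1 : 1 < Fintype.card F := Fintype.one_lt_card
    rw [Nat.odd_iff] at hodd
    omega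
  rw [← Cfsg.Agent.Lib.Classical.Orth.Models.coe_oddForm n F]
  intro g
  obtain ⟨a, ha, b, hb, h⟩ := Cfsg.Agent.Lib.OreOmega.ore_omega_odd h2 hq hn g.1 g.2
  exact ⟨⟨a, ha⟩, ⟨b, hb⟩, Subtype.ext h⟩

end Cfsg.Agent.S2447
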