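import Cfsg.Statements.S2450
import Cfsg.Agent.Lib.PSL2.Macbeath
import Cfsg.Agent.Lib.PSL2.Unipotent
import Cfsg.Agent.Lib.PSL2.Conj
import Mathlib

set_option autoImplicit false
open Cfsg

namespace Cfsg.Agent.S2450

open Cfsg.Agent.Lib.PSL2.Basic Cfsg.Agent.Lib.PSL2.Macbeath Cfsg.Agent.Lib.PSL2.Unipotent Cfsg.Agent.Lib.PSL2.Conj
open scoped MatrixGroups

section Aux

variable {F : Type*} [Field F]

/-- Conjugate elements of `PSL` have lifts with the same squared trace. -/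
theorem tr_sq_of_isConj {X Y : SL(2, F)} (h : IsConj (mkP X : PSL(2, F)) (mkP Y)) :
    tr X ^ 2 = tr Y ^ 2 := by
  obtain ⟨k, hk⟩ := isConj_iff.1 h
  obtain ⟨K, rfl⟩ := mkP_surjective k
  rw [← map_inv, ← map_mul, ← map_mul, mkP_eq_iff] at hk
  rcases hk with hk | hk
  · rw [hk, tr_conj]
  · rw [hk, tr_neg, tr_conj]
    ring

/-- The trace against a conjugate of `x b`. -/
theorem tr_mul_conj_x (A w : SL(2, F)) (b : F) :
    tr (A * (w * x b * w⁻¹)) = tr A + b * (A.1 1 0 * w.1 0 0 ^ 2 + (A.1 1 1 - A.1 0 0) * w.1 0 0 * w.1 1 0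
      - A.1 0 1 * w.1 1 0 ^ 2) := by
  have hw := det_entries w
  simp only [tr_def, mul_00, mul_01, mul_10, mul_11, x_00, x_01, x_10, x_11, inv_00, inv_01, inv_10, inv_11]
  linear_combination (A.1 0 0 + A.1 1 1) * hw

/-- A non-central matrix has a vector where the quadratic form does not vanish. -/
theorem exists_form_ne {A : SL(2, F)} (hA : A ≠ 1 ∧ A ≠ -1) :
    ∃ p r : F, (p ≠ 0 ∨ r ≠ 0) ∧
      A.1 1 0 * p ^ 2 + (A.1 1 1 - A.1 0 0) * p * r - A.1 0 1 * r ^ 2 ≠ 0 := by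
  rcases nonscalar_of_ne hA with h | h | h
  · exact ⟨0, 1, Or.inr one_ne_zero, by simpa using h⟩
  · exact ⟨1, 0, Or.inl one_ne_zero, by simpa using h⟩
  · by_cases h1 : A.1 0 1 = 0
    · by_cases h3 : A.1 1 0 = 0
      · refine ⟨1, 1, Or.inl one_ne_zero, ?_⟩
        rw [h1, h3]
        intro h4
        apply h
        linear_combination -h4
      · exact ⟨1, 0, Or.inl one_ne_zero, by simpa using h3⟩
    · exact ⟨0, 1, Or.inr one_ne_zero, by simpa using h1⟩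

end Aux

section Main

variable {F : Type*} [Field F] [Fintype F]

/-- Nonzero squares: three distinct ones when `q ≠ 2, 3, 5`. -/
theorem exists_three_squares (h4 : 4 ≤ Fintype.card F) (h5 : Fintype.card F ≠ 5) :
    ∃ l₁ l₂ : F, l₁ ≠ 0 ∧ l₂ ≠ 0 ∧ l₁ ^ 2 ≠ 1 ∧ l₂ ^ 2 ≠ 1 ∧ l₁ ^ 2 ≠ l₂ ^ 2 := by
  classical
  obtain ⟨g, hg⟩ := IsCyclic.exists_generator (α := Fˣ)
  have hord : orderOf g = Fintype.card F - 1 := by
    rw [orderOf_eq_card_of_forall_mem_zpowers hg, Nat.card_eq_fintype_card, Fintype.card_units]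
  have h1 : g ^ 2 ≠ 1 := by
    intro h
    have := Nat.le_of_dvd (by norm_num) (orderOf_dvd_of_pow_eq_one h)
    omega
  have h2 : g ^ 4 ≠ 1 := by
    intro h
    have h3 := orderOf_dvd_of_pow_eq_one h
    rw [hord] at h3
    have h6 : Fintype.card F - 1 ≤ 4 := Nat.le_of_dvd (by norm_num) h3
    have : Fintype.card F - 1 = 3 ∨ Fintype.card F - 1 = 4 := by omega
    rcases this with h7 | h7
    · rw [h7] at h3
      omega
    · omega
  refine ⟨(g : F), ((g ^ 2 : Fˣ) : F), g.ne_zero, Units.ne_zero _, ?_, ?_, ?_⟩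
  · intro h
    apply h1
    ext
    simpa using h
  · intro h
    apply h2
    ext
    push_cast at h ⊢
    rw [← h]
    ring
  · intro h
    apply h1
    have h3 : g ^ 2 = (g ^ 2) ^ 2 := by
      ext
      push_cast at h ⊢
      exact h
    have h6 : g ^ 2 * 1 = g ^ 2 * g ^ 2 := by
      rw [mul_one, ← pow_two (g ^ 2)]
      exact h3
    exact (mul_left_cancel h6).symm

/-- The case where `B` has squared trace 4. -/
theorem main_unipotent (h4 : 4 ≤ Fintype.card F) {A B : SL(2, F)} (hA : A ≠ 1 ∧ A ≠ -1)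
    (hB : B ≠ 1 ∧ B ≠ -1) (htB : tr B ^ 2 = 4) :
    ∃ w w' : SL(2, F), tr (A * (w * B * w⁻¹)) ^ 2 ≠ tr (A * (w' * B * w'⁻¹)) ^ 2 := by
  -- write `B = ± Y` with `tr Y = 2`.
  obtain ⟨Y, hY1, hY2, hYB⟩ : ∃ Y : SL(2, F), tr Y = 2 ∧ Y ≠ 1 ∧ (Y = B ∨ Y = -B) := by
    have h1 : (tr B - 2) * (tr B + 2) = 0 := by linear_combination htB
    rcases mul_eq_zero.1 h1 with h3 | h3
    · exact ⟨B, sub_eq_zero.1 h3, hB.1, Or.inl rfl⟩
    · refine ⟨-B, ?_, ?_, Or.inr rfl⟩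
      · rw [tr_neg]
        linear_combination -h3
      · intro h
        apply hB.2
        rw [← h, neg_neg]
  obtain ⟨g, b, hb, hgY⟩ := exists_conj_x_ne_of_tr_eq_two Y hY1 hY2
  by_contra hall
  push Not at hall
  -- values on vectors
  have hval : ∀ p r : F, (p ≠ 0 ∨ r ≠ 0) → ∃ w : SL(2, F), tr (A * (w * B * w⁻¹)) ^ 2 =
      (tr A + b * (A.1 1 0 * p ^ 2 + (A.1 1 1 - A.1 0 0) * p * r - A.1 0 1 * r ^ 2)) ^ 2 := by
    intro p r hpr
    obtain ⟨w₀, hw0, hw1⟩ := exists_col p r hpr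
    refine ⟨w₀ * g, ?_⟩
    have e1 : (w₀ * g) * Y * (w₀ * g)⁻¹ = w₀ * x b * w₀⁻¹ := by
      rw [← hgY]
      group
    have e2 : tr (A * ((w₀ * g) * Y * (w₀ * g)⁻¹)) = tr A + b * (A.1 1 0 * p ^ 2 + (A.1 1 1 - A.1 0 0) * p * r - A.1 0 1 * r ^ 2) := by
      rw [e1, tr_mul_conj_x, hw0, hw1]
    rw [← e2]
    rcases hYB with hYB | hYB
    · rw [hYB]
    · have hB' : B = -Y := by rw [hYB, neg_neg]
      have e3 : A * ((w₀ * g) * B * (w₀ * g)⁻¹) = -(A * ((w₀ * g) * Y * (w₀ * g)⁻¹)) := by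
        rw [hB']
        apply ext2 <;> simp only [mul_00, mul_01, mul_10, mul_11, neg_00, neg_01, neg_10, neg_11] <;> ring
      rw [e3, tr_neg]
      ring
  obtain ⟨p₀, r₀, hv0, hD⟩ := exists_form_ne hA
  set κ := b * (A.1 1 0 * p₀ ^ 2 + (A.1 1 1 - A.1 0 0) * p₀ * r₀ - A.1 0 1 * r₀ ^ 2) with hκ
  have hκ0 : κ ≠ 0 := mul_ne_zero hb hD
  -- scaling
  have hscale : ∀ l : F, l ≠ 0 → ∃ w : SL(2, F), tr (A * (w * B * w⁻¹)) ^ 2 = (tr A + κ * l ^ 2) ^ 2 := by
    intro l hl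
    obtain ⟨w, hw⟩ := hval (l * p₀) (l * r₀) (by
      rcases hv0 with h | h
      · exact Or.inl (mul_ne_zero hl h)
      · exact Or.inr (mul_ne_zero hl h))
    refine ⟨w, ?_⟩
    rw [hw, hκ]
    congr 2
    ring
  obtain ⟨w1, hw1⟩ := hscale 1 one_ne_zero
  simp only [one_pow, mul_one] at hw1
  by_cases h5 : Fintype.card F = 5
  · -- `q = 5`
    have h50 : (5 : F) = 0 := by
      have := FiniteField.cast_card_eq_zero F
      rw [h5] at this
      exact_mod_cast this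
    have h20 : (2 : F) ≠ 0 := by
      intro h
      have : (1 : F) = 0 := by linear_combination h50 - 2 * h
      exact one_ne_zero this
    by_cases hα : tr A = 0
    · have hE : IsEig A 2 := by
        unfold IsEig
        rw [hα]
        linear_combination h50
      obtain ⟨v0, v1, hv, h1, h2⟩ := exists_eigvec hE
      obtain ⟨w2, hw2⟩ := hval v0 v1 hv
      have hzero : A.1 1 0 * v0 ^ 2 + (A.1 1 1 - A.1 0 0) * v0 * v1 - A.1 0 1 * v1 ^ 2 = 0 := by
        linear_combination v0 * h2 - v1 * h1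
      rw [hzero, mul_zero, add_zero, hα] at hw2
      rw [hα] at hw1
      have := hall w1 w2
      rw [hw1, hw2] at this
      simp only [zero_add] at this
      apply hκ0
      have h6 : κ ^ 2 = 0 := by
        rw [this]; ring
      exact pow_eq_zero_iff (by norm_num) |>.1 h6
    · obtain ⟨w2, hw2⟩ := hscale 2 h20
      have := hall w1 w2
      rw [hw1, hw2] at this
      have h6 : tr A * κ = 0 := by
        linear_combination (-1 : F) * this - (tr A * κ + 3 * κ ^ 2) * h50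
      exact (mul_ne_zero hα hκ0) h6
  · obtain ⟨l₁, l₂, hl1, hl2, h1, h2, h3⟩ := exists_three_squares h4 h5
    obtain ⟨w2, hw2⟩ := hscale l₁ hl1
    obtain ⟨w3, hw3⟩ := hscale l₂ hl2
    have e1 := hall w1 w2
    have e2 := hall w1 w3
    rw [hw1, hw2] at e1
    rw [hw1, hw3] at e2
    have e3 : (κ * (1 - l₁ ^ 2)) * (2 * tr A + κ * (1 + l₁ ^ 2)) = 0 := by linear_combination e1
    have e4 : (κ * (1 - l₂ ^ 2)) * (2 * tr A + κ * (1 + l₂ ^ 2)) = 0 := by linear_combination e2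
    have e5 : 2 * tr A + κ * (1 + l₁ ^ 2) = 0 :=
      (mul_eq_zero.1 e3).resolve_left (mul_ne_zero hκ0 (sub_ne_zero.2 (Ne.symm h1)))
    have e6 : 2 * tr A + κ * (1 + l₂ ^ 2) = 0 :=
      (mul_eq_zero.1 e4).resolve_left (mul_ne_zero hκ0 (sub_ne_zero.2 (Ne.symm h2)))
    have e7 : κ * (l₁ ^ 2 - l₂ ^ 2) = 0 := by linear_combination e5 - e6
    exact (mul_ne_zero hκ0 (sub_ne_zero.2 h3)) e7

/-- The main dichotomy. -/
theorem main (h4 : 4 ≤ Fintype.card F) {A B : SL(2, F)} (hA : A ≠ 1 ∧ A ≠ -1)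
    (hB : B ≠ 1 ∧ B ≠ -1) :
    ∃ w w' : SL(2, F), tr (A * (w * B * w⁻¹)) ^ 2 ≠ tr (A * (w' * B * w'⁻¹)) ^ 2 := by
  by_cases htB : tr B ^ 2 = 4
  · exact main_unipotent h4 hA hB htB
  by_cases htA : tr A ^ 2 = 4
  · obtain ⟨w, w', h⟩ := main_unipotent h4 hB hA htA
    refine ⟨w⁻¹, w'⁻¹, ?_⟩
    have e : ∀ u : SL(2, F), tr (A * (u⁻¹ * B * u⁻¹⁻¹)) = tr (B * (u * A * u⁻¹)) := by
      intro u
      calc tr (A * (u⁻¹ * B * u⁻¹⁻¹)) = tr (u⁻¹ * ((u * A * u⁻¹) * B) * u⁻¹⁻¹) := by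
            congr 1
            group
        _ = tr ((u * A * u⁻¹) * B) := tr_conj _ _
        _ = tr (B * (u * A * u⁻¹)) := tr_mul_comm _ _
    rw [e, e]
    exact h
  · obtain ⟨V₀, h01, h02⟩ := exists_tr_mul hA (tr B) 0 (exists_conic _ _ _ htA)
    obtain ⟨V₁, h11, h12⟩ := exists_tr_mul hA (tr B) 1 (exists_conic _ _ _ htA)
    obtain ⟨w₀, hw0⟩ := exists_conj_of_tr_eq B V₀ htB h01.symm
    obtain ⟨w₁, hw1⟩ := exists_conj_of_tr_eq B V₁ htB h11.symm
    refine ⟨w₀, w₁, ?_⟩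
    rw [hw0, hw1, h02, h12]
    simp

end Main

/-- The Arad–Herzog conjecture for PSL(2,q): let F be a finite field with q ≥ 4 elements. For any two non-identity elements a, b of PSL(2,F), the set of products of a conjugate of a with a conjugate of b is not a single conjugacy class. -/
theorem result {F : Type*} [Field F] [Fintype F] (h4 : 4 ≤ Fintype.card F)
    (a b : Matrix.ProjectiveSpecialLinearGroup (Fin 2) F) (ha : a ≠ 1) (hb : b ≠ 1) (c : Matrix.ProjectiveSpecialLinearGroup (Fin 2) F) :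
    {g : Matrix.ProjectiveSpecialLinearGroup (Fin 2) F | ∃ u v : Matrix.ProjectiveSpecialLinearGroup (Fin 2) F, g = (u * a * u⁻¹) * (v * b * v⁻¹)} ≠ {g | IsConj c g} := by
  obtain ⟨A, rfl⟩ := mkP_surjective a
  obtain ⟨B, rfl⟩ := mkP_surjective b
  have hA : A ≠ 1 ∧ A ≠ -1 := by
    constructor
    · rintro rfl
      exact ha (map_one _)
    · rintro rfl
      exact ha mkP_neg_one
  have hB : B ≠ 1 ∧ B ≠ -1 := by
    constructor
    · rintro rfl
      exact hb (map_one _)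
    · rintro rfl
      exact hb mkP_neg_one
  intro hset
  obtain ⟨w, w', h⟩ := main h4 hA hB
  apply h
  have hmem : ∀ v : SL(2, F), IsConj c (mkP (A * (v * B * v⁻¹))) := by
    intro v
    have : mkP (A * (v * B * v⁻¹)) ∈ {g : Matrix.ProjectiveSpecialLinearGroup (Fin 2) F | ∃ u v : Matrix.ProjectiveSpecialLinearGroup (Fin 2) F, g = (u * mkP A * u⁻¹) * (v * mkP B * v⁻¹)} := by
      refine ⟨1, mkP v, ?_⟩
      simp only [map_mul, map_inv, one_mul, inv_one, mul_one]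
    rw [hset] at this
    exact this
  exact tr_sq_of_isConj ((hmem w).symm.trans (hmem w'))

end Cfsg.Agent.S2450
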