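import Cfsg.Statements.S2455
import Cfsg.Agent.Lib.PSL2.Macbeath
import Cfsg.Agent.Lib.PSL2.Unipotent
import Cfsg.Agent.Lib.PSL2.Torus
import Mathlib

set_option autoImplicit false
open Cfsg

namespace Cfsg.Agent.S2455

open Cfsg.Agent.Lib.PSL2.Basic Cfsg.Agent.Lib.PSL2.Macbeath Cfsg.Agent.Lib.PSL2.Unipotent Cfsg.Agent.Lib.PSL2.Torus
open scoped MatrixGroups

/-- A strong covering result in the direction of Thompson's conjecture (non-identity elements) for PSL(2,q), q odd: let F be a finite field of odd characteristic p with at least 5 elements and let x ∈ PSL(2,F) have order greater than 2 and not divisible by p (so x is not unipotent). Then every non-identity element of PSL(2,F) is a product of two conjugates of x. -/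
theorem result {F : Type*} [Field F] [Fintype F] (p : ℕ) [Fact p.Prime] [CharP F p] (hp : p ≠ 2) (h5 : 5 ≤ Fintype.card F)
    (x : Matrix.ProjectiveSpecialLinearGroup (Fin 2) F) (hx2 : 2 < orderOf x) (hxp : ¬ p ∣ orderOf x) : ∀ g : Matrix.ProjectiveSpecialLinearGroup (Fin 2) F, g ≠ 1 → ∃ u v : Matrix.ProjectiveSpecialLinearGroup (Fin 2) F, g = (u * x * u⁻¹) * (v * x * v⁻¹) := by
  have hpp := (Fact.out : p.Prime)
  have hrc : ringChar F = p := ringChar.eq F p
  have h2 : (2 : F) ≠ 0 := by
    apply Ring.two_ne_zero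
    rw [hrc]
    exact hp
  obtain ⟨X, rfl⟩ := mkP_surjective x
  have ht0 : tr X ≠ 0 := by
    intro h
    have h1 := (mul_self_eq_neg_one_iff X).2 h
    have h3 : (mkP X) ^ 2 = 1 := by
      rw [pow_two, ← map_mul, h1, mkP_neg_one]
    have h4 := Nat.le_of_dvd (by norm_num) (orderOf_dvd_of_pow_eq_one h3)
    omega
  have huni : ∀ Y : SL(2, F), mkP Y = mkP X → tr Y ≠ 2 := by
    intro Y hY htY
    by_cases hY1 : Y = 1
    · rw [hY1, map_one] at hY
      rw [← hY, orderOf_one] at hx2
      omega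
    · have h1 := (orderOf_eq_char_iff p Y).2 ⟨htY, hY1⟩
      have h3 : (mkP X) ^ p = 1 := by
        rw [← hY, ← map_pow, ← h1, pow_orderOf_eq_one, map_one]
      have h4 := orderOf_dvd_of_pow_eq_one h3
      rcases (Nat.dvd_prime hpp).1 h4 with h6 | h6
      · rw [h6] at hx2
        omega
      · exact hxp (h6 ▸ dvd_rfl)
  have ht4 : tr X ^ 2 ≠ 4 := by
    intro h
    have h1 : (tr X - 2) * (tr X + 2) = 0 := by linear_combination h
    rcases mul_eq_zero.1 h1 with h3 | h3
    · exact huni X rfl (sub_eq_zero.1 h3)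
    · apply huni (-X) (mkP_neg X)
      rw [tr_neg]
      linear_combination -h3
  intro g hg
  obtain ⟨G₀, rfl⟩ := mkP_surjective g
  obtain ⟨G, hGm, hG2⟩ : ∃ G : SL(2, F), mkP G = mkP G₀ ∧ tr G ≠ 2 := by
    by_cases h : tr G₀ = 2
    · refine ⟨-G₀, mkP_neg _, ?_⟩
      rw [tr_neg, h]
      intro h3
      apply h2
      have : (4 : F) = 0 := by linear_combination -h3
      have h6 : (2 : F) * 2 = 0 := by rw [← this]; norm_num
      exact (mul_self_eq_zero.1 h6)
    · exact ⟨G₀, rfl, h⟩
  rw [← hGm] at hg ⊢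
  have hG : G ≠ 1 ∧ G ≠ -1 := by
    constructor
    · rintro rfl
      exact hg (map_one _)
    · rintro rfl
      exact hg mkP_neg_one
  apply exists_prod_conj_psl ht4 hG
  by_cases hτ : tr G ^ 2 = 4
  · -- `tr G = -2`
    have h1 : (tr G - 2) * (tr G + 2) = 0 := by linear_combination hτ
    have h3 : tr G = -2 := by
      rcases mul_eq_zero.1 h1 with h3 | h3
      · exact absurd (sub_eq_zero.1 h3) hG2
      · linear_combination h3
    refine ⟨-(2 * tr X)⁻¹, -(2 * tr X)⁻¹, ?_⟩
    rw [h3]
    have h6 : 2 * tr X ≠ 0 := mul_ne_zero h2 ht0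
    field_simp
    ring
  · exact exists_conic _ _ _ hτ

end Cfsg.Agent.S2455
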