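import Cfsg.Statements.S2456
import Cfsg.Agent.Lib.PSL2.Macbeath
import Cfsg.Agent.Lib.PSL2.Unipotent
import Cfsg.Agent.Lib.PSL2.Conj
import Mathlib

set_option autoImplicit false
open Cfsg

namespace Cfsg.Agent.S2456

open Cfsg.Agent.Lib.PSL2.Basic Cfsg.Agent.Lib.PSL2.Macbeath Cfsg.Agent.Lib.PSL2.Unipotent Cfsg.Agent.Lib.PSL2.Conj
open scoped MatrixGroups

/-- A strong covering result in the direction of Thompson's conjecture (non-identity elements) for PSL(2,q), q even: let F be a finite field of characteristic 2 with q ≥ 4 elements and let x ∈ PSL(2,F) have order greater than 2 and not dividing q + 1. Then every non-identity element of PSL(2,F) is a product of two conjugates of x. -/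
theorem result {F : Type*} [Field F] [Fintype F] [CharP F 2] (h4 : 4 ≤ Fintype.card F)
    (x : Matrix.ProjectiveSpecialLinearGroup (Fin 2) F) (hx2 : 2 < orderOf x) (hxq : ¬ orderOf x ∣ Fintype.card F + 1) : ∀ g : Matrix.ProjectiveSpecialLinearGroup (Fin 2) F, g ≠ 1 → ∃ u v : Matrix.ProjectiveSpecialLinearGroup (Fin 2) F, g = (u * x * u⁻¹) * (v * x * v⁻¹) := by
  have h2 : (2 : F) = 0 := by exact_mod_cast CharP.cast_eq_zero F 2
  have h40 : (4 : F) = 0 := by
    have : (4 : F) = 2 * 2 := by norm_num
    rw [this, h2, zero_mul]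
  obtain ⟨X, rfl⟩ := mkP_surjective x
  have ht0 : tr X ≠ 0 := by
    intro h
    have hX1 : X ≠ 1 := by
      rintro rfl
      rw [map_one, orderOf_one] at hx2
      omega
    have htX : tr X = 2 := by rw [h, h2]
    have h1 := (orderOf_eq_char_iff 2 X).2 ⟨htX, hX1⟩
    have hX2 : X ^ 2 = 1 := by
      have := pow_orderOf_eq_one X
      rwa [h1] at this
    have h3 : (mkP X) ^ 2 = 1 := by
      rw [← map_pow, hX2, map_one]
    have h5 := Nat.le_of_dvd (by norm_num) (orderOf_dvd_of_pow_eq_one h3)
    omega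
  have ht4 : tr X ^ 2 ≠ 4 := by
    rw [h40]
    exact pow_ne_zero 2 ht0
  obtain ⟨a, ha⟩ : ∃ a, IsEig X a := by
    by_contra hcon
    push Not at hcon
    have h1 := pow_card_add_one_of_nonsplit hcon
    apply hxq
    apply orderOf_dvd_of_pow_eq_one
    rw [← map_pow, h1, map_one]
  intro g hg
  obtain ⟨G, rfl⟩ := mkP_surjective g
  have hG : G ≠ 1 ∧ G ≠ -1 := by
    constructor
    · rintro rfl
      exact hg (map_one _)
    · rintro rfl
      exact hg mkP_neg_one
  apply exists_prod_conj_psl ht4 hG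
  by_cases hτ : tr G = 0
  · refine ⟨a, 0, ?_⟩
    rw [hτ]
    simp only [zero_mul, mul_zero, add_zero, sub_zero, ne_eq, OfNat.ofNat_ne_zero, not_false_eq_true, zero_pow, zero_add]
    unfold IsEig at ha
    linear_combination ha
  · apply exists_conic
    rw [h40]
    exact pow_ne_zero 2 hτ

end Cfsg.Agent.S2456
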