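import Cfsg.Statements.S2460
import Cfsg.Agent.Lib.OreP4.Main

set_option autoImplicit false
open Cfsg

namespace Cfsg.Agent.S2460

/-- A form of Thompson's conjecture for the simple groups PSp(4,q), q ≥ 3 (covering the non-identity elements), with a semisimple class: for F a finite field of characteristic p with at least 3 elements there is an element x of PSp(4,F) of order prime to p such that every non-identity element of PSp(4,F) is a product of two conjugates of x. -/
theorem result {F : Type*} [Field F] [Fintype F] (p : ℕ) [Fact p.Prime] [CharP F p] (h3 : 3 ≤ Fintype.card F) :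
    ∃ x : Cfsg.PSp 2 F, ¬ p ∣ orderOf x ∧ ∀ g : Cfsg.PSp 2 F, g ≠ 1 → ∃ u v : Cfsg.PSp 2 F, g = (u * x * u⁻¹) * (v * x * v⁻¹) := by
  classical
  obtain ⟨M, hτ, hd, hnr, hMp⟩ := Cfsg.Agent.Lib.OreP4.exists_M p h3
  have hu : ∃ u : F, u ≠ 0 ∧ u ≠ 1 := by
    by_contra hc
    push Not at hc
    have h1 : Finset.univ ⊆ ({0, 1} : Finset F) := by
      intro u _
      by_cases h0 : u = 0
      · simp [h0]
      · simp [hc u h0]
    have h2 := Finset.card_le_card h1
    have h3' : ({0, 1} : Finset F).card ≤ 2 := Finset.card_le_two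
    rw [Finset.card_univ] at h2
    omega
  let π : Cfsg.Agent.Lib.OreP4.SP F →* Cfsg.PSp 2 F :=
    QuotientGroup.mk' (Subgroup.center (Cfsg.Agent.Lib.OreP4.SP F))
  refine ⟨π (Cfsg.Agent.Lib.OreP4.lev M), ?_, ?_⟩
  · intro hdvd
    have h1 : orderOf (π (Cfsg.Agent.Lib.OreP4.lev M)) ∣ Fintype.card F ^ 2 - 1 := by
      apply orderOf_dvd_of_pow_eq_one
      rw [← map_pow, ← map_pow, hMp, map_one, map_one]
    have h2 : p ∣ Fintype.card F ^ 2 - 1 := hdvd.trans h1
    have h3' : p ∣ Fintype.card F := by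
      obtain ⟨n, hn, hpn⟩ := FiniteField.card F p
      rw [hpn]
      exact dvd_pow_self p n.ne_zero
    have h4 : p ∣ Fintype.card F ^ 2 := h3'.trans (dvd_pow_self _ (by norm_num))
    have hpos : 1 ≤ Fintype.card F ^ 2 := Nat.one_le_pow _ _ (by omega)
    have h5 : p ∣ 1 := by
      have := (Nat.dvd_sub h4 h2)
      rwa [Nat.sub_sub_self hpos] at this
    exact (Fact.out : p.Prime).one_lt.ne' (Nat.dvd_one.1 h5)
  · intro g hg
    obtain ⟨y, rfl⟩ := QuotientGroup.mk'_surjective _ g
    have hy : y ∉ Subgroup.center (Cfsg.Agent.Lib.OreP4.SP F) := fun h =>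
      hg ((QuotientGroup.eq_one_iff y).2 h)
    obtain ⟨c, a, b, z, hz, h⟩ := Cfsg.Agent.Lib.OreP4.factor_main M hτ hd hnr y hy hu
    refine ⟨π (c⁻¹ * a), π (c⁻¹ * b), ?_⟩
    have hπz : π z = 1 := (QuotientGroup.eq_one_iff z).2 hz
    have h2 := congrArg π h
    simp only [map_mul, map_inv, hπz, one_mul] at h2
    show π y = _
    have h3' : π y = (π c)⁻¹ * (π c * π y * (π c)⁻¹) * π c := by group
    rw [h3', h2]
    simp only [map_mul, map_inv]
    group

end Cfsg.Agent.S2460
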