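import Cfsg.Statements.S2461
import Cfsg.Agent.Lib.OreG2.Lift
import Cfsg.Agent.Lib.OreP4.Main

set_option autoImplicit false
open Cfsg

namespace Cfsg.Agent.S2461

/-- A form of Thompson's conjecture for the simple Chevalley groups G₂(q), q ≥ 3 (covering the non-identity elements), with a semisimple class: for F a finite field of characteristic p with at least 3 elements there is an element x of the Chevalley group of type G₂ over F of order prime to p such that every non-identity element of that group is a product of two conjugates of x. -/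
theorem result {F : Type*} [Field F] [Fintype F] (p : ℕ) [Fact p.Prime] [CharP F p] (h3 : 3 ≤ Fintype.card F) :
    ∃ x : Cfsg.Lie.chevG2.group F, ¬ p ∣ orderOf x ∧ ∀ g : Cfsg.Lie.chevG2.group F, g ≠ 1 → ∃ u v : Cfsg.Lie.chevG2.group F, g = (u * x * u⁻¹) * (v * x * v⁻¹) := by
  classical
  obtain ⟨M, hτ, hd, hnr, hMp⟩ := Cfsg.Agent.Lib.OreP4.exists_M (F := F) p h3
  refine ⟨Cfsg.Agent.Lib.OreG2.liftHom F (Cfsg.Agent.Lib.OreG2.lev M), ?_, ?_⟩
  · intro hdvd
    have h1 : orderOf (Cfsg.Agent.Lib.OreG2.liftHom F (Cfsg.Agent.Lib.OreG2.lev M)) ∣ Fintype.card F ^ 2 - 1 := by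
      apply orderOf_dvd_of_pow_eq_one
      rw [← map_pow, ← map_pow, hMp, map_one, map_one]
    have h2 : p ∣ Fintype.card F ^ 2 - 1 := hdvd.trans h1
    have h3' : p ∣ Fintype.card F := by
      obtain ⟨n, hn, hpn⟩ := FiniteField.card F p
      rw [hpn]
      exact dvd_pow_self p n.ne_zero
    have h4 : p ∣ Fintype.card F ^ 2 := h3'.trans (dvd_pow_self _ (by norm_num))
    have hpos : 1 ≤ Fintype.card F ^ 2 := Nat.one_le_pow _ _ (by omega)
    have h5 : p ∣ 1 := by
      have := (Nat.dvd_sub h4 h2)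
      rwa [Nat.sub_sub_self hpos] at this
    exact (Fact.out : p.Prime).one_lt.ne' (Nat.dvd_one.1 h5)
  · intro g hg
    obtain ⟨y, rfl⟩ := Cfsg.Agent.Lib.OreG2.liftHom_surjective (F := F) p g
    have hy : y ≠ 1 := by
      rintro rfl
      exact hg (map_one _)
    obtain ⟨a, b, hab⟩ := Cfsg.Agent.Lib.OreG2.exists_factor M hτ hd hnr hy
    refine ⟨Cfsg.Agent.Lib.OreG2.liftHom F a, Cfsg.Agent.Lib.OreG2.liftHom F b, ?_⟩
    conv_lhs => rw [hab]
    simp only [map_mul, map_inv]

end Cfsg.Agent.S2461
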