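import Cfsg.Statements.S2466
import Mathlib

set_option autoImplicit false
open Cfsg

namespace Cfsg.Agent.S2466

open Equiv Equiv.Perm

lemma prime_dvd_lcm {r : ℕ} (hr : r.Prime) (m : Multiset ℕ) (h : r ∣ m.lcm) : ∃ x ∈ m, r ∣ x := by
  induction m using Multiset.induction_on with
  | empty =>
    simp only [Multiset.lcm_zero] at h
    exact absurd (Nat.dvd_one.mp h) hr.ne_one
  | cons a s ih =>
    rw [Multiset.lcm_cons] at h
    rcases (Nat.Prime.dvd_lcm hr).mp h with h1 | h1
    · exact ⟨a, Multiset.mem_cons_self a s, h1⟩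
    · obtain ⟨x, hx, hx2⟩ := ih h1
      exact ⟨x, Multiset.mem_cons_of_mem hx, hx2⟩

/-- Adjacency of odd primes in the prime graph of the alternating groups: let r ≠ s be odd primes at most n. The alternating group of degree n has an element of order r·s if and only if r + s ≤ n. -/
theorem result (n r s : ℕ) (hr : r.Prime) (hs : s.Prime) (hr2 : r ≠ 2) (hs2 : s ≠ 2) (hrs : r ≠ s) (hrn : r ≤ n) (hsn : s ≤ n) :
    (r * s ∈ Set.range (orderOf : alternatingGroup (Fin n) → ℕ)) ↔ r + s ≤ n := by
  classical
  constructor
  · rintro ⟨⟨g, hgA⟩, hg⟩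
    have hg' : orderOf g = r * s := by
      rw [← hg]
      exact (Subgroup.orderOf_mk g hgA).symm
    have hl : g.cycleType.lcm = r * s := by rw [lcm_cycleType, hg']
    obtain ⟨x, hx, hrx⟩ := prime_dvd_lcm hr g.cycleType (by rw [hl]; exact dvd_mul_right r s)
    obtain ⟨y, hy, hsy⟩ := prime_dvd_lcm hs g.cycleType (by rw [hl]; exact dvd_mul_left s r)
    have hsum : g.cycleType.sum ≤ n := by
      rw [sum_cycleType]
      simpa using Finset.card_le_univ g.support
    have hx0 : 0 < x := lt_of_lt_of_le (by norm_num) (two_le_of_mem_cycleType hx)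
    have hy0 : 0 < y := lt_of_lt_of_le (by norm_num) (two_le_of_mem_cycleType hy)
    have hr3 : 3 ≤ r := by
      have := hr.two_le; omega
    have hs3 : 3 ≤ s := by
      have := hs.two_le; omega
    by_cases hxy : x = y
    · subst hxy
      have hcop : Nat.Coprime r s := (Nat.coprime_primes hr hs).mpr hrs
      have h1 : r * s ∣ x := hcop.mul_dvd_of_dvd_of_dvd hrx hsy
      have h2 : r * s ≤ x := Nat.le_of_dvd hx0 h1
      have h3 : x ≤ g.cycleType.sum := Multiset.single_le_sum (by simp) x hx
      have h4 : r + s ≤ r * s := by nlinarith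
      omega
    · have hy' : y ∈ g.cycleType.erase x := (Multiset.mem_erase_of_ne (Ne.symm hxy)).mpr hy
      have h1 : y ≤ (g.cycleType.erase x).sum := Multiset.single_le_sum (by simp) y hy'
      have h2 : g.cycleType.sum = x + (g.cycleType.erase x).sum := by
        conv_lhs => rw [← Multiset.cons_erase hx]
        simp
      have h3 := Nat.le_of_dvd hx0 hrx
      have h4 := Nat.le_of_dvd hy0 hsy
      omega
  · intro hle
    have hr3 : 2 ≤ r := hr.two_le
    have hs3 : 2 ≤ s := hs.two_le
    have hex : ∃ g : Perm (Fin n), g.cycleType = {r, s} := by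
      rw [exists_with_cycleType_iff]
      constructor
      · simpa using hle
      · intro a ha
        simp only [Multiset.insert_eq_cons, Multiset.mem_cons, Multiset.mem_singleton] at ha
        rcases ha with rfl | rfl <;> assumption
    obtain ⟨g, hg⟩ := hex
    have hodd_r : Odd r := hr.odd_of_ne_two hr2
    have hodd_s : Odd s := hs.odd_of_ne_two hs2
    have hsign : sign g = 1 := by
      rw [sign_of_cycleType, hg]
      have he : Even (r + s + 2) := (hodd_r.add_odd hodd_s).add even_two
      simp only [Multiset.insert_eq_cons, Multiset.sum_cons, Multiset.sum_singleton, Multiset.card_cons, Multiset.card_singleton]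
      exact he.neg_one_pow
    have hord : orderOf g = r * s := by
      rw [← lcm_cycleType, hg]
      simp only [Multiset.insert_eq_cons, Multiset.lcm_cons, Multiset.lcm_singleton]
      have hcop : Nat.Coprime r s := (Nat.coprime_primes hr hs).mpr hrs
      show Nat.lcm r (normalize s) = _
      rw [normalize_eq, hcop.lcm_eq_mul]
    refine ⟨⟨g, mem_alternatingGroup.mpr hsign⟩, ?_⟩
    show orderOf (⟨g, _⟩ : alternatingGroup (Fin n)) = r * s
    rw [Subgroup.orderOf_mk, hord]

end Cfsg.Agent.S2466
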