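import Cfsg.Statements.S2467
import Mathlib

set_option autoImplicit false
open Cfsg

namespace Cfsg.Agent.S2467

open Equiv Equiv.Perm

lemma prime_dvd_lcm {r : ℕ} (hr : r.Prime) (m : Multiset ℕ) (h : r ∣ m.lcm) : ∃ x ∈ m, r ∣ x := by
  induction m using Multiset.induction_on with
  | empty =>
    simp only [Multiset.lcm_zero] at h
    exact absurd (Nat.dvd_one.mp h) hr.ne_one
  | cons a s ih =>
    rw [Multiset.lcm_cons] at h
    rcases (Nat.Prime.dvd_lcm hr).mp h with h1 | h1
    · exact ⟨a, Multiset.mem_cons_self a s, h1⟩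
    · obtain ⟨x, hx, hx2⟩ := ih h1
      exact ⟨x, Multiset.mem_cons_of_mem hx, hx2⟩

lemma prod_sign (m : Multiset ℕ) :
    (m.map fun n => -(-1 : ℤˣ) ^ n).prod = (-1 : ℤˣ) ^ (Multiset.card (m.filter Even)) := by
  induction m using Multiset.induction_on with
  | empty => simp
  | cons a s ih =>
    rw [Multiset.map_cons, Multiset.prod_cons, ih]
    by_cases ha : Even a
    · rw [Multiset.filter_cons_of_pos _ ha, Multiset.card_cons, pow_succ, ha.neg_one_pow]
      simp [mul_comm]
    · rw [Multiset.filter_cons_of_neg _ ha, (Nat.not_even_iff_odd.mp ha).neg_one_pow]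
      simp

/-- Adjacency of 2 and an odd prime in the prime graph of the alternating groups: let r be an odd prime at most n, with n ≥ 4. The alternating group of degree n has an element of order 2r if and only if r + 4 ≤ n. -/
theorem result (n r : ℕ) (hn : 4 ≤ n) (hr : r.Prime) (hr2 : r ≠ 2) (hrn : r ≤ n) :
    (2 * r ∈ Set.range (orderOf : alternatingGroup (Fin n) → ℕ)) ↔ r + 4 ≤ n := by
  classical
  have hr3 : 3 ≤ r := by
    have := hr.two_le; omega
  constructor
  · rintro ⟨⟨g, hgA⟩, hg⟩
    have hg' : orderOf g = 2 * r := by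
      rw [← hg]
      exact (Subgroup.orderOf_mk g hgA).symm
    have hl : g.cycleType.lcm = 2 * r := by rw [lcm_cycleType, hg']
    set m := g.cycleType with hm
    obtain ⟨x, hx, h2x⟩ := prime_dvd_lcm Nat.prime_two m (by rw [hl]; exact dvd_mul_right 2 r)
    obtain ⟨z, hz, hrz⟩ := prime_dvd_lcm hr m (by rw [hl]; exact dvd_mul_left r 2)
    have hsum : m.sum ≤ n := by
      have := g.sum_cycleType_le
      simpa using this
    have hall2 : ∀ a ∈ m, 2 ≤ a := fun a ha => two_le_of_mem_cycleType ha
    set E := m.filter Even with hE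
    have hsign : Even (Multiset.card E) := by
      have h1 : sign g = 1 := mem_alternatingGroup.mp hgA
      rw [sign_of_cycleType', ← hm, prod_sign, ← hE] at h1
      by_contra hodd
      rw [(Nat.not_even_iff_odd.mp hodd).neg_one_pow] at h1
      exact absurd h1 (by decide)
    have hxE : x ∈ E := Multiset.mem_filter.mpr ⟨hx, even_iff_two_dvd.mpr h2x⟩
    have hcard : 2 ≤ Multiset.card E := by
      have h0 : 0 < Multiset.card E := Multiset.card_pos_iff_exists_mem.mpr ⟨x, hxE⟩
      obtain ⟨k, hk⟩ := hsign
      omega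
    have hsumE : E.sum ≤ m.sum := by
      have := Multiset.filter_add_not Even m
      rw [← this, Multiset.sum_add]
      exact Nat.le_add_right _ _
    -- a second element
    have hsecond : ∀ w ∈ E, ∃ y ∈ E.erase w, 2 ≤ y ∧ w + y ≤ E.sum := by
      intro w hw
      have h1 : 0 < Multiset.card (E.erase w) := by
        rw [Multiset.card_erase_of_mem hw]
        simp only [Nat.pred_eq_sub_one]
        omega
      obtain ⟨y, hy⟩ := Multiset.card_pos_iff_exists_mem.mp h1
      refine ⟨y, hy, hall2 y (Multiset.mem_filter.mp (Multiset.mem_of_mem_erase hy)).1, ?_⟩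
      have h2 : y ≤ (E.erase w).sum := Multiset.single_le_sum (by simp) y hy
      have h3 : E.sum = w + (E.erase w).sum := by
        conv_lhs => rw [← Multiset.cons_erase hw]
        simp
      omega
    by_cases hzE : Even z
    · have hzmem : z ∈ E := Multiset.mem_filter.mpr ⟨hz, hzE⟩
      obtain ⟨y, hy, hy2, hy3⟩ := hsecond z hzmem
      have h1 : 2 * r ∣ z := by
        have hcop : Nat.Coprime 2 r := (Nat.coprime_primes Nat.prime_two hr).mpr (Ne.symm hr2)
        exact hcop.mul_dvd_of_dvd_of_dvd (even_iff_two_dvd.mp hzE) hrz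
      have h2 : 2 * r ≤ z := Nat.le_of_dvd (by have := hall2 z hz; omega) h1
      omega
    · obtain ⟨y, hy, hy2, hy3⟩ := hsecond x hxE
      have hx2 := hall2 x hx
      have h1 : r ≤ z := Nat.le_of_dvd (by have := hall2 z hz; omega) hrz
      have h2 : z ∈ m.filter (fun a => ¬ Even a) := Multiset.mem_filter.mpr ⟨hz, hzE⟩
      have h3 : z ≤ (m.filter (fun a => ¬ Even a)).sum := Multiset.single_le_sum (by simp) z h2
      have h4 : m.sum = E.sum + (m.filter (fun a => ¬ Even a)).sum := by
        conv_lhs => rw [← Multiset.filter_add_not Even m]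
        rw [Multiset.sum_add]
      omega
  · intro hle
    have hex : ∃ g : Perm (Fin n), g.cycleType = {r, 2, 2} := by
      rw [exists_with_cycleType_iff]
      constructor
      · simp only [Multiset.insert_eq_cons, Multiset.sum_cons, Multiset.sum_singleton, Fintype.card_fin]
        omega
      · intro a ha
        simp only [Multiset.insert_eq_cons, Multiset.mem_cons, Multiset.mem_singleton] at ha
        rcases ha with rfl | rfl | rfl <;> omega
    obtain ⟨g, hg⟩ := hex
    have hodd_r : Odd r := hr.odd_of_ne_two hr2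
    have hsign : sign g = 1 := by
      rw [sign_of_cycleType, hg]
      have he : Even (r + (2 + 2) + (1 + 1 + 1)) := by
        obtain ⟨k, hk⟩ := hodd_r
        exact ⟨k + 4, by omega⟩
      simp only [Multiset.insert_eq_cons, Multiset.sum_cons, Multiset.sum_singleton, Multiset.card_cons, Multiset.card_singleton]
      exact he.neg_one_pow
    have hord : orderOf g = 2 * r := by
      rw [← lcm_cycleType, hg]
      simp only [Multiset.insert_eq_cons, Multiset.lcm_cons, Multiset.lcm_singleton]
      have hcop : Nat.Coprime r 2 := (Nat.coprime_primes hr Nat.prime_two).mpr hr2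
      show Nat.lcm r (Nat.lcm 2 (normalize 2)) = _
      rw [normalize_eq, Nat.lcm_self, hcop.lcm_eq_mul, mul_comm]
    refine ⟨⟨g, mem_alternatingGroup.mpr hsign⟩, ?_⟩
    show orderOf (⟨g, _⟩ : alternatingGroup (Fin n)) = 2 * r
    rw [Subgroup.orderOf_mk, hord]

end Cfsg.Agent.S2467
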