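import Cfsg.Statements.S2471
import Cfsg.Agent.Lib.PSL2.Unipotent
import Mathlib

set_option autoImplicit false
open Cfsg

namespace Cfsg.Agent.S2471

open Cfsg.Agent.Lib.PSL2.Basic Cfsg.Agent.Lib.PSL2.Unipotent

/-- In PSL(2,q) with q odd, the characteristic p is isolated from 2 in the prime graph: for F a finite field of odd characteristic p with at least 5 elements, PSL(2,F) has no element of order 2p. -/
theorem result {F : Type*} [Field F] [Fintype F] (p : ℕ) [Fact p.Prime] [CharP F p] (hp : p ≠ 2) (h5 : 5 ≤ Fintype.card F) (g : Matrix.ProjectiveSpecialLinearGroup (Fin 2) F) :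
    orderOf g ≠ 2 * p := by
  intro hord
  have hpp := (Fact.out : p.Prime)
  have hoddp : Odd p := hpp.odd_of_ne_two hp
  obtain ⟨A, rfl⟩ := mkP_surjective g
  have hB : (mkP (A ^ 2)) ^ p = 1 := by
    rw [map_pow, ← pow_mul, ← hord]
    exact pow_orderOf_eq_one _
  rw [← map_pow, mkP_eq_one_iff] at hB
  -- `C = ± A ^ 2` with `C ^ p = 1`
  obtain ⟨C, hC, hCP, hCA⟩ : ∃ C : Matrix.SpecialLinearGroup (Fin 2) F, C ^ p = 1 ∧ mkP C = mkP (A ^ 2) ∧ C * A = A * C := by
    rcases hB with hB | hB
    · exact ⟨A ^ 2, hB, rfl, (Commute.pow_left (Commute.refl A) 2).eq⟩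
    · refine ⟨-(A ^ 2), ?_, mkP_neg _, ?_⟩
      · rw [neg_pow, hB, hoddp.neg_one_pow]
        simp
      · apply ext2 <;> simp <;>
        · have := (Commute.pow_left (Commute.refl A) 2).eq
          first
          | (have h0 := congrArg (fun M : Matrix.SpecialLinearGroup (Fin 2) F => M.1 0 0) this; simp only [mul_00] at h0; linear_combination -h0)
          | (have h0 := congrArg (fun M : Matrix.SpecialLinearGroup (Fin 2) F => M.1 0 1) this; simp only [mul_01] at h0; linear_combination -h0)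
          | (have h0 := congrArg (fun M : Matrix.SpecialLinearGroup (Fin 2) F => M.1 1 0) this; simp only [mul_10] at h0; linear_combination -h0)
          | (have h0 := congrArg (fun M : Matrix.SpecialLinearGroup (Fin 2) F => M.1 1 1) this; simp only [mul_11] at h0; linear_combination -h0)
  have hC1 : C ≠ 1 := by
    rintro rfl
    rw [map_one, map_pow] at hCP
    have := orderOf_dvd_of_pow_eq_one hCP.symm
    rw [hord] at this
    have h2 := Nat.le_of_dvd (by norm_num) this
    have := hpp.two_le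
    omega
  have htr : tr C = 2 := tr_eq_two_of_pow_prime_pow p C 1 (by rw [pow_one]; exact hC)
  obtain ⟨g0, b, hb, hg0⟩ := exists_conj_x_ne_of_tr_eq_two C htr hC1
  have hcomm : (g0 * A * g0⁻¹) * x b = x b * (g0 * A * g0⁻¹) := by
    rw [← hg0]
    calc g0 * A * g0⁻¹ * (g0 * C * g0⁻¹) = g0 * (A * C) * g0⁻¹ := by group
      _ = g0 * (C * A) * g0⁻¹ := by rw [hCA]
      _ = g0 * C * g0⁻¹ * (g0 * A * g0⁻¹) := by group
  have hAp : (g0 * A * g0⁻¹) ^ p = 1 ∨ (g0 * A * g0⁻¹) ^ p = -1 := by
    rcases eq_x_or_neg_x_of_commute hb hcomm with ⟨t, ht⟩ | ⟨t, ht⟩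
    · left
      rw [ht, x_pow]
      simp
    · right
      rw [ht, neg_pow, hoddp.neg_one_pow, x_pow]
      simp
  have hAp' : mkP (g0 * A * g0⁻¹) ^ p = 1 := by
    rw [← map_pow, mkP_eq_one_iff]
    exact hAp
  rw [map_mul, map_mul, map_inv, conj_pow, mul_inv_eq_one, mul_eq_left] at hAp'
  have := orderOf_dvd_of_pow_eq_one hAp'
  rw [hord] at this
  have h2 := Nat.le_of_dvd hpp.pos this
  have := hpp.pos
  omega

end Cfsg.Agent.S2471
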