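import Cfsg.Statements.S2474
import Mathlib
import Cfsg.Agent.Lib.Classical.Spectra.TypeD
import Cfsg.Agent.Lib.Classical.Orth.Models
import Cfsg.Agent.Lib.Classical.Symp.Basic

set_option autoImplicit false
open Cfsg

namespace Cfsg.Agent.S2474

open Module QuadraticMap Matrix
open Cfsg.Agent.Lib.Classical.Spectra.Transfer Cfsg.Agent.Lib.Classical.Spectra.Swap
open Cfsg.Agent.Lib.Classical.Spectra.Main Cfsg.Agent.Lib.Classical.Spectra.Bridge
open Cfsg.Agent.Lib.Classical.Spectra.Local Cfsg.Agent.Lib.Classical.Spectra.OddOrders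
open Cfsg.Agent.Lib.Classical.Spectra.Rev Cfsg.Agent.Lib.Classical.Spectra.TypeD
open Cfsg.Agent.Lib.Classical.Symp.OrdModels Cfsg.Agent.Lib.Classical.Symp.OrdClass
open Cfsg.Agent.Lib.Classical.Orth.Basic Cfsg.Agent.Lib.Classical.Orth.Models
open Cfsg.Agent.Lib.Classical.Symp.Basic

section Aux

variable {F : Type*} [Field F] [Fintype F]

/-- The endomorphism of a matrix. -/
noncomputable def toEnd {n : ℕ} : Matrix (Fin n ⊕ Fin n) (Fin n ⊕ Fin n) F ≃ₐ[F] Module.End F (Fin n ⊕ Fin n → F) :=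
  Matrix.toLinAlgEquiv'

theorem toEnd_pow_one {n : ℕ} (A : Matrix (Fin n ⊕ Fin n) (Fin n ⊕ Fin n) F) (t : ℕ) :
    (toEnd A) ^ t = 1 ↔ A ^ t = 1 := by
  rw [← map_pow, ← map_one toEnd]
  exact toEnd.injective.eq_iff

theorem toEnd_pow_neg {n : ℕ} (A : Matrix (Fin n ⊕ Fin n) (Fin n ⊕ Fin n) F) (t : ℕ) :
    (toEnd A) ^ t = -1 ↔ A ^ t = -1 := by
  rw [← map_pow, ← map_one toEnd, ← map_neg]
  exact toEnd.injective.eq_iff

theorem toEnd_isom {n : ℕ} (A : symplecticGroup (Fin n) F) (a b : Fin n ⊕ Fin n → F) :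
    sympBilin n F (toEnd A.1 a) (toEnd A.1 b) = sympBilin n F a b :=
  mem_symplecticGroup_iff_forall.mp A.2 a b

theorem sympSep (n : ℕ) (x : Fin n ⊕ Fin n → F) (h : ∀ w, sympBilin n F x w = 0) : x = 0 :=
  sympBilin_nondegenerate.1 x h

theorem finrank_sympSpace (n : ℕ) : finrank F (Fin n ⊕ Fin n → F) + 1 = Fintype.card (Unit ⊕ (Fin n ⊕ Fin n)) := by
  simp
  omega

variable (p : ℕ) [hp : Fact p.Prime] [hch : CharP F p]
include hp hch

theorem cast_ne {s : ℕ} (hs : s.Prime) (hsp : s ≠ p) : (s : F) ≠ 0 := by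
  intro h
  have h1 : p ∣ s := (CharP.cast_eq_zero_iff F p s).1 h
  exact hsp ((Nat.prime_dvd_prime_iff_eq hp.out hs).1 h1).symm

/-- Odd orders, forward direction. -/
theorem forward_odd (hodd : Odd (Fintype.card F)) (h2 : (2 : F) ≠ 0) (n : ℕ) (hn : 3 ≤ n) (r s : ℕ) (hr : r.Prime)
    (hs : s.Prime) (hrs : r ≠ s) (hrodd : Odd r) (hsodd : Odd s)
    (x : Cfsg.POmega F (⇑(oddForm n F))) (hx : orderOf x = r * s) : ∃ z : Cfsg.PSp n F, orderOf z = r * s := by
  have hQ := oddForm_nondegenerate h2 n (F := F)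
  have hcard : Fintype.card (Unit ⊕ (Fin n ⊕ Fin n)) = 2 * n + 1 := by
    simp
    omega
  have hc := center_bot hQ h2 (by rw [hcard]; exact ⟨n, rfl⟩) (by rw [hcard]; omega)
  obtain ⟨g, hgΩ, hg⟩ := exists_lift hc x
  rw [hx] at hg
  have hdim : finrank F (Unit ⊕ (Fin n ⊕ Fin n) → F) = 2 * n + 1 := by rw [finrank_pi, hcard]
  have hX : ∀ t, (Mat (oddForm n F) g) ^ t = 1 ↔ r * s ∣ t := by
    intro t
    rw [Mat_pow_eq_one_iff, hg]
  have hcop : Nat.Coprime r s := (Nat.coprime_primes hr hs).2 hrs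
  by_cases hrp : r = p
  · subst hrp
    exact psp_of_type_B r h2 (by omega) (oddForm n F) hQ.1 hdim _ (Mat_isom _ g) hsodd (cast_ne r hs hrs.symm) hcop hX
  by_cases hsp : s = p
  · subst hsp
    rw [mul_comm r s] at hX ⊢
    exact psp_of_type_B s h2 (by omega) (oddForm n F) hQ.1 hdim _ (Mat_isom _ g) hrodd (cast_ne s hr hrs) hcop.symm hX
  exact psp_of_type_A h2 (oddForm n F) hQ.1 hdim _ (Mat_isom _ g) (hrodd.mul hsodd)
    (by
      have := hr.two_le
      have := hs.two_le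
      nlinarith)
    (by
      rw [Nat.cast_mul]
      exact mul_ne_zero (cast_ne p hr hrp) (cast_ne p hs hsp)) hX

/-- Odd orders, backward direction. -/
theorem backward_odd (h2 : (2 : F) ≠ 0) (n : ℕ) (hn : 3 ≤ n) (r s : ℕ) (hr : r.Prime)
    (hs : s.Prime) (hrs : r ≠ s) (hrodd : Odd r) (hsodd : Odd s)
    (x : Cfsg.PSp n F) (hx : orderOf x = r * s) : ∃ z : Cfsg.POmega F (⇑(oddForm n F)), orderOf z = r * s := by
  have hQ := oddForm_nondegenerate h2 n (F := F)
  have hcard : Fintype.card (Unit ⊕ (Fin n ⊕ Fin n)) = 2 * n + 1 := by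
    simp
    omega
  have hodd' : Odd (Fintype.card (Unit ⊕ (Fin n ⊕ Fin n))) := by rw [hcard]; exact ⟨n, rfl⟩
  have h5 : 5 ≤ Fintype.card (Unit ⊕ (Fin n ⊕ Fin n)) := by rw [hcard]; omega
  have hoddx : Odd (orderOf x) := by
    rw [hx]
    exact hrodd.mul hsodd
  obtain ⟨A, -, hA⟩ := Cfsg.Agent.Lib.Classical.Symp.OrdClass.exists_lift (by omega) x hoddx
  rw [hx] at hA
  have hT : ∀ t, (toEnd A.1) ^ t = 1 ↔ r * s ∣ t := by
    intro t
    rw [toEnd_pow_one, ← sp_pow_eq_one_iff, ← orderOf_dvd_iff_pow_eq_one, hA]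
  have hcop : Nat.Coprime r s := (Nat.coprime_primes hr hs).2 hrs
  by_cases hrp : r = p
  · subst hrp
    exact omega_of_type_B r h2 hQ hodd' h5 sympBilin_isAlt (sympSep n) (finrank_sympSpace n) (toEnd_isom A) hsodd
      (cast_ne r hs hrs.symm) hcop hT
  by_cases hsp : s = p
  · subst hsp
    rw [mul_comm r s] at hT ⊢
    exact omega_of_type_B s h2 hQ hodd' h5 sympBilin_isAlt (sympSep n) (finrank_sympSpace n) (toEnd_isom A) hrodd
      (cast_ne s hr hrs) hcop.symm hT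
  exact omega_of_type_A h2 hQ hodd' h5 sympBilin_isAlt (sympSep n) (finrank_sympSpace n).le (toEnd_isom A)
    (hrodd.mul hsodd)
    (by
      rw [Nat.cast_mul]
      exact mul_ne_zero (cast_ne p hr hrp) (cast_ne p hs hsp)) hT

/-- Even orders, forward direction. -/
theorem forward_two (hodd : Odd (Fintype.card F)) (h2 : (2 : F) ≠ 0) (n : ℕ) (hn : 3 ≤ n) (s : ℕ)
    (hs : s.Prime) (hsodd : Odd s)
    (x : Cfsg.POmega F (⇑(oddForm n F))) (hx : orderOf x = 2 * s) : ∃ z : Cfsg.PSp n F, orderOf z = 2 * s := by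
  by_cases hsp : s = p
  · subst hsp
    obtain ⟨l, rfl⟩ : ∃ l, n = 1 + l := ⟨n - 1, by omega⟩
    obtain ⟨z, hz⟩ := exists_twist h2 (le_refl 1) (by omega) (isOrd_one (F := F) 1) (isOrd_p (F := F) s h2 (k := l) (by omega))
      odd_one hsodd
    exact ⟨z, by rw [hz]; simp⟩
  have hQ := oddForm_nondegenerate h2 n (F := F)
  have hcard : Fintype.card (Unit ⊕ (Fin n ⊕ Fin n)) = 2 * n + 1 := by
    simp
    omega
  have hc := center_bot hQ h2 (by rw [hcard]; exact ⟨n, rfl⟩) (by rw [hcard]; omega)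
  obtain ⟨g, hgΩ, hg⟩ := exists_lift hc x
  rw [hx] at hg
  exact psp_of_type_D p hodd h2 (by omega) (oddForm n F) hQ hcard g hgΩ hs hsodd (cast_ne p hs hsp) hg

/-- Even orders, backward direction. -/
theorem backward_two (h2 : (2 : F) ≠ 0) (n : ℕ) (hn : 3 ≤ n) (s : ℕ)
    (hs : s.Prime) (hsodd : Odd s)
    (x : Cfsg.PSp n F) (hx : orderOf x = 2 * s) : ∃ z : Cfsg.POmega F (⇑(oddForm n F)), orderOf z = 2 * s := by
  have hQ := oddForm_nondegenerate h2 n (F := F)
  have hcard : Fintype.card (Unit ⊕ (Fin n ⊕ Fin n)) = 2 * n + 1 := by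
    simp
    omega
  have hodd' : Odd (Fintype.card (Unit ⊕ (Fin n ⊕ Fin n))) := by rw [hcard]; exact ⟨n, rfl⟩
  by_cases hsp : s = p
  · subst hsp
    exact omega_of_type_C s h2 hQ hodd' (by rw [hcard]; omega)
  obtain ⟨A, rfl⟩ := QuotientGroup.mk_surjective x
  have hT : ∀ t, ((toEnd A.1) ^ t = 1 ∨ (toEnd A.1) ^ t = -1) ↔ 2 * s ∣ t := by
    intro t
    rw [toEnd_pow_one, toEnd_pow_neg, ← hx, orderOf_dvd_iff_pow_eq_one, psp_pow_eq_one_iff (by omega)]
  exact omega_of_type_D h2 hQ hodd' (by rw [hcard]; omega) sympBilin_isAlt (sympSep n) (finrank_sympSpace n)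
    (toEnd_isom A) hsodd hs.one_lt (cast_ne p hs hsp) hT

end Aux

/-- For q odd and n ≥ 3 the simple groups PΩ(2n+1,q) and PSp(2n,q) (which have the same order but different sets of element orders) have the same prime graph: for all distinct primes r, s, one of them has an element of order r·s if and only if the other does. -/
theorem result {F : Type*} [Field F] [Fintype F] (hodd : Odd (Fintype.card F)) (n : ℕ) (hn : 3 ≤ n) (r s : ℕ) (hr : r.Prime) (hs : s.Prime) (hrs : r ≠ s) :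
    (r * s ∈ Set.range (orderOf : Cfsg.POmega F (Cfsg.quadFormOdd n F) → ℕ)) ↔ (r * s ∈ Set.range (orderOf : Cfsg.PSp n F → ℕ)) := by
  obtain ⟨p, hp⟩ := CharP.exists F
  haveI : Fact p.Prime := ⟨CharP.char_is_prime F p⟩
  have h2 : (2 : F) ≠ 0 := by
    intro h
    have h1 : p ∣ 2 := (CharP.cast_eq_zero_iff F p 2).1 (by exact_mod_cast h)
    have h3 : p = 2 := (Nat.prime_dvd_prime_iff_eq ‹Fact p.Prime›.out Nat.prime_two).1 h1
    have hpq : p ∣ Fintype.card F := (CharP.cast_eq_zero_iff F p _).1 (FiniteField.cast_card_eq_zero F)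
    rw [h3] at hpq
    exact (Nat.not_even_iff_odd.2 hodd) (even_iff_two_dvd.2 hpq)
  rw [← coe_oddForm]
  by_cases hr2 : r = 2
  · subst hr2
    have hsodd : Odd s := (hs.eq_two_or_odd').resolve_left hrs.symm
    constructor
    · rintro ⟨x, hx⟩
      exact forward_two p hodd h2 n hn s hs hsodd x hx
    · rintro ⟨x, hx⟩
      exact backward_two p h2 n hn s hs hsodd x hx
  by_cases hs2 : s = 2
  · subst hs2
    have hrodd : Odd r := (hr.eq_two_or_odd').resolve_left hrs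
    rw [mul_comm r 2]
    constructor
    · rintro ⟨x, hx⟩
      exact forward_two p hodd h2 n hn r hr hrodd x hx
    · rintro ⟨x, hx⟩
      exact backward_two p h2 n hn r hr hrodd x hx
  have hrodd : Odd r := (hr.eq_two_or_odd').resolve_left hr2
  have hsodd : Odd s := (hs.eq_two_or_odd').resolve_left hs2
  constructor
  · rintro ⟨x, hx⟩
    exact forward_odd p hodd h2 n hn r s hr hs hrs hrodd hsodd x hx
  · rintro ⟨x, hx⟩
    exact backward_odd p h2 n hn r s hr hs hrs hrodd hsodd x hx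

end Cfsg.Agent.S2474
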