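import Cfsg.Statements.S2476
import Mathlib
import Cfsg.Agent.Lib.Classical.Herm.SU3Roots
import Cfsg.Agent.Lib.Classical.Herm.SU3Witness
-- import your own Cfsg.Agent.* helpers here

set_option autoImplicit false
open Cfsg

namespace Cfsg.Agent.S2476

open Polynomial Module
open Cfsg.Agent.Lib.Classical.Herm.SU3Roots Cfsg.Agent.Lib.Classical.Herm.SU3Witness

section Good

variable {K : Type*} [Field K] (p Q : ℕ)

/-- The polynomial `(X-a)(X-b)(X-c)` divides `X^N - e` for one of the relevant exponents. -/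
def Good (a b c : K) : Prop :=
  ∃ (N : ℕ) (e : K), (N = (Q ^ 2 + Q + 1) / Nat.gcd 3 (Q - 1) ∨ N = (Q ^ 2 - 1) / Nat.gcd 3 (Q - 1) ∨ N = Q - 1 ∨
    N = p * (Q - 1) / Nat.gcd 3 (Q - 1) ∨ (p = 2 ∧ N = 4)) ∧
      (X - C a) * (X - C b) * (X - C c) ∣ (X ^ N - C e : K[X])

variable {p Q}

theorem Good.swap12 {a b c : K} (h : Good p Q a b c) : Good p Q b a c := by
  obtain ⟨N, e, hN, hd⟩ := h
  exact ⟨N, e, hN, by rwa [show (X - C b) * (X - C a) * (X - C c) = (X - C a) * (X - C b) * (X - C c) by ring]⟩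

theorem Good.swap23 {a b c : K} (h : Good p Q a b c) : Good p Q a c b := by
  obtain ⟨N, e, hN, hd⟩ := h
  exact ⟨N, e, hN, by rwa [show (X - C a) * (X - C c) * (X - C b) = (X - C a) * (X - C b) * (X - C c) by ring]⟩

theorem Good.rot {a b c : K} (h : Good p Q a b c) : Good p Q b c a := by
  obtain ⟨N, e, hN, hd⟩ := h
  exact ⟨N, e, hN, by rwa [show (X - C b) * (X - C c) * (X - C a) = (X - C a) * (X - C b) * (X - C c) by ring]⟩

/-- Case of three roots fixed by Frobenius. -/
theorem good_case1 [Fact p.Prime] [CharP K p] (_hQ : 2 ≤ Q) {a b c : K}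
    (ha : a ^ (Q - 1) = 1) (hb : b ^ (Q - 1) = 1) (hc : c ^ (Q - 1) = 1) (habc : a * b * c = 1) :
    Good p Q a b c := by
  have hpp : p.Prime := Fact.out
  by_cases hdist : a ≠ b ∧ b ≠ c ∧ a ≠ c
  · exact ⟨Q - 1, 1, Or.inr (Or.inr (Or.inl rfl)), dvd_of_distinct hdist.1 hdist.2.1 hdist.2.2 ha hb hc⟩
  set d := Nat.gcd 3 (Q - 1) with hd
  have hdq : d ∣ Q - 1 := Nat.gcd_dvd_right _ _
  have hd3 : d ∣ 3 := Nat.gcd_dvd_left _ _
  set N₀ := (Q - 1) / d with hN₀
  have hdN : d * N₀ = Q - 1 := Nat.mul_div_cancel' hdq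
  obtain ⟨t, ht⟩ := hd3
  have h3N : 3 * N₀ = t * (Q - 1) := by
    rw [ht, ← hdN]
    ring
  -- two equal roots: all `N₀`-th powers agree
  have hkey : ∀ {x y : K}, x ^ (Q - 1) = 1 → x * x * y = 1 → y ^ N₀ = x ^ N₀ := by
    intro x y hx hxy
    have h1 : (x ^ N₀) ^ 3 = 1 := by
      rw [← pow_mul, mul_comm, h3N, mul_comm, pow_mul, hx, one_pow]
    have h2 : x ^ N₀ * x ^ N₀ * y ^ N₀ = 1 := by
      rw [← mul_pow, ← mul_pow, hxy, one_pow]
    have hx0 : x ^ N₀ ≠ 0 := by
      intro h0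
      rw [h0] at h1
      simp at h1
    apply mul_left_cancel₀ (mul_ne_zero hx0 hx0)
    rw [h2, ← h1]
    ring
  have hchar : ∀ {Z : K[X]} {e : K}, Z = X ^ N₀ - C e → Z ^ p = X ^ (p * (Q - 1) / d) - C (e ^ p) := by
    intro Z e hZ
    rw [hZ, sub_pow_char, ← C_pow, ← pow_mul, Nat.mul_div_assoc _ hdq, mul_comm]
  -- the pattern `(x, x, y)` with `x ≠ y`
  have htwo : ∀ {x y : K}, x ≠ y → x ^ (Q - 1) = 1 → x * x * y = 1 → Good p Q x x y := by
    intro x y hxy hx hxxy
    refine ⟨p * (Q - 1) / d, (x ^ N₀) ^ p, Or.inr (Or.inr (Or.inr (Or.inl rfl))), ?_⟩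
    rw [← hchar rfl]
    have hr : ∀ {r : K}, r ^ N₀ = x ^ N₀ → (X - C r) ∣ (X ^ N₀ - C (x ^ N₀) : K[X]) := by
      intro r hr
      rw [dvd_iff_isRoot]
      simp [hr]
    have hc1 : IsCoprime (X - C x) (X - C y) :=
      isCoprime_X_sub_C_of_isUnit_sub (sub_ne_zero.2 hxy).isUnit
    have h1 : (X - C x) * (X - C x) ∣ (X ^ N₀ - C (x ^ N₀) : K[X]) ^ 2 := by
      rw [pow_two]
      exact mul_dvd_mul (hr rfl) (hr rfl)
    have h2 : (X - C y) ∣ (X ^ N₀ - C (x ^ N₀) : K[X]) ^ 2 := by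
      rw [pow_two]
      exact Dvd.dvd.mul_right (hr (hkey hx hxxy)) _
    have h3 := IsCoprime.mul_dvd (IsCoprime.mul_left hc1 hc1) h1 h2
    exact h3.trans (pow_dvd_pow _ hpp.two_le)
  -- the pattern `(x, x, x)`
  have hthree : ∀ {x : K}, x ^ (Q - 1) = 1 → x * x * x = 1 → Good p Q x x x := by
    intro x hx hxxx
    by_cases hp2 : p = 2
    · refine ⟨4, x ^ 4, Or.inr (Or.inr (Or.inr (Or.inr ⟨hp2, rfl⟩))), ?_⟩
      have h4 : (X - C x : K[X]) ^ 4 = X ^ 4 - C (x ^ 4) := by
        subst hp2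
        have h2 := sub_pow_char_pow (R := K[X]) (x := X) (y := C x) (p := 2) (n := 2)
        rw [C_pow]
        simpa using h2
      rw [← h4]
      exact ⟨X - C x, by ring⟩
    · have hp3 : 3 ≤ p := by
        have := hpp.two_le
        omega
      refine ⟨p * (Q - 1) / d, (x ^ N₀) ^ p, Or.inr (Or.inr (Or.inr (Or.inl rfl))), ?_⟩
      rw [← hchar rfl]
      exact (dvd_cube rfl rfl rfl).trans (pow_dvd_pow _ hp3)
  by_cases hab : a = b
  · subst hab
    by_cases hac : a = c
    · subst hac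
      exact hthree ha habc
    · exact htwo hac ha habc
  · by_cases hbc : b = c
    · subst hbc
      have h : b * b * a = 1 := by rw [← habc]; ring
      have := htwo (Ne.symm hab) hb h
      exact this.rot.rot
    · have hac : a = c := by
        by_contra hac
        exact hdist ⟨hab, hbc, hac⟩
      subst hac
      have h : a * a * b = 1 := by rw [← habc]; ring
      have := htwo hab ha h
      exact this.swap23

/-- Case of a transposition of the roots. -/
theorem good_case2 [Fact p.Prime] [CharP K p] (hQ : 2 ≤ Q) {a b c : K}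
    (hb : b = a ^ Q) (ha : a = b ^ Q) (hc : c = c ^ Q) (habc : a * b * c = 1) :
    Good p Q a b c := by
  have ha0 : a ≠ 0 := by
    rintro rfl
    simp at habc
  have hb0 : b ≠ 0 := by
    rintro rfl
    simp at habc
  have hc0 : c ≠ 0 := by
    rintro rfl
    simp at habc
  have hfix : ∀ {x : K}, x ≠ 0 → x = x ^ Q → x ^ (Q - 1) = 1 := by
    intro x hx h
    have h1 : x ^ (Q - 1) * x = 1 * x := by
      rw [← pow_succ, Nat.sub_add_cancel (by omega), one_mul]
      exact h.symm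
    exact mul_right_cancel₀ hx h1
  have hc1 := hfix hc0 hc
  by_cases hab : a = b
  · have h1 : a = a ^ Q := by
      nth_rewrite 1 [hab]
      exact hb
    have ha1 := hfix ha0 h1
    have hb1 : b ^ (Q - 1) = 1 := by rw [← hab]; exact ha1
    exact good_case1 hQ ha1 hb1 hc1 habc
  have hac : a ≠ c := by
    rintro rfl
    exact hab (hc.trans hb.symm)
  have hbc : b ≠ c := by
    rintro rfl
    exact hab (ha.trans hc.symm)
  have hQ2 : a ^ (Q ^ 2 - 1) = 1 := by
    have h2 : a = a ^ (Q ^ 2) := by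
      nth_rewrite 1 [ha]
      rw [hb, ← pow_mul, pow_two]
    have h1 : a ^ (Q ^ 2 - 1) * a = 1 * a := by
      rw [← pow_succ, Nat.sub_add_cancel (Nat.one_le_pow _ _ (by omega)), one_mul]
      exact h2.symm
    exact mul_right_cancel₀ ha0 h1
  set d := Nat.gcd 3 (Q - 1) with hd
  have hdq : d ∣ Q - 1 := Nat.gcd_dvd_right _ _
  have hd3 : d ∣ 3 := Nat.gcd_dvd_left _ _
  have hfac : Q ^ 2 - 1 = (Q - 1) * (Q + 1) := by
    obtain ⟨r, rfl⟩ : ∃ r, Q = r + 1 := ⟨Q - 1, by omega⟩
    simp only [Nat.add_sub_cancel]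
    have : (r + 1) ^ 2 = r * (r + 1 + 1) + 1 := by ring
    omega
  have hdQ2 : d ∣ Q ^ 2 - 1 := by
    rw [hfac]
    exact hdq.mul_right _
  set N := (Q ^ 2 - 1) / d with hN
  have hdN : d * N = Q ^ 2 - 1 := Nat.mul_div_cancel' hdQ2
  obtain ⟨t, ht⟩ := hd3
  obtain ⟨m, hm⟩ := hdq
  have h3N : 3 * N = t * (Q ^ 2 - 1) := by
    rw [ht, ← hdN]
    ring
  have hqN : (Q - 1) * N = m * (Q ^ 2 - 1) := by
    rw [hm, ← hdN]
    ring
  have hbN : b ^ N = a ^ N := by
    have h1 : a ^ ((Q - 1) * N) = 1 := by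
      rw [hqN, mul_comm, pow_mul, hQ2, one_pow]
    rw [hb, ← pow_mul]
    have h2 : Q * N = (Q - 1) * N + N := by
      have : Q = (Q - 1) + 1 := by omega
      nth_rewrite 1 [this]
      ring
    rw [h2, pow_add, h1, one_mul]
  have hcube : (a ^ N) ^ 3 = 1 := by
    rw [← pow_mul, mul_comm, h3N, mul_comm, pow_mul, hQ2, one_pow]
  have hcN : c ^ N = a ^ N := by
    have h2 : a ^ N * b ^ N * c ^ N = 1 := by
      rw [← mul_pow, ← mul_pow, habc, one_pow]
    rw [hbN] at h2
    have hx0 : a ^ N ≠ 0 := pow_ne_zero _ ha0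
    apply mul_left_cancel₀ (mul_ne_zero hx0 hx0)
    rw [h2, ← hcube]
    ring
  exact ⟨N, a ^ N, Or.inr (Or.inl rfl), dvd_of_distinct hab hbc hac rfl hbN hcN⟩

/-- Case of a three-cycle of the roots. -/
theorem good_case3 [Fact p.Prime] [CharP K p] (hQ : 2 ≤ Q) {a b c : K}
    (hb : b = a ^ Q) (hc : c = b ^ Q) (ha : a = c ^ Q) (habc : a * b * c = 1) :
    Good p Q a b c := by
  have ha0 : a ≠ 0 := by
    rintro rfl
    simp at habc
  have hb0 : b ≠ 0 := by
    rintro rfl
    simp at habc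
  have hfix : ∀ {x : K}, x ≠ 0 → x = x ^ Q → x ^ (Q - 1) = 1 := by
    intro x hx h
    have h1 : x ^ (Q - 1) * x = 1 * x := by
      rw [← pow_succ, Nat.sub_add_cancel (by omega), one_mul]
      exact h.symm
    exact mul_right_cancel₀ hx h1
  by_cases hab : a = b
  · have h1 : a = a ^ Q := by
      nth_rewrite 1 [hab]
      exact hb
    have hbc' : c = a := by rw [hc, ← hab]; exact h1.symm
    have ha1 := hfix ha0 h1
    exact good_case1 hQ ha1 (hab ▸ ha1) (hbc' ▸ ha1) habc
  have hbc : b ≠ c := by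
    intro h
    apply hab
    have h1 : b = b ^ Q := by
      nth_rewrite 1 [h]
      exact hc
    rw [ha, ← h, ← h1]
  have hac : a ≠ c := by
    intro h
    apply hbc
    have h1 : c = c ^ Q := by
      nth_rewrite 1 [← h]
      exact ha
    rw [hb, h, ← h1]
  have hL : a ^ (Q ^ 2 + Q + 1) = 1 := by
    have h2 : c = a ^ (Q ^ 2) := by
      rw [hc, hb, ← pow_mul, pow_two]
    rw [← habc, hb, h2]
    ring
  set d := Nat.gcd 3 (Q - 1) with hd
  have hdq : d ∣ Q - 1 := Nat.gcd_dvd_right _ _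
  have hd3 : d ∣ 3 := Nat.gcd_dvd_left _ _
  have hdL : d ∣ Q ^ 2 + Q + 1 := by
    have h1 : Q ^ 2 + Q + 1 = (Q - 1) * (Q + 2) + 3 := by
      obtain ⟨r, rfl⟩ : ∃ r, Q = r + 1 := ⟨Q - 1, by omega⟩
      simp only [Nat.add_sub_cancel]
      ring
    rw [h1]
    exact dvd_add (hdq.mul_right _) hd3
  set N := (Q ^ 2 + Q + 1) / d with hN
  have hdN : d * N = Q ^ 2 + Q + 1 := Nat.mul_div_cancel' hdL
  obtain ⟨m, hm⟩ := hdq
  have hqN : (Q - 1) * N = m * (Q ^ 2 + Q + 1) := by
    rw [hm, ← hdN]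
    ring
  have hQN : Q * N = (Q - 1) * N + N := by
    have : Q = (Q - 1) + 1 := by omega
    nth_rewrite 1 [this]
    ring
  have hbL : b ^ (Q ^ 2 + Q + 1) = 1 := by
    rw [hb, ← pow_mul, mul_comm, pow_mul, hL, one_pow]
  have hbN : b ^ N = a ^ N := by
    have h1 : a ^ ((Q - 1) * N) = 1 := by
      rw [hqN, mul_comm, pow_mul, hL, one_pow]
    rw [hb, ← pow_mul, hQN, pow_add, h1, one_mul]
  have hcN : c ^ N = b ^ N := by
    have h1 : b ^ ((Q - 1) * N) = 1 := by
      rw [hqN, mul_comm, pow_mul, hbL, one_pow]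
    rw [hc, ← pow_mul, hQN, pow_add, h1, one_mul]
  exact ⟨N, a ^ N, Or.inl rfl, dvd_of_distinct hab hbc hac rfl hbN (hcN.trans hbN)⟩

/-- Roots of a cubic with coefficients fixed by `x ↦ x ^ Q`. -/
theorem good_of_symm [Fact p.Prime] [CharP K p] (hQ : 2 ≤ Q)
    (hadd : ∀ x y : K, (x + y) ^ Q = x ^ Q + y ^ Q) {a b c t s : K}
    (h1 : a + b + c = t) (h2 : a * b + b * c + c * a = s) (h3 : a * b * c = 1)
    (ht : t ^ Q = t) (hs : s ^ Q = s) : Good p Q a b c := by
  have ha0 : a ≠ 0 := by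
    rintro rfl
    simp at h3
  have hb0 : b ≠ 0 := by
    rintro rfl
    simp at h3
  have hc0 : c ≠ 0 := by
    rintro rfl
    simp at h3
  have e1 : a ^ Q + b ^ Q + c ^ Q = a + b + c := by
    rw [← hadd, ← hadd, h1, ht]
  have e2 : a ^ Q * b ^ Q + b ^ Q * c ^ Q + c ^ Q * a ^ Q = a * b + b * c + c * a := by
    rw [← mul_pow, ← mul_pow, ← mul_pow, ← hadd, ← hadd, h2, hs]
  have e3 : a ^ Q * b ^ Q * c ^ Q = a * b * c := by
    rw [← mul_pow, ← mul_pow, h3, one_pow]
  have hfix : ∀ {x : K}, x ≠ 0 → x ^ Q = x → x ^ (Q - 1) = 1 := by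
    intro x hx h
    have h1 : x ^ (Q - 1) * x = 1 * x := by
      rw [← pow_succ, Nat.sub_add_cancel (by omega), one_mul]
      exact h
    exact mul_right_cancel₀ hx h1
  rcases perm3 e1 e2 e3 with ⟨x, y, z⟩ | ⟨x, y, z⟩ | ⟨x, y, z⟩ | ⟨x, y, z⟩ | ⟨x, y, z⟩ | ⟨x, y, z⟩
  · exact good_case1 hQ (hfix ha0 x) (hfix hb0 y) (hfix hc0 z) h3
  · have := good_case2 (p := p) hQ (a := b) (b := c) (c := a) y.symm z.symm x.symm (by rw [← h3]; ring)
    exact this.rot.rot
  · exact good_case2 hQ x.symm y.symm z.symm h3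
  · exact good_case3 hQ x.symm y.symm z.symm h3
  · have := good_case3 (p := p) hQ (a := a) (b := c) (c := b) x.symm z.symm y.symm (by rw [← h3]; ring)
    exact this.swap23
  · have := good_case2 (p := p) hQ (a := a) (b := c) (c := b) x.symm z.symm y.symm (by rw [← h3]; ring)
    exact this.swap23

end Good

section Mat

variable {F : Type*} [Field F] [Fintype F] {p Q : ℕ}

/-- Each element of `SL_3(F)` has a scalar power with exponent in the list. -/
theorem exists_pow_scalar [Fact p.Prime] [CharP F p] (hF : Fintype.card F = Q)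
    (M : Matrix (Fin 3) (Fin 3) F) (hdet : M.det = 1) :
    ∃ N : ℕ, (N = (Q ^ 2 + Q + 1) / Nat.gcd 3 (Q - 1) ∨ N = (Q ^ 2 - 1) / Nat.gcd 3 (Q - 1) ∨ N = Q - 1 ∨
      N = p * (Q - 1) / Nat.gcd 3 (Q - 1) ∨ (p = 2 ∧ N = 4)) ∧
        ∃ c : F, M ^ N = c • (1 : Matrix (Fin 3) (Fin 3) F) := by
  classical
  have hQ2 : 2 ≤ Q := by
    rw [← hF]
    exact Fintype.one_lt_card
  let K := AlgebraicClosure F
  let ι : F →+* K := algebraMap F K
  have hFp : CharP F p := inferInstance
  have hKp : CharP K p := charP_of_injective_algebraMap ι.injective p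
  have hadd : ∀ x y : K, (x + y) ^ Q = x ^ Q + y ^ Q := by
    obtain ⟨m, hm, hQm⟩ := FiniteField.card F p
    rw [← hF, hQm]
    intro x y
    exact add_pow_char_pow x y p m
  set τ := Matrix.trace M with hτ
  set σ := Matrix.trace M.adjugate with hσ
  set t := ι τ with ht
  set s := ι σ with hs
  have htQ : t ^ Q = t := by
    rw [ht, ← map_pow, ← hF, FiniteField.pow_card]
  have hsQ : s ^ Q = s := by
    rw [hs, ← map_pow, ← hF, FiniteField.pow_card]
  -- roots
  obtain ⟨a, ha⟩ : ∃ a : K, a ^ 3 - t * a ^ 2 + s * a - 1 = 0 := by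
    have hdeg : (X ^ 3 - C t * X ^ 2 + C s * X - C 1 : K[X]).degree ≠ 0 := by
      have : (X ^ 3 - C t * X ^ 2 + C s * X - C 1 : K[X]).degree = 3 := by compute_degree!
      rw [this]
      norm_num
    obtain ⟨a, ha⟩ := IsAlgClosed.exists_root _ hdeg
    refine ⟨a, ?_⟩
    simpa [IsRoot.def] using ha
  obtain ⟨b, hb⟩ : ∃ b : K, b ^ 2 + (a - t) * b + (a ^ 2 - t * a + s) = 0 := by
    have hdeg : (X ^ 2 + C (a - t) * X + C (a ^ 2 - t * a + s) : K[X]).degree ≠ 0 := by
      have : (X ^ 2 + C (a - t) * X + C (a ^ 2 - t * a + s) : K[X]).degree = 2 := by compute_degree!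
      rw [this]
      norm_num
    obtain ⟨b, hb⟩ := IsAlgClosed.exists_root _ hdeg
    refine ⟨b, ?_⟩
    simpa [IsRoot.def] using hb
  set c := t - a - b with hc
  have e1 : a + b + c = t := by rw [hc]; ring
  have e2 : a * b + b * c + c * a = s := by
    rw [hc]
    linear_combination (-1 : K) * hb
  have e3 : a * b * c = 1 := by
    rw [hc]
    linear_combination (-a) * hb + ha
  obtain ⟨N, e, hN, G, hG⟩ := good_of_symm (p := p) hQ2 hadd e1 e2 e3 htQ hsQ
  refine ⟨N, hN, ?_⟩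
  let A : Matrix (Fin 3) (Fin 3) K := ι.mapMatrix M
  have hCH : A ^ 3 - t • A ^ 2 + s • A - (1 : Matrix (Fin 3) (Fin 3) K) = 0 := by
    have h := congrArg ι.mapMatrix (cayley3 M)
    rw [hdet, one_smul] at h
    simp only [map_sub, map_add, map_zero, map_pow, map_one] at h
    have hs' : ∀ (x : F) (Y : Matrix (Fin 3) (Fin 3) F), ι.mapMatrix (x • Y) = ι x • ι.mapMatrix Y := by
      intro x Y
      ext i j
      simp
    rw [hs', hs'] at h
    simpa only [hτ, hσ, ht, hs, A, map_pow] using h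
  have hprod : (A - a • (1 : Matrix (Fin 3) (Fin 3) K)) * (A - b • 1) * (A - c • 1) = 0 := by
    have : (A - a • (1 : Matrix (Fin 3) (Fin 3) K)) * (A - b • 1) * (A - c • 1) =
        A ^ 3 - (a + b + c) • A ^ 2 + (a * b + b * c + c * a) • A - (a * b * c) • 1 := by
      simp only [sub_mul, mul_sub, smul_mul_assoc, mul_smul_comm, one_mul, mul_one, pow_succ, pow_zero]
      module
    rw [this, e1, e2, e3, one_smul]
    exact hCH
  have hA : A ^ N = e • 1 := by
    have h := congrArg (aeval A) hG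
    simp only [map_sub, map_pow, aeval_X, aeval_C, map_mul, Algebra.algebraMap_eq_smul_one] at h
    rw [hprod, zero_mul] at h
    exact sub_eq_zero.1 h
  refine ⟨(M ^ N) 0 0, ?_⟩
  have hent : ∀ i j, ι ((M ^ N) i j) = (e • (1 : Matrix (Fin 3) (Fin 3) K)) i j := by
    intro i j
    rw [← hA]
    change ι ((M ^ N) i j) = (ι.mapMatrix M ^ N) i j
    rw [← map_pow]
    rfl
  have h00 : ι ((M ^ N) 0 0) = e := by
    rw [hent]
    simp
  ext i j
  apply ι.injective
  rw [hent]
  by_cases hij : i = j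
  · subst hij
    simp [h00]
  · simp [hij]

/-- Powers in `PSL_3` are trivial exactly when the matrix power is scalar. -/
theorem mk_pow_eq_one_iff (m : Matrix.SpecialLinearGroup (Fin 3) F) (k : ℕ) :
    ((QuotientGroup.mk m : Matrix.ProjectiveSpecialLinearGroup (Fin 3) F)) ^ k = 1 ↔
      ∃ c : F, ((m : Matrix (Fin 3) (Fin 3) F)) ^ k = c • (1 : Matrix (Fin 3) (Fin 3) F) := by
  rw [← QuotientGroup.mk_pow, QuotientGroup.eq_one_iff, Matrix.SpecialLinearGroup.mem_center_iff]
  constructor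
  · rintro ⟨r, -, hr⟩
    refine ⟨r, ?_⟩
    rw [← Matrix.SpecialLinearGroup.coe_pow, ← hr]
    ext i j
    simp [Matrix.scalar_apply, Matrix.smul_apply, Matrix.one_apply, Matrix.diagonal_apply]
  · rintro ⟨c, hc⟩
    refine ⟨c, ?_, ?_⟩
    · have h1 : ((m ^ k : Matrix.SpecialLinearGroup (Fin 3) F) : Matrix (Fin 3) (Fin 3) F).det = 1 :=
        (m ^ k).det_coe
      rw [Matrix.SpecialLinearGroup.coe_pow, hc] at h1
      simpa [Matrix.det_smul] using h1
    · rw [Matrix.SpecialLinearGroup.coe_pow, hc]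
      ext i j
      simp [Matrix.scalar_apply, Matrix.smul_apply, Matrix.one_apply, Matrix.diagonal_apply]

/-- Witness from a linear map of determinant one. -/
theorem exists_order {V : Type*} [AddCommGroup V] [Module F V] [FiniteDimensional F V] (hV : finrank F V = 3)
    (g : V →ₗ[F] V) (hdet : LinearMap.det g = 1) (N : ℕ)
    (hN : ∀ k : ℕ, (∃ c : F, ∀ x, (g ^ k) x = c • x) ↔ N ∣ k) :
    ∃ m : Matrix.ProjectiveSpecialLinearGroup (Fin 3) F, orderOf m = N := by
  classical
  let Φ : (Fin 3 → F) ≃ₗ[F] V := LinearEquiv.ofFinrankEq _ _ (by simp [hV])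
  let g' : (Fin 3 → F) →ₗ[F] (Fin 3 → F) := Φ.symm.toLinearMap ∘ₗ g ∘ₗ Φ.toLinearMap
  let M : Matrix (Fin 3) (Fin 3) F := LinearMap.toMatrix' g'
  have hM : ∀ u, M.mulVec u = Φ.symm (g (Φ u)) := fun u => by
    simp [M, g', LinearMap.toMatrix'_mulVec]
  have hdetM : M.det = 1 := by
    have h1 : M.det = LinearMap.det g' := LinearMap.det_toMatrix' g'
    rw [h1]
    have h2 := LinearMap.det_conj g Φ.symm
    have h3 : g' = (Φ.symm : V →ₗ[F] (Fin 3 → F)) ∘ₗ g ∘ₗ (Φ.symm.symm : (Fin 3 → F) →ₗ[F] V) := rfl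
    rw [h3, h2, hdet]
  have hpow : ∀ (k : ℕ) (u : Fin 3 → F), (M ^ k).mulVec u = Φ.symm ((g ^ k) (Φ u)) := by
    intro k
    induction k with
    | zero =>
      intro u
      simp
    | succ k ih =>
      intro u
      rw [pow_succ, ← Matrix.mulVec_mulVec, hM, ih, LinearEquiv.apply_symm_apply, pow_succ]
      rfl
  have hscal : ∀ k : ℕ, (∃ c : F, M ^ k = c • (1 : Matrix (Fin 3) (Fin 3) F)) ↔ N ∣ k := by
    intro k
    rw [← hN]
    constructor
    · rintro ⟨c, hc⟩
      refine ⟨c, fun x => ?_⟩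
      have h1 := hpow k (Φ.symm x)
      rw [hc, LinearEquiv.apply_symm_apply] at h1
      have h2 : (c • (1 : Matrix (Fin 3) (Fin 3) F)).mulVec (Φ.symm x) = c • Φ.symm x := by
        rw [Matrix.smul_mulVec, Matrix.one_mulVec]
      rw [h2] at h1
      have h3 := congrArg Φ h1
      rw [map_smul, LinearEquiv.apply_symm_apply, LinearEquiv.apply_symm_apply] at h3
      exact h3.symm
    · rintro ⟨c, hc⟩
      refine ⟨c, ?_⟩
      apply Matrix.toLin'.injective
      ext1 i
      ext j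
      simp only [LinearMap.comp_apply]
      rw [Matrix.toLin'_apply, hpow, hc, map_smul, LinearEquiv.symm_apply_apply]
      simp [Pi.single_apply]
  let m : Matrix.SpecialLinearGroup (Fin 3) F := ⟨M, hdetM⟩
  refine ⟨QuotientGroup.mk m, ?_⟩
  have hiff : ∀ k : ℕ, ((QuotientGroup.mk m : Matrix.ProjectiveSpecialLinearGroup (Fin 3) F)) ^ k = 1 ↔ N ∣ k := by
    intro k
    rw [mk_pow_eq_one_iff, ← hscal]
  apply Nat.dvd_antisymm
  · exact orderOf_dvd_of_pow_eq_one ((hiff N).2 dvd_rfl)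
  · exact (hiff _).1 (pow_orderOf_eq_one _)

/-- Witness from a matrix. -/
theorem exists_order_matrix (G : Matrix (Fin 3) (Fin 3) F) (hdet : G.det = 1) (N : ℕ)
    (hN : ∀ k : ℕ, (∃ c : F, G ^ k = c • (1 : Matrix (Fin 3) (Fin 3) F)) ↔ N ∣ k) :
    ∃ m : Matrix.ProjectiveSpecialLinearGroup (Fin 3) F, orderOf m = N := by
  classical
  refine exists_order (V := Fin 3 → F) (by simp) (Matrix.toLin' G) ?_ N (fun k => ?_)
  · rw [LinearMap.det_toLin', hdet]
  · rw [← hN, ← Matrix.toLin'_pow]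
    constructor
    · rintro ⟨c, hc⟩
      refine ⟨c, ?_⟩
      apply Matrix.toLin'.injective
      ext1 i
      ext j
      simp only [LinearMap.comp_apply]
      rw [hc]
      simp [Pi.single_apply]
    · rintro ⟨c, hc⟩
      refine ⟨c, fun x => ?_⟩
      rw [hc, Matrix.toLin'_apply, Matrix.smul_mulVec, Matrix.one_mulVec]

/-- The element of order `Q - 1`. -/
theorem exists_order_sub (hF : Fintype.card F = Q) :
    ∃ m : Matrix.ProjectiveSpecialLinearGroup (Fin 3) F, orderOf m = Q - 1 := by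
  classical
  obtain ⟨a, ha0, ha⟩ := exists_root_of_unity (E := F) (n := Q - 1) (by rw [hF])
  let d : Fin 3 → F := ![a, a⁻¹, 1]
  refine exists_order_matrix (Matrix.diagonal d) ?_ _ ?_
  · simp [Matrix.det_diagonal, Fin.prod_univ_three, d, ha0]
  · intro k
    rw [diag_pow_scalar_iff, ← ha]
    simp only [d, Matrix.cons_val_zero, Matrix.cons_val_one, Matrix.cons_val, one_pow, inv_pow]
    constructor
    · rintro ⟨-, h⟩
      exact h
    · intro h
      exact ⟨by rw [h, inv_one], h⟩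

/-- The element of order `p(Q-1)/d`. -/
theorem exists_order_p [Fact p.Prime] [CharP F p] (hF : Fintype.card F = Q) :
    ∃ m : Matrix.ProjectiveSpecialLinearGroup (Fin 3) F, orderOf m = p * (Q - 1) / Nat.gcd 3 (Q - 1) := by
  classical
  have hpp : p.Prime := Fact.out
  have hFp : CharP F p := inferInstance
  obtain ⟨a, ha0, ha⟩ := exists_root_of_unity (E := F) (n := Q - 1) (by rw [hF])
  let G : Matrix (Fin 3) (Fin 3) F := !![a, a, 0; 0, a, 0; 0, 0, (a ^ 2)⁻¹]
  have hGpow : ∀ k : ℕ, G ^ k = !![a ^ k, (k : F) * a ^ k, 0; 0, a ^ k, 0; 0, 0, ((a ^ 2)⁻¹) ^ k] := by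
    intro k
    induction k with
    | zero =>
      ext i j
      fin_cases i <;> fin_cases j <;> simp
    | succ k ih =>
      rw [pow_succ, ih]
      ext i j
      fin_cases i <;> fin_cases j <;> simp [G, Matrix.mul_apply, Fin.sum_univ_three, pow_succ] <;> ring
  have hmain : ∀ k : ℕ, (∃ c : F, G ^ k = c • (1 : Matrix (Fin 3) (Fin 3) F)) ↔ p ∣ k ∧ Q - 1 ∣ 3 * k := by
    intro k
    have hak : a ^ k ≠ 0 := pow_ne_zero _ ha0
    have e : a ^ k = ((a ^ 2)⁻¹) ^ k ↔ a ^ (3 * k) = 1 := by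
      have h1 : a ^ (3 * k) = a ^ k * (a ^ 2) ^ k := by
        rw [← pow_mul, ← pow_add]
        congr 1
        ring
      have h2 : (a ^ 2) ^ k ≠ 0 := pow_ne_zero _ (pow_ne_zero _ ha0)
      rw [h1, inv_pow]
      constructor
      · intro h
        rw [h]
        field_simp
      · intro h
        field_simp
        linear_combination h
    rw [hGpow, ← ha, ← e, ← CharP.cast_eq_zero_iff F p]
    constructor
    · rintro ⟨c, hc⟩
      have h00 := congrFun (congrFun hc 0) 0
      have h01 := congrFun (congrFun hc 0) 1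
      have h22 := congrFun (congrFun hc 2) 2
      simp at h00 h01 h22
      refine ⟨?_, ?_⟩
      · rcases h01 with h | h
        · exact h
        · exact absurd h.1 ha0
      · rw [h00, ← h22]
        simp
    · rintro ⟨h1, h2⟩
      refine ⟨a ^ k, ?_⟩
      ext i j
      fin_cases i <;> fin_cases j <;> simp [h1, ← h2]
  refine exists_order_matrix G ?_ _ ?_
  · simp [G, Matrix.det_fin_three]
    field_simp
  · intro k
    rw [hmain, dvd_three_mul_iff]
    have hcop : Nat.Coprime p ((Q - 1) / Nat.gcd 3 (Q - 1)) := by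
      obtain ⟨m, hm, hQm⟩ := FiniteField.card F p
      rw [hF] at hQm
      have hQ2 : 2 ≤ Q := by
        rw [← hF]
        exact Fintype.one_lt_card
      have h1 : Nat.Coprime p (Q - 1) := by
        rw [Nat.Prime.coprime_iff_not_dvd hpp]
        intro hd
        have h2 : p ∣ Q := by
          rw [hQm]
          exact dvd_pow_self _ (PNat.ne_zero m)
        have h3 : p ∣ Q - (Q - 1) := Nat.dvd_sub h2 hd
        rw [show Q - (Q - 1) = 1 by omega] at h3
        exact hpp.one_lt.ne' (Nat.dvd_one.1 h3)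
      exact Nat.Coprime.coprime_dvd_right (Nat.div_dvd_of_dvd (Nat.gcd_dvd_right _ _)) h1
    rw [Nat.mul_div_assoc _ (Nat.gcd_dvd_right 3 (Q - 1))]
    constructor
    · rintro ⟨h1, h2⟩
      exact hcop.mul_dvd_of_dvd_of_dvd h1 h2
    · intro h
      exact ⟨(dvd_mul_right _ _).trans h, (dvd_mul_left _ _).trans h⟩

/-- The element of order `4` in characteristic two. -/
theorem exists_order_four [CharP F 2] :
    ∃ m : Matrix.ProjectiveSpecialLinearGroup (Fin 3) F, orderOf m = 4 := by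
  classical
  have h2 : (2 : F) = 0 := by
    have := CharP.cast_eq_zero F 2
    exact_mod_cast this
  let G : Matrix (Fin 3) (Fin 3) F := !![1, 1, 0; 0, 1, 1; 0, 0, 1]
  have hdet : G.det = 1 := by simp [G, Matrix.det_fin_three]
  let g : Matrix.SpecialLinearGroup (Fin 3) F := ⟨G, hdet⟩
  have hG2 : G ^ 2 = !![1, 0, 1; 0, 1, 0; 0, 0, 1] := by
    ext i j
    fin_cases i <;> fin_cases j <;>
      simp [G, pow_two, Matrix.mul_apply, Fin.sum_univ_three, show (1 : F) + 1 = 0 by rw [one_add_one_eq_two, h2]]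
  have hG4 : G ^ 4 = 1 := by
    rw [show (4 : ℕ) = 2 * 2 by norm_num, pow_mul, hG2]
    ext i j
    fin_cases i <;> fin_cases j <;>
      simp [pow_two, Matrix.mul_apply, Fin.sum_univ_three, show (1 : F) + 1 = 0 by rw [one_add_one_eq_two, h2]]
  refine ⟨QuotientGroup.mk g, ?_⟩
  have h := orderOf_eq_prime_pow (G := Matrix.ProjectiveSpecialLinearGroup (Fin 3) F) (x := QuotientGroup.mk g)
    (p := 2) (n := 1) (hp := ⟨Nat.prime_two⟩) ?_ ?_
  · simpa using h
  · rw [pow_one, mk_pow_eq_one_iff]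
    rintro ⟨c, hc⟩
    have hc' : G ^ 2 = c • (1 : Matrix (Fin 3) (Fin 3) F) := hc
    rw [hG2] at hc'
    have h02 := congrFun (congrFun hc' 0) 2
    simp at h02
  · rw [mk_pow_eq_one_iff]
    exact ⟨1, by rw [one_smul]; exact hG4⟩

theorem coprime_N (r : ℕ) :
    Nat.Coprime (((r + 1) ^ 2 + (r + 1) + 1) / Nat.gcd 3 r) r := by
  set L := (r + 1) ^ 2 + (r + 1) + 1 with hL
  set d := Nat.gcd 3 r with hd
  have hdvd : d ∣ L := by
    have h1 : d ∣ r := Nat.gcd_dvd_right _ _
    have h2 : d ∣ 3 := Nat.gcd_dvd_left _ _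
    have : L = r * (r + 3) + 3 := by rw [hL]; ring
    rw [this]
    exact dvd_add (h1.mul_right _) h2
  set N := L / d with hN
  have hNL : N ∣ L := Nat.div_dvd_of_dvd hdvd
  set g := Nat.gcd N r with hg
  have hgN : g ∣ N := Nat.gcd_dvd_left _ _
  have hgr : g ∣ r := Nat.gcd_dvd_right _ _
  have hgL : g ∣ L := hgN.trans hNL
  have hg3 : g ∣ 3 := by
    have h1 : L = r * (r + 3) + 3 := by rw [hL]; ring
    rw [h1] at hgL
    exact (Nat.dvd_add_right (hgr.mul_right _)).1 hgL
  rcases (Nat.dvd_prime Nat.prime_three).1 hg3 with h | h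
  · exact h
  · exfalso
    rw [h] at hgN hgr
    obtain ⟨w, rfl⟩ := hgr
    have hd3 : d = 3 := by
      rw [hd]
      exact Nat.gcd_mul_right_right _ _
    have hL3 : L = 3 * (3 * (w ^ 2 + w) + 1) := by rw [hL]; ring
    have hN3 : N = 3 * (w ^ 2 + w) + 1 := by
      rw [hN, hd3, hL3]
      exact Nat.mul_div_cancel_left _ (by norm_num)
    rw [hN3] at hgN
    omega

/-- The element of order `(Q²+Q+1)/d`. -/
theorem exists_order_L [Fact p.Prime] [CharP F p] (hF : Fintype.card F = Q) :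
    ∃ m : Matrix.ProjectiveSpecialLinearGroup (Fin 3) F, orderOf m = (Q ^ 2 + Q + 1) / Nat.gcd 3 (Q - 1) := by
  classical
  have hQ2 : 2 ≤ Q := by
    rw [← hF]
    exact Fintype.one_lt_card
  have hFp : CharP F p := inferInstance
  let E := FiniteField.Extension F p 3
  let _ : Fintype E := Fintype.ofFinite E
  let ι : F →+* E := algebraMap F E
  have hfin : finrank F E = 3 := FiniteField.finrank_extension F p 3
  have hcardF : Nat.card F = Q := by rw [Nat.card_eq_fintype_card, hF]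
  have hcard : Fintype.card E = Q ^ 3 := by
    rw [Fintype.card_eq_nat_card, FiniteField.natCard_extension, hcardF]
  obtain ⟨r, rfl⟩ : ∃ r, Q = r + 1 := ⟨Q - 1, by omega⟩
  simp only [Nat.add_sub_cancel]
  set L := (r + 1) ^ 2 + (r + 1) + 1 with hL
  obtain ⟨ζ, hζ0, hζ⟩ := exists_root_of_unity (E := E) (n := L) (by
    rw [hcard]
    refine ⟨r, ?_⟩
    apply Nat.sub_eq_of_eq_add
    rw [hL]
    ring)
  set d := Nat.gcd 3 r with hd
  have hdr : d ∣ r := Nat.gcd_dvd_right _ _
  have hdL : d ∣ L := by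
    have h2 : d ∣ 3 := Nat.gcd_dvd_left _ _
    have : L = r * (r + 3) + 3 := by rw [hL]; ring
    rw [this]
    exact dvd_add (hdr.mul_right _) h2
  have hcop : Nat.Coprime (L / d) r := coprime_N r
  have hlmul : ∀ (k : ℕ) (x : E), ((Algebra.lmul F E ζ) ^ k) x = ζ ^ k * x := by
    intro k x
    rw [← map_pow]
    rfl
  refine exists_order (V := E) hfin (Algebra.lmul F E ζ) ?_ _ ?_
  · rw [← Algebra.norm_apply]
    apply ι.injective
    have hn := FiniteField.algebraMap_norm_eq_pow_sum F E ζ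
    rw [hfin, hcardF, Finset.sum_range_succ, Finset.sum_range_succ, Finset.sum_range_one] at hn
    rw [hn, map_one, hζ]
    refine ⟨1, ?_⟩
    rw [hL]
    simp only [pow_zero]
    ring
  · intro k
    constructor
    · rintro ⟨c, hc⟩
      have h1 := hc 1
      rw [hlmul, mul_one, Algebra.smul_def, mul_one] at h1
      have h2 : (ζ ^ k) ^ (r + 1) = ζ ^ k := by
        rw [h1, ← map_pow, ← hF, FiniteField.pow_card]
      have h3 : ζ ^ (k * r) = 1 := by
        have h4 : (ζ ^ k) ^ r * ζ ^ k = 1 * ζ ^ k := by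
          rw [← pow_succ, h2, one_mul]
        rw [pow_mul]
        exact mul_right_cancel₀ (pow_ne_zero _ hζ0) h4
      have h5 : L ∣ k * r := (hζ _).1 h3
      exact hcop.dvd_of_dvd_mul_right ((Nat.div_dvd_of_dvd hdL).trans h5)
    · rintro ⟨j, rfl⟩
      set z := ζ ^ (L / d * j) with hz
      have hz1 : z ^ r = 1 := by
        rw [hz, ← pow_mul, hζ]
        obtain ⟨w, hw⟩ := hdr
        have h1 : d * (L / d) = L := Nat.mul_div_cancel' hdL
        refine ⟨w * j, ?_⟩
        calc L / d * j * r = L / d * j * (d * w) := by rw [← hw]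
          _ = (d * (L / d)) * (w * j) := by ring
          _ = L * (w * j) := by rw [h1]
      have hz2 : z ^ (r + 1) = z := by
        rw [pow_succ, hz1, one_mul]
      have hmem : z ∈ Set.range (algebraMap F E) := by
        rw [IsGalois.mem_range_algebraMap_iff_fixed]
        intro f
        obtain ⟨i, -, rfl⟩ := FiniteField.Extension.exists_frob_pow_eq F p 3 f
        rw [FiniteField.Extension.frob_iterate_apply, hcardF]
        induction i with
        | zero => simp
        | succ i ih =>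
          rw [pow_succ, pow_mul, ih, hz2]
      obtain ⟨c, hc⟩ := hmem
      refine ⟨c, fun x => ?_⟩
      rw [hlmul, ← hz, Algebra.smul_def]
      congr 1
      exact hc.symm

/-- Arithmetic for the exponent `(Q²-1)/d`. -/
theorem dvd_q2_iff (hQ : 2 ≤ Q) (k : ℕ) :
    Q ^ 2 - 1 ∣ (Q + 2) * k ↔ (Q ^ 2 - 1) / Nat.gcd 3 (Q - 1) ∣ k := by
  obtain ⟨u, rfl⟩ : ∃ u, Q = u + 2 := ⟨Q - 2, by omega⟩
  have e1 : (u + 2) ^ 2 - 1 = u * (u + 4) + 3 := by
    have : (u + 2) ^ 2 = u * (u + 4) + 3 + 1 := by ring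
    omega
  rw [e1, show u + 2 - 1 = u + 1 by omega, show u + 2 + 2 = u + 4 by ring]
  set n := u * (u + 4) + 3 with hn
  set d := Nat.gcd 3 (u + 1) with hd
  have hd3 : d ∣ 3 := Nat.gcd_dvd_left _ _
  have hdu : d ∣ u + 1 := Nat.gcd_dvd_right _ _
  have hdu4 : d ∣ u + 4 := by
    have : u + 4 = (u + 1) + 3 := by ring
    rw [this]
    exact dvd_add hdu hd3
  have hdn : d ∣ n := dvd_add (hdu4.mul_left _) hd3
  have hgcd : Nat.gcd n (u + 4) = d := by
    apply Nat.dvd_antisymm
    · have h1 : Nat.gcd n (u + 4) ∣ u + 4 := Nat.gcd_dvd_right _ _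
      have h2 : Nat.gcd n (u + 4) ∣ n := Nat.gcd_dvd_left _ _
      have h3 : Nat.gcd n (u + 4) ∣ 3 := (Nat.dvd_add_right (h1.mul_left _)).1 h2
      have h4 : Nat.gcd n (u + 4) ∣ u + 1 := by
        have : u + 4 = (u + 1) + 3 := by ring
        rw [this] at h1
        exact (Nat.dvd_add_left h3).1 h1
      exact Nat.dvd_gcd h3 h4
    · exact Nat.dvd_gcd hdn hdu4
  have hdpos : 0 < d := Nat.gcd_pos_of_pos_left _ (by norm_num)
  have hco : Nat.Coprime (n / d) ((u + 4) / d) := by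
    have := Nat.coprime_div_gcd_div_gcd (m := n) (n := u + 4) (by rw [hgcd]; exact hdpos)
    rwa [hgcd] at this
  have h1 : d * (n / d) = n := Nat.mul_div_cancel' hdn
  have h2 : d * ((u + 4) / d) = u + 4 := Nat.mul_div_cancel' hdu4
  constructor
  · intro h
    have h3 : d * (n / d) ∣ d * (((u + 4) / d) * k) := by
      rw [h1, ← mul_assoc, h2]
      exact h
    exact hco.dvd_of_dvd_mul_left (Nat.dvd_of_mul_dvd_mul_left hdpos h3)
  · rintro ⟨j, rfl⟩
    refine ⟨((u + 4) / d) * j, ?_⟩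
    calc (u + 4) * (n / d * j) = (d * ((u + 4) / d)) * (n / d * j) := by rw [h2]
      _ = (d * (n / d)) * (((u + 4) / d) * j) := by ring
      _ = n * (((u + 4) / d) * j) := by rw [h1]

/-- The element of order `(Q²-1)/d`. -/
theorem exists_order_q2 [Fact p.Prime] [CharP F p] (hF : Fintype.card F = Q) :
    ∃ m : Matrix.ProjectiveSpecialLinearGroup (Fin 3) F, orderOf m = (Q ^ 2 - 1) / Nat.gcd 3 (Q - 1) := by
  classical
  have hQ2 : 2 ≤ Q := by
    rw [← hF]
    exact Fintype.one_lt_card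
  let E := FiniteField.Extension F p 2
  let _ : Fintype E := Fintype.ofFinite E
  let ι : F →+* E := algebraMap F E
  have hfin : finrank F E = 2 := FiniteField.finrank_extension F p 2
  have hcardF : Nat.card F = Q := by rw [Nat.card_eq_fintype_card, hF]
  have hcard : Fintype.card E = Q ^ 2 := by
    rw [Fintype.card_eq_nat_card, FiniteField.natCard_extension, hcardF]
  obtain ⟨b, hb0, hb⟩ := exists_root_of_unity (E := E) (n := Q ^ 2 - 1) (by rw [hcard])
  set ν := Algebra.norm F b with hν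
  have hνb : ι ν = b ^ (Q + 1) := by
    have hn := FiniteField.algebraMap_norm_eq_pow_sum F E b
    rw [hfin, hcardF, Finset.sum_range_succ, Finset.sum_range_one] at hn
    rw [hν]
    refine hn.trans ?_
    congr 1
    simp
    ring
  have hν0 : ν ≠ 0 := by
    intro h
    rw [h, map_zero] at hνb
    exact pow_ne_zero _ hb0 hνb.symm
  let g : (E × F) →ₗ[F] (E × F) :=
    LinearMap.prodMap (Algebra.lmul F E b) (ν⁻¹ • LinearMap.id)
  have hpow : ∀ (k : ℕ) (x : E) (y : F), (g ^ k) (x, y) = (b ^ k * x, (ν⁻¹) ^ k * y) := by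
    intro k
    induction k with
    | zero =>
      intro x y
      simp
    | succ k ih =>
      intro x y
      rw [pow_succ, Module.End.mul_apply]
      have h1 : g (x, y) = (b * x, ν⁻¹ * y) := rfl
      rw [h1, ih]
      simp only [Prod.mk.injEq]
      constructor <;> ring
  refine exists_order (V := E × F) (by simp [hfin]) g ?_ _ ?_
  · simp only [g]
    rw [LinearMap.det_prodMap, ← Algebra.norm_apply, LinearMap.det_smul, LinearMap.det_id]
    simp
    rw [← hν]
    exact mul_inv_cancel₀ hν0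
  · intro k
    rw [← dvd_q2_iff hQ2, ← hb]
    have hexp : b ^ ((Q + 2) * k) = b ^ k * (ι ν) ^ k := by
      rw [hνb, ← pow_mul, ← pow_add]
      congr 1
      ring
    rw [hexp]
    constructor
    · rintro ⟨c, hc⟩
      have h1 := hc (1, 1)
      rw [hpow] at h1
      have h1a : b ^ k = ι c := by
        have := congrArg Prod.fst h1
        simpa [Algebra.smul_def] using this
      have h1b : (ν⁻¹) ^ k = c := by
        have := congrArg Prod.snd h1
        simpa using this
      rw [h1a, ← h1b, ← map_pow, ← map_mul, ← mul_pow, inv_mul_cancel₀ hν0, one_pow, map_one]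
    · intro h
      refine ⟨(ν⁻¹) ^ k, ?_⟩
      rintro ⟨x, y⟩
      rw [hpow]
      simp only [Prod.smul_mk, smul_eq_mul, Prod.mk.injEq, and_true]
      rw [Algebra.smul_def]
      congr 1
      have h2 : (ι ν) ^ k ≠ 0 := pow_ne_zero _ (by
        intro h0
        rw [h0] at hνb
        exact pow_ne_zero _ hb0 hνb.symm)
      apply mul_right_cancel₀ h2
      rw [h]
      change 1 = ι ((ν⁻¹) ^ k) * ι ν ^ k
      rw [← map_pow, ← map_mul, ← mul_pow, inv_mul_cancel₀ hν0, one_pow, map_one]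

end Mat

section
variable {G : Type*} [Group G] [Finite G]

theorem exists_orderOf_of_dvd {N s : ℕ} (h : ∃ m : G, orderOf m = N) (hs : s ∣ N) :
    ∃ x : G, orderOf x = s := by
  obtain ⟨m, rfl⟩ := h
  have hpos : 0 < orderOf m := orderOf_pos m
  obtain ⟨t, ht⟩ := hs
  have ht0 : t ≠ 0 := by
    rintro rfl
    omega
  refine ⟨m ^ t, ?_⟩
  rw [orderOf_pow_of_dvd ht0 ⟨s, by rw [ht, mul_comm]⟩, ht]
  exact Nat.mul_div_cancel _ (Nat.pos_of_ne_zero ht0)

end



/-- The set of element orders of PSL(3,q): let F be a finite field of characteristic p with q elements and d = gcd(3, q − 1). The orders of elements of PSL(3,F) are exactly the divisors of (q² + q + 1)/d, of (q² − 1)/d, of q − 1, of p(q − 1)/d, and, when p = 2, of 4. -/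
theorem result {F : Type*} [Field F] [Fintype F] (p : ℕ) [Fact p.Prime] [CharP F p] :
    Set.range (orderOf : Matrix.ProjectiveSpecialLinearGroup (Fin 3) F → ℕ) =
      {m : ℕ | m ∣ (Fintype.card F ^ 2 + Fintype.card F + 1) / Nat.gcd 3 (Fintype.card F - 1) ∨
        m ∣ (Fintype.card F ^ 2 - 1) / Nat.gcd 3 (Fintype.card F - 1) ∨ m ∣ Fintype.card F - 1 ∨
        m ∣ p * (Fintype.card F - 1) / Nat.gcd 3 (Fintype.card F - 1) ∨ (p = 2 ∧ m ∣ 4)} := by
  ext m
  constructor
  · rintro ⟨x, rfl⟩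
    obtain ⟨g, rfl⟩ := QuotientGroup.mk_surjective x
    obtain ⟨N, hN, c, hc⟩ := exists_pow_scalar (p := p) rfl (g : Matrix (Fin 3) (Fin 3) F) g.det_coe
    have hd : orderOf (QuotientGroup.mk g : Matrix.ProjectiveSpecialLinearGroup (Fin 3) F) ∣ N :=
      orderOf_dvd_of_pow_eq_one ((mk_pow_eq_one_iff g N).2 ⟨c, hc⟩)
    rcases hN with rfl | rfl | rfl | rfl | ⟨hp2, rfl⟩
    · exact Or.inl hd
    · exact Or.inr (Or.inl hd)
    · exact Or.inr (Or.inr (Or.inl hd))
    · exact Or.inr (Or.inr (Or.inr (Or.inl hd)))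
    · exact Or.inr (Or.inr (Or.inr (Or.inr ⟨hp2, hd⟩)))
  · rintro (h | h | h | h | ⟨hp2, h⟩)
    · exact exists_orderOf_of_dvd (exists_order_L (p := p) rfl) h
    · exact exists_orderOf_of_dvd (exists_order_q2 (p := p) rfl) h
    · exact exists_orderOf_of_dvd (exists_order_sub rfl) h
    · exact exists_orderOf_of_dvd (exists_order_p (p := p) rfl) h
    · subst hp2
      exact exists_orderOf_of_dvd exists_order_four h

end Cfsg.Agent.S2476
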