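import Cfsg.Statements.S2479
import Mathlib
import Cfsg.Agent.Lib.ClassNum.SLBound

set_option autoImplicit false
open Cfsg

namespace Cfsg.Agent.S2479

open Polynomial
open Cfsg.Agent.Lib.ClassNum.SLBound Cfsg.Agent.Lib.ClassNum.SLCount
open Cfsg.Agent.S2478 (S)
open scoped Classical

section Lower

open Matrix

variable {F : Type*} [Field F] [Fintype F]

/-- A transvection is not semisimple; with the regular classes this gives the lower bound. -/
theorem lower (n : ℕ) (hn : 2 ≤ n) :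
    Fintype.card F ^ (n - 1) < Nat.card (ConjClasses (SpecialLinearGroup (Fin n) F)) := by
  obtain ⟨p, hp⟩ := CharP.exists F
  have hpp : p.Prime := by
    rcases CharP.char_is_prime_or_zero F p with h | h
    · exact h
    · subst h
      exact absurd hp (by
        intro h
        have := CharP.charP_to_charZero F
        exact (not_finite F))
  have : Fact p.Prime := ⟨hpp⟩
  have h1 := Cfsg.Agent.Lib.Linalg.SemisimpleClasses.card_ss_classes_SL (F := F) p n
  obtain ⟨k, rfl⟩ : ∃ k, n = k + 1 := ⟨n - 1, by omega⟩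
  have h2 := Cfsg.Agent.Lib.Linalg.SemisimpleClasses.card_monic_coeff_zero (F := F) k
    (fun c => c = (-1) ^ (k + 1))
  rw [h2] at h1
  have h3 : Nat.card {c : F // c = (-1) ^ (k + 1)} = 1 := Nat.card_unique
  rw [h3, one_mul, Nat.card_eq_fintype_card (α := F)] at h1
  rw [Nat.add_sub_cancel, ← h1]
  -- the transvection
  let i : Fin (k + 1) := ⟨0, by omega⟩
  let j : Fin (k + 1) := ⟨1, by omega⟩
  have hij : i ≠ j := by
    intro h
    have := congrArg Fin.val h
    simp [i, j] at this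
  let t : SpecialLinearGroup (Fin (k + 1)) F := ⟨Matrix.transvection i j 1, det_transvection_of_ne i j hij 1⟩
  have hpow : ∀ m : ℕ, ((t ^ m : SpecialLinearGroup (Fin (k + 1)) F) : Matrix (Fin (k + 1)) (Fin (k + 1)) F) =
      Matrix.transvection i j (m : F) := by
    intro m
    induction m with
    | zero => simp
    | succ m ih =>
      rw [pow_succ]
      change ((t ^ m : SpecialLinearGroup (Fin (k + 1)) F) : Matrix (Fin (k + 1)) (Fin (k + 1)) F) *
        Matrix.transvection i j 1 = _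
      rw [ih, transvection_mul_transvection_same i j hij]
      simp
  have htp : t ^ p = 1 := by
    apply Subtype.ext
    rw [hpow, CharP.cast_eq_zero F p, transvection_zero]
    rfl
  have hne : t ≠ 1 := by
    intro h
    have h5 : (Matrix.transvection i j (1 : F)) i j = (1 : Matrix (Fin (k + 1)) (Fin (k + 1)) F) i j := by
      have := congrArg (fun z : SpecialLinearGroup (Fin (k + 1)) F =>
        (z : Matrix (Fin (k + 1)) (Fin (k + 1)) F) i j) h
      exact this
    rw [Matrix.one_apply_ne hij] at h5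
    simp [Matrix.transvection, hij] at h5
  have hord : orderOf t = p := orderOf_eq_prime htp hne
  refine Finite.card_subtype_lt (x := ConjClasses.mk t) ?_
  rintro ⟨g, hg, hgt⟩
  have h6 : IsConj t g := ConjClasses.mk_eq_mk_iff_isConj.mp hgt.symm
  obtain ⟨c, rfl⟩ := isConj_iff.mp h6
  have h7 : orderOf (MulAut.conj c t) = orderOf t :=
    orderOf_injective (MulAut.conj c).toMonoidHom (MulAut.conj c).injective t
  rw [MulAut.conj_apply] at h7
  rw [h7, hord] at hg
  exact hpp.one_lt.ne' ((Nat.coprime_self p).mp hg)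

end Lower

section Numeric

theorem le_of_dvd_sub {q D : ℕ} (hq : 2 ≤ q) (h : D ∣ q - 1) : D + 1 ≤ q := by
  have := Nat.le_of_dvd (by omega) h
  omega

theorem geom_le {q : ℕ} (hq : 2 ≤ q) (M : ℕ) : ∑ m ∈ Finset.range (M + 1), q ^ m ≤ 2 * q ^ M := by
  induction M with
  | zero => simp
  | succ M ih =>
    rw [Finset.sum_range_succ, pow_succ]
    have h1 : 2 * q ^ M ≤ q ^ M * q := by
      rw [mul_comm]; exact Nat.mul_le_mul_left _ hq
    nlinarith

/-- The sum over proper divisors. -/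
theorem sum_bound {q n : ℕ} (hq : 3 ≤ q) (hn : 5 ≤ n) (k : ℕ → ℕ) (hk : ∀ m, k m ≤ q ^ m) :
    ∑ D ∈ Ds n q, (D ^ 2 - 1) * k (n / D) ≤ 2 * (q - 2) * q ^ (n - 2) := by
  obtain ⟨r, rfl⟩ : ∃ r, q = r + 2 := ⟨q - 2, by omega⟩
  have hq2 : 2 ≤ r + 2 := by omega
  obtain ⟨m, rfl⟩ : ∃ m, n = m + 3 := ⟨n - 3, by omega⟩
  have h1 : ∀ D ∈ Ds (m + 3) (r + 2), (D ^ 2 - 1) * k ((m + 3) / D) ≤ ((r + 2) * r) * (r + 2) ^ ((m + 3) / D) := by
    intro D hD
    obtain ⟨-, h2, -⟩ := (mem_Ds hq2).mp hD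
    have h3 := le_of_dvd_sub hq2 h2
    apply Nat.mul_le_mul _ (hk _)
    have h4 : D ^ 2 ≤ (r + 2) * r + 1 := by nlinarith
    omega
  refine (Finset.sum_le_sum h1).trans ?_
  rw [← Finset.mul_sum]
  have hinj : Set.InjOn (fun D => (m + 3) / D) (Ds (m + 3) (r + 2)) := by
    intro D hD D' hD' heq
    obtain ⟨h2, -, -⟩ := (mem_Ds hq2).mp (Finset.mem_coe.mp hD)
    obtain ⟨h2', -, -⟩ := (mem_Ds hq2).mp (Finset.mem_coe.mp hD')
    have h3 := Nat.div_div_self h2 (by omega)
    have h3' := Nat.div_div_self h2' (by omega)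
    simp only at heq
    rw [← h3, ← h3', heq]
  have h2 : ∑ D ∈ Ds (m + 3) (r + 2), (r + 2) ^ ((m + 3) / D) ≤
      ∑ x ∈ Finset.range ((m + 3) / 2 + 1), (r + 2) ^ x := by
    rw [← Finset.sum_image (f := fun x => (r + 2) ^ x) hinj]
    apply Finset.sum_le_sum_of_subset
    intro x hx
    obtain ⟨D, hD, rfl⟩ := Finset.mem_image.mp hx
    obtain ⟨-, -, h3⟩ := (mem_Ds hq2).mp hD
    exact Finset.mem_range.mpr (Nat.lt_succ_of_le (Nat.div_le_div_left h3 (by omega)))
  have h3 := geom_le hq2 ((m + 3) / 2)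
  have h4 : (m + 3) / 2 ≤ m := by omega
  have h5 : (r + 2) ^ ((m + 3) / 2) ≤ (r + 2) ^ m := Nat.pow_le_pow_right (by omega) h4
  have h6 : m + 3 - 2 = m + 1 := by omega
  rw [h6, Nat.add_sub_cancel]
  calc (r + 2) * r * ∑ D ∈ Ds (m + 3) (r + 2), (r + 2) ^ ((m + 3) / D)
      ≤ (r + 2) * r * (2 * (r + 2) ^ m) := Nat.mul_le_mul_left _ (h2.trans (h3.trans (Nat.mul_le_mul_left _ h5)))
    _ = 2 * r * (r + 2) ^ (m + 1) := by ring

end Numeric

section NumericTwo

theorem num_general {q m A B K : ℕ} (hq : 2 ≤ q) (hA : A ≤ q ^ (m + 2)) (hB : B ≤ 2 * (q - 2) * q ^ m)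
    (hK : (q - 1) * K ≤ A + B) : K ≤ q ^ (m + 1) + 3 * q ^ m := by
  obtain ⟨s, rfl⟩ : ∃ s, q = s + 2 := ⟨q - 2, by omega⟩
  simp only [Nat.add_sub_cancel] at hB
  rw [show s + 2 - 1 = s + 1 by omega] at hK
  have h1 : (s + 1) * K ≤ (s + 1) * ((s + 2) ^ (m + 1) + 3 * (s + 2) ^ m) := by
    refine hK.trans ((Nat.add_le_add hA hB).trans ?_)
    rw [show m + 2 = m + 1 + 1 from rfl, pow_succ, pow_succ]
    set Q := (s + 2) ^ m
    have : (s + 1) * (Q * (s + 2) + 3 * Q) = Q * (s + 2) * (s + 2) + 2 * s * Q + Q := by ring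
    omega
  exact Nat.le_of_mul_le_mul_left h1 (by omega)

theorem num_two {r A B K : ℕ} (hr : 0 < r) (hA : A + 1 ≤ (r + 1) ^ 2) (hB : B ≤ if 2 ∣ r then 3 * r else 0)
    (hK : r * K ≤ A + B) : 2 * K ≤ 5 * (r + 1) := by
  split_ifs at hB with hd
  · have hr2 : 2 ≤ r := Nat.le_of_dvd hr hd
    have h1 : r * K ≤ r * (r + 5) := by nlinarith
    have h2 := Nat.le_of_mul_le_mul_left h1 hr
    omega
  · have h1 : r * K ≤ r * (r + 2) := by nlinarith
    have h2 := Nat.le_of_mul_le_mul_left h1 hr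
    omega

theorem num_three {r A B K : ℕ} (hr : 0 < r) (hA : A + (r + 1) ≤ (r + 1) ^ 3)
    (hB : B ≤ if 3 ∣ r then 8 * r else 0) (hK : r * K ≤ A + B) : K ≤ (r + 1) ^ 2 + 3 * (r + 1) := by
  split_ifs at hB with hd
  · have hr2 : 3 ≤ r := Nat.le_of_dvd hr hd
    have h1 : r * K ≤ r * ((r + 1) * (r + 2) + 8) := by nlinarith
    have h2 := Nat.le_of_mul_le_mul_left h1 hr
    nlinarith
  · have h1 : r * K ≤ r * ((r + 1) * (r + 2)) := by nlinarith
    have h2 := Nat.le_of_mul_le_mul_left h1 hr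
    nlinarith

theorem num_four {r A B K : ℕ} (hr : 0 < r) (hA : A ≤ (r + 1) ^ 4)
    (hB : B ≤ (if 2 ∣ r then 3 * (r + 1) ^ 2 else 0) + (if 4 ∣ r then 15 * r else 0)) (hK : r * K ≤ A + B) :
    K ≤ (r + 1) ^ 3 + 3 * (r + 1) ^ 2 := by
  have hgoal : A + B ≤ r * ((r + 1) ^ 3 + 3 * (r + 1) ^ 2) := by
    have h0 : r * ((r + 1) ^ 3 + 3 * (r + 1) ^ 2) = (r + 1) ^ 4 + 2 * (r + 1) ^ 3 - 3 * (r + 1) ^ 2 := by
      have : r * ((r + 1) ^ 3 + 3 * (r + 1) ^ 2) + 3 * (r + 1) ^ 2 = (r + 1) ^ 4 + 2 * (r + 1) ^ 3 := by ring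
      omega
    by_cases h4 : 4 ∣ r
    · have h2 : 2 ∣ r := dvd_trans (by norm_num) h4
      rw [if_pos h2, if_pos h4] at hB
      have hr4 : 4 ≤ r := Nat.le_of_dvd hr h4
      obtain ⟨s, rfl⟩ : ∃ s, r = s + 4 := ⟨r - 4, by omega⟩
      nlinarith [sq_nonneg s, sq_nonneg (s + 1), pow_pos (Nat.succ_pos s) 3]
    · rw [if_neg h4, add_zero] at hB
      by_cases h2 : 2 ∣ r
      · rw [if_pos h2] at hB
        have hr2 : 2 ≤ r := Nat.le_of_dvd hr h2
        obtain ⟨s, rfl⟩ : ∃ s, r = s + 2 := ⟨r - 2, by omega⟩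
        nlinarith [sq_nonneg s, sq_nonneg (s + 1), pow_pos (Nat.succ_pos s) 3]
      · rw [if_neg h2] at hB
        obtain ⟨s, rfl⟩ : ∃ s, r = s + 1 := ⟨r - 1, by omega⟩
        nlinarith [sq_nonneg s, sq_nonneg (s + 1), pow_pos (Nat.succ_pos s) 3]
  exact Nat.le_of_mul_le_mul_left (hK.trans hgoal) hr

end NumericTwo

section Main

variable {F : Type*} [Field F] [Fintype F]

open Matrix

theorem upper_general (n : ℕ) (hn : 5 ≤ n) :
    Nat.card (ConjClasses (SpecialLinearGroup (Fin n) F)) ≤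
      Fintype.card F ^ (n - 1) + 3 * Fintype.card F ^ (n - 2) := by
  have := hfin (F := F) n n
  have : Fintype (S F n n) := Fintype.ofFinite _
  have hmain := main_ineq (F := F) (n := n) (by omega)
  have hq2 : 2 ≤ Fintype.card F := Fintype.one_lt_card
  obtain ⟨m, rfl⟩ : ∃ m, n = m + 2 := ⟨n - 2, by omega⟩
  have hk := kT_le_pow (F := F) (m + 2)
  have hsum : ∑ D ∈ Ds (m + 2) (Fintype.card F), (D ^ 2 - 1) * kT F ((m + 2) / D) ≤
      2 * (Fintype.card F - 2) * Fintype.card F ^ m := by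
    by_cases hq3 : 3 ≤ Fintype.card F
    · exact sum_bound hq3 hn (kT F) kT_le_pow
    · have : Ds (m + 2) (Fintype.card F) = ∅ := by
        apply Finset.eq_empty_of_forall_notMem
        intro D hD
        obtain ⟨-, h1, h2⟩ := (mem_Ds hq2).mp hD
        have := le_of_dvd_sub hq2 h1
        omega
      rw [this]
      simp
  rw [show m + 2 - 1 = m + 1 by omega, show m + 2 - 2 = m by omega]
  exact num_general hq2 hk hsum hmain

theorem upper_two :
    2 * Nat.card (ConjClasses (SpecialLinearGroup (Fin 2) F)) ≤ 5 * Fintype.card F := by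
  have := hfin (F := F) 2 2
  have : Fintype (S F 2 2) := Fintype.ofFinite _
  have hmain := main_ineq (F := F) (n := 2) (by omega)
  have hq2 : 2 ≤ Fintype.card F := Fintype.one_lt_card
  obtain ⟨r, hr⟩ : ∃ r, Fintype.card F = r + 1 := ⟨Fintype.card F - 1, by omega⟩
  have h2 := kT_two (F := F)
  have h1 := kT_one (F := F)
  have hr' : Fintype.card F - 1 = r := by omega
  rw [hr] at h2
  rw [hr'] at h1
  rw [hr'] at hmain
  have hsum : ∑ D ∈ Ds 2 (Fintype.card F), (D ^ 2 - 1) * kT F (2 / D) ≤ if 2 ∣ r then 3 * r else 0 := by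
    split_ifs with hd
    · have : Ds 2 (Fintype.card F) = {2} := by
        ext D
        rw [mem_Ds hq2, Finset.mem_singleton]
        constructor
        · rintro ⟨h4, -, h5⟩
          rcases (Nat.dvd_prime Nat.prime_two).mp h4 with h | h
          · omega
          · exact h
        · rintro rfl
          refine ⟨dvd_rfl, ?_, by omega⟩
          rw [hr']
          exact hd
      rw [this, Finset.sum_singleton]
      calc _ = 3 * kT F (2 / 2) := by norm_num
        _ ≤ 3 * r := Nat.mul_le_mul_left _ h1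
    · have : Ds 2 (Fintype.card F) = ∅ := by
        apply Finset.eq_empty_of_forall_notMem
        intro D hD
        obtain ⟨h4, h6, h5⟩ := (mem_Ds hq2).mp hD
        rcases (Nat.dvd_prime Nat.prime_two).mp h4 with h | h
        · omega
        · subst h
          apply hd
          rwa [hr'] at h6
      rw [this]
      simp
  rw [hr]
  exact num_two (by omega) h2 hsum hmain

theorem upper_three :
    Nat.card (ConjClasses (SpecialLinearGroup (Fin 3) F)) ≤ Fintype.card F ^ 2 + 3 * Fintype.card F := by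
  have := hfin (F := F) 3 3
  have : Fintype (S F 3 3) := Fintype.ofFinite _
  have hmain := main_ineq (F := F) (n := 3) (by omega)
  have hq2 : 2 ≤ Fintype.card F := Fintype.one_lt_card
  obtain ⟨r, hr⟩ : ∃ r, Fintype.card F = r + 1 := ⟨Fintype.card F - 1, by omega⟩
  have h3 := kT_three (F := F)
  have h1 := kT_one (F := F)
  have hr' : Fintype.card F - 1 = r := by omega
  rw [hr] at h3
  rw [hr'] at h1
  rw [hr'] at hmain
  have hsum : ∑ D ∈ Ds 3 (Fintype.card F), (D ^ 2 - 1) * kT F (3 / D) ≤ if 3 ∣ r then 8 * r else 0 := by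
    split_ifs with hd
    · have : Ds 3 (Fintype.card F) = {3} := by
        ext D
        rw [mem_Ds hq2, Finset.mem_singleton]
        constructor
        · rintro ⟨h4, -, h5⟩
          rcases (Nat.dvd_prime Nat.prime_three).mp h4 with h | h
          · omega
          · exact h
        · rintro rfl
          refine ⟨dvd_rfl, ?_, by omega⟩
          rw [hr']
          exact hd
      rw [this, Finset.sum_singleton]
      calc _ = 8 * kT F (3 / 3) := by norm_num
        _ ≤ 8 * r := Nat.mul_le_mul_left _ h1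
    · have : Ds 3 (Fintype.card F) = ∅ := by
        apply Finset.eq_empty_of_forall_notMem
        intro D hD
        obtain ⟨h4, h6, h5⟩ := (mem_Ds hq2).mp hD
        rcases (Nat.dvd_prime Nat.prime_three).mp h4 with h | h
        · omega
        · subst h
          apply hd
          rwa [hr'] at h6
      rw [this]
      simp
  rw [hr]
  exact num_three (by omega) h3 hsum hmain

theorem upper_four :
    Nat.card (ConjClasses (SpecialLinearGroup (Fin 4) F)) ≤ Fintype.card F ^ 3 + 3 * Fintype.card F ^ 2 := by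
  have := hfin (F := F) 4 4
  have : Fintype (S F 4 4) := Fintype.ofFinite _
  have hmain := main_ineq (F := F) (n := 4) (by omega)
  have hq2 : 2 ≤ Fintype.card F := Fintype.one_lt_card
  obtain ⟨r, hr⟩ : ∃ r, Fintype.card F = r + 1 := ⟨Fintype.card F - 1, by omega⟩
  have h44 := kT_le_pow (F := F) 4
  have h22 := kT_le_pow (F := F) 2
  have h11 := kT_one (F := F)
  have hr' : Fintype.card F - 1 = r := by omega
  rw [hr] at h44 h22
  rw [hr'] at h11
  rw [hr'] at hmain
  have hdivs : ∀ D ∈ Ds 4 (Fintype.card F), D = 2 ∨ D = 4 := by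
    intro D hD
    obtain ⟨h4, h6, h5⟩ := (mem_Ds hq2).mp hD
    have h7 : D ≤ 4 := Nat.le_of_dvd (by omega) h4
    interval_cases D
    · left; rfl
    · exact absurd h4 (by decide)
    · right; rfl
  have hmem : ∀ D, D ∈ Ds 4 (Fintype.card F) ↔ (D = 2 ∧ 2 ∣ r) ∨ (D = 4 ∧ 4 ∣ r) := by
    intro D
    constructor
    · intro hD
      obtain ⟨h4, h6, h5⟩ := (mem_Ds hq2).mp hD
      rw [hr'] at h6
      rcases hdivs D hD with rfl | rfl
      · exact Or.inl ⟨rfl, h6⟩
      · exact Or.inr ⟨rfl, h6⟩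
    · rintro (⟨rfl, h⟩ | ⟨rfl, h⟩)
      · exact (mem_Ds hq2).mpr ⟨by norm_num, by rw [hr']; exact h, by omega⟩
      · exact (mem_Ds hq2).mpr ⟨by norm_num, by rw [hr']; exact h, by omega⟩
  have hsum : ∑ D ∈ Ds 4 (Fintype.card F), (D ^ 2 - 1) * kT F (4 / D) ≤
      (if 2 ∣ r then 3 * (r + 1) ^ 2 else 0) + (if 4 ∣ r then 15 * r else 0) := by
    by_cases h4 : 4 ∣ r
    · have h2 : 2 ∣ r := dvd_trans (by norm_num) h4
      have : Ds 4 (Fintype.card F) = {2, 4} := by
        ext D
        rw [hmem]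
        simp [h2, h4]
      rw [this, Finset.sum_pair (by norm_num), if_pos h2, if_pos h4]
      apply Nat.add_le_add
      · calc _ = 3 * kT F (4 / 2) := by norm_num
          _ ≤ _ := Nat.mul_le_mul_left _ h22
      · calc _ = 15 * kT F (4 / 4) := by norm_num
          _ ≤ _ := Nat.mul_le_mul_left _ h11
    · rw [if_neg h4, add_zero]
      by_cases h2 : 2 ∣ r
      · have : Ds 4 (Fintype.card F) = {2} := by
          ext D
          rw [hmem]
          simp [h2, h4]
        rw [this, Finset.sum_singleton, if_pos h2]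
        calc _ = 3 * kT F (4 / 2) := by norm_num
          _ ≤ _ := Nat.mul_le_mul_left _ h22
      · have : Ds 4 (Fintype.card F) = ∅ := by
          apply Finset.eq_empty_of_forall_notMem
          intro D hD
          rcases (hmem D).mp hD with ⟨-, h⟩ | ⟨-, h⟩
          · exact h2 h
          · exact h4 h
        rw [this, if_neg h2]
        simp
  rw [hr]
  exact num_four (by omega) h44 hsum hmain

/-- The upper bound for `n ≥ 3`. -/
theorem upper (n : ℕ) (hn : 3 ≤ n) :
    Nat.card (ConjClasses (SpecialLinearGroup (Fin n) F)) ≤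
      Fintype.card F ^ (n - 1) + 3 * Fintype.card F ^ (n - 2) := by
  by_cases h5 : 5 ≤ n
  · exact upper_general n h5
  · have : n = 3 ∨ n = 4 := by omega
    rcases this with rfl | rfl
    · simpa using upper_three (F := F)
    · simpa using upper_four (F := F)

end Main

/-- The number of conjugacy classes of SL(n,q): for F a finite field with q elements, the number k of conjugacy classes of SL(n,F) satisfies q^(n−1) < k and k ≤ (5/2)·q^(n−1) for n ≥ 2, and k ≤ q^(n−1) + 3q^(n−2) for n ≥ 3. -/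
theorem result {F : Type*} [Field F] [Fintype F] (n : ℕ) (hn : 2 ≤ n) :
    Fintype.card F ^ (n - 1) < Nat.card (ConjClasses (Matrix.SpecialLinearGroup (Fin n) F)) ∧ 2 * Nat.card (ConjClasses (Matrix.SpecialLinearGroup (Fin n) F)) ≤ 5 * Fintype.card F ^ (n - 1) ∧
      (3 ≤ n → Nat.card (ConjClasses (Matrix.SpecialLinearGroup (Fin n) F)) ≤ Fintype.card F ^ (n - 1) + 3 * Fintype.card F ^ (n - 2)) := by
  refine ⟨lower n hn, ?_, upper n⟩
  by_cases h3 : 3 ≤ n
  · have h1 := upper (F := F) n h3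
    have hq2 : 2 ≤ Fintype.card F := Fintype.one_lt_card
    obtain ⟨m, rfl⟩ : ∃ m, n = m + 2 := ⟨n - 2, by omega⟩
    rw [show m + 2 - 1 = m + 1 by omega, show m + 2 - 2 = m by omega] at h1
    rw [show m + 2 - 1 = m + 1 by omega]
    rw [pow_succ] at h1 ⊢
    have h2 : 0 < Fintype.card F ^ m := pow_pos (by omega) _
    nlinarith
  · obtain rfl : n = 2 := by omega
    simpa using upper_two (F := F)

end Cfsg.Agent.S2479
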