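import Cfsg.Statements.S2480
import Mathlib
import Cfsg.Agent.S2479
import Cfsg.Agent.Lib.ClassNum.FixBound

set_option autoImplicit false
open Cfsg

namespace Cfsg.Agent.S2480

open Polynomial
open Cfsg.Agent.Lib.ClassNum.SLBound Cfsg.Agent.Lib.ClassNum.SLCount Cfsg.Agent.Lib.ClassNum.FixBound
open Cfsg.Agent.Lib.ClassNum.CenterClasses
open Cfsg.Agent.S2479
open Cfsg.Agent.S2478 (S)
open scoped Classical

section Bounds

variable {F : Type*} [Field F] [Fintype F]

theorem B_general {m X : ℕ} (hm : 5 ≤ m) (hX : (Fintype.card F - 1) * X ≤ B F m) :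
    X ≤ Fintype.card F ^ (m - 1) + 3 * Fintype.card F ^ (m - 2) := by
  have hq2 : 2 ≤ Fintype.card F := Fintype.one_lt_card
  obtain ⟨l, rfl⟩ : ∃ l, m = l + 2 := ⟨m - 2, by omega⟩
  have hk := kT_le_pow (F := F) (l + 2)
  have hsum : ∑ D ∈ Ds (l + 2) (Fintype.card F), (D ^ 2 - 1) * kT F ((l + 2) / D) ≤
      2 * (Fintype.card F - 2) * Fintype.card F ^ l := by
    by_cases hq3 : 3 ≤ Fintype.card F
    · exact sum_bound hq3 hm (kT F) kT_le_pow
    · have : Ds (l + 2) (Fintype.card F) = ∅ := by
        apply Finset.eq_empty_of_forall_notMem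
        intro D hD
        obtain ⟨-, h1, h2⟩ := (mem_Ds hq2).mp hD
        have := le_of_dvd_sub hq2 h1
        omega
      rw [this]
      simp
  rw [show l + 2 - 1 = l + 1 by omega, show l + 2 - 2 = l by omega]
  exact num_general hq2 hk hsum hX

theorem B_one {X : ℕ} (hX : (Fintype.card F - 1) * X ≤ B F 1) : X ≤ 1 := by
  have hq2 : 2 ≤ Fintype.card F := Fintype.one_lt_card
  have h0 : Ds 1 (Fintype.card F) = ∅ := by
    apply Finset.eq_empty_of_forall_notMem
    intro D hD
    obtain ⟨h1, -, h2⟩ := (mem_Ds hq2).mp hD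
    have := Nat.le_of_dvd (by omega) h1
    omega
  unfold B at hX
  rw [h0, Finset.sum_empty, add_zero] at hX
  have h1 := kT_one (F := F)
  have h2 : (Fintype.card F - 1) * X ≤ (Fintype.card F - 1) * 1 := by omega
  exact Nat.le_of_mul_le_mul_left h2 (by omega)

/-- The sharp bound for `n = 2`. -/
theorem B_two {r X : ℕ} (hr : Fintype.card F = r + 1) (hX : r * X ≤ B F 2) :
    X ≤ if 2 ∣ r then r + 5 else r + 2 := by
  have hq2 : 2 ≤ Fintype.card F := Fintype.one_lt_card
  have h2 := kT_two (F := F)
  have h1 := kT_one (F := F)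
  have hr' : Fintype.card F - 1 = r := by omega
  rw [hr] at h2
  rw [hr'] at h1
  have hr0 : 0 < r := by omega
  have hsum : ∑ D ∈ Ds 2 (Fintype.card F), (D ^ 2 - 1) * kT F (2 / D) ≤ if 2 ∣ r then 3 * r else 0 := by
    split_ifs with hd
    · have : Ds 2 (Fintype.card F) = {2} := by
        ext D
        rw [mem_Ds hq2, Finset.mem_singleton]
        constructor
        · rintro ⟨h4, -, h5⟩
          rcases (Nat.dvd_prime Nat.prime_two).mp h4 with h | h
          · omega
          · exact h
        · rintro rfl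
          refine ⟨dvd_rfl, ?_, by omega⟩
          rw [hr']
          exact hd
      rw [this, Finset.sum_singleton]
      calc _ = 3 * kT F (2 / 2) := by norm_num
        _ ≤ 3 * r := Nat.mul_le_mul_left _ h1
    · have : Ds 2 (Fintype.card F) = ∅ := by
        apply Finset.eq_empty_of_forall_notMem
        intro D hD
        obtain ⟨h4, h6, h5⟩ := (mem_Ds hq2).mp hD
        rcases (Nat.dvd_prime Nat.prime_two).mp h4 with h | h
        · omega
        · subst h
          apply hd
          rwa [hr'] at h6
      rw [this]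
      simp
  unfold B at hX
  have h3 : r * X ≤ kT F 2 + if 2 ∣ r then 3 * r else 0 := hX.trans (Nat.add_le_add_left hsum _)
  split_ifs with hd
  · rw [if_pos hd] at h3
    have h4 : r * X ≤ r * (r + 5) := by nlinarith
    exact Nat.le_of_mul_le_mul_left h4 hr0
  · rw [if_neg hd] at h3
    have h4 : r * X ≤ r * (r + 2) := by nlinarith
    exact Nat.le_of_mul_le_mul_left h4 hr0

theorem B_three {X : ℕ} (hX : (Fintype.card F - 1) * X ≤ B F 3) :
    X ≤ Fintype.card F ^ 2 + 3 * Fintype.card F := by
  have hq2 : 2 ≤ Fintype.card F := Fintype.one_lt_card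
  obtain ⟨r, hr⟩ : ∃ r, Fintype.card F = r + 1 := ⟨Fintype.card F - 1, by omega⟩
  have h3 := kT_three (F := F)
  have h1 := kT_one (F := F)
  have hr' : Fintype.card F - 1 = r := by omega
  rw [hr] at h3
  rw [hr'] at h1
  rw [hr'] at hX
  have hsum : ∑ D ∈ Ds 3 (Fintype.card F), (D ^ 2 - 1) * kT F (3 / D) ≤ if 3 ∣ r then 8 * r else 0 := by
    split_ifs with hd
    · have : Ds 3 (Fintype.card F) = {3} := by
        ext D
        rw [mem_Ds hq2, Finset.mem_singleton]
        constructor
        · rintro ⟨h4, -, h5⟩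
          rcases (Nat.dvd_prime Nat.prime_three).mp h4 with h | h
          · omega
          · exact h
        · rintro rfl
          refine ⟨dvd_rfl, ?_, by omega⟩
          rw [hr']
          exact hd
      rw [this, Finset.sum_singleton]
      calc _ = 8 * kT F (3 / 3) := by norm_num
        _ ≤ 8 * r := Nat.mul_le_mul_left _ h1
    · have : Ds 3 (Fintype.card F) = ∅ := by
        apply Finset.eq_empty_of_forall_notMem
        intro D hD
        obtain ⟨h4, h6, h5⟩ := (mem_Ds hq2).mp hD
        rcases (Nat.dvd_prime Nat.prime_three).mp h4 with h | h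
        · omega
        · subst h
          apply hd
          rwa [hr'] at h6
      rw [this]
      simp
  rw [hr]
  exact num_three (by omega) h3 hsum hX

theorem B_four {X : ℕ} (hX : (Fintype.card F - 1) * X ≤ B F 4) :
    X ≤ Fintype.card F ^ 3 + 3 * Fintype.card F ^ 2 := by
  have hq2 : 2 ≤ Fintype.card F := Fintype.one_lt_card
  obtain ⟨r, hr⟩ : ∃ r, Fintype.card F = r + 1 := ⟨Fintype.card F - 1, by omega⟩
  have h44 := kT_le_pow (F := F) 4
  have h22 := kT_le_pow (F := F) 2
  have h11 := kT_one (F := F)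
  have hr' : Fintype.card F - 1 = r := by omega
  rw [hr] at h44 h22
  rw [hr'] at h11
  rw [hr'] at hX
  have hdivs : ∀ D ∈ Ds 4 (Fintype.card F), D = 2 ∨ D = 4 := by
    intro D hD
    obtain ⟨h4, h6, h5⟩ := (mem_Ds hq2).mp hD
    have h7 : D ≤ 4 := Nat.le_of_dvd (by omega) h4
    interval_cases D
    · left; rfl
    · exact absurd h4 (by decide)
    · right; rfl
  have hmem : ∀ D, D ∈ Ds 4 (Fintype.card F) ↔ (D = 2 ∧ 2 ∣ r) ∨ (D = 4 ∧ 4 ∣ r) := by
    intro D
    constructor
    · intro hD
      obtain ⟨h4, h6, h5⟩ := (mem_Ds hq2).mp hD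
      rw [hr'] at h6
      rcases hdivs D hD with rfl | rfl
      · exact Or.inl ⟨rfl, h6⟩
      · exact Or.inr ⟨rfl, h6⟩
    · rintro (⟨rfl, h⟩ | ⟨rfl, h⟩)
      · exact (mem_Ds hq2).mpr ⟨by norm_num, by rw [hr']; exact h, by omega⟩
      · exact (mem_Ds hq2).mpr ⟨by norm_num, by rw [hr']; exact h, by omega⟩
  have hsum : ∑ D ∈ Ds 4 (Fintype.card F), (D ^ 2 - 1) * kT F (4 / D) ≤
      (if 2 ∣ r then 3 * (r + 1) ^ 2 else 0) + (if 4 ∣ r then 15 * r else 0) := by
    by_cases h4 : 4 ∣ r
    · have h2 : 2 ∣ r := dvd_trans (by norm_num) h4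
      have : Ds 4 (Fintype.card F) = {2, 4} := by
        ext D
        rw [hmem]
        simp [h2, h4]
      rw [this, Finset.sum_pair (by norm_num), if_pos h2, if_pos h4]
      apply Nat.add_le_add
      · calc _ = 3 * kT F (4 / 2) := by norm_num
          _ ≤ _ := Nat.mul_le_mul_left _ h22
      · calc _ = 15 * kT F (4 / 4) := by norm_num
          _ ≤ _ := Nat.mul_le_mul_left _ h11
    · rw [if_neg h4, add_zero]
      by_cases h2 : 2 ∣ r
      · have : Ds 4 (Fintype.card F) = {2} := by
          ext D
          rw [hmem]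
          simp [h2, h4]
        rw [this, Finset.sum_singleton, if_pos h2]
        calc _ = 3 * kT F (4 / 2) := by norm_num
          _ ≤ _ := Nat.mul_le_mul_left _ h22
      · have : Ds 4 (Fintype.card F) = ∅ := by
          apply Finset.eq_empty_of_forall_notMem
          intro D hD
          rcases (hmem D).mp hD with ⟨-, h⟩ | ⟨-, h⟩
          · exact h2 h
          · exact h4 h
        rw [this, if_neg h2]
        simp
  rw [hr]
  exact num_four (by omega) h44 hsum hX

/-- The upper bound for `m ≥ 3`. -/
theorem B_upper {m X : ℕ} (hm : 3 ≤ m) (hX : (Fintype.card F - 1) * X ≤ B F m) :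
    X ≤ Fintype.card F ^ (m - 1) + 3 * Fintype.card F ^ (m - 2) := by
  by_cases h5 : 5 ≤ m
  · exact B_general h5 hX
  · have : m = 3 ∨ m = 4 := by omega
    rcases this with rfl | rfl
    · simpa using B_three hX
    · simpa using B_four hX

/-- The crude bound for all `m ≥ 1`. -/
theorem B_crude {m X : ℕ} (hm : 1 ≤ m) (hX : (Fintype.card F - 1) * X ≤ B F m) :
    2 * X ≤ 5 * Fintype.card F ^ (m - 1) := by
  have hq2 : 2 ≤ Fintype.card F := Fintype.one_lt_card
  by_cases h3 : 3 ≤ m
  · have h1 := B_upper h3 hX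
    obtain ⟨l, rfl⟩ : ∃ l, m = l + 2 := ⟨m - 2, by omega⟩
    rw [show l + 2 - 1 = l + 1 by omega, show l + 2 - 2 = l by omega] at h1
    rw [show l + 2 - 1 = l + 1 by omega]
    rw [pow_succ] at h1 ⊢
    have h2 : 0 < Fintype.card F ^ l := pow_pos (by omega) _
    nlinarith
  · have : m = 1 ∨ m = 2 := by omega
    rcases this with rfl | rfl
    · have := B_one hX
      simp only [Nat.sub_self, pow_zero]
      omega
    · obtain ⟨r, hr⟩ : ∃ r, Fintype.card F = r + 1 := ⟨Fintype.card F - 1, by omega⟩
      have hr' : Fintype.card F - 1 = r := by omega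
      rw [hr'] at hX
      have h1 := B_two hr hX
      have hr0 : 0 < r := by omega
      simp only [show 2 - 1 = 1 from rfl, pow_one]
      rw [hr]
      split_ifs at h1 with hd
      · have := Nat.le_of_dvd hr0 hd
        omega
      · omega

end Bounds

section Center

variable {F : Type*} [Field F] [Fintype F] {n : ℕ}

open Matrix

theorem card_center (hn : 1 ≤ n) :
    Nat.card (Subgroup.center (SpecialLinearGroup (Fin n) F)) = Nat.gcd n (Fintype.card F - 1) := by
  have h1 := Nat.card_congr (SpecialLinearGroup.center_equiv_rootsOfUnity' (n := Fin n) (R := F) ⟨0, by omega⟩).toEquiv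
  rw [h1, Fintype.card_fin]
  have h2 : rootsOfUnity n F = (powMonoidHom n : Fˣ →* Fˣ).ker := by
    ext u
    rw [mem_rootsOfUnity, MonoidHom.mem_ker, powMonoidHom_apply]
  rw [h2, IsCyclic.card_powMonoidHom_ker, Nat.card_eq_fintype_card, Fintype.card_units, Nat.gcd_comm]

/-- Data attached to a nontrivial central element. -/
theorem exists_order (hn : 1 ≤ n) (z : Subgroup.center (SpecialLinearGroup (Fin n) F)) (hz : z ≠ 1) :
    ∃ r, 2 ≤ r ∧ r ∣ n ∧
      (Fintype.card F - 1) * Nat.card {C : ConjClasses (SpecialLinearGroup (Fin n) F) // z • C = C} ≤ B F (n / r) := by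
  obtain ⟨a, ha, hza⟩ := Matrix.SpecialLinearGroup.mem_center_iff.mp z.2
  rw [Fintype.card_fin] at ha
  refine ⟨orderOf a, ?_, orderOf_dvd_of_pow_eq_one ha, fix_bound z hn ha hza.symm⟩
  have hr : 0 < orderOf a := orderOf_pos_iff.mpr (isOfFinOrder_iff_pow_eq_one.mpr ⟨n, by omega, ha⟩)
  by_contra h
  have h1 : orderOf a = 1 := by omega
  have h2 : a = 1 := orderOf_eq_one_iff.mp h1
  apply hz
  apply Subtype.ext
  apply Subtype.ext
  rw [← hza, h2]
  simp

end Center

section Final

variable {F : Type*} [Field F] [Fintype F] {n : ℕ}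

open Matrix

/-- The Burnside count for `PSL`. -/
theorem burnside (hn : 1 ≤ n) [Fintype (Subgroup.center (SpecialLinearGroup (Fin n) F))] :
    Nat.gcd n (Fintype.card F - 1) * Nat.card (ProjectiveSpecialLinearGroup (Fin n) F |> ConjClasses) =
      Nat.card (ConjClasses (SpecialLinearGroup (Fin n) F)) +
        ∑ z ∈ (Finset.univ.erase (1 : Subgroup.center (SpecialLinearGroup (Fin n) F))),
          Nat.card {C : ConjClasses (SpecialLinearGroup (Fin n) F) // z • C = C} := by
  have h1 := card_center_mul_classes (G := SpecialLinearGroup (Fin n) F)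
  rw [card_center hn] at h1
  rw [h1, ← Finset.add_sum_erase _ _ (Finset.mem_univ (1 : Subgroup.center (SpecialLinearGroup (Fin n) F)))]
  congr 1
  apply Nat.card_congr
  exact Equiv.subtypeUnivEquiv fun C => one_smul _ C

theorem card_erase (hn : 1 ≤ n) [Fintype (Subgroup.center (SpecialLinearGroup (Fin n) F))] :
    (Finset.univ.erase (1 : Subgroup.center (SpecialLinearGroup (Fin n) F))).card =
      Nat.gcd n (Fintype.card F - 1) - 1 := by
  rw [Finset.card_erase_of_mem (Finset.mem_univ _), Finset.card_univ, ← Nat.card_eq_fintype_card, card_center hn]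

end Final

/-- The number of conjugacy classes of PSL(n,q): for F a finite field with q elements, n ≥ 2 and d = gcd(n, q − 1), the number k of conjugacy classes of PSL(n,F) satisfies q^(n−1) ≤ d·k ≤ q^(n−1) + 5q^(n−2). -/
theorem result {F : Type*} [Field F] [Fintype F] (n : ℕ) (hn : 2 ≤ n) :
    Fintype.card F ^ (n - 1) ≤ Nat.gcd n (Fintype.card F - 1) * Nat.card (ConjClasses (Matrix.ProjectiveSpecialLinearGroup (Fin n) F)) ∧
      Nat.gcd n (Fintype.card F - 1) * Nat.card (ConjClasses (Matrix.ProjectiveSpecialLinearGroup (Fin n) F)) ≤ Fintype.card F ^ (n - 1) + 5 * Fintype.card F ^ (n - 2) := by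
  letI : Fintype (Subgroup.center (Matrix.SpecialLinearGroup (Fin n) F)) := Fintype.ofFinite _
  have hb := burnside (F := F) (n := n) (by omega)
  have hq2 : 2 ≤ Fintype.card F := Fintype.one_lt_card
  have hlow := lower (F := F) n hn
  refine ⟨by rw [hb]; exact le_trans hlow.le (Nat.le_add_right _ _), ?_⟩
  rw [hb]
  set K := Nat.card (ConjClasses (Matrix.SpecialLinearGroup (Fin n) F)) with hK
  set f : Subgroup.center (Matrix.SpecialLinearGroup (Fin n) F) → ℕ :=
    fun z => Nat.card {C : ConjClasses (Matrix.SpecialLinearGroup (Fin n) F) // z • C = C} with hf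
  set d := Nat.gcd n (Fintype.card F - 1) with hd
  have hcard := card_erase (F := F) (n := n) (by omega)
  rw [← hd] at hcard
  have hdn : d ∣ n := Nat.gcd_dvd_left _ _
  have hdq : d ∣ Fintype.card F - 1 := Nat.gcd_dvd_right _ _
  have hdq' : d + 1 ≤ Fintype.card F := le_of_dvd_sub hq2 hdq
  have hex := fun z hz => exists_order (F := F) (n := n) (by omega) z hz
  by_cases h6 : 6 ≤ n
  · -- the general case
    have hup := upper (F := F) n (by omega)
    obtain ⟨l, rfl⟩ : ∃ l, n = l + 4 := ⟨n - 4, by omega⟩
    have hz : ∀ z ∈ Finset.univ.erase (1 : Subgroup.center (Matrix.SpecialLinearGroup (Fin (l + 4)) F)),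
        2 * f z ≤ 5 * Fintype.card F ^ l := by
      intro z hz
      obtain ⟨r, hr2, hrn, hfz⟩ := hex z (Finset.ne_of_mem_erase hz)
      have hm1 : 1 ≤ (l + 4) / r := Nat.div_pos (Nat.le_of_dvd (by omega) hrn) (by omega)
      have h1 := B_crude hm1 hfz
      refine h1.trans (Nat.mul_le_mul_left _ (Nat.pow_le_pow_right (by omega) ?_))
      have h2 : (l + 4) / r ≤ (l + 4) / 2 := Nat.div_le_div_left hr2 (by omega)
      omega
    have hsum : 2 * (Finset.univ.erase (1 : Subgroup.center (Matrix.SpecialLinearGroup (Fin (l + 4)) F))).sum f ≤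
        (d - 1) * (5 * Fintype.card F ^ l) := by
      rw [Finset.mul_sum, ← hcard, ← smul_eq_mul]
      exact Finset.sum_le_card_nsmul _ _ _ hz
    rw [show l + 4 - 1 = l + 2 + 1 by omega, show l + 4 - 2 = l + 2 by omega] at hup ⊢
    have hd5 : (d - 1) * 5 ≤ 4 * Fintype.card F ^ 2 := by
      have h1 : d - 1 ≤ Fintype.card F := by omega
      nlinarith
    have hd6 : (d - 1) * (5 * Fintype.card F ^ l) ≤ 4 * Fintype.card F ^ (l + 2) := by
      calc (d - 1) * (5 * Fintype.card F ^ l) = ((d - 1) * 5) * Fintype.card F ^ l := by ring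
        _ ≤ (4 * Fintype.card F ^ 2) * Fintype.card F ^ l := Nat.mul_le_mul_right _ hd5
        _ = _ := by ring
    have hsum2 := hsum.trans hd6
    omega
  · -- small degrees; first a general remark for central elements of prime order
    have hprime : n.Prime → ∀ z ∈ Finset.univ.erase (1 : Subgroup.center (Matrix.SpecialLinearGroup (Fin n) F)),
        f z ≤ 1 := by
      intro hp z hz
      obtain ⟨r, hr2, hrn, hfz⟩ := hex z (Finset.ne_of_mem_erase hz)
      have h1 : r = n := by
        rcases (Nat.dvd_prime hp).mp hrn with h | h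
        · omega
        · exact h
      subst h1
      rw [Nat.div_self (by omega)] at hfz
      exact B_one hfz
    have hsumprime : n.Prime →
        (Finset.univ.erase (1 : Subgroup.center (Matrix.SpecialLinearGroup (Fin n) F))).sum f ≤ d - 1 := by
      intro hp
      have := Finset.sum_le_card_nsmul _ f 1 (hprime hp)
      rw [hcard] at this
      simpa using this
    have hdle : d ≤ n := Nat.le_of_dvd (by omega) hdn
    have hcases : n = 2 ∨ n = 3 ∨ n = 4 ∨ n = 5 := by omega
    rcases hcases with rfl | rfl | rfl | rfl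
    · -- n = 2
      obtain ⟨r, hr⟩ : ∃ r, Fintype.card F = r + 1 := ⟨Fintype.card F - 1, by omega⟩
      have hr' : Fintype.card F - 1 = r := by omega
      have := hfin (F := F) 2 2
      letI : Fintype (S F 2 2) := Fintype.ofFinite _
      have hmain := main_ineq (F := F) (n := 2) (by omega)
      have hKb : K ≤ if 2 ∣ r then r + 5 else r + 2 := by
        have h1 : r * K ≤ B F 2 := by
          rw [← hr']
          exact hmain
        exact B_two hr h1
      have hs := hsumprime Nat.prime_two
      simp only [show 2 - 1 = 1 from rfl, show 2 - 2 = 0 from rfl, pow_one, pow_zero, mul_one]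
      rw [hr]
      by_cases h2 : 2 ∣ r
      · rw [if_pos h2] at hKb
        omega
      · rw [if_neg h2] at hKb
        have hd1 : d = 1 := by
          have h3 : d ∣ 2 := hdn
          rcases (Nat.dvd_prime Nat.prime_two).mp h3 with h | h
          · exact h
          · rw [hr', h] at hdq
            exact absurd hdq h2
        omega
    · -- n = 3
      have hup := upper (F := F) 3 (by omega)
      have hs := hsumprime Nat.prime_three
      simp only [show 3 - 1 = 2 from rfl, show 3 - 2 = 1 from rfl, pow_one] at hup ⊢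
      omega
    · -- n = 4
      have hup := upper (F := F) 4 (by omega)
      have hz : ∀ z ∈ Finset.univ.erase (1 : Subgroup.center (Matrix.SpecialLinearGroup (Fin 4) F)),
          2 * f z ≤ 5 * Fintype.card F := by
        intro z hz
        obtain ⟨r, hr2, hrn, hfz⟩ := hex z (Finset.ne_of_mem_erase hz)
        have hm1 : 1 ≤ 4 / r := Nat.div_pos (Nat.le_of_dvd (by omega) hrn) (by omega)
        have h1 : 2 * f z ≤ 5 * Fintype.card F ^ (4 / r - 1) := B_crude hm1 hfz
        have h2 : 4 / r ≤ 4 / 2 := Nat.div_le_div_left hr2 (by omega)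
        have h3 : Fintype.card F ^ (4 / r - 1) ≤ Fintype.card F ^ 1 :=
          Nat.pow_le_pow_right (by omega) (by omega)
        rw [pow_one] at h3
        omega
      have hsum : 2 * (Finset.univ.erase (1 : Subgroup.center (Matrix.SpecialLinearGroup (Fin 4) F))).sum f ≤
          (d - 1) * (5 * Fintype.card F) := by
        rw [Finset.mul_sum, ← hcard, ← smul_eq_mul]
        exact Finset.sum_le_card_nsmul _ _ _ hz
      have hd5 : (d - 1) * 5 ≤ 4 * Fintype.card F := by
        have h1 : d - 1 ≤ 3 := by omega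
        have h2 : d - 1 ≤ Fintype.card F - 2 := by omega
        by_cases h4 : 4 ≤ Fintype.card F
        · omega
        · have h5 : d - 1 ≤ 1 := by omega
          omega
      have hd6 : (d - 1) * (5 * Fintype.card F) ≤ 4 * Fintype.card F ^ 2 := by
        calc (d - 1) * (5 * Fintype.card F) = ((d - 1) * 5) * Fintype.card F := by ring
          _ ≤ (4 * Fintype.card F) * Fintype.card F := Nat.mul_le_mul_right _ hd5
          _ = _ := by ring
      simp only [show 4 - 1 = 3 from rfl, show 4 - 2 = 2 from rfl] at hup ⊢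
      have hsum2 := hsum.trans hd6
      omega
    · -- n = 5
      have hup := upper (F := F) 5 (by omega)
      have hs := hsumprime Nat.prime_five
      simp only [show 5 - 1 = 4 from rfl, show 5 - 2 = 3 from rfl] at hup ⊢
      have h8 : 8 ≤ Fintype.card F ^ 3 := by
        calc 8 = 2 ^ 3 := rfl
          _ ≤ _ := Nat.pow_le_pow_left hq2 3
      omega

end Cfsg.Agent.S2480
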