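import Cfsg.Statements.S2481
import Mathlib
import Cfsg.Agent.Lib.ClassNum.SUNum
import Cfsg.Agent.S2386

set_option autoImplicit false
open Cfsg

namespace Cfsg.Agent.S2481

open Cfsg.Agent.Lib.ClassNum.SUBound Cfsg.Agent.Lib.ClassNum.SUNum
open Cfsg.Agent.Lib.ClassNum.SUCount (SD)

section Numeric

theorem geom_le {q : ℕ} (hq : 2 ≤ q) (M : ℕ) : ∑ m ∈ Finset.range (M + 1), q ^ m ≤ 2 * q ^ M := by
  induction M with
  | zero => simp
  | succ M ih =>
    rw [Finset.sum_range_succ, pow_succ]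
    have h1 : 2 * q ^ M ≤ q ^ M * q := by
      rw [mul_comm]; exact Nat.mul_le_mul_left _ hq
    nlinarith

/-- The sum over proper divisors. -/
theorem sum_bound {q n : ℕ} (hq : 2 ≤ q) (hn : 5 ≤ n) (k : ℕ → ℕ) (hk : ∀ m, k m ≤ 4 * q ^ m) :
    ∑ D ∈ DsU n q, (D ^ 2 - 1) * k (n / D) ≤ 8 * q * (q + 2) * q ^ (n - 3) := by
  have h1 : ∀ D ∈ DsU n q, (D ^ 2 - 1) * k (n / D) ≤ (q * (q + 2)) * (4 * q ^ (n / D)) := by
    intro D hD
    obtain ⟨-, h2, -⟩ := mem_DsU.mp hD
    have h3 : D ≤ q + 1 := Nat.le_of_dvd (by omega) h2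
    apply Nat.mul_le_mul _ (hk _)
    have h4 : D ^ 2 ≤ q * (q + 2) + 1 := by nlinarith
    omega
  refine (Finset.sum_le_sum h1).trans ?_
  rw [← Finset.mul_sum, ← Finset.mul_sum]
  have hinj : Set.InjOn (fun D => n / D) (DsU n q) := by
    intro D hD D' hD' heq
    obtain ⟨h2, -, -⟩ := mem_DsU.mp (Finset.mem_coe.mp hD)
    obtain ⟨h2', -, -⟩ := mem_DsU.mp (Finset.mem_coe.mp hD')
    have h3 := Nat.div_div_self h2 (by omega)
    have h3' := Nat.div_div_self h2' (by omega)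
    simp only at heq
    rw [← h3, ← h3', heq]
  have h2 : ∑ D ∈ DsU n q, q ^ (n / D) ≤ ∑ x ∈ Finset.range (n / 2 + 1), q ^ x := by
    rw [← Finset.sum_image (f := fun x => q ^ x) hinj]
    apply Finset.sum_le_sum_of_subset
    intro x hx
    obtain ⟨D, hD, rfl⟩ := Finset.mem_image.mp hx
    obtain ⟨-, -, h3⟩ := mem_DsU.mp hD
    exact Finset.mem_range.mpr (Nat.lt_succ_of_le (Nat.div_le_div_left h3 (by omega)))
  have h3 := geom_le hq (n / 2)
  have h4 : n / 2 ≤ n - 3 := by omega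
  have h5 : q ^ (n / 2) ≤ q ^ (n - 3) := Nat.pow_le_pow_right (by omega) h4
  calc q * (q + 2) * (4 * ∑ D ∈ DsU n q, q ^ (n / D))
      ≤ q * (q + 2) * (4 * (2 * q ^ (n - 3))) :=
        Nat.mul_le_mul_left _ (Nat.mul_le_mul_left _ (h2.trans (h3.trans (Nat.mul_le_mul_left _ h5))))
    _ = 8 * q * (q + 2) * q ^ (n - 3) := by ring

theorem num_general {q m K S A : ℕ} (hq : 2 ≤ q) (hA : A ≤ 4 * q ^ (m + 3)) (hS : S ≤ 8 * q * (q + 2) * q ^ m)
    (hK : (q + 1) * K ≤ A + S) : 100 * K ≤ 826 * q ^ (m + 2) := by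
  have h1 : (q + 1) * (100 * K) ≤ (q + 1) * (826 * q ^ (m + 2)) := by
    have h2 : (q + 1) * (100 * K) = 100 * ((q + 1) * K) := by ring
    rw [h2]
    have e1 : q ^ (m + 3) = q ^ m * q ^ 3 := pow_add _ _ _
    have e2 : q ^ (m + 2) = q ^ m * q ^ 2 := pow_add _ _ _
    rw [e1] at hA
    rw [e2]
    generalize q ^ m = P at *
    have h3 : 1600 ≤ 426 * q ^ 2 + 26 * q := by nlinarith
    have h4 := Nat.mul_le_mul_left (q * P) h3
    calc 100 * ((q + 1) * K) ≤ 100 * (4 * (P * q ^ 3) + 8 * q * (q + 2) * P) :=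
          Nat.mul_le_mul_left _ (hK.trans (Nat.add_le_add hA hS))
      _ ≤ (q + 1) * (826 * (P * q ^ 2)) := by nlinarith
  exact Nat.le_of_mul_le_mul_left h1 (by omega)

theorem num_two {q K A S : ℕ} (hq : 1 ≤ q) (hA : A ≤ (q + 1) ^ 2) (hS : S ≤ 3 * (q + 1))
    (hK : (q + 1) * K ≤ A + S) : 100 * K ≤ 826 * q := by
  have h1 : (q + 1) * K ≤ (q + 1) * (q + 4) := by nlinarith
  have h2 := Nat.le_of_mul_le_mul_left h1 (by omega)
  omega

theorem num_three {q K A S : ℕ} (hq : 3 ≤ q) (hA : A ≤ 4 * q ^ 3) (hS : S ≤ 8 * (q + 1))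
    (hK : (q + 1) * K ≤ A + S) : 100 * K ≤ 826 * q ^ 2 := by
  have h1 : (q + 1) * (100 * K) ≤ (q + 1) * (826 * q ^ 2) := by
    have h2 : (q + 1) * (100 * K) = 100 * ((q + 1) * K) := by ring
    rw [h2]
    have h3 : 100 * ((q + 1) * K) ≤ 100 * (4 * q ^ 3 + 8 * (q + 1)) :=
      Nat.mul_le_mul_left _ (hK.trans (Nat.add_le_add hA hS))
    refine h3.trans ?_
    obtain ⟨s, rfl⟩ : ∃ s, q = s + 3 := ⟨q - 3, by omega⟩
    nlinarith [sq_nonneg s, pow_pos (Nat.succ_pos s) 3]
  exact Nat.le_of_mul_le_mul_left h1 (by omega)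

theorem num_four {q K A S : ℕ} (hq : 3 ≤ q) (hA : A ≤ 4 * q ^ 4) (hS : S ≤ 3 * (q + 1) ^ 2 + 15 * (q + 1))
    (hK : (q + 1) * K ≤ A + S) : 100 * K ≤ 826 * q ^ 3 := by
  have h1 : (q + 1) * (100 * K) ≤ (q + 1) * (826 * q ^ 3) := by
    have h2 : (q + 1) * (100 * K) = 100 * ((q + 1) * K) := by ring
    rw [h2]
    have h3 : 100 * ((q + 1) * K) ≤ 100 * (4 * q ^ 4 + (3 * (q + 1) ^ 2 + 15 * (q + 1))) :=
      Nat.mul_le_mul_left _ (hK.trans (Nat.add_le_add hA hS))
    refine h3.trans ?_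
    obtain ⟨s, rfl⟩ : ∃ s, q = s + 3 := ⟨q - 3, by omega⟩
    nlinarith [sq_nonneg s, pow_pos (Nat.succ_pos s) 3, pow_pos (Nat.succ_pos s) 4]
  exact Nat.le_of_mul_le_mul_left h1 (by omega)

end Numeric

section Main

universe u

variable {F : Type u} [Field F] [Fintype F] {q : ℕ} (hF : Fintype.card F = q ^ 2)
include hF

theorem upper_large (hq : 3 ≤ q) (n : ℕ) (hn : 2 ≤ n) :
    100 * Nat.card (ConjClasses (Cfsg.SU n F q)) ≤ 826 * q ^ (n - 1) := by
  have hmain := main_ineq hF (n := n) (by omega)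
  have hk := kS_le_large hF hq
  have h1 := kS_one hF
  have h2 := kS_two hF
  by_cases h5 : 5 ≤ n
  · obtain ⟨m, rfl⟩ : ∃ m, n = m + 3 := ⟨n - 3, by omega⟩
    have hs := sum_bound (q := q) (n := m + 3) (by omega) h5 (kS hF) hk
    rw [show m + 3 - 3 = m by omega] at hs
    rw [show m + 3 - 1 = m + 2 by omega]
    exact num_general (by omega) (hk _) hs hmain
  · have hcases : n = 2 ∨ n = 3 ∨ n = 4 := by omega
    rcases hcases with rfl | rfl | rfl
    · have hsub : DsU 2 q ⊆ {2} := by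
        intro D hD
        obtain ⟨h3, -, h4⟩ := mem_DsU.mp hD
        have := Nat.le_of_dvd (by norm_num) h3
        rw [Finset.mem_singleton]
        omega
      have hs : ∑ D ∈ DsU 2 q, (D ^ 2 - 1) * kS hF (2 / D) ≤ 3 * (q + 1) := by
        refine (Finset.sum_le_sum_of_subset hsub).trans ?_
        rw [Finset.sum_singleton]
        calc _ = 3 * kS hF 1 := by norm_num
          _ ≤ _ := Nat.mul_le_mul_left _ h1
      simpa using num_two (by omega) h2 hs hmain
    · have hsub : DsU 3 q ⊆ {3} := by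
        intro D hD
        obtain ⟨h3, -, h4⟩ := mem_DsU.mp hD
        have := (Nat.dvd_prime Nat.prime_three).mp h3
        rw [Finset.mem_singleton]
        omega
      have hs : ∑ D ∈ DsU 3 q, (D ^ 2 - 1) * kS hF (3 / D) ≤ 8 * (q + 1) := by
        refine (Finset.sum_le_sum_of_subset hsub).trans ?_
        rw [Finset.sum_singleton]
        calc _ = 8 * kS hF 1 := by norm_num
          _ ≤ _ := Nat.mul_le_mul_left _ h1
      exact num_three hq (hk 3) hs hmain
    · have hsub : DsU 4 q ⊆ {2, 4} := by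
        intro D hD
        obtain ⟨h3, -, h4⟩ := mem_DsU.mp hD
        have h6 := Nat.le_of_dvd (by norm_num) h3
        interval_cases D
        · simp
        · exact absurd h3 (by decide)
        · simp
      have hs : ∑ D ∈ DsU 4 q, (D ^ 2 - 1) * kS hF (4 / D) ≤ 3 * (q + 1) ^ 2 + 15 * (q + 1) := by
        refine (Finset.sum_le_sum_of_subset hsub).trans ?_
        rw [Finset.sum_pair (by norm_num)]
        apply Nat.add_le_add
        · calc _ = 3 * kS hF 2 := by norm_num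
            _ ≤ _ := Nat.mul_le_mul_left _ h2
        · calc _ = 15 * kS hF 1 := by norm_num
            _ ≤ _ := Nat.mul_le_mul_left _ h1
      exact num_four hq (hk 4) hs hmain

theorem upper_two (hq : q = 2) (n : ℕ) (hn : 2 ≤ n) :
    100 * Nat.card (ConjClasses (Cfsg.SU n F q)) ≤ 826 * q ^ (n - 1) := by
  have hmain := main_ineq hF (n := n) (by omega)
  have hk := kS_le_two hF hq
  have h1 := kS_one hF
  have h2 := kS_two hF
  subst hq
  generalize hK : Nat.card (ConjClasses (Cfsg.SU n F 2)) = K at hmain ⊢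
  have hmem : ∀ D ∈ DsU n 2, D = 3 ∧ 3 ∣ n := by
    intro D hD
    obtain ⟨h3, h4, h5⟩ := mem_DsU.mp hD
    have := (Nat.dvd_prime Nat.prime_three).mp h4
    have hD3 : D = 3 := by omega
    subst hD3
    exact ⟨rfl, h3⟩
  by_cases h3 : 3 ∣ n
  · obtain ⟨m, rfl⟩ := h3
    have hsub : DsU (3 * m) 2 ⊆ {3} := fun D hD => by
      rw [Finset.mem_singleton]
      exact (hmem D hD).1
    have hs : ∑ D ∈ DsU (3 * m) 2, (D ^ 2 - 1) * kS hF (3 * m / D) ≤ 8 * kS hF m := by
      refine (Finset.sum_le_sum_of_subset hsub).trans ?_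
      rw [Finset.sum_singleton]
      rw [Nat.mul_div_cancel_left _ (by norm_num)]
      norm_num
    have hA := hk (3 * m)
    have hm1 : 1 ≤ m := by omega
    by_cases hm3 : 3 ≤ m
    · obtain ⟨r, rfl⟩ : ∃ r, m = r + 3 := ⟨m - 3, by omega⟩
      have hB := hk (r + 3)
      have e1 : (2 : ℕ) ^ (3 * (r + 3)) = 2 ^ (3 * r) * 512 := by
        rw [show 3 * (r + 3) = 3 * r + 9 by ring, pow_add]
        norm_num
      have e2 : (2 : ℕ) ^ (r + 3) = 2 ^ r * 8 := by
        rw [pow_add]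
        norm_num
      have e3 : (2 : ℕ) ^ (3 * (r + 3) - 1) = 2 ^ (3 * r) * 256 := by
        rw [show 3 * (r + 3) - 1 = 3 * r + 8 by omega, pow_add]
        norm_num
      have e4 : (2 : ℕ) ^ r ≤ 2 ^ (3 * r) := Nat.pow_le_pow_right (by norm_num) (by omega)
      rw [e3]
      rw [e1] at hA
      rw [e2] at hB
      generalize (2 : ℕ) ^ (3 * r) = E at *
      generalize (2 : ℕ) ^ r = R at *
      omega
    · have hm : m = 1 ∨ m = 2 := by omega
      rcases hm with rfl | rfl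
      · norm_num at hA hs hmain ⊢
        omega
      · norm_num at hA hs hmain ⊢
        omega
  · have hemp : DsU n 2 = ∅ := by
      apply Finset.eq_empty_of_forall_notMem
      intro D hD
      exact h3 (hmem D hD).2
    rw [hemp, Finset.sum_empty] at hmain
    have hA := hk n
    obtain ⟨t, rfl⟩ : ∃ t, n = t + 1 := ⟨n - 1, by omega⟩
    rw [Nat.add_sub_cancel]
    rw [pow_succ] at hA
    generalize (2 : ℕ) ^ t = T at *
    omega

theorem upper (n : ℕ) (hn : 2 ≤ n) :
    100 * Nat.card (ConjClasses (Cfsg.SU n F q)) ≤ 826 * q ^ (n - 1) := by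
  have hq := Cfsg.Agent.Lib.Classical.Herm.Basic.two_le_q hF
  by_cases h3 : 3 ≤ q
  · exact upper_large hF h3 n hn
  · exact upper_two hF (by omega) n hn

theorem lower (n : ℕ) (hn : 2 ≤ n) :
    q ^ (n - 1) ≤ Nat.card (ConjClasses (Cfsg.SU n F q)) := by
  obtain ⟨p, hp⟩ := CharP.exists F
  have hpp : p.Prime := by
    rcases CharP.char_is_prime_or_zero F p with h | h
    · exact h
    · subst h
      exact absurd hp (by
        intro h
        have := CharP.charP_to_charZero F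
        exact (not_finite F))
  have : Fact p.Prime := ⟨hpp⟩
  rw [← Cfsg.Agent.S2386.result hF p n (by omega)]
  exact Nat.card_le_card_of_injective _ Subtype.val_injective

end Main

/-- The number of conjugacy classes of SU(n,q): for n ≥ 2, q a prime power and F the field with q² elements, the number k of conjugacy classes of SU(n,q) (the determinant-one isometries of the standard Hermitian form on F^n) satisfies q^(n−1) ≤ k ≤ 8.26·q^(n−1). -/
theorem result {F : Type*} [Field F] [Fintype F] (n q : ℕ) (hn : 2 ≤ n) (hF : Fintype.card F = q ^ 2) :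
    q ^ (n - 1) ≤ Nat.card (ConjClasses (Cfsg.SU n F q)) ∧ 100 * Nat.card (ConjClasses (Cfsg.SU n F q)) ≤ 826 * q ^ (n - 1) :=
  ⟨lower hF n hn, upper hF n hn⟩

end Cfsg.Agent.S2481
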