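import Cfsg.Statements.S2482
import Cfsg.Agent.S2385
import Cfsg.Agent.Lib.ClassNum.SpNum

set_option autoImplicit false
open Cfsg

namespace Cfsg.Agent.S2482

open Cfsg.Agent.Lib.ClassNum.SpPoly Cfsg.Agent.Lib.ClassNum.SpCount Cfsg.Agent.Lib.ClassNum.SpNum

/-- The number of conjugacy classes of Sp(2n,q), q odd: for F a finite field of odd order q and n ≥ 1, the number k of conjugacy classes of Sp(2n,F) satisfies q^n ≤ k ≤ 10.8·q^n. -/
theorem result {F : Type*} [Field F] [Fintype F] (hodd : Odd (Fintype.card F)) (n : ℕ) (hn : 1 ≤ n) :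
    Fintype.card F ^ n ≤ Nat.card (ConjClasses (Matrix.symplecticGroup (Fin n) F)) ∧ 5 * Nat.card (ConjClasses (Matrix.symplecticGroup (Fin n) F)) ≤ 54 * Fintype.card F ^ n := by
  have hodd' : Fintype.card F % 2 = 1 := Nat.odd_iff.mp hodd
  have h2 : (2 : F) ≠ 0 := Cfsg.Agent.Lib.ClassNum.SpSym.two_ne_zero_of_odd hodd'
  constructor
  · obtain ⟨p, hp⟩ := CharP.exists F
    have hpp : p.Prime := by
      rcases CharP.char_is_prime_or_zero F p with h | h
      · exact h
      · subst h
        exact absurd hp (by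
          intro h
          have := CharP.charP_to_charZero F
          exact (not_finite F))
    have : Fact p.Prime := ⟨hpp⟩
    rw [← Cfsg.Agent.S2385.result rfl p n]
    haveI : Finite (Matrix.symplecticGroup (Fin n) F) := by
      haveI : Finite (Matrix (Fin n ⊕ Fin n) (Fin n ⊕ Fin n) F) := by
        unfold Matrix
        infer_instance
      exact Finite.of_injective (fun x : Matrix.symplecticGroup (Fin n) F => (x : Matrix (Fin n ⊕ Fin n) (Fin n ⊕ Fin n) F))
        Subtype.val_injective
    exact Nat.card_le_card_of_injective _ Subtype.val_injective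
  · have hq1 : 1 < Fintype.card F := Fintype.one_lt_card
    have hq : 3 ≤ Fintype.card F := by omega
    have hk := card_classes_le (F := F) (n := n) hodd'
    have hmain : (aa F (2 * n) n : ℚ) ≤ 54 / 5 * (Fintype.card F : ℚ) ^ n := by
      by_cases h3 : Fintype.card F = 3
      · exact bound_three hq (aa F) (fun D => ∑ f ∈ RF F D, 2 ^ wt f) (W_even h2) (W_odd h2)
          (fun J n hJ => aa_odd h2 n J hJ) (fun i n J hi hJ => aa_even i n hi J hJ)
          aa_zero_zero (fun n hn => aa_zero_pos hn) h3 n hn n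
      · have h5 : 5 ≤ Fintype.card F := by omega
        have h5' : (5 : ℚ) ≤ (Fintype.card F : ℚ) := by exact_mod_cast h5
        exact bound_large hq (aa F) (fun D => ∑ f ∈ RF F D, 2 ^ wt f) (W_even h2) (W_odd h2)
          (fun J n hJ => aa_odd h2 n J hJ) (fun i n J hi hJ => aa_even i n hi J hJ)
          aa_zero_zero (fun n hn => aa_zero_pos hn) h5' n hn n
    have h1 : ((5 * Nat.card (ConjClasses (Matrix.symplecticGroup (Fin n) F)) : ℕ) : ℚ) ≤
        ((54 * Fintype.card F ^ n : ℕ) : ℚ) := by
      have h3 : (Nat.card (ConjClasses (Matrix.symplecticGroup (Fin n) F)) : ℚ) ≤ (aa F (2 * n) n : ℚ) := by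
        exact_mod_cast hk
      push_cast
      linarith
    exact_mod_cast h1

end Cfsg.Agent.S2482
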