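import Cfsg.Statements.S2485
import Mathlib

set_option autoImplicit false
open scoped Pointwise
open Cfsg

namespace Cfsg.Agent.S2485

section Aux

open Matrix

variable {F : Type*} [Field F]

/-- The quotient map. -/
abbrev mkG : GL (Fin 2) F →* (GL (Fin 2) F ⧸ Subgroup.center (GL (Fin 2) F)) := QuotientGroup.mk' _

lemma mkG_surjective : Function.Surjective (mkG : GL (Fin 2) F → _) := QuotientGroup.mk'_surjective _

/-- The standard anisotropic element. -/
noncomputable def W : GL (Fin 2) F :=
  GeneralLinearGroup.mkOfDetNeZero !![0, 1; -1, 0] (by simp [det_fin_two])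

@[simp] lemma W_val : ((W : GL (Fin 2) F) : Matrix (Fin 2) (Fin 2) F) = !![0, 1; -1, 0] := rfl

lemma scalar_eq_smul (c : F) : scalar (Fin 2) c = c • (1 : Matrix (Fin 2) (Fin 2) F) := by
  rw [Matrix.smul_one_eq_diagonal]; rfl

lemma mk_comm_iff (M N : GL (Fin 2) F) :
    Commute (mkG M) (mkG N) ↔ ∃ c : F, M.val * N.val = c • (N.val * M.val) := by
  constructor
  · intro h
    have h1 : mkG (N * M) = mkG (M * N) := by
      rw [map_mul, map_mul]; exact h.eq.symm
    have h2 := QuotientGroup.eq.mp h1
    rw [GeneralLinearGroup.mem_center_iff_val_mem_range_scalar] at h2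
    obtain ⟨c, hc⟩ := h2
    refine ⟨c, ?_⟩
    have h3 : M * N = (N * M) * ((N * M)⁻¹ * (M * N)) := by group
    have h4 := congrArg Units.val h3
    rw [Units.val_mul (N * M), ← hc, Units.val_mul M, Units.val_mul N, scalar_eq_smul, Matrix.mul_smul,
      mul_one] at h4
    exact h4
  · rintro ⟨c, hc⟩
    have h2 : (N * M)⁻¹ * (M * N) ∈ Subgroup.center (GL (Fin 2) F) := by
      rw [GeneralLinearGroup.mem_center_iff_val_mem_range_scalar]
      refine ⟨c, ?_⟩
      have h3 : ((N * M)⁻¹ * (M * N)).val = ((N * M)⁻¹).val * (c • (N * M).val) := by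
        rw [Units.val_mul, Units.val_mul M, hc, Units.val_mul]
      rw [h3, Matrix.mul_smul, ← Units.val_mul, scalar_eq_smul]
      simp
    have h1 : mkG (N * M) = mkG (M * N) := QuotientGroup.eq.mpr h2
    rw [map_mul, map_mul] at h1
    exact h1.symm

/-- Traceless matrices: `Y = AB - BA` anticommutes with `A`. -/
lemma anti_left (A B : Matrix (Fin 2) (Fin 2) F) (hA : trace A = 0) :
    (A * B - B * A) * A = (-1 : F) • (A * (A * B - B * A)) := by
  rw [trace_fin_two] at hA
  have hd : A 1 1 = - A 0 0 := by linear_combination hA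
  ext i j
  fin_cases i <;> fin_cases j <;>
    simp [Matrix.mul_apply, Fin.sum_univ_two, hd] <;> ring

lemma anti_right (A B : Matrix (Fin 2) (Fin 2) F) (hB : trace B = 0) :
    (A * B - B * A) * B = (-1 : F) • (B * (A * B - B * A)) := by
  rw [trace_fin_two] at hB
  have hd : B 1 1 = - B 0 0 := by linear_combination hB
  ext i j
  fin_cases i <;> fin_cases j <;>
    simp [Matrix.mul_apply, Fin.sum_univ_two, hd] <;> ring

/-- The key: if `-1` is not a square, the commutator of two traceless elements of determinant 1 is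
zero or invertible. -/
lemma det_ne_zero_of_ne (hneg : ¬ IsSquare (-1 : F)) (A B : Matrix (Fin 2) (Fin 2) F)
    (hA : trace A = 0) (hA1 : det A = 1) (hB : trace B = 0) (hY : A * B - B * A ≠ 0) :
    det (A * B - B * A) ≠ 0 := by
  intro hdet
  have hanti := anti_left A B hA
  set Y := A * B - B * A with hYdef
  have htrY : trace Y = 0 := by
    rw [hYdef, trace_sub, Matrix.trace_mul_comm, sub_self]
  rw [trace_fin_two] at hA htrY
  rw [det_fin_two] at hA1 hdet
  have hd : A 1 1 = - A 0 0 := by linear_combination hA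
  have hYd : Y 1 1 = - Y 0 0 := by linear_combination htrY
  rw [hYd] at hdet
  rw [hd] at hA1
  have h00 := congrFun (congrFun hanti 0) 0
  simp [Matrix.mul_apply, Fin.sum_univ_two, hd, hYd] at h00
  set a := A 0 0
  set b := A 0 1
  set c := A 1 0
  set p := Y 0 0
  set r := Y 0 1
  set s := Y 1 0
  have hr : r = 0 := by
    by_contra hr
    apply hneg
    refine ⟨(a * r - b * p) / r, ?_⟩
    field_simp
    linear_combination (r ^ 2) * hA1 + b * r * h00 + b ^ 2 * hdet
  have hs : s = 0 := by
    by_contra hs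
    apply hneg
    refine ⟨(a * s - c * p) / s, ?_⟩
    field_simp
    linear_combination (s ^ 2) * hA1 + c * s * h00 + c ^ 2 * hdet
  apply hY
  have hp : p = 0 := by
    rw [hr, hs] at hdet
    have : p * p = 0 := by linear_combination -hdet
    exact mul_self_eq_zero.mp this
  ext i j
  fin_cases i <;> fin_cases j <;> simp [hYd]
  · exact hp
  · exact hr
  · exact hs
  · exact hp

variable (F) in
/-- The centraliser of the standard involution. -/
def C0 : Subgroup (GL (Fin 2) F ⧸ Subgroup.center (GL (Fin 2) F)) :=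
  Subgroup.centralizer {mkG (W : GL (Fin 2) F)}

lemma mem_C0_iff (y : GL (Fin 2) F ⧸ Subgroup.center (GL (Fin 2) F)) :
    y ∈ C0 F ↔ Commute y (mkG (W : GL (Fin 2) F)) := by
  rw [C0, Subgroup.mem_centralizer_singleton_iff]
  exact ⟨fun h => h, fun h => h⟩

lemma mem_comap_iff (M : GL (Fin 2) F) :
    M ∈ (C0 F).comap mkG ↔
      (M.val 1 0 = - M.val 0 1 ∧ M.val 1 1 = M.val 0 0) ∨
      (M.val 1 0 = M.val 0 1 ∧ M.val 1 1 = - M.val 0 0) := by
  rw [Subgroup.mem_comap, mem_C0_iff, mk_comm_iff]
  constructor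
  · rintro ⟨c, hc⟩
    have h00 := congrFun (congrFun hc 0) 0
    have h01 := congrFun (congrFun hc 0) 1
    have h10 := congrFun (congrFun hc 1) 0
    have h11 := congrFun (congrFun hc 1) 1
    simp [Matrix.mul_apply, Fin.sum_univ_two, Matrix.vecMul, dotProduct] at h00 h01 h10 h11
    have hcc : c * c = 1 := by
      by_contra hcc
      have hne : 1 - c * c ≠ 0 := fun h => hcc (by linear_combination -h)
      have ha : M.val 0 0 = 0 := by
        have : (1 - c * c) * M.val 0 0 = 0 := by linear_combination h01 + c * h10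
        exact (mul_eq_zero.mp this).resolve_left hne
      have hb : M.val 0 1 = 0 := by
        have : (1 - c * c) * M.val 0 1 = 0 := by linear_combination -h00 - c * h11
        exact (mul_eq_zero.mp this).resolve_left hne
      have hdet := GeneralLinearGroup.det_ne_zero M
      rw [det_fin_two, ha, hb] at hdet
      simp at hdet
    have hc1 : c = 1 ∨ c = -1 := mul_self_eq_one_iff.mp hcc
    rcases hc1 with rfl | rfl
    · left
      constructor
      · linear_combination -h00
      · linear_combination -h01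
    · right
      constructor
      · linear_combination h00
      · linear_combination h01
  · rintro (⟨h1, h2⟩ | ⟨h1, h2⟩)
    · refine ⟨1, ?_⟩
      ext i j
      fin_cases i <;> fin_cases j <;> simp [Matrix.mul_apply, Fin.sum_univ_two, Matrix.vecMul, dotProduct, h1, h2]
    · refine ⟨-1, ?_⟩
      ext i j
      fin_cases i <;> fin_cases j <;> simp [Matrix.mul_apply, Fin.sum_univ_two, Matrix.vecMul, dotProduct, h1, h2]

lemma sum_sq_ne_zero (hneg : ¬ IsSquare (-1 : F)) {a b : F} (h : (a, b) ≠ 0) :
    a * a + b * b ≠ 0 := by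
  intro h0
  by_cases hb : b = 0
  · subst hb
    have : a = 0 := by
      have : a * a = 0 := by linear_combination h0
      exact mul_self_eq_zero.mp this
    subst this
    exact h rfl
  · apply hneg
    refine ⟨a / b, ?_⟩
    field_simp
    linear_combination -h0

/-- The parametrisation. -/
noncomputable def toGL (hneg : ¬ IsSquare (-1 : F)) (p : {p : F × F // p ≠ 0}) (ε : Bool) :
    GL (Fin 2) F :=
  GeneralLinearGroup.mkOfDetNeZero
    (if ε then !![p.1.1, p.1.2; -p.1.2, p.1.1] else !![p.1.1, p.1.2; p.1.2, -p.1.1]) (by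
    have h := sum_sq_ne_zero hneg (a := p.1.1) (b := p.1.2) p.2
    cases ε
    · simp only [Bool.false_eq_true, if_false, det_fin_two_of]
      intro h0; apply h; linear_combination -h0
    · simp only [if_true, det_fin_two_of]
      intro h0; apply h; linear_combination h0)

lemma toGL_mem (hneg : ¬ IsSquare (-1 : F)) (p : {p : F × F // p ≠ 0}) (ε : Bool) :
    toGL hneg p ε ∈ (C0 F).comap mkG := by
  rw [mem_comap_iff]
  cases ε
  · right; exact ⟨rfl, rfl⟩
  · left; exact ⟨rfl, rfl⟩

lemma card_comap [Fintype F] (h2 : (2 : F) ≠ 0) (hneg : ¬ IsSquare (-1 : F)) :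
    Nat.card ((C0 F).comap (mkG (F := F))) = (Fintype.card F ^ 2 - 1) * 2 := by
  classical
  let f : {p : F × F // p ≠ 0} × Bool → (C0 F).comap (mkG (F := F)) :=
    fun a => ⟨toGL hneg a.1 a.2, toGL_mem hneg a.1 a.2⟩
  have hf : Function.Bijective f := by
    constructor
    · rintro ⟨⟨⟨a, b⟩, hp⟩, ε⟩ ⟨⟨⟨a', b'⟩, hp'⟩, ε'⟩ h
      have h' : (toGL hneg ⟨(a, b), hp⟩ ε).val = (toGL hneg ⟨(a', b'), hp'⟩ ε').val :=
        congrArg (fun z : (C0 F).comap (mkG (F := F)) => (z.1 : GL (Fin 2) F).val) h
      have h00 := congrFun (congrFun h' 0) 0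
      have h01 := congrFun (congrFun h' 0) 1
      have h10 := congrFun (congrFun h' 1) 0
      have h11 := congrFun (congrFun h' 1) 1
      have e00 : a = a' := by
        cases ε <;> cases ε' <;> simpa [toGL] using h00
      have e01 : b = b' := by
        cases ε <;> cases ε' <;> simpa [toGL] using h01
      subst e00 e01
      have hε : ε = ε' := by
        cases ε <;> cases ε' <;> try rfl
        · exfalso
          simp [toGL] at h10 h11
          apply hp
          have ha : a = 0 := by
            have : 2 * a = 0 := by linear_combination -h11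
            exact (mul_eq_zero.mp this).resolve_left h2
          have hb : b = 0 := by
            have : 2 * b = 0 := by linear_combination h10
            exact (mul_eq_zero.mp this).resolve_left h2
          rw [ha, hb]; rfl
        · exfalso
          simp [toGL] at h10 h11
          apply hp
          have ha : a = 0 := by
            have : 2 * a = 0 := by linear_combination h11
            exact (mul_eq_zero.mp this).resolve_left h2
          have hb : b = 0 := by
            have : 2 * b = 0 := by linear_combination -h10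
            exact (mul_eq_zero.mp this).resolve_left h2
          rw [ha, hb]; rfl
      subst hε
      rfl
    · rintro ⟨M, hM⟩
      rw [mem_comap_iff] at hM
      have hp : (M.val 0 0, M.val 0 1) ≠ 0 := by
        intro h
        have ha : M.val 0 0 = 0 := congrArg Prod.fst h
        have hb : M.val 0 1 = 0 := congrArg Prod.snd h
        have hdet := GeneralLinearGroup.det_ne_zero M
        rw [det_fin_two, ha, hb] at hdet
        simp at hdet
      rcases hM with ⟨h1, h2'⟩ | ⟨h1, h2'⟩
      · refine ⟨(⟨_, hp⟩, true), ?_⟩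
        apply Subtype.ext
        apply Units.ext
        ext i j
        fin_cases i <;> fin_cases j <;> simp [toGL, f, h1, h2']
      · refine ⟨(⟨_, hp⟩, false), ?_⟩
        apply Subtype.ext
        apply Units.ext
        ext i j
        fin_cases i <;> fin_cases j <;> simp [toGL, f, h1, h2']
  rw [← Nat.card_congr (Equiv.ofBijective f hf), Nat.card_prod]
  simp only [Nat.card_eq_fintype_card, Fintype.card_bool]
  congr 1
  rw [Fintype.card_subtype_compl]
  simp [Fintype.card_prod, pow_two]

lemma card_center [Fintype F] :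
    Nat.card (Subgroup.center (GL (Fin 2) F)) = Fintype.card F - 1 := by
  classical
  rw [GeneralLinearGroup.center_eq_range_scalar]
  have hinj : Function.Injective (GeneralLinearGroup.scalar (Fin 2) (R := F)) := by
    intro a b h
    have h' := congrArg (fun z : GL (Fin 2) F => z.val 0 0) h
    apply Units.ext
    simpa [GeneralLinearGroup.coe_scalar, Matrix.scalar_apply] using h'
  rw [← Nat.card_congr (MonoidHom.ofInjective hinj).toEquiv]
  rw [Nat.card_eq_fintype_card, Fintype.card_units]

lemma mem_conj_centralizer {Γ : Type*} [Group Γ] (g y z : Γ) :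
    y ∈ MulAut.conj g • Subgroup.centralizer {z} ↔ Commute y (g * z * g⁻¹) := by
  rw [Subgroup.mem_pointwise_smul_iff_inv_smul_mem, Subgroup.mem_centralizer_singleton_iff]
  simp only [MulAut.smul_def, map_inv, MulAut.conj_inv_apply]
  constructor
  · intro h
    show y * (g * z * g⁻¹) = (g * z * g⁻¹) * y
    have : g * (g⁻¹ * y * g * z) * g⁻¹ = g * (z * (g⁻¹ * y * g)) * g⁻¹ := by rw [h]
    simpa [mul_assoc] using this
  · intro h
    have h' : y * (g * z * g⁻¹) = (g * z * g⁻¹) * y := h
    have : g⁻¹ * (y * (g * z * g⁻¹)) * g = g⁻¹ * ((g * z * g⁻¹) * y) * g := by rw [h']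
    simpa [mul_assoc] using this

/-- The main existence claim: two conjugates of `W` have a common nontrivial commuting element in
`PGL₂`. -/
lemma exists_common (h2 : (2 : F) ≠ 0) (hneg : ¬ IsSquare (-1 : F)) (g₁ x₁ : GL (Fin 2) F) :
    ∃ y : GL (Fin 2) F ⧸ Subgroup.center (GL (Fin 2) F), y ≠ 1 ∧
      Commute y (mkG (g₁ * W * g₁⁻¹)) ∧ Commute y (mkG ((x₁ * g₁) * W * (x₁ * g₁)⁻¹)) := by
  set A : GL (Fin 2) F := g₁ * W * g₁⁻¹ with hA
  set B : GL (Fin 2) F := (x₁ * g₁) * W * (x₁ * g₁)⁻¹ with hB
  have hW0 : trace ((W : GL (Fin 2) F) : Matrix (Fin 2) (Fin 2) F) = 0 := by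
    simp [trace_fin_two]
  have hW1 : det ((W : GL (Fin 2) F) : Matrix (Fin 2) (Fin 2) F) = 1 := by
    simp [det_fin_two]
  have trA : trace A.val = 0 := by
    rw [hA, Units.val_mul, Units.val_mul, Matrix.trace_units_conj, hW0]
  have trB : trace B.val = 0 := by
    rw [hB, Units.val_mul, Units.val_mul, Matrix.trace_units_conj, hW0]
  have detA : det A.val = 1 := by
    rw [hA, Units.val_mul, Units.val_mul, Matrix.det_units_conj, hW1]
  by_cases hY : A.val * B.val - B.val * A.val = 0
  · refine ⟨mkG A, ?_, Commute.refl _, ?_⟩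
    · intro h1
      have hc : A ∈ Subgroup.center (GL (Fin 2) F) := QuotientGroup.eq_one_iff _ |>.mp h1
      have hc' : (W : GL (Fin 2) F) ∈ Subgroup.center (GL (Fin 2) F) := by
        have := Subgroup.Normal.conj_mem (inferInstance : (Subgroup.center (GL (Fin 2) F)).Normal) A hc g₁⁻¹
        simpa [hA, mul_assoc] using this
      rw [GeneralLinearGroup.mem_center_iff_val_mem_range_scalar] at hc'
      obtain ⟨c, hc⟩ := hc'
      have h01 := congrFun (congrFun hc 0) 1
      simp [Matrix.scalar_apply] at h01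
    · rw [mk_comm_iff]
      exact ⟨1, by rw [one_smul]; exact sub_eq_zero.mp hY⟩
  · have hdet := det_ne_zero_of_ne hneg A.val B.val trA detA trB hY
    set Y : GL (Fin 2) F := GeneralLinearGroup.mkOfDetNeZero _ hdet with hYdef
    have hYval : Y.val = A.val * B.val - B.val * A.val := rfl
    refine ⟨mkG Y, ?_, ?_, ?_⟩
    · intro h1
      have hc : Y ∈ Subgroup.center (GL (Fin 2) F) := QuotientGroup.eq_one_iff _ |>.mp h1
      have hc2 := Subgroup.mem_center_iff.mp hc A
      have hc3 : A.val * Y.val = Y.val * A.val := congrArg Units.val hc2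
      rw [hYval, anti_left A.val B.val trA] at hc3
      apply hY
      have h4 : (2 : F) • (A.val * (A.val * B.val - B.val * A.val)) = 0 := by
        rw [two_smul]
        nth_rewrite 1 [hc3]
        simp
      have h5 : A.val * (A.val * B.val - B.val * A.val) = 0 := by
        exact (smul_eq_zero.mp h4).resolve_left h2
      have h6 := congrArg (fun Z => A⁻¹.val * Z) h5
      simpa using h6
    · rw [mk_comm_iff]
      exact ⟨-1, by rw [hYval]; exact anti_left A.val B.val trA⟩
    · rw [mk_comm_iff]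
      exact ⟨-1, by rw [hYval]; exact anti_right A.val B.val trB⟩

end Aux

/-- Let q = 2^k − 1 ≥ 7 be a prime and let G = PGL(2,q), the general linear group of degree 2 over the field with q elements modulo its centre. Then any two Sylow 2-subgroups of G have a non-trivial intersection: for a Sylow 2-subgroup H and every x ∈ G, H ∩ H^x ≠ 1. -/
theorem result {q k : ℕ} [Fact q.Prime] (hk : q + 1 = 2 ^ k) (hq : 7 ≤ q)
    (H : Sylow 2 (GL (Fin 2) (ZMod q) ⧸ Subgroup.center (GL (Fin 2) (ZMod q))))
    (x : GL (Fin 2) (ZMod q) ⧸ Subgroup.center (GL (Fin 2) (ZMod q))) :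
    (H : Subgroup (GL (Fin 2) (ZMod q) ⧸ Subgroup.center (GL (Fin 2) (ZMod q)))) ⊓ MulAut.conj x • (H : Subgroup _) ≠ ⊥ := by
  classical
  have hqp : q.Prime := Fact.out
  have hk3 : 3 ≤ k := by
    by_contra hlt
    push_neg at hlt
    have : 2 ^ k ≤ 2 ^ 2 := Nat.pow_le_pow_right (by norm_num) (by omega)
    omega
  obtain ⟨l, rfl⟩ : ∃ l, k = l + 3 := ⟨k - 3, by omega⟩
  have ht : 1 ≤ 2 ^ l := Nat.one_le_two_pow
  set t := 2 ^ l with ht_def
  have hq8 : q + 1 = 8 * t := by rw [hk, ht_def]; ring
  have hq4 : q % 4 = 3 := by omega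
  have hneg : ¬ IsSquare (-1 : ZMod q) := by
    rw [ZMod.exists_sq_eq_neg_one_iff]
    simpa using hq4
  have h2 : (2 : ZMod q) ≠ 0 := by
    intro h
    have : ((2 : ℕ) : ZMod q) = 0 := by exact_mod_cast h
    rw [ZMod.natCast_eq_zero_iff] at this
    have := Nat.le_of_dvd (by norm_num) this
    omega
  have cardC := card_comap h2 hneg
  have cardZ := card_center (F := ZMod q)
  have cardGL : Nat.card (GL (Fin 2) (ZMod q)) = (q ^ 2 - 1) * (q ^ 2 - q) := by
    rw [Matrix.card_GL_field, Fin.prod_univ_two]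
    simp [ZMod.card]
  rw [ZMod.card] at cardC cardZ
  have h1 : Nat.card (GL (Fin 2) (ZMod q)) =
      Nat.card (GL (Fin 2) (ZMod q) ⧸ Subgroup.center (GL (Fin 2) (ZMod q))) *
        Nat.card (Subgroup.center (GL (Fin 2) (ZMod q))) :=
    Subgroup.card_eq_card_quotient_mul_card_subgroup _
  have h3 : (C0 (ZMod q)).index * Nat.card ((C0 (ZMod q)).comap (mkG (F := ZMod q))) =
      Nat.card (GL (Fin 2) (ZMod q)) := by
    rw [← Subgroup.index_comap_of_surjective (C0 (ZMod q)) (mkG_surjective (F := ZMod q))]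
    exact Subgroup.index_mul_card _
  have h4 : (C0 (ZMod q)).index * Nat.card (C0 (ZMod q)) =
      Nat.card (GL (Fin 2) (ZMod q) ⧸ Subgroup.center (GL (Fin 2) (ZMod q))) :=
    Subgroup.index_mul_card _
  obtain ⟨u, hu⟩ : ∃ u, q = u + 1 := ⟨q - 1, by omega⟩
  have hu0 : 0 < u := by omega
  have e1 : q ^ 2 - 1 = u * (u + 2) := by
    rw [hu]
    have : (u + 1) ^ 2 = u * (u + 2) + 1 := by ring
    omega
  have e2 : q ^ 2 - q = (u + 1) * u := by
    rw [hu]
    have : (u + 1) ^ 2 = (u + 1) * u + (u + 1) := by ring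
    omega
  have e3 : q - 1 = u := by omega
  rw [e1, e2] at cardGL
  rw [e1] at cardC
  rw [e3] at cardZ
  set idx := (C0 (ZMod q)).index with hidx
  set c := Nat.card (C0 (ZMod q)) with hc
  set g' := Nat.card (GL (Fin 2) (ZMod q) ⧸ Subgroup.center (GL (Fin 2) (ZMod q))) with hg'
  rw [cardC, cardGL] at h3
  rw [cardGL, cardZ] at h1
  have h5 : idx * 2 = (u + 1) * u := by
    have hpos : 0 < u * (u + 2) := by positivity
    apply Nat.eq_of_mul_eq_mul_left hpos
    calc u * (u + 2) * (idx * 2) = idx * (u * (u + 2) * 2) := by ring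
      _ = _ := h3
  have h6 : g' = u * (u + 2) * (u + 1) := by
    apply Nat.eq_of_mul_eq_mul_right hu0
    rw [← h1]; ring
  have hidx0 : 0 < idx := by
    rcases Nat.eq_zero_or_pos idx with h0 | h0
    · rw [h0] at h5
      have : 0 < (u + 1) * u := by positivity
      omega
    · exact h0
  have h7 : c = 2 * (u + 2) := by
    apply Nat.eq_of_mul_eq_mul_left hidx0
    rw [h4, h6]
    calc u * (u + 2) * (u + 1) = ((u + 1) * u) * (u + 2) := by ring
      _ = (idx * 2) * (u + 2) := by rw [h5]
      _ = _ := by ring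
  have hcard : Nat.card (C0 (ZMod q)) = 2 ^ (l + 4) := by
    rw [← hc, h7]
    have : u + 2 = 2 ^ (l + 3) := by omega
    rw [this]; ring
  have hidx2 : ¬ 2 ∣ (C0 (ZMod q)).index := by
    rw [← hidx]
    rintro ⟨d, hd⟩
    have h8 : u = 8 * t - 2 := by omega
    obtain ⟨v, hv⟩ : ∃ v, t = v + 1 := ⟨t - 1, by omega⟩
    have h9 : u = 2 * (4 * v + 3) := by omega
    rw [hd, h9] at h5
    have h10 : 2 * d * 2 = (2 * (4 * v + 3) + 1) * (2 * (4 * v + 3)) := h5
    have h11 : 2 * d = (2 * (4 * v + 3) + 1) * (4 * v + 3) := by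
      apply Nat.eq_of_mul_eq_mul_right (by norm_num : 0 < 2)
      rw [h10]; ring
    have h12 : (2 * (4 * v + 3) + 1) * (4 * v + 3) % 2 = 1 := by
      rw [Nat.mul_mod]
      have a1 : (2 * (4 * v + 3) + 1) % 2 = 1 := by omega
      have a2 : (4 * v + 3) % 2 = 1 := by omega
      rw [a1, a2]
    omega
  haveI : Fact (Nat.Prime 2) := ⟨Nat.prime_two⟩
  have hP : IsPGroup 2 (C0 (ZMod q)) := IsPGroup.of_card hcard
  let D : Sylow 2 (GL (Fin 2) (ZMod q) ⧸ Subgroup.center (GL (Fin 2) (ZMod q))) := hP.toSylow hidx2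
  have hD : (D : Subgroup _) = C0 (ZMod q) := hP.toSylow_coe hidx2
  obtain ⟨g, hg⟩ := MulAction.exists_smul_eq (GL (Fin 2) (ZMod q) ⧸ Subgroup.center (GL (Fin 2) (ZMod q))) D H
  have hH : (H : Subgroup (GL (Fin 2) (ZMod q) ⧸ Subgroup.center (GL (Fin 2) (ZMod q)))) =
      MulAut.conj g • C0 (ZMod q) := by
    rw [← hg, Sylow.coe_subgroup_smul, hD]
  obtain ⟨g₁, rfl⟩ := mkG_surjective g
  obtain ⟨x₁, rfl⟩ := mkG_surjective x
  obtain ⟨y, hy1, hy2, hy3⟩ := exists_common h2 hneg g₁ x₁
  have hmem1 : y ∈ (H : Subgroup (GL (Fin 2) (ZMod q) ⧸ Subgroup.center (GL (Fin 2) (ZMod q)))) := by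
    rw [hH, C0, mem_conj_centralizer]
    simpa only [map_mul, map_inv] using hy2
  have hmem2 : y ∈ MulAut.conj (mkG x₁) •
      (H : Subgroup (GL (Fin 2) (ZMod q) ⧸ Subgroup.center (GL (Fin 2) (ZMod q)))) := by
    rw [hH, smul_smul, ← map_mul, C0, mem_conj_centralizer]
    simpa only [map_mul, map_inv] using hy3
  intro hbot
  have : y ∈ (H : Subgroup (GL (Fin 2) (ZMod q) ⧸ Subgroup.center (GL (Fin 2) (ZMod q)))) ⊓
      MulAut.conj (mkG x₁) • (H : Subgroup _) := ⟨hmem1, hmem2⟩
  rw [hbot] at this
  exact hy1 (Subgroup.mem_bot.mp this)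

end Cfsg.Agent.S2485
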