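import Cfsg.Statements.S2486
import Cfsg.Agent.Lib.GLUnip.Bruhat
import Mathlib

set_option autoImplicit false
open Cfsg

namespace Cfsg.Agent.S2486

open Matrix
open scoped Pointwise MatrixGroups
open Cfsg.Agent.Lib.GLUnip.Bruhat

variable {n : ℕ}

/-- The field with two elements; a nonzero element is `1`. -/
lemma zmod2_eq_one {x : ZMod 2} (h : x ≠ 0) : x = 1 := by
  revert x; decide

/-- Right multiplication by a permutation matrix. -/
lemma mul_pmMat_apply (w : Equiv.Perm (Fin n)) (g : Matrix (Fin n) (Fin n) (ZMod 2)) (i j : Fin n) :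
    (g * pmMat (ZMod 2) w) i j = g i (w j) := by
  rw [Matrix.mul_apply, Finset.sum_eq_single (w j)]
  · simp [pmMat_apply]
  · intro b _ hb
    rw [pmMat_apply, if_neg hb, mul_zero]
  · intro h
    exact absurd (Finset.mem_univ _) h

/-- Conjugation by a permutation matrix, entrywise. -/
lemma conj_pm_apply (w : Equiv.Perm (Fin n)) (g : GL (Fin n) (ZMod 2)) (a b : Fin n) :
    ((pm (ZMod 2) w * g * (pm (ZMod 2) w)⁻¹ : GL (Fin n) (ZMod 2)) : Matrix (Fin n) (Fin n) (ZMod 2)) a b =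
      (g : Matrix (Fin n) (Fin n) (ZMod 2)) (w⁻¹ a) (w⁻¹ b) := by
  rw [← map_inv]
  show (pmMat (ZMod 2) w * (g : Matrix (Fin n) (Fin n) (ZMod 2)) * pmMat (ZMod 2) w⁻¹) a b = _
  rw [mul_pmMat_apply, pmMat_mul_apply]

/-- The root element `1 + E_ij`. -/
noncomputable def rt (i j : Fin n) (h : i ≠ j) : GL (Fin n) (ZMod 2) :=
  SpecialLinearGroup.toGL (SpecialLinearGroup.transvection h (1 : ZMod 2))

lemma rt_apply (i j : Fin n) (h : i ≠ j) (a b : Fin n) :
    ((rt i j h : GL (Fin n) (ZMod 2)) : Matrix (Fin n) (Fin n) (ZMod 2)) a b =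
      (1 : Matrix (Fin n) (Fin n) (ZMod 2)) a b + if a = i ∧ b = j then 1 else 0 := by
  show (Matrix.transvection i j (1 : ZMod 2)) a b = _
  simp [Matrix.transvection, Matrix.single_apply, eq_comm]

lemma rt_ij (i j : Fin n) (h : i ≠ j) :
    ((rt i j h : GL (Fin n) (ZMod 2)) : Matrix (Fin n) (Fin n) (ZMod 2)) i j = 1 := by
  rw [rt_apply]; simp [Matrix.one_apply, h]

lemma rt_mem {i j : Fin n} (h : i < j) : rt i j h.ne ∈ upperTriangularGL n (ZMod 2) := by
  show ((rt i j h.ne : GL (Fin n) (ZMod 2)) : Matrix (Fin n) (Fin n) (ZMod 2)).BlockTriangular id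
  intro a b hab
  simp only [id] at hab
  rw [rt_apply, Matrix.one_apply, if_neg hab.ne', if_neg, add_zero]
  rintro ⟨rfl, rfl⟩
  exact lt_asymm h hab

lemma rt_ne_one (i j : Fin n) (h : i ≠ j) : rt i j h ≠ 1 := by
  intro h1
  have h2 := rt_ij i j h
  rw [h1] at h2
  simp [Matrix.one_apply, h] at h2

lemma perm_eq_one_of_strictMono (w : Equiv.Perm (Fin n)) (hmono : StrictMono w) : w = 1 := by
  have h3 : (StrictMono.orderIsoOfSurjective w hmono w.surjective) = OrderIso.refl _ :=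
    Subsingleton.elim _ _
  ext i
  have := congrArg (fun f => f i) h3
  simpa using congrArg Fin.val this

/-- If `pm w` normalizes the Borel subgroup, then `w` is strictly monotone, so `w = 1`. -/
lemma pm_normalizes (w : Equiv.Perm (Fin n))
    (hw : ∀ u ∈ upperTriangularGL n (ZMod 2), pm (ZMod 2) w * u * (pm (ZMod 2) w)⁻¹ ∈ upperTriangularGL n (ZMod 2)) :
    w = 1 := by
  have hmono : StrictMono w := by
    intro i j hij
    have h1 := hw _ (rt_mem hij)
    by_contra hc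
    have hne : w i ≠ w j := fun h => hij.ne (w.injective h)
    have hlt : w j < w i := lt_of_le_of_ne (not_lt.1 hc) hne.symm
    have h2 := h1 hlt
    rw [conj_pm_apply, show w⁻¹ (w i) = i by simp, show w⁻¹ (w j) = j by simp, rt_ij] at h2
    exact one_ne_zero h2
  exact perm_eq_one_of_strictMono w hmono

/-- Reversal of `Fin n`. -/
abbrev w0 : Equiv.Perm (Fin n) := Fin.revPerm

/-- If the Borel subgroup meets its conjugate by `pm w` trivially, then `w` is the reversal. -/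
lemma pm_opposite (w : Equiv.Perm (Fin n))
    (hw : upperTriangularGL n (ZMod 2) ⊓ MulAut.conj (pm (ZMod 2) w) • upperTriangularGL n (ZMod 2) = ⊥) :
    w = w0 := by
  have hanti : ∀ i j : Fin n, i < j → w j < w i := by
    intro i j hij
    by_contra hc
    have hne : w i ≠ w j := fun h => hij.ne (w.injective h)
    have hlt : w i < w j := lt_of_le_of_ne (not_lt.1 hc) hne
    set x := pm (ZMod 2) w * rt i j hij.ne * (pm (ZMod 2) w)⁻¹ with hx
    have hx1 : x ∈ upperTriangularGL n (ZMod 2) := by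
      show ((x : GL (Fin n) (ZMod 2)) : Matrix (Fin n) (Fin n) (ZMod 2)).BlockTriangular id
      intro a b hab
      simp only [id] at hab
      rw [hx, conj_pm_apply, rt_apply, Matrix.one_apply, if_neg, if_neg, add_zero]
      · rintro ⟨h1, h2⟩
        have h3 : a = w i := by rw [← h1]; simp
        have h4 : b = w j := by rw [← h2]; simp
        rw [h3, h4] at hab
        exact lt_asymm hab hlt
      · intro h
        exact hab.ne' (w⁻¹.injective h)
    have hx2 : x ∈ MulAut.conj (pm (ZMod 2) w) • upperTriangularGL n (ZMod 2) := by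
      rw [Subgroup.mem_pointwise_smul_iff_inv_smul_mem]
      have : (MulAut.conj (pm (ZMod 2) w))⁻¹ • x = rt i j hij.ne := by
        rw [MulAut.smul_def, MulAut.conj_inv_apply, hx]
        group
      rw [this]
      exact rt_mem hij
    have hx3 : x ∈ (⊥ : Subgroup (GL (Fin n) (ZMod 2))) := hw ▸ ⟨hx1, hx2⟩
    have hx4 : x = 1 := Subgroup.mem_bot.1 hx3
    apply rt_ne_one i j hij.ne
    rw [hx] at hx4
    have : rt i j hij.ne = (pm (ZMod 2) w)⁻¹ * (pm (ZMod 2) w * rt i j hij.ne * (pm (ZMod 2) w)⁻¹) * pm (ZMod 2) w := by group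
    rw [this, hx4]
    group
  have hmono : StrictMono (w0 * w : Equiv.Perm (Fin n)) := by
    intro i j hij
    have := hanti i j hij
    simp only [Equiv.Perm.mul_apply, Fin.revPerm_apply]
    exact Fin.rev_lt_rev.2 this
  have h3 := perm_eq_one_of_strictMono _ hmono
  ext i
  have h4 : (w0 * w : Equiv.Perm (Fin n)) i = i := by rw [h3]; rfl
  simp only [Equiv.Perm.mul_apply, Fin.revPerm_apply] at h4
  have h5 : w i = Fin.rev i := by
    calc w i = Fin.rev (Fin.rev (w i)) := (Fin.rev_rev _).symm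
      _ = Fin.rev i := by rw [h4]
  rw [h5]
  rfl

/-- Strictly upper triangular matrices are nilpotent. -/
lemma pow_strict_apply (m : Matrix (Fin n) (Fin n) (ZMod 2)) (hm : ∀ i j, j ≤ i → m i j = 0) (k : ℕ) (i j : Fin n)
    (hij : j.val < i.val + k) : (m ^ k) i j = 0 := by
  induction k generalizing j with
  | zero =>
    simp only [pow_zero, add_zero] at hij ⊢
    rw [Matrix.one_apply, if_neg]
    exact fun h => by subst h; exact lt_irrefl _ hij
  | succ k ih =>
    rw [pow_succ, Matrix.mul_apply]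
    apply Finset.sum_eq_zero
    intro l _
    by_cases hl : j ≤ l
    · rw [hm l j hl, mul_zero]
    · rw [ih l (by
        have : l.val < j.val := by simpa using not_le.1 hl
        omega), zero_mul]

lemma one_add_pow_two_pow (m : Matrix (Fin n) (Fin n) (ZMod 2)) (k : ℕ) :
    (1 + m) ^ (2 ^ k) = 1 + m ^ (2 ^ k) := by
  have hself : ∀ x : Matrix (Fin n) (Fin n) (ZMod 2), x + x = 0 := by
    intro x
    ext i j
    exact CharTwo.add_self_eq_zero _
  induction k with
  | zero => simp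
  | succ k ih =>
    rw [pow_succ 2 k, pow_mul, ih, pow_mul]
    generalize m ^ 2 ^ k = y
    have h1 : (1 + y) ^ 2 = 1 + (y + y) + y ^ 2 := by noncomm_ring
    rw [h1, hself, add_zero]

/-- The Borel subgroup over `𝔽₂` is a `2`-group. -/
lemma borel_pow (g : GL (Fin n) (ZMod 2)) (hg : g ∈ upperTriangularGL n (ZMod 2)) : g ^ (2 ^ n) = 1 := by
  have htri : (g : Matrix (Fin n) (Fin n) (ZMod 2)).BlockTriangular id := hg
  have hdet : ((g : Matrix (Fin n) (Fin n) (ZMod 2))).det ≠ 0 := by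
    have := (Matrix.isUnit_iff_isUnit_det _).1 g.isUnit
    exact this.ne_zero
  have hdiag : ∀ i, (g : Matrix (Fin n) (Fin n) (ZMod 2)) i i = 1 := by
    intro i
    apply zmod2_eq_one
    intro h0
    apply hdet
    rw [Matrix.det_of_isUpperTriangular htri]
    exact Finset.prod_eq_zero (Finset.mem_univ i) h0
  set m : Matrix (Fin n) (Fin n) (ZMod 2) := (g : Matrix (Fin n) (Fin n) (ZMod 2)) - 1 with hm
  have hm0 : ∀ i j, j ≤ i → m i j = 0 := by
    intro i j hij
    rw [hm, Matrix.sub_apply]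
    rcases eq_or_lt_of_le hij with rfl | hlt
    · rw [hdiag, Matrix.one_apply_eq, sub_self]
    · rw [Matrix.one_apply_ne hlt.ne', htri hlt, sub_zero]
  have hpow : m ^ (2 ^ n) = 0 := by
    ext i j
    show (m ^ (2 ^ n)) i j = 0
    apply pow_strict_apply m hm0
    have : n < 2 ^ n := Nat.lt_two_pow_self
    have := j.isLt
    omega
  apply Units.ext
  rw [Units.val_pow_eq_pow_val, Units.val_one]
  have h1 : (g : Matrix (Fin n) (Fin n) (ZMod 2)) = 1 + m := by rw [hm]; abel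
  rw [h1, one_add_pow_two_pow, hpow, add_zero]

/-- The Borel subgroup is self-normalizing. -/
lemma borel_selfNorm (z : GL (Fin n) (ZMod 2))
    (hz : ∀ u ∈ upperTriangularGL n (ZMod 2), z * u * z⁻¹ ∈ upperTriangularGL n (ZMod 2)) :
    z ∈ upperTriangularGL n (ZMod 2) := by
  obtain ⟨b₁, hb₁, b₂, hb₂, w, rfl⟩ := exists_bruhat z
  have hw : w = 1 := by
    apply pm_normalizes
    intro u hu
    have h1 := hz (b₂⁻¹ * u * b₂) (mul_mem (mul_mem (inv_mem hb₂) hu) hb₂)
    have h2 := mul_mem (mul_mem (inv_mem hb₁) h1) hb₁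
    have h3 : b₁⁻¹ * (b₁ * pm (ZMod 2) w * b₂ * (b₂⁻¹ * u * b₂) * (b₁ * pm (ZMod 2) w * b₂)⁻¹) * b₁ =
        pm (ZMod 2) w * u * (pm (ZMod 2) w)⁻¹ := by group
    rwa [h3] at h2
  subst hw
  rw [map_one, mul_one]
  exact mul_mem hb₁ hb₂

/-- Opposite conjugates of the Borel subgroup are all conjugate under the Borel subgroup. -/
lemma borel_opp (g : GL (Fin n) (ZMod 2))
    (hg : upperTriangularGL n (ZMod 2) ⊓ MulAut.conj g • upperTriangularGL n (ZMod 2) = ⊥) :
    ∃ b ∈ upperTriangularGL n (ZMod 2), MulAut.conj g • upperTriangularGL n (ZMod 2) =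
      MulAut.conj (b * pm (ZMod 2) w0) • upperTriangularGL n (ZMod 2) := by
  obtain ⟨b₁, hb₁, b₂, hb₂, w, rfl⟩ := exists_bruhat g
  set B := upperTriangularGL n (ZMod 2) with hB
  have hb2 : MulAut.conj b₂ • B = B := by
    ext x
    rw [Subgroup.mem_pointwise_smul_iff_inv_smul_mem, MulAut.smul_def, MulAut.conj_inv_apply]
    constructor
    · intro h
      have := mul_mem (mul_mem hb₂ h) (inv_mem hb₂)
      have e : b₂ * (b₂⁻¹ * x * b₂) * b₂⁻¹ = x := by group
      rwa [e] at this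
    · intro h
      exact mul_mem (mul_mem (inv_mem hb₂) h) hb₂
  have hsm : MulAut.conj (b₁ * pm (ZMod 2) w * b₂) • B = MulAut.conj (b₁ * pm (ZMod 2) w) • B := by
    rw [map_mul, mul_smul, hb2]
  rw [hsm] at hg ⊢
  refine ⟨b₁, hb₁, ?_⟩
  have hw : w = w0 := by
    apply pm_opposite
    rw [eq_bot_iff] at hg ⊢
    intro x hx
    obtain ⟨hxa, h2⟩ := Subgroup.mem_inf.1 hx
    have hx1 : b₁ * x * b₁⁻¹ ∈ B ⊓ MulAut.conj (b₁ * pm (ZMod 2) w) • B := by
      refine Subgroup.mem_inf.2 ⟨mul_mem (mul_mem hb₁ hxa) (inv_mem hb₁), ?_⟩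
      rw [Subgroup.mem_pointwise_smul_iff_inv_smul_mem, MulAut.smul_def, MulAut.conj_inv_apply] at h2 ⊢
      have e : (b₁ * pm (ZMod 2) w)⁻¹ * (b₁ * x * b₁⁻¹) * (b₁ * pm (ZMod 2) w) =
          (pm (ZMod 2) w)⁻¹ * x * pm (ZMod 2) w := by group
      rwa [e]
    have hx2 := hg hx1
    rw [Subgroup.mem_bot] at hx2 ⊢
    have e : x = b₁⁻¹ * (b₁ * x * b₁⁻¹) * b₁ := by group
    rw [e, hx2]
    group
  rw [hw]

/-- The Borel subgroup is a Sylow `2`-subgroup. -/
lemma borel_isPGroup : IsPGroup 2 (upperTriangularGL n (ZMod 2)) := by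
  intro g
  exact ⟨n, Subtype.ext (borel_pow g.1 g.2)⟩

lemma exists_sylow_borel :
    ∃ S : Sylow 2 (GL (Fin n) (ZMod 2)), (S : Subgroup (GL (Fin n) (ZMod 2))) = upperTriangularGL n (ZMod 2) := by
  haveI : Fact (Nat.Prime 2) := ⟨Nat.prime_two⟩
  obtain ⟨S, hS⟩ := (borel_isPGroup (n := n)).exists_le_sylow
  refine ⟨S, le_antisymm ?_ hS⟩
  by_contra hne
  have hlt : ((upperTriangularGL n (ZMod 2)).subgroupOf (S : Subgroup (GL (Fin n) (ZMod 2)))) ≠ ⊤ := by
    intro htop
    exact hne (Subgroup.subgroupOf_eq_top.1 htop)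
  haveI hnil : Group.IsNilpotent (S : Subgroup (GL (Fin n) (ZMod 2))) := S.isPGroup'.isNilpotent
  have h1 := Group.normalizerCondition_of_isNilpotent (G := (S : Subgroup (GL (Fin n) (ZMod 2)))) _
    (lt_top_iff_ne_top.2 hlt)
  obtain ⟨z, hz, hz2⟩ := SetLike.exists_of_lt h1
  apply hz2
  refine Subgroup.mem_subgroupOf.2 (borel_selfNorm z.1 ?_)
  intro u hu
  have h2 := (Subgroup.mem_normalizer_iff.1 hz ⟨u, hS hu⟩).1 (Subgroup.mem_subgroupOf.2 hu)
  exact Subgroup.mem_subgroupOf.1 h2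

lemma cj_mul {Γ : Type*} [Group Γ] (g h : Γ) (Q : Subgroup Γ) :
    MulAut.conj (g * h) • Q = MulAut.conj g • (MulAut.conj h • Q) := by
  rw [map_mul, mul_smul]

lemma mem_cj {Γ : Type*} [Group Γ] (g x : Γ) (Q : Subgroup Γ) :
    x ∈ MulAut.conj g • Q ↔ g⁻¹ * x * g ∈ Q := by
  rw [Subgroup.mem_pointwise_smul_iff_inv_smul_mem, MulAut.smul_def, MulAut.conj_inv_apply]

lemma cj_inf_bot {Γ : Type*} [Group Γ] (g : Γ) {A C : Subgroup Γ} (h : A ⊓ C = ⊥) :
    MulAut.conj g • A ⊓ MulAut.conj g • C = ⊥ := by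
  rw [← Subgroup.smul_inf, h, Subgroup.smul_bot]

lemma cj_inv_cj {Γ : Type*} [Group Γ] (g : Γ) (Q : Subgroup Γ) :
    MulAut.conj g⁻¹ • (MulAut.conj g • Q) = Q := by
  rw [← cj_mul, inv_mul_cancel, map_one, one_smul]

lemma card_cj {Γ : Type*} [Group Γ] (g : Γ) (Q : Subgroup Γ) :
    Nat.card (MulAut.conj g • Q : Subgroup Γ) = Nat.card Q := by
  rw [Subgroup.pointwise_smul_def]
  exact Subgroup.card_map_of_injective (MulAction.injective (MulAut.conj g))

/-- A subgroup of the order of the Borel subgroup is conjugate to it. -/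
lemma exists_conj_borel (Q : Subgroup (GL (Fin n) (ZMod 2)))
    (hQ : Nat.card Q = Nat.card (upperTriangularGL n (ZMod 2))) :
    ∃ g : GL (Fin n) (ZMod 2), Q = MulAut.conj g • upperTriangularGL n (ZMod 2) := by
  haveI : Fact (Nat.Prime 2) := ⟨Nat.prime_two⟩
  obtain ⟨S, hS⟩ := exists_sylow_borel (n := n)
  have h1 : Nat.card Q = 2 ^ (Nat.card (GL (Fin n) (ZMod 2))).factorization 2 := by
    rw [hQ, ← hS]
    exact S.card_eq_multiplicity
  let S' : Sylow 2 (GL (Fin n) (ZMod 2)) := Sylow.ofCard Q h1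
  obtain ⟨g, hg⟩ := MulAction.exists_smul_eq (GL (Fin n) (ZMod 2)) S S'
  refine ⟨g, ?_⟩
  have h2 : ((g • S : Sylow 2 (GL (Fin n) (ZMod 2))) : Subgroup (GL (Fin n) (ZMod 2))) = Q := by
    rw [hg]; rfl
  rw [Sylow.smul_def, Sylow.pointwise_smul_def, hS] at h2
  exact h2.symm

/-- Every subgroup of the right order is self-normalizing. -/
lemma selfNorm_general (Q : Subgroup (GL (Fin n) (ZMod 2)))
    (hQ : Nat.card Q = Nat.card (upperTriangularGL n (ZMod 2))) (z : GL (Fin n) (ZMod 2))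
    (hz : ∀ u ∈ Q, z * u * z⁻¹ ∈ Q) : z ∈ Q := by
  obtain ⟨c, rfl⟩ := exists_conj_borel Q hQ
  rw [mem_cj]
  apply borel_selfNorm
  intro u hu
  have h1 : c * u * c⁻¹ ∈ MulAut.conj c • upperTriangularGL n (ZMod 2) := by
    rw [mem_cj]
    have e : c⁻¹ * (c * u * c⁻¹) * c = u := by group
    rwa [e]
  have h2 := hz _ h1
  rw [mem_cj] at h2
  have e : c⁻¹ * (z * (c * u * c⁻¹) * z⁻¹) * c = c⁻¹ * z * c * u * (c⁻¹ * z * c)⁻¹ := by group
  rwa [e] at h2

/-- Opposite subgroups are permuted transitively. -/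
lemma opp_general (Q₀ Q Q' : Subgroup (GL (Fin n) (ZMod 2)))
    (h₀ : Nat.card Q₀ = Nat.card (upperTriangularGL n (ZMod 2)))
    (h₁ : Nat.card Q = Nat.card (upperTriangularGL n (ZMod 2)))
    (h₂ : Nat.card Q' = Nat.card (upperTriangularGL n (ZMod 2)))
    (hQ : Q₀ ⊓ Q = ⊥) (hQ' : Q₀ ⊓ Q' = ⊥) : ∃ v ∈ Q₀, Q' = MulAut.conj v • Q := by
  obtain ⟨c, rfl⟩ := exists_conj_borel Q₀ h₀
  obtain ⟨d, rfl⟩ := exists_conj_borel Q h₁
  obtain ⟨d', rfl⟩ := exists_conj_borel Q' h₂
  set B := upperTriangularGL n (ZMod 2) with hB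
  have e1 : B ⊓ MulAut.conj (c⁻¹ * d) • B = ⊥ := by
    have := cj_inf_bot c⁻¹ hQ
    rwa [cj_inv_cj, ← cj_mul] at this
  have e2 : B ⊓ MulAut.conj (c⁻¹ * d') • B = ⊥ := by
    have := cj_inf_bot c⁻¹ hQ'
    rwa [cj_inv_cj, ← cj_mul] at this
  obtain ⟨b, hb, hb1⟩ := borel_opp _ e1
  obtain ⟨b', hb', hb1'⟩ := borel_opp _ e2
  refine ⟨c * (b' * b⁻¹) * c⁻¹, ?_, ?_⟩
  · rw [mem_cj]
    have e : c⁻¹ * (c * (b' * b⁻¹) * c⁻¹) * c = b' * b⁻¹ := by group
    rw [e]
    exact mul_mem hb' (inv_mem hb)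
  · have e3 : MulAut.conj d • B = MulAut.conj c • MulAut.conj (c⁻¹ * d) • B := by
      rw [← cj_mul]; congr 2; group
    have e4 : MulAut.conj d' • B = MulAut.conj c • MulAut.conj (c⁻¹ * d') • B := by
      rw [← cj_mul]; congr 2; group
    rw [e3, e4, hb1, hb1', ← cj_mul, ← cj_mul, ← cj_mul]
    congr 2
    group

section Main

variable {G : Type*} [Group G] [Finite G]

/-- The group-theoretic core of the argument. -/
theorem core (N : Subgroup G) [hN : N.Normal] (hidx : N.index = 2)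
    (φ : GL (Fin n) (ZMod 2) →* G) (hφ : Function.Injective φ) (hr : φ.range = N)
    (H : Sylow 2 G) (x : G) :
    (H : Subgroup G) ⊓ MulAut.conj x • (H : Subgroup G) ≠ ⊥ := by
  intro hbot
  haveI : Fact (Nat.Prime 2) := ⟨Nat.prime_two⟩
  -- `H` is not contained in `N`
  have hodd : ¬ 2 ∣ (H : Subgroup G).index := H.not_dvd_index
  have hHN : ¬ (H : Subgroup G) ≤ N := by
    intro hle
    apply hodd
    rw [← Subgroup.relIndex_mul_index hle, hidx]
    exact Dvd.intro_left _ rfl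
  obtain ⟨τ, hτH, hτN⟩ := SetLike.not_le_iff_exists.1 hHN
  set U : Subgroup G := (H : Subgroup G) ⊓ N with hU
  have hUH : U ≤ H := inf_le_left
  have hUN : U ≤ N := inf_le_right
  -- `τ` normalizes `U`
  have hτU : ∀ u ∈ U, τ * u * τ⁻¹ ∈ U := fun u hu =>
    Subgroup.mem_inf.2 ⟨mul_mem (mul_mem hτH (hUH hu)) (inv_mem hτH), hN.conj_mem _ (hUN hu) _⟩
  have hτU' : ∀ u ∈ U, τ⁻¹ * u * τ ∈ U := fun u hu =>
    Subgroup.mem_inf.2 ⟨mul_mem (mul_mem (inv_mem hτH) (hUH hu)) hτH, by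
      have := hN.conj_mem _ (hUN hu) τ⁻¹
      simpa using this⟩
  -- the conjugates
  set P : Subgroup G := MulAut.conj x • U with hP
  set Pτ : Subgroup G := MulAut.conj (τ * x) • U with hPτ
  have hPN : P ≤ N := by
    intro y hy
    rw [hP, mem_cj] at hy
    have := hN.conj_mem _ (hUN hy) x
    have e : x * (x⁻¹ * y * x) * x⁻¹ = y := by group
    rwa [e] at this
  have hPτN : Pτ ≤ N := by
    intro y hy
    rw [hPτ, mem_cj] at hy
    have := hN.conj_mem _ (hUN hy) (τ * x)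
    have e : (τ * x) * ((τ * x)⁻¹ * y * (τ * x)) * (τ * x)⁻¹ = y := by group
    rwa [e] at this
  have hbotUP : U ⊓ P = ⊥ := by
    rw [eq_bot_iff, ← hbot]
    refine inf_le_inf hUH ?_
    intro y hy
    rw [hP, mem_cj] at hy
    rw [mem_cj]
    exact hUH hy
  have hPτ2 : Pτ = MulAut.conj τ • P := by rw [hPτ, hP, cj_mul]
  have hUτ : MulAut.conj τ • U = U := by
    ext y
    rw [mem_cj]
    constructor
    · intro h
      have := hτU _ h
      have e : τ * (τ⁻¹ * y * τ) * τ⁻¹ = y := by group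
      rwa [e] at this
    · exact hτU' y
  have hbotUPτ : U ⊓ Pτ = ⊥ := by
    have := cj_inf_bot τ hbotUP
    rwa [hUτ, ← hPτ2] at this
  -- pull back to `GL`
  have hle : ∀ {A : Subgroup G}, A ≤ N → Nat.card (A.comap φ) = Nat.card A := by
    intro A hA
    have h1 := Subgroup.card_map_of_injective (K := A.comap φ) (f := φ) hφ
    rw [Subgroup.map_comap_eq_self (by rwa [hr])] at h1
    exact h1.symm
  have hmem : ∀ {A : Subgroup G} (g : GL (Fin n) (ZMod 2)), g ∈ A.comap φ ↔ φ g ∈ A := fun g => Iff.rfl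
  -- the order of `U`
  have hcardU : Nat.card (U.comap φ) = Nat.card (upperTriangularGL n (ZMod 2)) := by
    have hpg : IsPGroup 2 (U.comap φ) :=
      IsPGroup.comap_of_injective (H.isPGroup'.to_le hUH) φ hφ
    have hidx2 : ¬ 2 ∣ (U.comap φ).index := by
      rw [Subgroup.index_comap, hr]
      have h1 : (H : Subgroup G) ⊓ N ≤ H := inf_le_left
      have h2 : (H : Subgroup G) ⊓ N ≤ N := inf_le_right
      have h3 := Subgroup.relIndex_mul_index h1
      have h4 := Subgroup.relIndex_mul_index h2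
      have h5 : ((H : Subgroup G) ⊓ N).relIndex H = N.relIndex H := Subgroup.inf_relIndex_left _ _
      have h6 : N.relIndex H ∣ N.index := Subgroup.relIndex_dvd_index_of_normal _ _
      rw [hidx] at h6
      have h7 : N.relIndex H ≠ 1 := fun h => hHN (Subgroup.relIndex_eq_one.1 h)
      have h8 : N.relIndex H = 2 := by
        rcases (Nat.dvd_prime Nat.prime_two).1 h6 with h | h
        · exact absurd h h7
        · exact h
      rw [h5, h8] at h3
      rw [hidx] at h4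
      have h9 : U.relIndex N = (H : Subgroup G).index := by
        rw [hU]; omega
      rw [h9]
      exact hodd
    let S' : Sylow 2 (GL (Fin n) (ZMod 2)) := hpg.toSylow hidx2
    obtain ⟨S, hS⟩ := exists_sylow_borel (n := n)
    have h1 := S'.card_eq_multiplicity
    have h2 := S.card_eq_multiplicity
    rw [hS] at h2
    rw [h2, ← h1]
    rfl
  have hcP : Nat.card (P.comap φ) = Nat.card (upperTriangularGL n (ZMod 2)) := by
    rw [hle hPN, hP, card_cj, ← hle hUN]; exact hcardU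
  have hcPτ : Nat.card (Pτ.comap φ) = Nat.card (upperTriangularGL n (ZMod 2)) := by
    rw [hle hPτN, hPτ, card_cj, ← hle hUN]; exact hcardU
  have hkb : (⊥ : Subgroup G).comap φ = ⊥ := by
    rw [MonoidHom.comap_bot]; exact (MonoidHom.ker_eq_bot_iff φ).2 hφ
  have hb1 : U.comap φ ⊓ P.comap φ = ⊥ := by rw [← Subgroup.comap_inf, hbotUP, hkb]
  have hb2 : U.comap φ ⊓ Pτ.comap φ = ⊥ := by rw [← Subgroup.comap_inf, hbotUPτ, hkb]
  obtain ⟨v', hv', hvP⟩ := opp_general _ _ _ hcardU hcP hcPτ hb1 hb2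
  set v := φ v' with hv
  have hvU : v ∈ U := hv'
  have hvN : v ∈ N := hUN hvU
  -- `v⁻¹ τ` normalizes `P`
  have hnorm : ∀ y ∈ P, (v⁻¹ * τ) * y * (v⁻¹ * τ)⁻¹ ∈ P := by
    intro y hy
    have h1 : τ * y * τ⁻¹ ∈ Pτ := by
      rw [hPτ2, mem_cj]
      have e : τ⁻¹ * (τ * y * τ⁻¹) * τ = y := by group
      rwa [e]
    have h2 : τ * y * τ⁻¹ ∈ φ.range := by rw [hr]; exact hPτN h1
    obtain ⟨w', hw'⟩ := h2
    have h3 : w' ∈ Pτ.comap φ := by
      show φ w' ∈ Pτ
      rw [hw']; exact h1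
    rw [hvP, mem_cj] at h3
    have h4 : φ (v'⁻¹ * w' * v') ∈ P := h3
    rw [map_mul, map_mul, map_inv, hw', ← hv] at h4
    have e : (v⁻¹ * τ) * y * (v⁻¹ * τ)⁻¹ = v⁻¹ * (τ * y * τ⁻¹) * v := by group
    rwa [e]
  set g := v⁻¹ * τ with hg
  have hgH : g ∈ (H : Subgroup G) := mul_mem (inv_mem (hUH hvU)) hτH
  have hgN : g ∉ N := by
    intro h
    apply hτN
    have e : τ = v * g := by rw [hg]; group
    rw [e]
    exact mul_mem hvN h
  set τ' := x * τ * x⁻¹ with hτ'
  have hτ'N : τ' ∉ N := by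
    intro h
    apply hτN
    have := hN.conj_mem _ h x⁻¹
    have e : x⁻¹ * τ' * x⁻¹⁻¹ = τ := by rw [hτ']; group
    rwa [e] at this
  have hτ'P : ∀ y ∈ P, τ'⁻¹ * y * τ' ∈ P := by
    intro y hy
    rw [hP, mem_cj] at hy ⊢
    have := hτU' _ hy
    have e : x⁻¹ * (τ'⁻¹ * y * τ') * x = τ⁻¹ * (x⁻¹ * y * x) * τ := by rw [hτ']; group
    rwa [e]
  have hw : g * τ'⁻¹ ∈ N :=
    (Subgroup.mul_mem_iff_of_index_two hidx).2 (iff_of_false hgN (fun h => hτ'N (by simpa using inv_mem h)))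
  have hw2 : g * τ'⁻¹ ∈ φ.range := by rw [hr]; exact hw
  obtain ⟨w', hw'⟩ := hw2
  have hw'P : w' ∈ P.comap φ := by
    apply selfNorm_general _ hcP
    intro u hu
    show φ (w' * u * w'⁻¹) ∈ P
    rw [map_mul, map_mul, map_inv, hw']
    have h1 := hτ'P _ hu
    have h2 := hnorm _ h1
    have e : (g * τ'⁻¹) * φ u * (g * τ'⁻¹)⁻¹ = g * (τ'⁻¹ * φ u * τ') * g⁻¹ := by group
    rwa [e]
  have hw'U : g * τ'⁻¹ ∈ P := by rw [← hw']; exact hw'P
  have hgx : g ∈ MulAut.conj x • (H : Subgroup G) := by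
    rw [mem_cj]
    rw [hP, mem_cj] at hw'U
    have e : x⁻¹ * g * x = (x⁻¹ * (g * τ'⁻¹) * x) * τ := by rw [hτ']; group
    rw [e]
    exact mul_mem (hUH hw'U) hτH
  have hg1 : g ∈ (H : Subgroup G) ⊓ MulAut.conj x • (H : Subgroup G) := Subgroup.mem_inf.2 ⟨hgH, hgx⟩
  rw [hbot, Subgroup.mem_bot] at hg1
  exact hgN (by rw [hg1]; exact one_mem _)

end Main

/-- Over `𝔽₂`, the special linear and general linear groups coincide. -/
noncomputable def slToGL : SpecialLinearGroup (Fin n) (ZMod 2) ≃* GL (Fin n) (ZMod 2) :=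
  MulEquiv.ofBijective SpecialLinearGroup.toGL ⟨SpecialLinearGroup.toGL_injective, fun g => by
    have hdet : ((g : Matrix (Fin n) (Fin n) (ZMod 2))).det = 1 := by
      apply zmod2_eq_one
      exact ((Matrix.isUnit_iff_isUnit_det _).1 g.isUnit).ne_zero
    exact ⟨⟨g.val, hdet⟩, Units.ext rfl⟩⟩

/-- Let n ≥ 4 and let G be a finite group with a normal subgroup N of index 2 isomorphic to SL(n,2) and with trivial centralizer in G (so G is the extension of the simple group L_n(2) by its inverse-transpose automorphism, its full automorphism group). Then any two Sylow 2-subgroups of G have a non-trivial intersection: for a Sylow 2-subgroup H and every x ∈ G, H ∩ H^x ≠ 1. -/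
theorem result {G : Type*} [Group G] [Finite G] {n : ℕ} (hn : 4 ≤ n) (N : Subgroup G) [N.Normal]
    (e : N ≃* Matrix.SpecialLinearGroup (Fin n) (ZMod 2)) (hidx : N.index = 2)
    (hC : Subgroup.centralizer (N : Set G) = ⊥)
    (H : Sylow 2 G) (x : G) :
    (H : Subgroup G) ⊓ MulAut.conj x • (H : Subgroup G) ≠ ⊥ := by
  let φ : GL (Fin n) (ZMod 2) →* G := N.subtype.comp ((e.trans slToGL).symm.toMonoidHom)
  have hφ : Function.Injective φ := N.subtype_injective.comp (MulEquiv.injective _)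
  have hr : φ.range = N := by
    ext y
    constructor
    · rintro ⟨z, rfl⟩
      exact ((e.trans slToGL).symm z).2
    · intro hy
      exact ⟨(e.trans slToGL) ⟨y, hy⟩, by simp [φ]⟩
  exact core N hidx φ hφ hr H x

end Cfsg.Agent.S2486
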