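import Cfsg.Statements.S2487
import Mathlib
import Cfsg.Agent.Lib.Classical.Orth.SylowInter
import Cfsg.Agent.Lib.Classical.Orth.Models
import Cfsg.Agent.Lib.Classical.Orth.Classes
-- import your own Cfsg.Agent.* helpers here

set_option autoImplicit false
open scoped Pointwise
open Cfsg

namespace Cfsg.Agent.S2487

/-- Let m ≥ 4 and let G be the full isometry group of the hyperbolic quadratic form x₁y₁ + ⋯ + x_m y_m on the 2m-dimensional space over the field with 2 elements (the orthogonal group O⁺(2m,2), which contains Ω⁺(2m,2) with index 2). Then any two Sylow 2-subgroups of G have a non-trivial intersection: for a Sylow 2-subgroup H and every x ∈ G, H ∩ H^x ≠ 1. -/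
theorem result {F : Type*} [Field F] [Fintype F] (hF : Fintype.card F = 2) {m : ℕ} (hm : 4 ≤ m)
    (H : Sylow 2 (Cfsg.isometryGroup F (Cfsg.quadFormPlus m F)))
    (x : Cfsg.isometryGroup F (Cfsg.quadFormPlus m F)) :
    (H : Subgroup (Cfsg.isometryGroup F (Cfsg.quadFormPlus m F))) ⊓ MulAut.conj x • (H : Subgroup _) ≠ ⊥ := by
  revert H x
  rw [← Cfsg.Agent.Lib.Classical.Orth.Models.coe_plusForm m F]
  intro H x
  have hne : Cfsg.Agent.Lib.Classical.Orth.Classes.U₀ m F ≠ ⊥ := by
    intro h
    have h1 := Cfsg.Agent.Lib.Classical.Orth.Classes.finrank_U₀ (F := F) m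
    rw [h, finrank_bot] at h1
    omega
  exact Cfsg.Agent.Lib.Classical.Orth.SylowInter.sylow_inter_ne_bot
    (Cfsg.Agent.Lib.Classical.Orth.Models.plusForm_nondegenerate m) hF
    (Cfsg.Agent.Lib.Classical.Orth.Classes.isTS_U₀ m)
    (by rw [Cfsg.Agent.Lib.Classical.Orth.Classes.finrank_U₀, Fintype.card_sum, Fintype.card_fin]; ring)
    hne H x

end Cfsg.Agent.S2487
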