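import Cfsg.Statements.S2488
import Mathlib
import Cfsg.Agent.Lib.PGroup.Basic
import Cfsg.Agent.Lib.Perm.A6Inv

set_option autoImplicit false
open scoped Pointwise
open Cfsg

namespace Cfsg.Agent.S2488

open Equiv Cfsg.Agent.Lib.Perm.A6Inv

theorem card_le_filter {α β : Type*} [Finite α] [Fintype β] (P : β → Prop) [DecidablePred P]
    (f : α → β) (hinj : Function.Injective f) (hP : ∀ a, P (f a)) :
    Nat.card α ≤ (Finset.univ.filter P).card := by
  have h : Nat.card α ≤ Nat.card (Finset.univ.filter P) :=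
    Nat.card_le_card_of_injective (fun a => (⟨f a, by simp [hP a]⟩ : Finset.univ.filter P))
      (fun a b hab => hinj (congrArg Subtype.val hab))
  have h2 : Nat.card ↥(Finset.univ.filter P) = (Finset.univ.filter P).card := by
    rw [Nat.card_eq_fintype_card, Fintype.card_coe]
  rwa [h2] at h

/-- Let G be a finite group with a normal subgroup N of index 4 isomorphic to the alternating group of degree 6 and with trivial centralizer in G (so G is the full automorphism group of A₆). Then any two Sylow 2-subgroups of G have a non-trivial intersection: for a Sylow 2-subgroup H and every x ∈ G, H ∩ H^x ≠ 1. -/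
theorem result {G : Type*} [Group G] [Finite G] (N : Subgroup G) [N.Normal]
    (e : N ≃* alternatingGroup (Fin 6)) (hidx : N.index = 4)
    (hC : Subgroup.centralizer (N : Set G) = ⊥)
    (H : Sylow 2 G) (x : G) :
    (H : Subgroup G) ⊓ MulAut.conj x • (H : Subgroup G) ≠ ⊥ := by
  classical
  -- orders
  have hcardN : Nat.card N = 360 := by
    rw [Nat.card_congr e.toEquiv]
    have h2 := two_mul_nat_card_alternatingGroup (α := Fin 6)
    have h3 : Nat.card (Perm (Fin 6)) = 720 := by
      rw [Nat.card_perm]; simp; decide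
    omega
  have hcardG : Nat.card G = 1440 := by
    have := Subgroup.card_mul_index N
    rw [hcardN, hidx] at this
    omega
  have h32 : 32 ∣ Nat.card (H : Subgroup G) := by
    have := Sylow.pow_dvd_card_of_pow_dvd_card H (n := 5) (by rw [hcardG]; norm_num)
    simpa using this
  have hHpos : 0 < Nat.card (H : Subgroup G) := Nat.card_pos
  have hH32 : 32 ≤ Nat.card (H : Subgroup G) := Nat.le_of_dvd hHpos h32
  -- a central involution of `H` in `N`
  let K : Subgroup (H : Subgroup G) := N.subgroupOf (H : Subgroup G)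
  haveI hKn : K.Normal := Subgroup.Normal.subgroupOf inferInstance _
  have hKidx : K.index ≤ 4 := by
    have h1 : N.relIndex (H : Subgroup G) ∣ N.index := Subgroup.relIndex_dvd_index_of_normal N _
    rw [hidx] at h1
    exact Nat.le_of_dvd (by norm_num) h1
  have hKne : K ≠ ⊥ := by
    intro h
    have h1 := Subgroup.card_mul_index K
    rw [h, Subgroup.card_bot, ← h] at h1
    omega
  have hp2 : IsPGroup 2 (H : Subgroup G) := H.isPGroup'
  have hinf := Cfsg.Agent.Lib.PGroup.Basic.inf_center_ne_bot hp2 hKne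
  obtain ⟨z₁, hz₁mem, hz₁ne⟩ := (Subgroup.bot_or_exists_ne_one _).resolve_left hinf
  -- an involution
  have hz₁ord : ∃ k, orderOf z₁ = 2 ^ k := by
    have := (IsPGroup.iff_orderOf.mp hp2) z₁
    exact this
  obtain ⟨k, hk⟩ := hz₁ord
  have hk0 : k ≠ 0 := by
    rintro rfl
    apply hz₁ne
    rw [pow_zero, orderOf_eq_one_iff] at hk
    exact hk
  have hdvd : 2 ∣ orderOf z₁ := by
    rw [hk]; exact dvd_pow_self 2 hk0
  let zH : (H : Subgroup G) := z₁ ^ (orderOf z₁ / 2)
  have hzHord : orderOf zH = 2 := orderOf_pow_orderOf_div (orderOf_pos z₁).ne' hdvd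
  have hzHmem : zH ∈ K ⊓ Subgroup.center (H : Subgroup G) := Subgroup.pow_mem _ hz₁mem _
  let z : G := zH
  have hzord : orderOf z = 2 := by
    rw [← hzHord]; exact Subgroup.orderOf_coe zH
  have hzH : z ∈ (H : Subgroup G) := zH.2
  have hzN : z ∈ N := hzHmem.1
  have hzcen : ∀ h ∈ (H : Subgroup G), h * z = z * h := by
    intro h hh
    have := Subgroup.mem_center_iff.mp hzHmem.2 ⟨h, hh⟩
    exact congrArg Subtype.val this
  -- the embedding
  have hz1 : z ≠ 1 := by
    intro h; rw [h, orderOf_one] at hzord; omega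
  have hzz : z * z = 1 := by
    have := pow_orderOf_eq_one z
    rw [hzord, pow_two] at this
    exact this
  let zt : alternatingGroup (Fin 6) := e ⟨z, hzN⟩
  have hzt1 : (zt : Perm (Fin 6)) * zt = 1 := by
    have : zt * zt = 1 := by
      show e ⟨z, hzN⟩ * e ⟨z, hzN⟩ = 1
      rw [← map_mul, ← map_one e]
      congr 1
      exact Subtype.ext hzz
    exact congrArg Subtype.val this
  have hzt2 : (zt : Perm (Fin 6)) ≠ 1 := by
    intro h
    have : zt = 1 := Subtype.ext h
    have h2 : (⟨z, hzN⟩ : N) = 1 := e.injective (by rw [map_one]; exact this)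
    exact hz1 (congrArg Subtype.val h2)
  have hzt3 : Perm.sign (zt : Perm (Fin 6)) = 1 := Equiv.Perm.mem_alternatingGroup.mp zt.2
  obtain ⟨c, hc⟩ := chk1 _ hzt1 hzt2 hzt3
  let ψ : N →* Perm (Fin 6) :=
    { toFun := fun n => c⁻¹ * (e n : Perm (Fin 6)) * c
      map_one' := by simp
      map_mul' := by
        intro a b
        simp only [map_mul, Subgroup.coe_mul]
        group }
  have hψinj : Function.Injective ψ := by
    intro a b hab
    have h1 : c⁻¹ * (e a : Perm (Fin 6)) * c = c⁻¹ * (e b : Perm (Fin 6)) * c := hab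
    have h2 : (e a : Perm (Fin 6)) = e b := by
      simpa using h1
    exact e.injective (Subtype.ext h2)
  have hψsign : ∀ n, Perm.sign (ψ n) = 1 := by
    intro n
    have h1 : Perm.sign (e n : Perm (Fin 6)) = 1 := Equiv.Perm.mem_alternatingGroup.mp (e n).2
    show Perm.sign (c⁻¹ * (e n : Perm (Fin 6)) * c) = 1
    rw [Perm.sign_mul, Perm.sign_mul, h1, Perm.sign_inv]
    rw [mul_one]
    exact Int.units_mul_self _
  have hψz : ψ ⟨z, hzN⟩ = zz := by
    show c⁻¹ * (zt : Perm (Fin 6)) * c = zz
    rw [← hc]; group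
  -- centraliser
  let C : Subgroup G := Subgroup.centralizer ({z} : Set G)
  have hHC : (H : Subgroup G) ≤ C := by
    intro h hh
    rw [Subgroup.mem_centralizer_singleton_iff]
    exact hzcen h hh
  let L : Subgroup C := N.subgroupOf C
  have hLidx : L.index ≤ 4 := by
    have h1 : N.relIndex C ∣ N.index := Subgroup.relIndex_dvd_index_of_normal N _
    rw [hidx] at h1
    exact Nat.le_of_dvd (by norm_num) h1
  have hLcard : Nat.card L ≤ 8 := by
    rw [← chk2]
    refine card_le_filter _ (fun l : L => ψ ⟨l.1.1, l.2⟩) ?_ ?_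
    · intro a b hab
      have := hψinj hab
      have h2 : (a.1.1 : G) = b.1.1 := congrArg (fun n : N => (n : G)) this
      exact Subtype.ext (Subtype.ext h2)
    · intro l
      refine ⟨?_, hψsign _⟩
      show ψ ⟨l.1.1, l.2⟩ * zz = zz * ψ ⟨l.1.1, l.2⟩
      rw [← hψz, ← map_mul, ← map_mul]
      congr 1
      apply Subtype.ext
      exact Subgroup.mem_centralizer_singleton_iff.mp l.1.2
  have hCcard : Nat.card C ≤ 32 := by
    have := Subgroup.card_mul_index L
    rw [← this]
    exact Nat.mul_le_mul hLcard hLidx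
  have hHeqC : (H : Subgroup G) = C := Subgroup.eq_of_le_of_card_ge hHC (hCcard.trans hH32)
  -- the orbit
  intro hinter
  let z' : G := x * z * x⁻¹
  have hz'N : z' ∈ N := Subgroup.Normal.conj_mem inferInstance z hzN x
  have hz'z' : z' * z' = 1 := by
    show x * z * x⁻¹ * (x * z * x⁻¹) = 1
    have : x * z * x⁻¹ * (x * z * x⁻¹) = x * (z * z) * x⁻¹ := by group
    rw [this, hzz]; group
  have hconjN : ∀ h : G, h * z' * h⁻¹ ∈ N := fun h => Subgroup.Normal.conj_mem inferInstance z' hz'N h
  let a : N := ⟨z * z', N.mul_mem hzN hz'N⟩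
  have key : ∀ t : ℕ, (Finset.univ.filter (fun w : Perm (Fin 6) => w * w = 1 ∧ (zz * w) ^ t = 1 ∧ Perm.sign w = 1)).card < 32 →
      (ψ a) ^ t = 1 → False := by
    intro t hchk ht
    have hat : (z * z') ^ t = 1 := by
      have h1 : ψ (a ^ t) = 1 := by rw [map_pow]; exact ht
      have h2 : a ^ t = 1 := hψinj (by rw [h1, map_one])
      exact congrArg Subtype.val h2
    have hle : Nat.card (H : Subgroup G) ≤ _ := card_le_filter
      (fun w : Perm (Fin 6) => w * w = 1 ∧ (zz * w) ^ t = 1 ∧ Perm.sign w = 1)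
      (fun h : (H : Subgroup G) => ψ ⟨h * z' * (h : G)⁻¹, hconjN h⟩) ?_ ?_
    · omega
    · intro h k hhk
      have h1 := hψinj hhk
      have h2 : (h : G) * z' * (h : G)⁻¹ = k * z' * (k : G)⁻¹ := congrArg Subtype.val h1
      -- `k⁻¹ h` centralises `z'`
      have h3 : x⁻¹ * ((k : G)⁻¹ * h) * x ∈ C := by
        rw [Subgroup.mem_centralizer_singleton_iff]
        have h4 : ((k : G)⁻¹ * h) * z' = z' * ((k : G)⁻¹ * h) := by
          have h5 : (h : G) * z' = k * z' * (k : G)⁻¹ * h := by
            rw [← h2]; group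
          calc ((k : G)⁻¹ * h) * z' = (k : G)⁻¹ * ((h : G) * z') := by group
            _ = z' * ((k : G)⁻¹ * h) := by rw [h5]; group
        have h6 : x⁻¹ * ((k : G)⁻¹ * h) * x * z = x⁻¹ * (((k : G)⁻¹ * h) * z') * x := by
          show _ = x⁻¹ * (((k : G)⁻¹ * h) * (x * z * x⁻¹)) * x
          group
        rw [h6, h4]
        show x⁻¹ * ((x * z * x⁻¹) * ((k : G)⁻¹ * h)) * x = _
        group
      rw [← hHeqC] at h3
      have h7 : (k : G)⁻¹ * h ∈ (H : Subgroup G) ⊓ MulAut.conj x • (H : Subgroup G) := by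
        refine ⟨(H : Subgroup G).mul_mem ((H : Subgroup G).inv_mem k.2) h.2, ?_⟩
        show _ ∈ MulAut.conj x • (H : Subgroup G)
        rw [Subgroup.mem_pointwise_smul_iff_inv_smul_mem]
        have : (MulAut.conj x)⁻¹ • ((k : G)⁻¹ * h) = x⁻¹ * ((k : G)⁻¹ * h) * x := by
          simp [MulAut.smul_def]
          group
        rw [this]; exact h3
      rw [hinter, Subgroup.mem_bot] at h7
      have h8 : (h : G) = k := by
        have := h7
        rw [inv_mul_eq_one] at this
        exact this.symm
      exact Subtype.ext h8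
    · intro h
      have hh := h.2
      refine ⟨?_, ?_, hψsign _⟩
      · rw [← map_mul]
        have : (⟨h * z' * (h : G)⁻¹, hconjN h⟩ : N) * ⟨h * z' * (h : G)⁻¹, hconjN h⟩ = 1 := by
          apply Subtype.ext
          show (h : G) * z' * (h : G)⁻¹ * ((h : G) * z' * (h : G)⁻¹) = 1
          have h1 : (h : G) * z' * (h : G)⁻¹ * ((h : G) * z' * (h : G)⁻¹) = h * (z' * z') * (h : G)⁻¹ := by group
          rw [h1, hz'z']; group
        rw [this, map_one]
      · rw [← hψz, ← map_mul, ← map_pow]
        have : ((⟨z, hzN⟩ : N) * ⟨h * z' * (h : G)⁻¹, hconjN h⟩) ^ t = 1 := by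
          apply Subtype.ext
          show (z * ((h : G) * z' * (h : G)⁻¹)) ^ t = 1
          have h1 : z * ((h : G) * z' * (h : G)⁻¹) = h * (z * z') * (h : G)⁻¹ := by
            have h2 := hzcen h h.2
            calc z * ((h : G) * z' * (h : G)⁻¹) = (z * h) * z' * (h : G)⁻¹ := by group
              _ = (h * z) * z' * (h : G)⁻¹ := by rw [h2]
              _ = _ := by group
          rw [h1, conj_pow, hat]; group
        rw [this, map_one]
  rcases chk6 (ψ a) with h | h | h | h
  · exact key 3 chk3 h
  · exact key 4 chk4 h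
  · exact key 5 chk5 h
  · exact h (hψsign a)

end Cfsg.Agent.S2488
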