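import Cfsg.Statements.S2493
import Mathlib
import Cfsg.Agent.Lib.Classical.Herm.SpinLift

set_option autoImplicit false
open Cfsg

namespace Cfsg.Agent.S2493

/-- Let n ≥ 5 and let G be a finite perfect group whose centre has order 2 with G/Z(G) isomorphic to the alternating group of degree n (the double cover of the alternating group). Then every element of G is a commutator. -/
theorem result {G : Type*} [Group G] [Finite G] (hperf : commutator G = ⊤) {n : ℕ} (hn : 5 ≤ n)
    (hZ : Nat.card (Subgroup.center G) = 2) (e : G ⧸ Subgroup.center G ≃* alternatingGroup (Fin n))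
    (g : G) :
    ∃ a b : G, a * b * a⁻¹ * b⁻¹ = g := by
  classical
  obtain ⟨z, hz1, hzu⟩ := (Nat.card_eq_two_iff' (1 : Subgroup.center G)).1 hZ
  have hzc : ∀ w : G, w ∈ Subgroup.center G → w = 1 ∨ w = (z : G) := by
    intro w hw
    by_cases h : (⟨w, hw⟩ : Subgroup.center G) = 1
    · left
      exact congrArg Subtype.val h
    · right
      exact congrArg Subtype.val (hzu _ h)
  have hz1' : (z : G) ≠ 1 := fun h => hz1 (Subtype.ext h)
  have hzmem : (z : G) ∈ Subgroup.center G := z.2
  have hzz : (z : G) * z = 1 := by
    rcases hzc _ (Subgroup.mul_mem _ hzmem hzmem) with h | h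
    · exact h
    · exact absurd (mul_eq_right.1 h) hz1'
  let q : G →* Equiv.Perm (Fin n) := (alternatingGroup (Fin n)).subtype.comp
    (e.toMonoidHom.comp (QuotientGroup.mk' (Subgroup.center G)))
  have hq : ∀ w, q w = ((e (w : G ⧸ Subgroup.center G) : alternatingGroup (Fin n)) : Equiv.Perm (Fin n)) :=
    fun w => rfl
  let D : Cfsg.Agent.Lib.Classical.Herm.SpinLift.DC G n :=
    { p := q
      z := z
      hz := hz1'
      hz2 := hzz
      hzc := fun w => ((Subgroup.mem_center_iff.1 hzmem) w).symm
      hker := by
        intro w
        constructor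
        · intro h
          have h1 : e (w : G ⧸ Subgroup.center G) = 1 := Subtype.ext h
          have h2 : (w : G ⧸ Subgroup.center G) = 1 := by
            rw [← map_one e] at h1
            exact e.injective h1
          exact hzc w ((QuotientGroup.eq_one_iff w).1 h2)
        · intro h
          have hw : w ∈ Subgroup.center G := by
            rcases h with rfl | rfl
            · exact Subgroup.one_mem _
            · exact hzmem
          have h2 : (w : G ⧸ Subgroup.center G) = 1 := (QuotientGroup.eq_one_iff w).2 hw
          rw [hq, h2, map_one]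
          rfl
      hrange := by
        intro σ hσ
        obtain ⟨w, hw⟩ := QuotientGroup.mk_surjective (e.symm ⟨σ, Equiv.Perm.mem_alternatingGroup.2 hσ⟩)
        refine ⟨w, ?_⟩
        rw [hq, hw]
        simp
      hsign := fun w => Equiv.Perm.mem_alternatingGroup.1 (e (w : G ⧸ Subgroup.center G)).2 }
  exact D.all_commutators hn hperf g

end Cfsg.Agent.S2493
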