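import Cfsg.Statements.S2495
import Mathlib
import Cfsg.Agent.Lib.Classical.Herm.HalfTorus

set_option autoImplicit false
open Cfsg
open Cfsg.Agent.Lib.Classical.Herm.HalfTorus Cfsg.Agent.Lib.Classical.Herm.PGRoots
open Cfsg.Agent.Lib.Classical.Herm.PGLinear

namespace Cfsg.Agent.S2495

/-- Let q be an odd prime power, n ≥ 4 even, and L = PSL(n,q). Then L has an element of order q^(n/2) + 1 if and only if the 2-part of n exceeds the 2-part of q − 1. -/
theorem result {F : Type*} [Field F] [Fintype F] {q : ℕ} (hF : Fintype.card F = q) (hodd : Odd q)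
    {n : ℕ} (hn : 4 ≤ n) (heven : Even n) :
    (∃ g : Matrix.ProjectiveSpecialLinearGroup (Fin n) F, orderOf g = q ^ (n / 2) + 1) ↔
      padicValNat 2 (q - 1) < padicValNat 2 n := by
  classical
  subst hF
  obtain ⟨a, ha⟩ := heven
  obtain rfl : n = 2 * a := by omega
  have ha2 : 2 ≤ a := by omega
  have hdiv : 2 * a / 2 = a := Nat.mul_div_cancel_left a (by norm_num)
  rw [hdiv]
  set q := Fintype.card F with hq
  have hq1 : 1 < q := Fintype.one_lt_card
  have hq3 : 3 ≤ q := by
    rcases hodd with ⟨c, hc⟩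
    omega
  set x : ℤ := (q : ℤ) with hx
  have hx1 : x - 1 ≠ 0 := by
    rw [hx]
    omega
  have hN1 : (x - 1).natAbs = q - 1 := by
    rw [hx]
    omega
  have hN2 : x ^ a + 1 = ((q ^ a + 1 : ℕ) : ℤ) := by
    rw [hx]
    push_cast
    ring
  have hpos : 1 ≤ q ^ (2 * a) := Nat.one_le_pow _ _ (by omega)
  have hbig : 1 < q ^ (2 * a) := Nat.one_lt_pow (by omega) hq1
  have hN3 : x ^ (2 * a) - 1 = ((q ^ (2 * a) - 1 : ℕ) : ℤ) := by
    rw [hx, Nat.cast_sub hpos]
    push_cast
    ring
  have hN20 : x ^ a + 1 ≠ 0 := by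
    rw [hN2]
    have h0 : ((q ^ a + 1 : ℕ) : ℤ) ≠ 0 := by exact_mod_cast Nat.succ_ne_zero (q ^ a)
    exact h0
  have hgeo : ∀ m, m ≠ 0 → geo x m ≠ 0 := by
    intro m hm h
    have h1 := geo_mul x m
    rw [h, zero_mul, eq_comm, sub_eq_zero] at h1
    have h2 : q ^ m = 1 := by
      rw [hx] at h1
      exact_mod_cast h1
    have h3 : 1 < q ^ m := Nat.one_lt_pow hm hq1
    omega
  constructor
  · rintro ⟨g, hg⟩
    obtain ⟨y, rfl⟩ := QuotientGroup.mk_surjective g
    obtain ⟨r, hrp, hrN, hrq, hrord⟩ := Cfsg.Agent.Lib.Classical.Spectra.Ppd.exists_ppd_even ha2 hq3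
    haveI hr' : Fact r.Prime := ⟨hrp⟩
    let p := ringChar F
    haveI hp' : Fact p.Prime := ⟨CharP.char_is_prime F p⟩
    haveI : CharP F p := ringChar.charP F
    have hpq : p ∣ q := by
      obtain ⟨f, -, hf⟩ := FiniteField.card F p
      rw [hq, hf]
      exact dvd_pow_self _ f.ne_zero
    have hrp' : r ≠ p := by
      rintro h
      rw [h] at hrq
      exact hrq hpq
    set A : Matrix (Fin (2 * a)) (Fin (2 * a)) F := (y : Matrix (Fin (2 * a)) (Fin (2 * a)) F) with hA
    have hdvdN : ∀ t, (∃ c : F, A ^ t = c • (1 : Matrix (Fin (2 * a)) (Fin (2 * a)) F)) → q ^ a + 1 ∣ t := by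
      intro t ht
      have := (psl_pow_eq_one_iff y t).2 ht
      rw [← hg]
      exact orderOf_dvd_of_pow_eq_one this
    have hAord : A ^ orderOf y = 1 := by
      rw [hA, ← Matrix.SpecialLinearGroup.coe_pow, pow_orderOf_eq_one]
      rfl
    obtain ⟨y0, hy0, hy0r⟩ := exists_root_of_dvd p (A := A) (r := r) hrp'
      (orderOf_pos y).ne' hAord (fun o' ho' => hrN.trans (hdvdN o' ⟨1, by simpa using ho'⟩))
    have hy00 : y0 ≠ 0 := by
      rintro rfl
      have h1 : A ^ orderOf y = (1 : F) • (1 : Matrix (Fin (2 * a)) (Fin (2 * a)) F) := by simp [hAord]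
      have h2 := root_pow hy0 h1
      rw [zero_pow (orderOf_pos y).ne', map_one] at h2
      exact zero_ne_one h2
    set u : (AlgebraicClosure F)ˣ := Units.mk0 y0 hy00 with hu
    have huo : r ∣ orderOf u := by
      rw [← orderOf_units (y := u)]
      exact hy0r
    have hroot : ∀ v : (AlgebraicClosure F)ˣ, (chi A).IsRoot (v : AlgebraicClosure F) →
        (chi A).IsRoot ((v ^ x : (AlgebraicClosure F)ˣ) : AlgebraicClosure F) := by
      intro v hv
      rw [hx, zpow_natCast, Units.val_pow_eq_pow_val]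
      exact frob_root hv
    have hxr : ((x : ℤ) : ZMod r) = (q : ZMod r) := by
      rw [hx]
      simp
    have hx0 : ((x : ℤ) : ZMod r) ≠ 0 := by
      rw [hxr]
      intro h
      exact hrq ((ZMod.natCast_eq_zero_iff _ _).1 h)
    have hord : orderOf ((x : ℤ) : ZMod r) = Fintype.card (Fin (2 * a)) := by
      rw [hxr, Fintype.card_fin]
      exact order_eq_of_iff' _ _ hrord
    have key := key_general (A := A) hroot (u := u) hy0 huo hx0 hord
    have hdet1 : A.det = 1 := y.2
    have hG := key.1 hdet1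
    rw [Fintype.card_fin] at hG
    have harith := group_arith u (G := geo x (2 * a)) (D := x - 1) hG (N := q ^ a + 1) (by
      intro t ht
      rcases Nat.eq_zero_or_pos t with rfl | ht0
      · simp
      · exact hdvdN t (key.2 t ht0 ht)) (hgeo _ (by omega))
    have hNabs : (x ^ a + 1).natAbs = q ^ a + 1 := by
      rw [hN2]
      exact Int.natAbs_natCast _
    have hres := forward_arith hx1 (a := a) (by omega) hN20 (by rw [hNabs]; exact harith)
    rwa [hN1] at hres
  · intro h
    rw [← hN1] at h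
    obtain ⟨s, hs⟩ := backward_arith hx1 (a := a) (by omega) hN20 (hgeo _ (by omega)) h
    obtain ⟨W, hW1, hW2⟩ := exists_singer (F := F) (2 * a) (by omega)
    refine psl_of_singer_power (by omega) hbig hW1 hW2 (s := s) (fun k => ?_)
    have := hs k
    rw [hN1, hN3, Int.natAbs_natCast, hN2, Int.natAbs_natCast] at this
    exact this

end Cfsg.Agent.S2495
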