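import Cfsg.Statements.S2496
import Mathlib
import Cfsg.Agent.Lib.Classical.Herm.HalfTorus

set_option autoImplicit false
open Cfsg
open Cfsg.Agent.Lib.Classical.Herm.HalfTorus Cfsg.Agent.Lib.Classical.Herm.PGRoots
open Cfsg.Agent.Lib.Classical.Herm.PGUnitary Cfsg.Agent.Lib.Classical.Herm.SU
open Cfsg.Agent.Lib.Classical.Herm.Basic

namespace Cfsg.Agent.S2496

theorem zmod2_aux : ∀ z : ZMod 2, z ≠ 0 → z = 1 := by decide

theorem exists_ppd_neg {a q : ℕ} (ha2 : 2 ≤ a) (hq3 : 3 ≤ q) :
    ∃ r, r.Prime ∧ r ∣ (if Even a then q ^ a + 1 else q ^ a - 1) ∧ ¬ r ∣ q ∧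
      ∀ t, (-(q : ZMod r)) ^ t = 1 ↔ 2 * a ∣ t := by
  by_cases he : Even a
  · obtain ⟨r, hr, hrN, hrq, hord⟩ := Cfsg.Agent.Lib.Classical.Spectra.Ppd.exists_ppd_even ha2 hq3
    refine ⟨r, hr, by rwa [if_pos he], hrq, fun t => ?_⟩
    constructor
    · intro h
      have h1 : (q : ZMod r) ^ (2 * t) = 1 := by
        rw [pow_mul, ← neg_sq, ← pow_mul, mul_comm, pow_mul, h, one_pow]
      have h2 := (hord _).1 h1
      have h3 : a ∣ t := Nat.dvd_of_mul_dvd_mul_left two_pos h2
      obtain ⟨c, rfl⟩ := h3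
      rw [pow_mul, he.neg_pow, ← pow_mul] at h
      exact (hord _).1 h
    · rintro ⟨c, rfl⟩
      have h1 : (-(q : ZMod r)) ^ (2 * a * c) = (q : ZMod r) ^ (2 * a * c) := by
        rw [mul_assoc, pow_mul, neg_sq, ← pow_mul]
      rw [h1]
      exact (hord _).2 ⟨c, rfl⟩
  · have hao : Odd a := Nat.not_even_iff_odd.1 he
    have ha3 : 3 ≤ a := by
      rcases hao with ⟨c, hc⟩
      omega
    obtain ⟨r, hr, hprim⟩ := Cfsg.Agent.Lib.Classical.Spectra.Ppd.exists_ppd (m := a) (by omega) hq3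
    haveI : Fact r.Prime := ⟨hr⟩
    have hq1 : (q : ZMod r) ^ a = 1 := hprim.pow_eq_one
    have hq0 : (q : ZMod r) ≠ 0 := by
      intro h
      rw [h, zero_pow (by omega)] at hq1
      exact zero_ne_one hq1
    have hr2 : r ≠ 2 := by
      rintro rfl
      have h1 : (q : ZMod 2) = 1 := zmod2_aux _ hq0
      have h2 := hprim.dvd_of_pow_eq_one 1 (by rw [h1, one_pow])
      have h3 := Nat.dvd_one.1 h2
      omega
    have hr3 : 2 < r := by
      have := hr.two_le
      omega
    haveI : Fact (2 < r) := ⟨hr3⟩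
    refine ⟨r, hr, ?_, ?_, fun t => ?_⟩
    · rw [if_neg he, ← ZMod.natCast_eq_zero_iff, Nat.cast_sub (Nat.one_le_pow _ _ (by omega))]
      push_cast
      rw [hq1, sub_self]
    · intro h
      exact hq0 ((ZMod.natCast_eq_zero_iff _ _).2 h)
    · constructor
      · intro h
        have h1 : (q : ZMod r) ^ (2 * t) = 1 := by
          rw [pow_mul, ← neg_sq, ← pow_mul, mul_comm, pow_mul, h, one_pow]
        have h2 := hprim.dvd_of_pow_eq_one _ h1
        have h3 : a ∣ t := (Nat.coprime_two_right.2 hao).dvd_of_dvd_mul_left h2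
        obtain ⟨c, rfl⟩ := h3
        rw [pow_mul, hao.neg_pow, hq1] at h
        have h4 : Even c := (neg_one_pow_eq_one_iff_even ZMod.neg_one_ne_one).1 h
        obtain ⟨c', rfl⟩ := h4
        exact ⟨c', by ring⟩
      · rintro ⟨c, rfl⟩
        rw [mul_assoc, pow_mul, neg_sq, ← pow_mul, mul_left_comm, pow_mul, hq1, one_pow]

/-- Let q be an odd prime power, n ≥ 4 even, and U = PSU(n,q) (realised over the field with q² elements). Then U has an element of order q^(n/2) + (−1)^(n/2) — that is, q^(n/2) + 1 when n/2 is even and q^(n/2) − 1 when n/2 is odd — if and only if the 2-part of n exceeds the 2-part of q + 1. -/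
theorem result {F : Type*} [Field F] [Fintype F] {q : ℕ} (hF : Fintype.card F = q ^ 2) (hodd : Odd q)
    {n : ℕ} (hn : 4 ≤ n) (heven : Even n) :
    (∃ g : Cfsg.PSU n F q, orderOf g = if Even (n / 2) then q ^ (n / 2) + 1 else q ^ (n / 2) - 1) ↔
      padicValNat 2 (q + 1) < padicValNat 2 n := by
  classical
  obtain ⟨a, ha⟩ := heven
  obtain rfl : n = 2 * a := by omega
  have ha2 : 2 ≤ a := by omega
  have hdiv : 2 * a / 2 = a := Nat.mul_div_cancel_left a (by norm_num)
  rw [hdiv]
  have hq2 := two_le_q hF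
  have hq3 : 3 ≤ q := by
    rcases hodd with ⟨c, hc⟩
    omega
  set x : ℤ := -(q : ℤ) with hx
  have hx1 : x - 1 ≠ 0 := by
    rw [hx]
    omega
  have hN1 : (x - 1).natAbs = q + 1 := by
    rw [hx]
    omega
  have hxabs : x.natAbs = q := by
    rw [hx]
    simp
  have hpos : 1 ≤ q ^ (2 * a) := Nat.one_le_pow _ _ (by omega)
  have hbig : 1 < q ^ (2 * a) := Nat.one_lt_pow (by omega) (by omega)
  have hqa : 1 < q ^ a := Nat.one_lt_pow (by omega) (by omega)
  have hN3 : x ^ (2 * a) - 1 = ((q ^ (2 * a) - 1 : ℕ) : ℤ) := by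
    rw [hx, Nat.cast_sub hpos, pow_mul, neg_sq]
    push_cast
    rw [pow_mul]
  set N : ℕ := if Even a then q ^ a + 1 else q ^ a - 1 with hN
  have hNabs : (x ^ a + 1).natAbs = N := by
    by_cases he : Even a
    · rw [hN, if_pos he, hx, he.neg_pow]
      have h0 : (q : ℤ) ^ a + 1 = ((q ^ a + 1 : ℕ) : ℤ) := by push_cast; ring
      rw [h0, Int.natAbs_natCast]
    · have hao : Odd a := Nat.not_even_iff_odd.1 he
      rw [hN, if_neg he, hx, hao.neg_pow]
      have h0 : -(q : ℤ) ^ a + 1 = -((q ^ a - 1 : ℕ) : ℤ) := by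
        rw [Nat.cast_sub (by omega)]
        push_cast
        ring
      rw [h0, Int.natAbs_neg, Int.natAbs_natCast]
  have hN0 : N ≠ 0 := by
    rw [hN]
    split_ifs <;> omega
  have hN20 : x ^ a + 1 ≠ 0 := by
    intro h
    rw [h] at hNabs
    simp at hNabs
    omega
  have hgeo : ∀ m, m ≠ 0 → geo x m ≠ 0 := by
    intro m hm h
    have h1 := geo_mul x m
    rw [h, zero_mul, eq_comm, sub_eq_zero] at h1
    have h2 := congrArg Int.natAbs h1
    rw [Int.natAbs_pow, hxabs] at h2
    have h3 : 1 < q ^ m := Nat.one_lt_pow hm (by omega)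
    simp at h2
    omega
  have hcardq : Fintype.card F ^ a = q ^ (2 * a) := by
    rw [hF, pow_mul]
  constructor
  · rintro ⟨g, hg⟩
    obtain ⟨y, rfl⟩ := QuotientGroup.mk_surjective g
    obtain ⟨r, hrp, hrN, hrq, hrord⟩ := exists_ppd_neg (q := q) ha2 hq3
    haveI hr' : Fact r.Prime := ⟨hrp⟩
    let p := ringChar F
    haveI hp' : Fact p.Prime := ⟨CharP.char_is_prime F p⟩
    haveI : CharP F p := ringChar.charP F
    obtain ⟨k, hk⟩ := exists_pow_eq p hF
    have hpq : p ∣ q := by
      rw [hk]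
      apply dvd_pow_self
      rintro rfl
      simp at hk
      omega
    have hrp' : r ≠ p := by
      rintro h
      rw [h] at hrq
      exact hrq hpq
    set A : Matrix (Fin (2 * a)) (Fin (2 * a)) F :=
      ((y : Matrix.SpecialLinearGroup (Fin (2 * a)) F) : Matrix (Fin (2 * a)) (Fin (2 * a)) F) with hA
    have hdvdN : ∀ t, (∃ c : F, A ^ t = c • (1 : Matrix (Fin (2 * a)) (Fin (2 * a)) F)) → N ∣ t := by
      intro t ht
      have := (Cfsg.Agent.Lib.Classical.Herm.SU3Witness.mk_pow_eq_one_iff hF y t).2 ht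
      rw [← hg]
      exact orderOf_dvd_of_pow_eq_one this
    have hAord : A ^ orderOf y = 1 := congrArg (fun B : Cfsg.SU (2 * a) F q =>
      ((B : Matrix.SpecialLinearGroup (Fin (2 * a)) F) : Matrix (Fin (2 * a)) (Fin (2 * a)) F)) (pow_orderOf_eq_one y)
    obtain ⟨y0, hy0, hy0r⟩ := exists_root_of_dvd p (A := A) (r := r) hrp'
      (orderOf_pos y).ne' hAord (fun o' ho' => hrN.trans (hdvdN o' ⟨1, by simpa using ho'⟩))
    have hy00 : y0 ≠ 0 := by
      rintro rfl
      have h1 : A ^ orderOf y = (1 : F) • (1 : Matrix (Fin (2 * a)) (Fin (2 * a)) F) := by simp [hAord]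
      have h2 := root_pow hy0 h1
      rw [zero_pow (orderOf_pos y).ne', map_one] at h2
      exact zero_ne_one h2
    set u : (AlgebraicClosure F)ˣ := Units.mk0 y0 hy00 with hu
    have huo : r ∣ orderOf u := by
      rw [← orderOf_units (y := u)]
      exact hy0r
    have hroot : ∀ v : (AlgebraicClosure F)ˣ, (chi A).IsRoot (v : AlgebraicClosure F) →
        (chi A).IsRoot ((v ^ x : (AlgebraicClosure F)ˣ) : AlgebraicClosure F) := by
      intro v hv
      have h1 : (chi A).rootMultiplicity (v : AlgebraicClosure F) ≤ (chi A).rootMultiplicity ((v : AlgebraicClosure F) ^ q)⁻¹ :=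
        mult_sig hF (preserves_su y) (μ := (v : AlgebraicClosure F)) v.ne_zero
      have h2 : 1 ≤ (chi A).rootMultiplicity (v : AlgebraicClosure F) := one_le_mult hv
      have h3 : ((v ^ x : (AlgebraicClosure F)ˣ) : AlgebraicClosure F) = ((v : AlgebraicClosure F) ^ q)⁻¹ := by
        rw [hx, _root_.zpow_neg, zpow_natCast]
        simp
      rw [h3]
      exact (Polynomial.rootMultiplicity_pos (chi_ne_zero A)).1 (by omega)
    have hxr : ((x : ℤ) : ZMod r) = -(q : ZMod r) := by
      rw [hx]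
      simp
    have hx0 : ((x : ℤ) : ZMod r) ≠ 0 := by
      rw [hxr, neg_ne_zero]
      intro h
      exact hrq ((ZMod.natCast_eq_zero_iff _ _).1 h)
    have hord : orderOf ((x : ℤ) : ZMod r) = Fintype.card (Fin (2 * a)) := by
      rw [hxr, Fintype.card_fin]
      exact Cfsg.Agent.Lib.Classical.Herm.PGLinear.order_eq_of_iff' _ _ hrord
    have key := key_general (A := A) hroot (u := u) hy0 huo hx0 hord
    have hdet1 : A.det = 1 := (y : Matrix.SpecialLinearGroup (Fin (2 * a)) F).2
    have hG := key.1 hdet1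
    rw [Fintype.card_fin] at hG
    have harith := group_arith u (G := geo x (2 * a)) (D := x - 1) hG (N := N) (by
      intro t ht
      rcases Nat.eq_zero_or_pos t with rfl | ht0
      · simp
      · exact hdvdN t (key.2 t ht0 ht)) (hgeo _ (by omega))
    have hres := forward_arith hx1 (a := a) (by omega) hN20 (by rw [hNabs]; exact harith)
    rwa [hN1] at hres
  · intro h
    rw [← hN1] at h
    obtain ⟨s, hs⟩ := backward_arith hx1 (a := a) (by omega) hN20 (hgeo _ (by omega)) h
    obtain ⟨W, hW1, hW2⟩ := exists_singer (F := F) a (by omega)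
    have hW0 : W.det ≠ 0 := by
      intro h0
      have h1 := congrArg Matrix.det hW1
      rw [Matrix.det_pow, h0, zero_pow (by rw [hcardq]; omega), Matrix.det_one] at h1
      exact zero_ne_one h1
    have hq21 : q ^ 2 - 1 + 1 = q ^ 2 := Nat.sub_add_cancel (Nat.one_le_pow _ _ (by omega))
    have hW3 : W.det ^ (q ^ 2 - 1) = 1 := by
      rw [← hF]
      exact FiniteField.pow_card_sub_one_eq_one _ hW0
    have hd : q + 1 ∣ Fintype.card F - 1 := by
      rw [hF]
      refine ⟨q - 1, ?_⟩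
      obtain ⟨r, rfl⟩ : ∃ r, q = r + 1 := ⟨q - 1, by omega⟩
      simp only [Nat.add_sub_cancel]
      have : (r + 1) ^ 2 = (r + 1 + 1) * r + 1 := by ring
      omega
    refine Cfsg.Agent.Lib.Classical.Herm.HalfTorus.exists_order_of_levi hF (a := a) (by omega)
      (W ^ ((q + 1) * s)) ?_ ?_ N ?_
    · rw [Matrix.det_pow]
      exact pow_ne_zero _ hW0
    · rw [Matrix.det_pow, ← pow_mul]
      have h1 : (q + 1) * s * q = (q ^ 2 - 1) * s + (q + 1) * s := by
        have h2 : (q + 1) * q = (q ^ 2 - 1) + (q + 1) := by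
          have : (q + 1) * q = q ^ 2 + q := by ring
          omega
        calc (q + 1) * s * q = ((q + 1) * q) * s := by ring
          _ = _ := by rw [h2]; ring
      rw [h1, pow_add, pow_mul, hW3, one_pow, one_mul]
    · intro k
      have h1 := hs k
      rw [hN1, hN3, Int.natAbs_natCast, hNabs] at h1
      rw [← h1, ← hcardq, ← hW2 _ hd]
      constructor
      · rintro ⟨c, hc, hc1⟩
        refine ⟨c, ?_, hc1⟩
        rw [← hc, ← pow_mul]
      · rintro ⟨c, hc, hc1⟩
        refine ⟨c, ?_, hc1⟩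
        rw [← hc, ← pow_mul]

end Cfsg.Agent.S2496
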