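import Cfsg.Statements.S2503
import Cfsg.Agent.Lib.PSL2.Nonsplit
import Cfsg.Agent.Lib.PSL2.SylowU
import Mathlib

set_option autoImplicit false
open Cfsg

namespace Cfsg.Agent.S2503

open Cfsg.Agent.Lib.PSL2.Basic Cfsg.Agent.Lib.PSL2.Nonsplit Cfsg.Agent.Lib.PSL2.SylowU
open scoped MatrixGroups

section Aux

variable {F : Type*} [Field F] {E : Type*} [Field E] [Algebra F E] (b : Module.Basis (Fin 2) F E)

/-- The norm form in coordinates. -/
lemma norm_coords (u v : F) : Algebra.norm F (u • b 0 + v • b 1) =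
    (L b (b 0)).det * u ^ 2 +
      ((L b (b 0)) 0 0 * (L b (b 1)) 1 1 + (L b (b 1)) 0 0 * (L b (b 0)) 1 1 -
        (L b (b 0)) 0 1 * (L b (b 1)) 1 0 - (L b (b 1)) 0 1 * (L b (b 0)) 1 0) * (u * v) +
      (L b (b 1)).det * v ^ 2 := by
  rw [← det_L b, map_add, map_smul, map_smul, Matrix.det_fin_two, Matrix.det_fin_two, Matrix.det_fin_two]
  simp only [Matrix.add_apply, Matrix.smul_apply, smul_eq_mul]
  ring

lemma ne_zero_of_coords {u v : F} (h : u ≠ 0 ∨ v ≠ 0) : u • b 0 + v • b 1 ≠ 0 := by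
  intro h0
  have := b.linearIndependent
  rw [Fintype.linearIndependent_iff] at this
  have h1 := this ![u, v] (by simpa [Fin.sum_univ_two] using h0)
  rcases h with h | h
  · exact h (by simpa using h1 0)
  · exact h (by simpa using h1 1)

lemma repr_add (u v : F) (i : Fin 2) : b.repr (u • b 0 + v • b 1) i = ![u, v] i := by
  fin_cases i <;> simp

end Aux

section Main

variable {F : Type*} [Field F] [Fintype F] {E : Type*} [Field E] [Algebra F E]
  (b : Module.Basis (Fin 2) F E)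

/-- In characteristic 2, for every `g` in `SL(2, F)` there are norm-one `x, y` in the quadratic
extension with `g * L x` and `L y` sharing the first column. -/
theorem exists_norm_one (h2 : (2 : F) = 0) (g : SL(2, F)) :
    ∃ x y : E, Algebra.norm F x = 1 ∧ Algebra.norm F y = 1 ∧
      g.1 0 0 * (L b x) 0 0 + g.1 0 1 * (L b x) 1 0 = (L b y) 0 0 ∧
      g.1 1 0 * (L b x) 0 0 + g.1 1 1 * (L b x) 1 0 = (L b y) 1 0 := by
  have hrc : ringChar F = 2 := by
    rw [ringChar.eq_iff]
    exact CharTwo.of_one_ne_zero_of_two_eq_zero one_ne_zero h2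
  have hsq : ∀ a : F, ∃ r : F, r ^ 2 = a := by
    intro a
    obtain ⟨r, hr⟩ := FiniteField.isSquare_of_char_two hrc a
    exact ⟨r, by rw [hr, sq]⟩
  have hb0 : b 0 ≠ 0 := b.ne_zero 0
  haveI : Module.Finite F E := Module.Finite.of_basis b
  set A := (L b (b 0)).det with hA
  set C := (L b (b 1)).det with hC
  set B := (L b (b 0)) 0 0 * (L b (b 1)) 1 1 + (L b (b 1)) 0 0 * (L b (b 0)) 1 1 -
        (L b (b 0)) 0 1 * (L b (b 1)) 1 0 - (L b (b 1)) 0 1 * (L b (b 0)) 1 0 with hB
  have hN : ∀ u v : F, Algebra.norm F (u • b 0 + v • b 1) = A * u ^ 2 + B * (u * v) + C * v ^ 2 :=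
    fun u v => norm_coords b u v
  set a00 := g.1 0 0
  set a01 := g.1 0 1
  set a10 := g.1 1 0
  set a11 := g.1 1 1
  have hdet : a00 * a11 - a01 * a10 = 1 := det_entries g
  have hneg : ∀ a : F, a + a = 0 := fun a => by rw [← two_mul, h2, zero_mul]
  -- choose the vector
  obtain ⟨u, v, huv, hNg⟩ : ∃ u v : F, (u ≠ 0 ∨ v ≠ 0) ∧
      Algebra.norm F ((a00 * u + a01 * v) • b 0 + (a10 * u + a11 * v) • b 1) =
        Algebra.norm F (u • b 0 + v • b 1) := by
    obtain ⟨s, hs⟩ := hsq (A * a00 ^ 2 + B * a00 * a10 + C * a10 ^ 2 - A)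
    obtain ⟨r, hr⟩ := hsq (A * a01 ^ 2 + B * a01 * a11 + C * a11 ^ 2 - C)
    have hk : ∀ u v : F, (A * a00 ^ 2 + B * a00 * a10 + C * a10 ^ 2 - A) * u ^ 2 + 
        (A * a01 ^ 2 + B * a01 * a11 + C * a11 ^ 2 - C) * v ^ 2 = 0 → 
        Algebra.norm F ((a00 * u + a01 * v) • b 0 + (a10 * u + a11 * v) • b 1) =
        Algebra.norm F (u • b 0 + v • b 1) := by
      intro u v h
      rw [hN, hN]
      have h3 : a00 * a11 + a01 * a10 = 1 := by
        have := hneg (a01 * a10)
        linear_combination hdet + this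
      have e1 : ∀ y : F, 2 * y = 0 := fun y => by rw [h2, zero_mul]
      linear_combination h + (u * v * A * a00 * a01 + u * v * C * a10 * a11) * h2 + (B * u * v) * h3 - (B * u * v) * 0 + (-B * u * v) * 0 + 0 * e1 1
    by_cases hrs : r = 0 ∧ s = 0
    · refine ⟨1, 0, Or.inl one_ne_zero, hk 1 0 ?_⟩
      have : A * a00 ^ 2 + B * a00 * a10 + C * a10 ^ 2 - A = 0 := by
        rw [← hs, hrs.2]; ring
      rw [this]
      ring
    · refine ⟨r, s, ?_, hk r s ?_⟩
      · by_contra hcon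
        push Not at hcon
        exact hrs hcon
      · rw [← hs, ← hr]
        have := hneg (s ^ 2 * r ^ 2)
        linear_combination this
  have hz : Algebra.norm F (u • b 0 + v • b 1) ≠ 0 := by
    rw [Algebra.norm_ne_zero_iff]
    exact ne_zero_of_coords b huv
  have hn0 : Algebra.norm F (b 0) ≠ 0 := by
    rw [Algebra.norm_ne_zero_iff]
    exact hb0
  obtain ⟨l, hl⟩ := hsq (Algebra.norm F (b 0) / Algebra.norm F (u • b 0 + v • b 1))
  have hl0 : l ≠ 0 := by
    rintro rfl
    have := div_ne_zero hn0 hz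
    apply this
    rw [← hl]
    ring
  have hscale : ∀ u' v' : F, Algebra.norm F ((l * u') • b 0 + (l * v') • b 1) = l ^ 2 * Algebra.norm F (u' • b 0 + v' • b 1) := by
    intro u' v'
    rw [hN, hN]
    ring
  refine ⟨(((l * u) • b 0 + (l * v) • b 1)) / b 0, ((l * (a00 * u + a01 * v)) • b 0 + (l * (a10 * u + a11 * v)) • b 1) / b 0, ?_, ?_, ?_, ?_⟩
  · apply mul_right_cancel₀ hn0
    rw [← map_mul, div_mul_cancel₀ _ hb0, hscale, hl, one_mul]
    field_simp
  · apply mul_right_cancel₀ hn0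
    rw [← map_mul, div_mul_cancel₀ _ hb0, hscale, hNg, hl, one_mul]
    field_simp
  · have h1 : ∀ w : E, (L b (w / b 0)) 0 0 = b.repr w 0 := by
      intro w
      rw [Algebra.leftMulMatrix_eq_repr_mul]
      congr 2
      field_simp
    have h3 : ∀ w : E, (L b (w / b 0)) 1 0 = b.repr w 1 := by
      intro w
      rw [Algebra.leftMulMatrix_eq_repr_mul]
      congr 2
      field_simp
    rw [h1, h3, h1, repr_add, repr_add, repr_add]
    simp
    ring
  · have h1 : ∀ w : E, (L b (w / b 0)) 0 0 = b.repr w 0 := by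
      intro w
      rw [Algebra.leftMulMatrix_eq_repr_mul]
      congr 2
      field_simp
    have h3 : ∀ w : E, (L b (w / b 0)) 1 0 = b.repr w 1 := by
      intro w
      rw [Algebra.leftMulMatrix_eq_repr_mul]
      congr 2
      field_simp
    rw [h1, h3, h3, repr_add, repr_add, repr_add]
    simp
    ring

end Main

/-- Let F be a finite field with q = 2^t ≥ 4 elements and L = PSL(2,F). Then L has a cyclic subgroup A of order q + 1 and an elementary abelian 2-subgroup B of order q such that L = ABA: every element of L is a product a·b·a' with a, a' ∈ A and b ∈ B. -/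
theorem result {F : Type*} [Field F] [Fintype F]
    (h2 : 2 ∣ Fintype.card F) (h4 : 4 ≤ Fintype.card F) :
    ∃ A B : Subgroup (Matrix.ProjectiveSpecialLinearGroup (Fin 2) F),
      IsCyclic A ∧ Nat.card A = Fintype.card F + 1 ∧ IsMulCommutative B ∧ (∀ b ∈ B, b * b = 1) ∧
        Nat.card B = Fintype.card F ∧
        ∀ g : Matrix.ProjectiveSpecialLinearGroup (Fin 2) F, ∃ a ∈ A, ∃ b ∈ B, ∃ c ∈ A, g = a * b * c := by
  classical
  have hrc : ringChar F = 2 := FiniteField.even_card_iff_char_two.2 (Nat.mod_eq_zero_of_dvd h2)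
  haveI : CharP F 2 := ringChar.of_eq hrc
  have h20 : (2 : F) = 0 := by exact_mod_cast CharP.cast_eq_zero F 2
  haveI : Fact (Nat.Prime 2) := ⟨Nat.prime_two⟩
  let E := FiniteField.Extension F 2 2
  have hE : Module.finrank F E = 2 := FiniteField.finrank_extension F 2 2
  let b : Module.Basis (Fin 2) F E := Module.finBasisOfFinrankEq F E hE
  have inj := mkP_injective_of_two_eq_zero h20
  let eA := Subgroup.equivMapOfInjective (nsT b) (mkP : SL(2, F) →* PSL(2, F)) inj
  let eB := Subgroup.equivMapOfInjective (U F) (mkP : SL(2, F) →* PSL(2, F)) inj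
  refine ⟨(nsT b).map mkP, (U F).map mkP, ?_, ?_, ?_, ?_, ?_, ?_⟩
  · haveI := isCyclic_nsT b
    exact isCyclic_of_surjective eA.toMonoidHom eA.surjective
  · rw [← Nat.card_congr eA.toEquiv]
    exact card_nsT b hE
  · refine ⟨⟨?_⟩⟩
    rintro ⟨_, s, hs, rfl⟩ ⟨_, t, ht, rfl⟩
    apply Subtype.ext
    show mkP s * mkP t = mkP t * mkP s
    rw [← map_mul, ← map_mul, U_comm hs ht]
  · rintro _ ⟨s, ⟨t, rfl⟩, rfl⟩
    rw [← map_mul, ← x_add]
    have : t + t = 0 := by rw [← two_mul, h20, zero_mul]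
    rw [this, x_zero, map_one]
  · rw [← Nat.card_congr eB.toEquiv]
    exact card_U
  · intro g
    obtain ⟨G, rfl⟩ := mkP_surjective g
    obtain ⟨x', y', hx, hy, h0, h1⟩ := exists_norm_one b h20 G
    let X : SL(2, F) := ⟨L b x', by rw [det_L]; exact hx⟩
    let Y : SL(2, F) := ⟨L b y', by rw [det_L]; exact hy⟩
    have hX : X ∈ nsT b := ⟨x', rfl⟩
    have hY : Y ∈ nsT b := ⟨y', rfl⟩
    have hX00 : X.1 0 0 = (L b x') 0 0 := rfl
    have hX10 : X.1 1 0 = (L b x') 1 0 := rfl
    have hY00 : Y.1 0 0 = (L b y') 0 0 := rfl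
    have hY10 : Y.1 1 0 = (L b y') 1 0 := rfl
    let M : SL(2, F) := Y⁻¹ * G * X
    have hGX00 : (G * X).1 0 0 = Y.1 0 0 := by rw [mul_00, hX00, hX10, hY00]; exact h0
    have hGX10 : (G * X).1 1 0 = Y.1 1 0 := by rw [mul_10, hX00, hX10, hY10]; exact h1
    have hYd := det_entries Y
    have hM00 : M.1 0 0 = 1 := by
      have : M = Y⁻¹ * (G * X) := by rw [← mul_assoc]
      rw [this, mul_00, hGX00, hGX10, inv_00, inv_01]
      linear_combination hYd
    have hM10 : M.1 1 0 = 0 := by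
      have : M = Y⁻¹ * (G * X) := by rw [← mul_assoc]
      rw [this, mul_10, hGX00, hGX10, inv_10, inv_11]
      ring
    have hM11 : M.1 1 1 = 1 := by
      have hd := det_entries M
      rw [hM00, hM10] at hd
      linear_combination hd
    have hMU : M ∈ U F := mem_U_iff_entries.2 ⟨hM00, hM11, hM10⟩
    refine ⟨mkP Y, ⟨Y, hY, rfl⟩, mkP M, ⟨M, hMU, rfl⟩, mkP X⁻¹, ⟨X⁻¹, (nsT b).inv_mem hX, rfl⟩, ?_⟩
    rw [← map_mul, ← map_mul]
    congr 1
    show G = Y * (Y⁻¹ * G * X) * X⁻¹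
    group

end Cfsg.Agent.S2503
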