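import Cfsg.Statements.S2504
import Cfsg.Agent.Lib.Perm.AbelianOrder
set_option autoImplicit false
open Cfsg Equiv Equiv.Perm
namespace Cfsg.Agent.S2504
open Cfsg.Agent.Lib.Perm.AbelianOrder

theorem transport {n m c : ℕ} (h : n = m) (H : ∃ A : Subgroup (Perm (Fin n)),
    (∀ a ∈ A, ∀ b ∈ A, a * b = b * a) ∧ Nat.card A = c ∧ (∀ a ∈ A, sign a = 1)) :
    ∃ A : Subgroup (Perm (Fin m)),
    (∀ a ∈ A, ∀ b ∈ A, a * b = b * a) ∧ Nat.card A = c ∧ (∀ a ∈ A, sign a = 1) := by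
  subst h; exact H

theorem result (k : ℕ) (hk : 2 ≤ k) :
    IsGreatest {c : ℕ | ∃ A : Subgroup (alternatingGroup (Fin (3 * k))), IsMulCommutative A ∧ Nat.card A = c} (3 ^ k) ∧
    IsGreatest {c : ℕ | ∃ A : Subgroup (alternatingGroup (Fin (3 * k + 1))), IsMulCommutative A ∧ Nat.card A = c}
      (4 * 3 ^ (k - 1)) ∧
    IsGreatest {c : ℕ | ∃ A : Subgroup (alternatingGroup (Fin (3 * k + 2))), IsMulCommutative A ∧ Nat.card A = c}
      (16 * 3 ^ (k - 2)) := by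
  refine ⟨⟨?_, ?_⟩, ⟨?_, ?_⟩, ⟨?_, ?_⟩⟩
  · obtain ⟨A, h1, h2, h3⟩ := exists_three k
    exact alt_of_even h1 h2 h3
  · rintro c ⟨A, hA, rfl⟩
    obtain ⟨B, h1, h2, h3⟩ := perm_of_alt A hA
    rw [← h2, ← M_3k]
    exact card_le_M _ _ B (by simp) h1
  · obtain ⟨A, h1, h2, h3⟩ := transport (show 3 * (k - 1) + 4 = 3 * k + 1 by omega) (exists_four (k - 1))
    exact alt_of_even h1 h2 h3
  · rintro c ⟨A, hA, rfl⟩
    obtain ⟨B, h1, h2, h3⟩ := perm_of_alt A hA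
    rw [← h2, ← M_3k1 k (by omega)]
    exact card_le_M _ _ B (by simp) h1
  · obtain ⟨A, h1, h2, h3⟩ := transport (show 3 * (k - 2) + 8 = 3 * k + 2 by omega) (exists_E (k - 2))
    exact alt_of_even h1 h2 h3
  · rintro c ⟨A, hA, rfl⟩
    obtain ⟨B, h1, h2, h3⟩ := perm_of_alt A hA
    rw [← h2]
    exact card_le_E k hk _ B (by simp) h1 h3

end Cfsg.Agent.S2504
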