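import Cfsg.Statements.S2505
import Cfsg.Agent.Lib.Perm.AbelianOrder
set_option autoImplicit false
open Cfsg
namespace Cfsg.Agent.S2505
open Cfsg.Agent.Lib.Perm.AbelianOrder

theorem result (k : ℕ) (hk : 1 ≤ k) :
    IsGreatest {c : ℕ | ∃ A : Subgroup (Equiv.Perm (Fin (3 * k))), IsMulCommutative A ∧ Nat.card A = c} (3 ^ k) ∧
    IsGreatest {c : ℕ | ∃ A : Subgroup (Equiv.Perm (Fin (3 * k + 1))), IsMulCommutative A ∧ Nat.card A = c}
      (4 * 3 ^ (k - 1)) ∧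
    IsGreatest {c : ℕ | ∃ A : Subgroup (Equiv.Perm (Fin (3 * k + 2))), IsMulCommutative A ∧ Nat.card A = c}
      (2 * 3 ^ k) := by
  refine ⟨?_, ?_, ?_⟩
  · rw [← M_3k]; exact isGreatest_sym _
  · rw [← M_3k1 k hk]; exact isGreatest_sym _
  · rw [← M_3k2]; exact isGreatest_sym _

end Cfsg.Agent.S2505
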