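import Cfsg.Statements.S2506
import Mathlib
import Cfsg.Agent.Lib.Perm.AbelianOrder
import Cfsg.Agent.Lib.Perm.AbelianConj

set_option autoImplicit false
open scoped Pointwise
open Cfsg

namespace Cfsg.Agent.S2506

open Equiv Equiv.Perm MulAction Cfsg.Agent.Lib.Perm.AbelianOrder Cfsg.Agent.Lib.Perm.AbelianConj

theorem aux_one {G : Type*} [Group G] (x : G) (h2 : x ^ 2 = 1) (h3 : x ^ 3 = 1) : x = 1 := by
  have h : x = x ^ 3 * (x ^ 2)⁻¹ := by group
  rw [h, h3, h2]
  simp

/-- The degree five case: Sylow's theorem. -/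
theorem five_case (A B : Subgroup (alternatingGroup (Fin 5))) (hA : IsMulCommutative A) (hB : IsMulCommutative B)
    (hAmax : ∀ C : Subgroup (alternatingGroup (Fin 5)), IsMulCommutative C → Nat.card C ≤ Nat.card A)
    (hBmax : ∀ C : Subgroup (alternatingGroup (Fin 5)), IsMulCommutative C → Nat.card C ≤ Nat.card B) :
    ∃ g : alternatingGroup (Fin 5), B = MulAut.conj g • A := by
  classical
  -- an abelian subgroup of order five
  obtain ⟨C, h1, h2, h3⟩ := exists_cyc 5 (by norm_num)
  obtain ⟨D, hD, hDc⟩ := alt_of_even h1 h2 (h3 (by decide))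
  have hcard : ∀ E : Subgroup (alternatingGroup (Fin 5)), IsMulCommutative E →
      (∀ F : Subgroup (alternatingGroup (Fin 5)), IsMulCommutative F → Nat.card F ≤ Nat.card E) →
      Nat.card E = 5 := by
    intro E hE hmax
    have h5 : 5 ≤ Nat.card E := by
      have := hmax D hD
      omega
    obtain ⟨E', h6, h7, -⟩ := perm_of_alt E hE
    have h8 := card_le_M 5 (Fin 5) E' (by simp) h6
    rw [h7] at h8
    have h9 : M 5 = 6 := by decide
    rw [h9] at h8
    -- order six is impossible
    by_contra hne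
    have h6' : Nat.card E = 6 := by omega
    haveI : Fact (Nat.Prime 2) := ⟨by norm_num⟩
    haveI : Fact (Nat.Prime 3) := ⟨by norm_num⟩
    obtain ⟨a, ha⟩ := exists_prime_orderOf_dvd_card' (G := E) 2 (by rw [h6']; norm_num)
    obtain ⟨b, hb⟩ := exists_prime_orderOf_dvd_card' (G := E) 3 (by rw [h6']; norm_num)
    have hcomm : (a : alternatingGroup (Fin 5)) * b = b * a := by
      have := hE.is_comm.comm a b
      exact congrArg Subtype.val this
    have key : ∀ σ : Perm (Fin 5), sign σ = 1 → σ ^ 6 = 1 → σ ^ 2 = 1 ∨ σ ^ 3 = 1 := by decide +kernel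
    have ha2 : (a : alternatingGroup (Fin 5)) ^ 2 = 1 := by
      have := pow_orderOf_eq_one a
      rw [ha] at this
      exact congrArg Subtype.val this
    have hb3 : (b : alternatingGroup (Fin 5)) ^ 3 = 1 := by
      have := pow_orderOf_eq_one b
      rw [hb] at this
      exact congrArg Subtype.val this
    have hcomm' : Commute (a : alternatingGroup (Fin 5)) b := hcomm
    set x : alternatingGroup (Fin 5) := a * b with hx
    have hx6 : x ^ 6 = 1 := by
      have h61 : (a : alternatingGroup (Fin 5)) ^ 6 = 1 := by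
        rw [show 6 = 2 * 3 by norm_num, pow_mul, ha2, one_pow]
      have h62 : (b : alternatingGroup (Fin 5)) ^ 6 = 1 := by
        rw [show 6 = 3 * 2 by norm_num, pow_mul, hb3, one_pow]
      rw [hx, hcomm'.mul_pow, h61, h62, one_mul]
    have hsign : sign (x : Perm (Fin 5)) = 1 := x.2
    have hx6' : (x : Perm (Fin 5)) ^ 6 = 1 := congrArg Subtype.val hx6
    rcases key _ hsign hx6' with h | h
    · -- then `b` is trivial
      have hx2 : x ^ 2 = 1 := Subtype.ext h
      have : (b : alternatingGroup (Fin 5)) ^ 2 = 1 := by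
        have h1 := hx2
        rw [hx, hcomm'.mul_pow, ha2, one_mul] at h1
        exact h1
      have hb1 : (b : alternatingGroup (Fin 5)) = 1 := aux_one _ this hb3
      have hb' : b = 1 := Subtype.ext hb1
      rw [hb', orderOf_one] at hb
      omega
    · have hx3 : x ^ 3 = 1 := Subtype.ext h
      have : (a : alternatingGroup (Fin 5)) ^ 3 = 1 := by
        have h1 := hx3
        rw [hx, hcomm'.mul_pow, hb3, mul_one] at h1
        exact h1
      have ha1 : (a : alternatingGroup (Fin 5)) = 1 := aux_one _ ha2 this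
      have ha' : a = 1 := Subtype.ext ha1
      rw [ha', orderOf_one] at ha
      omega
  have hAc := hcard A hA hAmax
  have hBc := hcard B hB hBmax
  haveI : Fact (Nat.Prime 5) := ⟨by norm_num⟩
  have hfac : (Nat.card (alternatingGroup (Fin 5))).factorization 5 = 1 := by
    rw [nat_card_alternatingGroup]
    simp only [Nat.card_eq_fintype_card, Fintype.card_fin]
    have h60 : Nat.factorial 5 / 2 = 5 * 12 := by decide
    rw [h60, Nat.factorization_mul (by norm_num) (by norm_num)]
    simp [Nat.Prime.factorization (by norm_num : Nat.Prime 5), Nat.factorization_eq_zero_of_not_dvd (by norm_num : ¬ 5 ∣ 12)]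
  let P : Sylow 5 (alternatingGroup (Fin 5)) := Sylow.ofCard A (by rw [hAc, hfac]; norm_num)
  let Q : Sylow 5 (alternatingGroup (Fin 5)) := Sylow.ofCard B (by rw [hBc, hfac]; norm_num)
  obtain ⟨g, hg⟩ := MulAction.exists_smul_eq (alternatingGroup (Fin 5)) P Q
  refine ⟨g, ?_⟩
  have h4 : ((g • P : Sylow 5 (alternatingGroup (Fin 5))) : Subgroup (alternatingGroup (Fin 5))) = B := by
    rw [hg]; rfl
  rw [Sylow.coe_subgroup_smul] at h4
  exact h4.symm

/-- In the alternating group of any degree, any two abelian subgroups of the largest possible order (among abelian subgroups) are conjugate. -/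
theorem result (n : ℕ)
    (A B : Subgroup (alternatingGroup (Fin n))) (hA : IsMulCommutative A) (hB : IsMulCommutative B)
    (hAmax : ∀ C : Subgroup (alternatingGroup (Fin n)), IsMulCommutative C → Nat.card C ≤ Nat.card A)
    (hBmax : ∀ C : Subgroup (alternatingGroup (Fin n)), IsMulCommutative C → Nat.card C ≤ Nat.card B) :
    ∃ g : alternatingGroup (Fin n), B = MulAut.conj g • A := by
  
  classical
  -- the images in the symmetric group
  have hcommS : ∀ C : Subgroup (alternatingGroup (Fin n)), IsMulCommutative C →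
      ∀ a ∈ C.map (alternatingGroup (Fin n)).subtype, ∀ b ∈ C.map (alternatingGroup (Fin n)).subtype,
        a * b = b * a := by
    rintro C hC _ ⟨a, ha, rfl⟩ _ ⟨b, hb, rfl⟩
    have := hC.is_comm.comm ⟨a, ha⟩ ⟨b, hb⟩
    exact congrArg (fun x : C => (((x : alternatingGroup (Fin n)) : Perm (Fin n)))) this
  have hevenS : ∀ C : Subgroup (alternatingGroup (Fin n)),
      ∀ a ∈ C.map (alternatingGroup (Fin n)).subtype, sign a = 1 := by
    rintro C _ ⟨a, _, rfl⟩
    exact a.2
  have hcardS : ∀ C : Subgroup (alternatingGroup (Fin n)),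
      Nat.card (C.map (alternatingGroup (Fin n)).subtype) = Nat.card C := fun C =>
    Subgroup.card_map_of_injective (alternatingGroup (Fin n)).subtype_injective
  -- reduction of the conclusion
  have hfinish : ∀ g : Perm (Fin n), sign g = 1 →
      (A.map (alternatingGroup (Fin n)).subtype).map (MulAut.conj g).toMonoidHom =
        B.map (alternatingGroup (Fin n)).subtype →
      ∃ g : alternatingGroup (Fin n), B = MulAut.conj g • A := by
    intro g hg h
    refine ⟨⟨g, hg⟩, ?_⟩
    ext x
    rw [Subgroup.mem_pointwise_smul_iff_inv_smul_mem]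
    have h1 : (x : Perm (Fin n)) ∈ B.map (alternatingGroup (Fin n)).subtype ↔ x ∈ B := by
      constructor
      · rintro ⟨y, hy, hyx⟩
        have : y = x := Subtype.ext hyx
        rwa [← this]
      · intro hx
        exact ⟨x, hx, rfl⟩
    rw [← h1, ← h]
    constructor
    · rintro ⟨_, ⟨y, hy, rfl⟩, hyx⟩
      have hyx' : g * (y : Perm (Fin n)) * g⁻¹ = (x : Perm (Fin n)) := hyx
      have h2 : (MulAut.conj (⟨g, hg⟩ : alternatingGroup (Fin n)))⁻¹ • x = y := by
        apply Subtype.ext
        show g⁻¹ * (x : Perm (Fin n)) * g⁻¹⁻¹ = y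
        rw [← hyx']
        group
      rw [h2]
      exact hy
    · intro hx
      refine ⟨g⁻¹ * (x : Perm (Fin n)) * g, ⟨_, hx, rfl⟩, ?_⟩
      show g * (g⁻¹ * (x : Perm (Fin n)) * g) * g⁻¹ = x
      group
  -- small degrees
  by_cases hn2 : n ≤ 2
  · have hsub : ∀ x : alternatingGroup (Fin n), x = 1 := by
      interval_cases n <;> decide
    refine ⟨1, ?_⟩
    have h1 : A = ⊥ := by
      rw [eq_bot_iff]
      intro x _
      rw [hsub x]
      exact Subgroup.one_mem _
    have h2 : B = ⊥ := by
      rw [eq_bot_iff]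
      intro x _
      rw [hsub x]
      exact Subgroup.one_mem _
    rw [h1, h2]
    simp
  by_cases hn5 : n = 5
  · subst hn5
    exact five_case A B hA hB hAmax hBmax
  -- the main case
  obtain ⟨a₀, b₀, hb₀, hn, D, hD, hDc⟩ : ∃ a₀ b₀ : ℕ, b₀ ≤ 2 ∧ n = 3 * a₀ + 4 * b₀ ∧
      ∃ D : Subgroup (alternatingGroup (Fin n)), IsMulCommutative D ∧ Nat.card D = 3 ^ a₀ * 4 ^ b₀ := by
    have hcases : n % 3 = 0 ∨ n % 3 = 1 ∨ n % 3 = 2 := by omega
    rcases hcases with h0 | h1 | h2
    · obtain ⟨j, rfl⟩ : ∃ j, n = 3 * j := ⟨n / 3, by omega⟩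
      obtain ⟨C, h3, h4, h5⟩ := exists_three j
      obtain ⟨D, hD, hDc⟩ := alt_of_even h3 h4 h5
      exact ⟨j, 0, by norm_num, by ring, D, hD, by rw [hDc]; simp⟩
    · obtain ⟨j, rfl⟩ : ∃ j, n = 3 * j + 4 := ⟨(n - 4) / 3, by omega⟩
      obtain ⟨C, h3, h4, h5⟩ := exists_four j
      obtain ⟨D, hD, hDc⟩ := alt_of_even h3 h4 h5
      exact ⟨j, 1, by norm_num, by ring, D, hD, by rw [hDc]; ring⟩
    · obtain ⟨j, rfl⟩ : ∃ j, n = 3 * j + 8 := ⟨(n - 8) / 3, by omega⟩
      obtain ⟨C, h3, h4, h5⟩ := exists_E j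
      obtain ⟨D, hD, hDc⟩ := alt_of_even h3 h4 h5
      exact ⟨j, 2, by norm_num, by ring, D, hD, by rw [hDc]; ring⟩
  have hgood : ∀ C : Subgroup (alternatingGroup (Fin n)), IsMulCommutative C →
      (∀ E : Subgroup (alternatingGroup (Fin n)), IsMulCommutative E → Nat.card E ≤ Nat.card C) →
      Good (C.map (alternatingGroup (Fin n)).subtype) a₀ b₀ := by
    intro C hC hmax
    refine ⟨hcommS C hC, hevenS C, hb₀, by rw [Fintype.card_fin]; exact hn, ?_⟩
    rw [hcardS, ← hDc]
    exact hmax D hD
  have hx₀ : Fin n := ⟨0, by omega⟩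
  obtain ⟨g, hg, hgAB⟩ := (hgood A hA hAmax).exists_conj (hgood B hB hBmax) hx₀
  exact hfinish g hg hgAB

end Cfsg.Agent.S2506
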