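import Cfsg.Statements.S2511
import Cfsg.Agent.S2510
import Cfsg.Agent.Lib.Classical.Herm.OrdClass
import Mathlib

set_option autoImplicit false
open Cfsg

namespace Cfsg.Agent.S2511

/-- Let F be a finite field with q² elements, q = p^a, n ≥ 3 with (n, q) ≠ (3, 2), L = PSU(n, q) realised over F, and let r be a prime dividing q + 1 and not dividing n. Then for every m the direct product L × L × L × (ℤ/r)^m has the same set of element orders as L × L × L; and if n − 1 is not a power of p, then already L × L × (ℤ/r)^m has the same set of element orders as L × L. -/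
theorem result {F : Type*} [Field F] [Fintype F] (p a n q r m : ℕ) (hp : p.Prime) (ha : 1 ≤ a) (hq : q = p ^ a) (hF : Fintype.card F = q ^ 2)
    (hn : 3 ≤ n) (hn3 : ¬ (n = 3 ∧ q = 2)) (hr : r.Prime) (hrq : r ∣ q + 1) (hrn : ¬ r ∣ n) :
    Set.range (orderOf : Cfsg.PSU n F q × Cfsg.PSU n F q × Cfsg.PSU n F q × Multiplicative (Fin m → ZMod r) → ℕ) = Set.range (orderOf : Cfsg.PSU n F q × Cfsg.PSU n F q × Cfsg.PSU n F q → ℕ) ∧
    ((¬ ∃ j : ℕ, n - 1 = p ^ j) →
      Set.range (orderOf : Cfsg.PSU n F q × Cfsg.PSU n F q × Multiplicative (Fin m → ZMod r) → ℕ) = Set.range (orderOf : Cfsg.PSU n F q × Cfsg.PSU n F q → ℕ)) := by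
  haveI : Fact p.Prime := ⟨hp⟩
  have hF' : Fintype.card F = p ^ (a * 2) := by rw [hF, hq, pow_mul]
  haveI : CharP F p := Cfsg.Agent.S2510.charP_of_card p (a * 2) hp hF'
  obtain ⟨w', hw'⟩ := Cfsg.Agent.Lib.Classical.Herm.OrdClass.exists_order_r (n := n) p hF
    (by omega) hr hrq hrn
  let B : Cfsg.PSU n F q → Prop := fun x => orderOf x ∣ Cfsg.Agent.Lib.Classical.Herm.OrdClass.Nb q n
  let C : Cfsg.PSU n F q → Prop := fun x => ∃ j, n - 1 = p ^ j ∧ orderOf x = p ^ (j + 1)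
  have hclass : ∀ x : Cfsg.PSU n F q, ¬ r ∣ orderOf x →
      (∃ z : Cfsg.PSU n F q, orderOf z = r * orderOf x) ∨ B x ∨ C x := fun x hx =>
    Cfsg.Agent.Lib.Classical.Herm.OrdClass.classify p hF (by omega) hr hrq hrn x hx
  have hB : ∀ x y, B x → B y → ∃ w : Cfsg.PSU n F q, orderOf w = (orderOf x).lcm (orderOf y) := by
    intro x y h1 h2
    exact Cfsg.Agent.Lib.Classical.Herm.OrdClass.exists_order_nb hF p (by omega) (Nat.lcm_dvd h1 h2)
  have hC : ∀ x y, C x → C y → orderOf x = orderOf y := by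
    rintro x y ⟨j₁, h1, h3⟩ ⟨j₂, h4, h5⟩
    have h6 : p ^ j₁ = p ^ j₂ := by omega
    have h7 : j₁ = j₂ := Nat.pow_right_injective hp.two_le h6
    rw [h3, h5, h7]
  constructor
  · apply Set.Subset.antisymm
    · rintro _ ⟨⟨x₁, x₂, x₃, v⟩, rfl⟩
      rcases Cfsg.Agent.S2510.orderOf_vec r m hr v with hv | hv
      · refine ⟨(x₁, x₂, x₃), ?_⟩
        apply Cfsg.Agent.S2510.nat_eq_of_dvd_iff
        intro t
        simp only [Prod.orderOf, Nat.lcm_dvd_iff, hv, one_dvd, and_true]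
      · obtain ⟨y₁, y₂, y₃, hy⟩ := Cfsg.Agent.S2510.final_three r hr w' hw' B C hclass hB hC x₁ x₂ x₃
        refine ⟨(y₁, y₂, y₃), ?_⟩
        apply Cfsg.Agent.S2510.nat_eq_of_dvd_iff
        intro t
        simp only [Prod.orderOf, Nat.lcm_dvd_iff, hv]
        exact hy t
    · rintro _ ⟨⟨x₁, x₂, x₃⟩, rfl⟩
      refine ⟨(x₁, x₂, x₃, 1), ?_⟩
      apply Cfsg.Agent.S2510.nat_eq_of_dvd_iff
      intro t
      simp only [Prod.orderOf, Nat.lcm_dvd_iff, orderOf_one, one_dvd, and_true]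
  · intro hj
    have hclass' : ∀ x : Cfsg.PSU n F q, ¬ r ∣ orderOf x →
        (∃ z : Cfsg.PSU n F q, orderOf z = r * orderOf x) ∨ B x := by
      intro x hx
      rcases hclass x hx with h | h | h
      · exact Or.inl h
      · exact Or.inr h
      · obtain ⟨j, h3, -⟩ := h
        exact absurd ⟨j, h3⟩ hj
    apply Set.Subset.antisymm
    · rintro _ ⟨⟨x₁, x₂, v⟩, rfl⟩
      rcases Cfsg.Agent.S2510.orderOf_vec r m hr v with hv | hv
      · refine ⟨(x₁, x₂), ?_⟩
        apply Cfsg.Agent.S2510.nat_eq_of_dvd_iff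
        intro t
        simp only [Prod.orderOf, Nat.lcm_dvd_iff, hv, one_dvd, and_true]
      · obtain ⟨y₁, y₂, hy⟩ := Cfsg.Agent.S2510.final_two r hr w' hw' B hclass' hB x₁ x₂
        refine ⟨(y₁, y₂), ?_⟩
        apply Cfsg.Agent.S2510.nat_eq_of_dvd_iff
        intro t
        simp only [Prod.orderOf, Nat.lcm_dvd_iff, hv]
        exact hy t
    · rintro _ ⟨⟨x₁, x₂⟩, rfl⟩
      refine ⟨(x₁, x₂, 1), ?_⟩
      apply Cfsg.Agent.S2510.nat_eq_of_dvd_iff
      intro t
      simp only [Prod.orderOf, Nat.lcm_dvd_iff, orderOf_one, one_dvd, and_true]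

end Cfsg.Agent.S2511
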