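import Cfsg.Statements.S2512
import Cfsg.Agent.S2510
import Cfsg.Agent.Lib.Classical.Symp.OrdClass
import Mathlib
-- import your own Cfsg.Agent.* helpers here

set_option autoImplicit false
open Cfsg

namespace Cfsg.Agent.S2512

/-- The modulus for the orders of the tori which do not absorb a factor of two. -/
theorem exists_modulus {F : Type*} [Field F] [Fintype F] {n : ℕ} (p : ℕ) [Fact p.Prime] [CharP F p]
    (hn : 2 ≤ n) (h2F : (2 : F) ≠ 0) (hodd : Odd (Fintype.card F)) :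
    ∃ N₀ : ℕ, 2 ∣ N₀ ∧ (∀ D : ℕ, 2 * D ∣ N₀ → ∃ z : Cfsg.PSp n F, orderOf z = D) ∧
      (∀ o : ℕ, ¬ 2 ∣ o → o ∣ Fintype.card F ^ n - 1 →
        o ∣ N₀ ∨ ∃ z : Cfsg.PSp n F, orderOf z = 2 * o) ∧
      (∀ o : ℕ, ¬ 2 ∣ o → o ∣ Fintype.card F ^ n + 1 →
        o ∣ N₀ ∨ ∃ z : Cfsg.PSp n F, orderOf z = 2 * o) := by
  have hq : Odd (Fintype.card F ^ n) := hodd.pow
  have hMi := fun D => Cfsg.Agent.Lib.Classical.Symp.OrdClass.exists_order_plus (F := F) (n := n)
    p (by omega) (D := D)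
  have hPl := fun D => Cfsg.Agent.Lib.Classical.Symp.OrdClass.exists_order_minus (F := F) (n := n)
    p (by omega) h2F (D := D)
  have hcop : ∀ (o N : ℕ), ¬ 2 ∣ o → o ∣ N → 4 ∣ N → 2 * (2 * o) ∣ N := by
    intro o N h1 h3 h4
    have h5 : Nat.Coprime 4 o := by
      have : Nat.Coprime 2 o := (Nat.Prime.coprime_iff_not_dvd Nat.prime_two).2 h1
      exact Nat.Coprime.pow_left 2 this
    have := Nat.Coprime.mul_dvd_of_dvd_of_dvd h5 h4 h3
    rwa [← mul_assoc]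
  obtain ⟨u, hu⟩ := hq
  by_cases h4 : 4 ∣ Fintype.card F ^ n - 1
  · refine ⟨Fintype.card F ^ n + 1, ?_, hPl, ?_, ?_⟩
    · rw [hu]
      omega
    · intro o h1 h3
      exact Or.inr (hMi _ (hcop o _ h1 h3 h4))
    · intro o h1 h3
      exact Or.inl h3
  · have h4' : 4 ∣ Fintype.card F ^ n + 1 := by omega
    refine ⟨Fintype.card F ^ n - 1, ?_, hMi, ?_, ?_⟩
    · rw [hu]
      omega
    · intro o h1 h3
      exact Or.inl h3
    · intro o h1 h3
      exact Or.inr (hPl _ (hcop o _ h1 h3 h4'))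

/-- Let F be a finite field of odd order q = p^a, n ≥ 2 (with q ≥ 3 automatic), and L = PSp(2n, F). Then for every m the direct product L × L × L × (ℤ/2)^m has the same set of element orders as L × L × L; and if 2n − 1 is not a power of p, then already L × L × (ℤ/2)^m has the same set of element orders as L × L. -/
theorem result {F : Type*} [Field F] [Fintype F] (p a n m : ℕ) (hp : p.Prime) (ha : 1 ≤ a) (hF : Fintype.card F = p ^ a) (hodd : Odd (Fintype.card F))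
    (hn : 2 ≤ n) :
    Set.range (orderOf : Cfsg.PSp n F × Cfsg.PSp n F × Cfsg.PSp n F × Multiplicative (Fin m → ZMod 2) → ℕ) = Set.range (orderOf : Cfsg.PSp n F × Cfsg.PSp n F × Cfsg.PSp n F → ℕ) ∧
    ((¬ ∃ j : ℕ, 2 * n - 1 = p ^ j) →
      Set.range (orderOf : Cfsg.PSp n F × Cfsg.PSp n F × Multiplicative (Fin m → ZMod 2) → ℕ) = Set.range (orderOf : Cfsg.PSp n F × Cfsg.PSp n F → ℕ)) := by
  haveI : Fact p.Prime := ⟨hp⟩
  haveI : CharP F p := Cfsg.Agent.S2510.charP_of_card p a hp hF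
  have h2F : (2 : F) ≠ 0 := by
    intro h
    have h5 : ((2 : ℕ) : F) = 0 := by exact_mod_cast h
    have h6 : p ∣ 2 := (CharP.cast_eq_zero_iff F p 2).1 h5
    have h7 : p = 2 := (Nat.prime_dvd_prime_iff_eq hp Nat.prime_two).1 h6
    rw [hF, h7] at hodd
    have : Even (2 ^ a) := (Nat.even_pow.2 ⟨even_two, by omega⟩)
    exact (Nat.not_even_iff_odd.2 hodd) this
  obtain ⟨N₀, hN₀2, hN₀, hM, hP⟩ := exists_modulus (F := F) p hn h2F hodd
  obtain ⟨w', hw'⟩ := Cfsg.Agent.Lib.Classical.Symp.OrdClass.exists_order_two (F := F) hn h2F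
  let B : Cfsg.PSp n F → Prop := fun x => ¬ 2 ∣ orderOf x ∧ orderOf x ∣ N₀
  let C : Cfsg.PSp n F → Prop := fun x => ∃ j, 2 * n - 1 = p ^ j ∧ orderOf x = p ^ (j + 1)
  have hclass : ∀ x : Cfsg.PSp n F, ¬ 2 ∣ orderOf x →
      (∃ z : Cfsg.PSp n F, orderOf z = 2 * orderOf x) ∨ B x ∨ C x := by
    intro x hx
    rcases Cfsg.Agent.Lib.Classical.Symp.OrdClass.classify (p := p) h2F hn x hx with h | h | h | h
    · exact Or.inl h
    · rcases hM _ hx h with h3 | h3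
      · exact Or.inr (Or.inl ⟨hx, h3⟩)
      · exact Or.inl h3
    · rcases hP _ hx h with h3 | h3
      · exact Or.inr (Or.inl ⟨hx, h3⟩)
      · exact Or.inl h3
    · exact Or.inr (Or.inr h)
  have hB : ∀ x y, B x → B y → ∃ w : Cfsg.PSp n F, orderOf w = (orderOf x).lcm (orderOf y) := by
    rintro x y ⟨h1, h3⟩ ⟨h4, h5⟩
    apply hN₀
    apply Nat.Coprime.mul_dvd_of_dvd_of_dvd _ hN₀2 (Nat.lcm_dvd h3 h5)
    rw [Nat.Prime.coprime_iff_not_dvd Nat.prime_two]
    intro h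
    rcases (Nat.Prime.dvd_lcm Nat.prime_two).1 h with h | h
    · exact h1 h
    · exact h4 h
  have hC : ∀ x y, C x → C y → orderOf x = orderOf y := by
    rintro x y ⟨j₁, h1, h3⟩ ⟨j₂, h4, h5⟩
    have h6 : p ^ j₁ = p ^ j₂ := by omega
    have h7 : j₁ = j₂ := Nat.pow_right_injective hp.two_le h6
    rw [h3, h5, h7]
  constructor
  · apply Set.Subset.antisymm
    · rintro _ ⟨⟨x₁, x₂, x₃, v⟩, rfl⟩
      rcases Cfsg.Agent.S2510.orderOf_vec 2 m Nat.prime_two v with hv | hv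
      · refine ⟨(x₁, x₂, x₃), ?_⟩
        apply Cfsg.Agent.S2510.nat_eq_of_dvd_iff
        intro t
        simp only [Prod.orderOf, Nat.lcm_dvd_iff, hv, one_dvd, and_true]
      · obtain ⟨y₁, y₂, y₃, hy⟩ := Cfsg.Agent.S2510.final_three 2 Nat.prime_two w' hw' B C hclass hB hC x₁ x₂ x₃
        refine ⟨(y₁, y₂, y₃), ?_⟩
        apply Cfsg.Agent.S2510.nat_eq_of_dvd_iff
        intro t
        simp only [Prod.orderOf, Nat.lcm_dvd_iff, hv]
        exact hy t
    · rintro _ ⟨⟨x₁, x₂, x₃⟩, rfl⟩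
      refine ⟨(x₁, x₂, x₃, 1), ?_⟩
      apply Cfsg.Agent.S2510.nat_eq_of_dvd_iff
      intro t
      simp only [Prod.orderOf, Nat.lcm_dvd_iff, orderOf_one, one_dvd, and_true]
  · intro hj
    have hclass' : ∀ x : Cfsg.PSp n F, ¬ 2 ∣ orderOf x →
        (∃ z : Cfsg.PSp n F, orderOf z = 2 * orderOf x) ∨ B x := by
      intro x hx
      rcases hclass x hx with h | h | h
      · exact Or.inl h
      · exact Or.inr h
      · obtain ⟨j, h3, -⟩ := h
        exact absurd ⟨j, h3⟩ hj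
    apply Set.Subset.antisymm
    · rintro _ ⟨⟨x₁, x₂, v⟩, rfl⟩
      rcases Cfsg.Agent.S2510.orderOf_vec 2 m Nat.prime_two v with hv | hv
      · refine ⟨(x₁, x₂), ?_⟩
        apply Cfsg.Agent.S2510.nat_eq_of_dvd_iff
        intro t
        simp only [Prod.orderOf, Nat.lcm_dvd_iff, hv, one_dvd, and_true]
      · obtain ⟨y₁, y₂, hy⟩ := Cfsg.Agent.S2510.final_two 2 Nat.prime_two w' hw' B hclass' hB x₁ x₂
        refine ⟨(y₁, y₂), ?_⟩
        apply Cfsg.Agent.S2510.nat_eq_of_dvd_iff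
        intro t
        simp only [Prod.orderOf, Nat.lcm_dvd_iff, hv]
        exact hy t
    · rintro _ ⟨⟨x₁, x₂⟩, rfl⟩
      refine ⟨(x₁, x₂, 1), ?_⟩
      apply Cfsg.Agent.S2510.nat_eq_of_dvd_iff
      intro t
      simp only [Prod.orderOf, Nat.lcm_dvd_iff, orderOf_one, one_dvd, and_true]

end Cfsg.Agent.S2512
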