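import Cfsg.Statements.S2513
import Mathlib
import Cfsg.Agent.Lib.Classical.Lin.OrderDegree
-- import your own Cfsg.Agent.* helpers here

set_option autoImplicit false
open Cfsg

namespace Cfsg.Agent.S2513

open Matrix Cfsg.Agent.Lib.Classical.Lin.OrderDegree
open scoped MatrixGroups

variable {F : Type*} [Field F] [Fintype F]

theorem elim_two (hF : Fintype.card F = 2) (r : F) : r = 0 ∨ r = 1 := by
  classical
  by_contra h
  push Not at h
  have h1 : ({0, 1, r} : Finset F).card ≤ 2 := by
    rw [← hF]; exact Finset.card_le_univ _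
  have h2 : ({0, 1, r} : Finset F).card = 3 := by
    rw [Finset.card_eq_three]
    exact ⟨0, 1, r, zero_ne_one, h.1.symm, h.2.symm, rfl⟩
  omega

theorem cast_prime_ne_zero (hF : Fintype.card F = 2) {p : ℕ} (hp : p.Prime) (hp2 : p ≠ 2) : (p : F) ≠ 0 := by
  haveI : CharP F 2 := by
    have h2 : (2 : F) = 0 := by
      have := FiniteField.cast_card_eq_zero F
      rw [hF] at this
      exact_mod_cast this
    exact CharTwo.of_one_ne_zero_of_two_eq_zero one_ne_zero h2
  intro h
  rw [CharP.cast_eq_zero_iff F 2] at h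
  exact hp2 ((Nat.prime_dvd_prime_iff_eq Nat.prime_two hp).1 h).symm

/-- The main statement, for `GL_n(F)`, `|F| = 2`. -/
theorem main_gl (hF : Fintype.card F = 2) (n k : ℕ) (hn : 2 ≤ n) (x : Fin k → GL (Fin n) F) :
    ∃ y : Fin ((n + 3) / 2) → GL (Fin n) F, orderOf y = orderOf x := by
  classical
  set m := orderOf x with hm
  have hm0 : m ≠ 0 := (orderOf_pos x).ne'
  have hmlcm : m = Finset.univ.lcm (fun i => orderOf (x i)) := Pi.orderOf x
  have hq : Fintype.card F = 2 := hF
  -- the degree of an odd prime dividing `m`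
  have hdeg : ∀ p : ℕ, ∃ d : ℕ, p.Prime → p ∣ m → p ≠ 2 →
      1 ≤ d ∧ d ≤ n ∧ p ^ m.factorization p ∣ 2 ^ d - 1 ∧ 2 * d ≠ n := by
    intro p
    by_cases hp : p.Prime
    · by_cases hpm : p ∣ m
      · by_cases hp2 : p = 2
        · exact ⟨0, fun _ _ h => absurd hp2 h⟩
        · have hv : 0 < m.factorization p := hp.factorization_pos_of_dvd hm0 hpm
          have h1 : p ^ m.factorization p ∣ Finset.univ.lcm (fun i => orderOf (x i)) := by
            rw [← hmlcm]; exact Nat.ordProj_dvd m p
          obtain ⟨i, -, hi⟩ := prime_pow_dvd_finset_lcm hp hv _ _ h1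
          obtain ⟨d, hd1, hdn, hd⟩ := exists_degree_of_prime_pow_dvd_orderOf (x i) hp
            (cast_prime_ne_zero hF hp hp2) hv hi
          rw [hF] at hd
          by_cases h2d : 2 * d = n
          · refine ⟨n, fun _ _ _ => ⟨by omega, le_rfl, ?_, by omega⟩⟩
            refine hd.trans ?_
            rw [← h2d, mul_comm, pow_mul]
            simpa using Nat.sub_dvd_pow_sub_pow (2 ^ d) 1 2
          · exact ⟨d, fun _ _ _ => ⟨hd1, hdn, hd, h2d⟩⟩
      · exact ⟨0, fun _ h => absurd h hpm⟩
    · exact ⟨0, fun h => absurd h hp⟩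
  choose deg hdeg using hdeg
  let P : Finset ℕ := m.primeFactors.filter (fun p => p ≠ 2)
  let M : ℕ → ℕ := fun d => (P.filter (fun p => deg p = d)).lcm (fun p => p ^ m.factorization p)
  have hM1 : ∀ d, M d ∣ 2 ^ d - 1 := by
    intro d
    apply Finset.lcm_dvd
    intro p hp
    obtain ⟨hpP, rfl⟩ := Finset.mem_filter.1 hp
    obtain ⟨hpm, hp2⟩ := Finset.mem_filter.1 hpP
    have hpp := Nat.prime_of_mem_primeFactors hpm
    exact (hdeg p hpp (Nat.dvd_of_mem_primeFactors hpm) hp2).2.2.1
  have hMm : ∀ d, M d ∣ m := by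
    intro d
    apply Finset.lcm_dvd
    intro p _
    exact Nat.ordProj_dvd m p
  have hMp : ∀ p, p.Prime → p ∣ m → p ≠ 2 → p ^ m.factorization p ∣ M (deg p) := by
    intro p hp hpm hp2
    apply Finset.dvd_lcm (f := fun p => p ^ m.factorization p)
    exact Finset.mem_filter.2 ⟨Finset.mem_filter.2 ⟨Nat.mem_primeFactors.2 ⟨hp, hpm, hm0⟩, hp2⟩, rfl⟩
  -- the bins
  have hbin : ∀ j : ℕ, ∃ g : GL (Fin n) F, 1 ≤ j → 2 * j < n → orderOf g = Nat.lcm (M j) (M (n - j)) := by
    intro j
    by_cases hj : 1 ≤ j ∧ 2 * j < n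
    · obtain ⟨g, hg⟩ := exists_orderOf_eq_lcm (F := F) (a := j) (b := n - j) (n := n) (M := M j) (M' := M (n - j))
        hj.1 (by omega) (by omega) (by rw [hF]; exact hM1 j) (by rw [hF]; exact hM1 _)
      exact ⟨g, fun _ _ => hg⟩
    · exact ⟨1, fun h1 h2 => absurd ⟨h1, h2⟩ hj⟩
  choose h hh using hbin
  obtain ⟨hn', hhn⟩ := exists_orderOf_eq_of_dvd (F := F) (d := n) (M := M n) (by omega) (by rw [hF]; exact hM1 n)
  -- the 2-part
  obtain ⟨t, ht⟩ : ∃ t : GL (Fin n) F, orderOf t = 2 ^ m.factorization 2 := by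
    by_cases hv : m.factorization 2 = 0
    · exact ⟨1, by simp [hv]⟩
    · have h1 : 2 ^ m.factorization 2 ∣ Finset.univ.lcm (fun i => orderOf (x i)) := by
        rw [← hmlcm]; exact Nat.ordProj_dvd m 2
      obtain ⟨i, -, hi⟩ := prime_pow_dvd_finset_lcm Nat.prime_two (Nat.pos_of_ne_zero hv) _ _ h1
      have hne : orderOf (x i) ≠ 0 := (orderOf_pos _).ne'
      refine ⟨(x i) ^ (orderOf (x i) / 2 ^ m.factorization 2), ?_⟩
      rw [orderOf_pow_of_dvd _ (Nat.div_dvd_of_dvd hi), Nat.div_div_self hi hne]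
      exact (Nat.div_pos (Nat.le_of_dvd (Nat.pos_of_ne_zero hne) hi) (by positivity)).ne'
  -- the new tuple
  let Y : ℕ → GL (Fin n) F := fun i => if i = 0 then t else if i = 1 then hn' else h (i - 1)
  let y : Fin ((n + 3) / 2) → GL (Fin n) F := fun i => Y i
  refine ⟨y, ?_⟩
  rw [Pi.orderOf y]
  apply Nat.dvd_antisymm
  · apply Finset.lcm_dvd
    intro i _
    change orderOf (Y i) ∣ m
    by_cases h0 : (i : ℕ) = 0
    · simp only [Y, h0, if_true, ht]
      exact Nat.ordProj_dvd m 2
    · by_cases h1 : (i : ℕ) = 1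
      · simp only [Y, h1, if_true]
        simp only [one_ne_zero, if_false]
        rw [hhn]
        exact hMm n
      · simp only [Y, h0, h1, if_false]
        have hi := i.2
        rw [hh _ (by omega) (by omega)]
        exact Nat.lcm_dvd (hMm _) (hMm _)
  · rw [Nat.dvd_iff_prime_pow_dvd_dvd]
    intro p a hp hpa
    by_cases ha : a = 0
    · subst ha; simp
    have hpm : p ∣ m := (dvd_pow_self p ha).trans hpa
    have hale : p ^ a ∣ p ^ m.factorization p :=
      pow_dvd_pow _ ((hp.pow_dvd_iff_le_factorization hm0).1 hpa)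
    have key : ∀ i : Fin ((n + 3) / 2), p ^ m.factorization p ∣ orderOf (y i) →
        p ^ a ∣ Finset.univ.lcm (fun i => orderOf (y i)) := by
      intro i hi
      exact hale.trans (hi.trans (Finset.dvd_lcm (Finset.mem_univ i)))
    by_cases hp2 : p = 2
    · subst hp2
      refine key ⟨0, by omega⟩ ?_
      change _ ∣ orderOf (Y 0)
      simp only [Y, if_true, ht]
      exact dvd_rfl
    · obtain ⟨hd1, hdn, -, h2d⟩ := hdeg p hp hpm hp2
      have hMd := hMp p hp hpm hp2
      by_cases hdn' : deg p = n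
      · refine key ⟨1, by omega⟩ ?_
        change _ ∣ orderOf (Y 1)
        simp only [Y, one_ne_zero, if_false, if_true]
        rw [hhn, ← hdn']
        exact hMd
      · by_cases hlt : 2 * deg p < n
        · refine key ⟨deg p + 1, by omega⟩ ?_
          change _ ∣ orderOf (Y (deg p + 1))
          have e1 : deg p + 1 ≠ 0 := by omega
          have e2 : deg p + 1 ≠ 1 := by omega
          simp only [Y, e1, e2, if_false]
          rw [hh _ (by omega) (by omega)]
          simp only [Nat.add_sub_cancel]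
          exact hMd.trans (Nat.dvd_lcm_left _ _)
        · refine key ⟨n - deg p + 1, by omega⟩ ?_
          change _ ∣ orderOf (Y (n - deg p + 1))
          have e1 : n - deg p + 1 ≠ 0 := by omega
          have e2 : n - deg p + 1 ≠ 1 := by omega
          simp only [Y, e1, e2, if_false]
          rw [hh _ (by omega) (by omega)]
          simp only [Nat.add_sub_cancel]
          have e3 : n - (n - deg p) = deg p := by omega
          rw [e3]
          exact hMd.trans (Nat.dvd_lcm_right _ _)

/-- `PSL_n(F)` is `GL_n(F)` when `|F| = 2`. -/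
noncomputable def pslEquivGL (hF : Fintype.card F = 2) (n : ℕ) (hn : 2 ≤ n) :
    Matrix.ProjectiveSpecialLinearGroup (Fin n) F ≃* GL (Fin n) F := by
  have hcenter : Subgroup.center (Matrix.SpecialLinearGroup (Fin n) F) = ⊥ := by
    rw [eq_bot_iff]
    intro A hA
    obtain ⟨r, hr, hrA⟩ := Matrix.SpecialLinearGroup.mem_center_iff.1 hA
    have hr1 : r = 1 := by
      rcases elim_two hF r with h | h
      · subst h
        rw [Fintype.card_fin, zero_pow (by omega)] at hr
        exact absurd hr zero_ne_one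
      · exact h
    subst hr1
    rw [Subgroup.mem_bot]
    apply Subtype.ext
    simpa using hrA.symm
  have hsurj : Function.Surjective (Matrix.SpecialLinearGroup.toGL (n := Fin n) (R := F)) := by
    intro g
    have hdet : (g : Matrix (Fin n) (Fin n) F).det ≠ 0 :=
      ((Matrix.isUnit_iff_isUnit_det _).1 g.isUnit).ne_zero
    have hdet1 : (g : Matrix (Fin n) (Fin n) F).det = 1 := by
      rcases elim_two hF (g : Matrix (Fin n) (Fin n) F).det with h | h
      · exact absurd h hdet
      · exact h
    exact ⟨⟨_, hdet1⟩, Units.ext rfl⟩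
  exact (QuotientGroup.quotientMulEquivOfEq hcenter).trans
    (QuotientGroup.quotientBot.trans
      (MulEquiv.ofBijective Matrix.SpecialLinearGroup.toGL
        ⟨Matrix.SpecialLinearGroup.toGL_injective, hsurj⟩))

/-- Let F be the field with two elements, n ≥ 2, L = PSL(n, F) and k₀ = ⌊(n + 3)/2⌋. Then for every k ≥ k₀ the direct product of k copies of L has the same set of element orders as the direct product of k₀ copies of L. -/
theorem result {F : Type*} [Field F] [Fintype F] (hF : Fintype.card F = 2) (n k : ℕ) (hn : 2 ≤ n) (hk : (n + 3) / 2 ≤ k) :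
    Set.range (orderOf : (Fin k → Matrix.ProjectiveSpecialLinearGroup (Fin n) F) → ℕ) = Set.range (orderOf : (Fin ((n + 3) / 2) → Matrix.ProjectiveSpecialLinearGroup (Fin n) F) → ℕ) := by
  classical
  have E := pslEquivGL hF n hn
  ext a
  constructor
  · rintro ⟨z, rfl⟩
    obtain ⟨y, hy⟩ := main_gl hF n k hn (fun i => E (z i))
    refine ⟨fun i => E.symm (y i), ?_⟩
    have e1 : orderOf (fun i => E.symm (y i)) = orderOf y :=
      MulEquiv.orderOf_eq (MulEquiv.piCongrRight (fun _ : Fin ((n + 3) / 2) => E.symm)) y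
    have e2 : orderOf (fun i => E (z i)) = orderOf z :=
      MulEquiv.orderOf_eq (MulEquiv.piCongrRight (fun _ : Fin k => E)) z
    rw [e1, hy, e2]
  · rintro ⟨z, rfl⟩
    refine ⟨fun i => if h : (i : ℕ) < (n + 3) / 2 then z ⟨i, h⟩ else 1, ?_⟩
    rw [orderOf_eq_orderOf_iff]
    intro N
    constructor
    · intro h
      funext i
      have := congrFun h ⟨i, by have := i.2; omega⟩
      simpa [i.2] using this
    · intro h
      funext i
      by_cases hi : (i : ℕ) < (n + 3) / 2
      · have := congrFun h ⟨i, hi⟩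
        simpa [hi] using this
      · simp [hi]

end Cfsg.Agent.S2513
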