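import Cfsg.Statements.S2514
import Mathlib
-- import your own Cfsg.Agent.* helpers here

set_option autoImplicit false
open Cfsg

namespace Cfsg.Agent.S2514

section aux

/-- Two elements with the same annihilating exponents have the same order. -/
theorem orderOf_eq_of_pow_iff {A B : Type*} [Monoid A] [Monoid B] {x : A} {y : B}
    (h : ∀ m : ℕ, x ^ m = 1 ↔ y ^ m = 1) : orderOf x = orderOf y := by
  apply Nat.dvd_antisymm
  · exact orderOf_dvd_of_pow_eq_one ((h _).mpr (pow_orderOf_eq_one y))
  · exact orderOf_dvd_of_pow_eq_one ((h _).mp (pow_orderOf_eq_one x))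

theorem pi_pow_eq_one {ι A : Type*} [Monoid A] (a : ι → A) (n : ℕ) :
    a ^ n = 1 ↔ ∀ i, a i ^ n = 1 :=
  ⟨fun h i => congrFun h i, fun h => funext h⟩

theorem prod_pow_eq_one {A B : Type*} [Monoid A] [Monoid B] (a : A) (b : B) (n : ℕ) :
    (a, b) ^ n = 1 ↔ a ^ n = 1 ∧ b ^ n = 1 :=
  ⟨fun h => ⟨congrArg Prod.fst h, congrArg Prod.snd h⟩, fun h => Prod.ext h.1 h.2⟩

variable {G : Type*} [Group G] [Finite G]

/-- Every element order divides a maximal element order. -/
theorem exists_max_order (g : G) :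
    ∃ n ∈ {n : ℕ | n ∈ Set.range (orderOf : G → ℕ) ∧ ∀ m ∈ Set.range (orderOf : G → ℕ), n ∣ m → m = n},
      orderOf g ∣ n := by
  classical
  have hfin : (Set.range (orderOf : G → ℕ)).Finite := Set.finite_range _
  let S : Set ℕ := {n | n ∈ Set.range (orderOf : G → ℕ) ∧ orderOf g ∣ n}
  have hSfin : S.Finite := hfin.subset (fun n hn => hn.1)
  have hSne : S.Nonempty := ⟨orderOf g, ⟨g, rfl⟩, dvd_refl _⟩
  obtain ⟨n, hnS, hmax⟩ := Set.exists_max_image S id hSfin hSne
  refine ⟨n, ⟨hnS.1, fun m hm hnm => ?_⟩, hnS.2⟩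
  have hmS : m ∈ S := ⟨hm, hnS.2.trans hnm⟩
  have h1 : m ≤ n := hmax m hmS
  obtain ⟨y, rfl⟩ := hm
  have hmpos : 0 < orderOf y := orderOf_pos y
  exact le_antisymm h1 (Nat.le_of_dvd hmpos hnm)

/-- Element orders are closed under divisors. -/
theorem exists_order_of_dvd (g : G) {d : ℕ} (hd : d ∣ orderOf g) : ∃ y : G, orderOf y = d :=
  ⟨g ^ (orderOf g / d), orderOf_pow_orderOf_div (orderOf_pos g).ne' hd⟩

end aux

/-- For a finite group X write μ(X) for the set of element orders of X that are maximal under divisibility. Let G and H be finite groups and k ≥ 1 such that μ(H) ⊆ μ(G) and μ(G) has fewer than k elements outside μ(H). Then the direct product of k copies of G has the same set of element orders as the direct product of k − 1 copies of G with H. -/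
theorem result {G H : Type*} [Group G] [Finite G] [Group H] [Finite H] (k : ℕ) (hk : 1 ≤ k)
    (hsub : {n : ℕ | n ∈ Set.range (orderOf : H → ℕ) ∧ ∀ m ∈ Set.range (orderOf : H → ℕ), n ∣ m → m = n} ⊆ {n : ℕ | n ∈ Set.range (orderOf : G → ℕ) ∧ ∀ m ∈ Set.range (orderOf : G → ℕ), n ∣ m → m = n})
    (hfew : ({n : ℕ | n ∈ Set.range (orderOf : G → ℕ) ∧ ∀ m ∈ Set.range (orderOf : G → ℕ), n ∣ m → m = n} \ {n : ℕ | n ∈ Set.range (orderOf : H → ℕ) ∧ ∀ m ∈ Set.range (orderOf : H → ℕ), n ∣ m → m = n}).ncard < k) :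
    Set.range (orderOf : (Fin k → G) → ℕ) = Set.range (orderOf : (Fin (k - 1) → G) × H → ℕ) := by
  classical
  obtain ⟨k', rfl⟩ : ∃ k', k = k' + 1 := ⟨k - 1, by omega⟩
  show Set.range (orderOf : (Fin (k' + 1) → G) → ℕ) = Set.range (orderOf : (Fin k' → G) × H → ℕ)
  set μG := {n : ℕ | n ∈ Set.range (orderOf : G → ℕ) ∧ ∀ m ∈ Set.range (orderOf : G → ℕ), n ∣ m → m = n} with hμG
  set μH := {n : ℕ | n ∈ Set.range (orderOf : H → ℕ) ∧ ∀ m ∈ Set.range (orderOf : H → ℕ), n ∣ m → m = n} with hμH
  apply Set.Subset.antisymm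
  · -- `⊆`
    rintro _ ⟨f, rfl⟩
    choose m hm hfm using fun i : Fin (k' + 1) => exists_max_order (f i)
    by_cases hA : ∃ i, m i ∈ μH
    · obtain ⟨i, hi⟩ := hA
      obtain ⟨⟨h₀, hh₀⟩, -⟩ := hi
      obtain ⟨h, hh⟩ := exists_order_of_dvd h₀ (d := orderOf (f i)) (by rw [hh₀]; exact hfm i)
      refine ⟨(fun j => f (i.succAbove j), h), ?_⟩
      symm
      apply orderOf_eq_of_pow_iff
      intro n
      rw [prod_pow_eq_one, pi_pow_eq_one, pi_pow_eq_one]
      constructor
      · intro h1
        refine ⟨fun j => h1 _, ?_⟩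
        rw [← orderOf_dvd_iff_pow_eq_one, hh]
        exact orderOf_dvd_of_pow_eq_one (h1 i)
      · rintro ⟨h2, h3⟩ j
        refine Fin.succAboveCases i ?_ (fun l => ?_) j
        · rw [← orderOf_dvd_iff_pow_eq_one, ← hh]
          exact orderOf_dvd_of_pow_eq_one h3
        · exact h2 l
    · push Not at hA
      -- pigeonhole
      let S := μG \ μH
      have hSfin : S.Finite := by
        apply Set.Finite.subset (Set.finite_range (orderOf : G → ℕ))
        exact fun n hn => hn.1.1
      have : Fintype S := hSfin.fintype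
      have hcard : Fintype.card S < Fintype.card (Fin (k' + 1)) := by
        rw [Fintype.card_fin, ← Nat.card_eq_fintype_card, Nat.card_coe_set_eq]
        exact hfew
      obtain ⟨i, j, hij, hmij⟩ := Fintype.exists_ne_map_eq_of_card_lt
        (fun i : Fin (k' + 1) => (⟨m i, hm i, hA i⟩ : S)) hcard
      have hmij' : m i = m j := congrArg Subtype.val hmij
      obtain ⟨⟨g₀, hg₀⟩, -⟩ := hm i
      have hl : Nat.lcm (orderOf (f i)) (orderOf (f j)) ∣ orderOf g₀ := by
        rw [hg₀]
        exact Nat.lcm_dvd (hfm i) (hmij' ▸ hfm j)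
      obtain ⟨g', hg'⟩ := exists_order_of_dvd g₀ hl
      refine ⟨(fun l => Function.update f i g' (j.succAbove l), 1), ?_⟩
      symm
      apply orderOf_eq_of_pow_iff
      intro n
      rw [prod_pow_eq_one, pi_pow_eq_one, pi_pow_eq_one]
      constructor
      · intro h1
        refine ⟨fun l => ?_, one_pow n⟩
        by_cases hl' : j.succAbove l = i
        · rw [hl', Function.update_self, ← orderOf_dvd_iff_pow_eq_one, hg']
          exact Nat.lcm_dvd (orderOf_dvd_of_pow_eq_one (h1 i)) (orderOf_dvd_of_pow_eq_one (h1 j))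
        · rw [Function.update_of_ne hl']
          exact h1 _
      · rintro ⟨h2, -⟩
        have hg'n : g' ^ n = 1 := by
          obtain ⟨l, hl'⟩ := Fin.exists_succAbove_eq hij
          have := h2 l
          rwa [hl', Function.update_self] at this
        have hdvd : Nat.lcm (orderOf (f i)) (orderOf (f j)) ∣ n := by
          rw [← hg']
          exact orderOf_dvd_of_pow_eq_one hg'n
        intro a
        by_cases hai : a = i
        · rw [hai, ← orderOf_dvd_iff_pow_eq_one]
          exact (Nat.dvd_lcm_left _ _).trans hdvd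
        by_cases haj : a = j
        · rw [haj, ← orderOf_dvd_iff_pow_eq_one]
          exact (Nat.dvd_lcm_right _ _).trans hdvd
        obtain ⟨l, hl'⟩ := Fin.exists_succAbove_eq haj
        have := h2 l
        rwa [hl', Function.update_of_ne hai] at this
  · -- `⊇`
    rintro _ ⟨⟨g, h⟩, rfl⟩
    obtain ⟨n, hn, hhn⟩ := exists_max_order h
    obtain ⟨⟨g₀, hg₀⟩, -⟩ := hsub hn
    obtain ⟨g', hg'⟩ := exists_order_of_dvd g₀ (d := orderOf h) (by rw [hg₀]; exact hhn)
    refine ⟨Fin.cons g' g, ?_⟩
    apply orderOf_eq_of_pow_iff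
    intro n
    rw [prod_pow_eq_one, pi_pow_eq_one, pi_pow_eq_one]
    constructor
    · intro h1
      have h2 : g' ^ n = 1 := by
        have := h1 0
        simpa using this
      refine ⟨fun l => ?_, ?_⟩
      · have := h1 l.succ
        simpa using this
      · rw [← orderOf_dvd_iff_pow_eq_one, ← hg']
        exact orderOf_dvd_of_pow_eq_one h2
    · rintro ⟨h2, h3⟩ a
      refine Fin.cases ?_ (fun l => ?_) a
      · simp only [Fin.cons_zero]
        rw [← orderOf_dvd_iff_pow_eq_one, hg']
        exact orderOf_dvd_of_pow_eq_one h3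
      · simp only [Fin.cons_succ]
        exact h2 l

end Cfsg.Agent.S2514
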