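import Cfsg.Statements.S2515
import Cfsg.Agent.Lib.TruncRee.Main

set_option autoImplicit false
open Cfsg

namespace Cfsg.Agent.S2515

/-- Let q = 3^α with α ≥ 3 odd. There is a finite group H having a non-trivial normal 3-subgroup and whose element orders maximal under divisibility are exactly 6, 9, q − 1 and (q + 1)/2. -/
theorem result (α : ℕ) (hα : 3 ≤ α) (hodd : Odd α) :
    ∃ (H : Type) (_ : Group H) (_ : Fintype H), (∃ P : Subgroup H, P.Normal ∧ P ≠ ⊥ ∧ IsPGroup 3 ↥P) ∧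
      {n : ℕ | n ∈ Set.range (orderOf : H → ℕ) ∧ ∀ m ∈ Set.range (orderOf : H → ℕ), n ∣ m → m = n} = ({6, 9, 3 ^ α - 1, (3 ^ α + 1) / 2} : Set ℕ) := by
  classical
  haveI : Fact (Nat.Prime 3) := ⟨Nat.prime_three⟩
  have hα0 : α ≠ 0 := by omega
  haveI : Finite (GaloisField 3 α) := Nat.finite_of_card_ne_zero (by rw [GaloisField.card 3 α hα0]; positivity)
  letI : Fintype (GaloisField 3 α) := Fintype.ofFinite _
  have hcard : Fintype.card (GaloisField 3 α) = 3 ^ α := by
    rw [← Nat.card_eq_fintype_card, GaloisField.card 3 α hα0]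
  haveI : Finite (Cfsg.Agent.Lib.TruncRee.HH (GaloisField 3 α)) := Cfsg.Agent.Lib.TruncRee.instFiniteHH
  obtain ⟨t, rfl⟩ := hodd
  have h8 : Fintype.card (GaloisField 3 (2 * t + 1)) % 8 = 3 := by
    rw [hcard, pow_succ, pow_mul]
    have : ∀ t : ℕ, (3 ^ 2) ^ t % 8 = 1 := by
      intro t
      rw [Nat.pow_mod]
      norm_num
    rw [Nat.mul_mod, this]
  have h3 : 3 ∣ Fintype.card (GaloisField 3 (2 * t + 1)) := by
    rw [hcard]
    exact dvd_pow_self 3 (by omega)
  have h27 : 27 ≤ Fintype.card (GaloisField 3 (2 * t + 1)) := by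
    rw [hcard]
    calc 27 = 3 ^ 3 := by norm_num
      _ ≤ 3 ^ (2 * t + 1) := Nat.pow_le_pow_right (by norm_num) hα
  refine ⟨Cfsg.Agent.Lib.TruncRee.HH (GaloisField 3 (2 * t + 1)), inferInstance, Fintype.ofFinite _, ?_⟩
  have := Cfsg.Agent.Lib.TruncRee.main_field (F := GaloisField 3 (2 * t + 1)) h8 h3 h27
  rw [hcard] at this
  exact this

end Cfsg.Agent.S2515
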