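import Cfsg.Statements.S2516
import Mathlib
-- import your own Cfsg.Agent.* helpers here

set_option autoImplicit false
open Cfsg

namespace Cfsg.Agent.S2516

section

variable {F : Type*} [Field F] {V : Type*} [AddCommGroup V] [Module F V]
  {G : Type*} [Group G] (ρ : Representation F G V)

/-- The semidirect product in the statement. -/
abbrev SD := Multiplicative V ⋊[(MulAutMultiplicative V).symm.toMonoidHom.comp
        ((DistribMulAction.toAddAut ((V →ₗ[F] V)ˣ) V).comp ρ.asGroupHom)] G

theorem sd_pow (x : SD ρ) (n : ℕ) :
    (x ^ n).right = x.right ^ n ∧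
    (x ^ n).left = Multiplicative.ofAdd
      (∑ i ∈ Finset.range n, (ρ x.right ^ i) (Multiplicative.toAdd x.left)) := by
  induction n with
  | zero =>
    constructor
    · simp
    · simp
  | succ n ih =>
    rw [pow_succ]
    constructor
    · rw [SemidirectProduct.mul_right, ih.1, pow_succ]
    · rw [SemidirectProduct.mul_left, ih.2, ih.1, Finset.sum_range_succ, ofAdd_add]
      congr 1
      change Multiplicative.ofAdd ((ρ (x.right ^ n)) (Multiplicative.toAdd x.left)) = _
      rw [map_pow]

end

/-- Let F be a field of characteristic p > 0, V a non-zero finite-dimensional F-vector space, G a finite group and ρ a representation of G on V; form the semidirect product V ⋊ G. For g ∈ G of order k, the coset Vg contains an element of order pk if and only if the minimal polynomial of ρ(g) does not divide 1 + X + ⋯ + X^(k−1). -/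
theorem result {F : Type*} [Field F] (p : ℕ) [Fact p.Prime] [CharP F p] {V : Type*} [AddCommGroup V] [Module F V] [FiniteDimensional F V] [Nontrivial V]
    {G : Type*} [Group G] [Finite G] (ρ : Representation F G V) (g : G) :
    (∃ x : Multiplicative V ⋊[(MulAutMultiplicative V).symm.toMonoidHom.comp
        ((DistribMulAction.toAddAut ((V →ₗ[F] V)ˣ) V).comp ρ.asGroupHom)] G,
        x.right = g ∧ orderOf x = p * orderOf g) ↔
      ¬ (minpoly F (ρ g) ∣ ∑ i ∈ Finset.range (orderOf g), (Polynomial.X : Polynomial F) ^ i) := by
  classical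
  set k := orderOf g with hk
  have hkpos : 0 < k := orderOf_pos g
  have hp : p.Prime := Fact.out
  set N : Module.End F V := ∑ i ∈ Finset.range k, (ρ g) ^ i with hN
  have hdvd : minpoly F (ρ g) ∣ ∑ i ∈ Finset.range k, (Polynomial.X : Polynomial F) ^ i ↔ N = 0 := by
    have h1 : Polynomial.aeval (ρ g) (∑ i ∈ Finset.range k, (Polynomial.X : Polynomial F) ^ i) = N := by
      simp [hN, map_sum]
    rw [← h1]
    exact minpoly.dvd_iff
  rw [hdvd]
  constructor
  · rintro ⟨x, hx, hord⟩ hN0
    have hpow : x ^ k = 1 := by
      have h2 := sd_pow ρ x k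
      apply SemidirectProduct.ext
      · rw [h2.2, hx]
        have : (∑ i ∈ Finset.range k, (ρ g ^ i) (Multiplicative.toAdd x.left)) = 0 := by
          have h3 := congrArg (fun f : Module.End F V => f (Multiplicative.toAdd x.left)) hN0
          simpa [hN, LinearMap.sum_apply] using h3
        rw [this]; rfl
      · rw [h2.1, hx, hk, pow_orderOf_eq_one]; rfl
    have h4 := orderOf_dvd_of_pow_eq_one hpow
    rw [hord] at h4
    have h5 := Nat.le_of_dvd hkpos h4
    have h6 := hp.two_le
    nlinarith
  · intro hN0
    obtain ⟨v, hv⟩ : ∃ v, N v ≠ 0 := by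
      by_contra hcon
      push Not at hcon
      exact hN0 (LinearMap.ext hcon)
    let x : SD ρ := ⟨Multiplicative.ofAdd v, g⟩
    have hxk := sd_pow ρ x k
    have hsum : (∑ i ∈ Finset.range k, (ρ x.right ^ i) (Multiplicative.toAdd x.left)) = N v := by
      simp [x, hN, LinearMap.sum_apply]
    rw [hsum] at hxk
    have hxk1 : x ^ k ≠ 1 := by
      intro h
      have h2 := hxk.2
      rw [h] at h2
      exact hv (Multiplicative.ofAdd.injective h2.symm)
    have hright : (x ^ k).right = 1 := by
      rw [hxk.1]; exact pow_orderOf_eq_one g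
    have hpk : x ^ (k * p) = 1 := by
      rw [pow_mul]
      have h2 := sd_pow ρ (x ^ k) p
      apply SemidirectProduct.ext
      · rw [h2.2, hright]
        have h3 : (∑ i ∈ Finset.range p, (ρ 1 ^ i) (Multiplicative.toAdd (x ^ k).left)) = 0 := by
          simp only [map_one, one_pow, Module.End.one_apply, Finset.sum_const, Finset.card_range]
          rw [← Nat.cast_smul_eq_nsmul F, CharP.cast_eq_zero F p, zero_smul]
        rw [h3]; rfl
      · rw [h2.1, hright, one_pow]; rfl
    refine ⟨x, rfl, ?_⟩
    -- the order
    have hd1 : orderOf x ∣ k * p := orderOf_dvd_of_pow_eq_one hpk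
    have hd2 : k ∣ orderOf x := by
      rw [hk]
      apply orderOf_dvd_of_pow_eq_one
      have h2 := sd_pow ρ x (orderOf x)
      rw [pow_orderOf_eq_one] at h2
      exact h2.1.symm
    obtain ⟨e, he⟩ := hd2
    rw [he] at hd1
    have he2 : e ∣ p := Nat.dvd_of_mul_dvd_mul_left hkpos hd1
    rcases (Nat.dvd_prime hp).1 he2 with rfl | rfl
    · exfalso
      apply hxk1
      rw [mul_one] at he
      rw [← he]
      exact pow_orderOf_eq_one x
    · rw [he, mul_comm]

end Cfsg.Agent.S2516
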