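import Cfsg.Statements.S2518
import Mathlib
import Cfsg.Agent.Lib.Compute.G23Main

set_option autoImplicit false
open Cfsg

namespace Cfsg.Agent.S2518

open Cfsg.Agent.Lib.Compute.G23 Matrix

theorem charP_thirteen {E : Type*} [Field E] [Fintype E] (hE : Fintype.card E = 13) : CharP E 13 := by
  have h1 : ((13 : ℕ) : E) = 0 := by
    rw [← hE]
    exact Nat.cast_card_eq_zero E
  obtain ⟨p, hp⟩ := CharP.exists E
  have hd : p ∣ 13 := (CharP.cast_eq_zero_iff E p 13).1 h1
  have hp1 : p ≠ 1 := CharP.char_ne_one E p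
  rcases (Nat.dvd_prime (by norm_num)).1 hd with h | h
  · exact absurd h hp1
  · rw [h] at hp
    exact hp

theorem card_psl {E : Type*} [Field E] [Fintype E] (hE : Fintype.card E = 13) :
    Nat.card (Matrix.ProjectiveSpecialLinearGroup (Fin 2) E) = 1092 := by
  have := charP_thirteen hE
  have h2 : (2 : E) ≠ 0 := by
    intro h
    have h3 : ((2 : ℕ) : E) = 0 := by exact_mod_cast h
    have h4 := (CharP.cast_eq_zero_iff E 13 2).1 h3
    norm_num at h4
  have h := Cfsg.Agent.Lib.PSL2.Basic.card_PSL2_of_two_ne_zero (F := E) h2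
  rw [hE] at h
  norm_num at h
  omega

theorem psl_exists_iff {E : Type*} [Field E] [Fintype E] (hE : Fintype.card E = 13)
    (r s : ℕ) (hr : r.Prime) (hs : s.Prime) (hrs : r ≠ s) :
    (∃ y : Matrix.ProjectiveSpecialLinearGroup (Fin 2) E, orderOf y = r * s) ↔ r * s = 6 := by
  have := charP_thirteen hE
  haveI : Fact (Nat.Prime 13) := ⟨by norm_num⟩
  have h := Cfsg.Agent.Lib.PSL2.Spectrum.range_orderOf (F := E) 13
  rw [hE] at h
  have hg : (13 - 1) / Nat.gcd 2 (13 - 1) = 6 := by norm_num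
  have hg' : (13 + 1) / Nat.gcd 2 (13 - 1) = 7 := by norm_num
  rw [hg, hg'] at h
  have key : ∀ m : ℕ, (∃ y : Matrix.ProjectiveSpecialLinearGroup (Fin 2) E, orderOf y = m) ↔
      (m ∣ 13 ∨ m ∣ 6 ∨ m ∣ 7) := by
    intro m
    have h1 : m ∈ Set.range (orderOf : Matrix.ProjectiveSpecialLinearGroup (Fin 2) E → ℕ) ↔
        m ∈ {m : ℕ | m ∣ 13 ∨ m ∣ 6 ∨ m ∣ 7} := by rw [h]
    exact h1
  rw [key]
  have hr2 := hr.two_le
  have hs2 := hs.two_le
  constructor
  · rintro (h1 | h1 | h1)
    · have h3 := (Nat.prime_dvd_prime_iff_eq hr (by norm_num)).1 ((Dvd.intro _ rfl).trans h1)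
      have h4 := (Nat.prime_dvd_prime_iff_eq hs (by norm_num)).1 ((Dvd.intro_left _ rfl).trans h1)
      exact absurd (h3.trans h4.symm) hrs
    · have h6 : (6 : ℕ) = 2 * 3 := by norm_num
      have h3 : r ∣ 2 * 3 := h6 ▸ (Dvd.intro _ rfl).trans h1
      have h4 : s ∣ 2 * 3 := h6 ▸ (Dvd.intro_left _ rfl).trans h1
      have hrc : r = 2 ∨ r = 3 := by
        rcases (Nat.Prime.dvd_mul hr).1 h3 with h5 | h5
        · exact Or.inl ((Nat.prime_dvd_prime_iff_eq hr (by norm_num)).1 h5)
        · exact Or.inr ((Nat.prime_dvd_prime_iff_eq hr (by norm_num)).1 h5)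
      have hsc : s = 2 ∨ s = 3 := by
        rcases (Nat.Prime.dvd_mul hs).1 h4 with h5 | h5
        · exact Or.inl ((Nat.prime_dvd_prime_iff_eq hs (by norm_num)).1 h5)
        · exact Or.inr ((Nat.prime_dvd_prime_iff_eq hs (by norm_num)).1 h5)
      rcases hrc with rfl | rfl <;> rcases hsc with rfl | rfl <;> simp at hrs ⊢
    · have h3 := (Nat.prime_dvd_prime_iff_eq hr (by norm_num)).1 ((Dvd.intro _ rfl).trans h1)
      have h4 := (Nat.prime_dvd_prime_iff_eq hs (by norm_num)).1 ((Dvd.intro_left _ rfl).trans h1)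
      exact absurd (h3.trans h4.symm) hrs
  · intro h1
    rw [h1]
    exact Or.inr (Or.inl dvd_rfl)

/-- Let F₃ be the field with 3 elements and F₁₃ the field with 13 elements. The Chevalley group G₂(F₃) and PSL(2, F₁₃) have the same prime graph: the same prime divisors of their orders, and for distinct primes r, s an element of order rs in one iff in the other. -/
theorem result {F : Type*} [Field F] [Fintype F] (hF : Fintype.card F = 3) {E : Type*} [Field E] [Fintype E] (hE : Fintype.card E = 13) :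
    ((∀ r : ℕ, r.Prime → (r ∣ Nat.card ↥(Cfsg.Lie.chevG2.group F) ↔ r ∣ Nat.card (Matrix.ProjectiveSpecialLinearGroup (Fin 2) E))) ∧
      (∀ r s : ℕ, r.Prime → s.Prime → r ≠ s → ((∃ x : ↥(Cfsg.Lie.chevG2.group F), orderOf x = r * s) ↔ (∃ y : (Matrix.ProjectiveSpecialLinearGroup (Fin 2) E), orderOf y = r * s)))) := by
  refine ⟨fun r hr => ?_, fun r s hr hs hrs => ?_⟩
  · rw [card_GF hF, card_psl hE]
    exact prime_dvd_iff r hr
  · rw [G_exists_iff hF r s hr hs hrs, psl_exists_iff hE r s hr hs hrs]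

end Cfsg.Agent.S2518
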