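import Cfsg.Statements.S2519
import Mathlib
import Cfsg.Agent.Lib.G2Oct.Final
-- import your own Cfsg.Agent.* helpers here

set_option autoImplicit false
open Cfsg

namespace Cfsg.Agent.S2519

open Cfsg.Agent.Lib.G2Oct.Arith

/-- Let F be a finite field of odd order q = p^a ≥ 5. The element orders of the Chevalley group G₂(F) that are maximal under divisibility are exactly p(q + 1), p(q − 1), q² − 1, q² + q + 1, q² − q + 1, together with p² when p is 3 or 5. -/
theorem result {F : Type*} [Field F] [Fintype F] (p a : ℕ) (hp : p.Prime) (hp2 : p ≠ 2) (ha : 1 ≤ a) (hF : Fintype.card F = p ^ a) (hq5 : 5 ≤ Fintype.card F) :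
    {n : ℕ | n ∈ Set.range (orderOf : ↥(Cfsg.Lie.chevG2.group F) → ℕ) ∧ ∀ m ∈ Set.range (orderOf : ↥(Cfsg.Lie.chevG2.group F) → ℕ), n ∣ m → m = n} =
      ({p * (p ^ a + 1), p * (p ^ a - 1), p ^ (2 * a) - 1, p ^ (2 * a) + p ^ a + 1, p ^ (2 * a) - p ^ a + 1} : Set ℕ) ∪
        (if p = 3 ∨ p = 5 then ({p ^ 2} : Set ℕ) else ∅) := by
  classical
  haveI : Fact p.Prime := ⟨hp⟩
  haveI : CharP F p := Cfsg.Agent.Lib.G2Oct.Final.charP_of_card hp ha hF
  have hF' : Nat.card F = p ^ a := by rw [Nat.card_eq_fintype_card, hF]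
  obtain ⟨u, hu⟩ : ∃ u, p ^ a = u + 1 := ⟨p ^ a - 1, by
    have : 0 < p ^ a := pow_pos hp.pos a
    omega⟩
  have hu4 : 4 ≤ u := by
    rw [hF, hu] at hq5
    omega
  have hpu : p ∣ u + 1 := by
    rw [← hu]
    exact dvd_pow_self p (by omega)
  -- the upper bound
  have hup : ∀ g : ↥(Cfsg.Lie.chevG2.group F), ∃ m, InL p u m ∧ g ^ m = 1 := by
    intro g
    obtain ⟨m, hm, h⟩ := Cfsg.Agent.Lib.G2Oct.Final.upper_odd hp2 hF' ha g
    refine ⟨m, ?_, h⟩
    rcases hm with hm | hm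
    · unfold Cfsg.Agent.Lib.G2Oct.BranchA.Good at hm
      rw [hu] at hm
      rcases hm with rfl | rfl | rfl | rfl | rfl | ⟨h2, -⟩
      · refine Or.inr (Or.inr (Or.inr (Or.inl ?_)))
        ring
      · refine Or.inr (Or.inr (Or.inr (Or.inr (Or.inl ?_))))
        have e : (u + 1) ^ 2 = u ^ 2 + u + (u + 1) := by ring
        rw [e]
        simp
      · refine Or.inr (Or.inr (Or.inl ?_))
        have e : (u + 1) ^ 2 = u * (u + 2) + 1 := by ring
        rw [e]
        simp
      · refine Or.inr (Or.inl ?_)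
        simp only [Nat.add_sub_cancel]
        ring
      · refine Or.inl ?_
        ring
      · exact absurd h2 hp2
    · exact Or.inr (Or.inr (Or.inr (Or.inr (Or.inr hm))))
  have hlow : ∀ m, InL p u m → ∃ g : ↥(Cfsg.Lie.chevG2.group F), orderOf g = m := fun m hm =>
    Cfsg.Agent.Lib.G2Oct.Final.lower_odd hF ha hu hu4 hm
  have hset : ∀ n : ℕ, n ∈ (({p * (p ^ a + 1), p * (p ^ a - 1), p ^ (2 * a) - 1, p ^ (2 * a) + p ^ a + 1, p ^ (2 * a) - p ^ a + 1} : Set ℕ) ∪
        (if p = 3 ∨ p = 5 then ({p ^ 2} : Set ℕ) else ∅)) ↔ InL p u n := by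
    intro n
    have e1 : p ^ (2 * a) = (u + 1) ^ 2 := by
      rw [mul_comm, pow_mul, hu]
    have e2 : (u + 1) ^ 2 - 1 = u * (u + 2) := by
      have e : (u + 1) ^ 2 = u * (u + 2) + 1 := by ring
      rw [e]
      simp
    have e3 : (u + 1) ^ 2 + (u + 1) + 1 = u ^ 2 + 3 * u + 3 := by ring
    have e4 : (u + 1) ^ 2 - (u + 1) + 1 = u ^ 2 + u + 1 := by
      have e : (u + 1) ^ 2 = u ^ 2 + u + (u + 1) := by ring
      rw [e]
      simp
    have e5 : p * (u + 1 + 1) = p * (u + 2) := rfl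
    simp only [Set.mem_union, Set.mem_insert_iff, Set.mem_singleton_iff, e1, hu, e2, e3, e4, Nat.add_sub_cancel]
    unfold InL
    by_cases h35 : p = 3 ∨ p = 5
    · rw [if_pos h35]
      simp only [Set.mem_singleton_iff, h35, true_and]
      constructor
      · rintro ((h | h | h | h | h) | h)
        · exact Or.inl h
        · exact Or.inr (Or.inl h)
        · exact Or.inr (Or.inr (Or.inl h))
        · exact Or.inr (Or.inr (Or.inr (Or.inl h)))
        · exact Or.inr (Or.inr (Or.inr (Or.inr (Or.inl h))))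
        · exact Or.inr (Or.inr (Or.inr (Or.inr (Or.inr h))))
      · rintro (h | h | h | h | h | h)
        · exact Or.inl (Or.inl h)
        · exact Or.inl (Or.inr (Or.inl h))
        · exact Or.inl (Or.inr (Or.inr (Or.inl h)))
        · exact Or.inl (Or.inr (Or.inr (Or.inr (Or.inl h))))
        · exact Or.inl (Or.inr (Or.inr (Or.inr (Or.inr h))))
        · exact Or.inr h
    · rw [if_neg h35]
      simp only [Set.mem_empty_iff_false, or_false, h35, false_and]
  ext n
  rw [hset n]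
  constructor
  · rintro ⟨⟨g, rfl⟩, hmax⟩
    obtain ⟨m, hm, h⟩ := hup g
    obtain ⟨g', hg'⟩ := hlow m hm
    have h1 := hmax m ⟨g', hg'⟩ (orderOf_dvd_of_pow_eq_one h)
    rw [← h1]
    exact hm
  · intro hn
    obtain ⟨g, hg⟩ := hlow n hn
    refine ⟨⟨g, hg⟩, ?_⟩
    rintro m ⟨g', rfl⟩ hd
    obtain ⟨m', hm', h⟩ := hup g'
    have hd' : orderOf g' ∣ m' := orderOf_dvd_of_pow_eq_one h
    have h2 : n = m' := Cfsg.Agent.Lib.G2Oct.Arith.anti hp hpu hu4 hn hm' (hd.trans hd')
    rw [← h2] at hd'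
    exact Nat.dvd_antisymm hd' hd


end Cfsg.Agent.S2519
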