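import Cfsg.Statements.S2520
import Mathlib
import Cfsg.Agent.Lib.G2Oct.Final
-- import your own Cfsg.Agent.* helpers here

set_option autoImplicit false
open Cfsg

namespace Cfsg.Agent.S2520

/-- Let F be a finite field with q = 2^a ≥ 4 elements and G₂(F) the Chevalley group of type G₂ over it. Every element order of G₂(F) maximal under divisibility lies in the set {8, 12, 2(q + 1), 2(q − 1), q² − 1, q² + q + 1, q² − q + 1}, and every member of that set is an element order of G₂(F). -/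
theorem result {F : Type*} [Field F] [Fintype F] (a : ℕ) (ha : 2 ≤ a) (hF : Fintype.card F = 2 ^ a) :
    {n : ℕ | n ∈ Set.range (orderOf : ↥(Cfsg.Lie.chevG2.group F) → ℕ) ∧ ∀ m ∈ Set.range (orderOf : ↥(Cfsg.Lie.chevG2.group F) → ℕ), n ∣ m → m = n} ⊆ ({8, 12, 2 * (2 ^ a + 1), 2 * (2 ^ a - 1), 2 ^ (2 * a) - 1, 2 ^ (2 * a) + 2 ^ a + 1, 2 ^ (2 * a) - 2 ^ a + 1} : Set ℕ) ∧
    ({8, 12, 2 * (2 ^ a + 1), 2 * (2 ^ a - 1), 2 ^ (2 * a) - 1, 2 ^ (2 * a) + 2 ^ a + 1, 2 ^ (2 * a) - 2 ^ a + 1} : Set ℕ) ⊆ Set.range (orderOf : ↥(Cfsg.Lie.chevG2.group F) → ℕ) := by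
  classical
  haveI : Fact (Nat.Prime 2) := ⟨Nat.prime_two⟩
  have ha1 : 1 ≤ a := by omega
  haveI : CharP F 2 := Cfsg.Agent.Lib.G2Oct.Final.charP_of_card Nat.prime_two ha1 hF
  have hF' : Nat.card F = 2 ^ a := by rw [Nat.card_eq_fintype_card, hF]
  have hq4 : 4 ≤ 2 ^ a := by
    calc 4 = 2 ^ 2 := rfl
      _ ≤ 2 ^ a := Nat.pow_le_pow_right (by norm_num) ha
  have e1 : 2 ^ (2 * a) = (2 ^ a) ^ 2 := by
    rw [mul_comm, pow_mul]
  -- every number of the list is an order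
  have hlow : ({8, 12, 2 * (2 ^ a + 1), 2 * (2 ^ a - 1), 2 ^ (2 * a) - 1, 2 ^ (2 * a) + 2 ^ a + 1, 2 ^ (2 * a) - 2 ^ a + 1} : Set ℕ) ⊆
      Set.range (orderOf : ↥(Cfsg.Lie.chevG2.group F) → ℕ) := by
    intro n hn
    simp only [Set.mem_insert_iff, Set.mem_singleton_iff] at hn
    rcases hn with rfl | rfl | rfl | rfl | rfl | rfl | rfl
    · exact Cfsg.Agent.Lib.G2Oct.LowW.exists_order_8
    · exact Cfsg.Agent.Lib.G2Oct.LowW.exists_order_12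
    · obtain ⟨g, hg⟩ := Cfsg.Agent.Lib.G2Oct.LowPsi.exists_order_plus (F := F) (p := 2) ha1 hF'
      exact ⟨g, by rw [hg, mul_comm]⟩
    · obtain ⟨g, hg⟩ := Cfsg.Agent.Lib.G2Oct.LowPsi.exists_order_minus (F := F) (p := 2) ha1 hF'
      exact ⟨g, by rw [hg, mul_comm]⟩
    · obtain ⟨g, hg⟩ := Cfsg.Agent.Lib.G2Oct.LowSL.exists_order_sq_sub_one (F := F)
      exact ⟨g, by rw [hg, hF', e1]⟩
    · obtain ⟨g, hg⟩ := Cfsg.Agent.Lib.G2Oct.LowSL.exists_order_d3 (F := F) (by rw [hF]; omega)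
      exact ⟨g, by rw [hg, hF, e1]⟩
    · obtain ⟨g, hg⟩ := Cfsg.Agent.Lib.G2Oct.Low6.exists_order_d6 (F := F) (2 ^ a) hF (by omega)
      exact ⟨g, by rw [hg, e1]⟩
  refine ⟨?_, hlow⟩
  rintro n ⟨⟨g, rfl⟩, hmax⟩
  obtain ⟨m, hm, h⟩ := Cfsg.Agent.Lib.G2Oct.Final.upper_two hF' ha1 g
  have hmem : m ∈ ({8, 12, 2 * (2 ^ a + 1), 2 * (2 ^ a - 1), 2 ^ (2 * a) - 1, 2 ^ (2 * a) + 2 ^ a + 1, 2 ^ (2 * a) - 2 ^ a + 1} : Set ℕ) := by
    simp only [Set.mem_insert_iff, Set.mem_singleton_iff, e1]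
    rcases hm with hm | hm
    · unfold Cfsg.Agent.Lib.G2Oct.BranchA.Good at hm
      rcases hm with rfl | rfl | rfl | rfl | rfl | ⟨-, rfl⟩
      · exact Or.inr (Or.inr (Or.inr (Or.inr (Or.inr (Or.inl rfl)))))
      · exact Or.inr (Or.inr (Or.inr (Or.inr (Or.inr (Or.inr rfl)))))
      · exact Or.inr (Or.inr (Or.inr (Or.inr (Or.inl rfl))))
      · exact Or.inr (Or.inr (Or.inr (Or.inl (mul_comm _ _))))
      · exact Or.inr (Or.inr (Or.inl (mul_comm _ _)))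
      · exact Or.inr (Or.inl rfl)
    · exact Or.inl hm
  have h1 := hmax m (hlow hmem) (orderOf_dvd_of_pow_eq_one h)
  rw [← h1]
  exact hmem


end Cfsg.Agent.S2520
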