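import Cfsg.Statements.S2521
import Mathlib
-- import your own Cfsg.Agent.* helpers here

set_option autoImplicit false
open Cfsg

namespace Cfsg.Agent.S2521

/-- Let B be a finite group that is the semidirect product of a nilpotent normal subgroup U by an abelian subgroup T (U ∩ T = 1, UT = B), and let t ∈ T have centralizer exactly T. Then every element of the coset tU is conjugate to t in B: for each u ∈ U there is b ∈ B with b t b⁻¹ = t u. -/
theorem result {B : Type*} [Group B] [Finite B] (U T : Subgroup B) [U.Normal] (hU : Group.IsNilpotent ↥U) (hT : IsMulCommutative ↥T)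
    (hcompl : Subgroup.IsComplement' U T) (t : B) (ht : t ∈ T) (hreg : Subgroup.centralizer ({t} : Set B) = T) (u : B) (hu : u ∈ U) :
    ∃ b : B, b * t * b⁻¹ = t * u := by
  classical
  obtain ⟨hcop⟩ := (⟨hcompl⟩ : Nonempty (Subgroup.IsComplement' U T))
  have hUT : ∀ x ∈ U, x ∈ T → x = 1 := by
    intro x hx hx'
    have := hcompl.disjoint
    exact Subgroup.disjoint_def.mp this hx hx'
  let f : U → U := fun v => ⟨t⁻¹ * v * t * (v : B)⁻¹, by
    have h1 : t⁻¹ * (v : B) * t⁻¹⁻¹ ∈ U := ‹U.Normal›.conj_mem v v.2 t⁻¹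
    have h2 : t⁻¹ * (v : B) * t * (v : B)⁻¹ = (t⁻¹ * (v : B) * t⁻¹⁻¹) * (v : B)⁻¹ := by simp
    rw [h2]
    exact U.mul_mem h1 (U.inv_mem v.2)⟩
  have hinj : Function.Injective f := by
    intro v w hvw
    have h1 : t⁻¹ * (v : B) * t * (v : B)⁻¹ = t⁻¹ * (w : B) * t * (w : B)⁻¹ :=
      congrArg Subtype.val hvw
    have h2 : (w : B)⁻¹ * v ∈ Subgroup.centralizer ({t} : Set B) := by
      rw [Subgroup.mem_centralizer_singleton_iff]
      have h3 : (v : B) * t * (v : B)⁻¹ = (w : B) * t * (w : B)⁻¹ := by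
        have := congrArg (fun s => t * s) h1
        simpa [mul_assoc] using this
      calc (w : B)⁻¹ * v * t = (w : B)⁻¹ * ((v : B) * t * (v : B)⁻¹) * v := by group
        _ = (w : B)⁻¹ * ((w : B) * t * (w : B)⁻¹) * v := by rw [h3]
        _ = t * ((w : B)⁻¹ * v) := by group
    rw [hreg] at h2
    have h4 := hUT _ (U.mul_mem (U.inv_mem w.2) v.2) h2
    apply Subtype.ext
    have h5 : (v : B) = w := by
      have := congrArg (fun s => (w : B) * s) h4
      simpa using this
    exact h5
  obtain ⟨v, hv⟩ := Finite.surjective_of_injective hinj ⟨u, hu⟩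
  refine ⟨v, ?_⟩
  have h1 : t⁻¹ * (v : B) * t * (v : B)⁻¹ = u := congrArg Subtype.val hv
  rw [← h1]
  group

end Cfsg.Agent.S2521
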