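import Cfsg.Statements.S2522
import Mathlib
import Cfsg.Agent.Lib.Linalg.Sourour.Bridge
-- import your own Cfsg.Agent.* helpers here

set_option autoImplicit false
open Cfsg

namespace Cfsg.Agent.S2522

/-- Let K be a field with at least four elements (finite or infinite), n ≥ 3, and J ∈ GL(n, K) the regular unipotent matrix (ones on the diagonal and the superdiagonal, zeros elsewhere). Then every non-scalar g ∈ GL(n, K) with det g = 1 is a product of two GL(n, K)-conjugates of J. -/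
theorem result {K : Type*} [Field K] (hK : 4 ≤ Cardinal.mk K) (n : ℕ) (hn : 3 ≤ n) (J g : GL (Fin n) K)
    (hJ : ∀ i j : Fin n, (J : Matrix (Fin n) (Fin n) K) i j = if i = j then 1 else if j.val = i.val + 1 then 1 else 0)
    (hg : ¬ ∃ c : K, (g : Matrix (Fin n) (Fin n) K) = c • (1 : Matrix (Fin n) (Fin n) K))
    (hdet : (g : Matrix (Fin n) (Fin n) K).det = 1) :
    ∃ x y : GL (Fin n) K, g = (x * J * x⁻¹) * (y * J * y⁻¹) := by
  obtain ⟨m, rfl⟩ : ∃ m, n = m + 1 := ⟨n - 1, by omega⟩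
  let A : Module.End K (Fin (m + 1) → K) := Matrix.toLinAlgEquiv' (R := K) (g : Matrix (Fin (m + 1)) (Fin (m + 1)) K)
  have hAg : Matrix.toLinAlgEquiv' (R := K).symm A = (g : Matrix (Fin (m + 1)) (Fin (m + 1)) K) := by
    simp [A]
  have hdetA : LinearMap.det A = 1 := by
    have h1 : A = Matrix.toLin' (g : Matrix (Fin (m + 1)) (Fin (m + 1)) K) := by
      ext; simp [A, Matrix.toLinAlgEquiv'_apply]
    rw [h1, LinearMap.det_toLin', hdet]
  have hsA : ∀ a : K, A ≠ a • 1 := by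
    intro a h
    apply hg
    refine ⟨a, ?_⟩
    rw [← hAg, h, map_smul, map_one]
  obtain ⟨L, U, hL, hU, hfac⟩ := Cfsg.Agent.Lib.Linalg.Sourour.factor_of_nonscalar hK
    (by rw [Module.finrank_fin_fun]; omega) A hdetA hsA
  obtain ⟨x, hx⟩ := Cfsg.Agent.Lib.Linalg.Sourour.exists_conj_of_regU J hJ L hL
  obtain ⟨y, hy⟩ := Cfsg.Agent.Lib.Linalg.Sourour.exists_conj_of_regU J hJ U hU
  refine ⟨x, y, Units.ext ?_⟩
  rw [Units.val_mul (x * J * x⁻¹), ← hx, ← hy, ← map_mul, ← hfac, hAg]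

end Cfsg.Agent.S2522
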