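import Cfsg.Statements.S2553
import Mathlib
import Cfsg.Agent.S0256
import Cfsg.Agent.Lib.Basic.PCore
import Cfsg.Agent.Lib.Char.Burnside2
import Cfsg.Agent.Lib.Solvable.Hall
import Cfsg.Agent.Lib.Compute.A8Lat.Check5
import Cfsg.Agent.Lib.Compute.A8Lat.Check7

set_option autoImplicit false
open Cfsg

namespace Cfsg.Agent.S2553

open Cfsg.Agent.Lib.Compute.A8Lat Cfsg.Agent.Lib.Basic.PCore

/-- `GL₄(2)` embeds in `A₈`. -/
theorem exists_GL4_A8 : ∃ f : GL (Fin 4) (ZMod 2) →* alternatingGroup (Fin 8),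
    Function.Injective f := by
  classical
  obtain ⟨e⟩ := Cfsg.Agent.S0256.result (F := ZMod 2) (by simp [ZMod.card])
  have hdet : ∀ g : GL (Fin 4) (ZMod 2), (g : Matrix (Fin 4) (Fin 4) (ZMod 2)).det = 1 := by
    intro g
    have h1 : IsUnit (g : Matrix (Fin 4) (Fin 4) (ZMod 2)).det :=
      (Matrix.isUnit_iff_isUnit_det _).1 g.isUnit
    have h2 : ∀ r : ZMod 2, IsUnit r → r = 1 := by decide
    exact h2 _ h1
  let sl : GL (Fin 4) (ZMod 2) →* Matrix.SpecialLinearGroup (Fin 4) (ZMod 2) :=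
    { toFun := fun g => ⟨g, hdet g⟩
      map_one' := by
        apply Subtype.ext
        rfl
      map_mul' := by
        intro a b
        apply Subtype.ext
        rfl }
  refine ⟨e.toMonoidHom.comp ((QuotientGroup.mk' _).comp sl), ?_⟩
  rw [injective_iff_map_eq_one]
  intro g hg
  have h1 : (QuotientGroup.mk' (Subgroup.center (Matrix.SpecialLinearGroup (Fin 4) (ZMod 2)))) (sl g) = 1 :=
    (map_eq_one_iff e e.injective).1 hg
  have h2 : sl g ∈ Subgroup.center (Matrix.SpecialLinearGroup (Fin 4) (ZMod 2)) :=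
    (QuotientGroup.eq_one_iff _).1 h1
  obtain ⟨r, hr, hrg⟩ := Matrix.SpecialLinearGroup.mem_center_iff.1 h2
  have hr1 : r = 1 := by
    have h5 : ∀ r : ZMod 2, r ^ 4 = 1 → r = 1 := by decide
    exact h5 r (by simpa using hr)
  apply Units.ext
  have h3 : ((sl g : Matrix.SpecialLinearGroup (Fin 4) (ZMod 2)) : Matrix (Fin 4) (Fin 4) (ZMod 2)) =
      Matrix.scalar (Fin 4) r := hrg.symm
  rw [hr1, map_one] at h3
  exact h3

theorem pCore_bot_of_equiv {G G' : Type} [Group G] [Group G'] (e : G ≃* G') (h : Cfsg.pCore 2 G = ⊥) :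
    Cfsg.pCore 2 G' = ⊥ := by
  rw [eq_bot_iff]
  refine sSup_le ?_
  rintro N ⟨hN, hP⟩
  have h1 : N.comap e.toMonoidHom ≤ Cfsg.pCore 2 G :=
    le_pCore (hN.comap _) (hP.comap_of_injective _ e.injective)
  rw [h] at h1
  intro n hn
  have h2 : e.symm n ∈ N.comap e.toMonoidHom := by
    show e (e.symm n) ∈ N
    simpa using hn
  have h3 := h1 h2
  rw [Subgroup.mem_bot] at h3 ⊢
  simpa using h3

theorem pPrimeCore_bot_of_equiv {G G' : Type} [Group G] [Group G'] (e : G ≃* G') (h : Cfsg.pPrimeCore 2 G = ⊥) :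
    Cfsg.pPrimeCore 2 G' = ⊥ := by
  rw [eq_bot_iff]
  refine sSup_le ?_
  rintro N ⟨hN, hP⟩
  have hc : Nat.card (N.comap e.toMonoidHom) = Nat.card N :=
    Nat.card_congr (Equiv.subtypeEquiv e.toEquiv (fun a => Iff.rfl))
  have h1 : N.comap e.toMonoidHom ≤ Cfsg.pPrimeCore 2 G :=
    le_pPrimeCore (hN.comap _) (by rw [hc]; exact hP)
  rw [h] at h1
  intro n hn
  have h2 : e.symm n ∈ N.comap e.toMonoidHom := by
    show e (e.symm n) ∈ N
    simpa using hn
  have h3 := h1 h2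
  rw [Subgroup.mem_bot] at h3 ⊢
  simpa using h3

theorem not_solvable {G : Type} [Group G] [Finite G] [Nontrivial G] (hO : Cfsg.pPrimeCore 2 G = ⊥)
    (hO2 : Cfsg.pCore 2 G = ⊥) : ¬ Group.IsSolvable G := by
  intro hs
  obtain ⟨p, N, hp, hN, hne, hP, -, -⟩ := Cfsg.Agent.Lib.Solvable.Hall.exists_normal_abelian_pSubgroup G
  by_cases h2 : p = 2
  · subst h2
    exact hne (le_bot_iff.mp (hO2 ▸ le_pCore hN hP))
  · have : Fact p.Prime := ⟨hp⟩
    obtain ⟨k, hk⟩ := IsPGroup.iff_card.mp hP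
    have hco : (Nat.card N).Coprime 2 := by
      rw [hk]
      exact Nat.Coprime.pow_left _ ((Nat.coprime_primes hp Nat.prime_two).mpr h2)
    exact hne (le_bot_iff.mp (hO ▸ le_pPrimeCore hN hco))

theorem five_or_seven {G : Type} [Group G] [Finite G] (hd : Nat.card G ∣ 20160) (hns : ¬ Group.IsSolvable G) :
    5 ∣ Nat.card G ∨ 7 ∣ Nat.card G := by
  by_contra h
  push Not at h
  obtain ⟨h5, h7⟩ := h
  have h1 : Nat.card G ∣ 2 ^ 6 * 3 ^ 2 := by
    have e : (20160 : ℕ) = (2 ^ 6 * 3 ^ 2) * (5 * 7) := by norm_num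
    rw [e] at hd
    have hc : Nat.Coprime (Nat.card G) (5 * 7) :=
      Nat.Coprime.mul_right ((Nat.Prime.coprime_iff_not_dvd (by norm_num)).2 h5).symm
        ((Nat.Prime.coprime_iff_not_dvd (by norm_num)).2 h7).symm
    exact hc.dvd_of_dvd_mul_right hd
  obtain ⟨k1, k2, h2, h3, h4⟩ := (Nat.dvd_mul).1 h1
  obtain ⟨a, -, rfl⟩ := (Nat.dvd_prime_pow Nat.prime_two).1 h2
  obtain ⟨b, -, rfl⟩ := (Nat.dvd_prime_pow Nat.prime_three).1 h3
  exact hns (Cfsg.Agent.Lib.Char.Burnside2.isSolvable_of_card_eq Nat.prime_two Nat.prime_three _ G a b rfl h4.symm)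

theorem conj_of_order {a b : P8} {p : ℕ} (hp : p.Prime) (h8 : 8 < 2 * p) (ha : orderOf a = p)
    (hb : orderOf b = p) : IsConj a b := by
  have hca : a.IsCycle := Equiv.Perm.isCycle_of_prime_order' (by rw [ha]; exact hp) (by rw [ha]; simpa using h8)
  have hcb : b.IsCycle := Equiv.Perm.isCycle_of_prime_order' (by rw [hb]; exact hp) (by rw [hb]; simpa using h8)
  rw [Equiv.Perm.isConj_iff_cycleType_eq, hca.cycleType, hcb.cycleType, ← hca.orderOf, ← hcb.orderOf, ha, hb]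

theorem main_case {x : P8} {p : ℕ} (hp : p.Prime) (h8 : 8 < 2 * p) (hx : orderOf x = p)
    (hconcl : ∀ H : Subgroup P8, H ≤ alternatingGroup (Fin 8) → x ∈ H → Concl H)
    {G : Type} [Group G] [Finite G] (φ : G →* P8) (hφ : Function.Injective φ)
    (hA : ∀ g, φ g ∈ alternatingGroup (Fin 8)) (hO : Cfsg.pPrimeCore 2 G = ⊥) (hO2 : Cfsg.pCore 2 G = ⊥)
    (hdvd : p ∣ Nat.card G) : Target G := by
  have : Fact p.Prime := ⟨hp⟩
  obtain ⟨g, hg⟩ := exists_prime_orderOf_dvd_card' p hdvd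
  have hog : orderOf (φ g) = p := by rw [orderOf_injective φ hφ, hg]
  obtain ⟨σ, hσ⟩ := isConj_iff.mp (conj_of_order hp h8 hog hx)
  let φ' : G →* P8 := (MulAut.conj σ).toMonoidHom.comp φ
  have hφ' : Function.Injective φ' := (MulAut.conj σ).injective.comp hφ
  have hrange : φ'.range ≤ alternatingGroup (Fin 8) := by
    rintro _ ⟨a, rfl⟩
    have hn : (alternatingGroup (Fin 8)).Normal := inferInstance
    exact hn.conj_mem _ (hA a) σ
  have hxK : x ∈ φ'.range := ⟨g, hσ⟩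
  let e : G ≃* φ'.range := MonoidHom.ofInjective hφ'
  exact Target.of_equiv e (hconcl _ hrange hxK (pPrimeCore_bot_of_equiv e hO) (pCore_bot_of_equiv e hO2))

theorem order7 : orderOf (pm Cfsg.Agent.Lib.Compute.A8Lat.Data7.cfg.x) = 7 := by
  have : Fact (Nat.Prime 7) := ⟨by norm_num⟩
  exact orderOf_eq_prime (by decide +kernel) (by decide +kernel)

theorem order5 : orderOf (pm Cfsg.Agent.Lib.Compute.A8Lat.Data5.cfg.x) = 5 := by
  have : Fact (Nat.Prime 5) := ⟨by norm_num⟩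
  exact orderOf_eq_prime (by decide +kernel) (by decide +kernel)

theorem card_GL4 : Nat.card (GL (Fin 4) (ZMod 2)) = 20160 := by
  rw [Matrix.card_GL_field]
  simp [ZMod.card, Fin.prod_univ_succ]

/-- Let H be a nontrivial subgroup of GL(4,2) (a group isomorphic to the alternating group of degree 8) whose largest normal 2-subgroup and largest normal subgroup of odd order are both trivial. Then H is isomorphic to an alternating group of degree n for some 5 ≤ n ≤ 8, to the symmetric group of degree 5 or 6, or to GL(3,2). -/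
theorem result (H : Subgroup (GL (Fin 4) (ZMod 2))) (hH : H ≠ ⊥) (hO : Cfsg.pPrimeCore 2 ↥H = ⊥) (hO2 : Cfsg.pCore 2 ↥H = ⊥) :
    (∃ n : ℕ, 5 ≤ n ∧ n ≤ 8 ∧ Nonempty (↥H ≃* alternatingGroup (Fin n))) ∨
    Nonempty (↥H ≃* Equiv.Perm (Fin 5)) ∨ Nonempty (↥H ≃* Equiv.Perm (Fin 6)) ∨ Nonempty (↥H ≃* GL (Fin 3) (ZMod 2)) := by
  obtain ⟨f₀, hf₀⟩ := exists_GL4_A8
  let φ : ↥H →* P8 := (alternatingGroup (Fin 8)).subtype.comp (f₀.comp H.subtype)
  have hφ : Function.Injective φ :=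
    (Subtype.val_injective).comp (hf₀.comp (Subtype.val_injective))
  have hA : ∀ g, φ g ∈ alternatingGroup (Fin 8) := fun g => (f₀ g.1).2
  have hnt : Nontrivial ↥H := (Subgroup.nontrivial_iff_ne_bot H).mpr hH
  have hd : Nat.card ↥H ∣ 20160 := by
    rw [← card_GL4]
    exact Subgroup.card_subgroup_dvd_card H
  rcases five_or_seven hd (not_solvable hO hO2) with h5 | h7
  · exact main_case (by norm_num) (by norm_num) order5 (fun K hK hx => Check5.concl hK hx) φ hφ hA hO hO2 h5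
  · exact main_case (by norm_num) (by norm_num) order7 (fun K hK hx => Check7.concl hK hx) φ hφ hA hO hO2 h7

end Cfsg.Agent.S2553
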