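import Cfsg.Statements.S2556
import Cfsg.Agent.Lib.Suzuki.AutU

set_option autoImplicit false
open Cfsg

namespace Cfsg.Agent.S2556

/-- Let S be a Sylow 2-subgroup of the Suzuki group Sz(q), q = 2ⁿ with n = 2m + 1 ≥ 3 (realised as 4 × 4 matrices over the field with q elements). Then the largest normal 2-subgroup of the automorphism group of S is elementary abelian of order 2^(n²), and the automorphism group of S has order 2^(n²) · n · (q − 1). -/
theorem result {S : Type*} [Group S] [Finite S] (m : ℕ) (hm : 1 ≤ m)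
    {F : Type*} [Field F] [Fintype F] (hF : Fintype.card F = 2 ^ (2 * m + 1))
    (P : Sylow 2 ↥(Cfsg.Lie.Sz F (2 ^ (m + 1)))) (hS : Nonempty (S ≃* ↥(P : Subgroup ↥(Cfsg.Lie.Sz F (2 ^ (m + 1)))))) :
    Cfsg.IsElementaryAbelian 2 (Cfsg.pCore 2 (MulAut S)) ∧ Nat.card ↥(Cfsg.pCore 2 (MulAut S)) = 2 ^ ((2 * m + 1) ^ 2) ∧
      Nat.card (MulAut S) = 2 ^ ((2 * m + 1) ^ 2) * ((2 * m + 1) * (2 ^ (2 * m + 1) - 1)) := by
  have h : Cfsg.Agent.Lib.Suzuki.Basic.Hyp F m := ⟨hm, hF⟩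
  exact Cfsg.Agent.Lib.Suzuki.AutU.main_Lie h P hS

end Cfsg.Agent.S2556
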