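import Cfsg.Statements.S2687
import Mathlib
import Cfsg.Agent.Lib.Classical.HermBal.Inv5
import Cfsg.Agent.Lib.Classical.HermBal.Odd3
import Cfsg.Agent.S0827

set_option autoImplicit false
open Cfsg

namespace Cfsg.Agent.S2687

/-- A criterion for the failure of local balance in almost simple groups with unitary socle. Let F be a finite field of characteristic r with q² elements and K = PSU_n(q) (n ≥ 3, the central quotient of the determinant-one isometries of the standard Hermitian form) simple. Let A be a group of automorphisms of K containing all inner automorphisms, and β ∈ A an automorphism of prime order p ≠ r that is not inner-diagonal (not induced by conjugation by a matrix of the general unitary group). Then the largest normal subgroup of C_A(β) of order prime to p is nontrivial if and only if β is the composite of an inner-diagonal automorphism with the automorphism induced by a field automorphism of F applied entrywise and p does not divide the number of fixed points of β on K.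 -/
theorem result
    (F : Type*) [Field F] [Fintype F] (r : ℕ) [Fact r.Prime] [CharP F r] (q : ℕ) (hF : Fintype.card F = q ^ 2)
    (n : ℕ) (hn : 3 ≤ n) (hK : IsSimpleGroup (Cfsg.PSU n F q))
    (𝒢 : Subgroup (MulAut (Cfsg.PSU n F q))) (hinn : ∀ k : Cfsg.PSU n F q, MulAut.conj k ∈ 𝒢)
    (p : ℕ) [Fact p.Prime] (hpr : p ≠ r) (β : MulAut (Cfsg.PSU n F q)) (hβ : β ∈ 𝒢) (hord : orderOf β = p)
    (hnot : ¬ Cfsg.IsInnerDiagonalAutPSU β) :
    Cfsg.pPrimeCore p ↥(𝒢 ⊓ Subgroup.centralizer {β}) ≠ ⊥ ↔
      ((∃ γ φ : MulAut (Cfsg.PSU n F q), Cfsg.IsInnerDiagonalAutPSU γ ∧ (∃ σ : F ≃+* F, Cfsg.IsFieldAutPSUOf σ φ) ∧ β = φ.trans γ) ∧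
        Nat.Coprime p (Nat.card ↥(MonoidHom.eqLocus β.toMonoidHom (MonoidHom.id (Cfsg.PSU n F q))))) := by
  classical
  open Cfsg.Agent.Lib.Classical.Herm.Basic Cfsg.Agent.Lib.Classical.Herm.AutMain
    Cfsg.Agent.Lib.Classical.Herm.AutStruct Cfsg.Agent.Lib.Classical.Herm.Descent
    Cfsg.Agent.Lib.Classical.Herm.Psi Cfsg.Agent.Lib.Classical.HermBal.Inv5
    Cfsg.Agent.Lib.Classical.HermBal.Odd3 Cfsg.Agent.Lib.Classical.OrthAut.FldBal in
  have hp := (Fact.out : p.Prime)
  obtain ⟨r', k, hr', hc, hq⟩ := exists_char_pow hF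
  have hrr : r' = r := CharP.eq F hc ‹CharP F r›
  subst hrr
  have hq2 := two_le_q hF
  have hk : 1 ≤ k := by
    by_contra h
    have : k = 0 := by omega
    rw [this, pow_zero] at hq
    omega
  have hrq : r' ∣ q := by
    rw [hq]
    exact dvd_pow_self r' (by omega)
  have h32 : ¬ (n = 3 ∧ q = 2) := by
    rintro ⟨rfl, rfl⟩
    obtain ⟨N, hNn, hc9, -, ⟨e⟩⟩ := Cfsg.Agent.S0827.result (F := F) (by rw [hF]; norm_num)
    rcases hK.eq_bot_or_eq_top_of_normal N hNn with h | h
    · rw [h] at hc9
      simp at hc9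
    · subst h
      have h1 := Nat.card_congr e.toEquiv
      have h2 : Nat.card (Cfsg.PSU 3 F 2 ⧸ (⊤ : Subgroup (Cfsg.PSU 3 F 2))) = 1 := by
        haveI : Subsingleton (Cfsg.PSU 3 F 2 ⧸ (⊤ : Subgroup (Cfsg.PSU 3 F 2))) := QuotientGroup.subsingleton_quotient_top
        exact Nat.card_of_subsingleton 1
      rw [h2, Nat.card_eq_fintype_card, QuaternionGroup.card] at h1
      omega
  have hcen := center_PSU_eq_bot hF hn h32
  have hinj : Function.Injective (MulAut.conj : Cfsg.PSU n F q →* MulAut (Cfsg.PSU n F q)) := by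
    rw [injective_iff_map_eq_one]
    intro x hx
    have h1 : x ∈ Subgroup.center (Cfsg.PSU n F q) := by
      rw [Subgroup.mem_center_iff]
      intro y
      have h2 := DFunLike.congr_fun hx y
      rw [MulAut.conj_apply, MulAut.one_apply] at h2
      calc y * x = x * y * x⁻¹ * x := by rw [h2]
        _ = x * y := by group
    rw [hcen] at h1
    exact (Subgroup.mem_bot.mp h1)
  obtain ⟨g, σ, rfl⟩ := aut_eq r' hrq hF hn h32 β
  have hfirst : ∃ γ φ : MulAut (Cfsg.PSU n F q), Cfsg.IsInnerDiagonalAutPSU γ ∧ (∃ σ : F ≃+* F, Cfsg.IsFieldAutPSUOf σ φ) ∧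
      (deltaOf g * phiOf σ : MulAut (Cfsg.PSU n F q)) = φ.trans γ :=
    ⟨deltaOf g, phiOf σ, isInnerDiag_psuOf g, ⟨σ, isFieldAut_psuOf σ⟩, rfl⟩
  have hσ1 : σ ≠ 1 := by
    rintro rfl
    apply hnot
    rw [isInnerDiag_iff]
    exact ⟨g, by rw [phiOf_one, mul_one]⟩
  have hs := sigmaHom_eq r' hrq hF hn h32 g σ
  have hσp : σ ^ p = 1 := by
    rw [← hs, ← map_pow, ← hord, pow_orderOf_eq_one, map_one]
  have hσ : orderOf σ = p := orderOf_eq_prime hσp hσ1
  have hFr : Fintype.card F = r' ^ (2 * k) := by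
    rw [hF, hq, ← pow_mul, mul_comm]
  have hcore : Cfsg.pPrimeCore p ↥(𝒢 ⊓ Subgroup.centralizer {(deltaOf g * phiOf σ : MulAut (Cfsg.PSU n F q))}) ≠ ⊥ ↔
      Nat.Coprime p (Nat.card ↥(MonoidHom.eqLocus (deltaOf g * phiOf σ : MulAut (Cfsg.PSU n F q)).toMonoidHom (MonoidHom.id (Cfsg.PSU n F q)))) := by
    by_cases hp2 : p = 2
    · subst hp2
      have h2 : (2 : F) ≠ 0 := by
        intro h0
        have h1 : ((2 : ℕ) : F) = 0 := by exact_mod_cast h0
        rw [CharP.cast_eq_zero_iff F r' 2] at h1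
        exact hpr ((Nat.prime_dvd_prime_iff_eq hr' Nat.prime_two).1 h1).symm
      have hqodd : Odd q := by
        rw [hq]
        exact (hr'.odd_of_ne_two (Ne.symm hpr)).pow
      have hβ2 : (deltaOf g * phiOf σ : MulAut (Cfsg.PSU n F q)) ^ 2 = 1 := by
        rw [← hord, pow_orderOf_eq_one]
      refine core_iff hinj hp 𝒢 hinn _ 1 (deltaOf g * phiOf σ) (by simp) ?_ ?_
      · intro _ C L hC hKC hLC hLn hcop
        exact two_case hF g σ hn h32 hrq hFr (by omega) hσ h2 hqodd hβ2 C L hC hKC hLC hLn hcop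
      · apply exists_fixed_of_invol
        · intro x
          have h1 := DFunLike.congr_fun hβ2 x
          rw [pow_two] at h1
          exact h1
        · by_contra hcon
          push Not at hcon
          have h1 : Subgroup.center (Cfsg.PSU n F q) = ⊤ := by
            rw [eq_top_iff]
            intro x _
            rw [Subgroup.mem_center_iff]
            intro y
            exact hcon y x
          rw [hcen] at h1
          haveI := hK.toNontrivial
          exact bot_ne_top h1
    · have hodd : Odd p := hp.odd_of_ne_two hp2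
      have hodd' : Odd (orderOf σ) := by rwa [hσ]
      obtain ⟨hbal, hne⟩ := odd_case hF hq hk hn h32 σ hp hσ hodd hinj
      obtain ⟨-, hFix, hqq⟩ := fix_card_of_odd hq hF σ hodd'
      have hq₀ := pow_q_of_fix hFix hqq hodd'
      obtain ⟨c, hc'⟩ := exists_conj hF hn h32 σ hFix hq₀ g (by rw [hσ, ← hord, pow_orderOf_eq_one])
      refine core_iff hinj hp 𝒢 hinn _ (deltaOf c)⁻¹ (phiOf σ) ?_ hbal hne
      rw [← hc']
      group
  rw [hcore]
  exact ⟨fun h => ⟨hfirst, h⟩, fun h => h.2⟩

end Cfsg.Agent.S2687
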