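import Cfsg.Statements.S2731
import Mathlib
import Cfsg.Agent.Lib.Classical.OrthAut.FldBal3
import Cfsg.Agent.Lib.Classical.OrthAut.FldOddCent

set_option autoImplicit false
open Cfsg

namespace Cfsg.Agent.S2731

open QuadraticMap
open Cfsg.Agent.Lib.Classical.Orth.Basic
open Cfsg.Agent.Lib.Classical.Orth.SimAut
open Cfsg.Agent.Lib.Classical.Orth.SimAut2
open Cfsg.Agent.Lib.Classical.Orth.Semi
open Cfsg.Agent.Lib.Classical.Orth.Models
open Cfsg.Agent.Lib.Classical.Herm.Descent
open Cfsg.Agent.Lib.Classical.OrthAut.FldConj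
open Cfsg.Agent.Lib.Classical.OrthAut.FldOdd
open Cfsg.Agent.Lib.Classical.OrthAut.FldBal

attribute [local instance] finite_ringAut

theorem aux_conj {G : Type*} [Group G] {a b c : G} (h : a⁻¹ * b * a = c) : a⁻¹ * b = c * a⁻¹ := by
  rw [← h]
  group

set_option maxHeartbeats 4000000 in
/-- A criterion for the failure of local balance in almost simple groups whose socle is an odd-dimensional orthogonal group Ω_{2m+1}(F) (m ≥ 3, |F| odd; the form x₀² + Σ xᵢ yᵢ). Let F be a finite field of characteristic r and K the (simple) group in question; let A be a group of automorphisms of K containing all inner automorphisms, and x ∈ A an automorphism of prime order p ≠ r that is not inner-diagonal (not induced by a similarity of the form). Then the largest normal subgroup of C_A(x) of order prime to p is nontrivial if and only if x is a field automorphism of K (conjugate under Aut(K) to a non-identity standard field automorphism) and p does not divide the number of fixed points of x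 on K. -/
theorem result {F : Type*} [Field F] [Fintype F] {r : ℕ} [Fact r.Prime] [CharP F r] (hodd : Odd (Fintype.card F)) {m : ℕ} (hm : 3 ≤ m) (hK : IsSimpleGroup (Cfsg.POmega F (Cfsg.quadFormOdd m F))) (A : Subgroup (MulAut (Cfsg.POmega F (Cfsg.quadFormOdd m F)))) (hinn : ∀ k : Cfsg.POmega F (Cfsg.quadFormOdd m F), MulAut.conj k ∈ A) {p : ℕ} [Fact p.Prime] (hpr : p ≠ r) (x : MulAut (Cfsg.POmega F (Cfsg.quadFormOdd m F))) (hxA : x ∈ A) (hord : orderOf x = p) (hnot : ¬ Cfsg.IsInnerDiagonalAutPOmegaOdd m x) :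
    Cfsg.pPrimeCore p ↥(A ⊓ Subgroup.centralizer {x}) ≠ ⊥ ↔ (Cfsg.IsFieldAutClassPOmega (Cfsg.quadFormOdd m F) x ∧ Nat.Coprime p (Nat.card ↥(MonoidHom.eqLocus x.toMonoidHom (MonoidHom.id (Cfsg.POmega F (Cfsg.quadFormOdd m F)))))) := by
  classical
  obtain ⟨f', hr', hF'⟩ := FiniteField.card F r
  have key : ∀ (x : MulAut (Cfsg.POmega F (⇑(oddForm m F)))) (A : Subgroup (MulAut (Cfsg.POmega F (⇑(oddForm m F))))),
      (∀ k : Cfsg.POmega F (⇑(oddForm m F)), MulAut.conj k ∈ A) → orderOf x = p → ¬ Cfsg.IsSimilarityInducedAutPOmega (⇑(oddForm m F)) x →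
      (Cfsg.pPrimeCore p ↥(A ⊓ Subgroup.centralizer {x}) ≠ ⊥ ↔ (Cfsg.IsFieldAutClassPOmega (⇑(oddForm m F)) x ∧
        Nat.Coprime p (Nat.card ↥(MonoidHom.eqLocus x.toMonoidHom (MonoidHom.id (Cfsg.POmega F (⇑(oddForm m F))))))) ) := by
    intro x A hinn hord hnot
    have hp : p.Prime := Fact.out
    have h2 : (2 : F) ≠ 0 := Cfsg.Agent.Lib.Classical.Orth.NegPairs.odd_two_ne_zero rfl hodd
    have hQ := oddForm_nondegenerate h2 m
    have hn := hn_odd (F := F) hodd hm
    obtain ⟨X, rfl⟩ := exists_Y hodd hm x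
    set σ : F ≃+* F := X.1.right with hσdef
    have hσ1 : σ ≠ 1 := by
      intro h1
      apply hnot
      obtain ⟨g, rfl⟩ := eq_ofSim_of_right _ (x := X) h1
      rw [semiHom_ofSim]
      exact ⟨g.1, g.2, simHom_isInduced _ g⟩
    have hXp : (semiHom (⇑(oddForm m F)) X) ^ p = 1 := by
      rw [← hord, pow_orderOf_eq_one]
    have hσo : orderOf σ = p := orderOf_right hQ hn hp hXp hσ1
    obtain ⟨C, hC⟩ := conj_std hodd hm (σ := σ) rfl (by rw [hσo, hXp])
    have hField : Cfsg.IsFieldAutClassPOmega (⇑(oddForm m F)) (semiHom (⇑(oddForm m F)) X) :=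
      ⟨(simHom _ C)⁻¹, phi₀ σ (odd_inv m σ), σ, hσ1, isField_phi₀ σ (odd_inv m σ), hC⟩
    letI : Fintype (fixF σ) := Fintype.ofFinite _
    have h2K : (2 : fixF σ) ≠ 0 := by
      intro h0
      apply h2
      have h3 : (fixF σ).subtype 2 = 0 := by rw [h0, map_zero]
      rwa [map_ofNat] at h3
    have hQ₀ := oddForm_nondegenerate h2K m
    have hcompat := odd_compat (fixF σ).subtype m
    have hcore := core_std hF' f'.pos hQ hn hQ₀ hcompat σ (odd_inv m σ) hσo hp (fun k => k.2)
          (fun y hy => ⟨⟨y, hy⟩, rfl⟩) (fun _ => h2K) (sq_mem_omega_odd hQ₀ h2K) (exists_Y hodd hm) A hinn (semiHom _ X) (simHom _ C)⁻¹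
          (aux_conj hC)
    rw [hcore]
    exact ⟨fun h => ⟨hField, h⟩, fun h => h.2⟩
  rw [coe_oddForm] at key
  exact key x A hinn hord hnot

end Cfsg.Agent.S2731
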