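import Cfsg.Statements.S2733
import Mathlib
import Cfsg.Agent.Lib.Classical.OrthAut.BalG
-- import your own Cfsg.Agent.* helpers here

set_option autoImplicit false
open Cfsg

namespace Cfsg.Agent.S2733

set_option maxHeartbeats 4000000

/-- A criterion for the failure of local balance in almost simple groups whose socle is a minus-type orthogonal group PΩ⁻_{2m+2}(F) (m ≥ 3; the form Σ xᵢ yᵢ + z₁² + a z₁ z₂ + b z₂² with anisotropic binary part). Let F be a finite field of characteristic r and K the (simple) group in question; let A be a group of automorphisms of K containing all inner automorphisms, and x ∈ A an automorphism of prime order p ≠ r that is not inner-diagonal (not induced by a class-preserving similarity, classes read over a quadratic extension). Then the largest normal subgroup of C_A(x) of order prime to p is nontrivial if and only if x is a field automorphism of K (conjugate under Aut(K) to a non-identity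 standard field automorphism) and p does not divide the number of fixed points of x on K. -/
theorem result {F : Type*} [Field F] [Fintype F] {r : ℕ} [Fact r.Prime] [CharP F r] {m : ℕ} (hm : 3 ≤ m) (a b : F) (hab : (∀ z₁ z₂ : F, z₁ ^ 2 + a * z₁ * z₂ + b * z₂ ^ 2 = 0 → z₁ = 0 ∧ z₂ = 0)) (hK : IsSimpleGroup (Cfsg.POmega F (Cfsg.quadFormMinus m F a b))) (A : Subgroup (MulAut (Cfsg.POmega F (Cfsg.quadFormMinus m F a b)))) (hinn : ∀ k : Cfsg.POmega F (Cfsg.quadFormMinus m F a b), MulAut.conj k ∈ A) {p : ℕ} [Fact p.Prime] (hpr : p ≠ r) (x : MulAut (Cfsg.POmega F (Cfsg.quadFormMinus m F a b))) (hxA : x ∈ A) (hord : orderOf x = p) (hnot : ¬ Cfsg.IsInnerDiagonalAutPOmegaMinus m a b x) :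
    Cfsg.pPrimeCore p ↥(A ⊓ Subgroup.centralizer {x}) ≠ ⊥ ↔ (Cfsg.IsFieldAutClassPOmegaMinus m x ∧ Nat.Coprime p (Nat.card ↥(MonoidHom.eqLocus x.toMonoidHom (MonoidHom.id (Cfsg.POmega F (Cfsg.quadFormMinus m F a b)))))) := by
  classical
  have key : ∀ (x : MulAut (Cfsg.POmega F (⇑(Cfsg.Agent.Lib.Classical.Orth.Models.minusForm m F a b))))
      (A : Subgroup (MulAut (Cfsg.POmega F (⇑(Cfsg.Agent.Lib.Classical.Orth.Models.minusForm m F a b)))))
      (hinn : ∀ k : Cfsg.POmega F (⇑(Cfsg.Agent.Lib.Classical.Orth.Models.minusForm m F a b)), MulAut.conj k ∈ A)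
      (hord : orderOf x = p)
      (hnot : ¬ ∃ g : GL ((Fin m ⊕ Fin m) ⊕ Fin 2) F, g ∈ Cfsg.Geo.quadSimilarityGroup (F := F) (⇑(Cfsg.Agent.Lib.Classical.Orth.Models.minusForm m F a b)) ∧
        Cfsg.PreservesSingularClassesMinus m a b (g : Matrix ((Fin m ⊕ Fin m) ⊕ Fin 2) ((Fin m ⊕ Fin m) ⊕ Fin 2) F) ∧
        Cfsg.IsInducedBySemilinearPOmega (⇑(Cfsg.Agent.Lib.Classical.Orth.Models.minusForm m F a b)) g (RingEquiv.refl F) x)
      (Cl : Prop)
      (hCl1 : ∀ (a' b' : F) (ψ : Cfsg.POmega F (⇑(Cfsg.Agent.Lib.Classical.Orth.Models.minusForm m F a b)) ≃* Cfsg.POmega F (⇑(Cfsg.Agent.Lib.Classical.Orth.Models.minusForm m F a' b'))) (σ : F ≃+* F),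
        (∀ z₁ z₂ : F, z₁ ^ 2 + a' * z₁ * z₂ + b' * z₂ ^ 2 = 0 → z₁ = 0 ∧ z₂ = 0) → σ ≠ RingEquiv.refl F → σ a' = a' → σ b' = b' →
        Cfsg.IsFieldAutPOmegaOf (⇑(Cfsg.Agent.Lib.Classical.Orth.Models.minusForm m F a' b')) σ ((ψ.symm.trans x).trans ψ) → Cl)
      (hCl2 : Cl → ∃ (a' b' : F) (ψ : Cfsg.POmega F (⇑(Cfsg.Agent.Lib.Classical.Orth.Models.minusForm m F a b)) ≃* Cfsg.POmega F (⇑(Cfsg.Agent.Lib.Classical.Orth.Models.minusForm m F a' b'))) (σ : F ≃+* F),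
        (∀ z₁ z₂ : F, z₁ ^ 2 + a' * z₁ * z₂ + b' * z₂ ^ 2 = 0 → z₁ = 0 ∧ z₂ = 0) ∧ σ ≠ RingEquiv.refl F ∧ σ a' = a' ∧ σ b' = b' ∧
        Cfsg.IsFieldAutPOmegaOf (⇑(Cfsg.Agent.Lib.Classical.Orth.Models.minusForm m F a' b')) σ ((ψ.symm.trans x).trans ψ)),
      Cfsg.pPrimeCore p ↥(A ⊓ Subgroup.centralizer {x}) ≠ ⊥ ↔
        (Cl ∧ Nat.Coprime p (Nat.card ↥(MonoidHom.eqLocus x.toMonoidHom (MonoidHom.id (Cfsg.POmega F (⇑(Cfsg.Agent.Lib.Classical.Orth.Models.minusForm m F a b))))))) :=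
    fun x A hinn hord hnot Cl hCl1 hCl2 =>
      Cfsg.Agent.Lib.Classical.OrthAut.BalG.main hm hab A hinn hpr x hord hnot Cl hCl1 hCl2
  rw [Cfsg.Agent.Lib.Classical.Orth.Models.coe_minusForm m F a b] at key
  refine key x A hinn hord hnot (Cfsg.IsFieldAutClassPOmegaMinus m x) ?_ ?_
  · intro a' b' ψ σ h1 h2 h3 h4 h5
    revert ψ
    rw [Cfsg.Agent.Lib.Classical.Orth.Models.coe_minusForm m F a' b']
    intro ψ h5
    exact ⟨a', b', ψ, σ, h1, h2, h3, h4, h5⟩
  · rintro ⟨a', b', ψ, σ, h1, h2, h3, h4, h5⟩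
    refine ⟨a', b', ?_⟩
    rw [Cfsg.Agent.Lib.Classical.Orth.Models.coe_minusForm m F a' b']
    exact ⟨ψ, σ, h1, h2, h3, h4, h5⟩

end Cfsg.Agent.S2733
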