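import Cfsg.Statements.S2898
import Cfsg.Agent.Lib.Basic.PCore
import Cfsg.Agent.Lib.Basic.SylowUtil
import Cfsg.Agent.Lib.Solvable.PSeries

set_option autoImplicit false
open Cfsg

namespace Cfsg.Agent.S2898

open Subgroup
open Cfsg.Agent.Lib.Basic.PCore Cfsg.Agent.Lib.Basic.SylowUtil Cfsg.Agent.Lib.Solvable.PSeries

/-- An element of odd order and `2`-power order is trivial. -/
theorem eq_one_of_orderOf {G : Type*} [Group G] [Finite G] {K : Subgroup G}
    (hodd : (Nat.card K).Coprime 2) {x : G} (hx : x ∈ K) {k : ℕ} (hk : orderOf x = 2 ^ k) : x = 1 := by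
  have h1 : orderOf x ∣ Nat.card K := by
    rw [← Subgroup.orderOf_mk x hx]
    exact orderOf_dvd_natCard _
  have h3 : Nat.Coprime (orderOf x) 2 := Nat.Coprime.coprime_dvd_left h1 hodd
  rw [hk] at h3
  have h4 : k = 0 := by
    by_contra hk0
    have h5 : 2 ∣ Nat.gcd (2 ^ k) 2 := Nat.dvd_gcd (dvd_pow_self 2 hk0) dvd_rfl
    rw [h3] at h5
    omega
  rw [h4, pow_zero] at hk
  exact orderOf_eq_one_iff.mp hk

theorem eq_one_of_mem_core_normalizer {G : Type*} [Group G] [Finite G]
    (hG : IsOfParabolicCharacteristic 2 G) (R : Subgroup G) (hR : IsPGroup 2 R) (hne : R ≠ ⊥)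
    (hpar : IsParabolic 2 (normalizer (R : Set G))) {x : G} (hx : x ∈ pPrimeCore 2 G)
    (hxN : x ∈ normalizer (R : Set G)) : x = 1 := by
  haveI : Fact (Nat.Prime 2) := ⟨Nat.prime_two⟩
  have hodd := pPrimeCore_coprime (G := G) 2
  set N := normalizer (R : Set G) with hNdef
  have hchar := hG R hR hne hpar
  have hkey : (⟨x, hxN⟩ : N) ∈ centralizer (pCore 2 N : Set N) := by
    rw [mem_centralizer_iff]
    intro u hu
    have hu' : u ∈ pCore 2 N := hu
    set y : N := u * ⟨x, hxN⟩ * u⁻¹ * (⟨x, hxN⟩ : N)⁻¹ with hy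
    have hy1 : y ∈ pCore 2 N := by
      have : y = u * (⟨x, hxN⟩ * u⁻¹ * (⟨x, hxN⟩ : N)⁻¹) := by rw [hy]; group
      rw [this]
      exact mul_mem hu' ((pCore_normal 2 N).conj_mem _ (inv_mem hu') _)
    have hy2 : (y : G) ∈ pPrimeCore 2 G := by
      have : (y : G) = (u : G) * x * (u : G)⁻¹ * x⁻¹ := rfl
      rw [this]
      exact mul_mem ((pPrimeCore_normal 2 G).conj_mem _ hx _) (inv_mem hx)
    obtain ⟨k, hk⟩ := orderOf_eq_pow_of_isPGroup (pCore_isPGroup 2 : IsPGroup 2 (pCore 2 N)) hy1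
    have hy3 : (y : G) = 1 := eq_one_of_orderOf hodd hy2 (by rw [Subgroup.orderOf_coe, hk])
    have hy4 : y = 1 := Subtype.ext hy3
    rw [hy, mul_inv_eq_one, mul_inv_eq_iff_eq_mul] at hy4
    exact hy4
  have h2 : (⟨x, hxN⟩ : N) ∈ pCore 2 N := hchar hkey
  obtain ⟨k, hk⟩ := orderOf_eq_pow_of_isPGroup (pCore_isPGroup 2 : IsPGroup 2 (pCore 2 N)) h2
  exact eq_one_of_orderOf hodd hx (by rw [← Subgroup.orderOf_mk x hxN, hk])

/-- Let G be a finite group of even order with parabolic characteristic 2. If the centre of G ⧸ O(G) is trivial, then O(G) = 1. -/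
theorem result {G : Type*} [Group G] [Finite G] (h2 : 2 ∣ Nat.card G) (hG : Cfsg.IsOfParabolicCharacteristic 2 G) [hN : (Cfsg.oddCore G).Normal] (hZ : Subgroup.center (G ⧸ Cfsg.oddCore G) = ⊥) : Cfsg.oddCore G = ⊥ := by
  classical
  haveI : Fact (Nat.Prime 2) := ⟨Nat.prime_two⟩
  by_contra hne
  have hodd := pPrimeCore_coprime (G := G) 2
  obtain ⟨S⟩ : Nonempty (Sylow 2 G) := inferInstance
  have key : ∀ w : G, w ∈ (S : Subgroup G) → (∀ s ∈ (S : Subgroup G), s * w = w * s) → w ≠ 1 →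
      ∀ k ∈ oddCore G, k * w = w * k → k = 1 := by
    intro w hwS hwc hw1 k hk hkw
    have hcomm : ∀ x : G, x * w = w * x → x ∈ normalizer ((zpowers w : Subgroup G) : Set G) := by
      intro x hx
      apply centralizer_le_normalizer
      rw [mem_centralizer_iff]
      rintro _ ⟨n, rfl⟩
      have hc : Commute w x := hx.symm
      exact (hc.zpow_left n).eq
    refine eq_one_of_mem_core_normalizer hG (zpowers w) ?_ ?_ ?_ hk (hcomm k hkw)
    · exact S.isPGroup'.to_le ((zpowers_le).mpr hwS)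
    · rwa [Ne, zpowers_eq_bot]
    · exact ⟨S, fun s hs => hcomm s (hwc s hs)⟩
  -- an involution in the centre of `S`
  have hSne : (S : Subgroup G) ≠ ⊥ := Sylow.ne_bot_of_dvd_card S h2
  haveI hnt : Nontrivial S := (Subgroup.nontrivial_iff_ne_bot _).mpr hSne
  have hSp : IsPGroup 2 S := S.isPGroup'
  haveI hZnt : Nontrivial (center S) := hSp.center_nontrivial
  have hZp : IsPGroup 2 (center S) := hSp.to_subgroup _
  obtain ⟨n, hn, hcard⟩ := hZp.nontrivial_iff_card.mp hZnt
  have hdvd : 2 ∣ Nat.card (center S) := by rw [hcard]; exact dvd_pow_self 2 hn.ne'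
  obtain ⟨t, ht⟩ := exists_prime_orderOf_dvd_card' 2 hdvd
  set z : G := ((t : S) : G) with hz
  have hzo : orderOf z = 2 := by rw [hz, Subgroup.orderOf_coe, Subgroup.orderOf_coe, ht]
  have hzS : z ∈ (S : Subgroup G) := (t : S).2
  have hzc : ∀ s ∈ (S : Subgroup G), s * z = z * s := by
    intro s hs
    have h1 := (Subgroup.mem_center_iff.mp t.2) ⟨s, hs⟩
    exact congrArg Subtype.val h1
  have hz1 : z ≠ 1 := by
    intro h
    rw [h, orderOf_one] at hzo
    omega
  have hzz : z * z = 1 := by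
    have := pow_orderOf_eq_one z
    rw [hzo, sq] at this
    exact this
  have hzi : z⁻¹ = z := inv_eq_of_mul_eq_one_left hzz
  -- `z` inverts `O(G)`
  let σ : pPrimeCore 2 G →* pPrimeCore 2 G := (MulAut.conjNormal z : MulAut (pPrimeCore 2 G)).toMonoidHom
  have hσ : ∀ k : pPrimeCore 2 G, ((σ k : pPrimeCore 2 G) : G) = z * k * z⁻¹ := fun k => by
    show ((MulAut.conjNormal z k : pPrimeCore 2 G) : G) = _
    rw [MulAut.conjNormal_apply]
  have hfpf : MonoidHom.FixedPointFree σ := by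
    intro k hk
    have h1 : z * k * z⁻¹ = k := by rw [← hσ, hk]
    have h2 : (k : G) * z = z * k := by
      rw [mul_inv_eq_iff_eq_mul] at h1
      exact h1.symm
    exact Subtype.ext (key z hzS hzc hz1 k k.2 h2)
  have hinv : Function.Involutive σ := by
    intro k
    apply Subtype.ext
    rw [hσ, hσ, hzi]
    calc z * (z * (k : G) * z) * z = (z * z) * k * (z * z) := by group
      _ = k := by rw [hzz]; group
  have hform := hfpf.coe_eq_inv_of_involutive hinv
  have hzinv : ∀ k ∈ pPrimeCore 2 G, z * k * z⁻¹ = k⁻¹ := by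
    intro k hk
    have h1 := hσ ⟨k, hk⟩
    rw [hform] at h1
    exact h1.symm
  -- the centralizer of `O(G)` has odd order
  have hcop : (Nat.card (centralizer (pPrimeCore 2 G : Set G))).Coprime 2 := by
    rw [Nat.coprime_comm, Nat.Prime.coprime_iff_not_dvd Nat.prime_two]
    intro hd
    obtain ⟨y, hy⟩ := exists_prime_orderOf_dvd_card' 2 hd
    have hy' : orderOf (y : G) = 2 ^ 1 := by rw [Subgroup.orderOf_coe, hy]; rfl
    obtain ⟨Q, hQ⟩ := exists_sylow_of_orderOf hy'
    obtain ⟨g, hg⟩ := exists_conj_smul_eq Q S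
    have hmem : g * y * g⁻¹ ∈ (S : Subgroup G) := by
      rw [← hg]
      exact Subgroup.smul_mem_pointwise_smul (y : G) (MulAut.conj g) (Q : Subgroup G) hQ
    have hmemC : g * y * g⁻¹ ∈ centralizer (pPrimeCore 2 G : Set G) :=
      (normal_centralizer (H := pPrimeCore 2 G)).conj_mem _ y.2 g
    have hne1 : g * (y : G) * g⁻¹ ≠ 1 := by
      intro h
      have h3 : (y : G) = 1 := by
        rw [mul_inv_eq_one, mul_eq_left] at h
        exact h
      rw [h3, orderOf_one] at hy'
      omega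
    let T : Subgroup S := (centralizer (pPrimeCore 2 G : Set G)).subgroupOf S
    have hTne : T ≠ ⊥ := by
      intro h
      have h3 : (⟨g * y * g⁻¹, hmem⟩ : S) ∈ T := hmemC
      rw [h, Subgroup.mem_bot] at h3
      exact hne1 (congrArg Subtype.val h3)
    have hTZ := inf_center_ne_bot_of_isPGroup hSp hTne
    obtain ⟨⟨w, hw⟩, hw1⟩ := (Subgroup.ne_bot_iff_exists_ne_one).mp hTZ
    apply hne
    rw [eq_bot_iff]
    intro k hk
    rw [Subgroup.mem_bot]
    refine key (w : G) w.2 ?_ ?_ k hk ?_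
    · intro s hs
      have h1 := (Subgroup.mem_center_iff.mp hw.2) ⟨s, hs⟩
      exact congrArg Subtype.val h1
    · intro h
      apply hw1
      apply Subtype.ext
      exact Subtype.ext h
    · have h1 : (w : G) ∈ centralizer (pPrimeCore 2 G : Set G) := hw.1
      exact mem_centralizer_iff.mp h1 k hk
  have hCK : centralizer (pPrimeCore 2 G : Set G) ≤ pPrimeCore 2 G :=
    le_pPrimeCore normal_centralizer hcop
  have hzcen : (QuotientGroup.mk z : G ⧸ oddCore G) ∈ center (G ⧸ oddCore G) := by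
    rw [mem_center_iff]
    intro q
    induction q using QuotientGroup.induction_on with
    | H g =>
      rw [← QuotientGroup.mk_mul, ← QuotientGroup.mk_mul, QuotientGroup.eq]
      apply hCK
      rw [mem_centralizer_iff]
      intro k hk
      have hk' : k ∈ pPrimeCore 2 G := hk
      have hzinv' : ∀ k ∈ pPrimeCore 2 G, z * k = k⁻¹ * z := by
        intro k hk
        have := hzinv k hk
        rwa [mul_inv_eq_iff_eq_mul] at this
      have h1 := hzinv' (g * k * g⁻¹) ((pPrimeCore_normal 2 G).conj_mem _ hk' g)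
      have h4 := hzinv' k⁻¹ (inv_mem hk')
      rw [inv_inv] at h4
      have h3 : z * g * k = g * k⁻¹ * g⁻¹ * z * g := by
        calc z * g * k = (z * (g * k * g⁻¹)) * g := by group
          _ = ((g * k * g⁻¹)⁻¹ * z) * g := by rw [h1]
          _ = g * k⁻¹ * g⁻¹ * z * g := by group
      calc k * ((g * z)⁻¹ * (z * g)) = k * z⁻¹ * g⁻¹ * z * g := by group
        _ = k * z * g⁻¹ * z * g := by rw [hzi]
        _ = z * k⁻¹ * g⁻¹ * z * g := by rw [h4]
        _ = z⁻¹ * k⁻¹ * g⁻¹ * z * g := by rw [hzi]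
        _ = z⁻¹ * g⁻¹ * (g * k⁻¹ * g⁻¹ * z * g) := by group
        _ = z⁻¹ * g⁻¹ * (z * g * k) := by rw [h3]
        _ = ((g * z)⁻¹ * (z * g)) * k := by group
  rw [hZ, Subgroup.mem_bot, QuotientGroup.eq_one_iff] at hzcen
  exact hz1 (eq_one_of_orderOf hodd hzcen (k := 1) (by rw [hzo]; rfl))

end Cfsg.Agent.S2898
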