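import Cfsg.Statements.S2907
import Mathlib
import Cfsg.Agent.Lib.PGroup.Extraspecial
-- import your own Cfsg.Agent.* helpers here

set_option autoImplicit false
open Cfsg

namespace Cfsg.Agent.S2907

section
open scoped commutatorElement
open Subgroup Cfsg.Agent.Lib.PGroup.Extraspecial

theorem aux {X : Type*} [Group X] [Finite X] {p : ℕ} [hp : Fact p.Prime]
    (hX : Cfsg.IsSemiExtraspecial p X) (x : X) (hx : x ∉ Subgroup.center X) :
    (Subgroup.centralizer ({x} : Set X)).index = Nat.card ↥(Subgroup.center X) ∧
      {z : X | ∃ y : X, z = x * y * x⁻¹ * y⁻¹} = (Subgroup.center X : Set X) := by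
  classical
  have hc := IsSpecial.comm_mem_center hX.1
  let f := commHomRight hc x
  have hrange : f.range = ⊤ := by
    by_contra hne
    obtain ⟨M, hM, hIM⟩ := (eq_top_or_exists_le_coatom f.range).resolve_left hne
    let Y : Subgroup X := M.map (center X).subtype
    have hYZ : Y ≤ center X := by
      rintro _ ⟨m, -, rfl⟩
      exact m.2
    have hYM : Y.subgroupOf (center X) = M := by
      apply Subgroup.comap_map_eq_self_of_injective (center X).subtype_injective
    obtain ⟨hYn, hE⟩ := hX.2 Y hYZ (by rw [hYM]; exact hM)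
    have hZY : ¬ center X ≤ Y := by
      intro hle
      apply hM.1
      rw [eq_top_iff]
      intro z _
      obtain ⟨m, hm, hz⟩ := hle z.2
      have : m = z := Subtype.ext hz
      rwa [← this]
    -- `x` is central modulo `Y`
    have hxbar : (x : X ⧸ Y) ∈ center (X ⧸ Y) := by
      rw [mem_center_iff]
      intro ybar
      obtain ⟨y, rfl⟩ := QuotientGroup.mk_surjective ybar
      have h1 : ⁅x, y⁆ ∈ Y := by
        refine ⟨f y, hIM ⟨y, rfl⟩, rfl⟩
      have h2 := (QuotientGroup.eq_one_iff ⁅x, y⁆).mpr h1
      rw [commutatorElement_def] at h2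
      simp only [QuotientGroup.mk_mul, QuotientGroup.mk_inv] at h2
      have h3 : (x : X ⧸ Y) * (y : X ⧸ Y) = (y : X ⧸ Y) * (x : X ⧸ Y) := by
        rw [mul_inv_eq_one, mul_inv_eq_iff_eq_mul] at h2
        exact h2
      exact h3.symm
    -- the image of the centre is the whole centre
    let Zbar : Subgroup (X ⧸ Y) := (center X).map (QuotientGroup.mk' Y)
    have hZbar : Zbar ≤ center (X ⧸ Y) := by
      rintro _ ⟨z, hz, rfl⟩
      rw [mem_center_iff]
      intro ybar
      obtain ⟨y, rfl⟩ := QuotientGroup.mk_surjective ybar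
      have := mem_center_iff.mp hz y
      change (y : X ⧸ Y) * (z : X ⧸ Y) = (z : X ⧸ Y) * (y : X ⧸ Y)
      rw [← QuotientGroup.mk_mul, ← QuotientGroup.mk_mul, this]
    have hcZ : Nat.card (center (X ⧸ Y)) = p := hE.2
    have hZbarne : Zbar ≠ ⊥ := by
      intro hb
      rw [Subgroup.map_eq_bot_iff, QuotientGroup.ker_mk'] at hb
      exact hZY hb
    have hZbareq : Zbar = center (X ⧸ Y) := by
      have h1 : Zbar.subgroupOf (center (X ⧸ Y)) = ⊤ := by
        have : Fact (Nat.card (center (X ⧸ Y))).Prime := by rw [hcZ]; exact hp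
        obtain h | h := (Zbar.subgroupOf (center (X ⧸ Y))).eq_bot_or_eq_top_of_prime_card
        · exfalso
          rw [Subgroup.subgroupOf_eq_bot] at h
          exact hZbarne (h.eq_bot_of_le hZbar)
        · exact h
      rw [Subgroup.subgroupOf_eq_top] at h1
      exact le_antisymm hZbar h1
    rw [← hZbareq] at hxbar
    obtain ⟨z, hz, hzx⟩ := hxbar
    apply hx
    have hzx' : (z : X ⧸ Y) = (x : X ⧸ Y) := hzx
    rw [QuotientGroup.eq] at hzx'
    have h1 : z⁻¹ * x ∈ center X := hYZ hzx'
    have h2 : x = z * (z⁻¹ * x) := by group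
    rw [h2]
    exact mul_mem hz h1
  have hker : f.ker = centralizer ({x} : Set X) := by
    ext y
    rw [MonoidHom.mem_ker, mem_centralizer_singleton_iff_comm]
    constructor
    · intro h
      have h1 : ⁅x, y⁆ = 1 := congrArg Subtype.val h
      rw [← commutatorElement_inv, h1, inv_one]
    · intro h
      apply Subtype.ext
      change ⁅x, y⁆ = 1
      rw [← commutatorElement_inv, h, inv_one]
  constructor
  · rw [← hker, Subgroup.index_ker, hrange, Subgroup.card_top]
  · ext z
    constructor
    · rintro ⟨y, rfl⟩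
      exact hc x y
    · intro hz
      have : (⟨z, hz⟩ : center X) ∈ f.range := by rw [hrange]; trivial
      obtain ⟨y, hy⟩ := this
      refine ⟨y, ?_⟩
      have := congrArg Subtype.val hy
      exact this.symm

end

/-- Let X be a finite semi-extraspecial p-group and x an element of X outside the centre. Then the index of C_X(x) in X equals the order of Z(X), and the commutators [x, y], y ∈ X, form exactly the centre Z(X). -/
theorem result {X : Type*} [Group X] [Finite X] {p : ℕ} [Fact p.Prime] (hX : Cfsg.IsSemiExtraspecial p X) (x : X) (hx : x ∉ Subgroup.center X) : (Subgroup.centralizer ({x} : Set X)).index = Nat.card ↥(Subgroup.center X) ∧ {z : X | ∃ y : X, z = x * y * x⁻¹ * y⁻¹} = (Subgroup.center X : Set X) := by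
  exact aux hX x hx

end Cfsg.Agent.S2907
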