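import Cfsg.Statements.S2908
import Mathlib
import Cfsg.Agent.Lib.Coprime.InvSylow
import Cfsg.Agent.Lib.Coprime.PGroupComm

open scoped commutatorElement

set_option autoImplicit false
open Cfsg

namespace Cfsg.Agent.S2908

/-- Let P be a p-subgroup of a finite group, normalized by a p-subgroup A and by a subgroup B of order prime to p that commutes elementwise with A. If [P, B] ≤ [P, A], then B centralizes P. -/
theorem result {G : Type*} [Group G] [Finite G] {p : ℕ} [Fact p.Prime] (P A B : Subgroup G) (hP : IsPGroup p ↥P) (hA : IsPGroup p ↥A) (hB : ¬ p ∣ Nat.card ↥B) (hnA : A ≤ Subgroup.normalizer (P : Set G)) (hnB : B ≤ Subgroup.normalizer (P : Set G)) (hAB : ⁅A, B⁆ = ⊥) (hcomm : ⁅P, B⁆ ≤ ⁅P, A⁆) : ⁅P, B⁆ = ⊥ := by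
  classical
  open Cfsg.Agent.Lib.Coprime.Coset Cfsg.Agent.Lib.Coprime.InvSylow in
  by_contra hne
  set K : Subgroup G := ⁅P, B⁆ with hK
  have hp : p.Prime := Fact.out
  have hcopBP : (Nat.card B).Coprime (Nat.card P) := by
    obtain ⟨n, hn⟩ := IsPGroup.iff_card.mp hP
    rw [hn]
    exact Nat.Coprime.pow_right _ ((Nat.Prime.coprime_iff_not_dvd hp).mpr hB).symm
  have hsolvP : Group.IsSolvable B ∨ Group.IsSolvable P := by
    right
    haveI := hP.isNilpotent
    infer_instance
  -- K is normalised by P, B, A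
  have hKP : P ≤ Subgroup.normalizer (K : Set G) := commutator_le_normalizer_left hnB
  have hKB : B ≤ Subgroup.normalizer (K : Set G) := commutator_le_normalizer_right hnB
  have hKleP : K ≤ P := commutator_le_left_of_le_normalizer hnB
  have hABcomm : ∀ a ∈ A, ∀ b ∈ B, a * b = b * a := by
    intro a ha b hb
    have : ⁅a, b⁆ ∈ ⁅A, B⁆ := Subgroup.commutator_mem_commutator ha hb
    rw [hAB] at this
    have h1 : ⁅a, b⁆ = 1 := (Subgroup.mem_bot).mp this
    exact commutatorElement_eq_one_iff_mul_comm.mp h1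
  have hKA : A ≤ Subgroup.normalizer (K : Set G) := by
    apply le_normalizer_of_forall_conj_mem
    intro a ha x hx
    induction hx using Subgroup.closure_induction with
    | mem y hy =>
      obtain ⟨u, hu, b, hb, rfl⟩ := hy
      have hb' : a * b * a⁻¹ = b := by rw [hABcomm a ha b hb]; group
      have h1 : a * ⁅u, b⁆ * a⁻¹ = ⁅a * u * a⁻¹, a * b * a⁻¹⁆ := by
        simp only [commutatorElement_def]; group
      rw [h1, hb']
      exact Subgroup.commutator_mem_commutator ((Subgroup.mem_normalizer_iff.mp (hnA ha) u).mp hu) hb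
    | one => simp
    | mul x y _ _ hx hy =>
      have : a * (x * y) * a⁻¹ = (a * x * a⁻¹) * (a * y * a⁻¹) := by group
      rw [this]
      exact Subgroup.mul_mem _ hx hy
    | inv x _ hx =>
      have : a * x⁻¹ * a⁻¹ = (a * x * a⁻¹)⁻¹ := by group
      rw [this]
      exact Subgroup.inv_mem _ hx
  -- the `p`-group `Y = A ⊔ P`
  set Y : Subgroup G := A ⊔ P with hY
  have hYp : IsPGroup p Y := IsPGroup.to_sup_of_normal_right' hA hP hnA
  have hAY : A ≤ Y := le_sup_left
  have hPY : P ≤ Y := le_sup_right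
  have hYK : Y ≤ Subgroup.normalizer (K : Set G) := sup_le hKA hKP
  set K₁ : Subgroup G := ⁅K, Y⁆ with hK₁
  have hK₁le : K₁ ≤ K := commutator_le_left_of_le_normalizer hYK
  have hK₁Y : Y ≤ Subgroup.normalizer (K₁ : Set G) := commutator_le_normalizer_right hYK
  have hK₁P : P ≤ Subgroup.normalizer (K₁ : Set G) := hPY.trans hK₁Y
  -- `B` normalises `Y` and hence `K₁`
  have hBY : B ≤ Subgroup.normalizer (Y : Set G) := by
    apply le_normalizer_of_forall_conj_mem
    intro b hb y hy
    have hle : Y ≤ (Y.comap (MulAut.conj b).toMonoidHom) := by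
      apply sup_le
      · intro a ha
        show b * a * b⁻¹ ∈ Y
        have : b * a * b⁻¹ = a := by rw [← hABcomm a ha b hb]; group
        rw [this]
        exact hAY ha
      · intro u hu
        exact hPY ((Subgroup.mem_normalizer_iff.mp (hnB hb) u).mp hu)
    exact hle hy
  have hK₁B : B ≤ Subgroup.normalizer (K₁ : Set G) := by
    apply le_normalizer_of_forall_conj_mem
    intro b hb x hx
    induction hx using Subgroup.closure_induction with
    | mem z hz =>
      obtain ⟨k, hk, y, hy, rfl⟩ := hz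
      have h1 : b * ⁅k, y⁆ * b⁻¹ = ⁅b * k * b⁻¹, b * y * b⁻¹⁆ := by
        simp only [commutatorElement_def]; group
      rw [h1]
      exact Subgroup.commutator_mem_commutator ((Subgroup.mem_normalizer_iff.mp (hKB hb) k).mp hk)
        ((Subgroup.mem_normalizer_iff.mp (hBY hb) y).mp hy)
    | one => simp
    | mul x y _ _ hx hy =>
      have : b * (x * y) * b⁻¹ = (b * x * b⁻¹) * (b * y * b⁻¹) := by group
      rw [this]
      exact Subgroup.mul_mem _ hx hy
    | inv x _ hx =>
      have : b * x⁻¹ * b⁻¹ = (b * x * b⁻¹)⁻¹ := by group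
      rw [this]
      exact Subgroup.inv_mem _ hx
  set C : Subgroup G := P ⊓ Subgroup.centralizer (B : Set G) with hC
  have hCK₁ : C ≤ Subgroup.normalizer (K₁ : Set G) := inf_le_left.trans hK₁P
  -- `⁅P, A⁆ ≤ K₁ ⊔ C`
  have hPA : ⁅P, A⁆ ≤ K₁ ⊔ C := by
    rw [Subgroup.commutator_le]
    intro u hu a ha
    obtain ⟨c, hc, hkc⟩ := exists_mem_commutator_mul_centralizer hnB hcopBP hsolvP hu
    set k : G := (u⁻¹ * c)⁻¹ with hk
    have hkK : k ∈ K := Subgroup.inv_mem _ hkc
    have huck : u = c * k := by rw [hk]; group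
    have hcP : c ∈ P := hc.1
    have h1 : ⁅u, a⁆ = (c * ⁅k, a⁆ * c⁻¹) * ⁅c, a⁆ := by
      rw [huck]
      simp only [commutatorElement_def]; group
    rw [h1]
    apply Subgroup.mul_mem_sup
    · exact (Subgroup.mem_normalizer_iff.mp (hCK₁ hc) _).mp
        (Subgroup.commutator_mem_commutator hkK (hAY ha))
    · refine ⟨?_, ?_⟩
      · rw [commutatorElement_def]
        have : c * a * c⁻¹ * a⁻¹ = c * (a * c⁻¹ * a⁻¹) := by group
        rw [this]
        exact P.mul_mem hcP ((Subgroup.mem_normalizer_iff.mp (hnA ha) _).mp (P.inv_mem hcP))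
      · show ⁅c, a⁆ ∈ Subgroup.centralizer (B : Set G)
        rw [Subgroup.mem_centralizer_iff]
        intro b hb
        have hcb : b * c = c * b := Subgroup.mem_centralizer_iff.mp hc.2 b hb
        have hab : a * b = b * a := hABcomm a ha b hb
        have hcb' : b * c⁻¹ = c⁻¹ * b := (show Commute b c from hcb).inv_right.eq
        have hab' : b * a⁻¹ = a⁻¹ * b := (show Commute b a from hab.symm).inv_right.eq
        simp only [commutatorElement_def]
        calc b * (c * a * c⁻¹ * a⁻¹) = (b * c) * a * c⁻¹ * a⁻¹ := by group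
          _ = c * (b * a) * c⁻¹ * a⁻¹ := by rw [hcb]; group
          _ = c * a * (b * c⁻¹) * a⁻¹ := by rw [← hab]; group
          _ = c * a * c⁻¹ * (b * a⁻¹) := by rw [hcb']; group
          _ = c * a * c⁻¹ * a⁻¹ * b := by rw [hab']; group
  have hKsup : K ≤ K₁ ⊔ C := hcomm.trans hPA
  -- `⁅K, B⁆ ≤ K₁`
  have hKB' : ⁅K, B⁆ ≤ K₁ := by
    rw [Subgroup.commutator_le]
    intro k hk b hb
    obtain ⟨l, hl, c, hc, rfl⟩ := (mem_sup_iff_of_le_normalizer hCK₁ k).mp (hKsup hk)
    have hcb : c * b = b * c := (Subgroup.mem_centralizer_iff.mp hc.2 b hb).symm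
    have h1 : ⁅l * c, b⁆ = l * (b * l⁻¹ * b⁻¹) := by
      simp only [commutatorElement_def]
      calc l * c * b * (l * c)⁻¹ * b⁻¹ = l * (c * b) * c⁻¹ * l⁻¹ * b⁻¹ := by group
        _ = l * (b * c) * c⁻¹ * l⁻¹ * b⁻¹ := by rw [hcb]
        _ = l * (b * l⁻¹ * b⁻¹) := by group
    rw [h1]
    exact Subgroup.mul_mem _ hl ((Subgroup.mem_normalizer_iff.mp (hK₁B hb) _).mp (Subgroup.inv_mem _ hl))
  have hcc : ⁅K, B⁆ = K := commutator_commutator_eq hnB hcopBP hsolvP
  have hKK₁ : K ≤ K₁ := by rw [← hcc]; exact hKB'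
  haveI : Group.IsNilpotent Y := hYp.isNilpotent
  exact hne (Cfsg.Agent.Lib.Coprime.PGroupComm.eq_bot_of_commutator_eq_self
    ((hcomm.trans (commutator_le_left_of_le_normalizer hnA)).trans hPY)
    (le_antisymm hK₁le hKK₁))

end Cfsg.Agent.S2908
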