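import Cfsg.Statements.S2909
import Cfsg.Agent.Lib.Coprime.FrattiniAct
import Cfsg.Agent.S0028
import Mathlib

set_option autoImplicit false
open Cfsg

namespace Cfsg.Agent.S2909

open Cfsg.Agent.Lib.Coprime.Three Cfsg.Agent.Lib.Coprime.FrattiniAct Cfsg.Agent.Lib.PGroup.Basic
open scoped commutatorElement

/-- Let p be a prime, E a normal p-subgroup of the finite group G, and U a non-cyclic elementary abelian p-subgroup of G such that either C_E(U) = C_E(u) for every nontrivial u ∈ U, or [E, U] = [E, ⟨u⟩] for every nontrivial u ∈ U. If R is a subgroup of order prime to p normalized by U, then [R, U] centralizes E. -/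
theorem result {G : Type*} [Group G] [Finite G] {p : ℕ} [Fact p.Prime] (E : Subgroup G) [E.Normal] (hE : IsPGroup p ↥E) (U : Subgroup G) (hU : Cfsg.IsElementaryAbelian p U) (hnc : ¬ IsCyclic ↥U) (hcond : (∀ u ∈ U, u ≠ 1 → E ⊓ Subgroup.centralizer (U : Set G) = E ⊓ Subgroup.centralizer ({u} : Set G)) ∨ (∀ u ∈ U, u ≠ 1 → ⁅E, U⁆ = ⁅E, Subgroup.zpowers u⁆)) (R : Subgroup G) (hR : ¬ p ∣ Nat.card ↥R) (hRU : U ≤ Subgroup.normalizer (R : Set G)) : ⁅R, U⁆ ≤ Subgroup.centralizer (E : Set G) := by
  classical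
  have hpp : p.Prime := Fact.out
  have hUp : IsPGroup p ↥U := Cfsg.Agent.Lib.Coprime.GenerationE.isPGroup_of_isElementaryAbelian hU
  have hEn : ∀ g : G, g ∈ Subgroup.normalizer (E : Set G) := by
    intro g
    exact mem_normalizer_of_conj_mem (fun e he => (inferInstance : E.Normal).conj_mem e he g)
  have hR0R : ⁅R, U⁆ ≤ R := Cfsg.Agent.Lib.Coprime.Coset.commutator_le_left_of_le_normalizer hRU
  have hR0p : ¬ p ∣ Nat.card ↥(⁅R, U⁆ : Subgroup G) :=
    fun h => hR (h.trans (Subgroup.card_dvd_of_le hR0R))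
  have hUR0 : U ≤ Subgroup.normalizer ((⁅R, U⁆ : Subgroup G) : Set G) := fun v hv =>
    commutator_mem_normalizer (hRU hv) (Subgroup.le_normalizer hv)
  have hordx : ∀ x ∈ (⁅R, U⁆ : Subgroup G), (Nat.card (Subgroup.zpowers x)).Coprime p := by
    intro x hx
    rw [Nat.card_zpowers]
    have h1 : orderOf x ∣ Nat.card ↥(⁅R, U⁆ : Subgroup G) := Subgroup.orderOf_dvd_natCard _ hx
    exact (Nat.Prime.coprime_iff_not_dvd hpp).mpr (fun h => hR0p (h.trans h1)) |>.symm
  have hcommu : ∀ u x : G, x ∈ Subgroup.centralizer ({u} : Set G) → x * u = u * x := by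
    intro u x hx
    exact ((Subgroup.mem_centralizer_iff.mp hx) u rfl).symm
  rcases hcond with h1 | h2
  · -- the first case
    set C : Subgroup G := E ⊓ Subgroup.centralizer (U : Set G) with hC
    have hRC : R ≤ Subgroup.normalizer (C : Set G) := by
      refine le_of_forall_centralizer hU hnc hR hRU ?_
      intro u hu hu1 r hr
      rw [h1 u hu hu1]
      exact inf_mem_normalizer (hEn r) (Subgroup.le_normalizer hr.2)
    have hR0C : ⁅R, U⁆ ≤ Subgroup.centralizer (C : Set G) := by
      rw [Subgroup.commutator_le]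
      intro r hr v hv
      refine Subgroup.mem_centralizer_iff.mpr ?_
      intro c hc
      have hc' : r⁻¹ * c * r ∈ C := by
        have := conj_mem_of_mem_normalizer (hRC (inv_mem hr)) hc
        simpa using this
      have hvc : v * c = c * v := ((Subgroup.mem_centralizer_iff.mp (hc : c ∈ C).2) v hv)
      have hvc' : v * (r⁻¹ * c * r) = (r⁻¹ * c * r) * v :=
        ((Subgroup.mem_centralizer_iff.mp hc'.2) v hv)
      have hvc'' : v⁻¹ * c = c * v⁻¹ := by
        rw [inv_mul_eq_iff_eq_mul, ← mul_assoc, hvc]; group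
      rw [commutatorElement_def]
      calc c * (r * v * r⁻¹ * v⁻¹) = r * ((r⁻¹ * c * r) * v) * r⁻¹ * v⁻¹ := by group
        _ = r * (v * (r⁻¹ * c * r)) * r⁻¹ * v⁻¹ := by rw [hvc']
        _ = r * v * r⁻¹ * (c * v⁻¹) := by group
        _ = r * v * r⁻¹ * (v⁻¹ * c) := by rw [hvc'']
        _ = r * v * r⁻¹ * v⁻¹ * c := by group
    refine le_of_forall_centralizer hU hnc hR0p hUR0 ?_
    intro u hu hu1 x hx
    have hxx : x * u = u * x := hcommu u x hx.2
    have hxZ : Subgroup.zpowers x ≤ Subgroup.centralizer (E : Set G) := by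
      refine Cfsg.Agent.S0028.result p (Subgroup.zpowers u) (Subgroup.zpowers x) E ?_ (hordx x hx.1) hE ?_
        (fun g _ => hEn g) (fun g _ => hEn g) ?_
      · -- `zpowers u` is a `p`-group
        refine IsPGroup.to_le ?_ (Subgroup.zpowers_le.mpr hu)
        exact hUp
      · rintro _ ⟨k, rfl⟩
        refine Subgroup.mem_centralizer_iff.mpr ?_
        rintro _ ⟨l, rfl⟩
        have h3 : Commute x u := hxx
        exact ((h3.zpow_left l).zpow_right k)
      · rintro e ⟨he, hez⟩
        have he1 : e ∈ C := by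
          rw [h1 u hu hu1]
          exact ⟨he, mem_centralizer_zpowers_iff.mp hez⟩
        have h4 : x * e = e * x := ((Subgroup.mem_centralizer_iff.mp (hR0C hx.1)) e he1).symm
        refine mem_centralizer_zpowers_iff.mpr ?_
        refine Subgroup.mem_centralizer_iff.mpr ?_
        intro y hy
        rw [Set.mem_singleton_iff] at hy
        subst hy
        exact h4
    exact hxZ (Subgroup.mem_zpowers x)
  · -- the second case
    set W : Subgroup G := ⁅E, U⁆ with hW
    have hRW : R ≤ Subgroup.normalizer (W : Set G) := by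
      refine le_of_forall_centralizer hU hnc hR hRU ?_
      intro u hu hu1 r hr
      rw [h2 u hu hu1]
      refine commutator_mem_normalizer (hEn r) ?_
      apply mem_normalizer_of_conj_mem
      rintro _ ⟨k, rfl⟩
      have h3 : Commute r u := hcommu u r hr.2
      have h4 : r * u ^ k * r⁻¹ = u ^ k := by
        rw [(h3.zpow_right k).eq]; group
      rw [h4]
      exact Subgroup.zpow_mem_zpowers u k
    have hUW : U ≤ Subgroup.normalizer (W : Set G) := fun v hv =>
      commutator_mem_normalizer (hEn v) (Subgroup.le_normalizer hv)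
    -- the kernel on `E / W`
    let K : Subgroup G :=
      { carrier := {g | g ∈ Subgroup.normalizer (W : Set G) ∧ ∀ e ∈ E, e⁻¹ * (g * e * g⁻¹) ∈ W}
        one_mem' := ⟨one_mem _, fun e _ => by simp⟩
        mul_mem' := by
          rintro g₁ g₂ ⟨h11, h12⟩ ⟨h21, h22⟩
          refine ⟨mul_mem h11 h21, fun e he => ?_⟩
          have h3 := h12 e he
          have h4 := conj_mem_of_mem_normalizer h11 (h22 e he)
          have h5 := W.mul_mem h3 h4
          have h6 : e⁻¹ * (g₁ * e * g₁⁻¹) * (g₁ * (e⁻¹ * (g₂ * e * g₂⁻¹)) * g₁⁻¹) =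
              e⁻¹ * (g₁ * g₂ * e * (g₁ * g₂)⁻¹) := by group
          rwa [h6] at h5
        inv_mem' := by
          rintro g ⟨h11, h12⟩
          refine ⟨inv_mem h11, fun e he => ?_⟩
          have he' : g⁻¹ * e * g ∈ E := by
            have := (inferInstance : E.Normal).conj_mem e he g⁻¹
            simpa using this
          have h3 := W.inv_mem (h12 _ he')
          have h6 : (( g⁻¹ * e * g)⁻¹ * (g * (g⁻¹ * e * g) * g⁻¹))⁻¹ = e⁻¹ * (g⁻¹ * e * g⁻¹⁻¹) := by
            group
          rwa [h6] at h3 }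
    have hKmem : ∀ g, g ∈ K ↔ g ∈ Subgroup.normalizer (W : Set G) ∧ ∀ e ∈ E, e⁻¹ * (g * e * g⁻¹) ∈ W :=
      fun _ => Iff.rfl
    have hUK : U ≤ K := by
      intro v hv
      refine ⟨hUW hv, fun e he => ?_⟩
      have h3 := Subgroup.commutator_mem_commutator (E.inv_mem he) hv
      simpa [commutatorElement_def, mul_assoc] using h3
    have hR0K : ⁅R, U⁆ ≤ K := by
      rw [Subgroup.commutator_le]
      intro r hr v hv
      rw [commutatorElement_def]
      refine K.mul_mem ?_ (K.inv_mem (hUK hv))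
      refine ⟨by
        exact mul_mem (mul_mem (hRW hr) (hUW hv)) (inv_mem (hRW hr)), fun e he => ?_⟩
      have he' : r⁻¹ * e * r ∈ E := by
        have := (inferInstance : E.Normal).conj_mem e he r⁻¹
        simpa using this
      have h3 := ((hKmem v).mp (hUK hv)).2 _ he'
      have h4 := conj_mem_of_mem_normalizer (hRW hr) h3
      have h5 : r * ((r⁻¹ * e * r)⁻¹ * (v * (r⁻¹ * e * r) * v⁻¹)) * r⁻¹ =
          e⁻¹ * (r * v * r⁻¹ * e * (r * v * r⁻¹)⁻¹) := by group
      rwa [h5] at h4
    refine le_of_forall_centralizer hU hnc hR0p hUR0 ?_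
    intro u hu hu1 x hx
    have hxx : x * u = u * x := hcommu u x hx.2
    -- the `p`-group `T`
    have hzp : IsPGroup p ↥(Subgroup.zpowers u) := IsPGroup.to_le hUp (Subgroup.zpowers_le.mpr hu)
    set T : Subgroup G := E ⊔ Subgroup.zpowers u with hT
    have hTp : IsPGroup p ↥T := hE.to_sup_of_normal_left hzp
    have hxT : Subgroup.zpowers x ≤ Subgroup.normalizer (T : Set G) := by
      rw [Subgroup.zpowers_le]
      refine sup_mem_normalizer (hEn x) ?_
      apply mem_normalizer_of_conj_mem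
      rintro _ ⟨k, rfl⟩
      have h3 : Commute x u := hxx
      have h4 : x * u ^ k * x⁻¹ = u ^ k := by
        rw [(h3.zpow_right k).eq]; group
      rw [h4]
      exact Subgroup.zpow_mem_zpowers u k
    have hWΦ : W ≤ (frattini ↥T).map T.subtype := by
      rw [h2 u hu hu1, Subgroup.commutator_le]
      intro e he w hw
      have he' : e ∈ T := (le_sup_left : E ≤ T) he
      have hw' : w ∈ T := (le_sup_right : Subgroup.zpowers u ≤ T) hw
      refine ⟨⁅(⟨e, he'⟩ : T), (⟨w, hw'⟩ : T)⁆, ?_, ?_⟩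
      · exact commutatorElement_mem_frattini hTp _ _
      · simp [commutatorElement_def]
    have hcent : Subgroup.zpowers x ≤ Subgroup.centralizer (T : Set G) := by
      refine le_centralizer_of_frattini hTp hxT (hordx x hx.1) ?_
      rintro t ht _ ⟨k, rfl⟩
      simp only
      -- decompose `t`
      obtain ⟨e, he, w, hw, rfl⟩ := Subgroup.mem_sup_of_normal_left.mp ht
      have hak : x ^ k ∈ K := Subgroup.zpow_mem _ (hR0K hx.1) k
      have hn : e⁻¹ * (x ^ k * e * (x ^ k)⁻¹) ∈ (frattini ↥T).map T.subtype := hWΦ (hak.2 e he)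
      obtain ⟨l, rfl⟩ := hw
      have hcomm : x ^ k * u ^ l = u ^ l * x ^ k := (((Commute.zpow_left hxx k)).zpow_right l).eq
      have hwT : u ^ l ∈ T := (le_sup_right : Subgroup.zpowers u ≤ T) (Subgroup.zpow_mem_zpowers u l)
      have hΦnorm := map_char_mem_normalizer (T := T) (frattini ↥T) inferInstance
        (Subgroup.le_normalizer (inv_mem hwT))
      have h5 := conj_mem_of_mem_normalizer hΦnorm hn
      have h6 : (u ^ l)⁻¹ * (e⁻¹ * (x ^ k * e * (x ^ k)⁻¹)) * (u ^ l)⁻¹⁻¹ =
          (e * u ^ l)⁻¹ * (x ^ k * (e * u ^ l) * (x ^ k)⁻¹) := by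
        have h7 : x ^ k * (e * u ^ l) * (x ^ k)⁻¹ = x ^ k * e * (x ^ k)⁻¹ * u ^ l := by
          calc x ^ k * (e * u ^ l) * (x ^ k)⁻¹ = x ^ k * e * (x ^ k)⁻¹ * (x ^ k * u ^ l) * (x ^ k)⁻¹ := by group
            _ = x ^ k * e * (x ^ k)⁻¹ * (u ^ l * x ^ k) * (x ^ k)⁻¹ := by rw [hcomm]
            _ = x ^ k * e * (x ^ k)⁻¹ * u ^ l := by group
        rw [h7]; group
      rwa [h6] at h5
    have h8 := hcent (Subgroup.mem_zpowers x)
    refine Subgroup.mem_centralizer_iff.mpr ?_
    intro e he
    exact (Subgroup.mem_centralizer_iff.mp h8) e ((le_sup_left : E ≤ T) he)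

end Cfsg.Agent.S2909
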