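import Cfsg.Statements.S2910
import Cfsg.Agent.Lib.Transfer.Frobenius
import Cfsg.Agent.Lib.Transfer.Basic
import Cfsg.Agent.Lib.Coprime.OmegaOne
import Cfsg.Agent.Lib.PGroup.Critical

set_option autoImplicit false
open Cfsg

namespace Cfsg.Agent.S2910

open Cfsg.Agent.Lib.Transfer.Frobenius Cfsg.Agent.Lib.Coprime.OmegaOne

/-- Let p be an odd prime dividing the order of the finite group G and P a Sylow p-subgroup of G. If Ω₁(P) (generated by the elements of order dividing p) is contained in the centre of G, then G has a normal p-complement. In particular, if G is quasisimple then Ω₁(P) is not central in G. -/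
theorem result {G : Type*} [Group G] [Finite G] {p : ℕ} [Fact p.Prime] (hp : p ≠ 2) (hdiv : p ∣ Nat.card G) (P : Sylow p G) (hZ : Cfsg.omegaOne p (P : Subgroup G) ≤ Subgroup.center G) : Cfsg.HasNormalPComplement p G ∧ ¬ Cfsg.IsQuasisimple G := by
  classical
  have hcomp : Cfsg.HasNormalPComplement p G := by
    refine hasNormalPComplement_of_hyp ?_
    intro Q hQ g hg hc
    have hc' : (orderOf (conjAut Q g hg)).Coprime p :=
      Nat.Coprime.coprime_dvd_left (orderOf_conjAut_dvd Q g hg) hc
    have h1 : conjAut Q g hg = 1 := by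
      refine Cfsg.Agent.Lib.PGroup.Critical.coprime_aut_eq_one_of_fixes hQ _ hc' dvd_rfl
        (Cfsg.Agent.Lib.PGroup.Critical.prime_dvd_choose_two hp) ?_
      intro x hx
      apply Subtype.ext
      rw [conjAut_apply_coe]
      obtain ⟨y, hy⟩ := exists_conj_mem_of_isPGroup P hQ
      have hx' : (x : G) ^ p = 1 := by
        have := congrArg (fun y : Q => (y : G)) hx
        simpa using this
      have hmem : y * (x : G) * y⁻¹ ∈ Cfsg.omegaOne p (P : Subgroup G) := by
        apply Subgroup.subset_closure
        refine ⟨hy _ x.2, ?_⟩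
        rw [conj_pow, hx']
        group
      have hcen := hZ hmem
      rw [Subgroup.mem_center_iff] at hcen
      have hxc : ∀ u : G, u * (x : G) = (x : G) * u := by
        intro u
        have h3 := hcen (y * u * y⁻¹)
        have h4 : y * u * y⁻¹ * (y * (x : G) * y⁻¹) = y * (u * x) * y⁻¹ := by group
        have h5 : y * (x : G) * y⁻¹ * (y * u * y⁻¹) = y * (x * u) * y⁻¹ := by group
        rw [h4, h5] at h3
        exact mul_left_cancel (mul_right_cancel h3)
      rw [hxc g]
      group
    rw [Subgroup.mem_centralizer_iff]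
    intro q hq
    have h2 := congrArg (fun φ : MulAut Q => ((φ ⟨q, hq⟩ : Q) : G)) h1
    simp only [conjAut_apply_coe, MulAut.one_apply] at h2
    calc q * g = (g * q * g⁻¹) * g := by rw [h2]
      _ = g * q := by group
  refine ⟨hcomp, ?_⟩
  rintro ⟨hperf, -⟩
  obtain ⟨N, hN, hcop, hpg⟩ := Cfsg.Agent.Lib.Transfer.Basic.hasNormalPComplement_iff.mp hcomp
  have hsub : Subsingleton (G ⧸ N) := by
    by_contra hns
    rw [not_subsingleton_iff_nontrivial] at hns
    have hnil : Group.IsNilpotent (G ⧸ N) := hpg.isNilpotent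
    exact Group.IsPerfect.not_isSolvable (G := G ⧸ N) inferInstance
  have h1 : Nat.card (G ⧸ N) = 1 := Nat.card_of_subsingleton 1
  have h2 : Nat.card N * N.index = Nat.card G := N.card_mul_index
  rw [Subgroup.index, h1, mul_one] at h2
  rw [← h2] at hdiv
  exact (Nat.Prime.coprime_iff_not_dvd (Fact.out : p.Prime)).mp hcop.symm hdiv

end Cfsg.Agent.S2910
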