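import Cfsg.Statements.S2912
import Cfsg.Agent.Lib.FrobRep.Ext
import Cfsg.Agent.Lib.FrobRep.CentralScalar
import Cfsg.Agent.Lib.PGroup.VRep
import Cfsg.Agent.Lib.PGroup.Extraspecial

set_option autoImplicit false
open Cfsg

namespace Cfsg.Agent.S2912

open Polynomial Cfsg.Agent.Lib.FrobRep Cfsg.Agent.Lib.PGroup.VRep
open scoped commutatorElement

theorem aeval_restrict_coe {F V : Type*} [Field F] [AddCommGroup V] [Module F V]
    {T : Module.End F V} {U : Submodule F V} (h : ∀ x ∈ U, T x ∈ U) (g : F[X]) (x : U) :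
    ((aeval (T.restrict h : Module.End F U) g x : U) : V) = aeval T g x := by
  induction g using Polynomial.induction_on' with
  | add p q hp hq =>
    simp only [map_add, LinearMap.add_apply, Submodule.coe_add, hp, hq]
  | monomial n a =>
    simp only [aeval_monomial, Module.End.mul_apply, Module.algebraMap_end_apply,
      Submodule.coe_smul]
    congr 1
    induction n with
    | zero => simp
    | succ n ih =>
      rw [pow_succ', pow_succ', Module.End.mul_apply, Module.End.mul_apply, ← ih]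
      rfl

/-- Let p and r be distinct primes, let E be an extraspecial subgroup of order p^(2w+1) of a finite group, and let A be an elementary abelian r-subgroup normalized by E on which E acts faithfully (C_E(A) = 1). If n ≥ 1 is least with p dividing rⁿ − 1 (the smallest dimension of a faithful representation of a group of order p over the field with r elements), then the order of A is at least r^(n·p^w). -/
theorem result {G : Type*} [Group G] [Finite G] {p r : ℕ} [Fact p.Prime] [hr : Fact r.Prime] (hpr : p ≠ r) (E A : Subgroup G) (w : ℕ) (hE : Cfsg.IsExtraspecial p ↥E) (hEcard : Nat.card ↥E = p ^ (2 * w + 1)) (hA : Cfsg.IsElementaryAbelian r A) (hnorm : E ≤ Subgroup.normalizer (A : Set G)) (hfaith : E ⊓ Subgroup.centralizer (A : Set G) = ⊥) (n : ℕ) (hn : 1 ≤ n) (hdiv : p ∣ r ^ n - 1) (hmin : ∀ k : ℕ, 1 ≤ k → p ∣ r ^ k - 1 → n ≤ k) : r ^ (n * p ^ w) ≤ Nat.card ↥A := by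
  classical
  have hZcard : Nat.card (Subgroup.center ↥E) = p := hE.2
  have hpp : p.Prime := Fact.out
  haveI : Nontrivial (Subgroup.center ↥E) := by
    rw [← Finite.one_lt_card_iff_nontrivial, hZcard]
    exact hpp.one_lt
  obtain ⟨⟨z, hzZ⟩, hz1⟩ := exists_ne (1 : Subgroup.center ↥E)
  have hz1' : z ≠ 1 := fun h => hz1 (Subtype.ext h)
  have hzp : z ^ p = 1 := by
    have := pow_card_eq_one' (x := (⟨z, hzZ⟩ : Subgroup.center ↥E))
    rw [hZcard] at this
    exact congrArg Subtype.val this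
  have hgen : ∀ y ∈ Subgroup.center ↥E, y ≠ 1 → ∃ s : ℕ, z = y ^ s := by
    intro y hy hy1
    have hy1' : (⟨y, hy⟩ : Subgroup.center ↥E) ≠ 1 := fun h => hy1 (congrArg Subtype.val h)
    have := mem_zpowers_of_prime_card hZcard (g := ⟨y, hy⟩) (g' := ⟨z, hzZ⟩) hy1'
    rw [mem_powers_iff_mem_zpowers.symm] at this
    obtain ⟨s, hs⟩ := this
    exact ⟨s, (congrArg Subtype.val hs).symm⟩
  have hgen2 : ∀ y ∈ Subgroup.center ↥E, ∃ s : ℕ, y = z ^ s := by
    intro y hy
    have := mem_zpowers_of_prime_card hZcard (g := ⟨z, hzZ⟩) (g' := ⟨y, hy⟩)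
      (fun h => hz1' (congrArg Subtype.val h))
    rw [mem_powers_iff_mem_zpowers.symm] at this
    obtain ⟨s, hs⟩ := this
    exact ⟨s, (congrArg Subtype.val hs).symm⟩
  -- the module
  set ρ := vRep (p := r) hA hnorm with hρ
  haveI hfinW : Finite (VMod r A hA) := inferInstanceAs (Finite ↥A)
  haveI : Module.Finite (ZMod r) (VMod r A hA) := Module.Finite.of_finite
  have hρinj : Function.Injective ρ := vRep_injective hnorm hfaith
  set T : Module.End (ZMod r) (VMod r A hA) := ρ z with hT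
  have hT1 : T ≠ 1 := by
    intro h
    apply hz1'
    apply hρinj
    rw [map_one]
    exact h
  have hTp : T ^ p = 1 := by
    rw [hT, ← map_pow, hzp, map_one]
  have hprm : ((p : ℕ) : ZMod r) ≠ 0 := by
    rw [Ne, ZMod.natCast_eq_zero_iff]
    intro h
    exact hpr ((Nat.prime_dvd_prime_iff_eq (Fact.out) hpp).1 h).symm
  set Φ : (ZMod r)[X] := cyclotomic p (ZMod r) with hΦ
  have hΦ0 : Φ ≠ 0 := cyclotomic_ne_zero p _
  have hΦmul : Φ * (X - 1) = X ^ p - 1 := cyclotomic_prime_mul_X_sub_one (ZMod r) p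
  have hnoninj : ¬ Function.Injective (aeval T Φ) := by
    intro hinj
    apply hT1
    have h1 : aeval T Φ * (T - 1) = 0 := by
      rw [← sub_eq_zero.2 (show (T ^ p : Module.End (ZMod r) (VMod r A hA)) = 1 from hTp)]
      have := congrArg (aeval T) hΦmul
      simpa using this
    have h2 : T - 1 = 0 := by
      ext x
      apply hinj
      have := LinearMap.congr_fun h1 x
      simpa using this
    exact sub_eq_zero.1 h2
  obtain ⟨f, hf, hfΦ, hfn⟩ := exists_irreducible_noninj T Φ hΦ0 hnoninj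
  set U₀ := LinearMap.ker (aeval T f) with hU₀
  have hU₀ne : U₀ ≠ ⊥ := by
    intro h
    exact hfn (LinearMap.ker_eq_bot.1 h)
  have hcomm : ∀ g : ↥E, Commute (ρ g) T := by
    intro g
    show ρ g * ρ z = ρ z * ρ g
    rw [← map_mul, ← map_mul, ((Subgroup.mem_center_iff).1 hzZ g).symm]
  have hinv : ∀ (g : ↥E), ∀ x ∈ U₀, ρ g x ∈ U₀ := by
    intro g x hx
    rw [hU₀, LinearMap.mem_ker] at hx ⊢
    have := LinearMap.congr_fun (commute_aeval (hcomm g) f).eq x
    rw [Module.End.mul_apply, Module.End.mul_apply, hx, map_zero] at this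
    exact this.symm
  let ρ₀ : ↥E →* Module.End (ZMod r) ↥U₀ :=
    { toFun := fun g => (ρ g).restrict (hinv g)
      map_one' := by
        ext x
        simp
      map_mul' := fun a b => by
        ext x
        simp }
  have hρ₀ : ∀ g (x : U₀), ((ρ₀ g x : U₀) : VMod r A hA) = ρ g x := fun _ _ => rfl
  set T₀ : Module.End (ZMod r) ↥U₀ := ρ₀ z with hT₀
  have hT₀eq : T₀ = T.restrict (hinv z) := rfl
  have hfT₀ : aeval T₀ f = 0 := by
    ext x
    rw [hT₀eq, aeval_restrict_coe]
    exact LinearMap.mem_ker.1 x.2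
  letI hfact : Fact (Irreducible f) := ⟨hf⟩
  letI instM : Module (AdjoinRoot f) ↥U₀ := extModule f T₀ hfT₀
  haveI instT : IsScalarTower (ZMod r) (AdjoinRoot f) ↥U₀ := ext_tower f T₀ hfT₀
  haveI : Module.Finite (ZMod r) (AdjoinRoot f) :=
    (AdjoinRoot.powerBasis hf.ne_zero).finite
  have hfinK : Module.finrank (ZMod r) (AdjoinRoot f) = f.natDegree := finrank_quotient_span_eq_natDegree
  haveI : Finite (AdjoinRoot f) := Module.finite_of_finite (ZMod r)
  haveI : Module.Finite (AdjoinRoot f) ↥U₀ := Module.Finite.of_restrictScalars_finite (ZMod r) _ _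
  haveI hntU : Nontrivial ↥U₀ := Submodule.nontrivial_iff_ne_bot.2 hU₀ne
  have hsm : ∀ (k : AdjoinRoot f) (x : ↥U₀), k • x = extHom f T₀ hfT₀ k x := fun _ _ => rfl
  have hcomm₀ : ∀ g : ↥E, Commute (ρ₀ g) T₀ := by
    intro g
    show ρ₀ g * ρ₀ z = ρ₀ z * ρ₀ g
    rw [← map_mul, ← map_mul, ((Subgroup.mem_center_iff).1 hzZ g).symm]
  let ρK : ↥E →* Module.End (AdjoinRoot f) ↥U₀ :=
    liftRep ρ₀ (fun g k x => by
      rw [hsm, hsm]
      exact LinearMap.congr_fun (commute_extHom (hcomm₀ g) f hfT₀ k).eq x)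
  have hρK : ∀ g x, ρK g x = ρ₀ g x := fun _ _ => rfl
  have hroot : extHom f T₀ hfT₀ (AdjoinRoot.root f) = T₀ := by
    rw [← AdjoinRoot.mk_X, extHom_mk, aeval_X]
  have hscal : ∀ y ∈ Subgroup.center ↥E, ∃ c : AdjoinRoot f, ρK y = c • 1 := by
    intro y hy
    obtain ⟨s, rfl⟩ := hgen2 y hy
    refine ⟨AdjoinRoot.root f ^ s, ?_⟩
    apply LinearMap.ext
    intro x
    have h1 : ρK (z ^ s) x = (T₀ ^ s) x := by rw [hρK, map_pow]
    have h2 : ((AdjoinRoot.root f ^ s) • (1 : Module.End (AdjoinRoot f) ↥U₀)) x = (T₀ ^ s) x := by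
      rw [LinearMap.smul_apply, Module.End.one_apply, hsm, map_pow, hroot]
    rw [h1, h2]
  have hone : ρK z = 1 → False := by
    intro h
    have h1 : T₀ = 1 := by
      ext x
      have := LinearMap.congr_fun h x
      exact congrArg (fun y : ↥U₀ => (y : VMod r A hA)) this
    have h2 : aeval (1 : Module.End (ZMod r) ↥U₀) f = 0 := by
      rw [← h1]
      exact hfT₀
    have h3 : eval 1 f = 0 := by
      have h4 : aeval (1 : Module.End (ZMod r) ↥U₀) f
          = algebraMap (ZMod r) (Module.End (ZMod r) ↥U₀) (eval 1 f) := by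
        rw [← Polynomial.aeval_algebraMap_apply_eq_algebraMap_eval, map_one]
      rw [h4] at h2
      exact (map_eq_zero_iff _ (algebraMap (ZMod r) (Module.End (ZMod r) ↥U₀)).injective).1 h2
    have h5 : eval 1 Φ = 0 := by
      obtain ⟨g, hg⟩ := hfΦ
      rw [hg, eval_mul, h3, zero_mul]
    rw [hΦ, eval_one_cyclotomic_prime] at h5
    exact hprm h5
  have hinj : ∀ y ∈ Subgroup.center ↥E, ρK y = 1 → y = 1 := by
    intro y hy h1
    by_contra hy1
    obtain ⟨s, hs⟩ := hgen y hy hy1
    apply hone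
    rw [hs, map_pow, h1, one_pow]
  have hc : ∀ x g : ↥E, ⁅x, g⁆ ∈ Subgroup.center ↥E :=
    Cfsg.Agent.Lib.PGroup.Extraspecial.IsExtraspecial.comm_mem_center hE
  have hle := card_quot_center_le_sq ρK hscal hinj hc
  have hquot : Nat.card (↥E ⧸ Subgroup.center ↥E) = p ^ (2 * w) := by
    have h1 := Subgroup.card_eq_card_quotient_mul_card_subgroup (Subgroup.center ↥E)
    rw [hEcard, hZcard, pow_succ] at h1
    exact (Nat.eq_of_mul_eq_mul_right hpp.pos h1).symm
  set m := Module.finrank (AdjoinRoot f) ↥U₀ with hm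
  have hpm : p ^ w ≤ m := by
    rw [hquot, mul_comm, pow_mul] at hle
    exact (Nat.pow_le_pow_iff_left (by norm_num)).1 hle
  -- the degree of f
  have hd : n ≤ f.natDegree := by
    apply hmin _ hf.natDegree_pos
    set ζ := AdjoinRoot.root f with hζ
    have hcard : Nat.card (AdjoinRoot f) = r ^ f.natDegree := by
      rw [natCard_eq_pow_finrank (ZMod r), hfinK, Nat.card_zmod]
    have hΦζ : aeval ζ Φ = 0 := by
      obtain ⟨g, hg⟩ := hfΦ
      rw [hg, map_mul, hζ, AdjoinRoot.aeval_eq, AdjoinRoot.mk_self, zero_mul]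
    have hζp : ζ ^ p = 1 := by
      have := congrArg (aeval ζ) hΦmul
      simp only [map_mul, hΦζ, zero_mul, map_sub, map_pow, aeval_X, map_one] at this
      exact (sub_eq_zero.1 this.symm)
    have hζ1 : ζ ≠ 1 := by
      intro h
      rw [h] at hΦζ
      have h4 : aeval (1 : AdjoinRoot f) Φ = algebraMap (ZMod r) (AdjoinRoot f) (eval 1 Φ) := by
        rw [← Polynomial.aeval_algebraMap_apply_eq_algebraMap_eval, map_one]
      rw [h4, map_eq_zero_iff _ (algebraMap (ZMod r) (AdjoinRoot f)).injective, hΦ,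
        eval_one_cyclotomic_prime] at hΦζ
      exact hprm hΦζ
    have hζ0 : ζ ≠ 0 := by
      intro h
      rw [h, zero_pow hpp.ne_zero] at hζp
      exact zero_ne_one hζp
    let u : (AdjoinRoot f)ˣ := Units.mk0 ζ hζ0
    have hu : orderOf u = p := by
      haveI : Fact p.Prime := ⟨hpp⟩
      apply orderOf_eq_prime
      · ext
        simpa [u] using hζp
      · intro h
        exact hζ1 (by simpa [u] using congrArg Units.val h)
    have h6 : orderOf u ∣ Nat.card (AdjoinRoot f)ˣ := orderOf_dvd_natCard u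
    rw [hu, Nat.card_units, hcard] at h6
    exact h6
  have hcardU : Nat.card ↥U₀ = (r ^ f.natDegree) ^ m := by
    rw [natCard_eq_pow_finrank (AdjoinRoot f)]
    congr 1
    rw [natCard_eq_pow_finrank (ZMod r), hfinK, Nat.card_zmod]
  have hcardA : Nat.card ↥U₀ ≤ Nat.card ↥A := by
    have : Nat.card ↥U₀ ≤ Nat.card (VMod r A hA) :=
      Nat.card_le_card_of_injective Subtype.val Subtype.val_injective
    exact this
  calc r ^ (n * p ^ w) ≤ r ^ (f.natDegree * m) :=
        Nat.pow_le_pow_right (Nat.Prime.pos Fact.out) (Nat.mul_le_mul hd hpm)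
    _ = (r ^ f.natDegree) ^ m := pow_mul _ _ _
    _ = Nat.card ↥U₀ := hcardU.symm
    _ ≤ Nat.card ↥A := hcardA

end Cfsg.Agent.S2912
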