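import Cfsg.Statements.S2923
import Mathlib
import Cfsg.Agent.Lib.Basic.PCore
import Cfsg.Agent.Lib.Components.Transport
import Cfsg.Agent.Lib.Nilpotent.Commutator
-- import your own Cfsg.Agent.* helpers here

set_option autoImplicit false
open Cfsg

namespace Cfsg.Agent.S2923

open Cfsg.Agent.Lib.Basic.PCore in
theorem fitting_le {X : Type*} [Group X] [Finite X] {p : ℕ} [hp : Fact p.Prime]
    (hX : Subgroup.centralizer (Cfsg.pCore p X : Set X) ≤ Cfsg.pCore p X) :
    Cfsg.fittingSubgroup X ≤ Cfsg.pCore p X := by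
  rw [fittingSubgroup_eq_iSup_pCore]
  refine iSup_le fun q => ?_
  haveI : Fact q.1.Prime := ⟨Nat.prime_of_mem_primeFactors q.2⟩
  by_cases hq : q.1 = p
  · rw [hq]
  · have hdis : Disjoint (Cfsg.pCore q.1 X) (Cfsg.pCore p X) :=
      IsPGroup.disjoint_of_ne q.1 p hq _ _ (pCore_isPGroup q.1) (pCore_isPGroup p)
    intro x hx
    apply hX
    rw [Subgroup.mem_centralizer_iff]
    intro y hy
    exact (Subgroup.commute_of_normal_of_disjoint _ _ inferInstance inferInstance hdis x y hx hy).symm

open Cfsg.Agent.Lib.Basic.PCore Cfsg.Agent.Lib.Nilpotent.Commutator in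
/-- Normal subgroups of groups of characteristic `p` have characteristic `p`. -/
theorem step {X : Type*} [Group X] [Finite X] {p : ℕ} [hp : Fact p.Prime]
    (hX : Subgroup.centralizer (Cfsg.pCore p X : Set X) ≤ Cfsg.pCore p X)
    (Y : Subgroup X) [hY : Y.Normal] :
    Subgroup.centralizer (Cfsg.pCore p ↥Y : Set ↥Y) ≤ Cfsg.pCore p ↥Y := by
  set Q := Cfsg.pCore p X with hQ
  set R : Subgroup X := Q ⊓ Y with hR
  have hRmap : (Cfsg.pCore p ↥Y).map Y.subtype = R := map_pCore_of_normal
  haveI hQn : Q.Normal := pCore_normal p X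
  haveI hRn : R.Normal := inferInstance
  set H : Subgroup X := Subgroup.centralizer (R : Set X) ⊓ Y with hH
  haveI hCn : (Subgroup.centralizer (R : Set X)).Normal := Subgroup.normal_centralizer
  haveI hHn : H.Normal := inferInstance
  have hHR : ∀ h ∈ H, ∀ r ∈ R, h * r = r * h := by
    intro h hh r hr
    have := Subgroup.mem_centralizer_iff.1 hh.1 r hr
    exact this.symm
  have hcommR : ∀ A : Subgroup X, A ≤ R → ⁅A, H⁆ = ⊥ := by
    intro A hA
    rw [Subgroup.commutator_eq_bot_iff_le_centralizer]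
    intro a ha
    rw [Subgroup.mem_centralizer_iff]
    intro h hh
    exact hHR h hh a (hA ha)
  have h1 : ⁅Q, H⁆ ≤ R := by
    refine le_inf (Subgroup.commutator_le_left _ _) ?_
    exact (Subgroup.commutator_le_right _ _).trans inf_le_right
  have h2 : ⁅⁅Q, H⁆, H⁆ = ⊥ := hcommR _ h1
  have h3 : ⁅⁅H, H⁆, Q⁆ ≤ (⊥ : Subgroup X) := by
    apply three_subgroups
    · rw [Subgroup.commutator_comm H Q]
      exact h2.le
    · exact h2.le
  have h4 : ⁅H, H⁆ ≤ Subgroup.centralizer (Q : Set X) := by
    rw [le_bot_iff, Subgroup.commutator_eq_bot_iff_le_centralizer] at h3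
    exact h3
  have h5 : ⁅H, H⁆ ≤ R := by
    refine le_inf (h4.trans hX) ?_
    exact (Subgroup.commutator_le_right _ _).trans inf_le_right
  have h6 : H.lowerCentralSeries 2 = ⊥ := hcommR _ h5
  have hnil : Group.IsNilpotent H := (Subgroup.isNilpotent_iff_lowerCentralSeries H).2 ⟨2, h6⟩
  have hHQ : H ≤ Q := (le_fittingSubgroup hHn hnil).trans (fitting_le hX)
  have hHle : H ≤ R := le_inf hHQ inf_le_right
  intro x hx
  have hxH : (x : X) ∈ H := by
    refine ⟨?_, x.2⟩
    show (x : X) ∈ Subgroup.centralizer (R : Set X)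
    rw [Subgroup.mem_centralizer_iff]
    intro r hr
    rw [← hRmap] at hr
    obtain ⟨r', hr', rfl⟩ := hr
    have := Subgroup.mem_centralizer_iff.1 hx r' hr'
    exact congrArg Subtype.val this
  have hxR := hHle hxH
  rw [← hRmap] at hxR
  obtain ⟨r', hr', hr⟩ := hxR
  have : r' = x := Subtype.ext hr
  exact this ▸ hr'

open Cfsg.Agent.Lib.Components.Transport in
theorem transfer {X Y : Type*} [Group X] [Group Y] (e : X ≃* Y) {p : ℕ}
    (hX : Subgroup.centralizer (Cfsg.pCore p X : Set X) ≤ Cfsg.pCore p X) :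
    Subgroup.centralizer (Cfsg.pCore p Y : Set Y) ≤ Cfsg.pCore p Y := by
  intro y hy
  rw [← pCore_map_equiv p e]
  refine ⟨e.symm y, hX ?_, by simp⟩
  rw [Subgroup.mem_centralizer_iff]
  intro x hx
  have hex : e x ∈ Cfsg.pCore p Y := by
    rw [← pCore_map_equiv p e]
    exact ⟨x, hx, rfl⟩
  have := Subgroup.mem_centralizer_iff.1 hy (e x) hex
  apply e.injective
  simpa using this

/-- Let p be a prime and X a finite group of characteristic p, that is C_X(O_p(X)) ≤ O_p(X). Then every subnormal subgroup of X has characteristic p. -/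
theorem result {X : Type*} [Group X] [Finite X] {p : ℕ} [Fact p.Prime] (hX : Subgroup.centralizer (Cfsg.pCore p X : Set X) ≤ Cfsg.pCore p X) (Y : Subgroup X) (hY : Y.IsSubnormal) : Subgroup.centralizer (Cfsg.pCore p ↥Y : Set ↥Y) ≤ Cfsg.pCore p ↥Y := by
  induction hY with
  | top => exact transfer Subgroup.topEquiv.symm hX
  | step H K hle hK hN ih =>
    haveI := hN
    have h1 := step ih (H.subgroupOf K)
    exact transfer (Subgroup.subgroupOfEquivOfLe hle) h1

end Cfsg.Agent.S2923
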