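import Cfsg.Agent.Lib.Components.OddCoreFunctor
import Cfsg.Agent.Lib.Signalizer.KBalance
import Cfsg.Prelude.Def_CaseTheorems

set_option autoImplicit false
set_option linter.unusedVariables false
set_option linter.style.haveILetI false
set_option linter.unusedSectionVars false
set_option linter.deprecated false
set_option maxHeartbeats 4000000

namespace Cfsg.Agent.S2924

open Cfsg Cfsg.Agent.Lib.Components.OddCoreFunctor
open Cfsg.Agent.Lib.Signalizer.Basic Cfsg.Agent.Lib.Signalizer.CoreBalance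

/-- Let X be a finite group and Y an elementary abelian 2-subgroup of X of order at least 8 such that C_X(x) has no components (E(C_X(x)) = 1) for every nontrivial x ∈ Y, and F*(C_X(z)) = O₂(C_X(z)) for some nontrivial z ∈ Y. Then the subgroup generated by the cores O(C_X(y)), y ∈ Y nontrivial, has odd order and is normalized by N_X(Y). -/
theorem result {X : Type*} [Group X] [Finite X] (Y : Subgroup X) (hY : Cfsg.IsElementaryAbelian 2 Y) (h8 : 8 ≤ Nat.card ↥Y) (hE : ∀ x ∈ Y, x ≠ 1 → Cfsg.layer ↥(Subgroup.centralizer ({x} : Set X)) = ⊥) (hz : ∃ z ∈ Y, z ≠ 1 ∧ Cfsg.generalizedFittingSubgroup ↥(Subgroup.centralizer ({z} : Set X)) = Cfsg.pCore 2 ↥(Subgroup.centralizer ({z} : Set X))) : Odd (Nat.card ↥(⨆ y : {y : X // y ∈ Y ∧ y ≠ 1}, (Cfsg.oddCore ↥(Subgroup.centralizer ({(y : X)} : Set X))).map (Subgroup.centralizer ({(y : X)} : Set X)).subtype)) ∧ Subgroup.normalizer (Y : Set X) ≤ Subgroup.normalizer ((⨆ y : {y : X // y ∈ Y ∧ y ≠ 1}, (Cfsg.oddCore ↥(Subgroup.centralizer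 ({(y : X)} : Set X))).map (Subgroup.centralizer ({(y : X)} : Set X)).subtype : Subgroup X) : Set X) := by
  classical
  show Odd (Nat.card ↥(⨆ y : {y : X // y ∈ Y ∧ y ≠ 1}, centralizerPPrimeCore 2 (y : X))) ∧
    Subgroup.normalizer (Y : Set X) ≤
      Subgroup.normalizer ((⨆ y : {y : X // y ∈ Y ∧ y ≠ 1}, centralizerPPrimeCore 2 (y : X) : Subgroup X) : Set X)
  obtain ⟨z, hzY, hz1, hzF⟩ := hz
  have hcomm : ∀ {a b : X}, a ∈ Y → b ∈ Y → a * b = b * a :=
    fun ha hb => Cfsg.Agent.Lib.Signalizer.KBalance.comm_of_mem hY ha hb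
  have hsq : ∀ a ∈ Y, a ^ 2 = 1 := hY.2
  set J := Subgroup.centralizer ({z} : Set X) with hJ
  have hF2 : IsPGroup 2 ↥(generalizedFittingSubgroup ↥J) :=
    Cfsg.Agent.Lib.Components.LocalFStar.generalizedFitting_eq_pCore_iff.mp hzF
  -- `O(C(z)) = 1`
  have hO : pPrimeCore 2 ↥J = ⊥ := by
    set N := pPrimeCore 2 ↥J with hN
    set F := generalizedFittingSubgroup ↥J with hF
    have hNn : N.Normal := inferInstance
    have hFn : F.Normal := inferInstance
    have hcop : (Nat.card N).Coprime (Nat.card F) := by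
      obtain ⟨k, hk⟩ := IsPGroup.iff_card.mp hF2
      rw [hk]
      exact Nat.Coprime.pow_right k (Cfsg.Agent.Lib.Components.Transport.coprime_card_pPrimeCore 2)
    have hinf : N ⊓ F = ⊥ := Cfsg.Agent.Lib.Coprime.SZ.inf_eq_bot_of_coprime_card hcop
    have h1 : ⁅N, F⁆ = ⊥ := by
      rw [eq_bot_iff, ← hinf]
      exact Subgroup.commutator_le_inf N F
    have h2 : N ≤ Subgroup.centralizer (F : Set ↥J) :=
      (Subgroup.commutator_eq_bot_iff_le_centralizer).mp h1
    have h3 : N ≤ F := h2.trans Cfsg.Agent.Lib.Components.FStar.centralizer_generalizedFitting_le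
    exact le_bot_iff.mp (hinf ▸ le_inf le_rfl h3)
  have hLz : layer (↥J ⧸ pPrimeCore 2 ↥J) = ⊥ := layer_quot_eq_bot_of_core_bot hO (hE z hzY hz1)
  have hθz : centralizerPPrimeCore 2 z = ⊥ := by
    unfold centralizerPPrimeCore
    rw [hO, Subgroup.map_bot]
  -- `z` has no fixed points on the cores
  have hfix : ∀ x ∈ Y, ∀ u ∈ centralizerPPrimeCore 2 x, z * u = u * z → u = 1 := by
    intro x hx u hu hc
    have h1 := centralizerPPrimeCore_inf_le_of_layer (p := 2) (a := x) (b := z) (hcomm hx hzY)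
      (hsq x hx) hLz ⟨hu, Subgroup.mem_centralizer_singleton_iff.mpr hc.symm⟩
    rw [hθz] at h1
    exact Subgroup.mem_bot.mp h1
  have hinv : ∀ x ∈ Y, ∀ u ∈ centralizerPPrimeCore 2 x, z * u * z⁻¹ = u⁻¹ := by
    intro x hx
    apply conj_eq_inv_of_fpf (hsq z hzY)
    · intro k hk
      exact conj_mem_centralizerPPrimeCore (Subgroup.mem_centralizer_singleton_iff.mpr (hcomm hzY hx)) hk
    · exact hfix x hx
  -- no components in `C_{C(g)}(z)`
  have hV : IsPGroup 2 ↥(generalizedFittingSubgroup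
      ↥(Subgroup.centralizer ((Subgroup.zpowers z : Subgroup X) : Set X))) := by
    rw [centralizer_zpowers_eq]
    exact hF2
  have hYp : IsPGroup 2 Y := by
    intro a
    refine ⟨1, ?_⟩
    apply Subtype.ext
    simpa using hsq a a.2
  have hcl : ∀ g ∈ Y, ∀ hzg : z ∈ Subgroup.centralizer ({g} : Set X),
      layer ↥(Subgroup.centralizer ({(⟨z, hzg⟩ : ↥(Subgroup.centralizer ({g} : Set X)))} :
        Set ↥(Subgroup.centralizer ({g} : Set X)))) = ⊥ := by
    intro g hg hzg
    set U : Subgroup X := Subgroup.zpowers z ⊔ Subgroup.zpowers g with hU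
    have hUY : U ≤ Y := sup_le (Subgroup.zpowers_le.mpr hzY) (Subgroup.zpowers_le.mpr hg)
    have hUp : IsPGroup 2 U := hYp.to_le hUY
    have h1 := Cfsg.Agent.Lib.Components.LocalFStar.isPGroup_generalizedFitting_centralizer
      (V := Subgroup.zpowers z) (U := U) le_sup_left hUp hV
    have h2 : layer ↥(Subgroup.centralizer (U : Set X)) = ⊥ := layer_eq_bot_of_isPGroup h1
    have hmem1 : ∀ y : X, y ∈ Subgroup.centralizer (U : Set X) →
        y ∈ Subgroup.centralizer ({g} : Set X) := by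
      intro y hy
      rw [Subgroup.mem_centralizer_singleton_iff]
      exact ((Subgroup.mem_centralizer_iff.mp hy) g
        ((le_sup_right : Subgroup.zpowers g ≤ U) (Subgroup.mem_zpowers g))).symm
    have hmem2 : ∀ y : X, y ∈ Subgroup.centralizer (U : Set X) → y * z = z * y := by
      intro y hy
      exact ((Subgroup.mem_centralizer_iff.mp hy) z
        ((le_sup_left : Subgroup.zpowers z ≤ U) (Subgroup.mem_zpowers z))).symm
    have hmem3 : ∀ y : X, y * z = z * y → y * g = g * y → y ∈ Subgroup.centralizer (U : Set X) := by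
      intro y h3 h4
      have hle : U ≤ Subgroup.centralizer ({y} : Set X) := by
        apply sup_le
        · rw [Subgroup.zpowers_le, Subgroup.mem_centralizer_singleton_iff]
          exact h3.symm
        · rw [Subgroup.zpowers_le, Subgroup.mem_centralizer_singleton_iff]
          exact h4.symm
      rw [Subgroup.mem_centralizer_iff]
      intro u hu
      exact (Subgroup.mem_centralizer_singleton_iff.mp (hle hu)).symm ▸ rfl
    let e : ↥(Subgroup.centralizer ({(⟨z, hzg⟩ : ↥(Subgroup.centralizer ({g} : Set X)))} :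
        Set ↥(Subgroup.centralizer ({g} : Set X)))) ≃* ↥(Subgroup.centralizer (U : Set X)) :=
      { toFun := fun y => ⟨y.1.1, hmem3 _
          (congrArg Subtype.val (Subgroup.mem_centralizer_singleton_iff.mp y.2))
          (Subgroup.mem_centralizer_singleton_iff.mp y.1.2)⟩
        invFun := fun y => ⟨⟨y.1, hmem1 _ y.2⟩, Subgroup.mem_centralizer_singleton_iff.mpr
          (Subtype.ext (hmem2 _ y.2))⟩
        left_inv := fun y => rfl
        right_inv := fun y => rfl
        map_mul' := fun a b => rfl }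
    have h3 := Cfsg.Agent.Lib.Components.Transport.layer_map_equiv e.symm
    rw [h2, Subgroup.map_bot] at h3
    exact h3.symm
  -- no components in `C(g)/O(C(g))`
  have hLg : ∀ g ∈ Y, g ≠ 1 → layer (↥(Subgroup.centralizer ({g} : Set X)) ⧸
      pPrimeCore 2 ↥(Subgroup.centralizer ({g} : Set X))) = ⊥ := by
    intro g hg hg1
    have hzg : z ∈ Subgroup.centralizer ({g} : Set X) :=
      Subgroup.mem_centralizer_singleton_iff.mpr (hcomm hzY hg)
    refine layer_quot_eq_bot (z := ⟨z, hzg⟩) (Subtype.ext (hsq z hzY)) ?_ (hE g hg hg1) (hcl g hg hzg)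
    intro n hn
    apply Subtype.ext
    exact hinv g hg n ⟨n, hn, rfl⟩
  -- balance
  have hbal : ∀ e ∈ Y, ∀ g ∈ Y, g ≠ 1 →
      centralizerPPrimeCore 2 e ⊓ Subgroup.centralizer {g} ≤ centralizerPPrimeCore 2 g := by
    intro e he g hg hg1
    exact centralizerPPrimeCore_inf_le_of_layer (hcomm he hg) (hsq e he) (hLg g hg hg1)
  -- commutativity of the cores
  have hab : ∀ e ∈ Y, ∀ u ∈ centralizerPPrimeCore 2 e, ∀ v ∈ centralizerPPrimeCore 2 e, u * v = v * u := by
    intro e he u hu v hv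
    have h1 := hinv e he (u * v) (Subgroup.mul_mem _ hu hv)
    have h2 : z * (u * v) * z⁻¹ = (z * u * z⁻¹) * (z * v * z⁻¹) := by group
    rw [h2, hinv e he u hu, hinv e he v hv, mul_inv_rev] at h1
    have h3 : (v * u) = (u⁻¹ * v⁻¹)⁻¹ := by group
    rw [h3, h1]; group
  -- the pieces
  have hodd : ∀ x : X, ¬ 2 ∣ Nat.card (centralizerPPrimeCore 2 x) :=
    fun x => not_dvd_card_centralizerPPrimeCore x
  have hnormθ : ∀ x ∈ Y, Y ≤ Subgroup.normalizer ((centralizerPPrimeCore 2 x : Subgroup X) : Set X) := by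
    intro x hx b hb
    apply Cfsg.Agent.Lib.Coprime.Three.mem_normalizer_of_conj_mem
    intro u hu
    exact conj_mem_centralizerPPrimeCore (Subgroup.mem_centralizer_singleton_iff.mpr (hcomm hb hx)) hu
  have h83 : 2 ^ 3 ≤ Nat.card Y := by norm_num; exact h8
  let ιx := {x : X // x ∈ Y ∧ x ≠ 1}
  let ιB := {B : Subgroup X // B ≤ Y ∧ B.relIndex Y ≤ 2}
  let T : ιx → ιB → Subgroup X := fun x B =>
    centralizerPPrimeCore 2 (x : X) ⊓ Subgroup.centralizer ((B : Subgroup X) : Set X)
  have hT : ∀ x B x' B', T x B ≤ Subgroup.centralizer (T x' B' : Set X) := by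
    intro x B x' B' u hu
    rw [Subgroup.mem_centralizer_iff]
    intro v hv
    obtain ⟨e, ⟨he1, he2⟩, he⟩ := exists_ne_one_mem_inf B.2.1 B'.2.1 B.2.2 B'.2.2 h83
    have heY : e ∈ Y := B.2.1 he1
    have hu2 : u ∈ centralizerPPrimeCore 2 (x : X) ⊓ Subgroup.centralizer {e} :=
      ⟨hu.1, Subgroup.mem_centralizer_singleton_iff.mpr
        ((Subgroup.mem_centralizer_iff.mp hu.2) e he1).symm⟩
    have hv2 : v ∈ centralizerPPrimeCore 2 (x' : X) ⊓ Subgroup.centralizer {e} :=
      ⟨hv.1, Subgroup.mem_centralizer_singleton_iff.mpr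
        ((Subgroup.mem_centralizer_iff.mp hv.2) e he2).symm⟩
    exact hab e heY _ (hbal _ x'.2.1 e heY he hv2) _ (hbal _ x.2.1 e heY he hu2)
  set W' : Subgroup X := ⨆ (x : ιx) (B : ιB), T x B with hW'
  set W : Subgroup X := ⨆ y : {y : X // y ∈ Y ∧ y ≠ 1}, centralizerPPrimeCore 2 (y : X) with hW
  have hWW' : W ≤ W' := by
    apply iSup_le
    intro x
    refine (Cfsg.Agent.Lib.Coprime.GenerationE.le_iSup_relIndex_le Y _ hY (hodd _) (hnormθ _ x.2.1)).trans ?_
    apply iSup_le
    intro B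
    exact le_iSup₂_of_le x B le_rfl
  have hh2 : ∀ x B, W' ≤ Subgroup.centralizer (T x B : Set X) := by
    intro x B
    apply iSup₂_le
    intro x' B'
    exact hT x' B' x B
  have hh3 : W' ≤ Subgroup.centralizer (W' : Set X) := by
    apply iSup₂_le
    intro x B
    rw [Subgroup.le_centralizer_iff]
    exact hh2 x B
  have hWc : ∀ a ∈ W, ∀ b ∈ W, a * b = b * a := by
    intro a ha b hb
    exact ((Subgroup.mem_centralizer_iff.mp (hh3 (hWW' ha))) b (hWW' hb)).symm
  -- odd order
  set m := ordCompl[2] (Nat.card X) with hm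
  have hmu : ∀ x : X, ∀ u ∈ centralizerPPrimeCore 2 x, u ^ m = 1 := by
    intro x u hu
    have h1 : orderOf u ∣ Nat.card (centralizerPPrimeCore 2 x) := by
      have := orderOf_dvd_natCard (⟨u, hu⟩ : centralizerPPrimeCore 2 x)
      rwa [Subgroup.orderOf_mk] at this
    have h2 : Nat.card (centralizerPPrimeCore 2 x) ∣ Nat.card X := Subgroup.card_subgroup_dvd_card _
    have hc : (Nat.card (centralizerPPrimeCore 2 x)).Coprime 2 :=
      (Nat.Coprime.symm ((Nat.Prime.coprime_iff_not_dvd Nat.prime_two).mpr (hodd x)))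
    have h3 : Nat.card X = 2 ^ (Nat.card X).factorization 2 * m :=
      (Nat.ordProj_mul_ordCompl_eq_self _ _).symm
    have h4 : Nat.card (centralizerPPrimeCore 2 x) ∣ m := by
      rw [h3] at h2
      exact (Nat.Coprime.pow_right _ hc).dvd_of_dvd_mul_left h2
    exact orderOf_dvd_iff_pow_eq_one.mp (h1.trans h4)
  have hWm : ∀ w ∈ W, w ^ m = 1 := by
    intro w hw
    refine Subgroup.iSup_induction' (fun y : {y : X // y ∈ Y ∧ y ≠ 1} => centralizerPPrimeCore 2 (y : X))
      (C := fun w _ => w ^ m = 1) ?_ (one_pow _) ?_ hw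
    · intro i x hx
      exact hmu _ x hx
    · intro x y hx hy h1 h2
      have : Commute x y := hWc x hx y hy
      rw [this.mul_pow, h1, h2, one_mul]
  constructor
  · rw [← Nat.not_even_iff_odd, even_iff_two_dvd]
    intro h2
    haveI : Fact (Nat.Prime 2) := ⟨Nat.prime_two⟩
    obtain ⟨u, hu⟩ := exists_prime_orderOf_dvd_card' (G := W) 2 h2
    have h3 : ((u : X)) ^ m = 1 := hWm _ u.2
    have h4 : orderOf u ∣ m := by
      rw [← Subgroup.orderOf_coe]
      exact orderOf_dvd_of_pow_eq_one h3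
    rw [hu] at h4
    exact Nat.not_dvd_ordCompl Nat.prime_two (Nat.card_pos.ne') h4
  · intro n hn
    apply Cfsg.Agent.Lib.Coprime.Three.mem_normalizer_of_conj_mem
    intro w hw
    refine Subgroup.iSup_induction' (fun y : {y : X // y ∈ Y ∧ y ≠ 1} => centralizerPPrimeCore 2 (y : X))
      (C := fun w _ => n * w * n⁻¹ ∈ W) ?_ ?_ ?_ hw
    · rintro ⟨x, hx, hx1⟩ u hu
      have hx' : n * x * n⁻¹ ∈ Y := (Subgroup.mem_normalizer_iff.mp hn x).mp hx
      have hx1' : n * x * n⁻¹ ≠ 1 := by
        intro h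
        apply hx1
        have : x = n⁻¹ * (n * x * n⁻¹) * n := by group
        rw [this, h]; group
      exact Subgroup.mem_iSup_of_mem ⟨n * x * n⁻¹, hx', hx1'⟩
        (conj_mem_centralizerPPrimeCore_conj n hu)
    · simp [Subgroup.one_mem]
    · intro x y hx hy h1 h2
      have : n * (x * y) * n⁻¹ = (n * x * n⁻¹) * (n * y * n⁻¹) := by group
      rw [this]
      exact W.mul_mem h1 h2

end Cfsg.Agent.S2924
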