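import Cfsg.Statements.S2925
import Mathlib
import Cfsg.Agent.Lib.Components.PLayerSylow2
-- import your own Cfsg.Agent.* helpers here

set_option autoImplicit false
open Cfsg

namespace Cfsg.Agent.S2925

/-- Let K be a component of the finite group X and T a Sylow 2-subgroup of X. If some abelian normal subgroup Y of T does not normalize K, then K ⧸ Z(K) has abelian Sylow 2-subgroups. -/
theorem result {X : Type*} [Group X] [Finite X] (K : Subgroup X) (hK : Cfsg.IsComponent K) (T : Sylow 2 X) (Y : Subgroup X) (hYT : Y ≤ (T : Subgroup X)) (hYn : (Y.subgroupOf (T : Subgroup X)).Normal) (hYab : IsMulCommutative ↥Y) (hnot : ¬ Y ≤ Subgroup.normalizer (K : Set X)) (P : Sylow 2 (↥K ⧸ Subgroup.center ↥K)) : IsMulCommutative ↥(P : Subgroup (↥K ⧸ Subgroup.center ↥K)) := by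
  classical
  have hTp : ¬ 2 ∣ (T : Subgroup X).index := T.not_dvd_index
  obtain ⟨y, hyY, hy⟩ := Set.not_subset.1 hnot
  set K' : Subgroup X := K.map (MulAut.conj y).toMonoidHom with hK'
  have hK'comp : Cfsg.IsComponent K' := Cfsg.Agent.Lib.Components.Layer.isComponent_conj y hK
  have hne : K ≠ K' := by
    intro h
    apply hy
    rw [SetLike.mem_coe, Subgroup.mem_normalizer_iff]
    intro x
    constructor
    · intro hx
      have : y * x * y⁻¹ ∈ K' := ⟨x, hx, rfl⟩
      rwa [← h] at this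
    · intro hx
      rw [← SetLike.mem_coe] at hx
      have hx' : y * x * y⁻¹ ∈ K' := by rw [← h]; exact hx
      obtain ⟨z, hz, hzx⟩ := hx'
      have : z = x := by
        have h1 : y * z * y⁻¹ = y * x * y⁻¹ := hzx
        simpa using h1
      rwa [← this]
  have hcomm : ⁅K, K'⁆ = ⊥ := by
    rcases Cfsg.Agent.Lib.Components.Layer.eq_or_commutator_eq_bot hK hK'comp with h | h
    · exact absurd h hne
    · exact h
  have hKK' : ∀ a ∈ K, ∀ b ∈ K', a * b = b * a := by
    intro a ha b hb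
    rw [Subgroup.commutator_eq_bot_iff_le_centralizer] at hcomm
    exact (Subgroup.mem_centralizer_iff.1 (hcomm ha) b hb).symm
  -- the key commutation
  have hkey : ∀ s ∈ (T : Subgroup X) ⊓ K, ∀ s' ∈ (T : Subgroup X) ⊓ K,
      ∀ k ∈ K, (s' * s)⁻¹ * (s * s') * k = k * ((s' * s)⁻¹ * (s * s')) := by
    rintro s ⟨hsT, hsK⟩ s' ⟨hs'T, hs'K⟩ k hk
    have hconj : ∀ t ∈ (T : Subgroup X), t * y * t⁻¹ ∈ Y := by
      intro t ht
      have := hYn.conj_mem ⟨y, hYT hyY⟩ (by simpa [Subgroup.mem_subgroupOf] using hyY) ⟨t, ht⟩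
      simpa [Subgroup.mem_subgroupOf] using this
    set r : X := y * s⁻¹ * y⁻¹ with hr
    set r' : X := y * s'⁻¹ * y⁻¹ with hr'
    have hrK' : r ∈ K' := ⟨s⁻¹, K.inv_mem hsK, rfl⟩
    have hr'K' : r' ∈ K' := ⟨s'⁻¹, K.inv_mem hs'K, rfl⟩
    have hu : s * r ∈ Y := by
      have : s * r = s * y * s⁻¹ * y⁻¹ := by simp [hr, mul_assoc]
      rw [this]
      exact Y.mul_mem (hconj s hsT) (Y.inv_mem hyY)
    have hu' : s' * r' ∈ Y := by
      have : s' * r' = s' * y * s'⁻¹ * y⁻¹ := by simp [hr', mul_assoc]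
      rw [this]
      exact Y.mul_mem (hconj s' hs'T) (Y.inv_mem hyY)
    have hYc : (s * r) * (s' * r') = (s' * r') * (s * r) := by
      have := mul_comm' (⟨s * r, hu⟩ : Y) ⟨s' * r', hu'⟩
      exact congrArg Subtype.val this
    -- c = (s' s)⁻¹ (s s') lies in K'
    have hc : (s' * s)⁻¹ * (s * s') = r' * r * (r * r')⁻¹ := by
      have h1 : s * r * (s' * r') = s * s' * (r * r') := by
        calc s * r * (s' * r') = s * (r * s') * r' := by group
          _ = s * (s' * r) * r' := by rw [← hKK' s' hs'K r hrK']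
          _ = s * s' * (r * r') := by group
      have h2 : s' * r' * (s * r) = s' * s * (r' * r) := by
        calc s' * r' * (s * r) = s' * (r' * s) * r := by group
          _ = s' * (s * r') * r := by rw [← hKK' s hsK r' hr'K']
          _ = s' * s * (r' * r) := by group
      rw [h1, h2] at hYc
      have h3 : s * s' = s' * s * (r' * r) * (r * r')⁻¹ := by
        rw [← hYc]; group
      rw [h3]
      group
    rw [hc]
    have hmem : r' * r * (r * r')⁻¹ ∈ K' :=
      K'.mul_mem (K'.mul_mem hr'K' hrK') (K'.inv_mem (K'.mul_mem hrK' hr'K'))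
    exact (hKK' k hk _ hmem).symm
  -- a Sylow subgroup of K
  have hSp : IsPGroup 2 (T.1.subgroupOf K) :=
    T.isPGroup'.comap_of_injective K.subtype K.subtype_injective
  have hSidx : ¬ 2 ∣ (T.1.subgroupOf K).index :=
    Cfsg.Agent.Lib.Components.PLayerSylow2.not_dvd_relIndex_of_isSubnormal hTp hK.1
  have : Fact (Nat.Prime 2) := ⟨Nat.prime_two⟩
  let S₀ : Sylow 2 K := hSp.toSylow hSidx
  let Q : Sylow 2 (↥K ⧸ Subgroup.center ↥K) :=
    S₀.mapSurjective (QuotientGroup.mk'_surjective _)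
  have hQ : IsMulCommutative (Q : Subgroup (↥K ⧸ Subgroup.center ↥K)) := by
    refine ⟨⟨?_⟩⟩
    rintro ⟨_, a, ha, rfl⟩ ⟨_, b, hb, rfl⟩
    apply Subtype.ext
    show (QuotientGroup.mk' _ a : ↥K ⧸ Subgroup.center ↥K) * QuotientGroup.mk' _ b =
      QuotientGroup.mk' _ b * QuotientGroup.mk' _ a
    rw [← map_mul, ← map_mul]
    refine (QuotientGroup.eq).2 ?_
    refine Subgroup.mem_center_iff.2 ?_
    intro k
    apply Subtype.ext
    have ha' : (a : X) ∈ (T : Subgroup X) ⊓ K := ⟨ha, a.2⟩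
    have hb' : (b : X) ∈ (T : Subgroup X) ⊓ K := ⟨hb, b.2⟩
    exact (hkey b hb' a ha' k k.2).symm
  have e := Sylow.equiv P Q
  refine ⟨⟨fun a b => e.injective ?_⟩⟩
  rw [map_mul, map_mul]
  exact mul_comm' (e a) (e b)

end Cfsg.Agent.S2925
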