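import Cfsg.Statements.S2928
import Mathlib
import Cfsg.Agent.Lib.Perm.ThreeCycleGen
import Cfsg.Agent.Lib.Components.FStar
import Cfsg.Agent.Lib.Transfer.Marggraf

set_option autoImplicit false
set_option linter.unusedSectionVars false
set_option linter.unusedVariables false
open Cfsg

namespace Cfsg.Agent.S2928

open Equiv Equiv.Perm Subgroup Cfsg.Agent.Lib.Perm.ThreeCycleGen
open scoped Pointwise

section Basic

variable {Ω : Type*} [Fintype Ω] [DecidableEq Ω]

theorem disjoint_swap_swap' {a b c d : Ω} (hac : a ≠ c) (had : a ≠ d) (hbc : b ≠ c) (hbd : b ≠ d) :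
    Disjoint (swap a b) (swap c d) := by
  intro x
  by_cases hxa : x = a
  · subst hxa
    right
    exact swap_apply_of_ne_of_ne hac had
  · by_cases hxb : x = b
    · subst hxb
      right
      exact swap_apply_of_ne_of_ne hbc hbd
    · left
      exact swap_apply_of_ne_of_ne hxa hxb

theorem swap_swap_comm {a b c d : Ω} (hac : a ≠ c) (had : a ≠ d) (hbc : b ≠ c) (hbd : b ≠ d) :
    swap a b * swap c d = swap c d * swap a b :=
  (disjoint_swap_swap' hac had hbc hbd).commute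

/-- The four-group on `{a,b,c,d}` lies in `H`. -/
structure V (H : Subgroup (Perm Ω)) (a b c d : Ω) : Prop where
  ab : a ≠ b
  ac : a ≠ c
  ad : a ≠ d
  bc : b ≠ c
  bd : b ≠ d
  cd : c ≠ d
  m1 : swap a b * swap c d ∈ H
  m2 : swap a c * swap b d ∈ H
  m3 : swap a d * swap b c ∈ H

variable {H : Subgroup (Perm Ω)} {a b c d e f g : Ω}

theorem V.s12 (h : V H a b c d) : V H b a c d := by
  refine ⟨h.ab.symm, h.bc, h.bd, h.ac, h.ad, h.cd, ?_, ?_, ?_⟩
  · rw [swap_comm b a]; exact h.m1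
  · rw [swap_swap_comm h.ab.symm h.bd h.ac.symm h.cd]; exact h.m3
  · rw [swap_swap_comm h.ab.symm h.bc h.ad.symm h.cd.symm]; exact h.m2

theorem V.s23 (h : V H a b c d) : V H a c b d := by
  refine ⟨h.ac, h.ab, h.ad, h.bc.symm, h.cd, h.bd, h.m2, h.m1, ?_⟩
  rw [swap_comm c b]; exact h.m3

theorem V.s34 (h : V H a b c d) : V H a b d c := by
  refine ⟨h.ab, h.ad, h.ac, h.bd, h.bc, h.cd.symm, ?_, h.m3, h.m2⟩
  rw [swap_comm d c]; exact h.m1

theorem V.sw (h : V H a b c d) : V H c d a b := h.s23.s12.s34.s23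

theorem conj_dt (g : Perm Ω) (a b c d : Ω) :
    swap (g a) (g b) * swap (g c) (g d) = g * (swap a b * swap c d) * g⁻¹ := by
  rw [swap_apply_apply, swap_apply_apply]; group

theorem V.conj (h : V H a b c d) {g : Perm Ω} (hg : g ∈ H) : V H (g a) (g b) (g c) (g d) := by
  refine ⟨fun e => h.ab (g.injective e), fun e => h.ac (g.injective e),
    fun e => h.ad (g.injective e), fun e => h.bc (g.injective e), fun e => h.bd (g.injective e),
    fun e => h.cd (g.injective e), ?_, ?_, ?_⟩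
  · rw [conj_dt]; exact mul_mem (mul_mem hg h.m1) (inv_mem hg)
  · rw [conj_dt]; exact mul_mem (mul_mem hg h.m2) (inv_mem hg)
  · rw [conj_dt]; exact mul_mem (mul_mem hg h.m3) (inv_mem hg)

/-- Values of a double transposition. -/
theorem dt_a {a b c d : Ω} (hac : a ≠ c) (had : a ≠ d) : (swap a b * swap c d) a = b := by
  rw [Perm.mul_apply, swap_apply_of_ne_of_ne hac had, swap_apply_left]

theorem dt_b {a b c d : Ω} (hbc : b ≠ c) (hbd : b ≠ d) : (swap a b * swap c d) b = a := by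
  rw [Perm.mul_apply, swap_apply_of_ne_of_ne hbc hbd, swap_apply_right]

theorem dt_c {a b c d : Ω} (hda : d ≠ a) (hdb : d ≠ b) : (swap a b * swap c d) c = d := by
  rw [Perm.mul_apply, swap_apply_left, swap_apply_of_ne_of_ne hda hdb]

theorem dt_d {a b c d : Ω} (hca : c ≠ a) (hcb : c ≠ b) : (swap a b * swap c d) d = c := by
  rw [Perm.mul_apply, swap_apply_right, swap_apply_of_ne_of_ne hca hcb]

theorem dt_o {a b c d x : Ω} (hxa : x ≠ a) (hxb : x ≠ b) (hxc : x ≠ c) (hxd : x ≠ d) :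
    (swap a b * swap c d) x = x := by
  rw [Perm.mul_apply, swap_apply_of_ne_of_ne hxc hxd, swap_apply_of_ne_of_ne hxa hxb]

/-- Relabelling: `V` only depends on the set. -/
theorem V.first (h : V H a b c d) {x : Ω} (hx : x ∈ ({a, b, c, d} : Finset Ω)) :
    ∃ q r s, V H x q r s ∧ ({x, q, r, s} : Finset Ω) = {a, b, c, d} := by
  simp only [Finset.mem_insert, Finset.mem_singleton] at hx
  rcases hx with rfl | rfl | rfl | rfl
  · exact ⟨b, c, d, h, rfl⟩
  · refine ⟨a, c, d, h.s12, ?_⟩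
    ext y; simp only [Finset.mem_insert, Finset.mem_singleton]; tauto
  · refine ⟨a, b, d, h.s23.s12, ?_⟩
    ext y; simp only [Finset.mem_insert, Finset.mem_singleton]; tauto
  · refine ⟨a, b, c, h.s34.s23.s12, ?_⟩
    ext y; simp only [Finset.mem_insert, Finset.mem_singleton]; tauto

theorem V.second (h : V H a b c d) {x : Ω} (hx : x ∈ ({a, b, c, d} : Finset Ω)) (hxa : x ≠ a) :
    ∃ r s, V H a x r s ∧ ({a, x, r, s} : Finset Ω) = {a, b, c, d} := by
  simp only [Finset.mem_insert, Finset.mem_singleton] at hx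
  rcases hx with rfl | rfl | rfl | rfl
  · exact absurd rfl hxa
  · exact ⟨c, d, h, rfl⟩
  · refine ⟨b, d, h.s23, ?_⟩
    ext y; simp only [Finset.mem_insert, Finset.mem_singleton]; tauto
  · refine ⟨b, c, h.s34.s23, ?_⟩
    ext y; simp only [Finset.mem_insert, Finset.mem_singleton]; tauto

theorem V.third (h : V H a b c d) {x : Ω} (hx : x ∈ ({a, b, c, d} : Finset Ω)) (hxa : x ≠ a)
    (hxb : x ≠ b) : ∃ s, V H a b x s ∧ ({a, b, x, s} : Finset Ω) = {a, b, c, d} := by
  simp only [Finset.mem_insert, Finset.mem_singleton] at hx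
  rcases hx with rfl | rfl | rfl | rfl
  · exact absurd rfl hxa
  · exact absurd rfl hxb
  · exact ⟨d, h, rfl⟩
  · refine ⟨c, h.s34, ?_⟩
    ext y; simp only [Finset.mem_insert, Finset.mem_singleton]; tauto

/-- `V` for any labelling of the same four-set. -/
theorem V.label {p q r s : Ω} (h : V H p q r s) (ab : a ≠ b) (ac : a ≠ c) (ad : a ≠ d) (bc : b ≠ c)
    (bd : b ≠ d) (cd : c ≠ d) (hs : ({a, b, c, d} : Finset Ω) = {p, q, r, s}) : V H a b c d := by
  have ma : a ∈ ({p, q, r, s} : Finset Ω) := by rw [← hs]; simp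
  have mb : b ∈ ({p, q, r, s} : Finset Ω) := by rw [← hs]; simp
  have mc : c ∈ ({p, q, r, s} : Finset Ω) := by rw [← hs]; simp
  have md : d ∈ ({p, q, r, s} : Finset Ω) := by rw [← hs]; simp
  obtain ⟨q1, r1, s1, h1, e1⟩ := h.first ma
  rw [← e1] at mb mc md
  obtain ⟨r2, s2, h2, e2⟩ := h1.second mb ab.symm
  rw [← e2] at mc md
  obtain ⟨s3, h3, e3⟩ := h2.third mc ac.symm bc.symm
  rw [← e3] at md
  simp only [Finset.mem_insert, Finset.mem_singleton] at md
  rcases md with rfl | rfl | rfl | rfl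
  · exact absurd rfl ad
  · exact absurd rfl bd
  · exact absurd rfl cd
  · exact h3

end Basic

section Perfect

/-- A perfect group acting on a set fixes every small invariant subset pointwise. -/
theorem fix_small {G α : Type*} [Group G] [Group.IsPerfect G] [MulAction G α] [DecidableEq α]
    (A : Finset α) (hA : A.card ≤ 4) (hinv : ∀ g : G, ∀ x ∈ A, g • x ∈ A) :
    ∀ g : G, ∀ x ∈ A, g • x = x := by
  classical
  let A' : SubMulAction G α :=
    { carrier := (A : Set α), smul_mem' := fun g x hx => by exact_mod_cast hinv g x (by exact_mod_cast hx) }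
  haveI : Fintype A' := Fintype.ofFinset A (by intro x; rfl)
  have hcard : Fintype.card A' ≤ 4 :=
    (Fintype.card_of_subtype A (p := fun x => x ∈ A') (fun x => Iff.rfl)).le.trans hA
  haveI := isSolvable_perm_of_card_le_four hcard
  intro g x hx
  have h1 := hom_trivial_of_perfect (MulAction.toPermHom G A') g
  have hx' : x ∈ A' := by exact_mod_cast hx
  have h2 := congrArg (fun p : Perm A' => ((p ⟨x, hx'⟩ : A') : α)) h1
  simpa using h2

end Perfect

section Ctx

variable {Ω : Type*} [Fintype Ω] [DecidableEq Ω]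
variable {H K : Subgroup (Perm Ω)} {a b c d e f : Ω}

theorem K_fix_small (hP : Group.IsPerfect K) (A : Finset Ω) (hA : A.card ≤ 4)
    (hinv : ∀ k ∈ K, ∀ x ∈ A, k x ∈ A) : ∀ k ∈ K, ∀ x ∈ A, k x = x := by
  intro k hk x hx
  exact fix_small (G := K) A hA (fun g x hx => hinv g g.2 x hx) ⟨k, hk⟩ x hx

/-- Dichotomy for subgroups normalized by `K`. -/
theorem dich (hQ : IsQuasisimple K)
    (hnorm : ∀ h ∈ H, ∀ k ∈ K, h * k * h⁻¹ ∈ K)
    (hcent : ∀ h ∈ H, (∀ k ∈ K, h * k = k * h) → h ∈ K)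
    (R : Subgroup (Perm Ω)) (hRH : R ≤ H) (hRK : ∀ k ∈ K, ∀ r ∈ R, k * r * k⁻¹ ∈ R) :
    K ≤ R ∨ ∀ r ∈ R, r ∈ K ∧ ∀ k ∈ K, r * k = k * r := by
  haveI hperf := hQ.1
  have hn : (R.subgroupOf K).Normal := by
    refine ⟨fun x hx g => ?_⟩
    rw [Subgroup.mem_subgroupOf] at hx ⊢
    exact hRK g g.2 x hx
  rcases Cfsg.Agent.Lib.Components.Quasisimple.eq_top_or_le_center_of_normal hQ hn with h | h
  · left
    intro k hk
    have : (⟨k, hk⟩ : K) ∈ R.subgroupOf K := by rw [h]; trivial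
    exact Subgroup.mem_subgroupOf.mp this
  · right
    intro r hr
    have hc : ∀ k ∈ K, r * k * r⁻¹ * k⁻¹ ∈ K := fun k hk =>
      mul_mem (hnorm r (hRH hr) k hk) (inv_mem hk)
    have hcR : ∀ k ∈ K, r * k * r⁻¹ * k⁻¹ ∈ R := by
      intro k hk
      have h1 := hRK k hk r⁻¹ (inv_mem hr)
      have h2 : r * k * r⁻¹ * k⁻¹ = r * (k * r⁻¹ * k⁻¹) := by group
      rw [h2]
      exact mul_mem hr h1
    have hcZ : ∀ k (hk : k ∈ K), (⟨r * k * r⁻¹ * k⁻¹, hc k hk⟩ : K) ∈ center K := fun k hk =>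
      h (by rw [Subgroup.mem_subgroupOf]; exact hcR k hk)
    let f : K →* center K := MonoidHom.mk' (fun k => ⟨⟨_, hc k k.2⟩, hcZ k k.2⟩) (by
      rintro ⟨X, hX⟩ ⟨Y, hY⟩
      apply Subtype.ext
      apply Subtype.ext
      have hz := Subgroup.mem_center_iff.mp (hcZ Y hY) ⟨X, hX⟩
      have hz' : X * (r * Y * r⁻¹ * Y⁻¹) = (r * Y * r⁻¹ * Y⁻¹) * X :=
        congrArg Subtype.val hz
      change r * (X * Y) * r⁻¹ * (X * Y)⁻¹ = (r * X * r⁻¹ * X⁻¹) * (r * Y * r⁻¹ * Y⁻¹)
      calc r * (X * Y) * r⁻¹ * (X * Y)⁻¹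
          = (r * X * r⁻¹ * X⁻¹) * (X * (r * Y * r⁻¹ * Y⁻¹)) * X⁻¹ := by group
        _ = (r * X * r⁻¹ * X⁻¹) * ((r * Y * r⁻¹ * Y⁻¹) * X) * X⁻¹ := by rw [hz']
        _ = _ := by group)
    haveI : Group.IsSolvable (center K) := isSolvable_of_comm
      (fun a b => Subtype.ext (Subgroup.mem_center_iff.mp a.2 (b : K)).symm)
    have h1 : ∀ k ∈ K, r * k = k * r := by
      intro k hk
      have h2 := hom_trivial_of_perfect f ⟨k, hk⟩
      have h3 : r * k * r⁻¹ * k⁻¹ = 1 := congrArg (fun z : center K => ((z : K) : Perm Ω)) h2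
      have h4 : r * k * r⁻¹ = k := by
        rw [mul_inv_eq_one] at h3
        exact h3
      rw [mul_inv_eq_iff_eq_mul] at h4
      exact h4
    exact ⟨hcent r (hRH hr) h1, h1⟩

/-- `K` commuting with a double transposition fixes its support pointwise. -/
theorem fix_of_comm (hP : Group.IsPerfect K) (hab : a ≠ b) (hac : a ≠ c) (had : a ≠ d) (hbc : b ≠ c)
    (hbd : b ≠ d) (hcd : c ≠ d)
    (hc : ∀ k ∈ K, (swap a b * swap c d) * k = k * (swap a b * swap c d)) :
    ∀ k ∈ K, ∀ x ∈ ({a, b, c, d} : Finset Ω), k x = x := by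
  apply K_fix_small hP
  · exact Finset.card_le_four
  · intro k hk x hx
    set t := swap a b * swap c d with ht
    have hmv : t x ≠ x := by
      simp only [Finset.mem_insert, Finset.mem_singleton] at hx
      rcases hx with rfl | rfl | rfl | rfl
      · rw [ht, dt_a hac had]; exact hab.symm
      · rw [ht, dt_b hbc hbd]; exact hab
      · rw [ht, dt_c had.symm hbd.symm]; exact hcd.symm
      · rw [ht, dt_d hac.symm hbc.symm]; exact hcd
    have h1 : t (k x) = k (t x) := congrArg (fun p : Perm Ω => p x) (hc k hk)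
    by_contra hcon
    have hnm : k x ≠ a ∧ k x ≠ b ∧ k x ≠ c ∧ k x ≠ d := by
      simp only [Finset.mem_insert, Finset.mem_singleton, not_or] at hcon
      exact hcon
    have h2 : t (k x) = k x := dt_o hnm.1 hnm.2.1 hnm.2.2.1 hnm.2.2.2
    rw [h2] at h1
    exact hmv (k.injective h1).symm

theorem F1 (hP : Group.IsPerfect K) (hV : V H a b c d) (hm : swap a b * swap c d ∈ K)
    (hc : ∀ k ∈ K, (swap a b * swap c d) * k = k * (swap a b * swap c d)) : False := by
  have := fix_of_comm hP hV.ab hV.ac hV.ad hV.bc hV.bd hV.cd hc _ hm a (by simp)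
  rw [dt_a hV.ac hV.ad] at this
  exact hV.ab this.symm

/-- Pointwise stabilizer of the complement of `A` in `H`. -/
def PtStab (H : Subgroup (Perm Ω)) (A : Set Ω) : Subgroup (Perm Ω) where
  carrier := {g | g ∈ H ∧ ∀ x, x ∉ A → g x = x}
  one_mem' := ⟨H.one_mem, fun x _ => rfl⟩
  mul_mem' := by
    rintro g₁ g₂ ⟨h1, h2⟩ ⟨h3, h4⟩
    refine ⟨mul_mem h1 h3, fun x hx => ?_⟩
    rw [Perm.mul_apply, h4 x hx, h2 x hx]
  inv_mem' := by
    rintro g ⟨h1, h2⟩
    refine ⟨inv_mem h1, fun x hx => ?_⟩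
    rw [Perm.inv_eq_iff_eq]
    exact (h2 x hx).symm

theorem star (hQ : IsQuasisimple K) (hKH : K ≤ H)
    (hnorm : ∀ h ∈ H, ∀ k ∈ K, h * k * h⁻¹ ∈ K)
    (hcent : ∀ h ∈ H, (∀ k ∈ K, h * k = k * h) → h ∈ K)
    (A : Set Ω) (hA : ∀ k ∈ K, ∀ x ∈ A, k x ∈ A) (hV : V H a b c d)
    (ha : a ∈ A) (hb : b ∈ A) (hc : c ∈ A) (hd : d ∈ A) : ∀ k ∈ K, ∀ x, x ∉ A → k x = x := by
  have hinvA : ∀ k ∈ K, ∀ x, x ∉ A → k⁻¹ x ∉ A := by
    intro k hk x hx hcon
    apply hx
    have := hA k hk _ hcon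
    simpa using this
  rcases dich hQ hnorm hcent (PtStab H A) (fun g hg => hg.1) (by
    rintro k hk r ⟨h1, h2⟩
    refine ⟨mul_mem (mul_mem (hKH hk) h1) (inv_mem (hKH hk)), fun x hx => ?_⟩
    rw [Perm.mul_apply, Perm.mul_apply, h2 _ (hinvA k hk x hx)]
    simp) with h | h
  · intro k hk x hx
    exact (h hk).2 x hx
  · exfalso
    have hmem : swap a b * swap c d ∈ PtStab H A := by
      refine ⟨hV.m1, fun x hx => dt_o ?_ ?_ ?_ ?_⟩
      · rintro rfl; exact hx ha
      · rintro rfl; exact hx hb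
      · rintro rfl; exact hx hc
      · rintro rfl; exact hx hd
    exact F1 hQ.1 hV (h _ hmem).1 (h _ hmem).2

/-- Points moved by `K`. -/
def Moved (K : Subgroup (Perm Ω)) (x : Ω) : Prop := ∃ k ∈ K, k x ≠ x

theorem Moved.conj (hnorm : ∀ h ∈ H, ∀ k ∈ K, h * k * h⁻¹ ∈ K) {x : Ω} (hx : Moved K x) {g : Perm Ω}
    (hg : g ∈ H) : Moved K (g x) := by
  obtain ⟨k, hk, hkx⟩ := hx
  refine ⟨g * k * g⁻¹, hnorm g hg k hk, fun h => hkx ?_⟩
  apply g.injective
  simpa [Perm.mul_apply] using h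

/-- Three movers in the four-group. -/
theorem V.e1 (hV : V H a b c d) : ∃ t ∈ H, t a = b ∧ ∀ x, x ≠ a → x ≠ b → x ≠ c → x ≠ d → t x = x :=
  ⟨_, hV.m1, dt_a hV.ac hV.ad, fun _ h1 h2 h3 h4 => dt_o h1 h2 h3 h4⟩

theorem V.e2 (hV : V H a b c d) : ∃ t ∈ H, t a = c ∧ ∀ x, x ≠ a → x ≠ b → x ≠ c → x ≠ d → t x = x := by
  obtain ⟨t, h1, h2, h3⟩ := hV.s23.e1
  exact ⟨t, h1, h2, fun x a1 a2 a3 a4 => h3 x a1 a3 a2 a4⟩

theorem V.e3 (hV : V H a b c d) : ∃ t ∈ H, t a = d ∧ ∀ x, x ≠ a → x ≠ b → x ≠ c → x ≠ d → t x = x := by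
  obtain ⟨t, h1, h2, h3⟩ := hV.s34.s23.e1
  exact ⟨t, h1, h2, fun x a1 a2 a3 a4 => h3 x a1 a4 a2 a3⟩

theorem moved_of_V (hQ : IsQuasisimple K) (hKH : K ≤ H)
    (hnorm : ∀ h ∈ H, ∀ k ∈ K, h * k * h⁻¹ ∈ K)
    (hcent : ∀ h ∈ H, (∀ k ∈ K, h * k = k * h) → h ∈ K)
    (hV : V H a b c d) : Moved K a := by
  by_contra hcon
  have hfix : ∀ k ∈ K, k a = a := by
    intro k hk
    by_contra h
    exact hcon ⟨k, hk, h⟩
  have hfixH : ∀ g ∈ H, ∀ k ∈ K, k (g a) = g a := by
    intro g hg k hk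
    have h1 := hfix _ (hnorm g⁻¹ (inv_mem hg) k hk)
    have h2 : (g⁻¹ * k * g⁻¹⁻¹) a = g⁻¹ (k (g a)) := by simp [Perm.mul_apply]
    rw [h2, Perm.inv_eq_iff_eq] at h1
    exact h1
  let A : Set Ω := {x | ∀ k ∈ K, k x = x}
  have hst := star hQ hKH hnorm hcent A (fun k hk x hx => by
      have : k x = x := hx k hk
      rw [this]; exact hx) hV hfix
    (by obtain ⟨t, h1, h2, -⟩ := hV.e1; rw [← h2]; exact fun k hk => hfixH t h1 k hk)
    (by obtain ⟨t, h1, h2, -⟩ := hV.e2; rw [← h2]; exact fun k hk => hfixH t h1 k hk)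
    (by obtain ⟨t, h1, h2, -⟩ := hV.e3; rw [← h2]; exact fun k hk => hfixH t h1 k hk)
  haveI := Cfsg.Agent.Lib.Components.Quasisimple.nontrivial_of_isQuasisimple hQ
  obtain ⟨k, hk⟩ := exists_ne (1 : K)
  apply hk
  apply Subtype.ext
  ext x
  by_cases hx : x ∈ A
  · simpa using hx k k.2
  · simpa using hst k k.2 x hx

theorem moved_orbit (hQ : IsQuasisimple K) (hKH : K ≤ H)
    (hnorm : ∀ h ∈ H, ∀ k ∈ K, h * k * h⁻¹ ∈ K)
    (hcent : ∀ h ∈ H, (∀ k ∈ K, h * k = k * h) → h ∈ K)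
    (hV : V H a b c d) {x : Ω} (hx : Moved K x) : ∃ g ∈ H, g a = x := by
  let A : Set Ω := {x | ∃ g ∈ H, g a = x}
  have hst := star hQ hKH hnorm hcent A (by
      rintro k hk _ ⟨g, hg, rfl⟩
      exact ⟨k * g, mul_mem (hKH hk) hg, rfl⟩) hV ⟨1, H.one_mem, rfl⟩
    (by obtain ⟨t, h1, h2, -⟩ := hV.e1; exact ⟨t, h1, h2⟩)
    (by obtain ⟨t, h1, h2, -⟩ := hV.e2; exact ⟨t, h1, h2⟩)
    (by obtain ⟨t, h1, h2, -⟩ := hV.e3; exact ⟨t, h1, h2⟩)
  by_contra hcon
  obtain ⟨k, hk, hkx⟩ := hx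
  exact hkx (hst k hk x hcon)


/-- The elements of `H` preserving the classes of a relation. -/
def EE (H : Subgroup (Perm Ω)) (r : Ω → Ω → Prop) (hrefl : ∀ x, r x x)
    (hsymm : ∀ x y, r x y → r y x) (htrans : ∀ x y z, r x y → r y z → r x z) :
    Subgroup (Perm Ω) where
  carrier := {g | g ∈ H ∧ ∀ x, r x (g x)}
  one_mem' := ⟨H.one_mem, hrefl⟩
  mul_mem' := by
    rintro g₁ g₂ ⟨h1, h2⟩ ⟨h3, h4⟩
    exact ⟨mul_mem h1 h3, fun x => htrans _ _ _ (h4 x) (h2 _)⟩
  inv_mem' := by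
    rintro g ⟨h1, h2⟩
    refine ⟨inv_mem h1, fun x => hsymm _ _ ?_⟩
    have := h2 (g⁻¹ x)
    simpa using this

theorem core (hQ : IsQuasisimple K) (hKH : K ≤ H)
    (hnorm : ∀ h ∈ H, ∀ k ∈ K, h * k * h⁻¹ ∈ K)
    (hcent : ∀ h ∈ H, (∀ k ∈ K, h * k = k * h) → h ∈ K)
    (r : Ω → Ω → Prop) (hrefl : ∀ x, r x x)
    (hsymm : ∀ x y, r x y → r y x) (htrans : ∀ x y z, r x y → r y z → r x z)
    (hinv : ∀ g ∈ H, ∀ x y, r x y → r (g x) (g y))
    {a0 b0 c0 d0 p q : Ω} (hV0 : V H a0 b0 c0 d0) (hp : Moved K p) (hqp : q ≠ p) (hr : r p q) :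
    ∀ x y, Moved K x → Moved K y → r x y := by
  classical
  let E := EE H r hrefl hsymm htrans
  have hEH : E ≤ H := fun g hg => hg.1
  have hEK : ∀ k ∈ K, ∀ g ∈ E, k * g * k⁻¹ ∈ E := by
    rintro k hk g ⟨h1, h2⟩
    refine ⟨mul_mem (mul_mem (hKH hk) h1) (inv_mem (hKH hk)), fun x => ?_⟩
    have := hinv k (hKH hk) _ _ (h2 (k⁻¹ x))
    simpa [Perm.mul_apply] using this
  have hdi := dich hQ hnorm hcent E hEH hEK
  have hdt : ∀ {a b c d}, V H a b c d → r a b → r c d → swap a b * swap c d ∈ E := by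
    intro a b c d hV hab hcd
    refine ⟨hV.m1, fun x => ?_⟩
    by_cases hxa : x = a
    · subst hxa; rw [dt_a hV.ac hV.ad]; exact hab
    by_cases hxb : x = b
    · subst hxb; rw [dt_b hV.bc hV.bd]; exact hsymm _ _ hab
    by_cases hxc : x = c
    · subst hxc; rw [dt_c hV.ad.symm hV.bd.symm]; exact hcd
    by_cases hxd : x = d
    · subst hxd; rw [dt_d hV.ac.symm hV.bc.symm]; exact hsymm _ _ hcd
    · rw [dt_o hxa hxb hxc hxd]; exact hrefl x
  have hcase1 : ∀ {a b c d}, V H a b c d → r a b → r a c → r a d →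
      ∀ x y, Moved K x → Moved K y → r x y := by
    intro a b c d hV hab hac had x y hx hy
    have hcd := htrans _ _ _ (hsymm _ _ hac) had
    rcases hdi with hle | hc
    · have hst := star hQ hKH hnorm hcent {z | r a z}
        (fun k hk z hz => htrans _ _ _ hz ((hle hk).2 z)) hV (hrefl a) hab hac had
      have hm : ∀ z, Moved K z → r a z := by
        rintro z ⟨k, hk, hkz⟩
        by_contra hcon
        exact hkz (hst k hk z hcon)
      exact htrans _ _ _ (hsymm _ _ (hm x hx)) (hm y hy)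
    · exfalso
      have hm := hc _ (hdt hV hab hcd)
      exact F1 hQ.1 hV hm.1 hm.2
  by_cases hex : ∃ a b c d, V H a b c d ∧ r a b ∧ r a c ∧ r a d
  · obtain ⟨a, b, c, d, hV, h1, h2, h3⟩ := hex
    exact hcase1 hV h1 h2 h3
  exfalso
  obtain ⟨g, hg, hgp⟩ := moved_orbit hQ hKH hnorm hcent hV0 hp
  have hV1 := hV0.conj hg
  rw [hgp] at hV1
  have hpart : ∀ {b c d}, V H p b c d → ∀ w, w ≠ p → r p w → w = b ∨ w = c ∨ w = d := by
    intro b c d hV w hwp hw
    by_contra hcon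
    push Not at hcon
    obtain ⟨h1, h2, h3⟩ := hcon
    apply hex
    refine ⟨p, b, c, d, hV, ?_, ?_, ?_⟩
    · obtain ⟨t, ht, hta, hto⟩ := hV.e1
      have := hinv t ht p w hw
      rw [hta, hto w hwp h1 h2 h3] at this
      exact htrans _ _ _ hw (hsymm _ _ this)
    · obtain ⟨t, ht, hta, hto⟩ := hV.e2
      have := hinv t ht p w hw
      rw [hta, hto w hwp h1 h2 h3] at this
      exact htrans _ _ _ hw (hsymm _ _ this)
    · obtain ⟨t, ht, hta, hto⟩ := hV.e3
      have := hinv t ht p w hw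
      rw [hta, hto w hwp h1 h2 h3] at this
      exact htrans _ _ _ hw (hsymm _ _ this)
  have hqmem : q ∈ ({p, g b0, g c0, g d0} : Finset Ω) := by
    have := hpart hV1 q hqp hr
    simp only [Finset.mem_insert, Finset.mem_singleton]
    tauto
  obtain ⟨c, d, hV2, -⟩ := hV1.second hqmem hqp
  have hnc : ¬ r p c := by
    intro h
    have h1 := hinv _ hV2.m1 p c h
    rw [dt_a hV2.ac hV2.ad, dt_c hV2.ad.symm hV2.bd.symm] at h1
    exact hex ⟨p, q, c, d, hV2, hr, h, htrans _ _ _ hr h1⟩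
  have hnd : ¬ r p d := by
    intro h
    have h1 := hinv _ hV2.m1 p d h
    rw [dt_a hV2.ac hV2.ad, dt_d hV2.ac.symm hV2.bc.symm] at h1
    exact hex ⟨p, q, c, d, hV2, hr, htrans _ _ _ hr h1, h⟩
  have hcd : r c d := by
    have h1 := hinv _ hV2.m2 p q hr
    rw [dt_a hV2.ab hV2.ad, dt_c hV2.ad.symm hV2.cd.symm] at h1
    exact h1
  rcases hdi with hle | hc
  · have hcl : ∀ w, r p w → w ∈ ({p, q} : Finset Ω) := by
      intro w hw
      simp only [Finset.mem_insert, Finset.mem_singleton]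
      by_cases hwp : w = p
      · exact Or.inl hwp
      · rcases hpart hV2 w hwp hw with rfl | rfl | rfl
        · exact Or.inr rfl
        · exact absurd hw hnc
        · exact absurd hw hnd
    have hfix := K_fix_small hQ.1 ({p, q} : Finset Ω) (Finset.card_le_two.trans (by norm_num))
      (by
        intro k hk x hx
        apply hcl
        simp only [Finset.mem_insert, Finset.mem_singleton] at hx
        rcases hx with rfl | rfl
        · exact (hle hk).2 _
        · exact htrans _ _ _ hr ((hle hk).2 _))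
    obtain ⟨k, hk, hkp⟩ := hp
    exact hkp (hfix k hk p (by simp))
  · have hm := hc _ (hdt hV2 hr hcd)
    exact F1 hQ.1 hV2 hm.1 hm.2

/-- `H` has no 3-cycle. -/
def NoThree (H : Subgroup (Perm Ω)) : Prop := ∀ c ∈ H, ¬ c.IsThreeCycle

theorem N3 (hN : NoThree H) (h1 : V H a b c d) (h2 : V H a b c e) : d = e := by
  by_contra hde
  apply hN (swap c d * swap c e) ?_ (isThreeCycle_swap_mul_swap_same h1.cd h2.cd hde)
  have : swap c d * swap c e = (swap a b * swap c d) * (swap a b * swap c e) := by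
    rw [swap_swap_comm h1.ac h1.ad h1.bc h1.bd]
    calc swap c d * swap c e = swap c d * (swap a b * swap a b) * swap c e := by
          rw [swap_mul_self, mul_one]
      _ = _ := by group
  rw [this]
  exact mul_mem h1.m1 h2.m1

theorem clos (h1 : V H a b c d) (h2 : V H a b e f) (hce : c ≠ e) (hcf : c ≠ f) (hde : d ≠ e)
    (hdf : d ≠ f) : V H c d e f := by
  set g := swap a c * swap b d with hg
  have hgm : g ∈ H := h1.m2
  have ga : g a = c := dt_a h1.ab h1.ad
  have gb : g b = d := dt_c h1.ad.symm h1.cd.symm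
  have ge : g e = e := dt_o h2.ac.symm hce.symm h2.bc.symm hde.symm
  have gf : g f = f := dt_o h2.ad.symm hcf.symm h2.bd.symm hdf.symm
  refine ⟨h1.cd, hce, hcf, hde, hdf, h2.cd, ?_, ?_, ?_⟩
  · have : swap c d * swap e f = (swap a b * swap c d) * (swap a b * swap e f) := by
      rw [swap_swap_comm h1.ac h1.ad h1.bc h1.bd]
      calc swap c d * swap e f = swap c d * (swap a b * swap a b) * swap e f := by
            rw [swap_mul_self, mul_one]
        _ = _ := by group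
    rw [this]
    exact mul_mem h1.m1 h2.m1
  · have := mul_mem (mul_mem hgm h2.m2) (inv_mem hgm)
    rw [← conj_dt, ga, ge, gb, gf] at this
    exact this
  · have := mul_mem (mul_mem hgm h2.m3) (inv_mem hgm)
    rw [← conj_dt, ga, gf, gb, ge] at this
    exact this

/-- Fixed-point-free-on-moved-points "involutions" all of whose pairs form four-groups. -/
structure Tr (H K : Subgroup (Perm Ω)) (t : Perm Ω) : Prop where
  mem : t ∈ H
  inv : ∀ x, t (t x) = x
  fix : ∀ x, ¬ Moved K x → t x = x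
  mov : ∀ x, Moved K x → t x ≠ x
  tup : ∀ x y, Moved K x → Moved K y → y ≠ x → y ≠ t x → V H x (t x) y (t y)

theorem Tr.moved {t : Perm Ω} (h : Tr H K t) {x : Ω} (hx : Moved K x) : Moved K (t x) := by
  by_contra hcon
  have h1 := h.fix _ hcon
  rw [h.inv] at h1
  exact h.mov x hx h1.symm

theorem Tr.conj {t : Perm Ω} (h : Tr H K t) (hnorm : ∀ h ∈ H, ∀ k ∈ K, h * k * h⁻¹ ∈ K) {g : Perm Ω}
    (hg : g ∈ H) : Tr H K (g * t * g⁻¹) := by
  have hm : ∀ x, Moved K x ↔ Moved K (g⁻¹ x) := by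
    intro x
    constructor
    · intro hx
      exact Moved.conj hnorm hx (inv_mem hg)
    · intro hx
      have := Moved.conj hnorm hx hg
      simpa using this
  refine ⟨mul_mem (mul_mem hg h.mem) (inv_mem hg), fun x => ?_, fun x hx => ?_, fun x hx => ?_,
    fun x y hx hy hyx hyt => ?_⟩
  · simp [Perm.mul_apply, h.inv]
  · have h1 : ¬ Moved K (g⁻¹ x) := fun h' => hx ((hm x).mpr h')
    rw [Perm.mul_apply, Perm.mul_apply, h.fix _ h1]
    simp
  · intro hcon
    have h1 := h.mov _ ((hm x).mp hx)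
    apply h1
    apply g.injective
    simpa [Perm.mul_apply] using hcon
  · have hyx' : g⁻¹ y ≠ g⁻¹ x := fun e => hyx (g⁻¹.injective e)
    have hyt' : g⁻¹ y ≠ t (g⁻¹ x) := by
      intro e
      apply hyt
      rw [Perm.mul_apply, Perm.mul_apply, ← e]
      simp
    have := (h.tup _ _ ((hm x).mp hx) ((hm y).mp hy) hyx' hyt').conj hg
    simpa [Perm.mul_apply] using this

theorem Tr.comm (hN : NoThree H) {t t' : Perm Ω} (h : Tr H K t) (h' : Tr H K t') :
    t * t' = t' * t := by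
  ext x
  rw [Perm.mul_apply, Perm.mul_apply]
  by_cases hx : Moved K x
  · by_cases hyz : t' x = t x
    · rw [hyz, h.inv, ← hyz, h'.inv]
    · have hmy := h.moved hx
      have hmz := h'.moved hx
      have h1 := h.tup x (t' x) hx hmz (h'.mov x hx) hyz
      have h2 := h'.tup x (t x) hx hmy (h.mov x hx) (Ne.symm hyz)
      exact N3 hN h1 h2.s23
  · rw [h.fix x hx, h'.fix x hx, h.fix x hx]

theorem main8 (hQ : IsQuasisimple K) (hKH : K ≤ H)
    (hnorm : ∀ h ∈ H, ∀ k ∈ K, h * k * h⁻¹ ∈ K)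
    (hcent : ∀ h ∈ H, (∀ k ∈ K, h * k = k * h) → h ∈ K) (hN : NoThree H)
    {u v s t w x y z : Ω}
    (h1 : V H u v s t) (h2 : V H w x y z) (h3 : V H u v w x)
    (hd : Disjoint ({u, v, s, t} : Finset Ω) {w, x, y, z})
    (hcov : ∀ ξ, Moved K ξ → ξ = u ∨ ξ = v ∨ ξ = s ∨ ξ = t ∨ ξ = w ∨ ξ = x ∨ ξ = y ∨ ξ = z) :
    False := by
  classical
  have hne : ∀ ξ ∈ ({u, v, s, t} : Finset Ω), ξ ≠ w ∧ ξ ≠ x ∧ ξ ≠ y ∧ ξ ≠ z := by
    intro ξ hξ
    have := Finset.disjoint_left.mp hd hξ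
    simpa using this
  obtain ⟨hsw, hsx, hsy, hsz⟩ := hne s (by simp)
  obtain ⟨htw, htx, hty, htz⟩ := hne t (by simp)
  obtain ⟨huw, hux, huy, huz⟩ := hne u (by simp)
  obtain ⟨hvw, hvx, hvy, hvz⟩ := hne v (by simp)
  have h4 := clos h1 h3 hsw hsx htw htx
  have h5 := clos h3.sw h2 huy huz hvy hvz
  have h6 := clos h4.sw h2 hsy hsz hty htz
  have mv := fun {a b c d : Ω} (h : V H a b c d) => moved_of_V hQ hKH hnorm hcent h
  have Mu := mv h1
  have Mv := mv h1.s12
  have Ms := mv h1.sw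
  have Mt := mv h1.sw.s12
  have Mw := mv h2
  have Mx := mv h2.s12
  have My := mv h2.sw
  have Mz := mv h2.sw.s12
  obtain ⟨T, hTm, Tu, Tv, Ts, Tt, Tw, Tx, Ty, Tz, Tfix⟩ : ∃ T : Perm Ω, T ∈ H ∧ T u = v ∧ T v = u ∧
      T s = t ∧ T t = s ∧ T w = x ∧ T x = w ∧ T y = z ∧ T z = y ∧
      ∀ ξ, ξ ≠ u → ξ ≠ v → ξ ≠ s → ξ ≠ t → ξ ≠ w → ξ ≠ x → ξ ≠ y → ξ ≠ z → T ξ = ξ := by
    refine ⟨(swap u v * swap s t) * (swap w x * swap y z), mul_mem h1.m1 h2.m1, ?_, ?_, ?_, ?_, ?_,
      ?_, ?_, ?_, ?_⟩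
    · rw [Perm.mul_apply, dt_o huw hux huy huz, dt_a h1.ac h1.ad]
    · rw [Perm.mul_apply, dt_o hvw hvx hvy hvz, dt_b h1.bc h1.bd]
    · rw [Perm.mul_apply, dt_o hsw hsx hsy hsz, dt_c h1.ad.symm h1.bd.symm]
    · rw [Perm.mul_apply, dt_o htw htx hty htz, dt_d h1.ac.symm h1.bc.symm]
    · rw [Perm.mul_apply, dt_a h2.ac h2.ad, dt_o hux.symm hvx.symm hsx.symm htx.symm]
    · rw [Perm.mul_apply, dt_b h2.bc h2.bd, dt_o huw.symm hvw.symm hsw.symm htw.symm]
    · rw [Perm.mul_apply, dt_c h2.ad.symm h2.bd.symm, dt_o huz.symm hvz.symm hsz.symm htz.symm]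
    · rw [Perm.mul_apply, dt_d h2.ac.symm h2.bc.symm, dt_o huy.symm hvy.symm hsy.symm hty.symm]
    · intro ξ a1 a2 a3 a4 a5 a6 a7 a8
      rw [Perm.mul_apply, dt_o a5 a6 a7 a8, dt_o a1 a2 a3 a4]
  have hTr : Tr H K T := by
    refine ⟨hTm, fun ξ => ?_, fun ξ hξ => ?_, fun ξ hξ => ?_, fun ξ η hξ hη hne1 hne2 => ?_⟩
    · by_cases hm : Moved K ξ
      · rcases hcov ξ hm with rfl | rfl | rfl | rfl | rfl | rfl | rfl | rfl <;>
        simp only [Tu, Tv, Ts, Tt, Tw, Tx, Ty, Tz]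
      · have hf : T ξ = ξ := by
          apply Tfix <;> (rintro rfl; exact hm (by assumption))
        rw [hf, hf]
    · apply Tfix <;> (rintro rfl; exact hξ (by assumption))
    · rcases hcov ξ hξ with rfl | rfl | rfl | rfl | rfl | rfl | rfl | rfl
      · rw [Tu]; exact h1.ab.symm
      · rw [Tv]; exact h1.ab
      · rw [Ts]; exact h1.cd.symm
      · rw [Tt]; exact h1.cd
      · rw [Tw]; exact h2.ab.symm
      · rw [Tx]; exact h2.ab
      · rw [Ty]; exact h2.cd.symm
      · rw [Tz]; exact h2.cd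
    · rcases hcov ξ hξ with rfl | rfl | rfl | rfl | rfl | rfl | rfl | rfl <;>
      rcases hcov η hη with rfl | rfl | rfl | rfl | rfl | rfl | rfl | rfl <;>
      simp only [Tu, Tv, Ts, Tt, Tw, Tx, Ty, Tz] at hne2 ⊢ <;>
      first
        | exact absurd rfl hne1
        | exact absurd rfl hne2
        | exact h1 | exact h1.s12 | exact h1.s34 | exact h1.s12.s34
        | exact h1.sw | exact h1.sw.s12 | exact h1.sw.s34 | exact h1.sw.s12.s34
        | exact h2 | exact h2.s12 | exact h2.s34 | exact h2.s12.s34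
        | exact h2.sw | exact h2.sw.s12 | exact h2.sw.s34 | exact h2.sw.s12.s34
        | exact h3 | exact h3.s12 | exact h3.s34 | exact h3.s12.s34
        | exact h3.sw | exact h3.sw.s12 | exact h3.sw.s34 | exact h3.sw.s12.s34
        | exact h4 | exact h4.s12 | exact h4.s34 | exact h4.s12.s34
        | exact h4.sw | exact h4.sw.s12 | exact h4.sw.s34 | exact h4.sw.s12.s34
        | exact h5 | exact h5.s12 | exact h5.s34 | exact h5.s12.s34
        | exact h5.sw | exact h5.sw.s12 | exact h5.sw.s34 | exact h5.sw.s12.s34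
        | exact h6 | exact h6.s12 | exact h6.s34 | exact h6.s12.s34
        | exact h6.sw | exact h6.sw.s12 | exact h6.sw.s34 | exact h6.sw.s12.s34
  let S : Set (Perm Ω) := {τ | Tr H K τ}
  have hcomm : ∀ a ∈ S, ∀ b ∈ S, a * b = b * a := fun a ha b hb => Tr.comm hN ha hb
  have hRc := Subgroup.isMulCommutative_closure hcomm
  have hRH : closure S ≤ H := (Subgroup.closure_le _).mpr (fun τ h => h.mem)
  have hRK : ∀ k ∈ K, ∀ r ∈ closure S, k * r * k⁻¹ ∈ closure S := by
    intro k hk r hr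
    induction hr using Subgroup.closure_induction with
    | mem τ hτ => exact Subgroup.subset_closure (Tr.conj hτ hnorm (hKH hk))
    | one => simp
    | mul a b _ _ ha hb =>
        have : k * (a * b) * k⁻¹ = (k * a * k⁻¹) * (k * b * k⁻¹) := by group
        rw [this]
        exact mul_mem ha hb
    | inv a _ ha =>
        have : k * a⁻¹ * k⁻¹ = (k * a * k⁻¹)⁻¹ := by group
        rw [this]
        exact inv_mem ha
  rcases dich hQ hnorm hcent (closure S) hRH hRK with hle | hc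
  · apply Cfsg.Agent.Lib.Components.Quasisimple.not_isMulCommutative_of_isQuasisimple hQ
    refine ⟨⟨fun a b => Subtype.ext ?_⟩⟩
    have := hRc.is_comm.comm ⟨a.1, hle a.2⟩ ⟨b.1, hle b.2⟩
    exact congrArg (fun z : closure S => (z : Perm Ω)) this
  · obtain ⟨hTK, hTc⟩ := hc T (Subgroup.subset_closure hTr)
    haveI hP : Group.IsPerfect K := hQ.1
    let pr : Ω → Finset Ω := fun ξ => {ξ, T ξ}
    let A : Finset (Finset Ω) := {{u, v}, {s, t}, {w, x}, {y, z}}
    have hAm : ∀ ξ, Moved K ξ → pr ξ ∈ A := by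
      intro ξ hξ
      rcases hcov ξ hξ with rfl | rfl | rfl | rfl | rfl | rfl | rfl | rfl
      · simp [pr, A, Tu]
      · simp [pr, A, Tv, Finset.pair_comm]
      · simp [pr, A, Ts]
      · simp [pr, A, Tt, Finset.pair_comm]
      · simp [pr, A, Tw]
      · simp [pr, A, Tx, Finset.pair_comm]
      · simp [pr, A, Ty]
      · simp [pr, A, Tz, Finset.pair_comm]
    have hAe : ∀ P ∈ A, ∃ ξ, Moved K ξ ∧ P = pr ξ := by
      intro P hP'
      simp only [A, Finset.mem_insert, Finset.mem_singleton] at hP'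
      rcases hP' with rfl | rfl | rfl | rfl
      · exact ⟨u, Mu, by simp [pr, Tu]⟩
      · exact ⟨s, Ms, by simp [pr, Ts]⟩
      · exact ⟨w, Mw, by simp [pr, Tw]⟩
      · exact ⟨y, My, by simp [pr, Ty]⟩
    have hk : ∀ (k : K) ξ, k • pr ξ = pr ((k : Perm Ω) ξ) := by
      intro k ξ
      have h7 : (k : Perm Ω) (T ξ) = T ((k : Perm Ω) ξ) :=
        (congrArg (fun p : Perm Ω => p ξ) (hTc k k.2)).symm
      simp only [pr, Finset.smul_finset_insert, Finset.smul_finset_singleton]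
      congr 2
    have hfix := fix_small (G := K) A Finset.card_le_four (by
      intro g P hP'
      obtain ⟨ξ, hξ, rfl⟩ := hAe P hP'
      rw [hk]
      exact hAm _ (Moved.conj hnorm hξ (hKH g.2)))
    have h8 : ∀ k ∈ K, ∀ ξ ∈ ({u, v} : Finset Ω), k ξ ∈ ({u, v} : Finset Ω) := by
      intro k hkK ξ hξ
      have h9 := hfix ⟨k, hkK⟩ {u, v} (by simp [A])
      have h10 := Finset.smul_mem_smul_finset (a := (⟨k, hkK⟩ : K)) hξ
      rw [h9] at h10
      exact h10
    have h11 := K_fix_small hQ.1 {u, v} (Finset.card_le_two.trans (by norm_num)) h8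
    obtain ⟨k, hkK, hku⟩ := Mu
    exact hku (h11 k hkK u (by simp))

theorem tuple_of_mem {p q r s x y : Ω} (hV : V H p q r s) (hx : x ∈ ({p, q, r, s} : Finset Ω))
    (hy : y ∈ ({p, q, r, s} : Finset Ω)) (hxy : x ≠ y) :
    ∃ u v, V H x y u v ∧ ({x, y, u, v} : Finset Ω) = {p, q, r, s} := by
  obtain ⟨q1, r1, s1, h1, e1⟩ := hV.first hx
  rw [← e1] at hy
  obtain ⟨r2, s2, h2, e2⟩ := h1.second hy hxy.symm
  exact ⟨r2, s2, h2, e2.trans e1⟩

theorem lem31 (hN : NoThree H) {p q r s x y z w : Ω} (hV : V H p q r s)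
    (hW : V H x y z w) (hx : x ∈ ({p, q, r, s} : Finset Ω)) (hy : y ∈ ({p, q, r, s} : Finset Ω))
    (hz : z ∈ ({p, q, r, s} : Finset Ω)) (hw : w ∉ ({p, q, r, s} : Finset Ω)) : False := by
  obtain ⟨u, v, h1, e1⟩ := tuple_of_mem hV hx hy hW.ab
  rw [← e1] at hz hw
  obtain ⟨s3, h3, e3⟩ := h1.third hz hW.ac.symm hW.bc.symm
  rw [← e3] at hw
  have := N3 hN hW h3
  subst this
  exact hw (by simp)

theorem lem22 (hQ : IsQuasisimple K) (hKH : K ≤ H)
    (hnorm : ∀ h ∈ H, ∀ k ∈ K, h * k * h⁻¹ ∈ K)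
    (hcent : ∀ h ∈ H, (∀ k ∈ K, h * k = k * h) → h ∈ K) (hN : NoThree H)
    {p q r s p' q' r' s' x y z w : Ω} (hA : V H p q r s) (hB : V H p' q' r' s')
    (hd : Disjoint ({p, q, r, s} : Finset Ω) {p', q', r', s'})
    (hcov : ∀ ξ, Moved K ξ → ξ ∈ ({p, q, r, s} : Finset Ω) ∨ ξ ∈ ({p', q', r', s'} : Finset Ω))
    (hW : V H x y z w) (hx : x ∈ ({p, q, r, s} : Finset Ω)) (hy : y ∈ ({p, q, r, s} : Finset Ω))
    (hz : z ∈ ({p', q', r', s'} : Finset Ω)) (hw : w ∈ ({p', q', r', s'} : Finset Ω)) : False := by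
  obtain ⟨u, v, h1, e1⟩ := tuple_of_mem hA hx hy hW.ab
  obtain ⟨u', v', h2, e2⟩ := tuple_of_mem hB hz hw hW.cd
  rw [← e1, ← e2] at hd hcov
  refine main8 hQ hKH hnorm hcent hN h1 h2 hW hd (fun ξ hξ => ?_)
  have := hcov ξ hξ
  simp only [Finset.mem_insert, Finset.mem_singleton] at this
  tauto

theorem straddle (hQ : IsQuasisimple K) (hKH : K ≤ H)
    (hnorm : ∀ h ∈ H, ∀ k ∈ K, h * k * h⁻¹ ∈ K)
    (hcent : ∀ h ∈ H, (∀ k ∈ K, h * k = k * h) → h ∈ K) (hN : NoThree H)
    {p q r s p' q' r' s' x y z w : Ω} (hA : V H p q r s) (hB : V H p' q' r' s')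
    (hd : Disjoint ({p, q, r, s} : Finset Ω) {p', q', r', s'})
    (hcov : ∀ ξ, Moved K ξ → ξ ∈ ({p, q, r, s} : Finset Ω) ∨ ξ ∈ ({p', q', r', s'} : Finset Ω))
    (hW : V H x y z w) (hx : x ∈ ({p, q, r, s} : Finset Ω))
    (hy : y ∈ ({p', q', r', s'} : Finset Ω)) : False := by
  have mv := fun {a b c d : Ω} (h : V H a b c d) => moved_of_V hQ hKH hnorm hcent h
  have hz : Moved K z := mv hW.sw
  have hw : Moved K w := mv hW.sw.s12
  rcases hcov z hz with hz1 | hz2 <;> rcases hcov w hw with hw1 | hw2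
  · exact lem31 hN hA hW.s23.s34 hx hz1 hw1 (Finset.disjoint_right.mp hd hy)
  · exact lem22 hQ hKH hnorm hcent hN hA hB hd hcov hW.s23 hx hz1 hy hw2
  · exact lem22 hQ hKH hnorm hcent hN hA hB hd hcov hW.s34.s23 hx hw1 hy hz2
  · exact lem31 hN hB hW.s12.s23.s34 hy hz2 hw2 (Finset.disjoint_left.mp hd hx)

theorem eight (hQ : IsQuasisimple K) (hKH : K ≤ H)
    (hnorm : ∀ h ∈ H, ∀ k ∈ K, h * k * h⁻¹ ∈ K)
    (hcent : ∀ h ∈ H, (∀ k ∈ K, h * k = k * h) → h ∈ K) (hN : NoThree H)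
    {p q r s p' q' r' s' : Ω} (hA : V H p q r s) (hB : V H p' q' r' s')
    (hd : Disjoint ({p, q, r, s} : Finset Ω) {p', q', r', s'})
    (hcov : ∀ ξ, Moved K ξ → ξ ∈ ({p, q, r, s} : Finset Ω) ∨ ξ ∈ ({p', q', r', s'} : Finset Ω)) :
    False := by
  classical
  set A₁ : Finset Ω := {p, q, r, s} with hA₁
  set A₂ : Finset Ω := {p', q', r', s'} with hA₂
  let R : Ω → Ω → Prop := fun x y => x = y ∨ (x ∈ A₁ ∧ y ∈ A₁) ∨ (x ∈ A₂ ∧ y ∈ A₂)
  have hrefl : ∀ x, R x x := fun x => Or.inl rfl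
  have hsymm : ∀ x y, R x y → R y x := by
    rintro x y (rfl | ⟨h1, h2⟩ | ⟨h1, h2⟩)
    · exact Or.inl rfl
    · exact Or.inr (Or.inl ⟨h2, h1⟩)
    · exact Or.inr (Or.inr ⟨h2, h1⟩)
  have htrans : ∀ x y z, R x y → R y z → R x z := by
    rintro x y z (rfl | ⟨h1, h2⟩ | ⟨h1, h2⟩) h3
    · exact h3
    · rcases h3 with rfl | ⟨h3, h4⟩ | ⟨h3, h4⟩
      · exact Or.inr (Or.inl ⟨h1, h2⟩)
      · exact Or.inr (Or.inl ⟨h1, h4⟩)
      · exact absurd h3 (Finset.disjoint_left.mp hd h2)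
    · rcases h3 with rfl | ⟨h3, h4⟩ | ⟨h3, h4⟩
      · exact Or.inr (Or.inr ⟨h1, h2⟩)
      · exact absurd h2 (Finset.disjoint_left.mp hd h3)
      · exact Or.inr (Or.inr ⟨h1, h4⟩)
  have mv := fun {a b c d : Ω} (h : V H a b c d) => moved_of_V hQ hKH hnorm hcent h
  have hAne : p ≠ p' := by
    intro e
    exact Finset.disjoint_left.mp hd (show p ∈ A₁ by simp [hA₁]) (by rw [e]; simp [hA₂])
  by_cases hinv : ∀ g ∈ H, ∀ x y, R x y → R (g x) (g y)
  · have hall := core hQ hKH hnorm hcent R hrefl hsymm htrans hinv hA (mv hA) hA.ab.symm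
      (Or.inr (Or.inl ⟨by simp [hA₁], by simp [hA₁]⟩)) p p' (mv hA) (mv hB)
    rcases hall with h | ⟨-, h⟩ | ⟨h, -⟩
    · exact hAne h
    · exact Finset.disjoint_left.mp hd h (show p' ∈ A₂ by simp [hA₂])
    · exact Finset.disjoint_left.mp hd (show p ∈ A₁ by simp [hA₁]) h
  · push Not at hinv
    obtain ⟨g, hg, x, y, hxy, hnR⟩ := hinv
    have hne : x ≠ y := by
      rintro rfl
      exact hnR (Or.inl rfl)
    have key : ∀ {a b c d : Ω}, V H a b c d → x ∈ ({a, b, c, d} : Finset Ω) →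
        y ∈ ({a, b, c, d} : Finset Ω) → False := by
      intro a b c d hV hx hy
      obtain ⟨u, v, hU, -⟩ := tuple_of_mem hV hx hy hne
      have hW := hU.conj hg
      rcases hcov _ (mv hW) with h1 | h1 <;> rcases hcov _ (mv hW.s12) with h2 | h2
      · exact hnR (Or.inr (Or.inl ⟨h1, h2⟩))
      · exact straddle hQ hKH hnorm hcent hN hA hB hd hcov hW h1 h2
      · exact straddle hQ hKH hnorm hcent hN hA hB hd hcov hW.s12 h2 h1
      · exact hnR (Or.inr (Or.inr ⟨h1, h2⟩))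
    rcases hxy with h | ⟨h1, h2⟩ | ⟨h1, h2⟩
    · exact hne h
    · exact key hA h1 h2
    · exact key hB h1 h2

/-- The moved points as a sub-action. -/
def movedSub (hnorm : ∀ h ∈ H, ∀ k ∈ K, h * k * h⁻¹ ∈ K) : SubMulAction H Ω where
  carrier := {x | Moved K x}
  smul_mem' := fun g x hx => Moved.conj hnorm hx g.2

theorem prim (hQ : IsQuasisimple K) (hKH : K ≤ H)
    (hnorm : ∀ h ∈ H, ∀ k ∈ K, h * k * h⁻¹ ∈ K)
    (hcent : ∀ h ∈ H, (∀ k ∈ K, h * k = k * h) → h ∈ K) {a b c d : Ω} (hV : V H a b c d) :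
    MulAction.IsPreprimitive H (movedSub hnorm) := by
  have tr : MulAction.IsPretransitive H (movedSub hnorm) := by
    refine ⟨fun x y => ?_⟩
    obtain ⟨g1, h1, e1⟩ := moved_orbit hQ hKH hnorm hcent hV x.2
    obtain ⟨g2, h2, e2⟩ := moved_orbit hQ hKH hnorm hcent hV y.2
    refine ⟨⟨g2 * g1⁻¹, mul_mem h2 (inv_mem h1)⟩, Subtype.ext ?_⟩
    show (g2 * g1⁻¹) x.1 = y.1
    rw [Perm.mul_apply, ← e1, ← e2]
    simp
  refine { tr with isTrivialBlock_of_isBlock := ?_ }
  intro B hB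
  by_cases hsub : B.Subsingleton
  · exact Or.inl hsub
  right
  rw [Set.not_subsingleton_iff] at hsub
  obtain ⟨p, hp, q, hq, hpq⟩ := hsub
  have hblk := MulAction.isBlock_iff_smul_eq_smul_of_nonempty.mp hB
  let r : Ω → Ω → Prop := fun u v => u = v ∨ ∃ (hu : Moved K u) (hv : Moved K v) (g : H),
    (⟨u, hu⟩ : movedSub hnorm) ∈ g • B ∧ (⟨v, hv⟩ : movedSub hnorm) ∈ g • B
  have hrefl : ∀ x, r x x := fun x => Or.inl rfl
  have hsymm : ∀ x y, r x y → r y x := by
    rintro x y (rfl | ⟨hu, hv, g, h1, h2⟩)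
    · exact Or.inl rfl
    · exact Or.inr ⟨hv, hu, g, h2, h1⟩
  have htrans : ∀ x y z, r x y → r y z → r x z := by
    rintro x y z (rfl | ⟨hu, hv, g, h1, h2⟩) h3
    · exact h3
    · rcases h3 with rfl | ⟨hv', hw, g', h3, h4⟩
      · exact Or.inr ⟨hu, hv, g, h1, h2⟩
      · have := hblk (g₁ := g) (g₂ := g') ⟨_, h2, h3⟩
        exact Or.inr ⟨hu, hw, g, h1, by rw [this]; exact h4⟩
  have hinv : ∀ g ∈ H, ∀ x y, r x y → r (g x) (g y) := by
    rintro g hg x y (rfl | ⟨hu, hv, g', h1, h2⟩)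
    · exact Or.inl rfl
    · refine Or.inr ⟨Moved.conj hnorm hu hg, Moved.conj hnorm hv hg, ⟨g, hg⟩ * g', ?_, ?_⟩
      · rw [mul_smul]
        exact Set.smul_mem_smul_set (a := (⟨g, hg⟩ : H)) h1
      · rw [mul_smul]
        exact Set.smul_mem_smul_set (a := (⟨g, hg⟩ : H)) h2
  have hq' : (q : Ω) ≠ p := fun e => hpq (Subtype.ext e).symm
  have hall := core hQ hKH hnorm hcent r hrefl hsymm htrans hinv hV p.2 hq'
    (Or.inr ⟨p.2, q.2, 1, by simpa using hp, by simpa using hq⟩)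
  ext y
  simp only [Set.mem_univ, iff_true]
  rcases hall p y p.2 y.2 with e | ⟨hu, hv, g, h1, h2⟩
  · have : y = p := (Subtype.ext e).symm
    rw [this]
    exact hp
  · have h3 : (g • B ∩ (1 : H) • B).Nonempty := ⟨p, h1, by simpa using hp⟩
    have h4 := hblk h3
    rw [one_smul] at h4
    rw [h4] at h2
    exact h2

theorem hasThree (hQ : IsQuasisimple K) (hKH : K ≤ H)
    (hnorm : ∀ h ∈ H, ∀ k ∈ K, h * k * h⁻¹ ∈ K)
    (hcent : ∀ h ∈ H, (∀ k ∈ K, h * k = k * h) → h ∈ K)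
    {p q r s p' q' r' s' : Ω} (hA : V H p q r s) (hB : V H p' q' r' s')
    (hd : Disjoint ({p, q, r, s} : Finset Ω) {p', q', r', s'}) :
    ∃ c ∈ H, c.IsThreeCycle := by
  classical
  by_contra hcon
  have hN : NoThree H := fun c hc h3 => hcon ⟨c, hc, h3⟩
  by_cases hcov : ∀ ξ, Moved K ξ → ξ ∈ ({p, q, r, s} : Finset Ω) ∨ ξ ∈ ({p', q', r', s'} : Finset Ω)
  · exact eight hQ hKH hnorm hcent hN hA hB hd hcov
  push Not at hcov
  obtain ⟨e, hem, he1, he2⟩ := hcov
  have mv := fun {a b c d : Ω} (h : V H a b c d) => moved_of_V hQ hKH hnorm hcent h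
  have hprim := prim hQ hKH hnorm hcent hA
  let Y : SubMulAction H Ω := movedSub hnorm
  haveI : Fintype Y := Fintype.ofFinite _
  let mk : ∀ x, Moved K x → Y := fun x hx => ⟨x, hx⟩
  have Mp := mv hA
  have Mq := mv hA.s12
  have Mr := mv hA.sw
  have Ms := mv hA.sw.s12
  have Mp' := mv hB
  have Mq' := mv hB.s12
  have Mr' := mv hB.sw
  have Ms' := mv hB.sw.s12
  let Δ : Finset Y := {⟨p, Mp⟩, ⟨q, Mq⟩, ⟨r, Mr⟩, ⟨s, Ms⟩}
  have hΔmem : ∀ y : Y, y ∈ Δ ↔ (y : Ω) ∈ ({p, q, r, s} : Finset Ω) := by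
    intro y
    simp only [Δ, Finset.mem_insert, Finset.mem_singleton, Subtype.ext_iff]
  have hΔcard : Δ.card = 4 := by
    simp only [Δ]
    rw [Finset.card_insert_of_notMem, Finset.card_insert_of_notMem, Finset.card_insert_of_notMem,
      Finset.card_singleton]
    · simp only [Finset.mem_singleton]
      exact fun h => hA.cd (congrArg Subtype.val h)
    · simp only [Finset.mem_insert, Finset.mem_singleton, not_or]
      exact ⟨fun h => hA.bc (congrArg Subtype.val h), fun h => hA.bd (congrArg Subtype.val h)⟩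
    · simp only [Finset.mem_insert, Finset.mem_singleton, not_or]
      exact ⟨fun h => hA.ab (congrArg Subtype.val h), fun h => hA.ac (congrArg Subtype.val h),
        fun h => hA.ad (congrArg Subtype.val h)⟩
  have hcard4 : ∀ {a b c d : Ω}, V H a b c d → ({a, b, c, d} : Finset Ω).card = 4 := by
    intro a b c d h
    rw [Finset.card_insert_of_notMem, Finset.card_insert_of_notMem, Finset.card_insert_of_notMem,
      Finset.card_singleton]
    · simp only [Finset.mem_singleton]; exact h.cd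
    · simp only [Finset.mem_insert, Finset.mem_singleton, not_or]
      exact ⟨h.bc, h.bd⟩
    · simp only [Finset.mem_insert, Finset.mem_singleton, not_or]
      exact ⟨h.ab, h.ac, h.ad⟩
  have h9 : 9 ≤ Fintype.card Y := by
    have hS : (({p, q, r, s} : Finset Ω) ∪ {p', q', r', s'} ∪ {e}).card = 9 := by
      rw [Finset.card_union_of_disjoint, Finset.card_union_of_disjoint hd, hcard4 hA, hcard4 hB,
        Finset.card_singleton]
      rw [Finset.disjoint_singleton_right, Finset.mem_union, not_or]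
      exact ⟨he1, he2⟩
    have hsub : ({p, q, r, s} : Finset Ω) ∪ {p', q', r', s'} ∪ {e} ⊆
        (Finset.univ : Finset Y).map (Function.Embedding.subtype _) := by
      intro x hx
      have hxm : Moved K x := by
        simp only [Finset.mem_union, Finset.mem_insert, Finset.mem_singleton] at hx
        rcases hx with ((rfl | rfl | rfl | rfl) | (rfl | rfl | rfl | rfl)) | rfl <;> assumption
      exact Finset.mem_map.mpr ⟨⟨x, hxm⟩, Finset.mem_univ _, rfl⟩
    have := Finset.card_le_card hsub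
    rw [hS, Finset.card_map, Finset.card_univ] at this
    exact this
  have hJ : ∀ x ∈ Δ, ∀ y ∈ Δ, ∃ g : H, (∀ z, z ∉ Δ → g • z = z) ∧ g • x = y := by
    intro x hx y hy
    by_cases hxy : x = y
    · exact ⟨1, by simp, by simp [hxy]⟩
    obtain ⟨u, v, hU, he'⟩ := tuple_of_mem hA ((hΔmem x).mp hx) ((hΔmem y).mp hy)
      (fun e => hxy (Subtype.ext e))
    refine ⟨⟨_, hU.m1⟩, fun z hz => Subtype.ext ?_, Subtype.ext ?_⟩
    · rw [hΔmem, ← he'] at hz
      simp only [Finset.mem_insert, Finset.mem_singleton, not_or] at hz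
      exact dt_o hz.1 hz.2.1 hz.2.2.1 hz.2.2.2
    · exact dt_a hU.ac hU.ad
  have hmain := Cfsg.Agent.Lib.Transfer.Marggraf.main_primitive (G := H) (Ω := Y) hprim Δ
    (by omega) (by omega) hJ
  have hsp' : s ≠ p' := by
    intro h
    exact Finset.disjoint_left.mp hd (show s ∈ ({p, q, r, s} : Finset Ω) by simp)
      (by rw [h]; simp)
  have hse : s ≠ e := by
    rintro rfl
    exact he1 (by simp)
  have hep' : e ≠ p' := by
    rintro rfl
    exact he2 (by simp)
  let S' : Y := ⟨s, Ms⟩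
  let E' : Y := ⟨e, hem⟩
  let F' : Y := ⟨p', Mp'⟩
  have hSE : S' ≠ E' := fun h => hse (congrArg Subtype.val h)
  have hSF : S' ≠ F' := fun h => hsp' (congrArg Subtype.val h)
  have hEF : E' ≠ F' := fun h => hep' (congrArg Subtype.val h)
  obtain ⟨g, hg⟩ := hmain (swap S' E' * swap S' F') (by
    rw [Perm.sign_mul, sign_swap hSE, sign_swap hSF]
    rfl)
  have hgv : ∀ y : Y, (g : Perm Ω) y.1 = ((swap S' E' * swap S' F') y).1 := fun y =>
    congrArg Subtype.val (congrArg (fun f : Perm Y => f y) hg)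
  have hfx : ∀ y : Y, (y : Ω) ≠ s → (y : Ω) ≠ e → (y : Ω) ≠ p' → (g : Perm Ω) y.1 = y.1 := by
    intro y h1 h2 h3
    rw [hgv, Perm.mul_apply, swap_apply_of_ne_of_ne (x := y) (fun h => h1 (congrArg Subtype.val h))
      (fun h => h3 (congrArg Subtype.val h)),
      swap_apply_of_ne_of_ne (x := y) (fun h => h1 (congrArg Subtype.val h))
      (fun h => h2 (congrArg Subtype.val h))]
  have hne1 : ∀ x ∈ ({p, q, r} : Finset Ω), x ≠ s ∧ x ≠ e ∧ x ≠ p' := by
    intro x hx
    refine ⟨?_, ?_, ?_⟩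
    · simp only [Finset.mem_insert, Finset.mem_singleton] at hx
      rcases hx with rfl | rfl | rfl
      · exact hA.ad
      · exact hA.bd
      · exact hA.cd
    · rintro rfl
      apply he1
      simp only [Finset.mem_insert, Finset.mem_singleton] at hx ⊢
      tauto
    · intro hx'
      rw [hx'] at hx
      have h1 : p' ∈ ({p, q, r, s} : Finset Ω) := by
        simp only [Finset.mem_insert, Finset.mem_singleton] at hx ⊢
        tauto
      exact Finset.disjoint_left.mp hd h1 (by simp)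
  have g1 : (g : Perm Ω) p = p := by
    obtain ⟨a1, a2, a3⟩ := hne1 p (by simp)
    exact hfx ⟨p, Mp⟩ a1 a2 a3
  have g2 : (g : Perm Ω) q = q := by
    obtain ⟨a1, a2, a3⟩ := hne1 q (by simp)
    exact hfx ⟨q, Mq⟩ a1 a2 a3
  have g3 : (g : Perm Ω) r = r := by
    obtain ⟨a1, a2, a3⟩ := hne1 r (by simp)
    exact hfx ⟨r, Mr⟩ a1 a2 a3
  have g4 : (g : Perm Ω) s = p' := by
    have h1 := hgv S'
    rw [Perm.mul_apply, swap_apply_left, swap_apply_of_ne_of_ne hSF.symm hEF.symm] at h1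
    exact h1
  have hV' := hA.conj g.2
  rw [g1, g2, g3, g4] at hV'
  exact hsp' (N3 hN hA hV')

end Ctx

section Tuples

variable {Ω : Type*} [Fintype Ω] [DecidableEq Ω]

theorem comm_of_fix {g : Perm Ω} {a b c d : Ω} (ha : g a = a) (hb : g b = b) (hc : g c = c)
    (hd : g d = d) : g * (swap a b * swap c d) = (swap a b * swap c d) * g := by
  have := conj_dt g a b c d
  rw [ha, hb, hc, hd] at this
  rw [eq_mul_inv_iff_mul_eq] at this
  exact this.symm

theorem dt_comm_same {a b c d : Ω} (h : V (⊤ : Subgroup (Perm Ω)) a b c d) :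
    (swap a b * swap c d) * (swap a c * swap b d) = (swap a c * swap b d) * (swap a b * swap c d) := by
  have h1 := conj_dt (swap a c * swap b d) a b c d
  rw [dt_a h.ab h.ad, dt_c h.ad.symm h.cd.symm, dt_b h.bc.symm h.cd, dt_d h.ab.symm h.bc] at h1
  rw [swap_swap_comm h.ac.symm h.bc.symm h.ad.symm h.bd.symm, eq_mul_inv_iff_mul_eq] at h1
  exact h1

theorem dt_prod {a b c d : Ω} (h : V (⊤ : Subgroup (Perm Ω)) a b c d) :
    (swap a b * swap c d) * (swap a c * swap b d) = swap a d * swap b c := by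
  ext x
  rw [Perm.mul_apply]
  by_cases hxa : x = a
  · subst hxa
    rw [dt_a h.ab h.ad, dt_c h.ad.symm h.bd.symm, dt_a h.ab h.ac]
  by_cases hxb : x = b
  · subst hxb
    rw [dt_c h.ad.symm h.cd.symm, dt_d h.ac.symm h.bc.symm, dt_c h.ac.symm h.cd]
  by_cases hxc : x = c
  · subst hxc
    rw [dt_b h.bc.symm h.cd, dt_a h.ac h.ad, dt_d h.ab.symm h.bd]
  by_cases hxd : x = d
  · subst hxd
    rw [dt_d h.ab.symm h.bc, dt_b h.bc h.bd, dt_b h.bd.symm h.cd.symm]
  · rw [dt_o hxa hxc hxb hxd, dt_o hxa hxb hxc hxd, dt_o hxa hxd hxb hxc]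

theorem dt_sq {a b c d : Ω} (hac : a ≠ c) (had : a ≠ d) (hbc : b ≠ c) (hbd : b ≠ d) :
    (swap a b * swap c d) * (swap a b * swap c d) = 1 := by
  calc (swap a b * swap c d) * (swap a b * swap c d)
      = swap a b * (swap c d * swap a b) * swap c d := by group
    _ = swap a b * (swap a b * swap c d) * swap c d := by rw [swap_swap_comm hac had hbc hbd]
    _ = (swap a b * swap a b) * (swap c d * swap c d) := by group
    _ = 1 := by rw [swap_mul_self, swap_mul_self, one_mul]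

theorem dt_alt {a b c d : Ω} (hab : a ≠ b) (hcd : c ≠ d) : swap a b * swap c d ∈ alternatingGroup Ω := by
  rw [Equiv.Perm.mem_alternatingGroup, Perm.sign_mul, sign_swap hab, sign_swap hcd]
  rfl

theorem exists_tuples {n : ℕ} (hn : 8 ≤ n) {H : Subgroup (Perm (Fin n))}
    (P : Sylow 2 (alternatingGroup (Fin n)))
    (hP : (P : Subgroup (alternatingGroup (Fin n))).map (alternatingGroup (Fin n)).subtype ≤ H) :
    ∃ p q r s p' q' r' s', V H p q r s ∧ V H p' q' r' s' ∧
      Disjoint ({p, q, r, s} : Finset (Fin n)) {p', q', r', s'} := by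
  classical
  let x : Fin 8 → Fin n := fun i => ⟨i.1, by omega⟩
  have hxinj : Function.Injective x := by
    intro i j hij
    exact Fin.ext (Fin.mk.inj_iff.mp hij)
  have hne : ∀ i j : Fin 8, i ≠ j → x i ≠ x j := fun i j h e => h (hxinj e)
  have hVT : ∀ i j k l : Fin 8, i ≠ j → i ≠ k → i ≠ l → j ≠ k → j ≠ l → k ≠ l →
      V (⊤ : Subgroup (Perm (Fin n))) (x i) (x j) (x k) (x l) := by
    intro i j k l h1 h2 h3 h4 h5 h6
    exact ⟨hne _ _ h1, hne _ _ h2, hne _ _ h3, hne _ _ h4, hne _ _ h5, hne _ _ h6, trivial, trivial,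
      trivial⟩
  have hA : V (⊤ : Subgroup (Perm (Fin n))) (x 0) (x 1) (x 2) (x 3) :=
    hVT _ _ _ _ (by decide) (by decide) (by decide) (by decide) (by decide) (by decide)
  have hB : V (⊤ : Subgroup (Perm (Fin n))) (x 4) (x 5) (x 6) (x 7) :=
    hVT _ _ _ _ (by decide) (by decide) (by decide) (by decide) (by decide) (by decide)
  set e1 := swap (x 0) (x 1) * swap (x 2) (x 3) with he1
  set e2 := swap (x 0) (x 2) * swap (x 1) (x 3) with he2
  set f1 := swap (x 4) (x 5) * swap (x 6) (x 7) with hf1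
  set f2 := swap (x 4) (x 6) * swap (x 5) (x 7) with hf2
  have ee : e1 * e2 = e2 * e1 := dt_comm_same hA
  have ff : f1 * f2 = f2 * f1 := dt_comm_same hB
  have fxa : ∀ i j k l : Fin 8, i ≠ 0 → i ≠ 1 → i ≠ 2 → i ≠ 3 → e1 (x i) = x i ∧ e2 (x i) = x i := by
    intro i j k l h0 h1 h2 h3
    exact ⟨dt_o (hne _ _ h0) (hne _ _ h1) (hne _ _ h2) (hne _ _ h3),
      dt_o (hne _ _ h0) (hne _ _ h2) (hne _ _ h1) (hne _ _ h3)⟩
  have fe : ∀ i : Fin 8, i ≠ 0 → i ≠ 1 → i ≠ 2 → i ≠ 3 → e1 (x i) = x i ∧ e2 (x i) = x i :=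
    fun i => fxa i 0 0 0
  have e4 := fe 4 (by decide) (by decide) (by decide) (by decide)
  have e5 := fe 5 (by decide) (by decide) (by decide) (by decide)
  have e6 := fe 6 (by decide) (by decide) (by decide) (by decide)
  have e7 := fe 7 (by decide) (by decide) (by decide) (by decide)
  have e1f1 : e1 * f1 = f1 * e1 := comm_of_fix e4.1 e5.1 e6.1 e7.1
  have e1f2 : e1 * f2 = f2 * e1 := comm_of_fix e4.1 e6.1 e5.1 e7.1
  have e2f1 : e2 * f1 = f1 * e2 := comm_of_fix e4.2 e5.2 e6.2 e7.2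
  have e2f2 : e2 * f2 = f2 * e2 := comm_of_fix e4.2 e6.2 e5.2 e7.2
  let S : Set (Perm (Fin n)) := {e1, e2, f1, f2}
  have hcS : ∀ a ∈ S, ∀ b ∈ S, a * b = b * a := by
    intro a ha b hb
    simp only [S, Set.mem_insert_iff, Set.mem_singleton_iff] at ha hb
    rcases ha with rfl | rfl | rfl | rfl <;> rcases hb with rfl | rfl | rfl | rfl <;>
      first
        | rfl
        | exact ee | exact ee.symm | exact ff | exact ff.symm
        | exact e1f1 | exact e1f1.symm | exact e1f2 | exact e1f2.symm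
        | exact e2f1 | exact e2f1.symm | exact e2f2 | exact e2f2.symm
  have hQc := Subgroup.isMulCommutative_closure hcS
  have hsqS : ∀ a ∈ S, a * a = 1 := by
    intro a ha
    simp only [S, Set.mem_insert_iff, Set.mem_singleton_iff] at ha
    rcases ha with rfl | rfl | rfl | rfl
    · exact dt_sq hA.ac hA.ad hA.bc hA.bd
    · exact dt_sq hA.ab hA.ad hA.bc.symm hA.cd
    · exact dt_sq hB.ac hB.ad hB.bc hB.bd
    · exact dt_sq hB.ab hB.ad hB.bc.symm hB.cd
  have hsq : ∀ a ∈ closure S, a * a = 1 := by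
    intro a ha
    induction ha using Subgroup.closure_induction with
    | mem a h => exact hsqS a h
    | one => simp
    | mul a b ha hb h1 h2 =>
        have hc : a * b = b * a := by
          have := hQc.is_comm.comm ⟨a, ha⟩ ⟨b, hb⟩
          exact congrArg (fun z : closure S => (z : Perm (Fin n))) this
        calc a * b * (a * b) = a * (b * a) * b := by group
          _ = a * (a * b) * b := by rw [hc]
          _ = (a * a) * (b * b) := by group
          _ = 1 := by rw [h1, h2, one_mul]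
    | inv a _ h =>
        have : a⁻¹ * a⁻¹ = (a * a)⁻¹ := by group
        rw [this, h, inv_one]
  have hQA : closure S ≤ alternatingGroup (Fin n) := by
    rw [Subgroup.closure_le]
    intro a ha
    simp only [S, Set.mem_insert_iff, Set.mem_singleton_iff] at ha
    rcases ha with rfl | rfl | rfl | rfl
    · exact dt_alt hA.ab hA.cd
    · exact dt_alt hA.ac hA.bd
    · exact dt_alt hB.ab hB.cd
    · exact dt_alt hB.ac hB.bd
  let U : Subgroup (alternatingGroup (Fin n)) := (closure S).subgroupOf _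
  have hpg : IsPGroup 2 U := by
    intro u
    refine ⟨1, Subtype.ext (Subtype.ext ?_)⟩
    have h1 : ((u : alternatingGroup (Fin n)) : Perm (Fin n)) ∈ closure S :=
      Subgroup.mem_subgroupOf.mp u.2
    have h2 := hsq _ h1
    simpa [pow_two] using h2
  obtain ⟨S', hS'⟩ := hpg.exists_le_sylow
  obtain ⟨g, hg⟩ := MulAction.exists_smul_eq (alternatingGroup (Fin n)) S' P
  have hconj : ∀ a ∈ closure S, (g : Perm (Fin n)) * a * (g : Perm (Fin n))⁻¹ ∈ H := by
    intro a ha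
    apply hP
    have h1 : (⟨a, hQA ha⟩ : alternatingGroup (Fin n)) ∈ (S' : Subgroup _) :=
      hS' (Subgroup.mem_subgroupOf.mpr ha)
    have h2 : g * ⟨a, hQA ha⟩ * g⁻¹ ∈ (P : Subgroup (alternatingGroup (Fin n))) := by
      rw [← hg, Sylow.coe_subgroup_smul]
      exact Subgroup.mem_map_of_mem _ h1
    exact Subgroup.mem_map_of_mem _ h2
  have he1m : e1 ∈ closure S := Subgroup.subset_closure (by simp [S])
  have he2m : e2 ∈ closure S := Subgroup.subset_closure (by simp [S])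
  have hf1m : f1 ∈ closure S := Subgroup.subset_closure (by simp [S])
  have hf2m : f2 ∈ closure S := Subgroup.subset_closure (by simp [S])
  have he3m : swap (x 0) (x 3) * swap (x 1) (x 2) ∈ closure S := by
    rw [← dt_prod hA]
    exact mul_mem he1m he2m
  have hf3m : swap (x 4) (x 7) * swap (x 5) (x 6) ∈ closure S := by
    rw [← dt_prod hB]
    exact mul_mem hf1m hf2m
  set G : Perm (Fin n) := (g : alternatingGroup (Fin n)).1 with hG
  have ginj := G.injective
  refine ⟨G (x 0), G (x 1), G (x 2), G (x 3), G (x 4), G (x 5), G (x 6), G (x 7), ?_, ?_, ?_⟩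
  · refine ⟨fun e => hA.ab (ginj e), fun e => hA.ac (ginj e), fun e => hA.ad (ginj e),
      fun e => hA.bc (ginj e), fun e => hA.bd (ginj e), fun e => hA.cd (ginj e), ?_, ?_, ?_⟩
    · rw [conj_dt]; exact hconj _ he1m
    · rw [conj_dt]; exact hconj _ he2m
    · rw [conj_dt]; exact hconj _ he3m
  · refine ⟨fun e => hB.ab (ginj e), fun e => hB.ac (ginj e), fun e => hB.ad (ginj e),
      fun e => hB.bc (ginj e), fun e => hB.bd (ginj e), fun e => hB.cd (ginj e), ?_, ?_, ?_⟩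
    · rw [conj_dt]; exact hconj _ hf1m
    · rw [conj_dt]; exact hconj _ hf2m
    · rw [conj_dt]; exact hconj _ hf3m
  · rw [Finset.disjoint_left]
    intro y hy hy'
    simp only [Finset.mem_insert, Finset.mem_singleton] at hy hy'
    have key : ∀ i j : Fin 8, i ≠ j → G (x i) ≠ G (x j) := fun i j h e => hne i j h (ginj e)
    rcases hy with rfl | rfl | rfl | rfl <;> rcases hy' with e | e | e | e <;>
      exact key _ _ (by decide) e

end Tuples

/-- Let n ≥ 8 and let H be a subgroup of the symmetric group of degree n whose generalized Fitting subgroup F*(H) is quasisimple. If H contains a Sylow 2-subgroup of the alternating group of degree n, then F*(H) is isomorphic to an alternating group of degree m for some m ∈ {n − 3, n − 2, n − 1, n}. -/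
theorem result (n : ℕ) (hn : 8 ≤ n) (H : Subgroup (Equiv.Perm (Fin n))) (hF : Cfsg.IsQuasisimple ↥(Cfsg.generalizedFittingSubgroup ↥H)) (hS : ∃ P : Sylow 2 ↥(alternatingGroup (Fin n)), ((P : Subgroup ↥(alternatingGroup (Fin n))).map (alternatingGroup (Fin n)).subtype) ≤ H) : ∃ m : ℕ, (m = n - 3 ∨ m = n - 2 ∨ m = n - 1 ∨ m = n) ∧ Nonempty (↥(Cfsg.generalizedFittingSubgroup ↥H) ≃* ↥(alternatingGroup (Fin m))) := by
  classical
  set F := Cfsg.generalizedFittingSubgroup ↥H with hFdef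
  set K : Subgroup (Perm (Fin n)) := F.map H.subtype with hKdef
  have he : F ≃* K := F.equivMapOfInjective H.subtype H.subtype_injective
  have hQ : IsQuasisimple K :=
    Cfsg.Agent.Lib.Components.Quasisimple.isQuasisimple_of_mulEquiv he hF
  have hFn : F.Normal := inferInstance
  have hKH : K ≤ H := by
    rintro _ ⟨x, -, rfl⟩
    exact x.2
  have hnorm : ∀ h ∈ H, ∀ k ∈ K, h * k * h⁻¹ ∈ K := by
    rintro h hh _ ⟨x, hx, rfl⟩
    refine ⟨⟨h, hh⟩ * x * ⟨h, hh⟩⁻¹, hFn.conj_mem x hx _, rfl⟩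
  have hcent : ∀ h ∈ H, (∀ k ∈ K, h * k = k * h) → h ∈ K := by
    intro h hh hc
    have h1 : (⟨h, hh⟩ : H) ∈ Subgroup.centralizer (F : Set H) := by
      rw [Subgroup.mem_centralizer_iff]
      intro x hx
      apply Subtype.ext
      have := hc x.1 ⟨x, hx, rfl⟩
      exact this.symm
    exact ⟨⟨h, hh⟩, Cfsg.Agent.Lib.Components.FStar.centralizer_generalizedFitting_le h1, rfl⟩
  obtain ⟨P, hP⟩ := hS
  obtain ⟨a1, a2, a3, a4, b1, b2, b3, b4, hA, hB, hd⟩ := exists_tuples hn P hP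
  obtain ⟨c, hcH, hc3⟩ := hasThree hQ hKH hnorm hcent hA hB hd
  obtain ⟨p, hpd, hcard, hKA⟩ := eq_alt_of_quasisimple H K hQ hKH hnorm hcent hc3 hcH
  set m := Fintype.card (Subtype p) with hm
  have hdvd := card_dvd_factorial_of_alt H K hnorm hcent p hcard hKA
  have hmn : m ≤ n := by
    have := Fintype.card_subtype_le p
    simpa [hm] using this
  have hm3 : n ≤ m + 3 := by
    by_contra hcon
    push Not at hcon
    have h1 : Nat.card P ∣ Nat.factorial m := by
      refine dvd_trans ?_ hdvd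
      have h2 := Subgroup.card_dvd_of_le hP
      rwa [Subgroup.card_map_of_injective (alternatingGroup (Fin n)).subtype_injective] at h2
    have h3 : 8 * Nat.factorial m ∣ Nat.factorial n := by
      have h4 : Nat.factorial (m + 4) ∣ Nat.factorial n := Nat.factorial_dvd_factorial (by omega)
      refine dvd_trans ?_ h4
      have h5 : Nat.factorial (m + 4) = (m + 4) * (m + 3) * (m + 2) * (m + 1) * Nat.factorial m := by
        simp [Nat.factorial_succ]; ring
      rw [h5]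
      apply mul_dvd_mul_right
      apply Nat.dvd_of_mod_eq_zero
      have h8 : m % 8 = 0 ∨ m % 8 = 1 ∨ m % 8 = 2 ∨ m % 8 = 3 ∨ m % 8 = 4 ∨ m % 8 = 5 ∨ m % 8 = 6 ∨
          m % 8 = 7 := by omega
      rcases h8 with h | h | h | h | h | h | h | h <;> simp [Nat.mul_mod, Nat.add_mod, h]
    have hcardn : 2 * Nat.card (alternatingGroup (Fin n)) = Nat.factorial n := by
      haveI : Nontrivial (Fin n) := Fin.nontrivial_iff_two_le.mpr (by omega)
      have := two_mul_card_alternatingGroup (α := Fin n)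
      rw [Fintype.card_perm, Fintype.card_fin] at this
      rw [Nat.card_eq_fintype_card]
      exact this
    have hP' : Nat.card P = 2 ^ (Nat.card (alternatingGroup (Fin n))).factorization 2 :=
      P.card_eq_multiplicity
    rw [hP'] at h1
    have h7 : 2 ^ ((Nat.card (alternatingGroup (Fin n))).factorization 2 + 1) ∣
        Nat.card (alternatingGroup (Fin n)) := by
      rw [← hcardn] at h3
      have h8 : 4 * Nat.factorial m ∣ Nat.card (alternatingGroup (Fin n)) := by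
        have : 8 * Nat.factorial m = 2 * (4 * Nat.factorial m) := by ring
        rw [this] at h3
        exact Nat.dvd_of_mul_dvd_mul_left (by norm_num) h3
      rw [pow_succ, mul_comm]
      exact dvd_trans (mul_dvd_mul (by norm_num : (2 : ℕ) ∣ 4) h1) h8
    exact Nat.pow_succ_factorization_not_dvd (Nat.card_pos.ne') Nat.prime_two h7
  have e1 : (alternatingGroup (Subtype p)) ≃* (alternatingGroup (Subtype p)).map ofSubtype :=
    (alternatingGroup (Subtype p)).equivMapOfInjective ofSubtype ofSubtype_injective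
  have e2 : alternatingGroup (Subtype p) ≃* alternatingGroup (Fin m) :=
    Equiv.altCongrHom (Fintype.equivFin (Subtype p))
  exact ⟨m, by omega, ⟨he.trans ((MulEquiv.subgroupCongr hKA).trans (e1.symm.trans e2))⟩⟩

end Cfsg.Agent.S2928
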