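import Cfsg.Statements.S2929
import Mathlib
import Cfsg.Agent.Lib.Perm.ThreeCycleGen
import Cfsg.Agent.Lib.Components.FStar

set_option autoImplicit false
open Cfsg

namespace Cfsg.Agent.S2929

open Equiv Equiv.Perm Subgroup Cfsg.Agent.Lib.Perm.ThreeCycleGen

/-- Every Sylow 3-subgroup of `Perm (Fin n)`, `n ≥ 3`, contains a 3-cycle. -/
theorem exists_threeCycle_mem (n : ℕ) (hn : 3 ≤ n) (P : Sylow 3 (Perm (Fin n))) :
    ∃ c ∈ (P : Subgroup (Perm (Fin n))), c.IsThreeCycle := by
  classical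
  let a : Fin n := ⟨0, by omega⟩
  let b : Fin n := ⟨1, by omega⟩
  let d : Fin n := ⟨2, by omega⟩
  have hab : a ≠ b := by simp [a, b, Fin.ext_iff]
  have had : a ≠ d := by simp [a, d, Fin.ext_iff]
  have hbd : b ≠ d := by simp [b, d, Fin.ext_iff]
  have ht : (Cfsg.Agent.Lib.Perm.IndexAlt.cyc a b d).IsThreeCycle :=
    Cfsg.Agent.Lib.Perm.IndexAlt.cyc_isThreeCycle hab had hbd
  set t := Cfsg.Agent.Lib.Perm.IndexAlt.cyc a b d with htdef
  haveI : Fact (Nat.Prime 3) := ⟨Nat.prime_three⟩
  have hpg : IsPGroup 3 (zpowers t) := by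
    have : orderOf t = 3 := ht.orderOf
    rw [IsPGroup.iff_card, Nat.card_zpowers, this]
    exact ⟨1, by norm_num⟩
  obtain ⟨Q, hQ⟩ := hpg.exists_le_sylow
  obtain ⟨g, hg⟩ := MulAction.exists_smul_eq (Perm (Fin n)) Q P
  refine ⟨g * t * g⁻¹, ?_, ?_⟩
  · rw [← hg, Sylow.coe_subgroup_smul]
    exact Subgroup.mem_map_of_mem _ (hQ (mem_zpowers t))
  · rw [IsThreeCycle, cycleType_conj]
    exact ht

/-- Let n ≥ 5 and let H be a subgroup of the symmetric group of degree n whose generalized Fitting subgroup F*(H) is quasisimple. If H contains a Sylow 3-subgroup of the symmetric group, then F*(H) is isomorphic to an alternating group of degree m for some m ∈ {n − 2, n − 1, n}. -/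
theorem result (n : ℕ) (hn : 5 ≤ n) (H : Subgroup (Equiv.Perm (Fin n))) (hF : Cfsg.IsQuasisimple ↥(Cfsg.generalizedFittingSubgroup ↥H)) (hS : ∃ P : Sylow 3 (Equiv.Perm (Fin n)), (P : Subgroup (Equiv.Perm (Fin n))) ≤ H) : ∃ m : ℕ, (m = n - 2 ∨ m = n - 1 ∨ m = n) ∧ Nonempty (↥(Cfsg.generalizedFittingSubgroup ↥H) ≃* ↥(alternatingGroup (Fin m))) := by
  
  classical
  set F := Cfsg.generalizedFittingSubgroup ↥H with hFdef
  set K : Subgroup (Perm (Fin n)) := F.map H.subtype with hKdef
  have he : F ≃* K := F.equivMapOfInjective H.subtype H.subtype_injective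
  have hQ : IsQuasisimple K :=
    Cfsg.Agent.Lib.Components.Quasisimple.isQuasisimple_of_mulEquiv he hF
  have hFn : F.Normal := inferInstance
  have hKH : K ≤ H := by
    rintro _ ⟨x, -, rfl⟩
    exact x.2
  have hnorm : ∀ h ∈ H, ∀ k ∈ K, h * k * h⁻¹ ∈ K := by
    rintro h hh _ ⟨x, hx, rfl⟩
    refine ⟨⟨h, hh⟩ * x * ⟨h, hh⟩⁻¹, hFn.conj_mem x hx _, rfl⟩
  have hcent : ∀ h ∈ H, (∀ k ∈ K, h * k = k * h) → h ∈ K := by
    intro h hh hc
    have h1 : (⟨h, hh⟩ : H) ∈ Subgroup.centralizer (F : Set H) := by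
      rw [Subgroup.mem_centralizer_iff]
      intro x hx
      apply Subtype.ext
      have := hc x.1 ⟨x, hx, rfl⟩
      exact this.symm
    exact ⟨⟨h, hh⟩, Cfsg.Agent.Lib.Components.FStar.centralizer_generalizedFitting_le h1, rfl⟩
  obtain ⟨P, hP⟩ := hS
  obtain ⟨c, hcP, hc3⟩ := exists_threeCycle_mem n (by omega) P
  obtain ⟨p, hpd, hcard, hKA⟩ := eq_alt_of_quasisimple H K hQ hKH hnorm hcent hc3 (hP hcP)
  -- the degree
  set m := Fintype.card (Subtype p) with hm
  have hdvd := card_dvd_factorial_of_alt H K hnorm hcent p hcard hKA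
  haveI : Fact (Nat.Prime 3) := ⟨Nat.prime_three⟩
  have hmn : m ≤ n := by
    have := Fintype.card_subtype_le p
    simpa [hm] using this
  have hm2 : n ≤ m + 2 := by
    by_contra hcon
    push Not at hcon
    -- `|P|` divides `m!` but `3 * m!` divides `n!`
    have h1 : Nat.card P ∣ Nat.factorial m := by
      refine dvd_trans ?_ hdvd
      exact Subgroup.card_dvd_of_le hP
    have h3 : 3 * Nat.factorial m ∣ Nat.factorial n := by
      have h4 : Nat.factorial (m + 3) ∣ Nat.factorial n := Nat.factorial_dvd_factorial (by omega)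
      refine dvd_trans ?_ h4
      have h5 : Nat.factorial (m + 3) = (m + 3) * (m + 2) * (m + 1) * Nat.factorial m := by
        simp [Nat.factorial_succ]; ring
      rw [h5]
      apply mul_dvd_mul_right
      have h6 : 3 ∣ (m + 3) * (m + 2) * (m + 1) := by
        have : m % 3 = 0 ∨ m % 3 = 1 ∨ m % 3 = 2 := by omega
        rcases this with h | h | h
        · exact Dvd.dvd.mul_right (Dvd.dvd.mul_right (by omega) _) _
        · exact Dvd.dvd.mul_right (Dvd.dvd.mul_left (by omega) _) _
        · exact Dvd.dvd.mul_left (by omega) _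
      exact h6
    have hcardn : Nat.card (Perm (Fin n)) = Nat.factorial n := by
      rw [Nat.card_perm]; simp
    have hP' : Nat.card P = 3 ^ (Nat.factorial n).factorization 3 := by
      rw [P.card_eq_multiplicity, hcardn]
    rw [hP'] at h1
    have h7 : 3 ^ ((Nat.factorial n).factorization 3 + 1) ∣ Nat.factorial n := by
      rw [pow_succ, mul_comm]
      exact dvd_trans (mul_dvd_mul_left 3 h1) h3
    exact Nat.pow_succ_factorization_not_dvd (Nat.factorial_ne_zero n) Nat.prime_three h7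
  have e1 : (alternatingGroup (Subtype p)) ≃* (alternatingGroup (Subtype p)).map ofSubtype :=
    (alternatingGroup (Subtype p)).equivMapOfInjective ofSubtype ofSubtype_injective
  have e2 : alternatingGroup (Subtype p) ≃* alternatingGroup (Fin m) :=
    Equiv.altCongrHom (Fintype.equivFin (Subtype p))
  exact ⟨m, by omega, ⟨he.trans ((MulEquiv.subgroupCongr hKA).trans (e1.symm.trans e2))⟩⟩

end Cfsg.Agent.S2929
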