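import Cfsg.Statements.S2930
import Mathlib
import Cfsg.Agent.Lib.Perm.ThreeMinB
import Cfsg.Agent.Lib.Perm.AutA6Small
import Cfsg.Agent.Lib.Components.FStar
import Cfsg.Agent.S2119

set_option autoImplicit false
open Cfsg

namespace Cfsg.Agent.S2930

open Equiv Equiv.Perm
open Cfsg.Agent.Lib.Perm.AutA6Small
open Cfsg.Agent.Lib.Perm.ThreeMinA

/-- A 3-subgroup of `Aut(A₆)` has at most 18 elements. -/
theorem three_card_le (P : Subgroup (MulAut A6)) (hP : IsPGroup 3 P) : Nat.card P ≤ 18 := by
  classical
  obtain ⟨x', h1, h2, h3⟩ := exists_fix (r := 3) 3 P hP (by rw [card3]; norm_num)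
  have h1' : (x' : Perm (Fin 6)) ^ 3 = 1 := congrArg Subtype.val h1
  have h2' : (x' : Perm (Fin 6)) ≠ 1 := fun h => h2 (Subtype.ext h)
  rcases cycleType_three h1' h2' with h4 | h4
  · obtain ⟨σ, hσ⟩ := isConj_iff.mp (isConj_iff_cycleType_eq.mpr (h4.trans type_xc1.symm))
    have hb := card_le_of_fix sxc1 syc1 closure_c1 r0c1 r1c1 r2c1 P _ (fix_conj sxc1 hσ h3)
    rw [cdc1] at hb
    exact hb
  · obtain ⟨σ, hσ⟩ := isConj_iff.mp (isConj_iff_cycleType_eq.mpr (h4.trans type_xc2.symm))
    have hb := card_le_of_fix sxc2 syc2 closure_c2 r0c2 r1c2 r2c2 P _ (fix_conj sxc2 hσ h3)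
    rw [cdc2] at hb
    exact hb

/-- Let X be a finite 3-minimal group (a Sylow 3-subgroup is not normal and lies in a unique maximal subgroup) whose generalized Fitting subgroup is isomorphic to an alternating group of degree n ≥ 5. Then X = F*(X), and n = 6, n = 9, or n = 3ᵃ + 1 for some a ≥ 2. -/
theorem result {X : Type*} [Group X] [Finite X] (hX : Cfsg.IsPMinimal 3 X) (n : ℕ) (hn : 5 ≤ n) (hF : Nonempty (↥(Cfsg.generalizedFittingSubgroup X) ≃* ↥(alternatingGroup (Fin n)))) : Cfsg.generalizedFittingSubgroup X = ⊤ ∧ (n = 6 ∨ n = 9 ∨ ∃ a : ℕ, 2 ≤ a ∧ n = 3 ^ a + 1) := by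
  obtain ⟨e⟩ := hF
  set K := generalizedFittingSubgroup X with hK
  haveI hKN : K.Normal := inferInstance
  have hcardn : 4 ≤ Nat.card (Fin n) := by simp; omega
  -- the centralizer of `K` is trivial
  have hcent : ∀ x : X, x ∈ Subgroup.centralizer (K : Set X) → x = 1 := by
    intro x hx
    have hxK : x ∈ K := Cfsg.Agent.Lib.Components.FStar.centralizer_generalizedFitting_le hx
    have hz : e ⟨x, hxK⟩ ∈ Subgroup.center (alternatingGroup (Fin n)) := by
      rw [Subgroup.mem_center_iff]
      intro g
      obtain ⟨k, rfl⟩ := e.surjective g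
      rw [← map_mul, ← map_mul]
      congr 1
      apply Subtype.ext
      exact (Subgroup.mem_centralizer_iff.mp hx) k k.2
    rw [alternatingGroup.center_eq_bot hcardn, Subgroup.mem_bot] at hz
    have h1 : (⟨x, hxK⟩ : K) = 1 := by
      apply e.injective
      rw [hz, map_one]
    exact congrArg Subtype.val h1
  -- the embedding into the automorphism group
  let ρ : X →* MulAut (alternatingGroup (Fin n)) :=
    (MulAut.congr e).toMonoidHom.comp (MulAut.conjNormal : X →* MulAut K)
  have hρ : Function.Injective ρ := by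
    rw [injective_iff_map_eq_one]
    intro x hx
    have h1 : (MulAut.conjNormal x : MulAut K) = 1 := by
      apply (MulAut.congr e).injective
      rw [map_one]
      exact hx
    apply hcent
    rw [Subgroup.mem_centralizer_iff]
    intro k hk
    have h2 := congrArg (fun f : MulAut K => ((f ⟨k, hk⟩ : K) : X)) h1
    simp only [MulAut.conjNormal_apply, MulAut.one_apply] at h2
    rw [eq_comm, ← mul_inv_eq_iff_eq_mul]
    exact h2
  haveI : Nontrivial (Fin n) := Fin.nontrivial_iff_two_le.mpr (by omega)
  have hcardK : Nat.card K * 2 = n.factorial := by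
    rw [Nat.card_congr e.toEquiv, mul_comm, two_mul_nat_card_alternatingGroup, Nat.card_perm]
    simp
  have hidx := Subgroup.card_mul_index K
  -- the index of `K` is prime to 3
  have h3 : ¬ 3 ∣ K.index := by
    by_cases h6 : n = 6
    · subst h6
      intro hd
      have hK360 : Nat.card K = 360 := by
        rw [Nat.card_congr e.toEquiv]
        exact card_A6
      have h27 : 3 ^ 3 ∣ Nat.card X := by
        rw [← hidx, hK360]
        obtain ⟨k, hk⟩ := hd
        rw [hk]
        exact ⟨40 * k, by ring⟩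
      obtain ⟨P⟩ : Nonempty (Sylow 3 X) := inferInstance
      have hP := P.pow_dvd_card_of_pow_dvd_card h27
      have hmap : IsPGroup 3 ((P : Subgroup X).map ρ) := P.isPGroup'.map ρ
      have hle := three_card_le _ hmap
      have hcard : Nat.card ((P : Subgroup X).map ρ) = Nat.card (P : Subgroup X) :=
        (Nat.card_congr ((P : Subgroup X).equivMapOfInjective ρ hρ).toEquiv).symm
      rw [hcard] at hle
      have := Nat.le_of_dvd Nat.card_pos hP
      omega
    · have hb := (Cfsg.Agent.S2119.result n (by omega) h6)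
      have hc : Nat.card (MulAut (alternatingGroup (Fin n))) = n.factorial := by
        rw [← Nat.card_congr (Equiv.ofBijective _ hb), Nat.card_perm]
        simp
      have hle : Nat.card X ≤ n.factorial := by
        rw [← hc]
        exact Nat.card_le_card_of_injective ρ hρ
      have hpos : 0 < Nat.card K := Nat.card_pos
      have hidx2 : K.index ≤ 2 := by
        by_contra hgt
        push Not at hgt
        have : Nat.card K * 3 ≤ Nat.card K * K.index := Nat.mul_le_mul_left _ hgt
        omega
      intro hd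
      have hipos : 0 < K.index := Nat.pos_of_ne_zero (by
        intro h0
        rw [h0] at hidx
        have : 0 < Nat.card X := Nat.card_pos
        omega)
      have := Nat.le_of_dvd hipos hd
      omega
  -- the Frattini argument
  obtain ⟨S⟩ : Nonempty (Sylow 3 X) := inferInstance
  have hSK : (S : Subgroup X) ≤ K := by
    have hmap : IsPGroup 3 ((S : Subgroup X).map (QuotientGroup.mk' K)) := S.isPGroup'.map _
    obtain ⟨j, hj⟩ := IsPGroup.iff_card.mp hmap
    have hdv : Nat.card ((S : Subgroup X).map (QuotientGroup.mk' K)) ∣ K.index := by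
      rw [Subgroup.index_eq_card]
      exact Subgroup.card_subgroup_dvd_card _
    rw [hj] at hdv
    have hj0 : j = 0 := by
      by_contra hne
      exact h3 ((dvd_pow_self 3 hne).trans hdv)
    rw [hj0, pow_zero] at hj
    have hbot := Subgroup.card_eq_one.mp hj
    intro s hs
    have : QuotientGroup.mk' K s ∈ (S : Subgroup X).map (QuotientGroup.mk' K) := ⟨s, hs, rfl⟩
    rw [hbot, Subgroup.mem_bot] at this
    exact (QuotientGroup.eq_one_iff s).mp this
  have hfr : Subgroup.normalizer ((S : Subgroup X) : Set X) ⊔ K = ⊤ := S.normalizer_sup_eq_top' hSK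
  obtain ⟨hnn, M, ⟨hM1, hM2⟩, huniq⟩ := hX S
  have htop : K = ⊤ := by
    by_contra hne
    have hNne : Subgroup.normalizer ((S : Subgroup X) : Set X) ≠ ⊤ :=
      fun h => hnn (Subgroup.normalizer_eq_top_iff.mp h)
    obtain ⟨M₁, hM₁, hle₁⟩ := (eq_top_or_exists_le_coatom K).resolve_left hne
    obtain ⟨M₂, hM₂, hle₂⟩ := (eq_top_or_exists_le_coatom (Subgroup.normalizer ((S : Subgroup X) : Set X))).resolve_left hNne
    have e1 := huniq M₁ ⟨hM₁, hSK.trans hle₁⟩
    have e2 := huniq M₂ ⟨hM₂, Subgroup.le_normalizer.trans hle₂⟩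
    have hle : Subgroup.normalizer ((S : Subgroup X) : Set X) ⊔ K ≤ M := sup_le (e2 ▸ hle₂) (e1 ▸ hle₁)
    rw [hfr] at hle
    exact hM1.1 (top_le_iff.mp hle)
  refine ⟨htop, ?_⟩
  by_contra hex
  have hNP := NP_alt n hn hex
  have e' : X ≃* alternatingGroup (Fin n) :=
    (Subgroup.topEquiv.symm.trans (MulEquiv.subgroupCongr htop.symm)).trans e
  exact not_isPMinimal_of_NP (hNP.map e'.symm) hX

end Cfsg.Agent.S2930
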