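import Cfsg.Statements.S2939
import Mathlib
import Cfsg.Agent.Lib.Basic.StrongP
-- import your own Cfsg.Agent.* helpers here

set_option autoImplicit false
open Cfsg

namespace Cfsg.Agent.S2939

open Cfsg Subgroup

section

variable {G : Type*} [Group G]

theorem mem_scr (g x : G) (X : Subgroup G) : x ∈ subgroupConjRight g X ↔ g * x * g⁻¹ ∈ X := by
  constructor
  · rintro ⟨y, hy, rfl⟩
    have e : g * (MulAut.conj g⁻¹).toMonoidHom y * g⁻¹ = y := by
      simp [mul_assoc]
    rw [e]
    exact hy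
  · intro h
    exact ⟨_, h, by simp [mul_assoc]⟩

theorem scr_scr (g h : G) (X : Subgroup G) :
    subgroupConjRight h (subgroupConjRight g X) = subgroupConjRight (g * h) X := by
  ext y
  rw [mem_scr, mem_scr, mem_scr]
  have e : g * (h * y * h⁻¹) * g⁻¹ = g * h * y * (g * h)⁻¹ := by group
  rw [e]

theorem scr_one (X : Subgroup G) : subgroupConjRight (1 : G) X = X := by
  ext y
  rw [mem_scr]
  simp

theorem scr_self {x : G} {X : Subgroup G} (hx : x ∈ X) : subgroupConjRight x X = X := by
  ext y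
  rw [mem_scr]
  constructor
  · intro h
    have h1 := mul_mem (mul_mem (inv_mem hx) h) hx
    have e : x⁻¹ * (x * y * x⁻¹) * x = y := by group
    rwa [e] at h1
  · intro h
    exact mul_mem (mul_mem hx h) (inv_mem hx)

theorem mem_smul_scr {p : ℕ} [Fact p.Prime] (g : G) (S : Sylow p G) :
    ((g • S : Sylow p G) : Subgroup G) = subgroupConjRight g⁻¹ (S : Subgroup G) := by
  ext y
  rw [Cfsg.Agent.Lib.Basic.StrongP.mem_smul_sylow, mem_scr, inv_inv]

theorem scr_sylowMembers {p : ℕ} [Fact p.Prime] [Finite G] {𝓕 : Set (Subgroup G)} (h𝓕 : IsNormalSet 𝓕) (u : G) {X B : Subgroup G}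
    (hX : X ∈ sylowMembers p 𝓕 B) : subgroupConjRight u X ∈ sylowMembers p 𝓕 (subgroupConjRight u B) := by
  obtain ⟨hX𝓕, P, hP⟩ := hX
  refine ⟨h𝓕 X hX𝓕 u, ?_⟩
  let φ : G →* G := (MulAut.conj u⁻¹).toMonoidHom
  let ψ : X →* ↥(subgroupConjRight u X) := φ.subgroupMap X
  have hψ : Function.Surjective ψ := φ.subgroupMap_surjective X
  refine ⟨P.mapSurjective hψ, ?_⟩
  rw [Sylow.coe_mapSurjective, map_map]
  have e1 : (subgroupConjRight u X).subtype.comp ψ = φ.comp X.subtype := by
    ext y
    rfl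
  rw [e1, ← map_map, hP]
  exact map_inf _ _ _ (MulAut.conj u⁻¹).injective

theorem mem_conjRight (g : G) (A : Set G) {a : G} (ha : a ∈ A) : g⁻¹ * a * g ∈ conjRight g A :=
  ⟨a, ha, rfl⟩

/-- The inductive step for the forward direction. -/
theorem forward_aux {p : ℕ} [Fact p.Prime] [Finite G] {𝓕 : Set (Subgroup G)} (h𝓕 : IsNormalSet 𝓕) (S : Subgroup G) (A : Set G)
    {n : ℕ} (c : Fin (n + 1) → Subgroup G) (X : Fin n → Subgroup G) (x : Fin n → G) (h0 : c 0 = S)
    (hA : ∀ i : Fin n, A ⊆ (c i.succ : Set G) ∩ (X i : Set G))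
    (hstep : ∀ i : Fin n,
        X i ∈ sylowMembers p 𝓕 (c i.castSucc) ∧ X i ∈ sylowMembers p 𝓕 (c i.succ) ∧
        x i ∈ X i ∧ subgroupConjRight (x i) (c i.succ) = c i.castSucc) (j : Fin (n + 1)) :
    ∃ (m : ℕ) (Y : Fin m → Subgroup G) (y : Fin m → G),
      (∀ k : Fin m, Y k ∈ sylowMembers p 𝓕 S ∧ y k ∈ Y k) ∧
      subgroupConjRight (List.ofFn y).prod (c j) = S ∧
      ∀ k : Fin m, conjRight (((List.ofFn y).take (k.val + 1)).prod) A ⊆ (S : Set G) ∩ (Y k : Set G) := by
  induction j using Fin.induction with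
  | zero =>
    refine ⟨0, Fin.elim0, Fin.elim0, fun k => k.elim0, ?_, fun k => k.elim0⟩
    rw [h0]
    simp [scr_one]
  | succ i ih =>
    obtain ⟨m, Y, y, hY, hu, hB⟩ := ih
    obtain ⟨h1, h2, h3, h4⟩ := hstep i
    set u := (List.ofFn y).prod with hu_def
    have hof : List.ofFn (Fin.snoc (α := fun _ => G) y (u⁻¹ * x i * u)) = (List.ofFn y).concat (u⁻¹ * x i * u) := by
      rw [List.ofFn_succ']
      simp
    have hprod : (List.ofFn (Fin.snoc (α := fun _ => G) y (u⁻¹ * x i * u))).prod = x i * u := by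
      rw [hof, List.concat_eq_append, List.prod_append, List.prod_singleton, ← hu_def]
      group
    refine ⟨m + 1, Fin.snoc (α := fun _ => Subgroup G) Y (subgroupConjRight u (X i)),
      Fin.snoc (α := fun _ => G) y (u⁻¹ * x i * u), ?_, ?_, ?_⟩
    · intro k
      induction k using Fin.lastCases with
      | last =>
        rw [Fin.snoc_last, Fin.snoc_last]
        refine ⟨?_, ?_⟩
        · have h5 := scr_sylowMembers h𝓕 u h1
          rwa [hu] at h5
        · rw [mem_scr]
          have e : u * (u⁻¹ * x i * u) * u⁻¹ = x i := by group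
          rwa [e]
      | cast k =>
        rw [Fin.snoc_castSucc, Fin.snoc_castSucc]
        exact hY k
    · rw [hprod, ← scr_scr, h4, hu]
    · intro k
      induction k using Fin.lastCases with
      | last =>
        rw [Fin.snoc_last]
        have hlen : (List.ofFn (Fin.snoc (α := fun _ => G) y (u⁻¹ * x i * u))).take ((Fin.last m).val + 1) =
            List.ofFn (Fin.snoc (α := fun _ => G) y (u⁻¹ * x i * u)) := by
          apply List.take_of_length_le
          simp
        rw [hlen, hprod]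
        rintro _ ⟨a, ha, rfl⟩
        obtain ⟨ha1, ha2⟩ := hA i ha
        simp only [Set.mem_inter_iff, SetLike.mem_coe] at ha1 ha2 ⊢
        have h6 : (x i)⁻¹ * a * x i ∈ c i.castSucc := by
          rw [← h4, mem_scr]
          have e : x i * ((x i)⁻¹ * a * x i) * (x i)⁻¹ = a := by group
          rwa [e]
        have h7 : (x i)⁻¹ * a * x i ∈ X i := mul_mem (mul_mem (inv_mem h3) ha2) h3
        constructor
        · rw [← hu, mem_scr]
          have e : u * ((x i * u)⁻¹ * a * (x i * u)) * u⁻¹ = (x i)⁻¹ * a * x i := by group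
          rwa [e]
        · rw [mem_scr]
          have e : u * ((x i * u)⁻¹ * a * (x i * u)) * u⁻¹ = (x i)⁻¹ * a * x i := by group
          rwa [e]
      | cast k =>
        rw [Fin.snoc_castSucc]
        have htake : (List.ofFn (Fin.snoc (α := fun _ => G) y (u⁻¹ * x i * u))).take (k.castSucc.val + 1) =
            (List.ofFn y).take (k.val + 1) := by
          rw [hof, List.concat_eq_append, Fin.val_castSucc]
          apply List.take_append_of_le_length
          simp
        rw [htake]
        exact hB k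

end


/-- Let p be a prime dividing the order of the finite group G and 𝓕 a family of subgroups of G closed under conjugation, with conjugates taken as X^g = g⁻¹Xg. Then 𝓕 controls Sylow p-intersections in G (any two distinct Sylow p-subgroups S and T with S ∩ T ≠ 1 are joined by a chain S = S₀, S₁, …, Sₙ = T of Sylow p-subgroups where, for each i, some member Xᵢ of 𝓕 meets both S_{i-1} and Sᵢ in Sylow p-subgroups of Xᵢ, satisfies S ∩ T ≤ Sᵢ ∩ Xᵢ, and contains an element xᵢ with Sᵢ^{xᵢ} = S_{i-1}) if and only if 𝓕 strongly controls p-fusion in G (whenever A is a subset of a Sylow p-subgroup S, A contains an element other than 1, and A^g ⊆ S, the element g factorises as g = y₁⋯yₙy with y ∈ N_G(S) and each yᵢ in a member Yᵢ of 𝓕 that meets S in a Sylow p-subgroup of Yᵢ, with A^{y₁⋯yᵢ} ⊆ S ∩ Yᵢ for each i). -/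
theorem result {G : Type*} [Group G] [Finite G] {p : ℕ} [Fact p.Prime] (hdiv : p ∣ Nat.card G) (𝓕 : Set (Subgroup G)) (h𝓕 : Cfsg.IsNormalSet 𝓕) : Cfsg.ControlsSylowIntersections p 𝓕 ↔ Cfsg.FamilyStronglyControlsFusion p 𝓕 := by
  constructor
  · intro hC S A g hAS ⟨a, haA, ha1⟩ hgA
    set T : Sylow p G := g • S with hT
    have hAT : A ⊆ ((T : Subgroup G) : Set G) := by
      intro b hb
      rw [SetLike.mem_coe, hT, Cfsg.Agent.Lib.Basic.StrongP.mem_smul_sylow]
      exact hgA (mem_conjRight g A hb)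
    by_cases hST : S = T
    · refine ⟨0, Fin.elim0, Fin.elim0, g, ?_, fun k => k.elim0, by simp, fun k => k.elim0⟩
      rw [hT] at hST
      exact (Sylow.smul_eq_iff_mem_normalizer.1 hST.symm)
    · have hne : (S : Subgroup G) ⊓ (T : Subgroup G) ≠ ⊥ := by
        intro h0
        have h1 : a ∈ (S : Subgroup G) ⊓ (T : Subgroup G) := mem_inf.2 ⟨hAS haA, hAT haA⟩
        rw [h0, mem_bot] at h1
        exact ha1 h1
      obtain ⟨n, c, X, x, h0, hl, hs⟩ := hC S T hST hne
      have hAin : ∀ i, A ⊆ ((c i.succ : Subgroup G) : Set G) ∩ (X i : Set G) := by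
        intro i b hb
        exact (hs i).2.2.2.2 (mem_inf.2 ⟨hAS hb, hAT hb⟩)
      obtain ⟨m, Y, y, hY, hu, hB⟩ := forward_aux (p := p) h𝓕 (S : Subgroup G) A (fun i => (c i : Subgroup G)) X x
        (by rw [h0]) hAin (fun i => ⟨(hs i).1, (hs i).2.1, (hs i).2.2.1, (hs i).2.2.2.1⟩) (Fin.last n)
      simp only [hl] at hu
      set u := (List.ofFn y).prod with hu_def
      refine ⟨m, Y, y, u⁻¹ * g, ?_, hY, ?_, hB⟩
      · rw [mem_set_normalizer_iff]
        intro h
        rw [SetLike.mem_coe, SetLike.mem_coe]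
        have e1 : ∀ z, z ∈ (S : Subgroup G) ↔ g⁻¹ * (u * z * u⁻¹) * g ∈ (S : Subgroup G) := by
          intro z
          conv_lhs => rw [← hu]
          rw [mem_scr, hT, Cfsg.Agent.Lib.Basic.StrongP.mem_smul_sylow]
        rw [e1 (u⁻¹ * g * h * (u⁻¹ * g)⁻¹)]
        have e : g⁻¹ * (u * (u⁻¹ * g * h * (u⁻¹ * g)⁻¹) * u⁻¹) * g = h := by group
        rw [e]
      · rw [← hu_def]
        group
  · intro hC S T hST hne
    obtain ⟨g, rfl⟩ := MulAction.exists_smul_eq G S T
    set T : Sylow p G := g • S with hT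
    obtain ⟨a, ha, ha1⟩ : ∃ a ∈ (((S : Subgroup G) ⊓ (T : Subgroup G) : Subgroup G) : Set G), a ≠ 1 := by
      by_contra hcon
      push Not at hcon
      apply hne
      rw [eq_bot_iff_forall]
      exact fun z hz => hcon z hz
    have hsub : conjRight g (((S : Subgroup G) ⊓ (T : Subgroup G) : Subgroup G) : Set G) ⊆ (S : Subgroup G) := by
      rintro _ ⟨b, hb, rfl⟩
      have h1 := (mem_inf.1 hb).2
      rw [hT, Cfsg.Agent.Lib.Basic.StrongP.mem_smul_sylow] at h1
      exact h1
    obtain ⟨n, Y, y, y₀, hy₀, hY, hg, hB⟩ := hC S _ g (fun b hb => (mem_inf.1 hb).1) ⟨a, ha, ha1⟩ hsub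
    let u : ℕ → G := fun i => ((List.ofFn y).take i).prod
    have hu0 : u 0 = 1 := by simp [u]
    have hus : ∀ i : Fin n, u (i.val + 1) = u i.val * y i := by
      intro i
      have hlen : i.val < (List.ofFn y).length := by simp
      simp only [u]
      rw [List.prod_take_succ _ _ hlen]
      simp
    have hun : u n = (List.ofFn y).prod := by
      simp only [u]
      rw [List.take_of_length_le (by simp)]
    have hy₀S : y₀ • S = S := Sylow.smul_eq_iff_mem_normalizer.2 hy₀
    refine ⟨n, fun i => u i.val • S, fun i => subgroupConjRight (u i.val)⁻¹ (Y i),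
      fun i => u i.val * y i * (u i.val)⁻¹, ?_, ?_, ?_⟩
    · simp [hu0]
    · simp only [Fin.val_last]
      rw [hT, hg, hun, mul_smul, hy₀S]
    · intro i
      have hYi := hY i
      obtain ⟨hYS, hyY⟩ := hYi
      have hX1 : subgroupConjRight (u i.val)⁻¹ (Y i) ∈ sylowMembers p 𝓕 ((u i.val • S : Sylow p G) : Subgroup G) := by
        rw [mem_smul_scr]
        exact scr_sylowMembers h𝓕 _ hYS
      have hX2 : subgroupConjRight (u i.val)⁻¹ (Y i) ∈ sylowMembers p 𝓕 ((u (i.val + 1) • S : Sylow p G) : Subgroup G) := by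
        rw [mem_smul_scr]
        have h1 := scr_sylowMembers h𝓕 (u (i.val + 1))⁻¹ hYS
        have e1 : subgroupConjRight (u (i.val + 1))⁻¹ (Y i) = subgroupConjRight (u i.val)⁻¹ (Y i) := by
          rw [hus, mul_inv_rev, ← scr_scr, scr_self (inv_mem hyY)]
        rwa [e1] at h1
      refine ⟨hX1, ?_, ?_, ?_, ?_⟩
      · simpa [Fin.val_succ] using hX2
      · rw [mem_scr]
        have e : (u i.val)⁻¹ * (u i.val * y i * (u i.val)⁻¹) * ((u i.val)⁻¹)⁻¹ = y i := by group
        rwa [e]
      · have e0 : (i.succ).val = i.val + 1 := rfl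
        simp only [Fin.val_succ, Fin.val_castSucc]
        ext z
        rw [mem_scr, Cfsg.Agent.Lib.Basic.StrongP.mem_smul_sylow, Cfsg.Agent.Lib.Basic.StrongP.mem_smul_sylow, hus]
        have e : (u i.val * y i)⁻¹ * (u i.val * y i * (u i.val)⁻¹ * z * (u i.val * y i * (u i.val)⁻¹)⁻¹) * (u i.val * y i) = (u i.val)⁻¹ * z * u i.val := by group
        rw [e]
      · intro z hz
        have hk := hB i (mem_conjRight _ _ hz)
        simp only [Set.mem_inter_iff, SetLike.mem_coe] at hk
        refine mem_inf.2 ⟨?_, ?_⟩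
        · simp only [Fin.val_succ]
          rw [Cfsg.Agent.Lib.Basic.StrongP.mem_smul_sylow]
          exact hk.1
        · rw [mem_scr]
          have h2 := hk.2
          change (u (i.val + 1))⁻¹ * z * u (i.val + 1) ∈ Y i at h2
          rw [hus] at h2
          have h3 := mul_mem (mul_mem hyY h2) (inv_mem hyY)
          have e : y i * ((u i.val * y i)⁻¹ * z * (u i.val * y i)) * (y i)⁻¹ = (u i.val)⁻¹ * z * ((u i.val)⁻¹)⁻¹ := by group
          rwa [e] at h3

end Cfsg.Agent.S2939
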