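import Cfsg.Statements.S2940
import Cfsg.Agent.Lib.Basic.SylowUtil
import Mathlib

set_option autoImplicit false
open Cfsg

namespace Cfsg.Agent.S2940

theorem mem_conjRight {G : Type*} [Group G] (g : G) (X : Subgroup G) (x : G) :
    x ∈ Cfsg.subgroupConjRight g X ↔ g * x * g⁻¹ ∈ X := by
  unfold Cfsg.subgroupConjRight
  constructor
  · rintro ⟨y, hy, rfl⟩
    simpa [mul_assoc] using hy
  · intro h
    exact ⟨_, h, by simp [mul_assoc]⟩

open scoped Pointwise in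
/-- If a Sylow `p`-subgroup `S` lies in `G₁` and `G₂` with `G = G₁G₂`, then for each `g` some Sylow `p`-subgroup `U` satisfies `S ∩ S^g ≤ U ≤ G₁ ∩ G₂^g`. -/
theorem result {G : Type*} [Group G] [Finite G] {p : ℕ} [Fact p.Prime] (S : Sylow p G) (G₁ G₂ : Subgroup G) (h1 : (S : Subgroup G) ≤ G₁) (h2 : (S : Subgroup G) ≤ G₂) (hfact : ∀ g : G, ∃ g₁ ∈ G₁, ∃ g₂ ∈ G₂, g = g₁ * g₂) (g : G) : ∃ U : Sylow p G, (S : Subgroup G) ⊓ Cfsg.subgroupConjRight g (S : Subgroup G) ≤ (U : Subgroup G) ∧ (U : Subgroup G) ≤ G₁ ⊓ Cfsg.subgroupConjRight g G₂ := by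
  obtain ⟨a, ha, b, hb, hab⟩ := hfact g⁻¹
  set u := a⁻¹ with hu
  set v := b⁻¹ with hv
  have huG : u ∈ G₁ := G₁.inv_mem ha
  have hvG : v ∈ G₂ := G₂.inv_mem hb
  have hg : g = v * u := by
    rw [hu, hv, ← mul_inv_rev, ← hab, inv_inv]
  set K := G₁ ⊓ Cfsg.subgroupConjRight g G₂ with hK
  -- a full Sylow subgroup lies in K
  have hS' : ((u⁻¹ • S : Sylow p G) : Subgroup G) ≤ K := by
    intro x hx
    rw [Sylow.coe_subgroup_smul, Subgroup.mem_pointwise_smul_iff_inv_smul_mem] at hx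
    have hy : u * x * u⁻¹ ∈ (S : Subgroup G) := by
      simpa [MulAut.smul_def, MulAut.conj_apply] using hx
    refine ⟨?_, ?_⟩
    · have := G₁.mul_mem (G₁.mul_mem (G₁.inv_mem huG) (h1 hy)) huG
      have e : u⁻¹ * (u * x * u⁻¹) * u = x := by group
      rwa [e] at this
    · apply (mem_conjRight _ _ _).mpr
      rw [hg]
      have := G₂.mul_mem (G₂.mul_mem hvG (h2 hy)) (G₂.inv_mem hvG)
      have e : v * (u * x * u⁻¹) * v⁻¹ = v * u * x * (v * u)⁻¹ := by group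
      rwa [e] at this
  have hidx : ¬ p ∣ K.index := by
    intro hdvd
    exact (u⁻¹ • S : Sylow p G).not_dvd_index (hdvd.trans (Subgroup.index_dvd_of_le hS'))
  have hle : (S : Subgroup G) ⊓ Cfsg.subgroupConjRight g (S : Subgroup G) ≤ K := by
    rintro x ⟨hx1, hx2⟩
    refine ⟨h1 hx1, ?_⟩
    exact (mem_conjRight _ _ _).mpr (h2 ((mem_conjRight _ _ _).mp hx2))
  have hpg : IsPGroup p ↥(((S : Subgroup G) ⊓ Cfsg.subgroupConjRight g (S : Subgroup G)).subgroupOf K) := by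
    have : IsPGroup p ↥((S : Subgroup G) ⊓ Cfsg.subgroupConjRight g (S : Subgroup G)) :=
      S.isPGroup'.to_le inf_le_left
    exact this.comap_of_injective K.subtype K.subtype_injective
  obtain ⟨W, hW⟩ := hpg.exists_le_sylow
  obtain ⟨U, hU⟩ := Cfsg.Agent.Lib.Basic.SylowUtil.sylow_map_of_not_dvd_index hidx W
  refine ⟨U, ?_, ?_⟩
  · rw [hU]
    intro x hx
    exact ⟨⟨x, hle hx⟩, hW (by rw [Subgroup.mem_subgroupOf]; exact hx), rfl⟩
  · rw [hU]
    rintro _ ⟨y, _, rfl⟩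
    exact y.2

end Cfsg.Agent.S2940
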