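import Cfsg.Statements.S2955
import Mathlib
import Cfsg.Agent.Lib.Basic.StrongP
-- import your own Cfsg.Agent.* helpers here

set_option autoImplicit false
open Cfsg

namespace Cfsg.Agent.S2955


open Cfsg.Agent.Lib.Basic.StrongP in
/-- `sylowMembers` is compatible with conjugation. -/
theorem sylowMembers_conj {G : Type*} [Group G] [Finite G] (p : ℕ) [Fact p.Prime]
    {𝓕 : Set (Subgroup G)} (h𝓕 : Cfsg.IsNormalSet 𝓕) (g : G) {T X : Subgroup G}
    (hX : X ∈ Cfsg.sylowMembers p 𝓕 T) :
    Cfsg.subgroupConjRight g X ∈ Cfsg.sylowMembers p 𝓕 (Cfsg.subgroupConjRight g T) := by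
  refine ⟨h𝓕 X hX.1 g, ?_⟩
  obtain ⟨P, hP⟩ := hX.2
  let e : X ≃* ↥(X.map (MulAut.conj g⁻¹).toMonoidHom) := (MulAut.conj g⁻¹).subgroupMap X
  have he : Function.Surjective e.toMonoidHom := e.surjective
  refine ⟨Sylow.mapSurjective he P, ?_⟩
  have hcomp : (X.map (MulAut.conj g⁻¹).toMonoidHom).subtype.comp e.toMonoidHom =
      (MulAut.conj g⁻¹).toMonoidHom.comp X.subtype := by
    ext x
    rfl
  show Subgroup.map (X.map (MulAut.conj g⁻¹).toMonoidHom).subtype ((P : Subgroup X).map e.toMonoidHom) = _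
  rw [Subgroup.map_map, hcomp, ← Subgroup.map_map, hP]
  exact Subgroup.map_inf _ _ _ (MulAut.conj g⁻¹).injective

/-- Let p be a prime dividing the order of the finite group G and 𝓕 a conjugation-closed family of subgroups that controls Sylow p-intersections in G. Suppose the Sylow p-subgroups of G are chain-connected: any two of them are joined by a chain of Sylow p-subgroups, consecutive ones distinct with nontrivial intersection, all containing the intersection of the two ends (equivalently, the graph on the Sylow p-subgroups whose edges are the distinct pairs meeting nontrivially is connected). Then for every Sylow p-subgroup S, G is generated by N_G(S) together with the members of 𝓕 that meet S in a Sylow p-subgroup of themselves. -/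
theorem result {G : Type*} [Group G] [Finite G] (p : ℕ) [Fact p.Prime] (hdiv : p ∣ Nat.card G)
    (𝓕 : Set (Subgroup G)) (h𝓕 : Cfsg.IsNormalSet 𝓕) (hc : Cfsg.ControlsSylowIntersections p 𝓕)
    (hconn : Cfsg.IsSylowChainConnected p G) (S : Sylow p G) :
    (⨆ X ∈ Cfsg.sylowMembers p 𝓕 (S : Subgroup G), X) ⊔ Subgroup.normalizer ((S : Subgroup G) : Set G) = ⊤ := by
  classical
  set H := (⨆ X ∈ Cfsg.sylowMembers p 𝓕 (S : Subgroup G), X) ⊔
    Subgroup.normalizer ((S : Subgroup G) : Set G) with hH
  have hle1 : ∀ X ∈ Cfsg.sylowMembers p 𝓕 (S : Subgroup G), X ≤ H := fun X hX =>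
    le_trans (le_iSup₂ (f := fun X (_ : X ∈ Cfsg.sylowMembers p 𝓕 (S : Subgroup G)) => X) X hX)
      le_sup_left
  have hle2 : Subgroup.normalizer ((S : Subgroup G) : Set G) ≤ H := le_sup_right
  have hconjS : ∀ (h : G) (T : Sylow p G), Cfsg.subgroupConjRight h ((h • T : Sylow p G) : Subgroup G) = T := by
    intro h T
    ext x
    unfold Cfsg.subgroupConjRight
    rw [Cfsg.Agent.Lib.Basic.StrongP.mem_map_conj, Cfsg.Agent.Lib.Basic.StrongP.mem_smul_sylow]
    have : h⁻¹ * (h⁻¹⁻¹ * x * h⁻¹) * h = x := by group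
    rw [this]
  have hstep1 : ∀ h ∈ H, ∀ X, X ∈ Cfsg.sylowMembers p 𝓕 ((h • S : Sylow p G) : Subgroup G) → X ≤ H := by
    intro h hh X hX
    have h1 := sylowMembers_conj p h𝓕 h hX
    rw [hconjS] at h1
    have h2 := hle1 _ h1
    intro x hx
    have h3 : h⁻¹ * x * h ∈ H := by
      apply h2
      unfold Cfsg.subgroupConjRight
      rw [Cfsg.Agent.Lib.Basic.StrongP.mem_map_conj]
      have : h⁻¹⁻¹ * (h⁻¹ * x * h) * h⁻¹ = x := by group
      rw [this]
      exact hx
    have e : x = h * (h⁻¹ * x * h) * h⁻¹ := by group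
    rw [e]
    exact mul_mem (mul_mem hh h3) (inv_mem hh)
  have hstep2 : ∀ T T' : Sylow p G, (∃ h ∈ H, h • S = T) → T ≠ T' →
      (T : Subgroup G) ⊓ (T' : Subgroup G) ≠ ⊥ → ∃ h ∈ H, h • S = T' := by
    intro T T' hT hne hinter
    obtain ⟨n, c, X, x, h0, hlast, hall⟩ := hc T T' hne hinter
    have key : ∀ i : Fin (n + 1), ∃ h ∈ H, h • S = c i := by
      intro i
      induction i using Fin.induction with
      | zero => rw [h0]; exact hT
      | succ i ih =>
        obtain ⟨h, hh, hhc⟩ := ih
        obtain ⟨hm1, hm2, hxX, hcj, -⟩ := hall i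
        rw [← hhc] at hm1
        have hXH := hstep1 h hh _ hm1
        refine ⟨x i * h, mul_mem (hXH hxX) hh, ?_⟩
        rw [mul_smul, hhc]
        apply Sylow.ext
        ext y
        rw [Cfsg.Agent.Lib.Basic.StrongP.mem_smul_sylow, ← hcj]
        unfold Cfsg.subgroupConjRight
        rw [Cfsg.Agent.Lib.Basic.StrongP.mem_map_conj]
        have : (x i)⁻¹⁻¹ * ((x i)⁻¹ * y * x i) * (x i)⁻¹ = y := by group
        rw [this]
    have := key (Fin.last n)
    rwa [hlast] at this
  have hstep3 : ∀ T : Sylow p G, ∃ h ∈ H, h • S = T := by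
    intro T
    obtain ⟨n, c, h0, hlast, -, hall⟩ := hconn S T
    have key : ∀ i : Fin (n + 1), ∃ h ∈ H, h • S = c i := by
      intro i
      induction i using Fin.induction with
      | zero => rw [h0]; exact ⟨1, one_mem _, one_smul _ _⟩
      | succ i ih =>
        obtain ⟨hi1, hi2⟩ := hall i
        exact hstep2 _ _ ih hi1 hi2
    have := key (Fin.last n)
    rwa [hlast] at this
  rw [eq_top_iff]
  intro g _
  obtain ⟨h, hh, hgS⟩ := hstep3 (g • S)
  have hN : h⁻¹ * g ∈ Subgroup.normalizer ((S : Subgroup G) : Set G) := by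
    exact Sylow.smul_eq_iff_mem_normalizer.mp (by rw [mul_smul, ← hgS, inv_smul_smul])
  have e : g = h * (h⁻¹ * g) := by group
  rw [e]
  exact mul_mem hh (hle2 hN)

end Cfsg.Agent.S2955
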