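import Cfsg.Statements.S2957
import Mathlib
import Cfsg.Agent.Lib.Basic.StrongP
import Cfsg.Agent.Lib.Basic.SylowInto
-- import your own Cfsg.Agent.* helpers here

set_option autoImplicit false
open Cfsg

namespace Cfsg.Agent.S2957

open Cfsg Subgroup
open Relation (ReflTransGen)
open Cfsg.Agent.Lib.Basic.StrongP (mem_smul_sylow)

theorem aux_mem_map_conj {G : Type*} [Group G] (Q : Subgroup G) (g x : G) :
    x ∈ Q.map (MulAut.conj g).toMonoidHom ↔ g⁻¹ * x * g ∈ Q := by
  constructor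
  · rintro ⟨y, hy, rfl⟩
    simpa [mul_assoc] using hy
  · intro h
    exact ⟨_, h, by simp [mul_assoc]⟩

theorem aux_norm_conj {G : Type*} [Group G] (F : Subgroup G) (x g : G)
    (hx : x ∈ normalizer (F : Set G)) :
    g * x * g⁻¹ ∈ normalizer ((F.map (MulAut.conj g).toMonoidHom : Subgroup G) : Set G) := by
  rw [mem_set_normalizer_iff]
  intro h
  rw [SetLike.mem_coe, SetLike.mem_coe, aux_mem_map_conj, aux_mem_map_conj]
  have h1 := mem_set_normalizer_iff.1 hx (g⁻¹ * h * g)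
  rw [SetLike.mem_coe, SetLike.mem_coe] at h1
  rw [h1]
  have e : g⁻¹ * (g * x * g⁻¹ * h * (g * x * g⁻¹)⁻¹) * g = x * (g⁻¹ * h * g) * x⁻¹ := by group
  rw [e]

theorem chain_of_rtg {α β γ : Type*} (R : α → α → β → γ → Prop) {A B : α}
    (h : ReflTransGen (fun a b => ∃ X x, R a b X x) A B) :
    ∃ (n : ℕ) (c : Fin (n + 1) → α) (X : Fin n → β) (x : Fin n → γ),
      c 0 = A ∧ c (Fin.last n) = B ∧ ∀ i : Fin n, R (c i.castSucc) (c i.succ) (X i) (x i) := by
  induction h with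
  | refl => exact ⟨0, fun _ => A, Fin.elim0, Fin.elim0, rfl, rfl, fun i => i.elim0⟩
  | @tail b C _ hbc ih =>
    obtain ⟨n, c, X, x, h0, hl, hs⟩ := ih
    obtain ⟨X₀, x₀, hr⟩ := hbc
    refine ⟨n + 1, Fin.snoc (α := fun _ => α) c C, Fin.snoc (α := fun _ => β) X X₀,
      Fin.snoc (α := fun _ => γ) x x₀, ?_, ?_, ?_⟩
    · have e : (0 : Fin (n + 2)) = Fin.castSucc 0 := rfl
      rw [e, Fin.snoc_castSucc]
      exact h0
    · rw [Fin.snoc_last]
    · intro i
      induction i using Fin.lastCases with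
      | last =>
        rw [Fin.snoc_castSucc, Fin.succ_last, Fin.snoc_last, Fin.snoc_last, Fin.snoc_last, hl]
        exact hr
      | cast j =>
        rw [Fin.snoc_castSucc, Fin.succ_castSucc, Fin.snoc_castSucc, Fin.snoc_castSucc, Fin.snoc_castSucc]
        exact hs j

section

variable {G : Type*} [Group G] [Finite G] {p : ℕ} [Fact p.Prime]

/-- One step of a chain, at the level of `G`. -/
def Step (f : Subgroup G → Set (Subgroup G)) (D : Subgroup G) (A B : Sylow p G) : Prop :=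
  ∃ (P : Sylow p G) (F : Subgroup G) (x : G), F ∈ f (P : Subgroup G) ∧ x ∈ normalizer (F : Set G) ∧
    (A : Subgroup G) ≤ normalizer (F : Set G) ∧ (B : Subgroup G) ≤ normalizer (F : Set G) ∧
    x⁻¹ • B = A ∧ D ≤ (B : Subgroup G)

theorem Step.conj {f : Subgroup G → Set (Subgroup G)} (hf : IsNormalizerFunctor p f)
    {D : Subgroup G} {A B : Sylow p G} (h : Step f D A B) (g : G) :
    Step f (D.map (MulAut.conj g).toMonoidHom) (g • A) (g • B) := by
  obtain ⟨P, F, x, hF, hx, hA, hB, he, hD⟩ := h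
  have hmemN : ∀ (Q : Sylow p G), (Q : Subgroup G) ≤ normalizer (F : Set G) →
      ((g • Q : Sylow p G) : Subgroup G) ≤
        normalizer ((F.map (MulAut.conj g).toMonoidHom : Subgroup G) : Set G) := by
    intro Q hQ y hy
    rw [mem_smul_sylow] at hy
    have h1 := aux_norm_conj F _ g (hQ hy)
    have e : g * (g⁻¹ * y * g) * g⁻¹ = y := by group
    rwa [e] at h1
  refine ⟨g • P, F.map (MulAut.conj g).toMonoidHom, g * x * g⁻¹, ?_, aux_norm_conj F x g hx,
    hmemN A hA, hmemN B hB, ?_, ?_⟩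
  · have h1 := (hf P P.2).2 g
    have h2 : ((g • P : Sylow p G) : Subgroup G) = (P : Subgroup G).map (MulAut.conj g).toMonoidHom := by
      ext y
      rw [mem_smul_sylow, aux_mem_map_conj]
    rw [h2, h1]
    exact ⟨F, hF, rfl⟩
  · rw [← he, ← mul_smul, ← mul_smul]
    congr 1
    group
  · rintro _ ⟨d, hd, rfl⟩
    rw [mem_smul_sylow]
    have e : g⁻¹ * ((MulAut.conj g).toMonoidHom d) * g = d := by
      simp [mul_assoc]
    rw [e]
    exact hD hd

theorem link_conj {f : Subgroup G → Set (Subgroup G)} (hf : IsNormalizerFunctor p f)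
    {D : Subgroup G} {A B : Sylow p G} (h : ReflTransGen (Step f D) A B) (g : G) :
    ReflTransGen (Step f (D.map (MulAut.conj g).toMonoidHom)) (g • A) (g • B) :=
  ReflTransGen.lift (fun Q : Sylow p G => g • Q) (fun _ _ h' => Step.conj hf h' g) _ _ h

theorem exists_up (S : Sylow p G) {M : Subgroup G} (hS : (S : Subgroup G) ≤ M) (Q : Sylow p M) :
    ∃ Q' : Sylow p G, (Q : Subgroup M).map M.subtype = Q' := by
  obtain ⟨m, hm⟩ := MulAction.exists_smul_eq M (S.subtype hS) Q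
  refine ⟨(m : G) • S, ?_⟩
  rw [← hm]
  ext y
  constructor
  · rintro ⟨z, hz, rfl⟩
    rw [mem_smul_sylow]
    have h1 := (mem_smul_sylow m (S.subtype hS) z).1 hz
    rw [Sylow.coe_subtype, mem_subgroupOf] at h1
    simpa using h1
  · intro hy
    rw [mem_smul_sylow] at hy
    have hyM : y ∈ M := by
      have h1 := hS hy
      have h2 := mul_mem (mul_mem m.2 h1) (inv_mem m.2)
      have e : (m : G) * ((m : G)⁻¹ * y * m) * (m : G)⁻¹ = y := by group
      rwa [e] at h2
    refine ⟨⟨y, hyM⟩, ?_, rfl⟩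
    rw [SetLike.mem_coe, mem_smul_sylow, Sylow.coe_subtype, mem_subgroupOf]
    simpa using hy

theorem sylow_le_of_member {Γ : Type*} [Group Γ] [Finite Γ] (X : Subgroup Γ) (P Q : Sylow p Γ)
    (hP : (P : Subgroup Γ) ≤ X) (R : Sylow p X)
    (hR : (R : Subgroup X).map X.subtype = (Q : Subgroup Γ) ⊓ X) : (Q : Subgroup Γ) ≤ X := by
  have h1 : Nat.card ((P.subtype hP : Sylow p X) : Subgroup X) = Nat.card P := by
    rw [Sylow.coe_subtype]
    exact Nat.card_congr (subgroupOfEquivOfLe hP).toEquiv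
  have h2 : Nat.card R = Nat.card ((P.subtype hP : Sylow p X) : Subgroup X) :=
    Nat.card_congr (Sylow.equiv R (P.subtype hP)).toEquiv
  have h3 : Nat.card ↥((Q : Subgroup Γ) ⊓ X) = Nat.card R := by
    rw [← hR]
    exact card_map_of_injective X.subtype_injective
  have h4 : Nat.card Q = Nat.card P := Nat.card_congr (Sylow.equiv Q P).toEquiv
  have h5 : (Q : Subgroup Γ) ⊓ X = Q := eq_of_le_of_card_ge inf_le_left (by omega)
  exact inf_eq_left.1 h5

theorem member_of_le {Γ : Type*} [Group Γ] [Finite Γ] (X : Subgroup Γ) (Q : Sylow p Γ)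
    (hQ : (Q : Subgroup Γ) ≤ X) : ∃ R : Sylow p X, (R : Subgroup X).map X.subtype = (Q : Subgroup Γ) ⊓ X := by
  refine ⟨Q.subtype hQ, ?_⟩
  rw [Sylow.coe_subtype, map_subgroupOf_eq_of_le hQ, inf_eq_left.2 hQ]

theorem lift {f : Subgroup G → Set (Subgroup G)} (hf : IsNormalizerFunctor p f) (S : Sylow p G)
    {M : Subgroup G} (hS : (S : Subgroup G) ≤ M) (hr : IsFunctorRegular p f M) (A B : Sylow p G)
    (hA : (A : Subgroup G) ≤ M) (hB : (B : Subgroup G) ≤ M) (D : Subgroup G)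
    (hDA : D ≤ (A : Subgroup G)) (hDB : D ≤ (B : Subgroup G)) (hne : D ≠ ⊥) :
    ReflTransGen (Step f D) A B := by
  classical
  by_cases hAB : A = B
  · rw [hAB]
  have hup := exists_up (p := p) S hS
  choose up hup using hup
  have hupA : up (A.subtype hA) = A := Sylow.ext (by
    rw [← hup, Sylow.coe_subtype, map_subgroupOf_eq_of_le hA])
  have hupB : up (B.subtype hB) = B := Sylow.ext (by
    rw [← hup, Sylow.coe_subtype, map_subgroupOf_eq_of_le hB])
  have hmemup : ∀ (Q : Sylow p M) (y : M), (y : G) ∈ (up Q : Subgroup G) ↔ y ∈ (Q : Subgroup M) := by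
    intro Q y
    rw [← hup]
    constructor
    · rintro ⟨z, hz, e⟩
      have e' : z = y := Subtype.ext e
      rwa [e'] at hz
    · intro h
      exact ⟨y, h, rfl⟩
  have hneAB : A.subtype hA ≠ B.subtype hB := by
    intro h
    apply hAB
    rw [← hupA, ← hupB, h]
  have hD' : ∀ y (hy : y ∈ D), (⟨y, hA (hDA hy)⟩ : M) ∈
      ((A.subtype hA : Sylow p M) : Subgroup M) ⊓ ((B.subtype hB : Sylow p M) : Subgroup M) := by
    intro y hy
    refine mem_inf.2 ⟨?_, ?_⟩
    · rw [Sylow.coe_subtype, mem_subgroupOf]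
      exact hDA hy
    · rw [Sylow.coe_subtype, mem_subgroupOf]
      exact hDB hy
  have hD0 : ((A.subtype hA : Sylow p M) : Subgroup M) ⊓ ((B.subtype hB : Sylow p M) : Subgroup M) ≠ ⊥ := by
    intro h
    apply hne
    rw [eq_bot_iff_forall]
    intro y hy
    have h1 := hD' y hy
    rw [h, mem_bot] at h1
    exact congrArg Subtype.val h1
  obtain ⟨n, c, X, x, h0, hlast, hstep⟩ := hr _ _ hneAB hD0
  have main : ∀ j : Fin (n + 1), ReflTransGen (Step f D) A (up (c j)) := by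
    intro j
    induction j using Fin.induction with
    | zero => rw [h0, hupA]
    | succ i ih =>
      refine ih.tail ?_
      obtain ⟨h1, h2, h3, h4, h5⟩ := hstep i
      generalize X i = Xi at h1 h2 h3 h5
      obtain ⟨⟨Y, ⟨P, F, hF, rfl⟩, hYX⟩, R₁, hR₁⟩ := h1
      obtain ⟨-, R₂, hR₂⟩ := h2
      have hXi : Xi = (M ⊓ normalizer (F : Set G)).subgroupOf M := hYX.symm
      subst hXi
      rw [hup] at hF
      have hFP := (hf (up P) (up P).2).1 F hF
      have hPX : (P : Subgroup M) ≤ (M ⊓ normalizer (F : Set G)).subgroupOf M := by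
        intro y hy
        rw [mem_subgroupOf]
        have h6 : (y : G) ∈ (up P : Subgroup G) := (hmemup P y).2 hy
        exact mem_inf.2 ⟨y.2, hFP.2 (le_normalizer h6)⟩
      have hc1 := sylow_le_of_member _ P _ hPX R₁ hR₁
      have hc2 := sylow_le_of_member _ P _ hPX R₂ hR₂
      have hupN : ∀ Q : Sylow p M, (Q : Subgroup M) ≤ (M ⊓ normalizer (F : Set G)).subgroupOf M →
          (up Q : Subgroup G) ≤ normalizer (F : Set G) := by
        intro Q hQ y hy
        rw [← hup] at hy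
        obtain ⟨z, hz, rfl⟩ := hy
        have h6 := hQ hz
        rw [mem_subgroupOf] at h6
        exact (mem_inf.1 h6).2
      have hxF : ((x i : M) : G) ∈ normalizer (F : Set G) := by
        have h6 := h3
        rw [mem_subgroupOf] at h6
        exact (mem_inf.1 h6).2
      refine ⟨up P, F, (x i : M), hF, hxF, hupN _ hc1, hupN _ hc2, ?_, ?_⟩
      · apply Sylow.ext
        ext y
        rw [mem_smul_sylow, inv_inv]
        have h7 : ∀ z : M, z ∈ (c i.castSucc : Subgroup M) ↔ x i * z * (x i)⁻¹ ∈ (c i.succ : Subgroup M) := by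
          intro z
          rw [← h4, subgroupConjRight, aux_mem_map_conj, inv_inv]
        constructor
        · intro hy
          have hw : (x i : G) * y * ((x i : M) : G)⁻¹ ∈ M := by
            rw [← hup] at hy
            obtain ⟨z, _, e⟩ := hy
            rw [← e]
            exact z.2
          have hyM : y ∈ M := by
            have h8 := mul_mem (mul_mem (inv_mem (x i).2) hw) (x i).2
            have e : ((x i : M) : G)⁻¹ * ((x i : G) * y * ((x i : M) : G)⁻¹) * (x i : G) = y := by group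
            rwa [e] at h8
          have h9 : x i * (⟨y, hyM⟩ : M) * (x i)⁻¹ ∈ (c i.succ : Subgroup M) := by
            rw [← hmemup]
            exact hy
          have h10 := (h7 _).2 h9
          exact (hmemup _ ⟨y, hyM⟩).2 h10
        · intro hy
          rw [← hup] at hy
          obtain ⟨z, hz, rfl⟩ := hy
          have h9 := (h7 z).1 hz
          exact (hmemup _ _).2 h9
      · intro y hy
        have h6 := h5 (hD' y hy)
        exact (hmemup _ _).2 (mem_inf.1 h6).1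
  have hfin := main (Fin.last n)
  rwa [hlast, hupB] at hfin

theorem link_base {f : Subgroup G → Set (Subgroup G)} (hf : IsNormalizerFunctor p f) (S : Sylow p G)
    (G₁ G₂ : Subgroup G) (h₁ : (S : Subgroup G) ≤ G₁) (h₂ : (S : Subgroup G) ≤ G₂)
    (hprod : ∀ g : G, ∃ g₁ ∈ G₁, ∃ g₂ ∈ G₂, g = g₁ * g₂)
    (hr₁ : IsFunctorRegular p f G₁) (hr₂ : IsFunctorRegular p f G₂) (T : Sylow p G) (D : Subgroup G)
    (hne : D ≠ ⊥) (hDS : D ≤ (S : Subgroup G)) (hDT : D ≤ (T : Subgroup G)) :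
    ReflTransGen (Step f D) S T := by
  obtain ⟨u, rfl⟩ := MulAction.exists_smul_eq G S T
  obtain ⟨g₁, hg₁, g₂, hg₂, e⟩ := hprod u⁻¹
  have hu : u = g₂⁻¹ * g₁⁻¹ := by
    have : u = (u⁻¹)⁻¹ := by simp
    rw [this, e, mul_inv_rev]
  set a := g₂⁻¹ with ha
  set b := g₁⁻¹ with hb
  have haG : a ∈ G₂ := inv_mem hg₂
  have hbG : b ∈ G₁ := inv_mem hg₁
  have hsmul : ∀ (Q : Sylow p G) (M : Subgroup G) (g : G), g ∈ M → (Q : Subgroup G) ≤ M →
      ((g • Q : Sylow p G) : Subgroup G) ≤ M := by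
    intro Q M g hg hQ y hy
    rw [mem_smul_sylow] at hy
    have h1 := mul_mem (mul_mem hg (hQ hy)) (inv_mem hg)
    have e : g * (g⁻¹ * y * g) * g⁻¹ = y := by group
    rwa [e] at h1
  set U : Sylow p G := b • S with hU
  have hUG : (U : Subgroup G) ≤ G₁ := hsmul S G₁ b hbG h₁
  have hTe : u • S = a • U := by
    rw [hU, ← mul_smul, hu]
  rw [hTe] at hDT ⊢
  set E : Subgroup G := D.map (MulAut.conj a⁻¹).toMonoidHom with hE
  have hEmem : ∀ y, y ∈ E ↔ a * y * a⁻¹ ∈ D := by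
    intro y
    rw [hE, aux_mem_map_conj, inv_inv]
  have hEU : E ≤ (U : Subgroup G) := by
    intro y hy
    have h1 := hDT ((hEmem y).1 hy)
    rw [mem_smul_sylow] at h1
    have e : a⁻¹ * (a * y * a⁻¹) * a = y := by group
    rwa [e] at h1
  have hEG₂ : E ≤ G₂ := by
    intro y hy
    have h1 := h₂ (hDS ((hEmem y).1 hy))
    have h2 := mul_mem (mul_mem (inv_mem haG) h1) haG
    have e : a⁻¹ * (a * y * a⁻¹) * a = y := by group
    rwa [e] at h2
  have hEp : IsPGroup p E := U.2.to_le hEU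
  have hSC : (S : Subgroup G) ≤ G₁ ⊓ G₂ := le_inf h₁ h₂
  have hEC : E ≤ G₁ ⊓ G₂ := le_inf (hEU.trans hUG) hEG₂
  obtain ⟨c, hc, hcu⟩ := Cfsg.Agent.Lib.Basic.SylowInto.conj_into_of_le (G₁ ⊓ G₂) S hSC E hEC hEp
  set V : Sylow p G := c⁻¹ • S with hV
  have hVmem : ∀ y, y ∈ (V : Subgroup G) ↔ c * y * c⁻¹ ∈ (S : Subgroup G) := by
    intro y
    rw [hV, mem_smul_sylow, inv_inv]
  have hEV : E ≤ (V : Subgroup G) := fun y hy => (hVmem y).2 (hcu y hy)
  have hV₁ : (V : Subgroup G) ≤ G₁ := hsmul S G₁ c⁻¹ (inv_mem (mem_inf.1 hc).1) h₁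
  have hV₂ : (V : Subgroup G) ≤ G₂ := hsmul S G₂ c⁻¹ (inv_mem (mem_inf.1 hc).2) h₂
  have hW : ((a • V : Sylow p G) : Subgroup G) ≤ G₂ := hsmul V G₂ a haG hV₂
  have hDW : D ≤ ((a • V : Sylow p G) : Subgroup G) := by
    intro y hy
    rw [mem_smul_sylow]
    apply hEV
    rw [hEmem]
    have e : a * (a⁻¹ * y * a) * a⁻¹ = y := by group
    rwa [e]
  have hEne : E ≠ ⊥ := by
    intro h
    apply hne
    rw [eq_bot_iff_forall]
    intro y hy
    have h1 : a⁻¹ * y * a ∈ E := by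
      rw [hEmem]
      have e : a * (a⁻¹ * y * a) * a⁻¹ = y := by group
      rwa [e]
    rw [h, mem_bot] at h1
    have h2 : a * (a⁻¹ * y * a) * a⁻¹ = 1 := by
      rw [h1]
      group
    have e : a * (a⁻¹ * y * a) * a⁻¹ = y := by group
    rwa [e] at h2
  have link1 := lift hf S h₂ hr₂ S (a • V) h₂ hW D hDS hDW hne
  have link2 := lift hf S h₁ hr₁ V U hV₁ hUG E hEV hEU hEne
  have link3 := link_conj hf link2 a
  have hEa : E.map (MulAut.conj a).toMonoidHom = D := by
    ext y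
    rw [aux_mem_map_conj, hEmem]
    have e : a * (a⁻¹ * y * a) * a⁻¹ = y := by group
    rw [e]
  rw [hEa] at link3
  exact link1.trans link3

theorem link_main {f : Subgroup G → Set (Subgroup G)} (hf : IsNormalizerFunctor p f) (S : Sylow p G)
    (G₁ G₂ : Subgroup G) (h₁ : (S : Subgroup G) ≤ G₁) (h₂ : (S : Subgroup G) ≤ G₂)
    (hprod : ∀ g : G, ∃ g₁ ∈ G₁, ∃ g₂ ∈ G₂, g = g₁ * g₂)
    (hr₁ : IsFunctorRegular p f G₁) (hr₂ : IsFunctorRegular p f G₂) (A B : Sylow p G) (D : Subgroup G)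
    (hne : D ≠ ⊥) (hDA : D ≤ (A : Subgroup G)) (hDB : D ≤ (B : Subgroup G)) :
    ReflTransGen (Step f D) A B := by
  obtain ⟨h, rfl⟩ := MulAction.exists_smul_eq G S A
  set D₀ : Subgroup G := D.map (MulAut.conj h⁻¹).toMonoidHom with hD₀
  have hD₀mem : ∀ y, y ∈ D₀ ↔ h * y * h⁻¹ ∈ D := by
    intro y
    rw [hD₀, aux_mem_map_conj, inv_inv]
  have hD₀ne : D₀ ≠ ⊥ := by
    intro h0
    apply hne
    rw [eq_bot_iff_forall]
    intro y hy
    have h1 : h⁻¹ * y * h ∈ D₀ := by
      rw [hD₀mem]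
      have e : h * (h⁻¹ * y * h) * h⁻¹ = y := by group
      rwa [e]
    rw [h0, mem_bot] at h1
    have h2 : h * (h⁻¹ * y * h) * h⁻¹ = 1 := by
      rw [h1]
      group
    have e : h * (h⁻¹ * y * h) * h⁻¹ = y := by group
    rwa [e] at h2
  have hD₀S : D₀ ≤ (S : Subgroup G) := by
    intro y hy
    have h1 := hDA ((hD₀mem y).1 hy)
    rw [mem_smul_sylow] at h1
    have e : h⁻¹ * (h * y * h⁻¹) * h = y := by group
    rwa [e] at h1
  have hD₀T : D₀ ≤ ((h⁻¹ • B : Sylow p G) : Subgroup G) := by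
    intro y hy
    have h1 := hDB ((hD₀mem y).1 hy)
    rw [mem_smul_sylow, inv_inv]
    exact h1
  have base := link_base hf S G₁ G₂ h₁ h₂ hprod hr₁ hr₂ (h⁻¹ • B) D₀ hD₀ne hD₀S hD₀T
  have hc := link_conj hf base h
  have e1 : D₀.map (MulAut.conj h).toMonoidHom = D := by
    ext y
    rw [aux_mem_map_conj, hD₀mem]
    have e : h * (h⁻¹ * y * h) * h⁻¹ = y := by group
    rw [e]
  have e2 : h • (h⁻¹ • B) = B := by
    rw [← mul_smul, mul_inv_cancel, one_smul]
  rw [e1, e2] at hc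
  exact hc

end


/-- Let p be a prime dividing the order of the finite group G, f an equivariant assignment of a set of subgroups f(P) of P to every p-subgroup P, each normalized by N_G(P), and S a Sylow p-subgroup. If G = G₁G₂ for subgroups G₁, G₂ both containing S and both regular for f (in each Gᵢ, the family of normalizers in Gᵢ of the members of f(P), P a Sylow p-subgroup of Gᵢ, controls Sylow p-intersections), then G itself is regular for f. -/
theorem result {G : Type*} [Group G] [Finite G] (p : ℕ) [Fact p.Prime] (hdiv : p ∣ Nat.card G)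
    (f : Subgroup G → Set (Subgroup G)) (hf : Cfsg.IsNormalizerFunctor p f) (S : Sylow p G)
    (G₁ G₂ : Subgroup G) (h₁ : (S : Subgroup G) ≤ G₁) (h₂ : (S : Subgroup G) ≤ G₂)
    (hprod : ∀ g : G, ∃ g₁ ∈ G₁, ∃ g₂ ∈ G₂, g = g₁ * g₂)
    (hr₁ : Cfsg.IsFunctorRegular p f G₁) (hr₂ : Cfsg.IsFunctorRegular p f G₂) :
    Cfsg.IsFunctorRegular p f ⊤ := by
  classical
  intro Sh Th hne hne2
  obtain ⟨A, hA⟩ := exists_up S (le_top : (S : Subgroup G) ≤ ⊤) Sh
  obtain ⟨B, hB⟩ := exists_up S (le_top : (S : Subgroup G) ≤ ⊤) Th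
  have hmemA : ∀ y : (⊤ : Subgroup G), (y : G) ∈ (A : Subgroup G) ↔ y ∈ (Sh : Subgroup _) := by
    intro y
    rw [← hA]
    constructor
    · rintro ⟨z, hz, e⟩
      have e' : z = y := Subtype.ext e
      rwa [e'] at hz
    · intro h
      exact ⟨y, h, rfl⟩
  have hmemB : ∀ y : (⊤ : Subgroup G), (y : G) ∈ (B : Subgroup G) ↔ y ∈ (Th : Subgroup _) := by
    intro y
    rw [← hB]
    constructor
    · rintro ⟨z, hz, e⟩
      have e' : z = y := Subtype.ext e
      rwa [e'] at hz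
    · intro h
      exact ⟨y, h, rfl⟩
  have hD : (A : Subgroup G) ⊓ (B : Subgroup G) ≠ ⊥ := by
    intro h
    apply hne2
    rw [eq_bot_iff_forall]
    intro y hy
    have h1 : (y : G) ∈ (A : Subgroup G) ⊓ (B : Subgroup G) :=
      mem_inf.2 ⟨(hmemA y).2 (mem_inf.1 hy).1, (hmemB y).2 (mem_inf.1 hy).2⟩
    rw [h, mem_bot] at h1
    exact Subtype.ext h1
  have link := link_main hf S G₁ G₂ h₁ h₂ hprod hr₁ hr₂ A B _ hD inf_le_left inf_le_right
  let down : Sylow p G → Sylow p (⊤ : Subgroup G) := fun Q => Q.subtype le_top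
  have hdown : ∀ (Q : Sylow p G) (y : (⊤ : Subgroup G)), y ∈ (down Q : Subgroup _) ↔ (y : G) ∈ (Q : Subgroup G) := by
    intro Q y
    show y ∈ ((Q.subtype le_top : Sylow p (⊤ : Subgroup G)) : Subgroup _) ↔ _
    rw [Sylow.coe_subtype, mem_subgroupOf]
  have hdownA : down A = Sh := by
    apply Sylow.ext
    ext y
    rw [hdown, hmemA]
  have hdownB : down B = Th := by
    apply Sylow.ext
    ext y
    rw [hdown, hmemB]
  let 𝓕 : Set (Subgroup (⊤ : Subgroup G)) :=
    (fun X : Subgroup G => X.subgroupOf (⊤ : Subgroup G)) '' functorFamily p f ⊤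
  let R : Sylow p (⊤ : Subgroup G) → Sylow p (⊤ : Subgroup G) → Subgroup (⊤ : Subgroup G) →
      (⊤ : Subgroup G) → Prop := fun a b X x =>
    X ∈ sylowMembers p 𝓕 (a : Subgroup _) ∧ X ∈ sylowMembers p 𝓕 (b : Subgroup _) ∧ x ∈ X ∧
      subgroupConjRight x (b : Subgroup _) = (a : Subgroup _) ∧
      (Sh : Subgroup _) ⊓ (Th : Subgroup _) ≤ (b : Subgroup _) ⊓ X
  have hlift : ReflTransGen (fun a b => ∃ X x, R a b X x) (down A) (down B) := by
    refine ReflTransGen.lift down (fun a b h => ?_) _ _ link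
    obtain ⟨P, F, x, hF, hx, ha, hb, he, hD'⟩ := h
    let X : Subgroup (⊤ : Subgroup G) := ((⊤ : Subgroup G) ⊓ normalizer (F : Set G)).subgroupOf ⊤
    have hXmem : ∀ y : (⊤ : Subgroup G), y ∈ X ↔ (y : G) ∈ normalizer (F : Set G) := by
      intro y
      show y ∈ ((⊤ : Subgroup G) ⊓ normalizer (F : Set G)).subgroupOf ⊤ ↔ _
      rw [mem_subgroupOf]
      exact ⟨fun h => (mem_inf.1 h).2, fun h => mem_inf.2 ⟨mem_top _, h⟩⟩
    have hX𝓕 : X ∈ 𝓕 := by
      refine ⟨(⊤ : Subgroup G) ⊓ normalizer (F : Set G), ⟨down P, F, ?_, rfl⟩, rfl⟩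
      have e : ((down P : Sylow p (⊤ : Subgroup G)) : Subgroup _).map (⊤ : Subgroup G).subtype = P := by
        show ((P.subtype le_top : Sylow p (⊤ : Subgroup G)) : Subgroup _).map (⊤ : Subgroup G).subtype = P
        rw [Sylow.coe_subtype, map_subgroupOf_eq_of_le le_top]
      rw [e]
      exact hF
    have hle : ∀ Q : Sylow p G, (Q : Subgroup G) ≤ normalizer (F : Set G) →
        ((down Q : Sylow p (⊤ : Subgroup G)) : Subgroup _) ≤ X := by
      intro Q hQ y hy
      rw [hXmem]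
      exact hQ ((hdown Q y).1 hy)
    refine ⟨X, ⟨x, mem_top x⟩, ⟨hX𝓕, member_of_le X _ (hle a ha)⟩, ⟨hX𝓕, member_of_le X _ (hle b hb)⟩,
      (hXmem _).2 hx, ?_, ?_⟩
    · ext y
      rw [subgroupConjRight, aux_mem_map_conj, inv_inv, hdown, hdown, ← he, mem_smul_sylow, inv_inv]
      rfl
    · intro y hy
      refine mem_inf.2 ⟨(hdown _ _).2 (hD' (mem_inf.2 ⟨(hmemA y).2 (mem_inf.1 hy).1, (hmemB y).2 (mem_inf.1 hy).2⟩)), ?_⟩
      rw [hXmem]
      exact hb (hD' (mem_inf.2 ⟨(hmemA y).2 (mem_inf.1 hy).1, (hmemB y).2 (mem_inf.1 hy).2⟩))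
  obtain ⟨n, c, X, x, h0, hl, hs⟩ := chain_of_rtg R hlift
  exact ⟨n, c, X, x, h0.trans hdownA, hl.trans hdownB, hs⟩

end Cfsg.Agent.S2957
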