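import Cfsg.Statements.S2956
import Mathlib
import Cfsg.Agent.S2957
-- import your own Cfsg.Agent.* helpers here

set_option autoImplicit false
open Cfsg

namespace Cfsg.Agent.S2956

open Cfsg Subgroup
open Relation (ReflTransGen)
open Cfsg.Agent.Lib.Basic.StrongP (mem_smul_sylow)
open Cfsg.Agent.S2957 (aux_mem_map_conj chain_of_rtg exists_up sylow_le_of_member member_of_le)

section

variable {G : Type*} [Group G] [Finite G] {p : ℕ} [Fact p.Prime]

/-- One step of a chain of Sylow subgroups for the family `𝓖`, with `D` fixed. -/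
def Step' (𝓖 : Set (Subgroup G)) (D : Subgroup G) (A B : Sylow p G) : Prop :=
  ∃ (X : Subgroup G) (x : G), X ∈ sylowMembers p 𝓖 (A : Subgroup G) ∧
    X ∈ sylowMembers p 𝓖 (B : Subgroup G) ∧ x ∈ X ∧
    subgroupConjRight x (B : Subgroup G) = (A : Subgroup G) ∧ D ≤ (B : Subgroup G) ⊓ X

theorem Step'.mono {𝓖 : Set (Subgroup G)} {D D' : Subgroup G} (h : D ≤ D') {A B : Sylow p G}
    (hs : Step' 𝓖 D' A B) : Step' 𝓖 D A B := by
  obtain ⟨X, x, h1, h2, h3, h4, h5⟩ := hs
  exact ⟨X, x, h1, h2, h3, h4, h.trans h5⟩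

theorem mem_map_subtype' (M : Subgroup G) (W : Subgroup M) (y : M) :
    (y : G) ∈ W.map M.subtype ↔ y ∈ W := by
  constructor
  · rintro ⟨z, hz, e⟩
    have e' : z = y := Subtype.ext e
    rwa [e'] at hz
  · intro h
    exact ⟨y, h, rfl⟩

theorem map_subtype_le' (M : Subgroup G) (W : Subgroup M) : W.map M.subtype ≤ M := by
  rintro _ ⟨z, _, rfl⟩
  exact z.2

theorem card_lt_of_lt {H K : Subgroup G} (h : H < K) : Nat.card H < Nat.card K := by
  by_contra hn
  exact h.ne (eq_of_le_of_card_ge h.le (not_lt.1 hn))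

/-- The normalizer condition in a `p`-group. -/
theorem lt_inf_normalizer (Q : Subgroup G) (hQ : IsPGroup p Q) (R : Subgroup G) (h : R < Q) :
    R < Q ⊓ normalizer (R : Set G) := by
  have hnil : Group.IsNilpotent Q := hQ.isNilpotent
  have hcond := Group.normalizerCondition_of_isNilpotent (G := Q)
  have hlt : R.subgroupOf Q < ⊤ := by
    obtain ⟨hle, y, hy, hyR⟩ := SetLike.lt_iff_le_and_exists.1 h
    refine lt_top_iff_ne_top.2 ?_
    intro e
    apply hyR
    have h1 : (⟨y, hy⟩ : Q) ∈ R.subgroupOf Q := by rw [e]; exact mem_top _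
    rwa [mem_subgroupOf] at h1
  have h2 := hcond _ hlt
  obtain ⟨-, y, hy, hyR⟩ := SetLike.lt_iff_le_and_exists.1 h2
  refine SetLike.lt_iff_le_and_exists.2 ⟨le_inf h.le le_normalizer, (y : G), mem_inf.2 ⟨y.2, ?_⟩, ?_⟩
  · rw [mem_set_normalizer_iff]
    intro r
    have h3 := mem_set_normalizer_iff.1 hy
    constructor
    · intro hr
      have h4 := (h3 ⟨r, h.le hr⟩).1 (by rw [SetLike.mem_coe, mem_subgroupOf]; exact hr)
      rw [SetLike.mem_coe, mem_subgroupOf] at h4
      simpa using h4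
    · intro hr
      have hrQ : r ∈ Q := by
        have h5 := h.le hr
        have h6 := mul_mem (mul_mem (inv_mem y.2) h5) y.2
        have e : (y : G)⁻¹ * (y * r * (y : G)⁻¹) * y = r := by group
        rwa [e] at h6
      have h4 := (h3 ⟨r, hrQ⟩).2 (by rw [SetLike.mem_coe, mem_subgroupOf]; simpa using hr)
      rw [SetLike.mem_coe, mem_subgroupOf] at h4
      exact h4
  · intro hyr
    apply hyR
    rw [mem_subgroupOf]
    exact hyr

/-- Every `p`-local subgroup lies in a maximal one. -/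
theorem exists_max_local {N : Subgroup G} (hN : IsPLocal p N) :
    ∃ M, IsMaximalPLocal p M ∧ N ≤ M := by
  have hfin : {N : Subgroup G | IsPLocal p N}.Finite := Set.toFinite _
  obtain ⟨M, hNM, hM⟩ := hfin.exists_le_maximal hN
  exact ⟨M, ⟨hM.1, fun N' hN' hle => le_antisymm (hM.2 hN' hle) hle⟩, hNM⟩

/-- A `p`-subgroup contained in `M` lies in a Sylow subgroup of `M`. -/
theorem exists_sylow_of_le (M R : Subgroup G) (hR : IsPGroup p R) (hRM : R ≤ M) :
    ∃ W : Sylow p M, R ≤ (W : Subgroup M).map M.subtype := by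
  have h1 : IsPGroup p (R.subgroupOf M) := by
    have h2 : IsPGroup p ((R.subgroupOf M).map M.subtype) := by
      rw [map_subgroupOf_eq_of_le hRM]
      exact hR
    exact IsPGroup.of_equiv h2 ((R.subgroupOf M).equivMapOfInjective _ M.subtype_injective).symm
  obtain ⟨W, hW⟩ := h1.exists_le_sylow
  refine ⟨W, ?_⟩
  intro y hy
  exact (mem_map_subtype' M W ⟨y, hRM hy⟩).2 (hW (by rw [mem_subgroupOf]; exact hy))

theorem sylow_eq_inf (M : Subgroup G) (W : Sylow p M) (A : Sylow p G)
    (h : (W : Subgroup M).map M.subtype ≤ A) :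
    (W : Subgroup M).map M.subtype = (A : Subgroup G) ⊓ M := by
  have h1 : IsPGroup p (((A : Subgroup G) ⊓ M).subgroupOf M) := by
    have h2 : IsPGroup p ((((A : Subgroup G) ⊓ M).subgroupOf M).map M.subtype) := by
      rw [map_subgroupOf_eq_of_le inf_le_right]
      exact A.2.to_le inf_le_left
    exact IsPGroup.of_equiv h2 ((((A : Subgroup G) ⊓ M).subgroupOf M).equivMapOfInjective _ M.subtype_injective).symm
  have h3 : (W : Subgroup M) ≤ ((A : Subgroup G) ⊓ M).subgroupOf M := by
    intro y hy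
    rw [mem_subgroupOf]
    exact mem_inf.2 ⟨h ((mem_map_subtype' M W y).2 hy), y.2⟩
  have h4 := W.3 h1 h3
  rw [← h4, map_subgroupOf_eq_of_le inf_le_right]

theorem sylow_eq_of_le {A B : Sylow p G} (h : (A : Subgroup G) ≤ B) : A = B :=
  Sylow.ext (A.3 B.2 h).symm

theorem card_sylow_eq {Γ : Type*} [Group Γ] [Finite Γ] (P Q : Sylow p Γ) :
    Nat.card (P : Subgroup Γ) = Nat.card (Q : Subgroup Γ) :=
  Nat.card_congr (Sylow.equiv P Q).toEquiv

theorem card_map_subtype' (M : Subgroup G) (W : Subgroup M) :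
    Nat.card (W.map M.subtype) = Nat.card W :=
  card_map_of_injective M.subtype_injective

/-- The conjugation relation, lifted from `M` to `G`. -/
theorem conj_transfer (M : Subgroup G) (x : M) (A B : Subgroup M) (h : subgroupConjRight x B = A) :
    subgroupConjRight (x : G) (B.map M.subtype) = A.map M.subtype := by
  subst h
  ext y
  rw [subgroupConjRight, aux_mem_map_conj, inv_inv]
  constructor
  · rintro ⟨z, hz, e⟩
    refine ⟨x⁻¹ * z * x, ?_, ?_⟩
    · rw [SetLike.mem_coe, subgroupConjRight, aux_mem_map_conj, inv_inv]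
      have e' : x * (x⁻¹ * z * x) * x⁻¹ = z := by group
      rwa [e']
    · have h1 : y = (x : G)⁻¹ * z * x := by
        have e2 : (z : G) = x * y * (x : G)⁻¹ := e
        rw [e2]
        group
      rw [h1]
      simp
  · rintro ⟨z, hz, rfl⟩
    rw [SetLike.mem_coe, subgroupConjRight, aux_mem_map_conj, inv_inv] at hz
    exact ⟨x * z * x⁻¹, hz, by simp⟩

/-- A step coming from the functor on the whole group. -/
theorem step_family {f : Subgroup G → Set (Subgroup G)} {𝓖 : Set (Subgroup G)}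
    (hF : functorFamily p f ⊤ ⊆ 𝓖) (Q : Sylow p G) (F : Subgroup G) (hFQ : F ∈ f (Q : Subgroup G))
    (A B : Sylow p G) (hA : (A : Subgroup G) ≤ normalizer (F : Set G))
    (hB : (B : Subgroup G) ≤ normalizer (F : Set G)) (x : G) (hx : x ∈ normalizer (F : Set G))
    (he : subgroupConjRight x (B : Subgroup G) = A) (D : Subgroup G) (hD : D ≤ B) :
    Step' 𝓖 D A B := by
  have hX : (⊤ : Subgroup G) ⊓ normalizer (F : Set G) ∈ 𝓖 := by
    apply hF
    refine ⟨Q.subtype le_top, F, ?_, rfl⟩
    rw [Sylow.coe_subtype, map_subgroupOf_eq_of_le le_top]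
    exact hFQ
  have hle : ∀ C : Subgroup G, C ≤ normalizer (F : Set G) →
      C ≤ (⊤ : Subgroup G) ⊓ normalizer (F : Set G) := fun C hC => le_inf le_top hC
  exact ⟨_, x, ⟨hX, member_of_le _ A (hle _ hA)⟩, ⟨hX, member_of_le _ B (hle _ hB)⟩,
    mem_inf.2 ⟨mem_top _, hx⟩, he, le_inf hD (hle _ (hD.trans hB))⟩

theorem map_smul_le (M : Subgroup G) (W' : Sylow p M) (z : M) (c' : Sylow p G)
    (h : (W' : Subgroup M).map M.subtype ≤ c') :
    ((z • W' : Sylow p M) : Subgroup M).map M.subtype ≤ (((z : G) • c' : Sylow p G) : Subgroup G) := by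
  rintro _ ⟨w, hw, rfl⟩
  rw [mem_smul_sylow]
  have h1 := (mem_smul_sylow z W' w).1 hw
  have h2 := h ((mem_map_subtype' M _ _).2 h1)
  simpa using h2

/-- A step in a singular maximal `p`-local subgroup. -/
theorem step_singular {𝓖 : Set (Subgroup G)} (M : Subgroup G) (hM : M ∈ 𝓖) (W' : Sylow p M) (z : M)
    (c' : Sylow p G) (hWc' : (W' : Subgroup M).map M.subtype ≤ c') (D : Subgroup G)
    (hD : D ≤ (W' : Subgroup M).map M.subtype) : Step' 𝓖 D ((z : G) • c') c' := by
  refine ⟨M, (z : G)⁻¹, ⟨hM, z • W', sylow_eq_inf M _ _ (map_smul_le M W' z c' hWc')⟩,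
    ⟨hM, W', sylow_eq_inf M _ _ hWc'⟩, inv_mem z.2, ?_, le_inf (hD.trans hWc') (hD.trans (map_subtype_le' M _))⟩
  ext y
  rw [subgroupConjRight, aux_mem_map_conj, mem_smul_sylow, inv_inv, inv_inv]

theorem claim {f : Subgroup G → Set (Subgroup G)} (hf : IsNormalizerFunctor p f)
    (hf1 : ∀ P : Subgroup G, IsPGroup p ↥P → P ≠ ⊥ → ∀ F ∈ f P, F ≠ ⊥)
    {𝓖 : Set (Subgroup G)} (hF : functorFamily p f ⊤ ⊆ 𝓖)
    (hS : ∀ M, IsMaximalPLocal p M → ¬ IsFunctorRegular p f M → M ∈ 𝓖)
    (D : Subgroup G) (hD : D ≠ ⊥)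
    (FA : ∀ S T : Sylow p G, D < (S : Subgroup G) ⊓ T → ReflTransGen (Step' 𝓖 D) S T) :
    ∀ (m : ℕ) (M : Subgroup G) (_ : IsMaximalPLocal p M) (W W' : Sylow p M) (c c' : Sylow p G),
      (W : Subgroup M).map M.subtype ≤ c → (W' : Subgroup M).map M.subtype ≤ c' →
      D < (W : Subgroup M).map M.subtype → D ≤ (W' : Subgroup M).map M.subtype →
      Nat.card G - Nat.card W = m → ReflTransGen (Step' 𝓖 D) c c' := by
  intro m
  induction m using Nat.strong_induction_on with
  | _ m IH =>
  intro M hM W W' c c' hWc hWc' hDW hDW' hm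
  by_cases hr : IsFunctorRegular p f M
  · by_cases hWW : W = W'
    · subst hWW
      exact FA c c' (lt_of_lt_of_le hDW (le_inf hWc hWc'))
    -- `D` inside `W ⊓ W'`
    have hDin : ∀ y, (hy : y ∈ D) → (⟨y, map_subtype_le' M _ (hDW' hy)⟩ : M) ∈ (W : Subgroup M) ⊓ W' := by
      intro y hy
      refine mem_inf.2 ⟨?_, ?_⟩
      · exact (mem_map_subtype' M W _).1 (hDW.le hy)
      · exact (mem_map_subtype' M W' _).1 (hDW' hy)
    have hne : (W : Subgroup M) ⊓ W' ≠ ⊥ := by
      intro h0
      apply hD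
      rw [eq_bot_iff_forall]
      intro y hy
      have h1 := hDin y hy
      rw [h0, mem_bot] at h1
      exact congrArg Subtype.val h1
    obtain ⟨k, A, Y, x, h0, hl, hstep⟩ := hr W W' hWW hne
    have hcardA : ∀ j, Nat.card ((A j : Subgroup M).map M.subtype) = Nat.card ((W : Subgroup M).map M.subtype) := by
      intro j
      rw [card_map_subtype', card_map_subtype']
      exact card_sylow_eq _ _
    have hlt : ∀ j, D ≤ (A j : Subgroup M).map M.subtype → D < (A j : Subgroup M).map M.subtype := by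
      intro j hj
      refine lt_of_le_of_ne hj ?_
      intro e
      have h1 := card_lt_of_lt hDW
      rw [e, hcardA j] at h1
      exact lt_irrefl _ h1
    have main : ∀ j : Fin (k + 1), D ≤ (A j : Subgroup M).map M.subtype ∧
        ∀ e : Sylow p G, (A j : Subgroup M).map M.subtype ≤ e → ReflTransGen (Step' 𝓖 D) c e := by
      intro j
      induction j using Fin.induction with
      | zero =>
        rw [h0]
        exact ⟨hDW.le, fun e he => FA c e (lt_of_lt_of_le hDW (le_inf hWc he))⟩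
      | succ i ih =>
        obtain ⟨hDi, ihc⟩ := ih
        obtain ⟨h1, h2, h3, h4, h5⟩ := hstep i
        have hDsucc : D ≤ (A i.succ : Subgroup M).map M.subtype := by
          intro y hy
          have h6 := h5 (hDin y hy)
          exact (mem_map_subtype' M _ _).2 (mem_inf.1 h6).1
        refine ⟨hDsucc, ?_⟩
        intro e he
        generalize Y i = Yi at h1 h2 h3 h5
        obtain ⟨⟨Y₀, ⟨P, F, hFm, rfl⟩, hYX⟩, R₁, hR₁⟩ := h1
        obtain ⟨-, R₂, hR₂⟩ := h2
        have hXi : Yi = (M ⊓ normalizer (F : Set G)).subgroupOf M := hYX.symm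
        subst hXi
        set Pb : Subgroup G := (P : Subgroup M).map M.subtype with hPb
        have hPbp : IsPGroup p Pb := P.2.map M.subtype
        have hFP := (hf Pb hPbp).1 F hFm
        have hPX : (P : Subgroup M) ≤ (M ⊓ normalizer (F : Set G)).subgroupOf M := by
          intro y hy
          rw [mem_subgroupOf]
          have h6 : (y : G) ∈ Pb := (mem_map_subtype' M _ y).2 hy
          exact mem_inf.2 ⟨y.2, hFP.2 (le_normalizer h6)⟩
        have hc1 := sylow_le_of_member _ P _ hPX R₁ hR₁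
        have hc2 := sylow_le_of_member _ P _ hPX R₂ hR₂
        have hupN : ∀ Q : Sylow p M, (Q : Subgroup M) ≤ (M ⊓ normalizer (F : Set G)).subgroupOf M →
            (Q : Subgroup M).map M.subtype ≤ normalizer (F : Set G) := by
          rintro Q hQ _ ⟨z, hz, rfl⟩
          have h6 := hQ hz
          rw [mem_subgroupOf] at h6
          exact (mem_inf.1 h6).2
        have hxF : ((x i : M) : G) ∈ normalizer (F : Set G) := by
          have h6 := h3
          rw [mem_subgroupOf] at h6
          exact (mem_inf.1 h6).2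
        have hAi := hupN _ hc1
        have hAs := hupN _ hc2
        by_cases hPG : ∃ Q : Sylow p G, (Q : Subgroup G) = Pb
        · obtain ⟨Q, hQ⟩ := hPG
          have hQM : (Q : Subgroup G) ≤ M := by rw [hQ]; exact map_subtype_le' M _
          obtain ⟨U₁, hU₁⟩ := exists_up Q hQM (A i.castSucc)
          obtain ⟨U₂, hU₂⟩ := exists_up Q hQM (A i.succ)
          have heU : U₂ = e := sylow_eq_of_le (by rw [← hU₂]; exact he)
          subst heU
          refine (ihc U₁ hU₁.le).tail ?_
          refine step_family hF Q F (by rw [hQ]; exact hFm) U₁ U₂ (hU₁ ▸ hAi) (hU₂ ▸ hAs) _ hxF ?_ D (hU₂ ▸ hDsucc)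
          rw [← hU₁, ← hU₂]
          exact conj_transfer M _ _ _ h4
        · have hcardPb : Nat.card Pb = Nat.card ((W : Subgroup M).map M.subtype) := by
            rw [hPb, card_map_subtype', card_map_subtype']
            exact card_sylow_eq _ _
          have hPbne : Pb ≠ ⊥ := by
            intro h6
            have h7 := card_lt_of_lt hDW
            rw [← hcardPb, h6, card_bot] at h7
            have h8 : 0 < Nat.card D := Nat.card_pos
            omega
          have hFne := hf1 Pb hPbp hPbne F hFm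
          have hFp : IsPGroup p F := hPbp.to_le hFP.1
          obtain ⟨M', hM', hle⟩ := exists_max_local (p := p) ⟨F, hFp, hFne, rfl⟩
          obtain ⟨Q, hQ⟩ := hPbp.exists_le_sylow
          have hPlt : Pb < Q := lt_of_le_of_ne hQ (fun h6 => hPG ⟨Q, h6.symm⟩)
          have hR := lt_inf_normalizer (Q : Subgroup G) Q.2 Pb hPlt
          have hRM' : (Q : Subgroup G) ⊓ normalizer (Pb : Set G) ≤ M' := inf_le_right.trans (hFP.2.trans hle)
          obtain ⟨V, hV⟩ := exists_sylow_of_le M' _ (Q.2.to_le inf_le_left) hRM'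
          obtain ⟨V₂, hV₂⟩ := exists_sylow_of_le M' _ ((A i.castSucc).2.map M.subtype) (hAi.trans hle)
          obtain ⟨V₁, hV₁⟩ := exists_sylow_of_le M' _ ((A i.succ).2.map M.subtype) (hAs.trans hle)
          obtain ⟨c₂, hc₂⟩ := (V₂.2.map M'.subtype).exists_le_sylow
          obtain ⟨c₁, hc₁⟩ := (V₁.2.map M'.subtype).exists_le_sylow
          have hDi' := hlt _ hDi
          have hDs' := hlt _ hDsucc
          have hcard1 : Nat.card W < Nat.card V₂ := by
            have h6 := card_lt_of_lt (lt_of_lt_of_le hR hV)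
            rw [hcardPb, card_map_subtype', card_map_subtype'] at h6
            rwa [card_sylow_eq V₂ V]
          have hcard2 : Nat.card V₂ ≤ Nat.card G := by
            rw [← card_map_subtype']
            exact card_le_card_group _
          have hlink1 := ihc c₂ (hV₂.trans hc₂)
          have hlink2 := IH (Nat.card G - Nat.card V₂) (by omega) M' hM' V₂ V₁ c₂ c₁ hc₂ hc₁
            (lt_of_lt_of_le hDi' hV₂) (hDsucc.trans hV₁) rfl
          have hlink3 := FA c₁ e (lt_of_lt_of_le hDs' (le_inf (hV₁.trans hc₁) he))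
          exact hlink1.trans (hlink2.trans hlink3)
    have hfin := (main (Fin.last k)).2 c'
    rw [hl] at hfin
    exact hfin hWc'
  · have hMG := hS M hM hr
    obtain ⟨z, hz⟩ := MulAction.exists_smul_eq M W' W
    have h1 : (W : Subgroup M).map M.subtype ≤ (((z : G) • c' : Sylow p G) : Subgroup G) := by
      rw [← hz]
      exact map_smul_le M W' z c' hWc'
    exact (FA c _ (lt_of_lt_of_le hDW (le_inf hWc h1))).tail (step_singular M hMG W' z c' hWc' D hDW')

theorem conn_main {f : Subgroup G → Set (Subgroup G)} (hf : IsNormalizerFunctor p f)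
    (hf1 : ∀ P : Subgroup G, IsPGroup p ↥P → P ≠ ⊥ → ∀ F ∈ f P, F ≠ ⊥)
    {𝓖 : Set (Subgroup G)} (hF : functorFamily p f ⊤ ⊆ 𝓖)
    (hS : ∀ M, IsMaximalPLocal p M → ¬ IsFunctorRegular p f M → M ∈ 𝓖) :
    ∀ (n : ℕ) (S T : Sylow p G), (S : Subgroup G) ⊓ T ≠ ⊥ →
      Nat.card G - Nat.card ↥((S : Subgroup G) ⊓ T) = n →
      ReflTransGen (Step' 𝓖 ((S : Subgroup G) ⊓ T)) S T := by
  intro n
  induction n using Nat.strong_induction_on with
  | _ n IH =>
  intro S T hne hn
  by_cases hST : S = T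
  · rw [hST]
  set D : Subgroup G := (S : Subgroup G) ⊓ T with hD
  have FA : ∀ S' T' : Sylow p G, D < (S' : Subgroup G) ⊓ T' → ReflTransGen (Step' 𝓖 D) S' T' := by
    intro S' T' hlt
    have hne' : (S' : Subgroup G) ⊓ T' ≠ ⊥ := by
      intro h0
      rw [h0] at hlt
      exact not_lt_bot hlt
    have hc := card_lt_of_lt hlt
    have hc2 : Nat.card ↥((S' : Subgroup G) ⊓ T') ≤ Nat.card G := card_le_card_group _
    have h1 := IH (Nat.card G - Nat.card ↥((S' : Subgroup G) ⊓ T')) (by omega) S' T' hne' rfl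
    exact ReflTransGen.lift id (fun a b h => Step'.mono hlt.le h) _ _ h1
  have hDS : D < S := lt_of_le_of_ne inf_le_left (fun e => hST (sylow_eq_of_le (by
    rw [← e]; exact inf_le_right)))
  have hDT : D < T := lt_of_le_of_ne inf_le_right (fun e => hST (sylow_eq_of_le (by
    rw [← e]; exact inf_le_left)).symm)
  have hDp : IsPGroup p D := S.2.to_le inf_le_left
  have hR₁ := lt_inf_normalizer (S : Subgroup G) S.2 D hDS
  have hR₂ := lt_inf_normalizer (T : Subgroup G) T.2 D hDT
  obtain ⟨M, hM, hle⟩ := exists_max_local (p := p) ⟨D, hDp, hne, rfl⟩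
  obtain ⟨W, hW⟩ := exists_sylow_of_le M _ (S.2.to_le inf_le_left) (inf_le_right.trans hle)
  obtain ⟨W', hW'⟩ := exists_sylow_of_le M _ (T.2.to_le inf_le_left) (inf_le_right.trans hle)
  obtain ⟨c, hc⟩ := (W.2.map M.subtype).exists_le_sylow
  obtain ⟨c', hc'⟩ := (W'.2.map M.subtype).exists_le_sylow
  have hl1 := FA S c (lt_of_lt_of_le hR₁ (le_inf inf_le_left (hW.trans hc)))
  have hl2 := claim hf hf1 hF hS D hne FA _ M hM W W' c c' hc hc' (lt_of_lt_of_le hR₁ hW)
    ((lt_of_lt_of_le hR₂ hW').le) rfl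
  have hl3 := FA c' T (lt_of_lt_of_le hR₂ (le_inf (hW'.trans hc') inf_le_left))
  exact hl1.trans (hl2.trans hl3)

end


/-- Let p be a prime dividing the order of the finite group G, and f an assignment to every p-subgroup P of a set f(P) of subgroups of P, each normalized by N_G(P), compatible with conjugation, such that for P ≠ 1 the members of f(P) are nontrivial. Let 𝓕 be the family of the normalizers N_G(F) of the members F of f(S) over the Sylow p-subgroups S of G, and 𝓕' the family of the maximal p-local subgroups M of G that are singular for f (the corresponding family of normalizers inside M does not control Sylow p-intersections in M). Then 𝓕 ∪ 𝓕' controls Sylow p-intersections in G. -/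
theorem result {G : Type*} [Group G] [Finite G] (p : ℕ) [Fact p.Prime] (hdiv : p ∣ Nat.card G)
    (f : Subgroup G → Set (Subgroup G)) (hf : Cfsg.IsNormalizerFunctor p f)
    (hf1 : ∀ P : Subgroup G, IsPGroup p ↥P → P ≠ ⊥ → ∀ F ∈ f P, F ≠ ⊥)
    (𝓕 𝓕' : Set (Subgroup G)) (h𝓕 : 𝓕 = Cfsg.functorFamily p f ⊤)
    (h𝓕' : 𝓕' = {M | Cfsg.IsMaximalPLocal p M ∧ ¬ Cfsg.IsFunctorRegular p f M}) :
    Cfsg.ControlsSylowIntersections p (𝓕 ∪ 𝓕') := by
  intro S T _ hne
  have hF : functorFamily p f ⊤ ⊆ 𝓕 ∪ 𝓕' := by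
    rw [h𝓕]
    exact Set.subset_union_left
  have hS : ∀ M, IsMaximalPLocal p M → ¬ IsFunctorRegular p f M → M ∈ 𝓕 ∪ 𝓕' := by
    intro M h1 h2
    rw [h𝓕']
    exact Or.inr ⟨h1, h2⟩
  have hlink := conn_main hf hf1 hF hS _ S T hne rfl
  exact chain_of_rtg (fun (a b : Sylow p G) (X : Subgroup G) (x : G) =>
    X ∈ sylowMembers p (𝓕 ∪ 𝓕') (a : Subgroup G) ∧ X ∈ sylowMembers p (𝓕 ∪ 𝓕') (b : Subgroup G) ∧ x ∈ X ∧
    subgroupConjRight x (b : Subgroup G) = (a : Subgroup G) ∧ (S : Subgroup G) ⊓ (T : Subgroup G) ≤ (b : Subgroup G) ⊓ X) hlink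

end Cfsg.Agent.S2956
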