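import Cfsg.Statements.S2958
import Mathlib
-- import your own Cfsg.Agent.* helpers here

set_option autoImplicit false
open Cfsg

namespace Cfsg.Agent.S2958

/-- Let X, A, B be subgroups of a group G such that G is generated by the conjugates of X and every conjugate of X is contained in A or in B. Then A = G or B = G. -/
theorem result {G : Type*} [Group G] (X A B : Subgroup G) (hgen : (⨆ g : G, X.map (MulAut.conj g).toMonoidHom) = ⊤) (hcover : ∀ g : G, X.map (MulAut.conj g).toMonoidHom ≤ A ∨ X.map (MulAut.conj g).toMonoidHom ≤ B) : A = ⊤ ∨ B = ⊤ := by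
  classical
  set C : G → Subgroup G := fun g => X.map (MulAut.conj g).toMonoidHom with hC
  have hCmem : ∀ g y, y ∈ C g ↔ g⁻¹ * y * g ∈ X := by
    intro g y
    simp only [hC, Subgroup.mem_map]
    constructor
    · rintro ⟨x, hx, rfl⟩
      simpa [MulAut.conj_apply, mul_assoc] using hx
    · intro h
      exact ⟨_, h, by simp [MulAut.conj_apply, mul_assoc]⟩
  set M : Subgroup G := ⨆ (g : G) (_ : ¬ C g ≤ B), C g with hM
  have hMA : M ≤ A := iSup₂_le fun g hg => (hcover g).resolve_right hg
  have hCM : ∀ g, ¬ C g ≤ B → C g ≤ M := fun g hg => le_iSup₂_of_le g hg le_rfl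
  have hconj : ∀ a g y, y ∈ C g → a * y * a⁻¹ ∈ C (a * g) := by
    intro a g y hy
    rw [hCmem] at hy ⊢
    simpa [mul_assoc] using hy
  have hBP : ∀ a ∈ B, ∀ g, ¬ C g ≤ B → ¬ C (a * g) ≤ B := by
    intro a ha g hg hle
    apply hg
    intro y hy
    have := hle (hconj a g y hy)
    have h2 : a⁻¹ * (a * y * a⁻¹) * a ∈ B := B.mul_mem (B.mul_mem (B.inv_mem ha) this) ha
    simpa [mul_assoc] using h2
  have hMconj : ∀ a ∈ B, ∀ y ∈ M, a * y * a⁻¹ ∈ M := by
    intro a ha y hy
    have hle : M ≤ M.comap (MulAut.conj a).toMonoidHom := by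
      refine iSup₂_le fun g hg => ?_
      intro z hz
      have : a * z * a⁻¹ ∈ C (a * g) := hconj a g z hz
      have h3 := hCM _ (hBP a ha g hg) this
      simpa [MulAut.conj_apply] using h3
    simpa [MulAut.conj_apply] using hle hy
  have hBN : B ≤ Subgroup.normalizer (M : Set G) := by
    intro a ha
    rw [Subgroup.mem_normalizer_iff]
    intro y
    constructor
    · exact hMconj a ha y
    · intro h
      have := hMconj a⁻¹ (B.inv_mem ha) _ h
      simpa [mul_assoc] using this
  have hMN : M ≤ Subgroup.normalizer (M : Set G) := Subgroup.le_normalizer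
  have hall : ∀ g, C g ≤ Subgroup.normalizer (M : Set G) := by
    intro g
    by_cases h : C g ≤ B
    · exact h.trans hBN
    · exact (hCM g h).trans hMN
  have htop : Subgroup.normalizer (M : Set G) = ⊤ := by
    apply top_le_iff.mp
    rw [← hgen]
    exact iSup_le hall
  have hnorm : ∀ a y, y ∈ M → a * y * a⁻¹ ∈ M := by
    intro a y hy
    have ha : a ∈ Subgroup.normalizer (M : Set G) := by rw [htop]; trivial
    exact (Subgroup.mem_normalizer_iff.mp ha y).mp hy
  by_cases hex : ∃ g, ¬ C g ≤ B
  · left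
    obtain ⟨g, hg⟩ := hex
    have hall2 : ∀ h, C h ≤ M := by
      intro h y hy
      have h1 : (g * h⁻¹) * y * (g * h⁻¹)⁻¹ ∈ C ((g * h⁻¹) * h) := hconj _ _ _ hy
      have h2 : (g * h⁻¹) * h = g := by simp
      rw [h2] at h1
      have h3 := hnorm (g * h⁻¹)⁻¹ _ (hCM g hg h1)
      simpa [mul_assoc] using h3
    apply top_le_iff.mp
    rw [← hgen]
    exact (iSup_le hall2).trans hMA
  · right
    simp only [not_exists, not_not] at hex
    apply top_le_iff.mp
    rw [← hgen]
    exact iSup_le hex

end Cfsg.Agent.S2958
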