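import Cfsg.Statements.S2959
import Mathlib
import Cfsg.Agent.Lib.Basic.PCore
import Cfsg.Agent.Lib.Nilpotent.Parts
import Cfsg.Agent.Lib.Nilpotent.Elements
import Cfsg.Agent.Lib.Coprime.StabilityElem
-- import your own Cfsg.Agent.* helpers here

set_option autoImplicit false
open Cfsg

namespace Cfsg.Agent.S2959

/-- Let G be a finite group of characteristic p, that is C_G(O_p(G)) ≤ O_p(G), with p prime, and let L be a subgroup of G normalized by O_p(G). Then L has characteristic p: C_L(O_p(L)) ≤ O_p(L). -/
theorem result {G : Type*} [Group G] [Finite G] {p : ℕ} [Fact p.Prime] (hG : Subgroup.centralizer (Cfsg.pCore p G : Set G) ≤ Cfsg.pCore p G) (L : Subgroup G) (hL : Cfsg.pCore p G ≤ Subgroup.normalizer (L : Set G)) : Subgroup.centralizer (Cfsg.pCore p ↥L : Set ↥L) ≤ Cfsg.pCore p ↥L := by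
  classical
  open Cfsg.Agent.Lib.Basic.PCore Cfsg.Agent.Lib.Nilpotent.Parts Cfsg.Agent.Lib.Nilpotent.Elements in
  set P := Cfsg.pCore p G with hP
  have hPp : IsPGroup p P := pCore_isPGroup p
  haveI hPn : P.Normal := pCore_normal p G
  -- `L ⊓ P` lies in `O_p(L)`
  have hLP : P.subgroupOf L ≤ Cfsg.pCore p ↥L := by
    apply le_pCore inferInstance
    exact hPp.comap_of_injective L.subtype L.subtype_injective
  set C : Subgroup ↥L := Subgroup.centralizer (Cfsg.pCore p ↥L : Set ↥L) with hC
  haveI hCn : C.Normal := Subgroup.normal_centralizer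
  have hCp : IsPGroup p C := by
    intro x
    obtain ⟨y, z, hxyz, hy, hz, hyk, hzc⟩ := exists_parts x p
    have hz1 : z = 1 := by
      -- `z` commutes with `P`
      have hzP : ((z : ↥L) : G) ∈ Subgroup.centralizer (P : Set G) := by
        rw [Subgroup.mem_centralizer_iff]
        intro u hu
        symm
        have hord : orderOf ((z : ↥L) : G) = orderOf z := by
          rw [Subgroup.orderOf_coe, Subgroup.orderOf_coe]
        let a : G := ((z : ↥L) : G)
        have haL : a ∈ L := (z : ↥L).2
        have hcomm : u⁻¹ * a * u * a⁻¹ ∈ (P.subgroupOf L).map L.subtype := by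
          have h1 : u⁻¹ * a * u * a⁻¹ ∈ L := by
            have h2 : u⁻¹ * a * u ∈ L := by
              have := (Subgroup.mem_normalizer_iff.1 (hL (P.inv_mem hu)) a).1 haL
              simpa using this
            exact L.mul_mem h2 (L.inv_mem haL)
          have h3 : u⁻¹ * a * u * a⁻¹ ∈ P := by
            have h4 : u⁻¹ * (a * u * a⁻¹) ∈ P :=
              P.mul_mem (P.inv_mem hu) (hPn.conj_mem u hu a)
            have h5 : u⁻¹ * a * u * a⁻¹ = u⁻¹ * (a * u * a⁻¹) := by group
            rwa [h5]
          exact ⟨⟨_, h1⟩, by simpa [Subgroup.mem_subgroupOf] using h3, rfl⟩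
        refine Cfsg.Agent.Lib.Coprime.StabilityElem.comm_of_mem_centralized hcomm ?_ ?_
          (m := orderOf a) ?_
        · rintro _ ⟨⟨n, hnL⟩, hn, rfl⟩
          have := Subgroup.mem_centralizer_iff.1 z.2 ⟨n, hnL⟩ (hLP hn)
          exact (congrArg Subtype.val this).symm
        · have hmap : IsPGroup p ((P.subgroupOf L).map L.subtype) :=
            (hPp.comap_of_injective L.subtype L.subtype_injective).map _
          obtain ⟨b, hb⟩ := IsPGroup.iff_card.1 hmap
          rw [hb]
          apply Nat.Coprime.pow_left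
          rw [hord]
          exact hzc.symm
        · rw [pow_orderOf_eq_one]
          simp
      have hzP' := hG hzP
      obtain ⟨k, hk⟩ := exists_pow_eq_one_of_mem hPp hzP'
      have hd : orderOf ((z : ↥L) : G) ∣ p ^ k := orderOf_dvd_of_pow_eq_one hk
      have hord : orderOf ((z : ↥L) : G) = orderOf z := by
        rw [Subgroup.orderOf_coe, Subgroup.orderOf_coe]
      rw [hord] at hd
      have h1 := Nat.Coprime.eq_one_of_dvd (Nat.Coprime.pow_right k hzc) hd
      exact orderOf_eq_one_iff.1 h1
    obtain ⟨k, hk⟩ := hyk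
    refine ⟨k, ?_⟩
    rw [hxyz, hz1, mul_one]
    exact hk
  exact le_pCore hCn hCp

end Cfsg.Agent.S2959
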