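import Cfsg.Statements.S2960
import Mathlib
import Cfsg.Agent.Lib.Basic.PCore
import Cfsg.Agent.Lib.Transfer.Basic

set_option autoImplicit false
open Cfsg

namespace Cfsg.Agent.S2960

open Cfsg.Agent.Lib.Basic.PCore

theorem centralizer_normalized {G : Type*} [Group G] (Q : Subgroup G) {u x : G}
    (hu : u ∈ Subgroup.normalizer (Q : Set G)) (hx : x ∈ Subgroup.centralizer (Q : Set G)) :
    u⁻¹ * x * u ∈ Subgroup.centralizer (Q : Set G) := by
  rw [Subgroup.mem_centralizer_iff] at hx ⊢
  intro h hh
  have hu' : u * h * u⁻¹ ∈ Q := by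
    have := (Subgroup.mem_normalizer_iff.1 hu h).1 hh
    simpa using this
  have := hx _ hu'
  have e : h * (u⁻¹ * x * u) = u⁻¹ * ((u * h * u⁻¹) * x) * u := by group
  have e' : u⁻¹ * x * u * h = u⁻¹ * (x * (u * h * u⁻¹)) * u := by group
  rw [e, e', this]

/-- Let G be a finite group of characteristic p (C_G(O_p(G)) ≤ O_p(G)), p prime, T a Sylow p-subgroup of G and Q a normal subgroup of T with C_T(Q) ≤ Q. Then C_G(Q) ≤ Q. -/
theorem result {G : Type*} [Group G] [Finite G] {p : ℕ} [Fact p.Prime] (hG : Subgroup.centralizer (Cfsg.pCore p G : Set G) ≤ Cfsg.pCore p G) (T : Sylow p G) (Q : Subgroup G) (hQT : Q ≤ (T : Subgroup G)) (hQn : (T : Subgroup G) ≤ Subgroup.normalizer (Q : Set G)) (hC : (T : Subgroup G) ⊓ Subgroup.centralizer (Q : Set G) ≤ Q) : Subgroup.centralizer (Q : Set G) ≤ Q := by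
  classical
  intro x hx
  obtain ⟨a, b, rfl, hab, ha, hb, ⟨k, hk⟩, hbc⟩ := Cfsg.Agent.Lib.Transfer.Basic.exists_pPart_decomp (p := p) x
  have hCle : Subgroup.zpowers (a * b) ≤ Subgroup.centralizer (Q : Set G) :=
    (Subgroup.zpowers_le).2 hx
  have haC := hCle ha
  have hbC := hCle hb
  have hPT : Cfsg.pCore p G ≤ (T : Subgroup G) := pCore_le_sylow T
  -- the p'-part is trivial
  have hb1 : b = 1 := by
    have hbP : b ∈ Cfsg.pCore p G := by
      apply hG
      rw [Subgroup.mem_centralizer_iff]
      intro w hw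
      -- c = w⁻¹ * (b * w * b⁻¹)
      set c : G := w⁻¹ * (b * w * b⁻¹) with hc
      have hcP : c ∈ Cfsg.pCore p G := by
        have hn : (Cfsg.pCore p G).Normal := inferInstance
        exact Subgroup.mul_mem _ (Subgroup.inv_mem _ hw) (hn.conj_mem w hw b)
      have hcC : c ∈ Subgroup.centralizer (Q : Set G) := by
        have h1 := centralizer_normalized Q (hQn (hPT hw)) hbC
        have e : c = (w⁻¹ * b * w) * b⁻¹ := by simp only [hc]; group
        rw [e]
        exact Subgroup.mul_mem _ h1 (Subgroup.inv_mem _ hbC)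
      have hcQ : c ∈ Q := hC ⟨hPT hcP, hcC⟩
      have hcb : c * b = b * c := Subgroup.mem_centralizer_iff.1 hbC c hcQ
      have hstep : b * w * b⁻¹ = w * c := by simp only [hc]; group
      have hpow : ∀ n : ℕ, b ^ n * w * (b ^ n)⁻¹ = w * c ^ n := by
        intro n
        induction n with
        | zero => simp
        | succ n ih =>
          have hcn : Commute c b := hcb
          calc b ^ (n + 1) * w * (b ^ (n + 1))⁻¹ = b * (b ^ n * w * (b ^ n)⁻¹) * b⁻¹ := by
                rw [pow_succ', mul_inv_rev]; group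
            _ = b * (w * c ^ n) * b⁻¹ := by rw [ih]
            _ = (b * w * b⁻¹) * (b * c ^ n * b⁻¹) := by group
            _ = (w * c) * c ^ n := by
                rw [hstep]
                congr 1
                have : Commute b (c ^ n) := (hcn.symm.pow_right n)
                rw [this.eq]; group
            _ = w * c ^ (n + 1) := by rw [pow_succ', mul_assoc]
      have hck : c ^ orderOf b = 1 := by
        have := hpow (orderOf b)
        rw [pow_orderOf_eq_one] at this
        simpa using this.symm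
      -- c has p-power order
      have hcp : IsPGroup p (Subgroup.zpowers c) := by
        have hP : IsPGroup p (Cfsg.pCore p G) := pCore_isPGroup p
        exact hP.to_le ((Subgroup.zpowers_le).2 hcP)
      have hc1 : c = 1 := by
        obtain ⟨n, hn⟩ := (IsPGroup.iff_card.1 hcp)
        have hord : orderOf c = p ^ n := by rw [← Nat.card_zpowers, hn]
        have hdvd : orderOf c ∣ orderOf b := orderOf_dvd_of_pow_eq_one hck
        have hcop : Nat.Coprime (orderOf c) (orderOf b) := by
          rw [hord]; exact Nat.Coprime.pow_left _ hbc.symm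
        have : orderOf c = 1 := Nat.Coprime.eq_one_of_dvd hcop hdvd
        exact orderOf_eq_one_iff.1 this
      have : b * w * b⁻¹ = w := by rw [hstep, hc1, mul_one]
      calc w * b = (b * w * b⁻¹) * b := by rw [this]
        _ = b * w := by group
    have hP : IsPGroup p (Cfsg.pCore p G) := pCore_isPGroup p
    have hbp : IsPGroup p (Subgroup.zpowers b) := hP.to_le ((Subgroup.zpowers_le).2 hbP)
    obtain ⟨n, hn⟩ := (IsPGroup.iff_card.1 hbp)
    have hord : orderOf b = p ^ n := by rw [← Nat.card_zpowers, hn]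
    have : orderOf b = 1 := by
      have hcop : Nat.Coprime (orderOf b) (orderOf b) := by
        conv_lhs => rw [hord]
        exact Nat.Coprime.pow_left _ hbc.symm
      simpa using hcop
    exact orderOf_eq_one_iff.1 this
  subst hb1
  rw [mul_one] at hx ⊢
  -- the p-part lies in Q
  let H : Subgroup G := Subgroup.normalizer (Q : Set G)
  have haH : a ∈ H := by
    refine Subgroup.mem_normalizer_iff.2 fun h => ?_
    have h0 : h ∈ Q → a * h * a⁻¹ = h := fun hh => by
      have := Subgroup.mem_centralizer_iff.1 haC h hh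
      rw [← this]; group
    constructor
    · intro hh
      rw [h0 hh]; exact hh
    · intro hh
      have h3 := Subgroup.mem_centralizer_iff.1 haC _ hh
      have : h = a * h * a⁻¹ := by
        calc h = a⁻¹ * ((a * h * a⁻¹) * a) := by group
          _ = a⁻¹ * (a * (a * h * a⁻¹)) := by rw [h3]
          _ = a * h * a⁻¹ := by group
      rw [this]; exact hh
  let T' : Sylow p H := T.subtype hQn
  have hap : IsPGroup p (Subgroup.zpowers (⟨a, haH⟩ : H)) := by
    rw [IsPGroup.iff_card, Nat.card_zpowers]
    refine ⟨k, ?_⟩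
    rw [Subgroup.orderOf_mk, hk]
  obtain ⟨S, hS⟩ := hap.exists_le_sylow
  obtain ⟨u, hu⟩ := MulAction.exists_smul_eq H S T'
  have hmem : (⟨a, haH⟩ : H) ∈ (S : Subgroup H) := hS (Subgroup.mem_zpowers _)
  have huS : (u : G) * a * (u : G)⁻¹ ∈ (T : Subgroup G) := by
    have h1 : (MulAut.conj u) (⟨a, haH⟩ : H) ∈ ((u • S : Sylow p H) : Subgroup H) := by
      rw [Sylow.coe_subgroup_smul]
      exact Subgroup.smul_mem_pointwise_smul _ _ _ hmem
    rw [hu] at h1
    exact h1
  have huC : (u : G) * a * (u : G)⁻¹ ∈ Subgroup.centralizer (Q : Set G) := by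
    have := centralizer_normalized Q (Subgroup.inv_mem _ u.2) haC
    simpa using this
  have hQ1 : (u : G) * a * (u : G)⁻¹ ∈ Q := hC ⟨huS, huC⟩
  have := (Subgroup.mem_normalizer_iff.1 (Subgroup.inv_mem _ u.2) _).1 hQ1
  have e : (u : G)⁻¹ * ((u : G) * a * (u : G)⁻¹) * ((u : G)⁻¹)⁻¹ = a := by group
  rwa [e] at this

end Cfsg.Agent.S2960
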