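import Cfsg.Statements.S2961
import Mathlib
import Cfsg.Agent.Lib.Components.CharP

set_option autoImplicit false
open Cfsg

namespace Cfsg.Agent.S2961

open Subgroup
open scoped commutatorElement
open Cfsg.Agent.Lib.Components.LocalFStar Cfsg.Agent.Lib.Components.CharP

section aux

variable {G : Type*} [Group G]

/-- A `p'`-element acting on a normal self-centralizing `p`-subgroup `P` that commutes with all its
commutators with `P` is trivial. -/
theorem eq_one_aux [Finite G] {p : ℕ} [Fact p.Prime] {P : Subgroup G} [hPn : P.Normal]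
    (hPp : IsPGroup p P) (hcen : centralizer (P : Set G) ≤ P) {a : G}
    (hord : (orderOf a).Coprime p)
    (h : ∀ y ∈ P, Commute a (a * y * a⁻¹ * y⁻¹)) : a = 1 := by
  have key : ∀ y ∈ P, a * y = y * a := by
    intro y hy
    obtain ⟨r, hr⟩ : ∃ r, r = a * y * a⁻¹ * y⁻¹ := ⟨_, rfl⟩
    have hrP : r ∈ P := by
      rw [hr]
      exact P.mul_mem (hPn.conj_mem y hy a) (P.inv_mem hy)
    have hac : Commute a r := by rw [hr]; exact h y hy
    have hay : a * y = r * y * a := by rw [hr]; group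
    have hn : ∀ n : ℕ, a ^ n * y = r ^ n * y * a ^ n := by
      intro n
      induction n with
      | zero => simp
      | succ n ih =>
        have h1 : Commute a (r ^ n) := hac.pow_right n
        calc a ^ (n + 1) * y = a * (a ^ n * y) := by rw [pow_succ']; group
          _ = a * (r ^ n * y * a ^ n) := by rw [ih]
          _ = (a * r ^ n) * y * a ^ n := by group
          _ = (r ^ n * a) * y * a ^ n := by rw [h1.eq]
          _ = r ^ n * (a * y) * a ^ n := by group
          _ = r ^ n * (r * y * a) * a ^ n := by rw [hay]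
          _ = r ^ (n + 1) * y * a ^ (n + 1) := by
            rw [pow_succ r n, pow_succ' a n]; group
    have h1 := hn (orderOf a)
    rw [pow_orderOf_eq_one, one_mul, mul_one] at h1
    have h2 : r ^ orderOf a = 1 := by
      have h5 : 1 * y = r ^ orderOf a * y := by rw [one_mul]; exact h1
      exact (mul_right_cancel h5).symm
    obtain ⟨k, hk⟩ := hPp ⟨r, hrP⟩
    have h3 : r ^ p ^ k = 1 := by simpa using congrArg Subtype.val hk
    have h4 : r = 1 := by
      have := pow_gcd_eq_one.2 ⟨h2, h3⟩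
      rwa [Nat.Coprime.gcd_eq_one (hord.pow_right k), pow_one] at this
    rw [hay, h4, one_mul]
  have h1 : a ∈ P := hcen (mem_centralizer_iff.2 fun y hy => (key y hy).symm)
  exact eq_one_of_mem_of_isPGroup p hPp h1 hord

/-- The elements of `L` acting trivially on `P` modulo `L`. -/
def stabB (P L : Subgroup G) [hPn : P.Normal] : Subgroup L where
  carrier := {a | ∀ y ∈ P, (a : G) * y * (a : G)⁻¹ * y⁻¹ ∈ L}
  one_mem' := by
    intro y _
    simp
  mul_mem' := by
    intro a b ha hb y hy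
    have h1 := hb y hy
    have h2 := ha y hy
    have h3 : ((a * b : L) : G) * y * ((a * b : L) : G)⁻¹ * y⁻¹ =
        (a : G) * ((b : G) * y * (b : G)⁻¹ * y⁻¹) * (a : G)⁻¹ *
          ((a : G) * y * (a : G)⁻¹ * y⁻¹) := by
      simp only [coe_mul]
      group
    rw [h3]
    exact L.mul_mem (L.mul_mem (L.mul_mem a.2 h1) (L.inv_mem a.2)) h2
  inv_mem' := by
    intro a ha y hy
    have hy' : (a : G)⁻¹ * y * ((a : G)⁻¹)⁻¹ ∈ P := hPn.conj_mem y hy _
    have h1 := ha _ hy'
    have h2 : (((a⁻¹ : L)) : G) * y * ((a⁻¹ : L) : G)⁻¹ * y⁻¹ =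
        ((a : G) * ((a : G)⁻¹ * y * ((a : G)⁻¹)⁻¹) * (a : G)⁻¹ *
          ((a : G)⁻¹ * y * ((a : G)⁻¹)⁻¹)⁻¹)⁻¹ := by
      simp only [InvMemClass.coe_inv]
      group
    rw [h2]
    exact L.inv_mem h1

instance stabB_normal (P L : Subgroup G) [hPn : P.Normal] : (stabB P L).Normal := by
  refine ⟨fun a ha g y hy => ?_⟩
  have hy' : (g : G)⁻¹ * y * ((g : G)⁻¹)⁻¹ ∈ P := hPn.conj_mem y hy _
  have h1 := ha _ hy'
  have h2 : ((g * a * g⁻¹ : L) : G) * y * ((g * a * g⁻¹ : L) : G)⁻¹ * y⁻¹ =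
      (g : G) * ((a : G) * ((g : G)⁻¹ * y * ((g : G)⁻¹)⁻¹) * (a : G)⁻¹ *
        ((g : G)⁻¹ * y * ((g : G)⁻¹)⁻¹)⁻¹) * (g : G)⁻¹ := by
    simp only [coe_mul, InvMemClass.coe_inv]
    group
  rw [h2]
  exact L.mul_mem (L.mul_mem g.2 h1) (L.inv_mem g.2)

end aux

/-- Let G be a finite group of characteristic p (C_G(O_p(G)) ≤ O_p(G)), p prime, T a Sylow p-subgroup of G and Q a normal subgroup of T with C_T(Q) ≤ Q. Then every subgroup L of G containing Q has characteristic p: C_L(O_p(L)) ≤ O_p(L). -/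
theorem result {G : Type*} [Group G] [Finite G] {p : ℕ} [Fact p.Prime] (hG : Subgroup.centralizer (Cfsg.pCore p G : Set G) ≤ Cfsg.pCore p G) (T : Sylow p G) (Q : Subgroup G) (hQT : Q ≤ (T : Subgroup G)) (hQn : (T : Subgroup G) ≤ Subgroup.normalizer (Q : Set G)) (hC : (T : Subgroup G) ⊓ Subgroup.centralizer (Q : Set G) ≤ Q) (L : Subgroup G) (hQL : Q ≤ L) : Subgroup.centralizer (Cfsg.pCore p ↥L : Set ↥L) ≤ Cfsg.pCore p ↥L := by

  classical
  obtain ⟨P, hP⟩ : ∃ P : Subgroup G, P = pCore p G := ⟨_, rfl⟩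
  haveI hPn : P.Normal := by rw [hP]; infer_instance
  have hPp : IsPGroup p P := by rw [hP]; exact Cfsg.Agent.Lib.Basic.PCore.pCore_isPGroup p
  have hcen : centralizer (P : Set G) ≤ P := by rw [hP]; exact hG
  have hPT : P ≤ (T : Subgroup G) := by
    rw [hP]
    exact Cfsg.Agent.Lib.Basic.PCore.pCore_le_sylow T
  rw [← isPGroup_Fstar_iff_centralizer_le p]
  apply isPGroup_of_forall_coprime p
  intro x hxF hxc
  -- `x` centralizes `P ∩ L`
  have hxR : x ∈ centralizer ((P.subgroupOf L : Subgroup L) : Set L) := by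
    rw [mem_centralizer_iff]
    intro r hr
    have hPLp : IsPGroup p ↥(P.subgroupOf L) := by
      rintro ⟨a, ha⟩
      obtain ⟨k, hk⟩ := hPp ⟨a, mem_subgroupOf.1 ha⟩
      refine ⟨k, Subtype.ext (Subtype.ext ?_)⟩
      simpa using congrArg Subtype.val hk
    have hr' : r ∈ pCore p ↥L := Cfsg.Agent.Lib.Basic.PCore.le_pCore inferInstance hPLp hr
    exact (commute_of_mem_generalizedFitting p hxF hxc hr').symm
  -- `x` centralizes `Q`
  have hxQ : ∀ q ∈ Q, (x : G) * q = q * x := by
    intro q hq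
    have hqB : (⟨q, hQL hq⟩ : L) ∈ stabB P L := by
      intro y hy
      have h1 : q * y * q⁻¹ * y⁻¹ ∈ Q := by
        have h2 : y * q⁻¹ * y⁻¹ ∈ Q :=
          (mem_normalizer_iff.1 (hQn (hPT hy)) _).1 (Q.inv_mem hq)
        have h3 : q * y * q⁻¹ * y⁻¹ = q * (y * q⁻¹ * y⁻¹) := by group
        rw [h3]
        exact Q.mul_mem hq h2
      exact hQL h1
    obtain ⟨c, hc⟩ : ∃ c : L, c = ⁅x, (⟨q, hQL hq⟩ : L)⁆ := ⟨_, rfl⟩
    have hcI : c ∈ centralizer ((P.subgroupOf L : Subgroup L) : Set L) ⊓ stabB P L := by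
      rw [hc]
      exact commutator_le_inf _ _ (commutator_mem_commutator hxR hqB)
    have hcP : IsPGroup p ↥(centralizer ((P.subgroupOf L : Subgroup L) : Set L) ⊓ stabB P L) := by
      apply isPGroup_of_forall_coprime p
      intro a ha hac
      have hac' : (orderOf (a : G)).Coprime p := by
        have h0 : orderOf (a : G) = orderOf a := Subgroup.orderOf_coe a
        rw [h0]
        exact hac
      have := eq_one_aux (a := (a : G)) hPp hcen hac' ?_
      · exact Subtype.ext this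
      · intro y hy
        have hm : (a : G) * y * (a : G)⁻¹ * y⁻¹ ∈ L := (mem_inf.1 ha).2 y hy
        have hm2 : (a : G) * y * (a : G)⁻¹ * y⁻¹ ∈ P :=
          P.mul_mem (hPn.conj_mem y hy _) (P.inv_mem hy)
        have := mem_centralizer_iff.1 (mem_inf.1 ha).1 ⟨_, hm⟩ (mem_subgroupOf.2 hm2)
        exact (congrArg Subtype.val this).symm
    have hcO : c ∈ pCore p ↥L := Cfsg.Agent.Lib.Basic.PCore.le_pCore inferInstance hcP hcI
    have hxc' : x * c = c * x := commute_of_mem_generalizedFitting p hxF hxc hcO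
    -- `q x q⁻¹ = c⁻¹ x`
    have h1 : (⟨q, hQL hq⟩ : L) * x * (⟨q, hQL hq⟩ : L)⁻¹ = c⁻¹ * x := by
      rw [hc, commutatorElement_def]
      group
    have h2 : c ^ orderOf x = 1 := by
      have h3 : ((⟨q, hQL hq⟩ : L) * x * (⟨q, hQL hq⟩ : L)⁻¹) ^ orderOf x = 1 := by
        rw [conj_pow, pow_orderOf_eq_one]
        group
      rw [h1, (show Commute c⁻¹ x from (Commute.inv_left hxc'.symm)).mul_pow,
        pow_orderOf_eq_one, mul_one, inv_pow, inv_eq_one] at h3
      exact h3
    obtain ⟨k, hk⟩ := hcP ⟨c, hcI⟩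
    have h3 : c ^ p ^ k = 1 := by simpa using congrArg Subtype.val hk
    have h4 : c = 1 := by
      have := pow_gcd_eq_one.2 ⟨h2, h3⟩
      rwa [Nat.Coprime.gcd_eq_one (hxc.pow_right k), pow_one] at this
    rw [h4] at hc
    have h5 := commutatorElement_eq_one_iff_mul_comm.1 hc.symm
    exact congrArg Subtype.val h5
  have hxc0 : (orderOf (x : G)).Coprime p := by rwa [Subgroup.orderOf_coe]
  have := eq_one_of_key (X := ⊤) (Y := L) (B := Q) (Q := P) (p := p) le_top hPp
    (by intro g _; rw [mem_normalizer_iff]; intro h; exact ⟨fun hh => hPn.conj_mem h hh g, fun hh => by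
      have := hPn.conj_mem _ hh g⁻¹
      simpa [mul_assoc] using this⟩)
    (by intro g _; rw [mem_normalizer_iff]; intro h; exact ⟨fun hh => hPn.conj_mem h hh g, fun hh => by
      have := hPn.conj_mem _ hh g⁻¹
      simpa [mul_assoc] using this⟩)
    (T.2.to_le hQT)
    (by
      rw [top_inf_eq]
      exact hcen)
    (fun z hz => hQL (hC ⟨hPT hz.1, hz.2⟩))
    (x := (x : G)) ⟨x, hxF, rfl⟩ hxc0
    (mem_centralizer_iff.2 fun q hq => (hxQ q hq).symm)
  exact Subtype.ext this

end Cfsg.Agent.S2961
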