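import Cfsg.Statements.S2963
import Mathlib
-- import your own Cfsg.Agent.* helpers here

set_option autoImplicit false
open Cfsg

namespace Cfsg.Agent.S2963

open scoped Pointwise

/-- Let n be odd. If the symmetric group of degree n is a minimal parabolic group for the prime 2, that is, a Sylow 2-subgroup is not normal and lies in exactly one maximal subgroup, then n = 2^m + 1 for some natural number m. -/
theorem result (n : ℕ) (hn : Odd n) (h : Cfsg.IsPMinimal 2 (Equiv.Perm (Fin n))) : ∃ m : ℕ, n = 2 ^ m + 1 := by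
  classical
  have : Fact (Nat.Prime 2) := ⟨Nat.prime_two⟩
  have hcard : Nat.card (Fin n) = n := by simp
  obtain ⟨S⟩ : Nonempty (Sylow 2 (Equiv.Perm (Fin n))) := inferInstance
  obtain ⟨hnn, M, -, hM⟩ := h S
  have hSp : IsPGroup 2 (S : Subgroup (Equiv.Perm (Fin n))) := S.isPGroup'
  -- a fixed point
  obtain ⟨a, ha⟩ : ∃ a : Fin n, ∀ g : (S : Subgroup (Equiv.Perm (Fin n))), g • a = a := by
    have h2 : ¬ 2 ∣ Nat.card (Fin n) := by
      rw [hcard]; exact hn.not_two_dvd_nat
    exact hSp.nonempty_fixed_point_of_prime_not_dvd_card (Fin n) h2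
  by_cases hx : ∃ x : Fin n, x ≠ a
  swap
  · -- n = 1
    push Not at hx
    have : Subsingleton (Fin n) := ⟨fun u v => by rw [hx u, hx v]⟩
    have : Subsingleton (Equiv.Perm (Fin n)) := inferInstance
    exact absurd ⟨fun u hu g => by
      have : g * u * g⁻¹ = u := Subsingleton.elim _ _
      rwa [this]⟩ hnn
  obtain ⟨x, hxa⟩ := hx
  let O : Set (Fin n) := MulAction.orbit (S : Subgroup (Equiv.Perm (Fin n))) x
  have haO : a ∉ O := by
    rintro ⟨g, hg⟩
    have := ha g
    simp only at hg
    exact hxa (smul_left_cancel g (hg.trans this.symm))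
  have hxO : x ∈ O := MulAction.mem_orbit_self x
  by_cases hc : ∃ c : Fin n, c ∉ O ∧ c ≠ a
  · exfalso
    obtain ⟨c, hcO, hca⟩ := hc
    have hodd : ∀ s : Set (Fin n), Nat.card (Fin n) ≠ 2 * s.ncard := by
      intro s hs
      rw [hcard] at hs
      exact hn.not_two_dvd_nat ⟨_, hs⟩
    have h1 : IsCoatom (MulAction.stabilizer (Equiv.Perm (Fin n)) ({a} : Set (Fin n))) :=
      Equiv.Perm.isCoatom_stabilizer (Set.singleton_nonempty a) ⟨x, by simpa using hxa⟩ (hodd _)
    have h2 : IsCoatom (MulAction.stabilizer (Equiv.Perm (Fin n)) O) :=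
      Equiv.Perm.isCoatom_stabilizer ⟨x, hxO⟩ ⟨c, hcO⟩ (hodd _)
    have hS1 : (S : Subgroup (Equiv.Perm (Fin n))) ≤
        MulAction.stabilizer (Equiv.Perm (Fin n)) ({a} : Set (Fin n)) := by
      intro g hg
      rw [MulAction.mem_stabilizer_iff, Set.smul_set_singleton]
      have := ha ⟨g, hg⟩
      rw [Set.singleton_eq_singleton_iff]
      exact this
    have hS2 : (S : Subgroup (Equiv.Perm (Fin n))) ≤ MulAction.stabilizer (Equiv.Perm (Fin n)) O := by
      intro g hg
      rw [MulAction.mem_stabilizer_iff]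
      have key : ∀ g' ∈ (S : Subgroup (Equiv.Perm (Fin n))), ∀ y ∈ O, g' • y ∈ O := by
        intro g' hg' y hy
        exact MulAction.mem_orbit_of_mem_orbit ⟨g', hg'⟩ hy
      ext y
      rw [Set.mem_smul_set_iff_inv_smul_mem]
      constructor
      · intro hy
        have := key g hg _ hy
        simpa using this
      · intro hy
        exact key g⁻¹ (inv_mem hg) y hy
    have e1 := hM _ ⟨h1, hS1⟩
    have e2 := hM _ ⟨h2, hS2⟩
    have hsw : Equiv.swap x c ∈ MulAction.stabilizer (Equiv.Perm (Fin n)) ({a} : Set (Fin n)) := by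
      rw [MulAction.mem_stabilizer_iff, Set.smul_set_singleton, Set.singleton_eq_singleton_iff]
      exact Equiv.swap_apply_of_ne_of_ne hxa.symm hca.symm
    rw [e1, ← e2, MulAction.mem_stabilizer_iff] at hsw
    have : c ∈ Equiv.swap x c • O := ⟨x, hxO, by simp⟩
    rw [hsw] at this
    exact hcO this
  · push Not at hc
    obtain ⟨m, hm⟩ := hSp.card_orbit x
    refine ⟨m, ?_⟩
    have hcompl : Oᶜ = {a} := by
      ext y
      simp only [Set.mem_compl_iff, Set.mem_singleton_iff]
      constructor
      · exact hc y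
      · rintro rfl; exact haO
    have := Set.ncard_add_ncard_compl O
    rw [hcompl, Set.ncard_singleton, hcard] at this
    have hO : O.ncard = 2 ^ m := hm
    omega

end Cfsg.Agent.S2963
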