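-- Statement S2987 (Cfsg.lsp2_subnormal_block_in_baumann_subgroup).
import Cfsg.Statements.S2987
import Cfsg.Agent.S2986
import Cfsg.Agent.Lib.BlockZ.Conj
import Cfsg.Agent.Lib.BlockZ.Offender
import Cfsg.Agent.Lib.BlockZ.BlockAll
import Cfsg.Agent.Lib.BlockZ.ExistsFixed
import Cfsg.Agent.Lib.BlockZ.PartFour
import Cfsg.Agent.Lib.BlockZ.Cover

set_option autoImplicit false
open Cfsg

namespace Cfsg.Agent.S2987

open Subgroup Cfsg.Agent.Lib.BlockZ Cfsg.Agent.Lib.BlockY Cfsg.Agent.Lib.PGroup.BaumannNorm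

/-- Let G be a finite group of characteristic p (C_G(O_p(G)) ≤ O_p(G)) and E a subnormal subgroup of G which is a B(T)-block for some Sylow p-subgroup T of G. Then E is a normal subgroup of the Baumann subgroup B(G) (generated by the B(T) over all Sylow p-subgroups T), E is a B(T')-block for every Sylow p-subgroup T' of G, and every subgroup F that is a B(T')-block for some Sylow p-subgroup T' satisfies F ≤ E or [F, E] = 1. -/
theorem result {G : Type*} [Group G] [Finite G] {p : ℕ} [Fact p.Prime] (hG : Subgroup.centralizer (Cfsg.pCore p G : Set G) ≤ Cfsg.pCore p G) (E : Subgroup G) (hE : ∃ T : Sylow p G, Cfsg.IsBaumannBlock p (T : Subgroup G) E) (hEs : E.IsSubnormal) : E ≤ Cfsg.baumannSubgroup p G ∧ Cfsg.baumannSubgroup p G ≤ Subgroup.normalizer (E : Set G) ∧ (∀ T' : Sylow p G, Cfsg.IsBaumannBlock p (T' : Subgroup G) E) ∧ ∀ F : Subgroup G, (∃ T' : Sylow p G, Cfsg.IsBaumannBlock p (T' : Subgroup G) F) → F ≤ E ∨ ⁅F, E⁆ = ⊥ := by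
  obtain ⟨T₀, hE0⟩ := hE
  have hconj : ∀ g : G, Cfsg.IsBaumannBlock p (cjg g (T₀ : Subgroup G)) (cjg g E) :=
    fun g => block_conj g hE0
  have hcross : ∀ g : G, cjg g E = E ∨ ⁅E, cjg g E⁆ = ⊥ := by
    intro g
    have h1 : ∃ T : Sylow p G, Cfsg.IsBaumannBlock p (T : Subgroup G) (cjg g E) :=
      ⟨g • T₀, by
        rw [coe_smul_sylow]
        exact hconj g⟩
    rcases Cfsg.Agent.S2986.result hG E (cjg g E) ⟨T₀, hE0⟩ h1 hEs (isSubnormal_cjg g hEs) with h | h
    · exact Or.inl h.symm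
    · exact Or.inr h
  have hJ := thompson_of_cross hG T₀ hE0 hEs hcross
  obtain ⟨h1, h2, h3⟩ := block_all T₀ hE0.2.1 hconj (V_le_M hG T₀ hE0) hcross hJ
    (fun S hS hSN => exists_fixed hG T₀ hE0 hEs hS hSN)
  refine ⟨h1, h2, h3, ?_⟩
  rintro F ⟨T', hF⟩
  have hFB : F ≤ Cfsg.baumannSubgroup p G := le_baumann T' hF.2.1
  have hFN := hFB.trans h2
  have hBE : Cfsg.baumannSubgroupOf p (T' : Subgroup G) ≤ normalizer (E : Set G) :=
    (le_iSup (fun T : Sylow p G => Cfsg.baumannSubgroupOf p (T : Subgroup G)) T').trans h2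
  exact part_four hG hE0 hF hEs hFN (cover hG hE0 hF hFN hBE)

end Cfsg.Agent.S2987
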