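import Cfsg.Statements.S2990
import Mathlib
import Cfsg.Agent.Lib.PushUp.CLG

set_option autoImplicit false
open Cfsg

namespace Cfsg.Agent.S2990

/-- Let G be a finite group and S a Sylow p-subgroup of G in the basic pushing-up situation (G ≠ 1, C_G(O_p(G)) ≤ O_p(G), S lies in a unique maximal subgroup of G, and some quotient of G is isomorphic to PSL₂ over a field of order a power of p), and suppose that S centralizes Z(J(S)), where J(S) is generated by the abelian subgroups of S of largest order (that is, J̃(S) = C_S(Z(J(S))) = S). Call a subgroup R of S centrally large if |R|·|Z(R)| is as large as possible among subgroups of S, let Q be a minimal centrally large subgroup of S and let S_MCL be the subgroup generated by all minimal centrally large subgroups of S. Then the derived subgroup [Q, Q] is characteristic in S; Z(S) ∩ [Q, Q] or S_MCL is normal in G; and if [Q, Q] = 1, the minimal centrally large subgroups of S are exactly the abelian subgroups of S of largest order. -/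
theorem result {G : Type*} [Group G] [Finite G] {p : ℕ} [Fact p.Prime] (S : Subgroup G) (hE : Cfsg.IsPushingUpSituation p S) (hJ : S ≤ Subgroup.centralizer (Cfsg.centerThompsonAOf S : Set G)) (Q : Subgroup ↥S) (hQ : Cfsg.IsMinimalCentrallyLarge Q) : (⁅Q, Q⁆).Characteristic ∧ (((S ⊓ Subgroup.centralizer (S : Set G)) ⊓ (⁅Q, Q⁆).map S.subtype).Normal ∨ ((Cfsg.minimalCentrallyLargeJoin ↥S).map S.subtype).Normal) ∧ (⁅Q, Q⁆ = ⊥ → ∀ R : Subgroup ↥S, Cfsg.IsMinimalCentrallyLarge R ↔ R ∈ Cfsg.maxAbelianSubgroups ↥S) := by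
  obtain ⟨_, ⟨P, rfl⟩, hcent, ⟨M, ⟨hM, hSM⟩, huniq⟩, K, hK, F, _, _, n, hF, hE₃⟩ := hE
  have hn : 1 ≤ n := by
    rcases Nat.eq_zero_or_pos n with h | h
    · rw [h, pow_zero] at hF
      exact absurd hF (Fintype.one_lt_card (α := F)).ne'
    · exact h
  have H := Cfsg.Agent.Lib.PushUp.Bridge.hyp_of_statement P hcent hM hSM
    (fun M' h1 h2 => huniq M' ⟨h1, h2⟩) K F n hn hF hE₃
  refine ⟨Cfsg.Agent.Lib.PushUp.CLG.char_commutator hQ, Cfsg.Agent.Lib.PushUp.CLG.main_cl H hQ, fun hab R => ?_⟩
  exact Cfsg.Agent.Lib.PushUp.CLG.abel_case hQ hab R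

end Cfsg.Agent.S2990
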