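import Cfsg.Statements.S2998
import Mathlib
import Cfsg.Agent.Lib.Basic.Conj
import Cfsg.Agent.Lib.Basic.SylowUtil
import Cfsg.Agent.Lib.PGroup.Basic
-- import your own Cfsg.Agent.* helpers here

set_option autoImplicit false
open Cfsg

namespace Cfsg.Agent.S2998

open Cfsg.Agent.Lib.Basic.Conj Cfsg.Agent.Lib.Basic.SylowUtil
open scoped Pointwise

section aux

variable {G : Type*} [Group G] [Finite G] {p : ℕ} [Fact p.Prime]

/-- A `p`-subgroup of `C` can be conjugated inside `C` into a given Sylow subgroup of `C`. -/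
theorem conj_into (C : Subgroup G) (Q : Sylow p C) (U : Subgroup G) (_hUC : U ≤ C)
    (hU : IsPGroup p U) :
    ∃ c : C, ∀ u : C, (u : G) ∈ U → c * u * c⁻¹ ∈ (Q : Subgroup C) := by
  have hU' : IsPGroup p (U.subgroupOf C) := hU.comap_subtype
  obtain ⟨Q', hQ'⟩ := hU'.exists_le_sylow
  obtain ⟨c, hc⟩ := MulAction.exists_smul_eq C Q' Q
  refine ⟨c, fun u hu => ?_⟩
  have h1 : u ∈ (Q' : Subgroup C) := hQ' hu
  have h2 : c * u * c⁻¹ ∈ ((c • Q' : Sylow p C) : Subgroup C) := by
    rw [Sylow.coe_subgroup_smul]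
    exact ⟨u, h1, rfl⟩
  rwa [hc] at h2

end aux

/-- Let G be a finite group, p a prime, P a Sylow p-subgroup of G and x ∈ P an element such that N_G(R) ≤ C_G(x) for every nontrivial subgroup R of P. Then P ≤ C_G(x); every G-conjugate of x lying in P equals x (so g ∈ C_G(x) whenever g x g⁻¹ ∈ P); and for every normal subgroup N of G, the image of x in G ⧸ N has the same property with respect to the image of P: the normalizer of every nontrivial subgroup of the image of P centralizes the image of x. -/
theorem result {G : Type*} [Group G] [Finite G] {p : ℕ} [Fact p.Prime] (P : Sylow p G) (x : G) (hxP : x ∈ (P : Subgroup G)) (hlc : ∀ R : Subgroup G, R ≤ (P : Subgroup G) → R ≠ ⊥ → Subgroup.normalizer (R : Set G) ≤ Subgroup.centralizer ({x} : Set G)) : (P : Subgroup G) ≤ Subgroup.centralizer ({x} : Set G) ∧ (∀ g : G, g * x * g⁻¹ ∈ (P : Subgroup G) → g * x * g⁻¹ = x) ∧ ∀ (N : Subgroup G) [N.Normal], ∀ R : Subgroup (G ⧸ N), R ≤ (P : Subgroup G).map (QuotientGroup.mk' N) → R ≠ ⊥ → Subgroup.normalizer (R : Set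 (G ⧸ N)) ≤ Subgroup.centralizer ({(QuotientGroup.mk x : G ⧸ N)} : Set (G ⧸ N)) := by
  classical
  have hCmem : ∀ y : G, y ∈ Subgroup.centralizer ({x} : Set G) ↔ y * x = x * y := by
    intro y
    rw [Subgroup.mem_centralizer_iff]
    constructor
    · intro h
      exact (h x rfl).symm
    · rintro h _ rfl
      exact h.symm
  have hPC : (P : Subgroup G) ≤ Subgroup.centralizer ({x} : Set G) := by
    by_cases hP : (P : Subgroup G) = ⊥
    · rw [hP]
      exact bot_le
    · exact Subgroup.le_normalizer.trans (hlc _ le_rfl hP)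
  refine ⟨hPC, ?_, ?_⟩
  · by_cases hx1 : x = 1
    · intro g _
      rw [hx1]
      group
    have hP1 : (P : Subgroup G) ≠ ⊥ := by
      intro h
      rw [h] at hxP
      exact hx1 hxP
    have key : ∀ d : ℕ, ∀ g : G,
        Nat.card (P : Subgroup G) - Nat.card ((P : Subgroup G) ⊓ MulAut.conj g • (P : Subgroup G) : Subgroup G) = d →
        g * x * g⁻¹ ∈ (P : Subgroup G) → g * x * g⁻¹ = x := by
      intro d
      induction d using Nat.strong_induction_on with
      | _ d ih =>
        intro g hd hy
        have hyS' : g * x * g⁻¹ ∈ MulAut.conj g • (P : Subgroup G) := conj_mem_conj_smul hxP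
        have hyT : g * x * g⁻¹ ∈ (P : Subgroup G) ⊓ MulAut.conj g • (P : Subgroup G) := ⟨hy, hyS'⟩
        have hy1 : g * x * g⁻¹ ≠ 1 := by
          intro h
          apply hx1
          have : x = g⁻¹ * (g * x * g⁻¹) * g := by group
          rw [this, h]
          group
        set T := (P : Subgroup G) ⊓ MulAut.conj g • (P : Subgroup G) with hT
        have hT1 : T ≠ ⊥ := by
          intro h
          rw [h] at hyT
          exact hy1 hyT
        have hTP : T ≤ P := inf_le_left
        have hS'p : IsPGroup p (MulAut.conj g • (P : Subgroup G) : Subgroup G) := P.isPGroup'.map _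
        by_cases hTS : T = MulAut.conj g • (P : Subgroup G)
        · have hle : MulAut.conj g • (P : Subgroup G) ≤ P := hTS ▸ inf_le_left
          have hgN : g ∈ Subgroup.normalizer ((P : Subgroup G) : Set G) :=
            mem_normalizer_of_conj_smul_le hle
          have hgC := (hCmem g).mp (hlc _ le_rfl hP1 hgN)
          rw [hgC]
          group
        · have hlt : T < MulAut.conj g • (P : Subgroup G) := lt_of_le_of_ne inf_le_right hTS
          obtain ⟨z, hzS', hzT, hzN⟩ := Cfsg.Agent.Lib.PGroup.Basic.exists_mem_normalizer_of_lt hS'p hlt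
          let U : Subgroup G := (MulAut.conj g • (P : Subgroup G)) ⊓ Subgroup.normalizer (T : Set G)
          have hUp : IsPGroup p U := hS'p.to_le inf_le_left
          have hUC : U ≤ Subgroup.centralizer ({x} : Set G) := inf_le_right.trans (hlc T hTP hT1)
          obtain ⟨c, hc⟩ := conj_into _ (P.subtype hPC) U hUC hUp
          have hcU : ∀ u ∈ U, (c : G) * u * (c : G)⁻¹ ∈ (P : Subgroup G) := by
            intro u hu
            have := hc ⟨u, hUC hu⟩ hu
            rw [Sylow.coe_subtype] at this
            exact this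
          have hTU : T ≤ U := le_inf inf_le_right Subgroup.le_normalizer
          have hy' : (c * g : G) * x * (c * g : G)⁻¹ ∈ (P : Subgroup G) := by
            have := hcU _ (hTU hyT)
            have h2 : (c * g : G) * x * (c * g : G)⁻¹ = (c : G) * (g * x * g⁻¹) * (c : G)⁻¹ := by group
            rw [h2]
            exact this
          have hUle : MulAut.conj (c : G) • U ≤ (P : Subgroup G) ⊓ MulAut.conj ((c : G) * g) • (P : Subgroup G) := by
            rintro _ ⟨u, hu, rfl⟩
            refine ⟨hcU u hu, ?_⟩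
            rw [conj_mul_smul]
            exact conj_mem_conj_smul hu.1
          have hcardU : Nat.card T < Nat.card U := by
            by_contra hcon
            push Not at hcon
            have h := Subgroup.eq_of_le_of_card_ge hTU hcon
            exact hzT (h ▸ (⟨hzS', hzN⟩ : z ∈ U))
          have hcardU' : Nat.card U ≤ Nat.card ((P : Subgroup G) ⊓ MulAut.conj ((c : G) * g) • (P : Subgroup G) : Subgroup G) := by
            rw [← card_conj_smul (c : G) U]
            exact Subgroup.card_le_of_le hUle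
          have hcardP : Nat.card ((P : Subgroup G) ⊓ MulAut.conj ((c : G) * g) • (P : Subgroup G) : Subgroup G) ≤ Nat.card (P : Subgroup G) :=
            Subgroup.card_le_of_le inf_le_left
          have hlt' : Nat.card (P : Subgroup G) - Nat.card ((P : Subgroup G) ⊓ MulAut.conj ((c : G) * g) • (P : Subgroup G) : Subgroup G) < d := by
            omega
          have h3 := ih _ hlt' ((c : G) * g) rfl hy'
          have hcx : (c : G) * x = x * c := (hCmem c).mp c.2
          have h4 : (c : G) * (g * x * g⁻¹) * (c : G)⁻¹ = x := by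
            calc (c : G) * (g * x * g⁻¹) * (c : G)⁻¹ = (c * g : G) * x * (c * g : G)⁻¹ := by group
              _ = x := h3
          calc g * x * g⁻¹ = (c : G)⁻¹ * ((c : G) * (g * x * g⁻¹) * (c : G)⁻¹) * c := by group
            _ = (c : G)⁻¹ * x * c := by rw [h4]
            _ = (c : G)⁻¹ * (x * c) := by group
            _ = (c : G)⁻¹ * ((c : G) * x) := by rw [hcx]
            _ = x := by group
    intro g hg
    exact key _ g rfl hg
  · intro N _ R hRP hR1 gbar hgbar
    obtain ⟨g, rfl⟩ := QuotientGroup.mk_surjective gbar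
    let mk' := QuotientGroup.mk' N
    let T : Subgroup G := R.comap mk'
    have hNT : N ≤ T := by
      intro n hn
      show (QuotientGroup.mk n : G ⧸ N) ∈ R
      rw [(QuotientGroup.eq_one_iff n).mpr hn]
      exact R.one_mem
    let Q : Subgroup G := (P : Subgroup G) ⊓ T
    have hdecomp : ∀ t ∈ T, ∃ a ∈ Q, ∃ n ∈ N, t = a * n := by
      intro t ht
      obtain ⟨a, ha, hat⟩ := hRP ht
      have hat' : (QuotientGroup.mk a : G ⧸ N) = QuotientGroup.mk t := hat
      have hn : a⁻¹ * t ∈ N := QuotientGroup.eq.mp hat'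
      have hamem : a ∈ T := by
        show (QuotientGroup.mk a : G ⧸ N) ∈ R
        rw [hat']
        exact ht
      exact ⟨a, ⟨ha, hamem⟩, a⁻¹ * t, hn, by group⟩
    have hQ1 : Q ≠ ⊥ := by
      intro hQ
      apply hR1
      rw [eq_bot_iff]
      intro r hr
      obtain ⟨t, rfl⟩ := QuotientGroup.mk_surjective r
      obtain ⟨a, ha, n, hn, htan⟩ := hdecomp t hr
      rw [hQ] at ha
      have ha1 : a = 1 := ha
      rw [ha1, one_mul] at htan
      rw [htan]
      show (QuotientGroup.mk n : G ⧸ N) = 1
      exact (QuotientGroup.eq_one_iff n).mpr hn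
    obtain ⟨Q₁, hQ₁⟩ := exists_sylow_inf_normal P N
    have hmax : ∀ Q₀ : Subgroup G, IsPGroup p Q₀ → Q ≤ Q₀ → Q₀ ≤ T → Q₀ ≤ Q := by
      intro Q₀ hQ₀ hQQ₀ hQ₀T y hy
      obtain ⟨a, ha, n, hn, hyan⟩ := hdecomp y (hQ₀T hy)
      have hnQ₀ : n ∈ Q₀ := by
        have : n = a⁻¹ * y := by rw [hyan]; group
        rw [this]
        exact Q₀.mul_mem (Q₀.inv_mem (hQQ₀ ha)) hy
      have hsub : (Q₁ : Subgroup N) ≤ Q₀.subgroupOf N := by
        intro m hm
        have h1 : (m : G) ∈ (P : Subgroup G) ⊓ N := by
          rw [← hQ₁]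
          exact ⟨m, hm, rfl⟩
        exact hQQ₀ ⟨h1.1, hNT h1.2⟩
      have hpsub : IsPGroup p (Q₀.subgroupOf N) := hQ₀.comap_subtype
      have heq := Q₁.is_maximal' hpsub hsub
      have hnQ₁ : (⟨n, hn⟩ : N) ∈ (Q₁ : Subgroup N) := by
        rw [← heq]
        exact hnQ₀
      have hnP : n ∈ (P : Subgroup G) ⊓ N := by
        rw [← hQ₁]
        exact ⟨⟨n, hn⟩, hnQ₁, rfl⟩
      rw [hyan]
      exact Q.mul_mem ha ⟨hnP.1, hNT hnP.2⟩
    have hQp : IsPGroup p Q := P.isPGroup'.to_le inf_le_left
    let QS : Sylow p T :=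
      { toSubgroup := Q.subgroupOf T
        isPGroup' := hQp.comap_subtype
        is_maximal' := by
          intro Q' hQ' hle
          have hp0 : IsPGroup p (Q'.map T.subtype) := hQ'.map _
          have hle1 : Q ≤ Q'.map T.subtype := by
            intro y hy
            exact ⟨⟨y, hy.2⟩, hle hy, rfl⟩
          have hle2 : Q'.map T.subtype ≤ T := Subgroup.map_subtype_le _
          have hle3 := hmax _ hp0 hle1 hle2
          apply le_antisymm _ hle
          intro y hy
          exact hle3 ⟨y, hy, rfl⟩ }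
    have hgT : ∀ t ∈ T, g * t * g⁻¹ ∈ T := by
      intro t ht
      have h1 := (Subgroup.mem_normalizer_iff.mp hgbar (QuotientGroup.mk t)).mp ht
      exact h1
    have hQ₂T : MulAut.conj g • Q ≤ T := by
      rintro _ ⟨q, hq, rfl⟩
      exact hgT q hq.2
    have hQ₂p : IsPGroup p (MulAut.conj g • Q : Subgroup G) := hQp.map _
    obtain ⟨r, hr⟩ := conj_into T QS _ hQ₂T hQ₂p
    have hrgN : (r : G) * g ∈ Subgroup.normalizer (Q : Set G) := by
      apply mem_normalizer_of_conj_smul_le
      rintro _ ⟨q, hq, rfl⟩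
      have h1 := hr ⟨g * q * g⁻¹, hgT q hq.2⟩ (conj_mem_conj_smul hq)
      have h2 : (r : G) * (g * q * g⁻¹) * (r : G)⁻¹ ∈ Q := h1
      have h3 : MulAut.conj ((r : G) * g) • q = (r : G) * (g * q * g⁻¹) * (r : G)⁻¹ := by
        show ((r : G) * g) * q * ((r : G) * g)⁻¹ = _
        group
      show MulAut.conj ((r : G) * g) • q ∈ Q
      rw [h3]
      exact h2
    obtain ⟨a, ha, n, hn, hran⟩ := hdecomp r r.2
    have hh : a⁻¹ * ((r : G) * g) ∈ Subgroup.normalizer (Q : Set G) :=
      Subgroup.mul_mem _ (Subgroup.inv_mem _ (Subgroup.le_normalizer ha)) hrgN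
    have hC := (hCmem _).mp (hlc Q inf_le_left hQ1 hh)
    have hmkg : (QuotientGroup.mk (a⁻¹ * ((r : G) * g)) : G ⧸ N) = QuotientGroup.mk g := by
      rw [QuotientGroup.eq]
      have : (a⁻¹ * ((r : G) * g))⁻¹ * g = g⁻¹ * n⁻¹ * g := by
        rw [hran]
        group
      rw [this]
      have := (inferInstance : N.Normal).conj_mem n⁻¹ (N.inv_mem hn) g⁻¹
      simpa using this
    rw [Subgroup.mem_centralizer_iff]
    rintro _ rfl
    rw [← hmkg, ← QuotientGroup.mk_mul, ← QuotientGroup.mk_mul, hC]

end Cfsg.Agent.S2998
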