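import Cfsg.Statements.S2999
import Cfsg.Agent.Lib.PGroup.OffSL2
import Cfsg.Agent.Lib.PGroup.VRep
import Cfsg.Agent.Lib.PGroup.Timmesfeld
-- import your own Cfsg.Agent.* helpers here

set_option autoImplicit false
open Cfsg

namespace Cfsg.Agent.S2999

open Cfsg.Agent.Lib.PGroup.OffPair Cfsg.Agent.Lib.PGroup.VRep Cfsg.Agent.Lib.PGroup.VRep.VMod
open scoped commutatorElement

/-- Let p be a prime and let P and V be subgroups of a finite group with V elementary abelian, P normalizing V and acting faithfully on it (P ∩ C(V) = 1). Suppose P is p-minimal (a Sylow p-subgroup T of P is not normal and lies in a unique maximal subgroup M of P) and A ≤ T is an elementary abelian subgroup such that: |V/C_V(A)| ≤ |A| while |A₀|·|C_V(A₀)| < |A|·|C_V(A)| for every nontrivial proper subgroup A₀ of A; [C_V(T), P] ≠ 1; and P = ⟨A, xAx⁻¹⟩ for every x ∈ P outside M. Then, with q = |A|, there is a field F with q elements such that P ≅ SL₂(F), C_V(A) = [V, A]·C_V(P), and P acts on V/C_V(P) as SL₂(F) on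 its natural two-dimensional module. -/
theorem result {G : Type*} [Group G] [Finite G] {p : ℕ} [Fact p.Prime] (V P : Subgroup G) (hV : Cfsg.IsElementaryAbelian p V) (hPV : P ≤ Subgroup.normalizer (V : Set G)) (hfaith : P ⊓ Subgroup.centralizer (V : Set G) = ⊥) (hmin : Cfsg.IsPMinimal p ↥P) (T : Sylow p ↥P) (M : Subgroup ↥P) (hM : IsCoatom M) (hTM : (T : Subgroup ↥P) ≤ M) (A : Subgroup G) (hAT : A ≤ ((T : Subgroup ↥P).map P.subtype)) (hAel : Cfsg.IsElementaryAbelian p A) (hi : Nat.card ↥V ≤ Nat.card ↥A * Nat.card ↥(V ⊓ Subgroup.centralizer ((A : Subgroup G) : Set G)) ∧ ∀ A₀ : Subgroup G, A₀ ≤ A → A₀ ≠ ⊥ → A₀ ≠ A → Nat.card ↥A₀ * Nat.card ↥(V ⊓ Subgroup.centralizer ((A₀ : Subgroup G) : Set G)) < Nat.card ↥A * Nat.card ↥(V ⊓ Subgroup.centralizer ((A : Subgroup G) : Set G))) (hii : ⁅(V ⊓ Subgroup.centralizer ((((T : Subgroup ↥P).map P.subtype) : Subgroup G) : Set G)), P⁆ ≠ ⊥) (hiii : ∀ x : ↥P, x ∉ M → A ⊔ A.map (MulAut.conj (x : G)).toMonoidHom = P) : ∃ (F : Type) (_ : Field F) (_ : Fintype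 F), Fintype.card F = Nat.card ↥A ∧ Nonempty (↥P ≃* Matrix.SpecialLinearGroup (Fin 2) F) ∧ (V ⊓ Subgroup.centralizer ((A : Subgroup G) : Set G)) = ⁅V, A⁆ ⊔ (V ⊓ Subgroup.centralizer ((P : Subgroup G) : Set G)) ∧ Cfsg.ActsAsSL2OnSection F ⊤ P V (V ⊓ Subgroup.centralizer ((P : Subgroup G) : Set G)) := by
  classical
  have hAP : A ≤ P := hAT.trans (by
    rintro _ ⟨t, _, rfl⟩
    exact t.2)
  let A' : Subgroup ↥P := A.subgroupOf P
  have hA'map : A'.map P.subtype = A := Subgroup.map_subgroupOf_eq_of_le hAP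
  have hTop : (⊤ : Subgroup ↥P).map P.subtype = P := by
    ext z
    constructor
    · rintro ⟨g, _, rfl⟩
      exact g.2
    · intro hz
      exact ⟨⟨z, hz⟩, trivial, rfl⟩
  have hMne : ∃ x : ↥P, x ∉ M := by
    by_contra h
    push Not at h
    exact hM.1 (eq_top_iff.2 fun x _ => h x)
  have hAne : A ≠ ⊥ := by
    intro h
    obtain ⟨x, hx⟩ := hMne
    have h1 := hiii x hx
    rw [h, Subgroup.map_bot, sup_idem] at h1
    apply hx
    have h2 : (x : G) ∈ (⊥ : Subgroup G) := by
      rw [h1]; exact x.2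
    have h3 : x = 1 := Subtype.ext h2
    rw [h3]
    exact M.one_mem
  have hAV : A ≤ Subgroup.normalizer (V : Set G) := hAP.trans hPV
  have hAcomm : ∀ a ∈ A, ∀ b ∈ A, a * b = b * a := by
    intro a ha b hb
    have := hAel.1.is_comm.comm (⟨a, ha⟩ : A) ⟨b, hb⟩
    exact congrArg Subtype.val this
  have hbest : Cfsg.IsBestOffenderOn p V A := by
    refine ⟨?_, ?_, ?_⟩
    · intro B hB
      by_cases h1 : B = ⊥
      · subst h1
        have h2 : V ⊓ Subgroup.centralizer (((⊥ : Subgroup G) : Subgroup G) : Set G) = V := by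
          rw [inf_eq_left]
          intro v _
          refine Subgroup.mem_centralizer_iff.2 (fun g hg => ?_)
          have hg1 : g = 1 := hg
          rw [hg1, one_mul, mul_one]
        rw [h2]
        simpa using hi.1
      · by_cases h2 : B = A
        · rw [h2]
        · exact (hi.2 B hB h1 h2).le
    · refine Subgroup.commutator_le.2 (fun a ha b hb => ?_)
      have h1 : ⁅a, b⁆ = 1 := by
        rw [commutatorElement_eq_one_iff_mul_comm]
        exact hAcomm a ha b hb
      rw [h1]
      exact Subgroup.one_mem _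
    · intro a ha
      rw [hAel.2 a ha]
      exact Subgroup.one_mem _
  obtain ⟨_, _, h3, h4⟩ := Cfsg.Agent.Lib.PGroup.Timmesfeld.timmesfeld V A hV hAV hbest V le_rfl
  have hVA : ⁅V, A⁆ ≠ ⊥ := by
    intro h
    apply hAne
    rw [eq_bot_iff]
    intro a ha
    have h1 : a ∈ P ⊓ Subgroup.centralizer (V : Set G) := by
      refine ⟨hAP ha, Subgroup.mem_centralizer_iff.2 (fun v hv => ?_)⟩
      have h2 : ⁅v, a⁆ ∈ ⁅V, A⁆ := Subgroup.commutator_mem_commutator hv ha
      rw [h] at h2
      have h3 : ⁅v, a⁆ = 1 := h2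
      rw [commutatorElement_eq_one_iff_mul_comm] at h3
      exact h3
    rwa [hfaith] at h1
  have hstar : A ⊓ Subgroup.centralizer ((⁅V, A⁆ : Subgroup G) : Set G) = A := by
    by_contra hne
    have hne2 : A ⊓ Subgroup.centralizer ((⁅V, A⁆ : Subgroup G) : Set G) ≠ ⊥ := by
      intro h
      have := h3 hVA
      rw [h] at this
      simp at this
    have := hi.2 _ inf_le_left hne2 hne
    omega
  have hAstar : ∀ a ∈ A, ∀ z ∈ ⁅V, A⁆, a * z = z * a := by
    intro a ha z hz
    have h1 : a ∈ A ⊓ Subgroup.centralizer ((⁅V, A⁆ : Subgroup G) : Set G) := by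
      rw [hstar]; exact ha
    exact (Subgroup.mem_centralizer_iff.1 h1.2 z hz).symm
  have hfxA : ∀ w : VMod p V hV, w ∈ fx (vRep hV hPV) A' ↔ val w ∈ V ⊓ Subgroup.centralizer (A : Set G) := by
    intro w
    rw [mem_fx_iff, hA'map]
  have hfxTop : ∀ w : VMod p V hV, w ∈ fx (vRep hV hPV) (⊤ : Subgroup ↥P) ↔
      val w ∈ V ⊓ Subgroup.centralizer (P : Set G) := by
    intro w
    rw [mem_fx_iff, hTop]
  have hcommV : ∀ a ∈ A, ∀ v ∈ V, a * v * a⁻¹ * v⁻¹ ∈ ⁅V, A⁆ := by
    intro a ha v hv
    have h1 : ⁅v, a⁆ ∈ ⁅V, A⁆ := Subgroup.commutator_mem_commutator hv ha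
    have h2 := Subgroup.inv_mem _ h1
    have h3 : ⁅v, a⁆⁻¹ = a * v * a⁻¹ * v⁻¹ := by
      rw [commutatorElement_def]
      group
    rwa [h3] at h2
  have hcardA' : Nat.card A' = Nat.card A := by
    rw [← hA'map]
    exact (Nat.card_congr (Subgroup.equivMapOfInjective A' P.subtype P.subtype_injective).toEquiv)
  have hcardFx : Nat.card (fx (vRep hV hPV) A') = Nat.card ↥(V ⊓ Subgroup.centralizer (A : Set G)) := by
    rw [card_fx, hA'map]
  have S : Off (vRep hV hPV) A' M T :=
    { inj := vRep_injective hPV hfaith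
      ne_top := hM.1
      hTM := hTM
      huniq := by
        intro L hTL hL
        obtain ⟨M', hM', hLM'⟩ := (eq_top_or_exists_le_coatom L).resolve_left hL
        obtain ⟨M₀, _, hu⟩ := (hmin T).2
        have h1 := hu M ⟨hM, hTM⟩
        have h2 := hu M' ⟨hM', hTL.trans hLM'⟩
        rw [h1, ← h2]
        exact hLM'
      hAT := by
        intro a ha
        obtain ⟨t, ht, hte⟩ := hAT ha
        have : t = a := Subtype.ext hte
        rwa [← this]
      hquad := by
        intro a ha w
        rw [hfxA]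
        have hz : val (vRep hV hPV a w - w) = (a : G) * val w * (a : G)⁻¹ * (val w)⁻¹ := rfl
        refine ⟨(vRep hV hPV a w - w).mem, Subgroup.mem_centralizer_iff.2 (fun b hb => ?_)⟩
        rw [hz]
        exact hAstar b hb _ (hcommV _ ha _ w.mem)
      H1 := by
        rw [hcardA', hcardFx]
        exact hi.1
      H2 := by
        intro A₀ hA₀ hne1 hne2
        rw [hcardA', hcardFx]
        have h1 := hi.2 (A₀.map P.subtype) (by
            rintro _ ⟨a, ha, rfl⟩
            exact hA₀ ha) (by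
            intro h
            apply hne1
            exact (Subgroup.map_eq_bot_iff_of_injective _ P.subtype_injective).1 h) (by
            intro h
            apply hne2
            apply Subgroup.map_injective P.subtype_injective
            rw [h, hA'map])
        rw [card_fx]
        have h2 : Nat.card A₀ = Nat.card (A₀.map P.subtype) :=
          Nat.card_congr (Subgroup.equivMapOfInjective A₀ P.subtype P.subtype_injective).toEquiv
        rw [h2]
        exact h1
      H3 := by
        by_contra h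
        push Not at h
        apply hii
        refine Subgroup.commutator_eq_bot_iff_le_centralizer.2 ?_
        intro v hv
        refine Subgroup.mem_centralizer_iff.2 (fun g hg => ?_)
        have h1 : mk hV v hv.1 ∈ fx (vRep hV hPV) (T : Subgroup ↥P) := (mem_fx_iff hPV _ _).2 hv
        have h2 := (hfxTop _).1 (h _ h1)
        exact Subgroup.mem_centralizer_iff.1 h2.2 g hg
      H4 := by
        intro x hx
        apply Subgroup.map_injective P.subtype_injective
        rw [Subgroup.map_sup, hA'map, hTop]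
        refine Eq.trans ?_ (hiii x hx)
        congr 1
        ext z
        constructor
        · rintro ⟨_, ⟨a, ha, rfl⟩, rfl⟩
          exact ⟨a.1, ha, rfl⟩
        · rintro ⟨a, ha, rfl⟩
          have ha' : a ∈ P := hAP ha
          exact ⟨x * ⟨a, ha'⟩ * x⁻¹, ⟨⟨a, ha'⟩, ha, rfl⟩, rfl⟩ }
  obtain ⟨F, fF, fintypeF, hcard, ψ, θ, hsurj, hker, hequiv⟩ := Cfsg.Agent.Lib.PGroup.OffSL2.Off.main S
  refine ⟨F, fF, fintypeF, hcard.trans hcardA', ⟨θ⟩, ?_, ?_⟩
  · apply le_antisymm
    · intro v hv
      obtain ⟨x, hx⟩ := hMne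
      obtain ⟨u, huT, huC⟩ := S.H3
      have huA : u ∈ fx (vRep hV hPV) A' := fx_anti S.hAT huT
      have hy : vRep hV hPV x u ∈ fx (vRep hV hPV) (cj x A') := act_mem_fx_cj x huA
      have hyC : vRep hV hPV x u ∉ fx (vRep hV hPV) (⊤ : Subgroup ↥P) := by
        intro h
        apply huC
        have h1 := act_C h x⁻¹
        rw [rho_inv_rho] at h1
        rw [h1]
        exact h
      obtain ⟨a, ha, hac⟩ := S.reg_surj hx hy hyC ((hfxA (mk hV v hv.1)).2 hv)
      set y := vRep hV hPV x u with hydef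
      have h1 := (hfxTop _).1 hac
      have h2 : val (vRep hV hPV a y - y - mk hV v hv.1) =
          ((a : G) * val y * (a : G)⁻¹ * (val y)⁻¹) * v⁻¹ := rfl
      rw [h2] at h1
      have h3 : ∀ X v : G, v = (X * v⁻¹)⁻¹ * X := fun X v => by group
      rw [h3 ((a : G) * val y * (a : G)⁻¹ * (val y)⁻¹) v, sup_comm]
      exact Subgroup.mul_mem_sup (Subgroup.inv_mem _ h1) (hcommV _ ha _ y.mem)
    · refine sup_le ?_ (inf_le_inf_left _ (Subgroup.centralizer_le (by exact_mod_cast hAP)))
      refine Subgroup.commutator_le.2 (fun v hv a ha => ?_)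
      refine ⟨?_, Subgroup.mem_centralizer_iff.2 (fun b hb => hAstar b hb _
        (Subgroup.commutator_mem_commutator hv ha))⟩
      have h1 := (Subgroup.mem_normalizer_iff.1 (hAV ha) v⁻¹).1 (V.inv_mem hv)
      rw [commutatorElement_def, mul_assoc, mul_assoc]
      have h2 : v * (a * (v⁻¹ * a⁻¹)) = v * (a * v⁻¹ * a⁻¹) := by group
      rw [h2]
      exact V.mul_mem hv h1
  · refine ⟨hPV, inf_le_left, θ.toMonoidHom, ?_, ?_, ?_, ?_, ?_⟩
    · exact
        { toFun := fun v => Multiplicative.ofAdd (ψ (mk hV v.1 v.2))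
          map_one' := by
            show Multiplicative.ofAdd (ψ 0) = 1
            rw [map_zero]
            rfl
          map_mul' := fun v w => by
            show Multiplicative.ofAdd (ψ (mk hV v.1 v.2 + mk hV w.1 w.2)) = _
            rw [map_add]
            rfl }
    · exact MonoidHom.range_eq_top.2 θ.surjective
    · intro z
      obtain ⟨w, hw⟩ := hsurj z.toAdd
      exact ⟨⟨val w, w.mem⟩, hw⟩
    · intro u
      have h1 : (Multiplicative.ofAdd (ψ (mk hV u.1 u.2)) = 1) ↔ ψ (mk hV u.1 u.2) = 0 := Iff.rfl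
      refine h1.trans ((hker _).trans ?_)
      refine (hfxTop _).trans ?_
      rfl
    · intro e u
      refine ⟨⟨(e : G) * u.1 * (e : G)⁻¹, (Subgroup.mem_normalizer_iff.1 (hPV e.2) _).1 u.2⟩, rfl, ?_⟩
      exact hequiv e (mk hV u.1 u.2)

end Cfsg.Agent.S2999
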