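import Cfsg.Statements.S3003
import Cfsg.Agent.Lib.Coprime.Three
import Cfsg.Agent.Lib.Coprime.Coset
import Cfsg.Agent.Lib.Coprime.GenerationE
import Cfsg.Agent.Lib.PGroup.Basic
import Mathlib

set_option autoImplicit false
open Cfsg

namespace Cfsg.Agent.S3003

open Cfsg.Agent.Lib.Coprime.Three Cfsg.Agent.Lib.PGroup.Basic

/-- Let G be a finite group, p a prime and Q a large p-subgroup of G: C_G(Q) ≤ Q and N_G(U) ≤ N_G(Q) for every nontrivial subgroup U of C_G(Q). Let Q ≤ G₁ ≤ G, let R be a subgroup of order prime to p normalized by G₁, and let U ≤ G₁ be a p-subgroup. If U contains a nontrivial element which is G₁-conjugate to an element of Z(Q), then C_R(U) = 1. In particular, if U is elementary abelian of order at least p² and every maximal subgroup of U contains a nontrivial element G₁-conjugate into Z(Q), then R = 1. -/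
theorem result {G : Type*} [Group G] [Finite G] {p : ℕ} [Fact p.Prime] (Q : Subgroup G) (hQp : IsPGroup p ↥Q) (hlarge : Cfsg.IsLarge Q) (G₁ : Subgroup G) (hQG : Q ≤ G₁) (R : Subgroup G) (hR : (Nat.card ↥R).Coprime p) (hGR : G₁ ≤ Subgroup.normalizer (R : Set G)) (U : Subgroup G) (hUG : U ≤ G₁) (hUp : IsPGroup p ↥U) : ((∃ x ∈ U, x ≠ 1 ∧ ∃ g ∈ G₁, g * x * g⁻¹ ∈ Q ⊓ Subgroup.centralizer (Q : Set G)) → R ⊓ Subgroup.centralizer (U : Set G) = ⊥) ∧ (Cfsg.IsElementaryAbelian p U → p ^ 2 ≤ Nat.card ↥U → (∀ U₀ : Subgroup G, U₀ ≤ U → IsCoatom (U₀.subgroupOf U) → ∃ x ∈ U₀, x ≠ 1 ∧ ∃ g ∈ G₁, g * x * g⁻¹ ∈ Q ⊓ Subgroup.centralizer (Q : Set G)) → R = ⊥) := by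
  classical
  have hpp : p.Prime := Fact.out
  have hinf : R ⊓ Q = ⊥ := by
    apply Cfsg.Agent.Lib.Coprime.Coset.inf_eq_bot_of_coprime
    obtain ⟨n, hn⟩ := IsPGroup.iff_card.mp hQp
    rw [hn]
    exact Nat.Coprime.pow_right n hR
  have key : ∀ U' : Subgroup G, (∃ x ∈ U', x ≠ 1 ∧ ∃ g ∈ G₁, g * x * g⁻¹ ∈ Q ⊓ Subgroup.centralizer (Q : Set G)) →
      R ⊓ Subgroup.centralizer (U' : Set G) = ⊥ := by
    rintro U' ⟨x, hxU, hx1, g, hg, hy⟩
    rw [eq_bot_iff]
    rintro r ⟨hrR, hrC⟩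
    rw [Subgroup.mem_bot]
    have hr'R : g * r * g⁻¹ ∈ R := conj_mem_of_mem_normalizer (hGR hg) hrR
    have hrx : x * r = r * x := (Subgroup.mem_centralizer_iff.mp hrC) x hxU
    have hr'y : (g * r * g⁻¹) * (g * x * g⁻¹) = (g * x * g⁻¹) * (g * r * g⁻¹) := by
      calc (g * r * g⁻¹) * (g * x * g⁻¹) = g * (r * x) * g⁻¹ := by group
        _ = g * (x * r) * g⁻¹ := by rw [hrx]
        _ = (g * x * g⁻¹) * (g * r * g⁻¹) := by group
    have hy1 : g * x * g⁻¹ ≠ 1 := by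
      intro h
      apply hx1
      have : g * x * g⁻¹ = g * 1 * g⁻¹ := by rw [h]; group
      simpa using this
    have hYC : Subgroup.zpowers (g * x * g⁻¹) ≤ Subgroup.centralizer (Q : Set G) :=
      Subgroup.zpowers_le.mpr hy.2
    have hYne : Subgroup.zpowers (g * x * g⁻¹) ≠ ⊥ := by simpa using hy1
    have hr'N : g * r * g⁻¹ ∈ Subgroup.normalizer (Subgroup.zpowers (g * x * g⁻¹) : Set G) := by
      apply mem_normalizer_of_conj_mem
      rintro _ ⟨k, rfl⟩
      have h3 : Commute (g * r * g⁻¹) (g * x * g⁻¹) := hr'y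
      refine ⟨k, ?_⟩
      simp only
      rw [(h3.zpow_right k).eq]; group
    have hr'NQ := hlarge.2 _ hYC hYne hr'N
    have hr'CQ : g * r * g⁻¹ ∈ Subgroup.centralizer (Q : Set G) := by
      refine Subgroup.mem_centralizer_iff.mpr ?_
      intro q hq
      have h1 : (g * r * g⁻¹) * q * (g * r * g⁻¹)⁻¹ * q⁻¹ ∈ Q :=
        Q.mul_mem (conj_mem_of_mem_normalizer hr'NQ hq) (Q.inv_mem hq)
      have h2 : (g * r * g⁻¹) * (q * (g * r * g⁻¹)⁻¹ * q⁻¹) ∈ R :=
        R.mul_mem hr'R (conj_mem_of_mem_normalizer (hGR (hQG hq)) (R.inv_mem hr'R))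
      have h3 : (g * r * g⁻¹) * q * (g * r * g⁻¹)⁻¹ * q⁻¹ ∈ R ⊓ Q := ⟨by
        have : (g * r * g⁻¹) * q * (g * r * g⁻¹)⁻¹ * q⁻¹ = (g * r * g⁻¹) * (q * (g * r * g⁻¹)⁻¹ * q⁻¹) := by group
        rw [this]; exact h2, h1⟩
      rw [hinf, Subgroup.mem_bot] at h3
      rw [mul_inv_eq_one, mul_inv_eq_iff_eq_mul] at h3
      exact h3.symm
    have hr'Q : g * r * g⁻¹ ∈ Q := hlarge.1 hr'CQ
    have h4 : g * r * g⁻¹ ∈ R ⊓ Q := ⟨hr'R, hr'Q⟩
    rw [hinf, Subgroup.mem_bot] at h4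
    have : g * r * g⁻¹ = g * 1 * g⁻¹ := by rw [h4]; group
    simpa using this
  refine ⟨key U, fun hU hcard hmax => ?_⟩
  have hRnd : ¬ p ∣ Nat.card ↥R := fun h => by
    have := Nat.Coprime.eq_one_of_dvd hR.symm h
    exact hpp.one_lt.ne' this
  have hgen := Cfsg.Agent.Lib.Coprime.GenerationE.le_iSup_relIndex_le U R hU hRnd (hUG.trans hGR)
  rw [eq_bot_iff]
  refine hgen.trans (iSup_le ?_)
  rintro ⟨B, hBU, hBi⟩
  simp only
  -- the subgroup `B` contains a good maximal subgroup or is one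
  have hUpp : IsPGroup p ↥U := hUp
  haveI : Nontrivial ↥U := by
    rw [← Finite.one_lt_card_iff_nontrivial]
    calc 1 < p ^ 2 := Nat.one_lt_pow (by norm_num) hpp.one_lt
      _ ≤ _ := hcard
  by_cases hBtop : B.subgroupOf U = ⊤
  · -- `B = U`; pick any maximal subgroup
    have hUB : U ≤ B := Subgroup.subgroupOf_eq_top.mp hBtop
    obtain ⟨C, hC, -⟩ : ∃ C : Subgroup ↥U, IsCoatom C ∧ (⊥ : Subgroup ↥U) ≤ C :=
      (eq_top_or_exists_le_coatom (⊥ : Subgroup ↥U)).resolve_left bot_ne_top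
    have hC0 : C.map U.subtype ≤ U := by
      rintro _ ⟨c, -, rfl⟩
      exact c.2
    have hC1 : (C.map U.subtype).subgroupOf U = C :=
      Subgroup.comap_map_eq_self_of_injective U.subtype_injective C
    have h5 := key _ (hmax _ hC0 (by rw [hC1]; exact hC))
    have h6 : R ⊓ Subgroup.centralizer (B : Set G) ≤ R ⊓ Subgroup.centralizer ((C.map U.subtype : Subgroup G) : Set G) := by
      refine inf_le_inf_left _ (Subgroup.centralizer_le ?_)
      exact fun x hx => hUB (hC0 hx)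
    rw [h5] at h6
    exact h6
  · obtain ⟨C, hC, hBC⟩ : ∃ C : Subgroup ↥U, IsCoatom C ∧ B.subgroupOf U ≤ C :=
      (eq_top_or_exists_le_coatom (B.subgroupOf U)).resolve_left hBtop
    have hCi : C.index = p := index_eq_of_isCoatom hUp hC
    have hmul := Subgroup.relIndex_mul_index hBC
    have hBi' : (B.subgroupOf U).index ≤ p := hBi
    have hpos : (B.subgroupOf U).index ≠ 0 := Subgroup.index_ne_zero_of_finite
    rw [hCi] at hmul
    have hrel : (B.subgroupOf U).relIndex C = 1 := by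
      have h7 : (B.subgroupOf U).relIndex C ≠ 0 := by
        intro h
        rw [h, zero_mul] at hmul
        exact hpos hmul.symm
      have h8 : (B.subgroupOf U).relIndex C * p ≤ 1 * p := by
        rw [hmul, one_mul]; exact hBi'
      have h9 := Nat.le_of_mul_le_mul_right h8 hpp.pos
      omega
    have hCB : C ≤ B.subgroupOf U := Subgroup.relIndex_eq_one.mp hrel
    have hBco : IsCoatom (B.subgroupOf U) := by
      rw [le_antisymm hBC hCB]; exact hC
    rw [key B (hmax B hBU hBco)]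

end Cfsg.Agent.S3003
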