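import Cfsg.Statements.S3011
import Mathlib
import Cfsg.Agent.S0200
import Cfsg.Agent.Lib.Basic.PCore

set_option autoImplicit false
open Cfsg

namespace Cfsg.Agent.S3011

theorem odd_eq_one_of_eq_inv {G : Type*} [Group G] {h : G} (hodd : Odd (orderOf h))
    (hh : h = h⁻¹) : h = 1 := by
  have h2 : h ^ 2 = 1 := by
    rw [pow_two]
    nth_rewrite 1 [hh]
    simp
  have hd : orderOf h ∣ 2 := orderOf_dvd_of_pow_eq_one h2
  have : orderOf h = 1 := by
    rcases (Nat.dvd_prime Nat.prime_two).mp hd with h1 | h1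
    · exact h1
    · rw [h1] at hodd; exact absurd hodd (by decide)
  exact orderOf_eq_one_iff.mp this

theorem commute_of_pow {G : Type*} [Group G] {x y : G} (hodd : Odd (orderOf x)) (k : ℕ)
    (h : Commute (x ^ (2 ^ k)) y) : Commute x y := by
  have hc : (2 ^ k).Coprime (orderOf x) := by
    apply Nat.Coprime.pow_left
    exact (Nat.coprime_two_left.mpr hodd)
  obtain ⟨m, hm⟩ := exists_pow_eq_self_of_coprime hc
  rw [← hm]
  exact h.pow_left m

/-- The key step: two elements of different "types" cannot exist in a Sidki pair of order 4. -/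
theorem two_types {G : Type*} [Group G] {V : Subgroup G} (hS : Cfsg.IsSidkiPair V) {A B x y : G}
    (hAV : A ∈ V) (hBV : B ∈ V) (hV : ∀ v ∈ V, v = 1 ∨ v = A ∨ v = B ∨ v = A * B)
    (hx1 : x ≠ 1) (hxodd : Odd (orderOf x)) (hy1 : y ≠ 1) (hyodd : Odd (orderOf y))
    (hAx : A * x * A⁻¹ = x) (hBx : B * x * B⁻¹ = x⁻¹)
    (hBy : B * y * B⁻¹ = y) (hAy : A * y * A⁻¹ = y⁻¹) : False := by
  have hABx : (A * B) * x * (A * B)⁻¹ = x⁻¹ := by
    calc (A * B) * x * (A * B)⁻¹ = A * (B * x * B⁻¹) * A⁻¹ := by group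
      _ = A * x⁻¹ * A⁻¹ := by rw [hBx]
      _ = (A * x * A⁻¹)⁻¹ := by group
      _ = x⁻¹ := by rw [hAx]
  have hABy : (A * B) * y * (A * B)⁻¹ = y⁻¹ := by
    calc (A * B) * y * (A * B)⁻¹ = A * (B * y * B⁻¹) * A⁻¹ := by group
      _ = A * y * A⁻¹ := by rw [hBy]
      _ = y⁻¹ := hAy
  have hconj : ∀ g a b : G, g * (a * b * a⁻¹) * g⁻¹ = (g * a * g⁻¹) * (g * b * g⁻¹) * (g * a * g⁻¹)⁻¹ := by
    intro g a b; group
  have hwc : ∀ w z : G, w * z = z * w → w * z * w⁻¹ = z := by
    intro w z h; rw [h]; group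
  -- `x` and `y` commute
  have hcomm : Commute x y := by
    set h := x * y * x⁻¹ with hh
    have hord : orderOf h = orderOf y := by
      have := orderOf_injective (MulAut.conj x).toMonoidHom (MulAut.conj x).injective y
      simpa using this
    have hodd : Odd (orderOf h) := by rw [hord]; exact hyodd
    have hAh : A * h * A⁻¹ = h⁻¹ := by
      rw [hh, hconj, hAx, hAy]; group
    have h1' : h ≠ 1 := by
      intro h0
      apply hy1
      have : y = x⁻¹ * h * x := by rw [hh]; group
      rw [this, h0]; group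
    obtain ⟨w, hw, hw1, hwh⟩ := hS h A hAV hodd hAh
    rcases hV w hw with rfl | rfl | rfl | rfl
    · exact absurd rfl hw1
    · exfalso
      have := hwc _ _ hwh
      rw [hAh] at this
      exact h1' (odd_eq_one_of_eq_inv hodd this.symm)
    · have e := hwc _ _ hwh
      rw [hh, hconj, hBx, hBy] at e
      apply commute_of_pow hxodd 1
      have e' : x⁻¹ * y * x⁻¹⁻¹ = x * y * x⁻¹ := e
      have h2 : x * x * y = y * (x * x) := by
        calc x * x * y = x * (x * y * x⁻¹) * x := by group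
          _ = x * (x⁻¹ * y * x⁻¹⁻¹) * x := by rw [e']
          _ = y * (x * x) := by group
      have h3 : x ^ (2 ^ 1) = x * x := by rw [pow_one, pow_two]
      show x ^ (2 ^ 1) * y = y * x ^ (2 ^ 1)
      rw [h3]; exact h2
    · have e := hwc _ _ hwh
      rw [hh, hconj, hABx, hABy] at e
      have e' : x⁻¹ * y⁻¹ * x⁻¹⁻¹ = x * y * x⁻¹ := e
      have h2 : x * x * y = y⁻¹ * (x * x) := by
        calc x * x * y = x * (x * y * x⁻¹) * x := by group
          _ = x * (x⁻¹ * y⁻¹ * x⁻¹⁻¹) * x := by rw [e']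
          _ = y⁻¹ * (x * x) := by group
      have h3 : y * (x * x) = (x * x) * y⁻¹ := by
        calc y * (x * x) = y * (x * x * y) * y⁻¹ := by group
          _ = y * (y⁻¹ * (x * x)) * y⁻¹ := by rw [h2]
          _ = (x * x) * y⁻¹ := by group
      have h4' : (x * x * (x * x)) * y = y * (x * x * (x * x)) := by
        calc (x * x * (x * x)) * y = (x * x) * (x * x * y) := by group
          _ = (x * x) * (y⁻¹ * (x * x)) := by rw [h2]
          _ = ((x * x) * y⁻¹) * (x * x) := by group
          _ = (y * (x * x)) * (x * x) := by rw [h3]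
          _ = y * (x * x * (x * x)) := by group
      have h4 : Commute (x ^ (2 ^ 2)) y := by
        have h3' : x ^ (2 ^ 2) = x * x * (x * x) := by
          rw [show (2 : ℕ) ^ 2 = 2 + 2 from rfl, pow_add, pow_two]
        show x ^ (2 ^ 2) * y = y * x ^ (2 ^ 2)
        rw [h3']; exact h4'
      have hc := commute_of_pow hxodd 2 h4
      exfalso
      have h5 : x * x * y = y * (x * x) := ((hc.mul_left hc).eq)
      have h6 : y⁻¹ * (x * x) = y * (x * x) := h2.symm.trans h5
      have h7 : y⁻¹ = y := mul_right_cancel h6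
      exact hy1 (odd_eq_one_of_eq_inv hyodd h7.symm)
  -- `xy` is inverted by `AB`
  set u := x * y with hu
  have huodd : Odd (orderOf u) := by
    have hd : orderOf u ∣ orderOf x * orderOf y := hcomm.orderOf_mul_dvd_mul_orderOf
    exact Odd.of_dvd_nat (hxodd.mul hyodd) hd
  have hABu : (A * B) * u * (A * B)⁻¹ = u⁻¹ := by
    calc (A * B) * u * (A * B)⁻¹ = ((A * B) * x * (A * B)⁻¹) * ((A * B) * y * (A * B)⁻¹) := by
          rw [hu]; group
      _ = x⁻¹ * y⁻¹ := by rw [hABx, hABy]
      _ = u⁻¹ := by rw [hu, mul_inv_rev, hcomm.inv_inv.eq]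
  obtain ⟨w, hw, hw1, hwu⟩ := hS u (A * B) (mul_mem hAV hBV) huodd hABu
  rcases hV w hw with rfl | rfl | rfl | rfl
  · exact absurd rfl hw1
  · have e := hwc _ _ hwu
    have e2 : w * u * w⁻¹ = (w * x * w⁻¹) * (w * y * w⁻¹) := by rw [hu]; group
    rw [e2, hAx, hAy, hu] at e
    have : y⁻¹ = y := mul_left_cancel e
    exact hy1 (odd_eq_one_of_eq_inv hyodd this.symm)
  · have e := hwc _ _ hwu
    have e2 : w * u * w⁻¹ = (w * x * w⁻¹) * (w * y * w⁻¹) := by rw [hu]; group
    rw [e2, hBx, hBy, hu] at e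
    have : x⁻¹ = x := mul_right_cancel e
    exact hx1 (odd_eq_one_of_eq_inv hxodd this.symm)
  · have e := hwc _ _ hwu
    rw [hABu] at e
    have hu1 : u = 1 := odd_eq_one_of_eq_inv huodd e.symm
    have hyx : y = x⁻¹ := by
      rw [hu] at hu1
      exact eq_inv_of_mul_eq_one_right hu1
    apply hy1
    apply odd_eq_one_of_eq_inv hyodd
    rw [← hAy, hyx]
    have : A * x⁻¹ * A⁻¹ = (A * x * A⁻¹)⁻¹ := by group
    rw [this, hAx]

/-- Let G be a finite group and V a nontrivial elementary abelian 2-subgroup of G of order at most 4 such that, whenever an element of V inverts an element h of G of odd order, some nontrivial element of V commutes with h. Then V meets O₂(G) nontrivially. (The case of order at most 4 has a short argument from the Baer–Suzuki theorem.) -/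
theorem result {G : Type*} [Group G] [Finite G] (V : Subgroup G) (hV : Cfsg.IsElementaryAbelian 2 V) (hV1 : V ≠ ⊥) (hS : Cfsg.IsSidkiPair V) (h4 : Nat.card V ≤ 4) : V ⊓ Cfsg.pCore 2 G ≠ ⊥ := by
  classical
  intro hbot
  have hinv : ∀ v ∈ V, v⁻¹ = v := fun v hv => inv_eq_of_mul_eq_one_left (by
    rw [← pow_two]; exact hV.2 v hv)
  have hcommV : ∀ u ∈ V, ∀ v ∈ V, u * v = v * u := fun u hu v hv =>
    congrArg Subtype.val (hV.1.is_comm.comm ⟨u, hu⟩ ⟨v, hv⟩)
  have key1 : ∀ v ∈ V, v ≠ 1 → ∃ h : G, h ≠ 1 ∧ Odd (orderOf h) ∧ v * h * v⁻¹ = h⁻¹ ∧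
      ∃ w ∈ V, w ≠ 1 ∧ w ≠ v ∧ w * h = h * w := by
    intro v hv hv1
    have hord : orderOf v = 2 := orderOf_eq_prime (hV.2 v hv) hv1
    have hO : ∀ N : Subgroup G, N.Normal → IsPGroup 2 N → v ∉ N := by
      intro N hN h2N hvN
      have hle := Cfsg.Agent.Lib.Basic.PCore.le_pCore hN h2N
      have : v ∈ V ⊓ Cfsg.pCore 2 G := ⟨hv, hle hvN⟩
      rw [hbot] at this
      exact hv1 this
    obtain ⟨h, hh1, hodd, hvh⟩ := Cfsg.Agent.S0200.result v hord hO
    obtain ⟨w, hw, hw1, hwh⟩ := hS h v hv hodd hvh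
    refine ⟨h, hh1, hodd, hvh, w, hw, hw1, ?_, hwh⟩
    rintro rfl
    have h1 : w * h * w⁻¹ = h := by rw [hwh]; group
    rw [h1] at hvh
    exact hh1 (odd_eq_one_of_eq_inv hodd hvh)
  -- pick `a`
  obtain ⟨a, haV, ha1⟩ : ∃ a ∈ V, a ≠ 1 := by
    by_contra hcon
    push Not at hcon
    exact hV1 ((Subgroup.eq_bot_iff_forall V).mpr hcon)
  obtain ⟨x, hx1, hxodd, hax, b, hbV, hb1, hba, hbx⟩ := key1 a haV ha1
  have hV4 : ∀ v ∈ V, v = 1 ∨ v = a ∨ v = b ∨ v = a * b := by
    intro v hv
    by_contra hcon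
    push Not at hcon
    obtain ⟨hv1, hva, hvb, hvab⟩ := hcon
    have hab1 : a * b ≠ 1 := by
      intro h
      apply hba
      have := hinv a haV
      rw [← this]
      exact (inv_eq_of_mul_eq_one_right h).symm
    have haab : a * b ≠ a := fun h => hb1 (mul_eq_left.mp h)
    have hbab : a * b ≠ b := fun h => ha1 (mul_eq_right.mp h)
    set S : Finset G := {1, a, b, a * b, v} with hS'
    have hcard : S.card = 5 := by
      rw [hS', Finset.card_eq_succ]
      refine ⟨1, {a, b, a * b, v}, ?_, rfl, ?_⟩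
      · simp only [Finset.mem_insert, Finset.mem_singleton, not_or]
        exact ⟨ha1.symm, hb1.symm, hab1.symm, hv1.symm⟩
      · rw [Finset.card_eq_succ]
        refine ⟨a, {b, a * b, v}, ?_, rfl, ?_⟩
        · simp only [Finset.mem_insert, Finset.mem_singleton, not_or]
          exact ⟨hba.symm, haab.symm, hva.symm⟩
        · rw [Finset.card_eq_three]
          exact ⟨b, a * b, v, hbab.symm, hvb.symm, hvab.symm, rfl⟩
    have hsub : (S : Set G) ⊆ (V : Set G) := by
      intro s hs
      simp only [hS', Finset.coe_insert, Finset.coe_singleton, Set.mem_insert_iff,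
        Set.mem_singleton_iff] at hs
      rcases hs with rfl | rfl | rfl | rfl | rfl
      · exact one_mem _
      · exact haV
      · exact hbV
      · exact mul_mem haV hbV
      · exact hv
    have h5 := Set.ncard_le_ncard hsub (Set.toFinite _)
    rw [Set.ncard_coe_finset, hcard, ← Nat.card_coe_set_eq] at h5
    have : Nat.card ↥(V : Set G) = Nat.card V := rfl
    omega
  have hinvb := hinv b hbV
  have hinva := hinv a haV
  have hbx' : b * x * b⁻¹ = x := by rw [hbx]; group
  obtain ⟨y, hy1, hyodd, hby, w, hw, hw1, hwb, hwy⟩ := key1 b hbV hb1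
  have hwy' : w * y * w⁻¹ = y := by rw [hwy]; group
  rcases hV4 w hw with rfl | rfl | rfl | rfl
  · exact absurd rfl hw1
  · -- `a` centralizes `y`
    exact two_types hS hbV haV (fun v hv => by
      rcases hV4 v hv with h | h | h | h
      · exact Or.inl h
      · exact Or.inr (Or.inr (Or.inl h))
      · exact Or.inr (Or.inl h)
      · exact Or.inr (Or.inr (Or.inr (by rw [h, hcommV _ haV _ hbV])))) hx1 hxodd hy1 hyodd
      hbx' hax hwy' hby
  · exact absurd rfl hwb
  · -- `a * b` centralizes `y`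
    have hcomm := hcommV a haV b hbV
    have hbab : b * (a * b) = a := by
      rw [hcomm]
      calc b * (b * a) = b * b * a := by group
        _ = b⁻¹ * b * a := by rw [hinvb]
        _ = a := by group
    have hay : a * y * a⁻¹ = y⁻¹ := by
      have e : a = (a * b) * b := by
        calc a = a * (b⁻¹ * b) := by group
          _ = a * (b * b) := by rw [hinvb]
          _ = a * b * b := by group
      calc a * y * a⁻¹ = (a * b) * (b * y * b⁻¹) * (a * b)⁻¹ := by
            nth_rewrite 1 [e]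
            nth_rewrite 2 [e]
            group
        _ = (a * b) * y⁻¹ * (a * b)⁻¹ := by rw [hby]
        _ = ((a * b) * y * (a * b)⁻¹)⁻¹ := by group
        _ = y⁻¹ := by rw [hwy']
    have habx : (a * b) * x * (a * b)⁻¹ = x⁻¹ := by
      calc (a * b) * x * (a * b)⁻¹ = a * (b * x * b⁻¹) * a⁻¹ := by group
        _ = a * x * a⁻¹ := by rw [hbx']
        _ = x⁻¹ := hax
    refine two_types hS hbV (mul_mem haV hbV) (fun v hv => ?_) hx1 hxodd hy1 hyodd hbx' habx hwy' hby
    rcases hV4 v hv with h | h | h | h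
    · exact Or.inl h
    · exact Or.inr (Or.inr (Or.inr (by rw [h, hbab])))
    · exact Or.inr (Or.inl h)
    · exact Or.inr (Or.inr (Or.inl h))

end Cfsg.Agent.S3011
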