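import Cfsg.Statements.S3013
import Mathlib

set_option autoImplicit false
open Cfsg

namespace Cfsg.Agent.S3013

/-- Let G be a finite group and V a nontrivial elementary abelian 2-subgroup of G satisfying the Sidki pair condition. Let v ∈ V and let x be an element of odd order inverted by v, and put C = C_G(v) ∩ C_G(x), the centralizer of the dihedral subgroup generated by v and x. Then C ∩ V is nontrivial and satisfies the Sidki pair condition inside C: every odd-order element of C inverted by an element of C ∩ V commutes with a nontrivial element of C ∩ V. -/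
theorem result {G : Type*} [Group G] [Finite G] (V : Subgroup G) (hV : Cfsg.IsElementaryAbelian 2 V) (hV1 : V ≠ ⊥) (hS : Cfsg.IsSidkiPair V) (v x : G) (hv : v ∈ V) (hx : Odd (orderOf x)) (hinv : v * x * v⁻¹ = x⁻¹) (C : Subgroup G) (hC : C = Subgroup.centralizer ({v} : Set G) ⊓ Subgroup.centralizer ({x} : Set G)) : C ⊓ V ≠ ⊥ ∧ Cfsg.IsSidkiPair ((C ⊓ V).subgroupOf C) := by
  have hcommV : ∀ a ∈ V, ∀ b ∈ V, a * b = b * a := by
    intro a ha b hb
    have h := hV.1.is_comm.comm ⟨a, ha⟩ ⟨b, hb⟩
    exact congrArg Subtype.val h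
  have hmemC : ∀ w : G, w * v = v * w → w * x = x * w → w ∈ C := by
    intro w h1 h2
    rw [hC, Subgroup.mem_inf]
    refine ⟨?_, ?_⟩
    · rw [Subgroup.mem_centralizer_singleton_iff]; exact h1
    · rw [Subgroup.mem_centralizer_singleton_iff]; exact h2
  have hCv : ∀ w ∈ C, w * v = v * w := by
    intro w hw
    rw [hC, Subgroup.mem_inf] at hw
    exact Subgroup.mem_centralizer_singleton_iff.mp hw.1
  have hCx : ∀ w ∈ C, w * x = x * w := by
    intro w hw
    rw [hC, Subgroup.mem_inf] at hw
    exact Subgroup.mem_centralizer_singleton_iff.mp hw.2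
  constructor
  · intro hbot
    obtain ⟨w, hwV, hw1, hwx⟩ := hS x v hv hx hinv
    have : w ∈ C ⊓ V := ⟨hmemC w (hcommV w hwV v hv) hwx, hwV⟩
    rw [hbot] at this
    exact hw1 (Subgroup.mem_bot.mp this)
  · rintro ⟨h, hhC⟩ ⟨u, huC⟩ hu hodd huinv
    have huV : u ∈ V := (Subgroup.mem_subgroupOf.mp hu).2
    have hodd' : Odd (orderOf h) := by
      rwa [Subgroup.orderOf_mk] at hodd
    have huinv' : u * h * u⁻¹ = h⁻¹ := by
      have := congrArg Subtype.val huinv
      simpa using this
    have hhx : h * x = x * h := hCx h hhC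
    have hhv : h * v = v * h := hCv h hhC
    have hux : u * x = x * u := hCx u huC
    have hoddxh : Odd (orderOf (x * h)) := by
      have hc : Commute x h := hhx.symm
      have hd := hc.orderOf_mul_dvd_lcm
      exact Odd.of_dvd_nat (hx.mul hodd') (hd.trans (Nat.lcm_dvd_mul _ _))
    have hvh : v * h * v⁻¹ = h := by rw [← hhv]; group
    have hux' : u * x * u⁻¹ = x := by rw [hux]; group
    have step1 : v * (x * h) * v⁻¹ = x⁻¹ * h := by
      calc v * (x * h) * v⁻¹ = (v * x * v⁻¹) * (v * h * v⁻¹) := by group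
        _ = _ := by rw [hinv, hvh]
    have step2 : u * (x⁻¹ * h) * u⁻¹ = x⁻¹ * h⁻¹ := by
      calc u * (x⁻¹ * h) * u⁻¹ = (u * x * u⁻¹)⁻¹ * (u * h * u⁻¹) := by group
        _ = _ := by rw [hux', huinv']
    have hinvcomm : x⁻¹ * h⁻¹ = (x * h)⁻¹ := by
      rw [← hhx, mul_inv_rev]
    have hinvxh : (u * v) * (x * h) * (u * v)⁻¹ = (x * h)⁻¹ := by
      calc (u * v) * (x * h) * (u * v)⁻¹ = u * (v * (x * h) * v⁻¹) * u⁻¹ := by group
        _ = _ := by rw [step1, step2, hinvcomm]
    obtain ⟨w, hwV, hw1, hwxh⟩ := hS (x * h) (u * v) (V.mul_mem huV hv) hoddxh hinvxh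
    have hc1 : Commute w (x * h) := hwxh
    have hc2 : Commute w v := hcommV w hwV v hv
    have hc3 : Commute w (x⁻¹ * h) := by
      rw [← step1]
      exact (hc2.mul_right hc1).mul_right hc2.inv_right
    have hc4 : Commute w (h ^ 2) := by
      have : h ^ 2 = (x * h) * (x⁻¹ * h) := by
        rw [pow_two, ← hhx]; group
      rw [this]
      exact hc1.mul_right hc3
    obtain ⟨k, hk⟩ := hodd'
    have hc5 : Commute w h := by
      have : h = (h ^ 2) ^ (k + 1) := by
        rw [← pow_mul]
        have h2 : h ^ (2 * k + 1) = 1 := by rw [← hk, pow_orderOf_eq_one]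
        calc h = h ^ (2 * k + 1) * h := by rw [h2, one_mul]
          _ = h ^ (2 * (k + 1)) := by
            rw [← pow_succ]; ring_nf
      rw [this]
      exact hc4.pow_right _
    have hc6 : Commute w x := by
      have : x = (x * h) * h⁻¹ := by group
      rw [this]
      exact hc1.mul_right hc5.inv_right
    have hwC : w ∈ C := hmemC w hc2 hc6
    refine ⟨⟨w, hwC⟩, ?_, ?_, ?_⟩
    · exact Subgroup.mem_subgroupOf.mpr ⟨hwC, hwV⟩
    · intro hw
      exact hw1 (congrArg Subtype.val hw)
    · exact Subtype.ext hc5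

end Cfsg.Agent.S3013
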