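import Cfsg.Statements.S3014
import Cfsg.Agent.Lib.Transfer.MaxNormal
import Mathlib
-- import your own Cfsg.Agent.* helpers here

set_option autoImplicit false
open Cfsg

namespace Cfsg.Agent.S3014

open Cfsg.Agent.Lib.Transfer.MaxNormal in
/-- Let G be a finite group and H ≤ M ≤ G subgroups such that for every g ∈ G the subgroup generated by H and g H g⁻¹ meets M exactly in H. If H is a maximal subgroup of M and M is a maximal subgroup of G, then the normal closure of H in G meets M exactly in H. -/
theorem result {G : Type*} [Group G] [Finite G] (H M : Subgroup G) (hHM : H ≤ M) (hcl : ∀ g : G, (H ⊔ H.map (MulAut.conj g).toMonoidHom) ⊓ M = H) (hmaxH : IsCoatom (H.subgroupOf M)) (hmaxM : IsCoatom M) : Subgroup.normalClosure (H : Set G) ⊓ M = H := by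
  -- H is normal in M
  have hconjle : ∀ m ∈ M, H.map (MulAut.conj m).toMonoidHom ≤ H := by
    intro m hm
    have h1 : H.map (MulAut.conj m).toMonoidHom ≤ M := by
      rintro _ ⟨h, hh, rfl⟩
      exact M.mul_mem (M.mul_mem hm (hHM hh)) (M.inv_mem hm)
    have h2 := hcl m
    rw [inf_eq_left.2 (sup_le hHM h1)] at h2
    exact le_sup_right.trans h2.le
  have hN : M ≤ Subgroup.normalizer (H : Set G) := fun m hm => mem_normalizer_of_conj_le (hconjle m hm)
  by_cases hNtop : Subgroup.normalizer (H : Set G) = ⊤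
  · have : H.Normal := Subgroup.normalizer_eq_top_iff.1 hNtop
    rw [Subgroup.normalClosure_eq_self, inf_eq_left]
    exact hHM
  have hNM : Subgroup.normalizer (H : Set G) = M := by
    by_contra hne
    exact hNtop (hmaxM.2 _ (lt_of_le_of_ne hN (Ne.symm hne)))
  apply le_antisymm _ (le_inf Subgroup.le_normalClosure hHM)
  by_cases hfix : ∃ x ∈ M, x ∉ H ∧ ∃ t, t ∉ M ∧ t⁻¹ * x * t ∈ M
  · obtain ⟨x, hxM, hxH, t, ht, htx⟩ := hfix
    have hT : ¬ H ⊔ H.map (MulAut.conj t).toMonoidHom ≤ M := by
      intro hle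
      apply ht
      have h2 := hcl t
      rw [inf_eq_left.2 hle] at h2
      rw [← hNM]
      exact mem_normalizer_of_conj_le (le_sup_right.trans h2.le)
    have hnormal := normal_sup_conj hmaxM hmaxH hHM hN hxM hxH htx hT
    have hle : Subgroup.normalClosure (H : Set G) ≤ H ⊔ H.map (MulAut.conj t).toMonoidHom :=
      Subgroup.normalClosure_le_normal (fun y hy => Subgroup.mem_sup_left hy)
    calc Subgroup.normalClosure (H : Set G) ⊓ M ≤ (H ⊔ H.map (MulAut.conj t).toMonoidHom) ⊓ M :=
          inf_le_inf_right _ hle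
      _ = H := hcl t
  · push Not at hfix
    have hn : (H.subgroupOf M).Normal := by
      refine ⟨fun a ha m => ?_⟩
      rw [Subgroup.mem_subgroupOf] at ha ⊢
      exact (Subgroup.mem_normalizer_iff.1 (hN m.2) a).1 ha
    obtain ⟨N, hNn, hNM', -⟩ := exists_normal_inf_eq M H hHM hn
      (comm_of_coatom _ hmaxH)
      (fun t z hz hm => by
        have h3 : t⁻¹ * z * t ∈ (H ⊔ H.map (MulAut.conj t⁻¹).toMonoidHom) ⊓ M := by
          refine ⟨Subgroup.mem_sup_right ?_, hm⟩
          rw [mem_conj]
          simpa [mul_assoc] using hz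
        rwa [hcl] at h3)
      (fun t z ht hz hzH => hfix z hz hzH t ht)
    have hle : Subgroup.normalClosure (H : Set G) ≤ N :=
      Subgroup.normalClosure_le_normal (fun y hy => by
        have : y ∈ N ⊓ M := by rw [hNM']; exact hy
        exact this.1)
    calc Subgroup.normalClosure (H : Set G) ⊓ M ≤ N ⊓ M := inf_le_inf_right _ hle
      _ = H := hNM'

end Cfsg.Agent.S3014
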