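import Cfsg.Statements.S3015
import Cfsg.Agent.Lib.Transfer.MaxNormal
import Mathlib
-- import your own Cfsg.Agent.* helpers here

set_option autoImplicit false
open Cfsg

namespace Cfsg.Agent.S3015

open Cfsg.Agent.Lib.Transfer.MaxNormal

theorem coatom_of_prime {G : Type*} [Group G] [Finite G] {H M : Subgroup G}
    (hidx : (H.relIndex M).Prime) : IsCoatom (H.subgroupOf M) := by
  have hidx' : (H.subgroupOf M).index.Prime := hidx
  refine ⟨?_, fun K hK => ?_⟩
  · intro h
    rw [h, Subgroup.index_top] at hidx'
    exact Nat.not_prime_one hidx'
  · have hd := Subgroup.relIndex_mul_index hK.le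
    have hdvd : K.index ∣ (H.subgroupOf M).index := ⟨_, by rw [← hd, mul_comm]⟩
    rcases (Nat.dvd_prime hidx').1 hdvd with h | h
    · exact Subgroup.index_eq_one.1 h
    · exfalso
      rw [h] at hd
      have h1 : (H.subgroupOf M).relIndex K = 1 :=
        Nat.eq_of_mul_eq_mul_right hidx'.pos (by rw [hd, one_mul])
      have h2 : K ≤ H.subgroupOf M := Subgroup.relIndex_eq_one.1 h1
      exact absurd (hK.le.antisymm h2) hK.ne

theorem conj_conj {G : Type*} [Group G] [Finite G] (H : Subgroup G) (u v : G) :
    (H.map (MulAut.conj v).toMonoidHom).map (MulAut.conj u).toMonoidHom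
      = H.map (MulAut.conj (u * v)).toMonoidHom := by
  ext y
  rw [mem_conj, mem_conj, mem_conj]
  simp [mul_assoc]

theorem conj_one {G : Type*} [Group G] (H : Subgroup G) :
    H.map (MulAut.conj (1 : G)).toMonoidHom = H := by
  ext y
  simp

theorem mem_normalizer_sup {G : Type*} [Group G] {A B : Subgroup G} {z : G}
    (h1 : z ∈ Subgroup.normalizer (A : Set G)) (h2 : z ∈ Subgroup.normalizer (B : Set G)) :
    z ∈ Subgroup.normalizer ((A ⊔ B : Subgroup G) : Set G) := by
  rw [Subgroup.mem_normalizer_iff_map_conj_eq] at h1 h2 ⊢
  rw [Subgroup.map_sup, h1, h2]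

open scoped commutatorElement in
theorem comm_of_commutator_bot {G : Type*} [Group G] (h : commutator G ≤ ⊥) :
    IsMulCommutative G := by
  rw [isMulCommutative_iff]
  intro a b
  have h1 : ⁅a, b⁆ ∈ commutator G := by
    rw [_root_.commutator_def]
    exact Subgroup.commutator_mem_commutator (Subgroup.mem_top a) (Subgroup.mem_top b)
  have h2 := h h1
  rw [Subgroup.mem_bot] at h2
  exact commutatorElement_eq_one_iff_mul_comm.1 h2

theorem mem_normalizer_conj {G : Type*} [Group G] [Finite G] {H : Subgroup G} {t z : G}
    (hz : t⁻¹ * z * t ∈ Subgroup.normalizer (H : Set G)) :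
    z ∈ Subgroup.normalizer ((H.map (MulAut.conj t).toMonoidHom : Subgroup G) : Set G) := by
  rw [Subgroup.mem_normalizer_iff]
  intro y
  rw [mem_conj, mem_conj]
  have h4 := (Subgroup.mem_normalizer_iff.1 hz) (t⁻¹ * y * t)
  rw [h4]
  have e : (t⁻¹ * z * t) * (t⁻¹ * y * t) * (t⁻¹ * z * t)⁻¹ = t⁻¹ * (z * y * z⁻¹) * t := by
    group
  rw [e]

/-- Let G be a finite non-abelian simple group, M a maximal subgroup of G and H a normal subgroup of M of prime index in M. Then G is generated by H together with one of its conjugates. -/
theorem result {G : Type*} [Group G] [Finite G] [IsSimpleGroup G] (hG : ¬ IsMulCommutative G) (M H : Subgroup G) (hmaxM : IsCoatom M) (hHM : H ≤ M) (hHn : (H.subgroupOf M).Normal) (hidx : (H.relIndex M).Prime) : ∃ g : G, H ⊔ H.map (MulAut.conj g).toMonoidHom = ⊤ := by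
  by_contra hno
  push Not at hno
  have hmaxH := coatom_of_prime hidx
  have hN : M ≤ Subgroup.normalizer (H : Set G) := by
    intro m hm
    rw [Subgroup.mem_normalizer_iff]
    intro h
    constructor
    · intro hh
      have h1 : (⟨h, hHM hh⟩ : M) ∈ H.subgroupOf M := by
        rw [Subgroup.mem_subgroupOf]; exact hh
      have h2 := hHn.conj_mem _ h1 ⟨m, hm⟩
      rw [Subgroup.mem_subgroupOf] at h2
      exact h2
    · intro hh
      have hhM : h ∈ M := by
        have := M.mul_mem (M.mul_mem (M.inv_mem hm) (hHM hh)) hm
        simpa [mul_assoc] using this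
      have h1 : (⟨m * h * m⁻¹, hHM hh⟩ : M) ∈ H.subgroupOf M := by
        rw [Subgroup.mem_subgroupOf]; exact hh
      have h2 := hHn.conj_mem _ h1 ⟨m⁻¹, M.inv_mem hm⟩
      rw [Subgroup.mem_subgroupOf] at h2
      simpa [mul_assoc] using h2
  -- an element of M outside H
  obtain ⟨x₀, hx₀M, hx₀H⟩ : ∃ x ∈ M, x ∉ H := by
    by_contra hcon
    push Not at hcon
    apply hmaxH.1
    rw [Subgroup.eq_top_iff']
    intro y
    rw [Subgroup.mem_subgroupOf]
    exact hcon y y.2
  have hM1 : M ≠ ⊥ := by
    rintro rfl
    exact hx₀H (by rw [Subgroup.mem_bot] at hx₀M; rw [hx₀M]; exact H.one_mem)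
  have hNM : Subgroup.normalizer (M : Set G) = M := by
    by_contra hne
    have h1 := hmaxM.2 _ (lt_of_le_of_ne Subgroup.le_normalizer (Ne.symm hne))
    have h2 : M.Normal := Subgroup.normalizer_eq_top_iff.1 h1
    rcases IsSimpleGroup.eq_bot_or_eq_top_of_normal M h2 with h | h
    · exact hM1 h
    · exact hmaxM.1 h
  -- the transfer hypotheses
  have key : (∀ (t z : G), z ∈ H → t⁻¹ * z * t ∈ M → t⁻¹ * z * t ∈ H) ∧
      (∀ (t z : G), t ∉ M → z ∈ M → z ∉ H → t⁻¹ * z * t ∉ M) := by
    by_cases hH1 : H = ⊥
    · subst hH1
      refine ⟨fun t z hz _ => ?_, fun t z ht hz hzH hw => ?_⟩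
      · rw [Subgroup.mem_bot] at hz
        rw [hz]; simp
      · have hw1 : t⁻¹ * z * t ∉ (⊥ : Subgroup G) := by
          rw [Subgroup.mem_bot] at hzH ⊢
          intro h
          apply hzH
          have := congrArg (fun u => t * u * t⁻¹) h
          simpa [mul_assoc] using this
        have hle : M ≤ (M : Subgroup G).map (MulAut.conj t⁻¹).toMonoidHom := by
          apply le_of_coatom hmaxH hw hw1 bot_le
          rw [mem_conj]
          simpa [mul_assoc] using hz
        have := mem_normalizer_of_le_conj hle
        rw [hNM] at this
        exact ht (by simpa using M.inv_mem this)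
    · have hHnorm : Subgroup.normalizer (H : Set G) = M := by
        by_contra hne
        have h1 := hmaxM.2 _ (lt_of_le_of_ne hN (Ne.symm hne))
        have h2 : H.Normal := Subgroup.normalizer_eq_top_iff.1 h1
        rcases IsSimpleGroup.eq_bot_or_eq_top_of_normal H h2 with h | h
        · exact hH1 h
        · exact hmaxM.1 (top_le_iff.1 (h ▸ hHM))
      -- no conjugate of H by an element outside M is inside M
      have hC : ∀ g, g ∉ M → ¬ H.map (MulAut.conj g).toMonoidHom ≤ M := by
        intro g hg hle
        obtain ⟨a, ha⟩ : ∃ a, a = g⁻¹ := ⟨_, rfl⟩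
        have haM : a ∉ M := fun h => hg (by have := M.inv_mem h; simpa [ha] using this)
        have hHa : ∀ z ∈ H, a⁻¹ * z * a ∈ M := fun z hz => by
          have h1 : g * z * g⁻¹ ∈ H.map (MulAut.conj g).toMonoidHom :=
            mem_conj.2 (by simpa [mul_assoc] using hz)
          have h2 := hle h1
          simpa [ha] using h2
        obtain ⟨b, hb⟩ : ∃ b, b = x₀ * a := ⟨_, rfl⟩
        have hbM : b ∉ M := fun h => haM (by
          have := M.mul_mem (M.inv_mem hx₀M) h
          simpa [hb] using this)
        have hHb : ∀ z ∈ H, b⁻¹ * z * b ∈ M := fun z hz => by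
          have h1 : x₀⁻¹ * z * x₀ ∈ H := by
            have := (Subgroup.mem_normalizer_iff.1 (hN (M.inv_mem hx₀M)) z).1 hz
            simpa using this
          have h2 := hHa _ h1
          have e : b⁻¹ * z * b = a⁻¹ * (x₀⁻¹ * z * x₀) * a := by
            rw [hb]; group
          rw [e]; exact h2
        obtain ⟨T, hTdef⟩ : ∃ T, T = H.map (MulAut.conj a).toMonoidHom ⊔ H.map (MulAut.conj b).toMonoidHom :=
          ⟨_, rfl⟩
        have hT1 : T ≠ ⊤ := by
          intro hT
          apply hno (a⁻¹ * b)
          have h1 := congrArg (Subgroup.map (MulAut.conj a⁻¹).toMonoidHom) hT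
          rw [hTdef, Subgroup.map_sup, conj_conj, conj_conj, inv_mul_cancel, conj_one] at h1
          rw [h1]
          rw [eq_top_iff]
          intro y _
          rw [mem_conj]
          trivial
        have hHNT : H ≤ Subgroup.normalizer (T : Set G) := by
          intro z hz
          rw [hTdef]
          apply mem_normalizer_sup
          · apply mem_normalizer_conj
            rw [hHnorm]; exact hHa z hz
          · apply mem_normalizer_conj
            rw [hHnorm]; exact hHb z hz
        obtain ⟨W, hWdef⟩ : ∃ W, W = H ⊔ T := ⟨_, rfl⟩
        have hWN : W ≤ Subgroup.normalizer (T : Set G) := by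
          rw [hWdef]; exact sup_le hHNT Subgroup.le_normalizer
        have hHW : H ≤ W := by rw [hWdef]; exact le_sup_left
        have hTW : T ≤ W := by rw [hWdef]; exact le_sup_right
        have haT : H.map (MulAut.conj a).toMonoidHom ≤ T := by rw [hTdef]; exact le_sup_left
        have hbT : H.map (MulAut.conj b).toMonoidHom ≤ T := by rw [hTdef]; exact le_sup_right
        obtain ⟨y, hyH, hya⟩ : ∃ y ∈ H, y ∉ H.map (MulAut.conj a).toMonoidHom := by
          by_contra hcon
          push Not at hcon
          have : a ∈ Subgroup.normalizer (H : Set G) := mem_normalizer_of_le_conj (fun z hz => hcon z hz)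
          rw [hHnorm] at this
          exact haM this
        rw [mem_conj] at hya
        have hML : M ≤ W.map (MulAut.conj a⁻¹).toMonoidHom := by
          apply le_of_coatom hmaxH (hHa y hyH) hya
          · intro z hz
            rw [mem_conj]
            apply hTW
            apply haT
            rw [mem_conj]
            simpa [mul_assoc] using hz
          · rw [mem_conj]
            simpa [mul_assoc] using hHW hyH
        by_cases hL : W.map (MulAut.conj a⁻¹).toMonoidHom = M
        · have hWM : ∀ u ∈ W, a⁻¹ * u * a ∈ M := by
            intro u hu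
            rw [← hL, mem_conj]
            simpa [mul_assoc] using hu
          obtain ⟨d, hd⟩ : ∃ d, d = b⁻¹ * a := ⟨_, rfl⟩
          have hHd : ∀ z ∈ H, d⁻¹ * z * d ∈ M := by
            intro z hz
            have h1 : b * z * b⁻¹ ∈ W := by
              apply hTW
              apply hbT
              rw [mem_conj]
              simpa [mul_assoc] using hz
            have h2 := hWM _ h1
            have e : d⁻¹ * z * d = a⁻¹ * (b * z * b⁻¹) * a := by
              rw [hd]; group
            rw [e]; exact h2
          have hdag : ∀ w ∈ M, d⁻¹ * w * d ∈ M → w ∈ H := by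
            intro w hw hwd
            by_contra hwH
            have h1 : M ≤ M.map (MulAut.conj d).toMonoidHom := by
              apply le_of_coatom hmaxH hw hwH
              · intro z hz
                rw [mem_conj]
                exact hHd z hz
              · rw [mem_conj]
                exact hwd
            have h2 := mem_normalizer_of_le_conj h1
            rw [hNM] at h2
            have h3 : a⁻¹ * x₀ * a ∈ M := by
              have := M.inv_mem h2
              rw [hd, hb] at this
              have e : (( x₀ * a)⁻¹ * a)⁻¹ = a⁻¹ * x₀ * a := by group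
              rwa [e] at this
            have h4 : M ≤ M.map (MulAut.conj a).toMonoidHom := by
              apply le_of_coatom hmaxH hx₀M hx₀H
              · intro z hz
                rw [mem_conj]
                exact hHa z hz
              · rw [mem_conj]
                exact h3
            have h5 := mem_normalizer_of_le_conj h4
            rw [hNM] at h5
            exact haM h5
          have hconj : H.map (MulAut.conj b⁻¹).toMonoidHom ≤ H := by
            intro w hw
            rw [mem_conj] at hw
            have hz : b * w * b⁻¹ ∈ H := by simpa using hw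
            have e1 : w = b⁻¹ * (b * w * b⁻¹) * b := by group
            apply hdag w
            · rw [e1]; exact hHb _ hz
            · have e : d⁻¹ * w * d = a⁻¹ * (b * w * b⁻¹) * a := by
                rw [hd]; group
              rw [e]; exact hHa _ hz
          have h1 := mem_normalizer_of_conj_le hconj
          rw [hHnorm] at h1
          exact hbM (by simpa using M.inv_mem h1)
        · have htop := hmaxM.2 _ (lt_of_le_of_ne hML (Ne.symm hL))
          have hWtop : W = ⊤ := by
            rw [eq_top_iff]
            intro u _
            have h1 : a⁻¹ * u * a ∈ W.map (MulAut.conj a⁻¹).toMonoidHom := by rw [htop]; trivial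
            rw [mem_conj] at h1
            simpa [mul_assoc] using h1
          have hTn : T.Normal := by
            apply Subgroup.normalizer_eq_top_iff.1
            rw [eq_top_iff, ← hWtop]
            exact hWN
          rcases IsSimpleGroup.eq_bot_or_eq_top_of_normal T hTn with h | h
          · apply hH1
            rw [eq_bot_iff]
            intro z hz
            have h1 : a * z * a⁻¹ ∈ T := by
              apply haT
              rw [mem_conj]
              simpa [mul_assoc] using hz
            rw [h, Subgroup.mem_bot] at h1
            rw [Subgroup.mem_bot]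
            have h2 : z = a⁻¹ * (a * z * a⁻¹) * a := by group
            rw [h2, h1]; simp
          · exact hT1 h
      constructor
      · intro t z hz hm
        by_cases ht : t⁻¹ ∈ M
        · have := (Subgroup.mem_normalizer_iff.1 (hN ht) z).1 hz
          simpa using this
        · by_contra hy
          have hT := hC _ ht
          have hle : M ≤ H ⊔ H.map (MulAut.conj t⁻¹).toMonoidHom := by
            apply le_of_coatom hmaxH hm hy le_sup_left
            apply Subgroup.mem_sup_right
            rw [mem_conj]
            simpa [mul_assoc] using hz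
          have hlt : M < H ⊔ H.map (MulAut.conj t⁻¹).toMonoidHom := by
            refine lt_of_le_of_ne hle ?_
            intro h
            apply hT
            rw [h]
            exact le_sup_right
          exact hno _ (hmaxM.2 _ hlt)
      · intro t z ht hz hzH hw
        have hT : ¬ H ⊔ H.map (MulAut.conj t).toMonoidHom ≤ M :=
          fun hle => hC t ht (le_sup_right.trans hle)
        have hnormal := normal_sup_conj hmaxM hmaxH hHM hN hz hzH hw hT
        rcases IsSimpleGroup.eq_bot_or_eq_top_of_normal _ hnormal with h | h
        · exact hH1 (le_bot_iff.1 (h ▸ le_sup_left))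
        · exact hno _ h
  obtain ⟨N, hNn, hNM', hcomm⟩ := exists_normal_inf_eq M H hHM hHn (by
    haveI := hHn
    exact comm_of_coatom _ hmaxH) key.1 key.2
  rcases IsSimpleGroup.eq_bot_or_eq_top_of_normal N hNn with h | h
  · apply hG
    rw [h] at hcomm
    exact comm_of_commutator_bot hcomm
  · rw [h, top_inf_eq] at hNM'
    exact hx₀H (hNM' ▸ hx₀M)

end Cfsg.Agent.S3015
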