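import Cfsg.Statements.S3025
import Mathlib
import Cfsg.Agent.Lib.PGroup.CyclicMax2

set_option autoImplicit false
open Cfsg

namespace Cfsg.Agent.S3025

open Subgroup in
theorem conj_mem_map {F : Type*} [Group F] {N : Subgroup F} {K : Subgroup N} (hK : K.Normal)
    {n h : F} (hn : n ∈ N) (hh : h ∈ K.map N.subtype) : n * h * n⁻¹ ∈ K.map N.subtype := by
  obtain ⟨y, hy, rfl⟩ := hh
  exact ⟨⟨n, hn⟩ * y * ⟨n, hn⟩⁻¹, hK.conj_mem y hy _, rfl⟩

open Subgroup in
/-- Let F be a finite group and H a nontrivial subgroup of F that is contained in every nontrivial subgroup of F which H normalizes. Then F has a nontrivial normal subgroup N contained in every nontrivial normal subgroup of F (a unique minimal normal subgroup), N is simple, and one of the following holds: C_F(N) = 1; or H = N has prime order p, C_F(N) is cyclic of order a power of p, and F/C_F(N) is cyclic of order dividing p − 1; or H = N has order 2, N is central in F, and F is a generalized quaternion group. -/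
theorem result {F : Type*} [Group F] [Finite F] (H : Subgroup F) (hH : H ≠ ⊥)
    (hmin : ∀ R : Subgroup F, R ≠ ⊥ → H ≤ Subgroup.normalizer (R : Set F) → H ≤ R) :
    ∃ N : Subgroup F, N.Normal ∧ N ≠ ⊥ ∧ (∀ M : Subgroup F, M.Normal → M ≠ ⊥ → N ≤ M) ∧ IsSimpleGroup ↥N ∧
      (Subgroup.centralizer (N : Set F) = ⊥ ∨
       (H = N ∧ (Nat.card N).Prime ∧ IsCyclic ↥(Subgroup.centralizer (N : Set F)) ∧
          (∃ k : ℕ, 1 ≤ k ∧ Nat.card ↥(Subgroup.centralizer (N : Set F)) = Nat.card N ^ k) ∧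
          (∃ g : F, Subgroup.centralizer (N : Set F) ⊔ Subgroup.zpowers g = ⊤) ∧
          (Subgroup.centralizer (N : Set F)).index ∣ Nat.card N - 1) ∨
       (H = N ∧ Nat.card N = 2 ∧ Subgroup.centralizer (N : Set F) = ⊤ ∧
          ∃ k : ℕ, 1 ≤ k ∧ Nonempty (F ≃* QuaternionGroup (2 ^ k)))) := by

  classical
  -- the minimal normal subgroup
  obtain ⟨N, hN⟩ : ∃ N : Subgroup F, N = sInf {M : Subgroup F | M.Normal ∧ M ≠ ⊥} := ⟨_, rfl⟩
  have hHN : H ≤ N := by
    rw [hN]
    refine le_sInf fun M hM => hmin M hM.2 ?_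
    haveI := hM.1
    rw [normalizer_eq_top]
    exact le_top
  have hNb : N ≠ ⊥ := fun h => hH (le_bot_iff.1 (h ▸ hHN))
  haveI hNn : N.Normal := by
    refine ⟨fun x hx g => ?_⟩
    rw [hN, mem_sInf] at hx ⊢
    intro M hM
    haveI := hM.1
    exact (inferInstance : M.Normal).conj_mem x (hx M hM) g
  have hNmin : ∀ M : Subgroup F, M.Normal → M ≠ ⊥ → N ≤ M := fun M h1 h2 => by
    rw [hN]; exact sInf_le ⟨h1, h2⟩
  -- `N` is simple
  obtain ⟨N₁, hN₁⟩ : ∃ N₁ : Subgroup F, N₁ = sInf {K : Subgroup F | K ≠ ⊥ ∧ K ≤ N ∧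
      N ≤ normalizer (K : Set F)} := ⟨_, rfl⟩
  have hHN₁ : H ≤ N₁ := by
    rw [hN₁]
    exact le_sInf fun K hK => hmin K hK.1 (hHN.trans hK.2.2)
  have hN₁b : N₁ ≠ ⊥ := fun h => hH (le_bot_iff.1 (h ▸ hHN₁))
  haveI hN₁n : N₁.Normal := by
    refine ⟨fun x hx g => ?_⟩
    rw [hN₁, mem_sInf] at hx ⊢
    rintro K ⟨hK0, hKN, hKn⟩
    have hK' : K.map (MulAut.conj g⁻¹).toMonoidHom ∈ {K : Subgroup F | K ≠ ⊥ ∧ K ≤ N ∧
      N ≤ normalizer (K : Set F)} := by
      refine ⟨?_, ?_, ?_⟩
      · intro h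
        apply hK0
        exact (map_eq_bot_iff_of_injective _ (MulAut.conj g⁻¹).injective).1 h
      · rintro _ ⟨y, hy, rfl⟩
        exact hNn.conj_mem y (hKN hy) g⁻¹
      · intro n hn
        rw [mem_normalizer_iff]
        intro z
        have hn' : g * n * g⁻¹ ∈ normalizer (K : Set F) := hKn (hNn.conj_mem n hn g)
        rw [mem_normalizer_iff] at hn'
        have h1 := hn' (g * z * g⁻¹)
        constructor
        · rintro ⟨w, hw, rfl⟩
          have h2 : g * ((MulAut.conj g⁻¹).toMonoidHom w) * g⁻¹ = w := by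
            simp; group
          rw [h2] at h1
          have h3 := h1.1 hw
          refine ⟨_, h3, ?_⟩
          simp
          group
        · rintro ⟨w, hw, hwe⟩
          have h2 : g * z * g⁻¹ ∈ K := by
            apply h1.2
            have h3 : g * n * g⁻¹ * (g * z * g⁻¹) * (g * n * g⁻¹)⁻¹ = w := by
              have h4 : n * z * n⁻¹ = g⁻¹ * w * g⁻¹⁻¹ := by
                rw [← hwe]; rfl
              calc g * n * g⁻¹ * (g * z * g⁻¹) * (g * n * g⁻¹)⁻¹
                  = g * (n * z * n⁻¹) * g⁻¹ := by group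
                _ = w := by rw [h4]; group
            rw [h3]
            exact hw
          refine ⟨_, h2, ?_⟩
          simp
          group
    have h1 := hx _ hK'
    obtain ⟨w, hw, hwe⟩ := h1
    have h2 : g * x * g⁻¹ = w := by
      have : x = g⁻¹ * w * g⁻¹⁻¹ := hwe.symm
      rw [this]; group
    rw [h2]
    exact hw
  have hNN₁ : N ≤ N₁ := hNmin _ hN₁n hN₁b
  haveI hsimple : IsSimpleGroup ↥N := by
    haveI : Nontrivial N := (Subgroup.nontrivial_iff_ne_bot N).2 hNb
    refine ⟨fun K hKn => ?_⟩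
    by_cases hK0 : K = ⊥
    · left; exact hK0
    right
    have h1 : K.map N.subtype ∈ {K : Subgroup F | K ≠ ⊥ ∧ K ≤ N ∧
        N ≤ normalizer (K : Set F)} := by
      refine ⟨?_, map_subtype_le K, ?_⟩
      · intro h
        exact hK0 ((map_eq_bot_iff_of_injective _ N.subtype_injective).1 h)
      · intro n hn
        rw [mem_normalizer_iff]
        intro z
        constructor
        · exact conj_mem_map hKn hn
        · intro h2
          have h3 := conj_mem_map hKn (N.inv_mem hn) h2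
          have h4 : n⁻¹ * (n * z * n⁻¹) * n⁻¹⁻¹ = z := by group
          rwa [h4] at h3
    have h2 : N ≤ K.map N.subtype := by
      refine hNN₁.trans ?_
      rw [hN₁]
      exact sInf_le h1
    rw [eq_top_iff]
    intro x _
    obtain ⟨y, hy, hyx⟩ := h2 x.2
    have : y = x := Subtype.ext hyx
    rwa [← this]
  refine ⟨N, hNn, hNb, hNmin, hsimple, ?_⟩
  by_cases hC : centralizer (N : Set F) = ⊥
  · exact Or.inl hC
  right
  have hNC : N ≤ centralizer (N : Set F) := hNmin _ inferInstance hC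
  have hNcomm : IsMulCommutative N := by
    refine ⟨⟨fun a b => Subtype.ext ?_⟩⟩
    exact (mem_centralizer_iff.1 (hNC a.2) b b.2).symm
  have hpr : (Nat.card N).Prime := Group.is_simple_iff_prime_card.1 hsimple
  obtain ⟨p, hp⟩ : ∃ p, p = Nat.card N := ⟨_, rfl⟩
  rw [← hp] at hpr
  haveI hpF : Fact p.Prime := ⟨hpr⟩
  have hHeq : H = N := by
    apply Subgroup.eq_of_le_of_card_ge hHN
    have h1 : Nat.card H ∣ Nat.card N := Subgroup.card_dvd_of_le hHN
    rw [← hp] at h1 ⊢
    rcases (Nat.dvd_prime hpr).1 h1 with h2 | h2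
    · exact absurd (Subgroup.eq_bot_of_card_eq _ h2) hH
    · exact h2.ge
  obtain ⟨C, hCdef⟩ : ∃ C, C = centralizer (N : Set F) := ⟨_, rfl⟩
  rw [← hCdef] at hC hNC ⊢
  haveI hCn : C.Normal := by rw [hCdef]; infer_instance
  have hCmem : ∀ x, x ∈ C ↔ ∀ n ∈ N, n * x = x * n := by
    intro x
    rw [hCdef, mem_centralizer_iff]
    rfl
  have hCmin : ∀ R : Subgroup F, R ≠ ⊥ → R ≤ C → N ≤ R := by
    intro R hR hRC
    rw [← hHeq]
    apply hmin R hR
    intro h hh
    have hhN : h ∈ N := hHN hh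
    rw [mem_normalizer_iff]
    intro r
    constructor
    · intro hr
      have h1 := (hCmem r).1 (hRC hr) h hhN
      rw [h1]
      simpa using hr
    · intro hr
      have h1 := (hCmem _).1 (hRC hr) h hhN
      have h2 : r = h * r * h⁻¹ := by
        have h3 : h * (h * r * h⁻¹) * h⁻¹ = h * r * h⁻¹ := by
          rw [h1]; group
        have h4 : h * (h * r * h⁻¹) * h⁻¹ = h * (h * r * h⁻¹ * h⁻¹) := by group
        rw [h4] at h3
        have h5 : h * r * h⁻¹ * h⁻¹ = r * h⁻¹ := mul_left_cancel (a := h) (by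
          rw [h3]; group)
        exact (mul_right_cancel h5).symm ▸ rfl
      rw [h2]
      exact hr
  -- `C` is a `p`-group
  have hCp : IsPGroup p C := by
    rintro ⟨x, hx⟩
    have h0 : orderOf x ≠ 0 := (orderOf_pos x).ne'
    obtain ⟨e, m, hm, hy⟩ := Nat.exists_eq_pow_mul_and_not_dvd h0 p hpr.ne_one
    refine ⟨e, Subtype.ext ?_⟩
    show x ^ p ^ e = 1
    by_contra hne
    have hdvd : p ^ e ∣ orderOf x := ⟨m, hy⟩
    have hord : orderOf (x ^ p ^ e) = m := by
      rw [orderOf_pow_of_dvd (pow_ne_zero _ hpr.ne_zero) hdvd, hy,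
        Nat.mul_div_cancel_left _ (pow_pos hpr.pos e)]
    have h1 := hCmin (zpowers (x ^ p ^ e)) (by simpa using hne)
      (by
        rw [zpowers_le]
        exact C.pow_mem hx _)
    have h2 := Subgroup.card_dvd_of_le h1
    rw [Nat.card_zpowers, hord, ← hp] at h2
    exact hm h2
  have hNr : ∀ y ∈ C, y ^ p = 1 → y ≠ 1 → N = zpowers y := by
    intro y hy hy1 hy2
    have h1 := hCmin (zpowers y) (by simpa using hy2) (by rwa [zpowers_le])
    apply Subgroup.eq_of_le_of_card_ge h1
    rw [Nat.card_zpowers, orderOf_eq_prime hy1 hy2, hp]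
  have hU : Cfsg.Agent.Lib.PGroup.CyclicMax2.UniqueP p C := by
    intro y z hy hz hy1 hz1
    have hy' : (y : F) ^ p = 1 := by simpa using congrArg Subtype.val hy
    have hz' : (z : F) ^ p = 1 := by simpa using congrArg Subtype.val hz
    have hy1' : (y : F) ≠ 1 := fun h => hy1 (Subtype.ext h)
    have hz1' : (z : F) ≠ 1 := fun h => hz1 (Subtype.ext h)
    have h1 := hNr y y.2 hy' hy1'
    have h2 := hNr z z.2 hz' hz1'
    have h3 : (y : F) ∈ zpowers (z : F) := by
      rw [← h2, h1]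
      exact mem_zpowers _
    obtain ⟨i, hi⟩ := h3
    refine ⟨i, Subtype.ext ?_⟩
    simpa using hi
  -- the action on `N`
  let ρ : F →* MulAut N := MulAut.conjNormal
  have hker : ρ.ker = C := by
    ext x
    rw [MonoidHom.mem_ker, hCmem]
    constructor
    · intro h n hn
      have h1 : ρ x ⟨n, hn⟩ = ⟨n, hn⟩ := by rw [h]; rfl
      have h2 : ((ρ x ⟨n, hn⟩ : N) : F) = n := congrArg Subtype.val h1
      rw [MulAut.conjNormal_apply] at h2
      calc n * x = (x * n * x⁻¹) * x := by rw [h2]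
        _ = x * n := by group
    · intro h
      ext n
      show ((ρ x n : N) : F) = n
      rw [MulAut.conjNormal_apply, ← h n n.2]
      group
  haveI hNcyc : IsCyclic N := by
    haveI : Fact (Nat.card N).Prime := by rw [← hp]; exact hpF
    exact isCyclic_of_prime_card rfl
  have hcardAut : Nat.card (MulAut N) = p - 1 := by
    rw [IsCyclic.card_mulAut, ← hp, Nat.totient_prime hpr]
  haveI hAutcyc : IsCyclic (MulAut N) := by
    haveI : NeZero (Nat.card N) := ⟨by rw [← hp]; exact hpr.ne_zero⟩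
    haveI : Fact (Nat.card N).Prime := by rw [← hp]; exact hpF
    exact isCyclic_of_surjective (IsCyclic.mulAutMulEquiv N).symm (IsCyclic.mulAutMulEquiv N).symm.surjective
  have hindex : C.index = Nat.card ρ.range := by rw [← hker, index_ker]
  have hidvd : C.index ∣ p - 1 := by
    rw [hindex, ← hcardAut]
    exact Subgroup.card_subgroup_dvd_card _
  have hgen : ∃ g, C ⊔ zpowers g = ⊤ := by
    obtain ⟨⟨_, g, rfl⟩, hg⟩ := IsCyclic.exists_generator (α := ρ.range)
    refine ⟨g, eq_top_iff.2 fun x _ => ?_⟩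
    obtain ⟨k, hk⟩ := hg ⟨ρ x, ⟨x, rfl⟩⟩
    have h1 : ρ (g ^ k) = ρ x := by
      have := congrArg Subtype.val hk
      simpa using this
    have h2 : (g ^ k)⁻¹ * x ∈ C := by
      rw [← hker, MonoidHom.mem_ker, map_mul, map_inv, h1]
      group
    have h3 : x = (g ^ k) * ((g ^ k)⁻¹ * x) := by group
    rw [h3, sup_comm]
    exact mul_mem_sup (zpow_mem (mem_zpowers g) k) h2
  rcases Cfsg.Agent.Lib.PGroup.CyclicMax2.cyclic_or_quaternion hCp hU with hcyc | ⟨hp2, u, b, n, hSC, hn, hcard, hb, hbu, hb2⟩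
  · left
    obtain ⟨k, hk⟩ := IsPGroup.iff_card.1 hCp
    refine ⟨hHeq, ?_, hcyc, ⟨k, ?_, by rw [hk, hp]⟩, hgen, by rw [← hp]; exact hidvd⟩
    · rw [← hp]; exact hpr
    · by_contra hk0
      have hk1 : k = 0 := by omega
      rw [hk1, pow_zero] at hk
      exact hC (Subgroup.eq_bot_of_card_eq _ hk)
  · right
    subst hp2
    have hi1 : C.index = 1 := by
      have : C.index ∣ 1 := by simpa using hidvd
      exact Nat.dvd_one.1 this
    have hCt : C = ⊤ := Subgroup.index_eq_one.1 hi1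
    refine ⟨hHeq, hp.symm, hCt, n - 1, by omega, ?_⟩
    obtain ⟨e⟩ := Cfsg.Agent.Lib.PGroup.CyclicMax2.quaternion_of_data (by omega) hSC.hu hcard hb hbu hb2
    exact ⟨((MulEquiv.subgroupCongr hCt).trans Subgroup.topEquiv).symm.trans e⟩

end Cfsg.Agent.S3025
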