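import Cfsg.Statements.S3027
import Mathlib
import Cfsg.Agent.Lib.Basic.Conj
-- import your own Cfsg.Agent.* helpers here

set_option autoImplicit false
open Cfsg

namespace Cfsg.Agent.S3027

open Cfsg.Agent.Lib.Basic.Conj Subgroup
open scoped Pointwise

variable {G : Type*} [Group G]

theorem sup_top_iff (D L : Subgroup G) [D.Normal] :
    L ⊔ D = ⊤ ↔ L.map (QuotientGroup.mk' D) = ⊤ := by
  constructor
  · intro h
    have h1 : (L ⊔ D).map (QuotientGroup.mk' D) = ⊤ := by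
      rw [h, ← MonoidHom.range_eq_map]
      exact MonoidHom.range_eq_top.mpr (QuotientGroup.mk'_surjective D)
    rw [Subgroup.map_sup] at h1
    have h2 : D.map (QuotientGroup.mk' D) = ⊥ := by
      rw [Subgroup.map_eq_bot_iff, QuotientGroup.ker_mk']
    rwa [h2, sup_bot_eq] at h1
  · intro h
    have h1 := Subgroup.comap_map_eq (QuotientGroup.mk' D) L
    rw [h, QuotientGroup.ker_mk', Subgroup.comap_top] at h1
    exact h1.symm

theorem commutator_sup_top (D L₁ L₂ : Subgroup G) [D.Normal]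
    (hperf : ⁅(⊤ : Subgroup G), (⊤ : Subgroup G)⁆ ⊔ D = ⊤) (h₁ : L₁ ⊔ D = ⊤) (h₂ : L₂ ⊔ D = ⊤) :
    ⁅L₁, L₂⁆ ⊔ D = ⊤ := by
  rw [sup_top_iff] at *
  rw [Subgroup.map_commutator, h₁, h₂]
  rw [Subgroup.map_commutator] at hperf
  have h3 : (⊤ : Subgroup G).map (QuotientGroup.mk' D) = ⊤ := by
    rw [← MonoidHom.range_eq_map]
    exact MonoidHom.range_eq_top.mpr (QuotientGroup.mk'_surjective D)
  rwa [h3] at hperf

theorem conj_mem_of_normal {A K : Subgroup G} (hN : (A.subgroupOf K).Normal) (hle : A ≤ K) {a k : G}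
    (ha : a ∈ A) (hk : k ∈ K) : k * a * k⁻¹ ∈ A := by
  have := hN.conj_mem ⟨a, hle ha⟩ ha ⟨k, hk⟩
  exact this

theorem inf_isSubnormal {A : Subgroup G} (hA : A.IsSubnormal) (B : Subgroup G) (hB : B.IsSubnormal) :
    (A ⊓ B).IsSubnormal := by
  induction hA with
  | top => simpa using hB
  | step A A1 hle hS hN ih =>
    refine IsSubnormal.step (A ⊓ B) (A1 ⊓ B) (inf_le_inf_right B hle) ih ?_
    constructor
    rintro ⟨x, hx1⟩ hx ⟨k, hk⟩
    have hx' : x ∈ A ⊓ B := hx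
    refine ⟨?_, ?_⟩
    · exact conj_mem_of_normal hN hle hx'.1 hk.1
    · exact B.mul_mem (B.mul_mem hk.2 hx'.2) (B.inv_mem hk.2)

theorem inf_supp (D : Subgroup G) [D.Normal] (hperf : ⁅(⊤ : Subgroup G), (⊤ : Subgroup G)⁆ ⊔ D = ⊤)
    {A : Subgroup G} (hA : A.IsSubnormal) : A ⊔ D = ⊤ → ∀ B : Subgroup G, B.IsSubnormal → B ⊔ D = ⊤ →
      (A ⊓ B) ⊔ D = ⊤ := by
  induction hA with
  | top =>
    intro _ B _ hB
    simpa using hB
  | step A A1 hle hS hN ihA =>
    intro hAD B hBs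
    induction hBs with
    | top =>
      intro _
      simpa using hAD
    | step B B1 hle2 hS2 hN2 ihB =>
      intro hBD
      have hA1D : A1 ⊔ D = ⊤ := top_le_iff.mp (hAD ▸ sup_le_sup_right hle D)
      have hB1D : B1 ⊔ D = ⊤ := top_le_iff.mp (hBD ▸ sup_le_sup_right hle2 D)
      have hX := ihA hA1D B (IsSubnormal.step B B1 hle2 hS2 hN2) hBD
      have hY := ihB hB1D
      have hc : ⁅A1 ⊓ B, A ⊓ B1⁆ ≤ A ⊓ B := by
        rw [Subgroup.commutator_le]
        intro x hx y hy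
        rw [commutatorElement_def]
        refine ⟨?_, ?_⟩
        · exact A.mul_mem (conj_mem_of_normal hN hle hy.1 hx.1) (A.inv_mem hy.1)
        · have h1 : x * y * x⁻¹ * y⁻¹ = x * (y * x⁻¹ * y⁻¹) := by group
          rw [h1]
          exact B.mul_mem hx.2 (conj_mem_of_normal hN2 hle2 (B.inv_mem hx.2) hy.2)
      have h3 := commutator_sup_top D _ _ hperf hX hY
      exact top_le_iff.mp (h3 ▸ sup_le_sup_right hc D)


/-- Let G be a finite group and D a normal subgroup of G such that G/D is perfect (that is, G = G′D). Then among the subnormal subgroups B of G with BD = G there is a least one, and it is normal in G. -/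
theorem result {G : Type*} [Group G] [Finite G] (D : Subgroup G) [D.Normal] (hperf : ⁅(⊤ : Subgroup G), (⊤ : Subgroup G)⁆ ⊔ D = ⊤) :
    ∃ B : Subgroup G, B.Normal ∧ B ⊔ D = ⊤ ∧ ∀ B' : Subgroup G, B'.IsSubnormal → B' ⊔ D = ⊤ → B ≤ B' := by
  classical
  have hfin : (Set.univ : Set (Subgroup G)).Finite := Set.toFinite _
  let S : Set (Subgroup G) := {A | A.IsSubnormal ∧ A ⊔ D = ⊤}
  have hSne : S.Nonempty := ⟨⊤, IsSubnormal.top, top_sup_eq D⟩
  obtain ⟨B, hB⟩ := (Set.toFinite S).exists_minimal hSne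
  have hleast : ∀ B' : Subgroup G, B'.IsSubnormal → B' ⊔ D = ⊤ → B ≤ B' := by
    intro B' hB'1 hB'2
    have h1 : B ⊓ B' ∈ S := ⟨inf_isSubnormal hB.1.1 B' hB'1, inf_supp D hperf hB.1.1 hB.1.2 B' hB'1 hB'2⟩
    have h2 := hB.2 h1 inf_le_left
    exact h2.trans inf_le_right
  refine ⟨B, ?_, hB.1.2, hleast⟩
  rw [← Subgroup.normalizer_eq_top_iff, eq_top_iff]
  intro g _
  apply mem_normalizer_of_le_conj_smul
  apply hleast
  · exact IsSubnormal.map (f := (MulAut.conj g).toMonoidHom) (MulAut.conj g).surjective hB.1.1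
  · have h1 : MulAut.conj g • (B ⊔ D) = (MulAut.conj g • B) ⊔ MulAut.conj g • D := by
      rw [conj_smul_eq_map, Subgroup.map_sup]
      rfl
    have h2 : MulAut.conj g • D = D := conj_smul_normal
    rw [← h2, ← h1, hB.1.2]
    ext x
    simp

end Cfsg.Agent.S3027
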