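import Cfsg.Statements.S3031
import Mathlib
import Cfsg.Agent.S0081
import Cfsg.Agent.Lib.Transfer.Basic
import Cfsg.Agent.Lib.Transfer.Frobenius
import Cfsg.Agent.Lib.Transfer.FusionInvariant
import Cfsg.Agent.Lib.Transfer.AutSmall
import Cfsg.Agent.Lib.Transfer.MaxNormal
import Cfsg.Agent.Lib.PGroup.Basic
import Cfsg.Agent.Lib.PGroup.FrattiniBasis

set_option autoImplicit false
open Cfsg

namespace Cfsg.Agent.S3031

open Subgroup Cfsg.Agent.Lib.Transfer.Basic Cfsg.Agent.Lib.Transfer.Frobenius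
open Cfsg.Agent.Lib.Transfer.FusionInvariant Cfsg.Agent.Lib.Transfer.AutSmall

universe u

/-- The hypothesis on the subgroups of `P` of order `p ^ d`. -/
def Hyp (p : ℕ) {G : Type u} [Group G] (P : Subgroup G) (d : ℕ) : Prop :=
  ∀ E : Subgroup G, E ≤ P → (Nat.card E = p ^ d ∨ (p ^ d = 2 ∧ Nat.card E = 4)) →
    ∀ g : G, E.map (MulAut.conj g).toMonoidHom ⊓ normalizer (E : Set G) ≤ E

/-- A subgroup `M` of `P` of index `p`, in elementary terms. -/
structure IsMax (p : ℕ) {G : Type u} [Group G] (P M : Subgroup G) : Prop where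
  le : M ≤ P
  norm : P ≤ normalizer (M : Set G)
  pow : ∀ x ∈ P, x ^ p ∈ M
  comm : ∀ x ∈ P, ∀ y ∈ P, x * y * x⁻¹ * y⁻¹ ∈ M
  gen : ∀ x ∈ P, x ∉ M → ∀ z ∈ P, ∃ k : ℕ, (x ^ k)⁻¹ * z ∈ M
  card : p * Nat.card M = Nat.card P

variable {G : Type u} [Group G] [Finite G] {p : ℕ} [hp : Fact p.Prime]

/-- The subgroups in question are normal in `P`. -/
theorem le_normalizer_of_hyp {P : Subgroup G} (hP : IsPGroup p P) {d : ℕ} (h : Hyp p P d)
    {E : Subgroup G} (hEP : E ≤ P) (hE : Nat.card E = p ^ d ∨ (p ^ d = 2 ∧ Nat.card E = 4)) :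
    P ≤ normalizer (E : Set G) := by
  by_contra hcon
  have hlt : P ⊓ normalizer (E : Set G) < P := inf_lt_left.mpr hcon
  have h1 := lt_inf_normalizer hP hlt
  obtain ⟨g, hg, hgn⟩ := SetLike.exists_of_lt h1
  have hgP : g ∈ P := hg.1
  have hgN : g ∈ normalizer ((P ⊓ normalizer (E : Set G) : Subgroup G) : Set G) := hg.2
  apply hgn
  refine ⟨hgP, mem_normalizer_of_conj_mem fun q hq => ?_⟩
  apply h E hEP hE g
  refine ⟨⟨q, hq, rfl⟩, ?_⟩
  have hqN : q ∈ P ⊓ normalizer (E : Set G) := ⟨hEP hq, le_normalizer hq⟩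
  exact ((mem_normalizer_iff.mp hgN q).mp hqN).2

/-- Strong closure. -/
theorem conj_mem_of_hyp {P : Subgroup G} (hP : IsPGroup p P) {d : ℕ} (h : Hyp p P d)
    {E : Subgroup G} (hEP : E ≤ P) (hE : Nat.card E = p ^ d ∨ (p ^ d = 2 ∧ Nat.card E = 4))
    {x g : G} (hx : x ∈ E) (hxg : g * x * g⁻¹ ∈ P) : g * x * g⁻¹ ∈ E :=
  h E hEP hE g ⟨⟨x, hx, rfl⟩, le_normalizer_of_hyp hP h hEP hE hxg⟩

omit [Finite G] hp in
theorem coprime_orderOf_sub_one [Finite G] {p : ℕ} [hp : Fact p.Prime]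
    (hmin : ∀ q : ℕ, q.Prime → q ∣ Nat.card G → p ≤ q) (n : G) :
    (orderOf n).Coprime (p - 1) := by
  apply Nat.coprime_of_dvd
  intro q hq hqn hqp
  have h1 := hmin q hq (hqn.trans (orderOf_dvd_natCard n))
  have h2 := hp.out.two_le
  have h3 : q ≤ p - 1 := Nat.le_of_dvd (by omega) hqp
  omega

/-- First branch: the intersection with `M` is small. -/
theorem branch_one {P M Y : Subgroup G} (hP : IsPGroup p P) {d : ℕ}
    (hd : p ^ d < Nat.card P) (h : Hyp p P d) (hM : IsMax p P M) (hYP : Y ≤ P)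
    (hY : Nat.card ↥(Y ⊓ M) ≤ p ^ d)
    (hmin : ∀ q : ℕ, q.Prime → q ∣ Nat.card G → p ≤ q) {n y : G}
    (hn : n ∈ normalizer (Y : Set G)) (hy : y ∈ Y) : y⁻¹ * (n * y * n⁻¹) ∈ M := by
  set A := Y ⊓ M with hA
  have hAp : IsPGroup p A := hP.to_le (inf_le_left.trans hYP)
  obtain ⟨a, ha⟩ := IsPGroup.iff_card.mp hAp
  have had : a ≤ d := by
    rw [ha] at hY
    exact (Nat.pow_le_pow_iff_right hp.out.one_lt).mp hY
  obtain ⟨t, ht⟩ := IsPGroup.iff_card.mp hP
  have hdt : d < t := by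
    rw [ht] at hd
    exact (Nat.pow_lt_pow_iff_right hp.out.one_lt).mp hd
  have hMc : Nat.card M = p ^ (t - 1) := by
    apply Nat.eq_of_mul_eq_mul_left hp.out.pos
    rw [hM.card, ht, ← pow_succ']
    congr 1
    omega
  have hpd : p ^ d ∣ Nat.card M := by
    rw [hMc]
    exact pow_dvd_pow p (by omega)
  obtain ⟨E, hAE, hEM, hEc⟩ := exists_between_card (inf_le_right : A ≤ M) ha had hpd
  have hnyY : n * y * n⁻¹ ∈ Y := (mem_normalizer_iff.mp hn y).mp hy
  have hnA : ∀ x ∈ A, n * x * n⁻¹ ∈ A := by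
    intro x hx
    have h1 : n * x * n⁻¹ ∈ Y := (mem_normalizer_iff.mp hn x).mp hx.1
    have h2 := conj_mem_of_hyp hP h (hEM.trans hM.le) (Or.inl hEc) (hAE hx) (hYP h1)
    exact ⟨h1, hEM h2⟩
  have hnN : n ∈ normalizer (A : Set G) := mem_normalizer_of_conj_mem hnA
  by_cases hyM : y ∈ M
  · exact mul_mem (inv_mem hyM) (hnA y ⟨hy, hyM⟩).2
  · obtain ⟨k, hk⟩ := hM.gen y (hYP hy) hyM _ (hYP hnyY)
    have h1 : (y ^ k)⁻¹ * (n * y * n⁻¹) ∈ A :=
      Subgroup.mem_inf.mpr ⟨mul_mem (inv_mem (pow_mem hy k)) hnyY, hk⟩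
    have hyN : y ∈ normalizer (A : Set G) := by
      refine mem_normalizer_of_conj_mem fun q hq => Subgroup.mem_inf.mpr ⟨?_, ?_⟩
      · exact mul_mem (mul_mem hy (Subgroup.mem_inf.mp hq).1) (inv_mem hy)
      · exact (mem_normalizer_iff.mp (hM.norm (hYP hy)) q).mp (Subgroup.mem_inf.mp hq).2
    exact (eig (p := p) hnN hyN (Subgroup.mem_inf.mpr ⟨pow_mem hy p, hM.pow y (hYP hy)⟩) h1
      (pow_orderOf_eq_one n) (coprime_orderOf_sub_one hmin n)).2

/-- Second branch, `Y` normal in `G`. -/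
theorem branch_top {P : Sylow p G} {Y : Subgroup G} (hYP : Y ≤ (P : Subgroup G)) {d : ℕ}
    (hd0 : 0 < d) (hYd : p ^ d < Nat.card Y) (h : Hyp p (P : Subgroup G) d)
    (hmin : ∀ q : ℕ, q.Prime → q ∣ Nat.card G → p ≤ q)
    (hYn : normalizer (Y : Set G) = ⊤) (n : G) :
    ∃ u ∈ (P : Subgroup G), ∀ y ∈ Y, n * y * n⁻¹ = u * y * u⁻¹ := by
  have hYp : IsPGroup p Y := P.isPGroup'.to_le hYP
  have hJ : Cfsg.pResidual p G ≤ centralizer (Y : Set G) := by
    rw [Cfsg.pResidual, closure_le]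
    intro c hc
    have hcN : c ∈ normalizer (Y : Set G) := by rw [hYn]; trivial
    have := comm_of_stable hYp hcN hc (coprime_orderOf_sub_one hmin c) hd0 hYd ?_
    · rw [SetLike.mem_coe, mem_centralizer_iff]
      intro y hy
      exact (this y hy).symm
    · intro E hEY hE
      refine mem_normalizer_of_conj_mem fun q hq => ?_
      have hqP : c * q * c⁻¹ ∈ (P : Subgroup G) :=
        hYP ((mem_normalizer_iff.mp hcN q).mp (hEY hq))
      exact conj_mem_of_hyp P.isPGroup' h (hEY.trans hYP) hE hq hqP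
  -- `P` covers `G / O^p(G)`
  have hq : IsPGroup p (G ⧸ Cfsg.pResidual p G) := isPGroup_quotient_pResidual
  have hsurj : Function.Surjective (QuotientGroup.mk' (Cfsg.pResidual p G)) :=
    QuotientGroup.mk'_surjective _
  have htop : (P : Subgroup G).map (QuotientGroup.mk' (Cfsg.pResidual p G)) = ⊤ := by
    have := (P.mapSurjective hsurj).is_maximal' (Q := ⊤) (hq.to_subgroup ⊤) le_top
    exact this.symm
  have hn : QuotientGroup.mk' (Cfsg.pResidual p G) n ∈
      (P : Subgroup G).map (QuotientGroup.mk' (Cfsg.pResidual p G)) := by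
    rw [htop]; trivial
  obtain ⟨u, huP, hu⟩ := hn
  refine ⟨u, huP, fun y hy => ?_⟩
  have hj : u⁻¹ * n ∈ Cfsg.pResidual p G := QuotientGroup.eq.mp hu
  have hc := hJ hj
  rw [mem_centralizer_iff] at hc
  have hc' := hc y hy
  calc n * y * n⁻¹ = u * ((u⁻¹ * n) * y * (u⁻¹ * n)⁻¹) * u⁻¹ := by group
    _ = u * (y * (u⁻¹ * n) * (u⁻¹ * n)⁻¹) * u⁻¹ := by rw [← hc']
    _ = u * y * u⁻¹ := by group

/-- Second branch, the normalizer of `Y` has a normal `p`-complement. -/
theorem branch_local {P : Sylow p G} {Y : Subgroup G} (hYP : Y ≤ (P : Subgroup G))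
    (hfull : FullyNormalized p (P : Subgroup G) Y)
    (hc : Cfsg.HasNormalPComplement p (normalizer (Y : Set G)))
    {n : G} (hn : n ∈ normalizer (Y : Set G)) :
    ∃ u ∈ (P : Subgroup G), ∀ y ∈ Y, n * y * n⁻¹ = u * y * u⁻¹ := by
  set L := normalizer (Y : Set G) with hL
  obtain ⟨K, hKn, hK⟩ := exists_complement_of_hasNormalPComplement hc hfull.sylow
  have hmem : (⟨n, hn⟩ : L) ∈ K ⊔ (hfull.sylow : Subgroup L) := by
    rw [hK.sup_eq_top]; trivial
  rw [← SetLike.mem_coe, Subgroup.normal_mul] at hmem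
  obtain ⟨k, hk, s, hs, hsk⟩ := hmem
  have hsP : (s : G) ∈ (P : Subgroup G) := (mem_subgroupOf.mp hs).1
  refine ⟨s, hsP, fun y hy => ?_⟩
  have hYL : Y ≤ L := le_normalizer
  have hyS : (⟨y, hYL hy⟩ : L) ∈ (hfull.sylow : Subgroup L) :=
    mem_subgroupOf.mpr ⟨hYP hy, hYL hy⟩
  have hY'n : (Y.subgroupOf L).Normal := normal_in_normalizer
  have hdis : Disjoint K (Y.subgroupOf L) := by
    refine hK.disjoint.mono_right ?_
    intro z hz
    exact mem_subgroupOf.mpr ⟨hYP (mem_subgroupOf.mp hz), z.2⟩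
  have hs' : (s : L) * ⟨y, hYL hy⟩ * (s : L)⁻¹ ∈ Y.subgroupOf L :=
    hY'n.conj_mem _ (mem_subgroupOf.mpr hy) s
  have hcomm := Subgroup.commute_of_normal_of_disjoint K (Y.subgroupOf L) hKn hY'n hdis k _ hk hs'
  have hn' : n = (k : G) * s := by
    have := congrArg Subtype.val hsk
    simpa using this.symm
  have hcomm' : (k : G) * ((s : G) * y * (s : G)⁻¹) = ((s : G) * y * (s : G)⁻¹) * k := by
    have := congrArg Subtype.val hcomm.eq
    simpa using this
  rw [hn']
  calc (k : G) * s * y * ((k : G) * s)⁻¹ = ((k : G) * ((s : G) * y * (s : G)⁻¹)) * (k : G)⁻¹ := by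
        group
    _ = (s : G) * y * (s : G)⁻¹ := by rw [hcomm']; group

/-- The hypothesis passes to the normalizer of a fully normalized subgroup. -/
theorem hyp_local {P : Sylow p G} {Y : Subgroup G} (hfull : FullyNormalized p (P : Subgroup G) Y)
    {d : ℕ} (h : Hyp p (P : Subgroup G) d) : Hyp p (hfull.sylow : Subgroup (normalizer (Y : Set G))) d := by
  set L := normalizer (Y : Set G) with hL
  intro E hES hE g x hx
  set E' := E.map L.subtype with hE'
  have hE'c : Nat.card E' = Nat.card E := Subgroup.card_map_of_injective L.subtype_injective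
  have hE'P : E' ≤ (P : Subgroup G) := by
    rintro _ ⟨z, hz, rfl⟩
    exact (mem_subgroupOf.mp (hES hz)).1
  have hsub : ∀ z : L, (z : G) ∈ E' ↔ z ∈ E := by
    intro z
    constructor
    · rintro ⟨w, hw, hwz⟩
      have : w = z := Subtype.ext hwz
      exact this ▸ hw
    · intro hz
      exact ⟨z, hz, rfl⟩
  have h1 := h E' hE'P (by rwa [hE'c]) (g : G)
  have h2 : (x : G) ∈ E'.map (MulAut.conj (g : G)).toMonoidHom ⊓ normalizer (E' : Set G) := by
    refine Subgroup.mem_inf.mpr ⟨?_, ?_⟩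
    · obtain ⟨e, he, hex⟩ := (Subgroup.mem_inf.mp hx).1
      refine ⟨e, (hsub e).mpr he, ?_⟩
      rw [← hex]
      rfl
    · have hx2 := (Subgroup.mem_inf.mp hx).2
      rw [mem_normalizer_iff] at hx2 ⊢
      intro z
      by_cases hzL : z ∈ L
      · have e1 := (hsub ⟨z, hzL⟩)
        have e2 := hx2 ⟨z, hzL⟩
        have e3 := hsub (x * ⟨z, hzL⟩ * x⁻¹)
        simp only [Subgroup.coe_mul, Subgroup.coe_inv] at e1 e3
        rw [e1, e2, ← e3]
      · have hz1 : z ∉ E' := fun hz => hzL (by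
          obtain ⟨w, _, hwz⟩ := hz
          exact hwz ▸ w.2)
        have hz2 : (x : G) * z * (x : G)⁻¹ ∉ E' := fun hz => hzL (by
          obtain ⟨w, _, hwz⟩ := hz
          have hw : (x : G) * z * (x : G)⁻¹ ∈ L := by
            rw [← hwz]
            exact w.2
          have : z = (x : G)⁻¹ * ((x : G) * z * (x : G)⁻¹) * x := by group
          rw [this]
          exact mul_mem (mul_mem (inv_mem x.2) hw) x.2)
        exact ⟨fun hz => absurd hz hz1, fun hz => absurd hz hz2⟩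
  exact (hsub x).mp (h1 h2)

/-- The key claim: `P / M` is invariant under fusion. -/
theorem key_claim {P : Sylow p G} {M : Subgroup G} {d : ℕ} (hd0 : 0 < d)
    (hd : p ^ d < Nat.card (P : Subgroup G)) (h : Hyp p (P : Subgroup G) d)
    (hM : IsMax p (P : Subgroup G) M)
    (hmin : ∀ q : ℕ, q.Prime → q ∣ Nat.card G → p ≤ q)
    (IH : ∀ Y : Subgroup G, Y ≤ (P : Subgroup G) → FullyNormalized p (P : Subgroup G) Y →
      p ^ d < Nat.card Y → normalizer (Y : Set G) ≠ ⊤ →
        Cfsg.HasNormalPComplement p (normalizer (Y : Set G)))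
    {x g : G} (hx : x ∈ (P : Subgroup G)) (hg : g * x * g⁻¹ ∈ (P : Subgroup G)) :
    (g * x * g⁻¹)⁻¹ * x ∈ M := by
  have := fusion_invariant P (fun z => (z : G ⧸ M)) ?_ hx g hg
  · exact QuotientGroup.eq.mp this
  intro Y hYP hfull n hn y hy
  apply QuotientGroup.eq.mpr
  suffices hs : y⁻¹ * (n * y * n⁻¹) ∈ M by
    have := inv_mem hs
    simpa using this
  by_cases hsmall : Nat.card ↥(Y ⊓ M) ≤ p ^ d
  · exact branch_one P.isPGroup' hd h hM hYP hsmall hmin hn hy
  · have hYd : p ^ d < Nat.card Y := by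
      have h1 : Nat.card ↥(Y ⊓ M) ≤ Nat.card Y :=
        Nat.le_of_dvd Nat.card_pos (Subgroup.card_dvd_of_le inf_le_left)
      omega
    obtain ⟨u, huP, hu⟩ : ∃ u ∈ (P : Subgroup G), ∀ y ∈ Y, n * y * n⁻¹ = u * y * u⁻¹ := by
      by_cases hL : normalizer (Y : Set G) = ⊤
      · exact branch_top hYP hd0 hYd h hmin hL n
      · exact branch_local hYP hfull (IH Y hYP hfull hYd hL) hn
    rw [hu y hy]
    have := hM.comm y⁻¹ (inv_mem (hYP hy)) u huP
    simpa [mul_assoc] using this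

/-- The main step of the inductive proof: assuming the local subgroups have normal `p`-complements,
so does `G`. -/
theorem main_step (P : Sylow p G) {d : ℕ} (hd0 : 0 < d)
    (hd : p ^ d < Nat.card (P : Subgroup G)) (h : Hyp p (P : Subgroup G) d)
    (hmin : ∀ q : ℕ, q.Prime → q ∣ Nat.card G → p ≤ q)
    (IH : ∀ Y : Subgroup G, Y ≤ (P : Subgroup G) → FullyNormalized p (P : Subgroup G) Y →
      p ^ d < Nat.card Y → normalizer (Y : Set G) ≠ ⊤ →
        Cfsg.HasNormalPComplement p (normalizer (Y : Set G))) :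
    Cfsg.HasNormalPComplement p G := by
  have hPp : IsPGroup p (P : Subgroup G) := P.isPGroup'
  have hJP : Cfsg.pResidual p G ⊓ (P : Subgroup G) ≤ (frattini P).map (P : Subgroup G).subtype := by
    intro x hx
    obtain ⟨hxJ, hxP⟩ := Subgroup.mem_inf.mp hx
    refine ⟨⟨x, hxP⟩, ?_, rfl⟩
    apply Cfsg.Agent.Lib.PGroup.FrattiniBasis.mem_frattini_iff.mpr
    intro M₀ hM₀
    haveI hM₀n : M₀.Normal := Cfsg.Agent.Lib.PGroup.FrattiniBasis.coatom_normal hPp hM₀
    have hM₀i : M₀.index = p := Cfsg.Agent.Lib.PGroup.FrattiniBasis.coatom_index hPp hM₀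
    have hab := Cfsg.Agent.Lib.Transfer.MaxNormal.comm_of_coatom M₀ hM₀
    letI : CommGroup (P ⧸ M₀) :=
      { (inferInstance : Group (P ⧸ M₀)) with mul_comm := hab }
    set M := M₀.map (P : Subgroup G).subtype with hMdef
    have hmemM : ∀ z : (P : Subgroup G), (z : G) ∈ M ↔ z ∈ M₀ := by
      intro z
      constructor
      · rintro ⟨w, hw, hwz⟩
        have : w = z := Subtype.ext hwz
        exact this ▸ hw
      · intro hz
        exact ⟨z, hz, rfl⟩
    have hMmax : IsMax p (P : Subgroup G) M := by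
      refine ⟨map_subtype_le _, ?_, ?_, ?_, ?_, ?_⟩
      · intro u hu
        refine mem_normalizer_of_conj_mem fun q hq => ?_
        obtain ⟨w, hw, rfl⟩ := hq
        exact (hmemM (⟨u, hu⟩ * w * ⟨u, hu⟩⁻¹)).mpr (hM₀n.conj_mem w hw ⟨u, hu⟩)
      · intro u hu
        exact (hmemM (⟨u, hu⟩ ^ p)).mpr
          (Cfsg.Agent.Lib.PGroup.FrattiniBasis.pow_mem_coatom hPp hM₀ ⟨u, hu⟩)
      · intro u hu v hv
        have h1 : (⟨u, hu⟩ * ⟨v, hv⟩ * (⟨u, hu⟩ : (P : Subgroup G))⁻¹ *
            (⟨v, hv⟩ : (P : Subgroup G))⁻¹ : (P : Subgroup G)) ∈ M₀ := by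
          rw [← QuotientGroup.eq_one_iff]
          simp only [QuotientGroup.mk_mul, QuotientGroup.mk_inv]
          rw [hab (⟨u, hu⟩ : (P : Subgroup G)) (⟨v, hv⟩ : (P : Subgroup G))]
          group
        exact (hmemM _).mpr h1
      · intro u hu huM z hz
        have hu' : (⟨u, hu⟩ : (P : Subgroup G)) ∉ M₀ := fun hc => huM ((hmemM _).mpr hc)
        have hlt : M₀ < zpowers (⟨u, hu⟩ : (P : Subgroup G)) ⊔ M₀ := by
          refine lt_of_le_of_ne le_sup_right fun heq => hu' ?_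
          rw [heq]
          exact mem_sup_left (mem_zpowers _)
        have htop := hM₀.2 _ hlt
        have hzm : (⟨z, hz⟩ : (P : Subgroup G)) ∈ zpowers (⟨u, hu⟩ : (P : Subgroup G)) ⊔ M₀ := by
          rw [htop]; trivial
        rw [Subgroup.mem_sup_of_normal_right] at hzm
        obtain ⟨c, hc, m, hm, hcm⟩ := hzm
        obtain ⟨k, rfl⟩ := (mem_powers_iff_mem_zpowers.mpr hc)
        refine ⟨k, ?_⟩
        have h1 : ((⟨u, hu⟩ : (P : Subgroup G)) ^ k)⁻¹ * ⟨z, hz⟩ ∈ M₀ := by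
          rw [← hcm]
          simpa using hm
        exact (hmemM _).mpr h1
      · have h1 : Nat.card M = Nat.card M₀ :=
          Subgroup.card_map_of_injective (P : Subgroup G).subtype_injective
        have h2 := Subgroup.card_mul_index M₀
        rw [hM₀i] at h2
        rw [h1, mul_comm]
        exact h2
    have hQp : IsPGroup p (P ⧸ M₀) := hPp.to_quotient M₀
    let ϕ : (P : Subgroup G) →* (P ⧸ M₀) := QuotientGroup.mk' M₀
    have hϕ : ∀ z w : (P : Subgroup G), z⁻¹ * w ∈ M₀ → ϕ z = ϕ w := by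
      intro z w hzw
      exact QuotientGroup.eq.mpr hzw
    have hkey : ∀ (k : ℕ) (g₀ : G) (hh : g₀⁻¹ * (x : G) ^ k * g₀ ∈ (P : Subgroup G)),
        ϕ ⟨_, hh⟩ = ϕ ⟨x, hxP⟩ ^ k := by
      intro k g₀ hh
      have hxk : x ^ k ∈ (P : Subgroup G) := pow_mem hxP k
      have hg₀ : g₀⁻¹ * x ^ k * g₀⁻¹⁻¹ ∈ (P : Subgroup G) := by simpa using hh
      have h1 := key_claim hd0 hd h hMmax hmin IH hxk hg₀
      rw [← map_pow]
      apply hϕ
      apply (hmemM _).mp
      simpa using h1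
    have hV := transfer_eq_pow_of_fusion (P : Subgroup G) ϕ ⟨x, hxP⟩ hkey
    have hV1 : MonoidHom.transfer ϕ x = 1 := pResidual_le_ker hQp _ hxJ
    have hV2 : ϕ ⟨x, hxP⟩ ^ (P : Subgroup G).index = 1 := by
      rw [← hV]
      exact hV1
    obtain ⟨k, hk⟩ := hQp (ϕ ⟨x, hxP⟩)
    have hcop : Nat.Coprime (p ^ k) (P : Subgroup G).index :=
      Nat.Coprime.pow_left k ((Nat.Prime.coprime_iff_not_dvd hp.out).mpr P.not_dvd_index)
    have h1 : ϕ ⟨x, hxP⟩ = 1 := by
      have h2 := pow_gcd_eq_one.mpr ⟨hk, hV2⟩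
      rw [hcop, pow_one] at h2
      exact h2
    exact (QuotientGroup.eq_one_iff _).mp h1
  have := Cfsg.Agent.S0081.result P (Cfsg.pResidual p G) hJP
  exact HasNormalPComplement_of_normal_of_isPGroup_quotient _ isPGroup_quotient_pResidual this

/-- The induction. -/
theorem induct {p : ℕ} [hp : Fact p.Prime] {d : ℕ} (hd0 : 0 < d) (N : ℕ) :
    ∀ (G : Type u) [Group G] [Finite G], Nat.card G = N →
      (∀ q : ℕ, q.Prime → q ∣ Nat.card G → p ≤ q) → ∀ P : Sylow p G,
      p ^ d < Nat.card (P : Subgroup G) → Hyp p (P : Subgroup G) d →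
      Cfsg.HasNormalPComplement p G := by
  induction N using Nat.strong_induction_on with
  | _ N ih =>
    intro G _ _ hN hmin P hd h
    refine main_step P hd0 hd h hmin fun Y hYP hfull hYd hL => ?_
    refine ih _ ?_ (normalizer (Y : Set G)) rfl ?_ hfull.sylow ?_ (hyp_local hfull h)
    · rw [← hN]
      refine lt_of_le_of_ne (Subgroup.card_le_card_group _) fun heq => hL ?_
      exact Subgroup.eq_top_of_card_eq _ heq
    · intro q hq hqd
      exact hmin q hq (hqd.trans (Subgroup.card_subgroup_dvd_card _))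
    · have h1 : Nat.card (hfull.sylow : Subgroup (normalizer (Y : Set G))) =
          Nat.card ↥((P : Subgroup G) ⊓ normalizer (Y : Set G)) :=
        Nat.card_congr (Subgroup.subgroupOfEquivOfLe inf_le_right).toEquiv
      rw [h1]
      refine lt_of_lt_of_le hYd (Nat.le_of_dvd Nat.card_pos (Subgroup.card_dvd_of_le ?_))
      exact le_inf hYP le_normalizer

/-- Let G be a finite group, p the smallest prime dividing |G| and P a Sylow p-subgroup. Suppose that P is cyclic, or that P has a subgroup D with 1 < |D| < |P| such that every subgroup E of P of order |D|, and also every subgroup E of P of order 4 when |D| = 2, satisfies g E g⁻¹ ∩ N_G(E) ≤ E for all g ∈ G (E is strongly closed in its normalizer with respect to G). Then G has a normal p-complement. -/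
theorem result {G : Type*} [Group G] [Finite G] {p : ℕ} [Fact p.Prime] (hdiv : p ∣ Nat.card G)
    (hmin : ∀ q : ℕ, q.Prime → q ∣ Nat.card G → p ≤ q) (P : Sylow p G)
    (h : IsCyclic ↥(P : Subgroup G) ∨ ∃ D : Subgroup G, D ≤ (P : Subgroup G) ∧ 1 < Nat.card D ∧ Nat.card D < Nat.card (P : Subgroup G) ∧
      ∀ E : Subgroup G, E ≤ (P : Subgroup G) → (Nat.card E = Nat.card D ∨ (Nat.card D = 2 ∧ Nat.card E = 4)) →
        ∀ g : G, E.map (MulAut.conj g).toMonoidHom ⊓ Subgroup.normalizer (E : Set G) ≤ E) :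
    Cfsg.HasNormalPComplement p G := by
  rcases h with hc | ⟨D, hDP, hD1, hDP', hE⟩
  · have hminfac : (Nat.card G).minFac = p := by
      have hne : Nat.card G ≠ 1 := by
        intro h1
        rw [h1] at hdiv
        exact (inferInstance : Fact p.Prime).out.one_lt.ne' (Nat.dvd_one.mp hdiv)
      have h1 := hmin _ (Nat.minFac_prime hne) (Nat.minFac_dvd _)
      have h2 := Nat.minFac_le_of_dvd (inferInstance : Fact p.Prime).out.two_le hdiv
      omega
    exact ⟨P, _, inferInstance, IsCyclic.isComplement' hminfac hc⟩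
  · obtain ⟨d, hdc⟩ := IsPGroup.iff_card.mp (P.isPGroup'.to_le hDP)
    have hd0 : 0 < d := by
      rcases Nat.eq_zero_or_pos d with rfl | h0
      · simp [hdc] at hD1
      · exact h0
    rw [hdc] at hDP' hE
    exact induct hd0 _ G rfl hmin P hDP' hE

end Cfsg.Agent.S3031
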