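import Cfsg.Statements.S3032
import Mathlib
import Cfsg.Agent.S3031
import Cfsg.Agent.Lib.Transfer.NormalStable

set_option autoImplicit false
open Cfsg

namespace Cfsg.Agent.S3032

open Subgroup Cfsg.Agent.Lib.Transfer.Basic Cfsg.Agent.Lib.Transfer.Frobenius
open Cfsg.Agent.Lib.Solvable.Supersolvable Cfsg.Agent.Lib.Transfer.NormalStable

universe u

variable {G : Type u} [Group G] [Finite G]

/-- The hypothesis of the theorem, for a normal subgroup `E`. -/
def HypS (E : Subgroup G) : Prop :=
  ∀ (p : ℕ), p.Prime → ∀ P : Subgroup G, P ≤ E → IsPGroup p P → ¬ p ∣ P.relIndex E → ¬ IsCyclic ↥P →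
      ∃ D : Subgroup G, D ≤ P ∧ 1 < Nat.card D ∧ Nat.card D < Nat.card P ∧
        ∀ F : Subgroup G, F ≤ P → (Nat.card F = Nat.card D ∨ (Nat.card D = 2 ∧ Nat.card F = 4)) →
          ∀ g : G, F.map (MulAut.conj g).toMonoidHom ⊓ Subgroup.normalizer (F : Set G) ≤ F

/-- Restricting the strong closure condition to a subgroup. -/
theorem hyp_sub {L : Subgroup G} {F : Subgroup L} {g : L}
    (h : (F.map L.subtype).map (MulAut.conj (g : G)).toMonoidHom ⊓
      normalizer ((F.map L.subtype : Subgroup G) : Set G) ≤ F.map L.subtype) :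
    F.map (MulAut.conj g).toMonoidHom ⊓ normalizer (F : Set L) ≤ F := by
  intro x hx
  have hsub : ∀ z : L, (z : G) ∈ F.map L.subtype ↔ z ∈ F := by
    intro z
    constructor
    · rintro ⟨w, hw, hwz⟩
      have : w = z := Subtype.ext hwz
      exact this ▸ hw
    · intro hz
      exact ⟨z, hz, rfl⟩
  have h2 : (x : G) ∈ (F.map L.subtype).map (MulAut.conj (g : G)).toMonoidHom ⊓
      normalizer ((F.map L.subtype : Subgroup G) : Set G) := by
    refine Subgroup.mem_inf.mpr ⟨?_, ?_⟩
    · obtain ⟨e, he, hex⟩ := (Subgroup.mem_inf.mp hx).1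
      refine ⟨e, (hsub e).mpr he, ?_⟩
      rw [← hex]
      rfl
    · have hx2 := (Subgroup.mem_inf.mp hx).2
      refine mem_normalizer_of_conj_mem fun q hq => ?_
      obtain ⟨w, hw, rfl⟩ := hq
      have h3 := (mem_normalizer_iff.mp hx2 w).mp hw
      exact (hsub _).mpr h3
  exact (hsub x).mp (h h2)

theorem card_map_of_injOn {Q : Type*} [Group Q] {H : Subgroup G} {f : G →* Q}
    (hf : Set.InjOn f (H : Set G)) : Nat.card (H.map f) = Nat.card H := by
  have h1 := Nat.card_image_of_injOn hf
  rw [← Subgroup.coe_map] at h1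
  exact h1

/-- The quotient by the normal `p`-complement of `E` is supersolvable. -/
theorem quotient_step {p : ℕ} [hp : Fact p.Prime] (E : Subgroup G) [hEn : E.Normal]
    (hGE : IsSupersolvable (G ⧸ E)) (hyp : HypS E) (P₀ : Sylow p E) (K : Subgroup G)
    [hKn : K.Normal] (hKE : K ≤ E) (hKc : (Nat.card K).Coprime p)
    (hcov : ∀ e ∈ E, ∃ k ∈ K, ∃ u ∈ (P₀ : Subgroup E).map E.subtype, e = k * u) :
    IsSupersolvable (G ⧸ K) := by
  set P := (P₀ : Subgroup E).map E.subtype with hPdef
  have hPE : P ≤ E := map_subtype_le _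
  have hPp : IsPGroup p P := P₀.isPGroup'.map _
  have hidx : ¬ p ∣ P.relIndex E := by
    have h1 : P.subgroupOf E = P₀ :=
      Subgroup.comap_map_eq_self_of_injective E.subtype_injective _
    rw [Subgroup.relIndex, h1]
    exact P₀.not_dvd_index
  let f := QuotientGroup.mk' K
  have hfs : Function.Surjective f := QuotientGroup.mk'_surjective K
  have hdisj : ∀ x ∈ P, x ∈ K → x = 1 := by
    intro x hx hxK
    obtain ⟨a, ha⟩ := IsPGroup.iff_orderOf.mp hPp ⟨x, hx⟩
    have hxa : orderOf x = p ^ a := by rw [← ha, Subgroup.orderOf_mk]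
    have h1 : orderOf x ∣ Nat.card K := by
      have := orderOf_dvd_natCard (⟨x, hxK⟩ : K)
      simpa using this
    have h2 : Nat.Coprime (orderOf x) (Nat.card K) := by
      rw [hxa]
      exact Nat.Coprime.pow_left a hKc.symm
    exact orderOf_eq_one_iff.mp (Nat.Coprime.eq_one_of_dvd h2 h1)
  have hinj : Set.InjOn f (P : Set G) := by
    intro x hx y hy hxy
    have h1 : x⁻¹ * y ∈ K := QuotientGroup.eq.mp hxy
    have h2 := hdisj _ (mul_mem (inv_mem hx) hy) h1
    exact (inv_mul_eq_one.mp h2)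
  have hEP : E.map f = P.map f := by
    apply le_antisymm
    · rintro _ ⟨e, he, rfl⟩
      obtain ⟨k, hk, u, hu, rfl⟩ := hcov e he
      refine ⟨u, hu, ?_⟩
      have h1 : f k = 1 := (QuotientGroup.eq_one_iff k).mpr hk
      rw [map_mul, h1, one_mul]
    · exact Subgroup.map_mono hPE
  haveI hEfn : (E.map f).Normal := Subgroup.Normal.map hEn f hfs
  have hq : IsSupersolvable ((G ⧸ K) ⧸ E.map f) := by
    have hle : E ≤ (E.map f).comap f := Subgroup.le_comap_map f E
    refine IsSupersolvable.of_surjective (QuotientGroup.map E (E.map f) f hle) ?_ hGE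
    intro y
    obtain ⟨y, rfl⟩ := QuotientGroup.mk_surjective y
    obtain ⟨x, rfl⟩ := hfs y
    exact ⟨x, rfl⟩
  by_cases hc : IsCyclic P
  · haveI : IsCyclic (E.map f) := by
      rw [hEP]
      exact isCyclic_of_surjective (f.subgroupMap P) (f.subgroupMap_surjective P)
    exact IsSupersolvable.of_normal_cyclic (E.map f) hq
  obtain ⟨D, hDP, hD1, hD2, hDF⟩ := hyp p hp.out P hPE hPp hidx hc
  obtain ⟨d, hd⟩ := IsPGroup.iff_card.mp (hPp.to_le hDP)
  have hd0 : 0 < d := by
    rcases Nat.eq_zero_or_pos d with rfl | h0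
    · simp [hd] at hD1
    · exact h0
  rw [hd] at hD2 hDF
  have hH : Cfsg.Agent.S3031.Hyp p P d := hDF
  have hcard : Nat.card (E.map f) = Nat.card P := by
    rw [hEP]
    exact card_map_of_injOn hinj
  have hEfp : IsPGroup p (E.map f) := by
    rw [hEP]
    exact hPp.map f
  refine isSupersolvable_of_normal_subgroups (p := p) (E.map f) hEfp hq hd0 (by rw [hcard]; exact hD2) ?_
  intro F hFE hFc
  -- the preimage of `F` in `P`
  set F₁ := P ⊓ F.comap f with hF₁
  have hF₁P : F₁ ≤ P := inf_le_left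
  have hF₁map : F₁.map f = F := by
    apply le_antisymm
    · rintro _ ⟨x, hx, rfl⟩
      exact (mem_inf.mp hx).2
    · intro y hy
      have hy' := hFE hy
      rw [hEP] at hy'
      obtain ⟨x, hx, rfl⟩ := hy'
      exact ⟨x, mem_inf.mpr ⟨hx, hy⟩, rfl⟩
  have hF₁c : Nat.card F₁ = Nat.card F := by
    rw [← hF₁map]
    exact (card_map_of_injOn (hinj.mono hF₁P)).symm
  rw [← hF₁c] at hFc
  have hPN := Cfsg.Agent.S3031.le_normalizer_of_hyp hPp hH hF₁P hFc
  have hNP : ∀ m ∈ normalizer (P : Set G), m ∈ normalizer (F₁ : Set G) := by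
    intro m hm
    refine mem_normalizer_of_conj_mem fun q hq => ?_
    apply hH F₁ hF₁P hFc m
    refine mem_inf.mpr ⟨⟨q, hq, rfl⟩, ?_⟩
    exact hPN ((mem_normalizer_iff.mp hm q).mp (hF₁P hq))
  refine ⟨fun n hn g => ?_⟩
  rw [← hF₁map] at hn ⊢
  obtain ⟨x, hx, rfl⟩ := hn
  obtain ⟨g₀, rfl⟩ := hfs g
  have hg₀ : g₀ ∈ normalizer (P : Set G) ⊔ E := by
    have h1 := Sylow.normalizer_sup_eq_top P₀
    have h2 : g₀ ∈ (⊤ : Subgroup G) := mem_top _
    rw [← h1] at h2
    exact h2
  rw [Subgroup.mem_sup_of_normal_right] at hg₀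
  obtain ⟨m, hm, e, he, rfl⟩ := hg₀
  obtain ⟨k, hk, u, hu, rfl⟩ := hcov e he
  have hm' : m * u ∈ normalizer (P : Set G) := mul_mem hm (le_normalizer hu)
  have hk' : m * k * m⁻¹ ∈ K := hKn.conj_mem k hk m
  have e1 : f (m * (k * u)) = f (m * u) := by
    have h3 : f k = 1 := (QuotientGroup.eq_one_iff k).mpr hk
    rw [map_mul, map_mul, map_mul, h3, one_mul]
  rw [e1, ← map_mul, ← map_inv, ← map_mul]
  exact ⟨_, (mem_normalizer_iff.mp (hNP _ hm') x).mp hx, rfl⟩

/-- The induction on `|E|`. -/
theorem induct (n : ℕ) : ∀ (E : Subgroup G) [E.Normal], Nat.card E = n →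
    IsSupersolvable (G ⧸ E) → HypS E → IsSupersolvable G := by
  induction n using Nat.strong_induction_on with
  | _ n ih =>
    intro E hEn hn hGE hyp
    by_cases hE1 : E = ⊥
    · subst hE1
      exact IsSupersolvable.of_mulEquiv (QuotientGroup.quotientBot : G ⧸ (⊥ : Subgroup G) ≃* G) hGE
    have hEc : Nat.card E ≠ 1 := fun h => hE1 ((Subgroup.eq_bot_iff_card E).mpr h)
    set p := (Nat.card E).minFac with hpdef
    haveI hp : Fact p.Prime := ⟨Nat.minFac_prime hEc⟩
    have hdiv : p ∣ Nat.card E := Nat.minFac_dvd _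
    have hmin : ∀ q : ℕ, q.Prime → q ∣ Nat.card E → p ≤ q := fun q hq hqd =>
      Nat.minFac_le_of_dvd hq.two_le hqd
    let P₀ : Sylow p E := default
    set P := (P₀ : Subgroup E).map E.subtype with hPdef
    have hPE : P ≤ E := map_subtype_le _
    have hPp : IsPGroup p P := P₀.isPGroup'.map _
    have hsub : P.subgroupOf E = P₀ :=
      Subgroup.comap_map_eq_self_of_injective E.subtype_injective _
    have hidx : ¬ p ∣ P.relIndex E := by
      rw [Subgroup.relIndex, hsub]
      exact P₀.not_dvd_index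
    have hPc : Nat.card P = Nat.card (P₀ : Subgroup E) :=
      Subgroup.card_map_of_injective E.subtype_injective
    -- the normal `p`-complement of `E`
    have hcomp : Cfsg.HasNormalPComplement p E := by
      refine Cfsg.Agent.S3031.result hdiv hmin P₀ ?_
      by_cases hc : IsCyclic P
      · left
        have e : P₀ ≃* P := (P₀ : Subgroup E).equivMapOfInjective E.subtype E.subtype_injective
        exact isCyclic_of_surjective e.symm.toMonoidHom e.symm.surjective
      · right
        obtain ⟨D, hDP, hD1, hD2, hDF⟩ := hyp p hp.out P hPE hPp hidx hc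
        have hDc : Nat.card (D.subgroupOf E) = Nat.card D :=
          Nat.card_congr (Subgroup.subgroupOfEquivOfLe (hDP.trans hPE)).toEquiv
        refine ⟨D.subgroupOf E, ?_, by rwa [hDc], by rw [hDc, ← hPc]; exact hD2, ?_⟩
        · intro x hx
          rw [← hsub]
          exact mem_subgroupOf.mpr (hDP (mem_subgroupOf.mp hx))
        · intro F hFP hFc g
          rw [hDc] at hFc
          apply hyp_sub
          have hF'c : Nat.card (F.map E.subtype) = Nat.card F :=
            Subgroup.card_map_of_injective E.subtype_injective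
          refine hDF (F.map E.subtype) ?_ (by rwa [hF'c]) (g : G)
          exact Subgroup.map_mono hFP
    obtain ⟨K₀, hK₀n, hK₀1, hK₀2⟩ := hasNormalPComplement_iff.mp hcomp
    set K := K₀.map E.subtype with hKdef
    have hKE : K ≤ E := map_subtype_le _
    have hKc : Nat.card K = Nat.card K₀ := Subgroup.card_map_of_injective E.subtype_injective
    have hKmem := mem_iff_coprime_of_normal K₀ hK₀1 hK₀2
    haveI hKn : K.Normal := by
      refine ⟨fun x hx g => ?_⟩
      obtain ⟨y, hy, rfl⟩ := hx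
      have hconj : g * (y : G) * g⁻¹ ∈ E := hEn.conj_mem _ y.2 g
      refine ⟨⟨_, hconj⟩, ?_, rfl⟩
      rw [SetLike.mem_coe, hKmem]
      have h3 := (hKmem y).mp hy
      have : orderOf (⟨_, hconj⟩ : E) = orderOf y := by
        rw [← Subgroup.orderOf_coe, ← Subgroup.orderOf_coe]
        exact orderOf_conj_eq g (y : G)
      rw [this]
      exact h3
    have hcompl := isComplement'_of_coprime_of_isPGroup P₀ hK₀1 hK₀2
    have hcov : ∀ e ∈ E, ∃ k ∈ K, ∃ u ∈ (P₀ : Subgroup E).map E.subtype, e = k * u := by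
      intro e he
      have h1 : (⟨e, he⟩ : E) ∈ K₀ ⊔ (P₀ : Subgroup E) := by
        rw [hcompl.sup_eq_top]
        trivial
      rw [← SetLike.mem_coe, Subgroup.normal_mul] at h1
      obtain ⟨k, hk, u, hu, hku⟩ := h1
      refine ⟨k, ⟨k, hk, rfl⟩, u, ⟨u, hu, rfl⟩, ?_⟩
      have := congrArg Subtype.val hku
      simpa using this.symm
    have hK1 : (Nat.card K).Coprime p := by rw [hKc]; exact hK₀1
    have hquot : IsSupersolvable (G ⧸ K) := quotient_step E hGE hyp P₀ K hKE hK1 hcov
    -- the induction hypothesis for `K`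
    have hKlt : Nat.card K < n := by
      rw [← hn]
      refine lt_of_le_of_ne (Nat.le_of_dvd Nat.card_pos (Subgroup.card_dvd_of_le hKE)) ?_
      intro h
      rw [h] at hK1
      have := Nat.Coprime.eq_one_of_dvd hK1.symm hdiv
      exact hp.out.one_lt.ne' this
    refine ih _ hKlt K rfl hquot ?_
    intro q hq Q hQK hQp hQi hQc
    have hQE : Q ≤ E := hQK.trans hKE
    refine hyp q hq Q hQE hQp ?_ hQc
    -- `q` is not `p`
    have hQ1 : Q ≠ ⊥ := by
      rintro rfl
      exact hQc (by infer_instance)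
    have hqp : q ≠ p := by
      intro hqe
      haveI : Fact q.Prime := ⟨hq⟩
      have hd1 : q ∣ Nat.card Q := by
        rcases hQp.card_eq_or_dvd with h | h
        · exact absurd ((Subgroup.eq_bot_iff_card Q).mpr h) hQ1
        · exact h
      rw [hqe] at hd1
      have hd2 : Nat.card Q ∣ Nat.card K := Subgroup.card_dvd_of_le hQK
      have hd3 := Nat.Coprime.eq_one_of_dvd hK1.symm (hd1.trans hd2)
      exact hp.out.one_lt.ne' hd3
    -- `|E : K|` is a power of `p`
    have hKidx : K.relIndex E = K₀.index := by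
      have h1 : K.subgroupOf E = K₀ :=
        Subgroup.comap_map_eq_self_of_injective E.subtype_injective _
      rw [Subgroup.relIndex, h1]
    obtain ⟨a, ha⟩ := IsPGroup.iff_card.mp hK₀2
    have hKidx' : K.relIndex E = p ^ a := by
      rw [hKidx, Subgroup.index]
      exact ha
    have hmul := Subgroup.relIndex_mul_relIndex Q K E hQK hKE
    rw [← hmul, hKidx']
    intro hdvd
    rcases (Nat.Prime.dvd_mul hq).mp hdvd with h | h
    · exact hQi h
    · exact hqp ((Nat.prime_dvd_prime_iff_eq hq hp.out).mp (hq.dvd_of_dvd_pow h))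

/-- Let G be a finite group and E a normal subgroup with G/E supersolvable. Suppose that for every prime p and every non-cyclic Sylow p-subgroup P of E there is a subgroup D of P with 1 < |D| < |P| such that every subgroup F of P of order |D|, and also every subgroup F of P of order 4 when |D| = 2, satisfies g F g⁻¹ ∩ N_G(F) ≤ F for all g ∈ G. Then G is supersolvable. -/
theorem result {G : Type*} [Group G] [Finite G] (E : Subgroup G) [E.Normal] (hGE : Cfsg.IsSupersolvable (G ⧸ E))
    (h : ∀ (p : ℕ), p.Prime → ∀ P : Subgroup G, P ≤ E → IsPGroup p P → ¬ p ∣ P.relIndex E → ¬ IsCyclic ↥P →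
      ∃ D : Subgroup G, D ≤ P ∧ 1 < Nat.card D ∧ Nat.card D < Nat.card P ∧
        ∀ F : Subgroup G, F ≤ P → (Nat.card F = Nat.card D ∨ (Nat.card D = 2 ∧ Nat.card F = 4)) →
          ∀ g : G, F.map (MulAut.conj g).toMonoidHom ⊓ Subgroup.normalizer (F : Set G) ≤ F) :
    Cfsg.IsSupersolvable G :=
  induct _ E rfl hGE h

end Cfsg.Agent.S3032
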