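import Cfsg.Statements.S3050
import Mathlib
import Cfsg.Agent.Lib.PGroup.SL2FpfGroup

set_option autoImplicit false
open Cfsg

namespace Cfsg.Agent.S3050

/-- Let G be a finite group with a normal 2-subgroup Q such that G/Q is isomorphic to SL(2, 2ⁿ) with n ≥ 2, and suppose some element of G of order 3 fixes no nonidentity element of Q under conjugation. Then Q is elementary abelian and is the direct product of normal subgroups of G on each of which G acts as SL(2, 2ⁿ) acts on its natural two-dimensional module (a Galois twist of the natural action allowed). -/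
theorem result {G : Type*} [Group G] [Finite G]
    (Q : Subgroup G) [Q.Normal] (hQ : IsPGroup 2 ↥Q) (n : ℕ) (hn : 2 ≤ n)
    (K : Type*) [Field K] [Fintype K] (hK : Fintype.card K = 2 ^ n)
    (e : G ⧸ Q ≃* Matrix.SpecialLinearGroup (Fin 2) K)
    (x : G) (hx : orderOf x = 3) (hfpf : ∀ q ∈ Q, x * q * x⁻¹ = q → q = 1) :
    Cfsg.IsElementaryAbelian 2 Q ∧
      ∃ (k : ℕ) (V : Fin k → Subgroup G), (∀ i, V i ≤ Q ∧ (V i).Normal ∧
        Cfsg.ActsAsSL2OnSection K ⊤ ⊤ (V i) ⊥) ∧ iSupIndep V ∧ ⨆ i, V i = Q := by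
  have : Finite K := inferInstance
  obtain ⟨p, hp⟩ := CharP.exists K
  have hp2 : p = 2 := by
    obtain ⟨m, hpp, hm⟩ := FiniteField.card K p
    rw [hK] at hm
    have h1 : p ∣ 2 ^ n := by
      rw [hm]
      exact dvd_pow_self p m.ne_zero
    exact (Nat.prime_dvd_prime_iff_eq hpp Nat.prime_two).1 (hpp.dvd_of_dvd_pow h1)
  subst hp2
  have hU : ∃ u : K, u ≠ 0 ∧ u ≠ 1 := by
    classical
    have h4 : 4 ≤ Fintype.card K := by
      rw [hK]
      calc 4 = 2 ^ 2 := by norm_num
        _ ≤ 2 ^ n := Nat.pow_le_pow_right (by norm_num) hn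
    have h1 : ({0, 1} : Finset K).card < (Finset.univ : Finset K).card := by
      rw [Finset.card_univ]
      have := Finset.card_le_two (a := (0 : K)) (b := (1 : K))
      omega
    obtain ⟨u, -, hu⟩ := Finset.exists_mem_notMem_of_card_lt_card h1
    simp only [Finset.mem_insert, Finset.mem_singleton, not_or] at hu
    exact ⟨u, hu.1, hu.2⟩
  have hx3 : x * x * x = 1 := by
    have := pow_orderOf_eq_one x
    rw [hx, pow_succ, pow_two] at this
    exact this
  have hx1 : x ≠ 1 := by
    rintro rfl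
    simp at hx
  exact Cfsg.Agent.Lib.PGroup.SL2FpfGroup.main Q hQ hU e x hx3 hx1 hfpf

end Cfsg.Agent.S3050
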