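import Cfsg.Statements.S3064
import Cfsg.Agent.Lib.Solvable.FrobQuot

set_option autoImplicit false
open Cfsg
open scoped Pointwise

namespace Cfsg.Agent.S3064

universe u

open Cfsg.Agent.Lib.Solvable.FrobQuot

theorem isPGroup_zpowers {G : Type*} [Group G] {p k : ℕ} {y : G} (hy : y ^ (p ^ k) = 1) :
    IsPGroup p (Subgroup.zpowers y) := by
  rintro ⟨z, i, rfl⟩
  refine ⟨k, ?_⟩
  apply Subtype.ext
  simp only [Subgroup.coe_pow, OneMemClass.coe_one]
  rw [← zpow_natCast, ← zpow_mul, mul_comm, zpow_mul, zpow_natCast, hy, one_zpow]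

theorem main (p : ℕ) [hp : Fact p.Prime] : ∀ (n : ℕ) (G : Type u) [Group G] [Finite G],
    Nat.card G = n → ∀ x : G, (∃ k : ℕ, x ^ (p ^ k) = 1) →
    (∀ (g : G) (T : Subgroup G), IsPGroup p T → x ∈ T → g⁻¹ * x * g ∈ T → g⁻¹ * x * g = x) →
    (∀ H : Subgroup G, (Nat.card H).Coprime p → (∀ h ∈ H, x * h * x⁻¹ ∈ H) →
      ∀ h ∈ H, x * h = h * x) →
    x ∈ Subgroup.center G := by
  intro n
  induction n using Nat.strong_induction_on with
  | _ n ih =>
  intro G _ _ hcard x hxp c1 c2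
  by_contra hxZ
  set D := Subgroup.centralizer ({x} : Set G) with hD
  have hDmem : ∀ y, y ∈ D ↔ y * x = x * y := fun y => Subgroup.mem_centralizer_singleton_iff
  have hDtop : D ≠ ⊤ := by
    intro htop
    apply hxZ
    rw [Subgroup.mem_center_iff]
    intro g
    have : g ∈ D := by rw [htop]; trivial
    exact (hDmem g).mp this
  -- Step 1: proper subgroups containing `x` centralize `x`
  have step1 : ∀ K : Subgroup G, K ≠ ⊤ → x ∈ K → K ≤ D := by
    intro K hK hxK k hk
    have hlt : Nat.card K < n := by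
      rw [← hcard]
      have h1 := K.card_mul_index
      have h2 : K.index ≠ 1 := fun h => hK (Subgroup.index_eq_one.mp h)
      have h3 : K.index ≠ 0 := Subgroup.index_ne_zero_of_finite
      have h4 : 0 < Nat.card K := Nat.card_pos
      have h5 : 2 ≤ K.index := by omega
      nlinarith
    have hc1 : ∀ (g : K) (T : Subgroup K), IsPGroup p T → (⟨x, hxK⟩ : K) ∈ T →
        g⁻¹ * (⟨x, hxK⟩ : K) * g ∈ T → g⁻¹ * (⟨x, hxK⟩ : K) * g = ⟨x, hxK⟩ := by
      intro g T hT hxT hgT
      apply Subtype.ext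
      exact c1 g.1 (T.map K.subtype) (hT.map _) ⟨_, hxT, rfl⟩ ⟨_, hgT, rfl⟩
    have hc2 : ∀ H : Subgroup K, (Nat.card H).Coprime p →
        (∀ h ∈ H, (⟨x, hxK⟩ : K) * h * (⟨x, hxK⟩ : K)⁻¹ ∈ H) →
        ∀ h ∈ H, (⟨x, hxK⟩ : K) * h = h * ⟨x, hxK⟩ := by
      intro H hH hnorm h hh
      apply Subtype.ext
      refine c2 (H.map K.subtype) ?_ ?_ h.1 ⟨h, hh, rfl⟩
      · rwa [Subgroup.card_map_of_injective K.subtype_injective]
      · rintro _ ⟨w, hw, rfl⟩
        exact ⟨_, hnorm w hw, rfl⟩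
    obtain ⟨j, hj⟩ := hxp
    have := ih _ hlt K rfl ⟨x, hxK⟩ ⟨j, Subtype.ext (by simpa using hj)⟩ hc1 hc2
    rw [Subgroup.mem_center_iff] at this
    have h2 := this ⟨k, hk⟩
    rw [hDmem]
    exact congrArg Subtype.val h2
  -- Step 2: a conjugate commuting with `x` equals `x`
  have step2 : ∀ g : G, g * x * g⁻¹ * x = x * (g * x * g⁻¹) → g * x * g⁻¹ = x := by
    intro g hcomm
    obtain ⟨j, hj⟩ := hxp
    have hy : (g * x * g⁻¹) ^ (p ^ j) = 1 := by
      rw [conj_pow, hj]; simp
    have h1 : IsPGroup p (Subgroup.zpowers x) := isPGroup_zpowers hj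
    have h2 : IsPGroup p (Subgroup.zpowers (g * x * g⁻¹)) := isPGroup_zpowers hy
    have hle : Subgroup.zpowers x ≤ Subgroup.normalizer (Subgroup.zpowers (g * x * g⁻¹) : Set G) := by
      have : Subgroup.zpowers x ≤ Subgroup.centralizer (Subgroup.zpowers (g * x * g⁻¹) : Set G) := by
        rw [Subgroup.zpowers_le, Subgroup.mem_centralizer_iff]
        intro y hy
        obtain ⟨i, rfl⟩ := hy
        exact (Commute.zpow_left (show Commute (g * x * g⁻¹) x from hcomm) i).eq
      exact this.trans (Subgroup.centralizer_le_normalizer _)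
    have hT := h1.to_sup_of_normal_right' h2 hle
    have := c1 g⁻¹ _ hT (Subgroup.mem_sup_left (Subgroup.mem_zpowers x))
      (by
        rw [inv_inv]
        exact Subgroup.mem_sup_right (Subgroup.mem_zpowers _))
    simpa using this
  -- Step 3
  have step3 : ∀ g : G, g ∉ D → Subgroup.closure ({x, g * x * g⁻¹} : Set G) = ⊤ := by
    intro g hg
    by_contra hne
    have hle := step1 _ hne (Subgroup.subset_closure (by simp))
    have hy : g * x * g⁻¹ ∈ D := hle (Subgroup.subset_closure (by simp))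
    have h2 := step2 g ((hDmem _).mp hy)
    apply hg
    rw [hDmem]
    rw [mul_inv_eq_iff_eq_mul] at h2
    exact h2.symm ▸ rfl
  have hZD : Subgroup.center G ≤ D := Subgroup.center_le_centralizer _
  have hDZ : ¬ D ≤ Subgroup.center G := fun h => hxZ (h ((hDmem x).mpr rfl))
  have hF : ∀ g : G, g ∉ D → D ⊓ (MulAut.conj g • D) ≤ Subgroup.center G := by
    rintro g hg z ⟨hz1, hz2⟩
    have hz2' : g⁻¹ * z * g ∈ D := mem_conj_smul_iff'.mp hz2
    have hz3 : z * x = x * z := (hDmem z).mp hz1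
    have hz4 : z * (g * x * g⁻¹) = (g * x * g⁻¹) * z := by
      have := (hDmem _).mp hz2'
      calc z * (g * x * g⁻¹) = g * ((g⁻¹ * z * g) * x) * g⁻¹ := by group
        _ = g * (x * (g⁻¹ * z * g)) * g⁻¹ := by rw [this]
        _ = (g * x * g⁻¹) * z := by group
    have hcl : Subgroup.closure ({x, g * x * g⁻¹} : Set G) ≤ Subgroup.centralizer ({z} : Set G) := by
      rw [Subgroup.closure_le]
      rintro y (rfl | rfl)
      · exact Subgroup.mem_centralizer_singleton_iff.mpr hz3.symm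
      · exact Subgroup.mem_centralizer_singleton_iff.mpr hz4.symm
    rw [step3 g hg, top_le_iff] at hcl
    rw [Subgroup.mem_center_iff]
    intro w
    have : w ∈ Subgroup.centralizer ({z} : Set G) := by rw [hcl]; trivial
    exact Subgroup.mem_centralizer_singleton_iff.mp this
  obtain ⟨K, hKn, hZK, hKD, hKD2, hKk⟩ := exists_kernel D (Subgroup.center G) hZD hDZ hDtop hF
  -- Sylow subgroup containing `x`
  obtain ⟨j, hj⟩ := hxp
  obtain ⟨T, hT⟩ := (isPGroup_zpowers (p := p) hj).exists_le_sylow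
  have hxT : x ∈ T := hT (Subgroup.mem_zpowers x)
  have hTD : (T : Subgroup G) ≤ D := by
    apply step1 _ _ hxT
    intro htop
    apply hxZ
    rw [Subgroup.mem_center_iff]
    intro g
    have := c1 g⁻¹ T T.isPGroup' hxT (by rw [htop]; trivial)
    rw [inv_inv, mul_inv_eq_iff_eq_mul] at this
    exact this
  -- `p`-elements of `K` are central
  have hpK : ∀ k ∈ K, (∃ i : ℕ, k ^ (p ^ i) = 1) → k ∈ Subgroup.center G := by
    intro k hk ⟨i, hi⟩
    by_contra hkZ
    obtain ⟨T', hT'⟩ := (isPGroup_zpowers (p := p) hi).exists_le_sylow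
    obtain ⟨g, hg⟩ := MulAction.exists_smul_eq G T T'
    apply hKk k hk hkZ g
    have : k ∈ (T' : Subgroup G) := hT' (Subgroup.mem_zpowers k)
    rw [← hg, Sylow.coe_subgroup_smul] at this
    exact Subgroup.pointwise_smul_le_pointwise_smul_iff.mpr hTD this
  -- Sylow subgroup of `K`, and a complement
  obtain ⟨Q⟩ : Nonempty (Sylow p K) := inferInstance
  have hQcen : ∀ q : K, q ∈ (Q : Subgroup K) → q.1 ∈ Subgroup.center G := by
    intro q hq
    apply hpK q.1 q.2
    have := Q.isPGroup' ⟨q, hq⟩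
    obtain ⟨i, hi⟩ := this
    refine ⟨i, ?_⟩
    have := congrArg (fun w : (Q : Subgroup K) => ((w : K) : G)) hi
    simpa using this
  have hQnorm : (Q : Subgroup K).Normal := by
    constructor
    intro q hq g
    have h1 := hQcen q hq
    have : g * q * g⁻¹ = q := by
      apply Subtype.ext
      simp only [Subgroup.coe_mul, InvMemClass.coe_inv]
      rw [Subgroup.mem_center_iff] at h1
      rw [h1 g.1]
      group
    rw [this]; exact hq
  obtain ⟨R₀, hR₀⟩ := Subgroup.exists_right_complement'_of_coprime Q.card_coprime_index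
  have hm : (Nat.card R₀).Coprime p := by
    have h1 : Nat.card R₀ = (Q : Subgroup K).index := hR₀.symm.index_eq_card.symm
    rw [h1]
    exact ((Nat.Prime.coprime_iff_not_dvd hp.out).mpr Q.not_dvd_index).symm
  have hdec : ∀ u : K, ∃ q ∈ (Q : Subgroup K), ∃ r ∈ R₀, q * r = u := by
    intro u
    have h1 : u ∈ ((Q : Subgroup K) : Set K) * (R₀ : Set K) := by
      rw [hR₀.mul_eq]; trivial
    obtain ⟨q, hq, r, hr, hqr⟩ := Set.mem_mul.mp h1
    exact ⟨q, hq, r, hr, hqr⟩
  -- characterization of `R₀`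
  have hRchar : ∀ u : K, u ^ Nat.card R₀ = 1 → u ∈ R₀ := by
    intro u hu
    obtain ⟨q, hq, r, hr, rfl⟩ := hdec u
    have hcomm : Commute q r := by
      apply Subtype.ext
      have h1 := hQcen q hq
      rw [Subgroup.mem_center_iff] at h1
      exact (h1 r.1).symm
    rw [hcomm.mul_pow] at hu
    have hr1 : r ^ Nat.card R₀ = 1 := by
      have := pow_card_eq_one' (x := (⟨r, hr⟩ : R₀))
      exact congrArg Subtype.val this
    rw [hr1, mul_one] at hu
    obtain ⟨i, hi⟩ := Q.isPGroup' ⟨q, hq⟩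
    have hqi : q ^ (p ^ i) = 1 := by
      have := congrArg (fun w : (Q : Subgroup K) => (w : K)) hi
      simpa using this
    have h1 : orderOf q ∣ Nat.card R₀ := orderOf_dvd_of_pow_eq_one hu
    have h2 : orderOf q ∣ p ^ i := orderOf_dvd_of_pow_eq_one hqi
    have h3 : (Nat.card R₀).Coprime (p ^ i) := hm.pow_right i
    have h4 : orderOf q = 1 := Nat.eq_one_of_dvd_coprimes h3 h1 h2
    rw [orderOf_eq_one_iff] at h4
    rw [h4, one_mul]
    exact hr
  have hxK : ∀ k ∈ K, x * k * x⁻¹ ∈ K := fun k hk => hKn.conj_mem k hk x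
  have hcR := c2 (R₀.map K.subtype)
    (by rwa [Subgroup.card_map_of_injective K.subtype_injective])
    (by
      rintro _ ⟨r, hr, rfl⟩
      refine ⟨⟨x * r.1 * x⁻¹, hxK r.1 r.2⟩, hRchar _ ?_, rfl⟩
      apply Subtype.ext
      have h3 : r ^ Nat.card R₀ = 1 := by
        have := pow_card_eq_one' (x := (⟨r, hr⟩ : R₀))
        exact congrArg Subtype.val this
      have h4 : (r : G) ^ Nat.card R₀ = 1 := by
        have := congrArg Subtype.val h3
        simpa using this
      simp only [Subgroup.coe_pow, OneMemClass.coe_one]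
      rw [conj_pow, h4]; simp)
  have hKle : K ≤ D := by
    intro k hk
    obtain ⟨q, hq, r, hr, hqr⟩ := hdec ⟨k, hk⟩
    have hk' : k = q.1 * r.1 := by
      have := congrArg Subtype.val hqr
      simpa using this.symm
    rw [hDmem, hk']
    have h1 := hQcen q hq
    rw [Subgroup.mem_center_iff] at h1
    have h2 := hcR r.1 ⟨r, hr, rfl⟩
    calc q.1 * r.1 * x = q.1 * (r.1 * x) := by group
      _ = q.1 * (x * r.1) := by rw [h2]
      _ = q.1 * x * r.1 := by group
      _ = x * q.1 * r.1 := by rw [h1 x]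
      _ = x * (q.1 * r.1) := by group
  apply hDtop
  rw [eq_top_iff, ← hKD2]
  exact sup_le hKle le_rfl

theorem result {G : Type*} [Group G] [Finite G] {p : ℕ} [Fact p.Prime]
    (S : Sylow p G) (x : G) (hx : x ∈ S)
    (hU : ∀ g : G, g⁻¹ * x * g ∈ S → g⁻¹ * x * g = x)
    (hb : ∀ H : Subgroup G, (Nat.card H).Coprime p → (∀ h ∈ H, x * h * x⁻¹ ∈ H) → ∀ h ∈ H, x * h = h * x) :
    x ∈ Subgroup.center G := by
  obtain ⟨k, hk⟩ := S.isPGroup' ⟨x, hx⟩
  have hk' : x ^ (p ^ k) = 1 := by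
    have := congrArg (fun w : (S : Subgroup G) => (w : G)) hk
    simpa using this
  refine main p _ G rfl x ⟨k, hk'⟩ ?_ hb
  intro g T hT hxT hgT
  obtain ⟨S', hS'⟩ := hT.exists_le_sylow
  obtain ⟨h, hh⟩ := MulAction.exists_smul_eq G S S'
  have hx' : x ∈ (S' : Subgroup G) := hS' hxT
  have hy' : g⁻¹ * x * g ∈ (S' : Subgroup G) := hS' hgT
  rw [← hh, Sylow.coe_subgroup_smul] at hx' hy'
  have hx2 : h⁻¹ * x * h ∈ S := mem_conj_smul_iff'.mp hx'
  have hy2 : h⁻¹ * (g⁻¹ * x * g) * h ∈ S := mem_conj_smul_iff'.mp hy'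
  have e1 := hU h hx2
  have e2 : (g * h)⁻¹ * x * (g * h) = x := by
    apply hU
    convert hy2 using 1
    group
  have e3 : h⁻¹ * (g⁻¹ * x * g) * h = h⁻¹ * x * h := by
    calc h⁻¹ * (g⁻¹ * x * g) * h = (g * h)⁻¹ * x * (g * h) := by group
      _ = x := e2
      _ = h⁻¹ * x * h := e1.symm
  have e4 : g⁻¹ * x * g = x := by
    have := congrArg (fun w => h * w * h⁻¹) e3
    simpa [mul_assoc] using this
  exact e4

end Cfsg.Agent.S3064
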