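import Cfsg.Statements.S3068
import Cfsg.Agent.Lib.JTrans.Hloc
import Cfsg.Agent.Lib.JTrans.FinalCore

set_option autoImplicit false
open Cfsg

namespace Cfsg.Agent.S3068

/-- Let p ≥ 7 be a prime, S a Sylow p-subgroup of the finite group G, J(S) the subgroup generated by the abelian subgroups of S of largest order and M = N_G(J(S)). Then G/O^p(G) ≅ M/O^p(M): the largest p-factor group of G is that of M (here O^p(X) is the subgroup generated by the elements of X of order prime to p). -/
theorem result {G : Type*} [Group G] [Finite G] {p : ℕ} [Fact p.Prime]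
    (hp : 7 ≤ p) (S : Sylow p G)
    [hn : (Cfsg.pResidual p G).Normal]
    [hm : (Cfsg.pResidual p ↥(Subgroup.normalizer (Cfsg.thompsonSubgroupAOf (S : Subgroup G) : Set G))).Normal] :
    Nonempty (G ⧸ Cfsg.pResidual p G ≃*
      ↥(Subgroup.normalizer (Cfsg.thompsonSubgroupAOf (S : Subgroup G) : Set G)) ⧸
        Cfsg.pResidual p ↥(Subgroup.normalizer (Cfsg.thompsonSubgroupAOf (S : Subgroup G) : Set G))) :=
  Cfsg.Agent.Lib.JTrans.s3068_core (fun _ _ _ T hT => Cfsg.Agent.Lib.JTrans.hloc_thompson hp T hT) S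

end Cfsg.Agent.S3068
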