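import Cfsg.Statements.S3071
import Cfsg.Agent.Lib.PGroup.GenControlSL
-- import your own Cfsg.Agent.* helpers here

set_option autoImplicit false
open Cfsg

namespace Cfsg.Agent.S3071

/-- Let p be an odd prime and S a Sylow p-subgroup of the finite group G such that, for every subgroup P with Z(S) ≤ P ≤ S, the normalizer N_G(P) has no section isomorphic to SL₂(p). Let J(S) be the subgroup generated by the abelian subgroups of S of largest order. Then two elements of S are conjugate in G if and only if they are conjugate in N_G(Z(J(S))). -/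
theorem result {G : Type*} [Group G] [Finite G] {p : ℕ} [Fact p.Prime]
    (hp : p ≠ 2) (S : Sylow p G)
    (hfree : ∀ P : Subgroup G, (S : Subgroup G) ⊓ Subgroup.centralizer ((S : Subgroup G) : Set G) ≤ P → P ≤ S →
      ¬ ∃ (H K : Subgroup G) (hK : (K.subgroupOf H).Normal), H ≤ Subgroup.normalizer (P : Set G) ∧
        Nonempty ((H ⧸ K.subgroupOf H) ≃* Matrix.SpecialLinearGroup (Fin 2) (ZMod p))) :
    ∀ x ∈ S, ∀ y ∈ S, (∃ g : G, g * x * g⁻¹ = y) ↔
      ∃ n ∈ Subgroup.normalizer (Cfsg.centerThompsonAOf (S : Subgroup G) : Set G), n * x * n⁻¹ = y := by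
  classical
  intro x hx y hy
  constructor
  swap
  · rintro ⟨n, -, hn⟩
    exact ⟨n, hn⟩
  rintro ⟨g, hg⟩
  set B := Subgroup.zpowers x with hBdef
  have hB : B ≤ (S : Subgroup G) := by
    rw [hBdef, Subgroup.zpowers_le]
    exact hx
  have hgB : ∀ b ∈ B, g * b * g⁻¹ ∈ (S : Subgroup G) := by
    intro b hb
    obtain ⟨k, rfl⟩ := Subgroup.mem_zpowers_iff.mp hb
    have h1 : g * x ^ k * g⁻¹ = (g * x * g⁻¹) ^ k := by
      rw [conj_zpow]
    rw [h1, hg]
    exact zpow_mem hy k
  obtain ⟨n, hn, e⟩ := Cfsg.Agent.Lib.PGroup.GenControlSL.good_of_family hp S hfree B g hB hgB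
  refine ⟨n, ?_, ?_⟩
  · rw [Cfsg.Agent.Lib.PGroup.ZJ.centerThompsonAOf_eq]
    exact hn
  · rw [← e x (Subgroup.mem_zpowers x), hg]

end Cfsg.Agent.S3071
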