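import Cfsg.Statements.S3074
import Mathlib
import Cfsg.Agent.Lib.PGroup.QdExt
import Cfsg.Agent.Lib.PGroup.QdKInf
import Cfsg.Agent.Lib.PGroup.Basic
-- import your own Cfsg.Agent.* helpers here

set_option autoImplicit false
open Cfsg

namespace Cfsg.Agent.S3074

open Subgroup Cfsg.Agent.Lib.PGroup.QdExt Cfsg.Agent.Lib.PGroup
open scoped MatrixGroups commutatorElement

/-- A non-abelian group of order `p³` and exponent dividing `p` is extraspecial. -/
theorem extraspecial_of_card {Q : Type*} [Group Q] [Finite Q] {p : ℕ} [hp : Fact p.Prime]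
    (hcard : Nat.card Q = p ^ 3) (hexp : ∀ x : Q, x ^ p = 1) (x₀ y₀ : Q) (hne : x₀ * y₀ ≠ y₀ * x₀) :
    Cfsg.IsExtraspecial p Q := by
  have hP : IsPGroup p Q := IsPGroup.of_card hcard
  haveI : Nontrivial Q := by
    refine Finite.one_lt_card_iff_nontrivial.mp ?_
    rw [hcard]
    exact Nat.one_lt_pow (by norm_num) hp.out.one_lt
  have hZcard : Nat.card (center Q) = p := by
    have hdvd : Nat.card (center Q) ∣ p ^ 3 := hcard ▸ Subgroup.card_subgroup_dvd_card _
    obtain ⟨k, hk, hk'⟩ := (Nat.dvd_prime_pow hp.out).1 hdvd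
    have hnt : Nontrivial (center Q) := hP.center_nontrivial
    have hk0 : k ≠ 0 := by
      rintro rfl
      rw [pow_zero] at hk'
      have := Finite.one_lt_card (α := center Q)
      omega
    have hcomm_of_top : center Q ≠ ⊤ := by
      intro h
      apply hne
      have : x₀ ∈ center Q := h ▸ mem_top _
      exact (mem_center_iff.mp this y₀).symm
    interval_cases k
    · exact absurd rfl hk0
    · simpa using hk'
    · exfalso
      -- the central quotient is cyclic
      have hq : Nat.card (Q ⧸ center Q) = p := by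
        have := Subgroup.card_eq_card_quotient_mul_card_subgroup (center Q)
        rw [hcard, hk'] at this
        have hpp : 0 < p ^ 2 := pow_pos hp.out.pos 2
        apply Nat.eq_of_mul_eq_mul_right hpp
        rw [← this]; ring
      have hc : IsCyclic (Q ⧸ center Q) := isCyclic_of_prime_card hq
      have := commutative_of_cyclic_center_quotient (QuotientGroup.mk' (center Q)) (by simp)
      exact hne (this x₀ y₀)
    · exfalso
      apply hcomm_of_top
      apply Subgroup.eq_top_of_card_eq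
      rw [hk', hcard]
  haveI : Fact (Nat.card (center Q)).Prime := ⟨hZcard ▸ hp.out⟩
  have hcomm_le : commutator Q ≤ center Q := by
    have hq : Nat.card (Q ⧸ center Q) = p ^ 2 := by
      have := Subgroup.card_eq_card_quotient_mul_card_subgroup (center Q)
      rw [hcard, hZcard] at this
      apply Nat.eq_of_mul_eq_mul_right hp.out.pos
      rw [← this]; ring
    have hab := IsPGroup.commutative_of_card_eq_prime_sq hq
    rw [_root_.commutator_def, Subgroup.commutator_le]
    intro a _ b _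
    have : ((⁅a, b⁆ : Q) : Q ⧸ center Q) = 1 := by
      rw [commutatorElement_def]
      simp only [QuotientGroup.mk_mul, QuotientGroup.mk_inv]
      rw [hab (a : Q ⧸ center Q) b]
      group
    exact (QuotientGroup.eq_one_iff _).mp this
  have hcomm_ne : commutator Q ≠ ⊥ := by
    intro h
    have : ⁅x₀, y₀⁆ ∈ commutator Q := by
      rw [_root_.commutator_def]
      exact Subgroup.commutator_mem_commutator (mem_top _) (mem_top _)
    rw [h, mem_bot] at this
    exact hne (commutatorElement_eq_one_iff_mul_comm.mp this)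
  have hcomm_eq : commutator Q = center Q := by
    have hdvd : Nat.card (commutator Q) ∣ p := hZcard ▸ Subgroup.card_dvd_of_le hcomm_le
    rcases (Nat.dvd_prime hp.out).1 hdvd with h | h
    · exact absurd (Subgroup.card_eq_one.mp h) hcomm_ne
    · exact Subgroup.eq_of_le_of_card_ge hcomm_le (by rw [h, hZcard])
  have hfrat : frattini Q = commutator Q := by
    apply le_antisymm
    · rw [Cfsg.Agent.Lib.PGroup.Basic.frattini_le_iff hP]
      refine ⟨fun x => ?_, fun x y => ?_⟩
      · rw [hexp]; exact one_mem _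
      · rw [_root_.commutator_def]
        exact Subgroup.commutator_mem_commutator (mem_top _) (mem_top _)
    · exact Cfsg.Agent.Lib.PGroup.Basic.commutator_le_frattini hP
  exact ⟨⟨hP, hfrat.trans hcomm_eq, hcomm_eq⟩, hZcard⟩

/-- The Heisenberg subgroup of `SL₃`. -/
def heis (p : ℕ) : Subgroup (SL(3, ZMod p)) where
  carrier := {M | ∃ a b c, M = hmat a b c}
  mul_mem' := by
    rintro _ _ ⟨a, b, c, rfl⟩ ⟨a', b', c', rfl⟩
    exact ⟨_, _, _, hmat_mul _ _ _ _ _ _⟩
  one_mem' := ⟨0, 0, 0, hmat_zero.symm⟩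
  inv_mem' := by
    rintro _ ⟨a, b, c, rfl⟩
    exact ⟨_, _, _, hmat_inv _ _ _⟩

theorem heis_le_qd (p : ℕ) : heis p ≤ Cfsg.qd p := by
  rintro _ ⟨a, b, c, rfl⟩
  exact hmat_mem_qd a b c

theorem card_heis (p : ℕ) [hp : Fact p.Prime] : Nat.card (heis p) = p ^ 3 := by
  classical
  haveI : NeZero p := ⟨hp.out.ne_zero⟩
  let f : ZMod p × ZMod p × ZMod p → heis p := fun q => ⟨hmat q.1 q.2.1 q.2.2, _, _, _, rfl⟩
  have hf : Function.Bijective f := by
    constructor
    · rintro ⟨a, b, c⟩ ⟨a', b', c'⟩ h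
      obtain ⟨h1, h2, h3⟩ := hmat_inj (congrArg Subtype.val h)
      simp only at h1 h2 h3
      subst h1 h2 h3; rfl
    · rintro ⟨_, a, b, c, rfl⟩
      exact ⟨(a, b, c), rfl⟩
  rw [← Nat.card_congr (Equiv.ofBijective f hf)]
  simp [Nat.card_prod, Nat.card_zmod, pow_succ, mul_assoc]

/-- Let p be an odd prime. A Sylow p-subgroup of Qd(p), the split extension of an elementary abelian group of order p² by SL₂(p) acting naturally, is extraspecial of order p³ and exponent p. -/
theorem result (p : ℕ) [Fact p.Prime] (hp : p ≠ 2) (P : Sylow p ↥(Cfsg.qd p)) :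
    Cfsg.IsExtraspecial p ↥P ∧ Nat.card P = p ^ 3 ∧ Monoid.exponent ↥P = p := by
  haveI : Finite (Cfsg.qd p) := inferInstance
  set U : Subgroup (Cfsg.qd p) := (heis p).subgroupOf (Cfsg.qd p) with hU
  have hUcard : Nat.card U = p ^ 3 := by
    rw [hU, Nat.card_congr (Subgroup.subgroupOfEquivOfLe (heis_le_qd p)).toEquiv, card_heis]
  have hUp : IsPGroup p U := IsPGroup.of_card hUcard
  have hindex : ¬ p ∣ U.index := by
    have hc := Cfsg.Agent.Lib.PGroup.QdKInf.card_qd (p := p)
    have h3 := Subgroup.card_mul_index U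
    rw [hUcard, hc] at h3
    have hpp : 0 < p ^ 3 := pow_pos (Fact.out : p.Prime).pos 3
    have h4 : U.index = p ^ 2 - 1 := Nat.eq_of_mul_eq_mul_left hpp h3
    rw [h4]
    intro hd
    have hle : 1 ≤ p ^ 2 := Nat.one_le_pow _ _ (Fact.out : p.Prime).pos
    have hd2 : p ∣ p ^ 2 := dvd_pow_self p (by norm_num)
    have := (Nat.dvd_sub_iff_right hle hd2).mp hd
    exact (Fact.out : p.Prime).one_lt.ne' (Nat.dvd_one.mp this)
  let Q : Sylow p (Cfsg.qd p) := hUp.toSylow hindex
  have hQ : (Q : Subgroup (Cfsg.qd p)) = U := rfl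
  let e : (P : Subgroup (Cfsg.qd p)) ≃* (Q : Subgroup (Cfsg.qd p)) := Sylow.equiv P Q
  have hcardP : Nat.card P = p ^ 3 := by
    have : Nat.card P = Nat.card Q := Nat.card_congr e.toEquiv
    rw [this]; exact hUcard
  -- elements of `U` have exponent `p`
  have hUexp : ∀ x : (Q : Subgroup (Cfsg.qd p)), x ^ p = 1 := by
    rintro ⟨⟨m, hm⟩, hx⟩
    have hx' : m ∈ heis p := hx
    obtain ⟨a, b, c, rfl⟩ := hx'
    apply Subtype.ext
    apply Subtype.ext
    simp only [SubgroupClass.coe_pow, Subgroup.coe_one, OneMemClass.coe_one]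
    exact hmat_pow_prime hp a b c
  have hPexp : ∀ x : P, x ^ p = 1 := by
    intro x
    apply e.injective
    rw [map_pow, map_one]
    exact hUexp _
  -- two non-commuting elements
  let u₁ : (Q : Subgroup (Cfsg.qd p)) := ⟨⟨hmat 1 0 0, heis_le_qd p ⟨1, 0, 0, rfl⟩⟩, ⟨1, 0, 0, rfl⟩⟩
  let u₂ : (Q : Subgroup (Cfsg.qd p)) := ⟨⟨hmat 0 1 0, heis_le_qd p ⟨0, 1, 0, rfl⟩⟩, ⟨0, 1, 0, rfl⟩⟩
  have hne : e.symm u₁ * e.symm u₂ ≠ e.symm u₂ * e.symm u₁ := by
    intro h
    rw [← map_mul, ← map_mul] at h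
    have h' := e.symm.injective h
    have h'' : hmat (1 : ZMod p) 0 0 * hmat 0 1 0 = hmat 0 1 0 * hmat 1 0 0 :=
      congrArg (fun z : (Q : Subgroup (Cfsg.qd p)) => ((z : Cfsg.qd p) : SL(3, ZMod p))) h'
    rw [hmat_mul, hmat_mul] at h''
    obtain ⟨-, -, h3⟩ := hmat_inj h''
    haveI : Fact (1 < p) := ⟨(Fact.out : p.Prime).one_lt⟩
    simp at h3
  refine ⟨extraspecial_of_card hcardP hPexp _ _ hne, hcardP, ?_⟩
  -- exponent
  haveI : Nontrivial P := by
    refine ⟨e.symm u₁, 1, ?_⟩
    intro h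
    apply hne
    rw [h]; simp
  rw [Monoid.exponent_eq_prime_iff (Fact.out : p.Prime)]
  intro g hg
  exact orderOf_eq_prime (hPexp g) hg

end Cfsg.Agent.S3074
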