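import Cfsg.Statements.S3075
import Mathlib
-- import your own Cfsg.Agent.* helpers here

set_option autoImplicit false
open Cfsg

namespace Cfsg.Agent.S3075

section aux
variable {N : Type*} [Group N]

theorem conj_comm_of_cyclic (B : Subgroup N) [IsCyclic B]
    (hB : ∀ g : N, ∀ c ∈ B, g * c * g⁻¹ ∈ B) (g h c : N) (hc : c ∈ B) :
    (g * h) * c * (g * h)⁻¹ = (h * g) * c * (h * g)⁻¹ := by
  obtain ⟨b₀, hb₀⟩ := IsCyclic.exists_generator (α := B)
  have hexp : ∀ g : N, ∃ k : ℤ, ∀ c ∈ B, g * c * g⁻¹ = c ^ k := by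
    intro g
    obtain ⟨k, hk⟩ := Subgroup.mem_zpowers_iff.mp (hb₀ ⟨g * b₀ * g⁻¹, hB g _ b₀.2⟩)
    refine ⟨k, fun c hc => ?_⟩
    obtain ⟨m, hm⟩ := Subgroup.mem_zpowers_iff.mp (hb₀ ⟨c, hc⟩)
    have hm' : c = (b₀ : N) ^ m := (congrArg Subtype.val hm).symm
    have hk' : (b₀ : N) ^ k = g * b₀ * g⁻¹ := congrArg Subtype.val hk
    rw [hm', ← conj_zpow, ← hk', ← zpow_mul, ← zpow_mul, mul_comm]
  obtain ⟨kg, hkg⟩ := hexp g
  obtain ⟨kh, hkh⟩ := hexp h
  have h1 : (g * h) * c * (g * h)⁻¹ = c ^ (kg * kh) := by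
    calc (g * h) * c * (g * h)⁻¹ = g * (h * c * h⁻¹) * g⁻¹ := by group
      _ = g * c ^ kh * g⁻¹ := by rw [hkh c hc]
      _ = (g * c * g⁻¹) ^ kh := by rw [conj_zpow]
      _ = (c ^ kg) ^ kh := by rw [hkg c hc]
      _ = _ := by rw [← zpow_mul]
  have h2 : (h * g) * c * (h * g)⁻¹ = c ^ (kg * kh) := by
    calc (h * g) * c * (h * g)⁻¹ = h * (g * c * g⁻¹) * h⁻¹ := by group
      _ = h * c ^ kg * h⁻¹ := by rw [hkg c hc]
      _ = (h * c * h⁻¹) ^ kg := by rw [conj_zpow]
      _ = (c ^ kh) ^ kg := by rw [hkh c hc]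
      _ = _ := by rw [← zpow_mul, mul_comm]
  rw [h1, h2]

end aux

/-- Let p be an odd prime and N a finite group with a normal elementary abelian subgroup A of order p² that is its own centralizer in N, such that N/A is isomorphic to SL₂(p) (over any field F with p elements). Then N splits over A: some subgroup U of N satisfies A ∩ U = 1 and AU = N. -/
theorem result {N : Type*} [Group N] [Finite N] {p : ℕ} [Fact p.Prime] (hp : p ≠ 2)
    (A : Subgroup N) [A.Normal] (hAcomm : IsMulCommutative A) (hAcard : Nat.card A = p ^ 2) (hAexp : Monoid.exponent ↥A = p)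
    (hAself : Subgroup.centralizer (A : Set N) = A)
    {F : Type*} [Field F] [Fintype F] (hF : Fintype.card F = p) (e : N ⧸ A ≃* Matrix.SpecialLinearGroup (Fin 2) F) :
    ∃ U : Subgroup N, A ⊓ U = ⊥ ∧ A ⊔ U = ⊤ := by
  classical
  have hpr : p.Prime := Fact.out
  obtain ⟨k, hk⟩ : ∃ k, p = 2 * k + 1 := by
    rcases hpr.eq_two_or_odd' with h | h
    · exact absurd h hp
    · exact h
  -- basic facts on A
  have hcomm : ∀ a ∈ A, ∀ b ∈ A, a * b = b * a := by
    intro a ha b hb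
    have := hAcomm.is_comm.comm ⟨a, ha⟩ ⟨b, hb⟩
    exact congrArg Subtype.val this
  have hpow : ∀ a ∈ A, a ^ p = 1 := by
    intro a ha
    have := Monoid.pow_exponent_eq_one (⟨a, ha⟩ : A)
    rw [hAexp] at this
    exact congrArg Subtype.val this
  have hsqrt : ∀ a ∈ A, ∃ b ∈ A, b * b = a := by
    intro a ha
    refine ⟨a ^ (k + 1), A.pow_mem ha _, ?_⟩
    have : a ^ (k + 1) * a ^ (k + 1) = a ^ p * a := by
      rw [← pow_add, hk, ← pow_succ]
      congr 1
      ring
    rw [this, hpow a ha, one_mul]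
  have hsqinj : ∀ a ∈ A, a * a = 1 → a = 1 := by
    intro a ha h
    have h1 : a ^ 2 = 1 := by rw [pow_two]; exact h
    have h2 := hpow a ha
    have h3 : a ^ p = a := by
      rw [hk, pow_succ, pow_mul, h1, one_pow, one_mul]
    rw [← h3, h2]
  -- the field
  have h10 : (-1 : F) ≠ 1 := by
    intro h
    have h2 : (2 : F) = 0 := by
      have : (2 : F) = 1 - (-1) := by ring
      rw [this, h, sub_self]
    have h3 : (p : F) = 0 := by
      have := card_nsmul_eq_zero (G := F) (x := (1 : F))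
      rw [hF] at this
      simpa using this
    rw [hk] at h3
    push_cast at h3
    rw [h2, zero_mul, zero_add] at h3
    exact one_ne_zero h3
  -- the central involution of SL₂
  let mI : Matrix.SpecialLinearGroup (Fin 2) F :=
    ⟨!![-1, 0; 0, -1], by simp [Matrix.det_fin_two]⟩
  have hmIcentral : ∀ g : Matrix.SpecialLinearGroup (Fin 2) F, mI * g = g * mI := by
    intro g
    apply Subtype.ext
    show (!![-1, 0; 0, -1] : Matrix (Fin 2) (Fin 2) F) * g.1 = g.1 * !![-1, 0; 0, -1]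
    ext i j
    fin_cases i <;> fin_cases j <;> simp [Matrix.mul_apply, Fin.sum_univ_two]
  have hmIsq : mI * mI = 1 := by
    apply Subtype.ext
    show (!![-1, 0; 0, -1] : Matrix (Fin 2) (Fin 2) F) * !![-1, 0; 0, -1] = 1
    ext i j
    fin_cases i <;> fin_cases j <;> simp [Matrix.mul_apply, Fin.sum_univ_two]
  have hmI1 : mI ≠ 1 := by
    intro h
    have h1 := congrArg (fun m : Matrix.SpecialLinearGroup (Fin 2) F => m.1 0 0) h
    simp [mI] at h1
    exact h10 h1
  -- non commuting elements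
  let x₀ : Matrix.SpecialLinearGroup (Fin 2) F := ⟨!![1, 1; 0, 1], by simp [Matrix.det_fin_two]⟩
  let y₀ : Matrix.SpecialLinearGroup (Fin 2) F := ⟨!![1, 0; 1, 1], by simp [Matrix.det_fin_two]⟩
  have hxy : x₀ * y₀ ≠ y₀ * x₀ := by
    intro h
    have h1 : (x₀.1 * y₀.1) 1 1 = (y₀.1 * x₀.1) 1 1 :=
      congrArg (fun m : Matrix.SpecialLinearGroup (Fin 2) F => m.1 1 1) h
    simp [x₀, y₀, Matrix.mul_apply, Fin.sum_univ_two] at h1
  -- the map
  let π : N →* Matrix.SpecialLinearGroup (Fin 2) F := e.toMonoidHom.comp (QuotientGroup.mk' A)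
  have hπsurj : Function.Surjective π :=
    e.surjective.comp (QuotientGroup.mk'_surjective A)
  have hπker : ∀ g, π g = 1 ↔ g ∈ A := by
    intro g
    show e (QuotientGroup.mk g) = 1 ↔ g ∈ A
    rw [map_eq_one_iff e e.injective, QuotientGroup.eq_one_iff]
  obtain ⟨u, hu⟩ := hπsurj mI
  let t := u ^ p
  have hπt : π t = mI := by
    show π (u ^ p) = mI
    rw [map_pow, hu, hk, pow_succ, pow_mul, pow_two, hmIsq, one_pow, one_mul]
  have htt : t * t = 1 := by
    have h1 : u * u ∈ A := (hπker _).mp (by rw [map_mul, hu, hmIsq])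
    have h2 := hpow _ h1
    rw [(Commute.refl u).mul_pow] at h2
    exact h2
  have htinv : t⁻¹ = t := inv_eq_of_mul_eq_one_left htt
  have htA : t ∉ A := fun h => hmI1 (by rw [← hπt]; exact (hπker t).mpr h)
  have hnormal : A.Normal := inferInstance
  have htc : ∀ a ∈ A, t * a * t⁻¹ ∈ A := fun a ha => hnormal.conj_mem a ha t
  have htt2 : ∀ a : N, t * (t * a * t⁻¹) * t⁻¹ = a := by
    intro a
    calc t * (t * a * t⁻¹) * t⁻¹ = (t * t) * a * (t * t)⁻¹ := by group
      _ = a := by rw [htt]; group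
  have hconj : ∀ g : N, ∃ a ∈ A, g * t * g⁻¹ = t * a := by
    intro g
    refine ⟨t⁻¹ * (g * t * g⁻¹), (hπker _).mp ?_, by group⟩
    rw [map_mul, map_inv, map_mul, map_mul, map_inv, hπt, ← hmIcentral]
    group
  have hsame : ∀ g : N, ∀ c ∈ A, (g * t * g⁻¹) * c * (g * t * g⁻¹)⁻¹ = t * c * t⁻¹ := by
    intro g c hc
    obtain ⟨a, ha, h⟩ := hconj g
    rw [h]
    calc (t * a) * c * (t * a)⁻¹ = t * (a * c * a⁻¹) * t⁻¹ := by group
      _ = t * c * t⁻¹ := by rw [hcomm a ha c hc]; group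
  have hinvert : ∀ a ∈ A, t * a * t⁻¹ = a⁻¹ := by
    by_contra hcon
    push Not at hcon
    obtain ⟨a₀, ha₀, h₀⟩ := hcon
    let Bp : Subgroup N :=
      { carrier := {c | c ∈ A ∧ t * c * t⁻¹ = c}
        mul_mem' := by
          rintro a b ⟨ha, hta⟩ ⟨hb, htb⟩
          refine ⟨A.mul_mem ha hb, ?_⟩
          calc t * (a * b) * t⁻¹ = (t * a * t⁻¹) * (t * b * t⁻¹) := by group
            _ = a * b := by rw [hta, htb]
        one_mem' := ⟨A.one_mem, by group⟩
        inv_mem' := by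
          rintro a ⟨ha, hta⟩
          refine ⟨A.inv_mem ha, ?_⟩
          calc t * a⁻¹ * t⁻¹ = (t * a * t⁻¹)⁻¹ := by group
            _ = a⁻¹ := by rw [hta] }
    let Bm : Subgroup N :=
      { carrier := {c | c ∈ A ∧ t * c * t⁻¹ = c⁻¹}
        mul_mem' := by
          rintro a b ⟨ha, hta⟩ ⟨hb, htb⟩
          refine ⟨A.mul_mem ha hb, ?_⟩
          calc t * (a * b) * t⁻¹ = (t * a * t⁻¹) * (t * b * t⁻¹) := by group
            _ = a⁻¹ * b⁻¹ := by rw [hta, htb]
            _ = (b * a)⁻¹ := by group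
            _ = (a * b)⁻¹ := by rw [hcomm a ha b hb]
        one_mem' := ⟨A.one_mem, by group⟩
        inv_mem' := by
          rintro a ⟨ha, hta⟩
          refine ⟨A.inv_mem ha, ?_⟩
          calc t * a⁻¹ * t⁻¹ = (t * a * t⁻¹)⁻¹ := by group
            _ = a⁻¹⁻¹ := by rw [hta] }
    have hBpA : Bp ≤ A := fun c hc => hc.1
    have hBmA : Bm ≤ A := fun c hc => hc.1
    have hBpmem : ∀ b ∈ A, b * (t * b * t⁻¹) ∈ Bp := by
      intro b hb
      refine ⟨A.mul_mem hb (htc b hb), ?_⟩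
      calc t * (b * (t * b * t⁻¹)) * t⁻¹ = (t * b * t⁻¹) * (t * (t * b * t⁻¹) * t⁻¹) := by group
        _ = (t * b * t⁻¹) * b := by rw [htt2]
        _ = b * (t * b * t⁻¹) := hcomm _ (htc b hb) _ hb
    have hBmmem : ∀ b ∈ A, b * (t * b * t⁻¹)⁻¹ ∈ Bm := by
      intro b hb
      refine ⟨A.mul_mem hb (A.inv_mem (htc b hb)), ?_⟩
      calc t * (b * (t * b * t⁻¹)⁻¹) * t⁻¹ = (t * b * t⁻¹) * (t * (t * b * t⁻¹) * t⁻¹)⁻¹ := by group
        _ = (t * b * t⁻¹) * b⁻¹ := by rw [htt2]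
        _ = (b * (t * b * t⁻¹)⁻¹)⁻¹ := by group
    have hBp1 : Bp ≠ ⊥ := by
      intro h
      have h1 := hBpmem a₀ ha₀
      rw [h] at h1
      have h2 : a₀ * (t * a₀ * t⁻¹) = 1 := h1
      exact h₀ (eq_inv_of_mul_eq_one_right h2)
    have hBm1 : Bm ≠ ⊥ := by
      intro h
      apply htA
      rw [← hAself, Subgroup.mem_centralizer_iff]
      intro a ha
      have h1 := hBmmem a ha
      rw [h] at h1
      have h2 : a * (t * a * t⁻¹)⁻¹ = 1 := h1
      have h3 : a = t * a * t⁻¹ := eq_of_mul_inv_eq_one h2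
      calc a * t = t * a * t⁻¹ * t := by rw [← h3]
        _ = t * a := by group
    have hdisj : ∀ c, c ∈ Bp → c ∈ Bm → c = 1 := by
      rintro c ⟨hc, h1⟩ ⟨-, h2⟩
      apply hsqinj c hc
      have h3 : c = c⁻¹ := h1.symm.trans h2
      nth_rewrite 1 [h3]
      group
    have hcardB : ∀ B B' : Subgroup N, B ≤ A → B' ≤ A → B ≠ ⊥ → B' ≠ ⊥ →
        (∀ c, c ∈ B → c ∈ B' → c = 1) → Nat.card B = p := by
      intro B B' hB hB' hB1 hB'1 hd
      have hdvd : Nat.card B ∣ p ^ 2 := hAcard ▸ Subgroup.card_dvd_of_le hB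
      obtain ⟨i, hi, hci⟩ := (Nat.dvd_prime_pow hpr).mp hdvd
      interval_cases i
      · exfalso
        apply hB1
        rw [pow_zero] at hci
        exact Subgroup.eq_bot_of_card_eq _ hci
      · rw [hci, pow_one]
      · exfalso
        have hBA : B = A := Subgroup.eq_of_le_of_card_ge hB (by rw [hci, hAcard])
        apply hB'1
        rw [eq_bot_iff]
        intro c hc
        exact hd c (hBA ▸ hB' hc) hc
    have hcp := hcardB Bp Bm hBpA hBmA hBp1 hBm1 hdisj
    have hcm := hcardB Bm Bp hBmA hBpA hBm1 hBp1 (fun c h1 h2 => hdisj c h2 h1)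
    have hcycp : IsCyclic Bp := isCyclic_of_prime_card hcp
    have hcycm : IsCyclic Bm := isCyclic_of_prime_card hcm
    have hBpN : ∀ g : N, ∀ c ∈ Bp, g * c * g⁻¹ ∈ Bp := by
      intro g c hc
      refine ⟨hnormal.conj_mem c hc.1 g, ?_⟩
      have h1 := hsame g⁻¹ c hc.1
      rw [hc.2] at h1
      calc t * (g * c * g⁻¹) * t⁻¹
          = g * ((g⁻¹ * t * g⁻¹⁻¹) * c * (g⁻¹ * t * g⁻¹⁻¹)⁻¹) * g⁻¹ := by group
        _ = g * c * g⁻¹ := by rw [h1]
    have hBmN : ∀ g : N, ∀ c ∈ Bm, g * c * g⁻¹ ∈ Bm := by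
      intro g c hc
      refine ⟨hnormal.conj_mem c hc.1 g, ?_⟩
      have h1 := hsame g⁻¹ c hc.1
      rw [hc.2] at h1
      calc t * (g * c * g⁻¹) * t⁻¹
          = g * ((g⁻¹ * t * g⁻¹⁻¹) * c * (g⁻¹ * t * g⁻¹⁻¹)⁻¹) * g⁻¹ := by group
        _ = g * c⁻¹ * g⁻¹ := by rw [h1]
        _ = (g * c * g⁻¹)⁻¹ := by group
    have hdecomp : ∀ a ∈ A, ∃ c ∈ Bp, ∃ d ∈ Bm, a = c * d := by
      intro a ha
      obtain ⟨b, hb, hba⟩ := hsqrt a ha
      refine ⟨_, hBpmem b hb, _, hBmmem b hb, ?_⟩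
      rw [← hba]
      have h1 := hcomm _ (htc b hb) _ hb
      calc b * b = b * b * ((t * b * t⁻¹) * (t * b * t⁻¹)⁻¹) := by group
        _ = b * ((b * (t * b * t⁻¹)) * (t * b * t⁻¹)⁻¹) := by group
        _ = b * (((t * b * t⁻¹) * b) * (t * b * t⁻¹)⁻¹) := by rw [h1]
        _ = _ := by group
    have hcommA : ∀ g h : N, ∀ a ∈ A, (g * h) * a * (g * h)⁻¹ = (h * g) * a * (h * g)⁻¹ := by
      intro g h a ha
      obtain ⟨c, hc, d, hd, rfl⟩ := hdecomp a ha
      have h1 := conj_comm_of_cyclic Bp hBpN g h c hc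
      have h2 := conj_comm_of_cyclic Bm hBmN g h d hd
      calc (g * h) * (c * d) * (g * h)⁻¹
          = ((g * h) * c * (g * h)⁻¹) * ((g * h) * d * (g * h)⁻¹) := by group
        _ = ((h * g) * c * (h * g)⁻¹) * ((h * g) * d * (h * g)⁻¹) := by rw [h1, h2]
        _ = _ := by group
    have hπcomm : ∀ g h : N, π g * π h = π h * π g := by
      intro g h
      have hmem : (h * g)⁻¹ * (g * h) ∈ Subgroup.centralizer (A : Set N) := by
        rw [Subgroup.mem_centralizer_iff]
        intro a ha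
        have h1 := hcommA g h a ha
        have h2 : (g * h) * a = (h * g) * a * (h * g)⁻¹ * (g * h) := by
          rw [← h1]
          group
        calc a * ((h * g)⁻¹ * (g * h)) = (h * g)⁻¹ * ((h * g) * a * (h * g)⁻¹ * (g * h)) := by group
          _ = (h * g)⁻¹ * ((g * h) * a) := by rw [← h2]
          _ = (h * g)⁻¹ * (g * h) * a := by group
      rw [hAself] at hmem
      have h3 := (hπker _).mpr hmem
      rw [map_mul, map_inv, map_mul, map_mul] at h3
      exact (inv_mul_eq_one.mp h3).symm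
    obtain ⟨g, hg⟩ := hπsurj x₀
    obtain ⟨h, hh⟩ := hπsurj y₀
    apply hxy
    rw [← hg, ← hh]
    exact hπcomm g h
  refine ⟨Subgroup.centralizer ({t} : Set N), ?_, ?_⟩
  · rw [eq_bot_iff]
    rintro a ⟨haA, hac⟩
    have h1 : t * a = a * t := Subgroup.mem_centralizer_iff.mp hac t rfl
    have h2 : t * a * t⁻¹ = a := by rw [h1]; group
    have h3 := hinvert a haA
    rw [h2] at h3
    apply hsqinj a haA
    nth_rewrite 1 [h3]
    group
  · rw [eq_top_iff]
    intro g _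
    obtain ⟨a, ha, h⟩ := hconj g
    obtain ⟨b, hb, hba⟩ := hsqrt a ha
    have hbg : b * g ∈ Subgroup.centralizer ({t} : Set N) := by
      rw [Subgroup.mem_centralizer_iff]
      rintro _ rfl
      have h1 : t * b * t⁻¹ = b⁻¹ := hinvert b hb
      have h2 : t * b = b⁻¹ * t := by
        rw [← h1]
        group
      have h3 : g * t = t * a * g := by
        rw [← h]
        group
      have h4 : t * b⁻¹ = b * t := by
        have h6 : t * b⁻¹ * t⁻¹ = b := by
          calc t * b⁻¹ * t⁻¹ = (t * b * t⁻¹)⁻¹ := by group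
            _ = b := by rw [h1, inv_inv]
        calc t * b⁻¹ = (t * b⁻¹ * t⁻¹) * t := by group
          _ = b * t := by rw [h6]
      have h7 : b⁻¹ * a = b := by
        rw [← hba]
        group
      calc t * (b * g) = t * (b⁻¹ * a) * g := by rw [h7]; group
        _ = (t * b⁻¹) * a * g := by group
        _ = (b * t) * a * g := by rw [h4]
        _ = b * (t * a * g) := by group
        _ = b * (g * t) := by rw [h3]
        _ = b * g * t := by group
    have h5 : g = b⁻¹ * (b * g) := by group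
    rw [h5]
    exact Subgroup.mul_mem_sup (A.inv_mem hb) hbg

end Cfsg.Agent.S3075
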