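import Cfsg.Statements.S3076
import Mathlib
import Cfsg.Agent.Lib.Basic.PCore
import Cfsg.Agent.Lib.Solvable.PSeries

set_option autoImplicit false
open Cfsg

namespace Cfsg.Agent.S3076

open Subgroup Cfsg.Agent.Lib.Basic.PCore Cfsg.Agent.Lib.Solvable.PSeries

section
variable {L : Type*} [Group L] [Finite L] {p : ℕ} [hp : Fact p.Prime]

theorem mem_of_pow_mem {W : Subgroup L} [W.Normal] {x : L} {a b : ℕ} (ha : x ^ a ∈ W)
    (hb : x ^ b ∈ W) (hc : Nat.Coprime a b) : x ∈ W := by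
  have h1 : ((x : L ⧸ W)) ^ a = 1 := by
    rw [← QuotientGroup.mk_pow, QuotientGroup.eq_one_iff]; exact ha
  have h2 : ((x : L ⧸ W)) ^ b = 1 := by
    rw [← QuotientGroup.mk_pow, QuotientGroup.eq_one_iff]; exact hb
  have h3 : orderOf (x : L ⧸ W) ∣ Nat.gcd a b :=
    Nat.dvd_gcd (orderOf_dvd_of_pow_eq_one h1) (orderOf_dvd_of_pow_eq_one h2)
  rw [hc, Nat.dvd_one, orderOf_eq_one_iff, QuotientGroup.eq_one_iff] at h3
  exact h3

theorem mem_of_relIndex {H N : Subgroup L} [hn : H.Normal]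
    (h : ¬ p ∣ H.relIndex N) {x : L} (hx : x ∈ N) (k : ℕ) (hk : x ^ (p ^ k) = 1) : x ∈ H := by
  have hidx : (⟨x, hx⟩ : N) ^ (H.subgroupOf N).index ∈ H.subgroupOf N :=
    Subgroup.pow_index_mem _ _
  have h1 : x ^ H.relIndex N ∈ H := by
    rw [Subgroup.mem_subgroupOf] at hidx
    exact hidx
  have hcop : Nat.Coprime (H.relIndex N) (p ^ k) := by
    apply Nat.Coprime.pow_right
    rw [Nat.coprime_comm]
    exact (Nat.Prime.coprime_iff_not_dvd hp.out).mpr h
  exact mem_of_pow_mem h1 (by rw [hk]; exact H.one_mem) hcop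

theorem not_dvd_relIndex {H N : Subgroup L} [hn : H.Normal]
    (hel : ∀ x ∈ N, ∀ k : ℕ, x ^ (p ^ k) = 1 → x ∈ H) : ¬ p ∣ H.relIndex N := by
  intro hd
  have hd' : p ∣ Nat.card (N ⧸ H.subgroupOf N) := by
    have : H.relIndex N = Nat.card (N ⧸ H.subgroupOf N) := rfl
    rwa [this] at hd
  obtain ⟨xb, hxb⟩ := exists_prime_orderOf_dvd_card' p hd'
  obtain ⟨x, rfl⟩ := QuotientGroup.mk_surjective xb
  have hn0 : orderOf x ≠ 0 := (orderOf_pos x).ne'
  obtain ⟨e, n', hn', hen⟩ := Nat.exists_eq_pow_mul_and_not_dvd hn0 p hp.out.ne_one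
  have h1 : ((x ^ n' : N) : L) ^ (p ^ e) = 1 := by
    have : (x ^ n' : N) ^ (p ^ e) = 1 := by
      rw [← pow_mul, mul_comm, ← hen, pow_orderOf_eq_one]
    exact_mod_cast congrArg Subtype.val this
  have h2 := hel _ (x ^ n').2 e h1
  have h3 : ((x : N ⧸ H.subgroupOf N)) ^ n' = 1 := by
    rw [← QuotientGroup.mk_pow, QuotientGroup.eq_one_iff, Subgroup.mem_subgroupOf]
    exact h2
  have h4 := orderOf_dvd_of_pow_eq_one h3
  rw [hxb] at h4
  exact hn' h4

theorem pGroup_map_of_pow {A : Subgroup L} {B : Type*} [Group B] (f : L →* B)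
    (h : ∀ x ∈ A, ∃ k : ℕ, f x ^ (p ^ k) = 1) : IsPGroup p (A.map f) := by
  rintro ⟨y, x, hx, rfl⟩
  obtain ⟨k, hk⟩ := h x hx
  exact ⟨k, Subtype.ext (by simpa using hk)⟩

theorem core (H₀ C₀ S₀ : Subgroup L) [hH₀n : H₀.Normal] [hC₀n : C₀.Normal] (hH₀ : IsPGroup p H₀)
    (hC₀ : ∀ x, x ∈ C₀ ↔ ∀ h ∈ H₀, x * h = h * x) (hHS : H₀ ≤ S₀) (hS₀ : IsPGroup p S₀)
    (hS₀i : ¬ p ∣ S₀.index) :
    (¬ p ∣ H₀.relIndex ((Cfsg.pCore p (L ⧸ C₀)).comap (QuotientGroup.mk' C₀))) ↔
      (S₀ ⊓ C₀ ≤ H₀ ∧ Cfsg.pPrimePCore p L = H₀ ⊔ C₀) := by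
  set mkC := QuotientGroup.mk' C₀ with hmkC
  set N₀ := (Cfsg.pCore p (L ⧸ C₀)).comap mkC with hN₀
  set O := Cfsg.pPrimeCore p L with hOdef
  set mkO := QuotientGroup.mk' O with hmkO
  set X := Cfsg.pPrimePCore p L with hX
  have hXdef : X = (Cfsg.pCore p (L ⧸ O)).comap mkO := rfl
  have hC₀N : C₀ ≤ N₀ := by
    intro x hx
    show mkC x ∈ Cfsg.pCore p (L ⧸ C₀)
    have : mkC x = 1 := (QuotientGroup.eq_one_iff x).mpr hx
    rw [this]; exact Subgroup.one_mem _
  have hOC : O ≤ C₀ := by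
    intro o ho
    rw [hC₀]
    intro h hh
    have h1 : o * h * o⁻¹ * h⁻¹ ∈ O := by
      have h2 := (inferInstance : O.Normal).conj_mem o⁻¹ (O.inv_mem ho) h
      have h3 := O.mul_mem ho h2
      have e : o * (h * o⁻¹ * h⁻¹) = o * h * o⁻¹ * h⁻¹ := by group
      rwa [e] at h3
    have h4 : o * h * o⁻¹ * h⁻¹ ∈ H₀ := by
      have h2 := hH₀n.conj_mem h hh o
      exact H₀.mul_mem h2 (H₀.inv_mem hh)
    have hcop : Nat.Coprime (Nat.card O) (Nat.card H₀) := by
      obtain ⟨k, hk⟩ := IsPGroup.iff_card.mp hH₀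
      rw [hk]
      exact Nat.Coprime.pow_right _ (pPrimeCore_coprime p)
    have h5 := (Subgroup.disjoint_of_coprime_natCard hcop).eq_bot
    have h6 : o * h * o⁻¹ * h⁻¹ ∈ O ⊓ H₀ := ⟨h1, h4⟩
    rw [h5, Subgroup.mem_bot] at h6
    have h7 : o * h * o⁻¹ = h := by rwa [mul_inv_eq_one] at h6
    rwa [mul_inv_eq_iff_eq_mul] at h7
  have hH₀X : H₀ ≤ X := by
    rw [hXdef]
    have h1 : H₀.map mkO ≤ Cfsg.pCore p (L ⧸ O) := by
      apply le_pCore (hH₀n.map _ (QuotientGroup.mk'_surjective O))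
      exact hH₀.map _
    exact Subgroup.map_le_iff_le_comap.mp h1
  constructor
  · intro h
    have hpel : ∀ x ∈ N₀, ∀ k : ℕ, x ^ (p ^ k) = 1 → x ∈ H₀ := fun x hx k hk =>
      mem_of_relIndex h hx k hk
    have h1 : S₀ ⊓ C₀ ≤ H₀ := by
      rintro x ⟨hxS, hxC⟩
      obtain ⟨k, hk⟩ := hS₀ ⟨x, hxS⟩
      exact hpel x (hC₀N hxC) k (by simpa using congrArg Subtype.val hk)
    refine ⟨h1, le_antisymm ?_ ?_⟩
    · -- X ≤ H₀ ⊔ C₀
      have hXN : X ≤ N₀ := by
        have h2 : X.map mkC ≤ Cfsg.pCore p (L ⧸ C₀) := by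
          apply le_pCore
          · haveI hXn : X.Normal := by rw [hXdef]; exact Subgroup.Normal.comap inferInstance _
            exact hXn.map _ (QuotientGroup.mk'_surjective C₀)
          · apply pGroup_map_of_pow
            intro x hx
            obtain ⟨k, hk⟩ := (pCore_isPGroup (G := L ⧸ O) p) ⟨mkO x, hx⟩
            refine ⟨k, ?_⟩
            have h3 : mkO (x ^ (p ^ k)) = 1 := by
              rw [map_pow]
              simpa using congrArg Subtype.val hk
            have h4 : x ^ (p ^ k) ∈ O := (QuotientGroup.eq_one_iff _).mp h3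
            rw [← map_pow]
            exact (QuotientGroup.eq_one_iff _).mpr (hOC h4)
        exact Subgroup.map_le_iff_le_comap.mp h2
      intro x hx
      haveI : (H₀ ⊔ C₀).Normal := Subgroup.sup_normal _ _
      obtain ⟨k, hk⟩ := (pCore_isPGroup (G := L ⧸ O) p) ⟨mkO x, hx⟩
      have h3 : mkO (x ^ (p ^ k)) = 1 := by
        rw [map_pow]
        simpa using congrArg Subtype.val hk
      have h4 : x ^ (p ^ k) ∈ O := (QuotientGroup.eq_one_iff _).mp h3
      have hidx : (⟨x, hXN hx⟩ : N₀) ^ (H₀.subgroupOf N₀).index ∈ H₀.subgroupOf N₀ :=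
        Subgroup.pow_index_mem _ _
      have h5 : x ^ H₀.relIndex N₀ ∈ H₀ := by
        rw [Subgroup.mem_subgroupOf] at hidx
        exact hidx
      have hcop : Nat.Coprime (H₀.relIndex N₀) (p ^ k) := by
        apply Nat.Coprime.pow_right
        rw [Nat.coprime_comm]
        exact (Nat.Prime.coprime_iff_not_dvd hp.out).mpr h
      exact mem_of_pow_mem (Subgroup.mem_sup_left h5) (Subgroup.mem_sup_right (hOC h4)) hcop
    · refine sup_le hH₀X ?_
      -- Burnside's transfer in `C₀`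
      obtain ⟨P⟩ : Nonempty (Sylow p C₀) := inferInstance
      have hPH : ∀ t ∈ (P : Subgroup C₀), (t : L) ∈ H₀ := by
        intro t ht
        obtain ⟨k, hk⟩ := P.isPGroup' ⟨t, ht⟩
        exact hpel _ (hC₀N t.2) k (by
          have := congrArg (fun z : (P : Subgroup C₀) => ((z : C₀) : L)) hk
          simpa using this)
      have hPc : Subgroup.normalizer ((P : Subgroup C₀) : Set C₀) ≤
          Subgroup.centralizer ((P : Subgroup C₀) : Set C₀) := by
        intro n _
        rw [Subgroup.mem_centralizer_iff]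
        intro t ht
        have h2 := (hC₀ n.1).mp n.2 _ (hPH t ht)
        apply Subtype.ext
        exact h2.symm
      have hK := MonoidHom.ker_transferSylow_isComplement' P hPc
      set K := (MonoidHom.transferSylow P hPc).ker with hKdef
      have hKn : K.Normal := MonoidHom.normal_ker _
      have hKcop : (Nat.card K).Coprime p := by
        have h2 := hK.card_mul_card
        have h3 := Subgroup.card_mul_index (P : Subgroup C₀)
        have h4 : Nat.card K = (P : Subgroup C₀).index := by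
          have hpos : 0 < Nat.card (P : Subgroup C₀) := Nat.card_pos
          apply Nat.eq_of_mul_eq_mul_left hpos
          rw [h3, mul_comm, h2]
        rw [h4, Nat.coprime_comm]
        exact (Nat.Prime.coprime_iff_not_dvd hp.out).mpr P.not_dvd_index
      have hKD : K ≤ Cfsg.pPrimeCore p C₀ := le_pPrimeCore hKn hKcop
      haveI hDc : (Cfsg.pPrimeCore p C₀).Characteristic := pPrimeCore_char p C₀
      have hD'n : ((Cfsg.pPrimeCore p C₀).map C₀.subtype).Normal :=
        map_subtype_normal_of_characteristic _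
      have hD'c : (Nat.card ((Cfsg.pPrimeCore p C₀).map C₀.subtype)).Coprime p := by
        rw [Subgroup.card_map_of_injective C₀.subtype_injective]
        exact pPrimeCore_coprime p
      have hD'O : (Cfsg.pPrimeCore p C₀).map C₀.subtype ≤ O := le_pPrimeCore hD'n hD'c
      have hOX : O ≤ X := by
        rw [hXdef]
        intro o ho
        show mkO o ∈ Cfsg.pCore p (L ⧸ O)
        have : mkO o = 1 := (QuotientGroup.eq_one_iff o).mpr ho
        rw [this]; exact Subgroup.one_mem _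
      intro x hx
      obtain ⟨⟨k, t⟩, hkt⟩ := hK.2 (⟨x, hx⟩ : C₀)
      have e : x = (k : C₀).1 * (t : C₀).1 := (congrArg Subtype.val hkt).symm
      rw [e]
      refine X.mul_mem (hOX (hD'O ⟨k.1, hKD k.2, rfl⟩)) (hH₀X (hPH _ t.2))
  · rintro ⟨h1, h2⟩
    have hCX : C₀ ≤ X := by rw [h2]; exact le_sup_right
    haveI hN₀n : N₀.Normal := Subgroup.Normal.comap inferInstance _
    have hN₀X : N₀ ≤ X := by
      have h3 : N₀.map mkO ≤ Cfsg.pCore p (L ⧸ O) := by
        apply le_pCore (hN₀n.map _ (QuotientGroup.mk'_surjective O))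
        apply pGroup_map_of_pow
        intro n hn
        obtain ⟨a, ha⟩ := (pCore_isPGroup (G := L ⧸ C₀) p) ⟨mkC n, hn⟩
        have h4 : mkC (n ^ (p ^ a)) = 1 := by
          rw [map_pow]
          simpa using congrArg Subtype.val ha
        have h5 : n ^ (p ^ a) ∈ X := hCX ((QuotientGroup.eq_one_iff _).mp h4)
        obtain ⟨b, hb⟩ := (pCore_isPGroup (G := L ⧸ O) p) ⟨mkO (n ^ (p ^ a)), h5⟩
        refine ⟨a + b, ?_⟩
        have h6 : mkO (n ^ (p ^ a)) ^ p ^ b = 1 := by
          simpa using congrArg Subtype.val hb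
        rw [map_pow, ← pow_mul, ← pow_add] at h6
        exact h6
      exact Subgroup.map_le_iff_le_comap.mp h3
    apply not_dvd_relIndex
    intro x hx k hk
    -- `x` lies in a conjugate of `S₀`
    have hzp : IsPGroup p (zpowers x) := by
      rintro ⟨y, hy⟩
      obtain ⟨n, rfl⟩ := Subgroup.mem_zpowers_iff.mp hy
      refine ⟨k, Subtype.ext ?_⟩
      show (x ^ n) ^ (p ^ k) = 1
      rw [← zpow_natCast, ← zpow_mul, mul_comm, zpow_mul, zpow_natCast, hk, one_zpow]
    obtain ⟨Q, hQ⟩ := hzp.exists_le_sylow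
    let Sg₀ : Sylow p L := hS₀.toSylow hS₀i
    obtain ⟨g, hg⟩ := MulAction.exists_smul_eq L Sg₀ Q
    have hxQ : x ∈ (Q : Subgroup L) := hQ (Subgroup.mem_zpowers x)
    have hy : g⁻¹ * x * g ∈ S₀ := by
      rw [← hg, Sylow.coe_subgroup_smul, Subgroup.mem_pointwise_smul_iff_inv_smul_mem] at hxQ
      have e : (MulAut.conj g)⁻¹ • x = g⁻¹ * x * g := by
        simp [MulAut.smul_def, MulAut.conj_apply]
      rw [e] at hxQ
      exact hxQ
    have hyN : g⁻¹ * x * g ∈ N₀ := by
      have := hN₀n.conj_mem x hx g⁻¹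
      simpa using this
    have hyX : g⁻¹ * x * g ∈ ((H₀ ⊔ C₀ : Subgroup L) : Set L) := by
      have := hN₀X hyN
      rw [h2] at this
      exact this
    rw [Subgroup.mul_normal] at hyX
    obtain ⟨u, hu, c, hc, huc⟩ := Set.mem_mul.mp hyX
    have hcS : c ∈ S₀ := by
      have e : c = u⁻¹ * (g⁻¹ * x * g) := by rw [← huc]; group
      rw [e]
      exact S₀.mul_mem (S₀.inv_mem (hHS hu)) hy
    have hcH : c ∈ H₀ := h1 ⟨hcS, hc⟩
    have hyH : g⁻¹ * x * g ∈ H₀ := by
      rw [← huc]; exact H₀.mul_mem hu hcH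
    have := hH₀n.conj_mem _ hyH g
    have e : g * (g⁻¹ * x * g) * g⁻¹ = x := by group
    rwa [e] at this
end

/-- Let P be a Sylow p-subgroup of the finite group G and H ≤ P a subgroup with N_P(H) a Sylow p-subgroup of N_G(H). Let N be the preimage in N_G(H) of O_p(N_G(H)/C_G(H)). Then H is a Sylow p-subgroup of N if and only if C_P(H) ≤ H and O_{p',p}(N_G(H)) = H·C_G(H). -/
theorem result {G : Type*} [Group G] [Finite G] {p : ℕ} [Fact p.Prime]
    (P : Sylow p G) (H : Subgroup G) (hHP : H ≤ (P : Subgroup G))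
    (hSyl : ¬ p ∣ ((P : Subgroup G) ⊓ Subgroup.normalizer (H : Set G)).relIndex (Subgroup.normalizer (H : Set G)))
    [hC : ((Subgroup.centralizer (H : Set G)).subgroupOf (Subgroup.normalizer (H : Set G))).Normal] :
    (H ≤ ((Cfsg.pCore p (↥(Subgroup.normalizer (H : Set G)) ⧸
              (Subgroup.centralizer (H : Set G)).subgroupOf (Subgroup.normalizer (H : Set G)))).comap
            (QuotientGroup.mk' _)).map (Subgroup.normalizer (H : Set G)).subtype ∧
      ¬ p ∣ H.relIndex (((Cfsg.pCore p (↥(Subgroup.normalizer (H : Set G)) ⧸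
              (Subgroup.centralizer (H : Set G)).subgroupOf (Subgroup.normalizer (H : Set G)))).comap
            (QuotientGroup.mk' _)).map (Subgroup.normalizer (H : Set G)).subtype)) ↔
    ((P : Subgroup G) ⊓ Subgroup.centralizer (H : Set G) ≤ H ∧
      (Cfsg.pPrimePCore p ↥(Subgroup.normalizer (H : Set G))).map (Subgroup.normalizer (H : Set G)).subtype =
        H ⊔ Subgroup.centralizer (H : Set G)) := by
  classical
  set N := Subgroup.normalizer (H : Set G) with hN
  set C := Subgroup.centralizer (H : Set G) with hCdef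
  have hHN : H ≤ N := Subgroup.le_normalizer
  have hCN : C ≤ N := by
    intro x hx
    rw [hN, Subgroup.mem_normalizer_iff]
    intro h
    have hx' := Subgroup.mem_centralizer_iff.mp hx
    constructor
    · intro hh
      have := hx' h hh
      have e : x * h * x⁻¹ = h := by
        rw [mul_inv_eq_iff_eq_mul]; exact this.symm
      rwa [e]
    · intro hh
      have h1 := hx' _ hh
      have e : x * h * x⁻¹ = h := by
        have h2 : x * h * x⁻¹ * x = x * (x * h * x⁻¹) := h1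
        have h3 : x * h * x⁻¹ * x = x * h := by group
        rw [h3] at h2
        exact (mul_left_cancel h2).symm
      rwa [e] at hh
  let H₀ : Subgroup N := H.subgroupOf N
  let C₀ : Subgroup N := C.subgroupOf N
  let S₀ : Subgroup N := ((P : Subgroup G) ⊓ N).subgroupOf N
  haveI hH₀n : H₀.Normal := Subgroup.normal_in_normalizer
  have hP := P.isPGroup'
  have hH₀ : IsPGroup p H₀ := by
    rintro ⟨x, hx⟩
    have hx' : x.1 ∈ H := hx
    obtain ⟨k, hk⟩ := hP ⟨x.1, hHP hx'⟩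
    refine ⟨k, Subtype.ext (Subtype.ext ?_)⟩
    simpa using congrArg Subtype.val hk
  have hS₀ : IsPGroup p S₀ := by
    rintro ⟨x, hx⟩
    have hx' : x.1 ∈ (P : Subgroup G) ⊓ N := hx
    obtain ⟨k, hk⟩ := hP ⟨x.1, hx'.1⟩
    refine ⟨k, Subtype.ext (Subtype.ext ?_)⟩
    simpa using congrArg Subtype.val hk
  have hC₀ : ∀ x, x ∈ C₀ ↔ ∀ h ∈ H₀, x * h = h * x := by
    intro x
    constructor
    · intro hx h hh
      have h1 := Subgroup.mem_centralizer_iff.mp hx h.1 hh
      exact Subtype.ext h1.symm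
    · intro hx
      show x.1 ∈ C
      rw [hCdef, Subgroup.mem_centralizer_iff]
      intro h hh
      have h1 := hx ⟨h, hHN hh⟩ hh
      exact (congrArg Subtype.val h1).symm
  have hHS : H₀ ≤ S₀ := by
    intro x hx
    exact ⟨hHP hx, x.2⟩
  have hmain := core H₀ C₀ S₀ hH₀ hC₀ hHS hS₀ hSyl
  set N₀ := (Cfsg.pCore p (↥N ⧸ C₀)).comap (QuotientGroup.mk' C₀) with hN₀
  have hHN₀ : H₀ ≤ N₀ := by
    have h1 : H₀.map (QuotientGroup.mk' C₀) ≤ Cfsg.pCore p (↥N ⧸ C₀) := by
      apply Cfsg.Agent.Lib.Basic.PCore.le_pCore (hH₀n.map _ (QuotientGroup.mk'_surjective C₀))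
      exact hH₀.map _
    exact Subgroup.map_le_iff_le_comap.mp h1
  have eH : H₀.map N.subtype = H := Subgroup.map_subgroupOf_eq_of_le hHN
  have eC : C₀.map N.subtype = C := Subgroup.map_subgroupOf_eq_of_le hCN
  have eR : H.relIndex (N₀.map N.subtype) = H₀.relIndex N₀ := by
    conv_lhs => rw [← eH]
    exact Subgroup.relIndex_map_map_of_injective _ _ N.subtype_injective
  have e1 : (P : Subgroup G) ⊓ C ≤ H ↔ S₀ ⊓ C₀ ≤ H₀ := by
    constructor
    · rintro h x ⟨hx1, hx2⟩
      exact h ⟨hx1.1, hx2⟩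
    · rintro h x ⟨hx1, hx2⟩
      have hxN := hCN hx2
      exact h (x := ⟨x, hxN⟩) ⟨⟨hx1, hxN⟩, hx2⟩
  have e2 : (Cfsg.pPrimePCore p N).map N.subtype = H ⊔ C ↔ Cfsg.pPrimePCore p N = H₀ ⊔ C₀ := by
    have e3 : H ⊔ C = (H₀ ⊔ C₀).map N.subtype := by
      rw [Subgroup.map_sup, eH, eC]
    rw [e3]
    exact (Subgroup.map_injective N.subtype_injective).eq_iff
  rw [e1, e2, ← hmain, eR]
  constructor
  · exact fun h => h.2
  · intro h
    refine ⟨?_, h⟩
    exact eH.symm.le.trans (Subgroup.map_mono hHN₀)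

end Cfsg.Agent.S3076
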