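import Cfsg.Statements.S3078
import Mathlib
import Cfsg.Agent.Lib.PGroup.Replacement
-- import your own Cfsg.Agent.* helpers here

set_option autoImplicit false
open Cfsg

namespace Cfsg.Agent.S3078

/-- A replacement Theorem for abelian subgroups of p-groups, p odd. Let G be a finite p-group with p odd, A an abelian subgroup of G, and B a subgroup of nilpotency class at most 2 with [B, B] ≤ A, such that A normalizes B but B does not normalize A. Then there is an abelian subgroup A* of G of the same order as A with A ∩ B strictly contained in A* ∩ B, A* contained in N_G(A) and in the normal closure of A, the exponent of A* dividing the exponent of A, and with the subgroup generated by the elements of order dividing p in A of order at most that of the corresponding subgroup of A* (the rank of A is at most the rank of A*). -/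
theorem result {G : Type*} [Group G] [Finite G] {p : ℕ} [Fact p.Prime] (hp : p ≠ 2) (hG : IsPGroup p G) (A B : Subgroup G) (hA : IsMulCommutative A) (hB2 : ⁅⁅B, B⁆, B⁆ = ⊥) (hBA : ⁅B, B⁆ ≤ A) (hAB : A ≤ Subgroup.normalizer (B : Set G)) (hBnA : ¬ B ≤ Subgroup.normalizer (A : Set G)) : ∃ Astar : Subgroup G, IsMulCommutative Astar ∧ Nat.card Astar = Nat.card A ∧ A ⊓ B < Astar ⊓ B ∧ Astar ≤ Subgroup.normalizer (A : Set G) ∧ Astar ≤ Subgroup.normalClosure (A : Set G) ∧ Monoid.exponent Astar ∣ Monoid.exponent A ∧ Nat.card (Cfsg.omegaOne p A) ≤ Nat.card (Cfsg.omegaOne p Astar) := by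
  obtain ⟨b, hb, R, hbN, h1, h2, h3, h4, h5⟩ := Cfsg.Agent.Lib.PGroup.Replacement.replacement_odd hp hG hA hBA hAB hBnA
  have hodd : Odd p := Nat.Prime.odd_of_ne_two Fact.out hp
  refine ⟨Cfsg.Agent.Lib.PGroup.Replacement.Astar A b,
    Cfsg.Agent.Lib.PGroup.Replacement.isMulCommutative_iff'.mpr (fun x hx y hy => R.Astar_comm hx hy),
    h5, h1, h3, ?_, ?_, ?_⟩
  · refine sup_le (inf_le_left.trans Subgroup.le_normalClosure) ?_
    rw [Subgroup.closure_le]
    rintro g ⟨a, ha, rfl⟩
    have : a * b⁻¹ * a⁻¹ * b = a * (b⁻¹ * a⁻¹ * b) := by group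
    rw [SetLike.mem_coe, this]
    refine mul_mem (Subgroup.le_normalClosure ha) ?_
    have h := Subgroup.normalClosure_normal.conj_mem' a⁻¹
      (Subgroup.le_normalClosure (A.inv_mem ha) : a⁻¹ ∈ Subgroup.normalClosure (A : Set G)) b
    exact h
  · have hAp : IsPGroup p A := hG.to_subgroup A
    obtain ⟨k, hk⟩ := isPGroup_iff_exponent_eq_pow.mp hAp
    have hoddA : Odd (Monoid.exponent A) := by
      rw [hk]
      exact hodd.pow
    apply Monoid.exponent_dvd_of_forall_pow_eq_one
    intro x
    apply Subtype.ext
    have : (x : G) ^ Monoid.exponent A = 1 := by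
      refine R.Astar_pow hoddA ?_ x.2
      intro a ha
      have h := Monoid.pow_exponent_eq_one (⟨a, ha⟩ : A)
      exact congrArg Subtype.val h
    rw [Subgroup.coe_pow, Subgroup.coe_one]
    exact this
  · have h6 := R.card_tors_le hodd
    have h7 : Cfsg.omegaOne p A = Cfsg.Agent.Lib.PGroup.Replacement.tors A R.comm p :=
      Cfsg.Agent.Lib.PGroup.Replacement.tors_eq_omegaOne.symm
    rw [h7]
    exact h6

end Cfsg.Agent.S3078
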