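import Cfsg.Statements.S3087
import Mathlib

set_option linter.unusedVariables false
-- import your own Cfsg.Agent.* helpers here

set_option autoImplicit false
open Cfsg

namespace Cfsg.Agent.S3087

/-- The fixed points of a subgroup, as an additive subgroup. -/
def fixSub {G V : Type*} [Group G] [AddCommGroup V] (p : ℕ) [Module (ZMod p) V]
    (ρ : Representation (ZMod p) G V) (B : Subgroup G) : AddSubgroup V where
  carrier := {v | ∀ b ∈ B, ρ b v = v}
  add_mem' := by
    intro x y hx hy b hb
    rw [map_add, hx b hb, hy b hb]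
  zero_mem' := by
    intro b _
    simp
  neg_mem' := by
    intro x hx b hb
    rw [map_neg, hx b hb]

/-- Let p be a prime, G a finite group acting linearly on a finite vector space V over the field with p elements, W a G-invariant subspace, and A a subgroup of G with |A|·|C_V(A)| ≥ |B|·|C_V(B)| for every subgroup B of A. Then |A|·|C_W(A)| ≥ |B|·|C_W(B)| for every subgroup B of A that contains C_A(W); that is, the image of A in the group induced on W satisfies the same maximality condition. -/
theorem result {G V : Type*} [Group G] [Finite G] [AddCommGroup V] [Finite V] (p : ℕ) [Fact p.Prime] [Module (ZMod p) V]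
    (ρ : Representation (ZMod p) G V) (W : Submodule (ZMod p) V) (hW : ∀ g : G, ∀ w ∈ W, ρ g w ∈ W)
    (A : Subgroup G)
    (hP : ∀ B : Subgroup G, B ≤ A →
      Nat.card ↥B * Nat.card {v : V // ∀ b ∈ B, ρ b v = v} ≤ Nat.card ↥A * Nat.card {v : V // ∀ a ∈ A, ρ a v = v})
    (B : Subgroup G) (hBA : B ≤ A) (hCB : ∀ a ∈ A, (∀ w ∈ W, ρ a w = w) → a ∈ B) :
    Nat.card ↥B * Nat.card {w : W // ∀ b ∈ B, ρ b w = w} ≤ Nat.card ↥A * Nat.card {w : W // ∀ a ∈ A, ρ a w = w} := by
  classical
  set L := fixSub p ρ B with hL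
  set T := fixSub p ρ A with hT
  set W' : AddSubgroup V := W.toAddSubgroup with hW'
  set S : AddSubgroup V := L ⊓ W' with hS
  have hTL : T ≤ L := fun v hv b hb => hv b (hBA hb)
  have hSL : S ≤ L := inf_le_left
  have hTS : T ⊓ S = T ⊓ W' := by
    apply le_antisymm
    · exact inf_le_inf_left _ inf_le_right
    · exact le_inf inf_le_left (le_inf (inf_le_left.trans hTL) inf_le_right)
  have c1 : Nat.card {v : V // ∀ b ∈ B, ρ b v = v} = Nat.card L := rfl
  have c2 : Nat.card {v : V // ∀ a ∈ A, ρ a v = v} = Nat.card T := rfl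
  have c3 : Nat.card {w : W // ∀ b ∈ B, ρ b w = w} = Nat.card S := by
    refine Nat.card_congr ⟨fun w => ⟨w.1.1, w.2, w.1.2⟩, fun s => ⟨⟨s.1, s.2.2⟩, s.2.1⟩, ?_, ?_⟩
    · intro w; rfl
    · intro s; rfl
  have c4 : Nat.card {w : W // ∀ a ∈ A, ρ a w = w} = Nat.card (T ⊓ S : AddSubgroup V) := by
    rw [hTS]
    refine Nat.card_congr ⟨fun w => ⟨w.1.1, w.2, w.1.2⟩, fun s => ⟨⟨s.1, s.2.2⟩, s.2.1⟩, ?_, ?_⟩
    · intro w; rfl
    · intro s; rfl
  rw [c3, c4]
  have hP' := hP B hBA
  rw [c1, c2] at hP'
  have h1 : Nat.card S = Nat.card (T ⊓ S : AddSubgroup V) * T.relIndex S := by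
    have := AddSubgroup.relIndex_mul_relIndex (⊥ : AddSubgroup V) (T ⊓ S) S bot_le inf_le_right
    rw [AddSubgroup.relIndex_bot_left, AddSubgroup.relIndex_bot_left,
      AddSubgroup.inf_relIndex_right] at this
    exact this.symm
  have h2 : Nat.card L = Nat.card T * T.relIndex L := by
    have := AddSubgroup.relIndex_mul_relIndex (⊥ : AddSubgroup V) T L bot_le hTL
    rw [AddSubgroup.relIndex_bot_left, AddSubgroup.relIndex_bot_left] at this
    exact this.symm
  have h3 : T.relIndex S ≤ T.relIndex L :=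
    AddSubgroup.relIndex_le_of_le_right hSL AddSubgroup.index_ne_zero_of_finite
  have ht : 0 < Nat.card T := Nat.card_pos
  have hbr : Nat.card B * T.relIndex L ≤ Nat.card A := by
    rw [h2] at hP'
    refine Nat.le_of_mul_le_mul_right ?_ ht
    calc Nat.card B * T.relIndex L * Nat.card T
        = Nat.card B * (Nat.card T * T.relIndex L) := by ring
      _ ≤ Nat.card A * Nat.card T := hP'
  rw [h1]
  calc Nat.card B * (Nat.card (T ⊓ S : AddSubgroup V) * T.relIndex S)
      = (Nat.card B * T.relIndex S) * Nat.card (T ⊓ S : AddSubgroup V) := by ring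
    _ ≤ (Nat.card B * T.relIndex L) * Nat.card (T ⊓ S : AddSubgroup V) := by
        gcongr
    _ ≤ Nat.card A * Nat.card (T ⊓ S : AddSubgroup V) := by
        gcongr

end Cfsg.Agent.S3087
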