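import Cfsg.Statements.S3116
import Mathlib
import Cfsg.Agent.Lib.PGroup.AutMaxClass
import Cfsg.Agent.S3919
-- import your own Cfsg.Agent.* helpers here

set_option autoImplicit false
open Cfsg

namespace Cfsg.Agent.S3116

/-- The automorphism group of a dihedral 2-group of order at least 8, or of a quasi-dihedral (semidihedral) 2-group of order at least 16, is a 2-group. -/
theorem result {X : Type*} [Group X] [Finite X] (h2 : IsPGroup 2 X)
    (h : (∃ n : ℕ, 4 ≤ n ∧ Nonempty (X ≃* DihedralGroup n)) ∨ Cfsg.IsQuasiDihedral X) : IsPGroup 2 (MulAut X) := by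
  rcases h with ⟨n, hn, ⟨e⟩⟩ | ⟨n, hn, hcard, x, y, hx, hy, hyx⟩
  · haveI : NeZero n := ⟨by omega⟩
    have hord : orderOf (e.symm (DihedralGroup.r 1)) = n := by
      rw [MulEquiv.orderOf_eq, DihedralGroup.orderOf_r_one]
    have hcard : Nat.card X = 2 * n := by
      rw [Nat.card_congr e.toEquiv, DihedralGroup.nat_card]
    have hi : (Subgroup.zpowers (e.symm (DihedralGroup.r 1))).index = 2 := by
      have h1 := Subgroup.card_mul_index (Subgroup.zpowers (e.symm (DihedralGroup.r 1)))
      rw [Nat.card_zpowers, hord, hcard, mul_comm] at h1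
      exact Nat.eq_of_mul_eq_mul_right (by omega) h1
    apply Cfsg.Agent.Lib.PGroup.AutMaxClass.aut_isPGroup_of_index_two h2 hi
    intro g hg
    rw [hord]
    have h1 : orderOf g = 2 := by
      rw [← MulEquiv.orderOf_eq e]
      rcases he : e g with i | i
      · exfalso
        apply hg
        have h3 : g = e.symm (DihedralGroup.r i) := by rw [← he]; simp
        rw [h3]
        have h4 : DihedralGroup.r i = (DihedralGroup.r 1 : DihedralGroup n) ^ i.val := by
          rw [DihedralGroup.r_one_pow]
          simp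
        rw [h4, map_pow]
        exact pow_mem (Subgroup.mem_zpowers _) _
      · exact DihedralGroup.orderOf_sr i
    omega
  · have hyy : y ^ 2 = 1 := by rw [← hy]; exact pow_orderOf_eq_one y
    have hi : (Subgroup.zpowers x).index = 2 := by
      have h1 := Subgroup.card_mul_index (Subgroup.zpowers x)
      rw [Nat.card_zpowers, hx, hcard, pow_succ] at h1
      exact Nat.eq_of_mul_eq_mul_left (by positivity) h1
    have hynot : y ∉ Subgroup.zpowers x := by
      intro hc
      obtain ⟨i, hi'⟩ := hc
      have hcomm : y * x * y⁻¹ = x := by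
        rw [← hi']
        have : Commute (x ^ i) x := (Commute.refl x).zpow_left i
        rw [this.eq]; group
      rw [hcomm] at hyx
      have h1 : x ^ (2 ^ (n - 1) - 1) = x ^ 1 := by rw [pow_one]; exact hyx.symm
      have h2 := pow_inj_mod.mp h1
      rw [hx] at h2
      have hn4 : 2 ^ (n - 1) ≥ 4 := by
        calc 4 = 2 ^ 2 := by norm_num
          _ ≤ 2 ^ (n - 1) := Nat.pow_le_pow_right (by norm_num) (by omega)
      have e2 : 2 ^ n = 2 * 2 ^ (n - 1) := by
        rw [← pow_succ']; congr 1; omega
      rw [Nat.mod_eq_of_lt (by omega), Nat.mod_eq_of_lt (by omega)] at h2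
      omega
    apply Cfsg.Agent.Lib.PGroup.AutMaxClass.aut_isPGroup_of_index_two h2 hi
    intro g hg
    have hgb : g * y⁻¹ ∈ Subgroup.zpowers x := by
      rw [Subgroup.mul_mem_iff_of_index_two hi, inv_mem_iff]
      exact iff_of_false hg hynot
    have h4 := Cfsg.Agent.Lib.PGroup.AutMaxClass.pow_four_of_sd hn hx hyy hyx hgb
    have h5 := orderOf_le_of_pow_eq_one (by norm_num) h4
    rw [hx]
    have : 8 ≤ 2 ^ n := by
      calc 8 = 2 ^ 3 := by norm_num
        _ ≤ 2 ^ n := Nat.pow_le_pow_right (by norm_num) hn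
    omega

end Cfsg.Agent.S3116
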