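import Cfsg.Statements.S3154
import Mathlib
import Cfsg.Agent.Lib.Sing.L3
import Cfsg.Agent.Lib.PSL2.Basic

set_option autoImplicit false
set_option linter.style.haveILetI false

open Cfsg

namespace Cfsg.Agent.S3154

open Subgroup

section Abstract

variable {X G : Type*} [Group X] [Group G]

theorem elem_of_trans (ρ : X →* G) (hρ : Function.Surjective ρ) (hker : ρ.ker = center X)
    (hZ : ∀ z ∈ center X, z ^ 2 = 1) (A : Subgroup G) (hA2 : ∀ a ∈ A, a ^ 2 = 1)
    (hAc : ∀ a ∈ A, ∀ b ∈ A, a * b = b * a)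
    (htrans : ∀ a ∈ A, ∀ b ∈ A, a ≠ 1 → b ≠ 1 →
      ∃ g, (∀ y, y ∈ A ↔ g * y * g⁻¹ ∈ A) ∧ g * a * g⁻¹ = b)
    (a b d : G) (ha : a ∈ A) (hb : b ∈ A) (hd : d ∈ A) (ha1 : a ≠ 1) (hb1 : b ≠ 1) (hd1 : d ≠ 1)
    (hab : a * b ≠ 1) (had : a * d ≠ 1) (hbd : b * d ≠ 1) (habd : a * (b * d) ≠ 1) :
    (∀ x ∈ A.comap ρ, ∀ y ∈ A.comap ρ, x * y = y * x) ∧ ∀ x ∈ A.comap ρ, x ^ 2 = 1 := by
  have hcen : ∀ x : X, ρ x = 1 → x ∈ center X := fun x hx => by
    rw [← hker]; exact hx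
  have hcomm : ∀ z ∈ center X, ∀ w : X, z * w = w * z := fun z hz w =>
    (mem_center_iff.mp hz w).symm
  -- squares are central
  have hsq : ∀ x ∈ A.comap ρ, x ^ 2 ∈ center X := fun x hx => by
    apply hcen
    rw [map_pow]
    exact hA2 _ hx
  -- all squares of elements with nontrivial image agree
  have hsame : ∀ x ∈ A.comap ρ, ∀ y ∈ A.comap ρ, ρ x ≠ 1 → ρ y ≠ 1 → x ^ 2 = y ^ 2 := by
    intro x hx y hy hx1 hy1
    obtain ⟨g, hg, hg2⟩ := htrans _ hx _ hy hx1 hy1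
    obtain ⟨u, rfl⟩ := hρ g
    have h1 : ρ (y⁻¹ * (u * x * u⁻¹)) = 1 := by
      rw [map_mul, map_inv, map_mul, map_mul, map_inv, hg2]
      group
    have h2 := hcen _ h1
    set z := y⁻¹ * (u * x * u⁻¹) with hz
    have h3 : u * x * u⁻¹ = y * z := by rw [hz]; group
    have h4 : (u * x * u⁻¹) ^ 2 = y ^ 2 := by
      rw [h3, pow_two, pow_two]
      calc y * z * (y * z) = y * (z * y) * z := by group
        _ = y * (y * z) * z := by rw [hcomm z h2 y]
        _ = y * y * (z * z) := by group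
        _ = y * y := by
            have := hZ z h2
            rw [pow_two] at this
            rw [this, mul_one]
    have h5 : (u * x * u⁻¹) ^ 2 = x ^ 2 := by
      have : (u * x * u⁻¹) ^ 2 = u * x ^ 2 * u⁻¹ := by
        rw [pow_two, pow_two]; group
      rw [this, ← hcomm _ (hsq x hx) u]
      group
    rw [← h5, h4]
  obtain ⟨ah, rfl⟩ := hρ a
  obtain ⟨bh, rfl⟩ := hρ b
  obtain ⟨dh, rfl⟩ := hρ d
  have hac : ah ∈ A.comap ρ := ha
  have hbc : bh ∈ A.comap ρ := hb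
  have hdc : dh ∈ A.comap ρ := hd
  set c := ah ^ 2 with hc
  have hccen : c ∈ center X := hsq ah hac
  have hcc : c * c = 1 := by
    have := hZ c hccen
    rwa [pow_two] at this
  have hall : ∀ x ∈ A.comap ρ, ρ x ≠ 1 → x ^ 2 = c := fun x hx h1 => hsame x hx ah hac h1 ha1
  -- commutators
  have hcomm2 : ∀ x ∈ A.comap ρ, ∀ y ∈ A.comap ρ, ρ x ≠ 1 → ρ y ≠ 1 → ρ x * ρ y ≠ 1 →
      y * x = c * (x * y) := by
    intro x hx y hy h1 h2 h3
    have hw : ρ (y * x * (x * y)⁻¹) = 1 := by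
      rw [map_mul, map_inv, map_mul, map_mul, hAc _ hy _ hx]
      group
    have hw2 := hcen _ hw
    set w := y * x * (x * y)⁻¹ with hwdef
    have h4 : y * x = w * (x * y) := by rw [hwdef]; group
    have h5 : (x * y) ^ 2 = c := hall _ (mul_mem hx hy) (by rw [map_mul]; exact h3)
    have h6 : (x * y) ^ 2 = w * (x ^ 2 * y ^ 2) := by
      rw [pow_two, pow_two, pow_two]
      calc x * y * (x * y) = x * (y * x) * y := by group
        _ = x * (w * (x * y)) * y := by rw [h4]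
        _ = w * (x * x * (y * y)) := by
            rw [← mul_assoc x w, ← hcomm w hw2 x]
            group
    rw [hall x hx h1, hall y hy h2, hcc, mul_one] at h6
    rw [h5] at h6
    rw [h4, h6]
  have hc1 : c = 1 := by
    have e1 := hcomm2 ah hac bh hbc ha1 hb1 hab
    have e2 := hcomm2 ah hac dh hdc ha1 hd1 had
    have e3 := hcomm2 ah hac (bh * dh) (mul_mem hbc hdc) ha1 (by rw [map_mul]; exact hbd)
      (by rw [map_mul]; exact habd)
    -- bh * dh * ah = bh * (dh * ah) = bh * (c * (ah * dh)) = c * (bh * ah) * dh = c * c * (ah * bh * dh)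
    have e4 : bh * dh * ah = c * c * (ah * (bh * dh)) := by
      calc bh * dh * ah = bh * (dh * ah) := by group
        _ = bh * (c * (ah * dh)) := by rw [e2]
        _ = c * (bh * (ah * dh)) := by
            rw [← mul_assoc bh c, ← hcomm c hccen bh]
            group
        _ = c * ((bh * ah) * dh) := by group
        _ = c * ((c * (ah * bh)) * dh) := by rw [e1]
        _ = c * c * (ah * (bh * dh)) := by group
    rw [e3] at e4
    exact mul_right_cancel e4 |>.trans hcc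
  constructor
  · intro x hx y hy
    by_cases h1 : ρ x = 1
    · exact hcomm x (hcen x h1) y
    by_cases h2 : ρ y = 1
    · exact (hcomm y (hcen y h2) x).symm
    by_cases h3 : ρ x * ρ y = 1
    · have h4 : ρ y = ρ x := by
        have h5 := hA2 _ hx
        rw [pow_two] at h5
        have h6 : ρ x * ρ y = ρ x * ρ x := by rw [h3, h5]
        exact mul_left_cancel h6
      have h5 : ρ (x⁻¹ * y) = 1 := by
        rw [map_mul, map_inv, h4]; group
      have h6 := hcen _ h5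
      have h8 : (x⁻¹ * y) * x = x * (x⁻¹ * y) := hcomm _ h6 x
      calc x * y = x * (x * (x⁻¹ * y)) := by group
        _ = x * ((x⁻¹ * y) * x) := by rw [h8]
        _ = y * x := by group
    · have := hcomm2 x hx y hy h1 h2 h3
      rw [hc1, one_mul] at this
      exact this.symm
  · intro x hx
    by_cases h1 : ρ x = 1
    · exact hZ x (hcen x h1)
    · rw [hall x hx h1, hc1]


/-- Retractions in an elementary abelian 2-group. -/
lemma exists_retr {E : Type*} [CommGroup E] (h2 : ∀ x : E, x ^ 2 = 1) (Z : Subgroup E) :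
    ∃ r : E →* E, (∀ x, r x ∈ Z) ∧ ∀ z ∈ Z, r z = z := by
  classical
  have h2' : ∀ x : Additive E, (2 : ℕ) • x = 0 := fun x => by
    show Additive.ofMul ((Additive.toMul x) ^ 2) = 0
    rw [h2]; rfl
  letI : Module (ZMod 2) (Additive E) := AddCommGroup.zmodModule h2'
  let Z' : Submodule (ZMod 2) (Additive E) := AddSubgroup.toZModSubmodule 2 (Subgroup.toAddSubgroup Z)
  obtain ⟨W, hW⟩ := Submodule.exists_isCompl Z'
  let pr := Z'.projectionOnto W hW
  refine ⟨MonoidHom.mk' (fun x => Additive.toMul ((pr (Additive.ofMul x) : Z') : Additive E)) ?_, ?_, ?_⟩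
  · intro a b
    simp [pr]
  · intro x
    have := (pr (Additive.ofMul x)).2
    exact this
  · intro z hz
    have hz' : Additive.ofMul z ∈ Z' := hz
    have := Submodule.projectionOnto_apply_left hW ⟨Additive.ofMul z, hz'⟩
    show Additive.toMul ((pr (Additive.ofMul z) : Z') : Additive E) = z
    have h3 : pr (Additive.ofMul z) = ⟨Additive.ofMul z, hz'⟩ := this
    rw [h3]
    rfl

lemma exists_retr' {E : Type*} [inst : Group E] (hc : ∀ x y : E, x * y = y * x)
    (h2 : ∀ x : E, x ^ 2 = 1) (Z : Subgroup E) :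
    ∃ r : E →* E, (∀ x, r x ∈ Z) ∧ ∀ z ∈ Z, r z = z := by
  let cg : CommGroup E := { inst with mul_comm := hc }
  obtain ⟨r, h1, h3⟩ := @exists_retr E cg h2 Z
  exact ⟨r, h1, h3⟩

/-- The complement, by transfer. -/
theorem exists_complement [Finite X] (ρ : X →* G) (hρ : Function.Surjective ρ) (hker : ρ.ker = center X)
    (hZ : ∀ z ∈ center X, z ^ 2 = 1) (L V : Subgroup G) (hVL : V ≤ L) (hodd : Odd (V.relIndex L))
    (hVc : ∀ x ∈ V.comap ρ, ∀ y ∈ V.comap ρ, x * y = y * x)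
    (hV2 : ∀ x ∈ V.comap ρ, x ^ 2 = 1) :
    ∃ C : Subgroup X, C ≤ L.comap ρ ∧ C ⊓ ρ.ker = ⊥ ∧ ∀ x ∈ L.comap ρ, ∃ c ∈ C, ρ c = ρ x := by
  classical
  let Lh := L.comap ρ
  let Sh : Subgroup Lh := (V.comap ρ).subgroupOf Lh
  have hScomm : ∀ x y : Sh, x * y = y * x := by
    rintro ⟨⟨x, hx⟩, hx'⟩ ⟨⟨y, hy⟩, hy'⟩
    apply Subtype.ext
    apply Subtype.ext
    exact hVc x hx' y hy'
  have hS2 : ∀ x : Sh, x ^ 2 = 1 := by
    rintro ⟨⟨x, hx⟩, hx'⟩
    apply Subtype.ext
    apply Subtype.ext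
    exact hV2 x hx'
  let Z0 : Subgroup Sh := (ρ.ker.subgroupOf Lh).subgroupOf Sh
  obtain ⟨r, hr1, hr2⟩ := exists_retr' hScomm hS2 Z0
  have hcentral : ∀ x : Sh, (((r x : Sh) : Lh) : X) ∈ center X := fun x => by
    rw [← hker]
    exact hr1 x
  let _ : CommGroup (center X) :=
    { (inferInstance : Group (center X)) with
      mul_comm := fun a b => Subtype.ext (mem_center_iff.mp a.2 (b : X)).symm }
  let φ : Sh →* center X := MonoidHom.mk' (fun x => ⟨((r x : Sh) : Lh), hcentral x⟩) (by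
    intro a b
    apply Subtype.ext
    simp)
  let τ : Lh →* center X := MonoidHom.transfer φ
  have hidx : Sh.index = V.relIndex L := by
    show ((V.comap ρ).subgroupOf (L.comap ρ)).index = _
    have := Subgroup.relIndex_comap V ρ (L.comap ρ)
    rw [Subgroup.map_comap_eq_self_of_surjective hρ] at this
    exact this
  have hτ : ∀ z : Lh, ρ (z : X) = 1 → ((τ z : center X) : X) = z := by
    intro z hz
    have hzc : (z : X) ∈ center X := by rw [← hker]; exact hz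
    have hzL : ∀ w : Lh, z * w = w * z := fun w => Subtype.ext (mem_center_iff.mp hzc w).symm
    have key : ∀ (k : ℕ) (g₀ : Lh), g₀⁻¹ * z ^ k * g₀ ∈ Sh → g₀⁻¹ * z ^ k * g₀ = z ^ k := by
      intro k g₀ _
      have : z ^ k * g₀ = g₀ * z ^ k := (Commute.pow_left (show Commute z g₀ from hzL g₀) k).eq
      rw [mul_assoc, this]
      group
    have h1 := MonoidHom.transfer_eq_pow φ z key
    have h2 : z ^ Sh.index = z := by
      rw [hidx]
      obtain ⟨k, hk⟩ := hodd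
      have hz2 : z ^ 2 = 1 := Subtype.ext (hZ _ hzc)
      rw [hk, pow_succ, pow_mul, hz2, one_pow, one_mul]
    have h3 : ((φ ⟨z ^ Sh.index, MonoidHom.transfer_eq_pow_aux z key⟩ : center X) : X) = z := by
      show (((r ⟨z ^ Sh.index, _⟩ : Sh) : Lh) : X) = z
      have hz0 : (⟨z ^ Sh.index, MonoidHom.transfer_eq_pow_aux z key⟩ : Sh) ∈ Z0 := by
        show ρ ((z ^ Sh.index : Lh) : X) = 1
        rw [h2]; exact hz
      rw [hr2 _ hz0]
      simp [h2]
    show ((MonoidHom.transfer φ z : center X) : X) = z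
    rw [h1, h3]
  let C : Subgroup X := τ.ker.map Lh.subtype
  refine ⟨C, ?_, ?_, ?_⟩
  · rintro _ ⟨x, -, rfl⟩
    exact x.2
  · rw [eq_bot_iff]
    rintro _ ⟨⟨x, hx1, rfl⟩, hx2⟩
    have hx3 : ρ ((x : Lh) : X) = 1 := hx2
    have h4 := hτ x hx3
    have h5 : τ x = 1 := hx1
    rw [h5] at h4
    rw [Subgroup.mem_bot]
    simpa using h4.symm
  · intro x hx
    let y : Lh := ⟨x, hx⟩
    have hy : ρ ((τ y : center X) : X) = 1 := by
      have h1 : ((τ y : center X) : X) ∈ ρ.ker := by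
        rw [hker]; exact (τ y).2
      exact h1
    have h6 : (τ y : center X) ∈ (⊤ : Subgroup (center X)) := mem_top _
    refine ⟨x * ((τ y : center X) : X)⁻¹, ?_, ?_⟩
    · have hw : ρ (((τ y : center X) : X)) = 1 := hy
      have hmem : ((τ y : center X) : X) ∈ Lh := by
        show ρ _ ∈ L
        rw [hw]; exact one_mem _
      let w : Lh := ⟨_, hmem⟩
      refine ⟨y * w⁻¹, ?_, rfl⟩
      show τ (y * w⁻¹) = 1
      rw [map_mul, map_inv]
      have h7 : τ w = τ y := by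
        apply Subtype.ext
        exact hτ w hw
      rw [h7, mul_inv_cancel]
    · rw [map_mul, map_inv, hy]
      simp

end Abstract


open Matrix
open Cfsg.Agent.Lib.Sing.L3
open scoped MatrixGroups

section Concrete

variable {F : Type*} [Field F] [Fintype F]

/-- The projection. -/
abbrev pi3 (F : Type*) [Field F] [Fintype F] :
    SL3 F →* ProjectiveSpecialLinearGroup (Fin 3) F := QuotientGroup.mk' _

lemma mk3_mul (a b t a' b' t' : F) :
    mk3 a b t * mk3 a' b' t' = mk3 (a + a') (b + b') (t + t' + a * b') := by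
  apply Subtype.ext
  ext i j
  show (mk3 a b t * mk3 a' b' t').1 i j = _
  rw [entry_mul]
  fin_cases i <;> fin_cases j <;> simp [mk3] <;> ring

lemma mk3_zero : mk3 (0 : F) 0 0 = 1 := by
  apply Subtype.ext
  ext i j
  fin_cases i <;> fin_cases j <;> simp [mk3]

lemma eq_mk3_of_mem {x : SL3 F} (hx : x ∈ Hs F) : x = mk3 (x.1 0 1) (x.1 1 2) (x.1 0 2) := by
  obtain ⟨a1, a2, a3, a4, a5, a6⟩ := hx
  apply Subtype.ext
  ext i j
  fin_cases i <;> fin_cases j <;> simp [mk3, a1, a2, a3, a4, a5, a6]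

lemma pi_eq_smul {x y : SL3 F} (h : pi3 F x = pi3 F y) : ∃ r : F, x.1 = r • y.1 := by
  have h1 : y⁻¹ * x ∈ Subgroup.center (SL3 F) := QuotientGroup.eq.mp h.symm
  rw [Matrix.SpecialLinearGroup.mem_center_iff] at h1
  obtain ⟨r, -, hr⟩ := h1
  refine ⟨r, ?_⟩
  have h2 : x = y * (y⁻¹ * x) := by group
  have h3 : x.1 = y.1 * (y⁻¹ * x).1 := by
    conv_lhs => rw [h2]
    rfl
  rw [h3, ← hr]
  ext i j
  simp [Matrix.mul_apply, Matrix.scalar_apply, Matrix.diagonal_apply, mul_comm]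

lemma pi_eq_of_smul {x y : SL3 F} {r : F} (h : x.1 = r • y.1) : pi3 F x = pi3 F y := by
  have hdet : r ^ 3 = 1 := by
    have h1 := congrArg Matrix.det h
    rw [Matrix.det_smul, x.2, y.2] at h1
    simpa using h1.symm
  apply QuotientGroup.eq.mpr
  rw [Matrix.SpecialLinearGroup.mem_center_iff]
  refine ⟨r⁻¹, by simp [inv_pow, hdet], ?_⟩
  have hr : r ≠ 0 := by
    rintro rfl
    simp at hdet
  have h2 : y = x * (x⁻¹ * y) := by group
  have h3 : y.1 = x.1 * (x⁻¹ * y).1 := by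
    conv_lhs => rw [h2]
    rfl
  rw [h] at h3
  have h4 : (x⁻¹ * y).1 * 1 = (x⁻¹ * y).1 := mul_one _
  have h5 : (1 : Matrix (Fin 3) (Fin 3) F) = y.1 * (y⁻¹).1 := by
    have : y * y⁻¹ = 1 := mul_inv_cancel y
    have h6 := congrArg Subtype.val this
    exact h6.symm
  have h7 : (y⁻¹).1 * y.1 = 1 := by
    have : y⁻¹ * y = 1 := inv_mul_cancel y
    exact congrArg Subtype.val this
  have h8 : (x⁻¹ * y).1 = r⁻¹ • 1 := by
    have h9 : (y⁻¹).1 * (y.1) = (y⁻¹).1 * (r • y.1 * (x⁻¹ * y).1) := by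
      conv_lhs => rw [h3]
    rw [h7] at h9
    have h10 : (y⁻¹).1 * (r • y.1 * (x⁻¹ * y).1) = r • (x⁻¹ * y).1 := by
      rw [Matrix.smul_mul, Matrix.mul_smul, ← Matrix.mul_assoc, h7, Matrix.one_mul]
    rw [h10] at h9
    rw [h9, smul_smul, inv_mul_cancel₀ hr, one_smul]
  rw [h8]
  ext i j
  simp [Matrix.scalar_apply, Matrix.diagonal_apply, Matrix.one_apply]

lemma pi_mk3_inj {a b t a' b' t' : F} (h : pi3 F (mk3 a b t) = pi3 F (mk3 a' b' t')) :
    a = a' ∧ b = b' ∧ t = t' := by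
  obtain ⟨r, hr⟩ := pi_eq_smul h
  have h00 := congrFun (congrFun hr 0) 0
  have h01 := congrFun (congrFun hr 0) 1
  have h12 := congrFun (congrFun hr 1) 2
  have h02 := congrFun (congrFun hr 0) 2
  simp [mk3] at h00 h01 h12 h02
  subst h00
  simpa [h01, h12, h02] using ⟨h01, h12, h02⟩

lemma pi_mk3_eq_one {a b t : F} (h : pi3 F (mk3 a b t) = 1) : a = 0 ∧ b = 0 ∧ t = 0 := by
  have h1 : pi3 F (mk3 a b t) = pi3 F (mk3 0 0 0) := by
    rw [h, mk3_zero, map_one]
  exact pi_mk3_inj h1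

variable [CharP F 2]

lemma add_self' (x : F) : x + x = 0 := CharTwo.add_self_eq_zero x

variable (F) in
/-- Type `A` in `SL₃`. -/
def Asl : Subgroup (SL3 F) where
  carrier := {m | ∃ b t, m = mk3 0 b t}
  mul_mem' := by
    rintro _ _ ⟨b, t, rfl⟩ ⟨b', t', rfl⟩
    exact ⟨b + b', t + t', by rw [mk3_mul]; simp⟩
  one_mem' := ⟨0, 0, mk3_zero.symm⟩
  inv_mem' := by
    rintro _ ⟨b, t, rfl⟩
    refine ⟨b, t, ?_⟩
    apply inv_eq_of_mul_eq_one_right
    rw [mk3_mul]
    simp [add_self', mk3_zero]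

variable (F) in
/-- Type `B` in `SL₃`. -/
def Bsl : Subgroup (SL3 F) where
  carrier := {m | ∃ a t, m = mk3 a 0 t}
  mul_mem' := by
    rintro _ _ ⟨b, t, rfl⟩ ⟨b', t', rfl⟩
    exact ⟨b + b', t + t', by rw [mk3_mul]; simp⟩
  one_mem' := ⟨0, 0, mk3_zero.symm⟩
  inv_mem' := by
    rintro _ ⟨b, t, rfl⟩
    refine ⟨b, t, ?_⟩
    apply inv_eq_of_mul_eq_one_right
    rw [mk3_mul]
    simp [add_self', mk3_zero]

variable (F) in
/-- Type `A`. -/
def Abar : Subgroup (ProjectiveSpecialLinearGroup (Fin 3) F) := (Asl F).map (pi3 F)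
variable (F) in
/-- Type `B`. -/
def Bbar : Subgroup (ProjectiveSpecialLinearGroup (Fin 3) F) := (Bsl F).map (pi3 F)
variable (F) in
/-- The Sylow subgroup. -/
def Ubar : Subgroup (ProjectiveSpecialLinearGroup (Fin 3) F) := (Hs F).map (pi3 F)

lemma mem_Abar {x : ProjectiveSpecialLinearGroup (Fin 3) F} :
    x ∈ Abar F ↔ ∃ b t, x = pi3 F (mk3 0 b t) := by
  constructor
  · rintro ⟨_, ⟨b, t, rfl⟩, rfl⟩
    exact ⟨b, t, rfl⟩
  · rintro ⟨b, t, rfl⟩
    exact ⟨_, ⟨b, t, rfl⟩, rfl⟩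

lemma mem_Bbar {x : ProjectiveSpecialLinearGroup (Fin 3) F} :
    x ∈ Bbar F ↔ ∃ a t, x = pi3 F (mk3 a 0 t) := by
  constructor
  · rintro ⟨_, ⟨b, t, rfl⟩, rfl⟩
    exact ⟨b, t, rfl⟩
  · rintro ⟨b, t, rfl⟩
    exact ⟨_, ⟨b, t, rfl⟩, rfl⟩

omit [CharP F 2] in
lemma mem_Ubar {x : ProjectiveSpecialLinearGroup (Fin 3) F} :
    x ∈ Ubar F ↔ ∃ a b t, x = pi3 F (mk3 a b t) := by
  constructor
  · rintro ⟨y, hy, rfl⟩
    exact ⟨_, _, _, by rw [← eq_mk3_of_mem hy]⟩
  · rintro ⟨a, b, t, rfl⟩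
    exact ⟨_, mk3_mem a b t, rfl⟩

lemma Abar_sq {x : ProjectiveSpecialLinearGroup (Fin 3) F} (hx : x ∈ Abar F) : x ^ 2 = 1 := by
  obtain ⟨b, t, rfl⟩ := mem_Abar.1 hx
  rw [pow_two, ← map_mul, mk3_mul]
  simp [add_self', mk3_zero]

lemma Bbar_sq {x : ProjectiveSpecialLinearGroup (Fin 3) F} (hx : x ∈ Bbar F) : x ^ 2 = 1 := by
  obtain ⟨b, t, rfl⟩ := mem_Bbar.1 hx
  rw [pow_two, ← map_mul, mk3_mul]
  simp [add_self', mk3_zero]

lemma Abar_comm {x y : ProjectiveSpecialLinearGroup (Fin 3) F} (hx : x ∈ Abar F) (hy : y ∈ Abar F) :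
    x * y = y * x := by
  obtain ⟨b, t, rfl⟩ := mem_Abar.1 hx
  obtain ⟨b', t', rfl⟩ := mem_Abar.1 hy
  rw [← map_mul, ← map_mul, mk3_mul, mk3_mul]
  congr 2 <;> ring

lemma card_Abar : Nat.card (Abar F) = Fintype.card F ^ 2 := by
  let f : F × F → Abar F := fun p => ⟨pi3 F (mk3 0 p.1 p.2), mem_Abar.2 ⟨_, _, rfl⟩⟩
  have hf : Function.Bijective f := by
    constructor
    · rintro ⟨b, t⟩ ⟨b', t'⟩ h
      have h1 := congrArg Subtype.val h
      obtain ⟨-, h2, h3⟩ := pi_mk3_inj h1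
      exact Prod.ext h2 h3
    · rintro ⟨x, hx⟩
      obtain ⟨b, t, rfl⟩ := mem_Abar.1 hx
      exact ⟨(b, t), rfl⟩
  rw [← Nat.card_congr (Equiv.ofBijective f hf), Nat.card_prod, Nat.card_eq_fintype_card]
  ring

lemma card_Bbar : Nat.card (Bbar F) = Fintype.card F ^ 2 := by
  let f : F × F → Bbar F := fun p => ⟨pi3 F (mk3 p.1 0 p.2), mem_Bbar.2 ⟨_, _, rfl⟩⟩
  have hf : Function.Bijective f := by
    constructor
    · rintro ⟨b, t⟩ ⟨b', t'⟩ h
      have h1 := congrArg Subtype.val h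
      obtain ⟨h2, -, h3⟩ := pi_mk3_inj h1
      exact Prod.ext h2 h3
    · rintro ⟨x, hx⟩
      obtain ⟨b, t, rfl⟩ := mem_Bbar.1 hx
      exact ⟨(b, t), rfl⟩
  rw [← Nat.card_congr (Equiv.ofBijective f hf), Nat.card_prod, Nat.card_eq_fintype_card]
  ring

/-- The classification of the elementary abelian subgroups of order `q²` of `U`. -/
lemma eq_of_le_Ubar (E : Subgroup (ProjectiveSpecialLinearGroup (Fin 3) F)) (hE : E ≤ Ubar F)
    (h2 : ∀ e ∈ E, e ^ 2 = 1) (hc : Nat.card E = Fintype.card F ^ 2) : E = Abar F ∨ E = Bbar F := by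
  have hunion : ∀ e ∈ E, e ∈ Abar F ∨ e ∈ Bbar F := by
    intro e he
    obtain ⟨a, b, t, rfl⟩ := mem_Ubar.1 (hE he)
    have h3 := h2 _ he
    rw [pow_two, ← map_mul, mk3_mul] at h3
    obtain ⟨-, -, h4⟩ := pi_mk3_eq_one h3
    simp only [add_self', zero_add] at h4
    rcases mul_eq_zero.1 h4 with h5 | h5
    · left
      subst h5
      exact mem_Abar.2 ⟨_, _, rfl⟩
    · right
      subst h5
      exact mem_Bbar.2 ⟨_, _, rfl⟩
  have hle : E ≤ Abar F ∨ E ≤ Bbar F := by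
    by_contra hcon
    push Not at hcon
    obtain ⟨h3, h4⟩ := hcon
    obtain ⟨x, hx, hxA⟩ := SetLike.not_le_iff_exists.1 h3
    obtain ⟨y, hy, hyB⟩ := SetLike.not_le_iff_exists.1 h4
    have hxB : x ∈ Bbar F := (hunion x hx).resolve_left hxA
    have hyA : y ∈ Abar F := (hunion y hy).resolve_right hyB
    rcases hunion _ (mul_mem hx hy) with h5 | h5
    · apply hxA
      have := mul_mem h5 (inv_mem hyA)
      simpa using this
    · apply hyB
      have := mul_mem (inv_mem hxB) h5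
      simpa using this
  rcases hle with h3 | h3
  · left
    exact Subgroup.eq_of_le_of_card_ge h3 (by rw [hc, card_Abar])
  · right
    exact Subgroup.eq_of_le_of_card_ge h3 (by rw [hc, card_Bbar])

/-! ### The Levi factor -/

/-- `SL₂` inside `SL₃`. -/
def iotaFun (N : SL(2, F)) : SL3 F :=
  ⟨!![N.1 0 0, N.1 0 1, 0; N.1 1 0, N.1 1 1, 0; 0, 0, 1], by
    rw [Matrix.det_fin_three]
    have := Cfsg.Agent.Lib.PSL2.Basic.det_entries N
    simp
    linear_combination this⟩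

/-- `SL₂` inside `SL₃`. -/
def iota0 : SL(2, F) →* SL3 F where
  toFun := iotaFun
  map_one' := by
    apply Subtype.ext
    ext i j
    fin_cases i <;> fin_cases j <;> simp [iotaFun]
  map_mul' := by
    intro x y
    apply Subtype.ext
    ext i j
    show (iotaFun (x * y)).1 i j = (iotaFun x * iotaFun y).1 i j
    rw [entry_mul]
    fin_cases i <;> fin_cases j <;> simp [iotaFun, Matrix.mul_apply, Fin.sum_univ_two]

omit [CharP F 2] in
@[simp] lemma i00 (N : SL(2, F)) : (iota0 N).1 0 0 = N.1 0 0 := rfl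
omit [CharP F 2] in
@[simp] lemma i01 (N : SL(2, F)) : (iota0 N).1 0 1 = N.1 0 1 := rfl
omit [CharP F 2] in
@[simp] lemma i02 (N : SL(2, F)) : (iota0 N).1 0 2 = 0 := rfl
omit [CharP F 2] in
@[simp] lemma i10 (N : SL(2, F)) : (iota0 N).1 1 0 = N.1 1 0 := rfl
omit [CharP F 2] in
@[simp] lemma i11 (N : SL(2, F)) : (iota0 N).1 1 1 = N.1 1 1 := rfl
omit [CharP F 2] in
@[simp] lemma i12 (N : SL(2, F)) : (iota0 N).1 1 2 = 0 := rfl
omit [CharP F 2] in
@[simp] lemma i20 (N : SL(2, F)) : (iota0 N).1 2 0 = 0 := rfl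
omit [CharP F 2] in
@[simp] lemma i21 (N : SL(2, F)) : (iota0 N).1 2 1 = 0 := rfl
omit [CharP F 2] in
@[simp] lemma i22 (N : SL(2, F)) : (iota0 N).1 2 2 = 1 := rfl

/-- `SL₂` inside `PSL₃`. -/
def iota : SL(2, F) →* ProjectiveSpecialLinearGroup (Fin 3) F := (pi3 F).comp iota0

omit [CharP F 2] in
lemma iota_apply (N : SL(2, F)) : iota N = pi3 F (iota0 N) := rfl

omit [CharP F 2] in
lemma iota_inj : Function.Injective (iota (F := F)) := by
  rw [injective_iff_map_eq_one]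
  intro N hN
  have h1 : pi3 F (iota0 N) = pi3 F 1 := by rw [map_one]; exact hN
  obtain ⟨r, hr⟩ := pi_eq_smul h1
  have h2 := congrFun (congrFun hr 2) 2
  simp only [i22] at h2
  simp at h2
  subst h2
  have h00 := congrFun (congrFun hr 0) 0
  have h01 := congrFun (congrFun hr 0) 1
  have h10 := congrFun (congrFun hr 1) 0
  have h11 := congrFun (congrFun hr 1) 1
  simp only [i00, i01, i10, i11] at h00 h01 h10 h11
  simp at h00 h01 h10 h11
  apply Subtype.ext
  ext i j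
  fin_cases i <;> fin_cases j <;> simp [h00, h01, h10, h11]

omit [CharP F 2] in
lemma iota0_mul_mk3 (N : SL(2, F)) (b t : F) :
    iota0 N * mk3 0 b t = mk3 0 (N.1 1 0 * t + N.1 1 1 * b) (N.1 0 0 * t + N.1 0 1 * b) * iota0 N := by
  apply Subtype.ext
  ext i j
  show (iota0 N * mk3 0 b t).1 i j = (mk3 0 _ _ * iota0 N).1 i j
  rw [entry_mul, entry_mul]
  fin_cases i <;> fin_cases j <;> simp [mk3] <;> ring

/-- The image of `SL₂`. -/
abbrev Lbar (F : Type*) [Field F] [Fintype F] : Subgroup (ProjectiveSpecialLinearGroup (Fin 3) F) :=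
  (iota (F := F)).range

lemma iota_conj (N : SL(2, F)) (b t : F) :
    iota N * pi3 F (mk3 0 b t) * (iota N)⁻¹ =
      pi3 F (mk3 0 (N.1 1 0 * t + N.1 1 1 * b) (N.1 0 0 * t + N.1 0 1 * b)) := by
  rw [iota_apply, ← map_mul, iota0_mul_mk3, map_mul]
  group

lemma Lbar_le_norm : Lbar F ≤ normalizer ((Abar F : Subgroup _) : Set _) := by
  have key : ∀ N : SL(2, F), ∀ y ∈ Abar F, iota N * y * (iota N)⁻¹ ∈ Abar F := by
    intro N y hy
    obtain ⟨b, t, rfl⟩ := mem_Abar.1 hy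
    rw [iota_conj]
    exact mem_Abar.2 ⟨_, _, rfl⟩
  rintro _ ⟨N, rfl⟩
  rw [mem_normalizer_iff]
  intro y
  refine ⟨key N y, fun h => ?_⟩
  have := key N⁻¹ _ h
  simpa [mul_assoc] using this

lemma Abar_inf_Lbar {x : ProjectiveSpecialLinearGroup (Fin 3) F} (h1 : x ∈ Abar F) (h2 : x ∈ Lbar F) :
    x = 1 := by
  obtain ⟨b, t, rfl⟩ := mem_Abar.1 h1
  obtain ⟨N, hN⟩ := h2
  have hN' : pi3 F (mk3 0 b t) = pi3 F (iota0 N) := hN.symm
  obtain ⟨r, hr⟩ := pi_eq_smul hN'
  have h22 := congrFun (congrFun hr 2) 2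
  have h02 := congrFun (congrFun hr 0) 2
  have h12 := congrFun (congrFun hr 1) 2
  have h22' : (1 : F) = r * 1 := by simpa [mk3] using h22
  have h02' : t = r * 0 := by simpa [mk3] using h02
  have h12' : b = r * 0 := by simpa [mk3] using h12
  rw [mul_zero] at h02' h12'
  rw [h02', h12', mk3_zero, map_one]

lemma exists_sl2 (b t : F) (h : ¬ (b = 0 ∧ t = 0)) :
    ∃ N : SL(2, F), N.1 0 0 = t ∧ N.1 1 0 = b := by
  by_cases ht : t = 0
  · subst ht
    have hb : b ≠ 0 := fun hb => h ⟨hb, rfl⟩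
    refine ⟨Cfsg.Agent.Lib.PSL2.Basic.sl2 0 b⁻¹ b 0 ?_, rfl, rfl⟩
    field_simp
    simp [CharTwo.neg_eq]
  · refine ⟨Cfsg.Agent.Lib.PSL2.Basic.sl2 t 0 b t⁻¹ ?_, rfl, rfl⟩
    field_simp
    ring

lemma Abar_trans (a a' : ProjectiveSpecialLinearGroup (Fin 3) F) (ha : a ∈ Abar F) (ha' : a' ∈ Abar F)
    (h1 : a ≠ 1) (h1' : a' ≠ 1) :
    ∃ g, (∀ y, y ∈ Abar F ↔ g * y * g⁻¹ ∈ Abar F) ∧ g * a * g⁻¹ = a' := by
  have hne : ∀ b t : F, pi3 F (mk3 0 b t) ≠ 1 → ¬ (b = 0 ∧ t = 0) := by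
    rintro b t h ⟨rfl, rfl⟩
    apply h
    rw [mk3_zero, map_one]
  obtain ⟨b, t, rfl⟩ := mem_Abar.1 ha
  obtain ⟨b', t', rfl⟩ := mem_Abar.1 ha'
  obtain ⟨N, hN1, hN2⟩ := exists_sl2 b t (hne _ _ h1)
  obtain ⟨N', hN1', hN2'⟩ := exists_sl2 b' t' (hne _ _ h1')
  have e1 : ∀ (M : SL(2, F)) (c s : F), M.1 0 0 = s → M.1 1 0 = c →
      iota M * pi3 F (mk3 0 0 1) * (iota M)⁻¹ = pi3 F (mk3 0 c s) := by
    intro M c s hs hc
    rw [iota_conj]
    simp [hs, hc]
  refine ⟨iota (N' * N⁻¹), ?_, ?_⟩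
  · exact mem_normalizer_iff.1 (Lbar_le_norm ⟨_, rfl⟩)
  · rw [← e1 N b t hN1 hN2, ← e1 N' b' t' hN1' hN2']
    simp only [map_mul, map_inv]
    group

/-- The normalizer. -/
lemma norm_Abar (hF : Fintype.card F = 4) {g : ProjectiveSpecialLinearGroup (Fin 3) F}
    (hg : g ∈ normalizer ((Abar F : Subgroup _) : Set _)) : ∃ a ∈ Abar F, ∃ l ∈ Lbar F, g = a * l := by
  obtain ⟨M, rfl⟩ := QuotientGroup.mk'_surjective _ g
  rw [mem_normalizer_iff] at hg
  -- the elements of order two in `SL₃` with the same image agree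
  have hinj : ∀ x y : SL3 F, x ^ 2 = 1 → y ^ 2 = 1 → pi3 F x = pi3 F y → x = y := by
    intro x y hx hy hxy
    obtain ⟨r, hr⟩ := pi_eq_smul hxy
    have h1 : x.1 * x.1 = r ^ 2 • (y.1 * y.1) := by
      rw [hr, Matrix.smul_mul, Matrix.mul_smul, smul_smul, pow_two]
    have hx' : x.1 * x.1 = 1 := by
      have h := hx
      rw [pow_two] at h
      exact congrArg Subtype.val h
    have hy' : y.1 * y.1 = 1 := by
      have h := hy
      rw [pow_two] at h
      exact congrArg Subtype.val h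
    rw [hx', hy'] at h1
    have h2 := congrFun (congrFun h1 0) 0
    simp at h2
    have hr1 : r = 1 := by
      have h3 : (r + 1) ^ 2 = 0 := by
        have : (2 : F) = 0 := CharTwo.two_eq_zero
        linear_combination (-1) * h2 + (r + 1) * this
      have h4 := pow_eq_zero_iff (two_ne_zero) |>.1 h3
      exact CharTwo.add_eq_zero.1 h4
    apply Subtype.ext
    rw [hr, hr1, one_smul]
  have hstep : ∀ b t : F, ∃ b' t' : F, M * mk3 0 b t = mk3 0 b' t' * M := by
    intro b t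
    have h1 := (hg (pi3 F (mk3 0 b t))).1 (mem_Abar.2 ⟨_, _, rfl⟩)
    obtain ⟨b', t', h2⟩ := mem_Abar.1 h1
    refine ⟨b', t', ?_⟩
    have h3 : M * mk3 0 b t * M⁻¹ = mk3 0 b' t' := by
      apply hinj
      · rw [pow_two]
        have h4 : mk3 (0 : F) b t * mk3 0 b t = 1 := by
          rw [mk3_mul]; simp [add_self', mk3_zero]
        calc M * mk3 0 b t * M⁻¹ * (M * mk3 0 b t * M⁻¹)
            = M * (mk3 0 b t * mk3 0 b t) * M⁻¹ := by group
          _ = 1 := by rw [h4]; group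
      · rw [pow_two, mk3_mul]
        simp [add_self', mk3_zero]
      · rw [← h2]
        simp only [map_mul, map_inv]
    rw [← h3]
    group
  have h20 : M.1 2 0 = 0 := by
    obtain ⟨b', t', h⟩ := hstep 0 1
    have h1 := congrArg (fun x : SL3 F => x.1 2 2) h
    simp only [entry_mul] at h1
    simpa [mk3] using h1
  have h21 : M.1 2 1 = 0 := by
    obtain ⟨b', t', h⟩ := hstep 1 0
    have h1 := congrArg (fun x : SL3 F => x.1 2 2) h
    simp only [entry_mul] at h1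
    simpa [mk3] using h1
  have hdet : M.1 2 2 * (M.1 0 0 * M.1 1 1 - M.1 0 1 * M.1 1 0) = 1 := by
    have h := M.2
    rw [Matrix.det_fin_three, h20, h21] at h
    linear_combination h
  set d := M.1 2 2 with hd
  have hd0 : d ≠ 0 := by
    rintro h0
    rw [h0, zero_mul] at hdet
    exact zero_ne_one hdet
  have hd3 : d ^ 3 = 1 := by
    have h1 := FiniteField.pow_card_sub_one_eq_one d hd0
    rw [hF] at h1
    exact h1
  let N : SL(2, F) := Cfsg.Agent.Lib.PSL2.Basic.sl2 (d⁻¹ * M.1 0 0) (d⁻¹ * M.1 0 1)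
    (d⁻¹ * M.1 1 0) (d⁻¹ * M.1 1 1) (by
      have h1 : M.1 0 0 * M.1 1 1 - M.1 0 1 * M.1 1 0 = d⁻¹ := by
        field_simp
        linear_combination hdet
      have h2 : (d⁻¹) ^ 3 = 1 := by rw [inv_pow, hd3, inv_one]
      calc d⁻¹ * M.1 0 0 * (d⁻¹ * M.1 1 1) - d⁻¹ * M.1 0 1 * (d⁻¹ * M.1 1 0)
          = (d⁻¹) ^ 2 * (M.1 0 0 * M.1 1 1 - M.1 0 1 * M.1 1 0) := by ring
        _ = 1 := by rw [h1]; linear_combination h2)
  have hN00 : N.1 0 0 = d⁻¹ * M.1 0 0 := rfl
  have hN01 : N.1 0 1 = d⁻¹ * M.1 0 1 := rfl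
  have hN10 : N.1 1 0 = d⁻¹ * M.1 1 0 := rfl
  have hN11 : N.1 1 1 = d⁻¹ * M.1 1 1 := rfl
  refine ⟨pi3 F (mk3 0 (d⁻¹ * M.1 1 2) (d⁻¹ * M.1 0 2)), mem_Abar.2 ⟨_, _, rfl⟩, iota N, ⟨N, rfl⟩, ?_⟩
  rw [iota_apply, ← map_mul]
  apply pi_eq_of_smul (r := d)
  ext i j
  show M.1 i j = d • (mk3 0 _ _ * iota0 N).1 i j
  rw [entry_mul]
  fin_cases i <;> fin_cases j <;>
    simp [mk3, hN00, hN01, hN10, hN11, h20, h21, hd0, ← hd] <;> field_simp

/-! ### The four-group in the Levi factor -/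

omit [Fintype F] [CharP F 2] in
/-- The upper unitriangular subgroup of `SL₂`. -/
def Vsl (F : Type*) [Field F] : Subgroup SL(2, F) where
  carrier := {N | N.1 0 0 = 1 ∧ N.1 1 0 = 0 ∧ N.1 1 1 = 1}
  mul_mem' := by
    rintro x y ⟨a1, a2, a3⟩ ⟨b1, b2, b3⟩
    refine ⟨?_, ?_, ?_⟩ <;>
    · show (x.1 * y.1) _ _ = _
      simp [Matrix.mul_apply, Fin.sum_univ_two, a1, a2, a3, b1, b2, b3]
  one_mem' := by
    refine ⟨?_, ?_, ?_⟩ <;> simp
  inv_mem' := by
    rintro x ⟨a1, a2, a3⟩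
    rw [Set.mem_ofPred_eq, Matrix.SpecialLinearGroup.SL2_inv_expl]
    simp [a1, a2, a3]

omit [CharP F 2] in
lemma card_Vsl : Nat.card (Vsl F) = Fintype.card F := by
  let f : F → Vsl F := fun x => ⟨Cfsg.Agent.Lib.PSL2.Basic.sl2 1 x 0 1 (by simp), rfl, rfl, rfl⟩
  have hf : Function.Bijective f := by
    constructor
    · intro x y h
      have h1 := congrArg (fun z : Vsl F => z.1.1 0 1) h
      exact h1
    · rintro ⟨N, a1, a2, a3⟩
      refine ⟨N.1 0 1, ?_⟩
      apply Subtype.ext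
      apply Cfsg.Agent.Lib.PSL2.Basic.ext2 <;> simp [f, a1, a2, a3]
  rw [← Nat.card_congr (Equiv.ofBijective f hf), Nat.card_eq_fintype_card]

/-- The swap. -/
def Pm : SL3 F := ⟨!![1, 0, 0; 0, 0, 1; 0, 1, 0], by
  rw [Matrix.det_fin_three]
  simp [CharTwo.neg_eq]⟩

lemma Pm_mul {N : SL(2, F)} (hN : N ∈ Vsl F) : Pm * iota0 N = mk3 0 0 (N.1 0 1) * Pm := by
  obtain ⟨a1, a2, a3⟩ := hN
  apply Subtype.ext
  ext i j
  show ((Pm : SL3 F) * iota0 N).1 i j = (mk3 (0 : F) 0 (N.1 0 1) * Pm).1 i j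
  rw [entry_mul, entry_mul]
  fin_cases i <;> fin_cases j <;> simp [Pm, mk3, a1, a2, a3]

/-- The image of `Vsl`. -/
abbrev Vbar (F : Type*) [Field F] [Fintype F] : Subgroup (ProjectiveSpecialLinearGroup (Fin 3) F) :=
  (Vsl F).map (iota (F := F))

lemma Vbar_conj {v : ProjectiveSpecialLinearGroup (Fin 3) F} (hv : v ∈ Vbar F) :
    pi3 F Pm * v * (pi3 F Pm)⁻¹ ∈ Abar F := by
  obtain ⟨N, hN, rfl⟩ := hv
  rw [iota_apply, ← map_mul, Pm_mul hN, map_mul]
  have : pi3 F (mk3 0 0 (N.1 0 1)) * pi3 F Pm * (pi3 F Pm)⁻¹ = pi3 F (mk3 0 0 (N.1 0 1)) := by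
    group
  rw [this]
  exact mem_Abar.2 ⟨_, _, rfl⟩

omit [CharP F 2] in
lemma Vbar_le : Vbar F ≤ Lbar F := by
  rintro _ ⟨N, -, rfl⟩
  exact ⟨N, rfl⟩

lemma Vbar_odd (hF : Fintype.card F = 4) : Odd ((Vbar F).relIndex (Lbar F)) := by
  have h1 : (Vbar F).relIndex (Lbar F) = (Vsl F).index := by
    show ((Vsl F).map (iota (F := F))).relIndex (iota (F := F)).range = _
    rw [MonoidHom.range_eq_map, Subgroup.relIndex_map_map_of_injective _ _ iota_inj,
      Subgroup.relIndex_top_right]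
  rw [h1]
  have h2 := (Vsl F).card_mul_index
  rw [card_Vsl, Cfsg.Agent.Lib.PSL2.Basic.card_SL2, hF] at h2
  have h3 : (Vsl F).index = 15 := by omega
  rw [h3]
  decide

/-! ### The automorphism swapping the two types -/

/-- The inverse transpose. -/
def tauHom : SL3 F →* SL3 F where
  toFun x := ⟨(x⁻¹).1.transpose, by rw [Matrix.det_transpose]; exact (x⁻¹).2⟩
  map_one' := by
    apply Subtype.ext
    simp
  map_mul' := by
    intro x y
    apply Subtype.ext
    show (((x * y)⁻¹).1).transpose = ((x⁻¹).1).transpose * ((y⁻¹).1).transpose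
    rw [_root_.mul_inv_rev, ← Matrix.transpose_mul]
    rfl

/-- The reversal. -/
def Wm : SL3 F := ⟨!![0, 0, 1; 0, 1, 0; 1, 0, 0], by
  rw [Matrix.det_fin_three]
  simp [CharTwo.neg_eq]⟩

lemma Wm_sq : (Wm : SL3 F) * Wm = 1 := by
  apply Subtype.ext
  ext i j
  show ((Wm : SL3 F) * Wm).1 i j = (1 : SL3 F).1 i j
  rw [entry_mul]
  fin_cases i <;> fin_cases j <;> simp [Wm]

/-- The graph automorphism. -/
def eHom : SL3 F →* SL3 F := (MulAut.conj (Wm : SL3 F)).toMonoidHom.comp tauHom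

lemma eHom_apply (x : SL3 F) : eHom x = Wm * tauHom x * Wm⁻¹ := rfl

lemma eHom_inj : Function.Injective (eHom (F := F)) := by
  rw [injective_iff_map_eq_one]
  intro x hx
  have h1 : tauHom x = 1 := by
    rw [eHom_apply] at hx
    have : tauHom x = Wm⁻¹ * (Wm * tauHom x * Wm⁻¹) * Wm := by group
    rw [this, hx]
    group
  have h2 : (x⁻¹).1.transpose = 1 := congrArg Subtype.val h1
  have h3 : (x⁻¹).1 = 1 := by
    have := congrArg Matrix.transpose h2
    simpa using this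
  have h4 : x⁻¹ = 1 := Subtype.ext h3
  exact inv_eq_one.1 h4

lemma eHom_surj : Function.Surjective (eHom (F := F)) :=
  Finite.injective_iff_surjective.1 eHom_inj

lemma eHom_mk3 (a t : F) : eHom (mk3 a 0 t) = mk3 0 a t := by
  rw [eHom_apply]
  have h1 : (mk3 a 0 t)⁻¹ = mk3 a 0 t := by
    apply inv_eq_of_mul_eq_one_right
    rw [mk3_mul]
    simp [add_self', mk3_zero]
  have h2 : (Wm : SL3 F)⁻¹ = Wm := inv_eq_of_mul_eq_one_right Wm_sq
  have h3 : Wm * tauHom (mk3 a 0 t) = mk3 0 a t * Wm := by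
    apply Subtype.ext
    ext i j
    show (Wm * tauHom (mk3 a 0 t)).1 i j = (mk3 0 a t * Wm).1 i j
    rw [entry_mul, entry_mul]
    have h4 : ∀ p q, (tauHom (mk3 a 0 t)).1 p q = (mk3 a 0 t).1 q p := by
      intro p q
      show ((mk3 a 0 t)⁻¹).1.transpose p q = _
      rw [h1]
      rfl
    simp only [h4]
    fin_cases i <;> fin_cases j <;> simp [Wm, mk3]
  rw [h3, h2, mul_assoc, Wm_sq, mul_one]

/-- The graph automorphism on `PSL₃`. -/
def sigma : ProjectiveSpecialLinearGroup (Fin 3) F →* ProjectiveSpecialLinearGroup (Fin 3) F :=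
  QuotientGroup.map _ _ (eHom (F := F)) (by
    intro x hx
    rw [Subgroup.mem_comap, Subgroup.mem_center_iff]
    intro y
    obtain ⟨y', rfl⟩ := eHom_surj y
    rw [← map_mul, ← map_mul, (Subgroup.mem_center_iff.1 hx) y'])

lemma sigma_pi (x : SL3 F) : sigma (pi3 F x) = pi3 F (eHom x) := rfl

lemma sigma_surj : Function.Surjective (sigma (F := F)) := by
  intro y
  obtain ⟨y', rfl⟩ := QuotientGroup.mk'_surjective _ y
  obtain ⟨z, rfl⟩ := eHom_surj y'
  exact ⟨pi3 F z, rfl⟩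

lemma sigma_inj : Function.Injective (sigma (F := F)) :=
  Finite.injective_iff_surjective.2 sigma_surj

lemma mem_Bbar_iff (y : ProjectiveSpecialLinearGroup (Fin 3) F) : y ∈ Bbar F ↔ sigma y ∈ Abar F := by
  constructor
  · intro hy
    obtain ⟨a, t, rfl⟩ := mem_Bbar.1 hy
    rw [sigma_pi, eHom_mk3]
    exact mem_Abar.2 ⟨_, _, rfl⟩
  · intro hy
    obtain ⟨b, t, hb⟩ := mem_Abar.1 hy
    rw [← eHom_mk3, ← sigma_pi] at hb
    rw [sigma_inj hb]
    exact mem_Bbar.2 ⟨_, _, rfl⟩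

end Concrete


section Final

open Subgroup Matrix
open Cfsg.Agent.Lib.Sing.L3
open scoped MatrixGroups

variable {X : Type*} [Group X] [Finite X] {F : Type*} [Field F] [Fintype F] [CharP F 2]

lemma exists_third (hF : Fintype.card F = 4) : ∃ x : F, x ≠ 0 ∧ x ≠ 1 := by
  classical
  by_contra h
  push Not at h
  have h1 : (Finset.univ : Finset F) ⊆ {0, 1} := by
    intro x _
    by_cases hx : x = 0
    · simp [hx]
    · simp [h x hx]
  have h2 := Finset.card_le_card h1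
  rw [Finset.card_univ, hF] at h2
  have h3 : ({0, 1} : Finset F).card ≤ 2 := Finset.card_le_two
  omega

theorem final_A (hF : Fintype.card F = 4) (ρ : X →* ProjectiveSpecialLinearGroup (Fin 3) F)
    (hρ : Function.Surjective ρ) (hker : ρ.ker = center X) (hZ : ∀ z ∈ center X, z ^ 2 = 1) :
    Cfsg.IsElementaryAbelian 2 ((Abar F).comap ρ) ∧
      ∃ C : Subgroup X, C ≤ Subgroup.normalizer (((Abar F).comap ρ : Subgroup X) : Set X) ∧
        C ⊓ (Abar F).comap ρ = ⊥ ∧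
        (Abar F).comap ρ ⊔ C = Subgroup.normalizer (((Abar F).comap ρ : Subgroup X) : Set X) ∧
        Nonempty (↥C ≃* Matrix.ProjectiveSpecialLinearGroup (Fin 2) F) := by
  classical
  obtain ⟨x, hx0, hx1⟩ := exists_third (F := F) hF
  have hne : ∀ b t : F, ¬ (b = 0 ∧ t = 0) → pi3 F (mk3 0 b t) ≠ 1 := by
    intro b t h h1
    obtain ⟨-, h2, h3⟩ := pi_mk3_eq_one h1
    exact h ⟨h2, h3⟩
  have h1x : (1 : F) + x ≠ 0 := by
    intro h
    exact hx1 (CharTwo.add_eq_zero.1 h).symm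
  have hne' : ∀ a b t : F, ¬ (a = 0 ∧ b = 0 ∧ t = 0) → pi3 F (mk3 a b t) ≠ 1 := by
    intro a b t h h1
    exact h (pi_mk3_eq_one h1)
  -- the subgroup `H`
  obtain ⟨hHc, hH2⟩ := elem_of_trans ρ hρ hker hZ (Abar F) (fun a ha => Abar_sq ha)
    (fun a ha b hb => Abar_comm ha hb)
    (fun a ha b hb h1 h2 => Abar_trans a b ha hb h1 h2)
    (pi3 F (mk3 0 0 1)) (pi3 F (mk3 0 1 0)) (pi3 F (mk3 0 x 0))
    (mem_Abar.2 ⟨_, _, rfl⟩) (mem_Abar.2 ⟨_, _, rfl⟩) (mem_Abar.2 ⟨_, _, rfl⟩)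
    (hne _ _ (by simp)) (hne _ _ (by simp)) (hne _ _ (by simp [hx0]))
    (by rw [← map_mul, mk3_mul]; exact hne' _ _ _ (by simp))
    (by rw [← map_mul, mk3_mul]; exact hne' _ _ _ (by simp [hx0]))
    (by rw [← map_mul, mk3_mul]; exact hne' _ _ _ (by simp [h1x]))
    (by rw [← map_mul, ← map_mul, mk3_mul, mk3_mul]; exact hne' _ _ _ (by simp [h1x]))
  set H := (Abar F).comap ρ with hHdef
  have hHe : Cfsg.IsElementaryAbelian 2 H :=
    ⟨⟨⟨fun a b => Subtype.ext (hHc a a.2 b b.2)⟩⟩, fun a ha => hH2 a ha⟩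
  refine ⟨hHe, ?_⟩
  -- the preimage of the four-group
  obtain ⟨ph, hph⟩ := hρ (pi3 F Pm)
  have hconj : ∀ v ∈ (Vbar F).comap ρ, ph * v * ph⁻¹ ∈ H := by
    intro v hv
    show ρ (ph * v * ph⁻¹) ∈ Abar F
    rw [map_mul, map_mul, map_inv, hph]
    exact Vbar_conj hv
  have hVc : ∀ u ∈ (Vbar F).comap ρ, ∀ v ∈ (Vbar F).comap ρ, u * v = v * u := by
    intro u hu v hv
    have h1 := hHc _ (hconj u hu) _ (hconj v hv)
    have h2 : ph * (u * v) * ph⁻¹ = ph * (v * u) * ph⁻¹ := by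
      calc ph * (u * v) * ph⁻¹ = (ph * u * ph⁻¹) * (ph * v * ph⁻¹) := by group
        _ = (ph * v * ph⁻¹) * (ph * u * ph⁻¹) := h1
        _ = ph * (v * u) * ph⁻¹ := by group
    exact mul_left_cancel (mul_right_cancel h2)
  have hV2 : ∀ u ∈ (Vbar F).comap ρ, u ^ 2 = 1 := by
    intro u hu
    have h1 := hH2 _ (hconj u hu)
    have h2 : ph * u ^ 2 * ph⁻¹ = 1 := by
      rw [← h1, pow_two, pow_two]
      group
    have h3 : u ^ 2 = ph⁻¹ * (ph * u ^ 2 * ph⁻¹) * ph := by group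
    rw [h3, h2]
    group
  obtain ⟨C, hCL, hCZ, hCs⟩ := exists_complement ρ hρ hker hZ (Lbar F) (Vbar F) Vbar_le (Vbar_odd hF)
    hVc hV2
  -- normalizers
  have hnorm1 : ∀ u, ρ u ∈ normalizer ((Abar F : Subgroup _) : Set _) →
      u ∈ normalizer ((H : Subgroup X) : Set X) := by
    intro u hu
    rw [mem_normalizer_iff] at hu ⊢
    intro y
    have h1 := hu (ρ y)
    constructor
    · intro hy
      show ρ (u * y * u⁻¹) ∈ Abar F
      rw [map_mul, map_mul, map_inv]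
      exact h1.1 hy
    · intro hy
      have h2 : ρ (u * y * u⁻¹) ∈ Abar F := hy
      rw [map_mul, map_mul, map_inv] at h2
      exact h1.2 h2
  have hnorm2 : ∀ u ∈ normalizer ((H : Subgroup X) : Set X),
      ρ u ∈ normalizer ((Abar F : Subgroup _) : Set _) := by
    intro u hu
    rw [mem_normalizer_iff] at hu ⊢
    intro y
    obtain ⟨y', rfl⟩ := hρ y
    have h1 := hu y'
    constructor
    · intro hy
      have h2 : ρ (u * y' * u⁻¹) ∈ Abar F := h1.1 hy
      rwa [map_mul, map_mul, map_inv] at h2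
    · intro hy
      have h2 : u * y' * u⁻¹ ∈ H := by
        show ρ (u * y' * u⁻¹) ∈ Abar F
        rwa [map_mul, map_mul, map_inv]
      exact h1.2 h2
  have hCN : C ≤ normalizer ((H : Subgroup X) : Set X) := fun u hu =>
    hnorm1 u (Lbar_le_norm (hCL hu))
  have hkerH : ρ.ker ≤ H := by
    intro z hz
    show ρ z ∈ Abar F
    rw [hz]
    exact one_mem _
  refine ⟨C, hCN, ?_, ?_, ?_⟩
  · rw [eq_bot_iff]
    rintro u ⟨hu1, hu2⟩
    have h1 : ρ u = 1 := Abar_inf_Lbar hu2 (hCL hu1)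
    have h2 : u ∈ C ⊓ ρ.ker := ⟨hu1, h1⟩
    rw [hCZ] at h2
    exact h2
  · apply le_antisymm
    · exact sup_le Subgroup.le_normalizer hCN
    · intro u hu
      obtain ⟨a, ha, l, hl, hal⟩ := norm_Abar hF (hnorm2 u hu)
      obtain ⟨y, hy⟩ := hρ a
      obtain ⟨l', hl'⟩ := hρ l
      obtain ⟨c, hc, hcl⟩ := hCs l' (by show ρ l' ∈ Lbar F; rw [hl']; exact hl)
      have h1 : ρ ((y * c)⁻¹ * u) = 1 := by
        rw [map_mul, map_inv, map_mul, hy, hcl, hl', hal]
        group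
      have h2 : (y * c)⁻¹ * u ∈ center X := by
        rw [← hker]; exact h1
      set z := (y * c)⁻¹ * u with hz
      have h3 : u = y * z * c := by
        have h4 : c * z = z * c := (mem_center_iff.1 h2 c)
        calc u = y * (c * z) := by rw [hz]; group
          _ = y * (z * c) := by rw [h4]
          _ = y * z * c := by group
      rw [h3]
      apply Subgroup.mul_mem_sup _ hc
      apply mul_mem
      · show ρ y ∈ Abar F
        rw [hy]; exact ha
      · exact hkerH h1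
  · -- the isomorphism
    let f : ↥C →* ↥(Lbar F) := (ρ.comp C.subtype).codRestrict (Lbar F) (fun u => hCL u.2)
    have hf : Function.Bijective f := by
      constructor
      · rw [injective_iff_map_eq_one]
        rintro ⟨u, hu⟩ h1
        have h2 : ρ u = 1 := congrArg Subtype.val h1
        have h3 : u ∈ C ⊓ ρ.ker := ⟨hu, h2⟩
        rw [hCZ] at h3
        exact Subtype.ext h3
      · rintro ⟨l, hl⟩
        obtain ⟨l', hl'⟩ := hρ l
        obtain ⟨c, hc, hcl⟩ := hCs l' (by show ρ l' ∈ Lbar F; rw [hl']; exact hl)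
        exact ⟨⟨c, hc⟩, Subtype.ext (hcl.trans hl')⟩
    let e1 : ↥C ≃* ↥(Lbar F) := MulEquiv.ofBijective f hf
    let e2 : SL(2, F) ≃* ↥(Lbar F) := MonoidHom.ofInjective iota_inj
    have hcen : Subgroup.center SL(2, F) = ⊥ := by
      apply Subgroup.eq_bot_of_card_eq
      exact Cfsg.Agent.Lib.PSL2.Basic.card_center_of_two_eq_zero CharTwo.two_eq_zero
    let e3 : SL(2, F) ≃* Matrix.ProjectiveSpecialLinearGroup (Fin 2) F :=
      (QuotientGroup.quotientBot.symm).trans (QuotientGroup.quotientMulEquivOfEq hcen.symm)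
    exact ⟨e1.trans (e2.symm.trans e3)⟩

theorem final_B (hF : Fintype.card F = 4) (ρ : X →* ProjectiveSpecialLinearGroup (Fin 3) F)
    (hρ : Function.Surjective ρ) (hker : ρ.ker = center X) (hZ : ∀ z ∈ center X, z ^ 2 = 1) :
    Cfsg.IsElementaryAbelian 2 ((Bbar F).comap ρ) ∧
      ∃ C : Subgroup X, C ≤ Subgroup.normalizer (((Bbar F).comap ρ : Subgroup X) : Set X) ∧
        C ⊓ (Bbar F).comap ρ = ⊥ ∧
        (Bbar F).comap ρ ⊔ C = Subgroup.normalizer (((Bbar F).comap ρ : Subgroup X) : Set X) ∧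
        Nonempty (↥C ≃* Matrix.ProjectiveSpecialLinearGroup (Fin 2) F) := by
  have h1 : (Bbar F).comap ρ = (Abar F).comap (sigma.comp ρ) := by
    ext u
    exact mem_Bbar_iff (ρ u)
  rw [h1]
  refine final_A hF (sigma.comp ρ) (sigma_surj.comp hρ) ?_ hZ
  ext u
  rw [MonoidHom.mem_ker, ← hker, MonoidHom.mem_ker, MonoidHom.comp_apply]
  exact map_eq_one_iff _ sigma_inj

theorem center_eq (ρ : X →* ProjectiveSpecialLinearGroup (Fin 3) F)
    (hρ : Function.Surjective ρ)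
    (hHe : Cfsg.IsElementaryAbelian 2 ((Abar F).comap ρ))
    (hKe : Cfsg.IsElementaryAbelian 2 ((Bbar F).comap ρ)) :
    (Abar F).comap ρ ⊓ (Bbar F).comap ρ =
      (Subgroup.center ↥((Abar F).comap ρ ⊔ (Bbar F).comap ρ)).map ((Abar F).comap ρ ⊔ (Bbar F).comap ρ).subtype := by
  set H := (Abar F).comap ρ with hH
  set K := (Bbar F).comap ρ with hK
  have hAU : Abar F ≤ Ubar F := by
    intro y hy
    obtain ⟨b, t, rfl⟩ := mem_Abar.1 hy
    exact mem_Ubar.2 ⟨_, _, _, rfl⟩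
  have hBU : Bbar F ≤ Ubar F := by
    intro y hy
    obtain ⟨b, t, rfl⟩ := mem_Bbar.1 hy
    exact mem_Ubar.2 ⟨_, _, _, rfl⟩
  apply le_antisymm
  · rintro u ⟨hu1, hu2⟩
    refine ⟨⟨u, mem_sup_left hu1⟩, ?_, rfl⟩
    show _ ∈ Subgroup.center _
    rw [Subgroup.mem_center_iff]
    rintro ⟨y, hy⟩
    apply Subtype.ext
    have hle : H ⊔ K ≤ centralizer {u} := by
      apply sup_le
      · intro w hw
        rw [mem_centralizer_singleton_iff]
        have := hHe.1.is_comm.comm (⟨w, hw⟩ : H) ⟨u, hu1⟩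
        exact congrArg Subtype.val this
      · intro w hw
        rw [mem_centralizer_singleton_iff]
        have := hKe.1.is_comm.comm (⟨w, hw⟩ : K) ⟨u, hu2⟩
        exact congrArg Subtype.val this
    have := hle hy
    rw [mem_centralizer_singleton_iff] at this
    exact this
  · rintro _ ⟨⟨y, hy⟩, hc0, rfl⟩
    have hc : (⟨y, hy⟩ : ↥(H ⊔ K)) ∈ Subgroup.center _ := hc0
    rw [Subgroup.mem_center_iff] at hc
    have hUy : ρ y ∈ Ubar F := by
      have h1 : H ⊔ K ≤ (Ubar F).comap ρ := by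
        apply sup_le
        · exact Subgroup.comap_mono hAU
        · exact Subgroup.comap_mono hBU
      exact h1 hy
    obtain ⟨a, b, t, hy2⟩ := mem_Ubar.1 hUy
    -- commuting with the two test elements
    obtain ⟨h1, hh1⟩ := hρ (pi3 F (mk3 0 1 0))
    have hh1H : h1 ∈ H := by
      show ρ h1 ∈ Abar F
      rw [hh1]
      exact mem_Abar.2 ⟨_, _, rfl⟩
    obtain ⟨h2, hh2⟩ := hρ (pi3 F (mk3 1 0 0))
    have hh2K : h2 ∈ K := by
      show ρ h2 ∈ Bbar F
      rw [hh2]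
      exact mem_Bbar.2 ⟨_, _, rfl⟩
    have hc1 : h1 * y = y * h1 := congrArg Subtype.val (hc ⟨h1, mem_sup_left hh1H⟩)
    have hc2 : h2 * y = y * h2 := congrArg Subtype.val (hc ⟨h2, mem_sup_right hh2K⟩)
    have hc1' := congrArg ρ hc1
    have hc2' := congrArg ρ hc2
    rw [map_mul, map_mul, hh1, hy2, ← map_mul, ← map_mul, mk3_mul, mk3_mul] at hc1'
    rw [map_mul, map_mul, hh2, hy2, ← map_mul, ← map_mul, mk3_mul, mk3_mul] at hc2'
    obtain ⟨-, -, e1⟩ := pi_mk3_inj hc1'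
    obtain ⟨-, -, e2⟩ := pi_mk3_inj hc2'
    have ha : a = 0 := by
      simp at e1
      exact e1
    have hb : b = 0 := by
      simp at e2
      exact e2
    subst ha hb
    constructor
    · show ρ y ∈ Abar F
      rw [hy2]
      exact mem_Abar.2 ⟨_, _, rfl⟩
    · show ρ y ∈ Bbar F
      rw [hy2]
      exact mem_Bbar.2 ⟨_, _, rfl⟩

lemma card_Ubar : Nat.card (Ubar F) = Fintype.card F ^ 3 := by
  let f : F × F × F → Ubar F := fun p => ⟨pi3 F (mk3 p.1 p.2.1 p.2.2), mem_Ubar.2 ⟨_, _, _, rfl⟩⟩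
  have hf : Function.Bijective f := by
    constructor
    · rintro ⟨a, b, t⟩ ⟨a', b', t'⟩ h
      have h1 := congrArg Subtype.val h
      obtain ⟨h2, h3, h4⟩ := pi_mk3_inj h1
      exact Prod.ext h2 (Prod.ext h3 h4)
    · rintro ⟨x, hx⟩
      obtain ⟨a, b, t, rfl⟩ := mem_Ubar.1 hx
      exact ⟨(a, b, t), rfl⟩
  rw [← Nat.card_congr (Equiv.ofBijective f hf), Nat.card_prod, Nat.card_prod, Nat.card_eq_fintype_card]
  ring

end Final


set_option maxHeartbeats 400000 in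
/-- Let X be a finite quasisimple group whose centre is an elementary abelian 2-group and whose central quotient is isomorphic to the projective special linear group of dimension 3 over the field with 4 elements. Let T be a Sylow 2-subgroup of X and H ≠ K subgroups of T containing the centre Z(X) whose images in X/Z(X) are elementary abelian of order 16 (the two such subgroups of a Sylow 2-subgroup of the quotient). Then H and K are elementary abelian, H ∩ K is the centre of the subgroup they generate, and each of N_X(H), N_X(K) is a split extension of H, respectively K, by the projective special linear group of dimension 2 over the field with 4 elements (there is a complement isomorphic to that group). -/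
theorem result {X : Type*} [Group X] [Finite X] (hq : Cfsg.IsQuasisimple X) (hZ : Cfsg.IsElementaryAbelian 2 (Subgroup.center X))
    {F : Type*} [Field F] [Fintype F] (hF : Fintype.card F = 4) (hXL : Nonempty ((X ⧸ Subgroup.center X) ≃* Matrix.ProjectiveSpecialLinearGroup (Fin 3) F))
    (T : Sylow 2 X) (H K : Subgroup X) (hHK : H ≠ K) (hHT : H ≤ T) (hKT : K ≤ T) (hZH : Subgroup.center X ≤ H) (hZK : Subgroup.center X ≤ K)
    (hH : Cfsg.IsElementaryAbelian 2 (H.map (QuotientGroup.mk' (Subgroup.center X))) ∧ Nat.card ↥(H.map (QuotientGroup.mk' (Subgroup.center X))) = 16)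
    (hK : Cfsg.IsElementaryAbelian 2 (K.map (QuotientGroup.mk' (Subgroup.center X))) ∧ Nat.card ↥(K.map (QuotientGroup.mk' (Subgroup.center X))) = 16) :
    Cfsg.IsElementaryAbelian 2 H ∧ Cfsg.IsElementaryAbelian 2 K ∧
      H ⊓ K = (Subgroup.center ↥(H ⊔ K)).map (H ⊔ K).subtype ∧
      (∃ C : Subgroup X, C ≤ Subgroup.normalizer (H : Set X) ∧ C ⊓ H = ⊥ ∧ H ⊔ C = Subgroup.normalizer (H : Set X) ∧
        Nonempty (↥C ≃* Matrix.ProjectiveSpecialLinearGroup (Fin 2) F)) ∧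
      (∃ C : Subgroup X, C ≤ Subgroup.normalizer (K : Set X) ∧ C ⊓ K = ⊥ ∧ K ⊔ C = Subgroup.normalizer (K : Set X) ∧
        Nonempty (↥C ≃* Matrix.ProjectiveSpecialLinearGroup (Fin 2) F)) := by
  classical
  haveI : Fact (Nat.Prime 2) := ⟨Nat.prime_two⟩
  have h40 : ((4 : ℕ) : F) = 0 := by
    rw [← hF]
    exact Nat.cast_card_eq_zero F
  have h20 : (2 : F) = 0 := by
    have h1 : (2 : F) * 2 = 0 := by
      have : ((4 : ℕ) : F) = 2 * 2 := by norm_num
      rw [← this, h40]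
    exact mul_self_eq_zero.1 h1
  haveI : CharP F 2 := CharTwo.of_one_ne_zero_of_two_eq_zero one_ne_zero h20
  obtain ⟨φ⟩ := hXL
  have hZ' : ∀ z ∈ Subgroup.center X, z ^ 2 = 1 := hZ.2
  let mk := QuotientGroup.mk' (Subgroup.center X)
  let ρ₀ : X →* Matrix.ProjectiveSpecialLinearGroup (Fin 3) F := φ.toMonoidHom.comp mk
  have hs₀ : Function.Surjective ρ₀ := φ.surjective.comp (QuotientGroup.mk'_surjective _)
  let Tb : Sylow 2 (Matrix.ProjectiveSpecialLinearGroup (Fin 3) F) := T.mapSurjective hs₀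
  have hcU : Nat.card (Ubar F) = 2 ^ (Nat.card (Matrix.ProjectiveSpecialLinearGroup (Fin 3) F)).factorization 2 := by
    obtain ⟨S, ⟨e⟩⟩ := exists_sylow (K := F) (n := 2) (by norm_num) (by rw [hF]; norm_num)
    rw [← S.card_eq_multiplicity, ← Nat.card_congr e.toEquiv, card_Hs, card_Ubar]
  let Uy : Sylow 2 (Matrix.ProjectiveSpecialLinearGroup (Fin 3) F) := Sylow.ofCard (Ubar F) hcU
  obtain ⟨g, hg⟩ := MulAction.exists_smul_eq (Matrix.ProjectiveSpecialLinearGroup (Fin 3) F) Tb Uy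
  let ψ : (X ⧸ Subgroup.center X) ≃* Matrix.ProjectiveSpecialLinearGroup (Fin 3) F := φ.trans (MulAut.conj g)
  let ρ : X →* Matrix.ProjectiveSpecialLinearGroup (Fin 3) F := ψ.toMonoidHom.comp mk
  have hρ : Function.Surjective ρ := ψ.surjective.comp (QuotientGroup.mk'_surjective _)
  have hker : ρ.ker = Subgroup.center X := by
    ext u
    rw [MonoidHom.mem_ker]
    show ψ (mk u) = 1 ↔ _
    rw [map_eq_one_iff _ ψ.injective]
    exact QuotientGroup.eq_one_iff u
  have hTU : ∀ u ∈ (T : Subgroup X), ρ u ∈ Ubar F := by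
    intro u hu
    have h1 : ρ₀ u ∈ (Tb : Subgroup _) := ⟨u, hu, rfl⟩
    have h2 : ρ u ∈ ((g • Tb : Sylow 2 _) : Subgroup _) := by
      rw [Sylow.coe_subgroup_smul]
      exact Subgroup.smul_mem_pointwise_smul _ (MulAut.conj g) _ h1
    rw [hg] at h2
    exact h2
  have hmap : ∀ E : Subgroup X, E.map ρ = (E.map mk).map ψ.toMonoidHom := fun E => by
    rw [Subgroup.map_map]
  have hcase : ∀ E : Subgroup X, E ≤ T → Subgroup.center X ≤ E →
      (Cfsg.IsElementaryAbelian 2 (E.map mk) ∧ Nat.card ↥(E.map mk) = 16) →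
      E = (Abar F).comap ρ ∨ E = (Bbar F).comap ρ := by
    intro E hET hZE hE
    have hle : E.map ρ ≤ Ubar F := by
      rintro _ ⟨u, hu, rfl⟩
      exact hTU u (hET hu)
    have h2 : ∀ e ∈ E.map ρ, e ^ 2 = 1 := by
      rintro _ ⟨u, hu, rfl⟩
      have h3 := hE.1.2 (mk u) ⟨u, hu, rfl⟩
      show (ψ (mk u)) ^ 2 = 1
      rw [← map_pow, h3, map_one]
    have hc : Nat.card ↥(E.map ρ) = Fintype.card F ^ 2 := by
      rw [hmap, Subgroup.card_map_of_injective ψ.injective, hE.2, hF]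
      norm_num
    have hcomap : (E.map ρ).comap ρ = E := by
      apply Subgroup.comap_map_eq_self
      rw [hker]
      exact hZE
    rcases eq_of_le_Ubar _ hle h2 hc with h3 | h3
    · left
      rw [← h3, hcomap]
    · right
      rw [← h3, hcomap]
  have hA := final_A hF ρ hρ hker hZ'
  have hB := final_B hF ρ hρ hker hZ'
  have hcent := center_eq ρ hρ hA.1 hB.1
  rcases hcase H hHT hZH hH with h1 | h1 <;> rcases hcase K hKT hZK hK with h2 | h2
  · exact absurd (h1.trans h2.symm) hHK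
  · subst h1 h2
    exact ⟨hA.1, hB.1, hcent, hA.2, hB.2⟩
  · subst h1 h2
    refine ⟨hB.1, hA.1, ?_, hB.2, hA.2⟩
    rw [inf_comm, sup_comm]
    exact hcent
  · exact absurd (h1.trans h2.symm) hHK

end Cfsg.Agent.S3154
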