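import Cfsg.Statements.S3155
import Mathlib
-- import your own Cfsg.Agent.* helpers here

set_option autoImplicit false
open Cfsg

namespace Cfsg.Agent.S3155

/-- Let B be the direct product of three cyclic groups of order 4. Then the automorphism of B inverting every element is not the square of any automorphism of B. -/
theorem result {B : Type*} [CommGroup B] [Finite B] (hB : Nonempty (B ≃* Multiplicative (ZMod 4 × ZMod 4 × ZMod 4)))
    (τ : B ≃* B) : τ.trans τ ≠ MulEquiv.inv B := by
  intro h
  obtain ⟨φ⟩ := hB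
  let σ : (ZMod 4 × ZMod 4 × ZMod 4) →+ (ZMod 4 × ZMod 4 × ZMod 4) :=
    { toFun := fun x => Multiplicative.toAdd (φ (τ (φ.symm (Multiplicative.ofAdd x))))
      map_zero' := by
        have : φ (τ (φ.symm (1 : Multiplicative (ZMod 4 × ZMod 4 × ZMod 4)))) = 1 := by simp
        exact congrArg Multiplicative.toAdd this
      map_add' := by
        intro x y
        have : φ (τ (φ.symm (Multiplicative.ofAdd x * Multiplicative.ofAdd y))) =
            φ (τ (φ.symm (Multiplicative.ofAdd x))) * φ (τ (φ.symm (Multiplicative.ofAdd y))) := by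
          simp
        exact congrArg Multiplicative.toAdd this }
  have hσ : ∀ x, σ (σ x) = -x := by
    intro x
    have h1 : τ (τ (φ.symm (Multiplicative.ofAdd x))) = (φ.symm (Multiplicative.ofAdd x))⁻¹ :=
      congrArg (fun e : B ≃* B => e (φ.symm (Multiplicative.ofAdd x))) h
    change Multiplicative.toAdd (φ (τ (φ.symm (Multiplicative.ofAdd
      (Multiplicative.toAdd (φ (τ (φ.symm (Multiplicative.ofAdd x))))))))) = -x
    rw [ofAdd_toAdd, MulEquiv.symm_apply_apply, h1, map_inv, MulEquiv.apply_symm_apply]
    rfl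
  let A : (ZMod 4 × ZMod 4 × ZMod 4) →ₗ[ZMod 4] (ZMod 4 × ZMod 4 × ZMod 4) :=
    AddMonoidHom.toZModLinearMap 4 σ
  have hAA : A * A = (-1 : ZMod 4) • (LinearMap.id) := by
    apply LinearMap.ext
    intro x
    change σ (σ x) = (-1 : ZMod 4) • x
    rw [hσ, neg_smul, one_smul]
  have hdet := congrArg LinearMap.det hAA
  rw [map_mul, LinearMap.det_smul, LinearMap.det_id] at hdet
  have hfr : Module.finrank (ZMod 4) (ZMod 4 × ZMod 4 × ZMod 4) = 3 := by
    have h1 : Fact (1 < 4) := ⟨by norm_num⟩
    rw [Module.finrank_prod, Module.finrank_prod, Module.finrank_self]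
  rw [hfr] at hdet
  revert hdet
  generalize LinearMap.det A = d
  revert d
  decide

end Cfsg.Agent.S3155
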