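import Cfsg.Statements.S3156
import Mathlib
import Cfsg.Agent.Lib.Classical.Herm.SzAutGroup

set_option autoImplicit false
open Cfsg

namespace Cfsg.Agent.S3156

/-- If a finite group T is isomorphic to a Sylow 2-subgroup of the projective special unitary group of dimension 3 with parameter 4 (realised over the field with 16 elements), then no subgroup of the automorphism group of T is isomorphic to the symmetric group of degree 3. -/
theorem result {T : Type*} [Group T] [Finite T] (hT : (∃ (F : Type) (_ : Field F) (_ : Fintype F), Fintype.card F = 16 ∧ ∃ S : Sylow 2 (Cfsg.PSU 3 F 4), Nonempty (T ≃* ↥(S : Subgroup (Cfsg.PSU 3 F 4))))) (H : Subgroup (MulAut T)) : ¬ Nonempty (↥H ≃* Equiv.Perm (Fin 3)) := by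
  rintro ⟨ψ⟩
  obtain ⟨F, _, _, hF, S, ⟨e⟩⟩ := hT
  have hF' : Fintype.card F = (2 ^ 2) ^ 2 := by rw [hF]; norm_num
  have hF4 : Fintype.card F = 4 ^ 2 := by rw [hF]; norm_num
  have hchar := Cfsg.Agent.Lib.Classical.Herm.SzModel.charP_two (by omega) hF'
  obtain ⟨A, B, hm0⟩ := Cfsg.Agent.Lib.Classical.Herm.SzModel.exists_model_PSU hF4 (by norm_num) S
  have hm := hm0.comp e
  let s0 : Equiv.Perm (Fin 3) := Equiv.swap 0 1
  let t0 : Equiv.Perm (Fin 3) := finRotate 3
  have h1 : s0 * s0 = 1 := by decide
  have h2 : t0 * t0 * t0 = 1 := by decide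
  have h3 : t0 ≠ 1 := by decide
  have h4 : t0 * s0 * t0 = s0 := by decide
  let s : MulAut T := (ψ.symm s0 : H)
  let t : MulAut T := (ψ.symm t0 : H)
  have hs : s * s = 1 := by
    have := congrArg (fun u => ((ψ.symm u : H) : MulAut T)) h1
    simpa [map_mul] using this
  have ht : t * t * t = 1 := by
    have := congrArg (fun u => ((ψ.symm u : H) : MulAut T)) h2
    simpa [map_mul] using this
  have ht1 : t ≠ 1 := by
    intro h5
    apply h3
    have h6 : ψ.symm t0 = 1 := Subtype.ext h5
    have := congrArg ψ h6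
    simpa using this
  have hst : t * s * t = s := by
    have := congrArg (fun u => ((ψ.symm u : H) : MulAut T)) h4
    simpa [map_mul] using this
  refine Cfsg.Agent.Lib.Classical.Herm.SzAutGroup.no_s3 hm hF4 rfl s t ?_ ?_ ?_ ?_
  · intro x
    exact DFunLike.congr_fun hs x
  · intro x
    exact DFunLike.congr_fun ht x
  · by_contra hcon
    push Not at hcon
    apply ht1
    ext x
    exact hcon x
  · intro x
    exact DFunLike.congr_fun hst x

end Cfsg.Agent.S3156
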