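import Cfsg.Statements.S3161
import Mathlib
import Cfsg.Agent.Lib.Sing.Field
import Cfsg.Agent.Lib.Sing.CaseL
import Cfsg.Agent.Lib.Sing.CaseU

set_option autoImplicit false
open Cfsg

namespace Cfsg.Agent.S3161

open Cfsg.Agent.Lib.Sing.Basic

theorem aux {Q : Type*} [Group Q] [Finite Q] (hQ : IsPGroup 2 Q) (hna : ¬ IsMulCommutative Q) (n : ℕ) (hn : 2 ≤ n)
    (α ρ : MulAut Q) (hα : orderOf α = 2) (hρ : orderOf ρ = 2 ^ n - 1) (hc : Commute α ρ)
    (C : Subgroup Q) (hC : ∀ x : Q, x ∈ C ↔ α x = x) (hCE : Cfsg.IsElementaryAbelian 2 C ∧ Nat.card ↥C = 2 ^ n)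
    (htr : ∀ x y : Q, x ∈ C → y ∈ C → x ≠ 1 → y ≠ 1 → ∃ k : ℕ, (ρ ^ k) x = y)
    (K F : Type) [Field K] [Fintype K] [CharP K 2] [Field F] [Fintype F] [CharP F 2]
    (hKc : Fintype.card K = 2 ^ n) (hFc : Fintype.card F = 4 ^ n) :
    (∃ (F : Type) (_ : Field F) (_ : Fintype F), Fintype.card F = 4 ^ n ∧
        ∃ S : Sylow 2 (Cfsg.PSU 3 F (2 ^ n)), Nonempty (Q ≃* ↥(S : Subgroup (Cfsg.PSU 3 F (2 ^ n))))) ∨
      (∃ (F : Type) (_ : Field F) (_ : Fintype F), Fintype.card F = 2 ^ n ∧
        ∃ S : Sylow 2 (Matrix.ProjectiveSpecialLinearGroup (Fin 3) F), Nonempty (Q ≃* ↥(S : Subgroup (Matrix.ProjectiveSpecialLinearGroup (Fin 3) F)))) := by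
  classical
  have hpow : ∀ (k : ℕ) (x : Q), (ρ ^ k) x = ρ^[k] x := by
    intro k x
    induction k generalizing x with
    | zero => rfl
    | succ k ih =>
      rw [pow_succ, MulAut.mul_apply, ih, Function.iterate_succ_apply]
  have hcomm : ∀ x, α (ρ x) = ρ (α x) := fun x => by
    have := hc.eq
    exact congrArg (fun f : MulAut Q => f x) this
  have hinv : ∀ x, α (α x) = x := fun x => by
    have h1 : α ^ 2 = 1 := by
      rw [← hα]
      exact pow_orderOf_eq_one α
    have h2 : (α ^ 2) x = x := by rw [h1]; rfl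
    rwa [pow_two, MulAut.mul_apply] at h2
  have hCρ : ∀ x ∈ C, ρ x ∈ C := fun x hx => by
    rw [hC] at hx ⊢
    rw [hcomm, hx]
  letI cgC : CommGroup C :=
    { (inferInstance : Group C) with mul_comm := fun a b => hCE.1.1.is_comm.comm a b }
  let r₀ : Additive C →+ Additive C :=
    { toFun := fun z => Additive.ofMul ⟨ρ (Additive.toMul z).1, hCρ _ (Additive.toMul z).2⟩
      map_zero' := by
        apply Additive.toMul.injective
        apply Subtype.ext
        show ρ 1 = 1
        exact map_one ρ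
      map_add' := fun a b => by
        apply Additive.toMul.injective
        apply Subtype.ext
        show ρ ((Additive.toMul a).1 * (Additive.toMul b).1) = ρ (Additive.toMul a).1 * ρ (Additive.toMul b).1
        exact map_mul ρ _ _ }
  have hr₀inj : Function.Injective r₀ := by
    intro a b hab
    have h1 : ρ (Additive.toMul a).1 = ρ (Additive.toMul b).1 :=
      congrArg (fun z : Additive C => (Additive.toMul z).1) hab
    apply Additive.toMul.injective
    exact Subtype.ext (ρ.injective h1)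
  let r : Additive C ≃+ Additive C :=
    AddEquiv.ofBijective r₀ (Finite.injective_iff_bijective.mp hr₀inj)
  have hrk : ∀ (k : ℕ) (z : Additive C), (Additive.toMul (r^[k] z)).1 = ρ^[k] (Additive.toMul z).1 := by
    intro k z
    induction k with
    | zero => rfl
    | succ k ih =>
      rw [Function.iterate_succ_apply', Function.iterate_succ_apply', ← ih]
      rfl
  have hcardV : Nat.card (Additive C) = 2 ^ n := by
    have : Nat.card (Additive C) = Nat.card C := rfl
    rw [this, hCE.2]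
  have hn4 : 4 ≤ 2 ^ n := by
    calc 4 = 2 ^ 2 := by norm_num
      _ ≤ 2 ^ n := Nat.pow_le_pow_right (by norm_num) hn
  have hnt : ∃ x : Additive C, x ≠ 0 := by
    haveI : Nontrivial (Additive C) := by
      apply Finite.one_lt_card_iff_nontrivial.mp
      omega
    exact exists_ne 0
  have h0iff : ∀ z : Additive C, z = 0 ↔ (Additive.toMul z).1 = 1 := by
    intro z
    constructor
    · rintro rfl
      rfl
    · intro h1
      apply Additive.toMul.injective
      exact Subtype.ext h1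
  obtain ⟨c₁, ω, hc₁⟩ := Cfsg.Agent.Lib.Sing.Field.exists_field_coord r hnt (by
    intro x y hx hy
    have hx' : (Additive.toMul x).1 ≠ 1 := fun h1 => hx ((h0iff x).2 h1)
    have hy' : (Additive.toMul y).1 ≠ 1 := fun h1 => hy ((h0iff y).2 h1)
    obtain ⟨k, hk⟩ := htr _ _ (Additive.toMul x).2 (Additive.toMul y).2 hx' hy'
    refine ⟨k, ?_⟩
    apply Additive.toMul.injective
    apply Subtype.ext
    rw [hrk, ← hpow, hk]) (K := K) (by rw [hKc, hcardV])
  let c : Q → K := fun x => if hx : x ∈ C then c₁ (Additive.ofMul ⟨x, hx⟩) else 0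
  have hcdef : ∀ x (hx : x ∈ C), c x = c₁ (Additive.ofMul ⟨x, hx⟩) := fun x hx => dif_pos hx
  have hcmul : ∀ x y, α x = x → α y = y → c (x * y) = c x + c y := by
    intro x y hx hy
    have hx' := (hC x).2 hx
    have hy' := (hC y).2 hy
    rw [hcdef _ (C.mul_mem hx' hy'), hcdef _ hx', hcdef _ hy', ← map_add]
    rfl
  have hcrho : ∀ x, α x = x → c (ρ x) = ω * c x := by
    intro x hx
    have hx' := (hC x).2 hx
    rw [hcdef _ (hCρ x hx'), hcdef _ hx', ← hc₁]
    rfl
  have hit : ∀ (k : ℕ) (x : Q), α x = x → α (ρ^[k] x) = ρ^[k] x ∧ c (ρ^[k] x) = ω ^ k * c x := by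
    intro k x hx
    induction k with
    | zero => simp [hx]
    | succ k ih =>
      obtain ⟨h1, h2⟩ := ih
      rw [Function.iterate_succ_apply']
      refine ⟨by rw [hcomm, h1], ?_⟩
      rw [hcrho _ h1, h2]
      ring
  have hcsurj : ∀ t, ∃ x, α x = x ∧ c x = t := by
    intro t
    set z := c₁.symm t with hz
    refine ⟨(Additive.toMul z).1, (hC _).1 (Additive.toMul z).2, ?_⟩
    rw [hcdef _ (Additive.toMul z).2]
    show c₁ z = t
    rw [hz, AddEquiv.apply_symm_apply]
  have hcinj : ∀ x, α x = x → c x = 0 → x = 1 := by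
    intro x hx h0
    have hx' := (hC x).2 hx
    rw [hcdef _ hx'] at h0
    have h1 : (Additive.ofMul (⟨x, hx'⟩ : C)) = 0 := by
      apply c₁.injective
      rw [h0, map_zero]
    exact (h0iff _).1 h1
  have hc1 : c 1 = 0 := by
    have := hcmul 1 1 (map_one α) (map_one α)
    rw [mul_one] at this
    simpa using this
  have hgen : ∀ l : K, l ≠ 0 → ∃ k : ℕ, ω ^ k = l := by
    intro l hl
    obtain ⟨x, hx, hx'⟩ := hcsurj 1
    obtain ⟨y, hy, hy'⟩ := hcsurj l
    have hx1 : x ≠ 1 := by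
      rintro rfl
      rw [hc1] at hx'
      exact zero_ne_one hx'
    have hy1 : y ≠ 1 := by
      rintro rfl
      rw [hc1] at hy'
      exact hl hy'.symm
    obtain ⟨k, hk⟩ := htr x y ((hC x).2 hx) ((hC y).2 hy) hx1 hy1
    refine ⟨k, ?_⟩
    rw [hpow] at hk
    have h1 := (hit k x hx).2
    rw [hk, hy', hx', mul_one] at h1
    exact h1.symm
  have h : Hyp ω (α : Q ≃* Q) (ρ : Q ≃* Q) c :=
    { two := hQ
      inv := hinv
      comm := hcomm
      c_mul := hcmul
      c_inj := hcinj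
      c_surj := hcsurj
      c_rho := hcrho
      gen := hgen }
  have hna' : ∃ x y : Q, x * y ≠ y * x := by
    by_contra hcon
    push Not at hcon
    exact hna ⟨⟨hcon⟩⟩
  have hKt : ∃ t₁ t₂ : K, t₁ ≠ 0 ∧ t₂ ≠ 0 ∧ t₁ + t₂ ≠ 0 := by
    have : ∃ t : K, t ≠ 0 ∧ t ≠ 1 := by
      by_contra hcon
      push Not at hcon
      have h1 : (Finset.univ : Finset K) ⊆ {0, 1} := by
        intro t _
        by_cases ht : t = 0
        · simp [ht]
        · simp [hcon t ht]
      have h2 := Finset.card_le_card h1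
      have h3 : ({0, 1} : Finset K).card ≤ 2 := Finset.card_le_two
      rw [Finset.card_univ, hKc] at h2
      omega
    obtain ⟨t, ht0, ht1⟩ := this
    refine ⟨t, 1, ht0, one_ne_zero, ?_⟩
    intro h1
    apply ht1
    have h2 : (1 : K) + 1 = 0 := CharTwo.add_self_eq_zero 1
    linear_combination h1 - h2
  have hs := Cfsg.Agent.Lib.Sing.Core.struct (ω := ω) hKt _ Q α ρ c rfl h hna'
  have hmodd : Odd (2 ^ n - 1) := by
    have h1 : Even (2 ^ n) := (Nat.even_pow' (by omega)).2 even_two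
    obtain ⟨t, ht⟩ := h1
    exact ⟨t - 1, by omega⟩
  have hρm : ∀ x, ρ^[2 ^ n - 1] x = x := by
    intro x
    rw [← hpow, ← hρ, pow_orderOf_eq_one]
    rfl
  obtain ⟨u, v, g, umul, vmul, ker1, ker2, surj, sq⟩ :=
    Cfsg.Agent.Lib.Sing.Coord.coords h hs hna' _ hmodd hρm
  by_cases hroot : ∃ ν : K, ν ^ 2 + ν = g
  · right
    obtain ⟨ν, hν⟩ := hroot
    obtain ⟨e⟩ := Cfsg.Agent.Lib.Sing.CaseL.caseL h u v g umul vmul ker1 ker2 surj sq hν
    obtain ⟨S, ⟨e'⟩⟩ := Cfsg.Agent.Lib.Sing.L3.exists_sylow (K := K) (n := n) (by omega) hKc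
    exact ⟨K, _, _, hKc, S, ⟨e.trans e'⟩⟩
  · left
    push Not at hroot
    have hFq : Fintype.card F = (2 ^ n) ^ 2 := by
      rw [hFc, ← pow_mul, mul_comm, pow_mul]
      norm_num
    have h2q : 2 ∣ 2 ^ n := dvd_pow_self 2 (by omega)
    obtain ⟨S⟩ : Nonempty (Sylow 2 (Cfsg.PSU 3 F (2 ^ n))) := inferInstance
    obtain ⟨e⟩ := Cfsg.Agent.Lib.Sing.CaseU.caseU (F := F) h u v g umul vmul ker1 ker2 surj sq hroot hKc hFq h2q S
    exact ⟨F, _, _, hFc, S, ⟨e⟩⟩

/-- Let Q be a non-abelian finite 2-group admitting commuting automorphisms α of order 2 and ρ of order 2^n − 1, where n ≥ 2, such that the fixed points of α form an elementary abelian subgroup of order 2^n on whose nonidentity elements the group generated by ρ acts transitively. Then Q is isomorphic to a Sylow 2-subgroup of the projective special unitary group of dimension 3 with parameter 2^n (realised over the field with 4^n elements) or of the projective special linear group of dimension 3 over the field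 with 2^n elements. -/
theorem result {Q : Type*} [Group Q] [Finite Q] (hQ : IsPGroup 2 Q) (hna : ¬ IsMulCommutative Q) (n : ℕ) (hn : 2 ≤ n)
    (α ρ : MulAut Q) (hα : orderOf α = 2) (hρ : orderOf ρ = 2 ^ n - 1) (hc : Commute α ρ)
    (C : Subgroup Q) (hC : ∀ x : Q, x ∈ C ↔ α x = x) (hCE : Cfsg.IsElementaryAbelian 2 C ∧ Nat.card ↥C = 2 ^ n)
    (htr : ∀ x y : Q, x ∈ C → y ∈ C → x ≠ 1 → y ≠ 1 → ∃ k : ℕ, (ρ ^ k) x = y) :
    (∃ (F : Type) (_ : Field F) (_ : Fintype F), Fintype.card F = 4 ^ n ∧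
        ∃ S : Sylow 2 (Cfsg.PSU 3 F (2 ^ n)), Nonempty (Q ≃* ↥(S : Subgroup (Cfsg.PSU 3 F (2 ^ n))))) ∨
      (∃ (F : Type) (_ : Field F) (_ : Fintype F), Fintype.card F = 2 ^ n ∧
        ∃ S : Sylow 2 (Matrix.ProjectiveSpecialLinearGroup (Fin 3) F), Nonempty (Q ≃* ↥(S : Subgroup (Matrix.ProjectiveSpecialLinearGroup (Fin 3) F)))) := by
  haveI : Fact (Nat.Prime 2) := ⟨Nat.prime_two⟩
  have hn0 : n ≠ 0 := by omega
  letI : Fintype (GaloisField 2 n) := Fintype.ofFinite _
  letI : Fintype (GaloisField 2 (2 * n)) := Fintype.ofFinite _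
  refine aux hQ hna n hn α ρ hα hρ hc C hC hCE htr (GaloisField 2 n) (GaloisField 2 (2 * n)) ?_ ?_
  · rw [← Nat.card_eq_fintype_card]
    exact GaloisField.card 2 n hn0
  · rw [← Nat.card_eq_fintype_card, GaloisField.card 2 (2 * n) (by omega), pow_mul]
    norm_num

end Cfsg.Agent.S3161
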