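import Cfsg.Statements.S3178
import Cfsg.Agent.Lib.Transfer.OmegaTwo

set_option autoImplicit false
open Cfsg

namespace Cfsg.Agent.S3178

open Cfsg.Agent.Lib.Transfer.OmegaTwo

/-- Groups with a modular Sylow 2-subgroup have a normal 2-complement. Let S, of order 2^(n+1) with n ≥ 3, be a Sylow 2-subgroup of a finite group G, and suppose S contains an element a of order 2^n and an involution b with b a b⁻¹ = a^(2^(n-1) + 1); so S is the non-abelian 2-group with a cyclic subgroup of index 2 that is neither dihedral, semidihedral nor generalized quaternion. Then G has a normal 2-complement. -/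
theorem result {G : Type*} [Group G] [Finite G]
    (S : Sylow 2 G) (n : ℕ) (hn : 3 ≤ n) (hS : Nat.card ↥(S : Subgroup G) = 2 ^ (n + 1))
    (a b : G) (ha : a ∈ (S : Subgroup G)) (hb : b ∈ (S : Subgroup G))
    (hao : orderOf a = 2 ^ n) (hbo : orderOf b = 2) (hrel : b * a * b⁻¹ = a ^ (2 ^ (n - 1) + 1)) :
    Cfsg.HasNormalPComplement 2 G := by
  classical
  haveI : Fact (Nat.Prime 2) := ⟨Nat.prime_two⟩
  obtain ⟨m, rfl⟩ : ∃ m, n = m + 3 := ⟨n - 3, by omega⟩
  have hrel' : b * a * b⁻¹ = a ^ (2 ^ (m + 2) + 1) := hrel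
  have hb2 : b ^ 2 = 1 := by
    rw [← hbo]
    exact pow_orderOf_eq_one b
  have hbinv : b⁻¹ = b := by
    rw [inv_eq_iff_mul_eq_one, ← pow_two]
    exact hb2
  have ha3 : a ^ 2 ^ (m + 3) = 1 := by
    rw [← hao]
    exact pow_orderOf_eq_one a
  have ha2 : a ^ 2 ^ (m + 2) ≠ 1 := by
    apply pow_ne_one_of_lt_orderOf
    · positivity
    · rw [hao]
      exact Nat.pow_lt_pow_right (by norm_num) (by omega)
  have hbrel : ∀ i : ℕ, b * a ^ i * b⁻¹ = a ^ ((2 ^ (m + 2) + 1) * i) := by
    intro i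
    rw [← conj_pow, hrel', ← pow_mul]
  have hcomm_no : ¬ (b * a = a * b) := by
    intro h
    apply ha2
    have h1 : b * a * b⁻¹ = a := by rw [h]; group
    rw [hrel', pow_succ] at h1
    exact mul_eq_right.mp h1
  set c := a ^ 2 ^ (m + 1) with hc
  have hc4 : c ^ 4 = 1 := by
    rw [hc, ← pow_mul, show 2 ^ (m + 1) * 4 = 2 ^ (m + 3) by ring, ha3]
  have hc2eq : c ^ 2 = a ^ 2 ^ (m + 2) := by
    rw [hc, ← pow_mul, show 2 ^ (m + 1) * 2 = 2 ^ (m + 2) by ring]
  have hbK : b ∉ Subgroup.zpowers a := by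
    rintro ⟨k, rfl⟩
    exact hcomm_no (by
      show a ^ k * a = a * a ^ k
      exact ((Commute.refl a).zpow_left k).eq)
  have hK : Subgroup.zpowers a ≤ (S : Subgroup G) := by
    rw [Subgroup.zpowers_le]
    exact ha
  have hcardK : Nat.card (Subgroup.zpowers a) = 2 ^ (m + 3) := by
    rw [Nat.card_zpowers, hao]
  have hindex : ((Subgroup.zpowers a).subgroupOf (S : Subgroup G)).index = 2 := by
    have h1 := ((Subgroup.zpowers a).subgroupOf (S : Subgroup G)).card_mul_index
    have h2 : Nat.card ((Subgroup.zpowers a).subgroupOf (S : Subgroup G)) = 2 ^ (m + 3) := by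
      rw [Nat.card_congr (Subgroup.subgroupOfEquivOfLe hK).toEquiv, hcardK]
    rw [h2, hS] at h1
    have h3 : 2 ^ (m + 3) * ((Subgroup.zpowers a).subgroupOf (S : Subgroup G)).index
        = 2 ^ (m + 3) * 2 := by
      rw [h1]; ring
    exact Nat.eq_of_mul_eq_mul_left (by positivity) h3
  have hpowdiv : ∀ i : ℕ, a ^ (4 * i) = 1 → ∃ j : ℕ, a ^ i = c ^ j := by
    intro i hi
    have h1 : 2 ^ (m + 3) ∣ 4 * i := by
      rw [← hao]
      exact orderOf_dvd_of_pow_eq_one hi
    have h2 : 4 * 2 ^ (m + 1) ∣ 4 * i := by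
      rwa [show 4 * 2 ^ (m + 1) = 2 ^ (m + 3) by ring]
    obtain ⟨j, rfl⟩ := Nat.dvd_of_mul_dvd_mul_left (by norm_num) h2
    exact ⟨j, by rw [hc, pow_mul]⟩
  refine hasNormalComplement_of_data (c := c) (b := b) S ?_
  refine ⟨Subgroup.pow_mem _ ha _, hb, hc4, ?_, hb2, ?_, ?_, ?_, ?_⟩
  · rw [hc2eq]; exact ha2
  · intro h
    rw [h, orderOf_one] at hbo
    omega
  · intro h
    apply hbK
    rw [h, hc2eq]
    exact Subgroup.pow_mem _ (Subgroup.mem_zpowers a) _
  · -- `c` and `b` commute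
    have h1 : b * c * b⁻¹ = c := by
      rw [hc, hbrel, show (2 ^ (m + 2) + 1) * 2 ^ (m + 1) = 2 ^ (m + 3) * 2 ^ m + 2 ^ (m + 1) by ring,
        pow_add, pow_mul, ha3, one_pow, one_mul]
    calc c * b = (b * c * b⁻¹) * b := by rw [h1]
      _ = b * c := by group
  · intro t ht ht4
    by_cases htK : t ∈ Subgroup.zpowers a
    · obtain ⟨i, rfl⟩ := (mem_powers_iff_mem_zpowers).mpr htK
      obtain ⟨j, hj⟩ := hpowdiv i (by
        show a ^ (4 * i) = 1
        rw [mul_comm, pow_mul]
        exact ht4)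
      exact ⟨j, 0, by
        show a ^ i = c ^ j * b ^ 0
        rw [pow_zero, mul_one, hj]⟩
    · -- `t * b` lies in `⟨a⟩`
      have hmem : (⟨t, ht⟩ * ⟨b, hb⟩ : (S : Subgroup G)) ∈
          (Subgroup.zpowers a).subgroupOf (S : Subgroup G) := by
        rw [Subgroup.mul_mem_iff_of_index_two hindex]
        simp only [Subgroup.mem_subgroupOf]
        exact iff_of_false htK hbK
      rw [Subgroup.mem_subgroupOf] at hmem
      have hmem' : t * b ∈ Subgroup.zpowers a := hmem
      obtain ⟨i, hi⟩ := (mem_powers_iff_mem_zpowers).mpr hmem'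
      have hi' : a ^ i = t * b := hi
      have ht' : t = a ^ i * b := by
        rw [hi', mul_assoc, ← pow_two, hb2, mul_one]
      have hsq : t ^ 2 = a ^ ((2 ^ (m + 2) + 2) * i) := by
        rw [pow_two]
        calc t * t = a ^ i * (b * a ^ i * b⁻¹) * (b * b) := by
              rw [ht']
              group
          _ = a ^ i * a ^ ((2 ^ (m + 2) + 1) * i) := by
              rw [hbrel, ← pow_two, hb2, mul_one]
          _ = a ^ ((2 ^ (m + 2) + 2) * i) := by
              rw [← pow_add]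
              congr 1
              ring
      have hfour : a ^ (4 * i) = 1 := by
        have h1 : t ^ 4 = a ^ (2 ^ (m + 3) * i + 4 * i) := by
          rw [show 4 = 2 * 2 by norm_num, pow_mul, hsq, ← pow_mul]
          congr 1
          ring
        rw [pow_add, pow_mul, ha3, one_pow, one_mul] at h1
        rw [← h1]
        exact ht4
      obtain ⟨j, hj⟩ := hpowdiv i hfour
      exact ⟨j, 1, by rw [pow_one, ← hj]; exact ht'⟩

end Cfsg.Agent.S3178
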