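import Cfsg.Statements.S3179
import Mathlib
import Cfsg.Agent.Lib.Classical.Herm.SU
import Cfsg.Agent.Lib.PSL2.Basic
import Cfsg.Agent.Lib.Suzuki.Order
import Cfsg.Agent.Lib.Suzuki.Iso

set_option autoImplicit false
open Cfsg

namespace Cfsg.Agent.S3179

local notation "G5" => Matrix.GeneralLinearGroup (Fin 5) (ZMod 2)

def aM : Matrix (Fin 5) (Fin 5) (ZMod 2) := !![0,1,0,0,0; 1,1,0,0,0; 0,0,1,0,0; 0,0,0,1,0; 0,0,0,0,1]
def bM : Matrix (Fin 5) (Fin 5) (ZMod 2) := !![1,0,0,0,0; 0,1,0,0,0; 0,0,0,1,0; 0,0,1,1,0; 0,0,0,0,1]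

theorem aM_cube : aM * (aM * aM) = 1 := by decide
theorem aM_cube' : (aM * aM) * aM = 1 := by decide
theorem bM_cube : bM * (bM * bM) = 1 := by decide
theorem bM_cube' : (bM * bM) * bM = 1 := by decide
theorem ab_comm : aM * bM = bM * aM := by decide
theorem ba_ne : bM ≠ aM := by decide
theorem ba_ne2 : bM ≠ aM * aM := by decide

def aG : G5 := ⟨aM, aM * aM, aM_cube, aM_cube'⟩
def bG : G5 := ⟨bM, bM * bM, bM_cube, bM_cube'⟩

theorem aG_pow : aG ^ 3 = 1 := by
  rw [pow_three]
  apply Units.ext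
  exact aM_cube

theorem bG_pow : bG ^ 3 = 1 := by
  rw [pow_three]
  apply Units.ext
  exact bM_cube

theorem aG_ne : aG ≠ 1 := by
  intro h
  have h1 := congrArg Units.val h
  have h2 : aM = 1 := h1
  revert h2
  decide

theorem bG_ne : bG ≠ 1 := by
  intro h
  have h1 := congrArg Units.val h
  have h2 : bM = 1 := h1
  revert h2
  decide

theorem card_G5 : Nat.card G5 = 9999360 := by
  rw [Matrix.card_GL_field]
  simp [ZMod.card, Fin.prod_univ_succ]

theorem isP_zpowers {x : G5} (h1 : x ^ 3 = 1) (h2 : x ≠ 1) : IsPGroup 3 (Subgroup.zpowers x) := by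
  haveI : Fact (Nat.Prime 3) := ⟨by norm_num⟩
  apply IsPGroup.of_card (n := 1)
  rw [Nat.card_zpowers, pow_one]
  exact orderOf_eq_prime h1 h2

theorem no_order_nine (g : G5) (hg : orderOf g = 9) : False := by
  classical
  haveI : Fact (Nat.Prime 3) := ⟨by norm_num⟩
  have hcomm : Commute aG bG := by
    apply Units.ext
    exact ab_comm
  have key : ∀ y ∈ Subgroup.zpowers bG, aG * y * aG⁻¹ = y := by
    rintro _ ⟨k, rfl⟩
    have h3 : Commute aG (bG ^ k) := hcomm.zpow_right k
    simp only [h3.eq, mul_inv_cancel_right]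
  have hA : IsPGroup 3 ↥(Subgroup.zpowers aG ⊔ Subgroup.zpowers bG) := by
    apply (isP_zpowers aG_pow aG_ne).to_sup_of_normal_right' (isP_zpowers bG_pow bG_ne)
    rw [Subgroup.zpowers_le, Subgroup.mem_normalizer_iff]
    intro h
    constructor
    · intro hh
      rw [key h hh]
      exact hh
    · intro hh
      have h1 := key _ hh
      have h2 : aG * h * aG⁻¹ = h := by
        have h3 : aG * (aG * h * aG⁻¹) * aG⁻¹ = aG * h * aG⁻¹ := h1
        have h4 : aG * (aG * h * aG⁻¹) = aG * h := mul_right_cancel h3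
        exact mul_left_cancel h4
      rw [← h2]
      exact hh
  obtain ⟨Q, hQ⟩ := hA.exists_le_sylow
  have hgp : IsPGroup 3 (Subgroup.zpowers g) := by
    apply IsPGroup.of_card (n := 2)
    rw [Nat.card_zpowers, hg]
    norm_num
  obtain ⟨Q₂, hQ₂⟩ := hgp.exists_le_sylow
  have hQ₂card : Nat.card Q₂ = 9 := by
    obtain ⟨k, hk⟩ := IsPGroup.iff_card.mp Q₂.isPGroup'
    have h1 : Nat.card Q₂ ∣ 9999360 := by
      rw [← card_G5]
      exact Subgroup.card_subgroup_dvd_card _
    have h2 : 9 ∣ Nat.card Q₂ := by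
      have := Subgroup.card_dvd_of_le hQ₂
      rwa [Nat.card_zpowers, hg] at this
    rw [hk] at h1 h2
    have hk2 : 2 ≤ k := by
      have h3 : (3 : ℕ) ^ 2 ∣ 3 ^ k := by norm_num; exact h2
      exact (Nat.pow_dvd_pow_iff_le_right (by norm_num)).mp h3
    have hk3 : k < 3 := by
      by_contra hcon
      have h3 : (3 : ℕ) ^ 3 ∣ 9999360 := (pow_dvd_pow 3 (by omega)).trans h1
      revert h3
      decide
    have : k = 2 := by omega
    rw [hk, this]
    norm_num
  have hQ₂eq : (Q₂ : Subgroup G5) = Subgroup.zpowers g := by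
    symm
    apply Subgroup.eq_of_le_of_card_ge hQ₂
    rw [hQ₂card, Nat.card_zpowers, hg]
  obtain ⟨c, hc⟩ := MulAction.exists_smul_eq G5 Q Q₂
  have hconj : ∀ y ∈ (Q : Subgroup G5), c * y * c⁻¹ ∈ Subgroup.zpowers g := by
    intro y hy
    rw [← hQ₂eq, ← hc]
    rw [Sylow.coe_subgroup_smul]
    exact Subgroup.smul_mem_pointwise_smul y (MulAut.conj c) _ hy
  have hform : ∀ y ∈ (Q : Subgroup G5), y ^ 3 = 1 → y ≠ 1 →
      c * y * c⁻¹ = g ^ 3 ∨ c * y * c⁻¹ = g ^ 6 := by
    intro y hy hy3 hy1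
    obtain ⟨k, hk⟩ := mem_powers_iff_mem_zpowers.mpr (hconj y hy)
    have hk' : g ^ (k % 9) = c * y * c⁻¹ := by
      rw [← hk, ← hg, pow_mod_orderOf]
    have hlt : k % 9 < 9 := Nat.mod_lt _ (by norm_num)
    have h3 : (c * y * c⁻¹) ^ 3 = 1 := by
      have : (c * y * c⁻¹) = MulAut.conj c y := rfl
      rw [this, ← map_pow, hy3, map_one]
    have h1 : c * y * c⁻¹ ≠ 1 := by
      intro h0
      apply hy1
      have : (c * y * c⁻¹) = MulAut.conj c y := rfl
      rw [this] at h0
      exact (MulAut.conj c).injective (by rw [h0, map_one])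
    rw [← hk'] at h3 h1 ⊢
    rw [← pow_mul] at h3
    have h9 : 9 ∣ k % 9 * 3 := by
      have := orderOf_dvd_of_pow_eq_one h3
      rwa [hg] at this
    generalize k % 9 = t at *
    interval_cases t
    · exact absurd (pow_zero g) h1
    · omega
    · omega
    · exact Or.inl rfl
    · omega
    · omega
    · exact Or.inr rfl
    · omega
    · omega
  have haQ : aG ∈ (Q : Subgroup G5) := hQ (Subgroup.mem_sup_left (Subgroup.mem_zpowers _))
  have hbQ : bG ∈ (Q : Subgroup G5) := hQ (Subgroup.mem_sup_right (Subgroup.mem_zpowers _))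
  have hinj : ∀ x y : G5, c * x * c⁻¹ = c * y * c⁻¹ → x = y := by
    intro x y h
    exact (MulAut.conj c).injective h
  have hg12 : g ^ 12 = g ^ 3 := by
    have h9 : g ^ 9 = 1 := by rw [← hg]; exact pow_orderOf_eq_one g
    rw [show 12 = 9 + 3 from rfl, pow_add, h9, one_mul]
  have hne1 : bG ≠ aG := by
    intro h
    have := congrArg Units.val h
    exact ba_ne this
  have hne2 : bG ≠ aG * aG := by
    intro h
    have := congrArg Units.val h
    exact ba_ne2 this
  have hsq : c * (aG * aG) * c⁻¹ = (c * aG * c⁻¹) * (c * aG * c⁻¹) := by group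
  rcases hform aG haQ aG_pow aG_ne with ha | ha <;> rcases hform bG hbQ bG_pow bG_ne with hb | hb
  · exact hne1 (hinj _ _ (by rw [hb, ha]))
  · apply hne2
    apply hinj
    rw [hb, hsq, ha, ← pow_add]
  · apply hne2
    apply hinj
    rw [hb, hsq, ha, ← pow_add, hg12]
  · exact hne1 (hinj _ _ (by rw [hb, ha]))

/-- An element of order nine in `PSL₂` of the field with eight elements. -/
theorem exists_order_nine {F : Type} [Field F] [Fintype F] (hF : Fintype.card F = 8) :
    ∃ x : Matrix.ProjectiveSpecialLinearGroup (Fin 2) F, orderOf x = 9 := by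
  classical
  have h2 : (2 : F) = 0 := by
    have h0 := FiniteField.cast_card_eq_zero F
    rw [hF] at h0
    have h8 : ((8 : ℕ) : F) = 2 ^ 3 := by norm_num
    rw [h8] at h0
    exact pow_eq_zero_iff (by norm_num) |>.mp h0
  obtain ⟨a, ha⟩ : ∃ a : F, a ^ 3 = a + 1 := by
    obtain ⟨x, hx0, hx1⟩ : ∃ x : F, x ≠ 0 ∧ x ≠ 1 := by
      by_contra hcon
      push Not at hcon
      have : (Finset.univ : Finset F) ⊆ {0, 1} := by
        intro y _
        by_cases hy : y = 0
        · simp [hy]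
        · simp [hcon y hy]
      have h3 := Finset.card_le_card this
      rw [Finset.card_univ, hF] at h3
      have h4 : ({0, 1} : Finset F).card ≤ 2 := Finset.card_le_two
      omega
    have h7 : x ^ 7 = 1 := by
      have := FiniteField.pow_card_sub_one_eq_one x hx0
      rwa [hF] at this
    have h1 : (x + 1) * ((x ^ 3 + x + 1) * (x ^ 3 + x ^ 2 + 1)) = 0 := by
      linear_combination h7 + h2 * (x ^ 6 + x ^ 5 + 2 * x ^ 4 + 2 * x ^ 3 + x ^ 2 + x + 1)
    rcases mul_eq_zero.mp h1 with h3 | h3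
    · exfalso
      apply hx1
      linear_combination h3 - h2
    · rcases mul_eq_zero.mp h3 with h4 | h4
      · exact ⟨x, by linear_combination h4 - h2 * (x + 1)⟩
      · exact ⟨x + 1, by linear_combination h4 + h2 * (x ^ 2 + x - 1)⟩
  have hm1 : (-1 : F) = 1 := by linear_combination -h2
  let M : Matrix.SpecialLinearGroup (Fin 2) F := ⟨!![0, 1; 1, a], by
    rw [Matrix.det_fin_two_of]
    linear_combination -h2⟩
  have hMv : (M : Matrix (Fin 2) (Fin 2) F) = !![0, 1; 1, a] := rfl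
  let x : Matrix.ProjectiveSpecialLinearGroup (Fin 2) F := QuotientGroup.mk M
  refine ⟨x, ?_⟩
  have hcoe : ∀ k : ℕ, x ^ k = QuotientGroup.mk (M ^ k) := fun k => rfl
  have hM3 : ((M ^ 3 : Matrix.SpecialLinearGroup (Fin 2) F) : Matrix (Fin 2) (Fin 2) F) =
      !![a, 1 + a ^ 2; 1 + a ^ 2, a + 1] := by
    rw [Matrix.SpecialLinearGroup.coe_pow, hMv]
    ext i j
    fin_cases i <;> fin_cases j <;> simp [pow_succ, Matrix.mul_apply, Fin.sum_univ_two]
    all_goals first | ring1 | linear_combination h2 * a + ha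
  have hM9 : M ^ 9 = 1 := by
    have h3 : M ^ 9 = (M ^ 3) ^ 3 := by rw [← pow_mul]
    apply Subtype.ext
    rw [h3, Matrix.SpecialLinearGroup.coe_pow, hM3]
    have ha4 : a ^ 4 = a ^ 2 + a := by linear_combination a * ha
    ext i j
    fin_cases i <;> fin_cases j <;> simp [pow_succ, Matrix.mul_apply, Fin.sum_univ_two]
    · linear_combination ((3) * a ^ 2 + (1) * a ^ 1 + (10) * a ^ 0) * ha + ((3) * a ^ 2 + (7) * a ^ 1 + (5) * a ^ 0) * h2
    · linear_combination ((1) * a ^ 3 + (7) * a ^ 1 + (4) * a ^ 0) * ha + ((7) * a ^ 2 + (7) * a ^ 1 + (3) * a ^ 0) * h2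
    · linear_combination ((1) * a ^ 3 + (7) * a ^ 1 + (4) * a ^ 0) * ha + ((7) * a ^ 2 + (7) * a ^ 1 + (3) * a ^ 0) * h2
    · linear_combination ((3) * a ^ 2 + (2) * a ^ 1 + (10) * a ^ 0) * ha + ((6) * a ^ 2 + (9) * a ^ 1 + (6) * a ^ 0) * h2
  have hM3ne : M ^ 3 ≠ 1 := by
    intro h0
    have h1 := congrArg (fun s : Matrix.SpecialLinearGroup (Fin 2) F => (s : Matrix (Fin 2) (Fin 2) F) 0 0) h0
    simp only [hM3] at h1
    simp at h1
    rw [h1] at ha
    have h3 : (1 : F) = 0 := by linear_combination h2 + ha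
    exact one_ne_zero h3
  haveI : Fact (Nat.Prime 3) := ⟨by norm_num⟩
  have hZ : Subgroup.center (Matrix.SpecialLinearGroup (Fin 2) F) = ⊥ := by
    rw [← Subgroup.card_eq_one] 
    exact Cfsg.Agent.Lib.PSL2.Basic.card_center_of_two_eq_zero h2
  have := orderOf_eq_prime_pow (x := x) (p := 3) (n := 1) (by
    rw [pow_one, hcoe]
    intro h0
    have h1 : M ^ 3 ∈ Subgroup.center (Matrix.SpecialLinearGroup (Fin 2) F) := (QuotientGroup.eq_one_iff _).mp h0
    rw [hZ, Subgroup.mem_bot] at h1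
    exact hM3ne h1) (by
    rw [show 3 ^ (1 + 1) = 9 from rfl, hcoe, hM9]
    rfl)
  rw [this]
  rfl

/-- Let X be a section of the general linear group GL(5, 2), that is, a quotient of a subgroup of it. If X is isomorphic to PSL(2, 2^n) for some n ≥ 2, to a Suzuki group over the field with 2^(2m+1) elements for some m ≥ 1, or to PSU(3, 2^n) for some n ≥ 2, then X is isomorphic to PSL(2, 4). -/
theorem result {H : Subgroup (GL (Fin 5) (ZMod 2))}
    {K : Subgroup ↥H} [K.Normal]
    (hX : (∃ (n : ℕ) (F : Type) (_ : Field F) (_ : Fintype F), 2 ≤ n ∧ Fintype.card F = 2 ^ n ∧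
        Nonempty (↥H ⧸ K ≃* Matrix.ProjectiveSpecialLinearGroup (Fin 2) F)) ∨
      (∃ (m : ℕ) (F : Type) (_ : Field F) (_ : Fintype F), 1 ≤ m ∧ Fintype.card F = 2 ^ (2 * m + 1) ∧
        Nonempty (↥H ⧸ K ≃* ↥(Cfsg.Lie.Sz F (2 ^ (m + 1))))) ∨
      (∃ (n : ℕ) (F : Type) (_ : Field F) (_ : Fintype F), 2 ≤ n ∧ Fintype.card F = 4 ^ n ∧
        Nonempty (↥H ⧸ K ≃* Cfsg.PSU 3 F (2 ^ n)))) :
    ∃ (F : Type) (_ : Field F) (_ : Fintype F), Fintype.card F = 4 ∧
      Nonempty (↥H ⧸ K ≃* Matrix.ProjectiveSpecialLinearGroup (Fin 2) F) := by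
  classical
  have hcard : Nat.card (↥H ⧸ K) ∣ 9999360 := by
    rw [← card_G5]
    exact (Subgroup.card_quotient_dvd_card K).trans (Subgroup.card_subgroup_dvd_card H)
  have hcop : ∀ {k N : ℕ}, Odd N → 2 ^ k ∣ 2 ^ 10 * N → k ≤ 10 := by
    intro k N hN h
    have h1 : Nat.Coprime (2 ^ k) N := Nat.Coprime.pow_left _ (Nat.coprime_two_left.mpr hN)
    have h2 := h1.dvd_of_dvd_mul_right h
    exact (Nat.pow_dvd_pow_iff_le_right (by norm_num)).mp h2
  rcases hX with ⟨n, F, _, _, hn, hF, ⟨e⟩⟩ | ⟨m, F, _, _, hm, hF, ⟨e⟩⟩ | ⟨n, F, _, _, hn, hF, ⟨e⟩⟩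
  · have h2 : (2 : F) = 0 := by
      have h0 := FiniteField.cast_card_eq_zero F
      rw [hF] at h0
      push_cast at h0
      exact pow_eq_zero_iff (by omega) |>.mp h0
    have hc : Nat.card (↥H ⧸ K) = 2 ^ n * ((2 ^ n) ^ 2 - 1) := by
      rw [Nat.card_congr e.toEquiv, Cfsg.Agent.Lib.PSL2.Basic.card_PSL2_of_two_eq_zero h2, hF]
    rw [hc] at hcard
    have hn10 : n ≤ 10 := by
      apply hcop (N := 9765) (by decide)
      exact (dvd_mul_right _ _).trans hcard
    interval_cases n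
    · exact ⟨F, inferInstance, inferInstance, hF, ⟨e⟩⟩
    · exfalso
      obtain ⟨x, hx⟩ := exists_order_nine hF
      have hy : orderOf (e.symm x) = 9 := by rw [MulEquiv.orderOf_eq, hx]
      obtain ⟨z, hz⟩ := QuotientGroup.mk_surjective (e.symm x)
      have h9 : 9 ∣ orderOf z := by
        rw [← hy, ← hz]
        exact orderOf_map_dvd (QuotientGroup.mk' K) z
      have hz' : orderOf (z : G5) = orderOf z := Subgroup.orderOf_coe z
      have h0 : orderOf z ≠ 0 := by
        apply (orderOf_pos z).ne'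
      obtain ⟨t, ht⟩ := h9
      apply no_order_nine ((z : G5) ^ t)
      have ht0 : t ≠ 0 := by
        rintro rfl
        rw [mul_zero] at ht
        exact h0 ht
      rw [orderOf_pow_of_dvd ht0 (by rw [hz', ht]; exact dvd_mul_left _ _), hz', ht]
      exact Nat.mul_div_cancel _ (Nat.pos_of_ne_zero ht0)
    all_goals exfalso; revert hcard; norm_num
  · have hh : Cfsg.Agent.Lib.Suzuki.Basic.Hyp F m := ⟨hm, hF⟩
    have hc : Nat.card (↥H ⧸ K) = (2 ^ (2 * m + 1)) ^ 2 * ((2 ^ (2 * m + 1)) ^ 2 + 1) * (2 ^ (2 * m + 1) - 1) := by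
      rw [Nat.card_congr e.toEquiv, ← Nat.card_congr (Cfsg.Agent.Lib.Suzuki.Iso.suzEquiv hh).toEquiv,
        Cfsg.Agent.Lib.Suzuki.Order.card_G hh, hF]
    rw [hc] at hcard
    have hm10 : 4 * m + 2 ≤ 10 := by
      apply hcop (N := 9765) (by decide)
      have h1 : (2 ^ (2 * m + 1)) ^ 2 = 2 ^ (4 * m + 2) := by
        rw [← pow_mul]
        congr 1
        ring
      rw [← h1]
      exact (Dvd.intro _ (by rw [mul_assoc])).trans hcard
    have hm2 : m ≤ 2 := by omega
    interval_cases m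
    all_goals exfalso; revert hcard; norm_num
  · have hF' : Fintype.card F = (2 ^ n) ^ 2 := by
      rw [hF, ← pow_mul, mul_comm, pow_mul]
      norm_num
    have h1 := Cfsg.Agent.Lib.Classical.Herm.SU.card_PSU hF' (n := 3) (by norm_num)
    rw [← Nat.card_congr e.toEquiv] at h1
    have e0 : Even 0 := by decide
    have e1 : ¬ Even 1 := by decide
    have e2 : Even 2 := by decide
    simp only [Finset.prod_range_succ, Finset.prod_range_zero, one_mul, e0, e1, e2, if_true, if_false, zero_add,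
      pow_one, Nat.reduceSub, Nat.reduceMul, Nat.reduceDiv, Nat.reduceAdd] at h1
    set c := Nat.card (↥H ⧸ K) with hc
    set q := 2 ^ n with hq
    have hqpos : 0 < q + 1 := Nat.succ_pos _
    have h3 : Nat.gcd 3 (q + 1) * c = q ^ 3 * ((q ^ 2 - 1) * (q ^ 3 + 1)) := by
      apply Nat.eq_of_mul_eq_mul_left hqpos
      calc (q + 1) * (Nat.gcd 3 (q + 1) * c) = Nat.gcd 3 (q + 1) * ((q + 1) * c) := by ring
        _ = _ := by rw [h1]; ring
    have h4 : q ^ 3 ∣ 3 * c := by
      have h5 : Nat.gcd 3 (q + 1) ∣ 3 := Nat.gcd_dvd_left _ _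
      exact (Dvd.intro _ h3.symm).trans (Nat.mul_dvd_mul_right h5 c)
    have hn3 : n * 3 ≤ 10 := by
      apply hcop (N := 29295) (by decide)
      rw [pow_mul, ← hq]
      exact h4.trans (by
        have := Nat.mul_dvd_mul_left 3 hcard
        simpa using this)
    have hn4 : n ≤ 3 := by omega
    interval_cases n
    · exfalso
      have hq4 : q = 4 := by rw [hq]; norm_num
      rw [hq4] at h3
      have h5 : c = 62400 := by
        norm_num at h3
        omega
      rw [h5] at hcard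
      revert hcard
      norm_num
    · exfalso
      have hq4 : q = 8 := by rw [hq]; norm_num
      rw [hq4] at h3
      have h5 : c = 5515776 := by
        norm_num at h3
        omega
      rw [h5] at hcard
      revert hcard
      norm_num

end Cfsg.Agent.S3179
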