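import Cfsg.Statements.S3184
import Cfsg.Agent.S3183
import Cfsg.Agent.Lib.Components.ZStarCore
import Cfsg.Agent.Lib.Components.ZStarApps

set_option autoImplicit false
open Cfsg

namespace Cfsg.Agent.S3184

open Subgroup Cfsg.Agent.Lib.Components.ZStarApps

/-- A unique involution in a cyclic group. -/
theorem cyclic_uniq {C : Type*} [Group C] [Finite C] [IsCyclic C] (x y : C)
    (hx : orderOf x = 2) (hy : orderOf y = 2) : x = y := by
  classical
  cases nonempty_fintype C
  have h2 : 2 ∣ Fintype.card C := by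
    rw [← hx, ← Nat.card_eq_fintype_card]
    exact orderOf_dvd_natCard x
  have hc := IsCyclic.card_orderOf_eq_totient h2
  have h1 : (Finset.univ.filter fun a : C => orderOf a = 2).card = 1 := by
    rw [hc]; rfl
  exact Finset.card_le_one.mp h1.le x (by simp [hx]) y (by simp [hy])

/-- Let G be a finite group in which the intersection of any two distinct Sylow 2-subgroups is contained in the centre of some Sylow 2-subgroup, and let S be a Sylow 2-subgroup. If C is a nontrivial cyclic characteristic subgroup of S, then the involution of C is central modulo the largest normal subgroup of odd order of G: each of its conjugates has the same image in G/O(G). -/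
theorem result {G : Type*} [Group G] [Finite G]
    (hCI : ∀ S T : Sylow 2 G, S ≠ T → ∃ U : Sylow 2 G,
      (S : Subgroup G) ⊓ (T : Subgroup G) ≤ (Subgroup.center ↥(U : Subgroup G)).map (U : Subgroup G).subtype)
    (S : Sylow 2 G) (C : Subgroup ↥(S : Subgroup G)) (hC : C ≠ ⊥) (hCc : IsCyclic ↥C) (hCh : C.Characteristic)
    (c : ↥(S : Subgroup G)) (hc : c ∈ C) (hc2 : orderOf c = 2) :
    ∀ g : G, (QuotientGroup.mk (s := Cfsg.oddCore G) (g * (c : G) * g⁻¹)) =
      QuotientGroup.mk (s := Cfsg.oddCore G) (c : G) := by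
  classical
  have hc2G : orderOf (c : G) = 2 := (Subgroup.orderOf_coe c).trans hc2
  have hcc : orderOf (⟨c, hc⟩ : C) = 2 := (Subgroup.orderOf_coe (⟨c, hc⟩ : C)).symm.trans hc2
  -- automorphisms fix `c`
  have hfix : ∀ b : MulAut ↥(S : Subgroup G), b c = c := by
    intro b
    have hm : b c ∈ C := by
      have h1 := hCh.fixed b
      have h2 : c ∈ C.comap b.toMonoidHom := by rw [h1]; exact hc
      exact h2
    have ho : orderOf (⟨b c, hm⟩ : C) = 2 := by
      refine (Subgroup.orderOf_coe (⟨b c, hm⟩ : C)).symm.trans ?_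
      change orderOf (b c) = 2
      rw [MulEquiv.orderOf_eq]
      exact hc2
    have := cyclic_uniq _ _ ho hcc
    exact congrArg Subtype.val this
  have hcen : ∀ s ∈ S, s * (c : G) = c * s := by
    intro s hs
    have h1 := hfix (MulAut.conj (⟨s, hs⟩ : ↥(S : Subgroup G)))
    have h2 : s * (c : G) * s⁻¹ = c := congrArg Subtype.val h1
    calc s * (c : G) = s * c * s⁻¹ * s := by group
      _ = c * s := by rw [h2]
  have hiso : ∀ g : G, g * (c : G) * g⁻¹ ∈ S → g * (c : G) * g⁻¹ = c := by
    intro g hg
    have hnorm : ∀ n ∈ normalizer ((S : Subgroup G) : Set G), n * (c : G) * n⁻¹ = c := by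
      intro n hn
      have := hfix (normalizerMonoidHom (S : Subgroup G) ⟨n, hn⟩)
      exact congrArg Subtype.val this
    by_cases hT : g • S = S
    · exact hnorm g (Sylow.smul_eq_iff_mem_normalizer.mp hT)
    · have hmem : g * (c : G) * g⁻¹ ∈ ((g • S : Sylow 2 G) : Subgroup G) := by
        rw [Sylow.coe_subgroup_smul]
        exact Subgroup.mem_smul_pointwise_iff_exists _ _ _ |>.mpr
          ⟨c, c.2, by simp [MulAut.smul_def]⟩
      have h3 := (Cfsg.Agent.S3183.result hCI S).2 (g • S) hT (Subgroup.mem_inf.mpr ⟨hg, hmem⟩)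
      obtain ⟨⟨y, hy, hy'⟩, -⟩ := Subgroup.mem_inf.mp h3
      have hcg : ∀ s ∈ S, s * (g * (c : G) * g⁻¹) = (g * (c : G) * g⁻¹) * s := by
        intro s hs
        have := (mem_center_iff.mp hy) ⟨s, hs⟩
        have h4 := congrArg Subtype.val this
        simp only [Subgroup.coe_mul] at h4
        have hy'' : (y : G) = g * (c : G) * g⁻¹ := hy'
        rw [hy''] at h4
        exact h4
      obtain ⟨n, hn, hn2⟩ := central_conj_in_normalizer S (c : G) hcen g hcg
      rw [← hn2]
      exact hnorm n hn
  intro g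
  have hz := Cfsg.Agent.Lib.Components.ZStarCore.zstar S (c : G) hc2G c.2 hiso g
  rw [QuotientGroup.eq]
  have hinv : (c : G)⁻¹ = c := by
    have h := pow_orderOf_eq_one (c : G)
    rw [hc2G] at h
    apply inv_eq_of_mul_eq_one_left
    rw [← sq]
    exact h
  have : (g * (c : G) * g⁻¹)⁻¹ * c = ((c : G) * g * (c : G)⁻¹ * g⁻¹)⁻¹ := by
    simp only [mul_inv_rev, inv_inv, hinv]
    group
  rw [this]
  exact inv_mem hz

end Cfsg.Agent.S3184
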