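import Cfsg.Statements.S3190
import Mathlib
import Cfsg.Agent.Lib.Basic.Conj
import Cfsg.Agent.Lib.PGroup.Basic
-- import your own Cfsg.Agent.* helpers here

set_option autoImplicit false
open Cfsg

namespace Cfsg.Agent.S3190

open Cfsg.Agent.Lib.Basic.Conj
open scoped Pointwise

/-- Let p be an odd prime and, inside a finite group, let P be a p-subgroup normalized by a Klein four-group T. Let R be a subgroup of P, normal in P and normalized by T, such that P is the product of R with the centralizer of T in P. If T centralizes the centre of P, then T centralizes the centre of R. -/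
theorem result {X : Type*} [Group X] [Finite X]
    {p : ℕ} (hp : p.Prime) (hodd : Odd p) (P T R : Subgroup X) (hP : IsPGroup p ↥P) (hT : IsKleinFour ↥T)
    (hTP : T ≤ Subgroup.normalizer (P : Set X)) (hRP : R ≤ P) (hRn : (R.subgroupOf P).Normal)
    (hTR : T ≤ Subgroup.normalizer (R : Set X)) (hfac : R ⊔ (P ⊓ Subgroup.centralizer (T : Set X)) = P)
    (hZ : T ≤ Subgroup.centralizer (((Subgroup.center ↥P).map P.subtype : Subgroup X) : Set X)) :
    T ≤ Subgroup.centralizer (((Subgroup.center ↥R).map R.subtype : Subgroup X) : Set X) := by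
  classical
  have : Fact p.Prime := ⟨hp⟩
  intro t ht
  rw [Subgroup.mem_centralizer_iff]
  have htt : t * t = 1 := by
    have h1 := Monoid.pow_exponent_eq_one (⟨t, ht⟩ : T)
    rw [IsKleinFour.exponent_two, pow_two] at h1
    exact congrArg Subtype.val h1
  have htinv : t⁻¹ = t := inv_eq_of_mul_eq_one_left htt
  have htN : t ∈ Subgroup.normalizer (R : Set X) := hTR ht
  -- description of Z(R)
  have hZR : ∀ z : X, z ∈ (Subgroup.center ↥R).map R.subtype ↔ z ∈ R ∧ ∀ r ∈ R, z * r = r * z := by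
    intro z
    constructor
    · rintro ⟨w, hw, rfl⟩
      refine ⟨w.2, fun r hr => ?_⟩
      have := Subgroup.mem_center_iff.mp hw ⟨r, hr⟩
      exact (congrArg Subtype.val this).symm
    · rintro ⟨hzR, hz⟩
      refine ⟨⟨z, hzR⟩, ?_, rfl⟩
      show (⟨z, hzR⟩ : ↥R) ∈ Subgroup.center ↥R
      rw [Subgroup.mem_center_iff]
      rintro ⟨r, hr⟩
      exact Subtype.ext (hz r hr).symm
  set ZR : Subgroup X := (Subgroup.center ↥R).map R.subtype with hZRdef
  have hZRconj : ∀ g ∈ Subgroup.normalizer (R : Set X), ∀ z ∈ ZR, g * z * g⁻¹ ∈ ZR := by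
    intro g hg z hz
    obtain ⟨hzR, hzc⟩ := (hZR z).mp hz
    rw [hZR]
    refine ⟨(Subgroup.mem_normalizer_iff.mp hg z).mp hzR, fun r hr => ?_⟩
    have hr' : g⁻¹ * r * g ∈ R := by
      have := (Subgroup.mem_normalizer_iff.mp hg (g⁻¹ * r * g)).mpr (by
        have h2 : g * (g⁻¹ * r * g) * g⁻¹ = r := by group
        rw [h2]
        exact hr)
      exact this
    have h3 := hzc _ hr'
    calc g * z * g⁻¹ * r = g * (z * (g⁻¹ * r * g)) * g⁻¹ := by group
      _ = g * ((g⁻¹ * r * g) * z) * g⁻¹ := by rw [h3]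
      _ = r * (g * z * g⁻¹) := by group
  have hZRcomm : ∀ a ∈ ZR, ∀ b ∈ ZR, a * b = b * a := by
    intro a ha b hb
    exact ((hZR a).mp ha).2 b ((hZR b).mp hb).1
  -- Y
  let Y : Subgroup X :=
    { carrier := {z | z ∈ ZR ∧ t * z * t⁻¹ = z⁻¹}
      mul_mem' := by
        rintro a b ⟨ha, hta⟩ ⟨hb, htb⟩
        refine ⟨ZR.mul_mem ha hb, ?_⟩
        calc t * (a * b) * t⁻¹ = (t * a * t⁻¹) * (t * b * t⁻¹) := by group
          _ = a⁻¹ * b⁻¹ := by rw [hta, htb]
          _ = (b * a)⁻¹ := by group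
          _ = (a * b)⁻¹ := by rw [hZRcomm a ha b hb]
      one_mem' := ⟨ZR.one_mem, by group⟩
      inv_mem' := by
        rintro a ⟨ha, hta⟩
        refine ⟨ZR.inv_mem ha, ?_⟩
        calc t * a⁻¹ * t⁻¹ = (t * a * t⁻¹)⁻¹ := by group
          _ = a⁻¹⁻¹ := by rw [hta] }
  have hYmem : ∀ z, z ∈ Y ↔ z ∈ ZR ∧ t * z * t⁻¹ = z⁻¹ := fun z => Iff.rfl
  have hYP : Y ≤ P := fun z hz => hRP ((hZR z).mp hz.1).1
  have hYbot : Y = ⊥ := by
    by_contra hY
    -- normalized by P
    have hPN : P ≤ Subgroup.normalizer (Y : Set X) := by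
      rw [← hfac]
      apply sup_le
      · intro r hr
        apply mem_normalizer_of_conj_smul_le
        rintro _ ⟨z, hz, rfl⟩
        have h1 := ((hZR z).mp hz.1).2 r hr
        have h2 : MulAut.conj r • z = z := by
          show r * z * r⁻¹ = z
          rw [← h1]
          group
        show MulAut.conj r • z ∈ Y
        rw [h2]
        exact hz
      · rintro c ⟨hcP, hcT⟩
        have hcR : c ∈ Subgroup.normalizer (R : Set X) := by
          rw [Subgroup.mem_normalizer_iff]
          intro r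
          have hnorm := hRn.conj_mem
          constructor
          · intro hr
            have := hnorm ⟨r, hRP hr⟩ hr ⟨c, hcP⟩
            exact this
          · intro hr
            have hrP : r ∈ P := by
              have h1 : c * r * c⁻¹ ∈ P := hRP hr
              have h2 : r = c⁻¹ * (c * r * c⁻¹) * c := by group
              rw [h2]
              exact P.mul_mem (P.mul_mem (P.inv_mem hcP) h1) hcP
            have := hnorm ⟨c * r * c⁻¹, hRP hr⟩ hr ⟨c⁻¹, P.inv_mem hcP⟩
            have h3 : c⁻¹ * (c * r * c⁻¹) * c⁻¹⁻¹ ∈ R := this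
            have h4 : c⁻¹ * (c * r * c⁻¹) * c⁻¹⁻¹ = r := by group
            rwa [h4] at h3
        have hct : t * c = c * t := Subgroup.mem_centralizer_iff.mp hcT t ht
        apply mem_normalizer_of_conj_smul_le
        rintro _ ⟨z, hz, rfl⟩
        show c * z * c⁻¹ ∈ Y
        refine ⟨hZRconj c hcR z hz.1, ?_⟩
        have hct' : t⁻¹ * c = c * t⁻¹ := by rw [htinv]; exact hct
        have hcinvt : c⁻¹ * t⁻¹ = t⁻¹ * c⁻¹ := by
          rw [← mul_inv_rev, ← mul_inv_rev, hct]
        calc t * (c * z * c⁻¹) * t⁻¹ = (t * c) * z * (c⁻¹ * t⁻¹) := by group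
          _ = (c * t) * z * (t⁻¹ * c⁻¹) := by rw [hct, hcinvt]
          _ = c * (t * z * t⁻¹) * c⁻¹ := by group
          _ = c * z⁻¹ * c⁻¹ := by rw [hz.2]
          _ = (c * z * c⁻¹)⁻¹ := by group
    have hN : (Y.subgroupOf P).Normal := by
      constructor
      intro n hn g
      have h1 := hPN g.2
      have := (Subgroup.mem_normalizer_iff.mp h1 (n : X)).mp hn
      exact this
    have hNne : Y.subgroupOf P ≠ ⊥ := by
      intro h
      apply hY
      rw [eq_bot_iff]
      intro z hz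
      have : (⟨z, hYP hz⟩ : P) ∈ Y.subgroupOf P := hz
      rw [h] at this
      have h2 : (⟨z, hYP hz⟩ : P) = 1 := this
      exact congrArg Subtype.val h2
    have := Cfsg.Agent.Lib.PGroup.Basic.inf_center_ne_bot hP hNne
    obtain ⟨⟨z, hzY, hzC⟩, hz1⟩ := (Subgroup.ne_bot_iff_exists_ne_one).mp this
    have hzY' : (z : X) ∈ Y := hzY
    have hzZ : (z : X) ∈ (Subgroup.center ↥P).map P.subtype := ⟨z, hzC, rfl⟩
    have hcomm : (z : X) * t = t * z := Subgroup.mem_centralizer_iff.mp (hZ ht) z hzZ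
    have h1 : t * (z : X) * t⁻¹ = z := by
      rw [← hcomm]
      group
    have h2 : (z : X)⁻¹ = z := by
      rw [← hzY'.2, h1]
    have h3 : (z : X) * z = 1 := by
      nth_rewrite 1 [← h2]
      group
    obtain ⟨k, hk⟩ := hP z
    have hk' : (z : X) ^ (p ^ k) = 1 := congrArg Subtype.val hk
    have hcop : Nat.gcd 2 (p ^ k) = 1 := by
      apply Nat.Coprime.pow_right
      exact (Nat.coprime_two_left).mpr hodd
    have h4 : (z : X) ^ 2 = 1 := by rw [pow_two]; exact h3
    have h5 := pow_gcd_eq_one.mpr ⟨h4, hk'⟩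
    rw [hcop, pow_one] at h5
    apply hz1
    exact Subtype.ext (Subtype.ext h5)
  intro y hy
  let w := y * (t * y * t⁻¹)⁻¹
  have hw : w ∈ ZR := ZR.mul_mem hy (ZR.inv_mem (hZRconj t htN y hy))
  have htw : t * w * t⁻¹ = w⁻¹ := by
    have h1 : t * (t * y * t⁻¹) * t⁻¹ = y := by
      calc t * (t * y * t⁻¹) * t⁻¹ = (t * t) * y * (t * t)⁻¹ := by group
        _ = y := by rw [htt]; group
    calc t * w * t⁻¹ = (t * y * t⁻¹) * (t * (t * y * t⁻¹) * t⁻¹)⁻¹ := by
          show t * (y * (t * y * t⁻¹)⁻¹) * t⁻¹ = _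
          group
      _ = (t * y * t⁻¹) * y⁻¹ := by rw [h1]
      _ = w⁻¹ := by
          show _ = (y * (t * y * t⁻¹)⁻¹)⁻¹
          group
  have hwY : w ∈ Y := ⟨hw, htw⟩
  rw [hYbot] at hwY
  have hw1 : y * (t * y * t⁻¹)⁻¹ = 1 := hwY
  have h2 : y = t * y * t⁻¹ := eq_of_mul_inv_eq_one hw1
  calc y * t = t * y * t⁻¹ * t := by rw [← h2]
    _ = t * y := by group

end Cfsg.Agent.S3190
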