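import Cfsg.Statements.S3195
import Cfsg.Agent.Lib.Basic.Sidki

set_option autoImplicit false
open Cfsg

namespace Cfsg.Agent.S3195

open Cfsg.Agent.Lib.Basic.Sidki

/-- Let A be a Klein four-subgroup of a finite group G. If every G-conjugate of every involution of A commutes with some involution of A (its centralizer meets A nontrivially), then A meets the largest normal 2-subgroup O₂(G) nontrivially. -/
theorem result {G : Type*} [Group G] [Finite G]
    (A : Subgroup G) (hA : IsKleinFour ↥A)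
    (h : ∀ a ∈ A, a ≠ 1 → ∀ g : G, A ⊓ Subgroup.centralizer ({g * a * g⁻¹} : Set G) ≠ ⊥) :
    A ⊓ Cfsg.pCore 2 G ≠ ⊥ := by
  apply klein_meets_pCore hA
  intro x v hv hodd hinv
  by_cases hv1 : v = 1
  · -- `x` equals its inverse
    subst hv1
    have hx : x = 1 := eq_one_of_comm_inv hodd hinv (by group)
    obtain ⟨u, hu, hu1, -⟩ := klein_exists_ne hA 1
    exact ⟨u, hu, hu1, by rw [hx]; group⟩
  obtain ⟨g, hg2, k, hgk⟩ := exists_sqrt hodd
  have hvg : v * g * v⁻¹ = g⁻¹ := by rw [hgk]; exact inv_zpow_conj hinv k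
  have hne := h v hv hv1 g⁻¹
  obtain ⟨⟨w, hw, hwc⟩, hw1⟩ := Subgroup.ne_bot_iff_exists_ne_one.mp hne
  have hw1' : w ≠ 1 := fun e => hw1 (Subtype.ext e)
  have hvv := klein_mul_self hA hv
  have hvinv : v⁻¹ = v := by rw [inv_eq_iff_mul_eq_one]; exact hvv
  have hg2' : g * g = x := by rw [← pow_two]; exact hg2
  have h1 : g⁻¹ * v * g⁻¹⁻¹ = v * x := by
    have h4 : v * g * v = g⁻¹ := by rw [← hvg, hvinv]
    rw [inv_inv]
    calc g⁻¹ * v * g = (v * g * v) * v * g := by rw [h4]
      _ = v * g * (v * v) * g := by group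
      _ = v * (g * g) := by rw [hvv]; group
      _ = v * x := by rw [hg2']
  have hwc' : w ∈ Subgroup.centralizer ({g⁻¹ * v * g⁻¹⁻¹} : Set G) := hwc
  rw [Subgroup.mem_centralizer_iff] at hwc'
  have h2 := hwc' _ rfl
  rw [h1] at h2
  have hwv := klein_comm hA (show w ∈ A from hw) hv
  refine ⟨w, (hw : w ∈ A), hw1', ?_⟩
  have h5 : v * (w * x) = v * (x * w) := by
    calc v * (w * x) = (v * w) * x := by group
      _ = (w * v) * x := by rw [hwv]
      _ = w * (v * x) := by group
      _ = (v * x) * w := h2.symm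
      _ = v * (x * w) := by group
  exact mul_left_cancel h5

end Cfsg.Agent.S3195
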