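import Cfsg.Statements.S3196
import Mathlib
import Cfsg.Agent.Lib.Basic.PCore
import Cfsg.Agent.Lib.Components.LayerProduct
-- import your own Cfsg.Agent.* helpers here

set_option autoImplicit false
set_option linter.unusedSectionVars false
set_option linter.unusedVariables false
set_option linter.style.haveILetI false
open Cfsg

namespace Cfsg.Agent.S3196

variable {G : Type*} [Group G] [Finite G] {p : ℕ}

/-- Elementwise commuting. -/
def Adj (X Y : Subgroup G) : Prop := ∀ x ∈ X, ∀ y ∈ Y, x * y = y * x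

theorem Adj.symm {X Y : Subgroup G} (h : Adj X Y) : Adj Y X := fun y hy x hx => (h x hx y hy).symm

theorem gen_eq (hp : p.Prime) {X : Subgroup G} (hX : Nat.card X = p) {x : G} (hx : x ∈ X) (h1 : x ≠ 1) :
    X = Subgroup.zpowers x := by
  haveI := Fact.mk hp
  have h2 : Subgroup.zpowers x ≤ X := by
    rw [Subgroup.zpowers_le]
    exact hx
  have h3 : Nat.card (Subgroup.zpowers x) ∣ Nat.card X := Subgroup.card_dvd_of_le h2
  rw [hX] at h3
  rcases (Nat.dvd_prime hp).mp h3 with h4 | h4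
  · rw [Subgroup.card_eq_one] at h4
    exact absurd (Subgroup.zpowers_eq_bot.mp h4) h1
  · exact (Subgroup.eq_of_le_of_card_ge h2 (by rw [h4, hX])).symm

theorem pow_p (hp : p.Prime) {X : Subgroup G} (hX : Nat.card X = p) {x : G} (hx : x ∈ X) : x ^ p = 1 := by
  have := pow_card_eq_one' (x := (⟨x, hx⟩ : X))
  rw [hX] at this
  exact Subtype.ext_iff.mp this

theorem exists_gen (hp : p.Prime) {X : Subgroup G} (hX : Nat.card X = p) : ∃ x ∈ X, x ≠ 1 := by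
  haveI := Fact.mk hp
  have h1 : X ≠ ⊥ := by
    rintro rfl
    have : Nat.card (⊥ : Subgroup G) = 1 := Subgroup.card_bot
    rw [this] at hX
    exact hp.one_lt.ne hX
  obtain ⟨y, hy⟩ := Subgroup.ne_bot_iff_exists_ne_one.mp h1
  exact ⟨y.1, y.2, fun h => hy (Subtype.ext h)⟩

theorem adj_of_gen (hp : p.Prime) {X Y : Subgroup G} (hX : Nat.card X = p) (hY : Nat.card Y = p)
    {x y : G} (hx : x ∈ X) (hy : y ∈ Y) (hx1 : x ≠ 1) (hy1 : y ≠ 1) (hc : x * y = y * x) : Adj X Y := by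
  intro a ha b hb
  rw [gen_eq hp hX hx hx1] at ha
  rw [gen_eq hp hY hy hy1] at hb
  obtain ⟨i, rfl⟩ := Subgroup.mem_zpowers_iff.mp ha
  obtain ⟨j, rfl⟩ := Subgroup.mem_zpowers_iff.mp hb
  have h : Commute x y := hc
  exact (h.zpow_zpow i j)

/-- A cyclic subgroup through a product of commuting elements. -/
theorem card_zpowers_of_pow (hp : p.Prime) {e : G} (h1 : e ≠ 1) (h2 : e ^ p = 1) : Nat.card (Subgroup.zpowers e) = p := by
  haveI := Fact.mk hp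
  rw [Nat.card_zpowers]
  exact orderOf_eq_prime h2 h1



theorem adj_self (hp : p.Prime) {U : Subgroup G} (hU : Nat.card U = p) : Adj U U := by
  obtain ⟨u, hu, h1⟩ := exists_gen hp hU
  exact adj_of_gen hp hU hU hu hu h1 h1 rfl

structure Sys (p : ℕ) (K : Set (Subgroup G)) : Prop where
  hp : p.Prime
  hK : ∀ X ∈ K, Nat.card ↥X = p
  hKc : ∀ X ∈ K, ∀ g : G, X.map (MulAut.conj g).toMonoidHom ∈ K
  ha : ∀ X ∈ K, ∀ Y ∈ K, X ≠ Y → Adj X Y → ∀ Z : Subgroup G, Z ≤ X ⊔ Y → Nat.card ↥Z = p → Z ∈ K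
  hb : ∀ X ∈ K, ∀ Y ∈ K, X ≠ Y → Adj X Y → ∀ W ∈ K, (X ⊔ Y) ⊓ Subgroup.centralizer (W : Set G) ≠ ⊥

variable {K : Set (Subgroup G)}

theorem line_elt (S : Sys p K) {X Y W : Subgroup G} (hX : X ∈ K) (hY : Y ∈ K) (hne : X ≠ Y)
    (hadj : Adj X Y) (hW : W ∈ K) :
    ∃ x ∈ X, ∃ y ∈ Y, x * y ≠ 1 ∧ ∀ w ∈ W, w * (x * y) = (x * y) * w := by
  have h := S.hb X hX Y hY hne hadj W hW
  obtain ⟨⟨e, he⟩, he1⟩ := Subgroup.ne_bot_iff_exists_ne_one.mp h
  have he1' : e ≠ 1 := fun h => he1 (Subtype.ext h)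
  obtain ⟨x, hx, y, hy, rfl⟩ := Cfsg.Agent.Lib.Components.LayerProduct.mem_sup_of_commute hadj he.1
  exact ⟨x, hx, y, hy, he1', fun w hw => (Subgroup.mem_centralizer_iff.mp he.2) w hw⟩

theorem adj_of_elt (hp : p.Prime) {X W : Subgroup G} (hX : Nat.card X = p) {x : G} (hx : x ∈ X)
    (h1 : x ≠ 1) (h : ∀ w ∈ W, w * x = x * w) : Adj X W := by
  intro a ha w hw
  rw [gen_eq hp hX hx h1] at ha
  obtain ⟨i, rfl⟩ := Subgroup.mem_zpowers_iff.mp ha
  have hc : Commute x w := (h w hw).symm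
  exact (hc.zpow_left i)

theorem elem_pow (hp : p.Prime) {X Y : Subgroup G} (hX : Nat.card X = p) (hY : Nat.card Y = p)
    (hadj : Adj X Y) {x y : G} (hx : x ∈ X) (hy : y ∈ Y) : (x * y) ^ p = 1 := by
  have hc : Commute x y := hadj x hx y hy
  rw [hc.mul_pow, pow_p hp hX hx, pow_p hp hY hy, one_mul]

theorem mem_K_of_line (S : Sys p K) {X Y : Subgroup G} (hX : X ∈ K) (hY : Y ∈ K) (hne : X ≠ Y)
    (hadj : Adj X Y) {x y : G} (hx : x ∈ X) (hy : y ∈ Y) (h1 : x * y ≠ 1) :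
    Subgroup.zpowers (x * y) ∈ K := by
  refine S.ha X hX Y hY hne hadj _ ?_ (card_zpowers_of_pow S.hp h1 (elem_pow S.hp (S.hK X hX) (S.hK Y hY) hadj hx hy))
  rw [Subgroup.zpowers_le]
  exact Subgroup.mul_mem _ (Subgroup.mem_sup_left hx) (Subgroup.mem_sup_right hy)

theorem comm_aux {a b s t : G} (h1 : Commute a s) (h2 : Commute a t) (h3 : Commute b s)
    (h4 : Commute b t) (h5 : Commute s t) :
    (a * s)⁻¹ * (b * t)⁻¹ * (a * s) * (b * t) = a⁻¹ * b⁻¹ * a * b := by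
  have e1 : (a * s) * (b * t) = (a * b) * (s * t) := h3.symm.mul_mul_mul_comm a t
  have e2 : (b * t) * (a * s) = (b * a) * (s * t) := by
    rw [h2.symm.mul_mul_mul_comm b s, h5.eq]
  have hw : Commute (s * t) (a⁻¹ * b⁻¹ * a * b) := by
    have ha : Commute (s * t) a := (h1.symm.mul_left h2.symm)
    have hb : Commute (s * t) b := (h3.symm.mul_left h4.symm)
    exact ((ha.inv_right.mul_right hb.inv_right).mul_right ha).mul_right hb
  calc (a * s)⁻¹ * (b * t)⁻¹ * (a * s) * (b * t)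
      = ((b * t) * (a * s))⁻¹ * ((a * s) * (b * t)) := by group
    _ = (s * t)⁻¹ * ((a⁻¹ * b⁻¹ * a * b) * (s * t)) := by rw [e1, e2]; group
    _ = (s * t)⁻¹ * ((s * t) * (a⁻¹ * b⁻¹ * a * b)) := by rw [hw.eq]
    _ = _ := by group

theorem comm_of_eq_one {a b : G} (h : a⁻¹ * b⁻¹ * a * b = 1) : a * b = b * a := by
  have : a * b = (b * a) * (a⁻¹ * b⁻¹ * a * b) := by group
  rw [this, h, mul_one]

/-- Step 1 : the commutator lemma. -/
theorem step1 (S : Sys p K) {U X X' W : Subgroup G} (hU : U ∈ K) (hX : X ∈ K) (hX' : X' ∈ K)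
    (h1 : X ≠ U) (h2 : X' ≠ U) (a1 : Adj X U) (a2 : Adj X' U) (hn : ¬ Adj X X')
    (hc : ∀ a ∈ X, ∀ b ∈ X', a⁻¹ * b⁻¹ * a * b ∈ U) (hW : W ∈ K) : Adj U W := by
  by_contra hUW
  obtain ⟨x₁, hx₁, u₁, hu₁, he₁, hw₁⟩ := line_elt S hX hU h1 a1 hW
  obtain ⟨x₂, hx₂, u₂, hu₂, he₂, hw₂⟩ := line_elt S hX' hU h2 a2 hW
  have hx₁1 : x₁ ≠ 1 := by
    rintro rfl
    rw [one_mul] at he₁ hw₁
    exact hUW (adj_of_elt S.hp (S.hK U hU) hu₁ he₁ hw₁)
  have hx₂1 : x₂ ≠ 1 := by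
    rintro rfl
    rw [one_mul] at he₂ hw₂
    exact hUW (adj_of_elt S.hp (S.hK U hU) hu₂ he₂ hw₂)
  have hnc : x₁ * x₂ ≠ x₂ * x₁ := fun h =>
    hn (adj_of_gen S.hp (S.hK X hX) (S.hK X' hX') hx₁ hx₂ hx₁1 hx₂1 h)
  have key := comm_aux (a := x₁) (b := x₂) (s := u₁) (t := u₂) (a1 _ hx₁ _ hu₁)
    (a1 _ hx₁ _ hu₂) (a2 _ hx₂ _ hu₁) (a2 _ hx₂ _ hu₂) (adj_self S.hp (S.hK U hU) _ hu₁ _ hu₂)
  have hc1 := hc x₁ hx₁ x₂ hx₂
  have hne : x₁⁻¹ * x₂⁻¹ * x₁ * x₂ ≠ 1 := fun h => hnc (comm_of_eq_one h)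
  refine hUW (adj_of_elt S.hp (S.hK U hU) hc1 hne ?_)
  intro w hw
  rw [← key]
  have c1 : Commute w (x₁ * u₁) := hw₁ w hw
  have c2 : Commute w (x₂ * u₂) := hw₂ w hw
  exact (((c1.inv_right.mul_right c2.inv_right).mul_right c1).mul_right c2).eq

theorem comm_zpow_aux {a y w : G} (h3 : y⁻¹ * a * y = a * w) (hyw : Commute y w) (j : ℤ) :
    a⁻¹ * (y ^ j)⁻¹ * a * y ^ j = w ^ j := by
  have h4 : a * y = y * (a * w) := by rw [← h3]; group
  have h6 : y * a = a * y * w⁻¹ := by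
    rw [h4]; group
  have h2 : a⁻¹ * y * a⁻¹⁻¹ = y * w⁻¹ := by
    rw [inv_inv, mul_assoc, h6]; group
  have h7 : a⁻¹ * y ^ j * a⁻¹⁻¹ = y ^ j * (w⁻¹) ^ j := by
    rw [← conj_zpow, h2, (hyw.inv_right).mul_zpow]
  calc a⁻¹ * (y ^ j)⁻¹ * a * y ^ j = (a⁻¹ * y ^ j * a⁻¹⁻¹)⁻¹ * y ^ j := by group
    _ = (y ^ j * (w⁻¹) ^ j)⁻¹ * y ^ j := by rw [h7]
    _ = w ^ j := by
      rw [mul_inv_rev, inv_zpow, inv_inv, mul_assoc, inv_mul_cancel, mul_one]

/-- Class 2 commutator computation. -/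
theorem comm_zpow {x y z : G} (hz : z = x⁻¹ * y⁻¹ * x * y) (hxz : Commute x z) (hyz : Commute y z)
    (i j : ℤ) : (x ^ i)⁻¹ * (y ^ j)⁻¹ * (x ^ i) * (y ^ j) = z ^ (i * j) := by
  have h0 : y⁻¹ * x * y⁻¹⁻¹ = x * z := by
    rw [hz]; group
  have h1 : y⁻¹ * x ^ i * y⁻¹⁻¹ = x ^ i * z ^ i := by
    rw [← conj_zpow, h0, hxz.mul_zpow]
  have h3 : y⁻¹ * x ^ i * y = x ^ i * z ^ i := by simpa using h1
  rw [comm_zpow_aux h3 (hyz.zpow_right i) j, zpow_mul]


/-- Step 2 : a square gives a universal member. -/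
theorem step2 (S : Sys p K) {X X' Y Y' : Subgroup G} (hX : X ∈ K) (hX' : X' ∈ K) (hY : Y ∈ K)
    (hY' : Y' ∈ K) (a1 : Adj X Y) (a2 : Adj X Y') (a3 : Adj X' Y) (a4 : Adj X' Y')
    (n1 : ¬ Adj X X') (n2 : ¬ Adj Y Y') : ∃ U ∈ K, ∀ W ∈ K, Adj U W := by
  have hp := S.hp
  obtain ⟨x', hx', hx'1⟩ := exists_gen hp (S.hK X' hX')
  obtain ⟨y', hy', hy'1⟩ := exists_gen hp (S.hK Y' hY')
  have hne : X' ≠ Y' := by
    rintro rfl
    exact n1 a2
  have hxy : X ≠ Y := by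
    rintro rfl
    exact n1 a3.symm
  have c4 : Commute x' y' := a4 _ hx' _ hy'
  have he' : x' * y' ≠ 1 := by
    intro h
    have : y' = x'⁻¹ := by
      rw [eq_inv_iff_mul_eq_one, ← c4.eq, h]
    apply hne
    rw [gen_eq hp (S.hK X' hX') hx' hx'1, gen_eq hp (S.hK Y' hY') hy' hy'1, this, Subgroup.zpowers_inv]
  have hP' := mem_K_of_line S hX' hY' hne a4 hx' hy' he'
  obtain ⟨x, hx, y, hy, he, hw⟩ := line_elt S hX hY hxy a1 hP'
  have hcomm : (x' * y') * (x * y) = (x * y) * (x' * y') := hw _ (Subgroup.mem_zpowers _)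
  have c1 : Commute x y := a1 _ hx _ hy
  have c2 : Commute x y' := a2 _ hx _ hy'
  have c3 : Commute x' y := a3 _ hx' _ hy
  have hx1 : x ≠ 1 := by
    rintro rfl
    rw [one_mul] at hcomm he
    apply n2
    refine adj_of_gen hp (S.hK Y hY) (S.hK Y' hY') hy hy' he hy'1 ?_
    have : x' * (y' * y) = x' * (y * y') := by
      calc x' * (y' * y) = x' * y' * y := by group
        _ = y * (x' * y') := hcomm
        _ = (y * x') * y' := by group
        _ = (x' * y) * y' := by rw [c3.eq]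
        _ = x' * (y * y') := by group
    exact (mul_left_cancel this).symm
  have hy1 : y ≠ 1 := by
    rintro rfl
    rw [mul_one] at hcomm he
    apply n1
    refine adj_of_gen hp (S.hK X hX) (S.hK X' hX') hx hx' hx1 hx'1 ?_
    have : (x * x') * y' = (x' * x) * y' := by
      calc (x * x') * y' = x * (x' * y') := by group
        _ = x' * y' * x := hcomm.symm
        _ = x' * (y' * x) := by group
        _ = x' * (x * y') := by rw [c2.eq]
        _ = (x' * x) * y' := by group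
    exact mul_right_cancel this
  have key : (x * x') * (y * y') = (x' * x) * (y' * y) := by
    calc (x * x') * (y * y') = x * (x' * y) * y' := by group
      _ = x * (y * x') * y' := by rw [c3.eq]
      _ = (x * y) * (x' * y') := by group
      _ = (x' * y') * (x * y) := hcomm.symm
      _ = x' * (y' * x) * y := by group
      _ = x' * (x * y') * y := by rw [c2.eq]
      _ = _ := by group
  obtain ⟨z, hzdef⟩ : ∃ z, z = x⁻¹ * x'⁻¹ * x * x' := ⟨_, rfl⟩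
  have hz2 : z = y' * y * y'⁻¹ * y⁻¹ := by
    have h1 : z = (x' * x)⁻¹ * (x * x') := by rw [hzdef]; group
    have h2 : y' * y * y'⁻¹ * y⁻¹ = (y' * y) * (y * y')⁻¹ := by group
    rw [h1, h2, inv_mul_eq_iff_eq_mul, ← mul_assoc, ← key]
    group
  have cxz : Commute x z := by
    rw [hz2]
    exact ((c2.mul_right c1).mul_right c2.inv_right).mul_right c1.inv_right
  have cx'z : Commute x' z := by
    rw [hz2]
    exact ((c4.mul_right c3).mul_right c4.inv_right).mul_right c3.inv_right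
  have hz1 : z ≠ 1 := by
    intro h
    apply n1
    rw [h] at hzdef
    exact adj_of_gen hp (S.hK X hX) (S.hK X' hX') hx hx' hx1 hx'1 (comm_of_eq_one hzdef.symm)
  have hconj : x'⁻¹ * x * x'⁻¹⁻¹ = x * z := by
    rw [hzdef]; group
  have hzp : z ^ p = 1 := by
    have h1 : (x'⁻¹ * x * x'⁻¹⁻¹) ^ p = 1 := by
      rw [conj_pow, pow_p hp (S.hK X hX) hx]; group
    rw [hconj, cxz.mul_pow, pow_p hp (S.hK X hX) hx, one_mul] at h1
    exact h1
  have hUcard := card_zpowers_of_pow hp hz1 hzp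
  have hX₂ := S.hKc X hX x'⁻¹
  obtain ⟨X₂, hX₂def⟩ : ∃ X₂, X₂ = X.map (MulAut.conj x'⁻¹).toMonoidHom := ⟨_, rfl⟩
  rw [← hX₂def] at hX₂
  have hxz : x * z ∈ X₂ := by
    rw [hX₂def, ← hconj]
    exact ⟨x, hx, by simp [MulAut.conj_apply]⟩
  have hxz1 : x * z ≠ 1 := by
    rw [← hconj]
    intro h
    apply hx1
    have : x = x'⁻¹⁻¹ * (x'⁻¹ * x * x'⁻¹⁻¹) * x'⁻¹ := by group
    rw [this, h]; group
  have a5 : Adj X X₂ := adj_of_gen hp (S.hK X hX) (S.hK X₂ hX₂) hx hxz hx1 hxz1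
    ((Commute.refl x).mul_right cxz).eq
  have hne2 : X ≠ X₂ := by
    intro h
    have h1 : x⁻¹ * (x * z) ∈ X := Subgroup.mul_mem _ (Subgroup.inv_mem _ hx) (h ▸ hxz)
    have h2 : z ∈ X := by simpa using h1
    exact n1 (adj_of_gen hp (S.hK X hX) (S.hK X' hX') h2 hx' hz1 hx'1 cx'z.symm.eq)
  have hU : Subgroup.zpowers z ∈ K := by
    refine S.ha X hX X₂ hX₂ hne2 a5 _ ?_ hUcard
    rw [Subgroup.zpowers_le]
    have : z = x⁻¹ * (x * z) := by group
    rw [this]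
    exact Subgroup.mul_mem _ (Subgroup.inv_mem _ (Subgroup.mem_sup_left hx)) (Subgroup.mem_sup_right hxz)
  have a6 : Adj X (Subgroup.zpowers z) :=
    adj_of_gen hp (S.hK X hX) hUcard hx (Subgroup.mem_zpowers z) hx1 hz1 cxz.eq
  have a7 : Adj X' (Subgroup.zpowers z) :=
    adj_of_gen hp (S.hK X' hX') hUcard hx' (Subgroup.mem_zpowers z) hx'1 hz1 cx'z.eq
  have hne3 : X ≠ Subgroup.zpowers z := fun h => n1 (h ▸ a7).symm
  have hne4 : X' ≠ Subgroup.zpowers z := fun h => n1 (h ▸ a6)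
  refine ⟨_, hU, fun W hW => step1 S hU hX hX' hne3 hne4 a6 a7 n1 ?_ hW⟩
  intro a ha b hb
  rw [gen_eq hp (S.hK X hX) hx hx1] at ha
  rw [gen_eq hp (S.hK X' hX') hx' hx'1] at hb
  obtain ⟨i, rfl⟩ := Subgroup.mem_zpowers_iff.mp ha
  obtain ⟨j, rfl⟩ := Subgroup.mem_zpowers_iff.mp hb
  rw [comm_zpow hzdef cxz cx'z]
  exact Subgroup.zpow_mem _ (Subgroup.mem_zpowers z) _

/-- Step 3 : the neighbours of a non-universal member form a clique. -/
theorem step3 (S : Sys p K) (hno : ¬ ∃ U ∈ K, ∀ W ∈ K, Adj U W) {V W P₁ P₂ : Subgroup G}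
    (hV : V ∈ K) (hW : W ∈ K) (hP₁ : P₁ ∈ K) (hP₂ : P₂ ∈ K) (n : ¬ Adj V W)
    (a1 : Adj V P₁) (a2 : Adj V P₂) : Adj P₁ P₂ := by
  have hp := S.hp
  by_cases h1 : V = P₁
  · rw [← h1]; exact a2
  by_cases h2 : V = P₂
  · rw [← h2]; exact a1.symm
  obtain ⟨v₁, hv₁, p₁, hp₁, he₁, hw₁⟩ := line_elt S hV hP₁ h1 a1 hW
  obtain ⟨v₂, hv₂, p₂, hp₂, he₂, hw₂⟩ := line_elt S hV hP₂ h2 a2 hW
  have hp₁1 : p₁ ≠ 1 := by
    rintro rfl
    rw [mul_one] at he₁ hw₁
    exact n (adj_of_elt hp (S.hK V hV) hv₁ he₁ hw₁)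
  have hp₂1 : p₂ ≠ 1 := by
    rintro rfl
    rw [mul_one] at he₂ hw₂
    exact n (adj_of_elt hp (S.hK V hV) hv₂ he₂ hw₂)
  have hQ₁ := mem_K_of_line S hV hP₁ h1 a1 hv₁ hp₁ he₁
  have hQ₂ := mem_K_of_line S hV hP₂ h2 a2 hv₂ hp₂ he₂
  have hcard₁ := S.hK _ hQ₁
  have hcard₂ := S.hK _ hQ₂
  have cv : ∀ v ∈ V, ∀ {q}, q ∈ P₁ → Commute v q := fun v hv q hq => a1 v hv q hq
  have c12 : Commute v₁ v₂ := adj_self hp (S.hK V hV) _ hv₁ _ hv₂
  have cv₁p₁ : Commute v₁ p₁ := a1 _ hv₁ _ hp₁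
  have cv₁p₂ : Commute v₁ p₂ := a2 _ hv₁ _ hp₂
  have cv₂p₁ : Commute v₂ p₁ := a1 _ hv₂ _ hp₁
  have cv₂p₂ : Commute v₂ p₂ := a2 _ hv₂ _ hp₂
  have adjVQ₁ : Adj V (Subgroup.zpowers (v₁ * p₁)) := by
    refine (adj_of_elt hp hcard₁ (Subgroup.mem_zpowers _) he₁ ?_).symm
    intro v hv
    have c1 : Commute v v₁ := adj_self hp (S.hK V hV) _ hv _ hv₁
    have c2 : Commute v p₁ := a1 _ hv _ hp₁
    exact (c1.mul_right c2).eq
  have adjVQ₂ : Adj V (Subgroup.zpowers (v₂ * p₂)) := by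
    refine (adj_of_elt hp hcard₂ (Subgroup.mem_zpowers _) he₂ ?_).symm
    intro v hv
    have c1 : Commute v v₂ := adj_self hp (S.hK V hV) _ hv _ hv₂
    have c2 : Commute v p₂ := a2 _ hv _ hp₂
    exact (c1.mul_right c2).eq
  have adjWQ₁ : Adj W (Subgroup.zpowers (v₁ * p₁)) :=
    (adj_of_elt hp hcard₁ (Subgroup.mem_zpowers _) he₁ hw₁).symm
  have adjWQ₂ : Adj W (Subgroup.zpowers (v₂ * p₂)) :=
    (adj_of_elt hp hcard₂ (Subgroup.mem_zpowers _) he₂ hw₂).symm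
  have adjQQ : Adj (Subgroup.zpowers (v₁ * p₁)) (Subgroup.zpowers (v₂ * p₂)) := by
    by_contra hQQ
    exact hno (step2 S hV hW hQ₁ hQ₂ adjVQ₁ adjVQ₂ adjWQ₁ adjWQ₂ n hQQ)
  have hcc : Commute (v₁ * p₁) (v₂ * p₂) := adjQQ _ (Subgroup.mem_zpowers _) _ (Subgroup.mem_zpowers _)
  refine adj_of_gen hp (S.hK P₁ hP₁) (S.hK P₂ hP₂) hp₁ hp₂ hp₁1 hp₂1 ?_
  have e1 : (v₁ * v₂) * (p₁ * p₂) = (v₁ * v₂) * (p₂ * p₁) := by
    calc (v₁ * v₂) * (p₁ * p₂) = v₁ * (v₂ * p₁) * p₂ := by group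
      _ = v₁ * (p₁ * v₂) * p₂ := by rw [cv₂p₁.eq]
      _ = (v₁ * p₁) * (v₂ * p₂) := by group
      _ = (v₂ * p₂) * (v₁ * p₁) := hcc.eq
      _ = v₂ * (p₂ * v₁) * p₁ := by group
      _ = v₂ * (v₁ * p₂) * p₁ := by rw [cv₁p₂.eq]
      _ = (v₂ * v₁) * (p₂ * p₁) := by group
      _ = _ := by rw [c12.eq]
  exact mul_left_cancel e1

/-- Existence of a universal member. -/
theorem exists_universal (S : Sys p K) (hex : ∃ X ∈ K, ∃ Y ∈ K, X ≠ Y ∧ Adj X Y) :
    ∃ U ∈ K, ∀ W ∈ K, Adj U W := by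
  by_contra hno
  have hp := S.hp
  obtain ⟨V, hV, Y, hY, hne, hadj⟩ := hex
  have h1 : ∃ W ∈ K, ¬ Adj V W := by
    by_contra h
    push Not at h
    exact hno ⟨V, hV, h⟩
  obtain ⟨W, hW, hn⟩ := h1
  obtain ⟨v, hv, y, hy, he, hw⟩ := line_elt S hV hY hne hadj hW
  have hQ := mem_K_of_line S hV hY hne hadj hv hy he
  have hcard := S.hK _ hQ
  have adjVQ : Adj V (Subgroup.zpowers (v * y)) := by
    refine (adj_of_elt hp hcard (Subgroup.mem_zpowers _) he ?_).symm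
    intro a ha
    have c1 : Commute a v := adj_self hp (S.hK V hV) _ ha _ hv
    have c2 : Commute a y := hadj _ ha _ hy
    exact (c1.mul_right c2).eq
  have adjWQ : Adj W (Subgroup.zpowers (v * y)) :=
    (adj_of_elt hp hcard (Subgroup.mem_zpowers _) he hw).symm
  have h2 : ∃ R ∈ K, ¬ Adj (Subgroup.zpowers (v * y)) R := by
    by_contra h
    push Not at h
    exact hno ⟨_, hQ, h⟩
  obtain ⟨R, hR, hnR⟩ := h2
  exact hn (step3 S hno hQ hR hV hW hnR adjVQ.symm adjWQ.symm)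


/-- Let p be a prime and K a set of subgroups of order p of a finite group G, closed under conjugation, such that at least two distinct members of K commute elementwise, and whenever two distinct members X, Y of K commute: every subgroup of order p of the group XY they generate belongs to K, and every member W of K has centralizer meeting XY nontrivially. Then some member V of K commutes elementwise with every member of K and lies in O_p(G); in particular G is not simple. -/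
theorem result {G : Type*} [Group G] [Finite G]
    {p : ℕ} (hp : p.Prime) (K : Set (Subgroup G)) (hK : ∀ X ∈ K, Nat.card ↥X = p)
    (hKc : ∀ X ∈ K, ∀ g : G, X.map (MulAut.conj g).toMonoidHom ∈ K)
    (hex : ∃ X ∈ K, ∃ Y ∈ K, X ≠ Y ∧ ∀ x ∈ X, ∀ y ∈ Y, x * y = y * x)
    (ha : ∀ X ∈ K, ∀ Y ∈ K, X ≠ Y → (∀ x ∈ X, ∀ y ∈ Y, x * y = y * x) →
      ∀ Z : Subgroup G, Z ≤ X ⊔ Y → Nat.card ↥Z = p → Z ∈ K)
    (hb : ∀ X ∈ K, ∀ Y ∈ K, X ≠ Y → (∀ x ∈ X, ∀ y ∈ Y, x * y = y * x) →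
      ∀ W ∈ K, (X ⊔ Y) ⊓ Subgroup.centralizer (W : Set G) ≠ ⊥) :
    (∃ V ∈ K, (∀ W ∈ K, ∀ v ∈ V, ∀ w ∈ W, v * w = w * v) ∧ V ≤ Cfsg.pCore p G) ∧ ¬ IsSimpleGroup G := by
  haveI := Fact.mk hp
  have S : Sys p K := ⟨hp, hK, hKc, ha, hb⟩
  obtain ⟨V, hV, hU⟩ := exists_universal S hex
  -- conjugates of `V` commute
  have hconjV : ∀ g h : G, Adj (V.map (MulAut.conj g).toMonoidHom) (V.map (MulAut.conj h).toMonoidHom) := by
    intro g h a ha b hb
    obtain ⟨a', ha', rfl⟩ := ha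
    obtain ⟨b', hb', rfl⟩ := hb
    have h1 := hU _ (hKc V hV (g⁻¹ * h)) a' ha' ((MulAut.conj (g⁻¹ * h)).toMonoidHom b') ⟨b', hb', rfl⟩
    simp only [MulEquiv.coe_toMonoidHom, MulAut.conj_apply] at h1 ⊢
    have h2 : (g * a' * g⁻¹) * (h * b' * h⁻¹) = g * (a' * (g⁻¹ * h * b' * (g⁻¹ * h)⁻¹)) * g⁻¹ := by group
    have h3 : (h * b' * h⁻¹) * (g * a' * g⁻¹) = g * ((g⁻¹ * h * b' * (g⁻¹ * h)⁻¹) * a') * g⁻¹ := by group
    rw [h2, h3, h1]
  have hgens : ∀ s ∈ Group.conjugatesOfSet (V : Set G), ∃ g, s ∈ V.map (MulAut.conj g).toMonoidHom := by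
    intro s hs
    rw [Group.mem_conjugatesOfSet_iff] at hs
    obtain ⟨b, hb, hc⟩ := hs
    obtain ⟨g, hg⟩ := isConj_iff.mp hc
    exact ⟨g, b, hb, by simpa [MulAut.conj_apply] using hg⟩
  have hcomm : ∀ a ∈ Subgroup.normalClosure (V : Set G), ∀ b ∈ Subgroup.normalClosure (V : Set G), a * b = b * a := by
    have h1 : Subgroup.normalClosure (V : Set G) ≤ Subgroup.centralizer (Group.conjugatesOfSet (V : Set G)) := by
      rw [Subgroup.normalClosure, Subgroup.closure_le]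
      intro s hs
      rw [SetLike.mem_coe, Subgroup.mem_centralizer_iff]
      intro t ht
      obtain ⟨g, hg⟩ := hgens s hs
      obtain ⟨h, hh⟩ := hgens t ht
      exact hconjV h g t hh s hg
    intro a ha b hb
    have h2 : Subgroup.normalClosure (V : Set G) ≤ Subgroup.centralizer ((Subgroup.normalClosure (V : Set G) : Subgroup G) : Set G) := by
      rw [Subgroup.normalClosure]
      rw [Subgroup.closure_le]
      intro s hs
      rw [SetLike.mem_coe, Subgroup.mem_centralizer_iff]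
      intro t ht
      have := (Subgroup.mem_centralizer_iff.mp (h1 ht)) s hs
      exact this.symm
    exact (Subgroup.mem_centralizer_iff.mp (h2 hb)) a ha
  have hpow : ∀ a ∈ Subgroup.normalClosure (V : Set G), a ^ p = 1 := by
    intro a ha
    rw [Subgroup.normalClosure] at ha
    induction ha using Subgroup.closure_induction with
    | mem s hs =>
      obtain ⟨g, hg⟩ := hgens s hs
      exact pow_p hp (hK _ (hKc V hV g)) hg
    | one => simp
    | mul x y hx hy h1 h2 =>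
      have : Commute x y := hcomm x hx y hy
      rw [this.mul_pow, h1, h2, one_mul]
    | inv x hx h1 => rw [inv_pow, h1, inv_one]
  have hVN : V ≤ Subgroup.normalClosure (V : Set G) := fun v hv => Subgroup.subset_normalClosure hv
  have hpg : IsPGroup p (Subgroup.normalClosure (V : Set G)) := by
    intro g
    exact ⟨1, by rw [pow_one]; exact Subtype.ext (hpow g.1 g.2)⟩
  have hVb : V ≠ ⊥ := by
    rintro rfl
    have h1 := hK _ hV
    rw [Subgroup.card_bot] at h1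
    exact hp.one_lt.ne h1
  refine ⟨⟨V, hV, hU, hVN.trans (Cfsg.Agent.Lib.Basic.PCore.le_pCore Subgroup.normalClosure_normal hpg)⟩, ?_⟩
  intro hs
  obtain ⟨X, hX, Y, hY, hne, -⟩ := hex
  rcases hs.eq_bot_or_eq_top_of_normal _ (Subgroup.normalClosure_normal (s := (V : Set G))) with h | h
  · exact hVb (le_bot_iff.mp (h ▸ hVN))
  · have hall : ∀ a b : G, a * b = b * a := fun a b =>
      hcomm a (h ▸ Subgroup.mem_top a) b (h ▸ Subgroup.mem_top b)
    have hn : ∀ Z : Subgroup G, Z.Normal := fun Z => ⟨fun n hn g => by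
      rw [hall g n]; simpa using hn⟩
    have hnb : ∀ Z ∈ K, Z = ⊤ := by
      intro Z hZ
      rcases hs.eq_bot_or_eq_top_of_normal _ (hn Z) with h | h
      · exfalso
        have h1 := hK _ hZ
        rw [h, Subgroup.card_bot] at h1
        exact hp.one_lt.ne h1
      · exact h
    exact hne ((hnb X hX).trans (hnb Y hY).symm)

end Cfsg.Agent.S3196
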