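import Cfsg.Statements.S3200
import Mathlib
import Cfsg.Agent.Lib.Solvable.Hall
import Cfsg.Agent.Lib.Char.Kazarin

set_option autoImplicit false
open Cfsg

namespace Cfsg.Agent.S3200

/-- Let H be a finite group in which a Sylow 2-subgroup has an abelian complement (an abelian subgroup meeting it trivially whose product with it is all of H). Then H is solvable, and every subgroup and every quotient group of H again has a Sylow 2-subgroup with an abelian complement. -/
theorem result {H : Type*} [Group H] [Finite H]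
    (S : Sylow 2 H) (C : Subgroup H) (hC : IsMulCommutative ↥C) (hSC : Subgroup.IsComplement' (S : Subgroup H) C) :
    Group.IsSolvable H ∧
    (∀ L : Subgroup H, ∃ (P : Sylow 2 ↥L) (D : Subgroup ↥L), IsMulCommutative ↥D ∧ Subgroup.IsComplement' (P : Subgroup ↥L) D) ∧
    (∀ (N : Subgroup H) [N.Normal], ∃ (P : Sylow 2 (H ⧸ N)) (D : Subgroup (H ⧸ N)),
      IsMulCommutative ↥D ∧ Subgroup.IsComplement' (P : Subgroup (H ⧸ N)) D) := by
  classical
  haveI : Fact (Nat.Prime 2) := ⟨Nat.prime_two⟩
  obtain ⟨a, ha⟩ := IsPGroup.exists_card_eq S.isPGroup'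
  have hidx : C.index = 2 ^ a := by rw [hSC.index_eq_card, ha]
  have hsolv : Group.IsSolvable H :=
    Cfsg.Agent.Lib.Char.Kazarin.isSolvable_of_abelian_index_pow (p := 2) _ H rfl C a hC hidx
  have hCodd : ¬ 2 ∣ Nat.card C := by
    rw [← hSC.symm.index_eq_card]
    exact S.not_dvd_index
  have hCcop : (Nat.card C).Coprime (2 ^ a) :=
    Nat.Coprime.pow_right a ((Nat.Prime.coprime_iff_not_dvd Nat.prime_two).2 hCodd).symm
  have hcardH : Nat.card H = Nat.card C * 2 ^ a := by
    rw [← hidx, Subgroup.card_mul_index]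
  refine ⟨hsolv, ?_, ?_⟩
  · intro L
    obtain ⟨P⟩ : Nonempty (Sylow 2 L) := inferInstance
    obtain ⟨b, hb⟩ := IsPGroup.exists_card_eq P.isPGroup'
    have hPodd : ¬ 2 ∣ (P : Subgroup L).index := P.not_dvd_index
    have hPcop : ((P : Subgroup L).index).Coprime (2 ^ b) :=
      Nat.Coprime.pow_right b ((Nat.Prime.coprime_iff_not_dvd Nat.prime_two).2 hPodd).symm
    have hcardL : Nat.card L = (P : Subgroup L).index * 2 ^ b := by
      rw [← hb, mul_comm, Subgroup.card_mul_index]
    obtain ⟨D, hD⟩ := Cfsg.Agent.Lib.Solvable.Hall.exists_card_eq _ _ hcardL hPcop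
    refine ⟨P, D, ?_, ?_⟩
    · have hK : (Nat.card (D.map L.subtype)).Coprime (2 ^ a) := by
        rw [Subgroup.card_map_of_injective L.subtype_injective, hD]
        exact Nat.Coprime.pow_right a
          ((Nat.Prime.coprime_iff_not_dvd Nat.prime_two).2 hPodd).symm
      obtain ⟨g, hg⟩ := Cfsg.Agent.Lib.Solvable.Hall.exists_conj_le _ _ hcardH hCcop C _ rfl hK
      refine ⟨⟨fun x y => ?_⟩⟩
      have hx : g * (x : L) * g⁻¹ ∈ C := hg ⟨_, ⟨_, x.2, rfl⟩, rfl⟩
      have hy : g * (y : L) * g⁻¹ ∈ C := hg ⟨_, ⟨_, y.2, rfl⟩, rfl⟩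
      have hc := congrArg Subtype.val (hC.is_comm.comm ⟨_, hx⟩ ⟨_, hy⟩)
      simp only [Subgroup.coe_mul] at hc
      have h1 : (g * (x : L) * g⁻¹) * (g * (y : L) * g⁻¹) = g * ((x : L) * (y : L) : L) * g⁻¹ := by
        push_cast
        group
      have h2 : (g * (y : L) * g⁻¹) * (g * (x : L) * g⁻¹) = g * ((y : L) * (x : L) : L) * g⁻¹ := by
        push_cast
        group
      rw [h1, h2] at hc
      have h3 := mul_left_cancel (mul_right_cancel hc)
      apply Subtype.ext
      apply Subtype.ext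
      simpa using h3
    · refine Subgroup.isComplement'_of_coprime ?_ ?_
      · rw [hD, hb, hcardL, mul_comm]
      · rw [hD, hb]
        exact hPcop.symm
  · intro N _
    have hf : Function.Surjective (QuotientGroup.mk' N) := QuotientGroup.mk'_surjective N
    refine ⟨S.mapSurjective hf, C.map (QuotientGroup.mk' N), ?_, ?_⟩
    · refine ⟨⟨?_⟩⟩
      rintro ⟨_, x, hx, rfl⟩ ⟨_, y, hy, rfl⟩
      apply Subtype.ext
      show QuotientGroup.mk' N x * QuotientGroup.mk' N y = QuotientGroup.mk' N y * QuotientGroup.mk' N x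
      rw [← map_mul, ← map_mul]
      congr 1
      exact congrArg Subtype.val (hC.is_comm.comm ⟨x, hx⟩ ⟨y, hy⟩)
    · refine Subgroup.isComplement'_of_disjoint_and_mul_eq_univ ?_ ?_
      · rw [disjoint_iff]
        apply Subgroup.inf_eq_bot_of_coprime
        rw [Sylow.coe_mapSurjective]
        have h1 : Nat.card ((S : Subgroup H).map (QuotientGroup.mk' N)) ∣ 2 ^ a := by
          rw [← ha]
          exact Subgroup.card_map_dvd _ _
        have h2 : Nat.card (C.map (QuotientGroup.mk' N)) ∣ Nat.card C := Subgroup.card_map_dvd _ _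
        exact (hCcop.symm.coprime_dvd_left h1).coprime_dvd_right h2
      · rw [Set.eq_univ_iff_forall]
        intro q
        obtain ⟨x, rfl⟩ := QuotientGroup.mk_surjective q
        obtain ⟨⟨s, c⟩, hsc, -⟩ := hSC.existsUnique x
        refine Set.mem_mul.mpr ⟨_, ⟨s.1, s.2, rfl⟩, _, ⟨c.1, c.2, rfl⟩, ?_⟩
        rw [← map_mul]
        simp only at hsc
        rw [hsc]
        rfl

end Cfsg.Agent.S3200
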