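import Cfsg.Statements.S3201
import Mathlib
import Cfsg.Agent.Lib.PGroup.QuatQuot
import Cfsg.Agent.Lib.PGroup.Basic
-- import your own Cfsg.Agent.* helpers here

set_option autoImplicit false
open Cfsg

namespace Cfsg.Agent.S3201

open Subgroup Cfsg.Agent.Lib.PGroup.QuatQuot

/-- The key argument, in terms of subgroups `D i` of the center. -/
theorem main_aux {S : Type*} [Group S] [Finite S] (hS : IsPGroup 2 S) (D : Subgroup S) [hDn : D.Normal]
    (hDZ : D ≤ center S) (hna : ¬ IsMulCommutative (S ⧸ D)) (huniq : ∃! x : S ⧸ D, orderOf x = 2)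
    (hZ2 : ∀ z ∈ center S, z ^ 2 = 1)
    (hT : ∀ x y : S, x ∉ center S → y ∉ center S → x ^ 2 ∈ center S → y ^ 2 ∈ center S → x ^ 2 = y ^ 2)
    (hζ : ∃ ζ ∈ center S, ζ ∉ D) :
    ∃ E Q : Subgroup S, Cfsg.IsInternalDirectProduct E Q ⊤ ∧ Cfsg.IsElementaryAbelian 2 E ∧
      ¬ IsMulCommutative ↥Q ∧ ∃! x : ↥Q, orderOf x = 2 := by
  haveI : Fact (Nat.Prime 2) := ⟨Nat.prime_two⟩
  obtain ⟨a, b, m, hm, hcard, ha, hb, hc, hb2⟩ := exists_lift hS D hna huniq
  obtain ⟨x0, hx0, hu⟩ := huniq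
  obtain ⟨ζ, hζZ, hζD⟩ := hζ
  have hcen : ∀ z ∈ center S, ∀ g : S, z * g = g * z := fun z hz g =>
    ((Subgroup.mem_center_iff.mp hz) g).symm
  have hmk : ∀ x : S, x ∈ D ↔ (x : S ⧸ D) = 1 := fun x => (QuotientGroup.eq_one_iff x).symm
  -- `ζ` gives the involution
  have hζ2 : (ζ : S ⧸ D) = x0 := by
    apply hu
    apply orderOf_eq_prime
    · rw [← QuotientGroup.mk_pow, hZ2 ζ hζZ]; rfl
    · intro h; exact hζD ((hmk ζ).mpr h)
  -- top power of `a`
  have hpow : ((a ^ 2 ^ (m - 1) : S) : S ⧸ D) = x0 := by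
    apply hu
    rw [QuotientGroup.mk_pow]
    have h1 : orderOf ((a : S ⧸ D) ^ 2 ^ (m - 1)) = 2 := by
      rw [orderOf_pow_of_dvd (by positivity) (by rw [ha]; exact pow_dvd_pow 2 (by omega)), ha]
      have : 2 ^ m = 2 ^ (m - 1) * 2 := by
        rw [← pow_succ]; congr 1; omega
      rw [this]
      exact Nat.mul_div_cancel_left _ (by positivity)
    exact h1
  have haZ : a ^ 2 ^ (m - 1) ∈ center S := by
    have h1 : ζ⁻¹ * a ^ 2 ^ (m - 1) ∈ D := by
      rw [← QuotientGroup.eq, hζ2, hpow]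
    have h2 : a ^ 2 ^ (m - 1) = ζ * (ζ⁻¹ * a ^ 2 ^ (m - 1)) := by group
    rw [h2]
    exact mul_mem hζZ (hDZ h1)
  have hb2Z : b ^ 2 ∈ center S := by
    have h2 : b ^ 2 = b ^ 2 * (a ^ 2 ^ (m - 1))⁻¹ * a ^ 2 ^ (m - 1) := by group
    rw [h2]
    exact mul_mem (hDZ hb2) haZ
  -- images of central elements
  have hZimg : ∀ z ∈ center S, (z : S ⧸ D) ∈ zpowers (a : S ⧸ D) := by
    intro z hz
    by_cases h1 : (z : S ⧸ D) = 1
    · rw [h1]; exact one_mem _
    · have h2 : orderOf (z : S ⧸ D) = 2 := by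
        apply orderOf_eq_prime
        · rw [← QuotientGroup.mk_pow, hZ2 z hz]; rfl
        · exact h1
      rw [hu _ h2, ← hpow, QuotientGroup.mk_pow]
      exact pow_mem (mem_zpowers _) _
  have hbZ : b ∉ center S := fun h => hb (hZimg b h)
  -- `e`
  have he : (a ^ 2 ^ (m - 2)) ^ 2 = a ^ 2 ^ (m - 1) := by
    rw [← pow_mul, ← pow_succ, show m - 2 + 1 = m - 1 by omega]
  have heZ : a ^ 2 ^ (m - 2) ∉ center S := by
    intro h
    have h1 := hZ2 _ h
    rw [he] at h1
    have h2 := hpow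
    rw [h1] at h2
    have h3 : orderOf x0 = 2 := hx0
    rw [← h2] at h3
    have h4 : ((1 : S) : S ⧸ D) = 1 := rfl
    rw [h4, orderOf_one] at h3
    omega
  have hH1 : a ^ 2 ^ (m - 1) = b ^ 2 := by
    rw [← he]
    exact hT _ _ heZ hbZ (by rw [he]; exact haZ) hb2Z
  -- the conjugation
  obtain ⟨c, hcdef⟩ : ∃ c, c = b * a * b⁻¹ * a := ⟨_, rfl⟩
  rw [← hcdef] at hc
  have hcZ : c ∈ center S := hDZ hc
  have hbaZ : b * a ∉ center S := by
    intro h
    have h1 := hZimg _ h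
    have h2 : ((b * a : S) : S ⧸ D) = (b : S ⧸ D) * (a : S ⧸ D) := rfl
    rw [h2] at h1
    apply hb
    have h3 := mul_mem h1 (inv_mem (mem_zpowers (a : S ⧸ D)))
    simpa using h3
  have hba2 : (b * a) ^ 2 = c * b ^ 2 := by
    have h1 : b * a * b⁻¹ = c * a⁻¹ := by rw [hcdef]; group
    have h2 : a⁻¹ * b ^ 2 * a = b ^ 2 := by
      rw [← hcen _ hb2Z a⁻¹]
      group
    calc (b * a) ^ 2 = (b * a * b⁻¹) * (b ^ 2 * a) := by
          rw [pow_two, pow_two]; group
      _ = c * (a⁻¹ * b ^ 2 * a) := by rw [h1]; group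
      _ = c * b ^ 2 := by rw [h2]
  have hc1 : c = 1 := by
    have h1 := hT _ _ hbaZ hbZ (by rw [hba2]; exact mul_mem hcZ hb2Z) hb2Z
    rw [hba2] at h1
    simpa using h1
  have hbab : b * a * b⁻¹ = a⁻¹ := by
    rw [hc1] at hcdef
    have : b * a * b⁻¹ = (b * a * b⁻¹ * a) * a⁻¹ := by group
    rw [this, ← hcdef, one_mul]
  -- the order of `a`
  have ha4 : a ^ 2 ^ m = 1 := by
    have e : 2 ^ m = 2 ^ (m - 1) * 2 := by
      rw [← pow_succ]; congr 1; omega
    rw [e, pow_mul]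
    exact hZ2 _ haZ
  have hordA : orderOf a = 2 ^ m := by
    apply Nat.dvd_antisymm (orderOf_dvd_of_pow_eq_one ha4)
    rw [← ha]
    exact orderOf_map_dvd (QuotientGroup.mk' D) a
  -- the subgroup
  let Q : Subgroup S := closure {a, b}
  have haQ : a ∈ Q := subset_closure (by simp)
  have hbQ : b ∈ Q := subset_closure (by simp)
  have hconj : ∀ i : ℤ, b * a ^ i = a ^ (-i) * b := by
    intro i
    have h1 : b * a ^ i * b⁻¹ = (a⁻¹) ^ i := by rw [← conj_zpow, hbab]
    calc b * a ^ i = (b * a ^ i * b⁻¹) * b := by group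
      _ = a ^ (-i) * b := by rw [h1]; simp
  have hw : ∃ t : ℤ, b ^ 2 = a ^ t := ⟨((2 ^ (m - 1) : ℕ) : ℤ), by rw [zpow_natCast, hH1]⟩
  obtain ⟨t, ht⟩ := hw
  have hbinv : b⁻¹ = a ^ (-t) * b := by
    have h1 : a ^ (-t) * b = (b ^ 2)⁻¹ * b := by rw [ht]; simp
    rw [h1]; group
  have hform : ∀ x ∈ Q, ∃ i : ℤ, x = a ^ i ∨ x = a ^ i * b := by
    intro x hx
    induction hx using Subgroup.closure_induction with
    | mem x hx =>
      rcases hx with rfl | hx
      · exact ⟨1, Or.inl (by simp)⟩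
      · rw [Set.mem_singleton_iff] at hx
        subst hx
        exact ⟨0, Or.inr (by simp)⟩
    | one => exact ⟨0, Or.inl (by simp)⟩
    | mul x y _ _ hx hy =>
      obtain ⟨i, hi⟩ := hx
      obtain ⟨j, hj⟩ := hy
      rcases hi with rfl | rfl <;> rcases hj with rfl | rfl
      · exact ⟨i + j, Or.inl (by rw [zpow_add])⟩
      · exact ⟨i + j, Or.inr (by rw [zpow_add]; group)⟩
      · refine ⟨i - j, Or.inr ?_⟩
        rw [mul_assoc, hconj, ← mul_assoc, ← zpow_add, sub_eq_add_neg]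
      · refine ⟨i - j + t, Or.inl ?_⟩
        have : a ^ i * b * (a ^ j * b) = a ^ i * (b * a ^ j) * b := by group
        rw [this, hconj, zpow_add, zpow_sub, ← ht, pow_two]
        group
    | inv x _ hx =>
      obtain ⟨i, hi⟩ := hx
      rcases hi with rfl | rfl
      · exact ⟨-i, Or.inl (by simp)⟩
      · refine ⟨i - t, Or.inr ?_⟩
        have h1 : b⁻¹ * a ^ (-i) = a ^ i * b⁻¹ := by
          rw [hbinv, mul_assoc, hconj, ← mul_assoc, ← zpow_add]
          rw [neg_neg, ← mul_assoc, ← zpow_add]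
          congr 2
          ring
        rw [mul_inv_rev, ← zpow_neg, h1, hbinv, ← mul_assoc, ← zpow_add, sub_eq_add_neg]
  -- the projection
  let φ : Q →* S ⧸ D := (QuotientGroup.mk' D).comp Q.subtype
  have hφinj : Function.Injective φ := by
    rw [injective_iff_map_eq_one]
    rintro ⟨x, hx⟩ hx1
    have hx1' : (x : S ⧸ D) = 1 := hx1
    apply Subtype.ext
    show x = 1
    obtain ⟨i, hi⟩ := hform x hx
    rcases hi with rfl | rfl
    · have h1 : (a : S ⧸ D) ^ i = 1 := hx1'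
      rw [← orderOf_dvd_iff_zpow_eq_one, ha, ← hordA, orderOf_dvd_iff_zpow_eq_one] at h1
      exact h1
    · exfalso
      have h1 : (a : S ⧸ D) ^ i * (b : S ⧸ D) = 1 := hx1'
      apply hb
      have h2 : (b : S ⧸ D) = ((a : S ⧸ D) ^ i)⁻¹ := eq_inv_of_mul_eq_one_right h1
      rw [h2]
      exact inv_mem (zpow_mem (mem_zpowers _) i)
  have hidx : (zpowers (a : S ⧸ D)).index = 2 := by
    have h1 := Subgroup.card_mul_index (zpowers (a : S ⧸ D))
    rw [Nat.card_zpowers, ha, hcard, pow_succ] at h1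
    exact Nat.eq_of_mul_eq_mul_left (by positivity) h1
  have hφsurj : Function.Surjective φ := by
    intro y
    have hmemrange : ∀ i : ℤ, (a : S ⧸ D) ^ i = φ ⟨a ^ i, zpow_mem haQ i⟩ := fun i => rfl
    by_cases hy : y ∈ zpowers (a : S ⧸ D)
    · obtain ⟨i, rfl⟩ := hy
      exact ⟨⟨a ^ i, zpow_mem haQ i⟩, rfl⟩
    · have h1 : y * (b : S ⧸ D)⁻¹ ∈ zpowers (a : S ⧸ D) := by
        rw [Subgroup.mul_mem_iff_of_index_two hidx, inv_mem_iff]
        exact iff_of_false hy hb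
      obtain ⟨i, hi⟩ := h1
      refine ⟨⟨a ^ i * b, mul_mem (zpow_mem haQ i) hbQ⟩, ?_⟩
      have h2 : (a : S ⧸ D) ^ i = y * (b : S ⧸ D)⁻¹ := hi
      show (a : S ⧸ D) ^ i * (b : S ⧸ D) = y
      rw [h2]; group
  let eQ : Q ≃* S ⧸ D := MulEquiv.ofBijective φ ⟨hφinj, hφsurj⟩
  refine ⟨D, Q, ⟨le_top, le_top, ?_, ?_, ?_⟩, ?_, ?_, ?_⟩
  · intro x hx y _
    exact hcen x (hDZ hx) y
  · rw [eq_bot_iff]
    intro x hx
    obtain ⟨hxD, hxQ⟩ := Subgroup.mem_inf.mp hx
    have h1 : φ ⟨x, hxQ⟩ = 1 := (hmk x).mp hxD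
    have h2 := hφinj (h1.trans (map_one φ).symm)
    rw [Subgroup.mem_bot]
    exact congrArg Subtype.val h2
  · rw [eq_top_iff]
    intro g _
    obtain ⟨q, hq⟩ := hφsurj (g : S ⧸ D)
    have h1 : ((q : S) : S ⧸ D) = (g : S ⧸ D) := hq
    have h2 : (q : S)⁻¹ * g ∈ D := by rw [← QuotientGroup.eq, h1]
    have h3 : g = ((q : S)⁻¹ * g) * ((q : S)⁻¹ * g)⁻¹ * g := by group
    have h4 : g = (q : S) * ((q : S)⁻¹ * g) := by group
    rw [h4]
    exact mul_mem ((le_sup_right : Q ≤ D ⊔ Q) q.2) ((le_sup_left : D ≤ D ⊔ Q) h2)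
  · rw [Cfsg.Agent.Lib.PGroup.Basic.isElementaryAbelian_iff]
    exact ⟨fun x hx y _ => hcen x (hDZ hx) y, fun x hx => hZ2 x (hDZ hx)⟩
  · intro hQc
    apply hna
    refine isMulCommutative_iff.mpr fun x y => ?_
    have := hQc.is_comm.comm (eQ.symm x) (eQ.symm y)
    have h2 := congrArg eQ this
    simpa using h2
  · refine ⟨eQ.symm x0, ?_, ?_⟩
    · show orderOf (eQ.symm x0) = 2
      rw [MulEquiv.orderOf_eq]
      exact hx0
    · intro q hq
      have h1 : orderOf (eQ q) = 2 := by rw [MulEquiv.orderOf_eq]; exact hq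
      rw [← hu _ h1]
      simp

/-- Let S be a finite 2-group whose centre Z(S) has n ≥ 2 distinct maximal subgroups C₁, …, Cₙ with trivial intersection such that each quotient S/Cᵢ is a non-abelian group with exactly one involution (a generalized quaternion group). Then S is the internal direct product of an elementary abelian subgroup and a non-abelian subgroup with exactly one involution. -/
theorem result {S : Type*} [Group S] [Finite S]
    (hS : IsPGroup 2 S) (n : ℕ) (hn : 2 ≤ n) (C : Fin n → Subgroup ↥(Subgroup.center S))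
    (hCmax : ∀ i, IsCoatom (C i)) (hCinj : Function.Injective C) (hCint : ⨅ i, C i = ⊥)
    (hCq : ∀ i, ∃ (_ : ((C i).map (Subgroup.center S).subtype).Normal),
      ¬ IsMulCommutative (S ⧸ (C i).map (Subgroup.center S).subtype) ∧
      ∃! x : S ⧸ (C i).map (Subgroup.center S).subtype, orderOf x = 2) :
    ∃ E Q : Subgroup S, Cfsg.IsInternalDirectProduct E Q ⊤ ∧ Cfsg.IsElementaryAbelian 2 E ∧
      ¬ IsMulCommutative ↥Q ∧ ∃! x : ↥Q, orderOf x = 2 := by
  haveI : Fact (Nat.Prime 2) := ⟨Nat.prime_two⟩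
  have hZp : IsPGroup 2 (center S) := hS.to_subgroup _
  have hidx : ∀ i, (C i).index = 2 := fun i =>
    Cfsg.Agent.Lib.PGroup.Basic.index_eq_of_isCoatom hZp (hCmax i)
  have hiInf : ∀ z : center S, (∀ i, z ∈ C i) → z = 1 := by
    intro z hz
    have : z ∈ ⨅ i, C i := Subgroup.mem_iInf.mpr hz
    rw [hCint, Subgroup.mem_bot] at this
    exact this
  have hZ2 : ∀ z ∈ center S, z ^ 2 = 1 := by
    intro z hz
    have h1 := hiInf (⟨z, hz⟩ ^ 2) (fun i => Subgroup.sq_mem_of_index_two (hidx i) _)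
    simpa using congrArg Subtype.val h1
  have hmemD : ∀ i (x : center S), (x : S) ∈ (C i).map (center S).subtype ↔ x ∈ C i := by
    intro i x
    simp
  -- squares outside
  have hsq : ∀ i (x : S), x ∉ center S → x ^ 2 ∉ (C i).map (center S).subtype := by
    intro i x hx hx2
    obtain ⟨hn', _, x0, _, hu⟩ := hCq i
    haveI := hn'
    have hne : C i ≠ ⊤ := (hCmax i).1
    obtain ⟨ζ, hζ⟩ : ∃ ζ : center S, ζ ∉ C i := by
      by_contra hcon
      push Not at hcon
      exact hne (eq_top_iff.mpr fun y _ => hcon y)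
    have hζD : (ζ : S) ∉ (C i).map (center S).subtype := fun h => hζ ((hmemD i ζ).mp h)
    have hmk : ∀ y : S, y ∈ (C i).map (center S).subtype ↔
        (y : S ⧸ (C i).map (center S).subtype) = 1 := fun y => (QuotientGroup.eq_one_iff y).symm
    have hζ2 : ((ζ : S) : S ⧸ (C i).map (center S).subtype) = x0 := by
      apply hu
      apply orderOf_eq_prime
      · rw [← QuotientGroup.mk_pow, hZ2 ζ ζ.2]; rfl
      · intro h; exact hζD ((hmk _).mpr h)
    by_cases h1 : (x : S ⧸ (C i).map (center S).subtype) = 1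
    · apply hx
      have := (hmk x).mpr h1
      obtain ⟨z, _, rfl⟩ := this
      exact z.2
    · have h2 : orderOf (x : S ⧸ (C i).map (center S).subtype) = 2 := by
        apply orderOf_eq_prime
        · rw [← QuotientGroup.mk_pow]
          exact (hmk _).mp hx2
        · exact h1
      have h3 : (x : S ⧸ (C i).map (center S).subtype) = ((ζ : S) : S ⧸ (C i).map (center S).subtype) := by
        rw [hu _ h2, hζ2]
      have h4 : x⁻¹ * (ζ : S) ∈ (C i).map (center S).subtype := by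
        rw [← QuotientGroup.eq, h3]
      obtain ⟨z, _, hz⟩ := h4
      apply hx
      have h5 : x = (ζ : S) * (z : S)⁻¹ := by
        have h6 : (z : S) = x⁻¹ * (ζ : S) := hz
        rw [h6]; group
      rw [h5]
      exact mul_mem ζ.2 (inv_mem z.2)
  have hT : ∀ x y : S, x ∉ center S → y ∉ center S → x ^ 2 ∈ center S → y ^ 2 ∈ center S → x ^ 2 = y ^ 2 := by
    intro x y hx hy hx2 hy2
    have h1 := hiInf (⟨x ^ 2, hx2⟩ * (⟨y ^ 2, hy2⟩)⁻¹) (fun i => by
      rw [Subgroup.mul_mem_iff_of_index_two (hidx i), inv_mem_iff]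
      apply iff_of_false
      · intro h
        exact hsq i x hx ((hmemD i _).mpr h)
      · intro h
        exact hsq i y hy ((hmemD i _).mpr h))
    have h2 : x ^ 2 * (y ^ 2)⁻¹ = 1 := by simpa using congrArg Subtype.val h1
    exact mul_inv_eq_one.mp h2
  let i0 : Fin n := ⟨0, by omega⟩
  obtain ⟨hn', hna, huniq⟩ := hCq i0
  haveI := hn'
  have hDZ : (C i0).map (center S).subtype ≤ center S := by
    rintro _ ⟨z, _, rfl⟩
    exact z.2
  have hζ : ∃ ζ ∈ center S, ζ ∉ (C i0).map (center S).subtype := by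
    have hne : C i0 ≠ ⊤ := (hCmax i0).1
    obtain ⟨ζ, hζ⟩ : ∃ ζ : center S, ζ ∉ C i0 := by
      by_contra hcon
      push Not at hcon
      exact hne (eq_top_iff.mpr fun y _ => hcon y)
    exact ⟨ζ, ζ.2, fun h => hζ ((hmemD i0 ζ).mp h)⟩
  exact main_aux hS _ hDZ hna huniq hZ2 hT hζ

end Cfsg.Agent.S3201
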