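import Cfsg.Statements.S3202
import Mathlib
import Cfsg.Agent.Lib.PGroup.QuatQuot
-- import your own Cfsg.Agent.* helpers here

set_option autoImplicit false
open Cfsg

namespace Cfsg.Agent.S3202

/-- Let S be a finite 2-group of 2-rank exactly 2 and D a maximal subgroup of the centre of S such that S/D is a non-abelian group with exactly one involution (a generalized quaternion group). Then S has a nontrivial cyclic characteristic subgroup. -/
theorem result {S : Type*} [Group S]
    [Finite S] (hS : IsPGroup 2 S) (hr2 : Cfsg.PRankLE 2 2 S) (hr1 : ¬ Cfsg.PRankLE 2 1 S)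
    (D : Subgroup ↥(Subgroup.center S)) (hD : IsCoatom D)
    (hq : ∃ (_ : (D.map (Subgroup.center S).subtype).Normal),
      ¬ IsMulCommutative (S ⧸ D.map (Subgroup.center S).subtype) ∧
      ∃! x : S ⧸ D.map (Subgroup.center S).subtype, orderOf x = 2) :
    ∃ C : Subgroup S, C ≠ ⊥ ∧ IsCyclic ↥C ∧ C.Characteristic := by
  obtain ⟨hn, hna, hu⟩ := hq
  haveI := hn
  refine ⟨commutator S, ?_, Cfsg.Agent.Lib.PGroup.QuatQuot.commutator_isCyclic hS _ ?_ hna hu, inferInstance⟩
  · intro hbot
    apply hna
    have h1 : IsMulCommutative S := (commutator_eq_bot_iff S).mp hbot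
    refine isMulCommutative_iff.mpr fun x y => ?_
    obtain ⟨a, rfl⟩ := QuotientGroup.mk_surjective x
    obtain ⟨b, rfl⟩ := QuotientGroup.mk_surjective y
    have := h1.is_comm.comm a b
    exact congrArg (fun w : S => (w : S ⧸ D.map (Subgroup.center S).subtype)) this
  · rintro _ ⟨z, _, rfl⟩
    exact z.2

end Cfsg.Agent.S3202
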