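import Cfsg.Statements.S3206
import Cfsg.Agent.Lib.PSL2.KleinAut
import Cfsg.Agent.Lib.PSL2.JankoRee
import Cfsg.Agent.Lib.Basic.SylowUtil

set_option autoImplicit false
open Cfsg

namespace Cfsg.Agent.S3206

/-- Let G be a non-abelian finite simple group with abelian Sylow 2-subgroups, and let t be an involution of G whose centralizer is a maximal subgroup of G and is the direct product of the subgroup generated by t with a subgroup E having a normal subgroup isomorphic to PSL(2, q), q odd and greater than 3, with trivial centralizer in E. Then every finite perfect group having a central 2-subgroup with quotient isomorphic to G has that central subgroup trivial (G has no nontrivial perfect central extension by a 2-group), and every automorphism of G of 2-power order that fixes every element of some Sylow 2-subgroup of G is inner. -/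
theorem result {G : Type*} [Group G] [Finite G] [IsSimpleGroup G]
    (hG : ¬ IsMulCommutative G) (hab : ∀ S : Sylow 2 G, IsMulCommutative ↥(S : Subgroup G))
    (t : G) (ht : orderOf t = 2) (hmax : IsCoatom (Subgroup.centralizer ({t} : Set G)))
    (E : Subgroup G) (hE : Cfsg.IsInternalDirectProduct (Subgroup.zpowers t) E (Subgroup.centralizer ({t} : Set G)))
    {F : Type*} [Field F] [Fintype F] (hFo : Odd (Fintype.card F)) (hF3 : 3 < Fintype.card F)
    (N : Subgroup ↥E) [N.Normal] (hN : Nonempty (↥N ≃* Matrix.ProjectiveSpecialLinearGroup (Fin 2) F))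
    (hNc : Subgroup.centralizer (N : Set ↥E) = ⊥) :
    (∀ (L : Type) (_ : Group L) (_ : Finite L) (Z : Subgroup L) (_ : Z.Normal), commutator L = ⊤ → Z ≤ Subgroup.center L →
        IsPGroup 2 ↥Z → Nonempty (L ⧸ Z ≃* G) → Z = ⊥) ∧
    (∀ (φ : G ≃* G) (k : ℕ), φ ^ (2 ^ k) = 1 → (∃ S : Sylow 2 G, ∀ s ∈ (S : Subgroup G), φ s = s) →
        ∃ g : G, ∀ x : G, φ x = g * x * g⁻¹) := by
  classical
  obtain ⟨e₀⟩ := hN
  have h2F : (2 : F) ≠ 0 := Cfsg.Agent.Lib.PSL2.TorusCore.two_ne_zero_of_odd_card hFo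
  have htt : t * t = 1 := by
    have := pow_orderOf_eq_one t
    rwa [ht, pow_two] at this
  have ht1 : t ≠ 1 := by
    rintro rfl
    simp at ht
  obtain ⟨hle1, hle2, hcomm, hinf, hsup⟩ := hE
  have memC : ∀ x : G, x ∈ Subgroup.centralizer ({t} : Set G) ↔ t * x = x * t := by
    intro x
    rw [Subgroup.mem_centralizer_iff]
    simp
  have hteE : ∀ e ∈ E, t * e = e * t := hcomm t (Subgroup.mem_zpowers t)
  have htE : t ∉ E := by
    intro h
    have h1 : t ∈ Subgroup.zpowers t ⊓ E := Subgroup.mem_inf.2 ⟨Subgroup.mem_zpowers t, h⟩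
    rw [hinf] at h1
    exact ht1 (Subgroup.mem_bot.1 h1)
  -- decomposition of the centralizer
  have hdecC : ∀ c ∈ Subgroup.centralizer ({t} : Set G), ∃ e ∈ E, c = e ∨ c = t * e := by
    let S : Subgroup G :=
      { carrier := {c | ∃ e ∈ E, c = e ∨ c = t * e}
        mul_mem' := by
          rintro a b ⟨e, he, ha | ha⟩ ⟨e', he', hb | hb⟩ <;> rw [ha, hb]
          · exact ⟨e * e', mul_mem he he', Or.inl rfl⟩
          · exact ⟨e * e', mul_mem he he', Or.inr (by
              calc e * (t * e') = (e * t) * e' := by group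
                _ = (t * e) * e' := by rw [hteE e he]
                _ = t * (e * e') := by group)⟩
          · exact ⟨e * e', mul_mem he he', Or.inr (by group)⟩
          · exact ⟨e * e', mul_mem he he', Or.inl (by
              calc t * e * (t * e') = t * (e * t) * e' := by group
                _ = t * (t * e) * e' := by rw [hteE e he]
                _ = (t * t) * (e * e') := by group
                _ = e * e' := by rw [htt, one_mul])⟩
        one_mem' := ⟨1, one_mem _, Or.inl rfl⟩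
        inv_mem' := by
          rintro a ⟨e, he, ha | ha⟩ <;> rw [ha]
          · exact ⟨e⁻¹, inv_mem he, Or.inl rfl⟩
          · refine ⟨e⁻¹, inv_mem he, Or.inr ?_⟩
            have h3 : t⁻¹ = t := inv_eq_of_mul_eq_one_left htt
            rw [mul_inv_rev, h3]
            have h4 := hteE e⁻¹ (inv_mem he)
            exact h4.symm }
    have hle : Subgroup.centralizer ({t} : Set G) ≤ S := by
      rw [← hsup]
      apply sup_le
      · rw [Subgroup.zpowers_le]
        exact ⟨1, one_mem _, Or.inr (by simp)⟩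
      · exact fun e he => ⟨e, he, Or.inl rfl⟩
    exact fun c hc => hle hc
  -- the subgroup `N'`
  let N' : Subgroup G := N.map E.subtype
  let e' : N' ≃* Matrix.ProjectiveSpecialLinearGroup (Fin 2) F :=
    (N.equivMapOfInjective E.subtype E.subtype_injective).symm.trans e₀
  have hN'E : ∀ n ∈ N', n ∈ E := by
    rintro _ ⟨n, -, rfl⟩
    exact n.2
  have hN'C : ∀ n ∈ N', t * n = n * t := fun n hn => hteE n (hN'E n hn)
  have hEnorm : ∀ c ∈ E, ∀ n ∈ N', c * n * c⁻¹ ∈ N' := by
    rintro c hc _ ⟨n, hn, rfl⟩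
    refine ⟨⟨c, hc⟩ * n * ⟨c, hc⟩⁻¹, ?_, rfl⟩
    exact (inferInstance : N.Normal).conj_mem n hn ⟨c, hc⟩
  have hnorm : ∀ c ∈ Subgroup.centralizer ({t} : Set G), ∀ n ∈ N', c * n * c⁻¹ ∈ N' := by
    intro c hc n hn
    obtain ⟨e, he, hce | hce⟩ := hdecC c hc <;> rw [hce]
    · exact hEnorm e he n hn
    · have h1 : t * e * n * (t * e)⁻¹ = t * (e * n * e⁻¹) * t⁻¹ := by group
      rw [h1, hN'C _ (hEnorm e he n hn)]
      simpa using hEnorm e he n hn
  have hcentE : ∀ e ∈ E, (∀ n ∈ N', e * n = n * e) → e = 1 := by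
    intro e he h
    have h1 : (⟨e, he⟩ : E) ∈ Subgroup.centralizer (N : Set E) := by
      rw [Subgroup.mem_centralizer_iff]
      intro n hn
      apply Subtype.ext
      exact (h n ⟨n, hn, rfl⟩).symm
    rw [hNc] at h1
    exact congrArg Subtype.val (Subgroup.mem_bot.1 h1)
  have hcent : ∀ c ∈ Subgroup.centralizer ({t} : Set G), (∀ n ∈ N', c * n = n * c) → c = 1 ∨ c = t := by
    intro c hc h
    obtain ⟨e, he, hce | hce⟩ := hdecC c hc <;> rw [hce] at h ⊢
    · exact Or.inl (hcentE e he h)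
    · right
      have h1 : ∀ n ∈ N', e * n = n * e := by
        intro n hn
        have h2 := h n hn
        have h3 : t * (e * n) = t * (n * e) := by
          calc t * (e * n) = t * e * n := by group
            _ = n * (t * e) := h2
            _ = (n * t) * e := by group
            _ = (t * n) * e := by rw [hN'C n hn]
            _ = t * (n * e) := by group
        exact mul_left_cancel h3
      rw [hcentE e he h1, mul_one]
  haveI hsimple0 : IsSimpleGroup (Matrix.ProjectiveSpecialLinearGroup (Fin 2) F) :=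
    Matrix.ProjectiveSpecialLinearGroup.rank_two_simple (by rw [Nat.card_eq_fintype_card]; omega)
  haveI hsimple : IsSimpleGroup N' := e'.isSimpleGroup
  -- the Sylow subgroup
  obtain ⟨T, htT⟩ : ∃ T : Sylow 2 G, t ∈ T :=
    Cfsg.Agent.Lib.Basic.SylowUtil.exists_sylow_of_orderOf (k := 1) (by rw [ht, pow_one])
  have htT' : t ∈ (T : Subgroup G) := htT
  have hTcomm := hab T
  have hTc : ∀ x ∈ (T : Subgroup G), ∀ y ∈ (T : Subgroup G), x * y = y * x := by
    intro x hx y hy
    have := hTcomm.is_comm.comm ⟨x, hx⟩ ⟨y, hy⟩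
    exact congrArg Subtype.val this
  have hTC : ∀ x ∈ (T : Subgroup G), x ∈ Subgroup.centralizer ({t} : Set G) := fun x hx =>
    (memC x).2 (hTc t htT' x hx)
  have hN'le : N' ≤ Subgroup.centralizer ({t} : Set G) := fun n hn => (memC n).2 (hN'C n hn)
  -- the Sylow subgroup of `N'`
  let V₁ : Subgroup N' := (T : Subgroup G).subgroupOf N'
  have hV₁p : IsPGroup 2 V₁ := T.2.comap_subtype
  have hV₁idx : ¬ 2 ∣ V₁.index := by
    intro h
    have h1 : (T : Subgroup G).relIndex N' ∣ (T : Subgroup G).relIndex (Subgroup.centralizer ({t} : Set G)) :=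
      Cfsg.Agent.Lib.PSL2.JankoRee.relIndex_dvd_of_normal_in hN'le hnorm
    have h3 : (T : Subgroup G).relIndex (Subgroup.centralizer ({t} : Set G)) ∣ (T : Subgroup G).index :=
      Subgroup.relIndex_dvd_index_of_le hTC
    exact T.not_dvd_index ((h.trans h1).trans h3)
  let P₀ : Subgroup (Matrix.ProjectiveSpecialLinearGroup (Fin 2) F) := V₁.comap e'.symm.toMonoidHom
  have hP₀p : IsPGroup 2 P₀ := hV₁p.comap_of_injective _ e'.symm.injective
  have hP₀idx : ¬ 2 ∣ P₀.index := by
    rw [Subgroup.index_comap_of_surjective _ e'.symm.surjective]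
    exact hV₁idx
  let P : Sylow 2 (Matrix.ProjectiveSpecialLinearGroup (Fin 2) F) := hP₀p.toSylow hP₀idx
  have hPcoe : (P : Subgroup (Matrix.ProjectiveSpecialLinearGroup (Fin 2) F)) = P₀ :=
    IsPGroup.toSylow_coe hP₀p hP₀idx
  have memP : ∀ x, x ∈ (P : Subgroup (Matrix.ProjectiveSpecialLinearGroup (Fin 2) F)) ↔
      ((e'.symm x : N') : G) ∈ (T : Subgroup G) := fun x => by
    rw [hPcoe]
    exact Iff.rfl
  have hPc : IsMulCommutative (P : Subgroup (Matrix.ProjectiveSpecialLinearGroup (Fin 2) F)) := by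
    refine ⟨⟨fun a b => Subtype.ext ?_⟩⟩
    apply e'.symm.injective
    apply Subtype.ext
    simp only [Subgroup.coe_mul, map_mul]
    exact hTc _ ((memP _).1 a.2) _ ((memP _).1 b.2)
  obtain ⟨a, b, hPP, ha, hb, hclass, hGal⟩ :=
    Cfsg.Agent.Lib.PSL2.KleinAut.exists_isPP_of_sylow hFo P hPc
  obtain ⟨f₀, hf₀3, hf₀a, hf₀b⟩ := Cfsg.Agent.Lib.PSL2.KleinAut.exists_order_three h2F hPP
  -- the elements in `G`
  let u₁ : G := ((e'.symm a : N') : G)
  let u₂ : G := ((e'.symm b : N') : G)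
  let f : G := ((e'.symm f₀ : N') : G)
  have hu₁T : u₁ ∈ (T : Subgroup G) := (memP a).1 ha
  have hu₂T : u₂ ∈ (T : Subgroup G) := (memP b).1 hb
  have hfN' : f ∈ N' := (e'.symm f₀).2
  have hft : f * t * f⁻¹ = t := by
    rw [← hN'C f hfN']
    group
  have hfu₁ : f * u₁ * f⁻¹ = u₂ := by
    have h1 := congrArg (fun x => ((e'.symm x : N') : G)) hf₀a
    simpa [map_mul, map_inv] using h1
  have hfu₂ : f * u₂ * f⁻¹ = u₁ * u₂ := by
    have h1 := congrArg (fun x => ((e'.symm x : N') : G)) hf₀b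
    simpa [map_mul, map_inv] using h1
  have hinj : ∀ x y : Matrix.ProjectiveSpecialLinearGroup (Fin 2) F,
      ((e'.symm x : N') : G) = ((e'.symm y : N') : G) → x = y := fun x y h =>
    e'.symm.injective (Subtype.ext h)
  have hu₁1 : u₁ ≠ 1 := fun h => hPP.a1 (hinj a 1 (h.trans (by simp)))
  have hu₂1 : u₂ ≠ 1 := fun h => hPP.b1 (hinj b 1 (h.trans (by simp)))
  have hu₁₂ : u₁ ≠ u₂ := fun h => hPP.ab (hinj a b h)
  have hclassG : ∀ v : N', (v : G) ∈ (T : Subgroup G) →
      (v : G) = 1 ∨ (v : G) = u₁ ∨ (v : G) = u₂ ∨ (v : G) = u₁ * u₂ := by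
    intro v hv
    have h1 : e' v ∈ (P : Subgroup (Matrix.ProjectiveSpecialLinearGroup (Fin 2) F)) := by
      rw [memP]
      simpa using hv
    have h2 : ∀ x, e' v = x → (v : G) = ((e'.symm x : N') : G) := by
      rintro x rfl
      simp
    rcases hclass _ h1 with h | h | h | h
    · left
      simpa using h2 _ h
    · right; left
      exact h2 _ h
    · right; right; left
      exact h2 _ h
    · right; right; right
      simpa using h2 _ h
  -- automorphisms of `N'`
  have hAut : ∀ (α : MulAut N') (m : ℕ), α ^ (2 ^ m) = 1 →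
      (∀ v : N', (v : G) ∈ (T : Subgroup G) → α v = v) →
      ∃ v : N', (v : G) ∈ (T : Subgroup G) ∧ α = MulAut.conj v := by
    intro α m hα hfix
    let β : MulAut (Matrix.ProjectiveSpecialLinearGroup (Fin 2) F) := MulAut.congr e' α
    have hβ : β ^ (2 ^ m) = 1 := by
      show (MulAut.congr e' α) ^ (2 ^ m) = 1
      rw [← map_pow, hα, map_one]
    have hβx : ∀ x, β x = e' (α (e'.symm x)) := fun _ => rfl
    have hβa : β a = a := by
      rw [hβx, hfix _ hu₁T]
      simp
    have hβb : β b = b := by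
      rw [hβx, hfix _ hu₂T]
      simp
    obtain ⟨p, hpc⟩ := CharP.exists F
    haveI : Fact p.Prime := ⟨CharP.char_is_prime F p⟩
    have key : ∀ v₀, v₀ ∈ (P : Subgroup (Matrix.ProjectiveSpecialLinearGroup (Fin 2) F)) →
        β = MulAut.conj v₀ → ∃ v : N', (v : G) ∈ (T : Subgroup G) ∧ α = MulAut.conj v := by
      intro v₀ hv₀ hβv
      refine ⟨e'.symm v₀, (memP v₀).1 hv₀, ?_⟩
      ext n
      have h1 := hβx (e' n)
      rw [hβv, MulAut.conj_apply] at h1
      have h2 := congrArg e'.symm h1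
      simp only [map_mul, map_inv, MulEquiv.symm_apply_apply] at h2
      rw [← h2]
      rfl
    rcases Cfsg.Agent.Lib.PSL2.KleinAut.aut_fix_of_isPP p h2F hGal hPP β m hβ hβa hβb with h | h | h | h
    · exact key 1 (one_mem _) (by rw [h, map_one])
    · exact key a ha h
    · exact key b hb h
    · exact key (a * b) (mul_mem ha hb) h
  -- `T ∩ E ≤ N'`
  have hTE : ∀ e ∈ E, e ∈ (T : Subgroup G) → e ∈ N' := by
    intro e he heT
    have heC : e ∈ Subgroup.centralizer ({t} : Set G) := hle2 he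
    let α : MulAut N' :=
      { toFun := fun n => ⟨e * n * e⁻¹, hnorm e heC n n.2⟩
        invFun := fun n => ⟨e⁻¹ * n * e, by simpa using hnorm e⁻¹ (inv_mem heC) n n.2⟩
        left_inv := fun n => Subtype.ext (by simp [mul_assoc])
        right_inv := fun n => Subtype.ext (by simp [mul_assoc])
        map_mul' := fun x y => Subtype.ext (by
          show e * ((x : G) * y) * e⁻¹ = (e * x * e⁻¹) * (e * y * e⁻¹)
          group) }
    have hαapp : ∀ n : N', ((α n : N') : G) = e * n * e⁻¹ := fun _ => rfl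
    have hαpow : ∀ (m : ℕ) (n : N'), (((α ^ m) n : N') : G) = e ^ m * n * (e ^ m)⁻¹ := by
      intro m
      induction m with
      | zero => intro n; simp
      | succ m ih =>
        intro n
        rw [pow_succ', MulAut.mul_apply, hαapp, ih, pow_succ']
        group
    obtain ⟨m, hm⟩ := T.2 ⟨e, heT⟩
    have hem : e ^ 2 ^ m = 1 := congrArg Subtype.val hm
    have hα1 : α ^ (2 ^ m) = 1 := by
      ext n
      rw [hαpow, hem]
      simp
    obtain ⟨v, hvT, hv⟩ := hAut α m hα1 (fun n hn => Subtype.ext (by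
      rw [hαapp, hTc e heT _ hn]
      group))
    have hconj : ∀ n ∈ N', e * n * e⁻¹ = v * n * (v : G)⁻¹ := by
      intro n hn
      have h1 : α ⟨n, hn⟩ = MulAut.conj v ⟨n, hn⟩ := by rw [hv]
      exact congrArg Subtype.val h1
    have h1 : (v : G)⁻¹ * e ∈ E := mul_mem (inv_mem (hN'E _ v.2)) he
    have h3 := hcentE _ h1 (fun n hn => by
      have h4 := hconj n hn
      calc (v : G)⁻¹ * e * n = (v : G)⁻¹ * (e * n * e⁻¹) * e := by group
        _ = (v : G)⁻¹ * (v * n * (v : G)⁻¹) * e := by rw [h4]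
        _ = n * ((v : G)⁻¹ * e) := by group)
    have h5 : e = v := (inv_mul_eq_one.1 h3).symm
    rw [h5]
    exact v.2
  -- generators of `T`
  have hgen : ∀ x ∈ (T : Subgroup G), ∃ (i a' b' : Fin 2),
      x = t ^ (i : ℕ) * u₁ ^ (a' : ℕ) * u₂ ^ (b' : ℕ) := by
    intro x hx
    have hcases : ∀ e : G, e ∈ E → e ∈ (T : Subgroup G) → e = 1 ∨ e = u₁ ∨ e = u₂ ∨ e = u₁ * u₂ := by
      intro e he heT
      exact hclassG ⟨e, hTE e he heT⟩ heT
    obtain ⟨e, he, hxe | hxe⟩ := hdecC x (hTC x hx)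
    · have heT : e ∈ (T : Subgroup G) := hxe ▸ hx
      rcases hcases e he heT with h | h | h | h
      · exact ⟨0, 0, 0, by rw [hxe, h]; simp⟩
      · exact ⟨0, 1, 0, by rw [hxe, h]; simp⟩
      · exact ⟨0, 0, 1, by rw [hxe, h]; simp⟩
      · exact ⟨0, 1, 1, by rw [hxe, h]; simp⟩
    · have heT : e ∈ (T : Subgroup G) := by
        have h1 : e = t⁻¹ * x := by rw [hxe]; group
        rw [h1]
        exact mul_mem (inv_mem htT') hx
      rcases hcases e he heT with h | h | h | h
      · exact ⟨1, 0, 0, by rw [hxe, h]; simp⟩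
      · exact ⟨1, 1, 0, by rw [hxe, h]; simp⟩
      · exact ⟨1, 0, 1, by rw [hxe, h]; simp⟩
      · exact ⟨1, 1, 1, by rw [hxe, h]; simp [mul_assoc]⟩
  have hsq : ∀ y ∈ (T : Subgroup G), ∀ z ∈ (T : Subgroup G), y * y = 1 → z * z = 1 → (y * z) * (y * z) = 1 := by
    intro y hy z hz h1 h3
    calc (y * z) * (y * z) = y * (z * y) * z := by group
      _ = y * (y * z) * z := by rw [hTc z hz y hy]
      _ = (y * y) * (z * z) := by group
      _ = 1 := by rw [h1, h3, one_mul]
  have hpow : ∀ y : G, y * y = 1 → ∀ m : ℕ, y ^ m * y ^ m = 1 := by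
    intro y hy m
    rcases Cfsg.Agent.Lib.PSL2.KleinAut.pow_eq_of_sq hy m with h | h
    · rw [h, one_mul]
    · rw [h, hy]
  have hu₁2 : u₁ * u₁ = 1 := by
    have h1 := congrArg (fun x => ((e'.symm x : N') : G)) hPP.aa
    simpa [map_mul] using h1
  have hu₂2 : u₂ * u₂ = 1 := by
    have h1 := congrArg (fun x => ((e'.symm x : N') : G)) hPP.bb
    simpa [map_mul] using h1
  have hT2 : ∀ x ∈ (T : Subgroup G), x * x = 1 := by
    intro x hx
    obtain ⟨i, a', b', rfl⟩ := hgen x hx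
    exact hsq _ (mul_mem (pow_mem htT' _) (pow_mem hu₁T _)) _ (pow_mem hu₂T _)
      (hsq _ (pow_mem htT' _) _ (pow_mem hu₁T _) (hpow t htt _) (hpow u₁ hu₁2 _)) (hpow u₂ hu₂2 _)
  have hcard : 2 < Nat.card N' := by
    rw [Nat.card_congr e'.toEquiv]
    have h1 : ({1, a, b} : Finset (Matrix.ProjectiveSpecialLinearGroup (Fin 2) F)).card = 3 := by
      rw [Finset.card_insert_of_notMem, Finset.card_insert_of_notMem, Finset.card_singleton]
      · simp [hPP.ab]
      · simp [hPP.a1.symm, hPP.b1.symm]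
    have h3 := Finset.card_le_univ ({1, a, b} : Finset (Matrix.ProjectiveSpecialLinearGroup (Fin 2) F))
    rw [h1] at h3
    rw [Nat.card_eq_fintype_card]
    omega
  have hfN : f ∈ Subgroup.normalizer ((T : Subgroup G) : Set G) := by
    apply Cfsg.Agent.Lib.PSL2.JankoRee.mem_normalizer_of_conj_mem
    intro x hx
    obtain ⟨i, a', b', rfl⟩ := hgen x hx
    have h1 : f * (t ^ (i : ℕ) * u₁ ^ (a' : ℕ) * u₂ ^ (b' : ℕ)) * f⁻¹ =
        t ^ (i : ℕ) * u₂ ^ (a' : ℕ) * (u₁ * u₂) ^ (b' : ℕ) := by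
      have e : (MulAut.conj f) (t ^ (i : ℕ) * u₁ ^ (a' : ℕ) * u₂ ^ (b' : ℕ)) =
          ((MulAut.conj f) t) ^ (i : ℕ) * ((MulAut.conj f) u₁) ^ (a' : ℕ) *
            ((MulAut.conj f) u₂) ^ (b' : ℕ) := by
        simp only [map_mul, map_pow]
      simp only [MulAut.conj_apply] at e
      rw [hft, hfu₁, hfu₂] at e
      exact e
    rw [h1]
    exact mul_mem (mul_mem (pow_mem htT' _) (pow_mem hu₂T _)) (pow_mem (mul_mem hu₁T hu₂T) _)
  refine ⟨?_, ?_⟩
  · intro L _ _ Z _ hperf hZc hZ2 ⟨e₁⟩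
    obtain ⟨w, hw, hwt⟩ := Cfsg.Agent.Lib.PSL2.JankoRee.exists_normalizer_move hG T (hab T) htT' ht1
    refine Cfsg.Agent.Lib.PSL2.JankoRee.central_ext_trivial T hT2 hTc htT' hu₁T hu₂T hft hfu₁ hfu₂ hgen
      w hw hwt (e₁.toMonoidHom.comp (QuotientGroup.mk' Z)) ?_ Z ?_ hZc hZ2 hperf
    · exact e₁.surjective.comp (QuotientGroup.mk'_surjective Z)
    · ext x
      simp
  · rintro φ k hφ ⟨S, hS⟩
    obtain ⟨g, hg⟩ := MulAction.exists_smul_eq G T S
    let γ : MulAut G := MulAut.conj g⁻¹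
    let φ' : MulAut G := γ * φ * γ⁻¹
    have hγ : ∀ x, γ⁻¹ x = g * x * g⁻¹ := fun x => by
      simp [γ]
    have hφ'x : ∀ x, φ' x = g⁻¹ * φ (g * x * g⁻¹) * g := fun x => by
      show γ (φ (γ⁻¹ x)) = _
      rw [hγ]
      simp [γ]
    have hφ'pow : φ' ^ (2 ^ k) = 1 := by
      show (γ * φ * γ⁻¹) ^ (2 ^ k) = 1
      rw [conj_pow, hφ]
      simp
    have hfix' : ∀ x ∈ (T : Subgroup G), φ' x = x := by
      intro x hx
      have h1 : g * x * g⁻¹ ∈ (S : Subgroup G) := by
        rw [← hg, Sylow.coe_subgroup_smul]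
        have := Subgroup.smul_mem_pointwise_smul _ (MulAut.conj g) (T : Subgroup G) hx
        simpa [MulAut.smul_def, MulAut.conj_apply] using this
      rw [hφ'x, hS _ h1]
      group
    have hL : ∀ (ψ : MulAut G) (m : ℕ), ψ ^ (2 ^ m) = 1 → (∀ x ∈ (T : Subgroup G), ψ x = x) →
        ∃ v : G, (v = 1 ∨ v = u₁ ∨ v = u₂ ∨ v = u₁ * u₂) ∧
          ∀ x ∈ Subgroup.centralizer ({t} : Set G), ψ x = v * x * v⁻¹ := by
      intro ψ m hψ hψT
      obtain ⟨v, hvN, hvT, hv⟩ := Cfsg.Agent.Lib.PSL2.JankoRee.local_aut T htT' hTc hN'C hnorm hcent htt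
        hcard hAut ψ m hψ hψT
      exact ⟨v, hclassG ⟨v, hvN⟩ hvT, hv⟩
    obtain ⟨h, hh⟩ := Cfsg.Agent.Lib.PSL2.JankoRee.aut_inner hG T hT2 hTc htT' ht1 hu₁T hu₂T hu₁1 hu₂1 hu₁₂
      hfN hft hfu₁ hfu₂ hmax hL φ' k hφ'pow hfix'
    refine ⟨g * h * g⁻¹, fun x => ?_⟩
    have h1 := hh (g⁻¹ * x * g)
    rw [hφ'x] at h1
    have h2 : g * (g⁻¹ * x * g) * g⁻¹ = x := by group
    rw [h2] at h1
    calc φ x = g * (g⁻¹ * φ x * g) * g⁻¹ := by group
      _ = g * (h * (g⁻¹ * x * g) * h⁻¹) * g⁻¹ := by rw [h1]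
      _ = g * h * g⁻¹ * x * (g * h * g⁻¹)⁻¹ := by group

end Cfsg.Agent.S3206
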