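import Cfsg.Statements.S3209
import Cfsg.Agent.Lib.PSL2.TraceZero
import Mathlib

set_option autoImplicit false
open Cfsg

namespace Cfsg.Agent.S3209

open Cfsg.Agent.Lib.PSL2.Basic Cfsg.Agent.Lib.PSL2.Torus Cfsg.Agent.Lib.PSL2.TraceZero
open scoped MatrixGroups

section Aux

variable {G : Type*} [Group G] {F : Type*} [Field F] [Fintype F]

theorem two_ne_zero_of_odd (hodd : Odd (Fintype.card F)) : (2 : F) ≠ 0 := by
  apply Ring.two_ne_zero
  intro h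
  have := FiniteField.even_card_iff_char_two.mp h
  rw [Nat.odd_iff] at hodd
  omega

theorem e_j (h2 : (2 : F) ≠ 0) (L : Subgroup G) (e : L ≃* SL(2, F)) (j : G) (hj : orderOf j = 2)
    (hjL : j ∈ L) : e ⟨j, hjL⟩ = -1 := by
  have hj2 : j * j = 1 := by
    rw [← pow_two, ← hj]
    exact pow_orderOf_eq_one j
  have h1 : e ⟨j, hjL⟩ * e ⟨j, hjL⟩ = 1 := by
    rw [← map_mul]
    have : (⟨j, hjL⟩ : L) * ⟨j, hjL⟩ = 1 := Subtype.ext hj2
    rw [this, map_one]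
  rcases (mul_self_eq_one_iff h2 _).1 h1 with h3 | h3
  · exfalso
    have h4 : (⟨j, hjL⟩ : L) = 1 := by
      apply e.injective
      rw [h3, map_one]
    have h5 : j = 1 := congrArg Subtype.val h4
    rw [h5, orderOf_one] at hj
    omega
  · exact h3

theorem eq_one_or_j (h2 : (2 : F) ≠ 0) (L : Subgroup G) (e : L ≃* SL(2, F)) (j : G) (hj : orderOf j = 2)
    (hjL : j ∈ L) (a : G) (ha : a ∈ L) (haa : a * a = 1) : a = 1 ∨ a = j := by
  have h1 : e ⟨a, ha⟩ * e ⟨a, ha⟩ = 1 := by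
    rw [← map_mul]
    have : (⟨a, ha⟩ : L) * ⟨a, ha⟩ = 1 := Subtype.ext haa
    rw [this, map_one]
  rcases (mul_self_eq_one_iff h2 _).1 h1 with h3 | h3
  · left
    have h4 : (⟨a, ha⟩ : L) = 1 := by
      apply e.injective
      rw [h3, map_one]
    exact congrArg Subtype.val h4
  · right
    have h4 : (⟨a, ha⟩ : L) = ⟨j, hjL⟩ := by
      apply e.injective
      rw [h3, e_j h2 L e j hj hjL]
    exact congrArg Subtype.val h4

theorem tr_e (h2 : (2 : F) ≠ 0) (L : Subgroup G) (e : L ≃* SL(2, F)) (j : G) (hj : orderOf j = 2)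
    (hjL : j ∈ L) (a : G) (ha : a ∈ L) (haa : a * a = j) : tr (e ⟨a, ha⟩) = 0 := by
  rw [← mul_self_eq_neg_one_iff, ← map_mul, ← e_j h2 L e j hj hjL]
  congr 1
  exact Subtype.ext haa

theorem conj_of_sq_j (h2 : (2 : F) ≠ 0) (L : Subgroup G) (e : L ≃* SL(2, F)) (j : G) (hj : orderOf j = 2)
    (hjL : j ∈ L) (a a' : G) (ha : a ∈ L) (ha' : a' ∈ L) (haa : a * a = j) (haa' : a' * a' = j) :
    ∃ g ∈ L, g * a * g⁻¹ = a' := by
  obtain ⟨g, hg⟩ := exists_conj_of_tr_eq_zero h2 _ _ (tr_e h2 L e j hj hjL a ha haa)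
    (tr_e h2 L e j hj hjL a' ha' haa')
  refine ⟨(e.symm g : L), (e.symm g).2, ?_⟩
  have h3 : (e.symm g : L) * ⟨a, ha⟩ * (e.symm g)⁻¹ = ⟨a', ha'⟩ := by
    apply e.injective
    rw [map_mul, map_mul, map_inv, MulEquiv.apply_symm_apply]
    exact hg
  exact congrArg Subtype.val h3

theorem exists_sq_j (h2 : (2 : F) ≠ 0) (L : Subgroup G) (e : L ≃* SL(2, F)) (j : G) (hj : orderOf j = 2)
    (hjL : j ∈ L) : ∃ a ∈ L, a * a = j := by
  refine ⟨(e.symm comp0 : L), (e.symm comp0).2, ?_⟩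
  have h3 : (e.symm comp0 : L) * (e.symm comp0) = ⟨j, hjL⟩ := by
    apply e.injective
    rw [map_mul, MulEquiv.apply_symm_apply, comp0_mul_self, e_j h2 L e j hj hjL]
  exact congrArg Subtype.val h3

theorem mem_sup_iff (L₁ L₂ : Subgroup G) (hc : ∀ x ∈ L₁, ∀ y ∈ L₂, x * y = y * x) (y : G) :
    y ∈ L₁ ⊔ L₂ ↔ ∃ a ∈ L₁, ∃ b ∈ L₂, y = a * b := by
  constructor
  · intro hy
    let M : Subgroup G :=
      { carrier := {y | ∃ a ∈ L₁, ∃ b ∈ L₂, y = a * b}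
        mul_mem' := by
          rintro _ _ ⟨a, ha, b, hb, rfl⟩ ⟨a', ha', b', hb', rfl⟩
          refine ⟨a * a', L₁.mul_mem ha ha', b * b', L₂.mul_mem hb hb', ?_⟩
          calc a * b * (a' * b') = a * (b * a') * b' := by group
            _ = a * (a' * b) * b' := by rw [(hc a' ha' b hb).symm]
            _ = a * a' * (b * b') := by group
        one_mem' := ⟨1, L₁.one_mem, 1, L₂.one_mem, by simp⟩
        inv_mem' := by
          rintro _ ⟨a, ha, b, hb, rfl⟩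
          refine ⟨a⁻¹, L₁.inv_mem ha, b⁻¹, L₂.inv_mem hb, ?_⟩
          have := hc a⁻¹ (L₁.inv_mem ha) b⁻¹ (L₂.inv_mem hb)
          rw [mul_inv_rev, this] }
    have hle : L₁ ⊔ L₂ ≤ M := by
      apply sup_le
      · intro a ha
        exact ⟨a, ha, 1, L₂.one_mem, by simp⟩
      · intro b hb
        exact ⟨1, L₁.one_mem, b, hb, by simp⟩
    exact hle hy
  · rintro ⟨a, ha, b, hb, rfl⟩
    exact Subgroup.mul_mem _ (Subgroup.mem_sup_left ha) (Subgroup.mem_sup_right hb)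

end Aux

/-- Let L₁ ≅ SL₂(q₁) and L₂ ≅ SL₂(q₂), q₁ and q₂ odd, be elementwise-commuting subgroups of a finite group meeting in ⟨j⟩ for an involution j. Then L₁L₂ has exactly two conjugacy classes of involutions: the central involution j, and one further class (there is an involution x ≠ j in L₁L₂, and every involution of L₁L₂ other than j is conjugate to x by an element of L₁L₂). -/
theorem result {G : Type*} [Group G] [Finite G]
    {F₁ : Type*} [Field F₁] [Fintype F₁] {F₂ : Type*} [Field F₂] [Fintype F₂]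
    (hF₁ : Odd (Fintype.card F₁)) (hF₂ : Odd (Fintype.card F₂)) (L₁ L₂ : Subgroup G)
    (e₁ : ↥L₁ ≃* Matrix.SpecialLinearGroup (Fin 2) F₁) (e₂ : ↥L₂ ≃* Matrix.SpecialLinearGroup (Fin 2) F₂)
    (hc : ∀ x ∈ L₁, ∀ y ∈ L₂, x * y = y * x) (j : G) (hj : orderOf j = 2) (hm : L₁ ⊓ L₂ = Subgroup.zpowers j) :
    ∃ x ∈ L₁ ⊔ L₂, orderOf x = 2 ∧ x ≠ j ∧
      ∀ y ∈ L₁ ⊔ L₂, orderOf y = 2 → y = j ∨ ∃ g ∈ L₁ ⊔ L₂, g * x * g⁻¹ = y := by
  have h21 := two_ne_zero_of_odd hF₁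
  have h22 := two_ne_zero_of_odd hF₂
  have hjj : j ∈ L₁ ⊓ L₂ := by
    rw [hm]; exact Subgroup.mem_zpowers j
  have hj1 : j ∈ L₁ := hjj.1
  have hj2 : j ∈ L₂ := hjj.2
  have hjsq : j * j = 1 := by
    rw [← pow_two, ← hj]
    exact pow_orderOf_eq_one j
  have hjne : j ≠ 1 := by
    rintro rfl
    rw [orderOf_one] at hj
    omega
  have hinter : ∀ z, z ∈ L₁ → z ∈ L₂ → z = 1 ∨ z = j := by
    intro z hz1 hz2
    have : z ∈ Subgroup.zpowers j := by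
      rw [← hm]
      exact ⟨hz1, hz2⟩
    obtain ⟨k, rfl⟩ := Subgroup.mem_zpowers_iff.1 this
    rcases Int.even_or_odd' k with ⟨m, rfl | rfl⟩
    · left
      rw [zpow_mul, zpow_two, hjsq, one_zpow]
    · right
      rw [zpow_add, zpow_mul, zpow_two, hjsq, one_zpow, one_mul, zpow_one]
  obtain ⟨a₀, ha₀, ha₀a⟩ := exists_sq_j h21 L₁ e₁ j hj hj1
  obtain ⟨b₀, hb₀, hb₀b⟩ := exists_sq_j h22 L₂ e₂ j hj hj2
  have hsq : ∀ a ∈ L₁, ∀ b ∈ L₂, (a * b) * (a * b) = (a * a) * (b * b) := by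
    intro a ha b hb
    calc (a * b) * (a * b) = a * (b * a) * b := by group
      _ = a * (a * b) * b := by rw [(hc a ha b hb).symm]
      _ = (a * a) * (b * b) := by group
  refine ⟨a₀ * b₀, Subgroup.mul_mem _ (Subgroup.mem_sup_left ha₀) (Subgroup.mem_sup_right hb₀), ?_, ?_, ?_⟩
  · have h1 : (a₀ * b₀) ^ 2 = 1 := by
      rw [pow_two, hsq a₀ ha₀ b₀ hb₀, ha₀a, hb₀b, hjsq]
    apply orderOf_eq_prime h1
    intro h
    have h3 : a₀ = b₀⁻¹ := eq_inv_of_mul_eq_one_left h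
    have h4 : a₀ ∈ L₂ := by
      rw [h3]; exact L₂.inv_mem hb₀
    rcases hinter a₀ ha₀ h4 with h5 | h5
    · rw [h5] at ha₀a
      simp at ha₀a
      exact hjne ha₀a.symm
    · rw [h5, hjsq] at ha₀a
      exact hjne ha₀a.symm
  · intro h
    have h3 : a₀ = j * b₀⁻¹ := eq_mul_inv_of_mul_eq h
    have h4 : a₀ ∈ L₂ := by
      rw [h3]; exact L₂.mul_mem hj2 (L₂.inv_mem hb₀)
    rcases hinter a₀ ha₀ h4 with h5 | h5
    · rw [h5] at ha₀a
      simp at ha₀a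
      exact hjne ha₀a.symm
    · rw [h5, hjsq] at ha₀a
      exact hjne ha₀a.symm
  · intro y hy hyo
    obtain ⟨a, ha, b, hb, rfl⟩ := (mem_sup_iff L₁ L₂ hc y).1 hy
    have hy2 : (a * b) * (a * b) = 1 := by
      rw [← pow_two, ← hyo]
      exact pow_orderOf_eq_one _
    rw [hsq a ha b hb] at hy2
    have hab : a * a = (b * b)⁻¹ := eq_inv_of_mul_eq_one_left hy2
    have haa2 : a * a ∈ L₂ := by
      rw [hab]; exact L₂.inv_mem (L₂.mul_mem hb hb)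
    rcases hinter (a * a) (L₁.mul_mem ha ha) haa2 with h1 | h1
    · -- a * a = 1
      left
      have hbb : b * b = 1 := by
        rw [h1] at hab
        exact inv_eq_one.1 hab.symm
      have hane : a * b ≠ 1 := by
        intro h
        rw [h, orderOf_one] at hyo
        omega
      rcases eq_one_or_j h21 L₁ e₁ j hj hj1 a ha h1 with ha1 | ha1
      · rcases eq_one_or_j h22 L₂ e₂ j hj hj2 b hb hbb with hb1 | hb1
        · exact absurd (by rw [ha1, hb1, one_mul]) hane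
        · rw [ha1, hb1, one_mul]
      · rcases eq_one_or_j h22 L₂ e₂ j hj hj2 b hb hbb with hb1 | hb1
        · rw [ha1, hb1, mul_one]
        · exact absurd (by rw [ha1, hb1]; exact hjsq) hane
    · -- a * a = j
      right
      have hbb : b * b = j := by
        rw [h1] at hab
        have : b * b = j⁻¹ := inv_eq_iff_eq_inv.1 hab.symm
        rw [this]
        exact inv_eq_of_mul_eq_one_left hjsq
      obtain ⟨g₁, hg₁, hg₁a⟩ := conj_of_sq_j h21 L₁ e₁ j hj hj1 a₀ a ha₀ ha ha₀a h1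
      obtain ⟨g₂, hg₂, hg₂b⟩ := conj_of_sq_j h22 L₂ e₂ j hj hj2 b₀ b hb₀ hb hb₀b hbb
      refine ⟨g₁ * g₂, Subgroup.mul_mem _ (Subgroup.mem_sup_left hg₁) (Subgroup.mem_sup_right hg₂), ?_⟩
      rw [← hg₁a, ← hg₂b]
      have e1 : a₀ * g₂ = g₂ * a₀ := hc a₀ ha₀ g₂ hg₂
      have e2 : g₁ * (g₂ * b₀ * g₂⁻¹) = (g₂ * b₀ * g₂⁻¹) * g₁ :=
        hc g₁ hg₁ _ (L₂.mul_mem (L₂.mul_mem hg₂ hb₀) (L₂.inv_mem hg₂))
      calc g₁ * g₂ * (a₀ * b₀) * (g₁ * g₂)⁻¹ = g₁ * (g₂ * a₀) * b₀ * g₂⁻¹ * g₁⁻¹ := by group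
        _ = g₁ * (a₀ * g₂) * b₀ * g₂⁻¹ * g₁⁻¹ := by rw [e1]
        _ = g₁ * a₀ * (g₂ * b₀ * g₂⁻¹) * g₁⁻¹ := by group
        _ = (g₁ * a₀ * g₁⁻¹) * (g₁ * (g₂ * b₀ * g₂⁻¹)) * g₁⁻¹ := by group
        _ = (g₁ * a₀ * g₁⁻¹) * ((g₂ * b₀ * g₂⁻¹) * g₁) * g₁⁻¹ := by rw [e2]
        _ = g₁ * a₀ * g₁⁻¹ * (g₂ * b₀ * g₂⁻¹) := by group

end Cfsg.Agent.S3209
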