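import Cfsg.Statements.S3211
import Cfsg.Agent.S0201
import Cfsg.Agent.Lib.Blocks.TwoSL2
import Cfsg.Agent.Lib.Blocks.TwoSL2Mat
import Cfsg.Agent.Lib.Components.ZStarMain
import Cfsg.Agent.Lib.Basic.PCore

set_option autoImplicit false
open Cfsg

namespace Cfsg.Agent.S3211

open Cfsg.Agent.Lib.Blocks.TwoSL2 Cfsg.Agent.Lib.Blocks.TwoSL2Mat
open Cfsg.Agent.Lib.Components.ZStarIso Cfsg.Agent.Lib.Components.ZStarMain

lemma two_ne {F : Type*} [Field F] [Fintype F] (h : Odd (Fintype.card F)) : (2 : F) ≠ 0 := by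
  apply Ring.two_ne_zero
  intro h2
  have h3 := FiniteField.even_card_iff_char_two.1 h2
  rw [Nat.odd_iff] at h
  omega

lemma inv_conj {G : Type*} [Group G] {a x : G} (h : a * x = x⁻¹ * a) (m : ℕ) :
    x ^ m * a * (x ^ m)⁻¹ = x ^ (2 * m) * a := by
  have h' : SemiconjBy a x⁻¹ x := by
    have : a * x⁻¹ = x * a := by
      calc a * x⁻¹ = x * (x⁻¹ * a) * x⁻¹ := by group
        _ = x * (a * x) * x⁻¹ := by rw [h]
        _ = x * a := by group
    exact this
  have hs : a * (x⁻¹) ^ m = x ^ m * a := (h'.pow_right m).eq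
  calc x ^ m * a * (x ^ m)⁻¹ = x ^ m * (a * (x⁻¹) ^ m) := by rw [inv_pow]; group
    _ = x ^ m * (x ^ m * a) := by rw [hs]
    _ = x ^ (2 * m) * a := by rw [two_mul, pow_add]; group

lemma isIso_of_weak {G : Type*} [Group G] [Finite G] {j : G} (hj : orderOf j = 2)
    (hW : ∀ g : G, g * j * g⁻¹ * j = j * (g * j * g⁻¹) → g * j * g⁻¹ = j) : IsIso j := by
  refine ⟨hj, fun g hne => ?_⟩
  have hjj : j * j = 1 := by rw [← sq, ← hj, pow_orderOf_eq_one]
  set y := g * j * g⁻¹ with hy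
  have hyy : y * y = 1 := by
    rw [hy]
    calc g * j * g⁻¹ * (g * j * g⁻¹) = g * (j * j) * g⁻¹ := by group
      _ = 1 := by rw [hjj]; group
  set x := y * j with hx
  have hji : j⁻¹ = j := inv_eq_of_mul_eq_one_left hjj
  have hyi : y⁻¹ = y := inv_eq_of_mul_eq_one_left hyy
  have hxi : x⁻¹ = j * y := by rw [hx, mul_inv_rev, hji, hyi]
  have h1 : j * x = x⁻¹ * j := by rw [hxi, hx]; group
  have h2 : y * x = x⁻¹ * y := by
    rw [hxi, hx]
    calc y * (y * j) = (y * y) * j := by group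
      _ = j := by rw [hyy, one_mul]
      _ = j * (y * y) := by rw [hyy, mul_one]
      _ = j * y * y := by group
  by_contra hodd
  rw [Nat.not_odd_iff_even] at hodd
  obtain ⟨k, hk⟩ := hodd
  have hpos : 0 < orderOf x := orderOf_pos x
  have hk0 : 0 < k := by omega
  set w := x ^ k with hw
  have hw1 : w ≠ 1 := pow_ne_one_of_lt_orderOf hk0.ne' (by omega)
  have hww : w * w = 1 := by rw [hw, ← pow_add, ← hk, pow_orderOf_eq_one]
  have hwi : w⁻¹ = w := inv_eq_of_mul_eq_one_left hww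
  have hwc : j * w = w * j := by
    have h3 : j * x ^ k = (x⁻¹) ^ k * j := (SemiconjBy.pow_right h1 k).eq
    rw [inv_pow, ← hw, hwi] at h3
    exact h3
  have hcomm : (w * j) * j = j * (w * j) := by
    calc (w * j) * j = (j * w) * j := by rw [hwc]
      _ = j * (w * j) := by rw [mul_assoc]
  have hne2 : w * j ≠ j := by
    intro h3
    exact hw1 (by simpa using h3)
  rcases Nat.even_or_odd' k with ⟨m, hm | hm⟩
  · have hc : x ^ m * j * (x ^ m)⁻¹ = w * j := by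
      rw [inv_conj h1, hw, hm]
    apply hne2
    have := hW (x ^ m) (by rw [hc]; exact hcomm)
    rwa [hc] at this
  · have hc : x ^ m * y * (x ^ m)⁻¹ = w * j := by
      have h4 : x * j = y := by rw [hx, mul_assoc, hjj, mul_one]
      rw [inv_conj h2, hw, hm, pow_succ, mul_assoc, h4]
    have hc' : (x ^ m * g) * j * (x ^ m * g)⁻¹ = w * j := by
      rw [← hc, hy]
      group
    apply hne2
    have := hW (x ^ m * g) (by rw [hc']; exact hcomm)
    rwa [hc'] at this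

lemma mem_sup_commute {G : Type*} [Group G] {L₁ L₂ : Subgroup G} (hc : ∀ x ∈ L₁, ∀ y ∈ L₂, x * y = y * x)
    {x : G} (hx : x ∈ L₁ ⊔ L₂) : ∃ a ∈ L₁, ∃ b ∈ L₂, x = a * b := by
  let H : Subgroup G :=
    { carrier := {x | ∃ a ∈ L₁, ∃ b ∈ L₂, x = a * b}
      mul_mem' := by
        rintro _ _ ⟨a, ha, b, hb, rfl⟩ ⟨c, hc', d, hd, rfl⟩
        refine ⟨a * c, L₁.mul_mem ha hc', b * d, L₂.mul_mem hb hd, ?_⟩
        calc a * b * (c * d) = a * (b * c) * d := by group
          _ = a * (c * b) * d := by rw [hc c hc' b hb]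
          _ = a * c * (b * d) := by group
      one_mem' := ⟨1, L₁.one_mem, 1, L₂.one_mem, by simp⟩
      inv_mem' := by
        rintro _ ⟨a, ha, b, hb, rfl⟩
        refine ⟨a⁻¹, L₁.inv_mem ha, b⁻¹, L₂.inv_mem hb, ?_⟩
        rw [mul_inv_rev]
        have : a⁻¹ * b⁻¹ = b⁻¹ * a⁻¹ := hc _ (L₁.inv_mem ha) _ (L₂.inv_mem hb)
        exact this.symm }
  have hle : L₁ ⊔ L₂ ≤ H :=
    sup_le (fun a ha => ⟨a, ha, 1, L₂.one_mem, by simp⟩) (fun b hb => ⟨1, L₁.one_mem, b, hb, by simp⟩)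
  exact hle hx

/-- Let G be a finite group with subgroups L₁ ≅ SL₂(q₁) and L₂ ≅ SL₂(q₂), q₁ and q₂ odd prime powers, which commute elementwise and meet in ⟨j⟩ for an involution j, and suppose L₁L₂ has index 2 in C_G(j). If some n ∈ C_G(j) with n² = j interchanges L₁ and L₂ under conjugation (so that C_G(j) = L₁L₂⟨n⟩), then G = C_G(j)O(G). -/
theorem result {G : Type*} [Group G] [Finite G]
    {F₁ : Type*} [Field F₁] [Fintype F₁] {F₂ : Type*} [Field F₂] [Fintype F₂]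
    (hF₁ : Odd (Fintype.card F₁)) (hF₂ : Odd (Fintype.card F₂)) (L₁ L₂ : Subgroup G)
    (e₁ : ↥L₁ ≃* Matrix.SpecialLinearGroup (Fin 2) F₁) (e₂ : ↥L₂ ≃* Matrix.SpecialLinearGroup (Fin 2) F₂)
    (hc : ∀ x ∈ L₁, ∀ y ∈ L₂, x * y = y * x) (j : G) (hj : orderOf j = 2) (hm : L₁ ⊓ L₂ = Subgroup.zpowers j)
    (hle : L₁ ⊔ L₂ ≤ Subgroup.centralizer ({j} : Set G)) (hi : (L₁ ⊔ L₂).relIndex (Subgroup.centralizer ({j} : Set G)) = 2) (n : G) (hn : n ∈ Subgroup.centralizer ({j} : Set G))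
    (hn2 : n ^ 2 = j) (hswap : L₁.map (MulAut.conj n).toMonoidHom = L₂) :
    Subgroup.centralizer ({j} : Set G) ⊔ Cfsg.oddCore G = ⊤ := by
  classical
  have h2₁ : (2 : F₁) ≠ 0 := two_ne hF₁
  have h2₂ : (2 : F₂) ≠ 0 := two_ne hF₂
  have hjj : j * j = 1 := by rw [← sq, ← hj, pow_orderOf_eq_one]
  have hj1 : j ≠ 1 := by
    intro h
    rw [h, orderOf_one] at hj
    omega
  have hjm : j ∈ L₁ ⊓ L₂ := by
    rw [hm]
    exact Subgroup.mem_zpowers j
  have hjL₁ : j ∈ L₁ := hjm.1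
  have hjL₂ : j ∈ L₂ := hjm.2
  have hji : j⁻¹ = j := inv_eq_of_mul_eq_one_left hjj
  have hmeet : ∀ x ∈ L₁, x ∈ L₂ → x = 1 ∨ x = j := by
    intro x hx1 hx2
    have h3 : x ∈ Subgroup.zpowers j := by
      rw [← hm]
      exact ⟨hx1, hx2⟩
    obtain ⟨k, rfl⟩ := Subgroup.mem_zpowers_iff.1 h3
    rcases Int.even_or_odd' k with ⟨m, rfl | rfl⟩
    · left
      rw [zpow_mul]
      have : j ^ (2 : ℤ) = 1 := by
        rw [zpow_two, hjj]
      rw [this, one_zpow]
    · right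
      rw [zpow_add, zpow_mul]
      have : j ^ (2 : ℤ) = 1 := by
        rw [zpow_two, hjj]
      rw [this, one_zpow, one_mul, zpow_one]
  have hn2' : n * n = j := by rw [← sq, hn2]
  have hsw₁ : ∀ a ∈ L₁, n * a * n⁻¹ ∈ L₂ := by
    intro a ha
    rw [← hswap]
    exact ⟨a, ha, rfl⟩
  have hsw₂ : ∀ b ∈ L₂, n * b * n⁻¹ ∈ L₁ := by
    intro b hb
    rw [← hswap] at hb
    obtain ⟨a, ha, rfl⟩ := hb
    have h3 : a * j = j * a := hc a ha j hjL₂
    have h4 : n * ((MulAut.conj n).toMonoidHom a) * n⁻¹ = a := by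
      change n * (n * a * n⁻¹) * n⁻¹ = a
      calc n * (n * a * n⁻¹) * n⁻¹ = (n * n) * a * (n * n)⁻¹ := by group
        _ = j * a * j⁻¹ := by rw [hn2']
        _ = a * j * j⁻¹ := by rw [h3]
        _ = a := by group
    rw [h4]
    exact ha
  -- `n` is outside `L₁L₂`
  have hnout : n ∉ L₁ ⊔ L₂ := by
    intro hnm
    obtain ⟨a, ha, b, hb, rfl⟩ := mem_sup_commute hc hnm
    obtain ⟨α, hα, hα1, hαj⟩ := exists_other L₁ e₁ j h2₁ hjj
    have h3 := hsw₁ α hα
    have h4 : (a * b) * α * (a * b)⁻¹ = a * α * a⁻¹ := by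
      have h5 : α * b = b * α := hc α hα b hb
      calc (a * b) * α * (a * b)⁻¹ = a * (b * α) * b⁻¹ * a⁻¹ := by group
        _ = a * (α * b) * b⁻¹ * a⁻¹ := by rw [h5]
        _ = a * α * a⁻¹ := by group
    rw [h4] at h3
    have h5 : a * α * a⁻¹ ∈ L₁ := L₁.mul_mem (L₁.mul_mem ha hα) (L₁.inv_mem ha)
    rcases hmeet _ h5 h3 with h6 | h6
    · apply hα1
      calc α = a⁻¹ * (a * α * a⁻¹) * a := by group
        _ = 1 := by rw [h6]; group
    · apply hαj
      have h7 : a * j = j * a := hc a ha j hjL₂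
      calc α = a⁻¹ * (a * α * a⁻¹) * a := by group
        _ = a⁻¹ * j * a := by rw [h6]
        _ = a⁻¹ * (j * a) := by group
        _ = a⁻¹ * (a * j) := by rw [h7]
        _ = j := by group
  -- the coset decomposition
  have hcos : ∀ x, x * j = j * x →
      (∃ a ∈ L₁, ∃ b ∈ L₂, x = a * b) ∨ (∃ a ∈ L₁, ∃ b ∈ L₂, x = n * (a * b)) := by
    intro x hx
    set C := Subgroup.centralizer ({j} : Set G) with hC
    have hxC : x ∈ C := by
      rw [hC, Subgroup.mem_centralizer_singleton_iff]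
      exact hx
    set H := (L₁ ⊔ L₂).subgroupOf C with hH
    have hidx : H.index = 2 := hi
    by_cases hxm : x ∈ L₁ ⊔ L₂
    · exact Or.inl (mem_sup_commute hc hxm)
    · right
      have hXH : (⟨x, hxC⟩ : C) ∉ H := by
        rw [hH, Subgroup.mem_subgroupOf]
        exact hxm
      have hNH : (⟨n, hn⟩ : C)⁻¹ ∉ H := by
        rw [hH, Subgroup.inv_mem_iff, Subgroup.mem_subgroupOf]
        exact hnout
      have h3 : (⟨n, hn⟩ : C)⁻¹ * ⟨x, hxC⟩ ∈ H := by
        rw [Subgroup.mul_mem_iff_of_index_two hidx]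
        exact iff_of_false hNH hXH
      rw [hH, Subgroup.mem_subgroupOf] at h3
      obtain ⟨a, ha, b, hb, hab⟩ := mem_sup_commute hc h3
      refine ⟨a, ha, b, hb, ?_⟩
      rw [← hab]
      simp
  obtain ⟨hinv₁, hex₁, han₁⟩ := props_of_equiv h2₁ e₁ hjL₁ hjj hj1
  obtain ⟨hinv₂, hex₂, han₂⟩ := props_of_equiv h2₂ e₂ hjL₂ hjj hj1
  have T : Two L₁ L₂ j n :=
    { j2 := hjj
      j1 := hj1
      n2 := hn2'
      jL₁ := hjL₁
      jL₂ := hjL₂
      comm := hc
      meet := hmeet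
      sw₁ := hsw₁
      sw₂ := hsw₂
      cos := hcos
      inv₁ := hinv₁
      inv₂ := hinv₂
      ex₁ := hex₁
      ex₂ := hex₂
      an₁ := han₁
      an₂ := han₂ }
  have hIso : IsIso j := isIso_of_weak hj (fun g hg => eq_of_commute_conj T g hg)
  have hBS : BrauerSuzuki := fun X _ _ S m e h => Cfsg.Agent.S0201.result S m e h
  obtain ⟨N, hNn, hNo, hNc⟩ := zstar hBS _ G rfl j hIso
  have hNle : N ≤ Cfsg.oddCore G :=
    Cfsg.Agent.Lib.Basic.PCore.le_pPrimeCore hNn (Nat.coprime_two_right.2 hNo)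
  rw [eq_top_iff]
  intro g _
  set y := g * j * g⁻¹ with hy
  have hyy : y * y = 1 := by
    rw [hy]
    calc g * j * g⁻¹ * (g * j * g⁻¹) = g * (j * j) * g⁻¹ := by group
      _ = 1 := by rw [hjj]; group
  have hmem : j * y ∈ N := by
    have := hNc g
    rw [hji] at this
    have h3 : j * g * j * g⁻¹ = j * y := by rw [hy]; group
    rwa [h3] at this
  have hodd : Odd (orderOf (j * y)) := by
    have h3 : orderOf (⟨j * y, hmem⟩ : N) ∣ Nat.card N := orderOf_dvd_natCard _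
    have h4 : orderOf (⟨j * y, hmem⟩ : N) = orderOf (j * y) := Subgroup.orderOf_mk _ _
    rw [h4] at h3
    exact Odd.of_dvd_nat hNo h3
  obtain ⟨c, hcm, hcy⟩ := conj_of_odd_mul hjj hyy hodd
  have hcN : c ∈ N := (Subgroup.zpowers_le.2 hmem) hcm
  have hcg : c * g ∈ Subgroup.centralizer ({j} : Set G) := by
    rw [Subgroup.mem_centralizer_singleton_iff]
    have h3 : (c * g) * j * (c * g)⁻¹ = j := by
      have h4 : (c * g) * j * (c * g)⁻¹ = c * y * c⁻¹ := by rw [hy]; group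
      rw [h4, hcy]
    calc c * g * j = (c * g) * j * (c * g)⁻¹ * (c * g) := by group
      _ = j * (c * g) := by rw [h3]
  rw [sup_comm]
  have h3 := Subgroup.mul_mem_sup (hNle (N.inv_mem hcN)) hcg
  simpa using h3

end Cfsg.Agent.S3211
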