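import Cfsg.Statements.S3213
import Mathlib
import Cfsg.Agent.Lib.Linalg.GL2Conj
-- import your own Cfsg.Agent.* helpers here

set_option autoImplicit false
open Cfsg

namespace Cfsg.Agent.S3213

open scoped MatrixGroups

section SL2

variable {K : Type*} [Field K]

open Cfsg.Agent.Lib.Linalg.GL2Conj

/-- The central involution. -/
def zz (K : Type*) [Field K] : Matrix.SpecialLinearGroup (Fin 2) K :=
  ⟨!![-1, 0; 0, -1], by simp [Matrix.det_fin_two_of]⟩

/-- A transvection. -/
def uu (K : Type*) [Field K] : Matrix.SpecialLinearGroup (Fin 2) K :=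
  ⟨!![1, 1; 0, 1], by simp [Matrix.det_fin_two_of]⟩

lemma zz_sq : zz K * zz K = 1 := by
  apply Subtype.ext
  change !![(-1 : K), 0; 0, -1] * !![(-1 : K), 0; 0, -1] = 1
  simp [Matrix.mul_fin_two, Matrix.one_fin_two]

lemma zz_comm (g : Matrix.SpecialLinearGroup (Fin 2) K) : g * zz K = zz K * g := by
  apply Subtype.ext
  change g.1 * !![(-1 : K), 0; 0, -1] = !![(-1 : K), 0; 0, -1] * g.1
  rw [Matrix.eta_fin_two g.1]
  simp [Matrix.mul_fin_two]

lemma zz_ne (h5 : (5 : K) = 0) : zz K ≠ 1 := by
  intro h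
  have h1 := congrArg (fun g : Matrix.SpecialLinearGroup (Fin 2) K => g.1 0 0) h
  have h2 : (-1 : K) = 1 := by simpa [zz] using h1
  have h3 : (2 : K) = 0 := by linear_combination -h2
  have h4 : (1 : K) = 0 := by linear_combination h5 - 2 * h3
  exact one_ne_zero h4

lemma uu_pow (h5 : (5 : K) = 0) : uu K ^ 5 = 1 := by
  apply Subtype.ext
  have : (uu K ^ 5).1 = !![1, 1; 0, 1] ^ 5 := rfl
  rw [this]
  have h : (!![1, 1; 0, 1] : Matrix (Fin 2) (Fin 2) K) ^ 5 = !![1, 5; 0, 1] := by
    norm_num [pow_succ, Matrix.mul_fin_two]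
  rw [h, h5]
  simp [Matrix.one_fin_two]

lemma uu_ne : uu K ≠ 1 := by
  intro h
  have h1 := congrArg (fun g : Matrix.SpecialLinearGroup (Fin 2) K => g.1 0 1) h
  simp [uu] at h1

/-- The element inverting an element of order three. -/
lemma exists_y (h5 : (5 : K) = 0) (x : Matrix.SpecialLinearGroup (Fin 2) K) (hx3 : x ^ 3 = 1)
    (hx1 : x ≠ 1) :
    ∃ y : Matrix.SpecialLinearGroup (Fin 2) K, y * y = zz K ∧ x * y = y * x⁻¹ := by
  set A : Matrix (Fin 2) (Fin 2) K := x.1 with hA
  have hdet : A 0 0 * A 1 1 - A 0 1 * A 1 0 = 1 := by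
    have := x.2
    rwa [Matrix.det_fin_two] at this
  have hA3 : A * A * A = 1 := by
    have := congrArg Subtype.val hx3
    have h2 : (x ^ 3).1 = x.1 ^ 3 := rfl
    rw [h2] at this
    rw [pow_succ, pow_two] at this
    exact this
  have e00 := congrFun (congrFun hA3 0) 0
  have e01 := congrFun (congrFun hA3 0) 1
  have e10 := congrFun (congrFun hA3 1) 0
  have e11 := congrFun (congrFun hA3 1) 1
  simp [Matrix.mul_apply, Fin.sum_univ_two, Matrix.one_apply] at e00 e01 e10 e11
  set a := A 0 0 with ha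
  set b := A 0 1 with hb
  set c := A 1 0 with hc
  set d := A 1 1 with hd
  have h00 : ((a + d) ^ 2 - 1) * a - (a + d) = 1 := by
    linear_combination e00 + (a + (a + d)) * hdet
  have h01 : ((a + d) ^ 2 - 1) * b = 0 := by
    linear_combination e01 + b * hdet
  have h10 : ((a + d) ^ 2 - 1) * c = 0 := by
    linear_combination e10 + c * hdet
  have h11 : ((a + d) ^ 2 - 1) * d - (a + d) = 1 := by
    linear_combination e11 + (d + (a + d)) * hdet
  have hns : ¬ IsScalar2 A := by
    rintro ⟨hb0, hc0, had⟩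
    rw [← hb] at hb0
    rw [← hc] at hc0
    rw [← ha, ← hd] at had
    rw [hb0, hc0, ← had] at hdet
    rw [hb0, hc0] at e00
    have h2 : a * a = 1 := by linear_combination hdet
    have h3 : a = 1 := by
      linear_combination e00 - a * h2
    apply hx1
    apply Subtype.ext
    change A = _
    rw [Matrix.eta_fin_two A, ← ha, ← hb, ← hc, ← hd, hb0, hc0, ← had, h3]
    simp [Matrix.one_fin_two]
  have htt : (a + d) ^ 2 - 1 = 0 := by
    by_contra hne
    apply hns
    have hb0 : b = 0 := (mul_eq_zero.mp h01).resolve_left hne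
    have hc0 : c = 0 := (mul_eq_zero.mp h10).resolve_left hne
    have had : a = d := by
      have : ((a + d) ^ 2 - 1) * (a - d) = 0 := by linear_combination h00 - h11
      exact sub_eq_zero.mp ((mul_eq_zero.mp this).resolve_left hne)
    exact ⟨hb0, hc0, had⟩
  have ht : a + d = -1 := by
    rw [htt, zero_mul] at h00
    linear_combination -h00
  obtain ⟨P, hP, hAP⟩ := exists_conj_compan A hns
  have htr : A.trace = -1 := by
    rw [Matrix.trace_fin_two]
    exact ht
  have hdt : A.det = 1 := x.2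
  rw [htr, hdt] at hAP
  have hPu : IsUnit P.det := isUnit_iff_ne_zero.mpr hP
  have hP1 : P * P⁻¹ = 1 := Matrix.mul_nonsing_inv P hPu
  have hP2 : P⁻¹ * P = 1 := Matrix.nonsing_inv_mul P hPu
  let x0 : Matrix (Fin 2) (Fin 2) K := compan (-1) 1
  let y0 : Matrix (Fin 2) (Fin 2) K := !![2, 0; 2, -2]
  have hx0 : x0 = !![0, -1; 1, -1] := rfl
  have hAP' : A * P = P * x0 := hAP
  have hy0sq : y0 * y0 = !![-1, 0; 0, -1] := by
    have h4 : (4 : K) = -1 := by linear_combination h5
    simp only [y0, Matrix.mul_fin_two]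
    norm_num
    rw [h4]
  have hxy0 : x0 * y0 = y0 * (x0 * x0) := by
    rw [hx0]
    simp only [y0, Matrix.mul_fin_two]
    norm_num
  have hdy0 : y0.det = 1 := by
    rw [Matrix.det_fin_two_of]
    linear_combination -h5
  have hPA : P⁻¹ * A = x0 * P⁻¹ := by
    calc P⁻¹ * A = P⁻¹ * A * (P * P⁻¹) := by rw [hP1, Matrix.mul_one]
      _ = P⁻¹ * (A * P) * P⁻¹ := by simp only [Matrix.mul_assoc]
      _ = P⁻¹ * (P * x0) * P⁻¹ := by rw [hAP']
      _ = (P⁻¹ * P) * x0 * P⁻¹ := by simp only [Matrix.mul_assoc]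
      _ = x0 * P⁻¹ := by rw [hP2, Matrix.one_mul]
  let Y : Matrix (Fin 2) (Fin 2) K := P * y0 * P⁻¹
  have hdY : Y.det = 1 := by
    rw [Matrix.det_mul, Matrix.det_mul, hdy0, mul_one, ← Matrix.det_mul, hP1, Matrix.det_one]
  refine ⟨⟨Y, hdY⟩, ?_, ?_⟩
  · apply Subtype.ext
    change Y * Y = !![-1, 0; 0, -1]
    calc Y * Y = P * y0 * (P⁻¹ * P) * y0 * P⁻¹ := by simp only [Y, Matrix.mul_assoc]
      _ = P * (y0 * y0) * P⁻¹ := by rw [hP2, Matrix.mul_one]; simp only [Matrix.mul_assoc]
      _ = !![-1, 0; 0, -1] := by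
        rw [hy0sq]
        have : (!![-1, 0; 0, -1] : Matrix (Fin 2) (Fin 2) K) = -1 := by
          ext i j
          fin_cases i <;> fin_cases j <;> simp
        rw [this, Matrix.mul_neg, Matrix.neg_mul, Matrix.mul_one, hP1]
  · have hxi : x⁻¹ = x * x := by
      rw [inv_eq_iff_mul_eq_one, ← pow_three, hx3]
    rw [hxi]
    apply Subtype.ext
    change A * Y = Y * (A * A)
    calc A * Y = (A * P) * y0 * P⁻¹ := by simp only [Y, Matrix.mul_assoc]
      _ = P * (x0 * y0) * P⁻¹ := by rw [hAP']; simp only [Matrix.mul_assoc]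
      _ = P * y0 * (x0 * x0) * P⁻¹ := by rw [hxy0]; simp only [Matrix.mul_assoc]
      _ = P * y0 * (x0 * (x0 * P⁻¹)) := by simp only [Matrix.mul_assoc]
      _ = P * y0 * (x0 * (P⁻¹ * A)) := by rw [hPA]
      _ = P * y0 * ((x0 * P⁻¹) * A) := by simp only [Matrix.mul_assoc]
      _ = P * y0 * ((P⁻¹ * A) * A) := by rw [hPA]
      _ = Y * (A * A) := by simp only [Y, Matrix.mul_assoc]

end SL2

section linear

variable {F : Type*} [Field F] [Fintype F]

lemma f3_three (hF : Fintype.card F = 3) : (3 : F) = 0 := by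
  have := FiniteField.cast_card_eq_zero F
  rw [hF] at this
  exact_mod_cast this

lemma f3_two_ne (hF : Fintype.card F = 3) : (2 : F) ≠ 0 := by
  intro h
  have h3 := f3_three hF
  have : (1 : F) = 0 := by linear_combination h3 - h
  exact one_ne_zero this

lemma f3_no_sqrt (hF : Fintype.card F = 3) (a : F) : a * a ≠ -1 := by
  intro h
  have h1 := FiniteField.pow_card a
  rw [hF] at h1
  have h2 : (2 : F) * a = 0 := by linear_combination -h1 + a * h
  have h3 : a = 0 := (mul_eq_zero.mp h2).resolve_left (f3_two_ne hF)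
  rw [h3, mul_zero] at h
  have : (1 : F) = 0 := by linear_combination h
  exact one_ne_zero this

lemma coprime_card_GL (hF : Fintype.card F = 3) (d : ℕ) (hd : d ≤ 3) :
    Nat.Coprime 5 (Nat.card (GL (Fin d) F)) := by
  rw [Matrix.card_GL_field, hF]
  interval_cases d <;> simp [Fin.prod_univ_succ] <;> norm_num

/-- An endomorphism of order dividing five in dimension at most three is trivial. -/
lemma pow5_trivial (hF : Fintype.card F = 3) {U : Type*} [AddCommGroup U] [Module F U]
    [FiniteDimensional F U] (hd : Module.finrank F U ≤ 3) (T : Module.End F U) (hT : T ^ 5 = 1) :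
    T = 1 := by
  classical
  let u : (Module.End F U)ˣ := ⟨T, T ^ 4, by rw [← pow_succ']; exact hT, by rw [← pow_succ]; exact hT⟩
  let b := Module.finBasis F U
  let e : (Module.End F U)ˣ →* GL (Fin (Module.finrank F U)) F :=
    Units.map (LinearMap.toMatrixAlgEquiv b).toAlgHom.toMonoidHom
  have he : Function.Injective e :=
    Units.map_injective (f := (LinearMap.toMatrixAlgEquiv b).toAlgHom.toMonoidHom)
      (LinearMap.toMatrixAlgEquiv b).injective
  have hu5 : u ^ 5 = 1 := Units.ext hT
  have h5 : (e u) ^ 5 = 1 := by rw [← map_pow, hu5, map_one]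
  have h1 : orderOf (e u) ∣ 5 := orderOf_dvd_of_pow_eq_one h5
  have h2 : orderOf (e u) ∣ Nat.card (GL (Fin (Module.finrank F U)) F) := orderOf_dvd_natCard _
  have h3 : orderOf (e u) = 1 := Nat.eq_one_of_dvd_coprimes (coprime_card_GL hF _ hd) h1 h2
  have h4 : e u = 1 := orderOf_eq_one_iff.mp h3
  have h6 : u = 1 := he (by rw [h4, map_one])
  exact congrArg Units.val h6

lemma pow5_trivial_sub (hF : Fintype.card F = 3) {V : Type*} [AddCommGroup V] [Module F V]
    [FiniteDimensional F V] (P : Submodule F V) (hd : Module.finrank F P ≤ 3) (U : Module.End F V)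
    (hU : ∀ x ∈ P, U x ∈ P) (hU5 : U ^ 5 = 1) : ∀ x ∈ P, U x = x := by
  have h : (U.restrict hU) ^ 5 = 1 := by
    rw [Module.End.pow_restrict]
    ext x
    simp [hU5]
  have h2 := pow5_trivial hF hd _ h
  intro x hx
  have := congrArg (fun T : Module.End F P => ((T ⟨x, hx⟩ : P) : V)) h2
  exact this

/-- A central involution is `-1`. -/
lemma central_neg (hF : Fintype.card F = 3) {V : Type*} [AddCommGroup V] [Module F V]
    [FiniteDimensional F V] (h4 : Module.finrank F V = 4) (Z U : Module.End F V)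
    (hZZ : Z * Z = 1) (hZ1 : Z ≠ 1) (hUZ : U * Z = Z * U) (hU5 : U ^ 5 = 1) (hU1 : U ≠ 1) :
    Z = -1 := by
  have h3 := f3_three hF
  have hZZ' : ∀ v, Z (Z v) = v := fun v => by
    have := congrArg (fun T : Module.End F V => T v) hZZ
    exact this
  have hUZ' : ∀ v, U (Z v) = Z (U v) := fun v => by
    have := congrArg (fun T : Module.End F V => T v) hUZ
    exact this
  have h3v : ∀ v : V, v + v + v = 0 := fun v => by
    have : (3 : F) • v = 0 := by rw [h3, zero_smul]
    rw [← this, show (3 : F) = 1 + 1 + 1 by norm_num, add_smul, add_smul, one_smul]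
  let P : Submodule F V := LinearMap.ker (Z - 1)
  let Q : Submodule F V := LinearMap.ker (Z + 1)
  have hPmem : ∀ x, x ∈ P ↔ Z x = x := fun x => by
    simp [P, sub_eq_zero]
  have hQmem : ∀ x, x ∈ Q ↔ Z x = -x := fun x => by
    simp [Q, add_eq_zero_iff_eq_neg]
  have hplus : ∀ v, -v - Z v ∈ P := fun v => by
    rw [hPmem, map_sub, map_neg, hZZ']
    abel
  have hminus : ∀ v, -v + Z v ∈ Q := fun v => by
    rw [hQmem, map_add, map_neg, hZZ']
    abel
  have hsum : ∀ v : V, (-v - Z v) + (-v + Z v) = v := fun v => by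
    have := h3v v
    have h5 : (-v - Z v) + (-v + Z v) = v - (v + v + v) := by abel
    rw [h5, this, sub_zero]
  have hdisj : Disjoint P Q := by
    rw [Submodule.disjoint_def]
    intro x hx hx'
    rw [hPmem] at hx
    rw [hQmem] at hx'
    have h5 : x + x = 0 := by
      nth_rw 1 [← hx]
      rw [hx']
      exact neg_add_cancel x
    have h6 := h3v x
    rw [h5, zero_add] at h6
    exact h6
  have hdim := Submodule.finrank_add_finrank_le_of_disjoint hdisj
  by_cases hP0 : P = ⊥
  · ext1 v
    have : -v - Z v = 0 := by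
      have := hplus v
      rw [hP0] at this
      simpa using this
    have h7 : Z v = -v := by
      rw [sub_eq_zero] at this
      exact this.symm
    simp [h7]
  by_cases hQ0 : Q = ⊥
  · exfalso
    apply hZ1
    ext1 v
    have : -v + Z v = 0 := by
      have := hminus v
      rw [hQ0] at this
      simpa using this
    have h7 : Z v = v := by
      rw [neg_add_eq_zero] at this
      exact this.symm
    simp [h7]
  exfalso
  have hPpos : 0 < Module.finrank F P := Module.finrank_pos_iff.mpr
    (Submodule.nontrivial_iff_ne_bot.mpr hP0)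
  have hQpos : 0 < Module.finrank F Q := Module.finrank_pos_iff.mpr
    (Submodule.nontrivial_iff_ne_bot.mpr hQ0)
  have hUP : ∀ x ∈ P, U x = x := pow5_trivial_sub hF P (by omega) U
    (fun x hx => by
      rw [hPmem] at hx ⊢
      rw [← hUZ', hx]) hU5
  have hUQ : ∀ x ∈ Q, U x = x := pow5_trivial_sub hF Q (by omega) U
    (fun x hx => by
      rw [hQmem] at hx ⊢
      rw [← hUZ', hx, map_neg]) hU5
  apply hU1
  ext1 v
  rw [← hsum v, map_add, hUP _ (hplus v), hUQ _ (hminus v)]
  simp

/-- Square root of `-1` forces even dimension. -/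
lemma even_of_sq_neg (hF : Fintype.card F = 3) {W : Type*} [AddCommGroup W] [Module F W]
    [FiniteDimensional F W] (J : Module.End F W) (hJ : J * J = -1) :
    Even (Module.finrank F W) := by
  by_contra hodd
  rw [Nat.not_even_iff_odd] at hodd
  have h1 : LinearMap.det J * LinearMap.det J = -1 := by
    rw [← map_mul, hJ]
    have : (-1 : Module.End F W) = (-1 : F) • (1 : Module.End F W) := by
      ext x
      simp
    rw [this, LinearMap.det_smul, map_one, mul_one, hodd.neg_one_pow]
  exact f3_no_sqrt hF _ h1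

/-- Fixed vectors in invariant subspaces. -/
lemma exists_fix_of_sub (hF : Fintype.card F = 3) {V : Type*} [AddCommGroup V] [Module F V]
    (X : Module.End F V) (hX3 : ∀ v, X (X (X v)) = v) (U : Submodule F V)
    (hU : ∀ u ∈ U, X u ∈ U) (hne : U ≠ ⊥) : ∃ u ∈ U, u ≠ 0 ∧ X u = u := by
  have h3 := f3_three hF
  have h3v : ∀ v : V, v + v + v = 0 := fun v => by
    have : (3 : F) • v = 0 := by rw [h3, zero_smul]
    rw [← this, show (3 : F) = 1 + 1 + 1 by norm_num, add_smul, add_smul, one_smul]
  obtain ⟨u₀, hu₀, hu₀0⟩ := Submodule.exists_mem_ne_zero_of_ne_bot hne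
  by_cases h1 : X u₀ = u₀
  · exact ⟨u₀, hu₀, hu₀0, h1⟩
  let u₁ := X u₀ - u₀
  have hu₁ : u₁ ∈ U := U.sub_mem (hU _ hu₀) hu₀
  have hu₁0 : u₁ ≠ 0 := sub_ne_zero.mpr h1
  by_cases h2 : X u₁ = u₁
  · exact ⟨u₁, hu₁, hu₁0, h2⟩
  let u₂ := X u₁ - u₁
  have hu₂ : u₂ ∈ U := U.sub_mem (hU _ hu₁) hu₁
  have hu₂0 : u₂ ≠ 0 := sub_ne_zero.mpr h2
  refine ⟨u₂, hu₂, hu₂0, ?_⟩
  have h4 : X u₂ - u₂ = (X (X (X u₀)) - u₀) + (X u₀ + X u₀ + X u₀)
      - (X (X u₀) + X (X u₀) + X (X u₀)) := by
    simp only [u₂, u₁, map_sub]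
    abel
  rw [hX3, h3v, h3v, sub_self, add_zero, sub_zero] at h4
  exact sub_eq_zero.mp h4

end linear

/-- Let F be the field with 3 elements and K the field with 5 elements. For every injective homomorphism φ from SL₂(K) into the symplectic group Sp₄(F) (4 × 4 matrices g with g J gᵀ = J for the standard alternating matrix J) and every element x of order 3 of SL₂(K), the vectors of F⁴ fixed by φ(x) form a 2-dimensional subspace that is totally isotropic for the alternating form defined by J. -/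
theorem result {F : Type*} [Field F] [Fintype F] (hF : Fintype.card F = 3)
    {K : Type*} [Field K] [Fintype K] (hK : Fintype.card K = 5)
    (φ : Matrix.SpecialLinearGroup (Fin 2) K →* ↥(Matrix.symplecticGroup (Fin 2) F)) (hφ : Function.Injective φ)
    (x : Matrix.SpecialLinearGroup (Fin 2) K) (hx : orderOf x = 3) :
    Module.finrank F ↥(LinearMap.ker (Matrix.toLin' ((φ x : Matrix (Fin 2 ⊕ Fin 2) (Fin 2 ⊕ Fin 2) F)) - LinearMap.id)) = 2 ∧
      ∀ v w : Fin 2 ⊕ Fin 2 → F, (φ x : Matrix (Fin 2 ⊕ Fin 2) (Fin 2 ⊕ Fin 2) F).mulVec v = v →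
        (φ x : Matrix (Fin 2 ⊕ Fin 2) (Fin 2 ⊕ Fin 2) F).mulVec w = w →
          dotProduct v ((Matrix.J (Fin 2) F).mulVec w) = 0 := by
  classical
  have h5 : (5 : K) = 0 := by
    have := FiniteField.cast_card_eq_zero K
    rw [hK] at this
    exact_mod_cast this
  have h4 : Module.finrank F (Fin 2 ⊕ Fin 2 → F) = 4 := by simp
  let L : Matrix.SpecialLinearGroup (Fin 2) K →* Module.End F (Fin 2 ⊕ Fin 2 → F) :=
    { toFun := fun g => Matrix.toLin' (φ g : Matrix (Fin 2 ⊕ Fin 2) (Fin 2 ⊕ Fin 2) F)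
      map_one' := by
        rw [map_one]
        exact Matrix.toLin'_one
      map_mul' := fun g h => by
        rw [map_mul]
        exact Matrix.toLin'_mul _ _ }
  have hLinj : Function.Injective L := by
    intro g h hgh
    apply hφ
    apply Subtype.ext
    exact Matrix.toLin'.injective hgh
  have hLapply : ∀ g v, L g v = (φ g : Matrix (Fin 2 ⊕ Fin 2) (Fin 2 ⊕ Fin 2) F).mulVec v :=
    fun g v => Matrix.toLin'_apply _ _
  have hx3 : x ^ 3 = 1 := by
    rw [← hx]
    exact pow_orderOf_eq_one x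
  have hx1 : x ≠ 1 := by
    rintro rfl
    simp at hx
  obtain ⟨y, hyy, hxy⟩ := exists_y h5 x hx3 hx1
  have hZ : L (zz K) = -1 := by
    apply central_neg hF h4 _ (L (uu K))
    · rw [← map_mul, zz_sq, map_one]
    · intro h
      apply zz_ne h5
      apply hLinj
      rw [h, map_one]
    · rw [← map_mul, ← map_mul, zz_comm]
    · rw [← map_pow, uu_pow h5, map_one]
    · intro h
      apply uu_ne (K := K)
      apply hLinj
      rw [h, map_one]
  have hYY : L y * L y = -1 := by rw [← map_mul, hyy, hZ]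
  have hX3 : ∀ v, L x (L x (L x v)) = v := by
    intro v
    have h1 : L x ^ 3 = 1 := by rw [← map_pow, hx3, map_one]
    have h2 := congrArg (fun T : Module.End F (Fin 2 ⊕ Fin 2 → F) => T v) h1
    exact h2
  let W : Submodule F (Fin 2 ⊕ Fin 2 → F) := LinearMap.ker (L x - LinearMap.id)
  have hWmem : ∀ v, v ∈ W ↔ L x v = v := fun v => by
    simp [W, sub_eq_zero]
  have hYW : ∀ v ∈ W, L y v ∈ W := by
    intro v hv
    rw [hWmem] at hv ⊢
    have h1 : L x⁻¹ v = v := by
      have h2 : L x⁻¹ (L x v) = v := by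
        have h3 : L x⁻¹ * L x = 1 := by rw [← map_mul, inv_mul_cancel, map_one]
        have := congrArg (fun T : Module.End F (Fin 2 ⊕ Fin 2 → F) => T v) h3
        exact this
      rw [hv] at h2
      exact h2
    have h3 : L x * L y = L y * L x⁻¹ := by rw [← map_mul, ← map_mul, hxy]
    have := congrArg (fun T : Module.End F (Fin 2 ⊕ Fin 2 → F) => T v) h3
    simp only [Module.End.mul_apply, h1] at this
    exact this
  have heven : Even (Module.finrank F W) := by
    apply even_of_sq_neg hF ((L y).restrict hYW)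
    ext1 v
    apply Subtype.ext
    have := congrArg (fun T : Module.End F (Fin 2 ⊕ Fin 2 → F) => T (v : Fin 2 ⊕ Fin 2 → F)) hYY
    exact this
  have hd0 : Module.finrank F W ≠ 0 := by
    intro h0
    have hbot : W = ⊥ := Submodule.finrank_eq_zero.mp h0
    obtain ⟨u, -, hu, hXu⟩ := exists_fix_of_sub hF (L x) hX3 ⊤ (fun u _ => Submodule.mem_top)
      top_ne_bot
    have : u ∈ W := (hWmem u).mpr hXu
    rw [hbot] at this
    exact hu ((Submodule.mem_bot F).mp this)
  have hd4 : Module.finrank F W ≠ 4 := by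
    intro h0
    have htop : W = ⊤ := Submodule.eq_top_of_finrank_eq (by rw [h0, h4])
    apply hx1
    apply hLinj
    rw [map_one]
    apply LinearMap.ext
    intro v
    have : v ∈ W := by
      rw [htop]
      exact Submodule.mem_top
    exact (hWmem v).mp this
  have hle : Module.finrank F W ≤ 4 := by
    rw [← h4]
    exact Submodule.finrank_le W
  have hd2 : Module.finrank F W = 2 := by
    obtain ⟨k, hk⟩ := heven
    omega
  refine ⟨hd2, ?_⟩
  intro v w hv hw
  by_contra hne
  let om : (Fin 2 ⊕ Fin 2 → F) → (Fin 2 ⊕ Fin 2 → F) → F :=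
    fun a b => dotProduct a ((Matrix.J (Fin 2) F).mulVec b)
  have hom : ∀ a b, om a b = dotProduct a ((Matrix.J (Fin 2) F).mulVec b) := fun _ _ => rfl
  have hanti : ∀ a b, om a b = - om b a := by
    intro a b
    rw [hom, hom, Matrix.dotProduct_mulVec, ← Matrix.mulVec_transpose, Matrix.J_transpose,
      Matrix.neg_mulVec, neg_dotProduct, dotProduct_comm]
  have halt : ∀ a, om a a = 0 := by
    intro a
    have h1 := hanti a a
    have h2 : (2 : F) * om a a = 0 := by linear_combination h1
    exact (mul_eq_zero.mp h2).resolve_left (f3_two_ne hF)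
  have hinv : ∀ a b, om (L x a) (L x b) = om a b := by
    intro a b
    have hA := SymplecticGroup.mem_iff'.mp (φ x).2
    rw [hLapply, hLapply, hom, hom, ← Matrix.vecMul_transpose, ← Matrix.dotProduct_mulVec,
      Matrix.mulVec_mulVec, Matrix.mulVec_mulVec, hA]
  let ell : (Fin 2 ⊕ Fin 2 → F) → Module.Dual F (Fin 2 ⊕ Fin 2 → F) := fun a =>
    { toFun := fun u => om u a
      map_add' := fun u u' => add_dotProduct _ _ _
      map_smul' := fun c u => smul_dotProduct _ _ _ }
  have hell : ∀ a u, ell a u = om u a := fun _ _ => rfl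
  let U : Submodule F (Fin 2 ⊕ Fin 2 → F) := LinearMap.ker ((ell v).prod (ell w))
  have hUmem : ∀ u, u ∈ U ↔ om u v = 0 ∧ om u w = 0 := by
    intro u
    simp [U, LinearMap.ker_prod, hell]
  have hUne : U ≠ ⊥ := by
    intro hbot
    have hinj : Function.Injective ((ell v).prod (ell w)) := LinearMap.ker_eq_bot.mp hbot
    have := LinearMap.finrank_le_finrank_of_injective hinj
    rw [h4] at this
    simp at this
  have hv' : L x v = v := by
    rw [hLapply]
    exact hv
  have hw' : L x w = w := by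
    rw [hLapply]
    exact hw
  have hUX : ∀ u ∈ U, L x u ∈ U := by
    intro u hu
    rw [hUmem] at hu ⊢
    constructor
    · calc om (L x u) v = om (L x u) (L x v) := by rw [hv']
        _ = om u v := hinv u v
        _ = 0 := hu.1
    · calc om (L x u) w = om (L x u) (L x w) := by rw [hw']
        _ = om u w := hinv u w
        _ = 0 := hu.2
  obtain ⟨u, huU, hu0, hXu⟩ := exists_fix_of_sub hF (L x) hX3 U hUX hUne
  have hvw : om v w ≠ 0 := hne
  have hwv : om w v ≠ 0 := by
    rw [hanti]
    exact neg_ne_zero.mpr hvw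
  have hcomb : ∀ s t : F, ∀ a : Fin 2 ⊕ Fin 2 → F, om (s • v + t • w) a = s * om v a + t * om w a := by
    intro s t a
    rw [← hell, map_add, map_smul, map_smul, hell, hell]
    rfl
  let v' : W := ⟨v, (hWmem v).mpr hv'⟩
  let w' : W := ⟨w, (hWmem w).mpr hw'⟩
  let u' : W := ⟨u, (hWmem u).mpr hXu⟩
  have hli : LinearIndependent F ![v', w'] := by
    rw [LinearIndependent.pair_iff]
    intro s t hst
    have hst' : s • v + t • w = 0 := congrArg Subtype.val hst
    have e0 : ∀ a, om 0 a = 0 := fun a => zero_dotProduct _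
    have e1 := hcomb s t w
    have e2 := hcomb s t v
    rw [hst', e0, halt, mul_zero, add_zero] at e1
    rw [hst', e0, halt, mul_zero, zero_add] at e2
    exact ⟨(mul_eq_zero.mp e1.symm).resolve_right hvw, (mul_eq_zero.mp e2.symm).resolve_right hwv⟩
  have htop : Submodule.span F (Set.range ![v', w']) = ⊤ :=
    hli.span_eq_top_of_card_eq_finrank' (by simp [hd2])
  have hu'mem : u' ∈ Submodule.span F ({v', w'} : Set W) := by
    have : Set.range ![v', w'] = ({v', w'} : Set W) := by
      ext z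
      constructor
      · rintro ⟨i, rfl⟩
        fin_cases i
        · exact Or.inl rfl
        · exact Or.inr rfl
      · rintro (rfl | rfl)
        · exact ⟨0, rfl⟩
        · exact ⟨1, rfl⟩
    rw [← this, htop]
    exact Submodule.mem_top
  obtain ⟨s, t, hst⟩ := Submodule.mem_span_pair.mp hu'mem
  have hst' : s • v + t • w = u := congrArg Subtype.val hst
  obtain ⟨hU1, hU2⟩ := (hUmem u).mp huU
  rw [← hst', hcomb] at hU1 hU2
  rw [halt, mul_zero, zero_add] at hU1
  rw [halt, mul_zero, add_zero] at hU2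
  have hs : s = 0 := (mul_eq_zero.mp hU2).resolve_right hvw
  have ht : t = 0 := (mul_eq_zero.mp hU1).resolve_right hwv
  apply hu0
  rw [← hst', hs, ht, zero_smul, zero_smul, add_zero]

end Cfsg.Agent.S3213
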