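import Cfsg.Statements.S3215
import Cfsg.Agent.S0017
import Cfsg.Agent.Lib.Basic.PCore
import Cfsg.Agent.Lib.PGroup.Basic
import Cfsg.Agent.Lib.PGroup.CyclicMax2
import Cfsg.Agent.Lib.PGroup.QdExt
import Cfsg.Agent.Lib.Coprime.GenerationE
import Cfsg.Agent.Lib.Coprime.Coset
import Cfsg.Agent.Lib.Solvable.Hall
import Cfsg.Agent.Lib.Solvable.PSeries
import Cfsg.Agent.Lib.Coprime.Three
import Mathlib

set_option autoImplicit false
set_option linter.style.haveILetI false
open Cfsg

namespace Cfsg.Agent.S3215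

open Subgroup
open scoped commutatorElement

section aux

variable {H : Type*} [Group H]

theorem eq_one_of_orders {g : H} {k m : ℕ} (h1 : g ^ (2 ^ k) = 1) (h2 : g ^ m = 1) (hm : Odd m) :
    g = 1 := by
  have hc : Nat.Coprime (2 ^ k) m := (Nat.coprime_two_left.mpr hm).pow_left k
  have h3 : orderOf g ∣ Nat.gcd (2 ^ k) m :=
    Nat.dvd_gcd (orderOf_dvd_of_pow_eq_one h1) (orderOf_dvd_of_pow_eq_one h2)
  rw [hc, Nat.dvd_one, orderOf_eq_one_iff] at h3
  exact h3

variable [Finite H]

/-- In a group with a normal `2`-complement, odd order elements centralize normal `2`-subgroups. -/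
theorem comm_of_complement {C : Type*} [Group C] [Finite C]
    (hI : Cfsg.HasNormalPComplement 2 C)
    {Y : Subgroup C} [hYn : Y.Normal] (hY : IsPGroup 2 Y) {x y : C}
    (hx : Odd (orderOf x)) (hy : y ∈ Y) : x * y = y * x := by
  classical
  obtain ⟨P, N, hN, hc⟩ := hI
  haveI := hN
  have hcard : Nat.card N * Nat.card (P : Subgroup C) = Nat.card C := hc.card_mul_card
  obtain ⟨e, he⟩ := IsPGroup.iff_card.mp P.2
  have hidx : N.index = 2 ^ e := by
    have h1 := N.card_mul_index
    have hpos : 0 < Nat.card N := Nat.card_pos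
    have : Nat.card N * N.index = Nat.card N * 2 ^ e := by rw [h1, ← hcard, he]
    exact Nat.eq_of_mul_eq_mul_left hpos this
  have hidxP : (P : Subgroup C).index = Nat.card N := by
    have h1 := (P : Subgroup C).card_mul_index
    have hpos : 0 < Nat.card (P : Subgroup C) := Nat.card_pos
    apply Nat.eq_of_mul_eq_mul_left hpos
    rw [h1, ← hcard, mul_comm]
  have hNodd' : Odd (Nat.card N) := by
    rw [← hidxP, ← Nat.not_even_iff_odd, even_iff_two_dvd]
    exact P.not_dvd_index
  have hx'N : x ∈ N := by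
    have h1 : (QuotientGroup.mk' N x) ^ (2 ^ e) = 1 := by
      have hc2 : Nat.card (C ⧸ N) = 2 ^ e := hidx
      rw [← hc2]; exact pow_card_eq_one'
    have h2 : (QuotientGroup.mk' N x) ^ (orderOf x) = 1 := by
      rw [← map_pow, pow_orderOf_eq_one, map_one]
    have h3 := eq_one_of_orders h1 h2 hx
    simpa [QuotientGroup.eq_one_iff] using h3
  -- the commutator lies in both
  let c : C := x * y * x⁻¹ * y⁻¹
  have hcN : c ∈ N := by
    have h1 : y * x⁻¹ * y⁻¹ ∈ N := hN.conj_mem _ (N.inv_mem hx'N) _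
    have : c = x * (y * x⁻¹ * y⁻¹) := by simp only [c]; group
    rw [this]; exact N.mul_mem hx'N h1
  have hcY : c ∈ Y := by
    have h1 : x * y * x⁻¹ ∈ Y := hYn.conj_mem _ hy _
    exact Y.mul_mem h1 (Y.inv_mem hy)
  obtain ⟨k, hk⟩ := (IsPGroup.iff_orderOf.mp hY) ⟨_, hcY⟩
  have hc1 : c ^ (2 ^ k) = 1 := by
    rw [Subgroup.orderOf_mk] at hk
    rw [← hk, pow_orderOf_eq_one]
  have hc2 : c ^ (Nat.card N) = 1 := by
    have := pow_card_eq_one' (x := (⟨c, hcN⟩ : N))
    have h' := congrArg Subtype.val this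
    rw [Subgroup.coe_pow] at h'
    exact h'
  have hc3 := eq_one_of_orders hc1 hc2 hNodd'
  calc x * y = x * y * x⁻¹ * y⁻¹ * (y * x) := by group
    _ = y * x := by rw [show x * y * x⁻¹ * y⁻¹ = 1 from hc3, one_mul]

/-- The key computation with a normal `2`-complement. -/
theorem comm_of_invol
    (hI : ∀ t : H, orderOf t = 2 →
      Cfsg.HasNormalPComplement 2 ↥(Subgroup.centralizer ({t} : Set H)))
    {Y : Subgroup H} [hYn : Y.Normal] (hY : IsPGroup 2 Y) {t x y : H} (ht : orderOf t = 2)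
    (hxt : x * t = t * x) (hx : Odd (orderOf x)) (hy : y ∈ Y) (hyt : y * t = t * y) :
    x * y = y * x := by
  classical
  have hxC : x ∈ Subgroup.centralizer ({t} : Set H) := by
    rw [Subgroup.mem_centralizer_singleton_iff]; exact hxt
  have hyC : y ∈ Subgroup.centralizer ({t} : Set H) := by
    rw [Subgroup.mem_centralizer_singleton_iff]; exact hyt
  let Y₀ : Subgroup ↥(Subgroup.centralizer ({t} : Set H)) := Y.comap (Subgroup.subtype _)
  haveI : Y₀.Normal := Subgroup.Normal.comap hYn _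
  have hY₀ : IsPGroup 2 Y₀ :=
    hY.comap_of_injective (Subgroup.subtype _) (Subgroup.subtype_injective _) |>.of_equiv (MulEquiv.refl _)
  have h := comm_of_complement (hI t ht) (Y := Y₀) hY₀ (x := ⟨x, hxC⟩) (y := ⟨y, hyC⟩)
    (by rwa [Subgroup.orderOf_mk]) hy
  exact congrArg Subtype.val h

theorem pow_order_two {y : H} {k : ℕ} (hk : orderOf y = 2 ^ k) (hy : y ≠ 1) :
    orderOf (y ^ (orderOf y / 2)) = 2 := by
  apply orderOf_pow_orderOf_div (orderOf_ne_zero_iff.mpr (isOfFinOrder_of_finite y))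
  rw [hk]
  cases k with
  | zero =>
    rw [pow_zero, orderOf_eq_one_iff] at hk
    exact absurd hk hy
  | succ k => exact dvd_pow_self 2 (Nat.succ_ne_zero k)

variable (hsol : Group.IsSolvable H) (hO : Cfsg.oddCore H = ⊥)
    (hI : ∀ t : H, orderOf t = 2 → Cfsg.HasNormalPComplement 2 ↥(Subgroup.centralizer ({t} : Set H)))
include hsol hO hI

/-- Step A: an element of odd order commuting with an involution is trivial. -/
theorem eq_one_of_comm_invol {t x : H} (ht : orderOf t = 2) (hxt : x * t = t * x)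
    (hx : Odd (orderOf x)) : x = 1 := by
  classical
  haveI : Fact (Nat.Prime 2) := ⟨Nat.prime_two⟩
  set Y := Cfsg.pCore 2 H with hYdef
  have hYp : IsPGroup 2 Y := Cfsg.Agent.Lib.Basic.PCore.pCore_isPGroup 2
  have hCY : Subgroup.centralizer (Y : Set H) ≤ Y := Cfsg.Agent.S0017.result 2 hO
  have htp : IsPGroup 2 (Subgroup.zpowers t) := by
    rw [IsPGroup.iff_card, Nat.card_zpowers, ht]
    exact ⟨1, rfl⟩
  obtain ⟨P, hP⟩ := htp.exists_le_sylow
  have htP : t ∈ (P : Subgroup H) := hP (Subgroup.mem_zpowers t)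
  have hYP : Y ≤ P := Cfsg.Agent.Lib.Basic.PCore.pCore_le_sylow P
  have hYne : Y ≠ ⊥ := by
    intro hb
    have : t ∈ Y := hCY (by
      rw [hb]; intro g hg; simp at hg; simp [hg])
    rw [hb, Subgroup.mem_bot] at this
    rw [this, orderOf_one] at ht
    omega
  let Y' : Subgroup (P : Subgroup H) := Y.subgroupOf P
  haveI : Y'.Normal := Subgroup.Normal.subgroupOf inferInstance _
  have hY'ne : Y' ≠ ⊥ := by
    intro hb
    apply hYne
    rw [eq_bot_iff]
    intro g hg
    have : (⟨g, hYP hg⟩ : (P : Subgroup H)) ∈ Y' := hg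
    rw [hb, Subgroup.mem_bot] at this
    simpa using congrArg Subtype.val this
  have hin := Cfsg.Agent.Lib.PGroup.Basic.inf_center_ne_bot P.2 hY'ne
  obtain ⟨z, hz, hz1⟩ := (Subgroup.bot_or_exists_ne_one _).resolve_left hin
  have hzY : (z : H) ∈ Y := hz.1
  have hzc : ∀ p : (P : Subgroup H), p * z = z * p := fun p => (Subgroup.mem_center_iff.mp hz.2) p
  have hzc' : ∀ p ∈ (P : Subgroup H), p * (z : H) = z * p := fun p hp =>
    congrArg Subtype.val (hzc ⟨p, hp⟩)
  have hz1' : (z : H) ≠ 1 := fun h => hz1 (Subtype.ext h)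
  obtain ⟨k, hk⟩ := (IsPGroup.iff_orderOf.mp hYp) ⟨_, hzY⟩
  rw [Subgroup.orderOf_mk] at hk
  have hz₁ := pow_order_two hk hz1'
  set z₁ : H := (z : H) ^ (orderOf (z : H) / 2) with hz₁def
  have hxz : x * z = z * x :=
    comm_of_invol hI hYp ht hxt hx hzY (hzc' t htP).symm
  have hxz₁ : x * z₁ = z₁ * x := (Commute.pow_right hxz _).eq
  have hxY : x ∈ Subgroup.centralizer (Y : Set H) := by
    rw [Subgroup.mem_centralizer_iff]
    intro y hy
    have hyz : y * z₁ = z₁ * y := (Commute.pow_right (hzc' y (hYP hy)) _).eq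
    exact (comm_of_invol hI hYp hz₁ hxz₁ hx hy hyz).symm
  have hxYY := hCY hxY
  obtain ⟨j, hj⟩ := (IsPGroup.iff_orderOf.mp hYp) ⟨_, hxYY⟩
  rw [Subgroup.orderOf_mk] at hj
  exact eq_one_of_orders (by rw [← hj, pow_orderOf_eq_one]) (pow_orderOf_eq_one x) hx

/-- Fixed point freeness on `O₂`. -/
theorem eq_one_of_comm_core {x y : H} (hx : Odd (orderOf x)) (hy : y ∈ Cfsg.pCore 2 H) (hy1 : y ≠ 1)
    (hxy : x * y = y * x) : x = 1 := by
  haveI : Fact (Nat.Prime 2) := ⟨Nat.prime_two⟩
  have hYp : IsPGroup 2 (Cfsg.pCore 2 H) := Cfsg.Agent.Lib.Basic.PCore.pCore_isPGroup 2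
  obtain ⟨k, hk⟩ := (IsPGroup.iff_orderOf.mp hYp) ⟨_, hy⟩
  rw [Subgroup.orderOf_mk] at hk
  exact eq_one_of_comm_invol hsol hO hI (pow_order_two hk hy1) (Commute.pow_right hxy _).eq hx

theorem core_ne_bot_of_nontrivial [Nontrivial H] : Cfsg.pCore 2 H ≠ ⊥ := by
  haveI : Fact (Nat.Prime 2) := ⟨Nat.prime_two⟩
  intro hb
  have hCY : Subgroup.centralizer ((Cfsg.pCore 2 H : Subgroup H) : Set H) ≤ Cfsg.pCore 2 H :=
    Cfsg.Agent.S0017.result 2 hO
  obtain ⟨t, ht⟩ := exists_ne (1 : H)
  have : t ∈ Cfsg.pCore 2 H := hCY (by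
    rw [hb]; intro g hg; simp at hg; simp [hg])
  rw [hb, Subgroup.mem_bot] at this
  exact ht this

theorem isCyclic_of_embed {A : Type*} [Group A] [Finite A] (φ : A →* H) (hφ : Function.Injective φ)
    {p : ℕ} [hp' : Fact p.Prime] (hp : p ≠ 2) (hA : IsPGroup p A) : IsCyclic A := by
  classical
  haveI : Fact (Nat.Prime 2) := ⟨Nat.prime_two⟩
  have hpp := hp'.out
  have hpodd : Odd p := hpp.odd_of_ne_two hp
  by_cases hu : Cfsg.Agent.Lib.PGroup.CyclicMax2.UniqueP p A
  · rcases Cfsg.Agent.Lib.PGroup.CyclicMax2.cyclic_or_quaternion hA hu with h | ⟨h2, _⟩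
    · exact h
    · exact absurd h2 hp
  · exfalso
    obtain ⟨E, hEcard, hEel⟩ := Cfsg.Agent.Lib.PGroup.CyclicMax2.exists_order_sq_of_not_uniqueP hA hu
    set E' : Subgroup H := E.map φ with hE'
    have hE'card : Nat.card E' = p ^ 2 := by
      rw [hE', Subgroup.card_map_of_injective hφ, hEcard]
    have hE'el : Cfsg.IsElementaryAbelian p E' := by
      refine ⟨⟨⟨?_⟩⟩, ?_⟩
      · rintro ⟨_, a, ha, rfl⟩ ⟨_, b, hb, rfl⟩
        apply Subtype.ext
        have hab := hEel.1.is_comm.comm (⟨a, ha⟩ : E) ⟨b, hb⟩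
        have hab' : a * b = b * a := congrArg Subtype.val hab
        show φ a * φ b = φ b * φ a
        rw [← map_mul, hab', map_mul]
      · rintro _ ⟨a, ha, rfl⟩
        rw [← map_pow, hEel.2 a ha, map_one]
    set Y := Cfsg.pCore 2 H with hY
    have hYp : IsPGroup 2 Y := Cfsg.Agent.Lib.Basic.PCore.pCore_isPGroup 2
    obtain ⟨k, hk⟩ := IsPGroup.iff_card.mp hYp
    have hpY : ¬ p ∣ Nat.card Y := by
      rw [hk]
      intro h
      have := hpp.dvd_of_dvd_pow h
      have h2 := (Nat.prime_dvd_prime_iff_eq hpp Nat.prime_two).mp this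
      exact hp h2
    have hNorm : E' ≤ Subgroup.normalizer (Y : Set H) := by
      rw [Subgroup.normalizer_eq_top]
      exact le_top
    have hle := Cfsg.Agent.Lib.Coprime.GenerationE.le_iSup_relIndex_le E' Y hE'el hpY hNorm
    have hbot : Y = ⊥ := by
      rw [eq_bot_iff]
      refine hle.trans (iSup_le ?_)
      rintro ⟨B, hBE, hBi⟩
      intro y hy
      rw [Subgroup.mem_bot]
      by_contra hy1
      have hBne : B ≠ ⊥ := by
        rintro rfl
        rw [Subgroup.relIndex_bot_left, hE'card] at hBi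
        have := hpp.two_le
        nlinarith
      obtain ⟨b, hb, hb1⟩ := (Subgroup.bot_or_exists_ne_one _).resolve_left hBne
      have hbp : b ^ p = 1 := hE'el.2 b (hBE hb)
      have hbord : orderOf b = p := orderOf_eq_prime hbp hb1
      have hcomm : y * b = b * y := (Subgroup.mem_centralizer_iff.mp hy.2) b hb |>.symm ▸ rfl
      exact hb1 (eq_one_of_comm_core hsol hO hI (by rw [hbord]; exact hpodd) hy.1 hy1 hcomm.symm)
    haveI : Nontrivial H := by
      by_contra hnt
      rw [not_nontrivial_iff_subsingleton] at hnt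
      have : Nat.card E' = 1 := Nat.card_of_subsingleton (1 : E')
      rw [hE'card] at this
      have := hpp.two_le
      nlinarith
    exact core_ne_bot_of_nontrivial hsol hO hI hbot


/-- An element of odd order is killed in a quotient that is a `2`-group. -/
theorem mem_of_two_quotient {R : Subgroup H} [R.Normal] (hp : IsPGroup 2 (H ⧸ R)) {x : H}
    (hx : Odd (orderOf x)) : x ∈ R := by
  obtain ⟨k, hk⟩ := hp (QuotientGroup.mk' R x)
  have h2 : (QuotientGroup.mk' R x) ^ (orderOf x) = 1 := by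
    rw [← map_pow, pow_orderOf_eq_one, map_one]
  have := eq_one_of_orders hk h2 hx
  simpa [QuotientGroup.eq_one_iff] using this

/-- The main part of the argument. -/
theorem main_cd (X : Subgroup H) (hXodd : Odd (Nat.card X)) (hXidx : ∃ k : ℕ, X.index = 2 ^ k) :
    ∃ R : Subgroup H, ∃ _ : R.Normal, X ⊔ Cfsg.pCore 2 H = R ∧ IsCyclic (H ⧸ R) ∧
      IsPGroup 2 (H ⧸ R) := by
  classical
  haveI : Fact (Nat.Prime 2) := ⟨Nat.prime_two⟩
  haveI := hsol
  set Y := Cfsg.pCore 2 H with hYdef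
  have hYp : IsPGroup 2 Y := Cfsg.Agent.Lib.Basic.PCore.pCore_isPGroup 2
  obtain ⟨ky, hky⟩ := IsPGroup.iff_card.mp hYp
  have hfree : ∀ {x y : H}, Odd (orderOf x) → y ∈ Y → y ≠ 1 → x * y = y * x → x = 1 :=
    fun hx hy hy1 hxy => eq_one_of_comm_core hsol hO hI hx hy hy1 hxy
  let π : H →* H ⧸ Y := QuotientGroup.mk' Y
  have hπ : Function.Surjective π := QuotientGroup.mk'_surjective Y
  let O : Subgroup (H ⧸ Y) := Cfsg.oddCore (H ⧸ Y)
  have hOodd : Odd (Nat.card O) := by
    have := Cfsg.Agent.Lib.Solvable.PSeries.pPrimeCore_coprime (G := H ⧸ Y) 2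
    exact Nat.Coprime.odd_of_right this
  let R : Subgroup H := O.comap π
  haveI hRn : R.Normal := Subgroup.Normal.comap inferInstance π
  have hπY : ∀ y ∈ Y, π y = 1 := by
    intro y hy
    simpa [π, QuotientGroup.eq_one_iff] using hy
  have hYR : Y ≤ R := by
    intro y hy
    show π y ∈ O
    rw [hπY y hy]; exact O.one_mem
  have hRcard : Nat.card R = Nat.card O * 2 ^ ky := by
    have := Cfsg.Agent.Lib.Solvable.Hall.card_comap_mk Y O
    rw [hky] at this
    exact this
  -- `X₀ = X ∩ R`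
  let X₀ : Subgroup H := X ⊓ R
  have hX₀X : X₀ ≤ X := inf_le_left
  have hX₀R : X₀ ≤ R := inf_le_right
  have hoddOf : ∀ {x : H}, x ∈ X → Odd (orderOf x) := by
    intro x hx
    have h1 : orderOf x ∣ Nat.card X := by
      have := orderOf_dvd_natCard (⟨x, hx⟩ : X)
      rwa [Subgroup.orderOf_mk] at this
    exact Odd.of_dvd_nat hXodd h1
  have hX₀odd : Odd (Nat.card X₀) :=
    Odd.of_dvd_nat hXodd (Subgroup.card_dvd_of_le hX₀X)
  have hX₀card : Nat.card X₀ = Nat.card O := by
    obtain ⟨k, hk⟩ := hXidx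
    have hsup := Cfsg.Agent.Lib.Solvable.Hall.card_sup_mul_card_inf X R
    have hXH : Nat.card X * 2 ^ k = Nat.card H := by
      rw [← hk]; exact X.card_mul_index
    have h1 : Nat.card X ∣ Nat.card (X ⊔ R : Subgroup H) := Subgroup.card_dvd_of_le le_sup_left
    obtain ⟨a, ha⟩ := h1
    have h2 : Nat.card (X ⊔ R : Subgroup H) ∣ Nat.card H := Subgroup.card_subgroup_dvd_card _
    rw [ha, ← hXH] at h2
    have hXpos : 0 < Nat.card X := Nat.card_pos
    have h3 : a ∣ 2 ^ k := Nat.dvd_of_mul_dvd_mul_left hXpos h2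
    obtain ⟨l, _, rfl⟩ := (Nat.dvd_prime_pow Nat.prime_two).mp h3
    rw [ha, hRcard, show (X ⊓ R : Subgroup H) = X₀ from rfl] at hsup
    have h4 : 2 ^ l * Nat.card X₀ = Nat.card O * 2 ^ ky := by
      apply Nat.eq_of_mul_eq_mul_left hXpos
      rw [← hsup]; ring
    have hc1 : Nat.Coprime (Nat.card X₀) (2 ^ ky) := (Nat.coprime_two_right.mpr hX₀odd).pow_right _
    have hc2 : Nat.Coprime (Nat.card O) (2 ^ l) := (Nat.coprime_two_right.mpr hOodd).pow_right _
    apply Nat.dvd_antisymm
    · exact hc1.dvd_of_dvd_mul_right (Dvd.intro_left _ h4)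
    · exact hc2.dvd_of_dvd_mul_left (Dvd.intro _ h4.symm)
  have hinter : ∀ c, c ∈ X₀ → c ∈ Y → c = 1 := by
    intro c hc hcY
    obtain ⟨j, hj⟩ := (IsPGroup.iff_orderOf.mp hYp) ⟨c, hcY⟩
    rw [Subgroup.orderOf_mk] at hj
    exact eq_one_of_orders (by rw [← hj, pow_orderOf_eq_one]) (pow_orderOf_eq_one c)
      (hoddOf (hX₀X hc))
  have hinf : X₀ ⊓ Y = ⊥ := by
    rw [eq_bot_iff]
    rintro c ⟨h1, h2⟩
    exact hinter c h1 h2
  have hsupR : X₀ ⊔ Y = R := by
    apply Subgroup.eq_of_le_of_card_ge (sup_le hX₀R hYR)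
    have h := Cfsg.Agent.Lib.Solvable.Hall.card_sup_mul_card_inf X₀ Y
    rw [hinf, Subgroup.card_bot, mul_one, hX₀card, hky] at h
    rw [h, hRcard]
  have hmem : ∀ r ∈ R, ∃ x ∈ X₀, ∃ y ∈ Y, r = x * y := by
    intro r hr
    rw [← hsupR, ← SetLike.mem_coe, Subgroup.mul_normal, Set.mem_mul] at hr
    obtain ⟨x, hx, y, hy, rfl⟩ := hr
    exact ⟨x, hx, y, hy, rfl⟩
  suffices hgoal : IsCyclic (H ⧸ R) ∧ IsPGroup 2 (H ⧸ R) by
    refine ⟨R, hRn, ?_, hgoal.1, hgoal.2⟩
    have hXR : X ≤ R := fun x hx => mem_of_two_quotient hsol hO hI hgoal.2 (hoddOf hx)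
    have hXX : X₀ = X := inf_eq_left.mpr hXR
    rw [← hXX]; exact hsupR
  have hTop : (∀ h : H, h ∈ R) → IsCyclic (H ⧸ R) ∧ IsPGroup 2 (H ⧸ R) := by
    intro hall
    have hsub : Subsingleton (H ⧸ R) := by
      refine ⟨fun a b => ?_⟩
      obtain ⟨a, rfl⟩ := QuotientGroup.mk_surjective a
      obtain ⟨b, rfl⟩ := QuotientGroup.mk_surjective b
      rw [(QuotientGroup.eq_one_iff a).mpr (hall a), (QuotientGroup.eq_one_iff b).mpr (hall b)]
    exact ⟨isCyclic_of_subsingleton, fun q => ⟨0, Subsingleton.elim _ _⟩⟩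
  by_cases hX₀bot : X₀ = ⊥
  · -- trivial case
    apply hTop
    have hRY : ∀ r ∈ R, r ∈ Y := by
      intro r hr
      obtain ⟨x, hx, y, hy, rfl⟩ := hmem r hr
      rw [hX₀bot, Subgroup.mem_bot] at hx
      rw [hx, one_mul]; exact hy
    have hObot : O = ⊥ := by
      rw [eq_bot_iff]
      intro q hq
      obtain ⟨h, rfl⟩ := hπ q
      rw [Subgroup.mem_bot]
      exact hπY h (hRY h hq)
    by_cases hnt : Nontrivial (H ⧸ Y)
    · exfalso
      obtain ⟨p, N, hp, hNn, hNne, hNp, -, -⟩ :=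
        Cfsg.Agent.Lib.Solvable.Hall.exists_normal_abelian_pSubgroup (H ⧸ Y)
      apply hNne
      haveI : Fact p.Prime := ⟨hp⟩
      by_cases hp2 : p = 2
      · subst hp2
        have h1 := Cfsg.Agent.Lib.Basic.PCore.le_pCore hNn hNp
        rw [Cfsg.Agent.Lib.Basic.PCore.pCore_quotient_eq_bot] at h1
        exact le_bot_iff.mp h1
      · have h1 : (Nat.card N).Coprime 2 := by
          obtain ⟨k, hk⟩ := IsPGroup.iff_card.mp hNp
          rw [hk]
          apply Nat.Coprime.pow_left
          exact (Nat.coprime_primes hp Nat.prime_two).mpr hp2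
        have h2 := Cfsg.Agent.Lib.Basic.PCore.le_pPrimeCore hNn h1
        have h3 : Cfsg.pPrimeCore 2 (H ⧸ Y) = ⊥ := hObot
        rw [h3] at h2
        exact le_bot_iff.mp h2
    · rw [not_nontrivial_iff_subsingleton] at hnt
      intro h
      show π h ∈ O
      rw [Subsingleton.elim (π h) 1]; exact O.one_mem
  · obtain ⟨x₁, hx₁, hx₁1⟩ := (Subgroup.bot_or_exists_ne_one _).resolve_left hX₀bot
    let N₀ : Subgroup H := Subgroup.normalizer (X₀ : Set H)
    have hX₀N : X₀ ≤ N₀ := Subgroup.le_normalizer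
    have hfrat : ∀ h : H, ∃ y ∈ Y, ∃ n ∈ N₀, h = y * n := by
      intro h
      have hle : X₀.map (MulAut.conj h).toMonoidHom ≤ Y ⊔ X₀ := by
        rintro _ ⟨x, hx, rfl⟩
        rw [sup_comm, hsupR]
        exact hRn.conj_mem x (hX₀R hx) h
      have hAN : X₀ ≤ Subgroup.normalizer (Y : Set H) := by
        rw [Subgroup.normalizer_eq_top]; exact le_top
      have hcop : (Nat.card X₀).Coprime (Nat.card Y) := by
        rw [hky]; exact (Nat.coprime_two_right.mpr hX₀odd).pow_right _
      obtain ⟨n, hn, hnA⟩ := Cfsg.Agent.Lib.Coprime.Coset.exists_conj_eq_of_card_eq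
        (A := X₀) (N := Y) (A' := X₀.map (MulAut.conj h).toMonoidHom) hAN hcop
        (Or.inr inferInstance) hle (Cfsg.Agent.Lib.Solvable.Hall.card_map_conj _ _)
      refine ⟨n, hn, n⁻¹ * h, ?_, by group⟩
      apply Cfsg.Agent.Lib.Coprime.Three.mem_normalizer_of_conj_mem
      intro v hv
      have h1 : h * v * h⁻¹ ∈ X₀.map (MulAut.conj h).toMonoidHom :=
        ⟨v, hv, by simp [MulAut.conj_apply]⟩
      rw [← hnA] at h1
      obtain ⟨w, hw, hw'⟩ := h1
      have hw2 : n * w * n⁻¹ = h * v * h⁻¹ := by simpa [MulAut.conj_apply] using hw'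
      have : n⁻¹ * h * v * (n⁻¹ * h)⁻¹ = w := by
        calc n⁻¹ * h * v * (n⁻¹ * h)⁻¹ = n⁻¹ * (h * v * h⁻¹) * n := by group
          _ = n⁻¹ * (n * w * n⁻¹) * n := by rw [hw2]
          _ = w := by group
      rw [this]; exact hw
    have hNY : ∀ y ∈ Y, y ∈ N₀ → y = 1 := by
      intro y hy hyN
      have h1 : y * x₁ * y⁻¹ ∈ X₀ := (Subgroup.mem_normalizer_iff.mp hyN x₁).mp hx₁
      have h2 : y * x₁ * y⁻¹ * x₁⁻¹ ∈ X₀ := X₀.mul_mem h1 (X₀.inv_mem hx₁)
      have h3 : y * x₁ * y⁻¹ * x₁⁻¹ ∈ Y := by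
        have : y * x₁ * y⁻¹ * x₁⁻¹ = y * (x₁ * y⁻¹ * x₁⁻¹) := by group
        rw [this]
        exact Y.mul_mem hy ((inferInstance : Y.Normal).conj_mem _ (Y.inv_mem hy) _)
      have h4 := hinter _ h2 h3
      have h5 : x₁ * y = y * x₁ := by
        calc x₁ * y = (y * x₁ * y⁻¹ * x₁⁻¹)⁻¹ * (y * x₁) := by group
          _ = y * x₁ := by rw [h4, inv_one, one_mul]
      by_contra hy1
      exact hx₁1 (hfree (hoddOf (hX₀X hx₁)) hy hy1 h5)
    have hRN : ∀ r ∈ R, r ∈ N₀ → r ∈ X₀ := by
      intro r hr hrN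
      obtain ⟨x, hx, y, hy, rfl⟩ := hmem r hr
      have hyN : y ∈ N₀ := by
        have : y = x⁻¹ * (x * y) := by group
        rw [this]; exact N₀.mul_mem (N₀.inv_mem (hX₀N hx)) hrN
      rw [hNY y hy hyN, mul_one]; exact hx
    let ρ : N₀ →* H ⧸ Y := π.comp N₀.subtype
    have hρ : Function.Surjective ρ := by
      intro q
      obtain ⟨h, rfl⟩ := hπ q
      obtain ⟨y, hy, n, hn, rfl⟩ := hfrat h
      refine ⟨⟨n, hn⟩, ?_⟩
      show π n = π (y * n)
      rw [map_mul, hπY y hy, one_mul]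
    have hcore : ∀ C' : Subgroup N₀, C'.Normal → Odd (Nat.card C') → ∀ c ∈ C', (c : H) ∈ R := by
      intro C' hC' hodd c hc
      have hmapn : (C'.map ρ).Normal := hC'.map ρ hρ
      have hcard : (Nat.card (C'.map ρ)).Coprime 2 := by
        have : Odd (Nat.card (C'.map ρ)) := Odd.of_dvd_nat hodd (Subgroup.card_map_dvd C' ρ)
        exact Nat.coprime_two_right.mpr this
      have h1 : C'.map ρ ≤ O := Cfsg.Agent.Lib.Basic.PCore.le_pPrimeCore hmapn hcard
      exact h1 ⟨c, hc, rfl⟩
    have hlift : ∀ q : H ⧸ R, ∃ n ∈ N₀, QuotientGroup.mk' R n = q := by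
      intro q
      obtain ⟨h, rfl⟩ := QuotientGroup.mk'_surjective R q
      obtain ⟨y, hy, n, hn, rfl⟩ := hfrat h
      refine ⟨n, hn, ?_⟩
      have h1 : QuotientGroup.mk' R y = 1 := (QuotientGroup.eq_one_iff y).mpr (hYR hy)
      rw [map_mul, h1, one_mul]
    by_cases hinvol : ∃ a ∈ N₀, orderOf a = 2
    swap
    · -- no involution
      apply hTop
      have hodd : Odd (Nat.card (⊤ : Subgroup N₀)) := by
        rw [Nat.card_congr Subgroup.topEquiv.toEquiv]
        by_contra hne
        rw [Nat.not_odd_iff_even, even_iff_two_dvd] at hne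
        obtain ⟨a, ha⟩ := exists_prime_orderOf_dvd_card' 2 hne
        apply hinvol
        refine ⟨a, a.2, ?_⟩
        rwa [Subgroup.orderOf_coe]
      intro h
      obtain ⟨y, hy, n, hn, rfl⟩ := hfrat h
      exact R.mul_mem (hYR hy) (hcore ⊤ inferInstance hodd ⟨n, hn⟩ (Subgroup.mem_top _))
    · obtain ⟨a₀, ha₀, ha₀o⟩ := hinvol
      have hinv : ∀ a ∈ N₀, orderOf a = 2 → ∀ x ∈ X₀, a * x * a⁻¹ = x⁻¹ := by
        intro a ha hord x hx
        have haa : a * a = 1 := by
          have := pow_orderOf_eq_one a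
          rwa [hord, pow_two] at this
        let φ : X₀ →* X₀ := MonoidHom.mk'
          (fun x => ⟨a * x * a⁻¹, (Subgroup.mem_normalizer_iff.mp ha x).mp x.2⟩)
          (by intro x y; apply Subtype.ext; simp only [Subgroup.coe_mul]; group)
        have hff : MonoidHom.FixedPointFree φ := by
          intro g hg
          have h1 : a * g * a⁻¹ = g := congrArg Subtype.val hg
          have h2 : (g : H) * a = a * g := by
            calc (g : H) * a = a * g * a⁻¹ * a := by rw [h1]
              _ = a * g := by group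
          have h3 := eq_one_of_comm_invol hsol hO hI hord h2 (hoddOf (hX₀X g.2))
          exact Subtype.ext h3
        have hinvl : Function.Involutive φ := by
          intro g
          apply Subtype.ext
          show a * (a * g * a⁻¹) * a⁻¹ = g
          have hai : a⁻¹ = a := inv_eq_of_mul_eq_one_left haa
          calc a * (a * g * a⁻¹) * a⁻¹ = (a * a) * g * (a⁻¹ * a⁻¹) := by group
            _ = g := by rw [hai, haa, one_mul, mul_one]
        have h3 := congrFun (hff.coe_eq_inv_of_involutive hinvl) ⟨x, hx⟩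
        exact congrArg Subtype.val h3
      have hcomm : ∀ x ∈ X₀, ∀ y ∈ X₀, x * y = y * x := by
        intro x hx y hy
        have h1 := hinv a₀ ha₀ ha₀o (x * y) (X₀.mul_mem hx hy)
        have h2 : a₀ * (x * y) * a₀⁻¹ = (a₀ * x * a₀⁻¹) * (a₀ * y * a₀⁻¹) := by group
        rw [h2, hinv a₀ ha₀ ha₀o x hx, hinv a₀ ha₀ ha₀o y hy] at h1
        have h3 : (y * x)⁻¹ = (x * y)⁻¹ := by rw [mul_inv_rev, ← h1]
        exact (inv_injective h3).symm
      have hcyc : IsCyclic X₀ := by
        haveI hz : IsZGroup X₀ := ⟨fun p hp P => by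
          haveI : Fact p.Prime := ⟨hp⟩
          by_cases h2 : p = 2
          · subst h2
            have h3 : Nat.card (P : Subgroup X₀) ∣ Nat.card X₀ := Subgroup.card_subgroup_dvd_card _
            obtain ⟨e, he⟩ := IsPGroup.iff_card.mp P.2
            have h4 : Odd (Nat.card (P : Subgroup X₀)) := Odd.of_dvd_nat hX₀odd h3
            have h5 : e = 0 := by
              by_contra hne
              rw [he] at h4
              exact (Nat.not_even_iff_odd.mpr h4) ((Nat.even_pow.mpr ⟨even_two, hne⟩))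
            rw [h5, pow_zero] at he
            haveI : Subsingleton (P : Subgroup X₀) := (Nat.card_eq_one_iff_unique.mp he).1
            exact isCyclic_of_subsingleton
          · exact isCyclic_of_embed hsol hO hI (X₀.subtype.comp (P : Subgroup X₀).subtype)
              ((Subgroup.subtype_injective _).comp (Subgroup.subtype_injective _)) h2 P.2⟩
        letI : CommGroup X₀ := { (inferInstance : Group X₀) with
          mul_comm := fun a b => Subtype.ext (hcomm a a.2 b b.2) }
        exact IsCyclic.of_exponent_eq_card (IsZGroup.exponent_eq_card X₀)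
      let X₁ : Subgroup N₀ := X₀.subgroupOf N₀
      haveI hX₁n : X₁.Normal := Subgroup.normal_subgroupOf_of_le_normalizer le_rfl
      have hX₁cyc : IsCyclic X₁ :=
        isCyclic_of_surjective (Subgroup.subgroupOfEquivOfLe hX₀N).symm (MulEquiv.surjective _)
      have hder := Cfsg.Agent.Lib.PGroup.QdExt.commutator_le_centralizer_of_isCyclic X₁ hX₁cyc
      let C : Subgroup N₀ := Subgroup.centralizer (X₁ : Set N₀)
      haveI hCn : C.Normal := Subgroup.normal_centralizer
      have hCodd : Odd (Nat.card C) := by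
        by_contra hne
        rw [Nat.not_odd_iff_even, even_iff_two_dvd] at hne
        obtain ⟨c, hc⟩ := exists_prime_orderOf_dvd_card' 2 hne
        have hc2 : orderOf ((c : N₀) : H) = 2 := by
          rw [Subgroup.orderOf_coe, Subgroup.orderOf_coe, hc]
        have hmemx : (⟨x₁, hX₀N hx₁⟩ : N₀) ∈ X₁ := hx₁
        have hcm := (Subgroup.mem_centralizer_iff.mp c.2) _ hmemx
        have hcm' : x₁ * ((c : N₀) : H) = ((c : N₀) : H) * x₁ := congrArg Subtype.val hcm
        exact hx₁1 (eq_one_of_comm_invol hsol hO hI hc2 hcm' (hoddOf (hX₀X hx₁)))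
      have hCR : ∀ c ∈ C, (c : H) ∈ R := hcore C hCn hCodd
      have hoddR : ∀ g : N₀, Odd (orderOf g) → (g : H) ∈ R := by
        intro g hg
        let D : Subgroup N₀ := Subgroup.zpowers g ⊔ C
        have hDn : D.Normal := by
          refine ⟨fun k hk n => ?_⟩
          have hcm : ⁅n, k⁆ ∈ commutator N₀ :=
            Subgroup.commutator_mem_commutator (Subgroup.mem_top _) (Subgroup.mem_top _)
          have h1 : n * k * n⁻¹ = ⁅n, k⁆ * k := by
            rw [commutatorElement_def]; group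
          rw [h1]
          exact D.mul_mem ((le_sup_right : C ≤ D) (hder hcm)) hk
        have hDodd : Odd (Nat.card D) := by
          have h1 := Cfsg.Agent.Lib.Solvable.Hall.card_sup_mul_card_inf (Subgroup.zpowers g) C
          have h2 : Nat.card D ∣ Nat.card (Subgroup.zpowers g) * Nat.card C := Dvd.intro _ h1
          rw [Nat.card_zpowers] at h2
          exact Odd.of_dvd_nat (hg.mul hCodd) h2
        exact hcore D hDn hDodd g ((le_sup_left : Subgroup.zpowers g ≤ D) (Subgroup.mem_zpowers g))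
      have hcommR : ∀ q q' : H ⧸ R, q * q' = q' * q := by
        intro q q'
        obtain ⟨n, hn, rfl⟩ := hlift q
        obtain ⟨n', hn', rfl⟩ := hlift q'
        have hcm : ⁅(⟨n, hn⟩ : N₀), (⟨n', hn'⟩ : N₀)⁆ ∈ commutator N₀ :=
          Subgroup.commutator_mem_commutator (Subgroup.mem_top _) (Subgroup.mem_top _)
        have h1 := hCR _ (hder hcm)
        have h2 : ((⁅(⟨n, hn⟩ : N₀), (⟨n', hn'⟩ : N₀)⁆ : N₀) : H) = n * n' * n⁻¹ * n'⁻¹ := by
          simp [commutatorElement_def]
        rw [h2] at h1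
        have h3 := (QuotientGroup.eq_one_iff _).mpr h1
        have h4 : QuotientGroup.mk' R n * QuotientGroup.mk' R n' *
            (QuotientGroup.mk' R n)⁻¹ * (QuotientGroup.mk' R n')⁻¹ = 1 := by
          rw [← map_inv, ← map_inv, ← map_mul, ← map_mul, ← map_mul]
          exact h3
        calc QuotientGroup.mk' R n * QuotientGroup.mk' R n'
            = QuotientGroup.mk' R n * QuotientGroup.mk' R n' *
              (QuotientGroup.mk' R n)⁻¹ * (QuotientGroup.mk' R n')⁻¹ *
              (QuotientGroup.mk' R n' * QuotientGroup.mk' R n) := by group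
          _ = QuotientGroup.mk' R n' * QuotientGroup.mk' R n := by rw [h4, one_mul]
      have hp2 : IsPGroup 2 (H ⧸ R) := by
        intro q
        obtain ⟨n, hn, rfl⟩ := hlift q
        have hne : orderOf (⟨n, hn⟩ : N₀) ≠ 0 := orderOf_ne_zero_iff.mpr (isOfFinOrder_of_finite _)
        obtain ⟨e, m, hm, hem⟩ := Nat.exists_eq_two_pow_mul_odd hne
        refine ⟨e, ?_⟩
        have hg : Odd (orderOf ((⟨n, hn⟩ : N₀) ^ (2 ^ e))) := by
          apply Odd.of_dvd_nat hm
          apply orderOf_dvd_of_pow_eq_one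
          rw [← pow_mul, ← hem]
          exact pow_orderOf_eq_one _
        have h1 := hoddR _ hg
        rw [← map_pow]
        apply (QuotientGroup.eq_one_iff _).mpr
        simpa using h1
      have hinvlift : ∀ q : H ⧸ R, q ^ 2 = 1 → q ≠ 1 →
          ∃ a ∈ N₀, orderOf a = 2 ∧ QuotientGroup.mk' R a = q := by
        intro q hq hq1
        obtain ⟨n, hn, rfl⟩ := hlift q
        have hn2R : n ^ 2 ∈ R := by
          have := hq
          rw [← map_pow] at this
          exact (QuotientGroup.eq_one_iff _).mp this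
        have hn2X : n ^ 2 ∈ X₀ := hRN _ hn2R (N₀.pow_mem hn 2)
        let m := Nat.card X₀
        have hpow : (n ^ 2) ^ m = 1 := by
          have := pow_card_eq_one' (x := (⟨n ^ 2, hn2X⟩ : X₀))
          have h' := congrArg Subtype.val this
          rw [Subgroup.coe_pow] at h'
          exact h'
        obtain ⟨t, ht⟩ : ∃ t, m = 2 * t + 1 := hX₀odd
        refine ⟨n ^ m, N₀.pow_mem hn _, ?_, ?_⟩
        · have hmk : QuotientGroup.mk' R (n ^ m) = QuotientGroup.mk' R n := by
            rw [map_pow, ht, pow_succ, pow_mul, hq, one_pow, one_mul]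
          apply orderOf_eq_prime
          · rw [← pow_mul, mul_comm, pow_mul]; exact hpow
          · intro h1
            apply hq1
            rw [← hmk, h1, map_one]
        · rw [map_pow, ht, pow_succ, pow_mul, hq, one_pow, one_mul]
      have huniq : Cfsg.Agent.Lib.PGroup.CyclicMax2.UniqueP 2 (H ⧸ R) := by
        intro y z hy hz hy1 hz1
        obtain ⟨a, ha, hao, rfl⟩ := hinvlift y hy hy1
        obtain ⟨b, hb, hbo, rfl⟩ := hinvlift z hz hz1
        have hab : (⟨a, ha⟩ * ⟨b, hb⟩ : N₀) ∈ C := by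
          rw [Subgroup.mem_centralizer_iff]
          rintro ⟨x, hxN⟩ hx
          have hx' : x ∈ X₀ := hx
          apply Subtype.ext
          show x * (a * b) = a * b * x
          have h1 := hinv b hb hbo x hx'
          have h2 := hinv a ha hao x⁻¹ (X₀.inv_mem hx')
          rw [inv_inv] at h2
          have h3 : (a * b) * x * (a * b)⁻¹ = x := by
            calc (a * b) * x * (a * b)⁻¹ = a * (b * x * b⁻¹) * a⁻¹ := by group
              _ = x := by rw [h1, h2]
          calc x * (a * b) = (a * b) * x * (a * b)⁻¹ * (a * b) := by rw [h3]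
            _ = a * b * x := by group
        have h1 : a * b ∈ R := hCR _ hab
        have h2 : QuotientGroup.mk' R a * QuotientGroup.mk' R b = 1 := by
          rw [← map_mul]; exact (QuotientGroup.eq_one_iff _).mpr h1
        have h3 : QuotientGroup.mk' R a = (QuotientGroup.mk' R b)⁻¹ := eq_inv_of_mul_eq_one_left h2
        rw [h3]
        exact Subgroup.inv_mem _ (Subgroup.mem_zpowers _)
      exact ⟨Cfsg.Agent.Lib.PGroup.CyclicMax2.isCyclic_of_comm_uniqueP hcommR hp2 huniq, hp2⟩

end aux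

/-- Let H be a finite solvable group with no nontrivial normal subgroup of odd order in which the centralizer of every involution has a normal 2-complement. Let X be a Hall 2'-subgroup of H (odd order, index a power of 2) and Y = O₂(H). Then no non-identity element of X commutes with a non-identity element of Y (so for X ≠ 1 the group XY is a Frobenius group with kernel Y), every Sylow subgroup of X is cyclic, XY is normal in H, and H/XY is a cyclic 2-group. -/
theorem result {H : Type*} [Group H] [Finite H] (hsol : Group.IsSolvable H)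
    (hO : Cfsg.oddCore H = ⊥)
    (hI : ∀ t : H, orderOf t = 2 → Cfsg.HasNormalPComplement 2 ↥(Subgroup.centralizer ({t} : Set H)))
    (X : Subgroup H) (hXodd : Odd (Nat.card X)) (hXidx : ∃ k : ℕ, X.index = 2 ^ k) :
    (∀ x ∈ X, x ≠ 1 → ∀ y ∈ Cfsg.pCore 2 H, y ≠ 1 → x * y ≠ y * x) ∧
      (∀ (p : ℕ) [Fact p.Prime] (P : Sylow p ↥X), IsCyclic ↥(P : Subgroup ↥X)) ∧
      (X ⊔ Cfsg.pCore 2 H).Normal ∧
      ∀ hN : (X ⊔ Cfsg.pCore 2 H).Normal, IsCyclic (H ⧸ (X ⊔ Cfsg.pCore 2 H)) ∧ IsPGroup 2 (H ⧸ (X ⊔ Cfsg.pCore 2 H)) := by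
  obtain ⟨R, hRn, hRe, hRc, hRp⟩ := main_cd hsol hO hI X hXodd hXidx
  have hoddOf : ∀ {x : H}, x ∈ X → Odd (orderOf x) := by
    intro x hx
    have h1 : orderOf x ∣ Nat.card X := by
      have := orderOf_dvd_natCard (⟨x, hx⟩ : X)
      rwa [Subgroup.orderOf_mk] at this
    exact Odd.of_dvd_nat hXodd h1
  subst hRe
  refine ⟨?_, ?_, hRn, fun _ => ⟨hRc, hRp⟩⟩
  · intro x hx hx1 y hy hy1 hxy
    exact hx1 (eq_one_of_comm_core hsol hO hI (hoddOf hx) hy hy1 hxy)
  · intro p _ P
    by_cases h2 : p = 2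
    · subst h2
      have h3 : Nat.card (P : Subgroup X) ∣ Nat.card X := Subgroup.card_subgroup_dvd_card _
      obtain ⟨e, he⟩ := IsPGroup.iff_card.mp P.2
      have h4 : Odd (Nat.card (P : Subgroup X)) := Odd.of_dvd_nat hXodd h3
      have h5 : e = 0 := by
        by_contra hne
        rw [he] at h4
        exact (Nat.not_even_iff_odd.mpr h4) ((Nat.even_pow.mpr ⟨even_two, hne⟩))
      rw [h5, pow_zero] at he
      haveI : Subsingleton (P : Subgroup X) := (Nat.card_eq_one_iff_unique.mp he).1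
      exact isCyclic_of_subsingleton
    · exact isCyclic_of_embed hsol hO hI (X.subtype.comp (P : Subgroup X).subtype)
        ((Subgroup.subtype_injective _).comp (Subgroup.subtype_injective _)) h2 P.2

end Cfsg.Agent.S3215
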