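import Cfsg.Statements.S3225
import Mathlib
import Cfsg.Agent.Lib.Transfer.IndexTwo
-- import your own Cfsg.Agent.* helpers here

set_option autoImplicit false
open Cfsg

namespace Cfsg.Agent.S3225

/-- Let G be a finite group of even order with no subgroup of index 2, S a Sylow 2-subgroup of G and M a subgroup of index 2 in S such that, for some n ≥ 1, every element of S outside M has order greater than 2^(n−1). Then every element of S of order 2ⁿ is conjugate in G to an element of M. -/
theorem result {G : Type*} [Group G] [Finite G] (hev : Even (Nat.card G))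
    (hG : ∀ H : Subgroup G, H.index ≠ 2) (S : Sylow 2 G) (M : Subgroup G) (hMS : M ≤ (S : Subgroup G)) (hM : M.relIndex (S : Subgroup G) = 2)
    (n : ℕ) (hn : 1 ≤ n) (hord : ∀ y ∈ (S : Subgroup G), y ∉ M → 2 ^ (n - 1) < orderOf y)
    (x : G) (hx : x ∈ (S : Subgroup G)) (hxn : orderOf x = 2 ^ n) :
    ∃ g : G, g * x * g⁻¹ ∈ M := by
  by_contra hcon
  push Not at hcon
  have hodd : Odd (S : Subgroup G).index := by
    rw [← Nat.not_even_iff_odd, even_iff_two_dvd]
    exact S.not_dvd_index
  have hpow : x ^ 2 ^ n = 1 := by rw [← hxn]; exact pow_orderOf_eq_one x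
  obtain ⟨N, hNn, hNi, -⟩ := Cfsg.Agent.Lib.Transfer.IndexTwo.exists_normal_index_two_of_relIndex
    (S : Subgroup G) hodd M hM x n hpow
    (fun g _ hg => hcon g⁻¹ (by simpa using hg))
    (fun k hk hkn g hg => by
      by_contra hnot
      have hlt := hord _ hg hnot
      have hconj : orderOf (g⁻¹ * x ^ k * g) = orderOf (x ^ k) := by
        have : g⁻¹ * x ^ k * g = (MulAut.conj g⁻¹) (x ^ k) := by simp
        rw [this]
        exact MulEquiv.orderOf_eq _ _
      rw [hconj] at hlt
      obtain ⟨m, hm, rfl⟩ := (Nat.dvd_prime_pow Nat.prime_two).1 hkn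
      have hm1 : 1 ≤ m := by
        rcases m with _ | m
        · simp at hk
        · omega
      rw [orderOf_pow_of_dvd (by positivity) (by rw [hxn]; exact hkn), hxn,
        Nat.pow_div hm (by norm_num)] at hlt
      exact absurd (Nat.pow_lt_pow_iff_right (by norm_num : 1 < 2) |>.1 hlt) (by omega))
  exact hG N hNi

end Cfsg.Agent.S3225
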