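import Cfsg.Statements.S3247
import Mathlib
import Cfsg.Agent.Lib.Components.PLocal
import Cfsg.Agent.Lib.Components.PConstrained
import Cfsg.Agent.Lib.Components.Transport
import Cfsg.Agent.Lib.Components.CharP

set_option autoImplicit false
open Cfsg

namespace Cfsg.Agent.S3247

open scoped commutatorElement
open Cfsg.Agent.Lib.Components.PComponent
open Cfsg.Agent.Lib.Components.PConstrained
open Cfsg.Agent.Lib.Components.PLocal
open Cfsg.Agent.Lib.Components.Transport

section sub
variable {Y : Type*} [Group Y] [Finite Y] {p : ℕ} [Fact p.Prime]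

/-- A `p`-component of `Y` inside a subgroup `R` is a `p`-component of `R`. -/
theorem isPComponent_subgroupOf {K R : Subgroup Y} (hK : IsPComponent p K) (hle : K ≤ R) :
    IsPComponent p (K.subgroupOf R) := by
  have hsub : (K.subgroupOf R).IsSubnormal := hK.1.subgroupOf
  let e : (K.subgroupOf R) ≃* K := Subgroup.subgroupOfEquivOfLe hle
  refine isPComponent_of_no_coprime_normal hsub ⟨hsub.map (QuotientGroup.mk'_surjective _), ?_⟩ ?_
  · have h1 := isQuasisimple_quotient_core hK
    have h2 := isQuasisimple_of_equiv (quotientCoreEquiv p e).symm h1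
    exact isQuasisimple_of_equiv (quotientCoreMulEquiv hsub) h2
  · intro N hN hc
    have hN' : (N.map e.toMonoidHom).Normal := hN.map _ e.surjective
    have hidx : (N.map e.toMonoidHom).index = N.index :=
      Subgroup.index_map_equiv N e
    have := eq_top_of_coprime_index_of_isPComponent hK (N.map e.toMonoidHom) (by rwa [hidx])
    rw [eq_top_iff]
    intro x _
    have hx : e x ∈ N.map e.toMonoidHom := by rw [this]; trivial
    obtain ⟨y, hy, hxy⟩ := hx
    have : y = x := e.injective hxy
    rwa [this] at hy

/-- The `p`-components of `Y` inside the range of an injective homomorphism pull back. -/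
theorem isPComponent_comap {W : Type*} [Group W] [Finite W] (f : W →* Y)
    (hf : Function.Injective f) {K : Subgroup Y} (hK : IsPComponent p K) (hle : K ≤ f.range) :
    IsPComponent p (K.comap f) := by
  let e : W ≃* f.range := MonoidHom.ofInjective hf
  have h1 := isPComponent_subgroupOf hK hle
  have h2 := isPComponent_map_equiv e.symm h1
  convert h2 using 1
  ext w
  simp only [Subgroup.mem_comap, Subgroup.mem_map, Subgroup.mem_subgroupOf]
  constructor
  · intro hw
    exact ⟨e w, hw, by simp⟩
  · rintro ⟨z, hz, rfl⟩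
    have : (z : Y) = f (e.symm z) := by
      have h3 := e.apply_symm_apply z
      have h4 : (e (e.symm z) : Y) = f (e.symm z) := rfl
      rw [← h4, h3]
    rw [this] at hz
    exact hz

end sub

section main
variable {G : Type*} [Group G] [Finite G] {p : ℕ} [Fact p.Prime]

/-- The key step. -/
theorem false_of_component {A T : Subgroup G} (hT : IsPGroup p T) (hTA : T ≤ A)
    (hA : pLayer p A = ⊥) {K : Subgroup (Subgroup.normalizer (T : Set G))}
    (hK : IsPComponent p K) (hKA : ∀ k ∈ K, (k : G) ∈ A) : False := by
  set P : Subgroup A := T.subgroupOf A with hP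
  have hPp : IsPGroup p P := hT.comap_of_injective A.subtype A.subtype_injective
  have hC := (pLayer_eq_bot_iff_centralizer).mp hA
  have hW := pLayer_normalizer_eq_bot hC hPp
  set W := Subgroup.normalizer (P : Set A) with hWdef
  let f : W →* Subgroup.normalizer (T : Set G) :=
    { toFun := fun w => ⟨(w : A), by
        rw [Subgroup.mem_normalizer_iff]
        intro t
        have hw := Subgroup.mem_normalizer_iff.mp w.2
        constructor
        · intro ht
          have h1 := (hw ⟨t, hTA ht⟩).mp (by simpa [hP, Subgroup.mem_subgroupOf] using ht)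
          simpa [hP, Subgroup.mem_subgroupOf] using h1
        · intro ht
          have hta : ((w : A) : G) * t * ((w : A) : G)⁻¹ ∈ A := hTA ht
          have htA : t ∈ A := by
            have := A.mul_mem (A.mul_mem (A.inv_mem (w : A).2) hta) (w : A).2
            simpa [mul_assoc] using this
          have h1 := (hw ⟨t, htA⟩).mpr (by simpa [hP, Subgroup.mem_subgroupOf] using ht)
          simpa [hP, Subgroup.mem_subgroupOf] using h1⟩
      map_one' := rfl
      map_mul' := fun _ _ => rfl }
  have hf : Function.Injective f := by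
    intro a b hab
    have : ((a : A) : G) = ((b : A) : G) := congrArg (fun y : Subgroup.normalizer (T : Set G) => (y : G)) hab
    exact Subtype.ext (Subtype.ext this)
  have hle : K ≤ f.range := by
    intro k hk
    have hka := hKA k hk
    refine ⟨⟨⟨k, hka⟩, ?_⟩, rfl⟩
    rw [Subgroup.mem_normalizer_iff]
    intro t
    have h2 := Subgroup.mem_normalizer_iff.mp k.2 (t : G)
    simpa [hP, Subgroup.mem_subgroupOf] using h2
  have h3 := isPComponent_comap f hf hK hle
  have h4 := le_pLayer h3
  rw [hW, le_bot_iff] at h4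
  have h5 := p_dvd_card_of_isPComponent hK
  have h6 : K = ⊥ := by
    rw [eq_bot_iff]
    intro k hk
    obtain ⟨w, hw⟩ := hle hk
    have : w ∈ K.comap f := by
      rw [Subgroup.mem_comap, hw]; exact hk
    rw [h4, Subgroup.mem_bot] at this
    rw [← hw, this, map_one]
    exact Subgroup.one_mem _
  rw [h6, Subgroup.card_bot] at h5
  exact (Fact.out : p.Prime).one_lt.ne' (Nat.dvd_one.mp h5)

/-- Case of a `p`-constrained overgroup. -/
theorem isPConstrained_of_le {M T : Subgroup G} (hT : IsPGroup p T)
    (hM : Subgroup.normalizer (T : Set G) ≤ M) (hc : IsPConstrained p M) :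
    IsPConstrained p (Subgroup.normalizer (T : Set G)) := by
  rw [isPConstrained_iff_pLayer_eq_bot] at hc ⊢
  rw [eq_bot_iff]
  refine sSup_le fun K hK => ?_
  exact (false_of_component hT (Subgroup.le_normalizer.trans hM) hc hK (fun k _ => hM k.2)).elim

/-- Case of `p`-constrained centralizers. -/
theorem isPConstrained_of_centralizers {T : Subgroup G} (hT : IsPGroup p T) (hT1 : T ≠ ⊥)
    (hc : ∀ x : G, orderOf x = p → IsPConstrained p (Subgroup.centralizer ({x} : Set G))) :
    IsPConstrained p (Subgroup.normalizer (T : Set G)) := by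
  rw [isPConstrained_iff_pLayer_eq_bot, eq_bot_iff]
  refine sSup_le fun K hK => ?_
  exfalso
  replace hK : IsPComponent p K := hK
  have hTn : (T.subgroupOf (Subgroup.normalizer (T : Set G))).Normal := Subgroup.normal_in_normalizer
  have hTp : IsPGroup p (T.subgroupOf (Subgroup.normalizer (T : Set G))) := isPGroup_subgroupOf_normalizer hT
  have hTQ : T.subgroupOf (Subgroup.normalizer (T : Set G)) ≤ pCore p (Subgroup.normalizer (T : Set G)) := Cfsg.Agent.Lib.Basic.PCore.le_pCore hTn hTp
  set Q := pCore p (Subgroup.normalizer (T : Set G)) with hQ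
  have hQp : IsPGroup p Q := Cfsg.Agent.Lib.Basic.PCore.pCore_isPGroup p
  have hQn : Q.Normal := inferInstance
  have hQ1 : Q ≠ ⊥ := by
    intro h
    rw [h, le_bot_iff] at hTQ
    apply hT1
    rw [eq_bot_iff]
    intro t ht
    have : (⟨t, Subgroup.le_normalizer ht⟩ : (Subgroup.normalizer (T : Set G))) ∈ T.subgroupOf (Subgroup.normalizer (T : Set G)) := by
      rw [Subgroup.mem_subgroupOf]; exact ht
    rw [hTQ, Subgroup.mem_bot] at this
    exact congrArg Subtype.val this
  obtain ⟨z, hzQ, hzo, hzc⟩ := Cfsg.Agent.Lib.Components.CharP.exists_normal_central_orderOf p hQp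
    le_rfl (by rw [Subgroup.normalizer_eq_top_iff.mpr hQn]; exact le_top) hQ1
  have hKQ : ⁅K, Q⁆ ≤ pPrimeCore p (Subgroup.normalizer (T : Set G)) :=
    commutator_le_core_of_normal_pgroup_image hK hQn (hQp.map _)
  have hKc : ∀ k ∈ K, ∀ u ∈ Q, k * u = u * k := by
    intro k hk u hu
    have h1 : ⁅k, u⁆ ∈ pPrimeCore p (Subgroup.normalizer (T : Set G)) := hKQ (Subgroup.commutator_mem_commutator hk hu)
    have h2 : ⁅k, u⁆ ∈ Q := by
      rw [commutatorElement_def]
      exact Q.mul_mem (hQn.conj_mem u hu k) (Q.inv_mem hu)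
    have h3 := eq_one_of_mem_pgroup_of_mem_core hQp h2 h1
    rwa [commutatorElement_eq_one_iff_mul_comm] at h3
  have hzG : orderOf (z : G) = p := by rw [Subgroup.orderOf_coe, hzo]
  have hA := hc _ hzG
  rw [isPConstrained_iff_pLayer_eq_bot] at hA
  refine false_of_component hT ?_ hA hK ?_
  · intro t ht
    rw [Subgroup.mem_centralizer_singleton_iff]
    have h1 : (⟨t, Subgroup.le_normalizer ht⟩ : (Subgroup.normalizer (T : Set G))) ∈ Q := hTQ (by
      rw [Subgroup.mem_subgroupOf]; exact ht)
    have h2 := hzc _ h1
    exact congrArg Subtype.val h2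
  · intro k hk
    rw [Subgroup.mem_centralizer_singleton_iff]
    exact congrArg Subtype.val (hKc k hk z hzQ)

end main

/-- Let G be a finite group and p a prime; here a p-local subgroup means the normalizer of a nontrivial p-subgroup, other than G itself. If every p-local subgroup of G that is maximal among p-local subgroups is p-constrained, or if the centralizer of every element of order p of G is p-constrained, then every p-local subgroup of G is p-constrained. -/
theorem result {G : Type*} [Group G] [Finite G] (p : ℕ) [hp : Fact p.Prime]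
    (h : (∀ M : Subgroup G, (∃ T : Subgroup G, IsPGroup p ↥T ∧ T ≠ ⊥ ∧ M = Subgroup.normalizer (T : Set G)) → M ≠ ⊤ →
        (∀ M' : Subgroup G, (∃ T' : Subgroup G, IsPGroup p ↥T' ∧ T' ≠ ⊥ ∧ M' = Subgroup.normalizer (T' : Set G)) → M' ≠ ⊤ → M ≤ M' → M = M') →
        Cfsg.IsPConstrained p ↥M) ∨
      (∀ x : G, orderOf x = p → Cfsg.IsPConstrained p ↥(Subgroup.centralizer ({x} : Set G))))
    (T : Subgroup G) (hT : IsPGroup p ↥T) (hT1 : T ≠ ⊥) (hTG : Subgroup.normalizer (T : Set G) ≠ ⊤) :
    Cfsg.IsPConstrained p ↥(Subgroup.normalizer (T : Set G)) := by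
  rcases h with h | h
  · set S : Set (Subgroup G) := {M | (∃ T : Subgroup G, IsPGroup p ↥T ∧ T ≠ ⊥ ∧
      M = Subgroup.normalizer (T : Set G)) ∧ M ≠ ⊤} with hS
    have hmem : Subgroup.normalizer (T : Set G) ∈ S := ⟨⟨T, hT, hT1, rfl⟩, hTG⟩
    obtain ⟨M, hTM, hM⟩ := (Set.toFinite S).exists_le_maximal hmem
    refine isPConstrained_of_le hT hTM (h M hM.prop.1 hM.prop.2 ?_)
    intro M' h1 h2 h3
    exact le_antisymm h3 (hM.le_of_ge ⟨h1, h2⟩ h3)
  · exact isPConstrained_of_centralizers hT hT1 h

end Cfsg.Agent.S3247
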