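import Cfsg.Statements.S3265
import Mathlib
import Cfsg.Agent.Lib.OddSym.Main
-- import your own Cfsg.Agent.* helpers here

set_option autoImplicit false
open Cfsg

namespace Cfsg.Agent.S3265

set_option linter.unusedSectionVars false

open Equiv Equiv.Perm Cfsg.Agent.Lib.OddSym

variable {α : Type*} [DecidableEq α] [Fintype α]

lemma order_two_swaps {p q r s : α} (hpq : p ≠ q) (hrs : r ≠ s) (h1 : p ≠ r) (h2 : p ≠ s)
    (h3 : q ≠ r) (h4 : q ≠ s) : orderOf (swap p q * swap r s) = 2 := by
  have hd : Perm.Disjoint (swap p q) (swap r s) := by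
    apply disjoint_swap_swap
    simp [hpq, hrs, h1, h2, h3, h4]
  rw [hd.orderOf, (show (swap p q).IsSwap from ⟨p, q, hpq, rfl⟩).orderOf,
    (show (swap r s).IsSwap from ⟨r, s, hrs, rfl⟩).orderOf]
  simp

lemma invol_cycleType {z : Perm α} (hz : Invol z) :
    z.cycleType = Multiset.replicate z.cycleType.card 2 := by
  rw [Multiset.eq_replicate_card]
  intro b hb
  have h1 : b ∣ orderOf z := dvd_of_mem_cycleType hb
  have h2 : z ^ 2 = 1 := by
    ext v
    simp [pow_two, hz v]
  have h3 : orderOf z ∣ 2 := orderOf_dvd_of_pow_eq_one h2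
  have h4 : b ∣ 2 := h1.trans h3
  have h5 : 2 ≤ b := two_le_of_mem_cycleType hb
  have := Nat.le_of_dvd (by norm_num) h4
  omega

lemma isConj_of_invol {x z : Perm α} (hx : Invol x) (hz : Invol z)
    (h : z.support.card = x.support.card) : IsConj x z := by
  rw [isConj_iff_cycleType_eq]
  have e1 := invol_cycleType hx
  have e2 := invol_cycleType hz
  have s1 := sum_cycleType x
  have s2 := sum_cycleType z
  rw [e1] at s1
  rw [e2] at s2
  simp only [Multiset.sum_replicate, smul_eq_mul] at s1 s2
  have : x.cycleType.card = z.cycleType.card := by omega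
  rw [e1, e2, this]

lemma invol_of_conj {t x : Perm α} (ht : orderOf t = 2) (h : IsConj t x) : Invol x := by
  obtain ⟨c, rfl⟩ := isConj_iff.1 h
  have h2 : t * t = 1 := by
    have := pow_orderOf_eq_one t
    rwa [ht, pow_two] at this
  intro v
  have : (c * t * c⁻¹) * (c * t * c⁻¹) = 1 := by
    calc (c * t * c⁻¹) * (c * t * c⁻¹) = c * (t * t) * c⁻¹ := by group
      _ = 1 := by rw [h2]; group
  have h3 := congrArg (fun f : Perm α => f v) this
  simpa [Perm.mul_apply] using h3

lemma card_of_conj {t x : Perm α} (h : IsConj t x) : x.support.card = t.support.card := by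
  rw [← sum_cycleType, ← sum_cycleType, (isConj_iff_cycleType_eq.1 h)]

/-- A non-adjacent pair. -/
lemma exists_even_pair (hcard : 5 ≤ Fintype.card α) {t : Perm α} (ht : orderOf t = 2) :
    ∃ v : Perm α, IsConj t v ∧ t ≠ v ∧ orderOf (t * v) = 2 := by
  have h2 : t * t = 1 := by
    have := pow_orderOf_eq_one t
    rwa [ht, pow_two] at this
  have hinv : t⁻¹ = t := by
    rw [inv_eq_iff_mul_eq_one]; exact h2
  have hI : ∀ v, t (t v) = v := by
    intro v
    have h3 := congrArg (fun f : Perm α => f v) h2
    simpa [Perm.mul_apply] using h3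
  have hne1 : t ≠ 1 := by
    rintro rfl
    simp at ht
  obtain ⟨a, ha⟩ : ∃ a, t a ≠ a := by
    by_contra hcon
    push Not at hcon
    exact hne1 (Equiv.ext hcon)
  set b := t a with hb
  have htb : t b = a := hI a
  have hab : a ≠ b := Ne.symm ha
  by_cases hex : ∃ c, c ≠ a ∧ c ≠ b ∧ t c ≠ c
  · obtain ⟨c, hca, hcb, hc⟩ := hex
    set d := t c with hd
    have htd : t d = c := hI c
    have hcd : c ≠ d := Ne.symm hc
    have hda : d ≠ a := fun h => hcb (by rw [← htd, h])
    have hdb : d ≠ b := fun h => hca (by rw [← htd, h, htb])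
    refine ⟨swap b c * t * (swap b c)⁻¹, isConj_iff.2 ⟨_, rfl⟩, ?_, ?_⟩
    · intro h
      have h3 := congrArg (fun f : Perm α => f a) h
      simp only [Perm.mul_apply, swap_inv] at h3
      rw [swap_apply_of_ne_of_ne hab (Ne.symm hca), ← hb, swap_apply_left] at h3
      exact hcb h3.symm
    · have e1 : t * (swap b c * t * (swap b c)⁻¹) = swap a d * swap b c := by
        have e2 : swap (t b) (t c) = t * swap b c * t⁻¹ := swap_apply_apply t b c
        rw [hinv, htb, ← hd] at e2
        rw [e2, swap_inv]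
        group
      rw [e1]
      exact order_two_swaps (Ne.symm hda) (Ne.symm hcb) hab (Ne.symm hca) hdb (Ne.symm hcd)
  · push Not at hex
    have htswap : t = swap a b := by
      ext v
      by_cases h1 : v = a
      · subst h1; simp [hb]
      by_cases h2' : v = b
      · subst h2'; simp [htb]
      rw [hex v h1 h2', swap_apply_of_ne_of_ne h1 h2']
    have hc3 : 1 < ((Finset.univ : Finset α).erase a |>.erase b).card := by
      have h3 := Finset.card_erase_of_mem (Finset.mem_univ a)
      have h4 : b ∈ (Finset.univ : Finset α).erase a := by simp [ha]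
      have h5 := Finset.card_erase_of_mem h4
      rw [h5, h3, Finset.card_univ]
      omega
    obtain ⟨c, hc, d, hd, hcd⟩ := Finset.one_lt_card.1 hc3
    simp only [Finset.mem_erase, Finset.mem_univ, and_true] at hc hd
    refine ⟨swap c d, ?_, ?_, ?_⟩
    · rw [htswap]; exact isConj_swap hab hcd
    · intro h
      have h3 : t a = (swap c d) a := by rw [h]
      rw [swap_apply_of_ne_of_ne (Ne.symm hc.2) (Ne.symm hd.2)] at h3
      exact ha h3
    · rw [htswap]
      exact order_two_swaps hab hcd (Ne.symm hc.2) (Ne.symm hd.2) (Ne.symm hc.1) (Ne.symm hd.1)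

/-- Let n ≥ 5 and let X be a conjugacy class of involutions of the symmetric group of degree n. The graph on X joining two distinct involutions whose product has odd order is connected and has diameter exactly 2. -/
theorem result (n : ℕ) (hn : 5 ≤ n) (t : Equiv.Perm (Fin n)) (ht : orderOf t = 2) :
    (SimpleGraph.fromRel fun x y : {x : Equiv.Perm (Fin n) // IsConj t x} =>
        Odd (orderOf (x.1 * y.1))).Connected ∧
      (SimpleGraph.fromRel fun x y : {x : Equiv.Perm (Fin n) // IsConj t x} =>
        Odd (orderOf (x.1 * y.1))).diam = 2 := by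
  set G := SimpleGraph.fromRel fun x y : {x : Equiv.Perm (Fin n) // IsConj t x} =>
        Odd (orderOf (x.1 * y.1))  with hG
  have hcard : 5 ≤ Fintype.card (Fin n) := by simpa using hn
  have htI : Invol t := invol_of_conj ht (IsConj.refl t)
  -- walks of length at most two
  have hwalk : ∀ u v, ∃ p : G.Walk u v, p.length ≤ 2 := by
    intro u v
    obtain ⟨z, hz, hzc, h1, h2⟩ := exists_mid hcard (invol_of_conj ht u.2) (invol_of_conj ht v.2)
      (by rw [card_of_conj u.2, card_of_conj v.2])
    have hzt : IsConj t z := isConj_of_invol htI hz (by rw [hzc, card_of_conj u.2])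
    set Z : {x : Equiv.Perm (Fin n) // IsConj t x} := ⟨z, hzt⟩ with hZ
    by_cases e1 : u = v
    · subst e1; exact ⟨SimpleGraph.Walk.nil, by simp⟩
    by_cases e2 : u = Z
    · have h3 : Odd (orderOf (v.1 * u.1)) := by rw [e2]; exact h2
      have : G.Adj u v := by
        rw [hG, SimpleGraph.fromRel_adj]
        exact ⟨e1, Or.inr h3⟩
      exact ⟨SimpleGraph.Walk.cons this SimpleGraph.Walk.nil, by simp⟩
    by_cases e3 : v = Z
    · have h3 : Odd (orderOf (u.1 * v.1)) := by rw [e3]; exact h1
      have : G.Adj u v := by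
        rw [hG, SimpleGraph.fromRel_adj]
        exact ⟨e1, Or.inl h3⟩
      exact ⟨SimpleGraph.Walk.cons this SimpleGraph.Walk.nil, by simp⟩
    have a1 : G.Adj u Z := by
      rw [hG, SimpleGraph.fromRel_adj]
      exact ⟨e2, Or.inl h1⟩
    have a2 : G.Adj Z v := by
      rw [hG, SimpleGraph.fromRel_adj]
      exact ⟨Ne.symm e3, Or.inr h2⟩
    exact ⟨SimpleGraph.Walk.cons a1 (SimpleGraph.Walk.cons a2 SimpleGraph.Walk.nil), by simp⟩
  have : Nonempty {x : Equiv.Perm (Fin n) // IsConj t x} := ⟨⟨t, IsConj.refl t⟩⟩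
  have hconn : G.Connected := by
    rw [SimpleGraph.connected_iff]
    refine ⟨fun u v => ?_, inferInstance⟩
    obtain ⟨p, -⟩ := hwalk u v
    exact ⟨p⟩
  refine ⟨hconn, ?_⟩
  have hed : G.ediam ≤ 2 := by
    apply SimpleGraph.ediam_le_of_edist_le
    intro u v
    obtain ⟨p, hp⟩ := hwalk u v
    calc G.edist u v ≤ p.length := SimpleGraph.Walk.edist_le p
      _ ≤ 2 := by exact_mod_cast hp
  have hne : G.ediam ≠ ⊤ := by
    intro h
    rw [h] at hed
    simp at hed
  have hle : G.diam ≤ 2 := by
    rw [SimpleGraph.diam]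
    exact ENat.toNat_le_of_le_natCast hed
  obtain ⟨v, hvc, hvne, hvo⟩ := exists_even_pair hcard ht
  set U : {x : Equiv.Perm (Fin n) // IsConj t x} := ⟨t, IsConj.refl t⟩ with hU
  set V : {x : Equiv.Perm (Fin n) // IsConj t x} := ⟨v, hvc⟩ with hV
  have hUV : U ≠ V := fun h => hvne (congrArg Subtype.val h)
  have hnotadj : ¬ G.Adj U V := by
    rw [hG, SimpleGraph.fromRel_adj]
    rintro ⟨-, h | h⟩
    · have h2 : Odd (orderOf (t * v)) := h
      rw [hvo] at h2
      exact absurd h2 (by decide)
    · have h2 : Odd (orderOf (v * t)) := h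
      have h3 : t * t = 1 := by
        ext w; simp [htI w]
      have h4 : v * v = 1 := by
        ext w; simp [invol_of_conj ht hvc w]
      have e : v * t = (t * v)⁻¹ := by
        rw [mul_inv_rev, inv_eq_of_mul_eq_one_left h3, inv_eq_of_mul_eq_one_left h4]
      rw [e, orderOf_inv, hvo] at h2
      exact absurd h2 (by decide)
  have hd1 : G.dist U V ≠ 0 := by
    intro h
    exact hUV ((hconn.dist_eq_zero_iff).1 h)
  have hd2 : G.dist U V ≠ 1 := by
    intro h
    exact hnotadj (SimpleGraph.dist_eq_one_iff_adj.1 h)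
  have hd3 := SimpleGraph.dist_le_diam hne (u := U) (v := V)
  omega

end Cfsg.Agent.S3265
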