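import Cfsg.Agent.Lib.PSL2.Spectrum
import Cfsg.Agent.Lib.PSL2.TraceZero
import Cfsg.Agent.Lib.PSL2.Macbeath
import Cfsg.Agent.Lib.PSL2.Unipotent
import Cfsg.Agent.Lib.PSL2.TorusCore

set_option autoImplicit false
set_option linter.unusedSectionVars false
set_option linter.unusedSimpArgs false
set_option linter.unusedVariables false
set_option linter.style.haveILetI false

namespace Cfsg.Agent.S3266

open Matrix Matrix.SpecialLinearGroup Subgroup
open scoped MatrixGroups
open Cfsg.Agent.Lib.PSL2.Basic Cfsg.Agent.Lib.PSL2.Conj Cfsg.Agent.Lib.PSL2.Spectrum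
open Cfsg.Agent.Lib.PSL2.Torus

section Order

variable {F : Type*} [Field F] [Fintype F]

/-- Elements with an eigenvalue in `F`, different from `±1`, have order dividing `q - 1`. -/
lemma pow_card_sub_one_eq {M : SL(2, F)} {τ : F} (hτ : τ ≠ 0) (hτ2 : τ * τ ≠ 1)
    (hM : tr M = τ + τ⁻¹) : M ^ (Fintype.card F - 1) = 1 := by
  have hE : IsEig M τ := by
    unfold IsEig
    rw [hM]
    field_simp
    ring
  obtain ⟨g, s, hg⟩ := exists_conj_b hE
  have hne : τ ≠ τ⁻¹ := by
    intro h
    apply hτ2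
    nth_rw 2 [h]
    exact mul_inv_cancel₀ hτ
  obtain ⟨k, hk⟩ := b_conj_d τ hE.ne_zero s hne
  have h1 : (k * g) * M * (k * g)⁻¹ = d τ hE.ne_zero := by
    rw [← hk, ← hg]
    group
  have h2 := d_pow_card_sub_one τ hE.ne_zero
  rw [← h1, conj_pow] at h2
  have h3 := congrArg (fun A => (k * g)⁻¹ * A * (k * g)) h2
  simpa [mul_assoc] using h3

lemma odd_of_split {M : SL(2, F)} {τ : F} (hq : Fintype.card F % 4 = 3) (hτ : τ ≠ 0)
    (hτ2 : τ * τ ≠ 1) (hM : tr M = τ + τ⁻¹) : Odd (orderOf (mkP M)) := by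
  have h1 := pow_card_sub_one_eq hτ hτ2 hM
  have h2 : (2 : F) ≠ 0 := by
    intro h
    have hc : ringChar F = 2 :=
      CharP.ringChar_of_prime_eq_zero (R := F) Nat.prime_two (by exact_mod_cast h)
    have heven := FiniteField.even_card_iff_char_two.1 hc
    omega
  have h3 := mkP_pow_eq_one h1 (fun _ => by omega)
  have h4 : Nat.gcd 2 (Fintype.card F - 1) = 2 := by
    apply Nat.gcd_eq_left
    omega
  rw [h4] at h3
  have h5 := orderOf_dvd_of_pow_eq_one h3
  refine Odd.of_dvd_nat ?_ h5
  rw [Nat.odd_iff]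
  omega

lemma pow_char_of_tr_two (p : ℕ) [CharP F p] {M : SL(2, F)} (hM : tr M = 2) : M ^ p = 1 := by
  obtain ⟨g, s, hg⟩ := Cfsg.Agent.Lib.PSL2.Unipotent.exists_conj_x_of_tr_eq_two M hM
  have h1 := x_pow_char p s
  rw [← hg, conj_pow] at h1
  have h3 := congrArg (fun A => g⁻¹ * A * g) h1
  simpa [mul_assoc] using h3

lemma odd_of_tr_two (p : ℕ) [CharP F p] (hp : Odd p) {M : SL(2, F)} (hM : tr M = 2 ∨ tr M = -2) :
    Odd (orderOf (mkP M)) := by
  have key : ∀ N : SL(2, F), tr N = 2 → Odd (orderOf (mkP N)) := by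
    intro N hN
    have h1 := pow_char_of_tr_two p hN
    have h2 : (mkP N) ^ p = 1 := by
      rw [← map_pow, h1, map_one]
    exact Odd.of_dvd_nat hp (orderOf_dvd_of_pow_eq_one h2)
  rcases hM with hM | hM
  · exact key M hM
  · have := key (-M) (by rw [tr_neg, hM, neg_neg])
    rwa [mkP_neg] at this

lemma odd_of_char_two {M : SL(2, F)} (h2 : (2 : F) = 0) (hM : tr M ≠ 0) :
    Odd (orderOf (mkP M)) := by
  have hc : ringChar F = 2 :=
    CharP.ringChar_of_prime_eq_zero (R := F) Nat.prime_two (by exact_mod_cast h2)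
  have heven := FiniteField.even_card_iff_char_two.1 hc
  haveI : CharP F 2 := by
    rw [← hc]; exact ringChar.charP F
  haveI : Fact (Nat.Prime 2) := ⟨Nat.prime_two⟩
  have hq2 : 2 ≤ Fintype.card F := Fintype.one_lt_card
  have hg : Nat.gcd 2 (Fintype.card F - 1) = 1 := by
    apply Nat.coprime_two_left.2
    rw [Nat.odd_iff]
    omega
  rcases orderOf_cases 2 M with h | h | h
  · exfalso
    have h3 : (mkP M) ^ 2 = 1 := orderOf_dvd_iff_pow_eq_one.1 h
    rw [← map_pow, mkP_eq_one_iff] at h3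
    have h4 : M * M = 1 := by
      rw [← pow_two]
      rcases h3 with h3 | h3
      · exact h3
      · rw [h3]
        apply ext2 <;> simp <;> linear_combination (-1 : F) * h2
    have h5 := tr_mul_self M
    rw [h4, tr_one, h2] at h5
    apply hM
    have h6 : tr M ^ 2 = 0 := by linear_combination -h5
    exact pow_eq_zero_iff (by norm_num) |>.1 h6
  · rw [hg, Nat.div_one] at h
    refine Odd.of_dvd_nat ?_ h
    rw [Nat.odd_iff]; omega
  · rw [hg, Nat.div_one] at h
    refine Odd.of_dvd_nat ?_ h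
    rw [Nat.odd_iff]; omega

end Order

section Algebra

variable {F : Type*} [Field F]

/-- The element with prescribed traces. -/
lemma exists_Z (X Y : SL(2, F)) (hX : tr X = 0) (hY : tr Y = 0) (s₁ s₂ D₀ : F)
    (hE : 4 - tr (X * Y) ^ 2 ≠ 0)
    (hD : D₀ ^ 2 = 4 - tr (X * Y) ^ 2 - s₁ ^ 2 - s₂ ^ 2 - tr (X * Y) * s₁ * s₂) :
    ∃ Z : SL(2, F), tr Z = 0 ∧ tr (X * Z) = s₁ ∧ tr (Y * Z) = s₂ := by
  have hdX := det_entries X
  have hdY := det_entries Y
  unfold tr at hX hY
  obtain ⟨a, ha⟩ : ∃ a, a = X.1 0 0 := ⟨_, rfl⟩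
  obtain ⟨b, hb⟩ : ∃ a, a = X.1 0 1 := ⟨_, rfl⟩
  obtain ⟨c, hc⟩ : ∃ a, a = X.1 1 0 := ⟨_, rfl⟩
  obtain ⟨a1, ha1⟩ : ∃ a, a = Y.1 0 0 := ⟨_, rfl⟩
  obtain ⟨b1, hb1⟩ : ∃ a, a = Y.1 0 1 := ⟨_, rfl⟩
  obtain ⟨c1, hc1⟩ : ∃ a, a = Y.1 1 0 := ⟨_, rfl⟩
  have hX11 : X.1 1 1 = -a := by rw [ha]; linear_combination hX
  have hY11 : Y.1 1 1 = -a1 := by rw [ha1]; linear_combination hY
  rw [hX11, ← ha, ← hb, ← hc] at hdX
  rw [hY11, ← ha1, ← hb1, ← hc1] at hdY
  have h1 : a ^ 2 + b * c = -1 := by linear_combination -hdX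
  have h2 : a1 ^ 2 + b1 * c1 = -1 := by linear_combination -hdY
  have ht : tr (X * Y) = 2 * a * a1 + b * c1 + c * b1 := by
    unfold tr
    rw [mul_00, mul_11, hX11, hY11, ← ha, ← hb, ← hc, ← ha1, ← hb1, ← hc1]
    ring
  set t := tr (X * Y) with htdef
  set E := 4 - t ^ 2 with hEdef
  set α := (-2 * s₁ - t * s₂) / E with hα
  set β := (-t * s₁ - 2 * s₂) / E with hβ
  set γ := D₀ / E with hγ
  have hdet0 : α ^ 2 + β ^ 2 - α * β * t + γ ^ 2 * E = 1 := by
    rw [hα, hβ, hγ]
    field_simp
    linear_combination E * hD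
  set u := b * c1 - b1 * c with hu
  set v := a * b1 - a1 * b with hv
  set w := a1 * c - a * c1 with hw
  set z11 := α * a + β * a1 + γ * u with hz11
  set z12 := α * b + β * b1 + 2 * γ * v with hz12
  set z21 := α * c + β * c1 + 2 * γ * w with hz21
  have hdetZ : z11 * (-z11) - z12 * z21 = 1 := by
    rw [← hdet0, hEdef, ht, hz11, hz12, hz21, hu, hv, hw]
    linear_combination (-α ^ 2 + γ ^ 2 * (4 * (a1 ^ 2 + b1 * c1 + 1) - 4)) * h1 +
      (-β ^ 2 - 4 * γ ^ 2) * h2
  refine ⟨sl2 z11 z12 z21 (-z11) hdetZ, ?_, ?_, ?_⟩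
  · show z11 + -z11 = 0
    ring
  · have h3 : tr (X * sl2 z11 z12 z21 (-z11) hdetZ) = -2 * α + β * t := by
      have h4 : tr (X * sl2 z11 z12 z21 (-z11) hdetZ) =
          a * z11 + b * z21 + (c * z12 + (-a) * (-z11)) := by
        unfold tr
        rw [mul_00, mul_11, hX11, ← ha, ← hb, ← hc]
        rfl
      rw [h4, ht, hz11, hz12, hz21, hu, hv, hw]
      linear_combination 2 * α * h1
    rw [h3, hα, hβ]
    field_simp
    rw [hEdef]
    ring
  · have h3 : tr (Y * sl2 z11 z12 z21 (-z11) hdetZ) = α * t - 2 * β := by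
      have h4 : tr (Y * sl2 z11 z12 z21 (-z11) hdetZ) =
          a1 * z11 + b1 * z21 + (c1 * z12 + (-a1) * (-z11)) := by
        unfold tr
        rw [mul_00, mul_11, hY11, ← ha1, ← hb1, ← hc1]
        rfl
      rw [h4, ht, hz11, hz12, hz21, hu, hv, hw]
      linear_combination 2 * β * h2
    rw [h3, hα, hβ]
    field_simp
    rw [hEdef]
    ring

end Algebra

section NT

variable {F : Type*} [Field F] [Fintype F]

/-- Multiplicativity of the square class. -/
lemma isSquare_mul_iff (h2 : ringChar F ≠ 2) {a b : F} (ha : a ≠ 0) (hb : b ≠ 0) :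
    IsSquare (a * b) ↔ (IsSquare a ↔ IsSquare b) := by
  classical
  have hab : a * b ≠ 0 := mul_ne_zero ha hb
  have hone : (1 : ℤ) ≠ -1 := by norm_num
  have hχ : quadraticChar F (a * b) = quadraticChar F a * quadraticChar F b := map_mul _ _ _
  rw [← quadraticChar_one_iff_isSquare hab, ← quadraticChar_one_iff_isSquare ha,
    ← quadraticChar_one_iff_isSquare hb, hχ]
  rcases quadraticChar_dichotomy ha with h | h <;> rcases quadraticChar_dichotomy hb with h' | h' <;>
    rw [h, h'] <;> norm_num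

/-- `χ ∘ h` cannot be the trivial class on all of `F`. -/
lemma exists_not_isSquare (h2 : ringChar F ≠ 2) (t : F) (hne : ∀ u : F, u ^ 2 + t * u + 1 ≠ 0) :
    ∃ u : F, ¬ IsSquare (u ^ 2 + t * u + 1) := by
  classical
  by_contra hcon
  push Not at hcon
  set n := Fintype.card F / 2 with hn
  have hq2 : 2 ≤ Fintype.card F := Fintype.one_lt_card
  have hodd : Fintype.card F % 2 = 1 := FiniteField.odd_card_of_char_ne_two h2
  let f : Polynomial F := polyT (-t)
  have hfm : f.Monic := polyT_monic _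
  have hfd : f.natDegree = 2 := polyT_natDegree _
  have hfe : ∀ u : F, f.eval u = u ^ 2 + t * u + 1 := by
    intro u
    simp only [f]
    rw [polyT_eval]
    ring
  let P : Polynomial F := f ^ n - 1
  have hPeval : ∀ u : F, P.eval u = 0 := by
    intro u
    have h3 := (FiniteField.isSquare_iff h2 (hne u)).1 (hcon u)
    simp only [P, Polynomial.eval_sub, Polynomial.eval_pow, Polynomial.eval_one]
    rw [hfe, h3, sub_self]
  have hmon : (f ^ n).Monic := hfm.pow n
  have hdeg : (f ^ n).natDegree = 2 * n := by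
    rw [hfm.natDegree_pow, hfd]
    ring
  have hn0 : 0 < n := by
    rw [hn]; omega
  have hPd : P.natDegree = 2 * n := by
    simp only [P]
    rw [Polynomial.natDegree_sub_eq_left_of_natDegree_lt]
    · exact hdeg
    · rw [hdeg]
      simp
      omega
  have hP0 : P = 0 := by
    apply Polynomial.eq_zero_of_natDegree_lt_card_of_eval_eq_zero P (f := id) Function.injective_id
      hPeval
    rw [hPd, hn]
    omega
  rw [hP0, Polynomial.natDegree_zero] at hPd
  omega

/-- Parameters of `Z` when `-1` is not a square. -/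
lemma nt3 (h3 : 3 < Fintype.card F) (hm : ¬ IsSquare (-1 : F)) (t e : F) (he : e ≠ 0)
    (hte : 4 - t ^ 2 = e ^ 2) :
    ∃ τ τ' D₀ : F, τ ≠ 0 ∧ τ * τ ≠ 1 ∧ τ' ≠ 0 ∧ τ' * τ' ≠ 1 ∧
      D₀ ^ 2 = 4 - t ^ 2 - (τ + τ⁻¹) ^ 2 - (τ' + τ'⁻¹) ^ 2 - t * (τ + τ⁻¹) * (τ' + τ'⁻¹) := by
  classical
  have hc2 : ringChar F ≠ 2 := by
    intro hc
    exact hm (FiniteField.isSquare_of_char_two hc _)
  have h2 : (2 : F) ≠ 0 := Ring.two_ne_zero hc2
  have hmul := fun {a b : F} (ha : a ≠ 0) (hb : b ≠ 0) => isSquare_mul_iff hc2 ha hb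
  let h : F → F := fun u => u ^ 2 + t * u + 1
  have hne : ∀ u : F, h u ≠ 0 := by
    intro u hu
    apply hm
    refine ⟨(2 * u + t) / e, ?_⟩
    have h5 : u ^ 2 + t * u + 1 = 0 := hu
    field_simp
    linear_combination (-4) * h5 + hte
  have hm' : ∀ a : F, a ≠ 0 → (IsSquare (-a) ↔ ¬ IsSquare a) := by
    intro a ha
    have h5 := hmul (neg_ne_zero.2 (one_ne_zero (α := F))) ha
    have h6 : -1 * a = -a := by ring
    rw [h6] at h5
    rw [h5]
    tauto
  -- the class of `h 1` and `h (-1)`
  have h1m : IsSquare (h 1) ↔ IsSquare (h (-1)) := by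
    rw [← hmul (hne 1) (hne (-1))]
    refine ⟨e, ?_⟩
    simp only [h]
    linear_combination hte
  have hA : ∃ u : F, u ≠ 0 ∧ (IsSquare (h u) ↔ ¬ IsSquare (h 1)) := by
    by_cases h1s : IsSquare (h 1)
    · obtain ⟨u, hu⟩ := exists_not_isSquare hc2 t hne
      refine ⟨u, ?_, by tauto⟩
      rintro rfl
      apply hu
      simp
    · by_cases ht0 : t = 0
      · obtain ⟨m, hm0, hm1, hm2⟩ : ∃ m : F, m ≠ 0 ∧ m ≠ 1 ∧ m ≠ -1 := by
          by_contra hcon
          push Not at hcon
          have : (Finset.univ : Finset F) ⊆ {0, 1, -1} := by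
            intro m _
            simp only [Finset.mem_insert, Finset.mem_singleton]
            by_cases h0 : m = 0
            · exact Or.inl h0
            · by_cases h1 : m = 1
              · exact Or.inr (Or.inl h1)
              · exact Or.inr (Or.inr (hcon m h0 h1))
          have h6 := Finset.card_le_card this
          have h7 : ({0, 1, -1} : Finset F).card ≤ 3 := Finset.card_le_three
          rw [Finset.card_univ] at h6
          omega
        refine ⟨(m - m⁻¹) / 2, ?_, ?_⟩
        · intro h6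
          have h7 : m * m = 1 := by
            field_simp at h6
            linear_combination h6
          have h8 : (m - 1) * (m + 1) = 0 := by linear_combination h7
          rcases mul_eq_zero.1 h8 with h9 | h9
          · exact hm1 (by linear_combination h9)
          · exact hm2 (by linear_combination h9)
        · have : IsSquare (h ((m - m⁻¹) / 2)) := by
            refine ⟨(m + m⁻¹) / 2, ?_⟩
            simp only [h, ht0]
            field_simp
            ring
          tauto
      · refine ⟨-t / 2, ?_, ?_⟩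
        · intro h6
          apply ht0
          field_simp at h6
          linear_combination -h6
        · have : IsSquare (h (-t / 2)) := by
            refine ⟨e / 2, ?_⟩
            simp only [h]
            field_simp
            linear_combination hte
          tauto
  obtain ⟨u, hu0, hu⟩ := hA
  -- the pair `R, S`
  obtain ⟨R, S, hR, hS, hRS, hne1, hne2, hw⟩ : ∃ R S : F, R ≠ 0 ∧ S ≠ 0 ∧ IsSquare (R * S) ∧
      R * S ≠ 1 ∧ S ≠ R ∧ IsSquare (-(h R * h S)) := by
    have hclass : ∀ S : F, S ≠ 0 → (IsSquare (h S) ↔ IsSquare (h 1)) →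
        S * u ≠ 1 ∧ S ≠ u ∧ IsSquare (-(h u * h S)) := by
      intro S hS hSc
      refine ⟨?_, ?_, ?_⟩
      · intro h6
        have h7 : h S = S ^ 2 * h u := by
          have h8 : S = u⁻¹ := eq_inv_of_mul_eq_one_left h6
          simp only [h]
          rw [h8]
          field_simp
          ring
        have h9 : IsSquare (h S) ↔ IsSquare (h u) := by
          rw [← hmul (hne S) (hne u), h7]
          refine ⟨S * h u, ?_⟩
          ring
        tauto
      · rintro rfl
        tauto
      · rw [hm' _ (mul_ne_zero (hne u) (hne S)), hmul (hne u) (hne S)]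
        tauto
    by_cases hus : IsSquare u
    · obtain ⟨h6, h7, h8⟩ := hclass 1 one_ne_zero Iff.rfl
      refine ⟨u, 1, hu0, one_ne_zero, by simpa using hus, by simpa using h6, h7, h8⟩
    · obtain ⟨h6, h7, h8⟩ := hclass (-1) (neg_ne_zero.2 one_ne_zero) h1m.symm
      refine ⟨u, -1, hu0, neg_ne_zero.2 one_ne_zero, ?_, ?_, h7, h8⟩
      · have := (hm' u hu0).2 hus
        simpa using this
      · rwa [mul_comm]
  obtain ⟨τ, hτ⟩ := hRS
  obtain ⟨w, hw⟩ := hw
  have hτ0 : τ ≠ 0 := by
    rintro rfl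
    apply mul_ne_zero hR hS
    rw [hτ]
    ring
  have hτ' : τ / R ≠ 0 := div_ne_zero hτ0 hR
  refine ⟨τ, τ / R, w / τ, hτ0, ?_, hτ', ?_, ?_⟩
  · rw [← hτ]
    exact hne1
  · intro h6
    apply hne2
    have h7 : τ * τ = R * R := by
      field_simp at h6
      linear_combination h6
    rw [← hτ] at h7
    exact mul_left_cancel₀ hR h7
  · have hS' : S = τ * τ / R := by
      rw [← hτ]
      field_simp
    have h5 : w * w = -(h R * h (τ * τ / R)) := by
      rw [← hw, hS']
    have h6 : (w / τ) ^ 2 = w * w / (τ * τ) := by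
      field_simp
    rw [h6, h5]
    simp only [h]
    field_simp
    ring

end NT

section Char2

variable {F : Type*} [Field F] [Fintype F]

lemma root_unique (h2 : (2 : F) = 0) {b c : F} (hbc : b ≠ 0 ∨ c ≠ 0) {u v : F}
    (hu : b * u ^ 2 + c = 0) (hv : b * v ^ 2 + c = 0) : u = v := by
  have hb : b ≠ 0 := by
    rintro rfl
    rcases hbc with h | h
    · exact h rfl
    · apply h
      linear_combination hu
  have h3 : b * (u - v) ^ 2 = 0 := by
    linear_combination hu - hv + (b * v * (v - u)) * h2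
  rcases mul_eq_zero.1 h3 with h4 | h4
  · exact absurd h4 hb
  · have h5 := pow_eq_zero_iff (n := 2) (by norm_num) |>.1 h4
    exact sub_eq_zero.1 h5

lemma offdiag_ne (h2 : (2 : F) = 0) {X : SL(2, F)} (hX : tr X = 0) (hX1 : X ≠ 1) :
    X.1 0 1 ≠ 0 ∨ X.1 1 0 ≠ 0 := by
  by_contra hcon
  push Not at hcon
  obtain ⟨h3, h4⟩ := hcon
  have hd := det_entries X
  rw [h3, zero_mul, sub_zero] at hd
  unfold tr at hX
  have h5 : X.1 1 1 = X.1 0 0 := by linear_combination hX - X.1 0 0 * h2
  rw [h5] at hd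
  have h6 : (X.1 0 0 - 1) ^ 2 = 0 := by
    linear_combination hd + (1 - X.1 0 0) * h2
  have h7 : X.1 0 0 = 1 := sub_eq_zero.1 (pow_eq_zero_iff (n := 2) (by norm_num) |>.1 h6)
  apply hX1
  apply ext2 <;> simp [h3, h4, h5, h7]

lemma exists_Z_even (h2 : (2 : F) = 0) (hF : 4 ≤ Fintype.card F) {X Y : SL(2, F)} (hX : tr X = 0)
    (hY : tr Y = 0) (hX1 : X ≠ 1) (hY1 : Y ≠ 1) :
    ∃ Z : SL(2, F), tr Z = 0 ∧ Z ≠ 1 ∧ tr (X * Z) ≠ 0 ∧ tr (Y * Z) ≠ 0 := by
  obtain ⟨p, q, r, hpq, hpr, hqr⟩ := Fintype.two_lt_card_iff.1 (by omega : 2 < Fintype.card F)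
  have hbad : ∃ u : F, X.1 0 1 * u ^ 2 + X.1 1 0 ≠ 0 ∧ Y.1 0 1 * u ^ 2 + Y.1 1 0 ≠ 0 := by
    by_contra hcon
    push Not at hcon
    have hX' := offdiag_ne h2 hX hX1
    have hY' := offdiag_ne h2 hY hY1
    have hk : ∀ u : F, X.1 0 1 * u ^ 2 + X.1 1 0 = 0 ∨ Y.1 0 1 * u ^ 2 + Y.1 1 0 = 0 := by
      intro u
      by_cases h : X.1 0 1 * u ^ 2 + X.1 1 0 = 0
      · exact Or.inl h
      · exact Or.inr (hcon u h)
    rcases hk p with h1 | h1 <;> rcases hk q with h3 | h3 <;> rcases hk r with h4 | h4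
    · exact hpq (root_unique h2 hX' h1 h3)
    · exact hpq (root_unique h2 hX' h1 h3)
    · exact hpr (root_unique h2 hX' h1 h4)
    · exact hqr (root_unique h2 hY' h3 h4)
    · exact hqr (root_unique h2 hX' h3 h4)
    · exact hpr (root_unique h2 hY' h1 h4)
    · exact hpq (root_unique h2 hY' h1 h3)
    · exact hpq (root_unique h2 hY' h1 h3)
  obtain ⟨u, hu1, hu2⟩ := hbad
  have hdet : (1 + u) * (1 + u) - 1 * (u * u) = 1 := by linear_combination u * h2
  refine ⟨sl2 (1 + u) 1 (u * u) (1 + u) hdet, ?_, ?_, ?_, ?_⟩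
  · show (1 + u) + (1 + u) = 0
    linear_combination (1 + u) * h2
  · intro h
    have h3 := congrArg (fun M : SL(2, F) => M.1 0 1) h
    simp only [one_01] at h3
    exact one_ne_zero h3
  · have h3 : tr (X * sl2 (1 + u) 1 (u * u) (1 + u) hdet) = X.1 0 1 * u ^ 2 + X.1 1 0 := by
      unfold tr at hX ⊢
      rw [mul_00, mul_11]
      show X.1 0 0 * (1 + u) + X.1 0 1 * (u * u) + (X.1 1 0 * 1 + X.1 1 1 * (1 + u)) = _
      linear_combination (1 + u) * hX
    rwa [h3]
  · have h3 : tr (Y * sl2 (1 + u) 1 (u * u) (1 + u) hdet) = Y.1 0 1 * u ^ 2 + Y.1 1 0 := by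
      unfold tr at hY ⊢
      rw [mul_00, mul_11]
      show Y.1 0 0 * (1 + u) + Y.1 0 1 * (u * u) + (Y.1 1 0 * 1 + Y.1 1 1 * (1 + u)) = _
      linear_combination (1 + u) * hY
    rwa [h3]

/-- Involutions are conjugate in characteristic two. -/
lemma exists_conj_even (h2 : (2 : F) = 0) {X Y : SL(2, F)} (hX : tr X = 0) (hY : tr Y = 0)
    (hX1 : X ≠ 1) (hY1 : Y ≠ 1) : ∃ g : SL(2, F), g * X * g⁻¹ = Y := by
  have hc : ringChar F = 2 :=
    CharP.ringChar_of_prime_eq_zero (R := F) Nat.prime_two (by exact_mod_cast h2)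
  have htr : ∀ {A : SL(2, F)}, tr A = 0 → tr A = 2 := by
    intro A hA
    rw [hA, h2]
  obtain ⟨g, s, hg⟩ := Cfsg.Agent.Lib.PSL2.Unipotent.exists_conj_x_of_tr_eq_two X (htr hX)
  obtain ⟨k, s', hk⟩ := Cfsg.Agent.Lib.PSL2.Unipotent.exists_conj_x_of_tr_eq_two Y (htr hY)
  have hs : s ≠ 0 := by
    rintro rfl
    rw [x_zero] at hg
    apply hX1
    have h3 : X = g⁻¹ * (g * X * g⁻¹) * g := by group
    rw [h3, hg]
    group
  have hs' : s' ≠ 0 := by
    rintro rfl
    rw [x_zero] at hk
    apply hY1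
    have h3 : Y = k⁻¹ * (k * Y * k⁻¹) * k := by group
    rw [h3, hk]
    group
  obtain ⟨a, ha⟩ := FiniteField.isSquare_of_char_two hc (s' / s)
  have ha0 : a ≠ 0 := by
    rintro rfl
    rw [mul_zero] at ha
    exact (div_ne_zero hs' hs) ha
  have hd : d a ha0 * x s * (d a ha0)⁻¹ = x s' := by
    have hd1 : a * a * s = s' := by
      rw [← ha]
      field_simp
    apply ext2
    · simp
      field_simp
    · simp
      linear_combination hd1
    · simp
    · simp
      field_simp
  refine ⟨k⁻¹ * d a ha0 * g, ?_⟩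
  have h3 : (k⁻¹ * d a ha0 * g) * X * (k⁻¹ * d a ha0 * g)⁻¹ =
      k⁻¹ * (d a ha0 * (g * X * g⁻¹) * (d a ha0)⁻¹) * k := by group
  rw [h3, hg, hd, ← hk]
  group

end Char2

section Main

variable {F : Type*} [Field F] [Fintype F]

lemma order_comm {G : Type*} [Group G] (a b : G) : orderOf (a * b) = orderOf (b * a) := by
  have h := (MulAut.conj b).orderOf_eq (a * b)
  rw [← h]
  congr 1
  simp only [MulAut.conj_apply]
  group

lemma exists_char_odd (h2 : (2 : F) ≠ 0) : ∃ p : ℕ, CharP F p ∧ Odd p := by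
  obtain ⟨p, hp⟩ := CharP.exists F
  refine ⟨p, hp, ?_⟩
  have hpp : p.Prime := (CharP.char_is_prime_or_zero F p).resolve_right (fun h => by
    subst h
    exact CharP.ringChar_ne_zero_of_finite F (ringChar.eq F 0))
  rcases Nat.even_or_odd p with h | h
  · exfalso
    have hp2 : p = 2 := hpp.even_iff.1 h
    subst hp2
    apply h2
    exact_mod_cast CharP.cast_eq_zero F 2
  · exact h

/-- Common neighbours in odd characteristic. -/
lemma main_odd (h2 : (2 : F) ≠ 0) (hF : 4 ≤ Fintype.card F) {X Y : SL(2, F)} (hX : tr X = 0)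
    (hY : tr Y = 0) (hev : ¬ Odd (orderOf (mkP X * mkP Y))) :
    ∃ Z : SL(2, F), tr Z = 0 ∧ mkP X ≠ mkP Z ∧ mkP Y ≠ mkP Z ∧ Odd (orderOf (mkP X * mkP Z)) ∧
      Odd (orderOf (mkP Y * mkP Z)) := by
  rw [← map_mul] at hev
  obtain ⟨p, hp, hpo⟩ := exists_char_odd h2
  have h4 : (4 : F) = 2 * 2 := by norm_num
  have h22 : (2 : F) ≠ -2 := by
    intro h
    apply h2
    have : (2 : F) * 2 = 0 := by linear_combination h
    exact (mul_self_eq_zero.1 this)
  set t := tr (X * Y) with ht
  have ht2 : t ≠ 2 := fun h => hev (odd_of_tr_two p hpo (Or.inl h))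
  have htm : t ≠ -2 := fun h => hev (odd_of_tr_two p hpo (Or.inr h))
  have hE : 4 - t ^ 2 ≠ 0 := by
    intro h
    have h5 : (t - 2) * (t + 2) = 0 := by linear_combination -h
    rcases mul_eq_zero.1 h5 with h6 | h6
    · exact ht2 (by linear_combination h6)
    · exact htm (by linear_combination h6)
  have hXX : tr (X * X) = -2 := by
    rw [(mul_self_eq_neg_one_iff X).2 hX, tr_neg, tr_one]
  have hYY : tr (Y * Y) = -2 := by
    rw [(mul_self_eq_neg_one_iff Y).2 hY, tr_neg, tr_one]
  by_cases hm : IsSquare (-1 : F)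
  · obtain ⟨i, hi⟩ := hm
    obtain ⟨Z, hZ0, hZ1, hZ2⟩ := exists_Z X Y hX hY 2 2 (i * (t + 2)) hE (by
      rw [← ht]
      linear_combination (t + 2) ^ 2 * (-hi))
    refine ⟨Z, hZ0, ?_, ?_, ?_, ?_⟩
    · intro h
      rcases mkP_eq_iff.1 h with h3 | h3
      · rw [h3, hXX] at hZ1
        exact h22 hZ1.symm
      · rw [h3, mul_neg, tr_neg, tr_mul_comm] at hZ2
        rw [← ht] at hZ2
        exact htm (by linear_combination -hZ2)
    · intro h
      rcases mkP_eq_iff.1 h with h3 | h3
      · rw [h3, hYY] at hZ2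
        exact h22 hZ2.symm
      · rw [h3, mul_neg, tr_neg] at hZ1
        rw [← ht] at hZ1
        exact htm (by linear_combination -hZ1)
    · rw [← map_mul]
      exact odd_of_tr_two p hpo (Or.inl hZ1)
    · rw [← map_mul]
      exact odd_of_tr_two p hpo (Or.inl hZ2)
  · have hc2 : ringChar F ≠ 2 := by
      intro hc
      apply h2
      have h3 := ringChar.Nat.cast_ringChar (R := F)
      rw [hc] at h3
      exact_mod_cast h3
    have hq : Fintype.card F % 4 = 3 := by
      by_contra hcon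
      exact hm (FiniteField.isSquare_neg_one_iff.2 hcon)
    -- `4 - t ^ 2` is a square
    have hsq : IsSquare (4 - t ^ 2) := by
      have hne : t ^ 2 - 4 ≠ 0 := by
        intro h
        apply hE
        linear_combination -h
      have hns : ¬ IsSquare (t ^ 2 - 4) := by
        rintro ⟨w, hw⟩
        apply hev
        -- `t = τ + τ⁻¹` with `τ = (t + w) / 2`
        have hτ : (t + w) / 2 * ((t - w) / 2) = 1 := by
          field_simp
          linear_combination hw
        have hτ0 : (t + w) / 2 ≠ 0 := left_ne_zero_of_mul_eq_one hτ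
        have hinv : ((t + w) / 2)⁻¹ = (t - w) / 2 := inv_eq_of_mul_eq_one_right hτ
        refine odd_of_split (τ := (t + w) / 2) hq hτ0 ?_ ?_
        · intro h5
          have h6 : (t + w) / 2 = (t - w) / 2 := by
            have h7 := mul_left_cancel₀ hτ0 (h5.trans hτ.symm)
            exact h7
          have h8 : w = 0 := by
            field_simp at h6
            have : 2 * w = 0 := by linear_combination h6
            exact (mul_eq_zero.1 this).resolve_left h2
          apply hne
          rw [hw, h8]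
          ring
        · rw [hinv, ← ht]
          field_simp
          ring
      have h5 := isSquare_mul_iff hc2 (neg_ne_zero.2 (one_ne_zero (α := F))) hne
      have h6 : -1 * (t ^ 2 - 4) = 4 - t ^ 2 := by ring
      rw [h6] at h5
      rw [h5]
      tauto
    obtain ⟨e, he⟩ := hsq
    have he0 : e ≠ 0 := by
      rintro rfl
      apply hE
      rw [he]
      ring
    obtain ⟨τ, τ', D₀, hτ0, hτ1, hτ'0, hτ'1, hD⟩ :=
      nt3 (by omega) hm t e he0 (by rw [he]; ring)
    obtain ⟨Z, hZ0, hZ1, hZ2⟩ := exists_Z X Y hX hY (τ + τ⁻¹) (τ' + τ'⁻¹) D₀ hE (by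
      rw [← ht]
      exact hD)
    have hnotpm : ∀ {a : F}, a ≠ 0 → a * a ≠ 1 → a + a⁻¹ ≠ 2 ∧ a + a⁻¹ ≠ -2 := by
      intro a ha ha1
      constructor
      · intro h
        apply ha1
        have h5 : (a - 1) ^ 2 = 0 := by
          field_simp at h
          linear_combination h
        have h6 : a = 1 := sub_eq_zero.1 (pow_eq_zero_iff (n := 2) (by norm_num) |>.1 h5)
        rw [h6, mul_one]
      · intro h
        apply ha1
        have h5 : (a + 1) ^ 2 = 0 := by
          field_simp at h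
          linear_combination h
        have h6 : a = -1 := by
          have := pow_eq_zero_iff (n := 2) (by norm_num) |>.1 h5
          linear_combination this
        rw [h6]
        ring
    have hne' : ∀ {W : SL(2, F)} {a : F}, tr (W * W) = -2 → tr (W * Z) = a + a⁻¹ → a ≠ 0 →
        a * a ≠ 1 → mkP W ≠ mkP Z := by
      intro W a hW hWZ ha ha1 h
      rcases mkP_eq_iff.1 h with h3 | h3
      · rw [h3, hW] at hWZ
        exact (hnotpm ha ha1).2 hWZ.symm
      · rw [h3, mul_neg, tr_neg, hW, neg_neg] at hWZ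
        exact (hnotpm ha ha1).1 hWZ.symm
    refine ⟨Z, hZ0, hne' hXX hZ1 hτ0 hτ1, hne' hYY hZ2 hτ'0 hτ'1, ?_, ?_⟩
    · rw [← map_mul]
      exact odd_of_split hq hτ0 hτ1 hZ1
    · rw [← map_mul]
      exact odd_of_split hq hτ'0 hτ'1 hZ2

end Main

section Final

lemma graph_lemma {V : Type*} [Nonempty V] (G : SimpleGraph V)
    (h : ∀ x y : V, x ≠ y → G.Adj x y ∨ ∃ z, G.Adj x z ∧ G.Adj z y)
    (hn : ∃ x y, x ≠ y ∧ ¬ G.Adj x y) : G.Connected ∧ G.diam = 2 := by
  have hle : ∀ u v, G.edist u v ≤ 2 := by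
    intro u v
    by_cases huv : u = v
    · subst huv
      rw [SimpleGraph.edist_self]
      exact zero_le
    · rcases h u v huv with h1 | ⟨z, h1, h2⟩
      · have := (SimpleGraph.Walk.cons h1 SimpleGraph.Walk.nil).edist_le
        refine this.trans ?_
        simp
      · have := (SimpleGraph.Walk.cons h1 (SimpleGraph.Walk.cons h2 SimpleGraph.Walk.nil)).edist_le
        refine this.trans ?_
        simp
  have hd : G.ediam ≤ 2 := SimpleGraph.ediam_le_of_edist_le hle
  have hne : G.ediam ≠ ⊤ := fun h => by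
    rw [h] at hd
    simp at hd
  obtain ⟨x, y, hxy, hnadj⟩ := hn
  haveI : Nontrivial V := ⟨x, y, hxy⟩
  refine ⟨SimpleGraph.connected_of_ediam_ne_top hne, ?_⟩
  have h0 : G.diam ≠ 0 := SimpleGraph.diam_ne_zero_of_ediam_ne_top hne
  have h1 : G.diam ≠ 1 := fun h1 => by
    have := SimpleGraph.diam_eq_one.1 h1
    apply hnadj
    rw [this]
    exact hxy
  have h2 : G.diam ≤ 2 := by
    unfold SimpleGraph.diam
    exact ENat.toNat_le_of_le_natCast hd
  omega

variable {F : Type*} [Field F] [Fintype F]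

lemma neg_eq_self (h2 : (2 : F) = 0) (A : SL(2, F)) : -A = A := by
  apply ext2 <;> simp <;> linear_combination (-A.1 _ _) * h2

lemma exists_even_pair_two (h2 : (2 : F) = 0) (hF : 4 ≤ Fintype.card F) {T : SL(2, F)}
    (htr : tr T = 0) (hT1 : T ≠ 1) :
    ∃ y : PSL(2, F), IsConj (mkP T) y ∧ mkP T ≠ y ∧ orderOf (mkP T * y) = 2 := by
  obtain ⟨g, s, hg⟩ := Cfsg.Agent.Lib.PSL2.Unipotent.exists_conj_x_of_tr_eq_two T (by rw [htr, h2])
  have hs : s ≠ 0 := by
    rintro rfl
    rw [x_zero] at hg
    apply hT1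
    have h3 : T = g⁻¹ * (g * T * g⁻¹) * g := by group
    rw [h3, hg]
    group
  obtain ⟨s', hs'0, hs's⟩ : ∃ s' : F, s' ≠ 0 ∧ s' ≠ s := by
    by_contra hcon
    push Not at hcon
    obtain ⟨p, q, r, hpq, hpr, hqr⟩ := Fintype.two_lt_card_iff.1 (by omega : 2 < Fintype.card F)
    have hk : ∀ u : F, u = 0 ∨ u = s := by
      intro u
      by_cases h : u = 0
      · exact Or.inl h
      · exact Or.inr (hcon u h)
    rcases hk p with h1 | h1 <;> rcases hk q with h3 | h3 <;> rcases hk r with h4 | h4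
    · exact hpq (h1.trans h3.symm)
    · exact hpq (h1.trans h3.symm)
    · exact hpr (h1.trans h4.symm)
    · exact hqr (h3.trans h4.symm)
    · exact hqr (h3.trans h4.symm)
    · exact hpr (h1.trans h4.symm)
    · exact hpq (h1.trans h3.symm)
    · exact hpq (h1.trans h3.symm)
  set Y := g⁻¹ * x s' * g with hY
  have hT' : T = g⁻¹ * x s * g := by
    rw [← hg]; group
  have hYt : tr Y = 0 := by
    have h3 : tr Y = tr (x s') := by
      have : Y = g⁻¹ * x s' * g⁻¹⁻¹ := by rw [hY, inv_inv]
      rw [this, tr_conj]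
    rw [h3]
    unfold tr
    simp only [x_00, x_11]
    linear_combination h2
  have hY1 : Y ≠ 1 := by
    intro h
    have h3 : x s' = g * Y * g⁻¹ := by rw [hY]; group
    rw [h, mul_one, mul_inv_cancel] at h3
    have h4 := congrArg (fun M : SL(2, F) => M.1 0 1) h3
    simp only [x_01, one_01] at h4
    exact hs'0 h4
  have hconjY : IsConj (mkP T) (mkP Y) := by
    obtain ⟨k, hk⟩ := exists_conj_even h2 htr hYt hT1 hY1
    refine isConj_iff.2 ⟨mkP k, ?_⟩
    rw [← hk, map_mul, map_mul, map_inv]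
  have hTY : T * Y = g⁻¹ * x (s + s') * g := by
    rw [hT', hY, x_add]
    group
  refine ⟨mkP Y, hconjY, ?_, ?_⟩
  · intro h3
    have h4 : Y = T := by
      rcases mkP_eq_iff.1 h3 with h5 | h5
      · exact h5
      · rw [h5, neg_eq_self h2]
    rw [hT', hY] at h4
    have h5 : x s' = x s := by
      have h6 := congrArg (fun A => g * A * g⁻¹) h4
      simpa [mul_assoc] using h6
    have h6 := congrArg (fun M : SL(2, F) => M.1 0 1) h5
    simp only [x_01] at h6
    exact hs's h6
  · rw [← map_mul]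
    apply orderOf_eq_prime
    · rw [← map_pow, pow_two, hTY]
      have h3 : (g⁻¹ * x (s + s') * g) * (g⁻¹ * x (s + s') * g) =
          g⁻¹ * (x (s + s') * x (s + s')) * g := by group
      rw [h3, ← x_add]
      have h4 : s + s' + (s + s') = 0 := by linear_combination (s + s') * h2
      rw [h4, x_zero]
      simp
    · rw [hTY]
      intro h
      rw [mkP_eq_one_iff] at h
      have h5 : g⁻¹ * x (s + s') * g = 1 := by
        rcases h with h | h
        · exact h
        · rw [h, neg_eq_self h2]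
      have h6 : x (s + s') = 1 := by
        have h7 := congrArg (fun A => g * A * g⁻¹) h5
        simpa [mul_assoc] using h7
      have h8 := congrArg (fun M : SL(2, F) => M.1 0 1) h6
      simp only [x_01, one_01] at h8
      apply hs's
      linear_combination h8 - s * h2

lemma exists_even_pair_odd (h2 : (2 : F) ≠ 0) {T : SL(2, F)} (htr : tr T = 0) :
    ∃ y : PSL(2, F), IsConj (mkP T) y ∧ mkP T ≠ y ∧ orderOf (mkP T * y) = 2 := by
  have hT2 : T * T = -1 := (mul_self_eq_neg_one_iff T).2 htr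
  have hneg : ∀ {A : SL(2, F)}, -A = A → False := by
    intro A h
    apply h2
    have h00 := congrArg (fun M : SL(2, F) => M.1 0 0) h
    have h01 := congrArg (fun M : SL(2, F) => M.1 0 1) h
    simp only [neg_00, neg_01] at h00 h01
    have hd := det_entries A
    have e1 : 2 * A.1 0 0 = 0 := by linear_combination -h00
    have e2 : 2 * A.1 0 1 = 0 := by linear_combination -h01
    rcases mul_eq_zero.1 e1 with h5 | h5
    · exact h5
    · rcases mul_eq_zero.1 e2 with h6 | h6
      · exact h6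
      · rw [h5, h6] at hd
        simp at hd
  have hT1 : T ≠ 1 := by
    rintro rfl
    rw [tr_one] at htr
    exact h2 htr
  have hT1' : T ≠ -1 := by
    rintro rfl
    rw [tr_neg, tr_one] at htr
    exact h2 (by linear_combination -htr)
  have h4ne : tr T ^ 2 ≠ 4 := by
    rw [htr]
    intro h
    have h3 : (2 : F) * 2 = 0 := by linear_combination -h
    exact h2 (mul_self_eq_zero.1 h3)
  obtain ⟨w, hw⟩ := Cfsg.Agent.Lib.PSL2.Macbeath.exists_conj_of_tr_eq T T⁻¹ h4ne (tr_inv T).symm
  have hwt : tr w = 0 := Cfsg.Agent.Lib.PSL2.TorusCore.tr_eq_zero_of_inverts ⟨hT1, hT1'⟩ hw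
  have hTinv : T⁻¹ = -T := by
    have h3 : T * (-T) = 1 := by
      rw [mul_neg, hT2, neg_neg]
    exact inv_eq_of_mul_eq_one_right h3
  have hconjw : IsConj (mkP T) (mkP w) := by
    obtain ⟨g, hg⟩ := Cfsg.Agent.Lib.PSL2.TraceZero.exists_conj_of_tr_eq_zero h2 T w htr hwt
    refine isConj_iff.2 ⟨mkP g, ?_⟩
    rw [← hg, map_mul, map_mul, map_inv]
  have hnotcomm : ¬ (w * T * w⁻¹ = T) := by
    intro h
    rw [hw, hTinv] at h
    exact hneg h
  have hne : mkP T ≠ mkP w := by
    intro h
    apply hnotcomm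
    rcases mkP_eq_iff.1 h with h5 | h5
    · rw [h5]; group
    · rw [h5]; simp
  refine ⟨mkP w, hconjw, hne, ?_⟩
  rw [← map_mul]
  have hww : w * w = -1 := (mul_self_eq_neg_one_iff w).2 hwt
  have hM : (T * w) * (T * w) = -1 := by
    have h3 : (T * w) * (T * w) = T * (w * T * w⁻¹) * (w * w) := by group
    rw [h3, hw, hww]
    simp
  apply orderOf_eq_prime
  · rw [← map_pow, pow_two, hM, mkP_neg_one]
  · intro h
    rw [mkP_eq_one_iff] at h
    apply hnotcomm
    rcases h with h | h
    · have h5 : w = T⁻¹ := eq_inv_of_mul_eq_one_right h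
      rw [h5]
      group
    · have h5 : w = T⁻¹ * (-1) := by
        rw [← h]
        group
      rw [h5]
      simp

lemma exists_even_pair (hF : 4 ≤ Fintype.card F) {T : SL(2, F)} (ht : orderOf (mkP T) = 2) :
    ∃ y : PSL(2, F), IsConj (mkP T) y ∧ mkP T ≠ y ∧ orderOf (mkP T * y) = 2 := by
  have hT1 : T ≠ 1 := by
    rintro rfl
    rw [map_one, orderOf_one] at ht
    omega
  have hpow : mkP T * mkP T = 1 := by
    have h0 := pow_orderOf_eq_one (mkP T)
    rw [ht] at h0
    rw [← pow_two]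
    exact h0
  rw [← map_mul, mkP_eq_one_iff] at hpow
  by_cases h2 : (2 : F) = 0
  · have hT2 : T * T = 1 := by
      rcases hpow with h | h
      · exact h
      · rw [h, neg_eq_self h2]
    have htr : tr T = 0 := by
      have h3 := tr_mul_self T
      rw [hT2, tr_one, h2] at h3
      have h4 : tr T ^ 2 = 0 := by linear_combination -h3
      exact pow_eq_zero_iff (n := 2) (by norm_num) |>.1 h4
    exact exists_even_pair_two h2 hF htr hT1
  · have hT2 : T * T = -1 := by
      rcases hpow with h | h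
      · exfalso
        rcases (mul_self_eq_one_iff h2 T).1 h with h3 | h3
        · exact hT1 h3
        · rw [h3, mkP_neg_one, orderOf_one] at ht
          omega
      · exact h
    exact exists_even_pair_odd h2 ((mul_self_eq_neg_one_iff T).1 hT2)

theorem main_thm (hF : 4 ≤ Fintype.card F) (t : PSL(2, F)) (ht : orderOf t = 2) :
    (SimpleGraph.fromRel fun x y : {x : PSL(2, F) // IsConj t x} =>
        Odd (orderOf (x.1 * y.1))).Connected ∧
      (SimpleGraph.fromRel fun x y : {x : PSL(2, F) // IsConj t x} =>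
        Odd (orderOf (x.1 * y.1))).diam = 2 := by
  obtain ⟨T, rfl⟩ := mkP_surjective t
  haveI : Nonempty {x : PSL(2, F) // IsConj (mkP T) x} := ⟨⟨mkP T, IsConj.refl _⟩⟩
  have hlift : ∀ x : {x : PSL(2, F) // IsConj (mkP T) x}, ∃ C : SL(2, F), mkP (C * T * C⁻¹) = x.1 := by
    rintro ⟨x, hx⟩
    obtain ⟨c, hc⟩ := isConj_iff.1 hx
    obtain ⟨C, rfl⟩ := mkP_surjective c
    refine ⟨C, ?_⟩
    rw [map_mul, map_mul, map_inv]
    exact hc
  have hT1 : T ≠ 1 := by
    rintro rfl
    rw [map_one, orderOf_one] at ht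
    omega
  have hpow : mkP T * mkP T = 1 := by
    have h0 := pow_orderOf_eq_one (mkP T)
    rw [ht] at h0
    rw [← pow_two]
    exact h0
  rw [← map_mul, mkP_eq_one_iff] at hpow
  apply graph_lemma
  · -- common neighbours
    rintro x y hxy
    by_cases hodd : Odd (orderOf (x.1 * y.1))
    · left
      rw [SimpleGraph.fromRel_adj]
      exact ⟨hxy, Or.inl hodd⟩
    right
    obtain ⟨C, hC⟩ := hlift x
    obtain ⟨D, hD⟩ := hlift y
    set X := C * T * C⁻¹ with hX
    set Y := D * T * D⁻¹ with hY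
    by_cases h2 : (2 : F) = 0
    · -- characteristic two
      have hT2 : T * T = 1 := by
        rcases hpow with h | h
        · exact h
        · rw [h, neg_eq_self h2]
      have htr : tr T = 0 := by
        have h3 := tr_mul_self T
        rw [hT2, tr_one, h2] at h3
        have h4 : tr T ^ 2 = 0 := by linear_combination -h3
        exact pow_eq_zero_iff (n := 2) (by norm_num) |>.1 h4
      have hXt : tr X = 0 := by rw [hX, tr_conj, htr]
      have hYt : tr Y = 0 := by rw [hY, tr_conj, htr]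
      have hne1 : ∀ C : SL(2, F), C * T * C⁻¹ ≠ 1 := by
        intro C h
        apply hT1
        have h3 : T = C⁻¹ * (C * T * C⁻¹) * C := by group
        rw [h3, h]
        group
      obtain ⟨Z, hZ0, hZ1, hZX, hZY⟩ := exists_Z_even h2 hF hXt hYt (hne1 C) (hne1 D)
      have hconj : IsConj (mkP T) (mkP Z) := by
        obtain ⟨g, hg⟩ := exists_conj_even h2 htr hZ0 hT1 hZ1
        refine isConj_iff.2 ⟨mkP g, ?_⟩
        rw [← hg, map_mul, map_mul, map_inv]
      have hnez : ∀ {W : SL(2, F)}, tr W = 0 → tr (W * Z) ≠ 0 → mkP W ≠ mkP Z := by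
        intro W hW hWZ h
        apply hWZ
        rcases mkP_eq_iff.1 h with h3 | h3
        · rw [h3, tr_mul_self, hW, h2]
          ring
        · rw [h3, neg_eq_self h2, tr_mul_self, hW, h2]
          ring
      refine ⟨⟨mkP Z, hconj⟩, ?_, ?_⟩
      · rw [SimpleGraph.fromRel_adj]
        refine ⟨?_, Or.inl ?_⟩
        · intro h
          have h3 := congrArg Subtype.val h
          apply hnez hXt hZX
          rw [hC]
          exact h3
        · show Odd (orderOf (x.1 * mkP Z))
          rw [← hC, ← map_mul]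
          exact odd_of_char_two h2 hZX
      · rw [SimpleGraph.fromRel_adj]
        refine ⟨?_, Or.inr ?_⟩
        · intro h
          have h3 := congrArg Subtype.val h
          apply hnez hYt hZY
          rw [hD]
          exact h3.symm
        · show Odd (orderOf (y.1 * mkP Z))
          rw [← hD, ← map_mul]
          exact odd_of_char_two h2 hZY
    · -- odd characteristic
      have hT2 : T * T = -1 := by
        rcases hpow with h | h
        · exfalso
          rcases (mul_self_eq_one_iff h2 T).1 h with h3 | h3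
          · exact hT1 h3
          · rw [h3, mkP_neg_one, orderOf_one] at ht
            omega
        · exact h
      have htr : tr T = 0 := (mul_self_eq_neg_one_iff T).1 hT2
      have hXt : tr X = 0 := by rw [hX, tr_conj, htr]
      have hYt : tr Y = 0 := by rw [hY, tr_conj, htr]
      rw [← hC, ← hD] at hodd
      obtain ⟨Z, hZ0, hXZ, hYZ, hOX, hOY⟩ := main_odd h2 hF hXt hYt hodd
      have hconj : IsConj (mkP T) (mkP Z) := by
        obtain ⟨g, hg⟩ := Cfsg.Agent.Lib.PSL2.TraceZero.exists_conj_of_tr_eq_zero h2 T Z htr hZ0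
        refine isConj_iff.2 ⟨mkP g, ?_⟩
        rw [← hg, map_mul, map_mul, map_inv]
      refine ⟨⟨mkP Z, hconj⟩, ?_, ?_⟩
      · rw [SimpleGraph.fromRel_adj]
        refine ⟨?_, Or.inl ?_⟩
        · intro h
          have h3 := congrArg Subtype.val h
          apply hXZ
          rw [hC]
          exact h3
        · show Odd (orderOf (x.1 * mkP Z))
          rw [← hC]
          exact hOX
      · rw [SimpleGraph.fromRel_adj]
        refine ⟨?_, Or.inr ?_⟩
        · intro h
          have h3 := congrArg Subtype.val h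
          apply hYZ
          rw [hD]
          exact h3.symm
        · show Odd (orderOf (y.1 * mkP Z))
          rw [← hD]
          exact hOY
  · -- a non-adjacent pair
    have hnonadj : ∀ {u v : {x : PSL(2, F) // IsConj (mkP T) x}}, u ≠ v →
        orderOf (u.1 * v.1) = 2 →
        ¬ (SimpleGraph.fromRel fun x y : {x : PSL(2, F) // IsConj (mkP T) x} =>
          Odd (orderOf (x.1 * y.1))).Adj u v := by
      intro u v huv hord h
      rw [SimpleGraph.fromRel_adj] at h
      rcases h.2 with h3 | h3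
      · rw [hord] at h3
        exact absurd h3 (by decide)
      · rw [order_comm, hord] at h3
        exact absurd h3 (by decide)
    obtain ⟨y, hy, hne, hord⟩ := exists_even_pair hF ht
    exact ⟨⟨mkP T, IsConj.refl _⟩, ⟨y, hy⟩, fun h => hne (congrArg Subtype.val h), hnonadj
      (fun h => hne (congrArg Subtype.val h)) hord⟩

end Final

/-- Let F be a finite field with at least 4 elements and let X be a conjugacy class of involutions of PSL(2, F). The graph on X joining two distinct involutions whose product has odd order is connected and has diameter exactly 2. -/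
theorem result {F : Type*} [Field F] [Fintype F] (hF : 4 ≤ Fintype.card F)
    (t : Matrix.ProjectiveSpecialLinearGroup (Fin 2) F) (ht : orderOf t = 2) :
    (SimpleGraph.fromRel fun x y : {x : Matrix.ProjectiveSpecialLinearGroup (Fin 2) F // IsConj t x} =>
        Odd (orderOf (x.1 * y.1))).Connected ∧
      (SimpleGraph.fromRel fun x y : {x : Matrix.ProjectiveSpecialLinearGroup (Fin 2) F // IsConj t x} =>
        Odd (orderOf (x.1 * y.1))).diam = 2 :=
  main_thm hF t ht

end Cfsg.Agent.S3266
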