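import Cfsg.Statements.S3269
import Cfsg.Agent.S0215
import Cfsg.Agent.Lib.Components.ZStarApps

set_option autoImplicit false
open Cfsg
open Subgroup Cfsg.Agent.Lib.Components.ZStarApps

namespace Cfsg.Agent.S3269

/-- Let G be a finite group whose Sylow 2-subgroup S is an internal direct product Q × R with Q generalized quaternion (of order at least 8) and R a subgroup all of whose involutions are central in R. Then G is not simple. In particular no finite simple group has a Sylow 2-subgroup that is a direct product of one or more generalized quaternion groups. -/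
theorem result {G : Type*} [Group G] [Finite G]
    (S : Sylow 2 G) (Q R : Subgroup G) (hQR : Cfsg.IsInternalDirectProduct Q R (S : Subgroup G))
    (n : ℕ) (hn : 1 ≤ n) (eQ : ↥Q ≃* QuaternionGroup (2 ^ n))
    (hR : ∀ r ∈ R, orderOf r = 2 → ∀ s ∈ R, r * s = s * r) :
    ¬ IsSimpleGroup G := by
  intro hsimple
  classical
  obtain ⟨hQS, hRS, hcomm, hinf, hsup⟩ := hQR
  obtain ⟨φ, hφ⟩ := exists_equiv_of_internal (S : Subgroup G) Q R hQS hRS hcomm hinf hsup
  have hm1 : 1 ≤ 2 ^ n := Nat.one_le_two_pow
  have hm : 2 ≤ 2 ^ n := by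
    calc 2 = 2 ^ 1 := rfl
      _ ≤ 2 ^ n := Nat.pow_le_pow_right (by norm_num) hn
  let z0 : QuaternionGroup (2 ^ n) := QuaternionGroup.a ((2 ^ n : ℕ) : ZMod (2 * 2 ^ n))
  let z : ↥Q := eQ.symm z0
  have hz01 : z0 ≠ 1 := quat_z_ne_one hm1
  have hz1 : z ≠ 1 := by
    intro h
    apply hz01
    have := congrArg eQ h
    simpa [z] using this
  have hz2 : z * z = 1 := by
    change eQ.symm z0 * eQ.symm z0 = 1
    rw [← map_mul, quat_z_mul_self hm1, map_one]
  have huniq : ∀ a : ↥Q, a * a = 1 → a = 1 ∨ a = z := by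
    intro a ha
    have h1 : eQ a * eQ a = 1 := by rw [← map_mul, ha, map_one]
    rcases quat_uniq hm1 _ h1 with h | h
    · left
      exact eQ.injective (h.trans (map_one eQ).symm)
    · right
      apply eQ.injective
      change eQ a = eQ (eQ.symm z0)
      rw [h, MulEquiv.apply_symm_apply]
  have hker : ∀ x : ↥Q, x ≠ 1 → z ∈ zpowers x := by
    intro x hx
    have h1 : eQ x ≠ 1 := fun h => hx (eQ.injective (h.trans (map_one eQ).symm))
    obtain ⟨k, hk⟩ := mem_zpowers_iff.mp (quat_pow2 n hn (eQ x) h1)
    refine mem_zpowers_iff.mpr ⟨k, ?_⟩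
    apply eQ.injective
    rw [map_zpow, hk]
    change z0 = eQ (eQ.symm z0)
    rw [MulEquiv.apply_symm_apply]
  have hnab : ∃ a a' : ↥Q, a * a' ≠ a' * a := by
    obtain ⟨q, q', h⟩ := quat_nonabelian hm
    refine ⟨eQ.symm q, eQ.symm q', fun h' => h ?_⟩
    have := congrArg eQ h'
    simpa using this
  -- `z` is central in `Q`
  have hzcen : ∀ q : ↥Q, q * z = z * q := by
    intro q
    have h1 : (q * z * q⁻¹) * (q * z * q⁻¹) = 1 := by
      calc (q * z * q⁻¹) * (q * z * q⁻¹) = q * (z * z) * q⁻¹ := by group
        _ = 1 := by rw [hz2]; group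
    rcases huniq _ h1 with h | h
    · exfalso
      apply hz1
      have : z = q⁻¹ * (q * z * q⁻¹) * q := by group
      rw [this, h]
      group
    · calc q * z = q * z * q⁻¹ * q := by group
        _ = z * q := by rw [h]
  let π : ↥(S : Subgroup G) →* ↥Q := (MonoidHom.fst _ _).comp φ.symm.toMonoidHom
  let z' : ↥(S : Subgroup G) := φ (z, 1)
  have hz'2 : z' * z' = 1 := by
    change φ (z, 1) * φ (z, 1) = 1
    rw [← map_mul]
    have : ((z, 1) : ↥Q × ↥R) * (z, 1) = 1 := Prod.ext hz2 (mul_one _)
    rw [this, map_one]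
  have hπz' : π z' ≠ 1 := by
    have : π z' = z := by
      change (φ.symm (φ (z, 1))).1 = z
      rw [MulEquiv.symm_apply_apply]
    rw [this]
    exact hz1
  have hcenS : ∀ x : ↥(S : Subgroup G), x * x = 1 → x ∈ center ↥(S : Subgroup G) := by
    intro x hx
    obtain ⟨⟨u, v⟩, rfl⟩ := φ.surjective x
    have h1 : ((u, v) : ↥Q × ↥R) * (u, v) = 1 := by
      apply φ.injective
      rw [map_mul, hx, map_one]
    have hu : u * u = 1 := congrArg Prod.fst h1
    have hv : v * v = 1 := congrArg Prod.snd h1
    rw [mem_center_iff]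
    intro s
    obtain ⟨⟨c, d⟩, rfl⟩ := φ.surjective s
    rw [← map_mul, ← map_mul]
    congr 1
    refine Prod.ext ?_ ?_
    · change c * u = u * c
      rcases huniq u hu with rfl | rfl
      · rw [mul_one, one_mul]
      · exact hzcen c
    · change d * v = v * d
      by_cases hv1 : v = 1
      · rw [hv1, mul_one, one_mul]
      · have hord : orderOf (v : G) = 2 := by
          apply orderOf_eq_prime
          · have := congrArg (Subtype.val) hv
            simpa [sq] using this
          · intro h
            exact hv1 (Subtype.ext h)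
        exact Subtype.ext (hR (v : G) v.2 hord (d : G) d.2).symm
  have hΓ : ∀ b ∈ (normalizerMonoidHom (S : Subgroup G)).range, π (b z') = 1 ∨ b z' = z' := by
    intro b _
    rcases prod_aut_dichotomy (B := ↥R) z hz1 hz2 huniq hker hnab (φ.trans (b.trans φ.symm)) with h | h
    · left
      exact h
    · right
      apply φ.symm.injective
      exact h.trans (φ.symm_apply_apply _).symm
  obtain ⟨t, htc, ht2, ht1, htfix⟩ := exists_fixed_central_involution _ π z' hcenS hz'2 hπz' hΓ
  have ht2' : (t : G) * t = 1 := congrArg Subtype.val ht2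
  have ht1' : (t : G) ≠ 1 := fun h => ht1 (Subtype.ext h)
  have hord : orderOf (t : G) = 2 := by
    apply orderOf_eq_prime
    · rw [sq, ht2']
    · exact ht1'
  have hwc : ∀ g : G, g * (t : G) * g⁻¹ ∈ S → g * (t : G) * g⁻¹ = t := by
    refine weaklyClosed_of_fixed S (t : G) t.2 ht2' ?_ ?_
    · intro x hx hx2 s hs
      have := (mem_center_iff.mp (hcenS ⟨x, hx⟩ (Subtype.ext hx2))) ⟨s, hs⟩
      exact (congrArg Subtype.val this).symm
    · intro n hn
      have := htfix (normalizerMonoidHom (S : Subgroup G) ⟨n, hn⟩) ⟨_, rfl⟩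
      exact congrArg Subtype.val this
  obtain ⟨N, hNn, hNodd, hN⟩ := Cfsg.Agent.S0215.result S (t : G) hord t.2 hwc
  rcases hsimple.eq_bot_or_eq_top_of_normal N hNn with h | h
  · -- `t` is central in `G`
    have htZ : (t : G) ∈ center G := by
      rw [mem_center_iff]
      intro g
      have h1 := hN g
      rw [h, mem_bot] at h1
      have h2 : (t : G) * g * (t : G)⁻¹ = g := by
        exact mul_inv_eq_one.mp h1
      have h3 : (t : G) * g = g * t := by
        exact mul_inv_eq_iff_eq_mul.mp h2
      exact h3.symm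
    rcases hsimple.eq_bot_or_eq_top_of_normal (center G) inferInstance with h' | h'
    · rw [h', mem_bot] at htZ
      exact ht1' htZ
    · obtain ⟨a, a', haa⟩ := hnab
      apply haa
      have h2 : (a' : G) ∈ center G := by rw [h']; trivial
      have := (mem_center_iff.mp h2) (a : G)
      exact Subtype.ext this
  · rw [h] at hNodd
    have h1 : 2 ∣ Nat.card G := hord ▸ orderOf_dvd_natCard (t : G)
    have h2 : Nat.card (⊤ : Subgroup G) = Nat.card G := Nat.card_congr Subgroup.topEquiv.toEquiv
    rw [h2] at hNodd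
    exact (Nat.not_even_iff_odd.mpr hNodd) (even_iff_two_dvd.mpr h1)

end Cfsg.Agent.S3269
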