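import Cfsg.Statements.S3276
import Mathlib
import Cfsg.Agent.Lib.PGroup.Basic
-- import your own Cfsg.Agent.* helpers here

set_option autoImplicit false
open Cfsg

namespace Cfsg.Agent.S3276


/-- Dihedral lemma: two involutions are conjugate or centralize a common involution. -/
lemma dihedral_dichotomy {G : Type*} [Group G] [Finite G] (x z : G) (hx : x * x = 1) (hz : z * z = 1) :
    IsConj x z ∨ ∃ t : G, orderOf t = 2 ∧ Commute t x ∧ Commute t z := by
  set w := x * z with hw
  have hxw : x * w * x⁻¹ = w⁻¹ := by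
    have hxi : x⁻¹ = x := inv_eq_of_mul_eq_one_left hx
    have hzi : z⁻¹ = z := inv_eq_of_mul_eq_one_left hz
    rw [hw, mul_inv_rev, hxi, hzi, ← mul_assoc, hx, one_mul]
  have hxpow : ∀ n : ℕ, x * w ^ n * x⁻¹ = (w ^ n)⁻¹ := by
    intro n
    rw [← conj_pow, hxw, inv_pow]
  have hord : 0 < orderOf w := orderOf_pos w
  rcases Nat.even_or_odd' (orderOf w) with ⟨k, hk | hk⟩
  · right
    have hk0 : 0 < k := by omega
    refine ⟨w ^ k, ?_, ?_, ?_⟩
    · rw [orderOf_pow' _ hk0.ne', hk, Nat.gcd_eq_right (Nat.dvd_mul_left k 2)]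
      exact Nat.mul_div_cancel _ hk0
    · have h2 : (w ^ k) * (w ^ k) = 1 := by
        rw [← pow_add, ← two_mul, ← hk, pow_orderOf_eq_one]
      have h3 : (w ^ k)⁻¹ = w ^ k := inv_eq_of_mul_eq_one_left h2
      have h4 := hxpow k
      rw [h3, mul_inv_eq_iff_eq_mul] at h4
      exact h4.symm
    · have h2 : (w ^ k) * (w ^ k) = 1 := by
        rw [← pow_add, ← two_mul, ← hk, pow_orderOf_eq_one]
      have h3 : (w ^ k)⁻¹ = w ^ k := inv_eq_of_mul_eq_one_left h2
      have h4 := hxpow k
      rw [h3, mul_inv_eq_iff_eq_mul] at h4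
      -- `t` commutes with `x`, and with `w`, hence with `z = x w`.
      have hzxw : z = x * w := by rw [hw, ← mul_assoc, hx, one_mul]
      have hcx : Commute (w ^ k) x := h4.symm
      have hcw : Commute (w ^ k) w := (Commute.refl w).pow_left k
      rw [hzxw]
      exact hcx.mul_right hcw
  · left
    have hxi : x⁻¹ = x := inv_eq_of_mul_eq_one_left hx
    rw [isConj_iff]
    refine ⟨w ^ k, ?_⟩
    have h1 : w ^ (2 * k + 1) = 1 := by rw [← hk, pow_orderOf_eq_one]
    have h2 := hxpow k
    have h3 : x * (w ^ k)⁻¹ = w ^ k * x := by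
      have : x * w ^ k * x = (w ^ k)⁻¹ := by rw [← h2, hxi]
      calc x * (w ^ k)⁻¹ = x * (x * w ^ k * x) := by rw [this]
        _ = (x * x) * w ^ k * x := by group
        _ = w ^ k * x := by rw [hx, one_mul]
    calc w ^ k * x * (w ^ k)⁻¹ = w ^ k * (x * (w ^ k)⁻¹) := by group
      _ = w ^ k * (w ^ k * x) := by rw [h3]
      _ = w ^ (2 * k) * x := by rw [← mul_assoc, ← pow_add, two_mul]
      _ = w⁻¹ * x := by
          have : w ^ (2 * k) = w⁻¹ := by
            rw [pow_succ] at h1
            exact eq_inv_of_mul_eq_one_left h1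
          rw [this]
      _ = z := by
          rw [hw, mul_inv_rev, hxi]
          have hzi : z⁻¹ = z := inv_eq_of_mul_eq_one_left hz
          rw [hzi, mul_assoc, hx, mul_one]


lemma card_le_two {A : Type*} [Group A] [Finite A] (S : Subgroup A) (y : A)
    (h : ∀ a ∈ S, a = 1 ∨ a = y) : Nat.card S ≤ 2 := by
  have hs : (S : Set A) ⊆ {1, y} := by
    intro a ha
    rcases h a ha with h1 | h1
    · left; exact h1
    · right; exact h1
  calc Nat.card S = (S : Set A).ncard := (Nat.card_coe_set_eq _)
    _ ≤ ({1, y} : Set A).ncard := Set.ncard_le_ncard hs (Set.toFinite _)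
    _ ≤ 2 := (Set.ncard_insert_le 1 {y}).trans (by simp)

/-- Let x and y be commuting, non-conjugate involutions of a finite group G, and suppose that for every involution u commuting with x, each conjugate of y that commutes with u also commutes with y. Then the normal closure of y is a proper, normal, elementary abelian 2-subgroup of G; and if y is the only involution of that normal closure commuting with x, it has order at most 4. -/
theorem result {G : Type*} [Group G] [Finite G] (x y : G) (hx : orderOf x = 2) (hy : orderOf y = 2)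
    (hxy : Commute x y) (hnc : ¬ IsConj x y)
    (hstar : ∀ u : G, orderOf u = 2 → Commute u x → ∀ g : G, Commute (g * y * g⁻¹) u → Commute (g * y * g⁻¹) y) :
    Subgroup.normalClosure ({y} : Set G) ≠ ⊤ ∧ Cfsg.IsElementaryAbelian 2 (Subgroup.normalClosure ({y} : Set G)) ∧
      ((∀ u ∈ Subgroup.normalClosure ({y} : Set G), orderOf u = 2 → Commute u x → u = y) →
        Nat.card ↥(Subgroup.normalClosure ({y} : Set G)) ≤ 4) := by
  classical
  have hxx : x * x = 1 := by
    have := pow_orderOf_eq_one x
    rwa [hx, pow_two] at this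
  have hyy : y * y = 1 := by
    have := pow_orderOf_eq_one y
    rwa [hy, pow_two] at this
  -- every conjugate of `y` commutes with `y`
  have hcomm : ∀ g : G, Commute (g * y * g⁻¹) y := by
    intro g
    have hzz : (g * y * g⁻¹) * (g * y * g⁻¹) = 1 := by
      calc (g * y * g⁻¹) * (g * y * g⁻¹) = g * (y * y) * g⁻¹ := by group
        _ = 1 := by rw [hyy]; simp
    rcases dihedral_dichotomy x (g * y * g⁻¹) hxx hzz with h | ⟨t, ht, htx, htz⟩
    · exfalso
      apply hnc
      have h2 : IsConj (g * y * g⁻¹) y := by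
        rw [isConj_comm, isConj_iff]; exact ⟨g, rfl⟩
      exact h.trans h2
    · exact hstar t ht htx g htz.symm
  have hcomm2 : ∀ g h : G, Commute (g * y * g⁻¹) (h * y * h⁻¹) := by
    intro g h
    have := hcomm (h⁻¹ * g)
    have e := (this.eq)
    unfold Commute SemiconjBy
    have e2 := congrArg (fun a => h * a * h⁻¹) e
    calc g * y * g⁻¹ * (h * y * h⁻¹) = h * ((h⁻¹ * g) * y * (h⁻¹ * g)⁻¹ * y) * h⁻¹ := by group
      _ = h * (y * ((h⁻¹ * g) * y * (h⁻¹ * g)⁻¹)) * h⁻¹ := e2
      _ = _ := by group
  set A := Subgroup.normalClosure ({y} : Set G) with hA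
  have hAcl : A = Subgroup.closure (Group.conjugatesOfSet ({y} : Set G)) := rfl
  have hconj : ∀ s ∈ Group.conjugatesOfSet ({y} : Set G), ∃ g : G, s = g * y * g⁻¹ := by
    intro s hs
    rw [Group.mem_conjugatesOfSet_iff] at hs
    obtain ⟨a, ha, h⟩ := hs
    rw [Set.mem_singleton_iff] at ha
    subst ha
    rw [isConj_iff] at h
    obtain ⟨g, hg⟩ := h
    exact ⟨g, hg.symm⟩
  have hyA : y ∈ A := Subgroup.subset_normalClosure (Set.mem_singleton y)
  have hconjA : ∀ g : G, g * y * g⁻¹ ∈ A := fun g => (inferInstance : A.Normal).conj_mem y hyA g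
  have h1 : A ≤ Subgroup.centralizer (Group.conjugatesOfSet ({y} : Set G)) := by
    rw [hAcl, Subgroup.closure_le]
    intro s hs
    rw [SetLike.mem_coe, Subgroup.mem_centralizer_iff]
    intro s' hs'
    obtain ⟨g, rfl⟩ := hconj s hs
    obtain ⟨g', rfl⟩ := hconj s' hs'
    exact (hcomm2 g' g).eq
  have h2 : ∀ a ∈ A, ∀ b ∈ A, a * b = b * a := by
    intro a ha b hb
    have h3 : A ≤ Subgroup.centralizer ({a} : Set G) := by
      rw [hAcl, Subgroup.closure_le]
      intro s hs
      rw [SetLike.mem_coe, Subgroup.mem_centralizer_singleton_iff]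
      exact ((Subgroup.mem_centralizer_iff.mp (h1 ha)) s hs)
    have := h3 hb
    rw [Subgroup.mem_centralizer_singleton_iff] at this
    exact this.symm
  have h4 : ∀ a ∈ A, a ^ 2 = 1 := by
    intro a ha
    rw [hAcl] at ha
    induction ha using Subgroup.closure_induction with
    | mem s hs =>
      obtain ⟨g, rfl⟩ := hconj s hs
      rw [pow_two]
      calc (g * y * g⁻¹) * (g * y * g⁻¹) = g * (y * y) * g⁻¹ := by group
        _ = 1 := by rw [hyy]; simp
    | one => simp
    | mul a b ha hb iha ihb =>
      have : Commute a b := h2 a ha b hb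
      rw [this.mul_pow, iha, ihb, one_mul]
    | inv a ha iha => rw [inv_pow, iha, inv_one]
  have hEA : Cfsg.IsElementaryAbelian 2 A := by
    rw [Cfsg.Agent.Lib.PGroup.Basic.isElementaryAbelian_iff]
    exact ⟨h2, h4⟩
  refine ⟨?_, hEA, ?_⟩
  · intro htop
    apply hnc
    have hxA : x ∈ A := by rw [htop]; trivial
    -- everything commutes; the conjugates of `y` are all `y`
    have hab : ∀ g : G, g * y * g⁻¹ = y := by
      intro g
      have hg : g ∈ A := by rw [htop]; trivial
      rw [h2 g hg y hyA]; simp
    have htriv : A ≤ Subgroup.zpowers y := by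
      rw [hAcl, Subgroup.closure_le]
      intro s hs
      obtain ⟨g, rfl⟩ := hconj s hs
      rw [hab]
      exact Subgroup.mem_zpowers y
    obtain ⟨n, hn⟩ := htriv hxA
    have h5 : x = 1 ∨ x = y := by
      have h6 : ∀ m : ℤ, y ^ m = 1 ∨ y ^ m = y := by
        intro m
        rcases Int.even_or_odd m with h | h
        · left
          obtain ⟨c, rfl⟩ := h
          rw [← two_mul, zpow_mul]
          have : y ^ (2 : ℤ) = 1 := by
            rw [zpow_two]; exact hyy
          rw [this, one_zpow]
        · right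
          obtain ⟨c, rfl⟩ := h
          rw [zpow_add, zpow_mul]
          have : y ^ (2 : ℤ) = 1 := by
            rw [zpow_two]; exact hyy
          rw [this, one_zpow]; simp
      rcases h6 n with h | h
      · left; rw [← hn]; exact h
      · right; rw [← hn]; exact h
    rcases h5 with h | h
    · rw [h, orderOf_one] at hx
      omega
    · rw [h]
  · intro huniq
    -- the map `a ↦ a * x a x⁻¹` on `A`
    have hxA : ∀ a ∈ A, x * a * x⁻¹ ∈ A := fun a ha => (inferInstance : A.Normal).conj_mem a ha x
    let φ : ↥A →* ↥A := MonoidHom.mk' (fun a => ⟨(a : G) * (x * a * x⁻¹), A.mul_mem a.2 (hxA a a.2)⟩) (by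
      intro a b
      apply Subtype.ext
      simp only [Subgroup.coe_mul]
      have e1 := h2 b b.2 (x * a * x⁻¹) (hxA a a.2)
      calc (a : G) * b * (x * (a * b) * x⁻¹) = a * (b * (x * a * x⁻¹)) * (x * b * x⁻¹) := by group
        _ = a * ((x * a * x⁻¹) * b) * (x * b * x⁻¹) := by rw [e1]
        _ = _ := by group)
    have hxi : x⁻¹ = x := inv_eq_of_mul_eq_one_left hxx
    have hfix : ∀ a : G, a ∈ A → Commute a x → a = 1 ∨ a = y := by
      intro a ha hc
      by_cases h1 : a = 1
      · exact Or.inl h1
      · right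
        apply huniq a ha _ hc
        exact orderOf_eq_prime (h4 a ha) h1
    have hker : Nat.card φ.ker ≤ 2 := by
      apply card_le_two φ.ker ⟨y, hyA⟩
      intro a ha
      have h5 : (a : G) * (x * a * x⁻¹) = 1 := by
        have := congrArg Subtype.val (MonoidHom.mem_ker.mp ha)
        exact this
      have h6 : x * (a : G) * x⁻¹ = a := by
        have h7 : (a : G) * a = 1 := by
          have := h4 a a.2
          rwa [pow_two] at this
        have h8 := mul_left_cancel (h5.trans h7.symm)
        exact h8
      have h9 : Commute (a : G) x := by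
        rw [mul_inv_eq_iff_eq_mul] at h6
        exact h6.symm
      rcases hfix a a.2 h9 with h | h
      · left; exact Subtype.ext h
      · right; exact Subtype.ext h
    have hran : Nat.card φ.range ≤ 2 := by
      apply card_le_two φ.range ⟨y, hyA⟩
      rintro _ ⟨a, rfl⟩
      have h9 : Commute (((φ a : ↥A)) : G) x := by
        change (a : G) * (x * a * x⁻¹) * x = x * ((a : G) * (x * a * x⁻¹))
        have e1 := h2 a a.2 (x * a * x⁻¹) (hxA a a.2)
        calc (a : G) * (x * a * x⁻¹) * x = (x * a * x⁻¹) * a * x := by rw [e1]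
          _ = x * ((a : G) * (x * a * x⁻¹)) := by rw [hxi]; group
      rcases hfix _ (φ a).2 h9 with h | h
      · left; exact Subtype.ext h
      · right; exact Subtype.ext h
    have hk := φ.ker.card_mul_index
    rw [Subgroup.index_ker] at hk
    rw [← hk]
    exact Nat.mul_le_mul hker hran

end Cfsg.Agent.S3276
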