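import Cfsg.Statements.S3277
import Mathlib
import Cfsg.Agent.S3276
import Cfsg.Agent.Lib.PGroup.Basic

set_option autoImplicit false
open Cfsg

namespace Cfsg.Agent.S3277

open Subgroup

section aux

variable {G : Type*} [Group G]

/-- The centralizer of an element. -/
abbrev Cn (t : G) : Subgroup G := Subgroup.centralizer ({t} : Set G)

theorem mem_Cn {t c : G} : c ∈ Cn t ↔ c * t = t * c := Subgroup.mem_centralizer_singleton_iff

/-- An element whose centralizer is elementary abelian of order four. -/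
structure Good (t : G) : Prop where
  card : Nat.card (Cn t) = 4
  sq : ∀ c ∈ Cn t, c ^ 2 = 1

theorem mul_self_of_two {t : G} (ht : orderOf t = 2) : t * t = 1 := by
  have := pow_orderOf_eq_one t
  rwa [ht, pow_two] at this

theorem inv_eq_of_two {t : G} (ht : orderOf t = 2) : t⁻¹ = t :=
  inv_eq_of_mul_eq_one_left (mul_self_of_two ht)

theorem two_of_mul_self {t : G} (h : t * t = 1) (h1 : t ≠ 1) : orderOf t = 2 :=
  orderOf_eq_prime (by rw [pow_two]; exact h) h1

theorem ne_one_of_two {t : G} (ht : orderOf t = 2) : t ≠ 1 := by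
  rintro rfl
  simp at ht

theorem eq_one_of_sq_of_odd {w : G} (h : w ^ 2 = 1) (ho : Odd (orderOf w)) : w = 1 := by
  have h2 := orderOf_dvd_of_pow_eq_one h
  rcases (Nat.dvd_prime Nat.prime_two).1 h2 with h3 | h3
  · exact orderOf_eq_one_iff.1 h3
  · rw [h3] at ho
    exact absurd ho (by decide)

theorem mem_Cn_conj {g t c : G} : c ∈ Cn (g * t * g⁻¹) ↔ g⁻¹ * c * g ∈ Cn t := by
  rw [mem_Cn, mem_Cn]
  constructor
  · intro h
    have h1 : g⁻¹ * (c * (g * t * g⁻¹)) * g = g⁻¹ * ((g * t * g⁻¹) * c) * g := by rw [h]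
    simpa [mul_assoc] using h1
  · intro h
    have h1 : g * ((g⁻¹ * c * g) * t) * g⁻¹ = g * (t * (g⁻¹ * c * g)) * g⁻¹ := by rw [h]
    simpa [mul_assoc] using h1

theorem Cn_conj_eq_map (g t : G) : Cn (g * t * g⁻¹) = (Cn t).map (MulAut.conj g).toMonoidHom := by
  ext c
  rw [mem_Cn_conj]
  constructor
  · intro h
    refine ⟨_, h, ?_⟩
    simp [mul_assoc]
  · rintro ⟨y, hy, rfl⟩
    simpa [mul_assoc] using hy

theorem card_Cn_conj (g t : G) : Nat.card (Cn (g * t * g⁻¹)) = Nat.card (Cn t) := by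
  rw [Cn_conj_eq_map]
  exact Subgroup.card_map_of_injective (MulAut.conj g).injective

theorem Good.conj {t : G} (h : Good t) (g : G) : Good (g * t * g⁻¹) := by
  refine ⟨by rw [card_Cn_conj]; exact h.card, ?_⟩
  intro c hc
  have h1 := h.sq _ (mem_Cn_conj.1 hc)
  have h2 : c ^ 2 = g * ((g⁻¹ * c * g) ^ 2) * g⁻¹ := by
    simp [pow_two, mul_assoc]
  rw [h2, h1]
  simp

theorem Good.conj' {t s : G} (h : Good t) (hc : IsConj t s) : Good s := by
  obtain ⟨g, rfl⟩ := isConj_iff.1 hc
  exact h.conj g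

/-- Four elements exhaust a subgroup of order four of exponent two. -/
theorem four_cases [Finite G] {C : Subgroup G} (hC : Nat.card C = 4) {a b : G} (ha : a ∈ C) (hb : b ∈ C)
    (ha1 : a ≠ 1) (hb1 : b ≠ 1) (hab : a ≠ b) (hsq : a * a = 1) {c : G} (hc : c ∈ C) :
    c = 1 ∨ c = a ∨ c = b ∨ c = a * b := by
  classical
  by_contra hcon
  push Not at hcon
  obtain ⟨h1, h2, h3, h4⟩ := hcon
  let s : Finset G := {1, a, b, a * b, c}
  have hs : (s : Set G) ⊆ C := by
    intro y hy
    simp only [s, Finset.coe_insert, Finset.coe_singleton, Set.mem_insert_iff, Set.mem_singleton_iff] at hy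
    rcases hy with rfl | rfl | rfl | rfl | rfl
    · exact C.one_mem
    · exact ha
    · exact hb
    · exact C.mul_mem ha hb
    · exact hc
  have hcard : s.card = 5 := by
    have hab1 : a * b ≠ 1 := by
      intro h
      apply hab
      have : a = b := by
        calc a = a * (a * b) := by rw [h, mul_one]
          _ = b := by rw [← mul_assoc, hsq, one_mul]
      exact this
    have hab2 : a * b ≠ a := by
      intro h
      exact hb1 (mul_eq_left.1 h)
    have hab3 : a * b ≠ b := by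
      intro h
      exact ha1 (mul_eq_right.1 h)
    simp only [s]
    rw [Finset.card_insert_of_notMem, Finset.card_insert_of_notMem, Finset.card_insert_of_notMem,
      Finset.card_insert_of_notMem, Finset.card_singleton]
    · simp only [Finset.mem_singleton]; exact fun h => h4 h.symm
    · simp only [Finset.mem_insert, Finset.mem_singleton]
      rintro (h | h)
      · exact hab3 h.symm
      · exact h3 h.symm
    · simp only [Finset.mem_insert, Finset.mem_singleton]
      rintro (h | h | h)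
      · exact hab h
      · exact hab2 h.symm
      · exact h2 h.symm
    · simp only [Finset.mem_insert, Finset.mem_singleton]
      rintro (h | h | h | h)
      · exact ha1 h.symm
      · exact hb1 h.symm
      · exact hab1 h.symm
      · exact h1 h.symm
  have h5 := Set.ncard_le_ncard hs (Set.toFinite _)
  rw [Set.ncard_coe_finset, hcard, ← Nat.card_coe_set_eq] at h5
  have h6 : Nat.card (C : Set G) = Nat.card C := rfl
  omega

/-- Elements of a subgroup of order four and exponent two commute. -/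
theorem comm_of_sq {a b : G} (ha : a * a = 1) (hb : b * b = 1) (hab : (a * b) * (a * b) = 1) :
    a * b = b * a := by
  have h1 : a⁻¹ = a := inv_eq_of_mul_eq_one_left ha
  have h2 : b⁻¹ = b := inv_eq_of_mul_eq_one_left hb
  have h3 : (a * b)⁻¹ = a * b := inv_eq_of_mul_eq_one_left hab
  rw [mul_inv_rev, h1, h2] at h3
  exact h3.symm

theorem sq_eq_mul_self {a : G} (h : a ^ 2 = 1) : a * a = 1 := by
  rwa [pow_two] at h

end aux

section step1

variable {G : Type*} [Group G] [Finite G]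

/-- The centralizer of `x` is a Sylow `2`-subgroup. -/
theorem sylow_eq (x : G) (hx : orderOf x = 2) (hG : Good x)
    (hne : ∀ E : Subgroup G, E.Normal → Cfsg.IsElementaryAbelian 2 E → Nat.card ↥E ≠ 2 ∧ Nat.card ↥E ≠ 4)
    (S : Subgroup G) (hS : IsPGroup 2 S) (hCS : Cn x ≤ S) : S = Cn x := by
  haveI : Fact (Nat.Prime 2) := ⟨Nat.prime_two⟩
  by_contra hne'
  have hlt : Cn x < S := lt_of_le_of_ne hCS (Ne.symm hne')
  obtain ⟨g, hgS, hgC, hgN⟩ := Cfsg.Agent.Lib.PGroup.Basic.exists_mem_normalizer_of_lt hS hlt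
  have hgN' := Subgroup.mem_normalizer_iff.1 hgN
  have hxC : x ∈ Cn x := mem_Cn.2 rfl
  have hxx := mul_self_of_two hx
  obtain ⟨x', hx'⟩ : ∃ x', x' = g * x * g⁻¹ := ⟨_, rfl⟩
  have hx'C : x' ∈ Cn x := hx' ▸ (hgN' x).1 hxC
  have hx1 : x ≠ 1 := ne_one_of_two hx
  have hx'1 : x' ≠ 1 := by
    intro h
    apply hx1
    have : g * x * g⁻¹ = g * 1 * g⁻¹ := by rw [← hx', h]; simp
    simpa using this
  have hxx' : x ≠ x' := by
    intro h
    apply hgC
    rw [mem_Cn]
    have : g * x * g⁻¹ * g = x * g := by rw [← hx', ← h]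
    simpa using this
  have hsq : ∀ c ∈ Cn x, c * c = 1 := fun c hc => sq_eq_mul_self (hG.sq c hc)
  have hcomm : ∀ a ∈ Cn x, ∀ b ∈ Cn x, a * b = b * a := fun a ha b hb =>
    comm_of_sq (hsq a ha) (hsq b hb) (hsq _ ((Cn x).mul_mem ha hb))
  have hcases : ∀ c ∈ Cn x, c = 1 ∨ c = x ∨ c = x' ∨ c = x * x' := fun c hc =>
    four_cases hG.card hxC hx'C hx1 hx'1 hxx' hxx hc
  obtain ⟨z, hz⟩ : ∃ z, z = x * x' := ⟨_, rfl⟩
  have hzC : z ∈ Cn x := hz ▸ (Cn x).mul_mem hxC hx'C
  have hz1 : z ≠ 1 := by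
    intro h
    apply hxx'
    calc x = x * (x * x') := by rw [← hz, h, mul_one]
      _ = x' := by rw [← mul_assoc, hxx, one_mul]
  obtain ⟨y, hy⟩ : ∃ y, y = g * x' * g⁻¹ := ⟨_, rfl⟩
  have hyC : y ∈ Cn x := hy ▸ (hgN' x').1 hx'C
  have hgconj : ∀ a b : G, g * (a * b) * g⁻¹ = (g * a * g⁻¹) * (g * b * g⁻¹) := by
    intro a b; group
  -- `g` centralizes `z`.
  have hgz : g * z * g⁻¹ = z := by
    rcases hcases y hyC with h | h | h | h
    · exfalso
      apply hx'1
      have : g * x' * g⁻¹ = g * 1 * g⁻¹ := by rw [← hy, h]; simp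
      simpa using this
    · rw [hz, hgconj, ← hx', ← hy, h, hcomm x' hx'C x hxC]
    · exfalso
      apply hxx'
      have : g * x' * g⁻¹ = g * x * g⁻¹ := by rw [← hy, h, hx']
      have h2 : x' = x := by simpa using this
      exact h2.symm
    · exfalso
      have h3 : g * z * g⁻¹ = x := by
        rw [hz, hgconj, ← hx', ← hy, h, hcomm x hxC x' hx'C, ← mul_assoc, hsq x' hx'C, one_mul]
      have h4 : g * g * g * x * g⁻¹ * g⁻¹ * g⁻¹ = x := by
        calc g * g * g * x * g⁻¹ * g⁻¹ * g⁻¹ = g * (g * (g * x * g⁻¹) * g⁻¹) * g⁻¹ := by group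
          _ = g * (g * x' * g⁻¹) * g⁻¹ := by rw [hx']
          _ = g * y * g⁻¹ := by rw [hy]
          _ = g * z * g⁻¹ := by rw [h, hz]
          _ = x := h3
      have h5 : (g * g * g) ∈ Cn x := by
        rw [mem_Cn]
        have : g * g * g * x * (g * g * g)⁻¹ = x := by
          have h0 : (g * g * g)⁻¹ = g⁻¹ * g⁻¹ * g⁻¹ := by group
          rw [h0, ← mul_assoc, ← mul_assoc]
          exact h4
        calc g * g * g * x = g * g * g * x * (g * g * g)⁻¹ * (g * g * g) := by group
          _ = x * (g * g * g) := by rw [this]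
      have h6 : g ^ 6 = 1 := by
        have := hG.sq _ h5
        rw [show g * g * g = g ^ 3 by simp [pow_succ], ← pow_mul] at this
        exact this
      obtain ⟨k, hk⟩ := hS ⟨g, hgS⟩
      have h7 : g ^ 2 ^ k = 1 := by
        have := congrArg Subtype.val hk
        simpa using this
      obtain ⟨j, -, hj⟩ := (Nat.dvd_prime_pow Nat.prime_two).1 (orderOf_dvd_of_pow_eq_one h7)
      have h8 : orderOf g ∣ 6 := orderOf_dvd_of_pow_eq_one h6
      rw [hj] at h8
      have hj1 : j ≤ 1 := by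
        by_contra hcon
        have : 2 ^ 2 ∣ 2 ^ j := pow_dvd_pow 2 (by omega)
        have := this.trans h8
        omega
      have h9 : g ^ 2 = 1 := by
        have : orderOf g ∣ 2 := by
          rw [hj]
          calc 2 ^ j ∣ 2 ^ 1 := pow_dvd_pow 2 hj1
            _ = 2 := by norm_num
        exact orderOf_dvd_iff_pow_eq_one.1 this
      have h10 : y = x := by
        rw [hy, hx']
        have h11 : g * (g * x * g⁻¹) * g⁻¹ = g ^ 2 * x * (g ^ 2)⁻¹ := by simp [pow_two, mul_assoc]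
        rw [h11, h9]
        simp
      apply hx'1
      have h12 : x * x' = x := by rw [← h, h10]
      exact mul_eq_left.1 h12
  have hgCz : g ∈ Cn z := by
    rw [mem_Cn]
    calc g * z = g * z * g⁻¹ * g := by group
      _ = z * g := by rw [hgz]
  have hzz : orderOf z = 2 := two_of_mul_self (hsq z hzC) hz1
  have hCz : Cn x ≤ Cn z := fun c hc => mem_Cn.2 (hcomm c hc z hzC)
  have hnc : ¬ IsConj x z := by
    intro hc
    have hGz := hG.conj' hc
    have h1 : Cn x = Cn z := Subgroup.eq_of_le_of_card_ge hCz (by rw [hG.card, hGz.card])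
    exact hgC (h1 ▸ hgCz)
  have hxz : Commute x z := mem_Cn.1 hzC |>.symm
  have hx'conj : IsConj x x' := isConj_iff.2 ⟨g, hx'.symm⟩
  -- The hypothesis of S3276.
  have hV : ∀ w : G, w ∈ Cn x → IsConj z w → w = z := by
    intro w hw hc
    rcases hcases w hw with h | h | h | h
    · exfalso
      rw [h] at hc
      exact hz1 (isConj_one_right.1 hc.symm)
    · exfalso
      rw [h] at hc
      exact hnc hc.symm
    · exfalso
      rw [h] at hc
      exact hnc (hx'conj.trans hc.symm)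
    · rw [h, hz]
  have hCx' : ∀ w, w ∈ Cn x' → w ∈ Cn x := by
    intro w hw
    have h1 : g⁻¹ * w * g ∈ Cn x := mem_Cn_conj.1 (hx' ▸ hw)
    have h2 := (hgN' _).1 h1
    have h3 : g * (g⁻¹ * w * g) * g⁻¹ = w := by group
    rwa [h3] at h2
  have hstar : ∀ u : G, orderOf u = 2 → Commute u x → ∀ k : G,
      Commute (k * z * k⁻¹) u → Commute (k * z * k⁻¹) z := by
    intro u hu hux k hku
    have huC : u ∈ Cn x := mem_Cn.2 hux
    have hconj : IsConj z (k * z * k⁻¹) := isConj_iff.2 ⟨k, rfl⟩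
    rcases hcases u huC with h | h | h | h
    · exact absurd h (ne_one_of_two hu)
    · rw [h] at hku
      rw [hV _ (mem_Cn.2 hku) hconj]
    · rw [h] at hku
      rw [hV _ (hCx' _ (mem_Cn.2 hku)) hconj]
    · rw [h, ← hz] at hku
      exact hku
  obtain ⟨-, hE, hsmall⟩ := Cfsg.Agent.S3276.result x z hx hzz hxz hnc hstar
  set E := Subgroup.normalClosure ({z} : Set G) with hEdef
  have hzE : z ∈ E := Subgroup.subset_normalClosure (Set.mem_singleton z)
  have hEn : E.Normal := Subgroup.normalClosure_normal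
  have hExp : ∀ a ∈ E, a ^ 2 = 1 := hE.2
  have hEcomm : ∀ a ∈ E, ∀ b ∈ E, a * b = b * a := by
    intro a ha b hb
    have := hE.1.is_comm.comm ⟨a, ha⟩ ⟨b, hb⟩
    exact congrArg Subtype.val this
  have hle4 : Nat.card E ≤ 4 := by
    by_cases hxE : x ∈ E
    · have h1 : E ≤ Cn x := fun a ha => mem_Cn.2 (hEcomm a ha x hxE)
      rw [← hG.card]
      exact Subgroup.card_le_of_le h1
    · apply hsmall
      intro u huE hu hux
      rcases hcases u (mem_Cn.2 hux) with h | h | h | h
      · exact absurd h (ne_one_of_two hu)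
      · exact absurd (h ▸ huE) hxE
      · exfalso
        apply hxE
        have h2 : x = x' * z := by
          rw [hz, ← mul_assoc, hcomm x' hx'C x hxC, mul_assoc, hsq x' hx'C, mul_one]
        rw [h2]
        exact E.mul_mem (h ▸ huE) hzE
      · rw [h, hz]
  have hEp : IsPGroup 2 E := by
    intro a
    refine ⟨1, ?_⟩
    apply Subtype.ext
    simpa using hExp a a.2
  obtain ⟨n, hn⟩ := IsPGroup.iff_card.1 hEp
  have hE2 := hne E hEn hE
  have hn1 : n ≠ 0 := by
    rintro rfl
    have h1 : Nat.card E = 1 := by simpa using hn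
    have h2 := (Subgroup.eq_bot_of_card_eq E h1)
    rw [h2] at hzE
    exact hz1 ((Subgroup.mem_bot).1 hzE)
  rcases n with _ | _ | _ | n
  · exact hn1 rfl
  · exact hE2.1 (by simpa using hn)
  · exact hE2.2 (by simpa using hn)
  · rw [hn] at hle4
    have : 2 ^ (n + 1 + 1 + 1) = 8 * 2 ^ n := by ring
    have h3 : 0 < 2 ^ n := by positivity
    omega

end step1

section step1b

variable {G : Type*} [Group G] [Finite G]

theorem conj_all (x : G) (hx : orderOf x = 2) (hG : Good x)
    (hsyl : ∀ S : Subgroup G, IsPGroup 2 S → Cn x ≤ S → S = Cn x)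
    (hnc : ¬ Cfsg.HasNormalPComplement 2 G) :
    (∀ t : G, orderOf t = 2 → IsConj x t) ∧ (∃ h ∈ normalizer (Cn x : Set G), h ∉ Cn x) ∧
      Nat.card (normalizer (Cn x : Set G)) ≤ 12 := by
  classical
  haveI : Fact (Nat.Prime 2) := ⟨Nat.prime_two⟩
  haveI := Fintype.ofFinite G
  have hCp : IsPGroup 2 (Cn x) := IsPGroup.of_card (n := 2) (by rw [hG.card]; norm_num)
  obtain ⟨Q, hQ⟩ := hCp.exists_le_sylow
  have hQC : (Q : Subgroup G) = Cn x := hsyl _ Q.isPGroup' hQ
  have hsq : ∀ c ∈ Cn x, c * c = 1 := fun c hc => sq_eq_mul_self (hG.sq c hc)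
  have hcomm : ∀ a ∈ Cn x, ∀ b ∈ Cn x, a * b = b * a := fun a ha b hb =>
    comm_of_sq (hsq a ha) (hsq b hb) (hsq _ ((Cn x).mul_mem ha hb))
  have hNne : ∃ h ∈ normalizer (Cn x : Set G), h ∉ Cn x := by
    by_contra hcon
    push Not at hcon
    apply hnc
    have hN : normalizer ((Q : Subgroup G) : Set G) ≤ centralizer ((Q : Subgroup G) : Set G) := by
      rw [hQC]
      intro n hn
      have hnC := hcon n hn
      rw [Subgroup.mem_centralizer_iff]
      intro c hc
      exact hcomm c hc n hnC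
    exact ⟨Q, (MonoidHom.transferSylow Q hN).ker, inferInstance,
      MonoidHom.ker_transferSylow_isComplement' Q hN⟩
  obtain ⟨h, hhN, hhC⟩ := hNne
  have hhN' := Subgroup.mem_normalizer_iff.1 hhN
  have hxC : x ∈ Cn x := mem_Cn.2 rfl
  have hxx := mul_self_of_two hx
  have hx1 : x ≠ 1 := ne_one_of_two hx
  obtain ⟨x₁, hx₁⟩ : ∃ x₁, x₁ = h * x * h⁻¹ := ⟨_, rfl⟩
  have hx₁C : x₁ ∈ Cn x := hx₁ ▸ (hhN' x).1 hxC
  have hconj_ne : ∀ a : G, a ≠ 1 → h * a * h⁻¹ ≠ 1 := by
    intro a ha h0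
    apply ha
    have : h * a * h⁻¹ = h * 1 * h⁻¹ := by rw [h0]; simp
    simpa using this
  have hx₁1 : x₁ ≠ 1 := hx₁ ▸ hconj_ne x hx1
  have hxx₁ : x ≠ x₁ := by
    intro he
    apply hhC
    rw [mem_Cn]
    have : h * x * h⁻¹ * h = x * h := by rw [← hx₁, ← he]
    simpa using this
  have hcases : ∀ c ∈ Cn x, c = 1 ∨ c = x ∨ c = x₁ ∨ c = x * x₁ := fun c hc =>
    four_cases hG.card hxC hx₁C hx1 hx₁1 hxx₁ hxx hc
  obtain ⟨y, hy⟩ : ∃ y, y = h * x₁ * h⁻¹ := ⟨_, rfl⟩
  have hyC : y ∈ Cn x := hy ▸ (hhN' x₁).1 hx₁C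
  have hyconj : y = x * x₁ := by
    rcases hcases y hyC with h1 | h1 | h1 | h1
    · exact absurd (hy ▸ h1) (hconj_ne x₁ hx₁1)
    · exfalso
      -- `h ^ 2` centralizes `x`, so `h` is a `2`-element.
      have h2 : h * h ∈ Cn x := by
        rw [mem_Cn]
        have h3 : h * (h * x * h⁻¹) * h⁻¹ = x := by rw [← hx₁, ← hy, h1]
        calc h * h * x = h * (h * x * h⁻¹) * h⁻¹ * (h * h) := by group
          _ = x * (h * h) := by rw [h3]
      have h4 : h ^ 4 = 1 := by
        have := hsq _ h2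
        calc h ^ 4 = h * h * (h * h) := by simp [pow_succ, mul_assoc]
          _ = 1 := this
      have hzp : IsPGroup 2 (zpowers h) := by
        rw [IsPGroup.iff_card, Nat.card_zpowers]
        obtain ⟨j, -, hj⟩ := (Nat.dvd_prime_pow Nat.prime_two).1 (orderOf_dvd_of_pow_eq_one
          (show h ^ 2 ^ 2 = 1 by simpa using h4))
        exact ⟨j, hj⟩
      have hle : zpowers h ≤ normalizer (Cn x : Set G) := by
        rw [Subgroup.zpowers_le]
        exact hhN
      have hsup := IsPGroup.to_sup_of_normal_right' hzp hCp hle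
      have heq := hsyl _ hsup le_sup_right
      apply hhC
      rw [← heq]
      exact Subgroup.mem_sup_left (Subgroup.mem_zpowers h)
    · exfalso
      apply hxx₁
      have : h * x₁ * h⁻¹ = h * x * h⁻¹ := by rw [← hy, h1, hx₁]
      have h2 : x₁ = x := by simpa using this
      exact h2.symm
    · exact h1
  have hc1 : IsConj x x₁ := isConj_iff.2 ⟨h, hx₁.symm⟩
  have hc2 : IsConj x (x * x₁) := hc1.trans (isConj_iff.2 ⟨h, by rw [← hy, hyconj]⟩)
  refine ⟨?_, ⟨h, hhN, hhC⟩, ?_⟩
  · intro t ht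
    have hzp : IsPGroup 2 (zpowers t) := by
      rw [IsPGroup.iff_card]
      exact ⟨1, by rw [Nat.card_zpowers, ht, pow_one]⟩
    obtain ⟨Q', hQ'⟩ := hzp.exists_le_sylow
    obtain ⟨g, hg⟩ := MulAction.exists_smul_eq G Q' Q
    have hgt : g * t * g⁻¹ ∈ Cn x := by
      rw [← hQC, ← hg, Sylow.coe_subgroup_smul]
      refine Subgroup.mem_pointwise_smul_iff_inv_smul_mem.2 ?_
      simpa [MulAut.smul_def, mul_assoc] using hQ' (Subgroup.mem_zpowers t)
    have ht1 : g * t * g⁻¹ ≠ 1 := by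
      intro h0
      apply ne_one_of_two ht
      have : g * t * g⁻¹ = g * 1 * g⁻¹ := by rw [h0]; simp
      simpa using this
    have hct : IsConj t (g * t * g⁻¹) := isConj_iff.2 ⟨g, rfl⟩
    rcases hcases _ hgt with h1 | h1 | h1 | h1
    · exact absurd h1 ht1
    · rw [h1] at hct
      exact hct.symm
    · rw [h1] at hct
      exact hc1.trans hct.symm
    · rw [h1] at hct
      exact hc2.trans hct.symm
  · -- orbit-stabilizer by hand
    let s : Finset G := Finset.univ.filter (· ∈ normalizer (Cn x : Set G))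
    let t : Finset G := {x, x₁, x * x₁}
    have hs : Nat.card (normalizer (Cn x : Set G)) = s.card := by
      rw [Nat.card_eq_fintype_card]
      exact Fintype.card_subtype _
    rw [hs]
    have hmaps : ∀ n ∈ s, n * x * n⁻¹ ∈ t := by
      intro n hn
      have hn' : n ∈ normalizer (Cn x : Set G) := (Finset.mem_filter.1 hn).2
      have h1 := (Subgroup.mem_normalizer_iff.1 hn' x).1 hxC
      simp only [t, Finset.mem_insert, Finset.mem_singleton]
      rcases hcases _ h1 with h2 | h2 | h2 | h2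
      · exfalso
        apply hx1
        have : n * x * n⁻¹ = n * 1 * n⁻¹ := by rw [h2]; simp
        simpa using this
      · exact Or.inl h2
      · exact Or.inr (Or.inl h2)
      · exact Or.inr (Or.inr h2)
    have hfib : ∀ b ∈ t, (s.filter (fun n => n * x * n⁻¹ = b)).card ≤ 4 := by
      intro b _
      by_cases hne : (s.filter (fun n => n * x * n⁻¹ = b)).Nonempty
      · obtain ⟨n₀, hn₀⟩ := hne
        have hn₀b : n₀ * x * n₀⁻¹ = b := (Finset.mem_filter.1 hn₀).2
        have hC4 : (Finset.univ.filter (· ∈ Cn x)).card = 4 := by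
          rw [← hG.card, Nat.card_eq_fintype_card]
          exact (Fintype.card_subtype _).symm
        rw [← hC4]
        refine Finset.card_le_card_of_injOn (fun n => n₀⁻¹ * n) ?_ ?_
        · intro n hn
          have hnb : n * x * n⁻¹ = b := (Finset.mem_filter.1 hn).2
          simp only [Finset.coe_filter, Finset.mem_univ, true_and, Set.mem_ofPred_eq]
          rw [mem_Cn]
          have h1 : n * x * n⁻¹ = n₀ * x * n₀⁻¹ := by rw [hnb, hn₀b]
          have h2 : n * x = n₀ * x * n₀⁻¹ * n := by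
            rw [← h1]; group
          calc n₀⁻¹ * n * x = n₀⁻¹ * (n * x) := by group
            _ = x * (n₀⁻¹ * n) := by rw [h2]; group
        · intro a _ b _ hab
          exact mul_left_cancel hab
      · rw [Finset.not_nonempty_iff_eq_empty] at hne
        rw [hne]
        simp
    have h3 := Finset.card_le_mul_card_image_of_maps_to hmaps 4 hfib
    have h4 : t.card ≤ 3 := Finset.card_le_three
    omega

end step1b

section inv_struct

variable {G : Type*} [Group G] [Finite G]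

/-- `w` has odd order, is not trivial, and is inverted by the involution `t`. -/
structure Inv (t w : G) : Prop where
  ht : orderOf t = 2
  h1 : w ≠ 1
  ho : Odd (orderOf w)
  hi : t * w * t⁻¹ = w⁻¹

variable (hP : ∀ t : G, orderOf t = 2 → Good t)
include hP

theorem sq_of_even {g : G} (hg : Even (orderOf g)) : g ^ 2 = 1 := by
  obtain ⟨k, hk⟩ := hg
  have hpos := orderOf_pos g
  have hk0 : k ≠ 0 := by omega
  have ht : orderOf (g ^ k) = 2 := by
    rw [orderOf_pow_of_dvd hk0 ⟨2, by omega⟩, hk]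
    exact Nat.div_eq_of_eq_mul_left (by omega) (by ring)
  exact (hP _ ht).sq g (mem_Cn.2 ((pow_succ' g k).symm.trans (pow_succ g k)))

theorem odd_card {w : G} (h1 : w ≠ 1) (ho : Odd (orderOf w)) : Odd (Nat.card (Cn w)) := by
  by_contra hcon
  rw [Nat.not_odd_iff_even] at hcon
  haveI : Fact (Nat.Prime 2) := ⟨Nat.prime_two⟩
  obtain ⟨s, hs⟩ := exists_prime_orderOf_dvd_card' 2 hcon.two_dvd
  have hs' : orderOf (s : G) = 2 := by rw [Subgroup.orderOf_coe]; exact hs
  have := (hP _ hs').sq w (mem_Cn.2 (mem_Cn.1 s.2).symm)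
  exact h1 (eq_one_of_sq_of_odd this ho)

omit hP in
theorem odd_order_of_mem {A : Subgroup G} (hA : Odd (Nat.card A)) {a : G} (ha : a ∈ A) :
    Odd (orderOf a) :=
  Odd.of_dvd_nat hA (Subgroup.orderOf_dvd_natCard A ha)

/-- An involution normalizing an odd order subgroup inverts it. -/
theorem inverts_of_norm {A : Subgroup G} (hA : Odd (Nat.card A)) {t : G} (ht : orderOf t = 2)
    (hN : ∀ a ∈ A, t * a * t⁻¹ ∈ A) : ∀ a ∈ A, t * a * t⁻¹ = a⁻¹ := by
  have htt := mul_self_of_two ht
  have hti := inv_eq_of_two ht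
  have hfix : ∀ c ∈ A, t * c * t⁻¹ = c → c = 1 := by
    intro c hc he
    have h1 : c ∈ Cn t := by
      rw [mem_Cn]
      calc c * t = t * c * t⁻¹ * t := by rw [he]
        _ = t * c := by group
    exact eq_one_of_sq_of_odd ((hP t ht).sq c h1) (odd_order_of_mem hA hc)
  let f : A → A := fun a => ⟨(a : G)⁻¹ * (t * a * t⁻¹), A.mul_mem (A.inv_mem a.2) (hN a a.2)⟩
  have hinj : Function.Injective f := by
    intro a b hab
    have h1 : (a : G)⁻¹ * (t * a * t⁻¹) = (b : G)⁻¹ * (t * b * t⁻¹) := congrArg Subtype.val hab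
    have h2 : t * ((b : G) * (a : G)⁻¹) * t⁻¹ = b * (a : G)⁻¹ := by
      have h3 : t * (b : G) * t⁻¹ = b * ((a : G)⁻¹ * (t * a * t⁻¹)) := by
        rw [h1]; group
      calc t * ((b : G) * (a : G)⁻¹) * t⁻¹ = (t * (b : G) * t⁻¹) * (t * (a : G) * t⁻¹)⁻¹ := by group
        _ = b * (a : G)⁻¹ := by rw [h3]; group
    have h3 := hfix _ (A.mul_mem b.2 (A.inv_mem a.2)) h2
    exact (Subtype.ext (mul_inv_eq_one.1 h3)).symm
  have hsurj := Finite.injective_iff_surjective.1 hinj
  intro a ha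
  obtain ⟨b, hb⟩ := hsurj ⟨a, ha⟩
  have hb' : (b : G)⁻¹ * (t * b * t⁻¹) = a := congrArg Subtype.val hb
  rw [← hb', hti]
  have h3 : ∀ y : G, t * (t * y) = y := fun y => by rw [← mul_assoc, htt, one_mul]
  simp only [mul_inv_rev, hti, inv_inv, mul_assoc, htt, mul_one]

omit hP [Finite G] in
theorem comm_of_inverts {A : Subgroup G} {t : G} (h : ∀ a ∈ A, t * a * t⁻¹ = a⁻¹) :
    ∀ a ∈ A, ∀ b ∈ A, a * b = b * a := by
  intro a ha b hb
  have h1 := h _ (A.mul_mem ha hb)
  have h2 : t * (a * b) * t⁻¹ = (t * a * t⁻¹) * (t * b * t⁻¹) := by group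
  rw [h2, h a ha, h b hb] at h1
  have h3 : (b * a)⁻¹ = (a * b)⁻¹ := by
    rw [mul_inv_rev, h1]
  exact (inv_injective h3).symm

theorem Inv.inverts {t w : G} (hw : Inv t w) : ∀ a ∈ Cn w, t * a * t⁻¹ = a⁻¹ := by
  refine inverts_of_norm hP (odd_card hP hw.h1 hw.ho) hw.ht ?_
  intro a ha
  rw [mem_Cn]
  have h1 : Commute a w := mem_Cn.1 ha
  have h2 : Commute (t * a * t⁻¹) (t * w * t⁻¹) := (Commute.conj_iff t).2 h1
  rw [hw.hi] at h2
  exact (Commute.inv_right_iff.1 h2)

theorem Inv.comm {t w : G} (hw : Inv t w) : ∀ a ∈ Cn w, ∀ b ∈ Cn w, a * b = b * a :=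
  comm_of_inverts (Inv.inverts hP hw)

theorem Inv.of_mem {t w v : G} (hw : Inv t w) (hv : v ∈ Cn w) (hv1 : v ≠ 1) : Inv t v :=
  ⟨hw.ht, hv1, odd_order_of_mem (odd_card hP hw.h1 hw.ho) hv, Inv.inverts hP hw v hv⟩

theorem Inv.Cn_eq {t w v : G} (hw : Inv t w) (hv : v ∈ Cn w) (hv1 : v ≠ 1) : Cn v = Cn w := by
  have hwv : w ∈ Cn v := mem_Cn.2 (mem_Cn.1 hv).symm
  have hvI := Inv.of_mem hP hw hv hv1
  apply le_antisymm
  · intro a ha
    exact mem_Cn.2 (Inv.comm hP hvI a ha w hwv)
  · intro a ha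
    exact mem_Cn.2 (Inv.comm hP hw a ha v hv)

/-- The involutions inverting `w` are the `t * a`, `a ∈ C(w)`. -/
theorem Inv.inverter_iff {t w s : G} (hw : Inv t w) :
    (orderOf s = 2 ∧ s * w * s⁻¹ = w⁻¹) ↔ t * s ∈ Cn w := by
  have htt := mul_self_of_two hw.ht
  have hti := inv_eq_of_two hw.ht
  have hA := odd_card hP hw.h1 hw.ho
  constructor
  · rintro ⟨hs, hsi⟩
    rw [mem_Cn]
    have h1 : (t * s) * w * (t * s)⁻¹ = w := by
      have h2 : (t * s) * w * (t * s)⁻¹ = t * (s * w * s⁻¹) * t⁻¹ := by group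
      rw [h2, hsi]
      have h3 : t * w⁻¹ * t⁻¹ = (t * w * t⁻¹)⁻¹ := by group
      rw [h3, hw.hi, inv_inv]
    calc (t * s) * w = (t * s) * w * (t * s)⁻¹ * (t * s) := by group
      _ = w * (t * s) := by rw [h1]
  · intro ha
    have hs : s = t * (t * s) := by rw [← mul_assoc, htt, one_mul]
    obtain ⟨a, hae⟩ : ∃ a, a = t * s := ⟨_, rfl⟩
    rw [← hae] at ha hs
    have hinv := Inv.inverts hP hw a ha
    have hss : s * s = 1 := by
      rw [hs]
      have : t * a * (t * a) = (t * a * t⁻¹) * a := by rw [hti]; group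
      rw [this, hinv, inv_mul_cancel]
    have hs1 : s ≠ 1 := by
      intro h0
      have h1 : a = t := by rw [hae, h0, mul_one]
      rw [h1] at ha
      have := odd_order_of_mem hA ha
      rw [hw.ht] at this
      exact absurd this (by decide)
    refine ⟨two_of_mul_self hss hs1, ?_⟩
    rw [hs]
    have h2 : a * w * a⁻¹ = w := by
      have : a * w = w * a := mem_Cn.1 ha
      rw [this]; group
    have h3 : t * a * w * (t * a)⁻¹ = t * (a * w * a⁻¹) * t⁻¹ := by group
    rw [h3, h2, hw.hi]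

/-- The normalizer of `C(w)` is `C(w) ∪ C(w) t`. -/
theorem Inv.normalizer_cases {t w g : G} (hw : Inv t w) (hg : g ∈ normalizer (Cn w : Set G)) :
    g ∈ Cn w ∨ g * t ∈ Cn w := by
  have htt := mul_self_of_two hw.ht
  have hti := inv_eq_of_two hw.ht
  have hA := odd_card hP hw.h1 hw.ho
  have hinv := Inv.inverts hP hw
  have hg' := Subgroup.mem_normalizer_iff.1 hg
  have hwA : w ∈ Cn w := mem_Cn.2 rfl
  -- the conjugate of `t` inverts `w`.
  have hwg : g⁻¹ * w * g ∈ Cn w := by
    have := (hg' (g⁻¹ * w * g)).2 (by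
      have h : g * (g⁻¹ * w * g) * g⁻¹ = w := by group
      rw [h]; exact hwA)
    exact this
  have ht₁ : orderOf (g * t * g⁻¹) = 2 := by
    have := MulEquiv.orderOf_eq (MulAut.conj g) t
    rw [MulAut.conj_apply] at this
    rw [this]
    exact hw.ht
  have ht₁i : (g * t * g⁻¹) * w * (g * t * g⁻¹)⁻¹ = w⁻¹ := by
    have h1 := hinv _ hwg
    calc (g * t * g⁻¹) * w * (g * t * g⁻¹)⁻¹ = g * (t * (g⁻¹ * w * g) * t⁻¹) * g⁻¹ := by group
      _ = w⁻¹ := by rw [h1]; group
  have ha₀ : t * (g * t * g⁻¹) ∈ Cn w := (Inv.inverter_iff hP hw).1 ⟨ht₁, ht₁i⟩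
  obtain ⟨a₀, ha₀e⟩ : ∃ a₀, a₀ = t * (g * t * g⁻¹) := ⟨_, rfl⟩
  rw [← ha₀e] at ha₀
  -- a square root of the inverse of `a₀`
  have hA' := hA
  obtain ⟨k, hk⟩ := hA'
  obtain ⟨b, hb⟩ : ∃ b, b = (a₀⁻¹) ^ (k + 1) := ⟨_, rfl⟩
  have hbA : b ∈ Cn w := hb ▸ (Cn w).pow_mem ((Cn w).inv_mem ha₀) _
  have hbb : b * b = a₀⁻¹ := by
    have h1 : (a₀⁻¹) ^ (2 * k + 1) = 1 := by
      rw [← hk]
      apply orderOf_dvd_iff_pow_eq_one.1
      exact Subgroup.orderOf_dvd_natCard (Cn w) ((Cn w).inv_mem ha₀)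
    rw [hb, ← pow_add, show k + 1 + (k + 1) = (2 * k + 1) + 1 by ring, pow_succ, h1, one_mul]
  have hbt : b * t * b⁻¹ = g * t * g⁻¹ := by
    have h1 : t * b⁻¹ * t⁻¹ = b := by
      rw [hinv _ ((Cn w).inv_mem hbA), inv_inv]
    have h2 : t * b⁻¹ = b * t := by
      calc t * b⁻¹ = t * b⁻¹ * t⁻¹ * t := by group
        _ = b * t := by rw [h1]
    have h3 : t * a₀ * t⁻¹ = a₀⁻¹ := hinv a₀ ha₀
    have h4 : g * t * g⁻¹ = t * a₀ := by rw [ha₀e, ← mul_assoc, htt, one_mul]
    calc b * t * b⁻¹ = b * (t * b⁻¹) := by group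
      _ = b * b * t := by rw [h2]; group
      _ = a₀⁻¹ * t := by rw [hbb]
      _ = t * a₀ * t⁻¹ * t := by rw [h3]
      _ = t * a₀ := by group
      _ = g * t * g⁻¹ := h4.symm
  obtain ⟨c, hc⟩ : ∃ c, c = b⁻¹ * g := ⟨_, rfl⟩
  have hcC : c ∈ Cn t := by
    rw [mem_Cn, hc]
    have h1 : b⁻¹ * (g * t * g⁻¹) * b = t := by
      rw [← hbt]; group
    calc b⁻¹ * g * t = b⁻¹ * (g * t * g⁻¹) * b * (b⁻¹ * g) := by group
      _ = t * (b⁻¹ * g) := by rw [h1]
  have hcsq := sq_eq_mul_self ((hP t hw.ht).sq c hcC)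
  have hbN : b ∈ normalizer (Cn w : Set G) := Subgroup.le_normalizer hbA
  have hcN : c ∈ normalizer (Cn w : Set G) := by
    rw [hc]
    exact Subgroup.mul_mem _ (Subgroup.inv_mem _ hbN) hg
  have hgbc : g = b * c := by rw [hc]; group
  by_cases hc1 : c = 1
  · left
    rw [hgbc, hc1, mul_one]
    exact hbA
  by_cases hct : c = t
  · right
    rw [hgbc, hct, mul_assoc, htt, mul_one]
    exact hbA
  exfalso
  have hcord : orderOf c = 2 := two_of_mul_self hcsq hc1
  have hcinv := inverts_of_norm hP hA hcord (fun a ha => (Subgroup.mem_normalizer_iff.1 hcN a).1 ha)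
  have htc : t * c ∈ Cn w := by
    rw [mem_Cn]
    have h1 := hcinv w hwA
    have h2 : (t * c) * w * (t * c)⁻¹ = w := by
      have h3 : (t * c) * w * (t * c)⁻¹ = t * (c * w * c⁻¹) * t⁻¹ := by group
      rw [h3, h1]
      have h4 : t * w⁻¹ * t⁻¹ = (t * w * t⁻¹)⁻¹ := by group
      rw [h4, hw.hi, inv_inv]
    calc (t * c) * w = (t * c) * w * (t * c)⁻¹ * (t * c) := by group
      _ = w * (t * c) := by rw [h2]
  have h5 : (t * c) ^ 2 = 1 := (hP t hw.ht).sq _ ((Cn t).mul_mem (mem_Cn.2 rfl) hcC)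
  have h6 := eq_one_of_sq_of_odd h5 (odd_order_of_mem (odd_card hP hw.h1 hw.ho) htc)
  apply hct
  calc c = t * (t * c) := by rw [← mul_assoc, htt, one_mul]
    _ = t := by rw [h6, mul_one]

theorem Inv.card_normalizer {t w : G} (hw : Inv t w) :
    Nat.card (normalizer (Cn w : Set G)) = 2 * Nat.card (Cn w) := by
  have htt := mul_self_of_two hw.ht
  have hti := inv_eq_of_two hw.ht
  have hA := odd_card hP hw.h1 hw.ho
  have hle : Cn w ≤ normalizer (Cn w : Set G) := Subgroup.le_normalizer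
  have htN : t ∈ normalizer (Cn w : Set G) := by
    rw [Subgroup.mem_normalizer_iff]
    have hinv := Inv.inverts hP hw
    intro a
    constructor
    · intro ha
      rw [hinv a ha]
      exact (Cn w).inv_mem ha
    · intro ha
      have h1 := hinv _ ha
      rw [hti] at h1 ha
      have h2 : t * (t * a * t) * t = a := by
        simp only [mul_assoc, htt, mul_one]
        rw [← mul_assoc, htt, one_mul]
      rw [← h2, h1]
      exact (Cn w).inv_mem ha
  have htA : t ∉ Cn w := by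
    intro h
    have := odd_order_of_mem hA h
    rw [hw.ht] at this
    exact absurd this (by decide)
  have hidx : ((Cn w).subgroupOf (normalizer (Cn w : Set G))).index = 2 := by
    rw [Subgroup.index_eq_two_iff]
    refine ⟨⟨t, htN⟩, ?_⟩
    rintro ⟨b, hb⟩
    simp only [Subgroup.mem_subgroupOf, Subgroup.coe_mul]
    rcases Inv.normalizer_cases hP hw hb with h | h
    · right
      refine ⟨h, fun h2 => htA ?_⟩
      have := (Cn w).mul_mem ((Cn w).inv_mem h) h2
      simpa using this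
    · left
      refine ⟨h, fun h2 => htA ?_⟩
      have := (Cn w).mul_mem ((Cn w).inv_mem h2) h
      simpa using this
  have h1 := Subgroup.card_mul_index ((Cn w).subgroupOf (normalizer (Cn w : Set G)))
  rw [hidx] at h1
  have h2 : Nat.card ((Cn w).subgroupOf (normalizer (Cn w : Set G))) = Nat.card (Cn w) :=
    Nat.card_congr (Subgroup.subgroupOfEquivOfLe hle).toEquiv
  rw [h2] at h1
  omega

end inv_struct

section arith

theorem arith1 (i j a : ℕ) (h3 : j + 3 = i) (ha : 3 ≤ a) (h : i * j = 2 * i * (a - 1))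
    (hd : 2 * a ∣ 4 * i) : False := by
  obtain ⟨a, rfl⟩ : ∃ a', a = a' + 1 := ⟨a - 1, by omega⟩
  simp only [Nat.add_sub_cancel] at h
  have hi : 0 < i := by omega
  have h1 : j = 2 * a := by
    have : i * j = i * (2 * a) := by rw [h]; ring
    exact Nat.eq_of_mul_eq_mul_left hi this
  subst h1
  subst h3
  have h2 : 2 * (a + 1) ∣ 4 := by
    have h3 : 4 * (2 * a + 3) = 4 * (2 * (a + 1)) + 4 := by ring
    rw [h3] at hd
    exact (Nat.dvd_add_right (Dvd.intro_left _ rfl)).1 hd
  have := Nat.le_of_dvd (by norm_num) h2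
  omega

theorem arith2 (i j a b c d : ℕ) (h3 : j + 3 = i) (ha : Odd a) (hb : Odd b) (ha3 : 3 ≤ a)
    (hb3 : 3 ≤ b) (hca : c * a = 2 * i * (a - 1)) (hdb : d * b = 2 * i * (b - 1))
    (hle : c + d + i + 1 ≤ 4 * i) (h : i * j = 2 * i * (a - 1) + 2 * i * (b - 1))
    (hda : a ∣ 4 * i) (hdb' : b ∣ 4 * i) : i = 15 := by
  obtain ⟨a, rfl⟩ : ∃ a', a = a' + 1 := ⟨a - 1, by omega⟩
  obtain ⟨b, rfl⟩ : ∃ b', b = b' + 1 := ⟨b - 1, by omega⟩
  simp only [Nat.add_sub_cancel] at h hca hdb
  have hi : 0 < i := by omega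
  have h1 : j = 2 * a + 2 * b := by
    have : i * j = i * (2 * a + 2 * b) := by rw [h]; ring
    exact Nat.eq_of_mul_eq_mul_left hi this
  have h2 : a * b < a + b + 3 := by
    have h4 : (c + d) * ((a + 1) * (b + 1)) = i * (2 * a * (b + 1) + 2 * b * (a + 1)) := by
      calc (c + d) * ((a + 1) * (b + 1)) = (c * (a + 1)) * (b + 1) + (d * (b + 1)) * (a + 1) := by ring
        _ = _ := by rw [hca, hdb]; ring
    have h5 : c + d + 1 ≤ 3 * i := by omega
    have h6 : (c + d + 1) * ((a + 1) * (b + 1)) ≤ 3 * i * ((a + 1) * (b + 1)) :=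
      Nat.mul_le_mul_right _ h5
    have h7 : i * (2 * a * (b + 1) + 2 * b * (a + 1)) < i * (3 * ((a + 1) * (b + 1))) := by
      have h8 : 0 < (a + 1) * (b + 1) := by positivity
      nlinarith
    have h9 := Nat.lt_of_mul_lt_mul_left h7
    nlinarith
  have ha2 : 2 ≤ a := by omega
  have hb2 : 2 ≤ b := by omega
  have hae : Even a := by
    rcases ha with ⟨k, hk⟩
    exact ⟨k, by omega⟩
  have hbe : Even b := by
    rcases hb with ⟨k, hk⟩
    exact ⟨k, by omega⟩
  have hale : a ≤ 4 := by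
    by_contra hcon
    push Not at hcon
    nlinarith
  have hble : b ≤ 4 := by
    by_contra hcon
    push Not at hcon
    nlinarith
  interval_cases a <;> interval_cases b <;> simp_all (config := { decide := true }) <;> omega

theorem arith3 (i a c : ℕ) (ha3 : 3 ≤ a) (hca : c * a = 2 * i * (a - 1)) : 4 * i ≤ 3 * c := by
  obtain ⟨a, rfl⟩ : ∃ a', a = a' + 1 := ⟨a - 1, by omega⟩
  simp only [Nat.add_sub_cancel] at hca
  have h2 : 4 * i * (a + 1) ≤ 3 * c * (a + 1) := by
    have : 3 * c * (a + 1) = 3 * (2 * i * a) := by rw [← hca]; ring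
    rw [this]
    nlinarith
  exact Nat.le_of_mul_le_mul_right h2 (by omega)

end arith

section counting

variable {G : Type*} [Group G] [Fintype G]

open scoped Classical

/-- The involutions. -/
noncomputable def II (G : Type*) [Group G] [Fintype G] : Finset G :=
  Finset.univ.filter (fun t => orderOf t = 2)

noncomputable def JJ (t : G) : Finset G := Finset.univ.filter (fun w => Inv t w)

noncomputable def XX (G : Type*) [Group G] [Fintype G] : Finset G :=
  Finset.univ.filter (fun w => ∃ t, Inv t w)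

noncomputable def cov (w₀ : G) : Finset G :=
  Finset.univ.filter (fun w => ∃ g v, v ≠ 1 ∧ v ∈ Cn w₀ ∧ w = g * v * g⁻¹)

theorem card_filter_mem (H : Subgroup G) : (Finset.univ.filter (· ∈ H)).card = Nat.card H := by
  rw [Nat.card_eq_fintype_card]
  exact (Fintype.card_subtype _).symm

variable (hP : ∀ t : G, orderOf t = 2 → Good t)
include hP

theorem card_filter_mem_Cn {t : G} (ht : orderOf t = 2) :
    ((II G).filter (fun s => s ∈ Cn t)).card = 3 := by
  have h2 : (II G).filter (fun s => s ∈ Cn t) = (Finset.univ.filter (· ∈ Cn t)).erase 1 := by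
    ext s
    simp only [II, Finset.mem_filter, Finset.mem_univ, true_and, Finset.mem_erase]
    constructor
    · rintro ⟨hs, hsC⟩
      exact ⟨ne_one_of_two hs, hsC⟩
    · rintro ⟨hs, hsC⟩
      exact ⟨two_of_mul_self (sq_eq_mul_self ((hP t ht).sq s hsC)) hs, hsC⟩
  rw [h2, Finset.card_erase_of_mem (by simp [Subgroup.one_mem]), card_filter_mem, (hP t ht).card]

theorem card_filter_not {t : G} (ht : orderOf t = 2) :
    ((II G).filter (fun s => ¬ s ∈ Cn t)).card = (JJ t).card := by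
  have htt := mul_self_of_two ht
  have hti := inv_eq_of_two ht
  have h2 : ((II G).filter (fun s => ¬ s ∈ Cn t)).card = (JJ t).card := by
    refine Finset.card_nbij' (fun s => t * s) (fun w => t * w) ?_ ?_ ?_ ?_
    · intro s hs
      have hs' := Finset.mem_filter.1 hs
      have hs2 : orderOf s = 2 := (Finset.mem_filter.1 hs'.1).2
      have hsC := hs'.2
      simp only [JJ, Finset.coe_filter, Finset.mem_univ, true_and, Set.mem_ofPred_eq]
      refine ⟨ht, ?_, ?_, ?_⟩
      · intro h0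
        apply hsC
        have : s = t := by
          calc s = t * (t * s) := by rw [← mul_assoc, htt, one_mul]
            _ = t := by rw [h0, mul_one]
        rw [this]
        exact mem_Cn.2 rfl
      · rw [← Nat.not_even_iff_odd]
        intro he
        apply hsC
        have h3 := sq_eq_mul_self (sq_of_even hP he)
        exact mem_Cn.2 (comm_of_sq (mul_self_of_two hs2) htt (by
          have h4 : (s * t) * (s * t) = s * ((t * s) * (t * s)) * s⁻¹ := by
            rw [inv_eq_of_two hs2]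
            simp only [mul_assoc, mul_self_of_two hs2, mul_one]
          rw [h4, h3]
          simp))
      · rw [hti, mul_inv_rev, hti, inv_eq_of_two hs2, ← mul_assoc, htt, one_mul]
    · intro w hw
      have hw' : Inv t w := (Finset.mem_filter.1 hw).2
      have h3 : t * (t * w) ∈ Cn w := by
        rw [← mul_assoc, htt, one_mul]
        exact mem_Cn.2 rfl
      have h4 := (Inv.inverter_iff hP hw').2 h3
      simp only [II, Finset.coe_filter, Finset.mem_filter, Finset.mem_univ, true_and, Set.mem_ofPred_eq]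
      refine ⟨h4.1, ?_⟩
      intro hC
      have h5 : w ∈ Cn t := by
        have := (Cn t).mul_mem (mem_Cn.2 rfl : t ∈ Cn t) hC
        rwa [← mul_assoc, htt, one_mul] at this
      exact hw'.h1 (eq_one_of_sq_of_odd ((hP t ht).sq w h5) hw'.ho)
    · intro s _
      show t * (t * s) = s
      rw [← mul_assoc, htt, one_mul]
    · intro s _
      show t * (t * s) = s
      rw [← mul_assoc, htt, one_mul]
  exact h2

theorem card_JJ {t : G} (ht : orderOf t = 2) : (JJ t).card + 3 = (II G).card := by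
  have h1 := card_filter_mem_Cn hP ht
  have h2 := card_filter_not hP ht
  have h3 := Finset.card_filter_add_card_filter_not (s := II G) (fun s => s ∈ Cn t)
  omega

theorem card_filter_inv {w : G} (hw : w ∈ XX G) :
    ((II G).filter (fun t => Inv t w)).card = Nat.card (Cn w) := by
  obtain ⟨t₀, ht₀⟩ := (Finset.mem_filter.1 hw).2
  have htt := mul_self_of_two ht₀.ht
  rw [← card_filter_mem]
  refine Finset.card_nbij' (fun s => t₀ * s) (fun a => t₀ * a) ?_ ?_ ?_ ?_
  · intro s hs
    have hs' : Inv s w := (Finset.mem_filter.1 hs).2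
    simp only [Finset.coe_filter, Finset.mem_univ, true_and, Set.mem_ofPred_eq]
    exact (Inv.inverter_iff hP ht₀).1 ⟨hs'.ht, hs'.hi⟩
  · intro a ha
    have ha' : a ∈ Cn w := (Finset.mem_filter.1 ha).2
    have h3 : t₀ * (t₀ * a) ∈ Cn w := by rwa [← mul_assoc, htt, one_mul]
    have h4 := (Inv.inverter_iff hP ht₀).2 h3
    simp only [II, Finset.coe_filter, Finset.mem_filter, Finset.mem_univ, true_and, Set.mem_ofPred_eq]
    exact ⟨h4.1, ⟨h4.1, ht₀.h1, ht₀.ho, h4.2⟩⟩
  · intro s _
    show t₀ * (t₀ * s) = s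
    rw [← mul_assoc, htt, one_mul]
  · intro s _
    show t₀ * (t₀ * s) = s
    rw [← mul_assoc, htt, one_mul]

theorem double_count :
    ∑ t ∈ II G, (JJ t).card = ∑ w ∈ XX G, Nat.card (Cn w) := by
  have h := Finset.sum_card_bipartiteAbove_eq_sum_card_bipartiteBelow (s := II G) (t := XX G)
    (fun t w => Inv t w)
  have h1 : ∀ t ∈ II G, (Finset.bipartiteAbove (fun t w => Inv t w) (XX G) t).card = (JJ t).card := by
    intro t _
    congr 1
    ext w
    simp only [Finset.bipartiteAbove, JJ, XX, Finset.mem_filter, Finset.mem_univ, true_and]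
    exact ⟨fun h => h.2, fun h => ⟨⟨t, h⟩, h⟩⟩
  have h2 : ∀ w ∈ XX G, (Finset.bipartiteBelow (fun t w => Inv t w) (II G) w).card = Nat.card (Cn w) := by
    intro w hw
    exact card_filter_inv hP hw
  rw [Finset.sum_congr rfl h1, Finset.sum_congr rfl h2] at h
  exact h

omit hP in
theorem Inv.conj {t w : G} (h : Inv t w) (g : G) : Inv (g * t * g⁻¹) (g * w * g⁻¹) := by
  have horder : ∀ y : G, orderOf (g * y * g⁻¹) = orderOf y := fun y => by
    have := MulEquiv.orderOf_eq (MulAut.conj g) y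
    rwa [MulAut.conj_apply] at this
  refine ⟨by rw [horder]; exact h.ht, ?_, by rw [horder]; exact h.ho, ?_⟩
  · intro h0
    apply h.h1
    have : g * w * g⁻¹ = g * 1 * g⁻¹ := by rw [h0]; simp
    simpa using this
  · have h1 : (g * t * g⁻¹) * (g * w * g⁻¹) * (g * t * g⁻¹)⁻¹ = g * (t * w * t⁻¹) * g⁻¹ := by group
    rw [h1, h.hi]
    group

omit hP in
theorem mem_cov {w₀ w : G} : w ∈ cov w₀ ↔ ∃ g v, v ≠ 1 ∧ v ∈ Cn w₀ ∧ w = g * v * g⁻¹ := by
  simp [cov]

theorem cov_subset {t w₀ : G} (hw : Inv t w₀) : cov w₀ ⊆ XX G := by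
  intro w h
  obtain ⟨g, v, hv1, hv, rfl⟩ := mem_cov.1 h
  simp only [XX, Finset.mem_filter, Finset.mem_univ, true_and]
  exact ⟨_, (Inv.of_mem hP hw hv hv1).conj g⟩

theorem card_Cn_of_mem_cov {t w₀ w : G} (hw : Inv t w₀) (h : w ∈ cov w₀) :
    Nat.card (Cn w) = Nat.card (Cn w₀) := by
  obtain ⟨g, v, hv1, hv, rfl⟩ := mem_cov.1 h
  rw [card_Cn_conj, Inv.Cn_eq hP hw hv hv1]

theorem self_mem_cov {t w₀ : G} (hw : Inv t w₀) : w₀ ∈ cov w₀ :=
  mem_cov.2 ⟨1, w₀, hw.h1, mem_Cn.2 rfl, by simp⟩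

theorem sum_cov {t w₀ : G} (hw : Inv t w₀) :
    ∑ w ∈ cov w₀, Nat.card (Cn w) = (cov w₀).card * Nat.card (Cn w₀) :=
  Finset.sum_const_nat (fun _ h => card_Cn_of_mem_cov hP hw h)

theorem cov_disjoint {t₁ t₂ w₁ w₂ : G} (hw₁ : Inv t₁ w₁) (hw₂ : Inv t₂ w₂) (hn : w₂ ∉ cov w₁) :
    Disjoint (cov w₁) (cov w₂) := by
  rw [Finset.disjoint_left]
  intro w h1 h2
  obtain ⟨g, v, hv1, hv, rfl⟩ := mem_cov.1 h1
  obtain ⟨g', v', hv1', hv', he⟩ := mem_cov.1 h2
  apply hn
  have hk : v' = (g'⁻¹ * g) * v * (g'⁻¹ * g)⁻¹ := by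
    have : v' = g'⁻¹ * (g' * v' * g'⁻¹) * g' := by group
    rw [this, ← he]
    group
  have h3 : w₂ ∈ Cn v' := by
    rw [Inv.Cn_eq hP hw₂ hv' hv1']
    exact mem_Cn.2 rfl
  rw [hk] at h3
  have h4 := mem_Cn_conj.1 h3
  rw [Inv.Cn_eq hP hw₁ hv hv1] at h4
  refine mem_cov.2 ⟨g'⁻¹ * g, _, ?_, h4, by group⟩
  intro h0
  apply hw₂.h1
  have h5 : w₂ = (g'⁻¹ * g) * ((g'⁻¹ * g)⁻¹ * w₂ * (g'⁻¹ * g)) * (g'⁻¹ * g)⁻¹ := by group
  rw [h5, h0]
  group

theorem cov_card {t w₀ : G} (hw : Inv t w₀) :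
    (cov w₀).card * (2 * Nat.card (Cn w₀)) = Fintype.card G * (Nat.card (Cn w₀) - 1) := by
  have hA := Inv.card_normalizer hP hw
  rw [← hA]
  let A : Finset G := (Finset.univ.filter (· ∈ Cn w₀)).erase 1
  have hAc : A.card = Nat.card (Cn w₀) - 1 := by
    rw [Finset.card_erase_of_mem (by simp [Subgroup.one_mem]), card_filter_mem]
  rw [← hAc]
  let P : Finset (G × G) := Finset.univ ×ˢ A
  have hPc : P.card = Fintype.card G * A.card := by
    rw [Finset.card_product, Finset.card_univ]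
  rw [← hPc]
  let f : G × G → G := fun p => p.1 * p.2 * p.1⁻¹
  have hmaps : (P : Set (G × G)).MapsTo f (cov w₀) := by
    intro p hp
    have hp' := (Finset.mem_product.1 hp).2
    have hp'' := Finset.mem_erase.1 hp'
    exact mem_cov.2 ⟨p.1, p.2, hp''.1, (Finset.mem_filter.1 hp''.2).2, rfl⟩
  rw [Finset.card_eq_sum_card_fiberwise hmaps]
  rw [Finset.sum_const_nat]
  intro w₁ hw₁
  obtain ⟨g₀, v₀, hv₀1, hv₀, rfl⟩ := mem_cov.1 hw₁
  rw [← card_filter_mem]
  symm
  refine Finset.card_nbij' (fun n => (g₀ * n, n⁻¹ * v₀ * n)) (fun p => g₀⁻¹ * p.1) ?_ ?_ ?_ ?_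
  · intro n hn
    have hn' : n ∈ normalizer (Cn w₀ : Set G) := (Finset.mem_filter.1 hn).2
    have hninv : n⁻¹ ∈ normalizer (Cn w₀ : Set G) := Subgroup.inv_mem _ hn'
    have h1 : n⁻¹ * v₀ * n ∈ Cn w₀ := by
      have := (Subgroup.mem_normalizer_iff.1 hninv v₀).1 hv₀
      simpa using this
    have h2 : n⁻¹ * v₀ * n ≠ 1 := by
      intro h0
      apply hv₀1
      have : v₀ = n * (n⁻¹ * v₀ * n) * n⁻¹ := by group
      rw [this, h0]
      group
    simp only [P, A, Finset.coe_filter, Finset.mem_product, Finset.mem_univ, true_and,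
      Finset.mem_erase, Finset.mem_filter, Set.mem_ofPred_eq, f]
    refine ⟨⟨h2, h1⟩, ?_⟩
    group
  · rintro ⟨g, v⟩ hp
    simp only [P, A, Finset.coe_filter, Finset.mem_product, Finset.mem_univ, true_and,
      Finset.mem_erase, Finset.mem_filter, Set.mem_ofPred_eq, f] at hp
    obtain ⟨⟨hv1, hv⟩, he⟩ := hp
    simp only [Finset.coe_filter, Finset.mem_univ, true_and, Set.mem_ofPred_eq]
    rw [Subgroup.mem_normalizer_iff]
    have he' : (g₀⁻¹ * g) * v * (g₀⁻¹ * g)⁻¹ = v₀ := by
      have : v₀ = g₀⁻¹ * (g₀ * v₀ * g₀⁻¹) * g₀ := by group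
      rw [this, ← he]
      group
    have hCv := Inv.Cn_eq hP hw hv hv1
    have hCv₀ := Inv.Cn_eq hP hw hv₀ hv₀1
    intro a
    constructor
    · intro ha
      rw [← hCv] at ha
      rw [← hCv₀, ← he']
      refine mem_Cn_conj.2 ?_
      simpa [mul_assoc] using ha
    · intro ha
      rw [← hCv₀, ← he'] at ha
      have := mem_Cn_conj.1 ha
      rw [hCv] at this
      simpa [mul_assoc] using this
  · intro n _
    show g₀⁻¹ * (g₀ * n) = n
    group
  · rintro ⟨g, v⟩ hp
    simp only [P, A, Finset.coe_filter, Finset.mem_product, Finset.mem_univ, true_and,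
      Finset.mem_erase, Finset.mem_filter, Set.mem_ofPred_eq, f] at hp
    obtain ⟨⟨hv1, hv⟩, he⟩ := hp
    have he' : (g₀⁻¹ * g) * v * (g₀⁻¹ * g)⁻¹ = v₀ := by
      have : v₀ = g₀⁻¹ * (g₀ * v₀ * g₀⁻¹) * g₀ := by group
      rw [this, ← he]
      group
    simp only [Prod.mk.injEq]
    constructor
    · group
    · rw [← he']
      group

end counting

section main_count

variable {G : Type*} [Group G] [Fintype G]

open scoped Classical

theorem card_eq_four_mul (x : G) (hG : Good x) (hx : orderOf x = 2)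
    (hconj : ∀ t : G, orderOf t = 2 → IsConj x t) :
    Fintype.card G = 4 * (II G).card := by
  have hmaps : ((Finset.univ : Finset G) : Set G).MapsTo (fun g => g * x * g⁻¹) (II G) := by
    intro g _
    simp only [II, Finset.coe_filter, Finset.mem_univ, true_and, Set.mem_ofPred_eq]
    have := MulEquiv.orderOf_eq (MulAut.conj g) x
    rw [MulAut.conj_apply] at this
    rw [this, hx]
  have h := Finset.card_eq_sum_card_fiberwise hmaps
  rw [Finset.sum_const_nat (m := 4)] at h
  · rw [Finset.card_univ] at h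
    rw [h]
    ring
  · intro t ht
    obtain ⟨g₀, hg₀⟩ := isConj_iff.1 (hconj t (Finset.mem_filter.1 ht).2)
    rw [← hG.card, ← card_filter_mem]
    refine Finset.card_nbij' (fun g => g₀⁻¹ * g) (fun a => g₀ * a) ?_ ?_ ?_ ?_
    · intro g hg
      have hg' : g * x * g⁻¹ = t := (Finset.mem_filter.1 hg).2
      simp only [Finset.coe_filter, Finset.mem_univ, true_and, Set.mem_ofPred_eq]
      rw [mem_Cn]
      have h1 : g * x * g⁻¹ = g₀ * x * g₀⁻¹ := by rw [hg', hg₀]
      have h2 : g * x = g₀ * x * g₀⁻¹ * g := by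
        rw [← h1]; group
      calc g₀⁻¹ * g * x = g₀⁻¹ * (g * x) := by group
        _ = x * (g₀⁻¹ * g) := by rw [h2]; group
    · intro a ha
      have ha' : a ∈ Cn x := (Finset.mem_filter.1 ha).2
      simp only [Finset.coe_filter, Finset.mem_univ, true_and, Set.mem_ofPred_eq]
      rw [← hg₀]
      have h1 : a * x * a⁻¹ = x := by
        rw [mem_Cn.1 ha']; group
      have h2 : g₀ * a * x * (g₀ * a)⁻¹ = g₀ * (a * x * a⁻¹) * g₀⁻¹ := by group
      rw [h2, h1]
    · intro g _
      show g₀ * (g₀⁻¹ * g) = g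
      group
    · intro g _
      show g₀⁻¹ * (g₀ * g) = g
      group

/-- Data attached to an element inverted by an involution. -/
theorem cov_data (hP : ∀ t : G, orderOf t = 2 → Good t) {t w : G} (hw : Inv t w) {i : ℕ}
    (hi : Fintype.card G = 4 * i) :
    Odd (Nat.card (Cn w)) ∧ 3 ≤ Nat.card (Cn w) ∧
      (cov w).card * Nat.card (Cn w) = 2 * i * (Nat.card (Cn w) - 1) ∧
      2 * Nat.card (Cn w) ∣ 4 * i := by
  have hodd := odd_card hP hw.h1 hw.ho
  have h3 : 3 ≤ Nat.card (Cn w) := by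
    have h1 : Nat.card (Cn w) ≠ 1 := by
      intro h
      have h2 := Subgroup.eq_bot_of_card_eq (Cn w) h
      have h4 : w ∈ Cn w := mem_Cn.2 rfl
      rw [h2] at h4
      exact hw.h1 ((Subgroup.mem_bot).1 h4)
    obtain ⟨k, hk⟩ := hodd
    omega
  refine ⟨hodd, h3, ?_, ?_⟩
  · have h1 := cov_card hP hw
    rw [hi] at h1
    have h2 : 2 * ((cov w).card * Nat.card (Cn w)) = 2 * (2 * i * (Nat.card (Cn w) - 1)) := by
      calc 2 * ((cov w).card * Nat.card (Cn w)) = (cov w).card * (2 * Nat.card (Cn w)) := by ring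
        _ = 4 * i * (Nat.card (Cn w) - 1) := h1
        _ = _ := by ring
    exact Nat.eq_of_mul_eq_mul_left (by norm_num) h2
  · rw [← Inv.card_normalizer hP hw, ← hi, ← Nat.card_eq_fintype_card]
    exact Subgroup.card_subgroup_dvd_card _

theorem card_eq_fifteen (x : G) (hG : Good x) (hx : orderOf x = 2)
    (hP : ∀ t : G, orderOf t = 2 → Good t)
    (hconj : ∀ t : G, orderOf t = 2 → IsConj x t) (hout : ∃ t : G, orderOf t = 2 ∧ t ∉ Cn x) :
    (II G).card = 15 := by
  have h4 := card_eq_four_mul x hG hx hconj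
  obtain ⟨i, hi⟩ : ∃ i, i = (II G).card := ⟨_, rfl⟩
  rw [← hi] at h4 ⊢
  have hj := card_JJ hP hx
  rw [← hi] at hj
  obtain ⟨j, hje⟩ : ∃ j, j = (JJ x).card := ⟨_, rfl⟩
  rw [← hje] at hj
  have hjall : ∀ t ∈ II G, (JJ t).card = j := by
    intro t ht
    have := card_JJ hP (Finset.mem_filter.1 ht).2
    rw [← hi] at this
    omega
  have hsum : i * j = ∑ w ∈ XX G, Nat.card (Cn w) := by
    rw [← double_count hP, Finset.sum_const_nat hjall, ← hi]
  have hjpos : 0 < j := by
    obtain ⟨t, ht, htC⟩ := hout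
    rw [hje, ← card_filter_not hP hx]
    refine Finset.card_pos.2 ⟨t, Finset.mem_filter.2 ⟨Finset.mem_filter.2 ⟨Finset.mem_univ _, ht⟩, htC⟩⟩
  have hbound : (XX G).card + i + 1 ≤ 4 * i := by
    rw [← h4, hi]
    have hd1 : Disjoint (XX G) (II G) := by
      rw [Finset.disjoint_left]
      intro w hw hw2
      obtain ⟨t, ht⟩ := (Finset.mem_filter.1 hw).2
      have h2 : orderOf w = 2 := (Finset.mem_filter.1 hw2).2
      have := ht.ho
      rw [h2] at this
      exact absurd this (by decide)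
    have hd2 : Disjoint (XX G ∪ II G) ({1} : Finset G) := by
      rw [Finset.disjoint_singleton_right]
      intro h
      rcases Finset.mem_union.1 h with h | h
      · obtain ⟨t, ht⟩ := (Finset.mem_filter.1 h).2
        exact ht.h1 rfl
      · have h2 : orderOf (1 : G) = 2 := (Finset.mem_filter.1 h).2
        simp at h2
    have h5 := Finset.card_le_univ ((XX G ∪ II G) ∪ ({1} : Finset G))
    rw [Finset.card_union_of_disjoint hd2, Finset.card_union_of_disjoint hd1, Finset.card_singleton] at h5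
    exact h5
  -- first element
  obtain ⟨w₁, hw₁J⟩ : (JJ x).Nonempty := by
    rw [← Finset.card_pos, ← hje]
    exact hjpos
  have hw₁ : Inv x w₁ := (Finset.mem_filter.1 hw₁J).2
  obtain ⟨hodd₁, h3₁, hc₁, hd₁⟩ := cov_data hP hw₁ h4
  have hs₁ := sum_cov hP hw₁
  rw [hc₁] at hs₁
  by_cases h1 : XX G ⊆ cov w₁
  · exfalso
    have hXe : XX G = cov w₁ := Finset.Subset.antisymm h1 (cov_subset hP hw₁)
    rw [hXe, hs₁] at hsum
    exact arith1 i j _ hj h3₁ hsum hd₁
  obtain ⟨w₂, hw₂X, hw₂n⟩ := Finset.not_subset.1 h1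
  obtain ⟨t₂, hw₂⟩ := (Finset.mem_filter.1 hw₂X).2
  obtain ⟨hodd₂, h3₂, hc₂, hd₂⟩ := cov_data hP hw₂ h4
  have hs₂ := sum_cov hP hw₂
  rw [hc₂] at hs₂
  have hd12 := cov_disjoint hP hw₁ hw₂ hw₂n
  have hsub12 : cov w₁ ∪ cov w₂ ⊆ XX G :=
    Finset.union_subset (cov_subset hP hw₁) (cov_subset hP hw₂)
  have hcard12 := Finset.card_le_card hsub12
  rw [Finset.card_union_of_disjoint hd12] at hcard12
  by_cases h2 : XX G ⊆ cov w₁ ∪ cov w₂
  · have hXe : XX G = cov w₁ ∪ cov w₂ := Finset.Subset.antisymm h2 hsub12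
    rw [hXe, Finset.sum_union hd12, hs₁, hs₂] at hsum
    exact arith2 i j _ _ _ _ hj hodd₁ hodd₂ h3₁ h3₂ hc₁ hc₂ (by omega) hsum
      (dvd_of_mul_left_dvd hd₁) (dvd_of_mul_left_dvd hd₂)
  · exfalso
    obtain ⟨w₃, hw₃X, hw₃n⟩ := Finset.not_subset.1 h2
    obtain ⟨t₃, hw₃⟩ := (Finset.mem_filter.1 hw₃X).2
    obtain ⟨hodd₃, h3₃, hc₃, hd₃⟩ := cov_data hP hw₃ h4
    have hd13 := cov_disjoint hP hw₁ hw₃ (fun h => hw₃n (Finset.mem_union_left _ h))
    have hd23 := cov_disjoint hP hw₂ hw₃ (fun h => hw₃n (Finset.mem_union_right _ h))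
    have hd123 : Disjoint (cov w₁ ∪ cov w₂) (cov w₃) :=
      Finset.disjoint_union_left.2 ⟨hd13, hd23⟩
    have hsub123 : (cov w₁ ∪ cov w₂) ∪ cov w₃ ⊆ XX G :=
      Finset.union_subset hsub12 (cov_subset hP hw₃)
    have hcard123 := Finset.card_le_card hsub123
    rw [Finset.card_union_of_disjoint hd123, Finset.card_union_of_disjoint hd12] at hcard123
    have a1 := arith3 i _ _ h3₁ hc₁
    have a2 := arith3 i _ _ h3₂ hc₂
    have a3 := arith3 i _ _ h3₃ hc₃
    omega

end main_count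

section final

variable {G : Type*} [Group G] [Finite G]

/-- The final identification. -/
theorem final_iso (x : G) (hG : Good x) (hcard : Nat.card G = 60)
    (hsyl : ∀ S : Subgroup G, IsPGroup 2 S → Cn x ≤ S → S = Cn x)
    (hconj : ∀ t : G, orderOf t = 2 → IsConj x t) (hout : ∃ t : G, orderOf t = 2 ∧ t ∉ Cn x)
    (hN : ∃ h ∈ normalizer (Cn x : Set G), h ∉ Cn x)
    (hNle : Nat.card (normalizer (Cn x : Set G)) ≤ 12) :
    Nonempty (G ≃* ↥(alternatingGroup (Fin 5))) := by
  classical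
  haveI : Fact (Nat.Prime 2) := ⟨Nat.prime_two⟩
  haveI := Fintype.ofFinite G
  have hCp : IsPGroup 2 (Cn x) := IsPGroup.of_card (n := 2) (by rw [hG.card]; norm_num)
  obtain ⟨N, hNe⟩ : ∃ N, N = normalizer (Cn x : Set G) := ⟨_, rfl⟩
  rw [← hNe] at hN hNle
  have hCN : Cn x ≤ N := hNe ▸ Subgroup.le_normalizer
  have hN4 : 4 ∣ Nat.card N := by
    rw [← hG.card]
    exact Subgroup.card_dvd_of_le hCN
  have hN60 : Nat.card N ∣ 60 := by
    rw [← hcard]
    exact Subgroup.card_subgroup_dvd_card N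
  have hNne : Nat.card N ≠ 4 := by
    intro h
    obtain ⟨n, hnN, hnC⟩ := hN
    have : Cn x = N := Subgroup.eq_of_le_of_card_ge hCN (by rw [h, hG.card])
    exact hnC (this ▸ hnN)
  have hN12 : Nat.card N = 12 := by
    obtain ⟨k, hk⟩ := hN4
    have hpos : 0 < Nat.card N := Nat.card_pos
    have hk3 : k ≤ 3 := by omega
    interval_cases k
    · omega
    · omega
    · rw [hk] at hN60
      norm_num at hN60
    · omega
  have hidx : N.index = 5 := by
    have h := Subgroup.card_mul_index N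
    rw [hN12, hcard] at h
    omega
  -- Involutions of `N` lie in `Cn x`.
  have hinvN : ∀ t ∈ N, orderOf t = 2 → t ∈ Cn x := by
    intro t htN ht
    have hzp : IsPGroup 2 (zpowers t) := by
      rw [IsPGroup.iff_card]
      exact ⟨1, by rw [Nat.card_zpowers, ht, pow_one]⟩
    have hle : zpowers t ≤ normalizer (Cn x : Set G) := by
      rw [Subgroup.zpowers_le, ← hNe]
      exact htN
    have hsup := IsPGroup.to_sup_of_normal_right' hzp hCp hle
    have heq := hsyl _ hsup le_sup_right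
    rw [← heq]
    exact Subgroup.mem_sup_left (Subgroup.mem_zpowers t)
  -- The core is trivial.
  have hcore : N.normalCore = ⊥ := by
    have hKN : N.normalCore ≤ N := Subgroup.normalCore_le N
    haveI hKn : N.normalCore.Normal := Subgroup.normalCore_normal N
    have hodd : ¬ 2 ∣ Nat.card N.normalCore := by
      intro h2
      obtain ⟨s, hs⟩ := exists_prime_orderOf_dvd_card' 2 h2
      have hs' : orderOf (s : G) = 2 := by rw [Subgroup.orderOf_coe]; exact hs
      obtain ⟨t, ht, htC⟩ := hout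
      apply htC
      obtain ⟨g, hg⟩ := isConj_iff.1 ((hconj _ hs').symm.trans (hconj t ht))
      have h3 : t ∈ N.normalCore := by
        rw [← hg]
        exact hKn.conj_mem _ s.2 g
      exact hinvN t (hKN h3) ht
    rw [eq_bot_iff]
    intro k hk
    rw [Subgroup.mem_bot]
    have hkN := hKN hk
    have hxC : x ∈ Cn x := mem_Cn.2 rfl
    -- the commutator lies in both
    have h1 : k * x * k⁻¹ * x⁻¹ ∈ Cn x := by
      have h2 := (Subgroup.mem_normalizer_iff.1 (hNe ▸ hkN) x).1 hxC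
      exact (Cn x).mul_mem h2 ((Cn x).inv_mem hxC)
    have h2 : k * x * k⁻¹ * x⁻¹ ∈ N.normalCore := by
      have h3 := hKn.conj_mem _ ((N.normalCore).inv_mem hk) x
      have h4 : k * x * k⁻¹ * x⁻¹ = k * (x * k⁻¹ * x⁻¹) := by group
      rw [h4]
      exact (N.normalCore).mul_mem hk h3
    have hcop : ∀ c ∈ Cn x, c ∈ N.normalCore → c = 1 := by
      intro c hc hcK
      have h5 := hG.sq c hc
      have h6 : orderOf c ∣ Nat.card N.normalCore := Subgroup.orderOf_dvd_natCard _ hcK
      rcases (Nat.dvd_prime Nat.prime_two).1 (orderOf_dvd_of_pow_eq_one h5) with h7 | h7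
      · exact orderOf_eq_one_iff.1 h7
      · rw [h7] at h6
        exact absurd h6 hodd
    have h3 := hcop _ h1 h2
    have h4 : k * x = x * k := by
      have h5 : k * x * k⁻¹ = x := mul_inv_eq_one.1 h3
      calc k * x = k * x * k⁻¹ * k := by group
        _ = x * k := by rw [h5]
    exact hcop k (mem_Cn.2 h4) hk
  -- The embedding in the symmetric group.
  have hinj : Function.Injective (MulAction.toPermHom G (G ⧸ N)) := by
    rw [← MonoidHom.ker_eq_bot_iff, ← Subgroup.normalCore_eq_ker, hcore]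
  have hQ : Nat.card (G ⧸ N) = 5 := hidx
  haveI : Fintype (G ⧸ N) := Fintype.ofFinite _
  have hQ' : Fintype.card (G ⧸ N) = Fintype.card (Fin 5) := by
    rw [← Nat.card_eq_fintype_card, hQ]
    simp
  let e : (G ⧸ N) ≃ Fin 5 := Fintype.equivOfCardEq hQ'
  let f : G →* Equiv.Perm (Fin 5) := e.permCongrHom.toMonoidHom.comp (MulAction.toPermHom G (G ⧸ N))
  have hf : Function.Injective f := e.permCongrHom.injective.comp hinj
  have hrange : f.range.index = 2 := by
    have h1 := Subgroup.card_mul_index f.range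
    have h2 : Nat.card f.range = 60 := by
      rw [← hcard]
      exact Nat.card_congr (MonoidHom.ofInjective hf).symm.toEquiv
    have h3 : Nat.card (Equiv.Perm (Fin 5)) = 120 := by
      rw [Nat.card_eq_fintype_card, Fintype.card_perm]
      simp [Nat.factorial]
    rw [h2, h3] at h1
    omega
  have hA := Equiv.Perm.eq_alternatingGroup_of_index_eq_two hrange
  exact ⟨(MonoidHom.ofInjective hf).trans (MulEquiv.subgroupCongr hA)⟩

end final

/-- Let G be a finite group containing an involution whose centralizer is elementary abelian of order 4. If G has no normal 2-complement and no normal elementary abelian 2-subgroup of order 2 or 4, then G is isomorphic to the alternating group of degree 5 (that is, to PSL(2, 5)). -/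
theorem result {G : Type*} [Group G] [Finite G] (x : G) (hx : orderOf x = 2)
    (hC4 : Nat.card ↥(Subgroup.centralizer ({x} : Set G)) = 4) (hCe : ∀ c ∈ Subgroup.centralizer ({x} : Set G), c ^ 2 = 1)
    (hnc : ¬ Cfsg.HasNormalPComplement 2 G)
    (hne : ∀ E : Subgroup G, E.Normal → Cfsg.IsElementaryAbelian 2 E → Nat.card ↥E ≠ 2 ∧ Nat.card ↥E ≠ 4) :
    Nonempty (G ≃* ↥(alternatingGroup (Fin 5))) := by
  classical
  haveI := Fintype.ofFinite G
  have hG : Good x := ⟨hC4, hCe⟩
  have hsyl := sylow_eq x hx hG hne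
  obtain ⟨hconj, hN, hNle⟩ := conj_all x hx hG hsyl hnc
  have hP : ∀ t : G, orderOf t = 2 → Good t := fun t ht => hG.conj' (hconj t ht)
  have hxC : x ∈ Cn x := mem_Cn.2 rfl
  have hout : ∃ t : G, orderOf t = 2 ∧ t ∉ Cn x := by
    by_contra hcon
    push Not at hcon
    have hsq : ∀ c ∈ Cn x, c * c = 1 := fun c hc => sq_eq_mul_self (hG.sq c hc)
    have hn : (Cn x).Normal := by
      refine ⟨fun c hc g => ?_⟩
      by_cases hc1 : c = 1
      · rw [hc1]
        simp [Subgroup.one_mem]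
      · apply hcon
        have h1 : orderOf c = 2 := two_of_mul_self (hsq c hc) hc1
        have := MulEquiv.orderOf_eq (MulAut.conj g) c
        rw [MulAut.conj_apply] at this
        rw [this, h1]
    have hab : Cfsg.IsElementaryAbelian 2 (Cn x) := by
      refine ⟨⟨⟨fun a b => Subtype.ext ?_⟩⟩, hG.sq⟩
      exact comm_of_sq (hsq a a.2) (hsq b b.2) (hsq _ ((Cn x).mul_mem a.2 b.2))
    exact (hne _ hn hab).2 hC4
  have h15 := card_eq_fifteen x hG hx hP hconj hout
  have hcard : Nat.card G = 60 := by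
    rw [Nat.card_eq_fintype_card, card_eq_four_mul x hG hx hconj, h15]
  exact final_iso x hG hcard hsyl hconj hout hN hNle

end Cfsg.Agent.S3277
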