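import Cfsg.Statements.S3299
import Mathlib
import Cfsg.Agent.Lib.Transfer.Basic
import Cfsg.Agent.Lib.Transfer.IndexTwo
import Cfsg.Agent.Lib.PGroup.Extraspecial
import Cfsg.Agent.Lib.Basic.PCore
-- import your own Cfsg.Agent.* helpers here

set_option autoImplicit false
open Cfsg

namespace Cfsg.Agent.S3299

open Subgroup
open scoped commutatorElement
open Cfsg.Agent.Lib.PGroup.Extraspecial

theorem z2_all : ∀ b : Multiplicative (ZMod 2), b ≠ 1 → b = Multiplicative.ofAdd 1 := by decide

theorem z2_even {m : ℕ} (h : (Multiplicative.ofAdd (1 : ZMod 2)) ^ m = 1) : Even m := by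
  have h1 : orderOf (Multiplicative.ofAdd (1 : ZMod 2)) = 2 :=
    orderOf_eq_prime (by decide) (by decide)
  have h2 := orderOf_dvd_of_pow_eq_one h
  rw [h1] at h2
  exact even_iff_two_dvd.mpr h2

section ExtraE

variable {E : Type*} [Group E] [Finite E]

theorem center_two (hZ : Nat.card (center E) = 2) {c d : E} (hc : c ∈ center E) (hd : d ∈ center E)
    (hc1 : c ≠ 1) (hd1 : d ≠ 1) : c = d := by
  obtain ⟨w, -, huniq⟩ := (Nat.card_eq_two_iff' (1 : center E)).mp hZ
  have h1 := huniq ⟨c, hc⟩ (fun h => hc1 (congrArg Subtype.val h))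
  have h2 := huniq ⟨d, hd⟩ (fun h => hd1 (congrArg Subtype.val h))
  exact congrArg Subtype.val (h1.trans h2.symm)

theorem comm_mem_of_index_two {X : Type*} [Group X] {M : Subgroup X} (h : M.index = 2) (a b : X) :
    ⁅a, b⁆ ∈ M := by
  rw [commutatorElement_def, mul_mem_iff_of_index_two h, mul_mem_iff_of_index_two h,
    mul_mem_iff_of_index_two h, inv_mem_iff, inv_mem_iff]
  tauto

/-- An index-two subgroup of a large extraspecial group is not abelian. -/
theorem not_abelian_of_index_two (hext : Cfsg.IsExtraspecial 2 E) {n : ℕ} (hn : 2 ≤ n)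
    (hcard : Nat.card E = 2 ^ (2 * n + 1)) (M : Subgroup E) (hM : M.index = 2) :
    ∃ a ∈ M, ∃ b ∈ M, a * b ≠ b * a := by
  haveI : Fact (Nat.Prime 2) := ⟨Nat.prime_two⟩
  by_contra hcon
  push Not at hcon
  have hle : M ≤ centralizer (M : Set E) := fun a ha =>
    Subgroup.mem_centralizer_iff.mpr fun b hb => (hcon a ha b hb).symm
  have h1 := card_sq_le_of_le_centralizer hext.1.1 (IsExtraspecial.comm_mem_center hext) hext.2 hle
  have h2 := M.card_mul_index
  rw [hM, hcard] at h2
  have h3 : Nat.card M = 2 ^ (2 * n) := by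
    have : 2 ^ (2 * n + 1) = 2 ^ (2 * n) * 2 := pow_succ 2 (2 * n)
    rw [this] at h2
    exact Nat.eq_of_mul_eq_mul_right (by norm_num) h2
  rw [h3, hcard, ← pow_mul] at h1
  have h4 : 2 ^ (2 * n + 1) * 2 = 2 ^ (2 * n + 2) := (pow_succ 2 (2 * n + 1)).symm
  rw [h4] at h1
  have h5 := (Nat.pow_le_pow_iff_right (by norm_num)).mp h1
  omega

/-- An involution outside an index-two subgroup. -/
theorem exists_involution (hext : Cfsg.IsExtraspecial 2 E) {n : ℕ} (hn : 2 ≤ n)
    (hcard : Nat.card E = 2 ^ (2 * n + 1)) (M : Subgroup E) (hM : M.index = 2) :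
    ∃ x, x ∉ M ∧ x ^ 2 = 1 := by
  by_contra hcon
  push Not at hcon
  haveI : Fact (Nat.Prime 2) := ⟨Nat.prime_two⟩
  obtain ⟨a, ha, b, hb, hab⟩ := not_abelian_of_index_two hext hn hcard M hM
  obtain ⟨e, he⟩ : ∃ e, e ∉ M := by
    by_contra hall
    push Not at hall
    have : M = ⊤ := eq_top_iff.mpr fun x _ => hall x
    rw [this, index_top] at hM
    omega
  have hsq : ∀ w, w ∉ M → w ^ 2 = e ^ 2 := fun w hw =>
    center_two hext.2 (IsExtraspecial.pow_mem_center hext w) (IsExtraspecial.pow_mem_center hext e) (hcon w hw) (hcon e he)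
  have hinv : ∀ y ∈ M, e⁻¹ * y * e = y⁻¹ := by
    intro y hy
    have h1 : e * y ∉ M := by
      rw [mul_mem_iff_of_index_two hM]
      tauto
    have h2 := hsq _ h1
    rw [pow_two, pow_two] at h2
    have h3 : y * (e * y) = e := by
      have : e * (y * (e * y)) = e * e := by rw [← h2]; group
      exact mul_left_cancel this
    have h4 : e⁻¹ * y * e * y = 1 := by
      calc e⁻¹ * y * e * y = e⁻¹ * (y * (e * y)) := by group
        _ = 1 := by rw [h3]; group
    exact eq_inv_of_mul_eq_one_left h4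
  apply hab
  have h1 := hinv _ (M.mul_mem ha hb)
  have h2 : e⁻¹ * (a * b) * e = (e⁻¹ * a * e) * (e⁻¹ * b * e) := by group
  rw [h2, hinv a ha, hinv b hb, mul_inv_rev] at h1
  have h5 : (a⁻¹ * b⁻¹)⁻¹ = (b⁻¹ * a⁻¹)⁻¹ := congrArg _ h1
  simp only [mul_inv_rev, inv_inv] at h5
  exact h5.symm

/-- The centralizer of a noncentral element has index two. -/
theorem index_centralizer (hext : Cfsg.IsExtraspecial 2 E) {x : E} (hx : x ∉ center E) :
    (centralizer ({x} : Set E)).index = 2 := by
  classical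
  have hc := (IsExtraspecial.comm_mem_center hext)
  have hker : centralizer ({x} : Set E) = (commHom hc x).ker := by
    ext e
    rw [mem_centralizer_singleton_iff_comm, MonoidHom.mem_ker]
    constructor
    · intro h
      apply Subtype.ext
      simpa using h
    · intro h
      have := congrArg Subtype.val h
      simpa using this
  rw [hker, Subgroup.index_ker]
  have h1 : Nat.card (commHom hc x).range ∣ 2 := by
    rw [← hext.2]
    exact Subgroup.card_subgroup_dvd_card _
  have h2 : Nat.card (commHom hc x).range ≠ 1 := by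
    intro h
    apply hx
    rw [Subgroup.mem_center_iff]
    intro g
    have h3 : (commHom hc x) g = 1 := by
      have : Subsingleton (commHom hc x).range := (Nat.card_eq_one_iff_unique.mp h).1
      have h4 := this.elim ((commHom hc x).rangeRestrict g) 1
      exact congrArg Subtype.val h4
    have h5 : ⁅g, x⁆ = 1 := by
      have := congrArg Subtype.val h3
      simpa using this
    exact commutatorElement_eq_one_iff_mul_comm.mp h5
  have h3 : Nat.card (commHom hc x).range = 1 ∨ Nat.card (commHom hc x).range = 2 :=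
    (Nat.dvd_prime Nat.prime_two).mp h1
  exact h3.resolve_left h2

/-- Elements commuting with `C_E(x)`. -/
theorem mem_of_centralizes (hext : Cfsg.IsExtraspecial 2 E) {x : E} (hx : x ∉ center E) {v : E}
    (hv : ∀ y ∈ centralizer ({x} : Set E), y * v = v * y) :
    v ∈ center E ∨ v * x⁻¹ ∈ center E := by
  by_cases hvc : v ∈ center E
  · exact Or.inl hvc
  right
  have hc := (IsExtraspecial.comm_mem_center hext)
  have hY := index_centralizer hext hx
  obtain ⟨w, hw⟩ : ∃ w, ⁅w, v⁆ ≠ 1 := by
    by_contra hcon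
    push Not at hcon
    apply hvc
    rw [Subgroup.mem_center_iff]
    exact fun g => commutatorElement_eq_one_iff_mul_comm.mp (hcon g)
  have hwY : w ∉ centralizer ({x} : Set E) := fun h =>
    hw (commutatorElement_eq_one_iff_mul_comm.mpr (hv w h))
  have hout : ∀ e, e ∉ centralizer ({x} : Set E) → ⁅e, v⁆ ≠ 1 := by
    intro e he h1
    have h2 : e * w ∈ centralizer ({x} : Set E) := by
      rw [mul_mem_iff_of_index_two hY]
      tauto
    have h3 : ⁅e * w, v⁆ = 1 := commutatorElement_eq_one_iff_mul_comm.mpr (hv _ h2)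
    rw [comm_mul_left hc, h1, one_mul] at h3
    exact hw h3
  have heq : ∀ e : E, ⁅e, v⁆ = ⁅e, x⁆ := by
    intro e
    by_cases he : e ∈ centralizer ({x} : Set E)
    · rw [commutatorElement_eq_one_iff_mul_comm.mpr (hv e he)]
      exact (mem_centralizer_singleton_iff_comm.mp he).symm
    · refine center_two hext.2 (hc e v) (hc e x) (hout e he) ?_
      intro h
      exact he (mem_centralizer_singleton_iff_comm.mpr h)
  rw [Subgroup.mem_center_iff]
  intro g
  apply commutatorElement_eq_one_iff_mul_comm.mp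
  have h1 := comm_mul_right hc g x x⁻¹
  rw [mul_inv_cancel, commutatorElement_one_right] at h1
  rw [comm_mul_right hc, heq g]
  exact h1.symm

end ExtraE

/-- Let G be a finite group with no nontrivial 2-group quotient (O^2(G) = G), z an involution of G with H = C_G(z), and suppose E = O_2(H) is extraspecial with C_G(E) ≤ E and of order 2^(2n+1) with n ≥ 2. Then E is contained in every normal subgroup of H of index 2. -/
theorem result {G : Type*} [Group G] [Finite G] (hres : Cfsg.pResidual 2 G = ⊤) (z : G) (hz : orderOf z = 2)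
    (E : Subgroup G) (hE : E = (Cfsg.pCore 2 ↥(Subgroup.centralizer ({z} : Set G))).map (Subgroup.centralizer ({z} : Set G)).subtype)
    (hext : Cfsg.IsExtraspecial 2 ↥E) (hcent : Subgroup.centralizer (E : Set G) ≤ E) (n : ℕ) (hn : 2 ≤ n) (hcard : Nat.card ↥E = 2 ^ (2 * n + 1))
    (K : Subgroup G) (hKH : K ≤ Subgroup.centralizer ({z} : Set G))
    (hKn : ∀ h ∈ Subgroup.centralizer ({z} : Set G), K.map (MulAut.conj h).toMonoidHom = K)
    (hKi : K.relIndex (Subgroup.centralizer ({z} : Set G)) = 2) : E ≤ K := by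
  
  classical
  haveI : Fact (Nat.Prime 2) := ⟨Nat.prime_two⟩
  by_contra hEK
  set H : Subgroup G := centralizer ({z} : Set G) with hH
  have hzz : z ^ 2 = 1 := by
    rw [← hz]
    exact pow_orderOf_eq_one z
  have hz1 : z ≠ 1 := by
    intro h
    rw [h, orderOf_one] at hz
    omega
  have hmemH : ∀ h, h * z = z * h → h ∈ H := fun h hh =>
    Subgroup.mem_centralizer_iff.mpr fun y hy => by
      have hy' : y = z := hy
      rw [hy']
      exact hh.symm
  have hHmem : ∀ h ∈ H, h * z = z * h := fun h hh =>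
    (Subgroup.mem_centralizer_iff.mp hh z rfl).symm
  have hEH : E ≤ H := by
    rw [hE]
    rintro _ ⟨c, -, rfl⟩
    exact c.2
  have hEn : ∀ h ∈ H, ∀ e ∈ E, h * e * h⁻¹ ∈ E := by
    intro h hh e he
    rw [hE] at he ⊢
    obtain ⟨c, hc, rfl⟩ := he
    have hn' := Cfsg.Agent.Lib.Basic.PCore.pCore_normal 2 ↥H
    exact ⟨⟨h, hh⟩ * c * ⟨h, hh⟩⁻¹, hn'.conj_mem c hc _, rfl⟩
  have hcE : ∀ c : G, (∀ e ∈ E, e * c = c * e) → c ∈ E := fun c hc =>
    hcent (Subgroup.mem_centralizer_iff.mpr hc)
  have hzE : z ∈ E := hcE z fun e he => hHmem e (hEH he)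
  let z₀ : E := ⟨z, hzE⟩
  have hz₀c : z₀ ∈ center E := by
    rw [Subgroup.mem_center_iff]
    intro g
    exact Subtype.ext (hHmem g (hEH g.2))
  have hz₀1 : z₀ ≠ 1 := fun h => hz1 (congrArg Subtype.val h)
  have hcen2 : ∀ c ∈ center E, c = 1 ∨ c = z₀ := by
    intro c hc
    by_cases hc1 : c = 1
    · exact Or.inl hc1
    · exact Or.inr (center_two hext.2 hc hz₀c hc1 hz₀1)
  have hc₀ := IsExtraspecial.comm_mem_center hext
  -- `K` in `E`
  let M : Subgroup E := K.subgroupOf E
  have hMi : M.index = 2 := by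
    have h1 : K.relIndex E ≤ K.relIndex H :=
      Subgroup.relIndex_le_of_le_right hEH (by rw [hKi]; norm_num)
    rw [hKi] at h1
    have h2 : K.relIndex E ≠ 1 := fun h => hEK (Subgroup.relIndex_eq_one.mp h)
    have h3 : K.relIndex E ≠ 0 := Subgroup.index_ne_zero_of_finite
    have h4 : M.index = K.relIndex E := rfl
    omega
  have hcenM : center E ≤ M := by
    rw [← hext.1.2.2, _root_.commutator_def, Subgroup.commutator_le]
    intro a _ b _
    exact comm_mem_of_index_two hMi a b
  obtain ⟨x₀, hx₀M, hx₀2⟩ := exists_involution hext hn hcard M hMi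
  have hx₀c : x₀ ∉ center E := fun h => hx₀M (hcenM h)
  let x : G := x₀
  have hxE : x ∈ E := x₀.2
  have hxK : x ∉ K := fun h => hx₀M (Subgroup.mem_subgroupOf.mpr h)
  have hx2 : x ^ 2 = 1 := congrArg Subtype.val hx₀2
  have hzK : z ∈ K := by
    have : z₀ ∈ M := hcenM hz₀c
    exact Subgroup.mem_subgroupOf.mp this
  let Y₀ : Subgroup E := centralizer ({x₀} : Set E)
  have hY₀i : Y₀.index = 2 := index_centralizer hext hx₀c
  have hY₀x : ∀ y ∈ Y₀, y * x₀ = x₀ * y := fun y hy =>
    (Subgroup.mem_centralizer_iff.mp hy x₀ rfl).symm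
  -- a commutator in `Y₀`
  obtain ⟨e₁, he₁, e₂, he₂, he₁₂⟩ := not_abelian_of_index_two hext hn hcard Y₀ hY₀i
  have hcomz : ⁅e₁, e₂⁆ = z₀ := by
    refine center_two hext.2 (hc₀ e₁ e₂) hz₀c ?_ hz₀1
    intro h
    exact he₁₂ (commutatorElement_eq_one_iff_mul_comm.mp h)
  -- an element of `M` outside `Y₀`
  obtain ⟨a₀, ha₀M, ha₀Y⟩ : ∃ a₀ ∈ M, a₀ ∉ Y₀ := by
    by_contra hcon
    push Not at hcon
    obtain ⟨e, he⟩ : ∃ e, e ∉ Y₀ := by
      by_contra hall
      push Not at hall
      have : Y₀ = ⊤ := eq_top_iff.mpr fun x _ => hall x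
      rw [this, index_top] at hY₀i
      omega
    have heM : e ∉ M := fun h => he (hcon e h)
    have h1 : e * x₀ ∈ M := by
      rw [mul_mem_iff_of_index_two hMi]
      tauto
    have h2 := hcon _ h1
    have hx₀Y : x₀ ∈ Y₀ := Subgroup.mem_centralizer_iff.mpr fun y hy => by
      have hy' : y = x₀ := hy
      rw [hy']
    have h3 : e = e * x₀ * x₀⁻¹ := by group
    rw [h3] at he
    exact he (Y₀.mul_mem h2 (Y₀.inv_mem hx₀Y))
  have hinK : ∀ h ∈ H, ∀ k ∈ K, h * k * h⁻¹ ∈ K := by
    intro h hh k hk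
    have := hKn h hh
    rw [← this]
    exact ⟨k, hk, rfl⟩
  let a : G := a₀
  have haE : a ∈ E := a₀.2
  have haK : a ∈ K := Subgroup.mem_subgroupOf.mp ha₀M
  have hz₀Y : z₀ ∈ Y₀ := Subgroup.mem_centralizer_iff.mpr fun y hy => by
    have hy' : y = x₀ := hy
    rw [hy']
    exact (Subgroup.mem_center_iff.mp hz₀c x₀)
  -- elements centralizing `Y₀` and `a`
  have hCE : ∀ u : G, (∀ y ∈ Y₀, (y : G) * u = u * y) → a * u = u * a → u = 1 ∨ u = z := by
    intro u hu hau
    have hcomm : ∀ e ∈ E, e * u = u * e := by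
      intro e he
      by_cases heY : (⟨e, he⟩ : E) ∈ Y₀
      · exact hu _ heY
      · have h1 : a₀⁻¹ * (⟨e, he⟩ : E) ∈ Y₀ := by
          rw [mul_mem_iff_of_index_two hY₀i, inv_mem_iff]
          tauto
        have h2 := hu _ h1
        have h3 : a⁻¹ * e * u = u * (a⁻¹ * e) := h2
        have hau' : a⁻¹ * u = u * a⁻¹ := by
          have : a⁻¹ * (a * u) * a⁻¹ = a⁻¹ * (u * a) * a⁻¹ := by rw [hau]
          simpa [mul_assoc] using this.symm
        calc e * u = a * (a⁻¹ * e * u) := by group
          _ = a * (u * (a⁻¹ * e)) := by rw [h3]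
          _ = a * (u * a⁻¹) * e := by group
          _ = a * (a⁻¹ * u) * e := by rw [hau']
          _ = u * e := by group
    have huE : u ∈ E := hcE u hcomm
    have huc : (⟨u, huE⟩ : E) ∈ center E := by
      rw [Subgroup.mem_center_iff]
      intro g
      exact Subtype.ext (hcomm g g.2)
    rcases hcen2 _ huc with h | h
    · exact Or.inl (congrArg Subtype.val h)
    · exact Or.inr (congrArg Subtype.val h)
  -- the key lemma
  have hT : ∀ t : G, (∀ y ∈ Y₀, (y : G) * t = t * y) → t = 1 ∨ t = z ∨ t = x ∨ t = x * z := by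
    intro t ht
    have htH : t ∈ H := hmemH t (ht z₀ hz₀Y).symm
    have hatE : t * a * t⁻¹ ∈ E := hEn t htH a haE
    have hatK : t * a * t⁻¹ ∈ K := hinK t htH a haK
    let v₀ : E := ⟨t * a * t⁻¹ * a⁻¹, E.mul_mem hatE (E.inv_mem haE)⟩
    have hv₀M : v₀ ∈ M := Subgroup.mem_subgroupOf.mpr (K.mul_mem hatK (K.inv_mem haK))
    have hv₀ : ∀ y ∈ Y₀, y * v₀ = v₀ * y := by
      intro y hy
      apply Subtype.ext
      show (y : G) * (t * a * t⁻¹ * a⁻¹) = (t * a * t⁻¹ * a⁻¹) * y
      have hcc := hc₀ a₀ y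
      have hty : (y : G) * t = t * y := ht y hy
      have hcval : ((⁅a₀, y⁆ : E) : G) = a * y * a⁻¹ * (y : G)⁻¹ := rfl
      set c : G := ((⁅a₀, y⁆ : E) : G) with hc
      have hct : t * c = c * t := by
        rcases hcen2 _ hcc with h | h
        · rw [hc, h]
          simp
        · rw [hc, h]
          exact hHmem t htH
      have hcv : c * (t * a * t⁻¹ * a⁻¹) = (t * a * t⁻¹ * a⁻¹) * c :=
        (congrArg Subtype.val (Subgroup.mem_center_iff.mp hcc v₀)).symm
      set v : G := t * a * t⁻¹ * a⁻¹ with hv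
      have hty' : (y : G)⁻¹ * t⁻¹ = t⁻¹ * (y : G)⁻¹ := by
        have : (t * y)⁻¹ = (y * t)⁻¹ := by rw [hty]
        simpa [mul_inv_rev] using this
      have h1 : c = (t * a * t⁻¹) * y * (t * a * t⁻¹)⁻¹ * (y : G)⁻¹ := by
        have h2 : t * c * t⁻¹ = c := by rw [hct]; group
        rw [← h2, hcval]
        calc t * (a * y * a⁻¹ * (y : G)⁻¹) * t⁻¹
            = t * a * t⁻¹ * (t * y) * a⁻¹ * ((y : G)⁻¹ * t⁻¹) := by group
          _ = t * a * t⁻¹ * (y * t) * a⁻¹ * (t⁻¹ * (y : G)⁻¹) := by rw [← hty, hty']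
          _ = (t * a * t⁻¹) * y * (t * a * t⁻¹)⁻¹ * (y : G)⁻¹ := by group
      have h3 : t * a * t⁻¹ = v * a := by rw [hv]; group
      have h4 : a * y * a⁻¹ = c * y := by rw [hcval]; group
      rw [h3] at h1
      have h5 : c = v * (a * y * a⁻¹) * v⁻¹ * (y : G)⁻¹ := by
        rw [h1]
        group
      rw [h4] at h5
      have h6 : c = c * (v * y * v⁻¹ * (y : G)⁻¹) := by
        calc c = v * (c * y) * v⁻¹ * (y : G)⁻¹ := h5
          _ = (v * c) * y * v⁻¹ * (y : G)⁻¹ := by group
          _ = (c * v) * y * v⁻¹ * (y : G)⁻¹ := by rw [hcv]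
          _ = c * (v * y * v⁻¹ * (y : G)⁻¹) := by group
      have h7 : v * y * v⁻¹ * (y : G)⁻¹ = 1 := by
        have : c * (v * y * v⁻¹ * (y : G)⁻¹) = c * 1 := by rw [← h6, mul_one]
        exact mul_left_cancel this
      have h8 : v * y = (y : G) * v := by
        have : v * y * v⁻¹ * (y : G)⁻¹ * (y * v) = 1 * (y * v) := by rw [h7]
        simpa [mul_assoc] using this
      exact h8.symm
    rcases mem_of_centralizes hext hx₀c hv₀ with hv | hv
    · rcases hcen2 _ hv with h | h
      · -- `t` centralizes `a`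
        have h1 : t * a * t⁻¹ * a⁻¹ = 1 := congrArg Subtype.val h
        have h2 : a * t = t * a := by
          have : t * a * t⁻¹ * a⁻¹ * (a * t) = 1 * (a * t) := by rw [h1]
          simpa [mul_assoc] using this.symm
        rcases hCE t ht h2 with h3 | h3
        · exact Or.inl h3
        · exact Or.inr (Or.inl h3)
      · -- `t` acts on `a` as `x`
        have h1 : t * a * t⁻¹ * a⁻¹ = z := congrArg Subtype.val h
        have hxa : ⁅x₀, a₀⁆ = z₀ := by
          refine center_two hext.2 (hc₀ x₀ a₀) hz₀c ?_ hz₀1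
          intro h2
          apply ha₀Y
          rw [Subgroup.mem_centralizer_iff]
          intro w hw
          have hw' : w = x₀ := hw
          rw [hw']
          exact commutatorElement_eq_one_iff_mul_comm.mp h2
        have h2 : x * a * x⁻¹ * a⁻¹ = z := congrArg Subtype.val hxa
        have hzcomm : ∀ e ∈ E, e * z = z * e := fun e he => hHmem e (hEH he)
        have hu : x⁻¹ * t = 1 ∨ x⁻¹ * t = z := by
          apply hCE
          · intro y hy
            have h3 : (y : G) * x = x * y := congrArg Subtype.val (hY₀x y hy)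
            have h4 := ht y hy
            have h5 : (y : G) * x⁻¹ = x⁻¹ * y := by
              have : x⁻¹ * (y * x) * x⁻¹ = x⁻¹ * (x * y) * x⁻¹ := by rw [h3]
              simpa [mul_assoc] using this.symm
            calc (y : G) * (x⁻¹ * t) = (y * x⁻¹) * t := by group
              _ = x⁻¹ * (y * t) := by rw [h5]; group
              _ = x⁻¹ * (t * y) := by rw [h4]
              _ = x⁻¹ * t * y := by group
          · have h3 : t * a * t⁻¹ = z * a := by
              rw [← h1]
              group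
            have h4 : x * a * x⁻¹ = z * a := by
              rw [← h2]
              group
            have h5 : t * a = z * a * t := by
              rw [← h3]
              group
            have h6 : x * a = z * a * x := by
              rw [← h4]
              group
            have h7 : x⁻¹ * (z * a) = a * x⁻¹ := by
              have : x⁻¹ * (z * a * x) * x⁻¹ = x⁻¹ * (x * a) * x⁻¹ := by rw [h6]
              simpa [mul_assoc] using this
            calc a * (x⁻¹ * t) = (a * x⁻¹) * t := by group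
              _ = x⁻¹ * (z * a) * t := by rw [h7]
              _ = x⁻¹ * (z * a * t) := by group
              _ = x⁻¹ * (t * a) := by rw [h5]
              _ = x⁻¹ * t * a := by group
        rcases hu with h3 | h3
        · right; right; left
          have : t = x * (x⁻¹ * t) := by group
          rw [this, h3, mul_one]
        · right; right; right
          have : t = x * (x⁻¹ * t) := by group
          rw [this, h3]
    · exfalso
      have h1 := hcenM hv
      apply hx₀M
      have h2 : x₀ = (v₀ * x₀⁻¹)⁻¹ * v₀ := by group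
      rw [h2]
      exact M.mul_mem (M.inv_mem h1) hv₀M
  -- the transfer
  let φ : H →* Multiplicative (ZMod 2) := Cfsg.Agent.Lib.Transfer.IndexTwo.eps H K hKi
  have hφ : ∀ s : H, φ s = 1 ↔ (s : G) ∈ K := Cfsg.Agent.Lib.Transfer.IndexTwo.eps_eq_one_iff H K hKi
  have hφ2 : ∀ s : H, (s : G) ∉ K → φ s = Multiplicative.ofAdd 1 := by
    intro s hs
    have h1 : φ s ≠ 1 := fun h => hs ((hφ s).mp h)
    exact z2_all _ h1
  have hp2 : IsPGroup 2 (Multiplicative (ZMod 2)) :=
    IsPGroup.of_card (n := 1) (by simp [Nat.card_eq_fintype_card])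
  have hV : MonoidHom.transfer φ x = 1 :=
    Cfsg.Agent.Lib.Transfer.Basic.pResidual_le_ker hp2 (MonoidHom.transfer φ) (hres ▸ mem_top x)
  have hKHi : (K.subgroupOf H).index = 2 := hKi
  -- the set `A`
  let P : G ⧸ H → Prop := fun y => ∃ g : G, (g : G ⧸ H) = y ∧ g⁻¹ * x * g ∈ H ∧ g⁻¹ * x * g ∉ K
  have hPrep : ∀ g : G, P (g : G ⧸ H) → g⁻¹ * x * g ∈ H ∧ g⁻¹ * x * g ∉ K := by
    rintro g ⟨g', hg', h1, h2⟩
    have h3 : g'⁻¹ * g ∈ H := QuotientGroup.eq.mp hg'
    have e : g⁻¹ * x * g = (g'⁻¹ * g)⁻¹ * (g'⁻¹ * x * g') * (g'⁻¹ * g) := by group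
    rw [e]
    refine ⟨H.mul_mem (H.mul_mem (H.inv_mem h3) h1) h3, fun h4 => h2 ?_⟩
    have h5 := hinK _ h3 _ h4
    have e2 : (g'⁻¹ * g) * ((g'⁻¹ * g)⁻¹ * (g'⁻¹ * x * g') * (g'⁻¹ * g)) * (g'⁻¹ * g)⁻¹ =
        g'⁻¹ * x * g' := by group
    rwa [e2] at h5
  have hPfix : ∀ y, P y → x • y = y := by
    rintro _ ⟨g, rfl, h1, -⟩
    show ((x * g : G) : G ⧸ H) = (g : G ⧸ H)
    rw [eq_comm, QuotientGroup.eq]
    have : g⁻¹ * (x * g) = g⁻¹ * x * g := by group
    rw [this]
    exact h1
  haveI : Fintype (G ⧸ H) := Fintype.ofFinite _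
  haveI : Fintype (Quotient (MulAction.orbitRel (zpowers x) (G ⧸ H))) := Fintype.ofFinite _
  have hVA : Even (Nat.card {y // P y}) := by
    have h0 := hV
    rw [MonoidHom.transfer_eq_prod_quotient_orbitRel_zpowers_quot] at h0
    have hval : ∀ q : Quotient (MulAction.orbitRel (zpowers x) (G ⧸ H)),
        φ ⟨q.out.out⁻¹ * x ^ Function.minimalPeriod (x • ·) q.out * q.out.out,
          QuotientGroup.out_conj_pow_minimalPeriod_mem H x q.out⟩ =
        if P q.out then Multiplicative.ofAdd 1 else 1 := by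
      intro q
      have hmem := QuotientGroup.out_conj_pow_minimalPeriod_mem H x q.out
      have hgy : (q.out.out : G ⧸ H) = q.out := QuotientGroup.out_eq' q.out
      have hper : Function.minimalPeriod (x • ·) q.out ∣ 2 := by
        apply Function.IsPeriodicPt.minimalPeriod_dvd
        show (x • ·)^[2] q.out = q.out
        rw [smul_iterate, hx2]
        exact one_smul _ _
      have hcases := (Nat.dvd_prime Nat.prime_two).mp hper
      by_cases hPy : P q.out
      · rw [if_pos hPy]
        apply hφ2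
        have h1 : Function.minimalPeriod (x • ·) q.out = 1 :=
          Function.minimalPeriod_eq_one_iff_isFixedPt.mpr (hPfix _ hPy)
        show q.out.out⁻¹ * x ^ Function.minimalPeriod (x • ·) q.out * q.out.out ∉ K
        rw [h1, pow_one]
        exact (hPrep q.out.out (hgy.symm ▸ hPy)).2
      · rw [if_neg hPy, hφ]
        show q.out.out⁻¹ * x ^ Function.minimalPeriod (x • ·) q.out * q.out.out ∈ K
        rcases hcases with h1 | h1
        · rw [h1] at hmem ⊢
          rw [pow_one] at hmem ⊢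
          by_contra h2
          exact hPy ⟨q.out.out, hgy, hmem, h2⟩
        · rw [h1, hx2]
          simp
    simp_rw [hval] at h0
    rw [Finset.prod_ite, Finset.prod_const_one, mul_one, Finset.prod_const] at h0
    have h1 := z2_even h0
    have e : {q : Quotient (MulAction.orbitRel (zpowers x) (G ⧸ H)) // P q.out} ≃ {y // P y} :=
      Equiv.ofBijective (fun q => ⟨q.1.out, q.2⟩) (by
        constructor
        · rintro ⟨q, hq⟩ ⟨q', hq'⟩ h
          have h2 : q.out = q'.out := congrArg Subtype.val h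
          exact Subtype.ext (Quotient.out_inj.mp h2)
        · rintro ⟨y, hy⟩
          have hout : (Quotient.mk (MulAction.orbitRel (zpowers x) (G ⧸ H)) y).out = y := by
            have h2 := Quotient.mk_out (s := MulAction.orbitRel (zpowers x) (G ⧸ H)) y
            have h3 : (Quotient.mk (MulAction.orbitRel (zpowers x) (G ⧸ H)) y).out ∈
                MulAction.orbit (zpowers x) y := h2
            obtain ⟨⟨c, k, rfl⟩, h4⟩ := h3
            have h5 : zpowers x ≤ MulAction.stabilizer G y := by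
              rw [zpowers_le]
              exact hPfix y hy
            have h6 : ((fun k : ℤ => x ^ k) k : G) • y = y := h5 ⟨k, rfl⟩
            rw [← h4]
            exact h6
          refine ⟨⟨Quotient.mk _ y, ?_⟩, ?_⟩
          · show P _
            rw [hout]
            exact hy
          · apply Subtype.ext
            exact hout)
    have h2 : Nat.card {y // P y} =
        (Finset.filter (fun q : Quotient (MulAction.orbitRel (zpowers x) (G ⧸ H)) => P q.out)
          Finset.univ).card := by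
      rw [← Nat.card_congr e, Nat.card_eq_fintype_card, Fintype.card_subtype]
    rw [h2]
    exact h1
  let Y : Subgroup G := Y₀.map E.subtype
  have hpY : IsPGroup 2 Y := (hext.1.1.to_subgroup Y₀).map E.subtype
  have hYx : ∀ p ∈ Y, p * x = x * p := by
    rintro _ ⟨y, hy, rfl⟩
    exact congrArg Subtype.val (hY₀x y hy)
  let A' : SubMulAction Y (G ⧸ H) :=
    { carrier := {y | P y}
      smul_mem' := by
        rintro ⟨p, hp⟩ _ ⟨g, rfl, h1, h2⟩
        refine ⟨p * g, rfl, ?_, ?_⟩
        · have e : (p * g)⁻¹ * x * (p * g) = g⁻¹ * (p⁻¹ * (x * p)) * g := by group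
          rw [e, ← hYx p hp]
          have e2 : p⁻¹ * (p * x) = x := by group
          rw [e2]
          exact h1
        · have e : (p * g)⁻¹ * x * (p * g) = g⁻¹ * (p⁻¹ * (x * p)) * g := by group
          rw [e, ← hYx p hp]
          have e2 : p⁻¹ * (p * x) = x := by group
          rw [e2]
          exact h2 }
  have hmod := hpY.card_modEq_card_fixedPoints A'
  have hxH : x ∈ H := hEH hxE
  have hA1 : P ((1 : G) : G ⧸ H) := ⟨1, rfl, by simpa using hxH, by simpa using hxK⟩
  have hkey : ∀ y : A', y ∈ MulAction.fixedPoints Y A' → (y : G ⧸ H) = ((1 : G) : G ⧸ H) := by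
    rintro ⟨y, hy⟩ hfix
    obtain ⟨g, rfl⟩ := QuotientGroup.mk_surjective y
    have hP : P (g : G ⧸ H) := hy
    obtain ⟨h1, h2⟩ := hPrep g hP
    let t : G := g * z * g⁻¹
    have hgH : ∀ p ∈ Y₀, g⁻¹ * (p : G) * g ∈ H := by
      intro p hp
      have hpY' : (p : G) ∈ Y := ⟨p, hp, rfl⟩
      have h3 := hfix ⟨(p : G), hpY'⟩
      have h4 : (((p : G) * g : G) : G ⧸ H) = (g : G ⧸ H) :=
        congrArg Subtype.val h3
      rw [eq_comm, QuotientGroup.eq] at h4
      have e : g⁻¹ * (p : G) * g = g⁻¹ * ((p : G) * g) := by group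
      rw [e]
      exact h4
    have hpt : ∀ p ∈ Y₀, (p : G) * t = t * p := by
      intro p hp
      have h3 := hHmem _ (hgH p hp)
      calc (p : G) * t = g * ((g⁻¹ * p * g) * z) * g⁻¹ := by
            show (p : G) * (g * z * g⁻¹) = _
            group
        _ = g * (z * (g⁻¹ * p * g)) * g⁻¹ := by rw [h3]
        _ = t * p := by
            show _ = (g * z * g⁻¹) * (p : G)
            group
    show ((g : G) : G ⧸ H) = ((1 : G) : G ⧸ H)
    rcases hT t hpt with ht | ht | ht | ht
    · exfalso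
      apply hz1
      have : z = g⁻¹ * t * g := by
        show z = g⁻¹ * (g * z * g⁻¹) * g
        group
      rw [this, ht]
      group
    · rw [eq_comm, QuotientGroup.eq, inv_one, one_mul]
      apply hmemH
      have h3 : g * z * g⁻¹ = z := ht
      calc g * z = (g * z * g⁻¹) * g := by group
        _ = z * g := by rw [h3]
    · exfalso
      apply h2
      have h3 : g * z * g⁻¹ = x := ht
      have : g⁻¹ * x * g = z := by
        rw [← h3]
        group
      rw [this]
      exact hzK
    · exfalso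
      apply h2
      have h3 : g * z * g⁻¹ = x * z := ht
      have hzsq : z * z = 1 := by rwa [pow_two] at hzz
      have hxeq : x = g * z * g⁻¹ * z := by
        rw [h3, mul_assoc, hzsq, mul_one]
      have h4 : g⁻¹ * x * g = z * (g⁻¹ * z * g) := by
        rw [hxeq]
        group
      rw [h4]
      refine K.mul_mem hzK ?_
      have hf₁ := hgH e₁ he₁
      have hf₂ := hgH e₂ he₂
      have h5 := comm_mem_of_index_two hKHi (⟨_, hf₁⟩ : H) (⟨_, hf₂⟩ : H)
      have h6 : ((⁅(⟨_, hf₁⟩ : H), (⟨_, hf₂⟩ : H)⁆ : H) : G) = g⁻¹ * z * g := by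
        have h7 : (((⁅e₁, e₂⁆ : E) : G)) = z := congrArg Subtype.val hcomz
        rw [← h7]
        show (g⁻¹ * e₁ * g) * (g⁻¹ * e₂ * g) * (g⁻¹ * e₁ * g)⁻¹ * (g⁻¹ * e₂ * g)⁻¹ =
          g⁻¹ * ((e₁ : G) * e₂ * (e₁ : G)⁻¹ * (e₂ : G)⁻¹) * g
        group
      rw [← h6]
      exact Subgroup.mem_subgroupOf.mp h5
  have hfix1 : Nat.card (MulAction.fixedPoints Y A') = 1 := by
    rw [Nat.card_eq_one_iff_unique]
    refine ⟨⟨?_⟩, ⟨⟨⟨((1 : G) : G ⧸ H), hA1⟩, ?_⟩⟩⟩
    · rintro ⟨y, hy⟩ ⟨y', hy'⟩
      apply Subtype.ext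
      apply Subtype.ext
      exact (hkey y hy).trans (hkey y' hy').symm
    · rintro ⟨p, hp⟩
      apply Subtype.ext
      show ((p * 1 : G) : G ⧸ H) = ((1 : G) : G ⧸ H)
      rw [eq_comm, QuotientGroup.eq, inv_one, one_mul, mul_one]
      obtain ⟨y, -, rfl⟩ := hp
      exact hEH y.2
  have hcardA : Nat.card A' = Nat.card {y // P y} := rfl
  rw [hfix1, hcardA] at hmod
  have h1 := Nat.even_iff.mp hVA
  have h2 : Nat.card {y // P y} % 2 = 1 % 2 := hmod
  omega

end Cfsg.Agent.S3299
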