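import Cfsg.Statements.S3313
import Mathlib
import Cfsg.Agent.Lib.HallJanko.Main
import Cfsg.Agent.Lib.HallJanko.Omega
import Cfsg.Agent.Lib.Components.FStar
import Cfsg.Agent.Lib.Basic.PCore
import Cfsg.Agent.Lib.PGroup.Extraspecial

set_option autoImplicit false
open Cfsg

namespace Cfsg.Agent.S3313


open Subgroup in
open scoped commutatorElement in
open Cfsg.Agent.Lib.PGroup.Extraspecial in
/-- An extraspecial group of order `32` has a noncentral involution. -/
theorem exists_noncentral_inv {P : Type*} [Group P] [Finite P] (h : Cfsg.IsExtraspecial 2 P)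
    (hc : Nat.card P = 32) : ∃ x : P, orderOf x = 2 ∧ x ∉ center P := by
  haveI : Fact (Nat.Prime 2) := ⟨Nat.prime_two⟩
  by_contra hno
  push Not at hno
  have hcc := IsExtraspecial.comm_mem_center h
  have hZ := h.2
  have hsq : ∀ x : P, x ^ 2 ∈ center P := IsExtraspecial.pow_mem_center h
  have hzz : ∀ x ∈ center P, x ^ 2 = 1 := fun x hx => IsSpecial.pow_eq_one_of_mem_center h.1 hx
  have h4 : ∀ x : P, x ^ 4 = 1 := fun x => IsSpecial.pow_sq_eq_one h.1 x
  have hinv : ∀ x : P, x ^ 2 = 1 → x ≠ 1 → x ∈ center P := fun x hx hx1 =>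
    hno x (orderOf_eq_prime hx hx1)
  obtain ⟨a, ha⟩ : ∃ a : P, a ∉ center P := by
    by_contra hh
    push Not at hh
    have : center P = ⊤ := eq_top_iff.mpr fun x _ => hh x
    rw [this] at hZ
    simp [hc] at hZ
  have ha1 : a ≠ 1 := fun h1 => ha (h1 ▸ one_mem _)
  have ha2 : a ^ 2 ≠ 1 := fun h2 => ha (hinv a h2 ha1)
  -- the centre is `{1, a²}`
  have hcenter : ∀ y ∈ center P, y = 1 ∨ y = a ^ 2 := by
    intro y hy
    by_cases hy1 : y = 1
    · exact Or.inl hy1
    right
    obtain ⟨w, -, hw⟩ := (Nat.card_eq_two_iff' (1 : center P)).mp hZ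
    have e1 := hw ⟨y, hy⟩ (fun h => hy1 (congrArg Subtype.val h))
    have e2 := hw ⟨a ^ 2, hsq a⟩ (fun h => ha2 (congrArg Subtype.val h))
    have := e1.trans e2.symm
    exact congrArg Subtype.val this
  have hord : Nat.card (zpowers a) = 4 := by
    rw [Nat.card_zpowers]
    have : orderOf a = 2 ^ (1 + 1) := orderOf_eq_prime_pow (p := 2) (n := 1)
      (by simpa using ha2) (by simpa using h4 a)
    simpa using this
  have hC := card_le_mul_card_inf_centralizer hcc hZ ⊤ a
  have hC16 : 16 ≤ Nat.card ↥(centralizer ({a} : Set P)) := by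
    have htop : Nat.card (⊤ : Subgroup P) = 32 := by simpa [hc] using Subgroup.card_top (G := P)
    rw [htop, top_inf_eq] at hC
    omega
  obtain ⟨c, hc1, hc2⟩ : ∃ c ∈ centralizer ({a} : Set P), c ∉ zpowers a := by
    by_contra hh
    push Not at hh
    have := Subgroup.card_le_of_le (K := zpowers a) (H := centralizer ({a} : Set P)) hh
    omega
  have hcomm : a * c = c * a := (Subgroup.mem_centralizer_iff.mp hc1 a (by simp))
  have hcz : c ∉ center P := by
    intro hcz
    rcases hcenter c hcz with rfl | rfl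
    · exact hc2 (one_mem _)
    · exact hc2 (pow_mem (mem_zpowers a) 2)
  have hc21 : c ^ 2 ≠ 1 := fun h2 => hcz (hinv c h2 (fun h1 => hcz (h1 ▸ one_mem _)))
  have hc22 : c ^ 2 = a ^ 2 := (hcenter _ (hsq c)).resolve_left hc21
  have hac : (a * c) ^ 2 = 1 := by
    rw [(show Commute a c from hcomm).mul_pow, hc22, ← pow_add]
    exact h4 a
  by_cases hac1 : a * c = 1
  · apply hc2
    rw [eq_inv_of_mul_eq_one_right hac1]
    exact inv_mem (mem_zpowers a)
  · rcases hcenter _ (hinv _ hac hac1) with h1 | h1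
    · exact hac1 h1
    · apply hc2
      have : c = a := by
        have : a * c = a * a := by rw [h1, pow_two]
        exact mul_left_cancel this
      rw [this]
      exact mem_zpowers a

/-- The order of a simple group with the involution pattern of the Hall–Janko group. Let G be a non-abelian finite simple group with exactly two conjugacy classes of involutions, represented by z and t, such that: F*(C_G(z)) is an extraspecial 2-group; Q = O₂(C_G(z)) has order 32 and C_G(z) is the semidirect product of Q by a subgroup isomorphic to A₅; every involution of Q is conjugate to z and every other involution of C_G(z) is conjugate to t; C_G(t) is an internal direct product V × B with V a four-group containing t and B ≅ A₅; every involution of B is conjugate to z and every other involution of C_G(t) is conjugate to t. Then |G| = 604800. -/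
theorem result {G : Type*} [Group G] [Finite G]
    [IsSimpleGroup G] (hna : ¬ IsMulCommutative G) (z t : G) (hz : orderOf z = 2) (ht : orderOf t = 2)
    (hzt : ¬ IsConj z t) (hcl : ∀ x : G, orderOf x = 2 → IsConj x z ∨ IsConj x t)
    (hex : Cfsg.IsExtraspecial 2 ↥(Cfsg.generalizedFittingSubgroup ↥(Subgroup.centralizer ({z} : Set G))))
    (hQ : Nat.card ↥(Cfsg.pCore 2 ↥(Subgroup.centralizer ({z} : Set G))) = 32)
    (K : Subgroup G) (hK : Nonempty (↥K ≃* alternatingGroup (Fin 5)))
    (hKC : K ⊔ (Cfsg.pCore 2 ↥(Subgroup.centralizer ({z} : Set G))).map (Subgroup.centralizer ({z} : Set G)).subtype = Subgroup.centralizer ({z} : Set G))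
    (hKQ : K ⊓ (Cfsg.pCore 2 ↥(Subgroup.centralizer ({z} : Set G))).map (Subgroup.centralizer ({z} : Set G)).subtype = ⊥)
    (hQz : ∀ x ∈ (Cfsg.pCore 2 ↥(Subgroup.centralizer ({z} : Set G))).map (Subgroup.centralizer ({z} : Set G)).subtype, orderOf x = 2 → IsConj x z)
    (hCz : ∀ x ∈ Subgroup.centralizer ({z} : Set G), orderOf x = 2 →
      x ∉ (Cfsg.pCore 2 ↥(Subgroup.centralizer ({z} : Set G))).map (Subgroup.centralizer ({z} : Set G)).subtype → IsConj x t)
    (V B : Subgroup G) (hVB : Cfsg.IsInternalDirectProduct V B (Subgroup.centralizer ({t} : Set G)))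
    (hV : Nat.card ↥V = 4) (hV2 : ∀ v ∈ V, v ^ 2 = 1) (htV : t ∈ V) (hB : Nonempty (↥B ≃* alternatingGroup (Fin 5)))
    (hBz : ∀ x ∈ B, orderOf x = 2 → IsConj x z)
    (hCt : ∀ x ∈ Subgroup.centralizer ({t} : Set G), orderOf x = 2 → x ∉ B → IsConj x t) :
    Nat.card G = 604800 := by

  haveI : Fact (Nat.Prime 2) := ⟨Nat.prime_two⟩
  set C := Subgroup.centralizer ({z} : Set G) with hCdef
  set P := Cfsg.pCore 2 ↥C with hPdef
  haveI hPn : P.Normal := Cfsg.Agent.Lib.Basic.PCore.pCore_normal 2 ↥C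
  have hFP : Cfsg.generalizedFittingSubgroup ↥C = P := by
    refine le_antisymm ?_ ?_
    · exact Cfsg.Agent.Lib.Basic.PCore.le_pCore inferInstance hex.1.1
    · exact (Cfsg.Agent.Lib.Basic.PCore.pCore_le_fittingSubgroup 2).trans
        Cfsg.Agent.Lib.Components.FStar.fitting_le_generalizedFitting
  have hex' : Cfsg.IsExtraspecial 2 ↥P := hFP ▸ hex
  have hKle : K ≤ C := by rw [← hKC]; exact le_sup_left
  -- the complement
  have hsup : K.subgroupOf C ⊔ P = ⊤ := by
    apply Subgroup.map_injective C.subtype_injective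
    rw [Subgroup.map_sup, Subgroup.map_subgroupOf_eq_of_le hKle, hKC, ← MonoidHom.range_eq_map,
      Subgroup.range_subtype]
  have hf_inj : Function.Injective ((QuotientGroup.mk' P).comp (K.subgroupOf C).subtype) := by
    rw [injective_iff_map_eq_one]
    intro x hx
    have hx1 : (x : ↥C) ∈ P := by
      simpa [QuotientGroup.eq_one_iff] using hx
    have hx2 : ((x : ↥C) : G) ∈ K ⊓ P.map C.subtype :=
      ⟨x.2, ⟨x, hx1, rfl⟩⟩
    rw [hKQ, Subgroup.mem_bot] at hx2
    exact Subtype.ext (Subtype.ext hx2)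
  have hf_surj : Function.Surjective ((QuotientGroup.mk' P).comp (K.subgroupOf C).subtype) := by
    intro q
    obtain ⟨y, rfl⟩ := QuotientGroup.mk_surjective q
    have hy : y ∈ ((K.subgroupOf C ⊔ P : Subgroup ↥C) : Set ↥C) := by rw [hsup]; trivial
    rw [Subgroup.mul_normal] at hy
    obtain ⟨k, hk, p, hp, rfl⟩ := hy
    refine ⟨⟨k, hk⟩, ?_⟩
    simp only [MonoidHom.comp_apply, Subgroup.coe_subtype, QuotientGroup.mk'_apply]
    rw [QuotientGroup.eq]
    simpa using hp
  let eK : ↥(K.subgroupOf C) ≃* (↥C ⧸ P) := MulEquiv.ofBijective _ ⟨hf_inj, hf_surj⟩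
  obtain ⟨eA⟩ := hK
  obtain ⟨eO⟩ := Cfsg.Agent.Lib.HallJanko.omega_equiv
  let e : ↥C ⧸ P ≃* Cfsg.Omega (ZMod 2) (Cfsg.quadFormMinus 1 (ZMod 2) 1 1) :=
    eK.symm.trans ((Subgroup.subgroupOfEquivOfLe hKle).trans (eA.trans eO.symm))
  -- a noncentral involution
  obtain ⟨x, hx2, hxc⟩ := Cfsg.Agent.S3313.exists_noncentral_inv hex' (by simpa using hQ)
  have hxo : orderOf ((x : ↥C) : G) = 2 := by
    rw [← hx2]
    have h1 : orderOf (x : ↥C) = orderOf x := Subgroup.orderOf_coe x
    have h2 : orderOf ((x : ↥C) : G) = orderOf (x : ↥C) := Subgroup.orderOf_coe _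
    rw [h2, h1]
  have hconj := hQz ((x : ↥C) : G) ⟨x, x.2, rfl⟩ hxo
  obtain ⟨g, hg⟩ := isConj_iff.mp hconj.symm
  have hq : g * z * g⁻¹ ∈ C := by rw [hg]; exact (x : ↥C).2
  have hnwc : ∃ g : G, (∃ hq : g * z * g⁻¹ ∈ C, (⟨g * z * g⁻¹, hq⟩ : ↥C) ∈ P) ∧ g * z * g⁻¹ ≠ z := by
    refine ⟨g, ⟨hq, ?_⟩, ?_⟩
    · have : (⟨g * z * g⁻¹, hq⟩ : ↥C) = (x : ↥C) := Subtype.ext hg
      rw [this]
      exact x.2
    · intro hgz
      apply hxc
      rw [hg] at hgz
      rw [Subgroup.mem_center_iff]
      intro y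
      apply Subtype.ext
      apply Subtype.ext
      have hy : ((y : ↥C) : G) * z = z * ((y : ↥C) : G) := by
        have := Subgroup.mem_centralizer_iff.mp (y : ↥C).2 z (by simp)
        exact this.symm
      show ((y : ↥C) : G) * ((x : ↥C) : G) = ((x : ↥C) : G) * ((y : ↥C) : G)
      rw [hgz, hy]
  exact Cfsg.Agent.Lib.HallJanko.order_of_hyp z hz P hFP hex' (by simpa using hQ) e hnwc
    ⟨z, t, hz, ht, hzt⟩


end Cfsg.Agent.S3313
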