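import Cfsg.Statements.S3315
import Mathlib
import Cfsg.Agent.Lib.Classical.Herm.SzAutGroup

set_option autoImplicit false
open Cfsg

namespace Cfsg.Agent.S3315

/-- Let S be a Sylow 2-subgroup of SU₃(2ⁿ), n ≥ 2 (realised over the field with 4ⁿ elements). If a finite 2-group R contains a subgroup S' of index 2 isomorphic to S, then the centre of S' is contained in the centre of R. -/
theorem result {R : Type*} [Group R] [Finite R]
    (hR : IsPGroup 2 R) (n : ℕ) (hn : 2 ≤ n) {F : Type*} [Field F] [Fintype F] (hF : Fintype.card F = 4 ^ n)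
    (P : Sylow 2 ↥(Cfsg.SU 3 F (2 ^ n))) (S' : Subgroup R) (hS : Nonempty (↥S' ≃* ↥(P : Subgroup ↥(Cfsg.SU 3 F (2 ^ n)))))
    (hidx : S'.index = 2) :
    (Subgroup.center ↥S').map S'.subtype ≤ Subgroup.center R := by
  obtain ⟨e⟩ := hS
  have hF' : Fintype.card F = (2 ^ n) ^ 2 := by rw [hF, ← pow_mul, mul_comm, pow_mul]; norm_num
  have hchar := Cfsg.Agent.Lib.Classical.Herm.SzModel.charP_two (by omega) hF'
  obtain ⟨A, B, hm0⟩ := Cfsg.Agent.Lib.Classical.Herm.SzModel.exists_model_SU hF' (dvd_pow_self 2 (by omega)) P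
  have hm := hm0.comp e
  haveI hnorm : S'.Normal := Subgroup.normal_of_index_eq_two hidx
  rintro _ ⟨z, hz, rfl⟩
  rw [Subgroup.mem_center_iff]
  intro g
  by_cases hg : g ∈ S'
  · have h1 := (Subgroup.mem_center_iff.mp hz) ⟨g, hg⟩
    exact congrArg Subtype.val h1
  · -- conjugation by `g`
    have hzA := (hm.mem_center_iff hF').1 hz
    have hg2 : g * g ∈ S' := Subgroup.mul_self_mem_of_index_two hidx g
    let α : (↥S') ≃* (↥S') := MulAut.conjNormal g
    have hα : ∀ x : S', ((α x : S') : R) = g * x * g⁻¹ := fun x => MulAut.conjNormal_apply g x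
    have hαα : ∀ x, α (α x) = ⟨g * g, hg2⟩ * x * (⟨g * g, hg2⟩ : S')⁻¹ := by
      intro x
      apply Subtype.ext
      rw [hα, hα]
      simp only [Subgroup.coe_mul, Subgroup.coe_inv]
      group
    have h1 := Cfsg.Agent.Lib.Classical.Herm.SzAutGroup.fix_center_of_sq_inner hm hF' (n := n) (by omega) rfl α _ hαα hzA
    have h2 := congrArg Subtype.val h1
    rw [hα] at h2
    show g * (z : R) = z * g
    calc g * (z : R) = (g * z * g⁻¹) * g := by group
      _ = z * g := by rw [h2]

end Cfsg.Agent.S3315
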