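import Cfsg.Statements.S3335
import Mathlib
-- import your own Cfsg.Agent.* helpers here

set_option autoImplicit false
open Cfsg

namespace Cfsg.Agent.S3335

open Equiv

/-! ### The coset table -/

section Table

variable {H : Type*} [Group H]

/-- The descending products `e 0 * e 1 * ... * e (t-1)`. -/
def dd (e : ℕ → H) : ℕ → H
  | 0 => 1
  | t + 1 => dd e t * e t

/-- The relations in the `e`-indexing. -/
structure Hyp (e : ℕ → H) (m : ℕ) : Prop where
  hsq : ∀ a, a < m → e a * e a = 1
  hcub : e m ^ 3 = 1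
  hcomm : ∀ a b, a + 2 ≤ b → b < m → e a * e b = e b * e a
  hinv : ∀ a, a + 2 ≤ m → e a * e m = (e m)⁻¹ * e a
  hbraid : ∀ a, a + 1 < m → e a * e (a + 1) * e a = e (a + 1) * e a * e (a + 1)
  hb1 : 1 ≤ m → e (m - 1) * e m * e (m - 1) = (e m)⁻¹ * e (m - 1) * (e m)⁻¹
  hb2 : 1 ≤ m → e (m - 1) * (e m)⁻¹ * e (m - 1) = e m * e (m - 1) * e m

variable {e : ℕ → H} {m : ℕ}

lemma dd_comm (h : Hyp e m) {c : ℕ} (hc : c < m) : ∀ t, t + 1 ≤ c → dd e t * e c = e c * dd e t := by
  intro t
  induction t with
  | zero => intro _; simp [dd]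
  | succ t ih =>
    intro ht
    have h1 := h.hcomm t c (by omega) hc
    have h2 := ih (by omega)
    calc dd e (t + 1) * e c = dd e t * (e t * e c) := by simp [dd, mul_assoc]
      _ = (dd e t * e c) * e t := by rw [h1, mul_assoc]
      _ = e c * (dd e t * e t) := by rw [h2, mul_assoc]
      _ = e c * dd e (t + 1) := rfl

lemma dd_inv (h : Hyp e m) : ∀ t, t + 1 ≤ m → ∀ z, (z = e m ∨ z = (e m)⁻¹) →
    ∃ z', (z' = e m ∨ z' = (e m)⁻¹) ∧ dd e t * z = z' * dd e t := by
  intro t
  induction t with
  | zero => intro _ z hz; exact ⟨z, hz, by simp [dd]⟩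
  | succ t ih =>
    intro ht z hz
    have h1 : e t * e m = (e m)⁻¹ * e t := h.hinv t (by omega)
    have h2 : e t * (e m)⁻¹ = e m * e t := by
      calc e t * (e m)⁻¹ = e m * ((e m)⁻¹ * e t) * (e m)⁻¹ := by group
        _ = e m * (e t * e m) * (e m)⁻¹ := by rw [h1]
        _ = e m * e t := by group
    have h3 : e t * z = z⁻¹ * e t := by
      rcases hz with rfl | rfl
      · exact h1
      · rw [inv_inv]; exact h2
    obtain ⟨z', hz', e'⟩ := ih (by omega) z⁻¹ (by
      rcases hz with rfl | rfl
      · exact Or.inr rfl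
      · exact Or.inl (inv_inv _))
    refine ⟨z', hz', ?_⟩
    calc dd e (t + 1) * z = dd e t * (e t * z) := by simp [dd, mul_assoc]
      _ = (dd e t * z⁻¹) * e t := by rw [h3, mul_assoc]
      _ = z' * (dd e t * e t) := by rw [e', mul_assoc]
      _ = z' * dd e (t + 1) := rfl

lemma dd_braid (h : Hyp e m) {c : ℕ} : ∀ t, c + 2 ≤ t → t ≤ m →
    dd e t * e c = e (c + 1) * dd e t := by
  intro t ht
  induction t, ht using Nat.le_induction with
  | base =>
    intro hm
    have h1 := h.hbraid c (by omega)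
    have h2 := dd_comm h (c := c + 1) (by omega) c (by omega)
    calc dd e (c + 2) * e c = dd e c * (e c * e (c + 1) * e c) := by simp [dd, mul_assoc]
      _ = dd e c * (e (c + 1) * e c * e (c + 1)) := by rw [h1]
      _ = (dd e c * e (c + 1)) * (e c * e (c + 1)) := by simp [mul_assoc]
      _ = e (c + 1) * (dd e c * e c * e (c + 1)) := by rw [h2]; simp [mul_assoc]
      _ = e (c + 1) * dd e (c + 2) := rfl
  | succ t ht ih =>
    intro hm
    have h1 := h.hcomm c t ht (by omega)
    have h2 := ih (by omega)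
    calc dd e (t + 1) * e c = dd e t * (e t * e c) := by simp [dd, mul_assoc]
      _ = (dd e t * e c) * e t := by rw [← h1, mul_assoc]
      _ = e (c + 1) * (dd e t * e t) := by rw [h2, mul_assoc]
      _ = e (c + 1) * dd e (t + 1) := rfl

/-- Coset representatives. -/
def rep (e : ℕ → H) (m : ℕ) (t : ℕ) : H :=
  if t ≤ m + 1 then dd e t else dd e m * (e m)⁻¹

lemma rep_le {t : ℕ} (ht : t ≤ m + 1) : rep e m t = dd e t := by simp [rep, ht]
lemma rep_last : rep e m (m + 2) = dd e m * (e m)⁻¹ := by simp [rep]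

/-- The table: multiplying a coset on the right by a generator gives a coset. -/
lemma table (h : Hyp e m) (K : Subgroup H) (hK : ∀ c, 1 ≤ c → c ≤ m → e c ∈ K)
    {t c : ℕ} (ht : t ≤ m + 2) (hc : c ≤ m) :
    ∃ t' ≤ m + 2, ∃ k ∈ K, rep e m t * e c = k * rep e m t' := by
  have hmem : ∀ z, (z = e m ∨ z = (e m)⁻¹) → 1 ≤ m → z ∈ K := by
    intro z hz hm
    rcases hz with rfl | rfl
    · exact hK m hm le_rfl
    · exact K.inv_mem (hK m hm le_rfl)
  have hcube : e m * e m * e m = 1 := by
    have := h.hcub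
    rwa [pow_succ, pow_two] at this
  have hss : e m * e m = (e m)⁻¹ := by
    rw [eq_inv_iff_mul_eq_one]; exact hcube
  -- `e m` and `e c` for `c + 2 ≤ m`
  have hmc : ∀ a, a + 2 ≤ m → e m * e a = e a * (e m)⁻¹ := by
    intro a ha
    have h1 := h.hinv a ha
    calc e m * e a = e m * (e a * e m) * (e m)⁻¹ := by group
      _ = e m * ((e m)⁻¹ * e a) * (e m)⁻¹ := by rw [h1]
      _ = e a * (e m)⁻¹ := by group
  have hmc' : ∀ a, a + 2 ≤ m → (e m)⁻¹ * e a = e a * e m := by
    intro a ha
    exact (h.hinv a ha).symm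
  rcases Nat.lt_or_ge t (m + 1) with h1 | h1
  · -- `t ≤ m`
    rw [rep_le (by omega)]
    rcases Nat.lt_trichotomy t c with h2 | h2 | h2
    · -- `t < c`
      rcases Nat.lt_or_ge c m with h3 | h3
      · refine ⟨t, by omega, e c, hK c (by omega) hc, ?_⟩
        rw [rep_le (by omega)]
        exact dd_comm h h3 t h2
      · have h3' : c = m := by omega
        subst h3'
        obtain ⟨z', hz', e'⟩ := dd_inv h t (by omega) (e c) (Or.inl rfl)
        exact ⟨t, by omega, z', hmem z' hz' (by omega), by rw [rep_le (by omega)]; exact e'⟩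
    · subst h2
      exact ⟨t + 1, by omega, 1, K.one_mem, by rw [rep_le (by omega), one_mul]; rfl⟩
    · rcases Nat.lt_or_ge (c + 1) t with h3 | h3
      · refine ⟨t, by omega, e (c + 1), hK _ (by omega) (by omega), ?_⟩
        rw [rep_le (by omega)]
        exact dd_braid h t (by omega) (by omega)
      · have h3' : t = c + 1 := by omega
        subst h3'
        refine ⟨c, by omega, 1, K.one_mem, ?_⟩
        rw [rep_le (by omega), one_mul]
        change dd e c * e c * e c = dd e c
        rw [mul_assoc, h.hsq c (by omega), mul_one]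
  · rcases Nat.lt_or_ge t (m + 2) with h2 | h2
    · -- `t = m + 1`
      have h2' : t = m + 1 := by omega
      subst h2'
      rw [rep_le le_rfl]
      rcases Nat.lt_or_ge c m with h3 | h3
      · rcases Nat.lt_or_ge (c + 1) m with h4 | h4
        · -- far generator
          refine ⟨m + 2, le_rfl, e (c + 1), hK _ (by omega) (by omega), ?_⟩
          rw [rep_last]
          calc dd e (m + 1) * e c = dd e m * (e m * e c) := by simp [dd, mul_assoc]
            _ = (dd e m * e c) * (e m)⁻¹ := by rw [hmc c (by omega), mul_assoc]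
            _ = e (c + 1) * (dd e m * (e m)⁻¹) := by
              rw [dd_braid h m (by omega) le_rfl, mul_assoc]
        · -- `c = m - 1`
          have h4' : c = m - 1 := by omega
          subst h4'
          have hm1 : 1 ≤ m := by omega
          obtain ⟨z', hz', e'⟩ := dd_inv h (m - 1) (by omega) ((e m)⁻¹) (Or.inr rfl)
          refine ⟨m + 2, le_rfl, z', hmem z' hz' hm1, ?_⟩
          rw [rep_last]
          have hd : dd e m = dd e (m - 1) * e (m - 1) := by
            conv_lhs => rw [show m = (m - 1) + 1 by omega]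
            rfl
          calc dd e (m + 1) * e (m - 1) = dd e m * e m * e (m - 1) := rfl
            _ = dd e (m - 1) * (e (m - 1) * e m * e (m - 1)) := by rw [hd]; simp [mul_assoc]
            _ = dd e (m - 1) * ((e m)⁻¹ * e (m - 1) * (e m)⁻¹) := by rw [h.hb1 hm1]
            _ = (dd e (m - 1) * (e m)⁻¹) * (e (m - 1) * (e m)⁻¹) := by simp [mul_assoc]
            _ = z' * (dd e (m - 1) * e (m - 1) * (e m)⁻¹) := by rw [e']; simp [mul_assoc]
            _ = z' * (dd e m * (e m)⁻¹) := by rw [← hd]
      · have h3' : c = m := by omega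
        subst h3'
        refine ⟨c + 2, le_rfl, 1, K.one_mem, ?_⟩
        rw [rep_last, one_mul]
        change dd e c * e c * e c = _
        rw [mul_assoc, hss]
    · -- `t = m + 2`
      have h2' : t = m + 2 := by omega
      subst h2'
      rw [rep_last]
      rcases Nat.lt_or_ge c m with h3 | h3
      · rcases Nat.lt_or_ge (c + 1) m with h4 | h4
        · refine ⟨m + 1, by omega, e (c + 1), hK _ (by omega) (by omega), ?_⟩
          rw [rep_le le_rfl]
          calc dd e m * (e m)⁻¹ * e c = dd e m * ((e m)⁻¹ * e c) := by simp [mul_assoc]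
            _ = (dd e m * e c) * e m := by rw [hmc' c (by omega), mul_assoc]
            _ = e (c + 1) * (dd e m * e m) := by
              rw [dd_braid h m (by omega) le_rfl, mul_assoc]
        · have h4' : c = m - 1 := by omega
          subst h4'
          have hm1 : 1 ≤ m := by omega
          obtain ⟨z', hz', e'⟩ := dd_inv h (m - 1) (by omega) (e m) (Or.inl rfl)
          refine ⟨m + 1, by omega, z', hmem z' hz' hm1, ?_⟩
          rw [rep_le le_rfl]
          have hd : dd e m = dd e (m - 1) * e (m - 1) := by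
            conv_lhs => rw [show m = (m - 1) + 1 by omega]
            rfl
          calc dd e m * (e m)⁻¹ * e (m - 1)
              = dd e (m - 1) * (e (m - 1) * (e m)⁻¹ * e (m - 1)) := by rw [hd]; simp [mul_assoc]
            _ = dd e (m - 1) * (e m * e (m - 1) * e m) := by rw [h.hb2 hm1]
            _ = (dd e (m - 1) * e m) * (e (m - 1) * e m) := by simp [mul_assoc]
            _ = z' * (dd e (m - 1) * e (m - 1) * e m) := by rw [e']; simp [mul_assoc]
            _ = z' * (dd e m * e m) := by rw [← hd]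
      · have h3' : c = m := by omega
        subst h3'
        refine ⟨c, by omega, 1, K.one_mem, ?_⟩
        rw [rep_le (by omega), one_mul, mul_assoc, inv_mul_cancel, mul_one]

/-- Every element is in one of the `m + 3` cosets, provided the `e c` generate. -/
theorem cover (h : Hyp e m) (K : Subgroup H) (hK : ∀ c, 1 ≤ c → c ≤ m → e c ∈ K)
    (hgen : Subgroup.closure (e '' {c | c ≤ m}) = ⊤) (x : H) :
    ∃ t ≤ m + 2, ∃ k ∈ K, x = k * rep e m t := by
  have hx : x ∈ Subgroup.closure (e '' {c | c ≤ m}) := by rw [hgen]; trivial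
  -- right multiplication by a generator and its inverse
  have hr : ∀ (y : H) (c : ℕ), c ≤ m → (∃ t ≤ m + 2, ∃ k ∈ K, y = k * rep e m t) →
      ∃ t ≤ m + 2, ∃ k ∈ K, y * e c = k * rep e m t := by
    rintro y c hc ⟨t, ht, k, hk, rfl⟩
    obtain ⟨t', ht', k', hk', e'⟩ := table h K hK ht hc
    exact ⟨t', ht', k * k', K.mul_mem hk hk', by rw [mul_assoc, e', mul_assoc]⟩
  have hinv : ∀ c, c ≤ m → ∃ a : ℕ, (e c)⁻¹ = e c ^ a := by
    intro c hc
    rcases Nat.lt_or_ge c m with h1 | h1
    · refine ⟨1, ?_⟩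
      rw [pow_one, inv_eq_iff_mul_eq_one]
      exact h.hsq c h1
    · have h1' : c = m := by omega
      subst h1'
      refine ⟨2, ?_⟩
      rw [inv_eq_iff_mul_eq_one, ← pow_succ']
      exact h.hcub
  have hrp : ∀ (y : H) (c a : ℕ), c ≤ m → (∃ t ≤ m + 2, ∃ k ∈ K, y = k * rep e m t) →
      ∃ t ≤ m + 2, ∃ k ∈ K, y * e c ^ a = k * rep e m t := by
    intro y c a hc hy
    induction a with
    | zero => simpa using hy
    | succ a ih =>
      rw [pow_succ, ← mul_assoc]
      exact hr _ c hc ih
  induction hx using Subgroup.closure_induction_right with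
  | one => exact ⟨0, by omega, 1, K.one_mem, by rw [rep_le (by omega)]; simp [dd]⟩
  | mul_right y z hy hz ih =>
    obtain ⟨c, hc, rfl⟩ := hz
    exact hr y c hc ih
  | mul_inv_cancel y z hy hz ih =>
    obtain ⟨c, hc, rfl⟩ := hz
    obtain ⟨a, ha⟩ := hinv c hc
    rw [ha]
    exact hrp y c a hc ih

end Table

/-! ### The presented groups -/

/-- The relators. -/
def rels (k : ℕ) : Set (FreeGroup (Fin k)) :=
  {g | ∃ i : Fin k, i.val = 0 ∧ g = FreeGroup.of i ^ 3} ∪
  {g | ∃ i : Fin k, 1 ≤ i.val ∧ g = FreeGroup.of i ^ 2} ∪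
  {g | ∃ i j : Fin k, j.val = i.val + 1 ∧ g = (FreeGroup.of i * FreeGroup.of j) ^ 3} ∪
  {g | ∃ i j : Fin k, i.val + 1 < j.val ∧ g = (FreeGroup.of i * FreeGroup.of j) ^ 2}

abbrev Pres (k : ℕ) := PresentedGroup (rels k)

/-- A system of elements satisfying the relations. -/
structure Rel {H : Type*} [Group H] (k : ℕ) (y : ℕ → H) : Prop where
  cub : 0 < k → y 0 ^ 3 = 1
  sq : ∀ i, 1 ≤ i → i < k → y i ^ 2 = 1
  br : ∀ i, i + 1 < k → (y i * y (i + 1)) ^ 3 = 1
  fa : ∀ i j, i + 1 < j → j < k → (y i * y j) ^ 2 = 1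

lemma Rel.mono {H : Type*} [Group H] {k : ℕ} {y : ℕ → H} (h : Rel (k + 1) y) : Rel k y :=
  ⟨fun _ => h.cub (by omega), fun i h1 h2 => h.sq i h1 (by omega),
    fun i h1 => h.br i (by omega), fun i j h1 h2 => h.fa i j h1 (by omega)⟩

/-- The lift to a group of a system of elements satisfying the relations. -/
def liftR {H : Type*} [Group H] (k : ℕ) (y : ℕ → H) (h : Rel k y) : Pres k →* H :=
  PresentedGroup.toGroup (f := fun i : Fin k => y i.val) (by
    rintro r ((((⟨i, hi, rfl⟩ | ⟨i, hi, rfl⟩) | ⟨i, j, hij, rfl⟩) | ⟨i, j, hij, rfl⟩))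
    · have h0 : (i : ℕ) = 0 := hi
      have := h.cub (by have := i.2; omega)
      simpa [h0] using this
    · simpa using h.sq i hi i.2
    · have := h.br i (by have := j.2; omega)
      rw [← hij] at this
      simpa using this
    · simpa using h.fa i j hij j.2)

lemma liftR_of {H : Type*} [Group H] (k : ℕ) (y : ℕ → H) (h : Rel k y) (i : Fin k) :
    liftR k y h (PresentedGroup.of i) = y i.val :=
  PresentedGroup.toGroup.of _

/-- The generators, indexed by naturals. -/
noncomputable def gen (k : ℕ) (i : ℕ) : Pres k :=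
  if h : i < k then PresentedGroup.of ⟨i, h⟩ else 1

lemma gen_rel (k : ℕ) : Rel k (gen k) := by
  refine ⟨?_, ?_, ?_, ?_⟩
  · intro hk
    have hm : FreeGroup.of (⟨0, hk⟩ : Fin k) ^ 3 ∈ rels k :=
      Or.inl (Or.inl (Or.inl ⟨⟨0, hk⟩, rfl, rfl⟩))
    have := PresentedGroup.one_of_mem hm
    simpa [gen, hk, PresentedGroup.of] using this
  · intro i hi hk
    have hm : FreeGroup.of (⟨i, hk⟩ : Fin k) ^ 2 ∈ rels k :=
      Or.inl (Or.inl (Or.inr ⟨⟨i, hk⟩, hi, rfl⟩))
    have := PresentedGroup.one_of_mem hm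
    simpa [gen, hk, PresentedGroup.of] using this
  · intro i hk
    have hi : i < k := by omega
    have hm : (FreeGroup.of (⟨i, hi⟩ : Fin k) * FreeGroup.of (⟨i + 1, hk⟩ : Fin k)) ^ 3 ∈ rels k :=
      Or.inl (Or.inr ⟨⟨i, hi⟩, ⟨i + 1, hk⟩, rfl, rfl⟩)
    have := PresentedGroup.one_of_mem hm
    simpa [gen, hk, hi, PresentedGroup.of] using this
  · intro i j hij hk
    have hi : i < k := by omega
    have hm : (FreeGroup.of (⟨i, hi⟩ : Fin k) * FreeGroup.of (⟨j, hk⟩ : Fin k)) ^ 2 ∈ rels k :=
      Or.inr ⟨⟨i, hi⟩, ⟨j, hk⟩, hij, rfl⟩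
    have := PresentedGroup.one_of_mem hm
    simpa [gen, hk, hi, PresentedGroup.of] using this

lemma braid_of {H : Type*} [Group H] {a b : H} (ha : a * a = 1) (hb : b * b = 1)
    (h : (b * a) ^ 3 = 1) : a * b * a = b * a * b := by
  have ha' : a⁻¹ = a := inv_eq_of_mul_eq_one_left ha
  have hb' : b⁻¹ = b := inv_eq_of_mul_eq_one_left hb
  have h3 : (b * a * b) * (a * b * a) = 1 := by
    rw [← h]; simp only [pow_succ, pow_zero, one_mul, mul_assoc]
  have h4 := eq_inv_of_mul_eq_one_left h3
  rw [mul_inv_rev, mul_inv_rev, ha', hb', ← mul_assoc] at h4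
  exact h4.symm

lemma b1_of {H : Type*} [Group H] {u v : H} (hv : v * v = 1) (h : (u * v) ^ 3 = 1) :
    v * u * v = u⁻¹ * v * u⁻¹ := by
  have hv' : v⁻¹ = v := inv_eq_of_mul_eq_one_left hv
  have h3 : u * (v * u * v) * (u * v) = 1 := by
    rw [← h]; simp only [pow_succ, pow_zero, one_mul, mul_assoc]
  calc v * u * v = u⁻¹ * (u * (v * u * v) * (u * v)) * (u * v)⁻¹ := by group
    _ = u⁻¹ * v⁻¹ * u⁻¹ := by rw [h3]; group
    _ = u⁻¹ * v * u⁻¹ := by rw [hv']

lemma b2_of {H : Type*} [Group H] {u v : H} (hv : v * v = 1) (h : (u * v) ^ 3 = 1) :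
    v * u⁻¹ * v = u * v * u := by
  have h1 := b1_of hv h
  have hv' : v⁻¹ = v := inv_eq_of_mul_eq_one_left hv
  have h2 : (v * u * v)⁻¹ = (u⁻¹ * v * u⁻¹)⁻¹ := by rw [h1]
  simpa [mul_assoc, hv'] using h2

/-- From `Rel` to `Hyp`, reversing the indices. -/
lemma hyp_of_rel {H : Type*} [Group H] {m : ℕ} {y : ℕ → H} (h : Rel (m + 1) y) :
    Hyp (fun c => y (m - c)) m := by
  have invol : ∀ i, 1 ≤ i → i < m + 1 → y i * y i = 1 := by
    intro i h1 h2
    rw [← pow_two]; exact h.sq i h1 h2
  have comm_of : ∀ {a b : H}, a * a = 1 → b * b = 1 → (a * b) ^ 2 = 1 → a * b = b * a := by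
    intro a b ha hb hab
    have ha' : a⁻¹ = a := inv_eq_of_mul_eq_one_left ha
    have hb' : b⁻¹ = b := inv_eq_of_mul_eq_one_left hb
    have hab' : (a * b) * (a * b) = 1 := by rw [← pow_two]; exact hab
    have := eq_inv_of_mul_eq_one_left hab'
    rw [mul_inv_rev, ha', hb'] at this
    exact this
  refine ⟨?_, ?_, ?_, ?_, ?_, ?_, ?_⟩
  · intro a ha
    exact invol _ (by omega) (by omega)
  · simpa using h.cub (by omega)
  · intro a b hab hb
    have := h.fa (m - b) (m - a) (by omega) (by omega)
    have h2 := comm_of (invol (m - b) (by omega) (by omega)) (invol (m - a) (by omega) (by omega)) this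
    exact h2.symm
  · intro a ha
    have hf := h.fa 0 (m - a) (by omega) (by omega)
    have h1 := invol (m - a) (by omega) (by omega)
    change y (m - a) * y (m - m) = (y (m - m))⁻¹ * y (m - a)
    rw [Nat.sub_self]
    -- `y l * y 0 = (y 0)⁻¹ * y l`
    have h2 : (y 0 * y (m - a)) * (y 0 * y (m - a)) = 1 := by rw [← pow_two]; exact hf
    have h3 : y (m - a) * y 0 * y (m - a) = (y 0)⁻¹ := by
      apply eq_inv_of_mul_eq_one_right
      rw [← h2]; group
    calc y (m - a) * y 0 = (y (m - a) * y 0 * y (m - a)) * y (m - a) := by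
          rw [mul_assoc (y (m - a) * y 0), h1, mul_one]
      _ = (y 0)⁻¹ * y (m - a) := by rw [h3]
  · intro a ha
    change y (m - a) * y (m - (a + 1)) * y (m - a) = y (m - (a + 1)) * y (m - a) * y (m - (a + 1))
    have hi : m - (a + 1) + 1 = m - a := by omega
    have hb := h.br (m - (a + 1)) (by omega)
    rw [hi] at hb
    exact braid_of (invol (m - a) (by omega) (by omega)) (invol (m - (a + 1)) (by omega) (by omega)) hb
  · intro hm
    change y (m - (m - 1)) * y (m - m) * y (m - (m - 1)) = (y (m - m))⁻¹ * y (m - (m - 1)) * (y (m - m))⁻¹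
    have e1 : m - (m - 1) = 1 := by omega
    rw [e1, Nat.sub_self]
    have hb := h.br 0 (by omega)
    rw [zero_add] at hb
    exact b1_of (invol 1 (by omega) (by omega)) hb
  · intro hm
    change y (m - (m - 1)) * (y (m - m))⁻¹ * y (m - (m - 1)) = y (m - m) * y (m - (m - 1)) * y (m - m)
    have e1 : m - (m - 1) = 1 := by omega
    rw [e1, Nat.sub_self]
    have hb := h.br 0 (by omega)
    rw [zero_add] at hb
    exact b2_of (invol 1 (by omega) (by omega)) hb

/-! ### Upper bound on the order -/

/-- The inclusion of the presented groups. -/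
noncomputable def incl (k : ℕ) : Pres k →* Pres (k + 1) :=
  liftR k (gen (k + 1)) (gen_rel (k + 1)).mono

lemma closure_gen (k : ℕ) : Subgroup.closure ((fun c => gen (k + 1) (k - c)) '' {c | c ≤ k}) = ⊤ := by
  rw [eq_top_iff, ← PresentedGroup.closure_range_of]
  apply (Subgroup.closure_le _).mpr
  rintro _ ⟨i, rfl⟩
  apply Subgroup.subset_closure
  refine ⟨k - i.val, by simp, ?_⟩
  have hi := i.2
  have e1 : k - (k - i.val) = i.val := by omega
  simp only [e1]
  simp [gen, hi]

theorem card_step (k : ℕ) [Finite (Pres k)] :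
    Finite (Pres (k + 1)) ∧ Nat.card (Pres (k + 1)) ≤ (k + 3) * Nat.card (Pres k) := by
  set K := (incl k).range with hKdef
  have hK : ∀ c, 1 ≤ c → c ≤ k → gen (k + 1) (k - c) ∈ K := by
    intro c h1 h2
    have hlt : k - c < k := by omega
    refine ⟨gen k (k - c), ?_⟩
    simp only [gen, hlt, dif_pos]
    have hlt' : k - c < k + 1 := by omega
    simp only [hlt', dif_pos]
    exact liftR_of _ _ _ _ |>.trans (by simp [gen, hlt'])
  have hcov := cover (hyp_of_rel (gen_rel (k + 1))) K hK (closure_gen k)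
  -- surjection
  let f : K × Fin (k + 3) → Pres (k + 1) := fun p => (p.1 : Pres (k + 1)) *
    rep (fun c => gen (k + 1) (k - c)) k p.2.val
  have hf : Function.Surjective f := by
    intro x
    obtain ⟨t, ht, a, ha, rfl⟩ := hcov x
    exact ⟨(⟨a, ha⟩, ⟨t, by omega⟩), rfl⟩
  haveI : Finite K := Finite.of_surjective (fun x : Pres k => (⟨incl k x, x, rfl⟩ : K)) (by
    rintro ⟨_, x, rfl⟩
    exact ⟨x, rfl⟩)
  refine ⟨Finite.of_surjective f hf, ?_⟩
  calc Nat.card (Pres (k + 1)) ≤ Nat.card (K × Fin (k + 3)) := Nat.card_le_card_of_surjective f hf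
    _ = Nat.card K * (k + 3) := by simp [Nat.card_prod]
    _ ≤ Nat.card (Pres k) * (k + 3) := by
      apply Nat.mul_le_mul_right
      exact Nat.card_le_card_of_surjective (fun x : Pres k => (⟨incl k x, x, rfl⟩ : K)) (by
        rintro ⟨_, x, rfl⟩
        exact ⟨x, rfl⟩)
    _ = (k + 3) * Nat.card (Pres k) := mul_comm _ _

theorem card_bound : ∀ k : ℕ, Finite (Pres k) ∧ 2 * Nat.card (Pres k) ≤ (k + 2).factorial := by
  intro k
  induction k with
  | zero =>
    haveI : Subsingleton (Pres 0) := by
      refine ⟨fun a b => ?_⟩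
      induction a using QuotientGroup.induction_on with
      | H a =>
      induction b using QuotientGroup.induction_on with
      | H b =>
      congr 1
      exact Subsingleton.elim a b
    refine ⟨inferInstance, ?_⟩
    simp [Nat.card_unique, Nat.factorial]
  | succ k ih =>
    haveI := ih.1
    obtain ⟨h1, h2⟩ := card_step k
    refine ⟨h1, ?_⟩
    calc 2 * Nat.card (Pres (k + 1)) ≤ 2 * ((k + 3) * Nat.card (Pres k)) := by omega
      _ = (k + 3) * (2 * Nat.card (Pres k)) := by ring
      _ ≤ (k + 3) * (k + 2).factorial := Nat.mul_le_mul_left _ ih.2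
      _ = (k + 1 + 2).factorial := (Nat.factorial_succ (k + 2)).symm

/-! ### The permutations -/

section Perms

variable {α : Type*} [DecidableEq α]

lemma swap_cube [Fintype α] {a b c : α} (hab : a ≠ b) (hac : a ≠ c) (hbc : b ≠ c) :
    (swap a b * swap b c) ^ 3 = 1 := by
  have h : (swap b a * swap b c).IsThreeCycle :=
    Equiv.Perm.isThreeCycle_swap_mul_swap_same hab.symm hbc hac
  rw [swap_comm a b]
  rw [← h.orderOf]
  exact pow_orderOf_eq_one _

lemma swap_comm_disj {a b c d : α} (hac : a ≠ c) (had : a ≠ d) (hbc : b ≠ c) (hbd : b ≠ d) :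
    swap a b * swap c d = swap c d * swap a b := by
  ext x
  simp only [Equiv.Perm.coe_mul, Function.comp_apply]
  by_cases h1 : x = a
  · subst h1
    rw [swap_apply_of_ne_of_ne hac had, swap_apply_left, swap_apply_of_ne_of_ne hbc hbd]
  by_cases h2 : x = b
  · subst h2
    rw [swap_apply_of_ne_of_ne hbc hbd, swap_apply_right, swap_apply_of_ne_of_ne hac had]
  by_cases h3 : x = c
  · subst h3
    have e1 : swap a b d = d := swap_apply_of_ne_of_ne had.symm hbd.symm
    have e2 : swap a b x = x := swap_apply_of_ne_of_ne h1 h2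
    rw [swap_apply_left, e1, e2, swap_apply_left]
  by_cases h4 : x = d
  · subst h4
    have e1 : swap a b c = c := swap_apply_of_ne_of_ne hac.symm hbc.symm
    have e2 : swap a b x = x := swap_apply_of_ne_of_ne h1 h2
    rw [swap_apply_right, e1, e2, swap_apply_right]
  rw [swap_apply_of_ne_of_ne h3 h4, swap_apply_of_ne_of_ne h1 h2, swap_apply_of_ne_of_ne h3 h4]

lemma swap_sq_disj {a b c d : α} (hac : a ≠ c) (had : a ≠ d) (hbc : b ≠ c) (hbd : b ≠ d) :
    (swap a b * swap c d) ^ 2 = 1 := by
  rw [pow_two, mul_assoc, ← mul_assoc (swap c d), ← swap_comm_disj hac had hbc hbd, mul_assoc,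
    swap_mul_self, mul_one, swap_mul_self]

/-- Conjugating out the swap. -/
lemma swap_conj_middle {a b c d : α} {e : Equiv.Perm α} (hac : a ≠ c) (had : a ≠ d) (hbc : b ≠ c) (hbd : b ≠ d) :
    swap a b * swap c d * swap a b * e = swap c d * e := by
  rw [swap_comm_disj hac had hbc hbd, mul_assoc (swap c d), swap_mul_self, mul_one]

lemma swap_conj_adj {a b c : α} (_hab : a ≠ b) (hac : a ≠ c) (hbc : b ≠ c) :
    swap a b * swap b c * swap a b = swap a c := by
  have := Equiv.swap_mul_swap_mul_swap (x := c) (y := b) (z := a) hbc.symm hac.symm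
  rw [swap_comm a b, swap_comm b c, this, swap_comm]

end Perms

section Gens

variable (m : ℕ)

/-- The points. -/
def pt (i : ℕ) : Fin (m + 3) := Fin.ofNat (m + 3) i

lemma pt_ne {i j : ℕ} (hi : i < m + 3) (hj : j < m + 3) (h : i ≠ j) : pt m i ≠ pt m j := by
  intro h'
  have := congrArg Fin.val h'
  simp only [pt, Fin.ofNat, Nat.mod_eq_of_lt hi, Nat.mod_eq_of_lt hj] at this
  exact h this

/-- Adjacent swaps. -/
def sw (k : ℕ) : Equiv.Perm (Fin (m + 3)) := swap (pt m k) (pt m (k + 1))

/-- The generators of the alternating group. -/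
def xx (i : ℕ) : Equiv.Perm (Fin (m + 3)) := sw m 0 * sw m (i + 1)

lemma xx_rel : Rel (m + 1) (xx m) := by
  have P : ∀ {i j : ℕ}, i < m + 3 → j < m + 3 → i ≠ j → pt m i ≠ pt m j := fun hi hj h => pt_ne m hi hj h
  refine ⟨?_, ?_, ?_, ?_⟩
  · intro _
    exact swap_cube (P (by omega) (by omega) (by omega)) (P (by omega) (by omega) (by omega))
      (P (by omega) (by omega) (by omega))
  · intro i h1 h2
    exact swap_sq_disj (P (by omega) (by omega) (by omega)) (P (by omega) (by omega) (by omega))
      (P (by omega) (by omega) (by omega)) (P (by omega) (by omega) (by omega))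
  · intro i hi
    rcases Nat.eq_zero_or_pos i with rfl | h0
    · -- `x₀ x₁`
      have e1 : xx m 0 * xx m (0 + 1) = swap (pt m 0) (pt m 2) * swap (pt m 2) (pt m 3) := by
        change (sw m 0 * sw m 1) * (sw m 0 * sw m 2) = _
        have := swap_conj_adj (P (i := 0) (j := 1) (by omega) (by omega) (by omega))
          (P (i := 0) (j := 2) (by omega) (by omega) (by omega))
          (P (i := 1) (j := 2) (by omega) (by omega) (by omega))
        rw [← mul_assoc, show sw m 0 * sw m 1 * sw m 0 = swap (pt m 0) (pt m 2) from this]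
        rfl
      rw [e1]
      exact swap_cube (P (by omega) (by omega) (by omega)) (P (by omega) (by omega) (by omega))
        (P (by omega) (by omega) (by omega))
    · have e1 : xx m i * xx m (i + 1) = swap (pt m (i + 1)) (pt m (i + 2)) * swap (pt m (i + 2)) (pt m (i + 3)) := by
        change (swap (pt m 0) (pt m 1) * swap (pt m (i + 1)) (pt m (i + 2))) * (swap (pt m 0) (pt m 1) * swap (pt m (i + 2)) (pt m (i + 3))) = _
        rw [← mul_assoc]
        exact swap_conj_middle (P (by omega) (by omega) (by omega)) (P (by omega) (by omega) (by omega))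
          (P (by omega) (by omega) (by omega)) (P (by omega) (by omega) (by omega))
      rw [e1]
      exact swap_cube (P (by omega) (by omega) (by omega)) (P (by omega) (by omega) (by omega))
        (P (by omega) (by omega) (by omega))
  · intro i j hij hj
    rcases Nat.eq_zero_or_pos i with rfl | h0
    · have e1 : xx m 0 * xx m j = swap (pt m 0) (pt m 2) * swap (pt m (j + 1)) (pt m (j + 2)) := by
        change (sw m 0 * sw m 1) * (sw m 0 * sw m (j + 1)) = _
        have := swap_conj_adj (P (i := 0) (j := 1) (by omega) (by omega) (by omega))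
          (P (i := 0) (j := 2) (by omega) (by omega) (by omega))
          (P (i := 1) (j := 2) (by omega) (by omega) (by omega))
        rw [← mul_assoc, show sw m 0 * sw m 1 * sw m 0 = swap (pt m 0) (pt m 2) from this]
        rfl
      rw [e1]
      exact swap_sq_disj (P (by omega) (by omega) (by omega)) (P (by omega) (by omega) (by omega))
        (P (by omega) (by omega) (by omega)) (P (by omega) (by omega) (by omega))
    · have e1 : xx m i * xx m j = swap (pt m (i + 1)) (pt m (i + 2)) * swap (pt m (j + 1)) (pt m (j + 2)) := by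
        change (swap (pt m 0) (pt m 1) * swap (pt m (i + 1)) (pt m (i + 2))) * (swap (pt m 0) (pt m 1) * swap (pt m (j + 1)) (pt m (j + 2))) = _
        rw [← mul_assoc]
        exact swap_conj_middle (P (by omega) (by omega) (by omega)) (P (by omega) (by omega) (by omega))
          (P (by omega) (by omega) (by omega)) (P (by omega) (by omega) (by omega))
      rw [e1]
      exact swap_sq_disj (P (by omega) (by omega) (by omega)) (P (by omega) (by omega) (by omega))
        (P (by omega) (by omega) (by omega)) (P (by omega) (by omega) (by omega))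

/-- The map to the symmetric group. -/
noncomputable def phi : Pres (m + 1) →* Equiv.Perm (Fin (m + 3)) := liftR (m + 1) (xx m) (xx_rel m)

lemma phi_gen (i : ℕ) (hi : i < m + 1) : xx m i ∈ (phi m).range :=
  ⟨PresentedGroup.of ⟨i, hi⟩, liftR_of _ _ _ _⟩

lemma sign_sw (k : ℕ) (hk : k + 1 < m + 3) : Equiv.Perm.sign (sw m k) = -1 :=
  Equiv.Perm.sign_swap (pt_ne m (by omega) hk (by omega))

lemma phi_le : (phi m).range ≤ alternatingGroup (Fin (m + 3)) := by
  have h : (⊤ : Subgroup (Pres (m + 1))) ≤ (alternatingGroup (Fin (m + 3))).comap (phi m) := by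
    rw [← PresentedGroup.closure_range_of]
    apply (Subgroup.closure_le _).mpr
    rintro _ ⟨i, rfl⟩
    change phi m (PresentedGroup.of i) ∈ alternatingGroup (Fin (m + 3))
    have e1 : phi m (PresentedGroup.of i) = xx m i.val := liftR_of _ _ _ _
    rw [e1, Equiv.Perm.mem_alternatingGroup]
    have hi := i.2
    simp only [xx, map_mul]
    rw [sign_sw m 0 (by omega), sign_sw m (i.val + 1) (by omega)]
    decide
  rintro _ ⟨x, rfl⟩
  exact h (Subgroup.mem_top x)

lemma sw_mem (k : ℕ) (hk : k + 1 < m + 3) : sw m 0 * sw m k ∈ (phi m).range := by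
  rcases Nat.eq_zero_or_pos k with rfl | h0
  · change swap _ _ * swap _ _ ∈ _
    rw [swap_mul_self]
    exact Subgroup.one_mem _
  · obtain ⟨i, rfl⟩ : ∃ i, k = i + 1 := ⟨k - 1, by omega⟩
    exact phi_gen m i (by omega)

lemma all_mem (π : Equiv.Perm (Fin (m + 3))) :
    (Equiv.Perm.sign π = 1 → π ∈ (phi m).range) ∧ (Equiv.Perm.sign π = -1 → sw m 0 * π ∈ (phi m).range) := by
  have hs0 : sw m 0 * sw m 0 = 1 := swap_mul_self _ _
  have hs := Equiv.Perm.mclosure_swap_castSucc_succ (m + 2)
  refine Submonoid.induction_of_closure_eq_top_left hs π ?_ ?_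
  · refine ⟨fun _ => Subgroup.one_mem _, fun h => absurd h (by simp)⟩
  · rintro _ ⟨i, rfl⟩ y ⟨h1, h2⟩
    have hi := i.2
    have e : swap i.castSucc i.succ = sw m i.val := by
      unfold sw
      congr 1
      · ext; simp [pt, Fin.ofNat, Nat.mod_eq_of_lt (show i.val < m + 3 by omega)]
      · ext; simp [pt, Fin.ofNat, Nat.mod_eq_of_lt (show i.val + 1 < m + 3 by omega)]
    rw [show (fun i : Fin (m + 2) => swap i.castSucc i.succ) i = sw m i.val from e]
    have hsgn := sign_sw m i.val (by omega)
    have hmem := sw_mem m i.val (by omega)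
    have hmem' : sw m i.val * sw m 0 ∈ (phi m).range := by
      have := (phi m).range.inv_mem hmem
      rw [mul_inv_rev, show (sw m 0)⁻¹ = sw m 0 from swap_inv _ _, show (sw m i.val)⁻¹ = sw m i.val from swap_inv _ _] at this
      exact this
    constructor
    · intro hy
      rw [map_mul, hsgn] at hy
      have hy' : Equiv.Perm.sign y = -1 := by
        rcases Int.units_eq_one_or (Equiv.Perm.sign y) with h | h
        · rw [h] at hy; exact absurd hy (by decide)
        · exact h
      have := (phi m).range.mul_mem hmem' (h2 hy')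
      have e2 : sw m i.val * sw m 0 * (sw m 0 * y) = sw m i.val * y := by
        rw [mul_assoc, ← mul_assoc (sw m 0), hs0, one_mul]
      rwa [e2] at this
    · intro hy
      rw [map_mul, hsgn] at hy
      have hy' : Equiv.Perm.sign y = 1 := by
        rcases Int.units_eq_one_or (Equiv.Perm.sign y) with h | h
        · exact h
        · rw [h] at hy; exact absurd hy (by decide)
      have := (phi m).range.mul_mem hmem (h1 hy')
      rwa [mul_assoc] at this

/-- The surjection onto the alternating group. -/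
noncomputable def psi : Pres (m + 1) →* alternatingGroup (Fin (m + 3)) :=
  (phi m).codRestrict _ (fun x => phi_le m ⟨x, rfl⟩)

lemma psi_surj : Function.Surjective (psi m) := by
  rintro ⟨π, hπ⟩
  obtain ⟨x, hx⟩ := (all_mem m π).1 hπ
  exact ⟨x, Subtype.ext hx⟩

lemma psi_bij : Function.Bijective (psi m) := by
  obtain ⟨hfin, hcard⟩ := card_bound (m + 1)
  apply Function.Surjective.bijective_of_nat_card_le (psi_surj m)
  have h2 := two_mul_nat_card_alternatingGroup (α := Fin (m + 3))
  rw [Nat.card_perm, Nat.card_fin] at h2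
  have : (m + 1 + 2) = m + 3 := rfl
  rw [this] at hcard
  omega

end Gens

/-- A presentation of the alternating group of degree n ≥ 3 on generators x_1, …, x_{n−2} (indexed here by 0, …, n−3): the first generator cubes to 1, every other generator squares to 1, the product of two consecutive generators has order dividing 3, and the product of two generators at distance at least 2 has order dividing 2. The group so presented is isomorphic to the alternating group of degree n. -/
theorem result (n : ℕ) (hn : 3 ≤ n) :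
    Nonempty (PresentedGroup
      ({g : FreeGroup (Fin (n - 2)) | ∃ i : Fin (n - 2), i.val = 0 ∧ g = FreeGroup.of i ^ 3} ∪
       {g | ∃ i : Fin (n - 2), 1 ≤ i.val ∧ g = FreeGroup.of i ^ 2} ∪
       {g | ∃ i j : Fin (n - 2), j.val = i.val + 1 ∧ g = (FreeGroup.of i * FreeGroup.of j) ^ 3} ∪
       {g | ∃ i j : Fin (n - 2), i.val + 1 < j.val ∧ g = (FreeGroup.of i * FreeGroup.of j) ^ 2})
      ≃* alternatingGroup (Fin n)) := by
  obtain ⟨m, rfl⟩ : ∃ m, n = m + 3 := ⟨n - 3, by omega⟩
  exact ⟨MulEquiv.ofBijective (psi m) (psi_bij m)⟩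

end Cfsg.Agent.S3335
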