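import Cfsg.Statements.S3349
import Mathlib
import Cfsg.Agent.Lib.PGroup.KInf

set_option autoImplicit false
open Cfsg
open scoped commutatorElement

namespace Cfsg.Agent.S3349

/-- Let Q be a finite extraspecial p-group and α an automorphism of Q fixing every element of some maximal abelian subgroup of Q. Then the order of α is a power of p. -/
theorem result {Q : Type*} [Group Q] [Finite Q]
    (p : ℕ) [Fact p.Prime] (hQ : Cfsg.IsExtraspecial p Q) (α : MulAut Q)
    (A : Subgroup Q) (hA : IsMulCommutative A) (hmax : ∀ B : Subgroup Q, A ≤ B → IsMulCommutative B → B = A)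
    (hfix : ∀ a ∈ A, α a = a) :
    ∃ k : ℕ, orderOf α = p ^ k := by
  classical
  obtain ⟨⟨hP, -, hcomm⟩, -⟩ := hQ
  -- commutators are central
  have hcen : ∀ x y : Q, ⁅x, y⁆ ∈ Subgroup.center Q := by
    intro x y
    rw [← hcomm]
    exact Subgroup.commutator_mem_commutator (Subgroup.mem_top x) (Subgroup.mem_top y)
  -- `A` contains the centre
  have hZA : Subgroup.center Q ≤ A := by
    intro z hz
    have hB : A ≤ A ⊔ Subgroup.center Q := le_sup_left
    have hcommB : IsMulCommutative ↥(A ⊔ Subgroup.center Q) := by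
      refine ⟨⟨?_⟩⟩
      rintro ⟨a, ha⟩ ⟨b, hb⟩
      apply Subtype.ext
      obtain ⟨a1, ha1, z1, hz1, rfl⟩ := Subgroup.mem_sup_of_normal_right.mp ha
      obtain ⟨a2, ha2, z2, hz2, rfl⟩ := Subgroup.mem_sup_of_normal_right.mp hb
      have h1 : a1 * a2 = a2 * a1 := congrArg Subtype.val (hA.is_comm.comm ⟨a1, ha1⟩ ⟨a2, ha2⟩)
      have hc1 : ∀ x, Commute z1 x := fun x => (Subgroup.mem_center_iff.mp hz1 x).symm
      have hc2 : ∀ x, Commute z2 x := fun x => (Subgroup.mem_center_iff.mp hz2 x).symm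
      have : Commute (a1 * z1) (a2 * z2) :=
        Commute.mul_left (Commute.mul_right h1 (hc2 a1).symm) (hc1 _)
      exact this
    have := hmax _ hB hcommB
    rw [← this]
    exact Subgroup.mem_sup_right hz
  -- `C(A) ≤ A`
  have hCA : ∀ x : Q, (∀ a ∈ A, x * a = a * x) → x ∈ A := by
    intro x hx
    have hxc : x ∈ Subgroup.centralizer (A : Set Q) :=
      Subgroup.mem_centralizer_iff.mpr fun a ha => (hx a ha).symm
    have hB : A ≤ A ⊔ Subgroup.zpowers x := le_sup_left
    have hcommB : IsMulCommutative ↥(A ⊔ Subgroup.zpowers x) := by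
      refine ⟨⟨?_⟩⟩
      rintro ⟨g, hg⟩ ⟨h, hh⟩
      apply Subtype.ext
      obtain ⟨a1, ha1, k, rfl⟩ := Cfsg.Agent.Lib.PGroup.KInf.exists_mul_of_mem_sup_zpowers hxc hg
      obtain ⟨a2, ha2, l, rfl⟩ := Cfsg.Agent.Lib.PGroup.KInf.exists_mul_of_mem_sup_zpowers hxc hh
      have h1 : Commute a1 a2 := congrArg Subtype.val (hA.is_comm.comm ⟨a1, ha1⟩ ⟨a2, ha2⟩)
      have h2 : Commute x a1 := hx a1 ha1
      have h3 : Commute x a2 := hx a2 ha2
      have h4 : Commute (x ^ k) (x ^ l) := Commute.zpow_zpow_self x k l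
      have : Commute (a1 * x ^ k) (a2 * x ^ l) := by
        apply Commute.mul_left
        · exact h1.mul_right (h2.symm.zpow_right l)
        · exact (h3.zpow_left k).mul_right h4
      exact this
    have := hmax _ hB hcommB
    rw [← this]
    exact Subgroup.mem_sup_right (Subgroup.mem_zpowers x)
  -- `α` fixes commutators
  have hfixZ : ∀ z ∈ Subgroup.center Q, α z = z := fun z hz => hfix z (hZA hz)
  -- the map `f`
  have hf : ∀ q : Q, q⁻¹ * α q ∈ A := by
    intro q
    apply hCA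
    intro a ha
    have h1 : ⁅α q, a⁆ = ⁅q, a⁆ := by
      have : α ⁅q, a⁆ = ⁅α q, α a⁆ := map_commutatorElement α q a
      rw [hfix a ha] at this
      rw [← this]
      exact hfixZ _ (hcen q a)
    have h2 : α q * a * (α q)⁻¹ = q * a * q⁻¹ := by
      have h3 : α q * a * (α q)⁻¹ * a⁻¹ = q * a * q⁻¹ * a⁻¹ := h1
      exact mul_right_cancel h3
    calc q⁻¹ * α q * a = q⁻¹ * (α q * a * (α q)⁻¹) * α q := by group
      _ = q⁻¹ * (q * a * q⁻¹) * α q := by rw [h2]
      _ = a * (q⁻¹ * α q) := by group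
  have hpow : ∀ (n : ℕ) (q : Q), (α ^ n) q = q * (q⁻¹ * α q) ^ n := by
    intro n q
    have hfq := hfix _ (hf q)
    induction n with
    | zero => simp
    | succ n ih =>
      rw [pow_succ']
      change α ((α ^ n) q) = _
      rw [ih, map_mul, map_pow, hfq, pow_succ', ← mul_assoc, mul_inv_cancel_left]
  obtain ⟨m, hm⟩ := IsPGroup.iff_card.mp hP
  have hαm : α ^ (p ^ m) = 1 := by
    ext q
    rw [hpow]
    rw [← hm, pow_card_eq_one']
    simp
  have hd : orderOf α ∣ p ^ m := orderOf_dvd_of_pow_eq_one hαm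
  obtain ⟨k, -, hk⟩ := (Nat.dvd_prime_pow (Fact.out : p.Prime)).mp hd
  exact ⟨k, hk⟩

end Cfsg.Agent.S3349
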