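import Cfsg.Statements.S3366
import Cfsg.Agent.Lib.Basic.PCore
import Cfsg.Agent.Lib.Classical.Lin.Heis648X
import Cfsg.Agent.Lib.Classical.Lin.Heis648Sp

set_option autoImplicit false
open Cfsg

namespace Cfsg.Agent.S3366

open Cfsg.Agent.Lib.Classical.Lin.Heis648 Cfsg.Agent.Lib.Classical.Lin.Heis648X
  Cfsg.Agent.Lib.Classical.Lin.Heis648Sp
open scoped commutatorElement

/-- The context from the hypotheses. -/
theorem ctx {X : Type*} [Group X] [Finite X]
    (hR : Cfsg.IsExtraspecial 3 (Cfsg.pCore 3 X)) (hRcard : Nat.card (Cfsg.pCore 3 X) = 27)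
    (hRexp : ∀ r ∈ Cfsg.pCore 3 X, r ^ 3 = 1)
    (e : X ⧸ Cfsg.pCore 3 X ≃* Matrix.SpecialLinearGroup (Fin 2) (ZMod 3))
    (hO2 : Cfsg.pCore 2 X = ⊥)
    (hE : ∃ E : Subgroup X, IsMulCommutative E ∧ (∀ a ∈ E, a ^ 3 = 1) ∧ Nat.card E = 27) :
    Ctx (Cfsg.pCore 3 X) (e.toMonoidHom.comp (QuotientGroup.mk' (Cfsg.pCore 3 X))) := by
  set R := Cfsg.pCore 3 X with hRd
  haveI : R.Normal := Cfsg.Agent.Lib.Basic.PCore.pCore_normal 3 X
  have hcenter : ∀ w : R, w ∈ Subgroup.center R → w.1 ∈ ZZ R := by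
    intro w hw
    rw [mem_ZZ]
    refine ⟨w.2, fun r hr => ?_⟩
    have := Subgroup.mem_center_iff.1 hw ⟨r, hr⟩
    exact congrArg Subtype.val this
  have hcomm := hR.1.2.2
  have hZc : Nat.card (ZZ R) = 3 := by
    rw [← hR.2]
    have hinj : Function.Injective (fun w : Subgroup.center R => (⟨w.1.1, hcenter w.1 w.2⟩ : ZZ R)) := by
      intro a b h
      exact Subtype.ext (Subtype.ext (show a.1.1 = b.1.1 from congrArg (fun v : ZZ R => v.1) h))
    have hsurj : Function.Surjective (fun w : Subgroup.center R => (⟨w.1.1, hcenter w.1 w.2⟩ : ZZ R)) := by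
      rintro ⟨w, hw⟩
      rw [mem_ZZ] at hw
      refine ⟨⟨⟨w, hw.1⟩, ?_⟩, rfl⟩
      rw [Subgroup.mem_center_iff]
      rintro ⟨r, hr⟩
      exact Subtype.ext (hw.2 r hr)
    exact (Nat.card_congr (Equiv.ofBijective _ ⟨hinj, hsurj⟩)).symm
  exact
    { Rn := inferInstance
      ker := by
        intro x
        simp only [MonoidHom.comp_apply, QuotientGroup.mk'_apply, MulEquiv.coe_toMonoidHom, EmbeddingLike.map_eq_one_iff]
        exact QuotientGroup.eq_one_iff x
      surj := e.surjective.comp (QuotientGroup.mk'_surjective R)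
      Rcard := hRcard
      Xcard := by
        have h1 := Subgroup.card_eq_card_quotient_mul_card_subgroup R
        rw [Nat.card_congr e.toEquiv, hRcard, card_SL2] at h1
        exact h1
      Rexp := hRexp
      Zcard := hZc
      comm := by
        intro r hr s hs
        have h1 : ⁅(⟨r, hr⟩ : R), (⟨s, hs⟩ : R)⁆ ∈ commutator R :=
          Subgroup.commutator_mem_commutator (Subgroup.mem_top _) (Subgroup.mem_top _)
        rw [hcomm] at h1
        exact hcenter _ h1
      noInv := by
        intro u hu hu2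
        by_contra hu1
        haveI : Fact (Nat.Prime 2) := ⟨by norm_num⟩
        have ho : orderOf u = 2 := orderOf_eq_prime hu2 hu1
        have hn : (Subgroup.zpowers u).Normal := by
          constructor
          intro n hn g
          obtain ⟨k, rfl⟩ := Subgroup.mem_zpowers_iff.1 hn
          have : g * u ^ k * g⁻¹ = u ^ k := by
            rw [((show Commute g u from hu g).zpow_right k).eq, mul_inv_cancel_right]
          rw [this]
          exact Subgroup.zpow_mem_zpowers _ _
        have hp : IsPGroup 2 (Subgroup.zpowers u) := by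
          apply IsPGroup.of_card (n := 1)
          rw [Nat.card_zpowers, pow_one, ho]
        have := Cfsg.Agent.Lib.Basic.PCore.le_pCore hn hp (Subgroup.mem_zpowers u)
        rw [hO2] at this
        exact hu1 ((Subgroup.mem_bot).1 this)
      nonab := by
        by_contra hall
        push Not at hall
        have h1 : Subgroup.center R = ⊤ := by
          rw [eq_top_iff]
          rintro ⟨r, hr⟩ -
          rw [Subgroup.mem_center_iff]
          rintro ⟨s, hs⟩
          exact Subtype.ext (hall s hs r hr)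
        have h2 := hR.2
        rw [h1, Subgroup.card_top, hRcard] at h2
        norm_num at h2
      hE := hE }

/-- Let X be a finite group with O₃(X) extraspecial of order 27 and exponent 3, X/O₃(X) isomorphic to SL(2,3), O₂(X) = 1, and a Sylow 3-subgroup of X containing an elementary abelian subgroup of order 27. Then X is isomorphic to the centralizer in PSp(4,3) of a 3-central element of order 3 (an element of order 3 in the centre of a Sylow 3-subgroup). -/
theorem result {X : Type*} [Group X] [Finite X]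
    (hR : Cfsg.IsExtraspecial 3 (Cfsg.pCore 3 X)) (hRcard : Nat.card (Cfsg.pCore 3 X) = 27)
    (hRexp : ∀ r ∈ Cfsg.pCore 3 X, r ^ 3 = 1)
    (e : X ⧸ Cfsg.pCore 3 X ≃* Matrix.SpecialLinearGroup (Fin 2) (ZMod 3))
    (hO2 : Cfsg.pCore 2 X = ⊥)
    (hE : ∃ E : Subgroup X, IsMulCommutative E ∧ (∀ a ∈ E, a ^ 3 = 1) ∧ Nat.card E = 27)
    (F : Type*) [Field F] [Fintype F] (hF : Fintype.card F = 3) :
    ∃ (c : Cfsg.PSp 2 F) (S : Sylow 3 (Cfsg.PSp 2 F)), orderOf c = 3 ∧ c ∈ (S : Subgroup (Cfsg.PSp 2 F)) ∧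
      c ∈ Subgroup.centralizer ((S : Subgroup (Cfsg.PSp 2 F)) : Set (Cfsg.PSp 2 F)) ∧
      Nonempty (X ≃* Subgroup.centralizer ({c} : Set (Cfsg.PSp 2 F))) := by
  obtain ⟨L, a, b, z, t, Fr⟩ := exists_frame (ctx hR hRcard hRexp e hO2 hE)
  let ι : ZMod 3 ≃+* F := FiniteField.ringEquivOfCardEq (by rw [ZMod.card, hF])
  obtain ⟨c, hc, G, hGb, hGm⟩ := model ι
  let φ : T ≃ X := Equiv.ofBijective Fr.ff Fr.ff_bijective
  let ψ : T ≃ Subgroup.centralizer ({c} : Set (Cfsg.PSp 2 F)) := Equiv.ofBijective G hGb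
  have hcard : Nat.card (Subgroup.centralizer ({c} : Set (Cfsg.PSp 2 F))) = 648 := by
    rw [← Nat.card_congr ψ, card_T]
  obtain ⟨S, hS1, hS2⟩ := exists_sylow (card_psp hF) c hc hcard
  refine ⟨c, S, hc, hS1, hS2, ⟨MulEquiv.mk (φ.symm.trans ψ) ?_⟩⟩
  intro x y
  obtain ⟨s, rfl⟩ := φ.surjective x
  obtain ⟨s', rfl⟩ := φ.surjective y
  have e1 : φ s * φ s' = φ (tmul s s') := (Fr.ff_mul s s').symm
  simp only [Equiv.toFun_as_coe, Equiv.trans_apply, Equiv.symm_apply_apply]
  rw [e1]
  simp only [Equiv.symm_apply_apply]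
  exact hGm s s'

end Cfsg.Agent.S3366
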