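import Cfsg.Statements.S3380
import Mathlib
import Cfsg.Agent.Lib.PGroup.Critical
import Cfsg.Agent.Lib.PGroup.CyclicMax2
import Cfsg.Agent.Lib.PGroup.Basic
import Cfsg.Agent.S0519
import Cfsg.Agent.S3053

set_option autoImplicit false
open Cfsg

namespace Cfsg.Agent.S3380

open Subgroup
open scoped commutatorElement

section PZ
variable {G : Type*} [Group G] {p : ℕ} [hp : Fact p.Prime]

/-- powers indexed by `ZMod p`. -/
def pz (y : G) (i : ZMod p) : G := y ^ i.val

theorem pz_add {y : G} (hy : y ^ p = 1) (i j : ZMod p) : pz y (i + j) = pz y i * pz y j := by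
  unfold pz
  rw [ZMod.val_add, ← pow_eq_pow_mod _ hy, pow_add]

theorem pz_zero (y : G) : pz y (0 : ZMod p) = 1 := by
  unfold pz
  simp

theorem pz_one (y : G) : pz y (1 : ZMod p) = y := by
  unfold pz
  rw [ZMod.val_one_eq_one_mod, Nat.mod_eq_of_lt hp.out.one_lt, pow_one]

theorem pz_pz {y : G} (hy : y ^ p = 1) (i j : ZMod p) : (pz y i) ^ j.val = pz y (i * j) := by
  unfold pz
  rw [ZMod.val_mul, ← pow_eq_pow_mod _ hy, pow_mul]

theorem pz_inj {y : G} (hy : y ^ p = 1) (hy1 : y ≠ 1) {i j : ZMod p} (h : pz y i = pz y j) : i = j := by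
  have hor : orderOf y = p := orderOf_eq_prime hy hy1
  unfold pz at h
  have h1 : y ^ i.val = y ^ j.val := h
  have := pow_injOn_Iio_orderOf (x := y) (by rw [Set.mem_Iio, hor]; exact ZMod.val_lt i)
    (by rw [Set.mem_Iio, hor]; exact ZMod.val_lt j) h1
  exact ZMod.val_injective p this

theorem mem_zpowers_pz [Finite G] {y w : G} (hy : y ^ p = 1) (hw : w ∈ zpowers y) :
    ∃ i : ZMod p, w = pz y i := by
  have hfin : IsOfFinOrder y := isOfFinOrder_iff_pow_eq_one.mpr ⟨p, hp.out.pos, hy⟩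
  have hw' : w ∈ Submonoid.powers y := by
    rw [hfin.mem_powers_iff_mem_zpowers]; exact hw
  obtain ⟨n, rfl⟩ := hw'
  refine ⟨(n : ZMod p), ?_⟩
  unfold pz
  rw [ZMod.val_natCast, ← pow_eq_pow_mod _ hy]

theorem pz_mem (y : G) (i : ZMod p) : pz y i ∈ zpowers y := by
  unfold pz
  exact npow_mem_zpowers y _

end PZ

section Rep
variable {G V : Type*} [Group G] {q p : ℕ} [hq : Fact q.Prime] [hp : Fact p.Prime]
  [AddCommGroup V] [Module (ZMod q) V]
  (ρ : G →* (V ≃ₗ[ZMod q] V))

/-- averaging operator -/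
noncomputable def avg (y : G) : V →ₗ[ZMod q] V :=
  ∑ j : ZMod p, ((ρ (pz y j) : V ≃ₗ[ZMod q] V) : V →ₗ[ZMod q] V)

theorem avg_apply (y : G) (v : V) : avg (p := p) ρ y v = ∑ j : ZMod p, ρ (pz y j) v := by
  unfold avg
  rw [LinearMap.sum_apply]
  rfl

/-- fixed space -/
def fixedSp (y : G) : Submodule (ZMod q) V where
  carrier := {v | ρ y v = v}
  add_mem' := by
    intro a b ha hb
    show ρ y (a + b) = a + b
    have ha' : ρ y a = a := ha
    have hb' : ρ y b = b := hb
    rw [map_add, ha', hb']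
  zero_mem' := by
    show ρ y 0 = 0
    simp
  smul_mem' := by
    intro c a ha
    show ρ y (c • a) = c • a
    have ha' : ρ y a = a := ha
    rw [map_smul, ha']

theorem mem_fixedSp {y : G} {v : V} : v ∈ fixedSp ρ y ↔ ρ y v = v := Iff.rfl

theorem rho_mul (a b : G) (v : V) : ρ (a * b) v = ρ a (ρ b v) := by
  rw [map_mul]; rfl

theorem avg_fixed {y : G} (hy : y ^ p = 1) (v : V) : avg (p := p) ρ y v ∈ fixedSp ρ y := by
  rw [mem_fixedSp, avg_apply, map_sum]
  refine Fintype.sum_equiv (Equiv.addLeft (1 : ZMod p)) _ _ ?_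
  intro j
  show ρ y (ρ (pz y j) v) = ρ (pz y (1 + j)) v
  rw [pz_add hy, pz_one, rho_mul]

theorem avg_of_fixed {y : G} {v : V} (hv : v ∈ fixedSp ρ y) : avg (p := p) ρ y v = (p : ZMod q) • v := by
  have hv' : ρ y v = v := hv
  have hall : ∀ n : ℕ, ρ (y ^ n) v = v := by
    intro n
    induction n with
    | zero => simp
    | succ n ih => rw [pow_succ, rho_mul, hv', ih]
  rw [avg_apply]
  have : ∀ j : ZMod p, ρ (pz y j) v = v := fun j => hall _
  simp only [this]
  rw [Finset.sum_const, Finset.card_univ, ZMod.card, Nat.cast_smul_eq_nsmul]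

end Rep

section Core
variable {G V : Type*} [Group G] [Finite G] {q p : ℕ} [hq : Fact q.Prime] [hp : Fact p.Prime]
  [AddCommGroup V] [Module (ZMod q) V]
  (ρ : G →* (V ≃ₗ[ZMod q] V)) (hρ : Function.Injective ρ)
  (hirr : ∀ W : Submodule (ZMod q) V, (∀ g : G, ∀ w ∈ W, ρ g w ∈ W) → W = ⊥ ∨ W = ⊤)

include hρ hirr in
theorem fixed_central {z : G} (hz1 : z ≠ 1) (hzc : ∀ g, g * z = z * g) : fixedSp ρ z = ⊥ := by
  rcases hirr (fixedSp ρ z) (by
      intro g w hw
      show ρ z (ρ g w) = ρ g w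
      have hw' : ρ z w = w := hw
      rw [← rho_mul, ← hzc g, rho_mul, hw']) with h | h
  · exact h
  · exfalso
    apply hz1
    apply hρ
    rw [map_one]
    ext v
    have : v ∈ fixedSp ρ z := by rw [h]; trivial
    exact this

include hρ hirr in
theorem avg_central_zero {z : G} (hzp : z ^ p = 1) (hz1 : z ≠ 1) (hzc : ∀ g, g * z = z * g) (v : V) :
    avg (p := p) ρ z v = 0 := by
  have h := avg_fixed (p := p) ρ hzp v
  rw [fixed_central ρ hρ hirr hz1 hzc] at h
  simpa using h

section Y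
variable {x z : G} (hzp : z ^ p = 1) (hzc : ∀ g, g * z = z * g) (hxp : x ^ p = 1)

/-- the generators of the lines other than the central one -/
def yy (x z : G) (i : ZMod p) : G := x * pz z i

omit hp in
theorem pz_central (z : G) (hzc : ∀ g, g * z = z * g) (i : ZMod p) (g : G) : g * pz z i = pz z i * g := by
  unfold pz
  exact (Commute.pow_right (hzc g) _)

include hzp hzc hxp in
theorem yy_pow (i : ZMod p) : (yy x z i) ^ p = 1 := by
  unfold yy
  rw [Commute.mul_pow (pz_central z hzc i x)]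
  unfold pz
  rw [hxp, one_mul, ← pow_mul, mul_comm, pow_mul, hzp, one_pow]

include hzp hzc in
theorem pz_yy (i j : ZMod p) : pz (yy x z i) j = x ^ j.val * pz z (i * j) := by
  show (yy x z i) ^ j.val = _
  unfold yy
  rw [Commute.mul_pow (pz_central z hzc i x), pz_pz hzp]

include hρ hirr hzp hzc hxp in
theorem sum_avg (hz1 : z ≠ 1) (v : V) : ∑ i : ZMod p, avg (p := p) ρ (yy x z i) v = (p : ZMod q) • v := by
  simp only [avg_apply, pz_yy hzp hzc, rho_mul]
  rw [Finset.sum_comm]
  rw [Finset.sum_eq_single (0 : ZMod p)]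
  · simp only [mul_zero, pz_zero]
    simp only [map_one]
    show ∑ i : ZMod p, (ρ (x ^ (0 : ZMod p).val)) (v) = _
    simp only [ZMod.val_zero, pow_zero, map_one]
    show ∑ _i : ZMod p, v = _
    rw [Finset.sum_const, Finset.card_univ, ZMod.card, Nat.cast_smul_eq_nsmul]
  · intro j _ hj
    rw [← map_sum]
    have h1 : ∑ i : ZMod p, ρ (pz z (i * j)) v = avg (p := p) ρ z v := by
      rw [avg_apply]
      exact Fintype.sum_equiv (Equiv.mulRight₀ j hj) _ _ (fun i => rfl)
    rw [h1, avg_central_zero ρ hρ hirr hzp hz1 hzc, map_zero]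
  · intro h
    exact absurd (Finset.mem_univ _) h

include hρ hirr hzp hzc in
theorem avg_vanish (hz1 : z ≠ 1) {i k : ZMod p} (hik : i ≠ k) {w : V} (hw : w ∈ fixedSp ρ (yy x z k)) :
    avg (p := p) ρ (yy x z i) w = 0 := by
  have hw' : ρ (yy x z k) w = w := hw
  have hall : ∀ n : ℕ, ρ ((yy x z k) ^ n) w = w := by
    intro n
    induction n with
    | zero => simp
    | succ n ih => rw [pow_succ, rho_mul, hw', ih]
  have hterm : ∀ j : ZMod p, ρ (pz (yy x z i) j) w = ρ (pz z ((i - k) * j)) w := by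
    intro j
    have h1 : pz (yy x z i) j = pz z ((i - k) * j) * (yy x z k) ^ j.val := by
      have h2 : (yy x z k) ^ j.val = x ^ j.val * pz z (k * j) := pz_yy hzp hzc k j
      rw [pz_yy hzp hzc, h2, (pz_central z hzc _ _).symm, mul_assoc, ← pz_add hzp]
      congr 2
      ring
    rw [h1, rho_mul, hall]
  rw [avg_apply]
  simp only [hterm]
  have h1 : ∑ j : ZMod p, ρ (pz z ((i - k) * j)) w = avg (p := p) ρ z w := by
    rw [avg_apply]
    exact Fintype.sum_equiv (Equiv.mulLeft₀ (i - k) (sub_ne_zero.mpr hik)) _ _ (fun i => rfl)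
  rw [h1, avg_central_zero ρ hρ hirr hzp hz1 hzc]

include hρ hirr hzp hzc hxp in
theorem iSup_eq_top (hz1 : z ≠ 1) (hqp : (p : ZMod q) ≠ 0) : ⨆ i : ZMod p, fixedSp ρ (yy x z i) = ⊤ := by
  rw [eq_top_iff]
  intro v _
  have h1 := sum_avg ρ hρ hirr hzp hzc hxp hz1 v
  have h2 : (p : ZMod q) • v ∈ ⨆ i : ZMod p, fixedSp ρ (yy x z i) := by
    rw [← h1]
    refine Submodule.sum_mem _ (fun i _ => ?_)
    exact (le_iSup (fun i : ZMod p => fixedSp ρ (yy x z i)) i) (avg_fixed ρ (yy_pow hzp hzc hxp i) v)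
  have h3 := Submodule.smul_mem _ ((p : ZMod q)⁻¹) h2
  rwa [smul_smul, inv_mul_cancel₀ hqp, one_smul] at h3

include hρ hirr hzp hzc in
theorem indep (hz1 : z ≠ 1) (hqp : (p : ZMod q) ≠ 0) : iSupIndep (fun i : ZMod p => fixedSp ρ (yy x z i)) := by
  intro i
  rw [Submodule.disjoint_def]
  intro w hw hw2
  have hle : (⨆ (j : ZMod p) (_ : j ≠ i), fixedSp ρ (yy x z j)) ≤ LinearMap.ker (avg (p := p) ρ (yy x z i)) := by
    refine iSup₂_le (fun j hj => ?_)
    intro u hu
    rw [LinearMap.mem_ker]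
    exact avg_vanish ρ hρ hirr hzp hzc hz1 hj.symm hu
  have h0 : avg (p := p) ρ (yy x z i) w = 0 := hle hw2
  rw [avg_of_fixed ρ hw] at h0
  exact (smul_eq_zero.mp h0).resolve_left hqp

end Y

end Core

section Main
variable {G V : Type*} [Group G] [Finite G] {q p : ℕ} [hq : Fact q.Prime] [hp : Fact p.Prime]
  [AddCommGroup V] [Module (ZMod q) V] [Nontrivial V]
  (ρ : G →* (V ≃ₗ[ZMod q] V)) (hρ : Function.Injective ρ)
  (hirr : ∀ W : Submodule (ZMod q) V, (∀ g : G, ∀ w ∈ W, ρ g w ∈ W) → W = ⊥ ∨ W = ⊤)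

include hρ hirr in
theorem main_core {x z : G} (hzp : z ^ p = 1) (hzc : ∀ g, g * z = z * g) (hxp : x ^ p = 1) (hz1 : z ≠ 1)
    (hxz : x ∉ zpowers z) (hqp : (p : ZMod q) ≠ 0) (hcomm : ∀ g : G, ∃ i : ZMod p, g * x * g⁻¹ = x * pz z i) :
    ∃ (H : Subgroup G) (W : Fin p → Submodule (ZMod q) V), H.index = p ∧
      iSup W = ⊤ ∧ iSupIndep W ∧
      (∀ h ∈ H, ∀ i, ∀ w ∈ W i, ρ h w ∈ W i) ∧
      (∀ i, ∃ h ∈ H, h ≠ 1 ∧ ∀ w ∈ W i, ρ h w = w) ∧
      ∀ g : G, g ∉ H → ∃ σ : Equiv.Perm (Fin p), orderOf σ = p ∧ ∀ i, (W i).map (ρ g : V →ₗ[ZMod q] V) = W (σ i) := by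
  classical
  have hp1 := hp.out
  choose c hc using hcomm
  have hcinj : ∀ i j : ZMod p, x * pz z i = x * pz z j → i = j := fun i j h =>
    pz_inj hzp hz1 (mul_left_cancel h)
  have hcmul : ∀ g h : G, c (g * h) = c g + c h := by
    intro g h
    apply hcinj
    rw [← hc (g * h), pz_add hzp]
    calc g * h * x * (g * h)⁻¹ = g * (h * x * h⁻¹) * g⁻¹ := by group
      _ = g * (x * pz z (c h)) * g⁻¹ := by rw [hc h]
      _ = g * x * (pz z (c h) * g⁻¹) := by group
      _ = g * x * (g⁻¹ * pz z (c h)) := by rw [pz_central z hzc _ g⁻¹]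
      _ = (g * x * g⁻¹) * pz z (c h) := by group
      _ = x * (pz z (c g) * pz z (c h)) := by rw [hc g, mul_assoc]
  let φ : G →* Multiplicative (ZMod p) := MonoidHom.mk' (fun g => Multiplicative.ofAdd (c g)) (by
    intro a b
    rw [hcmul, ofAdd_add])
  have hφ : ∀ g, φ g = Multiplicative.ofAdd (c g) := fun g => rfl
  have hH : ∀ g, g ∈ φ.ker ↔ g * x * g⁻¹ = x := by
    intro g
    rw [MonoidHom.mem_ker, hφ]
    constructor
    · intro h
      have h0 : c g = 0 := Multiplicative.ofAdd.injective h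
      rw [hc g, h0, pz_zero, mul_one]
    · intro h
      have h0 : c g = 0 := by
        apply hcinj
        rw [← hc g, h, pz_zero, mul_one]
      rw [h0]
      rfl
  have hsup := iSup_eq_top ρ hρ hirr hzp hzc hxp hz1 hqp
  have hind := indep (x := x) ρ hρ hirr hzp hzc hz1 hqp
  have hyne : ∀ i : ZMod p, yy x z i ≠ 1 := by
    intro i h
    apply hxz
    have : x = (pz z i)⁻¹ := eq_inv_of_mul_eq_one_left h
    rw [this]
    exact inv_mem (pz_mem z i)
  -- `x` is not central
  have hex : ∃ g₀ : G, c g₀ ≠ 0 := by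
    by_contra hno
    push Not at hno
    have hxc : ∀ g, g * x * g⁻¹ = x := fun g => by rw [hc g, hno g, pz_zero, mul_one]
    have hbot : ∀ i : ZMod p, fixedSp ρ (yy x z i) = ⊥ := by
      intro i
      refine fixed_central ρ hρ hirr (hyne i) (fun g => ?_)
      unfold yy
      have h1 : g * x = x * g := by
        calc g * x = g * x * g⁻¹ * g := by group
          _ = x * g := by rw [hxc g]
      rw [← mul_assoc, h1, mul_assoc, pz_central z hzc i g, mul_assoc]
    have : (⊤ : Submodule (ZMod q) V) = ⊥ := by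
      rw [← hsup]
      simp only [hbot, iSup_bot]
    exact top_ne_bot this
  have hidx : φ.ker.index = p := by
    rw [Subgroup.index_ker]
    have hdvd : Nat.card φ.range ∣ Nat.card (Multiplicative (ZMod p)) := Subgroup.card_subgroup_dvd_card _
    have hcp : Nat.card (Multiplicative (ZMod p)) = p := by
      rw [Nat.card_eq_fintype_card, Fintype.card_multiplicative, ZMod.card]
    rw [hcp] at hdvd
    rcases (Nat.dvd_prime hp1).mp hdvd with h | h
    · exfalso
      obtain ⟨g₀, hg₀⟩ := hex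
      have h2 : φ.range = ⊥ := Subgroup.card_eq_one.mp h
      have h3 : φ g₀ ∈ φ.range := ⟨g₀, rfl⟩
      rw [h2, Subgroup.mem_bot] at h3
      exact hg₀ (Multiplicative.ofAdd.injective h3)
    · exact h
  let e : Fin p ≃ ZMod p := (Fintype.equivFinOfCardEq (ZMod.card p)).symm
  refine ⟨φ.ker, fun i => fixedSp ρ (yy x z (e i)), hidx, ?_, hind.comp e.injective, ?_, ?_, ?_⟩
  · rw [← hsup]
    exact e.iSup_comp (g := fun i => fixedSp ρ (yy x z i))
  · intro h hh i w hw
    have hw' : ρ (yy x z (e i)) w = w := hw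
    show ρ (yy x z (e i)) (ρ h w) = ρ h w
    have hhx := (hH h).mp hh
    have h1 : yy x z (e i) * h = h * yy x z (e i) := by
      have h2 : h * x = x * h := by
        calc h * x = h * x * h⁻¹ * h := by group
          _ = x * h := by rw [hhx]
      unfold yy
      rw [mul_assoc, ← pz_central z hzc _ h, ← mul_assoc, ← h2, mul_assoc]
    rw [← rho_mul, h1, rho_mul, hw']
  · intro i
    refine ⟨yy x z (e i), ?_, hyne _, fun w hw => hw⟩
    rw [hH]
    unfold yy
    have h2 := pz_central z hzc (e i) x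
    calc x * pz z (e i) * x * (x * pz z (e i))⁻¹ = x * (pz z (e i) * x) * (pz z (e i))⁻¹ * x⁻¹ := by group
      _ = x * (x * pz z (e i)) * (pz z (e i))⁻¹ * x⁻¹ := by rw [← h2]
      _ = x := by group
  · intro g hg
    set d := c g with hd
    have hd0 : d ≠ 0 := by
      intro h0
      apply hg
      rw [hH, hc g, ← hd, h0, pz_zero, mul_one]
    have hconj : ∀ i : ZMod p, g * yy x z i * g⁻¹ = yy x z (i + d) := by
      intro i
      unfold yy
      calc g * (x * pz z i) * g⁻¹ = g * x * (pz z i * g⁻¹) := by group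
        _ = g * x * (g⁻¹ * pz z i) := by rw [pz_central z hzc _ g⁻¹]
        _ = (g * x * g⁻¹) * pz z i := by group
        _ = x * (pz z d * pz z i) := by rw [hc g, mul_assoc]
        _ = x * pz z (i + d) := by rw [← pz_add hzp, add_comm]
    have hmap : ∀ i : ZMod p, (fixedSp ρ (yy x z i)).map (ρ g : V →ₗ[ZMod q] V) = fixedSp ρ (yy x z (i + d)) := by
      intro i
      ext w
      constructor
      · rintro ⟨u, hu, rfl⟩
        have hu' : ρ (yy x z i) u = u := hu
        show ρ (yy x z (i + d)) (ρ g u) = ρ g u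
        rw [← hconj i]
        rw [← rho_mul]
        have : g * yy x z i * g⁻¹ * g = g * yy x z i := by group
        rw [this, rho_mul, hu']
      · intro hw
        have hw' : ρ (yy x z (i + d)) w = w := hw
        refine ⟨ρ g⁻¹ w, ?_, ?_⟩
        · show ρ (yy x z i) (ρ g⁻¹ w) = ρ g⁻¹ w
          rw [← rho_mul]
          have : yy x z i * g⁻¹ = g⁻¹ * yy x z (i + d) := by
            rw [← hconj i]; group
          rw [this, rho_mul, hw']
        · show ρ g (ρ g⁻¹ w) = w
          rw [← rho_mul, mul_inv_cancel, map_one]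
          rfl
    let σ₀ : Equiv.Perm (ZMod p) := Equiv.addRight d
    have hσ₀ : orderOf σ₀ = p := by
      apply orderOf_eq_prime
      · ext i
        have hpow : ∀ n : ℕ, ∀ i, (σ₀ ^ n) i = i + n • d := by
          intro n
          induction n with
          | zero => intro i; simp
          | succ n ih =>
            intro i
            rw [pow_succ', Equiv.Perm.mul_apply, ih]
            show i + n • d + d = _
            rw [succ_nsmul, add_assoc]
        rw [hpow]
        simp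
      · intro h
        have := congrArg (fun s : Equiv.Perm (ZMod p) => s 0) h
        simp only [Equiv.Perm.one_apply] at this
        apply hd0
        have h2 : σ₀ 0 = d := zero_add d
        rw [← h2]
        exact this
    refine ⟨(e.symm.permCongrHom) σ₀, ?_, ?_⟩
    · rw [MulEquiv.orderOf_eq]
      exact hσ₀
    · intro i
      have : e ((e.symm.permCongrHom) σ₀ i) = e i + d := by
        show e (e.symm (σ₀ (e.symm.symm i))) = _
        simp
        rfl
      show (fixedSp ρ (yy x z (e i))).map (ρ g : V →ₗ[ZMod q] V) = fixedSp ρ (yy x z (e ((e.symm.permCongrHom) σ₀ i)))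
      rw [this, hmap]

end Main


/-- Let a finite p-group G act faithfully and irreducibly on a non-trivial finite vector space V over the field with q elements (q prime), and suppose G is not cyclic, generalized quaternion, dihedral or semidihedral. Then G has a subgroup H of index p and V is the direct sum of p subspaces, each invariant under H, on none of which H acts faithfully, and which every element of G outside H permutes in a single p-cycle. -/
theorem result
    (q : ℕ) [Fact q.Prime] {V : Type*} [AddCommGroup V] [Module (ZMod q) V] [Finite V] [Nontrivial V]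
    {G : Type*} [Group G] [Finite G] (p : ℕ) [Fact p.Prime] (hG : IsPGroup p G)
    (ρ : G →* (V ≃ₗ[ZMod q] V)) (hρ : Function.Injective ρ)
    (hirr : ∀ W : Submodule (ZMod q) V, (∀ g : G, ∀ w ∈ W, ρ g w ∈ W) → W = ⊥ ∨ W = ⊤)
    (hnc : ¬ IsCyclic G) (hnq : ∀ n : ℕ, ¬ Nonempty (G ≃* QuaternionGroup n))
    (hnd : ∀ n : ℕ, ¬ Nonempty (G ≃* DihedralGroup n)) (hnsd : ¬ Cfsg.IsQuasiDihedral G) :
    ∃ (H : Subgroup G) (W : Fin p → Submodule (ZMod q) V), H.index = p ∧
      iSup W = ⊤ ∧ iSupIndep W ∧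
      (∀ h ∈ H, ∀ i, ∀ w ∈ W i, ρ h w ∈ W i) ∧
      (∀ i, ∃ h ∈ H, h ≠ 1 ∧ ∀ w ∈ W i, ρ h w = w) ∧
      ∀ g : G, g ∉ H → ∃ σ : Equiv.Perm (Fin p), orderOf σ = p ∧ ∀ i, (W i).map (ρ g : V →ₗ[ZMod q] V) = W (σ i) := by
  classical
  have hp1 : p.Prime := Fact.out
  have hq1 : q.Prime := Fact.out
  -- the characteristic differs from `p`
  have hqp : (p : ZMod q) ≠ 0 := by
    intro h0
    have hdvd : q ∣ p := (ZMod.natCast_eq_zero_iff p q).mp h0
    have hpq : q = p := (Nat.prime_dvd_prime_iff_eq hq1 hp1).mp hdvd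
    subst hpq
    letI : MulAction G V := MulAction.compHom V ρ
    have hact : ∀ (g : G) (v : V), g • v = ρ g v := fun _ _ => rfl
    obtain ⟨v₀, hv₀⟩ := exists_ne (0 : V)
    have hord : addOrderOf v₀ = q := by
      apply addOrderOf_eq_prime _ hv₀
      rw [← Nat.cast_smul_eq_nsmul (ZMod q), CharP.cast_eq_zero, zero_smul]
    have hdv : q ∣ Nat.card V := by
      rw [← hord]
      exact addOrderOf_dvd_natCard v₀
    have hfix0 : (0 : V) ∈ MulAction.fixedPoints G V := by
      intro g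
      rw [hact, map_zero]
    obtain ⟨b, hb, hb0⟩ := hG.exists_fixed_point_of_prime_dvd_card_of_fixed_point V hdv hfix0
    let C : Submodule (ZMod q) V :=
      { carrier := {v | ∀ g : G, ρ g v = v}
        add_mem' := by
          intro a c ha hc g
          rw [map_add, ha g, hc g]
        zero_mem' := by
          intro g
          rw [map_zero]
        smul_mem' := by
          intro c a ha g
          rw [map_smul, ha g] }
    have hbC : b ∈ C := fun g => hb g
    have hCtop : C = ⊤ := by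
      rcases hirr C (fun g w hw h => by
          show ρ h (ρ g w) = ρ g w
          rw [hw g, hw h]) with h | h
      · exfalso
        rw [h, Submodule.mem_bot] at hbC
        exact hb0 hbC.symm
      · exact h
    apply hnc
    have hone : ∀ g : G, g = 1 := by
      intro g
      apply hρ
      rw [map_one]
      ext v
      have : v ∈ C := by rw [hCtop]; trivial
      exact this g
    haveI : Subsingleton G := ⟨fun a b => by rw [hone a, hone b]⟩
    exact isCyclic_of_subsingleton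
  -- a normal non-cyclic abelian subgroup
  obtain ⟨A, hAn, hAc, hAnc⟩ : ∃ A : Subgroup G, A.Normal ∧ IsMulCommutative A ∧ ¬ IsCyclic A := by
    by_contra hno
    push Not at hno
    have hn : ∀ A : Subgroup G, A.Normal → IsMulCommutative A → IsCyclic A := fun A h1 h2 => hno A h1 h2
    by_cases hm : ∃ B : Subgroup G, IsMulCommutative B ∧ ¬ IsCyclic B
    · obtain ⟨_, h | ⟨n, _, h⟩ | h⟩ := Cfsg.Agent.S0519.result p hG hn hm
      · obtain ⟨n, hn'⟩ := h
        exact hnq n hn'
      · exact hnd n h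
      · exact hnsd h
    · push Not at hm
      haveI : Nontrivial G := by
        by_contra hnt
        rw [not_nontrivial_iff_subsingleton] at hnt
        exact hnc isCyclic_of_subsingleton
      obtain ⟨z₀, hz₀c, hz₀o⟩ := Cfsg.Agent.Lib.PGroup.CyclicMax2.exists_central_order_p hG
      have hz₀p : z₀ ^ p = 1 := by rw [← hz₀o]; exact pow_orderOf_eq_one z₀
      have hz₀1 : z₀ ≠ 1 := by
        rintro rfl
        rw [orderOf_one] at hz₀o
        exact hp1.one_lt.ne hz₀o
      have hkey : ∀ y w : G, y ^ p = 1 → y ≠ 1 → w ^ p = 1 → w ≠ 1 → (w = z₀ ∨ y = z₀) → y ∈ zpowers w := by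
        intro y w hy hy1 hw hw1 hor
        have hcw : y * w = w * y := by
          rcases hor with rfl | rfl
          · exact (mem_center_iff.mp hz₀c y)
          · exact (mem_center_iff.mp hz₀c w).symm
        let B := closure ({y, w} : Set G)
        have hyB : y ∈ B := subset_closure (by simp)
        have hwB : w ∈ B := subset_closure (by simp)
        haveI hBc : IsMulCommutative B := by
          apply Subgroup.isMulCommutative_closure
          rintro a (rfl | rfl) b (rfl | rfl)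
          · rfl
          · exact hcw
          · exact hcw.symm
          · rfl
        haveI hBcyc : IsCyclic B := hm B hBc
        have hu := Cfsg.Agent.Lib.PGroup.CyclicMax2.uniqueP_of_isCyclic (p := p) (A := B)
        have h1 := hu ⟨y, hyB⟩ ⟨w, hwB⟩ (Subtype.ext hy) (Subtype.ext hw)
          (fun h => hy1 (congrArg Subtype.val h)) (fun h => hw1 (congrArg Subtype.val h))
        obtain ⟨k, hk⟩ := mem_zpowers_iff.mp h1
        exact mem_zpowers_iff.mpr ⟨k, congrArg Subtype.val hk⟩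
      have huniq : Cfsg.Agent.Lib.PGroup.CyclicMax2.UniqueP p G := by
        intro y w hy hw hy1 hw1
        have h1 := hkey y z₀ hy hy1 hz₀p hz₀1 (Or.inl rfl)
        have h2 := hkey z₀ w hz₀p hz₀1 hw hw1 (Or.inr rfl)
        exact (zpowers_le.mpr h2) h1
      rcases Cfsg.Agent.Lib.PGroup.CyclicMax2.cyclic_or_quaternion hG huniq with h | ⟨rfl, u, b, n, hSC, hn2, hcard, hb, h1, h2⟩
      · exact hnc h
      · exact hnq _ (Cfsg.Agent.Lib.PGroup.CyclicMax2.quaternion_of_data (by omega) hSC.hu hcard hb h1 h2)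
  have hcommA : ∀ a ∈ A, ∀ b ∈ A, a * b = b * a := fun a ha b hb =>
    congrArg Subtype.val (hAc.is_comm.comm ⟨a, ha⟩ ⟨b, hb⟩)
  have hnu : ¬ Cfsg.Agent.Lib.PGroup.CyclicMax2.UniqueP p A := fun hu =>
    hAnc (Cfsg.Agent.Lib.PGroup.CyclicMax2.isCyclic_of_comm_uniqueP (fun x y => hAc.is_comm.comm x y) (hG.to_subgroup A) hu)
  unfold Cfsg.Agent.Lib.PGroup.CyclicMax2.UniqueP at hnu
  push Not at hnu
  obtain ⟨⟨y, hyA⟩, ⟨w, hwA⟩, hyp, hwp, hy1, hw1, hyw⟩ := hnu
  have hyp' : y ^ p = 1 := congrArg Subtype.val hyp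
  have hwp' : w ^ p = 1 := congrArg Subtype.val hwp
  have hy1' : y ≠ 1 := fun h => hy1 (Subtype.ext h)
  have hw1' : w ≠ 1 := fun h => hw1 (Subtype.ext h)
  let Ω : Subgroup G :=
    { carrier := {a | a ∈ A ∧ a ^ p = 1}
      mul_mem' := by
        rintro a b ⟨ha, ha1⟩ ⟨hb, hb1⟩
        exact ⟨A.mul_mem ha hb, by rw [Commute.mul_pow (hcommA a ha b hb), ha1, hb1, one_mul]⟩
      one_mem' := ⟨A.one_mem, one_pow _⟩
      inv_mem' := by
        rintro a ⟨ha, ha1⟩
        exact ⟨A.inv_mem ha, by rw [inv_pow, ha1, inv_one]⟩ }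
  haveI hΩn : Ω.Normal := ⟨by
    rintro a ⟨ha, ha1⟩ g
    exact ⟨hAn.conj_mem a ha g, by rw [conj_pow, ha1]; simp⟩⟩
  have hyΩ : y ∈ Ω := ⟨hyA, hyp'⟩
  have hwΩ : w ∈ Ω := ⟨hwA, hwp'⟩
  have hΩne : Ω ≠ ⊥ := by
    intro h
    rw [h, Subgroup.mem_bot] at hyΩ
    exact hy1' hyΩ
  have hcen := Cfsg.Agent.Lib.PGroup.Basic.inf_center_ne_bot hG hΩne
  obtain ⟨z, ⟨hzΩ, hzc⟩, hz1⟩ := (Subgroup.bot_or_exists_ne_one (Ω ⊓ center G)).resolve_left hcen
  have hzp : z ^ p = 1 := hzΩ.2
  have hzc' : ∀ g, g * z = z * g := fun g => mem_center_iff.mp hzc g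
  haveI hMn : (zpowers z).Normal := ⟨by
    intro n hn g
    obtain ⟨k, rfl⟩ := mem_zpowers_iff.mp hn
    have : g * z ^ k * g⁻¹ = z ^ k := by
      have h2 : Commute g (z ^ k) := (show Commute g z from hzc' g).zpow_right k
      rw [h2.eq]; group
    rw [this]
    exact zpow_mem (mem_zpowers z) k⟩
  have hnot : ¬ Ω ≤ zpowers z := by
    intro hle
    obtain ⟨k, hk⟩ := Cfsg.Agent.S3053.line_gen hzp (hle hwΩ) hw1' y (hle hyΩ)
    apply hyw
    refine mem_zpowers_iff.mpr ⟨k, Subtype.ext ?_⟩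
    show w ^ ((k : ℕ) : ℤ) = y
    rw [hk, zpow_natCast]
  obtain ⟨x, hxΩ, hxM, -, hxg⟩ := Cfsg.Agent.Lib.PGroup.Critical.exists_mem_central_mod hG (zpowers z) Ω hnot
  have hxp : x ^ p = 1 := hxΩ.2
  refine main_core ρ hρ hirr hzp hzc' hxp hz1 hxM hqp ?_
  intro g
  have h1 : ⁅x, g⁆⁻¹ ∈ zpowers z := inv_mem (hxg g)
  obtain ⟨i, hi⟩ := mem_zpowers_pz hzp h1
  refine ⟨i, ?_⟩
  rw [← hi]
  have hc : ⁅x, g⁆⁻¹ = g * x * g⁻¹ * x⁻¹ := by
    rw [commutatorElement_def]; group
  have hcc : x * ⁅x, g⁆⁻¹ = ⁅x, g⁆⁻¹ * x := by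
    rw [hi]
    exact pz_central z hzc' i x
  rw [hcc, hc]
  group

end Cfsg.Agent.S3380
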