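import Cfsg.Statements.S3371
import Mathlib
import Cfsg.Agent.Lib.PGroup.Critical
import Cfsg.Agent.Lib.PGroup.CyclicMax2
import Cfsg.Agent.Lib.PGroup.Basic
import Cfsg.Agent.Lib.PGroup.QuasiDihedral
import Cfsg.Agent.S0519
import Cfsg.Agent.S3053
import Cfsg.Agent.S3370
import Cfsg.Agent.S3380
import Cfsg.Agent.S3381

set_option autoImplicit false
open Cfsg

namespace Cfsg.Agent.S3371

open Subgroup Cfsg.Agent.S3380
open scoped commutatorElement

section Basic
variable {G V : Type*} [Group G] {q : ℕ} [hq : Fact q.Prime] [AddCommGroup V] [Module (ZMod q) V]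
  (ρ : G →* (V ≃ₗ[ZMod q] V))

/-- Stabilizer of a vector. -/
def St (v : V) : Subgroup G where
  carrier := {g | ρ g v = v}
  mul_mem' := by
    intro a b ha hb
    have ha' : ρ a v = v := ha
    have hb' : ρ b v = v := hb
    show ρ (a * b) v = v
    rw [rho_mul, hb', ha']
  one_mem' := by
    show ρ 1 v = v
    simp
  inv_mem' := by
    intro a ha
    have ha' : ρ a v = v := ha
    show ρ a⁻¹ v = v
    calc ρ a⁻¹ v = ρ a⁻¹ (ρ a v) := by rw [ha']
      _ = v := by rw [← rho_mul]; simp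

theorem mem_St {g : G} {v : V} : g ∈ St ρ v ↔ ρ g v = v := Iff.rfl

theorem rho_inv_apply (g : G) (v : V) : ρ g⁻¹ (ρ g v) = v := by
  rw [← rho_mul]; simp

theorem rho_apply_inv (g : G) (v : V) : ρ g (ρ g⁻¹ v) = v := by
  rw [← rho_mul]; simp

theorem orbit_stab [Finite G] [Finite V] (v : V) :
    Nat.card {u : V | ∃ g : G, ρ g v = u} * Nat.card (St ρ v) = Nat.card G := by
  letI := Cfsg.Agent.S3370.act ρ
  have h := Nat.card_congr (MulAction.orbitProdStabilizerEquivGroup G v)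
  rw [Nat.card_prod] at h
  exact h

theorem card_St_eq [Finite G] [Finite V]
    (hhalf : ∀ v w : V, v ≠ 0 → w ≠ 0 →
      Nat.card {u : V | ∃ g : G, ρ g v = u} = Nat.card {u : V | ∃ g : G, ρ g w = u})
    (v w : V) (hv : v ≠ 0) (hw : w ≠ 0) : Nat.card (St ρ v) = Nat.card (St ρ w) := by
  have h1 := orbit_stab ρ v
  have h2 := orbit_stab ρ w
  rw [hhalf v w hv hw] at h1
  have hpos : 0 < Nat.card {u : V | ∃ g : G, ρ g w = u} := by
    apply Nat.pos_of_ne_zero
    intro h0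
    rw [h0, zero_mul] at h2
    exact Nat.card_pos.ne' h2.symm
  exact Nat.eq_of_mul_eq_mul_left hpos (h1.trans h2.symm)

/-- Maschke-style argument: all stabilizers of equal order and nontrivial forces irreducibility. -/
theorem irr [Fintype G] (hc : ((Fintype.card G : ℕ) : ZMod q) ≠ 0) (hρ : Function.Injective ρ) [Finite V]
    (hall : ∀ v w : V, v ≠ 0 → w ≠ 0 → Nat.card (St ρ v) = Nat.card (St ρ w))
    (hnt : ∀ v : V, v ≠ 0 → St ρ v ≠ ⊥) (W : Submodule (ZMod q) V)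
    (hW : ∀ g : G, ∀ w ∈ W, ρ g w ∈ W) : W = ⊥ ∨ W = ⊤ := by
  classical
  by_contra hcon
  push Not at hcon
  obtain ⟨hW0, hWt⟩ := hcon
  obtain ⟨C, hC⟩ := Submodule.exists_isCompl W
  let P : V →ₗ[ZMod q] V := W.subtype ∘ₗ Submodule.projectionOnto W C hC
  have hP1 : ∀ v, P v ∈ W := fun v => (Submodule.projectionOnto W C hC v).2
  have hP2 : ∀ w ∈ W, P w = w := fun w hw => by
    show ((Submodule.projectionOnto W C hC w : W) : V) = w
    have := Submodule.projectionOnto_apply_left hC ⟨w, hw⟩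
    have h2 : Submodule.projectionOnto W C hC w = ⟨w, hw⟩ := this
    rw [h2]
  let Q : V →ₗ[ZMod q] V := ((Fintype.card G : ℕ) : ZMod q)⁻¹ •
    ∑ g : G, ((ρ g : V ≃ₗ[ZMod q] V) : V →ₗ[ZMod q] V) ∘ₗ P ∘ₗ ((ρ g⁻¹ : V ≃ₗ[ZMod q] V) : V →ₗ[ZMod q] V)
  have hQ : ∀ v, Q v = ((Fintype.card G : ℕ) : ZMod q)⁻¹ • ∑ g : G, ρ g (P (ρ g⁻¹ v)) := by
    intro v
    simp only [Q, LinearMap.smul_apply, LinearMap.sum_apply]
    rfl
  have hQW : ∀ v, Q v ∈ W := by
    intro v
    rw [hQ]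
    exact W.smul_mem _ (W.sum_mem (fun g _ => hW g _ (hP1 _)))
  have hQid : ∀ w ∈ W, Q w = w := by
    intro w hw
    rw [hQ]
    have h1 : ∀ g : G, ρ g (P (ρ g⁻¹ w)) = w := by
      intro g
      rw [hP2 _ (hW _ _ hw), rho_apply_inv]
    simp only [h1]
    rw [Finset.sum_const, Finset.card_univ, ← Nat.cast_smul_eq_nsmul (ZMod q), smul_smul,
      inv_mul_cancel₀ hc, one_smul]
  have hQeq : ∀ (h : G) (v : V), Q (ρ h v) = ρ h (Q v) := by
    intro h v
    rw [hQ, hQ, map_smul, map_sum]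
    congr 1
    refine Fintype.sum_equiv (Equiv.mulLeft h⁻¹) _ _ ?_
    intro g
    show ρ g (P (ρ g⁻¹ (ρ h v))) = ρ h (ρ (h⁻¹ * g) (P (ρ (h⁻¹ * g)⁻¹ v)))
    rw [← rho_mul, ← rho_mul ρ h, mul_inv_cancel_left]
    congr 3
    group
  have hkey : ∀ a ∈ W, a ≠ 0 → ∀ b, Q b = 0 → b ≠ 0 → St ρ a = St ρ b := by
    intro a ha ha0 b hb hb0
    have hs0 : a + b ≠ 0 := by
      intro h
      have h2 := congrArg Q h
      rw [map_add, hb, add_zero, map_zero, hQid a ha] at h2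
      exact ha0 h2
    have hfix : ∀ g, g ∈ St ρ (a + b) → ρ g a = a ∧ ρ g b = b := by
      intro g hg
      have hg' : ρ g (a + b) = a + b := hg
      rw [map_add] at hg'
      have h3 := congrArg Q hg'
      rw [map_add, map_add, hb, add_zero, hQid a ha, hQid _ (hW g a ha), hQeq, hb, map_zero, add_zero] at h3
      refine ⟨h3, ?_⟩
      rw [h3] at hg'
      exact add_left_cancel hg'
    have h1 : St ρ (a + b) = St ρ a := Subgroup.eq_of_le_of_card_ge (fun g hg => (hfix g hg).1)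
      (hall a (a + b) ha0 hs0).le
    have h2 : St ρ (a + b) = St ρ b := Subgroup.eq_of_le_of_card_ge (fun g hg => (hfix g hg).2)
      (hall b (a + b) hb0 hs0).le
    rw [← h1, h2]
  obtain ⟨a, ha, ha0⟩ := Submodule.exists_mem_ne_zero_of_ne_bot hW0
  obtain ⟨v₀, hv₀⟩ := SetLike.exists_not_mem_of_ne_top W hWt rfl
  have hQQ : ∀ v, Q (v - Q v) = 0 := by
    intro v
    rw [map_sub, hQid _ (hQW v), sub_self]
  have hb0 : v₀ - Q v₀ ≠ 0 := by
    intro h
    apply hv₀
    rw [sub_eq_zero.mp h]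
    exact hQW v₀
  apply hnt a ha0
  rw [eq_bot_iff]
  intro g hg
  rw [Subgroup.mem_bot]
  apply hρ
  rw [map_one]
  ext v
  have hg1 : g ∈ St ρ (v₀ - Q v₀) := by rw [← hkey a ha ha0 _ (hQQ v₀) hb0]; exact hg
  have h1 : ρ g (Q v) = Q v := by
    by_cases h0 : Q v = 0
    · rw [h0, map_zero]
    · have : g ∈ St ρ (Q v) := by rw [hkey _ (hQW v) h0 _ (hQQ v₀) hb0]; exact hg1
      exact this
  have h2 : ρ g (v - Q v) = v - Q v := by
    by_cases h0 : v - Q v = 0
    · rw [h0, map_zero]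
    · have : g ∈ St ρ (v - Q v) := by rw [← hkey a ha ha0 _ (hQQ v) h0]; exact hg
      exact this
  have h3 : v = Q v + (v - Q v) := by abel
  show ρ g v = v
  rw [h3, map_add, h1, h2]

end Basic

section Semi
variable {G V : Type*} [Group G] [Finite G] {q p : ℕ} [hq : Fact q.Prime] [hp : Fact p.Prime]
  [AddCommGroup V] [Module (ZMod q) V]
  (ρ : G →* (V ≃ₗ[ZMod q] V))

theorem sum_avg' {x z : G} (hzp : z ^ p = 1) (hzc : ∀ g, g * z = z * g)
    (hz0 : ∀ v, avg (p := p) ρ z v = 0) (v : V) :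
    ∑ i : ZMod p, avg (p := p) ρ (yy x z i) v = (p : ZMod q) • v := by
  simp only [avg_apply, pz_yy hzp hzc, rho_mul]
  rw [Finset.sum_comm]
  rw [Finset.sum_eq_single (0 : ZMod p)]
  · simp only [mul_zero, pz_zero]
    simp only [map_one]
    show ∑ i : ZMod p, (ρ (x ^ (0 : ZMod p).val)) (v) = _
    simp only [ZMod.val_zero, pow_zero, map_one]
    show ∑ _i : ZMod p, v = _
    rw [Finset.sum_const, Finset.card_univ, ZMod.card, Nat.cast_smul_eq_nsmul]
  · intro j _ hj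
    rw [← map_sum]
    have h1 : ∑ i : ZMod p, ρ (pz z (i * j)) v = avg (p := p) ρ z v := by
      rw [avg_apply]
      exact Fintype.sum_equiv (Equiv.mulRight₀ j hj) _ _ (fun i => rfl)
    rw [h1, hz0, map_zero]
  · intro h
    exact absurd (Finset.mem_univ _) h

omit [Finite G] hq [Module (ZMod q) V] [AddCommGroup V] in
theorem yy_ne {x z : G} (hxz : x ∉ zpowers z) (i : ZMod p) : yy x z i ≠ 1 := by
  intro h
  apply hxz
  have : x = (pz z i)⁻¹ := eq_inv_of_mul_eq_one_left h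
  rw [this]
  exact inv_mem (pz_mem z i)

theorem semireg_key [Nontrivial V] (hqp : (p : ZMod q) ≠ 0)
    (hsr : ∀ v : V, v ≠ 0 → ∀ g : G, ρ g v = v → g = 1)
    {x z : G} (hzp : z ^ p = 1) (hzc : ∀ g, g * z = z * g) (hxp : x ^ p = 1) (hz1 : z ≠ 1) :
    x ∈ zpowers z := by
  by_contra hxz
  obtain ⟨v, hv⟩ := exists_ne (0 : V)
  have hav : ∀ {y : G}, y ^ p = 1 → y ≠ 1 → ∀ u : V, avg (p := p) ρ y u = 0 := by
    intro y hy hy1 u
    by_contra hne
    exact hy1 (hsr _ hne y (avg_fixed ρ hy u))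
  have h1 := sum_avg' (x := x) ρ hzp hzc (hav hzp hz1) v
  have h2 : ∑ i : ZMod p, avg (p := p) ρ (yy x z i) v = 0 :=
    Finset.sum_eq_zero (fun i _ => hav (yy_pow hzp hzc hxp i) (yy_ne hxz i) v)
  rw [h2] at h1
  exact (smul_ne_zero hqp hv) h1.symm

theorem semireg_uniqueP [Nontrivial V] (hG : IsPGroup p G) (hqp : (p : ZMod q) ≠ 0)
    (hsr : ∀ v : V, v ≠ 0 → ∀ g : G, ρ g v = v → g = 1) :
    Cfsg.Agent.Lib.PGroup.CyclicMax2.UniqueP p G := by
  intro y w hy hw hy1 hw1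
  haveI : Nontrivial G := ⟨⟨y, 1, hy1⟩⟩
  obtain ⟨z, hzc, hzo⟩ := Cfsg.Agent.Lib.PGroup.CyclicMax2.exists_central_order_p hG
  have hzp : z ^ p = 1 := by rw [← hzo]; exact pow_orderOf_eq_one z
  have hz1 : z ≠ 1 := by
    rintro rfl
    rw [orderOf_one] at hzo
    exact hp.out.one_lt.ne hzo
  have hzc' : ∀ g, g * z = z * g := fun g => mem_center_iff.mp hzc g
  have h1 := semireg_key ρ hqp hsr hzp hzc' hy hz1
  have h2 := semireg_key ρ hqp hsr hzp hzc' hw hz1
  obtain ⟨k, hk⟩ := Cfsg.Agent.S3053.line_gen hzp h2 hw1 y h1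
  rw [hk]
  exact npow_mem_zpowers w k

end Semi

section Extract
variable {G : Type*} [Group G] [Finite G] {p : ℕ} [hp : Fact p.Prime]

/-- Extraction of `x, z` from a normal non-cyclic abelian subgroup. -/
theorem exists_xz (hG : IsPGroup p G) {A : Subgroup G} (hAn : A.Normal) (hAc : IsMulCommutative A)
    (hAnc : ¬ IsCyclic A) :
    ∃ x z : G, z ^ p = 1 ∧ (∀ g, g * z = z * g) ∧ x ^ p = 1 ∧ z ≠ 1 ∧ x ∉ zpowers z ∧
      ∀ g : G, ∃ i : ZMod p, g * x * g⁻¹ = x * pz z i := by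
  have hcommA : ∀ a ∈ A, ∀ b ∈ A, a * b = b * a := fun a ha b hb =>
    congrArg Subtype.val (hAc.is_comm.comm ⟨a, ha⟩ ⟨b, hb⟩)
  have hnu : ¬ Cfsg.Agent.Lib.PGroup.CyclicMax2.UniqueP p A := fun hu =>
    hAnc (Cfsg.Agent.Lib.PGroup.CyclicMax2.isCyclic_of_comm_uniqueP (fun x y => hAc.is_comm.comm x y) (hG.to_subgroup A) hu)
  unfold Cfsg.Agent.Lib.PGroup.CyclicMax2.UniqueP at hnu
  push Not at hnu
  obtain ⟨⟨y, hyA⟩, ⟨w, hwA⟩, hyp, hwp, hy1, hw1, hyw⟩ := hnu
  have hyp' : y ^ p = 1 := congrArg Subtype.val hyp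
  have hwp' : w ^ p = 1 := congrArg Subtype.val hwp
  have hy1' : y ≠ 1 := fun h => hy1 (Subtype.ext h)
  have hw1' : w ≠ 1 := fun h => hw1 (Subtype.ext h)
  let Ω : Subgroup G :=
    { carrier := {a | a ∈ A ∧ a ^ p = 1}
      mul_mem' := by
        rintro a b ⟨ha, ha1⟩ ⟨hb, hb1⟩
        exact ⟨A.mul_mem ha hb, by rw [Commute.mul_pow (hcommA a ha b hb), ha1, hb1, one_mul]⟩
      one_mem' := ⟨A.one_mem, one_pow _⟩
      inv_mem' := by
        rintro a ⟨ha, ha1⟩
        exact ⟨A.inv_mem ha, by rw [inv_pow, ha1, inv_one]⟩ }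
  haveI hΩn : Ω.Normal := ⟨by
    rintro a ⟨ha, ha1⟩ g
    exact ⟨hAn.conj_mem a ha g, by rw [conj_pow, ha1]; simp⟩⟩
  have hyΩ : y ∈ Ω := ⟨hyA, hyp'⟩
  have hwΩ : w ∈ Ω := ⟨hwA, hwp'⟩
  have hΩne : Ω ≠ ⊥ := by
    intro h
    rw [h, Subgroup.mem_bot] at hyΩ
    exact hy1' hyΩ
  have hcen := Cfsg.Agent.Lib.PGroup.Basic.inf_center_ne_bot hG hΩne
  obtain ⟨z, ⟨hzΩ, hzc⟩, hz1⟩ := (Subgroup.bot_or_exists_ne_one (Ω ⊓ center G)).resolve_left hcen
  have hzp : z ^ p = 1 := hzΩ.2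
  have hzc' : ∀ g, g * z = z * g := fun g => mem_center_iff.mp hzc g
  haveI hMn : (zpowers z).Normal := ⟨by
    intro n hn g
    obtain ⟨k, rfl⟩ := mem_zpowers_iff.mp hn
    have : g * z ^ k * g⁻¹ = z ^ k := by
      have h2 : Commute g (z ^ k) := (show Commute g z from hzc' g).zpow_right k
      rw [h2.eq]; group
    rw [this]
    exact zpow_mem (mem_zpowers z) k⟩
  have hnot : ¬ Ω ≤ zpowers z := by
    intro hle
    obtain ⟨k, hk⟩ := Cfsg.Agent.S3053.line_gen hzp (hle hwΩ) hw1' y (hle hyΩ)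
    apply hyw
    refine mem_zpowers_iff.mpr ⟨k, Subtype.ext ?_⟩
    show w ^ ((k : ℕ) : ℤ) = y
    rw [hk, zpow_natCast]
  obtain ⟨x, hxΩ, hxM, -, hxg⟩ := Cfsg.Agent.Lib.PGroup.Critical.exists_mem_central_mod hG (zpowers z) Ω hnot
  have hxp : x ^ p = 1 := hxΩ.2
  refine ⟨x, z, hzp, hzc', hxp, hz1, hxM, ?_⟩
  intro g
  have h1 : ⁅x, g⁆⁻¹ ∈ zpowers z := inv_mem (hxg g)
  obtain ⟨i, hi⟩ := mem_zpowers_pz hzp h1
  refine ⟨i, ?_⟩
  rw [← hi]
  have hc : ⁅x, g⁆⁻¹ = g * x * g⁻¹ * x⁻¹ := by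
    rw [commutatorElement_def]; group
  have hcc : x * ⁅x, g⁆⁻¹ = ⁅x, g⁆⁻¹ * x := by
    rw [hi]
    exact pz_central z hzc' i x
  rw [hcc, hc]
  group

end Extract

section Odd
variable {G V : Type*} [Group G] [Finite G] {q p : ℕ} [hq : Fact q.Prime] [hp : Fact p.Prime]
  [AddCommGroup V] [Module (ZMod q) V] [Nontrivial V] [Finite V]
  (ρ : G →* (V ≃ₗ[ZMod q] V)) (hρ : Function.Injective ρ)
  (hirr : ∀ W : Submodule (ZMod q) V, (∀ g : G, ∀ w ∈ W, ρ g w ∈ W) → W = ⊥ ∨ W = ⊤)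

include hρ hirr in
/-- Blocks force `p = 2`. -/
theorem two_of_block (hqp : (p : ZMod q) ≠ 0)
    (hall : ∀ v w : V, v ≠ 0 → w ≠ 0 → Nat.card (St ρ v) = Nat.card (St ρ w))
    {x z : G} (hzp : z ^ p = 1) (hzc : ∀ g, g * z = z * g) (hxp : x ^ p = 1) (hz1 : z ≠ 1)
    (hxz : x ∉ zpowers z) (hcomm : ∀ g : G, ∃ i : ZMod p, g * x * g⁻¹ = x * pz z i) : p = 2 := by
  classical
  have hp1 := hp.out
  by_contra hp2
  choose c hc using hcomm
  have hcinj : ∀ i j : ZMod p, x * pz z i = x * pz z j → i = j := fun i j h =>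
    pz_inj hzp hz1 (mul_left_cancel h)
  have hcmul : ∀ g h : G, c (g * h) = c g + c h := by
    intro g h
    apply hcinj
    rw [← hc (g * h), pz_add hzp]
    calc g * h * x * (g * h)⁻¹ = g * (h * x * h⁻¹) * g⁻¹ := by group
      _ = g * (x * pz z (c h)) * g⁻¹ := by rw [hc h]
      _ = g * x * (pz z (c h) * g⁻¹) := by group
      _ = g * x * (g⁻¹ * pz z (c h)) := by rw [pz_central z hzc _ g⁻¹]
      _ = (g * x * g⁻¹) * pz z (c h) := by group
      _ = x * (pz z (c g) * pz z (c h)) := by rw [hc g, mul_assoc]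
  have hc1 : c 1 = 0 := by
    have := hcmul 1 1
    rw [mul_one] at this
    exact left_eq_add.mp this
  have hcpow : ∀ (g : G) (n : ℕ), c (g ^ n) = (n : ZMod p) * c g := by
    intro g n
    induction n with
    | zero => simp [hc1]
    | succ n ih => rw [pow_succ, hcmul, ih]; push_cast; ring
  have hsup := iSup_eq_top ρ hρ hirr hzp hzc hxp hz1 hqp
  have hconj : ∀ (g : G) (i : ZMod p), g * yy x z i * g⁻¹ = yy x z (i + c g) := by
    intro g i
    unfold yy
    calc g * (x * pz z i) * g⁻¹ = g * x * (pz z i * g⁻¹) := by group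
      _ = g * x * (g⁻¹ * pz z i) := by rw [pz_central z hzc _ g⁻¹]
      _ = (g * x * g⁻¹) * pz z i := by group
      _ = x * (pz z (c g) * pz z i) := by rw [hc g, mul_assoc]
      _ = x * pz z (i + c g) := by rw [← pz_add hzp, add_comm]
  have hmap : ∀ (g : G) (i : ZMod p) (w : V), w ∈ fixedSp ρ (yy x z i) → ρ g w ∈ fixedSp ρ (yy x z (i + c g)) := by
    intro g i w hw
    have hw' : ρ (yy x z i) w = w := hw
    show ρ (yy x z (i + c g)) (ρ g w) = ρ g w
    rw [← hconj g i, ← rho_mul]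
    have : g * yy x z i * g⁻¹ * g = g * yy x z i := by group
    rw [this, rho_mul, hw']
  have hyne : ∀ i : ZMod p, yy x z i ≠ 1 := yy_ne hxz
  -- `x` is not central
  have hex : ∃ g₀ : G, c g₀ ≠ 0 := by
    by_contra hno
    push Not at hno
    have hxc : ∀ g, g * x * g⁻¹ = x := fun g => by rw [hc g, hno g, pz_zero, mul_one]
    have hbot : ∀ i : ZMod p, fixedSp ρ (yy x z i) = ⊥ := by
      intro i
      refine fixed_central ρ hρ hirr (hyne i) (fun g => ?_)
      unfold yy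
      have h1 : g * x = x * g := by
        calc g * x = g * x * g⁻¹ * g := by group
          _ = x * g := by rw [hxc g]
      rw [← mul_assoc, h1, mul_assoc, pz_central z hzc i g, mul_assoc]
    have : (⊤ : Submodule (ZMod q) V) = ⊥ := by
      rw [← hsup]
      simp only [hbot, iSup_bot]
    exact top_ne_bot this
  obtain ⟨g₀, hg₀⟩ := hex
  -- some block is nonzero
  obtain ⟨i₀, hi₀⟩ : ∃ i₀ : ZMod p, fixedSp ρ (yy x z i₀) ≠ ⊥ := by
    by_contra hno
    have hno' : ∀ i : ZMod p, fixedSp ρ (yy x z i) = ⊥ := fun i => by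
      by_contra h
      exact hno ⟨i, h⟩
    have : (⊤ : Submodule (ZMod q) V) = ⊥ := by
      rw [← hsup]
      simp only [hno', iSup_bot]
    exact top_ne_bot this
  obtain ⟨w₀₀, hw₀₀, hw₀₀0⟩ := Submodule.exists_mem_ne_zero_of_ne_bot hi₀
  have hne : ∀ i : ZMod p, ∃ w ∈ fixedSp ρ (yy x z i), w ≠ 0 := by
    intro i
    let k : ℕ := ((i - i₀) * (c g₀)⁻¹).val
    have hk : c (g₀ ^ k) = i - i₀ := by
      rw [hcpow]
      show ((((i - i₀) * (c g₀)⁻¹).val : ℕ) : ZMod p) * c g₀ = _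
      rw [ZMod.natCast_zmod_val, mul_assoc, inv_mul_cancel₀ hg₀, mul_one]
    have h1 := hmap (g₀ ^ k) i₀ w₀₀ hw₀₀
    rw [hk, show i₀ + (i - i₀) = i by ring] at h1
    exact ⟨_, h1, by simpa using hw₀₀0⟩
  haveI : Fact (1 < p) := ⟨hp1.one_lt⟩
  have h01 : (0 : ZMod p) ≠ 1 := zero_ne_one
  obtain ⟨w₀, hw₀, hw₀0⟩ := hne 0
  obtain ⟨w₁, hw₁, hw₁0⟩ := hne 1
  have hpw : ∀ {u : V}, (p : ZMod q) • u = 0 → u = 0 := fun h => (smul_eq_zero.mp h).resolve_left hqp
  have hA : ∀ (i k : ZMod p) (u : V), u ∈ fixedSp ρ (yy x z k) → i ≠ k → avg (p := p) ρ (yy x z i) u = 0 :=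
    fun i k u hu hik => avg_vanish ρ hρ hirr hzp hzc hz1 hik hu
  have hA0 : ∀ (i : ZMod p) (u : V), u ∈ fixedSp ρ (yy x z i) → avg (p := p) ρ (yy x z i) u = (p : ZMod q) • u :=
    fun i u hu => avg_of_fixed ρ hu
  have hm11 : (-1 : ZMod p) ≠ 1 := by
    intro h
    have h2 : (2 : ZMod p) = 0 := by linear_combination -h
    have h3 : ((2 : ℕ) : ZMod p) = 0 := by exact_mod_cast h2
    rw [ZMod.natCast_eq_zero_iff] at h3
    exact hp2 ((Nat.prime_dvd_prime_iff_eq hp1 Nat.prime_two).mp h3)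
  have hfix : ∀ g, g ∈ St ρ (w₀ + w₁) → ρ g w₀ = w₀ ∧ ρ g w₁ = w₁ := by
    intro g hg
    have hg' : ρ g (w₀ + w₁) = w₀ + w₁ := hg
    rw [map_add] at hg'
    have m0 := hmap g 0 w₀ hw₀
    have m1 := hmap g 1 w₁ hw₁
    have e0 : avg (p := p) ρ (yy x z (0 : ZMod p)) w₀ + avg (p := p) ρ (yy x z (0 : ZMod p)) w₁ = (p : ZMod q) • w₀ := by
      rw [hA0 0 w₀ hw₀, hA 0 1 w₁ hw₁ h01, add_zero]
    have e1 : avg (p := p) ρ (yy x z (1 : ZMod p)) w₀ + avg (p := p) ρ (yy x z (1 : ZMod p)) w₁ = (p : ZMod q) • w₁ := by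
      rw [hA0 1 w₁ hw₁, hA 1 0 w₀ hw₀ h01.symm, zero_add]
    have f0 := congrArg (avg (p := p) ρ (yy x z (0 : ZMod p))) hg'
    have f1 := congrArg (avg (p := p) ρ (yy x z (1 : ZMod p))) hg'
    rw [map_add, map_add, e0] at f0
    rw [map_add, map_add, e1] at f1
    rw [zero_add] at m0
    by_cases hd : c g = 0
    · rw [hd] at m0 m1
      rw [add_zero] at m1
      constructor
      · rw [hA0 0 _ m0, hA 0 1 _ m1 h01, add_zero] at f0
        have h5 : (p : ZMod q) • (ρ g w₀ - w₀) = 0 := by rw [smul_sub, f0, sub_self]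
        exact sub_eq_zero.mp (hpw h5)
      · rw [hA0 1 _ m1, hA 1 0 _ m0 h01.symm, zero_add] at f1
        have h5 : (p : ZMod q) • (ρ g w₁ - w₁) = 0 := by rw [smul_sub, f1, sub_self]
        exact sub_eq_zero.mp (hpw h5)
    · exfalso
      by_cases hd1 : 1 + c g = 0
      · have hd2 : c g = -1 := by linear_combination hd1
        rw [hd2] at m0
        rw [hd1] at m1
        rw [hA 1 (-1) _ m0 hm11.symm, hA 1 0 _ m1 h01.symm, add_zero] at f1
        exact hw₁0 (hpw f1.symm)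
      · rw [hA 0 _ _ m0 (Ne.symm hd), hA 0 _ _ m1 (Ne.symm hd1), add_zero] at f0
        exact hw₀0 (hpw f0.symm)
  have hv0 : w₀ + w₁ ≠ 0 := by
    intro h
    have f0 := congrArg (avg (p := p) ρ (yy x z (0 : ZMod p))) h
    rw [map_add, hA0 0 w₀ hw₀, hA 0 1 w₁ hw₁ h01, add_zero, map_zero] at f0
    exact hw₀0 (hpw f0)
  have hle : St ρ (w₀ + w₁) = St ρ w₀ := Subgroup.eq_of_le_of_card_ge (fun g hg => (hfix g hg).1)
    (hall w₀ _ hw₀0 hv0).le
  have hx0 : x ∈ St ρ w₀ := by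
    have h1 : ρ (yy x z (0 : ZMod p)) w₀ = w₀ := hw₀
    unfold yy at h1
    rwa [pz_zero, mul_one] at h1
  rw [← hle] at hx0
  have hx1 : ρ x w₁ = w₁ := (hfix x hx0).2
  have hy1 : ρ (yy x z (1 : ZMod p)) w₁ = w₁ := hw₁
  unfold yy at hy1
  rw [pz_one, rho_mul] at hy1
  have hz2 : ρ z w₁ = w₁ := by
    apply (ρ x).injective
    rw [hy1, hx1]
  have hbot := fixed_central ρ hρ hirr hz1 hzc
  have hmem : w₁ ∈ fixedSp ρ z := hz2
  rw [hbot, Submodule.mem_bot] at hmem
  exact hw₁0 hmem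

end Odd

section Two
variable {G V : Type*} [Group G] {q : ℕ} [hq : Fact q.Prime] [AddCommGroup V] [Module (ZMod q) V]

/-- `-1`-eigenspace. -/
def W1 (ρ : G →* (V ≃ₗ[ZMod q] V)) (x : G) : Submodule (ZMod q) V where
  carrier := {v | ρ x v = -v}
  add_mem' := by
    intro a b ha hb
    have ha' : ρ x a = -a := ha
    have hb' : ρ x b = -b := hb
    show ρ x (a + b) = -(a + b)
    rw [map_add, ha', hb', neg_add]
  zero_mem' := by
    show ρ x 0 = -0
    simp
  smul_mem' := by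
    intro c a ha
    have ha' : ρ x a = -a := ha
    show ρ x (c • a) = -(c • a)
    rw [map_smul, ha', smul_neg]

/-- The data in the case `p = 2`. -/
structure Two (ρ : G →* (V ≃ₗ[ZMod q] V)) (x z : G) : Prop where
  q2 : (2 : ZMod q) ≠ 0
  inj : Function.Injective ρ
  zneg : ∀ v, ρ z v = -v
  xx : x * x = 1
  x1 : x ≠ 1
  xz : x ≠ z
  conj : ∀ g : G, g * x * g⁻¹ = x ∨ g * x * g⁻¹ = x * z
  zc : ∀ g : G, g * z = z * g
  hall : ∀ v w : V, v ≠ 0 → w ≠ 0 → Nat.card (St ρ v) = Nat.card (St ρ w)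

namespace Two
variable {ρ : G →* (V ≃ₗ[ZMod q] V)} {x z : G}

theorem disj (T : Two ρ x z) {v : V} (h0 : ρ x v = v) (h1 : ρ x v = -v) : v = 0 := by
  have h2 : v = -v := h0.symm.trans h1
  have h3 : (2 : ZMod q) • v = 0 := by
    rw [two_smul]
    nth_rewrite 1 [h2]
    exact neg_add_cancel v
  exact (smul_eq_zero.mp h3).resolve_left T.q2

theorem xxv (T : Two ρ x z) (v : V) : ρ x (ρ x v) = v := by
  rw [← rho_mul, T.xx, map_one]; rfl

theorem decomp (T : Two ρ x z) (v : V) : ∃ a b, ρ x a = a ∧ ρ x b = -b ∧ v = a + b := by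
  refine ⟨(2 : ZMod q)⁻¹ • (v + ρ x v), (2 : ZMod q)⁻¹ • (v - ρ x v), ?_, ?_, ?_⟩
  · rw [map_smul, map_add, T.xxv, add_comm]
  · rw [map_smul, map_sub, T.xxv, ← smul_neg, neg_sub]
  · rw [← smul_add]
    have h : v + ρ x v + (v - ρ x v) = (2 : ZMod q) • v := by
      rw [two_smul]; abel
    rw [h, smul_smul, inv_mul_cancel₀ T.q2, one_smul]

theorem keep (T : Two ρ x z) {g : G} (h : g * x * g⁻¹ = x) (w : V) : ρ x (ρ g w) = ρ g (ρ x w) := by
  have h1 : g * x = x * g := by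
    calc g * x = g * x * g⁻¹ * g := by group
      _ = x * g := by rw [h]
  rw [← rho_mul, ← rho_mul, h1]

theorem swap (T : Two ρ x z) {g : G} (h : g * x * g⁻¹ = x * z) (w : V) : ρ x (ρ g w) = - ρ g (ρ x w) := by
  have h1 : g * x = x * z * g := by
    calc g * x = g * x * g⁻¹ * g := by group
      _ = x * z * g := by rw [h]
  rw [← rho_mul ρ g x, h1, rho_mul, rho_mul, T.zneg, map_neg, neg_neg]

theorem star (T : Two ρ x z) [Finite G] {w₀ w₁ : V} (h0 : ρ x w₀ = w₀) (h1 : ρ x w₁ = -w₁)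
    (ne0 : w₀ ≠ 0) (ne1 : w₁ ≠ 0) : ∃ g : G, g * x * g⁻¹ = x * z ∧ ρ g w₀ = w₁ ∧ ρ g w₁ = w₀ := by
  by_contra hno
  push Not at hno
  have hfix : ∀ g, g ∈ St ρ (w₀ + w₁) → ρ g w₀ = w₀ ∧ ρ g w₁ = w₁ := by
    intro g hg
    have hg' : ρ g (w₀ + w₁) = w₀ + w₁ := hg
    rw [map_add] at hg'
    rcases T.conj g with h | h
    · have a0 : ρ x (ρ g w₀) = ρ g w₀ := by rw [T.keep h, h0]
      have a1 : ρ x (ρ g w₁) = - ρ g w₁ := by rw [T.keep h, h1, map_neg]
      have hu : ρ g w₀ - w₀ = w₁ - ρ g w₁ := by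
        rw [sub_eq_sub_iff_add_eq_add, hg', add_comm]
      have hu0 : ρ g w₀ - w₀ = 0 := by
        apply T.disj
        · rw [map_sub, a0, h0]
        · rw [hu, map_sub, a1, h1]
          abel
      have e0 := sub_eq_zero.mp hu0
      refine ⟨e0, ?_⟩
      rw [e0] at hg'
      exact add_left_cancel hg'
    · exfalso
      have a0 : ρ x (ρ g w₀) = - ρ g w₀ := by rw [T.swap h, h0]
      have a1 : ρ x (ρ g w₁) = ρ g w₁ := by rw [T.swap h, h1, map_neg, neg_neg]
      have hu : ρ g w₀ - w₁ = w₀ - ρ g w₁ := by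
        rw [sub_eq_sub_iff_add_eq_add, hg']
      have hu0 : ρ g w₀ - w₁ = 0 := by
        apply T.disj
        · rw [hu, map_sub, a1, h0]
        · rw [map_sub, a0, h1]
          abel
      have e0 := sub_eq_zero.mp hu0
      have e1 : ρ g w₁ = w₀ := by
        rw [e0, add_comm] at hg'
        exact add_right_cancel hg'
      exact hno g h e0 e1
  have hv0 : w₀ + w₁ ≠ 0 := by
    intro h
    have h2 : w₀ = -w₁ := eq_neg_of_add_eq_zero_left h
    apply ne0
    apply T.disj h0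
    rw [h0]
    nth_rewrite 1 [h2]
    have h3 : ρ x w₀ = w₁ := by rw [h2, map_neg, h1, neg_neg]
    rw [h0] at h3
    rw [h3]
  have hle : St ρ (w₀ + w₁) = St ρ w₀ := Subgroup.eq_of_le_of_card_ge (fun g hg => (hfix g hg).1)
    (T.hall w₀ _ ne0 hv0).le
  have hx0 : x ∈ St ρ w₀ := h0
  rw [← hle] at hx0
  exact ne1 (T.disj (hfix x hx0).2 h1)

theorem ex0 (T : Two ρ x z) : ∃ a : V, a ≠ 0 ∧ ρ x a = a := by
  by_contra hno
  push Not at hno
  apply T.xz
  apply T.inj
  ext v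
  obtain ⟨a, b, ha, hb, rfl⟩ := T.decomp v
  have ha0 : a = 0 := by
    by_contra h
    exact hno a h ha
  rw [ha0, zero_add, T.zneg, hb]

theorem ex1 (T : Two ρ x z) : ∃ b : V, b ≠ 0 ∧ ρ x b = -b := by
  by_contra hno
  push Not at hno
  apply T.x1
  apply T.inj
  rw [map_one]
  ext v
  obtain ⟨a, b, ha, hb, rfl⟩ := T.decomp v
  have hb0 : b = 0 := by
    by_contra h
    exact hno b h hb
  rw [hb0, add_zero, ha]
  rfl

/-- fixed space as a submodule -/
theorem isCompl (T : Two ρ x z) : IsCompl (fixedSp ρ x) (W1 ρ x) := by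
  rw [isCompl_iff]
  constructor
  · rw [Submodule.disjoint_def]
    intro v h0 h1
    exact T.disj h0 h1
  · rw [codisjoint_iff, eq_top_iff]
    intro v _
    obtain ⟨a, b, ha, hb, rfl⟩ := T.decomp v
    exact Submodule.add_mem_sup ha hb

theorem dims [Finite G] [Finite V] (T : Two ρ x z) :
    Module.finrank (ZMod q) (W1 ρ x) = Module.finrank (ZMod q) (fixedSp ρ x) := by
  haveI : Module.Finite (ZMod q) V := Module.Finite.of_finite
  obtain ⟨a, ha0, ha⟩ := T.ex0
  obtain ⟨b, hb0, hb⟩ := T.ex1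
  obtain ⟨g, hg, -, -⟩ := T.star ha hb ha0 hb0
  have h1 : ∀ w ∈ fixedSp ρ x, (ρ g : V →ₗ[ZMod q] V) w ∈ W1 ρ x := by
    intro w hw
    have hw' : ρ x w = w := hw
    show ρ x (ρ g w) = - ρ g w
    rw [T.swap hg, hw']
  have h2 : ∀ w ∈ W1 ρ x, (ρ g : V →ₗ[ZMod q] V) w ∈ fixedSp ρ x := by
    intro w hw
    have hw' : ρ x w = -w := hw
    show ρ x (ρ g w) = ρ g w
    rw [T.swap hg, hw', map_neg, neg_neg]
  apply le_antisymm
  · refine LinearMap.finrank_le_finrank_of_injective (f := LinearMap.restrict (ρ g : V →ₗ[ZMod q] V) h2) ?_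
    intro u u' huu
    apply Subtype.ext
    have := congrArg Subtype.val huu
    exact (ρ g).injective this
  · refine LinearMap.finrank_le_finrank_of_injective (f := LinearMap.restrict (ρ g : V →ₗ[ZMod q] V) h1) ?_
    intro u u' huu
    apply Subtype.ext
    have := congrArg Subtype.val huu
    exact (ρ g).injective this

theorem card_V [Finite G] [Finite V] (T : Two ρ x z) :
    Nat.card V = q ^ (2 * Module.finrank (ZMod q) (fixedSp ρ x)) := by
  haveI : Module.Finite (ZMod q) V := Module.Finite.of_finite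
  have h1 := Submodule.finrank_add_eq_of_isCompl T.isCompl
  rw [T.dims] at h1
  have h2 := Module.natCard_eq_pow_finrank (K := ZMod q) (V := V)
  rw [Nat.card_zmod, ← h1] at h2
  rw [h2, two_mul]

/-- the dimension -/
theorem dim_cases [Finite G] [Finite V] (T : Two ρ x z) (hG : IsPGroup 2 G) :
    (∃ j : ℕ, q ^ Module.finrank (ZMod q) (fixedSp ρ x) = 2 ^ j + 1) ∧ (Module.finrank (ZMod q) (fixedSp ρ x) = 1 ∨
      (q = 3 ∧ Module.finrank (ZMod q) (fixedSp ρ x) = 2)) := by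
  classical
  haveI : Module.Finite (ZMod q) V := Module.Finite.of_finite
  have hq1 : q.Prime := hq.out
  have hq2 : q ≠ 2 := by
    intro h
    apply T.q2
    have h2 : ((2 : ℕ) : ZMod q) = 0 := by
      rw [ZMod.natCast_eq_zero_iff, h]
    exact_mod_cast h2
  have hq3 : 3 ≤ q := by
    have := hq1.two_le
    omega
  have hqo : Odd q := hq1.odd_of_ne_two hq2
  obtain ⟨w, hw0, hw⟩ := T.ex0
  obtain ⟨b, hb0, hb⟩ := T.ex1
  let H : Subgroup G := Subgroup.centralizer ({x} : Set G)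
  have hmemH : ∀ g, g ∈ H ↔ g * x = x * g := fun g => Subgroup.mem_centralizer_singleton_iff
  let ρ' : H →* (V ≃ₗ[ZMod q] V) := ρ.comp H.subtype
  have hρ' : ∀ (h : H) v, ρ' h v = ρ h.1 v := fun _ _ => rfl
  have h1 := orbit_stab ρ' w
  have hmem : ∀ u : V, (∃ h : H, ρ' h w = u) ↔ (ρ x u = u ∧ u ≠ 0) := by
    intro u
    constructor
    · rintro ⟨h, rfl⟩
      rw [hρ']
      constructor
      · have hk : h.1 * x * h.1⁻¹ = x := by rw [(hmemH h.1).mp h.2]; group
        rw [T.keep hk, hw]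
      · simpa using hw0
    · rintro ⟨hu, hu0⟩
      obtain ⟨g₁, hg₁, hg₁a, -⟩ := T.star hw hb hw0 hb0
      obtain ⟨g₂, hg₂, hg₂a, -⟩ := T.star hu hb hu0 hb0
      have hin : g₂⁻¹ * g₁ ∈ H := by
        rw [hmemH]
        have e1 : g₁ * x = x * z * g₁ := by
          calc g₁ * x = g₁ * x * g₁⁻¹ * g₁ := by group
            _ = x * z * g₁ := by rw [hg₁]
        have e2 : g₂ * x = x * z * g₂ := by
          calc g₂ * x = g₂ * x * g₂⁻¹ * g₂ := by group
            _ = x * z * g₂ := by rw [hg₂]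
        calc g₂⁻¹ * g₁ * x = g₂⁻¹ * (g₁ * x) := by group
          _ = g₂⁻¹ * (x * z * g₁) := by rw [e1]
          _ = (g₂⁻¹ * (x * z)) * g₁ := by group
          _ = (x * g₂⁻¹) * g₁ := by
            congr 1
            have e3 : x * z = g₂ * x * g₂⁻¹ := hg₂.symm
            rw [e3]
            group
          _ = x * (g₂⁻¹ * g₁) := by group
      refine ⟨⟨_, hin⟩, ?_⟩
      rw [hρ']
      show ρ (g₂⁻¹ * g₁) w = u
      rw [rho_mul, hg₁a, ← hg₂a, rho_inv_apply]
  have hcard : Nat.card {u : V | ∃ h : H, ρ' h w = u} = Nat.card {a : fixedSp ρ x // a ≠ 0} := by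
    refine Nat.card_congr ⟨fun u => ⟨⟨u.1, ((hmem u.1).mp u.2).1⟩, fun h => ((hmem u.1).mp u.2).2 (congrArg Subtype.val h)⟩,
      fun a => ⟨a.1.1, (hmem a.1.1).mpr ⟨a.1.2, fun h => a.2 (Subtype.ext h)⟩⟩, ?_, ?_⟩
    · intro u
      rfl
    · intro a
      rfl
  have hcW := Module.natCard_eq_pow_finrank (K := ZMod q) (V := fixedSp ρ x)
  rw [Nat.card_zmod] at hcW
  rw [hcard, Cfsg.Agent.S3370.card_ne_zero_sub, hcW] at h1
  set d := Module.finrank (ZMod q) (fixedSp ρ x) with hd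
  have hd1 : 1 ≤ d := by
    apply Nat.pos_of_ne_zero
    intro h0
    rw [hd, Submodule.finrank_eq_zero] at h0
    have : w ∈ fixedSp ρ x := hw
    rw [h0, Submodule.mem_bot] at this
    exact hw0 this
  have hdvd : q ^ d - 1 ∣ Nat.card G := by
    refine dvd_trans ⟨_, h1.symm⟩ (Subgroup.card_subgroup_dvd_card H)
  obtain ⟨n, hn⟩ := IsPGroup.iff_card.mp hG
  rw [hn] at hdvd
  obtain ⟨j, -, hj⟩ := (Nat.dvd_prime_pow Nat.prime_two).mp hdvd
  have hpos : 1 ≤ q ^ d := Nat.one_le_pow _ _ hq1.pos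
  have heq : q ^ d = 2 ^ j + 1 := by omega
  exact ⟨⟨j, heq⟩, Cfsg.Agent.S3370.r2 q d j hq1 hq3 hqo hd1 heq⟩

theorem disj3 [Finite G] (T : Two ρ x z) {w w' : V} (hw : ρ x w = w) (hw' : ρ x w' = -w')
    (ne : w ≠ 0) (ne' : w' ≠ 0) (hsp0 : ∀ u, ρ x u = u → ∃ a : ZMod q, u = a • w)
    (hsp1 : ∀ u, ρ x u = -u → ∃ b : ZMod q, u = b • w') :
    ∃ e : V ≃ₗ[ZMod q] (Fin 2 → ZMod q), ∀ f : (Fin 2 → ZMod q) ≃ₗ[ZMod q] (Fin 2 → ZMod q),
        (∃ g : G, f = e.symm.trans ((ρ g).trans e)) ↔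
        ∃ a s : ZMod q, a ≠ 0 ∧ (s = 1 ∨ s = -1) ∧
          ((∀ v, f v = ![a * v 0, s * a⁻¹ * v 1]) ∨ (∀ v, f v = ![s * a⁻¹ * v 1, a * v 0])) := by
  classical
  let L : (Fin 2 → ZMod q) →ₗ[ZMod q] V :=
    { toFun := fun c => c 0 • w + c 1 • w'
      map_add' := by
        intro c d
        simp only [Pi.add_apply, add_smul]
        abel
      map_smul' := by
        intro r c
        simp only [Pi.smul_apply, smul_eq_mul, mul_smul, RingHom.id_apply, smul_add] }
  have hL : ∀ c, L c = c 0 • w + c 1 • w' := fun _ => rfl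
  have hmem0 : ∀ a : ZMod q, ρ x (a • w) = a • w := fun a => by rw [map_smul, hw]
  have hmem1 : ∀ b : ZMod q, ρ x (b • w') = -(b • w') := fun b => by rw [map_smul, hw', smul_neg]
  have hind : ∀ a b : ZMod q, a • w + b • w' = 0 → a = 0 ∧ b = 0 := by
    intro a b h
    have h2 : a • w = -(b • w') := eq_neg_of_add_eq_zero_left h
    have h3 : a • w = 0 := by
      apply T.disj (hmem0 a)
      rw [h2, map_neg, hmem1, neg_neg]
    have h4 : b • w' = 0 := by
      rw [h3, zero_add] at h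
      exact h
    exact ⟨(smul_eq_zero.mp h3).resolve_right ne, (smul_eq_zero.mp h4).resolve_right ne'⟩
  have hinj : Function.Injective L := by
    rw [injective_iff_map_eq_zero]
    intro c hc
    rw [hL] at hc
    obtain ⟨h0, h1⟩ := hind _ _ hc
    funext i
    fin_cases i
    · exact h0
    · exact h1
  have hsurj : Function.Surjective L := by
    intro v
    obtain ⟨a, b, ha, hb, rfl⟩ := T.decomp v
    obtain ⟨s, rfl⟩ := hsp0 a ha
    obtain ⟨t, rfl⟩ := hsp1 b hb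
    exact ⟨![s, t], by rw [hL]; simp⟩
  let E : (Fin 2 → ZMod q) ≃ₗ[ZMod q] V := LinearEquiv.ofBijective L ⟨hinj, hsurj⟩
  have hE : ∀ c, E c = c 0 • w + c 1 • w' := fun _ => rfl
  have hEs : ∀ s t : ZMod q, E.symm (s • w + t • w') = ![s, t] := by
    intro s t
    rw [LinearEquiv.symm_apply_eq, hE]
    simp
  refine ⟨E.symm, ?_⟩
  have hdiag : ∀ (g : G) (α β : ZMod q), ρ g w = α • w → ρ g w' = β • w' →
      ∀ v, E.symm (ρ g (E v)) = ![α * v 0, β * v 1] := by
    intro g α β h1 h2 v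
    rw [hE, map_add, map_smul, map_smul, h1, h2, smul_smul, smul_smul, hEs, mul_comm (v 0), mul_comm (v 1)]
  have hanti : ∀ (g : G) (α β : ZMod q), ρ g w = β • w' → ρ g w' = α • w →
      ∀ v, E.symm (ρ g (E v)) = ![α * v 1, β * v 0] := by
    intro g α β h1 h2 v
    rw [hE, map_add, map_smul, map_smul, h1, h2, smul_smul, smul_smul, add_comm, hEs, mul_comm (v 0), mul_comm (v 1)]
  have htau : ∀ c : ZMod q, c ≠ 0 → ∃ g : G, ρ g w = c • w' ∧ ρ g w' = c⁻¹ • w := by
    intro c hc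
    obtain ⟨g, -, h1, h2⟩ := T.star hw (hmem1 c) ne (smul_ne_zero hc ne')
    refine ⟨g, h1, ?_⟩
    rw [map_smul] at h2
    rw [← h2, smul_smul, inv_mul_cancel₀ hc, one_smul]
  have hfaith : ∀ g h : G, ρ g w = ρ h w → ρ g w' = ρ h w' → g = h := by
    intro g h h1 h2
    apply T.inj
    ext v
    obtain ⟨c, rfl⟩ := hsurj v
    rw [hL, map_add, map_smul, map_smul, map_add, map_smul, map_smul, h1, h2]
  have hcases : ∀ g : G, (∃ α β : ZMod q, ρ g w = α • w ∧ ρ g w' = β • w') ∨ (∃ α β : ZMod q, ρ g w = β • w' ∧ ρ g w' = α • w) := by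
    intro g
    rcases T.conj g with h | h
    · left
      obtain ⟨α, hα⟩ := hsp0 (ρ g w) (by rw [T.keep h, hw])
      obtain ⟨β, hβ⟩ := hsp1 (ρ g w') (by rw [T.keep h, hw', map_neg])
      exact ⟨α, β, hα, hβ⟩
    · right
      obtain ⟨β, hβ⟩ := hsp1 (ρ g w) (by rw [T.swap h, hw])
      obtain ⟨α, hα⟩ := hsp0 (ρ g w') (by rw [T.swap h, hw', map_neg, neg_neg])
      exact ⟨α, β, hβ, hα⟩
  obtain ⟨τ₁, hτ₁a, hτ₁b⟩ : ∃ g, ρ g w = w' ∧ ρ g w' = w := by
    obtain ⟨g, h1, h2⟩ := htau 1 one_ne_zero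
    exact ⟨g, by rw [h1, one_smul], by rw [h2, inv_one, one_smul]⟩
  have hv0 : w + w' ≠ 0 := by
    intro h
    have := hind 1 1 (by rw [one_smul, one_smul]; exact h)
    exact one_ne_zero this.1
  have hstv : ∀ h ∈ St ρ (w + w'), h = 1 ∨ h = τ₁ := by
    intro h hh
    have hh' : ρ h (w + w') = w + w' := hh
    rw [map_add] at hh'
    rcases hcases h with ⟨α, β, h1, h2⟩ | ⟨α, β, h1, h2⟩
    · left
      rw [h1, h2] at hh'
      obtain ⟨ha, hb⟩ := hind (α - 1) (β - 1) (by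
        rw [sub_smul, sub_smul, one_smul, one_smul, sub_add_sub_comm, hh', sub_self])
      have ha1 : α = 1 := sub_eq_zero.mp ha
      have hb1 : β = 1 := sub_eq_zero.mp hb
      apply hfaith
      · rw [h1, ha1, one_smul, map_one]; rfl
      · rw [h2, hb1, one_smul, map_one]; rfl
    · right
      rw [h1, h2] at hh'
      obtain ⟨ha, hb⟩ := hind (α - 1) (β - 1) (by
        rw [sub_smul, sub_smul, one_smul, one_smul, sub_add_sub_comm, add_comm (α • w), hh', sub_self])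
      have ha1 : α = 1 := sub_eq_zero.mp ha
      have hb1 : β = 1 := sub_eq_zero.mp hb
      apply hfaith
      · rw [h1, hb1, one_smul, hτ₁a]
      · rw [h2, ha1, one_smul, hτ₁b]
  have hcardv : Nat.card (St ρ (w + w')) ≤ 2 := by
    have hh0 : Nat.card (St ρ (w + w')) = ((St ρ (w + w') : Subgroup G) : Set G).ncard := Nat.card_coe_set_eq _
    rw [hh0]
    have h1 : ((St ρ (w + w') : Subgroup G) : Set G) ⊆ ({1, τ₁} : Set G) := by
      intro h hh
      rcases hstv h hh with h2 | h2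
      · left; exact h2
      · right; exact h2
    refine (Set.ncard_le_ncard h1 (Set.toFinite _)).trans ?_
    exact (Set.ncard_insert_le _ _).trans (by simp)
  have hL0 : ∀ g, ρ g w = w → g = 1 ∨ g = x := by
    intro g hg
    by_contra hcon
    push Not at hcon
    obtain ⟨hg1, hgx⟩ := hcon
    have h3 : 3 ≤ Nat.card (St ρ w) := by
      have hh0 : Nat.card (St ρ w) = ((St ρ w : Subgroup G) : Set G).ncard := Nat.card_coe_set_eq _
      rw [hh0]
      have h4 : ({1, x, g} : Set G).ncard = 3 := Set.ncard_eq_three.mpr ⟨1, x, g, T.x1.symm, hg1.symm, hgx.symm, rfl⟩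
      rw [← h4]
      refine Set.ncard_le_ncard ?_ (Set.toFinite _)
      rintro h (rfl | rfl | rfl)
      · exact one_mem _
      · exact hw
      · exact hg
    have h5 := T.hall w (w + w') ne hv0
    omega
  have hrel : ∀ (g : G) (α β : ZMod q), ρ g w = α • w → ρ g w' = β • w' →
      α ≠ 0 ∧ β ≠ 0 ∧ (α * β = 1 ∨ α * β = -1) := by
    intro g α β h1 h2
    have hα : α ≠ 0 := by
      rintro rfl
      rw [zero_smul] at h1
      exact ne ((map_eq_zero_iff (ρ g) (ρ g).injective).mp h1)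
    have hβ : β ≠ 0 := by
      rintro rfl
      rw [zero_smul] at h2
      exact ne' ((map_eq_zero_iff (ρ g) (ρ g).injective).mp h2)
    obtain ⟨τ, hτa, hτb⟩ := htau β hβ
    have hτinv : ρ τ⁻¹ (β • w') = w := by rw [← hτa, rho_inv_apply]
    have hτinv2 : ρ τ⁻¹ w = β • w' := by
      have h3 : w = ρ τ (β • w') := by rw [map_smul, hτb, smul_smul, mul_inv_cancel₀ hβ, one_smul]
      calc ρ τ⁻¹ w = ρ τ⁻¹ (ρ τ (β • w')) := by rw [← h3]
        _ = β • w' := rho_inv_apply ρ τ _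
    have hw1 : ρ (τ⁻¹ * g * τ₁) w = w := by
      rw [rho_mul, rho_mul, hτ₁a, h2, hτinv]
    have hw2 : ρ (τ⁻¹ * g * τ₁) w' = (α * β) • w' := by
      rw [rho_mul, rho_mul, hτ₁b, h1, map_smul, hτinv2, smul_smul]
    refine ⟨hα, hβ, ?_⟩
    rcases hL0 _ hw1 with h3 | h3
    · left
      rw [h3, map_one] at hw2
      have h4 : (α * β) • w' = (1 : ZMod q) • w' := by rw [one_smul]; exact hw2.symm
      exact smul_left_injective _ ne' h4
    · right
      rw [h3, hw'] at hw2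
      have h4 : (α * β) • w' = (-1 : ZMod q) • w' := by rw [neg_one_smul]; exact hw2.symm
      exact smul_left_injective _ ne' h4
  intro f
  constructor
  · rintro ⟨g, rfl⟩
    rcases hcases g with ⟨α, β, h1, h2⟩ | ⟨α, β, h1, h2⟩
    · obtain ⟨hα, hβ, hs⟩ := hrel g α β h1 h2
      refine ⟨α, α * β, hα, hs, Or.inl ?_⟩
      intro v
      have h5 := hdiag g α β h1 h2 v
      show E.symm (ρ g (E v)) = _
      rw [h5, show α * β * α⁻¹ = β by field_simp]
    · have h3 : ρ (g * τ₁) w = α • w := by rw [rho_mul, hτ₁a, h2]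
      have h4 : ρ (g * τ₁) w' = β • w' := by rw [rho_mul, hτ₁b, h1]
      obtain ⟨hα, hβ, hs⟩ := hrel _ α β h3 h4
      refine ⟨β, α * β, hβ, hs, Or.inr ?_⟩
      intro v
      have h5 := hanti g α β h1 h2 v
      show E.symm (ρ g (E v)) = _
      rw [h5, show α * β * β⁻¹ = α by field_simp]
  · rintro ⟨a, s, ha, hs, hf⟩
    obtain ⟨gs, hgs1, hgs2⟩ : ∃ gs : G, ρ gs w = w ∧ ρ gs w' = s • w' := by
      rcases hs with rfl | rfl
      · exact ⟨1, by rw [map_one]; rfl, by rw [map_one, one_smul]; rfl⟩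
      · exact ⟨x, hw, by rw [hw', neg_one_smul]⟩
    rcases hf with hf | hf
    · obtain ⟨τ, hτa, hτb⟩ := htau a⁻¹ (inv_ne_zero ha)
      refine ⟨τ * τ₁ * gs, ?_⟩
      have h1 : ρ (τ * τ₁ * gs) w = a • w := by rw [rho_mul, rho_mul, hgs1, hτ₁a, hτb, inv_inv]
      have h2 : ρ (τ * τ₁ * gs) w' = (s * a⁻¹) • w' := by
        rw [rho_mul, rho_mul, hgs2, map_smul, map_smul, hτ₁b, hτa, smul_smul]
      apply LinearEquiv.ext
      intro v
      show f v = E.symm (ρ _ (E v))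
      rw [hf, hdiag _ _ _ h1 h2 v]
    · obtain ⟨τ, hτa, hτb⟩ := htau a ha
      refine ⟨τ * gs, ?_⟩
      have h1 : ρ (τ * gs) w = a • w' := by rw [rho_mul, hgs1, hτa]
      have h2 : ρ (τ * gs) w' = (s * a⁻¹) • w := by rw [rho_mul, hgs2, map_smul, hτb, smul_smul]
      apply LinearEquiv.ext
      intro v
      show f v = E.symm (ρ _ (E v))
      rw [hf, hanti _ _ _ h1 h2 v]

theorem main [Finite G] [Finite V] (T : Two ρ x z) (hG : IsPGroup 2 G) :
    (Nat.card V = 81 ∧ q = 3) ∨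
    (Nat.card V = q ^ 2 ∧ (∃ m : ℕ, q = 2 ^ m + 1) ∧
      ∃ e : V ≃ₗ[ZMod q] (Fin 2 → ZMod q), ∀ f : (Fin 2 → ZMod q) ≃ₗ[ZMod q] (Fin 2 → ZMod q),
        (∃ g : G, f = e.symm.trans ((ρ g).trans e)) ↔
        ∃ a s : ZMod q, a ≠ 0 ∧ (s = 1 ∨ s = -1) ∧
          ((∀ v, f v = ![a * v 0, s * a⁻¹ * v 1]) ∨ (∀ v, f v = ![s * a⁻¹ * v 1, a * v 0]))) := by
  obtain ⟨⟨j, hj⟩, h | ⟨h3, h2⟩⟩ := T.dim_cases hG
  · right
    have hcV := T.card_V
    rw [h] at hcV hj
    refine ⟨by rw [hcV], ⟨j, by rw [← hj, pow_one]⟩, ?_⟩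
    obtain ⟨w, hw0, hw⟩ := T.ex0
    obtain ⟨w', hw'0, hw'⟩ := T.ex1
    have hd1 : Module.finrank (ZMod q) (W1 ρ x) = 1 := by rw [T.dims, h]
    have hs0 := (finrank_eq_one_iff_of_nonzero' (⟨w, hw⟩ : fixedSp ρ x) (fun h => hw0 (congrArg Subtype.val h))).mp h
    have hs1 := (finrank_eq_one_iff_of_nonzero' (⟨w', hw'⟩ : W1 ρ x) (fun h => hw'0 (congrArg Subtype.val h))).mp hd1
    refine T.disj3 hw hw' hw0 hw'0 ?_ ?_
    · intro u hu
      obtain ⟨c, hc⟩ := hs0 ⟨u, hu⟩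
      exact ⟨c, (congrArg Subtype.val hc).symm⟩
    · intro u hu
      obtain ⟨c, hc⟩ := hs1 ⟨u, hu⟩
      exact ⟨c, (congrArg Subtype.val hc).symm⟩
  · left
    refine ⟨?_, h3⟩
    rw [T.card_V, h2, h3]
    norm_num

end Two

end Two

section DSD
variable {G V : Type*} [Group G] [Finite G] {q : ℕ} [hq : Fact q.Prime] [AddCommGroup V] [Module (ZMod q) V]
  (ρ : G →* (V ≃ₗ[ZMod q] V))

theorem stab_two (hG : IsPGroup 2 G) {u z : G} (hidx : (zpowers u).index = 2) (hzU : z ∈ zpowers u)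
    (hzo : orderOf z = 2) (hfix : ∀ v : V, v ≠ 0 → ρ z v ≠ v) (hnt : ∀ v : V, v ≠ 0 → St ρ v ≠ ⊥)
    (v : V) (hv : v ≠ 0) : Nat.card {g : G // ρ g v = v} = 2 := by
  have hU : ∀ g ∈ St ρ v, g ∈ zpowers u → g = 1 := by
    intro g hg hgu
    by_contra hg1
    obtain ⟨k, hk⟩ := (IsPGroup.iff_orderOf.mp hG) g
    have hk0 : k ≠ 0 := by
      rintro rfl
      rw [pow_zero, orderOf_eq_one_iff] at hk
      exact hg1 hk
    obtain ⟨l, rfl⟩ : ∃ l, k = l + 1 := ⟨k - 1, by omega⟩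
    have hw2 : (g ^ (2 ^ l)) ^ 2 = 1 := by
      rw [← pow_mul, ← pow_succ, ← hk, pow_orderOf_eq_one]
    have hw1 : g ^ (2 ^ l) ≠ 1 := by
      intro h
      have h3 := orderOf_dvd_of_pow_eq_one h
      rw [hk] at h3
      have h4 := (Nat.pow_dvd_pow_iff_le_right (by norm_num)).mp h3
      omega
    have hwU : g ^ (2 ^ l) ∈ zpowers u := pow_mem hgu _
    have hwS : g ^ (2 ^ l) ∈ St ρ v := pow_mem hg _
    have hz2 : z ^ 2 = 1 := by rw [← hzo]; exact pow_orderOf_eq_one z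
    have hz1 : z ≠ 1 := by
      rintro rfl
      rw [orderOf_one] at hzo
      omega
    have huq := Cfsg.Agent.Lib.PGroup.CyclicMax2.uniqueP_of_isCyclic (p := 2) (A := zpowers u)
    have h1 := huq ⟨z, hzU⟩ ⟨_, hwU⟩ (Subtype.ext hz2) (Subtype.ext hw2)
      (fun h => hz1 (congrArg Subtype.val h)) (fun h => hw1 (congrArg Subtype.val h))
    obtain ⟨i, hi⟩ := mem_zpowers_iff.mp h1
    have hzw : (g ^ (2 ^ l)) ^ i = z := congrArg Subtype.val hi
    have hzS : z ∈ St ρ v := by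
      rw [← hzw]
      exact zpow_mem hwS i
    exact hfix v hv hzS
  obtain ⟨a, haS, ha1⟩ := (Subgroup.bot_or_exists_ne_one (St ρ v)).resolve_left (hnt v hv)
  have haU : a ∉ zpowers u := fun h => ha1 (hU a haS h)
  rw [Nat.card_eq_two_iff' (⟨1, by simp⟩ : {g : G // ρ g v = v})]
  refine ⟨⟨a, haS⟩, fun h => ha1 (congrArg Subtype.val h), ?_⟩
  rintro ⟨b, hb⟩ hb1
  apply Subtype.ext
  have hb1' : b ≠ 1 := fun h => hb1 (Subtype.ext h)
  have hbS : b ∈ St ρ v := hb
  have hbU : b ∉ zpowers u := fun h => hb1' (hU b hbS h)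
  have h2 : a⁻¹ * b ∈ zpowers u :=
    (Subgroup.mul_mem_iff_of_index_two hidx).mpr (iff_of_false (by simpa using haU) hbU)
  have h3 : a⁻¹ * b = 1 := hU _ (mul_mem (inv_mem haS) hbS) h2
  exact (inv_mul_eq_one.mp h3).symm

end DSD

section DihData
variable {G : Type*} [Group G] [Finite G]

theorem zmod2_cases : ∀ i : ZMod 2, i = 0 ∨ i = 1 := by decide

open DihedralGroup in
theorem dih_center {n : ℕ} (i : ZMod n) (hi : i + i = 0) (d : DihedralGroup n) : d * r i = r i * d := by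
  cases d with
  | r j => rw [r_mul_r, r_mul_r, add_comm]
  | sr j =>
    rw [sr_mul_r, r_mul_sr]
    congr 1
    linear_combination hi

open DihedralGroup in
theorem dih_data {m : ℕ} (hm : 3 ≤ m) (e : G ≃* DihedralGroup (2 ^ m)) :
    ∃ u z : G, (zpowers u).index = 2 ∧ z ∈ zpowers u ∧ orderOf z = 2 ∧ z ∈ center G ∧
      Nat.card {g : G // orderOf g = 2 ∧ g ∉ center G} = 2 ^ m := by
  haveI : NeZero (2 ^ m) := ⟨by positivity⟩
  have hcard : Nat.card G = 2 * 2 ^ m := by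
    rw [Nat.card_congr e.toEquiv, DihedralGroup.nat_card]
  have hou : orderOf (e.symm (r 1)) = 2 ^ m := by
    rw [MulEquiv.orderOf_eq, DihedralGroup.orderOf_r_one]
  have h2m : 2 ^ m = 2 * 2 ^ (m - 1) := by
    rw [← pow_succ']; congr 1; omega
  set i₀ : ZMod (2 ^ m) := ((2 ^ (m - 1) : ℕ) : ZMod (2 ^ m)) with hi₀
  have hi₀2 : i₀ + i₀ = 0 := by
    rw [hi₀, ← Nat.cast_add, ← two_mul, ← h2m]
    exact ZMod.natCast_self _
  have hi₀0 : i₀ ≠ 0 := by
    rw [hi₀, Ne, ZMod.natCast_eq_zero_iff]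
    intro h
    have := (Nat.pow_dvd_pow_iff_le_right (by norm_num)).mp h
    omega
  have h20 : (2 : ZMod (2 ^ m)) ≠ 0 := by
    intro h
    have h3 : ((2 : ℕ) : ZMod (2 ^ m)) = 0 := by exact_mod_cast h
    rw [ZMod.natCast_eq_zero_iff] at h3
    have h4 := Nat.le_of_dvd (by norm_num) h3
    have h5 : 2 ^ 3 ≤ 2 ^ m := Nat.pow_le_pow_right (by norm_num) hm
    omega
  have hcen : ∀ i : ZMod (2 ^ m), i + i = 0 → e.symm (r i) ∈ center G := by
    intro i hi
    rw [mem_center_iff]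
    intro g
    apply e.injective
    rw [map_mul, map_mul, MulEquiv.apply_symm_apply]
    exact dih_center i hi (e g)
  have hsr : ∀ i : ZMod (2 ^ m), orderOf (e.symm (sr i)) = 2 ∧ e.symm (sr i) ∉ center G := by
    intro i
    constructor
    · rw [MulEquiv.orderOf_eq, DihedralGroup.orderOf_sr]
    · intro hc
      have h1 := (mem_center_iff.mp hc) (e.symm (r 1))
      apply h20
      have h3 := e.symm.injective (a₁ := r 1 * sr i) (a₂ := sr i * r 1) (by rw [map_mul, map_mul]; exact h1)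
      rw [r_mul_sr, sr_mul_r] at h3
      have h4 : i - 1 = i + 1 := sr.inj h3
      linear_combination -h4
  refine ⟨e.symm (r 1), e.symm (r i₀), ?_, ?_, ?_, hcen i₀ hi₀2, ?_⟩
  · have h1 := Subgroup.card_mul_index (zpowers (e.symm (r (1 : ZMod (2 ^ m)))))
    rw [Nat.card_zpowers, hou, hcard, mul_comm 2] at h1
    exact Nat.eq_of_mul_eq_mul_left (by positivity) h1
  · have : e.symm (r i₀) = (e.symm (r 1)) ^ (2 ^ (m - 1)) := by
      rw [← map_pow, DihedralGroup.r_one_pow]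
    rw [this]
    exact npow_mem_zpowers _ _
  · rw [MulEquiv.orderOf_eq]
    apply orderOf_eq_prime
    · rw [pow_two, r_mul_r, hi₀2]
      rfl
    · intro h
      exact hi₀0 (r.inj h)
  · rw [← Nat.card_zmod (2 ^ m)]
    refine (Nat.card_congr (Equiv.ofBijective (fun i : ZMod (2 ^ m) => (⟨e.symm (sr i), hsr i⟩ : {g : G // orderOf g = 2 ∧ g ∉ center G})) ⟨?_, ?_⟩)).symm
    · intro i j h
      have h1 : e.symm (sr i) = e.symm (sr j) := congrArg Subtype.val h
      exact sr.inj (e.symm.injective h1)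
    · rintro ⟨g, hg2, hgc⟩
      have hd : e.symm (e g) = g := e.symm_apply_apply g
      cases hdg : e g with
      | r i =>
        exfalso
        rw [hdg] at hd
        apply hgc
        rw [← hd]
        apply hcen
        have h1 : g ^ 2 = 1 := by rw [← hg2]; exact pow_orderOf_eq_one g
        have h2 : e g ^ 2 = 1 := by rw [← map_pow, h1, map_one]
        rw [hdg, pow_two, r_mul_r] at h2
        exact r.inj h2
      | sr i =>
        rw [hdg] at hd
        exact ⟨i, Subtype.ext hd⟩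

open QuaternionGroup in
theorem quat_inv {n : ℕ} (hn : n ≠ 0) (d : QuaternionGroup n) (h1 : d * d = 1) (h2 : d ≠ 1) :
    d = a ((n : ℕ) : ZMod (2 * n)) := by
  haveI : NeZero (2 * n) := ⟨by positivity⟩
  cases d with
  | a i =>
    rw [a_mul_a, one_def] at h1
    have h3 : i + i = 0 := a.inj h1
    have hi0 : i ≠ 0 := by
      rintro rfl
      exact h2 rfl
    congr 1
    have h4 : ((i.val + i.val : ℕ) : ZMod (2 * n)) = 0 := by
      push_cast
      rw [ZMod.natCast_zmod_val, h3]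
    rw [ZMod.natCast_eq_zero_iff] at h4
    have h5 : n ∣ i.val := by
      rw [← two_mul] at h4
      exact Nat.dvd_of_mul_dvd_mul_left (by norm_num) h4
    have h6 : i.val < 2 * n := ZMod.val_lt i
    obtain ⟨c, hc⟩ := h5
    have hc0 : c ≠ 0 := by
      rintro rfl
      rw [mul_zero] at hc
      apply hi0
      rw [← ZMod.natCast_zmod_val i, hc]
      simp
    have hc1 : c = 1 := by
      by_contra hne
      have : 2 ≤ c := by omega
      have : n * 2 ≤ n * c := Nat.mul_le_mul_left n this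
      omega
    rw [← ZMod.natCast_zmod_val i, hc, hc1, mul_one]
  | xa i =>
    exfalso
    rw [xa_mul_xa, one_def] at h1
    have h3 : ((n : ℕ) : ZMod (2 * n)) + i - i = 0 := a.inj h1
    rw [add_sub_cancel_right, ZMod.natCast_eq_zero_iff] at h3
    have h4 := Nat.le_of_dvd (Nat.pos_of_ne_zero hn) h3
    omega

open Cfsg.Agent.Lib.PGroup.QuasiDihedral Cfsg.Agent.Lib.PGroup.PowZ in
theorem qd_data {n : ℕ} {x y : G} (H : QD n x y) :
    ∃ u z : G, (zpowers u).index = 2 ∧ z ∈ zpowers u ∧ orderOf z = 2 ∧ z ∈ center G ∧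
      Nat.card {g : G // orderOf g = 2 ∧ g ∉ center G} = 2 ^ (n - 1) := by
  have hcen : powZ x (hh n) ∈ center G := by
    rw [mem_center_iff]
    intro g
    rcases H.cases g with ⟨a, rfl⟩ | ⟨a, rfl⟩
    · rw [H.mul_pp, H.mul_pp, add_comm]
    · have h1 := H.conj_p (hh n)
      rw [ee_mul_hh H.hn] at h1
      have h2 : y * powZ x (hh n) = powZ x (hh n) * y := by
        calc y * powZ x (hh n) = y * powZ x (hh n) * y⁻¹ * y := by group
          _ = _ := by rw [h1]
      rw [mul_assoc, h2, ← mul_assoc, H.mul_pp, ← mul_assoc, H.mul_pp, add_comm]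
  have hne : y * x * y⁻¹ ≠ x := by
    intro h1
    rw [H.conj_x] at h1
    have h2 : powZ x (ee n) = powZ x (1 : ZMod (2 ^ n)) := by
      rw [h1, powZ_one_of_one_lt H.hx]
    have h3 := H.p_inj.1 h2
    have h4 : (4 : ZMod (2 ^ n)) = 0 := by
      have h5 := two_mul_hh H.hn
      have h6 : hh n = 2 := by
        have : ee n = hh n - 1 := rfl
        rw [this] at h3
        linear_combination h3
      rw [h6] at h5
      linear_combination h5
    have h5 : ((4 : ℕ) : ZMod (2 ^ n)) = 0 := by exact_mod_cast h4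
    rw [ZMod.natCast_eq_zero_iff] at h5
    have h6 := Nat.le_of_dvd (by norm_num) h5
    have h7 : 2 ^ 3 ≤ 2 ^ n := Nat.pow_le_pow_right (by norm_num) H.hn
    omega
  have hA : ∀ a : ZMod (2 ^ n), a ∈ A n (n - 1) ↔ hh n * a = 0 := fun a => Iff.rfl
  have hmem : ∀ a : A n (n - 1), orderOf (powZ x a.1 * y) = 2 ∧ powZ x a.1 * y ∉ center G := by
    intro a
    constructor
    · rw [orderOf_eq_prime_iff]
      refine ⟨?_, ?_⟩
      · rw [H.sq_py, (hA a.1).mp a.2, powZ_zero]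
      · intro h
        exact H.py_ne_p a.1 0 (by rw [h, powZ_zero])
    · intro hc
      have h1 := (mem_center_iff.mp hc) x
      apply hne
      have h2 : y * x = x * y := by
        have h3 : powZ x a.1 * x = x * powZ x a.1 := by
          have := powZ_comm H.hx a.1 (1 : ZMod (2 ^ n))
          rwa [powZ_one_of_one_lt H.hx] at this
        apply mul_left_cancel (a := powZ x a.1)
        calc powZ x a.1 * (y * x) = powZ x a.1 * y * x := by group
          _ = x * (powZ x a.1 * y) := h1.symm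
          _ = (x * powZ x a.1) * y := by group
          _ = (powZ x a.1 * x) * y := by rw [h3]
          _ = powZ x a.1 * (x * y) := by group
      rw [h2]
      group
  refine ⟨x, powZ x (hh n), H.index_zpowers, powZ_mem_zpowers x _, (H.orderOf_p_eq_two_iff _).mpr rfl, hcen, ?_⟩
  rw [← card_A (n := n) (k := n - 1) (by omega)]
  refine (Nat.card_congr (Equiv.ofBijective (fun a : A n (n - 1) => (⟨powZ x a.1 * y, hmem a⟩ : {g : G // orderOf g = 2 ∧ g ∉ center G})) ⟨?_, ?_⟩)).symm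
  · intro a b h
    have h1 : powZ x a.1 * y = powZ x b.1 * y := congrArg Subtype.val h
    exact Subtype.ext (H.py_inj.mp h1)
  · rintro ⟨g, hg2, hgc⟩
    rcases H.cases g with ⟨a, rfl⟩ | ⟨a, rfl⟩
    · exfalso
      have := (H.orderOf_p_eq_two_iff a).mp hg2
      rw [this] at hgc
      exact hgc hcen
    · have h1 : (powZ x a * y) ^ 2 = 1 := by
        have h0 := pow_orderOf_eq_one (powZ x a * y)
        rwa [hg2] at h0
      rw [H.sq_py, H.p_eq_one] at h1
      exact ⟨⟨a, (hA a).mpr h1⟩, rfl⟩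

end DihData


/-- Let q be a prime, V a non-trivial finite vector space over the field with q elements, and G a finite p-group (p prime) acting faithfully and linearly on V such that all G-orbits on the non-zero vectors have the same size. Then one of the following holds: G is cyclic or generalized quaternion and acts semiregularly on the non-zero vectors; or V has q² elements with q = 2^m − 1 and G is dihedral of order 2^(m+1) or semidihedral of order 2^(m+2); or V has q² elements with q = 2^m + 1 and, in suitable coordinates V = F_q², G is exactly the group of maps (x, y) ↦ (a x, ± a⁻¹ y) and (x, y) ↦ (± a⁻¹ y, a x) with a ≠ 0; or V has 81 elements (q = 3) and G is a 2-group. -/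
theorem result (q : ℕ) [Fact q.Prime] {V : Type*} [AddCommGroup V] [Module (ZMod q) V] [Finite V] [Nontrivial V]
    {G : Type*} [Group G] [Finite G] (p : ℕ) [Fact p.Prime] (hG : IsPGroup p G)
    (ρ : G →* (V ≃ₗ[ZMod q] V)) (hρ : Function.Injective ρ)
    (hhalf : ∀ v w : V, v ≠ 0 → w ≠ 0 → Nat.card {u : V | ∃ g : G, ρ g v = u} = Nat.card {u : V | ∃ g : G, ρ g w = u}) :
    ((IsCyclic G ∨ ∃ n : ℕ, Nonempty (G ≃* QuaternionGroup n)) ∧ ∀ v : V, v ≠ 0 → ∀ g : G, ρ g v = v → g = 1) ∨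
    (Nat.card V = q ^ 2 ∧ ∃ m : ℕ, q = 2 ^ m - 1 ∧
      (Nonempty (G ≃* DihedralGroup (2 ^ m)) ∨ (Cfsg.IsQuasiDihedral G ∧ Nat.card G = 2 ^ (m + 2)))) ∨
    (Nat.card V = q ^ 2 ∧ (∃ m : ℕ, q = 2 ^ m + 1) ∧
      ∃ e : V ≃ₗ[ZMod q] (Fin 2 → ZMod q), ∀ f : (Fin 2 → ZMod q) ≃ₗ[ZMod q] (Fin 2 → ZMod q),
        (∃ g : G, f = e.symm.trans ((ρ g).trans e)) ↔
        ∃ a s : ZMod q, a ≠ 0 ∧ (s = 1 ∨ s = -1) ∧
          ((∀ v, f v = ![a * v 0, s * a⁻¹ * v 1]) ∨ (∀ v, f v = ![s * a⁻¹ * v 1, a * v 0]))) ∨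
    (Nat.card V = 81 ∧ q = 3 ∧ p = 2) := by
  classical
  have hp1 : p.Prime := Fact.out
  have hq1 : q.Prime := Fact.out
  have hall := card_St_eq ρ hhalf
  by_cases hqp : (p : ZMod q) = 0
  · left
    have hdvd : q ∣ p := (ZMod.natCast_eq_zero_iff p q).mp hqp
    have hpq : q = p := (Nat.prime_dvd_prime_iff_eq hq1 hp1).mp hdvd
    subst hpq
    letI : MulAction G V := MulAction.compHom V ρ
    have hact : ∀ (g : G) (v : V), g • v = ρ g v := fun _ _ => rfl
    obtain ⟨v₀, hv₀⟩ := exists_ne (0 : V)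
    have hord : addOrderOf v₀ = q := by
      apply addOrderOf_eq_prime _ hv₀
      rw [← Nat.cast_smul_eq_nsmul (ZMod q), CharP.cast_eq_zero, zero_smul]
    have hdv : q ∣ Nat.card V := by
      rw [← hord]
      exact addOrderOf_dvd_natCard v₀
    have hfix0 : (0 : V) ∈ MulAction.fixedPoints G V := by
      intro g
      rw [hact, map_zero]
    obtain ⟨b, hb, hb0⟩ := hG.exists_fixed_point_of_prime_dvd_card_of_fixed_point V hdv hfix0
    have htop : St ρ b = ⊤ := by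
      rw [eq_top_iff]
      intro g _
      exact hb g
    have hall' : ∀ w : V, w ≠ 0 → St ρ w = ⊤ := by
      intro w hw
      apply Subgroup.eq_top_of_card_eq
      rw [hall w b hw (Ne.symm hb0), htop, Subgroup.card_top]
    have hone : ∀ g : G, g = 1 := by
      intro g
      apply hρ
      rw [map_one]
      ext v
      by_cases hv : v = 0
      · rw [hv, map_zero]
        rfl
      · have : g ∈ St ρ v := by rw [hall' v hv]; trivial
        exact this
    haveI : Subsingleton G := ⟨fun a b => by rw [hone a, hone b]⟩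
    exact ⟨Or.inl isCyclic_of_subsingleton, fun v _ g _ => hone g⟩
  by_cases hsr : ∀ v : V, v ≠ 0 → ∀ g : G, ρ g v = v → g = 1
  · left
    refine ⟨?_, hsr⟩
    have hu := semireg_uniqueP ρ hG hqp hsr
    rcases Cfsg.Agent.Lib.PGroup.CyclicMax2.cyclic_or_quaternion hG hu with h | ⟨rfl, u, b, n, hSC, hn2, hcard, hb, h1, h2⟩
    · exact Or.inl h
    · exact Or.inr ⟨_, Cfsg.Agent.Lib.PGroup.CyclicMax2.quaternion_of_data (by omega) hSC.hu hcard hb h1 h2⟩
  -- all stabilizers are non-trivial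
  have hnt : ∀ v : V, v ≠ 0 → St ρ v ≠ ⊥ := by
    push Not at hsr
    obtain ⟨v₁, hv₁, g₁, hg₁, hg₁1⟩ := hsr
    intro v hv hbot
    have h1 : Nat.card (St ρ v₁) = 1 := by rw [hall v₁ v hv₁ hv, hbot, Subgroup.card_bot]
    have h2 : St ρ v₁ = ⊥ := Subgroup.card_eq_one.mp h1
    have h3 : g₁ ∈ St ρ v₁ := hg₁
    rw [h2, Subgroup.mem_bot] at h3
    exact hg₁1 h3
  haveI : Fintype G := Fintype.ofFinite G
  have hc : ((Fintype.card G : ℕ) : ZMod q) ≠ 0 := by
    obtain ⟨k, hk⟩ := IsPGroup.iff_card.mp hG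
    rw [← Nat.card_eq_fintype_card, hk, Nat.cast_pow]
    exact pow_ne_zero _ hqp
  have hirr := irr ρ hc hρ hall hnt
  obtain ⟨v₀, hv₀⟩ := exists_ne (0 : V)
  obtain ⟨y₀, hy₀S, hy₀1⟩ := (Subgroup.bot_or_exists_ne_one (St ρ v₀)).resolve_left (hnt v₀ hv₀)
  haveI hGnt : Nontrivial G := ⟨⟨y₀, 1, hy₀1⟩⟩
  obtain ⟨z₀, hz₀c, hz₀o⟩ := Cfsg.Agent.Lib.PGroup.CyclicMax2.exists_central_order_p hG
  have hz₀p : z₀ ^ p = 1 := by rw [← hz₀o]; exact pow_orderOf_eq_one z₀
  have hz₀1 : z₀ ≠ 1 := by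
    rintro rfl
    rw [orderOf_one] at hz₀o
    exact hp1.one_lt.ne hz₀o
  have hz₀c' : ∀ g, g * z₀ = z₀ * g := fun g => mem_center_iff.mp hz₀c g
  have hfixz : ∀ {z : G}, z ≠ 1 → (∀ g, g * z = z * g) → ∀ v : V, v ≠ 0 → ρ z v ≠ v := by
    intro z hz1 hzc v hv h
    have hmem : v ∈ fixedSp ρ z := h
    rw [fixed_central ρ hρ hirr hz1 hzc, Submodule.mem_bot] at hmem
    exact hv hmem
  -- an element of order `p` in a stabilizer
  obtain ⟨x₀, hx₀S, hx₀o⟩ : ∃ x₀ ∈ St ρ v₀, orderOf x₀ = p := by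
    have hSp : IsPGroup p (St ρ v₀) := hG.to_subgroup _
    obtain ⟨k, hk⟩ := IsPGroup.iff_card.mp hSp
    have hk0 : k ≠ 0 := by
      rintro rfl
      rw [pow_zero] at hk
      exact hnt v₀ hv₀ (Subgroup.card_eq_one.mp hk)
    have hdv : p ∣ Nat.card (St ρ v₀) := by
      rw [hk]
      exact dvd_pow_self p hk0
    obtain ⟨t, ht⟩ := exists_prime_orderOf_dvd_card' p hdv
    exact ⟨t.1, t.2, by rw [← ht, Subgroup.orderOf_coe]⟩
  have hx₀p : x₀ ^ p = 1 := by rw [← hx₀o]; exact pow_orderOf_eq_one x₀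
  have hx₀1 : x₀ ≠ 1 := by
    rintro rfl
    rw [orderOf_one] at hx₀o
    exact hp1.one_lt.ne hx₀o
  have hx₀z : x₀ ∉ zpowers z₀ := by
    intro h
    obtain ⟨k, hk⟩ := Cfsg.Agent.S3053.line_gen hz₀p h hx₀1 z₀ (mem_zpowers z₀)
    apply hfixz hz₀1 hz₀c' v₀ hv₀
    have h2 : z₀ ∈ St ρ v₀ := by
      rw [hk]
      exact pow_mem hx₀S k
    exact h2
  by_cases hA : ∃ A : Subgroup G, A.Normal ∧ IsMulCommutative A ∧ ¬ IsCyclic A
  · obtain ⟨A, hAn, hAc, hAnc⟩ := hA
    obtain ⟨x, z, hzp, hzc, hxp, hz1, hxz, hcomm⟩ := exists_xz hG hAn hAc hAnc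
    have hp2 := two_of_block ρ hρ hirr hqp hall hzp hzc hxp hz1 hxz hcomm
    subst hp2
    have hq20 : (2 : ZMod q) ≠ 0 := by
      intro h
      apply hqp
      exact_mod_cast h
    have hzz : z * z = 1 := by rw [← pow_two, hzp]
    have T : Two ρ x z :=
      { q2 := hq20
        inj := hρ
        zneg := by
          intro v
          have h1 : v + ρ z v ∈ fixedSp ρ z := by
            show ρ z (v + ρ z v) = v + ρ z v
            rw [map_add, ← rho_mul, hzz, map_one, add_comm]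
            rfl
          rw [fixed_central ρ hρ hirr hz1 hzc, Submodule.mem_bot] at h1
          exact eq_neg_of_add_eq_zero_right h1
        xx := by rw [← pow_two, hxp]
        x1 := by
          rintro rfl
          exact hxz (one_mem _)
        xz := by
          rintro rfl
          exact hxz (mem_zpowers _)
        conj := by
          intro g
          obtain ⟨i, hi⟩ := hcomm g
          rcases zmod2_cases i with rfl | rfl
          · left
            rw [hi, pz_zero, mul_one]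
          · right
            rw [hi, pz_one]
        zc := hzc
        hall := hall }
    rcases T.main hG with ⟨h1, h2⟩ | ⟨h1, h2, h3⟩
    · right; right; right
      exact ⟨h1, h2, rfl⟩
    · right; right; left
      exact ⟨h1, h2, h3⟩
  · have hn : ∀ A : Subgroup G, A.Normal → IsMulCommutative A → IsCyclic A := by
      intro A h1 h2
      by_contra h3
      exact hA ⟨A, h1, h2, h3⟩
    have hm : ∃ B : Subgroup G, IsMulCommutative B ∧ ¬ IsCyclic B := by
      have hcw : x₀ * z₀ = z₀ * x₀ := (hz₀c' x₀)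
      let B := closure ({x₀, z₀} : Set G)
      have hyB : x₀ ∈ B := subset_closure (by simp)
      have hwB : z₀ ∈ B := subset_closure (by simp)
      haveI hBc : IsMulCommutative B := by
        apply Subgroup.isMulCommutative_closure
        rintro a (rfl | rfl) b (rfl | rfl)
        · rfl
        · exact hcw
        · exact hcw.symm
        · rfl
      refine ⟨B, hBc, fun hBcyc => ?_⟩
      have hu := Cfsg.Agent.Lib.PGroup.CyclicMax2.uniqueP_of_isCyclic (p := p) (A := B)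
      have h1 := hu ⟨x₀, hyB⟩ ⟨z₀, hwB⟩ (Subtype.ext hx₀p) (Subtype.ext hz₀p)
        (fun h => hx₀1 (congrArg Subtype.val h)) (fun h => hz₀1 (congrArg Subtype.val h))
      obtain ⟨k, hk⟩ := mem_zpowers_iff.mp h1
      exact hx₀z (mem_zpowers_iff.mpr ⟨k, congrArg Subtype.val hk⟩)
    obtain ⟨hp2, hcases⟩ := Cfsg.Agent.S0519.result p hG hn hm
    subst hp2
    have hq2 : q ≠ 2 := by
      intro h
      apply hqp
      rw [ZMod.natCast_eq_zero_iff, h]
    have hq3 : 3 ≤ q := by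
      have := hq1.two_le
      omega
    have hqo : Odd q := hq1.odd_of_ne_two hq2
    have hfin : ∀ {u z : G} {k : ℕ}, (zpowers u).index = 2 → z ∈ zpowers u → orderOf z = 2 → z ∈ center G →
        Nat.card {g : G // orderOf g = 2 ∧ g ∉ center G} = 2 ^ k → Nat.card V = q ^ 2 ∧ q + 1 = 2 ^ k := by
      intro u z k hidx hzU hzo hzc hcnt
      have hz1 : z ≠ 1 := by
        rintro rfl
        rw [orderOf_one] at hzo
        omega
      have hstab := stab_two ρ hG hidx hzU hzo (hfixz hz1 (fun g => mem_center_iff.mp hzc g)) hnt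
      obtain ⟨r, hV, hcount⟩ := Cfsg.Agent.S3381.result q ρ hρ hstab z hzo hzc
      rw [hcnt] at hcount
      have hr : 1 ≤ r := by
        apply Nat.pos_of_ne_zero
        rintro rfl
        rw [mul_zero, pow_zero] at hV
        have := Finite.one_lt_card (α := V)
        omega
      have hr1 := Cfsg.Agent.S3370.r1 q r k hq3 hqo hr hcount.symm
      subst hr1
      exact ⟨by rw [hV], by rw [hcount, pow_one]⟩
    rcases hcases with ⟨n, ⟨e⟩⟩ | ⟨n, hn8, ⟨e⟩⟩ | hqd
    · -- quaternion: unique involution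
      exfalso
      have hn0 : n ≠ 0 := by
        rintro rfl
        haveI : Finite (QuaternionGroup 0) := Finite.of_equiv G e.toEquiv
        haveI h2 : Finite (ZMod (2 * 0)) := Finite.of_injective QuaternionGroup.a (fun _ _ h => QuaternionGroup.a.inj h)
        haveI h3 : Finite ℤ := h2
        exact not_finite ℤ
      have hx2 : e x₀ * e x₀ = 1 := by
        rw [← map_mul, ← pow_two, hx₀p, map_one]
      have hz2 : e z₀ * e z₀ = 1 := by
        rw [← map_mul, ← pow_two, hz₀p, map_one]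
      have hx1 : e x₀ ≠ 1 := fun h => hx₀1 (e.injective (by rw [h, map_one]))
      have hz1 : e z₀ ≠ 1 := fun h => hz₀1 (e.injective (by rw [h, map_one]))
      have h3 := quat_inv hn0 _ hx2 hx1
      have h4 := quat_inv hn0 _ hz2 hz1
      have h5 : x₀ = z₀ := e.injective (by rw [h3, h4])
      apply hx₀z
      rw [h5]
      exact mem_zpowers _
    · -- dihedral
      obtain ⟨c, hc'⟩ := IsPGroup.iff_card.mp hG
      have h1 : Nat.card G = 2 * n := by
        rw [Nat.card_congr e.toEquiv, DihedralGroup.nat_card]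
      have h2 : n ∣ 2 ^ c := by
        rw [← hc', h1]
        exact dvd_mul_left _ _
      obtain ⟨m, -, rfl⟩ := (Nat.dvd_prime_pow Nat.prime_two).mp h2
      have hm3 : 3 ≤ m := by
        by_contra hlt
        have h3 : 2 ^ m ≤ 2 ^ 2 := Nat.pow_le_pow_right (by norm_num) (by omega)
        omega
      obtain ⟨u, z, hidx, hzU, hzo, hzc, hcnt⟩ := dih_data hm3 e
      obtain ⟨hV, hqq⟩ := hfin hidx hzU hzo hzc hcnt
      right; left
      exact ⟨hV, m, by omega, Or.inl ⟨e⟩⟩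
    · obtain ⟨n, x, y, H⟩ := Cfsg.Agent.Lib.PGroup.QuasiDihedral.exists_qd hqd
      obtain ⟨u, z, hidx, hzU, hzo, hzc, hcnt⟩ := qd_data H
      obtain ⟨hV, hqq⟩ := hfin hidx hzU hzo hzc hcnt
      right; left
      refine ⟨hV, n - 1, by omega, Or.inr ⟨hqd, ?_⟩⟩
      rw [H.card]
      congr 1
      have := H.hn
      omega

end Cfsg.Agent.S3371
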