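import Cfsg.Statements.S3376
import Cfsg.Agent.Lib.PGroup.Basic

set_option autoImplicit false
open Cfsg

namespace Cfsg.Agent.S3376

theorem two_ne_zero' : (2 : ZMod 3) ≠ 0 := by decide

/-- Functional invariant under an involutive automorphism, non-zero on a fixed vector. -/
theorem exists_functional {J : Type*} [Group J] [Finite J] (hcomm : ∀ a b : J, a * b = b * a)
    (hexp : ∀ a : J, a ^ 3 = 1) (τ : J →* J) (hτ : ∀ a, τ (τ a) = a) {z : J} (hz : z ≠ 1)
    (hτz : τ z = z) : ∃ ψ : J →* Multiplicative (ZMod 3), ψ z ≠ 1 ∧ ∀ a, ψ (τ a) = ψ a := by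
  letI : CommGroup J := { (inferInstance : Group J) with mul_comm := hcomm }
  haveI : Fact (Nat.Prime 3) := ⟨by norm_num⟩
  letI : Module (ZMod 3) (Additive J) := AddCommGroup.zmodModule (n := 3) (by
    intro x
    have := hexp (Additive.toMul x)
    exact congrArg Additive.ofMul this)
  have hz' : Additive.ofMul z ≠ 0 := fun h => hz (Additive.ofMul.injective h)
  obtain ⟨f, hf⟩ : ∃ f : Module.Dual (ZMod 3) (Additive J), f (Additive.ofMul z) ≠ 0 := by
    by_contra hcon
    push Not at hcon
    exact hz' ((Module.forall_dual_apply_eq_zero_iff (ZMod 3) _).1 hcon)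
  refine ⟨{ toFun := fun a => Multiplicative.ofAdd (f (Additive.ofMul a) + f (Additive.ofMul (τ a)))
            map_one' := ?_
            map_mul' := ?_ }, ?_, ?_⟩
  · simp
  · intro a b
    simp only [map_mul, ofMul_mul, map_add]
    rw [← ofAdd_add]
    congr 1
    ring
  · intro h
    simp only [MonoidHom.coe_mk, OneHom.coe_mk] at h
    rw [hτz] at h
    have h2 : f (Additive.ofMul z) + f (Additive.ofMul z) = 0 := by
      exact Multiplicative.ofAdd.injective (by simpa using h)
    have h3 : (2 : ZMod 3) * f (Additive.ofMul z) = 0 := by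
      rw [two_mul]; exact h2
    rcases mul_eq_zero.1 h3 with h4 | h4
    · exact absurd h4 two_ne_zero'
    · exact hf h4
  · intro a
    simp only [MonoidHom.coe_mk, OneHom.coe_mk, hτ]
    rw [add_comm]

section Main

variable {G : Type*} [Group G] [Finite G]

/-- A non-trivial normal subgroup meeting `S` contains `Z(S)` when `Z(S)` has prime order. -/
theorem le_of_normal {p : ℕ} [hp : Fact p.Prime] (S : Sylow p G) (Z : Subgroup G)
    (hZ : Z = (S : Subgroup G) ⊓ Subgroup.centralizer ((S : Subgroup G) : Set G))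
    (hZcard : Nat.card Z = p) (N : Subgroup G) [hN : N.Normal] (hNS : N ⊓ (S : Subgroup G) ≠ ⊥) :
    Z ≤ N := by
  set N' : Subgroup ↥(S : Subgroup G) := N.subgroupOf (S : Subgroup G) with hN'
  haveI : N'.Normal := inferInstance
  have hN'ne : N' ≠ ⊥ := by
    intro hb
    apply hNS
    rw [Subgroup.eq_bot_iff_forall]
    rintro x ⟨hxN, hxS⟩
    have : (⟨x, hxS⟩ : ↥(S : Subgroup G)) ∈ N' := by
      rw [hN', Subgroup.mem_subgroupOf]; exact hxN
    rw [hb, Subgroup.mem_bot] at this
    exact congrArg Subtype.val this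
  have h1 := Cfsg.Agent.Lib.PGroup.Basic.inf_center_ne_bot S.isPGroup' hN'ne
  obtain ⟨⟨x, hx⟩, hx1⟩ := (Subgroup.ne_bot_iff_exists_ne_one).1 h1
  obtain ⟨hxN, hxC⟩ := hx
  have hx1' : (x : G) ≠ 1 := by
    intro e
    apply hx1
    apply Subtype.ext
    exact Subtype.ext e
  have hxZ : (x : G) ∈ Z := by
    rw [hZ]
    refine ⟨x.2, ?_⟩
    show (x : G) ∈ Subgroup.centralizer _
    rw [Subgroup.mem_centralizer_iff]
    intro h hh
    have hxC' : x ∈ Subgroup.center ↥(S : Subgroup G) := hxC
    have := (Subgroup.mem_center_iff.1 hxC') ⟨h, hh⟩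
    exact congrArg Subtype.val this
  have hxN' : (x : G) ∈ N := by
    have : x ∈ N' := hxN
    rwa [hN', Subgroup.mem_subgroupOf] at this
  intro y hy
  have hxne : (⟨x, hxZ⟩ : Z) ≠ 1 := fun e => hx1' (congrArg Subtype.val e)
  have hmem : (⟨y, hy⟩ : Z) ∈ Subgroup.zpowers (⟨x, hxZ⟩ : Z) := by
    have hprime : Nat.Prime (Nat.card Z) := by rw [hZcard]; exact hp.out
    haveI : Fact (Nat.card Z).Prime := ⟨hprime⟩
    exact mem_zpowers_of_prime_card rfl hxne
  obtain ⟨k, hk⟩ := hmem
  have hk' : (x : G) ^ k = y := congrArg Subtype.val hk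
  rw [← hk']
  exact N.zpow_mem hxN' k

end Main

/-- Let G be a group of order 162 = 3⁴·2 with Sylow 3-subgroup S and Sylow 2-subgroup T, having an elementary abelian normal subgroup J of order 27, such that Z = Z(S) has order 3, Z centralizes T, and C_S(T) ≠ S. Then G is isomorphic to the centralizer in Sym(9) of a product of three disjoint 3-cycles. -/
theorem result {G : Type*} [Group G] [Finite G] (hG : Nat.card G = 162)
    (S : Sylow 3 G) (T : Sylow 2 G) (J : Subgroup G) [hJn : J.Normal] (hJcomm : IsMulCommutative J)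
    (hJexp : ∀ a ∈ J, a ^ 3 = 1) (hJcard : Nat.card J = 27)
    (Z : Subgroup G) (hZ : Z = (S : Subgroup G) ⊓ Subgroup.centralizer ((S : Subgroup G) : Set G)) (hZcard : Nat.card Z = 3)
    (hZT : Z ≤ Subgroup.centralizer ((T : Subgroup G) : Set G))
    (hST : (S : Subgroup G) ⊓ Subgroup.centralizer ((T : Subgroup G) : Set G) ≠ S) :
    Nonempty (G ≃* Subgroup.centralizer ({Equiv.swap (0 : Fin 9) 1 * Equiv.swap 1 2 * Equiv.swap 3 4 * Equiv.swap 4 5 * Equiv.swap 6 7 * Equiv.swap 7 8} : Set (Equiv.Perm (Fin 9)))) := by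
  classical
  haveI h3 : Fact (Nat.Prime 3) := ⟨by norm_num⟩
  haveI h2 : Fact (Nat.Prime 2) := ⟨by norm_num⟩
  -- sizes of the Sylow subgroups
  have hScard : Nat.card (S : Subgroup G) = 81 := by
    obtain ⟨k, hk⟩ := IsPGroup.iff_card.1 S.isPGroup'
    have hind := (S : Subgroup G).card_mul_index
    rw [hG, hk] at hind
    have hnd := S.not_dvd_index
    have hk4 : k ≤ 4 := by
      by_contra hcon
      have h5 : 3 ^ 5 ∣ 3 ^ k := pow_dvd_pow 3 (by omega)
      have : 3 ^ 5 ∣ 162 := h5.trans ⟨_, hind.symm⟩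
      exact absurd this (by decide)
    rw [hk]
    interval_cases k
    · exfalso; apply hnd; omega
    · exfalso; apply hnd; omega
    · exfalso; apply hnd; omega
    · exfalso; apply hnd; omega
    · rfl
  have hTcard : Nat.card (T : Subgroup G) = 2 := by
    obtain ⟨k, hk⟩ := IsPGroup.iff_card.1 T.isPGroup'
    have hind := (T : Subgroup G).card_mul_index
    rw [hG, hk] at hind
    have hnd := T.not_dvd_index
    have hk4 : k ≤ 1 := by
      by_contra hcon
      have h5 : 2 ^ 2 ∣ 2 ^ k := pow_dvd_pow 2 (by omega)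
      have : 2 ^ 2 ∣ 162 := h5.trans ⟨_, hind.symm⟩
      exact absurd this (by decide)
    rw [hk]
    interval_cases k
    · exfalso; apply hnd; omega
    · rfl
  -- the element `z`
  obtain ⟨⟨z, hzZ⟩, hzo⟩ := exists_prime_orderOf_dvd_card' (G := Z) 3 (by rw [hZcard])
  have hzord : orderOf z = 3 := by rw [← hzo, Subgroup.orderOf_mk]
  have hz1 : z ≠ 1 := by
    rintro rfl
    simp at hzord
  have hJp : IsPGroup 3 J := by
    apply IsPGroup.of_card (n := 3)
    rw [hJcard]; norm_num
  have hJS : J ≤ S := hJp.le_sylow_of_normal S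
  have hJbot : J ≠ ⊥ := by
    rintro rfl
    simp at hJcard
  have hZJ : Z ≤ J := le_of_normal S Z hZ hZcard J (by rwa [inf_eq_left.2 hJS])
  have hzJ : z ∈ J := hZJ hzZ
  -- `z` is central
  have hzc : ∀ g : G, g * z = z * g := by
    have hle1 : (S : Subgroup G) ≤ Subgroup.centralizer {z} := by
      intro x hx
      rw [Subgroup.mem_centralizer_singleton_iff]
      have hz2 := hzZ
      rw [hZ] at hz2
      exact Subgroup.mem_centralizer_iff.1 hz2.2 x hx
    have hle2 : (T : Subgroup G) ≤ Subgroup.centralizer {z} := by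
      intro x hx
      rw [Subgroup.mem_centralizer_singleton_iff]
      exact Subgroup.mem_centralizer_iff.1 (hZT hzZ) x hx
    have hd1 := Subgroup.card_dvd_of_le hle1
    have hd2 := Subgroup.card_dvd_of_le hle2
    rw [hScard] at hd1
    rw [hTcard] at hd2
    have hd3 : 81 * 2 ∣ Nat.card (Subgroup.centralizer {z}) :=
      Nat.Coprime.mul_dvd_of_dvd_of_dvd (by norm_num) hd1 hd2
    have hd4 : Nat.card (Subgroup.centralizer {z}) ∣ Nat.card G := Subgroup.card_subgroup_dvd_card _
    have heq : Nat.card (Subgroup.centralizer {z}) = Nat.card G := by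
      apply Nat.dvd_antisymm hd4
      rw [hG]; exact hd3
    have htop : Subgroup.centralizer {z} = ⊤ := Subgroup.eq_top_of_card_eq _ heq
    intro g
    have hg : g ∈ Subgroup.centralizer {z} := htop ▸ Subgroup.mem_top g
    exact Subgroup.mem_centralizer_singleton_iff.1 hg
  -- the involution
  obtain ⟨⟨t, htT⟩, hto⟩ := exists_prime_orderOf_dvd_card' (G := (T : Subgroup G)) 2 (by rw [hTcard])
  have htord : orderOf t = 2 := by rw [← hto, Subgroup.orderOf_mk]
  have ht1 : t ≠ 1 := by
    rintro rfl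
    simp at htord
  have ht2 : t * t = 1 := by
    rw [← pow_two, ← htord, pow_orderOf_eq_one]
  have hTelts : ∀ b ∈ (T : Subgroup G), b = 1 ∨ b = t := by
    intro b hb
    obtain ⟨y, -, hy⟩ := (Nat.card_eq_two_iff' (1 : ↥(T : Subgroup G))).1 hTcard
    by_cases hb1 : b = 1
    · exact Or.inl hb1
    right
    have h1 : (⟨b, hb⟩ : ↥(T : Subgroup G)) = y := hy _ (fun e => hb1 (congrArg Subtype.val e))
    have h2 : (⟨t, htT⟩ : ↥(T : Subgroup G)) = y := hy _ (fun e => ht1 (congrArg Subtype.val e))
    exact congrArg Subtype.val (h1.trans h2.symm)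
  -- the functional
  obtain ⟨ψ, hψz, hψτ⟩ := exists_functional (J := ↥J)
    (fun a b => hJcomm.is_comm.comm a b)
    (fun a => Subtype.ext (by simpa using hJexp a a.2))
    (τ := (MulAut.conjNormal t).toMonoidHom)
    (by
      intro a
      apply Subtype.ext
      simp only [MulEquiv.toMonoidHom_eq_coe, MonoidHom.coe_coe, MulAut.conjNormal_apply]
      have : t⁻¹ = t := by
        rw [inv_eq_iff_mul_eq_one]; exact ht2
      rw [this]
      calc t * (t * (a : G) * t) * t = (t * t) * a * (t * t) := by group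
        _ = a := by rw [ht2]; group)
    (z := ⟨z, hzJ⟩)
    (fun e => hz1 (congrArg Subtype.val e))
    (by
      apply Subtype.ext
      simp only [MulEquiv.toMonoidHom_eq_coe, MonoidHom.coe_coe, MulAut.conjNormal_apply]
      rw [hzc t, mul_inv_cancel_right])
  -- the subgroup `A`
  set A : Subgroup G := ψ.ker.map J.subtype with hA
  have hAJ : A ≤ J := by
    rintro _ ⟨x, -, rfl⟩
    exact x.2
  have hAmem : ∀ (a : G) (ha : a ∈ J), a ∈ A ↔ ψ ⟨a, ha⟩ = 1 := by
    intro a ha
    constructor
    · rintro ⟨x, hx, rfl⟩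
      exact hx
    · intro h
      exact ⟨⟨a, ha⟩, h, rfl⟩
  have hAcard : Nat.card A = 9 := by
    have h1 : Nat.card A = Nat.card ψ.ker :=
      Nat.card_congr (Subgroup.equivMapOfInjective ψ.ker J.subtype J.subtype_injective).toEquiv.symm
    have h2 := ψ.ker.card_mul_index
    rw [Subgroup.index_ker] at h2
    have h3' : Nat.card ψ.range = 3 := by
      have hd : Nat.card ψ.range ∣ Nat.card (Multiplicative (ZMod 3)) := Subgroup.card_subgroup_dvd_card _
      have hc : Nat.card (Multiplicative (ZMod 3)) = 3 := by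
        rw [Nat.card_congr Multiplicative.toAdd, Nat.card_zmod]
      rw [hc] at hd
      rcases (Nat.dvd_prime (by norm_num)).1 hd with h | h
      · exfalso
        have : ψ.range = ⊥ := (Subgroup.card_eq_one).1 h
        have h4 : ψ ⟨z, hzJ⟩ ∈ ψ.range := ⟨_, rfl⟩
        rw [this, Subgroup.mem_bot] at h4
        exact hψz h4
      · exact h
    rw [h3', hJcard] at h2
    rw [h1]; omega
  -- `T` normalizes `A`
  have hconj : ∀ b ∈ (T : Subgroup G), ∀ a ∈ A, b * a * b⁻¹ ∈ A := by
    intro b hb a ha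
    rcases hTelts b hb with rfl | rfl
    · simpa using ha
    · have haJ := hAJ ha
      have h1 : b * a * b⁻¹ ∈ J := hJn.conj_mem a haJ b
      rw [hAmem _ h1]
      have h2 := hψτ ⟨a, haJ⟩
      rw [(hAmem a haJ).1 ha] at h2
      rw [← h2]
      congr 1
  -- the subgroup `K`
  let K : Subgroup G :=
    { carrier := {g | ∃ a ∈ A, ∃ b ∈ (T : Subgroup G), g = a * b}
      mul_mem' := by
        rintro _ _ ⟨a₁, ha₁, b₁, hb₁, rfl⟩ ⟨a₂, ha₂, b₂, hb₂, rfl⟩
        refine ⟨a₁ * (b₁ * a₂ * b₁⁻¹), A.mul_mem ha₁ (hconj b₁ hb₁ a₂ ha₂), b₁ * b₂,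
          (T : Subgroup G).mul_mem hb₁ hb₂, by group⟩
      one_mem' := ⟨1, A.one_mem, 1, (T : Subgroup G).one_mem, by simp⟩
      inv_mem' := by
        rintro _ ⟨a, ha, b, hb, rfl⟩
        refine ⟨b⁻¹ * a⁻¹ * b⁻¹⁻¹, hconj _ ((T : Subgroup G).inv_mem hb) _ (A.inv_mem ha), b⁻¹,
          (T : Subgroup G).inv_mem hb, by group⟩ }
  have hAK : A ≤ K := fun a ha => ⟨a, ha, 1, (T : Subgroup G).one_mem, by simp⟩
  have hTK : (T : Subgroup G) ≤ K := fun b hb => ⟨1, A.one_mem, b, hb, by simp⟩
  have hKcard : Nat.card K = 18 := by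
    have hd1 := Subgroup.card_dvd_of_le hAK
    have hd2 := Subgroup.card_dvd_of_le hTK
    rw [hAcard] at hd1
    rw [hTcard] at hd2
    have hd3 : 9 * 2 ∣ Nat.card K := Nat.Coprime.mul_dvd_of_dvd_of_dvd (by norm_num) hd1 hd2
    have hle : Nat.card K ≤ Nat.card (A × (T : Subgroup G)) := by
      apply Nat.card_le_card_of_surjective
        (f := fun x : (A × (T : Subgroup G)) => (⟨(x.1 : G) * (x.2 : G), ⟨x.1, x.1.2, x.2, x.2.2, rfl⟩⟩ : K))
      rintro ⟨_, a, ha, b, hb, rfl⟩
      exact ⟨(⟨a, ha⟩, ⟨b, hb⟩), rfl⟩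
    rw [Nat.card_prod, hAcard, hTcard] at hle
    have hpos : 0 < Nat.card K := Nat.card_pos
    have := Nat.le_of_dvd hpos hd3
    omega
  have hKindex : K.index = 9 := by
    have := K.card_mul_index
    rw [hKcard, hG] at this
    omega
  have hzK : z ∉ K := by
    rintro ⟨a, ha, b, hb, hab⟩
    have hbJ : b ∈ J := by
      have : b = a⁻¹ * z := by rw [hab]; group
      rw [this]
      exact J.mul_mem (J.inv_mem (hAJ ha)) hzJ
    rcases hTelts b hb with rfl | rfl
    · rw [mul_one] at hab
      subst hab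
      exact hψz ((hAmem _ hzJ).1 ha)
    · have h3' := hJexp _ hbJ
      have h4 : b ^ 3 = b := by
        rw [pow_succ, pow_two, ht2, one_mul]
      rw [h4] at h3'
      exact ht1 h3'
  -- the action on cosets
  have hNK : (MulAction.toPermHom G (G ⧸ K)).ker ≤ K := by
    intro g hg
    rw [MonoidHom.mem_ker] at hg
    have h1 : g • ((1 : G) : G ⧸ K) = ((1 : G) : G ⧸ K) := by
      have := congrArg (fun f : Equiv.Perm (G ⧸ K) => f ((1 : G) : G ⧸ K)) hg
      simpa using this
    rw [MulAction.Quotient.smul_coe, smul_eq_mul, mul_one] at h1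
    have h2 := QuotientGroup.eq.1 h1
    simpa using K.inv_mem h2
  have hinj : (MulAction.toPermHom G (G ⧸ K)).ker = ⊥ := by
    by_contra hne
    set N := (MulAction.toPermHom G (G ⧸ K)).ker with hN
    haveI hNn : N.Normal := MonoidHom.normal_ker _
    by_cases hNS : N ⊓ (S : Subgroup G) = ⊥
    · -- `N` has order 2
      have h3N : ¬ 3 ∣ Nat.card N := by
        intro hd
        obtain ⟨⟨x, hxN⟩, hxo⟩ := exists_prime_orderOf_dvd_card' (G := N) 3 hd
        have hxord : orderOf x = 3 := by rw [← hxo, Subgroup.orderOf_mk]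
        have hpg : IsPGroup 3 (Subgroup.zpowers x) := by
          apply IsPGroup.of_card (n := 1)
          rw [Nat.card_zpowers, hxord]; norm_num
        obtain ⟨Q, hQ⟩ := hpg.exists_le_sylow
        obtain ⟨g, rfl⟩ := MulAction.exists_smul_eq G S Q
        have h1 : x ∈ ((g • S : Sylow 3 G) : Subgroup G) := hQ (Subgroup.mem_zpowers x)
        rw [Sylow.coe_subgroup_smul, Subgroup.mem_pointwise_smul_iff_inv_smul_mem] at h1
        have h2 : g⁻¹ * x * g ∈ (S : Subgroup G) := by
          simpa [MulAut.conj_apply] using h1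
        have h3' : g⁻¹ * x * (g⁻¹)⁻¹ ∈ N := hNn.conj_mem x hxN g⁻¹
        have h4 : g⁻¹ * x * g ∈ N ⊓ (S : Subgroup G) := ⟨by simpa using h3', h2⟩
        rw [hNS, Subgroup.mem_bot] at h4
        have h5 : x = 1 := by
          have : x = g * (g⁻¹ * x * g) * g⁻¹ := by group
          rw [this, h4]; group
        rw [h5, orderOf_one] at hxord
        omega
      have hNcard : Nat.card N = 2 := by
        have hd : Nat.card N ∣ 2 * 81 := by
          have := Subgroup.card_subgroup_dvd_card N
          rwa [hG] at this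
        have hcop : Nat.Coprime (Nat.card N) 81 := by
          have : Nat.Coprime (Nat.card N) (3 ^ 4) :=
            Nat.Coprime.pow_right 4 ((Nat.Prime.coprime_iff_not_dvd (by norm_num)).2 h3N).symm
          simpa using this
        have hd2 : Nat.card N ∣ 2 := hcop.dvd_of_dvd_mul_right hd
        rcases (Nat.dvd_prime (by norm_num)).1 hd2 with h | h
        · exact absurd ((Subgroup.card_eq_one).1 h) hne
        · exact h
      have hNp : IsPGroup 2 N := by
        apply IsPGroup.of_card (n := 1)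
        rw [hNcard]; norm_num
      have hNT : N ≤ (T : Subgroup G) := hNp.le_sylow_of_normal T
      have hNeq : N = (T : Subgroup G) :=
        Subgroup.eq_of_le_of_card_ge hNT (by rw [hNcard, hTcard])
      have htc : ∀ g : G, g * t * g⁻¹ = t := by
        intro g
        have h1 : g * t * g⁻¹ ∈ (T : Subgroup G) := by
          rw [← hNeq]
          exact hNn.conj_mem t (hNeq ▸ htT) g
        rcases hTelts _ h1 with h | h
        · exfalso
          apply ht1
          have : t = g⁻¹ * (g * t * g⁻¹) * g := by group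
          rw [this, h]; group
        · exact h
      apply hST
      rw [inf_eq_left]
      intro x _
      rw [Subgroup.mem_centralizer_iff]
      intro b hb
      rcases hTelts b hb with rfl | rfl
      · simp
      · have := htc x
        calc b * x = x * (x⁻¹ * b * x⁻¹⁻¹) := by group
          _ = x * b := by rw [htc x⁻¹]
    · exact hzK (hNK (le_of_normal S Z hZ hZcard N hNS hzZ))
  have hfix : ∀ q : G ⧸ K, z • q ≠ q := by
    intro q
    induction q using QuotientGroup.induction_on with
    | H g =>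
      intro h
      rw [MulAction.Quotient.smul_coe, smul_eq_mul] at h
      have h1 := (QuotientGroup.eq.1 h)
      have h2 : (z * g)⁻¹ * g = z⁻¹ := by
        rw [← hzc g]; group
      rw [h2] at h1
      exact hzK (by simpa using K.inv_mem h1)
  -- transport to `Fin 9`
  have hcardQ : Nat.card (G ⧸ K) = 9 := hKindex
  let e : (G ⧸ K) ≃ Fin 9 := Finite.equivFinOfCardEq hcardQ
  let ρ : G →* Equiv.Perm (Fin 9) :=
    (Equiv.permCongrHom e).toMonoidHom.comp (MulAction.toPermHom G (G ⧸ K))
  have hρinj : Function.Injective ρ := by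
    intro a b hab
    have h1 := (Equiv.permCongrHom e).injective hab
    exact (MonoidHom.ker_eq_bot_iff _).1 hinj h1
  have hρz : orderOf (ρ z) = 3 := by
    rw [orderOf_injective ρ hρinj, hzord]
  have hρfix : ∀ x : Fin 9, ρ z x ≠ x := by
    intro x h
    apply hfix (e.symm x)
    have h1 : e (z • e.symm x) = x := h
    exact e.injective (by rw [h1]; simp)
  have hsupp : (ρ z).support.card = 9 := by
    have : (ρ z).support = Finset.univ := by
      ext x
      simp [hρfix x]
    rw [this]; simp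
  set c : Equiv.Perm (Fin 9) := Equiv.swap (0 : Fin 9) 1 * Equiv.swap 1 2 * Equiv.swap 3 4 * Equiv.swap 4 5 * Equiv.swap 6 7 * Equiv.swap 7 8 with hc
  have hco : orderOf c = 3 := by
    rw [orderOf_eq_prime_iff, hc]
    decide
  have hcsupp : c.support.card = 9 := by
    rw [hc]; decide
  have htype : ∀ σ : Equiv.Perm (Fin 9), orderOf σ = 3 → σ.support.card = 9 →
      σ.cycleType = Multiset.replicate 3 3 := by
    intro σ h1 h4
    obtain ⟨n, hn⟩ := Equiv.Perm.cycleType_prime_order (σ := σ) (by rw [h1]; norm_num)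
    have h5 := Equiv.Perm.sum_cycleType σ
    rw [hn, h4, h1, Multiset.sum_replicate] at h5
    have h6 : n = 2 := by
      simp at h5
      omega
    rw [hn, h1, h6]
  have hconj' : IsConj (ρ z) c := by
    rw [Equiv.Perm.isConj_iff_cycleType_eq, htype _ hρz hsupp, htype _ hco hcsupp]
  obtain ⟨σ, hσ⟩ := isConj_iff.1 hconj'
  let Φ : G →* Equiv.Perm (Fin 9) := (MulAut.conj σ).toMonoidHom.comp ρ
  have hΦz : Φ z = c := by
    simpa [Φ, MulAut.conj_apply] using hσ
  have hΦinj : Function.Injective Φ := (MulAut.conj σ).injective.comp hρinj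
  have hΦmem : ∀ g, Φ g ∈ Subgroup.centralizer ({c} : Set (Equiv.Perm (Fin 9))) := by
    intro g
    rw [Subgroup.mem_centralizer_singleton_iff, ← hΦz, ← map_mul, ← map_mul, hzc g]
  let Ψ : G →* Subgroup.centralizer ({c} : Set (Equiv.Perm (Fin 9))) := Φ.codRestrict _ hΦmem
  have hΨinj : Function.Injective Ψ := by
    intro a b hab
    exact hΦinj (congrArg Subtype.val hab)
  have hcent : Nat.card (Subgroup.centralizer ({c} : Set (Equiv.Perm (Fin 9)))) = 162 := by
    rw [Equiv.Perm.nat_card_centralizer, htype c hco hcsupp]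
    simp [Nat.factorial]
  have hbij : Function.Bijective Ψ :=
    hΨinj.bijective_of_nat_card_le (by rw [hcent, hG])
  exact ⟨MulEquiv.ofBijective Ψ hbij⟩

end Cfsg.Agent.S3376
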