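import Cfsg.Statements.S3389
import Mathlib
import Cfsg.Agent.Lib.Basic.SylowConj

set_option autoImplicit false
open Cfsg

namespace Cfsg.Agent.S3389

theorem part1 {G : Type*} [Group G] [Finite G] {Ω : Type*} [Fintype Ω] [MulAction G Ω]
    [FaithfulSMul G Ω] (htr : MulAction.IsPretransitive G Ω) (g : G) :
    Nat.card (Subgroup.center G) ∣ Nat.card (MulAction.fixedBy Ω g) := by
  have hmem : ∀ (z : Subgroup.center G) (x : MulAction.fixedBy Ω g),
      ((z : G) • (x : Ω)) ∈ MulAction.fixedBy Ω g := by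
    intro z x
    have hz : g * (z : G) = (z : G) * g := (Subgroup.mem_center_iff.mp z.2 g)
    have hx : g • (x : Ω) = x := x.2
    change g • ((z : G) • (x : Ω)) = (z : G) • (x : Ω)
    rw [← mul_smul, hz, mul_smul, hx]
  letI : MulAction (Subgroup.center G) (MulAction.fixedBy Ω g) :=
    { smul := fun z x => ⟨(z : G) • (x : Ω), hmem z x⟩
      one_smul := fun x => Subtype.ext (one_smul G (x : Ω))
      mul_smul := fun a b x => Subtype.ext (mul_smul (a : G) (b : G) (x : Ω)) }
  have hstab : ∀ b : MulAction.fixedBy Ω g,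
      MulAction.stabilizer (Subgroup.center G) b = ⊥ := by
    intro b
    rw [eq_bot_iff]
    intro z hz
    have hz' : (z : G) • (b : Ω) = b := congrArg Subtype.val (MulAction.mem_stabilizer_iff.mp hz)
    rw [Subgroup.mem_bot]
    apply Subtype.ext
    apply FaithfulSMul.eq_of_smul_eq_smul (α := Ω)
    intro y
    obtain ⟨h, rfl⟩ := MulAction.exists_smul_eq G (b : Ω) y
    have hc : (z : G) * h = h * (z : G) := (Subgroup.mem_center_iff.mp z.2 h).symm
    simp only [Subgroup.coe_one, one_smul]
    rw [← mul_smul, hc, mul_smul, hz']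
  have e := MulAction.selfEquivOrbitsQuotientProd hstab
  rw [Nat.card_congr e, Nat.card_prod]
  exact dvd_mul_left _ _

theorem part3 {G : Type*} [Group G] [Finite G] {Ω : Type*} [Fintype Ω] [MulAction G Ω]
    (htr : MulAction.IsPretransitive G Ω) (k : ℕ)
    (hfix : ∀ g : G, g ≠ 1 → Nat.card (MulAction.fixedBy Ω g) ≤ k)
    (p : ℕ) (hp : p.Prime) (hkp : k < p) (α : Ω)
    (h1 : p ∣ Nat.card (MulAction.stabilizer G α))
    (h2 : p ∣ (MulAction.stabilizer G α).index) : False := by
  haveI : Fact p.Prime := ⟨hp⟩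
  obtain ⟨x, hx⟩ := exists_prime_orderOf_dvd_card' (G := MulAction.stabilizer G α) p h1
  set y : G := (x : G) with hy
  have hy1 : orderOf y = p := by
    rw [hy, Subgroup.orderOf_coe]; exact hx
  have hy2 : y ≠ 1 := by
    intro h
    rw [h, orderOf_one] at hy1
    exact hp.one_lt.ne hy1
  have hyα : y • α = α := x.2
  have hcard : Nat.card Ω = (MulAction.stabilizer G α).index :=
    (MulAction.index_stabilizer_of_transitive G α).symm
  have hpg : IsPGroup p (Subgroup.zpowers y) := by
    refine IsPGroup.of_card (n := 1) ?_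
    rw [Nat.card_zpowers, hy1, pow_one]
  have hmod := hpg.card_modEq_card_fixedPoints Ω
  have hset : ∀ a : Ω, a ∈ MulAction.fixedPoints (Subgroup.zpowers y) Ω ↔ a ∈ MulAction.fixedBy Ω y := by
    intro a
    constructor
    · intro h
      exact h ⟨y, Subgroup.mem_zpowers y⟩
    · intro h
      rintro ⟨z, n, rfl⟩
      have h' : y • a = a := h
      change y ^ n • a = a
      exact (MulAction.mem_stabilizer_iff.mp (Subgroup.zpow_mem _ (MulAction.mem_stabilizer_iff.mpr h') n))
  have he : Nat.card (MulAction.fixedPoints (Subgroup.zpowers y) Ω) = Nat.card (MulAction.fixedBy Ω y) :=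
    Nat.card_congr (Equiv.subtypeEquivRight hset)
  rw [he] at hmod
  have hle := hfix y hy2
  have hpos : 0 < Nat.card (MulAction.fixedBy Ω y) := by
    haveI : Nonempty (MulAction.fixedBy Ω y) := ⟨⟨α, hyα⟩⟩
    exact Nat.card_pos
  have hdvd : p ∣ Nat.card (MulAction.fixedBy Ω y) := by
    have : p ∣ Nat.card Ω := hcard ▸ h2
    exact (Nat.modEq_zero_iff_dvd.mp (hmod.symm.trans (Nat.modEq_zero_iff_dvd.mpr this)))
  exact absurd (Nat.le_of_dvd hpos hdvd) (by omega)

theorem part2 {G : Type*} [Group G] [Finite G] {Ω : Type*} [Fintype Ω] [MulAction G Ω]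
    [FaithfulSMul G Ω] (htr : MulAction.IsPretransitive G Ω)
    (hfix : ∀ g : G, g ≠ 1 → Nat.card (MulAction.fixedBy Ω g) ≤ 2)
    (hex : ∃ g : G, g ≠ 1 ∧ Nat.card (MulAction.fixedBy Ω g) = 2) : 2 ∣ Nat.card G := by
  by_contra hodd
  obtain ⟨g, hg1, hg2⟩ := hex
  obtain ⟨a, b, hab, hu⟩ := Nat.card_eq_two_iff.mp hg2
  set α : Ω := (a : Ω) with hα
  set β : Ω := (b : Ω) with hβ
  have hαβ : α ≠ β := fun h => hab (Subtype.ext h)
  set H : Subgroup G := MulAction.stabilizer G α ⊓ MulAction.stabilizer G β with hH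
  have hgH : g ∈ H := ⟨a.2, b.2⟩
  have hHne : Nat.card H ≠ 1 := by
    intro h
    have := (Subgroup.card_eq_one.mp h)
    rw [this, Subgroup.mem_bot] at hgH
    exact hg1 hgH
  obtain ⟨q, hq, hqd⟩ := Nat.exists_prime_and_dvd hHne
  haveI : Fact q.Prime := ⟨hq⟩
  obtain ⟨Q₀⟩ : Nonempty (Sylow q H) := inferInstance
  set Q : Subgroup G := (Q₀ : Subgroup H).map H.subtype with hQ
  have hQH : Q ≤ H := by
    rintro _ ⟨x, -, rfl⟩
    exact x.2
  have hQp : IsPGroup q Q := Q₀.2.map H.subtype
  have hQne : Q ≠ ⊥ := by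
    intro h
    have h0 := Q₀.ne_bot_of_dvd_card hqd
    apply h0
    rw [eq_bot_iff]
    intro x hx
    have : (x : G) ∈ Q := ⟨x, hx, rfl⟩
    rw [h, Subgroup.mem_bot] at this
    rw [Subgroup.mem_bot]
    exact Subtype.ext this
  -- the fixed points of a nontrivial element of `Q`
  have hfixQ : ∀ y ∈ H, y ≠ 1 → ∀ c : Ω, y • c = c → c = α ∨ c = β := by
    intro y hy hy1 c hc
    have hle := hfix y hy1
    by_contra hcon
    push Not at hcon
    have hsub : ({α, β, c} : Set Ω) ⊆ MulAction.fixedBy Ω y := by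
      intro w hw
      rcases hw with rfl | rfl | rfl
      · exact hy.1
      · exact hy.2
      · exact hc
    have h3 : ({α, β, c} : Set Ω).ncard = 3 :=
      Set.ncard_eq_three.mpr ⟨α, β, c, hαβ, fun h => hcon.1 h.symm, fun h => hcon.2 h.symm, rfl⟩
    have h4 := Set.ncard_le_ncard hsub (Set.toFinite _)
    rw [h3, ← Nat.card_coe_set_eq] at h4
    omega
  obtain ⟨y₀, hy₀, hy₀1⟩ : ∃ y ∈ Q, y ≠ 1 := by
    obtain ⟨y, hy⟩ := Subgroup.ne_bot_iff_exists_ne_one.mp hQne
    exact ⟨y, y.2, fun h => hy (Subtype.ext h)⟩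
  -- the normalizer of `Q` lies in `H`
  have hN : Subgroup.normalizer (Q : Set G) ≤ H := by
    intro n hn
    have hodd2 : ¬ 2 ∣ orderOf n := fun h => hodd (h.trans (orderOf_dvd_natCard n))
    -- `n` permutes `α, β`
    have hmap : ∀ c : Ω, (c = α ∨ c = β) → n • c = α ∨ n • c = β := by
      intro c hc
      have h1 : n * y₀ * n⁻¹ ∈ Q := (Subgroup.mem_normalizer_iff.mp hn y₀).mp hy₀
      apply hfixQ (n * y₀ * n⁻¹) (hQH h1)
      · intro h
        apply hy₀1
        have : y₀ = n⁻¹ * (n * y₀ * n⁻¹) * n := by group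
        rw [this, h]; group
      · have hyc : y₀ • c = c := by
          rcases hc with rfl | rfl
          · exact (hQH hy₀).1
          · exact (hQH hy₀).2
        rw [mul_smul, mul_smul, inv_smul_smul, hyc]
    -- squares fix `α` and `β`
    by_cases hna : n • α = α
    · have hnb : n • β = β := by
        rcases hmap β (Or.inr rfl) with h | h
        · exfalso
          apply hαβ
          exact MulAction.injective n (hna.trans h.symm)
        · exact h
      exact ⟨hna, hnb⟩
    · exfalso
      have hna' : n • α = β := (hmap α (Or.inl rfl)).resolve_left hna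
      have hnb' : n • β = α := by
        rcases hmap β (Or.inr rfl) with h | h
        · exact h
        · exfalso
          apply hαβ
          exact MulAction.injective n (hna'.trans h.symm)
      have hpow : ∀ j : ℕ, n ^ (2 * j + 1) • α = β := by
        intro j
        induction j with
        | zero => simpa using hna'
        | succ j ih =>
          have : n ^ (2 * (j + 1) + 1) = n * n * n ^ (2 * j + 1) := by
            rw [show 2 * (j + 1) + 1 = 2 + (2 * j + 1) by ring, pow_add, pow_two]
          rw [this, mul_smul, mul_smul, ih, hnb', hna']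
      obtain ⟨j, hj⟩ : ∃ j, orderOf n = 2 * j + 1 := by
        have := Nat.odd_iff.mpr (Nat.mod_two_ne_zero.mp (fun h => hodd2 (Nat.dvd_of_mod_eq_zero h)))
        exact this
      have := hpow j
      rw [← hj, pow_orderOf_eq_one, one_smul] at this
      exact hαβ this
  -- `Q` is a Sylow subgroup of `G`
  obtain ⟨P, hQP⟩ := hQp.exists_le_sylow
  have hPQ : (P : Subgroup G) ≤ Q := by
    by_contra hcon
    have hlt : Q.subgroupOf (P : Subgroup G) < ⊤ := by
      rw [lt_top_iff_ne_top]
      intro h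
      apply hcon
      intro x hx
      have : (⟨x, hx⟩ : (P : Subgroup G)) ∈ Q.subgroupOf (P : Subgroup G) := h ▸ Subgroup.mem_top _
      exact this
    have hnil : Group.IsNilpotent (P : Subgroup G) := P.2.isNilpotent
    have hcond := normalizerCondition_of_isNilpotent (G := (P : Subgroup G))
    have hlt2 := hcond _ hlt
    obtain ⟨x, hx1, hx2⟩ := SetLike.exists_of_lt hlt2
    have hxN : (x : G) ∈ Subgroup.normalizer (Q : Set G) := by
      rw [Subgroup.mem_normalizer_iff]
      intro y
      constructor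
      · intro hy
        have hyP : y ∈ (P : Subgroup G) := hQP hy
        have := (Subgroup.mem_normalizer_iff.mp hx1 ⟨y, hyP⟩).mp hy
        exact this
      · intro hy
        have hxP : (x : G) ∈ (P : Subgroup G) := x.2
        have hyQ' : (x : G) * y * (x : G)⁻¹ ∈ (P : Subgroup G) := hQP hy
        have hyP : y ∈ (P : Subgroup G) := by
          have : y = (x : G)⁻¹ * ((x : G) * y * (x : G)⁻¹) * (x : G) := by group
          rw [this]
          exact Subgroup.mul_mem _ (Subgroup.mul_mem _ (Subgroup.inv_mem _ hxP) hyQ') hxP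
        exact (Subgroup.mem_normalizer_iff.mp hx1 ⟨y, hyP⟩).mpr hy
    have hxH : (x : G) ∈ H := hN hxN
    -- `Q₀` is a maximal `q`-subgroup of `H`
    have hR : IsPGroup q (((P : Subgroup G).subgroupOf H) : Subgroup H) :=
      P.2.comap_of_injective H.subtype Subtype.val_injective
    have hle : (Q₀ : Subgroup H) ≤ (P : Subgroup G).subgroupOf H := by
      intro u hu
      exact hQP ⟨u, hu, rfl⟩
    have := Q₀.is_maximal' hR hle
    have hmem : (⟨x, hxH⟩ : H) ∈ (P : Subgroup G).subgroupOf H := x.2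
    have hmem' : (⟨x, hxH⟩ : H) ∈ (Q₀ : Subgroup H) := this ▸ hmem
    exact hx2 (show (x : G) ∈ Q from ⟨_, hmem', rfl⟩)
  have hPQ' : (P : Subgroup G) = Q := le_antisymm hPQ hQP
  -- the conjugacy argument
  obtain ⟨t, ht⟩ := MulAction.exists_smul_eq G α β
  have hP1 : (P : Subgroup G) ≤ MulAction.stabilizer G β := by
    rw [hPQ']; exact hQH.trans inf_le_right
  have hP2 : ((t • P : Sylow q G) : Subgroup G) ≤ MulAction.stabilizer G β := by
    intro x hx
    rw [Sylow.coe_subgroup_smul] at hx
    obtain ⟨a', ha', rfl⟩ := Subgroup.mem_smul_pointwise_iff_exists _ _ _ |>.mp hx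
    have ha'' : a' ∈ H := hQH (hPQ' ▸ ha')
    rw [MulAction.mem_stabilizer_iff]
    simp only [MulAut.smul_def, MulAut.conj_apply]
    rw [← ht, mul_smul, mul_smul, inv_smul_smul, ha''.1]
  obtain ⟨u, hu, huP⟩ := Cfsg.Agent.Lib.Basic.SylowConj.exists_mem_smul_eq _ (t • P) P hP2 hP1
  have hn : u * t ∈ Subgroup.normalizer (Q : Set G) := by
    rw [← hPQ']
    have : (u * t) • P = P := by rw [mul_smul]; exact huP
    exact Sylow.smul_eq_iff_mem_normalizer.mp this
  have h1 : (u * t) • α = α := (hN hn).1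
  rw [mul_smul, ht] at h1
  have h2 : u • β = β := hu
  rw [h2] at h1
  exact hαβ h1.symm

/-- Let G be a finite group acting faithfully and transitively on a finite set Ω with fixity k ≥ 1: every non-identity element fixes at most k points and some non-identity element fixes exactly k points. Then |Z(G)| divides k; if k = 2 then |G| is even; and for every prime p > k dividing |G| and every point α, either p does not divide |G_α| or G_α contains a Sylow p-subgroup of G. -/
theorem result {G : Type*} [Group G] [Finite G] {Ω : Type*} [Fintype Ω] [MulAction G Ω] [FaithfulSMul G Ω]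
    (htr : MulAction.IsPretransitive G Ω) (k : ℕ) (hk : 1 ≤ k)
    (hfix : ∀ g : G, g ≠ 1 → Nat.card (MulAction.fixedBy Ω g) ≤ k) (hex : ∃ g : G, g ≠ 1 ∧ Nat.card (MulAction.fixedBy Ω g) = k) :
    Nat.card (Subgroup.center G) ∣ k ∧ (k = 2 → 2 ∣ Nat.card G) ∧
      ∀ (p : ℕ), p.Prime → k < p → p ∣ Nat.card G → ∀ α : Ω,
        ¬ p ∣ Nat.card (MulAction.stabilizer G α) ∨ ¬ p ∣ (MulAction.stabilizer G α).index := by
  refine ⟨?_, ?_, ?_⟩
  · obtain ⟨g, -, hg⟩ := hex
    rw [← hg]
    exact part1 htr g
  · rintro rfl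
    exact part2 htr hfix hex
  · intro p hp hkp _ α
    by_contra hcon
    push Not at hcon
    exact part3 htr k hfix p hp hkp α hcon.1 hcon.2

end Cfsg.Agent.S3389
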