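import Cfsg.Statements.S3391
import Cfsg.Agent.Lib.Suzuki.Fixity
import Cfsg.Agent.Lib.Suzuki.Iso

set_option autoImplicit false
open Cfsg

namespace Cfsg.Agent.S3391

open Cfsg.Agent.Lib.Suzuki.Basic Cfsg.Agent.Lib.Suzuki.Struct Cfsg.Agent.Lib.Suzuki.Fixity Cfsg.Agent.Lib.Suzuki.Iso

/-- Let q = 2^{2m+1} ≥ 8 and let G be isomorphic to the Suzuki group Sz(q). If G acts faithfully and transitively on a finite set Ω with fixity 2 (every non-identity element fixes at most two points, and some fixes exactly two), then either |Ω| = q² + 1 and the action is 2-transitive, or |Ω| = q²(q² + 1) and the point stabilizers have order q − 1. -/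
theorem result {G : Type*} [Group G] [Finite G] (F : Type) [Field F] [Fintype F] (m : ℕ) (hm : 1 ≤ m) (hF : Fintype.card F = 2 ^ (2 * m + 1))
    (e : G ≃* ↥(Cfsg.Lie.Sz F (2 ^ (m + 1)))) {Ω : Type*} [Fintype Ω] [MulAction G Ω] [FaithfulSMul G Ω] (htr : MulAction.IsPretransitive G Ω)
    (hfix : ∀ g : G, g ≠ 1 → Nat.card (MulAction.fixedBy Ω g) ≤ 2) (hex : ∃ g : G, g ≠ 1 ∧ Nat.card (MulAction.fixedBy Ω g) = 2) :
    (Fintype.card Ω = Fintype.card F ^ 2 + 1 ∧ MulAction.IsMultiplyPretransitive G Ω 2) ∨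
    (Fintype.card Ω = Fintype.card F ^ 2 * (Fintype.card F ^ 2 + 1) ∧ ∀ α : Ω, Nat.card (MulAction.stabilizer G α) = Fintype.card F - 1) := by
  classical
  have h : Hyp F m := ⟨hm, hF⟩
  let E : Cfsg.Agent.Lib.Suzuki.Struct.G F m ≃* G := (suzEquiv h).trans e.symm
  let act : MulAction (Cfsg.Agent.Lib.Suzuki.Struct.G F m) Ω := MulAction.compHom Ω E.toMonoidHom
  have hsm : ∀ (γ : Cfsg.Agent.Lib.Suzuki.Struct.G F m) (ω : Ω), γ • ω = E γ • ω := fun _ _ => rfl
  have hfaith : FaithfulSMul (Cfsg.Agent.Lib.Suzuki.Struct.G F m) Ω := by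
    constructor
    intro g₁ g₂ hg
    apply E.injective
    apply FaithfulSMul.eq_of_smul_eq_smul (α := Ω)
    intro ω
    exact hg ω
  have htr' : MulAction.IsPretransitive (Cfsg.Agent.Lib.Suzuki.Struct.G F m) Ω := by
    constructor
    intro a b
    obtain ⟨g, hg⟩ := htr.exists_smul_eq a b
    refine ⟨E.symm g, ?_⟩
    rw [hsm, E.apply_symm_apply, hg]
  have hfix' : ∀ g : Cfsg.Agent.Lib.Suzuki.Struct.G F m, g ≠ 1 → Nat.card (MulAction.fixedBy Ω g) ≤ 2 := by
    intro g hg
    exact hfix (E g) (fun hc => hg (E.injective (by rw [hc, map_one])))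
  have hex' : ∃ g : Cfsg.Agent.Lib.Suzuki.Struct.G F m, g ≠ 1 ∧ Nat.card (MulAction.fixedBy Ω g) = 2 := by
    obtain ⟨g, hg, hg2⟩ := hex
    refine ⟨E.symm g, fun hc => hg ?_, ?_⟩
    · have := E.apply_symm_apply g
      rw [hc, map_one] at this
      exact this.symm
    · have h1 : MulAction.fixedBy Ω (E.symm g) = MulAction.fixedBy Ω g := by
        ext ω
        change E.symm g • ω = ω ↔ g • ω = ω
        rw [hsm, E.apply_symm_apply]
      rw [h1]
      exact hg2
  rcases fix_main h (Ω := Ω) hfix' hex' with ⟨h1, h2⟩ | ⟨h1, h2⟩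
  · left
    refine ⟨by rw [← Nat.card_eq_fintype_card]; exact h1, ?_⟩
    rw [MulAction.is_two_pretransitive_iff] at h2 ⊢
    intro a b c d hab hcd
    obtain ⟨g, hg1, hg2⟩ := h2 hab hcd
    exact ⟨E g, hg1, hg2⟩
  · right
    refine ⟨by rw [← Nat.card_eq_fintype_card]; exact h1, ?_⟩
    intro α
    rw [← h2 α]
    apply Nat.card_congr
    exact
      { toFun := fun y => ⟨E.symm y.1, by
          have h3 : y.1 • α = α := y.2
          change E.symm y.1 • α = α
          rw [hsm, E.apply_symm_apply, h3]⟩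
        invFun := fun y => ⟨E y.1, y.2⟩
        left_inv := fun y => Subtype.ext (E.apply_symm_apply y.1)
        right_inv := fun y => Subtype.ext (E.symm_apply_apply y.1) }

end Cfsg.Agent.S3391
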