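import Cfsg.Statements.S3412
import Mathlib
import Cfsg.Agent.Lib.L33Rec.Data
-- import your own Cfsg.Agent.* helpers here

set_option autoImplicit false
open Cfsg

namespace Cfsg.Agent.S3412

/-- Let H be a finite group whose commuting graph (vertices the non-identity elements, two joined when they commute) is isomorphic to that of PSL_3(3): there is a bijection between the non-identity elements of H and of PSL_3(3) under which two elements commute exactly when their images do. Then H ≅ PSL_3(3). -/
theorem result {H : Type*} [Group H] [Finite H]
    (f : {h : H // h ≠ 1} ≃ {g : Matrix.ProjectiveSpecialLinearGroup (Fin 3) (ZMod 3) // g ≠ 1})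
    (hf : ∀ x y : {h : H // h ≠ 1}, (x : H) * y = y * x ↔ ((f x) : Matrix.ProjectiveSpecialLinearGroup (Fin 3) (ZMod 3)) * (f y) = (f y) * (f x)) :
    Nonempty (H ≃* Matrix.ProjectiveSpecialLinearGroup (Fin 3) (ZMod 3)) := by
  classical
  open Cfsg.Agent.Lib.L33Rec Cfsg.Agent.Lib.M11Rec in
  obtain ⟨e⟩ := main_SL3 ((extF f).trans pslEquiv.symm.toEquiv) (by
      show pslEquiv.symm (extF f 1) = 1
      rw [extF_one, map_one]) (by
      intro x y
      have h1 := extF_comm f hf x y
      constructor
      · intro h
        have h2 := h1.1 h
        have h3 := congrArg pslEquiv.symm h2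
        rw [map_mul, map_mul] at h3
        exact h3
      · intro h
        apply h1.2
        have h3 : pslEquiv.symm (extF f x * extF f y) = pslEquiv.symm (extF f y * extF f x) := by
          rw [map_mul, map_mul]
          exact h
        exact pslEquiv.symm.injective h3)
  exact ⟨e.trans pslEquiv⟩

end Cfsg.Agent.S3412
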