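import Cfsg.Statements.S3420
import Mathlib
import Cfsg.Agent.Lib.Basic.PCore
import Cfsg.Agent.Lib.Basic.TwoPrimes
import Cfsg.Agent.Lib.Solvable.PSeries
import Cfsg.Agent.S3076

set_option autoImplicit false
open Cfsg

namespace Cfsg.Agent.S3420

open Subgroup
open Cfsg.Agent.Lib.Basic.PCore

theorem conj_fix_of_prime {G : Type*} [Group G] [Finite G] {P : Subgroup G} {p q : ℕ} (hp : p.Prime)
    (hq : q.Prime) (hcard : Nat.card P = p) (hn : ¬ q ∣ p - 1) {y x : G}
    (hy : y ∈ normalizer (P : Set G)) (hqy : y ^ q = 1) (hx : x ∈ P) (hx1 : x ≠ 1) :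
    y * x = x * y := by
  haveI := Fact.mk hp
  have hox : orderOf x = p := by
    have h1 : orderOf x ∣ p := by
      have h2 := Subgroup.orderOf_dvd_natCard P hx
      rwa [hcard] at h2
    rcases (Nat.dvd_prime hp).mp h1 with h | h
    · exact absurd (orderOf_eq_one_iff.mp h) hx1
    · exact h
  have hz : P = zpowers x := by
    symm
    apply Subgroup.eq_of_le_of_card_ge (G := G)
    · rwa [zpowers_le]
    · rw [hcard, Nat.card_zpowers, hox]
  have hyx : y * x * y⁻¹ ∈ zpowers x := by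
    rw [← hz]
    exact (mem_normalizer_iff.mp hy x).mp hx
  obtain ⟨k, hk'⟩ := (mem_powers_iff_mem_zpowers.mpr hyx)
  have hk : x ^ k = y * x * y⁻¹ := hk'
  have hit : ∀ i : ℕ, y ^ i * x * (y ^ i)⁻¹ = x ^ (k ^ i) := by
    intro i
    induction i with
    | zero => simp
    | succ i ih =>
      have : y ^ (i + 1) * x * (y ^ (i + 1))⁻¹ = y * (y ^ i * x * (y ^ i)⁻¹) * y⁻¹ := by
        rw [pow_succ']; group
      rw [this, ih, ← conj_pow, ← hk, ← pow_mul, pow_succ']
  have h1 := hit q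
  rw [hqy] at h1
  simp only [one_mul, inv_one, mul_one] at h1
  have h2 : k ^ q ≡ 1 [MOD p] := by
    have := (pow_eq_pow_iff_modEq (x := x) (n := k ^ q) (m := 1)).mp (by rw [pow_one]; exact h1.symm)
    rwa [hox] at this
  have h3 : ((k : ZMod p)) ^ q = 1 := by
    have := (ZMod.natCast_eq_natCast_iff _ _ _).mpr h2
    simpa using this
  have hk0 : (k : ZMod p) ≠ 0 := by
    intro h0
    rw [h0, zero_pow hq.ne_zero] at h3
    exact zero_ne_one h3
  have h4 := ZMod.pow_card_sub_one_eq_one hk0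
  have hg : Nat.gcd q (p - 1) = 1 := (Nat.Prime.coprime_iff_not_dvd hq).mpr hn
  have h5 : (k : ZMod p) ^ Nat.gcd q (p - 1) = 1 := pow_gcd_eq_one.mpr ⟨h3, h4⟩
  rw [hg, pow_one] at h5
  have h6 : k ≡ 1 [MOD p] := by
    apply (ZMod.natCast_eq_natCast_iff _ _ _).mp
    simpa using h5
  have h7 : x ^ k = x := by
    have := (pow_eq_pow_iff_modEq (x := x) (n := k) (m := 1)).mpr (by rwa [hox])
    rwa [pow_one] at this
  have h8 : y * x * y⁻¹ = x := by rw [← hk, h7]
  calc y * x = y * x * y⁻¹ * y := by group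
    _ = x * y := by rw [h8]

structure Hyp (G : Type*) [Group G] (S : Set ℕ) : Prop where
  prime : ∀ p ∈ S, p.Prime
  dvd : ∀ p ∈ S, p ∣ Nat.card G
  sq : ∀ p ∈ S, ¬ p ^ 2 ∣ Nat.card G
  ndvd : ∀ p ∈ S, ∀ q ∈ S, p ≠ q → ¬ q ∣ p - 1
  noord : ∀ p ∈ S, ∀ q ∈ S, p ≠ q → ∀ g : G, orderOf g ≠ p * q

variable {G : Type*} [Group G] [Finite G] {S : Set ℕ}

theorem not_commute_of_hyp (h : Hyp G S) {p q : ℕ} (hp : p ∈ S) (hq : q ∈ S) (hpq : p ≠ q)
    {x y : G} (hx : orderOf x = p) (hy : orderOf y = q) : ¬ Commute x y := by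
  intro hc
  have hcop : Nat.Coprime p q := (Nat.coprime_primes (h.prime p hp) (h.prime q hq)).mpr hpq
  apply h.noord p hp q hq hpq (x * y)
  rw [hc.orderOf_mul_eq_mul_orderOf_of_coprime (by rwa [hx, hy]), hx, hy]

theorem dvd_of_normal (h : Hyp G S) (M : Subgroup G) [hM : M.Normal] {p q : ℕ} (hp : p ∈ S)
    (hq : q ∈ S) (hpq : p ≠ q) (hpM : p ∣ Nat.card M) : q ∣ Nat.card M := by
  by_contra hqM
  have hpp := h.prime p hp
  have hqq := h.prime q hq
  haveI := Fact.mk hpp
  haveI := Fact.mk hqq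
  obtain ⟨P⟩ : Nonempty (Sylow p M) := inferInstance
  set P₁ : Subgroup G := (P : Subgroup M).map M.subtype with hP₁
  have hP₁c : Nat.card P₁ = Nat.card P := by
    rw [hP₁]; exact Subgroup.card_map_of_injective M.subtype_injective
  have hdv : p ∣ Nat.card P := P.dvd_card_of_dvd_card hpM
  have hPcard : Nat.card P = p := by
    obtain ⟨n, hn⟩ := IsPGroup.iff_card.mp P.isPGroup'
    rcases n with _ | _ | n
    · rw [hn] at hdv; simp at hdv; exact absurd hdv hpp.one_lt.ne'
    · rw [hn]; simp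
    · exfalso
      apply h.sq p hp
      have h1 : p ^ 2 ∣ Nat.card P := by rw [hn]; exact pow_dvd_pow p (by omega)
      have h2 : Nat.card P ∣ Nat.card M := Subgroup.card_subgroup_dvd_card _
      exact (h1.trans h2).trans (Subgroup.card_subgroup_dvd_card _)
  have hfr := Sylow.normalizer_sup_eq_top (p := p) P
  have hq1 : q ∣ M.index := by
    have h1 := h.dvd q hq
    rw [← Subgroup.card_mul_index M] at h1
    exact (hqq.dvd_mul.mp h1).resolve_left hqM
  have hq2 : q ∣ Nat.card (normalizer (P₁ : Set G)) := by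
    have h1 : M.relIndex (normalizer (P₁ : Set G)) = M.index := by
      rw [← relIndex_sup_right, hfr, relIndex_top_right]
    rw [← h1] at hq1
    exact hq1.trans (Subgroup.index_dvd_card _)
  obtain ⟨y, hy⟩ := exists_prime_orderOf_dvd_card' q hq2
  have hy' : orderOf (y : G) = q := by rw [Subgroup.orderOf_coe, hy]
  have hP₁p : Nat.card P₁ = p := by rw [hP₁c, hPcard]
  obtain ⟨x, hx, hx1⟩ : ∃ x ∈ P₁, x ≠ 1 := by
    by_contra hcon
    push Not at hcon
    have : P₁ = ⊥ := (Subgroup.eq_bot_iff_forall _).mpr hcon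
    rw [this, Subgroup.card_bot] at hP₁p
    exact hpp.one_lt.ne hP₁p
  have hcomm : (y : G) * x = x * y :=
    conj_fix_of_prime hpp hqq hP₁p (h.ndvd p hp q hq hpq) y.2
      (by rw [← hy', pow_orderOf_eq_one]) hx hx1
  have hox : orderOf x = p := by
    have h1 : orderOf x ∣ p := by
      have h2 := Subgroup.orderOf_dvd_natCard P₁ hx
      rwa [hP₁p] at h2
    rcases (Nat.dvd_prime hpp).mp h1 with h | h
    · exact absurd (orderOf_eq_one_iff.mp h) hx1
    · exact h
  exact not_commute_of_hyp h hp hq hpq hox hy' (Commute.symm hcomm)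

theorem simple_of_minimal (M : Subgroup G) [hM : M.Normal] {p : ℕ} (hp : p.Prime)
    (hsq : ¬ p ^ 2 ∣ Nat.card G) (hpM : p ∣ Nat.card M)
    (hmin : ∀ K : Subgroup G, K.Normal → K ≤ M → K = ⊥ ∨ K = M) : IsSimpleGroup M := by
  haveI := Fact.mk hp
  have hsqM : ¬ p ^ 2 ∣ Nat.card M := fun h => hsq (h.trans (Subgroup.card_subgroup_dvd_card _))
  -- the `p'`-core is trivial
  have hR : pPrimeCore p M = ⊥ := by
    haveI := Cfsg.Agent.Lib.Solvable.PSeries.pPrimeCore_char p M
    have hn : ((pPrimeCore p M).map M.subtype).Normal := map_subtype_normal_of_characteristic _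
    rcases hmin _ hn (by
      rintro _ ⟨x, _, rfl⟩; exact x.2) with h | h
    · exact (Subgroup.map_eq_bot_iff_of_injective _ M.subtype_injective).mp h
    · exfalso
      have hc : Nat.card ((pPrimeCore p M).map M.subtype) = Nat.card M := by rw [h]
      rw [Subgroup.card_map_of_injective M.subtype_injective] at hc
      have := Cfsg.Agent.Lib.Solvable.PSeries.pPrimeCore_coprime (G := M) p
      rw [hc] at this
      exact hp.one_lt.ne' (Nat.eq_one_of_dvd_coprimes this hpM dvd_rfl)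
  have hdv : ∀ T : Subgroup M, T.Normal → T ≠ ⊥ → p ∣ Nat.card T := by
    intro T hT hT1
    by_contra hnd
    apply hT1
    have : T ≤ pPrimeCore p M := le_pPrimeCore hT
      (((Nat.Prime.coprime_iff_not_dvd hp).mpr hnd).symm)
    rwa [hR, le_bot_iff] at this
  have hinf : ∀ T₁ T₂ : Subgroup M, T₁.Normal → T₂.Normal → T₁ ≠ ⊥ → T₂ ≠ ⊥ → T₁ ⊓ T₂ ≠ ⊥ := by
    intro T₁ T₂ h1 h2 h1' h2' h0
    obtain ⟨x, hx⟩ := exists_prime_orderOf_dvd_card' p (hdv T₂ h2 h2')
    have hi : ¬ p ∣ T₁.index := by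
      intro hpi
      apply hsqM
      rw [← Subgroup.card_mul_index T₁, pow_two]
      exact mul_dvd_mul (hdv T₁ h1 h1') hpi
    have hcop : Nat.Coprime T₁.index p := ((Nat.Prime.coprime_iff_not_dvd hp).mpr hi).symm
    have hx1 : (x : M) ∈ T₁ := by
      apply Cfsg.Agent.S3076.mem_of_pow_mem (W := T₁) (Subgroup.pow_index_mem _ _) _ hcop
      have : (x : M) ^ p = 1 := by
        have h3 : (x : M) ^ orderOf (x : T₂) = 1 := by
          rw [← Subgroup.orderOf_coe]; exact pow_orderOf_eq_one _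
        rwa [hx] at h3
      rw [this]; exact T₁.one_mem
    have hmem : (x : M) ∈ T₁ ⊓ T₂ := ⟨hx1, x.2⟩
    rw [h0, Subgroup.mem_bot] at hmem
    have : orderOf (x : M) = p := by rw [Subgroup.orderOf_coe, hx]
    rw [hmem, orderOf_one] at this
    exact hp.one_lt.ne this
  have hnontriv : Nontrivial M := by
    have : 1 < Nat.card M := lt_of_lt_of_le hp.one_lt (Nat.le_of_dvd Nat.card_pos hpM)
    exact (Finite.one_lt_card_iff_nontrivial).mp this
  -- a minimal normal subgroup of `M`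
  obtain ⟨T₀, -, hT₀⟩ := Finite.exists_le_minimal (α := Subgroup M)
    (p := fun T => T.Normal ∧ T ≠ ⊥) (a := ⊤) ⟨inferInstance, top_ne_bot⟩
  obtain ⟨⟨hT₀n, hT₀b⟩, hT₀m⟩ := hT₀
  have hleast : ∀ T : Subgroup M, T.Normal → T ≠ ⊥ → T₀ ≤ T := by
    intro T hT hT1
    have h1 : T₀ ⊓ T ≤ T₀ := inf_le_left
    have h2 := hT₀m ⟨inferInstance, hinf T₀ T hT₀n hT hT₀b hT1⟩ h1
    exact h2.trans inf_le_right
  have hchar : T₀.Characteristic := by
    rw [Subgroup.characteristic_iff_le_map]
    intro φ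
    apply hleast
    · exact Subgroup.Normal.map hT₀n _ φ.surjective
    · intro h0
      exact hT₀b ((Subgroup.map_eq_bot_iff_of_injective _ φ.injective).mp h0)
  have hn : (T₀.map M.subtype).Normal := map_subtype_normal_of_characteristic _
  have htop : T₀ = ⊤ := by
    rcases hmin _ hn (by rintro _ ⟨x, _, rfl⟩; exact x.2) with h | h
    · exact absurd ((Subgroup.map_eq_bot_iff_of_injective _ M.subtype_injective).mp h) hT₀b
    · have : T₀.map M.subtype = (⊤ : Subgroup M).map M.subtype := by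
        rw [h, ← MonoidHom.range_eq_map, Subgroup.range_subtype]
      exact Subgroup.map_injective M.subtype_injective this
  refine ⟨?_⟩
  intro T hT
  by_cases h0 : T = ⊥
  · exact Or.inl h0
  · right
    have := hleast T hT h0
    rwa [htop, top_le_iff] at this

theorem core_quot (h : Hyp G S) (M : Subgroup G) [hM : M.Normal] {p q : ℕ} (hp : p ∈ S)
    (hq : q ∈ S) (hpq : p ≠ q) (hpM : p ∣ Nat.card M)
    (hmin : ∀ K : Subgroup G, K.Normal → K ≤ M → K = ⊥ ∨ K = M) :
    IsSimpleGroup M ∧ ¬ IsMulCommutative M ∧ ∀ r ∈ S, r ∣ Nat.card M := by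
  have hall : ∀ r ∈ S, r ∣ Nat.card M := by
    intro r hr
    by_cases hrp : r = p
    · rwa [hrp]
    · exact dvd_of_normal h M hp hr (Ne.symm hrp) hpM
  refine ⟨simple_of_minimal M (h.prime p hp) (h.sq p hp) hpM hmin, ?_, hall⟩
  intro hc
  haveI := Fact.mk (h.prime p hp)
  haveI := Fact.mk (h.prime q hq)
  obtain ⟨x, hx⟩ := exists_prime_orderOf_dvd_card' p hpM
  obtain ⟨y, hy⟩ := exists_prime_orderOf_dvd_card' q (hall q hq)
  have hc' : (x : G) * y = y * x := by
    have := hc.is_comm.comm x y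
    exact congrArg Subtype.val this
  exact not_commute_of_hyp h hp hq hpq (x := (x : G)) (y := (y : G))
    (by rw [Subgroup.orderOf_coe, hx]) (by rw [Subgroup.orderOf_coe, hy]) hc'

theorem hyp_quot (h : Hyp G S) (N : Subgroup G) [hN : N.Normal]
    (hNS : ∀ p ∈ S, ¬ p ∣ Nat.card N) : Hyp (G ⧸ N) S := by
  have hcard : Nat.card G = Nat.card (G ⧸ N) * Nat.card N := by
    rw [← Subgroup.card_mul_index N, Subgroup.index_eq_card, mul_comm]
  refine ⟨h.prime, ?_, ?_, h.ndvd, ?_⟩
  · intro p hp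
    have := h.dvd p hp
    rw [hcard] at this
    exact ((h.prime p hp).dvd_mul.mp this).resolve_right (hNS p hp)
  · intro p hp hd
    apply h.sq p hp
    rw [hcard]
    exact hd.trans (dvd_mul_right _ _)
  · intro p hp q hq hpq g hg
    obtain ⟨g, rfl⟩ := QuotientGroup.mk_surjective g
    have h1 : orderOf ((g : G ⧸ N)) ∣ orderOf g := by
      have := orderOf_map_dvd (QuotientGroup.mk' N) g
      simpa using this
    rw [hg] at h1
    have h2 := orderOf_pow_orderOf_div (x := g) (n := p * q)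
      (orderOf_pos g).ne' h1
    exact h.noord p hp q hq hpq _ h2

theorem core_main (h : Hyp G S) {p₁ q₁ : ℕ} (hp₁ : p₁ ∈ S) (hq₁ : q₁ ∈ S) (hpq₁ : p₁ ≠ q₁) :
    ∃ (N H : Subgroup G) (_ : N.Normal), H.Normal ∧ N < H ∧
      IsSimpleGroup (↥H ⧸ N.subgroupOf H) ∧ ¬ IsMulCommutative (↥H ⧸ N.subgroupOf H) ∧
      ∀ r ∈ S, r ∣ Nat.card (↥H ⧸ N.subgroupOf H) := by
  classical
  -- a maximal normal subgroup without primes of `S`
  obtain ⟨N, -, hNmax⟩ := Finite.exists_le_maximal (α := Subgroup G)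
    (p := fun K => K.Normal ∧ ∀ p ∈ S, ¬ p ∣ Nat.card K) (a := ⊥)
    ⟨inferInstance, fun p hp hd => by
      rw [Subgroup.card_bot] at hd
      exact (h.prime p hp).one_lt.ne' (Nat.dvd_one.mp hd)⟩
  obtain ⟨⟨hNn, hNS⟩, hNm⟩ := hNmax
  haveI := hNn
  have hNtop : N < ⊤ := by
    refine lt_top_iff_ne_top.mpr ?_
    intro ht
    apply hNS p₁ hp₁
    rw [ht, Subgroup.card_top]
    exact h.dvd p₁ hp₁
  -- a minimal normal subgroup over `N`
  obtain ⟨H, -, hHmin⟩ := Finite.exists_le_minimal (α := Subgroup G)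
    (p := fun K => K.Normal ∧ N < K) (a := ⊤) ⟨inferInstance, hNtop⟩
  obtain ⟨⟨hHn, hNH⟩, hHm⟩ := hHmin
  haveI := hHn
  -- some prime of `S` divides `H`
  obtain ⟨p, hp, hpH⟩ : ∃ p ∈ S, p ∣ Nat.card H := by
    by_contra hcon
    push Not at hcon
    have := hNm (y := H) ⟨hHn, hcon⟩ hNH.le
    exact absurd (le_antisymm hNH.le this) hNH.ne
  obtain ⟨q, hq, hpq⟩ : ∃ q ∈ S, p ≠ q := by
    by_cases hp1 : p = p₁
    · exact ⟨q₁, hq₁, by rwa [hp1]⟩
    · exact ⟨p₁, hp₁, hp1⟩
  have hyp := hyp_quot h N hNS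
  set M : Subgroup (G ⧸ N) := H.map (QuotientGroup.mk' N) with hMdef
  haveI hMn : M.Normal := Subgroup.Normal.map hHn _ (QuotientGroup.mk'_surjective N)
  have hφ : ((QuotientGroup.mk' N).comp H.subtype).range = M := by
    rw [MonoidHom.range_comp, Subgroup.range_subtype]
  have hker : ((QuotientGroup.mk' N).comp H.subtype).ker = N.subgroupOf H := by
    ext x
    simp [MonoidHom.mem_ker, Subgroup.mem_subgroupOf]
  let E : (↥H ⧸ N.subgroupOf H) ≃* M :=
    (QuotientGroup.quotientMulEquivOfEq hker.symm).trans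
      ((QuotientGroup.quotientKerEquivRange ((QuotientGroup.mk' N).comp H.subtype)).trans
        (MulEquiv.subgroupCongr hφ))
  have hcardE : Nat.card (↥H ⧸ N.subgroupOf H) = Nat.card M := Nat.card_congr E.toEquiv
  have hcardH : Nat.card H = Nat.card (↥H ⧸ N.subgroupOf H) * Nat.card (N.subgroupOf H) := by
    rw [← Subgroup.card_mul_index (N.subgroupOf H), Subgroup.index_eq_card, mul_comm]
  have hpM : p ∣ Nat.card M := by
    rw [← hcardE]
    rw [hcardH] at hpH
    rcases (h.prime p hp).dvd_mul.mp hpH with h1 | h1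
    · exact h1
    · exfalso
      apply hNS p hp
      rw [Nat.card_congr (Subgroup.subgroupOfEquivOfLe hNH.le).toEquiv] at h1
      exact h1
  have hmin : ∀ K : Subgroup (G ⧸ N), K.Normal → K ≤ M → K = ⊥ ∨ K = M := by
    intro K hK hKM
    have hc : (K.comap (QuotientGroup.mk' N)).Normal := Subgroup.Normal.comap hK _
    have hNle : N ≤ K.comap (QuotientGroup.mk' N) := by
      intro x hx
      rw [Subgroup.mem_comap]
      have : (QuotientGroup.mk' N) x = 1 := by
        simpa using hx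
      rw [this]; exact K.one_mem
    have hleH : K.comap (QuotientGroup.mk' N) ≤ H := by
      intro x hx
      obtain ⟨y, hy, hyx⟩ := hKM hx
      have h1 : y⁻¹ * x ∈ N := by
        rw [← QuotientGroup.eq]
        exact hyx
      have h2 := H.mul_mem hy (hNH.le h1)
      simpa using h2
    rcases eq_or_lt_of_le hNle with h1 | h1
    · left
      rw [eq_bot_iff]
      intro z hz
      obtain ⟨x, rfl⟩ := QuotientGroup.mk_surjective z
      have : x ∈ K.comap (QuotientGroup.mk' N) := hz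
      rw [← h1] at this
      simpa using this
    · right
      have h2 := hHm (y := K.comap (QuotientGroup.mk' N)) ⟨hc, h1⟩ hleH
      have h3 : H = K.comap (QuotientGroup.mk' N) := le_antisymm h2 hleH
      rw [hMdef, h3, Subgroup.map_comap_eq_self_of_surjective (QuotientGroup.mk'_surjective N)]
  obtain ⟨h1, h2, h3⟩ := core_quot hyp M hp hq hpq hpM hmin
  refine ⟨N, H, hNn, hHn, hNH, E.isSimpleGroup, ?_, ?_⟩
  · intro hc
    apply h2
    refine ⟨⟨fun a b => ?_⟩⟩
    have := hc.is_comm.comm (E.symm a) (E.symm b)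
    apply E.symm.injective
    rw [map_mul, map_mul, this]
  · intro r hr
    rw [hcardE]
    exact h3 r hr

theorem no_order_mul {n p q : ℕ} (hp : p.Prime) (hq : q.Prime) (hpq : p ≠ q)
    (hp2 : n < 2 * p) (hq2 : n < 2 * q) (g : Equiv.Perm (Fin n)) : orderOf g ≠ p * q := by
  classical
  intro ho
  have key : ∀ r : ℕ, r.Prime → n < 2 * r → r ∣ orderOf g → r ∈ g.cycleType := by
    intro r hr hr2 hd
    rw [← Equiv.Perm.lcm_cycleType] at hd
    have hd' : r ∣ g.cycleType.prod :=
      hd.trans (Multiset.lcm_dvd.mpr fun b hb => Multiset.dvd_prod hb)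
    obtain ⟨m, hm, hrm⟩ := (Nat.Prime.prime hr).exists_mem_multiset_dvd hd'
    have hle : m ≤ n := by
      have h1 : m ≤ g.cycleType.sum := Multiset.single_le_sum (fun _ _ => Nat.zero_le _) m hm
      rw [Equiv.Perm.sum_cycleType] at h1
      have h2 := Finset.card_le_univ g.support
      simp only [Fintype.card_fin] at h2
      omega
    have hm0 : 0 < m := by
      have := Equiv.Perm.two_le_of_mem_cycleType hm
      omega
    obtain ⟨k, rfl⟩ := hrm
    have hk : k = 1 := by
      rcases k with _ | _ | k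
      · simp at hm0
      · rfl
      · exfalso
        have : r * 2 ≤ r * (k + 1 + 1) := Nat.mul_le_mul_left r (by omega)
        omega
    rw [hk, mul_one] at hm
    exact hm
  have h1 := key p hp hp2 (by rw [ho]; exact dvd_mul_right _ _)
  have h2 := key q hq hq2 (by rw [ho]; exact dvd_mul_left _ _)
  have h3 : q ∈ g.cycleType.erase p := (Multiset.mem_erase_of_ne (Ne.symm hpq)).mpr h2
  have h4 : q ≤ (g.cycleType.erase p).sum := Multiset.single_le_sum (fun _ _ => Nat.zero_le _) q h3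
  have h5 : p + (g.cycleType.erase p).sum = g.cycleType.sum := by
    conv_rhs => rw [← Multiset.cons_erase h1]
    simp
  rw [Equiv.Perm.sum_cycleType] at h5
  have h6 := Finset.card_le_univ g.support
  simp only [Fintype.card_fin] at h6
  omega

/-- Let n ≥ 11 and let G be a finite group with the same order and the same set of element orders as the alternating group of degree n. Then G has normal subgroups N < H such that H/N is a non-abelian simple group whose order is divisible by every prime p with n/2 < p ≤ n. -/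
theorem result {G : Type*} [Group G] [Finite G] (n : ℕ) (hn : 11 ≤ n)
    (hcard : Nat.card G = Nat.card ↥(alternatingGroup (Fin n)))
    (hspec : Set.range (orderOf : G → ℕ) = Set.range (orderOf : ↥(alternatingGroup (Fin n)) → ℕ)) :
    ∃ (N H : Subgroup G) (_ : N.Normal), H.Normal ∧ N < H ∧
      IsSimpleGroup (↥H ⧸ N.subgroupOf H) ∧ ¬ IsMulCommutative (↥H ⧸ N.subgroupOf H) ∧
      ∀ p : ℕ, p.Prime → n < 2 * p → p ≤ n → p ∣ Nat.card (↥H ⧸ N.subgroupOf H) := by
  classical
  let S : Set ℕ := {p | p.Prime ∧ n < 2 * p ∧ p ≤ n}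
  haveI : Nontrivial (Fin n) := Fin.nontrivial_iff_two_le.mpr (by omega)
  have h2card : 2 * Nat.card G = n.factorial := by
    rw [hcard, two_mul_nat_card_alternatingGroup, Nat.card_perm, Nat.card_eq_fintype_card,
      Fintype.card_fin]
  have hodd : ∀ p ∈ S, ¬ p ∣ 2 := by
    rintro p ⟨hp, hp2, hp3⟩ hd
    have := Nat.le_of_dvd (by norm_num) hd
    omega
  have hS : Cfsg.Agent.S3420.Hyp G S := by
    refine ⟨fun p hp => hp.1, ?_, ?_, ?_, ?_⟩
    · intro p hp
      have h1 : p ∣ n.factorial := (Nat.Prime.dvd_factorial hp.1).mpr hp.2.2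
      rw [← h2card] at h1
      exact (hp.1.dvd_mul.mp h1).resolve_left (hodd p hp)
    · rintro p ⟨hp, hp2, hp3⟩ hd
      have h1 : p ^ 2 ∣ n.factorial := by
        rw [← h2card]; exact hd.trans (dvd_mul_left _ _)
      have hplarge : 6 ≤ p := by omega
      have hlog : Nat.log p n < 2 := by
        apply Nat.log_lt_of_lt_pow (by omega)
        nlinarith
      rw [Nat.Prime.pow_dvd_factorial_iff hp hlog] at h1
      simp only [Nat.Ico_succ_singleton, Finset.sum_singleton, pow_one] at h1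
      have : n / p < 2 := by
        apply Nat.div_lt_of_lt_mul; omega
      omega
    · rintro p ⟨hp, hp2, hp3⟩ q ⟨hq, hq2, hq3⟩ hpq ⟨k, hk⟩
      have hplarge : 6 ≤ p := by omega
      have hqlarge : 6 ≤ q := by omega
      have hpodd : p % 2 = 1 := (hp.eq_two_or_odd).resolve_left (by omega)
      have hqodd : q % 2 = 1 := (hq.eq_two_or_odd).resolve_left (by omega)
      rcases k with _ | _ | k
      · simp at hk; omega
      · simp at hk; omega
      · have : q * 2 ≤ q * (k + 1 + 1) := Nat.mul_le_mul_left q (by omega)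
        omega
    · rintro p ⟨hp, hp2, hp3⟩ q ⟨hq, hq2, hq3⟩ hpq g hg
      have h1 : orderOf g ∈ Set.range (orderOf : G → ℕ) := ⟨g, rfl⟩
      rw [hspec] at h1
      obtain ⟨σ, hσ⟩ := h1
      apply Cfsg.Agent.S3420.no_order_mul hp hq hpq hp2 hq2 (σ : Equiv.Perm (Fin n))
      rw [← hg, ← hσ, Subgroup.orderOf_coe]
  obtain ⟨p₁, q₁, hp₁, hq₁, hpq₁⟩ : ∃ p q : ℕ, p ∈ S ∧ q ∈ S ∧ p ≠ q := by
    rcases Nat.lt_or_ge n 12 with hlt | hge
    · have hn11 : n = 11 := by omega
      subst hn11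
      exact ⟨7, 11, ⟨by norm_num, by norm_num, by norm_num⟩,
        ⟨by norm_num, by norm_num, by norm_num⟩, by norm_num⟩
    · obtain ⟨p, q, hp, hq, h1, h2, h3⟩ :=
        Cfsg.Agent.Lib.Basic.TwoPrimes.exists_two_primes (n / 2) (by omega)
      exact ⟨p, q, ⟨hp, by omega, by omega⟩, ⟨hq, by omega, by omega⟩, by omega⟩
  obtain ⟨N, H, hN, hH, hNH, h1, h2, h3⟩ := Cfsg.Agent.S3420.core_main hS hp₁ hq₁ hpq₁
  exact ⟨N, H, hN, hH, hNH, h1, h2, fun p hp hp2 hp3 => h3 p ⟨hp, hp2, hp3⟩⟩

end Cfsg.Agent.S3420
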