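import Cfsg.Statements.S3488
import Cfsg.Agent.Lib.PSL2.AffNat2
import Cfsg.Agent.Lib.PSL2.A6Spec
-- import your own Cfsg.Agent.* helpers here

set_option autoImplicit false
open Cfsg

namespace Cfsg.Agent.S3488

open Matrix Cfsg.Agent.Lib.PSL2.Basic Cfsg.Agent.Lib.PSL2.AffNat
open scoped MatrixGroups

variable {F : Type*} [Field F]

/-- The block matrix of an element of the affine group. -/
def mat (x : Hk F 1) : Matrix (Fin 3) (Fin 3) F :=
  !![x.right.1 0 0, x.right.1 0 1, Multiplicative.toAdd x.left 0 0;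
     x.right.1 1 0, x.right.1 1 1, Multiplicative.toAdd x.left 0 1;
     0, 0, 1]

lemma det_mat (x : Hk F 1) : (mat x).det = 1 := by
  rw [Matrix.det_fin_three]
  simp [mat]
  have := det_entries x.right
  linear_combination this

/-- The embedding into `SL(3, F)`. -/
def Φ : Hk F 1 →* SL(3, F) where
  toFun x := ⟨mat x, det_mat x⟩
  map_one' := by
    apply Subtype.ext
    ext i j
    fin_cases i <;> fin_cases j <;> simp [mat] <;> rfl
  map_mul' x y := by
    apply Subtype.ext
    have h1 : Multiplicative.toAdd (x * y).left 0 0 = Multiplicative.toAdd x.left 0 0 +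
        (x.right.1 0 0 * Multiplicative.toAdd y.left 0 0 + x.right.1 0 1 * Multiplicative.toAdd y.left 0 1) := by
      rw [SemidirectProduct.mul_left]
      show _ + (x.right.1.mulVec (Multiplicative.toAdd y.left 0)) 0 = _
      simp [Matrix.mulVec, dotProduct, Fin.sum_univ_two]
    have h2 : Multiplicative.toAdd (x * y).left 0 1 = Multiplicative.toAdd x.left 0 1 +
        (x.right.1 1 0 * Multiplicative.toAdd y.left 0 0 + x.right.1 1 1 * Multiplicative.toAdd y.left 0 1) := by
      rw [SemidirectProduct.mul_left]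
      show _ + (x.right.1.mulVec (Multiplicative.toAdd y.left 0)) 1 = _
      simp [Matrix.mulVec, dotProduct, Fin.sum_univ_two]
    have h3 : (x * y).right = x.right * y.right := SemidirectProduct.mul_right _ _
    show mat (x * y) = mat x * mat y
    ext i j
    simp only [mat, h1, h2, h3, mul_00, mul_01, mul_10, mul_11]
    fin_cases i <;> fin_cases j <;> simp [Matrix.mul_apply, Fin.sum_univ_three] <;> ring

lemma Φ_injective : Function.Injective (Φ : Hk F 1 → SL(3, F)) := by
  intro x y h
  have h' : mat x = mat y := congrArg Subtype.val h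
  have e : ∀ i j, mat x i j = mat y i j := fun i j => by rw [h']
  refine SemidirectProduct.ext ?_ ?_
  · show Multiplicative.toAdd x.left = Multiplicative.toAdd y.left
    funext i
    have hi : i = 0 := Subsingleton.elim _ _
    subst hi
    funext j
    fin_cases j
    · exact e 0 2
    · exact e 1 2
  · apply ext2
    · exact e 0 0
    · exact e 0 1
    · exact e 1 0
    · exact e 1 1

/-- The closure in question is the range of the embedding. -/
lemma closure_eq : Subgroup.closure {M : SL(3, F) |
    (M : Matrix (Fin 3) (Fin 3) F) 2 0 = 0 ∧ (M : Matrix (Fin 3) (Fin 3) F) 2 1 = 0 ∧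
      (M : Matrix (Fin 3) (Fin 3) F) 2 2 = 1} = (Φ : Hk F 1 →* SL(3, F)).range := by
  apply le_antisymm
  · rw [Subgroup.closure_le]
    rintro M ⟨h0, h1, h2⟩
    have hdet := M.2
    rw [Matrix.det_fin_three] at hdet
    rw [h0, h1, h2] at hdet
    have hd : M.1 0 0 * M.1 1 1 - M.1 0 1 * M.1 1 0 = 1 := by
      linear_combination hdet
    let A : SL(2, F) := sl2 _ _ _ _ hd
    let v : Fin 1 → Fin 2 → F := fun _ => ![M.1 0 2, M.1 1 2]
    refine ⟨⟨Multiplicative.ofAdd v, A⟩, ?_⟩
    apply Subtype.ext
    show mat _ = M.1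
    ext i j
    fin_cases i <;> fin_cases j <;> simp [mat, A, v, h0, h1, h2]
  · rintro _ ⟨x, rfl⟩
    apply Subgroup.subset_closure
    refine ⟨?_, ?_, ?_⟩
    · show mat x 2 0 = 0
      simp [mat]
    · show mat x 2 1 = 0
      simp [mat]
    · show mat x 2 2 = 1
      simp [mat]

/-- Let F be the field with four elements. The affine group F² ⋊ SL(2,F), realised as the subgroup of SL(3,F) of matrices with last row (0, 0, 1), has exactly the same set of element orders as the alternating group of degree 6 (namely {1, 2, 3, 4, 5}); so the alternating group of degree 6 is not determined by its element orders. -/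
theorem result {F : Type*} [Field F] [Fintype F] (hF : Fintype.card F = 4) :
    Set.range (orderOf : Subgroup.closure {M : Matrix.SpecialLinearGroup (Fin 3) F |
        (M : Matrix (Fin 3) (Fin 3) F) 2 0 = 0 ∧ (M : Matrix (Fin 3) (Fin 3) F) 2 1 = 0 ∧ (M : Matrix (Fin 3) (Fin 3) F) 2 2 = 1} → ℕ) =
      Set.range (orderOf : alternatingGroup (Fin 6) → ℕ) := by
  classical
  have h2 : (2 : F) = 0 := by
    have hc : ringChar F = 2 := by
      apply FiniteField.even_card_iff_char_two.2
      rw [hF]
    have h3 := ringChar.Nat.cast_ringChar (R := F)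
    rw [hc] at h3
    exact_mod_cast h3
  rw [Cfsg.Agent.Lib.PSL2.A6Spec.range_orderOf_A6]
  have hH := range_orderOf_Hk (E := F) (k := 1) h2 le_rfl
  rw [hF] at hH
  norm_num at hH
  rw [← hH, closure_eq]
  ext m
  constructor
  · rintro ⟨⟨_, ⟨x, rfl⟩⟩, rfl⟩
    refine ⟨x, ?_⟩
    exact (orderOf_injective Φ Φ_injective x).symm.trans (Subgroup.orderOf_coe (⟨Φ x, ⟨x, rfl⟩⟩ : (Φ : Hk F 1 →* SL(3, F)).range))
  · rintro ⟨x, rfl⟩
    refine ⟨⟨Φ x, ⟨x, rfl⟩⟩, ?_⟩
    exact (Subgroup.orderOf_coe (⟨Φ x, ⟨x, rfl⟩⟩ : (Φ : Hk F 1 →* SL(3, F)).range)).symm.trans (orderOf_injective Φ Φ_injective x)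

end Cfsg.Agent.S3488
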