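import Cfsg.Statements.S3504
import Mathlib

set_option autoImplicit false
open Cfsg

namespace Cfsg.Agent.S3504

open Equiv Equiv.Perm

/-- The class invariants of a fixed-point-free permutation of prime order. -/
lemma cycleType_of_derangement {n : ℕ} {g : Perm (Fin n)} (hp : (orderOf g).Prime) (hd : ∀ i, g i ≠ i) :
    orderOf g ∣ n ∧ g.cycleType = Multiset.replicate (n / orderOf g) (orderOf g) := by
  classical
  obtain ⟨k, hk⟩ := cycleType_prime_order hp
  have hs : g.support = Finset.univ := by
    ext i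
    simp [mem_support, hd i]
  have h1 : g.cycleType.sum = n := by
    rw [sum_cycleType, hs]
    simp
  rw [hk] at h1
  simp only [Multiset.sum_replicate, smul_eq_mul] at h1
  have hd2 : orderOf g ∣ n := ⟨k + 1, by rw [mul_comm]; exact h1.symm⟩
  refine ⟨hd2, ?_⟩
  rw [hk]
  congr 1
  exact (Nat.div_eq_of_eq_mul_left hp.pos h1.symm).symm

/-- Existence of a fixed-point-free permutation of order `r`, for `r` a prime divisor of `n`. -/
lemma exists_derangement {n r : ℕ} (hr : r.Prime) (hd : r ∣ n) (hn : 0 < n) :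
    ∃ g : Perm (Fin n), orderOf g = r ∧ ∀ i, g i ≠ i := by
  classical
  obtain ⟨c, rfl⟩ := hd
  have hc : 0 < c := Nat.pos_of_mul_pos_left hn
  have hex : ∃ g : Perm (Fin (r * c)), g.cycleType = Multiset.replicate c r := by
    rw [exists_with_cycleType_iff]
    constructor
    · simp [Multiset.sum_replicate, mul_comm]
    · intro a ha
      rw [Multiset.eq_of_mem_replicate ha]
      exact hr.two_le
  obtain ⟨g, hg⟩ := hex
  refine ⟨g, ?_, ?_⟩
  · rw [← lcm_cycleType, hg]
    apply Nat.dvd_antisymm
    · exact Multiset.lcm_dvd.mpr (fun b hb => by rw [Multiset.eq_of_mem_replicate hb])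
    · exact Multiset.dvd_lcm (Multiset.mem_replicate.mpr ⟨hc.ne', rfl⟩)
  · have h1 : g.support.card = r * c := by
      rw [← sum_cycleType, hg]
      simp [Multiset.sum_replicate, mul_comm]
    have h2 : g.support = Finset.univ := by
      apply Finset.eq_univ_of_card
      simp [h1]
    intro i
    have : i ∈ g.support := by rw [h2]; simp
    exact mem_support.mp this

/-- For n ≥ 5, the fixed-point-free permutations of prime order in the symmetric group of degree n form a single conjugacy class if and only if n is a prime power. -/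
theorem result (n : ℕ) (hn : 5 ≤ n) :
    Nat.card {c : ConjClasses (Equiv.Perm (Fin n)) // ∃ g : Equiv.Perm (Fin n), ConjClasses.mk g = c ∧ (orderOf g).Prime ∧ ∀ i : Fin n, g i ≠ i} = 1 ↔ IsPrimePow n := by
  classical
  have hn0 : 0 < n := by omega
  constructor
  · intro h
    rw [Nat.card_eq_one_iff_unique] at h
    obtain ⟨hsub, -⟩ := h
    rw [isPrimePow_iff_unique_prime_dvd]
    have hne : n ≠ 1 := by omega
    refine ⟨n.minFac, ⟨Nat.minFac_prime hne, Nat.minFac_dvd n⟩, ?_⟩
    rintro s ⟨hs, hsd⟩
    obtain ⟨g, hgo, hgd⟩ := exists_derangement hs hsd hn0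
    obtain ⟨g', hgo', hgd'⟩ := exists_derangement (Nat.minFac_prime hne) (Nat.minFac_dvd n) hn0
    have e := hsub.elim ⟨ConjClasses.mk g, g, rfl, by rw [hgo]; exact hs, hgd⟩
      ⟨ConjClasses.mk g', g', rfl, by rw [hgo']; exact Nat.minFac_prime hne, hgd'⟩
    have e2 : ConjClasses.mk g = ConjClasses.mk g' := congrArg Subtype.val e
    rw [ConjClasses.mk_eq_mk_iff_isConj] at e2
    have e3 : orderOf g = orderOf g' := by
      rw [← lcm_cycleType, ← lcm_cycleType, isConj_iff_cycleType_eq.mp e2]
    rw [hgo, hgo'] at e3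
    exact e3
  · intro h
    rw [isPrimePow_iff_unique_prime_dvd] at h
    obtain ⟨p, ⟨hp, hpd⟩, huniq⟩ := h
    rw [Nat.card_eq_one_iff_unique]
    constructor
    · constructor
      rintro ⟨c, g, rfl, hg1, hg2⟩ ⟨c', g', rfl, hg1', hg2'⟩
      apply Subtype.ext
      show ConjClasses.mk g = ConjClasses.mk g'
      rw [ConjClasses.mk_eq_mk_iff_isConj, isConj_iff_cycleType_eq]
      obtain ⟨h1, h2⟩ := cycleType_of_derangement hg1 hg2
      obtain ⟨h1', h2'⟩ := cycleType_of_derangement hg1' hg2'
      have e : orderOf g = p := huniq _ ⟨hg1, h1⟩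
      have e' : orderOf g' = p := huniq _ ⟨hg1', h1'⟩
      rw [h2, h2', e, e']
    · obtain ⟨g, hgo, hgd⟩ := exists_derangement hp hpd hn0
      exact ⟨⟨ConjClasses.mk g, g, rfl, by rw [hgo]; exact hp, hgd⟩⟩

end Cfsg.Agent.S3504
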