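import Cfsg.Statements.S3508
import Mathlib
-- import your own Cfsg.Agent.* helpers here

set_option autoImplicit false
open Cfsg

namespace Cfsg.Agent.S3508


open Polynomial in
/-- The linear algebra: a `p`-power-order endomorphism on an `m`-dimensional space. -/
lemma key {V : Type*} [AddCommGroup V] {p : ℕ} [hp : Fact p.Prime] [Module (ZMod p) V] [Finite V]
    (A : Module.End (ZMod p) V) (m : ℕ) (hcard : Nat.card V = p ^ m) (r : ℕ) (hA : A ^ p ^ r = 1)
    (s : ℕ) (hs : m < p ^ s) : (∑ i ∈ Finset.range (p ^ s), A ^ i) = 0 ∧ A ^ p ^ s = 1 := by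
  classical
  have hpp := hp.out
  haveI : Module.Finite (ZMod p) V := Module.Finite.of_finite
  have hfr : Module.finrank (ZMod p) V = m := by
    haveI : Fintype V := Fintype.ofFinite V
    have h1 := Module.card_eq_pow_finrank (K := ZMod p) (V := V)
    rw [ZMod.card, ← Nat.card_eq_fintype_card, hcard] at h1
    exact (Nat.pow_right_injective hpp.two_le h1).symm
  set D : Module.End (ZMod p) V := A - 1 with hD
  have hfrob : ∀ k, ((X : (ZMod p)[X]) - 1) ^ p ^ k = X ^ p ^ k - 1 := by
    intro k
    rw [sub_pow_char_pow, one_pow]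
  have hDk : ∀ k, D ^ p ^ k = A ^ p ^ k - 1 := by
    intro k
    have := congrArg (aeval A) (hfrob k)
    simpa [hD] using this
  have hnil : IsNilpotent D := ⟨p ^ r, by rw [hDk, hA, sub_self]⟩
  have hchar := _root_.IsNilpotent.charpoly_eq_X_pow_finrank hnil
  have hDm : D ^ m = 0 := by
    have := LinearMap.aeval_self_charpoly D
    rw [hchar, hfr] at this
    simpa using this
  have hpos : 0 < p ^ s := pow_pos hpp.pos s
  obtain ⟨t, ht⟩ : ∃ t, p ^ s = t + 1 := ⟨p ^ s - 1, by omega⟩
  have hgeom : ∑ i ∈ Finset.range (p ^ s), (X : (ZMod p)[X]) ^ i = (X - 1) ^ t := by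
    have h1 : (∑ i ∈ Finset.range (p ^ s), (X : (ZMod p)[X]) ^ i) * (X - 1) = X ^ p ^ s - 1 :=
      geom_sum_mul _ _
    rw [← hfrob, ht, pow_succ] at h1
    rw [ht]
    exact mul_right_cancel₀ (X_sub_C_ne_zero (1 : ZMod p) |> fun h => by simpa using h) h1
  constructor
  · have := congrArg (aeval A) hgeom
    simp only [map_sum, map_pow, aeval_X, map_sub, map_one] at this
    rw [this]
    change D ^ t = 0
    exact pow_eq_zero_of_le (by omega) hDm
  · have h1 := hDk s
    rw [show D ^ p ^ s = 0 from pow_eq_zero_of_le (by omega) hDm] at h1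
    exact (sub_eq_zero.mp h1.symm)


/-- The affine computation. -/
lemma main_aux {G : Type*} [Group G] {Ω : Type*} [MulAction G Ω] [FaithfulSMul G Ω]
    {p : ℕ} [hp : Fact p.Prime] {V : Type*} [AddCommGroup V] [Module (ZMod p) V] [Finite V]
    (act : V → G) (hadd : ∀ x y, act (x + y) = act x * act y) (hzero : act 0 = 1)
    (hinj : Function.Injective act)
    (g : G) (A : Module.End (ZMod p) V) (hA : ∀ x, g * act x * g⁻¹ = act (A x))
    (ω₀ : Ω) (hsurj : ∀ ω, ∃ x, act x • ω₀ = ω) (b : V) (hb : act b • ω₀ = g • ω₀)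
    (m : ℕ) (hcard : Nat.card V = p ^ m) (r : ℕ) (hg : g ^ p ^ r = 1)
    (s : ℕ) (hs : m < p ^ s) : g ^ p ^ s = 1 := by
  have hpow : ∀ (k : ℕ) (x : V), g ^ k * act x * (g ^ k)⁻¹ = act ((A ^ k) x) := by
    intro k
    induction k with
    | zero => intro x; simp
    | succ k ih =>
      intro x
      rw [pow_succ' A k, Module.End.mul_apply, ← hA, ← ih, pow_succ' g k]
      group
  have hAr : A ^ p ^ r = 1 := by
    ext x
    apply hinj
    rw [← hpow, hg]
    simp
  obtain ⟨h1, h2⟩ := key A m hcard r hAr s hs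
  have hstep : ∀ k : ℕ, g ^ k • ω₀ = act (∑ i ∈ Finset.range k, (A ^ i) b) • ω₀ := by
    intro k
    induction k with
    | zero => simp [hzero]
    | succ k ih =>
      rw [pow_succ', mul_smul, ih, Finset.sum_range_succ', pow_zero, Module.End.one_apply, hadd,
        mul_smul, hb, ← mul_smul, ← mul_smul]
      have e : ∑ i ∈ Finset.range k, (A ^ (i + 1)) b = A (∑ i ∈ Finset.range k, (A ^ i) b) := by
        rw [map_sum]
        apply Finset.sum_congr rfl
        intro i _
        rw [pow_succ', Module.End.mul_apply]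
      rw [e, ← hA]
      congr 1
      group
  have h3 : g ^ p ^ s • ω₀ = ω₀ := by
    rw [hstep]
    have : ∑ i ∈ Finset.range (p ^ s), (A ^ i) b = 0 := by
      have := LinearMap.congr_fun h1 b
      simpa [LinearMap.sum_apply] using this
    rw [this, hzero, one_smul]
  apply FaithfulSMul.eq_of_smul_eq_smul (α := Ω)
  intro ω
  obtain ⟨x, rfl⟩ := hsurj ω
  rw [one_smul, ← mul_smul]
  have h4 := hpow (p ^ s) x
  rw [h2, Module.End.one_apply] at h4
  have h5 : g ^ p ^ s * act x = act x * g ^ p ^ s := by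
    exact mul_inv_eq_iff_eq_mul.mp h4
  rw [h5, mul_smul, h3]

lemma arith_one (m : ℕ) (h : 2 ^ (m - 1) ≤ m) : m ≤ 2 := by
  by_contra hcon
  obtain ⟨t, rfl⟩ : ∃ t, m = t + 3 := ⟨m - 3, by omega⟩
  have h1 : t < 2 ^ t := Nat.lt_two_pow_self
  have e : t + 3 - 1 = t + 2 := by omega
  rw [e, pow_add] at h
  omega

lemma arith_two (p m : ℕ) (hp : 3 ≤ p) (h : p ^ (m - 1) ≤ m) : m ≤ 1 := by
  by_contra hcon
  obtain ⟨t, rfl⟩ : ∃ t, m = t + 2 := ⟨m - 2, by omega⟩
  have h1 : t < 3 ^ t := Nat.lt_pow_self (by norm_num)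
  have e : t + 2 - 1 = t + 1 := by omega
  rw [e] at h
  have h2 : 3 ^ (t + 1) ≤ p ^ (t + 1) := Nat.pow_le_pow_left hp _
  rw [pow_succ] at h2
  omega

/-- Let a finite group G act faithfully on a set Ω with p ^ m points (p prime) and have an elementary abelian normal p-subgroup N acting regularly on Ω (so G is a group of affine transformations of an m-dimensional space over the field with p elements). If G contains an element of order p ^ r with r ≥ 1, then p ^ (r − 1) ≤ m. In particular an element of order p ^ m forces m ≤ 2, and m ≤ 1 when p is odd. -/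
theorem result {G : Type*} [Group G] [Finite G] {Ω : Type*} [Fintype Ω] [MulAction G Ω] [FaithfulSMul G Ω] (p m : ℕ) (hp : p.Prime) (hcard : Fintype.card Ω = p ^ m)
    (N : Subgroup G) [N.Normal] (hNc : IsMulCommutative N) (hNp : ∀ n ∈ N, n ^ p = 1)
    (hNtr : MulAction.IsPretransitive N Ω) (hNreg : ∀ ω : Ω, MulAction.stabilizer N ω = ⊥)
    (g : G) (r : ℕ) (hr : 1 ≤ r) (hg : orderOf g = p ^ r) :
    p ^ (r - 1) ≤ m ∧ (r = m → m ≤ 2 ∧ (2 < p → m ≤ 1)) := by
  classical
  haveI hpf : Fact p.Prime := ⟨hp⟩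
  have hcomm : ∀ a b : ↥N, a * b = b * a := hNc.is_comm.comm
  letI cg : CommGroup ↥N := { (inferInstance : Group ↥N) with mul_comm := hcomm }
  have hsmul : ∀ x : Additive ↥N, p • x = 0 := by
    intro x
    apply Additive.toMul.injective
    apply Subtype.ext
    simpa using hNp _ (Additive.toMul x).2
  letI : Module (ZMod p) (Additive ↥N) := AddCommGroup.zmodModule hsmul
  haveI hΩ : Nonempty Ω := by
    apply Fintype.card_pos_iff.mp
    rw [hcard]; exact pow_pos hp.pos _
  obtain ⟨ω₀⟩ := hΩ
  -- conjugation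
  let A₀ : Additive ↥N →+ Additive ↥N :=
    { toFun := fun x => Additive.ofMul ⟨g * (Additive.toMul x : ↥N) * g⁻¹,
        (inferInstance : N.Normal).conj_mem _ (Additive.toMul x).2 g⟩
      map_zero' := by
        apply Additive.toMul.injective
        apply Subtype.ext
        simp
      map_add' := by
        intro x y
        apply Additive.toMul.injective
        apply Subtype.ext
        simp [mul_assoc] }
  let A : Module.End (ZMod p) (Additive ↥N) := A₀.toZModLinearMap p
  let act : Additive ↥N → G := fun x => ((Additive.toMul x : ↥N) : G)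
  have hact : Function.Injective act := fun x y h => Additive.toMul.injective (Subtype.ext h)
  -- cardinality of `N`
  have hcardN : Nat.card (Additive ↥N) = p ^ m := by
    rw [← hcard, ← Nat.card_eq_fintype_card]
    apply Nat.card_congr
    refine Equiv.ofBijective (fun x => (Additive.toMul x : ↥N) • ω₀) ⟨?_, ?_⟩
    · intro x y hxy
      have h1 : (Additive.toMul y : ↥N)⁻¹ * (Additive.toMul x : ↥N) ∈ MulAction.stabilizer ↥N ω₀ := by
        rw [MulAction.mem_stabilizer_iff, mul_smul]
        have h2 : (Additive.toMul x : ↥N) • ω₀ = (Additive.toMul y : ↥N) • ω₀ := hxy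
        rw [h2, inv_smul_smul]
      rw [hNreg, Subgroup.mem_bot] at h1
      have h3 : Additive.toMul x = Additive.toMul y := by
        exact (inv_mul_eq_one.mp h1).symm
      exact Additive.toMul.injective h3
    · intro ω
      obtain ⟨n, hn⟩ := MulAction.exists_smul_eq ↥N ω₀ ω
      exact ⟨Additive.ofMul n, hn⟩
  obtain ⟨b, hb⟩ := MulAction.exists_smul_eq ↥N ω₀ (g • ω₀)
  have hgr : g ^ p ^ r = 1 := by rw [← hg]; exact pow_orderOf_eq_one g
  have hmain : ∀ s, m < p ^ s → g ^ p ^ s = 1 := fun s hs =>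
    main_aux (p := p) act (fun _ _ => rfl) rfl hact g A (fun _ => rfl) ω₀
      (fun ω => by
        obtain ⟨n, hn⟩ := MulAction.exists_smul_eq ↥N ω₀ ω
        exact ⟨Additive.ofMul n, hn⟩)
      (Additive.ofMul b) hb m hcardN r hgr s hs
  have h1 : p ^ (r - 1) ≤ m := by
    by_contra hcon
    push Not at hcon
    have h2 := hmain (r - 1) hcon
    have h3 := orderOf_dvd_of_pow_eq_one h2
    rw [hg, Nat.pow_dvd_pow_iff_le_right hp.one_lt] at h3
    omega
  refine ⟨h1, ?_⟩
  rintro rfl
  constructor
  · refine arith_one r (le_trans ?_ h1)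
    exact Nat.pow_le_pow_left hp.two_le _
  · intro h2
    exact arith_two p r h2 h1

end Cfsg.Agent.S3508
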