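import Cfsg.Statements.S3511
import Mathlib
-- import your own Cfsg.Agent.* helpers here

set_option autoImplicit false
open Cfsg

namespace Cfsg.Agent.S3511

lemma squarefree_prod_primes (n : ℕ) : Squarefree (∏ p ∈ n.primeFactors, p) := by
  classical
  rw [Nat.squarefree_iff_prime_squarefree]
  intro q hq hqq
  have hq1 : q ∣ ∏ p ∈ n.primeFactors, p := (Dvd.intro _ rfl).trans hqq
  obtain ⟨r, hr, hqr⟩ := (Prime.dvd_finsetProd_iff hq.prime _).1 hq1
  have hrp : r.Prime := Nat.prime_of_mem_primeFactors hr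
  have hqr' : q = r := (Nat.prime_dvd_prime_iff_eq hq hrp).1 hqr
  subst hqr'
  rw [← Finset.mul_prod_erase _ _ hr] at hqq
  have h2 : q ∣ ∏ p ∈ n.primeFactors.erase q, p :=
    (Nat.mul_dvd_mul_iff_left hq.pos).1 hqq
  obtain ⟨s, hs, hqs⟩ := (Prime.dvd_finsetProd_iff hq.prime _).1 h2
  have hsp : s.Prime := Nat.prime_of_mem_primeFactors (Finset.mem_of_mem_erase hs)
  have := (Nat.prime_dvd_prime_iff_eq hq hsp).1 hqs
  exact (Finset.ne_of_mem_erase hs) this.symm


/-- Let a finite group G act faithfully on a set Ω. If every element of G of square-free order has a regular cycle (an orbit of the cyclic group it generates with trivial stabilizer), then every element of G has a regular cycle. -/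
theorem result {G : Type*} [Group G] [Finite G] {Ω : Type*} [MulAction G Ω] [FaithfulSMul G Ω]
    (h : ∀ g : G, Squarefree (orderOf g) → ∃ ω : Ω, MulAction.stabilizer (Subgroup.zpowers g) ω = ⊥) (g : G) :
    ∃ ω : Ω, MulAction.stabilizer (Subgroup.zpowers g) ω = ⊥ := by
  classical
  set n := orderOf g with hn'
  have hn : n ≠ 0 := (orderOf_pos g).ne'
  set d := ∏ p ∈ n.primeFactors, p with hd'
  have hd : d ∣ n := Nat.prod_primeFactors_dvd n
  set x := g ^ (n / d) with hx'
  have hx : orderOf x = d := orderOf_pow_orderOf_div hn hd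
  obtain ⟨ω, hω⟩ := h x (hx ▸ squarefree_prod_primes n)
  refine ⟨ω, ?_⟩
  by_contra hne
  obtain ⟨y, hy, hy1⟩ := (Subgroup.bot_or_exists_ne_one _).resolve_left hne
  have hyω : (y : G) • ω = ω := by
    have := MulAction.mem_stabilizer_iff.1 hy
    exact this
  have hy0 : (y : G) ≠ 1 := fun h => hy1 (Subtype.ext h)
  set m := orderOf (y : G) with hm
  have hm1 : m ≠ 1 := by
    intro h
    exact hy0 (orderOf_eq_one_iff.1 h)
  obtain ⟨q, hq, hqm⟩ := Nat.exists_prime_and_dvd hm1
  have hm0 : m ≠ 0 := (orderOf_pos _).ne'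
  set y1 := (y : G) ^ (m / q) with hy1'
  have hy1ord : orderOf y1 = q := orderOf_pow_orderOf_div hm0 hqm
  have hy1mem : y1 ∈ Subgroup.zpowers g := pow_mem y.2 _
  have hy1ω : y1 • ω = ω := by
    have : ∀ k : ℕ, (y : G) ^ k • ω = ω := by
      intro k
      induction k with
      | zero => simp
      | succ k ih => rw [pow_succ, mul_smul, hyω, ih]
    exact this _
  have hqn : q ∣ n := hy1ord ▸ orderOf_dvd_of_mem_zpowers hy1mem
  have hqd : q ∣ d := by
    apply Finset.dvd_prod_of_mem (fun p => p)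
    exact Nat.mem_primeFactors.2 ⟨hq, hqn, hn⟩
  obtain ⟨k, hk⟩ := (mem_powers_iff_mem_zpowers).2 hy1mem
  replace hk : g ^ k = y1 := hk
  have hnk : n ∣ k * q := by
    apply orderOf_dvd_of_pow_eq_one
    rw [pow_mul, hk, ← hy1ord, pow_orderOf_eq_one]
  obtain ⟨d', hd''⟩ := hqd
  obtain ⟨e, he⟩ := hd
  have hdpos : 0 < d := by
    rcases Nat.eq_zero_or_pos d with h0 | h0
    · rw [h0, zero_mul] at he
      exact absurd he hn
    · exact h0
  have hndiv : n / d = e := Nat.div_eq_of_eq_mul_right hdpos he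
  have hek : e ∣ k := by
    have h3 : (d' * e) * q ∣ k * q := by
      have : n = (d' * e) * q := by rw [he, hd'']; ring
      rw [← this]; exact hnk
    have h4 : d' * e ∣ k := (Nat.mul_dvd_mul_iff_right hq.pos).1 h3
    exact (Dvd.intro_left _ rfl).trans h4
  obtain ⟨k', hk'⟩ := hek
  have hy1x : y1 ∈ Subgroup.zpowers x := by
    rw [← hk, hk', hx', hndiv, pow_mul]
    exact pow_mem (Subgroup.mem_zpowers _) _
  have hst : (⟨y1, hy1x⟩ : ↥(Subgroup.zpowers x)) ∈ MulAction.stabilizer (Subgroup.zpowers x) ω := by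
    rw [MulAction.mem_stabilizer_iff]
    exact hy1ω
  rw [hω, Subgroup.mem_bot] at hst
  have h1 : y1 = 1 := congrArg Subtype.val hst
  rw [h1, orderOf_one] at hy1ord
  exact hq.one_lt.ne hy1ord

end Cfsg.Agent.S3511
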