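import Cfsg.Statements.S3516
import Cfsg.Agent.Lib.Linalg.Extend
import Mathlib

set_option autoImplicit false
open Cfsg

namespace Cfsg.Agent.S3516

open Cfsg.Agent.Lib.Linalg.Extend

/-- A permutation of a vector space over `ZMod p`, `p` odd, satisfying the line-parameter identity, is affine. -/
theorem affine_of_param {p : ℕ} [Fact p.Prime] (hp : p ≠ 2) {V : Type*} [AddCommGroup V] [Module (ZMod p) V]
    [FiniteDimensional (ZMod p) V] (σ : Equiv.Perm V)
    (h : ∀ (x y : V) (c : ZMod p), σ (x + c • (y - x)) = σ x + c • (σ y - σ x)) :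
    ∃ (A : V ≃ₗ[ZMod p] V) (b : V), ∀ x, σ x = A x + b := by
  have h2 : (2 : ZMod p) ≠ 0 := by
    intro h0
    have : ((2 : ℕ) : ZMod p) = 0 := by exact_mod_cast h0
    rw [ZMod.natCast_eq_zero_iff] at this
    exact hp ((Nat.prime_dvd_prime_iff_eq Fact.out Nat.prime_two).mp this)
  let τ : V → V := fun x => σ x - σ 0
  have hsmul : ∀ (c : ZMod p) (x : V), τ (c • x) = c • τ x := by
    intro c x
    have := h 0 x c
    simp only [sub_zero, zero_add] at this
    simp only [τ]
    rw [this]; abel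
  have hmid : ∀ x y : V, τ ((2 : ZMod p)⁻¹ • (x + y)) = (2 : ZMod p)⁻¹ • (τ x + τ y) := by
    intro x y
    have h1 := h x y (2 : ZMod p)⁻¹
    have e1 : x + (2 : ZMod p)⁻¹ • (y - x) = (2 : ZMod p)⁻¹ • (x + y) := by
      have : x = (2 : ZMod p)⁻¹ • (x + x) := by
        rw [← two_smul (ZMod p) x, smul_smul, inv_mul_cancel₀ h2, one_smul]
      nth_rewrite 1 [this]
      rw [← smul_add]
      congr 1
      abel
    have e2 : σ x - σ 0 = (2 : ZMod p)⁻¹ • ((σ x - σ 0) + (σ x - σ 0)) := by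
      rw [← two_smul (ZMod p) (σ x - σ 0), smul_smul, inv_mul_cancel₀ h2, one_smul]
    simp only [τ]
    rw [← e1, h1]
    have : σ x + (2 : ZMod p)⁻¹ • (σ y - σ x) - σ 0 = (σ x - σ 0) + (2 : ZMod p)⁻¹ • (σ y - σ x) := by abel
    rw [this]
    nth_rewrite 1 [e2]
    rw [← smul_add]
    congr 1
    abel
  have hadd : ∀ x y : V, τ (x + y) = τ x + τ y := by
    intro x y
    have h1 := hmid x y
    have h3 : τ (x + y) = (2 : ZMod p) • τ ((2 : ZMod p)⁻¹ • (x + y)) := by
      rw [← hsmul, smul_smul, mul_inv_cancel₀ h2, one_smul]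
    rw [h3, h1, smul_smul, mul_inv_cancel₀ h2, one_smul]
  let L : V →ₗ[ZMod p] V := { toFun := τ, map_add' := hadd, map_smul' := hsmul }
  have hinj : Function.Injective L := by
    intro x y hxy
    have : σ x - σ 0 = σ y - σ 0 := hxy
    exact σ.injective (sub_left_injective this)
  refine ⟨LinearEquiv.ofInjectiveEndo L hinj, σ 0, fun x => ?_⟩
  show σ x = (σ x - σ 0) + σ 0
  abel

/-- Let p be an odd prime, d ≥ 3, and G a group of affine permutations x ↦ Ax + b of V = F_p^d containing all translations and all maps x ↦ Ax with A of determinant 1. Then the 3-closure of G is the full affine group: a permutation σ of V agrees on every triple of points with some element of G if and only if σ is an affine map. -/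
theorem result (p : ℕ) [Fact p.Prime] (hp : p ≠ 2) (d : ℕ) (hd : 3 ≤ d) (G : Subgroup (Equiv.Perm (Fin d → ZMod p)))
    (haff : (G : Set (Equiv.Perm (Fin d → ZMod p))) ⊆ {τ : Equiv.Perm (Fin d → ZMod p) | ∃ (A : (Fin d → ZMod p) ≃ₗ[ZMod p] (Fin d → ZMod p)) (b : Fin d → ZMod p), ∀ x, τ x = A x + b})
    (htrans : ∀ b : Fin d → ZMod p, ∃ g ∈ G, ∀ x, g x = x + b)
    (hsl : ∀ A : (Fin d → ZMod p) ≃ₗ[ZMod p] (Fin d → ZMod p), LinearMap.det (A : (Fin d → ZMod p) →ₗ[ZMod p] (Fin d → ZMod p)) = 1 → ∃ g ∈ G, ∀ x, g x = A x)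
    (σ : Equiv.Perm (Fin d → ZMod p)) :
    (∀ t : Fin 3 → (Fin d → ZMod p), ∃ g ∈ G, ∀ i, σ (t i) = g (t i)) ↔ σ ∈ {τ : Equiv.Perm (Fin d → ZMod p) | ∃ (A : (Fin d → ZMod p) ≃ₗ[ZMod p] (Fin d → ZMod p)) (b : Fin d → ZMod p), ∀ x, τ x = A x + b} := by
  constructor
  · intro h
    apply affine_of_param hp
    intro x y c
    obtain ⟨g, hg, hgt⟩ := h ![x, y, x + c • (y - x)]
    obtain ⟨A, b, hA⟩ := haff hg
    have h0 := hgt 0
    have h1 := hgt 1
    have h2 := hgt 2
    simp only [Matrix.cons_val_zero, Matrix.cons_val_one, Matrix.cons_val] at h0 h1 h2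
    rw [h2, h0, h1, hA, hA, hA]
    simp only [map_add, map_smul, map_sub, smul_sub, add_sub_add_right_eq_sub]
    abel
  · rintro ⟨A, b, hA⟩ t
    let W : Submodule (ZMod p) (Fin d → ZMod p) := Submodule.span (ZMod p) {t 1 - t 0, t 2 - t 0}
    have hW : W ≠ ⊤ := by
      intro htop
      have h1 : Module.finrank (ZMod p) W ≤ 2 := by
        have := finrank_span_finset_le_card (R := ZMod p) ({t 1 - t 0, t 2 - t 0} : Finset (Fin d → ZMod p))
        have h3 : (({t 1 - t 0, t 2 - t 0} : Finset (Fin d → ZMod p)) : Set (Fin d → ZMod p)) = {t 1 - t 0, t 2 - t 0} := by simp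
        rw [h3] at this
        exact this.trans (Finset.card_le_two)
      rw [htop, finrank_top, Module.finrank_fin_fun] at h1
      omega
    have hdet : LinearMap.det (A : (Fin d → ZMod p) →ₗ[ZMod p] (Fin d → ZMod p)) ≠ 0 := by
      intro h0
      have := LinearEquiv.isUnit_det' A
      exact this.ne_zero h0
    obtain ⟨B, hB, hBd⟩ := exists_fix_det W hW (inv_ne_zero hdet)
    let A' := B.trans A
    have hA'd : LinearMap.det (A' : (Fin d → ZMod p) →ₗ[ZMod p] (Fin d → ZMod p)) = 1 := by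
      have : (A' : (Fin d → ZMod p) →ₗ[ZMod p] (Fin d → ZMod p)) = (A : (Fin d → ZMod p) →ₗ[ZMod p] (Fin d → ZMod p)) ∘ₗ (B : (Fin d → ZMod p) →ₗ[ZMod p] (Fin d → ZMod p)) := rfl
      rw [this, LinearMap.det_comp, hBd, mul_inv_cancel₀ hdet]
    obtain ⟨g₁, hg₁, hg₁x⟩ := hsl A' hA'd
    obtain ⟨g₂, hg₂, hg₂x⟩ := htrans (σ (t 0) - A' (t 0))
    refine ⟨g₂ * g₁, G.mul_mem hg₂ hg₁, fun i => ?_⟩
    simp only [Equiv.Perm.mul_apply, hg₁x, hg₂x]
    have hagree : ∀ j, A' (t j - t 0) = A (t j - t 0) := by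
      intro j
      show A (B (t j - t 0)) = _
      congr 1
      apply hB
      fin_cases j
      · simp
      · exact Submodule.subset_span (by simp)
      · exact Submodule.subset_span (by simp)
    have := hagree i
    rw [map_sub, map_sub] at this
    rw [hA, hA]
    rw [show A' (t i) + (A (t 0) + b - A' (t 0)) = (A' (t i) - A' (t 0)) + (A (t 0) + b) by abel, this]
    abel

end Cfsg.Agent.S3516
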