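import Cfsg.Statements.S3515
import Cfsg.Agent.S3516
import Mathlib

set_option autoImplicit false
open Cfsg

namespace Cfsg.Agent.S3515

theorem hall2 : ∀ x : Fin 2 → ZMod 2, x = 0 ∨ x = ![1, 0] ∨ x = ![0, 1] ∨ x = ![1, 1] := by decide
theorem ne0 : ¬ (0 : Fin 2 → ZMod 2) = ![1, 1] := by decide
theorem ne1 : ¬ (![1, 0] : Fin 2 → ZMod 2) = ![1, 1] := by decide
theorem ne2 : ¬ (![0, 1] : Fin 2 → ZMod 2) = ![1, 1] := by decide

/-- Every primitive affine permutation group of degree p² is 3-closed. Let p be a prime and G a group of permutations of the plane V = F_p² consisting of affine maps x ↦ Ax + b, containing all translations, and acting primitively on V. Then any permutation σ of V that agrees on every triple of points with some element of G (σ preserves every G-orbit on ordered triples) already lies in G. -/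
theorem result (p : ℕ) [Fact p.Prime] (G : Subgroup (Equiv.Perm (Fin 2 → ZMod p)))
    (haff : (G : Set (Equiv.Perm (Fin 2 → ZMod p))) ⊆ {τ : Equiv.Perm (Fin 2 → ZMod p) | ∃ (A : (Fin 2 → ZMod p) ≃ₗ[ZMod p] (Fin 2 → ZMod p)) (b : Fin 2 → ZMod p), ∀ x, τ x = A x + b})
    (htrans : ∀ b : Fin 2 → ZMod p, ∃ g ∈ G, ∀ x, g x = x + b) (hprim : MulAction.IsPreprimitive G (Fin 2 → ZMod p))
    (σ : Equiv.Perm (Fin 2 → ZMod p)) (hσ : (∀ t : Fin 3 → (Fin 2 → ZMod p), ∃ g ∈ G, ∀ i, σ (t i) = g (t i))) : σ ∈ G := by
  have he : ∀ x : Fin 2 → ZMod p, x = x 0 • ![1, 0] + x 1 • ![0, 1] := by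
    intro x
    ext i
    fin_cases i <;> simp
  obtain ⟨g, hg, hgt⟩ := hσ ![0, ![1, 0], ![0, 1]]
  have h0 : σ 0 = g 0 := hgt 0
  have h1 : σ ![1, 0] = g ![1, 0] := hgt 1
  have h2 : σ ![0, 1] = g ![0, 1] := hgt 2
  by_cases hp : p = 2
  · subst hp
    -- four points: `σ` and `g` agree on three of them, hence everywhere
    have hall : ∀ x : Fin 2 → ZMod 2, x = 0 ∨ x = ![1, 0] ∨ x = ![0, 1] ∨ x = ![1, 1] := hall2
    have h3 : σ ![1, 1] = g ![1, 1] := by
      have hy : g (g⁻¹ (σ ![1, 1])) = σ ![1, 1] := by simp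
      rcases hall (g⁻¹ (σ ![1, 1])) with h | h | h | h
      · rw [h, ← h0] at hy
        exact absurd (σ.injective hy) ne0
      · rw [h, ← h1] at hy
        exact absurd (σ.injective hy) ne1
      · rw [h, ← h2] at hy
        exact absurd (σ.injective hy) ne2
      · rw [h] at hy
        exact hy.symm
    have : σ = g := by
      ext1 x
      rcases hall x with rfl | rfl | rfl | rfl
      · exact h0
      · exact h1
      · exact h2
      · exact h3
    rw [this]; exact hg
  · obtain ⟨A, b, hA⟩ := (Cfsg.Agent.S3516.affine_of_param hp σ (by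
      intro x y c
      obtain ⟨g, hg, hgt⟩ := hσ ![x, y, x + c • (y - x)]
      obtain ⟨A, b, hA⟩ := haff hg
      have h0 := hgt 0
      have h1 := hgt 1
      have h2 := hgt 2
      simp only [Matrix.cons_val_zero, Matrix.cons_val_one, Matrix.cons_val] at h0 h1 h2
      rw [h2, h0, h1, hA, hA, hA]
      simp only [map_add, map_smul, map_sub, smul_sub, add_sub_add_right_eq_sub]
      abel))
    obtain ⟨A', b', hA'⟩ := haff hg
    have hb : b = b' := by
      have := h0
      rw [hA, hA', map_zero, map_zero, zero_add, zero_add] at this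
      exact this
    have hA1 : A ![1, 0] = A' ![1, 0] := by
      have := h1
      rw [hA, hA', hb] at this
      exact add_right_cancel this
    have hA2 : A ![0, 1] = A' ![0, 1] := by
      have := h2
      rw [hA, hA', hb] at this
      exact add_right_cancel this
    have : σ = g := by
      ext1 x
      rw [hA, hA', hb]
      congr 1
      rw [he x, map_add, map_add, map_smul, map_smul, map_smul, map_smul, hA1, hA2]
    rw [this]; exact hg

end Cfsg.Agent.S3515
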