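import Cfsg.Statements.S3517
import Cfsg.Agent.Lib.Linalg.Extend
import Mathlib

set_option autoImplicit false
open Cfsg

namespace Cfsg.Agent.S3517

open Cfsg.Agent.Lib.Linalg.Extend

/-- over `F_2`, two distinct nonzero vectors are independent -/
theorem li_pair {V : Type*} [AddCommGroup V] [Module (ZMod 2) V] {u v : V} (hu : u ≠ 0) (hv : v ≠ 0) (huv : u ≠ v) :
    LinearIndependent (ZMod 2) ![u, v] := by
  rw [LinearIndependent.pair_iff]
  intro s t h
  have hc : ∀ x : ZMod 2, x = 0 ∨ x = 1 := by decide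
  rcases hc s with rfl | rfl <;> rcases hc t with rfl | rfl
  · exact ⟨rfl, rfl⟩
  · simp at h; exact absurd h hv
  · simp at h; exact absurd h hu
  · exfalso
    simp only [one_smul] at h
    apply huv
    have h2 : u + u = 0 := by
      have : (2 : ZMod 2) • u = 0 := by
        have : (2 : ZMod 2) = 0 := rfl
        rw [this, zero_smul]
      rwa [two_smul] at this
    calc u = -u := by rw [eq_neg_iff_add_eq_zero]; exact h2
      _ = v := by rw [neg_eq_iff_add_eq_zero]; exact h

theorem equiv_one {V : Type*} [AddCommGroup V] [Module (ZMod 2) V] [FiniteDimensional (ZMod 2) V] {u v : V}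
    (hu : u ≠ 0) (hv : v ≠ 0) : ∃ A : V ≃ₗ[ZMod 2] V, A u = v := by
  have h1 : LinearIndependent (ZMod 2) (fun _ : Unit => u) := LinearIndependent.of_subsingleton () hu
  have h2 : LinearIndependent (ZMod 2) (fun _ : Unit => v) := LinearIndependent.of_subsingleton () hv
  obtain ⟨A, hA⟩ := exists_equiv_of_li h1 h2
  exact ⟨A, hA ()⟩

/-- For d ≥ 3, the 3-closure of the affine group AGL_d(2) acting on F_2^d is the full symmetric group: every permutation of F_2^d agrees on every ordered triple of points with some affine map (AGL_d(2) is 3-transitive). -/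
theorem result (d : ℕ) (hd : 3 ≤ d) (σ : Equiv.Perm (Fin d → ZMod 2)) (t : Fin 3 → (Fin d → ZMod 2)) :
    ∃ (A : (Fin d → ZMod 2) ≃ₗ[ZMod 2] (Fin d → ZMod 2)) (b : Fin d → ZMod 2), ∀ i, σ (t i) = A (t i) + b := by
  have key : ∃ A : (Fin d → ZMod 2) ≃ₗ[ZMod 2] (Fin d → ZMod 2),
      A (t 1 - t 0) = σ (t 1) - σ (t 0) ∧ A (t 2 - t 0) = σ (t 2) - σ (t 0) := by
    have hs : ∀ x y, x ≠ y → σ x - σ y ≠ 0 := fun x y h h' => h (σ.injective (sub_eq_zero.mp h'))
    by_cases h1 : t 1 = t 0
    · by_cases h2 : t 2 = t 0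
      · refine ⟨LinearEquiv.refl _ _, ?_, ?_⟩ <;> simp [h1, h2]
      · obtain ⟨A, hA⟩ := equiv_one (sub_ne_zero.mpr h2) (hs _ _ h2)
        refine ⟨A, ?_, hA⟩
        simp [h1]
    · by_cases h2 : t 2 = t 0
      · obtain ⟨A, hA⟩ := equiv_one (sub_ne_zero.mpr h1) (hs _ _ h1)
        refine ⟨A, hA, ?_⟩
        simp [h2]
      · by_cases h12 : t 1 = t 2
        · obtain ⟨A, hA⟩ := equiv_one (sub_ne_zero.mpr h1) (hs _ _ h1)
          refine ⟨A, hA, ?_⟩
          rw [← h12]; exact hA
        · have l1 := li_pair (sub_ne_zero.mpr h1) (sub_ne_zero.mpr h2)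
            (fun h => h12 (sub_left_injective h))
          have l2 := li_pair (hs _ _ h1) (hs _ _ h2)
            (fun h => h12 (σ.injective (sub_left_injective h)))
          obtain ⟨A, hA⟩ := exists_equiv_of_li l1 l2
          exact ⟨A, by simpa using hA 0, by simpa using hA 1⟩
  obtain ⟨A, h1, h2⟩ := key
  refine ⟨A, σ (t 0) - A (t 0), fun i => ?_⟩
  rw [map_sub] at h1 h2
  fin_cases i
  · simp
  · simp only [Fin.mk_one, Fin.isValue]
    have : σ (t 1) = A (t 1) - A (t 0) + σ (t 0) := by rw [h1]; abel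
    rw [this]; abel
  · have h3 : σ (t 2) = A (t 2) - A (t 0) + σ (t 0) := by rw [h2]; abel
    show σ (t 2) = A (t 2) + (σ (t 0) - A (t 0))
    rw [h3]; abel

end Cfsg.Agent.S3517
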