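import Cfsg.Statements.S3518
import Mathlib
import Cfsg.Agent.Lib.Perm.Redei
-- import your own Cfsg.Agent.* helpers here

set_option autoImplicit false
open Cfsg

namespace Cfsg.Agent.S3518

/-- The affine permutation `x ↦ a x + b`. -/
def mkAff {p : ℕ} [Fact p.Prime] (a : (ZMod p)ˣ) (b : ZMod p) : Equiv.Perm (ZMod p) where
  toFun x := a * x + b
  invFun y := (a⁻¹ : (ZMod p)ˣ) * (y - b)
  left_inv x := by
    change ((a⁻¹ : (ZMod p)ˣ) : ZMod p) * ((a : ZMod p) * x + b - b) = x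
    rw [add_sub_cancel_right, Units.inv_mul_cancel_left]
  right_inv y := by
    change (a : ZMod p) * (((a⁻¹ : (ZMod p)ˣ) : ZMod p) * (y - b)) + b = y
    rw [Units.mul_inv_cancel_left, sub_add_cancel]

theorem mkAff_mem {p : ℕ} [Fact p.Prime] (a : (ZMod p)ˣ) (b : ZMod p) :
    mkAff a b ∈ Cfsg.affineGroup (ZMod p) := ⟨a, b, fun _ => rfl⟩

theorem part2 {p : ℕ} [Fact p.Prime] (σ : Equiv.Perm (ZMod p)) (t : Fin 2 → ZMod p) :
    ∃ g ∈ Cfsg.affineGroup (ZMod p), ∀ i, σ (t i) = g (t i) := by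
  by_cases ht : t 0 = t 1
  · refine ⟨mkAff 1 (σ (t 0) - t 0), mkAff_mem _ _, ?_⟩
    rw [Fin.forall_fin_two]
    constructor
    · simp [mkAff]
    · simp [mkAff, ← ht]
  · have hd : t 1 - t 0 ≠ 0 := sub_ne_zero.mpr (Ne.symm ht)
    have he : σ (t 1) - σ (t 0) ≠ 0 := sub_ne_zero.mpr fun h => ht (σ.injective h).symm
    refine ⟨mkAff (Units.mk0 ((σ (t 1) - σ (t 0)) / (t 1 - t 0)) (div_ne_zero he hd))
      (σ (t 0) - (σ (t 1) - σ (t 0)) / (t 1 - t 0) * t 0), mkAff_mem _ _, ?_⟩
    rw [Fin.forall_fin_two]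
    constructor
    · simp [mkAff]
    · simp only [mkAff, Equiv.coe_fn_mk, Units.val_mk0]
      field_simp
      ring

theorem part3 {p : ℕ} [Fact p.Prime] (σ : Equiv.Perm (ZMod p))
    (h : ∀ t : Fin 3 → ZMod p, ∃ g ∈ Cfsg.affineGroup (ZMod p), ∀ i, σ (t i) = g (t i)) :
    σ ∈ Cfsg.affineGroup (ZMod p) := by
  have key : ∀ x, ∃ a : (ZMod p)ˣ, (a : ZMod p) = σ 1 - σ 0 ∧ σ x = (a : ZMod p) * x + σ 0 := by
    intro x
    obtain ⟨g, ⟨a, b, hg⟩, hi⟩ := h ![0, 1, x]
    have h0 := hi 0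
    have h1 := hi 1
    have h2 := hi 2
    simp only [Matrix.cons_val_zero, Matrix.cons_val_one, Matrix.cons_val] at h0 h1 h2
    rw [hg] at h0 h1 h2
    simp only [mul_zero, zero_add, mul_one] at h0 h1
    refine ⟨a, ?_, ?_⟩
    · rw [h0, h1]; ring
    · rw [h2, h0]
  obtain ⟨a, ha, -⟩ := key 0
  refine ⟨a, σ 0, fun x => ?_⟩
  obtain ⟨a', ha', hx⟩ := key x
  rw [hx, ha, ha']

theorem part1 {p : ℕ} [Fact p.Prime] (G : Subgroup (Equiv.Perm (ZMod p)))
    (hG : G ≤ Cfsg.affineGroup (ZMod p)) (htrans : ∀ b : ZMod p, ∃ g ∈ G, ∀ x, g x = x + b)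
    (hne : G ≠ Cfsg.affineGroup (ZMod p)) (σ : Equiv.Perm (ZMod p))
    (hσ : ∀ t : Fin 2 → ZMod p, ∃ g ∈ G, ∀ i, σ (t i) = g (t i)) : σ ∈ G := by
  classical
  let S : Subgroup (ZMod p)ˣ :=
    { carrier := {u | ∃ g ∈ G, ∃ b : ZMod p, ∀ x, g x = (u : ZMod p) * x + b}
      mul_mem' := by
        rintro u v ⟨g, hg, b, hb⟩ ⟨g', hg', b', hb'⟩
        refine ⟨g * g', mul_mem hg hg', (u : ZMod p) * b' + b, fun x => ?_⟩
        simp only [Equiv.Perm.coe_mul, Function.comp_apply, hb', hb, Units.val_mul]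
        ring
      one_mem' := ⟨1, one_mem _, 0, fun x => by simp⟩
      inv_mem' := by
        rintro u ⟨g, hg, b, hb⟩
        refine ⟨g⁻¹, inv_mem hg, -((u⁻¹ : (ZMod p)ˣ) : ZMod p) * b, fun x => ?_⟩
        apply g.injective
        have h1 : g (g⁻¹ x) = x := by
          rw [← Equiv.Perm.mul_apply, mul_inv_cancel]
          rfl
        have hu : (u : ZMod p) * ((u⁻¹ : (ZMod p)ˣ) : ZMod p) = 1 := Units.mul_inv u
        rw [h1, hb]
        linear_combination (b - x) * hu }
  have hStop : S ≠ ⊤ := by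
    intro htop
    apply hne
    refine le_antisymm hG ?_
    rintro τ ⟨a, b, hτ⟩
    have ha : a ∈ S := by rw [htop]; trivial
    obtain ⟨g, hg, b', hb'⟩ := ha
    obtain ⟨t, ht, htb⟩ := htrans (b - b')
    have : τ = t * g := by
      ext x
      simp only [Equiv.Perm.coe_mul, Function.comp_apply, htb, hb', hτ]
      ring_nf
    rw [this]
    exact mul_mem ht hg
  have hidx : 2 ≤ S.index := by
    have h0 : S.index ≠ 0 := Subgroup.index_ne_zero_of_finite
    have h1 : S.index ≠ 1 := fun h => hStop (Subgroup.index_eq_one.mp h)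
    omega
  have hcardS : 2 * Nat.card S ≤ p - 1 := by
    have h1 := Subgroup.card_mul_index S
    rw [Nat.card_eq_fintype_card (α := (ZMod p)ˣ), ZMod.card_units p] at h1
    rw [← h1, mul_comm]
    exact Nat.mul_le_mul_left _ hidx
  have hpos : 1 ≤ Nat.card S := Nat.card_pos
  let D : Finset (ZMod p) := (Finset.univ.filter (· ∈ S)).image Units.val
  have hDcard : D.card ≤ Nat.card S := by
    calc D.card ≤ (Finset.univ.filter (· ∈ S)).card := Finset.card_image_le
      _ = Nat.card S := by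
        rw [Nat.card_eq_fintype_card, Fintype.card_subtype]
  have hD : ∀ y, y ∉ D → Function.Injective fun x => σ x - y * x := by
    intro y hy x x' hxx
    by_contra hne'
    apply hy
    obtain ⟨g, hg, hi⟩ := hσ ![x, x']
    have h0 := hi 0
    have h1 := hi 1
    simp only [Matrix.cons_val_zero, Matrix.cons_val_one] at h0 h1
    obtain ⟨a, b, hab⟩ := hG hg
    rw [hab] at h0 h1
    have hd : x - x' ≠ 0 := sub_ne_zero.mpr hne'
    have hay : (a : ZMod p) = y := by
      have h3 : (a : ZMod p) * (x - x') = y * (x - x') := by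
        simp only at hxx
        rw [h0, h1] at hxx
        linear_combination hxx
      exact mul_right_cancel₀ hd h3
    rw [← hay]
    simp only [D, Finset.mem_image, Finset.mem_filter, Finset.mem_univ, true_and]
    exact ⟨a, ⟨g, hg, b, hab⟩, rfl⟩
  have hp3 : 3 ≤ p := by omega
  obtain ⟨a, b, hab⟩ := Cfsg.Agent.Lib.Perm.Redei.exists_affine σ D hD (by omega) hp3
  obtain ⟨g, hg, hi⟩ := hσ ![0, 1]
  have h0 := hi 0
  have h1 := hi 1
  simp only [Matrix.cons_val_zero, Matrix.cons_val_one] at h0 h1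
  obtain ⟨a', b', hab'⟩ := hG hg
  rw [hab, hab'] at h0 h1
  simp only [mul_zero, zero_add, mul_one] at h0 h1
  have : σ = g := by
    ext x
    rw [hab, hab', ← h0]
    have : a = (a' : ZMod p) := by
      have := h1
      rw [h0] at this
      exact add_right_cancel this
    rw [this]
  rw [this]
  exact hg

/-- Closures of subgroups of the one-dimensional affine group. Let p be a prime and G a group of permutations of F_p lying in the affine group AGL₁(p) = {x ↦ ax + b, a ≠ 0} and containing all translations. (1) If G is a proper subgroup of AGL₁(p), then G is 2-closed: a permutation of F_p agreeing on every ordered pair of points with some element of G lies in G. (2) Every permutation of F_p agrees on every ordered pair with some element of AGL₁(p) (the 2-closure of AGL₁(p) is the symmetric group). (3) AGL₁(p) is 3-closed: a permutation agreeing on every ordered triple with some affine map is affine. -/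
theorem result (p : ℕ) [Fact p.Prime] (G : Subgroup (Equiv.Perm (ZMod p))) (hG : G ≤ Cfsg.affineGroup (ZMod p))
    (htrans : ∀ b : ZMod p, ∃ g ∈ G, ∀ x, g x = x + b) :
    (G ≠ Cfsg.affineGroup (ZMod p) → ∀ σ : Equiv.Perm (ZMod p), (∀ t : Fin 2 → ZMod p, ∃ g ∈ G, ∀ i, σ (t i) = g (t i)) → σ ∈ G) ∧
    (∀ σ : Equiv.Perm (ZMod p), (∀ t : Fin 2 → ZMod p, ∃ g ∈ Cfsg.affineGroup (ZMod p), ∀ i, σ (t i) = g (t i))) ∧
    (∀ σ : Equiv.Perm (ZMod p), (∀ t : Fin 3 → ZMod p, ∃ g ∈ Cfsg.affineGroup (ZMod p), ∀ i, σ (t i) = g (t i)) → σ ∈ Cfsg.affineGroup (ZMod p)) := ⟨fun hne σ hσ => part1 G hG htrans hne σ hσ, fun σ t => part2 σ t, fun σ h => part3 σ h⟩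

end Cfsg.Agent.S3518
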