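import Cfsg.Statements.S3532
import Cfsg.Agent.Lib.PSL2.Spectrum

set_option autoImplicit false
open Cfsg

namespace Cfsg.Agent.S3532

section affine

variable {E : Type} [Field E] (C : Subgroup Eˣ)

/-- Multiplication action of a group of units on the additive group of a field. -/
def act : C →* MulAut (Multiplicative E) where
  toFun c := AddEquiv.toMultiplicative (AddAut.mulLeft (c : Eˣ))
  map_one' := by
    ext v
    simp [AddAut.mulLeft]
  map_mul' a b := by
    ext v
    simp [AddAut.mulLeft, mul_smul]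

/-- The affine group over a group of units. -/
abbrev K : Type := Multiplicative E ⋊[act C] C

@[simp] lemma act_apply (c : C) (v : Multiplicative E) :
    act C c v = Multiplicative.ofAdd ((c : Eˣ) * Multiplicative.toAdd v : E) := rfl

lemma pow_K (x : K C) (k : ℕ) :
    x ^ k = ⟨Multiplicative.ofAdd ((∑ i ∈ Finset.range k, (((x.right : C) : Eˣ) : E) ^ i) *
      Multiplicative.toAdd x.left), x.right ^ k⟩ := by
  induction k with
  | zero =>
    simp
  | succ n ih =>
    rw [pow_succ', ih]
    refine SemidirectProduct.ext ?_ ?_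
    · rw [SemidirectProduct.mul_left]
      simp only [act_apply]
      rw [geom_sum_succ]
      change Multiplicative.ofAdd (Multiplicative.toAdd x.left + _) = _
      apply congrArg Multiplicative.ofAdd
      simp only [toAdd_ofAdd]
      ring
    · rw [SemidirectProduct.mul_right, pow_succ']

lemma one_of_right (x : K C) (hv : Multiplicative.toAdd x.left = 0) (hc : x.right = 1) : x = 1 := by
  refine SemidirectProduct.ext hv hc

lemma orderOf_K (x : K C) (hx : x.right ≠ 1) : orderOf x = orderOf x.right := by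
  apply Nat.dvd_antisymm
  · apply orderOf_dvd_of_pow_eq_one
    rw [pow_K]
    apply one_of_right
    · simp only [toAdd_ofAdd]
      have hc : (((x.right : C) : Eˣ) : E) ≠ 1 := by
        intro h
        apply hx
        exact Subtype.ext (Units.ext h)
      have hc' : (((x.right : C) : Eˣ) : E) - 1 ≠ 0 := sub_ne_zero.2 hc
      have hm : (((x.right : C) : Eˣ) : E) ^ orderOf x.right = 1 := by
        have := pow_orderOf_eq_one x.right
        have h2 := congrArg (fun c : C => ((c : Eˣ) : E)) this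
        simp only [SubmonoidClass.coe_pow, Units.val_pow_eq_pow_val, OneMemClass.coe_one, Units.val_one] at h2
        exact h2
      have := geom_sum_mul (((x.right : C) : Eˣ) : E) (orderOf x.right)
      rw [hm, sub_self] at this
      rw [(mul_eq_zero.1 this).resolve_right hc', zero_mul]
    · exact pow_orderOf_eq_one _
  · exact orderOf_map_dvd (SemidirectProduct.rightHom (φ := act C)) x

lemma pow_char_K (p : ℕ) [CharP E p] (x : K C) (hx : x.right = 1) : x ^ p = 1 := by
  rw [pow_K]
  apply one_of_right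
  · simp only [toAdd_ofAdd, hx]
    simp
  · simp [hx]

theorem range_K (p : ℕ) [Fact p.Prime] [CharP E p] [Finite E] :
    Set.range (orderOf : K C → ℕ) = {m : ℕ | m ∣ p ∨ m ∣ Nat.card C} := by
  have hp : p.Prime := Fact.out
  ext m
  constructor
  · rintro ⟨x, rfl⟩
    by_cases hx : x.right = 1
    · left
      exact orderOf_dvd_of_pow_eq_one (pow_char_K C p x hx)
    · right
      rw [orderOf_K C x hx]
      exact orderOf_dvd_natCard _
  · rintro (h | h)
    · rcases (Nat.dvd_prime hp).1 h with rfl | rfl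
      · exact ⟨1, orderOf_one⟩
      · refine ⟨⟨Multiplicative.ofAdd 1, 1⟩, orderOf_eq_prime ?_ ?_⟩
        · exact pow_char_K C m _ rfl
        · intro h1
          have := congrArg (fun x : K C => Multiplicative.toAdd x.left) h1
          simp at this
    · obtain ⟨c, hc⟩ := Cfsg.Agent.Lib.PSL2.Spectrum.exists_orderOf_of_dvd h
      refine ⟨SemidirectProduct.inr c, ?_⟩
      rw [← hc]
      exact orderOf_injective SemidirectProduct.inr SemidirectProduct.inr_injective c

instance isSolvable_K : Group.IsSolvable (K C) :=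
  Group.isSolvable_of_ker_le_range (SemidirectProduct.inl (φ := act C)) (SemidirectProduct.rightHom (φ := act C))
    (by rw [SemidirectProduct.range_inl_eq_ker_rightHom])

instance finite_K [Finite E] : Finite (K C) :=
  Finite.of_equiv _ SemidirectProduct.equivProd.symm

lemma exists_subgroup [Finite E] {n : ℕ} (hn : n ∣ Nat.card E - 1) :
    ∃ C : Subgroup Eˣ, Nat.card C = n := by
  have : n ∣ Nat.card Eˣ := by
    rwa [Nat.card_units]
  obtain ⟨c, hc⟩ := Cfsg.Agent.Lib.PSL2.Spectrum.exists_orderOf_of_dvd this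
  exact ⟨Subgroup.zpowers c, by rw [Nat.card_zpowers, hc]⟩

end affine

lemma key {p A B : ℕ} (s t : ℕ) (hs : s ∣ p ∨ s ∣ A ∨ s ∣ B) (ht : t ∣ p ∨ t ∣ A ∨ t ∣ B) :
    ∃ s' t', (s' ∣ p ∨ s' ∣ A) ∧ (t' ∣ p ∨ t' ∣ B) ∧ Nat.lcm s t = Nat.lcm s' t' := by
  rcases hs with hs | hs | hs <;> rcases ht with ht | ht | ht
  · exact ⟨s, t, Or.inl hs, Or.inl ht, rfl⟩
  · exact ⟨t, s, Or.inr ht, Or.inl hs, Nat.lcm_comm _ _⟩
  · exact ⟨s, t, Or.inl hs, Or.inr ht, rfl⟩
  · exact ⟨s, t, Or.inr hs, Or.inl ht, rfl⟩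
  · exact ⟨Nat.lcm s t, 1, Or.inr (Nat.lcm_dvd hs ht), Or.inl (one_dvd _), by simp⟩
  · exact ⟨s, t, Or.inr hs, Or.inr ht, rfl⟩
  · exact ⟨t, s, Or.inl ht, Or.inr hs, Nat.lcm_comm _ _⟩
  · exact ⟨t, s, Or.inr ht, Or.inr hs, Nat.lcm_comm _ _⟩
  · exact ⟨1, Nat.lcm s t, Or.inl (one_dvd _), Or.inr (Nat.lcm_dvd hs ht), by simp⟩

/-- Let q ≥ 4 be a prime power and L = PSL(2,q). There is a finite solvable group with the same set of element orders as L × L (so L × L is not determined by its spectrum). -/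
theorem result {F : Type*} [Field F] [Fintype F] (hF : 4 ≤ Fintype.card F) :
    ∃ (H : Type) (_ : Group H) (_ : Finite H), Group.IsSolvable H ∧
      Set.range (orderOf : H → ℕ) = Set.range (orderOf : Matrix.ProjectiveSpecialLinearGroup (Fin 2) F × Matrix.ProjectiveSpecialLinearGroup (Fin 2) F → ℕ) := by
  classical
  obtain ⟨p, hp⟩ := CharP.exists F
  have : Fact p.Prime := ⟨CharP.char_is_prime F p⟩
  obtain ⟨f, hprime, hq⟩ := FiniteField.card F p
  set q := Fintype.card F with hqdef
  let E := GaloisField p (2 * f)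
  have hcardE : Nat.card E = q ^ 2 := by
    have := GaloisField.card p (2 * f) (by positivity)
    rw [this, hq, ← pow_mul, mul_comm]
  have : Finite E := Nat.finite_of_card_ne_zero (by rw [hcardE]; positivity)
  set d := Nat.gcd 2 (q - 1) with hd
  have hq1 : q ^ 2 - 1 = (q - 1) * (q + 1) := by
    obtain ⟨r, hr⟩ : ∃ r, q = r + 1 := ⟨q - 1, by omega⟩
    rw [hr]
    simp only [Nat.add_sub_cancel]
    have : (r + 1) ^ 2 = r * (r + 1 + 1) + 1 := by ring
    omega
  have hA : (q - 1) / d ∣ Nat.card E - 1 := by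
    rw [hcardE, hq1]
    exact (Nat.div_dvd_of_dvd (Nat.gcd_dvd_right _ _)).trans (Dvd.intro _ rfl)
  have hB : (q + 1) / d ∣ Nat.card E - 1 := by
    rw [hcardE, hq1]
    have hd1 : d ∣ q + 1 := by
      have h1 : d ∣ q - 1 := Nat.gcd_dvd_right _ _
      have h2 : d ∣ 2 := Nat.gcd_dvd_left _ _
      have : q + 1 = (q - 1) + 2 := by omega
      rw [this]
      exact dvd_add h1 h2
    exact (Nat.div_dvd_of_dvd hd1).trans (Dvd.intro_left _ rfl)
  obtain ⟨CA, hCA⟩ := exists_subgroup (E := E) hA
  obtain ⟨CB, hCB⟩ := exists_subgroup (E := E) hB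
  refine ⟨K CA × K CB, inferInstance, inferInstance, ?_, ?_⟩
  · infer_instance
  · have hL := Cfsg.Agent.Lib.PSL2.Spectrum.range_orderOf (F := F) p
    have hKA := range_K CA p
    have hKB := range_K CB p
    rw [hCA] at hKA
    rw [hCB] at hKB
    ext m
    constructor
    · rintro ⟨⟨x1, x2⟩, rfl⟩
      have h1 : orderOf x1 ∈ Set.range (orderOf : K CA → ℕ) := ⟨x1, rfl⟩
      have h2 : orderOf x2 ∈ Set.range (orderOf : K CB → ℕ) := ⟨x2, rfl⟩
      rw [hKA] at h1
      rw [hKB] at h2
      have h1' : orderOf x1 ∈ Set.range (orderOf : Matrix.ProjectiveSpecialLinearGroup (Fin 2) F → ℕ) := by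
        rw [hL]
        rcases h1 with h | h
        · exact Or.inl h
        · exact Or.inr (Or.inl h)
      have h2' : orderOf x2 ∈ Set.range (orderOf : Matrix.ProjectiveSpecialLinearGroup (Fin 2) F → ℕ) := by
        rw [hL]
        rcases h2 with h | h
        · exact Or.inl h
        · exact Or.inr (Or.inr h)
      obtain ⟨l1, hl1⟩ := h1'
      obtain ⟨l2, hl2⟩ := h2'
      refine ⟨(l1, l2), ?_⟩
      simp only [Prod.orderOf, hl1, hl2]
    · rintro ⟨⟨l1, l2⟩, rfl⟩
      have h1 : orderOf l1 ∈ Set.range (orderOf : Matrix.ProjectiveSpecialLinearGroup (Fin 2) F → ℕ) := ⟨l1, rfl⟩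
      have h2 : orderOf l2 ∈ Set.range (orderOf : Matrix.ProjectiveSpecialLinearGroup (Fin 2) F → ℕ) := ⟨l2, rfl⟩
      rw [hL] at h1 h2
      obtain ⟨s', t', hs', ht', hlcm⟩ := key _ _ h1 h2
      have h1' : s' ∈ Set.range (orderOf : K CA → ℕ) := by
        rw [hKA]
        exact hs'
      have h2' : t' ∈ Set.range (orderOf : K CB → ℕ) := by
        rw [hKB]
        exact ht'
      obtain ⟨x1, hx1⟩ := h1'
      obtain ⟨x2, hx2⟩ := h2'
      refine ⟨(x1, x2), ?_⟩
      simp only [Prod.orderOf, hx1, hx2, hlcm]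

end Cfsg.Agent.S3532
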