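import Cfsg.Statements.S3547
import Mathlib
import Cfsg.Agent.Lib.Perm.Derangement

set_option autoImplicit false
open Cfsg

namespace Cfsg.Agent.S3547

open MulAction Cfsg.Agent.Lib.Perm.Derangement

/-- Burnside's lemma for the action on ordered pairs. -/
theorem sum_sq {Γ Ω : Type*} [Group Γ] [Fintype Γ] [MulAction Γ Ω] [Finite Ω] :
    ∑ g : Γ, Nat.card (fixedBy Ω g) ^ 2 = Nat.card (orbitRel.Quotient Γ (Ω × Ω)) * Nat.card Γ := by
  classical
  have := Fintype.ofFinite Ω
  have hb := sum_card_fixedBy_eq_card_orbits_mul_card_group Γ (Ω × Ω)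
  rw [Nat.card_eq_fintype_card (α := orbitRel.Quotient Γ (Ω × Ω)), Nat.card_eq_fintype_card (α := Γ), ← hb]
  refine Finset.sum_congr rfl fun g _ => ?_
  rw [← Nat.card_eq_fintype_card]
  have e : fixedBy (Ω × Ω) g ≃ fixedBy Ω g × fixedBy Ω g :=
    { toFun := fun x => (⟨x.1.1, congrArg Prod.fst x.2⟩, ⟨x.1.2, congrArg Prod.snd x.2⟩)
      invFun := fun x => ⟨(x.1.1, x.2.1), Prod.ext x.1.2 x.2.2⟩
      left_inv := fun x => rfl
      right_inv := fun x => rfl }
  rw [Nat.card_congr e, Nat.card_prod, pow_two]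

/-- Let G act faithfully and transitively on a finite set Ω, let D be the subgroup generated by the derangements, and let r_G and r_D be the numbers of orbits of G and of D on ordered pairs of points (the permutation ranks). Then r_D − 1 = (r_G − 1)·[G : D]. -/
theorem result {G Ω : Type*} [Group G] [Finite G] [MulAction G Ω] [FaithfulSMul G Ω] [Finite Ω]
    (htrans : MulAction.IsPretransitive G Ω) :
    Nat.card (MulAction.orbitRel.Quotient ↥(Subgroup.closure {g : G | ∀ ω : Ω, g • ω ≠ ω}) (Ω × Ω)) - 1 =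
      (Nat.card (MulAction.orbitRel.Quotient G (Ω × Ω)) - 1) * (Subgroup.closure {g : G | ∀ ω : Ω, g • ω ≠ ω}).index := by
  classical
  have := Fintype.ofFinite G
  set D := derangementSubgroup G Ω with hD
  have hDf : Fintype D := Fintype.ofFinite D
  set rG := Nat.card (orbitRel.Quotient G (Ω × Ω)) with hrG
  set rD := Nat.card (orbitRel.Quotient D (Ω × Ω)) with hrD
  have h1 := sum_sq (Γ := G) (Ω := Ω)
  have h2 := sum_sq (Γ := D) (Ω := Ω)
  have hsplit := Fintype.sum_subtype_add_sum_subtype (· ∈ D) (fun g : G => Nat.card (fixedBy Ω g) ^ 2)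
  have hin : ∑ g : {x // x ∈ D}, Nat.card (fixedBy Ω (g : G)) ^ 2 = rD * Nat.card D := by
    rw [← h2]
    rfl
  have hout : ∑ g : {x // ¬ x ∈ D}, Nat.card (fixedBy Ω (g : G)) ^ 2 = Nat.card G - Nat.card D := by
    have h3 : ∀ g : {x // ¬ x ∈ D}, Nat.card (fixedBy Ω (g : G)) ^ 2 = 1 := by
      intro g
      rw [card_fixedBy_eq_one_of_notMem g.2]
      rfl
    simp_rw [h3]
    simp only [Finset.sum_const, Finset.card_univ, smul_eq_mul, mul_one]
    have h4 := Fintype.card_subtype_compl (· ∈ D)
    rw [h4, Nat.card_eq_fintype_card (α := G), Nat.card_eq_fintype_card (α := D)]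
  have hidx : Nat.card G = Nat.card D * D.index := (Subgroup.card_mul_index D).symm
  have hDpos : 0 < Nat.card D := Nat.card_pos
  have hipos : 0 < D.index := Nat.pos_of_ne_zero Subgroup.FiniteIndex.index_ne_zero
  have hfinal : rG * Nat.card G = rD * Nat.card D + (Nat.card G - Nat.card D) := by
    rw [← h1, ← hsplit]
    congr 1
    convert hin
  -- cancel `|D|`
  have hle : Nat.card D ≤ Nat.card G := by
    rw [hidx]; exact Nat.le_mul_of_pos_right _ hipos
  have hkey : rG * D.index + 1 = rD + D.index := by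
    have h5 : (rG * D.index + 1) * Nat.card D = (rD + D.index) * Nat.card D := by
      have h6 : rG * Nat.card G + Nat.card D = rD * Nat.card D + Nat.card G := by omega
      rw [hidx] at h6
      nlinarith
    exact Nat.eq_of_mul_eq_mul_right hDpos h5
  change rD - 1 = (rG - 1) * D.index
  rcases Nat.eq_zero_or_pos rG with h0 | hpos
  · rw [h0] at hkey ⊢
    simp only [zero_mul, zero_add, Nat.zero_sub] at hkey ⊢
    omega
  · obtain ⟨r, hr⟩ : ∃ r, rG = r + 1 := ⟨rG - 1, by omega⟩
    rw [hr] at hkey ⊢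
    simp only [Nat.add_sub_cancel]
    have : (r + 1) * D.index = r * D.index + D.index := by ring
    omega

end Cfsg.Agent.S3547
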