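import Cfsg.Statements.S3548
import Mathlib
import Cfsg.Agent.Lib.Perm.Derangement

set_option autoImplicit false
open Cfsg

namespace Cfsg.Agent.S3548

open MulAction Cfsg.Agent.Lib.Perm.Derangement

/-- A number dividing all orbit sizes divides the order of a finite `H`-set. -/
theorem dvd_card_of_dvd_orbits {H X : Type*} [Group H] [MulAction H X] [Finite X] (i : ℕ)
    (h : ∀ x : X, i ∣ Nat.card (orbit H x)) : i ∣ Nat.card X := by
  classical
  have := Fintype.ofFinite X
  have : Fintype (orbitRel.Quotient H X) := Fintype.ofFinite _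
  rw [Nat.card_congr (selfEquivSigmaOrbits H X), Nat.card_sigma]
  exact Finset.dvd_sum fun ω _ => h _

/-- Let G act faithfully and transitively on a finite set with n ≥ 2 points and let D be the subgroup generated by the derangements. Then the index of D in G divides n − 1, and if it equals n − 1 then n is a prime power. -/
theorem result {G Ω : Type*} [Group G] [Finite G] [MulAction G Ω] [FaithfulSMul G Ω] [Finite Ω]
    (htrans : MulAction.IsPretransitive G Ω) (hΩ : 2 ≤ Nat.card Ω) :
    (Subgroup.closure {g : G | ∀ ω : Ω, g • ω ≠ ω}).index ∣ Nat.card Ω - 1 ∧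
    ((Subgroup.closure {g : G | ∀ ω : Ω, g • ω ≠ ω}).index = Nat.card Ω - 1 → IsPrimePow (Nat.card Ω)) := by
  classical
  change (derangementSubgroup G Ω).index ∣ Nat.card Ω - 1 ∧
    ((derangementSubgroup G Ω).index = Nat.card Ω - 1 → IsPrimePow (Nat.card Ω))
  set D := derangementSubgroup G Ω with hD
  have hDt : IsPretransitive D Ω := isPretransitive_derangementSubgroup
  have hDn : D.Normal := derangementSubgroup_normal
  obtain ⟨w⟩ : Nonempty Ω := by
    by_contra h
    rw [not_nonempty_iff] at h
    have : Nat.card Ω = 0 := Nat.card_of_isEmpty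
    omega
  set H := stabilizer G w with hH
  -- `G = D H`
  have hsup : D ⊔ H = ⊤ := by
    rw [eq_top_iff]
    intro g _
    obtain ⟨d, hd⟩ := exists_smul_eq D w (g • w)
    have h1 : (d : G)⁻¹ * g ∈ H := by
      rw [hH, mem_stabilizer_iff, mul_smul, inv_smul_eq_iff]
      exact hd.symm
    have h2 : g = d * ((d : G)⁻¹ * g) := by group
    rw [h2]
    exact Subgroup.mul_mem_sup d.2 h1
  -- the index of `D` is the index of `M = D ∩ H` in `H`
  set M : Subgroup H := D.subgroupOf H with hM
  have hidx : M.index = D.index := by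
    have h1 : D.relIndex H = D.relIndex (H ⊔ D) := (Subgroup.relIndex_sup_right H D).symm
    rw [sup_comm, hsup, Subgroup.relIndex_top_right] at h1
    exact h1
  -- the stabilizer in `H` of another point lies in `M`
  have hstab : ∀ (x : Ω) (hx : x ≠ w) (h : H), h • x = x → h ∈ M := by
    intro x hx h hhx
    rw [hM, Subgroup.mem_subgroupOf]
    by_contra hcon
    have h1 := card_fixedBy_eq_one_of_notMem (Ω := Ω) hcon
    rw [Nat.card_coe_set_eq, Set.ncard_eq_one] at h1
    obtain ⟨a, ha⟩ := h1
    have h2 : x ∈ fixedBy Ω (h : G) := hhx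
    have h3 : w ∈ fixedBy Ω (h : G) := h.2
    rw [ha] at h2 h3
    exact hx (h2.trans h3.symm)
  -- the `H`-set of the other points
  let X := SubMulAction.ofStabilizer G w
  have hXcard : Nat.card X = Nat.card Ω - 1 := SubMulAction.nat_card_ofStabilizer_eq G w
  have hstabX : ∀ x : X, stabilizer H x ≤ M := by
    intro x h hh
    apply hstab (x : Ω) (SubMulAction.neq_of_mem_ofStabilizer G w)
    have := congrArg Subtype.val (mem_stabilizer_iff.mp hh)
    exact this
  have hMpos : 0 < M.index := by
    rw [hidx]; exact Nat.pos_of_ne_zero Subgroup.FiniteIndex.index_ne_zero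
  have horbit : ∀ x : X, Nat.card (orbit H x) = (stabilizer H x).index := by
    intro x
    rw [index_stabilizer, Nat.card_coe_set_eq]
  have hdvdorb : ∀ x : X, M.index ∣ Nat.card (orbit H x) := by
    intro x
    rw [horbit]
    exact Subgroup.index_dvd_of_le (hstabX x)
  refine ⟨?_, ?_⟩
  · rw [← hidx, ← hXcard]
    exact dvd_card_of_dvd_orbits _ hdvdorb
  · intro heq
    rw [← hidx, ← hXcard] at heq
    have hXpos : 0 < Nat.card X := by rw [hXcard]; omega
    -- all orbits are everything
    have hocard : ∀ x : X, Nat.card (orbit H x) = Nat.card X := by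
      intro x
      apply le_antisymm
      · exact Nat.card_le_card_of_injective _ Subtype.val_injective
      · have hne : Nonempty (orbit H x) := ⟨⟨x, mem_orbit_self x⟩⟩
        have hpos : 0 < Nat.card (orbit H x) := Nat.card_pos
        rw [← heq]
        exact Nat.le_of_dvd hpos (hdvdorb x)
    have hsindex : ∀ x : X, (stabilizer H x).index = M.index := by
      intro x
      rw [← horbit, hocard, heq]
    have hMle : ∀ x : X, M ≤ stabilizer H x := by
      intro x
      have h1 := Subgroup.relIndex_mul_index (hstabX x)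
      rw [hsindex x] at h1
      have h2 : (stabilizer H x).relIndex M = 1 := by
        apply Nat.eq_of_mul_eq_mul_right hMpos
        rw [h1, one_mul]
      exact Subgroup.relIndex_eq_one.mp h2
    -- hence `M` is trivial
    have hMbot : ∀ d ∈ D, d • w = w → d = 1 := by
      intro d hd hdw
      have hdH : d ∈ H := hdw
      have hmem : (⟨d, hdH⟩ : H) ∈ M := by
        rw [hM, Subgroup.mem_subgroupOf]
        exact hd
      apply FaithfulSMul.eq_of_smul_eq_smul (α := Ω)
      intro y
      rw [one_smul]
      by_cases hy : y = w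
      · rw [hy]; exact hdw
      · have h1 := hMle ⟨y, hy⟩ hmem
        have := congrArg Subtype.val (mem_stabilizer_iff.mp h1)
        exact this
    -- `D` is regular
    have hDcard : Nat.card D = Nat.card Ω := by
      have h1 := (stabilizer D w).card_mul_index
      rw [index_stabilizer_of_transitive] at h1
      have h2 : stabilizer D w = ⊥ := by
        rw [eq_bot_iff]
        intro d hd
        rw [Subgroup.mem_bot]
        apply Subtype.ext
        exact hMbot d d.2 hd
      rw [h2, Subgroup.card_bot, one_mul] at h1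
      exact h1.symm
    -- `H` is transitive on the other points
    have htransH : ∀ x y : Ω, x ≠ w → y ≠ w → ∃ h ∈ H, h • x = y := by
      intro x y hx hy
      have h1 : orbit H (⟨x, hx⟩ : X) = Set.univ := by
        apply Set.eq_of_subset_of_ncard_le (Set.subset_univ _)
        rw [Set.ncard_univ, ← hocard ⟨x, hx⟩, Nat.card_coe_set_eq]
      have h2 : (⟨y, hy⟩ : X) ∈ orbit H (⟨x, hx⟩ : X) := by rw [h1]; trivial
      obtain ⟨h, hh⟩ := h2
      exact ⟨h, h.2, congrArg Subtype.val hh⟩
    -- all non-trivial elements of `D` are conjugate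
    have hconj : ∀ d₁ ∈ D, ∀ d₂ ∈ D, d₁ ≠ 1 → d₂ ≠ 1 → ∃ g : G, g * d₁ * g⁻¹ = d₂ := by
      intro d₁ h₁ d₂ h₂ hn₁ hn₂
      have hw₁ : d₁ • w ≠ w := fun h => hn₁ (hMbot d₁ h₁ h)
      have hw₂ : d₂ • w ≠ w := fun h => hn₂ (hMbot d₂ h₂ h)
      obtain ⟨h, hh, hh2⟩ := htransH _ _ hw₁ hw₂
      have hhw : h • w = w := hh
      refine ⟨h, ?_⟩
      have h3 : d₂⁻¹ * (h * d₁ * h⁻¹) = 1 := by
        apply hMbot
        · exact D.mul_mem (D.inv_mem h₂) (hDn.conj_mem _ h₁ h)
        · have hiw : h⁻¹ • w = w := by rw [inv_smul_eq_iff, hhw]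
          rw [mul_smul, mul_smul, mul_smul, hiw, inv_smul_eq_iff, hh2]
      have := congrArg (fun z => d₂ * z) h3
      simpa using this
    -- so `D` is a `p`-group
    have hne : Nat.card Ω ≠ 1 := by omega
    obtain ⟨p, hp, hpd⟩ := Nat.exists_prime_and_dvd hne
    have : Fact p.Prime := ⟨hp⟩
    obtain ⟨d₀, hd₀⟩ := exists_prime_orderOf_dvd_card' (G := D) p (by rw [hDcard]; exact hpd)
    have hd₀' : orderOf (d₀ : G) = p := by rw [← hd₀]; exact Subgroup.orderOf_coe d₀
    have hd₀1 : (d₀ : G) ≠ 1 := by
      intro h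
      rw [h, orderOf_one] at hd₀'
      exact hp.one_lt.ne hd₀'
    have hpg : IsPGroup p D := by
      intro d
      by_cases hd : d = 1
      · exact ⟨0, by simp [hd]⟩
      · refine ⟨1, ?_⟩
        have hd1 : (d : G) ≠ 1 := fun h => hd (Subtype.ext h)
        obtain ⟨g, hg⟩ := hconj _ d₀.2 _ d.2 hd₀1 hd1
        apply Subtype.ext
        simp only [pow_one, Subgroup.coe_pow, Subgroup.coe_one]
        rw [← hg, conj_pow, ← hd₀', pow_orderOf_eq_one]
        simp
    obtain ⟨k, hk⟩ := IsPGroup.iff_card.mp hpg
    rw [hDcard] at hk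
    rw [isPrimePow_nat_iff]
    refine ⟨p, k, hp, ?_, hk.symm⟩
    rcases Nat.eq_zero_or_pos k with h0 | h0
    · rw [h0, pow_zero] at hk
      exact absurd hk hne
    · exact h0

end Cfsg.Agent.S3548
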