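import Cfsg.Statements.S3549
import Mathlib
import Cfsg.Agent.Lib.Perm.Derangement
-- import your own Cfsg.Agent.* helpers here

set_option autoImplicit false
open Cfsg

namespace Cfsg.Agent.S3549

open MulAction Cfsg.Agent.Lib.Perm.Derangement
open scoped Pointwise

section Aux

variable {G X : Type*} [Group G] [Finite G] [MulAction G X] [Finite X]

/-- A number dividing all orbit sizes divides the order of a finite `H`-set. -/
theorem dvd_card_of_dvd_orbits' {H Y : Type*} [Group H] [MulAction H Y] [Finite Y] (i : ℕ)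
    (h : ∀ x : Y, i ∣ Nat.card (orbit H x)) : i ∣ Nat.card Y := by
  classical
  have := Fintype.ofFinite Y
  have : Fintype (orbitRel.Quotient H Y) := Fintype.ofFinite _
  rw [Nat.card_congr (selfEquivSigmaOrbits H Y), Nat.card_sigma]
  exact Finset.dvd_sum fun ω _ => h _

/-- With `D` transitive and all elements outside `D` having a fixed point: such elements have exactly one
fixed point. -/
theorem card_fixedBy_eq_one (D : Subgroup G) [IsPretransitive D X]
    (hfix : ∀ g : G, g ∉ D → ∃ x : X, g • x = x) {g : G} (hg : g ∉ D) : Nat.card (fixedBy X g) = 1 := by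
  classical
  have := Fintype.ofFinite D
  obtain ⟨x₁, -⟩ := hfix g hg
  haveI hX : Nonempty X := ⟨x₁⟩
  have hsum := sum_card_fixedBy_mul (Ω := X) D g
  have hle : ∀ d : D, 1 ≤ Nat.card (fixedBy X (g * d)) := by
    intro d
    have hnot : g * d ∉ D := by
      intro h
      apply hg
      have := D.mul_mem h (D.inv_mem d.2)
      simpa using this
    obtain ⟨x, hx⟩ := hfix _ hnot
    rw [Nat.succ_le_iff, Nat.card_pos_iff]
    exact ⟨⟨x, hx⟩, inferInstance⟩
  have heq : ∑ d : D, 1 = ∑ d : D, Nat.card (fixedBy X (g * d)) := by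
    rw [hsum]
    simp [Nat.card_eq_fintype_card]
  have hall := (Finset.sum_eq_sum_iff_of_le (fun d _ => hle d)).mp heq
  have := hall 1 (Finset.mem_univ _)
  simpa using this.symm

/-- The divisibility. -/
theorem index_dvd_ncard (D : Subgroup G) [D.Normal] [IsPretransitive D X]
    (hfix : ∀ g : G, g ∉ D → ∃ x : X, g • x = x) (x₀ : X) (Y : Set X) (hx₀ : x₀ ∉ Y)
    (hinv : ∀ h ∈ stabilizer G x₀, ∀ y ∈ Y, h • y ∈ Y) : D.index ∣ Y.ncard := by
  classical
  have huniq : ∀ g : G, g ∉ D → ∀ x y : X, g • x = x → g • y = y → x = y := by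
    intro g hg x y hx hy
    have h1 := card_fixedBy_eq_one D hfix hg
    rw [Nat.card_coe_set_eq, Set.ncard_eq_one] at h1
    obtain ⟨a, ha⟩ := h1
    have h2 : x ∈ fixedBy X g := hx
    have h3 : y ∈ fixedBy X g := hy
    rw [ha] at h2 h3
    exact h2.trans h3.symm
  set H := stabilizer G x₀ with hH
  have hsup : D ⊔ H = ⊤ := by
    rw [eq_top_iff]
    intro g _
    obtain ⟨d, hd⟩ := exists_smul_eq D x₀ (g • x₀)
    have h1 : (d : G)⁻¹ * g ∈ H := by
      rw [hH, mem_stabilizer_iff, mul_smul, inv_smul_eq_iff]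
      exact hd.symm
    have h2 : g = d * ((d : G)⁻¹ * g) := by group
    rw [h2]
    exact Subgroup.mul_mem_sup d.2 h1
  set M : Subgroup H := D.subgroupOf H with hM
  have hidx : M.index = D.index := by
    have h1 : D.relIndex H = D.relIndex (H ⊔ D) := (Subgroup.relIndex_sup_right H D).symm
    rw [sup_comm, hsup, Subgroup.relIndex_top_right] at h1
    exact h1
  let Y' : SubMulAction H X := ⟨Y, fun h y hy => hinv h.1 h.2 y hy⟩
  have hcard : Nat.card Y' = Y.ncard := Nat.card_coe_set_eq Y
  rw [← hcard, ← hidx]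
  apply dvd_card_of_dvd_orbits' (H := H)
  intro y
  rw [Nat.card_coe_set_eq, ← index_stabilizer]
  apply Subgroup.index_dvd_of_le
  intro h hh
  rw [hM, Subgroup.mem_subgroupOf]
  by_contra hcon
  have hy : (h : G) • (y : X) = y := congrArg Subtype.val (mem_stabilizer_iff.mp hh)
  have := huniq h hcon (y : X) x₀ hy h.2
  exact hx₀ (this ▸ y.2)

end Aux

/-- Let G act faithfully, transitively but imprimitively on a finite set with n points, and let D be the subgroup generated by the derangements. Then the index of D in G is at most √n − 1. -/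
theorem result {G Ω : Type*} [Group G] [Finite G] [MulAction G Ω] [FaithfulSMul G Ω] [Finite Ω]
    (htrans : MulAction.IsPretransitive G Ω) (himp : ¬ MulAction.IsPreprimitive G Ω) :
    ((Subgroup.closure {g : G | ∀ ω : Ω, g • ω ≠ ω}).index : ℝ) ≤ Real.sqrt (Nat.card Ω) - 1 := by
  classical
  change ((derangementSubgroup G Ω).index : ℝ) ≤ Real.sqrt (Nat.card Ω) - 1
  set D := derangementSubgroup G Ω with hD
  haveI hDt : IsPretransitive D Ω := isPretransitive_derangementSubgroup
  -- a nontrivial block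
  obtain ⟨B, hB, hBt⟩ : ∃ B : Set Ω, IsBlock G B ∧ ¬ IsTrivialBlock B := by
    by_contra hcon
    push Not at hcon
    exact himp { isTrivialBlock_of_isBlock := fun {B} hB => hcon B hB }
  have hBsub : ¬ B.Subsingleton := fun h => hBt (Or.inl h)
  have hBuniv : B ≠ Set.univ := fun h => hBt (Or.inr h)
  have hBne : B.Nonempty := by
    by_contra h
    rw [Set.not_nonempty_iff_eq_empty] at h
    exact hBsub (h ▸ Set.subsingleton_empty)
  obtain ⟨ω, hω⟩ := hBne
  have hcardmul := hB.ncard_block_mul_ncard_orbit_eq ⟨ω, hω⟩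
  -- the elements off `D` have fixed points
  have hoff : ∀ g : G, g ∉ D → ∃ x : Ω, g • x = x := by
    intro g hg
    by_contra hcon
    push Not at hcon
    exact hg (Subgroup.subset_closure hcon)
  -- the first divisibility
  have h1 : D.index ∣ (B \ {ω}).ncard := by
    refine index_dvd_ncard D hoff ω _ (by simp) ?_
    intro h hh y hy
    have hh' : h • ω = ω := hh
    have hhB : h • B = B := hB.smul_eq_of_mem hω (by rw [hh']; exact hω)
    refine ⟨?_, fun hc => ?_⟩
    · rw [← hhB]
      exact Set.smul_mem_smul_set hy.1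
    · have hc' : h • y = h • ω := by rw [hh']; exact hc
      exact hy.2 (smul_left_cancel h hc')
  -- the action on the blocks
  let X := orbit G B
  have hXtrans : IsPretransitive D X := by
    refine ⟨fun x y => ?_⟩
    obtain ⟨g₁, hg₁⟩ := x.2
    obtain ⟨g₂, hg₂⟩ := y.2
    obtain ⟨d, hd⟩ := exists_smul_eq D (g₁ • ω) (g₂ • ω)
    refine ⟨d, Subtype.ext ?_⟩
    have hd' : (d : G) • g₁ • ω = g₂ • ω := hd
    have hne : (((d : G) * g₁) • B ∩ g₂ • B).Nonempty := by
      refine ⟨g₂ • ω, ?_, Set.smul_mem_smul_set hω⟩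
      rw [← hd', ← mul_smul]
      exact Set.smul_mem_smul_set hω
    have := hB.smul_eq_smul_of_nonempty hne
    change (d : G) • (x : Set Ω) = (y : Set Ω)
    rw [← hg₁, ← hg₂]
    change (d : G) • g₁ • B = g₂ • B
    rw [← mul_smul]
    exact this
  have hoff₂ : ∀ g : G, g ∉ D → ∃ x : X, g • x = x := by
    intro g hg
    obtain ⟨w, hw⟩ := hoff g hg
    obtain ⟨k, rfl⟩ := exists_smul_eq G ω w
    refine ⟨⟨k • B, mem_orbit B k⟩, Subtype.ext ?_⟩
    change g • k • B = k • B
    rw [← mul_smul]
    apply hB.smul_eq_smul_of_nonempty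
    refine ⟨k • ω, ?_, Set.smul_mem_smul_set hω⟩
    rw [← hw, mul_smul] 
    exact Set.smul_mem_smul_set (Set.smul_mem_smul_set hω)
  let x₀ : X := ⟨B, mem_orbit_self B⟩
  have h2 : D.index ∣ ((Set.univ : Set X) \ {x₀}).ncard := by
    refine index_dvd_ncard D hoff₂ x₀ _ (by simp) ?_
    intro h hh y hy
    refine ⟨Set.mem_univ _, fun hc => hy.2 ?_⟩
    have hh' : h • x₀ = x₀ := hh
    have hc' : h • y = h • x₀ := by rw [hh']; exact hc
    exact smul_left_cancel h hc'
  -- the numbers
  have hn : 0 < Nat.card Ω := Nat.card_pos_iff.mpr ⟨⟨ω⟩, inferInstance⟩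
  set a := B.ncard with ha
  set b := (orbit G B).ncard with hb
  have ha2 : 2 ≤ a := by
    have : B.Nontrivial := Set.not_subsingleton_iff.mp hBsub
    exact (Set.one_lt_ncard_iff_nontrivial.mpr this)
  have hb2 : 2 ≤ b := by
    by_contra hlt
    have hb0 : b ≠ 0 := by
      intro h0
      rw [h0, mul_zero] at hcardmul
      omega
    have hb1 : b = 1 := by omega
    rw [hb1, mul_one] at hcardmul
    exact hBuniv ((Set.eq_univ_iff_ncard B).mpr hcardmul)
  have e1 : (B \ {ω}).ncard = a - 1 := Set.ncard_sdiff_singleton_of_mem hω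
  have e2 : ((Set.univ : Set X) \ {x₀}).ncard = b - 1 := by
    rw [Set.ncard_sdiff_singleton_of_mem (Set.mem_univ _), Set.ncard_univ]
    rw [hb, ← Nat.card_coe_set_eq]
  rw [e1] at h1
  rw [e2] at h2
  have hk1 : D.index ≤ a - 1 := Nat.le_of_dvd (by omega) h1
  have hk2 : D.index ≤ b - 1 := Nat.le_of_dvd (by omega) h2
  have hsq : (D.index + 1) * (D.index + 1) ≤ Nat.card Ω := by
    rw [← hcardmul]
    exact Nat.mul_le_mul (by omega) (by omega)
  have hreal : ((D.index : ℝ) + 1) ^ 2 ≤ (Nat.card Ω : ℝ) := by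
    have : (((D.index + 1) * (D.index + 1) : ℕ) : ℝ) ≤ (Nat.card Ω : ℝ) := by exact_mod_cast hsq
    push_cast at this
    nlinarith
  have := Real.le_sqrt' (x := (D.index : ℝ) + 1) (by positivity) |>.mpr hreal
  linarith

end Cfsg.Agent.S3549
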