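import Cfsg.Statements.S3559
import Mathlib
import Cfsg.Agent.Lib.Perm.SchurRing
-- import your own Cfsg.Agent.* helpers here

set_option autoImplicit false
open Cfsg

namespace Cfsg.Agent.S3559

/-- Let G act faithfully and transitively on a finite set whose number of points n ≥ 2 is not a prime power, and suppose G has a cyclic subgroup acting regularly (transitively with trivial point stabilizers). Then G is imprimitive or doubly transitive. -/
theorem result {G Ω : Type*} [Group G] [Finite G] [MulAction G Ω] [FaithfulSMul G Ω] [Finite Ω]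
    (htrans : MulAction.IsPretransitive G Ω) (hn : 2 ≤ Nat.card Ω) (hnp : ¬ IsPrimePow (Nat.card Ω))
    (C : Subgroup G) (hcyc : IsCyclic ↥C) (hC : MulAction.IsPretransitive ↥C Ω ∧ ∀ a : Ω, MulAction.stabilizer ↥C a = ⊥) :
    ¬ MulAction.IsPreprimitive G Ω ∨ MulAction.IsMultiplyPretransitive G Ω 2 := by
  by_contra hcon
  push Not at hcon
  obtain ⟨hprim, h2⟩ := hcon
  obtain ⟨hCt, hCs⟩ := hC
  have hne : Nonempty Ω := by
    by_contra h
    rw [not_nonempty_iff] at h
    have : Nat.card Ω = 0 := Nat.card_of_isEmpty
    omega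
  obtain ⟨o⟩ := hne
  let _ : CommGroup C := IsCyclic.commGroup
  have hbij : Function.Bijective fun x : C => (C.subtype x) • o := by
    constructor
    · intro x y hxy
      have h1 : x • o = y • o := hxy
      have h3 : y⁻¹ * x ∈ MulAction.stabilizer C o := by
        rw [MulAction.mem_stabilizer_iff, mul_smul, h1, inv_smul_smul]
      rw [hCs o, Subgroup.mem_bot] at h3
      exact (inv_mul_eq_one.mp h3).symm
    · intro w
      obtain ⟨x, hx⟩ := MulAction.exists_smul_eq C o w
      exact ⟨x, hx⟩
  have hcard : Nat.card C = Nat.card Ω := Nat.card_congr (Equiv.ofBijective _ hbij)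
  have hp : (Nat.card Ω).minFac.Prime := Nat.minFac_prime (by omega)
  refine h2 (Cfsg.Agent.Lib.Perm.SchurRing.isMultiplyPretransitive_two_of_cyclic hbij hp
    (by rw [hcard]; exact Nat.minFac_dvd _) ?_)
  rw [hcard]
  intro h
  have h4 : (Nat.card Ω).Prime := by
    rw [h]
    exact hp
  exact hnp h4.isPrimePow

end Cfsg.Agent.S3559
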