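import Cfsg.Statements.S3560
import Mathlib
import Cfsg.Agent.Lib.Perm.Hamming
-- import your own Cfsg.Agent.* helpers here

set_option autoImplicit false
open Cfsg

namespace Cfsg.Agent.S3560

/-- Let K be a finite group isomorphic to a direct product of r ≥ 2 groups all of the same order m ≥ 3. Then K is not a B-group: there is a primitive but not doubly transitive permutation group (on some finite set) containing a regular subgroup isomorphic to K. -/
theorem result {K : Type*} [Group K] [Finite K] {ι : Type*} [Fintype ι] (F : ι → Type*) [∀ i, Group (F i)]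
    (hr : 2 ≤ Fintype.card ι) (m : ℕ) (hm : 3 ≤ m) (hcard : ∀ i, Nat.card (F i) = m) (e : K ≃* (∀ i, F i)) :
    ∃ (n : ℕ) (G R : Subgroup (Equiv.Perm (Fin n))), R ≤ G ∧ Nonempty (↥R ≃* K) ∧
      MulAction.IsPretransitive ↥R (Fin n) ∧ (∀ a : Fin n, MulAction.stabilizer ↥R a = ⊥) ∧
      MulAction.IsPreprimitive ↥G (Fin n) ∧ ¬ MulAction.IsMultiplyPretransitive ↥G (Fin n) 2 := by
  classical
  have hfin : ∀ i, Finite (F i) := fun i => Nat.finite_of_card_ne_zero (by rw [hcard]; omega)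
  let φ : ∀ i, F i ≃ Fin m := fun i => Finite.equivFinOfCardEq (hcard i)
  let ψ : K →* Equiv.Perm (ι → Fin m) := (Cfsg.Agent.Lib.Perm.Hamming.reg φ).comp e.toMonoidHom
  have hψ : Function.Injective ψ := (Cfsg.Agent.Lib.Perm.Hamming.reg_injective φ).comp e.injective
  have hle : ψ.range ≤ Cfsg.Agent.Lib.Perm.Hamming.iso ι (Fin m) := by
    rintro _ ⟨k, rfl⟩
    exact Cfsg.Agent.Lib.Perm.Hamming.reg_mem φ _
  have htr : ∀ x y : ι → Fin m, ∃ r ∈ ψ.range, r x = y := by
    intro x y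
    obtain ⟨f, hf⟩ := Cfsg.Agent.Lib.Perm.Hamming.reg_trans φ x y
    refine ⟨ψ (e.symm f), ⟨_, rfl⟩, ?_⟩
    simp only [ψ, MonoidHom.comp_apply]
    change (Cfsg.Agent.Lib.Perm.Hamming.reg φ) (e (e.symm f)) x = y
    rw [MulEquiv.apply_symm_apply, hf]
  have hfree : ∀ r ∈ ψ.range, ∀ a, r a = a → r = 1 := by
    rintro _ ⟨k, rfl⟩ a ha
    have := Cfsg.Agent.Lib.Perm.Hamming.reg_free φ (e k) a ha
    simp only [ψ, MonoidHom.comp_apply]
    change (Cfsg.Agent.Lib.Perm.Hamming.reg φ) (e k) = 1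
    rw [this, map_one]
  have hprim := Cfsg.Agent.Lib.Perm.Hamming.isPreprimitive_iso (ι := ι) (Δ := Fin m)
    (by rw [Nat.card_fin]; exact hm)
  have hn2 := Cfsg.Agent.Lib.Perm.Hamming.not_isMultiplyPretransitive_iso (ι := ι)
    (a := (⟨1, by omega⟩ : Fin m)) (z := (⟨0, by omega⟩ : Fin m)) hr (by
      intro h
      simpa using congrArg Fin.val h)
  obtain ⟨n, G, R, h1, ⟨i⟩, h3, h4, h5, h6⟩ :=
    Cfsg.Agent.Lib.Perm.Hamming.transfer _ ψ.range hle htr hfree hprim hn2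
  exact ⟨n, G, R, h1, ⟨i.trans (MonoidHom.ofInjective hψ).symm⟩, h3, h4, h5, h6⟩

end Cfsg.Agent.S3560
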