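import Cfsg.Statements.S3571
import Cfsg.Agent.Lib.Perm.AltDer
import Cfsg.Agent.Lib.Perm.Basic
-- import your own Cfsg.Agent.* helpers here

set_option autoImplicit false
open Cfsg

namespace Cfsg.Agent.S3571

open MulAction Equiv Equiv.Perm

/-- Let G be an almost simple group whose socle is an alternating group of degree m ≥ 5 (G has a normal subgroup T isomorphic to that alternating group with trivial centralizer), acting faithfully and primitively on a finite set Ω with at least two points, and let r be the largest prime divisor of the number of points. Then G contains an element of order r fixing no point. -/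
theorem result {G Ω : Type*} [Group G] [Finite G] [MulAction G Ω] [FaithfulSMul G Ω] [Finite Ω]
    (T : Subgroup G) (hT : T.Normal) (hTc : Subgroup.centralizer (T : Set G) = ⊥) (m : ℕ) (hm : 5 ≤ m)
    (eT : ↥T ≃* ↥(alternatingGroup (Fin m))) (hprim : MulAction.IsPreprimitive G Ω) (hΩ : 2 ≤ Nat.card Ω)
    (r : ℕ) (hr : r.Prime) (hrd : r ∣ Nat.card Ω) (hmax : ∀ s : ℕ, s.Prime → s ∣ Nat.card Ω → s ≤ r) :
    ∃ g : G, orderOf g = r ∧ ∀ ω : Ω, g • ω ≠ ω := by
  classical
  have : Nontrivial (Fin m) := Fin.nontrivial_iff_two_le.2 (by omega)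
  have hTne : T ≠ ⊥ := by
    intro h
    have h1 : Nat.card T = 1 := by rw [h]; simp
    have h2 : Nat.card (alternatingGroup (Fin m)) = 1 := by
      rw [← Nat.card_congr eT.toEquiv, h1]
    have h3 := two_mul_nat_card_alternatingGroup (α := Fin m)
    rw [h2, Nat.card_eq_fintype_card, Fintype.card_perm, Fintype.card_fin] at h3
    have h4 : (5).factorial ≤ m.factorial := Nat.factorial_le hm
    have h5 : (5).factorial = 120 := rfl
    omega
  have := hprim
  have := hT
  have htr : IsPretransitive T Ω :=
    Cfsg.Agent.Lib.Perm.Basic.isPretransitive_of_normal_of_ne_bot T hTne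
  obtain ⟨ω⟩ : Nonempty Ω := (Nat.card_pos_iff.1 (by omega : 0 < Nat.card Ω)).1
  let H : Subgroup T := stabilizer T ω
  let U : Subgroup (Perm (Fin m)) := (H.map eT.toMonoidHom).map (alternatingGroup (Fin m)).subtype
  have hUcard : Nat.card U = Nat.card H := by
    have h1 : Nat.card U = Nat.card (H.map eT.toMonoidHom) :=
      Subgroup.card_map_of_injective (alternatingGroup (Fin m)).subtype_injective
    have h2 : Nat.card (H.map eT.toMonoidHom) = Nat.card H :=
      Subgroup.card_map_of_injective eT.injective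
    rw [h1, h2]
  have hn : Nat.card U * Nat.card Ω = Nat.card (alternatingGroup (Fin m)) := by
    rw [hUcard, ← Nat.card_congr eT.toEquiv]
    have h1 : Nat.card H * H.index = Nat.card T := Subgroup.card_mul_index H
    have h2 : H.index = Nat.card Ω := by
      have h3 : H.index = (orbit T ω).ncard := index_stabilizer T ω
      rw [h3, orbit_eq_univ T ω, Set.ncard_univ]
    rw [← h1, h2]
  have hU : U ≤ alternatingGroup (Fin m) := by
    rintro _ ⟨x, _, rfl⟩
    exact x.2
  obtain ⟨σ, hσA, hσord, hσU⟩ := Cfsg.Agent.Lib.Perm.AltDer.core (X := Fin m)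
    (by simpa using hm) U hU hn hr hrd hmax
  let t : T := eT.symm ⟨σ, hσA⟩
  have het : eT t = ⟨σ, hσA⟩ := eT.apply_symm_apply _
  refine ⟨(t : G), ?_, ?_⟩
  · have h1 : orderOf (t : G) = orderOf t := Subgroup.orderOf_coe t
    have h2 : orderOf t = orderOf (eT t) := (MulEquiv.orderOf_eq eT t).symm
    have h3 : orderOf (eT t) = orderOf σ := by
      rw [het]
      exact Subgroup.orderOf_mk σ hσA
    rw [h1, h2, h3, hσord]
  · intro ω' hfix
    obtain ⟨u, hu⟩ := exists_smul_eq T ω ω'
    have hmem : u⁻¹ * t * u ∈ H := by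
      change (u⁻¹ * t * u) • ω = ω
      rw [mul_smul, mul_smul, hu]
      have h1 : t • ω' = ω' := hfix
      rw [h1, ← hu, inv_smul_smul]
    let τ : Perm (Fin m) := ((eT (u⁻¹ * t * u) : alternatingGroup (Fin m)) : Perm (Fin m))
    have hτU : τ ∈ U := ⟨eT (u⁻¹ * t * u), ⟨u⁻¹ * t * u, hmem, rfl⟩, rfl⟩
    apply hσU τ hτU
    have hτ : τ = ((eT u : alternatingGroup (Fin m)) : Perm (Fin m))⁻¹ * σ *
        ((eT u : alternatingGroup (Fin m)) : Perm (Fin m)) := by
      change ((eT (u⁻¹ * t * u) : alternatingGroup (Fin m)) : Perm (Fin m)) = _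
      rw [map_mul, map_mul, map_inv, het]
      rfl
    have hconj := cycleType_conj (σ := σ)
      (τ := ((eT u : alternatingGroup (Fin m)) : Perm (Fin m))⁻¹)
    rw [inv_inv] at hconj
    rw [hτ]
    exact hconj

end Cfsg.Agent.S3571
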