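import Cfsg.Statements.S3572
import Mathlib
import Cfsg.Agent.Lib.Dih.Bridge
-- import your own Cfsg.Agent.* helpers here

set_option autoImplicit false
open Cfsg

namespace Cfsg.Agent.S3572

/-- A finite primitive permutation group containing a dihedral subgroup that acts regularly (transitively with trivial point stabilizers) is doubly transitive. -/
theorem result {G Ω : Type*} [Group G] [Finite G] [MulAction G Ω] [FaithfulSMul G Ω] [Finite Ω]
    (hprim : MulAction.IsPreprimitive G Ω) (D : Subgroup G) (m : ℕ) (hD : Nonempty (↥D ≃* DihedralGroup m))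
    (hDreg : MulAction.IsPretransitive ↥D Ω ∧ ∀ a : Ω, MulAction.stabilizer ↥D a = ⊥) :
    MulAction.IsMultiplyPretransitive G Ω 2 := by
  exact Cfsg.Agent.Lib.Dih.Bridge.two_transitive hprim D m hD hDreg

end Cfsg.Agent.S3572
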