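import Cfsg.Statements.S3573
import Mathlib

set_option autoImplicit false
open Cfsg

namespace Cfsg.Agent.S3573

open Equiv Equiv.Perm

lemma exists_invariant_subset {n k r : ℕ} (hr : r.Prime) (σ : Perm (Fin n)) (hσ : orderOf σ = r)
    (hkn : k ≤ n) (hmod : k % r ≤ n % r) : ∃ s : Finset (Fin n), s.card = k ∧ s.image σ = s := by
  classical
  obtain ⟨j0, hj0⟩ := cycleType_prime_order (σ := σ) (by rw [hσ]; exact hr)
  rw [hσ] at hj0
  set j := j0 + 1 with hj
  have hcard : σ.cycleFactorsFinset.card = j := by
    have h := congrArg Multiset.card hj0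
    rw [Multiset.card_replicate, cycleType_def, Multiset.card_map] at h
    exact h
  have hsup : ∀ c ∈ σ.cycleFactorsFinset, c.support.card = r := by
    intro c hc
    have h : c.support.card ∈ σ.cycleType := by
      rw [cycleType_def]
      exact Multiset.mem_map.mpr ⟨c, hc, rfl⟩
    rw [hj0] at h
    exact Multiset.eq_of_mem_replicate h
  have hsupp : σ.support.card = j * r := by
    rw [← sum_cycleType, hj0]
    simp
  have hsuppn : j * r ≤ n := by
    have := Finset.card_le_univ σ.support
    simp only [Fintype.card_fin] at this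
    omega
  set F : Finset (Fin n) := σ.supportᶜ with hF
  have hFc : F.card = n - j * r := by
    rw [hF, Finset.card_compl, hsupp]
    simp
  set i := min j (k / r) with hi
  have hrpos := hr.pos
  have hkdiv : k = r * (k / r) + k % r := (Nat.div_add_mod k r).symm
  have hndiv : n = r * (n / r) + n % r := (Nat.div_add_mod n r).symm
  have hir : i * r ≤ k := by
    have h1 : i ≤ k / r := min_le_right _ _
    have h2 : i * r ≤ (k / r) * r := Nat.mul_le_mul_right _ h1
    have h3 : (k / r) * r ≤ k := Nat.div_mul_le_self k r
    omega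
  have hl : k - i * r ≤ F.card := by
    rw [hFc]
    by_cases hjk : j ≤ k / r
    · have e : i = j := min_eq_left hjk
      rw [e]
      omega
    · push Not at hjk
      have e : i = k / r := min_eq_right hjk.le
      rw [e]
      have h1 : k - k / r * r = k % r := by
        have := Nat.div_add_mod' k r
        omega
      rw [h1]
      -- n - j r ≡ n mod r and it is at least n % r
      have h2 : n % r ≤ n - j * r := by
        have h3 : (n - j * r) % r = n % r := by
          conv_rhs => rw [← Nat.sub_add_cancel hsuppn]
          simp [Nat.add_mul_mod_self_right]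
        rw [← h3]
        exact Nat.mod_le _ _
      omega
  obtain ⟨T, hT, hTc⟩ := Finset.exists_subset_card_eq (s := σ.cycleFactorsFinset) (n := i)
    (by rw [hcard]; exact min_le_left _ _)
  obtain ⟨U, hU, hUc⟩ := Finset.exists_subset_card_eq (s := F) (n := k - i * r) hl
  refine ⟨T.biUnion (fun c => c.support) ∪ U, ?_, ?_⟩
  · have hdisj : ∀ c ∈ T, ∀ d ∈ T, c ≠ d → Disjoint (c.support) (d.support) := by
      intro c hc d hd hcd
      have := cycleFactorsFinset_pairwise_disjoint σ (hT hc) (hT hd) hcd
      exact Equiv.Perm.disjoint_iff_disjoint_support.mp this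
    have h1 : (T.biUnion (fun c => c.support)).card = i * r := by
      rw [Finset.card_biUnion hdisj, Finset.sum_congr rfl (fun c hc => hsup c (hT hc))]
      simp [hTc]
    have h2 : Disjoint (T.biUnion (fun c => c.support)) U := by
      rw [Finset.disjoint_left]
      intro x hx hxU
      obtain ⟨c, hc, hxc⟩ := Finset.mem_biUnion.mp hx
      have h3 : x ∈ σ.support := mem_cycleFactorsFinset_support_le (hT hc) hxc
      have h4 : x ∈ F := hU hxU
      rw [hF, Finset.mem_compl] at h4
      exact h4 h3
    rw [Finset.card_union_of_disjoint h2, h1, hUc]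
    omega
  · apply Finset.eq_of_subset_of_card_le
    · intro y hy
      obtain ⟨x, hx, rfl⟩ := Finset.mem_image.mp hy
      rcases Finset.mem_union.mp hx with h | h
      · obtain ⟨c, hc, hxc⟩ := Finset.mem_biUnion.mp h
        apply Finset.mem_union_left
        apply Finset.mem_biUnion.mpr
        refine ⟨c, hc, ?_⟩
        have h3 := (mem_cycleFactorsFinset_iff.mp (hT hc)).2 x hxc
        rw [← h3]
        exact apply_mem_support.mpr hxc
      · have h4 : x ∈ F := hU h
        rw [hF, Finset.mem_compl, mem_support, not_not] at h4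
        rw [h4]
        exact hx
    · rw [Finset.card_image_of_injective _ σ.injective]

lemma mod_le_of_invariant {n k r : ℕ} (hr : r.Prime) (hrn : r ≤ n) :
    ∃ σ : Perm (Fin n), orderOf σ = r ∧
      ∀ s : Finset (Fin n), s.card = k → s.image σ = s → k % r ≤ n % r := by
  classical
  haveI : Fact r.Prime := ⟨hr⟩
  have hj : 0 < n / r := Nat.div_pos hrn hr.pos
  have hex : ∃ g : Perm (Fin n), g.cycleType = Multiset.replicate (n / r) r := by
    rw [exists_with_cycleType_iff]
    constructor
    · simp only [Multiset.sum_replicate, smul_eq_mul, Fintype.card_fin]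
      exact Nat.div_mul_le_self n r
    · intro a ha
      rw [Multiset.eq_of_mem_replicate ha]
      exact hr.two_le
  obtain ⟨σ, hσ⟩ := hex
  have ho : orderOf σ = r := by
    rw [← lcm_cycleType, hσ]
    apply Nat.dvd_antisymm
    · exact Multiset.lcm_dvd.mpr (fun b hb => by rw [Multiset.eq_of_mem_replicate hb])
    · exact Multiset.dvd_lcm (Multiset.mem_replicate.mpr ⟨hj.ne', rfl⟩)
  refine ⟨σ, ho, ?_⟩
  intro s hs himg
  have hmem : ∀ x, x ∈ s ↔ σ x ∈ s := by
    intro x
    constructor
    · intro hx
      rw [← himg]
      exact Finset.mem_image_of_mem _ hx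
    · intro hx
      rw [← himg] at hx
      obtain ⟨y, hy, e⟩ := Finset.mem_image.mp hx
      have := σ.injective e
      rwa [← this]
  let τ : Perm {x // x ∈ s} := σ.subtypePerm (fun x => (hmem x).symm)
  have hτ : τ ^ (r ^ 1) = 1 := by
    rw [pow_one]
    apply Equiv.ext
    rintro ⟨x, hx⟩
    apply Subtype.ext
    have h1 : ∀ m : ℕ, ((τ ^ m) ⟨x, hx⟩ : {x // x ∈ s}).1 = (σ ^ m) x := by
      intro m
      induction m with
      | zero => rfl
      | succ m ih =>
        rw [pow_succ', pow_succ']
        show σ ((τ ^ m) ⟨x, hx⟩).1 = σ ((σ ^ m) x)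
        rw [ih]
    rw [h1, ← ho, pow_orderOf_eq_one]
    rfl
  have hmodeq := card_compl_support_modEq hτ
  simp only [Fintype.card_coe, hs] at hmodeq
  have hsupp : σ.support.card = n / r * r := by
    rw [← sum_cycleType, hσ]
    simp
  have hFc : σ.supportᶜ.card = n % r := by
    rw [Finset.card_compl, hsupp]
    simp only [Fintype.card_fin]
    have := Nat.div_add_mod' n r
    omega
  have hle : τ.supportᶜ.card ≤ n % r := by
    rw [← hFc]
    apply Finset.card_le_card_of_injOn (fun x => x.1)
    · intro x hx
      have h1 : x ∉ τ.support := by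
        simpa using hx
      rw [mem_support, not_not] at h1
      have h2 : σ x.1 = x.1 := congrArg Subtype.val h1
      simp [mem_support, h2]
    · intro a _ b _ hab
      exact Subtype.ext hab
  have hlt : n % r < r := Nat.mod_lt _ hr.pos
  have h3 : τ.supportᶜ.card % r = k % r := hmodeq
  rw [Nat.mod_eq_of_lt (lt_of_le_of_lt hle hlt)] at h3
  omega

lemma not_dvd_choose_of_lt {m k r : ℕ} (hr : r.Prime) (hm : m < r) (hk : k ≤ m) : ¬ r ∣ m.choose k := by
  intro h
  have h1 := Nat.choose_mul_factorial_mul_factorial hk
  have h2 : r ∣ m.factorial := by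
    rw [← h1]
    exact Dvd.dvd.mul_right (Dvd.dvd.mul_right h _) _
  have := (Nat.Prime.dvd_factorial hr).mp h2
  omega

/-- Let 1 ≤ k with 2k < n and consider the symmetric group of degree n acting on the k-subsets of an n-set. Let r be a prime dividing the number C(n,k) of k-subsets. If r is odd, then every permutation of order r fixes some k-subset if and only if r ≤ k and the remainder of k modulo r is at most the remainder of n modulo r. If r = 2, then every involution fixes some k-subset if and only if k is even or n is odd. -/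
theorem result (n k : ℕ) (hk : 1 ≤ k) (hkn : 2 * k < n) (r : ℕ) (hr : r.Prime) (hrd : r ∣ Nat.choose n k) :
    (r ≠ 2 → ((∀ σ : Equiv.Perm (Fin n), orderOf σ = r → ∃ s : Finset (Fin n), s.card = k ∧ s.image σ = s) ↔
      (r ≤ k ∧ k % r ≤ n % r))) ∧
    (r = 2 → ((∀ σ : Equiv.Perm (Fin n), orderOf σ = 2 → ∃ s : Finset (Fin n), s.card = k ∧ s.image σ = s) ↔
      (Even k ∨ Odd n))) := by
  classical
  have hrn : r ≤ n := by
    have hkle : k ≤ n := by omega
    have h1 := Nat.choose_mul_factorial_mul_factorial hkle
    have h2 : r ∣ n.factorial := by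
      rw [← h1]
      exact Dvd.dvd.mul_right (Dvd.dvd.mul_right hrd _) _
    exact (Nat.Prime.dvd_factorial hr).mp h2
  have hkn' : k ≤ n := by omega
  obtain ⟨σ₀, hσ₀, hB⟩ := mod_le_of_invariant (k := k) hr hrn
  constructor
  · intro _
    constructor
    · intro h
      obtain ⟨s, hs, hsi⟩ := h σ₀ hσ₀
      have h1 := hB s hs hsi
      refine ⟨?_, h1⟩
      by_contra hlt
      push Not at hlt
      haveI : Fact r.Prime := ⟨hr⟩
      have h2 := Choose.choose_modEq_choose_mod_mul_choose_div_nat (n := n) (k := k) (p := r)
      rw [Nat.mod_eq_of_lt hlt, Nat.div_eq_of_lt hlt, Nat.choose_zero_right, mul_one] at h2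
      rw [Nat.mod_eq_of_lt hlt] at h1
      have h3 : r ∣ (n % r).choose k := by
        have h4 := (Nat.modEq_zero_iff_dvd.mpr hrd)
        exact Nat.modEq_zero_iff_dvd.mp (h2.symm.trans h4)
      exact not_dvd_choose_of_lt hr (Nat.mod_lt _ hr.pos) h1 h3
    · rintro ⟨-, h2⟩ σ hσ
      exact exists_invariant_subset hr σ hσ hkn' h2
  · rintro rfl
    constructor
    · intro h
      obtain ⟨s, hs, hsi⟩ := h σ₀ hσ₀
      have h1 := hB s hs hsi
      rcases Nat.even_or_odd k with h2 | h2
      · exact Or.inl h2
      · right
        rw [Nat.odd_iff] at h2 ⊢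
        omega
    · intro h σ hσ
      apply exists_invariant_subset hr σ hσ hkn'
      rcases h with h2 | h2
      · rw [Nat.even_iff] at h2
        omega
      · rw [Nat.odd_iff] at h2
        have : k % 2 < 2 := Nat.mod_lt _ (by norm_num)
        omega

end Cfsg.Agent.S3573
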