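import Cfsg.Statements.S3575
-- import your own Cfsg.Agent.* helpers here

set_option autoImplicit false
open Cfsg

namespace Cfsg.Agent.S3575

open Equiv



/-- The covering condition: `t` cycles can be distributed. -/
def Cov (r q a b t : ℕ) : Prop := ∃ m n, r * m + n = b ∧ m * a ≤ t ∧ t ≤ m * a + n * q

theorem cov_of_right {r q l s k a b t : ℕ} (hr : 0 < r) (hq : 1 ≤ q) (ha : a = q * r + l)
    (hb : b = s * r + k) (hlk : l * k < r) (hgap : 1 ≤ s → l ≤ k * q + 1)
    (ht : r * t ≤ a * b) : Cov r q a b t := by
  have hapos : 0 < a := by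
    rw [ha]; have : 0 < q * r := Nat.mul_pos (by omega) hr; omega
  by_cases hc : s ≤ t / a
  · -- `m = s`
    refine ⟨s, k, by rw [hb]; ring, ?_, ?_⟩
    · exact (Nat.le_div_iff_mul_le hapos).1 hc
    · have h1 : a * b = r * (q * b + l * s) + l * k := by
        rw [ha, hb]; ring
      rw [h1] at ht
      have h2 : r * t < r * (q * b + l * s + 1) := by
        calc r * t ≤ r * (q * b + l * s) + l * k := ht
          _ < r * (q * b + l * s) + r := by omega
          _ = r * (q * b + l * s + 1) := by ring
      have h3 := Nat.lt_of_mul_lt_mul_left h2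
      have h4 : s * a + k * q = q * b + l * s := by
        rw [ha, hb]; ring
      rw [h4]
      omega
  · -- `m = t / a`
    push Not at hc
    set m := t / a with hm
    have hm1 : m * a ≤ t := (Nat.le_div_iff_mul_le hapos).1 le_rfl
    have hm2 : t < (m + 1) * a := by
      have := Nat.lt_mul_div_succ t hapos
      rw [mul_comm]
      exact this
    clear_value m
    obtain ⟨u, hu⟩ : ∃ u, s = m + 1 + u := ⟨s - (m + 1), by omega⟩
    have hle := hgap (by omega)
    refine ⟨m, (u + 1) * r + k, ?_, hm1, ?_⟩
    · rw [hb, hu]; ring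
    · -- `t + 1 ≤ (m + 1) * q * r + (m + 1) * l`
      have h1 : t + 1 ≤ (m + 1) * (q * r + l) := by rw [← ha]; exact hm2
      have h2 : m * a + ((u + 1) * r + k) * q = m * q * r + m * l + (u + 1) * r * q + k * q := by
        rw [ha]; ring
      rw [h2]
      have h3 : (m + 1) * (q * r + l) = m * q * r + q * r + m * l + l := by ring
      rw [h3] at h1
      have h4 : q * r ≤ (u + 1) * r * q := by
        have : (u + 1) * r * q = q * r + u * (r * q) := by ring
        rw [this]; omega
      omega

theorem right_of_cov {r q l s k a b : ℕ} (hr : 0 < r) (hl : l < r) (hk : k < r) (ha : a = q * r + l)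
    (hb : b = s * r + k) (ha2 : 2 ≤ a) (hrab : r ≤ a * b)
    (H : ∀ t, 1 ≤ t → r * t ≤ a * b → Cov r q a b t) :
    1 ≤ q ∧ (l ≠ 0 → l * k < r ∧ (1 ≤ s → l ≤ k * q + 1)) := by
  have hq : 1 ≤ q := by
    by_contra hcon
    have hq0 : q = 0 := by omega
    obtain ⟨m, n, -, h1, h2⟩ := H 1 le_rfl (by simpa using hrab)
    rw [hq0, mul_zero, add_zero] at h2
    have h3 : m * a = 1 := by omega
    have h4 : a ∣ 1 := ⟨m, by rw [mul_comm]; exact h3.symm⟩
    have := Nat.le_of_dvd one_pos h4
    omega
  refine ⟨hq, fun hl0 => ⟨?_, fun hs => ?_⟩⟩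
  · by_contra hcon
    push Not at hcon
    obtain ⟨m, n, h0, h1, h2⟩ := H (q * b + l * s + 1) (by omega) (by
      have h1 : a * b = r * (q * b + l * s) + l * k := by rw [ha, hb]; ring
      rw [h1]
      calc r * (q * b + l * s + 1) = r * (q * b + l * s) + r := by ring
        _ ≤ _ := by omega)
    -- `m ≤ s`
    have hms : m ≤ s := by
      by_contra hcon2
      have h3 : (s + 1) * r ≤ m * r := Nat.mul_le_mul_right r (by omega)
      have h4 : s * r + r = (s + 1) * r := by ring
      have h5 : r * m = m * r := by ring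
      omega
    obtain ⟨u, rfl⟩ : ∃ u, s = m + u := ⟨s - m, by omega⟩
    have hn : n = u * r + k := by
      have : r * m + n = (m + u) * r + k := by rw [h0, hb]
      have h6 : (m + u) * r = r * m + u * r := by ring
      omega
    have h7 : m * a + n * q = q * b + l * m := by
      rw [hn, ha, hb]; ring
    rw [h7] at h2
    have h8 : l * (m + u) = l * m + l * u := by ring
    omega
  · -- the gap
    by_contra hcon
    push Not at hcon
    obtain ⟨v, rfl⟩ : ∃ v, s = v + 1 := ⟨s - 1, by omega⟩
    obtain ⟨m, n, h0, h1, h2⟩ := H (q * b + v * l + 1) (by omega) (by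
      have h1 : a * b = r * (q * b + l * (v + 1)) + l * k := by rw [ha, hb]; ring
      rw [h1]
      have h3 : 1 ≤ l := by omega
      calc r * (q * b + v * l + 1) ≤ r * (q * b + l * (v + 1)) := by
            apply Nat.mul_le_mul_left
            have : l * (v + 1) = v * l + l := by ring
            omega
        _ ≤ _ := by omega)
    have hms : m ≤ v + 1 := by
      by_contra hcon2
      have h3 : (v + 1 + 1) * r ≤ m * r := Nat.mul_le_mul_right r (by omega)
      have h4 : (v + 1) * r + r = (v + 1 + 1) * r := by ring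
      have h5 : r * m = m * r := by ring
      omega
    rcases Nat.lt_or_ge m (v + 1) with hlt | hge
    · obtain ⟨u, hu⟩ : ∃ u, v = m + u := ⟨v - m, by omega⟩
      have hn : n = (u + 1) * r + k := by
        have : r * m + n = (v + 1) * r + k := by rw [h0, hb]
        have h6 : (v + 1) * r = r * m + (u + 1) * r := by rw [hu]; ring
        omega
      have h7 : m * a + n * q = q * b + l * m := by
        rw [hn, ha, hb, hu]; ring
      rw [h7] at h2
      have h8 : v * l = m * l + u * l := by rw [hu]; ring
      have h9 : l * m = m * l := by ring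
      omega
    · have hm : m = v + 1 := by omega
      subst hm
      -- `t < (v + 1) * a`
      have h3 : (v + 1) * a = (v + 1) * r * q + (v + 1) * l := by rw [ha]; ring
      have h4 : q * b = (v + 1) * r * q + k * q := by rw [hb]; ring
      have h5 : (v + 1) * l = v * l + l := by ring
      rw [h3, h4, h5] at h1
      omega

/-- The arithmetic core. -/
theorem arith_iff {a b r : ℕ} (ha2 : 2 ≤ a) (hb2 : 2 ≤ b) (hr : r.Prime) (hrab : r ≤ a * b) :
    (∀ t, 1 ≤ t → r * t ≤ a * b → Cov r (a / r) a b t) ↔
      (r ≤ a ∧ (a % r = 0 ∨ (b % r = 0 ∧ a % r = 1) ∨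
        (a % r ≠ 0 ∧ b % r ≠ 0 ∧ (b % r) * (a % r) < r ∧
          (b < r ∨ (b % r + r) * (a % r) ≤ (b % r) * a + r)))) := by
  have hr0 : 0 < r := hr.pos
  set q := a / r with hq
  set l := a % r with hl
  set s := b / r with hs
  set k := b % r with hk
  have ha' : a = q * r + l := by
    rw [hq, hl, mul_comm]; exact (Nat.div_add_mod a r).symm
  have hb' : b = s * r + k := by
    rw [hs, hk, mul_comm]; exact (Nat.div_add_mod b r).symm
  have hl' : l < r := Nat.mod_lt _ hr0
  have hk' : k < r := Nat.mod_lt _ hr0
  have hqa : 1 ≤ q ↔ r ≤ a := by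
    rw [hq]; exact Nat.div_pos_iff.trans (by simp [hr0]) 
  have hsb : 1 ≤ s ↔ r ≤ b := by
    rw [hs]; exact Nat.div_pos_iff.trans (by simp [hr0])
  clear_value q l s k
  have hexp : ∀ {x : ℕ}, (k + r) * l ≤ k * a + r ↔ l ≤ k * q + 1 := by
    intro x
    have h1 : k * a + r = r * (k * q + 1) + k * l := by rw [ha']; ring
    have h2 : (k + r) * l = r * l + k * l := by ring
    rw [h1, h2]
    constructor
    · intro h
      have : r * l ≤ r * (k * q + 1) := by omega
      exact Nat.le_of_mul_le_mul_left this hr0
    · intro h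
      have := Nat.mul_le_mul_left r h
      omega
  constructor
  · intro H
    obtain ⟨hq1, hmain⟩ := right_of_cov hr0 hl' hk' ha' hb' ha2 hrab H
    refine ⟨hqa.1 hq1, ?_⟩
    by_cases hl0 : l = 0
    · exact Or.inl hl0
    right
    obtain ⟨h1, h2⟩ := hmain hl0
    by_cases hk0 : k = 0
    · left
      refine ⟨hk0, ?_⟩
      have hs1 : 1 ≤ s := by
        by_contra hcon
        have hs0 : s = 0 := by omega
        rw [hs0, hk0] at hb'
        omega
      have := h2 hs1
      rw [hk0] at this
      omega
    right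
    refine ⟨hl0, hk0, by rw [mul_comm]; exact h1, ?_⟩
    by_cases hbr : b < r
    · exact Or.inl hbr
    right
    exact (hexp (x := 0)).2 (h2 (hsb.2 (by omega)))
  · rintro ⟨hra, hcase⟩ t _ ht
    have hq1 := hqa.2 hra
    apply cov_of_right hr0 hq1 ha' hb' _ _ ht
    · rcases hcase with h | ⟨h, -⟩ | ⟨-, -, h, -⟩
      · rw [h]; simpa using hr0
      · rw [h]; simpa using hr0
      · rw [mul_comm]; exact h
    · intro hs1
      rcases hcase with h | ⟨-, h⟩ | ⟨-, -, -, h⟩
      · rw [h]; omega
      · rw [h]; omega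
      · rcases h with h | h
        · have := hsb.1 hs1
          omega
        · exact (hexp (x := 0)).1 h




section Perm

variable {α : Type*} [DecidableEq α] [Fintype α]

theorem dvd_card_support {r : ℕ} (hr : r.Prime) {τ : Perm α} (hτ : τ ^ r = 1) :
    r ∣ τ.support.card := by
  by_cases h1 : τ = 1
  · simp [h1]
  haveI : Fact r.Prime := ⟨hr⟩
  have ho : orderOf τ = r := orderOf_eq_prime hτ h1
  obtain ⟨n, hn⟩ := Perm.cycleType_prime_order (σ := τ) (by rw [ho]; exact hr)
  have h2 := Perm.sum_cycleType τ
  rw [hn, Multiset.sum_replicate, ho] at h2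
  rw [← h2]
  simp

theorem cycleType_eq {r t : ℕ} (hr : r.Prime) {τ : Perm α} (ho : orderOf τ = r)
    (hs : τ.support.card = r * t) : τ.cycleType = Multiset.replicate t r := by
  obtain ⟨n, hn⟩ := Perm.cycleType_prime_order (σ := τ) (by rw [ho]; exact hr)
  have h2 := Perm.sum_cycleType τ
  rw [hn, Multiset.sum_replicate, ho, hs] at h2
  have h3 : (n + 1) * r = t * r := by simpa [mul_comm] using h2
  have h4 : n + 1 = t := Nat.eq_of_mul_eq_mul_right hr.pos h3
  rw [hn, ho, h4]

end Perm

/-- From a partition fixed by `σ` to the covering condition. -/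
theorem cov_of_partition {X : Type*} [DecidableEq X] [Fintype X] {a b r t : ℕ} (hr : r.Prime)
    (ha : 0 < a) (σ : Perm X)
    (hσ : orderOf σ = r) (ht : σ.support.card = r * t) (f : X → Fin b)
    (hf : ∀ j, Nat.card {x : X // f x = j} = a) (π : Perm (Fin b))
    (hπ : ∀ x, f (σ x) = π (f x)) : Cov r (a / r) a b t := by
  classical
  have hσr : σ ^ r = 1 := by rw [← hσ]; exact pow_orderOf_eq_one σ
  have hsurj : ∀ j, ∃ x, f x = j := by
    intro j
    have h1 : 0 < Nat.card {x : X // f x = j} := by rw [hf]; exact ha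
    obtain ⟨⟨x, hx⟩⟩ := (Nat.card_pos_iff.1 h1).1
    exact ⟨x, hx⟩
  have hpow : ∀ (k : ℕ) (x : X), f ((σ ^ k) x) = (π ^ k) (f x) := by
    intro k
    induction k with
    | zero => intro x; simp
    | succ k ih =>
      intro x
      rw [pow_succ', pow_succ', Perm.mul_apply, Perm.mul_apply, hπ, ih]
  have hπr : π ^ r = 1 := by
    ext j
    obtain ⟨x, rfl⟩ := hsurj j
    rw [← hpow, hσr]
    simp
  obtain ⟨m, hm⟩ := dvd_card_support hr hπr
  have hcardfib : ∀ j, (Finset.univ.filter (fun x => f x = j)).card = a := by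
    intro j
    rw [← hf j, Nat.card_eq_fintype_card, Fintype.card_subtype]
  -- splitting the support
  have hsplit := Finset.card_eq_sum_card_fiberwise (s := σ.support) (t := (Finset.univ : Finset (Fin b)))
    (f := f) (fun x _ => Finset.mem_coe.2 (Finset.mem_univ _))
  rw [← Finset.sum_add_sum_compl π.support] at hsplit
  -- moved blocks
  have hmoved : ∀ j ∈ π.support, (σ.support.filter (fun x => f x = j)).card = a := by
    intro j hj
    rw [← hcardfib j]
    congr 1
    ext x
    simp only [Finset.mem_filter, Finset.mem_univ, true_and, and_iff_right_iff_imp]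
    rintro rfl
    rw [Perm.mem_support]
    intro h
    have h2 := hπ x
    rw [h] at h2
    exact (Perm.mem_support.1 hj) h2.symm
  rw [Finset.sum_congr rfl hmoved, Finset.sum_const, smul_eq_mul, hm] at hsplit
  -- fixed blocks
  have hfixed : ∀ j ∈ π.supportᶜ, r ∣ (σ.support.filter (fun x => f x = j)).card ∧
      (σ.support.filter (fun x => f x = j)).card ≤ a := by
    intro j hj
    have hjfix : π j = j := by
      simpa [Finset.mem_compl, Perm.mem_support] using hj
    constructor
    · set W := σ.support.filter (fun x => f x = j) with hW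
      have hinv : ∀ x, σ x ∈ W ↔ x ∈ W := by
        intro x
        simp only [hW, Finset.mem_filter, Perm.apply_mem_support, hπ]
        constructor
        · rintro ⟨h1, h2⟩
          refine ⟨h1, π.injective (h2.trans hjfix.symm)⟩
        · rintro ⟨h1, h2⟩
          exact ⟨h1, by rw [h2, hjfix]⟩
      let τ : Perm {x // x ∈ W} := σ.subtypePerm hinv
      have hτpow : ∀ (k : ℕ) (y : {x // x ∈ W}), ((τ ^ k) y : X) = (σ ^ k) y := by
        intro k
        induction k with
        | zero => intro y; simp
        | succ k ih =>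
          intro y
          rw [pow_succ', pow_succ', Perm.mul_apply, Perm.mul_apply, ← ih]
          rfl
      have hτr : τ ^ r = 1 := by
        ext y
        rw [hτpow, hσr]
        simp
      have h1 := dvd_card_support hr hτr
      have h2 : τ.support = Finset.univ := by
        ext y
        simp only [Perm.mem_support, Finset.mem_univ, iff_true]
        intro h3
        have h4 : σ (y : X) = y := congrArg Subtype.val h3
        have h5 : (y : X) ∈ σ.support := (Finset.mem_filter.1 y.2).1
        exact (Perm.mem_support.1 h5) h4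
      rw [h2, Finset.card_univ, Fintype.card_coe] at h1
      exact h1
    · rw [← hcardfib j]
      apply Finset.card_le_card
      intro x hx
      simp only [Finset.mem_filter, Finset.mem_univ, true_and] at hx ⊢
      exact hx.2
  set S := ∑ j ∈ π.supportᶜ, (σ.support.filter (fun x => f x = j)).card with hS
  have hSdvd : r ∣ S := Finset.dvd_sum (fun j hj => (hfixed j hj).1)
  obtain ⟨c, hc⟩ := hSdvd
  have hcomp : π.supportᶜ.card = b - r * m := by
    rw [Finset.card_compl, Fintype.card_fin, hm]
  have hle : r * m ≤ b := by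
    have := Finset.card_le_univ π.support
    rw [Fintype.card_fin, hm] at this
    exact this
  have hSle : S ≤ (b - r * m) * (r * (a / r)) := by
    rw [hS, ← hcomp]
    have : ∀ j ∈ π.supportᶜ, (σ.support.filter (fun x => f x = j)).card ≤ r * (a / r) := by
      intro j hj
      obtain ⟨⟨i, hi⟩, h2⟩ := hfixed j hj
      rw [hi]
      apply Nat.mul_le_mul_left
      rw [Nat.le_div_iff_mul_le hr.pos, mul_comm]
      rw [← hi]; exact h2
    have h3 := Finset.sum_le_card_nsmul _ _ _ this
    simpa using h3
  have hrt : r * t = r * (m * a + c) := by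
    rw [← ht, hsplit, hc]; ring
  have ht' : t = m * a + c := Nat.eq_of_mul_eq_mul_left hr.pos hrt
  refine ⟨m, b - r * m, by omega, by omega, ?_⟩
  have hcle : c ≤ (b - r * m) * (a / r) := by
    have h1 : r * c ≤ r * ((b - r * m) * (a / r)) := by
      calc r * c = S := hc.symm
        _ ≤ (b - r * m) * (r * (a / r)) := hSle
        _ = r * ((b - r * m) * (a / r)) := by ring
    exact Nat.le_of_mul_le_mul_left h1 hr.pos
  omega



theorem exists_weights (q : ℕ) : ∀ (n c : ℕ), c ≤ n * q → ∃ w : Fin n → ℕ, (∀ j, w j ≤ q) ∧ ∑ j, w j = c := by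
  intro n
  induction n with
  | zero =>
    intro c hc
    refine ⟨Fin.elim0, fun j => j.elim0, ?_⟩
    simp at hc ⊢
    exact hc.symm
  | succ n ih =>
    intro c hc
    have h1 : c - min c q ≤ n * q := by
      have : (n + 1) * q = n * q + q := by ring
      rcases le_total c q with h | h
      · rw [min_eq_left h]; simp
      · rw [min_eq_right h]; omega
    obtain ⟨w, hw, hs⟩ := ih _ h1
    refine ⟨Fin.cons (min c q) w, ?_, ?_⟩
    · intro j
      refine Fin.cases ?_ (fun i => ?_) j
      · simp
      · simpa using hw i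
    · rw [Fin.sum_univ_succ]
      simp only [Fin.cons_zero, Fin.cons_succ, hs]
      have : min c q ≤ c := min_le_left _ _
      omega

/-- The cyclic rotation. -/
def rot (r : ℕ) : Perm (ZMod r) := Equiv.addRight (1 : ZMod r)

theorem rot_pow (r k : ℕ) (e : ZMod r) : ((rot r) ^ k) e = e + k := by
  induction k with
  | zero => simp
  | succ k ih =>
    rw [pow_succ', Perm.mul_apply, ih]
    simp only [rot, Equiv.coe_addRight, Nat.cast_succ]
    ring

theorem rot_pow_self (r : ℕ) : (rot r) ^ r = 1 := by
  ext e
  rw [rot_pow]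
  simp

section Model

variable {m n a r : ℕ} (w : Fin n → ℕ)

/-- The blocks of the model. -/
abbrev J (m n r : ℕ) : Type := (Fin m × ZMod r) ⊕ Fin n

/-- The cycles of the model. -/
abbrev B (m n a : ℕ) (w : Fin n → ℕ) : Type := (Fin m × Fin a) ⊕ (Σ j : Fin n, Fin (w j))

/-- The fixed points of the model. -/
abbrev F (n a r : ℕ) (w : Fin n → ℕ) : Type := Σ j : Fin n, Fin (a - r * w j)

/-- The points of the model. -/
abbrev Y (m n a r : ℕ) (w : Fin n → ℕ) : Type := (B m n a w × ZMod r) ⊕ F n a r w

/-- The permutation of the model. -/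
def tau (m n a r : ℕ) (w : Fin n → ℕ) : Perm (Y m n a r w) :=
  Equiv.sumCongr (Equiv.prodCongr (Equiv.refl _) (rot r)) (Equiv.refl _)

/-- The induced permutation of the blocks. -/
def pi0 (m n r : ℕ) : Perm (J m n r) :=
  Equiv.sumCongr (Equiv.prodCongr (Equiv.refl _) (rot r)) (Equiv.refl _)

/-- The block map of the model. -/
def gmap (m n a r : ℕ) (w : Fin n → ℕ) : Y m n a r w → J m n r
  | Sum.inl (Sum.inl (u, _), e) => Sum.inl (u, e)
  | Sum.inl (Sum.inr ⟨j, _⟩, _) => Sum.inr j
  | Sum.inr ⟨j, _⟩ => Sum.inr j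

theorem gmap_tau (y : Y m n a r w) : gmap m n a r w (tau m n a r w y) = pi0 m n r (gmap m n a r w y) := by
  rcases y with ⟨⟨u, v⟩ | ⟨j, x⟩, e⟩ | ⟨j, z⟩ <;> rfl

theorem card_fib_inl (u : Fin m) (e : ZMod r) :
    Nat.card {y : Y m n a r w // gmap m n a r w y = Sum.inl (u, e)} = a := by
  let φ : Fin a → {y : Y m n a r w // gmap m n a r w y = Sum.inl (u, e)} :=
    fun v => ⟨Sum.inl (Sum.inl (u, v), e), rfl⟩
  have hbij : Function.Bijective φ := by
    constructor
    · intro v v' h
      have h1 := congrArg Subtype.val h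
      simp only [φ, Sum.inl.injEq, Prod.mk.injEq, and_true] at h1
      exact h1.2
    · rintro ⟨y, hy⟩
      rcases y with ⟨⟨u', v⟩ | ⟨j, x⟩, e'⟩ | ⟨j, z⟩
      · have h2 : (u', e') = (u, e) := Sum.inl.inj hy
        obtain ⟨rfl, rfl⟩ := Prod.mk.inj h2
        exact ⟨v, rfl⟩
      · exact absurd hy (by simp [gmap])
      · exact absurd hy (by simp [gmap])
  rw [← Nat.card_congr (Equiv.ofBijective φ hbij), Nat.card_fin]

theorem card_fib_inr [NeZero r] (j : Fin n) (hw : r * w j ≤ a) :
    Nat.card {y : Y m n a r w // gmap m n a r w y = Sum.inr j} = a := by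
  let φ : (Fin (w j) × ZMod r) ⊕ Fin (a - r * w j) → {y : Y m n a r w // gmap m n a r w y = Sum.inr j} :=
    fun x => match x with
      | Sum.inl (x, e) => ⟨Sum.inl (Sum.inr ⟨j, x⟩, e), rfl⟩
      | Sum.inr z => ⟨Sum.inr ⟨j, z⟩, rfl⟩
  have hbij : Function.Bijective φ := by
    constructor
    · rintro (⟨x, e⟩ | z) (⟨x', e'⟩ | z') h <;> have h1 := congrArg Subtype.val h
      · simp only [φ, Sum.inl.injEq, Prod.mk.injEq, Sum.inr.injEq, Sigma.mk.injEq, heq_eq_eq, true_and] at h1
        rw [h1.1, h1.2]
      · simp [φ] at h1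
      · simp [φ] at h1
      · simp only [φ, Sum.inr.injEq, Sigma.mk.injEq, heq_eq_eq, true_and] at h1
        rw [h1]
    · rintro ⟨y, hy⟩
      rcases y with ⟨⟨u', v⟩ | ⟨j', x⟩, e'⟩ | ⟨j', z⟩
      · exact absurd hy (by simp [gmap])
      · have h2 : j' = j := Sum.inr.inj hy
        subst h2
        exact ⟨Sum.inl (x, e'), rfl⟩
      · have h2 : j' = j := Sum.inr.inj hy
        subst h2
        exact ⟨Sum.inr z, rfl⟩
  rw [← Nat.card_congr (Equiv.ofBijective φ hbij), Nat.card_sum, Nat.card_prod, Nat.card_fin,
    Nat.card_fin, Nat.card_zmod, mul_comm]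
  omega

theorem card_Y [NeZero r] : Fintype.card (Y m n a r w) =
    (m * a + ∑ j, w j) * r + ∑ j, (a - r * w j) := by
  simp [Y, B, F, Fintype.card_sum, Fintype.card_prod, Fintype.card_sigma, ZMod.card]

theorem tau_pow [NeZero r] (k : ℕ) (x : B m n a w) (e : ZMod r) :
    ((tau m n a r w) ^ k) (Sum.inl (x, e)) = Sum.inl (x, e + k) := by
  induction k with
  | zero => simp
  | succ k ih =>
    rw [pow_succ', Perm.mul_apply, ih]
    simp only [tau, Equiv.sumCongr_apply, Sum.map_inl, Equiv.prodCongr_apply, Prod.map, Equiv.refl_apply,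
      rot, Equiv.coe_addRight, Nat.cast_succ]
    congr 2
    ring

theorem tau_pow_inr (k : ℕ) (z : F n a r w) :
    ((tau m n a r w) ^ k) (Sum.inr z) = Sum.inr z := by
  induction k with
  | zero => simp
  | succ k ih =>
    rw [pow_succ', Perm.mul_apply, ih]
    rfl

theorem tau_pow_self [NeZero r] : (tau m n a r w) ^ r = 1 := by
  ext y : 1
  rcases y with ⟨x, e⟩ | z
  · rw [tau_pow]
    simp
  · rw [tau_pow_inr]
    rfl

theorem tau_support [NeZero r] [Fact r.Prime] :
    (tau m n a r w).support.card = r * (m * a + ∑ j, w j) := by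
  classical
  have hne : ∀ e : ZMod r, e + 1 ≠ e := by
    intro e h
    exact one_ne_zero (add_eq_left.1 h)
  have h1 : (tau m n a r w).support =
      (Finset.univ : Finset (B m n a w × ZMod r)).map ⟨Sum.inl, Sum.inl_injective⟩ := by
    ext y
    simp only [Perm.mem_support, Finset.mem_map, Finset.mem_univ, true_and,
      Function.Embedding.coeFn_mk]
    rcases y with ⟨x, e⟩ | z
    · constructor
      · intro _
        exact ⟨(x, e), rfl⟩
      · intro _ h
        have h2 : Sum.inl (x, e + 1) = (Sum.inl (x, e) : Y m n a r w) := h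
        have h3 := Sum.inl.inj h2
        exact hne e (Prod.mk.inj h3).2
    · constructor
      · intro h
        exact absurd rfl h
      · rintro ⟨x, hx⟩
        exact absurd hx (by simp)
  rw [h1, Finset.card_map, Finset.card_univ, Fintype.card_prod, ZMod.card]
  simp [B, Fintype.card_sum, Fintype.card_prod, Fintype.card_sigma]
  ring

end Model

/-- A permutation of prime order with the right number of cycles fixes a partition, given the
covering data. -/
theorem exists_partition {a b r t m n : ℕ} (hr : r.Prime) (h0 : r * m + n = b) (h1 : m * a ≤ t)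
    (h2 : t ≤ m * a + n * (a / r)) (ht : 1 ≤ t) (σ : Perm (Fin (a * b))) (hσ : orderOf σ = r)
    (hs : σ.support.card = r * t) :
    ∃ f : Fin (a * b) → Fin b, (∀ j : Fin b, Nat.card {x : Fin (a * b) // f x = j} = a) ∧
      ∃ π : Perm (Fin b), ∀ x : Fin (a * b), f (σ x) = π (f x) := by
  classical
  haveI hfact : Fact r.Prime := ⟨hr⟩
  haveI hne0 : NeZero r := ⟨hr.ne_zero⟩
  obtain ⟨c, hc⟩ : ∃ c, t = m * a + c := ⟨t - m * a, by omega⟩
  have hcle : c ≤ n * (a / r) := by omega
  obtain ⟨w, hw, hsum⟩ := exists_weights (a / r) n c hcle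
  have hwr : ∀ j, r * w j ≤ a := by
    intro j
    calc r * w j ≤ r * (a / r) := Nat.mul_le_mul_left r (hw j)
      _ ≤ a := Nat.mul_div_le a r
  -- cardinalities
  have hcY : Fintype.card (Y m n a r w) = Fintype.card (Fin (a * b)) := by
    rw [card_Y, Fintype.card_fin, hsum, ← hc]
    have h3 : ∑ j, (a - r * w j) + r * c = n * a := by
      rw [← hsum, Finset.mul_sum, ← Finset.sum_add_distrib]
      rw [Finset.sum_congr rfl (fun j _ => Nat.sub_add_cancel (hwr j))]
      simp
    have h4 : t * r = m * a * r + r * c := by rw [hc]; ring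
    rw [← h0, h4]
    have h5 : a * (r * m + n) = m * a * r + n * a := by ring
    rw [h5]
    omega
  have hcJ : Fintype.card (J m n r) = Fintype.card (Fin b) := by
    simp [J, Fintype.card_sum, Fintype.card_prod, ZMod.card, ← h0]
    ring
  let ε : Y m n a r w ≃ Fin (a * b) := Fintype.equivOfCardEq hcY
  let εJ : J m n r ≃ Fin b := Fintype.equivOfCardEq hcJ
  let τ' : Perm (Fin (a * b)) := ε.permCongr (tau m n a r w)
  have hτ1 : (tau m n a r w) ≠ 1 := by
    intro h
    have hs0 := tau_support (m := m) (n := n) (a := a) (r := r) (w := w)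
    rw [h, hsum, ← hc] at hs0
    simp at hs0
    rcases hs0 with h3 | h3
    · exact hr.ne_zero h3
    · omega
  have hordτ : orderOf (tau m n a r w) = r := orderOf_eq_prime (tau_pow_self w) hτ1
  have hordτ' : orderOf τ' = r := by
    rw [← hordτ]
    exact MulEquiv.orderOf_eq ε.permCongrHom _
  have hsuppτ' : τ'.support.card = r * t := by
    have h3 : τ'.support = (tau m n a r w).support.map ε.toEmbedding := by
      ext x
      simp only [Perm.mem_support, Finset.mem_map, Equiv.coe_toEmbedding, τ', Equiv.permCongr_apply]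
      constructor
      · intro h
        refine ⟨ε.symm x, ?_, by simp⟩
        intro h4
        apply h
        rw [h4]; simp
      · rintro ⟨y, hy, rfl⟩
        simp only [Equiv.symm_apply_apply]
        intro h4
        exact hy (ε.injective h4)
    rw [h3, Finset.card_map, tau_support, hsum, ← hc]
  have hconj : IsConj τ' σ := by
    rw [Perm.isConj_iff_cycleType_eq, cycleType_eq hr hordτ' hsuppτ', cycleType_eq hr hσ hs]
  obtain ⟨ρ, hρ⟩ := isConj_iff.1 hconj
  refine ⟨fun x => εJ (gmap m n a r w (ε.symm (ρ⁻¹ x))), ?_, εJ.permCongr (pi0 m n r), ?_⟩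
  · intro j
    have hfib : Nat.card {y : Y m n a r w // gmap m n a r w y = εJ.symm j} = a := by
      rcases hj : εJ.symm j with ⟨u, e⟩ | i
      · exact card_fib_inl w u e
      · exact card_fib_inr w i (hwr i)
    refine Eq.trans ?_ hfib
    apply Nat.card_congr
    refine (ρ.symm.trans ε.symm).subtypeEquiv ?_
    intro x
    simp only [Equiv.trans_apply]
    rw [Equiv.eq_symm_apply]
    rfl
  · intro x
    have h3 : ρ⁻¹ (σ x) = τ' (ρ⁻¹ x) := by
      rw [← hρ]
      simp
    simp only [Equiv.permCongr_apply, Equiv.symm_apply_apply]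
    rw [h3]
    simp only [τ', Equiv.permCongr_apply, Equiv.symm_apply_apply]
    rw [gmap_tau]

/-- Let a, b ≥ 2 and consider the symmetric group of degree a·b acting on the partitions of an (a·b)-set into b parts of size a (encoded as maps onto a b-element set all of whose fibres have a elements; a permutation fixes such a partition when it permutes the fibres). Let r be a prime dividing the number (ab)!/((a!)^b·b!) of such partitions, and let ℓ and k be the remainders of a and b modulo r. Then every permutation of order r fixes some such partition if and only if r ≤ a and one of the following holds: ℓ = 0; or k = 0 and ℓ = 1; or ℓ and k are non-zero, k·ℓ < r, and either b < r or (k + r)·ℓ ≤ k·a + r. -/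
theorem result (a b : ℕ) (ha : 2 ≤ a) (hb : 2 ≤ b) (r : ℕ) (hr : r.Prime)
    (hrd : r ∣ (a * b).factorial / (a.factorial ^ b * b.factorial)) :
    (∀ σ : Equiv.Perm (Fin (a * b)), orderOf σ = r →
        ∃ f : Fin (a * b) → Fin b, (∀ j : Fin b, Nat.card {x : Fin (a * b) // f x = j} = a) ∧
          ∃ π : Equiv.Perm (Fin b), ∀ x : Fin (a * b), f (σ x) = π (f x)) ↔
      (r ≤ a ∧ (a % r = 0 ∨ (b % r = 0 ∧ a % r = 1) ∨
        (a % r ≠ 0 ∧ b % r ≠ 0 ∧ (b % r) * (a % r) < r ∧ (b < r ∨ (b % r + r) * (a % r) ≤ (b % r) * a + r)))) := by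
  have hrab : r ≤ a * b := by
    have h1 := Nat.uniformBell_mul_eq b (n := a) (by omega)
    have h2 : a.factorial ^ b * b.factorial ≠ 0 := by positivity
    have h3 : (a * b).factorial / (a.factorial ^ b * b.factorial) = Nat.uniformBell b a := by
      rw [mul_comm a b, ← h1, mul_assoc]
      exact Nat.mul_div_cancel _ (Nat.pos_of_ne_zero h2)
    rw [h3] at hrd
    have h4 : r ∣ (a * b).factorial := by
      rw [mul_comm a b, ← h1, mul_assoc]
      exact Dvd.dvd.mul_right hrd _
    exact (hr.dvd_factorial).1 h4
  rw [← arith_iff ha hb hr hrab]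
  have hapos : 0 < a := by omega
  constructor
  · intro H t ht hrt
    obtain ⟨σ, hσ⟩ : ∃ σ : Perm (Fin (a * b)), σ.cycleType = Multiset.replicate t r := by
      rw [Perm.exists_with_cycleType_iff]
      constructor
      · rw [Multiset.sum_replicate, Fintype.card_fin, smul_eq_mul, mul_comm]
        exact hrt
      · intro x hx
        rw [Multiset.eq_of_mem_replicate hx]
        exact hr.two_le
    have hord : orderOf σ = r := by
      rw [← Perm.lcm_cycleType, hσ]
      obtain ⟨u, rfl⟩ : ∃ u, t = u + 1 := ⟨t - 1, by omega⟩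
      clear hσ hrt ht
      induction u with
      | zero => simp
      | succ u ih =>
        rw [Multiset.replicate_succ, Multiset.lcm_cons, ih]
        simp
    have hsupp : σ.support.card = r * t := by
      rw [← Perm.sum_cycleType, hσ, Multiset.sum_replicate, smul_eq_mul, mul_comm]
    obtain ⟨f, hf, π, hπ⟩ := H σ hord
    exact cov_of_partition hr hapos σ hord hsupp f hf π hπ
  · intro H σ hσ
    have hσr : σ ^ r = 1 := by rw [← hσ]; exact pow_orderOf_eq_one σ
    obtain ⟨t, ht⟩ := dvd_card_support hr hσr
    have hσ1 : σ ≠ 1 := by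
      rintro rfl
      rw [orderOf_one] at hσ
      exact hr.one_lt.ne hσ
    have ht1 : 1 ≤ t := by
      rcases Nat.eq_zero_or_pos t with h | h
      · exfalso
        rw [h, mul_zero, Finset.card_eq_zero] at ht
        exact hσ1 (Perm.support_eq_empty_iff.1 ht)
      · exact h
    have hle : r * t ≤ a * b := by
      rw [← ht]
      have := Finset.card_le_univ σ.support
      rwa [Fintype.card_fin] at this
    obtain ⟨m, n, h0, h1, h2⟩ := H t ht1 hle
    exact exists_partition hr h0 h1 h2 ht1 σ hσ ht

end Cfsg.Agent.S3575
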