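import Cfsg.Statements.S3599
import Mathlib

set_option autoImplicit false
open Cfsg
namespace Cfsg.Agent.S3599

open Finset

/-- the properties of a Frobenius group with elementary abelian kernel of exponent `a`,
complement of prime order `b`, and irreducible action. -/
structure FP (a b : ℕ) (F : Type) [Group F] : Prop where
  ord : ∀ g : F, orderOf g = 1 ∨ orderOf g = a ∨ orderOf g = b
  exA : ∃ g : F, orderOf g = a
  exB : ∃ g : F, orderOf g = b
  gen : ∀ H : Subgroup F, (∃ y ∈ H, orderOf y = a) → (∃ w ∈ H, orderOf w = b) → H = ⊤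
  nor : ∀ N : Subgroup F, N.Normal → N ≠ ⊥ → ∀ y : F, orderOf y = a → y ∈ N
  card : ∃ k, 1 ≤ k ∧ Nat.card F = a ^ k * b ∧ (k = 1 → b ∣ a - 1)

section Abstract
variable {M : Type} [CommGroup M]

/-- The semidirect product of `M` with the cyclic group generated by `σ`. -/
abbrev Fr (σ : MulAut M) : Type := M ⋊[(Subgroup.zpowers σ).subtype] (Subgroup.zpowers σ)

structure Good (a b : ℕ) (σ : MulAut M) : Prop where
  hexp : ∀ x : M, x ^ a = 1
  ho : orderOf σ = b
  hfpf : ∀ t ∈ Subgroup.zpowers σ, t ≠ 1 → ∀ x : M, t x = x → x = 1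
  hirr : ∀ S : Subgroup M, S ≠ ⊥ → (∀ x ∈ S, σ x ∈ S) → S = ⊤
  hne : Nontrivial M

variable {σ : MulAut M}

lemma pow_right (g : Fr σ) (n : ℕ) : (g ^ n).right = g.right ^ n := by
  have := map_pow (SemidirectProduct.rightHom (φ := (Subgroup.zpowers σ).subtype)) g n
  simpa using this

lemma pow_left (g : Fr σ) (n : ℕ) :
    (g ^ n).left = ∏ i ∈ range n, (((g.right : MulAut M) ^ i) g.left) := by
  induction n with
  | zero => simp
  | succ n ih =>
    rw [pow_succ, SemidirectProduct.mul_left, ih, prod_range_succ, pow_right]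
    simp

lemma conj_inl (g : Fr σ) (x : M) :
    g * SemidirectProduct.inl x * g⁻¹ = SemidirectProduct.inl ((g.right : MulAut M) x) := by
  ext
  · simp [SemidirectProduct.mul_left, SemidirectProduct.inv_left, mul_comm]
  · simp [SemidirectProduct.mul_right, SemidirectProduct.inv_right]

lemma eq_inl_of_right (g : Fr σ) (h : g.right = 1) : g = SemidirectProduct.inl g.left := by
  ext
  · simp
  · simp [h]

variable {a b : ℕ}

lemma right_pow_b (hG : Good a b σ) (t : Subgroup.zpowers σ) : t ^ b = 1 := by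
  have : orderOf t = orderOf (t : MulAut M) := Subgroup.orderOf_coe t |>.symm
  obtain ⟨t, ht⟩ := t
  obtain ⟨k, rfl⟩ := Subgroup.mem_zpowers_iff.mp ht
  ext
  simp only [Subgroup.coe_pow, Subgroup.coe_one]
  rw [← zpow_natCast, ← zpow_mul, mul_comm, zpow_mul, zpow_natCast, ← hG.ho, pow_orderOf_eq_one]
  simp

lemma pow_a_of_right_one (hG : Good a b σ) (g : Fr σ) (h : g.right = 1) : g ^ a = 1 := by
  ext
  · rw [pow_left, h]
    simp [hG.hexp]
  · rw [pow_right, h]; simp

lemma pow_b_of_right_ne (hG : Good a b σ) (g : Fr σ) (h : g.right ≠ 1) : g ^ b = 1 := by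
  ext
  · rw [pow_left]
    simp only [SemidirectProduct.one_left]
    have hne : (g.right : MulAut M) ≠ 1 := by
      intro h'; exact h (Subtype.ext h')
    apply hG.hfpf _ g.right.2 hne
    have hb : (g.right : MulAut M) ^ b = 1 := by
      have := right_pow_b hG g.right
      simpa using congrArg Subtype.val this
    rw [map_prod]
    have h1 : ∀ i, (g.right : MulAut M) (((g.right : MulAut M) ^ i) g.left)
        = ((g.right : MulAut M) ^ (i + 1)) g.left := by
      intro i; rw [pow_succ']; rfl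
    simp only [h1]
    have h2 := prod_range_succ (fun i => ((g.right : MulAut M) ^ i) g.left) b
    have h3 := prod_range_succ' (fun i => ((g.right : MulAut M) ^ i) g.left) b
    rw [h2, hb] at h3
    simpa using h3.symm
  · rw [pow_right, right_pow_b hG]; simp

lemma orderOf_cases (ha : a.Prime) (hb : b.Prime) (hG : Good a b σ) (g : Fr σ) :
    orderOf g = 1 ∨ orderOf g = a ∨ orderOf g = b := by
  by_cases h : g.right = 1
  · have := orderOf_dvd_of_pow_eq_one (pow_a_of_right_one hG g h)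
    rcases (Nat.dvd_prime ha).mp this with h | h
    · exact Or.inl h
    · exact Or.inr (Or.inl h)
  · have := orderOf_dvd_of_pow_eq_one (pow_b_of_right_ne hG g h)
    rcases (Nat.dvd_prime hb).mp this with h | h
    · exact Or.inl h
    · exact Or.inr (Or.inr h)

lemma right_eq_one_of_order (ha : a.Prime) (hb : b.Prime) (hab : a ≠ b) (hG : Good a b σ)
    (g : Fr σ) (h : orderOf g = a) : g.right = 1 := by
  by_contra hne
  have := orderOf_dvd_of_pow_eq_one (pow_b_of_right_ne hG g hne)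
  rw [h] at this
  exact hab ((Nat.prime_dvd_prime_iff_eq ha hb).mp this)

lemma right_ne_one_of_order (ha : a.Prime) (hb : b.Prime) (hab : a ≠ b) (hG : Good a b σ)
    (g : Fr σ) (h : orderOf g = b) : g.right ≠ 1 := by
  intro hne
  have := orderOf_dvd_of_pow_eq_one (pow_a_of_right_one hG g hne)
  rw [h] at this
  exact hab ((Nat.prime_dvd_prime_iff_eq hb ha).mp this).symm

lemma exA (ha : a.Prime) (hG : Good a b σ) : ∃ g : Fr σ, orderOf g = a := by
  have := hG.hne
  obtain ⟨x, hx⟩ := exists_ne (1 : M)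
  haveI := Fact.mk ha
  refine ⟨SemidirectProduct.inl x, orderOf_eq_prime ?_ ?_⟩
  · rw [← map_pow, hG.hexp, map_one]
  · intro h
    exact hx (SemidirectProduct.inl_injective (by simpa using h))

lemma exB (hG : Good a b σ) : ∃ g : Fr σ, orderOf g = b := by
  refine ⟨SemidirectProduct.inr ⟨σ, Subgroup.mem_zpowers σ⟩, ?_⟩
  rw [orderOf_injective _ SemidirectProduct.inr_injective, ← hG.ho]
  exact Subgroup.orderOf_mk _ _

lemma zpow_right (g : Fr σ) (n : ℤ) : (g ^ n).right = g.right ^ n := by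
  have := map_zpow (SemidirectProduct.rightHom (φ := (Subgroup.zpowers σ).subtype)) g n
  simpa using this

lemma zpowers_eq (hb : b.Prime) (hG : Good a b σ) (t : Subgroup.zpowers σ) (ht : t ≠ 1) :
    Subgroup.zpowers (t : MulAut M) = Subgroup.zpowers σ := by
  haveI := Fact.mk hb
  have h1 : orderOf (t : MulAut M) = b := by
    apply orderOf_eq_prime
    · simpa using congrArg Subtype.val (right_pow_b hG t)
    · intro h; exact ht (Subtype.ext h)
  haveI : NeZero b := ⟨hb.ne_zero⟩
  have hfin : Finite (Subgroup.zpowers σ) :=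
    Nat.finite_of_card_ne_zero (by rw [Nat.card_zpowers, hG.ho]; exact hb.ne_zero)
  apply Subgroup.eq_of_le_of_card_ge
  · rw [Subgroup.zpowers_le]; exact t.2
  · rw [Nat.card_zpowers, Nat.card_zpowers, h1, hG.ho]

lemma gen_of (ha : a.Prime) (hb : b.Prime) (hab : a ≠ b) (hG : Good a b σ)
    (H : Subgroup (Fr σ)) (hy : ∃ y ∈ H, orderOf y = a) (hw : ∃ w ∈ H, orderOf w = b) :
    H = ⊤ := by
  obtain ⟨y, hyH, hy⟩ := hy
  obtain ⟨w, hwH, hw⟩ := hw
  have hyr := right_eq_one_of_order ha hb hab hG y hy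
  have hwr := right_ne_one_of_order ha hb hab hG w hw
  have hzp := zpowers_eq hb hG w.right hwr
  -- σ is a power of the right part of `w`
  have hσ : ∃ k : ℤ, (((w.right : MulAut M)) ^ k) = σ := by
    have : σ ∈ Subgroup.zpowers (w.right : MulAut M) := by
      rw [hzp]; exact Subgroup.mem_zpowers σ
    exact Subgroup.mem_zpowers_iff.mp this
  have hcap : H.comap (SemidirectProduct.inl (φ := (Subgroup.zpowers σ).subtype)) = ⊤ := by
    apply hG.hirr
    · intro hbot
      have hy1 : y.left ∈ H.comap (SemidirectProduct.inl (φ := (Subgroup.zpowers σ).subtype)) := by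
        rw [Subgroup.mem_comap, ← eq_inl_of_right y hyr]; exact hyH
      rw [hbot, Subgroup.mem_bot] at hy1
      have : y = 1 := by
        rw [eq_inl_of_right y hyr, hy1, map_one]
      rw [this, orderOf_one] at hy
      exact ha.one_lt.ne hy
    · intro x hx
      rw [Subgroup.mem_comap] at hx ⊢
      obtain ⟨k, hk⟩ := hσ
      have h1 := conj_inl (w ^ k) x
      rw [zpow_right] at h1
      have h2 : ((w.right ^ k : Subgroup.zpowers σ) : MulAut M) = σ := by
        have h3 : ((w.right ^ k : Subgroup.zpowers σ) : MulAut M) = (w.right : MulAut M) ^ k := by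
          simp
        rw [h3, hk]
      rw [h2] at h1
      rw [← h1]
      exact H.mul_mem (H.mul_mem (H.zpow_mem hwH k) hx) (H.inv_mem (H.zpow_mem hwH k))
  have hinl : ∀ x : M, SemidirectProduct.inl x ∈ H := by
    intro x
    have : x ∈ H.comap (SemidirectProduct.inl (φ := (Subgroup.zpowers σ).subtype)) := by
      rw [hcap]; trivial
    exact this
  have hinr : SemidirectProduct.inr w.right ∈ H := by
    have h1 : SemidirectProduct.inr w.right
        = (SemidirectProduct.inl w.left)⁻¹ * w := by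
      rw [eq_inv_mul_iff_mul_eq]
      exact SemidirectProduct.inl_left_mul_inr_right w
    rw [h1]
    exact H.mul_mem (H.inv_mem (hinl _)) hwH
  rw [eq_top_iff]
  intro g _
  rw [← SemidirectProduct.inl_left_mul_inr_right g]
  refine H.mul_mem (hinl _) ?_
  have : (g.right : MulAut M) ∈ Subgroup.zpowers (w.right : MulAut M) := by
    rw [hzp]; exact g.right.2
  obtain ⟨j, hj⟩ := Subgroup.mem_zpowers_iff.mp this
  have h3 : g.right = w.right ^ j := by
    apply Subtype.ext
    simpa using hj.symm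
  rw [h3, map_zpow]
  exact H.zpow_mem hinr j

lemma nor_of (ha : a.Prime) (hb : b.Prime) (hab : a ≠ b) (hG : Good a b σ)
    (N : Subgroup (Fr σ)) (hN : N.Normal) (hne : N ≠ ⊥) (y : Fr σ) (hy : orderOf y = a) :
    y ∈ N := by
  -- a nontrivial element of `M` in `N`
  have h1 : ∃ z : M, z ≠ 1 ∧ SemidirectProduct.inl z ∈ N := by
    obtain ⟨⟨n, hnN⟩, hn1⟩ := Subgroup.ne_bot_iff_exists_ne_one.mp hne
    have hn1 : n ≠ 1 := fun h => hn1 (Subtype.ext h)
    by_cases hr : n.right = 1
    · refine ⟨n.left, ?_, ?_⟩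
      · intro h
        apply hn1
        rw [eq_inl_of_right n hr, h, map_one]
      · rw [← eq_inl_of_right n hr]; exact hnN
    · have := hG.hne
      obtain ⟨u, hu⟩ := exists_ne (1 : M)
      refine ⟨(n.right : MulAut M) u * u⁻¹, ?_, ?_⟩
      · intro h
        have h2 : (n.right : MulAut M) u = u := by
          rwa [mul_inv_eq_one] at h
        exact hu (hG.hfpf _ n.right.2 (fun h' => hr (Subtype.ext h')) u h2)
      · rw [map_mul, map_inv, ← conj_inl]
        have h3 : n * SemidirectProduct.inl u * n⁻¹ * (SemidirectProduct.inl u)⁻¹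
            = n * (SemidirectProduct.inl u * n⁻¹ * (SemidirectProduct.inl u)⁻¹) := by group
        rw [h3]
        exact N.mul_mem hnN (hN.conj_mem _ (N.inv_mem hnN) _)
  obtain ⟨z, hz, hzN⟩ := h1
  have hcap : N.comap (SemidirectProduct.inl (φ := (Subgroup.zpowers σ).subtype)) = ⊤ := by
    apply hG.hirr
    · intro hbot
      have : z ∈ N.comap (SemidirectProduct.inl (φ := (Subgroup.zpowers σ).subtype)) := hzN
      rw [hbot, Subgroup.mem_bot] at this
      exact hz this
    · intro x hx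
      rw [Subgroup.mem_comap] at hx ⊢
      have h2 := conj_inl (SemidirectProduct.inr (φ := (Subgroup.zpowers σ).subtype) ⟨σ, Subgroup.mem_zpowers σ⟩) x
      simp only [SemidirectProduct.right_inr] at h2
      rw [← h2]
      exact hN.conj_mem _ hx _
  rw [eq_inl_of_right y (right_eq_one_of_order ha hb hab hG y hy)]
  have : y.left ∈ N.comap (SemidirectProduct.inl (φ := (Subgroup.zpowers σ).subtype)) := by
    rw [hcap]; trivial
  exact this

lemma card_of [Finite M] (ha : a.Prime) (hb : b.Prime) (hab : a ≠ b) (hG : Good a b σ) :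
    ∃ k, 1 ≤ k ∧ Nat.card (Fr σ) = a ^ k * b ∧ (k = 1 → b ∣ a - 1) := by
  haveI := Fact.mk ha
  haveI := Fact.mk hb
  have := hG.hne
  have hp : IsPGroup a M := fun x => ⟨1, by simpa using hG.hexp x⟩
  obtain ⟨k, hk⟩ := IsPGroup.iff_card.mp hp
  have hk1 : 1 ≤ k := by
    rcases Nat.eq_zero_or_pos k with rfl | h
    · rw [pow_zero] at hk
      exact absurd hk (Finite.one_lt_card (α := M)).ne'
    · exact h
  refine ⟨k, hk1, ?_, ?_⟩
  · rw [Nat.card_congr SemidirectProduct.equivProd, Nat.card_prod, hk, Nat.card_zpowers, hG.ho]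
  · rintro rfl
    rw [pow_one] at hk
    classical
    haveI := Fintype.ofFinite M
    let f : Function.End M := (σ : M → M)
    have hf : ∀ (n : ℕ) (x : M), (f ^ n) x = (σ ^ n) x := by
      intro n x
      induction n generalizing x with
      | zero => rfl
      | succ n ih =>
        rw [pow_succ, pow_succ]
        exact ih (σ x)
    have hpow : f ^ (b ^ 1) = 1 := by
      funext x
      rw [hf, pow_one, ← hG.ho, pow_orderOf_eq_one]
      rfl
    have hmod := Equiv.Perm.card_fixedPoints_modEq hpow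
    have hσ1 : σ ≠ 1 := by
      intro h
      have h2 := hG.ho
      rw [h, orderOf_one] at h2
      exact hb.one_lt.ne h2
    have hfix : Fintype.card (Function.fixedPoints f) = 1 := by
      rw [Fintype.card_eq_one_iff]
      refine ⟨⟨1, map_one σ⟩, ?_⟩
      rintro ⟨x, hx⟩
      apply Subtype.ext
      exact hG.hfpf σ (Subgroup.mem_zpowers σ) hσ1 x hx
    rw [hfix, ← Nat.card_eq_fintype_card, hk] at hmod
    exact (Nat.modEq_iff_dvd' ha.one_lt.le).mp hmod.symm

theorem fp_of [Finite M] (ha : a.Prime) (hb : b.Prime) (hab : a ≠ b) (hG : Good a b σ) :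
    FP a b (Fr σ) where
  ord := orderOf_cases ha hb hG
  exA := exA ha hG
  exB := exB hG
  gen := gen_of ha hb hab hG
  nor := nor_of ha hb hab hG
  card := card_of ha hb hab hG

end Abstract

section Concrete

/-- multiplication by a unit, as an automorphism of the additive group of a field. -/
def mulU (K : Type) [Field K] : Kˣ →* MulAut (Multiplicative K) where
  toFun u :=
    { toFun := fun x => Multiplicative.ofAdd ((u : K) * Multiplicative.toAdd x)
      invFun := fun x => Multiplicative.ofAdd (((u⁻¹ : Kˣ) : K) * Multiplicative.toAdd x)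
      left_inv := fun x => by simp
      right_inv := fun x => by simp
      map_mul' := fun x y => by
        simp only [toAdd_mul, mul_add, ofAdd_add] }
  map_one' := by
    ext x
    simp
  map_mul' u v := by
    ext x
    simp [mul_assoc]

lemma mulU_apply (K : Type) [Field K] (u : Kˣ) (x : Multiplicative K) :
    mulU K u x = Multiplicative.ofAdd ((u : K) * Multiplicative.toAdd x) := rfl

theorem good_of_field (K : Type) [Field K] [Finite K] (a b : ℕ) [CharP K a] (ha : a.Prime)
    (hb : b.Prime) (ζ : Kˣ) (hζ : orderOf ζ = b) :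
    ∃ (M : Type) (_ : CommGroup M) (_ : Finite M) (σ : MulAut M), Good a b σ := by
  haveI := Fact.mk ha
  haveI := Fact.mk hb
  let τ := mulU K ζ
  have hτx : ∀ (n : ℕ) (x : Multiplicative K), (τ ^ n) x = mulU K (ζ ^ n) x := by
    intro n x; rw [map_pow]
  -- choose a minimal invariant subgroup
  let C : Set (Subgroup (Multiplicative K)) := {V | V ≠ ⊥ ∧ ∀ x ∈ V, τ x ∈ V}
  have hCne : C.Nonempty := ⟨⊤, top_ne_bot, fun _ _ => trivial⟩
  obtain ⟨V, hV, hVmin⟩ := Set.exists_min_image C (fun V => Nat.card V) (Set.toFinite _) hCne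
  obtain ⟨hVne, hVinv⟩ := hV
  let f : V →* V := (τ.toMonoidHom.comp V.subtype).codRestrict V (fun x => hVinv x x.2)
  have hfinj : Function.Injective f := by
    intro x y hxy
    have h1 : τ x = τ y := congrArg Subtype.val hxy
    exact Subtype.ext (τ.injective h1)
  let σ : MulAut V := MulEquiv.ofBijective f (Finite.injective_iff_bijective.mp hfinj)
  have hσ : ∀ x : V, ((σ x : V) : Multiplicative K) = τ x := fun x => rfl
  have hσn : ∀ (n : ℕ) (x : V), (((σ ^ n) x : V) : Multiplicative K) = (τ ^ n) x := by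
    intro n x
    induction n generalizing x with
    | zero => rfl
    | succ n ih =>
      rw [pow_succ, pow_succ]
      exact ih (σ x)
  have hne : Nontrivial V := (Subgroup.nontrivial_iff_ne_bot V).mpr hVne
  have hζ1 : ζ ≠ 1 := by
    intro h; rw [h, orderOf_one] at hζ; exact hb.one_lt.ne hζ
  have hfree : ∀ (n : ℕ) (x : V), ζ ^ n ≠ 1 → (σ ^ n) x = x → x = 1 := by
    intro n x hn hx
    have h1 := hσn n x
    rw [hx, hτx, mulU_apply] at h1
    have h2 : Multiplicative.toAdd (x : Multiplicative K) = ((ζ ^ n : Kˣ) : K) * Multiplicative.toAdd (x : Multiplicative K) := by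
      conv_lhs => rw [h1]
      rfl
    have h3 : (((ζ ^ n : Kˣ) : K) - 1) * Multiplicative.toAdd (x : Multiplicative K) = 0 := by
      rw [sub_mul, one_mul, ← h2, sub_self]
    rcases mul_eq_zero.mp h3 with h4 | h4
    · exfalso
      apply hn
      apply Units.ext
      simpa [sub_eq_zero] using h4
    · apply Subtype.ext
      exact h4
  have hoσ : orderOf σ = b := by
    apply orderOf_eq_prime
    · ext x
      rw [hσn, hτx, ← hζ, pow_orderOf_eq_one, map_one]
      rfl
    · intro h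
      obtain ⟨x, hx⟩ := exists_ne (1 : V)
      refine hx (hfree 1 x (by simpa using hζ1) ?_)
      rw [pow_one, h]; rfl
  refine ⟨V, inferInstance, inferInstance, σ, ?_⟩
  refine ⟨?_, hoσ, ?_, ?_, hne⟩
  · -- exponent
    intro x
    apply Subtype.ext
    have h1 : (x : Multiplicative K) ^ a = 1 := by
      apply Multiplicative.toAdd.injective
      rw [toAdd_pow, nsmul_eq_mul, CharP.cast_eq_zero, zero_mul]
      rfl
    simpa using h1
  · -- fixed-point-freeness
    intro t ht ht1 x hx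
    obtain ⟨n, rfl⟩ : ∃ n : ℕ, σ ^ n = t := by
      have := (mem_powers_iff_mem_zpowers).mpr ht
      exact this
    refine hfree n x ?_ hx
    intro h
    apply ht1
    have h2 : orderOf σ ∣ n := by
      rw [hoσ, ← hζ]
      exact orderOf_dvd_of_pow_eq_one h
    exact orderOf_dvd_iff_pow_eq_one.mp h2
  · -- irreducibility
    intro S hS hSinv
    have hmem : S.map V.subtype ∈ C := by
      constructor
      · intro h
        apply hS
        rw [Subgroup.map_eq_bot_iff_of_injective _ V.subtype_injective] at h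
        exact h
      · rintro _ ⟨x, hx, rfl⟩
        exact ⟨σ x, hSinv x hx, rfl⟩
    have hle : S.map V.subtype ≤ V := by
      rintro _ ⟨x, hx, rfl⟩
      exact x.2
    have heq := Subgroup.eq_of_le_of_card_ge hle (hVmin _ hmem)
    rw [eq_top_iff]
    intro x _
    have : (x : Multiplicative K) ∈ S.map V.subtype := by rw [heq]; exact x.2
    obtain ⟨y, hy, hyx⟩ := this
    have : y = x := Subtype.ext hyx
    rwa [← this]

theorem exists_good (a b : ℕ) (ha : a.Prime) (hb : b.Prime) (hab : a ≠ b) :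
    ∃ (M : Type) (_ : CommGroup M) (_ : Finite M) (σ : MulAut M), Good a b σ := by
  classical
  haveI := Fact.mk ha
  haveI := Fact.mk hb
  have hbne : b - 1 ≠ 0 := by have := hb.two_le; omega
  have hcard : Nat.card (GaloisField a (b - 1)) = a ^ (b - 1) := GaloisField.card a (b - 1) hbne
  haveI hKfin : Finite (GaloisField a (b - 1)) :=
    Nat.finite_of_card_ne_zero (by rw [hcard]; exact pow_ne_zero _ ha.ne_zero)
  haveI := Fintype.ofFinite (GaloisField a (b - 1))
  have hcop : Nat.Coprime a b := (Nat.coprime_primes ha hb).mpr hab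
  have hdvd : b ∣ Nat.card (GaloisField a (b - 1))ˣ := by
    rw [Nat.card_eq_fintype_card, Fintype.card_units, ← Nat.card_eq_fintype_card, hcard]
    have := Nat.ModEq.pow_totient hcop
    rw [Nat.totient_prime hb] at this
    exact (Nat.modEq_iff_dvd' (Nat.one_le_pow _ _ ha.pos)).mp this.symm
  obtain ⟨ζ, hζ⟩ := exists_prime_orderOf_dvd_card' b hdvd
  exact good_of_field (GaloisField a (b - 1)) a b ha hb ζ hζ

theorem exists_fp (a b : ℕ) (ha : a.Prime) (hb : b.Prime) (hab : a ≠ b) :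
    ∃ (F : Type) (_ : Group F) (_ : Finite F), FP a b F := by
  obtain ⟨M, _, _, σ, hG⟩ := exists_good a b ha hb hab
  exact ⟨Fr σ, inferInstance, Finite.of_equiv _ SemidirectProduct.equivProd.symm, fp_of ha hb hab hG⟩

end Concrete

section Product

variable {ι : Type} [Fintype ι] [DecidableEq ι]

structure Sys (A B : ι → ℕ) (W : ι → Type) [∀ j, Group (W j)] : Prop where
  pA : ∀ j, (A j).Prime
  pB : ∀ j, (B j).Prime
  hAB : ∀ j, A j ≠ B j
  hc : ∀ j j', j ≠ j' → A j ≠ A j' ∧ A j ≠ B j' ∧ B j ≠ A j' ∧ B j ≠ B j'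
  fp : ∀ j, FP (A j) (B j) (W j)

variable {A B : ι → ℕ} {W : ι → Type} [∀ j, Group (W j)]

lemma cop_val (hS : Sys A B W) {j j' : ι} (h : j ≠ j') {m n : ℕ}
    (hm : m = 1 ∨ m = A j ∨ m = B j) (hn : n = 1 ∨ n = A j' ∨ n = B j') : Nat.Coprime m n := by
  obtain ⟨h1, h2, h3, h4⟩ := hS.hc j j' h
  rcases hm with rfl | rfl | rfl
  · simp
  · rcases hn with rfl | rfl | rfl
    · simp
    · exact (Nat.coprime_primes (hS.pA _) (hS.pA _)).mpr h1
    · exact (Nat.coprime_primes (hS.pA _) (hS.pB _)).mpr h2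
  · rcases hn with rfl | rfl | rfl
    · simp
    · exact (Nat.coprime_primes (hS.pB _) (hS.pA _)).mpr h3
    · exact (Nat.coprime_primes (hS.pB _) (hS.pB _)).mpr h4

lemma orderOf_pi (hS : Sys A B W) [∀ j, Finite (W j)] (g : ∀ j, W j) :
    orderOf g = ∏ j, orderOf (g j) := by
  apply Nat.dvd_antisymm
  · apply orderOf_dvd_of_pow_eq_one
    funext j
    simp only [Pi.pow_apply, Pi.one_apply]
    exact orderOf_dvd_iff_pow_eq_one.mp (Finset.dvd_prod_of_mem _ (Finset.mem_univ j))
  · have key : ∀ S : Finset ι, ∏ j ∈ S, orderOf (g j) ∣ orderOf g := by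
      intro S
      induction S using Finset.induction_on with
      | empty => simp
      | insert j S hj ih =>
        rw [Finset.prod_insert hj]
        apply Nat.Coprime.mul_dvd_of_dvd_of_dvd
        · apply Nat.Coprime.prod_right
          intro i hi
          have hne : j ≠ i := fun h => hj (h ▸ hi)
          exact cop_val hS hne ((hS.fp j).ord _) ((hS.fp i).ord _)
        · exact orderOf_map_dvd (Pi.evalMonoidHom W j) g
        · exact ih
    exact key Finset.univ

/-- the target spectrum. -/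
def Om (A B : ι → ℕ) : Set ℕ :=
  {m : ℕ | ∃ c : ι → ℕ, (∀ j, c j = 1 ∨ c j = A j ∨ c j = B j) ∧ m = ∏ j, c j}

lemma range_pi (hS : Sys A B W) [∀ j, Finite (W j)] :
    Set.range (orderOf : (∀ j, W j) → ℕ) = Om A B := by
  ext m
  constructor
  · rintro ⟨g, rfl⟩
    exact ⟨fun j => orderOf (g j), fun j => (hS.fp j).ord _, orderOf_pi hS g⟩
  · rintro ⟨c, hc, rfl⟩
    have h : ∀ j, ∃ x : W j, orderOf x = c j := by
      intro j
      rcases hc j with h | h | h
      · exact ⟨1, by rw [orderOf_one, h]⟩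
      · rw [h]; exact (hS.fp j).exA
      · rw [h]; exact (hS.fp j).exB
    choose g hg using h
    exact ⟨g, by rw [orderOf_pi hS g]; exact Finset.prod_congr rfl (fun j _ => hg j)⟩

lemma mem_Om (j : ι) (q : ℕ) (hq : q = A j ∨ q = B j) : q ∈ Om A B := by
  refine ⟨fun i => if i = j then q else 1, ?_, ?_⟩
  · intro i
    by_cases h : i = j
    · subst h; simp only [if_true]; exact Or.inr hq
    · simp [h]
  · simp

lemma lift_elem (hS : Sys A B W) [∀ j, Finite (W j)] (H : Subgroup (∀ j, W j)) (N : Subgroup H)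
    [N.Normal] (hR : Set.range (orderOf : (H ⧸ N) → ℕ) = Om A B) (j : ι) (q : ℕ)
    (hq : q = A j ∨ q = B j) :
    ∃ y : W j, orderOf y = q ∧ ∃ h : Pi.mulSingle j y ∈ H, (⟨_, h⟩ : H) ∉ N := by
  have hqp : q.Prime := by
    rcases hq with rfl | rfl
    · exact hS.pA j
    · exact hS.pB j
  have hqO : q ∈ Set.range (orderOf : (H ⧸ N) → ℕ) := by
    rw [hR]; exact mem_Om j q hq
  obtain ⟨xb, hxb⟩ := hqO
  obtain ⟨x, rfl⟩ := QuotientGroup.mk_surjective xb
  let d := ∏ i ∈ Finset.univ.erase j, orderOf ((x : ∀ j, W j) i)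
  have hqd : Nat.Coprime q d := by
    apply Nat.Coprime.prod_right
    intro i hi
    have hne : j ≠ i := (Finset.ne_of_mem_erase hi).symm
    exact cop_val hS hne (Or.inr hq) ((hS.fp i).ord _)
  have hdvd : q ∣ orderOf ((x : ∀ j, W j) j) := by
    have h1 : q ∣ orderOf x := by
      rw [← hxb]
      exact orderOf_map_dvd (QuotientGroup.mk' N) x
    rw [← Subgroup.orderOf_coe, orderOf_pi hS, ← Finset.mul_prod_erase _ _ (Finset.mem_univ j)] at h1
    exact hqd.dvd_of_dvd_mul_right h1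
  have hnj : orderOf ((x : ∀ j, W j) j) = q := by
    rcases (hS.fp j).ord ((x : ∀ j, W j) j) with h | h | h
    · rw [h, Nat.dvd_one] at hdvd
      exact absurd hdvd hqp.one_lt.ne'
    · rw [h] at hdvd ⊢
      exact ((Nat.prime_dvd_prime_iff_eq hqp (hS.pA j)).mp hdvd).symm
    · rw [h] at hdvd ⊢
      exact ((Nat.prime_dvd_prime_iff_eq hqp (hS.pB j)).mp hdvd).symm
  have hpow : Pi.mulSingle j (((x : ∀ j, W j) j) ^ d) = ((x ^ d : H) : ∀ j, W j) := by
    funext i
    by_cases hi : i = j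
    · subst hi; simp
    · rw [Pi.mulSingle_eq_of_ne hi]
      simp only [Subgroup.coe_pow, Pi.pow_apply]
      symm
      apply orderOf_dvd_iff_pow_eq_one.mp
      exact Finset.dvd_prod_of_mem _ (Finset.mem_erase.mpr ⟨hi, Finset.mem_univ i⟩)
  refine ⟨((x : ∀ j, W j) j) ^ d, ?_, ?_, ?_⟩
  · rw [Nat.Coprime.orderOf_pow (by rw [hnj]; exact hqd), hnj]
  · rw [hpow]; exact (x ^ d).2
  · intro hN
    have h2 : (x ^ d : H) ∈ N := by
      have : (⟨_, (hpow ▸ (x ^ d).2 : Pi.mulSingle j (((x : ∀ j, W j) j) ^ d) ∈ H)⟩ : H) = x ^ d :=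
        Subtype.ext hpow
      rwa [this] at hN
    have h3 : ((x : H ⧸ N)) ^ d = 1 := by
      rw [← QuotientGroup.mk_pow]
      exact (QuotientGroup.eq_one_iff _).mpr h2
    have h4 := orderOf_dvd_of_pow_eq_one h3
    rw [hxb] at h4
    exact hqp.one_lt.ne' (Nat.Coprime.eq_one_of_dvd hqd h4)

lemma support_of_prime (hS : Sys A B W) [∀ j, Finite (W j)] (g : ∀ j, W j) (r : ℕ)
    (hr : r.Prime) (hg : orderOf g = r) :
    ∃ j₀, g j₀ ≠ 1 ∧ g = Pi.mulSingle j₀ (g j₀) := by
  have hne : g ≠ 1 := by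
    intro h; rw [h, orderOf_one] at hg; exact hr.one_lt.ne hg
  obtain ⟨j₀, hj₀⟩ := Function.ne_iff.mp hne
  refine ⟨j₀, hj₀, ?_⟩
  have h0 : orderOf (g j₀) ∣ r := by
    rw [← hg]; exact orderOf_map_dvd (Pi.evalMonoidHom W j₀) g
  have h1 : orderOf (g j₀) = r := by
    rcases (Nat.dvd_prime hr).mp h0 with h | h
    · exact absurd (orderOf_eq_one_iff.mp h) hj₀
    · exact h
  funext i
  by_cases hi : i = j₀
  · subst hi; simp
  · rw [Pi.mulSingle_eq_of_ne hi]
    have h2 : orderOf (g i) ∣ r := by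
      rw [← hg]; exact orderOf_map_dvd (Pi.evalMonoidHom W i) g
    have h3 : Nat.Coprime (orderOf (g i)) (orderOf (g j₀)) :=
      cop_val hS hi ((hS.fp i).ord _) ((hS.fp j₀).ord _)
    rw [h1] at h3
    exact orderOf_eq_one_iff.mp (Nat.Coprime.eq_one_of_dvd h3 h2)

theorem critical (hS : Sys A B W) [∀ j, Finite (W j)] (H : Subgroup (∀ j, W j)) (N : Subgroup H)
    [hN : N.Normal] (hne : H ≠ ⊤ ∨ N ≠ ⊥) :
    Set.range (orderOf : (H ⧸ N) → ℕ) ≠ Om A B := by
  intro hR
  have hlift := lift_elem hS H N hR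
  have hmem : ∀ j (y : W j), Pi.mulSingle j y ∈ H := by
    intro j
    have h1 : H.comap (MonoidHom.mulSingle W j) = ⊤ := by
      apply (hS.fp j).gen
      · obtain ⟨y, hy, h, -⟩ := hlift j (A j) (Or.inl rfl)
        exact ⟨y, h, hy⟩
      · obtain ⟨y, hy, h, -⟩ := hlift j (B j) (Or.inr rfl)
        exact ⟨y, h, hy⟩
    intro y
    have : y ∈ H.comap (MonoidHom.mulSingle W j) := by rw [h1]; trivial
    exact this
  have htop : H = ⊤ := by
    rw [eq_top_iff]
    intro g _
    have key : ∀ (S : Finset ι) (g : ∀ j, W j), (∀ i, i ∉ S → g i = 1) → g ∈ H := by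
      intro S
      induction S using Finset.induction_on with
      | empty =>
        intro g hg
        have : g = 1 := funext (fun i => hg i (by simp))
        rw [this]; exact H.one_mem
      | insert j S hj ih =>
        intro g hg
        have h1 : (Pi.mulSingle j (g j))⁻¹ * g ∈ H := by
          apply ih
          intro i hi
          by_cases hij : i = j
          · subst hij; simp
          · have := hg i (by simp [hij, hi])
            simp [Pi.mulSingle_eq_of_ne hij, this]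
        have h2 := H.mul_mem (hmem j (g j)) h1
        simpa using h2
    exact key Finset.univ g (by simp)
  have hNne : N ≠ ⊥ := by
    rcases hne with h | h
    · exact absurd htop h
    · exact h
  obtain ⟨⟨n, hnN⟩, hn1⟩ := Subgroup.ne_bot_iff_exists_ne_one.mp hNne
  have hn1' : n ≠ 1 := fun h => hn1 (Subtype.ext h)
  -- pass to an element of prime order
  have hord : orderOf n ≠ 1 := fun h => hn1' (orderOf_eq_one_iff.mp h)
  obtain ⟨r, hr, hrd⟩ := Nat.exists_prime_and_dvd hord
  haveI := Fact.mk hr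
  let n₁ : H := n ^ (orderOf n / r)
  have hn₁N : n₁ ∈ N := N.pow_mem hnN _
  have hn₁ord : orderOf n₁ = r := orderOf_pow_orderOf_div (orderOf_pos n).ne' hrd
  have hn₁ord' : orderOf (n₁ : ∀ j, W j) = r := by rw [Subgroup.orderOf_coe, hn₁ord]
  obtain ⟨j₀, hj₀, hsupp⟩ := support_of_prime hS _ r hr hn₁ord'
  -- the `j₀`-part of `N`
  let N₀ : Subgroup (W j₀) := (N.map H.subtype).comap (MonoidHom.mulSingle W j₀)
  have hN₀ : N₀.Normal := by
    refine ⟨fun y hy u => ?_⟩
    obtain ⟨z, hz, hzy⟩ := hy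
    refine ⟨⟨Pi.mulSingle j₀ u, hmem j₀ u⟩ * z * ⟨Pi.mulSingle j₀ u, hmem j₀ u⟩⁻¹,
      hN.conj_mem _ hz _, ?_⟩
    have hzy' : (z : ∀ j, W j) = Pi.mulSingle j₀ y := hzy
    simp only [Subgroup.coe_subtype, Subgroup.coe_mul, Subgroup.coe_inv, hzy']
    rw [MonoidHom.mulSingle_apply, Pi.mulSingle_mul, Pi.mulSingle_mul, Pi.mulSingle_inv]
  have hN₀ne : N₀ ≠ ⊥ := by
    intro hbot
    have h1 : (n₁ : ∀ j, W j) j₀ ∈ N₀ := by
      refine ⟨n₁, hn₁N, ?_⟩
      exact hsupp
    rw [hbot, Subgroup.mem_bot] at h1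
    exact hj₀ h1
  obtain ⟨y, hy, hyH, hyN⟩ := hlift j₀ (A j₀) (Or.inl rfl)
  have hy₀ := (hS.fp j₀).nor N₀ hN₀ hN₀ne y hy
  obtain ⟨z, hz, hzy⟩ := hy₀
  apply hyN
  have : (⟨_, hyH⟩ : H) = z := Subtype.ext hzy.symm
  rwa [this]

end Product

section Final

variable {s : ℕ} {p : Fin s → Fin 2 → ℕ}
  {T : Fin s → Fin 2 → Type} [∀ j i, Group (T j i)] [∀ j i, Finite (T j i)]

lemma ne_succ : ∀ i : Fin 2, i ≠ i + 1 := by decide

lemma sys_of (hp : ∀ j i, (p j i).Prime) (hinj : ∀ j i j' i', p j i = p j' i' → j = j' ∧ i = i')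
    (hT : ∀ j i, FP (p j i) (p j (i + 1)) (T j i)) (e : Fin s → Fin 2) :
    Sys (fun j => p j (e j)) (fun j => p j (e j + 1)) (fun j => T j (e j)) where
  pA j := hp _ _
  pB j := hp _ _
  hAB j := fun h => ne_succ _ (hinj _ _ _ _ h).2
  hc j j' hne := by
    refine ⟨?_, ?_, ?_, ?_⟩ <;> exact fun h => hne (hinj _ _ _ _ h).1
  fp j := hT j (e j)

lemma om_eq (e : Fin s → Fin 2) :
    Om (fun j => p j (e j)) (fun j => p j (e j + 1))
      = {m : ℕ | ∃ c : Fin s → ℕ, (∀ j, c j = 1 ∨ c j = p j 0 ∨ c j = p j 1) ∧ m = ∏ j, c j} := by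
  have key : ∀ (c : Fin s → ℕ) (j : Fin s),
      (c j = 1 ∨ c j = p j (e j) ∨ c j = p j (e j + 1)) ↔ (c j = 1 ∨ c j = p j 0 ∨ c j = p j 1) := by
    intro c j
    have h : e j = 0 ∨ e j = 1 := by omega
    rcases h with h | h
    · rw [h]; simp
    · rw [h]
      have h2 : (1 + 1 : Fin 2) = 0 := rfl
      rw [h2]
      tauto
  ext m
  constructor
  · rintro ⟨c, hc, rfl⟩
    exact ⟨c, fun j => (key c j).mp (hc j), rfl⟩
  · rintro ⟨c, hc, rfl⟩
    exact ⟨c, fun j => (key c j).mpr (hc j), rfl⟩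

lemma card_split (hp : ∀ j i, (p j i).Prime)
    (hinj : ∀ j i j' i', p j i = p j' i' → j = j' ∧ i = i')
    (hT : ∀ j i, FP (p j i) (p j (i + 1)) (T j i)) (e : Fin s → Fin 2) (j : Fin s) :
    ∃ R, Nat.card (∀ i, T i (e i)) = Nat.card (T j (e j)) * R ∧
      Nat.Coprime (p j 0) R ∧ Nat.Coprime (p j 1) R := by
  refine ⟨∏ i ∈ Finset.univ.erase j, Nat.card (T i (e i)), ?_, ?_, ?_⟩
  · rw [Nat.card_pi, Finset.mul_prod_erase _ (fun i => Nat.card (T i (e i))) (Finset.mem_univ j)]
  all_goals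
    apply Nat.Coprime.prod_right
    intro i hi
    have hne : j ≠ i := (Finset.ne_of_mem_erase hi).symm
    obtain ⟨k, -, hk, -⟩ := (hT i (e i)).card
    rw [hk]
    apply Nat.Coprime.mul_right
    · apply Nat.Coprime.pow_right
      exact (Nat.coprime_primes (hp _ _) (hp _ _)).mpr (fun h => hne (hinj _ _ _ _ h).1)
    · exact (Nat.coprime_primes (hp _ _) (hp _ _)).mpr (fun h => hne (hinj _ _ _ _ h).1)

lemma card_ne (hp : ∀ j i, (p j i).Prime)
    (hinj : ∀ j i j' i', p j i = p j' i' → j = j' ∧ i = i')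
    (hT : ∀ j i, FP (p j i) (p j (i + 1)) (T j i)) (e₁ e₂ : Fin s → Fin 2) (j : Fin s)
    (h₁ : e₁ j = 0) (h₂ : e₂ j = 1) :
    Nat.card (∀ i, T i (e₁ i)) ≠ Nat.card (∀ i, T i (e₂ i)) := by
  intro heq
  obtain ⟨R₁, hR₁, hu₁, hv₁⟩ := card_split hp hinj hT e₁ j
  obtain ⟨R₂, hR₂, hu₂, hv₂⟩ := card_split hp hinj hT e₂ j
  obtain ⟨k, hk1, hk, hkd⟩ := (hT j 0).card
  obtain ⟨k', hk'1, hk', hkd'⟩ := (hT j 1).card
  have h01 : (0 + 1 : Fin 2) = 1 := rfl
  have h11 : (1 + 1 : Fin 2) = 0 := rfl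
  rw [h01] at hk hkd
  rw [h11] at hk' hkd'
  rw [hR₁, hR₂, h₁, h₂, hk, hk'] at heq
  set u := p j 0 with hu
  set v := p j 1 with hv
  have hup : u.Prime := hp _ _
  have hvp : v.Prime := hp _ _
  have huv : Nat.Coprime u v :=
    (Nat.coprime_primes hup hvp).mpr (fun h => by
      have := (hinj _ _ _ _ h).2
      exact absurd this (by decide))
  have hk_eq : k = 1 := by
    have h1 : u ^ k ∣ u := by
      have h2 : u ^ k ∣ v ^ k' * u * R₂ := by
        rw [← heq]
        exact Dvd.intro _ (by rw [mul_assoc])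
      have h3 : Nat.Coprime (u ^ k) R₂ := Nat.Coprime.pow_left _ hu₂
      have h4 := h3.dvd_of_dvd_mul_right h2
      have h5 : Nat.Coprime (u ^ k) (v ^ k') := Nat.Coprime.pow _ _ huv
      exact h5.dvd_of_dvd_mul_left h4
    have h2 : u ^ k ∣ u ^ 1 := by rwa [pow_one]
    have h3 := (Nat.pow_dvd_pow_iff_le_right hup.one_lt).mp h2
    omega
  have hk'_eq : k' = 1 := by
    have h1 : v ^ k' ∣ v := by
      have h2 : v ^ k' ∣ u ^ k * v * R₁ := by
        rw [heq]
        exact Dvd.intro _ (by rw [mul_assoc])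
      have h3 : Nat.Coprime (v ^ k') R₁ := Nat.Coprime.pow_left _ hv₁
      have h4 := h3.dvd_of_dvd_mul_right h2
      have h5 : Nat.Coprime (v ^ k') (u ^ k) := Nat.Coprime.pow _ _ huv.symm
      exact h5.dvd_of_dvd_mul_left h4
    have h2 : v ^ k' ∣ v ^ 1 := by rwa [pow_one]
    have h3 := (Nat.pow_dvd_pow_iff_le_right hvp.one_lt).mp h2
    omega
  have h1 := hkd hk_eq
  have h2 := hkd' hk'_eq
  have hu2 := hup.two_le
  have hv2 := hvp.two_le
  have h3 := Nat.le_of_dvd (by omega) h1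
  have h4 := Nat.le_of_dvd (by omega) h2
  omega

theorem main_of_T (hp : ∀ j i, (p j i).Prime)
    (hinj : ∀ j i j' i', p j i = p j' i' → j = j' ∧ i = i')
    (hT : ∀ j i, FP (p j i) (p j (i + 1)) (T j i)) :
    ∃ (G : Fin (2 ^ s) → Type) (_ : ∀ a, Group (G a)) (_ : ∀ a, Fintype (G a)),
      (∀ a b, a ≠ b → ¬ Nonempty (G a ≃* G b)) ∧
      ∀ a, Set.range (orderOf : (G a) → ℕ) = {m : ℕ | ∃ c : Fin s → ℕ, (∀ j, c j = 1 ∨ c j = p j 0 ∨ c j = p j 1) ∧ m = ∏ j, c j} ∧
      ∀ (H : Subgroup (G a)) (N : Subgroup ↥H) [N.Normal], (H ≠ ⊤ ∨ N ≠ ⊥) → Set.range (orderOf : (↥H ⧸ N) → ℕ) ≠ {m : ℕ | ∃ c : Fin s → ℕ, (∀ j, c j = 1 ∨ c j = p j 0 ∨ c j = p j 1) ∧ m = ∏ j, c j} := by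
  classical
  let E : Fin (2 ^ s) ≃ (Fin s → Fin 2) := (finFunctionFinEquiv (m := 2) (n := s)).symm
  refine ⟨fun x => ∀ j, T j (E x j), fun x => inferInstance, fun x => Fintype.ofFinite _, ?_, ?_⟩
  · intro x y hxy ⟨φ⟩
    have hne : E x ≠ E y := fun h => hxy (E.injective h)
    obtain ⟨j, hj⟩ := Function.ne_iff.mp hne
    have hc := Nat.card_congr φ.toEquiv
    have h : E x j = 0 ∨ E x j = 1 := by omega
    have h' : E y j = 0 ∨ E y j = 1 := by omega
    rcases h with h | h <;> rcases h' with h' | h'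
    · exact hj (h.trans h'.symm)
    · exact card_ne hp hinj hT (E x) (E y) j h h' hc
    · exact card_ne hp hinj hT (E y) (E x) j h' h hc.symm
    · exact hj (h.trans h'.symm)
  · intro x
    have hS := sys_of hp hinj hT (E x)
    refine ⟨?_, ?_⟩
    · rw [← om_eq (E x)]
      exact range_pi hS
    · intro H N _ hne
      rw [← om_eq (E x)]
      exact critical hS H N hne

end Final

theorem result (s : ℕ) (hs : 1 ≤ s) (p : Fin s → Fin 2 → ℕ)
    (hp : ∀ j i, (p j i).Prime) (hinj : ∀ j i j' i', p j i = p j' i' → j = j' ∧ i = i') :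
    ∃ (G : Fin (2 ^ s) → Type) (_ : ∀ a, Group (G a)) (_ : ∀ a, Fintype (G a)),
      (∀ a b, a ≠ b → ¬ Nonempty (G a ≃* G b)) ∧
      ∀ a, Set.range (orderOf : (G a) → ℕ) = {m : ℕ | ∃ c : Fin s → ℕ, (∀ j, c j = 1 ∨ c j = p j 0 ∨ c j = p j 1) ∧ m = ∏ j, c j} ∧
      ∀ (H : Subgroup (G a)) (N : Subgroup ↥H) [N.Normal], (H ≠ ⊤ ∨ N ≠ ⊥) → Set.range (orderOf : (↥H ⧸ N) → ℕ) ≠ {m : ℕ | ∃ c : Fin s → ℕ, (∀ j, c j = 1 ∨ c j = p j 0 ∨ c j = p j 1) ∧ m = ∏ j, c j} := by
  have h := fun j i => exists_fp (p j i) (p j (i + 1)) (hp j i) (hp j (i + 1))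
    (fun h => ne_succ i (hinj _ _ _ _ h).2)
  choose T gT fT hT using h
  exact main_of_T hp hinj hT

end Cfsg.Agent.S3599
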