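import Cfsg.Statements.S3600
import Cfsg.Agent.S3433
import Cfsg.Agent.Lib.CritA6.Final

set_option autoImplicit false
open Cfsg

namespace Cfsg.Agent.S3600

open Cfsg.Agent.Lib.CritA6 Cfsg.Agent.Lib.Compute.GF4

/-- A finite group is critical with respect to a set Ω of natural numbers when its set of element orders is Ω while no proper section has Ω as its set of element orders. A finite group critical with respect to {1, 2, 3, 4, 5} (the set of element orders of the alternating group of degree 6) is isomorphic either to the alternating group of degree 6 or to the affine group F² ⋊ SL(2,F) over the field F with four elements (realised as the matrices of SL(3,F) with last row (0, 0, 1)). -/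
theorem result {G : Type*} [Group G] [Finite G]
    (hcrit : Set.range (orderOf : G → ℕ) = ({1, 2, 3, 4, 5} : Set ℕ) ∧
      ∀ (H : Subgroup G) (N : Subgroup ↥H) [N.Normal], (H ≠ ⊤ ∨ N ≠ ⊥) → Set.range (orderOf : (↥H ⧸ N) → ℕ) ≠ ({1, 2, 3, 4, 5} : Set ℕ)) :
    Nonempty (G ≃* alternatingGroup (Fin 6)) ∨
      ∃ (F : Type) (_ : Field F) (_ : Fintype F), Fintype.card F = 4 ∧
        Nonempty (G ≃* ↥(Subgroup.closure {M : Matrix.SpecialLinearGroup (Fin 3) F |
          (M : Matrix (Fin 3) (Fin 3) F) 2 0 = 0 ∧ (M : Matrix (Fin 3) (Fin 3) F) 2 1 = 0 ∧ (M : Matrix (Fin 3) (Fin 3) F) 2 2 = 1})) := by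
  obtain ⟨hω, hc⟩ := hcrit
  have h' : Set.range (orderOf : G → ℕ) = {k : ℕ | 1 ≤ k ∧ k ≤ 5} := by
    rw [hω]
    ext k
    simp only [Set.mem_insert_iff, Set.mem_singleton_iff, Set.mem_ofPred_eq]
    omega
  rcases Cfsg.Agent.S3433.result h' with h | ⟨N, hN, hab, ⟨e⟩⟩
  · exact Or.inl h
  · right
    have hc1 : ∀ x ∈ N, ∀ y ∈ N, x * y = y * x := by
      intro x hx y hy
      haveI := hab.1
      have := mul_comm' (⟨x, hx⟩ : N) ⟨y, hy⟩
      exact congrArg Subtype.val this
    have hc2 : ∀ x ∈ N, x * x = 1 := by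
      intro x hx
      rw [← pow_two]
      exact hab.2 x hx
    obtain ⟨e'⟩ := equiv_aff_of_crit hω hc N hc1 hc2 e
    refine ⟨F4, F4.instField, F4.instFintype, F4.card_eq, ?_⟩
    rw [closure_eq_aff]
    exact ⟨e'⟩

end Cfsg.Agent.S3600
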