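import Cfsg.Statements.S3619
import Mathlib

set_option autoImplicit false
open Cfsg

namespace Cfsg.Agent.S3619

open MulAction SubMulAction
open scoped Pointwise

/-- A quasiprimitive group with a primitive Jordan set is primitive. -/
theorem isPreprimitive_of_quasi_of_jordan {G Ω : Type*} [Group G] [MulAction G Ω] [FaithfulSMul G Ω]
    (hqp : ∀ N : Subgroup G, N.Normal → N ≠ ⊥ → MulAction.IsPretransitive ↥N Ω)
    (Γ : Set Ω) (hΓ1 : ∃ a ∈ Γ, ∃ b ∈ Γ, a ≠ b)
    (hJ : MulAction.IsPretransitive ↥(fixingSubgroup G Γᶜ) ↥(SubMulAction.ofFixingSubgroup G Γᶜ))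
    (hJp : MulAction.IsPreprimitive ↥(fixingSubgroup G Γᶜ) ↥(SubMulAction.ofFixingSubgroup G Γᶜ)) :
    MulAction.IsPreprimitive G Ω := by
  classical
  obtain ⟨a, ha, b, hb, hab⟩ := hΓ1
  have hΓ : ∀ x, x ∈ Γ → x ∈ ofFixingSubgroup G Γᶜ := fun x hx => by
    rw [mem_ofFixingSubgroup_iff]; simpa using hx
  -- the Jordan group moves `a` to any point of `Γ`
  have hmove : ∀ x ∈ Γ, ∀ y ∈ Γ, ∃ h ∈ fixingSubgroup G Γᶜ, h • x = y := by
    intro x hx y hy
    obtain ⟨h, hh⟩ := hJ.exists_smul_eq ⟨x, hΓ x hx⟩ ⟨y, hΓ y hy⟩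
    exact ⟨h, h.2, congrArg Subtype.val hh⟩
  have hfix : ∀ h ∈ fixingSubgroup G Γᶜ, ∀ x, x ∉ Γ → h • x = x := by
    intro h hh x hx
    exact (mem_fixingSubgroup_iff G).mp hh x hx
  -- the Jordan group is non trivial
  have hH : fixingSubgroup G Γᶜ ≠ ⊥ := by
    intro hbot
    obtain ⟨h, hh, hhab⟩ := hmove a ha b hb
    rw [hbot, Subgroup.mem_bot] at hh
    subst hh
    exact hab (by simpa using hhab)
  have hGtrans : IsPretransitive G Ω := by
    have hne : (⊤ : Subgroup G) ≠ ⊥ := by
      intro h
      exact hH (eq_bot_iff.mpr (fun x _ => by rw [← h]; trivial))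
    have := hqp ⊤ inferInstance hne
    refine ⟨fun x y => ?_⟩
    obtain ⟨g, hg⟩ := this.exists_smul_eq x y
    exact ⟨g, hg⟩
  refine { toIsPretransitive := hGtrans, isTrivialBlock_of_isBlock := ?_ }
  intro B hB
  by_cases hsub : B.Subsingleton
  · exact Or.inl hsub
  right
  by_contra hne
  -- translate `B` so that it contains `a`
  obtain ⟨p, hp⟩ : B.Nonempty := by
    rcases B.eq_empty_or_nonempty with h | h
    · exact absurd (by rw [h]; exact Set.subsingleton_empty) hsub
    · exact h
  obtain ⟨g, hg⟩ := hGtrans.exists_smul_eq p a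
  set C : Set Ω := g • B with hC
  have hCb0 : IsBlock G C := hB.translate g
  have hCb := isBlock_iff_smul_eq_or_disjoint.mp hCb0
  have haC : a ∈ C := ⟨p, hp, hg⟩
  have hCne : C ≠ Set.univ := by
    intro h
    apply hne
    have : g⁻¹ • C = B := by rw [hC, inv_smul_smul]
    rw [← this, h, Set.smul_set_univ]
  have hCsub : ¬ C.Subsingleton := by
    intro h
    exact hsub (by
      intro x hx y hy
      exact MulAction.injective g (h ⟨x, hx, rfl⟩ ⟨y, hy, rfl⟩))
  by_cases hΓC : Γ ⊆ C
  · -- `Γ ⊆ C`: the Jordan group lies in the kernel of the action on the translates of `C`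
    let K : Subgroup G := (stabilizer G C).normalCore
    have hKn : K.Normal := by infer_instance
    have hHK : fixingSubgroup G Γᶜ ≤ K := by
      intro h hh
      intro u
      rw [mem_stabilizer_iff]
      -- show `(u h u⁻¹) • C = C`; equivalently `h • (u⁻¹ • C) = u⁻¹ • C`
      have key : h • (u⁻¹ • C) = u⁻¹ • C := by
        by_cases hd : Disjoint (u⁻¹ • C) Γ
        · ext x
          constructor
          · rintro ⟨y, hy, rfl⟩
            have hyΓ : y ∉ Γ := fun hyΓ => Set.disjoint_left.mp hd hy hyΓ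
            change h • y ∈ _
            rw [hfix h hh y hyΓ]; exact hy
          · intro hx
            have hxΓ : x ∉ Γ := fun hxΓ => Set.disjoint_left.mp hd hx hxΓ
            exact ⟨x, hx, hfix h hh x hxΓ⟩
        · -- `u⁻¹ • C` meets `Γ ⊆ C`, hence is `C`
          rw [Set.not_disjoint_iff] at hd
          obtain ⟨x, hx, hxΓ⟩ := hd
          have hCC : u⁻¹ • C = C := by
            rcases hCb u⁻¹ with h1 | h1
            · exact h1
            · exact absurd (hΓC hxΓ) (Set.disjoint_left.mp h1 hx)
          rw [hCC]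
          have hha : h • a ∈ Γ := by
            by_contra hcon
            have := hfix h hh (h • a) hcon
            have h3 : h • a = a := by
              have := smul_left_cancel h this
              exact this
            rw [h3] at hcon
            exact hcon ha
          have hmem : h • a ∈ h • C := ⟨a, haC, rfl⟩
          rcases hCb h with h1 | h1
          · exact h1
          · exact absurd (hΓC hha) (Set.disjoint_left.mp h1 hmem)
      change (u * h * u⁻¹) • C = C
      rw [mul_smul, mul_smul, key, smul_inv_smul]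
    have hKbot : K ≠ ⊥ := by
      intro hK
      apply hH
      rw [eq_bot_iff, ← hK]
      exact hHK
    have hKt := hqp K hKn hKbot
    apply hCne
    rw [Set.eq_univ_iff_forall]
    intro y
    obtain ⟨k, hk⟩ := hKt.exists_smul_eq a y
    have hkS : (k : G) ∈ stabilizer G C := by
      have := k.2 1
      simpa using this
    rw [mem_stabilizer_iff] at hkS
    rw [← hk]
    change (k : G) • a ∈ C
    rw [← hkS]
    exact ⟨a, haC, rfl⟩
  · -- otherwise `C ∩ Γ` is a proper block of the Jordan group, hence a singleton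
    obtain ⟨c, hcΓ, hcC⟩ := Set.not_subset.mp hΓC
    have hblock : IsBlock (fixingSubgroup G Γᶜ) ((ofFixingSubgroup_equivariantMap G Γᶜ) ⁻¹' C) :=
      IsBlock.preimage _ hCb0
    rcases hJp.isTrivialBlock_of_isBlock hblock with h1 | h1
    · -- `C ∩ Γ = {a}`: take `δ ∈ C`, `δ ≠ a`, then `δ ∉ Γ` is fixed by the Jordan group
      obtain ⟨d, hd, hda⟩ : ∃ d ∈ C, d ≠ a := by
        by_contra hcon
        push Not at hcon
        exact hCsub (fun x hx y hy => by rw [hcon x hx, hcon y hy])
      have hdΓ : d ∉ Γ := by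
        intro hdΓ
        have := h1 (x := ⟨d, hΓ d hdΓ⟩) (y := ⟨a, hΓ a ha⟩) hd haC
        exact hda (congrArg Subtype.val this)
      obtain ⟨h, hh, hhac⟩ := hmove a ha c hcΓ
      have hhd : h • d = d := hfix h hh d hdΓ
      have hmem : d ∈ h • C := ⟨d, hd, hhd⟩
      rcases hCb h with h2 | h2
      · apply hcC
        rw [← h2, ← hhac]
        exact ⟨a, haC, rfl⟩
      · exact absurd hd (Set.disjoint_left.mp h2 hmem)
    · -- `Γ ⊆ C`, contrary to the choice of `c`
      apply hcC
      have : (⟨c, hΓ c hcΓ⟩ : ofFixingSubgroup G Γᶜ) ∈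
          (ofFixingSubgroup_equivariantMap G Γᶜ) ⁻¹' C := by rw [h1]; trivial
      exact this

/-- Let G act faithfully on a finite set in such a way that every non-trivial normal subgroup of G is transitive (G is quasiprimitive). Let Γ be a subset with more than one point and not the whole set, such that the pointwise stabilizer of the complement of Γ acts transitively on Γ (a Jordan set). If that pointwise stabilizer acts primitively on Γ, then G is k-fold transitive where k is one more than the number of points outside Γ (the Jordan set is a trivial one). -/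
theorem result {G Ω : Type*} [Group G] [Finite G] [MulAction G Ω] [FaithfulSMul G Ω] [Finite Ω]
    (hqp : ∀ N : Subgroup G, N.Normal → N ≠ ⊥ → MulAction.IsPretransitive ↥N Ω)
    (Γ : Set Ω) (hΓ1 : 1 < Γ.ncard) (hΓ2 : Γ.ncard < Nat.card Ω)
    (hJ : MulAction.IsPretransitive ↥(fixingSubgroup G Γᶜ) ↥(SubMulAction.ofFixingSubgroup G Γᶜ))
    (hJp : MulAction.IsPreprimitive ↥(fixingSubgroup G Γᶜ) ↥(SubMulAction.ofFixingSubgroup G Γᶜ)) :
    MulAction.IsMultiplyPretransitive G Ω (Nat.card Ω - Γ.ncard + 1) := by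
  classical
  obtain ⟨a, ha, b, hb, hab⟩ := (Set.one_lt_ncard (Set.toFinite Γ)).mp hΓ1
  have hprim : MulAction.IsPreprimitive G Ω :=
    isPreprimitive_of_quasi_of_jordan hqp Γ ⟨a, ha, b, hb, hab⟩ hJ hJp
  have hcard : Γ.ncard + Γᶜ.ncard = Nat.card Ω := Set.ncard_add_ncard_compl Γ
  obtain ⟨n, hn⟩ : ∃ n, Γᶜ.ncard = n + 1 := ⟨Γᶜ.ncard - 1, by omega⟩
  have h := hprim.isMultiplyPreprimitive hn (by omega) hJp
  have hk : Nat.card Ω - Γ.ncard + 1 = n + 2 := by omega
  rw [hk]
  exact h.isMultiplyPretransitive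

end Cfsg.Agent.S3619
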