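import Cfsg.Statements.S3620
import Cfsg.Agent.Lib.Transfer.Marggraf

set_option autoImplicit false
open Cfsg

namespace Cfsg.Agent.S3620

open MulAction Cfsg.Agent.Lib.Transfer.Marggraf

/-- Let G act faithfully on a finite set in such a way that every non-trivial normal subgroup of G is transitive (G is quasiprimitive). Let Γ be a subset with more than one point and fewer than half of the points, such that the pointwise stabilizer of the complement of Γ acts transitively on Γ. Then G induces every even permutation of the set (G is the alternating or the symmetric group). -/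
theorem result {G Ω : Type*} [Group G] [Finite G] [MulAction G Ω] [FaithfulSMul G Ω] [Fintype Ω] [DecidableEq Ω]
    (hqp : ∀ N : Subgroup G, N.Normal → N ≠ ⊥ → MulAction.IsPretransitive ↥N Ω)
    (Γ : Set Ω) (hΓ1 : 1 < Γ.ncard) (hΓ2 : 2 * Γ.ncard < Fintype.card Ω)
    (hJ : MulAction.IsPretransitive ↥(fixingSubgroup G Γᶜ) ↥(SubMulAction.ofFixingSubgroup G Γᶜ)) :
    ∀ σ : Equiv.Perm Ω, Equiv.Perm.sign σ = 1 → ∃ x : G, (MulAction.toPerm x : Equiv.Perm Ω) = σ := by
  classical
  let Δ : Finset Ω := Γ.toFinset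
  have hΔmem : ∀ x, x ∈ Δ ↔ x ∈ Γ := fun x => Set.mem_toFinset
  have hΔc : Δ.card = Γ.ncard := (Set.ncard_eq_toFinset_card' Γ).symm
  have hJ' : ∀ x ∈ Δ, ∀ y ∈ Δ, ∃ g : G, (∀ z, z ∉ Δ → g • z = z) ∧ g • x = y := by
    intro x hx y hy
    have hx' : x ∈ SubMulAction.ofFixingSubgroup G Γᶜ := by
      rw [SubMulAction.mem_ofFixingSubgroup_iff]
      simpa using (hΔmem x).mp hx
    have hy' : y ∈ SubMulAction.ofFixingSubgroup G Γᶜ := by
      rw [SubMulAction.mem_ofFixingSubgroup_iff]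
      simpa using (hΔmem y).mp hy
    obtain ⟨g, hg⟩ := hJ.exists_smul_eq ⟨x, hx'⟩ ⟨y, hy'⟩
    refine ⟨g.1, ?_, congrArg Subtype.val hg⟩
    intro z hz
    exact (mem_fixingSubgroup_iff G).mp g.2 z (by
      show z ∉ Γ
      exact fun h => hz ((hΔmem z).mpr h))
  have hΔ1 : 2 ≤ Δ.card := by omega
  have hΔ2 : 2 * Δ.card < Fintype.card Ω := by omega
  by_cases hprim : IsPreprimitive G Ω
  · exact main_primitive hprim Δ hΔ1 hΔ2 hJ'
  exfalso
  obtain ⟨x₀, hx₀, x₁, hx₁, hx₀₁⟩ := Finset.one_lt_card.mp (show 1 < Δ.card by omega)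
  obtain ⟨g₀, -, hg₀⟩ := hJ' x₀ hx₀ x₁ hx₁
  have hGne : (⊤ : Subgroup G) ≠ ⊥ := by
    intro h
    have : g₀ ∈ (⊥ : Subgroup G) := h ▸ Subgroup.mem_top g₀
    rw [Subgroup.mem_bot] at this
    rw [this, one_smul] at hg₀
    exact hx₀₁ hg₀
  have htrans : IsPretransitive G Ω := by
    have := hqp ⊤ inferInstance hGne
    refine ⟨fun x y => ?_⟩
    obtain ⟨g, hg⟩ := this.exists_smul_eq x y
    exact ⟨g.1, hg⟩
  haveI : Nontrivial Ω := ⟨⟨x₀, x₁, hx₀₁⟩⟩
  let a : Ω := x₀
  have hnc : ¬ IsCoatom (stabilizer G a) := fun h =>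
    hprim ((isCoatom_stabilizer_iff_preprimitive (G := G) (X := Ω) a).mp h)
  have hstop : stabilizer G a ≠ ⊤ := by
    intro h
    obtain ⟨g, hg⟩ := htrans.exists_smul_eq x₀ x₁
    have hmem : g ∈ stabilizer G a := h ▸ Subgroup.mem_top g
    rw [mem_stabilizer_iff] at hmem
    exact hx₀₁ (hmem.symm.trans hg)
  obtain ⟨L, hL1, hL2⟩ : ∃ L : Subgroup G, stabilizer G a < L ∧ L ≠ ⊤ := by
    by_contra hcon
    push Not at hcon
    exact hnc ⟨hstop, fun b hb => hcon b hb⟩
  obtain ⟨K, hK, hLK⟩ : ∃ K : Subgroup G, IsCoatom K ∧ L ≤ K :=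
    (eq_top_or_exists_le_coatom L).resolve_left hL2
  have hstabK : stabilizer G a < K := lt_of_lt_of_le hL1 hLK
  haveI : Nontrivial (G ⧸ K) := QuotientGroup.nontrivial_iff.mpr hK.1
  have hprim' : IsPreprimitive G (G ⧸ K) := by
    refine (isCoatom_stabilizer_iff_preprimitive (G := G) (X := G ⧸ K) ((1 : G) : G ⧸ K)).mp ?_
    rw [stabilizer_quotient]
    exact hK
  have hex : ∀ p : Ω, ∃ g : G, g • a = p := fun p => htrans.exists_smul_eq a p
  choose γ hγ using hex
  let q : Ω → G ⧸ K := fun p => ((γ p : G) : G ⧸ K)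
  have hcoset : ∀ g : G, q (g • a) = ((g : G) : G ⧸ K) := by
    intro g
    show ((γ (g • a) : G) : G ⧸ K) = (g : G ⧸ K)
    rw [QuotientGroup.eq]
    apply hstabK.le
    rw [mem_stabilizer_iff, mul_smul, inv_smul_eq_iff, hγ]
  have hq : ∀ (g : G) (p : Ω), q (g • p) = g • q p := by
    intro g p
    conv_lhs => rw [← hγ p, ← mul_smul, hcoset]
    rfl
  have hsurj : Function.Surjective q := by
    intro z
    obtain ⟨g, rfl⟩ := QuotientGroup.mk_surjective z
    exact ⟨g • a, hcoset g⟩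
  have hfaith : ∀ g : G, (∀ z : G ⧸ K, g • z = z) → ∀ p : Ω, g • p = p := by
    intro g hg p
    let N : Subgroup G := (toPermHom G (G ⧸ K)).ker
    have hgN : g ∈ N := by
      rw [MonoidHom.mem_ker]
      ext z
      exact hg z
    by_cases hN : N = ⊥
    · have : g = 1 := by
        rw [hN, Subgroup.mem_bot] at hgN
        exact hgN
      rw [this, one_smul]
    · exfalso
      have hNt := hqp N inferInstance hN
      have hconst : ∀ p p' : Ω, q p = q p' := by
        intro p p'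
        obtain ⟨n, hn⟩ := hNt.exists_smul_eq p p'
        have hn1 : ∀ z : G ⧸ K, n.1 • z = z := by
          intro z
          have := n.2
          rw [MonoidHom.mem_ker] at this
          exact congrArg (fun t : Equiv.Perm (G ⧸ K) => t z) this
        have h2 : q ((n.1 : G) • p) = q p' := congrArg q hn
        rw [hq, hn1] at h2
        exact h2
      obtain ⟨z₁, z₂, hz⟩ := exists_pair_ne (G ⧸ K)
      obtain ⟨p₁, rfl⟩ := hsurj z₁
      obtain ⟨p₂, rfl⟩ := hsurj z₂
      exact hz (hconst p₁ p₂)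
  obtain ⟨k, hkK, hkS⟩ : ∃ k ∈ K, k ∉ stabilizer G a := by
    obtain ⟨k, hk1, hk2⟩ := SetLike.exists_of_lt hstabK
    exact ⟨k, hk1, hk2⟩
  classical
  letI : Fintype (G ⧸ K) := Fintype.ofFinite _
  refine imprim_contra (G := G) q hq hsurj htrans hprim' hfaith ⟨a, k • a, ?_, ?_⟩ Δ hΔ1 hΔ2 hJ'
  · intro h
    apply hkS
    rw [mem_stabilizer_iff]
    exact h.symm
  · have h1 : q a = ((1 : G) : G ⧸ K) := by
      have := hcoset 1
      rwa [one_smul] at this
    rw [hcoset, h1, eq_comm, QuotientGroup.eq]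
    simpa using hkK

end Cfsg.Agent.S3620
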