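import Cfsg.Statements.S3622
import Mathlib

set_option autoImplicit false

namespace Cfsg.Agent.S3622

/-- If a point stabilizer of a permutation group is (m−1)-closed (m ≥ 2), then the group is m-closed. -/
theorem result {Ω : Type*} [Finite Ω] (G : Subgroup (Equiv.Perm Ω)) (m : ℕ) (hm : 2 ≤ m) (α : Ω)
    (hclosed : ∀ σ : Equiv.Perm Ω,
      (∀ t : Fin (m - 1) → Ω, ∃ g ∈ MulAction.stabilizer ↥G α, ∀ i, (g : Equiv.Perm Ω) (t i) = σ (t i)) →
      σ ∈ G ∧ σ α = α) :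
    ∀ σ : Equiv.Perm Ω, (∀ t : Fin m → Ω, ∃ g ∈ G, ∀ i, g (t i) = σ (t i)) → σ ∈ G := by
  obtain ⟨k, rfl⟩ : ∃ k, m = k + 1 := ⟨m - 1, by omega⟩
  intro σ hσ
  obtain ⟨g, hgG, hg⟩ := hσ (fun _ => α)
  have hgα : g α = σ α := hg 0
  have hτ := hclosed (g⁻¹ * σ) (by
    intro t
    obtain ⟨h, hhG, hh⟩ := hσ (Fin.cons α t)
    have hhα : h α = σ α := by simpa using hh 0
    have hht : ∀ i, h (t i) = σ (t i) := by
      intro i
      simpa using hh i.succ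
    refine ⟨⟨g⁻¹ * h, G.mul_mem (G.inv_mem hgG) hhG⟩, ?_, ?_⟩
    · show (g⁻¹ * h) α = α
      simp only [Equiv.Perm.mul_apply, hhα, ← hgα]
      simp
    · intro i
      show (g⁻¹ * h) (t i) = (g⁻¹ * σ) (t i)
      simp [Equiv.Perm.mul_apply, hht])
  have : σ = g * (g⁻¹ * σ) := by group
  rw [this]
  exact G.mul_mem hgG hτ.1

end Cfsg.Agent.S3622
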