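import Cfsg.Statements.S3626
import Cfsg.Agent.Lib.Ree.Abs37

set_option autoImplicit false
open Cfsg

namespace Cfsg.Agent.S3626

/-- Let R be the small Ree group over the field with q = 3^(2m+1) ≥ 27 elements. Then there are finite groups of arbitrarily large order with exactly the same set of element orders as R × R × R. -/
theorem result {K : Type*} [Field K] [Fintype K] {m : ℕ} (hm : 1 ≤ m) (hK : Fintype.card K = 3 ^ (2 * m + 1)) (N : ℕ) :
    ∃ (H : Type) (_ : Group H) (_ : Fintype H), N < Fintype.card H ∧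
      Set.range (orderOf : H → ℕ) = Set.range (orderOf : ↥(Cfsg.Lie.twistedG2 K (3 ^ m)) × ↥(Cfsg.Lie.twistedG2 K (3 ^ m)) × ↥(Cfsg.Lie.twistedG2 K (3 ^ m)) → ℕ) := by
  haveI := Cfsg.Agent.Lib.Ree.Main.charP_of_card hK
  haveI := (Cfsg.Agent.Lib.Ree.Abs.dat hK).finite_of_card
  exact (Cfsg.Agent.Lib.Ree.Abs.dat hK).cube_main hm N

end Cfsg.Agent.S3626
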