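import Cfsg.Statements.S3627
import Mathlib
import Cfsg.Agent.Lib.Sporadic.J1.Orders

set_option autoImplicit false
open Cfsg

namespace Cfsg.Agent.S3627

section Frob

variable (p : ℕ) [Fact p.Prime] (k : ℕ)

/-- The elementary abelian group. -/
abbrev Vp : Type := Multiplicative (Fin k → ZMod p)

/-- Scalar multiplication as an automorphism. -/
def scal (g : (ZMod p)ˣ) : MulAut (Vp p k) where
  toFun v := Multiplicative.ofAdd ((g : ZMod p) • v.toAdd)
  invFun v := Multiplicative.ofAdd (((g⁻¹ : (ZMod p)ˣ) : ZMod p) • v.toAdd)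
  left_inv v := by
    apply Multiplicative.toAdd.injective
    show ((g⁻¹ : (ZMod p)ˣ) : ZMod p) • ((g : ZMod p) • v.toAdd) = v.toAdd
    rw [smul_smul, ← Units.val_mul, inv_mul_cancel, Units.val_one, one_smul]
  right_inv v := by
    apply Multiplicative.toAdd.injective
    show (g : ZMod p) • (((g⁻¹ : (ZMod p)ˣ) : ZMod p) • v.toAdd) = v.toAdd
    rw [smul_smul, ← Units.val_mul, mul_inv_cancel, Units.val_one, one_smul]
  map_mul' a b := by
    apply Multiplicative.toAdd.injective
    show (g : ZMod p) • (a.toAdd + b.toAdd) = (g : ZMod p) • a.toAdd + (g : ZMod p) • b.toAdd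
    rw [smul_add]

/-- Scalar multiplication as a homomorphism. -/
def scalHom : (ZMod p)ˣ →* MulAut (Vp p k) where
  toFun := scal p k
  map_one' := by
    refine MulEquiv.ext fun v => ?_
    apply Multiplicative.toAdd.injective
    simp [scal]
  map_mul' g h := by
    refine MulEquiv.ext fun v => ?_
    apply Multiplicative.toAdd.injective
    show ((g * h : (ZMod p)ˣ) : ZMod p) • v.toAdd = (g : ZMod p) • ((h : ZMod p) • v.toAdd)
    rw [Units.val_mul, smul_smul]

variable (u : (ZMod p)ˣ)

/-- The action of the powers of `u`. -/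
abbrev actU : Subgroup.zpowers u →* MulAut (Vp p k) := (scalHom p k).comp (Subgroup.zpowers u).subtype

/-- The Frobenius group `C_p^k : ⟨u⟩`. -/
abbrev Frob : Type := Vp p k ⋊[actU p k u] Subgroup.zpowers u

variable {p k u}

theorem scal_apply_toAdd (g : (ZMod p)ˣ) (v : Vp p k) :
    (scal p k g v).toAdd = (g : ZMod p) • v.toAdd := rfl

theorem frob_pow (x : Frob p k u) (n : ℕ) :
    ((x ^ n).left).toAdd = (∑ i ∈ Finset.range n, ((x.right : (ZMod p)ˣ) : ZMod p) ^ i) • x.left.toAdd ∧
      (x ^ n).right = x.right ^ n := by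
  induction n with
  | zero => simp
  | succ m ih =>
    constructor
    · rw [pow_succ']
      rw [SemidirectProduct.mul_left]
      show (x.left * (scal p k (x.right : (ZMod p)ˣ) (x ^ m).left)).toAdd = _
      rw [toAdd_mul, scal_apply_toAdd, ih.1, Finset.sum_range_succ', add_smul, smul_smul,
        Finset.mul_sum]
      simp only [pow_zero, one_smul, pow_succ']
      rw [add_comm]
    · rw [pow_succ, SemidirectProduct.mul_right, ih.2, pow_succ]

variable {q : ℕ}

theorem frob_order_of_right_ne (hq : q.Prime) (huq : u ^ q = 1) (x : Frob p k u)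
    (hx : x.right ≠ 1) : orderOf x = q := by
  have : Fact q.Prime := ⟨hq⟩
  have hg : (x.right : (ZMod p)ˣ) ^ q = 1 := by
    obtain ⟨j, hj⟩ := Subgroup.mem_zpowers_iff.mp x.right.2
    rw [← hj, ← zpow_natCast, ← zpow_mul, mul_comm, zpow_mul, zpow_natCast, huq, one_zpow]
  have hg' : ((x.right : (ZMod p)ˣ) : ZMod p) ^ q = 1 := by
    rw [← Units.val_pow_eq_pow_val, hg, Units.val_one]
  have hne : ((x.right : (ZMod p)ˣ) : ZMod p) ≠ 1 := by
    intro h
    apply hx
    apply Subtype.ext
    apply Units.ext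
    exact h
  have hsum : ∑ i ∈ Finset.range q, ((x.right : (ZMod p)ˣ) : ZMod p) ^ i = 0 := by
    have := geom_sum_mul ((x.right : (ZMod p)ˣ) : ZMod p) q
    rw [hg', sub_self] at this
    exact (mul_eq_zero.mp this).resolve_right (sub_ne_zero.mpr hne)
  have hpow : x ^ q = 1 := by
    obtain ⟨h1, h2⟩ := frob_pow x q
    rw [hsum, zero_smul] at h1
    apply SemidirectProduct.ext
    · apply Multiplicative.toAdd.injective
      rw [h1]
      rfl
    · rw [h2]
      apply Subtype.ext
      rw [Subgroup.coe_pow]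
      exact hg
  apply orderOf_eq_prime hpow
  rintro rfl
  exact hx rfl

theorem frob_order_of_right_eq (x : Frob p k u) (hx : x.right = 1) (hv : x.left ≠ 1) :
    orderOf x = p := by
  apply orderOf_eq_prime
  · obtain ⟨h1, h2⟩ := frob_pow x p
    apply SemidirectProduct.ext
    · apply Multiplicative.toAdd.injective
      rw [h1, hx]
      simp
    · rw [h2, hx, one_pow]
      rfl
  · intro h
    rw [h] at hv
    exact hv rfl

theorem frob_range (hq : q.Prime) (huq : u ^ q = 1) (hu : u ≠ 1) (hk : 0 < k) :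
    Set.range (orderOf : Frob p k u → ℕ) = (({1, p, q} : Finset ℕ) : Set ℕ) := by
  classical
  ext n
  simp only [Set.mem_range, Finset.coe_insert, Finset.coe_singleton, Set.mem_insert_iff,
    Set.mem_singleton_iff]
  constructor
  · rintro ⟨x, rfl⟩
    by_cases h : x.right = 1
    · by_cases hv : x.left = 1
      · left
        have : x = 1 := SemidirectProduct.ext hv h
        rw [this, orderOf_one]
      · right; left
        exact frob_order_of_right_eq x h hv
    · right; right
      exact frob_order_of_right_ne hq huq x h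
  · rintro (h | h | h)
    · subst h
      exact ⟨1, orderOf_one⟩
    · subst h
      let e : Fin k := ⟨0, hk⟩
      let x : Frob n k u := SemidirectProduct.inl (Multiplicative.ofAdd (Pi.single e 1))
      refine ⟨x, frob_order_of_right_eq x rfl ?_⟩
      intro h
      have h2 := congrFun (congrArg Multiplicative.toAdd h) e
      simp [x] at h2
    · subst h
      let g : Subgroup.zpowers u := ⟨u, Subgroup.mem_zpowers u⟩
      let x : Frob p k u := SemidirectProduct.inr g
      refine ⟨x, frob_order_of_right_ne hq huq x ?_⟩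
      intro h
      apply hu
      exact congrArg (fun y : Subgroup.zpowers u => (y : (ZMod p)ˣ)) h

theorem frob_card_gt (k' : ℕ) (hp2 : 2 ≤ p) : k' < Nat.card (Frob p k' u) := by
  rw [SemidirectProduct.card]
  have h1 : Nat.card (Vp p k') = p ^ k' := by
    rw [Nat.card_congr Multiplicative.toAdd, Nat.card_eq_fintype_card]
    simp [ZMod.card]
  rw [h1]
  have h2 : k' < p ^ k' := Nat.lt_pow_self hp2
  have h3 : 0 < Nat.card (Subgroup.zpowers u) := Nat.card_pos
  exact lt_of_lt_of_le h2 (Nat.le_mul_of_pos_right _ h3)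

end Frob

theorem range_prod {A B : Type*} [Group A] [Group B] {S T : Finset ℕ}
    (hA : Set.range (orderOf : A → ℕ) = S) (hB : Set.range (orderOf : B → ℕ) = T) :
    Set.range (orderOf : A × B → ℕ) = (Finset.image₂ Nat.lcm S T : Finset ℕ) := by
  ext n
  rw [Finset.coe_image₂, ← hA, ← hB, Set.mem_image2]
  constructor
  · rintro ⟨x, rfl⟩
    exact ⟨_, ⟨x.1, rfl⟩, _, ⟨x.2, rfl⟩, (Prod.orderOf x).symm⟩
  · rintro ⟨_, ⟨a, rfl⟩, _, ⟨b, rfl⟩, rfl⟩
    exact ⟨(a, b), Prod.orderOf _⟩

instance fact3 : Fact (Nat.Prime 3) := ⟨by norm_num⟩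
instance fact5 : Fact (Nat.Prime 5) := ⟨by norm_num⟩
instance fact7 : Fact (Nat.Prime 7) := ⟨by norm_num⟩
instance fact11 : Fact (Nat.Prime 11) := ⟨by norm_num⟩
instance fact19 : Fact (Nat.Prime 19) := ⟨by norm_num⟩

/-- The units `u`. -/
def u3 : (ZMod 3)ˣ := -1
/-- The units `u`. -/
def u5 : (ZMod 5)ˣ := -1
/-- The units `u`. -/
def u11 : (ZMod 11)ˣ := ZMod.unitOfCoprime 3 (by norm_num)
/-- The units `u`. -/
def u7 : (ZMod 7)ˣ := ZMod.unitOfCoprime 2 (by norm_num)
/-- The units `u`. -/
def u19 : (ZMod 19)ˣ := ZMod.unitOfCoprime 7 (by norm_num)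

theorem u3_pow : u3 ^ 2 = 1 := by
  apply Units.ext; rw [Units.val_pow_eq_pow_val]; decide +kernel
theorem u5_pow : u5 ^ 2 = 1 := by
  apply Units.ext; rw [Units.val_pow_eq_pow_val]; decide +kernel
theorem u11_pow : u11 ^ 5 = 1 := by
  apply Units.ext; rw [Units.val_pow_eq_pow_val]; decide +kernel
theorem u7_pow : u7 ^ 3 = 1 := by
  apply Units.ext; rw [Units.val_pow_eq_pow_val]; decide +kernel
theorem u19_pow : u19 ^ 3 = 1 := by
  apply Units.ext; rw [Units.val_pow_eq_pow_val]; decide +kernel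
theorem u3_ne : u3 ≠ 1 := fun h => by
  have := congrArg Units.val h; revert this; decide +kernel
theorem u5_ne : u5 ≠ 1 := fun h => by
  have := congrArg Units.val h; revert this; decide +kernel
theorem u11_ne : u11 ≠ 1 := fun h => by
  have := congrArg Units.val h; revert this; decide +kernel
theorem u7_ne : u7 ≠ 1 := fun h => by
  have := congrArg Units.val h; revert this; decide +kernel
theorem u19_ne : u19 ≠ 1 := fun h => by
  have := congrArg Units.val h; revert this; decide +kernel

instance frob_finite (p : ℕ) [Fact p.Prime] (k : ℕ) (u : (ZMod p)ˣ) : Finite (Frob p k u) :=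
  Finite.of_equiv _ SemidirectProduct.equivProd.symm

/-- First factor. -/
def F1 (N : ℕ) : Type := Frob 3 (N + 1) u3
instance (N : ℕ) : Group (F1 N) := inferInstanceAs (Group (Frob 3 (N + 1) u3))
instance (N : ℕ) : Finite (F1 N) := inferInstanceAs (Finite (Frob 3 (N + 1) u3))
/-- Second factor. -/
def F2 : Type := Frob 5 1 u5
instance : Group F2 := inferInstanceAs (Group (Frob 5 1 u5))
instance : Finite F2 := inferInstanceAs (Finite (Frob 5 1 u5))
/-- Third factor. -/
def F3 : Type := Frob 11 1 u11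
instance : Group F3 := inferInstanceAs (Group (Frob 11 1 u11))
instance : Finite F3 := inferInstanceAs (Finite (Frob 11 1 u11))
/-- Fourth factor. -/
def F4 : Type := Frob 7 1 u7
instance : Group F4 := inferInstanceAs (Group (Frob 7 1 u7))
instance : Finite F4 := inferInstanceAs (Finite (Frob 7 1 u7))
/-- Fifth factor. -/
def F5 : Type := Frob 19 1 u19
instance : Group F5 := inferInstanceAs (Group (Frob 19 1 u19))
instance : Finite F5 := inferInstanceAs (Finite (Frob 19 1 u19))

theorem F1_range (N : ℕ) : Set.range (orderOf : F1 N → ℕ) = (({1, 3, 2} : Finset ℕ) : Set ℕ) :=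
  frob_range (by norm_num) u3_pow u3_ne (by omega)
theorem F2_range : Set.range (orderOf : F2 → ℕ) = (({1, 5, 2} : Finset ℕ) : Set ℕ) :=
  frob_range (by norm_num) u5_pow u5_ne (by norm_num)
theorem F3_range : Set.range (orderOf : F3 → ℕ) = (({1, 11, 5} : Finset ℕ) : Set ℕ) :=
  frob_range (by norm_num) u11_pow u11_ne (by norm_num)
theorem F4_range : Set.range (orderOf : F4 → ℕ) = (({1, 7, 3} : Finset ℕ) : Set ℕ) :=
  frob_range (by norm_num) u7_pow u7_ne (by norm_num)
theorem F5_range : Set.range (orderOf : F5 → ℕ) = (({1, 19, 3} : Finset ℕ) : Set ℕ) :=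
  frob_range (by norm_num) u19_pow u19_ne (by norm_num)

theorem F1_card (N : ℕ) : N + 1 < Nat.card (F1 N) :=
  frob_card_gt (p := 3) (u := u3) (N + 1) (by norm_num)

/-- The witness, with large first factor. -/
abbrev HH (N : ℕ) : Type := F1 N × F2 × F3 × F4 × F5

theorem lcm_eq : Finset.image₂ Nat.lcm ({1, 3, 2} : Finset ℕ)
      (Finset.image₂ Nat.lcm ({1, 5, 2} : Finset ℕ)
      (Finset.image₂ Nat.lcm ({1, 11, 5} : Finset ℕ)
      (Finset.image₂ Nat.lcm ({1, 7, 3} : Finset ℕ) ({1, 19, 3} : Finset ℕ)))) =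
    Finset.image₂ Nat.lcm Cfsg.Agent.Lib.Sporadic.J1.Orders.spectrum
      (Finset.image₂ Nat.lcm Cfsg.Agent.Lib.Sporadic.J1.Orders.spectrum
      (Finset.image₂ Nat.lcm Cfsg.Agent.Lib.Sporadic.J1.Orders.spectrum
        Cfsg.Agent.Lib.Sporadic.J1.Orders.spectrum)) := by
  decide +kernel

theorem range_five {A B C D E : Type*} [Group A] [Group B] [Group C] [Group D] [Group E]
    {S1 S2 S3 S4 S5 : Finset ℕ}
    (h1 : Set.range (orderOf : A → ℕ) = S1) (h2 : Set.range (orderOf : B → ℕ) = S2)
    (h3 : Set.range (orderOf : C → ℕ) = S3) (h4 : Set.range (orderOf : D → ℕ) = S4)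
    (h5 : Set.range (orderOf : E → ℕ) = S5) :
    Set.range (orderOf : A × B × C × D × E → ℕ) =
      ((Finset.image₂ Nat.lcm S1 (Finset.image₂ Nat.lcm S2 (Finset.image₂ Nat.lcm S3
        (Finset.image₂ Nat.lcm S4 S5))) : Finset ℕ) : Set ℕ) :=
  range_prod h1 (range_prod h2 (range_prod h3 (range_prod h4 h5)))

theorem range_four {A B C D : Type*} [Group A] [Group B] [Group C] [Group D]
    {S1 S2 S3 S4 : Finset ℕ}
    (h1 : Set.range (orderOf : A → ℕ) = S1) (h2 : Set.range (orderOf : B → ℕ) = S2)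
    (h3 : Set.range (orderOf : C → ℕ) = S3) (h4 : Set.range (orderOf : D → ℕ) = S4) :
    Set.range (orderOf : A × B × C × D → ℕ) =
      ((Finset.image₂ Nat.lcm S1 (Finset.image₂ Nat.lcm S2 (Finset.image₂ Nat.lcm S3 S4)) :
        Finset ℕ) : Set ℕ) :=
  range_prod h1 (range_prod h2 (range_prod h3 h4))

theorem lcm_eq_coe : ((Finset.image₂ Nat.lcm ({1, 3, 2} : Finset ℕ)
      (Finset.image₂ Nat.lcm ({1, 5, 2} : Finset ℕ)
      (Finset.image₂ Nat.lcm ({1, 11, 5} : Finset ℕ)
      (Finset.image₂ Nat.lcm ({1, 7, 3} : Finset ℕ) ({1, 19, 3} : Finset ℕ)))) : Finset ℕ) : Set ℕ) =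
    ((Finset.image₂ Nat.lcm Cfsg.Agent.Lib.Sporadic.J1.Orders.spectrum
      (Finset.image₂ Nat.lcm Cfsg.Agent.Lib.Sporadic.J1.Orders.spectrum
      (Finset.image₂ Nat.lcm Cfsg.Agent.Lib.Sporadic.J1.Orders.spectrum
        Cfsg.Agent.Lib.Sporadic.J1.Orders.spectrum)) : Finset ℕ) : Set ℕ) := by
  rw [lcm_eq]

/-- Let J be the first Janko group. Then there are finite groups of arbitrarily large order with exactly the same set of element orders as J × J × J × J. -/
theorem result (N : ℕ) : ∃ (H : Type) (_ : Group H) (_ : Fintype H), N < Fintype.card H ∧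
      Set.range (orderOf : H → ℕ) = Set.range (orderOf : ↥Cfsg.Spor.J1 × ↥Cfsg.Spor.J1 × ↥Cfsg.Spor.J1 × ↥Cfsg.Spor.J1 → ℕ) := by
  classical
  have hfin : Finite (HH N) := inferInstance
  let _ : Fintype (HH N) := Fintype.ofFinite _
  refine ⟨HH N, inferInstance, inferInstance, ?_, ?_⟩
  · rw [← Nat.card_eq_fintype_card]
    rw [Nat.card_prod]
    have h1 : N + 1 < Nat.card (F1 N) := F1_card N
    have h2 : 0 < Nat.card (F2 × F3 × F4 × F5) := Nat.card_pos
    calc N < Nat.card (F1 N) := by omega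
      _ ≤ _ := Nat.le_mul_of_pos_right _ h2
  · exact (range_five (F1_range N) F2_range F3_range F4_range F5_range).trans
      (lcm_eq_coe.trans (range_four Cfsg.Agent.Lib.Sporadic.J1.Orders.range_orderOf
        Cfsg.Agent.Lib.Sporadic.J1.Orders.range_orderOf
        Cfsg.Agent.Lib.Sporadic.J1.Orders.range_orderOf
        Cfsg.Agent.Lib.Sporadic.J1.Orders.range_orderOf).symm)

end Cfsg.Agent.S3627
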