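import Cfsg.Statements.S3639
import Mathlib
import Cfsg.Agent.Lib.Suzuki.Core

set_option autoImplicit false
open Cfsg

namespace Cfsg.Agent.S3639

open Cfsg.Lie Matrix Cfsg.Agent.Lib.Suzuki.Core

universe u

/-- Elements of order `r * s` in a semidirect product by an elementary abelian 2-group come from
the quotient when every element with a nontrivial fixed point has `g ^ 4 = 1`. -/
theorem edge {N S : Type*} [CommGroup N] [Group S] (φ : S →* MulAut N) (h2 : ∀ n : N, n ^ 2 = 1)
    (hfix : ∀ (g : S) (n : N), n ≠ 1 → φ g n = n → g ^ 4 = 1) {r s : ℕ} (hr : r.Prime)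
    (hs : s.Prime) (hrs : r ≠ s) (y : N ⋊[φ] S) (hy : orderOf y = r * s) :
    ∃ x : S, orderOf x = r * s := by
  let π : (N ⋊[φ] S) →* S := SemidirectProduct.rightHom
  set g : S := π y with hg
  set n := orderOf g with hn
  have hnd : n ∣ r * s := by
    rw [← hy]
    exact orderOf_map_dvd π y
  by_cases hne : n = r * s
  · exact ⟨g, hne⟩
  exfalso
  set c₀ := y ^ n with hc₀
  have hc₀r : π c₀ = 1 := by
    rw [hc₀, map_pow, ← hg, hn, pow_orderOf_eq_one]
  have hc₀right : c₀.right = 1 := hc₀r
  have hc₀ne : c₀ ≠ 1 := by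
    intro h
    have h3 : r * s ∣ n := by
      rw [← hy]
      exact orderOf_dvd_of_pow_eq_one h
    exact hne (Nat.dvd_antisymm hnd h3)
  have hc₀inl : c₀ = SemidirectProduct.inl c₀.left := by
    ext <;> simp [hc₀right]
  set c := c₀.left with hc
  have hcne : c ≠ 1 := by
    intro h
    apply hc₀ne
    rw [hc₀inl, h, map_one]
  have hc2 : c₀ ^ 2 = 1 := by
    rw [hc₀inl, ← map_pow, h2, map_one]
  have hrs2 : r * s ∣ 2 * n := by
    rw [← hy]
    apply orderOf_dvd_of_pow_eq_one
    rw [mul_comm, pow_mul]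
    exact hc2
  -- `c` is fixed
  have hcomm : y * c₀ = c₀ * y := (Commute.pow_right (Commute.refl y) n).eq
  have hleft := congrArg SemidirectProduct.left hcomm
  rw [hc₀inl] at hleft
  simp only [SemidirectProduct.mul_left, SemidirectProduct.left_inl, SemidirectProduct.right_inl,
    map_one, MulAut.one_apply] at hleft
  have hcfix : φ y.right c = c := by
    have h5 : y.left * φ y.right c = y.left * c := by rw [hleft, mul_comm]
    exact mul_left_cancel h5
  have hg4 : g ^ 4 = 1 := hfix y.right c hcne hcfix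
  have hn4 : n ∣ 4 := orderOf_dvd_of_pow_eq_one hg4
  have h8 : r * s ∣ 2 ^ 3 := hrs2.trans (by
    calc 2 * n ∣ 2 * 4 := Nat.mul_dvd_mul_left 2 hn4
      _ = 2 ^ 3 := by norm_num)
  have hr2 : r = 2 := (Nat.prime_dvd_prime_iff_eq hr Nat.prime_two).mp
    (hr.dvd_of_dvd_pow ((dvd_mul_right r s).trans h8))
  have hs2 : s = 2 := (Nat.prime_dvd_prime_iff_eq hs Nat.prime_two).mp
    (hs.dvd_of_dvd_pow ((dvd_mul_left s r).trans h8))
  exact hrs (hr2.trans hs2.symm)

section action

variable (F : Type u) [Field F] (k : ℕ)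

/-- The natural module: `k` copies of `F⁴`. -/
abbrev Vec : Type u := Fin k → Fin 4 → F

/-- The action of `GL₄(F)` on `k` copies of `F⁴`. -/
def actAut (g : GL (Fin 4) F) : MulAut (Multiplicative (Vec F k)) where
  toFun n := Multiplicative.ofAdd fun i => (g : Matrix (Fin 4) (Fin 4) F) *ᵥ (n.toAdd i)
  invFun n := Multiplicative.ofAdd fun i => ((g⁻¹ : GL (Fin 4) F) : Matrix (Fin 4) (Fin 4) F) *ᵥ (n.toAdd i)
  left_inv n := by
    apply Multiplicative.toAdd.injective
    funext i
    simp [Matrix.mulVec_mulVec]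
  right_inv n := by
    apply Multiplicative.toAdd.injective
    funext i
    simp [Matrix.mulVec_mulVec]
  map_mul' a b := by
    apply Multiplicative.toAdd.injective
    funext i
    simp [Matrix.mulVec_add]

/-- The action as a homomorphism. -/
def actHom : GL (Fin 4) F →* MulAut (Multiplicative (Vec F k)) where
  toFun := actAut F k
  map_one' := by
    refine MulEquiv.ext fun n => ?_
    apply Multiplicative.toAdd.injective
    funext i
    simp [actAut]
  map_mul' g h := by
    refine MulEquiv.ext fun n => ?_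
    apply Multiplicative.toAdd.injective
    funext i
    simp [actAut, Matrix.mulVec_mulVec]

end action

/-- Transporting a finite group to a type in universe zero. -/
theorem transport (H' : Type u) [Group H'] [Finite H'] :
    ∃ (H : Type) (_ : Group H) (_ : Fintype H), Nonempty (H ≃* H') := by
  obtain ⟨e⟩ : Nonempty (H' ≃ Fin (Nat.card H')) := ⟨Finite.equivFin H'⟩
  letI : Group (Fin (Nat.card H')) := e.symm.group
  exact ⟨Fin (Nat.card H'), inferInstance, inferInstance, ⟨e.symm.mulEquiv⟩⟩

/-- Let S be the Suzuki group over the field with q = 2^(2m+1) ≥ 8 elements. Then there are finite groups of arbitrarily large order with the same prime graph as S. -/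
theorem result {F : Type*} [Field F] [Fintype F] {m : ℕ} (hm : 1 ≤ m) (hF : Fintype.card F = 2 ^ (2 * m + 1)) (N : ℕ) :
    ∃ (H : Type) (_ : Group H) (_ : Fintype H), N < Fintype.card H ∧ ((∀ r : ℕ, r.Prime → (r ∣ Nat.card ↥(Cfsg.Lie.Sz F (2 ^ (m + 1))) ↔ r ∣ Nat.card H)) ∧
      (∀ r s : ℕ, r.Prime → s.Prime → r ≠ s → ((∃ x : ↥(Cfsg.Lie.Sz F (2 ^ (m + 1))), orderOf x = r * s) ↔ (∃ y : H, orderOf y = r * s)))) := by
  classical
  -- characteristic two
  have h2 : (2 : F) = 0 := by
    have h1 : ((Fintype.card F : ℕ) : F) = 0 := by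
      have := card_nsmul_eq_zero (G := F) (x := (1 : F))
      simpa [Nat.card_eq_fintype_card] using this
    rw [hF] at h1
    push_cast at h1
    exact (pow_eq_zero_iff (by omega)).mp h1
  have hone : (1 : F) ≠ 0 := one_ne_zero
  haveI hchar : CharP F 2 := CharTwo.of_one_ne_zero_of_two_eq_zero hone h2
  haveI : Fact (Nat.Prime 2) := ⟨Nat.prime_two⟩
  set e := 2 ^ (m + 1) with he
  have he0 : e ≠ 0 := by positivity
  have hadd : ∀ x y : F, (x + y) ^ e = x ^ e + y ^ e := fun x y => by
    rw [he]; exact add_pow_char_pow x y 2 (m + 1)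
  -- a third element
  obtain ⟨y₀, hy0, hy1⟩ : ∃ y : F, y ≠ 0 ∧ y ≠ 1 := by
    by_contra hcon
    push Not at hcon
    have hsub : (Finset.univ : Finset F) ⊆ {0, 1} := by
      intro y _
      by_cases h : y = 0
      · simp [h]
      · simp [hcon y h]
    have hc := Finset.card_le_card hsub
    have h3 : ({0, 1} : Finset F).card ≤ 2 := Finset.card_le_two
    rw [Finset.card_univ, hF] at hc
    have h8 : 2 ^ 3 ≤ 2 ^ (2 * m + 1) := Nat.pow_le_pow_right (by norm_num) (by omega)
    omega
  let S := Sz F e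
  let k := N
  let φ : S →* MulAut (Multiplicative (Vec F k)) := (actHom F k).comp S.subtype
  let H' := Multiplicative (Vec F k) ⋊[φ] S
  haveI : Finite H' := Finite.of_equiv _ SemidirectProduct.equivProd.symm
  -- the normal subgroup has exponent two
  have hexp : ∀ n : Multiplicative (Vec F k), n ^ 2 = 1 := by
    intro n
    apply Multiplicative.toAdd.injective
    funext i j
    simp only [toAdd_pow, toAdd_one, Pi.smul_apply, Pi.zero_apply, two_smul]
    have : (n.toAdd i j) + (n.toAdd i j) = (2 : F) * n.toAdd i j := by ring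
    rw [this, h2, zero_mul]
  have hfix : ∀ (g : S) (n : Multiplicative (Vec F k)), n ≠ 1 → φ g n = n → g ^ 4 = 1 := by
    intro g n hn hgn
    have hne : ∃ i, n.toAdd i ≠ 0 := by
      by_contra hcon
      push Not at hcon
      apply hn
      apply Multiplicative.toAdd.injective
      funext i
      exact hcon i
    obtain ⟨i, hi⟩ := hne
    have hfi : ((g : GL (Fin 4) F) : Matrix (Fin 4) (Fin 4) F) *ᵥ (n.toAdd i) = n.toAdd i := by
      have := congrArg (fun x : Multiplicative (Vec F k) => x.toAdd i) hgn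
      exact this
    have := pow_four_eq_one_of_mem_Sz h2 y₀ hy0 hy1 hadd he0 g.2 hi hfi
    exact Subtype.ext (by rw [Subgroup.coe_pow]; exact this)
  -- cardinalities
  have hcardV : Nat.card (Multiplicative (Vec F k)) = ((2 ^ (2 * m + 1)) ^ 4) ^ k := by
    have : Nat.card (Multiplicative (Vec F k)) = Fintype.card (Vec F k) := by
      rw [Nat.card_congr Multiplicative.toAdd, Nat.card_eq_fintype_card]
    rw [this]
    simp [Vec, Fintype.card_fun, hF]
  have hcardH : Nat.card H' = ((2 ^ (2 * m + 1)) ^ 4) ^ k * Nat.card S := by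
    rw [SemidirectProduct.card, hcardV]
  have hSpos : 0 < Nat.card S := Nat.card_pos
  have hlarge : N < Nat.card H' := by
    rw [hcardH]
    have h1 : N < 2 ^ N := Nat.lt_two_pow_self
    have h3 : 2 ^ N ≤ ((2 ^ (2 * m + 1)) ^ 4) ^ N := by
      apply Nat.pow_le_pow_left
      have : 1 ≤ 2 * m + 1 := by omega
      calc 2 = 2 ^ 1 := by norm_num
        _ ≤ 2 ^ (2 * m + 1) := Nat.pow_le_pow_right (by norm_num) this
        _ ≤ (2 ^ (2 * m + 1)) ^ 4 := Nat.le_self_pow (by norm_num) _
    calc N < ((2 ^ (2 * m + 1)) ^ 4) ^ N := lt_of_lt_of_le h1 h3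
      _ ≤ _ := Nat.le_mul_of_pos_right _ hSpos
  -- `2` divides the order of `S`
  have hS2 : 2 ∣ Nat.card S := by
    let w : S := ⟨antidiag, antidiag_mem_Sz h2 he0⟩
    have hw : orderOf w = 2 := by
      apply orderOf_eq_prime
      · exact Subtype.ext (by rw [Subgroup.coe_pow]; exact antidiag_sq)
      · intro h
        exact antidiag_ne_one (congrArg Subtype.val h)
    rw [← hw]
    exact orderOf_dvd_natCard w
  obtain ⟨H, instG, instF, ⟨eH⟩⟩ := transport H'
  refine ⟨H, instG, instF, ?_, ?_, ?_⟩
  · rw [← Nat.card_eq_fintype_card, Nat.card_congr eH.toEquiv]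
    exact hlarge
  · intro r hr
    rw [Nat.card_congr eH.toEquiv, hcardH]
    constructor
    · intro h
      exact Dvd.dvd.mul_left h _
    · intro h
      rcases hr.dvd_mul.mp h with h | h
      · have h3 := hr.dvd_of_dvd_pow (hr.dvd_of_dvd_pow (hr.dvd_of_dvd_pow h))
        have h4 : r = 2 := (Nat.prime_dvd_prime_iff_eq hr Nat.prime_two).mp h3
        rw [h4]
        exact hS2
      · exact h
  · intro r s hr hs hrs
    constructor
    · rintro ⟨x, hx⟩
      refine ⟨eH.symm (SemidirectProduct.inr x), ?_⟩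
      rw [MulEquiv.orderOf_eq, orderOf_injective _ SemidirectProduct.inr_injective, hx]
    · rintro ⟨y, hy⟩
      refine edge φ hexp hfix hr hs hrs (eH y) ?_
      rw [MulEquiv.orderOf_eq, hy]

end Cfsg.Agent.S3639
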