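import Mathlib
import Cfsg.Statements.S3641
import Cfsg.Agent.S0730
import Cfsg.Agent.S0741
import Cfsg.Agent.S0742
import Cfsg.Agent.Lib.Perm.ZassOdd
import Cfsg.Agent.Lib.Perm.ZassCyc
import Cfsg.Agent.Lib.PSL2.Spectrum
import Cfsg.Agent.Lib.Compute.SmallField
import Cfsg.Agent.Lib.Linalg.Recog17Kernel
import Cfsg.Agent.Lib.Linalg.Recog17Zass
import Cfsg.Agent.Lib.Linalg.Recog17Num

set_option autoImplicit false
set_option linter.style.haveILetI false
open Cfsg

namespace Cfsg.Agent.S3641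

open MulAction Equiv
open Cfsg.Agent.Lib.Linalg

/-- An element of order `9` in `PSL(2, 17)`. -/
theorem exists_order_nine_psl {F : Type*} [Field F] [Fintype F] (hF : Fintype.card F = 17) :
    ∃ y : Matrix.ProjectiveSpecialLinearGroup (Fin 2) F, orderOf y = 9 := by
  haveI : Fact (Nat.Prime 17) := ⟨by norm_num⟩
  haveI : CharP F 17 := charP_of_card_eq_prime hF
  have h := Cfsg.Agent.Lib.PSL2.Spectrum.range_orderOf (F := F) 17
  have hmem : (9 : ℕ) ∈ Set.range (orderOf : Matrix.ProjectiveSpecialLinearGroup (Fin 2) F → ℕ) := by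
    rw [h]
    right
    right
    rw [hF]
    norm_num
  exact hmem

/-- An element of order `9` in `PGL(2, 17)`. -/
theorem exists_order_nine_pgl {F : Type*} [Field F] [Fintype F] (hF : Fintype.card F = 17) :
    ∃ y : Matrix.ProjGenLinGroup (Fin 2) F, orderOf y = 9 := by
  obtain ⟨y, hy⟩ := exists_order_nine_psl hF
  exact ⟨Matrix.ProjectiveSpecialLinearGroup.toPGL y, by
    rw [orderOf_injective _ Matrix.ProjectiveSpecialLinearGroup.toPGL_injective, hy]⟩

/-- `GL` transported along a ring isomorphism. -/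
noncomputable def glCongr {R S : Type*} [CommRing R] [CommRing S] (e : R ≃+* S) :
    GL (Fin 2) R ≃* GL (Fin 2) S :=
  Units.mapEquiv (RingEquiv.mapMatrix e).toMulEquiv

/-- `PGL` transported along a ring isomorphism. -/
noncomputable def pglCongr {R S : Type*} [CommRing R] [CommRing S] (e : R ≃+* S) :
    (GL (Fin 2) R ⧸ Subgroup.center (GL (Fin 2) R)) ≃* (GL (Fin 2) S ⧸ Subgroup.center (GL (Fin 2) S)) :=
  QuotientGroup.congr _ _ (glCongr e) (Cfsg.Agent.Lib.Compute.SmallField.map_center_eq _)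

variable {Ω : Type*} [Fintype Ω] [DecidableEq Ω] {H : Subgroup (Perm Ω)}

/-- Identification of a Zassenhaus group of degree `18`. -/
theorem identify (hΩ : Fintype.card Ω = 18) (hZ : IsZassenhausGroup H Ω) :
    (Nat.card H = 2448 ∧ ∃ (F : Type) (_ : Field F) (_ : Fintype F), Fintype.card F = 17 ∧
      Nonempty (H ≃* Matrix.ProjectiveSpecialLinearGroup (Fin 2) F)) ∨
    (Nat.card H = 4896 ∧ ∃ (F : Type) (_ : Field F) (_ : Fintype F), Fintype.card F = 17 ∧
      Nonempty (H ≃* Matrix.ProjGenLinGroup (Fin 2) F)) := by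
  obtain ⟨a, b, hab⟩ : ∃ a b : Ω, a ≠ b := Fintype.one_lt_card_iff.mp (by omega)
  obtain ⟨e, he1, he⟩ := Cfsg.Agent.Lib.Perm.ZassCyc.card_eq_mul hZ hab
  have hd1 : Nat.card ↥(stabilizer H a ⊓ stabilizer H b) ≠ 1 := fun h =>
    Cfsg.Agent.Lib.Zass.Basic.two_point_ne_bot hZ hab (Subgroup.eq_bot_of_card_eq _ h)
  have hgroup := Cfsg.Agent.Lib.Zass.Basic.card_group_eq' hZ hab
  have hker := Cfsg.Agent.Lib.Zass.Basic.card_kernel_add_one hZ a
  rw [Nat.card_eq_fintype_card (α := Ω), hΩ] at hker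
  rw [hΩ] at he
  have hk : Nat.card (Cfsg.Agent.Lib.Zass.Basic.kernel hZ a) = 17 := by omega
  rw [hk] at hgroup
  have hdv : Nat.card ↥(stabilizer H a ⊓ stabilizer H b) = 2 ∨
      Nat.card ↥(stabilizer H a ⊓ stabilizer H b) = 4 ∨
      Nat.card ↥(stabilizer H a ⊓ stabilizer H b) = 8 ∨
      Nat.card ↥(stabilizer H a ⊓ stabilizer H b) = 16 := by
    generalize Nat.card ↥(stabilizer H a ⊓ stabilizer H b) = d at *
    have he16 : e ≤ 16 := by
      have hdpos : 0 < d := by
        rcases Nat.eq_zero_or_pos d with h | h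
        · rw [h] at he
          omega
        · exact h
      nlinarith
    interval_cases e <;> omega
  have heven : Even (Nat.card ↥(stabilizer H a ⊓ stabilizer H b)) := by
    rcases hdv with h | h | h | h <;> rw [h] <;> decide
  have hbig := Cfsg.Agent.S0741.result hZ hab heven
  rw [hΩ] at hbig
  have hdv2 : Nat.card ↥(stabilizer H a ⊓ stabilizer H b) = 8 ∨
      Nat.card ↥(stabilizer H a ⊓ stabilizer H b) = 16 := by omega
  rcases hdv2 with h8 | h16
  · left
    refine ⟨by rw [hgroup, h8], ?_⟩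
    obtain ⟨p, f, K, i1, i2, -, -, hK, hΩ', hiso⟩ :=
      Cfsg.Agent.S0742.result hZ hab heven (by rw [h8, hΩ])
    refine ⟨K, i1, i2, ?_, hiso⟩
    rw [hK]
    omega
  · right
    refine ⟨by rw [hgroup, h16], ?_⟩
    obtain ⟨h3, hsharp⟩ := Cfsg.Agent.Lib.Perm.ZassTwo.sharp_of_card hZ hab (by rw [h16, hΩ])
    obtain ⟨K, i1, i2, hK, hiso⟩ := Cfsg.Agent.S0730.result (p := 17) (f := 1) (by norm_num)
      (by norm_num) (by decide) (by rw [hΩ]; norm_num) H h3 hsharp
    exact ⟨K, i1, i2, by rw [hK]; norm_num, hiso⟩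

/-- `Syl₁₇(G)`, `18` points. -/
theorem has17 {G : Type*} [Group G] [Finite G] [Fact (Nat.Prime 17)] [Fintype (Sylow 17 G)]
    [DecidableEq (Sylow 17 G)] (h : Fintype.card (Sylow 17 G) = 18) :
    Recog17Zass.Has17 (toPermHom G (Sylow 17 G)).range := by
  intro P
  let φ := toPermHom G (Sylow 17 G)
  have hφ : ∀ (g : G) (Q : Sylow 17 G), φ g Q = g • Q := fun _ _ => rfl
  refine ⟨(P : Subgroup G).map φ, ?_, ?_, ?_, ?_⟩
  · rintro _ ⟨u, -, rfl⟩
    exact ⟨u, rfl⟩
  · -- order `17`
    have hpg : IsPGroup 17 ((P : Subgroup G).map φ) := P.isPGroup'.map φ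
    obtain ⟨n, hn⟩ := IsPGroup.iff_card.mp hpg
    have hdvd : Nat.card ((P : Subgroup G).map φ) ∣ Nat.card (Perm (Sylow 17 G)) :=
      Subgroup.card_subgroup_dvd_card _
    rw [Nat.card_eq_fintype_card (α := Perm (Sylow 17 G)), Fintype.card_perm, h, hn] at hdvd
    have hn2 : n < 2 := by
      by_contra hc
      push Not at hc
      have h1 : 17 ^ 2 ∣ Nat.factorial 18 := (pow_dvd_pow 17 hc).trans hdvd
      revert h1
      norm_num [Nat.factorial]
    have hn0 : n ≠ 0 := by
      rintro rfl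
      rw [pow_zero] at hn
      have hbot := Subgroup.eq_bot_of_card_eq _ hn
      -- another point is moved
      obtain ⟨Q, hQ⟩ : ∃ Q : Sylow 17 G, Q ≠ P := by
        have : Nontrivial (Sylow 17 G) := Fintype.one_lt_card_iff_nontrivial.mp (by omega)
        exact exists_ne P
      apply hQ
      apply Cfsg.Agent.Lib.Perm.SylowNumber.eq_of_fixed
      intro u hu
      have h2 : φ u ∈ (P : Subgroup G).map φ := ⟨u, hu, rfl⟩
      rw [hbot, Subgroup.mem_bot] at h2
      rw [← hφ, h2]
      rfl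
    have hn1 : n = 1 := by omega
    rw [hn, hn1, pow_one]
  · rintro _ ⟨u, hu, rfl⟩
    exact Cfsg.Agent.Lib.Perm.SylowNumber.smul_self_of_mem P hu
  · rintro _ ⟨g, rfl⟩ hgP _ ⟨u, hu, rfl⟩
    have hg : g • P = P := hgP
    have h1 : g * u * g⁻¹ ∈ (P : Subgroup G) :=
      Recog17Kernel.conj_mem_of_smul_eq P hg hu
    exact ⟨_, h1, by rw [map_mul, map_mul, map_inv]⟩

/-- Let G be a finite group with trivial centre whose set of Sylow numbers (numbers of Sylow r-subgroups, r over the prime divisors of its order) is exactly {18, 136, 153}. Then G is isomorphic to PSL(2, 17) or to PGL(2, 17). -/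
theorem result {G : Type*} [Group G] [Finite G] (hZ : Subgroup.center G = ⊥) (hNS : {c : ℕ | ∃ r : ℕ, r.Prime ∧ r ∣ Nat.card G ∧ c = Nat.card (Sylow r G)} = ({18, 136, 153} : Set ℕ))
    {F : Type*} [Field F] [Fintype F] (hF : Fintype.card F = 17) :
    Nonempty (G ≃* Matrix.ProjectiveSpecialLinearGroup (Fin 2) F) ∨ Nonempty (G ≃* (GL (Fin 2) F ⧸ Subgroup.center (GL (Fin 2) F))) := by
  classical
  haveI f2 : Fact (Nat.Prime 2) := ⟨by norm_num⟩
  haveI f3 : Fact (Nat.Prime 3) := ⟨by norm_num⟩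
  haveI f5 : Fact (Nat.Prime 5) := ⟨by norm_num⟩
  haveI f17 : Fact (Nat.Prime 17) := ⟨by norm_num⟩
  haveI f19 : Fact (Nat.Prime 19) := ⟨by norm_num⟩
  have hmem : ∀ r : ℕ, r.Prime → r ∣ Nat.card G → Nat.card (Sylow r G) = 18 ∨
      Nat.card (Sylow r G) = 136 ∨ Nat.card (Sylow r G) = 153 := by
    intro r hr hd
    have : Nat.card (Sylow r G) ∈ ({18, 136, 153} : Set ℕ) := by
      rw [← hNS]
      exact ⟨r, hr, hd, rfl⟩
    simpa using this
  have hmod : ∀ r : ℕ, r.Prime → Nat.card (Sylow r G) ≡ 1 [MOD r] := by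
    intro r hr
    haveI := Fact.mk hr
    exact card_sylow_modEq_one r G
  have hdvdone : ∀ r n : ℕ, n ≡ 1 [MOD r] → 1 ≤ n → r ∣ n - 1 := by
    intro r n h hn
    exact (Nat.modEq_iff_dvd' hn).mp h.symm
  -- the prime for `18`
  obtain ⟨r, hr, hrG, hr18⟩ : (18 : ℕ) ∈ {c : ℕ | ∃ r : ℕ, r.Prime ∧ r ∣ Nat.card G ∧
      c = Nat.card (Sylow r G)} := by
    rw [hNS]
    simp
  have hr17 : r = 17 := by
    have h1 := hdvdone r _ (hmod r hr) (by rw [← hr18]; norm_num)
    rw [← hr18] at h1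
    exact (Nat.prime_dvd_prime_iff_eq hr (by norm_num)).mp h1
  subst hr17
  have h17n : Nat.card (Sylow 17 G) = 18 := hr18.symm
  have h18G : 18 ∣ Nat.card G := by
    obtain ⟨P⟩ : Nonempty (Sylow 17 G) := inferInstance
    rw [← h17n, Sylow.card_eq_index_normalizer P]
    exact Subgroup.index_dvd_card _
  have h2n : Nat.card (Sylow 2 G) = 153 := by
    have h1 : (Nat.card (Sylow 2 G)) % 2 = 1 := hmod 2 (by norm_num)
    rcases hmem 2 (by norm_num) (Dvd.dvd.trans (by norm_num) h18G) with h | h | h <;> omega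
  have h3n : Nat.card (Sylow 3 G) = 136 := by
    have h1 : (Nat.card (Sylow 3 G)) % 3 = 1 := hmod 3 (by norm_num)
    rcases hmem 3 (by norm_num) (Dvd.dvd.trans (by norm_num) h18G) with h | h | h <;> omega
  have h5n : 5 ∣ Nat.card G → Nat.card (Sylow 5 G) = 136 := by
    intro hd
    have h1 : (Nat.card (Sylow 5 G)) % 5 = 1 := hmod 5 (by norm_num)
    rcases hmem 5 (by norm_num) hd with h | h | h <;> omega
  have h19n : 19 ∣ Nat.card G → Nat.card (Sylow 19 G) = 153 := by
    intro hd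
    have h1 : (Nat.card (Sylow 19 G)) % 19 = 1 := hmod 19 (by norm_num)
    rcases hmem 19 (by norm_num) hd with h | h | h <;> omega
  have hprimes : ∀ q : ℕ, q.Prime → q ∣ Nat.card G → q = 2 ∨ q = 3 ∨ q = 5 ∨ q = 17 ∨ q = 19 := by
    intro q hq hqG
    have h135 : q ∣ 3 ^ 3 * 5 → q = 3 ∨ q = 5 := by
      intro h
      rcases (Nat.Prime.dvd_mul hq).mp h with h | h
      · left
        exact (Nat.prime_dvd_prime_iff_eq hq Nat.prime_three).mp (hq.dvd_of_dvd_pow h)
      · right
        exact (Nat.prime_dvd_prime_iff_eq hq (by norm_num)).mp h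
    have h152 : q ∣ 2 ^ 3 * 19 → q = 2 ∨ q = 19 := by
      intro h
      rcases (Nat.Prime.dvd_mul hq).mp h with h | h
      · left
        exact (Nat.prime_dvd_prime_iff_eq hq Nat.prime_two).mp (hq.dvd_of_dvd_pow h)
      · right
        exact (Nat.prime_dvd_prime_iff_eq hq (by norm_num)).mp h
    have hone : 1 ≤ Nat.card (Sylow q G) := by
      haveI := Fact.mk hq
      exact Nat.card_pos
    have h1 := hdvdone q _ (hmod q hq) hone
    rcases hmem q hq hqG with h | h | h <;> rw [h] at h1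
    · right; right; right; left
      exact (Nat.prime_dvd_prime_iff_eq hq (by norm_num)).mp h1
    · rcases h135 (by simpa using h1) with h | h <;> simp [h]
    · rcases h152 (by simpa using h1) with h | h <;> simp [h]
  -- the action on `Syl₁₇(G)`
  letI : Fintype (Sylow 17 G) := Fintype.ofFinite _
  have hΩ : Fintype.card (Sylow 17 G) = 18 := by
    rw [← Nat.card_eq_fintype_card]
    exact h17n
  let φ : G →* Perm (Sylow 17 G) := toPermHom G (Sylow 17 G)
  have hZ' : IsZassenhausGroup φ.range (Sylow 17 G) :=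
    Recog17Zass.isZassenhaus hΩ (has17 hΩ)
  have hsurj : Function.Surjective φ.rangeRestrict := φ.rangeRestrict_surjective
  -- the kernel
  have hfinish : ∀ x : φ.range, orderOf x = 9 → (Nat.card φ.range = 2448 ∨ Nat.card φ.range = 4896) →
      φ.ker = ⊥ := by
    intro x hx hcard
    have hn3 := Recog17Num.sylow3_number hZ' hΩ hcard x hx
      (h3n ▸ Recog17Kernel.card_sylow_le_of_surjective φ.rangeRestrict hsurj)
    have hn2 := Recog17Num.sylow2_number hZ' hΩ hcard
      (h2n ▸ Recog17Kernel.card_sylow_le_of_surjective φ.rangeRestrict hsurj)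
    have hkerr : φ.rangeRestrict.ker = φ.ker := MonoidHom.ker_rangeRestrict φ
    have hco5 : Nat.Coprime 5 (Nat.card φ.range) := by
      rcases hcard with h | h <;> rw [h] <;> norm_num
    have hco19 : Nat.Coprime 19 (Nat.card φ.range) := by
      rcases hcard with h | h <;> rw [h] <;> norm_num
    refine Recog17Kernel.kernel_eq_bot hZ φ.ker hprimes ?_ ?_ ?_ h5n h19n ?_ ?_
    · intro P k hk
      refine Recog17Kernel.ker_smul_eq_of_card_eq φ.rangeRestrict hsurj (hn2.trans h2n.symm) P k ?_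
      rw [hkerr]
      exact hk
    · intro P k hk
      refine Recog17Kernel.ker_smul_eq_of_card_eq φ.rangeRestrict hsurj (hn3.trans h3n.symm) P k ?_
      rw [hkerr]
      exact hk
    · intro P k hk
      have h1 : φ k = 1 := hk
      exact congrArg (fun f : Perm (Sylow 17 G) => f P) h1
    · intro R
      rw [← hkerr]
      exact Recog17Kernel.sylow_le_ker φ.rangeRestrict hco5 R
    · intro R
      rw [← hkerr]
      exact Recog17Kernel.sylow_le_ker φ.rangeRestrict hco19 R
  rcases identify hΩ hZ' with ⟨hcard, K, i1, i2, hK, ⟨iso⟩⟩ | ⟨hcard, K, i1, i2, hK, ⟨iso⟩⟩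
  · left
    obtain ⟨y, hy⟩ := exists_order_nine_psl hK
    have hker := hfinish (iso.symm y) (by rw [MulEquiv.orderOf_eq, hy]) (Or.inl hcard)
    have hinj : Function.Injective φ := (MonoidHom.ker_eq_bot_iff φ).mp hker
    exact ⟨((MonoidHom.ofInjective hinj).trans iso).trans
      (Cfsg.Agent.Lib.Compute.SmallField.pslCongr
        (FiniteField.ringEquivOfCardEq (hK.trans hF.symm)))⟩
  · right
    obtain ⟨y, hy⟩ := exists_order_nine_pgl hK
    have hker := hfinish (iso.symm y) (by rw [MulEquiv.orderOf_eq, hy]) (Or.inr hcard)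
    have hinj : Function.Injective φ := (MonoidHom.ker_eq_bot_iff φ).mp hker
    exact ⟨((MonoidHom.ofInjective hinj).trans iso).trans
      (pglCongr (FiniteField.ringEquivOfCardEq (hK.trans hF.symm)))⟩

end Cfsg.Agent.S3641
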