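import Cfsg.Statements.S3660
import Cfsg.Agent.Lib.PSL2.AffNat2
-- import your own Cfsg.Agent.* helpers here

set_option autoImplicit false
open Cfsg

namespace Cfsg.Agent.S3660

/-- The prime graph of a finite group has the prime divisors of its order as vertices, two distinct primes p, q being joined when the group has an element of order pq; two groups have the same prime graph when they have the same prime divisors and the same joined pairs. Let F be a finite field of characteristic 2 with at least 4 elements. Then there are finite groups of arbitrarily large order with the same prime graph as PSL(2,F); in particular PSL(2,F) is not determined by its prime graph. -/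
theorem result {F : Type*} [Field F] [Fintype F] [CharP F 2] (hF : 4 ≤ Fintype.card F) (N : ℕ) :
    ∃ (H : Type) (_ : Group H) (_ : Finite H), N < Nat.card H ∧
      ((∀ p : ℕ, p.Prime → (p ∣ Nat.card (Matrix.ProjectiveSpecialLinearGroup (Fin 2) F) ↔ p ∣ Nat.card H)) ∧
      (∀ p q : ℕ, p.Prime → q.Prime → p ≠ q → ((∃ g : (Matrix.ProjectiveSpecialLinearGroup (Fin 2) F), orderOf g = p * q) ↔ (∃ g : H, orderOf g = p * q)))) := by
  classical
  have h2F : (2 : F) = 0 := by
    have h := CharP.cast_eq_zero F 2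
    exact_mod_cast h
  have hfact : Fact (Nat.Prime 2) := ⟨Nat.prime_two⟩
  obtain ⟨n, -, hn⟩ := FiniteField.card F 2
  obtain ⟨E, _, _, hE, h2⟩ := Cfsg.Agent.Lib.PSL2.AffNat2.exists_field_char_two n n.ne_zero
  have hEF : Fintype.card E = Fintype.card F := by rw [hE, hn]
  refine ⟨Cfsg.Agent.Lib.PSL2.AffNat.Hk E (N + 1), inferInstance, inferInstance, ?_, ?_, ?_⟩
  · rw [Cfsg.Agent.Lib.PSL2.AffNat.card_Hk, hEF]
    have h1 : 0 < Nat.card (Matrix.SpecialLinearGroup (Fin 2) E) := Nat.card_pos
    have h3 : N < Fintype.card F ^ (2 * (N + 1)) := by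
      calc N < 2 ^ N := Nat.lt_two_pow_self
        _ ≤ Fintype.card F ^ N := Nat.pow_le_pow_left (by omega) N
        _ ≤ Fintype.card F ^ (2 * (N + 1)) := Nat.pow_le_pow_right (by omega) (by omega)
    exact lt_of_lt_of_le h3 (Nat.le_mul_of_pos_right _ h1)
  · intro p hp
    rw [Cfsg.Agent.Lib.PSL2.AffNat.card_Hk, Cfsg.Agent.Lib.PSL2.Basic.card_SL2, hEF,
      Cfsg.Agent.Lib.PSL2.Basic.card_PSL2_of_two_eq_zero h2F]
    constructor
    · intro h
      exact h.trans (Dvd.intro_left _ rfl)
    · intro h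
      rcases (Nat.Prime.dvd_mul hp).1 h with h3 | h3
      · exact (hp.dvd_of_dvd_pow h3).trans (Dvd.intro _ rfl)
      · exact h3
  · intro p q hp hq hpq
    have hL := Cfsg.Agent.Lib.PSL2.Spectrum.range_orderOf (F := F) 2
    have hH := Cfsg.Agent.Lib.PSL2.AffNat.range_orderOf_Hk (E := E) (k := N + 1) h2 (by omega)
    have hc : Nat.gcd 2 (Fintype.card F - 1) = 1 := by
      have hc : ringChar F = 2 := ringChar.eq F 2
      have heven := FiniteField.even_card_iff_char_two.1 hc
      have hodd : Odd (Fintype.card F - 1) := by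
        rw [Nat.odd_iff]; omega
      exact Nat.coprime_two_left.2 hodd
    rw [hc, Nat.div_one, Nat.div_one] at hL
    rw [hEF] at hH
    have hno2 : ¬ p * q ∣ 2 ^ 1 := Cfsg.Agent.Lib.PSL2.AffNat2.not_mul_dvd_prime_pow hp hq hpq Nat.prime_two
    have hno4 : ¬ p * q ∣ 2 ^ 2 := Cfsg.Agent.Lib.PSL2.AffNat2.not_mul_dvd_prime_pow hp hq hpq Nat.prime_two
    norm_num at hno2 hno4
    have e1 : (∃ g : Matrix.ProjectiveSpecialLinearGroup (Fin 2) F, orderOf g = p * q) ↔
        p * q ∈ Set.range (orderOf : Matrix.ProjectiveSpecialLinearGroup (Fin 2) F → ℕ) := Iff.rfl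
    have e2 : (∃ g : Cfsg.Agent.Lib.PSL2.AffNat.Hk E (N + 1), orderOf g = p * q) ↔
        p * q ∈ Set.range (orderOf : Cfsg.Agent.Lib.PSL2.AffNat.Hk E (N + 1) → ℕ) := Iff.rfl
    rw [e1, e2, hL, hH]
    simp only [Set.mem_setOf_eq, hno2, hno4, false_or]

end Cfsg.Agent.S3660
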