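import Cfsg.Statements.S3663
import Cfsg.Agent.Lib.Compute.U34Main
import Cfsg.Agent.Lib.Compute.SU3Two
import Cfsg.Agent.Lib.Compute.SmallField

set_option autoImplicit false
open Cfsg

namespace Cfsg.Agent.S3663

open Cfsg.Agent.Lib.Compute.SU3Two Cfsg.Agent.Lib.Compute.GFModel Cfsg.Agent.Lib.Classical.Herm

/-- The groups `SU` over isomorphic fields are isomorphic. -/
theorem su_congr {K L : Type*} [Field K] [Field L] (e : K ≃+* L) (n q : ℕ) :
    Nonempty (SU n K q ≃* SU n L q) := by
  refine ⟨MulEquiv.ofBijective (suCongrHom e n q) ⟨?_, ?_⟩⟩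
  · intro a b hab
    apply Subtype.ext
    apply (Cfsg.Agent.Lib.Compute.SmallField.slCongr e).injective
    exact congrArg Subtype.val hab
  · intro g
    refine ⟨suCongrHom e.symm n q g, ?_⟩
    apply Subtype.ext
    apply Subtype.ext
    ext i j
    exact e.apply_symm_apply _

/-- `PSU₃(4)` is `SU₃(4)`. -/
theorem psu_equiv {K : Type*} [Field K] [Fintype K] (hK : Fintype.card K = 4 ^ 2) :
    Nonempty (PSU 3 K 4 ≃* SU 3 K 4) := by
  have h : Nat.card (Subgroup.center (SU 3 K 4)) = 1 := by
    rw [SU.card_center_SU hK (by norm_num)]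
    norm_num
  have hb : Subgroup.center (SU 3 K 4) = ⊥ := (Subgroup.eq_bot_iff_card _).2 h
  exact ⟨(QuotientGroup.quotientMulEquivOfEq hb).trans QuotientGroup.quotientBot⟩

/-- The prime graph of a finite group has the prime divisors of its order as vertices, two distinct primes p, q being joined when the group has an element of order pq; two groups have the same prime graph when they have the same prime divisors and the same joined pairs. Let F be the field with 16 elements and L = PSU(3,4) realised over F. There are finite groups of arbitrarily large order with the same prime graph as L. -/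
theorem result {F : Type*} [Field F] [Fintype F] (hF : Fintype.card F = 16) (N : ℕ) :
    ∃ (H : Type) (_ : Group H) (_ : Finite H), N < Nat.card H ∧
      ((∀ p : ℕ, p.Prime → (p ∣ Nat.card (Cfsg.PSU 3 F 4) ↔ p ∣ Nat.card H)) ∧
      (∀ p q : ℕ, p.Prime → q.Prime → p ≠ q → ((∃ g : (Cfsg.PSU 3 F 4), orderOf g = p * q) ↔ (∃ g : H, orderOf g = p * q)))) := by
  obtain ⟨p⟩ := psu_equiv (K := F) (by rw [hF]; norm_num)
  obtain ⟨k⟩ := su_congr (equivOfCard (F := F) (K := GF16) (by rw [hF, card_GF16])) 3 4
  obtain ⟨H, i1, i2, h1, h2⟩ := Cfsg.Agent.Lib.Compute.U34Main.main N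
  exact ⟨H, i1, i2, h1, Cfsg.Agent.Lib.Compute.PrimeGraphExt.SameGraph.of_equiv (p.trans k) h2⟩

end Cfsg.Agent.S3663
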