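import Cfsg.Statements.S3664
import Cfsg.Agent.Lib.PG63.Main

set_option autoImplicit false
open Cfsg

namespace Cfsg.Agent.S3664

/-- The prime graph of a finite group has the prime divisors of its order as vertices, two distinct primes p, q being joined when the group has an element of order pq; two groups have the same prime graph when they have the same prime divisors and the same joined pairs. Let F be the field with 3 elements and L = PSp(6,F). There are finite groups of arbitrarily large order with the same prime graph as L (a prime graph shared by the orthogonal groups Ω₇(3) and PΩ⁺₈(3)). -/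
theorem result {F : Type*} [Field F] [Fintype F] (hF : Fintype.card F = 3) (N : ℕ) :
    ∃ (H : Type) (_ : Group H) (_ : Finite H), N < Nat.card H ∧
      ((∀ p : ℕ, p.Prime → (p ∣ Nat.card (Cfsg.PSp 3 F) ↔ p ∣ Nat.card H)) ∧
      (∀ p q : ℕ, p.Prime → q.Prime → p ≠ q → ((∃ g : (Cfsg.PSp 3 F), orderOf g = p * q) ↔ (∃ g : H, orderOf g = p * q)))) := by
  classical
  haveI : Fact (Nat.Prime 2) := ⟨Nat.prime_two⟩
  haveI : Finite (GaloisField 2 3) := Nat.finite_of_card_ne_zero (by rw [GaloisField.card 2 3 (by norm_num)]; norm_num)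
  letI : Fintype (GaloisField 2 3) := Fintype.ofFinite _
  have hcard : Fintype.card (GaloisField 2 3) = 2 ^ (2 * 1 + 1) := by
    rw [← Nat.card_eq_fintype_card, GaloisField.card 2 3 (by norm_num)]
  have h : Cfsg.Agent.Lib.Suzuki.Basic.Hyp (GaloisField 2 3) 1 := ⟨le_rfl, hcard⟩
  refine ⟨Cfsg.Agent.Lib.PG63.HH h (N + 1), inferInstance, Cfsg.Agent.Lib.PG63.instFiniteHH h (N + 1), ?_, ?_, ?_⟩
  · rw [Cfsg.Agent.Lib.PG63.card_HH h]
    have h1 : N + 1 < 2 ^ (N + 1) := Nat.lt_two_pow_self
    have h2 : 2 ^ (N + 1) ≤ ((8 : ℕ) ^ 16) ^ (N + 1) := Nat.pow_le_pow_left (by norm_num) _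
    nlinarith
  · intro p hp
    rw [Cfsg.Agent.Lib.PG63.prime_of_dvd_card hF hp, Cfsg.Agent.Lib.PG63.prime_HH h _ hp]
  · intro p q hp hq hpq
    rw [Cfsg.Agent.Lib.PG63.edges_iff hF hp hq hpq, Cfsg.Agent.Lib.PG63.edges_HH h _ (by omega) hp hq hpq]

end Cfsg.Agent.S3664
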