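import Cfsg.Statements.S3670
import Mathlib
import Cfsg.Agent.Lib.PGroup.DegGraphU33Char

set_option autoImplicit false
open Cfsg

namespace Cfsg.Agent.S3670

open Cfsg.Agent.Lib.PGroup.DegGraphH

/-- Degree facts transfer along isomorphisms. -/
theorem hasDeg_congr {G G' : Type*} [Group G] [Group G'] (E : G' ≃* G) {n : ℕ} (h : HasDeg G n) :
    HasDeg G' n := by
  obtain ⟨d, ⟨χ, rfl⟩, hn⟩ := h
  refine ⟨_, ⟨⟨fun x => χ.1 (E x), Cfsg.Agent.Lib.Char.Basic.isIrrCharacter_comp_surjective χ.2
    E.toMonoidHom E.surjective⟩, rfl⟩, ?_⟩
  simpa [charDegree] using hn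

/-- The character degree graph of a finite group has as vertices the primes dividing some irreducible complex character degree, two distinct primes being joined when their product divides some irreducible character degree; two groups have the same character degree graph when they have the same vertices and the same joined pairs. Let F be the field with 9 elements and L = PSU(3,3) realised over F (order 6048). There is a finite solvable group of order 6048 with the same character degree graph as L; so L is not determined by its order together with its character degree graph. -/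
theorem result {F : Type*} [Field F] [Fintype F] (hF : Fintype.card F = 9) :
    ∃ (H : Type) (_ : Group H) (_ : Fintype H), Group.IsSolvable H ∧ Nat.card H = 6048 ∧ Cfsg.degreePrimes H = Cfsg.degreePrimes (Cfsg.PSU 3 F 3) ∧ Cfsg.degreeGraph H = Cfsg.degreeGraph (Cfsg.PSU 3 F 3) := by
  classical
  have hF' : Fintype.card F = 3 ^ 2 := by rw [hF]; norm_num
  have hcen : Subgroup.center (SU 3 F 3) = ⊥ := by
    apply Subgroup.eq_bot_of_card_eq
    rw [Cfsg.Agent.Lib.Classical.Herm.SU.card_center_SU hF' (n := 3) (by norm_num)]
    rfl
  let π : SU 3 F 3 →* PSU 3 F 3 := QuotientGroup.mk' _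
  have hbij : Function.Bijective π := by
    refine ⟨?_, QuotientGroup.mk'_surjective _⟩
    rw [← MonoidHom.ker_eq_bot_iff, QuotientGroup.ker_mk', hcen]
  let E : SU 3 F 3 ≃* PSU 3 F 3 := MulEquiv.ofBijective π hbij
  haveI : Fintype (PSU 3 F 3) := Fintype.ofFinite _
  have hc : Nat.card (PSU 3 F 3) = 6048 := by
    rw [← Nat.card_congr E.toEquiv, Cfsg.Agent.Lib.PGroup.DegGraphU33.card_G hF']
  obtain ⟨h14, h21⟩ := Cfsg.Agent.Lib.PGroup.DegGraphU33Char.hasDeg_SU hF'
  exact exists_witness hc (hasDeg_congr E.symm h14) (hasDeg_congr E.symm h21)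

end Cfsg.Agent.S3670
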