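import Cfsg.Statements.S3678
import Cfsg.Agent.Lib.PSL2.AffNat2
-- import your own Cfsg.Agent.* helpers here

set_option autoImplicit false
open Cfsg

namespace Cfsg.Agent.S3678

/-- The prime graph of a finite group has the prime divisors of its order as vertices, two distinct primes p, q being joined when the group has an element of order pq; two groups have the same prime graph when they have the same prime divisors and the same joined pairs. Let F be the field with 7 elements. There are finite groups of arbitrarily large order with the same prime graph as PSL(2,F) (the graph on {2, 3, 7} with no edges, which is also the prime graph of PSL(2,8)). -/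
theorem result {F : Type*} [Field F] [Fintype F] (hF : Fintype.card F = 7) (N : ℕ) :
    ∃ (H : Type) (_ : Group H) (_ : Finite H), N < Nat.card H ∧
      ((∀ p : ℕ, p.Prime → (p ∣ Nat.card (Matrix.ProjectiveSpecialLinearGroup (Fin 2) F) ↔ p ∣ Nat.card H)) ∧
      (∀ p q : ℕ, p.Prime → q.Prime → p ≠ q → ((∃ g : (Matrix.ProjectiveSpecialLinearGroup (Fin 2) F), orderOf g = p * q) ↔ (∃ g : H, orderOf g = p * q)))) := by
  classical
  have h7 : Nat.Prime 7 := by norm_num
  have hfact : Fact (Nat.Prime 7) := ⟨h7⟩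
  have hchar : CharP F 7 := by
    obtain ⟨p, hp⟩ := CharP.exists F
    have hp' : p.Prime := CharP.char_is_prime F p
    obtain ⟨n, -, hn⟩ := FiniteField.card F p
    have hdvd : p ∣ 7 := by
      rw [← hF, hn]
      exact dvd_pow_self p n.ne_zero
    have := (Nat.prime_dvd_prime_iff_eq hp' h7).1 hdvd
    rwa [this] at hp
  have h2F : (2 : F) ≠ 0 := by
    intro h
    have h1 : ((2 : ℕ) : F) = 0 := by exact_mod_cast h
    have h3 := (CharP.cast_eq_zero_iff F 7 2).1 h1
    norm_num at h3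
  obtain ⟨E, _, _, hE, h2⟩ := Cfsg.Agent.Lib.PSL2.AffNat2.exists_field_char_two 3 (by norm_num)
  have hE8 : Fintype.card E = 8 := by rw [hE]; norm_num
  refine ⟨Cfsg.Agent.Lib.PSL2.AffNat.Hk E (N + 1), inferInstance, inferInstance, ?_, ?_, ?_⟩
  · rw [Cfsg.Agent.Lib.PSL2.AffNat.card_Hk, hE8]
    have h1 : 0 < Nat.card (Matrix.SpecialLinearGroup (Fin 2) E) := Nat.card_pos
    have h3 : N < 8 ^ (2 * (N + 1)) := by
      calc N < 2 ^ N := Nat.lt_two_pow_self
        _ ≤ 8 ^ N := Nat.pow_le_pow_left (by norm_num) N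
        _ ≤ 8 ^ (2 * (N + 1)) := Nat.pow_le_pow_right (by norm_num) (by omega)
    exact lt_of_lt_of_le h3 (Nat.le_mul_of_pos_right _ h1)
  · intro p hp
    have hcF : Nat.card (Matrix.ProjectiveSpecialLinearGroup (Fin 2) F) = 168 := by
      have := Cfsg.Agent.Lib.PSL2.Basic.card_PSL2_of_two_ne_zero h2F
      rw [hF] at this
      omega
    rw [Cfsg.Agent.Lib.PSL2.AffNat.card_Hk, Cfsg.Agent.Lib.PSL2.Basic.card_SL2, hE8, hcF]
    have e1 : (8 : ℕ) * (8 ^ 2 - 1) = 3 * 168 := by norm_num
    rw [e1]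
    constructor
    · intro h
      exact (h.trans (Dvd.intro_left 3 rfl)).trans (Dvd.intro_left _ rfl)
    · intro h
      rcases (Nat.Prime.dvd_mul hp).1 h with h3 | h3
      · exact (hp.dvd_of_dvd_pow h3).trans (by norm_num)
      · rcases (Nat.Prime.dvd_mul hp).1 h3 with h4 | h4
        · exact h4.trans (by norm_num)
        · exact h4
  · intro p q hp hq hpq
    have hL := Cfsg.Agent.Lib.PSL2.Spectrum.range_orderOf (F := F) 7
    have hH := Cfsg.Agent.Lib.PSL2.AffNat.range_orderOf_Hk (E := E) (k := N + 1) h2 (by omega)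
    rw [hF] at hL
    rw [hE8] at hH
    have hc : Nat.gcd 2 (7 - 1) = 2 := by norm_num
    rw [hc] at hL
    norm_num at hL hH
    have no7 : ¬ p * q ∣ 7 ^ 1 := Cfsg.Agent.Lib.PSL2.AffNat2.not_mul_dvd_prime_pow hp hq hpq h7
    have no3 : ¬ p * q ∣ 3 ^ 1 := Cfsg.Agent.Lib.PSL2.AffNat2.not_mul_dvd_prime_pow hp hq hpq (by norm_num)
    have no4 : ¬ p * q ∣ 2 ^ 2 := Cfsg.Agent.Lib.PSL2.AffNat2.not_mul_dvd_prime_pow hp hq hpq (by norm_num)
    have no9 : ¬ p * q ∣ 3 ^ 2 := Cfsg.Agent.Lib.PSL2.AffNat2.not_mul_dvd_prime_pow hp hq hpq (by norm_num)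
    norm_num at no7 no3 no4 no9
    have e1 : (∃ g : Matrix.ProjectiveSpecialLinearGroup (Fin 2) F, orderOf g = p * q) ↔
        p * q ∈ Set.range (orderOf : Matrix.ProjectiveSpecialLinearGroup (Fin 2) F → ℕ) := Iff.rfl
    have e2 : (∃ g : Cfsg.Agent.Lib.PSL2.AffNat.Hk E (N + 1), orderOf g = p * q) ↔
        p * q ∈ Set.range (orderOf : Cfsg.Agent.Lib.PSL2.AffNat.Hk E (N + 1) → ℕ) := Iff.rfl
    rw [e1, e2, hL, hH]
    simp only [Set.mem_setOf_eq, no7, no3, no4, no9, or_false, false_or]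

end Cfsg.Agent.S3678
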