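import Cfsg.Statements.S3680
import Mathlib
import Cfsg.Agent.S0721
import Cfsg.Agent.Lib.Solvable.MinimalNormal
-- import your own Cfsg.Agent.* helpers here

set_option autoImplicit false
open Cfsg

namespace Cfsg.Agent.S3680

open MulAction Cfsg.Agent.Lib.Solvable.MinimalNormal

section Aux

variable {G Ω : Type*} [Group G] [MulAction G Ω]

/-- A nontrivial normal subgroup of a faithful primitive group is transitive. -/
theorem transitive_of_normal [FaithfulSMul G Ω] (hprim : IsPreprimitive G Ω) (V : Subgroup G) (hV : V.Normal)
    (hne : V ≠ ⊥) : IsPretransitive V Ω := by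
  haveI := hprim
  apply IsQuasiPreprimitive.isPretransitive_of_normal
  intro hfix
  apply hne
  rw [eq_bot_iff]
  intro v hv
  rw [Subgroup.mem_bot]
  apply FaithfulSMul.eq_of_smul_eq_smul (α := Ω)
  intro w
  have : w ∈ fixedPoints V Ω := by rw [hfix]; trivial
  rw [one_smul]
  exact this ⟨v, hv⟩

/-- An element commuting with a transitive subgroup and fixing a point is trivial. -/
theorem eq_one_of_commute [FaithfulSMul G Ω] (V : Subgroup G) (hV : IsPretransitive V Ω) {c : G}
    (hc : ∀ v ∈ V, c * v = v * c) {w : Ω} (hw : c • w = w) : c = 1 := by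
  apply FaithfulSMul.eq_of_smul_eq_smul (α := Ω)
  intro y
  obtain ⟨v, rfl⟩ := exists_smul_eq V w y
  rw [one_smul]
  change c • (v : G) • w = (v : G) • w
  rw [← mul_smul, hc v v.2, mul_smul, hw]

theorem disjoint_of_ne {V W : Subgroup G} (hV : IsMinNormal V) (hW : IsMinNormal W) (hne : V ≠ W) :
    Disjoint V W := by
  haveI := hV.normal
  haveI := hW.normal
  rw [disjoint_iff]
  have hn : (V ⊓ W).Normal := inferInstance
  rcases hV.eq_bot_or_eq _ hn inf_le_left with h | h
  · exact h
  · exfalso
    have hle : V ≤ W := by
      rw [← h]; exact inf_le_right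
    rcases hW.eq_bot_or_eq V hV.normal hle with h1 | h1
    · exact hV.ne_bot h1
    · exact hne h1

/-- Two different minimal normal subgroups commute. -/
theorem commute_of_ne {V W : Subgroup G} (hV : IsMinNormal V) (hW : IsMinNormal W) (hne : V ≠ W) :
    ∀ v ∈ V, ∀ w ∈ W, v * w = w * v := by
  intro v hv w hw
  exact Subgroup.commute_of_normal_of_disjoint V W hV.normal hW.normal (disjoint_of_ne hV hW hne) v w hv hw

/-- Squares of powers. -/
noncomputable def prodPiEquiv (T : Type*) [Group T] (m : ℕ) : ((Fin m → T) × (Fin m → T)) ≃* (Fin (m + m) → T) :=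
  MulEquiv.mk' ((Equiv.sumArrowEquivProdArrow (Fin m) (Fin m) T).symm.trans
    (Equiv.arrowCongr finSumFinEquiv (Equiv.refl T))) (by
    intro a b
    funext i
    simp only [Equiv.trans_apply, Equiv.arrowCongr_apply, Equiv.refl_apply, Function.comp, Pi.mul_apply]
    rcases finSumFinEquiv.symm i with j | j <;> rfl)

end Aux

/-- The socle of a finite primitive permutation group. Let a finite group G act faithfully and primitively on a set Ω, and let N be the subgroup generated by the minimal normal subgroups of G. Then either N is an elementary abelian p-group for some prime p and acts regularly on Ω (transitively with trivial point stabilizers), or N is isomorphic to a direct product of m ≥ 1 copies of a non-abelian simple group. -/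
theorem result {G Ω : Type*} [Group G] [Finite G] [MulAction G Ω] [FaithfulSMul G Ω] [Finite Ω]
    (hprim : MulAction.IsPreprimitive G Ω) (N : Subgroup G)
    (hN : N = sSup {V : Subgroup G | V.Normal ∧ V ≠ ⊥ ∧ ∀ M : Subgroup G, M.Normal → M ≤ V → M = ⊥ ∨ M = V}) :
    (∃ p : ℕ, p.Prime ∧ IsMulCommutative N ∧ (∀ x : N, x ^ p = 1) ∧
      MulAction.IsPretransitive N Ω ∧ ∀ ω : Ω, MulAction.stabilizer N ω = ⊥) ∨
    (∃ (T : Type) (_ : Group T) (m : ℕ), 1 ≤ m ∧ IsSimpleGroup T ∧ ¬ IsMulCommutative T ∧ Nonempty (N ≃* (Fin m → T))) := by
  classical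
  subst hN
  set 𝓜 : Set (Subgroup G) := {V : Subgroup G | V.Normal ∧ V ≠ ⊥ ∧ ∀ M : Subgroup G, M.Normal → M ≤ V → M = ⊥ ∨ M = V} with h𝓜
  have hmem : ∀ V, V ∈ 𝓜 ↔ IsMinNormal V := fun V => Iff.rfl
  by_cases hG : Nontrivial G
  swap
  · -- the trivial group
    rw [not_nontrivial_iff_subsingleton] at hG
    left
    refine ⟨2, Nat.prime_two, ⟨⟨fun a b => Subsingleton.elim _ _⟩⟩, fun x => Subsingleton.elim _ _, ?_, ?_⟩
    · refine ⟨fun a b => ?_⟩
      obtain ⟨g, hg⟩ := hprim.toIsPretransitive.exists_smul_eq a b
      refine ⟨1, ?_⟩
      rw [Subsingleton.elim g 1, one_smul] at hg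
      rw [one_smul, hg]
    · intro ω
      exact Subsingleton.elim _ _
  obtain ⟨V₀, hV₀⟩ := exists_isMinNormal (G := G)
  by_cases hab : ∃ V : Subgroup G, IsMinNormal V ∧ IsMulCommutative V
  · -- an abelian minimal normal subgroup
    obtain ⟨V, hV, hVab⟩ := hab
    have hVc : ∀ a ∈ V, ∀ b ∈ V, a * b = b * a := by
      intro a ha b hb
      exact congrArg Subtype.val (hVab.is_comm.comm ⟨a, ha⟩ ⟨b, hb⟩)
    have htr := transitive_of_normal hprim V hV.normal hV.ne_bot
    have hset : 𝓜 = {V} := by
      ext W
      rw [Set.mem_singleton_iff, hmem]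
      constructor
      · intro hW
        by_contra hne
        obtain ⟨ω⟩ : Nonempty Ω := by
          by_contra hemp
          rw [not_nonempty_iff] at hemp
          obtain ⟨g, hg⟩ := exists_ne (1 : G)
          exact hg (FaithfulSMul.eq_of_smul_eq_smul (α := Ω) (fun y => hemp.elim y))
        have hle : W ≤ V := by
          intro w hw
          obtain ⟨v, hv⟩ := exists_smul_eq V ω (w • ω)
          have hv' : (v : G) • ω = w • ω := hv
          have h1 : (v : G)⁻¹ * w = 1 := by
            refine eq_one_of_commute V htr (w := ω) (fun u hu => ?_) ?_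
            · have h2 := commute_of_ne hV hW (Ne.symm hne) u hu w hw
              have h3 := hVc u hu v v.2
              calc (v : G)⁻¹ * w * u = (v : G)⁻¹ * (w * u) := by group
                _ = (v : G)⁻¹ * (u * w) := by rw [h2]
                _ = ((v : G)⁻¹ * u) * w := by group
                _ = (u * (v : G)⁻¹) * w := by
                    congr 1
                    rw [inv_mul_eq_iff_eq_mul, ← mul_assoc, ← h3, mul_assoc, mul_inv_cancel, mul_one]
                _ = u * ((v : G)⁻¹ * w) := by group
            · rw [mul_smul, ← hv', inv_smul_smul]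
          have h4 : w = v := by
            rw [inv_mul_eq_one] at h1
            exact h1.symm
          rw [h4]
          exact v.2
        rcases hV.eq_bot_or_eq W hW.normal hle with h | h
        · exact hW.ne_bot h
        · exact hne h
      · rintro rfl
        exact hV
    rw [hset, sSup_singleton]
    left
    obtain ⟨p, hp, hpd⟩ : ∃ p, p.Prime ∧ p ∣ Nat.card V := by
      have h1 : Nat.card V ≠ 1 := by
        intro h
        apply hV.ne_bot
        rw [Subgroup.card_eq_one] at h
        exact h
      exact ⟨(Nat.card V).minFac, Nat.minFac_prime h1, Nat.minFac_dvd _⟩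
    refine ⟨p, hp, hVab, ?_, htr, ?_⟩
    · -- exponent `p`
      haveI := hV.normal
      let Vp : Subgroup G :=
        { carrier := {x | x ∈ V ∧ x ^ p = 1}
          one_mem' := ⟨V.one_mem, one_pow _⟩
          mul_mem' := by
            rintro a b ⟨ha, ha'⟩ ⟨hb, hb'⟩
            refine ⟨V.mul_mem ha hb, ?_⟩
            rw [(show Commute a b from hVc a ha b hb).mul_pow, ha', hb', one_mul]
          inv_mem' := by
            rintro a ⟨ha, ha'⟩
            exact ⟨V.inv_mem ha, by rw [inv_pow, ha', inv_one]⟩ }
      have hVpn : Vp.Normal := by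
        refine ⟨fun x hx g => ⟨hV.normal.conj_mem x hx.1 g, ?_⟩⟩
        rw [conj_pow, hx.2, mul_one, mul_inv_cancel]
      have hVpne : Vp ≠ ⊥ := by
        haveI : Fact p.Prime := ⟨hp⟩
        obtain ⟨x, hx⟩ := exists_prime_orderOf_dvd_card' p hpd
        intro hb
        have hx1 : (x : G) ∈ Vp := ⟨x.2, by
          have := pow_orderOf_eq_one x
          rw [hx] at this
          exact_mod_cast congrArg Subtype.val this⟩
        rw [hb, Subgroup.mem_bot] at hx1
        have : x = 1 := Subtype.ext hx1
        rw [this, orderOf_one] at hx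
        exact hp.one_lt.ne hx
      rcases hV.eq_bot_or_eq Vp hVpn (fun x hx => hx.1) with h | h
      · exact absurd h hVpne
      · intro x
        have hx : (x : G) ∈ Vp := by rw [h]; exact x.2
        apply Subtype.ext
        simpa using hx.2
    · intro ω
      rw [eq_bot_iff]
      intro v hv
      rw [Subgroup.mem_bot]
      apply Subtype.ext
      exact eq_one_of_commute V htr (w := ω) (fun u hu => hVc v v.2 u hu) hv
  · -- no abelian minimal normal subgroup
    push Not at hab
    right
    have hV₀ab := hab V₀ hV₀
    haveI := hV₀.normal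
    obtain ⟨T, iT, m, hTs, hm, ⟨e⟩⟩ := Cfsg.Agent.S0721.result V₀ hV₀.ne_bot hV₀.2.2
    have hTab : ¬ IsMulCommutative T := by
      intro hT
      apply hV₀ab
      refine ⟨⟨fun a b => e.injective ?_⟩⟩
      rw [map_mul, map_mul]
      funext i
      exact hT.is_comm.comm _ _
    by_cases hW : ∃ W : Subgroup G, IsMinNormal W ∧ W ≠ V₀
    · obtain ⟨W, hWm, hWne⟩ := hW
      have hcomm := commute_of_ne hV₀ hWm hWne.symm
      have htrV := transitive_of_normal hprim V₀ hV₀.normal hV₀.ne_bot
      have htrW := transitive_of_normal hprim W hWm.normal hWm.ne_bot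
      obtain ⟨ω⟩ : Nonempty Ω := by
        by_contra hemp
        rw [not_nonempty_iff] at hemp
        obtain ⟨g, hg⟩ := exists_ne (1 : G)
        exact hg (FaithfulSMul.eq_of_smul_eq_smul (α := Ω) (fun y => hemp.elim y))
      have hset : 𝓜 = {V₀, W} := by
        ext X
        rw [Set.mem_insert_iff, Set.mem_singleton_iff, hmem]
        constructor
        · intro hX
          by_cases hXV : X = V₀
          · exact Or.inl hXV
          right
          have hle : X ≤ W := by
            intro x hx
            obtain ⟨w, hw⟩ := exists_smul_eq W ω (x • ω)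
            have hw' : (w : G) • ω = x • ω := hw
            have h1 : (w : G)⁻¹ * x = 1 := by
              refine eq_one_of_commute V₀ htrV (w := ω) (fun u hu => ?_) ?_
              · have h2 := commute_of_ne hV₀ hX (Ne.symm hXV) u hu x hx
                have h3 := hcomm u hu w w.2
                calc (w : G)⁻¹ * x * u = (w : G)⁻¹ * (x * u) := by group
                  _ = (w : G)⁻¹ * (u * x) := by rw [h2]
                  _ = ((w : G)⁻¹ * u) * x := by group
                  _ = (u * (w : G)⁻¹) * x := by
                      congr 1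
                      exact (show Commute u (w : G) from h3).symm.inv_left
                  _ = u * ((w : G)⁻¹ * x) := by group
              · rw [mul_smul, ← hw', inv_smul_smul]
            have h4 : x = w := by
              rw [inv_mul_eq_one] at h1
              exact h1.symm
            rw [h4]
            exact w.2
          rcases hWm.eq_bot_or_eq X hX.normal hle with h | h
          · exact absurd h hX.ne_bot
          · exact h
        · rintro (rfl | rfl)
          · exact hV₀
          · exact hWm
      rw [hset, sSup_pair]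
      -- the isomorphism between the two factors
      have hex : ∀ v : V₀, ∃ w : W, (w : G) • ω = (v : G)⁻¹ • ω := fun v => exists_smul_eq W ω _
      choose ψ hψ using hex
      have huniq : ∀ w₁ w₂ : W, (w₁ : G) • ω = (w₂ : G) • ω → w₁ = w₂ := by
        intro w₁ w₂ h
        have h1 : (w₁ : G)⁻¹ * w₂ = 1 := by
          refine eq_one_of_commute V₀ htrV (w := ω) (fun u hu => ?_) ?_
          · have h2 := hcomm u hu w₁ w₁.2
            have h3 := hcomm u hu w₂ w₂.2
            calc (w₁ : G)⁻¹ * w₂ * u = (w₁ : G)⁻¹ * (w₂ * u) := by group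
              _ = (w₁ : G)⁻¹ * (u * w₂) := by rw [h3]
              _ = ((w₁ : G)⁻¹ * u) * w₂ := by group
              _ = (u * (w₁ : G)⁻¹) * w₂ := by
                  congr 1
                  exact (show Commute u (w₁ : G) from h2).symm.inv_left
              _ = u * ((w₁ : G)⁻¹ * w₂) := by group
          · rw [mul_smul, ← h, inv_smul_smul]
        rw [inv_mul_eq_one] at h1
        exact Subtype.ext h1
      have hψmul : ∀ a b : V₀, ψ (a * b) = ψ a * ψ b := by
        intro a b
        apply huniq
        rw [hψ]
        change _ = ((ψ a : G) * (ψ b : G)) • ω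
        rw [mul_smul, hψ b]
        have h1 : (ψ a : G) • ((b : G)⁻¹ • ω) = (b : G)⁻¹ • ((ψ a : G) • ω) := by
          rw [← mul_smul, ← mul_smul]
          congr 1
          have := hcomm _ (V₀.inv_mem b.2) _ (ψ a).2
          exact this.symm
        rw [h1, hψ a, ← mul_smul]
        congr 1
        simp [mul_inv_rev]
      have hψinj : Function.Injective ψ := by
        intro a b hab
        have h1 := hψ a
        rw [hab, hψ b] at h1
        have h2 : (b : G)⁻¹ • ω = (a : G)⁻¹ • ω := h1
        have h3 : (a : G) * (b : G)⁻¹ = 1 := by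
          refine eq_one_of_commute W htrW (w := ω) (fun u hu => ?_) ?_
          · have h4 := hcomm a a.2 u hu
            have h5 := hcomm b b.2 u hu
            calc (a : G) * (b : G)⁻¹ * u = a * ((b : G)⁻¹ * u) := by group
              _ = a * (u * (b : G)⁻¹) := by
                  congr 1
                  exact (show Commute (b : G) u from h5).inv_left
              _ = (a * u) * (b : G)⁻¹ := by group
              _ = (u * a) * (b : G)⁻¹ := by rw [h4]
              _ = u * (a * (b : G)⁻¹) := by group
          · rw [mul_smul, h2, smul_inv_smul]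
        have : (a : G) = b := by
          rw [mul_inv_eq_one] at h3
          exact h3
        exact Subtype.ext this
      have hψsurj : Function.Surjective ψ := by
        intro w
        obtain ⟨v, hv⟩ := exists_smul_eq V₀ ω ((w : G) • ω)
        refine ⟨v⁻¹, huniq _ _ ?_⟩
        rw [hψ]
        have hv' : (v : G) • ω = (w : G) • ω := hv
        simpa using hv'
      let Ψ : V₀ ≃* W := MulEquiv.ofBijective (MonoidHom.mk' ψ hψmul) ⟨hψinj, hψsurj⟩
      -- the product
      let f : V₀ × W →* G := MonoidHom.noncommCoprod V₀.subtype W.subtype (fun a b => hcomm a a.2 b b.2)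
      have hf : Function.Injective f := by
        refine (MonoidHom.noncommCoprod_injective _ _ _).mpr ⟨Subtype.val_injective, Subtype.val_injective, ?_⟩
        rw [Subgroup.range_subtype, Subgroup.range_subtype]
        exact disjoint_of_ne hV₀ hWm hWne.symm
      have hfr : f.range = V₀ ⊔ W := by
        refine (MonoidHom.noncommCoprod_range _ _ _).trans ?_
        rw [Subgroup.range_subtype, Subgroup.range_subtype]
      refine ⟨T, iT, m + m, by omega, hTs, hTab, ⟨?_⟩⟩
      exact (MulEquiv.subgroupCongr hfr.symm).trans ((MonoidHom.ofInjective hf).symm.trans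
        ((MulEquiv.prodCongr e (Ψ.symm.trans e)).trans (prodPiEquiv T m)))
    · push Not at hW
      have hset : 𝓜 = {V₀} := by
        ext W
        rw [Set.mem_singleton_iff, hmem]
        exact ⟨fun h => hW W h, fun h => h ▸ hV₀⟩
      rw [hset, sSup_singleton]
      exact ⟨T, iT, m, hm, hTs, hTab, ⟨e⟩⟩

end Cfsg.Agent.S3680
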