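import Cfsg.Statements.S3683
import Mathlib
-- import your own Cfsg.Agent.* helpers here

set_option autoImplicit false
open Cfsg

namespace Cfsg.Agent.S3683

/-- Let a finite group G act faithfully and primitively on a set Ω, and suppose the stabilizer of a point a fixes a second point b ≠ a (a suborbit of length 1 other than {a}). Then the stabilizer of a is trivial and G is cyclic of prime order. -/
theorem result {G Ω : Type*} [Group G] [Finite G] [MulAction G Ω] [FaithfulSMul G Ω] [Finite Ω]
    (hprim : MulAction.IsPreprimitive G Ω) (a b : Ω) (hab : a ≠ b) (hfix : ∀ g : G, g • a = a → g • b = b) :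
    MulAction.stabilizer G a = ⊥ ∧ IsCyclic G ∧ (Nat.card G).Prime := by
  classical
  haveI : Nontrivial Ω := ⟨a, b, hab⟩
  have hco : IsCoatom (MulAction.stabilizer G a) :=
    (MulAction.isCoatom_stabilizer_iff_preprimitive G a).mpr hprim
  obtain ⟨g, hg⟩ := MulAction.exists_smul_eq G a b
  have hle : MulAction.stabilizer G a ≤ MulAction.stabilizer G b := fun x hx => hfix x hx
  -- both stabilisers have the same cardinality
  have hb : MulAction.stabilizer G b = (MulAction.stabilizer G a).map (MulAut.conj g).toMonoidHom := by
    ext x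
    simp only [MulAction.mem_stabilizer_iff, Subgroup.mem_map, MulEquiv.coe_toMonoidHom, MulAut.conj_apply]
    constructor
    · intro hx
      refine ⟨g⁻¹ * x * g, ?_, by group⟩
      rw [mul_smul, mul_smul, hg, hx, ← hg, inv_smul_smul]
    · rintro ⟨y, hy, rfl⟩
      rw [← hg, mul_smul, mul_smul, inv_smul_smul, hy]
  have hcard : Nat.card (MulAction.stabilizer G b) = Nat.card (MulAction.stabilizer G a) := by
    rw [hb]
    exact Nat.card_congr (((MulAction.stabilizer G a).equivMapOfInjective _ (MulAut.conj g).injective).symm.toEquiv)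
  have heq : MulAction.stabilizer G a = MulAction.stabilizer G b :=
    Subgroup.eq_of_le_of_card_ge hle (le_of_eq hcard)
  have hgnot : g ∉ MulAction.stabilizer G a := by
    intro h
    rw [MulAction.mem_stabilizer_iff, hg] at h
    exact hab h.symm
  -- the stabiliser is normalised by g, so by everything
  have hnorm : Subgroup.normalizer ((MulAction.stabilizer G a : Subgroup G) : Set G) = ⊤ := by
    apply hco.2
    refine lt_of_le_of_ne Subgroup.le_normalizer ?_
    intro h
    apply hgnot
    rw [h, Subgroup.mem_normalizer_iff]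
    intro x
    constructor
    · intro hx
      rw [heq, hb]
      exact ⟨x, hx, rfl⟩
    · intro hx
      rw [heq, hb] at hx
      obtain ⟨y, hy, hyx⟩ := hx
      have : y = x := by
        have h2 : g * y * g⁻¹ = g * x * g⁻¹ := by simpa [MulAut.conj_apply] using hyx
        simpa using h2
      rw [← this]
      exact hy
  -- hence it is trivial by faithfulness
  have hbot : MulAction.stabilizer G a = ⊥ := by
    rw [eq_bot_iff]
    intro x hx
    rw [Subgroup.mem_bot]
    apply FaithfulSMul.eq_of_smul_eq_smul (α := Ω)
    intro w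
    obtain ⟨h, rfl⟩ := MulAction.exists_smul_eq G a w
    rw [one_smul]
    have hconj : h⁻¹ * x * h ∈ MulAction.stabilizer G a := by
      have hh : h⁻¹ ∈ Subgroup.normalizer ((MulAction.stabilizer G a : Subgroup G) : Set G) := by
        rw [hnorm]; trivial
      have := (Subgroup.mem_normalizer_iff.mp hh x).mp hx
      rwa [inv_inv] at this
    have h3 : (h⁻¹ * x * h) • a = a := hconj
    calc x • h • a = h • (h⁻¹ * x * h) • a := by
          rw [smul_smul, smul_smul]; congr 1; group
      _ = h • a := by rw [h3]
  refine ⟨hbot, ?_⟩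
  rw [hbot] at hco
  -- every nontrivial subgroup is the whole group
  have hsub : ∀ H : Subgroup G, H ≠ ⊥ → H = ⊤ := fun H hH => hco.2 H (bot_lt_iff_ne_bot.mpr hH)
  have hnt : Nontrivial G := by
    refine ⟨g, 1, ?_⟩
    rintro rfl
    rw [one_smul] at hg
    exact hab hg
  obtain ⟨x, hx⟩ := exists_ne (1 : G)
  have hcyc : IsCyclic G := by
    refine ⟨x, fun y => ?_⟩
    have := hsub (Subgroup.zpowers x) (by simpa using hx)
    have hy : y ∈ Subgroup.zpowers x := by rw [this]; trivial
    exact hy
  refine ⟨hcyc, ?_⟩
  haveI : IsMulCommutative G := inferInstance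
  rw [← Group.is_simple_iff_prime_card]
  refine ⟨fun H _ => ?_⟩
  by_cases h : H = ⊥
  · exact Or.inl h
  · exact Or.inr (hsub H h)

end Cfsg.Agent.S3683
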