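import Cfsg.Statements.S3684
import Cfsg.Agent.S0206
import Mathlib
set_option autoImplicit false
open Cfsg

namespace Cfsg.Agent.S3684

/-- Let a finite group G act faithfully and primitively on a set Ω, and suppose the stabilizer of a point a has an orbit of length 2. Then the stabilizer of a has order 2 and G is isomorphic to the dihedral group of order 2p for some prime p. -/
theorem result {G Ω : Type*} [Group G] [Finite G] [MulAction G Ω] [FaithfulSMul G Ω] [Finite Ω]
    (hprim : MulAction.IsPreprimitive G Ω) (a b : Ω) (h2 : Nat.card (MulAction.orbit (MulAction.stabilizer G a) b) = 2) :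
    Nat.card (MulAction.stabilizer G a) = 2 ∧ ∃ p : ℕ, p.Prime ∧ Nonempty (G ≃* DihedralGroup p) := by
  classical
  haveI := hprim
  haveI : MulAction.IsPretransitive G Ω := hprim.toIsPretransitive
  set Ga := MulAction.stabilizer G a with hGa
  set Gb := MulAction.stabilizer G b with hGb
  -- equal orders
  have hcardab : Nat.card Gb = Nat.card Ga := by
    obtain ⟨g, hg⟩ := MulAction.exists_smul_eq G a b
    rw [hGb, ← hg, MulAction.stabilizer_smul_eq_stabilizer_map_conj]
    exact Subgroup.card_map_of_injective (MulAut.conj g).injective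
  -- the index-two intersection
  have hK' : (MulAction.stabilizer Ga b).index = 2 := by
    rw [MulAction.index_stabilizer, ← Nat.card_coe_set_eq]
    exact h2
  set K := Ga ⊓ Gb with hKdef
  have hcardK' : Nat.card (MulAction.stabilizer Ga b) = Nat.card K := by
    have h3 : (MulAction.stabilizer Ga b).map Ga.subtype = K := by
      ext g
      simp only [Subgroup.mem_map, MulAction.mem_stabilizer_iff, Subgroup.subtype_apply, hKdef,
        Subgroup.mem_inf, hGa, hGb]
      constructor
      · rintro ⟨x, hx, rfl⟩
        exact ⟨x.2, hx⟩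
      · rintro ⟨h4, h5⟩
        exact ⟨⟨g, h4⟩, h5, rfl⟩
    rw [← h3]
    exact (Subgroup.card_map_of_injective Ga.subtype_injective).symm
  have hcardGa : Nat.card Ga = Nat.card K * 2 := by
    rw [← hcardK', ← hK']
    exact (Subgroup.card_mul_index _).symm
  have hcardGb : Nat.card Gb = Nat.card K * 2 := by rw [hcardab, hcardGa]
  have hKpos : 0 < Nat.card K := Nat.card_pos
  have hindex : ∀ L : Subgroup G, K ≤ L → Nat.card L = Nat.card K * 2 → (K.subgroupOf L).Normal := by
    intro L hL hcL
    apply Subgroup.normal_of_index_eq_two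
    have h3 := Subgroup.card_mul_index (K.subgroupOf L)
    have h4 : Nat.card (K.subgroupOf L) = Nat.card K :=
      Nat.card_congr (Subgroup.subgroupOfEquivOfLe hL).toEquiv
    rw [h4, hcL] at h3
    exact Nat.eq_of_mul_eq_mul_left hKpos h3
  have hnormL : ∀ L : Subgroup G, K ≤ L → Nat.card L = Nat.card K * 2 → ∀ g ∈ L, ∀ k ∈ K, g * k * g⁻¹ ∈ K := by
    intro L hL hcL g hg k hk
    haveI := hindex L hL hcL
    have h3 : (⟨k, hL hk⟩ : L) ∈ K.subgroupOf L := hk
    have h4 := Subgroup.Normal.conj_mem inferInstance _ h3 ⟨g, hg⟩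
    exact h4
  -- `b ≠ a` and the stabilizers differ
  have hne : Ga ≠ Gb := by
    intro h3
    have h4 : ∀ g : Ga, g • b = b := by
      intro g
      have h5 : (g : G) ∈ Gb := h3 ▸ g.2
      exact h5
    have h5 : MulAction.orbit Ga b = {b} := by
      ext x
      simp only [MulAction.mem_orbit_iff, Set.mem_singleton_iff]
      constructor
      · rintro ⟨g, rfl⟩; exact h4 g
      · rintro rfl; exact ⟨1, one_smul _ _⟩
    rw [h5] at h2
    simp at h2
  have hab : a ≠ b := by
    rintro rfl
    exact hne rfl
  haveI : Nontrivial Ω := ⟨⟨a, b, hab⟩⟩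
  have hcoatom : IsCoatom Ga := (MulAction.isCoatom_stabilizer_iff_preprimitive G a).mpr hprim
  have hsup : Ga ⊔ Gb = ⊤ := by
    refine hcoatom.2 _ (lt_of_le_of_ne le_sup_left ?_)
    intro h3
    have h4 : Gb ≤ Ga := by rw [h3]; exact le_sup_right
    have h5 : Gb = Ga := Subgroup.eq_of_le_of_card_ge h4 (by rw [hcardab])
    exact hne h5.symm
  -- `K` is normal, hence trivial
  have hKnormal : ∀ g : G, ∀ k ∈ K, g * k * g⁻¹ ∈ K := by
    have h3 : Ga ⊔ Gb ≤ Subgroup.normalizer (K : Set G) := by
      refine sup_le ?_ ?_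
      · intro g hg
        rw [Subgroup.mem_normalizer_iff]
        intro k
        constructor
        · exact fun hk => hnormL Ga inf_le_left hcardGa g hg k hk
        · intro hk
          have := hnormL Ga inf_le_left hcardGa g⁻¹ (Ga.inv_mem hg) _ hk
          simpa [mul_assoc] using this
      · intro g hg
        rw [Subgroup.mem_normalizer_iff]
        intro k
        constructor
        · exact fun hk => hnormL Gb inf_le_right hcardGb g hg k hk
        · intro hk
          have := hnormL Gb inf_le_right hcardGb g⁻¹ (Gb.inv_mem hg) _ hk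
          simpa [mul_assoc] using this
    rw [hsup] at h3
    intro g k hk
    exact (Subgroup.mem_normalizer_iff.mp (h3 (Subgroup.mem_top g)) k).mp hk
  have hKbot : K = ⊥ := by
    rw [eq_bot_iff]
    intro k hk
    rw [Subgroup.mem_bot]
    apply FaithfulSMul.eq_of_smul_eq_smul (α := Ω)
    intro x
    obtain ⟨g, rfl⟩ := MulAction.exists_smul_eq G a x
    rw [one_smul]
    have h3 : g⁻¹ * k * g ∈ K := by simpa using hKnormal g⁻¹ k hk
    have h4 : (g⁻¹ * k * g) • a = a := h3.1
    calc k • g • a = g • (g⁻¹ * k * g) • a := by simp [smul_smul, mul_assoc]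
      _ = g • a := by rw [h4]
  have hKcard : Nat.card K = 1 := by rw [hKbot]; exact Nat.card_unique
  have hGa2 : Nat.card Ga = 2 := by rw [hcardGa, hKcard]
  have hGb2 : Nat.card Gb = 2 := by rw [hcardGb, hKcard]
  refine ⟨hGa2, ?_⟩
  -- the involutions
  have hinv : ∀ L : Subgroup G, Nat.card L = 2 → ∃ t ∈ L, orderOf t = 2 ∧ ∀ g ∈ L, g = 1 ∨ g = t := by
    intro L hL
    obtain ⟨x, y, hxy, hall⟩ := Nat.card_eq_two_iff.mp hL
    have hall' : ∀ z : L, z = x ∨ z = y := by
      intro z
      have : z ∈ ({x, y} : Set L) := by rw [hall]; trivial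
      simpa using this
    have : ∃ t : L, t ≠ 1 ∧ ∀ z : L, z = 1 ∨ z = t := by
      rcases hall' 1 with h1 | h1
      · exact ⟨y, by rw [h1]; exact hxy.symm, fun z => by
          rcases hall' z with h3 | h3
          · left; rw [h3, h1]
          · right; exact h3⟩
      · exact ⟨x, by rw [h1]; exact hxy, fun z => by
          rcases hall' z with h3 | h3
          · right; exact h3
          · left; rw [h3, h1]⟩
    obtain ⟨t, ht1, htall⟩ := this
    refine ⟨t, t.2, ?_, ?_⟩
    · rw [Subgroup.orderOf_coe]
      have h3 : orderOf t ∣ 2 := by rw [← hL]; exact orderOf_dvd_natCard t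
      have h4 : orderOf t ≠ 1 := by rwa [Ne, orderOf_eq_one_iff]
      exact (Nat.dvd_prime Nat.prime_two).mp h3 |>.resolve_left h4
    · intro g hg
      rcases htall ⟨g, hg⟩ with h3 | h3
      · left; exact congrArg Subtype.val h3
      · right; exact congrArg Subtype.val h3
  obtain ⟨t, htG, htord, htall⟩ := hinv Ga hGa2
  obtain ⟨s, hsG, hsord, hsall⟩ := hinv Gb hGb2
  have hst : s ≠ t := by
    rintro rfl
    apply hne
    refine Subgroup.eq_of_le_of_card_ge ?_ (by rw [hcardab])
    intro g hg
    rcases htall g hg with rfl | rfl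
    · exact Gb.one_mem
    · exact hsG
  have hclosure : Subgroup.closure ({s, t} : Set G) = ⊤ := by
    rw [eq_top_iff, ← hsup]
    refine sup_le ?_ ?_
    · intro g hg
      rcases htall g hg with rfl | rfl
      · exact Subgroup.one_mem _
      · exact Subgroup.subset_closure (by simp)
    · intro g hg
      rcases hsall g hg with rfl | rfl
      · exact Subgroup.one_mem _
      · exact Subgroup.subset_closure (by simp)
  obtain ⟨e⟩ := Cfsg.Agent.S0206.result s t hsord htord hst
  have eG : G ≃* DihedralGroup (orderOf (s * t)) :=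
    Subgroup.topEquiv.symm.trans ((MulEquiv.subgroupCongr hclosure.symm).trans e)
  set x := s * t with hx
  set m := orderOf x with hm
  have hmpos : 0 < m := orderOf_pos x
  haveI : NeZero m := ⟨hmpos.ne'⟩
  have hcardG : Nat.card G = 2 * m := by
    rw [Nat.card_congr eG.toEquiv, DihedralGroup.nat_card]
  have hn : Nat.card Ω = m := by
    have h3 := Subgroup.card_mul_index Ga
    rw [hGa2, hcardG, hGa, MulAction.index_stabilizer, MulAction.orbit_eq_univ, Set.ncard_univ] at h3
    exact Nat.eq_of_mul_eq_mul_left (by norm_num) h3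
  have hss : s * s = 1 := by
    have := pow_orderOf_eq_one s
    rwa [hsord, pow_two] at this
  have htt : t * t = 1 := by
    have := pow_orderOf_eq_one t
    rwa [htord, pow_two] at this
  have hsinv : s⁻¹ = s := inv_eq_of_mul_eq_one_left hss
  have htinv : t⁻¹ = t := inv_eq_of_mul_eq_one_left htt
  have hxconj : ∀ g : G, g * x * g⁻¹ = x ∨ g * x * g⁻¹ = x⁻¹ := by
    intro g
    have hg : g ∈ Subgroup.closure ({s, t} : Set G) := by rw [hclosure]; trivial
    induction hg using Subgroup.closure_induction with
    | mem y hy =>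
      right
      simp only [Set.mem_insert_iff, Set.mem_singleton_iff] at hy
      rcases hy with hy | hy
      · rw [hy, hsinv, hx, mul_inv_rev, hsinv, htinv]
        calc s * (s * t) * s = (s * s) * t * s := by group
          _ = t * s := by rw [hss, one_mul]
      · rw [hy, htinv, hx, mul_inv_rev, hsinv, htinv]
        calc t * (s * t) * t = t * s * (t * t) := by group
          _ = t * s := by rw [htt, mul_one]
    | one => left; simp
    | mul y z _ _ hy hz =>
      have h3 : y * z * x * (y * z)⁻¹ = y * (z * x * z⁻¹) * y⁻¹ := by group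
      rcases hz with hz | hz <;> rcases hy with hy | hy
      · left; rw [h3, hz, hy]
      · right; rw [h3, hz, hy]
      · right; rw [h3, hz]
        have h4 : y * x⁻¹ * y⁻¹ = (y * x * y⁻¹)⁻¹ := by group
        rw [h4, hy]
      · left; rw [h3, hz]
        have h4 : y * x⁻¹ * y⁻¹ = (y * x * y⁻¹)⁻¹ := by group
        rw [h4, hy, inv_inv]
    | inv y _ hy =>
      rcases hy with hy | hy
      · left
        calc y⁻¹ * x * y⁻¹⁻¹ = y⁻¹ * (y * x * y⁻¹) * y := by rw [hy, inv_inv]
          _ = x := by group
      · right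
        calc y⁻¹ * x * y⁻¹⁻¹ = y⁻¹ * (y * x * y⁻¹)⁻¹ * y := by rw [hy, inv_inv, inv_inv]
          _ = x⁻¹ := by group
  have hm2 : 2 ≤ m := by
    have h3 : m ≠ 1 := by
      rw [hm, Ne, orderOf_eq_one_iff, hx]
      intro h3
      apply hst
      have := mul_eq_one_iff_eq_inv.mp h3
      rw [this, htinv]
    omega
  refine ⟨m, ?_, ⟨eG⟩⟩
  rw [Nat.prime_def]
  refine ⟨hm2, ?_⟩
  intro d hd
  let U : Subgroup G := Subgroup.zpowers (x ^ d)
  haveI hUn : U.Normal := by
    constructor
    intro u hu g
    obtain ⟨j, rfl⟩ := hu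
    simp only
    rcases hxconj g with h3 | h3
    · refine ⟨j, ?_⟩
      simp only
      rw [← conj_zpow, ← conj_pow, h3]
    · refine ⟨-j, ?_⟩
      simp only
      rw [← conj_zpow, ← conj_pow, h3, inv_pow, inv_zpow, zpow_neg]
  have hcardU : Nat.card U = m / d := by
    rw [Nat.card_zpowers, orderOf_pow_of_dvd (by
      intro h0; subst h0; rw [zero_dvd_iff] at hd; omega) hd]
  by_cases hfix : MulAction.fixedPoints U Ω = ⊤
  · -- `U` acts trivially
    right
    have h3 : x ^ d = 1 := by
      apply FaithfulSMul.eq_of_smul_eq_smul (α := Ω)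
      intro y
      have h4 : y ∈ MulAction.fixedPoints U Ω := by rw [hfix]; trivial
      have h5 := h4 ⟨x ^ d, Subgroup.mem_zpowers _⟩
      rw [one_smul]
      exact h5
    have h4 : m ∣ d := orderOf_dvd_of_pow_eq_one h3
    exact Nat.dvd_antisymm hd h4
  · left
    haveI : MulAction.IsPretransitive U Ω :=
      MulAction.IsQuasiPreprimitive.isPretransitive_of_normal hfix
    have h3 : Nat.card Ω ≤ Nat.card U := by
      have hs : Function.Surjective (fun u : U => u • a) := by
        intro y
        exact MulAction.exists_smul_eq U a y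
      exact Nat.card_le_card_of_surjective _ hs
    rw [hn, hcardU] at h3
    have hdpos : 0 < d := Nat.pos_of_dvd_of_pos hd hmpos
    by_contra hd1
    have hd2 : 2 ≤ d := by omega
    have h4 : m / d ≤ m / 2 := Nat.div_le_div_left hd2 (by norm_num)
    omega

end Cfsg.Agent.S3684
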