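import Cfsg.Statements.S3685
import Mathlib
import Cfsg.Agent.Lib.Amalgam.Sims3Main

set_option autoImplicit false
open Cfsg

namespace Cfsg.Agent.S3685

/-- Let a finite group G act faithfully and primitively on a set Ω, and suppose the stabilizer of a point a has an orbit of length 3. Then the stabilizer of a is isomorphic to one of: the cyclic group of order 3, the symmetric group of degree 3, the dihedral group of order 12, the symmetric group of degree 4, or the direct product of the symmetric group of degree 4 with a group of order 2. -/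
theorem result {G Ω : Type*} [Group G] [Finite G] [MulAction G Ω] [FaithfulSMul G Ω] [Finite Ω]
    (hprim : MulAction.IsPreprimitive G Ω) (a b : Ω) (h3 : Nat.card (MulAction.orbit (MulAction.stabilizer G a) b) = 3) :
    Nonempty (MulAction.stabilizer G a ≃* Multiplicative (ZMod 3)) ∨ Nonempty (MulAction.stabilizer G a ≃* Equiv.Perm (Fin 3)) ∨
      Nonempty (MulAction.stabilizer G a ≃* DihedralGroup 6) ∨ Nonempty (MulAction.stabilizer G a ≃* Equiv.Perm (Fin 4)) ∨
      Nonempty (MulAction.stabilizer G a ≃* Equiv.Perm (Fin 4) × Multiplicative (ZMod 2)) := by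
  rcases Cfsg.Agent.Lib.Amalgam.Sims3.setup_of_suborbit hprim a b h3 with h | h | h | h | ⟨⟨e⟩⟩
  · exact Or.inl h
  · exact Or.inr (Or.inl h)
  · exact Or.inr (Or.inr (Or.inl h))
  · exact Or.inr (Or.inr (Or.inr (Or.inl h)))
  · exact Or.inr (Or.inr (Or.inr (Or.inr ⟨e.trans MulEquiv.prodComm⟩)))

end Cfsg.Agent.S3685
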