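import Cfsg.Statements.S3693
import Mathlib
import Cfsg.Agent.Lib.Components.Wielandt
-- import your own Cfsg.Agent.* helpers here

set_option autoImplicit false
open Cfsg

namespace Cfsg.Agent.S3693

/-- Let a finite group G act faithfully and primitively on a set Ω, let a and b be points such that the orbit Δ of b under the stabilizer H of a has length d ≥ 2, and consider the permutation group induced on Δ by the elements of H fixing b. If that induced group has trivial Fitting subgroup (no non-trivial nilpotent normal subgroup), then the two-point stabilizer of a and b has trivial Fitting subgroup and the order of H divides d! · ((d - 1)!)^d. -/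
theorem result {G Ω : Type*} [Group G] [Finite G] [MulAction G Ω] [FaithfulSMul G Ω] [Finite Ω]
    (hprim : MulAction.IsPreprimitive G Ω) (a b : Ω) (d : ℕ) (hd : Nat.card (MulAction.orbit (MulAction.stabilizer G a) b) = d) (h2 : 2 ≤ d)
    (hF : Cfsg.fittingSubgroup ↥(((MulAction.stabilizer G b).subgroupOf (MulAction.stabilizer G a)).map (MulAction.toPermHom (MulAction.stabilizer G a) (MulAction.orbit (MulAction.stabilizer G a) b))) = ⊥) :
    Cfsg.fittingSubgroup ↥(MulAction.stabilizer G a ⊓ MulAction.stabilizer G b) = ⊥ ∧
      Nat.card (MulAction.stabilizer G a) ∣ Nat.factorial d * (Nat.factorial (d - 1)) ^ d := by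
  obtain ⟨g, hstab, hmax, hcore, hne, hrel⟩ :=
    Cfsg.Agent.Lib.Components.Wielandt.setup hprim a b d hd h2
  have hfi := Cfsg.Agent.Lib.Components.Wielandt.fi_le_core (G := G) a b hF
  have h0 : Cfsg.Agent.Lib.Components.BenderPair.fi (MulAction.stabilizer G a ⊓ MulAction.stabilizer G b) = ⊥ := by
    rw [hstab] at hfi ⊢
    exact Cfsg.Agent.Lib.Components.Wielandt.fi_inf_eq_bot _ hmax g hne hcore hfi
  refine ⟨?_, ?_⟩
  · exact (Subgroup.map_eq_bot_iff_of_injective _ (Subgroup.subtype_injective _)).mp h0
  · obtain ⟨A₂, hA₂a, hA₂b, hn, hdvd, hor⟩ :=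
      Cfsg.Agent.Lib.Components.Wielandt.action_core hprim a b d hd h2
    rcases hor with h | ⟨p, hp, hpg, hne0, -⟩
    · exact h
    · exfalso
      haveI : Fact p.Prime := ⟨hp⟩
      have h3 := Cfsg.Agent.Lib.Components.LocalFStar.le_map_pCore hpg
        (Y := MulAction.stabilizer G a ⊓ MulAction.stabilizer G b) (inf_le_left.trans hn)
      apply hne0
      rw [eq_bot_iff, ← h0]
      exact (le_inf le_rfl (le_inf hA₂a hA₂b)).trans
        (h3.trans (Cfsg.Agent.Lib.Components.BenderPair.oc_le_fi p _))

end Cfsg.Agent.S3693
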