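import Cfsg.Statements.S3696

set_option autoImplicit false
open Cfsg

namespace Cfsg.Agent.S3696

lemma ineq (a b s t : ℕ) (hs : 1 ≤ s) :
    a ^ s * b ^ t * (s + t) ^ (s + t) ≤ (a + b) ^ (s + t) * s ^ s * t ^ t := by
  rcases Nat.eq_zero_or_pos t with rfl | ht
  · simp only [pow_zero, mul_one, add_zero]
    exact Nat.mul_le_mul_right _ (Nat.pow_le_pow_left (Nat.le_add_right _ _) _)
  have hs' : (0:ℝ) < s := by exact_mod_cast hs
  have ht' : (0:ℝ) < t := by exact_mod_cast ht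
  have hst : (0:ℝ) < (s:ℝ) + t := by positivity
  have key := Real.geom_mean_le_arith_mean2_weighted (w₁ := s / (s + t)) (w₂ := t / (s + t))
    (p₁ := a / s) (p₂ := b / t) (by positivity) (by positivity) (by positivity) (by positivity)
    (by field_simp)
  have h1 : (s:ℝ) / (s + t) * (a / s) + t / (s + t) * (b / t) = (a + b) / (s + t) := by
    field_simp
  rw [h1] at key
  have h2 := pow_le_pow_left₀ (by positivity) key (s + t)
  rw [mul_pow] at h2
  have h3 : (((a:ℝ) / s) ^ ((s:ℝ) / (s + t))) ^ (s + t) = ((a:ℝ) / s) ^ s := by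
    rw [← Real.rpow_natCast, ← Real.rpow_mul (by positivity)]
    push_cast
    rw [show ((s:ℝ) / (s + t)) * ((s:ℝ) + t) = s by field_simp]
    exact Real.rpow_natCast _ _
  have h4 : (((b:ℝ) / t) ^ ((t:ℝ) / (s + t))) ^ (s + t) = ((b:ℝ) / t) ^ t := by
    rw [← Real.rpow_natCast, ← Real.rpow_mul (by positivity)]
    push_cast
    rw [show ((t:ℝ) / (s + t)) * ((s:ℝ) + t) = t by field_simp]
    exact Real.rpow_natCast _ _
  rw [h3, h4, div_pow, div_pow, div_pow, div_mul_div_comm] at h2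
  rw [div_le_div_iff₀ (by positivity) (by positivity)] at h2
  have h5 : ((a:ℝ) ^ s * b ^ t * (s + t) ^ (s + t)) ≤ (a + b) ^ (s + t) * s ^ s * t ^ t := by
    calc _ ≤ ((a:ℝ) + b) ^ (s + t) * ((s:ℝ) ^ s * t ^ t) := h2
      _ = _ := by ring
  exact_mod_cast h5

lemma ineq2 (m s : ℕ) (hs : 1 ≤ s) (hm : 2 ^ s ≤ m) : m * s ^ s ≤ m ^ s := by
  obtain ⟨r, rfl⟩ : ∃ r, s = r + 1 := ⟨s - 1, by omega⟩
  have h1 : r + 1 ≤ 2 ^ r := by
    exact Nat.lt_two_pow_self
  calc m * (r + 1) ^ (r + 1) ≤ m * (2 ^ r) ^ (r + 1) :=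
        Nat.mul_le_mul_left _ (Nat.pow_le_pow_left h1 _)
    _ = m * (2 ^ (r + 1)) ^ r := by
        rw [← pow_mul, ← pow_mul, mul_comm r (r + 1)]
    _ ≤ m * m ^ r := Nat.mul_le_mul_left _ (Nat.pow_le_pow_left hm _)
    _ = m ^ (r + 1) := by rw [pow_succ']

variable {Ω : Type*} [Fintype Ω] [DecidableEq Ω]

/-- elements of order dividing `p` in `B` -/
def om (p : ℕ) (B : Subgroup (Equiv.Perm Ω)) (hc : ∀ a ∈ B, ∀ b ∈ B, a * b = b * a) :
    Subgroup (Equiv.Perm Ω) where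
  carrier := {g | g ∈ B ∧ g ^ p = 1}
  mul_mem' := by
    rintro a b ⟨ha, ha'⟩ ⟨hb, hb'⟩
    refine ⟨B.mul_mem ha hb, ?_⟩
    rw [(show Commute a b from hc a ha b hb).mul_pow, ha', hb', one_mul]
  one_mem' := ⟨B.one_mem, one_pow _⟩
  inv_mem' := by
    rintro a ⟨ha, ha'⟩
    exact ⟨B.inv_mem ha, by rw [inv_pow, ha', inv_one]⟩

lemma mem_om {p : ℕ} {B : Subgroup (Equiv.Perm Ω)} {hc : ∀ a ∈ B, ∀ b ∈ B, a * b = b * a}
    {g : Equiv.Perm Ω} : g ∈ om p B hc ↔ g ∈ B ∧ g ^ p = 1 := Iff.rfl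

lemma orbit_card (B : Subgroup (Equiv.Perm Ω)) (x : Ω) :
    (MulAction.orbit B x).ncard * Nat.card ↥(B ⊓ MulAction.stabilizer (Equiv.Perm Ω) x) = Nat.card B := by
  have h1 := MulAction.index_stabilizer B x
  have h2 := (MulAction.stabilizer B x).index_mul_card
  have h3 : B ⊓ MulAction.stabilizer (Equiv.Perm Ω) x = (MulAction.stabilizer B x).map B.subtype := by
    ext g
    constructor
    · rintro ⟨hg, hs⟩
      exact ⟨⟨g, hg⟩, hs, rfl⟩
    · rintro ⟨⟨g, hg⟩, hs, rfl⟩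
      exact ⟨hg, hs⟩
  rw [h3, Subgroup.card_map_of_injective B.subtype_injective, ← h1, h2]

theorem main (p : ℕ) (hp : p.Prime) : ∀ (n : ℕ) (B : Subgroup (Equiv.Perm Ω)) (Δ : Set Ω) (k : ℕ)
    (hc : ∀ a ∈ B, ∀ b ∈ B, a * b = b * a), Nat.card B = n → IsPGroup p B →
    (∀ g ∈ B, ∀ y ∈ Δ, g y ∈ Δ) → (∀ g ∈ B, (∀ y ∈ Δ, g y = y) → g = 1) →
    Nat.card (om p B hc) = p ^ k → Nat.card B * k ^ k ≤ Δ.ncard ^ k := by
  intro n
  induction n using Nat.strong_induction_on with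
  | _ n ih =>
  intro B Δ k hc hn hpB hinv hfaith hk
  have hp1 := hp.one_lt
  haveI : Fact p.Prime := ⟨hp⟩
  by_cases hB : B = ⊥
  · subst hB
    have h1 : om p (⊥ : Subgroup (Equiv.Perm Ω)) hc = ⊥ := by
      ext g
      constructor
      · rintro ⟨hg, -⟩
        exact hg
      · intro hg
        have hg1 : g = 1 := hg
        subst hg1
        exact ⟨Subgroup.one_mem _, one_pow _⟩
    rw [h1, Subgroup.card_bot] at hk
    have hk0 : k = 0 := by
      by_contra hk0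
      have : 1 < p ^ k := Nat.one_lt_pow hk0 hp1
      omega
    subst hk0
    simp
  -- an element of order `p`
  obtain ⟨z, hz⟩ : ∃ z : B, orderOf z = p := by
    have hnt : Nontrivial B := (Subgroup.nontrivial_iff_ne_bot B).mpr hB
    obtain ⟨e, he⟩ := IsPGroup.iff_card.mp hpB
    have he0 : e ≠ 0 := by
      rintro rfl
      have := Finite.one_lt_card (α := B)
      simp only [pow_zero] at he
      omega
    exact exists_prime_orderOf_dvd_card' p (by rw [he]; exact dvd_pow_self p he0)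
  have hzp : (z : Equiv.Perm Ω) ^ p = 1 := by
    have := pow_orderOf_eq_one z
    rw [hz] at this
    exact_mod_cast congrArg Subtype.val this
  have hz1 : (z : Equiv.Perm Ω) ≠ 1 := by
    intro h
    have : z = 1 := Subtype.ext h
    rw [this, orderOf_one] at hz
    omega
  -- a point moved by `z`
  obtain ⟨x, hxΔ, hzx⟩ : ∃ x ∈ Δ, (z : Equiv.Perm Ω) x ≠ x := by
    by_contra hcon
    push Not at hcon
    exact hz1 (hfaith _ z.2 hcon)
  set B₁ : Subgroup (Equiv.Perm Ω) := B ⊓ MulAction.stabilizer (Equiv.Perm Ω) x with hB₁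
  have hB₁B : B₁ ≤ B := inf_le_left
  have hmemB₁ : ∀ g, g ∈ B₁ ↔ g ∈ B ∧ g x = x := fun g => Iff.rfl
  have hc₁ : ∀ a ∈ B₁, ∀ b ∈ B₁, a * b = b * a := fun a ha b hb => hc a (hB₁B ha) b (hB₁B hb)
  set O : Set Ω := MulAction.orbit B x with hO
  have hmemO : ∀ y, y ∈ O ↔ ∃ g ∈ B, g x = y := by
    intro y
    constructor
    · rintro ⟨⟨g, hg⟩, rfl⟩
      exact ⟨g, hg, rfl⟩
    · rintro ⟨g, hg, rfl⟩
      exact ⟨⟨g, hg⟩, rfl⟩
  have hOΔ : O ⊆ Δ := by
    intro y hy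
    obtain ⟨g, hg, rfl⟩ := (hmemO y).mp hy
    exact hinv g hg x hxΔ
  have hcard := orbit_card B x
  set m := O.ncard with hm
  have hsub : B₁ < B := by
    refine lt_of_le_of_ne hB₁B ?_
    intro h
    have : (z : Equiv.Perm Ω) ∈ B₁ := by rw [h]; exact z.2
    exact hzx this.2
  have hlt : Nat.card B₁ < n := by
    rw [← hn]
    refine lt_of_le_of_ne (Subgroup.card_le_of_le hB₁B) ?_
    intro h
    exact hsub.ne (Subgroup.eq_of_le_of_card_ge hB₁B h.ge)
  -- ranks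
  set E := om p B hc with hE
  set E₁ := om p B₁ hc₁ with hE₁
  have hE₁E : E₁ ≤ E := fun g hg => ⟨hB₁B hg.1, hg.2⟩
  have hEeq : E ⊓ MulAction.stabilizer (Equiv.Perm Ω) x = E₁ := by
    ext g
    constructor
    · rintro ⟨⟨h1, h2⟩, h3⟩
      exact ⟨⟨h1, h3⟩, h2⟩
    · rintro ⟨⟨h1, h3⟩, h2⟩
      exact ⟨⟨h1, h2⟩, h3⟩
  obtain ⟨t, htk, ht⟩ : ∃ t ≤ k, Nat.card E₁ = p ^ t := by
    have := Subgroup.card_dvd_of_le hE₁E
    rw [hk] at this
    exact (Nat.dvd_prime_pow hp).mp this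
  have hzE : (z : Equiv.Perm Ω) ∈ E := ⟨z.2, hzp⟩
  have hzE₁ : (z : Equiv.Perm Ω) ∉ E₁ := fun h => hzx h.1.2
  have htk' : t < k := by
    refine lt_of_le_of_ne htk ?_
    rintro rfl
    have : E₁ = E := Subgroup.eq_of_le_of_card_ge hE₁E (by rw [hk, ht])
    exact hzE₁ (this ▸ hzE)
  obtain ⟨s, rfl⟩ : ∃ s, k = t + s := ⟨k - t, by omega⟩
  have hs1 : 1 ≤ s := by omega
  have hps : p ^ s ≤ m := by
    have h1 := orbit_card E x
    rw [hEeq, ht, hk, pow_add, mul_comm (p ^ t)] at h1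
    have h2 : (MulAction.orbit E x).ncard = p ^ s :=
      Nat.eq_of_mul_eq_mul_right (pow_pos hp.pos t) h1
    rw [← h2]
    apply Set.ncard_le_ncard _ (Set.toFinite _)
    rintro _ ⟨⟨g, hg⟩, rfl⟩
    exact (hmemO _).mpr ⟨g, hg.1, rfl⟩
  have hs2 : 2 ^ s ≤ m := (Nat.pow_le_pow_left hp.two_le s).trans hps
  -- the induction hypothesis on `Δ \ O`
  have hIH := ih (Nat.card B₁) hlt B₁ (Δ \ O) t hc₁ rfl
    (hpB.to_le hB₁B) (by
      rintro g hg y ⟨hy1, hy2⟩
      refine ⟨hinv g (hB₁B hg) y hy1, ?_⟩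
      intro hy3
      apply hy2
      obtain ⟨h, hh, hhx⟩ := (hmemO _).mp hy3
      refine (hmemO _).mpr ⟨g⁻¹ * h, B.mul_mem (B.inv_mem (hB₁B hg)) hh, ?_⟩
      rw [Equiv.Perm.mul_apply, hhx]
      simp) (by
      intro g hg hfix
      apply hfaith g (hB₁B hg)
      intro y hy
      by_cases hyO : y ∈ O
      · obtain ⟨h, hh, rfl⟩ := (hmemO _).mp hyO
        have h1 : g * h = h * g := hc g (hB₁B hg) h hh
        have h2 : g (h x) = (g * h) x := rfl
        rw [h2, h1, Equiv.Perm.mul_apply, ((hmemB₁ g).mp hg).2]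
      · exact hfix y ⟨hy, hyO⟩) ht
  set d := (Δ \ O).ncard with hd
  have hΔ : d + m = Δ.ncard := Set.ncard_sdiff_add_ncard_of_subset hOΔ (Set.toFinite _)
  have h1 := ineq2 m s hs1 hs2
  have h2 := ineq m d s t hs1
  have hBcard : Nat.card B = m * Nat.card B₁ := hcard.symm
  rw [hBcard, ← hΔ, add_comm d m, add_comm t s]
  have hpos : 0 < s ^ s * t ^ t := by
    apply Nat.mul_pos (pow_pos (by omega) _)
    rcases Nat.eq_zero_or_pos t with rfl | ht0
    · simp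
    · exact pow_pos ht0 _
  apply Nat.le_of_mul_le_mul_right _ hpos
  calc m * Nat.card ↥B₁ * (s + t) ^ (s + t) * (s ^ s * t ^ t)
      = (m * s ^ s) * (Nat.card ↥B₁ * t ^ t) * (s + t) ^ (s + t) := by ring
    _ ≤ m ^ s * d ^ t * (s + t) ^ (s + t) :=
        Nat.mul_le_mul_right _ (Nat.mul_le_mul h1 hIH)
    _ ≤ (m + d) ^ (s + t) * s ^ s * t ^ t := h2
    _ = _ := by ring

/-- Let p be a prime, Ω a finite set with n ≥ p elements, and A an abelian p-subgroup of the symmetric group on Ω whose elements of order dividing p number p^k (so k is the rank of A). Then |A| · k^k ≤ n^k, that is, |A| ≤ (n/k)^k. -/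
theorem result {Ω : Type*} [Fintype Ω] [DecidableEq Ω]
    (p : ℕ) (hp : p.Prime) (hn : p ≤ Fintype.card Ω) (A : Subgroup (Equiv.Perm Ω)) (hA : IsPGroup p A) (hab : IsMulCommutative A)
    (k : ℕ) (hk : Nat.card {x : A // x ^ p = 1} = p ^ k) :
    Nat.card A * k ^ k ≤ Fintype.card Ω ^ k := by
  have hc : ∀ a ∈ A, ∀ b ∈ A, a * b = b * a := by
    intro a ha b hb
    have := hab.is_comm.comm ⟨a, ha⟩ ⟨b, hb⟩
    exact congrArg Subtype.val this
  have h1 : Nat.card (om p A hc) = p ^ k := by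
    rw [← hk]
    refine Nat.card_congr ⟨fun g => ⟨⟨g.1, g.2.1⟩, Subtype.ext (by simpa using g.2.2)⟩,
      fun g => ⟨g.1.1, g.1.2, by simpa using congrArg Subtype.val g.2⟩, fun g => rfl, fun g => rfl⟩
  have h2 := main p hp _ A Set.univ k hc rfl hA (fun _ _ _ _ => Set.mem_univ _)
    (fun g _ h => Equiv.ext (fun y => h y (Set.mem_univ _))) h1
  rwa [Set.ncard_univ, Nat.card_eq_fintype_card (α := Ω)] at h2

end Cfsg.Agent.S3696
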