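import Cfsg.Statements.S3703
import Mathlib
import Cfsg.Agent.Lib.Frobenius.NormFixed2
import Cfsg.Agent.Lib.Frobenius.Basic
import Cfsg.Agent.Lib.Coprime.InvSylow
import Cfsg.Agent.S0042

set_option autoImplicit false
set_option linter.style.haveILetI false
open Cfsg

namespace Cfsg.Agent.S3703

open Subgroup
open scoped Pointwise

/-- A subgroup containing a Sylow subgroup for each prime is everything. -/
theorem eq_top_of_sylow_le {K : Type*} [Group K] [Finite K] (D : Subgroup K)
    (h : ∀ (p : ℕ) [Fact p.Prime], ∃ P : Sylow p K, (P : Subgroup K) ≤ D) : D = ⊤ := by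
  rw [← Subgroup.index_eq_one]
  by_contra hne
  obtain ⟨p, hp, hpd⟩ := Nat.exists_prime_and_dvd hne
  haveI := Fact.mk hp
  obtain ⟨P, hP⟩ := h p
  exact P.not_dvd_index (hpd.trans (Subgroup.index_dvd_of_le hP))

/-- From an element whose image has order `c` but which has larger order, get order `p * c`. -/
theorem order_step {G : Type*} [Group G] [Finite G] (N : Subgroup G) [N.Normal] (c : ℕ) (h : G)
    (hord : orderOf (QuotientGroup.mk' N h) = c) (hne : h ^ c ≠ 1) :
    ∃ p : ℕ, p.Prime ∧ p ∣ Nat.card N ∧ ∃ g : G, orderOf g = p * c := by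
  have hcd : c ∣ orderOf h := hord ▸ orderOf_map_dvd _ h
  have hcpos : 0 < c := hord ▸ orderOf_pos _
  obtain ⟨r, hr⟩ := hcd
  have hmem : h ^ c ∈ N := by
    rw [← QuotientGroup.eq_one_iff, QuotientGroup.mk_pow]
    have := pow_orderOf_eq_one (QuotientGroup.mk' N h)
    rwa [hord] at this
  have hpos : 0 < orderOf h := orderOf_pos h
  have hrpos : 0 < r := Nat.pos_of_ne_zero (by rintro rfl; rw [mul_zero] at hr; omega)
  have hor : orderOf (h ^ c) = r := by
    rw [orderOf_pow' h hcpos.ne', hr, Nat.gcd_mul_right_left]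
    exact Nat.mul_div_cancel_left r hcpos
  have hr1 : r ≠ 1 := by
    rintro rfl
    apply hne
    rw [← orderOf_eq_one_iff, hor]
  obtain ⟨p, hp, hpr⟩ := Nat.exists_prime_and_dvd hr1
  obtain ⟨q, hq⟩ := hpr
  have hqpos : 0 < q := Nat.pos_of_ne_zero (by rintro rfl; rw [mul_zero] at hq; omega)
  refine ⟨p, hp, ?_, h ^ q, ?_⟩
  · have h1 : orderOf (⟨h ^ c, hmem⟩ : N) = r := by
      rw [Subgroup.orderOf_mk, hor]
    have h2 := orderOf_dvd_natCard (⟨h ^ c, hmem⟩ : N)
    rw [h1] at h2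
    exact (Dvd.intro _ hq.symm).trans h2
  · rw [orderOf_pow' h hqpos.ne', hr, hq]
    have h1 : c * (p * q) = (p * c) * q := by ring
    rw [h1, Nat.gcd_mul_left_left]
    exact Nat.mul_div_cancel _ hqpos

/-- Let N be a normal subgroup of the finite group G such that G/N is a Frobenius group with kernel F and cyclic complement H, where the order of F is coprime to that of N and F is not contained in the image of C_G(N) in G/N. Then G has an element of order p·#H for some prime p dividing the order of N. (A standard tool in recognising groups by their element orders.) -/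
theorem result {G : Type*} [Group G] [Finite G] (N : Subgroup G) [N.Normal]
    (Fb Hb : Subgroup (G ⧸ N)) [Fb.Normal] (hHb : Cfsg.IsFrobeniusComplement Hb) (hker : Cfsg.frobeniusKernel Hb = (Fb : Set (G ⧸ N)))
    (hcyc : IsCyclic Hb) (hcop : (Nat.card Fb).Coprime (Nat.card N))
    (hnot : ¬ Fb ≤ (Subgroup.centralizer (N : Set G)).map (QuotientGroup.mk' N)) :
    ∃ p : ℕ, p.Prime ∧ p ∣ Nat.card N ∧ ∃ g : G, orderOf g = p * Nat.card Hb := by
  classical
  set π : G →* G ⧸ N := QuotientGroup.mk' N with hπ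
  have hπs : Function.Surjective π := QuotientGroup.mk'_surjective N
  have hπN : ∀ x, π x = 1 ↔ x ∈ N := fun x => QuotientGroup.eq_one_iff x
  set c := Nat.card Hb with hc
  obtain ⟨c₀, hc₀⟩ := hcyc.exists_generator
  have hoc : orderOf (c₀ : G ⧸ N) = c := by
    rw [Subgroup.orderOf_coe, orderOf_eq_card_of_forall_mem_zpowers hc₀]
  by_contra hconc
  have hall : ∀ h : G, π h = (c₀ : G ⧸ N) → h ^ c = 1 := by
    intro h hh
    by_contra hne
    exact hconc (order_step N c h (by rw [← hπ, hh, hoc]) hne)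
  -- nilpotent kernel
  obtain ⟨N', hN', -, hnil⟩ := Cfsg.Agent.S0042.result Hb hHb
  have hN'F : N' = Fb := SetLike.ext' (hN'.trans hker)
  have hnil' : Group.IsNilpotent Fb := hN'F ▸ hnil
  set Cb : Subgroup (G ⧸ N) := (Subgroup.centralizer (N : Set G)).map π with hCb
  -- choice of a prime
  have hex : ∃ (t : ℕ) (_ : Fact t.Prime) (P : Sylow t Fb), ¬ (P : Subgroup Fb) ≤ Cb.subgroupOf Fb := by
    by_contra hcon
    push Not at hcon
    apply hnot
    have htop : Cb.subgroupOf Fb = ⊤ :=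
      eq_top_of_sylow_le _ (fun p inst => ⟨Classical.arbitrary _, hcon p inst _⟩)
    intro x hx
    have h1 : (⟨x, hx⟩ : Fb) ∈ Cb.subgroupOf Fb := htop ▸ mem_top _
    exact h1
  obtain ⟨t, ht, P, hP⟩ := hex
  haveI := ht
  -- the normal subgroup
  set Tb : Subgroup (G ⧸ N) := (P : Subgroup Fb).map Fb.subtype with hTb
  have hTbF : Tb ≤ Fb := Subgroup.map_subtype_le _
  have hTbp : IsPGroup t Tb := P.2.map _
  have hPn : (P : Subgroup Fb).Normal := inferInstance
  haveI hPc : (P : Subgroup Fb).Characteristic := Sylow.characteristic_of_normal P hPn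
  haveI hTbn : Tb.Normal := by
    constructor
    intro x hx a
    obtain ⟨y, hy, rfl⟩ := hx
    have h1 : (MulAut.conjNormal a : Fb ≃* Fb) y ∈ (P : Subgroup Fb) := by
      have h2 := (Subgroup.characteristic_iff_map_eq.mp hPc) (MulAut.conjNormal a : Fb ≃* Fb)
      rw [← h2]
      exact ⟨y, hy, rfl⟩
    exact ⟨_, h1, by simp⟩
  have hTbne : ¬ Tb ≤ Cb := by
    intro h
    apply hP
    intro y hy
    exact h ⟨y, hy, rfl⟩
  have ht_dvd : t ∣ Nat.card Fb := by
    have h1 : Tb ≠ ⊥ := by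
      rintro h
      rw [h] at hTbne
      exact hTbne bot_le
    have h2 : Nontrivial Tb := (Subgroup.nontrivial_iff_ne_bot _).mpr h1
    obtain ⟨k, hk⟩ := IsPGroup.iff_card.mp hTbp
    have h3 : 1 < Nat.card Tb := Finite.one_lt_card
    have hk0 : k ≠ 0 := by
      rintro rfl
      simp [hk] at h3
    have h4 : t ∣ Nat.card Tb := by
      rw [hk]; exact dvd_pow_self t hk0
    exact h4.trans (Subgroup.card_dvd_of_le hTbF |>.trans (by rfl))
  have htN : ¬ t ∣ Nat.card N := by
    intro h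
    have := Nat.dvd_gcd ht_dvd h
    rw [hcop.gcd_eq_one] at this
    exact ht.out.one_lt.ne' (Nat.dvd_one.mp this)
  set F₁ : Subgroup G := Tb.comap π with hF₁
  haveI hF₁n : F₁.Normal := Subgroup.Normal.comap hTbn π
  obtain ⟨T₀⟩ : Nonempty (Sylow t F₁) := Sylow.nonempty
  set T : Subgroup G := (T₀ : Subgroup F₁).map F₁.subtype with hT
  have hTp : IsPGroup t T := T₀.2.map _
  have hTF : T ≤ F₁ := Subgroup.map_subtype_le _
  have hTcop : (Nat.card T).Coprime (Nat.card N) := by
    obtain ⟨k, hk⟩ := IsPGroup.iff_card.mp hTp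
    rw [hk]
    exact Nat.Coprime.pow_left k ((Nat.Prime.coprime_iff_not_dvd ht.out).mpr htN)
  have hTN : T ⊓ N = ⊥ := (Subgroup.disjoint_of_coprime_natCard hTcop).eq_bot
  -- the image of `T`
  have hTim : Tb ≤ T.map π := by
    let f : F₁ →* Tb := (π.comp F₁.subtype).codRestrict Tb (fun x => x.2)
    have hfs : Function.Surjective f := by
      rintro ⟨y, hy⟩
      obtain ⟨x, rfl⟩ := hπs y
      exact ⟨⟨x, hy⟩, rfl⟩
    have h2 : ((T₀.mapSurjective hfs : Sylow t Tb) : Subgroup Tb) = ⊤ :=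
      ((T₀.mapSurjective hfs).is_maximal' (hTbp.to_subgroup ⊤) le_top).symm
    intro y hy
    have h3 : (⟨y, hy⟩ : Tb) ∈ ((T₀.mapSurjective hfs : Sylow t Tb) : Subgroup Tb) := h2 ▸ mem_top _
    obtain ⟨x, hx, hxy⟩ := h3
    refine ⟨(x : G), ⟨x, hx, rfl⟩, ?_⟩
    exact congrArg Subtype.val hxy
  have hF₁dec : ∀ x ∈ F₁, ∃ τ ∈ T, ∃ n ∈ N, x = τ * n := by
    intro x hx
    obtain ⟨τ, hτ, hτx⟩ := hTim hx
    refine ⟨τ, hτ, τ⁻¹ * x, ?_, by group⟩
    rw [← hπN, map_mul, map_inv, hτx, inv_mul_cancel]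
  have hNT : normalizer (T : Set G) ⊔ N = ⊤ := by
    have h := Sylow.normalizer_sup_eq_top T₀
    rw [eq_top_iff, ← h]
    refine sup_le le_sup_left ?_
    intro x hx
    obtain ⟨τ, hτ, n, hn, rfl⟩ := hF₁dec x hx
    exact mul_mem_sup (le_normalizer hτ) hn
  have hTnc : ¬ T ≤ centralizer (N : Set G) := by
    intro h
    apply hTbne
    exact hTim.trans (Subgroup.map_mono h)
  have hTsolv : Group.IsSolvable T ∨ Group.IsSolvable N := by
    left
    haveI := hTp.isNilpotent
    infer_instance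
  have hTNn : T ≤ normalizer (N : Set G) := by
    intro x _
    exact le_normalizer_of_normal (mem_top x) 
  have hexs : ∃ (s : ℕ) (_ : Fact s.Prime) (Ps : Sylow s N),
      T ≤ normalizer (((Ps : Subgroup N).map N.subtype : Subgroup G) : Set G) ∧
      ¬ T ≤ centralizer (((Ps : Subgroup N).map N.subtype : Subgroup G) : Set G) := by
    by_contra hcon
    push Not at hcon
    apply hTnc
    have htop : (centralizer (T : Set G)).subgroupOf N = ⊤ := by
      refine eq_top_of_sylow_le _ (fun p inst => ?_)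
      obtain ⟨Q, hQ⟩ := Cfsg.Agent.Lib.Coprime.InvSylow.exists_invariant_sylow hTNn hTcop hTsolv p
      refine ⟨Q, fun y hy => ?_⟩
      have h1 := hcon p inst Q hQ
      rw [Subgroup.mem_subgroupOf, Subgroup.mem_centralizer_iff]
      intro τ hτ
      have h2 := h1 hτ
      rw [Subgroup.mem_centralizer_iff] at h2
      exact (h2 (y : G) ⟨y, hy, rfl⟩).symm
    intro τ hτ
    rw [Subgroup.mem_centralizer_iff]
    intro n hn
    have h1 : (⟨n, hn⟩ : N) ∈ (centralizer (T : Set G)).subgroupOf N := htop ▸ mem_top _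
    rw [Subgroup.mem_subgroupOf, Subgroup.mem_centralizer_iff] at h1
    exact (h1 τ hτ).symm
  obtain ⟨s, hs, Ps, hPsT, hPsC⟩ := hexs
  haveI := hs
  set S : Subgroup G := (Ps : Subgroup N).map N.subtype with hS
  have hSN : S ≤ N := Subgroup.map_subtype_le _
  have hSp : IsPGroup s S := Ps.2.map _
  -- an element normalising T mapping to the generator
  obtain ⟨a, ha⟩ := hπs (c₀ : G ⧸ N)
  have hamem : a ∈ normalizer (T : Set G) ⊔ N := by rw [hNT]; exact mem_top a
  obtain ⟨g₁, hg₁, n₁, hn₁, hg₁a⟩ := Subgroup.mem_sup_of_normal_right.mp hamem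
  have hπg₁ : π g₁ = (c₀ : G ⧸ N) := by
    rw [← ha, ← hg₁a, map_mul, (hπN n₁).mpr hn₁, mul_one]
  open Cfsg.Agent.Lib.Coprime.InvSylow in
  obtain ⟨g, hgS, hgT, hπg⟩ : ∃ g : G, g ∈ normalizer (S : Set G) ∧ g ∈ normalizer (T : Set G) ∧
      π g = (c₀ : G ⧸ N) := by
    let Q : Sylow s N := (MulAut.conjNormal g₁ : MulAut N) • Ps
    have hQS : (Q : Subgroup N).map N.subtype = S.map (MulAut.conj g₁).toMonoidHom := by
      have hQc : (Q : Subgroup N) = (MulAut.conjNormal g₁ : MulAut N) • (Ps : Subgroup N) := rfl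
      rw [hQc]
      ext x
      simp only [Subgroup.mem_map, Subgroup.pointwise_smul_def, hS]
      constructor
      · rintro ⟨y, ⟨z, hz, rfl⟩, rfl⟩
        refine ⟨z, ⟨z, hz, rfl⟩, ?_⟩
        simp [MulAut.conj_apply]
      · rintro ⟨y, ⟨z, hz, rfl⟩, rfl⟩
        refine ⟨_, ⟨z, hz, rfl⟩, ?_⟩
        simp [MulAut.conj_apply]
    have hQT : T ≤ normalizer (((Q : Subgroup N).map N.subtype : Subgroup G) : Set G) := by
      intro b hb
      apply mem_normalizer_of_map_conj_eq
      rw [hQS]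
      have h1 : g₁⁻¹ * b * g₁ ∈ T := by
        have h2 := (hg₁ (g₁⁻¹ * b * g₁)).mpr (by
          have : g₁ * (g₁⁻¹ * b * g₁) * g₁⁻¹ = b := by group
          rw [this]; exact hb)
        exact h2
      have h3 := map_conj_eq_of_mem_normalizer (hPsT h1)
      rw [← map_conj_mul]
      have h4 : b * g₁ = g₁ * (g₁⁻¹ * b * g₁) := by group
      rw [h4, map_conj_mul, h3]
    obtain ⟨d, hd, hdQ⟩ := invariant_sylow_conj hTNn hTcop hTsolv s Ps Q hPsT hQT
    have hdS : S.map (MulAut.conj (d : G)).toMonoidHom = S.map (MulAut.conj g₁).toMonoidHom := by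
      rw [← hQS, ← map_subtype_conj_smul, ← hdQ]
      rfl
    refine ⟨(d : G)⁻¹ * g₁, ?_, ?_, ?_⟩
    · apply mem_normalizer_of_map_conj_eq
      rw [map_conj_mul, ← hdS, ← map_conj_mul, inv_mul_cancel]
      ext x
      simp [MulAut.conj_apply]
    · refine mul_mem (inv_mem ?_) hg₁
      exact Subgroup.centralizer_le_normalizer _ hd
    · rw [map_mul, map_inv, (hπN _).mpr d.2, inv_one, one_mul, hπg₁]
  have hgc : g ^ c = 1 := hall g hπg
  have hgord : orderOf g = c := by
    apply Nat.dvd_antisymm (orderOf_dvd_of_pow_eq_one hgc)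
    rw [← hoc, ← hπg]
    exact orderOf_map_dvd π g
  have hsN : s ∣ Nat.card N := by
    have h1 : S ≠ ⊥ := by
      intro h
      apply hPsC
      rw [h]
      intro τ _
      rw [Subgroup.mem_centralizer_iff]
      intro n hn
      have : n = 1 := by simpa using hn
      simp [this]
    have h2 : Nontrivial S := (Subgroup.nontrivial_iff_ne_bot _).mpr h1
    obtain ⟨k, hk⟩ := IsPGroup.iff_card.mp hSp
    have h3 : 1 < Nat.card S := Finite.one_lt_card
    have hk0 : k ≠ 0 := by
      rintro rfl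
      simp [hk] at h3
    have h4 : s ∣ Nat.card S := by
      rw [hk]; exact dvd_pow_self s hk0
    exact h4.trans (Subgroup.card_dvd_of_le hSN)
  have hTs : (Nat.card T).Coprime s := Nat.Coprime.coprime_dvd_right hsN hTcop
  have hfpf : ∀ h ∈ zpowers g, h ≠ 1 → ∀ τ ∈ T, h * τ = τ * h → τ = 1 := by
    intro h hh hh1 τ hτ hcomm
    obtain ⟨i, rfl⟩ := hh
    have h1 : π (g ^ i) ≠ 1 := by
      intro h2
      rw [map_zpow, hπg] at h2
      have h3 := orderOf_dvd_iff_zpow_eq_one.mpr h2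
      rw [hoc, ← hgord] at h3
      exact hh1 (orderOf_dvd_iff_zpow_eq_one.mp h3)
    have h3 : π τ ∈ Cfsg.frobeniusKernel Hb := by
      rw [hker]
      exact hTbF (hTF hτ)
    have h4 : π (g ^ i) ∈ Hb := by
      rw [map_zpow, hπg]
      exact zpow_mem c₀.2 i
    have h5 := Cfsg.Agent.Lib.Frobenius.Basic.eq_one_of_commute_of_mem_kernel hHb h3 h4
      (by rw [← map_mul, ← map_mul, hcomm])
    rcases h5 with h5 | h5
    · exact absurd h5 h1
    · have h6 : τ ∈ T ⊓ N := ⟨hτ, (hπN τ).mp h5⟩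
      rw [hTN] at h6
      simpa using h6
  have hdisj : T ⊓ zpowers g = ⊥ := by
    rw [eq_bot_iff]
    intro x hx
    rw [Subgroup.mem_bot]
    by_contra hx1
    exact hx1 (hfpf x hx.2 hx1 x hx.1 rfl)
  obtain ⟨x, hx, hx1⟩ := Cfsg.Agent.Lib.Frobenius.NormFixed.exists_mul_pow_ne_one hSp hPsT hgS hgT hTs hfpf hdisj hPsC
  apply hx1
  rw [hgord]
  apply hall
  rw [map_mul, (hπN x).mpr (hSN hx), one_mul, hπg]

end Cfsg.Agent.S3703
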