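import Cfsg.Statements.S3716
import Mathlib
import Cfsg.Agent.Lib.Blocks.TID8Cnt

set_option autoImplicit false
open Cfsg

namespace Cfsg.Agent.S3716

/-- Let G be a finite group with an elementary abelian Sylow 3-subgroup M of order 9 which is self-centralizing (C_G(M) = M), let N = N_G(M), and suppose C_G(g) ≤ N for every nonidentity g ∈ M. If the Sylow 2-subgroups of N are dihedral of order 8, then G is not simple. -/
theorem result {G : Type*} [Group G] [Finite G] (M : Sylow 3 G) (hM9 : Nat.card ↥(M : Subgroup G) = 9)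
    (hMel : ∀ m ∈ (M : Subgroup G), m ^ 3 = 1)
    (hCM : Subgroup.centralizer ((M : Subgroup G) : Set G) = (M : Subgroup G))
    (N : Subgroup G) (hN : N = Subgroup.normalizer ((M : Subgroup G) : Set G))
    (hCg : ∀ g ∈ (M : Subgroup G), g ≠ 1 → Subgroup.centralizer ({g} : Set G) ≤ N)
    (hS : ∀ S : Sylow 2 ↥N, Nonempty (↥(S : Subgroup ↥N) ≃* DihedralGroup 4)) :
    ¬ IsSimpleGroup G := by
  subst hN
  have hcomm : ∀ x ∈ (M : Subgroup G), ∀ y ∈ (M : Subgroup G), x * y = y * x := by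
    intro x hx y hy
    have h1 : x ∈ Subgroup.centralizer ((M : Subgroup G) : Set G) := by rw [hCM]; exact hx
    exact (Subgroup.mem_centralizer_iff.1 h1 y hy).symm
  have hSyl : ¬ 3 ∣ (M : Subgroup G).index := M.not_dvd_index
  obtain ⟨φ, hφ⟩ := Cfsg.Agent.Lib.Blocks.TID8.exists_model (M : Subgroup G) hMel hcomm hM9 hCM hSyl hS
  exact Cfsg.Agent.Lib.Blocks.TID8.Sit.not_simple ⟨hφ, hMel, hcomm, hCM, hCg, hSyl, hM9⟩

end Cfsg.Agent.S3716
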