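import Cfsg.Statements.S3773
import Mathlib
import Cfsg.Agent.Lib.PGroup.QuadCW
import Cfsg.Agent.S4056

set_option autoImplicit false
open Cfsg

namespace Cfsg.Agent.S3773

open scoped commutatorElement
open Subgroup

section Lemmas

variable {G : Type*} [Group G] [Finite G]

lemma card_mul_relIndex_eq {H L : Subgroup G} (hHL : H ≤ L) :
    Nat.card H * H.relIndex L = Nat.card L := by
  have := relIndex_mul_relIndex (⊥ : Subgroup G) H L bot_le hHL
  rwa [relIndex_bot_left, relIndex_bot_left] at this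

/-- The index of the kernel of the squaring map modulo the commutator subgroup. -/
lemma card_mul_card_le (Φ : Subgroup G) (hD : commutator G ≤ Φ) (hsq : ∀ x : G, x ^ 2 ∈ Φ) :
    Nat.card G * Nat.card (commutator G) ≤ Nat.card Φ *
      Nat.card ((powMonoidHom 2 : Abelianization G →* Abelianization G).comp
        (Abelianization.of (G := G))).ker := by
  classical
  set f : G →* Abelianization G :=
    (powMonoidHom 2 : Abelianization G →* Abelianization G).comp (Abelianization.of (G := G))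
    with hf
  have h1 : Nat.card f.ker * Nat.card f.range = Nat.card G := by
    rw [← index_ker, card_mul_index]
  have h2 : f.range ≤ Φ.map (Abelianization.of (G := G)) := by
    rintro _ ⟨x, rfl⟩
    refine ⟨x ^ 2, hsq x, ?_⟩
    simp [hf]
  let ψ : Φ →* Abelianization G := (Abelianization.of (G := G)).comp Φ.subtype
  have h3 : ψ.range = Φ.map (Abelianization.of (G := G)) := by
    rw [MonoidHom.range_comp, range_subtype]
  have h4 : ψ.ker = (commutator G).subgroupOf Φ := by
    ext x
    rw [mem_subgroupOf, MonoidHom.mem_ker, ← Abelianization.ker_of, MonoidHom.mem_ker]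
    rfl
  have h5 : Nat.card ψ.ker = Nat.card (commutator G) := by
    rw [h4]
    exact Nat.card_congr (subgroupOfEquivOfLe hD).toEquiv
  have h6 : Nat.card (commutator G) * Nat.card ψ.range = Nat.card Φ := by
    rw [← h5, ← index_ker, card_mul_index]
  have h7 : Nat.card f.range ≤ Nat.card ψ.range := by
    rw [h3]
    exact Subgroup.card_le_of_le h2
  calc Nat.card G * Nat.card (commutator G)
      = Nat.card f.ker * (Nat.card (commutator G) * Nat.card f.range) := by rw [← h1]; ring
    _ ≤ Nat.card f.ker * (Nat.card (commutator G) * Nat.card ψ.range) :=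
        Nat.mul_le_mul_left _ (Nat.mul_le_mul_left _ h7)
    _ = Nat.card Φ * Nat.card f.ker := by rw [h6, mul_comm]

/-- A complement of `N` in `K` over `Φ`. -/
lemma exists_complement (Φ N K : Subgroup G) (hΦN : Φ ≤ N) (hNK : N ≤ K)
    (hsq : ∀ x ∈ K, x ^ 2 ∈ Φ) (hcm : ∀ x y : G, ⁅x, y⁆ ∈ Φ) :
    ∃ T : Subgroup G, Φ ≤ T ∧ T ≤ K ∧ T ⊓ N ≤ Φ ∧
      Nat.card K * Nat.card Φ = Nat.card T * Nat.card N := by
  classical
  have hnorm : ∀ T : Subgroup G, Φ ≤ T → T.Normal := by
    intro T hT
    refine ⟨fun t ht g => ?_⟩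
    have : g * t * g⁻¹ = ⁅g, t⁆ * t := by
      simp [commutatorElement_def]
    rw [this]
    exact T.mul_mem (hT (hcm g t)) ht
  haveI hne : Nonempty {T : Subgroup G // Φ ≤ T ∧ T ≤ K ∧ T ⊓ N ≤ Φ} :=
    ⟨⟨Φ, le_rfl, hΦN.trans hNK, inf_le_left⟩⟩
  obtain ⟨⟨T, hΦT, hTK, hTN⟩, hT⟩ := Finite.exists_max
    (fun T : {T : Subgroup G // Φ ≤ T ∧ T ≤ K ∧ T ⊓ N ≤ Φ} => Nat.card T.1)
  refine ⟨T, hΦT, hTK, hTN, ?_⟩
  haveI hTn : T.Normal := hnorm T hΦT
  have hsup : K ≤ N ⊔ T := by
    intro x hxK
    by_contra hx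
    have hxT : x ∉ T := fun h => hx ((le_sup_right : T ≤ N ⊔ T) h)
    let π : G →* G ⧸ T := QuotientGroup.mk' T
    let T' : Subgroup G := (zpowers (π x)).comap π
    have hTT' : T ≤ T' := by
      intro t ht
      have : π t = 1 := (QuotientGroup.eq_one_iff t).2 ht
      show π t ∈ zpowers (π x)
      rw [this]
      exact Subgroup.one_mem _
    have hxT' : x ∈ T' := mem_zpowers (π x)
    have hx2 : π x ^ 2 = 1 := by
      rw [← map_pow]
      exact (QuotientGroup.eq_one_iff _).2 (hΦT (hsq x hxK))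
    have hcases : ∀ y ∈ T', y ∈ T ∨ π y = π x := by
      intro y hy
      obtain ⟨i, hi0⟩ : π y ∈ zpowers (π x) := hy
      have hi : π x ^ i = π y := hi0
      clear hi0
      rcases Int.even_or_odd' i with ⟨j, rfl | rfl⟩
      · left
        have h1 : π y = 1 := by
          rw [← hi, zpow_mul, zpow_ofNat, hx2, one_zpow]
        exact (QuotientGroup.eq_one_iff y).1 h1
      · right
        rw [← hi, zpow_add, zpow_mul, zpow_ofNat, hx2, one_zpow, one_mul, zpow_one]
    have hmem : T' ≤ K ∧ T' ⊓ N ≤ Φ := by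
      constructor
      · intro y hy
        rcases hcases y hy with h | h
        · exact hTK h
        · have h1 : x⁻¹ * y ∈ T := by
            rw [← QuotientGroup.eq_one_iff]
            show π (x⁻¹ * y) = 1
            rw [map_mul, map_inv, h, inv_mul_cancel]
          have := K.mul_mem hxK (hTK h1)
          simpa using this
      · rintro y ⟨hy, hyN⟩
        rcases hcases y hy with h | h
        · exact hTN ⟨h, hyN⟩
        · exfalso
          have h1 : x⁻¹ * y ∈ T := by
            rw [← QuotientGroup.eq_one_iff]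
            show π (x⁻¹ * y) = 1
            rw [map_mul, map_inv, h, inv_mul_cancel]
          apply hx
          have h2 : x = y * (x⁻¹ * y)⁻¹ := by group
          rw [h2]
          exact Subgroup.mul_mem _ ((le_sup_left : N ≤ N ⊔ T) hyN)
            (Subgroup.inv_mem _ ((le_sup_right : T ≤ N ⊔ T) h1))
    have hle := hT ⟨T', hΦT.trans hTT', hmem.1, hmem.2⟩
    have heq : T = T' := Subgroup.eq_of_le_of_card_ge hTT' hle
    exact hxT (heq ▸ hxT')
  have hKeq : K = N ⊔ T := le_antisymm hsup (sup_le hNK hTK)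
  have hinf : T ⊓ N = Φ := le_antisymm hTN (le_inf hΦT hΦN)
  have hr : T.relIndex K = Φ.relIndex N := by
    rw [hKeq, relIndex_sup_right, ← inf_relIndex_right, hinf]
  have h1 := card_mul_relIndex_eq (H := T) (L := K) hTK
  have h2 := card_mul_relIndex_eq (H := Φ) (L := N) hΦN
  rw [← h1, ← h2, hr]
  ring

/-- The order bound for a complement. -/
lemma card_le_of_complement (Φ D N T : Subgroup G) (hΦc : Φ ≤ center G)
    (hΦ2 : ∀ a ∈ Φ, a ^ 2 = 1) (hDΦ : D ≤ Φ) (hΦT : Φ ≤ T) (hTsq : ∀ x ∈ T, x ^ 2 ∈ D)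
    (hcm : ∀ x y : G, ⁅x, y⁆ ∈ D) (hN : ∀ x : G, x ^ 2 = 1 → x ∈ N) (hinf : T ⊓ N ≤ Φ) :
    Nat.card T ≤ Nat.card D ^ 2 * Nat.card Φ := by
  classical
  by_contra hcon
  push Not at hcon
  have hcA : Nat.card (Φ.subgroupOf T) = Nat.card Φ :=
    Nat.card_congr (subgroupOfEquivOfLe hΦT).toEquiv
  have hcD : Nat.card (D.subgroupOf T) = Nat.card D :=
    Nat.card_congr (subgroupOfEquivOfLe (hDΦ.trans hΦT)).toEquiv
  obtain ⟨x, hx, hx2⟩ := Cfsg.Agent.Lib.PGroup.QuadCW.exists_sq_mem_of_large (W := T)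
    (Φ.subgroupOf T) (D.subgroupOf T) ⊥
    (by
      intro a ha
      rw [mem_center_iff]
      intro g
      apply Subtype.ext
      exact mem_center_iff.1 (hΦc (mem_subgroupOf.1 ha)) g.1)
    (fun a ha => mem_subgroupOf.2 (hDΦ (mem_subgroupOf.1 ha)))
    (fun x => mem_subgroupOf.2 (hTsq x.1 x.2))
    (fun x y => mem_subgroupOf.2 (hcm x.1 y.1))
    (fun a ha => Subtype.ext (hΦ2 _ (mem_subgroupOf.1 ha)))
    (by
      rw [relIndex_bot_left, hcD, hcA]
      exact hcon)
  apply hx
  refine mem_subgroupOf.2 (hinf ⟨x.2, hN _ ?_⟩)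
  exact congrArg Subtype.val (mem_bot.1 hx2)

/-- The centre in the extremal case. -/
lemma center_le_frattini (hG : IsPGroup 2 G) (hΦc : frattini G ≤ center G)
    (hΦ2 : ∀ a ∈ frattini G, a ^ 2 = 1) (hN : ∀ x : G, x ^ 2 = 1 → x ∈ frattini G)
    (hg : Nat.card G = Nat.card (frattini G) ^ 3) : center G ≤ frattini G := by
  classical
  haveI : Fact (Nat.Prime 2) := ⟨Nat.prime_two⟩
  intro c hc
  by_contra hcΦ
  obtain ⟨M, hMn, hMi, hΦM, hcM⟩ :=
    Cfsg.Agent.Lib.PGroup.Basic.exists_normal_index_notMem_of_notMem_frattini hG hcΦ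
  set w := c ^ 2 with hw
  have hwΦ : w ∈ frattini G := Cfsg.Agent.Lib.PGroup.Basic.pow_mem_frattini hG c
  have hw1 : w ≠ 1 := fun h => hcΦ (hN c h)
  have hw2 : w ^ 2 = 1 := hΦ2 w hwΦ
  have hzΦ : zpowers w ≤ frattini G := by
    rw [zpowers_le]
    exact hwΦ
  have hcz : Nat.card (zpowers w) = 2 := by
    rw [Nat.card_zpowers]
    exact orderOf_eq_prime hw2 hw1
  have hcA : Nat.card ((frattini G).subgroupOf M) = Nat.card (frattini G) :=
    Nat.card_congr (subgroupOfEquivOfLe hΦM).toEquiv
  have hcZ : Nat.card ((zpowers w).subgroupOf M) = 2 := by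
    rw [← hcz]
    exact Nat.card_congr (subgroupOfEquivOfLe (hzΦ.trans hΦM)).toEquiv
  have hZle : (zpowers w).subgroupOf M ≤ (frattini G).subgroupOf M :=
    fun a ha => mem_subgroupOf.2 (hzΦ (mem_subgroupOf.1 ha))
  have hr := card_mul_relIndex_eq hZle
  rw [hcZ, hcA] at hr
  set r := ((zpowers w).subgroupOf M).relIndex ((frattini G).subgroupOf M) with hrdef
  have hcM2 : Nat.card M * 2 = Nat.card G := by
    have := card_mul_index M
    rwa [hMi] at this
  have hrpos : 0 < r := by
    have : 0 < Nat.card (frattini G) := Nat.card_pos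
    omega
  obtain ⟨x, hx, hx2⟩ := Cfsg.Agent.Lib.PGroup.QuadCW.exists_sq_mem_of_large (W := M)
    ((frattini G).subgroupOf M) ((frattini G).subgroupOf M) ((zpowers w).subgroupOf M)
    (by
      intro a ha
      rw [mem_center_iff]
      intro g
      apply Subtype.ext
      exact mem_center_iff.1 (hΦc (mem_subgroupOf.1 ha)) g.1)
    le_rfl
    (fun x => mem_subgroupOf.2 (Cfsg.Agent.Lib.PGroup.Basic.pow_mem_frattini hG x.1))
    (fun x y => mem_subgroupOf.2 (Cfsg.Agent.Lib.PGroup.Basic.commutatorElement_mem_frattini hG x.1 y.1))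
    (fun a ha => Subtype.ext (hΦ2 _ (mem_subgroupOf.1 ha)))
    (by
      rw [hcA, ← hrdef]
      have h8 : Nat.card M * 2 = (2 * r) ^ 3 := by rw [hcM2, hg, hr]
      have h9 : 0 < r ^ 3 := pow_pos hrpos 3
      have h10 : Nat.card M = 4 * r ^ 3 := by
        have : (2 * r) ^ 3 = 8 * r ^ 3 := by ring
        omega
      rw [h10, ← hr]
      have : r ^ 2 * (2 * r) = 2 * r ^ 3 := by ring
      omega)
  have hx2' : (x : G) ^ 2 ∈ zpowers w := mem_subgroupOf.1 hx2
  have hcases : (x : G) ^ 2 = 1 ∨ (x : G) ^ 2 = w := by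
    obtain ⟨i, hi0⟩ := hx2'
    have hi : w ^ i = (x : G) ^ 2 := hi0
    clear hi0
    rcases Int.even_or_odd' i with ⟨j, rfl | rfl⟩
    · left
      rw [← hi, zpow_mul, zpow_ofNat, hw2, one_zpow]
    · right
      rw [← hi, zpow_add, zpow_mul, zpow_ofNat, hw2, one_zpow, one_mul, zpow_one]
  rcases hcases with h | h
  · exact hx (mem_subgroupOf.2 (hN _ h))
  · have hcomm : Commute (x : G) c := (mem_center_iff.1 hc x.1)
    have h1 : ((x : G) * c) ^ 2 = 1 := by
      rw [hcomm.mul_pow, h, ← hw, ← pow_two, hw2]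
    have h2 : (x : G) * c ∈ M := hΦM (hN _ h1)
    apply hcM
    have h3 := M.mul_mem (M.inv_mem x.2) h2
    simpa using h3

end Lemmas

/-- Let G be a finite 2-group of nilpotency class at most 2 and exponent dividing 4 in which the elements x with x² = 1 form a subgroup N. Then |G| ≤ |N|³, and |G| < |N|³ unless G is special. -/
theorem result {G : Type*} [Group G] [Finite G] (hG : IsPGroup 2 G) (hcl : (⊤ : Subgroup G).lowerCentralSeries 2 = ⊥) (hexp : ∀ x : G, x ^ 4 = 1) (hN : ∀ x y : G, x ^ 2 = 1 → y ^ 2 = 1 → (x * y) ^ 2 = 1) : Nat.card G ≤ Nat.card {x : G // x ^ 2 = 1} ^ 3 ∧ (¬ Cfsg.IsSpecial 2 G → Nat.card G < Nat.card {x : G // x ^ 2 = 1} ^ 3) := by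
  classical
  haveI : Fact (Nat.Prime 2) := ⟨Nat.prime_two⟩
  have hc : ∀ x y : G, ⁅x, y⁆ ∈ center G := by
    intro x y
    rw [mem_center_iff]
    intro z
    have h1 : ⁅⁅x, y⁆, z⁆ ∈ (⊤ : Subgroup G).lowerCentralSeries 2 :=
      commutator_mem_commutator (commutator_mem_commutator (mem_top x) (mem_top y)) (mem_top z)
    rw [hcl, mem_bot] at h1
    exact ((commutatorElement_eq_one_iff_mul_comm).1 h1).symm
  let N : Subgroup G :=
    { carrier := {x | x ^ 2 = 1}
      mul_mem' := fun {a b} ha hb => hN a b ha hb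
      one_mem' := one_pow 2
      inv_mem' := fun {a} ha => by
        show a⁻¹ ^ 2 = 1
        rw [inv_pow, show a ^ 2 = 1 from ha, inv_one] }
  have hNmem : ∀ x : G, x ∈ N ↔ x ^ 2 = 1 := fun x => Iff.rfl
  have hNcard : Nat.card {x : G // x ^ 2 = 1} = Nat.card N := rfl
  rw [hNcard]
  have hcsq := Cfsg.Agent.S4056.comm_sq_eq_one hc hexp
  have hsqc := Cfsg.Agent.S4056.sq_mem_center hc hexp
  have hΦc : frattini G ≤ center G := by
    rw [Cfsg.Agent.Lib.PGroup.Basic.frattini_le_iff hG]
    exact ⟨hsqc, hc⟩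
  have hΦN : frattini G ≤ N := by
    rw [Cfsg.Agent.Lib.PGroup.Basic.frattini_le_iff hG]
    refine ⟨fun x => ?_, hcsq⟩
    rw [hNmem, ← pow_mul]
    exact hexp x
  have hDΦ : commutator G ≤ frattini G := Cfsg.Agent.Lib.PGroup.Basic.commutator_le_frattini hG
  have hΦ2 : ∀ a ∈ frattini G, a ^ 2 = 1 := fun a ha => hΦN ha
  have hsq : ∀ x : G, x ^ 2 ∈ frattini G := Cfsg.Agent.Lib.PGroup.Basic.pow_mem_frattini hG
  have hcmF : ∀ x y : G, ⁅x, y⁆ ∈ frattini G :=
    Cfsg.Agent.Lib.PGroup.Basic.commutatorElement_mem_frattini hG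
  have hcmD : ∀ x y : G, ⁅x, y⁆ ∈ commutator G := fun x y =>
    commutator_mem_commutator (mem_top x) (mem_top y)
  have hA := card_mul_card_le (frattini G) hDΦ hsq
  set K : Subgroup G := ((powMonoidHom 2 : Abelianization G →* Abelianization G).comp
        (Abelianization.of (G := G))).ker with hK
  have hKmem : ∀ x : G, x ∈ K ↔ x ^ 2 ∈ commutator G := by
    intro x
    rw [hK, MonoidHom.mem_ker, ← Abelianization.ker_of, MonoidHom.mem_ker]
    simp
  have hNK : N ≤ K := by
    intro x hx
    rw [hKmem, (hNmem x).1 hx]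
    exact Subgroup.one_mem _
  obtain ⟨T, hΦT, hTK, hTN, hcard⟩ := exists_complement (frattini G) N K hΦN hNK
    (fun x _ => hsq x) hcmF
  have hB := card_le_of_complement (frattini G) (commutator G) N T hΦc hΦ2 hDΦ hΦT
    (fun x hx => (hKmem x).1 (hTK hx)) hcmD (fun x hx => hx) hTN
  have hg : Nat.card G ≤ Nat.card (frattini G) * Nat.card (commutator G) * Nat.card N := by
    have hd : 0 < Nat.card (commutator G) := Nat.card_pos
    have ha : 0 < Nat.card (frattini G) := Nat.card_pos
    have hda : 0 < Nat.card (commutator G) * Nat.card (frattini G) := Nat.mul_pos hd ha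
    apply Nat.le_of_mul_le_mul_right _ hda
    calc Nat.card G * (Nat.card (commutator G) * Nat.card (frattini G))
        = Nat.card G * Nat.card (commutator G) * Nat.card (frattini G) := by ring
      _ ≤ Nat.card (frattini G) * Nat.card K * Nat.card (frattini G) :=
          Nat.mul_le_mul_right _ hA
      _ = Nat.card (frattini G) * (Nat.card K * Nat.card (frattini G)) := by ring
      _ = Nat.card (frattini G) * (Nat.card T * Nat.card N) := by rw [hcard]
      _ ≤ Nat.card (frattini G) * ((Nat.card (commutator G) ^ 2 * Nat.card (frattini G)) * Nat.card N) :=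
          Nat.mul_le_mul_left _ (Nat.mul_le_mul_right _ hB)
      _ = _ := by ring
  have hdle : Nat.card (commutator G) ≤ Nat.card (frattini G) := Subgroup.card_le_of_le hDΦ
  have hale : Nat.card (frattini G) ≤ Nat.card N := Subgroup.card_le_of_le hΦN
  have hnpos : 0 < Nat.card N := Nat.card_pos
  have hle3 : Nat.card G ≤ Nat.card N ^ 3 := by
    calc Nat.card G ≤ Nat.card (frattini G) * Nat.card (commutator G) * Nat.card N := hg
      _ ≤ Nat.card N * Nat.card N * Nat.card N :=
          Nat.mul_le_mul_right _ (Nat.mul_le_mul hale (hdle.trans hale))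
      _ = _ := by ring
  refine ⟨hle3, fun hspecial => lt_of_le_of_ne hle3 fun heq => hspecial ?_⟩
  -- equality forces `G` to be special
  have h1 : Nat.card N ≤ Nat.card (frattini G) := by
    by_contra hlt
    push Not at hlt
    have : Nat.card (frattini G) * Nat.card (commutator G) * Nat.card N
        < Nat.card N * Nat.card N * Nat.card N := by
      apply Nat.mul_lt_mul_of_pos_right _ hnpos
      exact Nat.mul_lt_mul_of_lt_of_le hlt (hdle.trans hale) Nat.card_pos
    nlinarith
  have h2 : Nat.card N ≤ Nat.card (commutator G) := by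
    by_contra hlt
    push Not at hlt
    have ha : Nat.card (frattini G) = Nat.card N := le_antisymm hale h1
    have : Nat.card (frattini G) * Nat.card (commutator G) * Nat.card N
        < Nat.card N * Nat.card N * Nat.card N := by
      rw [ha]
      apply Nat.mul_lt_mul_of_pos_right _ hnpos
      exact Nat.mul_lt_mul_of_pos_left hlt hnpos
    nlinarith
  have hΦeq : frattini G = N := Subgroup.eq_of_le_of_card_ge hΦN h1
  have hDeq : commutator G = frattini G := Subgroup.eq_of_le_of_card_ge hDΦ (by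
    rw [hΦeq]; exact h2)
  have hcen : center G ≤ frattini G := center_le_frattini hG hΦc hΦ2
    (fun x hx => by rw [hΦeq]; exact hx) (by rw [hΦeq, ← heq])
  have hfin : frattini G = center G := le_antisymm hΦc hcen
  exact ⟨hG, hfin, hDeq.trans hfin⟩

end Cfsg.Agent.S3773
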