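import Cfsg.Statements.S3776
import Cfsg.Agent.Lib.PGroup.SuzukiGen.Final

set_option autoImplicit false
open Cfsg

namespace Cfsg.Agent.S3776



/-- Let G be a finite non-abelian 2-group with more than one involution admitting a solvable group of automorphisms that permutes its involutions transitively. Then the derived subgroup, the Frattini subgroup and the centre of G coincide and consist exactly of the elements x with x² = 1. -/
theorem result {G : Type*} [Group G] [Finite G] (hG : IsPGroup 2 G) (hna : ¬ IsMulCommutative G) (htwo : ∃ x y : G, x ≠ y ∧ x ≠ 1 ∧ x ^ 2 = 1 ∧ y ≠ 1 ∧ y ^ 2 = 1) (hY : ∃ Y : Subgroup (MulAut G), Group.IsSolvable Y ∧ ∀ x y : G, x ≠ 1 → x ^ 2 = 1 → y ≠ 1 → y ^ 2 = 1 → ∃ a ∈ Y, a x = y) : commutator G = frattini G ∧ frattini G = Subgroup.center G ∧ ∀ x : G, x ∈ Subgroup.center G ↔ x ^ 2 = 1 := by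
  classical
  obtain ⟨Y, hYs, hYt⟩ := hY
  haveI : Group.IsSolvable Y := hYs
  have hna' : ∃ u v : G, u * v ≠ v * u := by
    by_contra h
    push Not at h
    exact hna ⟨⟨h⟩⟩
  obtain ⟨x, y, hxy, hx1, hx2, hy1, hy2⟩ := htwo
  obtain ⟨h1, h2, h3⟩ := Cfsg.Agent.Lib.PGroup.SuzukiGen.higman_solvable hG hna'
    ⟨x, y, hxy, hx1, by rwa [← pow_two], hy1, by rwa [← pow_two]⟩ Y
    (fun a b ha ha2 hb hb2 => hYt a b ha (by rwa [pow_two]) hb (by rwa [pow_two]))
  refine ⟨h1, h2, fun z => ?_⟩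
  rw [h3, pow_two]

end Cfsg.Agent.S3776
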