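import Cfsg.Statements.S3802
import Mathlib
import Cfsg.Agent.Lib.Nilpotent.Subnormal
-- import your own Cfsg.Agent.* helpers here

set_option autoImplicit false
open Cfsg

namespace Cfsg.Agent.S3802

/-- Let G be a finite group, M a maximal subgroup of G and N a subnormal subgroup of G contained in M. Then N is contained in every conjugate of M, that is, N lies in the core of M in G. -/
theorem result {G : Type*} [Group G] [Finite G] (M N : Subgroup G) (hM : IsCoatom M) (hN : N.IsSubnormal) (hNM : N ≤ M) :
    N ≤ Subgroup.normalCore M := by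
  classical
  obtain ⟨T, hT⟩ := (Set.toFinite {T : Subgroup G | T.IsSubnormal ∧ T ≤ M}).exists_le_maximal
    (a := N) ⟨hN, hNM⟩
  obtain ⟨hNT, hTmax⟩ := hT
  obtain ⟨⟨hTs, hTM⟩, hTm⟩ := hTmax
  refine hNT.trans ?_
  -- `M` normalizes `T`
  have hMn : M ≤ Subgroup.normalizer (T : Set G) := by
    intro m hm
    have key : ∀ m ∈ M, T.map (MulAut.conj m).toMonoidHom ≤ T := by
      intro m hm
      have h1 : (T.map (MulAut.conj m).toMonoidHom).IsSubnormal :=
        hTs.map (f := (MulAut.conj m).toMonoidHom) (MulAut.conj m).surjective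
      have h2 : T.map (MulAut.conj m).toMonoidHom ≤ M := by
        rintro _ ⟨x, hx, rfl⟩
        exact M.mul_mem (M.mul_mem hm (hTM hx)) (M.inv_mem hm)
      have h3 : (T ⊔ T.map (MulAut.conj m).toMonoidHom).IsSubnormal :=
        Cfsg.Agent.Lib.Nilpotent.Subnormal.isSubnormal_sup hTs h1
      have h4 := hTm (y := T ⊔ T.map (MulAut.conj m).toMonoidHom) ⟨h3, sup_le hTM h2⟩ le_sup_left
      exact le_sup_right.trans h4
    rw [Subgroup.mem_normalizer_iff]
    intro x
    constructor
    · intro hx
      exact key m hm ⟨x, hx, rfl⟩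
    · intro hx
      have := key m⁻¹ (M.inv_mem hm) ⟨_, hx, rfl⟩
      have e : m⁻¹ * (m * x * m⁻¹) * m = x := by group
      rw [← e]
      simpa using this
  -- `T` is normal
  have hTn : T.Normal := by
    rw [← Subgroup.normalizer_eq_top_iff]
    by_contra hne
    have hNM' : Subgroup.normalizer (T : Set G) = M := ((hM.le_iff.mp hMn).resolve_left hne)
    rcases (Subgroup.IsSubnormal.iff_eq_top_or_exists).mp hTs with h | ⟨K, hTK, hKs, hKn⟩
    · exact hM.1 (top_le_iff.mp (h ▸ hTM))
    · have hKM : K ≤ M := by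
        rw [← hNM']
        exact Subgroup.le_normalizer_of_normal_subgroupOf hTK.le
      exact absurd (hTm ⟨hKs, hKM⟩ hTK.le) (not_le_of_gt hTK)
  exact Subgroup.normal_le_normalCore.mpr hTM

end Cfsg.Agent.S3802
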