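import Cfsg.Statements.S3803
import Mathlib
import Cfsg.Agent.Lib.PGroup.Critical
import Cfsg.Agent.Lib.PGroup.FrattiniBasis
import Cfsg.Agent.Lib.Coprime.Coset
import Cfsg.Agent.Lib.Coprime.OmegaOne
import Cfsg.Agent.Lib.Coprime.InvSylow
import Cfsg.Agent.Lib.PGroup.ActionFrattini

set_option autoImplicit false
open Cfsg

namespace Cfsg.Agent.S3803

open Cfsg.Agent.Lib.Coprime.Coset Cfsg.Agent.Lib.Coprime.OmegaOne
open Cfsg.Agent.Lib.Coprime.InvSylow

variable {X : Type*} [Group X] [Finite X]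

/-- An odd-order element normalizing a `2`-subgroup `S` and all its subgroups of index two
centralizes it. -/
theorem comm_of_maximal_invariant (S : Subgroup X) (hS : IsPGroup 2 S) (a : X)
    (hodd : Odd (orderOf a)) (haS : a ∈ Subgroup.normalizer (S : Set X))
    (hmax : ∀ M : Subgroup X, M ≤ S → 2 * Nat.card M = Nat.card S →
      a ∈ Subgroup.normalizer (M : Set X)) :
    ∀ s ∈ S, a * s = s * a := by
  classical
  haveI : Fact (Nat.Prime 2) := ⟨Nat.prime_two⟩
  set A₀ : Subgroup X := Subgroup.zpowers a with hA₀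
  have hA₀S : A₀ ≤ Subgroup.normalizer (S : Set X) := by
    rw [hA₀, Subgroup.zpowers_le]; exact haS
  have hA₀M : ∀ M : Subgroup X, M ≤ S → 2 * Nat.card M = Nat.card S →
      A₀ ≤ Subgroup.normalizer (M : Set X) := by
    intro M h1 h2
    rw [hA₀, Subgroup.zpowers_le]; exact hmax M h1 h2
  have hcop : (Nat.card A₀).Coprime (Nat.card S) := by
    obtain ⟨k, hk⟩ := hS.exists_card_eq
    rw [hk, hA₀, Nat.card_zpowers]
    exact Nat.Coprime.pow_right k (Nat.coprime_two_right.mpr hodd)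
  have hsolv : Group.IsSolvable A₀ := by
    apply Group.isSolvable_of_comm
    intro x y
    obtain ⟨m, hm⟩ := Subgroup.mem_zpowers_iff.mp x.2
    obtain ⟨n, hn⟩ := Subgroup.mem_zpowers_iff.mp y.2
    apply Subtype.ext
    show (x : X) * y = y * x
    rw [← hm, ← hn, ← zpow_add, ← zpow_add, add_comm]
  set Φ : Subgroup X := (frattini S).map S.subtype with hΦ
  have hΦS : Φ ≤ S := Subgroup.map_subtype_le _
  -- the Frattini subgroup is invariant
  have hΦkey : ∀ b ∈ Subgroup.normalizer (S : Set X), ∀ h ∈ Φ, b * h * b⁻¹ ∈ Φ := by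
    rintro b hb _ ⟨x, hx, rfl⟩
    have h1 := (Cfsg.Agent.Lib.PGroup.ActionFrattini.char_mem (frattini S) (conjAut S b hb)).mpr hx
    exact ⟨_, h1, rfl⟩
  have hA₀Φ : A₀ ≤ Subgroup.normalizer (Φ : Set X) := by
    intro b hb
    have hbS := hA₀S hb
    rw [Subgroup.mem_normalizer_iff]
    intro h
    constructor
    · exact hΦkey b hbS h
    · intro h1
      have := hΦkey b⁻¹ (Subgroup.inv_mem _ hbS) _ h1
      simpa [mul_assoc] using this
  -- elements are fixed modulo the Frattini subgroup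
  have hmod : ∀ t ∈ S, ∀ b ∈ A₀, t⁻¹ * (b * t * b⁻¹) ∈ Φ := by
    intro t ht b hb
    have hbS := hA₀S hb
    have hbt : b * t * b⁻¹ ∈ S := (Subgroup.mem_normalizer_iff.mp hbS t).mp ht
    have hmem : t⁻¹ * (b * t * b⁻¹) ∈ S := S.mul_mem (S.inv_mem ht) hbt
    refine ⟨⟨_, hmem⟩, ?_, rfl⟩
    show (⟨_, hmem⟩ : S) ∈ frattini S
    rw [Cfsg.Agent.Lib.PGroup.FrattiniBasis.mem_frattini_iff]
    intro M₀ hM₀
    have hidx : M₀.index = 2 := Cfsg.Agent.Lib.PGroup.FrattiniBasis.coatom_index hS hM₀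
    let M : Subgroup X := M₀.map S.subtype
    have hMS : M ≤ S := Subgroup.map_subtype_le _
    have hcardM : 2 * Nat.card M = Nat.card S := by
      have h1 : Nat.card M = Nat.card M₀ :=
        (Nat.card_congr (Subgroup.equivMapOfInjective M₀ S.subtype S.subtype_injective).toEquiv).symm
      rw [h1, ← Subgroup.card_mul_index M₀, hidx, mul_comm]
    have hbM := hA₀M M hMS hcardM hb
    have hiff : (⟨t, ht⟩ : S) ∈ M₀ ↔ (⟨b * t * b⁻¹, hbt⟩ : S) ∈ M₀ := by
      have h1 : ∀ y (hy : y ∈ S), (⟨y, hy⟩ : S) ∈ M₀ ↔ y ∈ M := by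
        intro y hy
        constructor
        · intro h; exact ⟨_, h, rfl⟩
        · rintro ⟨z, hz, rfl⟩; exact hz
      rw [h1, h1]
      exact Subgroup.mem_normalizer_iff.mp hbM t
    have h2 := (Subgroup.mul_mem_iff_of_index_two hidx (a := (⟨t, ht⟩ : S)⁻¹)
      (b := (⟨b * t * b⁻¹, hbt⟩ : S))).mpr
    apply h2
    rw [Subgroup.inv_mem_iff]
    exact hiff
  let K₀ : Subgroup S := (Subgroup.centralizer (A₀ : Set X)).subgroupOf S
  have hsup : K₀ ⊔ frattini S = ⊤ := by
    rw [eq_top_iff]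
    intro t _
    obtain ⟨c, hc, hu⟩ := exists_centralizer_mem_coset hA₀S hcop (Or.inl hsolv) hΦS hA₀Φ t.1 t.2
      (hmod t.1 t.2)
    obtain ⟨hc1, hc2⟩ := Subgroup.mem_inf.mp hc
    obtain ⟨u, hu1, hu2⟩ := hu
    have hcK : (⟨c, hc1⟩ : S) ∈ K₀ := Subgroup.mem_subgroupOf.mpr hc2
    have hEq : t = ⟨c, hc1⟩ * u⁻¹ := by
      apply Subtype.ext
      have : (u : X) = (t : X)⁻¹ * c := hu2
      simp only [Subgroup.coe_mul, Subgroup.coe_inv, this]
      group
    rw [hEq]
    exact Subgroup.mul_mem_sup hcK ((frattini S).inv_mem hu1)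
  have htop := frattini_nongenerating hsup
  intro s hs
  have hsK : (⟨s, hs⟩ : S) ∈ K₀ := by rw [htop]; trivial
  have h1 : s ∈ Subgroup.centralizer (A₀ : Set X) := Subgroup.mem_subgroupOf.mp hsK
  exact (Subgroup.mem_centralizer_iff.mp h1 a (Subgroup.mem_zpowers a))

/-- An odd-order element normalizing a cyclic `2`-subgroup centralizes it. -/
theorem comm_of_cyclic (S : Subgroup X) (hS : IsPGroup 2 S) (hc : IsCyclic S) (a : X)
    (hodd : Odd (orderOf a)) (haS : a ∈ Subgroup.normalizer (S : Set X)) :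
    ∀ s ∈ S, a * s = s * a := by
  classical
  haveI : Fact (Nat.Prime 2) := ⟨Nat.prime_two⟩
  obtain ⟨k, hk⟩ := hS.exists_card_eq
  have h1 : orderOf (conjAut S a haS) ∣ Nat.card (MulAut S) := orderOf_dvd_natCard _
  rw [IsCyclic.card_mulAut, hk] at h1
  have h2 : orderOf (conjAut S a haS) ∣ orderOf a := orderOf_conjAut_dvd S a haS
  have h3 : Nat.totient (2 ^ k) ∣ 2 ^ k := by
    cases k with
    | zero => simp
    | succ k' =>
      rw [Nat.totient_prime_pow_succ Nat.prime_two]
      simpa using pow_dvd_pow 2 (Nat.le_succ k')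
  have h4 : (orderOf a).Coprime (2 ^ k) := Nat.Coprime.pow_right k (Nat.coprime_two_right.mpr hodd)
  have h5 : orderOf (conjAut S a haS) = 1 :=
    Nat.eq_one_of_dvd_coprimes h4 h2 (h1.trans h3)
  have h6 : conjAut S a haS = 1 := orderOf_eq_one_iff.mp h5
  intro s hs
  have h7 := congrArg (fun φ : MulAut S => ((φ ⟨s, hs⟩ : S) : X)) h6
  simp only [conjAut_apply_coe, MulAut.one_apply] at h7
  have h8 : a * s = a * s * a⁻¹ * a := by group
  rw [h8, h7]

/-- The cardinality of a subgroup of a `2`-group is a power of two. -/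
theorem exists_card_eq_of_le {P H : Subgroup X} (hP : IsPGroup 2 P) (hHP : H ≤ P) :
    ∃ i, Nat.card H = 2 ^ i :=
  (hP.to_le hHP).exists_card_eq

/-- Extending subgroups in `P`. -/
theorem exists_le_card {P H : Subgroup X} (hHP : H ≤ P) {i j : ℕ} (hH : Nat.card H = 2 ^ i)
    (hij : i ≤ j) (hj : 2 ^ j ∣ Nat.card P) : ∃ K : Subgroup X, H ≤ K ∧ K ≤ P ∧ Nat.card K = 2 ^ j := by
  haveI : Fact (Nat.Prime 2) := ⟨Nat.prime_two⟩
  have h1 : Nat.card (H.subgroupOf P) = 2 ^ i := by
    rw [← hH]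
    exact Nat.card_congr (Subgroup.subgroupOfEquivOfLe hHP).toEquiv
  obtain ⟨K, hK, hHK⟩ := Sylow.exists_subgroup_card_pow_prime_le 2 hj (H.subgroupOf P) h1 hij
  refine ⟨K.map P.subtype, ?_, Subgroup.map_subtype_le _, ?_⟩
  · intro x hx
    exact ⟨⟨x, hHP hx⟩, hHK (Subgroup.mem_subgroupOf.mpr hx), rfl⟩
  · rw [← hK]
    exact (Nat.card_congr (Subgroup.equivMapOfInjective K P.subtype P.subtype_injective).toEquiv).symm

/-- The main point: elements of small order are fixed. -/
theorem comm_of_invariant_card (P : Subgroup X) (hP : IsPGroup 2 P) (a : X)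
    (hodd : Odd (orderOf a)) (m : ℕ) (hm : 2 ≤ m) (hmP : 2 ^ (m + 1) ∣ Nat.card P)
    (hinv : ∀ E : Subgroup X, E ≤ P → Nat.card E = 2 ^ m → a ∈ Subgroup.normalizer (E : Set X))
    (y : X) (hy : y ∈ P) (hy4 : y ^ 4 = 1) : a * y = y * a := by
  classical
  haveI : Fact (Nat.Prime 2) := ⟨Nat.prime_two⟩
  -- the cyclic subgroup generated by `y`
  have hYP : Subgroup.zpowers y ≤ P := by rw [Subgroup.zpowers_le]; exact hy
  have hord : orderOf y ∣ 2 ^ 2 := by
    apply orderOf_dvd_of_pow_eq_one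
    simpa using hy4
  obtain ⟨i, hi, hoi⟩ := (Nat.dvd_prime_pow Nat.prime_two).mp hord
  have hcY : Nat.card (Subgroup.zpowers y) = 2 ^ i := by rw [Nat.card_zpowers, hoi]
  obtain ⟨D₁, hYD, hD₁P, hcD₁⟩ := exists_le_card hYP hcY (hi.trans hm)
    ((pow_dvd_pow 2 (Nat.le_succ m)).trans hmP)
  have hyD : y ∈ D₁ := hYD (Subgroup.mem_zpowers y)
  obtain ⟨S, hD₁S, hSP, hcS⟩ := exists_le_card hD₁P hcD₁ (Nat.le_succ m) hmP
  have haD₁ := hinv D₁ hD₁P hcD₁
  by_cases hcyc : IsCyclic S
  · -- then `D₁` is cyclic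
    have hcD : IsCyclic D₁ :=
      Subgroup.isCyclic_of_le hD₁S
    exact comm_of_cyclic D₁ (hP.to_le hD₁P) hcD a hodd haD₁ y hyD
  · -- `S` is generated by two invariant subgroups
    have hne : D₁ ≠ S := by
      intro h
      rw [h, hcS] at hcD₁
      have := Nat.pow_right_injective (le_refl 2) hcD₁
      omega
    obtain ⟨z, hzS, hzD⟩ : ∃ z ∈ S, z ∉ D₁ := by
      by_contra hcon
      push_neg at hcon
      exact hne (le_antisymm hD₁S hcon)
    have hZS : Subgroup.zpowers z ≤ S := by rw [Subgroup.zpowers_le]; exact hzS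
    obtain ⟨j, hcj⟩ := exists_card_eq_of_le hP (hZS.trans hSP)
    have hjm : j ≤ m := by
      have hdvd : 2 ^ j ∣ 2 ^ (m + 1) := by
        rw [← hcj, ← hcS]; exact Subgroup.card_dvd_of_le hZS
      have hle := (Nat.pow_dvd_pow_iff_le_right (by norm_num : 1 < 2)).mp hdvd
      rcases Nat.lt_or_ge m j with h | h
      · exfalso
        have hjeq : j = m + 1 := by omega
        have hZeq : Subgroup.zpowers z = S := by
          apply Subgroup.eq_of_le_of_card_ge hZS
          rw [hcj, hcS, hjeq]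
        apply hcyc
        rw [← hZeq]
        infer_instance
      · exact h
    obtain ⟨M₂, hZM, hM₂S, hcM₂⟩ := exists_le_card hZS hcj hjm
      (by rw [hcS]; exact pow_dvd_pow 2 (Nat.le_succ m))
    have hzM : z ∈ M₂ := hZM (Subgroup.mem_zpowers z)
    have haM₂ := hinv M₂ (hM₂S.trans hSP) hcM₂
    have hsupS : D₁ ⊔ M₂ = S := by
      apply Subgroup.eq_of_le_of_card_ge (sup_le hD₁S hM₂S)
      obtain ⟨e, hce⟩ := exists_card_eq_of_le hP ((sup_le hD₁S hM₂S).trans hSP)
      have h1 : 2 ^ m ∣ 2 ^ e := by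
        rw [← hcD₁, ← hce]; exact Subgroup.card_dvd_of_le le_sup_left
      have h2 : m ≤ e := (Nat.pow_dvd_pow_iff_le_right (by norm_num : 1 < 2)).mp h1
      have h3 : e ≠ m := by
        intro h
        have h4 : D₁ = D₁ ⊔ M₂ := by
          apply Subgroup.eq_of_le_of_card_ge le_sup_left
          rw [hce, hcD₁, h]
        apply hzD
        rw [h4]
        exact (le_sup_right : M₂ ≤ D₁ ⊔ M₂) hzM
      rw [hcS, hce]
      exact Nat.pow_le_pow_right (by norm_num) (by omega)
    have haS : a ∈ Subgroup.normalizer (S : Set X) := by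
      apply mem_normalizer_of_map_conj_eq
      rw [← hsupS, Subgroup.map_sup, map_conj_eq_of_mem_normalizer haD₁,
        map_conj_eq_of_mem_normalizer haM₂]
    refine comm_of_maximal_invariant S (hP.to_le hSP) a hodd haS ?_ y (hD₁S hyD)
    intro M hMS hcM
    apply hinv M (hMS.trans hSP)
    rw [hcS] at hcM
    rw [pow_succ] at hcM
    omega

/-- Let P be a 2-subgroup and A a subgroup of odd order of a finite group, with A normalizing P. Let D ≤ P with 1 < |D| < |P|. If every subgroup of P of order |D|, and also every subgroup of P of order 4 in case |D| = 2, is normalized by A, then A centralizes P. -/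
theorem result {X : Type*} [Group X] [Finite X] (P A D : Subgroup X) (hP : IsPGroup 2 P) (hA : Odd (Nat.card A))
    (hAP : A ≤ Subgroup.normalizer (P : Set X)) (hDP : D ≤ P) (hD1 : 1 < Nat.card D) (hD2 : Nat.card D < Nat.card P)
    (hinv : ∀ E : Subgroup X, E ≤ P → (Nat.card E = Nat.card D ∨ (Nat.card D = 2 ∧ Nat.card E = 4)) → A ≤ Subgroup.normalizer (E : Set X)) :
    A ≤ Subgroup.centralizer (P : Set X) := by
  classical
  haveI : Fact (Nat.Prime 2) := ⟨Nat.prime_two⟩
  intro a ha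
  rw [Subgroup.mem_centralizer_iff]
  intro x hx
  have haP := hAP ha
  have hoddA : Odd (orderOf a) := by
    have h1 : orderOf (⟨a, ha⟩ : A) ∣ Nat.card A := orderOf_dvd_natCard _
    rw [Subgroup.orderOf_mk] at h1
    exact Odd.of_dvd_nat hA h1
  obtain ⟨n, hn⟩ := hP.exists_card_eq
  obtain ⟨k, hk⟩ := exists_card_eq_of_le hP hDP
  have hkn : k < n := by
    rw [hk, hn] at hD2
    exact (Nat.pow_lt_pow_iff_right (by norm_num)).mp hD2
  have hk1 : 1 ≤ k := by
    rw [hk] at hD1
    rcases Nat.eq_zero_or_pos k with rfl | h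
    · simp at hD1
    · exact h
  -- a fixes every element with `y ^ 4 = 1`
  have hfix4 : ∀ y ∈ P, y ^ 4 = 1 → a * y = y * a := by
    intro y hy hy4
    by_cases hk2 : 2 ≤ k
    · refine comm_of_invariant_card P hP a hoddA k hk2 ?_ ?_ y hy hy4
      · rw [hn]; exact pow_dvd_pow 2 (by omega)
      · intro E hE hcE
        exact hinv E hE (Or.inl (by rw [hcE, hk])) ha
    · have hk1' : k = 1 := by omega
      have hD2' : Nat.card D = 2 := by rw [hk, hk1', pow_one]
      by_cases hn2 : n = 2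
      · refine comm_of_maximal_invariant P hP a hoddA haP ?_ y hy
        intro M hMP hcM
        apply hinv M hMP (Or.inl ?_) ha
        rw [hD2']
        rw [hn, hn2] at hcM
        omega
      · refine comm_of_invariant_card P hP a hoddA 2 le_rfl ?_ ?_ y hy hy4
        · rw [hn]; exact pow_dvd_pow 2 (by omega)
        · intro E hE hcE
          exact hinv E hE (Or.inr ⟨hD2', by rw [hcE]; norm_num⟩) ha
  have h1 : conjAut P a haP = 1 := by
    refine Cfsg.Agent.Lib.PGroup.Critical.coprime_aut_eq_one_of_fixes hP _ ?_ (n := 4) (by norm_num)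
      (by decide) ?_
    · exact Nat.Coprime.coprime_dvd_left (orderOf_conjAut_dvd P a haP)
        (Nat.coprime_two_right.mpr hoddA)
    · intro y hy
      apply Subtype.ext
      rw [conjAut_apply_coe]
      have hy' : (y : X) ^ 4 = 1 := by
        have := congrArg (fun z : P => (z : X)) hy
        simpa using this
      rw [hfix4 y y.2 hy']
      group
  have h2 := congrArg (fun φ : MulAut P => ((φ ⟨x, hx⟩ : P) : X)) h1
  simp only [conjAut_apply_coe, MulAut.one_apply] at h2
  calc x * a = (a * x * a⁻¹) * a := by rw [h2]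
    _ = a * x := by group

end Cfsg.Agent.S3803
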