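import Cfsg.Statements.S3816
import Cfsg.Agent.Lib.Transfer.FixedCommB

set_option autoImplicit false
open Cfsg

namespace Cfsg.Agent.S3816



/-- Let p be an odd prime, H a finite solvable group of order prime to p, and x an automorphism of H of order p (so P = ⟨x⟩ has prime order p > 2 and acts coprimely on H). For h ∈ H let [h, P] be the subgroup generated by the commutators h⁻¹·xⁱ(h), and let [H, P] be the subgroup generated by all of these. Then the fixed points of x in [H, P] are generated by the fixed points of x in the subgroups [h, P], h ∈ H. -/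
theorem result {H : Type*} [Group H] [Finite H]
    [Group.IsSolvable H] {p : ℕ} [Fact p.Prime] (hp : p ≠ 2) (hcop : (Nat.card H).Coprime p)
    (x : MulAut H) (hx : orderOf x = p) :
    Subgroup.closure {c : H | ∃ h : H, ∃ i : ℕ, c = h⁻¹ * (x ^ i) h} ⊓ (x : H →* H).eqLocus (MonoidHom.id H) =
      ⨆ h : H, Subgroup.closure {c : H | ∃ i : ℕ, c = h⁻¹ * (x ^ i) h} ⊓ (x : H →* H).eqLocus (MonoidHom.id H) := by
  open Cfsg.Agent.Lib.Transfer.FixedComm in
  have hxp : x ^ p = 1 := by rw [← hx]; exact pow_orderOf_eq_one x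
  have hm := Cfsg.Agent.Lib.Transfer.FixedComm.fixed_main (Nat.card H) H p x rfl (Fact.out) hp hcop hxp
  have e1 : Cfsg.Agent.Lib.Transfer.FixedComm.Cm x ⊤ =
      Subgroup.closure {c : H | ∃ h : H, ∃ i : ℕ, c = h⁻¹ * (x ^ i) h} := by
    unfold Cfsg.Agent.Lib.Transfer.FixedComm.Cm
    congr 1
    ext c
    constructor
    · rintro ⟨b, -, i, rfl⟩; exact ⟨b, i, rfl⟩
    · rintro ⟨b, i, rfl⟩; exact ⟨b, Subgroup.mem_top b, i, rfl⟩
  apply le_antisymm
  · rw [← e1]
    exact hm
  · apply iSup_le
    intro h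
    apply inf_le_inf_right
    apply Subgroup.closure_mono
    rintro _ ⟨i, rfl⟩
    exact ⟨h, i, rfl⟩

end Cfsg.Agent.S3816
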