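import Cfsg.Statements.S3818
import Cfsg.Agent.Lib.Flavell.Main

set_option autoImplicit false
open Cfsg
open Module

namespace Cfsg.Agent.S3818

/-- Let G be a finite solvable group and P a subgroup of G of prime order p > 3 whose conjugates generate G. Let V be a faithful irreducible representation of G over a field of positive characteristic, finite-dimensional. Then the subspace of V fixed by P has dimension less than half the dimension of V. -/
theorem result {G : Type*} [Group G] [Finite G] [Group.IsSolvable G]
    {p : ℕ} [Fact p.Prime] (hp : 3 < p) (P : Subgroup G) (hP : Nat.card P = p) (hgen : Subgroup.normalClosure (P : Set G) = ⊤)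
    {k : Type*} [Field k] (ℓ : ℕ) [Fact ℓ.Prime] [CharP k ℓ]
    {V : Type*} [AddCommGroup V] [Module k V] [FiniteDimensional k V]
    (ρ : Representation k G V) [ρ.IsIrreducible] (hfaith : Function.Injective ρ) :
    2 * Module.finrank k ↥(⨅ g : ↥P, LinearMap.ker (ρ (g : G) - LinearMap.id)) < Module.finrank k V := by
  classical
  have hp4 : 4 < p := by
    have h1 : p ≠ 4 := fun h => by
      have := (Fact.out : p.Prime)
      rw [h] at this
      exact absurd this (by norm_num)
    omega
  haveI hcyc : IsCyclic P := isCyclic_of_prime_card hP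
  obtain ⟨⟨x, hxP⟩, hgenx⟩ := IsCyclic.exists_generator (α := P)
  have hPz : P ≤ Subgroup.zpowers x := by
    intro g hg
    obtain ⟨i, hi⟩ := hgenx ⟨g, hg⟩
    exact ⟨i, by simpa using congrArg Subtype.val hi⟩
  have hx : x ^ p = 1 := by
    have h1 : (⟨x, hxP⟩ : P) ^ Nat.card P = 1 := pow_card_eq_one'
    rw [hP] at h1
    simpa using congrArg Subtype.val h1
  have hx1 : x ≠ 1 := by
    rintro rfl
    have h1 : P = ⊥ := by
      rw [eq_bot_iff]
      refine hPz.trans ?_
      simp
    rw [h1, Subgroup.card_bot] at hP
    exact (Fact.out : p.Prime).one_lt.ne hP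
  have hgen' : Subgroup.normalClosure ({x} : Set G) = ⊤ := by
    rw [eq_top_iff, ← hgen]
    apply Subgroup.normalClosure_le_normal
    intro g hg
    obtain ⟨i, rfl⟩ := hPz hg
    exact (Subgroup.normalClosure ({x} : Set G)).zpow_mem (Subgroup.subset_normalClosure (Set.mem_singleton x)) i
  have hs : ∀ U : Submodule k V, (∀ g, ∀ v ∈ U, ρ g v ∈ U) → U ≠ ⊥ → U = ⊤ := by
    intro U hU hne
    let S : Subrepresentation ρ := ⟨U, fun g v hv => hU g v hv⟩
    rcases eq_bot_or_eq_top S with h | h
    · exfalso
      apply hne
      have := congrArg Subrepresentation.toSubmodule h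
      exact this
    · have := congrArg Subrepresentation.toSubmodule h
      exact this
  haveI : Nontrivial V := by
    by_contra hV
    rw [not_nontrivial_iff_subsingleton] at hV
    have h1 : (⊥ : Subrepresentation ρ) = ⊤ := by
      apply Subrepresentation.toSubmodule_injective
      exact Subsingleton.elim _ _
    exact bot_ne_top h1
  have main := Cfsg.Agent.Lib.Flavell.stepB (ℓ := ℓ) ρ hfaith hs hp4 hx hx1 hgen'
    (Cfsg.Agent.Lib.Flavell.bound_all hp4 _)
  refine lt_of_le_of_lt (Nat.mul_le_mul_left 2 (Submodule.finrank_mono ?_)) main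
  exact iInf_le (fun g : ↥P => LinearMap.ker (ρ (g : G) - LinearMap.id)) ⟨x, hxP⟩

end Cfsg.Agent.S3818
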