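import Cfsg.Statements.S3819
import Cfsg.Agent.Lib.Transfer.CoreControl

set_option autoImplicit false
open Cfsg

namespace Cfsg.Agent.S3819

open Subgroup Cfsg.Agent.Lib.Transfer.CoreControl
open scoped commutatorElement

set_option linter.style.haveILetI false
set_option linter.unusedVariables false

theorem conj_mem_core {G : Type*} [Group G] [Finite G] (q : ℕ) {S : Subgroup G} {g : G}
    (hg : ∀ s ∈ S, g * s * g⁻¹ ∈ S) {d : G} (hd : d ∈ (Cfsg.pPrimeCore q S).map S.subtype) :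
    g * d * g⁻¹ ∈ (Cfsg.pPrimeCore q S).map S.subtype := by
  let f : S →* S :=
    { toFun := fun s => ⟨g * s * g⁻¹, hg s s.2⟩
      map_one' := by apply Subtype.ext; simp
      map_mul' := fun a b => by
        apply Subtype.ext
        change g * ((a : G) * b) * g⁻¹ = (g * a * g⁻¹) * (g * b * g⁻¹)
        group }
  have hf : Function.Injective f := by
    intro a b h
    have h1 := congrArg Subtype.val h
    change g * (a : G) * g⁻¹ = g * b * g⁻¹ at h1
    apply Subtype.ext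
    have h2 := mul_right_cancel h1
    exact mul_left_cancel h2
  let e : S ≃* S := MulEquiv.ofBijective f (Finite.injective_iff_bijective.mp hf)
  have hchar := Subgroup.characteristic_iff_map_le.mp
    (Cfsg.Agent.Lib.Solvable.PSeries.pPrimeCore_char q S) e
  obtain ⟨d', hd', rfl⟩ := hd
  exact ⟨e d', hchar ⟨d', hd', rfl⟩, rfl⟩

/-- The quotient by a maximal normal `q'`-subgroup has trivial `q'`-core. -/
theorem core_trivial {G Q : Type*} [Group G] [Finite G] [Group Q] [Finite Q] {q : ℕ} [hq : Fact q.Prime]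
    (π : G →* Q) (H O : Subgroup G) [hHn : H.Normal] [hOn : O.Normal] (hOc : (Nat.card O).Coprime q)
    (hπ1 : ∀ g, π g = 1 ↔ g ∈ O)
    (hmax : ∀ M : Subgroup G, M ≤ H → (∀ h ∈ H, ∀ n ∈ M, h * n * h⁻¹ ∈ M) →
      (Nat.card M).Coprime q → M ≤ O)
    (N : Subgroup Q) (hNH : N ≤ H.map π)
    (hNn : ∀ h ∈ H.map π, ∀ n ∈ N, h * n * h⁻¹ ∈ N)
    (hNc : (Nat.card N).Coprime q) : N = ⊥ := by
  have hqprime : q.Prime := hq.out
  have hle : N.comap π ⊓ H ≤ O := by
    apply hmax _ inf_le_right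
    · rintro g hg n ⟨hn1, hnH⟩
      refine Subgroup.mem_inf.mpr ⟨?_, mul_mem (mul_mem hg hnH) (inv_mem hg)⟩
      change π (g * n * g⁻¹) ∈ N
      rw [map_mul, map_mul, map_inv]
      exact hNn _ ⟨g, hg, rfl⟩ _ hn1
    · rw [Nat.coprime_comm, Nat.Prime.coprime_iff_not_dvd hqprime]
      intro hd
      obtain ⟨y, hy⟩ := exists_prime_orderOf_dvd_card' q hd
      have hyN : π (y : G) ∈ N := y.2.1
      have hy1 : (y : G) ^ q = 1 := by
        have h2 := pow_orderOf_eq_one y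
        rw [hy] at h2
        have h3 := congrArg Subtype.val h2
        simpa using h3
      have h4 : (π (y : G)) ^ q = 1 := by rw [← map_pow, hy1, map_one]
      have h5 : orderOf (π (y : G)) ∣ Nat.gcd (Nat.card N) q :=
        Nat.dvd_gcd (Subgroup.orderOf_dvd_natCard N hyN) (orderOf_dvd_of_pow_eq_one h4)
      rw [hNc, Nat.dvd_one, orderOf_eq_one_iff] at h5
      have h6 : (y : G) ∈ O := (hπ1 _).mp h5
      have h7 : orderOf (y : G) ∣ Nat.gcd (Nat.card O) q :=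
        Nat.dvd_gcd (Subgroup.orderOf_dvd_natCard O h6) (orderOf_dvd_of_pow_eq_one hy1)
      rw [hOc, Nat.dvd_one, orderOf_eq_one_iff] at h7
      have h8 : y = 1 := Subtype.ext h7
      rw [h8, orderOf_one] at hy
      exact hqprime.one_lt.ne hy
  rw [eq_bot_iff]
  intro x hx
  obtain ⟨h, hh, rfl⟩ := hNH hx
  have h3 : h ∈ O := hle (Subgroup.mem_inf.mpr ⟨hx, hh⟩)
  rw [mem_bot]
  exact (hπ1 h).mpr h3

/-- The body of the proof, with everything opaque. -/
theorem key {G Q : Type*} [Group G] [Finite G] [Group Q] [Finite Q] {p q : ℕ} [hpp : Fact p.Prime]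
    [hq : Fact q.Prime] (H O K₀ P Cp L₀ D₀ : Subgroup G) [hHn : H.Normal] [hOn : O.Normal]
    [hK₀n : K₀.Normal] (π : G →* Q) (hπ1 : ∀ g, π g = 1 ↔ g ∈ O) (hπs : Function.Surjective π)
    [hsol : Group.IsSolvable K₀] (hPp : IsPGroup p P) (hHp : (Nat.card H).Coprime p)
    (hK₀H : K₀ ≤ H) (hK₀ : ∀ h ∈ H, ∀ a ∈ P, h⁻¹ * (a * h * a⁻¹) ∈ K₀)
    (hOc : (Nat.card O).Coprime q) (hOH : O ≤ H)
    (hmax : ∀ M : Subgroup G, M ≤ H → (∀ h ∈ H, ∀ n ∈ M, h * n * h⁻¹ ∈ M) →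
      (Nat.card M).Coprime q → M ≤ O)
    {z : G} (hzp0 : IsPGroup q (zpowers z)) (hzP : z ∈ centralizer (P : Set G))
    (hD₀H : D₀ ≤ H) (hD₀c : (Nat.card D₀).Coprime q) (hD₀z : ∀ d ∈ D₀, d * z = z * d)
    (hD₀n : ∀ x ∈ H, x * z = z * x → ∀ d ∈ D₀, x * d * x⁻¹ ∈ D₀)
    (hPD : ∀ g ∈ P, ∀ d ∈ D₀, g * d * g⁻¹ ∈ D₀)
    (hCp : Cp = H ⊓ centralizer (P : Set G)) (hL₀H : L₀ ≤ H) (hL₀c : (Nat.card L₀).Coprime q)
    (hL₀n : ∀ c ∈ Cp, ∀ l ∈ L₀, c * l * c⁻¹ ∈ L₀)
    (hcK : ⁅H, P⁆ ≤ K₀) :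
    (D₀ ⊓ L₀) ⊔ ⁅D₀, P⁆ ≤ O := by
  classical
  have hqprime : q.Prime := hq.out
  haveI hKtn : (K₀.map π).Normal := Subgroup.Normal.map hK₀n _ hπs
  haveI hKts : Group.IsSolvable (K₀.map π) :=
    Group.isSolvable_of_surjective (f := π.subgroupMap K₀)
      (π.subgroupMap_surjective K₀)
  haveI hHtn : (H.map π).Normal := Subgroup.Normal.map hHn _ hπs
  have hKtH : K₀.map π ≤ H.map π := Subgroup.map_mono hK₀H
  have hOt := core_trivial π H O hOc hπ1 hmax
  have hDtH : D₀.map π ≤ H.map π := Subgroup.map_mono hD₀H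
  have hDtc : (Nat.card (D₀.map π)).Coprime q :=
    Nat.Coprime.coprime_dvd_left (Subgroup.card_map_dvd D₀ π) hD₀c
  have hzp : IsPGroup q (zpowers (π z)) := by
    rw [← MonoidHom.map_zpowers]
    exact hzp0.map _
  have hDtz : ∀ d ∈ D₀.map π,
      d * π z = π z * d := by
    rintro _ ⟨d, hd, rfl⟩
    rw [← map_mul, ← map_mul, hD₀z d hd]
  have hDtn : ∀ x ∈ H.map π,
      x * π z = π z * x →
      ∀ d ∈ D₀.map π, x * d * x⁻¹ ∈ D₀.map π := by
    rintro _ ⟨x, hx, rfl⟩ hc _ ⟨d, hd, rfl⟩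
    have hcoset : ∀ a ∈ zpowers z, x⁻¹ * (a * x * a⁻¹) ∈ O := by
      intro a ha
      obtain ⟨m, rfl⟩ := mem_zpowers_iff.mp ha
      rw [← hπ1]
      have h1 : Commute (π x) (π z) := hc
      have h2 : Commute (π x) (π (z ^ m)) := by
        rw [map_zpow]; exact h1.zpow_right m
      simp only [map_mul, map_inv]
      rw [← h2.eq]
      group
    obtain ⟨n, hn, hfix⟩ := exists_fixed_mul_of_pgroup hzp0
      (fun a _ n hn => hOn.conj_mem n hn a)
      (by
        intro h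
        have h2 := Nat.dvd_gcd h (dvd_refl q)
        rw [hOc] at h2
        exact hqprime.one_lt.ne' (Nat.dvd_one.mp h2)) hcoset
    have hcH : x * n ∈ H := mul_mem hx (hOH hn)
    have hcz : (x * n) * z = z * (x * n) := by
      have := hfix z (mem_zpowers z)
      calc (x * n) * z = z * (x * n) * z⁻¹ * z := by rw [this]
        _ = _ := by group
    have hn1 : π n = 1 := (hπ1 n).mpr hn
    have e2 : π x * π d * (π x)⁻¹ = π ((x * n) * d * (x * n)⁻¹) := by
      simp only [map_mul, map_inv, hn1, mul_one]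
    rw [e2]
    exact Subgroup.mem_map_of_mem π (hD₀n _ hcH hcz d hd)
  have hDK : D₀.map π ⊓ K₀.map π = ⊥ :=
    inf_K_eq_bot hKtH hOt hzp hDtH hDtc hDtz hDtn
  have hcomm : ⁅D₀, P⁆ ≤ O := by
    rw [commutator_le]
    intro d hd g hg
    rw [← hπ1]
    have h1 : π ⁅d, g⁆ ∈
        D₀.map π ⊓ K₀.map π := by
      refine Subgroup.mem_inf.mpr ⟨Subgroup.mem_map_of_mem π ?_,
        Subgroup.mem_map_of_mem π (hcK (commutator_mem_commutator (hD₀H hd) hg))⟩
      rw [commutatorElement_def]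
      have e : d * g * d⁻¹ * g⁻¹ = d * (g * d⁻¹ * g⁻¹) := by group
      rw [e]
      exact mul_mem hd (hPD g hg _ (inv_mem hd))
    rw [hDK, mem_bot] at h1
    exact h1
  have hLtc : (Nat.card (L₀.map π)).Coprime q :=
    Nat.Coprime.coprime_dvd_left (Subgroup.card_map_dvd L₀ π) hL₀c
  have hsup : ∀ h ∈ H.map π, ∃ c ∈ Cp.map π,
      ∃ k ∈ K₀.map π, h = c * k := by
    rintro _ ⟨h, hh, rfl⟩
    obtain ⟨n, hn, hfix⟩ := exists_fixed_mul_of_pgroup hPp
      (fun a _ n hn => hK₀n.conj_mem n hn a)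
      (by
        intro hd
        have h1 : Nat.card K₀ ∣ Nat.card H := Subgroup.card_dvd_of_le hK₀H
        have h2 := Nat.dvd_gcd (hd.trans h1) (dvd_refl p)
        rw [hHp] at h2
        exact hpp.out.one_lt.ne' (Nat.dvd_one.mp h2)) (hK₀ h hh)
    refine ⟨π (h * n), Subgroup.mem_map_of_mem π ?_, π n⁻¹,
      Subgroup.mem_map_of_mem π (inv_mem hn), ?_⟩
    · rw [hCp]
      refine Subgroup.mem_inf.mpr ⟨mul_mem hh (hK₀H hn), ?_⟩
      rw [mem_centralizer_iff]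
      intro a ha
      have := hfix a ha
      calc a * (h * n) = a * (h * n) * a⁻¹ * a := by group
        _ = (h * n) * a := by rw [this]
    · rw [← map_mul]; simp
  have hCpH : Cp ≤ H := by rw [hCp]; exact inf_le_left
  have hLbot := inf_L_eq_bot (K := K₀.map π) (C := Cp.map π)
    (L := L₀.map π) hKtH hOt
    (Subgroup.map_mono hCpH) (Subgroup.map_mono hL₀H) hLtc
    (by
      rintro _ ⟨c, hc, rfl⟩ _ ⟨l, hl, rfl⟩
      have e2 : π c * π l * (π c)⁻¹ = π (c * l * c⁻¹) := by simp only [map_mul, map_inv]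
      rw [e2]
      exact Subgroup.mem_map_of_mem π (hL₀n c hc l hl)) hsup
  refine sup_le ?_ hcomm
  rintro x ⟨hxD, hxL⟩
  rw [← hπ1]
  have h1 : π x ∈ L₀.map π ⊓
      centralizer (qCoreOf q (K₀.map π) : Set Q) := by
    refine Subgroup.mem_inf.mpr ⟨Subgroup.mem_map_of_mem π hxL, ?_⟩
    rw [mem_centralizer_iff]
    intro u hu
    exact (commute_qCoreOf hKtH hzp hDtH hDtc hDtz hDtn (Subgroup.mem_map_of_mem π hxD) hu).symm
  rw [hLbot, mem_bot] at h1
  exact h1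

/-- `⁅H, P⁆` is normal when `H` is normal and `H ⊔ P = ⊤`. -/
theorem commutator_normal_of_sup {G : Type*} [Group G] (H P : Subgroup G) [hHn : H.Normal]
    (hPH : H ⊔ P = ⊤) : (⁅H, P⁆ : Subgroup G).Normal := by
  rw [← normalizer_eq_top_iff, eq_top_iff, ← hPH]
  refine sup_le (Cfsg.Agent.Lib.Coprime.InvSylow.le_normalizer_of_forall_conj_mem ?_)
    (Cfsg.Agent.Lib.Coprime.InvSylow.le_normalizer_of_forall_conj_mem ?_)
  · intro h hh e he
    have h1 : ⁅H, P⁆ ≤ (⁅H, P⁆ : Subgroup G).comap (MulAut.conj h).toMonoidHom := by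
      rw [commutator_le]
      intro h₁ hh₁ g hg
      change h * ⁅h₁, g⁆ * h⁻¹ ∈ (⁅H, P⁆ : Subgroup G)
      have e' : h * ⁅h₁, g⁆ * h⁻¹ = ⁅h * h₁, g⁆ * ⁅h, g⁆⁻¹ := by
        simp only [commutatorElement_def]; group
      rw [e']
      exact mul_mem (commutator_mem_commutator (mul_mem hh hh₁) hg)
        (inv_mem (commutator_mem_commutator hh hg))
    exact h1 he
  · intro g₀ hg₀ e he
    have h1 : ⁅H, P⁆ ≤ (⁅H, P⁆ : Subgroup G).comap (MulAut.conj g₀).toMonoidHom := by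
      rw [commutator_le]
      intro h₁ hh₁ g hg
      change g₀ * ⁅h₁, g⁆ * g₀⁻¹ ∈ (⁅H, P⁆ : Subgroup G)
      have e' : g₀ * ⁅h₁, g⁆ * g₀⁻¹ = ⁅g₀ * h₁ * g₀⁻¹, g₀ * g * g₀⁻¹⁆ := by
        simp only [commutatorElement_def]; group
      rw [e']
      exact commutator_mem_commutator (hHn.conj_mem _ hh₁ g₀)
        (mul_mem (mul_mem hg₀ hg) (inv_mem hg₀))
    exact h1 he

theorem map_core_coprime {G : Type*} [Group G] [Finite G] (q : ℕ) (S : Subgroup G) :
    (Nat.card ((Cfsg.pPrimeCore q S).map S.subtype)).Coprime q := by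
  rw [Subgroup.card_map_of_injective S.subtype_injective]
  exact Cfsg.Agent.Lib.Solvable.PSeries.pPrimeCore_coprime q

theorem map_core_conj {G : Type*} [Group G] [Finite G] (q : ℕ) (S : Subgroup G) {c l : G}
    (hc : c ∈ S) (hl : l ∈ (Cfsg.pPrimeCore q S).map S.subtype) :
    c * l * c⁻¹ ∈ (Cfsg.pPrimeCore q S).map S.subtype := by
  obtain ⟨l', hl', rfl⟩ := hl
  exact ⟨(⟨c, hc⟩ : S) * l' * (⟨c, hc⟩ : S)⁻¹,
    (Cfsg.Agent.Lib.Basic.PCore.pPrimeCore_normal q S).conj_mem l' hl' _, rfl⟩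

/-- Let G be a finite group with Sylow p-subgroup P and H = O_{p'}(G), and suppose G = PH and the commutator subgroup [H, P] is solvable. Let q be a prime and z an element of q-power order of C_H(P). Then (O_{q'}(C_H(z)) ∩ O_{q'}(C_H(P))) · [O_{q'}(C_H(z)), P] ≤ O_{q'}(H). -/
theorem result {G : Type*} [Group G] [Finite G] {p : ℕ} [Fact p.Prime]
    (P : Sylow p G) (hPH : Cfsg.pPrimeCore p G ⊔ (P : Subgroup G) = ⊤)
    (hsol : Group.IsSolvable ↥⁅Cfsg.pPrimeCore p G, (P : Subgroup G)⁆)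
    {q : ℕ} [Fact q.Prime] (z : G) (hzH : z ∈ Cfsg.pPrimeCore p G) (hzP : z ∈ Subgroup.centralizer ((P : Subgroup G) : Set G))
    (hz : ∃ k : ℕ, orderOf z = q ^ k) :
    ((Cfsg.pPrimeCore q ↥(Cfsg.pPrimeCore p G ⊓ Subgroup.centralizer ({z} : Set G))).map
        (Cfsg.pPrimeCore p G ⊓ Subgroup.centralizer ({z} : Set G)).subtype ⊓
      (Cfsg.pPrimeCore q ↥(Cfsg.pPrimeCore p G ⊓ Subgroup.centralizer ((P : Subgroup G) : Set G))).map
        (Cfsg.pPrimeCore p G ⊓ Subgroup.centralizer ((P : Subgroup G) : Set G)).subtype) ⊔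
    ⁅(Cfsg.pPrimeCore q ↥(Cfsg.pPrimeCore p G ⊓ Subgroup.centralizer ({z} : Set G))).map
        (Cfsg.pPrimeCore p G ⊓ Subgroup.centralizer ({z} : Set G)).subtype, (P : Subgroup G)⁆ ≤
    (Cfsg.pPrimeCore q ↥(Cfsg.pPrimeCore p G)).map (Cfsg.pPrimeCore p G).subtype := by
  haveI hHn : (Cfsg.pPrimeCore p G).Normal := Cfsg.Agent.Lib.Basic.PCore.pPrimeCore_normal p G
  haveI hqc := Cfsg.Agent.Lib.Solvable.PSeries.pPrimeCore_char q ↥(Cfsg.pPrimeCore p G)
  haveI hOn : ((Cfsg.pPrimeCore q ↥(Cfsg.pPrimeCore p G)).map (Cfsg.pPrimeCore p G).subtype).Normal :=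
    Cfsg.Agent.Lib.Basic.PCore.map_subtype_normal_of_characteristic _
  haveI hKn : (⁅Cfsg.pPrimeCore p G, (P : Subgroup G)⁆ : Subgroup G).Normal :=
    commutator_normal_of_sup _ _ hPH
  have hz' : IsPGroup q (zpowers z) := by
    obtain ⟨k, hk⟩ := hz
    rw [IsPGroup.iff_card, Nat.card_zpowers, hk]
    exact ⟨k, rfl⟩
  refine key (Cfsg.pPrimeCore p G) _ ⁅Cfsg.pPrimeCore p G, (P : Subgroup G)⁆ P _ _ _
    (QuotientGroup.mk' _) (fun g => QuotientGroup.eq_one_iff g) (QuotientGroup.mk'_surjective _)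
    P.isPGroup' (Cfsg.Agent.Lib.Solvable.PSeries.pPrimeCore_coprime p)
    (commutator_le_left _ _) ?_ (map_core_coprime q _) (Subgroup.map_subtype_le _) ?_ hz' hzP
    ((Subgroup.map_subtype_le _).trans inf_le_left) (map_core_coprime q _) ?_ ?_ ?_ rfl
    ((Subgroup.map_subtype_le _).trans inf_le_left) (map_core_coprime q _)
    (fun c hc l hl => map_core_conj q _ hc hl) le_rfl
  · intro h hh a ha
    have e : h⁻¹ * (a * h * a⁻¹) = ⁅h⁻¹, a⁆ := by
      rw [commutatorElement_def]; group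
    rw [e]
    exact commutator_mem_commutator (inv_mem hh) ha
  · intro M hM hMn hMc
    have h1 : M.subgroupOf (Cfsg.pPrimeCore p G) ≤ Cfsg.pPrimeCore q ↥(Cfsg.pPrimeCore p G) := by
      apply Cfsg.Agent.Lib.Basic.PCore.le_pPrimeCore
      · constructor
        rintro ⟨n, hn⟩ hn' ⟨g, hg⟩
        exact Subgroup.mem_subgroupOf.mpr (hMn g hg n (Subgroup.mem_subgroupOf.mp hn'))
      · rw [Nat.card_congr (Subgroup.subgroupOfEquivOfLe hM).toEquiv]
        exact hMc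
    intro x hx
    exact ⟨⟨x, hM hx⟩, h1 (Subgroup.mem_subgroupOf.mpr hx), rfl⟩
  · rintro _ ⟨d, -, rfl⟩
    exact ((mem_centralizer_iff.mp d.2.2) z rfl).symm
  · intro x hx hc d hd
    refine map_core_conj q _ (Subgroup.mem_inf.mpr ⟨hx, ?_⟩) hd
    rw [mem_centralizer_iff]
    intro y hy
    have hy' : y = z := hy
    subst hy'
    exact hc.symm
  · intro g hg d hd
    refine conj_mem_core q ?_ hd
    intro s hs
    refine Subgroup.mem_inf.mpr ⟨hHn.conj_mem _ hs.1 g, ?_⟩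
    rw [mem_centralizer_iff]
    intro y hy
    have hy' : y = z := hy
    subst hy'
    have h1 : y * s = s * y := (mem_centralizer_iff.mp hs.2) y rfl
    have h2 : g * y = y * g := (mem_centralizer_iff.mp hzP) g hg
    have h3 : g⁻¹ * y = y * g⁻¹ := (mem_centralizer_iff.mp hzP) g⁻¹ (inv_mem hg)
    calc y * (g * s * g⁻¹) = (y * g) * s * g⁻¹ := by group
      _ = g * (y * s) * g⁻¹ := by rw [← h2]; group
      _ = g * s * (y * g⁻¹) := by rw [h1]; group
      _ = g * s * (g⁻¹ * y) := by rw [h3]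
      _ = g * s * g⁻¹ * y := by group

end Cfsg.Agent.S3819
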