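import Cfsg.Statements.S3820
import Mathlib

set_option autoImplicit false
open Cfsg

namespace Cfsg.Agent.S3820

/-- Call a subgroup H of G pronormal if H and gHg⁻¹ are conjugate inside ⟨H, gHg⁻¹⟩ for every g ∈ G. Let S ≤ H ≤ G be subgroups of a finite group with S pronormal in G (for instance S a Sylow subgroup). Then H is pronormal in G if and only if H and gHg⁻¹ are conjugate inside ⟨H, gHg⁻¹⟩ for every g ∈ N_G(S). In particular H is pronormal whenever N_G(S) ≤ H. -/
theorem result {G : Type*} [Group G] [Finite G] (S H : Subgroup G) (hSH : S ≤ H)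
    (hS : Cfsg.IsPronormal S) :
    Cfsg.IsPronormal H ↔
      ∀ g ∈ Subgroup.normalizer (S : Set G), ∃ w ∈ H ⊔ H.map (MulAut.conj g).toMonoidHom,
        H.map (MulAut.conj g).toMonoidHom = H.map (MulAut.conj w).toMonoidHom := by
  have conj_map : ∀ (K : Subgroup G) (a b : G),
      (K.map (MulAut.conj a).toMonoidHom).map (MulAut.conj b).toMonoidHom
        = K.map (MulAut.conj (b * a)).toMonoidHom := by
    intro K a b
    rw [Subgroup.map_map]
    congr 1
    ext y
    simp [MulAut.conj_apply, mul_assoc]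
  have hN : ∀ a : G, S.map (MulAut.conj a).toMonoidHom = S → a ∈ Subgroup.normalizer (S : Set G) := by
    intro a ha
    rw [Subgroup.mem_normalizer_iff]
    intro n
    constructor
    · intro hn
      have : a * n * a⁻¹ ∈ S.map (MulAut.conj a).toMonoidHom := ⟨n, hn, rfl⟩
      rwa [ha] at this
    · intro hn
      have hn' : a * n * a⁻¹ ∈ S.map (MulAut.conj a).toMonoidHom := by rwa [ha]
      obtain ⟨m, hm, hme⟩ := hn'
      have hme' : a * m * a⁻¹ = a * n * a⁻¹ := hme
      have : m = n := by simpa using hme'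
      rwa [← this]
  have map_one' : ∀ K : Subgroup G, K.map (MulAut.conj (1 : G)).toMonoidHom = K := by
    intro K
    ext y
    simp [Subgroup.mem_map, MulAut.conj_apply]
  constructor
  · intro hH g _
    exact hH g
  · intro hH g
    obtain ⟨u, hu, hue⟩ := hS g
    have hgun : g = u * (u⁻¹ * g) := by group
    have hn : u⁻¹ * g ∈ Subgroup.normalizer (S : Set G) := by
      apply hN
      rw [← conj_map, hue, conj_map]
      simpa using map_one' S
    obtain ⟨w, hw, hwe⟩ := hH _ hn
    refine ⟨u * w, ?_, ?_⟩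
    · have hu' : u ∈ H ⊔ H.map (MulAut.conj g).toMonoidHom :=
        (sup_le_sup hSH (Subgroup.map_mono hSH)) hu
      have hw' : w ∈ H ⊔ H.map (MulAut.conj g).toMonoidHom := by
        have hle : H.map (MulAut.conj (u⁻¹ * g)).toMonoidHom ≤ H ⊔ H.map (MulAut.conj g).toMonoidHom := ?_
        · exact (sup_le (le_sup_left : H ≤ H ⊔ H.map (MulAut.conj g).toMonoidHom) hle) hw
        rintro _ ⟨x, hx, rfl⟩
        have h1 : g * x * g⁻¹ ∈ H ⊔ H.map (MulAut.conj g).toMonoidHom :=
          (le_sup_right : H.map (MulAut.conj g).toMonoidHom ≤ _) ⟨x, hx, rfl⟩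
        have h2 : (MulAut.conj (u⁻¹ * g)).toMonoidHom x = u⁻¹ * (g * x * g⁻¹) * u := by
          show (u⁻¹ * g) * x * (u⁻¹ * g)⁻¹ = _
          group
        rw [h2]
        exact Subgroup.mul_mem _ (Subgroup.mul_mem _ (Subgroup.inv_mem _ hu') h1) hu'
      exact Subgroup.mul_mem _ hu' hw'
    · calc H.map (MulAut.conj g).toMonoidHom
          = (H.map (MulAut.conj (u⁻¹ * g)).toMonoidHom).map (MulAut.conj u).toMonoidHom := by
            rw [conj_map, ← hgun]
        _ = (H.map (MulAut.conj w).toMonoidHom).map (MulAut.conj u).toMonoidHom := by rw [hwe]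
        _ = H.map (MulAut.conj (u * w)).toMonoidHom := conj_map _ _ _

end Cfsg.Agent.S3820
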