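import Cfsg.Statements.S3821
import Mathlib
import Cfsg.Agent.Lib.Basic.Conj
-- import your own Cfsg.Agent.* helpers here

set_option autoImplicit false
open Cfsg

namespace Cfsg.Agent.S3821

/-- Let A be a normal subgroup of the finite group G and H a subgroup of A. Then H is pronormal in G (H and gHg⁻¹ conjugate inside ⟨H, gHg⁻¹⟩ for every g ∈ G) if and only if H is pronormal in A and G = A · N_G(H). -/
theorem result {G : Type*} [Group G] [Finite G] (A H : Subgroup G) [A.Normal] (hHA : H ≤ A) :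
    Cfsg.IsPronormal H ↔ (Cfsg.IsPronormal (H.subgroupOf A) ∧ A ⊔ Subgroup.normalizer (H : Set G) = ⊤) := by
  classical
  have key : ∀ a : A, ((H.subgroupOf A).map (MulAut.conj a).toMonoidHom).map A.subtype =
      H.map (MulAut.conj (a : G)).toMonoidHom := by
    intro a
    ext y
    constructor
    · rintro ⟨_, ⟨z, hz, rfl⟩, rfl⟩
      exact ⟨z, Subgroup.mem_subgroupOf.mp hz, by simp⟩
    · rintro ⟨z, hz, rfl⟩
      exact ⟨_, ⟨⟨z, hHA hz⟩, Subgroup.mem_subgroupOf.mpr hz, rfl⟩, by simp⟩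
  have hH' : (H.subgroupOf A).map A.subtype = H := by
    rw [Subgroup.subgroupOf_map_subtype, inf_eq_left.mpr hHA]
  have hconjA : ∀ g : G, H.map (MulAut.conj g).toMonoidHom ≤ A := by
    rintro g _ ⟨z, hz, rfl⟩
    exact (inferInstance : A.Normal).conj_mem _ (hHA hz) g
  constructor
  · intro h
    refine ⟨fun a => ?_, ?_⟩
    · obtain ⟨x, hx, hxeq⟩ := h a
      have hxA : x ∈ A := (sup_le hHA (hconjA _)) hx
      refine ⟨⟨x, hxA⟩, ?_, ?_⟩
      · rw [← Subgroup.mem_map_iff_mem A.subtype_injective, Subgroup.map_sup, hH', key]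
        exact hx
      · apply Subgroup.map_injective A.subtype_injective
        rw [key, key]
        exact hxeq
    · rw [eq_top_iff]
      intro g _
      obtain ⟨x, hx, hxeq⟩ := h g
      have hxA : x ∈ A := (sup_le hHA (hconjA _)) hx
      have hn : x⁻¹ * g ∈ Subgroup.normalizer (H : Set G) := by
        rw [Subgroup.mem_normalizer_iff]
        intro y
        have h1 : ∀ w : G, w ∈ H.map (MulAut.conj g).toMonoidHom ↔ g⁻¹ * w * g ∈ H :=
          fun w => Cfsg.Agent.Lib.Basic.Conj.mem_map_conj_iff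
        have h2 : ∀ w : G, w ∈ H.map (MulAut.conj x).toMonoidHom ↔ x⁻¹ * w * x ∈ H :=
          fun w => Cfsg.Agent.Lib.Basic.Conj.mem_map_conj_iff
        rw [hxeq] at h1
        have h3 : ∀ w : G, g⁻¹ * w * g ∈ H ↔ x⁻¹ * w * x ∈ H := fun w => (h1 w).symm.trans (h2 w)
        have h4 := h3 (x * y * x⁻¹)
        have e1 : x⁻¹ * (x * y * x⁻¹) * x = y := by group
        have e2 : g⁻¹ * (x * y * x⁻¹) * g = (x⁻¹ * g)⁻¹ * y * (x⁻¹ * g) := by group
        rw [e1, e2] at h4
        have h5 : ∀ w : G, w ∈ H ↔ (x⁻¹ * g) * w * (x⁻¹ * g)⁻¹ ∈ H := by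
          intro w
          have h6 := h3 (g * w * g⁻¹)
          have e3 : g⁻¹ * (g * w * g⁻¹) * g = w := by group
          have e4 : x⁻¹ * (g * w * g⁻¹) * x = (x⁻¹ * g) * w * (x⁻¹ * g)⁻¹ := by group
          rw [e3, e4] at h6
          exact h6
        exact h5 y
      have : g = x * (x⁻¹ * g) := by group
      rw [this]
      exact Subgroup.mul_mem_sup hxA hn
  · rintro ⟨hA, hsup⟩ g
    have hgmem : g ∈ A ⊔ Subgroup.normalizer (H : Set G) := by rw [hsup]; trivial
    obtain ⟨a, ha, n, hn, rfl⟩ := Subgroup.mem_sup_of_normal_left.mp hgmem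
    have hnH : H.map (MulAut.conj n).toMonoidHom = H := by
      ext y
      rw [Cfsg.Agent.Lib.Basic.Conj.mem_map_conj_iff]
      have := Subgroup.mem_normalizer_iff.mp (inv_mem hn) y
      simpa using this.symm
    have hgH : H.map (MulAut.conj (a * n)).toMonoidHom = H.map (MulAut.conj a).toMonoidHom := by
      conv_rhs => rw [← hnH]
      rw [Subgroup.map_map]
      congr 1
      ext z
      simp [MulAut.conj_apply, mul_assoc]
    rw [hgH]
    obtain ⟨x, hx, hxeq⟩ := hA ⟨a, ha⟩
    refine ⟨x, ?_, ?_⟩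
    · rw [← Subgroup.mem_map_iff_mem A.subtype_injective, Subgroup.map_sup, hH', key] at hx
      exact hx
    · have := congrArg (Subgroup.map A.subtype) hxeq
      rwa [key, key] at this

end Cfsg.Agent.S3821
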