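import Cfsg.Statements.S3822
import Cfsg.Agent.Lib.Flavell.Enlarge

set_option autoImplicit false
open Cfsg

namespace Cfsg.Agent.S3822

open Cfsg.Agent.Lib.Basic.PCore Cfsg.Agent.Lib.Flavell.Enlarge

theorem sup_comm_of {G : Type*} [Group G] {H₁ H₂ K₁ K₂ : Subgroup G}
    (h11 : ∀ x ∈ H₁, ∀ y ∈ K₁, x * y = y * x) (h12 : ∀ x ∈ H₁, ∀ y ∈ K₂, x * y = y * x)
    (h21 : ∀ x ∈ H₂, ∀ y ∈ K₁, x * y = y * x) (h22 : ∀ x ∈ H₂, ∀ y ∈ K₂, x * y = y * x) :
    ∀ x ∈ H₁ ⊔ H₂, ∀ y ∈ K₁ ⊔ K₂, x * y = y * x := by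
  have h1 : K₁ ⊔ K₂ ≤ Subgroup.centralizer (H₁ : Set G) :=
    sup_le (fun y hy => Subgroup.mem_centralizer_iff.mpr fun x hx => h11 x hx y hy)
      (fun y hy => Subgroup.mem_centralizer_iff.mpr fun x hx => h12 x hx y hy)
  have h2 : K₁ ⊔ K₂ ≤ Subgroup.centralizer (H₂ : Set G) :=
    sup_le (fun y hy => Subgroup.mem_centralizer_iff.mpr fun x hx => h21 x hx y hy)
      (fun y hy => Subgroup.mem_centralizer_iff.mpr fun x hx => h22 x hx y hy)
  have h3 : H₁ ⊔ H₂ ≤ Subgroup.centralizer ((K₁ ⊔ K₂ : Subgroup G) : Set G) :=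
    sup_le (Subgroup.le_centralizer_iff.mp h1) (Subgroup.le_centralizer_iff.mp h2)
  intro x hx y hy
  exact ((Subgroup.mem_centralizer_iff.mp (h3 hx)) y hy).symm

/-- Let G be a finite group and P a subgroup of prime order p > 3. Consider the solvable subgroups A of G of the form A = ⟨P, aPa⁻¹⟩ for some a ∈ A, and let A be maximal under inclusion among them. Then for every nilpotent subgroup V of G normalized by A, the subgroup F(A)V generated by the Fitting subgroup of A and V is nilpotent. -/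
theorem result {G : Type*} [Group G] [Finite G]
    {p : ℕ} [Fact p.Prime] (hp : 3 < p) (P : Subgroup G) (hP : Nat.card P = p) (A : Subgroup G)
    (hA : Group.IsSolvable ↥A ∧ ∃ a ∈ A, A = P ⊔ P.map (MulAut.conj a).toMonoidHom)
    (hmax : ∀ B : Subgroup G, A ≤ B → Group.IsSolvable ↥B → (∃ b ∈ B, B = P ⊔ P.map (MulAut.conj b).toMonoidHom) → B = A)
    (V : Subgroup G) (hV : Group.IsNilpotent ↥V) (hAV : A ≤ Subgroup.normalizer (V : Set G)) :
    Group.IsNilpotent ↥((Cfsg.fittingSubgroup ↥A).map A.subtype ⊔ V) := by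
  classical
  have hMax : MaxHyp P A p := ⟨hp, hP, hA.1, hA.2, hmax⟩
  have hVn : ∀ t ∈ A, ∀ v ∈ V, t * v * t⁻¹ ∈ V :=
    fun t ht v hv => (Subgroup.mem_normalizer_iff.mp (hAV ht) v).mp hv
  let O : ℕ → Subgroup G := fun q => (pCore q ↥A).map A.subtype
  let U : ℕ → Subgroup G := fun q => (pCore q ↥V).map V.subtype
  have hOp : ∀ q : ℕ, q.Prime → IsPGroup q (O q) := by
    intro q hq
    haveI : Fact q.Prime := ⟨hq⟩
    exact (pCore_isPGroup q).map _
  have hUp : ∀ q : ℕ, q.Prime → IsPGroup q (U q) := by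
    intro q hq
    haveI : Fact q.Prime := ⟨hq⟩
    exact (pCore_isPGroup q).map _
  have hUinv : ∀ q : ℕ, q.Prime → ∀ t ∈ A, ∀ u ∈ U q, t * u * t⁻¹ ∈ U q := by
    intro q hq t ht u hu
    haveI : Fact q.Prime := ⟨hq⟩
    obtain ⟨v, hv, rfl⟩ := hu
    let c : ↥V ≃* ↥V := conjU V t (hVn t ht) (fun u hu => by
      have := hVn t⁻¹ (A.inv_mem ht) u hu
      simpa using this)
    have h1 := (Subgroup.characteristic_iff_le_comap.mp (pCore_char q ↥V)) c hv
    exact ⟨c v, h1, rfl⟩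
  have hOU : ∀ q r : ℕ, q.Prime → r.Prime → q ≠ r → ∀ x ∈ O r, ∀ y ∈ U q, x * y = y * x := by
    intro q r hq hr hqr x hx y hy
    haveI : Fact q.Prime := ⟨hq⟩
    haveI : Fact r.Prime := ⟨hr⟩
    obtain ⟨x, hx, rfl⟩ := hx
    have hc : (Nat.card (pCore r ↥A)).Coprime q := by
      obtain ⟨n, hn⟩ := IsPGroup.iff_card.mp (pCore_isPGroup r (G := ↥A))
      rw [hn]
      exact Nat.Coprime.pow_left n ((Nat.coprime_primes hr hq).mpr hqr.symm)
    exact central_of_coprime hMax (pCore r ↥A) hc (U q) (hUp q hq) (hUinv q hq) x hx y hy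
  have hOO : ∀ q r : ℕ, q.Prime → r.Prime → q ≠ r → ∀ x ∈ O q, ∀ y ∈ O r, x * y = y * x := by
    intro q r hq hr hqr x hx y hy
    haveI : Fact q.Prime := ⟨hq⟩
    haveI : Fact r.Prime := ⟨hr⟩
    obtain ⟨x, hx, rfl⟩ := hx
    obtain ⟨y, hy, rfl⟩ := hy
    have h1 := Subgroup.commute_of_normal_of_disjoint _ _ (pCore_normal q ↥A) (pCore_normal r ↥A)
      (IsPGroup.disjoint_of_ne q r hqr _ _ (pCore_isPGroup q) (pCore_isPGroup r)) x y hx hy
    exact congrArg Subtype.val h1.eq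
  have hUU : ∀ q r : ℕ, q.Prime → r.Prime → q ≠ r → ∀ x ∈ U q, ∀ y ∈ U r, x * y = y * x := by
    intro q r hq hr hqr x hx y hy
    haveI : Fact q.Prime := ⟨hq⟩
    haveI : Fact r.Prime := ⟨hr⟩
    obtain ⟨x, hx, rfl⟩ := hx
    obtain ⟨y, hy, rfl⟩ := hy
    have h1 := Subgroup.commute_of_normal_of_disjoint _ _ (pCore_normal q ↥V) (pCore_normal r ↥V)
      (IsPGroup.disjoint_of_ne q r hqr _ _ (pCore_isPGroup q) (pCore_isPGroup r)) x y hx hy
    exact congrArg Subtype.val h1.eq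
  let ι := (Nat.card G).primeFactors
  have hι : ∀ i : ι, (i.1).Prime := fun i => Nat.prime_of_mem_primeFactors i.2
  let S : ι → Subgroup G := fun i => O i.1 ⊔ U i.1
  have hSp : ∀ i : ι, Group.IsNilpotent (S i) := by
    intro i
    haveI : Fact (i.1).Prime := ⟨hι i⟩
    have hle : O i.1 ≤ Subgroup.normalizer (U i.1 : Set G) := by
      intro t ht
      have htA : t ∈ A := by
        obtain ⟨t', _, rfl⟩ := ht
        exact t'.2
      rw [Subgroup.mem_normalizer_iff]
      intro u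
      refine ⟨fun hu => hUinv _ (hι i) t htA u hu, fun hu => ?_⟩
      have := hUinv _ (hι i) t⁻¹ (A.inv_mem htA) _ hu
      simpa [mul_assoc] using this
    exact (IsPGroup.to_sup_of_normal_right' (hOp _ (hι i)) (hUp _ (hι i)) hle).isNilpotent
  have hcomm : Pairwise fun i j : ι => ∀ x y : G, x ∈ S i → y ∈ S j → Commute x y := by
    intro i j hij x y hx hy
    have hne : i.1 ≠ j.1 := fun h => hij (Subtype.ext h)
    refine sup_comm_of ?_ ?_ ?_ ?_ x hx y hy
    · exact hOO _ _ (hι i) (hι j) hne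
    · intro a ha b hb
      exact hOU _ _ (hι j) (hι i) hne.symm a ha b hb
    · intro a ha b hb
      exact (hOU _ _ (hι i) (hι j) hne b hb a ha).symm
    · exact hUU _ _ (hι i) (hι j) hne
  have hpi : Group.IsNilpotent (∀ i : ι, S i) := by
    have : ∀ i : ι, Group.IsNilpotent (S i) := hSp
    infer_instance
  have hX : Group.IsNilpotent (⨆ i : ι, S i : Subgroup G) := by
    let f := Subgroup.noncommPiCoprod hcomm
    rw [← Subgroup.noncommPiCoprod_range (hcomm := hcomm)]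
    exact Group.nilpotent_of_surjective f.rangeRestrict f.rangeRestrict_surjective
  have hle : (Cfsg.fittingSubgroup ↥A).map A.subtype ⊔ V ≤ ⨆ i : ι, S i := by
    refine sup_le ?_ ?_
    · rw [fittingSubgroup_eq_iSup_pCore, Subgroup.map_iSup]
      refine iSup_le fun r => ?_
      have hr : r.1 ∈ (Nat.card G).primeFactors :=
        Nat.primeFactors_mono (Subgroup.card_subgroup_dvd_card A) Nat.card_pos.ne' r.2
      exact (le_sup_left : O r.1 ≤ S ⟨r.1, hr⟩).trans (le_iSup S ⟨r.1, hr⟩)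
    · have hF : Cfsg.fittingSubgroup ↥V = ⊤ :=
        top_le_iff.mp (le_fittingSubgroup Subgroup.normal_top (by
          have := hV
          infer_instance))
      have hVe : V = (Cfsg.fittingSubgroup ↥V).map V.subtype := by
        rw [hF, ← MonoidHom.range_eq_map, Subgroup.range_subtype]
      rw [hVe, fittingSubgroup_eq_iSup_pCore, Subgroup.map_iSup]
      refine iSup_le fun r => ?_
      have hr : r.1 ∈ (Nat.card G).primeFactors :=
        Nat.primeFactors_mono (Subgroup.card_subgroup_dvd_card V) Nat.card_pos.ne' r.2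
      exact (le_sup_right : U r.1 ≤ S ⟨r.1, hr⟩).trans (le_iSup S ⟨r.1, hr⟩)
  haveI := hX
  exact Group.nilpotent_of_mulEquiv (Subgroup.subgroupOfEquivOfLe hle)

end Cfsg.Agent.S3822
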