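import Cfsg.Statements.S3825
import Mathlib

set_option autoImplicit false
open Cfsg

namespace Cfsg.Agent.S3825

open Subgroup
open scoped commutatorElement

lemma invol_fpf {Γ : Type*} [Group Γ] [Finite Γ] (σ : Γ →* Γ) (h2 : ∀ x, σ (σ x) = x)
    (hfix : ∀ x, σ x = x → x = 1) : ∀ x, σ x = x⁻¹ := by
  let f : Γ → Γ := fun a => a⁻¹ * σ a
  have hinj : Function.Injective f := by
    intro a b hab
    have h1 : a⁻¹ * σ a = b⁻¹ * σ b := hab
    have h3 : σ (b * a⁻¹) = b * a⁻¹ := by
      rw [map_mul, map_inv]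
      have : σ b = b * (a⁻¹ * σ a) := by rw [h1]; group
      rw [this]
      group
    have h4 := hfix _ h3
    exact (mul_inv_eq_one.mp h4).symm
  have hsurj : Function.Surjective f := Finite.injective_iff_surjective.mp hinj
  intro x
  obtain ⟨a, rfl⟩ := hsurj x
  show σ (a⁻¹ * σ a) = (a⁻¹ * σ a)⁻¹
  rw [map_mul, map_inv, h2]
  group

/-- Let U be a subgroup of a finite group H and w an involution of H normalizing U and commuting with exactly two elements of U, the identity and y. If V is a non-cyclic elementary abelian 2-subgroup of U containing y which is normal in U and invariant under w, then V is a Sylow 2-subgroup of U, V has order 4, and U/V is abelian. -/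
theorem result {H : Type*} [Group H] [Finite H] (U : Subgroup H) (w : H) (hw : orderOf w = 2)
    (hwU : w ∈ Subgroup.normalizer (U : Set H)) (y : H) (hy : y ≠ 1) (hyU : y ∈ U)
    (hfix : ∀ u ∈ U, w * u * w⁻¹ = u ↔ (u = 1 ∨ u = y))
    (V : Subgroup H) (hVU : V ≤ U) (hVn : (V.subgroupOf U).Normal) (hVw : ∀ v ∈ V, w * v * w⁻¹ ∈ V)
    (hVe : Cfsg.IsElementaryAbelian 2 V) (hVc : ¬ IsCyclic ↥V) (hyV : y ∈ V) :
    ¬ 2 ∣ V.relIndex U ∧ Nat.card ↥V = 4 ∧ ⁅U, U⁆ ≤ V := by
  classical
  have hw2 : w * w = 1 := by rw [← pow_two, ← hw]; exact pow_orderOf_eq_one w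
  have hwi : w⁻¹ = w := by rw [inv_eq_iff_mul_eq_one]; exact hw2
  obtain ⟨hVcomm', hV2⟩ := hVe
  have hVcomm : ∀ a ∈ V, ∀ b ∈ V, a * b = b * a := by
    intro a ha b hb
    have := hVcomm'.is_comm.comm ⟨a, ha⟩ ⟨b, hb⟩
    exact congrArg Subtype.val this
  have hVinv : ∀ a ∈ V, a⁻¹ = a := by
    intro a ha
    rw [inv_eq_iff_mul_eq_one, ← pow_two]
    exact hV2 a ha
  have hw3 : ∀ a, w * (w * a * w⁻¹) * w⁻¹ = a := by
    intro a
    calc w * (w * a * w⁻¹) * w⁻¹ = (w * w) * a * (w * w)⁻¹ := by group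
      _ = a := by rw [hw2]; group
  -- the map ψ
  have hψ : ∀ x ∈ V, x * (w * x * w⁻¹) = 1 ∨ x * (w * x * w⁻¹) = y := by
    intro x hx
    have h1 : x * (w * x * w⁻¹) ∈ V := V.mul_mem hx (hVw x hx)
    apply (hfix _ (hVU h1)).mp
    rw [show w * (x * (w * x * w⁻¹)) * w⁻¹ = (w * x * w⁻¹) * (w * (w * x * w⁻¹) * w⁻¹) by group, hw3]
    exact hVcomm _ (hVw x hx) _ hx
  have hfixV : ∀ x ∈ V, x * (w * x * w⁻¹) = 1 → x = 1 ∨ x = y := by
    intro x hx h
    apply (hfix x (hVU hx)).mp
    have : w * x * w⁻¹ = x⁻¹ := eq_inv_of_mul_eq_one_right h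
    rw [this, hVinv x hx]
  -- an element outside ⟨y⟩
  have hyy : y * y = 1 := by rw [← pow_two]; exact hV2 y hyV
  obtain ⟨v, hvV, hv1, hvy⟩ : ∃ v ∈ V, v ≠ 1 ∧ v ≠ y := by
    by_contra hcon
    push Not at hcon
    apply hVc
    have hall : ∀ x : V, x ∈ Subgroup.zpowers (⟨y, hyV⟩ : V) := by
      rintro ⟨x, hx⟩
      by_cases h1 : x = 1
      · subst h1; exact Subgroup.one_mem _
      · have := hcon x hx h1
        subst this
        exact Subgroup.mem_zpowers _
    exact ⟨⟨⟨y, hyV⟩, hall⟩⟩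
  have hψv : v * (w * v * w⁻¹) = y := by
    rcases hψ v hvV with h | h
    · rcases hfixV v hvV h with h' | h'
      · exact absurd h' hv1
      · exact absurd h' hvy
    · exact h
  have hwv : w * v * w⁻¹ = v * y := by
    have : v⁻¹ * y = w * v * w⁻¹ := by rw [← hψv]; group
    rw [← this, hVinv v hvV]
  -- cardinality
  have hcard : Nat.card V = 4 := by
    have hset : (V : Set H) = ↑({1, y, v, v * y} : Finset H) := by
      ext x
      simp only [Finset.coe_insert, Finset.coe_singleton, Set.mem_insert_iff, Set.mem_singleton_iff,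
        SetLike.mem_coe]
      constructor
      · intro hx
        rcases hψ x hx with h | h
        · rcases hfixV x hx h with h' | h'
          · left; exact h'
          · right; left; exact h'
        · have hxv : x * v ∈ V := V.mul_mem hx hvV
          have hψ0 : (x * v) * (w * (x * v) * w⁻¹) = 1 := by
            calc (x * v) * (w * (x * v) * w⁻¹) = x * (v * (w * x * w⁻¹)) * (w * v * w⁻¹) := by group
              _ = x * ((w * x * w⁻¹) * v) * (w * v * w⁻¹) := by rw [hVcomm v hvV _ (hVw x hx)]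
              _ = (x * (w * x * w⁻¹)) * (v * (w * v * w⁻¹)) := by group
              _ = 1 := by rw [h, hψv, hyy]
          rcases hfixV _ hxv hψ0 with h' | h'
          · right; right; left
            have : x = v⁻¹ := eq_inv_of_mul_eq_one_left h'
            rw [this, hVinv v hvV]
          · right; right; right
            have : x = y * v⁻¹ := by rw [← h']; group
            rw [this, hVinv v hvV]
            exact hVcomm y hyV v hvV
      · rintro (h | h | h | h)
        · rw [h]; exact V.one_mem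
        · rw [h]; exact hyV
        · rw [h]; exact hvV
        · rw [h]; exact V.mul_mem hvV hyV
    have e : Nat.card V = (V : Set H).ncard := (Nat.card_coe_set_eq _)
    rw [e, hset, Set.ncard_coe_finset]
    have n1 : (1 : H) ∉ ({y, v, v * y} : Finset H) := by
      simp only [Finset.mem_insert, Finset.mem_singleton, not_or]
      refine ⟨hy.symm, hv1.symm, ?_⟩
      intro h
      apply hvy
      have : v = y⁻¹ := eq_inv_of_mul_eq_one_left h.symm
      rw [this, hVinv y hyV]
    have n2 : y ∉ ({v, v * y} : Finset H) := by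
      simp only [Finset.mem_insert, Finset.mem_singleton, not_or]
      refine ⟨hvy.symm, ?_⟩
      intro h
      apply hv1
      exact (mul_eq_right.mp h.symm)
    have n3 : v ∉ ({v * y} : Finset H) := by
      simp only [Finset.mem_singleton]
      intro h
      apply hy
      exact (mul_eq_left.mp h.symm)
    rw [Finset.card_insert_of_notMem n1, Finset.card_insert_of_notMem n2,
      Finset.card_insert_of_notMem n3, Finset.card_singleton]
  -- fixed-point-freeness modulo V
  have hfpf : ∀ s ∈ U, s⁻¹ * (w * s * w⁻¹) ∈ V → s ∈ V := by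
    intro s hs hv
    have hconj : w * s * w⁻¹ ∈ U := (mem_normalizer_iff.mp hwU s).mp hs
    set v1 := s⁻¹ * (w * s * w⁻¹) with hv1def
    have hfx : w * v1 * w⁻¹ = v1 := by
      have e1 : w * v1 * w⁻¹ = (w * s * w⁻¹)⁻¹ * (w * (w * s * w⁻¹) * w⁻¹) := by rw [hv1def]; group
      rw [e1, hw3]
      have e2 : (w * s * w⁻¹)⁻¹ * s = v1⁻¹ := by rw [hv1def]; group
      rw [e2, hVinv v1 hv]
    rcases (hfix v1 (hVU hv)).mp hfx with h | h
    · have : w * s * w⁻¹ = s := by
        have h2 : s⁻¹ * (w * s * w⁻¹) = 1 := h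
        exact (inv_mul_eq_one.mp h2).symm
      rcases (hfix s hs).mp this with h' | h'
      · rw [h']; exact V.one_mem
      · rw [h']; exact hyV
    · have e3 : w * s * w⁻¹ = s * y := by rw [← h, hv1def]; group
      have e4 : w * (s * v) * w⁻¹ = s * v := by
        calc w * (s * v) * w⁻¹ = (w * s * w⁻¹) * (w * v * w⁻¹) := by group
          _ = s * (y * v) * y := by rw [e3, hwv]; group
          _ = s * (v * y) * y := by rw [hVcomm y hyV v hvV]
          _ = s * v * (y * y) := by group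
          _ = s * v := by rw [hyy]; group
      have hsv : s * v ∈ U := U.mul_mem hs (hVU hvV)
      have hsvV : s * v ∈ V := by
        rcases (hfix _ hsv).mp e4 with h' | h'
        · rw [h']; exact V.one_mem
        · rw [h']; exact hyV
      have : s = (s * v) * v⁻¹ := by group
      rw [this]
      exact V.mul_mem hsvV (V.inv_mem hvV)
  -- the quotient
  let τ : MulAut U := U.normalizerMonoidHom ⟨w, hwU⟩
  have hτ : ∀ u : U, ((τ u : U) : H) = w * u * w⁻¹ := fun u => rfl
  set V' : Subgroup U := V.subgroupOf U with hV'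
  haveI : V'.Normal := hVn
  have hτV : V' ≤ V'.comap τ.toMonoidHom := by
    intro u hu
    apply mem_subgroupOf.mpr
    exact hVw _ (mem_subgroupOf.mp hu)
  let σ : (U ⧸ V') →* (U ⧸ V') := QuotientGroup.map V' V' τ.toMonoidHom hτV
  have hσ : ∀ u : U, σ (u : U ⧸ V') = ((τ u : U) : U ⧸ V') := fun u => rfl
  have hσ2 : ∀ x, σ (σ x) = x := by
    intro x
    obtain ⟨u, rfl⟩ := QuotientGroup.mk_surjective x
    rw [hσ, hσ]
    congr 1
    apply Subtype.ext
    rw [hτ, hτ]
    exact hw3 _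
  have hσfix : ∀ x, σ x = x → x = 1 := by
    intro x hx
    obtain ⟨u, rfl⟩ := QuotientGroup.mk_surjective x
    rw [hσ] at hx
    have h1 := QuotientGroup.eq.mp hx
    rw [QuotientGroup.eq_one_iff]
    apply mem_subgroupOf.mpr
    have h2 : (((τ u)⁻¹ * u : U) : H) ∈ V := mem_subgroupOf.mp h1
    have h3 : (u : H)⁻¹ * (w * (u : H) * w⁻¹) ∈ V := by
      have h4 : (u : H)⁻¹ * (w * (u : H) * w⁻¹) = ((((τ u)⁻¹ * u : U) : H))⁻¹ := by
        show _ = (((τ u : U) : H)⁻¹ * (u : H))⁻¹
        rw [hτ]; group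
      rw [h4]
      exact V.inv_mem h2
    exact hfpf u u.2 h3
  have hinv := invol_fpf σ hσ2 hσfix
  have hcomm : ∀ a b : U ⧸ V', a * b = b * a := by
    intro a b
    have h1 := hinv (a * b)
    rw [map_mul, hinv, hinv, ← mul_inv_rev] at h1
    exact inv_injective h1.symm
  refine ⟨?_, hcard, ?_⟩
  · intro h2
    have h3 : 2 ∣ Nat.card (U ⧸ V') := by
      have : V.relIndex U = Nat.card (U ⧸ V') := rfl
      rwa [this] at h2
    obtain ⟨x, hx⟩ := exists_prime_orderOf_dvd_card' (G := U ⧸ V') 2 h3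
    have hx2 : x ^ 2 = 1 := by rw [← hx]; exact pow_orderOf_eq_one x
    have hxi : x⁻¹ = x := by
      rw [inv_eq_iff_mul_eq_one, ← pow_two]; exact hx2
    have hx1 : x = 1 := hσfix x (by rw [hinv, hxi])
    rw [hx1, orderOf_one] at hx
    omega
  · rw [Subgroup.commutator_le]
    intro g1 hg1 g2 hg2
    have h1 := hcomm ((⟨g2, hg2⟩⁻¹ : U) : U ⧸ V') ((⟨g1, hg1⟩⁻¹ : U) : U ⧸ V')
    rw [← QuotientGroup.mk_mul, ← QuotientGroup.mk_mul, QuotientGroup.eq] at h1
    have h2 : _ ∈ V := mem_subgroupOf.mp h1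
    have e : ⁅g1, g2⁆ = (((⟨g2, hg2⟩⁻¹ * ⟨g1, hg1⟩⁻¹ : U)⁻¹ * (⟨g1, hg1⟩⁻¹ * ⟨g2, hg2⟩⁻¹ : U) : U) : H) := by
      show g1 * g2 * g1⁻¹ * g2⁻¹ = (g2⁻¹ * g1⁻¹)⁻¹ * (g1⁻¹ * g2⁻¹)
      group
    rw [e]
    exact h2

end Cfsg.Agent.S3825
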