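import Cfsg.Statements.S3835
import Mathlib
import Cfsg.Agent.Lib.PGroup.QdExt
-- import your own Cfsg.Agent.* helpers here

set_option autoImplicit false
open Cfsg

namespace Cfsg.Agent.S3835

open Cfsg.Agent.Lib.PGroup.QdExt Matrix
open scoped MatrixGroups

/-- `p`-subgroups of a symmetric group of degree less than `p ^ 2` are abelian. -/
lemma perm_comm {α : Type*} [Fintype α] [DecidableEq α] {p : ℕ} [hp : Fact p.Prime]
    (P : Subgroup (Equiv.Perm α)) (hP : IsPGroup p P) (hcard : Fintype.card α < p ^ 2)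
    (x y : Equiv.Perm α) (hx : x ∈ P) (hy : y ∈ P) : x * y = y * x := by
  classical
  have hpp := hp.out
  ext a
  let O := MulAction.orbit P a
  obtain ⟨k, hk⟩ := hP.card_orbit a
  have hle : Nat.card O ≤ Fintype.card α := by
    rw [← Nat.card_eq_fintype_card (α := α)]
    exact Nat.card_le_card_of_injective _ Subtype.val_injective
  have hk1 : k ≤ 1 := by
    by_contra hcon
    have h2 : 2 ≤ k := by omega
    have h3 : p ^ 2 ≤ p ^ k := Nat.pow_le_pow_right hpp.pos h2
    have h4 : Nat.card O = p ^ k := hk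
    omega
  let f : P →* Equiv.Perm O := MulAction.toPermHom P O
  let Q := f.range
  have hQ : IsPGroup p Q := hP.of_surjective f.rangeRestrict f.rangeRestrict_surjective
  obtain ⟨j, hj⟩ := (IsPGroup.iff_card.mp hQ)
  have hdvd : Nat.card Q ∣ (Nat.card O).factorial := by
    have h5 := Subgroup.card_subgroup_dvd_card Q
    rwa [Nat.card_perm] at h5
  have hj1 : j ≤ 1 := by
    by_contra hcon
    have h2 : 2 ≤ j := by omega
    have h6 : p ^ 2 ∣ (Nat.card O).factorial := by
      rw [hj] at hdvd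
      exact (pow_dvd_pow p h2).trans hdvd
    have h7 : (Nat.card O).factorial ∣ p.factorial := by
      apply Nat.factorial_dvd_factorial
      have h4 : Nat.card O = p ^ k := hk
      rw [h4]
      interval_cases k
      · simpa using hpp.one_le
      · simp
    have h8 := h6.trans h7
    have h9 : p.factorial = p * (p - 1).factorial := by
      obtain ⟨q, rfl⟩ : ∃ q, p = q + 1 := ⟨p - 1, by have := hpp.pos; omega⟩
      simp [Nat.factorial_succ]
    rw [h9, pow_two] at h8
    have h10 := Nat.dvd_of_mul_dvd_mul_left hpp.pos h8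
    have h11 := (hpp.dvd_factorial).mp h10
    have := hpp.pos
    omega
  have hcommQ : ∀ u v : Q, u * v = v * u := by
    have hc : IsMulCommutative Q := by
      interval_cases j
      · have : Subsingleton Q := (Nat.card_eq_one_iff_unique.mp (by simpa using hj)).1
        exact ⟨⟨fun a b => Subsingleton.elim _ _⟩⟩
      · have : IsCyclic Q := isCyclic_of_prime_card (p := p) (by simpa using hj)
        exact IsCyclic.isMulCommutative
    exact fun u v => hc.is_comm.comm u v
  have h1 := hcommQ (f.rangeRestrict ⟨x, hx⟩) (f.rangeRestrict ⟨y, hy⟩)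
  have h2 := congrArg (fun g : Q => ((g : Equiv.Perm O) ⟨a, MulAction.mem_orbit_self a⟩ : O).1) h1
  exact h2

/-- Multiplication in `qd` restricted to the last row. -/
lemma qd_last {p : ℕ} (M : Cfsg.qd p) :
    M.1.1 2 0 = 0 ∧ M.1.1 2 1 = 0 ∧ M.1.1 2 2 = 1 := by
  obtain ⟨M, hM⟩ := M
  refine Subgroup.closure_induction (p := fun M _ => M.1 2 0 = 0 ∧ M.1 2 1 = 0 ∧ M.1 2 2 = 1)
    (fun x hx => hx) ?_ ?_ ?_ hM
  · simp
  · intro x y _ _ hx hy
    obtain ⟨h1, h2, h3⟩ := hx
    obtain ⟨h4, h5, h6⟩ := hy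
    simp only [Matrix.SpecialLinearGroup.coe_mul, Matrix.mul_apply, Fin.sum_univ_three, h1, h2, h3,
      h4, h5, h6]
    simp
  · intro x _ hx
    obtain ⟨h1, h2, h3⟩ := hx
    have hdet : (x.1).det = 1 := x.2
    rw [Matrix.det_fin_three, h1, h2, h3] at hdet
    have hadj : ((x⁻¹ : SL(3, ZMod p)).1) = (x.1).adjugate := Matrix.SpecialLinearGroup.coe_inv x
    rw [hadj]
    refine ⟨?_, ?_, ?_⟩
    · simp [Matrix.adjugate_fin_three, h1, h2, h3]
    · simp [Matrix.adjugate_fin_three, h1, h2, h3]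
    · simp [Matrix.adjugate_fin_three, h1, h2, h3]
      linear_combination hdet

lemma heis_isPGroup {p : ℕ} [Fact p.Prime] (hp : p ≠ 2) : IsPGroup p (heis p) := by
  rintro ⟨⟨g, hg⟩, a, b, c, h⟩
  refine ⟨1, ?_⟩
  apply Subtype.ext
  apply Subtype.ext
  change g ^ p ^ 1 = 1
  have h' : g = hmat a b c := h
  rw [pow_one, h', hmat_pow_prime hp]

/-- `Qd(p)` is not involved in small alternating groups. -/
lemma not_involves {p : ℕ} [hp : Fact p.Prime] (hp2 : p ≠ 2) (n : ℕ) (hn : n < p ^ 2) :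
    ¬ Cfsg.Involves ↥(Cfsg.qd p) ↥(alternatingGroup (Fin n)) := by
  classical
  rintro ⟨K, R, hR, ⟨e⟩⟩
  let φ : K →* Cfsg.qd p := e.toMonoidHom.comp (QuotientGroup.mk' _)
  have hφ : Function.Surjective φ :=
    e.surjective.comp (QuotientGroup.mk'_surjective _)
  let K₁ : Subgroup K := (heis p).comap φ
  let φ₁ : K₁ →* heis p := φ.subgroupComap (heis p)
  have hφ₁ : Function.Surjective φ₁ := φ.subgroupComap_surjective_of_surjective (heis p) hφ
  obtain ⟨P⟩ : Nonempty (Sylow p K₁) := inferInstance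
  have hPtop : (P : Subgroup K₁).map φ₁ = ⊤ := by
    have h1 := (P.mapSurjective hφ₁).is_maximal' (Q := ⊤)
    have h2 : IsPGroup p (⊤ : Subgroup (heis p)) := (heis_isPGroup hp2).to_subgroup ⊤
    have h3 := h1 h2 le_top
    rw [Sylow.coe_mapSurjective] at h3
    exact h3.symm
  let ι : K₁ →* Equiv.Perm (Fin n) :=
    (alternatingGroup (Fin n)).subtype.comp (K.subtype.comp K₁.subtype)
  have hι : Function.Injective ι := by
    intro u v huv
    apply Subtype.ext
    apply Subtype.ext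
    apply Subtype.ext
    exact huv
  have hcomm : ∀ u ∈ (P : Subgroup K₁), ∀ v ∈ (P : Subgroup K₁), u * v = v * u := by
    intro u hu v hv
    apply hι
    rw [map_mul, map_mul]
    apply perm_comm ((P : Subgroup K₁).map ι) (P.isPGroup'.map ι) (by simpa using hn)
    · exact ⟨u, hu, rfl⟩
    · exact ⟨v, hv, rfl⟩
  have hall : ∀ a b : heis p, a * b = b * a := by
    intro a b
    have ha : a ∈ (P : Subgroup K₁).map φ₁ := hPtop ▸ Subgroup.mem_top a
    have hb : b ∈ (P : Subgroup K₁).map φ₁ := hPtop ▸ Subgroup.mem_top b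
    obtain ⟨u, hu, rfl⟩ := ha
    obtain ⟨v, hv, rfl⟩ := hb
    rw [← map_mul, ← map_mul, hcomm u hu v hv]
  have h1 := hall ⟨⟨hmat 1 0 0, hmat_mem_qd _ _ _⟩, 1, 0, 0, rfl⟩
    ⟨⟨hmat 0 1 0, hmat_mem_qd _ _ _⟩, 0, 1, 0, rfl⟩
  have h2 : hmat (1 : ZMod p) 0 0 * hmat 0 1 0 = hmat 0 1 0 * hmat 1 0 0 :=
    congrArg (fun g : heis p => (g.1.1 : SL(3, ZMod p))) h1
  rw [hmat_mul, hmat_mul] at h2
  have h3 := hmat_inj h2
  simp at h3

/-- The affine action on the plane. -/
def act {p : ℕ} (M : Cfsg.qd p) (v : ZMod p × ZMod p) : ZMod p × ZMod p :=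
  (M.1.1 0 0 * v.1 + M.1.1 0 1 * v.2 + M.1.1 0 2, M.1.1 1 0 * v.1 + M.1.1 1 1 * v.2 + M.1.1 1 2)

lemma act_mul {p : ℕ} (M N : Cfsg.qd p) (v : ZMod p × ZMod p) : act (M * N) v = act M (act N v) := by
  obtain ⟨h1, h2, h3⟩ := qd_last N
  simp only [act, Subgroup.coe_mul, Matrix.SpecialLinearGroup.coe_mul, Matrix.mul_apply,
    Fin.sum_univ_three, h1, h2, h3]
  ext <;> simp <;> ring

lemma act_one {p : ℕ} (v : ZMod p × ZMod p) : act (1 : Cfsg.qd p) v = v := by
  simp [act, Matrix.one_apply]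

/-- The permutation action of `Qd(p)` on the plane. -/
def actHom (p : ℕ) : Cfsg.qd p →* Equiv.Perm (ZMod p × ZMod p) where
  toFun M :=
    { toFun := act M
      invFun := act M⁻¹
      left_inv := fun v => by
        rw [← act_mul, inv_mul_cancel, act_one]
      right_inv := fun v => by
        rw [← act_mul, mul_inv_cancel, act_one] }
  map_one' := by
    ext v <;> simp [act_one]
  map_mul' M N := by
    ext v <;> simp [act_mul]

lemma actHom_apply {p : ℕ} (M : Cfsg.qd p) (v : ZMod p × ZMod p) : actHom p M v = act M v := rfl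

lemma actHom_injective (p : ℕ) : Function.Injective (actHom p) := by
  intro M N h
  have e : ∀ v, act M v = act N v := fun v => by
    have := congrArg (fun g : Equiv.Perm (ZMod p × ZMod p) => g v) h
    exact this
  obtain ⟨h1, h2, h3⟩ := qd_last M
  obtain ⟨h4, h5, h6⟩ := qd_last N
  have e0 := e (0, 0)
  have e1 := e (1, 0)
  have e2 := e (0, 1)
  simp only [act, Prod.mk.injEq, mul_zero, mul_one, zero_add, add_zero] at e0 e1 e2
  obtain ⟨e01, e02⟩ := e0
  obtain ⟨e11, e12⟩ := e1
  obtain ⟨e21, e22⟩ := e2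
  rw [e01, add_right_cancel_iff] at e11 e21
  rw [e02, add_right_cancel_iff] at e12 e22
  apply Subtype.ext
  apply Matrix.SpecialLinearGroup.ext
  intro i j
  fin_cases i <;> fin_cases j
  · exact e11
  · exact e21
  · exact e01
  · exact e12
  · exact e22
  · exact e02
  · simp only [Fin.reduceFinMk]
    exact h1.trans h4.symm
  · simp only [Fin.reduceFinMk]
    exact h2.trans h5.symm
  · simp only [Fin.reduceFinMk]
    exact h3.trans h6.symm

lemma prod_coe {p : ℕ} (y x s c u : ZMod p) :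
    ((hmat 0 y x * hmat s 0 0 * lmat c * hmat u 0 0 : SL(3, ZMod p)) : Matrix (Fin 3) (Fin 3) (ZMod p)) =
      !![1 + s * c, s + u + s * c * u, x; c, 1 + c * u, y; 0, 0, 1] := by
  rw [Matrix.SpecialLinearGroup.coe_mul, Matrix.SpecialLinearGroup.coe_mul,
    Matrix.SpecialLinearGroup.coe_mul, hmat_coe, hmat_coe, lmat_coe, hmat_coe]
  ext i j
  fin_cases i <;> fin_cases j <;> simp [Matrix.mul_apply, Fin.sum_univ_three] <;> ring

/-- Elements of `qd` are products of Heisenberg and lower unipotent matrices. -/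
lemma qd_decomp {p : ℕ} [Fact p.Prime] (M : Cfsg.qd p) (hc : M.1.1 1 0 ≠ 0) :
    M.1 = hmat 0 (M.1.1 1 2) (M.1.1 0 2) * hmat ((M.1.1 0 0 - 1) / M.1.1 1 0) 0 0 *
      lmat (M.1.1 1 0) * hmat ((M.1.1 1 1 - 1) / M.1.1 1 0) 0 0 := by
  obtain ⟨h1, h2, h3⟩ := qd_last M
  have hdet : (M.1.1).det = 1 := M.1.2
  rw [Matrix.det_fin_three, h1, h2, h3] at hdet
  apply Matrix.SpecialLinearGroup.ext
  intro i j
  rw [prod_coe]
  set a := M.1.1 0 0 with ha
  set b := M.1.1 0 1 with hb
  set x := M.1.1 0 2 with hx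
  set c := M.1.1 1 0 with hc'
  set d := M.1.1 1 1 with hd
  set y := M.1.1 1 2 with hy
  have hdet' : a * d - b * c = 1 := by
    linear_combination hdet
  set s := (a - 1) / c with hs
  set u := (d - 1) / c with hu
  have hs1 : s * c = a - 1 := div_mul_cancel₀ _ hc
  have hu1 : u * c = d - 1 := div_mul_cancel₀ _ hc
  have hb' : b = s + u + s * c * u := by
    apply mul_right_cancel₀ hc
    linear_combination (-1 : ZMod p) * hdet' - hs1 - hu1 - (u * c) * hs1 - (a - 1) * hu1
  fin_cases i <;> fin_cases j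
  · change a = 1 + s * c
    rw [hs1]; ring
  · change b = s + u + s * c * u
    exact hb'
  · rfl
  · rfl
  · change d = 1 + c * u
    linear_combination (-1 : ZMod p) * hu1
  · rfl
  · exact h1
  · exact h2
  · exact h3

lemma lmat_pow_prime {p : ℕ} [hp : Fact p.Prime] (a : ZMod p) : lmat a ^ p = 1 := by
  have h : ∀ n : ℕ, lmat a ^ n = lmat (a * (n : ZMod p)) := by
    intro n
    induction n with
    | zero => simp [lmat_zero]
    | succ n ih =>
      rw [pow_succ, ih, lmat_mul]
      congr 1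
      push_cast
      ring
  rw [h]
  simp [lmat_zero]

/-- Every permutation in the image is even. -/
lemma sign_trivial {p : ℕ} [hp : Fact p.Prime] (hp2 : p ≠ 2) {β : Type*} [Fintype β] [DecidableEq β]
    (Ψ : Cfsg.qd p →* Equiv.Perm β) (M : Cfsg.qd p) : Equiv.Perm.sign (Ψ M) = 1 := by
  have hpp := hp.out
  have hodd : Odd p := hpp.odd_of_ne_two hp2
  let s : Cfsg.qd p →* ℤˣ := Equiv.Perm.sign.comp Ψ
  have hs : ∀ g : Cfsg.qd p, g ^ p = 1 → s g = 1 := by
    intro g hg
    have h1 : s g ^ p = 1 := by rw [← map_pow, hg, map_one]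
    rcases Int.units_eq_one_or (s g) with h | h
    · exact h
    · rw [h, hodd.neg_one_pow] at h1
      exact absurd h1 (by decide)
  have hh : ∀ a b c : ZMod p, s ⟨hmat a b c, hmat_mem_qd a b c⟩ = 1 := by
    intro a b c
    apply hs
    apply Subtype.ext
    exact hmat_pow_prime hp2 a b c
  have hl : ∀ a : ZMod p, s ⟨lmat a, lmat_mem_qd a⟩ = 1 := by
    intro a
    apply hs
    apply Subtype.ext
    exact lmat_pow_prime a
  have hmain : ∀ N : Cfsg.qd p, N.1.1 1 0 ≠ 0 → s N = 1 := by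
    intro N hN
    have hdec := qd_decomp N hN
    have : N = (⟨hmat 0 (N.1.1 1 2) (N.1.1 0 2), hmat_mem_qd _ _ _⟩ : Cfsg.qd p) *
        ⟨hmat ((N.1.1 0 0 - 1) / N.1.1 1 0) 0 0, hmat_mem_qd _ _ _⟩ *
        ⟨lmat (N.1.1 1 0), lmat_mem_qd _⟩ *
        ⟨hmat ((N.1.1 1 1 - 1) / N.1.1 1 0) 0 0, hmat_mem_qd _ _ _⟩ := Subtype.ext hdec
    rw [this, map_mul, map_mul, map_mul, hh, hh, hh, hl]
    rfl
  change s M = 1
  by_cases hc : M.1.1 1 0 = 0
  · obtain ⟨h1, h2, h3⟩ := qd_last M
    have hdet : (M.1.1).det = 1 := M.1.2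
    rw [Matrix.det_fin_three, h1, h2, h3, hc] at hdet
    have ha : M.1.1 0 0 ≠ 0 := by
      intro h
      rw [h] at hdet
      simp at hdet
    let L : Cfsg.qd p := ⟨lmat 1, lmat_mem_qd _⟩
    have hN : (L * M).1.1 1 0 ≠ 0 := by
      have : (L * M).1.1 1 0 = M.1.1 0 0 + M.1.1 1 0 := by
        simp only [L, Subgroup.coe_mul, Matrix.SpecialLinearGroup.coe_mul, lmat_coe,
          Matrix.mul_apply, Fin.sum_univ_three, h1]
        simp
      rw [this, hc, add_zero]
      exact ha
    have h4 := hmain _ hN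
    rw [map_mul, hl 1, one_mul] at h4
    exact h4
  · exact hmain M hc

/-- Let p be an odd prime and n a natural number. The alternating group of degree n has a subgroup isomorphic to Qd(p) (the natural semidirect product of an elementary abelian group of order p² by SL₂(p)) if and only if n ≥ p²; and if n < p² then Qd(p) is not even involved in it. -/
theorem result {p : ℕ} [Fact p.Prime] (hp : p ≠ 2) (n : ℕ) : ((∃ H : Subgroup (alternatingGroup (Fin n)), Nonempty (↥H ≃* ↥(Cfsg.qd p))) ↔ p ^ 2 ≤ n) ∧ (n < p ^ 2 → ¬ Cfsg.Involves ↥(Cfsg.qd p) ↥(alternatingGroup (Fin n))) := by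
  classical
  refine ⟨⟨?_, ?_⟩, not_involves hp n⟩
  · rintro ⟨H, ⟨e⟩⟩
    by_contra hcon
    push Not at hcon
    apply not_involves hp n hcon
    refine ⟨H, ⊥, ?_, ?_⟩
    · rw [Subgroup.bot_subgroupOf]
      exact Subgroup.normal_bot
    · exact ⟨(QuotientGroup.quotientMulEquivOfEq (Subgroup.bot_subgroupOf H)).trans
        (QuotientGroup.quotientBot.trans e)⟩
  · intro hn
    haveI : Fintype (ZMod p) := ZMod.fintype p
    have hcard : Fintype.card (ZMod p × ZMod p) ≤ Fintype.card (Fin n) := by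
      rw [Fintype.card_prod, ZMod.card, Fintype.card_fin, ← pow_two]
      exact hn
    obtain ⟨ι⟩ := Function.Embedding.nonempty_of_card_le hcard
    let Ψ : Cfsg.qd p →* Equiv.Perm (Fin n) :=
      (Equiv.Perm.viaEmbeddingHom ι).comp (actHom p)
    have hΨ : Function.Injective Ψ :=
      (Equiv.Perm.viaEmbeddingHom_injective ι).comp (actHom_injective p)
    have hmem : ∀ M, Ψ M ∈ alternatingGroup (Fin n) := fun M => by
      rw [Equiv.Perm.mem_alternatingGroup]
      exact sign_trivial hp Ψ M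
    let Ψ' : Cfsg.qd p →* alternatingGroup (Fin n) := Ψ.codRestrict _ hmem
    have hΨ' : Function.Injective Ψ' := by
      intro u v huv
      apply hΨ
      exact congrArg Subtype.val huv
    exact ⟨Ψ'.range, ⟨(MonoidHom.ofInjective hΨ').symm⟩⟩

end Cfsg.Agent.S3835
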