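import Cfsg.Statements.S3836
import Mathlib
import Cfsg.Agent.Lib.Basic.PCore
-- import your own Cfsg.Agent.* helpers here

set_option autoImplicit false
open Cfsg

namespace Cfsg.Agent.S3836

/-- Let G be a finite group that is p-stable in the normalizer form: for every p-subgroup Q and every x ∈ N_G(Q) with [Q, x, x] = 1, the image of x in N_G(Q)/C_G(Q) lies in O_p(N_G(Q)/C_G(Q)). Then every subgroup of G is p-stable in the same sense. -/
theorem result {G : Type*} [Group G] [Finite G] {p : ℕ} [Fact p.Prime] (hst : Cfsg.IsNormalizerPStable p G) (H : Subgroup G) : Cfsg.IsNormalizerPStable p ↥H := by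
  classical
  intro Q hQ x hx hcomm
  set Q' : Subgroup G := Q.map H.subtype with hQ'def
  have hQ' : IsPGroup p ↥Q' := hQ.map H.subtype
  have hx' : (x : G) ∈ Subgroup.normalizer (Q' : Set G) := by
    rw [Subgroup.mem_normalizer_iff] at hx ⊢
    intro g
    constructor
    · intro hg
      rw [hQ'def] at hg ⊢
      obtain ⟨q, hq, rfl⟩ := hg
      exact ⟨x * q * x⁻¹, (hx q).mp hq, by simp⟩
    · intro hg
      rw [hQ'def] at hg ⊢
      obtain ⟨q, hq, hqe⟩ := hg
      have hgm : g ∈ H := by
        have : g = (x : G)⁻¹ * q * x := by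
          simp only [Subgroup.subtype_apply] at hqe
          rw [hqe]; group
        rw [this]; exact H.mul_mem (H.mul_mem (H.inv_mem x.2) q.2) x.2
      refine ⟨⟨g, hgm⟩, (hx _).mpr ?_, rfl⟩
      have : x * ⟨g, hgm⟩ * x⁻¹ = q := by
        apply Subtype.ext; simpa using hqe.symm
      rw [this]; exact hq
  have hcomm' : ⁅⁅Q', Subgroup.zpowers (x : G)⁆, Subgroup.zpowers (x : G)⁆ = ⊥ := by
    have h := congrArg (Subgroup.map H.subtype) hcomm
    rw [Subgroup.map_commutator, Subgroup.map_commutator, MonoidHom.map_zpowers, Subgroup.map_bot] at h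
    exact h
  have key := hst Q' hQ' x hx' hcomm'
  have hN : ∀ n : H, n ∈ Subgroup.normalizer (Q : Set H) →
      (n : G) ∈ Subgroup.normalizer (Q' : Set G) := by
    intro x hx
    rw [Subgroup.mem_normalizer_iff] at hx ⊢
    intro g
    constructor
    · intro hg
      rw [hQ'def] at hg ⊢
      obtain ⟨q, hq, rfl⟩ := hg
      exact ⟨x * q * x⁻¹, (hx q).mp hq, by simp⟩
    · intro hg
      rw [hQ'def] at hg ⊢
      obtain ⟨q, hq, hqe⟩ := hg
      have hgm : g ∈ H := by
        have : g = (x : G)⁻¹ * q * x := by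
          simp only [Subgroup.subtype_apply] at hqe
          rw [hqe]; group
        rw [this]; exact H.mul_mem (H.mul_mem (H.inv_mem x.2) q.2) x.2
      refine ⟨⟨g, hgm⟩, (hx _).mpr ?_, rfl⟩
      have : x * ⟨g, hgm⟩ * x⁻¹ = q := by
        apply Subtype.ext; simpa using hqe.symm
      rw [this]; exact hq
  let ι : ↥(Subgroup.normalizer (Q : Set H)) →* ↥(Subgroup.normalizer (Q' : Set G)) :=
    { toFun := fun n => ⟨(n.1 : G), hN n.1 n.2⟩
      map_one' := rfl
      map_mul' := fun _ _ => rfl }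
  let C' := (Subgroup.centralizer (Q' : Set G)).subgroupOf (Subgroup.normalizer (Q' : Set G))
  let C := (Subgroup.centralizer (Q : Set H)).subgroupOf (Subgroup.normalizer (Q : Set H))
  let θ := (QuotientGroup.mk' C').comp ι
  have hker : ∀ n, θ n = 1 → n ∈ C := by
    intro n hn
    have h1 : ι n ∈ C' := (QuotientGroup.eq_one_iff _).mp hn
    have h2 : ((ι n : ↥(Subgroup.normalizer (Q' : Set G))) : G) ∈ Subgroup.centralizer (Q' : Set G) :=
      Subgroup.mem_subgroupOf.mp h1
    rw [Subgroup.mem_subgroupOf, Subgroup.mem_centralizer_iff]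
    intro q hq
    apply Subtype.ext
    have h3 := (Subgroup.mem_centralizer_iff.mp h2) q ⟨q, hq, rfl⟩
    exact h3
  let T := (pCore p (↥(Subgroup.normalizer (Q' : Set G)) ⧸ C')).comap θ
  haveI hT : T.Normal := Subgroup.Normal.comap inferInstance θ
  let Tbar := T.map (QuotientGroup.mk' C)
  have hTbarN : Tbar.Normal := Subgroup.Normal.map hT _ (QuotientGroup.mk'_surjective C)
  have hTbarP : IsPGroup p ↥Tbar := by
    rintro ⟨g, t, ht, rfl⟩
    have hpp := Cfsg.Agent.Lib.Basic.PCore.pCore_isPGroup (G := ↥(Subgroup.normalizer (Q' : Set G)) ⧸ C') p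
    obtain ⟨k, hk⟩ := hpp ⟨θ t, ht⟩
    refine ⟨k, ?_⟩
    apply Subtype.ext
    have h1 : θ (t ^ p ^ k) = 1 := by
      rw [map_pow]
      have := congrArg Subtype.val hk
      simpa using this
    have h2 := hker _ h1
    have h3 : (QuotientGroup.mk' C t) ^ p ^ k = 1 := by
      rw [← map_pow]
      exact (QuotientGroup.eq_one_iff _).mpr h2
    simpa using h3
  have hle : Tbar ≤ pCore p (↥(Subgroup.normalizer (Q : Set H)) ⧸ C) :=
    Cfsg.Agent.Lib.Basic.PCore.le_pCore hTbarN hTbarP
  exact hle ⟨⟨x, hx⟩, key, rfl⟩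

end Cfsg.Agent.S3836
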