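import Cfsg.Statements.S3838
import Mathlib
import Cfsg.Agent.Lib.Transfer.Tate
import Cfsg.Agent.Lib.Transfer.Basic
-- import your own Cfsg.Agent.* helpers here

set_option autoImplicit false
open Cfsg

namespace Cfsg.Agent.S3838

open Subgroup MonoidHom

theorem key {H : Type*} [Group H] [Finite H] {p : ℕ} [Fact p.Prime] (P : Sylow p H)
    (Q : Subgroup H) [hQ : Q.Normal] (hQP : Q ≤ (P : Subgroup H))
    (hng : ∀ M : Subgroup (P : Subgroup H), M ⊔ Q.subgroupOf (P : Subgroup H) = ⊤ → M = ⊤)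
    (hc : ∀ g ∈ normalizer ((P : Subgroup H) : Set H), ∀ x ∈ (P : Subgroup H),
      g * x * g⁻¹ * x⁻¹ ∈ Q) :
    Cfsg.HasNormalPComplement p H := by
  classical
  let π : H →* H ⧸ Q := QuotientGroup.mk' Q
  have hsurj : Function.Surjective π := QuotientGroup.mk'_surjective Q
  let Pb : Sylow p (H ⧸ Q) := P.mapSurjective hsurj
  have hPb : (Pb : Subgroup (H ⧸ Q)) = (P : Subgroup H).map π := rfl
  have hmem : ∀ x : H, π x ∈ (Pb : Subgroup (H ⧸ Q)) ↔ x ∈ (P : Subgroup H) := by
    intro x
    rw [hPb]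
    constructor
    · rintro ⟨y, hy, hyx⟩
      have h1 : y⁻¹ * x ∈ Q := by
        have : π (y⁻¹ * x) = 1 := by rw [map_mul, map_inv, hyx, inv_mul_cancel]
        exact (QuotientGroup.eq_one_iff _).mp this
      have h2 := (P : Subgroup H).mul_mem hy (hQP h1)
      simpa using h2
    · intro hx
      exact ⟨x, hx, rfl⟩
  have hN : normalizer ((Pb : Subgroup (H ⧸ Q)) : Set (H ⧸ Q)) ≤
      centralizer ((Pb : Subgroup (H ⧸ Q)) : Set (H ⧸ Q)) := by
    intro gb hgb
    obtain ⟨g, rfl⟩ := hsurj gb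
    have hg : g ∈ normalizer ((P : Subgroup H) : Set H) := by
      rw [mem_normalizer_iff]
      intro x
      have := (mem_normalizer_iff.mp hgb) (π x)
      rw [← map_inv, ← map_mul, ← map_mul, hmem, hmem] at this
      exact this
    rw [mem_centralizer_iff]
    intro xb hxb
    obtain ⟨x, rfl⟩ := hsurj xb
    have hx : x ∈ (P : Subgroup H) := (hmem x).mp hxb
    have h1 := hc g hg x hx
    have h2 : π (g * x * g⁻¹ * x⁻¹) = 1 := (QuotientGroup.eq_one_iff _).mpr h1
    rw [map_mul, map_mul, map_mul, map_inv, map_inv] at h2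
    have h3 : π g * π x * (π g)⁻¹ = π x := by
      have := mul_inv_eq_one.mp h2
      exact this
    have h4 : π g * π x = π x * π g := by
      have := mul_inv_eq_iff_eq_mul.mp h3
      exact this
    exact h4.symm
  have hcomp := ker_transferSylow_isComplement' Pb hN
  let C : Subgroup (H ⧸ Q) := (transferSylow Pb hN).ker
  let L : Subgroup H := C.comap π
  haveI hLn : L.Normal := Subgroup.Normal.comap (inferInstance : C.Normal) π
  refine Cfsg.Agent.Lib.Transfer.Tate.hasNormalPComplement_of_nongenerating (p := p)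
    (P : Subgroup H) P.isPGroup' P.not_dvd_index L ?_ ?_
  · rw [eq_top_iff]
    intro g _
    obtain ⟨⟨c, y⟩, hxy, -⟩ := hcomp.existsUnique (π g)
    simp only at hxy
    have hy2 : (y : H ⧸ Q) ∈ (P : Subgroup H).map π := y.2
    obtain ⟨y0, hy0, hy0y⟩ := hy2
    have hl : g * y0⁻¹ ∈ L := by
      show π (g * y0⁻¹) ∈ C
      rw [map_mul, map_inv, hy0y, ← hxy]
      simp
    have : g = (g * y0⁻¹) * y0 := by group
    rw [this]
    exact Subgroup.mul_mem_sup hl hy0
  · intro M hM
    apply hng M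
    rw [eq_top_iff, ← hM]
    refine sup_le_sup_left ?_ M
    intro x hx
    rw [mem_subgroupOf] at hx ⊢
    have h1 : π (x : H) ∈ C := hx
    have h2 : π (x : H) ∈ (Pb : Subgroup (H ⧸ Q)) := (hmem _).mpr x.2
    have h3 : π (x : H) = 1 := by
      have := hcomp.disjoint
      exact Subgroup.disjoint_def.mp this h1 h2
    exact (QuotientGroup.eq_one_iff _).mp h3

/-- In `N_G(P)` with a normal `p`-complement, commutators `[g, x]` with `x ∈ P` lie in `P'`. -/
theorem comm_mem {G : Type*} [Group G] [Finite G] {p : ℕ} [Fact p.Prime] (P : Sylow p G)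
    (hN : Cfsg.HasNormalPComplement p ↥(Subgroup.normalizer ((P : Subgroup G) : Set G)))
    (g : G) (hg : g ∈ normalizer ((P : Subgroup G) : Set G)) (x : G) (hx : x ∈ (P : Subgroup G)) :
    ∃ y ∈ (P : Subgroup G), g * x * g⁻¹ * x⁻¹ = y * x * y⁻¹ * x⁻¹ := by
  classical
  have hle : (P : Subgroup G) ≤ normalizer ((P : Subgroup G) : Set G) := le_normalizer
  let Pn : Sylow p ↥(normalizer ((P : Subgroup G) : Set G)) := P.subtype hle
  obtain ⟨C, hCn, hC⟩ :=
    Cfsg.Agent.Lib.Transfer.Basic.exists_complement_of_hasNormalPComplement hN Pn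
  have hmemPn : ∀ u : ↥(normalizer ((P : Subgroup G) : Set G)),
      u ∈ (Pn : Subgroup _) ↔ (u : G) ∈ (P : Subgroup G) := by
    intro u
    show u ∈ (P : Subgroup G).subgroupOf _ ↔ _
    rw [mem_subgroupOf]
  obtain ⟨⟨c, y⟩, hcy, -⟩ := hC.existsUnique ⟨g, hg⟩
  simp only at hcy
  have hy : ((y : ↥(normalizer ((P : Subgroup G) : Set G))) : G) ∈ (P : Subgroup G) :=
    (hmemPn _).mp y.2
  have hcomm : ∀ u : G, u ∈ (P : Subgroup G) →
      ((c : ↥(normalizer ((P : Subgroup G) : Set G))) : G) * u =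
        u * ((c : ↥(normalizer ((P : Subgroup G) : Set G))) : G) := by
    intro u hu
    let cc : ↥(normalizer ((P : Subgroup G) : Set G)) := c
    let uu : ↥(normalizer ((P : Subgroup G) : Set G)) := ⟨u, hle hu⟩
    have h1 : cc * uu * cc⁻¹ * uu⁻¹ ∈ C := by
      have h2 : cc * (uu * cc⁻¹ * uu⁻¹) ∈ C := C.mul_mem c.2 (hCn.conj_mem _ (C.inv_mem c.2) _)
      simpa [mul_assoc] using h2
    have h2 : cc * uu * cc⁻¹ * uu⁻¹ ∈ (Pn : Subgroup _) := by
      rw [hmemPn]
      have h3 := mem_normalizer_iff.mp (c : ↥(normalizer ((P : Subgroup G) : Set G))).2 u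
      have h4 : (c : G) * u * (c : G)⁻¹ ∈ (P : Subgroup G) := h3.mp hu
      have h5 := (P : Subgroup G).mul_mem h4 ((P : Subgroup G).inv_mem hu)
      simpa [cc, uu] using h5
    have h3 : cc * uu * cc⁻¹ * uu⁻¹ = 1 := Subgroup.disjoint_def.mp hC.disjoint h1 h2
    have h4 : cc * uu = uu * cc := by
      have h5 := mul_inv_eq_one.mp h3
      exact mul_inv_eq_iff_eq_mul.mp h5
    exact congrArg Subtype.val h4
  have hgeq : g = (c : G) * (y : G) := by
    have := congrArg Subtype.val hcy
    simpa using this.symm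
  refine ⟨y, hy, ?_⟩
  have hv : (y : G) * x * (y : G)⁻¹ ∈ (P : Subgroup G) :=
    (P : Subgroup G).mul_mem ((P : Subgroup G).mul_mem hy hx) ((P : Subgroup G).inv_mem hy)
  have hk := hcomm _ hv
  rw [hgeq]
  calc (c : G) * (y : G) * x * ((c : G) * (y : G))⁻¹ * x⁻¹
      = (c : G) * ((y : G) * x * (y : G)⁻¹) * (c : G)⁻¹ * x⁻¹ := by group
    _ = ((y : G) * x * (y : G)⁻¹) * (c : G) * (c : G)⁻¹ * x⁻¹ := by rw [hk]
    _ = (y : G) * x * (y : G)⁻¹ * x⁻¹ := by group


/-- Let G be a finite group with Sylow p-subgroup P such that N_G(P) has a normal p-complement. Then N_G(Q) has a normal p-complement for every subgroup Q with [P, P] ≤ Q ≤ Φ(P). -/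
theorem result {G : Type*} [Group G] [Finite G] {p : ℕ} [Fact p.Prime] (P : Sylow p G) (hN : Cfsg.HasNormalPComplement p ↥(Subgroup.normalizer ((P : Subgroup G) : Set G))) (Q : Subgroup G) (h1 : (commutator ↥(P : Subgroup G)).map (P : Subgroup G).subtype ≤ Q) (h2 : Q ≤ (frattini ↥(P : Subgroup G)).map (P : Subgroup G).subtype) : Cfsg.HasNormalPComplement p ↥(Subgroup.normalizer (Q : Set G)) := by
  classical
  -- basic facts
  have hQP : Q ≤ (P : Subgroup G) := by
    intro x hx
    obtain ⟨y, -, rfl⟩ := h2 hx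
    exact y.2
  have hcomm : ∀ y ∈ (P : Subgroup G), ∀ x ∈ (P : Subgroup G), y * x * y⁻¹ * x⁻¹ ∈ Q := by
    intro y hy x hx
    apply h1
    refine ⟨⟨y, hy⟩ * ⟨x, hx⟩ * (⟨y, hy⟩ : (P : Subgroup G))⁻¹ * (⟨x, hx⟩ : (P : Subgroup G))⁻¹, ?_, ?_⟩
    · have := Subgroup.commutator_mem_commutator (H₁ := (⊤ : Subgroup (P : Subgroup G)))
        (H₂ := (⊤ : Subgroup (P : Subgroup G))) (g₁ := ⟨y, hy⟩) (g₂ := ⟨x, hx⟩) trivial trivial
      simpa [commutatorElement_def, commutator_def] using this
    · simp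
  have hPH : (P : Subgroup G) ≤ normalizer (Q : Set G) := by
    intro y hy
    rw [mem_normalizer_iff]
    intro x
    constructor
    · intro hx
      have h3 := Q.mul_mem (hcomm y hy x (hQP hx)) hx
      simpa using h3
    · intro hx
      have hxP : x ∈ (P : Subgroup G) := by
        have h3 : y⁻¹ * (y * x * y⁻¹) * y ∈ (P : Subgroup G) :=
          (P : Subgroup G).mul_mem ((P : Subgroup G).mul_mem ((P : Subgroup G).inv_mem hy) (hQP hx)) hy
        simpa [mul_assoc] using h3
      have h3 := hcomm y hy x hxP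
      have h4 := Q.mul_mem (Q.inv_mem h3) hx
      have h5 : (y * x * y⁻¹ * x⁻¹)⁻¹ * (y * x * y⁻¹) = x := by group
      rwa [h5] at h4
  let Pn : Sylow p ↥(normalizer (Q : Set G)) := P.subtype hPH
  let Qn : Subgroup ↥(normalizer (Q : Set G)) := Q.subgroupOf (normalizer (Q : Set G))
  haveI hQn : Qn.Normal := Subgroup.normal_in_normalizer
  have hPnc : (Pn : Subgroup ↥(normalizer (Q : Set G))) = (P : Subgroup G).subgroupOf (normalizer (Q : Set G)) := rfl
  have hmemPn : ∀ u : ↥(normalizer (Q : Set G)),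
      u ∈ (Pn : Subgroup _) ↔ (u : G) ∈ (P : Subgroup G) := by
    intro u
    rw [hPnc, mem_subgroupOf]
  refine key Pn Qn ?_ ?_ ?_
  · intro x hx
    rw [hmemPn]
    exact hQP (mem_subgroupOf.mp hx)
  · intro M hM
    let e : ↥(Pn : Subgroup ↥(normalizer (Q : Set G))) ≃* ↥(P : Subgroup G) :=
      Subgroup.subgroupOfEquivOfLe hPH
    have he : ∀ u : ↥(Pn : Subgroup ↥(normalizer (Q : Set G))), ((e u : ↥(P : Subgroup G)) : G) = ((u : ↥(normalizer (Q : Set G))) : G) := fun u => rfl
    let M0 : Subgroup ↥(P : Subgroup G) := M.map e.toMonoidHom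
    have hM0 : M0 ⊔ frattini ↥(P : Subgroup G) = ⊤ := by
      rw [eq_top_iff]
      intro u _
      have hu : e.symm u ∈ M ⊔ Qn.subgroupOf (Pn : Subgroup ↥(normalizer (Q : Set G))) := by
        rw [hM]; trivial
      have key2 : M ⊔ Qn.subgroupOf (Pn : Subgroup ↥(normalizer (Q : Set G))) ≤
          (M0 ⊔ frattini ↥(P : Subgroup G)).comap e.toMonoidHom := by
        refine sup_le ?_ ?_
        · intro m hm
          exact Subgroup.mem_sup_left ⟨m, hm, rfl⟩
        · intro q hq
          refine Subgroup.mem_sup_right ?_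
          have hq1 : (q : ↥(normalizer (Q : Set G))) ∈ Qn := mem_subgroupOf.mp hq
          have hq2 : ((q : ↥(normalizer (Q : Set G))) : G) ∈ Q := mem_subgroupOf.mp hq1
          obtain ⟨y, hy, hyq⟩ := h2 hq2
          have : e q = y := by
            apply Subtype.ext
            rw [he]
            exact hyq.symm
          show e q ∈ _
          rw [this]
          exact hy
      have := key2 hu
      simpa using this
    have hM0top : M0 = ⊤ := frattini_nongenerating hM0
    rw [eq_top_iff]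
    intro u _
    have : e u ∈ M0 := by rw [hM0top]; trivial
    obtain ⟨m, hm, hmu⟩ := this
    have : m = u := e.injective hmu
    rwa [← this]
  · intro g hg x hx
    have hg' : (g : G) ∈ normalizer ((P : Subgroup G) : Set G) := by
      rw [mem_normalizer_iff]
      intro u
      constructor
      · intro hu
        by_cases hmem : True
        · have hQu : u ∈ (P : Subgroup G) := hu
          have hun : u ∈ normalizer (Q : Set G) := hPH hu
          have h3 := (mem_normalizer_iff.mp hg ⟨u, hun⟩).mp ((hmemPn _).mpr hu)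
          have h4 := (hmemPn _).mp h3
          simpa using h4
        · exact absurd trivial hmem
      · intro hu
        have h3 : (g : G) * u * (g : G)⁻¹ ∈ normalizer (Q : Set G) := hPH hu
        have h4 : u ∈ normalizer (Q : Set G) := by
          have h5 : (g : G)⁻¹ * ((g : G) * u * (g : G)⁻¹) * (g : G) ∈ normalizer (Q : Set G) :=
            mul_mem (mul_mem (inv_mem g.2) h3) g.2
          simpa [mul_assoc] using h5
        have h6 := (mem_normalizer_iff.mp hg ⟨u, h4⟩).mpr ((hmemPn _).mpr (by simpa using hu))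
        exact (hmemPn _).mp h6
    have hx' : (x : G) ∈ (P : Subgroup G) := (hmemPn _).mp hx
    obtain ⟨y, hy, hyeq⟩ := comm_mem P hN g hg' x hx'
    have := hcomm y hy x hx'
    rw [← hyeq] at this
    show _ ∈ Q.subgroupOf _
    rw [mem_subgroupOf]
    simpa using this

end Cfsg.Agent.S3838
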