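import Cfsg.Statements.S3839
import Cfsg.Agent.Lib.Transfer.FrattiniGen
import Cfsg.Agent.Lib.Transfer.OmegaTwo
import Cfsg.Agent.Lib.Transfer.Basic
import Cfsg.Agent.Lib.Basic.SylowUtil

set_option autoImplicit false
open Cfsg

namespace Cfsg.Agent.S3839

open Cfsg.Agent.Lib.Transfer.FrattiniGen Cfsg.Agent.Lib.Transfer.WellPlaced
  Cfsg.Agent.Lib.Transfer.Frobenius

variable {G : Type*} [Group G] [Finite G] {p : ℕ} [hp : Fact p.Prime]

omit [Finite G] hp in
/-- The subgroup of elements normalizing `R`, centralizing `D₀` and acting trivially on `R / D₀`. -/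
def Yg (R D₀ : Subgroup G) (hD₀ : D₀ ≤ R) : Subgroup G where
  carrier := {h | h ∈ Subgroup.normalizer (R : Set G) ∧ h ∈ Subgroup.centralizer (D₀ : Set G) ∧
    ∀ r ∈ R, h * r * h⁻¹ * r⁻¹ ∈ D₀}
  one_mem' := ⟨Subgroup.one_mem _, Subgroup.one_mem _, fun r _ => by simp [D₀.one_mem]⟩
  mul_mem' := by
    rintro a b ⟨ha1, ha2, ha3⟩ ⟨hb1, hb2, hb3⟩
    refine ⟨Subgroup.mul_mem _ ha1 hb1, Subgroup.mul_mem _ ha2 hb2, ?_⟩
    intro r hr
    have h1 := hb3 r hr
    have h2 := ha3 r hr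
    have h3 : a * (b * r * b⁻¹ * r⁻¹) * a⁻¹ = b * r * b⁻¹ * r⁻¹ := by
      have := (Subgroup.mem_centralizer_iff.mp ha2) _ h1
      rw [← this]; group
    have e : a * b * r * (a * b)⁻¹ * r⁻¹
        = (a * (b * r * b⁻¹ * r⁻¹) * a⁻¹) * (a * r * a⁻¹ * r⁻¹) := by group
    rw [e, h3]
    exact D₀.mul_mem h1 h2
  inv_mem' := by
    rintro a ⟨ha1, ha2, ha3⟩
    refine ⟨Subgroup.inv_mem _ ha1, Subgroup.inv_mem _ ha2, ?_⟩
    intro r hr
    have h1 : a⁻¹ * r * a ∈ R := by
      have := (Subgroup.mem_normalizer_iff.mp (Subgroup.inv_mem _ ha1) r).mp hr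
      simpa using this
    have h2 := D₀.inv_mem (ha3 _ h1)
    have e : a⁻¹ * r * a⁻¹⁻¹ * r⁻¹ = (a * (a⁻¹ * r * a) * a⁻¹ * (a⁻¹ * r * a)⁻¹)⁻¹ := by group
    rw [e]
    exact h2

omit hp in
theorem mem_Yg {R D₀ : Subgroup G} {hD₀ : D₀ ≤ R} {h : G} :
    h ∈ Yg R D₀ hD₀ ↔ h ∈ Subgroup.normalizer (R : Set G) ∧
      h ∈ Subgroup.centralizer (D₀ : Set G) ∧ ∀ r ∈ R, h * r * h⁻¹ * r⁻¹ ∈ D₀ := Iff.rfl

/-- The core of the proof. -/
theorem core {S : Sylow p G} {D : Subgroup G} (hD : Cfsg.IsStronglyClosed D (S : Subgroup G))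
    (hfam : ∀ U : Subgroup G, U ≤ D → D ⊓ Subgroup.centralizer (U : Set G) ≤ U →
      Cfsg.HasNormalPComplement p ↥(Subgroup.normalizer (U : Set G)))
    {R : Subgroup G} (hRS : R ≤ (S : Subgroup G)) (hfn : FN p (S : Subgroup G) R)
    (IH : ∀ R' : Subgroup G, R' ≤ (S : Subgroup G) → Nat.card R < Nat.card R' →
      ∀ g ∈ Subgroup.normalizer (R' : Set G), Nat.Coprime (orderOf g) p →
        g ∈ Subgroup.centralizer (R' : Set G))
    {g : G} (hg : g ∈ Subgroup.normalizer (R : Set G)) (hc : Nat.Coprime (orderOf g) p) :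
    g ∈ Subgroup.centralizer (R : Set G) := by
  classical
  obtain ⟨hDS, hDsc⟩ := hD
  have hRp : IsPGroup p R := S.isPGroup'.to_le hRS
  set D₀ : Subgroup G := D ⊓ R with hD₀
  have hD₀R : D₀ ≤ R := inf_le_right
  have hD₀n : ∀ h ∈ Subgroup.normalizer (R : Set G), ∀ d ∈ D₀, h * d * h⁻¹ ∈ D₀ := by
    intro h hh d hd
    have h1 : h * d * h⁻¹ ∈ R := (Subgroup.mem_normalizer_iff.mp hh d).mp hd.2
    exact ⟨hDsc d hd.1 h (hRS h1), h1⟩
  have hRD₀ : R ≤ Subgroup.normalizer (D₀ : Set G) := fun r hr =>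
    mem_normalizer_of_conj_mem (hD₀n r (Subgroup.le_normalizer hr))
  by_cases hcase : D ⊓ Subgroup.centralizer (D₀ : Set G) ≤ D₀
  · exact mem_centralizer_of_complement (hfam D₀ inf_le_left hcase) hRD₀ hRp
      (mem_normalizer_of_conj_mem (hD₀n g hg)) hg hc
  -- the other case: an element `v`
  obtain ⟨c₀, hc₀E, hc₀⟩ := SetLike.not_le_iff_exists.mp hcase
  set E : Subgroup G := D ⊓ Subgroup.centralizer (D₀ : Set G) with hE
  have hRE : ∀ r ∈ R, ∀ e ∈ E, r * e * r⁻¹ ∈ E := by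
    intro r hr e he
    refine ⟨hDsc e he.1 r ?_, ?_⟩
    · exact Subgroup.mul_mem _ (Subgroup.mul_mem _ (hRS hr) (hDS he.1)) (Subgroup.inv_mem _ (hRS hr))
    · show r * e * r⁻¹ ∈ Subgroup.centralizer (D₀ : Set G)
      rw [Subgroup.mem_centralizer_iff]
      intro d hd
      have h1 : r⁻¹ * d * r ∈ D₀ := by
        have := hD₀n r⁻¹ (Subgroup.inv_mem _ (Subgroup.le_normalizer hr)) d hd
        simpa using this
      have h2 := (Subgroup.mem_centralizer_iff.mp he.2) _ h1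
      calc d * (r * e * r⁻¹) = r * ((r⁻¹ * d * r) * e) * r⁻¹ := by group
        _ = r * (e * (r⁻¹ * d * r)) * r⁻¹ := by rw [h2]
        _ = r * e * r⁻¹ * d := by group
  have hc₀R : c₀ ∉ R := fun h => hc₀ ⟨hc₀E.1, h⟩
  have hWS : R ⊔ E ≤ (S : Subgroup G) := sup_le hRS (inf_le_left.trans hDS)
  have hWp : IsPGroup p (R ⊔ E : Subgroup G) := S.isPGroup'.to_le hWS
  have hlt : R < R ⊔ E := by
    refine lt_of_le_of_ne le_sup_left ?_
    intro h
    apply hc₀R
    rw [h]
    exact Subgroup.mem_sup_right hc₀E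
  obtain ⟨w, hw, hwR⟩ := SetLike.exists_of_lt (lt_inf_normalizer hWp hlt)
  obtain ⟨v, hvE, r₀, hr₀, rfl⟩ := exists_mul_of_mem_sup hRE hw.1
  have hvN : v ∈ Subgroup.normalizer (R : Set G) := by
    have h1 := Subgroup.mul_mem _ hw.2 (Subgroup.inv_mem _ (Subgroup.le_normalizer hr₀))
    simpa using h1
  have hvR : v ∉ R := fun h => hwR (R.mul_mem h hr₀)
  have hvS : v ∈ (S : Subgroup G) := hDS hvE.1
  -- the subgroup `Y`
  set Y : Subgroup G := Yg R D₀ hD₀R with hY
  have hvY : v ∈ Y := by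
    refine ⟨hvN, hvE.2, ?_⟩
    intro r hr
    refine ⟨?_, ?_⟩
    · have h1 : r * v⁻¹ * r⁻¹ ∈ D :=
        hDsc _ (D.inv_mem hvE.1) r (Subgroup.mul_mem _ (Subgroup.mul_mem _ (hRS hr)
          (Subgroup.inv_mem _ hvS)) (Subgroup.inv_mem _ (hRS hr)))
      have e : v * r * v⁻¹ * r⁻¹ = v * (r * v⁻¹ * r⁻¹) := by group
      rw [e]
      exact D.mul_mem hvE.1 h1
    · exact R.mul_mem ((Subgroup.mem_normalizer_iff.mp hvN r).mp hr) (R.inv_mem hr)
  have hYH : Y ≤ Subgroup.normalizer (R : Set G) := fun y hy => hy.1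
  have hYn : ∀ h ∈ Subgroup.normalizer (R : Set G), ∀ y ∈ Y, h * y * h⁻¹ ∈ Y := by
    intro h hh y hy
    refine ⟨Subgroup.mul_mem _ (Subgroup.mul_mem _ hh hy.1) (Subgroup.inv_mem _ hh), ?_, ?_⟩
    · rw [Subgroup.mem_centralizer_iff]
      intro d hd
      have h1 : h⁻¹ * d * h ∈ D₀ := by
        have := hD₀n h⁻¹ (Subgroup.inv_mem _ hh) d hd
        simpa using this
      have h2 := (Subgroup.mem_centralizer_iff.mp hy.2.1) _ h1
      calc d * (h * y * h⁻¹) = h * ((h⁻¹ * d * h) * y) * h⁻¹ := by group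
        _ = h * (y * (h⁻¹ * d * h)) * h⁻¹ := by rw [h2]
        _ = h * y * h⁻¹ * d := by group
    · intro r hr
      have h1 : h⁻¹ * r * h ∈ R := by
        have := (Subgroup.mem_normalizer_iff.mp (Subgroup.inv_mem _ hh) r).mp hr
        simpa using this
      have h2 := hD₀n h hh _ (hy.2.2 _ h1)
      have e : h * y * h⁻¹ * r * (h * y * h⁻¹)⁻¹ * r⁻¹
          = h * (y * (h⁻¹ * r * h) * y⁻¹ * (h⁻¹ * r * h)⁻¹) * h⁻¹ := by group
      rw [e]
      exact h2
  -- the Frattini argument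
  set T : Subgroup G := (S : Subgroup G) ⊓ Subgroup.normalizer (R : Set G) with hT
  have hTH : T ≤ Subgroup.normalizer (R : Set G) := inf_le_right
  have hTp : IsPGroup p T := S.isPGroup'.to_le inf_le_left
  obtain ⟨d, hdY, hdg⟩ := frat_gen hTH hTp hfn hYH hYn hg
  set n := d * g with hn
  have hnH : n ∈ Subgroup.normalizer (R : Set G) := Subgroup.mul_mem _ (hYH hdY) hg
  -- the larger subgroup
  set R₁ : Subgroup G := R ⊔ (T ⊓ Y) with hR₁
  have hR₁S : R₁ ≤ (S : Subgroup G) := sup_le hRS (inf_le_left.trans inf_le_left)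
  have hvT : v ∈ T ⊓ Y := ⟨⟨hvS, hvN⟩, hvY⟩
  have hcard : Nat.card R < Nat.card R₁ := by
    apply Cfsg.Agent.Lib.Transfer.WellPlaced.card_lt_of_lt
    refine lt_of_le_of_ne le_sup_left ?_
    intro h
    apply hvR
    rw [h]
    exact Subgroup.mem_sup_right hvT
  have hnN : n ∈ Subgroup.normalizer (R₁ : Set G) := by
    apply mem_normalizer_of_conj_mem
    have hle : cj n R₁ ≤ R₁ := by
      show (R ⊔ (T ⊓ Y)).map (MulAut.conj n).toMonoidHom ≤ R ⊔ (T ⊓ Y)
      rw [Subgroup.map_sup]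
      refine sup_le_sup ?_ ?_
      · rintro _ ⟨w, hw, rfl⟩
        exact (Subgroup.mem_normalizer_iff.mp hnH w).mp hw
      · rintro _ ⟨w, hw, rfl⟩
        exact (Subgroup.mem_normalizer_iff.mp hdg w).mp hw
    intro w hw
    exact hle (conj_mem_cj hw)
  obtain ⟨α, β, hαβ, hcomm, -, hβz, ⟨k, hk⟩, hβc⟩ :=
    Cfsg.Agent.Lib.Transfer.Basic.exists_pPart_decomp (p := p) n
  have hβN : β ∈ Subgroup.normalizer (R₁ : Set G) :=
    (Subgroup.zpowers_le.mpr hnN) hβz
  have hβNR : β ∈ Subgroup.normalizer (R : Set G) :=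
    (Subgroup.zpowers_le.mpr hnH) hβz
  have hβC := IH R₁ hR₁S hcard β hβN hβc
  have hβR : ∀ r ∈ R, r * β = β * r := fun r hr =>
    (Subgroup.mem_centralizer_iff.mp hβC) r (Subgroup.mem_sup_left hr)
  have hβY : β ∈ Y := by
    refine ⟨hβNR, ?_, ?_⟩
    · rw [Subgroup.mem_centralizer_iff]
      exact fun d hd => hβR d (hD₀R hd)
    · intro r hr
      rw [← hβR r hr]
      have e : r * β * β⁻¹ * r⁻¹ = 1 := by group
      rw [e]
      exact D₀.one_mem
  have hnk : n ^ p ^ k ∈ Y := by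
    have h1 : n ^ p ^ k = β ^ p ^ k := by
      rw [← hαβ, hcomm.mul_pow, ← hk, pow_orderOf_eq_one, one_mul]
    rw [h1]
    exact Y.pow_mem hβY _
  have hgeq : g = d⁻¹ * n := by rw [hn]; group
  have hgpow : ∀ m : ℕ, ∃ y ∈ Y, g ^ m = y * n ^ m := by
    intro m
    induction m with
    | zero => exact ⟨1, Y.one_mem, by simp⟩
    | succ m ih =>
      obtain ⟨y, hy, hye⟩ := ih
      refine ⟨y * (n ^ m * d⁻¹ * (n ^ m)⁻¹), Y.mul_mem hy
        (hYn _ (Subgroup.pow_mem _ hnH m) _ (Y.inv_mem hdY)), ?_⟩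
      calc g ^ (m + 1) = g ^ m * g := pow_succ g m
        _ = y * n ^ m * (d⁻¹ * n) := by rw [hye, ← hgeq]
        _ = y * (n ^ m * d⁻¹ * (n ^ m)⁻¹) * n ^ (m + 1) := by
          rw [pow_succ]
          group
  have hgY' : g ^ p ^ k ∈ Y := by
    obtain ⟨y, hy, hye⟩ := hgpow (p ^ k)
    rw [hye]
    exact Y.mul_mem hy hnk
  have hgY : g ∈ Y := mem_of_coprime_pow (Nat.Coprime.pow_left k hc.symm) hgY'
  -- stability
  rw [Subgroup.mem_centralizer_iff]
  intro r hr
  set δ := g * r * g⁻¹ * r⁻¹ with hδ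
  have hδD : δ ∈ D₀ := hgY.2.2 r hr
  have hgδ : g * δ = δ * g := ((Subgroup.mem_centralizer_iff.mp hgY.2.1) δ hδD).symm
  have hgr : g * r * g⁻¹ = δ * r := by rw [hδ]; group
  have hiter : ∀ m : ℕ, g ^ m * r * (g ^ m)⁻¹ = δ ^ m * r := by
    intro m
    induction m with
    | zero => simp
    | succ m ih =>
      have hcδ : Commute g (δ ^ m) := (show Commute g δ from hgδ).pow_right m
      calc g ^ (m + 1) * r * (g ^ (m + 1))⁻¹ = g * (g ^ m * r * (g ^ m)⁻¹) * g⁻¹ := by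
            rw [pow_succ']; group
        _ = g * (δ ^ m * r) * g⁻¹ := by rw [ih]
        _ = δ ^ m * (g * r * g⁻¹) := by
          have h1 : g * δ ^ m = δ ^ m * g := hcδ
          calc g * (δ ^ m * r) * g⁻¹ = (g * δ ^ m) * r * g⁻¹ := by group
            _ = (δ ^ m * g) * r * g⁻¹ := by rw [h1]
            _ = δ ^ m * (g * r * g⁻¹) := by group
        _ = δ ^ (m + 1) * r := by rw [hgr, pow_succ]; group
  have h1 := hiter (orderOf g)
  rw [pow_orderOf_eq_one] at h1
  have hδ1 : δ ^ orderOf g = 1 := by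
    have : r = δ ^ orderOf g * r := by simpa using h1
    exact (mul_eq_right.mp this.symm)
  obtain ⟨j, hj⟩ := Cfsg.Agent.Lib.Basic.SylowUtil.orderOf_eq_pow_of_isPGroup hRp (hD₀R hδD)
  have hδ2 : δ ^ p ^ j = 1 := by rw [← hj]; exact pow_orderOf_eq_one δ
  have hδ3 : δ = 1 := by
    have := (pow_gcd_eq_one (a := δ)).mpr ⟨hδ1, hδ2⟩
    rwa [Nat.Coprime.gcd_eq_one (Nat.Coprime.pow_right j hc), pow_one] at this
  rw [hδ3, one_mul] at hgr
  calc r * g = (g * r * g⁻¹) * g := by rw [hgr]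
    _ = g * r := by group

/-- A Frobenius normal p-complement criterion relative to a strongly closed subgroup. Let G be a finite group, S a Sylow p-subgroup and D a subgroup of S strongly closed in S with respect to G. Then G has a normal p-complement if and only if N_G(U) has a normal p-complement for every subgroup U of D with C_D(U) ≤ U. -/
theorem result {G : Type*} [Group G] [Finite G] {p : ℕ} [Fact p.Prime] (S : Sylow p G) (D : Subgroup G) (hD : Cfsg.IsStronglyClosed D (S : Subgroup G)) : Cfsg.HasNormalPComplement p G ↔ ∀ U : Subgroup G, U ≤ D → D ⊓ Subgroup.centralizer (U : Set G) ≤ U → Cfsg.HasNormalPComplement p ↥(Subgroup.normalizer (U : Set G)) := by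
  classical
  constructor
  · intro h U _ _
    exact Cfsg.Agent.Lib.Transfer.Basic.HasNormalPComplement_subgroup h _
  · intro hfam
    refine hasNormalPComplement_of_hyp (frobeniusHyp_of_sylow S ?_)
    have all : ∀ k : ℕ, ∀ R : Subgroup G, R ≤ (S : Subgroup G) →
        Nat.card (S : Subgroup G) - Nat.card R = k →
        ∀ g ∈ Subgroup.normalizer (R : Set G), Nat.Coprime (orderOf g) p →
          g ∈ Subgroup.centralizer (R : Set G) := by
      intro k
      induction k using Nat.strong_induction_on with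
      | _ k ih =>
        intro R hR hk g hg hc
        obtain ⟨x, hx1, hx2, -⟩ := exists_fn_conj S hR
        have hcj : Nat.card (cj x R) = Nat.card R := card_cj x R
        have hcore := core hD hfam hx1 hx2 (fun R' hR' hcard g' hg' hc' => by
          have hle : Nat.card R' ≤ Nat.card (S : Subgroup G) := Subgroup.card_le_of_le hR'
          have hRle : Nat.card R ≤ Nat.card (S : Subgroup G) := Subgroup.card_le_of_le hR
          exact ih _ (by omega) R' hR' rfl g' hg' hc')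
          (g := x * g * x⁻¹) (by
            have : x * g * x⁻¹ ∈ Nz (cj x R) := by
              rw [Nz_cj]
              exact conj_mem_cj hg
            exact this)
          (by
            rw [show x * g * x⁻¹ = MulAut.conj x g from rfl, MulEquiv.orderOf_eq]
            exact hc)
        rw [Subgroup.mem_centralizer_iff] at hcore ⊢
        intro r hr
        have h1 := hcore (x * r * x⁻¹) (conj_mem_cj hr)
        have h2 : x * (r * g) * x⁻¹ = x * (g * r) * x⁻¹ := by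
          calc x * (r * g) * x⁻¹ = x * r * x⁻¹ * (x * g * x⁻¹) := by group
            _ = x * g * x⁻¹ * (x * r * x⁻¹) := h1
            _ = x * (g * r) * x⁻¹ := by group
        exact mul_left_cancel (mul_right_cancel h2)
    exact fun Q hQ g hg hc => all _ Q hQ rfl g hg hc

end Cfsg.Agent.S3839
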