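import Cfsg.Statements.S3857
import Cfsg.Agent.Lib.Coprime.PrimeGraph2F

set_option autoImplicit false
open Cfsg

namespace Cfsg.Agent.S3857

/-- A finite solvable group whose prime graph (prime divisors of the order, two distinct primes joined when there is an element of order their product) is disconnected is a Frobenius group or a 2-Frobenius group (it has normal subgroups H < K with K a Frobenius group with kernel H and G/H a Frobenius group with kernel K/H). -/
theorem result {G : Type*} [Group G] [Finite G] (hsol : Group.IsSolvable G)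
    (hdisc : (∃ A : Set ℕ, (∃ a ∈ A, a.Prime ∧ a ∣ Nat.card G) ∧ (∃ b ∉ A, b.Prime ∧ b ∣ Nat.card G) ∧
      ∀ a ∈ A, ∀ b ∉ A, a.Prime → b.Prime → a ∣ Nat.card G → b ∣ Nat.card G → ¬ ∃ g : G, orderOf g = a * b)) :
    (∃ C : Subgroup G, Cfsg.IsFrobeniusComplement C) ∨
    (∃ (H K : Subgroup G) (_ : H.Normal), K.Normal ∧ H < K ∧
      (∃ C : Subgroup ↥K, Cfsg.IsFrobeniusComplement C ∧ Cfsg.frobeniusKernel C = (H.subgroupOf K : Set ↥K)) ∧
      (∃ C : Subgroup (G ⧸ H), Cfsg.IsFrobeniusComplement C ∧ Cfsg.frobeniusKernel C = (K.map (QuotientGroup.mk' H) : Set (G ⧸ H)))) := by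
  exact Cfsg.Agent.Lib.Coprime.PrimeGraph2F.main_disc hsol hdisc


end Cfsg.Agent.S3857
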