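import Cfsg.Statements.S3858
import Mathlib
import Cfsg.Agent.Lib.Basic.SylowConj
import Cfsg.Agent.Lib.Basic.StrongP
-- import your own Cfsg.Agent.* helpers here

set_option autoImplicit false
open Cfsg

namespace Cfsg.Agent.S3858

theorem aux_mem_map_conj {G : Type*} [Group G] (Q : Subgroup G) (g x : G) :
    x ∈ Q.map (MulAut.conj g).toMonoidHom ↔ g⁻¹ * x * g ∈ Q := by
  constructor
  · rintro ⟨y, hy, rfl⟩
    simpa [mul_assoc] using hy
  · intro h
    exact ⟨_, h, by simp [mul_assoc]⟩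

theorem aux_coatom_conj {G : Type*} [Group G] (M : Subgroup G) (hM : IsCoatom M) (g : G) :
    IsCoatom (M.map (MulAut.conj g).toMonoidHom) :=
  ((MulAut.conj g).mapSubgroup.isCoatom_iff M).2 hM

/-- A subgroup of index prime to `r` contains a conjugate of the Sylow subgroup. -/
theorem aux_exists_conj {G : Type*} [Group G] [Finite G] {r : ℕ} [Fact r.Prime] (R : Sylow r G)
    (M : Subgroup G) (hM : ¬ r ∣ M.index) : ∃ g : G, (R : Subgroup G) ≤ M.map (MulAut.conj g).toMonoidHom := by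
  obtain ⟨q, hq⟩ := R.2.nonempty_fixed_point_of_prime_not_dvd_card (G ⧸ M) hM
  obtain ⟨g, rfl⟩ := QuotientGroup.mk_surjective q
  refine ⟨g, fun x hx => ?_⟩
  rw [aux_mem_map_conj]
  have h1 : (x • (g : G ⧸ M) : G ⧸ M) = g := hq ⟨x, hx⟩
  have h2 : ((x * g : G) : G ⧸ M) = g := h1
  have h3 := QuotientGroup.eq.1 h2
  have h4 := inv_mem h3
  simpa [mul_assoc] using h4


/-- Let G be a finite group with a normal non-abelian simple subgroup T whose centralizer is trivial (G almost simple with socle T), r a prime and R a Sylow r-subgroup of G meeting T nontrivially. Then R lies in exactly one maximal subgroup of G if and only if G has exactly one conjugacy class of maximal subgroups whose index is prime to r. -/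
theorem result {G : Type*} [Group G] [Finite G] (T : Subgroup G) [T.Normal] (hT : IsSimpleGroup T) (hna : ¬ IsMulCommutative T)
    (hC : Subgroup.centralizer (T : Set G) = ⊥) {r : ℕ} [Fact r.Prime] (R : Sylow r G) (hR0 : (R : Subgroup G) ⊓ T ≠ ⊥) :
    (∃! M : Subgroup G, IsCoatom M ∧ (R : Subgroup G) ≤ M) ↔
      ((∃ M : Subgroup G, IsCoatom M ∧ ¬ r ∣ M.index) ∧
        ∀ M₁ M₂ : Subgroup G, IsCoatom M₁ → ¬ r ∣ M₁.index → IsCoatom M₂ → ¬ r ∣ M₂.index → ∃ g : G, M₂ = M₁.map (MulAut.conj g).toMonoidHom) := by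
  classical
  have hindex : ∀ M : Subgroup G, (R : Subgroup G) ≤ M → ¬ r ∣ M.index := by
    intro M hM h
    exact R.not_dvd_index (h.trans (Subgroup.index_dvd_of_le hM))
  constructor
  · rintro ⟨M₀, ⟨hM₀, hRM₀⟩, huniq⟩
    have key : ∀ M : Subgroup G, IsCoatom M → ¬ r ∣ M.index →
        ∃ g : G, M.map (MulAut.conj g).toMonoidHom = M₀ := by
      intro M hM hr
      obtain ⟨g, hg⟩ := aux_exists_conj R M hr
      exact ⟨g, huniq _ ⟨aux_coatom_conj M hM g, hg⟩⟩
    refine ⟨⟨M₀, hM₀, hindex M₀ hRM₀⟩, ?_⟩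
    intro M₁ M₂ h₁ h₁' h₂ h₂'
    obtain ⟨g₁, hg₁⟩ := key M₁ h₁ h₁'
    obtain ⟨g₂, hg₂⟩ := key M₂ h₂ h₂'
    refine ⟨g₂⁻¹ * g₁, ?_⟩
    ext x
    rw [aux_mem_map_conj]
    have h1 : x ∈ M₂ ↔ g₂ * x * g₂⁻¹ ∈ M₀ := by
      rw [← hg₂, aux_mem_map_conj]
      simp [mul_assoc]
    have h2 : (g₂⁻¹ * g₁)⁻¹ * x * (g₂⁻¹ * g₁) ∈ M₁ ↔ g₂ * x * g₂⁻¹ ∈ M₀ := by
      rw [← hg₁, aux_mem_map_conj]
      have : g₁⁻¹ * (g₂ * x * g₂⁻¹) * g₁ = (g₂⁻¹ * g₁)⁻¹ * x * (g₂⁻¹ * g₁) := by group
      rw [this]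
    rw [h1, h2]
  · rintro ⟨-, hconj⟩
    set I := (R : Subgroup G) ⊓ T with hI
    set N := Subgroup.normalizer (I : Set G) with hN
    have hNR : Subgroup.normalizer ((R : Subgroup G) : Set G) ≤ N := by
      intro x hx
      rw [hN, Subgroup.mem_set_normalizer_iff]
      intro z
      have hxR := Subgroup.mem_set_normalizer_iff.1 hx z
      constructor
      · intro h
        exact ⟨hxR.1 h.1, ‹T.Normal›.conj_mem z h.2 x⟩
      · intro h
        refine ⟨hxR.2 h.1, ?_⟩
        have := ‹T.Normal›.conj_mem _ h.2 x⁻¹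
        simpa [mul_assoc] using this
    have hRN : (R : Subgroup G) ≤ N := (Subgroup.le_normalizer).trans hNR
    have hNtop : N ≠ ⊤ := by
      intro htop
      have hn : I.Normal := by
        refine ⟨fun z hz g => ?_⟩
        have : g ∈ N := htop ▸ Subgroup.mem_top g
        exact (Subgroup.mem_set_normalizer_iff.1 this z).1 hz
      have hn' : (I.subgroupOf T).Normal := hn.subgroupOf T
      rcases hT.eq_bot_or_eq_top_of_normal _ hn' with h | h
      · apply hR0
        rw [Subgroup.eq_bot_iff_forall]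
        intro x hx
        have : (⟨x, hx.2⟩ : T) ∈ I.subgroupOf T := Subgroup.mem_subgroupOf.2 hx
        rw [h] at this
        exact congrArg Subtype.val (Subgroup.mem_bot.1 this)
      · have hTR : T ≤ R := by
          intro x hx
          have : (⟨x, hx⟩ : T) ∈ I.subgroupOf T := h ▸ Subgroup.mem_top _
          exact (Subgroup.mem_subgroupOf.1 this).1
        have hTp : IsPGroup r T := R.2.to_le hTR
        have : Nontrivial T := hT.toNontrivial
        have hc := hTp.center_nontrivial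
        rcases hT.eq_bot_or_eq_top_of_normal _ (inferInstance : (Subgroup.center T).Normal) with h' | h'
        · rw [h'] at hc
          exact not_nontrivial _ hc
        · apply hna
          exact ⟨⟨fun a b => (Subgroup.mem_center_iff.1 (h' ▸ Subgroup.mem_top a) b).symm⟩⟩
    obtain ⟨M₁, hM₁, hNM₁⟩ := (eq_top_or_exists_le_coatom N).resolve_left hNtop
    have hRM₁ : (R : Subgroup G) ≤ M₁ := hRN.trans hNM₁
    refine ⟨M₁, ⟨hM₁, hRM₁⟩, ?_⟩
    rintro M' ⟨hM', hRM'⟩
    obtain ⟨g, rfl⟩ := hconj M₁ M' hM₁ (hindex M₁ hRM₁) hM' (hindex M' hRM')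
    have hle : ((g⁻¹ • R : Sylow r G) : Subgroup G) ≤ M₁ := by
      intro x hx
      rw [Cfsg.Agent.Lib.Basic.StrongP.mem_smul_sylow] at hx
      have h1 := hRM' hx
      rw [aux_mem_map_conj] at h1
      simpa [mul_assoc] using h1
    obtain ⟨u, hu, hu'⟩ := Cfsg.Agent.Lib.Basic.SylowConj.exists_mem_smul_eq M₁ (g⁻¹ • R) R hle hRM₁
    have hug : u * g⁻¹ ∈ Subgroup.normalizer ((R : Subgroup G) : Set G) := by
      have : (u * g⁻¹) • R = R := by rw [mul_smul, hu']
      exact Sylow.smul_eq_iff_mem_normalizer.1 this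
    have hgM : g⁻¹ ∈ M₁ := by
      have h1 : u * g⁻¹ ∈ M₁ := hNM₁ (hNR hug)
      have h2 : u⁻¹ * (u * g⁻¹) ∈ M₁ := mul_mem (inv_mem hu) h1
      simpa using h2
    ext x
    rw [aux_mem_map_conj]
    constructor
    · intro h
      have := mul_mem (mul_mem (inv_mem hgM) h) hgM
      simpa [mul_assoc] using this
    · intro h
      exact mul_mem (mul_mem hgM h) (by simpa using inv_mem hgM)

end Cfsg.Agent.S3858
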