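import Cfsg.Statements.S3859
import Mathlib
import Cfsg.Agent.Lib.Basic.SylowUtil
-- import your own Cfsg.Agent.* helpers here

set_option autoImplicit false
open Cfsg

namespace Cfsg.Agent.S3859

/-- Let G be a finite group with a normal non-abelian simple subgroup T whose centralizer is trivial (G almost simple with socle T), r a prime and R a Sylow r-subgroup of G meeting T nontrivially. If R lies in exactly one maximal subgroup of G, then G/T is an r-group. -/
theorem result {G : Type*} [Group G] [Finite G] (T : Subgroup G) [T.Normal] (hT : IsSimpleGroup T) (hna : ¬ IsMulCommutative T)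
    (hC : Subgroup.centralizer (T : Set G) = ⊥) {r : ℕ} [Fact r.Prime] (R : Sylow r G) (hR0 : (R : Subgroup G) ⊓ T ≠ ⊥)
    (huniq : ∃! M : Subgroup G, IsCoatom M ∧ (R : Subgroup G) ≤ M) : IsPGroup r (G ⧸ T) := by
  classical
  obtain ⟨Q, hQ⟩ := Cfsg.Agent.Lib.Basic.SylowUtil.exists_sylow_inf_normal R T
  have hsup : Subgroup.normalizer (((Q : Subgroup T).map T.subtype : Subgroup G) : Set G) ⊔ T = ⊤ :=
    Sylow.normalizer_sup_eq_top Q
  rw [hQ] at hsup
  set N := Subgroup.normalizer ((((R : Subgroup G) ⊓ T : Subgroup G)) : Set G) with hN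
  -- R normalizes R ⊓ T
  have hRN : (R : Subgroup G) ≤ N := by
    intro x hx
    rw [hN]
    apply Subgroup.mem_normalizer_fintype
    intro y hy
    refine ⟨?_, ?_⟩
    · exact Subgroup.mul_mem _ (Subgroup.mul_mem _ hx hy.1) (Subgroup.inv_mem _ hx)
    · exact ‹T.Normal›.conj_mem y hy.2 x
  obtain ⟨M, ⟨hM, hRM⟩, huM⟩ := huniq
  have hNtop : N ≠ ⊤ := by
    intro htop
    -- R ⊓ T is normal in G, hence equal to T
    have hnorm : ((R : Subgroup G) ⊓ T).Normal := Subgroup.normalizer_eq_top_iff.mp htop
    have hnT : ((R : Subgroup G) ⊓ T).subgroupOf T = ⊤ ∨ ((R : Subgroup G) ⊓ T).subgroupOf T = ⊥ := by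
      have : (((R : Subgroup G) ⊓ T).subgroupOf T).Normal := hnorm.subgroupOf T
      exact (hT.eq_bot_or_eq_top_of_normal _ this).symm
    rcases hnT with h1 | h1
    · -- T is an r-group
      have hTR : T ≤ R := by
        intro t ht
        have : (⟨t, ht⟩ : T) ∈ ((R : Subgroup G) ⊓ T).subgroupOf T := by rw [h1]; trivial
        exact this.1
      have hpT : IsPGroup r T := R.2.to_le hTR
      haveI : Nontrivial T := hT.toNontrivial
      haveI := hpT.center_nontrivial
      have hc : Subgroup.center T = ⊤ := by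
        rcases (hT.eq_bot_or_eq_top_of_normal (Subgroup.center T) inferInstance) with h | h
        · rw [h] at this
          exact absurd this (not_nontrivial_iff_subsingleton.mpr (by infer_instance))
        · exact h
      apply hna
      constructor
      constructor
      intro a b
      have := Subgroup.mem_center_iff.mp (hc ▸ Subgroup.mem_top a : a ∈ Subgroup.center T) b
      exact this.symm
    · apply hR0
      rw [eq_bot_iff]
      intro y hy
      have hyT : y ∈ T := hy.2
      have : (⟨y, hyT⟩ : T) ∈ ((R : Subgroup G) ⊓ T).subgroupOf T := hy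
      rw [h1, Subgroup.mem_bot] at this
      exact congrArg Subtype.val this
  obtain ⟨M', hM', hNM'⟩ := (eq_top_or_exists_le_coatom N).resolve_left hNtop
  have hM'eq : M' = M := huM M' ⟨hM', hRN.trans hNM'⟩
  rw [hM'eq] at hNM'
  have hTnot : ¬ T ≤ M := by
    intro hTM
    apply hM.1
    rw [eq_top_iff, ← hsup]
    exact sup_le hNM' hTM
  have hTR : T ⊔ (R : Subgroup G) = ⊤ := by
    by_contra hne
    obtain ⟨M'', hM'', hle⟩ := (eq_top_or_exists_le_coatom _).resolve_left hne
    have : M'' = M := huM M'' ⟨hM'', le_sup_right.trans hle⟩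
    exact hTnot (this ▸ (le_sup_left.trans hle))
  -- surjection from R
  have hsurj : Function.Surjective ((QuotientGroup.mk' T).comp (R : Subgroup G).subtype) := by
    intro q
    obtain ⟨g, rfl⟩ := QuotientGroup.mk'_surjective T q
    have hg : g ∈ ((T ⊔ (R : Subgroup G) : Subgroup G) : Set G) := by rw [hTR]; trivial
    rw [Subgroup.normal_mul] at hg
    obtain ⟨t, ht, x, hx, rfl⟩ := Set.mem_mul.mp hg
    refine ⟨⟨x, hx⟩, ?_⟩
    simp only [MonoidHom.comp_apply, Subgroup.coe_subtype, QuotientGroup.mk'_apply]
    rw [QuotientGroup.eq]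
    have := ‹T.Normal›.conj_mem t ht x⁻¹
    simpa [mul_assoc] using this
  exact R.2.of_surjective _ hsurj

end Cfsg.Agent.S3859
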