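import Cfsg.Statements.S3862
import Mathlib
import Cfsg.Agent.Lib.PGroup.Basic
import Cfsg.Agent.Lib.Transfer.Frobenius
import Cfsg.Agent.Lib.PGroup.Replacement
-- import your own Cfsg.Agent.* helpers here

set_option autoImplicit false
open Cfsg

namespace Cfsg.Agent.S3862

open Subgroup
open scoped commutatorElement

theorem eq_one_of_pow_odd {Q : Type*} [Group Q] (hQ : IsPGroup 2 Q) {c : Q} {n : ℕ} (hn : Odd n)
    (h : c ^ n = 1) : c = 1 := by
  obtain ⟨m, hm⟩ := hQ c
  have h1 := orderOf_dvd_of_pow_eq_one h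
  have h2 := orderOf_dvd_of_pow_eq_one hm
  have h3 : Nat.Coprime n (2 ^ m) := Nat.Coprime.pow_right m (Nat.coprime_two_right.mpr hn)
  have h4 := Nat.dvd_gcd h1 h2
  rw [h3, Nat.dvd_one, orderOf_eq_one_iff] at h4
  exact h4

theorem pow_apply_succ {Q : Type*} [Group Q] (σ : MulAut Q) (k : ℕ) (b : Q) :
    (σ ^ (k + 1)) b = σ ((σ ^ k) b) := by
  rw [pow_succ']
  rfl

/-- The core lemma: a minimal nontrivial action of odd order on a `2`-group produces a real element
moved by the action. -/
theorem key {Q : Type*} [Group Q] [Finite Q] (hQ : IsPGroup 2 Q) (σ : MulAut Q) (n : ℕ)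
    (hn : Odd n) (hσ : σ ^ n = 1)
    (hmin : ∀ R : Subgroup Q, R ≠ ⊤ → (∀ r ∈ R, σ r ∈ R) → ∀ r ∈ R, σ r = r)
    (hne : σ ≠ 1) : ∃ a u : Q, σ a ≠ a ∧ u * a * u⁻¹ = a⁻¹ := by
  classical
  haveI : Fact (Nat.Prime 2) := ⟨Nat.prime_two⟩
  obtain ⟨a, ha⟩ : ∃ a, σ a ≠ a := by
    by_contra hcon
    push Not at hcon
    exact hne (MulEquiv.ext hcon)
  have hQnt : Nontrivial Q := by
    refine ⟨⟨σ a, a, ha⟩⟩
  -- Frattini
  have hWne : frattini Q ≠ ⊤ := by
    obtain ⟨M, hM⟩ := (IsCoatomic.eq_top_or_exists_le_coatom (⊥ : Subgroup Q)).resolve_left bot_ne_top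
    intro h
    apply hM.1.1
    rw [eq_top_iff, ← h]
    exact frattini_le_coatom hM.1
  have hWinv : ∀ r ∈ frattini Q, σ r ∈ frattini Q := by
    intro r hr
    have := (inferInstance : (frattini Q).Characteristic).fixed σ.symm
    have h2 : σ.symm (σ r) = r := σ.symm_apply_apply r
    rw [← this]
    show σ.symm (σ r) ∈ frattini Q
    rw [h2]
    exact hr
  have hW := hmin (frattini Q) hWne hWinv
  have hsq : ∀ b : Q, σ (b ^ 2) = b ^ 2 := fun b =>
    hW _ (Cfsg.Agent.Lib.PGroup.Basic.pow_mem_frattini hQ b)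
  have hcm : ∀ x y : Q, σ ⁅x, y⁆ = ⁅x, y⁆ := fun x y =>
    hW _ (Cfsg.Agent.Lib.PGroup.Basic.commutatorElement_mem_frattini hQ x y)
  -- `Q = [Q, σ]`
  let A : Subgroup Q := closure (Set.range fun b : Q => b⁻¹ * σ b)
  have hbz : ∀ b, b⁻¹ * σ b ∈ A := fun b => subset_closure ⟨b, rfl⟩
  have hA : A = ⊤ := by
    by_contra hne'
    have hAinv : ∀ r ∈ A, σ r ∈ A := by
      have hle : A ≤ A.comap σ.toMonoidHom := by
        rw [closure_le]
        rintro _ ⟨b, rfl⟩
        show σ (b⁻¹ * σ b) ∈ A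
        have : σ (b⁻¹ * σ b) = (σ b)⁻¹ * σ (σ b) := by simp
        rw [this]
        exact hbz (σ b)
      exact fun r hr => hle hr
    have hfix := hmin A hne' hAinv
    apply hne
    apply MulEquiv.ext
    intro b
    set c := b⁻¹ * σ b with hc
    have hcf : σ c = c := hfix c (hbz b)
    have hb : σ b = b * c := by rw [hc]; group
    have hpow : ∀ k : ℕ, (σ ^ k) b = b * c ^ k := by
      intro k
      induction k with
      | zero => simp
      | succ k ih =>
        rw [pow_apply_succ, ih, map_mul, map_pow, hcf, hb, mul_assoc, pow_succ']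
    have h1 := hpow n
    rw [hσ] at h1
    have h2 : c ^ n = 1 := by
      have : b = b * c ^ n := h1
      exact mul_left_cancel (this.symm.trans (mul_one b).symm)
    have h3 := eq_one_of_pow_odd hQ hn h2
    rw [h3, mul_one] at hb
    exact hb
  -- fixed elements are central
  have hcentral : ∀ z, σ z = z → ∀ b, b * z = z * b := by
    intro z hz b
    have hle : A ≤ centralizer ({z} : Set Q) := by
      rw [closure_le]
      rintro _ ⟨b, rfl⟩
      simp only [SetLike.mem_coe]
      rw [Subgroup.mem_centralizer_iff]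
      intro y hy
      have hy' : y = z := hy
      rw [hy']
      have h1 := hcm b z
      rw [commutatorElement_def, map_mul, map_mul, map_mul, map_inv, map_inv, hz] at h1
      have h2 : σ b * z * (σ b)⁻¹ = b * z * b⁻¹ := mul_right_cancel h1
      have h3 : b⁻¹ * (σ b * z * (σ b)⁻¹) * b = z := by rw [h2]; group
      calc z * (b⁻¹ * σ b) = (b⁻¹ * (σ b * z * (σ b)⁻¹) * b) * (b⁻¹ * σ b) := by rw [h3]
        _ = b⁻¹ * σ b * z := by group
    rw [hA] at hle
    exact (Subgroup.mem_centralizer_iff.mp (hle (mem_top b)) z rfl).symm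
  -- commutators square to `1`
  have hcs : ∀ x y : Q, σ ⁅x, y⁆ = ⁅x, y⁆ ∧ ⁅x, y⁆ ^ 2 = 1 := by
    intro x y
    refine ⟨hcm x y, ?_⟩
    set c := ⁅x, y⁆ with hc
    have hcc := hcentral c (hcm x y)
    have h1 : x * y * x⁻¹ = c * y := by
      rw [hc, commutatorElement_def]
      group
    have h2 : x ^ 2 * y * (x ^ 2)⁻¹ = c ^ 2 * y := by
      calc x ^ 2 * y * (x ^ 2)⁻¹ = x * (x * y * x⁻¹) * x⁻¹ := by simp only [pow_two]; group
        _ = x * (c * y) * x⁻¹ := by rw [h1]
        _ = (x * c) * y * x⁻¹ := by group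
        _ = (c * x) * y * x⁻¹ := by rw [hcc x]
        _ = c * (x * y * x⁻¹) := by group
        _ = c * (c * y) := by rw [h1]
        _ = c ^ 2 * y := by rw [pow_two, mul_assoc]
    have h3 : x ^ 2 * y * (x ^ 2)⁻¹ = y := by
      rw [← hcentral _ (hsq x) y]
      group
    rw [h3] at h2
    have h4 : c ^ 2 * y = 1 * y := by rw [← h2, one_mul]
    exact mul_right_cancel h4
  -- the commutator subgroup has exponent two
  let E : Subgroup Q :=
    { carrier := {y | σ y = y ∧ y ^ 2 = 1}
      mul_mem' := by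
        rintro x y ⟨hx1, hx2⟩ ⟨hy1, hy2⟩
        refine ⟨by rw [map_mul, hx1, hy1], ?_⟩
        have : Commute x y := hcentral y hy1 x
        rw [this.mul_pow, hx2, hy2, one_mul]
      one_mem' := ⟨map_one _, one_pow _⟩
      inv_mem' := by
        rintro x ⟨hx1, hx2⟩
        exact ⟨by rw [map_inv, hx1], by rw [inv_pow, hx2, inv_one]⟩ }
  have hcomE : commutator Q ≤ E := by
    rw [_root_.commutator_def, Subgroup.commutator_le]
    intro x _ y _
    exact hcs x y
  -- norm hom
  let F : ℕ → Q → Abelianization Q := fun i b => Abelianization.of ((σ ^ i) b)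
  let f : Q →* Abelianization Q := MonoidHom.mk' (fun b => ∏ i ∈ Finset.range n, F i b) (by
    intro x y
    rw [← Finset.prod_mul_distrib]
    refine Finset.prod_congr rfl fun i _ => ?_
    simp only [F, map_mul])
  have hfσ : ∀ b, f (σ b) = f b := by
    intro b
    show ∏ i ∈ Finset.range n, F i (σ b) = ∏ i ∈ Finset.range n, F i b
    have h1 : ∀ i, F i (σ b) = F (i + 1) b := by
      intro i
      simp only [F]
      rw [pow_succ]
      rfl
    simp_rw [h1]
    have h2 := Finset.prod_range_succ' (fun i => F i b) n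
    have h3 := Finset.prod_range_succ (fun i => F i b) n
    have h4 : F n b = F 0 b := by
      simp only [F]
      rw [hσ, pow_zero]
    rw [h3, h4] at h2
    exact (mul_right_cancel h2).symm
  have hfA : ∀ b, f b = 1 := by
    have hle : A ≤ f.ker := by
      rw [closure_le]
      rintro _ ⟨b, rfl⟩
      show f (b⁻¹ * σ b) = 1
      rw [map_mul, map_inv, hfσ, inv_mul_cancel]
    rw [hA] at hle
    exact fun b => hle (mem_top b)
  have hexp : ∀ z, σ z = z → z ^ 2 = 1 := by
    intro z hz
    have h1 : f z = Abelianization.of z ^ n := by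
      show ∏ i ∈ Finset.range n, F i z = _
      have : ∀ i, F i z = Abelianization.of z := by
        intro i
        simp only [F]
        congr 1
        induction i with
        | zero => simp
        | succ i ih => rw [pow_apply_succ, ih, hz]
      simp_rw [this]
      simp
    have h2 := hfA z
    rw [h1, ← map_pow] at h2
    have h3 : z ^ n ∈ commutator Q := by
      have : z ^ n ∈ (Abelianization.of (G := Q)).ker := h2
      rwa [Abelianization.ker_of] at this
    have h4 := (hcomE h3).2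
    have h5 : (z ^ 2) ^ n = 1 := by
      rw [← pow_mul, mul_comm, pow_mul]
      exact h4
    exact eq_one_of_pow_odd hQ hn h5
  -- fixed subgroup
  let Z : Subgroup Q :=
    { carrier := {y | σ y = y}
      mul_mem' := by
        rintro x y hx hy
        show σ (x * y) = x * y
        rw [map_mul, hx, hy]
      one_mem' := map_one _
      inv_mem' := by
        rintro x hx
        show σ x⁻¹ = x⁻¹
        rw [map_inv, hx] }
  have hZn : Z.Normal := ⟨fun z hz g => by
    have : g * z * g⁻¹ = z := by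
      rw [hcentral z hz g]
      group
    rw [this]
    exact hz⟩
  have hcomm : ∀ x y : Q, (x : Q ⧸ Z) * (y : Q ⧸ Z) = (y : Q ⧸ Z) * (x : Q ⧸ Z) := by
    intro x y
    rw [← QuotientGroup.mk_mul, ← QuotientGroup.mk_mul, QuotientGroup.eq]
    have h1 : (x * y)⁻¹ * (y * x) = ⁅y⁻¹, x⁻¹⁆ := by
      rw [commutatorElement_def]
      group
    rw [h1]
    exact hcm _ _
  let φ : Q →* Q ⧸ Z := MonoidHom.mk' (fun u => (u : Q ⧸ Z) * (σ u : Q ⧸ Z)) (by
    intro x y
    simp only [map_mul, QuotientGroup.mk_mul]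
    rw [mul_assoc (x : Q ⧸ Z), ← mul_assoc (y : Q ⧸ Z), hcomm y (σ x), mul_assoc, mul_assoc])
  have hkerle : φ.ker ≤ Z := by
    intro u hu
    have h1 : (u : Q ⧸ Z) * (σ u : Q ⧸ Z) = 1 := hu
    rw [← QuotientGroup.mk_mul, QuotientGroup.eq_one_iff] at h1
    set z := u * σ u with hz
    have hzf : σ z = z := h1
    have hu1 : σ u = u⁻¹ * z := by rw [hz]; group
    have hu2 : σ (σ u) = u := by
      rw [hu1, map_mul, map_inv, hu1, hzf]
      have : (u⁻¹ * z)⁻¹ * z = z⁻¹ * (u * z) := by group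
      rw [this, hcentral z hzf u]
      group
    -- now `σ` has odd order
    obtain ⟨m, hm⟩ := hn
    have hp : ∀ k : ℕ, (σ ^ (2 * k)) u = u := by
      intro k
      induction k with
      | zero => simp
      | succ k ih =>
        rw [show 2 * (k + 1) = 2 * k + 1 + 1 by ring, pow_apply_succ, pow_apply_succ, ih, hu2]
    have h2 : (σ ^ n) u = u := by rw [hσ]; rfl
    rw [hm, pow_apply_succ, hp] at h2
    exact h2
  have hkerge : Z ≤ φ.ker := by
    intro u hu
    show (u : Q ⧸ Z) * (σ u : Q ⧸ Z) = 1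
    have hu' : σ u = u := hu
    rw [hu', ← QuotientGroup.mk_mul, QuotientGroup.eq_one_iff]
    show σ (u * u) = u * u
    rw [map_mul, hu']
  have hker : φ.ker = Z := le_antisymm hkerle hkerge
  have hsurj : Function.Surjective φ := by
    rw [← MonoidHom.range_eq_top]
    apply Subgroup.eq_top_of_card_eq
    rw [← Subgroup.index_ker, hker]
    rfl
  obtain ⟨u, hu⟩ := hsurj (a : Q ⧸ Z)
  have hu' : ((u * σ u : Q) : Q ⧸ Z) = (a : Q ⧸ Z) := by
    rw [QuotientGroup.mk_mul]
    exact hu
  rw [QuotientGroup.eq] at hu'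
  set z := (u * σ u)⁻¹ * a with hz
  have hzf : σ z = z := hu'
  have haz : a = u * σ u * z := by rw [hz]; group
  refine ⟨a, u, ha, ?_⟩
  have hcz := hcentral z hzf
  have h5 : u * a * u⁻¹ * a = 1 := by
    have h6 : u * a * u⁻¹ * a = u ^ 2 * (σ u) ^ 2 * z ^ 2 := by
      rw [haz]
      calc u * (u * σ u * z) * u⁻¹ * (u * σ u * z)
          = u * u * σ u * z * σ u * z := by group
        _ = u * u * σ u * (z * σ u) * z := by group
        _ = u * u * σ u * (σ u * z) * z := by rw [hcz (σ u)]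
        _ = _ := by simp only [pow_two]; group
    rw [h6, hexp z hzf, mul_one, ← map_pow, hsq u]
    have := hexp _ (hsq u)
    rwa [pow_two] at this
  exact eq_inv_of_mul_eq_one_left h5

/-- Elements of odd order normalizing a `2`-subgroup centralize it. -/
theorem centralizes {G : Type*} [Group G] [Finite G]
    (h : ∀ x : G, (∃ j : ℕ, orderOf x = 2 ^ j) → IsConj x x⁻¹ → x ∈ Subgroup.center G) :
    ∀ (N : ℕ) (Q : Subgroup G), Nat.card Q = N → IsPGroup 2 Q → ∀ g ∈ normalizer (Q : Set G),
      Nat.Coprime (orderOf g) 2 → g ∈ centralizer (Q : Set G) := by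
  intro N
  induction N using Nat.strong_induction_on with
  | _ N ih =>
  intro Q hN hQ g hg hcop
  haveI : Fact (Nat.Prime 2) := ⟨Nat.prime_two⟩
  have hgQ : ∀ q : Q, g * q * g⁻¹ ∈ Q := fun q => (mem_normalizer_iff.mp hg q).mp q.2
  have hgQ' : ∀ q : Q, g⁻¹ * q * g ∈ Q := fun q => by
    apply (mem_normalizer_iff.mp hg (g⁻¹ * q * g)).mpr
    have e : g * (g⁻¹ * (q : G) * g) * g⁻¹ = q := by group
    rw [e]
    exact q.2
  let σ : MulAut Q :=
    { toFun := fun q => ⟨g * q * g⁻¹, hgQ q⟩
      invFun := fun q => ⟨g⁻¹ * q * g, hgQ' q⟩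
      left_inv := fun q => Subtype.ext (by simp [mul_assoc])
      right_inv := fun q => Subtype.ext (by simp [mul_assoc])
      map_mul' := fun x y => Subtype.ext (by simp [mul_assoc]) }
  have hσa : ∀ q : Q, ((σ q : Q) : G) = g * q * g⁻¹ := fun _ => rfl
  have hpow : ∀ (k : ℕ) (q : Q), (((σ ^ k) q : Q) : G) = g ^ k * q * (g ^ k)⁻¹ := by
    intro k q
    induction k with
    | zero => simp
    | succ k ih' =>
      rw [pow_apply_succ, hσa, ih', pow_succ']
      group
  have hσn : σ ^ orderOf g = 1 := by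
    apply MulEquiv.ext
    intro q
    apply Subtype.ext
    rw [hpow, pow_orderOf_eq_one]
    simp
  by_contra hcon
  have hne : σ ≠ 1 := by
    intro h1
    apply hcon
    rw [Subgroup.mem_centralizer_iff]
    intro q hq
    have h2 : σ ⟨q, hq⟩ = ⟨q, hq⟩ := by rw [h1]; rfl
    have h3 : g * q * g⁻¹ = q := congrArg Subtype.val h2
    calc q * g = (g * q * g⁻¹) * g := by rw [h3]
      _ = g * q := by group
  obtain ⟨a, u, ha, hu⟩ := key hQ σ (orderOf g) (Nat.coprime_two_right.mp hcop) hσn (by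
    intro R hR hinv r hr
    let Q₁ : Subgroup G := R.map Q.subtype
    have hcard : Nat.card Q₁ = Nat.card R :=
      Nat.card_congr (R.equivMapOfInjective _ Q.subtype_injective).toEquiv.symm
    have hlt : Nat.card Q₁ < N := by
      rw [hcard, ← hN, ← R.card_mul_index]
      have h1 := Subgroup.one_lt_index_of_ne_top hR
      exact lt_mul_of_one_lt_right Nat.card_pos h1
    have hQ₁ : IsPGroup 2 Q₁ := hQ.to_le (by
      rintro _ ⟨q, -, rfl⟩
      exact q.2)
    have hgQ₁ : g ∈ normalizer (Q₁ : Set G) := by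
      apply Cfsg.Agent.Lib.PGroup.Replacement.mem_normalizer_of_conj_mem
      rintro _ ⟨q, hq, rfl⟩
      exact ⟨σ q, hinv q hq, rfl⟩
    have hcen := ih _ hlt Q₁ rfl hQ₁ g hgQ₁ hcop
    apply Subtype.ext
    rw [hσa]
    have h2 := Subgroup.mem_centralizer_iff.mp hcen r ⟨r, hr, rfl⟩
    rw [← h2]
    group) hne
  apply ha
  have hpg : ∃ j : ℕ, orderOf (a : G) = 2 ^ j := by
    rw [Subgroup.orderOf_coe]
    obtain ⟨k, hk⟩ := hQ a
    obtain ⟨j, -, hj⟩ := (Nat.dvd_prime_pow Nat.prime_two).1 (orderOf_dvd_of_pow_eq_one hk)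
    exact ⟨j, hj⟩
  have hconj : IsConj (a : G) (a : G)⁻¹ := by
    rw [isConj_iff]
    exact ⟨u, congrArg Subtype.val hu⟩
  have hcen := h (a : G) hpg hconj
  apply Subtype.ext
  rw [hσa]
  have := Subgroup.mem_center_iff.mp hcen g
  rw [this]
  group

/-- If every 2-element of the finite group G that is conjugate to its inverse lies in the centre of G, then G has a normal 2-complement. -/
theorem result {G : Type*} [Group G] [Finite G] (h : ∀ x : G, (∃ j : ℕ, orderOf x = 2 ^ j) → IsConj x x⁻¹ → x ∈ Subgroup.center G) : Cfsg.HasNormalPComplement 2 G := by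
  
  apply Cfsg.Agent.Lib.Transfer.Frobenius.hasNormalPComplement_of_hyp
  intro Q hQ g hg hc
  exact centralizes h _ Q rfl hQ g hg hc

end Cfsg.Agent.S3862
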