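import Cfsg.Statements.S3863
import Mathlib
import Cfsg.Agent.Lib.Basic.ConjCount
-- import your own Cfsg.Agent.* helpers here

set_option autoImplicit false
open Cfsg

namespace Cfsg.Agent.S3863

/-- Let x be an element of the finite group G that is conjugate to its inverse. Then some 2-element conjugates x to its inverse; if the conjugacy class of x has odd size then x ^ 2 = 1; and x lies in, and is conjugate to its inverse inside, every normal subgroup of odd index. -/
theorem result {G : Type*} [Group G] [Finite G] (x : G) (hx : IsConj x x⁻¹) : (∃ t : G, (∃ j : ℕ, orderOf t = 2 ^ j) ∧ t * x * t⁻¹ = x⁻¹) ∧ (Odd (Subgroup.centralizer ({x} : Set G)).index → x ^ 2 = 1) ∧ ∀ (N : Subgroup G) [N.Normal], Odd N.index → ∃ hxN : x ∈ N, IsConj (⟨x, hxN⟩ : N) (⟨x, hxN⟩ : N)⁻¹ := by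
  classical
  obtain ⟨g, hg⟩ := isConj_iff.mp hx
  -- Step 1: a 2-element inverting x
  have hpos : 0 < orderOf g := orderOf_pos g
  obtain ⟨a, m, hm, hnm⟩ := Nat.exists_eq_two_pow_mul_odd hpos.ne'
  have hev : ∀ k : ℕ, g ^ k * x * (g ^ k)⁻¹ = if Even k then x else x⁻¹ := by
    intro k
    induction k with
    | zero => simp
    | succ k ih =>
      have e1 : g ^ (k + 1) * x * (g ^ (k + 1))⁻¹ = g * (g ^ k * x * (g ^ k)⁻¹) * g⁻¹ := by
        rw [pow_succ']
        group
      rw [e1, ih]
      have hg' : g * x⁻¹ * g⁻¹ = x := by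
        have := congrArg (·⁻¹) hg
        simpa [mul_assoc] using this
      by_cases hk : Even k
      · have hk' : ¬ Even (k + 1) := by
          rw [Nat.even_add_one]; simpa using hk
        simp [hk, hk', hg]
      · have hk' : Even (k + 1) := by
          rw [Nat.even_add_one]; exact hk
        simp [hk, hk', hg']
  have hinv : g ^ m * x * (g ^ m)⁻¹ = x⁻¹ := by
    rw [hev m, if_neg (Nat.not_even_iff_odd.mpr hm)]
  set t := g ^ m with ht
  have ht2 : t ^ (2 ^ a) = 1 := by
    rw [ht, ← pow_mul, mul_comm, ← hnm, pow_orderOf_eq_one]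
  have htord : ∃ j : ℕ, orderOf t = 2 ^ j := by
    have : orderOf t ∣ 2 ^ a := orderOf_dvd_of_pow_eq_one ht2
    obtain ⟨j, -, hj⟩ := (Nat.dvd_prime_pow Nat.prime_two).mp this
    exact ⟨j, hj⟩
  refine ⟨⟨t, htord, hinv⟩, ?_, ?_⟩
  · -- Step 2: parity of the class
    intro hodd
    by_contra hne
    have hxx : x ≠ x⁻¹ := by
      intro h
      apply hne
      rw [pow_two]
      nth_rewrite 1 [h]
      simp
    -- class size
    have hcard := Cfsg.Agent.Lib.Basic.ConjCount.card_isConj_mul_card_centralizer x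
    have hidx := Subgroup.card_mul_index (Subgroup.centralizer ({x} : Set G))
    have hpos2 : 0 < Nat.card (Subgroup.centralizer ({x} : Set G)) := Nat.card_pos
    have heq : Nat.card {y : G // IsConj x y} = (Subgroup.centralizer ({x} : Set G)).index := by
      apply Nat.eq_of_mul_eq_mul_right hpos2
      rw [hcard, mul_comm, hidx]
    rw [← heq] at hodd
    -- inversion acts freely on the class
    haveI := Fintype.ofFinite G
    let X := {y : G // IsConj x y}
    let inv : X → X := fun y => ⟨y.1⁻¹, by
      refine y.2.trans ?_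
      have h1 : IsConj x y.1 := y.2
      obtain ⟨c, hc⟩ := isConj_iff.mp h1
      refine isConj_iff.mpr ⟨c * t * c⁻¹, ?_⟩
      rw [← hc]
      calc c * t * c⁻¹ * (c * x * c⁻¹) * (c * t * c⁻¹)⁻¹ = c * (t * x * t⁻¹) * c⁻¹ := by group
        _ = (c * x * c⁻¹)⁻¹ := by rw [hinv]; group⟩
    have hinvol : Function.Involutive inv := by
      intro y
      apply Subtype.ext
      simp [inv]
    have hfree : ∀ y : X, inv y ≠ y := by
      intro y hy
      have h1 : y.1⁻¹ = y.1 := congrArg Subtype.val hy
      obtain ⟨c, hc⟩ := isConj_iff.mp y.2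
      apply hxx
      rw [← hc] at h1
      have h2 : c * x⁻¹ * c⁻¹ = c * x * c⁻¹ := by
        rw [← h1]; group
      have h3 := mul_left_cancel (mul_right_cancel h2)
      exact h3.symm
    -- sum over X in ZMod 2
    have hev2 : Even (Fintype.card X) := by
      let e : Function.End X := inv
      have hf : e ^ 2 ^ 1 = 1 := by
        rw [pow_one, pow_two]
        funext y
        exact hinvol y
      have hmod := Equiv.Perm.card_fixedPoints_modEq (α := X) (f := e) (p := 2) (n := 1)
        (hp := ⟨Nat.prime_two⟩) hf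
      have hempty : IsEmpty (Function.fixedPoints e) := by
        constructor
        rintro ⟨y, hy⟩
        exact hfree y hy
      have h0 : Fintype.card (Function.fixedPoints e) = 0 := Fintype.card_eq_zero_iff.mpr hempty
      rw [h0] at hmod
      exact Nat.even_iff.mpr hmod
    rw [Nat.card_eq_fintype_card] at hodd
    exact (Nat.not_even_iff_odd.mpr hodd) hev2
  · -- Step 3: normal subgroups of odd index
    intro N _ hodd
    have hoddq : Odd (Nat.card (G ⧸ N)) := hodd
    -- elements whose power of two vanish mod N lie in N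
    have key : ∀ y : G, (∃ k : ℕ, y ^ (2 ^ k) ∈ N) → y ∈ N := by
      rintro y ⟨k, hk⟩
      have h1 : ((y : G ⧸ N)) ^ (2 ^ k) = 1 := by
        rw [← QuotientGroup.mk_pow, QuotientGroup.eq_one_iff]
        exact hk
      have h2 : orderOf (y : G ⧸ N) ∣ 2 ^ k := orderOf_dvd_of_pow_eq_one h1
      have h3 : orderOf (y : G ⧸ N) ∣ Nat.card (G ⧸ N) := orderOf_dvd_natCard _
      have hc : Nat.Coprime (orderOf (y : G ⧸ N)) (2 ^ k) := by
        apply Nat.Coprime.pow_right
        apply Nat.coprime_two_right.mpr
        obtain ⟨d, hd⟩ := h3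
        rw [hd] at hoddq
        exact (Nat.odd_mul.mp hoddq).1
      have h4 : orderOf (y : G ⧸ N) = 1 := Nat.eq_one_of_dvd_coprimes hc dvd_rfl h2
      rw [orderOf_eq_one_iff, QuotientGroup.eq_one_iff] at h4
      exact h4
    have htN : t ∈ N := key t ⟨a, by rw [ht2]; exact N.one_mem⟩
    -- x² ∈ N, since x⁻² = [t, x]
    have hx2 : x ^ 2 ∈ N := by
      have h1 : t * x * t⁻¹ * x⁻¹ ∈ N := by
        have h2 := N.mul_mem htN (‹N.Normal›.conj_mem t⁻¹ (N.inv_mem htN) x)
        convert h2 using 1
        group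
      rw [hinv] at h1
      have h3 := N.inv_mem h1
      convert h3 using 1
      group
    have hxN : x ∈ N := key x ⟨1, by rw [pow_one]; exact hx2⟩
    refine ⟨hxN, ?_⟩
    refine isConj_iff.mpr ⟨⟨t, htN⟩, ?_⟩
    apply Subtype.ext
    exact hinv

end Cfsg.Agent.S3863
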