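import Cfsg.Statements.S3866
import Mathlib
-- import your own Cfsg.Agent.* helpers here

set_option autoImplicit false
open Cfsg

namespace Cfsg.Agent.S3866

/-- Let A be a commutative normal subgroup of the finite group G with G generated by A and an element x. Then a ↦ x a x⁻¹ a⁻¹ is a surjective homomorphism from A onto the commutator subgroup of G whose kernel is the centralizer of x in A; in particular the commutator subgroup has order equal to the index in A of that centralizer. -/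
theorem result {G : Type*} [Group G] [Finite G] (A : Subgroup G) [A.Normal] (hA : IsMulCommutative A) (x : G) (hgen : A ⊔ Subgroup.zpowers x = ⊤) : (∀ a ∈ A, x * a * x⁻¹ * a⁻¹ ∈ commutator G) ∧ (∀ c ∈ commutator G, ∃ a ∈ A, x * a * x⁻¹ * a⁻¹ = c) ∧ (∀ a ∈ A, ∀ b ∈ A, x * (a * b) * x⁻¹ * (a * b)⁻¹ = (x * a * x⁻¹ * a⁻¹) * (x * b * x⁻¹ * b⁻¹)) ∧ Nat.card (commutator G) * Nat.card ↥(A ⊓ Subgroup.centralizer ({x} : Set G)) = Nat.card A := by
  classical
  have hcomm : ∀ a ∈ A, ∀ b ∈ A, a * b = b * a := by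
    intro a ha b hb
    have := mul_comm' (M := A) ⟨a, ha⟩ ⟨b, hb⟩
    exact congrArg Subtype.val this
  have hxa : ∀ a ∈ A, x * a * x⁻¹ ∈ A := fun a ha => ‹A.Normal›.conj_mem a ha x
  have hmul : ∀ a ∈ A, ∀ b ∈ A, x * (a * b) * x⁻¹ * (a * b)⁻¹ = (x * a * x⁻¹ * a⁻¹) * (x * b * x⁻¹ * b⁻¹) := by
    intro a ha b hb
    have h1 := hcomm a⁻¹ (A.inv_mem ha) (x * b * x⁻¹) (hxa b hb)
    calc x * (a * b) * x⁻¹ * (a * b)⁻¹ = (x * a * x⁻¹) * (x * b * x⁻¹) * (a⁻¹ * b⁻¹ ) * 1 := by
          have h2 := hcomm b⁻¹ (A.inv_mem hb) a⁻¹ (A.inv_mem ha)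
          rw [mul_inv_rev, h2]
          group
      _ = (x * a * x⁻¹) * ((x * b * x⁻¹) * a⁻¹) * b⁻¹ := by group
      _ = (x * a * x⁻¹) * (a⁻¹ * (x * b * x⁻¹)) * b⁻¹ := by rw [h1]
      _ = (x * a * x⁻¹ * a⁻¹) * (x * b * x⁻¹ * b⁻¹) := by group
  -- the homomorphism on A
  let φ : A →* A :=
    { toFun := fun a => ⟨x * a * x⁻¹ * a⁻¹, A.mul_mem (hxa a a.2) (A.inv_mem a.2)⟩
      map_one' := by ext; simp
      map_mul' := by
        intro a b
        apply Subtype.ext
        exact hmul a a.2 b b.2 }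
  have hφ : ∀ a : A, ((φ a : A) : G) = x * a * x⁻¹ * a⁻¹ := fun _ => rfl
  let I : Subgroup G := φ.range.map A.subtype
  have hImem : ∀ y, y ∈ I ↔ ∃ a ∈ A, x * a * x⁻¹ * a⁻¹ = y := by
    intro y
    constructor
    · rintro ⟨_, ⟨a, rfl⟩, rfl⟩
      exact ⟨a, a.2, rfl⟩
    · rintro ⟨a, ha, rfl⟩
      exact ⟨φ ⟨a, ha⟩, ⟨⟨a, ha⟩, rfl⟩, rfl⟩
  -- decomposition of elements of G
  have hdec : ∀ g : G, ∃ a ∈ A, ∃ k : ℤ, g = a * x ^ k := by
    intro g
    have hg : g ∈ ((A ⊔ Subgroup.zpowers x : Subgroup G) : Set G) := by rw [hgen]; trivial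
    rw [Subgroup.normal_mul] at hg
    obtain ⟨a, ha, z, ⟨k, hk⟩, rfl⟩ := Set.mem_mul.mp hg
    exact ⟨a, ha, k, by rw [← hk]⟩
  have hIA : I ≤ A := by
    rintro _ ⟨y, -, rfl⟩
    exact y.2
  -- I is normalized by A and by x
  have hInorm : I.Normal := by
    rw [← Subgroup.normalizer_eq_top_iff, eq_top_iff, ← hgen]
    refine sup_le ?_ ?_
    · intro b hb
      apply Subgroup.mem_normalizer_fintype
      intro y hy
      have : b * y * b⁻¹ = y := by
        rw [hcomm b hb y (hIA hy)]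
        group
      rw [this]
      exact hy
    · rw [Subgroup.zpowers_le]
      apply Subgroup.mem_normalizer_fintype
      intro y hy
      obtain ⟨a, ha, rfl⟩ := (hImem y).mp hy
      refine (hImem _).mpr ⟨x * a * x⁻¹, hxa a ha, ?_⟩
      group
  -- commutativity of the quotient
  have hcomI : commutator G ≤ I := by
    rw [commutator_def, Subgroup.commutator_le]
    intro g _ h _
    rw [← QuotientGroup.eq_one_iff]
    have hax : ∀ a ∈ A, Commute (a : G ⧸ I) (x : G ⧸ I) := by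
      intro a ha
      have h1 : x * a * x⁻¹ * a⁻¹ ∈ I := (hImem _).mpr ⟨a, ha, rfl⟩
      have h2 : ((x * a * x⁻¹ * a⁻¹ : G) : G ⧸ I) = 1 := (QuotientGroup.eq_one_iff _).mpr h1
      simp only [QuotientGroup.mk_mul, QuotientGroup.mk_inv] at h2
      show (a : G ⧸ I) * (x : G ⧸ I) = (x : G ⧸ I) * (a : G ⧸ I)
      rw [mul_inv_eq_one, mul_inv_eq_iff_eq_mul] at h2
      exact h2.symm
    have hab : ∀ a ∈ A, ∀ b ∈ A, Commute (a : G ⧸ I) (b : G ⧸ I) := by
      intro a ha b hb
      show (a : G ⧸ I) * (b : G ⧸ I) = (b : G ⧸ I) * (a : G ⧸ I)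
      rw [← QuotientGroup.mk_mul, ← QuotientGroup.mk_mul, hcomm a ha b hb]
    obtain ⟨a, ha, k, rfl⟩ := hdec g
    obtain ⟨b, hb, l, rfl⟩ := hdec h
    have hc : Commute (((a * x ^ k : G)) : G ⧸ I) ((b * x ^ l : G) : G ⧸ I) := by
      simp only [QuotientGroup.mk_mul, QuotientGroup.mk_zpow]
      apply Commute.mul_left
      · apply Commute.mul_right
        · exact hab a ha b hb
        · exact (hax a ha).zpow_right l
      · apply Commute.mul_right
        · exact ((hax b hb).zpow_right k).symm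
        · exact (Commute.refl _).zpow_zpow k l
    rw [commutatorElement_def]
    show (((a * x ^ k : G)) : G ⧸ I) * ((b * x ^ l : G) : G ⧸ I) * (((a * x ^ k : G)) : G ⧸ I)⁻¹ *
      ((b * x ^ l : G) : G ⧸ I)⁻¹ = 1
    rw [hc.eq]
    group
  have hIcom : I ≤ commutator G := by
    intro y hy
    obtain ⟨a, ha, rfl⟩ := (hImem y).mp hy
    have := Subgroup.commutator_mem_commutator (Subgroup.mem_top x) (Subgroup.mem_top a)
    rwa [commutatorElement_def] at this
  have hEq : commutator G = I := le_antisymm hcomI hIcom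
  refine ⟨?_, ?_, hmul, ?_⟩
  · intro a ha
    exact hIcom ((hImem _).mpr ⟨a, ha, rfl⟩)
  · intro c hc
    exact (hImem c).mp (hcomI hc)
  · have e1 : Nat.card (commutator G) = Nat.card φ.range := by
      rw [hEq]
      exact Subgroup.card_map_of_injective (Subgroup.subtype_injective A)
    have e2 : Nat.card ↥(A ⊓ Subgroup.centralizer ({x} : Set G)) = Nat.card φ.ker := by
      have h1 : φ.ker.map A.subtype = A ⊓ Subgroup.centralizer ({x} : Set G) := by
        ext y
        constructor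
        · rintro ⟨a, ha, rfl⟩
          refine Subgroup.mem_inf.mpr ⟨a.2, ?_⟩
          rw [Subgroup.mem_centralizer_singleton_iff]
          have h2 : ((φ a : A) : G) = 1 := congrArg Subtype.val ha
          rw [hφ, Subgroup.coe_inv, mul_inv_eq_one, mul_inv_eq_iff_eq_mul] at h2
          exact h2.symm
        · intro hy'
          obtain ⟨hy, hyc⟩ := Subgroup.mem_inf.mp hy'
          rw [Subgroup.mem_centralizer_singleton_iff] at hyc
          refine ⟨⟨y, hy⟩, ?_, rfl⟩
          show φ ⟨y, hy⟩ = 1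
          apply Subtype.ext
          show x * y * x⁻¹ * y⁻¹ = 1
          rw [← hyc]
          group
      rw [← h1]
      exact Subgroup.card_map_of_injective (Subgroup.subtype_injective A)
    rw [e1, e2, mul_comm, ← Subgroup.index_ker]
    exact Subgroup.card_mul_index _

end Cfsg.Agent.S3866
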