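import Cfsg.Statements.S3878
import Mathlib
import Cfsg.Agent.S0713

set_option autoImplicit false
open Cfsg

namespace Cfsg.Agent.S3878

open MulAction Equiv Equiv.Perm
open scoped Pointwise

section Core

variable {α : Type*} [Fintype α] [DecidableEq α]

/-- A prime cycle in `H` stabilises each nontrivial block. -/
theorem stab_of_cycle (H : Subgroup (Perm α)) {T : Set α} (hT : IsBlock H T) (h2 : ¬ T.Subsingleton)
    {c : Perm α} (hc : c ∈ H) (hcyc : c.IsCycle) (hq : c.support.card.Prime) :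
    (⟨c, hc⟩ : H) • T = T := by
  have hblock := isBlock_iff_smul_eq_of_mem.mp hT
  set C : H := ⟨c, hc⟩ with hC
  by_contra hne
  have hmoved : ∀ x ∈ T, c x ≠ x := by
    intro x hx hfix
    apply hne
    apply hblock hx
    change c x ∈ T
    rw [hfix]
    exact hx
  simp only [Set.Subsingleton, not_forall] at h2
  obtain ⟨x, hx, y, hy, hxy⟩ := h2
  obtain ⟨i, hi⟩ := hcyc.sameCycle (hmoved x hx) (hmoved y hy)
  have hCi : (C ^ i) • T = T := by
    apply hblock hx
    have : (C ^ i) • x = (c ^ i) x := rfl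
    rw [this, hi]
    exact hy
  have hord : orderOf c = c.support.card := hcyc.orderOf
  have hordC : orderOf C = c.support.card := by
    rw [← hord]
    exact Subgroup.orderOf_mk c hc
  have hndvd : ¬ ((c.support.card : ℕ) : ℤ) ∣ i := by
    intro hd
    rw [← hord, orderOf_dvd_iff_zpow_eq_one] at hd
    rw [hd] at hi
    exact hxy hi
  have hcop : IsCoprime ((c.support.card : ℕ) : ℤ) i :=
    ((Nat.prime_iff_prime_int.mp hq).irreducible.coprime_iff_not_dvd).mpr hndvd
  obtain ⟨u, v, huv⟩ := hcop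
  have hCq : C ^ (c.support.card : ℤ) = 1 := by
    rw [← hordC, zpow_natCast, pow_orderOf_eq_one]
  have h1 : C = (C ^ (c.support.card : ℤ)) ^ u * (C ^ i) ^ v := by
    rw [← zpow_mul, ← zpow_mul, ← zpow_add]
    have : ((c.support.card : ℕ) : ℤ) * u + i * v = 1 := by linarith
    rw [this, zpow_one]
  apply hne
  have hstab : (C ^ i) ∈ stabilizer H T := hCi
  have h3 : C ∈ stabilizer H T := by
    rw [h1, hCq, one_zpow, one_mul]
    exact zpow_mem hstab v
  exact h3

/-- The support of a cycle stabilising a set and meeting it lies in it. -/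
theorem support_subset (H : Subgroup (Perm α)) {T : Set α}
    {c : Perm α} (hc : c ∈ H) (hcyc : c.IsCycle)
    (hT : (⟨c, hc⟩ : H) • T = T) {x : α} (hx : x ∈ T) (hxc : c x ≠ x) :
    (c.support : Set α) ⊆ T := by
  intro y hy
  have hy' : c y ≠ y := mem_support.mp hy
  obtain ⟨i, hi⟩ := hcyc.sameCycle hxc hy'
  have h1 : ((⟨c, hc⟩ : H) ^ i) ∈ stabilizer H T := zpow_mem hT i
  have h2 : ((⟨c, hc⟩ : H) ^ i) • T = T := h1
  have h3 : ((⟨c, hc⟩ : H) ^ i) • x ∈ ((⟨c, hc⟩ : H) ^ i) • T := Set.smul_mem_smul_set hx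
  rw [h2] at h3
  have h4 : ((⟨c, hc⟩ : H) ^ i) • x = (c ^ i) x := rfl
  rw [h4, hi] at h3
  exact h3

/-- Order of the alternating group is divisible by small primes. -/
theorem prime_dvd_card_alt {β : Type*} [Fintype β] [DecidableEq β] {r : ℕ} (hr : r.Prime)
    (hrle : r ≤ Fintype.card β) (h5 : 5 ≤ Fintype.card β) :
    r ∣ Nat.card (alternatingGroup β) := by
  haveI : Nontrivial β := Fintype.one_lt_card_iff_nontrivial.mp (by omega)
  have h1 := two_mul_nat_card_alternatingGroup (α := β)
  rw [Nat.card_perm, Nat.card_eq_fintype_card (α := β)] at h1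
  by_cases h2 : r = 2
  · subst h2
    have h3 : Nat.factorial 4 ∣ Nat.factorial (Fintype.card β) :=
      Nat.factorial_dvd_factorial (by omega)
    rw [← h1] at h3
    have h4 : (2 : ℕ) * 2 ∣ 2 * Nat.card (alternatingGroup β) :=
      Dvd.dvd.trans (by decide) h3
    exact Nat.dvd_of_mul_dvd_mul_left (by norm_num) h4
  · have h3 : r ∣ Nat.factorial (Fintype.card β) := hr.dvd_factorial.mpr hrle
    rw [← h1] at h3
    exact (hr.dvd_mul.mp h3).resolve_left (fun h => h2 ((Nat.prime_dvd_prime_iff_eq hr Nat.prime_two).mp h))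

/-- The core contradiction. -/
theorem core (H : Subgroup (Perm α)) (htr : IsPretransitive H α) {ι : Type*} [Fintype ι]
    (S : ι → Finset α) (c : ι → Perm α) (hcH : ∀ i, c i ∈ H) (hcyc : ∀ i, (c i).IsCycle)
    (hsupp : ∀ i, (c i).support = S i) {q p a r : ℕ} (hq : q.Prime)
    (hcard : ∀ i, (S i).card = q) (hdisj : ∀ i j, i ≠ j → Disjoint (S i) (S j))
    (hleft : (Finset.univ \ Finset.univ.biUnion S).card < q)
    (hn : Fintype.card α = p ^ a) (hp : p.Prime) (hpq : p ≠ q) (hr : r.Prime)
    (hrH : ¬ r ∣ Nat.card H) (hbig : q * (r + q + 5) ≤ Fintype.card α) (i₀ : ι) : False := by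
  classical
  have hqprime : ∀ i, (c i).support.card.Prime := fun i => by rw [hsupp, hcard]; exact hq
  -- a minimal block
  let 𝔅 : Set (Set α) := {B | IsBlock H B ∧ ((S i₀ : Finset α) : Set α) ⊆ B}
  have h𝔅 : 𝔅.Nonempty := ⟨Set.univ, IsBlock.univ, Set.subset_univ _⟩
  obtain ⟨B, hBmin⟩ := (Set.toFinite 𝔅).exists_minimal h𝔅
  obtain ⟨hB, hSB⟩ := hBmin.prop
  have hq2 := hq.two_le
  have hS₀ : 1 < (S i₀).card := by rw [hcard]; omega
  obtain ⟨x₀, hx₀, x₁, hx₁, hx₀₁⟩ := Finset.one_lt_card.mp hS₀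
  have hnsub : ∀ T : Set α, ((S i₀ : Finset α) : Set α) ⊆ T → ¬ T.Subsingleton := by
    intro T hT hsub
    exact hx₀₁ (hsub (hT hx₀) (hT hx₁))
  have hBne : B.Nonempty := ⟨x₀, hSB hx₀⟩
  have hB2 := hnsub B hSB
  -- translates
  have hcount := hB.ncard_block_mul_ncard_orbit_eq hBne
  rw [Nat.card_eq_fintype_card] at hcount
  have hqs : ¬ q ∣ B.ncard := by
    intro hd
    have h1 : q ∣ p ^ a := by
      rw [← hn, ← hcount]
      exact Dvd.dvd.mul_right hd _
    have h2 := (Nat.prime_dvd_prime_iff_eq hq hp).mp (hq.dvd_of_dvd_pow h1)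
    exact hpq h2.symm
  -- every translate contains a leftover point
  let L : Finset α := Finset.univ \ Finset.univ.biUnion S
  have hleftover : ∀ T ∈ orbit H B, ∃ y ∈ T, y ∈ L := by
    rintro T ⟨g, rfl⟩
    by_contra hno
    push Not at hno
    have hT : IsBlock H (g • B) := hB.translate g
    have hTns : ¬ (g • B).Subsingleton := by
      intro hs
      apply hB2
      intro u hu v hv
      have := hs (Set.smul_mem_smul_set hu) (Set.smul_mem_smul_set hv)
      exact MulAction.injective g this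
    have hall : ∀ y ∈ g • B, ∃ i, y ∈ S i := by
      intro y hy
      have h1 := hno y hy
      simp only [L, Finset.mem_sdiff, Finset.mem_univ, true_and, not_not, Finset.mem_biUnion] at h1
      exact h1
    let I : Finset ι := Finset.univ.filter (fun i => ((S i : Finset α) : Set α) ⊆ g • B)
    have hTeq : (Finset.univ.filter (fun y => y ∈ g • B)) = I.biUnion S := by
      ext y
      simp only [Finset.mem_filter, Finset.mem_univ, true_and, Finset.mem_biUnion, I]
      constructor
      · intro hy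
        obtain ⟨i, hi⟩ := hall y hy
        refine ⟨i, ?_, hi⟩
        have hyc : (c i) y ≠ y := by
          rw [← mem_support, hsupp]
          exact hi
        have := support_subset H (hcH i) (hcyc i)
          (stab_of_cycle H hT hTns (hcH i) (hcyc i) (hqprime i)) hy hyc
        rwa [hsupp] at this
      · rintro ⟨i, hi, hy⟩
        exact hi hy
    have hcardT : (g • B).ncard = B.ncard := Set.ncard_smul_set g B
    have h1 : (g • B).ncard = (Finset.univ.filter (fun y => y ∈ g • B)).card := by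
      rw [← Set.ncard_coe_finset]
      congr 1
      ext y
      simp
    rw [hTeq, Finset.card_biUnion (fun i _ j _ hij => hdisj i j hij), hcardT] at h1
    apply hqs
    rw [h1]
    exact Finset.dvd_sum (fun i _ => by rw [hcard])
  have hOlt : (orbit H B).ncard < q := by
    haveI : Nonempty α := ⟨x₀⟩
    choose! f hf1 hf2 using hleftover
    have hinj : Set.InjOn f (orbit H B) := by
      intro T hT T' hT' hfT
      have h1 := hf1 T hT
      have h2 := hf1 T' hT'
      rw [← hfT] at h2
      obtain ⟨g, rfl⟩ := hT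
      obtain ⟨g', rfl⟩ := hT'
      exact hB.smul_eq_smul_of_nonempty ⟨f _, h1, h2⟩
    have h3 := Set.ncard_le_ncard_of_injOn f (s := orbit H B) (t := (L : Set α)) hf2 hinj
    rw [Set.ncard_coe_finset] at h3
    exact lt_of_le_of_lt h3 hleft
  have hsbig : r + q + 5 ≤ B.ncard := by
    by_contra hlt
    push Not at hlt
    have h1 := Nat.mul_lt_mul'' hlt hOlt
    rw [hcount] at h1
    have h2 : (r + q + 5) * q = q * (r + q + 5) := mul_comm _ _
    omega
  -- the stabiliser of the block
  have hblock := isBlock_iff_smul_eq_of_mem.mp hB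
  have hHB : ∀ (h : Perm α) (hh : h ∈ H) (x : α), x ∈ B → h x ∈ B → ∀ z, h z ∈ B ↔ z ∈ B := by
    intro h hh x hx hhx z
    have h1 : (⟨h, hh⟩ : H) • B = B := hblock (g := ⟨h, hh⟩) hx hhx
    have h2 : (⟨h, hh⟩ : H) • z = h z := rfl
    rw [← h2]
    nth_rewrite 1 [← h1]
    exact Set.smul_mem_smul_set_iff
  let HB : Subgroup (Perm α) :=
    { carrier := {h | h ∈ H ∧ ∀ x, h x ∈ B ↔ x ∈ B}
      one_mem' := ⟨H.one_mem, fun x => Iff.rfl⟩
      mul_mem' := fun {a b} ha hb => ⟨H.mul_mem ha.1 hb.1, fun x => (ha.2 _).trans (hb.2 x)⟩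
      inv_mem' := fun {a} ha => ⟨H.inv_mem ha.1, fun x => by
        have := ha.2 (a⁻¹ x)
        have h9 : a (a⁻¹ x) = x := by simp
        rw [h9] at this
        exact this.symm⟩ }
  let f : HB →* Perm {x // x ∈ B} :=
    { toFun := fun h => (h.1).subtypePerm h.2.2
      map_one' := by
        ext x
        rfl
      map_mul' := by
        intro a b
        ext x
        rfl }
  have hfv : ∀ (h : HB) (x : {x // x ∈ B}), ((f h x : {x // x ∈ B}) : α) = h.1 x.1 := fun _ _ => rfl
  let K : Subgroup (Perm {x // x ∈ B}) := f.range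
  haveI : Fintype {x // x ∈ B} := Fintype.ofFinite _
  have hcardB : Fintype.card {x // x ∈ B} = B.ncard := by
    rw [← Nat.card_eq_fintype_card]
    exact Nat.card_coe_set_eq B
  have htrK : IsPretransitive K {x // x ∈ B} := by
    refine ⟨fun x y => ?_⟩
    obtain ⟨h, hh⟩ := htr.exists_smul_eq x.1 y.1
    have hh' : h.1 x.1 = y.1 := hh
    have hm : h.1 ∈ HB := ⟨h.2, hHB h.1 h.2 x.1 x.2 (by rw [hh']; exact y.2)⟩
    refine ⟨⟨f ⟨h.1, hm⟩, ⟨_, rfl⟩⟩, ?_⟩
    apply Subtype.ext
    exact hh'
  have hprim : IsPreprimitive K {x // x ∈ B} := by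
    refine { htrK with isTrivialBlock_of_isBlock := ?_ }
    intro C hC
    by_cases hCs : C.Subsingleton
    · exact Or.inl hCs
    right
    obtain ⟨y, hy⟩ : C.Nonempty := by
      by_contra hne
      rw [Set.not_nonempty_iff_eq_empty] at hne
      exact hCs (hne ▸ Set.subsingleton_empty)
    obtain ⟨σ, hσ⟩ := htrK.exists_smul_eq y ⟨x₀, hSB hx₀⟩
    have hD : IsBlock K (σ • C) := hC.translate σ
    have hDblock := isBlock_iff_smul_eq_of_mem.mp hD
    set D : Set {x // x ∈ B} := σ • C with hDdef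
    have hx₀D : (⟨x₀, hSB hx₀⟩ : {x // x ∈ B}) ∈ D := by
      rw [← hσ]
      exact Set.smul_mem_smul_set hy
    have hDns : ¬ D.Subsingleton := by
      intro hs
      apply hCs
      intro u hu v hv
      have := hs (Set.smul_mem_smul_set (a := σ) hu) (Set.smul_mem_smul_set (a := σ) hv)
      exact MulAction.injective σ this
    let D' : Set α := Subtype.val '' D
    have hD'B : D' ⊆ B := by
      rintro _ ⟨z, -, rfl⟩
      exact z.2
    have hD'block : IsBlock H D' := by
      rw [isBlock_iff_smul_eq_of_mem]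
      rintro g a ⟨a', ha', rfl⟩ ⟨b', hb', hgb⟩
      have hgb' : g.1 a'.1 = b'.1 := hgb.symm
      have hm : g.1 ∈ HB := ⟨g.2, hHB g.1 g.2 a'.1 a'.2 (by rw [hgb']; exact b'.2)⟩
      let σ' : K := ⟨f ⟨g.1, hm⟩, ⟨_, rfl⟩⟩
      have h1 : σ' • D = D := by
        apply hDblock ha'
        have : σ' • a' = b' := Subtype.ext hgb'
        rw [this]
        exact hb'
      apply Set.eq_of_subset_of_ncard_le
      · rintro _ ⟨u, ⟨u', hu', rfl⟩, rfl⟩
        have h2 : σ' • u' ∈ D := by
          rw [← h1]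
          exact Set.smul_mem_smul_set hu'
        exact ⟨σ' • u', h2, rfl⟩
      · rw [Set.ncard_smul_set]
      · exact Set.toFinite _
    have hD'ns : ¬ D'.Subsingleton := by
      intro hs
      apply hDns
      intro u hu v hv
      exact Subtype.ext (hs ⟨u, hu, rfl⟩ ⟨v, hv, rfl⟩)
    have hst := stab_of_cycle H hD'block hD'ns (hcH i₀) (hcyc i₀) (hqprime i₀)
    have hSD : ((S i₀ : Finset α) : Set α) ⊆ D' := by
      have hx₀c : (c i₀) x₀ ≠ x₀ := by
        rw [← mem_support, hsupp]
        exact hx₀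
      have := support_subset H (hcH i₀) (hcyc i₀) hst (x := x₀) ⟨_, hx₀D, rfl⟩ hx₀c
      rwa [hsupp] at this
    have hBD : B ⊆ D' := hBmin.le_of_le ⟨hD'block, hSD⟩ hD'B
    have hDuniv : D = Set.univ := by
      ext z
      simp only [Set.mem_univ, iff_true]
      obtain ⟨z', hz', hzz⟩ := hBD z.2
      rw [← Subtype.ext hzz]
      exact hz'
    have hCuniv : C = Set.univ := by
      have h1 := congrArg (fun T => σ⁻¹ • T) hDuniv
      simp only [hDdef, inv_smul_smul, Set.smul_set_univ] at h1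
      exact h1
    exact hCuniv
  -- the cycle in the quotient
  have hc₀B : ∀ z, (c i₀) z ∈ B ↔ z ∈ B := by
    have hx₀c : (c i₀) x₀ ≠ x₀ := by
      rw [← mem_support, hsupp]
      exact hx₀
    have hx₀m : (c i₀) x₀ ∈ S i₀ := by
      rw [← hsupp]
      exact apply_mem_support.mpr (by rw [hsupp]; exact hx₀)
    exact hHB _ (hcH i₀) x₀ (hSB hx₀) (hSB hx₀m)
  let h₀ : HB := ⟨c i₀, hcH i₀, hc₀B⟩
  have hgcyc : (f h₀).IsCycle := by
    have hx₀c : (c i₀) x₀ ≠ x₀ := by
      rw [← mem_support, hsupp]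
      exact hx₀
    refine ⟨⟨x₀, hSB hx₀⟩, fun h => hx₀c (congrArg Subtype.val h), ?_⟩
    intro y hy
    have hy' : (c i₀) y.1 ≠ y.1 := fun h => hy (Subtype.ext h)
    obtain ⟨i, hi⟩ := (hcyc i₀).sameCycle hx₀c hy'
    refine ⟨i, ?_⟩
    apply Subtype.ext
    rw [← map_zpow, hfv]
    exact hi
  have hgsupp : (f h₀).support.card = q := by
    have h1 : ((f h₀).support.map (Function.Embedding.subtype _)) = (c i₀).support := by
      ext z
      simp only [Finset.mem_map, Function.Embedding.subtype_apply, mem_support]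
      constructor
      · rintro ⟨y, hy, rfl⟩
        exact fun h => hy (Subtype.ext h)
      · intro hz
        have hz' : z ∈ S i₀ := by
          rw [← hsupp]
          exact mem_support.mpr hz
        exact ⟨⟨z, hSB hz'⟩, fun h => hz (congrArg Subtype.val h), rfl⟩
    have h2 := congrArg Finset.card h1
    rw [Finset.card_map, hsupp, hcard] at h2
    exact h2
  have hA := S0713.result K hprim hq (by omega) (by omega) hgcyc hgsupp ⟨h₀, rfl⟩
  have h1 := prime_dvd_card_alt (β := {x // x ∈ B}) hr (by omega) (by omega)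
  have h2 := h1.trans (Subgroup.card_dvd_of_le hA)
  have h3 : Nat.card K ∣ Nat.card HB :=
    Subgroup.card_dvd_of_surjective f.rangeRestrict f.rangeRestrict_surjective
  have h4 : HB ≤ H := fun h hh => hh.1
  exact hrH (h2.trans (h3.trans (Subgroup.card_dvd_of_le h4)))

end Core


section Conj

/-- A `q`-subgroup is conjugate into a subgroup of index prime to `q`. -/
theorem exists_conj_le {G : Type*} [Group G] [Finite G] {q : ℕ} [Fact q.Prime] (E H : Subgroup G)
    (hE : IsPGroup q E) (hq : ¬ q ∣ H.index) : ∃ g : G, ∀ x ∈ E, g * x * g⁻¹ ∈ H := by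
  have h1 := hE.card_modEq_card_fixedPoints (G ⧸ H)
  have hne : Nonempty (fixedPoints E (G ⧸ H)) := by
    by_contra hne
    rw [not_nonempty_iff] at hne
    have h0 : Nat.card (fixedPoints E (G ⧸ H)) = 0 := Nat.card_of_isEmpty
    rw [h0] at h1
    exact hq ((Nat.modEq_zero_iff_dvd).mp h1)
  obtain ⟨⟨y, hy⟩⟩ := hne
  obtain ⟨y, rfl⟩ := QuotientGroup.mk_surjective y
  refine ⟨y⁻¹, fun x hx => ?_⟩
  have h2 : (⟨x, hx⟩ : E) • ((y : G) : G ⧸ H) = y := hy ⟨x, hx⟩
  have h3 : ((x * y : G) : G ⧸ H) = y := h2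
  rw [QuotientGroup.eq] at h3
  have h4 := H.inv_mem h3
  have h5 : y⁻¹ * x * y⁻¹⁻¹ = ((x * y)⁻¹ * y)⁻¹ := by group
  rw [h5]
  exact h4

/-- A subgroup of index prime to `p` in the symmetric group of degree `p ^ a` is transitive. -/
theorem trans_of_index {α : Type*} [Fintype α] [DecidableEq α] (H : Subgroup (Perm α)) {p a : ℕ}
    (hp : p.Prime) (hn : Fintype.card α = p ^ a) (hindex : ¬ p ∣ H.index) :
    IsPretransitive H α := by
  refine ⟨fun x y => ?_⟩
  let K : Subgroup (Perm α) := (stabilizer H x).map H.subtype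
  have hKle : K ≤ stabilizer (Perm α) x := by
    rintro _ ⟨h, hh, rfl⟩
    exact hh
  have h1 : (stabilizer (Perm α) x).index = Fintype.card α := by
    rw [index_stabilizer_of_transitive, Nat.card_eq_fintype_card]
  have h2 := Subgroup.index_dvd_of_le hKle
  have h3 : K.index = (stabilizer H x).index * H.index := Subgroup.index_map_subtype _
  rw [h1, hn, h3, index_stabilizer] at h2
  have hcop : Nat.Coprime (p ^ a) H.index :=
    Nat.Coprime.pow_left a ((Nat.Prime.coprime_iff_not_dvd hp).mpr hindex)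
  have h4 : p ^ a ∣ (orbit H x).ncard := hcop.dvd_of_dvd_mul_right h2
  have hle : (orbit H x).ncard ≤ Fintype.card α := by
    rw [← Nat.card_eq_fintype_card, ← Set.ncard_univ]
    exact Set.ncard_le_ncard (Set.subset_univ _)
  have hpos : 0 < (orbit H x).ncard := (Set.ncard_pos).mpr ⟨x, mem_orbit_self x⟩
  have h5 : (orbit H x).ncard = Fintype.card α := by
    have := Nat.le_of_dvd hpos h4
    omega
  have h6 : orbit H x = Set.univ := by
    apply Set.eq_of_subset_of_ncard_le (Set.subset_univ _)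
    rw [Set.ncard_univ, Nat.card_eq_fintype_card, h5]
  have h7 : y ∈ orbit H x := by rw [h6]; trivial
  obtain ⟨g, hg⟩ := h7
  exact ⟨g, hg⟩

end Conj

section Model

variable (w ρ q : ℕ) [Fact q.Prime]

/-- The point set: `w` blocks of size `q` and `ρ` further points. -/
abbrev Pts : Type := (Fin w × ZMod q) ⊕ Fin ρ

variable {w ρ q}

/-- Translations on the blocks. -/
def shift (v : Fin w → Multiplicative (ZMod q)) : Perm (Fin w × ZMod q) where
  toFun p := (p.1, p.2 + Multiplicative.toAdd (v p.1))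
  invFun p := (p.1, p.2 - Multiplicative.toAdd (v p.1))
  left_inv p := by simp
  right_inv p := by simp

/-- The translation group. -/
def Phi : (Fin w → Multiplicative (ZMod q)) →* Perm (Pts w ρ q) where
  toFun v := Equiv.sumCongr (shift v) (Equiv.refl _)
  map_one' := by
    refine Equiv.ext fun p => ?_
    rcases p with ⟨i, x⟩ | y
    · simp [shift]
    · simp
  map_mul' := by
    intro a b
    refine Equiv.ext fun p => ?_
    rcases p with ⟨i, x⟩ | y
    · simp [shift]
      abel
    · simp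

theorem isPGroup_range : IsPGroup q (Phi (w := w) (ρ := ρ) (q := q)).range := by
  have h1 : IsPGroup q (Fin w → Multiplicative (ZMod q)) := by
    intro v
    refine ⟨1, ?_⟩
    funext i
    rw [pow_one]
    have h2 := pow_card_eq_one' (x := v i)
    rw [Nat.card_eq_fintype_card] at h2
    have h3 : Fintype.card (Multiplicative (ZMod q)) = q := by
      rw [Fintype.card_multiplicative, ZMod.card]
    rw [h3] at h2
    exact h2
  exact h1.of_surjective _ (Phi (w := w) (ρ := ρ) (q := q)).rangeRestrict_surjective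

/-- The basic cycles. -/
def bcycle (i : Fin w) : Perm (Pts w ρ q) :=
  Phi (Pi.mulSingle i (Multiplicative.ofAdd 1))

theorem bcycle_inl_same (i : Fin w) (x : ZMod q) :
    (bcycle (ρ := ρ) i) (Sum.inl (i, x)) = Sum.inl (i, x + 1) := by
  simp [bcycle, Phi, shift]

theorem bcycle_inl_ne (i j : Fin w) (hj : j ≠ i) (x : ZMod q) :
    (bcycle (ρ := ρ) i) (Sum.inl (j, x)) = Sum.inl (j, x) := by
  simp [bcycle, Phi, shift, Pi.mulSingle_eq_of_ne hj]

theorem bcycle_inr (i : Fin w) (y : Fin ρ) :
    (bcycle (q := q) i) (Sum.inr y) = Sum.inr y := by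
  simp [bcycle, Phi]

theorem bcycle_pow (i : Fin w) (x : ZMod q) (k : ℕ) :
    ((bcycle (ρ := ρ) i) ^ k) (Sum.inl (i, x)) = Sum.inl (i, x + k) := by
  induction k with
  | zero => simp
  | succ k ih =>
    rw [pow_succ', Perm.mul_apply, ih, bcycle_inl_same]
    push_cast
    rw [add_assoc]

theorem bcycle_isCycle (i : Fin w) : (bcycle (ρ := ρ) (q := q) i).IsCycle := by
  refine ⟨Sum.inl (i, 0), ?_, ?_⟩
  · rw [bcycle_inl_same]
    simp
  · rintro (⟨j, x⟩ | y) hy
    · by_cases hj : j = i
      · subst hj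
        refine ⟨((x.val : ℕ) : ℤ), ?_⟩
        rw [zpow_natCast, bcycle_pow]
        simp
      · rw [bcycle_inl_ne i j hj] at hy
        exact absurd rfl hy
    · rw [bcycle_inr] at hy
      exact absurd rfl hy

/-- The support of a basic cycle. -/
def bsupp (i : Fin w) : Finset (Pts w ρ q) :=
  (Finset.univ : Finset (ZMod q)).map ⟨fun x => Sum.inl (i, x), fun x y h => by
    simpa using h⟩

theorem mem_bsupp (i : Fin w) (p : Pts w ρ q) : p ∈ bsupp i ↔ ∃ x, Sum.inl (i, x) = p := by
  simp only [bsupp, Finset.mem_map, Finset.mem_univ, true_and]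
  rfl

theorem bcycle_support (i : Fin w) : (bcycle (ρ := ρ) (q := q) i).support = bsupp i := by
  ext p
  rw [mem_support, mem_bsupp]
  rcases p with ⟨j, x⟩ | y
  · by_cases hj : j = i
    · subst hj
      rw [bcycle_inl_same]
      constructor
      · intro _
        exact ⟨x, rfl⟩
      · intro _
        simp
    · rw [bcycle_inl_ne i j hj]
      constructor
      · intro h
        exact absurd rfl h
      · rintro ⟨z, hz⟩
        simp only [Sum.inl.injEq, Prod.mk.injEq] at hz
        exact absurd hz.1.symm hj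
  · rw [bcycle_inr]
    constructor
    · intro h
      exact absurd rfl h
    · rintro ⟨z, hz⟩
      simp at hz

theorem bsupp_card (i : Fin w) : (bsupp (ρ := ρ) (q := q) i).card = q := by
  simp [bsupp, ZMod.card]

theorem bsupp_disjoint (i j : Fin w) (hij : i ≠ j) :
    Disjoint (bsupp (ρ := ρ) (q := q) i) (bsupp j) := by
  rw [Finset.disjoint_left]
  intro p hp hp'
  rw [mem_bsupp] at hp hp'
  obtain ⟨x, rfl⟩ := hp
  obtain ⟨y, hy⟩ := hp'
  simp only [Sum.inl.injEq, Prod.mk.injEq] at hy
  exact hij hy.1.symm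

end Model


/-- Symmetric groups without Hall subgroups. -/
theorem no_hall (π : Set ℕ) {p q r : ℕ} (hp : p.Prime) (hq : q.Prime) (hr : r.Prime)
    (hpπ : p ∈ π) (hqπ : q ∈ π) (hrπ : r ∉ π) (hpq : p ≠ q) :
    ∃ (w ρ : ℕ) (_ : Fact q.Prime), ¬ IsEPiGroup π (Perm (Pts w ρ q)) := by
  haveI hfq : Fact q.Prime := ⟨hq⟩
  haveI hfp : Fact p.Prime := ⟨hp⟩
  set a := q * (r + q + 5) with ha
  have hbig : a < p ^ a := Nat.lt_pow_self hp.one_lt
  set n := p ^ a with hn
  refine ⟨n / q, n % q, hfq, ?_⟩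
  rintro ⟨H, hH1, hH2⟩
  have hcardP : Fintype.card (Pts (n / q) (n % q) q) = n := by
    simp only [Fintype.card_sum, Fintype.card_prod, Fintype.card_fin, ZMod.card]
    exact Nat.div_add_mod' n q
  have hqpos : 0 < q := hq.pos
  have hwpos : 0 < n / q := by
    apply Nat.div_pos _ hqpos
    have : q ≤ a := Nat.le_mul_of_pos_right q (by omega)
    omega
  have htr := trans_of_index H hp (hcardP.trans hn) (hH2 p hp hpπ)
  obtain ⟨g, hg⟩ := exists_conj_le (q := q) (Phi (w := n / q) (ρ := n % q) (q := q)).range H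
    isPGroup_range (hH2 q hq hqπ)
  let S : Fin (n / q) → Finset (Pts (n / q) (n % q) q) := fun i => (bsupp i).map g.toEmbedding
  let c : Fin (n / q) → Perm (Pts (n / q) (n % q) q) := fun i => g * bcycle i * g⁻¹
  have hScard : ∀ i, (S i).card = q := fun i => by
    simp only [S, Finset.card_map, bsupp_card]
  have hSdisj : ∀ i j, i ≠ j → Disjoint (S i) (S j) := fun i j hij => by
    simp only [S, Finset.disjoint_map]
    exact bsupp_disjoint i j hij
  refine core H htr S c (fun i => hg _ ⟨_, rfl⟩) (fun i => (bcycle_isCycle i).conj) ?_ hq hScard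
    hSdisj ?_ (hcardP.trans hn) hp hpq hr ?_ ?_ ⟨0, hwpos⟩
  · intro i
    simp only [c, S]
    rw [support_conj, bcycle_support]
  · have h1 : (Finset.univ.biUnion S).card = (n / q) * q := by
      rw [Finset.card_biUnion (fun i _ j _ hij => hSdisj i j hij),
        Finset.sum_congr rfl (fun i _ => hScard i)]
      simp
    rw [Finset.card_sdiff_of_subset (Finset.subset_univ _), Finset.card_univ, h1, hcardP]
    have h2 := Nat.div_add_mod' n q
    have h3 := Nat.mod_lt n hqpos
    omega
  · intro hd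
    exact hrπ (hH1 r hr hd)
  · rw [hcardP]
    exact hbig.le

/-- Conjugacy of maximal `π`-subgroups forces the existence of Hall subgroups. -/
theorem hall_of_D {G : Type*} [Group G] [Finite G] (π : Set ℕ) (hD : IsDPiGroup π G) :
    IsEPiGroup π G := by
  have hbot : IsPiSubgroup π (⊥ : Subgroup G) := by
    intro p hp hd
    rw [Subgroup.card_bot] at hd
    exact absurd (Nat.dvd_one.mp hd) hp.ne_one
  have hmax : ∀ K : Subgroup G, IsPiSubgroup π K → ∃ M, K ≤ M ∧ Maximal (IsPiSubgroup π) M := by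
    intro K hK
    exact (Set.toFinite {K : Subgroup G | IsPiSubgroup π K}).exists_le_maximal hK
  obtain ⟨M, -, hM⟩ := hmax ⊥ hbot
  refine ⟨M, hM.prop, ?_⟩
  intro p hp hpπ hdvd
  haveI : Fact p.Prime := ⟨hp⟩
  obtain ⟨P⟩ : Nonempty (Sylow p G) := inferInstance
  have hPπ : IsPiSubgroup π (P : Subgroup G) := by
    intro l hl hd
    obtain ⟨k, hk⟩ := IsPGroup.iff_card.mp P.isPGroup'
    rw [hk] at hd
    have := (Nat.prime_dvd_prime_iff_eq hl hp).mp (hl.dvd_of_dvd_pow hd)
    rw [this]
    exact hpπ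
  obtain ⟨M₁, hPM₁, hM₁⟩ := hmax _ hPπ
  obtain ⟨g, hg⟩ := hD M M₁ hM hM₁
  have hidx : M₁.index = M.index := by
    rw [hg]
    exact Subgroup.index_map_of_bijective (f := (MulAut.conj g).toMonoidHom) (MulAut.conj g).bijective M
  have h1 : M₁.index ∣ (P : Subgroup G).index := Subgroup.index_dvd_of_le hPM₁
  rw [hidx] at h1
  exact P.not_dvd_index (hdvd.trans h1)

theorem result (π : Set ℕ) :
    ((∀ (G : Type) [Group G] [Finite G], Cfsg.IsEPiGroup π G) ↔
      ((∀ p q : ℕ, p.Prime → q.Prime → p ∈ π → q ∈ π → p = q) ∨ ∀ p : ℕ, p.Prime → p ∈ π)) ∧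
    ((∀ (G : Type) [Group G] [Finite G], Cfsg.IsDPiGroup π G) ↔
      ((∀ p q : ℕ, p.Prime → q.Prime → p ∈ π → q ∈ π → p = q) ∨ ∀ p : ℕ, p.Prime → p ∈ π)) := by
  have hneg : ¬ ((∀ p q : ℕ, p.Prime → q.Prime → p ∈ π → q ∈ π → p = q) ∨
      ∀ p : ℕ, p.Prime → p ∈ π) → ∃ (w ρ q : ℕ) (_ : Fact q.Prime),
      ¬ IsEPiGroup π (Perm (Pts w ρ q)) := by
    intro h
    push Not at h
    obtain ⟨⟨p, q, hp, hq, hpπ, hqπ, hpq⟩, r, hr, hrπ⟩ := h
    obtain ⟨w, ρ, hf, hno⟩ := no_hall π hp hq hr hpπ hqπ hrπ hpq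
    exact ⟨w, ρ, q, hf, hno⟩
  refine ⟨⟨?_, ?_⟩, ⟨?_, ?_⟩⟩
  · intro hE
    by_contra hX
    obtain ⟨w, ρ, q, hf, hno⟩ := hneg hX
    exact hno (hE _)
  · intro hX G _ _
    rcases hX with h1 | h2
    · by_cases hex : ∃ p, p.Prime ∧ p ∈ π
      · obtain ⟨p, hp, hpπ⟩ := hex
        haveI : Fact p.Prime := ⟨hp⟩
        obtain ⟨P⟩ : Nonempty (Sylow p G) := inferInstance
        refine ⟨P, ?_, ?_⟩
        · intro l hl hd
          obtain ⟨k, hk⟩ := IsPGroup.iff_card.mp P.isPGroup'
          rw [hk] at hd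
          have := (Nat.prime_dvd_prime_iff_eq hl hp).mp (hl.dvd_of_dvd_pow hd)
          rw [this]
          exact hpπ
        · intro l hl hlπ
          rw [h1 l p hl hp hlπ hpπ]
          exact P.not_dvd_index
      · push Not at hex
        refine ⟨⊥, ?_, ?_⟩
        · intro l hl hd
          rw [Subgroup.card_bot] at hd
          exact absurd (Nat.dvd_one.mp hd) hl.ne_one
        · intro l hl hlπ
          exact absurd hlπ (hex l hl)
    · refine ⟨⊤, ?_, ?_⟩
      · intro l hl _
        exact h2 l hl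
      · intro l hl _
        rw [Subgroup.index_top]
        exact fun hd => hl.ne_one (Nat.dvd_one.mp hd)
  · intro hD
    by_contra hX
    obtain ⟨w, ρ, q, hf, hno⟩ := hneg hX
    exact hno (hall_of_D π (hD _))
  · intro hX G _ _ H K hH hK
    rcases hX with h1 | h2
    · by_cases hex : ∃ p, p.Prime ∧ p ∈ π
      · obtain ⟨p, hp, hpπ⟩ := hex
        haveI : Fact p.Prime := ⟨hp⟩
        have hPG : ∀ L : Subgroup G, IsPiSubgroup π L → IsPGroup p L := by
          intro L hL
          rw [IsPGroup.iff_card]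
          exact ⟨_, Nat.eq_prime_pow_of_unique_prime_dvd Nat.card_pos.ne'
            (fun {d} hd hdv => h1 d p hd hp (hL d hd hdv) hpπ)⟩
        have hsyl : ∀ L : Subgroup G, Maximal (IsPiSubgroup π) L → ∃ P : Sylow p G, L = P := by
          intro L hL
          obtain ⟨P, hP⟩ := (hPG L hL.prop).exists_le_sylow
          refine ⟨P, le_antisymm hP (hL.le_of_ge ?_ hP)⟩
          intro l hl hd
          obtain ⟨k, hk⟩ := IsPGroup.iff_card.mp P.isPGroup'
          rw [hk] at hd
          have := (Nat.prime_dvd_prime_iff_eq hl hp).mp (hl.dvd_of_dvd_pow hd)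
          rw [this]
          exact hpπ
        obtain ⟨P, rfl⟩ := hsyl H hH
        obtain ⟨Q, rfl⟩ := hsyl K hK
        obtain ⟨g, hg⟩ := MulAction.exists_smul_eq G P Q
        refine ⟨g, ?_⟩
        rw [← hg, Sylow.smul_def]
        rfl
      · push Not at hex
        have hbot : ∀ L : Subgroup G, IsPiSubgroup π L → L = ⊥ := by
          intro L hL
          apply Subgroup.card_eq_one.mp
          by_contra hne
          obtain ⟨l, hl, hd⟩ := Nat.exists_prime_and_dvd hne
          exact hex l hl (hL l hl hd)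
        rw [hbot H hH.prop, hbot K hK.prop]
        exact ⟨1, by simp⟩
    · have hall : ∀ L : Subgroup G, IsPiSubgroup π L := fun L l hl _ => h2 l hl
      have htop : ∀ L : Subgroup G, Maximal (IsPiSubgroup π) L → L = ⊤ := by
        intro L hL
        exact le_antisymm le_top (hL.le_of_ge (hall ⊤) le_top)
      rw [htop H hH, htop K hK]
      refine ⟨1, ?_⟩
      rw [Subgroup.map_top_of_surjective]
      exact (MulAut.conj (1 : G)).surjective

end Cfsg.Agent.S3878
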