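import Cfsg.Statements.S3903
import Cfsg.Agent.Lib.Basic.MaxCentralizer
-- import your own Cfsg.Agent.* helpers here

set_option autoImplicit false
open Cfsg

namespace Cfsg.Agent.S3903

/-- Let N be a proper normal subgroup of the finite group G such that every element x of G outside N has prime power order and has centralizer C_G(x) a maximal subgroup of G. Then N is solvable. -/
theorem result {G : Type*} [Group G] [Finite G] (N : Subgroup G) [N.Normal] (hN : N ≠ ⊤)
    (h : ∀ x : G, x ∉ N → IsPrimePow (orderOf x) ∧ IsCoatom (Subgroup.centralizer ({x} : Set G))) : Group.IsSolvable ↥N := by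
  classical
  cases nonempty_fintype G
  -- an element outside `N`
  obtain ⟨x0, hx0⟩ : ∃ x, x ∉ N := by
    by_contra hall
    push Not at hall
    exact hN (eq_top_iff.2 fun x _ => hall x)
  obtain ⟨p, k, hp, hk, hord⟩ := (h x0 hx0).1
  have hpp : p.Prime := hp.nat_prime
  haveI : Fact p.Prime := ⟨hpp⟩
  -- centralizers of elements outside `N` with `p`-power order are `p`-groups
  have hPG : ∀ x, x ∉ N → ∀ l, 0 < l → orderOf x = p ^ l →
      IsPGroup p (Subgroup.centralizer ({x} : Set G)) := by
    intro x hx l hl hol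
    rw [IsPGroup.iff_card]
    refine ⟨_, Nat.eq_prime_pow_of_unique_prime_dvd Nat.card_pos.ne' ?_⟩
    intro q hq hqd
    by_contra hqp
    haveI : Fact q.Prime := ⟨hq⟩
    obtain ⟨y, hy⟩ := exists_prime_orderOf_dvd_card' q hqd
    have hyq : orderOf (y : G) = q := by
      rw [Subgroup.orderOf_coe]; exact hy
    have hcomm : Commute x (y : G) := by
      have := Subgroup.mem_centralizer_iff.1 y.2 x (by simp)
      exact this
    have hcop : Nat.Coprime (orderOf x) (orderOf (y : G)) := by
      rw [hol, hyq]
      exact Nat.Coprime.pow_left _ ((Nat.coprime_primes hpp hq).2 (Ne.symm hqp))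
    have hxy : x * y ∉ N := by
      intro hmem
      have h1 : (x * y) ^ q ∈ N := N.pow_mem hmem q
      rw [hcomm.mul_pow, ← hyq, pow_orderOf_eq_one, mul_one] at h1
      have hc2 : (orderOf (y : G)).Coprime (orderOf x) := hcop.symm
      obtain ⟨m, hm⟩ := exists_pow_eq_self_of_coprime hc2
      apply hx
      rw [← hm]
      exact N.pow_mem h1 m
    have hpow := (h _ hxy).1
    rw [hcomm.orderOf_mul_eq_mul_orderOf_of_coprime hcop, hol, hyq] at hpow
    obtain ⟨r, m, hr, hm, hrm⟩ := hpow
    have hr' : r.Prime := hr.nat_prime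
    have h1 : r = p := by
      have hdp : p ∣ r ^ m := by
        rw [hrm]; exact Dvd.dvd.mul_right (dvd_pow_self p hl.ne') q
      exact ((Nat.prime_dvd_prime_iff_eq hpp hr').1 (hpp.dvd_of_dvd_pow hdp)).symm
    have h2 : r = q := by
      have hdq : q ∣ r ^ m := by
        rw [hrm]; exact Dvd.intro_left _ rfl
      exact ((Nat.prime_dvd_prime_iff_eq hq hr').1 (hq.dvd_of_dvd_pow hdq)).symm
    exact hqp (h2 ▸ h1)
  set S : Subgroup G := Subgroup.centralizer ({x0} : Set G) with hSdef
  have hSP : IsPGroup p S := hPG x0 hx0 k hk hord.symm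
  have hSc : IsCoatom S := (h x0 hx0).2
  have hx0S : x0 ∈ S := by
    rw [hSdef, Subgroup.mem_centralizer_iff]
    intro a ha
    rw [Set.mem_singleton_iff] at ha
    rw [ha]
  -- enough that `G` is solvable
  suffices hG : Group.IsSolvable G ∨ Group.IsSolvable N by
    rcases hG with hG | hG
    · infer_instance
    · exact hG
  by_cases hNS : N ≤ S
  · right
    have hNP : IsPGroup p N := hSP.to_le hNS
    haveI : Group.IsNilpotent N := hNP.isNilpotent
    infer_instance
  left
  by_cases hGP : IsPGroup p G
  · haveI : Group.IsNilpotent G := hGP.isNilpotent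
    infer_instance
  have hsup : S ⊔ N = ⊤ := by
    apply hSc.2
    exact lt_of_le_of_ne le_sup_left (fun he => hNS (he ▸ le_sup_right))
  -- a coatom `p`-subgroup is Sylow
  have hSyl : ∀ C : Subgroup G, IsCoatom C → IsPGroup p C → ∃ T : Sylow p G, (T : Subgroup G) = C := by
    intro C hC hCP
    obtain ⟨T, hT⟩ := hCP.exists_le_sylow
    refine ⟨T, ?_⟩
    by_contra hne
    have hlt : C < (T : Subgroup G) := lt_of_le_of_ne hT (Ne.symm hne)
    have htop := hC.2 _ hlt
    apply hGP
    have := T.isPGroup'
    rw [htop] at this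
    exact IsPGroup.of_equiv this Subgroup.topEquiv
  -- numerics: the index of `N`
  have he : N.index = N.relIndex S := by
    have := Subgroup.relIndex_sup_right S N
    rw [hsup, Subgroup.relIndex_top_right] at this
    exact this
  have hs0 : N.relIndex S * Nat.card (S ⊓ N : Subgroup G) = Nat.card S := by
    have h3 := Subgroup.relIndex_mul_relIndex (⊥ : Subgroup G) (N ⊓ S) S bot_le inf_le_right
    rw [Subgroup.relIndex_bot_left, Subgroup.relIndex_bot_left, Subgroup.inf_relIndex_right,
      inf_comm, mul_comm] at h3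
    exact h3
  have hSe : N.index ∣ Nat.card S := ⟨_, by rw [he, hs0]⟩
  -- `G ⧸ N` is a `p`-group, hence all elements outside `N` are `p`-elements
  have hepow : ∃ j, N.index = p ^ j := by
    obtain ⟨n, hn⟩ := IsPGroup.iff_card.1 hSP
    rw [hn] at hSe
    obtain ⟨j, _, hj⟩ := (Nat.dvd_prime_pow hpp).1 hSe
    exact ⟨j, hj⟩
  obtain ⟨j, hj⟩ := hepow
  have hall : ∀ x, x ∉ N → ∃ l, 0 < l ∧ orderOf x = p ^ l := by
    intro x hx
    obtain ⟨r, l, hr, hl, hrl⟩ := (h x hx).1
    have hr' : r.Prime := hr.nat_prime
    by_cases hrp : r = p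
    · exact ⟨l, hl, by rw [← hrl, hrp]⟩
    exfalso
    apply hx
    have h1 : x ^ N.index ∈ N := Subgroup.pow_index_mem N x
    have hc : (N.index).Coprime (orderOf x) := by
      rw [hj, ← hrl]
      exact Nat.Coprime.pow _ _ ((Nat.coprime_primes hpp hr').2 (Ne.symm hrp))
    obtain ⟨m, hm⟩ := exists_pow_eq_self_of_coprime hc
    rw [← hm]
    exact N.pow_mem h1 m
  obtain ⟨S', hS'⟩ := hSyl S hSc hSP
  -- the counting
  let A : Finset G := Finset.univ.filter fun x => x ∉ N
  let C : Finset G := Finset.univ.filter fun x => x ∈ S ∧ x ∉ N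
  let B : Finset G := Finset.univ.filter fun x => x ∈ S ∧ x ∉ N ∧ ∀ t ∈ S, t * x = x * t
  have hA : A.card ≤ S.index * B.card := by
    apply Cfsg.Agent.Lib.Basic.MaxCentralizer.card_le_index_mul_card
    · intro x hx
      have hxN : x ∉ N := (Finset.mem_filter.1 hx).2
      obtain ⟨l, hl, hol⟩ := hall x hxN
      obtain ⟨T, hT⟩ := hSyl _ (h x hxN).2 (hPG x hxN l hl hol)
      obtain ⟨g, hg⟩ := MulAction.exists_smul_eq G S' T
      have hmem : ∀ y, y ∈ Subgroup.centralizer ({x} : Set G) ↔ g⁻¹ * y * g ∈ S := by
        intro y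
        rw [← hT, ← hg, ← hS', Sylow.smul_def, Sylow.pointwise_smul_def,
          Subgroup.mem_pointwise_smul_iff_inv_smul_mem]
        simp [MulAut.smul_def]
      have hxC : x ∈ Subgroup.centralizer ({x} : Set G) := by
        rw [Subgroup.mem_centralizer_iff]
        intro a ha
        rw [Set.mem_singleton_iff] at ha
        rw [ha]
      refine ⟨g, g⁻¹ * x * g, ?_, by group⟩
      refine Finset.mem_filter.2 ⟨Finset.mem_univ _, (hmem x).1 hxC, ?_, ?_⟩
      · intro hmem2
        apply hxN
        have := (inferInstance : N.Normal).conj_mem _ hmem2 g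
        simpa [mul_assoc] using this
      · intro t ht
        have ht' : g * t * g⁻¹ ∈ Subgroup.centralizer ({x} : Set G) := by
          rw [hmem]
          simpa [mul_assoc] using ht
        have hcomm := Subgroup.mem_centralizer_iff.1 ht' x (by simp)
        have : t * (g⁻¹ * x * g) = g⁻¹ * (g * t * g⁻¹ * x) * g := by group
        rw [this, ← hcomm]
        group
    · intro z hz
      exact (Finset.mem_filter.1 hz).2.2.2
  have hcard : ∀ H : Subgroup G, (Finset.univ.filter fun x => x ∈ H).card = Nat.card H := by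
    intro H
    exact (Nat.subtype_card _ (by simp)).symm
  have hAcard : A.card + Nat.card N = Nat.card G := by
    rw [← hcard N, add_comm, Finset.card_filter_add_card_filter_not (s := Finset.univ) (fun x => x ∈ N)]
    simp [Nat.card_eq_fintype_card]
  have hCcard : C.card + Nat.card (S ⊓ N : Subgroup G) = Nat.card S := by
    rw [← hcard (S ⊓ N), ← hcard S, add_comm]
    rw [← Finset.card_filter_add_card_filter_not (s := Finset.univ.filter fun x => x ∈ S) (fun x => x ∈ N)]
    congr 2
    · ext x; simp [Subgroup.mem_inf]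
    · ext x; simp [C]
  have h1 : N.index * Nat.card N = Nat.card G := Subgroup.index_mul_card N
  have h2 : S.index * Nat.card S = Nat.card G := Subgroup.index_mul_card S
  have hepos : 0 < N.index := Nat.pos_of_ne_zero Subgroup.FiniteIndex.index_ne_zero
  have hipos : 0 < S.index := Nat.pos_of_ne_zero Subgroup.FiniteIndex.index_ne_zero
  have h3 : S.index * Nat.card (S ⊓ N : Subgroup G) = Nat.card N := by
    apply Nat.eq_of_mul_eq_mul_left hepos
    rw [h1, ← h2, ← hs0, ← he]
    ring
  have h4 : S.index * C.card = A.card := by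
    have h5 : S.index * C.card + S.index * Nat.card (S ⊓ N : Subgroup G) = S.index * Nat.card S := by
      rw [← mul_add, hCcard]
    rw [h3, h2, ← hAcard] at h5
    omega
  have h6 : C.card ≤ B.card := by
    have : S.index * C.card ≤ S.index * B.card := by rw [h4]; exact hA
    exact Nat.le_of_mul_le_mul_left this hipos
  have hBC : B ⊆ C := by
    intro x hx
    have := (Finset.mem_filter.1 hx).2
    exact Finset.mem_filter.2 ⟨Finset.mem_univ _, this.1, this.2.1⟩
  have hBeq : B = C := Finset.eq_of_subset_of_card_le hBC h6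
  have hcentral : ∀ x ∈ S, x ∉ N → ∀ t ∈ S, t * x = x * t := by
    intro x hxS hxN
    have : x ∈ B := by
      rw [hBeq]; exact Finset.mem_filter.2 ⟨Finset.mem_univ _, hxS, hxN⟩
    exact (Finset.mem_filter.1 this).2.2.2
  have hab : ∀ a ∈ (S' : Subgroup G), ∀ b ∈ (S' : Subgroup G), a * b = b * a := by
    rw [hS']
    intro a ha b hb
    by_cases haN : a ∈ N
    · have h7 : x0 * a ∉ N := fun hm => hx0 (by simpa using N.mul_mem hm (N.inv_mem haN))
      have h8 := hcentral (x0 * a) (S.mul_mem hx0S ha) h7 b hb
      have h9 := hcentral x0 hx0S hx0 b hb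
      have h10 : x0 * (b * a) = x0 * (a * b) := by
        calc x0 * (b * a) = (x0 * b) * a := by group
          _ = (b * x0) * a := by rw [h9]
          _ = b * (x0 * a) := by group
          _ = (x0 * a) * b := h8
          _ = x0 * (a * b) := by group
      exact (mul_left_cancel h10).symm
    · exact (hcentral a ha haN b hb).symm
  exact Cfsg.Agent.Lib.Basic.MaxCentralizer.isSolvable_of_abelian_sylow_coatom S' hab (by rw [hS']; exact hSc)

end Cfsg.Agent.S3903
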