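import Cfsg.Statements.S3908
import Mathlib
import Cfsg.Agent.Lib.PGroup.CyclicMax2

set_option autoImplicit false
open Cfsg

namespace Cfsg.Agent.S3908

open Cfsg.Agent.Lib.PGroup.CyclicMax Cfsg.Agent.Lib.PGroup.CyclicMax2 Subgroup

theorem key {G : Type*} [Group G] [Finite G] (hB : ∀ A B : Subgroup G, IsMulCommutative ↥A → IsMulCommutative ↥B → Nat.card ↥A = Nat.card ↥B → ∃ g : G, B = A.map (MulAut.conj g).toMonoidHom)
    {p : ℕ} [hp : Fact p.Prime] (P : Subgroup G) (hP : IsPGroup p P) {x : G} (hxP : x ∈ P)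
    (hx : x ^ p ≠ 1) : UniqueP p P := by
  have hp' := hp.out
  by_contra hnu
  obtain ⟨E, hEc, hEe⟩ := exists_order_sq_of_not_uniqueP hP hnu
  have hx' : (⟨x, hxP⟩ : P) ^ p ≠ 1 := by
    intro hc
    apply hx
    simpa using congrArg Subtype.val hc
  obtain ⟨i, hi⟩ := exists_pow_order_sq hP hx'
  obtain ⟨y, hy⟩ : ∃ y : G, y = x ^ i := ⟨_, rfl⟩
  have hyo : orderOf y = p ^ 2 := by
    rw [hy, ← hi, ← Subgroup.orderOf_coe]
    simp
  have hEe' := Cfsg.Agent.Lib.PGroup.Basic.isElementaryAbelian_iff.mp hEe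
  have hE'c : IsMulCommutative (E.map P.subtype) := by
    refine ⟨⟨fun a b => Subtype.ext ?_⟩⟩
    obtain ⟨a', ha', ha⟩ := a.2
    obtain ⟨b', hb', hb⟩ := b.2
    show (a : G) * b = b * a
    rw [← ha, ← hb]
    have := hEe'.1 a' ha' b' hb'
    simpa using congrArg Subtype.val this
  have hcard : Nat.card (zpowers y) = Nat.card (E.map P.subtype) := by
    rw [Nat.card_zpowers, hyo, Subgroup.card_map_of_injective P.subtype_injective, hEc]
  obtain ⟨g, hg⟩ := hB (zpowers y) (E.map P.subtype) inferInstance hE'c hcard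
  have hmem : g * y * g⁻¹ ∈ E.map P.subtype := by
    rw [hg]
    exact ⟨y, mem_zpowers y, rfl⟩
  obtain ⟨e, he, heq⟩ := hmem
  have h1 : (g * y * g⁻¹) ^ p = 1 := by
    rw [← heq]
    have := hEe'.2 e he
    simpa using congrArg Subtype.val this
  have h2 : y ^ p = 1 := by
    rw [conj_pow] at h1
    have : g * y ^ p * g⁻¹ = 1 := h1
    have h3 : y ^ p = g⁻¹ * (g * y ^ p * g⁻¹) * g := by group
    rw [h3, this]; group
  have h3 := orderOf_dvd_of_pow_eq_one h2
  rw [hyo] at h3
  have h4 := Nat.le_of_dvd hp'.pos h3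
  have := hp'.two_le
  nlinarith

/-- Let G be a finite group in which any two abelian subgroups of the same order are conjugate. Then a Sylow 2-subgroup of G is cyclic, elementary abelian or generalized quaternion, and for an odd prime p a Sylow p-subgroup of G is cyclic or has exponent dividing p. -/
theorem result {G : Type*} [Group G] [Finite G] (hB : ∀ A B : Subgroup G, IsMulCommutative ↥A → IsMulCommutative ↥B → Nat.card ↥A = Nat.card ↥B → ∃ g : G, B = A.map (MulAut.conj g).toMonoidHom) :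
    (∀ P : Sylow 2 G, IsCyclic ↥(P : Subgroup G) ∨ Cfsg.IsElementaryAbelian 2 (P : Subgroup G) ∨ ∃ k : ℕ, Nonempty (↥(P : Subgroup G) ≃* QuaternionGroup (2 ^ k))) ∧
    ∀ (p : ℕ) [Fact p.Prime], p ≠ 2 → ∀ P : Sylow p G, IsCyclic ↥(P : Subgroup G) ∨ ∀ x ∈ (P : Subgroup G), x ^ p = 1 := by
  constructor
  · intro P
    haveI : Fact (Nat.Prime 2) := ⟨Nat.prime_two⟩
    by_cases hexp : ∀ x ∈ (P : Subgroup G), x ^ 2 = 1
    · right; left
      rw [Cfsg.Agent.Lib.PGroup.Basic.isElementaryAbelian_iff]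
      refine ⟨fun a ha b hb => ?_, hexp⟩
      have h1 := hexp _ (mul_mem ha hb)
      have ha2 := hexp a ha
      have hb2 := hexp b hb
      rw [pow_two] at h1 ha2 hb2
      have e1 : a⁻¹ = a := inv_eq_of_mul_eq_one_left ha2
      have e2 : b⁻¹ = b := inv_eq_of_mul_eq_one_left hb2
      have e3 : (a * b)⁻¹ = a * b := inv_eq_of_mul_eq_one_left h1
      rw [mul_inv_rev, e1, e2] at e3
      exact e3.symm
    · push Not at hexp
      obtain ⟨x, hxP, hx⟩ := hexp
      have hu := key hB (P : Subgroup G) P.isPGroup' hxP hx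
      rcases cyclic_or_quaternion P.isPGroup' hu with h | ⟨_, u, b, n, hSC, hn, hcard, hb, hbu, hb2⟩
      · exact Or.inl h
      · exact Or.inr (Or.inr ⟨n - 1, quaternion_of_data (by omega) hSC.hu hcard hb hbu hb2⟩)
  · intro p _ hp2 P
    by_cases hexp : ∀ x ∈ (P : Subgroup G), x ^ p = 1
    · exact Or.inr hexp
    · push Not at hexp
      obtain ⟨x, hxP, hx⟩ := hexp
      have hu := key hB (P : Subgroup G) P.isPGroup' hxP hx
      rcases cyclic_or_quaternion P.isPGroup' hu with h | ⟨h2, _⟩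
      · exact Or.inl h
      · exact (hp2 h2).elim

end Cfsg.Agent.S3908
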