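import Cfsg.Statements.S3909
import Mathlib
-- import your own Cfsg.Agent.* helpers here

set_option autoImplicit false
open Cfsg

namespace Cfsg.Agent.S3909

open Subgroup

/-- Let G be a finite group in which any two abelian subgroups of the same order are conjugate. Let M be a normal subgroup of G. If M contains an element of the same order as a ∈ G, then a ∈ M; and if M is elementary abelian of order p^t with p prime and t ≥ 2, then M is the unique Sylow p-subgroup of G. -/
theorem result {G : Type*} [Group G] [Finite G] (hB : ∀ A B : Subgroup G, IsMulCommutative ↥A → IsMulCommutative ↥B → Nat.card ↥A = Nat.card ↥B → ∃ g : G, B = A.map (MulAut.conj g).toMonoidHom) (M : Subgroup G) [M.Normal] :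
    (∀ a : G, (∃ m ∈ M, orderOf m = orderOf a) → a ∈ M) ∧
    ∀ (p t : ℕ) [Fact p.Prime], 2 ≤ t → Nat.card ↥M = p ^ t → Cfsg.IsElementaryAbelian p M → ∀ P : Sylow p G, (P : Subgroup G) = M := by
  classical
  have hM : M.Normal := inferInstance
  have hconj : ∀ B : Subgroup G, IsMulCommutative B → B ≤ M → ∀ y : G,
      Nat.card (zpowers y) = Nat.card B → y ∈ M := by
    intro B hBc hBM y hy
    obtain ⟨g, hg⟩ := hB B (zpowers y) hBc inferInstance hy.symm
    have h1 : y ∈ B.map (MulAut.conj g).toMonoidHom := hg ▸ mem_zpowers y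
    obtain ⟨b, hb, rfl⟩ := h1
    exact hM.conj_mem b (hBM hb) g
  refine ⟨?_, ?_⟩
  · rintro a ⟨m, hm, hma⟩
    apply hconj (zpowers m) inferInstance (zpowers_le.mpr hm) a
    rw [Nat.card_zpowers, Nat.card_zpowers, hma]
  · intro p t hp ht hcard hEA P
    have hMp : IsPGroup p M := IsPGroup.of_card hcard
    apply le_antisymm _ (hMp.le_sylow_of_normal P)
    have hsmall : ∀ j ≤ t, ∀ y : G, orderOf y = p ^ j → y ∈ M := by
      intro j hj y hy
      obtain ⟨K, hK⟩ := Sylow.exists_subgroup_card_pow_prime (G := M) p
        (hcard ▸ pow_dvd_pow p hj)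
      refine hconj (K.map M.subtype) ?_ ?_ y ?_
      · constructor
        constructor
        rintro ⟨_, ⟨x, _, rfl⟩⟩ ⟨_, ⟨z, _, rfl⟩⟩
        apply Subtype.ext
        have h1 := hEA.1.is_comm.comm x z
        show (x : G) * z = z * x
        exact congrArg Subtype.val h1
      · rintro _ ⟨x, _, rfl⟩
        exact x.2
      · rw [Nat.card_zpowers, hy, Subgroup.card_map_of_injective M.subtype_injective, hK]
    have hall : ∀ k, ∀ y : G, orderOf y = p ^ k → y ∈ M := by
      intro k
      induction k with
      | zero =>
        intro y hy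
        exact hsmall 0 (by omega) y hy
      | succ k ih =>
        intro y hy
        by_cases hk : k + 1 ≤ 2
        · exact hsmall _ (by omega) y hy
        · exfalso
          have hp0 : p ≠ 0 := (Fact.out : p.Prime).ne_zero
          have h1 : orderOf (y ^ p) = p ^ k := by
            rw [orderOf_pow_of_dvd hp0 (by rw [hy]; exact dvd_pow_self p (by omega)), hy, pow_succ,
              Nat.mul_div_cancel _ (Nat.pos_of_ne_zero hp0)]
          have h2 := ih _ h1
          have h3 : (y ^ p) ^ p = 1 := hEA.2 _ h2
          have h4 : orderOf y ∣ p ^ 2 := orderOf_dvd_of_pow_eq_one (by rw [sq, pow_mul]; exact h3)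
          rw [hy] at h4
          have h5 := (Nat.pow_dvd_pow_iff_le_right (Fact.out : p.Prime).one_lt).mp h4
          omega
    intro x hx
    obtain ⟨k, hk⟩ := (IsPGroup.iff_orderOf.mp P.2) ⟨x, hx⟩
    rw [Subgroup.orderOf_mk] at hk
    exact hall k x hk

end Cfsg.Agent.S3909
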