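import Cfsg.Statements.S3910
import Mathlib
import Cfsg.Agent.Lib.Nilpotent.Elements
import Cfsg.Agent.S0065

set_option autoImplicit false
open Cfsg

namespace Cfsg.Agent.S3910

open Cfsg.Agent.Lib.Nilpotent.Elements

variable {G : Type*} [Group G] [Finite G]

/-- The subgroup of a normal cyclic subgroup generated by a power of a generator is normal. -/
theorem zpowers_pow_normal {a0 : G} (hA : (Subgroup.zpowers a0).Normal) (k : ℕ) :
    (Subgroup.zpowers (a0 ^ k)).Normal := by
  constructor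
  intro n hn g
  obtain ⟨t, ht⟩ := Subgroup.mem_zpowers_iff.1 hn
  have h1 : g * a0 * g⁻¹ ∈ Subgroup.zpowers a0 := hA.conj_mem a0 (Subgroup.mem_zpowers a0) g
  obtain ⟨s, hs⟩ := Subgroup.mem_zpowers_iff.1 h1
  have h2 : g * n * g⁻¹ = (a0 ^ k) ^ (s * t) := by
    have h3 : g * (a0 ^ k) ^ t * g⁻¹ = (g * a0 * g⁻¹) ^ ((k : ℤ) * t) := by
      rw [conj_zpow, zpow_mul, zpow_natCast]
    rw [← ht, h3, ← hs, ← zpow_natCast, ← zpow_mul, ← zpow_mul]
    congr 1
    ring
  rw [h2]
  exact Subgroup.zpow_mem_zpowers _ _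

theorem sylow_cyclic (hB : ∀ A B : Subgroup G, IsMulCommutative ↥A → IsMulCommutative ↥B → Nat.card ↥A = Nat.card ↥B → ∃ g : G, B = A.map (MulAut.conj g).toMonoidHom) (hnil : Group.IsNilpotent G)
    {p : ℕ} [hp : Fact p.Prime] (P : Sylow p G) : IsCyclic (P : Subgroup G) := by
  -- choose a maximal normal cyclic `p`-subgroup
  let 𝒜 := {A : Subgroup G // A.Normal ∧ IsPGroup p A ∧ IsCyclic A}
  haveI : Nonempty 𝒜 := ⟨⟨⊥, inferInstance, IsPGroup.of_bot, inferInstance⟩⟩
  obtain ⟨⟨A, hAn, hAp, hAc⟩, hmax⟩ := Finite.exists_max (fun A : 𝒜 => Nat.card A.1)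
  haveI := hAn
  have hAP : A ≤ (P : Subgroup G) := by
    intro x hx
    obtain ⟨k, hk⟩ := exists_pow_eq_one_of_mem hAp hx
    exact mem_sylow_of_pow_eq_one P hk
  suffices hAeq : A = P by
    rw [← hAeq]
    exact hAc
  by_contra hne
  obtain ⟨a0, ha0⟩ := (Subgroup.isCyclic_iff_exists_zpowers_eq_top A).1 hAc
  let π := QuotientGroup.mk' A
  have hπ : Function.Surjective π := QuotientGroup.mk'_surjective A
  haveI : (P : Subgroup G).Normal := inferInstance
  haveI hNn : ((P : Subgroup G).map π).Normal := Subgroup.Normal.map inferInstance π hπ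
  have hNne : (P : Subgroup G).map π ≠ ⊥ := by
    intro hbot
    apply hne
    rw [Subgroup.map_eq_bot_iff, QuotientGroup.ker_mk'] at hbot
    exact le_antisymm hAP hbot
  have hcen := Cfsg.Agent.S0065.result ((P : Subgroup G).map π) hNne
  -- a central element of order `p` in `P/A`
  obtain ⟨c, hc, hc1⟩ := (Subgroup.bot_or_exists_ne_one _).resolve_left hcen
  obtain ⟨⟨x0, hx0, rfl⟩, hcZ⟩ := hc
  obtain ⟨j, hj⟩ := exists_pow_eq_one_of_mem P.2 hx0
  have hcpow : ∃ w ∈ (P : Subgroup G), π w ≠ 1 ∧ π w ∈ Subgroup.center (G ⧸ A) ∧ (π w) ^ p = 1 := by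
    -- find the least power killing
    have hex : ∃ i, (π x0) ^ p ^ i = 1 := ⟨j, by rw [← map_pow, hj, map_one]⟩
    classical
    let i := Nat.find hex
    have hi : (π x0) ^ p ^ i = 1 := Nat.find_spec hex
    have hi0 : i ≠ 0 := by
      intro h0
      apply hc1
      have : (π x0) ^ p ^ 0 = 1 := h0 ▸ hi
      simpa using this
    obtain ⟨i', hi'⟩ : ∃ i', i = i' + 1 := ⟨i - 1, by omega⟩
    have hmin : (π x0) ^ p ^ i' ≠ 1 := Nat.find_min hex (by omega)
    refine ⟨x0 ^ p ^ i', Subgroup.pow_mem _ hx0 _, ?_, ?_, ?_⟩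
    · rwa [map_pow]
    · rw [map_pow]
      exact Subgroup.pow_mem _ hcZ _
    · rw [map_pow, ← pow_mul, ← pow_succ, ← hi']
      exact hi
  obtain ⟨w, hwP, hw1, hwZ, hwp⟩ := hcpow
  set d := π w with hd
  have hwA : w ∉ A := by
    intro hw
    apply hw1
    rw [hd, ← MonoidHom.mem_ker, QuotientGroup.ker_mk']
    exact hw
  have hdorder : orderOf d = p := orderOf_eq_prime hwp hw1
  -- `B`
  have hzn : (Subgroup.zpowers d).Normal := by
    constructor
    intro n hn g
    have hnZ : n ∈ Subgroup.center (G ⧸ A) :=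
      (Subgroup.zpowers_le.2 hwZ) hn
    have : g * n * g⁻¹ = n := by
      rw [(Subgroup.mem_center_iff.1 hnZ g)]
      simp
    rw [this]
    exact hn
  let B := (Subgroup.zpowers d).comap π
  haveI hBn : B.Normal := Subgroup.Normal.comap hzn π
  have hAB : A ≤ B := by
    intro x hx
    show π x ∈ Subgroup.zpowers d
    have : π x = 1 := by
      rw [← MonoidHom.mem_ker, QuotientGroup.ker_mk']
      exact hx
    rw [this]
    exact Subgroup.one_mem _
  have hcardB : Nat.card B = Nat.card A * p := by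
    have h1 : (⊥ : Subgroup G).relIndex A * A.relIndex B = (⊥ : Subgroup G).relIndex B :=
      Subgroup.relIndex_mul_relIndex _ _ _ bot_le hAB
    rw [Subgroup.relIndex_bot_left, Subgroup.relIndex_bot_left] at h1
    rw [← h1]
    congr 1
    have h2 : (⊥ : Subgroup (G ⧸ A)).comap π = A := QuotientGroup.ker_mk' A
    have h5 : A.relIndex B = (⊥ : Subgroup (G ⧸ A)).relIndex (B.map π) := by
      have := Subgroup.relIndex_comap (⊥ : Subgroup (G ⧸ A)) π B
      rwa [h2] at this
    have h3 : B.map π = Subgroup.zpowers d := Subgroup.map_comap_eq_self_of_surjective hπ _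
    rw [h5, h3, Subgroup.relIndex_bot_left, Nat.card_zpowers, hdorder]
  -- orders
  have hcardA : Nat.card A = orderOf a0 := by
    rw [← ha0, Nat.card_zpowers]
  obtain ⟨a, ha⟩ : ∃ a, orderOf a0 = p ^ a :=
    (exists_pow_eq_one_iff a0).1 (exists_pow_eq_one_of_mem hAp (by rw [← ha0]; exact Subgroup.mem_zpowers a0))
  obtain ⟨b, hb⟩ : ∃ b, orderOf w = p ^ b :=
    (exists_pow_eq_one_iff w).1 (exists_pow_eq_one_of_mem P.2 hwP)
  have hAnz : (Subgroup.zpowers a0).Normal := by rw [ha0]; exact hAn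
  by_cases hba : b ≤ a
  · -- the element `w` is conjugate into `A`
    have hsub := zpowers_pow_normal hAnz (p ^ (a - b))
    have hdvd : p ^ (a - b) ∣ orderOf a0 := by
      rw [ha]
      exact pow_dvd_pow _ (Nat.sub_le a b)
    have hord : orderOf (a0 ^ p ^ (a - b)) = p ^ b := by
      rw [orderOf_pow_of_dvd (pow_ne_zero _ hp.out.ne_zero) hdvd, ha]
      rw [Nat.pow_div (Nat.sub_le a b) hp.out.pos]
      congr 1
      omega
    obtain ⟨g, hg⟩ := hB (Subgroup.zpowers (a0 ^ p ^ (a - b))) (Subgroup.zpowers w) inferInstance inferInstance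
      (by rw [Nat.card_zpowers, Nat.card_zpowers, hord, hb])
    have hsame : (Subgroup.zpowers (a0 ^ p ^ (a - b))).map (MulAut.conj g).toMonoidHom
        = Subgroup.zpowers (a0 ^ p ^ (a - b)) := Subgroup.Normal.map_conj_eq _ g
    rw [hsame] at hg
    have hw : w ∈ Subgroup.zpowers (a0 ^ p ^ (a - b)) := by
      rw [← hg]
      exact Subgroup.mem_zpowers w
    apply hwA
    rw [← ha0]
    exact Subgroup.zpowers_le.2 (Subgroup.pow_mem _ (Subgroup.mem_zpowers a0) _) hw
  · -- `B` is cyclic, generated by `w`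
    have hwB : w ∈ B := by
      show π w ∈ Subgroup.zpowers d
      exact Subgroup.mem_zpowers _
    have hle : Subgroup.zpowers w ≤ B := Subgroup.zpowers_le.2 hwB
    have hBeq : Subgroup.zpowers w = B := by
      apply Subgroup.eq_of_le_of_card_ge hle
      rw [hcardB, Nat.card_zpowers, hb, hcardA, ha, ← pow_succ]
      exact Nat.pow_le_pow_right hp.out.pos (by omega)
    have hBcyc : IsCyclic B := by
      rw [Subgroup.isCyclic_iff_exists_zpowers_eq_top]
      exact ⟨w, hBeq⟩
    have hBp : IsPGroup p B := by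
      rw [← hBeq]
      apply IsPGroup.of_card (n := b)
      rw [Nat.card_zpowers, hb]
    have := hmax ⟨B, hBn, hBp, hBcyc⟩
    simp only at this
    rw [hcardB] at this
    have hApos : 0 < Nat.card A := Nat.card_pos
    have := hp.out.two_le
    nlinarith

/-- A finite nilpotent group in which any two abelian subgroups of the same order are conjugate is cyclic. -/
theorem result {G : Type*} [Group G] [Finite G] (hB : ∀ A B : Subgroup G, IsMulCommutative ↥A → IsMulCommutative ↥B → Nat.card ↥A = Nat.card ↥B → ∃ g : G, B = A.map (MulAut.conj g).toMonoidHom) (hnil : Group.IsNilpotent G) : IsCyclic G := by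
  haveI : IsZGroup G := ⟨fun p hp P => by
    haveI : Fact p.Prime := ⟨hp⟩
    exact sylow_cyclic hB hnil P⟩
  infer_instance

end Cfsg.Agent.S3910
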