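import Cfsg.Statements.S3911
import Mathlib
import Cfsg.Agent.S3908
import Cfsg.Agent.S3909

set_option autoImplicit false
open Cfsg

namespace Cfsg.Agent.S3911

open Subgroup
open scoped Pointwise

/-- The hypothesis on `G`. -/
def HB (G : Type*) [Group G] : Prop :=
  ∀ A B : Subgroup G, IsMulCommutative ↥A → IsMulCommutative ↥B → Nat.card ↥A = Nat.card ↥B →
    ∃ g : G, B = A.map (MulAut.conj g).toMonoidHom

section abstractE

variable {E : Type*} [Group E] [Finite E]

theorem sylow_normal (K : Subgroup E) [K.Normal] (hcomm : ∀ a b : E, a * b * a⁻¹ * b⁻¹ ∈ K)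
    (hmin : ∀ X : Subgroup E, X ⊔ K = ⊤ → X = ⊤) {p : ℕ} [Fact p.Prime] (R : Sylow p E) :
    (R : Subgroup E).Normal := by
  haveI hN : ((R : Subgroup E) ⊔ K).Normal := by
    constructor
    intro n hn g
    have h1 : g * n * g⁻¹ * n⁻¹ ∈ K := hcomm g n
    have h2 : g * n * g⁻¹ = (g * n * g⁻¹ * n⁻¹) * n := by group
    rw [h2]
    exact mul_mem (mem_sup_right h1) hn
  have h := R.normalizer_sup_eq_top' (N := (R : Subgroup E) ⊔ K) le_sup_left
  have htop : Subgroup.normalizer ((R : Subgroup E) : Set E) ⊔ K = ⊤ := by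
    rw [eq_top_iff, ← h]
    exact sup_le le_sup_left (sup_le (le_trans le_normalizer le_sup_left) le_sup_right)
  exact normalizer_eq_top_iff.mp (hmin _ htop)

theorem sylow_eq_bot_of_le (K : Subgroup E) [K.Normal] (hcomm : ∀ a b : E, a * b * a⁻¹ * b⁻¹ ∈ K)
    (hmin : ∀ X : Subgroup E, X ⊔ K = ⊤ → X = ⊤) {p : ℕ} [Fact p.Prime] (R : Sylow p E)
    (hR : (R : Subgroup E) ≤ K) : (R : Subgroup E) = ⊥ := by
  haveI := sylow_normal K hcomm hmin R
  obtain ⟨X, hX⟩ := Subgroup.exists_right_complement'_of_coprime R.card_coprime_index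
  have h1 : X ⊔ K = ⊤ := by
    rw [eq_top_iff, ← hX.sup_eq_top]
    exact sup_le (le_trans hR le_sup_right) le_sup_left
  have h2 := hmin X h1
  subst h2
  have := hX.disjoint
  exact disjoint_top.mp this

theorem comm_of_sylow_comm (hn : ∀ {p : ℕ} [Fact p.Prime] {P : Sylow p E}, (P : Subgroup E).Normal)
    (hc : ∀ {p : ℕ} [Fact p.Prime] (P : Sylow p E), ∀ a ∈ (P : Subgroup E), ∀ b ∈ (P : Subgroup E),
      a * b = b * a) (a b : E) : a * b = b * a := by
  let e := Sylow.directProductOfNormal (fun _ => hn)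
  obtain ⟨x, rfl⟩ := e.surjective a
  obtain ⟨y, rfl⟩ := e.surjective b
  rw [← map_mul, ← map_mul]
  congr 1
  funext p P
  haveI : Fact (Nat.Prime p) := ⟨Nat.prime_of_mem_primeFactors p.2⟩
  exact Subtype.ext (hc P _ (x p P).2 _ (y p P).2)

end abstractE

variable {G : Type*} [Group G] [Finite G]

/-- Minimal supplement to `M` with abelian image. -/
structure IsSupp (M A₀ : Subgroup G) : Prop where
  comm : ∀ a ∈ A₀, ∀ b ∈ A₀, a * b * a⁻¹ * b⁻¹ ∈ M
  min : ∀ X ≤ A₀, X ⊔ M = A₀ ⊔ M → X = A₀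

theorem IsSupp.comm' {M A₀ : Subgroup G} (h : IsSupp M A₀) (a b : ↥A₀) :
    a * b * a⁻¹ * b⁻¹ ∈ M.subgroupOf A₀ := by
  rw [mem_subgroupOf]
  simpa using h.comm a a.2 b b.2

theorem IsSupp.min' {M A₀ : Subgroup G} (h : IsSupp M A₀) (X : Subgroup ↥A₀)
    (hX : X ⊔ M.subgroupOf A₀ = ⊤) : X = ⊤ := by
  have h1 : X.map A₀.subtype ≤ A₀ := map_subtype_le X
  have h0 := congrArg (map A₀.subtype) hX
  rw [Subgroup.map_sup, subgroupOf_map_subtype, ← MonoidHom.range_eq_map, range_subtype] at h0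
  have h2 : (X.map A₀.subtype) ⊔ M = A₀ ⊔ M := by
    apply le_antisymm (sup_le_sup_right h1 _)
    apply sup_le _ le_sup_right
    exact h0.symm.le.trans (sup_le le_sup_left (le_trans inf_le_left le_sup_right))
  have h3 := h.min _ h1 h2
  rw [eq_top_iff]
  intro x _
  have hx : (x : G) ∈ X.map A₀.subtype := by rw [h3]; exact x.2
  obtain ⟨y, hy, hyx⟩ := hx
  have hyx' : y = x := Subtype.ext hyx
  exact hyx' ▸ hy

instance subgroupOf_normal_aux (M A₀ : Subgroup G) [M.Normal] : (M.subgroupOf A₀).Normal :=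
  Subgroup.Normal.subgroupOf inferInstance A₀

theorem exists_isSupp (M A₁ : Subgroup G) (hM : M ≤ A₁)
    (hc : ∀ a ∈ A₁, ∀ b ∈ A₁, a * b * a⁻¹ * b⁻¹ ∈ M) :
    ∃ A₀ : Subgroup G, A₀ ⊔ M = A₁ ∧ IsSupp M A₀ := by
  obtain ⟨A₀, hA₀⟩ := (Set.toFinite {X : Subgroup G | X ⊔ M = A₁}).exists_minimal
    ⟨A₁, sup_eq_left.mpr hM⟩
  have h1 : A₀ ⊔ M = A₁ := hA₀.1
  refine ⟨A₀, h1, ?_, ?_⟩
  · intro a ha b hb
    exact hc a (h1 ▸ mem_sup_left ha) b (h1 ▸ mem_sup_left hb)
  · intro X hX hXM
    have : X ⊔ M = A₁ := hXM.trans h1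
    exact le_antisymm hX (hA₀.2 this hX)

/-- Order of `A₀` in terms of its image. -/
theorem card_eq (M A₀ : Subgroup G) [M.Normal] :
    Nat.card A₀ = Nat.card (A₀.map (QuotientGroup.mk' M)) * Nat.card (A₀ ⊓ M : Subgroup G) := by
  let φ : ↥A₀ →* G ⧸ M := (QuotientGroup.mk' M).comp A₀.subtype
  have hker : φ.ker = M.subgroupOf A₀ := by
    ext x
    simp [φ, MonoidHom.mem_ker, mem_subgroupOf]
  have hrange : φ.range = A₀.map (QuotientGroup.mk' M) := by
    rw [MonoidHom.range_comp, range_subtype]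
  have h1 : Nat.card φ.ker * φ.ker.index = Nat.card A₀ := Subgroup.card_mul_index _
  rw [Subgroup.index_ker, hrange] at h1
  have h2 : Nat.card φ.ker = Nat.card (A₀ ⊓ M : Subgroup G) := by
    have h3 := Subgroup.card_map_of_injective (K := M.subgroupOf A₀) (f := A₀.subtype)
      A₀.subtype_injective
    rw [hker, ← h3, subgroupOf_map_subtype, inf_comm]
  rw [← h1, h2, mul_comm]

/-- Sylow subgroups are conjugate. -/
theorem exists_conj_sylow {p : ℕ} [Fact p.Prime] (P P' : Sylow p G) :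
    ∃ g : G, ∀ y ∈ (P' : Subgroup G), g⁻¹ * y * g ∈ (P : Subgroup G) := by
  obtain ⟨g, hg⟩ := MulAction.exists_smul_eq G P P'
  refine ⟨g, fun y hy => ?_⟩
  rw [← hg] at hy
  have h1 : y ∈ MulAut.conj g • (P : Subgroup G) := hy
  rw [Subgroup.mem_pointwise_smul_iff_inv_smul_mem] at h1
  simpa [MulAut.smul_def, MulAut.conj_inv_apply] using h1

theorem factorization_le_inf {p : ℕ} [hp : Fact p.Prime] (P : Sylow p G) (M : Subgroup G) [hM : M.Normal] :
    (Nat.card M).factorization p ≤ (Nat.card (P ⊓ M : Subgroup G)).factorization p := by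
  let S : Sylow p ↥M := default
  have hS : IsPGroup p ((S : Subgroup M).map M.subtype) := S.isPGroup'.map M.subtype
  obtain ⟨P', hP'⟩ := hS.exists_le_sylow
  obtain ⟨g, hg⟩ := exists_conj_sylow P P'
  let f : G →* G := (MulAut.conj g⁻¹).toMonoidHom
  have hf : Function.Injective f := (MulAut.conj g⁻¹).injective
  have hle : ((S : Subgroup M).map M.subtype).map f ≤ (P ⊓ M : Subgroup G) := by
    rintro _ ⟨_, ⟨s, hs, rfl⟩, rfl⟩
    have h1 : f (M.subtype s) = g⁻¹ * (s : G) * g := by
      simp [f]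
    rw [h1]
    refine ⟨hg _ (hP' ⟨s, hs, rfl⟩), ?_⟩
    have := hM.conj_mem (s : G) s.2 g⁻¹
    simpa using this
  have hd := Subgroup.card_dvd_of_le hle
  rw [Subgroup.card_map_of_injective hf, Subgroup.card_map_of_injective M.subtype_injective,
    S.card_eq_multiplicity] at hd
  exact (hp.out.pow_dvd_iff_le_factorization Nat.card_pos.ne').mp hd

theorem pow_card_sub (X : Subgroup G) {x : G} (hx : x ∈ X) : x ^ Nat.card X = 1 := by
  have h2 : ((⟨x, hx⟩ : X) ^ Nat.card X) = 1 := pow_card_eq_one'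
  exact congrArg Subtype.val h2

/-- Subgroups of a cyclic subgroup with dividing order are nested. -/
theorem cyclic_le {P X Y : Subgroup G} (hP : IsCyclic P) (hX : X ≤ P) (hY : Y ≤ P)
    (h : Nat.card X ∣ Nat.card Y) : X ≤ Y := by
  classical
  haveI := Fintype.ofFinite P
  intro x hx
  have hxn : x ^ Nat.card Y = 1 := by
    have h1 : x ^ Nat.card X = 1 := pow_card_sub X hx
    obtain ⟨k, hk⟩ := h
    rw [hk, pow_mul, h1, one_pow]
  have hcardle := IsCyclic.card_pow_eq_one_le (α := P) (n := Nat.card Y) Nat.card_pos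
  -- the image of Y fills the solutions
  let S : Finset P := Finset.univ.filter fun a : P => a ^ Nat.card Y = 1
  let T : Finset P := Finset.univ.filter fun a : P => (a : G) ∈ Y
  have hTS : T ⊆ S := by
    intro a ha
    simp only [T, S, Finset.mem_filter, Finset.mem_univ, true_and] at ha ⊢
    apply Subtype.ext
    simpa using pow_card_sub Y ha
  have hTcard : T.card = Nat.card Y := by
    have h1 : Nat.card (Y.subgroupOf P) = T.card :=
      Nat.subtype_card T (by simp [T, mem_subgroupOf])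
    rw [← h1]
    exact Nat.card_congr (Subgroup.subgroupOfEquivOfLe hY).toEquiv
  have hEq : T = S := Finset.eq_of_subset_of_card_le hTS (by rw [hTcard]; exact hcardle)
  have hxS : (⟨x, hX hx⟩ : P) ∈ S := by
    simp only [S, Finset.mem_filter, Finset.mem_univ, true_and]
    apply Subtype.ext
    simpa using hxn
  rw [← hEq] at hxS
  simpa [T] using hxS

/-! ### Local analysis -/

section local_

variable (M A₀ : Subgroup G) [hM : M.Normal]

/-- `p` is harmless for `M`. -/
def Good (M : Subgroup G) (p : ℕ) [Fact p.Prime] : Prop :=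
  ¬ p ∣ Nat.card M ∨ ∀ P : Sylow p G, IsCyclic (P : Subgroup G) ∨ ∀ x ∈ (P : Subgroup G), x ^ p = 1

variable {M A₀}

theorem le_of_exp (hB : HB G) {p : ℕ} [hp : Fact p.Prime] (hpM : p ∣ Nat.card M) (P : Sylow p G)
    (hexp : ∀ x ∈ (P : Subgroup G), x ^ p = 1) : (P : Subgroup G) ≤ M := by
  intro x hx
  by_cases hx1 : x = 1
  · rw [hx1]; exact one_mem _
  have ho : orderOf x = p := orderOf_eq_prime (hexp x hx) hx1
  obtain ⟨m, hm⟩ := exists_prime_orderOf_dvd_card' (G := M) p hpM
  refine (Cfsg.Agent.S3909.result hB M).1 x ⟨m, m.2, ?_⟩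
  rw [ho, ← hm, Subgroup.orderOf_coe]

/-- A Sylow subgroup of `A₀` lying in `M` is trivial. -/
theorem sylow_bot (h : IsSupp M A₀) {p : ℕ} [hp : Fact p.Prime] (R : Sylow p A₀)
    (hR : (R : Subgroup A₀).map A₀.subtype ≤ M) : (R : Subgroup A₀) = ⊥ := by
  apply sylow_eq_bot_of_le (M.subgroupOf A₀) h.comm' h.min'
  intro x hx
  rw [mem_subgroupOf]
  exact hR ⟨x, hx, rfl⟩

theorem not_dvd_of_sylow_bot {p : ℕ} [hp : Fact p.Prime] (R : Sylow p A₀)
    (hR : (R : Subgroup A₀) = ⊥) : ¬ p ∣ Nat.card A₀ := by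
  have h1 := R.card_eq_multiplicity
  rw [hR, Subgroup.card_bot] at h1
  intro hd
  have h2 : 1 ≤ (Nat.card A₀).factorization p :=
    (hp.out.dvd_iff_one_le_factorization Nat.card_pos.ne').mp hd
  have h3 : p ^ 1 ≤ p ^ (Nat.card A₀).factorization p := Nat.pow_le_pow_right hp.out.pos h2
  have := hp.out.two_le
  rw [pow_one] at h3
  omega

/-- If `p` does not divide the order of the image, `p` does not divide `|A₀|`. -/
theorem not_dvd_card (h : IsSupp M A₀) {p : ℕ} [hp : Fact p.Prime]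
    (hm : ¬ p ∣ Nat.card (A₀.map (QuotientGroup.mk' M))) : ¬ p ∣ Nat.card A₀ := by
  let R : Sylow p A₀ := default
  apply not_dvd_of_sylow_bot R
  apply sylow_bot h
  rintro _ ⟨x, hx, rfl⟩
  obtain ⟨j, hj⟩ := (IsPGroup.iff_orderOf.mp R.isPGroup') ⟨x, hx⟩
  have h1 : ((x : G) : G) ^ p ^ j = 1 := by
    have h2 : (⟨x, hx⟩ : (R : Subgroup A₀)) ^ p ^ j = 1 := by
      rw [← hj]; exact pow_orderOf_eq_one _
    have h3 := congrArg (fun y : (R : Subgroup A₀) => ((y : A₀) : G)) h2
    simpa using h3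
  have h4 : (QuotientGroup.mk' M (x : G)) ^ p ^ j = 1 := by
    rw [← map_pow, h1, map_one]
  have h5 : (QuotientGroup.mk' M (x : G)) ^ Nat.card (A₀.map (QuotientGroup.mk' M)) = 1 :=
    pow_card_sub _ ⟨x, x.2, rfl⟩
  have hcop : Nat.gcd (Nat.card (A₀.map (QuotientGroup.mk' M))) (p ^ j) = 1 :=
    Nat.Coprime.pow_right j ((Nat.Prime.coprime_iff_not_dvd hp.out).mpr hm).symm
  have h6 := pow_gcd_eq_one.mpr ⟨h5, h4⟩
  rw [hcop, pow_one] at h6
  show (x : G) ∈ M
  exact (QuotientGroup.eq_one_iff _).mp h6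

/-- Sylow subgroups of `A₀` are abelian for good primes. -/
theorem sylow_comm (hB : HB G) (h : IsSupp M A₀) {p : ℕ} [hp : Fact p.Prime] (hg : Good M p)
    (R : Sylow p A₀) (a b : A₀) (ha : a ∈ (R : Subgroup A₀)) (hb : b ∈ (R : Subgroup A₀)) :
    a * b = b * a := by
  by_cases hpM : p ∣ Nat.card M
  · have hg' := hg.resolve_left (not_not.mpr hpM)
    obtain ⟨P, hP⟩ := ((R.isPGroup'.map A₀.subtype) :
      IsPGroup p ((R : Subgroup A₀).map A₀.subtype)).exists_le_sylow
    rcases hg' P with hc | hexp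
    · have h1 : ((a : G)) * b = b * a := by
        have ha' : (a : G) ∈ (P : Subgroup G) := hP ⟨a, ha, rfl⟩
        have hb' : (b : G) ∈ (P : Subgroup G) := hP ⟨b, hb, rfl⟩
        have := (IsCyclic.isMulCommutative (α := (P : Subgroup G))).is_comm.comm
          (⟨a, ha'⟩ : (P : Subgroup G)) ⟨b, hb'⟩
        exact congrArg Subtype.val this
      exact Subtype.ext h1
    · have h1 := le_of_exp hB hpM P hexp
      have h2 := sylow_bot h R (le_trans hP h1)
      rw [h2, Subgroup.mem_bot] at ha hb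
      rw [ha, hb]
  · -- commutator is in `R ∩ M`, which is trivial
    set y : A₀ := a * b * a⁻¹ * b⁻¹ with hy
    have hyR : y ∈ (R : Subgroup A₀) := mul_mem (mul_mem (mul_mem ha hb) (inv_mem ha)) (inv_mem hb)
    have hyM : (y : G) ∈ M := by
      have := h.comm' a b
      rwa [mem_subgroupOf] at this
    obtain ⟨j, hj⟩ := (IsPGroup.iff_orderOf.mp R.isPGroup') ⟨y, hyR⟩
    have h1 : (y : G) ^ p ^ j = 1 := by
      have h2 : (⟨y, hyR⟩ : (R : Subgroup A₀)) ^ p ^ j = 1 := by
        rw [← hj]; exact pow_orderOf_eq_one _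
      have h3 := congrArg (fun z : (R : Subgroup A₀) => ((z : A₀) : G)) h2
      simpa using h3
    have h5 : (y : G) ^ Nat.card M = 1 := pow_card_sub M hyM
    have hcop : Nat.gcd (Nat.card M) (p ^ j) = 1 :=
      Nat.Coprime.pow_right j ((Nat.Prime.coprime_iff_not_dvd hp.out).mpr hpM).symm
    have h6 := pow_gcd_eq_one.mpr ⟨h5, h1⟩
    rw [hcop, pow_one] at h6
    have hy1 : y = 1 := Subtype.ext (by simpa using h6)
    have h7 : a * b * a⁻¹ * b⁻¹ = 1 := hy1
    calc a * b = (a * b * a⁻¹ * b⁻¹) * (b * a) := by group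
      _ = b * a := by rw [h7, one_mul]

/-- The key count for good primes. -/
theorem factorization_inf (hB : HB G) (h : IsSupp M A₀) {p : ℕ} [hp : Fact p.Prime] (hg : Good M p)
    (hm : p ∣ Nat.card (A₀.map (QuotientGroup.mk' M))) :
    (Nat.card (A₀ ⊓ M : Subgroup G)).factorization p = (Nat.card M).factorization p := by
  have hd : Nat.card (A₀ ⊓ M : Subgroup G) ∣ Nat.card M :=
    Subgroup.card_dvd_of_le inf_le_right
  have hle := (Nat.factorization_le_iff_dvd Nat.card_pos.ne' Nat.card_pos.ne').mpr hd p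
  apply le_antisymm hle
  by_cases hpM : p ∣ Nat.card M
  · have hg' := hg.resolve_left (not_not.mpr hpM)
    let R : Sylow p A₀ := default
    obtain ⟨P, hP⟩ := ((R.isPGroup'.map A₀.subtype) :
      IsPGroup p ((R : Subgroup A₀).map A₀.subtype)).exists_le_sylow
    -- `R` is not inside `M`
    have hnot : ¬ (R : Subgroup A₀).map A₀.subtype ≤ M := by
      intro hle'
      have h2 := sylow_bot h R hle'
      have h3 := not_dvd_of_sylow_bot R h2
      apply h3
      rw [card_eq M A₀]
      exact dvd_mul_of_dvd_left hm _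
    rcases hg' P with hc | hexp
    · refine le_trans (factorization_le_inf P M) ?_
      have hWp : IsPGroup p (P ⊓ M : Subgroup G) :=
        P.isPGroup'.to_le (inf_le_left)
      have hRp : IsPGroup p ((R : Subgroup A₀).map A₀.subtype) := R.isPGroup'.map A₀.subtype
      obtain ⟨a, ha⟩ := IsPGroup.iff_card.mp hWp
      obtain ⟨b, hb⟩ := IsPGroup.iff_card.mp hRp
      have hWR : (P ⊓ M : Subgroup G) ≤ (R : Subgroup A₀).map A₀.subtype := by
        rcases le_total a b with hab | hab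
        · exact cyclic_le hc inf_le_left hP (by rw [ha, hb]; exact pow_dvd_pow p hab)
        · exact absurd (le_trans (cyclic_le hc hP inf_le_left (by rw [ha, hb]; exact pow_dvd_pow p hab))
            inf_le_right) hnot
      have hle2 : (P ⊓ M : Subgroup G) ≤ (A₀ ⊓ M : Subgroup G) :=
        le_inf (le_trans hWR (map_subtype_le _)) inf_le_right
      exact (Nat.factorization_le_iff_dvd Nat.card_pos.ne' Nat.card_pos.ne').mpr
        (Subgroup.card_dvd_of_le hle2) p
    · exact absurd (le_trans hP (le_of_exp hB hpM P hexp)) hnot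
  · rw [Nat.factorization_eq_zero_of_not_dvd hpM]
    exact Nat.zero_le _

/-- All of `A₀`'s order, prime by prime. -/
theorem factorization_card (hB : HB G) (h : IsSupp M A₀) {p : ℕ} [hp : Fact p.Prime] (hg : Good M p) :
    (Nat.card A₀).factorization p =
      if p ∣ Nat.card (A₀.map (QuotientGroup.mk' M)) then
        (Nat.card (A₀.map (QuotientGroup.mk' M))).factorization p + (Nat.card M).factorization p
      else 0 := by
  split_ifs with hm
  · rw [card_eq M A₀, Nat.factorization_mul Nat.card_pos.ne' Nat.card_pos.ne']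
    simp only [Finsupp.coe_add, Pi.add_apply]
    rw [factorization_inf hB h hg hm]
  · exact Nat.factorization_eq_zero_of_not_dvd (not_dvd_card h hm)

/-- `A₀` is abelian when all primes are good. -/
theorem isMulCommutative_of_good (hB : HB G) (h : IsSupp M A₀)
    (hg : ∀ (p : ℕ) [Fact p.Prime], Good M p) : IsMulCommutative A₀ := by
  refine ⟨⟨fun a b => ?_⟩⟩
  apply comm_of_sylow_comm (E := A₀)
  · intro p _ P
    exact sylow_normal (M.subgroupOf A₀) h.comm' h.min' P
  · intro p _ P a ha b hb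
    exact sylow_comm hB h (hg p) P a b ha hb

end local_

/-- Primes other than 2 are good; so is 2 when `M` has odd order. -/
theorem good_of_ne_two (hB : HB G) (M : Subgroup G) {p : ℕ} [Fact p.Prime] (hp : p ≠ 2) : Good M p :=
  Or.inr fun P => (Cfsg.Agent.S3908.result hB).2 p hp P

/-- Passing from supplements to the quotient. -/
theorem conj_of_supp (M : Subgroup G) [M.Normal] (A B : Subgroup (G ⧸ M)) (A₀ B₀ : Subgroup G)
    (hA : A₀.map (QuotientGroup.mk' M) = A) (hB : B₀.map (QuotientGroup.mk' M) = B) (g : G)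
    (hg : B₀ = A₀.map (MulAut.conj g).toMonoidHom) :
    ∃ g : G ⧸ M, B = A.map (MulAut.conj g).toMonoidHom := by
  refine ⟨QuotientGroup.mk' M g, ?_⟩
  rw [← hA, ← hB, hg, Subgroup.map_map, Subgroup.map_map]
  congr 1

/-- For a subgroup of the quotient, a minimal supplement exists. -/
theorem exists_supp_of_quot (M : Subgroup G) [M.Normal] (A : Subgroup (G ⧸ M))
    (hA : IsMulCommutative A) :
    ∃ A₀ : Subgroup G, A₀.map (QuotientGroup.mk' M) = A ∧ IsSupp M A₀ := by
  let A₁ := A.comap (QuotientGroup.mk' M)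
  have hM : M ≤ A₁ := by
    intro x hx
    show QuotientGroup.mk' M x ∈ A
    have : QuotientGroup.mk' M x = 1 := (QuotientGroup.eq_one_iff x).mpr hx
    rw [this]; exact one_mem _
  have hc : ∀ a ∈ A₁, ∀ b ∈ A₁, a * b * a⁻¹ * b⁻¹ ∈ M := by
    intro a ha b hb
    have h1 := hA.is_comm.comm (⟨_, ha⟩ : A) ⟨_, hb⟩
    have h2 : QuotientGroup.mk' M a * QuotientGroup.mk' M b =
        QuotientGroup.mk' M b * QuotientGroup.mk' M a := congrArg Subtype.val h1
    have h3 : QuotientGroup.mk' M (a * b * a⁻¹ * b⁻¹) = 1 := by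
      simp only [map_mul, map_inv, h2]
      group
    exact (QuotientGroup.eq_one_iff _).mp h3
  obtain ⟨A₀, h1, h2⟩ := exists_isSupp M A₁ hM hc
  refine ⟨A₀, ?_, h2⟩
  have h3 : A₁.map (QuotientGroup.mk' M) = A :=
    Subgroup.map_comap_eq_self_of_surjective (QuotientGroup.mk'_surjective M) A
  rw [← h3, ← h1, Subgroup.map_sup]
  have h4 : M.map (QuotientGroup.mk' M) = ⊥ := by
    rw [eq_bot_iff]
    rintro _ ⟨x, hx, rfl⟩
    exact (Subgroup.mem_bot).mpr ((QuotientGroup.eq_one_iff x).mpr hx)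
  rw [h4, sup_bot_eq]

theorem card_eq_of_factorization {A₀ B₀ : Subgroup G} (h : ∀ p : ℕ, p.Prime →
    (Nat.card A₀).factorization p = (Nat.card B₀).factorization p) : Nat.card A₀ = Nat.card B₀ := by
  apply Nat.eq_of_factorization_eq Nat.card_pos.ne' Nat.card_pos.ne'
  intro p
  by_cases hp : p.Prime
  · exact h p hp
  · rw [Nat.factorization_eq_zero_of_not_prime _ hp, Nat.factorization_eq_zero_of_not_prime _ hp]

/-- Let G be a finite group in which any two abelian subgroups of the same order are conjugate. If M is a normal subgroup of G of odd order, then any two abelian subgroups of G/M of the same order are conjugate in G/M. -/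
theorem result {G : Type*} [Group G] [Finite G] (hB : ∀ A B : Subgroup G, IsMulCommutative ↥A → IsMulCommutative ↥B → Nat.card ↥A = Nat.card ↥B → ∃ g : G, B = A.map (MulAut.conj g).toMonoidHom) (M : Subgroup G) [M.Normal] (hM : Odd (Nat.card ↥M)) :
    ∀ A B : Subgroup (G ⧸ M), IsMulCommutative ↥A → IsMulCommutative ↥B → Nat.card ↥A = Nat.card ↥B →
      ∃ g : G ⧸ M, B = A.map (MulAut.conj g).toMonoidHom := by
  intro A B hAc hBc hcard
  have hg : ∀ (p : ℕ) [Fact p.Prime], Good M p := by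
    intro p _
    by_cases hp : p = 2
    · subst hp
      exact Or.inl (by simpa [Nat.odd_iff, Nat.dvd_iff_mod_eq_zero] using hM)
    · exact good_of_ne_two hB M hp
  obtain ⟨A₀, hA₀, hAs⟩ := exists_supp_of_quot M A hAc
  obtain ⟨B₀, hB₀, hBs⟩ := exists_supp_of_quot M B hBc
  have hcA := isMulCommutative_of_good hB hAs hg
  have hcB := isMulCommutative_of_good hB hBs hg
  have hcc : Nat.card A₀ = Nat.card B₀ := by
    apply card_eq_of_factorization
    intro p hp
    haveI : Fact p.Prime := ⟨hp⟩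
    rw [factorization_card hB hAs (hg p), factorization_card hB hBs (hg p), hA₀, hB₀, hcard]
  obtain ⟨g, hgg⟩ := hB A₀ B₀ hcA hcB hcc
  exact conj_of_supp M A B A₀ B₀ hA₀ hB₀ g hgg

end Cfsg.Agent.S3911
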