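import Cfsg.Statements.S3917
import Mathlib
-- import your own Cfsg.Agent.* helpers here

set_option autoImplicit false
open Cfsg

namespace Cfsg.Agent.S3917

theorem aux_prime {G : Type*} [CommGroup G] [Finite G] {p : ℕ} [hp : Fact p.Prime] (z u : G)
    (hz : z ^ p = 1) (hz1 : z ≠ 1) (hu : u ∈ Subgroup.zpowers z) (hu1 : u ≠ 1) :
    z ∈ Subgroup.zpowers u := by
  have h1 : orderOf z = p := orderOf_eq_prime hz hz1
  have h2 : u ^ p = 1 := by
    obtain ⟨k, rfl⟩ := Subgroup.mem_zpowers_iff.1 hu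
    rw [← zpow_natCast, ← zpow_mul, mul_comm, zpow_mul, zpow_natCast, hz, one_zpow]
  have h3 : orderOf u = p := orderOf_eq_prime h2 hu1
  have h4 : Subgroup.zpowers u = Subgroup.zpowers z := by
    apply Subgroup.eq_of_le_of_card_ge (Subgroup.zpowers_le.2 hu)
    rw [Nat.card_zpowers, Nat.card_zpowers, h1, h3]
  rw [h4]
  exact Subgroup.mem_zpowers z


/-- Say that a group has self-centralizing non-cyclic subgroups when every non-cyclic subgroup H satisfies C_G(H) ≤ H. A finite abelian group with self-centralizing non-cyclic subgroups is cyclic or elementary abelian of order p² for a prime p. -/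
theorem result {G : Type*} [CommGroup G] [Finite G] (hX : (∀ H : Subgroup G, ¬ IsCyclic ↥H → Subgroup.centralizer (H : Set G) ≤ H)) :
    IsCyclic G ∨ ∃ p : ℕ, p.Prime ∧ Nat.card G = p ^ 2 ∧ Monoid.exponent G = p := by
  classical
  by_cases hcyc : IsCyclic G
  · exact Or.inl hcyc
  right
  have he0 : Monoid.exponent G ≠ 0 := Monoid.exponent_ne_zero_of_finite
  obtain ⟨x, hx⟩ := Monoid.exists_orderOf_eq_exponent (Monoid.exponent_ne_zero.1 he0)
  set e := Monoid.exponent G with he
  set C := Subgroup.zpowers x with hCdef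
  have hC : C ≠ ⊤ := by
    intro h
    exact hcyc ⟨⟨x, fun y => (show y ∈ C from h ▸ Subgroup.mem_top y)⟩⟩
  have hcard : Nat.card (G ⧸ C) ≠ 1 := by
    intro h
    apply hC
    rw [← Subgroup.index_eq_one]
    exact h
  have hp : (Nat.card (G ⧸ C)).minFac.Prime := Nat.minFac_prime hcard
  set p := (Nat.card (G ⧸ C)).minFac with hpdef
  have : Fact p.Prime := ⟨hp⟩
  obtain ⟨ybar, hybar⟩ := exists_prime_orderOf_dvd_card' p (Nat.minFac_dvd _)
  obtain ⟨y, rfl⟩ := QuotientGroup.mk_surjective ybar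
  have hyC : y ∉ C := by
    intro h
    have h1 : ((y : G) : G ⧸ C) = 1 := (QuotientGroup.eq_one_iff y).2 h
    rw [h1, orderOf_one] at hybar
    exact hp.one_lt.ne hybar
  have hypC : y ^ p ∈ C := by
    rw [← QuotientGroup.eq_one_iff, QuotientGroup.mk_pow, ← hybar, pow_orderOf_eq_one]
  obtain ⟨k, hk⟩ := Subgroup.mem_zpowers_iff.1 hypC
  have hpe : p ∣ e := by
    rw [← hybar]
    apply orderOf_dvd_of_pow_eq_one
    rw [← QuotientGroup.mk_pow, he, Monoid.pow_exponent_eq_one, QuotientGroup.mk_one]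
  obtain ⟨e', he'⟩ := hpe
  have he'0 : e' ≠ 0 := by
    rintro rfl
    exact he0 (by simpa using he')
  have hpk : (p : ℤ) ∣ k := by
    have h1 : x ^ (k * e') = 1 := by
      rw [zpow_mul, hk, zpow_natCast, ← pow_mul, ← he', he, Monoid.pow_exponent_eq_one]
    have h2 := orderOf_dvd_iff_zpow_eq_one.2 h1
    rw [hx, he'] at h2
    push_cast at h2
    exact (mul_dvd_mul_iff_right (by exact_mod_cast he'0)).1 h2
  obtain ⟨l, rfl⟩ := hpk
  set z := y * x ^ (-l) with hz
  have hzp : z ^ p = 1 := by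
    rw [hz, mul_pow, ← hk, ← zpow_natCast (x ^ (-l)), ← zpow_mul, ← zpow_add]
    have : (p : ℤ) * l + -l * (p : ℤ) = 0 := by ring
    rw [this, zpow_zero]
  have hzC : z ∉ C := by
    intro h
    apply hyC
    have h1 : y = z * x ^ l := by
      rw [hz, mul_assoc, ← zpow_add]
      simp
    rw [h1]
    exact mul_mem h (zpow_mem (Subgroup.mem_zpowers x) _)
  have hz1 : z ≠ 1 := fun h => hzC (h ▸ one_mem _)
  set w := x ^ e' with hw
  have hwp : w ^ p = 1 := by
    rw [hw, ← pow_mul, mul_comm, ← he', he, Monoid.pow_exponent_eq_one]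
  have hw1 : w ≠ 1 := by
    refine pow_ne_one_of_lt_orderOf he'0 ?_
    rw [hx, he']
    have := hp.one_lt
    exact lt_mul_of_one_lt_left (Nat.pos_of_ne_zero he'0) this
  have hwC : w ∈ C := pow_mem (Subgroup.mem_zpowers x) _
  have hzwC : ∀ u ∈ Subgroup.zpowers w, u ∈ C := by
    intro u hu
    exact (Subgroup.zpowers_le.2 hwC) hu
  set H := Subgroup.zpowers z ⊔ Subgroup.zpowers w with hH
  have hHp : H ≤ (powMonoidHom p : G →* G).ker := by
    refine sup_le (Subgroup.zpowers_le.2 ?_) (Subgroup.zpowers_le.2 ?_)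
    · exact hzp
    · exact hwp
  have hHnc : ¬ IsCyclic H := by
    rintro ⟨⟨g, hg⟩⟩
    have hw' : (w : G) ∈ Subgroup.zpowers (g : G) := by
      obtain ⟨k, hk⟩ := hg ⟨w, (le_sup_right : Subgroup.zpowers w ≤ H) (Subgroup.mem_zpowers w)⟩
      exact ⟨k, by simpa using congrArg Subtype.val hk⟩
    have hz' : (z : G) ∈ Subgroup.zpowers (g : G) := by
      obtain ⟨k, hk⟩ := hg ⟨z, (le_sup_left : Subgroup.zpowers z ≤ H) (Subgroup.mem_zpowers z)⟩
      exact ⟨k, by simpa using congrArg Subtype.val hk⟩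
    have hgp : (g : G) ^ p = 1 := hHp g.2
    have hg1 : (g : G) ≠ 1 := by
      intro h
      rw [h] at hz'
      exact hz1 (Subgroup.mem_bot.1 (by simpa using hz'))
    have h1 := aux_prime (g : G) w hgp hg1 hw' hw1
    have h2 : (g : G) ∈ C := hzwC _ h1
    exact hzC ((Subgroup.zpowers_le.2 h2) hz')
  have hHtop : H = ⊤ := by
    have h1 := hX H hHnc
    rw [eq_top_iff]
    refine le_trans ?_ h1
    intro a _
    rw [Subgroup.mem_centralizer_iff]
    intro b _
    exact mul_comm b a
  have hdisj : Subgroup.zpowers z ⊓ Subgroup.zpowers w = ⊥ := by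
    rw [Subgroup.eq_bot_iff_forall]
    rintro u ⟨hu1, hu2⟩
    by_contra hu
    exact hzC (hzwC _ ((Subgroup.zpowers_le.2 hu2) (aux_prime z u hzp hz1 hu1 hu)))
  have hcardG : Nat.card G = p ^ 2 := by
    have h1 := Subgroup.card_mul_index (Subgroup.zpowers z)
    have h2 : (Subgroup.zpowers z).index = p := by
      rw [← Subgroup.relIndex_top_right, ← hHtop, hH,
        Subgroup.relIndex_sup_left, ← Subgroup.inf_relIndex_right, hdisj, Subgroup.relIndex_bot_left,
        Nat.card_zpowers, orderOf_eq_prime hwp hw1]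
    rw [← h1, h2, Nat.card_zpowers, orderOf_eq_prime hzp hz1, pow_two]
  refine ⟨p, hp, hcardG, ?_⟩
  apply Nat.dvd_antisymm
  · apply Monoid.exponent_dvd_of_forall_pow_eq_one
    intro g
    have : g ∈ H := hHtop ▸ Subgroup.mem_top g
    exact hHp this
  · rw [he', ← he', he]
    rw [← orderOf_eq_prime hzp hz1]
    exact Monoid.order_dvd_exponent z

end Cfsg.Agent.S3917
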