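import Cfsg.Statements.S3918
import Mathlib
import Cfsg.Agent.Lib.PGroup.NormalRank
import Cfsg.Agent.Lib.PGroup.CyclicMax2
import Cfsg.Agent.S3919
-- import your own Cfsg.Agent.* helpers here

set_option autoImplicit false
open Cfsg

namespace Cfsg.Agent.S3918

open Subgroup Cfsg.Agent.Lib.PGroup.CyclicMax2 Cfsg.Agent.Lib.PGroup.NormalRank
open Cfsg.Agent.S3919 (comm_of_isCyclic)

theorem three_le_card {G : Type*} [Group G] [Finite G] {p : ℕ} [hp : Fact p.Prime]
    (hna : ¬ IsMulCommutative G) {n : ℕ} (hG : Nat.card G = p ^ n) : 3 ≤ n := by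
  by_contra hcon
  have hn : n = 0 ∨ n = 1 ∨ n = 2 := by omega
  rcases hn with rfl | rfl | rfl
  · apply hna
    have : Subsingleton G := (Nat.card_eq_one_iff_unique.mp (by simpa using hG)).1
    exact isMulCommutative_iff.mpr fun a b => Subsingleton.elim _ _
  · rw [pow_one] at hG
    exact hna (comm_of_isCyclic (isCyclic_of_prime_card hG))
  · exact hna (IsPGroup.isMulCommutative_of_card_eq_prime_sq hG)

theorem not_isCyclic_of_elementary {G : Type*} [Group G] [Finite G] {p : ℕ} [hp : Fact p.Prime]
    {H : Subgroup G} (hE : Cfsg.IsElementaryAbelian p H) (hc : Nat.card H = p ^ 2) : ¬ IsCyclic H := by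
  intro hcyc
  obtain ⟨g, hg⟩ := IsCyclic.exists_ofOrder_eq_natCard (α := H)
  rw [hc] at hg
  have h2 : (g : G) ^ p = 1 := (Cfsg.Agent.Lib.PGroup.Basic.isElementaryAbelian_iff.mp hE).2 g g.2
  have h3 : g ^ p = 1 := Subtype.ext (by simpa using h2)
  have h4 := orderOf_dvd_of_pow_eq_one h3
  rw [hg] at h4
  have h5 := Nat.le_of_dvd hp.out.pos h4
  have h6 : p * 2 ≤ p * p := Nat.mul_le_mul_left p hp.out.two_le
  have h7 := hp.out.pos
  nlinarith

theorem card_of_self {G : Type*} [Group G] [Finite G] {p : ℕ} [hp : Fact p.Prime] (hp2 : p ≠ 2)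
    (hG : IsPGroup p G) (hna : ¬ IsMulCommutative G)
    (hS : ∀ H : Subgroup G, ¬ IsCyclic H → centralizer (H : Set G) ≤ H) : Nat.card G = p ^ 3 := by
  classical
  haveI := Fintype.ofFinite G
  have hp' := hp.out
  have hnc : ¬ IsCyclic (⊤ : Subgroup G) := by
    intro hc
    apply hna
    exact comm_of_isCyclic (isCyclic_of_surjective (Subgroup.topEquiv (G := G)) (Subgroup.topEquiv (G := G)).surjective)
  obtain ⟨E, -, hEn, hEe, hEc⟩ := exists_normal_rank_two hp2 hG ⊤ hnc
  have hEnc := not_isCyclic_of_elementary hEe hEc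
  have hCE := hS E hEnc
  haveI : Nontrivial G := by
    by_contra hcon
    rw [not_nontrivial_iff_subsingleton] at hcon
    exact hna (isMulCommutative_iff.mpr fun a b => Subsingleton.elim _ _)
  obtain ⟨z, hzc, hz⟩ := exists_central_order_p hG
  have hzp : z ^ p = 1 := by rw [← hz]; exact pow_orderOf_eq_one z
  have hcardz : Nat.card (zpowers z) = p := by rw [Nat.card_zpowers, hz]
  have hzE : z ∈ E := by
    apply hCE
    rw [Subgroup.mem_centralizer_iff]
    intro a _
    exact ((Subgroup.mem_center_iff.mp hzc) a)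
  have hzle : zpowers z ≤ E := zpowers_le.mpr hzE
  have hpp : p < p ^ 2 := by
    rw [pow_two]
    have := hp'.two_le
    nlinarith
  have ht : ∃ t ∈ E, t ∉ zpowers z := by
    by_contra hcon
    push Not at hcon
    have : E ≤ zpowers z := fun t ht => hcon t ht
    have h1 := Subgroup.card_le_of_le this
    rw [hEc, hcardz] at h1
    omega
  obtain ⟨t, htE, htz⟩ := ht
  have htp : t ^ p = 1 := (Cfsg.Agent.Lib.PGroup.Basic.isElementaryAbelian_iff.mp hEe).2 t htE
  have ht1 : t ≠ 1 := by
    rintro rfl
    exact htz (one_mem _)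
  have hordt : orderOf t = p := orderOf_eq_prime htp ht1
  have hcardt : Nat.card (zpowers t) = p := by rw [Nat.card_zpowers, hordt]
  haveI hzn : (zpowers z).Normal := by
    refine ⟨fun x hx g => ?_⟩
    have h1 : x ∈ center G := (zpowers_le.mpr hzc) hx
    rw [Subgroup.mem_center_iff] at h1
    have : g * x * g⁻¹ = x := by rw [h1 g]; group
    rw [this]; exact hx
  have hd : Disjoint (zpowers t) (zpowers z) := by
    rw [Subgroup.disjoint_def]
    intro x hxv hxz
    by_contra hx1
    have h1 : (⟨x, hxv⟩ : zpowers t) ≠ 1 := fun hc => hx1 (congrArg Subtype.val hc)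
    have h2 := mem_zpowers_of_prime_card hcardt (g' := (⟨t, mem_zpowers t⟩ : zpowers t)) h1
    obtain ⟨i, hi⟩ := h2
    apply htz
    have h3 : x ^ i = t := by simpa using congrArg Subtype.val hi
    rw [← h3]
    exact zpow_mem hxz i
  have hcardH : Nat.card (zpowers t ⊔ zpowers z : Subgroup G) = p ^ 2 := by
    rw [card_sup_eq_of_disjoint _ _ hd, hcardt, hcardz, pow_two]
  have hHe : Cfsg.IsElementaryAbelian p (zpowers t ⊔ zpowers z : Subgroup G) := by
    apply Cfsg.Agent.Lib.PGroup.Basic.IsElementaryAbelian.sup_zpowers (isElementaryAbelian_zpowers htp) hzp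
    intro a _
    exact ((Subgroup.mem_center_iff.mp hzc) a).symm
  have hHnc := not_isCyclic_of_elementary hHe hcardH
  have hCle : centralizer ({t} : Set G) ≤ (zpowers t ⊔ zpowers z : Subgroup G) := by
    refine le_trans ?_ (hS _ hHnc)
    intro g hg
    rw [Subgroup.mem_centralizer_singleton_iff] at hg
    rw [Subgroup.mem_centralizer_iff]
    have hle : (zpowers t ⊔ zpowers z : Subgroup G) ≤ centralizer ({g} : Set G) := by
      apply sup_le
      · rw [zpowers_le, Subgroup.mem_centralizer_singleton_iff]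
        exact hg.symm
      · rw [zpowers_le, Subgroup.mem_centralizer_singleton_iff]
        exact ((Subgroup.mem_center_iff.mp hzc) g).symm
    intro a ha
    have := hle ha
    rw [Subgroup.mem_centralizer_singleton_iff] at this
    exact this
  have hcardC := Subgroup.card_le_of_le hCle
  rw [hcardH] at hcardC
  -- the conjugacy class
  let FE : Finset G := (E : Set G).toFinset
  let FZ : Finset G := (zpowers z : Set G).toFinset
  have hFE : FE.card = p ^ 2 := by
    rw [← hEc, Nat.card_eq_fintype_card]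
    exact Set.toFinset_card _
  have hFZ : FZ.card = p := by
    conv_rhs => rw [← hcardz, Nat.card_eq_fintype_card]
    exact Set.toFinset_card _
  have hsub : FZ ⊆ FE := by
    intro g hg
    simp only [FE, FZ, Set.mem_toFinset, SetLike.mem_coe] at hg ⊢
    exact hzle hg
  let F : Finset G := FE \ FZ
  have hF : F.card = p ^ 2 - p := by
    rw [Finset.card_sdiff_of_subset hsub, hFE, hFZ]
  have hmem : ∀ g : G, g * t * g⁻¹ ∈ F := by
    intro g
    simp only [F, FE, FZ, Finset.mem_sdiff, Set.mem_toFinset, SetLike.mem_coe]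
    refine ⟨hEn.conj_mem t htE g, fun hc => htz ?_⟩
    have h1 := hzn.conj_mem _ hc g⁻¹
    simpa [mul_assoc] using h1
  let f : G ⧸ centralizer ({t} : Set G) → F := fun a => ⟨a.out * t * a.out⁻¹, hmem _⟩
  have hf : Function.Injective f := by
    intro a c hac
    have h2 : a.out * t * a.out⁻¹ = c.out * t * c.out⁻¹ := congrArg Subtype.val hac
    rw [← QuotientGroup.out_eq' a, ← QuotientGroup.out_eq' c, QuotientGroup.eq, Subgroup.mem_centralizer_singleton_iff]
    have h3 : (a.out⁻¹ * c.out) * t = t * (a.out⁻¹ * c.out) := by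
      have h4 : c.out * t = a.out * t * a.out⁻¹ * c.out := by
        rw [h2]; group
      calc (a.out⁻¹ * c.out) * t = a.out⁻¹ * (c.out * t) := by group
        _ = a.out⁻¹ * (a.out * t * a.out⁻¹ * c.out) := by rw [h4]
        _ = t * (a.out⁻¹ * c.out) := by group
    exact h3
  have hidx : (centralizer ({t} : Set G)).index ≤ p ^ 2 - p := by
    have := Nat.card_le_card_of_injective f hf
    rw [Nat.card_eq_fintype_card (α := F), Fintype.card_coe, hF] at this
    exact this
  obtain ⟨k, hk⟩ := IsPGroup.iff_card.mp hG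
  have hdv : (centralizer ({t} : Set G)).index ∣ p ^ k := by
    rw [← hk]
    exact Subgroup.index_dvd_card _
  obtain ⟨a, _, ha⟩ := (Nat.dvd_prime_pow hp').mp hdv
  have ha2 : a < 2 := by
    by_contra hcon
    have h1 : p ^ 2 ≤ p ^ a := Nat.pow_le_pow_right hp'.pos (by omega)
    rw [ha] at hidx
    have h7 := hp'.pos
    omega
  have hidxp : (centralizer ({t} : Set G)).index ≤ p := by
    rw [ha]
    have : a = 0 ∨ a = 1 := by omega
    rcases this with rfl | rfl
    · simpa using hp'.one_lt.le
    · simp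
  have hcm := Subgroup.card_mul_index (centralizer ({t} : Set G))
  have hle3 : Nat.card G ≤ p ^ 3 := by
    rw [← hcm, pow_succ]
    exact Nat.mul_le_mul hcardC hidxp
  have h3 := three_le_card hna hk
  rw [hk] at hle3 ⊢
  have h4 : k ≤ 3 := (Nat.pow_le_pow_iff_right hp'.one_lt).mp hle3
  have : k = 3 := by omega
  rw [this]

theorem self_of_card {G : Type*} [Group G] [Finite G] {p : ℕ} [hp : Fact p.Prime]
    (hna : ¬ IsMulCommutative G) (hc : Nat.card G = p ^ 3) (H : Subgroup G) (hH : ¬ IsCyclic H) :
    centralizer (H : Set G) ≤ H := by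
  have hp' := hp.out
  have hd : Nat.card H ∣ p ^ 3 := by
    rw [← hc]; exact Subgroup.card_subgroup_dvd_card H
  obtain ⟨a, ha3, ha⟩ := (Nat.dvd_prime_pow hp').mp hd
  have ha' : a = 0 ∨ a = 1 ∨ a = 2 ∨ a = 3 := by omega
  rcases ha' with rfl | rfl | rfl | rfl
  · exfalso
    apply hH
    have : Subsingleton H := (Nat.card_eq_one_iff_unique.mp (by simpa using ha)).1
    exact isCyclic_of_subsingleton
  · exfalso
    apply hH
    rw [pow_one] at ha
    exact isCyclic_of_prime_card ha
  · intro x hx
    by_contra hxH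
    have hab : IsMulCommutative H := IsPGroup.isMulCommutative_of_card_eq_prime_sq ha
    have h1 := isMulCommutative_sup_zpowers hab hx
    have hlt : H < H ⊔ zpowers x := by
      refine lt_of_le_of_ne le_sup_left ?_
      intro he
      apply hxH
      rw [he]
      exact (le_sup_right : zpowers x ≤ H ⊔ zpowers x) (mem_zpowers x)
    have h2 := card_lt_of_lt hlt
    rw [ha] at h2
    have hd2 : Nat.card (H ⊔ zpowers x : Subgroup G) ∣ p ^ 3 := by
      rw [← hc]; exact Subgroup.card_subgroup_dvd_card _
    obtain ⟨b, hb3, hb⟩ := (Nat.dvd_prime_pow hp').mp hd2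
    rw [hb] at h2
    have hb' : 2 < b := (Nat.pow_lt_pow_iff_right hp'.one_lt).mp h2
    have hb4 : b = 3 := by omega
    have htop : H ⊔ zpowers x = ⊤ := by
      apply Subgroup.eq_top_of_card_eq
      rw [hb, hb4, hc]
    rw [htop] at h1
    apply hna
    refine isMulCommutative_iff.mpr fun u v => ?_
    have := h1.is_comm.comm ⟨u, mem_top u⟩ ⟨v, mem_top v⟩
    exact congrArg Subtype.val this
  · have htop : H = ⊤ := by
      apply Subgroup.eq_top_of_card_eq
      rw [ha, hc]
    rw [htop]
    exact le_top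

/-- Say that a group has self-centralizing non-cyclic subgroups when every non-cyclic subgroup H satisfies C_G(H) ≤ H. For an odd prime p, a finite non-abelian p-group has self-centralizing non-cyclic subgroups if and only if it has order p³. -/
theorem result {G : Type*} [Group G] [Finite G] {p : ℕ} [Fact p.Prime] (hp : p ≠ 2) (hG : IsPGroup p G) (hna : ¬ IsMulCommutative G) :
    (∀ H : Subgroup G, ¬ IsCyclic ↥H → Subgroup.centralizer (H : Set G) ≤ H) ↔ Nat.card G = p ^ 3 := by
  exact ⟨card_of_self hp hG hna, fun hc H hH => self_of_card hna hc H hH⟩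

end Cfsg.Agent.S3918
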