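import Cfsg.Statements.S3920
import Mathlib
-- import your own Cfsg.Agent.* helpers here

set_option autoImplicit false
open Cfsg

namespace Cfsg.Agent.S3920

open DihedralGroup

/-- The dihedral subgroup attached to a multiplier `u`. -/
def kerSub (n u : ℕ) : Subgroup (DihedralGroup n) where
  carrier := {x | ∃ i : ZMod n, (x = r i ∨ x = sr i) ∧ (u : ZMod n) * i = 0}
  mul_mem' := by
    rintro x y ⟨i, hi, h1⟩ ⟨j, hj, h2⟩
    rcases hi with rfl | rfl <;> rcases hj with rfl | rfl
    · exact ⟨i + j, Or.inl (r_mul_r _ _), by rw [mul_add, h1, h2, add_zero]⟩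
    · exact ⟨j - i, Or.inr (r_mul_sr _ _), by rw [mul_sub, h1, h2, sub_zero]⟩
    · exact ⟨i + j, Or.inr (sr_mul_r _ _), by rw [mul_add, h1, h2, add_zero]⟩
    · exact ⟨j - i, Or.inl (sr_mul_sr _ _), by rw [mul_sub, h1, h2, sub_zero]⟩
  one_mem' := ⟨0, Or.inl rfl, by simp⟩
  inv_mem' := by
    rintro x ⟨i, hi, h1⟩
    rcases hi with rfl | rfl
    · exact ⟨-i, Or.inl (inv_r _), by rw [mul_neg, h1, neg_zero]⟩
    · exact ⟨i, Or.inr (inv_sr _), h1⟩

lemma exists_sr {n : ℕ} [NeZero n] (H : Subgroup (DihedralGroup n)) (hH : ¬ IsCyclic ↥H) :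
    ∃ a : ZMod n, sr a ∈ H := by
  by_contra hcon
  push Not at hcon
  apply hH
  have hle : H ≤ Subgroup.zpowers (r (1 : ZMod n) : DihedralGroup n) := by
    intro x hx
    cases x with
    | sr i => exact absurd hx (hcon i)
    | r i =>
      refine Subgroup.mem_zpowers_iff.mpr ⟨(i.val : ℤ), ?_⟩
      rw [r_one_zpow]
      simp
  exact isCyclic_of_injective (Subgroup.inclusion hle) (Subgroup.inclusion_injective hle)

lemma comm_r {n : ℕ} {g : DihedralGroup n} {a j : ZMod n} (h : sr a * g = g * sr a) (hg : g = r j) :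
    2 * j = 0 := by
  subst hg
  rw [sr_mul_r, r_mul_sr] at h
  have h1 : a + j = a - j := sr.inj h
  linear_combination h1

lemma comm_sr {n : ℕ} {g : DihedralGroup n} {a b : ZMod n} (h : sr a * g = g * sr a) (hg : g = sr b) :
    2 * (b - a) = 0 := by
  subst hg
  rw [sr_mul_sr, sr_mul_sr] at h
  have h1 : b - a = a - b := r.inj h
  linear_combination h1

lemma odd_cancel {n : ℕ} (hn : Odd n) {j : ZMod n} (h : 2 * j = 0) : j = 0 := by
  have e1 : 2 * ((n + 1) / 2) = n + 1 := by
    obtain ⟨t, rfl⟩ := hn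
    omega
  have e2 : (2 : ZMod n) * (((n + 1) / 2 : ℕ) : ZMod n) = 1 := by
    have := congrArg (Nat.cast : ℕ → ZMod n) e1
    push_cast at this
    rw [this, ZMod.natCast_self, zero_add]
  calc j = ((2 : ZMod n) * (((n + 1) / 2 : ℕ) : ZMod n)) * j := by rw [e2, one_mul]
    _ = (2 * j) * (((n + 1) / 2 : ℕ) : ZMod n) := by ring
    _ = 0 := by rw [h, zero_mul]

/-- Two-torsion of `ZMod (2 ^ (k + 1))`. -/
lemma two_torsion {k : ℕ} {j : ZMod (2 ^ (k + 1))} (h : 2 * j = 0) :
    j = 0 ∨ j = ((2 ^ k : ℕ) : ZMod (2 ^ (k + 1))) := by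
  haveI : NeZero (2 ^ (k + 1)) := ⟨by positivity⟩
  have h1 : ((2 * j.val : ℕ) : ZMod (2 ^ (k + 1))) = 0 := by
    push_cast
    rw [ZMod.natCast_zmod_val, h]
  rw [ZMod.natCast_eq_zero_iff] at h1
  have h2 : 2 ^ k ∣ j.val := by
    have h1' : 2 * 2 ^ k ∣ 2 * j.val := by
      have e : 2 * 2 ^ k = 2 ^ (k + 1) := by ring
      rw [e]; exact h1
    exact Nat.dvd_of_mul_dvd_mul_left (by norm_num) h1'
  obtain ⟨c, hc⟩ := h2
  have hlt : j.val < 2 ^ (k + 1) := ZMod.val_lt j
  have hpos : 0 < 2 ^ k := by positivity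
  have hc2 : c < 2 := by
    by_contra hcon
    push Not at hcon
    have e : 2 ^ (k + 1) = 2 ^ k * 2 := by ring
    have hlt' := lt_of_lt_of_eq hlt e
    rw [hc] at hlt'
    nlinarith
  have hj : j = ((j.val : ℕ) : ZMod (2 ^ (k + 1))) := (ZMod.natCast_zmod_val j).symm
  interval_cases c
  · left
    rw [hj, hc]; simp
  · right
    rw [hj, hc]; simp

/-- For n ≥ 3... the theorem. -/
lemma power_case {k : ℕ} (H : Subgroup (DihedralGroup (2 ^ (k + 1)))) (hH : ¬ IsCyclic ↥H) :
    Subgroup.centralizer (H : Set (DihedralGroup (2 ^ (k + 1)))) ≤ H := by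
  haveI : NeZero (2 ^ (k + 1)) := ⟨by positivity⟩
  obtain ⟨a, ha⟩ := exists_sr H hH
  set z : ZMod (2 ^ (k + 1)) := ((2 ^ k : ℕ) : ZMod (2 ^ (k + 1))) with hz
  -- a nontrivial rotation in `H`
  have hrot : ∃ d : ZMod (2 ^ (k + 1)), d ≠ 0 ∧ r d ∈ H := by
    by_contra hcon
    push Not at hcon
    apply hH
    have hall : ∀ x : H, (x : DihedralGroup (2 ^ (k + 1))) = 1 ∨ (x : DihedralGroup (2 ^ (k + 1))) = sr a := by
      rintro ⟨x, hx⟩
      cases x with
      | r i =>
        left
        by_cases hi : i = 0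
        · simp [hi, r_zero]
        · exact absurd hx (hcon i hi)
      | sr b =>
        right
        by_cases hb : b = a
        · simp [hb]
        · have h3 := H.mul_mem ha hx
          rw [sr_mul_sr] at h3
          exact absurd h3 (hcon _ (sub_ne_zero.mpr hb))
    refine ⟨⟨⟨sr a, ha⟩, ?_⟩⟩
    rintro ⟨x, hx⟩
    rcases hall ⟨x, hx⟩ with h | h
    · refine ⟨0, Subtype.ext ?_⟩
      simpa using h.symm
    · refine ⟨1, Subtype.ext ?_⟩
      simpa using h.symm
  obtain ⟨d, hd0, hd⟩ := hrot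
  have hzH : r z ∈ H := by
    have hp : (r d : DihedralGroup (2 ^ (k + 1))) ^ (2 ^ (k + 1)) = 1 := by
      rw [r_pow]
      have : ((2 ^ (k + 1) : ℕ) : ZMod (2 ^ (k + 1))) = 0 := ZMod.natCast_self _
      rw [this, mul_zero, r_zero]
    obtain ⟨s, _, hs⟩ := (Nat.dvd_prime_pow Nat.prime_two).mp (orderOf_dvd_of_pow_eq_one hp)
    have hs0 : s ≠ 0 := by
      rintro rfl
      rw [pow_zero, orderOf_eq_one_iff, ← r_zero] at hs
      exact hd0 (r.inj hs)
    obtain ⟨t, rfl⟩ := Nat.exists_eq_succ_of_ne_zero hs0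
    have hc1 : (r d : DihedralGroup (2 ^ (k + 1))) ^ (2 ^ t) ≠ 1 := by
      apply pow_ne_one_of_lt_orderOf (by positivity)
      rw [hs]
      exact Nat.pow_lt_pow_right (by norm_num) (Nat.lt_succ_self t)
    have hc2 : ((r d : DihedralGroup (2 ^ (k + 1))) ^ (2 ^ t)) ^ 2 = 1 := by
      rw [← pow_mul, ← pow_succ, ← hs]
      exact pow_orderOf_eq_one _
    rw [r_pow] at hc1 hc2
    rw [r_pow] at hc2
    have hc3 : (d * ((2 ^ t : ℕ) : ZMod (2 ^ (k + 1)))) * ((2 : ℕ) : ZMod (2 ^ (k + 1))) = 0 := by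
      have : r ((d * ((2 ^ t : ℕ) : ZMod (2 ^ (k + 1)))) * ((2 : ℕ) : ZMod (2 ^ (k + 1)))) = r (0 : ZMod (2 ^ (k + 1))) := by
        rw [hc2, r_zero]
      exact r.inj this
    have hc4 : 2 * (d * ((2 ^ t : ℕ) : ZMod (2 ^ (k + 1)))) = 0 := by
      push_cast at hc3 ⊢
      linear_combination hc3
    rcases two_torsion hc4 with h0 | h1
    · rw [h0, r_zero] at hc1
      exact absurd rfl hc1
    · have := H.pow_mem hd (2 ^ t)
      rw [r_pow, h1] at this
      exact this
  intro g hg
  have hc : sr a * g = g * sr a := (Subgroup.mem_centralizer_iff.mp hg) (sr a) ha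
  cases g with
  | r j =>
    rcases two_torsion (comm_r hc rfl) with h0 | h1
    · rw [h0, r_zero]; exact H.one_mem
    · rw [h1]; exact hzH
  | sr b =>
    rcases two_torsion (comm_sr hc rfl) with h0 | h1
    · rw [sub_eq_zero.mp h0]; exact ha
    · have h4 := H.mul_mem ha hzH
      rw [sr_mul_r, hz, ← h1] at h4
      have e : a + (b - a) = b := by ring
      rwa [e] at h4

/-- Say that a group has self-centralizing non-cyclic subgroups when every non-cyclic subgroup H satisfies C_G(H) ≤ H. For n ≥ 3, the dihedral group of order 2n has self-centralizing non-cyclic subgroups if and only if n is odd or a power of 2. -/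
theorem result (n : ℕ) (hn : 3 ≤ n) : (∀ H : Subgroup (DihedralGroup n), ¬ IsCyclic ↥H → Subgroup.centralizer (H : Set (DihedralGroup n)) ≤ H) ↔ (Odd n ∨ ∃ k : ℕ, n = 2 ^ k) := by
  haveI : NeZero n := ⟨by omega⟩
  constructor
  · intro h
    by_contra hcon
    push Not at hcon
    obtain ⟨hodd, hpow⟩ := hcon
    obtain ⟨a, u, hu, hnau⟩ := Nat.exists_eq_two_pow_mul_odd (n := n) (by omega)
    have ha : a ≠ 0 := by
      rintro rfl
      apply hodd
      rw [hnau, pow_zero, one_mul]
      exact hu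
    have hu3 : 3 ≤ u := by
      obtain ⟨v, rfl⟩ := hu
      rcases Nat.eq_zero_or_pos v with rfl | hv
      · exact absurd (by simpa using hnau) (hpow a)
      · omega
    obtain ⟨a', rfl⟩ := Nat.exists_eq_succ_of_ne_zero ha
    set H := kerSub n u with hHdef
    set w : ℕ := 2 ^ a' * u with hw
    have hn2w : n = 2 * w := by rw [hnau, hw, pow_succ]; ring
    have hwpos : 0 < w := by
      rw [hw]; positivity
    have hwz : ((2 * w : ℕ) : ZMod n) = 0 := by
      rw [← hn2w]; exact ZMod.natCast_self n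
    have hd : ((2 ^ (a' + 1) : ℕ) : ZMod n) = ((2 ^ (a' + 1) : ℕ) : ZMod n) := rfl
    have hrm : r (((2 ^ (a' + 1) : ℕ) : ZMod n)) ∈ H := by
      refine ⟨_, Or.inl rfl, ?_⟩
      have : ((u * 2 ^ (a' + 1) : ℕ) : ZMod n) = 0 := by
        rw [mul_comm, ← hnau]; exact ZMod.natCast_self n
      push_cast at this ⊢
      exact this
    have hsm : (sr (0 : ZMod n) : DihedralGroup n) ∈ H := ⟨0, Or.inr rfl, by simp⟩
    have hnc : ¬ IsCyclic ↥H := by
      intro hcyc
      have hab : IsMulCommutative ↥H := IsCyclic.isMulCommutative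
      have h3 := hab.is_comm.comm (⟨_, hrm⟩ : H) ⟨_, hsm⟩
      have h5 := congrArg Subtype.val h3
      simp only [Subgroup.coe_mul, r_mul_sr, sr_mul_r, sr.injEq] at h5
      have h6 : ((2 ^ (a' + 2) : ℕ) : ZMod n) = 0 := by
        push_cast at h5 ⊢
        have e : (2 : ZMod n) ^ (a' + 2) = 2 * 2 ^ (a' + 1) := by ring
        rw [e]
        linear_combination (-1 : ZMod n) * h5
      rw [ZMod.natCast_eq_zero_iff, hnau, pow_succ 2 (a' + 1)] at h6
      have h7 : u ∣ 2 := Nat.dvd_of_mul_dvd_mul_left (by positivity) h6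
      have := Nat.le_of_dvd (by norm_num) h7
      omega
    have hzc : r ((w : ℕ) : ZMod n) ∈ Subgroup.centralizer (H : Set (DihedralGroup n)) := by
      rw [Subgroup.mem_centralizer_iff]
      intro y _
      cases y with
      | r i => rw [r_mul_r, r_mul_r, add_comm]
      | sr i =>
        rw [r_mul_sr, sr_mul_r]
        congr 1
        have : (2 : ZMod n) * (w : ZMod n) = 0 := by
          rw [Nat.cast_mul] at hwz
          exact_mod_cast hwz
        linear_combination this
    have hzH := h H hnc hzc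
    obtain ⟨i, hi, h1⟩ := hzH
    rcases hi with hi | hi
    · have hi' := r.inj hi
      rw [← hi'] at h1
      have h2 : ((u * w : ℕ) : ZMod n) = 0 := by
        push_cast
        exact h1
      rw [ZMod.natCast_eq_zero_iff, hn2w] at h2
      have h3 : 2 ∣ u := by
        rw [mul_comm u w, mul_comm 2 w] at h2
        exact Nat.dvd_of_mul_dvd_mul_left hwpos h2
      exact (Nat.not_even_iff_odd.mpr hu) (even_iff_two_dvd.mpr h3)
    · cases hi
  · rintro (hodd | ⟨k, rfl⟩)
    · intro H hH g hg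
      obtain ⟨a, ha⟩ := exists_sr H hH
      have hc : sr a * g = g * sr a := (Subgroup.mem_centralizer_iff.mp hg) (sr a) ha
      cases g with
      | r j =>
        rw [odd_cancel hodd (comm_r hc rfl), r_zero]
        exact H.one_mem
      | sr b =>
        rw [sub_eq_zero.mp (odd_cancel hodd (comm_sr hc rfl))]
        exact ha
    · obtain ⟨k', rfl⟩ : ∃ k', k = k' + 1 := by
        refine ⟨k - 1, ?_⟩
        have : k ≠ 0 := by
          rintro rfl
          simp at hn
        omega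
      exact fun H hH => power_case H hH

end Cfsg.Agent.S3920
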