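import Cfsg.Statements.S3927
import Cfsg.Agent.Lib.Zipper.Main

set_option autoImplicit false
open Cfsg

namespace Cfsg.Agent.S3927

open Subgroup Cfsg.Agent.Lib.Basic.Conj Cfsg.Agent.Lib.Basic.Subnormal Cfsg.Agent.Lib.Zipper
open scoped Pointwise

universe u

/-- Conjugation map: `b ↦ b a b⁻¹`. -/
def TT {Γ : Type u} [Group Γ] (a b : Γ) : Γ := b * a * b⁻¹

theorem TT_fix {Γ : Type u} [Group Γ] (a : Γ) (k : ℕ) : (TT a)^[k] a = a := by
  induction k with
  | zero => rfl
  | succ k ih =>
    rw [Function.iterate_succ_apply', ih]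
    simp [TT]

theorem TT_sub {Γ : Type u} [Group Γ] (H : Subgroup Γ) (a : H) (k : ℕ) (b : H) :
    (((TT a)^[k] b : H) : Γ) = (TT (a : Γ))^[k] (b : Γ) := by
  induction k with
  | zero => rfl
  | succ k ih =>
    rw [Function.iterate_succ_apply', Function.iterate_succ_apply', ← ih]
    simp [TT]

theorem zpowers_subgroupOf {Γ : Type u} [Group Γ] (H : Subgroup Γ) (a : H) :
    (zpowers (a : Γ)).subgroupOf H = zpowers a := by
  ext x
  rw [Subgroup.mem_subgroupOf, mem_zpowers_iff, mem_zpowers_iff]
  constructor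
  · rintro ⟨n, hn⟩
    exact ⟨n, Subtype.ext (by simpa using hn)⟩
  · rintro ⟨n, rfl⟩
    exact ⟨n, by simp⟩

/-- If `Γ` is generated by the conjugates of `a`, so is it by the `k`-th image of `b ↦ b a b⁻¹`. -/
theorem claim : ∀ (n : ℕ) (Γ : Type u) [Group Γ] [Finite Γ] (a : Γ), Nat.card Γ = n →
    normalClosure ((zpowers a : Subgroup Γ) : Set Γ) = ⊤ → ∀ k : ℕ,
      closure (Set.range (TT a)^[k]) = ⊤ := by
  intro n
  induction n using Nat.strong_induction_on with
  | _ n ih =>
  intro Γ _ _ a hn hA k
  set R := closure (Set.range (TT a)^[k]) with hR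
  have haR : a ∈ R := subset_closure ⟨a, TT_fix a k⟩
  have hAR : zpowers a ≤ R := by
    rw [zpowers_eq_closure, closure_le]
    rintro _ rfl
    exact haR
  by_cases hAtop : zpowers a = ⊤
  · exact top_le_iff.1 (hAtop ▸ hAR)
  by_contra hRtop
  have hHR : ∀ H ∈ Hset (zpowers a), H ≤ R := by
    intro H hH x hx
    have haH : a ∈ H := hH.1 (mem_zpowers a)
    have hcard : Nat.card H < Nat.card Γ := card_lt_of_ne_top hH.2.1
    have hnc : normalClosure ((zpowers (⟨a, haH⟩ : H) : Subgroup H) : Set H) = ⊤ := by
      have h2 : normalClosure (((zpowers a).subgroupOf H : Subgroup H) : Set H) = ⊤ := hH.2.2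
      rwa [show (zpowers a).subgroupOf H = zpowers (⟨a, haH⟩ : H) from
        zpowers_subgroupOf H ⟨a, haH⟩] at h2
    have h3 := ih _ (hn ▸ hcard) H ⟨a, haH⟩ rfl hnc k
    have h4 : (⟨x, hx⟩ : H) ∈ closure (Set.range (TT (⟨a, haH⟩ : H))^[k]) := by
      rw [h3]; trivial
    have h5 : closure (Set.range (TT (⟨a, haH⟩ : H))^[k]) ≤ R.comap H.subtype := by
      rw [closure_le]
      rintro _ ⟨b, rfl⟩
      refine subset_closure ⟨(b : Γ), ?_⟩
      exact (TT_sub H ⟨a, haH⟩ k b).symm
    exact h5 h4
  rcases generalized_zipper (zpowers a) hA hAtop with h | ⟨L, ⟨hL, haL⟩, hu⟩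
  · exact hRtop (top_le_iff.1 (h ▸ sSup_le hHR))
  · obtain ⟨M, hM, hRM⟩ := (eq_top_or_exists_le_coatom R).resolve_left hRtop
    have hML : M = L := hu M ⟨hM, hAR.trans hRM⟩
    subst hML
    have hNL : ∀ g, g ∉ M → TT a g ∉ M := by
      intro g hg hT
      have h1 : zpowers a ≤ MulAut.conj g⁻¹ • M := by
        rw [zpowers_eq_closure, closure_le]
        rintro _ rfl
        rw [SetLike.mem_coe, mem_conj_smul_iff]
        simpa [TT, mul_assoc] using hT
      have h2 := hu _ ⟨conj_coatom g⁻¹ hM, h1⟩
      have h3 : g⁻¹ ∈ normalizer (M : Set Γ) := conj_smul_eq_self_iff.1 h2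
      have h4 : M.Normal ∨ g⁻¹ ∈ M := by
        by_cases h5 : normalizer (M : Set Γ) = ⊤
        · exact Or.inl (normalizer_eq_top_iff.1 h5)
        · right
          by_contra h6
          refine h5 (hM.2 _ (lt_of_le_of_ne Subgroup.le_normalizer fun h7 => h6 ?_))
          rw [← h7] at h3
          exact h3
      rcases h4 with h4 | h4
      · have h6 : normalClosure ((zpowers a : Subgroup Γ) : Set Γ) ≤ M :=
          normalClosure_le_normal haL
        rw [hA] at h6
        exact hM.1 (top_le_iff.1 h6)
      · exact hg (by simpa using h4)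
    have hiter : ∀ j : ℕ, ∀ g, g ∉ M → (TT a)^[j] g ∉ M := by
      intro j
      induction j with
      | zero => exact fun g hg => hg
      | succ j ih =>
        intro g hg
        rw [Function.iterate_succ_apply']
        exact hNL _ (ih g hg)
    have hMtop : ∃ g, g ∉ M := by
      by_contra hno
      push Not at hno
      exact hM.1 (eq_top_iff.2 fun x _ => hno x)
    obtain ⟨g, hg⟩ := hMtop
    exact hiter k g hg (hRM (subset_closure ⟨g, rfl⟩))

section main

variable {G : Type u} [Group G] (α : MulAut G)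

/-- The commutator map. -/
abbrev ff (c : G) : G := c * (α c)⁻¹

theorem ff_comm {β : MulAut G} (hβ : β * α = α * β) (c : G) : β (ff α c) = ff α (β c) := by
  have h : β (α c) = α (β c) := by
    have := congrArg (fun γ : MulAut G => γ c) hβ
    simpa using this
  simp [ff, h]

theorem ff_iter_comm {β : MulAut G} (hβ : β * α = α * β) (k : ℕ) (c : G) :
    β ((ff α)^[k] c) = (ff α)^[k] (β c) := by
  induction k with
  | zero => rfl
  | succ k ih =>
    rw [Function.iterate_succ_apply', Function.iterate_succ_apply', ff_comm α hβ, ih]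

/-- The group `G ⋊ ⟨α⟩`. -/
abbrev GG : Type u := SemidirectProduct G (zpowers α) (zpowers α).subtype

/-- The element `α` in `G ⋊ ⟨α⟩`. -/
def aa : GG α := SemidirectProduct.inr ⟨α, mem_zpowers α⟩

theorem aa_left : (aa α).left = 1 := rfl

theorem aa_right : (aa α).right = ⟨α, mem_zpowers α⟩ := rfl

theorem right_comm (g : GG α) : g.right * (aa α).right = (aa α).right * g.right := by
  apply Subtype.ext
  obtain ⟨n, hn⟩ := mem_zpowers_iff.1 g.right.2
  have : ((g.right : zpowers α) : MulAut G) * α = α * (g.right : MulAut G) := by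
    rw [← hn]
    exact (Commute.zpow_self α n)
  exact this

theorem TT_eq (g : GG α) :
    TT (aa α) g = SemidirectProduct.inl (ff α g.left) * aa α := by
  have h1 : g.right * (aa α).right * g.right⁻¹ = (aa α).right := by
    rw [right_comm, mul_inv_cancel_right]
  have h2 : TT (aa α) g = g * aa α * g⁻¹ := rfl
  rw [h2]
  refine SemidirectProduct.ext ?_ ?_
  · simp only [SemidirectProduct.mul_left, SemidirectProduct.inv_left, SemidirectProduct.mul_right,
      SemidirectProduct.left_inl, SemidirectProduct.right_inl, aa_left, map_one, mul_one]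
    rw [← MulAut.mul_apply, ← map_mul, h1]
    simp [aa_right]
  · simp only [SemidirectProduct.mul_right, SemidirectProduct.inv_right,
      SemidirectProduct.right_inl, one_mul]
    exact h1

theorem TT_iter (k : ℕ) (g : GG α) :
    (TT (aa α))^[k + 1] g = SemidirectProduct.inl ((ff α)^[k + 1] g.left) * aa α := by
  induction k with
  | zero => exact TT_eq α g
  | succ k ih =>
    rw [Function.iterate_succ_apply', ih, TT_eq, Function.iterate_succ_apply' (ff α) (k + 1)]
    simp [SemidirectProduct.mul_left, aa_left]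

theorem normalClosure_aa (hG : closure (Set.range (ff α)) = ⊤) :
    normalClosure ((zpowers (aa α) : Subgroup (GG α)) : Set (GG α)) = ⊤ := by
  set N := normalClosure ((zpowers (aa α) : Subgroup (GG α)) : Set (GG α)) with hN
  have ha : aa α ∈ N := subset_normalClosure (mem_zpowers _)
  have hinl : ∀ c : G, (SemidirectProduct.inl c : GG α) ∈ N := by
    intro c
    have hle : closure (Set.range (ff α)) ≤ N.comap SemidirectProduct.inl := by
      rw [closure_le]
      rintro _ ⟨c, rfl⟩
      have h1 : (SemidirectProduct.inl (ff α c) : GG α) =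
          TT (aa α) (SemidirectProduct.inl c) * (aa α)⁻¹ := by
        rw [TT_eq]
        simp
      change (SemidirectProduct.inl (ff α c) : GG α) ∈ N
      rw [h1]
      refine mul_mem ?_ (inv_mem ha)
      exact normalClosure_normal.conj_mem _ ha _
    rw [hG] at hle
    exact hle (mem_top c)
  have hinr : ∀ β : zpowers α, (SemidirectProduct.inr β : GG α) ∈ N := by
    intro β
    obtain ⟨n, hn⟩ := mem_zpowers_iff.1 β.2
    have h1 : β = (⟨α, mem_zpowers α⟩ : zpowers α) ^ n := Subtype.ext (by simpa using hn.symm)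
    rw [h1, map_zpow]
    exact zpow_mem ha n
  rw [eq_top_iff]
  intro x _
  rw [← SemidirectProduct.inl_left_mul_inr_right x]
  exact mul_mem (hinl _) (hinr _)

end main

theorem result_aux {G : Type u} [Group G] [Finite G] (α : MulAut G)
    (hG : closure (Set.range (ff α)) = ⊤) (k : ℕ) :
    closure (Set.range (ff α)^[k + 1]) = ⊤ := by
  haveI : Finite (zpowers α) := inferInstance
  haveI : Finite (GG α) := Finite.of_equiv _ SemidirectProduct.equivProd.symm
  set R := closure (Set.range (ff α)^[k + 1]) with hR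
  have hβ : ∀ β : zpowers α, ∀ r ∈ R, (β : MulAut G) r ∈ R := by
    intro β
    have hcomm : (β : MulAut G) * α = α * (β : MulAut G) := by
      obtain ⟨n, hn⟩ := mem_zpowers_iff.1 β.2
      rw [← hn]
      exact Commute.zpow_self α n
    have hle : R ≤ R.comap (β : MulAut G).toMonoidHom := by
      rw [hR, closure_le]
      rintro _ ⟨c, rfl⟩
      refine subset_closure ⟨(β : MulAut G) c, ?_⟩
      exact (ff_iter_comm α hcomm (k + 1) c).symm
    exact fun r hr => hle hr
  let S : Subgroup (GG α) :=
    { carrier := {x | x.left ∈ R}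
      mul_mem' := fun {x y} hx hy => mul_mem hx (hβ x.right _ hy)
      one_mem' := one_mem R
      inv_mem' := fun {x} hx => hβ x.right⁻¹ _ (inv_mem hx) }
  have h1 := claim _ (GG α) (aa α) rfl (normalClosure_aa α hG) (k + 1)
  have h2 : closure (Set.range (TT (aa α))^[k + 1]) ≤ S := by
    rw [closure_le]
    rintro _ ⟨g, rfl⟩
    rw [TT_iter]
    change ((SemidirectProduct.inl ((ff α)^[k + 1] g.left) * aa α : GG α)).left ∈ R
    simp only [SemidirectProduct.mul_left, SemidirectProduct.left_inl, aa_left, map_one, mul_one]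
    exact subset_closure ⟨_, rfl⟩
  rw [h1] at h2
  rw [eq_top_iff]
  intro g _
  have h3 : (SemidirectProduct.inl g : GG α) ∈ S := h2 (mem_top _)
  exact h3

/-- Let G be a finite group and α an automorphism of G with [G, α] = G, that is, the elements g·α(g)⁻¹ generate G. Then for every k ≥ 1 the iterated commutators [g, α, …, α] with k entries α — the values of the k-th iterate of the map c ↦ c·α(c)⁻¹ — also generate G. -/
theorem result {G : Type*} [Group G] [Finite G] (α : MulAut G) (hG : Subgroup.closure (Set.range (fun c : G => c * (α c)⁻¹)) = ⊤) (k : ℕ) (hk : 1 ≤ k) :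
    Subgroup.closure (Set.range ((fun c : G => c * (α c)⁻¹)^[k])) = ⊤ := by
  obtain ⟨j, rfl⟩ : ∃ j, k = j + 1 := ⟨k - 1, by omega⟩
  exact result_aux α hG j

end Cfsg.Agent.S3927
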