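import Cfsg.Statements.S3928
import Cfsg.Agent.S3927
import Cfsg.Agent.Lib.InvBound.Schur

set_option autoImplicit false
open Cfsg

namespace Cfsg.Agent.S3928

open Subgroup Cfsg.Agent.Lib.InvBound

/-- `[G, α] = G` implies that `G` is generated by the odd-order elements inverted by `α`. -/
theorem closure_OI {G : Type} [Group G] [Finite G] {α : MulAut G} (hα : α * α = 1)
    (hG : closure (Set.range (fun c : G => c * (α c)⁻¹)) = ⊤) : closure (OI α) = ⊤ := by
  set f := fun c : G => c * (α c)⁻¹ with hf
  have hinv : ∀ c, α (f c) = (f c)⁻¹ := by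
    intro c
    simp only [hf, map_mul, map_inv, invol hα]
    group
  have hiter : ∀ (k : ℕ) (c : G), f^[k + 1] c = (f c) ^ (2 ^ k) := by
    intro k c
    induction k with
    | zero => simp
    | succ k ih =>
      rw [Function.iterate_succ_apply', ih]
      have h1 : α ((f c) ^ (2 ^ k)) = ((f c) ^ (2 ^ k))⁻¹ := by
        rw [map_pow, hinv, inv_pow]
      change (f c) ^ (2 ^ k) * (α ((f c) ^ (2 ^ k)))⁻¹ = _
      rw [h1, inv_inv, ← pow_add, pow_succ]
      congr 1
      ring
  have h1 := Cfsg.Agent.S3927.result α hG (Nat.card G + 1) (by omega)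
  rw [eq_top_iff, ← h1, closure_le]
  rintro _ ⟨c, rfl⟩
  refine subset_closure ?_
  rw [hiter]
  refine ⟨odd_order_two_pow _, ?_⟩
  rw [map_pow, hinv, inv_pow]

/-- There is a function f such that for every non-trivial finite group G and every automorphism α of G of order 2 with [G, α] = G (the elements g·α(g)⁻¹ generate G), the order of G is at most f(m), where m is the number of elements of odd order inverted by α. -/
theorem result : ∃ f : ℕ → ℕ, ∀ (G : Type) [Group G] [Finite G] [Nontrivial G] (α : MulAut G), orderOf α = 2 →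
    Subgroup.closure (Set.range (fun c : G => c * (α c)⁻¹)) = ⊤ →
      Nat.card G ≤ f (Nat.card {g : G // Odd (orderOf g) ∧ α g = g⁻¹}) := by
  refine ⟨fun m => m * SS (m * SS (BB m (m ^ m))), ?_⟩
  intro G _ _ _ α hord hG
  have hα : α * α = 1 := by
    rw [← pow_two, ← hord, pow_orderOf_eq_one]
  exact card_le_main hα (closure_OI hα hG)

end Cfsg.Agent.S3928
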