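import Cfsg.Statements.S3939
import Mathlib
import Cfsg.Agent.Lib.Nilpotent.Elements
import Cfsg.Agent.Lib.Nilpotent.Fitting
import Cfsg.Agent.S0065

set_option autoImplicit false
open Cfsg
open scoped commutatorElement

namespace Cfsg.Agent.S3939

open Cfsg.Agent.Lib.Nilpotent.Elements

universe u

variable {G : Type u} [Group G]

/-- `g` generates a nilpotent subgroup with every element. -/
def NilWith (g : G) : Prop := ∀ x : G, Group.IsNilpotent ↥(Subgroup.closure ({x, g} : Set G))

theorem isNilpotent_map_of_isNilpotent {G' : Type*} [Group G'] (f : G →* G') {H : Subgroup G}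
    (hH : Group.IsNilpotent H) : Group.IsNilpotent (H.map f) :=
  nilpotent_of_surjective (f.subgroupMap H) (f.subgroupMap_surjective H)

theorem NilWith.pow {g : G} (h : NilWith g) (k : ℕ) : NilWith (g ^ k) := by
  intro x
  refine Cfsg.Agent.Lib.Nilpotent.Fitting.isNilpotent_of_le ?_ (h x)
  rw [Subgroup.closure_le]
  rintro y (rfl | rfl)
  · exact Subgroup.subset_closure (by simp)
  · exact Subgroup.pow_mem _ (Subgroup.subset_closure (by simp)) _

theorem NilWith.conj {g : G} (h : NilWith g) (t : G) : NilWith (t * g * t⁻¹) := by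
  intro x
  have h1 := isNilpotent_map_of_isNilpotent (MulAut.conj t).toMonoidHom (h (t⁻¹ * x * t))
  refine Cfsg.Agent.Lib.Nilpotent.Fitting.isNilpotent_of_le ?_ h1
  rw [Subgroup.closure_le]
  rintro y (rfl | rfl)
  · refine ⟨t⁻¹ * y * t, Subgroup.subset_closure (by simp), ?_⟩
    simp [mul_assoc]
  · exact ⟨g, Subgroup.subset_closure (by simp), rfl⟩

theorem NilWith.map {G' : Type*} [Group G'] {f : G →* G'} (hf : Function.Surjective f) {g : G}
    (h : NilWith g) : NilWith (f g) := by
  intro x'
  obtain ⟨x, rfl⟩ := hf x'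
  have h1 := isNilpotent_map_of_isNilpotent f (h x)
  rw [MonoidHom.map_closure, Set.image_pair] at h1
  exact h1

theorem NilWith.commute [Finite G] {p : ℕ} [Fact p.Prime] {g x : G} (h : NilWith g) {k : ℕ}
    (hk : g ^ p ^ k = 1) (hx : (orderOf x).Coprime p) : Commute x g := by
  haveI := h x
  let x' : ↥(Subgroup.closure ({x, g} : Set G)) := ⟨x, Subgroup.subset_closure (by simp)⟩
  let g' : ↥(Subgroup.closure ({x, g} : Set G)) := ⟨g, Subgroup.subset_closure (by simp)⟩
  obtain ⟨j, hj⟩ := (exists_pow_eq_one_iff g).1 ⟨k, hk⟩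
  have hcop : (orderOf x').Coprime (orderOf g') := by
    rw [Subgroup.orderOf_mk, Subgroup.orderOf_mk, hj]
    exact Nat.Coprime.pow_right _ hx
  have := commute_of_coprime_orderOf hcop
  exact congrArg Subtype.val this.eq

/-- Core lemma: in a group with trivial centre the only element that generates a nilpotent
subgroup with every element is `1`. -/
theorem NilWith.eq_one_of_center_eq_bot [Finite G] (hZ : Subgroup.center G = ⊥) {g : G}
    (hg : NilWith g) : g = 1 := by
  classical
  by_contra hg1
  -- an element `h` of prime order `p` in `⟨g⟩`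
  obtain ⟨p, hp, hpd⟩ := Nat.exists_prime_and_dvd (orderOf_eq_one_iff.not.2 hg1)
  haveI : Fact p.Prime := ⟨hp⟩
  set h := g ^ (orderOf g / p) with hh
  have hord : orderOf h = p :=
    orderOf_pow_orderOf_div (orderOf_pos g).ne' hpd
  have hhN : NilWith h := hg.pow _
  have hh1 : h ≠ 1 := by
    intro h1
    rw [h1, orderOf_one] at hord
    exact hp.one_lt.ne hord
  have hhp : h ^ p ^ 1 = 1 := by
    rw [pow_one, ← hord, pow_orderOf_eq_one]
  -- the subgroup `R` generated by `p'`-elements
  let X : Set G := {x | (orderOf x).Coprime p}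
  let R := Subgroup.closure X
  have hXconj : ∀ x ∈ X, ∀ t : G, t * x * t⁻¹ ∈ X := by
    intro x hx t
    show (orderOf (t * x * t⁻¹)).Coprime p
    have : orderOf (t * x * t⁻¹) = orderOf x := by
      have := orderOf_injective (MulAut.conj t).toMonoidHom (MulAut.conj t).injective x
      simpa using this
    rw [this]
    exact hx
  haveI hRn : R.Normal := by
    have : R = Subgroup.normalClosure X := by
      apply le_antisymm
      · exact Subgroup.closure_le _ |>.2 Subgroup.subset_normalClosure
      · rw [Subgroup.normalClosure, Subgroup.closure_le]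
        intro y hy
        obtain ⟨x, hx, hxy⟩ := Group.mem_conjugatesOfSet_iff.1 hy
        obtain ⟨t, rfl⟩ := isConj_iff.1 hxy
        exact Subgroup.subset_closure (hXconj x hx t)
    rw [this]
    exact Subgroup.normalClosure_normal
  -- every conjugate of `h` commutes with `X`
  have hconjX : ∀ t : G, ∀ x ∈ X, Commute x (t * h * t⁻¹) := by
    intro t x hx
    apply (hhN.conj t).commute (p := p) (k := 1) _ hx
    rw [conj_pow, hhp]
    simp
  have hconjR : ∀ t : G, ∀ r ∈ R, Commute r (t * h * t⁻¹) := by
    intro t r hr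
    have hmem : t * h * t⁻¹ ∈ Subgroup.centralizer X := by
      rw [Subgroup.mem_centralizer_iff]
      intro x hx
      exact (hconjX t x hx).eq
    have := Subgroup.closure_le_centralizer_centralizer X hr
    rw [Subgroup.mem_centralizer_iff] at this
    exact (this _ hmem).symm
  -- `G/R` is a `p`-group
  have hquot : IsPGroup p (G ⧸ R) := by
    intro q
    obtain ⟨x, rfl⟩ := QuotientGroup.mk_surjective q
    refine ⟨(orderOf x).factorization p, ?_⟩
    have hdvd : p ^ (orderOf x).factorization p ∣ orderOf x := Nat.ordProj_dvd _ _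
    have h1 : orderOf (x ^ p ^ (orderOf x).factorization p) = orderOf x / p ^ (orderOf x).factorization p :=
      orderOf_pow_of_dvd (pow_ne_zero _ hp.ne_zero) hdvd
    have h2 : (orderOf x / p ^ (orderOf x).factorization p).Coprime p :=
      (Nat.coprime_ordCompl hp (orderOf_pos x).ne').symm
    have h3 : x ^ p ^ (orderOf x).factorization p ∈ R := by
      apply Subgroup.subset_closure
      show (orderOf (x ^ p ^ (orderOf x).factorization p)).Coprime p
      rw [h1]
      exact h2
    have h4 : ((x : G ⧸ R)) ^ p ^ (orderOf x).factorization p = ((x ^ p ^ (orderOf x).factorization p : G) : G ⧸ R) := by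
      rfl
    rw [h4]
    exact (QuotientGroup.eq_one_iff _).2 h3
  -- a Sylow subgroup containing `h`
  have hzp : IsPGroup p (Subgroup.zpowers h) := by
    apply IsPGroup.of_card (n := 1)
    rw [Nat.card_zpowers, hord, pow_one]
  obtain ⟨Q, hQ⟩ := hzp.exists_le_sylow
  have hhQ : h ∈ (Q : Subgroup G) := hQ (Subgroup.mem_zpowers h)
  -- `R ⊔ Q = ⊤`
  have hRQ : R ⊔ (Q : Subgroup G) = ⊤ := by
    let π := QuotientGroup.mk' R
    have hπ : Function.Surjective π := QuotientGroup.mk'_surjective R
    let Q₁ : Sylow p (G ⧸ R) := Q.mapSurjective hπ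
    have hQ₁ : (Q₁ : Subgroup (G ⧸ R)) = ⊤ := by
      exact (Q₁.3 (hquot.to_subgroup ⊤) le_top).symm
    have : (Q : Subgroup G).map π = ⊤ := hQ₁
    have h1 := Subgroup.comap_map_eq π (Q : Subgroup G)
    rw [this, Subgroup.comap_top, QuotientGroup.ker_mk'] at h1
    rw [sup_comm]
    exact h1.symm
  -- all conjugates of `h` lie in `Q`
  have hconjQ : ∀ t : G, t * h * t⁻¹ ∈ (Q : Subgroup G) := by
    intro t
    have ht : t ∈ (↑(R ⊔ (Q : Subgroup G)) : Set G) := by
      rw [hRQ]; trivial
    rw [Subgroup.normal_mul] at ht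
    obtain ⟨r, hr, v, hv, rfl⟩ := Set.mem_mul.1 ht
    have h1 : Commute r (v * h * v⁻¹) := hconjR v r hr
    have h2 : r * v * h * (r * v)⁻¹ = v * h * v⁻¹ := by
      calc r * v * h * (r * v)⁻¹ = r * (v * h * v⁻¹) * r⁻¹ := by group
        _ = (v * h * v⁻¹) * r * r⁻¹ := by rw [h1.eq]
        _ = v * h * v⁻¹ := by group
    rw [h2]
    exact Subgroup.mul_mem _ (Subgroup.mul_mem _ hv hhQ) (Subgroup.inv_mem _ hv)
  -- the normal closure `M` of `h`
  let M := Subgroup.normalClosure ({h} : Set G)
  haveI hMn : M.Normal := Subgroup.normalClosure_normal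
  have hconjM : ∀ y ∈ Group.conjugatesOfSet ({h} : Set G), ∃ t : G, y = t * h * t⁻¹ := by
    intro y hy
    obtain ⟨x, hx, hxy⟩ := Group.mem_conjugatesOfSet_iff.1 hy
    rw [Set.mem_singleton_iff] at hx
    subst hx
    obtain ⟨t, rfl⟩ := isConj_iff.1 hxy
    exact ⟨t, rfl⟩
  have hMdef : M = Subgroup.closure (Group.conjugatesOfSet ({h} : Set G)) := rfl
  have hMQ : M ≤ Q := by
    rw [hMdef, Subgroup.closure_le]
    intro y hy
    obtain ⟨t, rfl⟩ := hconjM y hy
    exact hconjQ t
  have hMC : ∀ z ∈ M, ∀ r ∈ R, Commute r z := by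
    intro z hz r hr
    have hle : M ≤ Subgroup.centralizer (R : Set G) := by
      rw [hMdef, Subgroup.closure_le]
      intro y hy
      obtain ⟨t, rfl⟩ := hconjM y hy
      rw [SetLike.mem_coe, Subgroup.mem_centralizer_iff]
      intro r hr
      exact (hconjR t r hr).eq
    have := hle hz
    rw [Subgroup.mem_centralizer_iff] at this
    exact (this r hr)
  have hhM : h ∈ M := Subgroup.subset_normalClosure (by simp)
  -- apply to `Q`: `M` meets the centre of `Q`
  haveI hQnil : Group.IsNilpotent (Q : Subgroup G) := IsPGroup.isNilpotent Q.2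
  let M' : Subgroup (Q : Subgroup G) := M.subgroupOf Q
  haveI : M'.Normal := Subgroup.Normal.subgroupOf hMn _
  have hM'ne : M' ≠ ⊥ := by
    intro hbot
    have : (⟨h, hhQ⟩ : (Q : Subgroup G)) ∈ M' := by
      rw [Subgroup.mem_subgroupOf]
      exact hhM
    rw [hbot, Subgroup.mem_bot] at this
    exact hh1 (congrArg Subtype.val this)
  have hcen := Cfsg.Agent.S0065.result M' hM'ne
  obtain ⟨z, ⟨hzM, hzZ⟩, hz1⟩ := (Subgroup.bot_or_exists_ne_one _).resolve_left hcen
  -- `z` is central in `G`
  have hzG : (z : G) ∈ Subgroup.center G := by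
    rw [Subgroup.mem_center_iff]
    intro y
    have hy : y ∈ (↑(R ⊔ (Q : Subgroup G)) : Set G) := by
      rw [hRQ]; trivial
    rw [Subgroup.normal_mul] at hy
    obtain ⟨r, hr, v, hv, rfl⟩ := Set.mem_mul.1 hy
    have h1 : r * (z : G) = z * r := (hMC z (Subgroup.mem_subgroupOf.1 hzM) r hr).eq
    have h2 : v * (z : G) = z * v := by
      have := Subgroup.mem_center_iff.1 hzZ ⟨v, hv⟩
      exact congrArg Subtype.val this
    calc r * v * (z : G) = r * (v * z) := by group
      _ = r * (z * v) := by rw [h2]
      _ = (r * z) * v := by group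
      _ = (z * r) * v := by rw [h1]
      _ = z * (r * v) := by group
  rw [hZ, Subgroup.mem_bot] at hzG
  exact hz1 (Subtype.ext hzG)

theorem mem_hypercenter_of_nilWith :
    ∀ (n : ℕ) (G : Type u) [Group G] [Finite G], Nat.card G = n → ∀ g : G, NilWith g →
      g ∈ ⨆ n : ℕ, Subgroup.upperCentralSeries G n := by
  intro n
  induction n using Nat.strong_induction_on with
  | _ n ih =>
    intro G _ _ hn g hg
    by_cases hZ : Subgroup.center G = ⊥
    · rw [NilWith.eq_one_of_center_eq_bot hZ hg]
      exact Subgroup.one_mem _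
    · let π := QuotientGroup.mk' (Subgroup.center G)
      have hπ : Function.Surjective π := QuotientGroup.mk'_surjective _
      have hlt : Nat.card (G ⧸ Subgroup.center G) < n := by
        have h1 : Nat.card G = Nat.card (G ⧸ Subgroup.center G) * Nat.card (Subgroup.center G) :=
          Subgroup.card_eq_card_quotient_mul_card_subgroup _
        have h2 : 1 < Nat.card (Subgroup.center G) := by
          haveI : Nontrivial (Subgroup.center G) := (Subgroup.nontrivial_iff_ne_bot _).2 hZ
          exact Finite.one_lt_card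
        have h3 : 0 < Nat.card (G ⧸ Subgroup.center G) := Nat.card_pos
        rw [← hn, h1]
        nlinarith
      have hπg := ih _ hlt (G ⧸ Subgroup.center G) rfl (π g) (hg.map hπ)
      have hdir : Directed (· ≤ ·) (Subgroup.upperCentralSeries (G ⧸ Subgroup.center G)) :=
        (Subgroup.upperCentralSeries_mono _).directed_le
      obtain ⟨i, hi⟩ := (Subgroup.mem_iSup_of_directed hdir).1 hπg
      have hmem : g ∈ Subgroup.upperCentralSeries G (i + 1) := by
        rw [← Nat.succ_eq_add_one, ← Subgroup.comap_upperCentralSeries_quotient_center]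
        exact hi
      exact (le_iSup (Subgroup.upperCentralSeries G) (i + 1)) hmem

theorem nilWith_of_mem_upper [Finite G] {g : G} {n : ℕ} (hg : g ∈ Subgroup.upperCentralSeries G n) :
    NilWith g := by
  intro x
  set H := Subgroup.closure ({x, g} : Set G) with hH
  -- `H / (Z_n ∩ H)` is commutative
  have hkey : ∀ y ∈ H, ∀ z ∈ H, ⁅y, z⁆ ∈ Subgroup.upperCentralSeries G n := by
    let π := QuotientGroup.mk' (Subgroup.upperCentralSeries G n)
    have hle : H.map π ≤ Subgroup.zpowers (π x) := by
      rw [hH, MonoidHom.map_closure, Subgroup.closure_le, Set.image_pair]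
      rintro y (rfl | rfl)
      · exact Subgroup.mem_zpowers _
      · have : π g = 1 := by
          rw [← MonoidHom.mem_ker, QuotientGroup.ker_mk']
          exact hg
        rw [this]
        exact Subgroup.one_mem _
    intro y hy z hz
    have h1 : π y ∈ Subgroup.zpowers (π x) := hle ⟨y, hy, rfl⟩
    have h2 : π z ∈ Subgroup.zpowers (π x) := hle ⟨z, hz, rfl⟩
    obtain ⟨a, ha⟩ := Subgroup.mem_zpowers_iff.1 h1
    obtain ⟨b, hb⟩ := Subgroup.mem_zpowers_iff.1 h2
    have h3 : π ⁅y, z⁆ = 1 := by
      rw [map_commutatorElement, ← ha, ← hb, commutatorElement_def]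
      have : (π x) ^ a * (π x) ^ b = (π x) ^ b * (π x) ^ a := by
        rw [← zpow_add, ← zpow_add, add_comm]
      rw [this]
      group
    rw [← MonoidHom.mem_ker, QuotientGroup.ker_mk'] at h3
    exact h3
  rw [Subgroup.nilpotent_iff_finite_ascending_central_series]
  refine ⟨n + 1, fun i => if i ≤ n then (Subgroup.upperCentralSeries G i).subgroupOf H else ⊤, ⟨?_, ?_⟩, ?_⟩
  · simp [Subgroup.upperCentralSeries_zero]
  · intro y i hy z
    by_cases hi : i + 1 ≤ n
    · have hi' : i ≤ n := by omega
      simp only [hi, hi', if_true, Subgroup.mem_subgroupOf] at hy ⊢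
      exact (Subgroup.mem_upperCentralSeries_succ_iff).1 hy z
    · by_cases hi' : i ≤ n
      · have : i = n := by omega
        subst this
        simp only [le_refl, if_true, Subgroup.mem_subgroupOf]
        exact hkey y y.2 z z.2
      · simp [hi']
  · simp

/-- In a finite group G the set of elements g such that the subgroup generated by g and x is nilpotent for every x ∈ G is exactly the hypercenter of G (the last term of the upper central series). -/
theorem result {G : Type*} [Group G] [Finite G] (g : G) :
    (∀ x : G, Group.IsNilpotent ↥(Subgroup.closure ({x, g} : Set G))) ↔ g ∈ ⨆ n : ℕ, Subgroup.upperCentralSeries G n := by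
  constructor
  · intro h
    exact mem_hypercenter_of_nilWith _ G rfl g h
  · intro h
    have hdir : Directed (· ≤ ·) (Subgroup.upperCentralSeries G) :=
      (Subgroup.upperCentralSeries_mono _).directed_le
    obtain ⟨i, hi⟩ := (Subgroup.mem_iSup_of_directed hdir).1 h
    exact nilWith_of_mem_upper hi

end Cfsg.Agent.S3939
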