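import Cfsg.Statements.S3941
import Mathlib

set_option autoImplicit false
open Cfsg

namespace Cfsg.Agent.S3941

open Equiv Equiv.Perm Subgroup

/-- The alternating-group element given by a permutation of Fin n, its stabilizer subgroup etc. -/
lemma pfix {α : Type*} {c : Perm α} {p k : ℕ} (hp : p.Prime) (hc : c ^ p = 1) (hk : ¬ p ∣ k) {y : α}
    (h : (c ^ k) y = y) : c y = y := by
  have hcop : Nat.Coprime k p := ((Nat.Prime.coprime_iff_not_dvd hp).mpr hk).symm
  obtain ⟨s, -, hs⟩ := Nat.exists_mul_mod_eq_one_of_coprime hcop hp.one_lt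
  have hpow : c ^ (k * s) = c := by
    have h1 : k * s = p * (k * s / p) + 1 := by
      have := Nat.div_add_mod (k * s) p
      rw [hs] at this
      exact this.symm
    rw [h1, pow_succ, pow_mul, hc, one_pow, one_mul]
  have hfix : ∀ j : ℕ, ((c ^ k) ^ j) y = y := by
    intro j
    induction j with
    | zero => simp
    | succ j ih =>
      rw [pow_succ, Perm.mul_apply, h, ih]
  have := hfix s
  rw [← pow_mul, hpow] at this
  exact this

lemma pclosed_comm {Γ : Type*} [Group Γ] [Finite Γ] {p : ℕ} [Fact p.Prime] (hcl : Cfsg.IsPClosed p Γ)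
    (u g : Γ) (hu : orderOf u = p) : ∃ k : ℕ, orderOf (u * (g * u⁻¹ * g⁻¹)) = p ^ k := by
  have hpp : p.Prime := Fact.out
  have hup : IsPGroup p (zpowers u) := IsPGroup.of_card (n := 1) (by rw [Nat.card_zpowers, hu, pow_one])
  obtain ⟨S, hS⟩ := hup.exists_le_sylow
  have hnorm := hcl S
  have huS : u ∈ (S : Subgroup Γ) := hS (mem_zpowers u)
  have hτ : u * (g * u⁻¹ * g⁻¹) ∈ (S : Subgroup Γ) :=
    Subgroup.mul_mem _ huS (hnorm.conj_mem _ (Subgroup.inv_mem _ huS) g)
  have hSp := S.isPGroup'
  obtain ⟨k, hk⟩ := hSp ⟨_, hτ⟩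
  have hd : orderOf (⟨_, hτ⟩ : (S : Subgroup Γ)) ∣ p ^ k := orderOf_dvd_of_pow_eq_one hk
  obtain ⟨j, -, hj⟩ := (Nat.dvd_prime_pow hpp).mp hd
  exact ⟨j, by rw [← Subgroup.orderOf_mk _ hτ]; exact hj⟩

lemma core {n p : ℕ} [Fact p.Prime] (hn : 5 ≤ n)
    (h : ∀ H : Subgroup ↥(alternatingGroup (Fin n)), H ≠ ⊤ → p ∣ Nat.card ↥H → Cfsg.IsPClosed p ↥H)
    (u g : Perm (Fin n)) (hsu : sign u = 1) (hsg : sign g = 1)
    (hfu : u ⟨n - 1, by omega⟩ = ⟨n - 1, by omega⟩) (hfg : g ⟨n - 1, by omega⟩ = ⟨n - 1, by omega⟩)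
    (huo : orderOf u = p) : ∃ k : ℕ, orderOf (u * (g * u⁻¹ * g⁻¹)) = p ^ k := by
  classical
  set l : Fin n := ⟨n - 1, by omega⟩ with hl
  let H : Subgroup ↥(alternatingGroup (Fin n)) :=
    { carrier := {a | (a : Perm (Fin n)) l = l}
      mul_mem' := by
        intro a b ha hb
        show (a : Perm (Fin n)) ((b : Perm (Fin n)) l) = l
        rw [show (b : Perm (Fin n)) l = l from hb]; exact ha
      one_mem' := rfl
      inv_mem' := by
        intro a ha
        show (a : Perm (Fin n))⁻¹ l = l
        rw [Perm.inv_eq_iff_eq]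
        exact (show (a : Perm (Fin n)) l = l from ha).symm }
  have hHne : H ≠ ⊤ := by
    intro htop
    have e0 : (⟨0, by omega⟩ : Fin n) ≠ ⟨1, by omega⟩ := by simp [Fin.ext_iff]
    have e1 : (⟨1, by omega⟩ : Fin n) ≠ l := by simp [Fin.ext_iff, hl]; omega
    have e2 : (⟨0, by omega⟩ : Fin n) ≠ l := by simp [Fin.ext_iff, hl]; omega
    let t : Perm (Fin n) := swap ⟨0, by omega⟩ ⟨1, by omega⟩ * swap ⟨1, by omega⟩ l
    have ht : t ∈ alternatingGroup (Fin n) := by
      rw [mem_alternatingGroup]
      simp [t, sign_swap e0, sign_swap e1]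
    have h1 : (⟨t, ht⟩ : ↥(alternatingGroup (Fin n))) ∈ H := by rw [htop]; trivial
    have h2 : t l = l := h1
    have h3 : t l = ⟨0, by omega⟩ := by
      simp [t, Perm.mul_apply]
    rw [h3] at h2
    exact e2 h2
  let F : ↥H →* Perm (Fin n) := (alternatingGroup (Fin n)).subtype.comp H.subtype
  have hF : Function.Injective F := (Subtype.val_injective).comp (Subtype.val_injective)
  let uH : ↥H := ⟨⟨u, mem_alternatingGroup.mpr hsu⟩, hfu⟩
  let gH : ↥H := ⟨⟨g, mem_alternatingGroup.mpr hsg⟩, hfg⟩
  have huH : orderOf uH = p := by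
    rw [← orderOf_injective F hF uH]
    exact huo
  have hd : p ∣ Nat.card ↥H := by
    rw [← huH]; exact orderOf_dvd_natCard uH
  obtain ⟨k, hk⟩ := pclosed_comm (h H hHne hd) uH gH huH
  refine ⟨k, ?_⟩
  rw [← hk, ← orderOf_injective F hF]
  have e : F (uH * (gH * uH⁻¹ * gH⁻¹)) = u * (g * u⁻¹ * g⁻¹) := by
    simp only [map_mul, map_inv]
    rfl
  rw [e]

/-- Let n ≥ 5 and p an odd prime with p ≤ n, and suppose that every proper subgroup of the alternating group of degree n whose order is divisible by p has a normal Sylow p-subgroup. Then n = p. -/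
theorem result (n p : ℕ) (hn : 5 ≤ n) [Fact p.Prime] (hp : p ≠ 2) (hpn : p ≤ n)
    (h : ∀ H : Subgroup ↥(alternatingGroup (Fin n)), H ≠ ⊤ → p ∣ Nat.card ↥H → Cfsg.IsPClosed p ↥H) : n = p := by
  classical
  by_contra hne
  have hlt : p < n := lt_of_le_of_ne hpn (Ne.symm hne)
  have hpp : p.Prime := Fact.out
  by_cases hp3 : p = 3
  · -- the case p = 3
    subst hp3
    let e0 : Fin n := ⟨0, by omega⟩
    let e1 : Fin n := ⟨1, by omega⟩
    let e2 : Fin n := ⟨2, by omega⟩
    let e3 : Fin n := ⟨3, by omega⟩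
    have h01 : e0 ≠ e1 := by simp [e0, e1, Fin.ext_iff]
    have h02 : e0 ≠ e2 := by simp [e0, e2, Fin.ext_iff]
    have h03 : e0 ≠ e3 := by simp [e0, e3, Fin.ext_iff]
    have h12 : e1 ≠ e2 := by simp [e1, e2, Fin.ext_iff]
    have h13 : e1 ≠ e3 := by simp [e1, e3, Fin.ext_iff]
    have h23 : e2 ≠ e3 := by simp [e2, e3, Fin.ext_iff]
    set l : Fin n := ⟨n - 1, by omega⟩ with hl
    have h0l : e0 ≠ l := by simp [e0, hl, Fin.ext_iff]; omega
    have h1l : e1 ≠ l := by simp [e1, hl, Fin.ext_iff]; omega
    have h2l : e2 ≠ l := by simp [e2, hl, Fin.ext_iff]; omega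
    have h3l : e3 ≠ l := by simp [e3, hl, Fin.ext_iff]; omega
    let u : Perm (Fin n) := swap e1 e2 * swap e1 e0
    let g : Perm (Fin n) := swap e0 e1 * swap e2 e3
    have hu3 : (swap e1 e2 * swap e1 e0).IsThreeCycle :=
      isThreeCycle_swap_mul_swap_same h12 h01.symm h02.symm
    have huo : orderOf u = 3 := hu3.orderOf
    have hsu : sign u = 1 := by simp [u, sign_swap h12, sign_swap h01.symm]
    have hsg : sign g = 1 := by simp [g, sign_swap h01, sign_swap h23]
    have hfu : u l = l := by
      simp only [u, Perm.mul_apply]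
      rw [swap_apply_of_ne_of_ne h1l.symm h0l.symm, swap_apply_of_ne_of_ne h1l.symm h2l.symm]
    have hfg : g l = l := by
      simp only [g, Perm.mul_apply]
      rw [swap_apply_of_ne_of_ne h2l.symm h3l.symm, swap_apply_of_ne_of_ne h0l.symm h1l.symm]
    obtain ⟨k, hk⟩ := core hn h u g hsu hsg hfu hfg huo
    -- compute
    have hg : g * u⁻¹ * g⁻¹ = swap e0 e1 * swap e0 e3 := by
      have e4 : u⁻¹ = swap e1 e0 * swap e1 e2 := by
        simp [u, mul_inv_rev, swap_inv]
      rw [e4]
      have e5 : g * (swap e1 e0 * swap e1 e2) * g⁻¹ = (g * swap e1 e0 * g⁻¹) * (g * swap e1 e2 * g⁻¹) := by group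
      rw [e5, ← swap_apply_apply, ← swap_apply_apply]
      have g1 : g e1 = e0 := by
        simp only [g, Perm.mul_apply]
        rw [swap_apply_of_ne_of_ne h12 h13, swap_apply_right]
      have g0 : g e0 = e1 := by
        simp only [g, Perm.mul_apply]
        rw [swap_apply_of_ne_of_ne h02 h03, swap_apply_left]
      have g2 : g e2 = e3 := by
        simp only [g, Perm.mul_apply]
        rw [swap_apply_left, swap_apply_of_ne_of_ne h03.symm h13.symm]
      rw [g1, g0, g2]
    have hτ : u * (g * u⁻¹ * g⁻¹) = swap e1 e2 * swap e0 e3 := by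
      rw [hg]
      show swap e1 e2 * swap e1 e0 * (swap e0 e1 * swap e0 e3) = _
      rw [swap_comm e1 e0]
      have e6 : swap e1 e2 * swap e0 e1 * (swap e0 e1 * swap e0 e3) = swap e1 e2 * (swap e0 e1 * swap e0 e1) * swap e0 e3 := by group
      rw [e6, swap_mul_self, mul_one]
    rw [hτ] at hk
    have hcomm : Commute (swap e1 e2) (swap e0 e3) := by
      apply Perm.Disjoint.commute
      exact Perm.disjoint_swap_swap (by simp [h12, h01.symm, h13, h02.symm, h23, h03])
    have hsq : (swap e1 e2 * swap e0 e3) ^ 2 = 1 := by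
      rw [hcomm.mul_pow, pow_two, pow_two, swap_mul_self, swap_mul_self, one_mul]
    have hd : orderOf (swap e1 e2 * swap e0 e3) ∣ 2 := orderOf_dvd_of_pow_eq_one hsq
    rw [hk] at hd
    have hk1 : 3 ^ k = 1 := by
      have hcop : Nat.Coprime (3 ^ k) 2 := Nat.Coprime.pow_left k (by norm_num)
      exact Nat.Coprime.eq_one_of_dvd hcop hd
    rw [hk1] at hk
    have hone := orderOf_eq_one_iff.mp hk
    have hval : (swap e1 e2 * swap e0 e3) e0 = e3 := by
      simp only [Perm.mul_apply]
      rw [swap_apply_left, swap_apply_of_ne_of_ne h13.symm h23.symm]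
    rw [hone] at hval
    exact h03 hval
  · -- the case p ≥ 5
    have hp5 : 5 ≤ p := by
      have := hpp.two_le
      by_contra hlt5
      have h4 : p ≠ 4 := by
        intro h4
        rw [h4] at hpp
        exact absurd hpp (by norm_num)
      omega
    have hpd : p ∣ Nat.card (Perm (Fin (n - 1))) := by
      rw [Nat.card_eq_fintype_card, Fintype.card_perm, Fintype.card_fin]
      exact (Nat.Prime.dvd_factorial hpp).mpr (by omega)
    obtain ⟨c0, hc0⟩ := exists_prime_orderOf_dvd_card' (G := Perm (Fin (n - 1))) p hpd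
    let ι : Fin (n - 1) ↪ Fin n := Fin.castLEEmb (by omega)
    let u : Perm (Fin n) := Perm.viaEmbeddingHom ι c0
    have huo : orderOf u = p := by
      rw [orderOf_injective (Perm.viaEmbeddingHom ι) (Perm.viaEmbeddingHom_injective ι) c0]
      exact hc0
    set l : Fin n := ⟨n - 1, by omega⟩ with hl
    have hfu : u l = l := by
      show Perm.viaEmbedding c0 ι l = l
      apply Perm.viaEmbedding_apply_of_notMem
      rintro ⟨i, hi⟩
      have : (ι i : ℕ) = n - 1 := by rw [hi]
      have h2 : (ι i : ℕ) = (i : ℕ) := rfl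
      have := i.2
      omega
    have hpodd : Odd p := hpp.odd_of_ne_two hp
    have hsu : sign u = 1 := by
      have h1 : (sign u) ^ p = 1 := by
        rw [← map_pow, ← huo, pow_orderOf_eq_one, map_one]
      rcases Int.units_eq_one_or (sign u) with h2 | h2
      · exact h2
      · rw [h2, hpodd.neg_one_pow] at h1
        exact absurd h1 (by decide)
    have hup : u ^ p = 1 := by rw [← huo]; exact pow_orderOf_eq_one u
    have hu1 : u ≠ 1 := by
      intro h1
      rw [h1, orderOf_one] at huo
      omega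
    obtain ⟨x, hx⟩ : ∃ x, u x ≠ x := by
      by_contra hcon
      push Not at hcon
      exact hu1 (Equiv.ext hcon)
    set a := u x with ha
    set b := u a with hb
    set d := u b with hd
    have hxl : x ≠ l := by
      intro h; apply hx; rw [ha, h]; exact hfu
    have hal : a ≠ l := by
      intro h
      apply hxl
      apply u.injective
      rw [hfu]; exact h
    have hbl : b ≠ l := by
      intro h
      apply hal
      apply u.injective
      rw [hfu]; exact h
    have hxa : x ≠ a := fun h => hx h.symm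
    have hab : a ≠ b := fun h => hxa (u.injective h)
    have hbd : b ≠ d := fun h => hab (u.injective h)
    have hxb : x ≠ b := by
      intro h
      apply hx
      apply pfix hpp hup (k := 2) (by intro h2; have := Nat.le_of_dvd (by norm_num) h2; omega)
      show (u ^ 2) x = x
      rw [pow_two, Perm.mul_apply]
      exact h.symm
    have had : a ≠ d := fun h => hxb (u.injective h)
    have hxd : x ≠ d := by
      intro h
      apply hx
      apply pfix hpp hup (k := 3) (by intro h2; have := Nat.le_of_dvd (by norm_num) h2; omega)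
      show (u ^ 3) x = x
      rw [pow_succ, pow_two, Perm.mul_apply, Perm.mul_apply]
      exact h.symm
    let g : Perm (Fin n) := swap x a * swap a b
    have hsg : sign g = 1 := by simp [g, sign_swap hxa, sign_swap hab]
    have hfg : g l = l := by
      simp only [g, Perm.mul_apply]
      rw [swap_apply_of_ne_of_ne hal.symm hbl.symm, swap_apply_of_ne_of_ne hxl.symm hal.symm]
    obtain ⟨k, hk⟩ := core hn h u g hsu hsg hfu hfg huo
    have hτ : u * (g * u⁻¹ * g⁻¹) = swap a d * swap a x := by
      have e1 : u * (g * u⁻¹ * g⁻¹) = (u * swap x a * u⁻¹) * (u * swap a b * u⁻¹) * g⁻¹ := by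
        simp only [g]; group
      rw [e1, ← swap_apply_apply, ← swap_apply_apply]
      have e2 : g⁻¹ = swap a b * swap x a := by
        simp [g, mul_inv_rev, swap_inv]
      rw [e2]
      show swap a b * swap b d * (swap a b * swap x a) = _
      have e3 : swap a b * swap b d * (swap a b * swap x a) = (swap a b * swap b d * (swap a b)⁻¹) * swap x a := by
        rw [swap_inv]; group
      rw [e3, ← swap_apply_apply, swap_apply_right, swap_apply_of_ne_of_ne had.symm hbd.symm, swap_comm x a]
    rw [hτ] at hk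
    have h3 : (swap a d * swap a x).IsThreeCycle :=
      isThreeCycle_swap_mul_swap_same had hxa.symm hxd.symm
    rw [h3.orderOf] at hk
    have hk0 : k ≠ 0 := by
      rintro rfl
      simp at hk
    have hdvd : p ∣ 3 := by
      rw [hk]
      exact dvd_pow_self p hk0
    have := Nat.le_of_dvd (by norm_num) hdvd
    omega

end Cfsg.Agent.S3941
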