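import Cfsg.Statements.S3949
import Mathlib
-- import your own Cfsg.Agent.* helpers here

set_option autoImplicit false
open Cfsg

namespace Cfsg.Agent.S3949

/-- Let G be a finite group and α an automorphism of G of order 2 such that the elements g·α(g)⁻¹ generate G. Let j be a positive integer such that 2^j divides the order of no element inverted by α. Then the set of values of the j-th iterate of the map c ↦ c·α(c)⁻¹ is exactly the set of elements of odd order inverted by α. -/
theorem result {G : Type*} [Group G] [Finite G] (α : MulAut G) (hα : orderOf α = 2) (hG : Subgroup.closure (Set.range (fun c : G => c * (α c)⁻¹)) = ⊤)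
    (j : ℕ) (hj : ∀ g : G, α g = g⁻¹ → ¬ 2 ^ j ∣ orderOf g) :
    Set.range ((fun c : G => c * (α c)⁻¹)^[j]) = {g : G | Odd (orderOf g) ∧ α g = g⁻¹} := by
  classical
  -- j is positive
  have hjpos : j ≠ 0 := by
    rintro rfl
    exact hj 1 (by simp) (by simp)
  have hα2 : ∀ g, α (α g) = g := by
    intro g
    have h1 : α ^ 2 = 1 := by rw [← hα]; exact pow_orderOf_eq_one α
    have := congrArg (fun φ : MulAut G => φ g) h1
    simpa [pow_two, MulAut.mul_apply] using this
  set f : G → G := fun c => c * (α c)⁻¹ with hf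
  -- f c is inverted
  have hinv : ∀ c, α (f c) = (f c)⁻¹ := by
    intro c
    simp [hf, hα2]
  -- on inverted elements f is squaring
  have hsq : ∀ g, α g = g⁻¹ → f g = g ^ 2 := by
    intro g hg
    simp [hf, hg, pow_two]
  have hpowinv : ∀ (g : G) (k : ℕ), α g = g⁻¹ → α (g ^ k) = (g ^ k)⁻¹ := by
    intro g k hg
    rw [map_pow, hg, inv_pow]
  have hiter : ∀ (k : ℕ) (g : G), α g = g⁻¹ → f^[k] g = g ^ (2 ^ k) := by
    intro k
    induction k with
    | zero => intro g _; simp
    | succ k ih =>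
      intro g hg
      rw [Function.iterate_succ_apply, hsq g hg, ih _ (hpowinv g 2 hg), ← pow_mul, pow_succ']
  ext g
  rw [Set.mem_range, Set.mem_ofPred_eq]
  constructor
  · rintro ⟨c, rfl⟩
    obtain ⟨j', rfl⟩ : ∃ j', j = j' + 1 := ⟨j - 1, by omega⟩
    rw [Function.iterate_succ_apply]
    set h := f c with hh
    have hhinv : α h = h⁻¹ := hinv c
    rw [hiter j' h hhinv]
    refine ⟨?_, hpowinv h _ hhinv⟩
    have hnd : ¬ 2 ^ (j' + 1) ∣ orderOf h := hj h hhinv
    have hpos : 0 < orderOf h := orderOf_pos h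
    obtain ⟨a, m, hm, hnm⟩ := Nat.exists_eq_two_pow_mul_odd hpos.ne'
    have ha : a ≤ j' := by
      by_contra hcon
      apply hnd
      rw [hnm]
      exact Dvd.dvd.mul_right (pow_dvd_pow 2 (by omega)) m
    have hgcd : Nat.gcd (orderOf h) (2 ^ j') = 2 ^ a := by
      obtain ⟨b, rfl⟩ := Nat.exists_eq_add_of_le ha
      rw [hnm, pow_add, Nat.gcd_mul_left,
        show Nat.gcd m (2 ^ b) = 1 from Nat.Coprime.pow_right b (Nat.coprime_two_right.mpr hm), mul_one]
    rw [orderOf_pow, hgcd, hnm, Nat.mul_div_cancel_left _ (by positivity)]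
    exact hm
  · rintro ⟨hodd, hg⟩
    -- 2^j-th root of g in ⟨g⟩
    have hcop : Nat.Coprime (2 ^ j) (orderOf g) :=
      Nat.Coprime.pow_left j (Nat.coprime_two_left.mpr hodd)
    obtain ⟨k, hk⟩ : ∃ k : ℕ, (g ^ k) ^ (2 ^ j) = g := by
      obtain ⟨m, hm⟩ := exists_pow_eq_self_of_coprime hcop
      exact ⟨m, by rw [pow_right_comm]; exact hm⟩
    exact ⟨g ^ k, by rw [hiter j _ (hpowinv g k hg), hk]⟩

end Cfsg.Agent.S3949
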