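import Cfsg.Statements.S3968
import Mathlib
import Cfsg.Agent.S0138
import Cfsg.Agent.S4845
import Cfsg.Agent.Lib.Char.Burnside
import Cfsg.Agent.Lib.Char.Clifford
import Cfsg.Agent.Lib.Char.CliffordCorr
import Cfsg.Agent.Lib.Char.PDerived
import Mathlib
-- import your own Cfsg.Agent.* helpers here

set_option autoImplicit false
set_option linter.style.haveILetI false
open Cfsg

namespace Cfsg.Agent.S3968

open Cfsg.Agent.Lib.Char Cfsg.Agent.Lib.Char.Clifford
open scoped commutatorElement

/-- Let `p` be a prime and `G` a finite group with a faithful irreducible complex character of degree `p` (so `G` is an irreducible linear group in `p` variables). If `p ^ 2` divides the order of `G`, then the centre of `G` is nontrivial. -/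
theorem result {G : Type*} [Group G] [Finite G] (p : ℕ) (hp : p.Prime) (χ : Cfsg.IrrCharacter G) (hdeg : χ.1 1 = p) (hfaith : ∀ g : G, χ.1 g = χ.1 1 → g = 1) (hdiv : p ^ 2 ∣ Nat.card G) : Subgroup.center G ≠ ⊥ := by
  classical
  cases nonempty_fintype G
  haveI : Fact p.Prime := ⟨hp⟩
  intro hZ
  obtain ⟨n, ρ, hirr, hρ⟩ := χ.2
  haveI := hirr
  have hn : n = p := by
    have h1 : ρ.character 1 = n := by
      rw [Representation.char_one]; simp
    rw [hρ, hdeg] at h1
    exact_mod_cast h1.symm
  subst hn
  have hinj : Function.Injective ρ := by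
    rw [injective_iff_map_eq_one]
    intro x hx
    apply hfaith
    rw [← hρ]
    have hx1 : ρ x = ρ 1 := by rw [hx, map_one ρ]
    show LinearMap.trace ℂ _ (ρ x) = LinearMap.trace ℂ _ (ρ 1)
    rw [hx1]
  -- the vanishing
  have hvan : ∀ g : G, g ≠ 1 → Nat.Coprime n (Subgroup.centralizer ({g} : Set G)).index →
      χ.1 g = 0 := by
    intro g hg hcop
    rw [← hρ]
    have hcop' : Nat.Coprime (Module.finrank ℂ (Fin n → ℂ))
        (Subgroup.centralizer ({g} : Set G)).index := by
      simpa using hcop
    rcases Burnside.character_eq_zero_or_norm_eq_of_coprime ρ g hcop' with h | h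
    · exact h
    · exfalso
      obtain ⟨ω, hω⟩ := (Cfsg.Agent.S0138.result ρ g).1 h
      apply hg
      have hcen : g ∈ Subgroup.center G := by
        rw [Subgroup.mem_center_iff]
        intro x
        apply hinj
        rw [map_mul, map_mul, hω]
        ext v
        simp
      rw [hZ, Subgroup.mem_bot] at hcen
      exact hcen
  let S : Sylow n G := default
  let P : Subgroup G := S
  have hPp : IsPGroup n P := S.isPGroup'
  letI : Fintype P := Fintype.ofFinite _
  have hcop : ∀ H : Subgroup G, P ≤ H → Nat.Coprime n H.index := by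
    intro H hH
    rw [Nat.Prime.coprime_iff_not_dvd hp]
    intro hd
    exact S.not_dvd_index (hd.trans (Subgroup.index_dvd_of_le hH))
  have hcardP : n ^ 2 ∣ Nat.card P := S.pow_dvd_card_of_pow_dvd_card hdiv
  have hχc := Basic.isCharacter_of_isIrrCharacter χ.2
  have hres := Basic.isCharacter_restrict hχc P
  have hone : (χ : G → ℂ) 1 = n := hdeg
  by_cases hPab : ∀ a ∈ P, ∀ b ∈ P, a * b = b * a
  · -- the abelian case
    have hz : ∀ x : P, x ≠ 1 → (χ : G → ℂ) x = 0 := by
      intro x hx
      apply hvan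
      · exact fun h => hx (Subtype.ext h)
      · apply hcop
        intro y hy
        rw [Subgroup.mem_centralizer_singleton_iff]
        exact hPab y hy x x.2
    let one : IrrCharacter P := ⟨fun _ => 1, Burnside2.isIrrCharacter_one⟩
    obtain ⟨k, hk⟩ := Ortho.exists_nat_classInner hres one
    have hsum : ∑ x : P, (χ : G → ℂ) x * (starRingEnd ℂ) ((one : P → ℂ) x) = n := by
      rw [Finset.sum_eq_single (1 : P)]
      · simp [one, hone]
      · intro x _ hx
        simp [hz x hx]
      · simp
    rw [classInner, hsum] at hk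
    have hPc : (Nat.card P : ℂ) ≠ 0 := by exact_mod_cast Nat.card_pos.ne'
    have h1 : (n : ℂ) = k * Nat.card P := by
      field_simp at hk
      rw [hk]
      ring
    have h2 : n = k * Nat.card P := by exact_mod_cast h1
    have h3 : n ^ 2 ∣ n := hcardP.trans ⟨k, by rw [h2]; ring⟩
    have h4 := Nat.le_of_dvd hp.pos h3
    nlinarith [hp.two_le]
  · -- the non-abelian case
    haveI hnt : Nontrivial P := by
      by_contra hcon
      rw [not_nontrivial_iff_subsingleton] at hcon
      apply hPab
      intro a ha b hb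
      have : (⟨a, ha⟩ : P) = ⟨b, hb⟩ := Subsingleton.elim _ _
      have h := congrArg Subtype.val this
      simp only at h
      rw [h]
    haveI : Nontrivial (Subgroup.center P) := hPp.center_nontrivial
    obtain ⟨z, hz1⟩ := exists_ne (1 : Subgroup.center P)
    obtain ⟨z, hzc⟩ := z
    have hzne : z ≠ 1 := fun h => hz1 (Subtype.ext h)
    have hz0 : (χ : G → ℂ) z = 0 := by
      apply hvan
      · exact fun h => hzne (Subtype.ext h)
      · apply hcop
        intro y hy
        rw [Subgroup.mem_centralizer_singleton_iff]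
        have := (Subgroup.mem_center_iff.mp hzc ⟨y, hy⟩)
        exact (congrArg Subtype.val this)
    have hex : ∃ θ : P → ℂ, IsIrrCharacter P θ ∧ classInner (fun x : P => (χ : G → ℂ) x) θ ≠ 0 ∧
        θ 1 ≠ 1 := by
      by_contra hcon
      push Not at hcon
      apply hPab
      intro a ha b hb
      have hc : (χ : G → ℂ) ⁅a, b⁆ = (χ : G → ℂ) 1 := by
        have hdec := Ortho.decomp_eq_sum_classInner hres
        have hterm : ∀ (τ : IrrCharacter P) (x : P), x = ⁅(⟨a, ha⟩ : P), ⟨b, hb⟩⁆ →
            classInner (fun x : P => (χ : G → ℂ) x) τ • (τ : P → ℂ) x =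
            classInner (fun x : P => (χ : G → ℂ) x) τ • (τ : P → ℂ) 1 := by
          intro τ x hx
          by_cases h0 : classInner (fun x : P => (χ : G → ℂ) x) τ = 0
          · rw [h0, zero_smul, zero_smul]
          · have h1 := hcon τ.1 τ.2 h0
            obtain ⟨φ, hφ⟩ := LinearChars.exists_hom_of_isCharacter_one
              (Basic.isCharacter_of_isIrrCharacter τ.2) h1
            have h2 : φ x = 1 := by
              rw [hx, commutatorElement_def, map_mul, map_mul, map_mul, map_inv, map_inv]
              simp [mul_comm]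
            have e : ∀ y, (τ : P → ℂ) y = ((φ y : ℂˣ) : ℂ) := fun y => congrFun hφ y
            rw [e x, e 1, h2, map_one]
        have h1 := congrFun hdec ⁅(⟨a, ha⟩ : P), ⟨b, hb⟩⁆
        have h2 := congrFun hdec (1 : P)
        simp only [Finset.sum_apply, Pi.smul_apply] at h1 h2
        have h3 : (χ : G → ℂ) ⁅a, b⁆ = (χ : G → ℂ) ((⁅(⟨a, ha⟩ : P), ⟨b, hb⟩⁆ : P) : G) := rfl
        rw [h3, h1, Finset.sum_congr rfl (fun τ _ => hterm τ _ rfl)]
        have h4 : (χ : G → ℂ) 1 = (χ : G → ℂ) ((1 : P) : G) := rfl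
        rw [h4, h2]
      have h1 := hfaith _ hc
      exact commutatorElement_eq_one_iff_mul_comm.mp h1
    obtain ⟨θ, hθ, hne, hθ1⟩ := hex
    obtain ⟨Ξ, hΞ, hsum⟩ := exists_char_add hres hθ hne
    obtain ⟨d, hd⟩ := exists_nat_apply_one hΞ
    let θ' : IrrCharacter P := ⟨θ, hθ⟩
    have hdeg2 : (charDegree (θ' : P → ℂ) : ℂ) = θ 1 := Cfsg.Agent.S4845.deg_cast θ'
    have hd1 : charDegree (θ' : P → ℂ) ≠ 1 := by
      intro h
      apply hθ1
      rw [← hdeg2, h]
      simp
    have hdvd : charDegree (θ' : P → ℂ) ∣ Nat.card P := Cfsg.Agent.S4845.deg_dvd θ'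
    obtain ⟨k, hk⟩ := hPp.exists_card_eq
    rw [hk] at hdvd
    obtain ⟨j, -, hj⟩ := (Nat.dvd_prime_pow hp).mp hdvd
    have hj0 : j ≠ 0 := by
      rintro rfl
      exact hd1 (by simpa using hj)
    have hge : n ≤ charDegree (θ' : P → ℂ) := by
      rw [hj]
      exact Nat.le_self_pow hj0 n
    have hat1 := congrFun hsum (1 : P)
    simp only [Pi.add_apply] at hat1
    have hat1' : (χ : G → ℂ) 1 = θ 1 + Ξ 1 := hat1
    rw [hone, ← hdeg2, hd] at hat1'
    have hnat : n = charDegree (θ' : P → ℂ) + d := by exact_mod_cast hat1'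
    have hd0 : d = 0 := by omega
    have hΞ0 : Ξ = 0 := eq_zero_of_apply_one_eq_zero hΞ (by rw [hd, hd0]; simp)
    have hat := congrFun hsum z
    simp only [Pi.add_apply, hΞ0, Pi.zero_apply, add_zero] at hat
    rw [hz0] at hat
    have h5 := PDerived.norm_central_eq hθ hzc
    rw [← hat, norm_zero] at h5
    have h6 : θ 1 = 0 := norm_eq_zero.mp h5.symm
    exact Ortho.irr_apply_one_ne_zero hθ h6

end Cfsg.Agent.S3968
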