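import Cfsg.Statements.S3983
import Mathlib
-- import your own Cfsg.Agent.* helpers here

set_option autoImplicit false
open scoped Pointwise
open Cfsg

namespace Cfsg.Agent.S3983

open Subgroup

theorem mem_conj_smul {G : Type*} [Group G] {H : Subgroup G} {g x : G} :
    x ∈ MulAut.conj g • H ↔ g⁻¹ * x * g ∈ H := by
  rw [Subgroup.mem_pointwise_smul_iff_inv_smul_mem, MulAut.smul_def, ← map_inv, MulAut.conj_apply]
  simp

/-- Let P be a Sylow p-subgroup of the finite group G that meets each conjugate g P g⁻¹ with g outside N_G(P) trivially, and let U be a subgroup of G of order divisible by p. Then a Sylow p-subgroup Q of U has the same property inside U: Q meets each conjugate u Q u⁻¹ with u ∈ U outside N_U(Q) trivially. -/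
theorem result {G : Type*} [Group G] [Finite G] (p : ℕ) [Fact p.Prime] (P : Sylow p G) (hTI : ∀ g : G, g ∉ Subgroup.normalizer ((P : Subgroup G) : Set G) → (P : Subgroup G) ⊓ (MulAut.conj g • (P : Subgroup G)) = ⊥) (U : Subgroup G) (hU : p ∣ Nat.card ↥U) (Q : Sylow p ↥U) : ∀ u : ↥U, u ∉ Subgroup.normalizer ((Q : Subgroup ↥U) : Set ↥U) → (Q : Subgroup ↥U) ⊓ (MulAut.conj u • (Q : Subgroup ↥U)) = ⊥ := by
  classical
  have hQ'p : IsPGroup p ((Q : Subgroup U).map U.subtype) := Q.isPGroup'.map _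
  obtain ⟨P', hP'⟩ := hQ'p.exists_le_sylow
  obtain ⟨g₀, hg₀⟩ := MulAction.exists_smul_eq G P P'
  have hTI' : ∀ g : G, ∀ x : G, x ≠ 1 → x ∈ (P' : Subgroup G) → g⁻¹ * x * g ∈ (P' : Subgroup G) →
      g • P' = P' := by
    intro g x hx1 hx hgx
    have hmem : ∀ z : G, z ∈ (P' : Subgroup G) → g₀⁻¹ * z * g₀ ∈ (P : Subgroup G) := by
      intro z hz
      rw [← hg₀, Sylow.coe_subgroup_smul] at hz
      exact mem_conj_smul.mp hz
    set h := g₀⁻¹ * g * g₀ with hh
    have h1 : g₀⁻¹ * x * g₀ ∈ (P : Subgroup G) := hmem x hx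
    have h2 : h⁻¹ * (g₀⁻¹ * x * g₀) * h ∈ (P : Subgroup G) := by
      have e : h⁻¹ * (g₀⁻¹ * x * g₀) * h = g₀⁻¹ * (g⁻¹ * x * g) * g₀ := by
        rw [hh]; group
      rw [e]
      exact hmem _ hgx
    have hN : h ∈ normalizer ((P : Subgroup G) : Set G) := by
      by_contra hcon
      have h3 := hTI h hcon
      have h4 : g₀⁻¹ * x * g₀ ∈ (P : Subgroup G) ⊓ (MulAut.conj h • (P : Subgroup G)) :=
        ⟨h1, mem_conj_smul.mpr h2⟩
      rw [h3, mem_bot] at h4
      apply hx1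
      have e : x = g₀ * (g₀⁻¹ * x * g₀) * g₀⁻¹ := by group
      rw [e, h4]
      group
    have h5 : h • P = P := Sylow.smul_eq_iff_mem_normalizer.mpr hN
    have e2 : g * g₀ = g₀ * h := by rw [hh]; group
    rw [← hg₀, ← mul_smul, e2, mul_smul, h5]
  intro u hu
  rw [eq_bot_iff]
  intro y hy
  rw [mem_bot]
  by_contra hy1
  apply hu
  have hyQ : y ∈ (Q : Subgroup U) := hy.1
  have hyu : (u⁻¹ * y * u : U) ∈ (Q : Subgroup U) := mem_conj_smul.mp hy.2
  have hx1 : (y : G) ≠ 1 := fun h => hy1 (Subtype.ext h)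
  have hQP : ∀ z ∈ (Q : Subgroup U), (z : G) ∈ (P' : Subgroup G) := fun z hz => hP' ⟨z, hz, rfl⟩
  have hu1 := hTI' (u : G) (y : G) hx1 (hQP y hyQ) (hQP _ hyu)
  have hu2 : (u : G) ∈ normalizer ((P' : Subgroup G) : Set G) :=
    Sylow.smul_eq_iff_mem_normalizer.mp hu1
  have hR : (P' : Subgroup G).subgroupOf U = (Q : Subgroup U) := by
    apply Q.is_maximal' (P'.isPGroup'.comap_of_injective U.subtype U.subtype_injective)
    intro z hz
    exact hQP z hz
  rw [mem_normalizer_iff]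
  intro h
  rw [← hR, mem_subgroupOf, mem_subgroupOf]
  exact (mem_normalizer_iff.mp hu2) (h : G)

end Cfsg.Agent.S3983
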