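import Cfsg.Statements.S3984
import Mathlib
import Cfsg.Agent.Lib.Perm.SylowConj

set_option autoImplicit false
open scoped Pointwise
open Cfsg

namespace Cfsg.Agent.S3984



/-- Let P be a Sylow p-subgroup of the finite group G that meets each conjugate g P g⁻¹ with g outside N_G(P) trivially, and let N be a normal subgroup of G of order prime to p. Then every Sylow p-subgroup Q of G ⧸ N meets each conjugate x Q x⁻¹ with x outside its normalizer trivially. -/
theorem result {G : Type*} [Group G] [Finite G] (p : ℕ) [Fact p.Prime] (P : Sylow p G) (hTI : ∀ g : G, g ∉ Subgroup.normalizer ((P : Subgroup G) : Set G) → (P : Subgroup G) ⊓ (MulAut.conj g • (P : Subgroup G)) = ⊥) (N : Subgroup G) [N.Normal] (hN : (Nat.card ↥N).Coprime p) (Q : Sylow p (G ⧸ N)) : ∀ x : G ⧸ N, x ∉ Subgroup.normalizer ((Q : Subgroup (G ⧸ N)) : Set (G ⧸ N)) → (Q : Subgroup (G ⧸ N)) ⊓ (MulAut.conj x • (Q : Subgroup (G ⧸ N))) = ⊥ := by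
  classical
  intro x hx
  have hf : Function.Surjective (QuotientGroup.mk' N) := QuotientGroup.mk'_surjective N
  obtain ⟨P1, hP1⟩ := Sylow.mapSurjective_surjective hf p Q
  have hcoe : (Q : Subgroup (G ⧸ N)) = (P1 : Subgroup G).map (QuotientGroup.mk' N) := by
    rw [← hP1]; exact Sylow.coe_mapSurjective ..
  obtain ⟨y, hy⟩ := MulAction.exists_smul_eq G P P1
  -- TI for `P1`
  have hTI1 : ∀ g : G, ∀ a ∈ (P1 : Subgroup G), a ≠ 1 → g⁻¹ * a * g ∈ (P1 : Subgroup G) →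
      g ∈ Subgroup.normalizer ((P1 : Subgroup G) : Set G) := by
    intro g a ha ha1 hga
    rw [← hy, Cfsg.Agent.Lib.Perm.SylowConj.mem_smul_iff] at ha hga
    set g' := y⁻¹ * g * y with hg'
    have hg'N : g' ∈ Subgroup.normalizer ((P : Subgroup G) : Set G) := by
      by_contra hn
      have h1 := hTI g' hn
      have hmem : y⁻¹ * a * y ∈ (P : Subgroup G) ⊓ (MulAut.conj g' • (P : Subgroup G)) := by
        refine Subgroup.mem_inf.mpr ⟨ha, ?_⟩
        rw [Subgroup.mem_pointwise_smul_iff_inv_smul_mem, MulAut.smul_def, MulAut.conj_inv_apply]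
        have e : g'⁻¹ * (y⁻¹ * a * y) * g' = y⁻¹ * (g⁻¹ * a * g) * y := by rw [hg']; group
        rw [e]
        exact hga
      rw [h1, Subgroup.mem_bot] at hmem
      apply ha1
      have e : a = y * (y⁻¹ * a * y) * y⁻¹ := by group
      rw [e, hmem]
      group
    apply Sylow.smul_eq_iff_mem_normalizer.mp
    have h2 : g' • P = P := Sylow.smul_eq_iff_mem_normalizer.mpr hg'N
    have e : g * y = y * g' := by rw [hg']; group
    rw [← hy, ← mul_smul, e, mul_smul, h2]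
  by_contra hne
  obtain ⟨z, hzm, hz1'⟩ := (Subgroup.bot_or_exists_ne_one _).resolve_left hne
  obtain ⟨hzQ, hzQ'⟩ := Subgroup.mem_inf.mp hzm
  rw [Subgroup.mem_pointwise_smul_iff_inv_smul_mem, MulAut.smul_def, MulAut.conj_inv_apply] at hzQ'
  rw [hcoe] at hzQ hzQ'
  obtain ⟨a, ha, haz⟩ := hzQ
  obtain ⟨b, hb, hbz⟩ := hzQ'
  obtain ⟨g, rfl⟩ := hf x
  have ha1 : a ≠ 1 := by
    rintro rfl
    apply hz1'
    rw [← haz, map_one]
  have hatT : a ∈ ((g • P1 : Sylow p G) : Subgroup G) ⊔ N := by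
    have h1 : QuotientGroup.mk' N (g * b * g⁻¹) = QuotientGroup.mk' N a := by
      rw [haz, map_mul, map_mul, hbz, map_inv]
      group
    have h2 : (g * b * g⁻¹)⁻¹ * a ∈ N := QuotientGroup.eq.mp h1
    have e : a = (g * b * g⁻¹) * ((g * b * g⁻¹)⁻¹ * a) := by group
    rw [e]
    refine Subgroup.mul_mem_sup ?_ h2
    rw [Cfsg.Agent.Lib.Perm.SylowConj.mem_smul_iff]
    have e2 : g⁻¹ * (g * b * g⁻¹) * g = b := by group
    rw [e2]
    exact hb
  obtain ⟨k, hk⟩ := IsPGroup.iff_orderOf.mp P1.isPGroup' ⟨a, ha⟩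
  have hk' : orderOf a = p ^ k := by rw [← hk, Subgroup.orderOf_mk]
  have hJ : IsPGroup p (Subgroup.zpowers a) := IsPGroup.of_card (n := k) (by rw [Nat.card_zpowers, hk'])
  obtain ⟨t, ht, htJ⟩ := Cfsg.Agent.Lib.Perm.SylowConj.conj_into
    (((g • P1 : Sylow p G) : Subgroup G) ⊔ N) (g • P1) le_sup_left (Subgroup.zpowers a) hJ
    ((Subgroup.zpowers_le).mpr hatT)
  obtain ⟨w, hw, n, hn, rfl⟩ := Subgroup.mem_sup_of_normal_right.mp ht
  have h3 := htJ a (Subgroup.mem_zpowers a)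
  have h4 : n * a * n⁻¹ ∈ ((g • P1 : Sylow p G) : Subgroup G) := by
    have e : n * a * n⁻¹ = w⁻¹ * (w * n * a * (w * n)⁻¹) * w := by group
    rw [e]
    exact Subgroup.mul_mem _ (Subgroup.mul_mem _ (Subgroup.inv_mem _ hw) h3) hw
  rw [Cfsg.Agent.Lib.Perm.SylowConj.mem_smul_iff] at h4
  have h5 : (n⁻¹ * g)⁻¹ * a * (n⁻¹ * g) ∈ (P1 : Subgroup G) := by
    have e : (n⁻¹ * g)⁻¹ * a * (n⁻¹ * g) = g⁻¹ * (n * a * n⁻¹) * g := by group
    rw [e]
    exact h4
  have h6 := hTI1 _ a ha ha1 h5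
  apply hx
  have h7 : QuotientGroup.mk' N (n⁻¹ * g) = QuotientGroup.mk' N g := by
    have hn' : QuotientGroup.mk' N n = 1 := (QuotientGroup.eq_one_iff n).mpr hn
    rw [map_mul, map_inv, hn']
    simp
  rw [← h7, hcoe]
  exact Subgroup.le_normalizer_map _ ⟨_, h6, rfl⟩

end Cfsg.Agent.S3984
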