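import Cfsg.Statements.S3985
import Mathlib

set_option autoImplicit false
open scoped Pointwise
open Cfsg

namespace Cfsg.Agent.S3985

open Subgroup

variable {G : Type*} [Group G] [Finite G]

lemma comm_of_cyclic {P : Subgroup G} (hcyc : IsCyclic P) {a b : G} (ha : a ∈ P) (hb : b ∈ P) :
    a * b = b * a := by
  letI := IsCyclic.commGroup (α := P)
  have := mul_comm (⟨a, ha⟩ : P) ⟨b, hb⟩
  exact congrArg Subtype.val this

/-- Conjugation by an element normalizing `P`, as an endomorphism of `P`. -/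
def conjEnd (P : Subgroup G) {g : G} (hg : g ∈ normalizer (P : Set G)) : P →* P where
  toFun y := ⟨g * y * g⁻¹, (mem_normalizer_iff.mp hg y).mp y.2⟩
  map_one' := by apply Subtype.ext; simp
  map_mul' a b := by apply Subtype.ext; simp [mul_assoc]

lemma map_cyc {Q : Type*} [Group Q] [IsCyclic Q] (f : Q →* Q) : ∃ m : ℤ, ∀ y, f y = y ^ m := by
  obtain ⟨g, hg⟩ := IsCyclic.exists_generator (α := Q)
  obtain ⟨m, hm⟩ := mem_zpowers_iff.mp (hg (f g))
  refine ⟨m, fun y => ?_⟩
  obtain ⟨j, hj⟩ := mem_zpowers_iff.mp (hg y)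
  rw [← hj, map_zpow, ← hm, ← zpow_mul, ← zpow_mul, mul_comm]

lemma central_of_fix {p : ℕ} [Fact p.Prime] (P : Sylow p G) (hcyc : IsCyclic (P : Subgroup G))
    {x g : G} (hx : x ∈ (P : Subgroup G)) (hx1 : x ≠ 1) (hgx : g * x = x * g)
    (hg : g ∈ normalizer ((P : Subgroup G) : Set G)) :
    g ∈ centralizer ((P : Subgroup G) : Set G) := by
  classical
  have hp : p.Prime := Fact.out
  set N := normalizer ((P : Subgroup G) : Set G) with hN
  set σ := conjEnd (P : Subgroup G) hg with hσ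
  obtain ⟨m, hm⟩ := map_cyc σ
  have hσv : ∀ y : (P : Subgroup G), ((σ y : (P : Subgroup G)) : G) = g * y * g⁻¹ := fun _ => rfl
  -- `k` the index of `P` in its normalizer
  set k := ((P : Subgroup G).subgroupOf N).index with hk
  haveI hnorm : ((P : Subgroup G).subgroupOf N).Normal :=
    normal_in_normalizer
  have hgk : g ^ k ∈ (P : Subgroup G) := by
    have := Subgroup.pow_index_mem ((P : Subgroup G).subgroupOf N) (⟨g, hg⟩ : N)
    have h2 := mem_subgroupOf.mp this
    simpa using h2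
  have hkp : ¬ p ∣ k := by
    intro hd
    apply P.not_dvd_index
    have := relIndex_mul_index (H := (P : Subgroup G)) (K := N) le_normalizer
    rw [← this]
    exact hd.trans (dvd_mul_right _ _)
  -- `σ^i y = y^(m^i)`
  have hpowσ : ∀ (i : ℕ) (y : (P : Subgroup G)), g ^ i * (y : G) * (g ^ i)⁻¹ = ((y ^ (m ^ i) : (P : Subgroup G)) : G) := by
    intro i
    induction i with
    | zero => intro y; simp
    | succ i ih =>
      intro y
      have h1 : ((y ^ m : (P : Subgroup G)) : G) = g * y * g⁻¹ := by rw [← hm y]; rfl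
      calc g ^ (i + 1) * (y : G) * (g ^ (i + 1))⁻¹
          = g ^ i * (g * y * g⁻¹) * (g ^ i)⁻¹ := by rw [pow_succ]; group
        _ = g ^ i * ((y ^ m : (P : Subgroup G)) : G) * (g ^ i)⁻¹ := by rw [h1]
        _ = ((((y ^ m) ^ (m ^ i)) : (P : Subgroup G)) : G) := ih _
        _ = _ := by rw [← zpow_mul, pow_succ, mul_comm]
  have hyk : ∀ y : (P : Subgroup G), y ^ (m ^ k) = y := by
    intro y
    apply Subtype.ext
    rw [← hpowσ k y]
    have := comm_of_cyclic hcyc hgk y.2
    rw [this]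
    simp
  -- `p ∣ m - 1`
  have hmx : (⟨x, hx⟩ : (P : Subgroup G)) ^ (m - 1) = 1 := by
    have h1 : (⟨x, hx⟩ : (P : Subgroup G)) ^ m = ⟨x, hx⟩ := by
      rw [← hm]
      apply Subtype.ext
      show g * x * g⁻¹ = x
      rw [hgx]; group
    rw [zpow_sub, h1]
    simp
  obtain ⟨c, hc⟩ := (IsPGroup.iff_orderOf.mp P.isPGroup') ⟨x, hx⟩
  have hc0 : c ≠ 0 := by
    rintro rfl
    rw [pow_zero, orderOf_eq_one_iff] at hc
    exact hx1 (congrArg Subtype.val hc)
  have hpm : (p : ℤ) ∣ m - 1 := by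
    have h1 := orderOf_dvd_iff_zpow_eq_one.mpr hmx
    rw [hc] at h1
    refine dvd_trans ?_ h1
    push_cast
    exact dvd_pow_self _ hc0
  -- the sum
  set S : ℤ := ∑ i ∈ Finset.range k, m ^ i with hS
  have hSmul : S * (m - 1) = m ^ k - 1 := geom_sum_mul m k
  have hSp : ¬ (p : ℤ) ∣ S := by
    intro hd
    have h1 : ((S : ℤ) : ZMod p) = 0 := (ZMod.intCast_zmod_eq_zero_iff_dvd S p).mpr hd
    have h2 : ((m : ℤ) : ZMod p) = 1 := by
      have : ((m - 1 : ℤ) : ZMod p) = 0 := (ZMod.intCast_zmod_eq_zero_iff_dvd _ p).mpr hpm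
      push_cast at this
      exact sub_eq_zero.mp this
    have h3 : ((S : ℤ) : ZMod p) = (k : ZMod p) := by
      rw [hS]
      push_cast
      rw [h2]
      simp
    rw [h3] at h1
    exact hkp ((ZMod.natCast_eq_zero_iff k p).mp h1)
  rw [mem_centralizer_iff]
  intro y hy
  -- every `y` satisfies `y^(m-1) = 1`
  have h1 : (⟨y, hy⟩ : (P : Subgroup G)) ^ (S * (m - 1)) = 1 := by
    rw [hSmul, zpow_sub, hyk]
    simp
  obtain ⟨e, he⟩ := (IsPGroup.iff_orderOf.mp P.isPGroup') ⟨y, hy⟩
  have h2 := orderOf_dvd_iff_zpow_eq_one.mpr h1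
  rw [he] at h2
  have hcop : IsCoprime ((p ^ e : ℕ) : ℤ) S := by
    push_cast
    apply IsCoprime.pow_left
    exact (Int.prime_iff_natAbs_prime.mpr (by simpa using hp)).coprime_iff_not_dvd.mpr hSp
  have h3 := hcop.dvd_of_dvd_mul_left h2
  rw [← he] at h3
  have h4 := orderOf_dvd_iff_zpow_eq_one.mp h3
  have h5 : (⟨y, hy⟩ : (P : Subgroup G)) ^ m = ⟨y, hy⟩ := by
    rw [zpow_sub] at h4
    simp only [zpow_one] at h4
    exact mul_inv_eq_one.mp h4
  have h6 : g * y * g⁻¹ = y := by
    have := congrArg Subtype.val ((hm ⟨y, hy⟩).trans h5)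
    exact this
  -- conclude
  exact (mul_inv_eq_iff_eq_mul.mp h6).symm

/-- Let P be a cyclic Sylow p-subgroup of the finite group G. Then P meets each conjugate g P g⁻¹ with g outside N_G(P) trivially if and only if P is weakly self-centralizing: C_G(x) = C_G(P) for every non-identity x ∈ P. -/
theorem result {G : Type*} [Group G] [Finite G] (p : ℕ) [Fact p.Prime] (P : Sylow p G) (hcyc : IsCyclic ↥(P : Subgroup G)) : (∀ g : G, g ∉ Subgroup.normalizer ((P : Subgroup G) : Set G) → (P : Subgroup G) ⊓ (MulAut.conj g • (P : Subgroup G)) = ⊥) ↔ ∀ x : G, x ∈ (P : Subgroup G) → x ≠ 1 → Subgroup.centralizer ({x} : Set G) = Subgroup.centralizer ((P : Subgroup G) : Set G) := by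
  have hp : p.Prime := Fact.out
  constructor
  · intro hTI x hx hx1
    apply le_antisymm
    · intro g hg
      have hgx : g * x = x * g := (Subgroup.mem_centralizer_singleton_iff.mp hg)
      apply central_of_fix P hcyc hx hx1 hgx
      by_contra hn
      have h1 := hTI g hn
      have hmem : x ∈ (P : Subgroup G) ⊓ (MulAut.conj g • (P : Subgroup G)) := by
        refine Subgroup.mem_inf.mpr ⟨hx, ?_⟩
        rw [Subgroup.mem_pointwise_smul_iff_inv_smul_mem]
        have : (MulAut.conj g)⁻¹ • x = x := by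
          rw [MulAut.smul_def, MulAut.conj_inv_apply, mul_assoc, ← hgx]
          group
        rw [this]
        exact hx
      rw [h1, Subgroup.mem_bot] at hmem
      exact hx1 hmem
    · exact Subgroup.centralizer_le (Set.singleton_subset_iff.mpr hx)
  · intro h g hg
    by_contra hne
    obtain ⟨x, hx1⟩ := Subgroup.ne_bot_iff_exists_ne_one.mp hne
    have hx1' : (x : G) ≠ 1 := fun e => hx1 (Subtype.ext e)
    obtain ⟨hxP, hxQ⟩ := Subgroup.mem_inf.mp x.2
    set Q : Sylow p G := g • P with hQ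
    have hQcoe : (Q : Subgroup G) = MulAut.conj g • (P : Subgroup G) := Sylow.coe_subgroup_smul
    have hxQ' : (x : G) ∈ (Q : Subgroup G) := by rw [hQcoe]; exact hxQ
    have hmemQ : ∀ z, z ∈ (Q : Subgroup G) → g⁻¹ * z * g ∈ (P : Subgroup G) := by
      intro z hz
      rw [hQcoe, Subgroup.mem_pointwise_smul_iff_inv_smul_mem, MulAut.smul_def,
        MulAut.conj_inv_apply] at hz
      exact hz
    have hle : (Q : Subgroup G) ≤ Subgroup.centralizer ({(x : G)} : Set G) := by
      intro q hq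
      rw [Subgroup.mem_centralizer_singleton_iff]
      have h1 := comm_of_cyclic hcyc (hmemQ q hq) (hmemQ _ hxQ')
      have h2 : g * ((g⁻¹ * q * g) * (g⁻¹ * (x : G) * g)) * g⁻¹ =
          g * ((g⁻¹ * (x : G) * g) * (g⁻¹ * q * g)) * g⁻¹ := by rw [h1]
      simpa [mul_assoc] using h2
    rw [h x hxP hx1'] at hle
    have hle2 : (Q : Subgroup G) ≤ Subgroup.normalizer ((P : Subgroup G) : Set G) :=
      hle.trans (Subgroup.centralizer_le_normalizer _)
    have h3 : (Q : Subgroup G) ⊓ Subgroup.normalizer ((P : Subgroup G) : Set G) = (Q : Subgroup G) ⊓ (P : Subgroup G) :=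
      Q.isPGroup'.inf_normalizer_sylow P
    have hle3 : (Q : Subgroup G) ≤ P := by
      have : (Q : Subgroup G) ⊓ Subgroup.normalizer ((P : Subgroup G) : Set G) = Q := inf_eq_left.mpr hle2
      rw [this] at h3
      rw [h3]
      exact inf_le_right
    have h4 : (P : Subgroup G) = Q := Q.is_maximal' P.isPGroup' hle3
    have h5 : g • P = P := (Sylow.ext h4).symm
    exact hg (Sylow.smul_eq_iff_mem_normalizer.mp h5)

end Cfsg.Agent.S3985
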