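import Cfsg.Statements.S3986
import Mathlib

set_option autoImplicit false
open Cfsg

namespace Cfsg.Agent.S3986

open Subgroup

variable {G : Type*} [Group G] [Finite G]

lemma mem_of_prime_power {p : ℕ} (A : Subgroup G)
    (h : ∀ y : G, (∃ q b : ℕ, q.Prime ∧ q ≠ p ∧ orderOf y = q ^ b) → y ∈ A) :
    ∀ y : G, (orderOf y).Coprime p → y ∈ A := by
  intro y
  induction hn : orderOf y using Nat.strong_induction_on generalizing y with
  | _ n ih =>
    intro hc
    by_cases hn1 : n = 1
    · have : y = 1 := orderOf_eq_one_iff.mp (hn.trans hn1)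
      rw [this]
      exact A.one_mem
    · have hnpos : 0 < n := by rw [← hn]; exact orderOf_pos y
      have hn0 : n ≠ 0 := hnpos.ne'
      set q := n.minFac with hq
      have hqp : q.Prime := Nat.minFac_prime hn1
      have hqn : q ∣ n := Nat.minFac_dvd n
      have hqne : q ≠ p := by
        rintro rfl
        have := Nat.Coprime.eq_one_of_dvd hc.symm hqn
        exact hqp.one_lt.ne' this
      set a := ordProj[q] n with ha
      set b := ordCompl[q] n with hb
      have hab : a * b = n := Nat.ordProj_mul_ordCompl_eq_self n q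
      by_cases hb1 : b = 1
      · apply h
        refine ⟨q, n.factorization q, hqp, hqne, ?_⟩
        rw [hn]
        rw [hb1, mul_one] at hab
        exact hab.symm
      · have hcop : Nat.Coprime a b := by
          apply Nat.Coprime.pow_left
          exact Nat.coprime_ordCompl hqp hn0
        have ha1 : a ≠ 1 := by
          intro ha1
          have : q ^ n.factorization q = 1 := ha1
          have h2 : n.factorization q ≠ 0 := (hqp.factorization_pos_of_dvd hn0 hqn).ne'
          have h3 := Nat.one_lt_pow h2 hqp.one_lt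
          omega
        have hapos : 0 < a := Nat.pos_of_ne_zero (by rintro h0; simp [h0] at hab; omega)
        have hbpos : 0 < b := Nat.pos_of_ne_zero (by rintro h0; simp [h0] at hab; omega)
        have hbn : b < n := by
          rw [← hab]
          have : 1 < a := by omega
          nlinarith
        have han : a < n := by
          rw [← hab]
          have : 1 < b := by omega
          nlinarith
        have oa : orderOf (y ^ a) = b := by
          rw [orderOf_pow_of_dvd hapos.ne' (by rw [hn, ← hab]; exact dvd_mul_right a b), hn, ← hab]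
          exact Nat.mul_div_cancel_left b hapos
        have ob : orderOf (y ^ b) = a := by
          rw [orderOf_pow_of_dvd hbpos.ne' (by rw [hn, ← hab]; exact dvd_mul_left b a), hn, ← hab]
          exact Nat.mul_div_cancel _ hbpos
        have h1 : y ^ a ∈ A := ih b hbn (y ^ a) oa
          (Nat.Coprime.coprime_dvd_left ⟨a, by rw [← hab, mul_comm]⟩ hc)
        have h2 : y ^ b ∈ A := ih a han (y ^ b) ob
          (Nat.Coprime.coprime_dvd_left ⟨b, hab.symm⟩ hc)
        have hbez := Nat.gcd_eq_gcd_ab a b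
        rw [hcop] at hbez
        have : y = (y ^ a) ^ (Nat.gcdA a b) * (y ^ b) ^ (Nat.gcdB a b) := by
          rw [← zpow_natCast, ← zpow_natCast, ← zpow_mul, ← zpow_mul, ← zpow_add]
          rw [← hbez]
          simp
        rw [this]
        exact A.mul_mem (A.zpow_mem h1 _) (A.zpow_mem h2 _)

lemma mem_sylow_of_normal {p : ℕ} [Fact p.Prime] (P : Sylow p G) (hP : (P : Subgroup G).Normal)
    {x : G} (hx : ∃ a : ℕ, orderOf x = p ^ a) : x ∈ (P : Subgroup G) := by
  obtain ⟨a, ha⟩ := hx
  have hpg : IsPGroup p (zpowers x) := IsPGroup.of_card (n := a) (by rw [Nat.card_zpowers, ha])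
  obtain ⟨Q, hQ⟩ := hpg.exists_le_sylow
  haveI := hP
  have h1 : (P : Subgroup G) ≤ Q := P.isPGroup'.le_sylow_of_normal Q
  have e : (Q : Subgroup G) = P := P.is_maximal' Q.isPGroup' h1
  rw [← e]
  exact hQ (mem_zpowers x)

lemma mem_comp_of_direct {p : ℕ} [Fact p.Prime] (P : Subgroup G) (K : Subgroup G) (hPp : IsPGroup p P)
    (hPn : P.Normal) (hKn : K.Normal) (hinf : P ⊓ K = ⊥) (hsup : P ⊔ K = ⊤) {y : G}
    (hy : ∃ q b : ℕ, q.Prime ∧ q ≠ p ∧ orderOf y = q ^ b) : y ∈ K := by
  obtain ⟨q, b, hq, hqp, hb⟩ := hy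
  have hy' : y ∈ P ⊔ K := by rw [hsup]; exact mem_top y
  obtain ⟨u, hu, v, hv, rfl⟩ := mem_sup_of_normal_right.mp hy'
  have hdis : Disjoint P K := disjoint_iff.mpr hinf
  have hcomm : Commute u v := commute_of_normal_of_disjoint P K hPn hKn hdis u v hu hv
  have h1 : (u * v) ^ (q ^ b) = 1 := by rw [← hb]; exact pow_orderOf_eq_one _
  rw [hcomm.mul_pow] at h1
  have h2 : u ^ (q ^ b) = (v ^ (q ^ b))⁻¹ := eq_inv_of_mul_eq_one_left h1
  have h3 : u ^ (q ^ b) ∈ P ⊓ K :=
    ⟨P.pow_mem hu _, by rw [h2]; exact K.inv_mem (K.pow_mem hv _)⟩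
  rw [hinf, mem_bot] at h3
  obtain ⟨k, hk⟩ := (IsPGroup.iff_orderOf.mp hPp) ⟨u, hu⟩
  have hk' : orderOf u = p ^ k := by rw [← hk, Subgroup.orderOf_mk]
  have hd : orderOf u ∣ q ^ b := orderOf_dvd_of_pow_eq_one h3
  have hcop : Nat.Coprime (p ^ k) (q ^ b) :=
    Nat.Coprime.pow k b ((Nat.coprime_primes Fact.out hq).mpr hqp.symm)
  have hu1 : orderOf u = 1 := by
    rw [hk'] at hd ⊢
    exact Nat.Coprime.eq_one_of_dvd hcop hd
  have : u = 1 := orderOf_eq_one_iff.mp hu1
  rw [this, one_mul]
  exact hv

/-- The equivalence of `S3986`, reusable. -/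
theorem direct_iff (p : ℕ) [Fact p.Prime] : (∃ (P : Sylow p G) (K : Subgroup G), (P : Subgroup G).Normal ∧ K.Normal ∧ (P : Subgroup G) ⊓ K = ⊥ ∧ (P : Subgroup G) ⊔ K = ⊤) ↔ ∀ x y : G, (∃ a : ℕ, orderOf x = p ^ a) → (∃ q b : ℕ, q.Prime ∧ q ≠ p ∧ orderOf y = q ^ b) → x * y = y * x := by
  constructor
  · rintro ⟨P, K, hPn, hKn, hinf, hsup⟩ x y hx hy
    have hxP := mem_sylow_of_normal P hPn hx
    have hyK := mem_comp_of_direct (p := p) (P : Subgroup G) K P.isPGroup' hPn hKn hinf hsup hy
    exact commute_of_normal_of_disjoint _ _ hPn hKn (disjoint_iff.mpr hinf) x y hxP hyK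
  · intro hc
    obtain ⟨P⟩ : Nonempty (Sylow p G) := inferInstance
    have hcen : ∀ y : G, (∃ q b : ℕ, q.Prime ∧ q ≠ p ∧ orderOf y = q ^ b) →
        y ∈ centralizer ((P : Subgroup G) : Set G) := by
      intro y hy
      rw [mem_centralizer_iff]
      intro x hx
      obtain ⟨k, hk⟩ := (IsPGroup.iff_orderOf.mp P.isPGroup') ⟨x, hx⟩
      exact hc x y ⟨k, by rw [← hk, Subgroup.orderOf_mk]⟩ hy
    have hidx : (normalizer ((P : Subgroup G) : Set G)).index = 1 := by
      by_contra hne
      obtain ⟨q, hq, hqd⟩ := Nat.exists_prime_and_dvd hne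
      by_cases hqp : q = p
      · subst hqp
        exact P.not_dvd_index (hqd.trans (Subgroup.index_dvd_of_le le_normalizer))
      · haveI : Fact q.Prime := ⟨hq⟩
        obtain ⟨R⟩ : Nonempty (Sylow q G) := inferInstance
        have hle : (R : Subgroup G) ≤ normalizer ((P : Subgroup G) : Set G) := by
          intro r hr
          obtain ⟨b, hb⟩ := (IsPGroup.iff_orderOf.mp R.isPGroup') ⟨r, hr⟩
          have := hcen r ⟨q, b, hq, hqp, by rw [← hb, Subgroup.orderOf_mk]⟩
          exact centralizer_le_normalizer _ this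
        exact R.not_dvd_index (hqd.trans (Subgroup.index_dvd_of_le hle))
    have hPn : (P : Subgroup G).Normal := by
      rw [← normalizer_eq_top_iff]
      exact Subgroup.index_eq_one.mp hidx
    have hcop : (Nat.card (P : Subgroup G)).Coprime (P : Subgroup G).index := P.card_coprime_index
    obtain ⟨K, hK⟩ := Subgroup.exists_right_complement'_of_coprime hcop
    have hKcard : Nat.card K = (P : Subgroup G).index := by
      exact (hK.symm.index_eq_card).symm
    have hKcen : K ≤ centralizer ((P : Subgroup G) : Set G) := by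
      intro y hy
      apply mem_of_prime_power _ hcen
      have hd : orderOf y ∣ (P : Subgroup G).index := by
        rw [← hKcard]
        have := orderOf_dvd_natCard (⟨y, hy⟩ : K)
        rwa [Subgroup.orderOf_mk] at this
      have hpi : ¬ p ∣ (P : Subgroup G).index := P.not_dvd_index
      have hcop2 : Nat.Coprime (P : Subgroup G).index p :=
        ((Nat.Prime.coprime_iff_not_dvd Fact.out).mpr hpi).symm
      exact Nat.Coprime.coprime_dvd_left hd hcop2
    have hsup : (P : Subgroup G) ⊔ K = ⊤ := hK.sup_eq_top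
    refine ⟨P, K, hPn, ?_, hK.disjoint.eq_bot, hsup⟩
    constructor
    intro n hn g
    have hg : g ∈ (P : Subgroup G) ⊔ K := by rw [hsup]; exact mem_top g
    obtain ⟨w, hw, k, hk, rfl⟩ := mem_sup_of_normal_left.mp hg
    have hnc : n ∈ centralizer ((P : Subgroup G) : Set G) := hKcen hn
    have hkc : k ∈ centralizer ((P : Subgroup G) : Set G) := hKcen hk
    have h1 : w * n = n * w := ((mem_centralizer_iff.mp hnc) w hw)
    have h2 : w * k = k * w := ((mem_centralizer_iff.mp hkc) w hw)
    have e : w * k * n * (w * k)⁻¹ = k * n * k⁻¹ := by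
      have hkn : k * n * k⁻¹ ∈ K := K.mul_mem (K.mul_mem hk hn) (K.inv_mem hk)
      have hc' : w * (k * n * k⁻¹) = (k * n * k⁻¹) * w :=
        (mem_centralizer_iff.mp (hKcen hkn)) w hw
      calc w * k * n * (w * k)⁻¹ = w * (k * n * k⁻¹) * w⁻¹ := by group
        _ = (k * n * k⁻¹) * w * w⁻¹ := by rw [hc']
        _ = _ := by group
    rw [e]
    exact K.mul_mem (K.mul_mem hk hn) (K.inv_mem hk)

/-- Let p be a prime and G a finite group. Then some Sylow p-subgroup of G is a direct factor of G (it is normal and has a normal complement) if and only if every element of p-power order commutes with every element whose order is a power of a prime other than p. -/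
theorem result {G : Type*} [Group G] [Finite G] (p : ℕ) [Fact p.Prime] : (∃ (P : Sylow p G) (K : Subgroup G), (P : Subgroup G).Normal ∧ K.Normal ∧ (P : Subgroup G) ⊓ K = ⊥ ∧ (P : Subgroup G) ⊔ K = ⊤) ↔ ∀ x y : G, (∃ a : ℕ, orderOf x = p ^ a) → (∃ q b : ℕ, q.Prime ∧ q ≠ p ∧ orderOf y = q ^ b) → x * y = y * x := by
  exact direct_iff p

end Cfsg.Agent.S3986
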