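import Mathlib
import Cfsg.Agent.Lib.FrobRep.PModular

set_option autoImplicit false

namespace Cfsg.Agent.S4010

open Cfsg.Agent.Lib.FrobRep.PLinear

theorem result {P : Type*} [Group P] [Finite P] (p : ℕ) [Fact p.Prime] (hP : IsPGroup p P) (F : Type*) [Field F] (n : ℕ) (hn : 1 ≤ n) (ρ : P →* Matrix.GeneralLinearGroup (Fin n) F) (hρ : Function.Injective ρ) : derivedSeries P (Nat.log 2 n + 1) = ⊥ := by
  classical
  -- the representation on `Fin n → F`
  let τ : P →* Module.End F (Fin n → F) :=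
    ((Matrix.toLinAlgEquiv' (R := F) (n := Fin n)).toRingEquiv.toMonoidHom).comp
      ((Units.coeHom (Matrix (Fin n) (Fin n) F)).comp ρ)
  have hτ : ∀ g, τ g = 1 → g = 1 := by
    intro g hg
    have h1 : (Matrix.toLinAlgEquiv' (R := F) (n := Fin n)) ((ρ g : Matrix (Fin n) (Fin n) F)) = 1 := hg
    have h2 : ((ρ g : Matrix (Fin n) (Fin n) F)) = 1 := by
      apply (Matrix.toLinAlgEquiv' (R := F) (n := Fin n)).injective
      rw [h1, map_one]
    apply hρ
    rw [map_one]
    exact Units.ext h2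
  have hfr : Module.finrank F (Fin n → F) = n := by simp
  have hlt : n < 2 ^ (Nat.log 2 n + 1) := Nat.lt_pow_succ_log_self (by norm_num) n
  rw [eq_bot_iff]
  intro g hg
  rw [Subgroup.mem_bot]
  apply hτ
  by_cases hpF : ((p : ℕ) : F) = 0
  · exact modular_bound hP τ hpF _ (by rw [hfr]; exact hlt) g hg
  · have hp2 : 2 ≤ p := (Fact.out : p.Prime).two_le
    have hlt2 : n < p ^ (Nat.log 2 n + 1) :=
      lt_of_lt_of_le hlt (Nat.pow_le_pow_left hp2 _)
    exact bound p n _ F (Fin n → F) P hP τ hpF hfr hlt2 g hg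

end Cfsg.Agent.S4010
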