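import Cfsg.Statements.S4013
import Mathlib
-- import your own Cfsg.Agent.* helpers here

set_option autoImplicit false
open Cfsg

namespace Cfsg.Agent.S4013

/-- Let G be a finite p-group (p prime) and N < M normal subgroups of G such that for some g ∈ M ∖ N the conjugacy class of g is exactly M ∖ N. Then p = 2 and N has index 2 in M. -/
theorem result {G : Type*} [Group G] [Finite G] (p : ℕ) [Fact p.Prime] (hG : IsPGroup p G) (N M : Subgroup G) [N.Normal] [M.Normal] (hNM : N < M) (g : G) (hgM : g ∈ M) (hgN : g ∉ N) (hcl : {h : G | IsConj g h} = (M : Set G) \ (N : Set G)) : p = 2 ∧ N.relIndex M = 2 := by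
  classical
  have hGc : IsPGroup p (ConjAct G) := hG.of_equiv ConjAct.toConjAct
  have hNleM : N ≤ M := hNM.le
  have horb : MulAction.orbit (ConjAct G) g = (M : Set G) \ (N : Set G) := by
    rw [← hcl]
    ext h
    rw [ConjAct.mem_orbit_conjAct, Set.mem_ofPred_eq, isConj_comm]
  obtain ⟨k, hk⟩ := hGc.card_orbit g
  rw [horb, Nat.card_coe_set_eq, Set.ncard_sdiff (by exact_mod_cast hNleM) (Set.toFinite _),
    ← Nat.card_coe_set_eq, ← Nat.card_coe_set_eq] at hk
  have hcM : Nat.card (N.subgroupOf M) * (N.subgroupOf M).index = Nat.card M :=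
    Subgroup.card_mul_index _
  have hcN : Nat.card (N.subgroupOf M) = Nat.card N :=
    Nat.card_congr (Subgroup.subgroupOfEquivOfLe hNleM).toEquiv
  rw [hcN] at hcM
  have hpM : IsPGroup p M := hG.to_subgroup M
  obtain ⟨s, hs⟩ := hpM.index (N.subgroupOf M)
  have hrel : N.relIndex M = p ^ s := hs
  have hrel1 : N.relIndex M ≠ 1 := by
    intro h
    rw [Subgroup.relIndex_eq_one] at h
    exact absurd (le_antisymm hNleM h) hNM.ne
  have hs0 : s ≠ 0 := by
    rintro rfl
    exact hrel1 (by rw [hrel, pow_zero])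
  have hp : p.Prime := Fact.out
  have hidx : (N.subgroupOf M).index = p ^ s := hs
  rw [hidx] at hcM
  have hNc : 0 < Nat.card N := Nat.card_pos
  have hp1 : 1 ≤ p ^ s := Nat.one_le_pow _ _ hp.pos
  have hkk : (p ^ s - 1) * Nat.card N = p ^ k := by
    have : Nat.card M = Nat.card N * p ^ s := hcM.symm
    rw [← hk]
    change (p ^ s - 1) * Nat.card N = Nat.card (M : Set G) - Nat.card (N : Set G)
    have e1 : Nat.card ((M : Set G) : Type _) = Nat.card M := rfl
    have e2 : Nat.card ((N : Set G) : Type _) = Nat.card N := rfl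
    rw [e1, e2, this, Nat.sub_mul, one_mul, mul_comm]
  have hdvd : p ^ s - 1 ∣ p ^ k := Dvd.intro _ hkk
  obtain ⟨j, -, hj⟩ := (Nat.dvd_prime_pow hp).mp hdvd
  have hj0 : j = 0 := by
    by_contra hne
    have h1 : p ∣ p ^ s - 1 := by rw [hj]; exact dvd_pow_self p hne
    have h2 : p ∣ p ^ s := dvd_pow_self p hs0
    have h3 : p ∣ 1 := by
      have := Nat.dvd_sub h2 h1
      rwa [Nat.sub_sub_self hp1] at this
    exact hp.one_lt.ne' (Nat.dvd_one.mp h3)
  rw [hj0, pow_zero] at hj
  have h2 : p ^ s = 2 := by omega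
  have hp2 : p = 2 := by
    have : p ∣ 2 := by rw [← h2]; exact dvd_pow_self p hs0
    exact (Nat.prime_dvd_prime_iff_eq hp Nat.prime_two).mp this
  exact ⟨hp2, by rw [hrel, h2]⟩

end Cfsg.Agent.S4013
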