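import Cfsg.Statements.S4014
import Cfsg.Agent.Lib.PGroup.FrattiniBasis
import Mathlib
set_option autoImplicit false
open Cfsg Equiv Equiv.Perm MulAction
open scoped commutatorElement
namespace Cfsg.Agent.S4014
open Cfsg.Agent.Lib.PGroup.FrattiniBasis

theorem derived_le {G : Type*} [Group G] (H : Subgroup G) (hH : commutator G ≤ H) (k : ℕ) :
    derivedSeries G (k + 1) ≤ (derivedSeries H k).map H.subtype := by
  induction k with
  | zero =>
    rw [derivedSeries_one, derivedSeries_zero]
    intro x hx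
    exact ⟨⟨x, hH hx⟩, trivial, rfl⟩
  | succ k ih =>
    rw [derivedSeries_succ, derivedSeries_succ (G := H), Subgroup.map_commutator]
    exact Subgroup.commutator_mono ih ih

theorem orbit_mul (G X : Type*) [Group G] [Finite G] [MulAction G X] (x : X) :
    Nat.card (orbit G x) * Nat.card (stabilizer G x) = Nat.card G := by
  rw [← Subgroup.index_mul_card (stabilizer G x), index_stabilizer, Nat.card_coe_set_eq]

theorem fix_of_orbit (p : ℕ) [Fact p.Prime] : ∀ (k : ℕ) (Q : Type) [Group Q] [Finite Q]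
    (_ : IsPGroup p Q) (X : Type) [MulAction Q X]
    (_ : ∀ x : X, Nat.card (orbit Q x) ≤ p ^ k) (g : Q) (_ : g ∈ derivedSeries Q k) (x : X),
    g • x = x := by
  intro k
  induction k with
  | zero =>
    intro Q _ _ hQ X _ h g _ x
    have h1 := h x
    haveI : Finite (orbit Q x) := inferInstanceAs (Finite (Set.range fun g : Q => g • x))
    haveI : Subsingleton (orbit Q x) := (Finite.card_le_one_iff_subsingleton).mp (by simpa using h1)
    exact congrArg Subtype.val (Subsingleton.elim (⟨g • x, mem_orbit x g⟩ : orbit Q x) ⟨x, mem_orbit_self x⟩)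
  | succ k ih =>
    intro Q _ _ hQ X _ h g hg x
    by_cases hS : stabilizer Q x = ⊤
    · have : g ∈ stabilizer Q x := by rw [hS]; trivial
      exact this
    obtain ⟨M, hM, hSM⟩ := (eq_top_or_exists_le_coatom (stabilizer Q x)).resolve_left hS
    have hn := coatom_normal hQ hM
    have hi := coatom_index hQ hM
    have hc := commutator_le_coatom hQ hM
    have hg2 := derived_le M hc k hg
    obtain ⟨m, hm, rfl⟩ := Subgroup.mem_map.mp hg2
    have hfix := ih (↥M) (hQ.to_subgroup M) (orbit Q x) ?_ m hm ⟨x, mem_orbit_self x⟩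
    · exact congrArg Subtype.val hfix
    · rintro ⟨z, a, rfl⟩
      have hz : (a • x) = a • x := rfl
      have hle : stabilizer Q (a • x) ≤ M := by
        rw [stabilizer_smul_eq_stabilizer_map_conj]
        rintro _ ⟨s, hs, rfl⟩
        exact hn.conj_mem _ (hSM hs) a
      set z : orbit Q x := ⟨a • x, a, rfl⟩ with hz
      have h1 := orbit_mul (↥M) _ z
      have h2 := orbit_mul Q _ (a • x)
      have h3 : Nat.card (stabilizer (↥M) z) = Nat.card (stabilizer Q (a • x)) := by
        refine Nat.card_congr ⟨fun s => ⟨s.1.1, ?_⟩, fun s => ⟨⟨s.1, hle s.2⟩, ?_⟩, ?_, ?_⟩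
        · exact congrArg Subtype.val s.2
        · exact Subtype.ext s.2
        · intro s; rfl
        · intro s; rfl
      have h4 : M.index * Nat.card M = Nat.card Q := M.index_mul_card
      have h5 : orbit Q (a • x) = orbit Q x := orbit_smul a x
      have h6 : Nat.card (orbit Q (a • x)) ≤ p ^ (k + 1) := by
        rw [h5]; exact h x
      rw [hi] at h4
      have hs : 0 < Nat.card (stabilizer Q (a • x)) := Nat.card_pos
      have h7 : p * Nat.card (orbit (↥M) z) = Nat.card (orbit Q (a • x)) := by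
        apply Nat.eq_of_mul_eq_mul_right hs
        rw [h2, ← h4, ← h1, h3]
        ring
      rw [← h7, pow_succ, mul_comm (p ^ k)] at h6
      exact Nat.le_of_mul_le_mul_left h6 (Fact.out : p.Prime).pos

theorem upper (p : ℕ) [Fact p.Prime] (n : ℕ) (hn : 1 ≤ n) (P : Sylow p (Perm (Fin n))) :
    derivedSeries ↥(P : Subgroup (Perm (Fin n))) (Nat.log p n) = ⊥ := by
  rw [eq_bot_iff]
  intro g hg
  rw [Subgroup.mem_bot]
  apply Subtype.ext
  ext x
  have := fix_of_orbit p (Nat.log p n) ↥(P : Subgroup (Perm (Fin n))) P.isPGroup' (Fin n) ?_ g hg x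
  · exact congrArg Fin.val this
  · intro x
    obtain ⟨j, hj⟩ := IsPGroup.card_orbit P.isPGroup' x
    have h1 : Nat.card (orbit ↥(P : Subgroup (Perm (Fin n))) x) ≤ n := by
      have := Nat.card_le_card_of_injective (Subtype.val : orbit ↥(P : Subgroup (Perm (Fin n))) x → Fin n)
        Subtype.val_injective
      simpa using this
    rw [hj] at h1 ⊢
    exact Nat.pow_le_pow_right (Fact.out : p.Prime).pos (Nat.le_log_of_pow_le (Fact.out : p.Prime).one_lt h1)

theorem wreath_step {D Q : Type*} [Group D] [Group Q] (q : Q) (hq : q ≠ 1) (i : ℕ)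
    (h : derivedSeries D i ≠ ⊥) : derivedSeries (D ≀ᵣ Q) (i + 1) ≠ ⊥ := by
  classical
  have key : ∀ j, ∀ y ∈ derivedSeries D j, ∃ w ∈ derivedSeries (D ≀ᵣ Q) (j + 1),
      w.right = 1 ∧ w.left 1 = y := by
    intro j
    induction j with
    | zero =>
      intro y _
      let a : D ≀ᵣ Q := ⟨fun x => if x = 1 then y else 1, 1⟩
      let b : D ≀ᵣ Q := RegularWreathProduct.inl q
      refine ⟨⁅a, b⁆, ?_, ?_, ?_⟩
      · rw [derivedSeries_one]
        exact Subgroup.commutator_mem_commutator trivial trivial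
      · simp [commutatorElement_def, a, b]
      · simp [commutatorElement_def, a, b, hq]
    | succ j ih =>
      intro y hy
      rw [derivedSeries_succ, Subgroup.commutator_def] at hy
      induction hy using Subgroup.closure_induction with
      | mem y hy =>
        obtain ⟨g₁, hg₁, g₂, hg₂, rfl⟩ := hy
        obtain ⟨w₁, hw₁, hr₁, hl₁⟩ := ih g₁ hg₁
        obtain ⟨w₂, hw₂, hr₂, hl₂⟩ := ih g₂ hg₂
        refine ⟨⁅w₁, w₂⁆, ?_, ?_, ?_⟩
        · rw [derivedSeries_succ]
          exact Subgroup.commutator_mem_commutator hw₁ hw₂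
        · simp [commutatorElement_def, hr₁, hr₂]
        · simp [commutatorElement_def, hr₁, hr₂, hl₁, hl₂]
      | one => exact ⟨1, Subgroup.one_mem _, rfl, rfl⟩
      | mul a b _ _ ha hb =>
        obtain ⟨w₁, hw₁, hr₁, hl₁⟩ := ha
        obtain ⟨w₂, hw₂, hr₂, hl₂⟩ := hb
        refine ⟨w₁ * w₂, Subgroup.mul_mem _ hw₁ hw₂, ?_, ?_⟩
        · simp [hr₁, hr₂]
        · simp [hr₁, hl₁, hl₂]
      | inv a _ ha =>
        obtain ⟨w₁, hw₁, hr₁, hl₁⟩ := ha
        refine ⟨w₁⁻¹, Subgroup.inv_mem _ hw₁, ?_, ?_⟩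
        · simp [hr₁]
        · simp [hr₁, hl₁]
  intro h0
  apply h
  rw [eq_bot_iff]
  intro y hy
  obtain ⟨w, hw, hr, hl⟩ := key i y hy
  rw [h0, Subgroup.mem_bot] at hw
  rw [Subgroup.mem_bot, ← hl, hw]
  rfl

theorem exists_model (p : ℕ) [Fact p.Prime] (k : ℕ) (hk : 1 ≤ k) :
    ∃ (X R : Type) (_ : Group R) (_ : Finite R) (_ : Fintype X) (_ : MulAction R X)
      (_ : FaithfulSMul R X), Fintype.card X = p ^ k ∧ IsPGroup p R ∧
        derivedSeries R (k - 1) ≠ ⊥ := by
  have hcQ : Nat.card (Multiplicative (ZMod p)) = p := by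
    rw [Nat.card_eq_fintype_card]; simp
  haveI : Fact (1 < p) := ⟨(Fact.out : p.Prime).one_lt⟩
  haveI : Nontrivial (Multiplicative (ZMod p)) := by
    haveI : Nontrivial (ZMod p) := ZMod.nontrivial p
    exact inferInstanceAs (Nontrivial (ZMod p))
  induction k, hk using Nat.le_induction with
  | base =>
    refine ⟨Multiplicative (ZMod p), Multiplicative (ZMod p), inferInstance, inferInstance, inferInstance,
      inferInstance, inferInstance, ?_, ?_, ?_⟩
    · rw [← Nat.card_eq_fintype_card, hcQ, pow_one]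
    · exact IsPGroup.of_card (n := 1) (by rw [hcQ, pow_one])
    · simp only [Nat.sub_self, derivedSeries_zero]
      exact top_ne_bot
  | succ k hk ih =>
    obtain ⟨X, R, _, _, _, _, _, hX, hR, hd⟩ := ih
    haveI : Nonempty X := by
      apply Fintype.card_pos_iff.mp
      rw [hX]
      exact pow_pos (Fact.out : p.Prime).pos _
    obtain ⟨q, hq⟩ := exists_ne (1 : Multiplicative (ZMod p))
    refine ⟨X × Multiplicative (ZMod p), R ≀ᵣ Multiplicative (ZMod p), inferInstance, inferInstance, inferInstance,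
      inferInstance, inferInstance, ?_, ?_, ?_⟩
    · rw [Fintype.card_prod, hX, ← Nat.card_eq_fintype_card (α := Multiplicative (ZMod p)), hcQ, pow_succ]
    · obtain ⟨a, ha⟩ := IsPGroup.iff_card.mp hR
      rw [IsPGroup.iff_card]
      refine ⟨a * p + 1, ?_⟩
      rw [RegularWreathProduct.card, ha, hcQ, pow_succ, pow_mul]
    · have := wreath_step q hq (k - 1) hd
      rwa [show k - 1 + 1 = k + 1 - 1 by omega] at this

theorem lower (p : ℕ) [Fact p.Prime] (n k : ℕ) (hk : 1 ≤ k) (hkn : p ^ k ≤ n) (P : Sylow p (Perm (Fin n))) :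
    derivedSeries ↥(P : Subgroup (Perm (Fin n))) (k - 1) ≠ ⊥ := by
  classical
  obtain ⟨X, R, _, _, _, _, hfaith, hX, hR, hd⟩ := exists_model p k hk
  obtain ⟨e⟩ : Nonempty (X ↪ Fin n) :=
    Function.Embedding.nonempty_of_card_le (by rw [hX, Fintype.card_fin]; exact hkn)
  let f : R →* Perm (Fin n) := (Equiv.Perm.viaEmbeddingHom e).comp (MulAction.toPermHom R X)
  have hf : Function.Injective f :=
    (Equiv.Perm.viaEmbeddingHom_injective e).comp MulAction.toPerm_injective
  have hp : IsPGroup p f.range := hR.of_surjective f.rangeRestrict f.rangeRestrict_surjective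
  obtain ⟨S, hS⟩ := hp.exists_le_sylow
  let f1 : R →* ↥(S : Subgroup (Perm (Fin n))) := f.codRestrict _ (fun x => hS ⟨x, rfl⟩)
  let f2 : R →* ↥(P : Subgroup (Perm (Fin n))) := (S.equiv P).toMonoidHom.comp f1
  have hf2 : Function.Injective f2 := by
    intro a b h
    have h1 : f1 a = f1 b := (S.equiv P).injective h
    exact hf (congrArg Subtype.val h1)
  intro h0
  apply hd
  rw [eq_bot_iff]
  intro y hy
  have h1 : f2 y ∈ derivedSeries ↥(P : Subgroup (Perm (Fin n))) (k - 1) :=
    map_derivedSeries_le_derivedSeries f2 (k - 1) ⟨y, hy, rfl⟩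
  rw [h0, Subgroup.mem_bot] at h1
  rw [Subgroup.mem_bot]
  exact hf2 (h1.trans (map_one f2).symm)

theorem result (p : ℕ) [Fact p.Prime] (n : ℕ) (hn : 1 ≤ n) (P : Sylow p (Equiv.Perm (Fin n))) : derivedSeries ↥(P : Subgroup (Equiv.Perm (Fin n))) (Nat.log p n) = ⊥ ∧ (1 ≤ Nat.log p n → derivedSeries ↥(P : Subgroup (Equiv.Perm (Fin n))) (Nat.log p n - 1) ≠ ⊥) :=
  ⟨upper p n hn P, fun hk => lower p n _ hk (Nat.pow_log_le_self p (by omega)) P⟩

end Cfsg.Agent.S4014
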