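import Mathlib
import Cfsg.Agent.Lib.FrobRep.PCross
import Cfsg.Agent.S4014

set_option autoImplicit false
set_option linter.style.haveILetI false

open scoped RegularWreathProduct

universe u v w

namespace Cfsg.Agent.S4015

open Cfsg.Agent.Lib.FrobRep.PLinear

section wr

variable {F : Type u} [Field F] {V : Type v} [AddCommGroup V] [Module F V] {R : Type w} [Group R]
  {Q : Type*} [Group Q]

/-- The imprimitive representation of a regular wreath product. -/
def wrRep (ρ : R →* Module.End F V) : (R ≀ᵣ Q) →* Module.End F (Q → V) where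
  toFun w :=
    { toFun := fun v x => ρ (w.left x) (v (w.right⁻¹ * x))
      map_add' := fun a b => by
        funext x
        simp
      map_smul' := fun c a => by
        funext x
        simp }
  map_one' := by
    apply LinearMap.ext
    intro v
    funext x
    simp
  map_mul' a b := by
    apply LinearMap.ext
    intro v
    funext x
    simp [RegularWreathProduct.mul_left, RegularWreathProduct.mul_right, mul_assoc]

theorem wrRep_apply (ρ : R →* Module.End F V) (w : R ≀ᵣ Q) (v : Q → V) (x : Q) :
    wrRep ρ w v x = ρ (w.left x) (v (w.right⁻¹ * x)) := rfl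

theorem wrRep_injective [Nontrivial V] (ρ : R →* Module.End F V) (hρ : Function.Injective ρ) :
    Function.Injective (wrRep (Q := Q) ρ) := by
  classical
  rw [injective_iff_map_eq_one]
  intro w hw
  have h1 : ∀ (v : Q → V) (x : Q), ρ (w.left x) (v (w.right⁻¹ * x)) = v x := by
    intro v x
    have := congrFun (LinearMap.congr_fun hw v) x
    exact this
  have hr : w.right = 1 := by
    by_contra hne
    obtain ⟨u, hu⟩ := exists_ne (0 : V)
    have h2 := h1 (Pi.single 1 u) w.right
    rw [inv_mul_cancel, Pi.single_eq_same, Pi.single_eq_of_ne hne] at h2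
    apply hu
    have h3 := congrArg (ρ (w.left w.right)⁻¹) h2
    rw [← Module.End.mul_apply, ← map_mul, inv_mul_cancel, map_one, map_zero] at h3
    exact h3
  have hl : ∀ x, w.left x = 1 := by
    intro x
    apply hρ
    rw [map_one]
    apply LinearMap.ext
    intro u
    have h2 := h1 (fun _ => u) x
    exact h2
  have : w = 1 := by
    apply RegularWreathProduct.ext
    · funext x
      exact hl x
    · exact hr
  exact this

end wr

/-- The base case. -/
theorem base_model (p : ℕ) [hp : Fact p.Prime] (F : Type u) [Field F] [Fintype F]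
    (hpq : ¬ p ∣ Fintype.card F) :
    ∃ (V : Type) (_ : AddCommGroup V) (_ : Module F V) (_ : FiniteDimensional F V) (R : Type)
      (_ : Group R) (_ : Finite R) (ρ : R →* Module.End F V), Function.Injective ρ ∧
        Module.finrank F V = orderOf ((Fintype.card F : ℕ) : ZMod p) ∧ IsPGroup p R ∧
        derivedSeries R 0 ≠ ⊥ := by
  classical
  set e := orderOf ((Fintype.card F : ℕ) : ZMod p) with hedef
  have hu : IsUnit ((Fintype.card F : ℕ) : ZMod p) := by
    rw [ZMod.isUnit_iff_coprime]
    exact ((Nat.Prime.coprime_iff_not_dvd hp.out).2 hpq).symm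
  have hepos : 0 < e := orderOf_pos_iff.2 hu.isOfFinOrder
  haveI : NeZero e := ⟨hepos.ne'⟩
  obtain ⟨l, hl⟩ := CharP.exists F
  haveI : Fact l.Prime := ⟨CharP.char_is_prime F l⟩
  let K := FiniteField.Extension F l e
  have hcard : Nat.card K = Nat.card F ^ e := FiniteField.natCard_extension F l e
  have hdvd : p ∣ Nat.card Kˣ := by
    rw [Nat.card_units, hcard, Nat.card_eq_fintype_card]
    have h1 : ((Fintype.card F : ℕ) : ZMod p) ^ e = 1 := by
      rw [hedef]
      exact pow_orderOf_eq_one _
    have h2 : 1 ≤ Fintype.card F ^ e := Nat.one_le_pow _ _ Fintype.card_pos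
    rw [← ZMod.natCast_eq_zero_iff, Nat.cast_sub h2]
    push_cast
    rw [h1, sub_self]
  obtain ⟨x, hx⟩ := exists_prime_orderOf_dvd_card' p hdvd
  have hxp : x ^ p = 1 := by
    rw [← hx]
    exact pow_orderOf_eq_one x
  let R := Subgroup.zpowers x
  let ρ : R →* Module.End F K :=
    (Algebra.lmul F K).toMonoidHom.comp ((Units.coeHom K).comp R.subtype)
  refine ⟨K, inferInstance, inferInstance, inferInstance, R, inferInstance, inferInstance, ρ,
    ?_, FiniteField.finrank_extension F l e, ?_, ?_⟩
  · rw [injective_iff_map_eq_one]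
    intro a ha
    have h1 : ρ a 1 = 1 := by
      rw [ha]
      rfl
    have h2 : ((a : Kˣ) : K) * 1 = 1 := h1
    rw [mul_one] at h2
    exact Subtype.ext (Units.ext h2)
  · intro a
    refine ⟨1, ?_⟩
    obtain ⟨a, m, rfl⟩ := a
    apply Subtype.ext
    show ((x ^ m) ^ p ^ 1 : Kˣ) = 1
    rw [pow_one, ← zpow_natCast, ← zpow_mul, mul_comm, zpow_mul, zpow_natCast, hxp, one_zpow]
  · rw [derivedSeries_zero]
    haveI : Nontrivial R := by
      refine ⟨⟨⟨x, Subgroup.mem_zpowers x⟩, 1, ?_⟩⟩
      intro h
      have h1 : x = 1 := congrArg Subtype.val h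
      rw [h1, orderOf_one] at hx
      exact hp.out.one_lt.ne hx
    exact top_ne_bot

/-- The models of all levels. -/
theorem exists_model (p : ℕ) [hp : Fact p.Prime] (F : Type u) [Field F] [Fintype F]
    (hpq : ¬ p ∣ Fintype.card F) (k : ℕ) :
    ∃ (V : Type) (_ : AddCommGroup V) (_ : Module F V) (_ : FiniteDimensional F V) (R : Type)
      (_ : Group R) (_ : Finite R) (ρ : R →* Module.End F V), Function.Injective ρ ∧
        Module.finrank F V = orderOf ((Fintype.card F : ℕ) : ZMod p) * p ^ k ∧ IsPGroup p R ∧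
        derivedSeries R k ≠ ⊥ := by
  classical
  haveI : Fact (1 < p) := ⟨hp.out.one_lt⟩
  haveI : Nontrivial (Multiplicative (ZMod p)) := by
    haveI : Nontrivial (ZMod p) := ZMod.nontrivial p
    exact inferInstanceAs (Nontrivial (ZMod p))
  have hcQ : Nat.card (Multiplicative (ZMod p)) = p := by
    rw [Nat.card_eq_fintype_card]; simp
  have hepos : 0 < orderOf ((Fintype.card F : ℕ) : ZMod p) := by
    have hu : IsUnit ((Fintype.card F : ℕ) : ZMod p) := by
      rw [ZMod.isUnit_iff_coprime]
      exact ((Nat.Prime.coprime_iff_not_dvd hp.out).2 hpq).symm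
    exact orderOf_pos_iff.2 hu.isOfFinOrder
  induction k with
  | zero =>
    simpa using base_model p F hpq
  | succ k ih =>
    obtain ⟨V, _, _, _, R, _, _, ρ, hinj, hfr, hR, hd⟩ := ih
    haveI : Nontrivial V := by
      apply Module.nontrivial_of_finrank_pos (R := F)
      rw [hfr]
      exact Nat.mul_pos hepos (pow_pos hp.out.pos _)
    obtain ⟨q, hq⟩ := exists_ne (1 : Multiplicative (ZMod p))
    refine ⟨Multiplicative (ZMod p) → V, inferInstance, inferInstance, inferInstance,
      R ≀ᵣ Multiplicative (ZMod p), inferInstance, inferInstance, wrRep ρ,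
      wrRep_injective ρ hinj, ?_, ?_, Cfsg.Agent.S4014.wreath_step q hq k hd⟩
    · rw [Module.finrank_pi_fintype]
      simp only [Finset.sum_const, Finset.card_univ, smul_eq_mul]
      rw [hfr, ← Nat.card_eq_fintype_card, hcQ, pow_succ]
      ring
    · obtain ⟨a, ha⟩ := IsPGroup.iff_card.mp hR
      rw [IsPGroup.iff_card]
      refine ⟨a * p + 1, ?_⟩
      rw [RegularWreathProduct.card, ha, hcQ, pow_succ, pow_mul]

/-- Padding a representation to the general linear group. -/
theorem exists_gl_embedding {F : Type u} [Field F] {V : Type v} [AddCommGroup V] [Module F V]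
    [FiniteDimensional F V] {R : Type w} [Group R] (ρ : R →* Module.End F V)
    (hρ : Function.Injective ρ) (n : ℕ) (hn : Module.finrank F V ≤ n) :
    ∃ f : R →* Matrix.GeneralLinearGroup (Fin n) F, Function.Injective f := by
  classical
  have hfr : Module.finrank F (V × (Fin (n - Module.finrank F V) → F)) =
      Module.finrank F (Fin n → F) := by
    simp [Module.finrank_prod]
    omega
  let E : (V × (Fin (n - Module.finrank F V) → F)) ≃ₗ[F] (Fin n → F) :=
    LinearEquiv.ofFinrankEq _ _ hfr
  let τ : R →* Matrix (Fin n) (Fin n) F :=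
    { toFun := fun r => LinearMap.toMatrix'
        (E.toLinearMap ∘ₗ (LinearMap.prodMap (ρ r) LinearMap.id) ∘ₗ E.symm.toLinearMap)
      map_one' := by
        have : (E.toLinearMap ∘ₗ (LinearMap.prodMap (ρ 1) LinearMap.id) ∘ₗ E.symm.toLinearMap) =
            LinearMap.id := by
          apply LinearMap.ext
          intro x
          simp
        rw [this, LinearMap.toMatrix'_id]
      map_mul' := fun a b => by
        rw [← LinearMap.toMatrix'_comp]
        congr 1
        apply LinearMap.ext
        intro x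
        simp }
  refine ⟨τ.toHomUnits, ?_⟩
  rw [injective_iff_map_eq_one]
  intro r hr
  have h1 : τ r = 1 := by
    have := congrArg Units.val hr
    simpa using this
  have h2 : (E.toLinearMap ∘ₗ (LinearMap.prodMap (ρ r) LinearMap.id) ∘ₗ E.symm.toLinearMap) =
      LinearMap.id := by
    apply LinearMap.toMatrix'.injective
    rw [LinearMap.toMatrix'_id]
    exact h1
  apply hρ
  rw [map_one]
  apply LinearMap.ext
  intro v
  have h3 := LinearMap.congr_fun h2 (E (v, 0))
  simp only [LinearMap.comp_apply, LinearEquiv.coe_coe, LinearEquiv.symm_apply_apply,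
    LinearMap.id_apply] at h3
  have h4 := E.injective h3
  have h5 := congrArg Prod.fst h4
  exact h5

theorem lower (p : ℕ) [hp : Fact p.Prime] (F : Type u) [Field F] [Fintype F]
    (hpq : ¬ p ∣ Fintype.card F) (n k : ℕ)
    (hn : orderOf ((Fintype.card F : ℕ) : ZMod p) * p ^ k ≤ n)
    (P : Sylow p (Matrix.GeneralLinearGroup (Fin n) F)) :
    derivedSeries ↥(P : Subgroup (Matrix.GeneralLinearGroup (Fin n) F)) k ≠ ⊥ := by
  classical
  obtain ⟨V, _, _, _, R, _, _, ρ, hinj, hfr, hR, hd⟩ := exists_model p F hpq k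
  obtain ⟨f, hf⟩ := exists_gl_embedding ρ hinj n (by rw [hfr]; exact hn)
  have hp' : IsPGroup p f.range := hR.of_surjective f.rangeRestrict f.rangeRestrict_surjective
  obtain ⟨S, hS⟩ := hp'.exists_le_sylow
  let f1 : R →* ↥(S : Subgroup (Matrix.GeneralLinearGroup (Fin n) F)) :=
    f.codRestrict _ (fun x => hS ⟨x, rfl⟩)
  let f2 : R →* ↥(P : Subgroup (Matrix.GeneralLinearGroup (Fin n) F)) :=
    (S.equiv P).toMonoidHom.comp f1
  have hf2 : Function.Injective f2 := by
    intro a b h
    have h1 : f1 a = f1 b := (S.equiv P).injective h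
    exact hf (congrArg Subtype.val h1)
  intro h0
  apply hd
  rw [eq_bot_iff]
  intro y hy
  have h1 : f2 y ∈ derivedSeries ↥(P : Subgroup (Matrix.GeneralLinearGroup (Fin n) F)) k :=
    map_derivedSeries_le_derivedSeries f2 k ⟨y, hy, rfl⟩
  rw [h0, Subgroup.mem_bot] at h1
  rw [Subgroup.mem_bot]
  exact hf2 (h1.trans (map_one f2).symm)

theorem result (p : ℕ) [Fact p.Prime] (hp : p ≠ 2) (F : Type*) [Field F] [Fintype F] (q : ℕ) (hq : Fintype.card F = q) (hpq : ¬ p ∣ q) (n : ℕ) (hn : orderOf (q : ZMod p) ≤ n) (P : Sylow p (Matrix.GeneralLinearGroup (Fin n) F)) : derivedSeries ↥(P : Subgroup (Matrix.GeneralLinearGroup (Fin n) F)) (Nat.log p (n / orderOf (q : ZMod p)) + 1) = ⊥ ∧ derivedSeries ↥(P : Subgroup (Matrix.GeneralLinearGroup (Fin n) F)) (Nat.log p (n / orderOf (q : ZMod p))) ≠ ⊥ := by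
  classical
  subst hq
  have hpp : p.Prime := Fact.out
  set e := orderOf ((Fintype.card F : ℕ) : ZMod p) with hedef
  have hepos : 0 < e := by
    have hu : IsUnit ((Fintype.card F : ℕ) : ZMod p) := by
      rw [ZMod.isUnit_iff_coprime]
      exact ((Nat.Prime.coprime_iff_not_dvd hpp).2 hpq).symm
    exact orderOf_pos_iff.2 hu.isOfFinOrder
  constructor
  · let τ : ↥(P : Subgroup (Matrix.GeneralLinearGroup (Fin n) F)) →* Module.End F (Fin n → F) :=
      ((Matrix.toLinAlgEquiv' (R := F) (n := Fin n)).toRingEquiv.toMonoidHom).comp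
        ((Units.coeHom (Matrix (Fin n) (Fin n) F)).comp
          (P : Subgroup (Matrix.GeneralLinearGroup (Fin n) F)).subtype)
    have hτ : ∀ g, τ g = 1 → g = 1 := by
      intro g hg
      have h1 : (Matrix.toLinAlgEquiv' (R := F) (n := Fin n))
          (((g : Matrix.GeneralLinearGroup (Fin n) F)) : Matrix (Fin n) (Fin n) F) = 1 := hg
      have h2 : (((g : Matrix.GeneralLinearGroup (Fin n) F)) : Matrix (Fin n) (Fin n) F) = 1 := by
        apply (Matrix.toLinAlgEquiv' (R := F) (n := Fin n)).injective
        rw [h1, map_one]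
      apply Subtype.ext
      exact Units.ext h2
    have hfr : Module.finrank F (Fin n → F) = n := by simp
    have hlt : n / e < p ^ (Nat.log p (n / e) + 1) :=
      Nat.lt_pow_succ_log_self hpp.one_lt _
    have hlt2 : n < e * p ^ (Nat.log p (n / e) + 1) := by
      have h1 := (Nat.div_lt_iff_lt_mul hepos).1 hlt
      rwa [mul_comm] at h1
    rw [eq_bot_iff]
    intro g hg
    rw [Subgroup.mem_bot]
    apply hτ
    exact cross_bound p F hpq n _ (Fin n → F) _ P.isPGroup' τ hfr hlt2 g hg
  · have hw : n / e ≠ 0 := by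
      have := Nat.div_pos hn hepos
      omega
    have h1 : p ^ Nat.log p (n / e) ≤ n / e := Nat.pow_log_le_self p hw
    have h2 : e * (n / e) ≤ n := Nat.mul_div_le n e
    exact lower p F hpq n _ ((Nat.mul_le_mul_left e h1).trans h2) P

end Cfsg.Agent.S4015
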