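import Cfsg.Statements.S4023
import Mathlib
import Cfsg.Agent.Lib.PGroup.CyclicMax2
import Cfsg.Agent.Lib.Nilpotent.CNSolvable
import Cfsg.Agent.Lib.Coprime.Three

set_option autoImplicit false
open Cfsg

namespace Cfsg.Agent.S4023

open Subgroup
open scoped commutatorElement
open Cfsg.Agent.Lib.PGroup.CyclicMax2 Cfsg.Agent.Lib.PGroup.Basic

section lemmas

variable {M : Type*} [Group M] [Finite M] {p : ℕ} [hp : Fact p.Prime]

/-- A group of order dividing `p²` is commutative. -/
theorem comm_of_card_dvd_sq (h : Nat.card M ∣ p ^ 2) (a b : M) : a * b = b * a := by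
  obtain ⟨i, hi, hc⟩ := (Nat.dvd_prime_pow hp.out).1 h
  interval_cases i
  · have := (Nat.card_eq_one_iff_unique.1 (by simpa using hc)).1
    exact Subsingleton.elim _ _
  · haveI : IsCyclic M := isCyclic_of_prime_card (p := p) (by simpa using hc)
    exact (IsCyclic.commGroup (α := M)).mul_comm a b
  · exact (IsPGroup.isMulCommutative_of_card_eq_prime_sq hc).is_comm.comm a b

/-- A minimal non-abelian group of exponent `p` has order `p³`. -/
theorem card_of_minimal_noncomm (hP : IsPGroup p M) (hexp : ∀ x : M, x ^ p = 1)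
    (hnc : ¬ ∀ a b : M, a * b = b * a)
    (hmin : ∀ H : Subgroup M, H ≠ ⊤ → ∀ a ∈ H, ∀ b ∈ H, a * b = b * a) :
    Nat.card M = p ^ 3 := by
  push Not at hnc
  obtain ⟨x, y, hxy⟩ := hnc
  have htop : ∀ H : Subgroup M, x ∈ H → y ∈ H → H = ⊤ := by
    intro H hx hy
    by_contra h
    exact hxy (hmin H h x hx y hy)
  have hzx : zpowers x ≠ ⊤ := by
    intro h
    haveI : IsCyclic M := isCyclic_iff_exists_zpowers_eq_top.2 ⟨x, h⟩
    exact hxy ((IsCyclic.commGroup (α := M)).mul_comm x y)
  have hzy : zpowers y ≠ ⊤ := by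
    intro h
    haveI : IsCyclic M := isCyclic_iff_exists_zpowers_eq_top.2 ⟨y, h⟩
    exact hxy ((IsCyclic.commGroup (α := M)).mul_comm x y)
  obtain ⟨A, hAc, hxA⟩ := (eq_top_or_exists_le_coatom (zpowers x)).resolve_left hzx
  obtain ⟨B, hBc, hyB⟩ := (eq_top_or_exists_le_coatom (zpowers y)).resolve_left hzy
  have hxA' : x ∈ A := hxA (mem_zpowers x)
  have hyB' : y ∈ B := hyB (mem_zpowers y)
  have hAB : A ≠ B := by
    rintro rfl
    exact hxy (hmin A hAc.1 x hxA' y hyB')
  have hsup : A ⊔ B = ⊤ := by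
    apply hAc.2
    refine lt_of_le_of_ne le_sup_left fun h => ?_
    have h1 : B ≤ A := by
      rw [h]
      exact le_sup_right
    exact hAB ((hBc.le_iff.1 h1).resolve_left hAc.1)
  obtain ⟨c, hc⟩ : ∃ c, c = ⁅x, y⁆ := ⟨_, rfl⟩
  have hcA : c ∈ A := by
    rw [hc]
    exact frattini_le_coatom hAc (commutatorElement_mem_frattini hP x y)
  have hcB : c ∈ B := by
    rw [hc]
    exact frattini_le_coatom hBc (commutatorElement_mem_frattini hP x y)
  have hcZ : c ∈ center M := by
    have h1 : A ⊔ B ≤ centralizer ({c} : Set M) := by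
      refine sup_le ?_ ?_
      · intro a ha
        rw [mem_centralizer_singleton_iff]
        exact hmin A hAc.1 a ha c hcA
      · intro a ha
        rw [mem_centralizer_singleton_iff]
        exact hmin B hBc.1 a ha c hcB
    rw [mem_center_iff]
    intro g
    have h2 : g ∈ centralizer ({c} : Set M) := h1 (by rw [hsup]; exact mem_top g)
    rw [mem_centralizer_singleton_iff] at h2
    exact h2
  haveI hZn : (zpowers c).Normal := by
    refine ⟨fun n hn g => ?_⟩
    have h1 : n ∈ center M := (zpowers_le.2 hcZ) hn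
    have h2 : g * n * g⁻¹ = n := by
      rw [mem_center_iff.1 h1 g]
      group
    rw [h2]
    exact hn
  have hp0 := hp.out
  obtain ⟨D, hD⟩ : ∃ D, D = zpowers c ⊔ zpowers x := ⟨_, rfl⟩
  have hDc : Nat.card D ∣ p * p := by
    have h1 := Cfsg.Agent.Lib.Nilpotent.CNSolvable.card_sup_dvd_of_le_normalizer (zpowers c)
      (zpowers x) (by rw [normalizer_eq_top]; exact le_top)
    rw [Nat.card_zpowers, Nat.card_zpowers] at h1
    rw [hD]
    exact h1.trans (mul_dvd_mul (orderOf_dvd_of_pow_eq_one (hexp c))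
      (orderOf_dvd_of_pow_eq_one (hexp x)))
  have hyN : zpowers y ≤ normalizer (D : Set M) := by
    rw [zpowers_le]
    apply Cfsg.Agent.Lib.Coprime.Three.mem_normalizer_of_conj_mem
    have h1 : D ≤ D.comap (MulAut.conj y).toMonoidHom := by
      conv_lhs => rw [hD]
      refine sup_le ?_ ?_
      · rw [zpowers_le]
        show y * c * y⁻¹ ∈ D
        have h2 : y * c * y⁻¹ = c := by
          rw [mem_center_iff.1 hcZ y]
          group
        rw [h2, hD]
        exact (le_sup_left : zpowers c ≤ _) (mem_zpowers c)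
      · rw [zpowers_le]
        show y * x * y⁻¹ ∈ D
        have h2 : y * x * y⁻¹ = c⁻¹ * x := by
          rw [hc, commutatorElement_inv, commutatorElement_def]
          group
        rw [h2, hD]
        exact mul_mem (inv_mem ((le_sup_left : zpowers c ≤ _) (mem_zpowers c)))
          ((le_sup_right : zpowers x ≤ _) (mem_zpowers x))
    intro v hv
    exact h1 hv
  have hW : D ⊔ zpowers y = ⊤ := by
    apply htop
    · apply (le_sup_left : D ≤ _)
      rw [hD]
      exact (le_sup_right : zpowers x ≤ _) (mem_zpowers x)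
    · exact (le_sup_right : zpowers y ≤ _) (mem_zpowers y)
  have hcM : Nat.card M ∣ p ^ 3 := by
    have h1 := Cfsg.Agent.Lib.Nilpotent.CNSolvable.card_sup_dvd_of_le_normalizer D (zpowers y) hyN
    rw [hW, Subgroup.card_top, Nat.card_zpowers] at h1
    refine h1.trans ?_
    have h2 : p ^ 3 = p * p * p := by ring
    rw [h2]
    exact mul_dvd_mul hDc (orderOf_dvd_of_pow_eq_one (hexp y))
  obtain ⟨i, hi, hci⟩ := (Nat.dvd_prime_pow hp0).1 hcM
  have hi3 : i = 3 := by
    by_contra hne
    have hi2 : i ≤ 2 := by omega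
    apply hxy
    apply comm_of_card_dvd_sq (p := p)
    rw [hci]
    exact pow_dvd_pow _ hi2
  rw [hci, hi3]

theorem exists_noncomm (hP : IsPGroup p M) (hexp : ∀ x : M, x ^ p = 1)
    (hnc : ¬ ∀ a b : M, a * b = b * a) :
    ∃ N : Subgroup M, Nat.card N = p ^ 3 ∧ ¬ IsMulCommutative N := by
  have hfin : {N : Subgroup M | ¬ IsMulCommutative N}.Finite := Set.toFinite _
  have hne : {N : Subgroup M | ¬ IsMulCommutative N}.Nonempty := by
    refine ⟨⊤, fun h => hnc fun a b => ?_⟩
    have := h.is_comm.comm (⟨a, mem_top a⟩ : (⊤ : Subgroup M)) ⟨b, mem_top b⟩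
    exact congrArg Subtype.val this
  obtain ⟨N, hN⟩ := hfin.exists_minimal hne
  have hNnc : ¬ IsMulCommutative N := hN.prop
  refine ⟨N, ?_, hNnc⟩
  apply card_of_minimal_noncomm (hP.to_subgroup N) (fun x => Subtype.ext (hexp x))
  · intro h
    exact hNnc ⟨⟨h⟩⟩
  · intro H hH a ha b hb
    have h1 : H.map N.subtype < N := by
      refine lt_of_le_of_ne (map_subtype_le H) fun h => hH ?_
      rw [eq_top_iff]
      intro x _
      have hx : (x : M) ∈ H.map N.subtype := by rw [h]; exact x.2
      obtain ⟨y, hy, hyx⟩ := hx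
      have : y = x := Subtype.ext hyx
      rwa [← this]
    have h2 : IsMulCommutative (H.map N.subtype) := by
      by_contra hcon
      exact absurd (hN.le_of_le hcon h1.le) (not_le_of_gt h1)
    have h3 := h2.is_comm.comm ⟨(a : M), ⟨a, ha, rfl⟩⟩ ⟨(b : M), ⟨b, hb, rfl⟩⟩
    have h4 : (a : M) * b = b * a := congrArg Subtype.val h3
    exact Subtype.ext h4

theorem exists_comm (hP : IsPGroup p M) (hexp : ∀ x : M, x ^ p = 1)
    (hcard : p ^ 4 ∣ Nat.card M) :
    ∃ B : Subgroup M, Nat.card B = p ^ 3 ∧ IsMulCommutative B := by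
  classical
  have hp0 := hp.out
  have hpos : 0 < Nat.card M := Nat.card_pos
  have hbig : p ^ 4 ≤ Nat.card M := Nat.le_of_dvd hpos hcard
  have hp2 : 2 ≤ p := hp0.two_le
  have hp16 : 16 ≤ p ^ 4 := by
    calc 16 = 2 ^ 4 := by norm_num
      _ ≤ p ^ 4 := Nat.pow_le_pow_left hp2 4
  haveI hnt : Nontrivial M := by
    rw [← Finite.one_lt_card_iff_nontrivial]
    omega
  obtain ⟨z, hzc, hzo⟩ := exists_central_order_p hP
  obtain ⟨K, hK⟩ : ∃ K, K = zpowers z := ⟨_, rfl⟩
  have hKc : K ≤ center M := by rw [hK, zpowers_le]; exact hzc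
  haveI hKn : K.Normal := by
    refine ⟨fun n hn g => ?_⟩
    have h2 : g * n * g⁻¹ = n := by
      rw [mem_center_iff.1 (hKc hn) g]
      group
    rw [h2]
    exact hn
  have hKcard : Nat.card K = p := by rw [hK, Nat.card_zpowers, hzo]
  have hqnt : Nontrivial (M ⧸ K) := by
    rw [← Finite.one_lt_card_iff_nontrivial]
    have h1 := Subgroup.card_mul_index K
    rw [hKcard, Subgroup.index_eq_card] at h1
    by_contra hcon
    have h2 : Nat.card (M ⧸ K) ≤ 1 := by omega
    have h3 : Nat.card M ≤ p := by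
      rw [← h1]
      calc p * Nat.card (M ⧸ K) ≤ p * 1 := Nat.mul_le_mul_left _ h2
        _ = p := mul_one p
    have h4 : p < p ^ 4 := by
      calc p = p ^ 1 := (pow_one p).symm
        _ < p ^ 4 := Nat.pow_lt_pow_right hp0.one_lt (by norm_num)
    omega
  haveI hcnt : Nontrivial (center (M ⧸ K)) := (hP.to_quotient K).center_nontrivial
  obtain ⟨w, hw1⟩ := exists_ne (1 : center (M ⧸ K))
  obtain ⟨a, ha⟩ := QuotientGroup.mk_surjective (w : M ⧸ K)
  have haK : a ∉ K := by
    intro h
    apply hw1
    apply Subtype.ext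
    rw [← ha]
    exact (QuotientGroup.eq_one_iff a).2 h
  have hcomm : ∀ g : M, ⁅g, a⁆ ∈ K := by
    intro g
    rw [← QuotientGroup.eq_one_iff]
    have h1 : (QuotientGroup.mk' K) g * (QuotientGroup.mk' K) a =
        (QuotientGroup.mk' K) a * (QuotientGroup.mk' K) g := by
      have h2 : (QuotientGroup.mk' K) a = (w : M ⧸ K) := ha
      rw [h2]
      exact (mem_center_iff.1 w.2 _)
    show (QuotientGroup.mk' K) ⁅g, a⁆ = 1
    rw [map_commutatorElement, commutatorElement_eq_one_iff_mul_comm]
    exact h1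
  have hcent : ∀ t ∈ K, ∀ g : M, g * t = t * g := fun t ht g => mem_center_iff.1 (hKc ht) g
  let f : M →* K := MonoidHom.mk' (fun g => ⟨⁅g, a⁆, hcomm g⟩) (by
    intro g g'
    apply Subtype.ext
    show ⁅g * g', a⁆ = ⁅g, a⁆ * ⁅g', a⁆
    have h1 : g' * a * g'⁻¹ = ⁅g', a⁆ * a := by rw [commutatorElement_def]; group
    calc ⁅g * g', a⁆ = g * (g' * a * g'⁻¹) * g⁻¹ * a⁻¹ := by rw [commutatorElement_def]; group
      _ = g * (⁅g', a⁆ * a) * g⁻¹ * a⁻¹ := by rw [h1]
      _ = (g * ⁅g', a⁆) * a * g⁻¹ * a⁻¹ := by group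
      _ = (⁅g', a⁆ * g) * a * g⁻¹ * a⁻¹ := by rw [hcent _ (hcomm g') g]
      _ = ⁅g', a⁆ * (g * a * g⁻¹ * a⁻¹) := by group
      _ = ⁅g', a⁆ * ⁅g, a⁆ := by rw [commutatorElement_def g a]
      _ = ⁅g, a⁆ * ⁅g', a⁆ := (hcent _ (hcomm g') _).symm)
  obtain ⟨Q, hQ⟩ : ∃ Q, Q = f.ker := ⟨_, rfl⟩
  have hQmem : ∀ g, g ∈ Q ↔ g * a = a * g := by
    intro g
    rw [hQ, MonoidHom.mem_ker]
    constructor
    · intro h
      have h1 : ⁅g, a⁆ = 1 := congrArg Subtype.val h
      exact commutatorElement_eq_one_iff_mul_comm.1 h1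
    · intro h
      apply Subtype.ext
      exact commutatorElement_eq_one_iff_mul_comm.2 h
  have hQi : Q.index ∣ p := by
    rw [hQ, Subgroup.index_ker, ← hKcard]
    exact Subgroup.card_subgroup_dvd_card _
  have hQd : p ^ 3 ∣ Nat.card Q := by
    obtain ⟨j, hj⟩ := hQi
    have h1 := Subgroup.card_mul_index Q
    have h2 : p ^ 3 * p ∣ Nat.card Q * p := by
      have h3 : Nat.card Q * p = Nat.card M * j := by
        rw [← h1]
        conv_lhs => rw [hj]
        ring
      rw [h3]
      have h4 : p ^ 3 * p = p ^ 4 := by ring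
      rw [h4]
      exact Dvd.dvd.mul_right hcard j
    exact Nat.dvd_of_mul_dvd_mul_right hp0.pos h2
  have haQ : a ∈ Q := (hQmem a).2 rfl
  have hzQ : z ∈ Q := (hQmem z).2 (mem_center_iff.1 hzc a).symm
  obtain ⟨a', ha'⟩ : ∃ a' : Q, a' = ⟨a, haQ⟩ := ⟨_, rfl⟩
  obtain ⟨z', hz'⟩ : ∃ z' : Q, z' = ⟨z, hzQ⟩ := ⟨_, rfl⟩
  have ha'c : a' ∈ center Q := by
    rw [mem_center_iff]
    intro t
    rw [ha']
    exact Subtype.ext ((hQmem t.1).1 t.2).symm.symm
  have hz'c : z' ∈ center Q := by
    rw [mem_center_iff]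
    intro t
    rw [hz']
    exact Subtype.ext (mem_center_iff.1 hzc t.1)
  haveI hz'n : (zpowers z').Normal := by
    refine ⟨fun n hn g => ?_⟩
    have h1 : n ∈ center Q := (zpowers_le.2 hz'c) hn
    have h2 : g * n * g⁻¹ = n := by
      rw [mem_center_iff.1 h1 g]
      group
    rw [h2]
    exact hn
  have ha1 : a ≠ 1 := fun h => haK (by rw [h]; exact one_mem K)
  have hao : orderOf a' = p := by
    rw [ha', Subgroup.orderOf_mk]
    exact orderOf_eq_prime (hexp a) ha1
  have hzo' : orderOf z' = p := by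
    rw [hz', Subgroup.orderOf_mk]
    exact hzo
  have hdis : Disjoint (zpowers a') (zpowers z') := by
    rw [disjoint_iff, eq_bot_iff]
    intro t ht
    obtain ⟨ht1, ht2⟩ := mem_inf.1 ht
    rw [mem_bot]
    by_contra ht0
    have hto : orderOf t = p := by
      apply orderOf_eq_prime
      · exact Subtype.ext (hexp t.1)
      · exact ht0
    have h1 : zpowers t = zpowers a' := by
      apply Subgroup.eq_of_le_of_card_ge (zpowers_le.2 ht1)
      rw [Nat.card_zpowers, Nat.card_zpowers, hto, hao]
    have h2 : a' ∈ zpowers z' := by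
      have h3 : a' ∈ zpowers t := by rw [h1]; exact mem_zpowers a'
      exact (zpowers_le.2 ht2) h3
    obtain ⟨i, hi⟩ := h2
    apply haK
    rw [hK]
    refine ⟨i, ?_⟩
    have h4 := congrArg Subtype.val hi
    rw [ha', hz'] at h4
    simpa using h4
  obtain ⟨A', hA'⟩ : ∃ A', A' = zpowers a' ⊔ zpowers z' := ⟨_, rfl⟩
  have hA'c : Nat.card A' = p ^ 2 := by
    rw [hA', card_sup_eq_of_disjoint _ _ hdis, Nat.card_zpowers, Nat.card_zpowers, hao, hzo', sq]
  have hA'z : A' ≤ center Q := by
    rw [hA']
    exact sup_le (zpowers_le.2 ha'c) (zpowers_le.2 hz'c)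
  obtain ⟨B', hB'c, hAB'⟩ := Sylow.exists_subgroup_card_pow_succ (p := p) (n := 2)
    (H := A') hQd hA'c
  -- `B'` is abelian
  haveI hAn : (A'.subgroupOf B').Normal := by
    refine ⟨fun n hn g => ?_⟩
    rw [mem_subgroupOf] at hn ⊢
    have h2 : ((g * n * g⁻¹ : B') : Q) = n := by
      have h3 := mem_center_iff.1 (hA'z hn) (g : Q)
      simp only [Subgroup.coe_mul, InvMemClass.coe_inv]
      rw [h3]
      group
    rw [h2]
    exact hn
  have hAc' : Nat.card (A'.subgroupOf B') = p ^ 2 := by
    rw [← hA'c]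
    exact Nat.card_congr (Subgroup.subgroupOfEquivOfLe hAB').toEquiv
  have hqcard : Nat.card (B' ⧸ A'.subgroupOf B') = p := by
    have h1 := Subgroup.card_mul_index (A'.subgroupOf B')
    rw [hAc', hB'c, Subgroup.index_eq_card] at h1
    have h2 : p ^ 2 * Nat.card (B' ⧸ A'.subgroupOf B') = p ^ 2 * p := by
      rw [h1]; ring
    exact Nat.eq_of_mul_eq_mul_left (pow_pos hp0.pos 2) h2
  haveI hqcyc : IsCyclic (B' ⧸ A'.subgroupOf B') := isCyclic_of_prime_card hqcard
  have hB'comm : ∀ x y : B', x * y = y * x := by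
    suffices h : IsMulCommutative B' from h.is_comm.comm
    apply MonoidHom.isMulCommutative_of_isCyclic_of_ker_le_center (QuotientGroup.mk' (A'.subgroupOf B'))
    rw [QuotientGroup.ker_mk']
    intro x hx
    rw [mem_subgroupOf] at hx
    rw [mem_center_iff]
    intro y
    apply Subtype.ext
    exact mem_center_iff.1 (hA'z hx) (y : Q)
  refine ⟨B'.map Q.subtype, ?_, ?_⟩
  · rw [Subgroup.card_map_of_injective Q.subtype_injective, hB'c]
  · refine ⟨⟨?_⟩⟩
    rintro ⟨_, x, hx, rfl⟩ ⟨_, y, hy, rfl⟩
    apply Subtype.ext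
    have := hB'comm ⟨x, hx⟩ ⟨y, hy⟩
    have h2 : (x : Q) * y = y * x := congrArg Subtype.val this
    have h3 : ((x : Q) : M) * (y : Q) = (y : Q) * (x : Q) := congrArg Subtype.val h2
    exact h3

end lemmas

/-- Let p be a prime and G a finite group in which any two p-subgroups of the same order are conjugate, with Sylow p-subgroup P. Then P is cyclic, or elementary abelian, or p = 2 and P is a quaternion group of order 8, or p is odd and P is non-abelian of order p³ and exponent p. -/
theorem result {G : Type*} [Group G] [Finite G]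
    {p : ℕ} [Fact p.Prime] (hC : ∀ H K : Subgroup G, IsPGroup p H → IsPGroup p K → Nat.card H = Nat.card K →
      ∃ g : G, K = H.map (MulAut.conj g).toMonoidHom) (P : Sylow p G) :
    IsCyclic P ∨ Cfsg.IsElementaryAbelian p (P : Subgroup G) ∨
      (p = 2 ∧ Nonempty ((P : Subgroup G) ≃* QuaternionGroup 2)) ∨
      (p ≠ 2 ∧ ¬ IsMulCommutative P ∧ Nat.card P = p ^ 3 ∧ Monoid.exponent P = p) := by

  classical
  have hp0 := (Fact.out : p.Prime)
  have hP : IsPGroup p P := P.isPGroup'
  -- subgroups of `P` of equal order are isomorphic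
  have hiso : ∀ A B : Subgroup P, Nat.card A = Nat.card B → Nonempty (A ≃* B) := by
    intro A B hAB
    have hA' : IsPGroup p (A.map (P : Subgroup G).subtype) := (hP.to_subgroup A).map _ 
    have hB' : IsPGroup p (B.map (P : Subgroup G).subtype) := (hP.to_subgroup B).map _
    obtain ⟨g, hg⟩ := hC _ _ hA' hB' (by
      rw [Subgroup.card_map_of_injective (P : Subgroup G).subtype_injective,
        Subgroup.card_map_of_injective (P : Subgroup G).subtype_injective, hAB])
    refine ⟨(A.equivMapOfInjective _ (P : Subgroup G).subtype_injective).trans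
      (((A.map (P : Subgroup G).subtype).equivMapOfInjective _ (MulAut.conj g).injective).trans
        ((MulEquiv.subgroupCongr hg.symm).trans
          (B.equivMapOfInjective _ (P : Subgroup G).subtype_injective).symm))⟩
  by_cases hU : UniqueP p P
  · rcases cyclic_or_quaternion hP hU with hcyc | ⟨hp2, u, b, n, hSC, hn, hcard, hb, hbu, hb2⟩
    · exact Or.inl hcyc
    · subst hp2
      right; right; left
      refine ⟨rfl, ?_⟩
      by_cases hn2 : n = 2
      · subst hn2
        exact quaternion_of_data (by norm_num) hSC.hu hcard hb hbu hb2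
      · exfalso
        have hn3 : 3 ≤ n := by omega
        have huo := hSC.hu
        -- a cyclic subgroup of order `8`
        have hA8 : Nat.card (zpowers (u ^ 2 ^ (n - 3))) = 2 ^ 3 := by
          rw [Nat.card_zpowers, orderOf_pow_of_dvd (by positivity)
            (by rw [huo]; exact pow_dvd_pow _ (by omega)), huo]
          have h1 : 2 ^ n = 2 ^ (n - 3) * 2 ^ 3 := by
            rw [← pow_add]; congr 1; omega
          rw [h1]
          exact Nat.mul_div_cancel_left _ (by positivity)
        -- `b` has order `4`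
        have hb2ne : b ^ 2 ^ 1 ≠ 1 := by
          rw [pow_one, hb2]
          intro h
          have h1 := orderOf_dvd_of_pow_eq_one h
          rw [huo] at h1
          have h2 := (Nat.pow_dvd_pow_iff_le_right (by norm_num : 1 < 2)).1 h1
          omega
        have hb4 : b ^ 2 ^ (1 + 1) = 1 := by
          have h1 : (2 : ℕ) ^ (1 + 1) = 2 * 2 := by norm_num
          rw [h1, pow_mul, hb2, ← pow_mul]
          have h2 : 2 ^ (n - 1) * 2 = 2 ^ n := by
            rw [← pow_succ]; congr 1; omega
          rw [h2, ← huo, pow_orderOf_eq_one]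
        have hbo : orderOf b = 2 ^ (1 + 1) := orderOf_eq_prime_pow hb2ne hb4
        have hbc : Nat.card (zpowers b) = 2 ^ 2 := by
          rw [Nat.card_zpowers, hbo]
        have hd8 : 2 ^ (2 + 1) ∣ Nat.card P := by
          rw [hcard]
          exact pow_dvd_pow _ (by omega)
        obtain ⟨B, hBc, hbB⟩ := Sylow.exists_subgroup_card_pow_succ (p := 2) (n := 2)
          (H := zpowers b) hd8 hbc
        obtain ⟨e⟩ := hiso _ B (hA8.trans hBc.symm)
        haveI hBcyc : IsCyclic B := isCyclic_of_surjective e e.surjective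
        obtain ⟨w, hw⟩ := IsCyclic.exists_generator (α := B)
        have hwo : orderOf w = 2 ^ 3 := by
          rw [orderOf_eq_card_of_forall_mem_zpowers hw, hBc]
        have hbB' : b ∈ B := hbB (mem_zpowers b)
        obtain ⟨k, hk0⟩ := hw ⟨b, hbB'⟩
        have hk : w ^ k = ⟨b, hbB'⟩ := hk0
        -- `k` is even
        have hk1 : w ^ (k * 4) = 1 := by
          have h1 : (b : P) ^ 4 = 1 := by simpa using hb4
          rw [zpow_mul, hk]
          apply Subtype.ext
          simpa using h1
        have hk2 : ((orderOf w : ℕ) : ℤ) ∣ k * 4 := orderOf_dvd_iff_zpow_eq_one.2 hk1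
        rw [hwo] at hk2
        obtain ⟨m, hm⟩ : (2 : ℤ) ∣ k := by
          obtain ⟨t, ht⟩ := hk2
          refine ⟨t, ?_⟩
          push_cast at ht
          omega
        -- index two
        have hidx : (zpowers u).index = 2 := by
          have h1 := Subgroup.card_mul_index (zpowers u)
          rw [Nat.card_zpowers, huo, hcard, pow_succ] at h1
          exact Nat.eq_of_mul_eq_mul_left (by positivity) h1
        have hw2 : ((w : B) : P) ^ 2 ∈ zpowers u := Subgroup.sq_mem_of_index_two hidx _
        apply hb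
        have h3 : b = (((w : B) : P) ^ 2) ^ m := by
          have h4 := congrArg Subtype.val hk
          have h5 : ((w ^ k : B) : P) = b := h4
          rw [hm, zpow_mul] at h5
          rw [← h5]
          simp
        rw [h3]
        exact zpow_mem hw2 m
  · obtain ⟨E, hEc, hEe⟩ := exists_order_sq_of_not_uniqueP hP hU
    have hexp : ∀ x : P, x ^ p = 1 := by
      by_contra hcon
      push Not at hcon
      obtain ⟨x, hx⟩ := hcon
      obtain ⟨i, hi⟩ := exists_pow_order_sq hP hx
      obtain ⟨e⟩ := hiso (zpowers (x ^ i)) E (by rw [Nat.card_zpowers, hi, hEc])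
      have h1 : (e ⟨x ^ i, mem_zpowers _⟩ : P) ^ p = 1 := hEe.2 _ (e ⟨x ^ i, mem_zpowers _⟩).2
      have h2 : e (⟨x ^ i, mem_zpowers _⟩ ^ p) = 1 := by
        rw [map_pow]
        exact Subtype.ext h1
      have h3 := (map_eq_one_iff e e.injective).1 h2
      have h4 : (x ^ i) ^ p = 1 := by
        simpa using congrArg Subtype.val h3
      have h5 := orderOf_dvd_of_pow_eq_one h4
      rw [hi] at h5
      have h6 := Nat.le_of_dvd hp0.pos h5
      have h7 : p < p ^ 2 := by
        calc p = p ^ 1 := (pow_one p).symm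
          _ < p ^ 2 := Nat.pow_lt_pow_right hp0.one_lt (by norm_num)
      omega
    by_cases hcomm : IsMulCommutative P
    · right; left
      exact ⟨hcomm, fun a ha => by
        have := hexp ⟨a, ha⟩
        exact congrArg Subtype.val this⟩
    · right; right; right
      have hnc : ¬ ∀ a b : P, a * b = b * a := fun h => hcomm ⟨⟨h⟩⟩
      refine ⟨?_, hcomm, ?_, ?_⟩
      · rintro rfl
        apply hnc
        intro a b
        have h1 := hexp (a * b)
        have h2 := hexp a
        have h3 := hexp b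
        rw [sq] at h1 h2 h3
        calc a * b = a * (a * b * (a * b)) * b := by rw [h1]; group
          _ = (a * a) * (b * a) * (b * b) := by group
          _ = b * a := by rw [h2, h3]; group
      · obtain ⟨M, hMc, hMnc⟩ := exists_noncomm hP hexp hnc
        by_cases hd : p ^ 4 ∣ Nat.card P
        · exfalso
          obtain ⟨B, hBc, hBcomm⟩ := exists_comm hP hexp hd
          obtain ⟨e⟩ := hiso B M (hBc.trans hMc.symm)
          apply hMnc
          refine ⟨⟨fun a b => ?_⟩⟩
          apply e.symm.injective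
          rw [map_mul, map_mul]
          exact hBcomm.is_comm.comm _ _
        · obtain ⟨k, hk⟩ := IsPGroup.iff_card.1 hP
          have h1 : k < 4 := by
            by_contra hcon
            apply hd
            rw [hk]
            exact pow_dvd_pow _ (by omega)
          have h2 : p ^ 3 ∣ p ^ k := by
            rw [← hk, ← hMc]
            exact Subgroup.card_subgroup_dvd_card M
          have h3 := (Nat.pow_dvd_pow_iff_le_right hp0.one_lt).1 h2
          have h4 : k = 3 := by omega
          rw [hk, h4]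
      · haveI : Nontrivial P := by
          by_contra hcon
          rw [not_nontrivial_iff_subsingleton] at hcon
          exact hnc fun a b => Subsingleton.elim _ _
        rw [Monoid.exponent_eq_prime_iff hp0]
        intro g hg
        exact orderOf_eq_prime (hexp g) hg

end Cfsg.Agent.S4023
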