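import Cfsg.Statements.S4024
import Mathlib
import Cfsg.Agent.S4023
import Cfsg.Agent.Lib.Solvable.PSeries

set_option autoImplicit false
open Cfsg

namespace Cfsg.Agent.S4024

open Subgroup
open scoped commutatorElement
open Cfsg.Agent.Lib.Solvable.PSeries

theorem main {G : Type*} [Group G] [Finite G]
    {p : ℕ} [Fact p.Prime] (hC : ∀ H K : Subgroup G, IsPGroup p H → IsPGroup p K → Nat.card H = Nat.card K →
      ∃ g : G, K = H.map (MulAut.conj g).toMonoidHom) (P : Sylow p G)
    (H : Subgroup G) [H.Normal] (hsolv : Cfsg.IsPSolvable p H) (hdiv : p ∣ Nat.card H)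
    (hexp : ∀ y ∈ (P : Subgroup G), y ^ p = 1) :
    IsMulCommutative P ∧ (P : Subgroup G) ≤ H := by
  classical
  have hp0 := (Fact.out : p.Prime)
  -- the normal subgroups `W` and `L`
  haveI hWch := pPrimeCore_char p H
  haveI hLch : (pPrimePCore p H).Characteristic := by
    rw [← upper_two]
    exact upper_characteristic 2
  obtain ⟨W, hW⟩ : ∃ W, W = (pPrimeCore p H).map H.subtype := ⟨_, rfl⟩
  obtain ⟨L, hL⟩ : ∃ L, L = (pPrimePCore p H).map H.subtype := ⟨_, rfl⟩
  haveI hWn : W.Normal := by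
    rw [hW]; exact Cfsg.Agent.Lib.Basic.PCore.map_subtype_normal_of_characteristic _
  haveI hLn : L.Normal := by
    rw [hL]; exact Cfsg.Agent.Lib.Basic.PCore.map_subtype_normal_of_characteristic _
  have hLH : L ≤ H := by rw [hL]; exact map_subtype_le _
  have hWcop : (Nat.card W).Coprime p := by
    rw [hW, Subgroup.card_map_of_injective H.subtype_injective]
    exact pPrimeCore_coprime p
  -- `P ∩ W = 1`
  have hPW : ∀ e ∈ (P : Subgroup G), e ∈ W → e = 1 := by
    intro e he heW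
    obtain ⟨k, hk⟩ := P.2 ⟨e, he⟩
    have h1 : e ^ p ^ k = 1 := by simpa using congrArg Subtype.val hk
    have h2 : orderOf e ∣ p ^ k := orderOf_dvd_of_pow_eq_one h1
    have h3 : orderOf e ∣ Nat.card W := by
      have := orderOf_dvd_natCard (⟨e, heW⟩ : W)
      rwa [Subgroup.orderOf_mk] at this
    have h4 : orderOf e = 1 := Nat.Coprime.eq_one_of_dvd ((hWcop.pow_right k).coprime_dvd_left h3) h2
    exact orderOf_eq_one_iff.1 h4
  -- `L / W` is a `p`-group
  let π : G →* G ⧸ W := QuotientGroup.mk' W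
  have hπ : Function.Surjective π := QuotientGroup.mk'_surjective W
  have hLp : IsPGroup p (L.map π) := by
    rintro ⟨_, l, hl, rfl⟩
    rw [hL] at hl
    obtain ⟨h, hh, rfl⟩ := hl
    have hh' : (QuotientGroup.mk' (pPrimeCore p H)) h ∈ pCore p (H ⧸ pPrimeCore p H) := hh
    obtain ⟨k, hk⟩ := Cfsg.Agent.Lib.Basic.PCore.pCore_isPGroup p ⟨_, hh'⟩
    have h1 : (QuotientGroup.mk' (pPrimeCore p H)) (h ^ p ^ k) = 1 := by
      rw [map_pow]
      simpa using congrArg Subtype.val hk
    have h2 : h ^ p ^ k ∈ pPrimeCore p H := (QuotientGroup.eq_one_iff _).1 h1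
    have h3 : ((h : G)) ^ p ^ k ∈ W := by
      rw [hW]
      exact ⟨h ^ p ^ k, h2, by simp⟩
    refine ⟨k, Subtype.ext ?_⟩
    show (π h) ^ p ^ k = 1
    rw [← map_pow]
    exact (QuotientGroup.eq_one_iff _).2 h3
  haveI hLmapn : (L.map π).Normal := Subgroup.Normal.map hLn π hπ
  have hLS : ∀ P' : Sylow p G, L.map π ≤ (P' : Subgroup G).map π := by
    intro P'
    have h1 := hLp.le_sylow_of_normal (P'.mapSurjective hπ)
    rwa [Sylow.coe_mapSurjective] at h1
  -- an element of order `p` in `L`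
  obtain ⟨x, hxL, hxo⟩ : ∃ x ∈ L, orderOf x = p := by
    have hWt : pPrimeCore p H ≠ ⊤ := by
      intro h
      have h1 := pPrimeCore_coprime (G := H) p
      rw [h, Subgroup.card_top] at h1
      exact hp0.one_lt.ne' (h1.symm.eq_one_of_dvd hdiv)
    haveI : Nontrivial (H ⧸ pPrimeCore p H) := QuotientGroup.nontrivial_iff.2 hWt
    have hcore := (isPSolvable_core_ne_bot (isPSolvable_quotient hsolv (pPrimeCore p H))).resolve_right
      (by simpa using pPrimeCore_quotient (G := H) p)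
    obtain ⟨⟨q, hq⟩, hq1⟩ := Subgroup.ne_bot_iff_exists_ne_one.1 hcore
    have hq1' : q ≠ 1 := fun h => hq1 (Subtype.ext h)
    obtain ⟨h, rfl⟩ := QuotientGroup.mk'_surjective _ q
    have hhL : h ∈ pPrimePCore p H := hq
    obtain ⟨k, hk⟩ := Cfsg.Agent.Lib.Basic.PCore.pCore_isPGroup p ⟨_, hq⟩
    have h1 : (QuotientGroup.mk' (pPrimeCore p H) h) ^ p ^ k = 1 := by
      simpa using congrArg Subtype.val hk
    have h2 := orderOf_dvd_of_pow_eq_one h1
    obtain ⟨j, _, hj⟩ := (Nat.dvd_prime_pow hp0).1 h2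
    have hj0 : j ≠ 0 := by
      rintro rfl
      rw [pow_zero] at hj
      exact hq1' (orderOf_eq_one_iff.1 hj)
    have h3 : p ∣ orderOf (QuotientGroup.mk' (pPrimeCore p H) h) := by
      rw [hj]
      exact dvd_pow_self p hj0
    have h4 : p ∣ orderOf h := h3.trans (orderOf_map_dvd _ h)
    refine ⟨((h : G)) ^ (orderOf h / p), ?_, ?_⟩
    · rw [hL]
      exact ⟨h ^ (orderOf h / p), (pPrimePCore p H).pow_mem hhL _, by simp⟩
    · rw [← Subgroup.orderOf_coe h] at h4 ⊢
      exact orderOf_pow_orderOf_div (orderOf_pos _).ne' h4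
  have hzp : ∀ y : G, orderOf y = p → IsPGroup p (zpowers y) := by
    intro y hy
    apply IsPGroup.of_card (n := 1)
    rw [Nat.card_zpowers, hy, pow_one]
  -- `P ≤ L`
  have hPL : (P : Subgroup G) ≤ L := by
    intro y hy
    by_cases hy1 : y = 1
    · rw [hy1]; exact one_mem L
    have hyo : orderOf y = p := orderOf_eq_prime (hexp y hy) hy1
    obtain ⟨g, hg⟩ := hC (zpowers x) (zpowers y) (hzp x hxo) (hzp y hyo) (by
      rw [Nat.card_zpowers, Nat.card_zpowers, hxo, hyo])
    have h1 : y ∈ (zpowers x).map (MulAut.conj g).toMonoidHom := by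
      rw [← hg]; exact mem_zpowers y
    obtain ⟨t, ht, rfl⟩ := h1
    have htL : t ∈ L := (zpowers_le.2 hxL) ht
    exact hLn.conj_mem t htL g
  refine ⟨?_, hPL.trans hLH⟩
  -- commutativity
  refine ⟨⟨fun a b => Subtype.ext ?_⟩⟩
  obtain ⟨y, hy⟩ := a
  obtain ⟨t, ht⟩ := b
  show y * t = t * y
  by_cases hy1 : y = 1
  · rw [hy1, one_mul, mul_one]
  have hyo : orderOf y = p := orderOf_eq_prime (hexp y hy) hy1
  haveI hPnt : Nontrivial (P : Subgroup G) :=
    ⟨⟨⟨y, hy⟩, 1, fun h => hy1 (congrArg Subtype.val h)⟩⟩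
  obtain ⟨z, hzc, hzo⟩ := Cfsg.Agent.Lib.PGroup.CyclicMax2.exists_central_order_p P.2
  have hzo' : orderOf (z : G) = p := by rw [Subgroup.orderOf_coe, hzo]
  obtain ⟨g, hg⟩ := hC (zpowers (z : G)) (zpowers y) (hzp _ hzo') (hzp y hyo) (by
    rw [Nat.card_zpowers, Nat.card_zpowers, hzo', hyo])
  obtain ⟨y', hy'⟩ : ∃ y', y' = g * (z : G) * g⁻¹ := ⟨_, rfl⟩
  have hy'y : y' ∈ zpowers y := by
    rw [hg]
    exact ⟨z, mem_zpowers _, by rw [hy']; rfl⟩
  have hy'o : orderOf y' = p := by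
    have h1 : y' = (MulAut.conj g) (z : G) := by rw [hy']; rfl
    have h2 : orderOf ((MulAut.conj g).toMonoidHom (z : G)) = orderOf (z : G) :=
      orderOf_injective _ (MulAut.conj g).injective _
    rw [h1]
    exact h2.trans hzo'
  have hyy' : zpowers y' = zpowers y := by
    apply Subgroup.eq_of_le_of_card_ge (zpowers_le.2 hy'y)
    rw [Nat.card_zpowers, Nat.card_zpowers, hy'o, hyo]
  have hy'P : y' ∈ (P : Subgroup G) := (zpowers_le.2 hy) hy'y
  -- the conjugate Sylow subgroup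
  have hπt : π t ∈ ((g • P : Sylow p G) : Subgroup G).map π := hLS _ ⟨t, hPL ht, rfl⟩
  obtain ⟨v', hv', hv'e⟩ := hπt
  rw [Sylow.coe_subgroup_smul] at hv'
  obtain ⟨v, hv, hvv'⟩ := Subgroup.mem_smul_pointwise_iff_exists _ _ _ |>.1 hv'
  have hvv : v' = g * v * g⁻¹ := hvv'.symm
  have hcz : (z : G) * v = v * z := by
    have h1 := mem_center_iff.1 hzc ⟨v, hv⟩
    exact (congrArg Subtype.val h1).symm
  have hcy' : y' * v' = v' * y' := by
    rw [hy', hvv]
    calc g * (z : G) * g⁻¹ * (g * v * g⁻¹) = g * ((z : G) * v) * g⁻¹ := by group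
      _ = g * (v * z) * g⁻¹ := by rw [hcz]
      _ = g * v * g⁻¹ * (g * (z : G) * g⁻¹) := by group
  have hπc : π y' * π t = π t * π y' := by
    rw [← hv'e, ← map_mul, ← map_mul, hcy']
  have hcW : ⁅y', t⁆ ∈ W := by
    rw [← QuotientGroup.eq_one_iff]
    show π ⁅y', t⁆ = 1
    rw [map_commutatorElement, commutatorElement_eq_one_iff_mul_comm]
    exact hπc
  have hcP : ⁅y', t⁆ ∈ (P : Subgroup G) := by
    rw [commutatorElement_def]
    exact mul_mem (mul_mem (mul_mem hy'P ht) (inv_mem hy'P)) (inv_mem ht)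
  have hc1 : y' * t = t * y' := commutatorElement_eq_one_iff_mul_comm.1 (hPW _ hcP hcW)
  have hyz : y ∈ zpowers y' := by rw [hyy']; exact mem_zpowers y
  obtain ⟨i, rfl⟩ := hyz
  exact (Commute.zpow_left hc1 i)

/-- Let p be an odd prime and G a finite group in which any two p-subgroups of the same order are conjugate, with Sylow p-subgroup P. If H is a normal p-solvable subgroup of G whose order is divisible by p, then P is abelian, and either P ≤ H or P is cyclic. -/
theorem result {G : Type*} [Group G] [Finite G]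
    {p : ℕ} [Fact p.Prime] (hp : p ≠ 2) (hC : ∀ H K : Subgroup G, IsPGroup p H → IsPGroup p K → Nat.card H = Nat.card K →
      ∃ g : G, K = H.map (MulAut.conj g).toMonoidHom) (P : Sylow p G)
    (H : Subgroup G) [H.Normal] (hsolv : Cfsg.IsPSolvable p H) (hdiv : p ∣ Nat.card H) :
    IsMulCommutative P ∧ ((P : Subgroup G) ≤ H ∨ IsCyclic P) := by

  classical
  rcases Cfsg.Agent.S4023.result hC P with hcyc | hel | ⟨hp2, _⟩ | ⟨_, _, _, hexpo⟩
  · refine ⟨?_, Or.inr hcyc⟩
    exact ⟨⟨fun a b => (IsCyclic.commGroup (α := P)).mul_comm a b⟩⟩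
  · have h := main hC P H hsolv hdiv (fun y hy => hel.2 y hy)
    exact ⟨h.1, Or.inl h.2⟩
  · exact absurd hp2 hp
  · have h := main hC P H hsolv hdiv (fun y hy => by
      have h1 := Monoid.pow_exponent_eq_one (⟨y, hy⟩ : (P : Subgroup G))
      rw [hexpo] at h1
      exact congrArg Subtype.val h1)
    exact ⟨h.1, Or.inl h.2⟩

end Cfsg.Agent.S4024
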