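import Cfsg.Statements.S4025
import Cfsg.Agent.Lib.EqOrd.Assemble
import Cfsg.Agent.Lib.Basic.SylowUtil

set_option autoImplicit false
open Cfsg
open scoped Pointwise

namespace Cfsg.Agent.S4025

/-- Additive automorphisms of a `ZMod p`-module, multiplicatively parametrized, as linear ones. -/
def mkRho {p : ℕ} [Fact p.Prime] {A Γ : Type*} [AddCommGroup A] [Module (ZMod p) A] [Group Γ]
    (ρ₀ : Γ → (A ≃+ A)) (h1 : ∀ a, ρ₀ 1 a = a) (h2 : ∀ g h a, ρ₀ (g * h) a = ρ₀ g (ρ₀ h a)) :
    Γ →* (A ≃ₗ[ZMod p] A) where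
  toFun g := Cfsg.Agent.Lib.EqOrd.toLinE (p := p) (ρ₀ g)
  map_one' := by
    apply LinearEquiv.ext
    intro a
    exact h1 a
  map_mul' g h := by
    apply LinearEquiv.ext
    intro a
    exact h2 g h a

/-- The main theorem with the action given by additive automorphisms. -/
theorem main_add {Γ : Type*} [Group Γ] [Finite Γ] {p : ℕ} [Fact p.Prime] {n : ℕ}
    {A : Type*} [AddCommGroup A] [Module (ZMod p) A] [Finite A]
    (ι : Multiplicative A →* Γ) (hι : Function.Injective ι)
    (ρ₀ : Γ → (A ≃+ A))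
    (hρ : ∀ g a, ι (Multiplicative.ofAdd (ρ₀ g a)) = g * ι (Multiplicative.ofAdd a) * g⁻¹)
    (hcard : Nat.card A = p ^ n) (hn : 3 ≤ n)
    (hcop : ¬ p ∣ ι.range.index)
    (hT : ∀ W₁ W₂ : AddSubgroup A, Nat.card W₁ = Nat.card W₂ → ∃ g : Γ, ∀ x ∈ W₁, ρ₀ g x ∈ W₂)
    (hsolv : Group.IsSolvable (Γ ⧸ Cfsg.pPrimeCore p Γ)) :
    (n = 3 ∧ (∃ f : Γ ⧸ Cfsg.pPrimeCore p Γ →* ↥(Cfsg.semiaffineGroup (GaloisField p 3)), Function.Injective f) ∧
      (p = 2 → Nonempty (Γ ⧸ Cfsg.pPrimeCore p Γ ≃* Cfsg.semiaffineGroup (GaloisField 2 3)) ∨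
               Nonempty (Γ ⧸ Cfsg.pPrimeCore p Γ ≃* Cfsg.affineGroup (GaloisField 2 3)))) ∨
    (n = 5 ∧ p = 2 ∧ Nonempty (Γ ⧸ Cfsg.pPrimeCore p Γ ≃* Cfsg.semiaffineGroup (GaloisField 2 5))) := by
  have h1 : ∀ a, ρ₀ 1 a = a := by
    intro a
    apply Multiplicative.ofAdd.injective
    apply hι
    rw [hρ]
    group
  have h2 : ∀ g h a, ρ₀ (g * h) a = ρ₀ g (ρ₀ h a) := by
    intro g h a
    apply Multiplicative.ofAdd.injective
    apply hι
    rw [hρ, hρ, hρ]
    group
  refine Cfsg.Agent.Lib.EqOrd.main_gamma ι hι (mkRho (p := p) ρ₀ h1 h2) hρ hcard hn hcop ?_ hsolv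
  intro W₁ W₂ hW
  obtain ⟨g, hg⟩ := hT W₁ W₂ hW
  refine ⟨g, ?_⟩
  apply AddSubgroup.eq_of_le_of_card_ge
  · intro y hy
    obtain ⟨s, hs, rfl⟩ := (Cfsg.Agent.Lib.EqOrd.mem_smul_iff' _ _ _).1 hy
    exact hg s hs
  · rw [Cfsg.Agent.Lib.EqOrd.card_smul', hW]

/-- Let p be a prime and G a finite group in which any two p-subgroups of the same order are conjugate, and suppose a Sylow p-subgroup P of G is elementary abelian of order pⁿ with n ≥ 3. Let N be the normalizer of P and K the largest normal subgroup of N of order prime to p, and assume N/K is solvable. Then either n = 3 and N/K embeds in the one-dimensional semi-affine group over the field with p³ elements (and for p = 2 it is isomorphic to the affine or the semi-affine group over the field with 8 elements), or n = 5, p = 2 and N/K is isomorphic to the one-dimensional semi-affine group over the field with 32 elements. -/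
theorem result {G : Type*} [Group G] [Finite G]
    {p : ℕ} [Fact p.Prime] (hC : ∀ H K : Subgroup G, IsPGroup p H → IsPGroup p K → Nat.card H = Nat.card K →
      ∃ g : G, K = H.map (MulAut.conj g).toMonoidHom) (P : Sylow p G) (n : ℕ) (hn : 3 ≤ n)
    (hel : Cfsg.IsElementaryAbelian p (P : Subgroup G)) (hcard : Nat.card P = p ^ n)
    (N : Subgroup G) (hN : N = Subgroup.normalizer ((P : Subgroup G) : Set G))
    (hsolv : Group.IsSolvable (↥N ⧸ Cfsg.pPrimeCore p ↥N)) :
    (n = 3 ∧ (∃ f : ↥N ⧸ Cfsg.pPrimeCore p ↥N →* ↥(Cfsg.semiaffineGroup (GaloisField p 3)), Function.Injective f) ∧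
      (p = 2 → Nonempty (↥N ⧸ Cfsg.pPrimeCore p ↥N ≃* Cfsg.semiaffineGroup (GaloisField 2 3)) ∨
               Nonempty (↥N ⧸ Cfsg.pPrimeCore p ↥N ≃* Cfsg.affineGroup (GaloisField 2 3)))) ∨
    (n = 5 ∧ p = 2 ∧ Nonempty (↥N ⧸ Cfsg.pPrimeCore p ↥N ≃* Cfsg.semiaffineGroup (GaloisField 2 5))) := by
  classical
  subst hN
  obtain ⟨hcomm, hpow⟩ := hel
  letI cg : CommGroup ↥(P : Subgroup G) :=
    { (inferInstance : Group ↥(P : Subgroup G)) with mul_comm := fun a b => hcomm.is_comm.comm a b }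
  have htorA : ∀ x : Additive ↥(P : Subgroup G), p • x = 0 := by
    intro x
    apply Additive.toMul.injective
    apply Subtype.ext
    exact hpow _ (Additive.toMul x).2
  letI modA : Module (ZMod p) (Additive ↥(P : Subgroup G)) := AddCommGroup.zmodModule htorA
  have hPN : (P : Subgroup G) ≤ Subgroup.normalizer ((P : Subgroup G) : Set G) := Subgroup.le_normalizer
  have hmem : ∀ (g : ↥(Subgroup.normalizer ((P : Subgroup G) : Set G))) (a : ↥(P : Subgroup G)),
      (g : G) * a * (g : G)⁻¹ ∈ (P : Subgroup G) := by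
    intro g a
    exact (Subgroup.mem_normalizer_iff.mp g.2 a).1 a.2
  let ι : Multiplicative (Additive ↥(P : Subgroup G)) →* ↥(Subgroup.normalizer ((P : Subgroup G) : Set G)) :=
    { toFun := fun x => ⟨(Additive.toMul (Multiplicative.toAdd x) : ↥(P : Subgroup G)).1,
        hPN (Additive.toMul (Multiplicative.toAdd x) : ↥(P : Subgroup G)).2⟩
      map_one' := rfl
      map_mul' := fun _ _ => rfl }
  have hι : Function.Injective ι := by
    intro x y h
    have h1 := congrArg Subtype.val h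
    exact Multiplicative.toAdd.injective (Additive.toMul.injective (Subtype.ext h1))
  let ρ₀ : ↥(Subgroup.normalizer ((P : Subgroup G) : Set G)) →
      (Additive ↥(P : Subgroup G) ≃+ Additive ↥(P : Subgroup G)) := fun g =>
    { toFun := fun a => Additive.ofMul ⟨(g : G) * (Additive.toMul a : ↥(P : Subgroup G)) * (g : G)⁻¹, hmem g _⟩
      invFun := fun a => Additive.ofMul ⟨(g : G)⁻¹ * (Additive.toMul a : ↥(P : Subgroup G)) * (g : G), by
        have := hmem g⁻¹ (Additive.toMul a)
        simpa using this⟩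
      left_inv := fun a => by
        apply Additive.toMul.injective
        apply Subtype.ext
        show (g : G)⁻¹ * ((g : G) * ((Additive.toMul a : ↥(P : Subgroup G)) : G) * (g : G)⁻¹) * (g : G) = _
        group
      right_inv := fun a => by
        apply Additive.toMul.injective
        apply Subtype.ext
        show (g : G) * ((g : G)⁻¹ * ((Additive.toMul a : ↥(P : Subgroup G)) : G) * (g : G)) * (g : G)⁻¹ = _
        group
      map_add' := fun a b => by
        apply Additive.toMul.injective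
        apply Subtype.ext
        show (g : G) * (((Additive.toMul a : ↥(P : Subgroup G)) : G) * ((Additive.toMul b : ↥(P : Subgroup G)) : G)) * (g : G)⁻¹ =
          ((g : G) * ((Additive.toMul a : ↥(P : Subgroup G)) : G) * (g : G)⁻¹) *
            ((g : G) * ((Additive.toMul b : ↥(P : Subgroup G)) : G) * (g : G)⁻¹)
        group }
  have hρ : ∀ (g : ↥(Subgroup.normalizer ((P : Subgroup G) : Set G))) (a : Additive ↥(P : Subgroup G)),
      ι (Multiplicative.ofAdd (ρ₀ g a)) = g * ι (Multiplicative.ofAdd a) * g⁻¹ := fun _ _ => rfl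
  have hcardA : Nat.card (Additive ↥(P : Subgroup G)) = p ^ n :=
    (Nat.card_congr Additive.toMul).trans hcard
  have hcop : ¬ p ∣ ι.range.index := by
    intro hdvd
    have hrange : Nat.card ι.range = p ^ n := by
      rw [Nat.card_congr (MonoidHom.ofInjective hι).toEquiv.symm]
      exact (Nat.card_congr Multiplicative.toAdd).trans hcardA
    have h1 : ι.range.index * Nat.card ι.range = Nat.card ↥(Subgroup.normalizer ((P : Subgroup G) : Set G)) :=
      Subgroup.index_mul_card _
    have h2 : Nat.card ↥(Subgroup.normalizer ((P : Subgroup G) : Set G)) ∣ Nat.card G :=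
      Subgroup.card_subgroup_dvd_card _
    have h3 : (P : Subgroup G).index * Nat.card (P : Subgroup G) = Nat.card G := Subgroup.index_mul_card _
    have hpos : 0 < p ^ n := pow_pos (Fact.out : p.Prime).pos _
    have h4 : ι.range.index ∣ (P : Subgroup G).index := by
      have hh : ι.range.index * p ^ n ∣ (P : Subgroup G).index * p ^ n := by
        rw [← hrange]
        rw [h1]
        rw [hrange, ← hcard, h3]
        exact h2
      exact Nat.dvd_of_mul_dvd_mul_right hpos hh
    exact (Sylow.not_dvd_index P) (hdvd.trans h4)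
  have hT : ∀ W₁ W₂ : AddSubgroup (Additive ↥(P : Subgroup G)), Nat.card W₁ = Nat.card W₂ →
      ∃ g : ↥(Subgroup.normalizer ((P : Subgroup G) : Set G)), ∀ y ∈ W₁, ρ₀ g y ∈ W₂ := by
    intro W₁ W₂ hW
    let B : AddSubgroup (Additive ↥(P : Subgroup G)) → Subgroup G := fun W =>
      { carrier := {x | ∃ h : x ∈ (P : Subgroup G), Additive.ofMul (⟨x, h⟩ : ↥(P : Subgroup G)) ∈ W}
        mul_mem' := by
          rintro a b ⟨ha, ha'⟩ ⟨hb, hb'⟩
          exact ⟨(P : Subgroup G).mul_mem ha hb, W.add_mem ha' hb'⟩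
        one_mem' := ⟨(P : Subgroup G).one_mem, W.zero_mem⟩
        inv_mem' := by
          rintro a ⟨ha, ha'⟩
          exact ⟨(P : Subgroup G).inv_mem ha, W.neg_mem ha'⟩ }
    have hBle : ∀ W, B W ≤ (P : Subgroup G) := fun W x hx => hx.1
    have hBcard : ∀ W, Nat.card (B W) = Nat.card W := by
      intro W
      apply Nat.card_congr
      exact
        { toFun := fun x => ⟨Additive.ofMul ⟨x.1, x.2.1⟩, x.2.2⟩
          invFun := fun a => ⟨((Additive.toMul a.1 : ↥(P : Subgroup G)) : G),
            (Additive.toMul a.1 : ↥(P : Subgroup G)).2, a.2⟩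
          left_inv := fun _ => rfl
          right_inv := fun _ => rfl }
    have hBp : ∀ W, IsPGroup p (B W) := by
      intro W x
      refine ⟨1, ?_⟩
      apply Subtype.ext
      rw [pow_one]
      exact hpow _ (hBle W x.2)
    obtain ⟨x, hx⟩ := hC (B W₁) (B W₂) (hBp _) (hBp _) (by rw [hBcard, hBcard, hW])
    have hX : ∀ a ∈ ((B W₁ : Subgroup G) : Set G), ∀ b ∈ (P : Subgroup G), a * b = b * a := by
      intro a ha b hb
      have := hcomm.is_comm.comm (⟨a, hBle _ ha⟩ : ↥(P : Subgroup G)) ⟨b, hb⟩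
      exact congrArg Subtype.val this
    have hgin : ∀ a ∈ ((B W₁ : Subgroup G) : Set G), x * a * x⁻¹ ∈ B W₂ := by
      intro a ha
      rw [hx]
      exact ⟨a, ha, rfl⟩
    have hgX : ∀ a ∈ ((B W₁ : Subgroup G) : Set G), ∀ b ∈ (P : Subgroup G),
        (x * a * x⁻¹) * b = b * (x * a * x⁻¹) := by
      intro a ha b hb
      have := hcomm.is_comm.comm (⟨x * a * x⁻¹, hBle _ (hgin a ha)⟩ : ↥(P : Subgroup G)) ⟨b, hb⟩
      exact congrArg Subtype.val this
    obtain ⟨m, hm, hmx⟩ := Cfsg.Agent.Lib.Basic.SylowUtil.burnside_fusion P _ x hX hgX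
    refine ⟨⟨m, hm⟩, ?_⟩
    intro s hs
    have hs' : ((Additive.toMul s : ↥(P : Subgroup G)) : G) ∈ ((B W₁ : Subgroup G) : Set G) :=
      ⟨(Additive.toMul s : ↥(P : Subgroup G)).2, hs⟩
    have h1 := hgin _ hs'
    rw [← hmx _ hs'] at h1
    exact h1.2
  exact main_add ι hι ρ₀ hρ hcardA hn hcop hT hsolv

end Cfsg.Agent.S4025
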