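import Cfsg.Statements.S4027
import Mathlib
import Cfsg.Agent.Lib.Basic.RealOdd
-- import your own Cfsg.Agent.* helpers here

set_option autoImplicit false
open Cfsg

namespace Cfsg.Agent.S4027

/-- Let G be a finite group in which every element x of odd order satisfies N_G(⟨x⟩) = C_G(x). Then the Sylow 2-subgroups of G are normal. -/
theorem result {G : Type*} [Group G] [Finite G]
    (hirr : ∀ x : G, (∀ r : ℕ, r.Prime → r ∣ orderOf x → r ≠ 2) →
      Subgroup.normalizer ((Subgroup.zpowers x : Subgroup G) : Set G) ≤ Subgroup.centralizer {x}) (P : Sylow 2 G) :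
    (P : Subgroup G).Normal := by
  apply Cfsg.Agent.Lib.Basic.RealOdd.sylow_two_normal_of_noRealOdd
  intro x hx1 hodd hconj
  obtain ⟨g, hg⟩ := isConj_iff.mp hconj
  have hodd' : ∀ r : ℕ, r.Prime → r ∣ orderOf x → r ≠ 2 := by
    rintro r - hr rfl
    exact (Nat.not_even_iff_odd.mpr hodd) (even_iff_two_dvd.mpr hr)
  have hg' : g ∈ Subgroup.normalizer ((Subgroup.zpowers x : Subgroup G) : Set G) := by
    rw [Subgroup.mem_normalizer_iff]
    intro h
    constructor
    · rintro ⟨k, rfl⟩
      refine ⟨-k, ?_⟩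
      simp only [zpow_neg]
      show (x ^ k)⁻¹ = g * x ^ k * g⁻¹
      have := (MulAut.conj g).toMonoidHom.map_zpow x k
      simp only [MulEquiv.toMonoidHom_eq_coe, MonoidHom.coe_coe, MulAut.conj_apply] at this
      rw [this, hg, inv_zpow]
    · rintro ⟨k, hk⟩
      refine ⟨-k, ?_⟩
      have h2 : (MulAut.conj g) h = x ^ k := hk.symm
      have h3 := (MulAut.conj g).toMonoidHom.map_zpow x (-k)
      simp only [MulEquiv.toMonoidHom_eq_coe, MonoidHom.coe_coe, MulAut.conj_apply] at h3
      rw [hg] at h3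
      apply (MulAut.conj g).injective
      simp only [MulAut.conj_apply]
      rw [h3, inv_zpow, zpow_neg, inv_inv]
      exact hk
  have hc := hirr x hodd' hg'
  have h3 := Subgroup.mem_centralizer_iff.mp hc x (Set.mem_singleton x)
  have h4 : g * x * g⁻¹ = x := by rw [← h3]; group
  have h5 : x⁻¹ = x := by rw [← hg, h4]
  have h6 : x * x = 1 := by
    nth_rw 1 [← h5]
    exact inv_mul_cancel x
  have hord2 : orderOf x ∣ 2 := orderOf_dvd_of_pow_eq_one (by rw [pow_two]; exact h6)
  have hcop2 : (orderOf x).Coprime 2 := (Nat.coprime_two_right).mpr hodd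
  exact hx1 (orderOf_eq_one_iff.mp (Nat.eq_one_of_dvd_coprimes hcop2 (dvd_refl _) hord2))

end Cfsg.Agent.S4027
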