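import Cfsg.Statements.S4028
import Mathlib

set_option autoImplicit false
open Cfsg

namespace Cfsg.Agent.S4028

theorem mem_normalizer_zpowers {G : Type*} [Group G] [Finite G] {x z : G}
    (h : z * x * z⁻¹ ∈ Subgroup.zpowers x) :
    z ∈ Subgroup.normalizer ((Subgroup.zpowers x : Subgroup G) : Set G) := by
  have hle : (Subgroup.zpowers x).map (MulAut.conj z).toMonoidHom ≤ Subgroup.zpowers x := by
    rw [Subgroup.map_le_iff_le_comap]
    rw [Subgroup.zpowers_le]
    exact h
  have hcard : Nat.card (Subgroup.zpowers x) ≤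
      Nat.card ((Subgroup.zpowers x).map (MulAut.conj z).toMonoidHom : Subgroup G) := by
    rw [Subgroup.card_map_of_injective (MulAut.conj z).injective]
  have heq := Subgroup.eq_of_le_of_card_ge hle hcard
  rw [Subgroup.mem_normalizer_iff]
  intro n
  constructor
  · intro hn
    apply hle
    exact ⟨n, hn, rfl⟩
  · intro hn
    rw [← heq] at hn
    obtain ⟨m, hm, hmn⟩ := hn
    have : m = n := by
      have h2 : z * m * z⁻¹ = z * n * z⁻¹ := hmn
      simpa using h2
    exact this ▸ hm

theorem result {G : Type*} [Group G] [Finite G] (P : Sylow 2 G) :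
    (∀ x : G, (∀ r : ℕ, r.Prime → r ∣ orderOf x → r = 2) →
      Subgroup.normalizer ((Subgroup.zpowers x : Subgroup G) : Set G) ≤ Subgroup.centralizer {x}) ↔
    (∀ y : ↥(P : Subgroup G), Subgroup.normalizer ((Subgroup.zpowers y : Subgroup ↥(P : Subgroup G)) : Set ↥(P : Subgroup G)) ≤
        Subgroup.centralizer {y}) := by
  classical
  haveI : Fact (Nat.Prime 2) := ⟨Nat.prime_two⟩
  constructor
  · intro hyp y z hz
    have h1 : ∀ r : ℕ, r.Prime → r ∣ orderOf (y : G) → r = 2 := by
      intro r hr hd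
      obtain ⟨k, hk⟩ := (IsPGroup.iff_orderOf.1 P.isPGroup') y
      rw [Subgroup.orderOf_coe, hk] at hd
      exact (Nat.prime_dvd_prime_iff_eq hr Nat.prime_two).1 (hr.dvd_of_dvd_pow hd)
    have h2 : z * y * z⁻¹ ∈ Subgroup.zpowers y :=
      (Subgroup.mem_normalizer_iff.1 hz y).1 (Subgroup.mem_zpowers y)
    have h3 : (z : G) * y * (z : G)⁻¹ ∈ Subgroup.zpowers (y : G) := by
      obtain ⟨k, hk⟩ := h2
      refine ⟨k, ?_⟩
      have := congrArg Subtype.val hk
      simpa using this
    have h4 := hyp (y : G) h1 (mem_normalizer_zpowers h3)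
    rw [Subgroup.mem_centralizer_singleton_iff] at h4 ⊢
    exact Subtype.ext h4
  · intro hyp x hx g hg
    have hne : orderOf x ≠ 0 := (orderOf_pos x).ne'
    have hxo : orderOf x = 2 ^ (orderOf x).primeFactorsList.length :=
      Nat.eq_prime_pow_of_unique_prime_dvd hne (fun {d} hd hdv => hx d hd hdv)
    set k := (orderOf x).primeFactorsList.length with hk
    have hHp : IsPGroup 2 (Subgroup.zpowers x) := by
      rw [IsPGroup.iff_card]
      exact ⟨k, by rw [Nat.card_zpowers, hxo]⟩
    -- key case: 2-elements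
    have key : ∀ z : G, (∃ a : ℕ, z ^ (2 ^ a) = 1) →
        z ∈ Subgroup.normalizer ((Subgroup.zpowers x : Subgroup G) : Set G) → z * x = x * z := by
      rintro z ⟨a, ha⟩ hz
      have hzp : IsPGroup 2 (Subgroup.zpowers z) := by
        rw [IsPGroup.iff_card, Nat.card_zpowers]
        exact (Nat.dvd_prime_pow Nat.prime_two).1 (orderOf_dvd_of_pow_eq_one ha) |>.imp fun _ h => h.2
      have hK : IsPGroup 2 (Subgroup.zpowers x ⊔ Subgroup.zpowers z : Subgroup G) :=
        hHp.to_sup_of_normal_left' hzp (Subgroup.zpowers_le.2 hz)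
      obtain ⟨Q, hQ⟩ := hK.exists_le_sylow
      obtain ⟨h, hh⟩ := MulAction.exists_smul_eq G Q P
      have hconj : ∀ a ∈ (Q : Subgroup G), h * a * h⁻¹ ∈ (P : Subgroup G) := by
        intro a ha
        rw [← hh, Sylow.coe_subgroup_smul]
        exact Subgroup.smul_mem_pointwise_smul a (MulAut.conj h) _ ha
      have hxQ : x ∈ (Q : Subgroup G) :=
        hQ (Subgroup.mem_sup_left (Subgroup.mem_zpowers x))
      have hzQ : z ∈ (Q : Subgroup G) :=
        hQ (Subgroup.mem_sup_right (Subgroup.mem_zpowers z))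
      let y : (P : Subgroup G) := ⟨h * x * h⁻¹, hconj x hxQ⟩
      let w : (P : Subgroup G) := ⟨h * z * h⁻¹, hconj z hzQ⟩
      have h1 : w * y * w⁻¹ ∈ Subgroup.zpowers y := by
        obtain ⟨i, hi⟩ := (Subgroup.mem_normalizer_iff.1 hz x).1 (Subgroup.mem_zpowers x)
        refine ⟨i, ?_⟩
        apply Subtype.ext
        simp only [y, w, Subgroup.coe_zpow, Subgroup.coe_mul, Subgroup.coe_inv]
        rw [conj_zpow]
        have hi' : x ^ i = z * x * z⁻¹ := hi
        rw [hi']
        group
      have h2 := hyp y (mem_normalizer_zpowers h1)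
      rw [Subgroup.mem_centralizer_singleton_iff] at h2
      have h3 := congrArg Subtype.val h2
      simp only [y, w, Subgroup.coe_mul] at h3
      have h4 : h * (z * x) * h⁻¹ = h * (x * z) * h⁻¹ := by
        calc h * (z * x) * h⁻¹ = h * z * h⁻¹ * (h * x * h⁻¹) := by group
          _ = h * x * h⁻¹ * (h * z * h⁻¹) := h3
          _ = h * (x * z) * h⁻¹ := by group
      simpa using h4
    -- the automorphism group of a cyclic 2-group is a 2-group
    have hAut : IsPGroup 2 (MulAut (Subgroup.zpowers x)) := by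
      rw [IsPGroup.iff_card, IsCyclic.card_mulAut, Nat.card_zpowers, hxo]
      rcases Nat.eq_zero_or_pos k with h0 | hpos
      · exact ⟨0, by simp [h0]⟩
      · refine ⟨k - 1, ?_⟩
        rw [Nat.totient_prime_pow Nat.prime_two hpos]
        simp
    -- odd part
    obtain ⟨a, m, hmodd, hgm⟩ : ∃ a m : ℕ, Odd m ∧ orderOf g = 2 ^ a * m := by
      obtain ⟨a, m, hm, h⟩ := Nat.exists_eq_two_pow_mul_odd (orderOf_pos g).ne'
      exact ⟨a, m, hm, h⟩
    have hz : (g ^ m) * x = x * (g ^ m) := by
      apply key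
      · refine ⟨a, ?_⟩
        rw [← pow_mul, mul_comm, ← hgm, pow_orderOf_eq_one]
      · exact Subgroup.pow_mem _ hg m
    let y : Subgroup.normalizer ((Subgroup.zpowers x : Subgroup G) : Set G) := ⟨g, hg⟩
    let φ := (Subgroup.zpowers x).normalizerMonoidHom
    have hker : ∀ u : Subgroup.normalizer ((Subgroup.zpowers x : Subgroup G) : Set G),
        φ u = 1 ↔ (u : G) * x = x * u := by
      intro u
      have h1 : φ u = 1 ↔ u ∈ φ.ker := MonoidHom.mem_ker.symm
      rw [h1, Subgroup.normalizerMonoidHom_ker, Subgroup.mem_subgroupOf]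
      constructor
      · intro hu
        have := Subgroup.mem_centralizer_iff.1 hu x (Subgroup.mem_zpowers x)
        exact this.symm
      · intro hu
        rw [Subgroup.mem_centralizer_iff]
        rintro _ ⟨i, rfl⟩
        exact ((Commute.zpow_right (show Commute (u : G) x from hu) i)).symm.eq
    have h5 : φ (y ^ m) = 1 := by
      rw [hker]
      exact hz
    rw [map_pow] at h5
    obtain ⟨s, hs⟩ := (IsPGroup.iff_orderOf.1 hAut) (φ y)
    have h6 : orderOf (φ y) ∣ m := orderOf_dvd_of_pow_eq_one h5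
    rw [hs] at h6
    have hs0 : s = 0 := by
      by_contra hs0
      have h7 : 2 ∣ m := (dvd_pow_self 2 hs0).trans h6
      exact (Nat.not_even_iff_odd.2 hmodd) (even_iff_two_dvd.2 h7)
    have h8 : φ y = 1 := by
      rw [← orderOf_eq_one_iff, hs, hs0, pow_zero]
    have h9 := (hker y).1 h8
    rw [Subgroup.mem_centralizer_singleton_iff]
    exact h9

end Cfsg.Agent.S4028
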