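import Cfsg.Statements.S4029
import Mathlib
import Cfsg.Agent.S0160
import Cfsg.Agent.Lib.PGroup.Basic
import Cfsg.Agent.Lib.Char.LinearChars

set_option autoImplicit false
open Cfsg

namespace Cfsg.Agent.S4029

theorem real_cases {P : Type*} [Group P]
    (hirr : ∀ y : P, Subgroup.normalizer ((Subgroup.zpowers y : Subgroup P) : Set P) ≤ Subgroup.centralizer {y})
    (x : P) (hx : IsConj x x⁻¹) : x = 1 ∨ orderOf x = 2 := by
  obtain ⟨c, hc⟩ := isConj_iff.1 hx
  have hc' : c⁻¹ * x * c = x⁻¹ := by
    have h1 : x = c⁻¹ * x⁻¹ * c := by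
      rw [← hc]
      group
    have h2 : x⁻¹ = c⁻¹ * x * c := by
      conv_lhs => rw [h1]
      group
    exact h2.symm
  have hn : c ∈ Subgroup.normalizer ((Subgroup.zpowers x : Subgroup P) : Set P) := by
    rw [Subgroup.mem_normalizer_iff]
    intro h
    simp only [SetLike.mem_coe, Subgroup.mem_zpowers_iff]
    constructor
    · rintro ⟨n, rfl⟩
      refine ⟨-n, ?_⟩
      rw [← conj_zpow, hc, inv_zpow, zpow_neg]
    · rintro ⟨n, hn⟩
      refine ⟨-n, ?_⟩
      have h1 : h = c⁻¹ * x ^ n * c := by
        rw [hn]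
        group
      rw [h1]
      have h2 := conj_zpow (a := c⁻¹) (b := x) (i := n)
      rw [inv_inv] at h2
      rw [← h2, hc', inv_zpow, zpow_neg]
  have hcen := hirr x hn
  rw [Subgroup.mem_centralizer_iff] at hcen
  have h1 : x * c = c * x := hcen x (Set.mem_singleton x)
  have h2 : x = x⁻¹ := by
    rw [← hc, ← h1]
    group
  have h3 : x ^ 2 = 1 := by
    rw [sq]
    nth_rewrite 2 [h2]
    exact mul_inv_cancel x
  have h4 : orderOf x ∣ 2 := orderOf_dvd_of_pow_eq_one h3
  rcases (Nat.dvd_prime Nat.prime_two).1 h4 with h | h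
  · left
    exact orderOf_eq_one_iff.1 h
  · exact Or.inr h

open Cfsg.Agent.Lib.PGroup.Basic Cfsg.Agent.Lib.Char.LinearChars in

/-- Let P be a finite 2-group in which N_P(⟨y⟩) = C_P(y) for every y ∈ P. If s is the number of conjugacy classes of involutions of P, then #(P/Φ(P)) ≤ s + 1; in particular the subgroup generated by the involutions of P has order at least #(P/Φ(P)). -/
theorem result {P : Type*} [Group P] [Finite P] (hP : IsPGroup 2 P)
    (hirr : ∀ y : P, Subgroup.normalizer ((Subgroup.zpowers y : Subgroup P) : Set P) ≤ Subgroup.centralizer {y}) :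
    Nat.card (P ⧸ frattini P) ≤ Nat.card {c : ConjClasses P // ∃ y : P, ConjClasses.mk y = c ∧ orderOf y = 2} + 1 ∧
    Nat.card (P ⧸ frattini P) ≤ Nat.card (Subgroup.closure {y : P | orderOf y = 2}) := by
  classical
  haveI : Fact (Nat.Prime 2) := ⟨Nat.prime_two⟩
  haveI hnorm : (frattini P).Normal := inferInstance
  have hA2 : ∀ a : P ⧸ frattini P, a * a = 1 := by
    intro a
    obtain ⟨x, rfl⟩ := QuotientGroup.mk_surjective a
    rw [← QuotientGroup.mk_mul, QuotientGroup.eq_one_iff, ← sq]
    exact pow_mem_frattini hP x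
  have hAcomm : ∀ a b : P ⧸ frattini P, a * b = b * a := by
    intro a b
    have h1 := hA2 (a * b)
    have h2 : ∀ c : P ⧸ frattini P, c⁻¹ = c := fun c => inv_eq_of_mul_eq_one_left (hA2 c)
    calc a * b = (a * b)⁻¹ := (h2 _).symm
      _ = b⁻¹ * a⁻¹ := mul_inv_rev a b
      _ = b * a := by rw [h2, h2]
  letI instC : CommGroup (P ⧸ frattini P) :=
    { (inferInstance : Group (P ⧸ frattini P)) with mul_comm := hAcomm }
  have hcardHom : Nat.card ((P ⧸ frattini P) →* ℂˣ) = Nat.card (P ⧸ frattini P) :=
    CommGroup.card_monoidHom_of_hasEnoughRootsOfUnity _ ℂ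
  -- real irreducibles
  let F : ((P ⧸ frattini P) →* ℂˣ) → {χ : Cfsg.IrrCharacter P // ∀ g : P, ((χ : P → ℂ) g).im = 0} :=
    fun ω => ⟨⟨fun g => ((ω (g : P ⧸ frattini P) : ℂˣ) : ℂ), isIrr_of_hom (ω.comp (QuotientGroup.mk' (frattini P)))⟩, by
      intro g
      show (((ω (g : P ⧸ frattini P) : ℂˣ) : ℂ)).im = 0
      have h1 : (ω (g : P ⧸ frattini P)) * (ω (g : P ⧸ frattini P)) = 1 := by
        rw [← map_mul, hA2, map_one]
      have h2 : ((ω (g : P ⧸ frattini P) : ℂˣ) : ℂ) * ((ω (g : P ⧸ frattini P) : ℂˣ) : ℂ) = 1 := by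
        rw [← Units.val_mul, h1, Units.val_one]
      rcases mul_self_eq_one_iff.1 h2 with h | h
      · rw [h]
        simp
      · rw [h]
        simp⟩
  have hFinj : Function.Injective F := by
    intro ω ω' h
    ext g
    have h1 := congrArg (fun x => (x.1 : P → ℂ) g) h
    exact h1
  have h1 : Nat.card (P ⧸ frattini P) ≤ Nat.card {χ : Cfsg.IrrCharacter P // ∀ g : P, ((χ : P → ℂ) g).im = 0} := by
    rw [← hcardHom]
    exact Nat.card_le_card_of_injective F hFinj
  have h2 := Cfsg.Agent.S0160.result (G := P)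
  -- classes
  let S := {c : ConjClasses P // ∃ y : P, ConjClasses.mk y = c ∧ orderOf y = 2}
  let H : {C : ConjClasses P // ∀ g : P, ConjClasses.mk g = C → IsConj g g⁻¹} → Option S :=
    fun C => if h : ∃ y : P, ConjClasses.mk y = C.1 ∧ orderOf y = 2 then some ⟨C.1, h⟩ else none
  have hone : ∀ C : {C : ConjClasses P // ∀ g : P, ConjClasses.mk g = C → IsConj g g⁻¹},
      (¬ ∃ y : P, ConjClasses.mk y = C.1 ∧ orderOf y = 2) → C.1 = ConjClasses.mk 1 := by
    intro C hC
    obtain ⟨x, hx⟩ := ConjClasses.mk_surjective C.1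
    rcases real_cases hirr x (C.2 x hx) with h | h
    · rw [← hx, h]
    · exact absurd ⟨x, hx, h⟩ hC
  have hHinj : Function.Injective H := by
    intro C D h
    apply Subtype.ext
    by_cases h1 : ∃ y : P, ConjClasses.mk y = C.1 ∧ orderOf y = 2
    · by_cases h2 : ∃ y : P, ConjClasses.mk y = D.1 ∧ orderOf y = 2
      · simp only [H, dif_pos h1, dif_pos h2, Option.some.injEq] at h
        exact Subtype.mk.inj h
      · simp [H, dif_pos h1, dif_neg h2] at h
    · by_cases h2 : ∃ y : P, ConjClasses.mk y = D.1 ∧ orderOf y = 2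
      · simp [H, dif_neg h1, dif_pos h2] at h
      · rw [hone C h1, hone D h2]
  have h3 : Nat.card {C : ConjClasses P // ∀ g : P, ConjClasses.mk g = C → IsConj g g⁻¹} ≤ Nat.card S + 1 := by
    rw [← Finite.card_option]
    exact Nat.card_le_card_of_injective H hHinj
  -- the closure
  let J : Option S → Subgroup.closure {y : P | orderOf y = 2} :=
    fun c => match c with
      | none => 1
      | some c => ⟨c.2.choose, Subgroup.subset_closure c.2.choose_spec.2⟩
  have hJinj : Function.Injective J := by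
    intro a b h
    match a, b, h with
    | none, none, _ => rfl
    | none, some c, h =>
      exfalso
      have h1 : (1 : P) = c.2.choose := congrArg Subtype.val h
      have h2 := c.2.choose_spec.2
      rw [← h1] at h2
      simp at h2
    | some c, none, h =>
      exfalso
      have h1 : c.2.choose = (1 : P) := congrArg Subtype.val h
      have h2 := c.2.choose_spec.2
      rw [h1] at h2
      simp at h2
    | some c, some d, h =>
      have h1 : c.2.choose = d.2.choose := congrArg Subtype.val h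
      have h2 := c.2.choose_spec.1
      have h3 := d.2.choose_spec.1
      rw [h1, h3] at h2
      exact congrArg some (Subtype.ext h2.symm)
  have h4 : Nat.card S + 1 ≤ Nat.card (Subgroup.closure {y : P | orderOf y = 2}) := by
    rw [← Finite.card_option]
    exact Nat.card_le_card_of_injective J hJinj
  have h5 : Nat.card (P ⧸ frattini P) ≤ Nat.card S + 1 := by
    rw [h2] at h1
    exact h1.trans h3
  exact ⟨h5, h5.trans h4⟩

end Cfsg.Agent.S4029
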