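import Cfsg.Statements.S4032
import Cfsg.Agent.Lib.Coprime.Coset
import Mathlib

set_option autoImplicit false
open Cfsg

namespace Cfsg.Agent.S4032

/-- Lift a `π`-element to a `π`-element. -/
theorem exists_pi_lift {G : Type*} [Group G] [Finite G] (π : Set ℕ)
    (N : Subgroup G) [N.Normal] (y : G ⧸ N) (hy : ∀ r : ℕ, r.Prime → r ∣ orderOf y → r ∈ π) :
    ∃ x : G, (∀ r : ℕ, r.Prime → r ∣ orderOf x → r ∈ π) ∧ (x : G ⧸ N) = y := by
  classical
  obtain ⟨x₀, hx₀⟩ := QuotientGroup.mk_surjective y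
  suffices h : ∀ n : ℕ, ∀ x : G, orderOf x = n → (x : G ⧸ N) = y →
      ∃ x' : G, (∀ r : ℕ, r.Prime → r ∣ orderOf x' → r ∈ π) ∧ (x' : G ⧸ N) = y from
    h _ x₀ rfl hx₀
  intro n
  induction n using Nat.strong_induction_on with
  | _ n ih =>
    intro x hxn hxy
    by_cases hall : ∀ r : ℕ, r.Prime → r ∣ orderOf x → r ∈ π
    · exact ⟨x, hall, hxy⟩
    · push Not at hall
      obtain ⟨r, hr, hrx, hrπ⟩ := hall
      have hnpos : 0 < orderOf x := orderOf_pos x
      obtain ⟨e, n', hn', hfac⟩ := Nat.exists_eq_pow_mul_and_not_dvd hnpos.ne' r hr.ne_one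
      have hry : ¬ r ∣ orderOf y := fun h => hrπ (hy r hr h)
      have hcop : (r ^ e).Coprime (orderOf y) :=
        Nat.Coprime.pow_left e ((Nat.Prime.coprime_iff_not_dvd hr).mpr hry)
      obtain ⟨s, t, hst⟩ := Nat.isCoprime_iff_coprime.mpr hcop
      set x' : G := x ^ (((r ^ e : ℕ) : ℤ) * s) with hx'
      have himg : (x' : G ⧸ N) = y := by
        rw [hx', QuotientGroup.mk_zpow, hxy]
        have h3 : ((r ^ e : ℕ) : ℤ) * s = 1 - t * (orderOf y : ℤ) := by linarith
        rw [h3, zpow_sub, zpow_one, mul_comm t, zpow_mul, zpow_natCast, pow_orderOf_eq_one]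
        simp
      have he : e ≠ 0 := by
        rintro rfl
        apply hn'
        have : n' = orderOf x := by simpa using hfac.symm
        rw [this]
        exact hrx
      have hn'pos : 0 < n' := by
        rcases Nat.eq_zero_or_pos n' with h | h
        · rw [h, mul_zero] at hfac
          omega
        · exact h
      have hord : orderOf x' ∣ n' := by
        apply orderOf_dvd_of_pow_eq_one
        rw [hx', ← zpow_natCast, ← zpow_mul]
        have h3 : ((r ^ e : ℕ) : ℤ) * s * (n' : ℤ) = ((orderOf x : ℕ) : ℤ) * s := by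
          rw [hfac]; push_cast; ring
        rw [h3, zpow_mul, zpow_natCast, pow_orderOf_eq_one, one_zpow]
      have hlt : orderOf x' < n := by
        have h1 : orderOf x' ≤ n' := Nat.le_of_dvd hn'pos hord
        have h2 : 2 ≤ r ^ e := by
          calc 2 ≤ r := hr.two_le
            _ = r ^ 1 := (pow_one r).symm
            _ ≤ r ^ e := Nat.pow_le_pow_right hr.pos (Nat.one_le_iff_ne_zero.mpr he)
        have h4 : orderOf x = r ^ e * n' := hfac
        rw [← hxn, h4]
        nlinarith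
      exact ih _ hlt x' rfl himg

/-- Let π be a set of primes and G a finite group in which N_G(⟨x⟩) = C_G(x) for every π-element x. If N is a normal subgroup of G whose order is divisible by no prime of π, then G/N has the same property: N_{G/N}(⟨y⟩) = C_{G/N}(y) for every π-element y of G/N. -/
theorem result {G : Type*} [Group G] [Finite G] (π : Set ℕ)
    (hirr : ∀ x : G, (∀ r : ℕ, r.Prime → r ∣ orderOf x → r ∈ π) →
      Subgroup.normalizer ((Subgroup.zpowers x : Subgroup G) : Set G) ≤ Subgroup.centralizer {x})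
    (N : Subgroup G) [N.Normal] (hN : ∀ r : ℕ, r.Prime → r ∣ Nat.card N → r ∉ π) :
    ∀ y : G ⧸ N, (∀ r : ℕ, r.Prime → r ∣ orderOf y → r ∈ π) →
      Subgroup.normalizer ((Subgroup.zpowers y : Subgroup (G ⧸ N)) : Set (G ⧸ N)) ≤ Subgroup.centralizer {y} := by
  classical
  intro y hy z hz
  obtain ⟨x, hxπ, hxy⟩ := exists_pi_lift π N y hy
  obtain ⟨w, rfl⟩ := QuotientGroup.mk_surjective z
  have hNnorm : (N : Subgroup G).Normal := inferInstance
  set A := Subgroup.zpowers x with hA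
  have hAN : A ≤ Subgroup.normalizer (N : Set G) := by
    rw [Subgroup.normalizer_eq_top_iff.mpr hNnorm]; exact le_top
  have hcop : (Nat.card A).Coprime (Nat.card N) := by
    rw [hA, Nat.card_zpowers]
    apply Nat.coprime_of_dvd
    intro r hr h1 h2
    exact hN r hr h2 (hxπ r hr h1)
  have hsolv : Group.IsSolvable A ∨ Group.IsSolvable N := Or.inl inferInstance
  set A' := A.map (MulAut.conj w).toMonoidHom with hA'
  have hA'le : A' ≤ N ⊔ A := by
    rintro _ ⟨e, he, rfl⟩
    obtain ⟨j, rfl⟩ := Subgroup.mem_zpowers_iff.mp he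
    show w * x ^ j * w⁻¹ ∈ N ⊔ A
    have h1 : ((w * x ^ j * w⁻¹ : G) : G ⧸ N) ∈ Subgroup.zpowers y := by
      rw [QuotientGroup.mk_mul, QuotientGroup.mk_mul, QuotientGroup.mk_zpow, hxy, QuotientGroup.mk_inv]
      exact (Subgroup.mem_normalizer_iff.mp hz _).mp (Subgroup.zpow_mem_zpowers y j)
    obtain ⟨i, hi⟩ := Subgroup.mem_zpowers_iff.mp h1
    have h2 : ((x ^ i : G) : G ⧸ N) = ((w * x ^ j * w⁻¹ : G) : G ⧸ N) := by
      rw [QuotientGroup.mk_zpow, hxy, hi]
    have h3 : (x ^ i)⁻¹ * (w * x ^ j * w⁻¹) ∈ N := QuotientGroup.eq.mp h2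
    have h4 : w * x ^ j * w⁻¹ = x ^ i * ((x ^ i)⁻¹ * (w * x ^ j * w⁻¹)) := by group
    rw [h4, sup_comm]
    exact Subgroup.mul_mem_sup (Subgroup.zpow_mem_zpowers x i) h3
  have hA'card : Nat.card A' = Nat.card A :=
    Nat.card_congr (Subgroup.equivMapOfInjective A _ (MulEquiv.injective _)).toEquiv.symm
  obtain ⟨n, hn, hmap⟩ := Cfsg.Agent.Lib.Coprime.Coset.exists_conj_eq_of_card_eq hAN hcop hsolv hA'le hA'card
  -- n⁻¹ w normalizes A
  have hnorm : n⁻¹ * w ∈ Subgroup.normalizer (A : Set G) := by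
    rw [Subgroup.mem_normalizer_iff_map_conj_eq]
    show A.map (MulAut.conj (n⁻¹ * w)).toMonoidHom = A
    have h5 : A.map (MulAut.conj (n⁻¹ * w)).toMonoidHom
        = (A.map (MulAut.conj w).toMonoidHom).map (MulAut.conj n⁻¹).toMonoidHom := by
      rw [Subgroup.map_map]
      congr 1
      ext g
      simp [MulAut.conj_apply, mul_assoc]
    rw [h5, ← hA', ← hmap, Subgroup.map_map]
    have h6 : (MulAut.conj n⁻¹).toMonoidHom.comp (MulAut.conj n).toMonoidHom = MonoidHom.id G := by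
      ext g
      simp [MulAut.conj_apply, mul_assoc]
    rw [h6, Subgroup.map_id]
  have hcent := hirr x hxπ hnorm
  have hcomm : x * (n⁻¹ * w) = (n⁻¹ * w) * x :=
    (Subgroup.mem_centralizer_iff.mp hcent) x (Set.mem_singleton x)
  have himg : ((n⁻¹ * w : G) : G ⧸ N) = (w : G ⧸ N) := by
    rw [QuotientGroup.mk_mul, QuotientGroup.mk_inv]
    have : (n : G ⧸ N) = 1 := (QuotientGroup.eq_one_iff n).mpr hn
    rw [this]
    simp
  rw [Subgroup.mem_centralizer_iff]
  intro t ht
  rw [Set.mem_singleton_iff] at ht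
  rw [ht]
  calc y * (w : G ⧸ N) = (x : G ⧸ N) * ((n⁻¹ * w : G) : G ⧸ N) := by rw [himg, hxy]
    _ = ((x * (n⁻¹ * w) : G) : G ⧸ N) := rfl
    _ = (((n⁻¹ * w) * x : G) : G ⧸ N) := by rw [hcomm]
    _ = ((n⁻¹ * w : G) : G ⧸ N) * (x : G ⧸ N) := rfl
    _ = (w : G ⧸ N) * y := by rw [himg, hxy]

end Cfsg.Agent.S4032
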