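import Cfsg.Statements.S4034
import Mathlib
import Cfsg.Agent.Lib.Char.Burnside2
import Cfsg.Agent.Lib.Nilpotent.Fitting
import Cfsg.Agent.Lib.Solvable.Hall
import Cfsg.Agent.S0044

set_option autoImplicit false
set_option linter.style.haveILetI false
open Cfsg

namespace Cfsg.Agent.S4034

universe u

/-- The size of a conjugacy class is the index of the centraliser. -/
theorem ncard_carrier_eq_index {G : Type u} [Group G] (x : G) :
    (ConjClasses.mk x).carrier.ncard = (Subgroup.centralizer ({x} : Set G)).index := by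
  have h := MulAction.index_stabilizer (ConjAct G) x
  rw [ConjAct.orbit_eq_carrier_conjClasses] at h
  rw [← h]
  have h2 : (Subgroup.centralizer ({x} : Set G)) =
      (MulAction.stabilizer (ConjAct G) x : Subgroup (ConjAct G)) := by
    ext g
    rw [Subgroup.mem_centralizer_singleton_iff]
    have h3 : (g ∈ (MulAction.stabilizer (ConjAct G) x : Subgroup (ConjAct G))) ↔
        g * x * g⁻¹ = x := Iff.rfl
    refine Iff.trans ?_ h3.symm
    constructor
    · intro h; rw [h]; group
    · intro h; nth_rw 2 [← h]; group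
  rw [h2]
  rfl

/-- Property: all `p'`-elements have `p`-power class size. -/
def PA (p : ℕ) (G : Type u) [Group G] : Prop :=
  ∀ x : G, (orderOf x).Coprime p → ∃ k : ℕ, (Subgroup.centralizer ({x} : Set G)).index = p ^ k

theorem pa_normal {p : ℕ} (hp : p.Prime) {G : Type u} [Group G] [Finite G] (N : Subgroup G)
    [N.Normal] (h : PA p G) : PA p N := by
  intro x hx
  have hx' : (orderOf (x : G)).Coprime p := by rwa [Subgroup.orderOf_coe]
  obtain ⟨k, hk⟩ := h x hx'
  have hC : Subgroup.centralizer ({x} : Set N) =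
      (Subgroup.centralizer ({(x : G)} : Set G)).subgroupOf N := by
    ext y
    rw [Subgroup.mem_centralizer_singleton_iff, Subgroup.mem_subgroupOf,
      Subgroup.mem_centralizer_singleton_iff]
    constructor
    · intro h; exact congrArg Subtype.val h
    · intro h; exact Subtype.ext h
  have hd : (Subgroup.centralizer ({(x : G)} : Set G)).relIndex N ∣ p ^ k := by
    rw [← hk]
    exact Cfsg.Agent.Lib.Nilpotent.Fitting.relIndex_dvd_index_of_normal_right _
  obtain ⟨j, _, hj⟩ := (Nat.dvd_prime_pow hp).1 hd
  exact ⟨j, by rw [hC]; exact hj⟩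

theorem pa_quotient {p : ℕ} (hp : p.Prime) {G : Type u} [Group G] [Finite G] (N : Subgroup G)
    [N.Normal] (h : PA p G) : PA p (G ⧸ N) := by
  intro y hy
  obtain ⟨x₀, rfl⟩ := QuotientGroup.mk_surjective y
  obtain ⟨a, u, hu, hou⟩ := Nat.exists_eq_pow_mul_and_not_dvd (orderOf_pos x₀).ne' p hp.ne_one
  set x : G := x₀ ^ (p ^ a) with hx
  have hxu : x ^ u = 1 := by
    rw [hx, ← pow_mul, ← hou, pow_orderOf_eq_one]
  have hxc : (orderOf x).Coprime p :=
    Nat.Coprime.coprime_dvd_left (orderOf_dvd_of_pow_eq_one hxu)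
      ((Nat.Prime.coprime_iff_not_dvd hp).2 hu).symm
  obtain ⟨k, hk⟩ := h x hxc
  set y : G ⧸ N := (x₀ : G ⧸ N) with hy'
  have hcop : (p ^ a).Coprime (orderOf y) := (Nat.Coprime.pow_left a hy.symm)
  obtain ⟨m, hm⟩ := exists_pow_eq_self_of_coprime hcop
  have hmkx : ((x : G) : G ⧸ N) = y ^ (p ^ a) := by
    rw [hx]; rfl
  have hle1 : (Subgroup.centralizer ({(x : G)} : Set G)).map (QuotientGroup.mk' N) ≤
      Subgroup.centralizer ({y} : Set (G ⧸ N)) := by
    rintro _ ⟨c, hc, rfl⟩
    rw [SetLike.mem_coe, Subgroup.mem_centralizer_singleton_iff] at hc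
    rw [Subgroup.mem_centralizer_singleton_iff]
    have h1 : (QuotientGroup.mk' N c) * (y ^ (p ^ a)) = (y ^ (p ^ a)) * (QuotientGroup.mk' N c) := by
      rw [← hmkx]
      have := congrArg (QuotientGroup.mk' N) hc
      rw [map_mul, map_mul] at this
      exact this
    have h2 : Commute (QuotientGroup.mk' N c) (y ^ (p ^ a)) := h1
    have h3 := h2.pow_right m
    rw [hm] at h3
    exact h3
  have hd : (Subgroup.centralizer ({y} : Set (G ⧸ N))).index ∣ p ^ k := by
    rw [← hk]
    exact (Subgroup.index_dvd_of_le hle1).trans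
      (Subgroup.index_map_dvd _ (QuotientGroup.mk'_surjective N))
  obtain ⟨j, _, hj⟩ := (Nat.dvd_prime_pow hp).1 hd
  exact ⟨j, hj⟩

theorem isSolvable_of_pa {p : ℕ} (hp : p.Prime) :
    ∀ (n : ℕ) (G : Type u) [Group G] [Finite G], Nat.card G = n → PA p G → Group.IsSolvable G := by
  intro n
  induction n using Nat.strong_induction_on with
  | _ n ih =>
    intro G _ _ hn hA
    classical
    by_cases hnt : Nontrivial G
    swap
    · rw [not_nontrivial_iff_subsingleton] at hnt
      infer_instance
    by_cases hsimple : IsSimpleGroup G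
    · by_cases hpg : ∃ g : G, g ≠ 1 ∧ (orderOf g).Coprime p
      · obtain ⟨g, hg, hc⟩ := hpg
        obtain ⟨k, hk⟩ := hA g hc
        have hprime := Cfsg.Agent.Lib.Char.Burnside2.prime_card_of_simple_of_prime_power_class
          p k hp g hg hk
        have hcyc : IsCyclic G := isCyclic_of_prime_card (p := Nat.card G) (hp := ⟨hprime⟩) rfl
        let _ := IsCyclic.commGroup (α := G)
        infer_instance
      · haveI : Fact p.Prime := ⟨hp⟩
        have hP : IsPGroup p G := by
          rw [IsPGroup.iff_orderOf]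
          intro g
          obtain ⟨a, u, hu, hou⟩ := Nat.exists_eq_pow_mul_and_not_dvd (orderOf_pos g).ne' p hp.ne_one
          have hxu : (g ^ (p ^ a)) ^ u = 1 := by
            rw [← pow_mul, ← hou, pow_orderOf_eq_one]
          have hxc : (orderOf (g ^ (p ^ a))).Coprime p :=
            Nat.Coprime.coprime_dvd_left (orderOf_dvd_of_pow_eq_one hxu)
              ((Nat.Prime.coprime_iff_not_dvd hp).2 hu).symm
          have hg1 : g ^ (p ^ a) = 1 := by
            by_contra hne
            exact hpg ⟨_, hne, hxc⟩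
          obtain ⟨j, _, hj⟩ := (Nat.dvd_prime_pow hp).1 (orderOf_dvd_of_pow_eq_one hg1)
          exact ⟨j, hj⟩
        haveI := hP.isNilpotent
        infer_instance
    · obtain ⟨N, hN, hN1, hN2⟩ : ∃ N : Subgroup G, N.Normal ∧ N ≠ ⊥ ∧ N ≠ ⊤ := by
        by_contra hcon
        push Not at hcon
        apply hsimple
        exact { eq_bot_or_eq_top_of_normal := fun H hH => by
                  by_cases h : H = ⊥
                  · exact Or.inl h
                  · exact Or.inr (hcon H hH h) }
      haveI := hN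
      have hNlt : Nat.card N < n := by
        rw [← hn]
        apply lt_of_le_of_ne (Subgroup.card_le_card_group N)
        intro h
        exact hN2 (Subgroup.eq_top_of_card_eq N h)
      have hQlt : Nat.card (G ⧸ N) < n := by
        rw [← hn, Subgroup.card_eq_card_quotient_mul_card_subgroup N]
        have h1 : 1 ≠ Nat.card N := by
          intro h
          exact hN1 ((Subgroup.eq_bot_iff_card N).2 h.symm)
        exact (Nat.lt_mul_iff_one_lt_right Nat.card_pos).2 (lt_of_le_of_ne Nat.card_pos h1)
      have hN' : Group.IsSolvable N := ih _ hNlt N rfl (pa_normal hp N hA)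
      have hQ' : Group.IsSolvable (G ⧸ N) := ih _ hQlt (G ⧸ N) rfl (pa_quotient hp N hA)
      exact Group.isSolvable_of_ker_le_range N.subtype (QuotientGroup.mk' N) (by simp)

/-- Core: under `PA`, all `p'`-subgroups are commutative. -/
theorem commute_of_pa {p : ℕ} (hp : p.Prime) :
    ∀ (n : ℕ) (G : Type u) [Group G] [Finite G], Nat.card G = n → PA p G →
      ∀ H : Subgroup G, (Nat.card H).Coprime p → ∀ a ∈ H, ∀ b ∈ H, a * b = b * a := by
  intro n
  induction n using Nat.strong_induction_on with
  | _ n ih =>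
    intro G _ _ hn hA H hH a ha b hb
    classical
    haveI : Fact p.Prime := ⟨hp⟩
    haveI hS : Group.IsSolvable G := isSolvable_of_pa hp _ G rfl hA
    have hord : ∀ c ∈ H, (orderOf c).Coprime p := by
      intro c hc
      exact Nat.Coprime.coprime_dvd_left (Subgroup.orderOf_dvd_natCard H hc) hH
    by_cases hO : Cfsg.pCore p G = ⊥
    · -- every `p'`-element centralises `F(G)`
      have key : ∀ y : G, (orderOf y).Coprime p →
          Cfsg.fittingSubgroup G ≤ Subgroup.centralizer ({y} : Set G) := by
        intro y hy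
        rw [Cfsg.Agent.Lib.Nilpotent.Fitting.fittingSubgroup_eq_iSup_primes]
        apply iSup_le
        rintro ⟨r, hr⟩
        show Cfsg.pCore r G ≤ _
        by_cases hrp : r = p
        · subst hrp
          rw [hO]
          exact bot_le
        haveI : Fact r.Prime := ⟨hr⟩
        haveI : (Cfsg.pCore r G).Normal := Cfsg.Agent.Lib.Nilpotent.Fitting.pCore_normal r
        obtain ⟨k, hk⟩ := hA y hy
        have h1 : (Subgroup.centralizer ({y} : Set G)).relIndex (Cfsg.pCore r G) ∣ p ^ k := by
          rw [← hk]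
          exact Cfsg.Agent.Lib.Nilpotent.Fitting.relIndex_dvd_index_of_normal_right _
        have hRg : IsPGroup r (Cfsg.pCore r G) := Cfsg.Agent.Lib.Nilpotent.Fitting.isPGroup_pCore r
        obtain ⟨m, hm⟩ := IsPGroup.iff_card.1 hRg
        have h2 : (Subgroup.centralizer ({y} : Set G)).relIndex (Cfsg.pCore r G) ∣ r ^ m := by
          rw [← hm]
          exact Subgroup.index_dvd_card _
        have hco : Nat.Coprime (r ^ m) (p ^ k) :=
          Nat.Coprime.pow _ _ ((Nat.coprime_primes hr hp).2 hrp)
        have h3 := Nat.eq_one_of_dvd_coprimes hco h2 h1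
        exact Subgroup.relIndex_eq_one.1 h3
      have ha1 : a ∈ Cfsg.fittingSubgroup G := by
        apply Cfsg.Agent.S0044.result
        rw [Subgroup.mem_centralizer_iff]
        intro h hh
        have := key a (hord a ha) hh
        rw [Subgroup.mem_centralizer_singleton_iff] at this
        exact this
      have := key b (hord b hb) ha1
      rw [Subgroup.mem_centralizer_singleton_iff] at this
      exact this
    · set O := Cfsg.pCore p G with hOdef
      haveI : O.Normal := Cfsg.Agent.Lib.Nilpotent.Fitting.pCore_normal p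
      have hOg : IsPGroup p O := Cfsg.Agent.Lib.Nilpotent.Fitting.isPGroup_pCore p
      have hQlt : Nat.card (G ⧸ O) < n := by
        rw [← hn, Subgroup.card_eq_card_quotient_mul_card_subgroup O]
        have h1 : 1 ≠ Nat.card O := by
          intro h
          exact hO ((Subgroup.eq_bot_iff_card O).2 h.symm)
        exact (Nat.lt_mul_iff_one_lt_right Nat.card_pos).2 (lt_of_le_of_ne Nat.card_pos h1)
      have hHbar : (Nat.card (H.map (QuotientGroup.mk' O))).Coprime p :=
        Nat.Coprime.coprime_dvd_left (Subgroup.card_map_dvd H _) hH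
      have h1 := ih _ hQlt (G ⧸ O) rfl (pa_quotient hp O hA) _ hHbar
        (QuotientGroup.mk' O a) ⟨a, ha, rfl⟩ (QuotientGroup.mk' O b) ⟨b, hb, rfl⟩
      have h2 : (b * a)⁻¹ * (a * b) ∈ O := by
        rw [← QuotientGroup.eq]
        have := h1
        simpa only [QuotientGroup.mk'_apply, QuotientGroup.mk_mul] using this.symm
      have h3 : (b * a)⁻¹ * (a * b) ∈ H := H.mul_mem (H.inv_mem (H.mul_mem hb ha)) (H.mul_mem ha hb)
      have h4 : (b * a)⁻¹ * (a * b) = 1 := by
        set e := (b * a)⁻¹ * (a * b) with he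
        obtain ⟨k, hk⟩ := IsPGroup.iff_orderOf.1 hOg ⟨e, h2⟩
        rw [Subgroup.orderOf_mk] at hk
        have h5 := hord e h3
        rw [hk] at h5
        have h6 : k = 0 := by
          by_contra h0
          have := Nat.Coprime.coprime_dvd_left (dvd_pow_self p h0) h5
          simp [hp.ne_one] at this
        rw [h6, pow_zero] at hk
        exact orderOf_eq_one_iff.1 hk
      have h5 := inv_mul_eq_one.1 h4
      exact h5.symm

/-- Every `p'`-element is conjugate into an abelian Hall `p'`-subgroup. -/
theorem exists_conj_mem {p : ℕ} (hp : p.Prime) :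
    ∀ (n : ℕ) (G : Type u) [Group G] [Finite G], Nat.card G = n →
      ∀ H : Subgroup G, (∀ a ∈ H, ∀ b ∈ H, a * b = b * a) → (Nat.card H).Coprime p →
        (∃ k : ℕ, H.index = p ^ k) → ∀ y : G, (orderOf y).Coprime p →
          ∃ g : G, g⁻¹ * y * g ∈ H := by
  intro n
  induction n using Nat.strong_induction_on with
  | _ n ih =>
    intro G _ _ hn H hab hHc hHi y hy
    classical
    by_cases hy1 : y = 1
    · exact ⟨1, by simp [hy1, H.one_mem]⟩
    have ho1 : orderOf y ≠ 1 := by
      intro h
      exact hy1 (orderOf_eq_one_iff.1 h)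
    set r := (orderOf y).minFac with hr
    have hrp : r.Prime := Nat.minFac_prime ho1
    have hrd : r ∣ orderOf y := Nat.minFac_dvd _
    have hrne : r ≠ p := by
      intro h
      rw [h] at hrd
      exact hp.one_lt.ne' (Nat.eq_one_of_dvd_coprimes hy.symm (dvd_refl p) hrd)
    obtain ⟨a, u, hu, hou⟩ := Nat.exists_eq_pow_mul_and_not_dvd (orderOf_pos y).ne' r hrp.ne_one
    have ha : a ≠ 0 := by
      intro h0
      rw [h0, pow_zero, one_mul] at hou
      rw [hou] at hrd
      exact hu hrd
    set y₁ : G := y ^ u with hy₁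
    have hu0 : 0 < u := Nat.pos_of_ne_zero (fun h => by
      rw [h, mul_zero] at hou
      exact (orderOf_pos y).ne' hou)
    have hy₁o : orderOf y₁ = r ^ a := by
      rw [hy₁, orderOf_pow_of_dvd hu0.ne' (Dvd.intro_left _ hou.symm), hou]
      exact Nat.mul_div_cancel _ hu0
    have hy₁1 : y₁ ≠ 1 := by
      intro h
      rw [h, orderOf_one] at hy₁o
      have := (Nat.one_lt_pow ha hrp.one_lt)
      omega
    -- fixed point of the `r`-group `⟨y₁⟩` on `G/H`
    obtain ⟨k, hk⟩ := hHi
    haveI : Fact r.Prime := ⟨hrp⟩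
    have hPZ : IsPGroup r (Subgroup.zpowers y₁) := by
      rw [IsPGroup.iff_card, Nat.card_zpowers]
      exact ⟨a, hy₁o⟩
    have hnd : ¬ r ∣ Nat.card (G ⧸ H) := by
      have : Nat.card (G ⧸ H) = p ^ k := hk
      rw [this]
      intro h
      have := hrp.dvd_of_dvd_pow h
      exact hrne ((Nat.prime_dvd_prime_iff_eq hrp hp).1 this)
    obtain ⟨q, hq⟩ := hPZ.nonempty_fixed_point_of_prime_not_dvd_card (G ⧸ H) hnd
    obtain ⟨g, rfl⟩ := QuotientGroup.mk_surjective q
    have hq1 : (⟨y₁, Subgroup.mem_zpowers y₁⟩ : Subgroup.zpowers y₁) • (g : G ⧸ H) = g := hq _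
    have hq2 : y₁ • (g : G ⧸ H) = g := hq1
    have hq3 : ((y₁ * g : G) : G ⧸ H) = g := hq2
    rw [QuotientGroup.eq] at hq3
    set z : G := g⁻¹ * y₁ * g with hz
    have hzH : z ∈ H := by
      have : (y₁ * g)⁻¹ * g = z⁻¹ := by
        rw [hz]; group
      rw [this] at hq3
      simpa using H.inv_mem hq3
    set y' : G := g⁻¹ * y * g with hy'
    have hzy' : z = y' ^ u := by
      rw [hz, hy', hy₁]
      have := conj_pow (a := g⁻¹) (b := y) (i := u)
      simp only [inv_inv] at this
      exact this.symm
    have hy'o : orderOf y' = orderOf y := by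
      have : y' = MulAut.conj g⁻¹ y := by
        rw [hy']; simp [MulAut.conj_apply]
      rw [this, MulEquiv.orderOf_eq]
    have hz1 : z ≠ 1 := by
      intro h
      apply hy₁1
      have : y₁ = g * z * g⁻¹ := by rw [hz]; group
      rw [this, h]; group
    -- it suffices to conjugate `y'` into `H`
    suffices hs : ∃ g' : G, g'⁻¹ * y' * g' ∈ H by
      obtain ⟨g', hg'⟩ := hs
      refine ⟨g * g', ?_⟩
      have : (g * g')⁻¹ * y * (g * g') = g'⁻¹ * y' * g' := by
        rw [hy']; group
      rw [this]
      exact hg'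
    set C := Subgroup.centralizer ({z} : Set G) with hC
    have hHC : H ≤ C := by
      intro b hb
      rw [hC, Subgroup.mem_centralizer_singleton_iff]
      exact hab b hb z hzH
    have hy'C : y' ∈ C := by
      rw [hC, Subgroup.mem_centralizer_singleton_iff, hzy']
      exact (Commute.pow_right (Commute.refl y') u)
    by_cases hCt : C = ⊤
    · -- `z` is central: pass to the quotient
      have hcent : ∀ x : G, x * z = z * x := by
        intro x
        have : x ∈ C := by rw [hCt]; trivial
        rwa [hC, Subgroup.mem_centralizer_singleton_iff] at this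
      set Z := Subgroup.zpowers z with hZ
      haveI hZn : Z.Normal := by
        constructor
        rintro _ ⟨m, rfl⟩ x
        refine ⟨m, ?_⟩
        have hc : Commute x z := hcent x
        have : x * z ^ m * x⁻¹ = z ^ m := by
          rw [(hc.zpow_right m).eq]; group
        simpa using this.symm
      have hZH : Z ≤ H := by
        rw [hZ, Subgroup.zpowers_le]
        exact hzH
      have hQlt : Nat.card (G ⧸ Z) < n := by
        rw [← hn, Subgroup.card_eq_card_quotient_mul_card_subgroup Z]
        have h1 : 1 ≠ Nat.card Z := by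
          intro h
          have := (Subgroup.eq_bot_iff_card Z).2 h.symm
          rw [hZ, Subgroup.zpowers_eq_bot] at this
          exact hz1 this
        exact (Nat.lt_mul_iff_one_lt_right Nat.card_pos).2 (lt_of_le_of_ne Nat.card_pos h1)
      have hab' : ∀ a ∈ H.map (QuotientGroup.mk' Z), ∀ b ∈ H.map (QuotientGroup.mk' Z),
          a * b = b * a := by
        rintro _ ⟨a, ha, rfl⟩ _ ⟨b, hb, rfl⟩
        rw [← map_mul, ← map_mul, hab a ha b hb]
      have hcc : (Nat.card (H.map (QuotientGroup.mk' Z))).Coprime p :=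
        Nat.Coprime.coprime_dvd_left (Subgroup.card_map_dvd H _) hHc
      have hii : ∃ k : ℕ, (H.map (QuotientGroup.mk' Z)).index = p ^ k := by
        have hd : (H.map (QuotientGroup.mk' Z)).index ∣ p ^ k := by
          rw [← hk]
          exact Subgroup.index_map_dvd _ (QuotientGroup.mk'_surjective Z)
        obtain ⟨j, _, hj⟩ := (Nat.dvd_prime_pow hp).1 hd
        exact ⟨j, hj⟩
      have hoc : (orderOf (QuotientGroup.mk' Z y')).Coprime p := by
        apply Nat.Coprime.coprime_dvd_left (orderOf_map_dvd _ _)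
        rw [hy'o]
        exact hy
      obtain ⟨gb, hgb⟩ := ih _ hQlt (G ⧸ Z) rfl _ hab' hcc hii _ hoc
      obtain ⟨g₂, rfl⟩ := QuotientGroup.mk'_surjective Z gb
      rw [← map_inv, ← map_mul, ← map_mul] at hgb
      obtain ⟨h, hh, hh2⟩ := hgb
      refine ⟨g₂, ?_⟩
      have h3 : h⁻¹ * (g₂⁻¹ * y' * g₂) ∈ Z := by
        have := (QuotientGroup.eq (s := Z) (a := h) (b := g₂⁻¹ * y' * g₂)).1 hh2
        exact this
      have h4 := H.mul_mem hh (hZH h3)
      simpa using h4
    · -- proper centraliser: induct
      have hClt : Nat.card C < n := by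
        rw [← hn]
        apply lt_of_le_of_ne (Subgroup.card_le_card_group C)
        intro h
        exact hCt (Subgroup.eq_top_of_card_eq C h)
      have hab' : ∀ a ∈ H.subgroupOf C, ∀ b ∈ H.subgroupOf C, a * b = b * a := by
        intro a ha b hb
        exact Subtype.ext (hab a ha b hb)
      have hcc : (Nat.card (H.subgroupOf C)).Coprime p := by
        have : Nat.card (H.subgroupOf C) = Nat.card H :=
          Nat.card_congr (Subgroup.subgroupOfEquivOfLe hHC).toEquiv
        rw [this]
        exact hHc
      have hii : ∃ k : ℕ, (H.subgroupOf C).index = p ^ k := by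
        have hd : H.relIndex C ∣ p ^ k := by
          rw [← hk, ← Subgroup.relIndex_mul_index hHC]
          exact Dvd.intro _ rfl
        obtain ⟨j, _, hj⟩ := (Nat.dvd_prime_pow hp).1 hd
        exact ⟨j, hj⟩
      have hoc : (orderOf (⟨y', hy'C⟩ : C)).Coprime p := by
        rw [Subgroup.orderOf_mk, hy'o]
        exact hy
      obtain ⟨c, hc⟩ := ih _ hClt C rfl _ hab' hcc hii _ hoc
      refine ⟨c, ?_⟩
      exact hc

/-- Let G be a finite group and p a prime. Every conjugacy class of p-regular elements of G (elements of order prime to p) has p-power size if and only if G has an abelian p-complement, i.e. an abelian subgroup of order prime to p and p-power index. -/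
theorem result {G : Type*} [Group G] [Finite G] {p : ℕ} (hp : p.Prime) :
    (∀ x : G, (orderOf x).Coprime p → ∃ k : ℕ, (ConjClasses.mk x).carrier.ncard = p ^ k) ↔
    (∃ H : Subgroup G, IsMulCommutative H ∧ ¬ p ∣ Nat.card H ∧ ∃ k : ℕ, H.index = p ^ k) := by
  constructor
  · intro h
    have hA : PA p G := by
      intro x hx
      obtain ⟨k, hk⟩ := h x hx
      exact ⟨k, by rw [← ncard_carrier_eq_index]; exact hk⟩
    haveI hS : Group.IsSolvable G := isSolvable_of_pa hp _ G rfl hA
    obtain ⟨a, m, hm, hG⟩ := Nat.exists_eq_pow_mul_and_not_dvd (Nat.card_pos (α := G)).ne' p hp.ne_one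
    have hcop : m.Coprime (p ^ a) := Nat.Coprime.pow_right a ((Nat.Prime.coprime_iff_not_dvd hp).2 hm).symm
    obtain ⟨H, hH⟩ := Cfsg.Agent.Lib.Solvable.Hall.exists_card_eq m (p ^ a)
      (by rw [hG, mul_comm]) hcop
    refine ⟨H, ?_, by rw [hH]; exact hm, a, ?_⟩
    · refine ⟨⟨?_⟩⟩
      intro x y
      apply Subtype.ext
      refine commute_of_pa hp _ G rfl hA H ?_ _ x.2 _ y.2
      rw [hH]
      exact ((Nat.Prime.coprime_iff_not_dvd hp).2 hm).symm
    · have h1 := Subgroup.card_mul_index H
      rw [hH, hG, mul_comm] at h1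
      have hm0 : 0 < m := Nat.pos_of_ne_zero (fun h0 => hm (h0 ▸ dvd_zero p))
      exact Nat.eq_of_mul_eq_mul_right hm0 h1
  · rintro ⟨H, hH, hp2, k, hk⟩ x hx
    have hab : ∀ a ∈ H, ∀ b ∈ H, a * b = b * a := by
      intro a ha b hb
      have := hH.is_comm.comm ⟨a, ha⟩ ⟨b, hb⟩
      exact congrArg Subtype.val this
    have hHc : (Nat.card H).Coprime p := ((Nat.Prime.coprime_iff_not_dvd hp).2 hp2).symm
    obtain ⟨g, hg⟩ := exists_conj_mem hp _ G rfl H hab hHc ⟨k, hk⟩ x hx
    set w := g⁻¹ * x * g with hw
    have hcl : ConjClasses.mk x = ConjClasses.mk w := by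
      rw [ConjClasses.mk_eq_mk_iff_isConj, isConj_iff]
      exact ⟨g⁻¹, by rw [hw]; group⟩
    rw [hcl, ncard_carrier_eq_index]
    have hle : H ≤ Subgroup.centralizer ({w} : Set G) := by
      intro b hb
      rw [Subgroup.mem_centralizer_singleton_iff]
      exact hab b hb w hg
    have hd : (Subgroup.centralizer ({w} : Set G)).index ∣ p ^ k := by
      rw [← hk]
      exact Subgroup.index_dvd_of_le hle
    obtain ⟨j, _, hj⟩ := (Nat.dvd_prime_pow hp).1 hd
    exact ⟨j, hj⟩

end Cfsg.Agent.S4034
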