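import Cfsg.Statements.S4033
import Mathlib
import Cfsg.Agent.Lib.Ito.Family
import Cfsg.Agent.S4034

set_option autoImplicit false
open Cfsg

namespace Cfsg.Agent.S4033

open Subgroup Cfsg.Agent.Lib.Ito
open Cfsg.Agent.Lib.ClassSize.Basic (cent mem_cent_iff mem_cent_self mem_cent_comm center_le_cent
  cent_mul_eq_inf index_cent_eq_one_iff eq_of_le_of_index_eq)

universe u

section aux

variable {G : Type u} [Group G] [Finite G]

/-- Two commuting noncentral `p'`-elements of coprime orders have the same centralizer. -/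
theorem cent_eq_of_commute {p m : ℕ}
    (hsize : ∀ x : G, Nat.Coprime (orderOf x) p → x ∉ center G → (cent x).index = m) {y t : G}
    (hyp : Nat.Coprime (orderOf y) p) (htp : Nat.Coprime (orderOf t) p) (hyc : y ∉ center G)
    (htc : t ∉ center G) (hc : Commute y t) (hcop : Nat.Coprime (orderOf y) (orderOf t)) :
    cent y = cent t := by
  have hm : cent (y * t) = cent y ⊓ cent t := cent_mul_eq_inf hc hcop
  have hmc : y * t ∉ center G := by
    intro h
    have h1 : zpowers (y * t) ≤ center G := zpowers_le.2 h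
    exact hyc (h1 (mem_zpowers_mul_left hc hcop))
  have hmp : Nat.Coprime (orderOf (y * t)) p := coprime_orderOf_mul hc hyp htp
  have h1 : cent (y * t) = cent y := eq_of_le_of_index_eq (by rw [hm]; exact inf_le_left)
    (by rw [hsize _ hmp hmc, hsize _ hyp hyc])
  have h2 : cent (y * t) = cent t := eq_of_le_of_index_eq (by rw [hm]; exact inf_le_right)
    (by rw [hsize _ hmp hmc, hsize _ htp htc])
  rw [← h1, h2]

/-- The central part: elements of the center of order prime to `p q`. -/
def centralPart (G : Type u) [Group G] (n : ℕ) : Subgroup G where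
  carrier := {g | g ∈ center G ∧ Nat.Coprime (orderOf g) n}
  mul_mem' := by
    rintro a b ⟨ha, han⟩ ⟨hb, hbn⟩
    refine ⟨(center G).mul_mem ha hb, ?_⟩
    have hc : Commute a b := (Subgroup.mem_center_iff.1 ha b).symm
    exact coprime_orderOf_mul hc han hbn
  one_mem' := ⟨(center G).one_mem, by simp⟩
  inv_mem' := by
    rintro a ⟨ha, han⟩
    exact ⟨(center G).inv_mem ha, by rwa [orderOf_inv]⟩

theorem mem_centralPart {n : ℕ} {g : G} :
    g ∈ centralPart G n ↔ g ∈ center G ∧ Nat.Coprime (orderOf g) n := Iff.rfl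

/-- The direct decomposition when all primary elements for primes other than `p`, `q` are
central. -/
theorem decomposition {p q : ℕ} [hp : Fact p.Prime] [hq : Fact q.Prime] (hpq : q ≠ p)
    (hcentral : ∀ r : ℕ, r.Prime → r ≠ p → r ≠ q → ∀ y : G, IsEl r y → y ∈ center G)
    (P : Sylow p G) (Q : Sylow q G) :
    ∃ A : Subgroup G, A ≤ center G ∧
      Nat.card ↥((P : Subgroup G) ⊔ (Q : Subgroup G)) = Nat.card P * Nat.card Q ∧
      ((P : Subgroup G) ⊔ (Q : Subgroup G)).Normal ∧
      ((P : Subgroup G) ⊔ (Q : Subgroup G)) ⊓ A = ⊥ ∧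
      ((P : Subgroup G) ⊔ (Q : Subgroup G)) ⊔ A = ⊤ := by
  classical
  have hpp := hp.out
  have hqq := hq.out
  set A : Subgroup G := centralPart G (p * q) with hAdef
  have hAc : A ≤ center G := fun g hg => hg.1
  have hAn : A.Normal := by
    constructor
    intro n hn g
    have : g * n * g⁻¹ = n := by
      rw [(Subgroup.mem_center_iff.1 (hAc hn)) g]
      group
    rwa [this]
  -- primes dividing `|A|`
  have hAprime : ∀ r : ℕ, r.Prime → r ∣ Nat.card A → r ≠ p ∧ r ≠ q := by
    intro r hr hd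
    obtain ⟨u, hu, huo⟩ := exists_el_of_dvd A hr hd
    have h1 : Nat.Coprime r (p * q) := huo ▸ hu.2
    constructor
    · rintro rfl
      have := Nat.Coprime.eq_one_of_dvd h1 (dvd_mul_right r q)
      exact hr.one_lt.ne' this
    · rintro rfl
      have := Nat.Coprime.eq_one_of_dvd h1 (dvd_mul_left r p)
      exact hr.one_lt.ne' this
  have hAcop : Nat.Coprime (Nat.card A) A.index := by
    by_contra hnc
    obtain ⟨r, hr, hr1, hr2⟩ := Nat.Prime.not_coprime_iff_dvd.1 hnc
    obtain ⟨hrp, hrq⟩ := hAprime r hr hr1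
    haveI : Fact r.Prime := ⟨hr⟩
    have hr3 : r ∣ Nat.card (G ⧸ A) := by
      rw [← Subgroup.index_eq_card]
      exact hr2
    obtain ⟨c, hc⟩ := exists_prime_orderOf_dvd_card' r hr3
    obtain ⟨g, rfl⟩ := QuotientGroup.mk_surjective c
    obtain ⟨a, b, ha, hb, hab, hae, hbc⟩ := exists_parts hr g
    have h1 : (QuotientGroup.mk' A) a = (QuotientGroup.mk' A) g :=
      map_part_left (QuotientGroup.mk' A) ha hb hab hbc (isEl_of_orderOf_eq hc)
    have h2 : a ∈ A := by
      refine ⟨hcentral r hr hrp hrq a hae, ?_⟩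
      exact Nat.Coprime.mul_right (hae.coprime_of_ne hr hpp hrp) (hae.coprime_of_ne hr hqq hrq)
    have h3 : (QuotientGroup.mk' A) a = 1 := by
      rw [QuotientGroup.mk'_apply, QuotientGroup.eq_one_iff]
      exact h2
    have h4 : ((g : G ⧸ A)) = 1 := by
      have : (QuotientGroup.mk' A) g = 1 := by rw [← h1]; exact h3
      exact this
    rw [h4, orderOf_one] at hc
    exact hr.one_lt.ne hc
  obtain ⟨L, hL⟩ := Subgroup.exists_right_complement'_of_coprime hAcop
  have hLdis : A ⊓ L = ⊥ := hL.disjoint.eq_bot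
  have hLsup : A ⊔ L = ⊤ := hL.sup_eq_top
  have hLn : L.Normal := by
    rw [← Subgroup.normalizer_eq_top_iff, eq_top_iff, ← hLsup]
    apply sup_le
    · intro a ha
      rw [Subgroup.mem_normalizer_iff]
      intro h
      have : a * h * a⁻¹ = h := by
        rw [← (Subgroup.mem_center_iff.1 (hAc ha)) h]
        group
      rw [this]
    · exact Subgroup.le_normalizer
  have hcard : Nat.card A * Nat.card L = Nat.card G := hL.card_mul_card
  have hidx : L.index = Nat.card A := hL.index_eq_card
  -- the Sylow subgroups lie in `L`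
  have hle : ∀ (s : ℕ), s.Prime → ¬ s ∣ Nat.card A → ∀ x : G, IsEl s x → x ∈ L := by
    intro s hs hsA x hx
    have h1 : IsEl s ((QuotientGroup.mk' L) x) := hx.map _
    have h2 : orderOf ((QuotientGroup.mk' L) x) ∣ Nat.card A := by
      rw [← hidx, Subgroup.index_eq_card]
      exact orderOf_dvd_natCard _
    have h3 : Nat.Coprime (orderOf ((QuotientGroup.mk' L) x)) s :=
      Nat.Coprime.coprime_dvd_left h2 ((Nat.Prime.coprime_iff_not_dvd hs).2 hsA).symm
    have h4 := h1.eq_one_of_coprime h3
    rw [QuotientGroup.mk'_apply, QuotientGroup.eq_one_iff] at h4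
    exact h4
  have hpA : ¬ p ∣ Nat.card A := fun h => (hAprime p hpp h).1 rfl
  have hqA : ¬ q ∣ Nat.card A := fun h => (hAprime q hqq h).2 rfl
  have hPL : (P : Subgroup G) ≤ L := fun x hx =>
    hle p hpp hpA x (isPGroup_iff_isEl.1 P.isPGroup' x hx)
  have hQL : (Q : Subgroup G) ≤ L := fun x hx =>
    hle q hqq hqA x (isPGroup_iff_isEl.1 Q.isPGroup' x hx)
  have hsupL : (P : Subgroup G) ⊔ (Q : Subgroup G) ≤ L := sup_le hPL hQL
  have hGne : Nat.card G ≠ 0 := Nat.card_pos.ne'
  have hPc : Nat.card P = p ^ (Nat.card G).factorization p := Sylow.card_eq_multiplicity P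
  have hQc : Nat.card Q = q ^ (Nat.card G).factorization q := Sylow.card_eq_multiplicity Q
  -- the order of `L`
  have hLcard : Nat.card L = Nat.card P * Nat.card Q := by
    apply Nat.eq_of_factorization_eq Nat.card_pos.ne'
      (mul_ne_zero Nat.card_pos.ne' Nat.card_pos.ne')
    intro r
    have hfac : (Nat.card G).factorization r
        = (Nat.card A).factorization r + (Nat.card L).factorization r := by
      rw [← hcard, Nat.factorization_mul Nat.card_pos.ne' Nat.card_pos.ne']
      rfl
    have hPQ : (Nat.card P * Nat.card Q).factorization r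
        = (Nat.card P).factorization r + (Nat.card Q).factorization r := by
      rw [Nat.factorization_mul Nat.card_pos.ne' Nat.card_pos.ne']
      rfl
    rw [hPQ, hPc, hQc, hpp.factorization_pow, hqq.factorization_pow]
    simp only [Finsupp.single_apply]
    by_cases hrp : p = r
    · subst hrp
      rw [if_pos rfl, if_neg hpq, add_zero, hfac,
        Nat.factorization_eq_zero_of_not_dvd hpA, zero_add]
    by_cases hrq : q = r
    · subst hrq
      rw [if_neg hrp, if_pos rfl, zero_add, hfac,
        Nat.factorization_eq_zero_of_not_dvd hqA, zero_add]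
    rw [if_neg hrp, if_neg hrq, add_zero]
    by_cases hr : r.Prime
    · apply Nat.factorization_eq_zero_of_not_dvd
      intro hd
      obtain ⟨u, hu, huo⟩ := exists_el_of_dvd L hr hd
      have h1 : u ∈ center G := hcentral r hr (Ne.symm hrp) (Ne.symm hrq) u (isEl_of_orderOf_eq huo)
      have h2 : u ∈ A := by
        refine ⟨h1, ?_⟩
        rw [huo]
        exact Nat.Coprime.mul_right ((Nat.coprime_primes hr hpp).2 (Ne.symm hrp))
          ((Nat.coprime_primes hr hqq).2 (Ne.symm hrq))
      have h3 : u ∈ A ⊓ L := ⟨h2, hu⟩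
      rw [hLdis, Subgroup.mem_bot] at h3
      rw [h3, orderOf_one] at huo
      exact hr.one_lt.ne huo
    · exact Nat.factorization_eq_zero_of_not_prime _ hr
  have hcopPQ : Nat.Coprime (Nat.card P) (Nat.card Q) := by
    rw [hPc, hQc]
    exact Nat.Coprime.pow _ _ ((Nat.coprime_primes hpp hqq).2 (Ne.symm hpq))
  have hdvd : Nat.card P * Nat.card Q ∣ Nat.card ↥((P : Subgroup G) ⊔ (Q : Subgroup G)) :=
    Nat.Coprime.mul_dvd_of_dvd_of_dvd hcopPQ (Subgroup.card_dvd_of_le le_sup_left)
      (Subgroup.card_dvd_of_le le_sup_right)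
  have hsup : (P : Subgroup G) ⊔ (Q : Subgroup G) = L := by
    apply Subgroup.eq_of_le_of_card_ge hsupL
    rw [hLcard]
    exact Nat.le_of_dvd Nat.card_pos hdvd
  refine ⟨A, hAc, ?_, ?_, ?_, ?_⟩
  · rw [hsup, hLcard]
  · rw [hsup]
    exact hLn
  · rw [hsup, inf_comm]
    exact hLdis
  · rw [hsup, sup_comm]
    exact hLsup

end aux

/-- Let G be a finite group and p a prime, and suppose the conjugacy classes of p-regular elements of G (elements of order prime to p) have exactly two distinct sizes. Then either G has an abelian p-complement (an abelian subgroup of order prime to p and p-power index), or there are a prime q ≠ p, a Sylow p-subgroup P, a Sylow q-subgroup Q and a central subgroup A such that PQ is a normal subgroup of order #P·#Q and G is the internal direct product PQ × A. -/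
theorem result {G : Type*} [Group G] [Finite G] {p : ℕ} (hp : p.Prime)
    (h2 : Set.ncard (Set.range fun x : {x : G // (orderOf x).Coprime p} => (ConjClasses.mk (x : G)).carrier.ncard) = 2) :
    (∃ H : Subgroup G, IsMulCommutative H ∧ ¬ p ∣ Nat.card H ∧ ∃ k : ℕ, H.index = p ^ k) ∨
    (∃ (q : ℕ) (_ : Fact q.Prime) (P : Sylow p G) (Q : Sylow q G) (A : Subgroup G), q ≠ p ∧
        A ≤ Subgroup.center G ∧ Nat.card ↥((P : Subgroup G) ⊔ (Q : Subgroup G)) = Nat.card P * Nat.card Q ∧
        ((P : Subgroup G) ⊔ (Q : Subgroup G)).Normal ∧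
        ((P : Subgroup G) ⊔ (Q : Subgroup G)) ⊓ A = ⊥ ∧ ((P : Subgroup G) ⊔ (Q : Subgroup G)) ⊔ A = ⊤) := by
  classical
  haveI : Fact p.Prime := ⟨hp⟩
  have hidxNc : ∀ x : G, (ConjClasses.mk x).carrier.ncard = (cent x).index :=
    fun x => Cfsg.Agent.S4034.ncard_carrier_eq_index x
  set S : Set ℕ := Set.range fun x : {x : G // (orderOf x).Coprime p} =>
    (ConjClasses.mk (x : G)).carrier.ncard with hS
  obtain ⟨a, b, hab, hSab⟩ := Set.ncard_eq_two.1 h2
  have h1S : (1 : ℕ) ∈ S := by
    refine ⟨⟨1, by simp⟩, ?_⟩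
    show (ConjClasses.mk (1 : G)).carrier.ncard = 1
    rw [hidxNc, index_cent_eq_one_iff]
    exact (center G).one_mem
  obtain ⟨m, hm1, hSm⟩ : ∃ m : ℕ, m ≠ 1 ∧ S = {1, m} := by
    rw [hSab] at h1S ⊢
    rcases h1S with h | h
    · exact ⟨b, fun hb => hab (h.symm.trans hb.symm), by rw [← h]⟩
    · refine ⟨a, fun ha => hab (ha.trans h), ?_⟩
      rw [← h]
      exact Set.pair_comm _ _
  have hall : ∀ x : G, Nat.Coprime (orderOf x) p → (cent x).index = 1 ∨ (cent x).index = m := by
    intro x hx
    have h1 : (ConjClasses.mk x).carrier.ncard ∈ S := ⟨⟨x, hx⟩, rfl⟩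
    rw [hSm, hidxNc] at h1
    exact h1
  have hsize : ∀ x : G, Nat.Coprime (orderOf x) p → x ∉ center G → (cent x).index = m := by
    intro x hx hc
    rcases hall x hx with h | h
    · exact absurd (index_cent_eq_one_iff.1 h) hc
    · exact h
  obtain ⟨x₀, hx₀p, hx₀m⟩ : ∃ x₀ : G, Nat.Coprime (orderOf x₀) p ∧ (cent x₀).index = m := by
    have h1 : m ∈ S := by
      rw [hSm]
      exact Or.inr rfl
    obtain ⟨x, hx⟩ := h1
    refine ⟨x.1, x.2, ?_⟩
    rw [← hidxNc]
    exact hx
  have hx₀c : x₀ ∉ center G := by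
    intro h
    have := index_cent_eq_one_iff.2 h
    rw [hx₀m] at this
    exact hm1 this
  have Fw : ∀ (y : G) (s : ℕ), Pri p y s → ∀ t ∈ cent y, Nat.Coprime (orderOf t) p →
      Nat.Coprime (orderOf t) s → ∀ w ∈ cent y, Commute t w := by
    intro y s hy t ht htp hts w hw
    by_cases htc : t ∈ center G
    · exact ((Subgroup.mem_center_iff.1 htc) w).symm
    · have hc : Commute y t := mem_cent_iff.1 ht
      have hcop : Nat.Coprime (orderOf y) (orderOf t) := by
        obtain ⟨e, he⟩ := hy.2.2.2.orderOf_eq hy.2.1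
        rw [he]
        exact Nat.Coprime.pow_left _ hts.symm
      have h1 := cent_eq_of_commute hsize (hy.coprime hp) htp hy.1 htc hc hcop
      rw [h1] at hw
      exact mem_cent_iff.1 hw
  have hconst : ∀ (y y' : G) (s s' : ℕ), Pri p y s → Pri p y' s' → ∀ r : ℕ, r.Prime → r ≠ p →
      (Nat.card (cent y)).factorization r = (Nat.card (cent y')).factorization r := by
    intro y y' s s' hy hy' r _ _
    have h1 := (cent y).card_mul_index
    have h2 := (cent y').card_mul_index
    rw [hsize y (hy.coprime hp) hy.1] at h1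
    rw [hsize y' (hy'.coprime hp) hy'.1] at h2
    have hm0 : 0 < m := by
      rw [← hsize y (hy.coprime hp) hy.1]
      exact Nat.pos_of_ne_zero Subgroup.index_ne_zero_of_finite
    rw [Nat.eq_of_mul_eq_mul_right hm0 (h1.trans h2.symm)]
  obtain ⟨k₀, s₀, hk₀⟩ := exists_pri_power hp hx₀p hx₀c
  rcases family hp Fw hconst with ⟨q, hq⟩ | ⟨-, hidx⟩
  · right
    have hs₀ := hq _ _ hk₀
    subst hs₀
    haveI hqf : Fact s₀.Prime := ⟨hk₀.2.1⟩
    obtain ⟨P⟩ : Nonempty (Sylow p G) := inferInstance
    obtain ⟨Q⟩ : Nonempty (Sylow s₀ G) := inferInstance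
    obtain ⟨A, hA⟩ := decomposition (p := p) (q := s₀) hk₀.2.2.1 (by
      intro r hr hrp hrq y hy
      by_contra hyc
      exact hrq (hq y r ⟨hyc, hr, hrp, hy⟩)) P Q
    exact ⟨s₀, hqf, P, Q, A, hk₀.2.2.1, hA⟩
  · left
    obtain ⟨e, he⟩ := hidx _ _ hk₀
    have hm : m = p ^ e := by
      rw [← he]
      exact (hsize _ (hk₀.coprime hp) hk₀.1).symm
    apply (Cfsg.Agent.S4034.result hp).1
    intro x hx
    rw [hidxNc]
    rcases hall x hx with h | h
    · exact ⟨0, by rw [h, pow_zero]⟩
    · exact ⟨e, by rw [h, hm]⟩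

end Cfsg.Agent.S4033
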