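import Cfsg.Statements.S4036
import Mathlib

set_option autoImplicit false
set_option linter.style.haveILetI false
open Cfsg

namespace Cfsg.Agent.S4036

/-- Let P be a finite abelian p-group and K a group of automorphisms of P (a subgroup of Aut P) whose order is divisible by p. If all non-identity elements of K have the same fixed-point subgroup on P, then K has no non-trivial normal subgroup of order prime to p. -/
theorem result {P : Type*} [CommGroup P] [Finite P] {p : ℕ}
    [Fact p.Prime] (hP : IsPGroup p P) (K : Subgroup (MulAut P)) (hK : p ∣ Nat.card K)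
    (hfix : ∀ x y : MulAut P, x ∈ K → y ∈ K → x ≠ 1 → y ≠ 1 → ∀ v : P, x v = v ↔ y v = v) :
    ∀ N : Subgroup ↥K, N.Normal → ¬ p ∣ Nat.card N → N = ⊥ := by
  classical
  intro N hNn hNp
  by_contra hNbot
  have hp : p.Prime := Fact.out
  haveI : Finite (MulAut P) := inferInstance
  letI : Fintype N := Fintype.ofFinite N
  -- an element of order p
  obtain ⟨x, hx⟩ := exists_prime_orderOf_dvd_card' (G := K) p hK
  have hx1 : x ≠ 1 := by
    rintro rfl
    rw [orderOf_one] at hx
    exact hp.one_lt.ne hx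
  have hx1' : (x : MulAut P) ≠ 1 := fun h => hx1 (Subtype.ext h)
  -- the norm map
  let T : P →* P :=
    { toFun := fun v => ∏ n : N, ((n : K) : MulAut P) v
      map_one' := by simp
      map_mul' := fun a b => by simp [Finset.prod_mul_distrib] }
  have hT : ∀ v, T v = ∏ n : N, ((n : K) : MulAut P) v := fun _ => rfl
  -- T commutes with K
  have hTK : ∀ (y : K) (v : P), T ((y : MulAut P) v) = (y : MulAut P) (T v) := by
    intro y v
    rw [hT, hT, map_prod]
    rw [← Equiv.prod_comp (MulAut.conjNormal y⁻¹ : MulAut N).toEquiv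
      (fun n : N => (y : MulAut P) (((n : K) : MulAut P) v))]
    refine Finset.prod_congr rfl fun n _ => ?_
    have h1 : (((MulAut.conjNormal y⁻¹ : MulAut N) n : N) : K) = y⁻¹ * (n : K) * y := by
      simp
    show ((n : K) : MulAut P) ((y : MulAut P) v) = (y : MulAut P) (((((MulAut.conjNormal y⁻¹ : MulAut N) n : N) : K) : MulAut P) v)
    rw [h1]
    show ((n : K) : MulAut P) ((y : MulAut P) v) = (y : MulAut P) (((y : MulAut P)⁻¹ * ((n : K) : MulAut P) * (y : MulAut P)) v)
    simp [MulAut.mul_apply]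
  -- an element moved by N
  obtain ⟨n₀', hn₀N, hn₀1⟩ := (Subgroup.bot_or_exists_ne_one N).resolve_left hNbot
  let n₀ : N := ⟨n₀', hn₀N⟩
  have hn₀1' : ((n₀ : K) : MulAut P) ≠ 1 := fun h => hn₀1 (Subtype.ext h)
  obtain ⟨v, hv⟩ : ∃ v : P, ((n₀ : K) : MulAut P) v ≠ v := by
    by_contra h
    push Not at h
    exact hn₀1' (MulEquiv.ext h)
  set u := ((n₀ : K) : MulAut P) v * v⁻¹ with hu
  have hu1 : u ≠ 1 := by
    rw [hu]
    intro h
    exact hv (mul_inv_eq_one.mp h)
  have hTu : T u = 1 := by
    rw [hu, map_mul, map_inv, mul_inv_eq_one]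
    rw [hT, hT]
    rw [← Equiv.prod_comp (Equiv.mulRight (n₀ : N)) (fun n : N => ((n : K) : MulAut P) v)]
    refine Finset.prod_congr rfl fun n _ => ?_
    simp [MulAut.mul_apply]
  let W := T.ker
  have huW : u ∈ W := hTu
  have hWp : IsPGroup p W := hP.to_subgroup W
  have hpW : p ∣ Nat.card W := by
    obtain ⟨k, hk⟩ := IsPGroup.iff_card.mp hWp
    rw [hk]
    rcases k with _ | k
    · exfalso
      have h1 : Nat.card W = 1 := by simpa using hk
      have h2 : (⟨u, huW⟩ : W) = 1 := by
        have := (Nat.card_eq_one_iff_unique.mp h1).1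
        exact Subsingleton.elim _ _
      exact hu1 (congrArg Subtype.val h2)
    · exact dvd_pow_self p (Nat.succ_ne_zero k)
  -- action of ⟨x⟩ on W
  let Q : Subgroup K := Subgroup.zpowers x
  have hQ : IsPGroup p Q := by
    apply IsPGroup.of_card (n := 1)
    show Nat.card (Subgroup.zpowers x) = p ^ 1
    rw [Nat.card_zpowers, hx, pow_one]
  have hmemW : ∀ (q : Q) (w : W), ((q : K) : MulAut P) (w : P) ∈ W := by
    intro q w
    show T _ = 1
    rw [hTK (q : K) (w : P)]
    have : T (w : P) = 1 := w.2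
    rw [this, map_one]
  letI : MulAction Q W :=
    { smul := fun q w => ⟨((q : K) : MulAut P) (w : P), hmemW q w⟩
      one_smul := fun w => by apply Subtype.ext; rfl
      mul_smul := fun a b w => by apply Subtype.ext; rfl }
  have hfp1 : (1 : W) ∈ MulAction.fixedPoints Q W := by
    intro q
    apply Subtype.ext
    show ((q : K) : MulAut P) ((1 : W) : P) = ((1 : W) : P)
    simp
  obtain ⟨w, hw, hw1⟩ := hQ.exists_fixed_point_of_prime_dvd_card_of_fixed_point W hpW hfp1
  have hxw : (x : MulAut P) (w : P) = w := by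
    have := hw ⟨x, Subgroup.mem_zpowers x⟩
    exact congrArg Subtype.val this
  -- all n fix w
  have hnw : ∀ n : N, ((n : K) : MulAut P) (w : P) = w := by
    intro n
    by_cases hn : ((n : K) : MulAut P) = 1
    · rw [hn]; rfl
    · exact (hfix _ _ x.2 (n : K).2 hx1' hn (w : P)).mp hxw
  have hTw : (w : P) ^ Nat.card N = 1 := by
    have h1 : T (w : P) = 1 := w.2
    rw [hT, Finset.prod_congr rfl (fun n _ => hnw n), Finset.prod_const, Finset.card_univ,
      ← Nat.card_eq_fintype_card] at h1
    exact h1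
  obtain ⟨m, hm⟩ := hP (w : P)
  have hc : (Nat.card N).Coprime (p ^ m) :=
    Nat.Coprime.pow_right m ((Nat.Prime.coprime_iff_not_dvd hp).mpr hNp).symm
  have hdvd := Nat.dvd_gcd (orderOf_dvd_of_pow_eq_one hTw) (orderOf_dvd_of_pow_eq_one hm)
  rw [hc.gcd_eq_one, Nat.dvd_one, orderOf_eq_one_iff] at hdvd
  exact hw1 (Subtype.ext hdvd.symm)

end Cfsg.Agent.S4036
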