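import Cfsg.Statements.S4039
import Cfsg.Agent.Lib.Transfer.NilpMax

set_option autoImplicit false
open Cfsg

namespace Cfsg.Agent.S4039

universe u

open Cfsg.Agent.Lib.Transfer.NilpMax in
theorem main : ∀ (n : ℕ) (G : Type u) [Group G] [Finite G] (M : Subgroup G), Nat.card G = n →
    IsCoatom M → (Group.IsNilpotent M ∧ ClassTwoOn M) → Group.IsSolvable G := by
  refine solvable_of_core
    (fun G _ _ M => Group.IsNilpotent M ∧ ClassTwoOn M) ?_ (fun G _ _ M h => h.1) ?_
  · intro G _ _ M N _ hNM hP
    obtain ⟨hnil, hcl⟩ := hP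
    have hf : Function.Surjective
        ((QuotientGroup.mk' N).subgroupMap M) := MonoidHom.subgroupMap_surjective _ M
    exact ⟨nilpotent_of_surjective _ hf, hcl.map _⟩
  · intro G _ _ M hmax hcore hP
    obtain ⟨hnil, hcl⟩ := hP
    apply solvable_of_hnpc hmax hcore hnil
    intro p hpf hd
    exact hnpc_of_classTwo hmax hcore hnil hcl p hd

theorem classTwo_of {M : Type*} [Group M] [Group.IsNilpotent M] (h : Group.nilpotencyClass M ≤ 2)
    (x y w : M) : (x * y * x⁻¹ * y⁻¹) * w = w * (x * y * x⁻¹ * y⁻¹) := by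
  have h1 : upperCentralSeries M 2 = ⊤ := upperCentralSeries_eq_top_iff_nilpotencyClass_le.mpr h
  have h2 : x ∈ upperCentralSeries M 2 := by rw [h1]; trivial
  have h3 := mem_upperCentralSeries_succ_iff.mp h2 y
  rw [upperCentralSeries_one] at h3
  exact (Subgroup.mem_center_iff.mp h3 w).symm

/-- A finite group possessing a maximal subgroup that is nilpotent of class at most 2 is solvable. -/
theorem result {G : Type*} [Group G] [Finite G]
    (M : Subgroup G) (hmax : IsCoatom M) (hnil : Group.IsNilpotent M) (hcl : Group.nilpotencyClass ↥M ≤ 2) :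
    Group.IsSolvable G := by
  refine main _ G M rfl hmax ⟨hnil, ?_⟩
  intro x hx y hy w hw
  have := classTwo_of hcl ⟨x, hx⟩ ⟨y, hy⟩ ⟨w, hw⟩
  exact congrArg Subtype.val this

end Cfsg.Agent.S4039
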