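import Cfsg.Statements.S4040
import Cfsg.Agent.Lib.Transfer.NilpMax

set_option autoImplicit false
open Cfsg

namespace Cfsg.Agent.S4040

universe u

theorem main : ∀ (n : ℕ) (G : Type u) [Group G] [Finite G] (M : Subgroup G), Nat.card G = n →
    IsCoatom M → (Group.IsNilpotent M ∧ Odd (Nat.card M)) → Group.IsSolvable G := by
  refine Cfsg.Agent.Lib.Transfer.NilpMax.solvable_of_core
    (fun G _ _ M => Group.IsNilpotent M ∧ Odd (Nat.card M)) ?_ (fun G _ _ M h => h.1) ?_
  · intro G _ _ M N _ hNM hP
    obtain ⟨hnil, hodd⟩ := hP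
    have hf : Function.Surjective
        ((QuotientGroup.mk' N).subgroupMap M) := MonoidHom.subgroupMap_surjective _ M
    refine ⟨nilpotent_of_surjective _ hf, ?_⟩
    have hd : Nat.card (M.map (QuotientGroup.mk' N)) ∣ Nat.card M :=
      Subgroup.card_dvd_of_surjective _ hf
    exact Odd.of_dvd_nat hodd hd
  · intro G _ _ M hmax hcore hP
    obtain ⟨hnil, hodd⟩ := hP
    apply Cfsg.Agent.Lib.Transfer.NilpMax.solvable_of_hnpc hmax hcore hnil
    intro p hpf hd
    refine Cfsg.Agent.Lib.Transfer.NilpMax.hnpc_of_odd hmax hcore hnil p ?_ hd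
    rintro rfl
    exact (Nat.not_even_iff_odd.mpr hodd) (even_iff_two_dvd.mpr hd)

/-- A finite group possessing a maximal subgroup that is nilpotent of odd order is solvable. -/
theorem result {G : Type*} [Group G] [Finite G]
    (M : Subgroup G) (hmax : IsCoatom M) (hnil : Group.IsNilpotent M) (hodd : Odd (Nat.card M)) :
    Group.IsSolvable G := by
  exact main _ G M rfl hmax ⟨hnil, hodd⟩

end Cfsg.Agent.S4040
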