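import Cfsg.Statements.S4049
import Mathlib
import Cfsg.Agent.Lib.Basic.RealOdd
import Cfsg.Agent.Lib.Basic.Conj
-- import your own Cfsg.Agent.* helpers here

set_option autoImplicit false
open Cfsg

namespace Cfsg.Agent.S4049

/-- Let G be a finite group such that N_G(H)/C_G(H) has odd order for every nontrivial subgroup H of odd order. Then the Sylow 2-subgroups of G are normal. -/
theorem result {G : Type*} [Group G] [Finite G]
    (hhom : ∀ H : Subgroup G, H ≠ ⊥ → ¬ 2 ∣ Nat.card ↥H →
        ¬ 2 ∣ (Subgroup.centralizer (H : Set G)).relIndex (Subgroup.normalizer (H : Set G))) (P : Sylow 2 G) :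
    (P : Subgroup G).Normal := by
  classical
  open Cfsg.Agent.Lib.Basic.Conj in
  open scoped Pointwise in
  apply Cfsg.Agent.Lib.Basic.RealOdd.sylow_two_normal_of_noRealOdd
  intro x hx1 hodd hconj
  obtain ⟨g, hg⟩ := isConj_iff.mp hconj
  set H := Subgroup.zpowers x with hH
  have hH1 : H ≠ ⊥ := by
    intro h
    apply hx1
    rwa [hH, Subgroup.zpowers_eq_bot] at h
  have hH2 : ¬ 2 ∣ Nat.card H := by
    rw [hH, Nat.card_zpowers]
    intro h
    exact (Nat.not_even_iff_odd.mpr hodd) (even_iff_two_dvd.mpr h)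
  have hgN : g ∈ Subgroup.normalizer (H : Set G) := by
    apply mem_normalizer_of_conj_smul_le
    intro y hy
    obtain ⟨k, hk⟩ := mem_conj_smul_iff.mp hy
    refine ⟨-k, ?_⟩
    have h3 := (MulAut.conj g).toMonoidHom.map_zpow x k
    simp only [MulEquiv.toMonoidHom_eq_coe, MonoidHom.coe_coe, MulAut.conj_apply] at h3
    rw [hg] at h3
    have hy' : y = g * (g⁻¹ * y * g) * g⁻¹ := by group
    show x ^ (-k) = y
    rw [hy', ← hk, h3, inv_zpow, zpow_neg]
  have hgC : g ∉ Subgroup.centralizer (H : Set G) := by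
    intro hc
    have h3 := Subgroup.mem_centralizer_iff.mp hc x (Subgroup.mem_zpowers x)
    have h4 : g * x * g⁻¹ = x := by rw [← h3]; group
    have h5 : x⁻¹ = x := by rw [← hg, h4]
    have h6 : x * x = 1 := by
      nth_rw 1 [← h5]
      exact inv_mul_cancel x
    have hord2 : orderOf x ∣ 2 := orderOf_dvd_of_pow_eq_one (by rw [pow_two]; exact h6)
    have hcop2 : (orderOf x).Coprime 2 := (Nat.coprime_two_right).mpr hodd
    exact hx1 (orderOf_eq_one_iff.mp (Nat.eq_one_of_dvd_coprimes hcop2 (dvd_refl _) hord2))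
  have hg2C : g * g ∈ Subgroup.centralizer (H : Set G) := by
    rw [Subgroup.mem_centralizer_iff]
    rintro _ ⟨k, rfl⟩
    have hc2 : Commute (g * g) x := by
      have e2 : g * x⁻¹ * g⁻¹ = x := by
        calc g * x⁻¹ * g⁻¹ = (g * x * g⁻¹)⁻¹ := by group
          _ = x := by rw [hg, inv_inv]
      show g * g * x = x * (g * g)
      calc g * g * x = g * (g * x * g⁻¹) * g := by group
        _ = g * x⁻¹ * g := by rw [hg]
        _ = (g * x⁻¹ * g⁻¹) * (g * g) := by group
        _ = x * (g * g) := by rw [e2]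
    exact ((hc2.zpow_right k).eq).symm
  apply hhom H hH1 hH2
  -- quotient of the normalizer by the centralizer has an element of order 2
  set N := Subgroup.normalizer (H : Set G) with hNdef
  set C := Subgroup.centralizer (H : Set G) with hCdef
  have hCN : C ≤ N := by
    intro c hc
    rw [hNdef, Subgroup.mem_normalizer_iff]
    intro y
    constructor
    · intro hy
      rw [(Subgroup.mem_centralizer_iff.mp hc y hy).symm]
      simpa using hy
    · intro hy
      have hc3 := Subgroup.mem_centralizer_iff.mp hc _ hy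
      have : y = c * y * c⁻¹ := by
        calc y = c⁻¹ * ((c * y * c⁻¹) * c) := by group
          _ = c⁻¹ * (c * (c * y * c⁻¹)) := by rw [hc3]
          _ = c * y * c⁻¹ := by group
      rw [this]
      exact hy
  have hCnormal : (C.subgroupOf N).Normal := by
    rw [Subgroup.normal_subgroupOf_iff_le_normalizer hCN]
    intro n hn
    rw [← conj_smul_eq_self_iff, hCdef, ← centralizer_conj_smul, conj_smul_eq_self_iff.mpr hn]
  have hidx : C.relIndex N = Nat.card (N ⧸ C.subgroupOf N) := by
    rw [Subgroup.relIndex, Subgroup.index_eq_card]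
  rw [hidx]
  let q : N ⧸ C.subgroupOf N := QuotientGroup.mk ⟨g, hgN⟩
  have hq2 : q ^ 2 = 1 := by
    rw [pow_two, ← QuotientGroup.mk_mul, QuotientGroup.eq_one_iff, Subgroup.mem_subgroupOf]
    exact hg2C
  have hq1 : q ≠ 1 := by
    intro h
    rw [QuotientGroup.eq_one_iff, Subgroup.mem_subgroupOf] at h
    exact hgC h
  have hord : orderOf q = 2 := orderOf_eq_prime hq2 hq1
  rw [← hord]
  exact orderOf_dvd_natCard q

end Cfsg.Agent.S4049
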