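-- Statement S4051.
import Cfsg.Statements.S4051
import Mathlib
import Cfsg.Agent.Lib.Coprime.InvSylow

set_option autoImplicit false
open Cfsg

namespace Cfsg.Agent.S4051

def PiN (π : Set ℕ) (n : ℕ) : Prop := ∀ p : ℕ, p.Prime → p ∣ n → p ∈ π
def PiC (π : Set ℕ) (n : ℕ) : Prop := ∀ p : ℕ, p.Prime → p ∣ n → p ∉ π

theorem PiN.dvd {π : Set ℕ} {n m : ℕ} (h : PiN π n) (hd : m ∣ n) : PiN π m :=
  fun p hp hpm => h p hp (hpm.trans hd)

theorem PiC.dvd {π : Set ℕ} {n m : ℕ} (h : PiC π n) (hd : m ∣ n) : PiC π m :=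
  fun p hp hpm => h p hp (hpm.trans hd)

theorem PiN.mul {π : Set ℕ} {a b : ℕ} (ha : PiN π a) (hb : PiN π b) : PiN π (a * b) :=
  fun p hp hd => (hp.dvd_mul.mp hd).elim (ha p hp) (hb p hp)

theorem PiC.mul {π : Set ℕ} {a b : ℕ} (ha : PiC π a) (hb : PiC π b) : PiC π (a * b) :=
  fun p hp hd => (hp.dvd_mul.mp hd).elim (ha p hp) (hb p hp)

theorem coprime_of {π : Set ℕ} {a b : ℕ} (ha : PiN π a) (hb : PiC π b) : a.Coprime b :=
  Nat.coprime_of_dvd fun p hp h1 h2 => hb p hp h2 (ha p hp h1)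

theorem eq_one_of_piN_piC {π : Set ℕ} {a : ℕ} (ha : PiN π a) (hb : PiC π a) : a = 1 := by
  have := coprime_of ha hb
  simpa using this

theorem exists_split_nat (π : Set ℕ) (n : ℕ) : n ≠ 0 → ∃ a b, n = a * b ∧ PiN π a ∧ PiC π b := by
  induction n using Nat.recOnMul with
  | zero => exact fun h => absurd rfl h
  | one =>
    intro _
    exact ⟨1, 1, rfl, fun p hp h => absurd (Nat.dvd_one.mp h) hp.ne_one,
      fun p hp h => absurd (Nat.dvd_one.mp h) hp.ne_one⟩
  | prime p hp =>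
    intro _
    by_cases h : p ∈ π
    · refine ⟨p, 1, by simp, ?_, fun r hr hd => absurd (Nat.dvd_one.mp hd) hr.ne_one⟩
      intro r hr hd
      rw [(Nat.prime_dvd_prime_iff_eq hr hp).mp hd]
      exact h
    · refine ⟨1, p, by simp, fun r hr hd => absurd (Nat.dvd_one.mp hd) hr.ne_one, ?_⟩
      intro r hr hd
      rw [(Nat.prime_dvd_prime_iff_eq hr hp).mp hd]
      exact h
  | mul a b ha hb =>
    intro h
    obtain ⟨a1, a2, rfl, h1, h2⟩ := ha (left_ne_zero_of_mul h)
    obtain ⟨b1, b2, rfl, h3, h4⟩ := hb (right_ne_zero_of_mul h)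
    exact ⟨a1 * b1, a2 * b2, by ring, h1.mul h3, h2.mul h4⟩

theorem exists_split (π : Set ℕ) {G : Type*} [Group G] [Finite G] (g : G) :
    ∃ u v : G, u * v = g ∧ u ∈ Subgroup.zpowers g ∧ v ∈ Subgroup.zpowers g ∧
      PiN π (orderOf u) ∧ PiC π (orderOf v) := by
  obtain ⟨a, b, hab, ha, hb⟩ := exists_split_nat π (orderOf g) (orderOf_pos g).ne'
  have hc : a.Coprime b := coprime_of ha hb
  have hbez := Nat.gcd_eq_gcd_ab a b
  rw [hc.gcd_eq_one] at hbez
  set A := Nat.gcdA a b
  set B := Nat.gcdB a b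
  have hg1 : g ^ (a * b) = 1 := by rw [← hab]; exact pow_orderOf_eq_one g
  refine ⟨g ^ ((b : ℤ) * B), g ^ ((a : ℤ) * A), ?_, ⟨_, rfl⟩, ⟨_, rfl⟩, ?_, ?_⟩
  · rw [← zpow_add]
    have : (b : ℤ) * B + (a : ℤ) * A = 1 := by
      have h : ((1 : ℕ) : ℤ) = a * A + b * B := hbez
      push_cast at h
      linarith
    rw [this, zpow_one]
  · apply ha.dvd
    apply orderOf_dvd_of_pow_eq_one
    rw [← zpow_natCast, ← zpow_mul]
    have : (b : ℤ) * B * (a : ℤ) = ((a * b : ℕ) : ℤ) * B := by push_cast; ring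
    rw [this, zpow_mul, zpow_natCast, hg1, one_zpow]
  · apply hb.dvd
    apply orderOf_dvd_of_pow_eq_one
    rw [← zpow_natCast, ← zpow_mul]
    have : (a : ℤ) * A * (b : ℤ) = ((a * b : ℕ) : ℤ) * A := by push_cast; ring
    rw [this, zpow_mul, zpow_natCast, hg1, one_zpow]

theorem mem_centralizer_of_piElt {π : Set ℕ} {G : Type*} [Group G] [Finite G] (H : Subgroup G)
    (hrel : PiC π ((Subgroup.centralizer (H : Set G)).relIndex (Subgroup.normalizer (H : Set G))))
    (u : G) (hu : u ∈ Subgroup.normalizer (H : Set G)) (hπu : PiN π (orderOf u)) :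
    u ∈ Subgroup.centralizer (H : Set G) := by
  set N := Subgroup.normalizer (H : Set G) with hN
  set C' : Subgroup N := (Subgroup.centralizer (H : Set G)).subgroupOf N with hC'
  haveI hnorm : C'.Normal := by
    rw [hC', hN, ← Subgroup.normalizerMonoidHom_ker]
    exact MonoidHom.normal_ker _
  have h1 : (⟨u, hu⟩ : N) ^ C'.index ∈ C' := Subgroup.pow_index_mem C' _
  have h2 : u ^ C'.index ∈ Subgroup.centralizer (H : Set G) := by
    rw [hC', Subgroup.mem_subgroupOf] at h1
    simpa using h1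
  have hc : (C'.index).Coprime (orderOf u) := (coprime_of hπu hrel).symm
  obtain ⟨m, hm⟩ := exists_pow_eq_self_of_coprime hc
  rw [← hm]
  exact Subgroup.pow_mem _ h2 m

theorem mem_centralizer_of_mul {π : Set ℕ} {Q : Type*} [Group Q] [Finite Q] (R : Subgroup Q)
    (x k : Q) (hx : x ∈ Subgroup.normalizer (R : Set Q))
    (hxk : x * k ∈ Subgroup.centralizer (R : Set Q))
    (hπ : PiN π (orderOf x)) (hk : PiC π (orderOf k)) :
    x ∈ Subgroup.centralizer (R : Set Q) := by
  set y := k⁻¹ with hy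
  set w := x * k with hw
  have hxwy : x = w * y := by simp [hw, hy]
  have hwn : w ∈ Subgroup.normalizer (R : Set Q) := by
    rw [Subgroup.mem_normalizer_iff]
    intro t
    rw [Subgroup.mem_centralizer_iff] at hxk
    constructor
    · intro ht
      have := hxk t ht
      rw [← this]
      simpa using ht
    · intro ht
      have h1 : w⁻¹ * (w * t * w⁻¹) * w = t := by group
      have h2 := hxk _ ht
      have h3 : w * t * w⁻¹ = t := by
        have h4 : w * t * w⁻¹ * w = w * (w * t * w⁻¹) := h2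
        have h5 : t = w * t * w⁻¹ := by
          have : w * t = w * (w * t * w⁻¹) := by
            rw [← h4]; group
          exact mul_left_cancel this
        exact h5.symm
      rw [← h3]; exact ht
  have hyn : y ∈ Subgroup.normalizer (R : Set Q) := by
    have : y = w⁻¹ * x := by simp [hxwy]
    rw [this]
    exact Subgroup.mul_mem _ (Subgroup.inv_mem _ hwn) hx
  have hconj : ∀ t ∈ R, x * t * x⁻¹ = y * t * y⁻¹ := by
    intro t ht
    have h1 : y * t * y⁻¹ ∈ R := (Subgroup.mem_normalizer_iff.mp hyn t).mp ht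
    have h2 := (Subgroup.mem_centralizer_iff.mp hxk) _ h1
    calc x * t * x⁻¹ = w * (y * t * y⁻¹) * w⁻¹ := by rw [hxwy]; group
      _ = y * t * y⁻¹ := by rw [← h2]; group
  have hxR : ∀ t ∈ R, x * t * x⁻¹ ∈ R := fun t ht => (Subgroup.mem_normalizer_iff.mp hx t).mp ht
  have hind : ∀ n : ℕ, ∀ t ∈ R, x ^ n * t * (x ^ n)⁻¹ = y ^ n * t * (y ^ n)⁻¹ := by
    intro n
    induction n with
    | zero => intro t _; simp
    | succ n ih =>
      intro t ht
      have h1 := ih _ (hxR t ht)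
      have h2 := hconj t ht
      calc x ^ (n + 1) * t * (x ^ (n + 1))⁻¹ = x ^ n * (x * t * x⁻¹) * (x ^ n)⁻¹ := by
            rw [pow_succ]; group
        _ = y ^ n * (x * t * x⁻¹) * (y ^ n)⁻¹ := h1
        _ = y ^ n * (y * t * y⁻¹) * (y ^ n)⁻¹ := by rw [h2]
        _ = y ^ (n + 1) * t * (y ^ (n + 1))⁻¹ := by rw [pow_succ]; group
  have horder : orderOf y = orderOf k := by rw [hy, orderOf_inv]
  have hcent : x ^ orderOf y ∈ Subgroup.centralizer (R : Set Q) := by
    rw [Subgroup.mem_centralizer_iff]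
    intro t ht
    have := hind (orderOf y) t ht
    rw [pow_orderOf_eq_one] at this
    simp only [one_mul, inv_one, mul_one] at this
    calc t * x ^ orderOf y = x ^ orderOf y * t * (x ^ orderOf y)⁻¹ * x ^ orderOf y := by rw [this]
      _ = x ^ orderOf y * t := by group
  have hc : (orderOf y).Coprime (orderOf x) := by
    rw [horder]
    exact (coprime_of hπ hk).symm
  obtain ⟨m, hm⟩ := exists_pow_eq_self_of_coprime hc
  rw [← hm]
  exact Subgroup.pow_mem _ hcent m

theorem exists_mul_mem_centralizer {π : Set ℕ} {G : Type*} [Group G] [Finite G]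
    (hhom : ∀ H : Subgroup G, H ≠ ⊥ → (∀ p : ℕ, p.Prime → p ∣ Nat.card ↥H → p ∉ π) →
      ∀ p : ℕ, p.Prime →
        p ∣ (Subgroup.centralizer (H : Set G)).relIndex (Subgroup.normalizer (H : Set G)) → p ∉ π)
    (K : Subgroup G) [K.Normal] (q : ℕ) [hq' : Fact q.Prime] (hq : q ∉ π) (S : Sylow q K)
    (x : G) (hx : PiN π (orderOf x)) :
    ∃ k ∈ K, x * k ∈ Subgroup.centralizer
      (((S : Subgroup K).map K.subtype : Subgroup G) : Set G) := by
  set S' : Subgroup G := (S : Subgroup K).map K.subtype with hS'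
  by_cases hbot : S' = ⊥
  · refine ⟨1, K.one_mem, ?_⟩
    rw [hbot, Subgroup.mem_centralizer_iff]
    intro t ht
    have : t = 1 := by simpa using ht
    simp [this]
  have hcard : ∀ p : ℕ, p.Prime → p ∣ Nat.card S' → p ∉ π := by
    intro p hp hd
    have h1 : Nat.card S' = Nat.card S :=
      (Nat.card_congr (Subgroup.equivMapOfInjective (S : Subgroup K) K.subtype
        Subtype.coe_injective).toEquiv).symm
    rw [h1] at hd
    obtain ⟨n, hn⟩ := IsPGroup.iff_card.mp S.isPGroup'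
    rw [hn] at hd
    have := (Nat.prime_dvd_prime_iff_eq hp hq'.out).mp (hp.dvd_of_dvd_pow hd)
    rw [this]
    exact hq
  have hsup := Sylow.normalizer_sup_eq_top S
  have hxm : x ∈ ((Subgroup.normalizer (S' : Set G) ⊔ K : Subgroup G) : Set G) := by
    rw [hsup]; trivial
  rw [Subgroup.mul_normal] at hxm
  obtain ⟨n, hn, k₀, hk₀, rfl⟩ := Set.mem_mul.mp hxm
  obtain ⟨u, v, huv, hun, hvn, hπu, hπv⟩ := exists_split π n
  have hvK : v ∈ K := by
    have h1 : orderOf (QuotientGroup.mk' K v) ∣ orderOf v := orderOf_map_dvd _ _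
    have h2 : QuotientGroup.mk' K v ∈ Subgroup.zpowers (QuotientGroup.mk' K n) := by
      obtain ⟨i, rfl⟩ := hvn
      exact ⟨i, by simp⟩
    have h3 : orderOf (QuotientGroup.mk' K v) ∣ orderOf (QuotientGroup.mk' K n) :=
      orderOf_dvd_of_mem_zpowers h2
    have h4 : QuotientGroup.mk' K n = QuotientGroup.mk' K (n * k₀) := by
      have h0 : QuotientGroup.mk' K k₀ = 1 := (QuotientGroup.eq_one_iff k₀).mpr hk₀
      rw [map_mul, h0, mul_one]
    have h5 : orderOf (QuotientGroup.mk' K n) ∣ orderOf (n * k₀) := by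
      rw [h4]; exact orderOf_map_dvd _ _
    have h6 : orderOf (QuotientGroup.mk' K v) = 1 :=
      eq_one_of_piN_piC (hx.dvd (h3.trans h5)) (hπv.dvd h1)
    rw [orderOf_eq_one_iff] at h6
    exact (QuotientGroup.eq_one_iff v).mp h6
  refine ⟨k₀⁻¹ * v⁻¹, K.mul_mem (K.inv_mem hk₀) (K.inv_mem hvK), ?_⟩
  have hres : n * k₀ * (k₀⁻¹ * v⁻¹) = u := by
    rw [← huv]; group
  rw [hres]
  have hun' : u ∈ Subgroup.normalizer (S' : Set G) :=
    (Subgroup.zpowers_le.mpr hn) hun
  refine mem_centralizer_of_piElt S' ?_ u hun' hπu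
  intro p hp hd
  exact hhom S' hbot hcard p hp hd

theorem eq_top_of_forall_sylow_le {K : Type*} [Group K] [Finite K] (W : Subgroup K)
    (h : ∀ q : ℕ, q.Prime → ∃ P : Sylow q K, (P : Subgroup K) ≤ W) : W = ⊤ := by
  by_contra hne
  have hidx : W.index ≠ 1 := by
    rw [Ne, Subgroup.index_eq_one]
    exact hne
  obtain ⟨q, hq, hqd⟩ := Nat.exists_prime_and_dvd hidx
  obtain ⟨P, hP⟩ := h q hq
  haveI : Fact q.Prime := ⟨hq⟩
  have h1 := Subgroup.relIndex_mul_index hP
  exact P.not_dvd_index (h1 ▸ Dvd.dvd.mul_left hqd _)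

theorem cent_quotient {π : Set ℕ} {G Q : Type*} [Group G] [Finite G] [Group Q] [Finite Q]
    (hhom : ∀ H : Subgroup G, H ≠ ⊥ → (∀ p : ℕ, p.Prime → p ∣ Nat.card ↥H → p ∉ π) →
      ∀ p : ℕ, p.Prime →
        p ∣ (Subgroup.centralizer (H : Set G)).relIndex (Subgroup.normalizer (H : Set G)) → p ∉ π)
    (K : Subgroup G) [K.Normal] (φ : G →* Q) (hφ : Function.Surjective φ)
    (hKb : PiC π (Nat.card (K.map φ))) (x : G) (hx : PiN π (orderOf x)) :
    φ x ∈ Subgroup.centralizer ((K.map φ : Subgroup Q) : Set Q) := by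
  classical
  set Kb : Subgroup Q := K.map φ with hKbdef
  haveI hKbN : Kb.Normal := Subgroup.Normal.map inferInstance φ hφ
  have hxb : PiN π (orderOf (φ x)) := hx.dvd (orderOf_map_dvd _ _)
  have hcop : (Nat.card (Subgroup.zpowers (φ x))).Coprime (Nat.card Kb) := by
    rw [Nat.card_zpowers]
    exact coprime_of hxb hKb
  have hAK : Subgroup.zpowers (φ x) ≤ Subgroup.normalizer (Kb : Set Q) := by
    rw [Subgroup.normalizer_eq_top_iff.mpr hKbN]
    exact le_top
  have hsolv : Group.IsSolvable (Subgroup.zpowers (φ x)) := inferInstance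
  -- centraliser inside `Kb`
  set W : Subgroup Kb :=
    (Subgroup.centralizer (Subgroup.zpowers (φ x) : Set Q)).subgroupOf Kb with hW
  have htop : W = ⊤ := by
    apply Cfsg.Agent.S4051.eq_top_of_forall_sylow_le
    intro q hq
    haveI : Fact q.Prime := ⟨hq⟩
    obtain ⟨P, hP⟩ := Lib.Coprime.InvSylow.exists_invariant_sylow hAK hcop (Or.inl hsolv) q
    refine ⟨P, ?_⟩
    set R : Subgroup Q := (P : Subgroup Kb).map Kb.subtype with hR
    have hxR : φ x ∈ Subgroup.normalizer (R : Set Q) := hP (Subgroup.mem_zpowers _)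
    have hxcent : φ x ∈ Subgroup.centralizer (R : Set Q) := by
      by_cases hqπ : q ∈ π
      · have hdiv : ¬ q ∣ Nat.card Kb := fun h => hKb q hq h hqπ
        rw [Subgroup.mem_centralizer_iff]
        rintro _ ⟨t, ht, rfl⟩
        have ht1 : t = 1 := by
          obtain ⟨n, hn⟩ := IsPGroup.iff_orderOf.mp P.isPGroup' ⟨t, ht⟩
          have hd : orderOf t ∣ Nat.card Kb := orderOf_dvd_natCard t
          have hn' : orderOf t = q ^ n := by
            rw [← hn]; exact (Subgroup.orderOf_mk t ht).symm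
          rcases n with _ | n
          · simpa using hn'
          · exfalso
            apply hdiv
            rw [hn'] at hd
            exact (dvd_pow_self q (Nat.succ_ne_zero n)).trans hd
        simp [ht1]
      · obtain ⟨S, hS⟩ := Sylow.mapSurjective_surjective
          (φ.subgroupMap_surjective K) q P
        have hRmap : R = ((S : Subgroup K).map K.subtype).map φ := by
          rw [hR, ← hS, Sylow.coe_mapSurjective, Subgroup.map_map, Subgroup.map_map]
          rfl
        obtain ⟨k, hk, hxk⟩ := exists_mul_mem_centralizer hhom K q hqπ S x hx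
        refine mem_centralizer_of_mul (π := π) R (φ x) (φ k) hxR ?_ hxb ?_
        · rw [Subgroup.mem_centralizer_iff, hRmap]
          rintro _ ⟨s, hs, rfl⟩
          have := (Subgroup.mem_centralizer_iff.mp hxk) s hs
          simp only [← map_mul]
          rw [this]
        · have hkb : φ k ∈ Kb := ⟨k, hk, rfl⟩
          have : orderOf (φ k) ∣ Nat.card Kb := by
            have h := orderOf_dvd_natCard (⟨φ k, hkb⟩ : Kb)
            rwa [Subgroup.orderOf_mk] at h
          exact hKb.dvd this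
    intro t ht
    rw [hW, Subgroup.mem_subgroupOf, Subgroup.mem_centralizer_iff]
    rintro _ hz
    obtain ⟨i, rfl⟩ := hz
    have h1 := (Subgroup.mem_centralizer_iff.mp hxcent) (t : Q) ⟨t, ht, rfl⟩
    have h2 : Commute (t : Q) (φ x) := h1
    exact (h2.zpow_right i).eq.symm ▸ rfl
  rw [Subgroup.mem_centralizer_iff]
  intro t ht
  have h1 : (⟨t, ht⟩ : Kb) ∈ W := by rw [htop]; trivial
  rw [hW, Subgroup.mem_subgroupOf, Subgroup.mem_centralizer_iff] at h1
  exact (h1 (φ x) (Subgroup.mem_zpowers _)).symm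

theorem mul_piElt_of_central {π : Set ℕ} {Q W : Type*} [Group Q] [Finite Q] [Group W] [Finite W]
    (Kb : Subgroup Q) (ψ : Q →* W) (LW : Subgroup W) (hker : ψ.ker ≤ Kb)
    (hKb : PiC π (Nat.card Kb)) (hLW : PiN π (Nat.card LW)) (t₁ t₂ : Q)
    (h₁ : t₁ ∈ Subgroup.centralizer (Kb : Set Q)) (h₂ : t₂ ∈ Subgroup.centralizer (Kb : Set Q))
    (h₁' : ψ t₁ ∈ LW) (h₂' : ψ t₂ ∈ LW)
    (hπ₁ : PiN π (orderOf t₁)) (hπ₂ : PiN π (orderOf t₂)) : PiN π (orderOf (t₁ * t₂)) := by
  classical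
  set Cm : Subgroup Q := Subgroup.centralizer (Kb : Set Q) ⊓ LW.comap ψ with hCm
  set f : Cm →* W := ψ.comp Cm.subtype with hf
  set N : Subgroup Cm := f.ker with hN
  have hNK : ∀ z ∈ N, (z : Q) ∈ Kb := fun z hz => hker hz
  have hcardN : PiC π (Nat.card N) := by
    apply hKb.dvd
    have h1 : N.map Cm.subtype ≤ Kb := by
      rintro _ ⟨z, hz, rfl⟩
      exact hNK z hz
    have h2 := Subgroup.card_dvd_of_le h1
    have h3 : Nat.card (N.map Cm.subtype) = Nat.card N :=
      (Nat.card_congr (Subgroup.equivMapOfInjective N Cm.subtype Subtype.coe_injective).toEquiv).symm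
    rwa [h3] at h2
  have hidx : PiN π N.index := by
    have h1 : N.index = Nat.card f.range := Subgroup.index_ker f
    rw [h1]
    apply hLW.dvd
    apply Subgroup.card_dvd_of_le
    rintro _ ⟨z, rfl⟩
    exact (Subgroup.mem_inf.mp z.2).2
  haveI : N.Normal := MonoidHom.normal_ker f
  obtain ⟨H, hH⟩ := Subgroup.exists_right_complement'_of_coprime (coprime_of hidx hcardN).symm
  have hHcard : PiN π (Nat.card H) := by
    rw [← hH.symm.index_eq_card]
    exact hidx
  have hcentral : ∀ z ∈ N, ∀ c : Cm, z * c = c * z := by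
    intro z hz c
    apply Subtype.ext
    exact (Subgroup.mem_centralizer_iff.mp (Subgroup.mem_inf.mp c.2).1) _ (hNK z hz)
  have hkey : ∀ t : Cm, PiN π (orderOf t) → t ∈ H := by
    intro t ht
    obtain ⟨⟨n, h⟩, hnh⟩ := hH.2 t
    have hnh' : (n : Cm) * (h : Cm) = t := hnh
    have hcomm : Commute (n : Cm) (h : Cm) := hcentral n n.2 h
    set e := orderOf t * Nat.card H with he
    have heπ : PiN π e := ht.mul hHcard
    have h1 : t ^ e = 1 := by rw [he, pow_mul, pow_orderOf_eq_one, one_pow]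
    have h2 : (h : Cm) ^ e = 1 := by
      rw [he, mul_comm, pow_mul]
      have : (h : Cm) ^ Nat.card H = 1 := by
        have := pow_card_eq_one' (x := h)
        exact_mod_cast congrArg Subtype.val this
      rw [this, one_pow]
    have h3 : (n : Cm) ^ e = 1 := by
      rw [← hnh', hcomm.mul_pow, h2, mul_one] at h1
      exact h1
    have h4 : orderOf (n : Cm) ∣ e := orderOf_dvd_of_pow_eq_one h3
    have h5 : orderOf (n : Cm) ∣ Nat.card N := by
      have := orderOf_dvd_natCard n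
      rw [Subgroup.orderOf_coe]
      exact this
    have h6 : orderOf (n : Cm) = 1 := eq_one_of_piN_piC (heπ.dvd h4) (hcardN.dvd h5)
    rw [orderOf_eq_one_iff] at h6
    rw [← hnh', h6, one_mul]
    exact h.2
  have m₁ : t₁ ∈ Cm := Subgroup.mem_inf.mpr ⟨h₁, h₁'⟩
  have m₂ : t₂ ∈ Cm := Subgroup.mem_inf.mpr ⟨h₂, h₂'⟩
  have k₁ : (⟨t₁, m₁⟩ : Cm) ∈ H := hkey _ (by rwa [Subgroup.orderOf_mk])
  have k₂ : (⟨t₂, m₂⟩ : Cm) ∈ H := hkey _ (by rwa [Subgroup.orderOf_mk])
  have k₃ := H.mul_mem k₁ k₂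
  have h7 := orderOf_dvd_natCard (⟨_, k₃⟩ : H)
  rw [Subgroup.orderOf_mk] at h7
  have h8 : orderOf ((⟨t₁, m₁⟩ : Cm) * (⟨t₂, m₂⟩ : Cm)) = orderOf (t₁ * t₂) := by
    rw [← Subgroup.orderOf_coe]
    rfl
  rw [h8] at h7
  exact hHcard.dvd h7

/-- Let π be a set of primes and G a finite group such that N_G(H)/C_G(H) is a π'-group for every nontrivial π'-subgroup H of G. If K is a normal subgroup of G such that the π-elements of K form a subgroup and the π-elements of G/K form a subgroup, then the π-elements of G form a subgroup. -/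
theorem result {G : Type*} [Group G] [Finite G] (π : Set ℕ)
    (hπ : ∀ p ∈ π, p.Prime) (hhom : (∀ H : Subgroup G, H ≠ ⊥ → (∀ p : ℕ, p.Prime → p ∣ Nat.card ↥H → p ∉ π) →
        ∀ p : ℕ, p.Prime → p ∣ (Subgroup.centralizer (H : Set G)).relIndex (Subgroup.normalizer (H : Set G)) → p ∉ π))
    (K : Subgroup G) [K.Normal]
    (hK : ∃ L : Subgroup ↥K, ∀ x : ↥K, x ∈ L ↔ ∀ p : ℕ, p.Prime → p ∣ orderOf x → p ∈ π)
    (hQ : ∃ L : Subgroup (G ⧸ K), ∀ x : G ⧸ K, x ∈ L ↔ ∀ p : ℕ, p.Prime → p ∣ orderOf x → p ∈ π) :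
    (∃ K : Subgroup G, ∀ x : G, x ∈ K ↔ ∀ p : ℕ, p.Prime → p ∣ orderOf x → p ∈ π) := by
  classical
  obtain ⟨L, hL⟩ := hK
  obtain ⟨LQ, hLQ⟩ := hQ
  set L' : Subgroup G := L.map K.subtype with hL'
  have memL' : ∀ g, g ∈ L' ↔ g ∈ K ∧ PiN π (orderOf g) := by
    intro g
    constructor
    · rintro ⟨ℓ, hℓ, rfl⟩
      refine ⟨ℓ.2, ?_⟩
      have := (hL ℓ).mp hℓ
      intro p hp hd
      apply this p hp
      rwa [← Subgroup.orderOf_coe]
    · rintro ⟨hg, hπg⟩
      refine ⟨⟨g, hg⟩, (hL _).mpr ?_, rfl⟩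
      rw [Subgroup.orderOf_mk]
      exact hπg
  haveI hL'n : L'.Normal := by
    constructor
    intro ℓ hℓ g
    obtain ⟨h1, h2⟩ := (memL' ℓ).mp hℓ
    rw [memL']
    refine ⟨Subgroup.Normal.conj_mem inferInstance ℓ h1 g, ?_⟩
    have : orderOf (g * ℓ * g⁻¹) = orderOf ℓ := by
      have := MulEquiv.orderOf_eq (MulAut.conj g) ℓ
      simpa [MulAut.conj_apply] using this
    rwa [this]
  have cardL' : PiN π (Nat.card L') := by
    intro p hp hd
    haveI : Fact p.Prime := ⟨hp⟩
    obtain ⟨z, hz⟩ := exists_prime_orderOf_dvd_card' p hd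
    have h1 := ((memL' z).mp z.2).2
    rw [Subgroup.orderOf_coe, hz] at h1
    exact h1 p hp dvd_rfl
  set φ : G →* G ⧸ L' := QuotientGroup.mk' L' with hφ
  have φsurj : Function.Surjective φ := QuotientGroup.mk'_surjective L'
  have φker : ∀ g, φ g = 1 ↔ g ∈ L' := fun g => QuotientGroup.eq_one_iff g
  have cardKb : PiC π (Nat.card (K.map φ)) := by
    intro p hp hd
    haveI : Fact p.Prime := ⟨hp⟩
    obtain ⟨z, hz⟩ := exists_prime_orderOf_dvd_card' p hd
    obtain ⟨k, hk, hkz⟩ := z.2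
    obtain ⟨u, v, huv, hun, hvn, hπu, hπv⟩ := exists_split π k
    have huK : u ∈ K := (Subgroup.zpowers_le.mpr hk) hun
    have hφu : φ u = 1 := (φker u).mpr ((memL' u).mpr ⟨huK, hπu⟩)
    have h1 : φ k = φ v := by rw [← huv, map_mul, hφu, one_mul]
    have h2 : p = orderOf (φ v) := by
      rw [← h1, hkz, ← hz, Subgroup.orderOf_coe]
    have h3 : orderOf (φ v) ∣ orderOf v := orderOf_map_dvd _ _
    rw [← h2] at h3
    exact hπv p hp h3
  have hLQcard : PiN π (Nat.card LQ) := by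
    intro p hp hd
    haveI : Fact p.Prime := ⟨hp⟩
    obtain ⟨z, hz⟩ := exists_prime_orderOf_dvd_card' p hd
    have h1 := (hLQ z).mp z.2
    rw [Subgroup.orderOf_coe, hz] at h1
    exact h1 p hp dvd_rfl
  have hle : L' ≤ K := fun g hg => ((memL' g).mp hg).1
  set ψ : G ⧸ L' →* G ⧸ K := QuotientGroup.map L' K (MonoidHom.id G) hle with hψ
  have ψφ : ∀ g, ψ (φ g) = QuotientGroup.mk' K g := fun g => rfl
  have hker : ψ.ker ≤ K.map φ := by
    intro t ht
    obtain ⟨g, rfl⟩ := φsurj t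
    rw [MonoidHom.mem_ker, ψφ] at ht
    exact ⟨g, (QuotientGroup.eq_one_iff g).mp ht, rfl⟩
  have hclosed : ∀ x y : G, PiN π (orderOf x) → PiN π (orderOf y) → PiN π (orderOf (x * y)) := by
    intro x y hx hy
    have hLx : ∀ z : G, PiN π (orderOf z) → ψ (φ z) ∈ LQ := by
      intro z hz
      rw [ψφ]
      exact (hLQ _).mpr (hz.dvd (orderOf_map_dvd _ _))
    have h1 := mul_piElt_of_central (K.map φ) ψ LQ hker cardKb hLQcard (φ x) (φ y)
      (cent_quotient hhom K φ φsurj cardKb x hx) (cent_quotient hhom K φ φsurj cardKb y hy)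
      (hLx x hx) (hLx y hy) (hx.dvd (orderOf_map_dvd _ _)) (hy.dvd (orderOf_map_dvd _ _))
    rw [← map_mul] at h1
    set w := x * y with hw
    have h2 : w ^ orderOf (φ w) ∈ L' := by
      rw [← φker, map_pow, pow_orderOf_eq_one]
    have h3 : orderOf (w ^ orderOf (φ w)) ∣ Nat.card L' := by
      have := orderOf_dvd_natCard (⟨_, h2⟩ : L')
      rwa [Subgroup.orderOf_mk] at this
    have h4 : w ^ (orderOf (φ w) * Nat.card L') = 1 := by
      rw [pow_mul]
      exact orderOf_dvd_iff_pow_eq_one.mp h3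
    exact (h1.mul cardL').dvd (orderOf_dvd_of_pow_eq_one h4)
  refine ⟨{ carrier := {g | PiN π (orderOf g)}
            mul_mem' := fun {a b} ha hb => hclosed a b ha hb
            one_mem' := ?_
            inv_mem' := ?_ }, fun x => Iff.rfl⟩
  · intro p hp hd
    rw [orderOf_one] at hd
    exact absurd (Nat.dvd_one.mp hd) hp.ne_one
  · intro a ha
    show PiN π (orderOf a⁻¹)
    rw [orderOf_inv]
    exact ha

end Cfsg.Agent.S4051
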