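import Cfsg.Statements.S4057
import Cfsg.Agent.Lib.PRank.PCentral
import Cfsg.Agent.Lib.PRank.OmegaC
import Cfsg.Agent.Lib.PRank.Levels
import Cfsg.Agent.Lib.PRank.Flag

set_option autoImplicit false
set_option linter.unusedSectionVars false
set_option linter.unusedVariables false
set_option linter.style.haveILetI false
open Cfsg

namespace Cfsg.Agent.S4057

open Subgroup Cfsg.Agent.Lib.PRank

/-- An elementary abelian group generated by `k` elements has order at most `p ^ k`. -/
theorem card_le_of_gens {P : Type*} [Group P] [Finite P] {p : ℕ} [hp : Fact p.Prime]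
    {A : Subgroup P} (hAe : Cfsg.IsElementaryAbelian p A) (S : Finset P)
    (hS : closure (S : Set P) = A) : Nat.card A ≤ p ^ S.card := by
  classical
  have hAe' := Cfsg.Agent.Lib.PGroup.Basic.isElementaryAbelian_iff.mp hAe
  subst hS
  have hSA : ∀ T : Finset P, T ⊆ S → Nat.card (closure (T : Set P)) ≤ p ^ T.card := by
    intro T
    induction T using Finset.induction_on with
    | empty =>
      intro _
      simp
    | insert a T ha ih =>
      intro hT
      have haS : a ∈ closure (S : Set P) := subset_closure (hT (Finset.mem_insert_self a T))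
      have hTS : T ⊆ S := fun x hx => hT (Finset.mem_insert_of_mem hx)
      have hle : closure (T : Set P) ≤ closure (S : Set P) := closure_mono hTS
      have hih := ih hTS
      -- the new subgroup is the product
      have hcl : closure ((insert a T : Finset P) : Set P) = closure (T : Set P) ⊔ zpowers a := by
        rw [Finset.coe_insert, Set.insert_eq, Subgroup.closure_union, sup_comm,
          Subgroup.zpowers_eq_closure]
      have hcomm : ∀ x ∈ closure (T : Set P), ∀ y ∈ zpowers a, x * y = y * x := by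
        intro x hx y hy
        exact hAe'.1 x (hle hx) y ((zpowers_le).mpr haS hy)
      set H := closure (T : Set P) with hHdef
      set K := zpowers a with hKdef
      let F : H × K → P := fun q => (q.1 : P) * (q.2 : P)
      let Y : Subgroup P :=
        { carrier := Set.range F
          one_mem' := ⟨(1, 1), by simp [F]⟩
          mul_mem' := by
            rintro _ _ ⟨q, rfl⟩ ⟨q', rfl⟩
            refine ⟨(q.1 * q'.1, q.2 * q'.2), ?_⟩
            show ((q.1 : P) * q'.1) * ((q.2 : P) * q'.2) = (q.1 * q.2) * (q'.1 * q'.2)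
            have := hcomm q'.1 q'.1.2 q.2 q.2.2
            calc ((q.1 : P) * q'.1) * ((q.2 : P) * q'.2)
                = q.1 * (q'.1 * q.2) * q'.2 := by group
              _ = q.1 * (q.2 * q'.1) * q'.2 := by rw [this]
              _ = _ := by group
          inv_mem' := by
            rintro _ ⟨q, rfl⟩
            refine ⟨(q.1⁻¹, q.2⁻¹), ?_⟩
            show (q.1 : P)⁻¹ * (q.2 : P)⁻¹ = ((q.1 : P) * q.2)⁻¹
            have := hcomm q.1 q.1.2 q.2 q.2.2
            rw [mul_inv_rev, ← mul_inv_rev, ← mul_inv_rev, this] }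
      have hHY : H ≤ Y := fun x hx => ⟨(⟨x, hx⟩, 1), by simp [F]⟩
      have hKY : K ≤ Y := fun x hx => ⟨(1, ⟨x, hx⟩), by simp [F]⟩
      have hXY : H ⊔ K ≤ Y := sup_le hHY hKY
      have hcardle : Nat.card (H ⊔ K : Subgroup P) ≤ Nat.card (H × K) := by
        let F' : H × K → (H ⊔ K : Subgroup P) := fun q =>
          ⟨(q.1 : P) * (q.2 : P), (H ⊔ K).mul_mem (Subgroup.mem_sup_left q.1.2)
            (Subgroup.mem_sup_right q.2.2)⟩
        apply Nat.card_le_card_of_surjective F'
        rintro ⟨x, hx⟩
        obtain ⟨q, hq⟩ := hXY hx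
        exact ⟨q, Subtype.ext hq⟩
      have hKcard : Nat.card K ≤ p := by
        rw [hKdef, Nat.card_zpowers]
        have h1 : a ^ p = 1 := hAe'.2 a haS
        exact Nat.le_of_dvd hp.out.pos (orderOf_dvd_of_pow_eq_one h1)
      rw [Nat.card_prod] at hcardle
      rw [hcl, Finset.card_insert_of_notMem ha, pow_succ]
      exact hcardle.trans (Nat.mul_le_mul hih hKcard)
  exact hSA S (Finset.Subset.refl S)

theorem result {P : Type*} [Group P] [Finite P] {p : ℕ} [Fact p.Prime]
    (hp : p ≠ 2) (hP : IsPGroup p P) (k : ℕ)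
    (hab : ∀ A : Subgroup P, A.Normal → IsMulCommutative A → ∃ S : Finset P, S.card ≤ k ∧ Subgroup.closure (S : Set P) = A) :
    ∀ H : Subgroup P, ∃ S : Finset P, S.card ≤ k * (k + 4) / 4 ∧ Subgroup.closure (S : Set P) = H := by
  classical
  intro H
  -- a maximal normal elementary abelian subgroup
  let SS : Set (Subgroup P) := {A | A.Normal ∧ Cfsg.IsElementaryAbelian p A}
  have hbot : (⊥ : Subgroup P) ∈ SS :=
    ⟨inferInstance, Cfsg.Agent.Lib.PGroup.Basic.isElementaryAbelian_bot⟩
  obtain ⟨A, -, hAmax⟩ := (Set.toFinite SS).exists_le_maximal hbot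
  obtain ⟨hAn, hAe⟩ := hAmax.1
  have hmax : ∀ B : Subgroup P, B.Normal → Cfsg.IsElementaryAbelian p B → A ≤ B → B ≤ A :=
    fun B hBn hBe hAB => hAmax.2 ⟨hBn, hBe⟩ hAB
  have hAe' := Cfsg.Agent.Lib.PGroup.Basic.isElementaryAbelian_iff.mp hAe
  -- the rank of `A`
  obtain ⟨r, hr, ρ, hU, hker⟩ := rep_of_normal hP hAn hAe
  have hAc : IsMulCommutative A := ⟨⟨fun a b => Subtype.ext (hAe'.1 a a.2 b b.2)⟩⟩
  obtain ⟨S0, hS0c, hS0⟩ := hab A hAn hAc
  have hrk : r ≤ k := by
    have h1 := card_le_of_gens hAe S0 hS0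
    rw [hr] at h1
    have h2 : p ^ r ≤ p ^ k := h1.trans (Nat.pow_le_pow_right (Fact.out : p.Prime).pos hS0c)
    exact (Nat.pow_le_pow_iff_right (Fact.out : p.Prime).one_lt).mp h2
  -- the matrix part
  obtain ⟨S2, hS2H, hS2c, hS2⟩ := patterson ρ hU H
  -- the centralizer part
  let C : Subgroup P := centralizer (A : Set P)
  let K : Subgroup P := H ⊓ C
  have hKp : IsPGroup p K := hP.to_subgroup K
  have hKom : ∀ x : K, x ^ p = 1 → (x : P) ∈ A := by
    intro x hx
    have h1 : (x : P) ^ p = 1 := by simpa using congrArg Subtype.val hx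
    exact omega_centralizer hp hP hAn hAe hmax x.2.2 h1
  have hKc : PCen p K := by
    intro x hx
    rw [mem_center_iff]
    intro y
    apply Subtype.ext
    have h1 := hKom x hx
    exact (mem_centralizer_iff.mp y.2.2) x h1 |>.symm
  obtain ⟨S1, hS1, hS1c⟩ := pcentral_gens hp hKp hKc
  have hS1r : S1.card ≤ r := by
    have h1 : Nat.card (om1 hKc) ≤ Nat.card A := by
      let f : om1 hKc → A := fun x => ⟨((x : K) : P), hKom x x.2⟩
      apply Nat.card_le_card_of_injective f
      intro a b hab
      apply Subtype.ext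
      apply Subtype.ext
      exact congrArg (fun z : A => (z : P)) hab
    have h2 : p ^ S1.card ≤ p ^ r := by rw [← hr]; exact hS1c.trans h1
    exact (Nat.pow_le_pow_iff_right (Fact.out : p.Prime).one_lt).mp h2
  -- assemble
  let S1' : Finset P := S1.image Subtype.val
  have hS1'c : S1'.card ≤ S1.card := Finset.card_image_le
  have hS1'K : closure (S1' : Set P) = K := by
    have : (S1' : Set P) = K.subtype '' (S1 : Set K) := by simp [S1']
    rw [this, ← MonoidHom.map_closure, hS1, ← MonoidHom.range_eq_map, range_subtype]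
  refine ⟨S1' ∪ S2, ?_, ?_⟩
  · have h1 : (S1' ∪ S2).card ≤ r + r ^ 2 / 4 :=
      (Finset.card_union_le _ _).trans (Nat.add_le_add (hS1'c.trans hS1r) hS2c)
    have h2 : r + r ^ 2 / 4 ≤ k + k ^ 2 / 4 :=
      Nat.add_le_add hrk (Nat.div_le_div_right (Nat.pow_le_pow_left hrk 2))
    have h3 : k * (k + 4) / 4 = k + k ^ 2 / 4 := by
      have : k * (k + 4) = k ^ 2 + 4 * k := by ring
      rw [this, Nat.add_mul_div_left _ _ (by norm_num), add_comm]
    rw [h3]
    exact h1.trans h2
  · apply le_antisymm
    · rw [closure_le]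
      intro x hx
      rcases Finset.mem_coe.mp hx |> Finset.mem_union.mp with h | h
      · have : x ∈ K := hS1'K ▸ subset_closure (Finset.mem_coe.mpr h)
        exact this.1
      · exact hS2H (Finset.mem_coe.mpr h)
    · intro h hh
      obtain ⟨h', hh', hρ⟩ := hS2 h hh
      have hL1 : closure (S2 : Set P) ≤ closure ((S1' ∪ S2 : Finset P) : Set P) :=
        closure_mono (by simp)
      have hL2 : K ≤ closure ((S1' ∪ S2 : Finset P) : Set P) := by
        rw [← hS1'K]
        exact closure_mono (by simp)
      have hh'H : h' ∈ H := by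
        have : closure (S2 : Set P) ≤ H := (closure_le _).mpr hS2H
        exact this hh'
      have hz : h'⁻¹ * h ∈ K := by
        refine ⟨H.mul_mem (H.inv_mem hh'H) hh, hker _ ?_⟩
        rw [map_mul, ← hρ, ← map_mul, inv_mul_cancel, map_one]
      have := (closure ((S1' ∪ S2 : Finset P) : Set P)).mul_mem (hL1 hh') (hL2 hz)
      simpa using this

end Cfsg.Agent.S4057
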