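import Cfsg.Statements.S4058
import Mathlib
import Cfsg.Agent.Lib.CharFS.Indicator
import Cfsg.Agent.Lib.Char.Values
import Cfsg.Agent.Lib.Char.Integrality
import Cfsg.Agent.Lib.Char.Ortho
import Cfsg.Agent.Lib.Char.OrthoBasic
import Cfsg.Agent.Lib.PGroup.Basic

set_option autoImplicit false
open Cfsg

namespace Cfsg.Agent.S4058

open Cfsg.Agent.Lib.CharFS.Indicator
open scoped ComplexConjugate

universe u

section Twist

variable {G : Type u} [Group G] [Fintype G] {E : Type*} [CommGroup E] [Finite E]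

/-- Twist of a function by a linear character pulled back along `π`. -/
noncomputable def tw (π : G →* E) (l : E →* ℂˣ) (χ : G → ℂ) : G → ℂ :=
  fun g => ((l (π g) : ℂˣ) : ℂ) * χ g

omit [Fintype G] in
theorem lam_mul_conj (l : E →* ℂˣ) (e : E) :
    ((l e : ℂˣ) : ℂ) * conj ((l e : ℂˣ) : ℂ) = 1 := by
  have h1 : ((l e : ℂˣ) : ℂ) ^ orderOf e = 1 := by
    rw [← Units.val_pow_eq_pow_val, ← map_pow, pow_orderOf_eq_one, map_one, Units.val_one]
  have h2 : ‖((l e : ℂˣ) : ℂ)‖ = 1 := Complex.norm_eq_one_of_pow_eq_one h1 (orderOf_pos e).ne'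
  rw [Complex.mul_conj, Complex.normSq_eq_norm_sq, h2]
  simp

theorem isIrr_tw (π : G →* E) (l : E →* ℂˣ) {χ : G → ℂ} (hχ : IsIrrCharacter G χ) :
    IsIrrCharacter G (tw π l χ) := by
  have hchar : IsCharacter G (tw π l χ) := by
    obtain ⟨n, ρ, -, rfl⟩ := hχ
    let ρ' : Representation ℂ G (Fin n → ℂ) :=
      { toFun := fun g => ((l (π g) : ℂˣ) : ℂ) • ρ g
        map_one' := by simp
        map_mul' := by
          intro x y
          simp only [map_mul, Units.val_mul]
          ext v x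
          simp [mul_smul]
          ring }
    refine ⟨n, ρ', ?_⟩
    funext g
    change LinearMap.trace ℂ _ (((l (π g) : ℂˣ) : ℂ) • ρ g) = _
    rw [map_smul]
    rfl
  apply Cfsg.Agent.Lib.Char.Ortho.isIrrCharacter_of_classInner_self_eq_one hchar
  rw [← Cfsg.Agent.Lib.Char.Ortho.classInner_irr_self hχ]
  simp only [classInner, tw]
  congr 1
  refine Finset.sum_congr rfl fun g _ => ?_
  rw [map_mul]
  have := lam_mul_conj l (π g)
  linear_combination (χ g * conj (χ g)) * this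

theorem tw_one (π : G →* E) (χ : G → ℂ) : tw π 1 χ = χ := by
  funext g
  simp [tw]

theorem tw_mul (π : G →* E) (l l' : E →* ℂˣ) (χ : G → ℂ) :
    tw π (l * l') χ = tw π l (tw π l' χ) := by
  funext g
  simp [tw, mul_assoc]

/-- Linear characters act on irreducible characters. -/
@[reducible] noncomputable def twAction (π : G →* E) : MulAction (E →* ℂˣ) (IrrCharacter G) where
  smul l χ := ⟨tw π l χ.1, isIrr_tw π l χ.2⟩
  one_smul χ := Subtype.ext (tw_one π χ.1)
  mul_smul l l' χ := Subtype.ext (tw_mul π l l' χ.1)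

/-- Sum of all linear characters at a non-identity element vanishes. -/
theorem sum_lam_eq_zero [Fintype (E →* ℂˣ)] [HasEnoughRootsOfUnity ℂ (Monoid.exponent E)]
    {e : E} (he : e ≠ 1) : ∑ l : E →* ℂˣ, ((l e : ℂˣ) : ℂ) = 0 := by
  obtain ⟨φ, hφ⟩ := CommGroup.exists_apply_ne_one_of_hasEnoughRootsOfUnity E ℂ he
  have h1 : ((φ e : ℂˣ) : ℂ) * ∑ l : E →* ℂˣ, ((l e : ℂˣ) : ℂ) = ∑ l : E →* ℂˣ, ((l e : ℂˣ) : ℂ) := by
    rw [Finset.mul_sum]
    exact Equiv.sum_comp (Equiv.mulLeft φ) (fun l : E →* ℂˣ => ((l e : ℂˣ) : ℂ))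
  have h2 : (((φ e : ℂˣ) : ℂ) - 1) * ∑ l : E →* ℂˣ, ((l e : ℂˣ) : ℂ) = 0 := by
    rw [sub_mul, one_mul, h1, sub_self]
  have h3 : ((φ e : ℂˣ) : ℂ) - 1 ≠ 0 := by
    rw [sub_ne_zero]
    intro h
    exact hφ (Units.ext h)
  exact (mul_eq_zero.1 h2).resolve_left h3

/-- Bound for the stabilizer of an irreducible character under the twisting action. -/
theorem card_stab_le [Fintype (E →* ℂˣ)] [HasEnoughRootsOfUnity ℂ (Monoid.exponent E)]
    (π : G →* E) (hπ : Function.Surjective π) {χ : G → ℂ} (hχ : IsIrrCharacter G χ) (deg : ℕ)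
    (hdeg : ∀ g, ‖χ g‖ ≤ (deg : ℝ)) :
    Nat.card {l : E →* ℂˣ // tw π l χ = χ} ≤ deg ^ 2 := by
  classical
  have : Fintype E := Fintype.ofFinite E
  have hGne : (Nat.card G : ℂ) ≠ 0 := by exact_mod_cast (Nat.card_pos (α := G)).ne'
  have hcardA : Nat.card (E →* ℂˣ) = Nat.card E :=
    CommGroup.card_monoidHom_of_hasEnoughRootsOfUnity E ℂ
  -- the cardinalities of kernel and image
  have hcardG : Nat.card G = Nat.card π.ker * Nat.card E := by
    have h1 := Subgroup.card_eq_card_quotient_mul_card_subgroup π.ker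
    have h2 : Nat.card (G ⧸ π.ker) = Nat.card E :=
      Nat.card_congr (QuotientGroup.quotientKerEquivOfSurjective π hπ).toEquiv
    rw [h1, h2, mul_comm]
  let w : G → ℝ := fun g => Complex.normSq (χ g)
  -- step 1
  have h1 : (Nat.card {l : E →* ℂˣ // tw π l χ = χ} : ℂ) =
      ∑ l : E →* ℂˣ, classInner (tw π l χ) χ := by
    simp only [Cfsg.Agent.Lib.Char.OrthoBasic.classInner_irr_irr (isIrr_tw π _ hχ) hχ]
    rw [Finset.sum_boole, Nat.card_eq_fintype_card, Fintype.card_subtype]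
  -- step 2
  have h2 : ∀ l : E →* ℂˣ, classInner (tw π l χ) χ =
      (Nat.card G : ℂ)⁻¹ * ∑ g : G, ((l (π g) : ℂˣ) : ℂ) * (w g : ℂ) := by
    intro l
    simp only [classInner, tw]
    congr 1
    refine Finset.sum_congr rfl fun g _ => ?_
    rw [mul_assoc, Complex.mul_conj]
  -- step 3
  have h3 : ∑ l : E →* ℂˣ, ∑ g : G, ((l (π g) : ℂˣ) : ℂ) * (w g : ℂ) =
      ∑ g : G, (if π g = 1 then (Nat.card E : ℂ) else 0) * (w g : ℂ) := by
    rw [Finset.sum_comm]
    refine Finset.sum_congr rfl fun g _ => ?_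
    rw [← Finset.sum_mul]
    congr 1
    split_ifs with h
    · rw [h]
      simp only [map_one, Units.val_one, Finset.sum_const, Finset.card_univ, nsmul_eq_mul, mul_one]
      rw [← Nat.card_eq_fintype_card, hcardA]
    · exact sum_lam_eq_zero h
  have hmain : (Nat.card {l : E →* ℂˣ // tw π l χ = χ} : ℝ) =
      (Nat.card G : ℝ)⁻¹ * ∑ g : G, (if π g = 1 then (Nat.card E : ℝ) else 0) * w g := by
    apply Complex.ofReal_injective
    push_cast
    rw [h1]
    simp only [h2]
    rw [← Finset.mul_sum, h3]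
    congr 1
    refine Finset.sum_congr rfl fun g _ => ?_
    split_ifs <;> simp
  have hwle : ∀ g, w g ≤ (deg : ℝ) ^ 2 := by
    intro g
    simp only [w]
    rw [Complex.normSq_eq_norm_sq]
    exact pow_le_pow_left₀ (norm_nonneg _) (hdeg g) 2
  have hsum : ∑ g : G, (if π g = 1 then (Nat.card E : ℝ) else 0) * w g ≤
      (Nat.card π.ker : ℝ) * (Nat.card E : ℝ) * (deg : ℝ) ^ 2 := by
    have e1 : ∑ g : G, (if π g = 1 then (Nat.card E : ℝ) else 0) * w g =
        ∑ g ∈ Finset.univ.filter (fun g => π g = 1), (Nat.card E : ℝ) * w g := by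
      rw [Finset.sum_filter]
      refine Finset.sum_congr rfl fun g _ => ?_
      split_ifs <;> simp
    rw [e1]
    have e2 : (Nat.card π.ker : ℝ) =
        ((Finset.univ.filter (fun g => π g = 1)).card : ℝ) := by
      congr 1
      apply Nat.subtype_card
      intro x
      simp [MonoidHom.mem_ker]
    rw [e2]
    calc ∑ g ∈ Finset.univ.filter (fun g => π g = 1), (Nat.card E : ℝ) * w g
        ≤ ∑ _g ∈ Finset.univ.filter (fun g => π g = 1), (Nat.card E : ℝ) * (deg : ℝ) ^ 2 :=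
          Finset.sum_le_sum fun g _ =>
            mul_le_mul_of_nonneg_left (hwle g) (Nat.cast_nonneg _)
      _ = _ := by
          rw [Finset.sum_const, nsmul_eq_mul]
          ring
  have hfinal : (Nat.card {l : E →* ℂˣ // tw π l χ = χ} : ℝ) ≤ (deg : ℝ) ^ 2 := by
    rw [hmain]
    have hGpos : (0 : ℝ) < (Nat.card G : ℝ) := by exact_mod_cast (Nat.card_pos (α := G))
    rw [inv_mul_le_iff₀ hGpos]
    calc _ ≤ (Nat.card π.ker : ℝ) * (Nat.card E : ℝ) * (deg : ℝ) ^ 2 := hsum
      _ = (Nat.card G : ℝ) * (deg : ℝ) ^ 2 := by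
          rw [hcardG]
          push_cast
          ring
  exact_mod_cast hfinal

/-- The indicator is invariant under twisting by real linear characters. -/
theorem nu_tw (π : G →* E) (hE : ∀ e : E, e ^ 2 = 1) (l : E →* ℂˣ) (χ : G → ℂ) :
    nu (tw π l χ) = nu χ := by
  simp only [nu, tw]
  congr 1
  refine Finset.sum_congr rfl fun x _ => ?_
  rw [map_pow, hE, map_one, Units.val_one, one_mul]

end Twist

/-- Orbit partition of a sum. -/
theorem dvd_sum_of_orbit {A X : Type*} [Group A] [MulAction A X] [Fintype X] (F : X → ℤ)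
    (hF : ∀ (a : A) x, F (a • x) = F x) (D : ℤ)
    (h : ∀ x, D ∣ (Nat.card (MulAction.orbit A x) : ℤ) * F x) : D ∣ ∑ x, F x := by
  classical
  let q : X → MulAction.orbitRel.Quotient A X := fun x => Quotient.mk'' x
  have : Fintype (MulAction.orbitRel.Quotient A X) := Fintype.ofFinite _
  rw [← Finset.sum_fiberwise Finset.univ q F]
  refine Finset.dvd_sum fun ω _ => ?_
  induction ω using Quotient.inductionOn' with
  | h x₀ =>
    have hmem : ∀ x, q x = q x₀ ↔ x ∈ MulAction.orbit A x₀ := by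
      intro x
      simp only [q]
      rw [Quotient.eq'']
      exact MulAction.orbitRel_apply
    have hsum : ∑ x ∈ Finset.univ.filter (fun x => q x = Quotient.mk'' x₀), F x =
        (Nat.card (MulAction.orbit A x₀) : ℤ) * F x₀ := by
      have hcard : (Finset.univ.filter (fun x => q x = Quotient.mk'' x₀)).card =
          Nat.card (MulAction.orbit A x₀) := by
        symm
        apply Nat.subtype_card
        intro x
        simp only [Finset.mem_filter, Finset.mem_univ, true_and]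
        exact hmem x
      rw [← hcard, Finset.sum_congr rfl (g := fun _ => F x₀)]
      · simp
      · intro x hx
        have h1 : x ∈ MulAction.orbit A x₀ := (hmem x).1 (Finset.mem_filter.1 hx).2
        obtain ⟨a, rfl⟩ := h1
        exact hF a x₀
    rw [hsum]
    exact h x₀

theorem main_generic {G : Type u} [Group G] [Fintype G] {E : Type*} [CommGroup E] [Finite E]
    (π : G →* E) (hπ : Function.Surjective π) (hE : ∀ e : E, e ^ 2 = 1) (hG : IsPGroup 2 G) (k : ℕ)
    (hgen : 2 ^ (2 * k + 1) ≤ Nat.card E) :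
    2 ^ (k + 1) ∣ Nat.card {x : G // x ^ 2 = 1} := by
  classical
  have hexp : NeZero ((Monoid.exponent E : ℕ) : ℂ) :=
    ⟨Nat.cast_ne_zero.2 Monoid.exponent_ne_zero_of_finite⟩
  have hroots : HasEnoughRootsOfUnity ℂ (Monoid.exponent E) := inferInstance
  have : Fintype (E →* ℂˣ) := Fintype.ofFinite _
  have : Fintype (IrrCharacter G) := Fintype.ofFinite _
  have hEp : IsPGroup 2 E := hG.of_surjective π hπ
  obtain ⟨d, hd⟩ := IsPGroup.iff_card.1 hEp
  have hcardA : Nat.card (E →* ℂˣ) = 2 ^ d := by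
    rw [CommGroup.card_monoidHom_of_hasEnoughRootsOfUnity E ℂ, hd]
  have hd' : 2 * k + 1 ≤ d := by
    rw [hd] at hgen
    exact (Nat.pow_le_pow_iff_right (by norm_num)).1 hgen
  obtain ⟨N, hN⟩ := IsPGroup.iff_card.1 hG
  -- degrees are powers of two
  have hdegs : ∀ χ : IrrCharacter G, ∃ a : ℕ, (χ : G → ℂ) 1 = ((2 ^ a : ℕ) : ℂ) ∧
      ∀ g, ‖(χ : G → ℂ) g‖ ≤ ((2 ^ a : ℕ) : ℝ) := by
    intro χ
    obtain ⟨n, ρ, hirr, hρ⟩ := χ.2
    have h1 : Module.finrank ℂ (Fin n → ℂ) ∣ Nat.card G :=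
      Cfsg.Agent.Lib.Char.Integrality.finrank_dvd_card ρ
    have h2 : Module.finrank ℂ (Fin n → ℂ) = n := by simp
    rw [h2, hN] at h1
    obtain ⟨a, -, ha⟩ := (Nat.dvd_prime_pow Nat.prime_two).1 h1
    refine ⟨a, ?_, ?_⟩
    · rw [← hρ, Representation.char_one, h2, ha]
    · intro g
      have := Cfsg.Agent.Lib.Char.Values.norm_character_le ρ g
      rw [h2, hρ, ha] at this
      exact this
  choose aa haa1 haa2 using hdegs
  have hnu : ∀ χ : IrrCharacter G, ∃ m : ℤ, nu (χ : G → ℂ) = m := by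
    intro χ
    obtain ⟨n, ρ, -, hρ⟩ := χ.2
    exact nu_eq_int ⟨n, ρ, hρ⟩
  choose mm hmm using hnu
  let F : IrrCharacter G → ℤ := fun χ => mm χ * 2 ^ aa χ
  have hsum : (Nat.card {x : G // x ^ 2 = 1} : ℤ) = ∑ χ, F χ := by
    have h1 := card_sqrt_one (G := G)
    have h2 : Nat.card {x : G // x ^ 2 = 1} = (Finset.univ.filter fun x : G => x ^ 2 = 1).card := by
      apply Nat.subtype_card
      intro x
      simp
    rw [h2]
    apply Int.cast_injective (α := ℂ)
    push_cast
    rw [h1]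
    refine Finset.sum_congr rfl fun χ _ => ?_
    simp only [F]
    push_cast
    rw [hmm χ, haa1 χ]
    push_cast
    rfl
  let _ := twAction (G := G) π
  have hsmul : ∀ (l : E →* ℂˣ) (χ : IrrCharacter G), ((l • χ : IrrCharacter G) : G → ℂ) =
      tw π l (χ : G → ℂ) := fun _ _ => rfl
  have hF : ∀ (l : E →* ℂˣ) (χ : IrrCharacter G), F (l • χ) = F χ := by
    intro l χ
    have h1 : mm (l • χ) = mm χ := by
      apply Int.cast_injective (α := ℂ)
      rw [← hmm, ← hmm, hsmul, nu_tw π hE]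
    have h2 : (2 : ℤ) ^ aa (l • χ) = 2 ^ aa χ := by
      have h3 : ((2 ^ aa (l • χ) : ℕ) : ℂ) = ((2 ^ aa χ : ℕ) : ℂ) := by
        rw [← haa1, ← haa1, hsmul]
        simp [tw]
      have h4 : 2 ^ aa (l • χ) = 2 ^ aa χ := Nat.cast_injective h3
      exact_mod_cast h4
    simp only [F]
    rw [h1, h2]
  have hdvd : (2 ^ (k + 1) : ℤ) ∣ ∑ χ, F χ := by
    apply dvd_sum_of_orbit (A := E →* ℂˣ) F hF
    intro χ
    -- orbit and stabilizer
    have hos : Nat.card (MulAction.stabilizer (E →* ℂˣ) χ) *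
        Nat.card (MulAction.orbit (E →* ℂˣ) χ) = 2 ^ d := by
      rw [Nat.card_coe_set_eq, ← MulAction.index_stabilizer, Subgroup.card_mul_index, hcardA]
    have hstabdvd : Nat.card (MulAction.stabilizer (E →* ℂˣ) χ) ∣ 2 ^ d := ⟨_, hos.symm⟩
    obtain ⟨j, hj, hjS⟩ := (Nat.dvd_prime_pow Nat.prime_two).1 hstabdvd
    have hO : Nat.card (MulAction.orbit (E →* ℂˣ) χ) = 2 ^ (d - j) := by
      rw [hjS] at hos
      have h5 : 2 ^ j * 2 ^ (d - j) = 2 ^ d := by
        rw [← pow_add]; congr 1; omega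
      exact Nat.eq_of_mul_eq_mul_left (by positivity) (hos.trans h5.symm)
    have hle : Nat.card (MulAction.stabilizer (E →* ℂˣ) χ) ≤ (2 ^ aa χ) ^ 2 := by
      have h6 := card_stab_le π hπ χ.2 (2 ^ aa χ) (haa2 χ)
      have h7 : Nat.card (MulAction.stabilizer (E →* ℂˣ) χ) =
          Nat.card {l : E →* ℂˣ // tw π l (χ : G → ℂ) = χ} := by
        refine Nat.card_congr (Equiv.subtypeEquivRight fun l => ?_)
        rw [MulAction.mem_stabilizer_iff, Subtype.ext_iff, hsmul]
      rw [h7]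
      exact h6
    have hj2 : j ≤ 2 * aa χ := by
      rw [hjS, ← pow_mul, mul_comm (aa χ)] at hle
      exact (Nat.pow_le_pow_iff_right (by norm_num)).1 hle
    rw [hO]
    simp only [F]
    have hexp2 : k + 1 ≤ (d - j) + aa χ := by omega
    push_cast
    rw [mul_left_comm, ← pow_add, mul_comm]
    exact Dvd.dvd.mul_right (pow_dvd_pow 2 (by omega)) _
  rw [← hsum] at hdvd
  exact_mod_cast hdvd

/-- Let G be a finite 2-group with #(G/Φ(G)) ≥ 2^(2k+1). Then the number of elements x of G with x² = 1 is divisible by 2^(k+1). -/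
theorem result {G : Type*} [Group G] [Finite G] (hG : IsPGroup 2 G) (k : ℕ)
    (hgen : 2 ^ (2 * k + 1) ≤ Nat.card (G ⧸ frattini G)) :
    2 ^ (k + 1) ∣ Nat.card {x : G // x ^ 2 = 1} := by
  classical
  cases nonempty_fintype G
  have : Fact (Nat.Prime 2) := ⟨Nat.prime_two⟩
  let Φ : Subgroup G := frattini G
  have : Φ.Normal := (inferInstance : (frattini G).Normal)
  -- the quotient has exponent two
  have hE2 : ∀ e : G ⧸ Φ, e ^ 2 = 1 := by
    intro e
    obtain ⟨x, rfl⟩ := QuotientGroup.mk_surjective e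
    rw [← QuotientGroup.mk_pow, QuotientGroup.eq_one_iff]
    exact Cfsg.Agent.Lib.PGroup.Basic.pow_mem_frattini hG x
  have hinv : ∀ e : G ⧸ Φ, e⁻¹ = e := fun e =>
    inv_eq_of_mul_eq_one_left (by rw [← pow_two]; exact hE2 e)
  have hcomm : ∀ a b : G ⧸ Φ, a * b = b * a := by
    intro a b
    calc a * b = (a * b)⁻¹ := (hinv _).symm
      _ = b⁻¹ * a⁻¹ := mul_inv_rev a b
      _ = b * a := by rw [hinv, hinv]
  let _ : CommGroup (G ⧸ Φ) := { (inferInstance : Group (G ⧸ Φ)) with mul_comm := hcomm }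
  exact main_generic (E := G ⧸ Φ) (QuotientGroup.mk' Φ) (QuotientGroup.mk'_surjective Φ) hE2 hG k hgen

end Cfsg.Agent.S4058
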