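import Cfsg.Statements.S4065
import Cfsg.Agent.Lib.PSL2.Basic
import Mathlib

set_option autoImplicit false
open Cfsg

namespace Cfsg.Agent.S4065

open Cfsg.Agent.Lib.PSL2.Basic
open scoped MatrixGroups

/-- Commuting is transitive on non-identity elements of `PSL(2, F)` in characteristic 2. -/
theorem commute_trans {F : Type*} [Field F] (h2 : (2 : F) = 0) {a b c : PSL(2, F)} (ha : a ≠ 1)
    (hb : a * b = b * a) (hc : a * c = c * a) : b * c = c * b := by
  obtain ⟨A, rfl⟩ := mkP_surjective a
  obtain ⟨B, rfl⟩ := mkP_surjective b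
  obtain ⟨C, rfl⟩ := mkP_surjective c
  have hA1 : A ≠ 1 := by
    rintro rfl
    exact ha (map_one _)
  have hA2 : A ≠ -1 := by
    rintro rfl
    exact ha mkP_neg_one
  have inj := mkP_injective_of_two_eq_zero h2
  rw [← map_mul, ← map_mul] at hb hc ⊢
  rw [commute_of_commute ⟨hA1, hA2⟩ (inj hb) (inj hc)]

/-- Let F be a finite field with 2ⁿ elements, n ≥ 2. In PSL₂(F) the centralizer of every element meets each of its conjugates by elements outside its normalizer trivially. -/
theorem result (n : ℕ) (hn : 2 ≤ n)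
    (x : Matrix.ProjectiveSpecialLinearGroup (Fin 2) (GaloisField 2 n)) :
    Cfsg.IsTISubset (Subgroup.centralizer ({x} : Set (Matrix.ProjectiveSpecialLinearGroup (Fin 2) (GaloisField 2 n))) :
      Set (Matrix.ProjectiveSpecialLinearGroup (Fin 2) (GaloisField 2 n))) := by
  have h2 : (2 : GaloisField 2 n) = 0 := by exact_mod_cast CharP.cast_eq_zero (GaloisField 2 n) 2
  have hmem : ∀ y, y ∈ (Subgroup.centralizer ({x} : Set (Matrix.ProjectiveSpecialLinearGroup (Fin 2) (GaloisField 2 n)))) ↔ x * y = y * x := by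
    intro y
    rw [Subgroup.mem_centralizer_iff]
    simp only [Set.mem_singleton_iff, forall_eq]
  intro g hg y hy hz
  by_contra hy1
  have hx1 : x ≠ 1 := by
    rintro rfl
    apply hg
    rw [Subgroup.mem_normalizer_iff]
    intro h
    simp only [hmem, one_mul, mul_one, true_iff]
  apply hg
  rw [Subgroup.mem_normalizer_iff]
  have hy' := (hmem y).1 hy
  have hz' := (hmem _).1 hz
  have hz1 : g * y * g⁻¹ ≠ 1 := by
    intro h
    apply hy1
    rw [mul_inv_eq_one] at h
    exact mul_left_cancel (a := g) (by rw [h, mul_one])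
  intro h
  rw [hmem, hmem]
  constructor
  · intro hh
    have h1 : y * h = h * y := commute_trans h2 hx1 hy' hh
    have h3 : (g * y * g⁻¹) * (g * h * g⁻¹) = (g * h * g⁻¹) * (g * y * g⁻¹) := by
      calc (g * y * g⁻¹) * (g * h * g⁻¹) = g * (y * h) * g⁻¹ := by group
        _ = g * (h * y) * g⁻¹ := by rw [h1]
        _ = (g * h * g⁻¹) * (g * y * g⁻¹) := by group
    exact commute_trans h2 hz1 hz'.symm h3
  · intro hh
    have h3 : (g * y * g⁻¹) * (g * h * g⁻¹) = (g * h * g⁻¹) * (g * y * g⁻¹) :=
      commute_trans h2 hx1 hz' hh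
    have h4 : g * (y * h) * g⁻¹ = g * (h * y) * g⁻¹ := by
      calc g * (y * h) * g⁻¹ = (g * y * g⁻¹) * (g * h * g⁻¹) := by group
        _ = (g * h * g⁻¹) * (g * y * g⁻¹) := h3
        _ = g * (h * y) * g⁻¹ := by group
    have h1 : y * h = h * y := mul_left_cancel (mul_right_cancel h4)
    exact commute_trans h2 hy1 hy'.symm h1

end Cfsg.Agent.S4065
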