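import Cfsg.Statements.S4067
import Mathlib
import Cfsg.Agent.Lib.Nilpotent.AutOrbits
import Cfsg.Agent.Lib.Nilpotent.AutOrbitsP
import Cfsg.Agent.Lib.Nilpotent.Elements

set_option autoImplicit false
open Cfsg

namespace Cfsg.Agent.S4067

open MulAction Subgroup Cfsg.Agent.Lib.Nilpotent.AutOrbits
open scoped commutatorElement

/-- Automorphism orbits of a group with a commuting complemented factor. -/
theorem orbits_le_of_complement {G : Type*} [Group G] [Finite G] {Q R : Subgroup G}
    (hcomm : ∀ x ∈ Q, ∀ y ∈ R, Commute x y) (hc : Subgroup.IsComplement' Q R) :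
    Nat.card (orbitRel.Quotient (MulAut G) G) ≤
      Nat.card (orbitRel.Quotient (MulAut Q) Q) * Nat.card R := by
  let comm : ∀ (m : Q) (n : R), Commute (Q.subtype m) (R.subtype n) :=
    fun m n => hcomm _ m.2 _ n.2
  let e0 : Q × R →* G := MonoidHom.noncommCoprod Q.subtype R.subtype comm
  have hbij : Function.Bijective e0 := hc
  let e : Q × R ≃* G := MulEquiv.ofBijective e0 hbij
  let ext : MulAut Q → MulAut G := fun φ =>
    e.symm.trans ((φ.prodCongr (MulEquiv.refl R)).trans e)
  have hext : ∀ (φ : MulAut Q) (y : Q) (r : R), ext φ ((y : G) * r) = (φ y : G) * r := by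
    intro φ y r
    have h1 : (y : G) * r = e (y, r) := rfl
    rw [h1]
    change e ((φ.prodCongr (MulEquiv.refl R)) (e.symm (e (y, r)))) = _
    rw [MulEquiv.symm_apply_apply]
    rfl
  let F : orbitRel.Quotient (MulAut Q) Q × R → orbitRel.Quotient (MulAut G) G := fun p =>
    Quotient.liftOn' p.1 (fun y => (Quotient.mk'' ((y : G) * p.2) : orbitRel.Quotient (MulAut G) G))
      (by
        intro a b hab
        obtain ⟨φ, rfl⟩ := hab
        apply Quotient.sound'
        exact ⟨ext φ, (hext φ b p.2)⟩)
  have hF : Function.Surjective F := by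
    intro ω
    obtain ⟨g, rfl⟩ := Quotient.mk''_surjective ω
    obtain ⟨⟨y, r⟩, hyr⟩ := hbij.2 g
    refine ⟨(Quotient.mk'' y, r), ?_⟩
    have : (y : G) * r = g := hyr
    change (Quotient.mk'' ((y : G) * r) : orbitRel.Quotient (MulAut G) G) = _
    rw [this]
  have := Nat.card_le_card_of_surjective F hF
  rwa [Nat.card_prod] at this

/-- The class two case. -/
theorem partB {G : Type*} [Group G] [Finite G] (hcen : commutator G ≤ center G)
    (hna : ¬ ∀ x y : G, x * y = y * x) :
    Nat.card (orbitRel.Quotient (MulAut G) G) * (Nat.card G).minFac ≤ Nat.card G := by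
  have hnil : Group.IsNilpotent G := by
    rw [_root_.nilpotent_iff_lowerCentralSeries]
    exact ⟨2, Subgroup.lowerCentralSeries_succ_eq_bot _ (by
      rw [Subgroup.top_lowerCentralSeries_one]; exact hcen)⟩
  have htfae := Group.isNilpotent_of_finite_tfae (G := G)
  have hiff : Group.IsNilpotent G ↔ Nonempty
      ((∀ p : (Nat.card G).primeFactors, ∀ P : Sylow p G, (↑P : Subgroup G)) ≃* G) := htfae.out 0 4
  obtain ⟨e⟩ := hiff.1 hnil
  -- a nonabelian Sylow subgroup
  obtain ⟨q, hqm, P, hP⟩ : ∃ (q : (Nat.card G).primeFactors) (_ : True) (P : Sylow (q : ℕ) G),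
      ¬ ∀ x y : (P : Subgroup G), x * y = y * x := by
    by_contra hall
    push Not at hall
    apply hna
    intro x y
    apply e.symm.injective
    rw [map_mul, map_mul]
    funext p P
    exact hall p trivial P _ _
  clear hqm
  have hqp : (q : ℕ).Prime := Nat.prime_of_mem_primeFactors q.2
  haveI hfq : Fact (q : ℕ).Prime := ⟨hqp⟩
  have hqdvd : (q : ℕ) ∣ Nat.card G := Nat.dvd_of_mem_primeFactors q.2
  have hpq : (Nat.card G).minFac ≤ (q : ℕ) := Nat.minFac_le_of_dvd hqp.two_le hqdvd
  have hiff3 : Group.IsNilpotent G ↔ ∀ (p : ℕ) (_hp : Fact p.Prime) (P : Sylow p G),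
      (↑P : Subgroup G).Normal := htfae.out 0 3
  haveI hN : (P : Subgroup G).Normal := (hiff3.1 hnil) q hfq P
  have hcenP : ∀ x y : (P : Subgroup G), ⁅x, y⁆ ∈ center (P : Subgroup G) := by
    intro x y
    rw [Subgroup.mem_center_iff]
    intro g
    apply Subtype.ext
    have h1 : ⁅(x : G), (y : G)⁆ ∈ center G :=
      hcen (Subgroup.commutator_mem_commutator trivial trivial)
    exact (Subgroup.mem_center_iff.1 h1) (g : G)
  have hP1 := orbits_mul_le_of_class_two (P.isPGroup') hcenP hP
  -- the complement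
  obtain ⟨R, hR⟩ := Subgroup.exists_right_complement'_of_coprime
    (N := (P : Subgroup G)) P.card_coprime_index
  have hcardR : Nat.card R = (P : Subgroup G).index := hR.symm.index_eq_card.symm
  have hcomm : ∀ x ∈ (P : Subgroup G), ∀ y ∈ R, Commute x y := by
    intro x hx y hy
    apply Cfsg.Agent.Lib.Nilpotent.Elements.commute_of_coprime_orderOf
    have h1 : orderOf x ∣ Nat.card (P : Subgroup G) := by
      have := orderOf_dvd_natCard (⟨x, hx⟩ : (P : Subgroup G))
      rwa [Subgroup.orderOf_mk] at this
    have h2 : orderOf y ∣ Nat.card R := by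
      have := orderOf_dvd_natCard (⟨y, hy⟩ : R)
      rwa [Subgroup.orderOf_mk] at this
    rw [hcardR] at h2
    exact Nat.Coprime.coprime_dvd_left h1 (Nat.Coprime.coprime_dvd_right h2 P.card_coprime_index)
  have h2 := orbits_le_of_complement hcomm hR
  have h3 : Nat.card (P : Subgroup G) * Nat.card R = Nat.card G := hR.card_mul_card
  calc Nat.card (orbitRel.Quotient (MulAut G) G) * (Nat.card G).minFac
      ≤ (Nat.card (orbitRel.Quotient (MulAut (P : Subgroup G)) (P : Subgroup G)) * Nat.card R) *
          (q : ℕ) := Nat.mul_le_mul h2 hpq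
    _ = (Nat.card (orbitRel.Quotient (MulAut (P : Subgroup G)) (P : Subgroup G)) * (q : ℕ)) *
          Nat.card R := by ring
    _ ≤ Nat.card (P : Subgroup G) * Nat.card R := Nat.mul_le_mul_right _ hP1
    _ = Nat.card G := h3

/-- Let G be a finite non-abelian group and p the least prime dividing its order. Then the automorphism group of G has at most #G/p orbits on G. -/
theorem result {G : Type*} [Group G] [Finite G] (hna : ¬ IsMulCommutative G) :
    Nat.card (MulAction.orbitRel.Quotient (MulAut G) G) ≤ Nat.card G / (Nat.card G).minFac := by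
  have hna' : ¬ ∀ x y : G, x * y = y * x := fun h => hna ⟨⟨h⟩⟩
  rw [Nat.le_div_iff_mul_le (Nat.minFac_pos _)]
  by_cases hcen : commutator G ≤ center G
  · exact partB hcen hna'
  · exact partA hcen

end Cfsg.Agent.S4067
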