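import Cfsg.Statements.S4068
import Mathlib
import Cfsg.Agent.Lib.Nilpotent.PrimeOrderMain

set_option autoImplicit false
open Cfsg

namespace Cfsg.Agent.S4068

/-- A finite non-solvable group on which its automorphism group has exactly four orbits is isomorphic to the alternating group of degree 5. -/
theorem result {G : Type*} [Group G] [Finite G] (hns : ¬ Group.IsSolvable G)
    (h4 : Nat.card (MulAction.orbitRel.Quotient (MulAut G) G) = 4) : Nonempty (G ≃* alternatingGroup (Fin 5)) := by
  classical
  let Q := MulAction.orbitRel.Quotient (MulAut G) G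
  have hwd : ∀ a b : G, (MulAction.orbitRel (MulAut G) G) a b → orderOf a = orderOf b := by
    intro a b hab
    rw [MulAction.orbitRel_apply] at hab
    obtain ⟨φ, rfl⟩ := hab
    exact MulEquiv.orderOf_eq φ b
  let f : Q → ℕ := Quotient.lift orderOf hwd
  have hf : ∀ g : G, f (Quotient.mk _ g) = orderOf g := fun g => rfl
  haveI : Finite Q := by
    have : Finite G := inferInstance
    exact Quotient.finite _
  haveI : Fintype Q := Fintype.ofFinite _
  have hcardQ : Fintype.card Q = 4 := by
    rw [← Nat.card_eq_fintype_card]; exact h4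
  let S : Finset ℕ := insert 1 (Nat.card G).primeFactors
  have hSsub : S ⊆ Finset.image f Finset.univ := by
    intro n hn
    rw [Finset.mem_insert] at hn
    rw [Finset.mem_image]
    rcases hn with rfl | hn
    · exact ⟨Quotient.mk _ (1 : G), Finset.mem_univ _, by rw [hf]; simp⟩
    · have hp := Nat.prime_of_mem_primeFactors hn
      have hd := Nat.dvd_of_mem_primeFactors hn
      haveI : Fact n.Prime := ⟨hp⟩
      obtain ⟨g, hg⟩ := exists_prime_orderOf_dvd_card' n hd
      exact ⟨Quotient.mk _ g, Finset.mem_univ _, by rw [hf]; exact hg⟩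
  have h1 : (1 : ℕ) ∉ (Nat.card G).primeFactors := by
    intro h
    exact Nat.not_prime_one (Nat.prime_of_mem_primeFactors h)
  have hScard : S.card = (Nat.card G).primeFactors.card + 1 := Finset.card_insert_of_notMem h1
  have himg : (Finset.image f Finset.univ).card ≤ 4 := by
    have := Finset.card_image_le (s := (Finset.univ : Finset Q)) (f := f)
    rwa [Finset.card_univ, hcardQ] at this
  have h3le := Cfsg.Agent.Lib.Nilpotent.PrimeOrderMain.three_le_primeFactors hns
  have hSle := Finset.card_le_card hSsub
  have h3 : (Nat.card G).primeFactors.card = 3 := by omega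
  have hSeq : S = Finset.image f Finset.univ :=
    Finset.eq_of_subset_of_card_le hSsub (by omega)
  have hPO : Cfsg.Agent.Lib.Nilpotent.PrimeOrder.PO G := by
    intro g hg
    have hm : orderOf g ∈ S := by
      rw [hSeq, Finset.mem_image]
      exact ⟨Quotient.mk _ g, Finset.mem_univ _, hf g⟩
    rw [Finset.mem_insert] at hm
    rcases hm with hm | hm
    · exact absurd (orderOf_eq_one_iff.1 hm) hg
    · exact Nat.prime_of_mem_primeFactors hm
  exact Cfsg.Agent.Lib.Nilpotent.PrimeOrderMain.equiv_alternating hns hPO h3

end Cfsg.Agent.S4068
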