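import Cfsg.Statements.S4072
import Mathlib
import Cfsg.Agent.S0579
import Cfsg.Agent.Lib.Transfer.Frobenius
import Cfsg.Agent.Lib.Coprime.Averaging
import Cfsg.Agent.Lib.Coprime.Coset

set_option autoImplicit false
set_option linter.style.haveILetI false
open Cfsg
open Cfsg.Agent.Lib.Transfer.Frobenius Cfsg.Agent.Lib.Coprime.Coset Cfsg.Agent.Lib.Coprime.Averaging
open Cfsg.Agent.S0579 (le_normalizer_of_conj normal_of_le_normalizer)
open scoped commutatorElement

namespace Cfsg.Agent.S4072

theorem solvable_of_commutator_comm {G : Type*} [Group G] (h : IsMulCommutative (commutator G)) :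
    Group.IsSolvable G := by
  haveI : Group.IsSolvable (commutator G) :=
    Group.isSolvable_of_comm (fun a b => h.is_comm.comm a b)
  haveI : Group.IsSolvable (Abelianization G) := Group.isSolvable_of_comm (fun a b => mul_comm a b)
  refine Group.isSolvable_of_ker_le_range (commutator G).subtype (Abelianization.of (G := G)) ?_
  rw [Abelianization.ker_of, Subgroup.range_subtype]

/-- A self-normalising cyclic-subgroup property excludes perfect quotients. -/
theorem false_of_perfect_of_cyclic_self_normalizing {Q : Type*} [Group Q] [Finite Q] [Nontrivial Q]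
    (hperf : commutator Q = ⊤)
    (h : ∀ x : Q, x ≠ 1 → Subgroup.normalizer ((Subgroup.zpowers x : Subgroup Q) : Set Q) = Subgroup.zpowers x) :
    False := by
  classical
  obtain ⟨p, hp, hd⟩ := Nat.exists_prime_and_dvd (Finite.one_lt_card (α := Q)).ne'
  haveI hpf : Fact p.Prime := ⟨hp⟩
  let P : Sylow p Q := default
  have hPne : (P : Subgroup Q) ≠ ⊥ := P.ne_bot_of_dvd_card hd
  haveI hPnt : Nontrivial (P : Subgroup Q) := (Subgroup.nontrivial_iff_ne_bot _).mpr hPne
  -- a central element of the Sylow subgroup
  haveI hcn := P.isPGroup'.center_nontrivial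
  obtain ⟨⟨x₀, hx₀⟩, hx₁⟩ := exists_ne (1 : Subgroup.center (P : Subgroup Q))
  let x : Q := x₀
  have hxP : x ∈ (P : Subgroup Q) := x₀.2
  have hx1 : x ≠ 1 := by
    intro h
    apply hx₁
    apply Subtype.ext
    exact Subtype.ext h
  have hN := h x hx1
  have hPx : (P : Subgroup Q) = Subgroup.zpowers x := by
    apply le_antisymm
    · rw [← hN]
      refine le_normalizer_of_conj ?_
      intro a ha y hy
      obtain ⟨k, rfl⟩ := Subgroup.mem_zpowers_iff.mp hy
      have hc : a * x = x * a := by
        have := Subgroup.mem_center_iff.mp hx₀ ⟨a, ha⟩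
        exact (congrArg Subtype.val this)
      have hy2 : a * x ^ k * a⁻¹ = x ^ k := by
        have hcomm : Commute a (x ^ k) := Commute.zpow_right hc k
        rw [hcomm.eq]; group
      rw [hy2]
      exact hy
    · rwa [Subgroup.zpowers_le]
  have hcomm : ∀ a ∈ (P : Subgroup Q), ∀ b ∈ (P : Subgroup Q), a * b = b * a := by
    intro a ha b hb
    rw [hPx] at ha hb
    obtain ⟨k, rfl⟩ := Subgroup.mem_zpowers_iff.mp ha
    obtain ⟨l, rfl⟩ := Subgroup.mem_zpowers_iff.mp hb
    exact (Commute.zpow_zpow_self x k l).eq
  have hP : Subgroup.normalizer (P : Set Q) ≤ Subgroup.centralizer (P : Set Q) := by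
    intro g hg
    have h1 : g ∈ Subgroup.normalizer ((P : Subgroup Q) : Set Q) := hg
    rw [hPx, hN, ← hPx] at h1
    exact Subgroup.mem_centralizer_iff.mpr (fun b hb => hcomm b hb g h1)
  have hc := MonoidHom.ker_transferSylow_isComplement' P hP
  have hker : (MonoidHom.transferSylow P hP).ker = ⊤ := by
    rw [eq_top_iff, ← hperf, commutator_def, Subgroup.commutator_le]
    intro a _ b _
    rw [MonoidHom.mem_ker, map_commutatorElement, commutatorElement_eq_one_iff_mul_comm]
    exact Subtype.ext (hcomm _ (Subtype.property _) _ (Subtype.property _))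
  rw [hker] at hc
  have h2 := hc.disjoint
  rw [top_disjoint] at h2
  exact hPne h2

theorem perfect_quotient {G : Type*} [Group G] (hperf : commutator G = ⊤) (N : Subgroup G) [N.Normal] :
    commutator (G ⧸ N) = ⊤ := by
  have hs : Function.Surjective (QuotientGroup.mk' N) := QuotientGroup.mk'_surjective N
  have h1 := Subgroup.map_top_of_surjective _ hs
  rw [← hperf, commutator_def, Subgroup.map_commutator, Subgroup.map_top_of_surjective _ hs] at h1
  exact h1

theorem result {G : Type*} [Group G] [Finite G] (hS : ∀ H : Subgroup G, ¬ IsMulCommutative H → Subgroup.normalizer (H : Set G) = H) :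
    Group.IsSolvable G ∨ IsSimpleGroup G := by
  classical
  by_contra hcon
  push Not at hcon
  obtain ⟨hns, hnsimple⟩ := hcon
  have hnab : ∀ N : Subgroup G, N.Normal → N ≠ ⊤ → IsMulCommutative N := by
    intro N hN hne
    by_contra hna
    have h1 := hS N hna
    rw [Subgroup.normalizer_eq_top] at h1
    exact hne h1.symm
  have hperf : commutator G = ⊤ := by
    by_contra hne
    exact hns (solvable_of_commutator_comm (hnab _ inferInstance hne))
  haveI hnt : Nontrivial G := by
    by_contra hnt
    rw [not_nontrivial_iff_subsingleton] at hnt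
    exact hns (Group.isSolvable_of_comm (fun a b => Subsingleton.elim _ _))
  obtain ⟨N, hNn, hNb, hNt⟩ : ∃ N : Subgroup G, N.Normal ∧ N ≠ ⊥ ∧ N ≠ ⊤ := by
    by_contra hno
    push Not at hno
    apply hnsimple
    exact ⟨fun N hN => by
      by_cases hb : N = ⊥
      · exact Or.inl hb
      · exact Or.inr (hno N hN hb)⟩
  haveI := hNn
  have hNc : IsMulCommutative N := hnab N hNn hNt
  have hNC : N ≤ Subgroup.centralizer (N : Set G) := by
    intro a ha
    refine Subgroup.mem_centralizer_iff.mpr (fun b hb => ?_)
    exact congrArg Subtype.val (hNc.is_comm.comm ⟨b, hb⟩ ⟨a, ha⟩)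
  by_cases hC : Subgroup.centralizer (N : Set G) = ⊤
  · -- `N` is central
    have hcardN : 1 < Nat.card N := by
      rw [Subgroup.one_lt_card_iff_ne_bot]; exact hNb
    obtain ⟨p, hp, hpd⟩ := Nat.exists_prime_and_dvd hcardN.ne'
    haveI hpf : Fact p.Prime := ⟨hp⟩
    obtain ⟨⟨z, hzN⟩, hz⟩ := exists_prime_orderOf_dvd_card' (G := N) p hpd
    have hzo : orderOf z = p := by
      rw [← hz]
      exact (Subgroup.orderOf_mk z hzN).symm
    have hz1 : z ≠ 1 := by
      rintro rfl
      rw [orderOf_one] at hzo
      exact hp.one_lt.ne hzo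
    have hzc : ∀ g : G, g * z = z * g := by
      intro g
      have h1 : g ∈ Subgroup.centralizer (N : Set G) := by rw [hC]; trivial
      exact (Subgroup.mem_centralizer_iff.mp h1 z hzN).symm
    have hzmem : ∀ H : Subgroup G, ¬ IsMulCommutative H → z ∈ H := by
      intro H hH
      have h1 := hS H hH
      have h2 : z ∈ Subgroup.normalizer (H : Set G) := by
        refine Subgroup.mem_normalizer_iff.mpr (fun y => ?_)
        have : z * y * z⁻¹ = y := by rw [(hzc y).symm]; group
        rw [this]
      rw [h1] at h2
      exact h2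
    have hhyp : FrobeniusHyp p G := by
      intro Q hQ y hyN hcop
      by_contra hyC
      have hAQ : Subgroup.zpowers y ≤ Subgroup.normalizer (Q : Set G) := by
        rwa [Subgroup.zpowers_le]
      obtain ⟨j, hj⟩ := hQ.exists_card_eq
      have hcopAQ : (Nat.card (Subgroup.zpowers y)).Coprime (Nat.card Q) := by
        rw [Nat.card_zpowers, hj]
        exact Nat.Coprime.pow_right j hcop
      haveI : Group.IsNilpotent Q := hQ.isNilpotent
      have hsolv : Group.IsSolvable (Subgroup.zpowers y) ∨ Group.IsSolvable Q := Or.inr inferInstance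
      set R : Subgroup G := ⁅Q, Subgroup.zpowers y⁆ with hR
      have hRR : ⁅R, Subgroup.zpowers y⁆ = R := commutator_commutator_eq hAQ hcopAQ hsolv
      have hRQ : R ≤ Q := commutator_le_left_of_le_normalizer hAQ
      have hAR : Subgroup.zpowers y ≤ Subgroup.normalizer (R : Set G) :=
        commutator_le_normalizer_right hAQ
      have hRne : R ≠ ⊥ := by
        intro hb
        rw [hR, Subgroup.commutator_eq_bot_iff_le_centralizer] at hb
        have h1 : Subgroup.zpowers y ≤ Subgroup.centralizer (Q : Set G) :=
          Subgroup.le_centralizer_iff.mp hb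
        exact hyC (h1 (Subgroup.mem_zpowers y))
      have hoy : ∀ a ∈ Q, a ∈ Subgroup.zpowers y → a = 1 := by
        intro a haQ haA
        have h1 : orderOf a ∣ orderOf y := orderOf_dvd_of_mem_zpowers haA
        have h2 : orderOf a ∣ p ^ j := by
          rw [← hj]; exact Subgroup.orderOf_dvd_natCard Q haQ
        have h3 : (orderOf a).Coprime (p ^ j) :=
          Nat.Coprime.coprime_dvd_left h1 (Nat.Coprime.pow_right j hcop)
        exact orderOf_eq_one_iff.mp (Nat.Coprime.eq_one_of_dvd h3 h2)
      by_cases hRab : IsMulCommutative R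
      · have hH₁ : ¬ IsMulCommutative (R ⊔ Subgroup.zpowers y : Subgroup G) := by
          intro hc
          apply hRne
          rw [← hRR, Subgroup.commutator_eq_bot_iff_le_centralizer]
          intro r hr
          refine Subgroup.mem_centralizer_iff.mpr (fun a ha => ?_)
          have := hc.is_comm.comm ⟨a, Subgroup.mem_sup_right ha⟩ ⟨r, Subgroup.mem_sup_left hr⟩
          exact congrArg Subtype.val this
        have hzH := hzmem _ hH₁
        obtain ⟨r, hr, a, ha, hra⟩ := (mem_sup_iff_of_le_normalizer hAR z).mp hzH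
        have hrp : r ^ p ^ j = 1 := by
          have h1 := pow_card_eq_one' (x := (⟨r, hRQ hr⟩ : Q))
          rw [hj] at h1
          simpa using congrArg Subtype.val h1
        have hae : a = r⁻¹ * z := by rw [← hra]; group
        have hcomm : Commute r⁻¹ z := (hzc r⁻¹)
        have hap : a ^ p ^ (j + 1) = 1 := by
          rw [hae, hcomm.mul_pow, inv_pow, pow_succ, pow_mul, hrp, one_pow, inv_one, one_mul,
            pow_mul', ← hzo, pow_orderOf_eq_one, one_pow]
        have ha1 : a = 1 := by
          have h1 : orderOf a ∣ orderOf y := orderOf_dvd_of_mem_zpowers ha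
          have h2 : orderOf a ∣ p ^ (j + 1) := orderOf_dvd_of_pow_eq_one hap
          have h3 : (orderOf a).Coprime (p ^ (j + 1)) :=
            Nat.Coprime.coprime_dvd_left h1 (Nat.Coprime.pow_right _ hcop)
          exact orderOf_eq_one_iff.mp (Nat.Coprime.eq_one_of_dvd h3 h2)
        have hzR : z ∈ R := by
          rw [← hra, ha1, mul_one]; exact hr
        have hcopR : (Nat.card (Subgroup.zpowers y)).Coprime (Nat.card R) :=
          Nat.Coprime.coprime_dvd_right (Subgroup.card_dvd_of_le hRQ) hcopAQ
        haveI := hRab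
        have h1 := (centralizer_inf_commutator_and_sup (Subgroup.zpowers y) R hAR hcopR).1
        rw [hRR] at h1
        have h2 : z ∈ (R ⊓ Subgroup.centralizer ((Subgroup.zpowers y : Subgroup G) : Set G)) ⊓ R :=
          ⟨⟨hzR, Subgroup.mem_centralizer_iff.mpr (fun g _ => hzc g)⟩, hzR⟩
        rw [h1, Subgroup.mem_bot] at h2
        exact hz1 h2
      · have h1 := hS R hRab
        have h2 : y ∈ Subgroup.normalizer (R : Set G) := hAR (Subgroup.mem_zpowers y)
        rw [h1] at h2
        have h3 : y = 1 := hoy y (hRQ h2) (Subgroup.mem_zpowers y)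
        apply hyC
        rw [h3]
        exact Subgroup.one_mem _
    obtain ⟨P, N₀, hN₀n, hcompl⟩ := hasNormalPComplement_of_hyp hhyp
    haveI := hN₀n
    have hpG : p ∣ Nat.card G := by
      rw [← hzo]; exact orderOf_dvd_natCard z
    have hPne : (P : Subgroup G) ≠ ⊥ := P.ne_bot_of_dvd_card hpG
    by_cases hN₀ : N₀ = ⊤
    · have h2 := hcompl.disjoint
      rw [hN₀, top_disjoint] at h2
      exact hPne h2
    · have hq : IsPGroup p (G ⧸ N₀) := Cfsg.Agent.Lib.Transfer.Basic.isPGroup_quotient_of_isComplement' hcompl
      haveI hqnt : Nontrivial (G ⧸ N₀) := QuotientGroup.nontrivial_iff.mpr hN₀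
      haveI : Group.IsNilpotent (G ⧸ N₀) := hq.isNilpotent
      have h1 := Group.IsSolvable.commutator_lt_top_of_nontrivial (G ⧸ N₀)
      rw [perfect_quotient hperf] at h1
      exact lt_irrefl _ h1
  · -- `B = C_G(N)` is self-centralising
    set B : Subgroup G := Subgroup.centralizer (N : Set G) with hB
    haveI hBn : B.Normal := inferInstance
    have hBab := hnab B hBn hC
    have hBc : Subgroup.centralizer (B : Set G) = B := by
      apply le_antisymm
      · exact Subgroup.centralizer_le hNC
      · intro a ha
        refine Subgroup.mem_centralizer_iff.mpr (fun b hb => ?_)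
        exact congrArg Subtype.val (hBab.is_comm.comm ⟨b, hb⟩ ⟨a, ha⟩)
    let φ := QuotientGroup.mk' B
    have hφs : Function.Surjective φ := QuotientGroup.mk'_surjective B
    have hφk : φ.ker = B := QuotientGroup.ker_mk' B
    haveI hQnt : Nontrivial (G ⧸ B) := QuotientGroup.nontrivial_iff.mpr hC
    refine false_of_perfect_of_cyclic_self_normalizing (perfect_quotient hperf B) ?_
    intro xb hxb
    obtain ⟨x, rfl⟩ := hφs xb
    have hxB : x ∉ B := by
      intro h
      apply hxb
      have : x ∈ φ.ker := by rwa [hφk]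
      exact this
    let H : Subgroup G := (Subgroup.zpowers (φ x)).comap φ
    have hBH : B ≤ H := by
      intro b hb
      have h1 : b ∈ φ.ker := by rwa [hφk]
      show φ b ∈ Subgroup.zpowers (φ x)
      rw [show φ b = 1 from h1]
      exact Subgroup.one_mem _
    have hxH : x ∈ H := Subgroup.mem_zpowers (φ x)
    have hHna : ¬ IsMulCommutative H := by
      intro hc
      apply hxB
      rw [← hBc]
      refine Subgroup.mem_centralizer_iff.mpr (fun b hb => ?_)
      exact congrArg Subtype.val (hc.is_comm.comm ⟨b, hBH hb⟩ ⟨x, hxH⟩)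
    have hHs := hS H hHna
    apply le_antisymm
    · intro g hg
      obtain ⟨g, rfl⟩ := hφs g
      have h1 : g ∈ Subgroup.normalizer (H : Set G) := by
        refine Subgroup.mem_normalizer_iff.mpr (fun y => ?_)
        have h2 := Subgroup.mem_normalizer_iff.mp hg (φ y)
        show φ y ∈ Subgroup.zpowers (φ x) ↔ φ (g * y * g⁻¹) ∈ Subgroup.zpowers (φ x)
        rw [map_mul, map_mul, map_inv]
        exact h2
      rw [hHs] at h1
      exact h1
    · exact Subgroup.le_normalizer

end Cfsg.Agent.S4072
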