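import Cfsg.Statements.S4074
import Mathlib
-- import your own Cfsg.Agent.* helpers here

set_option autoImplicit false
open Cfsg

namespace Cfsg.Agent.S4074

open DihedralGroup

/-- The index-two subgroup of a dihedral group of even degree, by parity. -/
def parity (n : ℕ) (hn : 2 ∣ n) : Subgroup (DihedralGroup n) where
  carrier := {x | ∃ i : ZMod n, (x = r i ∨ x = sr i) ∧ ZMod.castHom hn (ZMod 2) i = 0}
  mul_mem' := by
    rintro x y ⟨i, hi, h1⟩ ⟨j, hj, h2⟩
    rcases hi with rfl | rfl <;> rcases hj with rfl | rfl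
    · exact ⟨i + j, Or.inl (r_mul_r _ _), by rw [map_add, h1, h2, add_zero]⟩
    · exact ⟨j - i, Or.inr (r_mul_sr _ _), by rw [map_sub, h1, h2, sub_zero]⟩
    · exact ⟨i + j, Or.inr (sr_mul_r _ _), by rw [map_add, h1, h2, add_zero]⟩
    · exact ⟨j - i, Or.inl (sr_mul_sr _ _), by rw [map_sub, h1, h2, sub_zero]⟩
  one_mem' := ⟨0, Or.inl rfl, by simp⟩
  inv_mem' := by
    rintro x ⟨i, hi, h1⟩
    rcases hi with rfl | rfl
    · exact ⟨-i, Or.inl (inv_r _), by rw [map_neg, h1, neg_zero]⟩
    · exact ⟨i, Or.inr (inv_sr _), h1⟩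

lemma exists_sr {n : ℕ} (H : Subgroup (DihedralGroup n)) (hH : ¬ IsMulCommutative H) :
    ∃ a : ZMod n, sr a ∈ H := by
  by_contra hcon
  push Not at hcon
  apply hH
  refine ⟨⟨?_⟩⟩
  rintro ⟨x, hx⟩ ⟨y, hy⟩
  apply Subtype.ext
  cases x with
  | sr i => exact absurd hx (hcon i)
  | r i =>
    cases y with
    | sr j => exact absurd hy (hcon j)
    | r j =>
      change r i * r j = r j * r i
      rw [r_mul_r, r_mul_r, add_comm]

lemma odd_case {n : ℕ} (hn : Odd n) (H : Subgroup (DihedralGroup n)) (hH : ¬ IsMulCommutative H) :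
    Subgroup.normalizer (H : Set (DihedralGroup n)) = H := by
  obtain ⟨a, ha⟩ := exists_sr H hH
  have h2 : ∀ j : ZMod n, r (2 * j) ∈ H → r j ∈ H := by
    intro j hj
    have h3 := H.pow_mem hj ((n + 1) / 2)
    rw [r_pow] at h3
    have e1 : 2 * ((n + 1) / 2) = n + 1 := by
      obtain ⟨t, rfl⟩ := hn
      omega
    have e2 : (2 : ZMod n) * (((n + 1) / 2 : ℕ) : ZMod n) = 1 := by
      have := congrArg (Nat.cast : ℕ → ZMod n) e1
      push_cast at this
      rw [this, ZMod.natCast_self, zero_add]
    have e3 : 2 * j * (((n + 1) / 2 : ℕ) : ZMod n) = j := by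
      calc 2 * j * (((n + 1) / 2 : ℕ) : ZMod n)
          = ((2 : ZMod n) * (((n + 1) / 2 : ℕ) : ZMod n)) * j := by ring
        _ = j := by rw [e2, one_mul]
    rwa [e3] at h3
  refine le_antisymm (fun g hg => ?_) Subgroup.le_normalizer
  have hg' := (Subgroup.mem_normalizer_iff.mp hg (sr a)).mp ha
  have hg1 := H.mul_mem ha hg'
  cases g with
  | r j =>
    rw [inv_r, r_mul_sr, sr_mul_r, sr_mul_sr] at hg1
    have e : a - j + -j - a = -(2 * j) := by ring
    rw [e] at hg1
    have h3 := H.inv_mem hg1
    rw [inv_r, neg_neg] at h3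
    exact h2 j h3
  | sr b =>
    rw [inv_sr, sr_mul_sr, r_mul_sr, sr_mul_sr] at hg1
    have e : b - (a - b) - a = 2 * (b - a) := by ring
    rw [e] at hg1
    have h3 := h2 _ hg1
    have h4 := H.mul_mem ha h3
    rw [sr_mul_r] at h4
    have e2 : a + (b - a) = b := by ring
    rwa [e2] at h4

lemma four_case (H : Subgroup (DihedralGroup 4)) (hH : ¬ IsMulCommutative H) :
    Subgroup.normalizer (H : Set (DihedralGroup 4)) = H := by
  have hc : Nat.card (DihedralGroup 4) = 2 ^ 3 := by rw [nat_card]; norm_num
  have hd : Nat.card H ∣ 2 ^ 3 := hc ▸ Subgroup.card_subgroup_dvd_card H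
  obtain ⟨k, hk, hcard⟩ := (Nat.dvd_prime_pow Nat.prime_two).mp hd
  haveI : Fact (Nat.Prime 2) := ⟨Nat.prime_two⟩
  have hk3 : k = 3 := by
    by_contra hk'
    apply hH
    have hk2 : k ≤ 2 := by omega
    interval_cases k
    · haveI : Subsingleton H := (Nat.card_eq_one_iff_unique.mp (by simpa using hcard)).1
      exact ⟨⟨fun a b => Subsingleton.elim _ _⟩⟩
    · haveI : IsCyclic H := isCyclic_of_prime_card (p := 2) (by simpa using hcard)
      exact IsCyclic.isMulCommutative
    · exact IsPGroup.isMulCommutative_of_card_eq_prime_sq (p := 2) hcard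
  have htop : H = ⊤ := by
    apply Subgroup.eq_top_of_card_eq
    rw [hcard, hc, hk3]
  subst htop
  apply le_antisymm le_top
  intro g _
  rw [Subgroup.mem_normalizer_iff]
  intro h
  simp

/-- For n > 2, every non-abelian subgroup of the dihedral group of order 2n is self-normalizing if and only if n = 4 or n is odd. -/
theorem result (n : ℕ) (hn : 2 < n) :
    (∀ H : Subgroup (DihedralGroup n), ¬ IsMulCommutative H → Subgroup.normalizer (H : Set (DihedralGroup n)) = H) ↔
    (n = 4 ∨ Odd n) := by
  constructor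
  · intro h
    by_contra hcon
    push Not at hcon
    obtain ⟨h4, hodd⟩ := hcon
    have heven : Even n := Nat.not_odd_iff_even.mp hodd
    have h2 : 2 ∣ n := heven.two_dvd
    set H := parity n h2 with hHdef
    have h2mem : (r (2 : ZMod n) : DihedralGroup n) ∈ H := by
      refine ⟨2, Or.inl rfl, ?_⟩
      simp only [map_ofNat]
      rfl
    have h0mem : (sr (0 : ZMod n) : DihedralGroup n) ∈ H := ⟨0, Or.inr rfl, by simp⟩
    have hna : ¬ IsMulCommutative H := by
      intro hc
      have h3 := hc.is_comm.comm (⟨_, h2mem⟩ : H) ⟨_, h0mem⟩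
      have h5 := congrArg Subtype.val h3
      simp only [Subgroup.coe_mul, r_mul_sr, sr_mul_r, sr.injEq] at h5
      have h6 : ((4 : ℕ) : ZMod n) = 0 := by
        have : (0 : ZMod n) - 2 = 0 + 2 := h5
        push_cast
        linear_combination (-1 : ZMod n) * this
      rw [ZMod.natCast_eq_zero_iff] at h6
      have h7 := Nat.le_of_dvd (by norm_num) h6
      obtain ⟨t, rfl⟩ := h2
      have h8 : t = 2 := by omega
      omega
    have hnorm := h H hna
    have hmem : (r (1 : ZMod n) : DihedralGroup n) ∈ Subgroup.normalizer (H : Set (DihedralGroup n)) := by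
      rw [Subgroup.mem_normalizer_iff]
      intro y
      have hphi2 : ZMod.castHom h2 (ZMod 2) (2 : ZMod n) = 0 := by
        simp only [map_ofNat]
        rfl
      constructor
      · rintro ⟨i, hi, h1⟩
        rcases hi with rfl | rfl
        · refine ⟨i, Or.inl ?_, h1⟩
          rw [inv_r, r_mul_r, r_mul_r]
          congr 1
          ring
        · refine ⟨i - 2, Or.inr ?_, by rw [map_sub, h1, hphi2, sub_zero]⟩
          rw [inv_r, r_mul_sr, sr_mul_r]
          congr 1
          ring
      · rintro ⟨i, hi, h1⟩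
        cases y with
        | r j =>
          rw [inv_r, r_mul_r, r_mul_r] at hi
          have e : (1 : ZMod n) + j + -1 = j := by ring
          rw [e] at hi
          refine ⟨i, Or.inl ?_, h1⟩
          rcases hi with hi | hi
          · exact hi
          · cases hi
        | sr j =>
          rw [inv_r, r_mul_sr, sr_mul_r] at hi
          have e : j - 1 + -1 = j - 2 := by ring
          rw [e] at hi
          rcases hi with hi | hi
          · cases hi
          · have hi' := sr.inj hi
            refine ⟨j, Or.inr rfl, ?_⟩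
            have : j = i + 2 := by rw [← hi']; ring
            rw [this, map_add, h1, hphi2, zero_add]
    rw [hnorm] at hmem
    obtain ⟨i, hi, h1⟩ := hmem
    rcases hi with hi | hi
    · have hi' := r.inj hi
      rw [← hi', map_one] at h1
      exact absurd h1 (by decide)
    · cases hi
  · rintro (rfl | hodd)
    · exact fun H hH => four_case H hH
    · exact fun H hH => odd_case hodd H hH

end Cfsg.Agent.S4074
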