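import Cfsg.Statements.S4075
import Mathlib

set_option autoImplicit false
open Cfsg

namespace Cfsg.Agent.S4075

/-- Let G be a finite nilpotent group. Every non-abelian subgroup of G is self-normalizing if and only if G is abelian or G is a minimal non-abelian p-group for some prime p (non-abelian of prime-power order with every proper subgroup abelian). -/
theorem result {G : Type*} [Group G] [Finite G]
    [Group.IsNilpotent G] :
    (∀ H : Subgroup G, ¬ IsMulCommutative H → Subgroup.normalizer (H : Set G) = H) ↔
    (IsMulCommutative G ∨ (IsPrimePow (Nat.card G) ∧ ¬ IsMulCommutative G ∧ ∀ H : Subgroup G, H ≠ ⊤ → IsMulCommutative H)) := by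
  constructor
  · intro h
    by_cases hG : IsMulCommutative G
    · exact Or.inl hG
    right
    have hall : ∀ H : Subgroup G, H ≠ ⊤ → IsMulCommutative H := by
      intro H hH
      by_contra hna
      have h1 := h H hna
      have h2 := (normalizerCondition_of_isNilpotent (G := G)) H (lt_top_iff_ne_top.2 hH)
      rw [h1] at h2
      exact lt_irrefl _ h2
    refine ⟨?_, hG, hall⟩
    -- prime power
    by_contra hpp
    apply hG
    have htfae := Group.isNilpotent_of_finite_tfae (G := G)
    have hiff : Group.IsNilpotent G ↔ Nonempty
          ((∀ p : (Nat.card G).primeFactors, ∀ P : Sylow p G, (↑P : Subgroup G)) ≃* G) := htfae.out 0 4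
    obtain ⟨e⟩ := hiff.1 inferInstance
    have hcomm : ∀ (p : (Nat.card G).primeFactors) (P : Sylow p.1 G), IsMulCommutative (↑P : Subgroup G) := by
      intro p P
      apply hall
      intro htop
      have hp : (p : ℕ).Prime := Nat.prime_of_mem_primeFactors p.2
      haveI : Fact (p : ℕ).Prime := ⟨hp⟩
      obtain ⟨k, hk⟩ := IsPGroup.iff_card.1 P.2
      have hk' : Nat.card ↥((P : Sylow (p : ℕ) G) : Subgroup G) = (p : ℕ) ^ k := hk
      rw [htop, Subgroup.card_top] at hk'
      have hne : Nat.card G ≠ 1 := by
        intro h1
        apply hG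
        have : Subsingleton G := (Nat.card_eq_one_iff_unique.1 h1).1
        exact ⟨⟨fun a b => Subsingleton.elim _ _⟩⟩
      apply hpp
      rw [hk']
      refine ⟨p, k, hp.prime, ?_, rfl⟩
      rcases Nat.eq_zero_or_pos k with rfl | h0
      · rw [pow_zero] at hk'; exact absurd hk' hne
      · exact h0
    refine ⟨⟨fun a b => ?_⟩⟩
    apply e.symm.injective
    rw [map_mul, map_mul]
    funext p P
    exact (hcomm p P).is_comm.comm _ _
  · rintro (hab | ⟨_, _, hall⟩) H hH
    · exfalso
      apply hH
      exact ⟨⟨fun a b => Subtype.ext (hab.is_comm.comm a.1 b.1)⟩⟩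
    · by_cases htop : H = ⊤
      · rw [htop]
        exact Subgroup.normalizer_eq_top_iff.mpr inferInstance
      · exact absurd (hall H htop) hH

end Cfsg.Agent.S4075
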