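import Cfsg.Statements.S4079
import Cfsg.Agent.Lib.PGroup.Regular
import Cfsg.Agent.Lib.PGroup.HuppertA
import Cfsg.Agent.Lib.PGroup.HuppertB
import Cfsg.Agent.Lib.PGroup.MaximalClass
import Cfsg.Agent.Lib.PGroup.RankTwoThree.Kit
import Cfsg.Agent.Lib.PGroup.RankTwoThree.ClassKit

set_option autoImplicit false
open Cfsg

namespace Cfsg.Agent.S4079

open Subgroup Cfsg.Agent.Lib.PGroup.Regular Cfsg.Agent.Lib.PGroup.HuppertA
open Cfsg.Agent.Lib.PGroup.MaximalClass
open scoped commutatorElement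

universe u

section fixpt

variable {V : Type*} [Group V] [Finite V] {p : ℕ} [hpf : Fact p.Prime]

theorem exists_fix_sub (A : Subgroup V) (hA : p ∣ Nat.card A) (b : V →* V)
    (hbA : ∀ x ∈ A, b x ∈ A) (hb : ∀ x ∈ A, b^[p] x = x) : ∃ s ∈ A, s ≠ 1 ∧ b s = s := by
  classical
  let f : A → A := fun x => ⟨b x, hbA x x.2⟩
  have hfi : ∀ (n : ℕ) (x : A), ((f^[n] x : A) : V) = b^[n] (x : V) := by
    intro n
    induction n with
    | zero => intro x; rfl
    | succ n ih =>
      intro x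
      rw [Function.iterate_succ_apply', Function.iterate_succ_apply']
      show b ((f^[n] x : A) : V) = _
      rw [ih]
  have hfp : ∀ x : A, f^[p] x = x := fun x => Subtype.ext (by rw [hfi]; exact hb x x.2)
  have hp0 : p - 1 + 1 = p := by have := hpf.out.pos; omega
  have hinj : Function.Injective f := by
    intro x y h
    have h2 : ∀ z : A, f^[p - 1] (f z) = z := by
      intro z
      rw [← Function.iterate_succ_apply, Nat.succ_eq_add_one, hp0]
      exact hfp z
    rw [← h2 x, ← h2 y, h]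
  have hbij : Function.Bijective f := Finite.injective_iff_bijective.mp hinj
  let c : Equiv.Perm A := Equiv.ofBijective f hbij
  have hci : ∀ (n : ℕ) (x : A), (c ^ n) x = f^[n] x := by
    intro n
    induction n with
    | zero => intro x; rfl
    | succ n ih =>
      intro x
      rw [pow_succ', Equiv.Perm.mul_apply, ih, Function.iterate_succ_apply']
      rfl
  have hcp : c ^ p = 1 := by
    ext x
    rw [hci, hfp]
    rfl
  have hP : IsPGroup p (zpowers c) := by
    rintro ⟨g, hg⟩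
    obtain ⟨z, rfl⟩ := mem_zpowers_iff.mp hg
    refine ⟨1, Subtype.ext ?_⟩
    show (c ^ z) ^ p ^ 1 = 1
    rw [pow_one, ← zpow_natCast, ← zpow_mul, mul_comm, zpow_mul, zpow_natCast, hcp, one_zpow]
  have h1 : (1 : A) ∈ MulAction.fixedPoints (zpowers c) A := by
    have hs : zpowers c ≤ MulAction.stabilizer (Equiv.Perm A) (1 : A) := by
      rw [zpowers_le, MulAction.mem_stabilizer_iff]
      exact Subtype.ext (map_one b)
    rintro ⟨g, hg⟩
    exact hs hg
  obtain ⟨s, hs, hne⟩ := hP.exists_fixed_point_of_prime_dvd_card_of_fixed_point A hA h1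
  refine ⟨s, s.2, fun h => hne (Subtype.ext h.symm), ?_⟩
  have := hs ⟨c, mem_zpowers c⟩
  exact congrArg Subtype.val this

/-- The key fact on automorphisms of order dividing `p` of a group of order `p²`. -/
theorem lemU (hcard : Nat.card V = p ^ 2) (b : V →* V) (hb : ∀ x, b^[p] x = x) (x : V) :
    b (x⁻¹ * b x) = x⁻¹ * b x := by
  classical
  have hcomm : ∀ u v : V, u * v = v * u := (IsPGroup.isMulCommutative_of_card_eq_prime_sq hcard).is_comm.comm
  let φ : V →* V :=
    { toFun := fun z => z⁻¹ * b z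
      map_one' := by simp
      map_mul' := by
        intro u v
        simp only [map_mul, mul_inv_rev]
        calc v⁻¹ * u⁻¹ * (b u * b v) = v⁻¹ * (u⁻¹ * b u) * b v := by group
          _ = (u⁻¹ * b u) * v⁻¹ * b v := by rw [hcomm v⁻¹]
          _ = _ := by group }
  have hφ : ∀ z, φ z = z⁻¹ * b z := fun _ => rfl
  by_cases h0 : x⁻¹ * b x = 1
  · rw [h0, map_one]
  have hbφ : ∀ z, b (φ z) = φ (b z) := by
    intro z
    rw [hφ, hφ, map_mul, map_inv]
  -- the fixed points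
  obtain ⟨s₀, -, hs₀, hbs₀⟩ := exists_fix_sub (⊤ : Subgroup V)
    (by rw [Subgroup.card_top, hcard]; exact dvd_pow_self p two_ne_zero) b
    (fun _ _ => trivial) (fun z _ => hb z)
  have hker : φ.ker ≠ ⊥ := by
    intro h
    have : s₀ ∈ φ.ker := by
      rw [MonoidHom.mem_ker, hφ, hbs₀]; simp
    rw [h, mem_bot] at this
    exact hs₀ this
  have hkercard : Nat.card φ.ker ≠ 1 := fun h => hker (Subgroup.eq_bot_of_card_eq _ h)
  have hrk : Nat.card φ.range * Nat.card φ.ker = p ^ 2 := by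
    rw [← hcard, ← Subgroup.index_ker, mul_comm]
    exact φ.ker.card_mul_index
  have hrd : Nat.card φ.range ∣ p ^ 2 := ⟨_, hrk.symm⟩
  obtain ⟨i, hi, hri⟩ := (Nat.dvd_prime_pow hpf.out).1 hrd
  have hp1 := hpf.out.one_lt
  have hi1 : i = 1 := by
    interval_cases i
    · exfalso
      rw [pow_zero] at hri
      have : φ x ∈ (⊥ : Subgroup V) := by
        rw [← Subgroup.eq_bot_of_card_eq _ hri]
        exact ⟨x, rfl⟩
      exact h0 this
    · rfl
    · exfalso
      rw [hri] at hrk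
      apply hkercard
      have hp2 : 0 < p ^ 2 := by positivity
      exact Nat.eq_of_mul_eq_mul_left hp2 (by rw [hrk, mul_one])
  subst hi1
  rw [pow_one] at hri
  obtain ⟨s, hsm, hs1, hbs⟩ := exists_fix_sub φ.range (by rw [hri]) b
    (by
      rintro _ ⟨z, rfl⟩
      exact ⟨b z, (hbφ z).symm⟩)
    (fun z _ => hb z)
  have hz : zpowers s = φ.range := by
    apply Subgroup.eq_of_le_of_card_ge
    · rw [zpowers_le]; exact hsm
    · rw [hri, Nat.card_zpowers]
      have h2 : orderOf s ∣ p := by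
        have h3 := Subgroup.card_dvd_of_le (zpowers_le.2 hsm)
        rwa [hri, Nat.card_zpowers] at h3
      rcases (Nat.dvd_prime hpf.out).1 h2 with h4 | h4
      · exact absurd (orderOf_eq_one_iff.mp h4) hs1
      · exact h4.ge
  have hmem : φ x ∈ zpowers s := by rw [hz]; exact ⟨x, rfl⟩
  obtain ⟨k, hk⟩ := mem_zpowers_iff.mp hmem
  have h3 : b (φ x) = φ x := by
    rw [← hk, map_zpow, hbs]
  exact h3

end fixpt

section basics

variable {L : Type u} [Group L] [Finite L] {p : ℕ} [hpf : Fact p.Prime]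

/-- Subgroups of metacyclic groups are metacyclic. -/
theorem metacyclic_sub {G : Type u} [Group G] (hm : Cfsg.IsMetacyclic G) (H : Subgroup G) :
    Cfsg.IsMetacyclic H := by
  obtain ⟨N, hN, hc, hq⟩ := hm
  refine ⟨N.subgroupOf H, inferInstance, ?_, ?_⟩
  · let f : N.subgroupOf H →* N :=
      { toFun := fun x => ⟨((x : H) : G), x.2⟩
        map_one' := rfl
        map_mul' := fun _ _ => rfl }
    refine isCyclic_of_injective f ?_
    intro x y hxy
    have := congrArg Subtype.val hxy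
    exact Subtype.ext (Subtype.ext this)
  · let f : H →* G ⧸ N := (QuotientGroup.mk' N).comp H.subtype
    have hker : N.subgroupOf H ≤ f.ker := by
      intro x hx
      rw [MonoidHom.mem_ker]
      exact (QuotientGroup.eq_one_iff _).mpr hx
    refine isCyclic_of_injective (QuotientGroup.lift (N.subgroupOf H) f hker) ?_
    rw [injective_iff_map_eq_one]
    intro q
    obtain ⟨x, rfl⟩ := QuotientGroup.mk_surjective q
    intro h
    have h2 : f x = 1 := h
    have h3 : (x : G) ∈ N := (QuotientGroup.eq_one_iff _).mp h2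
    exact (QuotientGroup.eq_one_iff _).mpr h3

/-- The subgroup of elements of exponent `q`. -/
def Om (hL : IsPGroup p L) {q : ℕ} (hq : PowerLaw q L) : Subgroup L where
  carrier := {x | x ^ q = 1}
  mul_mem' := by
    intro u v hu hv
    have hu' : u ^ q = 1 := hu
    have hv' : v ^ q = 1 := hv
    have := (pow_eq_iff hL hq u v⁻¹).1 (by rw [hu', inv_pow, hv', inv_one])
    simpa using this
  one_mem' := by simp
  inv_mem' := by
    intro u hu
    have hu' : u ^ q = 1 := hu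
    show u⁻¹ ^ q = 1
    rw [inv_pow, hu', inv_one]

theorem mem_Om {hL : IsPGroup p L} {q : ℕ} {hq : PowerLaw q L} {x : L} :
    x ∈ Om hL hq ↔ x ^ q = 1 := Iff.rfl

theorem index_step (hL : IsPGroup p L) {H K : Subgroup L} (h : H < K) :
    p * K.index ≤ H.index := by
  have h1 := relIndex_mul_index h.le
  obtain ⟨k, hk⟩ := hL.index H
  have h2 : H.relIndex K ∣ p ^ k := by rw [← hk, ← h1]; exact dvd_mul_right _ _
  obtain ⟨i, -, hi⟩ := (Nat.dvd_prime_pow hpf.out).1 h2
  have h3 : H.relIndex K ≠ 1 := by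
    intro h4
    exact h.not_ge (relIndex_eq_one.mp h4)
  have hi0 : i ≠ 0 := by
    rintro rfl
    rw [pow_zero] at hi
    exact h3 hi
  have hpi : p ≤ H.relIndex K := by
    rw [hi]
    calc p = p ^ 1 := (pow_one p).symm
      _ ≤ p ^ i := Nat.pow_le_pow_right hpf.out.pos (Nat.pos_of_ne_zero hi0)
  calc p * K.index ≤ H.relIndex K * K.index := Nat.mul_le_mul_right _ hpi
    _ = H.index := h1

theorem isCyclic_of_index_pw_le {T : Type u} [Group T] [Finite T] (hT : IsPGroup p T)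
    (h : (pw p (⊤ : Subgroup T)).index ≤ p) : IsCyclic T := by
  by_cases hW : pw p (⊤ : Subgroup T) = ⊤
  · have h0 : (⊥ : Subgroup T) = ⊤ := eq_top_of_pw_sup hT (M := ⊥) (by rw [hW]; simp)
    have : Subsingleton T := by
      refine ⟨fun x y => ?_⟩
      have hx : x ∈ (⊥ : Subgroup T) := by rw [h0]; trivial
      have hy : y ∈ (⊥ : Subgroup T) := by rw [h0]; trivial
      rw [mem_bot] at hx hy
      rw [hx, hy]
    exact isCyclic_of_subsingleton
  · obtain ⟨t, ht⟩ : ∃ t, t ∉ pw p (⊤ : Subgroup T) := by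
      by_contra hcon
      push Not at hcon
      exact hW (eq_top_iff.mpr (fun x _ => hcon x))
    have h1 : pw p (⊤ : Subgroup T) < pw p (⊤ : Subgroup T) ⊔ zpowers t := by
      refine lt_of_le_of_ne le_sup_left (fun h2 => ht ?_)
      rw [h2]
      exact (le_sup_right : zpowers t ≤ _) (mem_zpowers t)
    have h2 := index_step hT h1
    have h3 : (pw p (⊤ : Subgroup T) ⊔ zpowers t).index = 1 := by
      have h4 := (pw p (⊤ : Subgroup T) ⊔ zpowers t).index_ne_zero_of_finite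
      have h5 := hpf.out.one_lt
      have h6 : 0 < (pw p (⊤ : Subgroup T) ⊔ zpowers t).index := Nat.pos_of_ne_zero h4
      by_contra h7
      have h8 : 2 ≤ (pw p (⊤ : Subgroup T) ⊔ zpowers t).index := by omega
      nlinarith
    have h4 := eq_top_of_pw_sup hT (index_eq_one.mp h3)
    exact isCyclic_iff_exists_zpowers_eq_top.mpr ⟨t, h4⟩

/-- Common hypotheses. -/
structure B (p : ℕ) (L : Type u) [Group L] : Prop where
  hL : IsPGroup p L
  hmc : Cfsg.IsMetacyclic L
  hp3 : 3 ≤ p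
  hnc : ∀ C : Subgroup L, IsCyclic C → C.index ≠ p
  hne : Nontrivial L

namespace B

variable (h : B p L)
include h

theorem law : PowerLaw p L :=
  powerLaw_of_isCyclic_commutator h.hL h.hp3 (isCyclic_commutator_of_metacyclic h.hmc)

theorem lawn (n : ℕ) : PowerLaw (p ^ n) L := powerLaw_pow_of_powerLaw h.hL h.law n

theorem mem_W {y : L} : y ∈ pw p (⊤ : Subgroup L) ↔ ∃ x, y = x ^ p := by
  rw [mem_pw_iff h.hL h.law]
  simp

theorem mem_Wn (n : ℕ) {y : L} : y ∈ pw (p ^ n) (⊤ : Subgroup L) ↔ ∃ x, y = x ^ (p ^ n) := by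
  rw [mem_pw_iff h.hL (h.lawn n)]
  simp

theorem index_W : (pw p (⊤ : Subgroup L)).index = p ^ 2 := by
  have h1 := index_pw_le_of_metacyclic hpf.out.pos h.hmc
  obtain ⟨k, hk⟩ := h.hL.index (pw p (⊤ : Subgroup L))
  rw [hk] at h1 ⊢
  have hk2 : k ≤ 2 := (Nat.pow_le_pow_iff_right hpf.out.one_lt).mp h1
  interval_cases k
  · exfalso
    rw [pow_zero] at hk
    have h0 : (⊥ : Subgroup L) = ⊤ :=
      eq_top_of_pw_sup h.hL (M := ⊥) (by rw [index_eq_one.mp hk]; simp)
    have := h.hne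
    exact bot_ne_top h0
  · exfalso
    rw [pow_one] at hk
    have hc : IsCyclic L := isCyclic_of_index_pw_le h.hL hk.le
    exact h.hnc _ inferInstance hk
  · rfl

theorem not_cyclic : ¬ IsCyclic L := by
  intro hc
  have hc' : IsCyclic (L ⧸ pw p (⊤ : Subgroup L)) :=
    isCyclic_of_surjective (QuotientGroup.mk' _) (QuotientGroup.mk'_surjective _)
  have h1 : Nat.card (L ⧸ pw p (⊤ : Subgroup L)) ≤ p :=
    card_le_of_cyclic_exponent hpf.out.pos (pow_eq_one_quotient p)
  have h2 : (pw p (⊤ : Subgroup L)).index ≤ p := h1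
  rw [h.index_W] at h2
  have := hpf.out.one_lt
  nlinarith

theorem card_E : Nat.card (Om h.hL h.law) = p ^ 2 := by
  have h1 := Cfsg.Agent.Lib.PGroup.RankTwoThree.card_eq_of_powerLaw h.hL h.law
    (Ω := Om h.hL h.law) (fun _ => Iff.rfl)
  have h2 := (pw p (⊤ : Subgroup L)).card_mul_index
  rw [h.index_W] at h2
  have h0 : 0 < Nat.card (pw p (⊤ : Subgroup L)) := Nat.card_pos
  exact Nat.eq_of_mul_eq_mul_left h0 (h1.symm.trans h2.symm)

/-- Every element of order dividing `p` is a `p`-th power. -/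
theorem mem_W_of_pow {e : L} (he : e ^ p = 1) : e ∈ pw p (⊤ : Subgroup L) := by
  by_contra heW
  have hTm : Cfsg.IsMetacyclic (pw p (⊤ : Subgroup L)) := metacyclic_sub h.hmc _
  have hTp : IsPGroup p (pw p (⊤ : Subgroup L)) := h.hL.to_subgroup _
  have hTlaw : PowerLaw p (pw p (⊤ : Subgroup L)) :=
    powerLaw_of_isCyclic_commutator hTp h.hp3 (isCyclic_commutator_of_metacyclic hTm)
  let Ω : Subgroup (pw p (⊤ : Subgroup L)) := (Om h.hL h.law).subgroupOf _
  have hΩ : ∀ x : (pw p (⊤ : Subgroup L)), x ∈ Ω ↔ x ^ p = 1 := by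
    intro x
    rw [Subgroup.mem_subgroupOf, mem_Om]
    constructor
    · intro h1
      exact Subtype.ext (by simpa using h1)
    · intro h1
      simpa using congrArg Subtype.val h1
  have h1 := Cfsg.Agent.Lib.PGroup.RankTwoThree.card_eq_of_powerLaw hTp hTlaw hΩ
  have h2 := (pw p (⊤ : Subgroup (pw p (⊤ : Subgroup L)))).card_mul_index
  have h3 : (pw p (⊤ : Subgroup (pw p (⊤ : Subgroup L)))).index = Nat.card Ω := by
    have h0 : 0 < Nat.card (pw p (⊤ : Subgroup (pw p (⊤ : Subgroup L)))) := Nat.card_pos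
    exact Nat.eq_of_mul_eq_mul_left h0 (h2.trans h1)
  have h4 : Nat.card Ω < p ^ 2 := by
    rw [← h.card_E]
    let f : Ω → Om h.hL h.law := fun x => ⟨x.1.1, x.2⟩
    have := Fintype.ofFinite Ω
    have := Fintype.ofFinite (Om h.hL h.law)
    rw [Nat.card_eq_fintype_card, Nat.card_eq_fintype_card]
    refine Fintype.card_lt_of_injective_not_surjective f ?_ ?_
    · intro x y hxy
      have h9 : ((f x : Om h.hL h.law) : L) = f y := by rw [hxy]
      exact Subtype.ext (Subtype.ext h9)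
    · intro hs
      obtain ⟨x, hx⟩ := hs ⟨e, he⟩
      have hx' : (x.1.1 : L) = e := congrArg Subtype.val hx
      exact heW (hx' ▸ x.1.2)
  have h5 : Nat.card Ω ≤ p := by
    obtain ⟨k, hk⟩ := IsPGroup.iff_card.mp (hTp.to_subgroup Ω)
    rw [hk] at h4 ⊢
    have hk2 : k < 2 := (Nat.pow_lt_pow_iff_right hpf.out.one_lt).mp h4
    calc p ^ k ≤ p ^ 1 := Nat.pow_le_pow_right hpf.out.pos (by omega)
      _ = p := pow_one p
  have hcyc : IsCyclic (pw p (⊤ : Subgroup L)) := isCyclic_of_index_pw_le hTp (h3 ▸ h5)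
  obtain ⟨z, hzW, hz⟩ : ∃ z, pw p (⊤ : Subgroup L) ≤ zpowers z ∧ z ∉ pw p (⊤ : Subgroup L) := by
    obtain ⟨⟨g, hg⟩, hgen⟩ := IsCyclic.exists_generator (α := (pw p (⊤ : Subgroup L)))
    have hWg : ∀ y ∈ pw p (⊤ : Subgroup L), ∃ k : ℤ, g ^ k = y := by
      intro y hy
      obtain ⟨k, hk⟩ := mem_zpowers_iff.mp (hgen ⟨y, hy⟩)
      exact ⟨k, by simpa using congrArg Subtype.val hk⟩
    obtain ⟨z, rfl⟩ := h.mem_W.mp hg
    by_cases hzW : z ∈ pw p (⊤ : Subgroup L)
    · obtain ⟨k, hk⟩ := hWg z hzW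
      have hz1 : z = 1 := by
        obtain ⟨t, ht⟩ := (IsPGroup.iff_orderOf.mp h.hL) z
        have h6 : z ^ ((p : ℤ) * k - 1) = 1 := by
          rw [zpow_sub, zpow_mul, zpow_natCast, hk, zpow_one, mul_inv_cancel]
        have h7 := orderOf_dvd_iff_zpow_eq_one.mpr h6
        rw [ht] at h7
        by_cases ht0 : t = 0
        · rw [ht0, pow_zero] at ht
          exact orderOf_eq_one_iff.mp ht
        · exfalso
          have h8 : (p : ℤ) ∣ (p : ℤ) * k - 1 := by
            refine dvd_trans ?_ h7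
            push_cast
            exact dvd_pow_self _ ht0
          have h9 : (p : ℤ) ∣ 1 := by
            have h10 := dvd_sub (dvd_mul_right (p : ℤ) k) h8
            simpa using h10
          have h10 := Int.natCast_dvd_natCast.mp (by simpa using h9 : (p : ℤ) ∣ ((1 : ℕ) : ℤ))
          exact hpf.out.one_lt.ne' (Nat.dvd_one.mp h10)
      refine ⟨e, ?_, heW⟩
      intro y hy
      obtain ⟨j, rfl⟩ := hWg y hy
      rw [hz1]
      simp [one_mem]
    · refine ⟨z, ?_, hzW⟩
      intro y hy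
      obtain ⟨j, rfl⟩ := hWg y hy
      exact zpow_mem (pow_mem (mem_zpowers z) p) j
  have hZ : zpowers z < ⊤ := by
    refine lt_of_le_of_ne le_top (fun h0 => h.not_cyclic ?_)
    exact isCyclic_iff_exists_zpowers_eq_top.mpr ⟨z, h0⟩
  have hlt : pw p (⊤ : Subgroup L) < zpowers z := by
    refine lt_of_le_of_ne hzW (fun h0 => hz ?_)
    rw [h0]
    exact mem_zpowers z
  have h6 := index_step h.hL hlt
  have h7 := index_step h.hL hZ
  rw [h.index_W] at h6
  rw [index_top, mul_one] at h7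
  have hp0 := hpf.out.pos
  have h8 : (zpowers z).index = p := by
    refine le_antisymm ?_ h7
    have h9 : p * (zpowers z).index ≤ p * p := by rw [← pow_two]; exact h6
    exact Nat.le_of_mul_le_mul_left h9 hp0
  exact h.hnc (zpowers z) inferInstance h8

/-- `⟨g, k⟩'` has exponent `p` if `g, k` have exponent `p²`. -/
theorem exp_derived {g k : L} (hg : g ^ (p ^ 2) = 1) (hk : k ^ (p ^ 2) = 1) :
    ∀ c ∈ ⁅closure ({g, k} : Set L), closure ({g, k} : Set L)⁆, c ^ p = 1 := by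
  have hTm : Cfsg.IsMetacyclic (closure ({g, k} : Set L)) := metacyclic_sub h.hmc _
  have hTp : IsPGroup p (closure ({g, k} : Set L)) := h.hL.to_subgroup _
  have hTlaw : PowerLaw p (closure ({g, k} : Set L)) :=
    powerLaw_of_isCyclic_commutator hTp h.hp3 (isCyclic_commutator_of_metacyclic hTm)
  have hle := commutator_le_pw_top hTp (index_pw_le_of_metacyclic hpf.out.pos hTm)
  have hH2 : closure ({g, k} : Set L) ≤ Om h.hL (h.lawn 2) := closure_pair_le hg hk
  intro c hc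
  rw [← Subgroup.map_subtype_commutator] at hc
  obtain ⟨c', hc', rfl⟩ := hc
  obtain ⟨y, -, hy⟩ := (mem_pw_iff hTp hTlaw ⊤).mp (hle hc')
  rw [hy]
  have h2 : ((y : L)) ^ (p ^ 2) = 1 := hH2 y.2
  show (((y ^ p : closure ({g, k} : Set L)) : L)) ^ p = 1
  rw [Subgroup.coe_pow, ← pow_mul, ← pow_two]
  exact h2

theorem pow_mul_of {g k : L} (hg : g ^ (p ^ 2) = 1) (hk : k ^ (p ^ 2) = 1) :
    (g * k) ^ p = g ^ p * k ^ p := by
  obtain ⟨c, hc, he⟩ := h.law g k
  rw [he, eq_one_of_mem_pw (h.exp_derived hg hk) hc, mul_one]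

theorem pow_comm_of {g k : L} (hg : g ^ (p ^ 2) = 1) (hk : k ^ (p ^ 2) = 1) :
    g ^ p * k = k * g ^ p := by
  rw [pow_commute_iff h.hL h.law]
  apply h.exp_derived hg hk
  have h1 : g⁻¹ * k⁻¹ * g * k = ⁅g⁻¹, k⁻¹⁆ := by simp [commutatorElement_def]
  rw [h1]
  exact commutator_mem_commutator (inv_mem (mem_closure_pair_left g k))
    (inv_mem (mem_closure_pair_right g k))

theorem central_of {e k : L} (he : e ^ p = 1) (hk : k ^ (p ^ 2) = 1) : e * k = k * e := by
  obtain ⟨f, rfl⟩ := h.mem_W.mp (h.mem_W_of_pow he)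
  exact h.pow_comm_of (by rw [pow_two, pow_mul]; exact he) hk

/-- Lemma U on `Ω₁(L)`. -/
theorem U_E (a : MulAut L) (ha : a ^ p = 1) {e : L} (he : e ^ p = 1) :
    a (e⁻¹ * a e) = e⁻¹ * a e := by
  have haE : ∀ x ∈ Om h.hL h.law, a x ∈ Om h.hL h.law := by
    intro x hx
    rw [mem_Om] at hx ⊢
    rw [← map_pow, hx, map_one]
  let b : Om h.hL h.law →* Om h.hL h.law :=
    (a.toMonoidHom.comp (Om h.hL h.law).subtype).codRestrict _ (fun x => haE x x.2)
  have hbi : ∀ (n : ℕ) (x : Om h.hL h.law), ((b^[n] x : Om h.hL h.law) : L) = (a ^ n) x := by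
    intro n
    induction n with
    | zero => intro x; rfl
    | succ n ih =>
      intro x
      rw [Function.iterate_succ_apply', pow_succ', MulAut.mul_apply, ← ih]
      rfl
  have h1 := lemU h.card_E b (fun x => Subtype.ext (by rw [hbi, ha]; rfl)) ⟨e, he⟩
  exact congrArg Subtype.val h1

/-- Lemma U on `L / ℧₁(L)`. -/
theorem U_W (a : MulAut L) (ha : a ^ p = 1) (z : L) :
    (z⁻¹ * a z)⁻¹ * a (z⁻¹ * a z) ∈ pw p (⊤ : Subgroup L) := by
  have hle : pw p (⊤ : Subgroup L) ≤ (pw p (⊤ : Subgroup L)).comap a.toMonoidHom := by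
    intro x hx
    obtain ⟨u, rfl⟩ := h.mem_W.mp hx
    rw [Subgroup.mem_comap]
    exact h.mem_W.mpr ⟨a u, map_pow a u p⟩
  let b : L ⧸ pw p (⊤ : Subgroup L) →* L ⧸ pw p (⊤ : Subgroup L) :=
    QuotientGroup.map _ _ a.toMonoidHom hle
  have hbm : ∀ x : L, b (x : L ⧸ pw p (⊤ : Subgroup L)) = ((a x : L) : L ⧸ pw p (⊤ : Subgroup L)) :=
    fun x => rfl
  have hbi : ∀ (n : ℕ) (x : L), b^[n] (x : L ⧸ pw p (⊤ : Subgroup L)) =
      (((a ^ n) x : L) : L ⧸ pw p (⊤ : Subgroup L)) := by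
    intro n
    induction n with
    | zero => intro x; rfl
    | succ n ih =>
      intro x
      rw [Function.iterate_succ_apply', pow_succ', MulAut.mul_apply, ih, hbm]
  have hcard : Nat.card (L ⧸ pw p (⊤ : Subgroup L)) = p ^ 2 := h.index_W
  have h1 := lemU hcard b (by
    intro q
    obtain ⟨x, rfl⟩ := QuotientGroup.mk_surjective q
    rw [hbi, ha]
    rfl) (z : L ⧸ pw p (⊤ : Subgroup L))
  rw [hbm] at h1
  have h2 : ((z : L ⧸ pw p (⊤ : Subgroup L)))⁻¹ * ((a z : L) : L ⧸ pw p (⊤ : Subgroup L)) =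
      ((z⁻¹ * a z : L) : L ⧸ pw p (⊤ : Subgroup L)) := rfl
  rw [h2, hbm] at h1
  exact QuotientGroup.eq.mp h1.symm

end B

/-- The fixed points of an automorphism. -/
def fixSub (a : MulAut L) : Subgroup L where
  carrier := {w | a w = w}
  mul_mem' := by
    intro u v hu hv
    have hu' : a u = u := hu
    have hv' : a v = v := hv
    show a (u * v) = u * v
    rw [map_mul, hu', hv']
  one_mem' := map_one a
  inv_mem' := by
    intro u hu
    have hu' : a u = u := hu
    show a u⁻¹ = u⁻¹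
    rw [map_inv, hu']

theorem mem_fixSub {a : MulAut L} {w : L} : w ∈ fixSub a ↔ a w = w := Iff.rfl

/-- The forward direction: the group theory. -/
theorem forward (h : B p L) (a : MulAut L) (ha : a ^ p = 1) {x : L} (hx : x ^ p = 1)
    (hax : a x ≠ x) : p = 3 ∧ Nat.card (fixSub a) = 3 := by
  have hlaw := h.law
  have hlaw2 := h.lawn 2
  obtain ⟨g, rfl⟩ := h.mem_W.mp (h.mem_W_of_pow hx)
  have hg : g ^ (p ^ 2) = 1 := by rw [pow_two, pow_mul]; exact hx
  have hOm : ∀ z : L, z ^ (p ^ 2) = 1 → (a z) ^ (p ^ 2) = 1 := by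
    intro z hz
    rw [← map_pow, hz, map_one]
  have hEm : ∀ z : L, z ^ p = 1 → (a z) ^ p = 1 := by
    intro z hz
    rw [← map_pow, hz, map_one]
  have hOmul : ∀ {u v : L}, u ^ (p ^ 2) = 1 → v ^ (p ^ 2) = 1 → (u * v) ^ (p ^ 2) = 1 :=
    fun hu hv => (Om h.hL hlaw2).mul_mem hu hv
  have hOinv : ∀ {u : L}, u ^ (p ^ 2) = 1 → u⁻¹ ^ (p ^ 2) = 1 :=
    fun hu => (Om h.hL hlaw2).inv_mem hu
  have hEmul : ∀ {u v : L}, u ^ p = 1 → v ^ p = 1 → (u * v) ^ p = 1 :=
    fun hu hv => (Om h.hL hlaw).mul_mem hu hv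
  have hEinv : ∀ {u : L}, u ^ p = 1 → u⁻¹ ^ p = 1 :=
    fun hu => (Om h.hL hlaw).inv_mem hu
  have hE2 : ∀ {u : L}, u ^ p = 1 → u ^ (p ^ 2) = 1 := by
    intro u hu
    rw [pow_two, pow_mul, hu, one_pow]
  obtain ⟨n, han⟩ : ∃ n, a g = g * n := ⟨g⁻¹ * a g, by group⟩
  have hnd : n = g⁻¹ * a g := by rw [han]; group
  have hn2 : n ^ (p ^ 2) = 1 := by
    rw [hnd]
    exact hOmul (hOinv hg) (hOm g hg)
  have h1 : a (g ^ p) = g ^ p * n ^ p := by
    rw [map_pow, han, h.pow_mul_of hg hn2]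
  have hnp : n ^ p ≠ 1 := by
    intro h0
    apply hax
    rw [h1, h0, mul_one]
  have hy : (n ^ p) ^ p = 1 := by
    rw [← pow_mul, ← pow_two]
    exact hn2
  have hay : a (n ^ p) = n ^ p := by
    have h2 := h.U_E a ha hx
    have h3 : (g ^ p)⁻¹ * a (g ^ p) = n ^ p := by
      rw [h1]
      group
    rwa [h3] at h2
  obtain ⟨n₁, han₁⟩ : ∃ n₁, a n = n * n₁ := ⟨n⁻¹ * a n, by group⟩
  have hn₁d : n₁ = n⁻¹ * a n := by rw [han₁]; group
  have hn₁2 : n₁ ^ (p ^ 2) = 1 := by
    rw [hn₁d]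
    exact hOmul (hOinv hn2) (hOm n hn2)
  have hn₁p : n₁ ^ p = 1 := by
    have h2 : (n * n₁) ^ p = n ^ p * n₁ ^ p := h.pow_mul_of hn2 hn₁2
    rw [← han₁, ← map_pow, hay] at h2
    exact (mul_eq_left.mp h2.symm)
  obtain ⟨n₂, han₂⟩ : ∃ n₂, a n₁ = n₁ * n₂ := ⟨n₁⁻¹ * a n₁, by group⟩
  have hn₂d : n₂ = n₁⁻¹ * a n₁ := by rw [han₂]; group
  have hn₂p : n₂ ^ p = 1 := by
    rw [hn₂d]
    exact hEmul (hEinv hn₁p) (hEm _ hn₁p)
  have hafix : a n₂ = n₂ := by
    have h2 := h.U_E a ha hn₁p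
    rwa [← hn₂d] at h2
  have c1 : Commute n n₁ := (h.central_of hn₁p hn2).symm
  have c2 : Commute n₁ n₂ := (h.central_of hn₂p hn₁2).symm
  have key : ∀ i : ℕ, (a ^ i) g = g * n ^ i * n₁ ^ (i.choose 2) * n₂ ^ (i.choose 3) := by
    intro i
    induction i with
    | zero => simp
    | succ i ih =>
      rw [pow_succ', MulAut.mul_apply, ih, map_mul, map_mul, map_mul, map_pow, map_pow, map_pow,
        han, han₁, han₂, hafix, c1.mul_pow, c2.mul_pow]
      have e2 : (i + 1).choose 2 = i + i.choose 2 := by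
        rw [Nat.choose_succ_succ' i 1, Nat.choose_one_right]
      have e3 : (i + 1).choose 3 = i.choose 2 + i.choose 3 := Nat.choose_succ_succ' i 2
      rw [e2, e3]
      simp only [pow_succ', pow_add, mul_assoc]
  have hfin := key p
  rw [ha, MulAut.one_apply] at hfin
  have hfin' : n ^ p * n₁ ^ (p.choose 2) * n₂ ^ (p.choose 3) = 1 := by
    have h2 : g * (n ^ p * n₁ ^ (p.choose 2) * n₂ ^ (p.choose 3)) = g * 1 := by
      rw [mul_one]
      simpa only [mul_assoc] using hfin.symm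
    exact mul_left_cancel h2
  have hp3 := h.hp3
  have hp2 : 2 < p := by omega
  obtain ⟨t, ht⟩ := hpf.out.dvd_choose_self (k := 2) (by norm_num) hp2
  have hn₁c : n₁ ^ (p.choose 2) = 1 := by
    rw [ht, pow_mul, hn₁p, one_pow]
  rw [hn₁c, mul_one] at hfin'
  have hp3' : p = 3 := by
    by_contra hne
    have h3p : 3 < p := by omega
    obtain ⟨t', ht'⟩ := hpf.out.dvd_choose_self (k := 3) (by norm_num) h3p
    rw [ht', pow_mul, hn₂p, one_pow, mul_one] at hfin'
    exact hnp hfin'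
  subst hp3'
  refine ⟨rfl, ?_⟩
  have hc33 : (3 : ℕ).choose 3 = 1 := rfl
  rw [hc33, pow_one] at hfin'
  -- the fixed points inside `Ω₁`
  have hFElt : fixSub a ⊓ Om h.hL hlaw < Om h.hL hlaw := by
    refine lt_of_le_of_ne inf_le_right (fun h0 => hax ?_)
    have h2 : g ^ 3 ∈ fixSub a ⊓ Om h.hL hlaw := by
      rw [h0]
      exact hx
    exact h2.1
  have hFEcard : Nat.card (fixSub a ⊓ Om h.hL hlaw : Subgroup L) ≤ 3 := by
    have h2 := card_lt_of_lt hFElt
    rw [h.card_E] at h2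
    obtain ⟨k, hk⟩ := IsPGroup.iff_card.mp (h.hL.to_subgroup (fixSub a ⊓ Om h.hL hlaw))
    rw [hk] at h2 ⊢
    have hk2 : k < 2 := (Nat.pow_lt_pow_iff_right (by norm_num)).mp h2
    calc 3 ^ k ≤ 3 ^ 1 := Nat.pow_le_pow_right (by norm_num) (by omega)
      _ = 3 := pow_one 3
  have hnFE : n ^ 3 ∈ fixSub a ⊓ Om h.hL hlaw := ⟨hay, hy⟩
  have hgen : ∀ w ∈ fixSub a ⊓ Om h.hL hlaw, w ≠ 1 → n ^ 3 ∈ zpowers w := by
    intro w hw hw1
    have hw3 : w ^ 3 = 1 := hw.2
    have ho : orderOf w = 3 := orderOf_eq_prime hw3 hw1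
    have h2 : zpowers w = fixSub a ⊓ Om h.hL hlaw := by
      apply Subgroup.eq_of_le_of_card_ge
      · rw [zpowers_le]
        exact hw
      · rw [Nat.card_zpowers, ho]
        exact hFEcard
    rw [h2]
    exact hnFE
  have hfixcube : ∀ w : L, a w = w → w ^ 3 = 1 := by
    intro w hw
    by_contra hw3
    obtain ⟨t, ht⟩ := (IsPGroup.iff_orderOf.mp h.hL) w
    have ht2 : 2 ≤ t := by
      by_contra hlt
      apply hw3
      have h2 : orderOf w ∣ 3 := by
        rw [ht]
        have h3 : t ≤ 1 := by omega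
        calc 3 ^ t ∣ 3 ^ 1 := pow_dvd_pow 3 h3
          _ = 3 := pow_one 3
      exact orderOf_dvd_iff_pow_eq_one.mp h2
    obtain ⟨s, rfl⟩ : ∃ s, t = s + 2 := ⟨t - 2, by omega⟩
    obtain ⟨w₁, hw₁⟩ : ∃ w₁, w₁ = w ^ (3 ^ s) := ⟨_, rfl⟩
    have hw₁3 : w₁ ^ 3 ≠ 1 := by
      rw [hw₁, ← pow_mul]
      apply pow_ne_one_of_lt_orderOf (by positivity)
      rw [ht]
      have : 0 < 3 ^ s := by positivity
      rw [pow_add]
      nlinarith
    have hw₁9 : (w₁ ^ 3) ^ 3 = 1 := by
      rw [hw₁, ← pow_mul, ← pow_mul]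
      have h2 : w ^ (3 ^ (s + 2)) = 1 := by rw [← ht]; exact pow_orderOf_eq_one w
      rw [show 3 ^ s * (3 * 3) = 3 ^ (s + 2) by rw [pow_add]; norm_num]
      exact h2
    have haw₁ : a w₁ = w₁ := by
      rw [hw₁, map_pow, hw]
    have hmem : w₁ ^ 3 ∈ fixSub a ⊓ Om h.hL hlaw :=
      ⟨by show a (w₁ ^ 3) = w₁ ^ 3; rw [map_pow, haw₁], hw₁9⟩
    obtain ⟨k, hk⟩ := mem_zpowers_iff.mp (hgen _ hmem hw₁3)
    obtain ⟨w₂, hw₂⟩ : ∃ w₂, w₂ = w₁ ^ k := ⟨_, rfl⟩
    have hw₂3 : w₂ ^ 3 = n ^ 3 := by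
      rw [hw₂, ← hk, ← zpow_natCast (w₁ ^ k) 3, ← zpow_mul, mul_comm, zpow_mul, zpow_natCast]
    have haw₂ : a w₂ = w₂ := by
      rw [hw₂, map_zpow, haw₁]
    have hw₂9 : w₂ ^ (3 ^ 2) = 1 := by
      rw [pow_two, pow_mul, hw₂3]
      exact hy
    obtain ⟨e, hee⟩ : ∃ e, n = e * w₂ := ⟨n * w₂⁻¹, by group⟩
    have he3 : e ^ 3 = 1 := by
      have h2 := (pow_eq_iff h.hL hlaw n w₂).mp hw₂3.symm
      have h3 : n * w₂⁻¹ = e := by rw [hee]; group
      rwa [h3] at h2
    obtain ⟨e', hee'⟩ : ∃ e', e' = e⁻¹ * a e := ⟨_, rfl⟩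
    have he'3 : e' ^ 3 = 1 := by
      rw [hee']
      exact hEmul (hEinv he3) (hEm _ he3)
    have hae' : a e' = e' := by
      rw [hee']
      exact h.U_E a ha he3
    have hn₁e : n₁ = e' := by
      have h2 : n * n₁ = n * e' := by
        have h3 : e⁻¹ * a e * w₂ = w₂ * (e⁻¹ * a e) :=
          h.central_of (hEmul (hEinv he3) (hEm _ he3)) hw₂9
        rw [← han₁, hee, map_mul, haw₂, hee', mul_assoc, ← h3]
        group
      exact mul_left_cancel h2
    have hn₂1 : n₂ = 1 := by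
      rw [hn₂d, hn₁e, hae']
      group
    rw [hn₂1, mul_one] at hfin'
    exact hnp hfin'
  -- conclusion
  have hle : fixSub a ≤ fixSub a ⊓ Om h.hL hlaw := fun w hw => ⟨hw, hfixcube w hw⟩
  have hcard : Nat.card (fixSub a) ≤ 3 :=
    (Cfsg.Agent.Lib.PGroup.Regular.card_le_of_le hle).trans hFEcard
  obtain ⟨k, hk⟩ := IsPGroup.iff_card.mp (h.hL.to_subgroup (fixSub a))
  rw [hk] at hcard ⊢
  have hk1 : k ≤ 1 := by
    by_contra hk1
    have : 3 ^ 2 ≤ 3 ^ k := Nat.pow_le_pow_right (by norm_num) (by omega)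
    omega
  interval_cases k
  · exfalso
    rw [pow_zero] at hk
    have h2 := Subgroup.eq_bot_of_card_eq _ hk
    have h3 : n ^ 3 ∈ fixSub a := hay
    rw [h2, mem_bot] at h3
    exact hnp h3
  · rfl

/-- The semidirect product. -/
abbrev Xa (a : MulAut L) :=
  SemidirectProduct L ↥(Subgroup.zpowers a) (Subgroup.zpowers a).subtype

instance finite_Xa (a : MulAut L) : Finite (Xa a) :=
  Finite.of_equiv _ SemidirectProduct.equivProd.symm

theorem card_Xa (a : MulAut L) : Nat.card (Xa a) = Nat.card L * orderOf a := by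
  rw [Nat.card_congr SemidirectProduct.equivProd, Nat.card_prod, Nat.card_zpowers]

/-- From the fixed points to the class. -/
theorem class_eq {L : Type u} [Group L] [Finite L] [Fact (Nat.Prime 3)] (a : MulAut L)
    (ho : orderOf a = 3) (hf : Nat.card (fixSub a) = 3) (m : ℕ) (hm : Nat.card L = 3 ^ m) :
    Group.nilpotencyClass (Xa a) = m := by
  let t : Xa a := SemidirectProduct.inr ⟨a, mem_zpowers a⟩
  have hcomm : ∀ u : Xa a, u ∈ centralizer ({t} : Set (Xa a)) ↔ a u.left = u.left := by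
    intro u
    rw [mem_centralizer_singleton_iff]
    constructor
    · intro h1
      have h2 := congrArg SemidirectProduct.left h1
      simpa [t] using h2.symm
    · intro h1
      refine SemidirectProduct.ext ?_ ?_
      · simp [t, h1]
      · simp only [SemidirectProduct.mul_right, t, SemidirectProduct.right_inr]
        obtain ⟨b, hb⟩ := u.right
        obtain ⟨k, rfl⟩ := mem_zpowers_iff.mp hb
        exact Subtype.ext ((Commute.refl a).zpow_left k).eq
  have hA : Nat.card (centralizer ({t} : Set (Xa a))) = 3 ^ 2 := by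
    let e : centralizer ({t} : Set (Xa a)) ≃ (fixSub a × zpowers a) :=
      { toFun := fun u => (⟨u.1.left, (hcomm u.1).1 u.2⟩, u.1.right)
        invFun := fun q => ⟨⟨q.1.1, q.2⟩, (hcomm _).2 q.1.2⟩
        left_inv := fun u => Subtype.ext (SemidirectProduct.ext rfl rfl)
        right_inv := fun q => Prod.ext (Subtype.ext rfl) rfl }
    rw [Nat.card_congr e, Nat.card_prod, hf, Nat.card_zpowers, ho]
    norm_num
  have hX : Nat.card (Xa a) = 3 ^ (m + 1) := by
    rw [card_Xa, hm, ho, pow_succ]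
  have hC : centralizer ((centralizer ({t} : Set (Xa a)) : Subgroup (Xa a)) : Set (Xa a)) ≤
      centralizer ({t} : Set (Xa a)) := by
    intro z hz
    rw [mem_centralizer_singleton_iff]
    have ht : t ∈ centralizer ({t} : Set (Xa a)) := by
      rw [mem_centralizer_singleton_iff]
    exact (mem_centralizer_iff.mp hz t ht).symm
  have := class_of_selfCentralizing_sq (p := 3) (m + 1) (Xa a) hX _ hA hC
  simpa using this

/-- If `a` acts trivially on `L / ℧₁(L)`, the class is small. -/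
theorem class_ne {L : Type u} [Group L] [Finite L] [hpf : Fact (Nat.Prime 3)] (h : B 3 L)
    (a : MulAut L) (ho : orderOf a = 3) (hW : ∀ y : L, y⁻¹ * a y ∈ pw 3 (⊤ : Subgroup L))
    (m : ℕ) (hm : Nat.card L = 3 ^ m) : Group.nilpotencyClass (Xa a) ≠ m := by
  intro hc
  let S : Subgroup (MulAut L) :=
    { carrier := {b | ∀ l : L, ((b l : L) : L ⧸ pw 3 (⊤ : Subgroup L)) = (l : L ⧸ pw 3 (⊤ : Subgroup L))}
      mul_mem' := by
        intro u v hu hv l
        rw [MulAut.mul_apply]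
        exact (hu (v l)).trans (hv l)
      one_mem' := fun l => rfl
      inv_mem' := by
        intro u hu l
        have h1 := hu (u⁻¹ l)
        rw [MulAut.apply_inv_self] at h1
        exact h1.symm }
  have haS : a ∈ S := by
    intro l
    exact (QuotientGroup.eq.mpr (hW l)).symm
  have hS : zpowers a ≤ S := by
    rw [zpowers_le]
    exact haS
  let f₁ : L →* L ⧸ pw 3 (⊤ : Subgroup L) := QuotientGroup.mk' _
  let f₂ : ↥(zpowers a) →* L ⧸ pw 3 (⊤ : Subgroup L) := 1
  let Λ : Xa a →* L ⧸ pw 3 (⊤ : Subgroup L) := SemidirectProduct.lift f₁ f₂ (by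
      intro b
      ext l
      simp only [f₁, f₂, MonoidHom.comp_apply, QuotientGroup.mk'_apply]
      simpa using hS b.2 l)
  have hΛ : ∀ u : Xa a, Λ u = (u.left : L ⧸ pw 3 (⊤ : Subgroup L)) := by
    intro u
    simp [Λ, SemidirectProduct.lift, f₁, f₂]
  have hcardQ : Nat.card (L ⧸ pw 3 (⊤ : Subgroup L)) = 3 ^ 2 := h.index_W
  have hqcomm : ∀ q q' : L ⧸ pw 3 (⊤ : Subgroup L), q * q' = q' * q :=
    (IsPGroup.isMulCommutative_of_card_eq_prime_sq hcardQ).is_comm.comm
  let K : Subgroup (Xa a) := Λ.ker ⊓ (SemidirectProduct.rightHom : Xa a →* ↥(zpowers a)).ker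
  have hγ : (⊤ : Subgroup (Xa a)).lowerCentralSeries 1 ≤ K := by
    rw [Subgroup.top_lowerCentralSeries_one, commutator_def, Subgroup.commutator_le]
    intro u _ v _
    refine Subgroup.mem_inf.mpr ⟨?_, ?_⟩
    · rw [MonoidHom.mem_ker, map_commutatorElement, commutatorElement_eq_one_iff_mul_comm]
      exact hqcomm _ _
    · rw [MonoidHom.mem_ker, map_commutatorElement, commutatorElement_eq_one_iff_mul_comm]
      obtain ⟨b, hb⟩ := (SemidirectProduct.rightHom : Xa a →* ↥(zpowers a)) u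
      obtain ⟨c, hc⟩ := (SemidirectProduct.rightHom : Xa a →* ↥(zpowers a)) v
      obtain ⟨k, rfl⟩ := mem_zpowers_iff.mp hb
      obtain ⟨l, rfl⟩ := mem_zpowers_iff.mp hc
      exact Subtype.ext (((Commute.refl a).zpow_zpow k l).eq)
  have hKcard : Nat.card K ≤ Nat.card (pw 3 (⊤ : Subgroup L)) := by
    refine Nat.card_le_card_of_injective (fun u => ⟨u.1.left, ?_⟩) ?_
    · have h1 : Λ u.1 = 1 := u.2.1
      rw [hΛ] at h1
      exact (QuotientGroup.eq_one_iff _).mp h1
    · intro u u' huu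
      have h1 : u.1.left = u'.1.left := congrArg Subtype.val huu
      have h2 : u.1.right = 1 := u.2.2
      have h3 : u'.1.right = 1 := u'.2.2
      exact Subtype.ext (SemidirectProduct.ext h1 (h2.trans h3.symm))
  have hWc : Nat.card (pw 3 (⊤ : Subgroup L)) * 3 ^ 2 = 3 ^ m := by
    rw [← hm, ← h.index_W]
    exact (pw 3 (⊤ : Subgroup L)).card_mul_index
  have hm2 : 2 ≤ m := by
    by_contra hlt
    have h0 : 0 < Nat.card (pw 3 (⊤ : Subgroup L)) := Nat.card_pos
    have h1 : 3 ^ m ≤ 3 ^ 1 := Nat.pow_le_pow_right (by norm_num) (by omega)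
    nlinarith
  obtain ⟨m', rfl⟩ : ∃ m', m = m' + 2 := ⟨m - 2, by omega⟩
  have hWc' : Nat.card (pw 3 (⊤ : Subgroup L)) = 3 ^ m' := by
    rw [pow_add] at hWc
    exact Nat.eq_of_mul_eq_mul_right (by positivity) hWc
  have hX : Nat.card (Xa a) = 3 ^ (m' + 2 + 1) := by
    rw [card_Xa, hm, ho]
    exact (pow_succ 3 _).symm
  have hXp : IsPGroup 3 (Xa a) := IsPGroup.of_card hX
  have hne : (⊤ : Subgroup (Xa a)).lowerCentralSeries (m' + 1) ≠ ⊥ := by
    intro h0
    have : Group.IsNilpotent (Xa a) := hXp.isNilpotent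
    have h1 := (Subgroup.lowerCentralSeries_eq_bot_iff_nilpotencyClass_le).mp h0
    omega
  have h1 := Cfsg.Agent.Lib.PGroup.RankTwoThree.card_lcs_bound hXp ⊤ hne m' (by omega)
  rw [show m' + 1 - m' = 1 by omega] at h1
  have h2 : Nat.card ((⊤ : Subgroup (Xa a)).lowerCentralSeries 1) ≤ 3 ^ m' :=
    (Cfsg.Agent.Lib.PGroup.Regular.card_le_of_le hγ).trans (hKcard.trans hWc'.le)
  have h3 : Nat.card ((⊤ : Subgroup (Xa a)).lowerCentralSeries (m' + 1)) ≤ 1 := by
    have h4 : 0 < 3 ^ m' := by positivity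
    have h5 := h1.trans h2
    nlinarith
  apply hne
  exact Subgroup.eq_bot_of_card_le _ h3

/-- Generation. -/
theorem gen_top (h : B p L) (a : MulAut L) {v g : L} (hv : v ∉ pw p (⊤ : Subgroup L))
    (hvK : v⁻¹ * a v ∈ pw p (⊤ : Subgroup L)) (hg : g⁻¹ * a g ∉ pw p (⊤ : Subgroup L)) :
    closure ({v, g} : Set L) = ⊤ := by
  have hWn : (pw p (⊤ : Subgroup L)).Normal := pw_top_normal p
  let K : Subgroup L :=
    { carrier := {z | z⁻¹ * a z ∈ pw p (⊤ : Subgroup L)}
      mul_mem' := by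
        intro u w hu hw
        show (u * w)⁻¹ * a (u * w) ∈ pw p (⊤ : Subgroup L)
        have h1 : (u * w)⁻¹ * a (u * w) = (w⁻¹ * (u⁻¹ * a u) * w⁻¹⁻¹) * (w⁻¹ * a w) := by
          rw [map_mul]
          group
        rw [h1]
        exact mul_mem (hWn.conj_mem _ hu _) hw
      one_mem' := by
        show (1 : L)⁻¹ * a 1 ∈ pw p (⊤ : Subgroup L)
        simp [one_mem]
      inv_mem' := by
        intro u hu
        show u⁻¹⁻¹ * a u⁻¹ ∈ pw p (⊤ : Subgroup L)
        have h1 : u⁻¹⁻¹ * a u⁻¹ = u * (u⁻¹ * a u)⁻¹ * u⁻¹ := by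
          rw [map_inv]
          group
        rw [h1]
        exact hWn.conj_mem _ (inv_mem hu) _ }
  have hWK : pw p (⊤ : Subgroup L) ≤ K := by
    intro z hz
    show z⁻¹ * a z ∈ pw p (⊤ : Subgroup L)
    obtain ⟨u, rfl⟩ := h.mem_W.mp hz
    refine mul_mem (inv_mem hz) (h.mem_W.mpr ⟨a u, map_pow a u p⟩)
  have hvK' : v ∈ K := hvK
  have hgK : g ∉ K := hg
  have hAK : pw p (⊤ : Subgroup L) ⊔ zpowers v ≤ K := sup_le hWK (by rw [zpowers_le]; exact hvK')
  have h1 : pw p (⊤ : Subgroup L) < pw p (⊤ : Subgroup L) ⊔ zpowers v := by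
    refine lt_of_le_of_ne le_sup_left (fun h2 => hv ?_)
    rw [h2]
    exact (le_sup_right : zpowers v ≤ _) (mem_zpowers v)
  have h2 : pw p (⊤ : Subgroup L) ⊔ zpowers v < pw p (⊤ : Subgroup L) ⊔ closure ({v, g} : Set L) := by
    refine lt_of_le_of_ne (sup_le_sup_left ?_ _) (fun h3 => hgK (hAK ?_))
    · rw [zpowers_le]
      exact mem_closure_pair_left v g
    · rw [h3]
      exact (le_sup_right : closure ({v, g} : Set L) ≤ _) (mem_closure_pair_right v g)
  have h3 := index_step h.hL h1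
  have h4 := index_step h.hL h2
  rw [h.index_W] at h3
  have h5 : (pw p (⊤ : Subgroup L) ⊔ closure ({v, g} : Set L)).index = 1 := by
    have h6 := (pw p (⊤ : Subgroup L) ⊔ closure ({v, g} : Set L)).index_ne_zero_of_finite
    have hp1 := hpf.out.one_lt
    have h7 : p * (p * (pw p (⊤ : Subgroup L) ⊔ closure ({v, g} : Set L)).index) ≤ p ^ 2 :=
      (Nat.mul_le_mul_left p h4).trans h3
    have h8 : (pw p (⊤ : Subgroup L) ⊔ closure ({v, g} : Set L)).index ≤ 1 := by
      have hp2 : 0 < p ^ 2 := by positivity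
      have h9 : p ^ 2 * (pw p (⊤ : Subgroup L) ⊔ closure ({v, g} : Set L)).index ≤ p ^ 2 * 1 := by
        rw [mul_one]
        calc _ = p * (p * (pw p (⊤ : Subgroup L) ⊔ closure ({v, g} : Set L)).index) := by ring
          _ ≤ _ := h7
      exact Nat.le_of_mul_le_mul_left h9 hp2
    omega
  exact eq_top_of_pw_sup h.hL (index_eq_one.mp h5)

/-- The backward direction: the group theory. -/
theorem backward {L : Type u} [Group L] [Finite L] [hpf : Fact (Nat.Prime 3)] (h : B 3 L)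
    (a : MulAut L) (ha : a ^ 3 = 1) {y : L} (hy : y⁻¹ * a y ∉ pw 3 (⊤ : Subgroup L)) :
    ∃ x : L, x ^ 3 = 1 ∧ x ≠ 1 ∧ a x ≠ x := by
  have hlaw := h.law
  have hlawn := h.lawn
  have hW₂n : (pw (3 ^ 2) (⊤ : Subgroup L)).Normal := pw_top_normal (3 ^ 2)
  have hder : commutator L ≤ pw 3 (⊤ : Subgroup L) :=
    commutator_le_pw_top h.hL (index_pw_le_of_metacyclic hpf.out.pos h.hmc)
  have hpwH : ∀ H : Subgroup L, pw 3 ⁅H, H⁆ ≤ pw (3 ^ 2) (⊤ : Subgroup L) := by
    intro H
    rw [pw, closure_le]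
    rintro _ ⟨x, hx, rfl⟩
    have h1 : x ∈ commutator L := commutator_mono le_top le_top hx
    obtain ⟨z, rfl⟩ := h.mem_W.mp (hder h1)
    refine subset_closure ⟨z, trivial, ?_⟩
    rw [← pow_mul, pow_two]
  have hlawc : ∀ s t : L, ∃ c ∈ pw (3 ^ 2) (⊤ : Subgroup L), (s * t) ^ 3 = s ^ 3 * t ^ 3 * c := by
    intro s t
    obtain ⟨c, hc, he⟩ := hlaw s t
    exact ⟨c, hpwH _ hc, he⟩
  let π : L →* L ⧸ pw (3 ^ 2) (⊤ : Subgroup L) := QuotientGroup.mk' _
  have hπ1 : ∀ z : L, z ∈ pw (3 ^ 2) (⊤ : Subgroup L) → π z = 1 :=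
    fun z hz => (QuotientGroup.eq_one_iff _).mpr hz
  have hcen : ∀ s t : L, π (s ^ 3) * π t = π t * π (s ^ 3) := by
    intro s t
    have h1 : ⁅s ^ 3, t⁆ ∈ pw (3 ^ 2) (⊤ : Subgroup L) :=
      hpwH ⊤ (commutator_pow_mem hlaw (H := ⊤) trivial trivial)
    have h2 := hπ1 _ h1
    rwa [map_commutatorElement, commutatorElement_eq_one_iff_mul_comm] at h2
  obtain ⟨v, hav⟩ : ∃ v, a y = y * v := ⟨y⁻¹ * a y, by group⟩
  have hvd : y⁻¹ * a y = v := by rw [hav]; group
  rw [hvd] at hy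
  have hw₀ : v⁻¹ * a v ∈ pw 3 (⊤ : Subgroup L) := by
    have h1 := h.U_W a ha y
    rwa [hvd] at h1
  obtain ⟨g, hg⟩ := h.mem_W.mp hw₀
  have hav' : a v = v * g ^ 3 := by rw [← hg]; group
  obtain ⟨n, han⟩ : ∃ n, a g = g * n := ⟨g⁻¹ * a g, by group⟩
  have hnd : g⁻¹ * a g = n := by rw [han]; group
  have hnorm : v * a v * a (a v) = 1 := by
    have h3 : (a ^ 3) y = y := by rw [ha]; rfl
    have h4 : (a ^ 3) y = a (a (a y)) := by
      simp [pow_succ, MulAut.mul_apply]
    rw [h4, hav, map_mul, hav, map_mul, map_mul, hav] at h3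
    have h5 : y * (v * a v * a (a v)) = y * 1 := by
      rw [mul_one]
      calc y * (v * a v * a (a v)) = y * v * a v * a (a v) := by group
        _ = y := h3
    exact mul_left_cancel h5
  -- in the quotient by `℧₂`
  obtain ⟨c, hcm, hc⟩ := hlawc g n
  have haw : a (g ^ 3) = g ^ 3 * n ^ 3 * c := by
    rw [map_pow, han, hc]
  have e1 : π (a v) = π v * π (g ^ 3) := by rw [hav', map_mul]
  have e2 : π (a (g ^ 3)) = π (g ^ 3) * π (n ^ 3) := by
    rw [haw, map_mul, map_mul, hπ1 _ hcm, mul_one]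
  have e3 : π (a (a v)) = π v * π (g ^ 3) * (π (g ^ 3) * π (n ^ 3)) := by
    rw [hav', map_mul, map_mul, e1, e2]
  have hG3 : π (g ^ 3) * π (g ^ 3) * π (g ^ 3) = 1 := by
    have h1 : (g ^ 3) ^ 3 ∈ pw (3 ^ 2) (⊤ : Subgroup L) :=
      subset_closure ⟨g, trivial, by rw [← pow_mul, pow_two]⟩
    have h2 := hπ1 _ h1
    rw [map_pow] at h2
    simpa only [pow_succ, pow_zero, one_mul] using h2
  have hπnorm : π v * π v * π v * π (n ^ 3) = 1 := by
    have h1 := congrArg π hnorm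
    rw [map_mul, map_mul, map_one, e1, e3] at h1
    have hc1 := hcen g v
    generalize π (g ^ 3) = G at *
    generalize π (n ^ 3) = N at *
    generalize π v = V at *
    calc V * V * V * N = V * V * V * (G * G * G) * N := by rw [hG3, mul_one]
      _ = V * V * (V * G) * G * G * N := by simp only [mul_assoc]
      _ = V * V * (G * V) * G * G * N := by rw [hc1]
      _ = V * (V * G) * (V * G * (G * N)) := by simp only [mul_assoc]
      _ = 1 := h1
  -- `v n ∈ ℧₁`
  obtain ⟨c', hc'm, hc'⟩ := hlawc v n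
  have hvn2 : (v * n) ^ 3 ∈ pw (3 ^ 2) (⊤ : Subgroup L) := by
    apply (QuotientGroup.eq_one_iff _).mp
    show π ((v * n) ^ 3) = 1
    rw [hc', map_mul, map_mul, hπ1 _ hc'm, mul_one, map_pow]
    simpa only [pow_succ, pow_zero, one_mul] using hπnorm
  have hvnW : v * n ∈ pw 3 (⊤ : Subgroup L) := by
    obtain ⟨z, hz⟩ := (h.mem_Wn 2).mp hvn2
    have hz' : (v * n) ^ 3 = (z ^ 3) ^ 3 := by
      rw [hz, pow_two, pow_mul]
    have h1 := (pow_eq_iff h.hL hlaw _ _).mp hz'
    have h2 := h.mem_W_of_pow h1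
    have h3 : v * n = (v * n * (z ^ 3)⁻¹) * z ^ 3 := by group
    rw [h3]
    exact mul_mem h2 (h.mem_W.mpr ⟨z, rfl⟩)
  have hnW : n ∉ pw 3 (⊤ : Subgroup L) := by
    intro h1
    apply hy
    have h3 : v = (v * n) * n⁻¹ := by group
    rw [h3]
    exact mul_mem hvnW (inv_mem h1)
  obtain ⟨ψ, hψ⟩ := h.mem_W.mp hvnW
  have hv1 : v ≠ 1 := by
    rintro rfl
    exact hy (one_mem _)
  obtain ⟨f, hf⟩ := (IsPGroup.iff_orderOf.mp h.hL) v
  have hf0 : f ≠ 0 := by
    rintro rfl
    rw [pow_zero] at hf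
    exact hv1 (orderOf_eq_one_iff.mp hf)
  obtain ⟨k, rfl⟩ : ∃ k, f = k + 1 := ⟨f - 1, by omega⟩
  have hvk : v ^ (3 ^ k) ≠ 1 := by
    apply pow_ne_one_of_lt_orderOf (by positivity)
    rw [hf, pow_succ]
    have : 0 < 3 ^ k := by positivity
    omega
  have hvk1 : v ^ (3 ^ (k + 1)) = 1 := by
    rw [← hf]
    exact pow_orderOf_eq_one v
  by_cases hgk : g ^ (3 ^ (k + 1)) = 1
  · -- Case B
    have hg1 : g ≠ 1 := by
      rintro rfl
      apply hnW
      rw [← hnd]
      simp [one_mem]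
    obtain ⟨j, hjk, hj⟩ : ∃ j, j ≤ k ∧ orderOf g = 3 ^ (j + 1) := by
      obtain ⟨i, hi, hg'⟩ := (Nat.dvd_prime_pow hpf.out).1 (orderOf_dvd_of_pow_eq_one hgk)
      have hi0 : i ≠ 0 := by
        rintro rfl
        rw [pow_zero] at hg'
        exact hg1 (orderOf_eq_one_iff.mp hg')
      exact ⟨i - 1, by omega, by rw [hg']; congr 1; omega⟩
    have hx3 : (g ^ (3 ^ j)) ^ 3 = 1 := by
      rw [← pow_mul, ← pow_succ, ← hj]
      exact pow_orderOf_eq_one g
    have hx1 : g ^ (3 ^ j) ≠ 1 := by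
      apply pow_ne_one_of_lt_orderOf (by positivity)
      rw [hj, pow_succ]
      have : 0 < 3 ^ j := by positivity
      omega
    by_cases hx' : a (g ^ (3 ^ j)) = g ^ (3 ^ j)
    · exfalso
      have h1 : (a g) ^ (3 ^ j) = g ^ (3 ^ j) := by rw [← map_pow]; exact hx'
      have h2 := (pow_eq_iff h.hL (hlawn j) (a g) g).mp h1
      have h3 : a g * g⁻¹ = g * n * g⁻¹ := by rw [han]
      rw [h3, conj_pow, mul_inv_eq_one, mul_eq_left] at h2
      have hnk : n ^ (3 ^ k) = 1 := by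
        obtain ⟨d, rfl⟩ : ∃ d, k = j + d := ⟨k - j, by omega⟩
        rw [pow_add, pow_mul, h2, one_pow]
      have hgen := gen_top h a hy hw₀ (by rw [hnd]; exact hnW)
      have hall : ∀ z : L, z ^ (3 ^ (k + 1)) = 1 := by
        intro z
        have h4 : closure ({v, g} : Set L) ≤ Om h.hL (hlawn (k + 1)) := closure_pair_le hvk1 hgk
        rw [hgen] at h4
        exact h4 trivial
      have h5 : (v * n) ^ (3 ^ k) = 1 := by
        rw [hψ, ← pow_mul, ← pow_succ']
        exact hall ψ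
      have h6 : v ^ (3 ^ k) = (n⁻¹) ^ (3 ^ k) := by
        rw [pow_eq_iff h.hL (hlawn k), inv_inv]
        exact h5
      rw [inv_pow, hnk, inv_one] at h6
      exact hvk h6
    · exact ⟨_, hx3, hx1, hx'⟩
  · -- Case A
    refine ⟨v ^ (3 ^ k), ?_, hvk, ?_⟩
    · rw [← pow_mul, ← pow_succ]
      exact hvk1
    · intro hfix
      apply hgk
      have h1 : (a v) ^ (3 ^ k) = v ^ (3 ^ k) := by rw [← map_pow]; exact hfix
      have h2 := (pow_eq_iff h.hL (hlawn k) (a v) v).mp h1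
      rw [hav', conj_pow, mul_inv_eq_one, mul_eq_left, ← pow_mul, ← pow_succ'] at h2
      exact h2

end basics


/-- Let p be an odd prime and L a finite metacyclic p-group with no cyclic subgroup of index p, and let a be an automorphism of L of order p. Then a moves some element of order p of L if and only if p = 3 and the semidirect product L ⋊ ⟨a⟩ (of order 3·#L) has maximal class, i.e. nilpotency class m where #L = 3^m. -/
theorem result {L : Type*} [Group L] [Finite L] {p : ℕ} [Fact p.Prime]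
    (hp : p ≠ 2) (hL : IsPGroup p L) (hmc : Cfsg.IsMetacyclic L) (hnc : ∀ C : Subgroup L, IsCyclic C → C.index ≠ p)
    (a : MulAut L) (ha : orderOf a = p) (m : ℕ) (hm : Nat.card L = p ^ m) :
    (∃ x : L, orderOf x = p ∧ a x ≠ x) ↔
    (p = 3 ∧ Group.nilpotencyClass (SemidirectProduct L ↥(Subgroup.zpowers a) (Subgroup.zpowers a).subtype) = m) := by
  classical
  have hp3 : 3 ≤ p := by
    have := (Fact.out : p.Prime).two_le
    omega
  have hne : Nontrivial L := by
    by_contra hn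
    rw [not_nontrivial_iff_subsingleton] at hn
    have h1 : a = 1 := by
      ext x
      exact Subsingleton.elim _ _
    rw [h1, orderOf_one] at ha
    exact (Fact.out : p.Prime).one_lt.ne ha
  have hB : B p L := ⟨hL, hmc, hp3, hnc, hne⟩
  have hap : a ^ p = 1 := by
    rw [← ha]
    exact pow_orderOf_eq_one a
  constructor
  · rintro ⟨x, hx, hax⟩
    have hx1 : x ^ p = 1 := by
      rw [← hx]
      exact pow_orderOf_eq_one x
    obtain ⟨h3, hf⟩ := forward hB a hap hx1 hax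
    subst h3
    exact ⟨rfl, class_eq a ha hf m hm⟩
  · rintro ⟨rfl, hc⟩
    have h1 : ∃ y : L, y⁻¹ * a y ∉ pw 3 (⊤ : Subgroup L) := by
      by_contra h0
      push Not at h0
      exact class_ne hB a ha h0 m hm hc
    obtain ⟨y, hy⟩ := h1
    obtain ⟨x, hx3, hx1, hax⟩ := backward hB a hap hy
    exact ⟨x, orderOf_eq_prime hx3 hx1, hax⟩

end Cfsg.Agent.S4079
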