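import Cfsg.Statements.S4080
import Mathlib
-- import your own Cfsg.Agent.* helpers here

set_option autoImplicit false
open Cfsg

namespace Cfsg.Agent.S4080

open Polynomial in
/-- A `p`-power-order endomorphism of an `m`-dimensional space has `(A - 1) ^ m = 0`. -/
lemma nil_pow {V : Type*} [AddCommGroup V] {p : ℕ} [hp : Fact p.Prime] [Module (ZMod p) V] [Finite V]
    (A : Module.End (ZMod p) V) (m : ℕ) (hcard : Nat.card V = p ^ m) (r : ℕ) (hA : A ^ p ^ r = 1) :
    (A - 1) ^ m = 0 := by
  classical
  have hpp := hp.out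
  haveI : Module.Finite (ZMod p) V := Module.Finite.of_finite
  have hfr : Module.finrank (ZMod p) V = m := by
    haveI : Fintype V := Fintype.ofFinite V
    have h1 := Module.card_eq_pow_finrank (K := ZMod p) (V := V)
    rw [ZMod.card, ← Nat.card_eq_fintype_card, hcard] at h1
    exact (Nat.pow_right_injective hpp.two_le h1).symm
  set D : Module.End (ZMod p) V := A - 1 with hD
  have hfrob : ∀ k, ((X : (ZMod p)[X]) - 1) ^ p ^ k = X ^ p ^ k - 1 := by
    intro k
    rw [sub_pow_char_pow, one_pow]
  have hDk : ∀ k, D ^ p ^ k = A ^ p ^ k - 1 := by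
    intro k
    have := congrArg (aeval A) (hfrob k)
    simpa [hD] using this
  have hnil : IsNilpotent D := ⟨p ^ r, by rw [hDk, hA, sub_self]⟩
  have hchar := _root_.IsNilpotent.charpoly_eq_X_pow_finrank hnil
  have := LinearMap.aeval_self_charpoly D
  rw [hchar, hfr] at this
  simpa using this

/-- Elements of `ZMod (p ^ 2)` killed by `p` are multiples of `p`. -/
lemma exists_mul {p : ℕ} [hp : Fact p.Prime] {x : ZMod (p ^ 2)} (h : p • x = 0) :
    ∃ z : ZMod (p ^ 2), x = p • z := by
  have hpp := hp.out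
  haveI : NeZero (p ^ 2) := ⟨pow_ne_zero 2 hpp.ne_zero⟩
  have h1 : ((p * x.val : ℕ) : ZMod (p ^ 2)) = 0 := by
    push_cast
    rw [ZMod.natCast_zmod_val]
    simpa [nsmul_eq_mul] using h
  rw [ZMod.natCast_eq_zero_iff] at h1
  have h2 : p ∣ x.val := by
    have h1' : p * p ∣ p * x.val := by
      have e : p * p = p ^ 2 := (pow_two p).symm
      rw [e]; exact h1
    exact Nat.dvd_of_mul_dvd_mul_left hpp.pos h1'
  obtain ⟨c, hc⟩ := h2
  refine ⟨(c : ZMod (p ^ 2)), ?_⟩
  conv_lhs => rw [← ZMod.natCast_zmod_val x, hc]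
  simp [nsmul_eq_mul]


/-- The kernel computation: on an elementary abelian group of order `p ^ 2`, an additive map
of `p`-power order satisfies `(F - 1) ^ 2 = 0`. -/
lemma sq_zero_aux {P : Type*} [AddCommGroup P] [Finite P] {p : ℕ} [hp : Fact p.Prime]
    [Module (ZMod p) P] (hcard : Nat.card P = p ^ 2) (F₀ : P →+ P)
    (hF₀ : ∀ y, F₀^[p] y = y) (y : P) : F₀ (F₀ y - y) - (F₀ y - y) = 0 := by
  let A : Module.End (ZMod p) P := F₀.toZModLinearMap p
  have hA1 : A ^ p ^ 1 = 1 := by
    ext z
    rw [pow_one, Module.End.pow_apply]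
    exact hF₀ z
  have hsq := nil_pow A 2 hcard 1 hA1
  have h1 := LinearMap.congr_fun hsq y
  simp only [pow_two, Module.End.mul_apply, LinearMap.sub_apply, Module.End.one_apply,
    LinearMap.zero_apply] at h1
  exact h1

lemma sq_zero {P : Type*} [AddCommGroup P] [Finite P] {p : ℕ} [hp : Fact p.Prime]
    (hsm : ∀ y : P, p • y = 0) (hcard : Nat.card P = p ^ 2) (F₀ : P →+ P)
    (hF₀ : ∀ y, F₀^[p] y = y) (y : P) : F₀ (F₀ y - y) - (F₀ y - y) = 0 := by
  letI : Module (ZMod p) P := AddCommGroup.zmodModule hsm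
  exact sq_zero_aux hcard F₀ hF₀ y

/-- Main computation in the endomorphism ring. -/
lemma main_end {M : Type*} [AddCommGroup M] [Finite M] {p : ℕ} [hp : Fact p.Prime] (hp3 : 3 < p)
    (hmul : ∀ x : M, p • x = 0 → ∃ z : M, x = p • z) (hpp2 : ∀ y : M, p • (p • y) = 0)
    (hcardL : Nat.card M = p ^ 2 * p ^ 2) (F : AddMonoid.End M) (hF : F ^ p = 1)
    (x : M) (hx : p • x = 0) : F x = x := by
  classical
  have hpp := hp.out
  let g : M →+ M := nsmulAddMonoidHom p
  have hrange : g.range = g.ker := by
    ext y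
    constructor
    · rintro ⟨z, rfl⟩
      exact hpp2 z
    · intro hy
      obtain ⟨z, rfl⟩ := hmul y hy
      exact ⟨z, rfl⟩
  have hcardP : Nat.card g.ker = p ^ 2 := by
    have h1 : Nat.card g.ker * Nat.card g.range = Nat.card M := by
      rw [← AddSubgroup.index_ker, AddSubgroup.card_mul_index]
    rw [hrange, hcardL, ← pow_two, ← pow_two] at h1
    exact Nat.pow_left_injective (n := 2) (by norm_num) h1
  have hFmap : ∀ y ∈ g.ker, F y ∈ g.ker := by
    intro y hy
    change p • F y = 0
    rw [← map_nsmul]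
    have : p • y = 0 := hy
    rw [this, map_zero]
  have hsm : ∀ y : g.ker, p • y = 0 := by
    rintro ⟨y, hy⟩
    apply Subtype.ext
    exact hy
  let F₀ : g.ker →+ g.ker :=
    { toFun := fun y => ⟨F y, hFmap _ y.2⟩
      map_zero' := Subtype.ext (map_zero F)
      map_add' := fun u v => Subtype.ext (map_add F _ _) }
  have hiter : ∀ (k : ℕ) (y : g.ker), ((F₀^[k] y : g.ker) : M) = (F ^ k) (y : M) := by
    intro k
    induction k with
    | zero => intro y; simp
    | succ k ih =>
      intro y
      rw [Function.iterate_succ_apply', pow_succ' F k]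
      change F ((F₀^[k] y : g.ker) : M) = _
      rw [ih]
      rfl
  have hF₀ : ∀ y, F₀^[p] y = y := by
    intro y
    apply Subtype.ext
    rw [hiter, hF]
    rfl
  set f : AddMonoid.End M := F - 1 with hf
  have hfa : ∀ y, f y = F y - y := fun y => rfl
  have hf2P : ∀ y, p • y = 0 → f (f y) = 0 := by
    intro y hy
    have h1 := sq_zero hsm hcardP F₀ hF₀ ⟨y, hy⟩
    have h2 := congrArg Subtype.val h1
    rw [hfa, hfa]
    exact h2
  have hn : ∀ y, p • f (f y) = 0 := by
    intro y
    rw [← map_nsmul, ← map_nsmul]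
    exact hf2P _ (hpp2 y)
  have hf4 : ∀ y, f (f (f (f y))) = 0 := by
    intro y
    obtain ⟨z, hz⟩ := hmul _ (hn y)
    rw [hz, map_nsmul, map_nsmul, hn]
  have hf3 : ∀ y, p • f (f (f y)) = 0 := by
    intro y
    rw [← map_nsmul, hn, map_zero]
  have hzero : ∀ m : ℕ, 4 ≤ m → f ^ m = 0 := by
    intro m hm
    obtain ⟨t, rfl⟩ : ∃ t, m = t + 4 := ⟨m - 4, by omega⟩
    ext y
    have : (f ^ (t + 4)) y = (f ^ t) (f (f (f (f y)))) := by
      rw [pow_add]
      rfl
    rw [this, hf4, map_zero]
    rfl
  have hcomm : Commute f (1 : AddMonoid.End M) := Commute.one_right f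
  have hexp := hcomm.add_pow p
  have hf1 : f + 1 = F := by rw [hf]; abel
  rw [hf1, hF] at hexp
  have hsum : (∑ m ∈ Finset.range (p + 1), f ^ m * 1 ^ (p - m) * (p.choose m : AddMonoid.End M))
      = 1 + f * (p : AddMonoid.End M) := by
    rw [Finset.sum_eq_add 0 1 (by norm_num)]
    · simp
    · rintro m hm ⟨h0, h1⟩
      by_cases hm4 : 4 ≤ m
      · rw [hzero m hm4]; simp
      · have hmp : m < p := by omega
        have hm0 : m ≠ 0 := h0
        obtain ⟨c, hc⟩ := hpp.dvd_choose_self hm0 hmp
        rw [one_pow, mul_one, hc]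
        have hm23 : m = 2 ∨ m = 3 := by omega
        have hnat : ∀ y : M, ((p : AddMonoid.End M)) y = p • y := fun y => by
          simp [AddMonoid.End.natCast_apply]
        have key : (f ^ m) * (p : AddMonoid.End M) = 0 := by
          rcases hm23 with rfl | rfl
          · ext y
            have : ((f ^ 2) * (p : AddMonoid.End M)) y = p • f (f y) := by
              rw [← map_nsmul, ← map_nsmul, pow_two]
              change f (f (((p : AddMonoid.End M)) y)) = _
              rw [hnat]
            rw [this, hn]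
            rfl
          · ext y
            have : ((f ^ 3) * (p : AddMonoid.End M)) y = p • f (f (f y)) := by
              rw [← map_nsmul, ← map_nsmul, ← map_nsmul, pow_succ, pow_two]
              change f (f (f (((p : AddMonoid.End M)) y))) = _
              rw [hnat]
            rw [this, hf3]
            rfl
        push_cast
        rw [← mul_assoc, key, zero_mul]
    · intro h
      exact absurd (Finset.mem_range.mpr (by omega)) h
    · intro h
      exact absurd (Finset.mem_range.mpr (by omega)) h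
  rw [hsum] at hexp
  have hkill : f * (p : AddMonoid.End M) = 0 := by
    have := hexp
    exact (add_eq_left.mp this.symm)
  obtain ⟨z, rfl⟩ := hmul x hx
  have h1 : f (p • z) = 0 := by
    have h2 := congrArg (fun T : AddMonoid.End M => T z) hkill
    have e : (f * (p : AddMonoid.End M)) z = f (p • z) := by
      change f (((p : AddMonoid.End M)) z) = _
      congr 1
    exact e.symm.trans h2
  rw [hfa] at h1
  exact sub_eq_zero.mp h1

/-- Let p > 3 be a prime and L the direct product of two cyclic groups of order p². Every automorphism of L of order p fixes every element of order p of L. -/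
theorem result {p : ℕ} [Fact p.Prime] (hp : 3 < p)
    (a : MulAut (Multiplicative (ZMod (p ^ 2) × ZMod (p ^ 2)))) (ha : orderOf a = p)
    (x : Multiplicative (ZMod (p ^ 2) × ZMod (p ^ 2))) (hx : orderOf x = p) : a x = x := by
  have hpp : p.Prime := Fact.out
  haveI : NeZero (p ^ 2) := ⟨pow_ne_zero 2 hpp.ne_zero⟩
  let F : AddMonoid.End (ZMod (p ^ 2) × ZMod (p ^ 2)) :=
    { toFun := fun y => Multiplicative.toAdd (a (Multiplicative.ofAdd y))
      map_zero' := by
        simp
      map_add' := by
        intro u v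
        simp }
  have hpow : ∀ (k : ℕ) (y : ZMod (p ^ 2) × ZMod (p ^ 2)),
      (F ^ k) y = Multiplicative.toAdd ((a ^ k) (Multiplicative.ofAdd y)) := by
    intro k
    induction k with
    | zero => intro y; simp
    | succ k ih =>
      intro y
      rw [pow_succ' F k, pow_succ' a k]
      change F ((F ^ k) y) = _
      rw [ih]
      rfl
  have hap : a ^ p = 1 := by
    have h := pow_orderOf_eq_one a
    rwa [ha] at h
  have hF : F ^ p = 1 := by
    ext y
    · rw [hpow, hap]; rfl
    · rw [hpow, hap]; rfl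
  have hx1 : p • (Multiplicative.toAdd x) = 0 := by
    have h1 : x ^ p = 1 := by
      have h := pow_orderOf_eq_one x
      rwa [hx] at h
    exact h1
  have hmul : ∀ x : ZMod (p ^ 2) × ZMod (p ^ 2), p • x = 0 → ∃ z : ZMod (p ^ 2) × ZMod (p ^ 2), x = p • z := by
    rintro ⟨x₁, x₂⟩ hx
    have h1 : p • x₁ = 0 := congrArg Prod.fst hx
    have h2 : p • x₂ = 0 := congrArg Prod.snd hx
    obtain ⟨z₁, rfl⟩ := exists_mul h1
    obtain ⟨z₂, rfl⟩ := exists_mul h2
    exact ⟨(z₁, z₂), rfl⟩
  have hpp2 : ∀ y : ZMod (p ^ 2) × ZMod (p ^ 2), p • (p • y) = 0 := by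
    rintro ⟨y₁, y₂⟩
    have e : ∀ t : ZMod (p ^ 2), p • (p • t) = 0 := by
      intro t
      rw [← mul_nsmul, ← pow_two, nsmul_eq_mul]
      simp
    ext
    · exact e y₁
    · exact e y₂
  have hcardL : Nat.card (ZMod (p ^ 2) × ZMod (p ^ 2)) = p ^ 2 * p ^ 2 := by
    rw [Nat.card_prod, Nat.card_zmod]
  exact main_end hp hmul hpp2 hcardL F hF (Multiplicative.toAdd x) hx1

end Cfsg.Agent.S4080
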