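import Cfsg.Statements.S4081
import Mathlib
import Cfsg.Agent.Lib.Char.Burnside2

set_option autoImplicit false
set_option linter.unusedSectionVars false
open Cfsg

namespace Cfsg.Agent.S4081

open Polynomial


section LinearForward

variable {p q : ℕ} [Fact p.Prime] [Fact q.Prime]
variable {V : Type*} [AddCommGroup V] [Module (ZMod p) V] [Finite V]

/-- cyclic span -/
noncomputable def cspan (T : Module.End (ZMod p) V) (v : V) : Submodule (ZMod p) V :=
  Submodule.span (ZMod p) (Set.range fun i : ℕ => (T ^ i) v)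

lemma self_mem_cspan (T : Module.End (ZMod p) V) (v : V) : v ∈ cspan T v :=
  Submodule.subset_span ⟨0, by simp⟩

lemma aeval_mem_cspan (T : Module.End (ZMod p) V) (v : V) (f : (ZMod p)[X]) :
    aeval T f v ∈ cspan T v := by
  rw [aeval_eq_sum_range]
  rw [LinearMap.sum_apply]
  refine Submodule.sum_mem _ fun i _ => ?_
  rw [LinearMap.smul_apply]
  exact Submodule.smul_mem _ _ (Submodule.subset_span ⟨i, rfl⟩)

lemma aeval_eq_zero_of_mem_cspan (T : Module.End (ZMod p) V) (v : V) (f : (ZMod p)[X])
    (hf : aeval T f v = 0) {x : V} (hx : x ∈ cspan T v) : aeval T f x = 0 := by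
  induction hx using Submodule.span_induction with
  | mem x h =>
    obtain ⟨i, rfl⟩ := h
    have hc : aeval T f * T ^ i = T ^ i * aeval T f := by
      have := (aeval T).map_mul f (X ^ i)
      rw [mul_comm f, map_mul] at this
      simpa using this.symm
    have := congrArg (fun S : Module.End (ZMod p) V => S v) hc
    simp only [Module.End.mul_apply] at this
    show (aeval T f) ((T ^ i) v) = 0
    rw [this, hf, map_zero]
  | zero => simp
  | add x y _ _ hx hy => rw [map_add, hx, hy, add_zero]
  | smul a x _ hx => rw [map_smul, hx, smul_zero]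

lemma pow_comp (T : Module.End (ZMod p) V) (A : V ≃ₗ[ZMod p] V) (j : ℕ)
    (hA : ∀ x, A (T x) = (T ^ j) (A x)) (n : ℕ) (x : V) :
    A ((T ^ n) x) = ((T ^ j) ^ n) (A x) := by
  induction n generalizing x with
  | zero => simp
  | succ n ih =>
    rw [pow_succ, Module.End.mul_apply, ih, hA, pow_succ (T ^ j), Module.End.mul_apply]

lemma aeval_pow_comp (T : Module.End (ZMod p) V) (A : V ≃ₗ[ZMod p] V) (j : ℕ)
    (hA : ∀ x, A (T x) = (T ^ j) (A x)) (f : (ZMod p)[X]) (x : V) :
    A (aeval T f x) = aeval (T ^ j) f (A x) := by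
  induction f using Polynomial.induction_on' generalizing x with
  | add f g hf hg => simp [hf, hg]
  | monomial n a =>
    simp only [aeval_monomial, Module.End.mul_apply, Module.algebraMap_end_apply, map_smul]
    rw [pow_comp T A j hA]

lemma finrank_cspan_le (T : Module.End (ZMod p) V) (A : V ≃ₗ[ZMod p] V) (j : ℕ)
    (hA : ∀ x, A (T x) = (T ^ j) (A x)) (v : V) :
    Module.finrank (ZMod p) (cspan T v) ≤ Module.finrank (ZMod p) (cspan T (A v)) := by
  have hmap : (cspan T v).map (A : V →ₗ[ZMod p] V) ≤ cspan T (A v) := by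
    rw [cspan, Submodule.map_span, Submodule.span_le]
    rintro _ ⟨_, ⟨i, rfl⟩, rfl⟩
    simp only [LinearEquiv.coe_coe]
    rw [pow_comp T A j hA, ← pow_mul]
    exact Submodule.subset_span ⟨_, rfl⟩
  have h1 := Submodule.finrank_mono hmap
  rwa [LinearEquiv.finrank_map_eq] at h1

/-- Under the transitivity hypothesis the minimal polynomial of `T` is irreducible. -/
lemma irreducible_minpoly [Nontrivial V] (hpq : p ≠ q) (T : Module.End (ZMod p) V)
    (hT : aeval T (cyclotomic q (ZMod p)) = 0)
    (htr : ∀ v w : V, v ≠ 0 → w ≠ 0 → ∃ (A : V ≃ₗ[ZMod p] V) (j : ℕ),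
      (∀ x, A (T x) = (T ^ j) (A x)) ∧ A v = w) :
    Irreducible (minpoly (ZMod p) T) := by
  classical
  have : Module.Finite (ZMod p) V := Module.Finite.of_finite
  have hint : IsIntegral (ZMod p) T := Algebra.IsIntegral.isIntegral T
  have hm0 : minpoly (ZMod p) T ≠ 0 := minpoly.ne_zero hint
  have hdvd : minpoly (ZMod p) T ∣ cyclotomic q (ZMod p) := minpoly.dvd _ _ hT
  have hne : NeZero ((q : ℕ) : ZMod p) := ⟨by
    intro h
    have := (ZMod.natCast_eq_zero_iff q p).1 h
    exact hpq ((Nat.prime_dvd_prime_iff_eq (Fact.out) (Fact.out)).1 this)⟩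
  have hsep : (minpoly (ZMod p) T).Separable :=
    (separable_cyclotomic q (ZMod p)).of_dvd hdvd
  have hd : ∀ v w : V, v ≠ 0 → w ≠ 0 →
      Module.finrank (ZMod p) (cspan T v) = Module.finrank (ZMod p) (cspan T w) := by
    intro v w hv hw
    obtain ⟨A, j, hA, rfl⟩ := htr v w hv hw
    obtain ⟨B, k, hB, hB'⟩ := htr (A v) v hw hv
    have h1 := finrank_cspan_le T A j hA v
    have h2 := finrank_cspan_le T B k hB (A v)
    rw [hB'] at h2
    omega
  refine ⟨minpoly.not_isUnit _ _, ?_⟩
  rintro g h hgh
  by_contra hcon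
  push Not at hcon
  obtain ⟨hgu, hhu⟩ := hcon
  have hcop : IsCoprime g h := by
    rw [hgh] at hsep
    exact hsep.isCoprime
  -- `g(T)` and `h(T)` are nonzero
  have hm : aeval T g * aeval T h = 0 := by
    rw [← map_mul, ← hgh, minpoly.aeval]
  have hg0 : aeval T g ≠ 0 := by
    intro h0
    have := minpoly.dvd _ _ h0
    rw [hgh] at this
    have hg0' : g ≠ 0 := by
      rintro rfl
      simp at hgh
      exact hm0 hgh
    have hh0' : h ≠ 0 := by
      rintro rfl
      simp at hgh
      exact hm0 hgh
    obtain ⟨c, hc⟩ := this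
    have h1 : g * (h * c) = g * 1 := by rw [mul_one, ← mul_assoc]; exact hc.symm
    exact hhu (isUnit_iff_dvd_one.2 ⟨c, (mul_left_cancel₀ hg0' h1).symm⟩)
  have hh0 : aeval T h ≠ 0 := by
    intro h0
    have := minpoly.dvd _ _ h0
    rw [hgh] at this
    have hg0' : g ≠ 0 := by
      rintro rfl
      simp at hgh
      exact hm0 hgh
    have hh0' : h ≠ 0 := by
      rintro rfl
      simp at hgh
      exact hm0 hgh
    obtain ⟨c, hc⟩ := this
    have h1 : h * (g * c) = h * 1 := by
      rw [mul_one]
      calc h * (g * c) = g * h * c := by ring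
        _ = h := hc.symm
    exact hgu (isUnit_iff_dvd_one.2 ⟨c, (mul_left_cancel₀ hh0' h1).symm⟩)
  obtain ⟨v, hv⟩ : ∃ v, aeval T h v ≠ 0 := by
    by_contra hc
    push Not at hc
    exact hh0 (LinearMap.ext hc)
  obtain ⟨u, hu⟩ : ∃ u, aeval T g u ≠ 0 := by
    by_contra hc
    push Not at hc
    exact hg0 (LinearMap.ext hc)
  set v₁ := aeval T h v with hv₁
  set v₂ := aeval T g u with hv₂
  have hgv₁ : aeval T g v₁ = 0 := by
    have := congrArg (fun S : Module.End (ZMod p) V => S v) hm
    simpa [Module.End.mul_apply] using this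
  have hhv₂ : aeval T h v₂ = 0 := by
    have hm' : aeval T h * aeval T g = 0 := by rw [← map_mul, mul_comm, ← hgh, minpoly.aeval]
    have := congrArg (fun S : Module.End (ZMod p) V => S u) hm'
    simpa [Module.End.mul_apply] using this
  obtain ⟨a, b, hab⟩ := hcop
  have hbez : ∀ x, aeval T a (aeval T g x) + aeval T b (aeval T h x) = x := by
    intro x
    have := congrArg (fun f => aeval T f x) hab
    simpa [Module.End.mul_apply] using this
  -- `v₁ ∈ cspan (v₁+v₂)`
  have h1 : v₁ ∈ cspan T (v₁ + v₂) := by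
    have := aeval_mem_cspan T (v₁ + v₂) (b * h)
    have e : aeval T (b * h) (v₁ + v₂) = v₁ := by
      have := hbez v₁
      simp only [hgv₁, map_zero, zero_add] at this
      simp only [map_mul, Module.End.mul_apply, map_add, hhv₂, map_zero, add_zero]
      exact this
    rwa [e] at this
  have h2 : v₂ ∈ cspan T (v₁ + v₂) := by
    have := aeval_mem_cspan T (v₁ + v₂) (a * g)
    have e : aeval T (a * g) (v₁ + v₂) = v₂ := by
      have := hbez v₂
      simp only [hhv₂, map_zero, add_zero] at this
      simp only [map_mul, Module.End.mul_apply, map_add, hgv₁, map_zero, zero_add]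
      exact this
    rwa [e] at this
  have hle : cspan T v₁ ≤ cspan T (v₁ + v₂) := by
    rw [cspan, Submodule.span_le]
    rintro _ ⟨i, rfl⟩
    have hc := aeval_mem_cspan T (v₁ + v₂) (X ^ i * (b * h))
    have e : aeval T (X ^ i * (b * h)) (v₁ + v₂) = (T ^ i) v₁ := by
      have := hbez v₁
      simp only [hgv₁, map_zero, zero_add] at this
      simp only [map_mul, map_pow, aeval_X, Module.End.mul_apply, map_add, hhv₂, map_zero, add_zero]
      rw [this]
    rw [e] at hc
    exact hc
  have hsum0 : v₁ + v₂ ≠ 0 := by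
    intro h0
    rw [h0] at h1
    have : cspan T (0 : V) = ⊥ := by
      rw [cspan, Submodule.span_eq_bot]
      rintro _ ⟨i, rfl⟩
      simp
    rw [this] at h1
    exact hv ((Submodule.mem_bot _).1 h1)
  have heq := hd v₁ (v₁ + v₂) hv hsum0
  have : cspan T v₁ = cspan T (v₁ + v₂) := Submodule.eq_of_le_of_finrank_le hle heq.ge
  rw [← this] at h2
  have hgv₂ : aeval T g v₂ = 0 := aeval_eq_zero_of_mem_cspan T v₁ g hgv₁ h2
  have := hbez v₂
  rw [hgv₂, hhv₂] at this
  simp at this
  exact hu this.symm

/-- Abstract form of the primitive root conclusion. -/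
theorem orderOf_eq_of_transitive [Nontrivial V] (hpq : p ≠ q) (T : Module.End (ZMod p) V)
    (hT : aeval T (cyclotomic q (ZMod p)) = 0)
    (htr : ∀ v w : V, v ≠ 0 → w ≠ 0 → ∃ (A : V ≃ₗ[ZMod p] V) (j : ℕ),
      (∀ x, A (T x) = (T ^ j) (A x)) ∧ A v = w)
    (hgal : ∀ j : ℕ, 0 < j → j < q → ∃ A : V ≃ₗ[ZMod p] V, ∀ x, A (T x) = (T ^ j) (A x)) :
    orderOf (p : ZMod q) = q - 1 := by
  classical
  have hirr := irreducible_minpoly hpq T hT htr
  have hdvd : minpoly (ZMod p) T ∣ cyclotomic q (ZMod p) := minpoly.dvd _ _ hT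
  set m := minpoly (ZMod p) T with hmdef
  have hpq' : p.Coprime q := (Nat.coprime_primes Fact.out Fact.out).2 hpq
  have hdeg : m.natDegree = orderOf (ZMod.unitOfCoprime p hpq') := by
    have := natDegree_of_dvd_cyclotomic_of_irreducible (K := ZMod p) (p := p) (f := 1) (n := q)
      (P := m) (by simp [ZMod.card]) hpq' hdvd hirr
    simpa using this
  have hord : orderOf (ZMod.unitOfCoprime p hpq') = orderOf (p : ZMod q) := by
    rw [← orderOf_units]
    rfl
  haveI : Fact (Irreducible m) := ⟨hirr⟩
  let L := AdjoinRoot m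
  let θ : L := AdjoinRoot.root m
  have hL : NeZero ((q : ℕ) : L) := ⟨by
    intro h
    rw [← map_natCast (algebraMap (ZMod p) L), map_eq_zero] at h
    have := (ZMod.natCast_eq_zero_iff q p).1 h
    exact hpq ((Nat.prime_dvd_prime_iff_eq (Fact.out) (Fact.out)).1 this)⟩
  have hθm : aeval θ m = 0 := by
    rw [aeval_def]
    exact AdjoinRoot.eval₂_root m
  have hprim : IsPrimitiveRoot θ q := by
    rw [← isRoot_cyclotomic_iff]
    have h1 : aeval θ (cyclotomic q (ZMod p)) = 0 := by
      obtain ⟨c, hc⟩ := hdvd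
      rw [hc, map_mul, hθm, zero_mul]
    rw [IsRoot.def, ← map_cyclotomic q (algebraMap (ZMod p) L), eval_map_algebraMap]
    exact h1
  have hroots : ∀ j : ℕ, 0 < j → j < q → aeval (θ ^ j) m = 0 := by
    intro j hj hjq
    obtain ⟨A, hA⟩ := hgal j hj hjq
    have h0 : aeval (T ^ j) m = 0 := by
      ext x
      obtain ⟨y, rfl⟩ := A.surjective x
      rw [← aeval_pow_comp T A j hA]
      simp [hmdef]
    have h1 : m ∣ m.comp (X ^ j) := by
      apply minpoly.dvd
      rw [aeval_comp]
      simpa using h0
    obtain ⟨c, hc⟩ := h1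
    have h2 : aeval θ (m.comp (X ^ j)) = 0 := by
      rw [hc, map_mul, hθm, zero_mul]
    rw [aeval_comp] at h2
    simpa using h2
  have hcard : q - 1 ≤ m.natDegree := by
    have hq0 : 0 < q := (Fact.out : q.Prime).pos
    let Z : Finset L := (Finset.Ioo 0 q).image (fun j => θ ^ j)
    have hZ : Z.card = q - 1 := by
      rw [Finset.card_image_of_injOn]
      · simp
      · intro a ha b hb hab
        simp only [Finset.coe_Ioo, Set.mem_Ioo] at ha hb
        exact hprim.pow_inj ha.2 hb.2 hab
    have hsub : Z.val ⊆ (m.map (algebraMap (ZMod p) L)).roots := by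
      intro x hx
      have hx' : x ∈ Z := hx
      simp only [Z, Finset.mem_image, Finset.mem_Ioo] at hx'
      obtain ⟨j, ⟨hj0, hjq⟩, rfl⟩ := hx'
      rw [mem_roots (map_ne_zero hirr.ne_zero), IsRoot.def, eval_map_algebraMap]
      exact hroots j hj0 hjq
    have := card_le_degree_of_subset_roots hsub
    rw [hZ, natDegree_map] at this
    exact this
  have hle : orderOf (p : ZMod q) ∣ q - 1 := by
    have h1 : orderOf (ZMod.unitOfCoprime p hpq') ∣ Fintype.card (ZMod q)ˣ := orderOf_dvd_card
    rw [ZMod.card_units_eq_totient, Nat.totient_prime Fact.out, hord] at h1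
    exact h1
  have hq1 : 0 < q - 1 := Nat.sub_pos_of_lt (Fact.out : q.Prime).one_lt
  have := Nat.le_of_dvd hq1 hle
  rw [hdeg, hord] at hcard
  omega

end LinearForward

section LinearBackward

variable {p q : ℕ} [Fact p.Prime] [Fact q.Prime]
variable {V : Type*} [AddCommGroup V] [Module (ZMod p) V] [Finite V]

/-- Abstract form of the transitivity needed for the converse. -/
theorem exists_semilinear (hpq : p ≠ q) (hord : orderOf (p : ZMod q) = q - 1)
    (T : Module.End (ZMod p) V) (hT : aeval T (cyclotomic q (ZMod p)) = 0) :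
    (∀ v w : V, v ≠ 0 → w ≠ 0 → ∃ A : V ≃+ V, (∀ x, A (T x) = T (A x)) ∧ A v = w) ∧
    ∃ A : V ≃+ V, ∀ x, A (T x) = (T ^ p) (A x) := by
  classical
  have hpq' : p.Coprime q := (Nat.coprime_primes Fact.out Fact.out).2 hpq
  have hpnq : ¬ p ∣ q := fun h => hpq ((Nat.prime_dvd_prime_iff_eq Fact.out Fact.out).1 h)
  have hord' : orderOf (ZMod.unitOfCoprime p hpq') = orderOf (p : ZMod q) := by
    rw [← orderOf_units]
    rfl
  have hirr : Irreducible (cyclotomic q (ZMod p)) := by
    apply ZMod.irreducible_of_dvd_cyclotomic_of_natDegree (p := p) hpnq dvd_rfl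
    rw [natDegree_cyclotomic, Nat.totient_prime Fact.out, hord', hord]
  haveI : Fact (Irreducible (cyclotomic q (ZMod p))) := ⟨hirr⟩
  let Φ := cyclotomic q (ZMod p)
  let L := AdjoinRoot Φ
  have hmon : Φ.Monic := cyclotomic.monic q _
  haveI : Module.Finite (ZMod p) L := hmon.finite_adjoinRoot
  haveI : Finite L := Module.finite_of_finite (ZMod p)
  let φ : L →+* Module.End (ZMod p) V :=
    Ideal.Quotient.lift (Ideal.span {Φ}) (aeval T : (ZMod p)[X] →ₐ[ZMod p] _).toRingHom (by
      intro a ha
      obtain ⟨c, rfl⟩ := Ideal.mem_span_singleton'.1 ha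
      have : aeval T Φ = 0 := hT
      simp [this])
  letI : Module L V := Module.compHom V φ
  have hsmul : ∀ (a : L) (v : V), a • v = φ a v := fun _ _ => rfl
  let θ : L := AdjoinRoot.root Φ
  have hφθ : φ θ = T := by
    show Ideal.Quotient.lift (Ideal.span {Φ}) (aeval T : (ZMod p)[X] →ₐ[ZMod p] _).toRingHom _ (Ideal.Quotient.mk _ X) = T
    rw [Ideal.Quotient.lift_mk]
    simp
  have hθ : ∀ v : V, θ • v = T v := fun v => by rw [hsmul, hφθ]
  haveI : Module.Finite L V := Module.Finite.of_finite
  constructor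
  · intro v w hv hw
    let f := (LinearEquiv.toSpanNonzeroSingleton L V v hv).symm.trans
      (LinearEquiv.toSpanNonzeroSingleton L V w hw)
    obtain ⟨g, hg⟩ := Submodule.exists_linearEquiv_restrict_eq f
    refine ⟨g.toAddEquiv, ?_, ?_⟩
    · intro x
      have := g.map_smul θ x
      simpa [hθ] using this
    · have hv' : v ∈ Submodule.span L {v} := Submodule.mem_span_singleton_self v
      have := hg ⟨v, hv'⟩
      have e : f ⟨v, hv'⟩ = ⟨w, Submodule.mem_span_singleton_self w⟩ := by
        simp only [f, LinearEquiv.trans_apply]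
        have : (LinearEquiv.toSpanNonzeroSingleton L V v hv).symm ⟨v, hv'⟩ = 1 := by
          rw [LinearEquiv.symm_apply_eq]
          ext
          simp
        rw [this]
        ext
        simp
      rw [e] at this
      exact this.symm
  · haveI : CharP (ZMod p) p := ZMod.charP p
    haveI : CharP L p := charP_of_injective_algebraMap (algebraMap (ZMod p) L).injective p
    let σ : L ≃+* L := RingEquiv.ofBijective (frobenius L p)
      (Finite.injective_iff_bijective.mp (frobenius L p).injective)
    have hσ : σ θ = θ ^ p := rfl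
    let b := Module.Basis.ofVectorSpace L V
    let e : (Module.Basis.ofVectorSpaceIndex L V →₀ L) ≃+ (Module.Basis.ofVectorSpaceIndex L V →₀ L) :=
      Finsupp.mapRange.addEquiv σ.toAddEquiv
    let A : V ≃+ V := b.repr.toAddEquiv.trans (e.trans b.repr.symm.toAddEquiv)
    refine ⟨A, ?_⟩
    have he : ∀ (a : L) (f : Module.Basis.ofVectorSpaceIndex L V →₀ L), e (a • f) = σ a • e f := by
      intro a f
      ext i
      simp [e]
    have hA : ∀ (a : L) (x : V), A (a • x) = σ a • A x := by
      intro a x
      show b.repr.symm (e (b.repr (a • x))) = σ a • b.repr.symm (e (b.repr x))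
      rw [map_smul, he, map_smul]
    intro x
    rw [← hθ, hA, hσ, hsmul, map_pow, hφθ]

end LinearBackward



section Ext

variable {G : Type*} [Group G] [Finite G]

lemma exists_aut_extend (A : Subgroup G) [A.Normal] (c : G)
    (hcompl : A.IsComplement' (Subgroup.zpowers c)) (f : A ≃* A) (j : ℕ)
    (hj : (orderOf c).Coprime j)
    (hf : ∀ v : A, ((f (MulAut.conjNormal c v) : A) : G) = c ^ j * (f v : G) * (c ^ j)⁻¹) :
    ∃ α : MulAut G, (∀ v : A, α (v : G) = (f v : G)) ∧ α c = c ^ j := by
  classical
  let K := Subgroup.zpowers c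
  have hcK : c ∈ K := Subgroup.mem_zpowers c
  let e := SemidirectProduct.mulEquivSubgroup hcompl
  have hKcomm : ∀ x y : K, x * y = y * x := by
    intro x y
    obtain ⟨m, hm⟩ := Subgroup.mem_zpowers_iff.1 x.2
    obtain ⟨n, hn⟩ := Subgroup.mem_zpowers_iff.1 y.2
    apply Subtype.ext
    simp only [Subgroup.coe_mul, ← hm, ← hn, ← zpow_add, add_comm]
  let fg : K →* K :=
    { toFun := fun x => x ^ j
      map_one' := one_pow j
      map_mul' := fun x y => (Commute.mul_pow (hKcomm x y) j) }
  have hfg : Function.Injective fg := by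
    have hcop : (Nat.card K).Coprime j := by
      rw [Nat.card_zpowers]
      exact hj
    exact (powCoprime hcop).injective
  have hpow : ∀ (n : ℕ) (v : A), (((f ((MulAut.conjNormal (c ^ n) : MulAut A) v)) : A) : G)
      = (c ^ j) ^ n * (f v : G) * ((c ^ j) ^ n)⁻¹ := by
    intro n
    induction n with
    | zero => simp
    | succ n ih =>
      intro v
      have h1 : (MulAut.conjNormal (c ^ (n + 1)) : MulAut A) v
          = MulAut.conjNormal (c ^ n) (MulAut.conjNormal c v) := by
        rw [pow_succ, map_mul]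
        rfl
      rw [h1, ih, hf]
      simp only [pow_succ, mul_inv_rev]
      group
  have hh : ∀ g : K, f.toMonoidHom.comp
      ((A.normalizerMonoidHom.comp
        (Subgroup.inclusion (A.normalizer_eq_top ▸ le_top))) g).toMonoidHom =
      ((A.normalizerMonoidHom.comp
        (Subgroup.inclusion (A.normalizer_eq_top ▸ le_top))) (fg g)).toMonoidHom.comp
          f.toMonoidHom := by
    intro g
    ext v
    obtain ⟨n, hn⟩ : ∃ n : ℕ, c ^ n = (g : G) := by
      have : (g : G) ∈ Submonoid.powers c :=
        (mem_powers_iff_mem_zpowers).2 g.2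
      exact this
    have h1 := hpow n v
    have e1 : (MulAut.conjNormal (c ^ n) : MulAut A) v =
        (A.normalizerMonoidHom.comp
          (Subgroup.inclusion (A.normalizer_eq_top ▸ le_top))) g v := by
      apply Subtype.ext
      rw [MulAut.conjNormal_apply, hn]
      rfl
    rw [e1] at h1
    simp only [MonoidHom.comp_apply, MulEquiv.coe_toMonoidHom]
    refine h1.trans ?_
    have e2 : (((fg g : K) : G)) = (c ^ j) ^ n := by
      show (g : G) ^ j = _
      rw [← hn, pow_right_comm]
    rw [← e2]
    rfl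
  let m := SemidirectProduct.map f.toMonoidHom fg hh
  have hm : Function.Bijective m := by
    haveI : Finite (↥A ⋊[A.normalizerMonoidHom.comp (Subgroup.inclusion (A.normalizer_eq_top ▸ le_top))] ↥K) :=
      Finite.of_injective e e.injective
    apply Finite.injective_iff_bijective.mp
    intro x y hxy
    have h1 : m x = m y := hxy
    have hl := congrArg SemidirectProduct.left h1
    have hr := congrArg SemidirectProduct.right h1
    simp only [m, SemidirectProduct.map_left, SemidirectProduct.map_right] at hl hr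
    exact SemidirectProduct.ext (f.injective hl) (hfg hr)
  let M := MulEquiv.ofBijective m hm
  have he : ∀ x, e x = (x.left : G) * (x.right : G) := fun x => rfl
  refine ⟨e.symm.trans (M.trans e), ?_, ?_⟩
  · intro v
    have h1 : e.symm (v : G) = SemidirectProduct.inl v := by
      rw [MulEquiv.symm_apply_eq, he]
      simp
    simp only [MulEquiv.trans_apply]
    rw [h1]
    have h2 : M (SemidirectProduct.inl v) = SemidirectProduct.inl (f v) := by
      show m _ = _
      simp [m]
    rw [h2, he]
    simp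
  · have h1 : e.symm c = SemidirectProduct.inr ⟨c, hcK⟩ := by
      rw [MulEquiv.symm_apply_eq, he]
      simp
    simp only [MulEquiv.trans_apply]
    rw [h1]
    have h2 : M (SemidirectProduct.inr ⟨c, hcK⟩) = SemidirectProduct.inr (fg ⟨c, hcK⟩) := by
      show m _ = _
      simp [m]
    rw [h2, he]
    simp [fg]

end Ext



section Rep

open scoped IsMulCommutative

variable {G : Type*} [Group G]
variable (A : Subgroup G) [A.Normal] [IsMulCommutative A] (p : ℕ) [Module (ZMod p) (Additive A)]

/-- conjugation representation -/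
noncomputable def rho : G →* Module.End (ZMod p) (Additive A) where
  toFun x := AddMonoidHom.toZModLinearMap p
    (MonoidHom.toAdditive (MulAut.conjNormal x : MulAut A).toMonoidHom)
  map_one' := by
    ext v
    simp
  map_mul' x y := by
    ext v
    simp

lemma rho_apply (x : G) (v : Additive A) :
    (((rho A p x v).toMul : A) : G) = x * (v.toMul : G) * x⁻¹ := by
  simp [rho]

lemma rho_of_mem (u : G) (hu : u ∈ A) : rho A p u = 1 := by
  apply LinearMap.ext
  intro v
  apply Additive.toMul.injective
  apply Subtype.ext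
  rw [rho_apply]
  have := mul_comm' (⟨u, hu⟩ : A) v.toMul
  have h2 := congrArg (Subtype.val) this
  simp only [Subgroup.coe_mul] at h2
  rw [h2]
  simp

lemma aeval_cyclotomic_rho {q : ℕ} [Fact q.Prime] (c : G) (hc : c ^ q = 1)
    (hfpf : ∀ v : A, c * (v : G) * c⁻¹ = v → (v : G) = 1) :
    aeval (rho A p c) (cyclotomic q (ZMod p)) = 0 := by
  rw [cyclotomic_prime, map_sum]
  simp only [map_pow, aeval_X]
  set T := rho A p c with hT
  have hTq : T ^ q = 1 := by
    rw [hT, ← map_pow, hc, map_one]
  have hgeom : (T - 1) * ∑ i ∈ Finset.range q, T ^ i = 0 := by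
    rw [mul_geom_sum, hTq, sub_self]
  apply LinearMap.ext
  intro v
  set w := (∑ i ∈ Finset.range q, T ^ i) v with hw
  have h1 : T w = w := by
    have := congrArg (fun S : Module.End (ZMod p) (Additive A) => S v) hgeom
    simp only [Module.End.mul_apply, LinearMap.sub_apply, Module.End.one_apply,
      LinearMap.zero_apply, sub_eq_zero] at this
    exact this
  have h2 : ((w.toMul : A) : G) = 1 := by
    apply hfpf
    rw [← rho_apply A p, ← hT, h1]
  simp only [LinearMap.zero_apply]
  apply Additive.toMul.injective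
  apply Subtype.ext
  exact h2

lemma sum_pow_rho {q : ℕ} [Fact q.Prime] (c : G) (hc : c ^ q = 1)
    (hfpf : ∀ v : A, c * (v : G) * c⁻¹ = v → (v : G) = 1) :
    ∑ i ∈ Finset.range q, (rho A p c) ^ i = 0 := by
  have h := aeval_cyclotomic_rho (q := q) A p c hc hfpf
  rw [cyclotomic_prime, map_sum] at h
  simpa using h

end Rep

section NormIdentity

variable {R : Type*} [Ring R]

lemma norm_identity (a b : R) (hab : Commute a b) (q : ℕ) (hq : 0 < q)
    (h1 : ∀ i < q, ∑ k ∈ Finset.range q, (b * a ^ i) ^ k = 0)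
    (h2 : ∀ j, 0 < j → j < q → ∑ i ∈ Finset.range q, (a ^ j) ^ i = 0) : (q : R) = 0 := by
  have h3 : ∑ i ∈ Finset.range q, ∑ k ∈ Finset.range q, (b * a ^ i) ^ k = 0 :=
    Finset.sum_eq_zero fun i hi => h1 i (Finset.mem_range.1 hi)
  rw [Finset.sum_comm] at h3
  have h4 : ∀ k, ∑ i ∈ Finset.range q, (b * a ^ i) ^ k =
      b ^ k * ∑ i ∈ Finset.range q, (a ^ k) ^ i := by
    intro k
    rw [Finset.mul_sum]
    refine Finset.sum_congr rfl fun i _ => ?_
    have : Commute b (a ^ i) := (hab.symm.pow_right i)
    rw [this.mul_pow, ← pow_mul, ← pow_mul, mul_comm]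
  simp only [h4] at h3
  rw [Finset.sum_eq_single 0] at h3
  · simpa using h3
  · intro j hj hj0
    rw [h2 j (Nat.pos_of_ne_zero hj0) (Finset.mem_range.1 hj), mul_zero]
  · intro h
    exact absurd (Finset.mem_range.2 hq) h

end NormIdentity

section RepKlein

open scoped IsMulCommutative

variable {G : Type*} [Group G]
variable (A : Subgroup G) [A.Normal] [IsMulCommutative A] (p : ℕ) [Module (ZMod p) (Additive A)]

include p in
lemma nsmul_eq_zero_of_klein {q : ℕ} [Fact q.Prime] (y z : G) (hcomm : y * z = z * y)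
    (h1 : ∀ i < q, (y * z ^ i) ^ q = 1 ∧
      ∀ v : A, (y * z ^ i) * (v : G) * (y * z ^ i)⁻¹ = v → (v : G) = 1)
    (h2 : ∀ j, 0 < j → j < q → (z ^ j) ^ q = 1 ∧
      ∀ v : A, (z ^ j) * (v : G) * (z ^ j)⁻¹ = v → (v : G) = 1) (v : Additive A) :
    q • v = 0 := by
  have hq : q.Prime := Fact.out
  have hid : ((q : ℕ) : Module.End (ZMod p) (Additive A)) = 0 := by
    apply norm_identity (rho A p z) (rho A p y) _ q hq.pos
    · intro i hi
      obtain ⟨h3, h4⟩ := h1 i hi
      have := sum_pow_rho (q := q) A p _ h3 h4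
      simpa using this
    · intro j hj hjq
      obtain ⟨h3, h4⟩ := h2 j hj hjq
      have := sum_pow_rho (q := q) A p _ h3 h4
      simpa using this
    · show _ * _ = _ * _
      rw [← map_mul, ← map_mul, hcomm]
  have h3 := congrArg (fun S : Module.End (ZMod p) (Additive A) => S v) hid
  simpa using h3

lemma rho_mul_pow (u b : G) (hu : u ∈ A) (j : ℕ) : rho A p (u * b ^ j) = (rho A p b) ^ j := by
  rw [map_mul, rho_of_mem A p u hu, one_mul, map_pow]

end RepKlein

section Orbits

variable {G : Type*} [Group G] [Finite G]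

lemma pi_eq (u v : G) :
    (Quotient.mk'' u : MulAction.orbitRel.Quotient (MulAut G) G) = Quotient.mk'' v ↔
      ∃ f : MulAut G, f v = u := by
  rw [Quotient.eq'', MulAction.orbitRel_apply, MulAction.mem_orbit_iff]
  rfl

lemma three_of_reps (x y z : G) (hxy : ∀ f : MulAut G, f x ≠ y) (hxz : ∀ f : MulAut G, f x ≠ z)
    (hyz : ∀ f : MulAut G, f y ≠ z)
    (hcov : ∀ w : G, (∃ f : MulAut G, f x = w) ∨ (∃ f : MulAut G, f y = w) ∨
      (∃ f : MulAut G, f z = w)) :
    Nat.card (MulAction.orbitRel.Quotient (MulAut G) G) = 3 := by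
  let π : G → MulAction.orbitRel.Quotient (MulAut G) G := Quotient.mk''
  let F : Fin 3 → MulAction.orbitRel.Quotient (MulAut G) G := ![π x, π y, π z]
  have hne1 : π y ≠ π x := fun h => by
    obtain ⟨f, hf⟩ := (pi_eq y x).1 h
    exact hxy f hf
  have hne2 : π z ≠ π x := fun h => by
    obtain ⟨f, hf⟩ := (pi_eq z x).1 h
    exact hxz f hf
  have hne3 : π z ≠ π y := fun h => by
    obtain ⟨f, hf⟩ := (pi_eq z y).1 h
    exact hyz f hf
  have hF : Function.Bijective F := by
    constructor
    · intro i j hij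
      fin_cases i <;> fin_cases j <;> first
        | rfl
        | (exfalso; simp only [F] at hij; first
            | exact hne1 hij
            | exact hne1 hij.symm
            | exact hne2 hij
            | exact hne2 hij.symm
            | exact hne3 hij
            | exact hne3 hij.symm)
    · intro w
      induction w using Quotient.inductionOn' with
      | h w =>
      rcases hcov w with h | h | h
      · exact ⟨0, (pi_eq w x).2 h |>.symm⟩
      · exact ⟨1, (pi_eq w y).2 h |>.symm⟩
      · exact ⟨2, (pi_eq w z).2 h |>.symm⟩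
  rw [← Nat.card_eq_of_bijective F hF]
  simp

lemma cover_of_three (h : Nat.card (MulAction.orbitRel.Quotient (MulAut G) G) = 3) (x y z : G)
    (hxy : ∀ f : MulAut G, f x ≠ y) (hxz : ∀ f : MulAut G, f x ≠ z)
    (hyz : ∀ f : MulAut G, f y ≠ z) (w : G) :
    (∃ f : MulAut G, f x = w) ∨ (∃ f : MulAut G, f y = w) ∨ (∃ f : MulAut G, f z = w) := by
  let π : G → MulAction.orbitRel.Quotient (MulAut G) G := Quotient.mk''
  let F : Fin 3 → MulAction.orbitRel.Quotient (MulAut G) G := ![π x, π y, π z]
  have hne1 : π y ≠ π x := fun h => by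
    obtain ⟨f, hf⟩ := (pi_eq y x).1 h
    exact hxy f hf
  have hne2 : π z ≠ π x := fun h => by
    obtain ⟨f, hf⟩ := (pi_eq z x).1 h
    exact hxz f hf
  have hne3 : π z ≠ π y := fun h => by
    obtain ⟨f, hf⟩ := (pi_eq z y).1 h
    exact hyz f hf
  have hinj : Function.Injective F := by
    intro i j hij
    fin_cases i <;> fin_cases j <;> first
      | rfl
      | (exfalso; simp only [F] at hij; first
          | exact hne1 hij
          | exact hne1 hij.symm
          | exact hne2 hij
          | exact hne2 hij.symm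
          | exact hne3 hij
          | exact hne3 hij.symm)
  have hbij : Function.Bijective F :=
    hinj.bijective_of_nat_card_le (by simp [h])
  obtain ⟨i, hi⟩ := hbij.2 (π w)
  fin_cases i
  · left
    exact (pi_eq w x).1 hi.symm
  · right; left
    exact (pi_eq w y).1 hi.symm
  · right; right
    exact (pi_eq w z).1 hi.symm

lemma exists_char_abelian [Nontrivial G] (hsolv : Group.IsSolvable G) :
    ∃ A : Subgroup G, A.Characteristic ∧ A ≠ ⊥ ∧ ∀ x ∈ A, ∀ y ∈ A, x * y = y * x := by
  classical
  obtain ⟨n, hn⟩ := (Group.isSolvable_def G).1 hsolv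
  have hex : ∃ n, derivedSeries G n = ⊥ := ⟨n, hn⟩
  have hspec := Nat.find_spec hex
  have hmin := fun m => Nat.find_min hex (m := m)
  set N := Nat.find hex
  have hN : N ≠ 0 := by
    intro h0
    rw [h0, derivedSeries_zero] at hspec
    exact top_ne_bot hspec
  obtain ⟨m, hm⟩ := Nat.exists_eq_succ_of_ne_zero hN
  refine ⟨derivedSeries G m, inferInstance, hmin m (by omega), ?_⟩
  rw [hm, derivedSeries_succ, Subgroup.commutator_eq_bot_iff_le_centralizer] at hspec
  intro x hx y hy
  have := hspec hx
  rw [Subgroup.mem_centralizer_iff] at this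
  exact (this y hy).symm

end Orbits

section Backward

open scoped IsMulCommutative Pointwise

variable {G : Type*} [Group G] [Finite G]

lemma aut_of_add {p : ℕ} (A : Subgroup G) [A.Normal] [IsMulCommutative A]
    [Module (ZMod p) (Additive A)]
    (c : G) (hcompl : A.IsComplement' (Subgroup.zpowers c)) (B : Additive A ≃+ Additive A) (j : ℕ)
    (hj : (orderOf c).Coprime j) (hB : ∀ x, B (rho A p c x) = (rho A p c ^ j) (B x)) :
    ∃ α : MulAut G, (∀ v : A, α (v : G) = ((B (Additive.ofMul v)).toMul : G)) ∧ α c = c ^ j := by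
  let f : A ≃* A := (MulEquiv.toAdditive).symm B
  obtain ⟨α, h1, h2⟩ := exists_aut_extend A c hcompl f j hj (by
    intro v
    have h1 := hB (Additive.ofMul v)
    rw [← map_pow] at h1
    have h2 := congrArg (fun w : Additive A => ((w.toMul : A) : G)) h1
    have h3 : (((B (rho A p c (Additive.ofMul v))).toMul : A) : G) =
        ((((rho A p (c ^ j)) (B (Additive.ofMul v))).toMul : A) : G) := h2
    rw [rho_apply] at h3
    exact h3)
  exact ⟨α, h1, h2⟩

theorem backward_core {p q n : ℕ} [Fact p.Prime] [Fact q.Prime] (hpq : p ≠ q) (hn : 1 ≤ n)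
    (hcard : Nat.card G = p ^ n * q)
    (hP : ∀ P : Sylow p G, (P : Subgroup G).Normal ∧ Cfsg.IsElementaryAbelian p (P : Subgroup G))
    (hord : orderOf (p : ZMod q) = q - 1)
    (hfpf : ∀ x y : G, orderOf x = q → orderOf y = p → x * y * x⁻¹ ≠ y) :
    Nat.card (MulAction.orbitRel.Quotient (MulAut G) G) = 3 := by
  classical
  have hp : p.Prime := Fact.out
  have hq : q.Prime := Fact.out
  have hpq' : p.Coprime q := (Nat.coprime_primes hp hq).2 hpq
  have hpnq : ¬ p ∣ q := fun h => hpq ((Nat.prime_dvd_prime_iff_eq hp hq).1 h)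
  have hqnp : ¬ q ∣ p := fun h => hpq ((Nat.prime_dvd_prime_iff_eq hq hp).1 h).symm
  have hfacp : (Nat.card G).factorization p = n := by
    rw [hcard, Nat.factorization_mul (pow_ne_zero _ hp.ne_zero) hq.ne_zero,
      Nat.factorization_pow, Finsupp.add_apply, Finsupp.smul_apply,
      Nat.Prime.factorization_self hp, Nat.factorization_eq_zero_of_not_dvd hpnq]
    simp
  have hfacq : (Nat.card G).factorization q = 1 := by
    rw [hcard, Nat.factorization_mul (pow_ne_zero _ hp.ne_zero) hq.ne_zero,
      Nat.factorization_pow, Finsupp.add_apply, Finsupp.smul_apply,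
      Nat.Prime.factorization_self hq, Nat.factorization_eq_zero_of_not_dvd hqnp]
    simp
  obtain ⟨P⟩ : Nonempty (Sylow p G) := inferInstance
  obtain ⟨hPn, hPc, hPe⟩ := hP P
  set A : Subgroup G := (P : Subgroup G) with hA
  haveI : A.Normal := hPn
  haveI : IsMulCommutative A := hPc
  have hAcard : Nat.card A = p ^ n := by
    have := P.card_eq_multiplicity
    rwa [hfacp] at this
  have hAindex : A.index = q := by
    have := A.card_mul_index
    rw [hAcard, hcard] at this
    exact Nat.eq_of_mul_eq_mul_left (pow_pos hp.pos n) this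
  obtain ⟨c, hc⟩ := exists_prime_orderOf_dvd_card' q (Dvd.intro_left _ hcard.symm)
  obtain ⟨a', ha'⟩ : ∃ a : A, orderOf a = p :=
    exists_prime_orderOf_dvd_card' p (by rw [hAcard]; exact dvd_pow_self p (by omega))
  have ha : orderOf (a' : G) = p := by rw [Subgroup.orderOf_coe]; exact ha'
  have hAord : ∀ x ∈ A, x ≠ 1 → orderOf x = p := fun x hx hx1 => orderOf_eq_prime (hPe x hx) hx1
  have hcompl : A.IsComplement' (Subgroup.zpowers c) :=
    Subgroup.isComplement'_of_coprime (by rw [hAcard, Nat.card_zpowers, hc, hcard])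
      (by rw [hAcard, Nat.card_zpowers, hc]; exact Nat.Coprime.pow_left _ hpq')
  letI : Module (ZMod p) (Additive A) := AddCommGroup.zmodModule (n := p) (by
    intro x
    apply Additive.toMul.injective
    apply Subtype.ext
    simpa using hPe _ x.toMul.2)
  haveI : Finite (Additive A) := Finite.of_equiv A Additive.ofMul
  set T := rho A p c with hT
  have hfpf' : ∀ v : A, c * (v : G) * c⁻¹ = v → (v : G) = 1 := by
    intro v hv
    by_contra h1
    exact hfpf c v hc (hAord v v.2 h1) hv
  have hTc := aeval_cyclotomic_rho (q := q) A p c (by rw [← hc]; exact pow_orderOf_eq_one c) hfpf'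
  obtain ⟨htrans, B, hB⟩ := exists_semilinear hpq hord T hTc
  have hO1 : ∀ x ∈ A, x ≠ 1 → ∃ f : MulAut G, f (a' : G) = x := by
    intro x hx hx1
    have hne1 : Additive.ofMul a' ≠ 0 := by
      intro h0
      have : a' = 1 := Additive.ofMul.injective h0
      rw [this, orderOf_one] at ha'
      exact hp.one_lt.ne ha'
    have hne2 : Additive.ofMul (⟨x, hx⟩ : A) ≠ 0 := by
      intro h0
      have : (⟨x, hx⟩ : A) = 1 := Additive.ofMul.injective h0
      exact hx1 (congrArg Subtype.val this)
    obtain ⟨B', hB', hB'v⟩ := htrans _ _ hne1 hne2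
    obtain ⟨α, hα, -⟩ := aut_of_add A c hcompl B' 1 (by simp) (by simpa using hB')
    refine ⟨α, ?_⟩
    rw [hα a', hB'v]
    rfl
  obtain ⟨α₀, -, hα₀⟩ := aut_of_add A c hcompl B p (by rw [hc]; exact hpq'.symm) hB
  have hO2 : ∀ i : ℕ, ∃ f : MulAut G, f c = c ^ (p ^ i) := by
    intro i
    induction i with
    | zero => exact ⟨1, by simp⟩
    | succ i ih =>
      obtain ⟨f, hf⟩ := ih
      refine ⟨α₀ * f, ?_⟩
      rw [MulAut.mul_apply, hf, map_pow, hα₀, ← pow_mul, pow_succ, mul_comm]
  have hO3 : ∀ j : ℕ, j.Coprime q → ∃ f : MulAut G, f c = c ^ j := by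
    intro j hj
    let u := ZMod.unitOfCoprime p hpq'
    have hu : orderOf u = q - 1 := by
      rw [← hord, ← orderOf_units]
      rfl
    have htop : Subgroup.zpowers u = ⊤ := by
      apply Subgroup.eq_top_of_card_eq
      rw [Nat.card_zpowers, hu, Nat.card_eq_fintype_card, ZMod.card_units_eq_totient,
        Nat.totient_prime hq]
    have hmem : ZMod.unitOfCoprime j hj ∈ Subgroup.zpowers u := by
      rw [htop]; trivial
    have hmem' := (mem_powers_iff_mem_zpowers).2 hmem
    obtain ⟨i, hi⟩ := hmem'
    obtain ⟨f, hf⟩ := hO2 i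
    refine ⟨f, ?_⟩
    rw [hf, pow_eq_pow_iff_modEq, hc, ← ZMod.natCast_eq_natCast_iff]
    have := congrArg Units.val hi
    simpa [u] using this
  have hO4 : ∀ x : G, x ∉ A → orderOf x = q := by
    intro x hx
    have h1 : x ^ q ∈ A := by
      have := Subgroup.pow_index_mem A x
      rwa [hAindex] at this
    by_cases h2 : x ^ q = 1
    · exact orderOf_eq_prime h2 (fun h0 => hx (h0 ▸ A.one_mem))
    · exfalso
      have hy := hAord _ h1 h2
      have hz1 : x ^ p ≠ 1 := by
        intro h0
        obtain ⟨r, s, hrs⟩ := (Nat.isCoprime_iff_coprime.2 hpq')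
        apply hx
        have e : x = (x ^ p) ^ r * (x ^ q) ^ s := by
          rw [← zpow_natCast, ← zpow_natCast, ← zpow_mul, ← zpow_mul, ← zpow_add]
          have : (p : ℤ) * r + q * s = 1 := by linarith
          rw [this, zpow_one]
        rw [e, h0]
        simp only [one_zpow, one_mul]
        exact A.zpow_mem h1 s
      have hz : orderOf (x ^ p) = q := by
        apply orderOf_eq_prime _ hz1
        rw [← pow_mul, mul_comm, pow_mul]
        exact hPe _ h1
      apply hfpf (x ^ p) (x ^ q) hz hy
      rw [(Commute.pow_pow_self x p q).eq]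
      simp
  have hO5 : ∀ x : G, x ∉ A → ∃ f : MulAut G, f c = x := by
    intro x hx
    have hox := hO4 x hx
    let S1 : Sylow q G := Sylow.ofCard (Subgroup.zpowers c) (by
      rw [Nat.card_zpowers, hc, hfacq, pow_one])
    let S2 : Sylow q G := Sylow.ofCard (Subgroup.zpowers x) (by
      rw [Nat.card_zpowers, hox, hfacq, pow_one])
    obtain ⟨g, hg⟩ := MulAction.exists_smul_eq G S1 S2
    have hxS : x ∈ ((g • S1 : Sylow q G) : Subgroup G) := by
      rw [hg]
      exact Subgroup.mem_zpowers x
    have hxS' : x ∈ (MulAut.conj g) • (S1 : Subgroup G) := hxS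
    rw [Subgroup.mem_pointwise_smul_iff_inv_smul_mem] at hxS'
    have h3 : (MulAut.conj g)⁻¹ • x ∈ Subgroup.zpowers c := hxS'
    have h4 := (mem_powers_iff_mem_zpowers).2 h3
    obtain ⟨j, hj⟩ := h4
    have hjc : j.Coprime q := by
      rw [Nat.coprime_comm, Nat.Prime.coprime_iff_not_dvd hq]
      intro hdvd
      have : c ^ j = 1 := by
        rw [← hc] at hdvd
        exact orderOf_dvd_iff_pow_eq_one.1 hdvd
      have h5 : (MulAut.conj g)⁻¹ • x = 1 := by
        have : (fun i : ℕ => c ^ i) j = _ := hj
        simp only at this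
        rw [← this]
        exact ‹c ^ j = 1›
      have h6 : x = 1 := by
        have := congrArg (fun y => (MulAut.conj g) • y) h5
        simpa [mul_assoc] using this
      exact hx (h6 ▸ A.one_mem)
    obtain ⟨f, hf⟩ := hO3 j hjc
    refine ⟨MulAut.conj g * f, ?_⟩
    rw [MulAut.mul_apply, hf]
    have : (fun i : ℕ => c ^ i) j = _ := hj
    simp only at this
    rw [this]
    have h7 : (MulAut.conj g) ((MulAut.conj g)⁻¹ • x) = x := by
      show (MulAut.conj g) • ((MulAut.conj g)⁻¹ • x) = x
      simp [mul_assoc]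
    exact h7
  have hc1 : c ≠ 1 := by
    intro h0
    rw [h0, orderOf_one] at hc
    exact hq.one_lt.ne hc
  refine three_of_reps 1 (a' : G) c ?_ ?_ ?_ ?_
  · intro f h
    rw [map_one] at h
    rw [← h, orderOf_one] at ha
    exact hp.one_lt.ne ha
  · intro f h
    rw [map_one] at h
    exact hc1 h.symm
  · intro f h
    have := MulEquiv.orderOf_eq f (a' : G)
    rw [h, hc, ha] at this
    exact hpq this.symm
  · intro w
    by_cases hw : w ∈ A
    · by_cases hw1 : w = 1
      · left
        exact ⟨1, by simp [hw1]⟩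
      · right; left
        exact hO1 w hw hw1
    · right; right
      exact hO5 w hw

end Backward

section Forward

open scoped IsMulCommutative Pointwise

variable {G : Type*} [Group G] [Finite G]

lemma exists_restrict {p : ℕ} (A : Subgroup G) [A.Normal] [IsMulCommutative A]
    [Module (ZMod p) (Additive A)] (hfixed : ∀ f : MulAut G, ∀ x ∈ A, f x ∈ A) (f : MulAut G) :
    ∃ B : Additive A ≃ₗ[ZMod p] Additive A, (∀ v, ((B v).toMul : G) = f (v.toMul : G)) ∧
      ∀ x v, B (rho A p x v) = rho A p (f x) (B v) := by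
  let g : A ≃* A :=
    { toFun := fun v => ⟨f v, hfixed f v v.2⟩
      invFun := fun v => ⟨f⁻¹ v, hfixed f⁻¹ v v.2⟩
      left_inv := fun v => by
        apply Subtype.ext
        show f⁻¹ (f v) = v
        simp
      right_inv := fun v => by
        apply Subtype.ext
        show f (f⁻¹ v) = v
        simp
      map_mul' := fun u v => by
        apply Subtype.ext
        simp }
  let B₀ : Additive A ≃+ Additive A := MulEquiv.toAdditive g
  let B : Additive A ≃ₗ[ZMod p] Additive A :=
    { B₀ with map_smul' := fun a x => ZMod.map_smul B₀.toAddMonoidHom a x }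
  have hB : ∀ v, ((B v).toMul : G) = f (v.toMul : G) := fun v => rfl
  refine ⟨B, hB, ?_⟩
  intro x v
  apply Additive.toMul.injective
  apply Subtype.ext
  show ((B _).toMul : G) = ((rho A p (f x) (B v)).toMul : G)
  rw [hB, rho_apply, rho_apply, hB]
  simp

lemma forward_module {p q : ℕ} [Fact p.Prime] [Fact q.Prime] (hpq : p ≠ q)
    (A : Subgroup G) [A.Normal] [IsMulCommutative A] [Module (ZMod p) (Additive A)]
    (hAord : ∀ x ∈ A, x ≠ 1 → orderOf x = p) (a b : G) (haA : a ∈ A) (ha : orderOf a = p)
    (hb : orderOf b = q)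
    (hfp : ∀ x : G, orderOf x = q → ∀ v : A, x * (v : G) * x⁻¹ = v → (v : G) = 1)
    (horbp : ∀ x y : G, orderOf x = p → orderOf y = p → ∃ f : MulAut G, f x = y)
    (horbq : ∀ x y : G, orderOf x = q → orderOf y = q → ∃ f : MulAut G, f x = y)
    (hfixed : ∀ f : MulAut G, ∀ x ∈ A, f x ∈ A)
    (hcompl : A.IsComplement' (Subgroup.zpowers b)) :
    orderOf (p : ZMod q) = q - 1 := by
  classical
  have hp : p.Prime := Fact.out
  have hq : q.Prime := Fact.out
  haveI : Finite (Additive A) := Finite.of_equiv A Additive.ofMul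
  haveI : Nontrivial (Additive A) := by
    refine ⟨Additive.ofMul (⟨a, haA⟩ : A), 0, ?_⟩
    intro h0
    have h1 : (⟨a, haA⟩ : A) = 1 := Additive.ofMul.injective h0
    have h2 : a = 1 := congrArg Subtype.val h1
    rw [h2, orderOf_one] at ha
    exact hp.one_lt.ne ha
  set T := rho A p b with hT
  have hTc := aeval_cyclotomic_rho (q := q) A p b (by rw [← hb]; exact pow_orderOf_eq_one b)
    (hfp b hb)
  apply orderOf_eq_of_transitive hpq T hTc
  · intro v w hv hw
    have hv1 : ((v.toMul : A) : G) ≠ 1 := by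
      intro h0
      apply hv
      apply Additive.toMul.injective
      apply Subtype.ext
      exact h0
    have hw1 : ((w.toMul : A) : G) ≠ 1 := by
      intro h0
      apply hw
      apply Additive.toMul.injective
      apply Subtype.ext
      exact h0
    obtain ⟨f, hf⟩ := horbp _ _ (hAord _ (v.toMul).2 hv1) (hAord _ (w.toMul).2 hw1)
    obtain ⟨B, hB1, hB2⟩ := exists_restrict (p := p) A hfixed f
    obtain ⟨⟨u, k⟩, huk⟩ := hcompl.2 (f b)
    have huk' : (u : G) * (k : G) = f b := huk
    have hk := (mem_powers_iff_mem_zpowers).2 k.2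
    obtain ⟨j, hj⟩ := hk
    have hj' : b ^ j = (k : G) := hj
    refine ⟨B, j, ?_, ?_⟩
    · intro x
      rw [hB2, ← huk', ← hj', rho_mul_pow A p _ _ u.2]
    · apply Additive.toMul.injective
      apply Subtype.ext
      show ((B v).toMul : G) = (w.toMul : G)
      rw [hB1, hf]
  · intro j hj hjq
    have hcop : (orderOf b).Coprime j := by
      rw [hb, Nat.Prime.coprime_iff_not_dvd hq]
      intro hdvd
      exact absurd (Nat.le_of_dvd hj hdvd) (by omega)
    have hord : orderOf (b ^ j) = q := by
      rw [hcop.orderOf_pow, hb]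
    obtain ⟨f, hf⟩ := horbq _ _ hb hord
    obtain ⟨B, -, hB2⟩ := exists_restrict (p := p) A hfixed f
    refine ⟨B, ?_⟩
    intro x
    rw [hB2, hf, map_pow]

theorem forward_core {p q : ℕ} [Fact p.Prime] [Fact q.Prime] (hpq : p ≠ q)
    (hcard : ∃ α β, Nat.card G = p ^ α * q ^ β)
    (a b : G) (ha : orderOf a = p) (hb : orderOf b = q)
    (hall : ∀ x : G, x ≠ 1 → orderOf x = p ∨ orderOf x = q)
    (horbp : ∀ x y : G, orderOf x = p → orderOf y = p → ∃ f : MulAut G, f x = y)
    (horbq : ∀ x y : G, orderOf x = q → orderOf y = q → ∃ f : MulAut G, f x = y)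
    (A : Subgroup G) (hAchar : A.Characteristic) (hAcomm : ∀ x ∈ A, ∀ y ∈ A, x * y = y * x)
    (haA : a ∈ A) :
    ∃ n, 1 ≤ n ∧ Nat.card G = p ^ n * q ∧
      (∀ P : Sylow p G, (P : Subgroup G).Normal ∧ Cfsg.IsElementaryAbelian p (P : Subgroup G)) ∧
      orderOf (p : ZMod q) = q - 1 ∧
      ∀ x y : G, orderOf x = q → orderOf y = p → x * y * x⁻¹ ≠ y := by
  classical
  have hp : p.Prime := Fact.out
  have hq : q.Prime := Fact.out
  have hpq' : p.Coprime q := (Nat.coprime_primes hp hq).2 hpq
  have hpnq : ¬ p ∣ q := fun h => hpq ((Nat.prime_dvd_prime_iff_eq hp hq).1 h)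
  have hqnp : ¬ q ∣ p := fun h => hpq ((Nat.prime_dvd_prime_iff_eq hq hp).1 h).symm
  have hp2 := hp.two_le
  have hq2 := hq.two_le
  have hnopq : ∀ x y : G, orderOf x = q → orderOf y = p → x * y * x⁻¹ ≠ y := by
    intro x y hx hy h
    have hcomm : Commute x y := by
      show x * y = y * x
      calc x * y = x * y * x⁻¹ * x := by group
        _ = y * x := by rw [h]
    have h1 : orderOf (x * y) = q * p := by
      rw [hcomm.orderOf_mul_eq_mul_orderOf_of_coprime (by rw [hx, hy]; exact hpq'.symm), hx, hy]
    have h2 : x * y ≠ 1 := by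
      intro h0
      rw [h0, orderOf_one] at h1
      nlinarith
    rcases hall _ h2 with h3 | h3 <;> rw [h1] at h3 <;> nlinarith
  have hfixed : ∀ f : MulAut G, ∀ x ∈ A, f x ∈ A := by
    intro f x hx
    have := hAchar.fixed f
    rw [← this] at hx
    exact hx
  have hApset : ∀ x, orderOf x = p → x ∈ A := by
    intro x hx
    obtain ⟨f, rfl⟩ := horbp a x ha hx
    exact hfixed f a haA
  have hAord : ∀ x ∈ A, x ≠ 1 → orderOf x = p := by
    intro x hx hx1
    rcases hall x hx1 with h | h
    · exact h
    · exfalso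
      apply hnopq x a h ha
      rw [hAcomm x hx a haA]
      simp
  have hAexp : ∀ x ∈ A, x ^ p = 1 := by
    intro x hx
    by_cases hx1 : x = 1
    · simp [hx1]
    · rw [← hAord x hx hx1]
      exact pow_orderOf_eq_one x
  have hAp : IsPGroup p A := by
    intro x
    refine ⟨1, ?_⟩
    apply Subtype.ext
    simpa using hAexp x x.2
  have hSyl : ∀ P : Sylow p G, (P : Subgroup G) = A := by
    intro P
    have hle : (P : Subgroup G) ≤ A := by
      intro x hx
      by_cases hx1 : x = 1
      · rw [hx1]; exact A.one_mem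
      rcases hall x hx1 with h | h
      · exact hApset x h
      · exfalso
        obtain ⟨k, hk⟩ := P.isPGroup' ⟨x, hx⟩
        have h1 : x ^ (p ^ k) = 1 := congrArg Subtype.val hk
        have h2 := orderOf_dvd_of_pow_eq_one h1
        rw [h] at h2
        exact hqnp (hq.dvd_of_dvd_pow h2 |>.trans (by
          exact (dvd_refl p)))
    exact (P.is_maximal' hAp hle).symm
  haveI hAn : A.Normal := Subgroup.normal_of_characteristic A
  haveI hAc : IsMulCommutative A := by
    refine ⟨⟨fun x y => ?_⟩⟩
    apply Subtype.ext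
    exact hAcomm x x.2 y y.2
  letI : Module (ZMod p) (Additive A) := AddCommGroup.zmodModule (n := p) (by
    intro x
    apply Additive.toMul.injective
    apply Subtype.ext
    simpa using hAexp _ x.toMul.2)
  haveI : Finite (Additive A) := Finite.of_equiv A Additive.ofMul
  have hfp : ∀ x : G, orderOf x = q → ∀ v : A, x * (v : G) * x⁻¹ = v → (v : G) = 1 := by
    intro x hx v hv
    by_contra h1
    exact hnopq x v hx (hAord v v.2 h1) hv
  -- the Sylow `q`-subgroup has order `q`
  obtain ⟨Q⟩ : Nonempty (Sylow q G) := inferInstance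
  have hQq : q ∣ Nat.card Q := Q.dvd_card_of_dvd_card (by
    rw [← hb]; exact orderOf_dvd_natCard b)
  have hQord : ∀ x ∈ (Q : Subgroup G), x ≠ 1 → orderOf x = q := by
    intro x hx hx1
    rcases hall x hx1 with h | h
    · exfalso
      obtain ⟨k, hk⟩ := Q.isPGroup' ⟨x, hx⟩
      have h1 : x ^ (q ^ k) = 1 := congrArg Subtype.val hk
      have h2 := orderOf_dvd_of_pow_eq_one h1
      rw [h] at h2
      exact hpnq (hp.dvd_of_dvd_pow h2)
    · exact h
  have hQcard : Nat.card Q = q := by
    by_contra hne
    have hcardpos : 0 < Nat.card Q := Nat.card_pos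
    haveI : Nontrivial Q := by
      rw [← Finite.one_lt_card_iff_nontrivial]
      have := Nat.le_of_dvd hcardpos hQq
      omega
    have hZ : Nontrivial (Subgroup.center Q) := Q.isPGroup'.center_nontrivial
    obtain ⟨⟨z, hz⟩, hz1⟩ := exists_ne (1 : Subgroup.center Q)
    have hz1' : (z : G) ≠ 1 := by
      intro h0
      apply hz1
      apply Subtype.ext
      apply Subtype.ext
      exact h0
    have hzord := hQord z z.2 hz1'
    obtain ⟨y, hyQ, hyz⟩ : ∃ y ∈ (Q : Subgroup G), y ∉ Subgroup.zpowers (z : G) := by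
      by_contra hcon
      push Not at hcon
      have hle : (Q : Subgroup G) ≤ Subgroup.zpowers (z : G) := hcon
      have h1 := Subgroup.card_le_of_le hle
      rw [Nat.card_zpowers, hzord] at h1
      exact hne (le_antisymm h1 (Nat.le_of_dvd hcardpos hQq))
    have hcomm : (y : G) * z = z * y := by
      have := (Subgroup.mem_center_iff.1 hz) ⟨y, hyQ⟩
      exact congrArg Subtype.val this
    have h1 := nsmul_eq_zero_of_klein (q := q) A p y (z : G) hcomm
      (by
        intro i _
        have hmem : y * (z : G) ^ i ∈ (Q : Subgroup G) := Q.1.mul_mem hyQ (Q.1.pow_mem z.2 i)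
        have hne1 : y * (z : G) ^ i ≠ 1 := by
          intro h0
          apply hyz
          have : y = ((z : G) ^ i)⁻¹ := eq_inv_of_mul_eq_one_left h0
          rw [this]
          exact Subgroup.inv_mem _ (Subgroup.npow_mem_zpowers _ i)
        have h0 := hQord _ hmem hne1
        exact ⟨orderOf_dvd_iff_pow_eq_one.1 (dvd_of_eq h0), hfp _ h0⟩)
      (by
        intro j hj hjq
        have hmem : (z : G) ^ j ∈ (Q : Subgroup G) := Q.1.pow_mem z.2 j
        have hne1 : (z : G) ^ j ≠ 1 := pow_ne_one_of_lt_orderOf hj.ne' (by rw [hzord]; exact hjq)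
        have h0 := hQord _ hmem hne1
        exact ⟨orderOf_dvd_iff_pow_eq_one.1 (dvd_of_eq h0), hfp _ h0⟩)
      (Additive.ofMul (⟨a, haA⟩ : A))
    have h2 : a ^ q = 1 := by
      have := congrArg (fun w : Additive A => ((w.toMul : A) : G)) h1
      simpa using this
    have h3 := orderOf_dvd_of_pow_eq_one h2
    rw [ha] at h3
    exact hpnq h3
  obtain ⟨α, β, hαβ⟩ := hcard
  have hβ : β = 1 := by
    have h1 := Q.card_eq_multiplicity
    have h2 : (Nat.card G).factorization q = β := by
      rw [hαβ, Nat.factorization_mul (pow_ne_zero _ hp.ne_zero) (pow_ne_zero _ hq.ne_zero),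
        Nat.factorization_pow, Nat.factorization_pow, Finsupp.add_apply, Finsupp.smul_apply,
        Finsupp.smul_apply, Nat.Prime.factorization_self hq,
        Nat.factorization_eq_zero_of_not_dvd hqnp]
      simp
    rw [h2, hQcard] at h1
    have h3 : q ^ β = q ^ 1 := by rw [pow_one]; exact h1.symm
    exact Nat.pow_right_injective hq2 h3
  subst hβ
  rw [pow_one] at hαβ
  have hα : 1 ≤ α := by
    by_contra h0
    have h1 : α = 0 := by omega
    rw [h1, pow_zero, one_mul] at hαβ
    have := orderOf_dvd_natCard a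
    rw [ha, hαβ] at this
    exact hpnq this
  refine ⟨α, hα, hαβ, ?_, ?_, hnopq⟩
  · intro P
    rw [hSyl P]
    exact ⟨hAn, hAc, hAexp⟩
  · -- the primitive root statement
    have hAcard : Nat.card A = p ^ α := by
      obtain ⟨P⟩ : Nonempty (Sylow p G) := inferInstance
      have h1 := P.card_eq_multiplicity
      rw [hSyl P] at h1
      have h2 : (Nat.card G).factorization p = α := by
        rw [hαβ, Nat.factorization_mul (pow_ne_zero _ hp.ne_zero) hq.ne_zero,
          Nat.factorization_pow, Finsupp.add_apply, Finsupp.smul_apply,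
          Nat.Prime.factorization_self hp, Nat.factorization_eq_zero_of_not_dvd hpnq]
        simp
      rwa [h2] at h1
    have hcompl : A.IsComplement' (Subgroup.zpowers b) :=
      Subgroup.isComplement'_of_coprime (by rw [hAcard, Nat.card_zpowers, hb, hαβ])
        (by rw [hAcard, Nat.card_zpowers, hb]; exact Nat.Coprime.pow_left _ hpq')
    exact forward_module hpq A hAord a b haA ha hb hfp horbp horbq hfixed hcompl

end Forward

/-- Let G be a finite group whose order is not a prime power. Then the automorphism group of G has exactly three orbits on G if and only if there are distinct primes p, q with #G = pⁿ·q (n ≥ 1) such that G has a normal elementary abelian Sylow p-subgroup P, p is a primitive root modulo q (the multiplicative order of p mod q is q − 1), and every element of order q of G acts on P without non-identity fixed points. -/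
theorem result {G : Type*} [Group G] [Finite G] (hnpp : ¬ IsPrimePow (Nat.card G)) (hnt : Nat.card G ≠ 1) :
    Nat.card (MulAction.orbitRel.Quotient (MulAut G) G) = 3 ↔
    ∃ (p q n : ℕ) (_ : Fact p.Prime) (_ : Fact q.Prime), p ≠ q ∧ 1 ≤ n ∧ Nat.card G = p ^ n * q ∧
      (∀ P : Sylow p G, (P : Subgroup G).Normal ∧ Cfsg.IsElementaryAbelian p (P : Subgroup G)) ∧
      orderOf (p : ZMod q) = q - 1 ∧
      ∀ x y : G, orderOf x = q → orderOf y = p → x * y * x⁻¹ ≠ y := by
  classical
  constructor
  · intro h3
    have hcard0 : Nat.card G ≠ 0 := Nat.card_pos.ne'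
    -- two primes
    set N := Nat.card G with hN
    have hpex : ∃ p, p.Prime ∧ p ∣ N := ⟨N.minFac, Nat.minFac_prime hnt, Nat.minFac_dvd N⟩
    obtain ⟨p, hp, hpN⟩ := hpex
    obtain ⟨q, hq, hqN, hpq⟩ : ∃ q, q.Prime ∧ q ∣ N ∧ p ≠ q := by
      by_contra hcon
      push Not at hcon
      have h1 := Nat.eq_prime_pow_of_unique_prime_dvd hcard0 (fun {d} hd hdN => (hcon d hd hdN).symm)
      apply hnpp
      rw [h1]
      have hlen : N.primeFactorsList.length ≠ 0 := by
        intro h0
        rw [h0, pow_zero] at h1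
        exact hnt h1
      exact hp.isPrimePow.pow hlen
    haveI : Fact p.Prime := ⟨hp⟩
    haveI : Fact q.Prime := ⟨hq⟩
    obtain ⟨a, ha⟩ := exists_prime_orderOf_dvd_card' p hpN
    obtain ⟨b, hb⟩ := exists_prime_orderOf_dvd_card' q hqN
    have hone : ∀ f : MulAut G, f 1 = (1 : G) := fun f => map_one f
    have ha1 : a ≠ 1 := by
      rintro rfl
      rw [orderOf_one] at ha
      exact hp.one_lt.ne ha
    have hb1 : b ≠ 1 := by
      rintro rfl
      rw [orderOf_one] at hb
      exact hq.one_lt.ne hb
    have hcov := cover_of_three h3 (1 : G) a b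
      (fun f h => ha1 (by rw [← h, hone])) (fun f h => hb1 (by rw [← h, hone]))
      (fun f h => by
        have := MulEquiv.orderOf_eq f a
        rw [h, ha, hb] at this
        exact hpq this.symm)
    have hall : ∀ x : G, x ≠ 1 → orderOf x = p ∨ orderOf x = q := by
      intro x hx
      rcases hcov x with ⟨f, hf⟩ | ⟨f, hf⟩ | ⟨f, hf⟩
      · exact absurd (by rw [← hf, hone]) hx
      · left
        rw [← hf, MulEquiv.orderOf_eq, ha]
      · right
        rw [← hf, MulEquiv.orderOf_eq, hb]
    have horba : ∀ x : G, orderOf x = p → ∃ f : MulAut G, f a = x := by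
      intro x hx
      rcases hcov x with ⟨f, hf⟩ | ⟨f, hf⟩ | ⟨f, hf⟩
      · exfalso
        rw [hone] at hf
        rw [← hf, orderOf_one] at hx
        exact hp.one_lt.ne hx
      · exact ⟨f, hf⟩
      · exfalso
        rw [← hf, MulEquiv.orderOf_eq, hb] at hx
        exact hpq hx.symm
    have horbb : ∀ x : G, orderOf x = q → ∃ f : MulAut G, f b = x := by
      intro x hx
      rcases hcov x with ⟨f, hf⟩ | ⟨f, hf⟩ | ⟨f, hf⟩
      · exfalso
        rw [hone] at hf
        rw [← hf, orderOf_one] at hx
        exact hq.one_lt.ne hx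
      · exfalso
        rw [← hf, MulEquiv.orderOf_eq, ha] at hx
        exact hpq hx
      · exact ⟨f, hf⟩
    have horbp : ∀ x y : G, orderOf x = p → orderOf y = p → ∃ f : MulAut G, f x = y := by
      intro x y hx hy
      obtain ⟨f, rfl⟩ := horba x hx
      obtain ⟨g, rfl⟩ := horba y hy
      refine ⟨g * f⁻¹, ?_⟩
      simp [MulAut.mul_apply]
    have horbq : ∀ x y : G, orderOf x = q → orderOf y = q → ∃ f : MulAut G, f x = y := by
      intro x y hx hy
      obtain ⟨f, rfl⟩ := horbb x hx
      obtain ⟨g, rfl⟩ := horbb y hy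
      refine ⟨g * f⁻¹, ?_⟩
      simp [MulAut.mul_apply]
    -- arithmetic
    have hprimes : ∀ {d : ℕ}, d.Prime → d ∣ N → d = p ∨ d = q := by
      intro d hd hdN
      haveI : Fact d.Prime := ⟨hd⟩
      obtain ⟨x, hx⟩ := exists_prime_orderOf_dvd_card' d hdN
      have hx1 : x ≠ 1 := by
        rintro rfl
        rw [orderOf_one] at hx
        exact hd.one_lt.ne hx
      rcases hall x hx1 with h | h
      · left; rw [← hx, h]
      · right; rw [← hx, h]
    have hcard : ∃ α β, N = p ^ α * q ^ β := by
      obtain ⟨α, m, hm, hNm⟩ := Nat.exists_eq_pow_mul_and_not_dvd hcard0 p hp.ne_one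
      have hm0 : m ≠ 0 := by
        rintro rfl
        simp at hm
      refine ⟨α, m.primeFactorsList.length, ?_⟩
      have h1 := Nat.eq_prime_pow_of_unique_prime_dvd (p := q) hm0 (fun {d} hd hdm => by
        rcases hprimes hd (hNm ▸ Dvd.dvd.mul_left hdm _) with h | h
        · exact absurd (h ▸ hdm) hm
        · exact h)
      rw [← h1]
      exact hNm
    have hsolv : Group.IsSolvable G := by
      obtain ⟨α, β, hαβ⟩ := hcard
      exact Cfsg.Agent.Lib.Char.Burnside2.isSolvable_of_card_eq hp hq _ G α β rfl hαβ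
    haveI : Nontrivial G := by
      rw [← Finite.one_lt_card_iff_nontrivial]
      have := Nat.card_pos (α := G)
      omega
    obtain ⟨A, hAc, hAb, hAcomm⟩ := exists_char_abelian hsolv
    obtain ⟨x, hxA, hx1⟩ : ∃ x ∈ A, x ≠ 1 := (Subgroup.bot_or_exists_ne_one A).resolve_left hAb
    rcases hall x hx1 with hxo | hxo
    · obtain ⟨n, hn, hc, hP, hord, hfpf⟩ := forward_core hpq hcard x b hxo hb hall horbp horbq A hAc hAcomm hxA
      exact ⟨p, q, n, inferInstance, inferInstance, hpq, hn, hc, hP, hord, hfpf⟩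
    · have hcard' : ∃ α β, N = q ^ α * p ^ β := by
        obtain ⟨α, β, h⟩ := hcard
        exact ⟨β, α, by rw [h, mul_comm]⟩
      obtain ⟨n, hn, hc, hP, hord, hfpf⟩ := forward_core hpq.symm hcard' x a hxo ha
        (fun y hy => (hall y hy).symm) horbq horbp A hAc hAcomm hxA
      exact ⟨q, p, n, inferInstance, inferInstance, hpq.symm, hn, hc, hP, hord, hfpf⟩
  · rintro ⟨p, q, n, hp, hq, hpq, hn, hcard, hP, hord, hfpf⟩
    exact backward_core hpq hn hcard hP hord hfpf

end Cfsg.Agent.S4081
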