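import Cfsg.Statements.S4082
import Mathlib
import Cfsg.Agent.Lib.PGroup.CyclicMax2
import Cfsg.Agent.Lib.PGroup.CyclicMax
import Cfsg.Agent.Lib.PGroup.Critical
import Cfsg.Agent.Lib.Coprime.OmegaOne

set_option autoImplicit false
open Cfsg

namespace Cfsg.Agent.S4082

open Subgroup Cfsg.Agent.Lib.PGroup.CyclicMax2 Cfsg.Agent.Lib.PGroup.CyclicMax
open scoped Pointwise

variable {G : Type*} [Group G] [Finite G] {p : ℕ} [hp : Fact p.Prime]

/-- Primary decomposition of an element. -/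
theorem decomp (x : G) : ∃ π y : G, x = π * y ∧ Commute π y ∧ IsPGroup p (zpowers π) ∧
    (orderOf y).Coprime p ∧ π ∈ zpowers x ∧ y ∈ zpowers x := by
  obtain ⟨a, m, hm, hn⟩ := Nat.exists_eq_pow_mul_and_not_dvd (orderOf_pos x).ne' p hp.out.ne_one
  have hco : (p ^ a).Coprime m :=
    Nat.Coprime.pow_left a ((Nat.Prime.coprime_iff_not_dvd hp.out).mpr hm)
  obtain ⟨e, he1, he2⟩ := Nat.chineseRemainder hco 0 1
  obtain ⟨e', he1', he2'⟩ := Nat.chineseRemainder hco 1 0
  refine ⟨x ^ e', x ^ e, ?_, (Commute.refl x).pow_pow _ _, ?_, ?_, pow_mem (mem_zpowers x) _,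
    pow_mem (mem_zpowers x) _⟩
  · rw [← pow_add]
    have h1 : e' + e ≡ 1 [MOD p ^ a] := by
      have := he1'.add he1
      simpa using this
    have h2 : e' + e ≡ 1 [MOD m] := by
      have := he2'.add he2
      simpa using this
    have h3 : e' + e ≡ 1 [MOD orderOf x] := by
      rw [hn]
      exact (Nat.modEq_and_modEq_iff_modEq_mul hco).mp ⟨h1, h2⟩
    have := (pow_eq_pow_iff_modEq (x := x)).mpr h3
    rw [this, pow_one]
  · have h1 : (x ^ e') ^ (p ^ a) = 1 := by
      obtain ⟨c, hc⟩ : m ∣ e' := (Nat.modEq_zero_iff_dvd).mp he2'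
      rw [← pow_mul, hc]
      have h2 : m * c * p ^ a = (p ^ a * m) * c := by ring
      rw [h2, ← hn, pow_mul, pow_orderOf_eq_one, one_pow]
    obtain ⟨j, -, hj⟩ := (Nat.dvd_prime_pow hp.out).mp (orderOf_dvd_of_pow_eq_one h1)
    apply IsPGroup.of_card (n := j)
    rw [Nat.card_zpowers, hj]
  · have h1 : (x ^ e) ^ m = 1 := by
      obtain ⟨c, hc⟩ : p ^ a ∣ e := (Nat.modEq_zero_iff_dvd).mp he1
      rw [← pow_mul, hc]
      have h2 : p ^ a * c * m = (p ^ a * m) * c := by ring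
      rw [h2, ← hn, pow_mul, pow_orderOf_eq_one, one_pow]
    have h2 : orderOf (x ^ e) ∣ m := orderOf_dvd_of_pow_eq_one h1
    exact Nat.Coprime.coprime_dvd_left h2 ((Nat.Prime.coprime_iff_not_dvd hp.out).mpr hm).symm

/-- Elements of `p`-power order in a group of order prime to `p`. -/
theorem eq_one_of_coprime {X : Type*} [Group X] [Finite X] (hX : (Nat.card X).Coprime p) {x : X}
    (hx : IsPGroup p (zpowers x)) : x = 1 := by
  obtain ⟨k, hk⟩ := IsPGroup.iff_card.mp hx
  rw [Nat.card_zpowers] at hk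
  have h1 : orderOf x ∣ Nat.card X := orderOf_dvd_natCard x
  rw [hk] at h1
  have h2 := Nat.Coprime.eq_one_of_dvd (Nat.Coprime.pow_left k hX.symm) h1
  rw [h2] at hk
  exact orderOf_eq_one_iff.mp hk

/-- A `p'`-generator modulo a normal subgroup of index prime to `p` with cyclic quotient. -/
theorem exists_gen {X : Type*} [Group X] [Finite X] (S : Subgroup X) [S.Normal]
    (hidx : S.index.Coprime p) (hcyc : IsCyclic (X ⧸ S)) :
    ∃ y : X, (orderOf y).Coprime p ∧ ∀ x : X, ∃ (i : ℕ), ∃ s ∈ S, x = y ^ i * s := by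
  classical
  obtain ⟨q, hq⟩ := IsCyclic.exists_generator (α := X ⧸ S)
  obtain ⟨x, rfl⟩ := QuotientGroup.mk_surjective q
  obtain ⟨π, y, hxe, -, hπ, hy, -, -⟩ := decomp (p := p) x
  refine ⟨y, hy, ?_⟩
  have hcard : (Nat.card (X ⧸ S)).Coprime p := by rwa [← Subgroup.index_eq_card]
  have hπ1 : (π : X ⧸ S) = 1 := by
    apply eq_one_of_coprime hcard
    obtain ⟨k, hk⟩ := IsPGroup.iff_card.mp hπ
    rw [Nat.card_zpowers] at hk
    have h1 : (π : X ⧸ S) ^ (p ^ k) = 1 := by
      rw [← QuotientGroup.mk_pow, ← hk, pow_orderOf_eq_one]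
      rfl
    obtain ⟨j, -, hj⟩ := (Nat.dvd_prime_pow hp.out).mp (orderOf_dvd_of_pow_eq_one h1)
    apply IsPGroup.of_card (n := j)
    rw [Nat.card_zpowers, hj]
  have hmk : (x : X ⧸ S) = y := by
    rw [hxe, QuotientGroup.mk_mul, hπ1, one_mul]
  intro z
  have hz := hq (z : X ⧸ S)
  obtain ⟨i, hi⟩ := (mem_powers_iff_mem_zpowers).mpr hz
  refine ⟨i, (y ^ i)⁻¹ * z, ?_, by group⟩
  rw [← QuotientGroup.eq]
  simp only at hi
  rw [QuotientGroup.mk_pow, ← hmk]
  exact hi

/-- The subgroup `S⟨y⟩`. -/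
theorem H_struct (S : Subgroup G) (hSp : IsPGroup p S) (y : G)
    (hyN : y ∈ normalizer (S : Set G)) (hy : (orderOf y).Coprime p) :
    ∃ H : Subgroup G, S ≤ H ∧ y ∈ H ∧ ∃ _ : (S.subgroupOf H).Normal,
      (∀ S' : Sylow p H, (S' : Subgroup H) = S.subgroupOf H) ∧ IsCyclic (H ⧸ S.subgroupOf H) ∧
      Nat.card H = Nat.card S * orderOf y := by
  classical
  have hle : zpowers y ≤ normalizer (S : Set G) := by
    rw [Subgroup.zpowers_le]; exact hyN
  let H : Subgroup G := zpowers y ⊔ S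
  have hSH : S ≤ H := le_sup_right
  have hyH : y ∈ H := (le_sup_left : zpowers y ≤ H) (mem_zpowers y)
  have hHN : H ≤ normalizer (S : Set G) := sup_le hle Subgroup.le_normalizer
  have hHe : ∀ h ∈ H, ∃ (i : ℤ), ∃ s ∈ S, h = y ^ i * s := by
    intro h hh
    have h1 : (H : Set G) = (zpowers y : Set G) * (S : Set G) :=
      Subgroup.coe_mul_of_left_le_normalizer_right (zpowers y) S hle
    have h2 : h ∈ (zpowers y : Set G) * (S : Set G) := by
      rw [← h1]; exact hh
    obtain ⟨_, ⟨i, rfl⟩, s, hs, rfl⟩ := h2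
    exact ⟨i, s, hs, rfl⟩
  let T : Subgroup H := S.subgroupOf H
  have hTm : ∀ h : H, h ∈ T ↔ (h : G) ∈ S := fun h => Subgroup.mem_subgroupOf
  haveI hTn : T.Normal := by
    refine ⟨fun n hn g => ?_⟩
    rw [hTm] at hn ⊢
    have := (mem_normalizer_iff.mp (hHN g.2) n).mp hn
    simpa using this
  have hTp : IsPGroup p T := by
    have := hSp.comap_of_injective H.subtype H.subtype_injective
    exact this
  let yH : H := ⟨y, hyH⟩
  have hgen : ∀ q : H ⧸ T, q ∈ zpowers ((yH : H) : H ⧸ T) := by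
    intro q
    obtain ⟨⟨h, hh⟩, rfl⟩ := QuotientGroup.mk_surjective q
    obtain ⟨i, s, hs, rfl⟩ := hHe h hh
    refine ⟨i, ?_⟩
    have h1 : (⟨y ^ i * s, hh⟩ : H) = yH ^ i * ⟨s, hSH hs⟩ := by
      apply Subtype.ext
      simp [yH]
    simp only
    rw [h1, QuotientGroup.mk_mul, QuotientGroup.mk_zpow,
      (QuotientGroup.eq_one_iff (⟨s, hSH hs⟩ : H)).mpr ((hTm _).mpr hs), mul_one]
  have hcardq : orderOf ((yH : H) : H ⧸ T) = Nat.card (H ⧸ T) :=
    orderOf_eq_card_of_forall_mem_zpowers hgen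
  have hordq : orderOf ((yH : H) : H ⧸ T) = orderOf y := by
    apply Nat.dvd_antisymm
    · have h1 := orderOf_map_dvd (QuotientGroup.mk' T) yH
      have h2 : orderOf yH = orderOf y := Subgroup.orderOf_mk _ _
      rw [h2] at h1
      exact h1
    · have h1 : ((yH : H) : H ⧸ T) ^ orderOf ((yH : H) : H ⧸ T) = 1 := pow_orderOf_eq_one _
      rw [← QuotientGroup.mk_pow, QuotientGroup.eq_one_iff, hTm] at h1
      have h2 : ((yH ^ orderOf ((yH : H) : H ⧸ T) : H) : G) = y ^ orderOf ((yH : H) : H ⧸ T) := by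
        simp [yH]
      rw [h2] at h1
      have h3 : IsPGroup p (zpowers (⟨_, h1⟩ : S)) := hSp.to_subgroup _
      obtain ⟨k, hk⟩ := IsPGroup.iff_card.mp h3
      rw [Nat.card_zpowers, Subgroup.orderOf_mk] at hk
      have h4 : orderOf (y ^ orderOf ((yH : H) : H ⧸ T)) ∣ orderOf y := orderOf_pow_dvd _
      rw [hk] at h4
      have h5 := Nat.Coprime.eq_one_of_dvd (Nat.Coprime.pow_left k hy.symm) h4
      rw [h5] at hk
      exact orderOf_dvd_of_pow_eq_one (orderOf_eq_one_iff.mp hk)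
  have hidx : T.index = orderOf y := by
    rw [Subgroup.index_eq_card, ← hcardq, hordq]
  have hnd : ¬ p ∣ T.index := by
    rw [hidx]
    exact (Nat.Prime.coprime_iff_not_dvd hp.out).mp hy.symm
  let Ts : Sylow p H := hTp.toSylow hnd
  have hTs : (Ts : Subgroup H) = T := hTp.toSylow_coe hnd
  have hTsn : (Ts : Subgroup H).Normal := by rw [hTs]; exact hTn
  refine ⟨H, hSH, hyH, hTn, ?_, ?_, ?_⟩
  · intro S'
    haveI := Sylow.unique_of_normal Ts hTsn
    have : S' = Ts := Subsingleton.elim _ _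
    rw [this, hTs]
  · exact isCyclic_iff_exists_zpowers_eq_top.mpr
      ⟨_, (eq_top_iff.mpr (fun q _ => hgen q))⟩
  · have h1 := T.card_mul_index
    rw [hidx] at h1
    rw [← h1, Nat.card_congr (Subgroup.subgroupOfEquivOfLe hSH).toEquiv]

theorem normalizer_of_conj (K : Subgroup G) (g : G) (h : ∀ z ∈ K, g * z * g⁻¹ ∈ K) :
    g ∈ normalizer (K : Set G) := by
  rw [mem_normalizer_iff]
  intro z
  refine ⟨h z, fun hz => ?_⟩
  let f : K → K := fun w => ⟨g * w * g⁻¹, h w w.2⟩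
  have hf : Function.Injective f := by
    intro a b hab
    have h1 : g * (a : G) * g⁻¹ = g * b * g⁻¹ := congrArg Subtype.val hab
    exact Subtype.ext (mul_left_cancel (mul_right_cancel h1))
  obtain ⟨w, hw⟩ := (Finite.injective_iff_surjective.mp hf) ⟨_, hz⟩
  have h1 : g * (w : G) * g⁻¹ = g * z * g⁻¹ := congrArg Subtype.val hw
  have h2 : (w : G) = z := mul_left_cancel (mul_right_cancel h1)
  rw [← h2]
  exact w.2

theorem exists_order_p_pow {u : G} (hu : IsPGroup p (zpowers u)) (hu1 : u ≠ 1) :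
    ∃ k : ℕ, (u ^ k) ^ p = 1 ∧ u ^ k ≠ 1 := by
  obtain ⟨j, hj⟩ := IsPGroup.iff_card.mp hu
  rw [Nat.card_zpowers] at hj
  have hj0 : j ≠ 0 := by
    rintro rfl
    rw [pow_zero] at hj
    exact hu1 (orderOf_eq_one_iff.mp hj)
  obtain ⟨i, rfl⟩ : ∃ i, j = i + 1 := ⟨j - 1, by omega⟩
  refine ⟨p ^ i, ?_, ?_⟩
  · rw [← pow_mul, ← pow_succ, ← hj, pow_orderOf_eq_one]
  · apply pow_ne_one_of_lt_orderOf (by have := hp.out.pos; positivity)
    rw [hj, pow_succ]
    have h1 : 0 < p ^ i := by have := hp.out.pos; positivity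
    have h2 := hp.out.two_le
    nlinarith

/-- An involutory action on a cyclic `p`-group, `p` odd, is trivial or inversion. -/
theorem inv_or_comm (hp2 : p ≠ 2) (S : Subgroup G) (hSc : IsCyclic S) (hSp : IsPGroup p S) {y : G}
    (hyN : y ∈ normalizer (S : Set G)) (hy2 : y ^ 2 = 1) :
    (∀ z ∈ S, Commute y z) ∨ (∀ z ∈ S, y * z * y⁻¹ = z⁻¹) := by
  classical
  have hcomm : ∀ a ∈ S, ∀ b ∈ S, a * b = b * a := by
    intro a ha b hb
    exact congrArg Subtype.val (hSc.isMulCommutative.is_comm.comm ⟨a, ha⟩ ⟨b, hb⟩)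
  have hyy : y * y = 1 := by rw [← pow_two]; exact hy2
  have hyi : y⁻¹ = y := inv_eq_of_mul_eq_one_left hyy
  obtain ⟨s, hs⟩ := IsCyclic.exists_generator (α := S)
  have hSe : ∀ z ∈ S, ∃ k : ℤ, z = (s : G) ^ k := by
    intro z hz
    obtain ⟨k, hk⟩ := hs ⟨z, hz⟩
    refine ⟨k, ?_⟩
    have := congrArg Subtype.val hk
    simpa using this.symm
  have hconj : ∀ z ∈ S, y * z * y⁻¹ ∈ S := fun z hz => (mem_normalizer_iff.mp hyN z).mp hz
  obtain ⟨s', hs'⟩ : ∃ s', s' = y * (s : G) * y⁻¹ := ⟨_, rfl⟩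
  have hs'S : s' ∈ S := by rw [hs']; exact hconj _ s.2
  have hys' : y * s' * y⁻¹ = s := by
    rw [hs', hyi]
    calc y * (y * (s : G) * y) * y = (y * y) * s * (y * y) := by group
      _ = s := by rw [hyy]; simp
  by_cases hu : (s : G) * s' = 1
  · right
    have h1 : s' = (s : G)⁻¹ := by
      rw [eq_inv_iff_mul_eq_one, hcomm _ hs'S _ s.2]
      exact hu
    intro z hz
    obtain ⟨k, rfl⟩ := hSe z hz
    rw [← conj_zpow, ← hs', h1, inv_zpow]
  by_cases hv : (s : G)⁻¹ * s' = 1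
  · left
    have h1 : s' = s := by
      rw [inv_mul_eq_one] at hv
      exact hv.symm
    intro z hz
    obtain ⟨k, rfl⟩ := hSe z hz
    apply Commute.zpow_right
    show y * (s : G) = s * y
    calc y * (s : G) = y * s * y⁻¹ * y := by group
      _ = s * y := by rw [← hs', h1]
  exfalso
  have huS : (s : G) * s' ∈ S := S.mul_mem s.2 hs'S
  have hvS : (s : G)⁻¹ * s' ∈ S := S.mul_mem (S.inv_mem s.2) hs'S
  have hzp : ∀ z ∈ S, IsPGroup p (zpowers z) := by
    intro z hz
    obtain ⟨k, hk⟩ := IsPGroup.iff_card.mp hSp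
    have h1 : orderOf z ∣ p ^ k := by
      rw [← hk]
      have := orderOf_dvd_natCard (⟨z, hz⟩ : S)
      rwa [Subgroup.orderOf_mk] at this
    obtain ⟨j, -, hj⟩ := (Nat.dvd_prime_pow hp.out).mp h1
    apply IsPGroup.of_card (n := j)
    rw [Nat.card_zpowers, hj]
  obtain ⟨k, hk1, hk2⟩ := exists_order_p_pow (hzp _ huS) hu
  obtain ⟨l, hl1, hl2⟩ := exists_order_p_pow (hzp _ hvS) hv
  have hU := uniqueP_of_isCyclic (p := p) (A := S)
  have hmem := hU ⟨_, pow_mem huS k⟩ ⟨_, pow_mem hvS l⟩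
    (Subtype.ext (by simpa using hk1)) (Subtype.ext (by simpa using hl1))
    (fun h => hk2 (congrArg Subtype.val h)) (fun h => hl2 (congrArg Subtype.val h))
  obtain ⟨m, hm⟩ := hmem
  have hm' : (((s : G)⁻¹ * s') ^ l) ^ m = ((s : G) * s') ^ k := congrArg Subtype.val hm
  have hyu : y * ((s : G) * s') * y⁻¹ = (s : G) * s' := by
    calc y * ((s : G) * s') * y⁻¹ = (y * (s : G) * y⁻¹) * (y * s' * y⁻¹) := by group
      _ = s' * s := by rw [← hs', hys']
      _ = (s : G) * s' := hcomm _ hs'S _ s.2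
  have hyv : y * ((s : G)⁻¹ * s') * y⁻¹ = ((s : G)⁻¹ * s')⁻¹ := by
    calc y * ((s : G)⁻¹ * s') * y⁻¹ = (y * (s : G) * y⁻¹)⁻¹ * (y * s' * y⁻¹) := by group
      _ = s'⁻¹ * s := by rw [← hs', hys']
      _ = ((s : G)⁻¹ * s')⁻¹ := by group
  obtain ⟨q, hq⟩ : ∃ q, q = ((s : G) * s') ^ k := ⟨_, rfl⟩
  have hq1 : y * q * y⁻¹ = q := by rw [hq, ← conj_pow, hyu]
  have hq2 : y * q * y⁻¹ = q⁻¹ := by
    rw [hq, ← hm', ← conj_zpow, ← conj_pow, hyv, inv_pow, inv_zpow]
  have hq3 : q = q⁻¹ := hq1.symm.trans hq2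
  have hq4 : q ^ 2 = 1 := by
    rw [pow_two]
    nth_rewrite 1 [hq3]
    simp
  have hq5 : q ^ p = 1 := by rw [hq]; exact hk1
  have hq6 : orderOf q ∣ Nat.gcd 2 p := Nat.dvd_gcd (orderOf_dvd_of_pow_eq_one hq4)
    (orderOf_dvd_of_pow_eq_one hq5)
  have hq7 : Nat.gcd 2 p = 1 := by
    rw [Nat.coprime_comm.mp ((Nat.coprime_primes hp.out Nat.prime_two).mpr hp2)]
  rw [hq7] at hq6
  apply hk2
  rw [← hq]
  exact orderOf_eq_one_iff.mp (Nat.dvd_one.mp hq6)

/-- A `p`-element normalizing a subgroup of order `p` centralizes it. -/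
theorem p_elt_cent (Q : Subgroup G) (hQc : Nat.card Q = p) {x : G}
    (hxN : x ∈ normalizer (Q : Set G)) (hxp : IsPGroup p (zpowers x)) :
    ∀ q ∈ Q, Commute x q := by
  classical
  haveI : Fact (Nat.Prime (Nat.card Q)) := ⟨by rw [hQc]; exact hp.out⟩
  have hQcyc : IsCyclic Q := isCyclic_of_prime_card rfl
  obtain ⟨a, ha⟩ : ∃ a, a = Cfsg.Agent.Lib.Coprime.OmegaOne.conjAut Q x hxN := ⟨_, rfl⟩
  have hacoe : ∀ q : Q, ((a q : Q) : G) = x * q * x⁻¹ := by
    intro q; rw [ha]; rfl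
  have h1 : orderOf a ∣ orderOf x := by
    rw [ha]; exact Cfsg.Agent.Lib.Coprime.OmegaOne.orderOf_conjAut_dvd Q x hxN
  have h2 : orderOf a ∣ Nat.card (MulAut Q) := orderOf_dvd_natCard a
  rw [IsCyclic.card_mulAut, hQc, Nat.totient_prime hp.out] at h2
  obtain ⟨k, hk⟩ := IsPGroup.iff_card.mp hxp
  rw [Nat.card_zpowers] at hk
  rw [hk] at h1
  have h3 : (p ^ k).Coprime (p - 1) := by
    apply Nat.Coprime.pow_left
    exact (Nat.coprime_self_sub_right hp.out.one_le).mpr (Nat.coprime_one_right _)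
  have h4 : orderOf a = 1 := Nat.Coprime.eq_one_of_dvd (Nat.Coprime.coprime_dvd_left h1 h3) h2
  have h5 : a = 1 := orderOf_eq_one_iff.mp h4
  intro q hq
  have h6 := hacoe ⟨q, hq⟩
  rw [h5] at h6
  have h7 : q = x * q * x⁻¹ := h6
  show x * q = q * x
  calc x * q = (x * q * x⁻¹) * x := by group
    _ = q * x := by rw [← h7]

/-- The consequence of the hypothesis for an element acting nontrivially. -/
theorem B0 (hp2 : p ≠ 2)
    (hR : ∀ H : Subgroup G, (∀ S : Sylow p ↥H, (S : Subgroup ↥H).Normal) →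
        (∀ (S : Sylow p ↥H) [(S : Subgroup ↥H).Normal], IsCyclic (↥H ⧸ (S : Subgroup ↥H))) →
        IsCyclic H ∨ (∃ n : ℕ, Nonempty (H ≃* DihedralGroup (p ^ n))))
    (S : Subgroup G) (hSc : IsCyclic S) (hSp : IsPGroup p S) {y : G}
    (hyN : y ∈ normalizer (S : Set G)) (hy : (orderOf y).Coprime p)
    (hyC : ¬ ∀ z ∈ S, Commute y z) : y ^ 2 = 1 ∧ ∀ z ∈ S, y * z * y⁻¹ = z⁻¹ := by
  classical
  obtain ⟨H, hSH, hyH, hTn, hsyl, hcyc, hcard⟩ := H_struct S hSp y hyN hy
  have key : ∀ (T' : Subgroup H) [T'.Normal], T' = S.subgroupOf H → IsCyclic (H ⧸ T') := by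
    intro T' _ h
    subst h
    exact hcyc
  have h1 := hR H (fun S' => by rw [hsyl S']; exact hTn) (fun S' _ => key _ (hsyl S'))
  have hy2 : y ^ 2 = 1 := by
    rcases h1 with h1 | ⟨n, ⟨e⟩⟩
    · exfalso
      apply hyC
      intro z hz
      have := congrArg Subtype.val
        (h1.isMulCommutative.is_comm.comm (⟨y, hyH⟩ : H) ⟨z, hSH hz⟩)
      exact this
    · have h2 : Nat.card H = 2 * p ^ n := by
        rw [Nat.card_congr e.toEquiv, DihedralGroup.nat_card]
      have h3 : orderOf y ∣ 2 * p ^ n := by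
        rw [← h2, hcard]; exact dvd_mul_left _ _
      have h4 : orderOf y ∣ 2 := hy.pow_right n |>.dvd_of_dvd_mul_right h3
      obtain ⟨c, hc⟩ := h4
      rw [hc, pow_mul, pow_orderOf_eq_one, one_pow]
  refine ⟨hy2, ?_⟩
  rcases inv_or_comm hp2 S hSc hSp hyN hy2 with h | h
  · exact absurd h hyC
  · exact h


/-- The element-of-order-two claim. -/
theorem order_two_of (hp2 : p ≠ 2)
    (hR : ∀ H : Subgroup G, (∀ S : Sylow p ↥H, (S : Subgroup ↥H).Normal) →
        (∀ (S : Sylow p ↥H) [(S : Subgroup ↥H).Normal], IsCyclic (↥H ⧸ (S : Subgroup ↥H))) →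
        IsCyclic H ∨ (∃ n : ℕ, Nonempty (H ≃* DihedralGroup (p ^ n))))
    (P : Sylow p G) (hPc : IsCyclic P) (Q : Subgroup G) (hQc : Nat.card Q = p) {x : G}
    (hxN : x ∈ normalizer (Q : Set G)) (hxC : x ∉ centralizer (Q : Set G)) :
    x ^ 2 = 1 ∧ x ≠ 1 := by
  classical
  have hp1 := hp.out
  haveI : Fact (Nat.Prime (Nat.card Q)) := ⟨by rw [hQc]; exact hp1⟩
  have hQcyc : IsCyclic Q := isCyclic_of_prime_card rfl
  have hQp : IsPGroup p Q := IsPGroup.of_card (n := 1) (by rw [hQc, pow_one])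
  obtain ⟨π, y, hxe, hcomm, hπp, hy, hπx, hyx⟩ := decomp (p := p) x
  have hzle : zpowers x ≤ normalizer (Q : Set G) := by
    rw [Subgroup.zpowers_le]; exact hxN
  have hπC := p_elt_cent Q hQc (hzle hπx) hπp
  have hyC : ¬ ∀ z ∈ Q, Commute y z := by
    intro h
    apply hxC
    rw [mem_centralizer_iff]
    intro z hz
    rw [hxe]
    have h1 : Commute (π * y) z := (hπC z hz).mul_left (h z hz)
    exact h1.eq.symm
  obtain ⟨hy2, hyinv⟩ := B0 hp2 hR Q hQcyc hQp (hzle hyx) hy hyC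
  have hy1 : y ≠ 1 := by
    rintro rfl
    exact hyC (fun z _ => Commute.one_left z)
  suffices hπ1 : π = 1 by
    rw [hxe, hπ1, one_mul]
    exact ⟨hy2, hy1⟩
  by_contra hπ1
  obtain ⟨k, hk1, hk2⟩ := exists_order_p_pow hπp hπ1
  obtain ⟨z, hz⟩ : ∃ z, z = π ^ k := ⟨_, rfl⟩
  rw [← hz] at hk1 hk2
  have hzm : z ∈ zpowers π := by rw [hz]; exact pow_mem (mem_zpowers π) k
  have hzy : Commute z y := by rw [hz]; exact hcomm.pow_left k
  have hzQ : ∀ q ∈ Q, Commute z q := by
    intro q hq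
    rw [hz]
    exact (hπC q hq).pow_left k
  have hzpg : IsPGroup p (zpowers z) := by
    apply IsPGroup.of_card (n := 1)
    rw [Nat.card_zpowers, orderOf_eq_prime hk1 hk2, pow_one]
  have hle : zpowers z ≤ normalizer (Q : Set G) := by
    rw [Subgroup.zpowers_le]
    exact centralizer_le_normalizer _ (by
      rw [mem_centralizer_iff]
      intro q hq
      exact (hzQ q hq).eq.symm)
  have hK : IsPGroup p (zpowers z ⊔ Q : Subgroup G) := hzpg.to_sup_of_normal_right' hQp hle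
  obtain ⟨R, hR'⟩ := hK.exists_le_sylow
  have hRc : IsCyclic R := isCyclic_of_injective (Sylow.equiv R P).toMonoidHom (Sylow.equiv R P).injective
  haveI : Nontrivial Q := (Finite.one_lt_card_iff_nontrivial).mp (by rw [hQc]; exact hp1.one_lt)
  obtain ⟨⟨q, hq⟩, hq1⟩ := exists_ne (1 : Q)
  have hq1' : q ≠ 1 := fun h => hq1 (Subtype.ext h)
  have hqp : q ^ p = 1 := by
    have := pow_card_eq_one' (x := (⟨q, hq⟩ : Q))
    rw [hQc] at this
    simpa using congrArg Subtype.val this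
  have hzR : z ∈ R := hR' ((le_sup_left : zpowers z ≤ _) (mem_zpowers z))
  have hqR : q ∈ R := hR' ((le_sup_right : Q ≤ _) hq)
  have hU := uniqueP_of_isCyclic (p := p) (A := R)
  have hmem := hU ⟨z, hzR⟩ ⟨q, hqR⟩ (Subtype.ext (by simpa using hk1))
    (Subtype.ext (by simpa using hqp)) (fun h => hk2 (congrArg Subtype.val h))
    (fun h => hq1' (congrArg Subtype.val h))
  obtain ⟨m, hm⟩ := hmem
  have hm' : q ^ m = z := congrArg Subtype.val hm
  have hzQ' : z ∈ Q := by rw [← hm']; exact zpow_mem hq m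
  have h1 := hyinv z hzQ'
  have h2 : y * z * y⁻¹ = z := by
    rw [hzy.symm.eq]
    group
  have h3 : z = z⁻¹ := h2.symm.trans h1
  have h4 : z ^ 2 = 1 := by
    rw [pow_two]
    nth_rewrite 1 [h3]
    simp
  have h5 : orderOf z ∣ Nat.gcd 2 p := Nat.dvd_gcd (orderOf_dvd_of_pow_eq_one h4)
    (orderOf_dvd_of_pow_eq_one hk1)
  have h6 : Nat.gcd 2 p = 1 := by
    rw [Nat.coprime_comm.mp ((Nat.coprime_primes hp1 Nat.prime_two).mpr hp2)]
  rw [h6] at h5
  exact hk2 (orderOf_eq_one_iff.mp (Nat.dvd_one.mp h5))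

theorem forward (hp2 : p ≠ 2) (P : Sylow p G)
    (hR : ∀ H : Subgroup G, (∀ S : Sylow p ↥H, (S : Subgroup ↥H).Normal) →
        (∀ (S : Sylow p ↥H) [(S : Subgroup ↥H).Normal], IsCyclic (↥H ⧸ (S : Subgroup ↥H))) →
        IsCyclic H ∨ (∃ n : ℕ, Nonempty (H ≃* DihedralGroup (p ^ n)))) :
    IsCyclic P ∧ (normalizer ((P : Subgroup G) : Set G) = centralizer ((P : Subgroup G) : Set G) ∨
       ((centralizer ((P : Subgroup G) : Set G)).relIndex (normalizer ((P : Subgroup G) : Set G)) = 2 ∧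
        ∀ Q : Subgroup G, Q ≤ P → Nat.card Q = p →
          IsMulCommutative ↥(centralizer (Q : Set G)) ∧
          ∀ x : G, x ∈ normalizer (Q : Set G) → x ∉ centralizer (Q : Set G) →
            orderOf x = 2 ∧ ∀ c : G, c ∈ centralizer (Q : Set G) → x * c * x⁻¹ = c⁻¹)) := by
  classical
  have hp1 := hp.out
  have hPc : IsCyclic P := by
    have hX : IsPGroup p (P : Subgroup G) := P.2
    have hsyl : ∀ S : Sylow p (P : Subgroup G), (S : Subgroup (P : Subgroup G)) = ⊤ := by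
      intro S
      exact (S.is_maximal' (hX.to_subgroup ⊤) le_top).symm
    have h1 := hR P (fun S => by rw [hsyl S]; infer_instance) (fun S _ => by
       haveI : Subsingleton (↥(P : Subgroup G) ⧸ (S : Subgroup ↥(P : Subgroup G))) :=
         QuotientGroup.subsingleton_iff.mpr (hsyl S)
       exact isCyclic_of_subsingleton)
    rcases h1 with h1 | ⟨n, ⟨e⟩⟩
    · exact h1
    · exfalso
      have h2 : Nat.card (P : Subgroup G) = 2 * p ^ n := by
        rw [Nat.card_congr e.toEquiv, DihedralGroup.nat_card]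
      obtain ⟨k, hk⟩ := IsPGroup.iff_card.mp hX
      have h3 : 2 ∣ p ^ k := by rw [← hk, h2]; exact dvd_mul_right _ _
      have h4 := Nat.prime_two.dvd_of_dvd_pow h3
      exact hp2 ((Nat.prime_dvd_prime_iff_eq Nat.prime_two hp1).mp h4).symm
  refine ⟨hPc, ?_⟩
  have hPcomm : ∀ a ∈ (P : Subgroup G), ∀ b ∈ (P : Subgroup G), a * b = b * a := by
    intro a ha b hb
    exact congrArg Subtype.val (hPc.isMulCommutative.is_comm.comm ⟨a, ha⟩ ⟨b, hb⟩)
  by_cases hNC : normalizer ((P : Subgroup G) : Set G) = centralizer ((P : Subgroup G) : Set G)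
  · exact Or.inl hNC
  right
  have hCN : centralizer ((P : Subgroup G) : Set G) ≤ normalizer ((P : Subgroup G) : Set G) :=
    centralizer_le_normalizer _
  obtain ⟨t, htN, htC⟩ : ∃ t, t ∈ normalizer ((P : Subgroup G) : Set G) ∧
      t ∉ centralizer ((P : Subgroup G) : Set G) := by
    by_contra h
    push Not at h
    exact hNC (le_antisymm h hCN)
  have hinvN : ∀ x ∈ normalizer ((P : Subgroup G) : Set G),
      x ∉ centralizer ((P : Subgroup G) : Set G) → ∀ z ∈ (P : Subgroup G), x * z * x⁻¹ = z⁻¹ := by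
    intro x hxN hxC z hz
    obtain ⟨π, y, hxe, hcomm, hπp, hy, hπx, hyx⟩ := decomp (p := p) x
    have hzle : zpowers x ≤ normalizer ((P : Subgroup G) : Set G) := by
      rw [Subgroup.zpowers_le]; exact hxN
    have hπP : π ∈ (P : Subgroup G) := by
      have h1 := hπp.inf_normalizer_sylow P
      have h2 := h1.le ⟨mem_zpowers π, hzle hπx⟩
      exact h2.2
    have hyC : ¬ ∀ z ∈ (P : Subgroup G), Commute y z := by
      intro h
      apply hxC
      rw [mem_centralizer_iff]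
      intro w hw
      rw [hxe]
      have h1 : Commute (π * y) w := Commute.mul_left (hPcomm π hπP w hw) (h w hw)
      exact h1.eq.symm
    obtain ⟨-, hyinv⟩ := B0 hp2 hR (P : Subgroup G) hPc P.2 (hzle hyx) hy hyC
    have h1 := hyinv z hz
    have h2 : π * z⁻¹ = z⁻¹ * π := hPcomm π hπP _ (inv_mem hz)
    rw [hxe]
    calc π * y * z * (π * y)⁻¹ = π * (y * z * y⁻¹) * π⁻¹ := by group
      _ = z⁻¹ := by rw [h1, h2]; group
  refine ⟨?_, ?_⟩
  · show ((centralizer ((P : Subgroup G) : Set G)).subgroupOf _).index = 2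
    rw [Subgroup.index_eq_two_iff]
    refine ⟨⟨t, htN⟩, ?_⟩
    rintro ⟨b, hb⟩
    simp only [Subgroup.mem_subgroupOf, MulMemClass.mk_mul_mk]
    by_cases hbC : b ∈ centralizer ((P : Subgroup G) : Set G)
    · refine Or.inr ⟨hbC, fun h => htC ?_⟩
      have := mul_mem (inv_mem hbC) h
      simpa using this
    · refine Or.inl ⟨?_, hbC⟩
      rw [mem_centralizer_iff]
      intro z hz
      have h1 := hinvN b hb hbC
      have h2 := hinvN t htN htC
      have h3 : (b * t) * z * (b * t)⁻¹ = z := by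
        calc (b * t) * z * (b * t)⁻¹ = b * (t * z * t⁻¹) * b⁻¹ := by group
          _ = z := by rw [h2 z hz, h1 _ (inv_mem hz), inv_inv]
      calc z * (b * t) = (b * t) * z * (b * t)⁻¹ * (b * t) := by rw [h3]
        _ = (b * t) * z := by group
  intro Q hQP hQc
  have hQp : IsPGroup p Q := IsPGroup.of_card (n := 1) (by rw [hQc, pow_one])
  haveI : Nontrivial Q := (Finite.one_lt_card_iff_nontrivial).mp (by rw [hQc]; exact hp1.one_lt)
  obtain ⟨⟨q, hq⟩, hq1⟩ := exists_ne (1 : Q)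
  have hq1' : q ≠ 1 := fun h => hq1 (Subtype.ext h)
  have hqp : q ^ p = 1 := by
    have := pow_card_eq_one' (x := (⟨q, hq⟩ : Q))
    rw [hQc] at this
    simpa using congrArg Subtype.val this
  have htQ : t ∈ normalizer (Q : Set G) := by
    apply normalizer_of_conj
    intro z hz
    rw [hinvN t htN htC z (hQP hz)]
    exact inv_mem hz
  have htQC : t ∉ centralizer (Q : Set G) := by
    intro h
    have h1 := mem_centralizer_iff.mp h q hq
    have h2 := hinvN t htN htC q (hQP hq)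
    have h3 : t * q * t⁻¹ = q := by rw [← h1]; group
    have h4 : q = q⁻¹ := h3.symm.trans h2
    have h5 : q ^ 2 = 1 := by
      rw [pow_two]
      nth_rewrite 1 [h4]
      simp
    have h6 : orderOf q ∣ Nat.gcd 2 p := Nat.dvd_gcd (orderOf_dvd_of_pow_eq_one h5)
      (orderOf_dvd_of_pow_eq_one hqp)
    have h7 : Nat.gcd 2 p = 1 := by
      rw [Nat.coprime_comm.mp ((Nat.coprime_primes hp1 Nat.prime_two).mpr hp2)]
    rw [h7] at h6
    exact hq1' (orderOf_eq_one_iff.mp (Nat.dvd_one.mp h6))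
  have hinv : ∀ x ∈ normalizer (Q : Set G), x ∉ centralizer (Q : Set G) →
      x ^ 2 = 1 ∧ x ≠ 1 ∧ ∀ c ∈ centralizer (Q : Set G), x * c * x⁻¹ = c⁻¹ := by
    intro x hxN hxC
    obtain ⟨h1, h2⟩ := order_two_of hp2 hR P hPc Q hQc hxN hxC
    refine ⟨h1, h2, ?_⟩
    intro c hc
    have h3 : x * c ∈ normalizer (Q : Set G) := mul_mem hxN (centralizer_le_normalizer _ hc)
    have h4 : x * c ∉ centralizer (Q : Set G) := by
      intro h
      apply hxC
      have := mul_mem h (inv_mem hc)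
      simpa using this
    obtain ⟨h5, -⟩ := order_two_of hp2 hR P hPc Q hQc h3 h4
    rw [pow_two] at h1 h5
    have h6 : x⁻¹ = x := inv_eq_of_mul_eq_one_left h1
    rw [h6]
    have h7 : x * c * x * c = 1 := by rw [← h5]; group
    exact eq_inv_of_mul_eq_one_left h7
  refine ⟨?_, ?_⟩
  · refine ⟨⟨fun a b => Subtype.ext ?_⟩⟩
    obtain ⟨-, -, h1⟩ := hinv t htQ htQC
    have h2 := h1 _ (mul_mem a.2 b.2)
    have h3 := h1 _ a.2
    have h4 := h1 _ b.2
    have h5 : t * ((a : G) * b) * t⁻¹ = (t * a * t⁻¹) * (t * b * t⁻¹) := by group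
    rw [h5, h3, h4] at h2
    have h6 : ((a : G) * b)⁻¹ = (b : G)⁻¹ * (a : G)⁻¹ := by group
    rw [h6] at h2
    show (a : G) * b = b * a
    have h7 : ((a : G)⁻¹ * (b : G)⁻¹)⁻¹ = ((b : G)⁻¹ * (a : G)⁻¹)⁻¹ := congrArg _ h2
    simpa using h7.symm
  · intro x hxN hxC
    obtain ⟨h1, h2, h3⟩ := hinv x hxN hxC
    exact ⟨orderOf_eq_prime h1 h2, h3⟩


/-- Action of a `p'`-element on a cyclic `p`-subgroup under the hypothesis. -/
theorem dih_case (hp2 : p ≠ 2) (P : Sylow p G)
    (hyp : ∀ Q : Subgroup G, Q ≤ P → Nat.card Q = p →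
          IsMulCommutative ↥(centralizer (Q : Set G)) ∧
          ∀ x : G, x ∈ normalizer (Q : Set G) → x ∉ centralizer (Q : Set G) →
            orderOf x = 2 ∧ ∀ c : G, c ∈ centralizer (Q : Set G) → x * c * x⁻¹ = c⁻¹)
    (S : Subgroup G) (hSp : IsPGroup p S) (hSc : IsCyclic S) {y : G}
    (hyN : y ∈ normalizer (S : Set G)) (hy : (orderOf y).Coprime p)
    (hyC : ¬ ∀ z ∈ S, Commute y z) :
    orderOf y = 2 ∧ ∀ z ∈ S, y * z * y⁻¹ = z⁻¹ := by
  classical
  have hp1 := hp.out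
  have hcomm : ∀ a ∈ S, ∀ b ∈ S, a * b = b * a := by
    intro a ha b hb
    exact congrArg Subtype.val (hSc.isMulCommutative.is_comm.comm ⟨a, ha⟩ ⟨b, hb⟩)
  -- an element of order `p` in `S`
  obtain ⟨s, hsS, hs1⟩ : ∃ s ∈ S, s ≠ 1 := by
    by_contra h
    push Not at h
    apply hyC
    intro z hz
    rw [h z hz]
    exact Commute.one_right y
  have hzpS : IsPGroup p (zpowers s) := by
    have h1 : zpowers s ≤ S := by rw [Subgroup.zpowers_le]; exact hsS
    exact hSp.to_le h1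
  obtain ⟨k, hk1, hk2⟩ := exists_order_p_pow hzpS hs1
  obtain ⟨q, hq⟩ : ∃ q, q = s ^ k := ⟨_, rfl⟩
  rw [← hq] at hk1 hk2
  have hqS : q ∈ S := by rw [hq]; exact pow_mem hsS k
  have hU := uniqueP_of_isCyclic (p := p) (A := S)
  have hUS : ∀ w ∈ S, w ^ p = 1 → w ∈ zpowers q := by
    intro w hw hwp
    by_cases hw1 : w = 1
    · rw [hw1]; exact one_mem _
    obtain ⟨m, hm⟩ := hU ⟨w, hw⟩ ⟨q, hqS⟩ (Subtype.ext (by simpa using hwp))
      (Subtype.ext (by simpa using hk1)) (fun h => hw1 (congrArg Subtype.val h))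
      (fun h => hk2 (congrArg Subtype.val h))
    exact ⟨m, congrArg Subtype.val hm⟩
  have hconj : ∀ z ∈ S, y * z * y⁻¹ ∈ S := fun z hz => (mem_normalizer_iff.mp hyN z).mp hz
  have hconjp : ∀ z, z ^ p = 1 → (y * z * y⁻¹) ^ p = 1 := by
    intro z hz
    rw [conj_pow, hz]
    simp
  have hyq : y * q * y⁻¹ ∈ zpowers q := hUS _ (hconj q hqS) (hconjp q hk1)
  have hyQN : y ∈ normalizer ((zpowers q : Subgroup G) : Set G) := by
    apply normalizer_of_conj
    rintro _ ⟨m, rfl⟩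
    have h1 : y * q ^ m * y⁻¹ = (y * q * y⁻¹) ^ m := by rw [conj_zpow]
    simp only
    rw [h1]
    exact zpow_mem hyq m
  have hyqC : ¬ Commute y q := by
    intro hc
    apply hyC
    have hq_fix : ∀ w ∈ S, w ^ p = 1 → y * w * y⁻¹ = w := by
      intro w hw hwp
      obtain ⟨m, rfl⟩ := hUS w hw hwp
      have h1 : y * q ^ m * y⁻¹ = (y * q * y⁻¹) ^ m := by rw [conj_zpow]
      simp only
      rw [h1, hc.eq]
      simp
    obtain ⟨a, ha⟩ : ∃ a, a = Cfsg.Agent.Lib.Coprime.OmegaOne.conjAut S y hyN := ⟨_, rfl⟩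
    have hacoe : ∀ q : S, ((a q : S) : G) = y * q * y⁻¹ := by
      intro q; rw [ha]; rfl
    have h1 : orderOf a ∣ orderOf y := by
      rw [ha]; exact Cfsg.Agent.Lib.Coprime.OmegaOne.orderOf_conjAut_dvd S y hyN
    have h2 : a = 1 := by
      apply Cfsg.Agent.Lib.PGroup.Critical.coprime_aut_eq_one_of_fixes hSp a
        (Nat.Coprime.coprime_dvd_left h1 hy) (dvd_refl p)
        (Cfsg.Agent.Lib.PGroup.Critical.prime_dvd_choose_two hp2)
      intro x hx
      apply Subtype.ext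
      rw [hacoe]
      exact hq_fix _ x.2 (by simpa using congrArg Subtype.val hx)
    intro z hz
    have h3 := hacoe ⟨z, hz⟩
    rw [h2] at h3
    have h7 : z = y * z * y⁻¹ := h3
    show y * z = z * y
    calc y * z = (y * z * y⁻¹) * y := by group
      _ = z * y := by rw [← h7]
  have hzq : IsPGroup p (zpowers q) := by
    apply IsPGroup.of_card (n := 1)
    rw [Nat.card_zpowers, orderOf_eq_prime hk1 hk2, pow_one]
  obtain ⟨R, hR⟩ := hzq.exists_le_sylow
  obtain ⟨g, hg⟩ := MulAction.exists_smul_eq G P R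
  have hgmem : ∀ k ∈ (R : Subgroup G), g⁻¹ * k * g ∈ (P : Subgroup G) := by
    intro k hk
    rw [← hg, Sylow.coe_subgroup_smul, Subgroup.mem_pointwise_smul_iff_inv_smul_mem] at hk
    simpa using hk
  -- transport by conjugation
  let c : G ≃* G := MulAut.conj g⁻¹
  have hc : ∀ w, c w = g⁻¹ * w * g := by
    intro w
    show g⁻¹ * w * g⁻¹⁻¹ = _
    rw [inv_inv]
  let Q : Subgroup G := (zpowers q).map c.toMonoidHom
  have hQP : Q ≤ P := by
    rintro _ ⟨w, hw, rfl⟩
    show c w ∈ _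
    rw [hc]
    exact hgmem _ (hR hw)
  have hQc : Nat.card Q = p := by
    rw [Subgroup.card_map_of_injective c.injective, Nat.card_zpowers, orderOf_eq_prime hk1 hk2]
  have hQm : ∀ w, w ∈ zpowers q → c w ∈ Q := fun w hw => ⟨w, hw, rfl⟩
  have hQm' : ∀ w, c w ∈ Q → w ∈ zpowers q := by
    rintro w ⟨w', hw', h⟩
    have : w' = w := c.injective h
    rwa [← this]
  obtain ⟨-, hQ⟩ := hyp Q hQP hQc
  have hxN : c y ∈ normalizer (Q : Set G) := by
    apply normalizer_of_conj
    rintro _ ⟨w, hw, rfl⟩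
    show c y * c w * (c y)⁻¹ ∈ Q
    rw [← map_inv, ← map_mul, ← map_mul]
    exact hQm _ ((mem_normalizer_iff.mp hyQN w).mp hw)
  have hxC : c y ∉ centralizer (Q : Set G) := by
    intro h
    apply hyqC
    have h1 := mem_centralizer_iff.mp h (c q) (hQm q (mem_zpowers q))
    rw [← map_mul, ← map_mul] at h1
    exact (c.injective h1).symm
  obtain ⟨hord, hinv⟩ := hQ (c y) hxN hxC
  constructor
  · have h1 : orderOf (c y) = orderOf y := orderOf_injective c.toMonoidHom c.injective y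
    rw [← h1, hord]
  · intro z hz
    have hzc : c z ∈ centralizer (Q : Set G) := by
      rw [mem_centralizer_iff]
      rintro _ ⟨w, hw, rfl⟩
      show c w * c z = c z * c w
      rw [← map_mul, ← map_mul]
      obtain ⟨m, rfl⟩ := hw
      simp only
      have h1 : Commute z (q ^ m) := by
        apply Commute.zpow_right
        exact hcomm z hz q hqS
      rw [h1.symm.eq]
    have h1 := hinv _ hzc
    rw [← map_inv, ← map_inv, ← map_mul, ← map_mul] at h1
    exact c.injective h1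

/-- The generation step inside `H`. -/
theorem cyc_case {X : Type*} [Group X] [Finite X] (S : Subgroup X) [S.Normal]
    (hSp : IsPGroup p S) (hSc : IsCyclic S) {y : X} (hy : (orderOf y).Coprime p)
    (hX : ∀ x : X, ∃ (i : ℕ), ∃ s ∈ S, x = y ^ i * s) (hyc : ∀ z ∈ S, Commute y z) :
    IsCyclic X := by
  classical
  have hordq : orderOf ((y : X ⧸ S)) = S.index := by
    rw [Subgroup.index_eq_card]
    apply orderOf_eq_card_of_forall_mem_zpowers
    intro q
    obtain ⟨x, rfl⟩ := QuotientGroup.mk_surjective q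
    obtain ⟨i, s, hs, rfl⟩ := hX x
    refine ⟨i, ?_⟩
    simp only [zpow_natCast]
    rw [QuotientGroup.mk_mul, QuotientGroup.mk_pow, (QuotientGroup.eq_one_iff s).mpr hs, mul_one]
  have hidxdvd : S.index ∣ orderOf y := by
    rw [← hordq]
    exact orderOf_map_dvd (QuotientGroup.mk' S) y
  have hcard : Nat.card X = Nat.card S * S.index := (Subgroup.card_mul_index S).symm
  obtain ⟨s, hs⟩ := IsCyclic.exists_generator (α := S)
  have hso : orderOf (s : X) = Nat.card S := by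
    rw [Subgroup.orderOf_coe, orderOf_eq_card_of_forall_mem_zpowers hs]
  have hcomm : Commute y (s : X) := hyc s s.2
  obtain ⟨k, hk⟩ := IsPGroup.iff_card.mp hSp
  have hco : (orderOf y).Coprime (orderOf (s : X)) := by
    rw [hso, hk]
    exact Nat.Coprime.pow_right _ hy
  have h1 := hcomm.orderOf_mul_eq_mul_orderOf_of_coprime hco
  apply isCyclic_of_orderOf_eq_card (y * s)
  apply Nat.dvd_antisymm (orderOf_dvd_natCard _)
  rw [h1, hcard, hso, mul_comm (orderOf y)]
  exact Nat.mul_dvd_mul_left _ hidxdvd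

theorem dih_gen {X : Type*} [Group X] [Finite X] (S : Subgroup X) [S.Normal]
    (hSp : IsPGroup p S) (hSc : IsCyclic S) {y : X} (hp2 : p ≠ 2) (hyo : orderOf y = 2)
    (hX : ∀ x : X, ∃ (i : ℕ), ∃ s ∈ S, x = y ^ i * s) (hinv : ∀ z ∈ S, y * z * y⁻¹ = z⁻¹) :
    ∃ n : ℕ, Nonempty (X ≃* DihedralGroup (p ^ n)) := by
  classical
  have hp1 := hp.out
  have hcop : Nat.Coprime 2 p := (Nat.coprime_primes Nat.prime_two hp1).mpr (Ne.symm hp2)
  have hyS : y ∉ S := by
    intro h
    have h1 : orderOf y ∣ Nat.card S := by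
      have := orderOf_dvd_natCard (⟨y, h⟩ : S)
      rwa [Subgroup.orderOf_mk] at this
    obtain ⟨k, hk⟩ := IsPGroup.iff_card.mp hSp
    rw [hyo, hk] at h1
    have h2 := Nat.prime_two.dvd_of_dvd_pow h1
    exact hp2 ((Nat.prime_dvd_prime_iff_eq Nat.prime_two hp1).mp h2).symm
  have hordq : orderOf ((y : X ⧸ S)) = S.index := by
    rw [Subgroup.index_eq_card]
    apply orderOf_eq_card_of_forall_mem_zpowers
    intro q
    obtain ⟨x, rfl⟩ := QuotientGroup.mk_surjective q
    obtain ⟨i, s, hs, rfl⟩ := hX x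
    refine ⟨i, ?_⟩
    simp only [zpow_natCast]
    rw [QuotientGroup.mk_mul, QuotientGroup.mk_pow, (QuotientGroup.eq_one_iff s).mpr hs, mul_one]
  have hidx : S.index = 2 := by
    rw [← hordq]
    apply orderOf_eq_prime
    · rw [← QuotientGroup.mk_pow, ← hyo, pow_orderOf_eq_one]
      rfl
    · intro h
      exact hyS ((QuotientGroup.eq_one_iff y).mp h)
  have hcard : Nat.card X = Nat.card S * S.index := (Subgroup.card_mul_index S).symm
  obtain ⟨k, hk⟩ := IsPGroup.iff_card.mp hSp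
  obtain ⟨s, hs⟩ := IsCyclic.exists_generator (α := S)
  have hso : orderOf (s : X) = p ^ k := by
    rw [Subgroup.orderOf_coe, orderOf_eq_card_of_forall_mem_zpowers hs, hk]
  refine ⟨k, ?_⟩
  haveI : NeZero (p ^ k) := ⟨by have := hp1.pos; positivity⟩
  apply dihedralEquivOfGens (p ^ k) (by rw [hcard, hk, hidx, mul_comm]) (s : X) y hso
  · rw [← pow_two, ← hyo, pow_orderOf_eq_one]
  · exact hinv _ s.2
  · intro h
    apply hyS
    have h1 : zpowers (s : X) ≤ S := by rw [Subgroup.zpowers_le]; exact s.2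
    exact h1 h

theorem backward (hp2 : p ≠ 2) (P : Sylow p G) (hPc : IsCyclic P)
    (halt : normalizer ((P : Subgroup G) : Set G) = centralizer ((P : Subgroup G) : Set G) ∨
       ((centralizer ((P : Subgroup G) : Set G)).relIndex (normalizer ((P : Subgroup G) : Set G)) = 2 ∧
        ∀ Q : Subgroup G, Q ≤ P → Nat.card Q = p →
          IsMulCommutative ↥(centralizer (Q : Set G)) ∧
          ∀ x : G, x ∈ normalizer (Q : Set G) → x ∉ centralizer (Q : Set G) →
            orderOf x = 2 ∧ ∀ c : G, c ∈ centralizer (Q : Set G) → x * c * x⁻¹ = c⁻¹))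
    (H : Subgroup G) (hN : ∀ S : Sylow p ↥H, (S : Subgroup ↥H).Normal)
    (hC : ∀ (S : Sylow p ↥H) [(S : Subgroup ↥H).Normal], IsCyclic (↥H ⧸ (S : Subgroup ↥H))) :
    IsCyclic H ∨ (∃ n : ℕ, Nonempty (H ≃* DihedralGroup (p ^ n))) := by
  classical
  obtain ⟨S₀⟩ : Nonempty (Sylow p H) := inferInstance
  haveI := hN S₀
  have hc := hC S₀
  have hidx : (S₀ : Subgroup H).index.Coprime p :=
    Nat.Coprime.symm ((Nat.Prime.coprime_iff_not_dvd hp.out).mpr S₀.not_dvd_index)
  obtain ⟨y, hy, hX⟩ := exists_gen (p := p) (S₀ : Subgroup H) hidx hc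
  have hT : IsPGroup p ((S₀ : Subgroup H).map H.subtype) := S₀.2.map H.subtype
  have hSc : IsCyclic (S₀ : Subgroup H) := by
    obtain ⟨Q, hQ⟩ := hT.exists_le_sylow
    let φ₁ : (S₀ : Subgroup H) →* (Q : Subgroup G) :=
      { toFun := fun x => ⟨((x : H) : G), hQ ⟨x, x.2, rfl⟩⟩
        map_one' := rfl
        map_mul' := fun _ _ => rfl }
    have hφ₁ : Function.Injective φ₁ := by
      intro a b hab
      have := congrArg Subtype.val hab
      exact Subtype.ext (Subtype.ext this)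
    let φ : (S₀ : Subgroup H) →* (P : Subgroup G) := (Sylow.equiv Q P).toMonoidHom.comp φ₁
    have hφ : Function.Injective φ := (Sylow.equiv Q P).injective.comp hφ₁
    exact isCyclic_of_injective φ hφ
  have hycop : (orderOf (y : G)).Coprime p := by
    rwa [Subgroup.orderOf_coe]
  have hTc : IsCyclic ((S₀ : Subgroup H).map H.subtype) := by
    let e := Subgroup.equivMapOfInjective (S₀ : Subgroup H) H.subtype H.subtype_injective
    exact isCyclic_of_injective e.symm.toMonoidHom e.symm.injective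
  have hyN : (y : G) ∈ normalizer (((S₀ : Subgroup H).map H.subtype : Subgroup G) : Set G) := by
    apply normalizer_of_conj
    rintro _ ⟨s, hs, rfl⟩
    have h1 : y * s * y⁻¹ ∈ (S₀ : Subgroup H) := (hN S₀).conj_mem s hs y
    exact ⟨_, h1, rfl⟩
  by_cases hcomm : ∀ z ∈ ((S₀ : Subgroup H).map H.subtype), Commute (y : G) z
  · left
    apply cyc_case (p := p) (S₀ : Subgroup H) S₀.2 hSc hy hX
    intro z hz
    exact Subtype.ext (hcomm _ ⟨z, hz, rfl⟩)
  rcases halt with halt | ⟨-, hyp⟩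
  · exfalso
    apply hcomm
    rintro _ ⟨s, hs, rfl⟩
    have hPN : normalizer ((P : Subgroup G) : Set G) ≤ centralizer ((P : Subgroup G) : Set G) :=
      halt.le
    let f := MonoidHom.transferSylow P hPN
    have hcommP : ∀ a b : (P : Subgroup G), a * b = b * a := fun a b =>
      hPc.isMulCommutative.is_comm.comm a b
    have h1 : (y : G) * s * (y : G)⁻¹ * (s : G)⁻¹ ∈ f.ker := by
      rw [MonoidHom.mem_ker]
      simp only [map_mul, map_inv]
      rw [hcommP (f y) (f s)]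
      group
    have h2 : (y : G) * s * (y : G)⁻¹ * (s : G)⁻¹ ∈ (S₀ : Subgroup H).map H.subtype := by
      refine ⟨y * s * y⁻¹ * s⁻¹, mul_mem ((hN S₀).conj_mem s hs y) (inv_mem hs), ?_⟩
      simp
    have h3 := MonoidHom.ker_transferSylow_disjoint P hPN _ hT
    have h4 := Subgroup.disjoint_def.mp h3 h1 h2
    show (y : G) * s = s * y
    calc (y : G) * s = ((y : G) * s * (y : G)⁻¹ * (s : G)⁻¹) * (s * y) := by group
      _ = s * y := by rw [h4, one_mul]
  · right
    obtain ⟨hyo, hinv⟩ := dih_case hp2 P hyp _ hT hTc hyN hycop hcomm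
    apply dih_gen (p := p) (S₀ : Subgroup H) S₀.2 hSc hp2 (y := y)
    · rw [← hyo, Subgroup.orderOf_coe]
    · exact hX
    · intro z hz
      apply Subtype.ext
      exact hinv _ ⟨z, hz, rfl⟩


/-- Let p be an odd prime and G a finite group with Sylow p-subgroup P. Say that G has restricted p-by-cyclic subgroups when every subgroup H of G whose Sylow p-subgroup is normal in H with cyclic quotient is itself cyclic or dihedral of order 2pⁿ for some n. Then G has restricted p-by-cyclic subgroups if and only if P is cyclic and one of the following holds: (1) N_G(P) = C_G(P); or (2) N_G(P)/C_G(P) has order 2 and, for the subgroup Q of order p of P, the centralizer C_G(Q) is abelian and every element of N_G(Q) outside C_G(Q) is an involution inverting every element of C_G(Q). -/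
theorem result {G : Type*} [Group G] [Finite G] {p : ℕ}
    [Fact p.Prime] (hp : p ≠ 2) (P : Sylow p G) :
    (∀ H : Subgroup G, (∀ S : Sylow p ↥H, (S : Subgroup ↥H).Normal) →
        (∀ (S : Sylow p ↥H) [(S : Subgroup ↥H).Normal], IsCyclic (↥H ⧸ (S : Subgroup ↥H))) →
        IsCyclic H ∨ (∃ n : ℕ, Nonempty (H ≃* DihedralGroup (p ^ n)))) ↔
    (IsCyclic P ∧
      (Subgroup.normalizer ((P : Subgroup G) : Set G) = Subgroup.centralizer ((P : Subgroup G) : Set G) ∨
       ((Subgroup.centralizer ((P : Subgroup G) : Set G)).relIndex (Subgroup.normalizer ((P : Subgroup G) : Set G)) = 2 ∧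
        ∀ Q : Subgroup G, Q ≤ P → Nat.card Q = p →
          IsMulCommutative ↥(Subgroup.centralizer (Q : Set G)) ∧
          ∀ x : G, x ∈ Subgroup.normalizer (Q : Set G) → x ∉ Subgroup.centralizer (Q : Set G) →
            orderOf x = 2 ∧ ∀ c : G, c ∈ Subgroup.centralizer (Q : Set G) → x * c * x⁻¹ = c⁻¹))) := by
  exact ⟨fun hR => forward hp P hR, fun h H hN hC => backward hp P h.1 h.2 H hN hC⟩

end Cfsg.Agent.S4082
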