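import Cfsg.Statements.S4084
import Mathlib
-- import your own Cfsg.Agent.* helpers here

set_option autoImplicit false
open Cfsg

namespace Cfsg.Agent.S4084

open Subgroup

theorem one_way {G H : Type*} [Group G] [Finite G] [Group H] [Finite H] (e : G ≃ H)
    (he : ∀ x y : G, Commute x y ↔ Commute (e x) (e y))
    {p q : ℕ} (hp : p.Prime) (hq : q.Prime) (hpq : p ≠ q) (g : G) (hg : orderOf g = p * q) :
    ∃ h : H, orderOf h = p * q := by
  classical
  let P : Subgroup G → Prop := fun A => ∀ x ∈ A, ∀ y ∈ A, Commute x y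
  have h0 : P (zpowers g) := by
    rintro _ ⟨a, rfl⟩ _ ⟨b, rfl⟩
    exact (Commute.refl g).zpow_zpow a b
  obtain ⟨A, hgA, hmax⟩ := Finite.exists_le_maximal h0
  have hA : P A := hmax.prop
  set B : Subgroup H := closure (e '' (A : Set G)) with hB
  have hSc : ∀ x ∈ e '' (A : Set G), ∀ y ∈ e '' (A : Set G), x * y = y * x := by
    rintro _ ⟨a, ha, rfl⟩ _ ⟨b, hb, rfl⟩
    exact (he a b).mp (hA a ha b hb)
  have hBc : IsMulCommutative B := isMulCommutative_closure hSc
  have hBcomm : ∀ x ∈ B, ∀ y ∈ B, x * y = y * x := by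
    intro x hx y hy
    exact congrArg Subtype.val (hBc.is_comm.comm ⟨x, hx⟩ ⟨y, hy⟩)
  set A' : Subgroup G := closure (e.symm '' (B : Set H)) with hA'
  have hSc' : ∀ x ∈ e.symm '' (B : Set H), ∀ y ∈ e.symm '' (B : Set H), x * y = y * x := by
    rintro _ ⟨a, ha, rfl⟩ _ ⟨b, hb, rfl⟩
    have h1 : Commute (e (e.symm a)) (e (e.symm b)) := by
      simp only [Equiv.apply_symm_apply]
      exact hBcomm a ha b hb
    exact (he _ _).mpr h1
  have hA'c : IsMulCommutative A' := isMulCommutative_closure hSc'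
  have hPA' : P A' := by
    intro x hx y hy
    exact congrArg Subtype.val (hA'c.is_comm.comm ⟨x, hx⟩ ⟨y, hy⟩)
  have hAA' : A ≤ A' := by
    intro a ha
    apply Subgroup.subset_closure
    exact ⟨e a, subset_closure ⟨a, ha, rfl⟩, by simp⟩
  have hA'A : A' ≤ A := hmax.le_of_ge hPA' hAA'
  have hset : (B : Set H) = e '' (A : Set G) := by
    apply Set.Subset.antisymm
    · intro b hb
      exact ⟨e.symm b, hA'A (subset_closure ⟨b, hb, rfl⟩), by simp⟩
    · exact Subgroup.subset_closure
  have hcard : Nat.card B = Nat.card A := by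
    have h1 : Nat.card B = Nat.card (e '' (A : Set G)) := by
      rw [← hset]
      rfl
    rw [h1]
    exact Nat.card_image_of_injective e.injective _
  have hdvd : p * q ∣ Nat.card B := by
    rw [hcard, ← hg, ← Subgroup.orderOf_mk g (hgA (mem_zpowers g))]
    exact orderOf_dvd_natCard _
  haveI : Fact p.Prime := ⟨hp⟩
  haveI : Fact q.Prime := ⟨hq⟩
  obtain ⟨y₁, hy₁⟩ := exists_prime_orderOf_dvd_card' p ((dvd_mul_right p q).trans hdvd)
  obtain ⟨y₂, hy₂⟩ := exists_prime_orderOf_dvd_card' q ((dvd_mul_left q p).trans hdvd)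
  have hc : Commute (y₁ : H) y₂ := hBcomm _ y₁.2 _ y₂.2
  refine ⟨y₁ * y₂, ?_⟩
  rw [hc.orderOf_mul_eq_mul_orderOf_of_coprime, Subgroup.orderOf_coe, Subgroup.orderOf_coe, hy₁, hy₂]
  rw [Subgroup.orderOf_coe, Subgroup.orderOf_coe, hy₁, hy₂]
  exact (Nat.coprime_primes hp hq).mpr hpq

/-- Let G and H be finite groups whose commuting graphs are isomorphic: there is a bijection e : G → H with x, y commuting exactly when e(x), e(y) commute. Then G and H have the same prime graph: for distinct primes p, q, G has an element of order pq if and only if H does (and #G = #H, so the prime divisors agree). -/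
theorem result {G H : Type*} [Group G] [Finite G] [Group H] [Finite H] (e : G ≃ H)
    (he : ∀ x y : G, Commute x y ↔ Commute (e x) (e y))
    {p q : ℕ} (hp : p.Prime) (hq : q.Prime) (hpq : p ≠ q) :
    (∃ g : G, orderOf g = p * q) ↔ (∃ h : H, orderOf h = p * q) := by
  constructor
  · rintro ⟨g, hg⟩
    exact one_way e he hp hq hpq g hg
  · rintro ⟨g, hg⟩
    refine one_way e.symm (fun x y => ?_) hp hq hpq g hg
    rw [he (e.symm x) (e.symm y)]
    simp

end Cfsg.Agent.S4084
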