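import Cfsg.Statements.S4086
import Mathlib
-- import your own Cfsg.Agent.* helpers here

set_option autoImplicit false
open Cfsg

namespace Cfsg.Agent.S4086

/-- In a finite cyclic group, `orderOf x ∣ orderOf y` gives `x ∈ ⟨y⟩`. -/
theorem mem_zpowers_of_orderOf_dvd {C : Type*} [Group C] [Finite C] [IsCyclic C] (x y : C)
    (h : orderOf x ∣ orderOf y) : x ∈ Subgroup.zpowers y := by
  classical
  have := Fintype.ofFinite C
  have hn : 0 < orderOf y := orderOf_pos y
  have hle := IsCyclic.card_pow_eq_one_le (α := C) hn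
  have hsub : ((Subgroup.zpowers y : Set C)).toFinset ⊆ Finset.univ.filter (fun a : C => a ^ orderOf y = 1) := by
    intro z hz
    rw [Set.mem_toFinset] at hz
    obtain ⟨k, rfl⟩ := hz
    rw [Finset.mem_filter]
    refine ⟨Finset.mem_univ _, ?_⟩
    show (y ^ k) ^ orderOf y = 1
    rw [← zpow_natCast, ← zpow_mul, mul_comm, zpow_mul, zpow_natCast, pow_orderOf_eq_one, one_zpow]
  have hcard : ((Subgroup.zpowers y : Set C)).toFinset.card = orderOf y := by
    rw [Set.toFinset_card, ← Nat.card_eq_fintype_card]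
    exact Nat.card_zpowers y
  have heq := Finset.eq_of_subset_of_card_le hsub (by rw [hcard]; exact hle)
  have hx : x ∈ Finset.univ.filter (fun a : C => a ^ orderOf y = 1) :=
    Finset.mem_filter.mpr ⟨Finset.mem_univ _, orderOf_dvd_iff_pow_eq_one.mp h⟩
  rw [← heq, Set.mem_toFinset] at hx
  exact hx

/-- For a finite group G the following are equivalent: every non-identity element has prime-power order; whenever two elements generate a cyclic subgroup, one of them is a power of the other (the enhanced power graph of G coincides with its power graph). -/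
theorem result {G : Type*} [Group G] [Finite G] :
    (∀ g : G, g ≠ 1 → IsPrimePow (orderOf g)) ↔
    (∀ x y : G, IsCyclic ↥(Subgroup.closure ({x, y} : Set G)) → (x ∈ Subgroup.zpowers y ∨ y ∈ Subgroup.zpowers x)) := by
  constructor
  · intro hG x y hcyc
    by_cases hx : x = 1
    · left; rw [hx]; exact Subgroup.one_mem _
    by_cases hy : y = 1
    · right; rw [hy]; exact Subgroup.one_mem _
    set C := Subgroup.closure ({x, y} : Set G) with hC
    have hxC : x ∈ C := Subgroup.subset_closure (by simp)
    have hyC : y ∈ C := Subgroup.subset_closure (by simp)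
    obtain ⟨c, hc⟩ := hcyc
    have hcne : (c : G) ≠ 1 := by
      intro h
      have hc1 : c = 1 := Subtype.ext h
      obtain ⟨k, hk⟩ := hc ⟨x, hxC⟩
      apply hx
      have := congrArg Subtype.val hk
      rw [hc1] at this
      simpa using this.symm
    obtain ⟨r, k, hr, hk, hordc⟩ := hG (c : G) hcne
    have hr' : r.Prime := hr.nat_prime
    have hdvd : ∀ z : C, ∃ i, orderOf z = r ^ i := by
      intro z
      have h1 : orderOf z ∣ orderOf c := orderOf_dvd_of_mem_zpowers (hc z)
      rw [← Subgroup.orderOf_coe c, ← hordc] at h1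
      obtain ⟨i, -, hi⟩ := (Nat.dvd_prime_pow hr').mp h1
      exact ⟨i, hi⟩
    obtain ⟨i, hi⟩ := hdvd ⟨x, hxC⟩
    obtain ⟨j, hj⟩ := hdvd ⟨y, hyC⟩
    have hCcyc : IsCyclic C := ⟨⟨c, hc⟩⟩
    rcases le_total i j with hij | hij
    · left
      have : (⟨x, hxC⟩ : C) ∈ Subgroup.zpowers (⟨y, hyC⟩ : C) :=
        mem_zpowers_of_orderOf_dvd _ _ (by rw [hi, hj]; exact pow_dvd_pow r hij)
      obtain ⟨m, hm⟩ := this
      exact ⟨m, congrArg Subtype.val hm⟩
    · right
      have : (⟨y, hyC⟩ : C) ∈ Subgroup.zpowers (⟨x, hxC⟩ : C) :=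
        mem_zpowers_of_orderOf_dvd _ _ (by rw [hi, hj]; exact pow_dvd_pow r hij)
      obtain ⟨m, hm⟩ := this
      exact ⟨m, congrArg Subtype.val hm⟩
  · intro hG g hg
    by_contra hnp
    set n := orderOf g with hn
    have hn1 : n ≠ 1 := by
      intro h
      exact hg (orderOf_eq_one_iff.mp h)
    have hn0 : n ≠ 0 := (orderOf_pos g).ne'
    set p := n.minFac with hp
    have hpp : p.Prime := Nat.minFac_prime hn1
    have hcop : Nat.Coprime p (ordCompl[p] n) := Nat.coprime_ordCompl hpp hn0
    have hprod := Nat.ordProj_mul_ordCompl_eq_self n p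
    set a := ordProj[p] n with ha
    set b := ordCompl[p] n with hb
    have hpdvd : p ∣ n := Nat.minFac_dvd n
    have hv : n.factorization p ≠ 0 := by
      have := hpp.factorization_pos_of_dvd hn0 hpdvd
      omega
    have hb1 : b ≠ 1 := by
      intro hb1
      apply hnp
      rw [hb1, mul_one] at hprod
      rw [← hprod, ha]
      exact hpp.isPrimePow.pow hv
    have ha1 : a ≠ 1 := by
      rw [ha]
      have : 1 < p ^ n.factorization p := Nat.one_lt_pow hv hpp.one_lt
      omega
    have hab : Nat.Coprime a b := Nat.Coprime.pow_left _ hcop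
    have ha0 : a ≠ 0 := by
      intro h
      rw [h, zero_mul] at hprod
      exact hn0 hprod.symm
    have hb0 : b ≠ 0 := by
      intro h
      rw [h, mul_zero] at hprod
      exact hn0 hprod.symm
    have hoa : orderOf (g ^ a) = b := by
      rw [orderOf_pow_of_dvd ha0 ⟨b, hprod.symm⟩, ← hn, ← hprod]
      exact Nat.mul_div_cancel_left b (Nat.pos_of_ne_zero ha0)
    have hob : orderOf (g ^ b) = a := by
      rw [orderOf_pow_of_dvd hb0 ⟨a, by show n = b * a; rw [← hprod]; ring⟩, ← hn, ← hprod]
      exact Nat.mul_div_cancel a (Nat.pos_of_ne_zero hb0)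
    have hcyc : IsCyclic ↥(Subgroup.closure ({g ^ a, g ^ b} : Set G)) := by
      have hle : Subgroup.closure ({g ^ a, g ^ b} : Set G) ≤ Subgroup.zpowers g := by
        rw [Subgroup.closure_le]
        rintro _ (rfl | rfl)
        · exact Subgroup.npow_mem_zpowers g a
        · exact Subgroup.npow_mem_zpowers g b
      exact Subgroup.isCyclic_of_le hle
    rcases hG _ _ hcyc with h | h
    · have h1 : orderOf (g ^ a) ∣ orderOf (g ^ b) := orderOf_dvd_of_mem_zpowers h
      rw [hoa, hob] at h1
      exact hb1 (Nat.Coprime.eq_one_of_dvd hab.symm h1)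
    · have h1 : orderOf (g ^ b) ∣ orderOf (g ^ a) := orderOf_dvd_of_mem_zpowers h
      rw [hoa, hob] at h1
      exact ha1 (Nat.Coprime.eq_one_of_dvd hab h1)

end Cfsg.Agent.S4086
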