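import Cfsg.Statements.S4090
import Cfsg.Agent.S4088
import Cfsg.Agent.Lib.Basic.PCore

set_option autoImplicit false
open scoped BigOperators
open Cfsg

namespace Cfsg.Agent.S4090

open Subgroup Cfsg.Agent.S4088

variable {G : Type*} [Group G]

/-- Elements conjugating `H` into `U`. -/
def XX (H U : Subgroup G) : Set G := {g | ∀ h ∈ H, g * h * g⁻¹ ∈ U}

/-- Elements of `L` centralizing `H` modulo `K`. -/
def CC (H K L : Subgroup G) [hK : K.Normal] : Subgroup G where
  carrier := {u | u ∈ L ∧ ∀ h ∈ H, h * u * h⁻¹ * u⁻¹ ∈ K}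
  mul_mem' := by
    rintro a b ⟨ha, ha'⟩ ⟨hb, hb'⟩
    refine ⟨L.mul_mem ha hb, fun h hh => ?_⟩
    have e : h * (a * b) * h⁻¹ * (a * b)⁻¹ =
        (h * a * h⁻¹ * a⁻¹) * (a * (h * b * h⁻¹ * b⁻¹) * a⁻¹) := by group
    rw [e]
    exact K.mul_mem (ha' h hh) (hK.conj_mem _ (hb' h hh) a)
  one_mem' := ⟨L.one_mem, fun h _ => by simp [K.one_mem]⟩
  inv_mem' := by
    rintro a ⟨ha, ha'⟩
    refine ⟨L.inv_mem ha, fun h hh => ?_⟩
    have e : h * a⁻¹ * h⁻¹ * a⁻¹⁻¹ = a⁻¹ * (h * a * h⁻¹ * a⁻¹)⁻¹ * a⁻¹⁻¹ := by group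
    rw [e]
    exact hK.conj_mem _ (K.inv_mem (ha' h hh)) _

lemma mem_CC {H K L : Subgroup G} [K.Normal] {u : G} :
    u ∈ CC H K L ↔ u ∈ L ∧ ∀ h ∈ H, h * u * h⁻¹ * u⁻¹ ∈ K := Iff.rfl

lemma le_CC {H K L : Subgroup G} [hK : K.Normal] (h : K ≤ L) : K ≤ CC H K L := by
  intro u hu
  refine ⟨h hu, fun x _ => K.mul_mem (hK.conj_mem _ hu x) (K.inv_mem hu)⟩

lemma p_mem_of_coprime {p : ℕ} [Fact p.Prime] [Finite G] (P : Sylow p G) {K L : Subgroup G}
    [K.Normal] (hc : (K.relIndex L).Coprime p) {w : G} (hw : w ∈ (P : Subgroup G)) (hwL : w ∈ L) :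
    w ∈ K := by
  obtain ⟨k, hk⟩ := (IsPGroup.iff_orderOf.mp P.isPGroup') ⟨w, hw⟩
  have hord : orderOf w = p ^ k := by rw [← hk, Subgroup.orderOf_mk]
  set w' : L := ⟨w, hwL⟩
  set q : L ⧸ K.subgroupOf L := (w' : L ⧸ K.subgroupOf L)
  have h1 : q ^ (Nat.card (L ⧸ K.subgroupOf L)) = 1 := pow_card_eq_one'
  have h2 : q ^ (p ^ k) = 1 := by
    show ((w' ^ (p ^ k) : L) : L ⧸ K.subgroupOf L) = 1
    have : w' ^ (p ^ k) = 1 := by
      apply Subtype.ext
      show w ^ (p ^ k) = 1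
      rw [← hord]
      exact pow_orderOf_eq_one w
    rw [this]
    rfl
  have hcard : Nat.card (L ⧸ K.subgroupOf L) = K.relIndex L := rfl
  have h3 : orderOf q ∣ 1 := by
    have hd1 := orderOf_dvd_of_pow_eq_one h1
    have hd2 := orderOf_dvd_of_pow_eq_one h2
    rw [hcard] at hd1
    have hcop : Nat.Coprime (K.relIndex L) (p ^ k) := Nat.Coprime.pow_right k hc
    exact (Nat.dvd_gcd hd1 hd2).trans (by rw [hcop])
  have h4 : q = 1 := orderOf_eq_one_iff.mp (Nat.dvd_one.mp h3)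
  have h5 : w' ∈ K.subgroupOf L := (QuotientGroup.eq_one_iff _).mp h4
  exact mem_subgroupOf.mp h5

lemma sup_inf_le {p : ℕ} [Fact p.Prime] [Finite G] (P : Sylow p G) {K L : Subgroup G}
    [K.Normal] (hKL : K ≤ L) (hc : (K.relIndex L).Coprime p) {x : G}
    (hx : x ∈ (P : Subgroup G) ⊔ K) (hxL : x ∈ L) : x ∈ K := by
  obtain ⟨w, hw, k, hk, rfl⟩ := mem_sup_of_normal_right.mp hx
  have hwL : w ∈ L := by
    have : w = (w * k) * k⁻¹ := by group
    rw [this]
    exact L.mul_mem hxL (L.inv_mem (hKL hk))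
  exact K.mul_mem (p_mem_of_coprime P hc hw hwL) hk

lemma sup_eq_of_pow {p : ℕ} [Fact p.Prime] [Finite G] (P : Sylow p G) {K L : Subgroup G}
    [K.Normal] [hL : L.Normal] (hKL : K ≤ L) {m : ℕ} (hm : K.relIndex L = p ^ m) :
    (P : Subgroup G) ⊔ K = (P : Subgroup G) ⊔ L := by
  apply le_antisymm (sup_le_sup_left hKL _)
  refine sup_le le_sup_left ?_
  let f := QuotientGroup.mk' K
  have hf : Function.Surjective f := QuotientGroup.mk'_surjective K
  have hLn : (L.map f).Normal := hL.map f hf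
  have hLp : IsPGroup p (L.map f) := by
    rintro ⟨y, x, hx, rfl⟩
    refine ⟨m, ?_⟩
    apply Subtype.ext
    show (f x) ^ (p ^ m) = 1
    have h1 : (⟨x, hx⟩ : L) ^ (K.relIndex L) ∈ K.subgroupOf L := 
      Subgroup.pow_index_mem (K.subgroupOf L) _
    rw [hm] at h1
    have h2 := mem_subgroupOf.mp h1
    have h3 : x ^ (p ^ m) ∈ K := by simpa using h2
    rw [← map_pow]
    exact (QuotientGroup.eq_one_iff _).mpr h3
  have hle : L.map f ≤ ((P.mapSurjective hf : Sylow p (G ⧸ K)) : Subgroup (G ⧸ K)) :=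
    (Cfsg.Agent.Lib.Basic.PCore.le_pCore hLn hLp).trans (Cfsg.Agent.Lib.Basic.PCore.pCore_le_sylow _)
  intro x hx
  have h1 := hle (mem_map_of_mem f hx)
  rw [Sylow.coe_mapSurjective] at h1
  obtain ⟨w, hw, hwx⟩ := h1
  have h2 : w⁻¹ * x ∈ K := by
    have : f w = f x := hwx
    have h3 := QuotientGroup.eq.mp this
    exact h3
  have e : x = w * (w⁻¹ * x) := by group
  rw [e]
  exact mul_mem_sup hw h2

lemma step_coprime {p : ℕ} [Fact p.Prime] [Finite G] (H : Subgroup G) (hH : IsPGroup p H)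
    (P : Sylow p G) {K L : Subgroup G} [hKn : K.Normal] [hLn : L.Normal] (hKL : K ≤ L)
    (hc : (K.relIndex L).Coprime p) :
    Nat.card (L × XX H ((P : Subgroup G) ⊔ K)) =
      Nat.card (XX H ((P : Subgroup G) ⊔ L)) * Nat.card (CC H K L) := by
  classical
  have hmaps : ∀ (l : L) (g : XX H ((P : Subgroup G) ⊔ K)),
      ((l : G) * (g : G)) ∈ XX H ((P : Subgroup G) ⊔ L) := by
    rintro ⟨l, hl⟩ ⟨g, hg⟩ h hh
    have h1 : g * h * g⁻¹ ∈ (P : Subgroup G) ⊔ L := sup_le_sup_left hKL _ (hg h hh)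
    have e : l * g * h * (l * g)⁻¹ = l * (g * h * g⁻¹) * l⁻¹ := by group
    show l * g * h * (l * g)⁻¹ ∈ _
    rw [e]
    have h2 : l ∈ (P : Subgroup G) ⊔ L := (le_sup_right : L ≤ _) hl
    exact Subgroup.mul_mem _ (Subgroup.mul_mem _ h2 h1) (Subgroup.inv_mem _ h2)
  apply card_eq_mul_of_fibers (fun z : L × XX H ((P : Subgroup G) ⊔ K) =>
    (⟨(z.1 : G) * (z.2 : G), hmaps z.1 z.2⟩ : XX H ((P : Subgroup G) ⊔ L)))
  rintro ⟨x, hx⟩
  -- surjectivity: Sylow conjugacy inside `P ⊔ L`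
  obtain ⟨l0, hl0, g0, hg0, hlg⟩ : ∃ l0 ∈ L, ∃ g0 ∈ XX H ((P : Subgroup G) ⊔ K), l0 * g0 = x := by
    set T := (P : Subgroup G) ⊔ L with hT
    have hPT : (P : Subgroup G) ≤ T := le_sup_left
    let PT : Sylow p T := P.subtype hPT
    let J : Subgroup T := ((H.map (MulAut.conj x).toMonoidHom)).subgroupOf T
    have hJp : IsPGroup p J := (hH.map _).comap_subtype
    obtain ⟨S, hS⟩ := hJp.exists_le_sylow
    obtain ⟨t, ht⟩ := MulAction.exists_smul_eq T S PT
    obtain ⟨w, hw, l', hl', hwl⟩ := mem_sup_of_normal_right.mp t.2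
    refine ⟨l'⁻¹, L.inv_mem hl', l' * x, ?_, by group⟩
    intro h hh
    apply (le_sup_left : (P : Subgroup G) ≤ (P : Subgroup G) ⊔ K)
    have hj : x * h * x⁻¹ ∈ T := hx h hh
    have hjJ : (⟨x * h * x⁻¹, hj⟩ : T) ∈ J := by
      apply mem_subgroupOf.mpr
      exact ⟨h, hh, by simp [MulAut.conj_apply]⟩
    have h1 := hS hjJ
    have h2 : t * ⟨x * h * x⁻¹, hj⟩ * t⁻¹ ∈ ((t • S : Sylow p T) : Subgroup T) := by
      rw [mem_sylow_smul]
      simpa [mul_assoc] using h1
    rw [ht] at h2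
    have h3 : (t : G) * (x * h * x⁻¹) * (t : G)⁻¹ ∈ (P : Subgroup G) := by
      have h4 : (t * ⟨x * h * x⁻¹, hj⟩ * t⁻¹ : T) ∈ ((P : Subgroup G)).subgroupOf T := by
        have := Sylow.coe_subtype (P := P) hPT
        rw [← this]
        exact h2
      exact mem_subgroupOf.mp h4
    rw [← hwl] at h3
    have e : l' * x * h * (l' * x)⁻¹ =
        w⁻¹ * ((w * l') * (x * h * x⁻¹) * (w * l')⁻¹) * w := by group
    rw [e]
    exact Subgroup.mul_mem _ (Subgroup.mul_mem _ (Subgroup.inv_mem _ hw) h3) hw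
  subst hlg
  symm
  apply Nat.card_congr
  refine Equiv.ofBijective (fun c => ⟨(⟨l0 * (g0 * c.1 * g0⁻¹), ?_⟩, ⟨g0 * (c.1 : G)⁻¹, ?_⟩), ?_⟩) ⟨?_, ?_⟩
  · exact L.mul_mem hl0 (hLn.conj_mem _ c.2.1 g0)
  · intro h hh
    have h1 : h⁻¹ * (c.1 : G)⁻¹ * h⁻¹⁻¹ * (c.1 : G)⁻¹⁻¹ ∈ K :=
      ((CC H K L).inv_mem c.2).2 h⁻¹ (H.inv_mem hh)
    have e : g0 * (c.1 : G)⁻¹ * h * (g0 * (c.1 : G)⁻¹)⁻¹ =
        (g0 * h * g0⁻¹) * (g0 * (h⁻¹ * (c.1 : G)⁻¹ * h⁻¹⁻¹ * (c.1 : G)⁻¹⁻¹) * g0⁻¹) := by group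
    rw [e]
    exact Subgroup.mul_mem _ (hg0 h hh) ((le_sup_right : K ≤ _) (hKn.conj_mem _ h1 g0))
  · apply Subtype.ext
    show l0 * (g0 * (c.1 : G) * g0⁻¹) * (g0 * (c.1 : G)⁻¹) = l0 * g0
    group
  · rintro c d hcd
    have h1 := congrArg (fun z => (((z.1.2 : XX H ((P : Subgroup G) ⊔ K))) : G)) hcd
    simp only [mul_right_inj, inv_inj] at h1
    exact Subtype.ext h1
  · rintro ⟨⟨⟨l, hl⟩, ⟨g, hg⟩⟩, hz⟩
    have hz' : l * g = l0 * g0 := congrArg Subtype.val hz
    have hn : g * g0⁻¹ ∈ L := by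
      have : g * g0⁻¹ = l⁻¹ * l0 := by
        rw [mul_inv_eq_iff_eq_mul, mul_assoc, ← hz']
        group
      rw [this]
      exact L.mul_mem (L.inv_mem hl) hl0
    have hcL : g⁻¹ * g0 ∈ L := by
      have e : g⁻¹ * g0 = g⁻¹ * (g * g0⁻¹)⁻¹ * g⁻¹⁻¹ := by group
      rw [e]
      exact hLn.conj_mem _ (L.inv_mem hn) _
    refine ⟨⟨g⁻¹ * g0, hcL, ?_⟩, ?_⟩
    · intro h hh
      have h1 : g * h * g⁻¹ ∈ (P : Subgroup G) ⊔ K := hg h hh
      have h2 : g0 * h * g0⁻¹ ∈ (P : Subgroup G) ⊔ K := hg0 h hh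
      set j := g0 * h * g0⁻¹ with hj
      set j' := g * h * g⁻¹ with hj'
      have h3 : j' * j⁻¹ ∈ (P : Subgroup G) ⊔ K := Subgroup.mul_mem _ h1 (Subgroup.inv_mem _ h2)
      have h4 : j' * j⁻¹ ∈ L := by
        have e : j' * j⁻¹ = (g * g0⁻¹) * (j * (g * g0⁻¹)⁻¹ * j⁻¹) := by
          rw [hj, hj']; group
        rw [e]
        exact L.mul_mem hn (hLn.conj_mem _ (L.inv_mem hn) j)
      have h5 := sup_inf_le P hKL hc h3 h4
      have e : h * (g⁻¹ * g0) * h⁻¹ * (g⁻¹ * g0)⁻¹ = g⁻¹ * (j' * j⁻¹) * g⁻¹⁻¹ := by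
        rw [hj, hj']; group
      rw [e]
      exact hKn.conj_mem _ h5 _
    · apply Subtype.ext
      apply Prod.ext
      · apply Subtype.ext
        show l0 * (g0 * (g⁻¹ * g0) * g0⁻¹) = l
        have : l = l0 * g0 * g⁻¹ := by rw [← hz']; group
        rw [this]
        group
      · apply Subtype.ext
        show g0 * (g⁻¹ * g0)⁻¹ = g
        group

lemma tele {n : ℕ} (a : Fin (n + 1) → ℕ) (f e : Fin n → ℕ)
    (h : ∀ i : Fin n, a i.castSucc * f i = a i.succ * e i) :
    a 0 * ∏ i, f i = a (Fin.last n) * ∏ i, e i := by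
  induction n with
  | zero => simp
  | succ n ih =>
    have h1 := ih (fun i => a i.castSucc) (fun i => f i.castSucc) (fun i => e i.castSucc)
      (fun i => h i.castSucc)
    rw [Fin.prod_univ_castSucc, Fin.prod_univ_castSucc]
    have h2 := h (Fin.last n)
    simp only [Fin.succ_last] at h2
    calc a 0 * ((∏ i : Fin n, f i.castSucc) * f (Fin.last n))
        = (a 0 * ∏ i : Fin n, f i.castSucc) * f (Fin.last n) := by ring
      _ = (a (Fin.last n).castSucc * ∏ i : Fin n, e i.castSucc) * f (Fin.last n) := by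
          rw [show (0 : Fin (n + 1 + 1)) = (0 : Fin (n + 1)).castSucc from rfl, h1]
      _ = (a (Fin.last n).castSucc * f (Fin.last n)) * ∏ i : Fin n, e i.castSucc := by ring
      _ = _ := by rw [h2]; ring

lemma card_XX_bot {p : ℕ} [Fact p.Prime] [Finite G] (H : Subgroup G) (P : Sylow p G) :
    Nat.card (XX H (P : Subgroup G)) = Nat.card {Q : Sylow p G // H ≤ (Q : Subgroup G)} *
      Nat.card (normalizer ((P : Subgroup G) : Set G)) := by
  classical
  have hX : ∀ g, g ∈ XX H (P : Subgroup G) ↔ H ≤ ((g⁻¹ • P : Sylow p G) : Subgroup G) := by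
    intro g
    constructor
    · intro hg h hh
      rw [mem_sylow_smul]
      simpa using hg h hh
    · intro hg h hh
      have := hg hh
      rw [mem_sylow_smul] at this
      simpa using this
  apply card_eq_mul_of_fibers (fun g : XX H (P : Subgroup G) => (⟨(g : G)⁻¹ • P, (hX g).mp g.2⟩ :
      {Q : Sylow p G // H ≤ (Q : Subgroup G)}))
  rintro ⟨Q, hQ⟩
  obtain ⟨a, ha⟩ := MulAction.exists_smul_eq G P Q
  symm
  apply Nat.card_congr
  refine Equiv.ofBijective (fun n => ⟨⟨n.1 * a⁻¹, ?_⟩, ?_⟩) ⟨?_, ?_⟩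
  · have hn : ((n.1 : G)) • P = P := Sylow.smul_eq_iff_mem_normalizer.mpr n.2
    rw [hX, mul_inv_rev, inv_inv, mul_smul, inv_smul_eq_iff.mpr hn.symm, ha]
    exact hQ
  · apply Subtype.ext
    have hn : ((n.1 : G)) • P = P := Sylow.smul_eq_iff_mem_normalizer.mpr n.2
    show ((n.1 : G) * a⁻¹)⁻¹ • P = Q
    rw [mul_inv_rev, inv_inv, mul_smul, inv_smul_eq_iff.mpr hn.symm, ha]
  · intro n m hnm
    have := congrArg (fun z => ((z.1 : XX H (P : Subgroup G)) : G)) hnm
    simp only [mul_left_inj] at this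
    exact Subtype.ext this
  · rintro ⟨⟨g, hg⟩, hgQ⟩
    have hgQ' : g⁻¹ • P = Q := congrArg Subtype.val hgQ
    refine ⟨⟨g * a, ?_⟩, ?_⟩
    · have : (g * a) • P = P := by
        rw [mul_smul, ha, ← hgQ', smul_inv_smul]
      exact Sylow.smul_eq_iff_mem_normalizer.mp this
    · apply Subtype.ext
      apply Subtype.ext
      simp

/-- Let G be a finite p-solvable group, H a p-subgroup of G and P a Sylow p-subgroup, and fix a chain of normal subgroups 1 = M₀ ≤ M₁ ≤ ⋯ ≤ Mₙ = G of G each of whose factors is a p-group or a p'-group. Then the number of elements g of G such that H is subnormal in the subgroup generated by H and g equals the order of P times the product, over the factors Mᵢ₊₁/Mᵢ of order prime to p, of the order of the centralizer of H in Mᵢ₊₁/Mᵢ (counted as the number of u ∈ Mᵢ₊₁ with [h, u] ∈ Mᵢ for all h ∈ H, divided by the order of Mᵢ). -/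
theorem result {G : Type*} [Group G] [Finite G] (p : ℕ) [Fact p.Prime]
    (hG : Cfsg.IsPSolvable p G) (H : Subgroup G) (hH : IsPGroup p H) (P : Sylow p G)
    (n : ℕ) (M : Fin (n + 1) → Subgroup G) (h0 : M 0 = ⊥) (hn : M (Fin.last n) = ⊤) (hmono : Monotone M)
    (hnormal : ∀ i, (M i).Normal)
    (hfac : ∀ i : Fin n, (∃ m : ℕ, (M i.castSucc).relIndex (M i.succ) = p ^ m) ∨ ((M i.castSucc).relIndex (M i.succ)).Coprime p) :
    Nat.card {g : G // ((H).subgroupOf (H ⊔ Subgroup.zpowers g)).IsSubnormal} =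
      Nat.card (P : Subgroup G) *
        ∏ i : Fin n, (if ((M i.castSucc).relIndex (M i.succ)).Coprime p then
          Nat.card {u : G // u ∈ M i.succ ∧ ∀ h ∈ H, h * u * h⁻¹ * u⁻¹ ∈ M i.castSucc} / Nat.card (M i.castSucc)
          else 1) := by
  classical
  have hp : p.Prime := Fact.out
  have hS : Nat.card {g : G // ((H).subgroupOf (H ⊔ Subgroup.zpowers g)).IsSubnormal} =
      Nat.card (XX H (P : Subgroup G)) := by
    rw [card_XX_bot]
    have e : Nat.card {g : G // ((H).subgroupOf (H ⊔ Subgroup.zpowers g)).IsSubnormal} =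
        Nat.card (SS p H) :=
      Nat.card_congr (Equiv.subtypeEquivRight (fun g => subn_iff hH g))
    rw [e]
    exact_mod_cast core p _ G rfl H hH P
  set r : Fin n → ℕ := fun i => (M i.castSucc).relIndex (M i.succ) with hr
  set d : Fin n → ℕ := fun i =>
    Nat.card {u : G // u ∈ M i.succ ∧ ∀ h ∈ H, h * u * h⁻¹ * u⁻¹ ∈ M i.castSucc} /
      Nat.card (M i.castSucc) with hd
  set a : Fin (n + 1) → ℕ := fun i => Nat.card (XX H ((P : Subgroup G) ⊔ M i)) with ha
  set e : Fin n → ℕ := fun i => if (r i).Coprime p then d i else 1 with he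
  set f : Fin n → ℕ := fun i => if (r i).Coprime p then r i else 1 with hf
  set g : Fin n → ℕ := fun i => if (r i).Coprime p then 1 else r i with hg
  have hcardrel : ∀ i : Fin n, Nat.card (M i.castSucc) * r i = Nat.card (M i.succ) := by
    intro i
    have hle : M i.castSucc ≤ M i.succ := hmono (Fin.castSucc_lt_succ (i := i)).le
    have h1 := Subgroup.card_mul_index ((M i.castSucc).subgroupOf (M i.succ))
    have h2 : Nat.card ((M i.castSucc).subgroupOf (M i.succ)) = Nat.card (M i.castSucc) :=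
      Nat.card_congr (subgroupOfEquivOfLe hle).toEquiv
    rw [h2] at h1
    exact h1
  have hstep : ∀ i : Fin n, a i.castSucc * f i = a i.succ * e i := by
    intro i
    have hle : M i.castSucc ≤ M i.succ := hmono (Fin.castSucc_lt_succ (i := i)).le
    haveI := hnormal i.castSucc
    haveI := hnormal i.succ
    by_cases hc : (r i).Coprime p
    · simp only [hf, he, if_pos hc]
      have h1 := step_coprime H hH P hle hc
      rw [Nat.card_prod] at h1
      have h2 : Nat.card {u : G // u ∈ M i.succ ∧ ∀ h ∈ H, h * u * h⁻¹ * u⁻¹ ∈ M i.castSucc} =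
          Nat.card (CC H (M i.castSucc) (M i.succ)) := rfl
      have h3 : Nat.card (M i.castSucc) ∣ Nat.card (CC H (M i.castSucc) (M i.succ)) :=
        Subgroup.card_dvd_of_le (le_CC hle)
      have h4 : Nat.card (M i.castSucc) * d i = Nat.card (CC H (M i.castSucc) (M i.succ)) := by
        simp only [hd, h2]
        exact Nat.mul_div_cancel' h3
      have hpos : 0 < Nat.card (M i.castSucc) := Nat.card_pos
      apply Nat.eq_of_mul_eq_mul_left hpos
      calc Nat.card (M i.castSucc) * (a i.castSucc * r i)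
          = (Nat.card (M i.castSucc) * r i) * a i.castSucc := by ring
        _ = Nat.card (M i.succ) * a i.castSucc := by rw [hcardrel]
        _ = a i.succ * Nat.card (CC H (M i.castSucc) (M i.succ)) := h1
        _ = _ := by rw [← h4]; ring
    · simp only [hf, he, if_neg hc]
      obtain ⟨m, hm⟩ := (hfac i).resolve_right hc
      have := sup_eq_of_pow P hle hm
      simp only [ha, this, mul_one]
  have ht := tele a f e hstep
  have h00 : a 0 = Nat.card (XX H (P : Subgroup G)) := by simp [ha, h0]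
  have h11 : a (Fin.last n) = Nat.card G := by
    simp only [ha, hn, sup_top_eq]
    apply Nat.card_congr
    exact (Equiv.subtypeUnivEquiv (fun g h _ => mem_top _))
  have hGr : Nat.card G = ∏ i, r i := by
    have := tele (fun i => Nat.card (M i)) r (fun _ => 1) (fun i => by simpa using hcardrel i)
    simp only [h0, hn, Finset.prod_const_one, mul_one] at this
    rw [Nat.card_eq_fintype_card (α := (⊥ : Subgroup G))] at this
    simp only [Fintype.card_ofSubsingleton, one_mul] at this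
    rw [this]
    exact Nat.card_congr Subgroup.topEquiv.toEquiv.symm
  have hrfg : ∀ i, r i = f i * g i := by
    intro i
    simp only [hf, hg]
    split_ifs <;> simp
  have hGfg : Nat.card G = (∏ i, f i) * ∏ i, g i := by
    rw [hGr, ← Finset.prod_mul_distrib]
    exact Finset.prod_congr rfl (fun i _ => hrfg i)
  have hfcop : (∏ i, f i).Coprime p := by
    apply Nat.Coprime.prod_left
    intro i _
    simp only [hf]
    split_ifs with hc
    · exact hc
    · exact Nat.coprime_one_left _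
  obtain ⟨k, hk⟩ : ∃ k, ∏ i, g i = p ^ k := by
    apply Finset.prod_induction g (fun x => ∃ k, x = p ^ k)
    · rintro _ _ ⟨k, rfl⟩ ⟨l, rfl⟩
      exact ⟨k + l, (pow_add p k l).symm⟩
    · exact ⟨0, (pow_zero p).symm⟩
    · intro i _
      simp only [hg]
      split_ifs with hc
      · exact ⟨0, (pow_zero p).symm⟩
      · obtain ⟨m, hm⟩ := (hfac i).resolve_right hc
        exact ⟨m, hm⟩
  have hPcard : Nat.card (P : Subgroup G) = ∏ i, g i := by
    rw [Sylow.card_eq_multiplicity, hGfg, hk]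
    have hf0 : (∏ i, f i) ≠ 0 := by
      intro h0'
      rw [h0'] at hfcop
      simp only [Nat.coprime_zero_left] at hfcop
      exact hp.one_lt.ne' hfcop
    rw [Nat.factorization_mul hf0 (pow_ne_zero _ hp.ne_zero)]
    have h1 : (∏ i, f i).factorization p = 0 := by
      apply Nat.factorization_eq_zero_of_not_dvd
      intro hd'
      have := Nat.Coprime.eq_one_of_dvd hfcop.symm hd'
      exact hp.one_lt.ne' this
    simp [h1, hp.factorization_self]
  have hfpos : 0 < ∏ i, f i := by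
    apply Nat.pos_of_ne_zero
    intro h0'
    rw [h0'] at hfcop
    simp only [Nat.coprime_zero_left] at hfcop
    exact hp.one_lt.ne' hfcop
  rw [hS, ← h00, hPcard]
  apply Nat.eq_of_mul_eq_mul_right hfpos
  rw [ht, h11, hGfg]
  ring

end Cfsg.Agent.S4090
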