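import Cfsg.Statements.S4091
import Mathlib
import Cfsg.Agent.Lib.Coprime.BrauerWielandt
import Cfsg.Agent.Lib.Coprime.PSolvable
import Cfsg.Agent.Lib.Coprime.InvHall
import Cfsg.Agent.Lib.Coprime.InvSylow

/-!
The number `u` of `p`-elements of a `p`-soluble group: `u ^ p ≥ |P| ^ p * n ^ (p - 1)`.

The logarithmic form `(∏_{y ∈ P} m(y)) ^ p ≤ n ^ |P|`, `m(y)` being the number of Sylow subgroups
containing `y`, is proved along a normal series; over a normal `p'`-subgroup it comes from the
Brauer-Wielandt formula. AM-GM then gives the bound.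
-/

set_option autoImplicit false

open Cfsg

namespace Cfsg.Agent.S4091

open scoped Pointwise

open Cfsg.Agent.Lib.Coprime.BrauerWielandt

/-- Fixed points of an automorphism. -/
def fixOf {K : Type*} [Group K] (f : MulAut K) : Subgroup K where
  carrier := {k | f k = k}
  one_mem' := map_one f
  mul_mem' := fun {a b} ha hb => by
    have ha' : f a = a := ha
    have hb' : f b = b := hb
    show f (a * b) = a * b
    rw [map_mul, ha', hb']
  inv_mem' := fun {a} ha => by
    have ha' : f a = a := ha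
    show f a⁻¹ = a⁻¹
    rw [map_inv, ha']

theorem mem_fixOf {K : Type*} [Group K] {f : MulAut K} {k : K} : k ∈ fixOf f ↔ f k = k := Iff.rfl

/-- The elementary abelian group of order `p²`. -/
abbrev Gam (p : ℕ) := Multiplicative (ZMod p) × Multiplicative (ZMod p)

/-- The action of `Gam p` through a commuting pair of automorphisms of order dividing `p`. -/
noncomputable def rhoPair {K : Type*} [Group K] {p : ℕ} [Fact p.Prime] (σ τ : MulAut K)
    (hc : Commute σ τ) (hσ : σ ^ p = 1) (hτ : τ ^ p = 1) : Gam p →* MulAut K where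
  toFun g := σ ^ (Multiplicative.toAdd g.1).val * τ ^ (Multiplicative.toAdd g.2).val
  map_one' := by
    simp
  map_mul' := by
    intro a b
    have h1 : ∀ x y : Multiplicative (ZMod p), σ ^ (Multiplicative.toAdd (x * y)).val =
        σ ^ (Multiplicative.toAdd x).val * σ ^ (Multiplicative.toAdd y).val := by
      intro x y
      rw [toAdd_mul, ZMod.val_add, ← pow_add, ← pow_eq_pow_mod _ hσ]
    have h2 : ∀ x y : Multiplicative (ZMod p), τ ^ (Multiplicative.toAdd (x * y)).val =
        τ ^ (Multiplicative.toAdd x).val * τ ^ (Multiplicative.toAdd y).val := by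
      intro x y
      rw [toAdd_mul, ZMod.val_add, ← pow_add, ← pow_eq_pow_mod _ hτ]
    simp only [Prod.fst_mul, Prod.snd_mul]
    rw [h1, h2]
    have h3 := (hc.pow_pow (Multiplicative.toAdd b.1).val (Multiplicative.toAdd a.2).val).eq
    calc _ = σ ^ (Multiplicative.toAdd a.1).val * ((σ ^ (Multiplicative.toAdd b.1).val * τ ^ (Multiplicative.toAdd a.2).val) * τ ^ (Multiplicative.toAdd b.2).val) := by
            simp only [mul_assoc]
      _ = _ := by
            rw [h3]; simp only [mul_assoc]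

theorem rhoPair_apply {K : Type*} [Group K] {p : ℕ} [Fact p.Prime] (σ τ : MulAut K)
    (hc : Commute σ τ) (hσ : σ ^ p = 1) (hτ : τ ^ p = 1) (g : Gam p) :
    rhoPair σ τ hc hσ hτ g = σ ^ (Multiplicative.toAdd g.1).val * τ ^ (Multiplicative.toAdd g.2).val := rfl

instance finite_sd {K L : Type*} [Group K] [Group L] [Finite K] [Finite L] (ρ : L →* MulAut K) :
    Finite (K ⋊[ρ] L) := Finite.of_equiv _ (SemidirectProduct.equivProd).symm

/-- The generators of the `p + 1` lines of `Gam p`. -/
def lineGen (p : ℕ) : Option (ZMod p) → Gam p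
  | none => (1, Multiplicative.ofAdd 1)
  | some i => (Multiplicative.ofAdd 1, Multiplicative.ofAdd i)

theorem lineGen_ne_one (p : ℕ) [Fact p.Prime] (o : Option (ZMod p)) : lineGen p o ≠ 1 := by
  cases o with
  | none =>
    intro h
    have := congrArg Prod.snd h
    simp only [lineGen, Prod.snd_one] at this
    exact one_ne_zero (α := ZMod p) (Multiplicative.ofAdd.injective this)
  | some i =>
    intro h
    have := congrArg Prod.fst h
    simp only [lineGen, Prod.fst_one] at this
    exact one_ne_zero (α := ZMod p) (Multiplicative.ofAdd.injective this)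

theorem exists_lineGen_mem (p : ℕ) [Fact p.Prime] (g : Gam p) (hg : g ≠ 1) :
    ∃ o : Option (ZMod p), lineGen p o ∈ Subgroup.zpowers g := by
  obtain ⟨s, t⟩ := g
  have hpow : ∀ (a b : Multiplicative (ZMod p)) (n : ℕ), (a, b) ^ n =
      (Multiplicative.ofAdd ((n : ZMod p) * Multiplicative.toAdd a),
        Multiplicative.ofAdd ((n : ZMod p) * Multiplicative.toAdd b)) := by
    intro a b n
    ext <;> simp [Prod.pow_mk]
  by_cases hs : Multiplicative.toAdd s = 0
  · have ht : Multiplicative.toAdd t ≠ 0 := by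
      intro ht
      apply hg
      ext
      · exact hs
      · exact ht
    refine ⟨none, ?_⟩
    refine ⟨((Multiplicative.toAdd t)⁻¹.val : ℕ), ?_⟩
    simp only [zpow_natCast]
    rw [hpow]
    simp only [ZMod.natCast_val, ZMod.cast_id', id_eq, lineGen, hs, mul_zero]
    rw [inv_mul_cancel₀ ht]
    rfl
  · refine ⟨some (Multiplicative.toAdd t * (Multiplicative.toAdd s)⁻¹), ?_⟩
    refine ⟨((Multiplicative.toAdd s)⁻¹.val : ℕ), ?_⟩
    simp only [zpow_natCast]
    rw [hpow]
    simp only [ZMod.natCast_val, ZMod.cast_id', id_eq, lineGen]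
    rw [inv_mul_cancel₀ hs, mul_comm]

section BW

variable {K : Type*} [Group K] [Finite K] {p : ℕ} [hp : Fact p.Prime]

theorem inr_comm_inl (ρ : Gam p →* MulAut K) (g : Gam p) (k : K) :
    ((SemidirectProduct.inr g : K ⋊[ρ] Gam p) * SemidirectProduct.inl k =
      SemidirectProduct.inl k * SemidirectProduct.inr g) ↔ ρ g k = k := by
  have h : (SemidirectProduct.inl (ρ g k) : K ⋊[ρ] Gam p) =
      SemidirectProduct.inr g * SemidirectProduct.inl k * (SemidirectProduct.inr g)⁻¹ := by
    rw [← map_inv]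
    exact SemidirectProduct.inl_aut (φ := ρ) g k
  constructor
  · intro h1
    apply SemidirectProduct.inl_injective (φ := ρ)
    rw [h, h1, mul_inv_cancel_right]
  · intro h1
    rw [h1] at h
    exact (eq_mul_inv_iff_mul_eq.mp h).symm

theorem card_range_inf (ρ : Gam p →* MulAut K) (D : Subgroup (K ⋊[ρ] Gam p)) :
    Nat.card ↥((SemidirectProduct.inl : K →* K ⋊[ρ] Gam p).range ⊓
        Subgroup.centralizer (D : Set (K ⋊[ρ] Gam p))) =
      Nat.card ↥((Subgroup.centralizer (D : Set (K ⋊[ρ] Gam p))).comap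
        (SemidirectProduct.inl : K →* K ⋊[ρ] Gam p)) := by
  rw [← Subgroup.map_comap_eq]
  exact Subgroup.card_map_of_injective SemidirectProduct.inl_injective

/-- The Brauer-Wielandt formula for a commuting pair of automorphisms of order dividing `p`. -/
theorem bw_pair (hK : ¬ p ∣ Nat.card K)
    (σ τ : MulAut K) (hc : Commute σ τ) (hσ : σ ^ p = 1) (hτ : τ ^ p = 1) :
    Nat.card K * Nat.card ↥(fixOf σ ⊓ fixOf τ) ^ p =
      Nat.card ↥(fixOf τ) * ∏ i : ZMod p, Nat.card ↥(fixOf (σ * τ ^ i.val)) := by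
  classical
  have hpp : p.Prime := hp.out
  set ρ := rhoPair σ τ hc hσ hτ with hρ
  let H := K ⋊[ρ] Gam p
  let inr' : Gam p →* H := SemidirectProduct.inr
  let inl' : K →* H := SemidirectProduct.inl
  have hinr : Function.Injective inr' := SemidirectProduct.inr_injective
  have hinl : Function.Injective inl' := SemidirectProduct.inl_injective
  let E : Subgroup H := inr'.range
  let L : Subgroup H := inl'.range
  haveI : L.Normal := by
    have : L = (SemidirectProduct.rightHom (φ := ρ)).ker := SemidirectProduct.range_inl_eq_ker_rightHom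
    rw [this]
    infer_instance
  have hEcard : Nat.card E = p ^ 2 := by
    rw [show E = (⊤ : Subgroup (Gam p)).map inr' from (MonoidHom.range_eq_map _),
      Subgroup.card_map_of_injective hinr, Subgroup.card_top, Nat.card_prod, Nat.card_eq_fintype_card,
      Fintype.card_multiplicative, ZMod.card, sq]
  have hgexp : ∀ g : Gam p, g ^ p = 1 := by
    intro g
    ext
    · show (Multiplicative.ofAdd (p • Multiplicative.toAdd g.1)) = 1
      simp
    · show (Multiplicative.ofAdd (p • Multiplicative.toAdd g.2)) = 1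
      simp
  have hEexp : ∀ e ∈ E, e ^ p = 1 := by
    rintro _ ⟨g, rfl⟩
    rw [← map_pow, hgexp, map_one]
  have hEcomm : ∀ a ∈ E, ∀ b ∈ E, a * b = b * a := by
    rintro _ ⟨a, rfl⟩ _ ⟨b, rfl⟩
    rw [← map_mul, ← map_mul, mul_comm]
  have hLp : ¬ p ∣ Nat.card L := by
    rw [show L = (⊤ : Subgroup K).map inl' from (MonoidHom.range_eq_map _),
      Subgroup.card_map_of_injective hinl, Subgroup.card_top]
    exact hK
  have hEL : E ≤ Subgroup.normalizer (L : Set H) := by
    rw [Subgroup.normalizer_eq_top]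
    exact le_top
  haveI : Fintype ↥E := Fintype.ofFinite _
  haveI : Fintype (Lines ↥E p) := Fintype.ofFinite _
  have hBW := card_subgroup (E := E) hEcard hEexp hEcomm hEL hLp
  have hLc : Nat.card L = Nat.card K := by
    rw [show L = (⊤ : Subgroup K).map inl' from (MonoidHom.range_eq_map _),
      Subgroup.card_map_of_injective hinl, Subgroup.card_top]
  -- the whole of `E`
  have hEfix : Nat.card ↥(L ⊓ Subgroup.centralizer (E : Set H)) = Nat.card ↥(fixOf σ ⊓ fixOf τ) := by
    rw [card_range_inf ρ E]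
    congr 2
    ext k
    constructor
    · intro hk
      have hk' : inl' k ∈ Subgroup.centralizer (E : Set H) := hk
      rw [Subgroup.mem_centralizer_iff] at hk'
      have h1 := (inr_comm_inl ρ _ k).mp (hk' _ ⟨(Multiplicative.ofAdd 1, 1), rfl⟩)
      have h2 := (inr_comm_inl ρ _ k).mp (hk' _ ⟨(1, Multiplicative.ofAdd 1), rfl⟩)
      haveI : Fact (1 < p) := ⟨hpp.one_lt⟩
      rw [hρ, rhoPair_apply] at h1 h2
      simp only [toAdd_ofAdd, ZMod.val_one, pow_one, toAdd_one, ZMod.val_zero, pow_zero, mul_one, one_mul] at h1 h2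
      exact ⟨h1, h2⟩
    · rintro ⟨h1, h2⟩
      have h1' : σ k = k := h1
      have h2' : τ k = k := h2
      show inl' k ∈ Subgroup.centralizer (E : Set H)
      rw [Subgroup.mem_centralizer_iff]
      rintro _ ⟨g, rfl⟩
      apply (inr_comm_inl ρ g k).mpr
      rw [hρ, rhoPair_apply, MulAut.mul_apply]
      have h3 : ∀ n : ℕ, (τ ^ n) k = k := by
        intro n
        induction n with
        | zero => rfl
        | succ n ih => rw [pow_succ, MulAut.mul_apply, h2', ih]
      have h4 : ∀ n : ℕ, (σ ^ n) k = k := by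
        intro n
        induction n with
        | zero => rfl
        | succ n ih => rw [pow_succ, MulAut.mul_apply, h1', ih]
      rw [h3, h4]
  -- the lines
  let eE : Gam p →* E := inr'.rangeRestrict
  have heE : ∀ g, ((eE g : E) : H) = inr' g := fun _ => rfl
  have hEexp' : ∀ e : E, e ^ p = 1 := fun e => Subtype.ext (hEexp e e.2)
  have hline : ∀ g : Gam p, Nat.card ↥(L ⊓ Subgroup.centralizer
      ((((Subgroup.zpowers (eE g)).map E.subtype : Subgroup H) : Set H))) = Nat.card ↥(fixOf (ρ g)) := by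
    intro g
    rw [card_range_inf ρ ((Subgroup.zpowers (eE g)).map E.subtype), MonoidHom.map_zpowers]
    congr 2
    ext k
    have hsub : E.subtype (eE g) = inr' g := rfl
    rw [hsub]
    constructor
    · intro hk
      have hk' : inl' k ∈ Subgroup.centralizer ((Subgroup.zpowers (inr' g) : Subgroup H) : Set H) := hk
      rw [Subgroup.mem_centralizer_iff] at hk'
      exact (inr_comm_inl ρ g k).mp (hk' _ (Subgroup.mem_zpowers _))
    · intro hk
      have hk' : inr' g * inl' k = inl' k * inr' g := (inr_comm_inl ρ g k).mpr hk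
      show inl' k ∈ Subgroup.centralizer ((Subgroup.zpowers (inr' g) : Subgroup H) : Set H)
      rw [Subgroup.mem_centralizer_iff]
      rintro _ ⟨n, rfl⟩
      exact ((show Commute (inr' g) (inl' k) from hk').zpow_left n).eq
  have hgen1 : ∀ o, eE (lineGen p o) ≠ 1 := by
    intro o h
    apply lineGen_ne_one p o
    apply hinr
    rw [map_one]
    exact congrArg Subtype.val h
  let e : Option (ZMod p) → Lines ↥E p := fun o =>
    ⟨Subgroup.zpowers (eE (lineGen p o)), card_zpowers_of_ne_one hEexp' (hgen1 o)⟩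
  have he : Function.Bijective e := by
    rw [Fintype.bijective_iff_surjective_and_card]
    constructor
    · intro B
      have hB1 : B.1 ≠ ⊥ := by
        intro h
        have := B.2
        rw [h, Subgroup.card_bot] at this
        exact hpp.one_lt.ne this
      obtain ⟨⟨b, hb⟩, hb1⟩ := (Subgroup.ne_bot_iff_exists_ne_one).mp hB1
      obtain ⟨g, rfl⟩ := inr'.rangeRestrict_surjective b
      have hg1 : g ≠ 1 := by
        rintro rfl
        apply hb1
        apply Subtype.ext
        show inr'.rangeRestrict 1 = 1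
        rw [map_one]
      obtain ⟨o, n, ho⟩ := exists_lineGen_mem p g hg1
      refine ⟨o, Subtype.ext ?_⟩
      refine zpowers_eq_of_mem hEexp' B.2 ?_ (hgen1 o)
      have : eE (lineGen p o) = (eE g) ^ n := by
        rw [← map_zpow]
        exact congrArg eE ho.symm
      rw [this]
      exact B.1.zpow_mem hb n
    · rw [card_lines hEcard hEexp', Fintype.card_option, ZMod.card]
  rw [hLc, hEfix] at hBW
  rw [hBW, ← he.prod_comp, Fintype.prod_option]
  haveI : Fact (1 < p) := ⟨hpp.one_lt⟩
  have hr0 : ρ (lineGen p none) = τ := by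
    rw [hρ, rhoPair_apply]
    simp [lineGen, ZMod.val_one]
  have hr1 : ∀ i : ZMod p, ρ (lineGen p (some i)) = σ * τ ^ i.val := by
    intro i
    rw [hρ, rhoPair_apply]
    simp [lineGen, ZMod.val_one]
  congr 1
  · show Nat.card ↥(L ⊓ Subgroup.centralizer
      ((((Subgroup.zpowers (eE (lineGen p none))).map E.subtype : Subgroup H) : Set H))) = _
    rw [hline, hr0]
  · refine Finset.prod_congr rfl fun i _ => ?_
    show Nat.card ↥(L ⊓ Subgroup.centralizer
      ((((Subgroup.zpowers (eE (lineGen p (some i)))).map E.subtype : Subgroup H) : Set H))) = _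
    rw [hline, hr1]

/-- Restriction of an automorphism to an invariant subgroup. -/
def resA (A : Subgroup K) (f : MulAut K) (h : ∀ a ∈ A, f a ∈ A) (h' : ∀ a ∈ A, f⁻¹ a ∈ A) : MulAut A where
  toFun a := ⟨f a, h a a.2⟩
  invFun a := ⟨f⁻¹ a, h' a a.2⟩
  left_inv a := by ext; simp
  right_inv a := by ext; simp
  map_mul' x y := by ext; simp

theorem card_mul_card_le (U V : Subgroup K) :
    Nat.card U * Nat.card V ≤ Nat.card K * Nat.card ↥(U ⊓ V) := by
  have h1 : Nat.card ↥(U ⊓ V) * V.relIndex U = Nat.card U := by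
    rw [← Subgroup.inf_relIndex_left U V]
    exact Cfsg.Agent.Lib.Coprime.InvHall.card_mul_relIndex inf_le_left
  have h2 : V.relIndex U ≤ V.index := by
    have := Subgroup.relIndex_le_of_le_right (H := V) (K := U) (L := ⊤) le_top
      (by rw [Subgroup.relIndex_top_right]; exact Subgroup.index_ne_zero_of_finite)
    rwa [Subgroup.relIndex_top_right] at this
  have h3 : Nat.card V * V.index = Nat.card K := Subgroup.card_mul_index V
  calc Nat.card U * Nat.card V = Nat.card ↥(U ⊓ V) * (V.relIndex U * Nat.card V) := by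
        rw [← h1]; ring
    _ ≤ Nat.card ↥(U ⊓ V) * (V.index * Nat.card V) := by gcongr
    _ = _ := by rw [← h3]; ring

/-- The Wielandt inequality: `σ`, `τ` commuting automorphisms, `τ^p = 1`. -/
theorem wielandt_ineq (hK : ¬ p ∣ Nat.card K) (σ τ : MulAut K) (hc : Commute σ τ) (hτ : τ ^ p = 1) :
    (∏ i : ZMod p, Nat.card ↥(fixOf (σ * τ ^ i.val))) * Nat.card ↥(fixOf τ) ≤
      Nat.card K * Nat.card ↥(fixOf σ ⊓ fixOf τ) ^ p := by
  classical
  set K₁ : Subgroup K := fixOf (σ ^ p) with hK₁
  have hcp : Commute (σ ^ p) σ := (Commute.refl σ).pow_left p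
  have hcp' : Commute (σ ^ p) τ := hc.pow_left p
  have hinv : ∀ f : MulAut K, Commute (σ ^ p) f → ∀ a ∈ K₁, f a ∈ K₁ := by
    intro f hf a ha
    have ha' : (σ ^ p) a = a := ha
    show (σ ^ p) (f a) = f a
    rw [← MulAut.mul_apply, hf.eq, MulAut.mul_apply, ha']
  let σ₁ : MulAut K₁ := resA K₁ σ (hinv _ hcp) (hinv _ hcp.inv_right)
  let τ₁ : MulAut K₁ := resA K₁ τ (hinv _ hcp') (hinv _ hcp'.inv_right)
  have hσ₁ : ∀ a : K₁, ((σ₁ a : K₁) : K) = σ a := fun _ => rfl
  have hτ₁ : ∀ a : K₁, ((τ₁ a : K₁) : K) = τ a := fun _ => rfl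
  have hσpow : ∀ (n : ℕ) (a : K₁), (((σ₁ ^ n) a : K₁) : K) = (σ ^ n) a := by
    intro n a
    induction n with
    | zero => rfl
    | succ n ih => rw [pow_succ', pow_succ', MulAut.mul_apply, MulAut.mul_apply, hσ₁, ih]
  have hτpow : ∀ (n : ℕ) (a : K₁), (((τ₁ ^ n) a : K₁) : K) = (τ ^ n) a := by
    intro n a
    induction n with
    | zero => rfl
    | succ n ih => rw [pow_succ', pow_succ', MulAut.mul_apply, MulAut.mul_apply, hτ₁, ih]
  have hc₁ : Commute σ₁ τ₁ := by
    show σ₁ * τ₁ = τ₁ * σ₁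
    ext a
    show σ (τ a) = τ (σ a)
    rw [← MulAut.mul_apply, hc.eq, MulAut.mul_apply]
  have hσ₁p : σ₁ ^ p = 1 := by
    ext a
    rw [hσpow]
    exact a.2
  have hτ₁p : τ₁ ^ p = 1 := by
    ext a
    rw [hτpow, hτ]
    rfl
  have hK₁p : ¬ p ∣ Nat.card K₁ := fun h => hK (h.trans (Subgroup.card_subgroup_dvd_card K₁))
  have hbw := bw_pair hK₁p σ₁ τ₁ hc₁ hσ₁p hτ₁p
  -- compare the fixed points
  have hcard1 : ∀ i : ZMod p, Nat.card ↥(fixOf (σ₁ * τ₁ ^ i.val)) = Nat.card ↥(fixOf (σ * τ ^ i.val)) := by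
    intro i
    have hm : Nat.card ↥((fixOf (σ₁ * τ₁ ^ i.val)).map K₁.subtype) = Nat.card ↥(fixOf (σ₁ * τ₁ ^ i.val)) :=
      Subgroup.card_map_of_injective K₁.subtype_injective
    rw [← hm]
    congr 2
    ext k
    constructor
    · rintro ⟨a, ha, rfl⟩
      have ha' : (σ₁ * τ₁ ^ i.val) a = a := ha
      have := congrArg (Subtype.val) ha'
      rw [MulAut.mul_apply, hσ₁, hτpow] at this
      exact this
    · intro hk
      have hk' : (σ * τ ^ i.val) k = k := hk
      have hfp : (σ * τ ^ i.val) ^ p = σ ^ p := by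
        rw [(hc.pow_right i.val).mul_pow, ← pow_mul, mul_comm, pow_mul, hτ, one_pow, mul_one]
      have hkK₁ : k ∈ K₁ := by
        show (σ ^ p) k = k
        rw [← hfp]
        have : ∀ n : ℕ, ((σ * τ ^ i.val) ^ n) k = k := by
          intro n
          induction n with
          | zero => rfl
          | succ n ih => rw [pow_succ, MulAut.mul_apply, hk', ih]
        exact this p
      refine ⟨⟨k, hkK₁⟩, ?_, rfl⟩
      apply Subtype.ext
      show (((σ₁ * τ₁ ^ i.val) ⟨k, hkK₁⟩ : K₁) : K) = k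
      rw [MulAut.mul_apply, hσ₁, hτpow]
      exact hk'
  have hcard2 : Nat.card ↥(fixOf σ₁ ⊓ fixOf τ₁) = Nat.card ↥(fixOf σ ⊓ fixOf τ) := by
    have hm : Nat.card ↥((fixOf σ₁ ⊓ fixOf τ₁ : Subgroup ↥K₁).map K₁.subtype) = Nat.card ↥(fixOf σ₁ ⊓ fixOf τ₁ : Subgroup ↥K₁) :=
      Subgroup.card_map_of_injective K₁.subtype_injective
    rw [← hm]
    congr 2
    ext k
    constructor
    · rintro ⟨a, ⟨ha, ha'⟩, rfl⟩
      exact ⟨congrArg Subtype.val ha, congrArg Subtype.val ha'⟩
    · rintro ⟨hk, hk'⟩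
      have h1 : σ k = k := hk
      have hkK₁ : k ∈ K₁ := by
        show (σ ^ p) k = k
        have : ∀ n : ℕ, (σ ^ n) k = k := by
          intro n
          induction n with
          | zero => rfl
          | succ n ih => rw [pow_succ, MulAut.mul_apply, h1, ih]
        exact this p
      exact ⟨⟨k, hkK₁⟩, ⟨Subtype.ext hk, Subtype.ext hk'⟩, rfl⟩
  have hcard3 : Nat.card ↥(fixOf τ₁) = Nat.card ↥((fixOf τ ⊓ K₁ : Subgroup K)) := by
    have hm : Nat.card ↥((fixOf τ₁).map K₁.subtype) = Nat.card ↥(fixOf τ₁) :=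
      Subgroup.card_map_of_injective K₁.subtype_injective
    rw [← hm]
    congr 2
    ext k
    constructor
    · rintro ⟨a, ha, rfl⟩
      exact ⟨congrArg Subtype.val ha, a.2⟩
    · rintro ⟨hk, hk'⟩
      exact ⟨⟨k, hk'⟩, Subtype.ext hk, rfl⟩
  simp_rw [hcard1] at hbw
  rw [hcard2, hcard3] at hbw
  have hle := card_mul_card_le (fixOf τ) K₁
  have hpos : 0 < Nat.card K₁ := Nat.card_pos
  apply Nat.le_of_mul_le_mul_right _ hpos
  calc _ = (∏ i : ZMod p, Nat.card ↥(fixOf (σ * τ ^ i.val))) * (Nat.card ↥(fixOf τ) * Nat.card K₁) := by ring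
    _ ≤ (∏ i : ZMod p, Nat.card ↥(fixOf (σ * τ ^ i.val))) * (Nat.card K * Nat.card ↥((fixOf τ ⊓ K₁ : Subgroup K))) := by gcongr
    _ = Nat.card K * (Nat.card ↥((fixOf τ ⊓ K₁ : Subgroup K)) * ∏ i : ZMod p, Nat.card ↥(fixOf (σ * τ ^ i.val))) := by ring
    _ = _ := by rw [← hbw]; ring

end BW

section Ambient

variable {G : Type*} [Group G] [Finite G] {p : ℕ} [hp : Fact p.Prime]

/-- Conjugation action. -/
noncomputable def act {P K : Subgroup G} (h : P ≤ Subgroup.normalizer (K : Set G)) : ↥P →* MulAut ↥K :=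
  (Subgroup.normalizerMonoidHom K).comp (Subgroup.inclusion h)

theorem act_coe {P K : Subgroup G} (h : P ≤ Subgroup.normalizer (K : Set G)) (y : ↥P) (k : ↥K) :
    ((act h y k : ↥K) : G) = (y : G) * k * (y : G)⁻¹ := rfl

theorem mem_fixOf_act {P K : Subgroup G} (h : P ≤ Subgroup.normalizer (K : Set G)) (y : ↥P) (k : ↥K) :
    k ∈ fixOf (act h y) ↔ (k : G) ∈ Subgroup.centralizer ({(y : G)} : Set G) := by
  rw [mem_fixOf, Subgroup.mem_centralizer_singleton_iff]
  constructor
  · intro hk
    have := congrArg Subtype.val hk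
    rw [act_coe, mul_inv_eq_iff_eq_mul] at this
    exact this.symm
  · intro hk
    apply Subtype.ext
    rw [act_coe, ← hk, mul_inv_cancel_right]

theorem card_fixOf_act {P K : Subgroup G} (h : P ≤ Subgroup.normalizer (K : Set G)) (y : ↥P) :
    Nat.card ↥(fixOf (act h y)) = Nat.card ↥(K ⊓ Subgroup.centralizer ({(y : G)} : Set G)) := by
  have hm : Nat.card ↥((fixOf (act h y)).map K.subtype) = Nat.card ↥(fixOf (act h y)) :=
    Subgroup.card_map_of_injective K.subtype_injective
  rw [← hm]
  congr 2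
  ext k
  constructor
  · rintro ⟨a, ha, rfl⟩
    exact ⟨a.2, (mem_fixOf_act h y a).mp ha⟩
  · rintro ⟨hk, hk'⟩
    exact ⟨⟨k, hk⟩, (mem_fixOf_act h y ⟨k, hk⟩).mpr hk', rfl⟩

theorem card_fixOf_act_inf {P K : Subgroup G} (h : P ≤ Subgroup.normalizer (K : Set G)) (y z : ↥P) :
    Nat.card ↥(fixOf (act h y) ⊓ fixOf (act h z)) =
      Nat.card ↥((K ⊓ Subgroup.centralizer ({(z : G)} : Set G)) ⊓ Subgroup.centralizer ({(y : G)} : Set G)) := by
  have hm : Nat.card ↥((fixOf (act h y) ⊓ fixOf (act h z) : Subgroup ↥K).map K.subtype) =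
      Nat.card ↥(fixOf (act h y) ⊓ fixOf (act h z) : Subgroup ↥K) :=
    Subgroup.card_map_of_injective K.subtype_injective
  rw [← hm]
  congr 2
  ext k
  constructor
  · rintro ⟨a, ⟨ha, ha'⟩, rfl⟩
    exact ⟨⟨a.2, (mem_fixOf_act h z a).mp ha'⟩, (mem_fixOf_act h y a).mp ha⟩
  · rintro ⟨⟨hk, hk'⟩, hk''⟩
    exact ⟨⟨k, hk⟩, ⟨(mem_fixOf_act h y ⟨k, hk⟩).mpr hk'', (mem_fixOf_act h z ⟨k, hk⟩).mpr hk'⟩, rfl⟩

theorem exists_central_image {A B : Type*} [Group A] [Finite A] [Group B] (hA : IsPGroup p A)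
    (φ : A →* B) (hφ : φ ≠ 1) :
    ∃ z : A, φ z ≠ 1 ∧ (φ z) ^ p = 1 ∧ ∀ y : A, Commute (φ y) (φ z) := by
  have hpp : p.Prime := hp.out
  have hR : IsPGroup p φ.range := hA.of_surjective φ.rangeRestrict φ.rangeRestrict_surjective
  haveI : Finite φ.range := Finite.of_surjective φ.rangeRestrict φ.rangeRestrict_surjective
  haveI : Nontrivial φ.range := by
    rw [Subgroup.nontrivial_iff_ne_bot]
    intro h0
    exact hφ (MonoidHom.range_eq_bot_iff.mp h0)
  haveI := hR.center_nontrivial
  have hZ : IsPGroup p (Subgroup.center φ.range) := hR.to_subgroup _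
  obtain ⟨k, hk⟩ := IsPGroup.iff_card.mp hZ
  have hk0 : k ≠ 0 := by
    rintro rfl
    have h1 := Finite.one_lt_card (α := Subgroup.center φ.range)
    rw [hk] at h1
    simp at h1
  have hdvd : p ∣ Nat.card (Subgroup.center φ.range) := by
    rw [hk]
    exact dvd_pow_self p hk0
  obtain ⟨c, hc⟩ := exists_prime_orderOf_dvd_card' p hdvd
  obtain ⟨z, hz⟩ := (c : φ.range).2
  have hz' : φ z = ((c : φ.range) : B) := hz
  refine ⟨z, ?_, ?_, ?_⟩
  · rw [hz']
    intro h1
    have : c = 1 := Subtype.ext (Subtype.ext h1)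
    rw [this, orderOf_one] at hc
    exact hpp.one_lt.ne hc
  · rw [hz']
    have h1 : c ^ p = 1 := by rw [← hc]; exact pow_orderOf_eq_one c
    have h2 := congrArg (fun t : Subgroup.center φ.range => (((t : Subgroup.center φ.range) : φ.range) : B)) h1
    simpa using h2
  · intro y
    have h1 := (Subgroup.mem_center_iff.mp c.2) ⟨φ y, y, rfl⟩
    have h2 := congrArg Subtype.val h1
    rw [hz']
    exact h2

/-- **Key coprime inequality.** -/
theorem coprime_prod {P : Subgroup G} (hP : IsPGroup p P) (K : Subgroup G)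
    (h : P ≤ Subgroup.normalizer (K : Set G)) (hK : ¬ p ∣ Nat.card K) [Fintype ↥P] :
    (∏ y : ↥P, Nat.card ↥(K ⊓ Subgroup.centralizer ({(y : G)} : Set G))) ^ p ≤
      Nat.card K ^ Nat.card P *
        Nat.card ↥(K ⊓ Subgroup.centralizer (P : Set G)) ^ ((p - 1) * Nat.card P) := by
  classical
  have hpp : p.Prime := hp.out
  induction hn : Nat.card K using Nat.strong_induction_on generalizing K with
  | _ n ih =>
    subst hn
    by_cases htriv : act h = 1
    · -- `P` centralizes `K`
      have h1 : ∀ y : ↥P, K ⊓ Subgroup.centralizer ({(y : G)} : Set G) = K := by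
        intro y
        apply inf_eq_left.mpr
        intro k hk
        have := (mem_fixOf_act h y ⟨k, hk⟩).mp (by rw [htriv]; rfl)
        exact this
      have h2 : K ⊓ Subgroup.centralizer (P : Set G) = K := by
        apply inf_eq_left.mpr
        intro k hk
        rw [Subgroup.mem_centralizer_iff]
        intro y hy
        have := h1 ⟨y, hy⟩
        have h3 : k ∈ K ⊓ Subgroup.centralizer ({y} : Set G) := by
          rw [this]; exact hk
        exact (Subgroup.mem_centralizer_singleton_iff.mp h3.2).symm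
      simp_rw [h1]
      rw [h2, Finset.prod_const, Finset.card_univ, ← Nat.card_eq_fintype_card, ← pow_mul, ← pow_add]
      apply le_of_eq
      congr 1
      have := hpp.one_lt
      obtain ⟨q, rfl⟩ : ∃ q, p = q + 1 := ⟨p - 1, by omega⟩
      simp only [Nat.add_sub_cancel]
      ring
    · obtain ⟨z, hz1, hzp, hzc⟩ := exists_central_image hP (act h) htriv
      set K₁ : Subgroup G := K ⊓ Subgroup.centralizer ({(z : G)} : Set G) with hK₁
      have hK₁le : K₁ ≤ K := inf_le_left
      have hK₁mem : ∀ k : ↥K, (k : G) ∈ K₁ ↔ k ∈ fixOf (act h z) := by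
        intro k
        rw [mem_fixOf_act]
        exact ⟨fun hk => hk.2, fun hk => ⟨k.2, hk⟩⟩
      have hnorm : P ≤ Subgroup.normalizer (K₁ : Set G) := by
        apply Cfsg.Agent.Lib.Coprime.InvSylow.le_normalizer_of_forall_conj_mem
        intro y hy k hk
        have hk' : (⟨k, hk.1⟩ : ↥K) ∈ fixOf (act h z) := (hK₁mem ⟨k, hk.1⟩).mp hk
        have h2 : act h ⟨y, hy⟩ ⟨k, hk.1⟩ ∈ fixOf (act h z) := by
          rw [mem_fixOf, ← MulAut.mul_apply, ((hzc ⟨y, hy⟩).symm).eq, MulAut.mul_apply, mem_fixOf.mp hk']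
        exact (hK₁mem _).mpr h2
      have hK₁lt : Nat.card K₁ < Nat.card K := by
        by_contra h'
        have heq := Subgroup.eq_of_le_of_card_ge hK₁le (not_lt.mp h')
        apply hz1
        ext k
        have : (k : G) ∈ K₁ := by rw [heq]; exact k.2
        have h3 := mem_fixOf.mp ((hK₁mem k).mp this)
        rw [h3]
        rfl
      have hK₁p : ¬ p ∣ Nat.card K₁ := fun h' => hK (h'.trans (Subgroup.card_dvd_of_le hK₁le))
      have hih := ih _ hK₁lt K₁ hnorm hK₁p rfl
      have hD : K₁ ⊓ Subgroup.centralizer (P : Set G) = K ⊓ Subgroup.centralizer (P : Set G) := by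
        apply le_antisymm
        · exact inf_le_inf_right _ hK₁le
        · rintro k ⟨hk, hk'⟩
          refine ⟨⟨hk, ?_⟩, hk'⟩
          show k ∈ Subgroup.centralizer ({(z : G)} : Set G)
          rw [Subgroup.mem_centralizer_singleton_iff]
          exact ((Subgroup.mem_centralizer_iff.mp hk') z z.2).symm
      rw [hD] at hih
      -- the Wielandt inequality, elementwise
      have hW : ∀ y : ↥P, (∏ i : ZMod p, Nat.card ↥(K ⊓ Subgroup.centralizer ({((y * z ^ i.val : ↥P) : G)} : Set G))) *
          Nat.card K₁ ≤ Nat.card K * Nat.card ↥(K₁ ⊓ Subgroup.centralizer ({(y : G)} : Set G)) ^ p := by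
        intro y
        have := wielandt_ineq hK (act h y) (act h z) (hzc y) hzp
        rw [card_fixOf_act_inf, card_fixOf_act] at this
        convert this using 3 with i
        rw [← map_pow, ← map_mul, card_fixOf_act]
      have hprod := Finset.prod_le_prod' (s := Finset.univ) (fun y _ => hW y)
      have hre : ∀ i : ZMod p, (∏ y : ↥P, Nat.card ↥(K ⊓ Subgroup.centralizer ({((y * z ^ i.val : ↥P) : G)} : Set G))) =
          ∏ y : ↥P, Nat.card ↥(K ⊓ Subgroup.centralizer ({(y : G)} : Set G)) := fun i =>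
        Equiv.prod_comp (Equiv.mulRight (z ^ i.val))
          (fun y : ↥P => Nat.card ↥(K ⊓ Subgroup.centralizer ({(y : G)} : Set G)))
      rw [Finset.prod_mul_distrib, Finset.prod_mul_distrib, Finset.prod_comm] at hprod
      simp_rw [hre] at hprod
      rw [Finset.prod_const, Finset.prod_const, Finset.prod_const, Finset.card_univ, Finset.card_univ, ZMod.card,
        Finset.prod_pow, ← Nat.card_eq_fintype_card (α := ↥P)] at hprod
      have hpos : 0 < Nat.card K₁ ^ Nat.card P := pow_pos Nat.card_pos _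
      apply Nat.le_of_mul_le_mul_right _ hpos
      calc _ ≤ _ := hprod
        _ ≤ Nat.card K ^ Nat.card P * (Nat.card K₁ ^ Nat.card P *
              Nat.card ↥(K ⊓ Subgroup.centralizer (P : Set G)) ^ ((p - 1) * Nat.card P)) := by gcongr
        _ = _ := by ring

end Ambient


section Sylow

variable {G : Type*} [Group G] [Finite G] {p : ℕ} [hp : Fact p.Prime]

theorem mem_smul_sylow (g x : G) (R : Sylow p G) : x ∈ g • R ↔ g⁻¹ * x * g ∈ R := by
  rw [Sylow.smul_def]
  change x ∈ ((MulAut.conj g • (R : Subgroup G) : Subgroup G)) ↔ _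
  rw [Subgroup.mem_pointwise_smul_iff_inv_smul_mem]
  simp [MulAut.smul_def]
  exact Iff.rfl

/-- The number of Sylow subgroups containing an element. -/
noncomputable def mm (p : ℕ) [Fact p.Prime] {G : Type*} [Group G] (y : G) : ℕ :=
  Nat.card {R : Sylow p G // y ∈ R}

theorem mm_one {G : Type*} [Group G] : mm p (1 : G) = Nat.card (Sylow p G) :=
  Nat.card_congr (Equiv.subtypeUnivEquiv fun R => R.one_mem)

section Quot

variable (K : Subgroup G) [K.Normal]

/-- Sylow subgroups in the quotient. -/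
noncomputable abbrev barS (R : Sylow p G) : Sylow p (G ⧸ K) :=
  R.mapSurjective (QuotientGroup.mk'_surjective K)

theorem mem_sup_of_mem_bar (R : Sylow p G) (y : G)
    (h : (QuotientGroup.mk' K y) ∈ barS K R) : y ∈ K ⊔ (R : Subgroup G) := by
  obtain ⟨r, hr, hry⟩ : (QuotientGroup.mk' K y) ∈ (R : Subgroup G).map (QuotientGroup.mk' K) := h
  have h1 : r⁻¹ * y ∈ K := QuotientGroup.eq.mp hry
  have h2 : y = r * (r⁻¹ * y) := by group
  rw [h2]
  exact Subgroup.mul_mem _ (Subgroup.mem_sup_right hr) (Subgroup.mem_sup_left h1)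

theorem bar_smul_of_mem (n : G) (hn : n ∈ K) (R : Sylow p G) : barS K (n • R) = barS K R := by
  apply Sylow.ext
  rw [Sylow.coe_mapSurjective, Sylow.coe_mapSurjective]
  ext x
  constructor
  · rintro ⟨a, ha, rfl⟩
    refine ⟨n⁻¹ * a * n, (mem_smul_sylow n a R).mp ha, ?_⟩
    apply QuotientGroup.eq.mpr
    have : (n⁻¹ * a * n)⁻¹ * a = n⁻¹ * (a⁻¹ * n * a) := by group
    rw [this]
    exact K.mul_mem (K.inv_mem hn) (Subgroup.Normal.conj_mem' inferInstance _ hn _)
  · rintro ⟨a, ha, rfl⟩
    refine ⟨n * a * n⁻¹, (mem_smul_sylow n _ R).mpr (by simpa [mul_assoc] using ha), ?_⟩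
    apply QuotientGroup.eq.mpr
    have : (n * a * n⁻¹)⁻¹ * a = n * (a⁻¹ * n⁻¹ * a) := by group
    rw [this]
    exact K.mul_mem hn (Subgroup.Normal.conj_mem' inferInstance _ (K.inv_mem hn) _)

end Quot

section PGroup

variable (K : Subgroup G) [K.Normal]

/-- The case of a normal `p`-subgroup. -/
theorem mm_eq_of_pgroup (hK : IsPGroup p K) (y : G) :
    mm p y = mm p (QuotientGroup.mk' K y) := by
  classical
  have hle : ∀ R : Sylow p G, K ≤ R := fun R => hK.le_sylow_of_normal R
  have hker : (QuotientGroup.mk' K).ker = K := QuotientGroup.ker_mk' K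
  have hcomap : ∀ R : Sylow p G, ((barS K R : Subgroup (G ⧸ K))).comap (QuotientGroup.mk' K) = R := by
    intro R
    rw [Sylow.coe_mapSurjective, Subgroup.comap_map_eq_self]
    rw [hker]
    exact hle R
  unfold mm
  apply Nat.card_eq_of_bijective (fun R : {R : Sylow p G // y ∈ R} =>
    (⟨barS K R.1, by
      exact Subgroup.mem_map_of_mem (QuotientGroup.mk' K) R.2⟩ : {R : Sylow p (G ⧸ K) // (QuotientGroup.mk' K y) ∈ R}))
  constructor
  · intro R R' h
    have h1 : barS K R.1 = barS K R'.1 := congrArg Subtype.val h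
    apply Subtype.ext
    apply Sylow.ext
    rw [← hcomap R.1, ← hcomap R'.1, h1]
  · rintro ⟨Rb, hRb⟩
    obtain ⟨R, rfl⟩ := Sylow.mapSurjective_surjective (QuotientGroup.mk'_surjective K) p Rb
    refine ⟨⟨R, ?_⟩, rfl⟩
    have h3 : y ∈ ((barS K R : Subgroup (G ⧸ K))).comap (QuotientGroup.mk' K) := hRb
    rw [hcomap R] at h3
    exact h3

end PGroup

section Coprime

variable (K : Subgroup G) [K.Normal]

open Cfsg.Agent.Lib.Coprime.Coset

theorem coprime_sylow (hK : ¬ p ∣ Nat.card K) (R : Sylow p G) :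
    (Nat.card (R : Subgroup G)).Coprime (Nat.card K) := by
  have hpp : p.Prime := hp.out
  obtain ⟨a, ha⟩ := IsPGroup.iff_card.mp R.isPGroup'
  rw [ha]
  exact Nat.Coprime.pow_left a ((Nat.Prime.coprime_iff_not_dvd hpp).mpr hK)

theorem solv_sylow (R : Sylow p G) : Group.IsSolvable (R : Subgroup G) := by
  have := R.isPGroup'.isNilpotent
  infer_instance

theorem le_norm_normal (R : Subgroup G) : R ≤ Subgroup.normalizer (K : Set G) := by
  rw [Subgroup.normalizer_eq_top]
  exact le_top

theorem coe_smul_sylow (n : G) (R : Sylow p G) :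
    ((n • R : Sylow p G) : Subgroup G) = (R : Subgroup G).map (MulAut.conj n).toMonoidHom := by
  rw [Sylow.coe_subgroup_smul]
  rfl

/-- A `p`-element of `K R₁` lies in a `K`-conjugate of `R₁`. -/
theorem exists_conj_mem (hK : ¬ p ∣ Nat.card K) (R₁ : Sylow p G) (y : G)
    (hyp : IsPGroup p (Subgroup.zpowers y)) (hy : y ∈ K ⊔ (R₁ : Subgroup G)) :
    ∃ n ∈ K, y ∈ n • R₁ := by
  classical
  set M : Subgroup G := K ⊔ (R₁ : Subgroup G) with hM
  have hR₁M : (R₁ : Subgroup G) ≤ M := le_sup_right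
  have hQ : IsPGroup p ((Subgroup.zpowers y).comap M.subtype) := hyp.comap_subtype
  obtain ⟨Q', hQ'⟩ := hQ.exists_le_sylow
  have hyQ' : (⟨y, hy⟩ : ↥M) ∈ Q' := hQ' (Subgroup.mem_zpowers y)
  set T : Subgroup G := (Q' : Subgroup ↥M).map M.subtype with hT
  have hTcard : Nat.card T = Nat.card (R₁ : Subgroup G) := by
    have h1 : Nat.card T = Nat.card (Q' : Subgroup ↥M) := Subgroup.card_map_of_injective M.subtype_injective
    have h2 : Nat.card (Q' : Subgroup ↥M) = Nat.card ((R₁.subtype hR₁M : Sylow p ↥M) : Subgroup ↥M) := by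
      rw [Sylow.card_eq_multiplicity, Sylow.card_eq_multiplicity]
    have h3 : Nat.card ((R₁.subtype hR₁M : Sylow p ↥M) : Subgroup ↥M) = Nat.card (R₁ : Subgroup G) := by
      rw [Sylow.coe_subtype]
      exact Nat.card_congr (Subgroup.subgroupOfEquivOfLe hR₁M).toEquiv
    rw [h1, h2, h3]
  obtain ⟨n, hn, hnT⟩ := exists_conj_eq_of_card_eq (A := (R₁ : Subgroup G)) (N := K) (A' := T)
    (le_norm_normal K _) (coprime_sylow K hK R₁) (Or.inl (solv_sylow R₁)) (Subgroup.map_subtype_le _) hTcard
  refine ⟨n, hn, ?_⟩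
  have : y ∈ ((n • R₁ : Sylow p G) : Subgroup G) := by
    rw [coe_smul_sylow, hnT]
    exact ⟨⟨y, hy⟩, hyQ', rfl⟩
  exact this

theorem card_inf_centralizer_smul (g : G) (R : Sylow p G) :
    Nat.card ↥(K ⊓ Subgroup.centralizer (((g • R : Sylow p G) : Subgroup G) : Set G)) =
      Nat.card ↥(K ⊓ Subgroup.centralizer ((R : Subgroup G) : Set G)) := by
  have hm : Nat.card ↥((K ⊓ Subgroup.centralizer ((R : Subgroup G) : Set G)).map (MulAut.conj g).toMonoidHom) =
      Nat.card ↥(K ⊓ Subgroup.centralizer ((R : Subgroup G) : Set G)) :=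
    Subgroup.card_map_of_injective (MulAut.conj g).injective
  rw [← hm]
  congr 2
  ext x
  constructor
  · rintro ⟨hxK, hxC⟩
    refine ⟨g⁻¹ * x * g, ⟨?_, ?_⟩, ?_⟩
    · have := Subgroup.Normal.conj_mem' inferInstance x hxK g
      exact this
    · show g⁻¹ * x * g ∈ Subgroup.centralizer ((R : Subgroup G) : Set G)
      rw [Subgroup.mem_centralizer_iff]
      intro r hr
      have h1 : g * r * g⁻¹ ∈ (g • R : Sylow p G) := by
        rw [mem_smul_sylow]
        simpa [mul_assoc] using hr
      have h2 := (Subgroup.mem_centralizer_iff.mp hxC) _ h1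
      calc r * (g⁻¹ * x * g) = g⁻¹ * ((g * r * g⁻¹) * x) * g := by group
        _ = g⁻¹ * (x * (g * r * g⁻¹)) * g := by rw [h2]
        _ = _ := by group
    · simp [MulAut.conj_apply, mul_assoc]
  · rintro ⟨a, ⟨ha, haC⟩, rfl⟩
    refine ⟨Subgroup.Normal.conj_mem inferInstance a ha g, ?_⟩
    show g * a * g⁻¹ ∈ Subgroup.centralizer _
    rw [Subgroup.mem_centralizer_iff]
    intro r hr
    have h1 : g⁻¹ * r * g ∈ (R : Subgroup G) := (mem_smul_sylow g r R).mp hr
    have h2 := (Subgroup.mem_centralizer_iff.mp haC) _ h1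
    calc r * (g * a * g⁻¹) = g * ((g⁻¹ * r * g) * a) * g⁻¹ := by group
      _ = g * (a * (g⁻¹ * r * g)) * g⁻¹ := by rw [h2]
      _ = _ := by group

/-- The fibres of the map from the Sylow subgroups containing `y`. -/
theorem fiber_card (hK : ¬ p ∣ Nat.card K) (P : Sylow p G) (y : G) (hyP : y ∈ P)
    (Rb : Sylow p (G ⧸ K)) (hRb : QuotientGroup.mk' K y ∈ Rb) :
    Nat.card {R : Sylow p G // y ∈ R ∧ barS K R = Rb} *
      Nat.card ↥(K ⊓ Subgroup.centralizer ((P : Subgroup G) : Set G)) =
      Nat.card ↥(K ⊓ Subgroup.centralizer ({y} : Set G)) := by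
  classical
  have hyp : IsPGroup p (Subgroup.zpowers y) :=
    P.isPGroup'.to_le (Subgroup.zpowers_le.mpr hyP)
  obtain ⟨R₁, rfl⟩ := Sylow.mapSurjective_surjective (QuotientGroup.mk'_surjective K) p Rb
  obtain ⟨n, hn, hyn⟩ := exists_conj_mem K hK R₁ y hyp (mem_sup_of_mem_bar K R₁ y hRb)
  set R₀ : Sylow p G := n • R₁ with hR₀
  have hbar : barS K R₀ = barS K R₁ := bar_smul_of_mem K n hn R₁
  change Nat.card {R : Sylow p G // y ∈ R ∧ barS K R = barS K R₁} * _ = _
  rw [← hbar]
  have hdisj : ∀ x ∈ K, x ∈ (R₀ : Subgroup G) → x = 1 := by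
    intro x hx hx'
    have := Cfsg.Agent.Lib.Coprime.Coset.inf_eq_bot_of_coprime (coprime_sylow K hK R₀)
    have h1 : x ∈ (R₀ : Subgroup G) ⊓ K := ⟨hx', hx⟩
    rw [this] at h1
    exact h1
  set A : Subgroup G := K ⊓ Subgroup.centralizer ({y} : Set G) with hA
  have hO : ∀ R : Sylow p G, R ∈ MulAction.orbit ↥A R₀ ↔ (y ∈ R ∧ barS K R = barS K R₀) := by
    intro R
    constructor
    · rintro ⟨a, rfl⟩
      have hay : (a : G) * y = y * a := (Subgroup.mem_centralizer_singleton_iff.mp a.2.2)
      constructor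
      · show y ∈ (a : G) • R₀
        rw [mem_smul_sylow]
        have : (a : G)⁻¹ * y * a = y := by
          rw [mul_assoc, ← hay]
          group
        rw [this]
        exact hyn
      · exact bar_smul_of_mem K a a.2.1 R₀
    · rintro ⟨hyR, hRbar⟩
      have hle : (R : Subgroup G) ≤ K ⊔ (R₀ : Subgroup G) := by
        intro x hx
        apply mem_sup_of_mem_bar K R₀ x
        rw [← hRbar]
        exact Subgroup.mem_map_of_mem (QuotientGroup.mk' K) hx
      have hcard : Nat.card (R : Subgroup G) = Nat.card (R₀ : Subgroup G) := by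
        rw [Sylow.card_eq_multiplicity, Sylow.card_eq_multiplicity]
      obtain ⟨k, hk, hkR⟩ := exists_conj_eq_of_card_eq (A := (R₀ : Subgroup G)) (N := K) (A' := (R : Subgroup G))
        (le_norm_normal K _) (coprime_sylow K hK R₀) (Or.inl (solv_sylow R₀)) hle hcard
      have hkR' : k • R₀ = R := by
        apply Sylow.ext
        rw [coe_smul_sylow, hkR]
      have h1 : k⁻¹ * y * k ∈ R₀ := by
        rw [← mem_smul_sylow, hkR']
        exact hyR
      have h2 : (k⁻¹ * y * k) * y⁻¹ = 1 := by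
        apply hdisj
        · have h3 : k⁻¹ * y * k * y⁻¹ = k⁻¹ * (y * k * y⁻¹) := by group
          rw [h3]
          exact K.mul_mem (K.inv_mem hk) (Subgroup.Normal.conj_mem inferInstance k hk y)
        · exact Subgroup.mul_mem _ h1 (Subgroup.inv_mem _ hyn)
      have h3 : k⁻¹ * y * k = y := by
        rwa [mul_inv_eq_one] at h2
      refine ⟨⟨k, hk, ?_⟩, hkR'⟩
      show k ∈ Subgroup.centralizer ({y} : Set G)
      rw [Subgroup.mem_centralizer_singleton_iff]
      calc k * y = k * (k⁻¹ * y * k) := by rw [h3]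
        _ = y * k := by group
  have hOcard : Nat.card ↥(MulAction.orbit ↥A R₀) = Nat.card {R : Sylow p G // y ∈ R ∧ barS K R = barS K R₀} :=
    Nat.card_congr (Equiv.subtypeEquivRight hO)
  have hstab : Nat.card ↥(MulAction.stabilizer ↥A R₀) =
      Nat.card ↥(K ⊓ Subgroup.centralizer ((P : Subgroup G) : Set G)) := by
    obtain ⟨g, hg⟩ := MulAction.exists_smul_eq G P R₀
    rw [← card_inf_centralizer_smul K g P, hg]
    have hm : Nat.card ↥((MulAction.stabilizer ↥A R₀).map A.subtype) = Nat.card ↥(MulAction.stabilizer ↥A R₀) :=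
      Subgroup.card_map_of_injective A.subtype_injective
    rw [← hm]
    congr 2
    ext x
    constructor
    · rintro ⟨a, ha, rfl⟩
      have ha' : (a : G) • R₀ = R₀ := ha
      have hnorm := Sylow.smul_eq_iff_mem_normalizer.mp ha'
      refine ⟨a.2.1, ?_⟩
      show (a : G) ∈ Subgroup.centralizer _
      rw [Subgroup.mem_centralizer_iff]
      intro r hr
      have hr' : r ∈ (R₀ : Subgroup G) := hr
      have h1 : (a : G) * r * (a : G)⁻¹ * r⁻¹ = 1 := by
        apply hdisj
        · have h3 : (a : G) * r * (a : G)⁻¹ * r⁻¹ = (a : G) * (r * (a : G)⁻¹ * r⁻¹) := by group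
          rw [h3]
          exact K.mul_mem a.2.1 (Subgroup.Normal.conj_mem inferInstance _ (K.inv_mem a.2.1) r)
        · exact Subgroup.mul_mem _ ((Subgroup.mem_normalizer_iff.mp hnorm r).mp hr') (Subgroup.inv_mem _ hr')
      have h2 : (a : G) * r * (a : G)⁻¹ = r := by rwa [mul_inv_eq_one] at h1
      calc r * (a : G) = ((a : G) * r * (a : G)⁻¹) * a := by rw [h2]
        _ = _ := by group
    · rintro ⟨hxK, hxC⟩
      have hxC' := Subgroup.mem_centralizer_iff.mp hxC
      have hxy : x ∈ A := by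
        refine ⟨hxK, ?_⟩
        show x ∈ Subgroup.centralizer ({y} : Set G)
        rw [Subgroup.mem_centralizer_singleton_iff]
        exact (hxC' y hyn).symm
      refine ⟨⟨x, hxy⟩, ?_, rfl⟩
      show x • R₀ = R₀
      rw [Sylow.smul_eq_iff_mem_normalizer]
      show x ∈ Subgroup.normalizer (((R₀ : Subgroup G)) : Set G)
      rw [Subgroup.mem_normalizer_iff]
      intro r
      constructor
      · intro hr
        have h3 : x * r * x⁻¹ = r := by rw [← hxC' r hr, mul_inv_cancel_right]
        rw [h3]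
        exact hr
      · intro hr
        have h1 := hxC' _ hr
        have h2 : r = x⁻¹ * (x * r * x⁻¹) * x := by group
        rw [h2, mul_assoc, h1]
        simpa using hr
  rw [← hOcard, ← hstab, Nat.card_congr (MulAction.orbitEquivQuotientStabilizer ↥A R₀)]
  exact (Subgroup.card_eq_card_quotient_mul_card_subgroup _).symm

/-- Multiplicativity of the count across a normal `p'`-subgroup. -/
theorem mm_mul (hK : ¬ p ∣ Nat.card K) (P : Sylow p G) (y : G) (hyP : y ∈ P) :
    mm p y * Nat.card ↥(K ⊓ Subgroup.centralizer ((P : Subgroup G) : Set G)) =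
      mm p (QuotientGroup.mk' K y) * Nat.card ↥(K ⊓ Subgroup.centralizer ({y} : Set G)) := by
  classical
  let e : {R : Sylow p G // y ∈ R} ≃
      Σ Rb : {Rb : Sylow p (G ⧸ K) // QuotientGroup.mk' K y ∈ Rb},
        {R : Sylow p G // y ∈ R ∧ barS K R = Rb.1} :=
    { toFun := fun R => ⟨⟨barS K R.1, Subgroup.mem_map_of_mem (QuotientGroup.mk' K) R.2⟩, ⟨R.1, R.2, rfl⟩⟩
      invFun := fun x => ⟨x.2.1, x.2.2.1⟩
      left_inv := fun R => rfl
      right_inv := by
        rintro ⟨⟨Rb, h⟩, ⟨R, hy, hR⟩⟩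
        obtain rfl : barS K R = Rb := hR
        rfl }
  haveI : Fintype {Rb : Sylow p (G ⧸ K) // QuotientGroup.mk' K y ∈ Rb} := Fintype.ofFinite _
  unfold mm
  rw [Nat.card_congr e, Nat.card_sigma, Finset.sum_mul]
  rw [Finset.sum_congr rfl (fun Rb _ => fiber_card K hK P y hyP Rb.1 Rb.2)]
  rw [Finset.sum_const, Finset.card_univ, smul_eq_mul, ← Nat.card_eq_fintype_card]

end Coprime

theorem prod_comp_surj {A B : Type*} [Group A] [Group B] [Fintype A] [Fintype B] (f : A →* B)
    (hf : Function.Surjective f) (F : B → ℕ) :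
    (∏ a : A, F (f a)) = (∏ b : B, F b) ^ Nat.card f.ker := by
  classical
  have h1 : ∀ b : B, (Finset.univ.filter (fun a : A => f a = b)).card = Nat.card f.ker := by
    intro b
    obtain ⟨a, rfl⟩ := hf b
    have h2 := MonoidHom.card_fiber_eq_of_mem_range f (Set.mem_range_self a) (Set.mem_range_self (1 : A))
    have h3 : Nat.card f.ker = (Finset.univ.filter (fun a : A => f a = 1)).card := by
      rw [← Fintype.card_subtype, ← Nat.card_eq_fintype_card]
      exact Nat.card_congr (Equiv.subtypeEquivRight fun a => MonoidHom.mem_ker)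
    rw [h2, h3, map_one]
  rw [← Finset.prod_fiberwise Finset.univ f (fun a => F (f a))]
  rw [← Finset.prod_pow]
  refine Finset.prod_congr rfl fun b _ => ?_
  rw [← h1 b, ← Finset.prod_const]
  exact Finset.prod_congr rfl fun a ha => by rw [(Finset.mem_filter.mp ha).2]

theorem card_eq_mul_ker {A B : Type*} [Group A] [Group B] [Finite A] (f : A →* B)
    (hf : Function.Surjective f) : Nat.card A = Nat.card B * Nat.card f.ker := by
  have h1 := Subgroup.card_mul_index f.ker
  have h2 := Subgroup.index_ker f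
  rw [h2, MonoidHom.range_eq_top.mpr hf, Subgroup.card_top] at h1
  rw [← h1, mul_comm]

end Sylow

section Main

universe u

open Cfsg.Agent.Lib.Coprime.PSolvable

variable {p : ℕ} [hp : Fact p.Prime]

/-- The logarithmic bound. -/
theorem star (n : ℕ) : ∀ {G : Type u} [Group G] [Finite G], Nat.card G = n → Cfsg.IsPSolvable p G →
    ∀ (P : Sylow p G) [Fintype ↥(P : Subgroup G)],
      (∏ y : ↥(P : Subgroup G), mm p (y : G)) ^ p ≤ Nat.card (Sylow p G) ^ Nat.card (P : Subgroup G) := by
  classical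
  have hpp : p.Prime := hp.out
  induction n using Nat.strong_induction_on with
  | _ n ih =>
    intro G _ _ hn hG P _
    by_cases hnt : Nontrivial G
    · obtain ⟨N, hN, hN1, hgood⟩ := exists_normal_good hG hnt
      haveI := hN
      have hlt : Nat.card (G ⧸ N) < n := by
        rw [← hn]
        have h1 : Nat.card G = Nat.card (G ⧸ N) * Nat.card N := Subgroup.card_eq_card_quotient_mul_card_subgroup N
        have h2 : 1 < Nat.card N := by
          haveI : Nontrivial N := (Subgroup.nontrivial_iff_ne_bot N).mpr hN1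
          exact Finite.one_lt_card
        have h3 : 0 < Nat.card (G ⧸ N) := Nat.card_pos
        rw [h1]
        nlinarith
      have hGb : Cfsg.IsPSolvable p (G ⧸ N) := isPSolvable_quotient hpp N hG
      set Pb : Sylow p (G ⧸ N) := barS N P with hPb
      haveI : Fintype ↥(Pb : Subgroup (G ⧸ N)) := Fintype.ofFinite _
      have hih := ih _ hlt rfl hGb Pb
      let f : ↥(P : Subgroup G) →* ↥(Pb : Subgroup (G ⧸ N)) := (QuotientGroup.mk' N).subgroupMap (P : Subgroup G)
      have hf : Function.Surjective f := (QuotientGroup.mk' N).subgroupMap_surjective (P : Subgroup G)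
      have hfcoe : ∀ y : ↥(P : Subgroup G), ((f y : ↥(Pb : Subgroup (G ⧸ N))) : G ⧸ N) = QuotientGroup.mk' N (y : G) :=
        fun _ => rfl
      have hcard : Nat.card (P : Subgroup G) = Nat.card (Pb : Subgroup (G ⧸ N)) * Nat.card f.ker := card_eq_mul_ker f hf
      have hprod := prod_comp_surj f hf (fun b : ↥(Pb : Subgroup (G ⧸ N)) => mm p (b : G ⧸ N))
      simp only [hfcoe] at hprod
      have hbar : (∏ y : ↥(P : Subgroup G), mm p (QuotientGroup.mk' N (y : G))) ^ p ≤
          Nat.card (Sylow p (G ⧸ N)) ^ Nat.card (P : Subgroup G) := by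
        rw [hprod, hcard, pow_mul, pow_right_comm]
        exact Nat.pow_le_pow_left hih _
      rcases hgood with ⟨m, hm⟩ | hcop
      · -- a normal `p`-subgroup
        have hNp : IsPGroup p N := IsPGroup.of_card hm
        have h1 : ∀ y : G, mm p y = mm p (QuotientGroup.mk' N y) := mm_eq_of_pgroup N hNp
        have h2 : Nat.card (Sylow p G) = Nat.card (Sylow p (G ⧸ N)) := by
          rw [← mm_one, h1, map_one, mm_one]
        simp_rw [h1]
        rw [h2]
        exact hbar
      · -- a normal `p'`-subgroup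
        have hK : ¬ p ∣ Nat.card N := fun h => by
          have := Nat.Coprime.eq_one_of_dvd hcop.symm h
          exact hpp.one_lt.ne' this
        set D := Nat.card ↥(N ⊓ Subgroup.centralizer ((P : Subgroup G) : Set G)) with hD
        have hDpos : 0 < D := Nat.card_pos
        have h1 : ∀ y : ↥(P : Subgroup G), mm p (y : G) * D =
            mm p (QuotientGroup.mk' N (y : G)) * Nat.card ↥(N ⊓ Subgroup.centralizer ({(y : G)} : Set G)) :=
          fun y => mm_mul N hK P y y.2
        have h2 : Nat.card (Sylow p G) * D = Nat.card (Sylow p (G ⧸ N)) * Nat.card N := by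
          have h3 := mm_mul N hK P 1 (one_mem _)
          rw [map_one, mm_one, mm_one] at h3
          have h4 : N ⊓ Subgroup.centralizer ({1} : Set G) = N := by
            apply inf_eq_left.mpr
            intro x _
            rw [Subgroup.mem_centralizer_singleton_iff]
            simp
          rw [h4] at h3
          exact h3
        have hnorm : (P : Subgroup G) ≤ Subgroup.normalizer (N : Set G) := le_norm_normal N _
        have hcp := coprime_prod P.isPGroup' N hnorm hK
        have h3 : (∏ y : ↥(P : Subgroup G), mm p (y : G)) * D ^ Nat.card (P : Subgroup G) =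
            (∏ y : ↥(P : Subgroup G), mm p (QuotientGroup.mk' N (y : G))) *
              ∏ y : ↥(P : Subgroup G), Nat.card ↥(N ⊓ Subgroup.centralizer ({(y : G)} : Set G)) := by
          rw [← Finset.prod_mul_distrib, Nat.card_eq_fintype_card, ← Finset.card_univ, ← Finset.prod_const,
            ← Finset.prod_mul_distrib]
          exact Finset.prod_congr rfl fun y _ => h1 y
        have hDp : 0 < (D ^ Nat.card (P : Subgroup G)) ^ p := pow_pos (pow_pos hDpos _) _
        apply Nat.le_of_mul_le_mul_right _ hDp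
        have hpq : 1 ≤ p := hpp.one_lt.le
        calc _ = ((∏ y : ↥(P : Subgroup G), mm p (y : G)) * D ^ Nat.card (P : Subgroup G)) ^ p := by ring
          _ = (∏ y : ↥(P : Subgroup G), mm p (QuotientGroup.mk' N (y : G))) ^ p *
              (∏ y : ↥(P : Subgroup G), Nat.card ↥(N ⊓ Subgroup.centralizer ({(y : G)} : Set G))) ^ p := by
                rw [h3, mul_pow]
          _ ≤ Nat.card (Sylow p (G ⧸ N)) ^ Nat.card (P : Subgroup G) *
              (Nat.card N ^ Nat.card (P : Subgroup G) * D ^ ((p - 1) * Nat.card (P : Subgroup G))) := by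
                gcongr
          _ = (Nat.card (Sylow p (G ⧸ N)) * Nat.card N) ^ Nat.card (P : Subgroup G) *
                D ^ ((p - 1) * Nat.card (P : Subgroup G)) := by
                rw [mul_pow]; ring
          _ = (Nat.card (Sylow p G) * D) ^ Nat.card (P : Subgroup G) *
                D ^ ((p - 1) * Nat.card (P : Subgroup G)) := by rw [h2]
          _ = _ := by
                obtain ⟨q, rfl⟩ : ∃ q, p = q + 1 := ⟨p - 1, by omega⟩
                simp only [Nat.add_sub_cancel]
                ring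
    · -- the trivial group
      rw [not_nontrivial_iff_subsingleton] at hnt
      have h1 : Nat.card (Sylow p G) = 1 := by
        haveI : Subsingleton (Subgroup G) := inferInstance
        haveI : Subsingleton (Sylow p G) := ⟨fun a b => Sylow.ext (Subsingleton.elim _ _)⟩
        exact Nat.card_unique
      have h2 : ∀ y : ↥(P : Subgroup G), mm p (y : G) = 1 := by
        intro y
        rw [Subsingleton.elim (y : G) 1, mm_one, h1]
      simp_rw [h2]
      simp [h1]

variable {G : Type u} [Group G] [Finite G]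

theorem mm_conj (g y : G) : mm p (g * y * g⁻¹) = mm p y := by
  unfold mm
  refine Nat.card_congr (Equiv.subtypeEquiv (MulAction.toPerm g⁻¹) ?_).symm |>.symm.symm.symm
  intro R
  show g * y * g⁻¹ ∈ R ↔ y ∈ g⁻¹ • R
  rw [mem_smul_sylow]
  simp

theorem sum_eq_of_smul (g : G) (R : Sylow p G) [Fintype ↥(R : Subgroup G)]
    [Fintype ↥((g • R : Sylow p G) : Subgroup G)] :
    ∑ y : ↥((g • R : Sylow p G) : Subgroup G), (1 / (mm p (y : G) : ℝ)) =
      ∑ y : ↥(R : Subgroup G), (1 / (mm p (y : G) : ℝ)) := by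
  let e : ↥(R : Subgroup G) ≃ ↥((g • R : Sylow p G) : Subgroup G) :=
    { toFun := fun y => ⟨g * y * g⁻¹, (mem_smul_sylow g _ R).mpr (by
        have h : g⁻¹ * (g * (y : G) * g⁻¹) * g = y := by group
        rw [h]
        exact y.2)⟩
      invFun := fun y => ⟨g⁻¹ * y * g, (mem_smul_sylow g _ R).mp y.2⟩
      left_inv := fun y => by ext; simp [mul_assoc]
      right_inv := fun y => by ext; simp [mul_assoc] }
  rw [← Equiv.sum_comp e]
  refine Finset.sum_congr rfl fun y _ => ?_
  show 1 / (mm p (g * (y : G) * g⁻¹) : ℝ) = _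
  rw [mm_conj]

theorem mm_pos_of_pow (y : G) (k : ℕ) (hy : orderOf y = p ^ k) : 0 < mm p y := by
  have h1 : IsPGroup p (Subgroup.zpowers y) := IsPGroup.of_card (by rw [Nat.card_zpowers, hy])
  obtain ⟨Q, hQ⟩ := h1.exists_le_sylow
  haveI : Nonempty {R : Sylow p G // y ∈ R} := ⟨⟨Q, hQ (Subgroup.mem_zpowers y)⟩⟩
  exact Nat.card_pos

theorem exists_order_of_mem (R : Sylow p G) (y : G) (hy : y ∈ R) : ∃ k : ℕ, orderOf y = p ^ k := by
  obtain ⟨k, hk⟩ := (IsPGroup.iff_orderOf.mp R.isPGroup') ⟨y, hy⟩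
  exact ⟨k, by rw [← hk]; exact (Subgroup.orderOf_mk y hy).symm⟩

/-- The count of `p`-elements. -/
theorem count_eq (P : Sylow p G) [Fintype ↥(P : Subgroup G)] :
    (Nat.card {g : G // ∃ k : ℕ, orderOf g = p ^ k} : ℝ) =
      Nat.card (Sylow p G) * ∑ y : ↥(P : Subgroup G), (1 / (mm p (y : G) : ℝ)) := by
  classical
  haveI : Fintype G := Fintype.ofFinite G
  haveI : Fintype (Sylow p G) := Fintype.ofFinite _
  haveI : ∀ R : Sylow p G, Fintype ↥(R : Subgroup G) := fun _ => Fintype.ofFinite _
  haveI : ∀ g : G, Fintype {R : Sylow p G // g ∈ R} := fun _ => Fintype.ofFinite _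
  haveI : Fintype {g : G // ∃ k : ℕ, orderOf g = p ^ k} := Fintype.ofFinite _
  let e : (Σ g : {g : G // ∃ k : ℕ, orderOf g = p ^ k}, {R : Sylow p G // (g : G) ∈ R}) ≃
      (Σ R : Sylow p G, ↥(R : Subgroup G)) :=
    { toFun := fun x => ⟨x.2.1, ⟨x.1.1, x.2.2⟩⟩
      invFun := fun x => ⟨⟨x.2.1, exists_order_of_mem x.1 x.2.1 x.2.2⟩, ⟨x.1, x.2.2⟩⟩
      left_inv := fun x => rfl
      right_inv := fun x => rfl }
  have h1 : ∀ g : {g : G // ∃ k : ℕ, orderOf g = p ^ k},
      ∑ _R : {R : Sylow p G // (g : G) ∈ R}, (1 / (mm p (g : G) : ℝ)) = 1 := by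
    intro g
    obtain ⟨k, hk⟩ := g.2
    have hpos := mm_pos_of_pow (p := p) g.1 k hk
    rw [Finset.sum_const, Finset.card_univ, nsmul_eq_mul, ← Nat.card_eq_fintype_card]
    show ((mm p (g : G) : ℕ) : ℝ) * _ = 1
    field_simp
  have h2 : ∑ x : (Σ g : {g : G // ∃ k : ℕ, orderOf g = p ^ k}, {R : Sylow p G // (g : G) ∈ R}),
      (1 / (mm p (x.1 : G) : ℝ)) = ∑ x : (Σ R : Sylow p G, ↥(R : Subgroup G)), (1 / (mm p (x.2 : G) : ℝ)) := by
    rw [← Equiv.sum_comp e]
    rfl
  rw [Fintype.sum_sigma, Fintype.sum_sigma] at h2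
  simp_rw [h1] at h2
  have h3 : ∀ R : Sylow p G, ∑ y : ↥(R : Subgroup G), (1 / (mm p (y : G) : ℝ)) =
      ∑ y : ↥(P : Subgroup G), (1 / (mm p (y : G) : ℝ)) := by
    intro R
    obtain ⟨g, rfl⟩ := MulAction.exists_smul_eq G P R
    exact sum_eq_of_smul g P
  simp_rw [h3] at h2
  rw [Finset.sum_const, Finset.sum_const, Finset.card_univ, Finset.card_univ, nsmul_eq_mul, nsmul_eq_mul, mul_one] at h2
  rw [Nat.card_eq_fintype_card, h2, Nat.card_eq_fintype_card]
  congr!

/-- AM-GM with uniform weights, in power form. -/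
theorem amgm {ι : Type*} [Fintype ι] [Nonempty ι] (z : ι → ℝ) (hz : ∀ i, 0 ≤ z i) :
    ∏ i, z i ≤ ((∑ i, z i) / Fintype.card ι) ^ Fintype.card ι := by
  have hN : (0 : ℝ) < Fintype.card ι := by exact_mod_cast Fintype.card_pos
  have h := Real.geom_mean_le_arith_mean (Finset.univ : Finset ι) (fun _ => (1 : ℝ)) z
    (fun _ _ => zero_le_one) (by simpa using hN) (fun i _ => hz i)
  simp only [Real.rpow_one, Finset.sum_const, Finset.card_univ, nsmul_eq_mul, mul_one, one_mul] at h
  have h0 : 0 ≤ ∏ i, z i := Finset.prod_nonneg fun i _ => hz i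
  have h1 : 0 ≤ (∏ i, z i) ^ ((Fintype.card ι : ℝ)⁻¹) := Real.rpow_nonneg h0 _
  have h2 := pow_le_pow_left₀ h1 h (Fintype.card ι)
  rwa [Real.rpow_inv_natCast_pow h0 Fintype.card_ne_zero] at h2

/-- The final inequality. -/
theorem final_ineq (hG : Cfsg.IsPSolvable p G) (P : Sylow p G) :
    Nat.card (P : Subgroup G) ^ p * Nat.card (Sylow p G) ^ (p - 1) ≤
      Nat.card {g : G // ∃ k : ℕ, orderOf g = p ^ k} ^ p := by
  classical
  have hpp : p.Prime := hp.out
  haveI : Fintype ↥(P : Subgroup G) := Fintype.ofFinite _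
  have hstar := star (p := p) _ rfl hG P
  have hcount := count_eq P
  set N := Nat.card (P : Subgroup G) with hN
  set n := Nat.card (Sylow p G) with hn
  set A : ℝ := ∑ y : ↥(P : Subgroup G), (1 / (mm p (y : G) : ℝ)) with hA
  have hNpos : 0 < N := Nat.card_pos
  have hnpos : 0 < n := Nat.card_pos
  have hNc : Fintype.card ↥(P : Subgroup G) = N := by rw [hN, Nat.card_eq_fintype_card]
  have hmpos : ∀ y : ↥(P : Subgroup G), 0 < mm p (y : G) := by
    intro y
    obtain ⟨k, hk⟩ := exists_order_of_mem P y y.2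
    exact mm_pos_of_pow _ k hk
  have hgm := amgm (fun y : ↥(P : Subgroup G) => 1 / (mm p (y : G) : ℝ)) (fun y => by positivity)
  rw [hNc] at hgm
  set X : ℕ := ∏ y : ↥(P : Subgroup G), mm p (y : G) with hX
  have hXpos : 0 < X := Finset.prod_pos fun y _ => hmpos y
  have h1 : ∏ y : ↥(P : Subgroup G), (1 / (mm p (y : G) : ℝ)) = 1 / (X : ℝ) := by
    rw [Finset.prod_div_distrib, Finset.prod_const_one, hX, Nat.cast_prod]
  rw [h1] at hgm
  have hA0 : 0 ≤ A := Finset.sum_nonneg fun y _ => by positivity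
  have hNR : (0 : ℝ) < N := by exact_mod_cast hNpos
  have hnR : (0 : ℝ) < n := by exact_mod_cast hnpos
  have hXR : (0 : ℝ) < X := by exact_mod_cast hXpos
  have hstarR : (X : ℝ) ^ p ≤ (n : ℝ) ^ N := by exact_mod_cast hstar
  have h2 : (1 / (n : ℝ)) ^ N ≤ (((A / N) ^ p)) ^ N := by
    calc (1 / (n : ℝ)) ^ N = 1 / (n : ℝ) ^ N := by rw [one_div_pow]
      _ ≤ 1 / (X : ℝ) ^ p := by
            apply one_div_le_one_div_of_le (pow_pos hXR _) hstarR
      _ = (1 / (X : ℝ)) ^ p := by rw [one_div_pow]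
      _ ≤ (((A / N) ^ N)) ^ p := pow_le_pow_left₀ (by positivity) hgm _
      _ = _ := by rw [← pow_mul, ← pow_mul, mul_comm]
  have h3 : 1 / (n : ℝ) ≤ (A / N) ^ p := by
    refine (pow_le_pow_iff_left₀ (by positivity) (by positivity) hNpos.ne').mp h2
  have h4 : (N : ℝ) ^ p ≤ n * A ^ p := by
    rw [div_pow, div_le_div_iff₀ hnR (pow_pos hNR _)] at h3
    linarith
  have hp1 : 1 ≤ p := hpp.one_lt.le
  have h5 : ((N ^ p * n ^ (p - 1) : ℕ) : ℝ) ≤ ((Nat.card {g : G // ∃ k : ℕ, orderOf g = p ^ k} ^ p : ℕ) : ℝ) := by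
    push_cast
    rw [hcount, mul_pow]
    obtain ⟨q, hq⟩ : ∃ q, p = q + 1 := ⟨p - 1, by omega⟩
    have hq' : p - 1 = q := by omega
    rw [hq'] 
    have h6 : (n : ℝ) ^ p = (n : ℝ) ^ q * n := by rw [hq, pow_succ]
    rw [h6]
    calc (N : ℝ) ^ p * (n : ℝ) ^ q ≤ (n * A ^ p) * (n : ℝ) ^ q := by gcongr
      _ = _ := by ring
  exact_mod_cast h5

end Main


/-- Let G be a finite p-solvable group, P a Sylow p-subgroup of G, u the number of p-elements of G (elements of p-power order, the identity included) and n the number of Sylow p-subgroups of G. Then u/#P ≥ n^((p−1)/p), stated as u^p ≥ #P^p · n^(p−1). -/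
theorem result {G : Type*} [Group G] [Finite G] (p : ℕ) [Fact p.Prime]
    (hG : Cfsg.IsPSolvable p G) (P : Sylow p G) :
    Nat.card (P : Subgroup G) ^ p * Nat.card (Sylow p G) ^ (p - 1) ≤ Nat.card {g : G // ∃ k : ℕ, orderOf g = p ^ k} ^ p := by
  exact final_ineq hG P

end Cfsg.Agent.S4091
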