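import Cfsg.Statements.S4092
import Mathlib
import Cfsg.Agent.S4088

set_option autoImplicit false
open Cfsg

namespace Cfsg.Agent.S4092

open Subgroup

variable {G : Type*} [Group G] [Finite G]

/-- Let G be a finite group, p a prime and P a Sylow p-subgroup of G that is not normal in G. Then G has at least p·#P elements of p-power order (the identity included). -/
theorem result {G : Type*} [Group G] [Finite G] (p : ℕ) [Fact p.Prime]
    (P : Sylow p G) (hP : ¬ (P : Subgroup G).Normal) :
    p * Nat.card (P : Subgroup G) ≤ Nat.card {g : G // ∃ k : ℕ, orderOf g = p ^ k} := by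
  classical
  letI : Fintype G := Fintype.ofFinite G
  have hp : p.Prime := Fact.out
  -- two distinct Sylow subgroups
  have hne : ∃ Q : Sylow p G, Q ≠ P := by
    by_contra hcon
    push Not at hcon
    apply hP
    constructor
    intro n hn g
    have h1 : g • P = P := hcon _
    have h2 : g ∈ Subgroup.normalizer ((P : Subgroup G) : Set G) := Sylow.smul_eq_iff_mem_normalizer.mp h1
    exact (Subgroup.mem_normalizer_iff.mp h2 n).mp hn
  obtain ⟨Q0, hQ0⟩ := hne
  -- maximal intersection
  let S : Set (Sylow p G × Sylow p G) := {z | z.1 ≠ z.2}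
  have hSne : S.Nonempty := ⟨(Q0, P), hQ0⟩
  obtain ⟨⟨A, B⟩, hAB, hmax⟩ := Set.exists_max_image S
    (fun z => Nat.card ((z.1 : Subgroup G) ⊓ (z.2 : Subgroup G) : Subgroup G)) (Set.toFinite S) hSne
  have hAB' : A ≠ B := hAB
  simp only at hmax
  set D : Subgroup G := (A : Subgroup G) ⊓ (B : Subgroup G) with hD
  have hmax' : ∀ X Y : Sylow p G, X ≠ Y →
      Nat.card ((X : Subgroup G) ⊓ (Y : Subgroup G) : Subgroup G) ≤ Nat.card D :=
    fun X Y h => hmax (X, Y) h
  have hDp : IsPGroup p D := A.isPGroup'.to_le inf_le_left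
  have hDA : D < (A : Subgroup G) := by
    refine lt_of_le_of_ne inf_le_left ?_
    intro h
    have h1 : (A : Subgroup G) ≤ B := by rw [← h]; exact inf_le_right
    exact hAB' (Sylow.ext (A.is_maximal' B.isPGroup' h1)).symm
  have hDB : D < (B : Subgroup G) := by
    refine lt_of_le_of_ne inf_le_right ?_
    intro h
    have h1 : (B : Subgroup G) ≤ A := by rw [← h]; exact inf_le_left
    exact hAB' (Sylow.ext (B.is_maximal' A.isPGroup' h1))
  set N : Subgroup G := Subgroup.normalizer (D : Set G) with hN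
  have hA1 := Cfsg.Agent.S4088.lt_inf_normalizer A.isPGroup' hDA
  have hB1 := Cfsg.Agent.S4088.lt_inf_normalizer B.isPGroup' hDB
  -- lifts of Sylow subgroups of `N`
  have hlift : ∀ R : Sylow p N, ∃ T : Sylow p G, (R : Subgroup N).map N.subtype ≤ (T : Subgroup G) :=
    fun R => (R.isPGroup'.map N.subtype).exists_le_sylow
  choose T hT using hlift
  have heqT : ∀ (X Y : Sylow p G) (W : Subgroup G), D < W → W ≤ X → W ≤ Y → X = Y := by
    intro X Y W h1 h2 h3
    by_contra hXY
    have h4 := hmax' X Y hXY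
    have h5 : Nat.card W ≤ Nat.card ((X : Subgroup G) ⊓ (Y : Subgroup G) : Subgroup G) :=
      Subgroup.card_le_of_le (le_inf h2 h3)
    have h6 : D = W := Subgroup.eq_of_le_of_card_ge h1.le (h5.trans h4)
    exact h1.ne h6
  -- `D` lies in every Sylow of `N`
  have hDR : ∀ R : Sylow p N, D ≤ (R : Subgroup N).map N.subtype := by
    intro R
    haveI hn : (Subgroup.comap N.subtype D).Normal := Subgroup.normal_in_normalizer
    have h1 : D.subgroupOf N ≤ (R : Subgroup N) :=
      (hDp.comap_subtype : IsPGroup p (Subgroup.comap N.subtype D)).le_sylow_of_normal R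
    intro d hd
    exact ⟨⟨d, Subgroup.le_normalizer hd⟩, h1 (Subgroup.mem_subgroupOf.mpr hd), rfl⟩
  have hTinj : Function.Injective T := by
    intro R R' h
    apply Sylow.ext
    have h1 : ((T R : Subgroup G)).subgroupOf N ≥ (R : Subgroup N) := by
      intro x hx
      exact Subgroup.mem_subgroupOf.mpr (hT R ⟨x, hx, rfl⟩)
    have h2 : ((T R : Subgroup G)).subgroupOf N ≥ (R' : Subgroup N) := by
      intro x hx
      rw [h]
      exact Subgroup.mem_subgroupOf.mpr (hT R' ⟨x, hx, rfl⟩)
    have hpg : IsPGroup p (((T R : Subgroup G)).subgroupOf N) := (T R).isPGroup'.comap_subtype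
    rw [← R.is_maximal' hpg h1, ← R'.is_maximal' hpg h2]
  -- at least two Sylows in `N`
  obtain ⟨R1, hR1⟩ := (show IsPGroup p (((A : Subgroup G) ⊓ N).subgroupOf N) from
    A.isPGroup'.to_inf_left.comap_subtype).exists_le_sylow
  obtain ⟨R2, hR2⟩ := (show IsPGroup p (((B : Subgroup G) ⊓ N).subgroupOf N) from
    B.isPGroup'.to_inf_left.comap_subtype).exists_le_sylow
  have hTA : T R1 = A := by
    apply heqT _ _ ((A : Subgroup G) ⊓ N) hA1 _ inf_le_left
    intro x hx
    exact hT R1 ⟨⟨x, hx.2⟩, hR1 (Subgroup.mem_subgroupOf.mpr hx), rfl⟩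
  have hTB : T R2 = B := by
    apply heqT _ _ ((B : Subgroup G) ⊓ N) hB1 _ inf_le_left
    intro x hx
    exact hT R2 ⟨⟨x, hx.2⟩, hR2 (Subgroup.mem_subgroupOf.mpr hx), rfl⟩
  have hR12 : R1 ≠ R2 := by
    intro h
    rw [h, hTB] at hTA
    exact hAB' hTA.symm
  letI : Fintype (Sylow p N) := Fintype.ofFinite _
  have hn2 : 1 < Nat.card (Sylow p N) := by
    rw [Nat.card_eq_fintype_card]
    exact Fintype.one_lt_card_iff.mpr ⟨R1, R2, hR12⟩
  have hnmod := card_sylow_modEq_one p N
  have hnp : p + 1 ≤ Nat.card (Sylow p N) := by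
    have h1 : p ∣ Nat.card (Sylow p N) - 1 := (Nat.modEq_iff_dvd' hn2.le).mp hnmod.symm
    have h2 := Nat.le_of_dvd (by omega) h1
    omega
  -- counting
  set c := Nat.card (P : Subgroup G) with hc
  set d := Nat.card D with hd
  have hcardT : ∀ X : Sylow p G, Nat.card (X : Subgroup G) = c := by
    intro X
    rw [hc, Sylow.card_eq_multiplicity, Sylow.card_eq_multiplicity]
  have hdc : p * d ≤ c := by
    obtain ⟨a, ha⟩ := IsPGroup.iff_card.mp A.isPGroup'
    obtain ⟨b, hb⟩ := IsPGroup.iff_card.mp hDp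
    have h1 : d < Nat.card (A : Subgroup G) := by
      by_contra h
      exact hDA.ne (Subgroup.eq_of_le_of_card_ge hDA.le (not_lt.mp h))
    rw [hcardT] at h1 ha
    rw [hd, hb] at h1 ⊢
    rw [ha] at h1 ⊢
    have h2 : b < a := (Nat.pow_lt_pow_iff_right hp.one_lt).mp h1
    calc p * p ^ b = p ^ (b + 1) := by ring
      _ ≤ p ^ a := Nat.pow_le_pow_right hp.pos h2
  let F : Sylow p N → Finset G := fun R =>
    (Finset.univ.filter (fun g => g ∈ (T R : Subgroup G))) \ (Finset.univ.filter (fun g => g ∈ D))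
  have hDleT : ∀ R, D ≤ (T R : Subgroup G) := fun R => (hDR R).trans (hT R)
  have hcardD : (Finset.univ.filter (fun g => g ∈ D)).card = d := by
    rw [hd, Nat.card_eq_fintype_card, Fintype.card_subtype]
  have hcardF : ∀ R, (F R).card = c - d := by
    intro R
    rw [Finset.card_sdiff_of_subset, hcardD]
    · congr 1
      rw [← hcardT (T R), Nat.card_eq_fintype_card, Fintype.card_subtype]
    · intro g hg
      simp only [Finset.mem_filter, Finset.mem_univ, true_and] at hg ⊢
      exact hDleT R hg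
  have hdisj : ∀ R ∈ (Finset.univ : Finset (Sylow p N)), ∀ R' ∈ (Finset.univ : Finset (Sylow p N)),
      R ≠ R' → Disjoint (F R) (F R') := by
    intro R _ R' _ hRR
    rw [Finset.disjoint_left]
    intro g hg hg'
    simp only [F, Finset.mem_sdiff, Finset.mem_filter, Finset.mem_univ, true_and] at hg hg'
    have hne' : T R ≠ T R' := fun h => hRR (hTinj h)
    have h1 := hmax' _ _ hne'
    have h2 : D = (T R : Subgroup G) ⊓ (T R' : Subgroup G) :=
      Subgroup.eq_of_le_of_card_ge (le_inf (hDleT R) (hDleT R')) h1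
    apply hg.2
    rw [h2]
    exact Subgroup.mem_inf.mpr ⟨hg.1, hg'.1⟩
  have hcardU : (Finset.univ.biUnion F).card = Nat.card (Sylow p N) * (c - d) := by
    rw [Finset.card_biUnion hdisj]
    simp [hcardF, Nat.card_eq_fintype_card]
  let PE : Finset G := Finset.univ.filter (fun g => ∃ k : ℕ, orderOf g = p ^ k)
  have hmemp : ∀ (X : Sylow p G) g, g ∈ (X : Subgroup G) → g ∈ PE := by
    intro X g hg
    obtain ⟨k, hk⟩ := IsPGroup.iff_orderOf.mp X.isPGroup' ⟨g, hg⟩
    simp only [PE, Finset.mem_filter, Finset.mem_univ, true_and]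
    exact ⟨k, by rw [← hk, Subgroup.orderOf_mk]⟩
  have hsub : (Finset.univ.filter (fun g => g ∈ D)) ∪ (Finset.univ.biUnion F) ⊆ PE := by
    intro g hg
    simp only [Finset.mem_union, Finset.mem_filter, Finset.mem_univ, true_and, Finset.mem_biUnion, F,
      Finset.mem_sdiff] at hg
    rcases hg with hg | ⟨R, hg, -⟩
    · exact hmemp A g (inf_le_left (a := (A : Subgroup G)) hg)
    · exact hmemp (T R) g hg
  have hdisj2 : Disjoint (Finset.univ.filter (fun g => g ∈ D)) (Finset.univ.biUnion F) := by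
    rw [Finset.disjoint_left]
    intro g hg hg'
    simp only [Finset.mem_filter, Finset.mem_univ, true_and, Finset.mem_biUnion, F,
      Finset.mem_sdiff] at hg hg'
    obtain ⟨R, -, h⟩ := hg'
    exact h hg
  have hcardPE : Nat.card {g : G // ∃ k : ℕ, orderOf g = p ^ k} = PE.card := by
    rw [Nat.card_eq_fintype_card, Fintype.card_subtype]
  rw [hcardPE]
  have h1 := Finset.card_le_card hsub
  rw [Finset.card_union_of_disjoint hdisj2, hcardD, hcardU] at h1
  refine le_trans ?_ h1
  have hdlec : d ≤ c := le_trans (Nat.le_mul_of_pos_left d hp.pos) hdc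
  obtain ⟨e, he⟩ := Nat.exists_eq_add_of_le hdlec
  rw [he] at hdc ⊢
  simp only [Nat.add_sub_cancel_left]
  have h2 : (p + 1) * e ≤ Nat.card (Sylow p N) * e := Nat.mul_le_mul_right e hnp
  nlinarith

end Cfsg.Agent.S4092
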