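import Cfsg.Statements.S4093
import Mathlib
import Cfsg.Agent.S4088

set_option autoImplicit false
open scoped BigOperators
open Cfsg

namespace Cfsg.Agent.S4093

open Subgroup

variable {G : Type*} [Group G] [Finite G]

lemma key_fiber {p : ℕ} [Fact p.Prime] (P : Sylow p G) (N : Subgroup G) [hN : N.Normal]
    (hNP : N.IsComplement' (P : Subgroup G)) (f : {g : G // ∃ k : ℕ, orderOf g = p ^ k} → (P : Subgroup G))
    (hf : ∀ g x, f g = x ↔ ((x : G)⁻¹ * (g : G) ∈ N)) (x : (P : Subgroup G)) :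
    Nat.card N = Nat.card {g // f g = x} * Nat.card ↥(N ⊓ centralizer ({(x : G)} : Set G)) := by
  classical
  have hdis : ∀ a ∈ N, a ∈ (P : Subgroup G) → a = 1 := by
    intro a ha ha'
    have := hNP.disjoint.le_bot (mem_inf.mpr ⟨ha, ha'⟩)
    simpa using this
  have hpx : ∃ k : ℕ, orderOf (x : G) = p ^ k := by
    obtain ⟨k, hk⟩ := (IsPGroup.iff_orderOf.mp P.isPGroup') x
    exact ⟨k, by rw [← hk, Subgroup.orderOf_coe]⟩
  have hconjp : ∀ n : N, ∃ k : ℕ, orderOf ((n : G) * x * (n : G)⁻¹) = p ^ k := by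
    intro n
    obtain ⟨k, hk⟩ := hpx
    refine ⟨k, ?_⟩
    rw [← hk]
    exact MulEquiv.orderOf_eq (MulAut.conj (n : G)) (x : G)
  have hfib : ∀ n : N, f ⟨(n : G) * x * (n : G)⁻¹, hconjp n⟩ = x := by
    intro n
    rw [hf]
    have e : (x : G)⁻¹ * ((n : G) * x * (n : G)⁻¹) = ((x : G)⁻¹ * n * (x : G)⁻¹⁻¹) * (n : G)⁻¹ := by group
    show (x : G)⁻¹ * ((n : G) * x * (n : G)⁻¹) ∈ N
    rw [e]
    exact N.mul_mem (hN.conj_mem _ n.2 _) (N.inv_mem n.2)
  apply Cfsg.Agent.S4088.card_eq_mul_of_fibers (fun n : N =>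
    (⟨⟨(n : G) * x * (n : G)⁻¹, hconjp n⟩, hfib n⟩ : {g // f g = x}))
  rintro ⟨⟨g, hg⟩, hgx⟩
  -- surjectivity
  obtain ⟨n0, hn0⟩ : ∃ n : N, (n : G) * x * (n : G)⁻¹ = g := by
    obtain ⟨a, ha⟩ := hg
    have hpg : IsPGroup p (zpowers g) := IsPGroup.of_card (n := a) (by rw [Nat.card_zpowers, ha])
    obtain ⟨Q, hQ⟩ := hpg.exists_le_sylow
    obtain ⟨y, hy⟩ := MulAction.exists_smul_eq G P Q
    have hy' : y ∈ N ⊔ (P : Subgroup G) := by rw [hNP.sup_eq_top]; exact mem_top y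
    obtain ⟨n, hn, w, hw, rfl⟩ := mem_sup_of_normal_left.mp hy'
    have hQ' : Q = n • P := by
      rw [← hy, mul_smul, Sylow.smul_eq_iff_mem_normalizer.mpr (P.le_normalizer hw)]
    have hgQ : g ∈ (Q : Subgroup G) := hQ (mem_zpowers g)
    rw [hQ', Cfsg.Agent.S4088.mem_sylow_smul] at hgQ
    have h1 : (x : G)⁻¹ * g ∈ N := (hf _ _).mp hgx
    have h2 : (x : G)⁻¹ * (n⁻¹ * g * n) ∈ N := by
      have e2 : (x : G)⁻¹ * (n⁻¹ * g * n) = ((x : G)⁻¹ * n⁻¹ * (x : G)) * ((x : G)⁻¹ * g) * n := by group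
      rw [e2]
      refine N.mul_mem (N.mul_mem ?_ h1) hn
      have := hN.conj_mem _ (N.inv_mem hn) (x : G)⁻¹
      simpa using this
    have h3 : (x : G)⁻¹ * (n⁻¹ * g * n) = 1 :=
      hdis _ h2 ((P : Subgroup G).mul_mem ((P : Subgroup G).inv_mem x.2) hgQ)
    refine ⟨⟨n, hn⟩, ?_⟩
    have h4 : n⁻¹ * g * n = x := by
      have := mul_eq_one_iff_eq_inv.mp h3
      exact (inv_injective this).symm
    rw [← h4]
    group
  subst hn0
  symm
  apply Nat.card_congr
  refine Equiv.ofBijective (fun c => ⟨n0 * ⟨c.1, (mem_inf.mp c.2).1⟩, ?_⟩) ⟨?_, ?_⟩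
  · apply Subtype.ext
    apply Subtype.ext
    have hc := (mem_inf.mp c.2).2
    rw [mem_centralizer_singleton_iff] at hc
    show (n0 : G) * c.1 * x * ((n0 : G) * c.1)⁻¹ = (n0 : G) * x * (n0 : G)⁻¹
    have e : (n0 : G) * c.1 * x * ((n0 : G) * c.1)⁻¹ = (n0 : G) * (c.1 * x) * (c.1 : G)⁻¹ * (n0 : G)⁻¹ := by group
    rw [e, hc]
    group
  · intro c d hcd
    have := congrArg (fun z => ((z.1 : N) : G)) hcd
    simp only [Subgroup.coe_mul, mul_right_inj] at this
    exact Subtype.ext this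
  · rintro ⟨⟨n, hn⟩, hz⟩
    have hz' : n * x * n⁻¹ = (n0 : G) * x * (n0 : G)⁻¹ :=
      congrArg (fun z : {g // f g = x} => ((z.1 : {g : G // ∃ k : ℕ, orderOf g = p ^ k}) : G)) hz
    refine ⟨⟨(n0 : G)⁻¹ * n, mem_inf.mpr ⟨N.mul_mem (N.inv_mem n0.2) hn, ?_⟩⟩, ?_⟩
    · rw [mem_centralizer_singleton_iff]
      have e : (n0 : G)⁻¹ * n * x = x * ((n0 : G)⁻¹ * n) := by
        have h1 : n * x = (n0 : G) * x * (n0 : G)⁻¹ * n := by
          rw [← hz']; group
        calc (n0 : G)⁻¹ * n * x = (n0 : G)⁻¹ * (n * x) := by group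
          _ = (n0 : G)⁻¹ * ((n0 : G) * x * (n0 : G)⁻¹ * n) := by rw [h1]
          _ = _ := by group
      exact e
    · apply Subtype.ext
      apply Subtype.ext
      show (n0 : G) * ((n0 : G)⁻¹ * n) = n
      group

/-- Let G be a finite group with a normal subgroup N complementing a Sylow p-subgroup P (a normal p-complement). Then the number of elements of G of p-power order equals the sum over x ∈ P of the index of C_N(x) in N. -/
theorem result {G : Type*} [Group G] [Finite G] (p : ℕ) [Fact p.Prime]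
    (P : Sylow p G) (N : Subgroup G) [N.Normal] (hNP : N.IsComplement' (P : Subgroup G)) :
    Nat.card {g : G // ∃ k : ℕ, orderOf g = p ^ k} =
      ∑ᶠ x : (P : Subgroup G), Nat.card N / Nat.card ↥(N ⊓ Subgroup.centralizer ({(x : G)} : Set G)) := by
  classical
  have hdis : ∀ a ∈ N, a ∈ (P : Subgroup G) → a = 1 := by
    intro a ha ha'
    have := hNP.disjoint.le_bot (Subgroup.mem_inf.mpr ⟨ha, ha'⟩)
    simpa using this
  have hex : ∀ g : G, ∃ x : (P : Subgroup G), (x : G)⁻¹ * g ∈ N := by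
    intro g
    have hg : g ∈ N ⊔ (P : Subgroup G) := by rw [hNP.sup_eq_top]; exact Subgroup.mem_top g
    obtain ⟨n, hn, w, hw, rfl⟩ := Subgroup.mem_sup_of_normal_left.mp hg
    refine ⟨⟨w, hw⟩, ?_⟩
    have e : w⁻¹ * (n * w) = w⁻¹ * n * w⁻¹⁻¹ := by group
    show w⁻¹ * (n * w) ∈ N
    rw [e]
    exact Subgroup.Normal.conj_mem inferInstance _ hn _
  choose f0 hf0 using hex
  let f : {g : G // ∃ k : ℕ, orderOf g = p ^ k} → (P : Subgroup G) := fun g => f0 g
  have hf : ∀ g x, f g = x ↔ ((x : G)⁻¹ * (g : G) ∈ N) := by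
    intro g x
    constructor
    · rintro rfl
      exact hf0 g
    · intro h
      have h1 := hf0 (g : G)
      have e : (x : G)⁻¹ * (f0 g : G) = ((x : G)⁻¹ * g) * ((f0 g : G)⁻¹ * g)⁻¹ := by group
      have h2 : (x : G)⁻¹ * (f0 g : G) ∈ N := by
        rw [e]
        exact N.mul_mem h (N.inv_mem h1)
      have h3 := hdis _ h2 ((P : Subgroup G).mul_mem ((P : Subgroup G).inv_mem x.2) (f0 g).2)
      apply Subtype.ext
      have := mul_eq_one_iff_eq_inv.mp h3
      exact (inv_injective this).symm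
  letI : Fintype (P : Subgroup G) := Fintype.ofFinite _
  rw [finsum_eq_sum_of_fintype]
  rw [← Nat.card_congr (Equiv.sigmaFiberEquiv f), Nat.card_sigma]
  apply Finset.sum_congr rfl
  intro x _
  have := key_fiber P N hNP f hf x
  rw [this]
  rw [Nat.mul_div_cancel _ Nat.card_pos]

end Cfsg.Agent.S4093
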