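import Cfsg.Statements.S4097
import Mathlib
import Cfsg.Agent.Lib.Solvable.FrobQuot
import Cfsg.Agent.Lib.Coprime.InvSylow
import Cfsg.Agent.Lib.Frobenius.Basic

set_option autoImplicit false
open Cfsg
open scoped Pointwise

namespace Cfsg.Agent.S4097

universe u

section Aux

variable {G : Type u} [Group G]

/-- The join of a solvable subgroup and a solvable subgroup normalizing it is solvable. -/
theorem sup_solvable {X Y : Subgroup G} (hn : Y ≤ Subgroup.normalizer (X : Set G))
    (hX : Group.IsSolvable X) (hY : Group.IsSolvable Y) :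
    Group.IsSolvable (X ⊔ Y : Subgroup G) := by
  classical
  set K : Subgroup G := X ⊔ Y with hK
  have hXK : X ≤ K := le_sup_left
  have hYK : Y ≤ K := le_sup_right
  have hKn : K ≤ Subgroup.normalizer (X : Set G) := sup_le Subgroup.le_normalizer hn
  haveI hN : (X.subgroupOf K).Normal := (Subgroup.normal_subgroupOf_iff_le_normalizer hXK).mpr hKn
  -- the image of `Y` in `K / X` is everything
  let f : Y →* (K ⧸ X.subgroupOf K) :=
    (QuotientGroup.mk' (X.subgroupOf K)).comp (Subgroup.inclusion hYK)
  have hf : Function.Surjective f := by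
    -- the range of `f`, pulled back to `K`, contains `X` and `Y`
    rw [← MonoidHom.range_eq_top]
    have h1 : (f.range.comap (QuotientGroup.mk' (X.subgroupOf K))).map K.subtype = K := by
      apply le_antisymm
      · rintro _ ⟨k, -, rfl⟩; exact k.2
      · refine (sup_le ?_ ?_ : X ⊔ Y ≤ _)
        · intro x hx
          refine ⟨⟨x, hXK hx⟩, ?_, rfl⟩
          have : (QuotientGroup.mk' (X.subgroupOf K)) ⟨x, hXK hx⟩ = 1 := by
            rw [← MonoidHom.mem_ker, QuotientGroup.ker_mk']
            exact hx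
          show (QuotientGroup.mk' (X.subgroupOf K)) ⟨x, hXK hx⟩ ∈ f.range
          rw [this]; exact one_mem _
        · intro y hy
          exact ⟨⟨y, hYK hy⟩, ⟨⟨y, hy⟩, rfl⟩, rfl⟩
    rw [eq_top_iff]
    intro z _
    obtain ⟨k, rfl⟩ := QuotientGroup.mk'_surjective (X.subgroupOf K) z
    have hk : (k : G) ∈ (f.range.comap (QuotientGroup.mk' (X.subgroupOf K))).map K.subtype := by
      rw [h1]; exact k.2
    obtain ⟨k', hk', hkk'⟩ := hk
    have : k' = k := Subtype.ext hkk'
    rw [← this]; exact hk'
  have : Group.IsSolvable (K ⧸ X.subgroupOf K) := Group.isSolvable_of_surjective hf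
  have : Group.IsSolvable (X.subgroupOf K) :=
    Group.isSolvable_of_isSolvable_injective (f := (Subgroup.subgroupOfEquivOfLe hXK).toMonoidHom)
      (Subgroup.subgroupOfEquivOfLe hXK).injective
  exact Group.isSolvable_of_ker_le_range (X.subgroupOf K).subtype
    (QuotientGroup.mk' (X.subgroupOf K)) (by
      rw [QuotientGroup.ker_mk']
      intro k hk
      exact ⟨⟨k, hk⟩, rfl⟩)

theorem map_solvable {H K : Type u} [Group H] [Group K] (f : H →* K) (S : Subgroup H)
    (hS : Group.IsSolvable S) : Group.IsSolvable (S.map f) := by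
  let g : S →* S.map f := f.subgroupMap S
  exact Group.isSolvable_of_surjective (f := g) (f.subgroupMap_surjective S)

/-- The hypothesis of the theorem, as a predicate on `A`. -/
def Hyp (A : Subgroup G) : Prop :=
  Group.IsSolvable A ∧
    ∀ S : Subgroup G, A ≤ S → Group.IsSolvable S → ∀ a ∈ A, ∀ s ∈ S, a * s = s * a

/-- The conjugate `g A g⁻¹`. -/
abbrev cj (A : Subgroup G) (g : G) : Subgroup G := A.map (MulAut.conj g).toMonoidHom

theorem mem_cj {A : Subgroup G} {g x : G} : x ∈ cj A g ↔ g⁻¹ * x * g ∈ A := by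
  constructor
  · rintro ⟨a, ha, rfl⟩
    have : g⁻¹ * (MulAut.conj g).toMonoidHom a * g = a := by
      simp [MulAut.conj_apply]; group
    rw [this]; exact ha
  · intro h
    refine ⟨_, h, ?_⟩
    simp [MulAut.conj_apply]; group

theorem Hyp.cj {A : Subgroup G} (h : Hyp A) (g : G) : Hyp (cj A g) := by
  refine ⟨map_solvable _ A h.1, ?_⟩
  intro S hS hSs b hb s hs
  have hle : A ≤ Cfsg.Agent.S4097.cj S g⁻¹ := by
    intro a ha
    rw [mem_cj]
    apply hS
    rw [mem_cj]
    simpa [mul_assoc] using ha
  have hsol := map_solvable (MulAut.conj g⁻¹).toMonoidHom S hSs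
  have hb' : g⁻¹ * b * g ∈ A := mem_cj.mp hb
  have hs' : g⁻¹ * s * g ∈ Cfsg.Agent.S4097.cj S g⁻¹ := by
    rw [mem_cj]; simpa [mul_assoc] using hs
  have := h.2 _ hle hsol _ hb' _ hs'
  have h2 : g⁻¹ * (b * s) * g = g⁻¹ * (s * b) * g := by
    calc g⁻¹ * (b * s) * g = g⁻¹ * b * g * (g⁻¹ * s * g) := by group
      _ = g⁻¹ * s * g * (g⁻¹ * b * g) := this
      _ = g⁻¹ * (s * b) * g := by group
  exact mul_left_cancel (mul_right_cancel h2)

theorem Hyp.subgroupOf {A H : Subgroup G} (h : Hyp A) (hAH : A ≤ H) : Hyp (A.subgroupOf H) := by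
  refine ⟨?_, ?_⟩
  · have := h.1
    exact Group.isSolvable_of_isSolvable_injective (f := (Subgroup.subgroupOfEquivOfLe hAH).toMonoidHom)
      (Subgroup.subgroupOfEquivOfLe hAH).injective
  · intro S hS hSs a ha s hs
    have hle : A ≤ S.map H.subtype := by
      intro x hx
      exact ⟨⟨x, hAH hx⟩, hS (by simpa [Subgroup.mem_subgroupOf] using hx), rfl⟩
    have hsol := map_solvable H.subtype S hSs
    have := h.2 _ hle hsol a (by simpa [Subgroup.mem_subgroupOf] using ha) s ⟨s, hs, rfl⟩
    exact Subtype.ext this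

end Aux

theorem main (n : ℕ) : ∀ (G : Type u) [Group G] [Finite G], Nat.card G = n →
    ∀ A : Subgroup G, Hyp A → A ≤ Subgroup.center G := by
  induction n using Nat.strong_induction_on with
  | _ n ih =>
  intro G _ _ hcard A hA
  classical
  -- centrality in proper overgroups
  have key : ∀ B : Subgroup G, Hyp B → ∀ H : Subgroup G, H ≠ ⊤ → B ≤ H →
      ∀ b ∈ B, ∀ h ∈ H, b * h = h * b := by
    intro B hB H hH hBH b hb h hh
    have hlt : Nat.card H < n := by
      rw [← hcard]
      exact lt_of_le_of_ne (Subgroup.card_le_card_group H)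
        (fun h => hH (Subgroup.eq_top_of_card_eq H h))
    have := ih _ hlt H rfl _ (hB.subgroupOf hBH)
    have h2 : (⟨b, hBH hb⟩ : H) ∈ Subgroup.center H :=
      this (by simpa [Subgroup.mem_subgroupOf] using hb)
    have h3 := (Subgroup.mem_center_iff.mp h2 ⟨h, hh⟩)
    exact (congrArg Subtype.val h3).symm
  by_contra hnot
  -- `C` is the centralizer
  set C : Subgroup G := Subgroup.centralizer (A : Set G) with hC
  have memC : ∀ x, x ∈ C ↔ ∀ a ∈ A, a * x = x * a := by
    intro x
    rw [hC, Subgroup.mem_centralizer_iff]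
    exact Iff.rfl
  have hAC : A ≤ C := by
    intro a ha
    rw [memC]
    intro b hb
    exact hA.2 A le_rfl hA.1 b hb a ha
  have hCtop : C ≠ ⊤ := by
    intro htop
    apply hnot
    intro a ha
    rw [Subgroup.mem_center_iff]
    intro g
    have : g ∈ C := by rw [htop]; trivial
    exact ((memC g).mp this a ha).symm
  have hZC : Subgroup.center G ≤ C := by
    intro z hz
    rw [memC]
    intro a _
    exact (Subgroup.mem_center_iff.mp hz a)
  have hCZ : ¬ C ≤ Subgroup.center G := fun h => hnot (hAC.trans h)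
  -- every proper overgroup of `A` lies in `C`
  have hover : ∀ H : Subgroup G, H ≠ ⊤ → A ≤ H → H ≤ C := by
    intro H hH hAH h hh
    rw [memC]
    intro a ha
    exact key A hA H hH hAH a ha h hh
  -- `C` is not normal
  have hCn : ¬ C.Normal := by
    intro hn
    -- `E = Z(C)`
    let E : Subgroup G := C ⊓ Subgroup.centralizer (C : Set G)
    have hEn : E.Normal := by
      refine ⟨fun x hx g => ⟨hn.conj_mem _ hx.1 g, ?_⟩⟩
      show g * x * g⁻¹ ∈ Subgroup.centralizer (C : Set G)
      rw [Subgroup.mem_centralizer_iff]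
      intro c hc
      have hc' : g⁻¹ * c * g ∈ C := by
        have := hn.conj_mem _ hc g⁻¹
        simpa using this
      have := Subgroup.mem_centralizer_iff.mp hx.2 _ hc'
      have h2 : g * (g⁻¹ * c * g * x) * g⁻¹ = g * (x * (g⁻¹ * c * g)) * g⁻¹ := by rw [this]
      calc c * (g * x * g⁻¹) = g * (g⁻¹ * c * g * x) * g⁻¹ := by group
        _ = g * (x * (g⁻¹ * c * g)) * g⁻¹ := h2
        _ = g * x * g⁻¹ * c := by group
    have hAE : A ≤ E := by
      intro a ha
      refine ⟨hAC ha, ?_⟩
      show a ∈ Subgroup.centralizer (C : Set G)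
      rw [Subgroup.mem_centralizer_iff]
      intro c hc
      exact ((memC c).mp hc a ha).symm
    have hEs : Group.IsSolvable E := by
      apply Group.isSolvable_of_comm
      intro x y
      apply Subtype.ext
      exact (Subgroup.mem_centralizer_iff.mp x.2.2 y y.2.1).symm
    obtain ⟨y, hy⟩ : ∃ y, y ∉ C := by
      by_contra hall
      push Not at hall
      exact hCtop (eq_top_iff.mpr fun y _ => hall y)
    have hZs : Group.IsSolvable (Subgroup.zpowers y) := inferInstance
    have hsol := sup_solvable (X := E) (Y := Subgroup.zpowers y)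
      (by rw [Subgroup.normalizer_eq_top]; exact le_top) hEs hZs
    apply hy
    rw [memC]
    intro a ha
    exact hA.2 _ (hAE.trans le_sup_left) hsol a ha y
      (Subgroup.mem_sup_right (Subgroup.mem_zpowers y))
  -- self-normalizing
  have hNC : ∀ g : G, g ∈ Subgroup.normalizer (C : Set G) → g ∈ C := by
    intro g hg
    have hne : Subgroup.normalizer (C : Set G) ≠ ⊤ := by
      intro htop
      exact hCn (Subgroup.normalizer_eq_top_iff.mp htop)
    exact hover _ hne (hAC.trans Subgroup.le_normalizer) hg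
  -- generation
  have hgen : ∀ g : G, g ∉ C → A ⊔ cj A g = ⊤ := by
    intro g hg
    by_contra hne
    apply hg
    apply hNC
    have hle : cj A g ≤ C := (le_sup_right.trans (hover _ hne le_sup_left))
    have hcom := key _ (hA.cj g) C hCtop hle
    -- conjugation by `g⁻¹` maps `C` into `C`
    have hsub : ∀ h ∈ C, g⁻¹ * h * g ∈ C := by
      intro h hh
      rw [memC]
      intro a ha
      have hb : g * a * g⁻¹ ∈ cj A g := by
        rw [mem_cj]; simpa [mul_assoc] using ha
      have := hcom _ hb h hh
      have h2 : g⁻¹ * (g * a * g⁻¹ * h) * g = g⁻¹ * (h * (g * a * g⁻¹)) * g := by rw [this]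
      calc a * (g⁻¹ * h * g) = g⁻¹ * (g * a * g⁻¹ * h) * g := by group
        _ = g⁻¹ * (h * (g * a * g⁻¹)) * g := h2
        _ = g⁻¹ * h * g * a := by group
    have hmapeq : cj C g⁻¹ = C := by
      apply Subgroup.eq_of_le_of_card_ge
      · intro x hx
        have := mem_cj.mp hx
        have h3 : g * x * g⁻¹ ∈ C := by simpa using this
        have := hsub _ h3
        simpa [mul_assoc] using this
      · exact le_of_eq (Nat.card_congr
          (Subgroup.equivMapOfInjective C _ (MulAut.conj g⁻¹).injective).toEquiv)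
    rw [Subgroup.mem_normalizer_iff'']
    intro h
    constructor
    · exact hsub h
    · intro hh
      rw [← hmapeq] at hh
      have := mem_cj.mp hh
      have h3 : g * (g⁻¹ * h * g) * g⁻¹ = h := by group
      have h4 : g⁻¹⁻¹ = g := inv_inv g
      rw [h4] at this
      rw [h3] at this
      exact this
  -- `C` is TI modulo the centre
  have hF : ∀ g : G, g ∉ C → C ⊓ (MulAut.conj g • C) ≤ Subgroup.center G := by
    intro g hg x hx
    rw [Subgroup.mem_center_iff]
    intro y
    have hx2 : g⁻¹ * x * g ∈ C :=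
      Cfsg.Agent.Lib.Solvable.FrobQuot.mem_conj_smul_iff'.mp hx.2
    have hle : A ⊔ cj A g ≤ Subgroup.centralizer ({x} : Set G) := by
      refine sup_le ?_ ?_
      · intro a ha
        rw [Subgroup.mem_centralizer_iff]
        intro w hw
        rw [Set.mem_singleton_iff] at hw
        subst hw
        exact ((memC w).mp hx.1 a ha).symm
      · intro b hb
        rw [Subgroup.mem_centralizer_iff]
        intro w hw
        rw [Set.mem_singleton_iff] at hw
        subst hw
        have hb' := mem_cj.mp hb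
        have := (memC _).mp hx2 _ hb'
        have h2 : g * (g⁻¹ * b * g * (g⁻¹ * w * g)) * g⁻¹ =
            g * (g⁻¹ * w * g * (g⁻¹ * b * g)) * g⁻¹ := by rw [this]
        calc w * b = g * (g⁻¹ * w * g * (g⁻¹ * b * g)) * g⁻¹ := by group
          _ = g * (g⁻¹ * b * g * (g⁻¹ * w * g)) * g⁻¹ := h2.symm
          _ = b * w := by group
    rw [hgen g hg] at hle
    have := hle (Subgroup.mem_top y)
    rw [Subgroup.mem_centralizer_iff] at this
    exact (this x rfl).symm
  -- the quotient
  let Z : Subgroup G := Subgroup.center G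
  have hFr := Cfsg.Agent.Lib.Solvable.FrobQuot.isFrobeniusComplement_map C Z hZC hCZ hCtop hF
  obtain ⟨N, hN, hNn, hNc⟩ := Cfsg.Agent.Lib.Char.FrobeniusKernel.frobenius_theorem _ hFr
  let π := QuotientGroup.mk' Z
  have hker : π.ker = Z := QuotientGroup.ker_mk' Z
  let D := C.map π
  let Ab := A.map π
  have hAbD : Ab ≤ D := Subgroup.map_mono hAC
  have hNbot : N ≠ ⊥ := by
    intro hbot
    have := hNc.sup_eq_top
    rw [hbot, bot_sup_eq] at this
    exact hFr.2.1 this
  have hNcard : Nat.card N ≠ 1 := by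
    intro h
    exact hNbot (Subgroup.eq_bot_of_card_eq N h)
  obtain ⟨q, hq, hqN⟩ := Nat.exists_prime_and_dvd hNcard
  haveI : Fact q.Prime := ⟨hq⟩
  have hcop : (Nat.card Ab).Coprime (Nat.card N) := by
    have h1 : Nat.card N = D.index := by
      exact hNc.index_eq_card.symm
    have h2 : (D.index).Coprime (Nat.card D) :=
      Cfsg.Agent.Lib.Frobenius.Basic.coprime_index_card hFr
    rw [h1]
    exact (h2.coprime_dvd_right (Subgroup.card_dvd_of_le hAbD)).symm
  have hAbN : Ab ≤ Subgroup.normalizer (N : Set (G ⧸ Z)) := by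
    rw [Subgroup.normalizer_eq_top]; exact le_top
  have hAbs : Group.IsSolvable Ab := map_solvable _ A hA.1
  obtain ⟨P, hP⟩ := Cfsg.Agent.Lib.Coprime.InvSylow.exists_invariant_sylow hAbN hcop (Or.inl hAbs) q
  let Qb : Subgroup (G ⧸ Z) := (P : Subgroup N).map N.subtype
  have hQbp : IsPGroup q Qb := P.isPGroup'.map N.subtype
  have hQbbot : Qb ≠ ⊥ := by
    intro hbot
    have h1 := P.ne_bot_of_dvd_card hqN
    apply h1
    exact (Subgroup.map_eq_bot_iff_of_injective _ N.subtype_injective).mp hbot
  let Q : Subgroup G := Qb.comap π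
  -- `Q` is solvable
  have hQs : Group.IsSolvable Q := by
    have : Group.IsNilpotent Qb := hQbp.isNilpotent
    have : Group.IsSolvable Qb := inferInstance
    have : Group.IsSolvable (Subgroup.center G) := 
      Group.isSolvable_of_comm (fun x y => Subtype.ext (Subgroup.mem_center_iff.mp y.2 x))
    let f : Q →* Qb := π.subgroupComap Qb
    let i : Subgroup.center G →* Q := Subgroup.inclusion (K := Q) (H := Subgroup.center G) (by
      intro z hz
      show π z ∈ Qb
      have : π z = 1 := by
        rw [← MonoidHom.mem_ker, hker]; exact hz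
      rw [this]; exact one_mem _)
    refine Group.isSolvable_of_ker_le_range i f ?_
    intro x hx
    have h1 : π x = 1 := by
      exact congrArg Subtype.val (MonoidHom.mem_ker.mp hx)
    have h2 : (x : G) ∈ Subgroup.center G := by
      rw [← MonoidHom.mem_ker] at h1
      rw [hker] at h1
      exact h1
    exact ⟨⟨x, h2⟩, rfl⟩
  have hAQ : A ≤ Subgroup.normalizer (Q : Set G) := by
    intro a ha
    rw [Subgroup.mem_normalizer_iff]
    intro x
    have h1 : π a ∈ Ab := ⟨a, ha, rfl⟩
    have h2 := hP h1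
    rw [Subgroup.mem_normalizer_iff] at h2
    have h3 := h2 (π x)
    show π x ∈ Qb ↔ π (a * x * a⁻¹) ∈ Qb
    have e : π (a * x * a⁻¹) = π a * π x * (π a)⁻¹ := by simp
    rw [e]
    exact h3
  have hsol := sup_solvable hAQ hQs hA.1
  obtain ⟨a, ha, haZ⟩ : ∃ a ∈ A, a ∉ Subgroup.center G := by
    by_contra hall
    push Not at hall
    exact hnot hall
  obtain ⟨⟨qb, hqb⟩, hqb1'⟩ := Subgroup.ne_bot_iff_exists_ne_one.mp hQbbot
  have hqb1 : qb ≠ 1 := fun h => hqb1' (Subtype.ext h)
  obtain ⟨s, rfl⟩ := QuotientGroup.mk'_surjective Z qb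
  have hs : s ∈ Q := hqb
  have hcomm := hA.2 _ (le_sup_right) hsol a ha s (Subgroup.mem_sup_left hs)
  have hqN' : QuotientGroup.mk' Z s ∈ (N : Set (G ⧸ Z)) := by
    obtain ⟨w, -, hw⟩ := hqb
    rw [← hw]; exact w.2
  rw [hN] at hqN'
  have hcomm2 : π a * π s = π s * π a := by
    rw [← map_mul, ← map_mul, hcomm]
  rcases Cfsg.Agent.Lib.Frobenius.Basic.eq_one_of_commute_of_mem_kernel hFr hqN'
    (⟨a, hAC ha, rfl⟩ : π a ∈ D) hcomm2 with h | h
  · apply haZ
    rw [← MonoidHom.mem_ker] at h
    rw [hker] at h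
    exact h
  · exact hqb1 h

/-- Let A be a solvable subgroup of a finite group G such that A lies in the centre of every solvable subgroup of G containing A. Then A lies in the centre of G. -/
theorem result {G : Type*} [Group G] [Finite G]
    (A : Subgroup G) (hA : Group.IsSolvable A)
    (hc : ∀ S : Subgroup G, A ≤ S → Group.IsSolvable S → ∀ a ∈ A, ∀ s ∈ S, a * s = s * a) : A ≤ Subgroup.center G :=
  main _ G rfl A ⟨hA, hc⟩

end Cfsg.Agent.S4097
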