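import Cfsg.Statements.S4106
import Cfsg.Agent.Lib.Transfer.Basic
import Cfsg.Agent.Lib.Basic.SylowUtil
import Cfsg.Agent.Lib.Basic.ConjCount
import Mathlib

set_option autoImplicit false
open Cfsg

namespace Cfsg.Agent.S4106

universe u

/-- The class `C` consists of `π`-elements. -/
def IsPiClass {G : Type u} [Group G] (π : Set ℕ) (C : ConjClasses G) : Prop :=
  ∀ q : ℕ, q.Prime → (∃ g : G, ConjClasses.mk g = C ∧ q ∣ orderOf g) → q ∈ π

theorem isPiClass_mk {G : Type u} [Group G] {π : Set ℕ} {x : G}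
    (h : ∀ q : ℕ, q.Prime → q ∣ orderOf x → q ∈ π) : IsPiClass π (ConjClasses.mk x) := by
  rintro q hq ⟨g, hg, hd⟩
  have hc : IsConj g x := ConjClasses.mk_eq_mk_iff_isConj.mp hg
  rw [Cfsg.Agent.Lib.Basic.ConjCount.orderOf_eq_of_isConj hc] at hd
  exact h q hq hd

theorem main (π : Finset ℕ) (hπ : ∀ q ∈ π, q.Prime) :
    ∀ (G : Type u) [Group G] [Finite G] (m : ℕ), 0 < m →
      (∀ q ∈ π, ∀ k, q ^ k ∣ Nat.card G → q ^ k ∣ m) →
      Nat.card {C : ConjClasses G // IsPiClass (π : Set ℕ) C} ≤ m := by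
  classical
  induction π using Finset.induction_on with
  | empty =>
    intro G _ _ m hm _
    have hsub : Subsingleton {C : ConjClasses G // IsPiClass ((∅ : Finset ℕ) : Set ℕ) C} := by
      have key : ∀ C : {C : ConjClasses G // IsPiClass ((∅ : Finset ℕ) : Set ℕ) C},
          C.1 = ConjClasses.mk 1 := by
        rintro ⟨C, hC⟩
        obtain ⟨x, rfl⟩ := ConjClasses.mk_surjective C
        have h1 : orderOf x = 1 := by
          by_contra hne
          obtain ⟨q, hq, hd⟩ := Nat.exists_prime_and_dvd hne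
          have := hC q hq ⟨x, rfl, hd⟩
          simp at this
        have h2 : x = 1 := orderOf_eq_one_iff.mp h1
        show ConjClasses.mk x = ConjClasses.mk 1
        rw [h2]
      constructor
      intro a b
      exact Subtype.ext ((key a).trans (key b).symm)
    have h0 : Nat.card {C : ConjClasses G // IsPiClass ((∅ : Finset ℕ) : Set ℕ) C} ≤ 1 :=
      Finite.card_le_one_iff_subsingleton.mpr hsub
    omega
  | insert p ρ hpρ ih =>
    intro G _ _ m hm hdiv
    have hp : p.Prime := hπ p (Finset.mem_insert_self _ _)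
    haveI : Fact p.Prime := ⟨hp⟩
    obtain ⟨P⟩ : Nonempty (Sylow p G) := inferInstance
    obtain ⟨e, he⟩ := P.2.exists_card_eq
    have h1 : p ^ e ∣ m :=
      hdiv p (Finset.mem_insert_self _ _) e (he ▸ Subgroup.card_subgroup_dvd_card _)
    obtain ⟨m', rfl⟩ := h1
    have hm' : 0 < m' := Nat.pos_of_mul_pos_left hm
    have hbound : ∀ u : G, Nat.card {D : ConjClasses (Subgroup.centralizer ({u} : Set G)) //
        IsPiClass (ρ : Set ℕ) D} ≤ m' := by
      intro u
      refine ih (fun q hq => hπ q (Finset.mem_insert_of_mem hq)) _ _ hm' ?_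
      intro q hq k hk
      have hk' : q ^ k ∣ Nat.card G := hk.trans (Subgroup.card_subgroup_dvd_card _)
      have h2 := hdiv q (Finset.mem_insert_of_mem hq) k hk'
      have hqp : q ≠ p := fun h => hpρ (h ▸ hq)
      have hc : Nat.Coprime (q ^ k) (p ^ e) :=
        Nat.Coprime.pow _ _ ((Nat.coprime_primes (hπ q (Finset.mem_insert_of_mem hq)) hp).mpr hqp)
      exact hc.dvd_of_dvd_mul_left h2
    haveI : Fintype (ConjClasses G) := Fintype.ofFinite _
    haveI : Fintype P := Fintype.ofFinite _
    let X : Finset (ConjClasses G) := Finset.univ.filter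
      (IsPiClass ((insert p ρ : Finset ℕ) : Set ℕ))
    let Xu : P → Finset (ConjClasses G) := fun u => X.filter (fun C =>
      ∃ v : G, v ∈ Subgroup.centralizer ({(u : G)} : Set G) ∧
        (∀ q : ℕ, q.Prime → q ∣ orderOf v → q ∈ (ρ : Set ℕ)) ∧ ConjClasses.mk ((u : G) * v) = C)
    have hcard : Nat.card {C : ConjClasses G // IsPiClass ((insert p ρ : Finset ℕ) : Set ℕ) C} =
        X.card := by
      apply Nat.subtype_card
      intro C
      simp [X]
    have hcover : X ⊆ (Finset.univ : Finset P).biUnion Xu := by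
      intro C hC
      have hC' : IsPiClass ((insert p ρ : Finset ℕ) : Set ℕ) C := (Finset.mem_filter.mp hC).2
      obtain ⟨x, rfl⟩ := ConjClasses.mk_surjective C
      obtain ⟨a, b, hab, hcomm, -, hbz, ⟨k, hk⟩, hb⟩ :=
        Cfsg.Agent.Lib.Transfer.Basic.exists_pPart_decomp (p := p) x
      obtain ⟨Q, hQ⟩ := Cfsg.Agent.Lib.Basic.SylowUtil.exists_sylow_of_orderOf hk
      obtain ⟨g, hg⟩ := MulAction.exists_smul_eq G Q P
      have hu : g * a * g⁻¹ ∈ (P : Subgroup G) := by
        rw [← hg]
        exact Subgroup.mem_map.mpr ⟨a, hQ, rfl⟩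
      refine Finset.mem_biUnion.mpr ⟨⟨_, hu⟩, Finset.mem_univ _, Finset.mem_filter.mpr ⟨hC, ?_⟩⟩
      refine ⟨g * b * g⁻¹, ?_, ?_, ?_⟩
      · rw [Subgroup.mem_centralizer_singleton_iff]
        have : a * b = b * a := hcomm
        show g * b * g⁻¹ * (g * a * g⁻¹) = g * a * g⁻¹ * (g * b * g⁻¹)
        calc g * b * g⁻¹ * (g * a * g⁻¹) = g * (b * a) * g⁻¹ := by group
          _ = g * (a * b) * g⁻¹ := by rw [this]
          _ = _ := by group
      · intro q hq hd
        have h3 : orderOf (g * b * g⁻¹) = orderOf b :=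
          (Cfsg.Agent.Lib.Basic.ConjCount.orderOf_eq_of_isConj
            (isConj_iff.mpr ⟨g, rfl⟩)).symm
        rw [h3] at hd
        have h4 : orderOf b ∣ orderOf x := orderOf_dvd_of_mem_zpowers hbz
        have h5 := hC' q hq ⟨x, rfl, hd.trans h4⟩
        simp only [Finset.coe_insert, Set.mem_insert_iff] at h5
        rcases h5 with h5 | h5
        · exfalso
          rw [h5] at hd
          have := Nat.Coprime.eq_one_of_dvd hb.symm hd
          exact hp.one_lt.ne' this
        · exact h5
      · rw [ConjClasses.mk_eq_mk_iff_isConj]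
        rw [isConj_comm, isConj_iff]
        refine ⟨g, ?_⟩
        rw [← hab]
        show g * (a * b) * g⁻¹ = g * a * g⁻¹ * (g * b * g⁻¹)
        group
    have hXu : ∀ u : P, (Xu u).card ≤ m' := by
      intro u
      have hex : ∀ C : Xu u, ∃ v : Subgroup.centralizer ({(u : G)} : Set G),
          (∀ q : ℕ, q.Prime → q ∣ orderOf (v : G) → q ∈ (ρ : Set ℕ)) ∧
            ConjClasses.mk ((u : G) * (v : G)) = C.1 := by
        rintro ⟨C, hC⟩
        obtain ⟨v, hv, h1, h2⟩ := (Finset.mem_filter.mp hC).2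
        exact ⟨⟨v, hv⟩, h1, h2⟩
      choose V hV1 hV2 using hex
      let F : Xu u → {D : ConjClasses (Subgroup.centralizer ({(u : G)} : Set G)) //
          IsPiClass (ρ : Set ℕ) D} := fun C => ⟨ConjClasses.mk (V C), isPiClass_mk (by
            intro q hq hd
            rw [← Subgroup.orderOf_coe] at hd
            exact hV1 C q hq hd)⟩
      have hF : Function.Injective F := by
        intro C C' h
        have h1 : ConjClasses.mk (V C) = ConjClasses.mk (V C') := congrArg Subtype.val h
        rw [ConjClasses.mk_eq_mk_iff_isConj, isConj_iff] at h1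
        obtain ⟨c, hc⟩ := h1
        apply Subtype.ext
        rw [← hV2 C, ← hV2 C', ConjClasses.mk_eq_mk_iff_isConj, isConj_iff]
        refine ⟨c, ?_⟩
        have hcu : (c : G) * u = u * c := by
          have := Subgroup.mem_centralizer_singleton_iff.mp c.2
          exact this
        have hc' : (c : G) * (V C : G) * (c : G)⁻¹ = (V C' : G) := by
          have := congrArg Subtype.val hc
          simpa using this
        rw [← hc']
        calc (c : G) * ((u : G) * (V C : G)) * (c : G)⁻¹
            = ((c : G) * u) * (V C : G) * (c : G)⁻¹ := by group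
          _ = (u * (c : G)) * (V C : G) * (c : G)⁻¹ := by rw [hcu]
          _ = _ := by group
      have h3 := Nat.card_le_card_of_injective F hF
      rw [Nat.card_eq_fintype_card, Fintype.card_coe] at h3
      exact h3.trans (hbound u)
    rw [hcard]
    calc X.card ≤ ((Finset.univ : Finset P).biUnion Xu).card := Finset.card_le_card hcover
      _ ≤ ∑ u : P, (Xu u).card := Finset.card_biUnion_le
      _ ≤ ∑ _u : P, m' := Finset.sum_le_sum (fun u _ => hXu u)
      _ = p ^ e * m' := by
        rw [Finset.sum_const, Finset.card_univ, ← Nat.card_eq_fintype_card, he, smul_eq_mul]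

/-- Let G be a finite group, π a set of primes and m the π-part of the order of G. Then the number of conjugacy classes of G consisting of π-elements (elements whose order is divisible only by primes in π) is at most m. -/
theorem result {G : Type*} [Group G] [Finite G]
    (π : Set ℕ) (hπ : ∀ q ∈ π, q.Prime)
    (m : ℕ) (hm : m ∣ Nat.card G) (hmπ : ∀ q : ℕ, q.Prime → q ∣ m → q ∈ π)
    (hm' : ∀ q ∈ π, ¬ q ∣ Nat.card G / m) :
    Nat.card {C : ConjClasses G // ∀ q : ℕ, q.Prime → (∃ g : G, ConjClasses.mk g = C ∧ q ∣ orderOf g) → q ∈ π} ≤ m := by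
  classical
  let π' : Finset ℕ := (Nat.card G).primeFactors.filter (· ∈ π)
  have hmem : ∀ q, q ∈ π' ↔ q.Prime ∧ q ∣ Nat.card G ∧ q ∈ π := by
    intro q
    simp only [π', Finset.mem_filter, Nat.mem_primeFactors]
    constructor
    · rintro ⟨⟨h1, h2, -⟩, h3⟩
      exact ⟨h1, h2, h3⟩
    · rintro ⟨h1, h2, h3⟩
      exact ⟨⟨h1, h2, Nat.card_pos.ne'⟩, h3⟩
  have hmpos : 0 < m := Nat.pos_of_dvd_of_pos hm Nat.card_pos
  have h1 := main π' (fun q hq => ((hmem q).mp hq).1) G m hmpos (by
    intro q hq k hk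
    obtain ⟨h1, -, h3⟩ := (hmem q).mp hq
    have h4 : Nat.card G = m * (Nat.card G / m) := (Nat.mul_div_cancel' hm).symm
    rw [h4] at hk
    have h5 : Nat.Coprime (q ^ k) (Nat.card G / m) :=
      Nat.Coprime.pow_left _ ((Nat.Prime.coprime_iff_not_dvd h1).mpr (hm' q h3))
    exact h5.dvd_of_dvd_mul_right hk)
  refine le_trans (le_of_eq (Nat.card_congr (Equiv.subtypeEquivRight ?_))) h1
  intro C
  constructor
  · intro h q hq ⟨g, hg, hd⟩
    have h3 := h q hq ⟨g, hg, hd⟩
    exact Finset.mem_coe.mpr ((hmem q).mpr ⟨hq, hd.trans (orderOf_dvd_natCard g), h3⟩)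
  · intro h q hq ⟨g, hg, hd⟩
    exact ((hmem q).mp (Finset.mem_coe.mp (h q hq ⟨g, hg, hd⟩))).2.2

end Cfsg.Agent.S4106
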