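import Cfsg.Statements.S4107
import Mathlib
import Cfsg.Agent.Lib.Nilpotent.Fitting
import Cfsg.Agent.Lib.Nilpotent.Elements

set_option autoImplicit false
open Cfsg

namespace Cfsg.Agent.S4107

open Cfsg.Agent.Lib.Nilpotent.Fitting Cfsg.Agent.Lib.Nilpotent.Elements

variable {G : Type*} [Group G] [Finite G]

theorem isPGroup_of_pCore_not_le (N : Subgroup G) [N.Normal]
    (heq : ∀ x : G, x ∉ N → ∀ n ∈ N, orderOf (x * n) = orderOf x) {p : ℕ} [hp : Fact p.Prime]
    (h : ¬ Cfsg.pCore p G ≤ N) : IsPGroup p N := by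
  obtain ⟨x, hxO, hxN⟩ := SetLike.not_le_iff_exists.1 h
  rintro ⟨y, hy⟩
  have hpO : IsPGroup p (Cfsg.pCore p G) := isPGroup_pCore p
  obtain ⟨a, ha⟩ := (exists_pow_eq_one_iff x).1 (exists_pow_eq_one_of_mem hpO hxO)
  have h1 : (x * y) ^ p ^ a = 1 := by
    rw [← ha, ← heq x hxN y hy, pow_orderOf_eq_one]
  haveI := pCore_normal (G := G) p
  -- in `G / O_p`, the image of `y` is killed by `p ^ a`
  have h2 : y ^ p ^ a ∈ Cfsg.pCore p G := by
    rw [← QuotientGroup.eq_one_iff]
    have h3 : ((x * y : G) : G ⧸ Cfsg.pCore p G) = (y : G ⧸ Cfsg.pCore p G) := by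
      rw [QuotientGroup.mk_mul, (QuotientGroup.eq_one_iff x).2 hxO, one_mul]
    have h4 : ((x * y : G) : G ⧸ Cfsg.pCore p G) ^ p ^ a = 1 := by
      rw [← QuotientGroup.mk_pow, h1, QuotientGroup.mk_one]
    rw [h3] at h4
    rw [QuotientGroup.mk_pow]
    exact h4
  obtain ⟨b, hb⟩ := exists_pow_eq_one_of_mem hpO h2
  refine ⟨a + b, Subtype.ext ?_⟩
  simp only [Subgroup.coe_pow, Subgroup.coe_one]
  rw [pow_add, pow_mul]
  exact hb

/-- Let G be a finite group and N a proper non-trivial normal subgroup such that for every x outside N all elements of the coset xN have the same order as x. Then N ≤ F(G) or F(G) ≤ N, where F(G) is the Fitting subgroup; and if N is properly contained in F(G) then F(G) has prime-power order. -/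
theorem result {G : Type*} [Group G] [Finite G] (N : Subgroup G) [N.Normal] (hN1 : N ≠ ⊥) (hN2 : N ≠ ⊤)
    (heq : ∀ x : G, x ∉ N → ∀ n ∈ N, orderOf (x * n) = orderOf x) :
    (N ≤ Cfsg.fittingSubgroup G ∨ Cfsg.fittingSubgroup G ≤ N) ∧
    (N < Cfsg.fittingSubgroup G → IsPrimePow (Nat.card (Cfsg.fittingSubgroup G))) := by
  have hall : (∀ p : Nat.Primes, Cfsg.pCore (p : ℕ) G ≤ N) → Cfsg.fittingSubgroup G ≤ N := by
    intro h
    rw [fittingSubgroup_eq_iSup_primes]
    exact iSup_le h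
  constructor
  · by_cases h : ∀ p : Nat.Primes, Cfsg.pCore (p : ℕ) G ≤ N
    · exact Or.inr (hall h)
    · push_neg at h
      obtain ⟨p, hp⟩ := h
      haveI : Fact (p : ℕ).Prime := ⟨p.2⟩
      left
      have hNp := isPGroup_of_pCore_not_le N heq hp
      exact (le_pCore hNp).trans (pCore_le_fittingSubgroup _)
  · intro hlt
    have hnot : ¬ ∀ p : Nat.Primes, Cfsg.pCore (p : ℕ) G ≤ N := by
      intro h
      exact absurd (hall h) (not_le_of_gt hlt)
    push_neg at hnot
    obtain ⟨p, hp⟩ := hnot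
    haveI hpf : Fact (p : ℕ).Prime := ⟨p.2⟩
    have hNp := isPGroup_of_pCore_not_le N heq hp
    have hNO : N ≤ Cfsg.pCore (p : ℕ) G := le_pCore hNp
    have hF : Cfsg.fittingSubgroup G ≤ Cfsg.pCore (p : ℕ) G := by
      rw [fittingSubgroup_eq_iSup_primes]
      refine iSup_le fun q => ?_
      by_cases hqp : (q : ℕ) = p
      · rw [hqp]
      · by_cases hq : Cfsg.pCore (q : ℕ) G ≤ N
        · exact hq.trans hNO
        · exfalso
          haveI : Fact (q : ℕ).Prime := ⟨q.2⟩
          have hNq := isPGroup_of_pCore_not_le N heq hq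
          apply hN1
          rw [eq_bot_iff]
          intro y hy
          obtain ⟨a, ha⟩ := exists_pow_eq_one_of_mem hNp hy
          obtain ⟨b, hb⟩ := exists_pow_eq_one_of_mem hNq hy
          have h1 : orderOf y ∣ (p : ℕ) ^ a := orderOf_dvd_of_pow_eq_one ha
          have h2 : orderOf y ∣ (q : ℕ) ^ b := orderOf_dvd_of_pow_eq_one hb
          have hcop : Nat.Coprime ((p : ℕ) ^ a) ((q : ℕ) ^ b) :=
            Nat.Coprime.pow _ _ ((Nat.coprime_primes p.2 q.2).2 (Ne.symm hqp))
          have h3 : orderOf y = 1 := Nat.eq_one_of_dvd_coprimes hcop h1 h2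
          exact Subgroup.mem_bot.2 (orderOf_eq_one_iff.1 h3)
    have hpF : IsPGroup (p : ℕ) (Cfsg.fittingSubgroup G) :=
      (isPGroup_pCore (G := G) (p : ℕ)).to_le hF
    obtain ⟨k, hk⟩ := IsPGroup.iff_card.1 hpF
    rw [hk]
    refine ⟨p, k, p.2.prime, ?_, rfl⟩
    rcases Nat.eq_zero_or_pos k with rfl | h0
    · exfalso
      rw [pow_zero] at hk
      have hsub : Subsingleton (Cfsg.fittingSubgroup G) := (Nat.card_eq_one_iff_unique.1 hk).1
      apply hN1
      rw [eq_bot_iff]
      intro y hy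
      have : (⟨y, hlt.le hy⟩ : Cfsg.fittingSubgroup G) = 1 := Subsingleton.elim _ _
      exact Subgroup.mem_bot.2 (congrArg Subtype.val this)
    · exact h0

end Cfsg.Agent.S4107
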