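import Cfsg.Statements.S4108
import Mathlib
import Cfsg.Agent.Lib.Frobenius.Basic

set_option autoImplicit false
open Cfsg

namespace Cfsg.Agent.S4108

/-- Let G be a finite group, p a prime and N a proper non-trivial normal p-subgroup such that for every x outside N all elements of the coset xN have the same order as x. Then every non-trivial subgroup H of G of order prime to p acts fixed-point-freely on N: NH is a Frobenius group with complement H and kernel N. -/
theorem result {G : Type*} [Group G] [Finite G] (N : Subgroup G) [N.Normal] (hN1 : N ≠ ⊥) (hN2 : N ≠ ⊤)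
    (heq : ∀ x : G, x ∉ N → ∀ n ∈ N, orderOf (x * n) = orderOf x)
    (p : ℕ) [Fact p.Prime] (hNp : IsPGroup p N) :
    ∀ H : Subgroup G, H ≠ ⊥ → (Nat.card H).Coprime p →
      Cfsg.IsFrobeniusComplement (H.subgroupOf (N ⊔ H)) ∧ Cfsg.frobeniusKernel (H.subgroupOf (N ⊔ H)) = (N.subgroupOf (N ⊔ H) : Set ↥(N ⊔ H)) := by
  intro H hH1 hcop
  classical
  obtain ⟨m, hm⟩ := IsPGroup.iff_card.mp hNp
  have hcop2 : (Nat.card N).Coprime (Nat.card H) := by
    rw [hm]
    exact (Nat.Coprime.pow_right m hcop).symm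
  have hdis : ∀ x, x ∈ N → x ∈ H → x = 1 := by
    intro x h1 h2
    have := (Subgroup.disjoint_of_coprime_natCard hcop2).le_bot (Subgroup.mem_inf.mpr ⟨h1, h2⟩)
    simpa using this
  set A := N ⊔ H with hA
  let K : Subgroup A := N.subgroupOf A
  let H' : Subgroup A := H.subgroupOf A
  haveI hKn : K.Normal := Subgroup.Normal.subgroupOf inferInstance _
  have hc : K.IsComplement' H' := by
    apply Subgroup.isComplement'_of_disjoint_and_mul_eq_univ
    · rw [Subgroup.disjoint_def]
      rintro x hx hx'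
      have h1 := hdis _ (Subgroup.mem_subgroupOf.mp hx) (Subgroup.mem_subgroupOf.mp hx')
      exact Subtype.ext h1
    · ext x
      simp only [Set.mem_mul, Set.mem_univ, iff_true]
      have hx := x.2
      obtain ⟨a, ha, b, hb, hab⟩ := Subgroup.mem_sup_of_normal_left.mp hx
      refine ⟨⟨a, (le_sup_left : N ≤ A) ha⟩, Subgroup.mem_subgroupOf.mpr ha,
        ⟨b, (le_sup_right : H ≤ A) hb⟩, Subgroup.mem_subgroupOf.mpr hb, Subtype.ext hab⟩
  have hK : K ≠ ⊥ := by
    intro h
    apply hN1
    rw [eq_bot_iff]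
    intro x hx
    have h1 : (⟨x, (le_sup_left : N ≤ A) hx⟩ : A) ∈ K := Subgroup.mem_subgroupOf.mpr hx
    rw [h, Subgroup.mem_bot] at h1
    exact congrArg Subtype.val h1
  have hH' : H' ≠ ⊥ := by
    intro h
    apply hH1
    rw [eq_bot_iff]
    intro x hx
    have h1 : (⟨x, (le_sup_right : H ≤ A) hx⟩ : A) ∈ H' := Subgroup.mem_subgroupOf.mpr hx
    rw [h, Subgroup.mem_bot] at h1
    exact congrArg Subtype.val h1
  have hfix : ∀ h ∈ H', h ≠ 1 → ∀ k ∈ K, h * k = k * h → k = 1 := by
    intro h hh hh1 k hk hcomm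
    have hh2 : (h : G) ∈ H := Subgroup.mem_subgroupOf.mp hh
    have hk2 : (k : G) ∈ N := Subgroup.mem_subgroupOf.mp hk
    have hhN : (h : G) ∉ N := by
      intro h3
      exact hh1 (Subtype.ext (hdis _ h3 hh2))
    have h1 := heq _ hhN _ hk2
    have hc1 : Commute (h : G) (k : G) := congrArg Subtype.val hcomm
    have hc2 : (orderOf (h : G)).Coprime (orderOf (k : G)) := by
      have h3 : orderOf (h : G) ∣ Nat.card H := Subgroup.orderOf_dvd_natCard H hh2
      have h4 : orderOf (k : G) ∣ Nat.card N := Subgroup.orderOf_dvd_natCard N hk2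
      exact Nat.Coprime.coprime_dvd_left h3 (Nat.Coprime.coprime_dvd_right h4 hcop2.symm)
    rw [hc1.orderOf_mul_eq_mul_orderOf_of_coprime hc2] at h1
    have h5 : 0 < orderOf (h : G) := orderOf_pos _
    have h6 : orderOf (k : G) = 1 := by
      nlinarith [Nat.mul_left_cancel h5 (by rw [h1, mul_one] : orderOf (h : G) * orderOf (k : G) = orderOf (h : G) * 1)]
    exact Subtype.ext (orderOf_eq_one_iff.mp h6)
  refine ⟨Lib.Frobenius.Basic.isFrobeniusComplement_of_complement hc hK hH' hfix, ?_⟩
  exact Lib.Frobenius.Basic.frobeniusKernel_eq_of_complement hc hfix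

end Cfsg.Agent.S4108
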