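import Cfsg.Statements.S4112
import Mathlib
import Cfsg.Agent.Lib.Perm.SylowConj
import Cfsg.Agent.Lib.Basic.SylowUtil

set_option autoImplicit false
open Cfsg

namespace Cfsg.Agent.S4112

open Subgroup

lemma proper_supplement {Γ : Type*} [Group Γ] [Finite Γ] (D : Subgroup Γ) [D.Normal] (p : ℕ)
    [Fact p.Prime] (hpi : ¬ p ∣ D.index) (hpD : p ∣ Nat.card D) :
    ∃ Q : Subgroup Γ, Q ≠ ⊤ ∧ Q ⊔ D = ⊤ := by
  classical
  have hpp : p.Prime := Fact.out
  obtain ⟨P⟩ : Nonempty (Sylow p D) := inferInstance
  have hfr := Sylow.normalizer_sup_eq_top P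
  by_cases hK : Subgroup.normalizer (((P : Subgroup D).map D.subtype : Subgroup Γ) : Set Γ) = ⊤
  · -- the Sylow subgroup is normal
    have hnorm : ((P : Subgroup D).map D.subtype).Normal := Subgroup.normalizer_eq_top_iff.mp hK
    have hP1 : (P : Subgroup D) ≠ ⊥ := P.ne_bot_of_dvd_card hpD
    have hpidx : ¬ p ∣ ((P : Subgroup D).map D.subtype).index := by
      rw [Subgroup.index_map_subtype]
      intro h
      rcases (Nat.Prime.dvd_mul hpp).mp h with h1 | h1
      · exact P.not_dvd_index h1
      · exact hpi h1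
    obtain ⟨e, he⟩ := IsPGroup.iff_card.mp (P.isPGroup'.map D.subtype)
    have hcop : Nat.Coprime (Nat.card ↥((P : Subgroup D).map D.subtype)) ((P : Subgroup D).map D.subtype).index := by
      rw [he]
      exact Nat.Coprime.pow_left e ((Nat.Prime.coprime_iff_not_dvd hpp).mpr hpidx)
    obtain ⟨Q, hQ⟩ := Subgroup.exists_right_complement'_of_coprime hcop
    refine ⟨Q, ?_, ?_⟩
    · rintro rfl
      have h1 := hQ.disjoint
      have h2 : (P : Subgroup D).map D.subtype = ⊥ := by
        rw [disjoint_iff, inf_top_eq] at h1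
        exact h1
      rw [Subgroup.map_eq_bot_iff_of_injective _ D.subtype_injective] at h2
      exact hP1 h2
    · rw [eq_top_iff, ← hQ.sup_eq_top]
      apply sup_le
      · exact le_trans (by
          rintro _ ⟨x, -, rfl⟩
          exact x.2) le_sup_right
      · exact le_sup_left
  · exact ⟨_, hK, hfr⟩

/-- Let G be a finite group and M ≤ N non-trivial proper normal subgroups such that for every g outside N the conjugacy class of g is a union of cosets of M (equivalently gm is conjugate to g for every m ∈ M). Then (1) and (2) below are equivalent, and they imply (3): (1) every g outside N acts fixed-point-freely on M, that is C_G(x) ≤ N for every x ∈ M, x ≠ 1; (2) the index of N in G is coprime to the order of M; (3) there is a subgroup H of G with HN = G and H ∩ M = 1. -/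
theorem result {G : Type*} [Group G] [Finite G] (N M : Subgroup G) [N.Normal] [M.Normal] (hMN : M ≤ N) (hM1 : M ≠ ⊥) (hN2 : N ≠ ⊤)
    (hcam : ∀ g : G, g ∉ N → ∀ m ∈ M, ∃ x : G, x * g * x⁻¹ = g * m) :
    ((∀ x ∈ M, x ≠ 1 → Subgroup.centralizer ({x} : Set G) ≤ N) ↔ N.index.Coprime (Nat.card M)) ∧
    ((∀ x ∈ M, x ≠ 1 → Subgroup.centralizer ({x} : Set G) ≤ N) → ∃ H : Subgroup G, H ⊔ N = ⊤ ∧ H ⊓ M = ⊥) := by
  classical
  have hone : (∀ x ∈ M, x ≠ 1 → Subgroup.centralizer ({x} : Set G) ≤ N) → N.index.Coprime (Nat.card M) := by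
    intro hC
    by_contra hnc
    obtain ⟨p, hpp, hp1, hp2⟩ := Nat.Prime.not_coprime_iff_dvd.mp hnc
    haveI : Fact p.Prime := ⟨hpp⟩
    obtain ⟨P⟩ : Nonempty (Sylow p G) := inferInstance
    have hPN : ¬ (P : Subgroup G) ≤ N := by
      intro h
      exact P.not_dvd_index (hp1.trans (Subgroup.index_dvd_of_le h))
    -- an element of M in P
    have hne : M.subgroupOf (P : Subgroup G) ≠ ⊥ := by
      obtain ⟨x, hx⟩ := exists_prime_orderOf_dvd_card' (G := M) p hp2
      have hxp : IsPGroup p (zpowers (x : G)) := by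
        apply IsPGroup.of_card (n := 1)
        rw [Nat.card_zpowers, Subgroup.orderOf_coe, hx, pow_one]
      obtain ⟨T, hT⟩ := hxp.exists_le_sylow
      obtain ⟨g, hg⟩ := MulAction.exists_smul_eq G T P
      have h1 : g * x * g⁻¹ ∈ (P : Subgroup G) := by
        rw [← hg, Cfsg.Agent.Lib.Perm.SylowConj.mem_smul_iff]
        have e : g⁻¹ * (g * (x : G) * g⁻¹) * g = x := by group
        rw [e]
        exact hT (mem_zpowers _)
      have h2 : g * x * g⁻¹ ∈ M := Subgroup.Normal.conj_mem inferInstance _ x.2 g
      intro hbot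
      have h3 : (⟨g * x * g⁻¹, h1⟩ : (P : Subgroup G)) ∈ M.subgroupOf (P : Subgroup G) :=
        mem_subgroupOf.mpr h2
      rw [hbot, Subgroup.mem_bot] at h3
      have h4 : g * (x : G) * g⁻¹ = 1 := congrArg Subtype.val h3
      have h5 : (x : G) = 1 := by
        have : (x : G) = g⁻¹ * (g * (x : G) * g⁻¹) * g := by group
        rw [this, h4]; group
      have h6 : x = 1 := Subtype.ext h5
      rw [h6, orderOf_one] at hx
      exact hpp.one_lt.ne hx
    have hz := Cfsg.Agent.Lib.Basic.SylowUtil.inf_center_ne_bot_of_isPGroup P.isPGroup' hne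
    obtain ⟨z, hz1, hz2⟩ := (Subgroup.bot_or_exists_ne_one _).resolve_left hz
    have hzM : (z : G) ∈ M := mem_subgroupOf.mp hz1.1
    have hz0 : (z : G) ≠ 1 := fun h => hz2 (Subtype.ext h)
    apply hPN
    refine le_trans ?_ (hC z hzM hz0)
    intro y hy
    rw [mem_centralizer_singleton_iff]
    have := (Subgroup.mem_center_iff.mp hz1.2) ⟨y, hy⟩
    exact (congrArg Subtype.val this)
  have htwo : N.index.Coprime (Nat.card M) → (∀ x ∈ M, x ≠ 1 → Subgroup.centralizer ({x} : Set G) ≤ N) := by
    intro hc x hx hx1 g hg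
    by_contra hgN
    have hgx : g * x = x * g := mem_centralizer_singleton_iff.mp hg
    have key : ∀ n : ℕ, ∀ g : G, orderOf g = n → g ∉ N → g * x = x * g → False := by
      intro n
      induction n using Nat.strong_induction_on with
      | _ n ih =>
        intro g hn hgN hgx
        by_cases hcop : Nat.Coprime (orderOf g) (orderOf x)
        · have h1 : orderOf (g * x) = orderOf g * orderOf x :=
            (show Commute g x from hgx).orderOf_mul_eq_mul_orderOf_of_coprime hcop
          obtain ⟨y, hy⟩ := hcam g hgN x hx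
          have h2 : orderOf (g * x) = orderOf g := by
            rw [← hy]
            exact (MulAut.conj y).orderOf_eq g
          rw [h2] at h1
          have h3 : orderOf x = 1 := by
            have hpos : 0 < orderOf g := orderOf_pos g
            have : orderOf g * 1 = orderOf g * orderOf x := by rw [mul_one]; exact h1
            exact (Nat.eq_of_mul_eq_mul_left hpos this).symm
          exact hx1 (orderOf_eq_one_iff.mp h3)
        · obtain ⟨p, hpp, hp1, hp2⟩ := Nat.Prime.not_coprime_iff_dvd.mp hcop
          have hpM : p ∣ Nat.card M := hp2.trans (Subgroup.orderOf_dvd_natCard M hx)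
          have hpi : ¬ p ∣ N.index := by
            intro h
            have := Nat.dvd_gcd h hpM
            rw [hc] at this
            exact hpp.one_lt.ne' (Nat.dvd_one.mp this)
          have hgpN : g ^ p ∉ N := by
            intro hgp
            apply hgN
            have h1 : (QuotientGroup.mk' N g) ^ p = 1 := by
              rw [← map_pow]
              exact (QuotientGroup.eq_one_iff _).mpr hgp
            have h2 : orderOf (QuotientGroup.mk' N g) ∣ p := orderOf_dvd_of_pow_eq_one h1
            have h3 : orderOf (QuotientGroup.mk' N g) ∣ N.index := orderOf_dvd_natCard _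
            have h4 : Nat.Coprime p N.index := (Nat.Prime.coprime_iff_not_dvd hpp).mpr hpi
            have h5 := Nat.Coprime.eq_one_of_dvd (h4.coprime_dvd_left h2) h3
            have h6 := orderOf_eq_one_iff.mp h5
            exact (QuotientGroup.eq_one_iff _).mp h6
          have hord : orderOf (g ^ p) = orderOf g / p := orderOf_pow_of_dvd hpp.ne_zero hp1
          have hlt : orderOf (g ^ p) < n := by
            rw [hord, ← hn]
            exact Nat.div_lt_self (orderOf_pos g) hpp.one_lt
          exact ih _ hlt (g ^ p) rfl hgpN ((show Commute g x from hgx).pow_left p)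
    exact key _ g rfl hgN hgx
  refine ⟨⟨hone, htwo⟩, ?_⟩
  intro hC
  have hc := hone hC
  obtain ⟨H, hH, hmin⟩ := Set.exists_min_image {H : Subgroup G | H ⊔ N = ⊤} (fun H => Nat.card H)
    (Set.toFinite _) ⟨⊤, top_sup_eq _⟩
  have hH' : H ⊔ N = ⊤ := hH
  refine ⟨H, hH', ?_⟩
  by_contra hne
  have hne' : M.subgroupOf H ≠ ⊥ := by
    intro h
    apply hne
    have := Subgroup.subgroupOf_eq_bot.mp h
    rw [disjoint_iff] at this
    rwa [inf_comm]
  have hcard1 : Nat.card (M.subgroupOf H) ≠ 1 := by
    intro h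
    exact hne' (Subgroup.eq_bot_of_card_eq _ h)
  obtain ⟨p, hpp, hpd⟩ := Nat.exists_prime_and_dvd hcard1
  haveI : Fact p.Prime := ⟨hpp⟩
  have hpD : p ∣ Nat.card ↥(N.subgroupOf H) :=
    hpd.trans (Subgroup.card_dvd_of_le (Subgroup.comap_mono hMN))
  have hpM : p ∣ Nat.card M := by
    refine hpd.trans ?_
    have h1 : Nat.card ↥(M.subgroupOf H) = Nat.card ↥((M.subgroupOf H).map H.subtype) :=
      (Subgroup.card_map_of_injective H.subtype_injective).symm
    rw [h1]
    apply Subgroup.card_dvd_of_le
    rintro _ ⟨x, hx, rfl⟩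
    exact mem_subgroupOf.mp hx
  have hidx : (N.subgroupOf H).index = N.index := by
    have h1 : N.relIndex (H ⊔ N) = N.relIndex H := Subgroup.relIndex_sup_right H N
    rw [hH', Subgroup.relIndex_top_right] at h1
    exact h1.symm
  have hpi : ¬ p ∣ (N.subgroupOf H).index := by
    rw [hidx]
    intro h
    have := Nat.dvd_gcd h hpM
    rw [hc] at this
    exact hpp.one_lt.ne' (Nat.dvd_one.mp this)
  obtain ⟨Q, hQ, hQD⟩ := proper_supplement (N.subgroupOf H) p hpi hpD
  have hQ2 : Q.map H.subtype ⊔ N = ⊤ := by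
    rw [eq_top_iff, ← hH']
    apply sup_le _ le_sup_right
    intro h hh
    have h1 : (⟨h, hh⟩ : H) ∈ Q ⊔ N.subgroupOf H := by rw [hQD]; trivial
    obtain ⟨q, hq, d, hd, e⟩ := Subgroup.mem_sup_of_normal_right.mp h1
    have e' : (q : G) * (d : G) = h := congrArg Subtype.val e
    rw [← e']
    exact Subgroup.mul_mem _ ((le_sup_left : Q.map H.subtype ≤ _) ⟨q, hq, rfl⟩)
      ((le_sup_right : N ≤ _) (mem_subgroupOf.mp hd))
  have h3 : Nat.card H ≤ Nat.card ↥(Q.map H.subtype) := hmin _ hQ2
  have h4 : Nat.card ↥(Q.map H.subtype) = Nat.card Q := Subgroup.card_map_of_injective H.subtype_injective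
  rw [h4] at h3
  apply hQ
  apply Subgroup.eq_top_of_card_eq
  exact le_antisymm (Subgroup.card_le_card_group Q) h3

end Cfsg.Agent.S4112
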