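import Cfsg.Statements.S4115
import Mathlib
import Cfsg.Agent.Lib.Char.FrobeniusKernel

set_option autoImplicit false
set_option linter.style.haveILetI false
set_option linter.unusedSectionVars false
set_option linter.unusedVariables false
universe u
open Cfsg

namespace Cfsg.Agent.S4115

open Cfsg Cfsg.Agent.Lib.Char Cfsg.Agent.Lib.Char.FrobeniusKernel
open scoped ComplexConjugate Pointwise

/-- A `p`-automorphism fixing a coset of an invariant subgroup (coprime case) fixes one of its
elements. -/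
theorem fixed_in_coset {L : Type*} [Group L] [Finite L] {p : ℕ} [hp : Fact p.Prime]
    (hL : ¬ p ∣ Nat.card L) (α : MulAut L) (hα : α ^ p = 1) (U : Subgroup L)
    (hU : ∀ u ∈ U, α u ∈ U) (x : L) (hx : x⁻¹ * α x ∈ U) : ∃ u ∈ U, α (x * u) = x * u := by
  classical
  cases nonempty_fintype L
  letI : Fintype U := Fintype.ofFinite _
  let f : Function.End U := fun u => ⟨(x⁻¹ * α x) * α u, U.mul_mem hx (hU _ u.2)⟩
  have hpow : ∀ (k : ℕ) (u : U), x * (((f ^ k) u : U) : L) = (α ^ k) (x * u) := by
    intro k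
    induction k with
    | zero => intro u; rfl
    | succ k ih =>
      intro u
      rw [pow_succ, pow_succ]
      show x * (((f ^ k) (f u) : U) : L) = (α ^ k) (α (x * u))
      rw [ih]
      congr 1
      show x * ((x⁻¹ * α x) * α u) = α (x * u)
      rw [map_mul]
      group
  have hf : f ^ p ^ 1 = 1 := by
    funext u
    apply Subtype.ext
    have h1 := hpow (p ^ 1) u
    rw [pow_one, hα] at h1
    rw [pow_one]
    exact mul_left_cancel h1
  have hmod := Equiv.Perm.card_fixedPoints_modEq hf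
  have hnd : ¬ p ∣ Fintype.card U := by
    intro hd
    apply hL
    rw [← Nat.card_eq_fintype_card] at hd
    exact hd.trans (Subgroup.card_subgroup_dvd_card U)
  have hne : 0 < Fintype.card f.fixedPoints := by
    by_contra h0
    have h1 : Fintype.card f.fixedPoints = 0 := by omega
    rw [h1] at hmod
    exact hnd (Nat.modEq_zero_iff_dvd.1 hmod)
  obtain ⟨⟨u, hu⟩⟩ := Fintype.card_pos_iff.1 hne
  refine ⟨u.1, u.2, ?_⟩
  have h1 : (x⁻¹ * α x) * α u = u := congrArg Subtype.val hu
  rw [map_mul]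
  calc α x * α u = x * ((x⁻¹ * α x) * α u) := by group
    _ = x * u := by rw [h1]

/-- Restriction of an action by automorphisms to an invariant subgroup. -/
def resAut {H L : Type*} [Group H] [Group L] (φ : H →* MulAut L) (M : Subgroup L)
    (hM : ∀ h, ∀ x ∈ M, φ h x ∈ M) : H →* MulAut M where
  toFun h :=
    { toFun := fun x => ⟨φ h (x : L), hM h x x.2⟩
      invFun := fun x => ⟨φ h⁻¹ (x : L), hM h⁻¹ x x.2⟩
      left_inv := fun x => by
        apply Subtype.ext
        show φ h⁻¹ (φ h (x : L)) = x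
        rw [map_inv]
        exact (φ h).symm_apply_apply _
      right_inv := fun x => by
        apply Subtype.ext
        show φ h (φ h⁻¹ (x : L)) = x
        rw [map_inv]
        exact (φ h).apply_symm_apply _
      map_mul' := fun x y => by
        apply Subtype.ext
        exact map_mul (φ h) (x : L) (y : L) }
  map_one' := by
    ext x
    show φ 1 (x : L) = x
    rw [map_one]
    rfl
  map_mul' := fun a b => by
    ext x
    show φ (a * b) (x : L) = φ a (φ b (x : L))
    rw [map_mul]
    rfl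

/-- The action by automorphisms on a quotient by an invariant normal subgroup. -/
def quotAut {H L : Type*} [Group H] [Group L] (φ : H →* MulAut L) (B : Subgroup L) [hBn : B.Normal]
    (hB : ∀ h, ∀ x ∈ B, φ h x ∈ B) : H →* MulAut (L ⧸ B) where
  toFun h :=
    { toFun := QuotientGroup.map B B (φ h).toMonoidHom (fun x hx => hB h x hx)
      invFun := QuotientGroup.map B B (φ h⁻¹).toMonoidHom (fun x hx => hB h⁻¹ x hx)
      left_inv := fun x => by
        induction x using QuotientGroup.induction_on with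
        | H x =>
          show ((φ h⁻¹ (φ h x) : L) : L ⧸ B) = x
          rw [map_inv]
          rw [show (φ h)⁻¹ (φ h x) = x from (φ h).symm_apply_apply _]
      right_inv := fun x => by
        induction x using QuotientGroup.induction_on with
        | H x =>
          show ((φ h (φ h⁻¹ x) : L) : L ⧸ B) = x
          rw [map_inv]
          rw [show φ h ((φ h)⁻¹ x) = x from (φ h).apply_symm_apply _]
      map_mul' := map_mul _ }
  map_one' := by
    ext x
    induction x using QuotientGroup.induction_on with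
    | H x =>
      show ((φ 1 x : L) : L ⧸ B) = x
      rw [map_one]
      rfl
  map_mul' := fun a b => by
    ext x
    induction x using QuotientGroup.induction_on with
    | H x =>
      show ((φ (a * b) x : L) : L ⧸ B) = ((φ a (φ b x) : L) : L ⧸ B)
      rw [map_mul]
      rfl

theorem exists_prime_power {H : Type*} [Group H] [Finite H] (h : H) (h1 : h ≠ 1) :
    ∃ (p m : ℕ), p.Prime ∧ p ∣ Nat.card H ∧ h ^ m ≠ 1 ∧ (h ^ m) ^ p = 1 := by
  have ho : orderOf h ≠ 1 := by
    rw [Ne, orderOf_eq_one_iff]; exact h1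
  have hpos : 0 < orderOf h := orderOf_pos h
  let p := (orderOf h).minFac
  have hp : p.Prime := Nat.minFac_prime ho
  have hd : p ∣ orderOf h := Nat.minFac_dvd _
  have ho2 : orderOf (h ^ (orderOf h / p)) = p := orderOf_pow_orderOf_div hpos.ne' hd
  refine ⟨p, orderOf h / p, hp, hd.trans (orderOf_dvd_natCard h), ?_, ?_⟩
  · intro h0
    rw [h0, orderOf_one] at ho2
    exact hp.one_lt.ne ho2
  · have h3 := pow_orderOf_eq_one (h ^ (orderOf h / p))
    rwa [ho2] at h3

/-- **Fixed-point-free sections.** -/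
theorem exists_fpf (H : Type u) [Group H] [Finite H] [Nontrivial H] :
    ∀ (n : ℕ) (L : Type u) [Group L] [Finite L] (φ : H →* MulAut L) (K₀ : Subgroup L),
      Nat.card L = n → (Nat.card H).Coprime (Nat.card L) → K₀ ≠ ⊤ →
      (∀ h : H, h ≠ 1 → ∀ x, φ h x = x ↔ x ∈ K₀) →
      ∃ (A : Type u) (_ : Group A) (_ : Finite A) (ψ : H →* MulAut A), Nontrivial A ∧
        ∀ h : H, h ≠ 1 → ∀ x, ψ h x = x → x = 1 := by
  intro n
  induction n using Nat.strong_induction_on with
  | _ n ih =>
  intro L _ _ φ K₀ hn hcop hK₀ hfix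
  -- coset lifting
  have hlift : ∀ (h : H) (p m : ℕ), p.Prime → p ∣ Nat.card H → h ^ m ≠ 1 → (h ^ m) ^ p = 1 →
      ∀ U : Subgroup L, (∀ u ∈ U, φ (h ^ m) u ∈ U) → U ≤ K₀ → ∀ x, x⁻¹ * φ (h ^ m) x ∈ U → x ∈ K₀ := by
    intro h p m hp hpH h1 h2 U hU hUK x hx
    haveI : Fact p.Prime := ⟨hp⟩
    have hL : ¬ p ∣ Nat.card L := fun hd =>
      hp.one_lt.ne' (Nat.eq_one_of_dvd_coprimes hcop hpH hd)
    have hα : (φ (h ^ m)) ^ p = 1 := by
      rw [← map_pow, h2, map_one]
    obtain ⟨u, hu, hxu⟩ := fixed_in_coset hL (φ (h ^ m)) hα U hU x hx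
    have h3 : x * u ∈ K₀ := (hfix _ h1 _).1 hxu
    have h4 : x = x * u * u⁻¹ := by group
    rw [h4]
    exact K₀.mul_mem h3 (K₀.inv_mem (hUK hu))
  by_cases ha : ∃ M : Subgroup L, M ≠ ⊤ ∧ (∀ h, ∀ x ∈ M, φ h x ∈ M) ∧ ¬ M ≤ K₀
  · obtain ⟨M, hM1, hM2, hM3⟩ := ha
    have hlt : Nat.card M < n := by
      rw [← hn]
      refine lt_of_le_of_ne (Subgroup.card_le_card_group M) fun h => hM1 ?_
      exact Subgroup.eq_top_of_card_eq M h
    refine ih (Nat.card M) hlt M (resAut φ M hM2) (K₀.subgroupOf M) rfl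
      (Nat.Coprime.coprime_dvd_right (Subgroup.card_subgroup_dvd_card M) hcop) ?_ ?_
    · intro h
      exact hM3 (Subgroup.subgroupOf_eq_top.mp h)
    · intro h hh x
      rw [Subgroup.mem_subgroupOf, ← hfix h hh x, Subtype.ext_iff]
      rfl
  by_cases hb : ∃ B : Subgroup L, B.Normal ∧ B ≠ ⊥ ∧ B ≤ K₀ ∧ ∀ h, ∀ x ∈ B, φ h x ∈ B
  · obtain ⟨B, hB1, hB2, hB3, hB4⟩ := hb
    have hlt : Nat.card (L ⧸ B) < n := by
      rw [← hn, ← B.card_mul_index]
      have h1 : 1 < Nat.card B := (Subgroup.one_lt_card_iff_ne_bot B).mpr hB2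
      have h2 : 0 < B.index := Nat.pos_of_ne_zero (Subgroup.index_ne_zero_of_finite)
      show B.index < _
      nlinarith
    refine ih (Nat.card (L ⧸ B)) hlt (L ⧸ B) (quotAut φ B hB4) (K₀.map (QuotientGroup.mk' B)) rfl
      (Nat.Coprime.coprime_dvd_right (Subgroup.index_dvd_card B) hcop) ?_ ?_
    · intro h
      apply hK₀
      rw [eq_top_iff]
      intro x _
      have hx : (x : L ⧸ B) ∈ K₀.map (QuotientGroup.mk' B) := by
        rw [h]; trivial
      obtain ⟨k, hk, hkx⟩ := hx
      have h3 : k⁻¹ * x ∈ B := QuotientGroup.eq.1 hkx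
      have h4 : x = k * (k⁻¹ * x) := by group
      rw [h4]
      exact K₀.mul_mem hk (hB3 h3)
    · intro h hh x
      induction x using QuotientGroup.induction_on with
      | H x =>
        constructor
        · intro hx
          obtain ⟨p, m, hp, hpH, h1, h2⟩ := exists_prime_power h hh
          have hmfix : ∀ k : ℕ, (quotAut φ B hB4 (h ^ k)) (x : L ⧸ B) = x := by
            intro k
            induction k with
            | zero =>
              rw [pow_zero, map_one]
              rfl
            | succ k ihk =>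
              rw [pow_succ, map_mul]
              show (quotAut φ B hB4 (h ^ k)) ((quotAut φ B hB4 h) (x : L ⧸ B)) = x
              rw [hx, ihk]
          have h3 : ((φ (h ^ m) x : L) : L ⧸ B) = x := hmfix m
          have h4 : x⁻¹ * φ (h ^ m) x ∈ B := QuotientGroup.eq.1 h3.symm
          have h5 := hlift h p m hp hpH h1 h2 B (hB4 _) hB3 x h4
          exact ⟨x, h5, rfl⟩
        · rintro ⟨k, hk, hkx⟩
          have h1 : φ h k = k := (hfix h hh k).2 hk
          have h2 : (k : L ⧸ B) = x := hkx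
          rw [← h2]
          show ((φ h k : L) : L ⧸ B) = k
          rw [h1]
  by_cases hbot : K₀ = ⊥
  · refine ⟨L, inferInstance, inferInstance, φ, ?_, ?_⟩
    · refine not_subsingleton_iff_nontrivial.1 fun hs => hK₀ ?_
      rw [hbot]
      exact Subsingleton.elim _ _
    · intro h hh x hx
      have := (hfix h hh x).1 hx
      rw [hbot] at this
      exact Subgroup.mem_bot.1 this
  exfalso
  push Not at ha hb
  obtain ⟨h₀, hh₀⟩ := exists_ne (1 : H)
  obtain ⟨p, m, hp, hpH, h1, h2⟩ := exists_prime_power h₀ hh₀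
  -- `H` fixes `K₀` pointwise
  have hfixK : ∀ (h : H), ∀ x ∈ K₀, φ h x = x := by
    intro h x hx
    by_cases hh : h = 1
    · rw [hh, map_one]; rfl
    · exact (hfix h hh x).2 hx
  -- centralizers of nonidentity elements of `K₀` lie in `K₀`
  have hcent : ∀ y ∈ K₀, y ≠ 1 → ∀ g : L, g * y = y * g → g ∈ K₀ := by
    intro y hy hy1 g hg
    let M : Subgroup L := Subgroup.centralizer {y}
    have hMinv : ∀ h, ∀ x ∈ M, φ h x ∈ M := by
      intro h x hx
      rw [Subgroup.mem_centralizer_singleton_iff] at hx ⊢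
      have h3 := congrArg (φ h) hx
      simp only [map_mul, hfixK h y hy] at h3
      exact h3
    have hgM : g ∈ M := by
      rw [Subgroup.mem_centralizer_singleton_iff]
      exact hg
    by_cases hMtop : M = ⊤
    · exfalso
      have hcen : ∀ x : L, x * y = y * x := by
        intro x
        have : x ∈ M := by rw [hMtop]; trivial
        exact Subgroup.mem_centralizer_singleton_iff.1 this
      have hnorm : (Subgroup.zpowers y).Normal := by
        refine ⟨fun n hn g => ?_⟩
        obtain ⟨k, rfl⟩ := Subgroup.mem_zpowers_iff.1 hn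
        have h3 : g * y ^ k * g⁻¹ = y ^ k := by
          have h4 : Commute g (y ^ k) := Commute.zpow_right (hcen g) k
          rw [h4.eq]
          group
        rw [h3]
        exact Subgroup.zpow_mem_zpowers y k
      have hle : Subgroup.zpowers y ≤ K₀ := by
        rw [Subgroup.zpowers_le]
        exact hy
      have h3 := hb (Subgroup.zpowers y) hnorm
        (by
          intro h0
          rw [Subgroup.zpowers_eq_bot] at h0
          exact hy1 h0) hle
      obtain ⟨h, x, hx, hnot⟩ := h3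
      apply hnot
      rw [hfixK h x (hle hx)]
      exact hx
    · exact ha M hMtop hMinv hgM
  -- `K₀` is malnormal
  have hF : IsFrobeniusComplement K₀ := by
    refine ⟨hbot, hK₀, ?_⟩
    intro g hg
    rw [eq_bot_iff]
    intro x hx
    rw [Subgroup.mem_bot]
    by_contra hx1
    obtain ⟨hxK, hxg⟩ := Subgroup.mem_inf.1 hx
    have hy : g⁻¹ * x * g ∈ K₀ := mem_conj_smul_iff.1 hxg
    set y := g⁻¹ * x * g with hydef
    have hy1 : y ≠ 1 := by
      intro h0
      apply hx1
      have h3 : x = g * y * g⁻¹ := by rw [hydef]; group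
      rw [h3, h0]
      simp
    apply hg
    apply hlift h₀ p m hp hpH h1 h2 K₀ (fun u hu => by rw [hfixK _ u hu]; exact hu) le_rfl g
    apply hcent y hy hy1
    -- `g⁻¹ φ(g)` commutes with `y`
    have h3 : φ (h₀ ^ m) g * y * (φ (h₀ ^ m) g)⁻¹ = x := by
      have h4 : x = g * y * g⁻¹ := by rw [hydef]; group
      have h5 := congrArg (φ (h₀ ^ m)) h4
      rw [hfixK _ x hxK] at h5
      simp only [map_mul, map_inv, hfixK _ y hy] at h5
      exact h5.symm
    have h4 : g * y * g⁻¹ = x := by rw [hydef]; group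
    have h5 : φ (h₀ ^ m) g * y * (φ (h₀ ^ m) g)⁻¹ = g * y * g⁻¹ := h3.trans h4.symm
    calc g⁻¹ * φ (h₀ ^ m) g * y
        = g⁻¹ * (φ (h₀ ^ m) g * y * (φ (h₀ ^ m) g)⁻¹) * φ (h₀ ^ m) g := by group
      _ = g⁻¹ * (g * y * g⁻¹) * φ (h₀ ^ m) g := by rw [h5]
      _ = y * (g⁻¹ * φ (h₀ ^ m) g) := by group
  obtain ⟨N, hNset, hNn, hNc⟩ := frobenius_theorem K₀ hF
  have hNne : N ≠ ⊤ := by
    intro h0
    apply hbot
    have hd := hNc.disjoint
    rw [h0] at hd
    exact (top_disjoint).1 hd
  have hNinv : ∀ h, ∀ x ∈ N, φ h x ∈ N := by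
    intro h x hx
    have hx' : x ∈ frobeniusKernel K₀ := by rw [← hNset]; exact hx
    have : φ h x ∈ frobeniusKernel K₀ := by
      rw [mem_frobeniusKernel_iff] at hx' ⊢
      rcases hx' with rfl | hx'
      · left; simp
      · right
        intro g hg
        apply hx' (φ h⁻¹ g)
        have h3 : (φ h⁻¹ g)⁻¹ * x * (φ h⁻¹ g) = φ h⁻¹ (g⁻¹ * φ h x * g) := by
          simp only [map_mul, map_inv]
          congr 2
          exact ((φ h).symm_apply_apply x).symm
        rw [h3, hfixK _ _ hg]
        exact hg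
    rw [← SetLike.mem_coe, hNset]
    exact this
  have hNle := ha N hNne hNinv
  have hNbot : N = ⊥ := by
    rw [eq_bot_iff]
    intro x hx
    have := hNc.disjoint.le_bot ⟨hx, hNle hx⟩
    exact this
  apply hK₀
  have h3 := hNc.card_mul_card
  rw [hNbot, Subgroup.card_bot, one_mul] at h3
  exact Subgroup.eq_top_of_card_eq K₀ h3

/-- The semidirect product with a fixed-point-free action. -/
theorem frob_of_fpf {H A : Type u} [Group H] [Group A] [Nontrivial H] [Nontrivial A]
    (ψ : H →* MulAut A) (hψ : ∀ h : H, h ≠ 1 → ∀ x, ψ h x = x → x = 1) :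
    IsFrobeniusComplement (SemidirectProduct.inr (φ := ψ) (N := A) (G := H)).range := by
  have hrange : ∀ z : A ⋊[ψ] H, z ∈ (SemidirectProduct.inr (φ := ψ) (N := A) (G := H)).range ↔ z.left = 1 := by
    intro z
    constructor
    · rintro ⟨h, rfl⟩
      rfl
    · intro hz
      refine ⟨z.right, ?_⟩
      ext
      · exact hz.symm
      · rfl
  refine ⟨?_, ?_, ?_⟩
  · intro h0
    obtain ⟨h, hh⟩ := exists_ne (1 : H)
    have : SemidirectProduct.inr (φ := ψ) (N := A) h ∈ (SemidirectProduct.inr (φ := ψ) (N := A) (G := H)).range := ⟨h, rfl⟩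
    rw [h0, Subgroup.mem_bot] at this
    apply hh
    have h1 := congrArg SemidirectProduct.right this
    exact h1
  · intro h0
    obtain ⟨a, ha⟩ := exists_ne (1 : A)
    have : SemidirectProduct.inl (φ := ψ) (G := H) a ∈ (SemidirectProduct.inr (φ := ψ) (N := A) (G := H)).range := by
      rw [h0]; trivial
    rw [hrange] at this
    exact ha this
  · intro g hg
    rw [eq_bot_iff]
    intro z hz
    obtain ⟨hz1, hz2⟩ := Subgroup.mem_inf.1 hz
    have hz3 := mem_conj_smul_iff.1 hz2
    rw [hrange] at hg hz1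
    rw [Subgroup.mem_bot]
    by_contra hne
    have hzr : z.right ≠ 1 := by
      intro h0
      apply hne
      ext
      · exact hz1
      · exact h0
    apply hg
    rw [hrange] at hz3
    apply hψ z.right hzr
    -- compute
    have h1 : (z * g).left = (g * (g⁻¹ * z * g)).left := by
      congr 1
      group
    have h2 : (z * g).left = ψ z.right g.left := by
      rw [SemidirectProduct.mul_left, hz1, one_mul]
    have h3 : (g * (g⁻¹ * z * g)).left = g.left := by
      rw [SemidirectProduct.mul_left, hz3, map_one, mul_one]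
    rw [h2, h3] at h1
    exact h1

section Core

variable {G : Type u} [Group G] [Fintype G] {H N : Subgroup G} [Fintype H] [Fintype N]
  (π : N →* H)

theorem ind_val (hTI1 : ∀ (x : N) (g : G), π x ≠ 1 → g⁻¹ * x * g ∈ N → g ∈ N)
    (hTI2 : ∀ (x : N) (g : G), π x = 1 → ∀ hy : g⁻¹ * x * g ∈ N, π ⟨_, hy⟩ = 1)
    (φ : N → ℂ) (hφ : IsClassFunction N φ) (h0 : ∀ n, π n = 1 → φ n = 0) (x : N) :
    indFun N φ x = φ x := by
  classical
  by_cases hx : π x = 1
  · rw [h0 x hx, Induced.indFun_apply]
    have : ∀ g : G, extendByZero N φ (g⁻¹ * x * g) = 0 := by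
      intro g
      by_cases hg : g⁻¹ * x * g ∈ N
      · rw [Induced.extendByZero_of_mem N φ hg]
        exact h0 _ (hTI2 x g hx hg)
      · exact Induced.extendByZero_of_notMem N φ hg
    simp [this]
  · rw [Induced.indFun_apply]
    have key : ∀ g : G, extendByZero N φ (g⁻¹ * x * g) = if g ∈ N then φ x else 0 := by
      intro g
      by_cases hg : g ∈ N
      · rw [if_pos hg]
        have hm : g⁻¹ * x * g ∈ N := N.mul_mem (N.mul_mem (N.inv_mem hg) x.2) hg
        rw [Induced.extendByZero_of_mem N φ hm]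
        have := hφ x ⟨g⁻¹, N.inv_mem hg⟩
        convert this using 2
        apply Subtype.ext
        simp
      · rw [if_neg hg]
        exact Induced.extendByZero_of_notMem N φ (fun hm => hg (hTI1 x g hx hm))
    simp_rw [key]
    rw [Finset.sum_ite, Finset.sum_const_zero, add_zero, Finset.sum_const, nsmul_eq_mul]
    have hc : ((Finset.univ.filter (fun x : G => x ∈ N)).card : ℂ) = (Nat.card N : ℂ) := by
      rw [Nat.card_eq_fintype_card, Fintype.card_subtype]
    rw [hc, ← mul_assoc, inv_mul_cancel₀ Induced.natCard_ne_zero_complex, one_mul]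

theorem star_norm (hTI1 : ∀ (x : N) (g : G), π x ≠ 1 → g⁻¹ * x * g ∈ N → g ∈ N)
    (hTI2 : ∀ (x : N) (g : G), π x = 1 → ∀ hy : g⁻¹ * x * g ∈ N, π ⟨_, hy⟩ = 1)
    {θ : N → ℂ} (hθ : IsIrrCharacter N θ) (hker : ∀ n, π n = 1 → θ n = θ 1) :
    classInner (thetaStar (G := G) θ) (thetaStar (G := G) θ) = 1 := by
  have hchar := Basic.isCharacter_of_isIrrCharacter hθ
  have hcf : IsClassFunction N θ := Basic.isClassFunction_of_isCharacter hchar
  obtain ⟨n, hn⟩ := Basic.exists_degree_of_isCharacter hchar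
  obtain ⟨a, ha⟩ := Ortho.exists_nat_classInner_of_isCharacter hchar
    (Basic.isCharacter_one (G := N))
  have ha' : classInner (1 : N → ℂ) θ = a := by
    rw [← Ortho.classInner_conj_symm, ha]
    simp
  have hθθ : classInner θ θ = 1 := Ortho.classInner_irr_self hθ
  set Φ : G → ℂ := indFun N (phi θ) with hΦ
  have hcfφ := phi_isClassFunction hcf
  have hcfΦ : IsClassFunction G Φ := Induced.indFun_isClassFunction N _
  have hres : (fun h : N => indFun N (phi θ) (h : G)) = phi θ := by
    funext x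
    refine ind_val π hTI1 hTI2 _ hcfφ ?_ x
    intro m hm
    simp [phi, hker m hm]
  have h1 : classInner Φ Φ = classInner (phi θ) (phi θ) := by
    rw [hΦ, Induced.frobenius_reciprocity N _ _ hcfΦ, hΦ, hres]
  have hone : IsClassFunction G (1 : G → ℂ) := fun _ _ => rfl
  have h2 : classInner Φ (1 : G → ℂ) = classInner (phi θ) (1 : N → ℂ) := by
    rw [hΦ, Induced.frobenius_reciprocity N _ _ hone]
    rfl
  have h3 : classInner (1 : G → ℂ) Φ = classInner (1 : N → ℂ) (phi θ) := by
    rw [← Ortho.classInner_conj_symm, h2, Ortho.classInner_conj_symm]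
  have h4 : classInner (phi θ) (1 : N → ℂ) = a - n := by
    rw [phi, Ortho.classInner_sub_left, Ortho.classInner_smul_left, ha, hn, classInner_one_one]
    ring
  have h5 : classInner (1 : N → ℂ) (phi θ) = a - n := by
    rw [phi, Ortho.classInner_sub_right, Ortho.classInner_smul_right, ha', hn, classInner_one_one]
    simp
  have h6 : classInner (phi θ) (phi θ) = 1 - n * (a - n) - n * a := by
    rw [phi, Ortho.classInner_sub_right, Ortho.classInner_smul_right, ← phi, h4, phi,
      Ortho.classInner_sub_left, Ortho.classInner_smul_left, hθθ, ha', hn]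
    simp
    ring
  rw [thetaStar, Ortho.classInner_add_left, Ortho.classInner_add_right, Ortho.classInner_add_right,
    Ortho.classInner_smul_left, Ortho.classInner_smul_right, Ortho.classInner_smul_right,
    Ortho.classInner_smul_left, ← hΦ, h1, h2, h3, h4, h5, h6, hn, classInner_one_one]
  simp
  ring

theorem star_mem (hTI1 : ∀ (x : N) (g : G), π x ≠ 1 → g⁻¹ * x * g ∈ N → g ∈ N)
    (hTI2 : ∀ (x : N) (g : G), π x = 1 → ∀ hy : g⁻¹ * x * g ∈ N, π ⟨_, hy⟩ = 1)
    {θ : N → ℂ} (hcf : IsClassFunction N θ) (hker : ∀ n, π n = 1 → θ n = θ 1) (x : N) :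
    thetaStar (G := G) θ x = θ x := by
  simp only [thetaStar, Pi.add_apply, Pi.smul_apply, Pi.one_apply, smul_eq_mul, mul_one]
  rw [ind_val π hTI1 hTI2 _ (phi_isClassFunction hcf) ?_ x]
  · simp [phi]
  · intro m hm
    simp [phi, hker m hm]

theorem star_off {θ : N → ℂ} (hker : ∀ n, π n = 1 → θ n = θ 1) (g : G)
    (hg : ∀ (x : G) (hy : x⁻¹ * g * x ∈ N), π ⟨_, hy⟩ = 1) :
    thetaStar (G := G) θ g = θ 1 := by
  simp only [thetaStar, Pi.add_apply, Pi.smul_apply, Pi.one_apply, smul_eq_mul, mul_one]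
  have : indFun N (phi θ) g = 0 := by
    rw [Induced.indFun_apply]
    have h0 : ∀ x : G, extendByZero N (phi θ) (x⁻¹ * g * x) = 0 := by
      intro x
      by_cases hx : x⁻¹ * g * x ∈ N
      · rw [Induced.extendByZero_of_mem N _ hx]
        simp [phi, hker _ (hg x hx)]
      · exact Induced.extendByZero_of_notMem N _ hx
    simp [h0]
  rw [this, zero_add]

theorem star_irr (hTI1 : ∀ (x : N) (g : G), π x ≠ 1 → g⁻¹ * x * g ∈ N → g ∈ N)
    (hTI2 : ∀ (x : N) (g : G), π x = 1 → ∀ hy : g⁻¹ * x * g ∈ N, π ⟨_, hy⟩ = 1)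
    {θ : N → ℂ} (hθ : IsIrrCharacter N θ) (hker : ∀ n, π n = 1 → θ n = θ 1) :
    IsIrrCharacter G (thetaStar (G := G) θ) := by
  have hs := Virtual.isSignedIrr_of_norm_one
    (thetaStar_isGeneralized (G := G) (Basic.isCharacter_of_isIrrCharacter hθ))
    (star_norm π hTI1 hTI2 hθ hker)
  obtain ⟨ε, χ, hε, hχ, hχeq⟩ := Virtual.IsSignedIrr.exists_sign hs
  rcases hε with rfl | rfl
  · simpa [hχeq] using hχ
  · exfalso
    obtain ⟨n, hn, hθ1⟩ := Ortho.irr_degree_pos hθ
    obtain ⟨m, hm, hχ1⟩ := Ortho.irr_degree_pos hχ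
    have h1 : thetaStar (G := G) θ 1 = θ 1 := by
      have := star_mem π hTI1 hTI2 (Basic.isClassFunction_of_isCharacter
        (Basic.isCharacter_of_isIrrCharacter hθ)) hker 1
      exact this
    rw [hχeq] at h1
    simp only [Pi.smul_apply, smul_eq_mul, hχ1, hθ1] at h1
    have h2 : ((n + m : ℕ) : ℂ) = 0 := by
      push_cast
      rw [← h1]
      ring
    have h3 : n + m = 0 := by exact_mod_cast h2
    omega

/-- The normal complement produced by the characters `θ*`. -/
theorem core_complement (hHN : H ≤ N) (hπ : ∀ h : H, π ⟨h, hHN h.2⟩ = h)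
    (hTI1 : ∀ (x : N) (g : G), π x ≠ 1 → g⁻¹ * x * g ∈ N → g ∈ N)
    (hTI2 : ∀ (x : N) (g : G), π x = 1 → ∀ hy : g⁻¹ * x * g ∈ N, π ⟨_, hy⟩ = 1) :
    ∃ L : Subgroup G, L.Normal ∧ L.IsComplement' H := by
  classical
  have hsurj : Function.Surjective π := fun h => ⟨⟨h, hHN h.2⟩, hπ h⟩
  let hat : (H → ℂ) → (N → ℂ) := fun θ n => θ (π n)
  have hhatirr : ∀ θ : IrrCharacter H, IsIrrCharacter N (hat θ) := fun θ =>
    Basic.isIrrCharacter_comp_surjective θ.2 π hsurj
  have hhatker : ∀ (θ : IrrCharacter H) (n : N), π n = 1 → hat θ n = hat θ 1 := by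
    intro θ n hn
    simp [hat, hn]
  have hirr : ∀ θ : IrrCharacter H, IsIrrCharacter G (thetaStar (G := G) (hat θ)) := fun θ =>
    star_irr π hTI1 hTI2 (hhatirr θ) (hhatker θ)
  have hker : ∀ θ : IrrCharacter H, ∃ K : Subgroup G, K.Normal ∧
      ∀ g, g ∈ K ↔ thetaStar (G := G) (hat θ) g = thetaStar (G := G) (hat θ) 1 := fun θ =>
    exists_kernel (Basic.isCharacter_of_isIrrCharacter (hirr θ))
  choose K hKn hK using hker
  let L : Subgroup G := ⨅ θ, K θ
  have hLn : L.Normal := by
    refine ⟨fun n hn g => ?_⟩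
    rw [Subgroup.mem_iInf] at hn ⊢
    intro θ
    exact (hKn θ).conj_mem n (hn θ) g
  have hmem : ∀ g, g ∈ L ↔ ∀ θ : IrrCharacter H,
      thetaStar (G := G) (hat θ) g = thetaStar (G := G) (hat θ) 1 := by
    intro g
    simp only [L, Subgroup.mem_iInf, hK]
  have hcfhat : ∀ θ : IrrCharacter H, IsClassFunction N (hat θ) := fun θ =>
    Basic.isClassFunction_of_isCharacter (Basic.isCharacter_of_isIrrCharacter (hhatirr θ))
  have hstar1 : ∀ θ : IrrCharacter H, thetaStar (G := G) (hat θ) 1 = hat θ 1 := fun θ =>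
    star_mem π hTI1 hTI2 (hcfhat θ) (hhatker θ) 1
  -- `L` meets `H` trivially
  have hdisj : Disjoint L H := by
    rw [Subgroup.disjoint_def]
    intro x hxL hxH
    have h1 : (⟨x, hxH⟩ : H) = 1 := by
      apply eq_one_of_forall_irr
      intro θ hθ
      have h2 : thetaStar (G := G) (hat θ) x = thetaStar (G := G) (hat θ) 1 :=
        (hmem x).1 hxL ⟨θ, hθ⟩
      have h2' : thetaStar (G := G) (hat θ) 1 = hat θ 1 := hstar1 ⟨θ, hθ⟩
      rw [h2'] at h2
      have h3 := star_mem π hTI1 hTI2 (hcfhat ⟨θ, hθ⟩) (hhatker ⟨θ, hθ⟩) ⟨x, hHN hxH⟩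
      have h4 : thetaStar (G := G) (hat θ) x = hat θ ⟨x, hHN hxH⟩ := h3
      rw [h4] at h2
      have h5 : hat θ ⟨x, hHN hxH⟩ = θ ⟨x, hxH⟩ := by
        show θ (π ⟨x, hHN hxH⟩) = _
        rw [hπ ⟨x, hxH⟩]
      have h6 : hat θ 1 = θ 1 := by
        show θ (π 1) = _
        rw [map_one]
      rw [h5, h6] at h2
      exact h2
    exact congrArg Subtype.val h1
  -- elements off `S` lie in `L`
  have hoff : ∀ g : G, (∀ (x : G) (hy : x⁻¹ * g * x ∈ N), π ⟨_, hy⟩ = 1) → g ∈ L := by
    intro g hg
    refine (hmem g).2 fun θ => ?_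
    rw [hstar1, star_off π (hhatker θ) g hg]
  -- counting
  let D := {n : N // π n ≠ 1}
  letI : Fintype D := Fintype.ofFinite _
  let f : (G ⧸ N) × D → G := fun q => q.1.out * (q.2.1 : G) * q.1.out⁻¹
  letI : Fintype (G ⧸ N) := Fintype.ofFinite _
  have hcover : (Finset.univ : Finset G) ⊆
      (Finset.univ.image f) ∪ (Finset.univ.filter (fun g : G => g ∈ L)) := by
    intro g _
    by_cases hg : g ∈ L
    · exact Finset.mem_union_right _ (Finset.mem_filter.mpr ⟨Finset.mem_univ _, hg⟩)
    · apply Finset.mem_union_left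
      have h1 : ¬ ∀ (x : G) (hy : x⁻¹ * g * x ∈ N), π ⟨_, hy⟩ = 1 := fun h => hg (hoff g h)
      push Not at h1
      obtain ⟨x, hy, hne⟩ := h1
      let q : G ⧸ N := (x : G ⧸ N)
      have hq : (q.out : G ⧸ N) = x := QuotientGroup.out_eq' q
      have hn : x⁻¹ * q.out ∈ N := QuotientGroup.eq.1 hq.symm
      let n : N := ⟨x⁻¹ * q.out, hn⟩
      let y : N := ⟨_, hy⟩
      refine Finset.mem_image.mpr ⟨(q, ⟨n⁻¹ * y * n, ?_⟩), Finset.mem_univ _, ?_⟩
      · simp only [map_mul, map_inv]
        intro h0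
        apply hne
        have h2 : π y = π n * (π n⁻¹ * π y * π n) * (π n)⁻¹ := by
          simp only [map_inv]
          group
        rw [show π y = _ from h2]
        rw [map_inv, h0]
        simp
      · show q.out * (((n⁻¹ * y * n : N)) : G) * q.out⁻¹ = g
        have h3 : ((n⁻¹ * y * n : N) : G) = (x⁻¹ * q.out)⁻¹ * (x⁻¹ * g * x) * (x⁻¹ * q.out) := rfl
        rw [h3]
        group
  have hcard1 : Nat.card G ≤ N.index * Fintype.card D + Nat.card L := by
    have h1 := Finset.card_le_card hcover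
    have h2 := Finset.card_union_le (Finset.univ.image f) (Finset.univ.filter (fun g : G => g ∈ L))
    have h3 : (Finset.univ.image f).card ≤ N.index * Fintype.card D := by
      refine Finset.card_image_le.trans ?_
      rw [Finset.card_univ, Fintype.card_prod]
      apply Nat.le_of_eq
      congr 1
      rw [← Nat.card_eq_fintype_card]
      rfl
    have h4 : (Finset.univ.filter (fun g : G => g ∈ L)).card = Nat.card L := by
      rw [Nat.card_eq_fintype_card, Fintype.card_subtype]
    rw [Finset.card_univ, ← Nat.card_eq_fintype_card] at h1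
    omega
  have hkc : Fintype.card D + Nat.card π.ker = Nat.card N := by
    have h1 : Fintype.card D = (Finset.univ.filter (fun n : N => π n ≠ 1)).card := by
      rw [Fintype.card_subtype]
    have h2 : Nat.card π.ker = (Finset.univ.filter (fun n : N => π n = 1)).card := by
      rw [Nat.card_eq_fintype_card, Fintype.card_subtype]
      simp only [MonoidHom.mem_ker]
    rw [h1, h2, add_comm, Finset.card_filter_add_card_filter_not, Finset.card_univ,
      ← Nat.card_eq_fintype_card]
  have hkq : Nat.card π.ker * Nat.card H = Nat.card N := by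
    rw [← Subgroup.card_mul_index π.ker, Subgroup.index_ker]
    congr 1
    rw [MonoidHom.range_eq_top.mpr hsurj, Subgroup.card_top]
  have hidx : N.index * Nat.card N = Nat.card G := by
    rw [mul_comm]; exact N.card_mul_index
  have hge : N.index * Nat.card π.ker ≤ Nat.card L := by
    rw [← hidx, ← hkc, mul_add] at hcard1
    omega
  have hle : Nat.card L * Nat.card H ≤ Nat.card G := by
    have h1 := Nat.card_le_card_of_injective _ (Subgroup.mul_injective_of_disjoint hdisj)
    rw [Nat.card_prod] at h1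
    exact h1
  refine ⟨L, hLn, Subgroup.isComplement'_of_card_mul_and_disjoint ?_ hdisj⟩
  apply le_antisymm hle
  calc Nat.card G = N.index * Nat.card N := hidx.symm
    _ = N.index * Nat.card π.ker * Nat.card H := by rw [← hkq, mul_assoc]
    _ ≤ Nat.card L * Nat.card H := Nat.mul_le_mul_right _ hge

end Core

section Glue

variable {G : Type u} [Group G] [Finite G] (H : Subgroup G)

theorem normal_H : (H.subgroupOf (Subgroup.normalizer (H : Set G))).Normal := by
  refine ⟨fun n hn g => ?_⟩
  rw [Subgroup.mem_subgroupOf] at hn ⊢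
  exact (Subgroup.mem_normalizer_iff.1 g.2 n).1 hn

theorem pow_of_modEq_one {X : Type*} [Group X] [Finite X] (x : X) {m : ℕ}
    (hm : m ≡ 1 [MOD Nat.card X]) : x ^ m = x := by
  rw [← pow_mod_natCard x m, hm, pow_mod_natCard, pow_one]

theorem proj_data (hHall : (Nat.card H).Coprime (H.subgroupOf (Subgroup.normalizer (H : Set G))).index)
    (K : Subgroup (Subgroup.normalizer (H : Set G))) (hKn : K.Normal)
    (hc : K.IsComplement' (H.subgroupOf (Subgroup.normalizer (H : Set G)))) :
    ∃ (π : (Subgroup.normalizer (H : Set G)) →* H) (m : ℕ),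
      (∀ h : H, π ⟨h, Subgroup.le_normalizer h.2⟩ = h) ∧ (∀ n, π n = 1 ↔ n ∈ K) ∧
      ∀ n : (Subgroup.normalizer (H : Set G)), ((n : G)) ^ m = (π n : G) := by
  classical
  have hHN : H ≤ Subgroup.normalizer (H : Set G) := Subgroup.le_normalizer
  haveI hH'n : (H.subgroupOf (Subgroup.normalizer (H : Set G))).Normal := normal_H H
  let e := hc.symm.QuotientMulEquiv
  let e' := Subgroup.subgroupOfEquivOfLe hHN
  let π : (Subgroup.normalizer (H : Set G)) →* H :=
    e'.toMonoidHom.comp (e.toMonoidHom.comp (QuotientGroup.mk' K))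
  have hπ : ∀ h : H, π ⟨h, hHN h.2⟩ = h := by
    intro h
    have h1 : e.symm ⟨⟨h, hHN h.2⟩, h.2⟩ = QuotientGroup.mk' K ⟨h, hHN h.2⟩ := rfl
    have h2 : e (QuotientGroup.mk' K ⟨h, hHN h.2⟩) = ⟨⟨h, hHN h.2⟩, h.2⟩ := by
      rw [← h1]; exact e.apply_symm_apply _
    show e' (e (QuotientGroup.mk' K ⟨h, hHN h.2⟩)) = h
    rw [h2]
    rfl
  have hker : ∀ n, π n = 1 ↔ n ∈ K := by
    intro n
    show e' (e (QuotientGroup.mk' K n)) = 1 ↔ n ∈ K
    rw [map_eq_one_iff _ e'.injective, map_eq_one_iff _ e.injective]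
    exact QuotientGroup.eq_one_iff n
  have hcop : (Nat.card H).Coprime (Nat.card K) := by
    rw [← hc.index_eq_card]; exact hHall
  let m := Nat.chineseRemainder hcop 1 0
  refine ⟨π, m, hπ, hker, ?_⟩
  intro n
  let t : (Subgroup.normalizer (H : Set G)) := ⟨π n, hHN (π n).2⟩
  have ht : π t = π n := hπ (π n)
  let u := n * t⁻¹
  have hu : u ∈ K := by
    rw [← hker]
    simp only [u, map_mul, map_inv, ht, mul_inv_cancel]
  have htH : t ∈ H.subgroupOf (Subgroup.normalizer (H : Set G)) := (π n).2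
  have hcomm : Commute u t :=
    Subgroup.commute_of_normal_of_disjoint K _ hKn hH'n hc.disjoint u t hu htH
  have hn : n = u * t := by simp [u]
  have hu1 : u ^ (m : ℕ) = 1 := by
    obtain ⟨q, hq⟩ : Nat.card K ∣ (m : ℕ) := (Nat.modEq_zero_iff_dvd).1 m.2.2
    have h1 : (⟨u, hu⟩ : K) ^ Nat.card K = 1 := pow_card_eq_one'
    have h2 : u ^ Nat.card K = 1 := congrArg Subtype.val h1
    rw [hq, pow_mul, h2, one_pow]
  have ht1 : (π n) ^ (m : ℕ) = π n := pow_of_modEq_one (π n) m.2.1
  have h3 : n ^ (m : ℕ) = t := by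
    conv_lhs => rw [hn]
    rw [hcomm.mul_pow, hu1, one_mul]
    apply Subtype.ext
    show ((t : G)) ^ (m : ℕ) = π n
    have := congrArg Subtype.val ht1
    exact this
  exact congrArg Subtype.val h3

theorem forward (hTI : Cfsg.IsTISubset (H : Set G))
    (hHall : (Nat.card H).Coprime (H.subgroupOf (Subgroup.normalizer (H : Set G))).index)
    (K : Subgroup (Subgroup.normalizer (H : Set G))) (hKn : K.Normal)
    (hc : K.IsComplement' (H.subgroupOf (Subgroup.normalizer (H : Set G)))) :
    ∃ L : Subgroup G, L.Normal ∧ L.IsComplement' H := by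
  classical
  cases nonempty_fintype G
  letI : Fintype H := Fintype.ofFinite _
  letI : Fintype (Subgroup.normalizer (H : Set G)) := Fintype.ofFinite _
  obtain ⟨π, m, hπ, hker, hpow⟩ := proj_data H hHall K hKn hc
  have hconj : ∀ (x : Subgroup.normalizer (H : Set G)) (g : G)
      (hy : g⁻¹ * x * g ∈ Subgroup.normalizer (H : Set G)),
      ((π ⟨_, hy⟩ : H) : G) = g⁻¹ * (π x : G) * g := by
    intro x g hy
    rw [← hpow, ← hpow]
    have := conj_pow (a := g⁻¹) (b := (x : G)) (i := m)
    simpa using this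
  refine core_complement π Subgroup.le_normalizer hπ ?_ ?_
  · intro x g hx hy
    by_contra hg
    have hg' : g⁻¹ ∉ Subgroup.normalizer (H : Set G) := fun h => hg (by simpa using Subgroup.inv_mem _ h)
    have h1 := hconj x g hy
    have h2 : g⁻¹ * (π x : G) * (g⁻¹)⁻¹ ∈ (H : Set G) := by
      rw [inv_inv, ← h1]
      exact (π ⟨_, hy⟩).2
    have h3 := hTI g⁻¹ hg' _ (π x).2 h2
    exact hx (Subtype.ext h3)
  · intro x g hx hy
    apply Subtype.ext
    rw [hconj x g hy, hx]
    simp

theorem backward (L : Subgroup G) (hLn : L.Normal) (hLc : L.IsComplement' H) :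
    ∃ K : Subgroup (Subgroup.normalizer (H : Set G)), K.Normal ∧
      K.IsComplement' (H.subgroupOf (Subgroup.normalizer (H : Set G))) := by
  refine ⟨L.subgroupOf _, Subgroup.normal_subgroupOf, ?_⟩
  apply Subgroup.isComplement'_of_disjoint_and_mul_eq_univ
  · rw [Subgroup.disjoint_def]
    intro x hx1 hx2
    rw [Subgroup.mem_subgroupOf] at hx1 hx2
    apply Subtype.ext
    exact Subgroup.disjoint_def.1 hLc.disjoint hx1 hx2
  · rw [Set.eq_univ_iff_forall]
    intro n
    obtain ⟨⟨l, h⟩, hlh⟩ := hLc.2 (n : G)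
    have hl : (l : G) = n * (h : G)⁻¹ := by
      rw [← hlh]; simp
    have hlN : (l : G) ∈ Subgroup.normalizer (H : Set G) := by
      rw [hl]
      exact Subgroup.mul_mem _ n.2 (Subgroup.inv_mem _ (Subgroup.le_normalizer h.2))
    refine Set.mem_mul.mpr ⟨⟨l, hlN⟩, ?_, ⟨h, Subgroup.le_normalizer h.2⟩, ?_, ?_⟩
    · show (l : G) ∈ L
      exact l.2
    · show (h : G) ∈ H
      exact h.2
    · apply Subtype.ext
      exact hlh

theorem second (hTI : Cfsg.IsTISubset (H : Set G))
    (hHall : (Nat.card H).Coprime (H.subgroupOf (Subgroup.normalizer (H : Set G))).index)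
    (hnn : ¬ H.Normal)
    (K : Subgroup (Subgroup.normalizer (H : Set G))) (hKn : K.Normal)
    (hc : K.IsComplement' (H.subgroupOf (Subgroup.normalizer (H : Set G)))) :
    ∃ (F : Type u) (_ : Group F) (_ : Finite F) (C : Subgroup F),
      Cfsg.IsFrobeniusComplement C ∧ Nonempty (H ≃* C) := by
  classical
  obtain ⟨π, m, hπ, hker, hpow⟩ := proj_data H hHall K hKn hc
  obtain ⟨L, hLn, hLc⟩ := forward H hTI hHall K hKn hc
  haveI hHnt : Nontrivial H := by
    rw [Subgroup.nontrivial_iff_ne_bot]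
    rintro rfl
    exact hnn inferInstance
  let φ : H →* MulAut L := (MulAut.conjNormal (H := L)).comp H.subtype
  have hφ : ∀ (h : H) (x : L), ((φ h x : L) : G) = h * x * (h : G)⁻¹ := fun h x =>
    MulAut.conjNormal_apply _ _
  let K₀ : Subgroup L := (Subgroup.normalizer (H : Set G)).subgroupOf L
  have hdis : ∀ x : G, x ∈ L → x ∈ H → x = 1 := fun x h1 h2 =>
    Subgroup.disjoint_def.1 hLc.disjoint h1 h2
  have hfix : ∀ h : H, h ≠ 1 → ∀ x : L, φ h x = x ↔ x ∈ K₀ := by
    intro h hh x
    constructor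
    · intro hx
      have h1 : (h : G) * x * (h : G)⁻¹ = x := by
        rw [← hφ, hx]
      rw [Subgroup.mem_subgroupOf]
      by_contra hxN
      have h2 : (x : G) * h * (x : G)⁻¹ = h := by
        rw [mul_inv_eq_iff_eq_mul] at h1 ⊢
        exact h1.symm
      have h3 := hTI (x : G) hxN h h.2 (by rw [h2]; exact h.2)
      exact hh (Subtype.ext h3)
    · intro hx
      rw [Subgroup.mem_subgroupOf] at hx
      apply Subtype.ext
      rw [hφ]
      have h1 : (h : G) * x * (h : G)⁻¹ * (x : G)⁻¹ ∈ L :=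
        L.mul_mem (hLn.conj_mem _ x.2 _) (L.inv_mem x.2)
      have h2 : (h : G) * x * (h : G)⁻¹ * (x : G)⁻¹ ∈ H := by
        have h3 : (x : G) * (h : G)⁻¹ * (x : G)⁻¹ ∈ H :=
          (Subgroup.mem_normalizer_iff.1 hx _).1 (H.inv_mem h.2)
        have h4 : (h : G) * x * (h : G)⁻¹ * (x : G)⁻¹ = h * ((x : G) * (h : G)⁻¹ * (x : G)⁻¹) := by
          group
        rw [h4]
        exact H.mul_mem h.2 h3
      have h3 := hdis _ h1 h2
      exact mul_inv_eq_one.1 h3
  have hK₀ : K₀ ≠ ⊤ := by
    intro h0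
    apply hnn
    have hLN : ∀ x ∈ L, x ∈ Subgroup.normalizer (H : Set G) := by
      intro x hx
      have : (⟨x, hx⟩ : L) ∈ K₀ := by rw [h0]; trivial
      exact this
    refine ⟨fun n hn g => ?_⟩
    obtain ⟨⟨l, h⟩, hlh⟩ := hLc.2 g
    have hg : g ∈ Subgroup.normalizer (H : Set G) := by
      have hh : (l : G) * h = g := hlh
      rw [← hh]
      exact Subgroup.mul_mem _ (hLN _ l.2) (Subgroup.le_normalizer h.2)
    exact (Subgroup.mem_normalizer_iff.1 hg n).1 hn
  have hcopK : (Nat.card H).Coprime (Nat.card K) := by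
    rw [← hc.index_eq_card]; exact hHall
  have hcop : (Nat.card H).Coprime (Nat.card L) := by
    by_contra hnc
    obtain ⟨r, hr, hrH, hrL⟩ := Nat.Prime.not_coprime_iff_dvd.1 hnc
    haveI : Fact r.Prime := ⟨hr⟩
    obtain ⟨z, hz⟩ := exists_prime_orderOf_dvd_card' r hrH
    have hz1 : z ≠ 1 := by
      intro h0
      rw [h0, orderOf_one] at hz
      exact hr.one_lt.ne hz
    cases nonempty_fintype L
    let f : Function.End L := fun x => φ z x
    have hpowf : ∀ (k : ℕ) (x : L), (f ^ k) x = (φ (z ^ k)) x := by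
      intro k
      induction k with
      | zero =>
        intro x
        rw [pow_zero, pow_zero, map_one]
        rfl
      | succ k ih =>
        intro x
        rw [pow_succ, pow_succ, map_mul]
        show (f ^ k) (f x) = (φ (z ^ k)) (φ z x)
        rw [ih]
    have hf : f ^ r ^ 1 = 1 := by
      funext x
      rw [hpowf, pow_one, ← hz, pow_orderOf_eq_one, map_one]
      rfl
    have hmod := Equiv.Perm.card_fixedPoints_modEq hf
    have hfixcard : Fintype.card f.fixedPoints = Nat.card K₀ := by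
      rw [← Nat.card_eq_fintype_card]
      exact Nat.card_congr (Equiv.subtypeEquivRight (fun x => by
        show φ z x = x ↔ _
        exact hfix z hz1 x))
    rw [hfixcard, ← Nat.card_eq_fintype_card] at hmod
    have hrK₀ : r ∣ Nat.card K₀ := (Nat.modEq_zero_iff_dvd.1 (hmod.symm.trans
      ((Nat.modEq_zero_iff_dvd).2 hrL)))
    obtain ⟨y, hy⟩ := exists_prime_orderOf_dvd_card' r hrK₀
    have hyL : ((y : L) : G) ∈ L := (y : L).2
    have hyN : ((y : L) : G) ∈ Subgroup.normalizer (H : Set G) := y.2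
    have h1 := hpow ⟨_, hyN⟩
    have h2 : ((π ⟨_, hyN⟩ : H) : G) = 1 := by
      apply hdis _ _ (π ⟨_, hyN⟩).2
      rw [← h1]
      exact L.pow_mem hyL m
    have h3 : (⟨_, hyN⟩ : Subgroup.normalizer (H : Set G)) ∈ K := (hker _).1 (Subtype.ext h2)
    have h4 : orderOf (⟨_, h3⟩ : K) = r := by
      rw [← hy, ← Subgroup.orderOf_coe y, ← Subgroup.orderOf_coe (y : L), ← Subgroup.orderOf_coe (⟨_, h3⟩ : K),
        ← Subgroup.orderOf_coe ((⟨_, h3⟩ : K) : Subgroup.normalizer (H : Set G))]
    have h5 : r ∣ Nat.card K := by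
      rw [← h4]; exact orderOf_dvd_natCard _
    exact hr.one_lt.ne' (Nat.eq_one_of_dvd_coprimes hcopK hrH h5)
  obtain ⟨A, iA, fA, ψ, hA, hψ⟩ := exists_fpf H _ L φ K₀ rfl hcop hK₀ hfix
  haveI := hA
  haveI : Finite (A ⋊[ψ] H) := Finite.of_equiv _ SemidirectProduct.equivProd.symm
  refine ⟨A ⋊[ψ] H, inferInstance, inferInstance, _, frob_of_fpf ψ hψ,
    ⟨MonoidHom.ofInjective SemidirectProduct.inr_injective⟩⟩

end Glue

/-- Let G be a finite group and H a subgroup that meets each of its conjugates by elements outside N_G(H) trivially and whose order is coprime to its index in N_G(H). Then H has a normal complement in N_G(H) if and only if H has a normal complement in G. Moreover, if H is not normal in G and has a normal complement in N_G(H), then H is isomorphic to a Frobenius complement of some finite Frobenius group. -/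
theorem result {G : Type u} [Group G] [Finite G] (H : Subgroup G)
    (hTI : Cfsg.IsTISubset (H : Set G)) (hHall : (Nat.card H).Coprime (H.subgroupOf (Subgroup.normalizer (H : Set G))).index) :
    ((∃ K : Subgroup (Subgroup.normalizer (H : Set G)), K.Normal ∧ K.IsComplement' (H.subgroupOf (Subgroup.normalizer (H : Set G)))) ↔
      (∃ N : Subgroup G, N.Normal ∧ N.IsComplement' H)) ∧
    (¬ H.Normal → (∃ K : Subgroup (Subgroup.normalizer (H : Set G)), K.Normal ∧ K.IsComplement' (H.subgroupOf (Subgroup.normalizer (H : Set G)))) →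
      ∃ (F : Type u) (_ : Group F) (_ : Finite F) (C : Subgroup F), Cfsg.IsFrobeniusComplement C ∧ Nonempty (H ≃* C)) := by
  refine ⟨⟨fun ⟨K, hKn, hc⟩ => forward H hTI hHall K hKn hc, fun ⟨L, hLn, hLc⟩ => backward H L hLn hLc⟩, ?_⟩
  rintro hnn ⟨K, hKn, hc⟩
  exact second H hTI hHall hnn K hKn hc

end Cfsg.Agent.S4115
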