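import Cfsg.Statements.S4116
import Cfsg.Agent.Lib.Transfer.Basic
import Cfsg.Agent.Lib.Basic.ConjCount
import Cfsg.Agent.Lib.PGroup.Timmesfeld
import Mathlib

set_option autoImplicit false
open Cfsg

namespace Cfsg.Agent.S4116

/-- If every non-identity element of `K` has exactly one fixed point on `Ω`, then `K` has a common
fixed point. -/
theorem exists_fixed_of_unique {K Ω : Type*} [Group K] [Finite K] [Finite Ω] [Nonempty Ω]
    [MulAction K Ω] (h : ∀ x : K, x ≠ 1 → Nat.card (MulAction.fixedBy Ω x) = 1) :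
    ∃ ω : Ω, ∀ x : K, x • ω = ω := by
  classical
  haveI := Fintype.ofFinite K
  haveI := Fintype.ofFinite Ω
  by_contra hno
  push Not at hno
  let Q := MulAction.orbitRel.Quotient K Ω
  haveI : Fintype Q := Fintype.ofFinite _
  have hB := MulAction.sum_card_fixedBy_eq_card_orbits_mul_card_group K Ω
  set k := Fintype.card K with hk
  have hkpos : 0 < k := Fintype.card_pos
  -- the left side
  have hL : ∑ x : K, Fintype.card (MulAction.fixedBy Ω x) = Fintype.card Ω + (k - 1) := by
    rw [← Finset.add_sum_erase _ _ (Finset.mem_univ (1 : K))]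
    congr 1
    · apply Fintype.card_congr
      exact Equiv.subtypeUnivEquiv (fun a => by simp)
    · rw [Finset.sum_congr rfl (g := fun _ => 1)]
      · simp [Finset.card_erase_of_mem, hk]
      · intro x hx
        rw [← Nat.card_eq_fintype_card]
        exact h x (Finset.ne_of_mem_erase hx)
  -- orbit sizes
  let f : Q → ℕ := fun q => Nat.card (MulAction.orbit K (Quotient.out q))
  let s : Q → ℕ := fun q => Nat.card (MulAction.stabilizer K (Quotient.out q))
  have hΩ : Fintype.card Ω = ∑ q : Q, f q := by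
    rw [← Nat.card_eq_fintype_card, Nat.card_congr (MulAction.selfEquivSigmaOrbits K Ω),
      Nat.card_sigma]
  have hfs : ∀ q : Q, f q * s q = k := by
    intro q
    have := Nat.card_congr (MulAction.orbitProdStabilizerEquivGroup K (Quotient.out q))
    rw [Nat.card_prod] at this
    rw [hk, ← Nat.card_eq_fintype_card]
    exact this
  have hs0 : ∀ q : Q, 0 < s q := fun q => Nat.card_pos
  have hfk : ∀ q : Q, f q ≤ k := fun q => by
    rw [← hfs q]
    exact Nat.le_mul_of_pos_right _ (hs0 q)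
  have hf2 : ∀ q : Q, 2 ≤ f q := by
    intro q
    obtain ⟨x, hx⟩ := hno (Quotient.out q)
    have : Nontrivial (MulAction.orbit K (Quotient.out q)) :=
      ⟨⟨⟨_, MulAction.mem_orbit_self _⟩, ⟨_, MulAction.mem_orbit _ x⟩, fun h => hx
        (congrArg Subtype.val h).symm⟩⟩
    exact Finite.one_lt_card_iff_nontrivial.mpr this
  let w : Q → ℕ := fun q => k - f q
  have hw : ∀ q : Q, w q ≠ 0 → k ≤ 2 * w q := by
    intro q hq
    have h1 : s q ≠ 1 := by
      intro h1
      have := hfs q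
      rw [h1, mul_one] at this
      apply hq
      show k - f q = 0
      omega
    have h2 : 2 ≤ s q := by have := hs0 q; omega
    have h3 : 2 * f q ≤ k := by
      rw [← hfs q, mul_comm 2]
      exact Nat.mul_le_mul_left _ h2
    show k ≤ 2 * (k - f q)
    omega
  have hwsum : ∑ q : Q, w q = k - 1 := by
    have h1 : ∑ q : Q, (w q + f q) = Fintype.card Q * k := by
      rw [Finset.sum_congr rfl (g := fun _ => k) (fun q _ => Nat.sub_add_cancel (hfk q))]
      simp
    rw [Finset.sum_add_distrib, ← hΩ, ← hB, hL] at h1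
    omega
  have hk2 : 2 ≤ k := by
    obtain ⟨ω⟩ : Nonempty Ω := inferInstance
    obtain ⟨x, hx⟩ := hno ω
    have hx1 : x ≠ 1 := by
      rintro rfl
      exact hx (one_smul _ _)
    have : Nontrivial K := ⟨⟨x, 1, hx1⟩⟩
    exact Fintype.one_lt_card
  obtain ⟨q₁, -, hq₁⟩ := Finset.exists_ne_zero_of_sum_ne_zero
    (s := Finset.univ) (f := w) (by rw [hwsum]; omega)
  have hq₁' : w q₁ + 2 ≤ k := by
    have := hf2 q₁
    have := hfk q₁
    show k - f q₁ + 2 ≤ k
    omega
  have he := Finset.add_sum_erase Finset.univ w (Finset.mem_univ q₁)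
  rw [hwsum] at he
  obtain ⟨q₂, hq₂m, hq₂⟩ := Finset.exists_ne_zero_of_sum_ne_zero
    (s := Finset.univ.erase q₁) (f := w) (by omega)
  have h2 : w q₂ ≤ ∑ q ∈ Finset.univ.erase q₁, w q :=
    Finset.single_le_sum (fun _ _ => Nat.zero_le _) hq₂m
  have h3 := hw q₁ hq₁
  have h4 := hw q₂ hq₂
  omega

/-- Let G be a finite group with a subgroup H whose order is coprime to its index (a Hall subgroup) and which meets each of its conjugates by elements outside N_G(H) trivially. Then every subgroup of G whose order is divisible only by primes dividing the order of H lies in a conjugate of H. -/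
theorem result {G : Type*} [Group G] [Finite G] (H : Subgroup G)
    (hHall : (Nat.card H).Coprime H.index) (hTI : Cfsg.IsTISubset (H : Set G))
    (K : Subgroup G) (hK : ∀ q : ℕ, q.Prime → q ∣ Nat.card K → q ∣ Nat.card H) :
    ∃ g : G, K ≤ H.map (MulAut.conj g).toMonoidHom := by
  classical
  set N := Subgroup.normalizer (H : Set G) with hN
  -- elements of the normalizer
  have hF1 : ∀ x : G, x ∈ N → (∀ q : ℕ, q.Prime → q ∣ orderOf x → q ∣ Nat.card H) → x ∈ H := by
    intro x hx hπ
    set L := Subgroup.zpowers x ⊔ H with hL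
    have hle : Subgroup.zpowers x ≤ N := by
      rw [Subgroup.zpowers_le]
      exact hx
    have h1 := Cfsg.Agent.Lib.PGroup.Timmesfeld.card_sup_mul_card_inf_of_le_normalizer
      (Subgroup.zpowers x) H hle
    have hHL : H ≤ L := le_sup_right
    have h2 : Nat.card H * H.relIndex L = Nat.card L := by
      have := Subgroup.card_mul_index (H.subgroupOf L)
      rw [Nat.card_congr (Subgroup.subgroupOfEquivOfLe hHL).toEquiv] at this
      exact this
    have hr1 : H.relIndex L ∣ H.index := Subgroup.relIndex_dvd_index_of_le hHL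
    have hr2 : H.relIndex L ∣ orderOf x := by
      rw [← h2, Nat.card_zpowers] at h1
      have hpos : 0 < Nat.card H := Nat.card_pos
      refine ⟨Nat.card (Subgroup.zpowers x ⊓ H : Subgroup G), ?_⟩
      apply Nat.eq_of_mul_eq_mul_left hpos
      rw [← mul_assoc, h1, mul_comm]
    have hr : H.relIndex L = 1 := by
      by_contra hne
      obtain ⟨q, hq, hd⟩ := Nat.exists_prime_and_dvd hne
      have h3 := hπ q hq (hd.trans hr2)
      have h4 := hd.trans hr1
      exact hq.one_lt.ne' (Nat.eq_one_of_dvd_coprimes hHall h3 h4)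
    rw [Subgroup.relIndex_eq_one] at hr
    exact hr (Subgroup.mem_sup_left (Subgroup.mem_zpowers x))
  -- every nontrivial `π`-element lies in a conjugate
  have hF3 : ∀ x : G, x ≠ 1 → (∀ q : ℕ, q.Prime → q ∣ orderOf x → q ∣ Nat.card H) →
      ∃ g : G, g⁻¹ * x * g ∈ H := by
    intro x hx1 hπ
    have hne : orderOf x ≠ 1 := fun h => hx1 (orderOf_eq_one_iff.mp h)
    obtain ⟨p, hp, hpd⟩ := Nat.exists_prime_and_dvd hne
    haveI : Fact p.Prime := ⟨hp⟩
    obtain ⟨a, b, hab, hc, -, hbz, ⟨k, hk⟩, hb⟩ :=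
      Cfsg.Agent.Lib.Transfer.Basic.exists_pPart_decomp (p := p) x
    have ha1 : a ≠ 1 := by
      rintro rfl
      rw [one_mul] at hab
      rw [hab] at hb
      exact hp.one_lt.ne' (Nat.Coprime.eq_one_of_dvd hb.symm hpd)
    have hpH : p ∣ Nat.card H := hπ p hp hpd
    have hpidx : ¬ p ∣ Nat.card (G ⧸ H) := by
      intro h
      exact hp.one_lt.ne' (Nat.eq_one_of_dvd_coprimes hHall hpH h)
    have hZ : IsPGroup p (Subgroup.zpowers a) := by
      apply IsPGroup.of_card (n := k)
      rw [Nat.card_zpowers, hk]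
    obtain ⟨ω, hω⟩ := hZ.nonempty_fixed_point_of_prime_not_dvd_card (G ⧸ H) hpidx
    obtain ⟨g, rfl⟩ := QuotientGroup.mk_surjective ω
    have h1 : (⟨a, Subgroup.mem_zpowers a⟩ : Subgroup.zpowers a) • ((g : G) : G ⧸ H) = (g : G ⧸ H) :=
      hω _
    have h2 : ((a * g : G) : G ⧸ H) = (g : G ⧸ H) := h1
    have h3 : g⁻¹ * a * g ∈ H := by
      have := QuotientGroup.eq.mp h2
      have h4 := H.inv_mem this
      simpa [mul_assoc] using h4
    refine ⟨g, ?_⟩
    have ha'1 : g⁻¹ * a * g ≠ 1 := by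
      intro h
      apply ha1
      have : a = g * (g⁻¹ * a * g) * g⁻¹ := by group
      rw [this, h]
      group
    have hcomm : g⁻¹ * b * g * (g⁻¹ * a * g) * (g⁻¹ * b * g)⁻¹ = g⁻¹ * a * g := by
      have h5 : a * b = b * a := hc
      calc g⁻¹ * b * g * (g⁻¹ * a * g) * (g⁻¹ * b * g)⁻¹ = g⁻¹ * (b * a) * b⁻¹ * g := by group
        _ = g⁻¹ * (a * b) * b⁻¹ * g := by rw [h5]
        _ = _ := by group
    have hbN : g⁻¹ * b * g ∈ N := by
      by_contra hnot
      exact ha'1 (hTI _ hnot _ h3 (by rw [hcomm]; exact h3))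
    have hbH : g⁻¹ * b * g ∈ H := by
      apply hF1 _ hbN
      intro q hq hd
      have h6 : orderOf (g⁻¹ * b * g) = orderOf b := by
        have : g⁻¹ * b * g = g⁻¹ * b * g⁻¹⁻¹ := by group
        rw [this]
        exact (Cfsg.Agent.Lib.Basic.ConjCount.orderOf_eq_of_isConj
          (isConj_iff.mpr ⟨g⁻¹, rfl⟩)).symm
      rw [h6] at hd
      exact hπ q hq (hd.trans (orderOf_dvd_of_mem_zpowers hbz))
    have : g⁻¹ * x * g = (g⁻¹ * a * g) * (g⁻¹ * b * g) := by
      rw [← hab]
      group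
    rw [this]
    exact H.mul_mem h3 hbH
  -- uniqueness
  have hF4 : ∀ x : G, x ≠ 1 → ∀ g₁ g₂ : G, g₁⁻¹ * x * g₁ ∈ H → g₂⁻¹ * x * g₂ ∈ H → g₂⁻¹ * g₁ ∈ N := by
    intro x hx g₁ g₂ h1 h2
    by_contra hnot
    have h3 : (g₂⁻¹ * g₁) * (g₁⁻¹ * x * g₁) * (g₂⁻¹ * g₁)⁻¹ = g₂⁻¹ * x * g₂ := by group
    have h4 := hTI _ hnot _ h1 (by rw [h3]; exact h2)
    apply hx
    have : x = g₁ * (g₁⁻¹ * x * g₁) * g₁⁻¹ := by group
    rw [this, h4]
    group
  -- elements of `K` are `π`-elements
  have hKπ : ∀ x : K, ∀ g : G, ∀ q : ℕ, q.Prime → q ∣ orderOf (g⁻¹ * (x : G) * g) → q ∣ Nat.card H := by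
    intro x g q hq hd
    have h6 : orderOf (g⁻¹ * (x : G) * g) = orderOf (x : G) := by
      have : g⁻¹ * (x : G) * g = g⁻¹ * (x : G) * g⁻¹⁻¹ := by group
      rw [this]
      exact (Cfsg.Agent.Lib.Basic.ConjCount.orderOf_eq_of_isConj
        (isConj_iff.mpr ⟨g⁻¹, rfl⟩)).symm
    rw [h6, Subgroup.orderOf_coe] at hd
    exact hK q hq (hd.trans (orderOf_dvd_natCard x))
  have hsmul : ∀ (x : K) (g : G), x • ((g : G) : G ⧸ N) = (g : G ⧸ N) ↔ g⁻¹ * (x : G) * g ∈ N := by
    intro x g
    have h1 : x • ((g : G) : G ⧸ N) = (((x : G) * g : G) : G ⧸ N) := rfl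
    rw [h1, QuotientGroup.eq]
    constructor
    · intro h
      have := N.inv_mem h
      simpa [mul_assoc] using this
    · intro h
      have := N.inv_mem h
      simpa [mul_assoc] using this
  obtain ⟨ω, hω⟩ := exists_fixed_of_unique (K := K) (Ω := G ⧸ N) (by
    intro x hx
    have hx' : (x : G) ≠ 1 := fun h => hx (Subtype.ext h)
    rw [Nat.card_eq_one_iff_unique]
    constructor
    · constructor
      rintro ⟨a, ha⟩ ⟨b, hb⟩
      obtain ⟨g₁, rfl⟩ := QuotientGroup.mk_surjective a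
      obtain ⟨g₂, rfl⟩ := QuotientGroup.mk_surjective b
      have h1 := (hsmul x g₁).mp ha
      have h2 := (hsmul x g₂).mp hb
      have h3 := hF1 _ h1 (hKπ x g₁)
      have h4 := hF1 _ h2 (hKπ x g₂)
      have h5 := hF4 _ hx' g₁ g₂ h3 h4
      apply Subtype.ext
      apply QuotientGroup.eq.mpr
      have := N.inv_mem h5
      simpa using this
    · obtain ⟨g, hg⟩ := hF3 (x : G) hx' (fun q hq hd => by
        have := hKπ x 1 q hq
        simp only [inv_one, one_mul, mul_one] at this
        exact this hd)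
      refine ⟨⟨((g : G) : G ⧸ N), ?_⟩⟩
      exact (hsmul x g).mpr (Subgroup.le_normalizer hg))
  obtain ⟨g, rfl⟩ := QuotientGroup.mk_surjective ω
  refine ⟨g, ?_⟩
  intro k hk
  have h1 := (hsmul ⟨k, hk⟩ g).mp (hω _)
  have h2 := hF1 _ h1 (hKπ ⟨k, hk⟩ g)
  refine Subgroup.mem_map.mpr ⟨_, h2, ?_⟩
  simp only [MulEquiv.coe_toMonoidHom, MulAut.conj_apply]
  group

end Cfsg.Agent.S4116
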