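import Cfsg.Statements.S4117
import Mathlib

set_option autoImplicit false
open Cfsg

namespace Cfsg.Agent.S4117

open scoped commutatorElement Pointwise

section Aux

variable {G A : Type*} [Group G] [Finite G] [Group A] [Finite A] [MulDistribMulAction A G]

/-- The commutator `[G, A]`. -/
def comm' (G A : Type*) [Group G] [Group A] [MulDistribMulAction A G] : Subgroup G :=
  Subgroup.closure {y : G | ∃ (a : A) (g : G), y = g⁻¹ * a • g}

theorem gen_mem (a : A) (g : G) : g⁻¹ * a • g ∈ comm' G A := Subgroup.subset_closure ⟨a, g, rfl⟩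

theorem comm'_normal : (comm' G A).Normal := by
  constructor
  intro n hn x
  induction hn using Subgroup.closure_induction with
  | mem y hy =>
    obtain ⟨a, g, rfl⟩ := hy
    have h1 : (g * x⁻¹)⁻¹ * a • (g * x⁻¹) ∈ comm' G A := gen_mem a _
    have h2 : ((a • x)⁻¹)⁻¹ * a⁻¹ • ((a • x)⁻¹) ∈ comm' G A := gen_mem a⁻¹ _
    have e : x * (g⁻¹ * a • g) * x⁻¹ = ((g * x⁻¹)⁻¹ * a • (g * x⁻¹)) * (((a • x)⁻¹)⁻¹ * a⁻¹ • ((a • x)⁻¹)) := by
      simp only [smul_mul', smul_inv', inv_smul_smul, mul_inv_rev, inv_inv]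
      group
    rw [e]
    exact Subgroup.mul_mem _ h1 h2
  | one => simp [Subgroup.one_mem]
  | mul y z _ _ hy hz =>
    have e : x * (y * z) * x⁻¹ = (x * y * x⁻¹) * (x * z * x⁻¹) := by group
    rw [e]
    exact Subgroup.mul_mem _ hy hz
  | inv y _ hy =>
    have e : x * y⁻¹ * x⁻¹ = (x * y * x⁻¹)⁻¹ := by group
    rw [e]
    exact Subgroup.inv_mem _ hy

theorem comm'_smul (a : A) {y : G} (hy : y ∈ comm' G A) : a • y ∈ comm' G A := by
  induction hy using Subgroup.closure_induction with
  | mem y hy =>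
    obtain ⟨b, g, rfl⟩ := hy
    have e : a • (g⁻¹ * b • g) = (a • g)⁻¹ * (a * b * a⁻¹) • (a • g) := by
      simp [mul_smul]
    rw [e]
    exact gen_mem _ _
  | one => simp [Subgroup.one_mem]
  | mul y z _ _ hy hz =>
    rw [smul_mul']
    exact Subgroup.mul_mem _ hy hz
  | inv y _ hy =>
    rw [smul_inv']
    exact Subgroup.inv_mem _ hy

theorem smul_commutator (a : A) {d : G} (hd : d ∈ commutator G) : a • d ∈ commutator G := by
  have h : ∀ d ∈ (⁅(⊤ : Subgroup G), (⊤ : Subgroup G)⁆ : Subgroup G), a • d ∈ (⁅(⊤ : Subgroup G), (⊤ : Subgroup G)⁆ : Subgroup G) := by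
    intro d hd
    induction hd using Subgroup.closure_induction with
    | mem y hy =>
      obtain ⟨u, -, v, -, rfl⟩ := hy
      have e : a • ⁅u, v⁆ = ⁅a • u, a • v⁆ := by
        simp [commutatorElement_def, smul_mul', smul_inv']
      rw [e]
      exact Subgroup.commutator_mem_commutator trivial trivial
    | one => simp [Subgroup.one_mem]
    | mul y z _ _ hy hz =>
      rw [smul_mul']
      exact Subgroup.mul_mem _ hy hz
    | inv y _ hy =>
      rw [smul_inv']
      exact Subgroup.inv_mem _ hy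
  exact h d hd

/-- Elements of `[G, A]` centralize `G'`, as `G'` is cyclic. -/
theorem comm'_centralizes [IsZGroup G] {y d : G} (hy : y ∈ comm' G A) (hd : d ∈ commutator G) :
    y * d = d * y := by
  haveI hcyc : IsCyclic (commutator G) := IsZGroup.isCyclic_commutator G
  obtain ⟨d₀, hd₀⟩ := IsCyclic.exists_generator (α := commutator G)
  have hpow : ∀ x ∈ commutator G, ∃ k : ℕ, x = (d₀ : G) ^ k := by
    intro x hx
    obtain ⟨k, hk⟩ := (mem_powers_iff_mem_zpowers.mpr (hd₀ ⟨x, hx⟩))
    exact ⟨k, by simpa using (congrArg Subtype.val hk).symm⟩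
  have hd₀mem : (d₀ : G) ∈ commutator G := d₀.2
  have hgen : ∀ (a : A) (g : G), (a • g) * (d₀ : G) * (a • g)⁻¹ = g * (d₀ : G) * g⁻¹ := by
    intro a g
    obtain ⟨r, hr⟩ := hpow _ ((inferInstance : (commutator G).Normal).conj_mem _ hd₀mem g)
    obtain ⟨t, ht⟩ := hpow _ (smul_commutator a⁻¹ hd₀mem)
    have h1 : a • ((a⁻¹ • (d₀ : G))) = d₀ := smul_inv_smul _ _
    have h2 : g * (d₀ : G) ^ t * g⁻¹ = ((d₀ : G) ^ r) ^ t := by
      rw [← hr, conj_pow]
    calc (a • g) * (d₀ : G) * (a • g)⁻¹ = (a • g) * (a • ((d₀ : G) ^ t)) * (a • g)⁻¹ := by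
          rw [← ht, h1]
      _ = a • (g * (d₀ : G) ^ t * g⁻¹) := by simp [smul_mul', smul_inv']
      _ = a • (((d₀ : G) ^ r) ^ t) := by rw [h2]
      _ = (a • (d₀ : G) ^ t) ^ r := by
          rw [← pow_mul, mul_comm, pow_mul, smul_pow']
      _ = (d₀ : G) ^ r := by rw [← ht, h1]
      _ = g * (d₀ : G) * g⁻¹ := hr.symm
  have hall : ∀ (a : A) (g : G) (d : G), d ∈ commutator G → (a • g) * d * (a • g)⁻¹ = g * d * g⁻¹ := by
    intro a g d hd
    obtain ⟨k, rfl⟩ := hpow d hd
    rw [← conj_pow, ← conj_pow, hgen]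
  induction hy using Subgroup.closure_induction with
  | mem y hy =>
    obtain ⟨a, g, rfl⟩ := hy
    have h := hall a g d hd
    have e : (g⁻¹ * a • g) * d = d * (g⁻¹ * a • g) := by
      have h3 : (a • g) * d = g * d * g⁻¹ * (a • g) := by
        rw [← h]; group
      calc (g⁻¹ * a • g) * d = g⁻¹ * ((a • g) * d) := by group
        _ = d * (g⁻¹ * a • g) := by rw [h3]; group
    exact e
  | one => simp
  | mul y z _ _ hy hz =>
    rw [mul_assoc, hz, ← mul_assoc, hy, mul_assoc]
  | inv y _ hy =>
    rw [eq_mul_inv_iff_mul_eq, mul_assoc, ← eq_inv_mul_iff_mul_eq, inv_inv]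
    exact hy.symm

theorem comm'_comm [IsZGroup G] (y z : comm' G A) : y * z = z * y := by
  let f₀ : comm' G A →* Abelianization G := Abelianization.of.comp (comm' G A).subtype
  haveI : IsCyclic f₀.range := Subgroup.isCyclic _
  refine (MonoidHom.isMulCommutative_of_isCyclic_of_ker_le_center f₀.rangeRestrict ?_).is_comm.comm y z
  intro w hw
  have hw1 : f₀ w = 1 := by
    have := congrArg Subtype.val (MonoidHom.mem_ker.mp hw)
    simpa using this
  have hw2 : (w : G) ∈ commutator G := by
    have : Abelianization.of (w : G) = 1 := hw1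
    exact (QuotientGroup.eq_one_iff _).mp this
  rw [Subgroup.mem_center_iff]
  intro u
  apply Subtype.ext
  exact comm'_centralizes u.2 hw2

end Aux

section Main

variable {G A : Type*} [Group G] [Finite G] [Group A] [Finite A] [MulDistribMulAction A G] [IsZGroup G]

theorem mem_zpowers_of_pow {H : Type*} [Group H] [Finite H] [IsCyclic H] {p : ℕ} [Fact p.Prime] {x y : H}
    (hx : x ^ p = 1) (hy : y ^ p = 1) (hy1 : y ≠ 1) : x ∈ Subgroup.zpowers y := by
  classical
  haveI := Fintype.ofFinite H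
  have hoy : orderOf y = p := orderOf_eq_prime hy hy1
  have hle := IsCyclic.card_pow_eq_one_le (α := H) (n := p) (Fact.out : p.Prime).pos
  let F : Finset H := Finset.univ.filter (fun z : H => z ^ p = 1)
  let Z : Finset H := Finset.univ.filter (fun z : H => z ∈ Subgroup.zpowers y)
  have hZF : Z ⊆ F := by
    intro z hz
    have hz' : z ∈ Subgroup.zpowers y := (Finset.mem_filter.mp hz).2
    obtain ⟨k, rfl⟩ := hz'
    refine Finset.mem_filter.mpr ⟨Finset.mem_univ _, ?_⟩
    show (y ^ k) ^ p = 1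
    rw [← zpow_natCast, ← zpow_mul, mul_comm, zpow_mul, zpow_natCast, hy, one_zpow]
  have hZc : Z.card = p := by
    have h1 : Nat.card (Subgroup.zpowers y) = p := by rw [Nat.card_zpowers, hoy]
    rw [← h1, Nat.card_eq_fintype_card, Fintype.card_subtype]
  have hZeq : Z = F := Finset.eq_of_subset_of_card_le hZF (by rw [hZc]; exact hle)
  have hxF : x ∈ F := Finset.mem_filter.mpr ⟨Finset.mem_univ _, hx⟩
  rw [← hZeq] at hxF
  exact (Finset.mem_filter.mp hxF).2

/-- Every coset of `[G, A]` contains a fixed point. -/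
theorem exists_fixed (hcop : (Nat.card A).Coprime (Nat.card G)) (g : G) :
    ∃ n ∈ comm' G A, g * n ∈ MulAction.fixedPoints A G := by
  classical
  haveI := Fintype.ofFinite A
  letI : CommGroup (comm' G A) := { (inferInstance : Group (comm' G A)) with mul_comm := comm'_comm }
  let f : A → comm' G A := fun b => ⟨g⁻¹ * b • g, gen_mem b g⟩
  let w : comm' G A := ∏ b : A, f b
  let act : A → comm' G A →* comm' G A := fun a =>
    { toFun := fun y => ⟨a • (y : G), comm'_smul a y.2⟩
      map_one' := Subtype.ext (by simp)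
      map_mul' := fun x y => Subtype.ext (by simp [smul_mul']) }
  have hact : ∀ a b, act a (f b) = (f a)⁻¹ * f (a * b) := by
    intro a b
    apply Subtype.ext
    show a • (g⁻¹ * b • g) = (g⁻¹ * a • g)⁻¹ * (g⁻¹ * (a * b) • g)
    simp [mul_smul, smul_mul', smul_inv']
  have hw : ∀ a, act a w = (f a)⁻¹ ^ Nat.card A * w := by
    intro a
    show act a (∏ b : A, f b) = _
    rw [map_prod]
    simp_rw [hact]
    rw [Finset.prod_mul_distrib]
    congr 1
    · simp [Nat.card_eq_fintype_card, Finset.card_univ]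
    · exact Fintype.prod_equiv (Equiv.mulLeft a) _ _ (fun _ => rfl)
  -- Bezout
  let u : ℤ := Nat.gcdA (Nat.card A) (Nat.card G)
  have hbez : ∀ x : G, (x ^ Nat.card A) ^ u = x := by
    intro x
    have h3 := Nat.gcd_eq_gcd_ab (Nat.card A) (Nat.card G)
    rw [hcop] at h3
    have h4 : x ^ (Nat.card G : ℤ) = 1 := by
      rw [zpow_natCast]; exact pow_card_eq_one'
    have h5 : (x ^ (Nat.card A : ℤ)) ^ u * (x ^ (Nat.card G : ℤ)) ^ (Nat.gcdB (Nat.card A) (Nat.card G)) = x := by
      rw [← zpow_mul, ← zpow_mul, ← zpow_add, ← h3]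
      simp
    rw [h4, one_zpow, mul_one, zpow_natCast] at h5
    exact h5
  refine ⟨((w ^ u : comm' G A) : G), (w ^ u).2, ?_⟩
  rw [MulAction.mem_fixedPoints]
  intro a
  have h1 : act a (w ^ u) = (f a)⁻¹ * w ^ u := by
    rw [map_zpow, hw, mul_zpow, ← zpow_natCast, ← zpow_mul]
    congr 1
    apply Subtype.ext
    have := hbez ((f a : comm' G A) : G)⁻¹
    rw [← zpow_natCast, ← zpow_mul] at this
    push_cast
    simpa using this
  have h2 : a • ((w ^ u : comm' G A) : G) = (g⁻¹ * a • g)⁻¹ * ((w ^ u : comm' G A) : G) :=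
    congrArg Subtype.val h1
  rw [smul_mul', h2]
  group

/-- `[G, A]` meets the fixed points trivially. -/
theorem inter_fixed (hcop : (Nat.card A).Coprime (Nat.card G)) {x : G} (hx : x ∈ comm' G A)
    (hxf : x ∈ MulAction.fixedPoints A G) : x = 1 := by
  classical
  haveI := Fintype.ofFinite A
  letI : CommGroup (comm' G A) := { (inferInstance : Group (comm' G A)) with mul_comm := comm'_comm }
  let act : A → comm' G A →* comm' G A := fun a =>
    { toFun := fun y => ⟨a • (y : G), comm'_smul a y.2⟩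
      map_one' := Subtype.ext (by simp)
      map_mul' := fun x y => Subtype.ext (by simp [smul_mul']) }
  let nm : comm' G A →* comm' G A :=
    { toFun := fun y => ∏ b : A, act b y
      map_one' := by simp
      map_mul' := fun x y => by
        simp only [map_mul]
        exact Finset.prod_mul_distrib }
  have hnm : ∀ (y : comm' G A) (a : A), nm (act a y) = nm y := by
    intro y a
    show ∏ b : A, act b (act a y) = ∏ b : A, act b y
    refine Fintype.prod_equiv (Equiv.mulRight a) _ _ (fun b => ?_)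
    apply Subtype.ext
    show b • a • (y : G) = (b * a) • (y : G)
    rw [mul_smul]
  have hgen : ∀ y (hy : y ∈ comm' G A), nm ⟨y, hy⟩ = 1 := by
    intro y hy
    induction hy using Subgroup.closure_induction with
    | mem y hy =>
      obtain ⟨a, g, rfl⟩ := hy
      obtain ⟨n, hn, hgn⟩ := exists_fixed (A := A) hcop g
      rw [MulAction.mem_fixedPoints] at hgn
      -- write the generator as `n' ⁻¹ (a n')` with `n' = n⁻¹`
      have e : (⟨g⁻¹ * a • g, gen_mem a g⟩ : comm' G A) = (⟨n⁻¹, Subgroup.inv_mem _ hn⟩ : comm' G A)⁻¹ * act a ⟨n⁻¹, Subgroup.inv_mem _ hn⟩ := by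
        apply Subtype.ext
        show g⁻¹ * a • g = (n⁻¹)⁻¹ * a • (n⁻¹)
        have h1 : a • g = (g * n) * (a • n)⁻¹ := by
          have := hgn a
          rw [smul_mul'] at this
          rw [← this]
          group
        rw [h1, smul_inv']
        group
      rw [e, map_mul, hnm, map_inv, inv_mul_cancel]
    | one => exact map_one nm
    | mul y z hy' hz' hy hz =>
      have := map_mul nm ⟨y, hy'⟩ ⟨z, hz'⟩
      rw [hy, hz, one_mul] at this
      exact this
    | inv y hy' hy =>
      have := map_inv nm ⟨y, hy'⟩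
      rw [hy, inv_one] at this
      exact this
  have h1 := hgen x hx
  have h2 : nm ⟨x, hx⟩ = ⟨x, hx⟩ ^ Nat.card A := by
    show ∏ b : A, act b ⟨x, hx⟩ = _
    have : ∀ b : A, act b ⟨x, hx⟩ = ⟨x, hx⟩ := fun b => Subtype.ext (hxf b)
    simp_rw [this]
    simp [Nat.card_eq_fintype_card, Finset.card_univ]
  rw [h2] at h1
  have h3 : x ^ Nat.card A = 1 := by
    have := congrArg Subtype.val h1
    simpa using this
  have h4 : x ^ Nat.card G = 1 := pow_card_eq_one'
  have h5 : orderOf x = 1 :=
    Nat.eq_one_of_dvd_coprimes hcop (orderOf_dvd_of_pow_eq_one h3) (orderOf_dvd_of_pow_eq_one h4)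
  exact orderOf_eq_one_iff.mp h5

/-- The fixed point subgroup. -/
def fixSub (G A : Type*) [Group G] [Group A] [MulDistribMulAction A G] : Subgroup G where
  carrier := MulAction.fixedPoints A G
  one_mem' := fun a => smul_one a
  mul_mem' := fun {x y} hx hy a => by rw [smul_mul', hx a, hy a]
  inv_mem' := fun {x} hx a => by rw [smul_inv', hx a]

theorem coprime_aux (hcop : (Nat.card A).Coprime (Nat.card G)) :
    (Nat.card (fixSub G A)).Coprime (Nat.card (comm' G A)) := by
  classical
  haveI : (comm' G A).Normal := comm'_normal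
  apply Nat.Coprime.symm
  apply Nat.coprime_of_dvd
  intro p hp hd1 hd2
  haveI : Fact p.Prime := ⟨hp⟩
  obtain ⟨v, hv⟩ := exists_prime_orderOf_dvd_card' (G := comm' G A) p hd1
  obtain ⟨u, hu⟩ := exists_prime_orderOf_dvd_card' (G := fixSub G A) p hd2
  have hvo : orderOf (v : G) = p := by rw [Subgroup.orderOf_coe]; exact hv
  have huo : orderOf (u : G) = p := by rw [Subgroup.orderOf_coe]; exact hu
  have hpg : ∀ y : G, orderOf y = p → IsPGroup p (Subgroup.zpowers y) := by
    intro y hy
    rw [IsPGroup.iff_card, Nat.card_zpowers, hy]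
    exact ⟨1, (pow_one p).symm⟩
  obtain ⟨P, hP⟩ := (hpg _ hvo).exists_le_sylow
  obtain ⟨Q, hQ⟩ := (hpg _ huo).exists_le_sylow
  obtain ⟨g, rfl⟩ := MulAction.exists_smul_eq G P Q
  -- conjugate `u` into `P`
  have hu' : g⁻¹ * (u : G) * g ∈ (P : Subgroup G) := by
    have h1 : (u : G) ∈ ((g • P : Sylow p G) : Subgroup G) := hQ (Subgroup.mem_zpowers _)
    rw [Sylow.smul_def, Sylow.pointwise_smul_def] at h1
    obtain ⟨w, hw, hwu⟩ := h1
    have : g⁻¹ * (u : G) * g = w := by
      rw [← hwu]
      simp [MulAut.conj_apply, MulAut.smul_def]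
      group
    rw [this]
    exact hw
  have hv' : (v : G) ∈ (P : Subgroup G) := hP (Subgroup.mem_zpowers _)
  haveI hPc : IsCyclic (P : Subgroup G) := inferInstance
  -- two elements of order `p` in a cyclic group
  have hup : ((u : G)) ^ p = 1 := by rw [← huo]; exact pow_orderOf_eq_one _
  have hvp : ((v : G)) ^ p = 1 := by rw [← hvo]; exact pow_orderOf_eq_one _
  have hv1 : (v : G) ≠ 1 := by
    intro h
    rw [h, orderOf_one] at hvo
    exact hp.one_lt.ne hvo
  have hu1 : (u : G) ≠ 1 := by
    intro h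
    rw [h, orderOf_one] at huo
    exact hp.one_lt.ne huo
  let a : (P : Subgroup G) := ⟨g⁻¹ * (u : G) * g, hu'⟩
  let b : (P : Subgroup G) := ⟨v, hv'⟩
  have ha : a ^ p = 1 := by
    apply Subtype.ext
    show (g⁻¹ * (u : G) * g) ^ p = 1
    have e : g⁻¹ * (u : G) * g = g⁻¹ * (u : G) * (g⁻¹)⁻¹ := by simp
    rw [e, conj_pow, hup]
    simp
  have hb : b ^ p = 1 := Subtype.ext hvp
  have hb1 : b ≠ 1 := fun h => hv1 (congrArg Subtype.val h)
  obtain ⟨k, hk⟩ := Subgroup.mem_zpowers_iff.mp (mem_zpowers_of_pow ha hb hb1)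
  have h1 : (v : G) ^ k = g⁻¹ * (u : G) * g := congrArg Subtype.val hk
  have h2 : g⁻¹ * (u : G) * g ∈ comm' G A := by
    rw [← h1]
    exact Subgroup.zpow_mem _ v.2 k
  have h3 : (u : G) ∈ comm' G A := by
    have := (inferInstance : (comm' G A).Normal).conj_mem _ h2 g
    have e : g * (g⁻¹ * (u : G) * g) * g⁻¹ = u := by group
    rwa [e] at this
  exact hu1 (inter_fixed hcop h3 u.2)

end Main

/-- Let A be a finite group acting on the finite group G by automorphisms with the orders of A and G coprime, and suppose every Sylow subgroup of G is cyclic. Then the fixed-point subgroup C_G(A) is a Hall subgroup of G (its order is coprime to its index), the subgroup [G, A] generated by the elements g⁻¹·a(g) is cyclic and normal with [G, A] ∩ C_G(A) = 1 and [G, A]·C_G(A) = G. -/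
theorem result {G A : Type*} [Group G] [Finite G] [Group A] [Finite A]
    [MulDistribMulAction A G] (hcop : (Nat.card A).Coprime (Nat.card G))
    (hcyc : ∀ (p : ℕ) [Fact p.Prime] (P : Sylow p G), IsCyclic (P : Subgroup G)) :
    (Nat.card (MulAction.fixedPoints A G : Set G)).Coprime (Nat.card G / Nat.card (MulAction.fixedPoints A G : Set G)) ∧
    IsCyclic (Subgroup.closure {y : G | ∃ (a : A) (g : G), y = g⁻¹ * a • g}) ∧
    (Subgroup.closure {y : G | ∃ (a : A) (g : G), y = g⁻¹ * a • g}).Normal ∧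
    (Subgroup.closure {y : G | ∃ (a : A) (g : G), y = g⁻¹ * a • g} : Set G) ∩ MulAction.fixedPoints A G = {1} ∧
    Subgroup.closure {y : G | ∃ (a : A) (g : G), y = g⁻¹ * a • g} ⊔ Subgroup.closure (MulAction.fixedPoints A G) = ⊤ := by
  haveI hZ : IsZGroup G := ⟨fun p hp P => by
    haveI : Fact p.Prime := ⟨hp⟩
    exact hcyc p P⟩
  have hN : Subgroup.closure {y : G | ∃ (a : A) (g : G), y = g⁻¹ * a • g} = comm' G A := rfl
  rw [hN]
  haveI hnorm : (comm' G A).Normal := comm'_normal
  have hdisj : Disjoint (comm' G A) (fixSub G A) := by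
    rw [Subgroup.disjoint_def]
    intro x hx hy
    exact inter_fixed hcop hx hy
  have hprod : ((comm' G A : Subgroup G) : Set G) * ((fixSub G A : Subgroup G) : Set G) = Set.univ := by
    rw [Set.eq_univ_iff_forall]
    intro g
    obtain ⟨n, hn, hgn⟩ := exists_fixed (A := A) hcop g
    refine ⟨g * n⁻¹ * g⁻¹, ?_, g * n, hgn, by group⟩
    exact hnorm.conj_mem _ (Subgroup.inv_mem _ hn) g
  have hcompl : Subgroup.IsComplement' (comm' G A) (fixSub G A) :=
    Subgroup.isComplement'_of_disjoint_and_mul_eq_univ hdisj hprod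
  have hcard := hcompl.card_mul_card
  have hfix : Nat.card (MulAction.fixedPoints A G : Set G) = Nat.card (fixSub G A) := rfl
  refine ⟨?_, ?_, hnorm, ?_, ?_⟩
  · rw [hfix, ← hcard, Nat.mul_div_cancel _ Nat.card_pos]
    exact coprime_aux hcop
  · haveI : Group.IsNilpotent (comm' G A) := by
      letI : CommGroup (comm' G A) := { (inferInstance : Group (comm' G A)) with mul_comm := comm'_comm }
      exact CommGroup.isNilpotent
    infer_instance
  · ext x
    simp only [Set.mem_inter_iff, SetLike.mem_coe, Set.mem_singleton_iff]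
    constructor
    · rintro ⟨h1, h2⟩
      exact inter_fixed hcop h1 h2
    · rintro rfl
      exact ⟨Subgroup.one_mem _, fun a => smul_one a⟩
  · rw [eq_top_iff]
    intro g _
    obtain ⟨x, hx, y, hy, rfl⟩ : ∃ x ∈ (comm' G A : Set G), ∃ y ∈ (fixSub G A : Set G), x * y = g := by
      have : g ∈ ((comm' G A : Subgroup G) : Set G) * ((fixSub G A : Subgroup G) : Set G) := by
        rw [hprod]; trivial
      simpa [Set.mem_mul] using this
    exact Subgroup.mul_mem_sup hx (Subgroup.subset_closure hy)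

end Cfsg.Agent.S4117
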