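import Cfsg.Statements.S4126
import Mathlib
import Cfsg.Agent.Lib.PGroup.PPowerClass

set_option autoImplicit false
open Cfsg

namespace Cfsg.Agent.S4126

/-- Let G be a finite group and p a prime. Suppose every element of order p, and when p = 2 also every element of order 4, has a conjugacy class of p-power size. Then G has a normal p-complement. -/
theorem result {G : Type*} [Group G] [Finite G] (p : ℕ) [Fact p.Prime]
    (h : ∀ x : G, (orderOf x = p ∨ (p = 2 ∧ orderOf x = 4)) → ∃ a : ℕ, (Subgroup.centralizer ({x} : Set G)).index = p ^ a) :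
    Cfsg.HasNormalPComplement p G := by
  classical
  apply Cfsg.Agent.Lib.Transfer.Frobenius.hasNormalPComplement_of_hyp
  have hpp := (Fact.out : p.Prime)
  by_cases hp2 : p = 2
  · subst hp2
    refine Cfsg.Agent.Lib.PGroup.PPowerClass.frobeniusHyp_of_index (n := 4) (k := 2) (by norm_num)
      (by norm_num) (by decide) ?_
    intro x hx
    by_cases hx1 : x = 1
    · subst hx1
      refine ⟨0, ?_⟩
      simp
    · have hd : orderOf x ∣ 2 ^ 2 := orderOf_dvd_of_pow_eq_one (by simpa using hx)
      obtain ⟨j, hj, hjo⟩ := (Nat.dvd_prime_pow Nat.prime_two).mp hd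
      have hj0 : j ≠ 0 := by
        rintro rfl
        exact hx1 (orderOf_eq_one_iff.mp (by simpa using hjo))
      have : j = 1 ∨ j = 2 := by omega
      rcases this with rfl | rfl
      · exact h x (Or.inl (by simpa using hjo))
      · exact h x (Or.inr ⟨rfl, by simpa using hjo⟩)
  · refine Cfsg.Agent.Lib.PGroup.PPowerClass.frobeniusHyp_of_index (n := p) (k := 1) (by simp)
      (dvd_refl p) (Cfsg.Agent.Lib.PGroup.Critical.prime_dvd_choose_two hp2) ?_
    intro x hx
    by_cases hx1 : x = 1
    · subst hx1
      refine ⟨0, ?_⟩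
      simp
    · exact h x (Or.inl (orderOf_eq_prime hx hx1))

end Cfsg.Agent.S4126
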