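import Cfsg.Statements.S4127
import Cfsg.Agent.Lib.Transfer.PrimePowerHyp
import Cfsg.Agent.Lib.Transfer.Basic
import Cfsg.Agent.Lib.Transfer.WellPlaced
import Cfsg.Agent.Lib.Transfer.OmegaTwo
import Cfsg.Agent.Lib.Basic.SylowUtil
import Cfsg.Agent.Lib.Basic.PCore
import Cfsg.Agent.Lib.Basic.JordanCover

set_option autoImplicit false
open Cfsg

namespace Cfsg.Agent.S4127

open Cfsg.Agent.Lib.Transfer.PrimePowerHyp Cfsg.Agent.Lib.Transfer.WellPlaced
  Cfsg.Agent.Lib.Transfer.OmegaTwo Cfsg.Agent.Lib.Transfer.Frobenius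

variable {G : Type*} [Group G] [Finite G] {p : ℕ} [hp : Fact p.Prime]

/-- An element fixing a self-centralizing-type element: the stability lemma. -/
theorem stab_lemma {Q : Subgroup G} (hQ : IsPGroup p Q) {y x₁ : G}
    (hyN : y ∈ Subgroup.normalizer (Q : Set G)) (hyo : Nat.Coprime (orderOf y) p) (hx₁ : x₁ ∈ Q)
    (hyx : Commute y x₁) (h : ∀ t ∈ Q, Commute t x₁ → Commute y t) :
    ∀ t ∈ Q, Commute y t := by
  classical
  set U : Subgroup G := Q ⊓ Subgroup.centralizer ({y} : Set G) with hU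
  have hmemU : ∀ t, t ∈ U ↔ t ∈ Q ∧ Commute y t := by
    intro t
    rw [hU, Subgroup.mem_inf, Subgroup.mem_centralizer_singleton_iff]
    exact and_congr_right fun _ => ⟨fun h => h.symm, fun h => h.symm⟩
  have hUQ : U = Q := by
    by_contra hne
    have hlt : U < Q := lt_of_le_of_ne inf_le_left hne
    have hlt2 := lt_inf_normalizer hQ hlt
    obtain ⟨t, htQ, htU⟩ := SetLike.exists_of_lt hlt2
    have htN := htQ.2
    have hxU : x₁ ∈ U := (hmemU _).mpr ⟨hx₁, hyx⟩
    have hw : t * x₁ * t⁻¹ ∈ U := (Subgroup.mem_normalizer_iff.mp htN x₁).mp hxU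
    have hwc := ((hmemU _).mp hw).2
    have ht' : y * t * y⁻¹ ∈ Q := (Subgroup.mem_normalizer_iff.mp hyN t).mp htQ.1
    have hcQ : t⁻¹ * (y * t * y⁻¹) ∈ Q := Q.mul_mem (Q.inv_mem htQ.1) ht'
    have hcx : Commute (t⁻¹ * (y * t * y⁻¹)) x₁ := by
      have e1 : y * (t * x₁ * t⁻¹) = (t * x₁ * t⁻¹) * y := hwc
      have e2 : y * x₁ = x₁ * y := hyx
      have e3 : (y * t * y⁻¹) * x₁ * (y * t * y⁻¹)⁻¹ = t * x₁ * t⁻¹ := by
        calc (y * t * y⁻¹) * x₁ * (y * t * y⁻¹)⁻¹ = y * t * (y⁻¹ * x₁ * y) * t⁻¹ * y⁻¹ := by group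
          _ = y * t * x₁ * t⁻¹ * y⁻¹ := by
            have : y⁻¹ * x₁ * y = x₁ := by
              rw [hyx.inv_left.eq, mul_assoc, inv_mul_cancel, mul_one]
            rw [this]
          _ = (y * (t * x₁ * t⁻¹)) * y⁻¹ := by group
          _ = t * x₁ * t⁻¹ := by rw [e1]; group
      show (t⁻¹ * (y * t * y⁻¹)) * x₁ = x₁ * (t⁻¹ * (y * t * y⁻¹))
      have e4 : (y * t * y⁻¹) * x₁ = (t * x₁ * t⁻¹) * (y * t * y⁻¹) := by
        rw [← e3]; group
      calc (t⁻¹ * (y * t * y⁻¹)) * x₁ = t⁻¹ * ((y * t * y⁻¹) * x₁) := by group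
        _ = t⁻¹ * ((t * x₁ * t⁻¹) * (y * t * y⁻¹)) := by rw [e4]
        _ = x₁ * (t⁻¹ * (y * t * y⁻¹)) := by group
    have hcy := h _ hcQ hcx
    set c := t⁻¹ * (y * t * y⁻¹) with hc
    have hiter : ∀ n : ℕ, y ^ n * t * (y ^ n)⁻¹ = t * c ^ n := by
      intro n
      induction n with
      | zero => simp
      | succ n ih =>
        have e : y ^ (n + 1) * t * (y ^ (n + 1))⁻¹ = y * (y ^ n * t * (y ^ n)⁻¹) * y⁻¹ := by
          rw [pow_succ']; group
        rw [e, ih]
        have e2 : y * (t * c ^ n) * y⁻¹ = (y * t * y⁻¹) * (y * c ^ n * y⁻¹) := by group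
        have e3 : y * c ^ n * y⁻¹ = c ^ n := by
          rw [((hcy.pow_right n).eq)]
          group
        have e4 : y * t * y⁻¹ = t * c := by
          rw [hc]; group
        rw [e2, e3, e4, pow_succ', mul_assoc]
    have h1 := hiter (orderOf y)
    rw [pow_orderOf_eq_one] at h1
    have hc1 : c ^ orderOf y = 1 := by
      have : t = t * c ^ orderOf y := by simpa using h1
      simpa using this.symm
    obtain ⟨k, hk⟩ := IsPGroup.iff_orderOf.mp hQ ⟨c, hcQ⟩
    rw [Subgroup.orderOf_mk] at hk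
    have hc2 : c ^ p ^ k = 1 := by rw [← hk]; exact pow_orderOf_eq_one c
    have hc3 : c = 1 := by
      have := (pow_gcd_eq_one (a := c)).mpr ⟨hc1, hc2⟩
      rwa [Nat.Coprime.gcd_eq_one (Nat.Coprime.pow_right k hyo), pow_one] at this
    apply htU
    rw [hmemU]
    refine ⟨htQ.1, ?_⟩
    rw [hc, inv_mul_eq_one] at hc3
    show y * t = t * y
    calc y * t = (y * t * y⁻¹) * y := by group
      _ = t * y := by rw [← hc3]
  intro t ht
  rw [← hUQ] at ht
  exact ((hmemU _).mp ht).2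


omit [Finite G] in
theorem orderOf_conj_local {K : Type*} [Group K] (g x : K) : orderOf (g * x * g⁻¹) = orderOf x :=
  MulEquiv.orderOf_eq (MulAut.conj g) x

omit [Finite G] in
/-- Commuting elements of coprime orders are powers of their product. -/
theorem commute_parts {x y g : G} (hxy : Commute x y)
    (hco : Nat.Coprime (orderOf x) (orderOf y)) (hg : Commute g (x * y)) :
    Commute g x ∧ Commute g y := by
  have hb := Nat.gcd_eq_gcd_ab (orderOf x) (orderOf y)
  rw [Nat.Coprime.gcd_eq_one hco, Nat.cast_one] at hb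
  set A := Nat.gcdA (orderOf x) (orderOf y)
  set B := Nat.gcdB (orderOf x) (orderOf y)
  have hpowz : ∀ n : ℤ, (x * y) ^ n = x ^ n * y ^ n := fun n => hxy.mul_zpow n
  have hx : x = (x * y) ^ ((orderOf y : ℤ) * B) := by
    rw [hpowz, zpow_mul y, zpow_natCast y, pow_orderOf_eq_one, one_zpow, mul_one]
    conv_lhs => rw [← zpow_one x, hb]
    rw [zpow_add, zpow_mul x (orderOf x : ℤ) A, zpow_natCast x, pow_orderOf_eq_one, one_zpow,
      one_mul]
  have hy : y = (x * y) ^ ((orderOf x : ℤ) * A) := by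
    rw [hpowz, zpow_mul x, zpow_natCast x, pow_orderOf_eq_one, one_zpow, one_mul]
    conv_lhs => rw [← zpow_one y, hb]
    rw [zpow_add, zpow_mul y (orderOf y : ℤ) B, zpow_natCast y, pow_orderOf_eq_one, one_zpow,
      mul_one]
  constructor
  · rw [hx]; exact hg.zpow_right _
  · rw [hy]; exact hg.zpow_right _

/-- The `p'`-elements of the centralizer of `x₁` centralize the `p`-elements of it. -/
theorem key_commute {a : ℕ} (hmax : ∀ y : G, ¬ p ^ (a + 1) ∣ (Subgroup.centralizer ({y} : Set G)).index)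
    {x₁ : G} (hx₁p : ∃ k : ℕ, orderOf x₁ = p ^ k)
    (hidx : (Subgroup.centralizer ({x₁} : Set G)).index = p ^ a) {y u : G} (hy : Commute y x₁)
    (hyo : Nat.Coprime (orderOf y) p) (hu : Commute u x₁) (huo : ∃ k : ℕ, orderOf u = p ^ k) :
    Commute y u := by
  classical
  set C : Subgroup G := Subgroup.centralizer ({x₁} : Set G) with hC
  have hmemC : ∀ g : G, g ∈ C ↔ Commute g x₁ := by
    intro g
    rw [hC, Subgroup.mem_centralizer_singleton_iff]
    rfl
  obtain ⟨S⟩ : Nonempty (Sylow p C) := inferInstance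
  -- Claim A
  have hA : ∀ y' : C, Nat.Coprime (orderOf y') p →
      ∃ c : C, ∀ s ∈ (S : Subgroup C), Commute (c⁻¹ * y' * c) s := by
    intro y' hy'
    obtain ⟨k, hk⟩ := hx₁p
    have hy0 : Nat.Coprime (orderOf (y' : G)) p := by rwa [Subgroup.orderOf_coe]
    have hcomm : Commute x₁ (y' : G) := ((hmemC _).mp y'.2).symm
    have hco : Nat.Coprime (orderOf x₁) (orderOf (y' : G)) := by
      rw [hk]
      exact (Nat.Coprime.pow_right k hy0).symm
    have hle : Subgroup.centralizer ({x₁ * (y' : G)} : Set G) =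
        Subgroup.centralizer ({(y' : G)} : Set G) ⊓ C := by
      ext g
      rw [Subgroup.mem_inf, Subgroup.mem_centralizer_singleton_iff,
        Subgroup.mem_centralizer_singleton_iff, hmemC]
      constructor
      · intro h
        have := commute_parts hcomm hco (show Commute g _ from h)
        exact ⟨this.2, this.1⟩
      · rintro ⟨h1, h2⟩
        exact ((show Commute g x₁ from h2).mul_right (show Commute g (y' : G) from h1))
    have hnd := hmax (x₁ * (y' : G))
    rw [hle, ← Subgroup.relIndex_mul_index (inf_le_right : _ ⊓ C ≤ C), Subgroup.inf_relIndex_right,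
      hidx] at hnd
    have hnd2 : ¬ p ∣ (Subgroup.centralizer ({(y' : G)} : Set G)).relIndex C :=
      fun h => hnd (by
        rw [pow_succ, mul_comm]
        exact Nat.mul_dvd_mul_right h _)
    set K : Subgroup C := (Subgroup.centralizer ({(y' : G)} : Set G)).subgroupOf C with hK
    obtain ⟨T₀⟩ : Nonempty (Sylow p K) := inferInstance
    have hT' : IsPGroup p ((T₀ : Subgroup K).map K.subtype) := T₀.isPGroup'.map _
    have hTidx : ¬ p ∣ ((T₀ : Subgroup K).map K.subtype).relIndex ⊤ := by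
      rw [Subgroup.relIndex_top_right, Subgroup.index_map_subtype]
      intro h
      rcases (Nat.Prime.dvd_mul hp.out).mp h with h1 | h1
      · exact T₀.not_dvd_index h1
      · exact hnd2 h1
    obtain ⟨c, -, hc⟩ := exists_conj_le_of_sylow (R := (T₀ : Subgroup K).map K.subtype) (H := ⊤)
      (Q := (S : Subgroup C)) le_top hT' hTidx le_top S.isPGroup'
    refine ⟨c, fun s hs => ?_⟩
    have h1 : c * s * c⁻¹ ∈ (T₀ : Subgroup K).map K.subtype := hc ⟨s, hs, rfl⟩
    obtain ⟨k', _, hk'⟩ := h1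
    have h2 : c * s * c⁻¹ ∈ K := by rw [← hk']; exact k'.2
    rw [hK, Subgroup.mem_subgroupOf, Subgroup.mem_centralizer_singleton_iff] at h2
    have h3 : Commute (c * s * c⁻¹) y' := Subtype.ext h2
    show c⁻¹ * y' * c * s = s * (c⁻¹ * y' * c)
    have h4 : (c * s * c⁻¹) * y' = y' * (c * s * c⁻¹) := h3
    calc c⁻¹ * y' * c * s = c⁻¹ * (y' * (c * s * c⁻¹)) * c := by group
      _ = c⁻¹ * ((c * s * c⁻¹) * y') * c := by rw [h4]
      _ = s * (c⁻¹ * y' * c) := by group
  -- Claim B : covering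
  set N : Subgroup C := Subgroup.centralizer ((S : Subgroup C) : Set C) with hN
  have hB : ∀ t : C, ∃ g : C, g * t * g⁻¹ ∈ (S : Subgroup C) ⊔ N := by
    intro t
    obtain ⟨α, β, rfl, hαβ, -, -, ⟨k, hk⟩, hβ⟩ :=
      Cfsg.Agent.Lib.Transfer.Basic.exists_pPart_decomp (p := p) t
    obtain ⟨c, hc⟩ := hA β hβ
    set y₁ := c⁻¹ * β * c with hy₁
    set u₁ := c⁻¹ * α * c with hu₁
    have hy₁N : y₁ ∈ N := by
      rw [hN, Subgroup.mem_centralizer_iff]
      intro s hs
      exact (hc s hs).symm.eq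
    have hu₁y₁ : Commute u₁ y₁ := by
      show c⁻¹ * α * c * (c⁻¹ * β * c) = c⁻¹ * β * c * (c⁻¹ * α * c)
      have : α * β = β * α := hαβ
      calc c⁻¹ * α * c * (c⁻¹ * β * c) = c⁻¹ * (α * β) * c := by group
        _ = c⁻¹ * (β * α) * c := by rw [this]
        _ = c⁻¹ * β * c * (c⁻¹ * α * c) := by group
    set E : Subgroup C := Subgroup.centralizer ({y₁} : Set C) with hE
    have hSE : (S : Subgroup C) ≤ E := by
      intro s hs
      rw [hE, Subgroup.mem_centralizer_singleton_iff]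
      exact (hc s hs).symm.eq
    have hu₁E : Subgroup.zpowers u₁ ≤ E := by
      rw [Subgroup.zpowers_le, hE, Subgroup.mem_centralizer_singleton_iff]
      exact hu₁y₁.eq
    have hu₁p : IsPGroup p (Subgroup.zpowers u₁) := by
      apply IsPGroup.of_card (n := k)
      rw [Nat.card_zpowers, hu₁, show c⁻¹ * α * c = c⁻¹ * α * c⁻¹⁻¹ by group, orderOf_conj_local, hk]
    obtain ⟨e, heE, he⟩ := exists_conj_le_of_sylow hSE S.isPGroup'
      (not_dvd_relIndex_of_le S hSE) hu₁E hu₁p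
    refine ⟨e * c⁻¹, ?_⟩
    have h1 : e * u₁ * e⁻¹ ∈ (S : Subgroup C) := he ⟨u₁, Subgroup.mem_zpowers u₁, rfl⟩
    have h2 : e * y₁ * e⁻¹ = y₁ := by
      have : e * y₁ = y₁ * e := by
        rw [hE, Subgroup.mem_centralizer_singleton_iff] at heE
        exact heE
      rw [this]; group
    have h3 : (e * c⁻¹) * (α * β) * (e * c⁻¹)⁻¹ = (e * u₁ * e⁻¹) * (e * y₁ * e⁻¹) := by
      rw [hu₁, hy₁]; group
    rw [h3, h2]
    exact Subgroup.mul_mem _ (Subgroup.mem_sup_left h1) (Subgroup.mem_sup_right hy₁N)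
  have hM : (S : Subgroup C) ⊔ N = ⊤ :=
    Cfsg.Agent.Lib.Basic.JordanCover.eq_top_of_forall_conj_mem _ hB
  have hNn : N.Normal := by
    rw [← Subgroup.normalizer_eq_top_iff, eq_top_iff, ← hM]
    refine sup_le ?_ Subgroup.le_normalizer
    intro s hs
    rw [Subgroup.mem_normalizer_iff]
    intro z
    rw [hN, Subgroup.mem_centralizer_iff, Subgroup.mem_centralizer_iff]
    constructor
    · intro hz w hw
      have h1 : s⁻¹ * w * s ∈ (S : Subgroup C) :=
        Subgroup.mul_mem _ (Subgroup.mul_mem _ (Subgroup.inv_mem _ hs) hw) hs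
      have h2 := hz _ h1
      calc w * (s * z * s⁻¹) = s * ((s⁻¹ * w * s) * z) * s⁻¹ := by group
        _ = s * (z * (s⁻¹ * w * s)) * s⁻¹ := by rw [h2]
        _ = s * z * s⁻¹ * w := by group
    · intro hz w hw
      have h1 : s * w * s⁻¹ ∈ (S : Subgroup C) :=
        Subgroup.mul_mem _ (Subgroup.mul_mem _ hs hw) (Subgroup.inv_mem _ hs)
      have h2 := hz _ h1
      calc w * z = s⁻¹ * ((s * w * s⁻¹) * (s * z * s⁻¹)) * s := by group
        _ = s⁻¹ * ((s * z * s⁻¹) * (s * w * s⁻¹)) * s := by rw [h2]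
        _ = z * w := by group
  -- Claim D
  have hD : ∀ y' : C, Nat.Coprime (orderOf y') p → ∀ s ∈ (S : Subgroup C), Commute y' s := by
    intro y' hy' s hs
    have hmem : y' ∈ N ⊔ (S : Subgroup C) := by
      rw [sup_comm, hM]; trivial
    rw [Subgroup.mem_sup_of_normal_left] at hmem
    obtain ⟨l, hl, s₀, hs₀, rfl⟩ := hmem
    have hlc : ∀ w ∈ (S : Subgroup C), w * l = l * w := by
      intro w hw
      rw [hN, Subgroup.mem_centralizer_iff] at hl
      exact hl w hw
    have hiter : ∀ n : ℕ, ∀ w ∈ (S : Subgroup C),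
        (l * s₀) ^ n * w * ((l * s₀) ^ n)⁻¹ = s₀ ^ n * w * (s₀ ^ n)⁻¹ := by
      intro n
      induction n with
      | zero => intro w _; simp
      | succ n ih =>
        intro w hw
        have h1 : s₀ * w * s₀⁻¹ ∈ (S : Subgroup C) :=
          Subgroup.mul_mem _ (Subgroup.mul_mem _ hs₀ hw) (Subgroup.inv_mem _ hs₀)
        have h2 : (l * s₀) * w * (l * s₀)⁻¹ = s₀ * w * s₀⁻¹ := by
          have h3 := hlc _ h1
          calc (l * s₀) * w * (l * s₀)⁻¹ = l * (s₀ * w * s₀⁻¹) * l⁻¹ := by group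
            _ = (s₀ * w * s₀⁻¹) * l * l⁻¹ := by rw [h3]
            _ = s₀ * w * s₀⁻¹ := by group
        have e1 : (l * s₀) ^ (n + 1) * w * ((l * s₀) ^ (n + 1))⁻¹
            = (l * s₀) ^ n * ((l * s₀) * w * (l * s₀)⁻¹) * ((l * s₀) ^ n)⁻¹ := by
          rw [pow_succ]; group
        have e2 : s₀ ^ (n + 1) * w * (s₀ ^ (n + 1))⁻¹ = s₀ ^ n * (s₀ * w * s₀⁻¹) * (s₀ ^ n)⁻¹ := by
          rw [pow_succ]; group
        rw [e1, e2, h2, ih _ h1]
    obtain ⟨k, hk⟩ := IsPGroup.iff_orderOf.mp S.isPGroup' ⟨s₀, hs₀⟩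
    rw [Subgroup.orderOf_mk] at hk
    have hs₀k : s₀ ^ p ^ k = 1 := by rw [← hk]; exact pow_orderOf_eq_one s₀
    have h2 := hiter (p ^ k) s hs
    rw [hs₀k] at h2
    have h3 : Commute ((l * s₀) ^ p ^ k) s := by
      show (l * s₀) ^ p ^ k * s = s * (l * s₀) ^ p ^ k
      calc (l * s₀) ^ p ^ k * s = ((l * s₀) ^ p ^ k * s * ((l * s₀) ^ p ^ k)⁻¹) * (l * s₀) ^ p ^ k := by
            group
        _ = s * (l * s₀) ^ p ^ k := by rw [h2]; group
    exact commute_of_coprime_pow (Nat.Coprime.pow_left k hy'.symm) h3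
  -- conclusion
  have hyC : y ∈ C := (hmemC y).mpr hy
  have huC : u ∈ C := (hmemC u).mpr hu
  obtain ⟨k, hk⟩ := huo
  have hup : IsPGroup p (Subgroup.zpowers (⟨u, huC⟩ : C)) := by
    apply IsPGroup.of_card (n := k)
    rw [Nat.card_zpowers, Subgroup.orderOf_mk, hk]
  obtain ⟨g, hg⟩ := exists_conj_le_sylow S hup
  have h1 : g * (⟨u, huC⟩ : C) * g⁻¹ ∈ (S : Subgroup C) :=
    hg ⟨_, Subgroup.mem_zpowers _, rfl⟩
  have h2 : Nat.Coprime (orderOf (g * (⟨y, hyC⟩ : C) * g⁻¹)) p := by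
    rw [orderOf_conj_local, Subgroup.orderOf_mk]
    exact hyo
  have h3 := hD _ h2 _ h1
  have h4 : (g * (⟨y, hyC⟩ : C) * g⁻¹) * (g * (⟨u, huC⟩ : C) * g⁻¹)
      = (g * (⟨u, huC⟩ : C) * g⁻¹) * (g * (⟨y, hyC⟩ : C) * g⁻¹) := h3
  have h5 : (⟨y, hyC⟩ : C) * ⟨u, huC⟩ = ⟨u, huC⟩ * ⟨y, hyC⟩ := by
    have h6 : g * ((⟨y, hyC⟩ : C) * ⟨u, huC⟩) * g⁻¹ = g * ((⟨u, huC⟩ : C) * ⟨y, hyC⟩) * g⁻¹ := by
      calc g * ((⟨y, hyC⟩ : C) * ⟨u, huC⟩) * g⁻¹
          = (g * (⟨y, hyC⟩ : C) * g⁻¹) * (g * (⟨u, huC⟩ : C) * g⁻¹) := by group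
        _ = (g * (⟨u, huC⟩ : C) * g⁻¹) * (g * (⟨y, hyC⟩ : C) * g⁻¹) := h4
        _ = g * ((⟨u, huC⟩ : C) * ⟨y, hyC⟩) * g⁻¹ := by group
    exact mul_left_cancel (mul_right_cancel h6)
  exact congrArg Subtype.val h5

/-- A subgroup of `p`-power index: all conjugates of `x` in a Sylow subgroup containing `x`. -/
theorem conj_mem_sylow {a : ℕ} {x : G}
    (hidx : (Subgroup.centralizer ({x} : Set G)).index = p ^ a) (P : Sylow p G)
    (hx : x ∈ (P : Subgroup G)) (g : G) : g * x * g⁻¹ ∈ (P : Subgroup G) := by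
  classical
  set C : Subgroup G := Subgroup.centralizer ({x} : Set G) with hC
  have hsm : ∀ s : (P : Subgroup G), s • ((1 : G) : G ⧸ C) = (((s : G)) : G ⧸ C) := by
    intro s
    show (((s : G) * 1 : G) : G ⧸ C) = _
    rw [mul_one]
  -- the arithmetic
  have harith : p ^ a ≤ (C.subgroupOf (P : Subgroup G)).index := by
    obtain ⟨n, hn⟩ := IsPGroup.iff_card.mp P.isPGroup'
    have h1 := (C.subgroupOf (P : Subgroup G)).card_mul_index
    have hr : Nat.card (C.subgroupOf (P : Subgroup G)) = Nat.card (C ⊓ (P : Subgroup G) : Subgroup G) := by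
      rw [← Subgroup.inf_subgroupOf_right]
      exact Nat.card_congr (Subgroup.subgroupOfEquivOfLe inf_le_right).toEquiv
    have h2 : Nat.card (C.subgroupOf (P : Subgroup G)) ∣ p ^ n := by
      rw [← hn]; exact ⟨_, h1.symm⟩
    obtain ⟨e, he, he2⟩ := (Nat.dvd_prime_pow hp.out).mp h2
    rw [he2, hn] at h1
    have hi : (C.subgroupOf (P : Subgroup G)).index = p ^ (n - e) := by
      have h3 : p ^ e * p ^ (n - e) = p ^ n := by
        rw [← pow_add]; congr 1; omega
      exact Nat.eq_of_mul_eq_mul_left (pow_pos hp.out.pos e) (h1.trans h3.symm)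
    rw [hi]
    apply Nat.pow_le_pow_right hp.out.pos
    have h4 : Nat.card (C ⊓ (P : Subgroup G) : Subgroup G) ∣ Nat.card C :=
      Subgroup.card_dvd_of_le inf_le_left
    rw [← hr, he2] at h4
    have h5 : p ^ e * p ^ a ∣ Nat.card G := by
      rw [← C.card_mul_index, hidx]
      exact Nat.mul_dvd_mul_right h4 _
    have h6 := (P : Subgroup G).card_mul_index
    rw [hn] at h6
    rw [← h6, ← pow_add] at h5
    have h7 : Nat.Coprime (p ^ (e + a)) (P : Subgroup G).index :=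
      Nat.Coprime.pow_left _ ((Nat.Prime.coprime_iff_not_dvd hp.out).mpr P.not_dvd_index)
    have h8 := h7.dvd_of_dvd_mul_right h5
    have h9 := (Nat.pow_dvd_pow_iff_le_right hp.out.one_lt).mp h8
    omega
  -- the orbit of the trivial coset under `P` is everything
  have horbit : MulAction.orbit (P : Subgroup G) ((1 : G) : G ⧸ C) = Set.univ := by
    apply Set.eq_of_subset_of_ncard_le (Set.subset_univ _)
    · have h1 := MulAction.index_stabilizer (P : Subgroup G) ((1 : G) : G ⧸ C)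
      have hst : MulAction.stabilizer (P : Subgroup G) ((1 : G) : G ⧸ C) = C.subgroupOf (P : Subgroup G) := by
        ext s
        rw [MulAction.mem_stabilizer_iff, Subgroup.mem_subgroupOf, hsm, QuotientGroup.eq]
        constructor
        · intro h
          have := C.inv_mem h
          simpa using this
        · intro h
          have := C.inv_mem h
          simpa using this
      rw [← h1, hst, Set.ncard_univ]
      show C.index ≤ _
      rw [hidx]
      exact harith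
  have hmem : (g : G ⧸ C) ∈ MulAction.orbit (P : Subgroup G) ((1 : G) : G ⧸ C) := by
    rw [horbit]; trivial
  obtain ⟨s, hs⟩ := hmem
  have hs' : ((s : G) : G ⧸ C) = (g : G ⧸ C) := by
    rw [← hsm]; exact hs
  have h1 : (s : G)⁻¹ * g ∈ C := QuotientGroup.eq.mp hs'
  rw [hC, Subgroup.mem_centralizer_singleton_iff] at h1
  have h2 : g * x * g⁻¹ = (s : G) * x * (s : G)⁻¹ := by
    have e : g = (s : G) * ((s : G)⁻¹ * g) := by group
    calc g * x * g⁻¹ = (s : G) * (((s : G)⁻¹ * g) * x) * g⁻¹ := by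
          conv_lhs => rw [e]
          group
      _ = (s : G) * (x * ((s : G)⁻¹ * g)) * g⁻¹ := by rw [h1]
      _ = (s : G) * x * (s : G)⁻¹ := by group
  rw [h2]
  exact Subgroup.mul_mem _ (Subgroup.mul_mem _ s.2 hx) (Subgroup.inv_mem _ s.2)

omit hp in
theorem index_centralizer_conj (g x : G) :
    (Subgroup.centralizer ({g * x * g⁻¹} : Set G)).index
      = (Subgroup.centralizer ({x} : Set G)).index := by
  have h1 : Subgroup.centralizer ({g * x * g⁻¹} : Set G)
      = cj g (Subgroup.centralizer ({x} : Set G)) := by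
    ext w
    rw [mem_cj, Subgroup.mem_centralizer_singleton_iff, Subgroup.mem_centralizer_singleton_iff]
    constructor
    · intro h
      calc g⁻¹ * w * g * x = g⁻¹ * (w * (g * x * g⁻¹)) * g := by group
        _ = g⁻¹ * ((g * x * g⁻¹) * w) * g := by rw [h]
        _ = x * (g⁻¹ * w * g) := by group
    · intro h
      calc w * (g * x * g⁻¹) = g * ((g⁻¹ * w * g) * x) * g⁻¹ := by group
        _ = g * (x * (g⁻¹ * w * g)) * g⁻¹ := by rw [h]
        _ = g * x * g⁻¹ * w := by group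
  have h2 := (Subgroup.centralizer ({g * x * g⁻¹} : Set G)).card_mul_index
  have h3 := (Subgroup.centralizer ({x} : Set G)).card_mul_index
  rw [h1, card_cj] at h2
  rw [h1]
  exact Nat.eq_of_mul_eq_mul_left Nat.card_pos (h2.trans h3.symm)

/-- Let G be a finite group, p a prime and p^a the largest power of p dividing the size of any conjugacy class of G. If some element of p-power order has a conjugacy class of size exactly p^a, then G has a normal p-complement. -/
theorem result {G : Type*} [Group G] [Finite G] (p : ℕ) [Fact p.Prime]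
    (a : ℕ) (hmax : ∀ y : G, ¬ p ^ (a + 1) ∣ (Subgroup.centralizer ({y} : Set G)).index)
    (hx : ∃ x : G, (∃ k : ℕ, orderOf x = p ^ k) ∧ (Subgroup.centralizer ({x} : Set G)).index = p ^ a) :
    Cfsg.HasNormalPComplement p G := by
  classical
  obtain ⟨x, ⟨k, hk⟩, hidx⟩ := hx
  obtain ⟨P₀, hP₀⟩ := Cfsg.Agent.Lib.Basic.SylowUtil.exists_sylow_of_orderOf hk
  have hxO : x ∈ Cfsg.pCore p G := by
    rw [Cfsg.Agent.Lib.Basic.PCore.mem_pCore_iff]
    intro P
    obtain ⟨h, hh⟩ := MulAction.exists_smul_eq G P₀ P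
    show x ∈ (P : Subgroup G)
    rw [← hh, Sylow.coe_subgroup_smul]
    have h1 := conj_mem_sylow hidx P₀ hP₀ h⁻¹
    refine ⟨_, h1, ?_⟩
    simp [MulAut.conj_apply]
    group
  obtain ⟨T⟩ : Nonempty (Sylow p G) := inferInstance
  refine hasNormalPComplement_of_prime_power T ?_
  intro Q hQ q c y hq hqp hyN hyo
  haveI hOn : (Cfsg.pCore p G).Normal := Cfsg.Agent.Lib.Basic.PCore.pCore_normal p G
  have hOp : IsPGroup p (Cfsg.pCore p G) := Cfsg.Agent.Lib.Basic.PCore.pCore_isPGroup p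
  set Q' : Subgroup G := Q ⊔ Cfsg.pCore p G with hQ'
  have hQ'p : IsPGroup p Q' := (T.isPGroup'.to_le hQ).to_sup_of_normal_right hOp
  have hyN' : y ∈ Subgroup.normalizer (Q' : Set G) := by
    apply mem_normalizer_of_conj_mem
    have hle : cj y Q' ≤ Q' := by
      show (Q ⊔ Cfsg.pCore p G).map (MulAut.conj y).toMonoidHom ≤ Q ⊔ Cfsg.pCore p G
      rw [Subgroup.map_sup]
      refine sup_le_sup ?_ ?_
      · rintro _ ⟨w, hw, rfl⟩
        exact (Subgroup.mem_normalizer_iff.mp hyN w).mp hw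
      · rintro _ ⟨w, hw, rfl⟩
        exact hOn.conj_mem w hw y
    intro w hw
    exact hle (conj_mem_cj hw)
  have hyo' : Nat.Coprime (orderOf y) p := by
    have h1 : orderOf y ∣ q ^ c := orderOf_dvd_of_pow_eq_one hyo
    exact Nat.Coprime.coprime_dvd_left h1
      (Nat.Coprime.pow_left c ((Nat.coprime_primes hq Fact.out).mpr hqp))
  -- a conjugate of `x` fixed by `y`
  haveI : Fact q.Prime := ⟨hq⟩
  have hyq : IsPGroup q (Subgroup.zpowers y) := by
    obtain ⟨m, _, hm⟩ := (Nat.dvd_prime_pow hq).mp (orderOf_dvd_of_pow_eq_one hyo)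
    exact IsPGroup.of_card (n := m) (by rw [Nat.card_zpowers, hm])
  have hnd : ¬ q ∣ Nat.card (G ⧸ Subgroup.centralizer ({x} : Set G)) := by
    show ¬ q ∣ (Subgroup.centralizer ({x} : Set G)).index
    rw [hidx]
    intro h
    exact hqp ((Nat.prime_dvd_prime_iff_eq hq Fact.out).mp (hq.dvd_of_dvd_pow h))
  obtain ⟨v, hv⟩ := hyq.nonempty_fixed_point_of_prime_not_dvd_card _ hnd
  obtain ⟨g, rfl⟩ := QuotientGroup.mk_surjective v
  have hfix : ((y * g : G) : G ⧸ Subgroup.centralizer ({x} : Set G)) = (g : G ⧸ _) :=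
    hv ⟨y, Subgroup.mem_zpowers y⟩
  have h1 := QuotientGroup.eq.mp hfix
  rw [Subgroup.mem_centralizer_singleton_iff] at h1
  have hyx : Commute y (g * x * g⁻¹) := by
    show y * (g * x * g⁻¹) = g * x * g⁻¹ * y
    have h2 : (y * g)⁻¹ * g * x = x * ((y * g)⁻¹ * g) := h1
    have h3 : y⁻¹ * (g * x * g⁻¹) = g * x * g⁻¹ * y⁻¹ := by
      calc y⁻¹ * (g * x * g⁻¹) = g * ((y * g)⁻¹ * g * x) * g⁻¹ := by group
        _ = g * (x * ((y * g)⁻¹ * g)) * g⁻¹ := by rw [h2]
        _ = g * x * g⁻¹ * y⁻¹ := by group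
    calc y * (g * x * g⁻¹) = y * ((g * x * g⁻¹) * y⁻¹) * y := by group
      _ = y * (y⁻¹ * (g * x * g⁻¹)) * y := by rw [h3]
      _ = g * x * g⁻¹ * y := by group
  have hx₁Q : g * x * g⁻¹ ∈ Q' := Subgroup.mem_sup_right (hOn.conj_mem x hxO g)
  have hidx₁ : (Subgroup.centralizer ({g * x * g⁻¹} : Set G)).index = p ^ a := by
    rw [index_centralizer_conj]; exact hidx
  have hx₁p : ∃ k : ℕ, orderOf (g * x * g⁻¹) = p ^ k := ⟨k, by rw [orderOf_conj_local, hk]⟩
  have hcomm := stab_lemma hQ'p hyN' hyo' hx₁Q hyx (fun t ht htc =>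
    key_commute hmax hx₁p hidx₁ hyx hyo' htc
      (Cfsg.Agent.Lib.Basic.SylowUtil.orderOf_eq_pow_of_isPGroup hQ'p ht))
  rw [Subgroup.mem_centralizer_iff]
  intro t ht
  exact (hcomm t (Subgroup.mem_sup_left ht)).symm.eq

end Cfsg.Agent.S4127
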