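import Cfsg.Statements.S4130
import Mathlib
import Cfsg.Agent.Lib.Nilpotent.Sqf.FittingPart

set_option autoImplicit false
open Cfsg

namespace Cfsg.Agent.S4130

/-- Let G be a finite group all of whose conjugacy class sizes are square-free. Then G is supersolvable, G/F(G) and the derived subgroup G′ are cyclic of square-free order (F(G) the Fitting subgroup, which is normal), F(G) has nilpotency class at most 2, and G is metabelian. -/
theorem result {G : Type*} [Group G] [Finite G]
    (h : ∀ x : G, Squarefree (Subgroup.centralizer ({x} : Set G)).index) :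
    Cfsg.IsSupersolvable G ∧ (Cfsg.fittingSubgroup G).Normal ∧
    (∀ _h : (Cfsg.fittingSubgroup G).Normal, IsCyclic (G ⧸ Cfsg.fittingSubgroup G) ∧ Squarefree (Cfsg.fittingSubgroup G).index) ∧
    IsCyclic (commutator G) ∧ Squarefree (Nat.card (commutator G)) ∧
    Subgroup.upperCentralSeries ↥(Cfsg.fittingSubgroup G) 2 = ⊤ ∧ commutator ↥(commutator G) = ⊥ := by
  have H : Cfsg.Agent.Lib.Nilpotent.Sqf.Hsq G := h
  haveI hc : IsCyclic (commutator G) := Cfsg.Agent.Lib.Nilpotent.Sqf.isCyclic_commutator_of_hsq H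
  refine ⟨Cfsg.Agent.Lib.Nilpotent.Sqf.isSupersolvable_of_hsq H,
    Cfsg.Agent.Lib.Nilpotent.Fitting.fittingSubgroup_normal,
    fun _ => ⟨Cfsg.Agent.Lib.Nilpotent.Sqf.isCyclic_quotient_fitting H,
      Cfsg.Agent.Lib.Nilpotent.Sqf.squarefree_index_fitting H⟩,
    hc, Cfsg.Agent.Lib.Nilpotent.Sqf.squarefree_card_commutator H,
    Cfsg.Agent.Lib.Nilpotent.Sqf.upperCentralSeries_two_fitting H, ?_⟩
  show ⁅(⊤ : Subgroup ↥(commutator G)), ⊤⁆ = ⊥
  rw [eq_bot_iff, Subgroup.commutator_le]
  intro a _ b _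
  rw [Subgroup.mem_bot, commutatorElement_eq_one_iff_mul_comm]
  exact hc.isMulCommutative.is_comm.comm a b

end Cfsg.Agent.S4130
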