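import Cfsg.Statements.S4134
import Cfsg.Agent.Lib.ClassSize.TwoSize
-- import your own Cfsg.Agent.* helpers here

set_option autoImplicit false
open Cfsg

namespace Cfsg.Agent.S4134

/-- Let G be a finite group whose conjugacy classes have exactly two sizes, 1 and n > 1. Then n is a power of a prime p and G is the direct product of a p-group and an abelian group of order prime to p: its Sylow p-subgroup P is normal with an abelian normal complement centralizing it; moreover P has an abelian normal subgroup A with P/A of exponent dividing p. -/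
theorem result {G : Type*} [Group G] [Finite G] (n : ℕ) (hn : 1 < n)
    (h : ∀ x : G, (Subgroup.centralizer ({x} : Set G)).index = 1 ∨ (Subgroup.centralizer ({x} : Set G)).index = n) (hex : ∃ x : G, (Subgroup.centralizer ({x} : Set G)).index = n) :
    ∃ (p : ℕ) (_ : Fact p.Prime) (a : ℕ), n = p ^ a ∧ ∀ P : Sylow p G, (P : Subgroup G).Normal ∧
      (∃ N : Subgroup G, N.Normal ∧ N.IsComplement' (P : Subgroup G) ∧ IsMulCommutative N ∧
        ∀ x ∈ N, ∀ y ∈ (P : Subgroup G), x * y = y * x) ∧
      ∃ A : Subgroup (P : Subgroup G), A.Normal ∧ IsMulCommutative A ∧ ∀ y : (P : Subgroup G), y ^ p ∈ A := by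
  
  classical
  obtain ⟨p, hp, hP⟩ := Cfsg.Agent.Lib.ClassSize.TwoSize.exists_isPGroup_quotient h hn
  haveI : Fact p.Prime := ⟨hp⟩
  obtain ⟨x, hx⟩ := hex
  have hdvd : n ∣ Nat.card (G ⧸ Subgroup.center G) := by
    rw [← hx, ← Cfsg.Agent.Lib.ClassSize.TwoSize.index_map_mk_center x]
    exact Subgroup.index_dvd_card _
  obtain ⟨k, hk⟩ := IsPGroup.iff_card.1 hP
  rw [hk] at hdvd
  obtain ⟨a, -, ha⟩ := (Nat.dvd_prime_pow hp).1 hdvd
  refine ⟨p, ⟨hp⟩, a, ha, fun P => ?_⟩
  have hmap : (P : Subgroup G).map (QuotientGroup.mk' (Subgroup.center G)) = ⊤ := by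
    have h1 : ((P : Subgroup G).map (QuotientGroup.mk' (Subgroup.center G))).index ∣ p ^ k := by
      rw [← hk]
      exact Subgroup.index_dvd_card _
    obtain ⟨b, -, hb⟩ := (Nat.dvd_prime_pow hp).1 h1
    have h2 : ((P : Subgroup G).map (QuotientGroup.mk' (Subgroup.center G))).index ∣ (P : Subgroup G).index := by
      rw [Subgroup.index_map, QuotientGroup.range_mk', Subgroup.index_top, mul_one]
      exact Subgroup.index_dvd_of_le le_sup_left
    have h3 : b = 0 := by
      by_contra hb0
      apply P.not_dvd_index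
      refine dvd_trans ?_ h2
      rw [hb]
      exact dvd_pow_self p hb0
    rw [h3, pow_zero] at hb
    exact Subgroup.index_eq_one.1 hb
  have hPZ : ∀ g : G, ∃ u ∈ (P : Subgroup G), u⁻¹ * g ∈ Subgroup.center G := by
    intro g
    have h1 : QuotientGroup.mk' (Subgroup.center G) g ∈ (P : Subgroup G).map (QuotientGroup.mk' (Subgroup.center G)) := by
      rw [hmap]; trivial
    obtain ⟨u, hu, hug⟩ := h1
    refine ⟨u, hu, Cfsg.Agent.Lib.ClassSize.TwoSize.mk_eq_one_iff.1 ?_⟩
    rw [map_mul, map_inv, hug]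
    simp
  have hnormal : (P : Subgroup G).Normal := by
    refine ⟨fun s hs g => ?_⟩
    obtain ⟨u, hu, hz⟩ := hPZ g
    have h1 : g = u * (u⁻¹ * g) := by group
    have h2 : g * s * g⁻¹ = u * s * u⁻¹ := by
      have h3 := Subgroup.mem_center_iff.1 hz s
      calc g * s * g⁻¹ = u * ((u⁻¹ * g) * s) * (u⁻¹ * g)⁻¹ * u⁻¹ := by group
        _ = u * (s * (u⁻¹ * g)) * (u⁻¹ * g)⁻¹ * u⁻¹ := by rw [h3]
        _ = u * s * u⁻¹ := by group
    rw [h2]
    exact (P : Subgroup G).mul_mem ((P : Subgroup G).mul_mem hu hs) ((P : Subgroup G).inv_mem hu)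
  refine ⟨hnormal, ?_, ?_⟩
  · obtain ⟨H, hH⟩ := Subgroup.exists_left_complement'_of_coprime (N := (P : Subgroup G)) P.card_coprime_index
    have hcardH : Nat.card H = (P : Subgroup G).index := by
      have h1 := hH.card_mul_card
      have h2 := (P : Subgroup G).card_mul_index
      rw [mul_comm] at h1
      exact Nat.eq_of_mul_eq_mul_left Nat.card_pos (h1.trans h2.symm)
    have hHZ : H ≤ Subgroup.center G := by
      intro y hy
      apply Cfsg.Agent.Lib.ClassSize.TwoSize.mk_eq_one_iff.1
      obtain ⟨j, hj⟩ := (IsPGroup.iff_orderOf.1 hP) (QuotientGroup.mk' (Subgroup.center G) y)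
      have h1 : (y : G) ^ Nat.card H = 1 := by
        have h5 : ((⟨y, hy⟩ : H) ^ Nat.card H) = 1 := pow_card_eq_one'
        have h6 := congrArg (Subtype.val) h5
        exact h6
      have h2 : (QuotientGroup.mk' (Subgroup.center G) y) ^ Nat.card H = 1 := by
        rw [← map_pow, h1, map_one]
      have h3 := orderOf_dvd_of_pow_eq_one h2
      rw [hj, hcardH] at h3
      have h4 : j = 0 := by
        by_contra hj0
        exact P.not_dvd_index ((dvd_pow_self p hj0).trans h3)
      rw [h4, pow_zero] at hj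
      exact orderOf_eq_one_iff.1 hj
    have hcen : ∀ y ∈ H, ∀ g : G, g * y = y * g := fun y hy g => Subgroup.mem_center_iff.1 (hHZ hy) g
    refine ⟨H, ⟨fun y hy g => ?_⟩, hH, ⟨⟨fun a b => Subtype.ext (hcen a a.2 b).symm⟩⟩, ?_⟩
    · rw [hcen y hy g]
      simpa using hy
    · intro y hy w _
      exact (hcen y hy w).symm
  · obtain ⟨K, hKn, hKc, hKp⟩ := Cfsg.Agent.Lib.ClassSize.TwoSize.exists_abelian_normal_of_pgroup hp h hP
    haveI := hKn
    refine ⟨K.subgroupOf (P : Subgroup G), inferInstance, ⟨⟨fun a b => ?_⟩⟩, fun y => ?_⟩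
    · apply Subtype.ext
      apply Subtype.ext
      exact hKc _ (Subgroup.mem_subgroupOf.1 a.2) _ (Subgroup.mem_subgroupOf.1 b.2)
    · rw [Subgroup.mem_subgroupOf]
      simpa using hKp (y : G)


end Cfsg.Agent.S4134
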