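import Cfsg.Statements.S4139
import Cfsg.Agent.Lib.Nilpotent.Elements

set_option autoImplicit false
open Cfsg

namespace Cfsg.Agent.S4139

universe u

theorem card_carrier_index {G : Type*} [Group G] [Finite G] (g : G) :
    Nat.card (ConjClasses.mk g).carrier = (Subgroup.centralizer ({g} : Set G)).index := by
  have h1 := MulAction.index_stabilizer (ConjAct G) g
  have h2 : (Subgroup.centralizer ({g} : Set G)) =
      (MulAction.stabilizer (ConjAct G) g).comap (ConjAct.toConjAct (G := G)).toMonoidHom := by
    ext y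
    rw [Subgroup.mem_comap, MulAction.mem_stabilizer_iff, Subgroup.mem_centralizer_iff]
    simp only [Set.mem_singleton_iff, forall_eq]
    show g * y = y * g ↔ ConjAct.toConjAct y • g = g
    rw [ConjAct.toConjAct_smul, mul_inv_eq_iff_eq_mul, eq_comm]
  rw [h2, Subgroup.index_comap_of_surjective _ (ConjAct.toConjAct (G := G)).surjective, h1,
    ConjAct.orbit_eq_carrier_conjClasses]
  rfl

/-- Elements with `p`-power class size. -/
def Tp (p : ℕ) (G : Type*) [Group G] : Set G :=
  {x | ∃ n, (Subgroup.centralizer ({x} : Set G)).index = p ^ n}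

/-- Counting elements by the size of their class. -/
theorem card_filter {G : Type*} [Group G] [Finite G] [Fintype (ConjClasses G)] (A : ℕ → Prop) :
    Nat.card {x : G // A (Subgroup.centralizer ({x} : Set G)).index} =
      by classical exact ∑ C : ConjClasses G, if A (Nat.card C.carrier) then Nat.card C.carrier else 0 := by
  classical
  letI := Fintype.ofFinite G
  rw [Nat.card_eq_fintype_card, Fintype.card_subtype,
    Finset.card_eq_sum_card_fiberwise (f := ConjClasses.mk) (t := Finset.univ) (by simp)]
  refine Finset.sum_congr rfl fun C _ => ?_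
  obtain ⟨g, rfl⟩ := ConjClasses.mk_surjective C
  have hcls : ∀ a : G, ConjClasses.mk a = ConjClasses.mk g →
      (Subgroup.centralizer ({a} : Set G)).index = (Subgroup.centralizer ({g} : Set G)).index := by
    intro a ha
    rw [← card_carrier_index, ← card_carrier_index, ha]
  rw [card_carrier_index g]
  by_cases hA : A (Subgroup.centralizer ({g} : Set G)).index
  · rw [if_pos hA, ← card_carrier_index g, Nat.card_eq_fintype_card, Fintype.card_subtype]
    congr 1
    ext a
    simp only [Finset.mem_filter, Finset.mem_univ, true_and, ConjClasses.mem_carrier_iff_mk_eq]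
    constructor
    · rintro ⟨_, h⟩; exact h
    · intro h; exact ⟨by rw [hcls a h]; exact hA, h⟩
  · rw [if_neg hA, Finset.card_eq_zero, Finset.filter_eq_empty_iff]
    intro a ha h
    simp only [Finset.mem_filter, Finset.mem_univ, true_and] at ha
    exact hA (by rw [← hcls a h]; exact ha)

theorem central_card {G : Type*} [Group G] [Finite G] :
    Nat.card {x : G // (Subgroup.centralizer ({x} : Set G)).index = 1} = Nat.card (Subgroup.center G) := by
  refine Nat.card_congr (Equiv.subtypeEquivRight fun x => ?_)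
  rw [Subgroup.index_eq_one, Subgroup.mem_center_iff, Subgroup.centralizer_eq_top_iff_subset]
  simp [Subgroup.mem_center_iff]

theorem dvd_center_of_dvd {G : Type*} [Group G] [Finite G] {p : ℕ} [hp : Fact p.Prime]
    (h : p ∣ Nat.card (Tp p G)) : p ∣ Nat.card (Subgroup.center G) := by
  classical
  letI := Fintype.ofFinite (ConjClasses G)
  have h1 : Nat.card (Tp p G) = ∑ C : ConjClasses G,
      if (∃ n, Nat.card C.carrier = p ^ n) then Nat.card C.carrier else 0 := by
    exact card_filter (G := G) (fun k => ∃ n, k = p ^ n)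
  have h2 : Nat.card (Subgroup.center G) = ∑ C : ConjClasses G,
      if (Nat.card C.carrier = 1) then Nat.card C.carrier else 0 := by
    rw [← central_card]
    have := card_filter (G := G) (fun k => k = 1)
    simpa using this
  have h3 : ∑ C : ConjClasses G,
      (if (∃ n, Nat.card C.carrier = p ^ n) then Nat.card C.carrier else 0) =
      (∑ C : ConjClasses G, if (Nat.card C.carrier = 1) then Nat.card C.carrier else 0) +
      ∑ C : ConjClasses G, if (∃ n, Nat.card C.carrier = p ^ (n + 1)) then Nat.card C.carrier else 0 := by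
    rw [← Finset.sum_add_distrib]
    refine Finset.sum_congr rfl fun C _ => ?_
    by_cases h1 : Nat.card C.carrier = 1
    · have h4 : ¬ ∃ n, Nat.card C.carrier = p ^ (n + 1) := by
        rintro ⟨n, hn⟩
        rw [h1] at hn
        have := Nat.one_lt_pow (n := n + 1) (by omega) hp.out.one_lt
        omega
      rw [if_pos ⟨0, by simpa using h1⟩, if_pos h1, if_neg h4]; simp
    · rw [if_neg h1, zero_add]
      by_cases h5 : ∃ n, Nat.card C.carrier = p ^ (n + 1)
      · obtain ⟨n, hn⟩ := h5
        rw [if_pos ⟨n + 1, hn⟩, if_pos ⟨n, hn⟩]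
      · have h6 : ¬ ∃ n, Nat.card C.carrier = p ^ n := by
          rintro ⟨n, hn⟩
          cases n with
          | zero => exact h1 (by simpa using hn)
          | succ n => exact h5 ⟨n, hn⟩
        rw [if_neg h6, if_neg h5]
  have h4 : p ∣ ∑ C : ConjClasses G,
      if (∃ n, Nat.card C.carrier = p ^ (n + 1)) then Nat.card C.carrier else 0 := by
    refine Finset.dvd_sum fun C _ => ?_
    split_ifs with h5
    · obtain ⟨n, hn⟩ := h5
      rw [hn]
      exact dvd_pow_self p (by omega)
    · exact dvd_zero _
  rw [h1, h3] at h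
  rw [h2]
  exact (Nat.dvd_add_left h4).1 h

/-- The key index comparison with the quotient by a central subgroup of order `p`. -/
theorem tp_iff_quotient {G : Type*} [Group G] [Finite G] {p : ℕ} [hp : Fact p.Prime]
    (C : Subgroup G) [C.Normal] (hC : C ≤ Subgroup.center G) (hcard : Nat.card C = p) (x : G) :
    x ∈ Tp p G ↔ (x : G ⧸ C) ∈ Tp p (G ⧸ C) := by
  set D : Subgroup G := (Subgroup.centralizer ({(x : G ⧸ C)} : Set (G ⧸ C))).comap (QuotientGroup.mk' C) with hD
  have hDi : D.index = (Subgroup.centralizer ({(x : G ⧸ C)} : Set (G ⧸ C))).index :=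
    Subgroup.index_comap_of_surjective _ (QuotientGroup.mk'_surjective C)
  have hmem : ∀ g : G, g ∈ D ↔ g * x * g⁻¹ * x⁻¹ ∈ C := by
    intro g
    rw [hD, Subgroup.mem_comap, Subgroup.mem_centralizer_iff]
    simp only [Set.mem_singleton_iff, forall_eq]
    constructor
    · intro h
      have h' : ((g * x * g⁻¹ * x⁻¹ : G) : G ⧸ C) = 1 := by
        show (QuotientGroup.mk' C) _ = 1
        simp only [map_mul, map_inv]
        have h2 : (QuotientGroup.mk' C) x * (QuotientGroup.mk' C) g = (QuotientGroup.mk' C) g * (QuotientGroup.mk' C) x := h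
        rw [← h2]; group
      exact (QuotientGroup.eq_one_iff _).1 h'
    · intro h
      have h' : ((g * x * g⁻¹ * x⁻¹ : G) : G ⧸ C) = 1 := (QuotientGroup.eq_one_iff _).2 h
      show (QuotientGroup.mk' C) x * (QuotientGroup.mk' C) g = (QuotientGroup.mk' C) g * (QuotientGroup.mk' C) x
      have h2 : (QuotientGroup.mk' C) g * (QuotientGroup.mk' C) x * ((QuotientGroup.mk' C) g)⁻¹ * ((QuotientGroup.mk' C) x)⁻¹ = 1 := by
        simpa using h'
      have h3 : (QuotientGroup.mk' C) g * (QuotientGroup.mk' C) x = (QuotientGroup.mk' C) x * (QuotientGroup.mk' C) g := by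
        have := h2
        rw [mul_inv_eq_one, mul_inv_eq_iff_eq_mul] at this
        exact this
      exact h3.symm
  have hle : Subgroup.centralizer ({x} : Set G) ≤ D := by
    intro g hg
    rw [hmem]
    rw [Subgroup.mem_centralizer_iff] at hg
    have h0 : x * g = g * x := hg x rfl
    have : g * x * g⁻¹ * x⁻¹ = 1 := by
      rw [← h0]; group
    rw [this]; exact C.one_mem
  -- the commutator homomorphism
  let φ : D →* C :=
    { toFun := fun g => ⟨(g : G) * x * (g : G)⁻¹ * x⁻¹, (hmem g).1 g.2⟩
      map_one' := by ext; simp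
      map_mul' := by
        rintro ⟨a, ha⟩ ⟨b, hb⟩
        ext
        have hb' := hC ((hmem b).1 hb)
        rw [Subgroup.mem_center_iff] at hb'
        simp only [Subgroup.coe_mul, MulMemClass.mk_mul_mk]
        have e1 := hb' a
        calc a * b * x * (a * b)⁻¹ * x⁻¹ = a * (b * x * b⁻¹ * x⁻¹) * x * a⁻¹ * x⁻¹ := by group
          _ = (b * x * b⁻¹ * x⁻¹) * a * x * a⁻¹ * x⁻¹ := by rw [e1]
          _ = a * x * a⁻¹ * x⁻¹ * (b * x * b⁻¹ * x⁻¹) := by
            have e2 := hb' (a * x * a⁻¹ * x⁻¹)
            rw [e2]; group }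
  have hker : φ.ker = (Subgroup.centralizer ({x} : Set G)).subgroupOf D := by
    ext g
    rw [MonoidHom.mem_ker, Subgroup.mem_subgroupOf, Subgroup.mem_centralizer_iff]
    simp only [Set.mem_singleton_iff, forall_eq]
    constructor
    · intro h
      have h1 : (g : G) * x * (g : G)⁻¹ * x⁻¹ = 1 := congrArg Subtype.val h
      rw [mul_inv_eq_one, mul_inv_eq_iff_eq_mul] at h1
      exact h1.symm
    · intro h
      apply Subtype.ext
      show (g : G) * x * (g : G)⁻¹ * x⁻¹ = 1
      rw [← h]; group
  have hrel : (Subgroup.centralizer ({x} : Set G)).relIndex D ∣ p := by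
    have h1 : (Subgroup.centralizer ({x} : Set G)).relIndex D = Nat.card φ.range := by
      rw [Subgroup.relIndex, ← hker, Subgroup.index_ker]
    rw [h1, ← hcard]
    exact Subgroup.card_subgroup_dvd_card _
  have hprod := Subgroup.relIndex_mul_index hle
  rw [hDi] at hprod
  simp only [Tp, Set.mem_setOf_eq]
  rcases (Nat.dvd_prime hp.out).1 hrel with h1 | h1
  · rw [h1, one_mul] at hprod
    rw [hprod]
  · rw [h1] at hprod
    rw [← hprod]
    constructor
    · rintro ⟨n, hn⟩
      cases n with
      | zero =>
        rw [pow_zero] at hn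
        have := Nat.eq_one_of_mul_eq_one_right hn
        have h2 := hp.out.one_lt
        omega
      | succ n =>
        refine ⟨n, ?_⟩
        rw [pow_succ, mul_comm p] at hn
        exact Nat.eq_of_mul_eq_mul_right hp.out.pos hn
    · rintro ⟨n, hn⟩
      exact ⟨n + 1, by rw [hn, pow_succ, mul_comm]⟩

theorem card_tp_quotient {G : Type*} [Group G] [Finite G] {p : ℕ} [hp : Fact p.Prime]
    (C : Subgroup G) [C.Normal] (hC : C ≤ Subgroup.center G) (hcard : Nat.card C = p) :
    Nat.card (Tp p G) = p * Nat.card (Tp p (G ⧸ C)) := by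
  have h1 : Tp p G = (QuotientGroup.mk : G → G ⧸ C) ⁻¹' (Tp p (G ⧸ C)) := by
    ext x; exact tp_iff_quotient C hC hcard x
  rw [h1, Nat.card_congr (QuotientGroup.preimageMkEquivSubgroupProdSet C (Tp p (G ⧸ C))),
    Nat.card_prod, hcard]

theorem normal_sylow_of_dvd {p : ℕ} [hp : Fact p.Prime] :
    ∀ (n : ℕ) (G : Type u) [Group G] [Finite G], Nat.card G = n →
      (∀ k, p ^ k ∣ Nat.card G → p ^ k ∣ Nat.card (Tp p G)) →
      ∀ P : Sylow p G, (P : Subgroup G).Normal := by
  intro n
  induction n using Nat.strong_induction_on with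
  | _ n ih =>
  intro G _ _ hn hT P
  by_cases hpG : p ∣ Nat.card G
  · have h1 : p ∣ Nat.card (Tp p G) := by simpa using hT 1 (by simpa using hpG)
    have h2 := dvd_center_of_dvd h1
    obtain ⟨z, hz⟩ := exists_prime_orderOf_dvd_card' p h2
    set C : Subgroup G := (Subgroup.zpowers z).map (Subgroup.center G).subtype with hCdef
    have hCz : C ≤ Subgroup.center G := by
      rintro _ ⟨a, _, rfl⟩
      exact a.2
    haveI : C.Normal := by
      constructor
      intro a ha g
      have := hCz ha
      rw [Subgroup.mem_center_iff] at this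
      have h5 : g * a * g⁻¹ = a := by
        rw [this g]; group
      rw [h5]; exact ha
    have hCcard : Nat.card C = p := by
      rw [hCdef, Nat.card_congr (Subgroup.equivMapOfInjective _ _ (Subgroup.subtype_injective _)).symm.toEquiv,
        Nat.card_zpowers, hz]
    have hGcard : Nat.card G = p * Nat.card (G ⧸ C) := by
      rw [← hCcard, ← Subgroup.card_mul_index C]
      rfl
    have hlt : Nat.card (G ⧸ C) < n := by
      rw [← hn, hGcard]
      have h0 : 0 < Nat.card (G ⧸ C) := Nat.card_pos
      have := hp.out.two_le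
      nlinarith
    have hTq : ∀ k, p ^ k ∣ Nat.card (G ⧸ C) → p ^ k ∣ Nat.card (Tp p (G ⧸ C)) := by
      intro k hk
      have h3 : p ^ (k + 1) ∣ Nat.card G := by
        rw [hGcard, pow_succ, mul_comm]
        exact mul_dvd_mul_left p hk
      have h4 := hT (k + 1) h3
      rw [card_tp_quotient C hCz hCcard, pow_succ, mul_comm] at h4
      exact Nat.dvd_of_mul_dvd_mul_left hp.out.pos h4
    have hnorm := ih _ hlt (G ⧸ C) rfl hTq
    -- lift
    have hPbar : IsPGroup p ((P : Subgroup G).map (QuotientGroup.mk' C)) := P.isPGroup'.map _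
    obtain ⟨S, hS⟩ := hPbar.exists_le_sylow
    haveI := hnorm S
    set R : Subgroup G := (S : Subgroup (G ⧸ C)).comap (QuotientGroup.mk' C) with hR
    have hPR : (P : Subgroup G) ≤ R := by
      intro a ha
      exact hS ⟨a, ha, rfl⟩
    have hRp : IsPGroup p R := by
      apply IsPGroup.comap_of_ker_isPGroup S.isPGroup'
      rw [QuotientGroup.ker_mk']
      exact IsPGroup.of_card (n := 1) (by rw [hCcard, pow_one])
    have hPe : (P : Subgroup G) = R := (P.is_maximal' hRp hPR).symm
    rw [hPe]
    exact Subgroup.Normal.comap (hnorm S) _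
  · have h1 : Nat.card P = 1 := by
      rw [Sylow.card_eq_multiplicity, Nat.factorization_eq_zero_of_not_dvd hpG, pow_zero]
    rw [Subgroup.eq_bot_of_card_eq (P : Subgroup G) h1]
    infer_instance

theorem card_tp_of_nilpotent {G : Type*} [Group G] [Finite G] (hG : Group.IsNilpotent G)
    {p : ℕ} [hp : Fact p.Prime] (k : ℕ) (hk : p ^ k ∣ Nat.card G) : p ^ k ∣ Nat.card (Tp p G) := by
  classical
  set K0 : Set G := {y | ∃ q : ℕ, ∃ (hq : Fact q.Prime), q ≠ p ∧ ∃ Q : Sylow q G, y ∈ (Q : Subgroup G)} with hK0
  set T : Subgroup G := Subgroup.centralizer K0 with hT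
  have hTeq : Tp p G = (T : Set G) := by
    ext x
    constructor
    · rintro ⟨n, hn⟩
      show x ∈ Subgroup.centralizer K0
      rw [Subgroup.mem_centralizer_iff]
      rintro y ⟨q, hq, hqp, Q, hy⟩
      haveI := hq
      have hnd : ¬ q ∣ Nat.card (G ⧸ Subgroup.centralizer ({x} : Set G)) := by
        have : Nat.card (G ⧸ Subgroup.centralizer ({x} : Set G)) = p ^ n := hn
        rw [this]
        intro h
        exact hqp ((Nat.prime_dvd_prime_iff_eq hq.out hp.out).1 (hq.out.dvd_of_dvd_pow h))
      obtain ⟨c, hc⟩ := Q.isPGroup'.nonempty_fixed_point_of_prime_not_dvd_card _ hnd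
      obtain ⟨g, rfl⟩ := QuotientGroup.mk_surjective c
      have hnorm : (Q : Subgroup G).Normal := by haveI := hG; infer_instance
      have hy' : g * y * g⁻¹ ∈ (Q : Subgroup G) := hnorm.conj_mem y hy g
      have h1 := hc ⟨_, hy'⟩
      have h2 : ((g * y * g⁻¹ * g : G) : G ⧸ Subgroup.centralizer ({x} : Set G)) = (g : G ⧸ _) := h1
      rw [QuotientGroup.eq] at h2
      have h3 : (g * y * g⁻¹ * g)⁻¹ * g = y⁻¹ := by group
      rw [h3, inv_mem_iff, Subgroup.mem_centralizer_iff] at h2
      exact (h2 x rfl).symm
    · intro hx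
      have hx' : x ∈ Subgroup.centralizer K0 := hx
      rw [Subgroup.mem_centralizer_iff] at hx'
      have hpos : (Subgroup.centralizer ({x} : Set G)).index ≠ 0 := Subgroup.index_ne_zero_of_finite
      refine ⟨_, Nat.eq_prime_pow_of_unique_prime_dvd hpos ?_⟩
      intro d hd hdvd
      by_contra hdp
      haveI : Fact d.Prime := ⟨hd⟩
      obtain ⟨Q⟩ : Nonempty (Sylow d G) := inferInstance
      have hle : (Q : Subgroup G) ≤ Subgroup.centralizer ({x} : Set G) := by
        intro y hy
        rw [Subgroup.mem_centralizer_iff]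
        rintro _ rfl
        exact (hx' y ⟨d, ⟨hd⟩, hdp, Q, hy⟩).symm
      exact Q.not_dvd_index (hdvd.trans (Subgroup.index_dvd_of_le hle))
  obtain ⟨P⟩ : Nonempty (Sylow p G) := inferInstance
  have hPT : (P : Subgroup G) ≤ T := by
    intro u hu
    show u ∈ Subgroup.centralizer K0
    rw [Subgroup.mem_centralizer_iff]
    rintro y ⟨q, hq, hqp, Q, hy⟩
    haveI := hq
    obtain ⟨a, ha⟩ := (IsPGroup.iff_orderOf.1 P.isPGroup') ⟨u, hu⟩
    obtain ⟨b, hb⟩ := (IsPGroup.iff_orderOf.1 Q.isPGroup') ⟨y, hy⟩
    rw [Subgroup.orderOf_mk] at ha hb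
    have hcop : Nat.Coprime (orderOf y) (orderOf u) := by
      rw [ha, hb]
      exact Nat.Coprime.pow _ _ ((Nat.coprime_primes hq.out hp.out).2 hqp)
    exact Cfsg.Agent.Lib.Nilpotent.Elements.commute_of_coprime_orderOf hcop
  have h1 : Nat.card (Tp p G) = Nat.card T := by
    rw [hTeq]; rfl
  rw [h1]
  have h2 : p ^ k ∣ Nat.card P := Sylow.pow_dvd_card_of_pow_dvd_card P hk
  exact h2.trans (Subgroup.card_dvd_of_le hPT)

/-- Let G and H be finite groups such that for every natural number k, G and H have the same number of conjugacy classes of size k. If H is nilpotent then G is nilpotent. -/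
theorem result {G H : Type*} [Group G] [Finite G] [Group H] [Finite H]
    (hH : Group.IsNilpotent H)
    (h : ∀ k : ℕ, Nat.card {C : ConjClasses G // Nat.card C.carrier = k} = Nat.card {C : ConjClasses H // Nat.card C.carrier = k}) :
    Group.IsNilpotent G := by
  classical
  haveI : Finite (ConjClasses G) := inferInstance
  haveI : Finite (ConjClasses H) := inferInstance
  letI := Fintype.ofFinite (ConjClasses G)
  letI := Fintype.ofFinite (ConjClasses H)
  -- a size-preserving bijection of classes
  have he : ∀ k : ℕ, Nonempty ({C : ConjClasses G // Nat.card C.carrier = k} ≃ {C : ConjClasses H // Nat.card C.carrier = k}) :=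
    fun k => Finite.card_eq.1 (h k)
  have e : ∀ k : ℕ, {C : ConjClasses G // Nat.card C.carrier = k} ≃ {C : ConjClasses H // Nat.card C.carrier = k} := fun k => (he k).some
  let φ : ConjClasses G ≃ ConjClasses H :=
    (Equiv.sigmaFiberEquiv (fun C : ConjClasses G => Nat.card C.carrier)).symm.trans
      ((Equiv.sigmaCongrRight e).trans (Equiv.sigmaFiberEquiv (fun C : ConjClasses H => Nat.card C.carrier)))
  have hφ : ∀ C : ConjClasses G, Nat.card (φ C).carrier = Nat.card C.carrier := by
    intro C
    exact (e (Nat.card C.carrier) ⟨C, rfl⟩).2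
  have hsum : ∀ A : ℕ → Prop, ∑ C : ConjClasses G, (if A (Nat.card C.carrier) then Nat.card C.carrier else 0) =
      ∑ C : ConjClasses H, (if A (Nat.card C.carrier) then Nat.card C.carrier else 0) := by
    intro A
    rw [← Equiv.sum_comp φ]
    refine Finset.sum_congr rfl fun C _ => ?_
    rw [hφ]
  have hcount : ∀ A : ℕ → Prop, Nat.card {x : G // A (Subgroup.centralizer ({x} : Set G)).index} =
      Nat.card {x : H // A (Subgroup.centralizer ({x} : Set H)).index} := by
    intro A
    rw [card_filter A, card_filter A]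
    convert hsum A
  have hcardG : Nat.card G = Nat.card H := by
    have := hcount (fun _ => True)
    simpa [Nat.card_congr (Equiv.subtypeUnivEquiv (p := fun _ : G => True) (fun _ => trivial))] using this
  refine (Group.isNilpotent_of_finite_tfae.out 0 3).2 fun p hp P => ?_
  haveI := hp
  refine normal_sylow_of_dvd (p := p) _ G rfl ?_ P
  intro k hk
  have h1 : Nat.card (Tp p G) = Nat.card (Tp p H) := hcount (fun k => ∃ n, k = p ^ n)
  rw [h1]
  exact card_tp_of_nilpotent hH k (hcardG ▸ hk)

end Cfsg.Agent.S4139
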