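import Cfsg.Statements.S4140
import Cfsg.Agent.Lib.Transfer.Camina

set_option autoImplicit false
open Cfsg

namespace Cfsg.Agent.S4140

open Cfsg.Agent.Lib.Transfer.Camina in
theorem aux {G : Type*} [Group G] [Finite G] (N : Subgroup G) [N.Normal] (hN1 : N ≠ ⊥) (hN2 : N ≠ ⊤)
    (hcam : ∀ g : G, g ∉ N → ∀ n ∈ N, ∃ x : G, x * g * x⁻¹ = g * n)
    (hP1 : ¬ IsPrimePow (Nat.card N)) (hP2 : ¬ IsPrimePow N.index) :
    ∀ x ∈ N, x ≠ 1 → Subgroup.centralizer ({x} : Set G) ≤ N := by
  have hker : (QuotientGroup.mk' N).ker = N := QuotientGroup.ker_mk' N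
  haveI : Nontrivial (G ⧸ N) := QuotientGroup.nontrivial_iff.2 hN2
  have hT : ¬ IsPrimePow (Nat.card (G ⧸ N)) := hP2
  have hCam : Cam (QuotientGroup.mk' N) := by
    intro g hg n hn
    have hg' : g ∉ N := by
      intro h
      exact hg ((QuotientGroup.eq_one_iff g).2 h)
    have hn' : n ∈ N := (QuotientGroup.eq_one_iff n).1 hn
    exact hcam g hg' n hn'
  have hF := main_thm hT _ G (QuotientGroup.mk' N) rfl (QuotientGroup.mk'_surjective N)
    (by rw [hker]; exact hN1) hCam (by rw [hker]; exact hP1)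
  intro x hx hx1 g hg
  rw [Subgroup.mem_centralizer_iff] at hg
  have h2 := hF x ((QuotientGroup.eq_one_iff x).2 hx) hx1 g (hg x rfl).symm
  exact (QuotientGroup.eq_one_iff g).1 h2

/-- Let G be a finite group and N a proper non-trivial normal subgroup such that for every g outside N the conjugacy class of g is a union of cosets of N (equivalently gn is conjugate to g for every n ∈ N). Then either every element of G outside N acts fixed-point-freely on N (C_G(x) ≤ N for all x ∈ N, x ≠ 1, so G is a Frobenius group with kernel N), or N has prime-power order, or G/N has prime-power order. -/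
theorem result {G : Type*} [Group G] [Finite G] (N : Subgroup G) [N.Normal] (hN1 : N ≠ ⊥) (hN2 : N ≠ ⊤)
    (hcam : ∀ g : G, g ∉ N → ∀ n ∈ N, ∃ x : G, x * g * x⁻¹ = g * n) :
    (∀ x ∈ N, x ≠ 1 → Subgroup.centralizer ({x} : Set G) ≤ N) ∨ IsPrimePow (Nat.card N) ∨ IsPrimePow N.index := by
  by_cases hP1 : IsPrimePow (Nat.card N)
  · exact Or.inr (Or.inl hP1)
  · by_cases hP2 : IsPrimePow N.index
    · exact Or.inr (Or.inr hP2)
    · exact Or.inl (aux N hN1 hN2 hcam hP1 hP2)

end Cfsg.Agent.S4140
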