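import Cfsg.Statements.S4142
import Mathlib
-- import your own Cfsg.Agent.* helpers here

set_option autoImplicit false
open Cfsg

namespace Cfsg.Agent.S4142

theorem aux {G : Type*} [Group G] [Finite G] (N : Subgroup G) [N.Normal] (g : G) :
    (∀ n ∈ N, ∃ x : G, x * g * x⁻¹ = g * n) ↔
      Nat.card (Subgroup.centralizer ({g} : Set G)) =
        Nat.card (Subgroup.centralizer ({(QuotientGroup.mk g : G ⧸ N)} : Set (G ⧸ N))) := by
  classical
  set Cb := Subgroup.centralizer ({(QuotientGroup.mk g : G ⧸ N)} : Set (G ⧸ N)) with hCb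
  set C := Subgroup.centralizer ({g} : Set G) with hC
  let D : Subgroup G := Cb.comap (QuotientGroup.mk' N)
  have hDmem : ∀ x, x ∈ D ↔ g⁻¹ * (x * g * x⁻¹) ∈ N := by
    intro x
    show (QuotientGroup.mk x : G ⧸ N) ∈ Cb ↔ _
    rw [hCb, Subgroup.mem_centralizer_singleton_iff, ← QuotientGroup.eq, QuotientGroup.mk_mul,
      QuotientGroup.mk_mul, QuotientGroup.mk_inv, eq_mul_inv_iff_mul_eq, ← QuotientGroup.mk_mul]
    exact eq_comm
  have hCmem : ∀ x, x ∈ C ↔ x * g = g * x := fun x => Subgroup.mem_centralizer_singleton_iff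
  have hCD : C ≤ D := by
    intro x hx
    rw [hDmem]
    have h1 := (hCmem x).1 hx
    rw [h1]
    simp
  have hD : Nat.card D = Nat.card N * Nat.card Cb := by
    have h1 := Subgroup.card_mul_index D
    have h2 := Subgroup.card_mul_index Cb
    have h3 : D.index = Cb.index :=
      Subgroup.index_comap_of_surjective _ (QuotientGroup.mk'_surjective N)
    have h4 := Subgroup.index_mul_card N
    have hi : 0 < Cb.index := Nat.pos_of_ne_zero Subgroup.index_ne_zero_of_finite
    apply Nat.eq_of_mul_eq_mul_right hi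
    have h5 : Nat.card Cb * Cb.index = N.index := h2
    calc Nat.card D * Cb.index = Nat.card G := by rw [← h3, h1]
      _ = N.index * Nat.card N := h4.symm
      _ = Nat.card N * Nat.card Cb * Cb.index := by rw [← h5]; ring
  let K : Subgroup D := C.subgroupOf D
  have hK : Nat.card K = Nat.card C := Nat.card_congr (Subgroup.subgroupOfEquivOfLe hCD).toEquiv
  have hcount : Nat.card C * K.index = Nat.card N * Nat.card Cb := by
    rw [← hK, Subgroup.card_mul_index, hD]
  let f : D → N := fun x => ⟨g⁻¹ * (x * g * x⁻¹), (hDmem x).1 x.2⟩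
  have hfeq : ∀ x y : D, f x = f y ↔ x⁻¹ * y ∈ K := by
    intro x y
    rw [Subgroup.mem_subgroupOf, Subtype.ext_iff]
    show g⁻¹ * ((x : G) * g * (x : G)⁻¹) = g⁻¹ * ((y : G) * g * (y : G)⁻¹) ↔ (x : G)⁻¹ * y ∈ C
    rw [hCmem, mul_right_inj]
    constructor
    · intro h
      calc (x : G)⁻¹ * y * g = (x : G)⁻¹ * ((y : G) * g * (y : G)⁻¹) * y := by group
        _ = (x : G)⁻¹ * ((x : G) * g * (x : G)⁻¹) * y := by rw [h]
        _ = g * ((x : G)⁻¹ * y) := by group
    · intro h
      calc (x : G) * g * (x : G)⁻¹ = (x : G) * (g * ((x : G)⁻¹ * y)) * (y : G)⁻¹ := by group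
        _ = (x : G) * ((x : G)⁻¹ * y * g) * (y : G)⁻¹ := by rw [h]
        _ = (y : G) * g * (y : G)⁻¹ := by group
  let F : D ⧸ K → N := fun q => Quotient.liftOn' q f (fun x y h => (hfeq x y).2 (QuotientGroup.leftRel_apply.1 h))
  have hFinj : Function.Injective F := by
    intro q₁ q₂
    induction q₁ using QuotientGroup.induction_on with | H x => ?_
    induction q₂ using QuotientGroup.induction_on with | H y => ?_
    intro h
    exact QuotientGroup.eq.2 ((hfeq x y).1 h)
  have hFsurj : (∀ n ∈ N, ∃ x : G, x * g * x⁻¹ = g * n) ↔ Function.Surjective F := by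
    constructor
    · intro h n
      obtain ⟨x, hx⟩ := h n n.2
      have hxD : x ∈ D := by
        rw [hDmem, hx]
        simp
      refine ⟨QuotientGroup.mk ⟨x, hxD⟩, Subtype.ext ?_⟩
      show g⁻¹ * (x * g * x⁻¹) = n
      rw [hx]
      simp
    · intro h n hn
      obtain ⟨q, hq⟩ := h ⟨n, hn⟩
      induction q using QuotientGroup.induction_on with | H x => ?_
      refine ⟨x, ?_⟩
      have h1 : g⁻¹ * ((x : G) * g * (x : G)⁻¹) = n := congrArg Subtype.val hq
      rw [← h1]
      simp
  have hFcard : Function.Surjective F ↔ K.index = Nat.card N := by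
    constructor
    · intro h
      exact Nat.card_congr (Equiv.ofBijective F ⟨hFinj, h⟩)
    · intro h
      exact ((Nat.bijective_iff_injective_and_card F).2 ⟨hFinj, h⟩).2
  rw [hFsurj, hFcard]
  have hN : 0 < Nat.card N := Nat.card_pos
  have hC0 : 0 < Nat.card C := Nat.card_pos
  constructor
  · intro h
    rw [h, mul_comm] at hcount
    exact Nat.eq_of_mul_eq_mul_left hN hcount
  · intro h
    rw [← h, mul_comm (Nat.card N)] at hcount
    exact Nat.eq_of_mul_eq_mul_left hC0 hcount


/-- Let G be a finite group and N a normal subgroup. Then the conjugacy class of every element g outside N is a union of cosets of N (gn is conjugate to g for all n ∈ N) if and only if for every g outside N the centralizer of g in G has the same order as the centralizer of gN in G/N. -/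
theorem result {G : Type*} [Group G] [Finite G] (N : Subgroup G) [N.Normal] :
    (∀ g : G, g ∉ N → ∀ n ∈ N, ∃ x : G, x * g * x⁻¹ = g * n) ↔
      ∀ g : G, g ∉ N → Nat.card (Subgroup.centralizer ({g} : Set G)) =
        Nat.card (Subgroup.centralizer ({(QuotientGroup.mk g : G ⧸ N)} : Set (G ⧸ N))) := by
  constructor
  · intro h g hg
    exact (aux N g).1 (h g hg)
  · intro h g hg
    exact (aux N g).2 (h g hg)

end Cfsg.Agent.S4142
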