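import Cfsg.Statements.S4144
import Mathlib
import Cfsg.Agent.Lib.PGroup.MaxClass.Main
-- import your own Cfsg.Agent.* helpers here

set_option autoImplicit false
open Cfsg

namespace Cfsg.Agent.S4144

/-- Let X be a finite p-group of order p^n, n ≥ 2, of nilpotency class n − 1 (maximal class), and H any subgroup of X. Then the index in H of the subgroup generated by the p-th powers of elements of H is at most p^p. -/
theorem result {X : Type*} [Group X] [Finite X] {p : ℕ} [Fact p.Prime] (n : ℕ) (hn : 2 ≤ n) (hX : Nat.card X = p ^ n)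
    (hmax : Group.nilpotencyClass X = n - 1) (H : Subgroup X) :
    (Subgroup.closure {y : X | ∃ h ∈ H, y = h ^ p}).relIndex H ≤ p ^ p := by
  have hp' := (Fact.out : p.Prime)
  have hrel : ∀ (n' : ℕ), n' ≤ 2 → Nat.card X = p ^ n' →
      (Subgroup.closure {y : X | ∃ h ∈ H, y = h ^ p}).relIndex H ≤ p ^ p := by
    intro n' hn' hX'
    refine Cfsg.Agent.Lib.PGroup.MaxClass.relIndex_le_of_card_le (p := p) ?_
    calc Nat.card H ≤ Nat.card X := Subgroup.card_le_card_group H
      _ = p ^ n' := hX'
      _ ≤ p ^ p := Nat.pow_le_pow_right hp'.pos (by have := hp'.two_le; omega)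
  by_cases h3 : 3 ≤ n
  · exact (Cfsg.Agent.Lib.PGroup.MaxClass.MC.of_class h3 hX hmax).relIndex_le_all H
  · exact hrel n (by omega) hX

end Cfsg.Agent.S4144
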