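import Cfsg.Statements.S4150
import Cfsg.Agent.Lib.Perm.AltGen
import Cfsg.Agent.Lib.Perm.ThreePrimes

set_option autoImplicit false
open Cfsg

namespace Cfsg.Agent.S4150

open Equiv Equiv.Perm Cfsg.Agent.Lib.Perm.AltGen Cfsg.Agent.Lib.Perm.ThreePrimes

theorem main_step (m p q : ℕ) (hp : p.Prime) (hq : q.Prime) (hpo : Odd p) (hqo : Odd q)
    (hpq : p < q) (hq5 : 5 ≤ q) (h2q : m < 2 * q) (hpq' : m < p + q) (h2p : m ≤ 2 * p)
    (hgen : p = 3 ∨ p + 3 ≤ q ∨ (p = 5 ∧ q = 7) ∨ (p = 11 ∧ q = 13))
    (hnc : 2 * p ≤ m → q + 3 ≤ m ∨ (p = 3 ∧ q = 5 ∧ m = 6))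
    (x y : alternatingGroup (Fin m)) (hx : orderOf x = p) (hy : orderOf y = q) :
    ∃ d : ℕ, 5 ≤ d ∧ Nonempty (Subgroup.closure ({x, y} : Set (alternatingGroup (Fin m))) ≃*
      alternatingGroup (Fin d)) := by
  have hX : orderOf (x : Perm (Fin m)) = p := by rw [Subgroup.orderOf_coe, hx]
  have hY : orderOf (y : Perm (Fin m)) = q := by rw [Subgroup.orderOf_coe, hy]
  obtain ⟨d, hd, ⟨iso⟩⟩ := good_core hp hq hpo hqo hpq hq5 hX hY
    (by rw [Fintype.card_fin]; exact h2q) (by rw [Fintype.card_fin]; exact hpq')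
    (by rw [Fintype.card_fin]; exact h2p) hgen (by rw [Fintype.card_fin]; exact hnc)
  refine ⟨d, hd, ⟨?_⟩⟩
  have hmap : (Subgroup.closure ({x, y} : Set (alternatingGroup (Fin m)))).map
      (alternatingGroup (Fin m)).subtype = Subgroup.closure {(x : Perm (Fin m)), (y : Perm (Fin m))} := by
    rw [MonoidHom.map_closure, Set.image_pair]
    rfl
  exact ((Subgroup.equivMapOfInjective _ _ (alternatingGroup (Fin m)).subtype_injective).trans
    (MulEquiv.subgroupCongr hmap)).trans iso

/-- Let m ≥ 5. Then there are primes p < q with m/2 ≤ p and q ≤ m such that any two elements x, y of the alternating group of degree m with x of order p and y of order q generate a subgroup isomorphic to an alternating group of some degree d ≥ 5. -/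
theorem result (m : ℕ) (hm : 5 ≤ m) :
    ∃ p q : ℕ, p.Prime ∧ q.Prime ∧ m ≤ 2 * p ∧ p < q ∧ q ≤ m ∧
      ∀ x y : alternatingGroup (Fin m), orderOf x = p → orderOf y = q →
        ∃ d : ℕ, 5 ≤ d ∧ Nonempty (Subgroup.closure ({x, y} : Set (alternatingGroup (Fin m))) ≃* alternatingGroup (Fin d)) := by
  by_cases h18 : 18 ≤ m
  · obtain ⟨a, b, c, ha, hb, hc, hna, hab, hbc, hc2⟩ := three_primes (m / 2) (by omega)
    have hoa : Odd a := ha.odd_of_ne_two (by omega)
    have hob : Odd b := hb.odd_of_ne_two (by omega)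
    have hoc : Odd c := hc.odd_of_ne_two (by omega)
    have h1 : a + 2 ≤ b := by
      obtain ⟨r, hr⟩ := hoa
      obtain ⟨s, hs⟩ := hob
      omega
    have h2 : b + 2 ≤ c := by
      obtain ⟨r, hr⟩ := hob
      obtain ⟨s, hs⟩ := hoc
      omega
    refine ⟨a, c, ha, hc, by omega, by omega, by omega, fun x y hx hy =>
      main_step m a c ha hc hoa hoc (by omega) (by omega) (by omega) (by omega) (by omega)
        (Or.inr (Or.inl (by omega))) (fun h => by omega) x y hx hy⟩
  have p3 : Nat.Prime 3 := by norm_num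
  have p5 : Nat.Prime 5 := by norm_num
  have p7 : Nat.Prime 7 := by norm_num
  have p11 : Nat.Prime 11 := by norm_num
  have p13 : Nat.Prime 13 := by norm_num
  have p17 : Nat.Prime 17 := by norm_num
  have o3 : Odd 3 := by decide
  have o5 : Odd 5 := by decide
  have o7 : Odd 7 := by decide
  have o11 : Odd 11 := by decide
  have o13 : Odd 13 := by decide
  have o17 : Odd 17 := by decide
  by_cases h17 : m = 17
  · exact ⟨11, 17, p11, p17, by omega, by omega, by omega, fun x y hx hy =>
      main_step m 11 17 p11 p17 o11 o17 (by omega) (by omega) (by omega) (by omega) (by omega)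
        (by omega) (by omega) x y hx hy⟩
  by_cases h15 : 15 ≤ m
  · exact ⟨11, 13, p11, p13, by omega, by omega, by omega, fun x y hx hy =>
      main_step m 11 13 p11 p13 o11 o13 (by omega) (by omega) (by omega) (by omega) (by omega)
        (by omega) (by omega) x y hx hy⟩
  by_cases h11 : 11 ≤ m
  · exact ⟨7, 11, p7, p11, by omega, by omega, by omega, fun x y hx hy =>
      main_step m 7 11 p7 p11 o7 o11 (by omega) (by omega) (by omega) (by omega) (by omega)
        (by omega) (by omega) x y hx hy⟩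
  by_cases h7 : 7 ≤ m
  · exact ⟨5, 7, p5, p7, by omega, by omega, by omega, fun x y hx hy =>
      main_step m 5 7 p5 p7 o5 o7 (by omega) (by omega) (by omega) (by omega) (by omega)
        (by omega) (by omega) x y hx hy⟩
  exact ⟨3, 5, p3, p5, by omega, by omega, by omega, fun x y hx hy =>
    main_step m 3 5 p3 p5 o3 o5 (by omega) (by omega) (by omega) (by omega) (by omega)
      (by omega) (by omega) x y hx hy⟩

end Cfsg.Agent.S4150
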