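import Cfsg.Statements.S4152
import Mathlib
-- import your own Cfsg.Agent.* helpers here

set_option autoImplicit false
open Cfsg

namespace Cfsg.Agent.S4152

theorem exists_split (π : Set ℕ) : ∀ M : ℕ, M ≠ 0 → ∃ A B : ℕ, M = A * B ∧
    (∀ q : ℕ, q.Prime → q ∣ A → q ∈ π) ∧ (∀ q : ℕ, q.Prime → q ∣ B → q ∉ π) := by
  intro M
  induction M using Nat.strong_induction_on with
  | _ M ih =>
    intro hM
    by_cases h1 : M = 1
    · refine ⟨1, 1, by simp [h1], fun q hq h => absurd (Nat.dvd_one.mp h) hq.ne_one,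
        fun q hq h => absurd (Nat.dvd_one.mp h) hq.ne_one⟩
    · have hq := Nat.minFac_prime h1
      obtain ⟨e, n, hn, hM'⟩ := Nat.exists_eq_pow_mul_and_not_dvd hM M.minFac hq.ne_one
      have he : e ≠ 0 := by
        rintro rfl
        rw [pow_zero, one_mul] at hM'
        rw [← hM'] at hn
        exact hn (Nat.minFac_dvd M)
      have hn0 : n ≠ 0 := by
        rintro rfl
        simp at hM'
        exact hM hM'
      have hlt : n < M := by
        have h2 : 2 ≤ M.minFac ^ e := by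
          calc 2 ≤ M.minFac := hq.two_le
            _ = M.minFac ^ 1 := (pow_one _).symm
            _ ≤ M.minFac ^ e := Nat.pow_le_pow_right hq.pos (Nat.one_le_iff_ne_zero.mpr he)
        have : M = M.minFac ^ e * n := hM'
        have hnpos := Nat.pos_of_ne_zero hn0
        nlinarith
      obtain ⟨a, b, hab, ha, hb⟩ := ih n hlt hn0
      by_cases hqπ : M.minFac ∈ π
      · refine ⟨M.minFac ^ e * a, b, by rw [mul_assoc, ← hab]; exact hM', ?_, hb⟩
        intro r hr hd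
        rcases (Nat.Prime.dvd_mul hr).1 hd with h | h
        · rw [(Nat.prime_dvd_prime_iff_eq hr hq).1 (hr.dvd_of_dvd_pow h)]
          exact hqπ
        · exact ha r hr h
      · refine ⟨a, M.minFac ^ e * b, ?_, ha, ?_⟩
        · rw [mul_left_comm, ← hab]; exact hM'
        · intro r hr hd
          rcases (Nat.Prime.dvd_mul hr).1 hd with h | h
          · rw [(Nat.prime_dvd_prime_iff_eq hr hq).1 (hr.dvd_of_dvd_pow h)]
            exact hqπ
          · exact hb r hr h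

/-- The element has order divisible only by primes in `π`. -/
def IsPi {K : Type*} [Group K] (π : Set ℕ) (x : K) : Prop :=
  ∀ q : ℕ, q.Prime → q ∣ orderOf x → q ∈ π

theorem isPi_iff {K : Type*} [Group K] {π : Set ℕ} {A B : ℕ}
    (hA : ∀ q : ℕ, q.Prime → q ∣ A → q ∈ π) (hB : ∀ q : ℕ, q.Prime → q ∣ B → q ∉ π)
    {x : K} (hx : x ^ (A * B) = 1) : IsPi π x ↔ x ^ A = 1 := by
  constructor
  · intro h
    have h1 : orderOf x ∣ A * B := orderOf_dvd_of_pow_eq_one hx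
    have h2 : Nat.Coprime (orderOf x) B := by
      apply Nat.coprime_of_dvd
      intro k hk h3 h4
      exact hB k hk h4 (h k hk h3)
    exact orderOf_dvd_iff_pow_eq_one.mp (h2.dvd_of_dvd_mul_right h1)
  · intro h q hq hd
    exact hA q hq (hd.trans (orderOf_dvd_of_pow_eq_one h))

theorem class_pred_mk {K : Type*} [Group K] (π : Set ℕ) (x : K) :
    (∀ q : ℕ, q.Prime → (∃ g : K, ConjClasses.mk g = ConjClasses.mk x ∧ q ∣ orderOf g) → q ∈ π)
      ↔ IsPi π x := by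
  constructor
  · intro h q hq hd
    exact h q hq ⟨x, rfl, hd⟩
  · rintro h q hq ⟨g, hg, hd⟩
    obtain ⟨c, rfl⟩ := isConj_iff.mp (ConjClasses.mk_eq_mk_iff_isConj.mp hg).symm
    apply h q hq
    have : orderOf (c * x * c⁻¹) = orderOf x := (MulAut.conj c).orderOf_eq x
    rwa [this] at hd

section Main

variable {G : Type*} [Group G] (N : Subgroup G) [hN : N.Normal] (A : ℕ)

/-- The elements of the coset `gN` killed by `A`. -/
def Yy (g : G) : Type _ := {y : G // g⁻¹ * y ∈ N ∧ y ^ A = 1}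

instance (g : G) : MulAction N (Yy N A g) where
  smul n y := ⟨(n : G) * y.1 * (n : G)⁻¹, by
    have h1 : g⁻¹ * ((n : G) * y.1 * (n : G)⁻¹) = (g⁻¹ * n * g⁻¹⁻¹) * (g⁻¹ * y.1) * (n : G)⁻¹ := by
      group
    rw [h1]
    exact N.mul_mem (N.mul_mem (hN.conj_mem n n.2 g⁻¹) y.2.1) (N.inv_mem n.2), by
    rw [conj_pow, y.2.2, mul_one, mul_inv_cancel]⟩
  one_smul y := Subtype.ext (by show ((1 : N) : G) * y.1 * ((1 : N) : G)⁻¹ = y.1; simp)
  mul_smul a b y := Subtype.ext (by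
    show ((a * b : N) : G) * y.1 * ((a * b : N) : G)⁻¹ = (a : G) * ((b : G) * y.1 * (b : G)⁻¹) * (a : G)⁻¹
    push_cast
    group)

theorem smul_val (g : G) (n : N) (y : Yy N A g) : (n • y).1 = (n : G) * y.1 * (n : G)⁻¹ := rfl

/-- Commuting pairs. -/
abbrev Ag (g : G) : Type _ := {p : N × G // g⁻¹ * p.2 ∈ N ∧ p.2 ^ A = 1 ∧ (p.1 : G) * p.2 = p.2 * p.1}

instance [Finite G] (g : G) : Finite (Yy N A g) := by
  unfold Yy
  infer_instance

instance [Finite G] (g : G) : Finite (Ag N A g) := by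
  unfold Ag
  infer_instance

instance [Finite G] (g : G) : Finite (MulAction.orbitRel.Quotient N (Yy N A g)) := by
  unfold MulAction.orbitRel.Quotient
  infer_instance

/-- Burnside's lemma. -/
theorem card_Ag [Finite G] (g : G) : Nat.card (Ag N A g)
    = Nat.card (MulAction.orbitRel.Quotient N (Yy N A g)) * Nat.card N := by
  have h1 := Nat.card_congr (MulAction.sigmaFixedByEquivOrbitsProdGroup N (Yy N A g))
  rw [Nat.card_prod] at h1
  rw [← h1]
  refine Nat.card_congr ⟨fun p => ⟨p.1.1, ⟨⟨p.1.2, p.2.1, p.2.2.1⟩, ?_⟩⟩,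
    fun q => ⟨⟨q.1, q.2.1.1⟩, q.2.1.2.1, q.2.1.2.2, ?_⟩, ?_, ?_⟩
  · apply Subtype.ext
    show (p.1.1 : G) * p.1.2 * (p.1.1 : G)⁻¹ = p.1.2
    rw [p.2.2.2, mul_inv_cancel_right]
  · have h2 : (q.1 • q.2.1).1 = q.2.1.1 := congrArg Subtype.val q.2.2
    rw [smul_val] at h2
    simpa [mul_inv_eq_iff_eq_mul] using h2
  · intro p
    rfl
  · intro q
    rfl

/-- The main injection: exponents `e₁ = B v`, `e₂ = A u`, `e₁ + e₂ = 1`. -/
theorem card_Ag_le [Finite G] {B : ℕ} {u v : ℤ} (he : (B : ℤ) * v + (A : ℤ) * u = 1)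
    (hexp : ∀ x : G, x ^ (A * B) = 1) (g : G) :
    Nat.card (Ag N A g) ≤ Nat.card (Ag N A 1) := by
  classical
  obtain ⟨e₁, he₁⟩ : ∃ e₁ : ℤ, e₁ = (B : ℤ) * v := ⟨_, rfl⟩
  obtain ⟨e₂, he₂⟩ : ∃ e₂ : ℤ, e₂ = (A : ℤ) * u := ⟨_, rfl⟩
  have hplus : e₁ + e₂ = 1 := by rw [he₁, he₂, he]
  have hpow : ∀ x : G, x ^ e₁ * x ^ e₂ = x := fun x => by rw [← zpow_add, hplus, zpow_one]
  have hxA : ∀ x : G, (x ^ e₁) ^ A = 1 := by
    intro x
    rw [← zpow_natCast, ← zpow_mul]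
    have : e₁ * (A : ℤ) = ((A * B : ℕ) : ℤ) * v := by
      rw [he₁]
      push_cast
      ring
    rw [this, zpow_mul, zpow_natCast, hexp, one_zpow]
  have hyA : ∀ y : G, y ^ A = 1 → y ^ e₂ = 1 := by
    intro y hy
    rw [he₂, zpow_mul, zpow_natCast, hy, one_zpow]
  have hyA1 : ∀ y : G, y ^ A = 1 → y ^ e₁ = y := by
    intro y hy
    have := hpow y
    rwa [hyA y hy, mul_one] at this
  have htB : ∀ x : G, (x ^ e₂) ^ e₁ = 1 := by
    intro x
    rw [← zpow_mul]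
    have : e₂ * e₁ = ((A * B : ℕ) : ℤ) * (u * v) := by
      rw [he₁, he₂]
      push_cast
      ring
    rw [this, zpow_mul, zpow_natCast, hexp, one_zpow]
  have htB1 : ∀ x : G, (x ^ e₂) ^ e₂ = x ^ e₂ := by
    intro x
    have := hpow (x ^ e₂)
    rwa [htB x, one_mul] at this
  -- recovering `y` and `t` from `y * t`
  have hrec : ∀ n y : G, n * y = y * n → y ^ A = 1 → (y * n ^ e₂) ^ e₁ = y := by
    intro n y hc hy
    have h1 : Commute y (n ^ e₂) := (show Commute n y from hc).symm.zpow_right e₂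
    rw [h1.mul_zpow, hyA1 y hy, htB, mul_one]
  have hrec2 : ∀ n y : G, n * y = y * n → y ^ A = 1 → (y * n ^ e₂) ^ e₂ = n ^ e₂ := by
    intro n y hc hy
    have h1 : Commute y (n ^ e₂) := (show Commute n y from hc).symm.zpow_right e₂
    rw [h1.mul_zpow, hyA y hy, htB1, one_mul]
  let y₀ : G → G := fun x => if h : ∃ y' : G, g⁻¹ * y' ∈ N ∧ x * y' = y' * x then h.choose else 1
  have hy₀ : ∀ (x y' : G), g⁻¹ * y' ∈ N → x * y' = y' * x →
      g⁻¹ * y₀ x ∈ N ∧ x * y₀ x = y₀ x * x := by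
    intro x y' h1 h2
    have h : ∃ y' : G, g⁻¹ * y' ∈ N ∧ x * y' = y' * x := ⟨y', h1, h2⟩
    simp only [y₀, dif_pos h]
    exact h.choose_spec
  -- facts for a pair
  have hfacts : ∀ p : Ag N A g, g⁻¹ * ((p.1.2) * ((p.1.1 : G) ^ e₂)) ∈ N ∧
      ((p.1.1 : G) ^ e₁) * ((p.1.2) * ((p.1.1 : G) ^ e₂))
        = ((p.1.2) * ((p.1.1 : G) ^ e₂)) * ((p.1.1 : G) ^ e₁) := by
    intro p
    constructor
    · rw [← mul_assoc]
      exact N.mul_mem p.2.1 (N.zpow_mem p.1.1.2 e₂)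
    · have hc : Commute (p.1.1 : G) p.1.2 := p.2.2.2
      have h1 : Commute ((p.1.1 : G) ^ e₁) p.1.2 := hc.zpow_left e₁
      have h2 : Commute ((p.1.1 : G) ^ e₁) ((p.1.1 : G) ^ e₂) :=
        (Commute.refl (p.1.1 : G)).zpow_zpow e₁ e₂
      exact h1.mul_right h2
  have hF : ∀ p : Ag N A g,
      (y₀ ((p.1.1 : G) ^ e₁))⁻¹ * ((p.1.2) * ((p.1.1 : G) ^ e₂)) ∈ N := by
    intro p
    obtain ⟨h1, h2⟩ := hfacts p
    obtain ⟨h3, -⟩ := hy₀ _ _ h1 h2
    have : (y₀ ((p.1.1 : G) ^ e₁))⁻¹ * ((p.1.2) * ((p.1.1 : G) ^ e₂))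
        = (g⁻¹ * y₀ ((p.1.1 : G) ^ e₁))⁻¹ * (g⁻¹ * ((p.1.2) * ((p.1.1 : G) ^ e₂))) := by group
    rw [this]
    exact N.mul_mem (N.inv_mem h3) h1
  let F : Ag N A g → Ag N A 1 := fun p =>
    ⟨(⟨_, hF p⟩, (p.1.1 : G) ^ e₁), by
      show (1 : G)⁻¹ * (p.1.1 : G) ^ e₁ ∈ N
      rw [inv_one, one_mul]
      exact N.zpow_mem p.1.1.2 e₁, hxA _, by
      obtain ⟨h1, h2⟩ := hfacts p
      obtain ⟨-, h3⟩ := hy₀ _ _ h1 h2
      have h4 : Commute ((p.1.1 : G) ^ e₁) (y₀ ((p.1.1 : G) ^ e₁)) := h3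
      have h5 : Commute ((p.1.1 : G) ^ e₁) ((p.1.2) * ((p.1.1 : G) ^ e₂)) := h2
      exact ((h4.inv_right).mul_right h5).symm⟩
  refine Nat.card_le_card_of_injective F ?_
  intro p q hpq
  have h1 : (p.1.1 : G) ^ e₁ = (q.1.1 : G) ^ e₁ := congrArg (fun r : Ag N A 1 => r.1.2) hpq
  have h2 : (y₀ ((p.1.1 : G) ^ e₁))⁻¹ * ((p.1.2) * ((p.1.1 : G) ^ e₂))
      = (y₀ ((q.1.1 : G) ^ e₁))⁻¹ * ((q.1.2) * ((q.1.1 : G) ^ e₂)) :=
    congrArg (fun r : Ag N A 1 => (r.1.1 : G)) hpq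
  rw [h1] at h2
  have h3 := mul_left_cancel h2
  have h4 : p.1.2 = q.1.2 := by
    have : ((p.1.2) * ((p.1.1 : G) ^ e₂)) ^ e₁ = ((q.1.2) * ((q.1.1 : G) ^ e₂)) ^ e₁ := by rw [h3]
    rwa [hrec _ _ p.2.2.2 p.2.2.1, hrec _ _ q.2.2.2 q.2.2.1] at this
  have h5 : (p.1.1 : G) ^ e₂ = (q.1.1 : G) ^ e₂ := by
    have : ((p.1.2) * ((p.1.1 : G) ^ e₂)) ^ e₂ = ((q.1.2) * ((q.1.1 : G) ^ e₂)) ^ e₂ := by rw [h3]
    rwa [hrec2 _ _ p.2.2.2 p.2.2.1, hrec2 _ _ q.2.2.2 q.2.2.1] at this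
  have h6 : (p.1.1 : G) = q.1.1 := by
    rw [← hpow (p.1.1 : G), ← hpow (q.1.1 : G), h1, h5]
  exact Subtype.ext (Prod.ext (Subtype.ext h6) h4)

/-- The number of orbits on a coset is at most the number of orbits on `N`. -/
theorem card_orbits_le [Finite G] {B : ℕ} {u v : ℤ} (he : (B : ℤ) * v + (A : ℤ) * u = 1)
    (hexp : ∀ x : G, x ^ (A * B) = 1) (g : G) :
    Nat.card (MulAction.orbitRel.Quotient N (Yy N A g))
      ≤ Nat.card (MulAction.orbitRel.Quotient N (Yy N A 1)) := by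
  have h1 := card_Ag_le N A he hexp g
  rw [card_Ag, card_Ag] at h1
  exact Nat.le_of_mul_le_mul_right h1 Nat.card_pos

end Main


/-- Let G be a finite group, N a normal subgroup and π a set of primes. Then the number of conjugacy classes of π-elements of G (elements whose order is divisible only by primes in π) is at most the number of conjugacy classes of π-elements of N (under conjugation by N) times the number of conjugacy classes of π-elements of G/N. -/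
theorem result {G : Type*} [Group G] [Finite G] (N : Subgroup G) [N.Normal] (π : Set ℕ) :
    Nat.card {C : ConjClasses G // ∀ q : ℕ, q.Prime → (∃ g : G, ConjClasses.mk g = C ∧ q ∣ orderOf g) → q ∈ π} ≤ Nat.card {C : ConjClasses N // ∀ q : ℕ, q.Prime → (∃ g : N, ConjClasses.mk g = C ∧ q ∣ orderOf g) → q ∈ π} * Nat.card {C : ConjClasses (G ⧸ N) // ∀ q : ℕ, q.Prime → (∃ g : (G ⧸ N), ConjClasses.mk g = C ∧ q ∣ orderOf g) → q ∈ π} := by
  classical
  obtain ⟨A, B, hAB, hA, hB⟩ := exists_split π (Nat.card G) Nat.card_pos.ne'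
  have hexp : ∀ x : G, x ^ (A * B) = 1 := fun x => by rw [← hAB]; exact pow_card_eq_one'
  have hexpN : ∀ n : N, n ^ (A * B) = 1 := fun n => Subtype.ext (by simp [hexp])
  have hexpQ : ∀ q : G ⧸ N, q ^ (A * B) = 1 := by
    intro q
    obtain ⟨x, rfl⟩ := QuotientGroup.mk_surjective q
    rw [← QuotientGroup.mk_pow, hexp]
    rfl
  have hcop : Nat.Coprime A B := by
    apply Nat.coprime_of_dvd
    intro k hk h3 h4
    exact hB k hk h4 (hA k hk h3)
  have he : (B : ℤ) * (Nat.gcdB A B) + (A : ℤ) * (Nat.gcdA A B) = 1 := by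
    have := Nat.gcd_eq_gcd_ab A B
    rw [hcop] at this
    push_cast at this
    linarith
  have hpredG : ∀ y : G, (∀ q : ℕ, q.Prime → (∃ g : G, ConjClasses.mk g = ConjClasses.mk y ∧
      q ∣ orderOf g) → q ∈ π) ↔ y ^ A = 1 := fun y =>
    (class_pred_mk π y).trans (isPi_iff hA hB (hexp y))
  have hpredN : ∀ y : N, (∀ q : ℕ, q.Prime → (∃ g : N, ConjClasses.mk g = ConjClasses.mk y ∧
      q ∣ orderOf g) → q ∈ π) ↔ y ^ A = 1 := fun y =>
    (class_pred_mk π y).trans (isPi_iff hA hB (hexpN y))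
  have hpredQ : ∀ y : G ⧸ N, (∀ q : ℕ, q.Prime → (∃ g : G ⧸ N, ConjClasses.mk g = ConjClasses.mk y ∧
      q ∣ orderOf g) → q ∈ π) ↔ y ^ A = 1 := fun y =>
    (class_pred_mk π y).trans (isPi_iff hA hB (hexpQ y))
  -- the map on classes
  let f : {C : ConjClasses G // ∀ q : ℕ, q.Prime → (∃ g : G, ConjClasses.mk g = C ∧ q ∣ orderOf g) → q ∈ π} →
      {C : ConjClasses (G ⧸ N) // ∀ q : ℕ, q.Prime → (∃ g : (G ⧸ N), ConjClasses.mk g = C ∧ q ∣ orderOf g) → q ∈ π} :=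
    fun C => ⟨ConjClasses.map (QuotientGroup.mk' N) C.1, by
      obtain ⟨C, hC⟩ := C
      obtain ⟨y, rfl⟩ := ConjClasses.mk_surjective C
      have h1 := (hpredG y).1 hC
      show ∀ q : ℕ, q.Prime → (∃ g : G ⧸ N, ConjClasses.mk g = ConjClasses.mk (y : G ⧸ N) ∧
        q ∣ orderOf g) → q ∈ π
      rw [hpredQ, ← QuotientGroup.mk_pow, h1]
      rfl⟩
  -- bound on fibres
  have hfib : ∀ c, Nat.card {C // f C = c} ≤ Nat.card {C : ConjClasses N // ∀ q : ℕ, q.Prime → (∃ g : N, ConjClasses.mk g = C ∧ q ∣ orderOf g) → q ∈ π} := by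
    rintro ⟨c, hc⟩
    obtain ⟨c', rfl⟩ := ConjClasses.mk_surjective c
    obtain ⟨g, rfl⟩ := QuotientGroup.mk_surjective c'
    have hex : ∀ C : {C // f C = ⟨ConjClasses.mk (g : G ⧸ N), hc⟩}, ∃ y : Yy N A g,
        ConjClasses.mk y.1 = C.1.1 := by
      rintro ⟨⟨C, hC⟩, hCf⟩
      obtain ⟨y, rfl⟩ := ConjClasses.mk_surjective C
      have h1 := (hpredG y).1 hC
      have h2 : ConjClasses.mk (y : G ⧸ N) = ConjClasses.mk (g : G ⧸ N) :=
        congrArg Subtype.val hCf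
      obtain ⟨c₁, hc₁⟩ := isConj_iff.mp (ConjClasses.mk_eq_mk_iff_isConj.mp h2)
      obtain ⟨h, rfl⟩ := QuotientGroup.mk_surjective c₁
      have h3 : ((h * y * h⁻¹ : G) : G ⧸ N) = (g : G ⧸ N) := hc₁
      refine ⟨⟨h * y * h⁻¹, QuotientGroup.eq.mp h3.symm, ?_⟩, ?_⟩
      · rw [conj_pow, h1, mul_one, mul_inv_cancel]
      · rw [ConjClasses.mk_eq_mk_iff_isConj]
        exact (isConj_iff.mpr ⟨h, rfl⟩).symm
    choose ι hι using hex
    have h1 : Nat.card {C // f C = ⟨ConjClasses.mk (g : G ⧸ N), hc⟩}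
        ≤ Nat.card (MulAction.orbitRel.Quotient N (Yy N A g)) := by
      refine Nat.card_le_card_of_injective
        (fun C => (Quotient.mk'' (ι C) : MulAction.orbitRel.Quotient N (Yy N A g))) ?_
      intro C C' hCC
      have h2 : ι C ∈ MulAction.orbit N (ι C') := by
        have := Quotient.eq''.mp hCC
        exact this
      obtain ⟨n, hn⟩ := h2
      apply Subtype.ext
      apply Subtype.ext
      rw [← hι C, ← hι C', ← hn, ConjClasses.mk_eq_mk_iff_isConj]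
      exact (isConj_iff.mpr ⟨(n : G), (smul_val N A g n (ι C')).symm⟩).symm
    refine h1.trans ((card_orbits_le N A he hexp g).trans ?_)
    -- orbits on `N`
    have hout : ∀ ω : MulAction.orbitRel.Quotient N (Yy N A 1),
        (Quotient.out ω).1 ∈ N := by
      intro ω
      have := (Quotient.out ω).2.1
      simpa using this
    have hpred : ∀ ω : MulAction.orbitRel.Quotient N (Yy N A 1),
        ∀ q : ℕ, q.Prime → (∃ g : N, ConjClasses.mk g = ConjClasses.mk (⟨(Quotient.out ω).1, hout ω⟩ : N) ∧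
          q ∣ orderOf g) → q ∈ π := by
      intro ω
      rw [hpredN]
      apply Subtype.ext
      simpa using (Quotient.out ω).2.2
    refine Nat.card_le_card_of_injective (fun ω => ⟨ConjClasses.mk (⟨(Quotient.out ω).1, hout ω⟩ : N),
      hpred ω⟩) ?_
    intro ω ω' hω
    have h2 : ConjClasses.mk (⟨(Quotient.out ω).1, hout ω⟩ : N)
        = ConjClasses.mk (⟨(Quotient.out ω').1, hout ω'⟩ : N) := congrArg Subtype.val hω
    obtain ⟨c₁, hc₁⟩ := isConj_iff.mp (ConjClasses.mk_eq_mk_iff_isConj.mp h2)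
    have h3 : (c₁ : G) * (Quotient.out ω).1 * (c₁ : G)⁻¹ = (Quotient.out ω').1 :=
      congrArg Subtype.val hc₁
    rw [← Quotient.out_eq ω, ← Quotient.out_eq ω']
    apply Quotient.sound
    show _ ∈ MulAction.orbit N _
    refine ⟨c₁⁻¹, Subtype.ext ?_⟩
    rw [smul_val, ← h3]
    push_cast
    group
  haveI : Fintype {C : ConjClasses G // ∀ q : ℕ, q.Prime → (∃ g : G, ConjClasses.mk g = C ∧ q ∣ orderOf g) → q ∈ π} := Fintype.ofFinite _
  haveI : Fintype {C : ConjClasses (G ⧸ N) // ∀ q : ℕ, q.Prime → (∃ g : (G ⧸ N), ConjClasses.mk g = C ∧ q ∣ orderOf g) → q ∈ π} := Fintype.ofFinite _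
  rw [Nat.card_eq_fintype_card (α := {C : ConjClasses G // _}),
    Nat.card_eq_fintype_card (α := {C : ConjClasses (G ⧸ N) // _})]
  refine Finset.card_le_mul_card_image_of_maps_to (f := f) (s := Finset.univ) (t := Finset.univ)
    (fun _ _ => Finset.mem_univ _) _ ?_
  intro c _
  have := hfib c
  rw [Nat.card_eq_fintype_card (α := {C // f C = c}), Fintype.card_subtype] at this
  exact this

end Cfsg.Agent.S4152
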