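import Cfsg.Statements.S4153
import Mathlib
-- import your own Cfsg.Agent.* helpers here

set_option autoImplicit false
open Cfsg

namespace Cfsg.Agent.S4153

/-- Let G be a finite group, p a prime, N a normal subgroup, P a Sylow p-subgroup of G and P̄ a Sylow p-subgroup of G/N. Count the elements of p-power order, the identity included. Then (number of such elements of G/N)/#P̄ ≤ (number of such elements of G)/#P, stated as a cross-multiplied inequality, with equality when N is central. -/
theorem result {G : Type*} [Group G] [Finite G] (p : ℕ) [Fact p.Prime] (N : Subgroup G) [N.Normal]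
    (P : Sylow p G) (Pbar : Sylow p (G ⧸ N)) :
    Nat.card {g : (G ⧸ N) // ∃ k : ℕ, orderOf g = p ^ k} * Nat.card (P : Subgroup G) ≤ Nat.card {g : G // ∃ k : ℕ, orderOf g = p ^ k} * Nat.card (Pbar : Subgroup (G ⧸ N)) ∧
    (N ≤ Subgroup.center G → Nat.card {g : (G ⧸ N) // ∃ k : ℕ, orderOf g = p ^ k} * Nat.card (P : Subgroup G) = Nat.card {g : G // ∃ k : ℕ, orderOf g = p ^ k} * Nat.card (Pbar : Subgroup (G ⧸ N))) := by
  classical
  have hp : p.Prime := Fact.out
  let π : G →* G ⧸ N := QuotientGroup.mk' N
  have hπs : Function.Surjective π := QuotientGroup.mk'_surjective N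
  -- elements of a `p`-subgroup have `p`-power order
  have hord : ∀ {H : Type _} [Group H] (S : Subgroup H), IsPGroup p S → ∀ x ∈ S, ∃ k : ℕ, orderOf x = p ^ k := by
    intro H _ S hS x hx
    obtain ⟨k, hk⟩ := hS ⟨x, hx⟩
    have h1 : x ^ p ^ k = 1 := by
      have := congrArg Subtype.val hk
      simpa using this
    obtain ⟨j, _, hj⟩ := (Nat.dvd_prime_pow hp).1 (orderOf_dvd_of_pow_eq_one h1)
    exact ⟨j, hj⟩
  -- elements of `p`-power order generate a `p`-group
  have hzp : ∀ {H : Type _} [Group H] (x : H), (∃ k : ℕ, orderOf x = p ^ k) → IsPGroup p (Subgroup.zpowers x) := by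
    intro H _ x ⟨k, hk⟩
    rintro ⟨y, m, rfl⟩
    refine ⟨k, Subtype.ext ?_⟩
    simp only [SubgroupClass.coe_pow, OneMemClass.coe_one]
    rw [← zpow_natCast, ← zpow_mul, mul_comm, zpow_mul, zpow_natCast, ← hk, pow_orderOf_eq_one]
    simp
  let A := {g : G // ∃ k : ℕ, orderOf g = p ^ k}
  let B := {g : (G ⧸ N) // ∃ k : ℕ, orderOf g = p ^ k}
  have hmapord : ∀ g : G, (∃ k : ℕ, orderOf g = p ^ k) → ∃ k : ℕ, orderOf (π g) = p ^ k := by
    rintro g ⟨k, hk⟩
    have h1 : orderOf (π g) ∣ p ^ k := hk ▸ orderOf_map_dvd π g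
    obtain ⟨j, _, hj⟩ := (Nat.dvd_prime_pow hp).1 h1
    exact ⟨j, hj⟩
  let f : A → B := fun a => ⟨π a.1, hmapord a.1 a.2⟩
  haveI : Fintype B := Fintype.ofFinite B
  have hsum : Nat.card A = ∑ b : B, Nat.card {a : A // f a = b} := by
    rw [← Nat.card_sigma]
    exact Nat.card_congr (Equiv.sigmaFiberEquiv f).symm
  -- the subgroup `P ⊓ N`
  let D : Subgroup G := (P : Subgroup G) ⊓ N
  -- lower bound on fibers
  have hlower : ∀ b : B, Nat.card D ≤ Nat.card {a : A // f a = b} := by
    intro b
    -- conjugate `b` into the image of `P`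
    let Pm : Sylow p (G ⧸ N) := P.mapSurjective hπs
    obtain ⟨R, hR⟩ := (hzp b.1 b.2).exists_le_sylow
    obtain ⟨gb, hgb⟩ := MulAction.exists_smul_eq (G ⧸ N) R Pm
    obtain ⟨g, rfl⟩ := hπs gb
    have hbR : b.1 ∈ R := hR (Subgroup.mem_zpowers _)
    have hconj : π g * b.1 * (π g)⁻¹ ∈ (Pm : Subgroup (G ⧸ N)) := by
      rw [← hgb]
      have : π g * b.1 * (π g)⁻¹ = MulAut.conj (π g) b.1 := rfl
      rw [this]
      have h2 : (MulAut.conj (π g) b.1) ∈ (((π g) • R : Sylow p (G ⧸ N)) : Set (G ⧸ N)) := by
        rw [Sylow.coe_smul]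
        exact Set.smul_mem_smul_set (a := MulAut.conj (π g)) hbR
      exact h2
    have hPm : (Pm : Subgroup (G ⧸ N)) = (P : Subgroup G).map π := rfl
    rw [hPm] at hconj
    obtain ⟨u, huP, hu⟩ := hconj
    have hbeq : ∀ n ∈ N, π (g⁻¹ * (u * n) * g) = b.1 := by
      intro n hn
      have hn1 : π n = 1 := (QuotientGroup.eq_one_iff n).mpr hn
      rw [map_mul, map_mul, map_mul, hn1, map_inv, hu]
      group
    let ι : D → {a : A // f a = b} := fun n =>
      ⟨⟨g⁻¹ * (u * n.1) * g, by
        have hmem : u * n.1 ∈ (P : Subgroup G) := mul_mem huP n.2.1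
        obtain ⟨k, hk⟩ := hord (P : Subgroup G) P.isPGroup' _ hmem
        refine ⟨k, ?_⟩
        have hc : g⁻¹ * (u * n.1) * g = MulAut.conj g⁻¹ (u * n.1) := by
          simp [MulAut.conj_apply]
        rw [hc, MulEquiv.orderOf_eq, hk]⟩,
       Subtype.ext (hbeq n.1 n.2.2)⟩
    refine Nat.card_le_card_of_injective ι ?_
    intro n n' h
    have h' : g⁻¹ * (u * n.1) * g = g⁻¹ * (u * n'.1) * g := congrArg (fun x : {a : A // f a = b} => x.1.1) h
    apply Subtype.ext
    simpa using h'
  -- the orders of the Sylow subgroups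
  have hPcard : Nat.card (P : Subgroup G) = Nat.card (Pbar : Subgroup (G ⧸ N)) * Nat.card D := by
    let Pm : Sylow p (G ⧸ N) := P.mapSurjective hπs
    have h1 : Nat.card (Pbar : Subgroup (G ⧸ N)) = Nat.card ((P : Subgroup G).map π) := by
      obtain ⟨x, hx⟩ := MulAction.exists_smul_eq (G ⧸ N) Pbar Pm
      have hm : ((P : Subgroup G).map π) = (Pm : Subgroup (G ⧸ N)) := rfl
      rw [hm, ← hx]
      exact Nat.card_congr (Pbar.equivSMul x).toEquiv
    let r : (P : Subgroup G) →* G ⧸ N := π.comp (P : Subgroup G).subtype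
    have hker : Nat.card r.ker = Nat.card D := by
      refine Nat.card_congr ⟨fun x => ⟨x.1.1, x.1.2, ?_⟩, fun x => ⟨⟨x.1, x.2.1⟩, ?_⟩, ?_, ?_⟩
      · have hx := x.2
        rw [MonoidHom.mem_ker] at hx
        exact (QuotientGroup.eq_one_iff _).mp hx
      · rw [MonoidHom.mem_ker]
        exact (QuotientGroup.eq_one_iff _).mpr x.2.2
      · intro x; rfl
      · intro x; rfl
    have hrange : Nat.card r.range = Nat.card ((P : Subgroup G).map π) := by
      have : r.range = (P : Subgroup G).map π := by
        ext y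
        constructor
        · rintro ⟨x, rfl⟩
          exact ⟨x.1, x.2, rfl⟩
        · rintro ⟨x, hx, rfl⟩
          exact ⟨⟨x, hx⟩, rfl⟩
      rw [this]
    rw [Subgroup.card_eq_card_quotient_mul_card_subgroup r.ker, hker, h1, ← hrange]
    congr 1
    exact Nat.card_congr (QuotientGroup.quotientKerEquivRange r).toEquiv
  have hDpos : 0 < Nat.card D := Nat.card_pos
  constructor
  · have hge : Nat.card B * Nat.card D ≤ Nat.card A := by
      rw [hsum, Nat.card_eq_fintype_card, ← smul_eq_mul, ← Finset.card_univ, ← Finset.sum_const]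
      exact Finset.sum_le_sum fun b _ => hlower b
    rw [hPcard]
    calc Nat.card B * (Nat.card (Pbar : Subgroup (G ⧸ N)) * Nat.card D)
        = (Nat.card B * Nat.card D) * Nat.card (Pbar : Subgroup (G ⧸ N)) := by ring
      _ ≤ Nat.card A * Nat.card (Pbar : Subgroup (G ⧸ N)) := Nat.mul_le_mul_right _ hge
  · intro hNc
    have hupper : ∀ b : B, Nat.card {a : A // f a = b} ≤ Nat.card D := by
      intro b
      by_cases hne : Nonempty {a : A // f a = b}
      · obtain ⟨y0⟩ := hne
        have hy0 : π y0.1.1 = b.1 := congrArg Subtype.val y0.2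
        have hn : ∀ y : {a : A // f a = b}, y0.1.1⁻¹ * y.1.1 ∈ N := by
          intro y
          have hy : π y.1.1 = b.1 := congrArg Subtype.val y.2
          apply (QuotientGroup.eq_one_iff _).mp
          change π (y0.1.1⁻¹ * y.1.1) = 1
          rw [map_mul, map_inv, hy0, hy]
          simp
        let ι : {a : A // f a = b} → D := fun y => ⟨y0.1.1⁻¹ * y.1.1, by
          refine ⟨?_, hn y⟩
          set n := y0.1.1⁻¹ * y.1.1 with hndef
          have hnc : n ∈ Subgroup.center G := hNc (hn y)
          -- `n` has `p`-power order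
          obtain ⟨k, hk⟩ := y0.1.2
          obtain ⟨m, hm⟩ := y.1.2
          have hcomm : Commute y0.1.1⁻¹ y.1.1 := by
            have h1 : y.1.1 = y0.1.1 * n := by rw [hndef]; group
            have h2 : Commute y0.1.1 n := (Subgroup.mem_center_iff.mp hnc y0.1.1)
            rw [h1]
            exact ((Commute.refl _).mul_right h2).inv_left
          have hpow : n ^ (p ^ (k + m)) = 1 := by
            rw [hndef, hcomm.mul_pow, inv_pow]
            have h3 : y0.1.1 ^ p ^ (k + m) = 1 := by
              rw [pow_add, pow_mul, ← hk, pow_orderOf_eq_one, one_pow]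
            have h4 : y.1.1 ^ p ^ (k + m) = 1 := by
              rw [add_comm, pow_add, pow_mul, ← hm, pow_orderOf_eq_one, one_pow]
            rw [h3, h4]
            simp
          obtain ⟨j, _, hj⟩ := (Nat.dvd_prime_pow hp).1 (orderOf_dvd_of_pow_eq_one hpow)
          have hzn : IsPGroup p (Subgroup.zpowers n) := hzp n ⟨j, hj⟩
          have hnorm : n ∈ Subgroup.normalizer (P : Subgroup G) := by
            rw [Subgroup.mem_normalizer_iff]
            intro h
            have hcn : n * h * n⁻¹ = h := by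
              rw [← (Subgroup.mem_center_iff.mp hnc h)]
              group
            rw [hcn]
          have hmem : n ∈ Subgroup.zpowers n ⊓ (P : Subgroup G) := by
            rw [← hzn.inf_normalizer_sylow P]
            exact ⟨Subgroup.mem_zpowers n, hnorm⟩
          exact hmem.2⟩
        refine Nat.card_le_card_of_injective ι ?_
        intro y y' h
        have h' : y0.1.1⁻¹ * y.1.1 = y0.1.1⁻¹ * y'.1.1 := congrArg Subtype.val h
        have h'' := mul_left_cancel h'
        exact Subtype.ext (Subtype.ext h'')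
      · rw [not_nonempty_iff] at hne
        rw [Nat.card_of_isEmpty]
        exact Nat.zero_le _
    have heq : Nat.card A = Nat.card B * Nat.card D := by
      rw [hsum, Nat.card_eq_fintype_card, ← smul_eq_mul, ← Finset.card_univ, ← Finset.sum_const]
      exact Finset.sum_congr rfl fun b _ => le_antisymm (hupper b) (hlower b)
    rw [hPcard, heq]
    ring

end Cfsg.Agent.S4153
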