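import Cfsg.Statements.S4154
import Mathlib
-- import your own Cfsg.Agent.* helpers here

set_option autoImplicit false
open Cfsg

namespace Cfsg.Agent.S4154

/-- Let G be a finite group and α an automorphism of G such that every element of G is the product of an element fixed by α and an element of the form g⁻¹α(g). If N is a normal α-invariant subgroup, then the automorphism ᾱ induced on G/N has the same property, and every coset fixed by ᾱ contains an element fixed by α (so the fixed points of ᾱ are the images of the fixed points of α). -/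
theorem result {G : Type*} [Group G] [Finite G] (α : MulAut G)
    (hccp : ∀ x : G, ∃ c g : G, α c = c ∧ x = c * (g⁻¹ * α g))
    (N : Subgroup G) [N.Normal] (hN : ∀ n ∈ N, α n ∈ N) :
    (∀ x : G, ∃ c g : G, c⁻¹ * α c ∈ N ∧ x⁻¹ * (c * (g⁻¹ * α g)) ∈ N) ∧
    (∀ x : G, x⁻¹ * α x ∈ N → ∃ c : G, α c = c ∧ c⁻¹ * x ∈ N) := by
  classical
  refine ⟨fun x => ?_, fun x hx => ?_⟩
  · obtain ⟨c, g, hc, rfl⟩ := hccp x
    exact ⟨c, g, by simp [hc], by simp⟩
  · let π : G →* G ⧸ N := QuotientGroup.mk' N
    have hNle : N ≤ N.comap α.toMonoidHom := hN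
    let β : G ⧸ N →* G ⧸ N := QuotientGroup.map N N α.toMonoidHom hNle
    have hβ : ∀ g, β (π g) = π (α g) := fun g => rfl
    let Fbar : Subgroup (G ⧸ N) := MonoidHom.eqLocus β (MonoidHom.id _)
    let F : Subgroup G := MonoidHom.eqLocus α.toMonoidHom (MonoidHom.id G)
    let F' : Subgroup (G ⧸ N) := F.map π
    have hF'le : F' ≤ Fbar := by
      rintro _ ⟨c, hc, rfl⟩
      have hc' : α c = c := hc
      change β (π c) = π c
      rw [hβ, hc']
    let ψ : G ⧸ N → G ⧸ N := fun y => y⁻¹ * β y
    have h1 : Nat.card (Set.range ψ) * Nat.card Fbar ≤ Nat.card (G ⧸ N) := by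
      rw [← Nat.card_prod]
      choose y hy using (fun t : Set.range ψ => t.2)
      refine Nat.card_le_card_of_injective (fun p => (p.2 : G ⧸ N) * y p.1) ?_
      rintro ⟨t, f⟩ ⟨t', f'⟩ h
      simp only at h
      have hψ : ∀ (f : Fbar) (t : Set.range ψ), ψ ((f : G ⧸ N) * y t) = t := by
        intro f t
        have hf : β f = f := f.2
        simp only [ψ, map_mul, hf, mul_inv_rev]
        have : (y t)⁻¹ * (f : G ⧸ N)⁻¹ * ((f : G ⧸ N) * β (y t)) = (y t)⁻¹ * β (y t) := by group
        simp only [mul_assoc] at this ⊢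
        rw [this]
        exact hy t
      have ht : t = t' := by
        apply Subtype.ext
        rw [← hψ f t, ← hψ f' t', h]
      subst ht
      have hf : f = f' := by
        apply Subtype.ext
        exact mul_right_cancel h
      rw [hf]
    have h2 : Nat.card (G ⧸ N) ≤ Nat.card F' * Nat.card (Set.range ψ) := by
      rw [← Nat.card_prod]
      refine Nat.card_le_card_of_surjective (fun p => (p.1 : G ⧸ N) * p.2) ?_
      intro q
      obtain ⟨x, rfl⟩ := QuotientGroup.mk'_surjective N q
      obtain ⟨c, g, hc, rfl⟩ := hccp x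
      refine ⟨(⟨π c, ⟨c, hc, rfl⟩⟩, ⟨ψ (π g), ⟨π g, rfl⟩⟩), ?_⟩
      have : β (g : G ⧸ N) = ((α g : G) : G ⧸ N) := hβ g
      simp [ψ, π, this]
    have hT : 0 < Nat.card (Set.range ψ) := by
      have : Nonempty (Set.range ψ) := ⟨⟨ψ 1, ⟨1, rfl⟩⟩⟩
      exact Nat.card_pos
    have h3 : Nat.card Fbar ≤ Nat.card F' := by
      have : Nat.card (Set.range ψ) * Nat.card Fbar ≤ Nat.card (Set.range ψ) * Nat.card F' := by
        calc _ ≤ _ := h1
          _ ≤ _ := h2
          _ = _ := mul_comm _ _
      exact Nat.le_of_mul_le_mul_left this hT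
    have h4 : F' = Fbar := Subgroup.eq_of_le_of_card_ge hF'le h3
    have hx' : π x ∈ Fbar := by
      change β (π x) = π x
      rw [hβ]
      have : π x = π (α x) := QuotientGroup.eq.mpr hx
      exact this.symm
    rw [← h4] at hx'
    obtain ⟨c, hc, hcx⟩ := hx'
    exact ⟨c, hc, QuotientGroup.eq.mp hcx⟩

end Cfsg.Agent.S4154
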