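import Cfsg.Statements.S4155
import Mathlib
import Cfsg.Agent.Lib.Nilpotent.Fitting
import Cfsg.Agent.Lib.Frobenius.SylowFpf

set_option autoImplicit false
set_option linter.style.haveILetI false
open Cfsg

namespace Cfsg.Agent.S4155

open Cfsg.Agent.Lib.Nilpotent.Fitting Cfsg.Agent.Lib.Frobenius.SylowFpf

/-- Let G be a finite group and N a proper non-trivial normal nilpotent subgroup whose order is not a prime power, such that for every x outside N all elements of the coset xN have the same order as x. Then N is the Fitting subgroup of G, and for every prime q every Sylow q-subgroup of G/N is cyclic or generalized quaternion. -/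
theorem result {G : Type*} [Group G] [Finite G] (N : Subgroup G) [N.Normal] (hN1 : N ≠ ⊥) (hN2 : N ≠ ⊤)
    (heq : ∀ x : G, x ∉ N → ∀ n ∈ N, orderOf (x * n) = orderOf x)
    (hnil : Group.IsNilpotent N) (hnpp : ¬ IsPrimePow (Nat.card N)) :
    N = Cfsg.fittingSubgroup G ∧
    ∀ (q : ℕ) [Fact q.Prime] (Q : Sylow q (G ⧸ N)), IsCyclic (Q : Subgroup (G ⧸ N)) ∨ ∃ n : ℕ, Nonempty ((Q : Subgroup (G ⧸ N)) ≃* QuaternionGroup (2 ^ n)) := by
  classical
  -- commuting elements of coprime order
  have key : ∀ x k : G, x ∉ N → k ∈ N → x * k = k * x → (orderOf x).Coprime (orderOf k) → k = 1 := by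
    intro x k hx hk hc hcop
    have h1 := heq x hx k hk
    have hcomm : Commute x k := hc
    rw [hcomm.orderOf_mul_eq_mul_orderOf_of_coprime hcop] at h1
    have h2 : orderOf k = 1 :=
      Nat.eq_of_mul_eq_mul_left (orderOf_pos x) (by rw [h1, mul_one])
    exact orderOf_eq_one_iff.mp h2
  have hcardN : Nat.card N ≠ 1 := by
    intro h
    exact hN1 (Subgroup.card_eq_one.mp h)
  -- another prime
  have hother : ∀ t : ℕ, t.Prime → ∃ q : ℕ, q.Prime ∧ q ≠ t ∧ q ∣ Nat.card N := by
    intro t ht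
    by_contra hno
    push Not at hno
    apply hnpp
    have h1 : Nat.card N = t ^ (Nat.card N).primeFactorsList.length := by
      apply Nat.eq_prime_pow_of_unique_prime_dvd Nat.card_pos.ne'
      intro d hd hdvd
      by_contra hne
      exact hno d hd hne hdvd
    refine ⟨t, (Nat.card N).primeFactorsList.length, ht.prime, ?_, h1.symm⟩
    apply Nat.pos_of_ne_zero
    intro h0
    rw [h0, pow_zero] at h1
    exact hcardN h1
  -- `q`-elements of `N`
  have hqelt : ∀ q : ℕ, q.Prime → q ∣ Nat.card N → ∃ k ∈ N, orderOf k = q := by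
    intro q hq hdvd
    haveI : Fact q.Prime := ⟨hq⟩
    obtain ⟨k, hk⟩ := exists_prime_orderOf_dvd_card' (G := N) q hdvd
    exact ⟨k, k.2, by rw [Subgroup.orderOf_coe]; exact hk⟩
  have hdisj : ∀ p q : ℕ, p ≠ q → [Fact p.Prime] → [Fact q.Prime] → ∀ a ∈ Cfsg.pCore p G, ∀ b ∈ Cfsg.pCore q G, a = b → a = 1 := by
    intro p q hpq _ _ a ha b hb hab
    have h1 := IsPGroup.disjoint_of_ne p q hpq (Cfsg.pCore p G) (Cfsg.pCore q G) (isPGroup_pCore p) (isPGroup_pCore q)
    exact Subgroup.disjoint_def.mp h1 ha (hab ▸ hb)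
  have hcommCore : ∀ p q : ℕ, p ≠ q → [Fact p.Prime] → [Fact q.Prime] → ∀ a ∈ Cfsg.pCore p G, ∀ b ∈ Cfsg.pCore q G, a * b = b * a := by
    intro p q hpq _ _ a ha b hb
    have h1 : a * b * a⁻¹ * b⁻¹ ∈ Cfsg.pCore p G := by
      have := (pCore_normal q (G := G))
      have h2 : a * b * a⁻¹ * b⁻¹ = a * (b * a⁻¹ * b⁻¹) := by group
      rw [h2]
      exact Subgroup.mul_mem _ ha ((pCore_normal p).conj_mem _ (Subgroup.inv_mem _ ha) b)
    have h3 : a * b * a⁻¹ * b⁻¹ ∈ Cfsg.pCore q G :=
      Subgroup.mul_mem _ ((pCore_normal q).conj_mem _ hb a) (Subgroup.inv_mem _ hb)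
    have h4 := hdisj p q hpq _ h1 _ h3 rfl
    rw [mul_inv_eq_one, mul_inv_eq_iff_eq_mul] at h4
    exact h4
  constructor
  · -- the Fitting subgroup
    apply le_antisymm (le_fittingSubgroup hnil)
    intro x hx
    apply mem_of_forall_pow_ordCompl_mem
    intro p hp
    haveI : Fact p.Prime := ⟨hp⟩
    set y := x ^ (orderOf x / p ^ (orderOf x).factorization p) with hy
    have hyord : orderOf y = p ^ (orderOf x).factorization p := orderOf_pow_ordCompl x hp
    have hyF : y ∈ Cfsg.fittingSubgroup G := Subgroup.pow_mem _ hx _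
    have hyp : y ∈ Cfsg.pCore p G :=
      mem_pCore_of_mem_nilpotent_normal isNilpotent_fittingSubgroup hyF hyord
    by_contra hyN
    obtain ⟨q, hq, hqp, hqN⟩ := hother p hp
    haveI : Fact q.Prime := ⟨hq⟩
    obtain ⟨k, hkN, hk⟩ := hqelt q hq hqN
    have hkq : k ∈ Cfsg.pCore q G :=
      mem_pCore_of_mem_nilpotent_normal (k := 1) hnil hkN (by rw [hk, pow_one])
    have h1 := key y k hyN hkN (hcommCore p q hqp.symm y hyp k hkq) (by
      rw [hyord, hk]
      exact Nat.Coprime.pow_left _ ((Nat.coprime_primes hp hq).mpr hqp.symm))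
    rw [h1, orderOf_one] at hk
    exact hq.one_lt.ne hk
  · -- the Sylow subgroups of the quotient
    intro t _ Q
    have ht : t.Prime := Fact.out
    obtain ⟨q, hq, hqt, hqN⟩ := hother t ht
    haveI : Fact q.Prime := ⟨hq⟩
    let A : Subgroup G := N ⊓ Cfsg.pCore q G
    let R : Subgroup G := N ⊓ Cfsg.pCore t G
    haveI hAn : A.Normal := Subgroup.normal_inf_normal _ _
    haveI hRn : R.Normal := Subgroup.normal_inf_normal _ _
    let π : G →* G ⧸ N := QuotientGroup.mk' N
    let π' : G →* G ⧸ R := QuotientGroup.mk' R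
    have hπ : Function.Surjective π := QuotientGroup.mk'_surjective N
    have hπ' : Function.Surjective π' := QuotientGroup.mk'_surjective R
    have hπ1 : ∀ x, π x = 1 ↔ x ∈ N := fun x => QuotientGroup.eq_one_iff x
    have hπ'1 : ∀ x, π' x = 1 ↔ x ∈ R := fun x => QuotientGroup.eq_one_iff x
    obtain ⟨T, rfl⟩ := Sylow.mapSurjective_surjective hπ t Q
    rw [Sylow.coe_mapSurjective]
    -- `T ∩ N` lies in `R`
    have hTN : ∀ x ∈ (T : Subgroup G), x ∈ N → x ∈ R := by
      intro x hxT hxN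
      obtain ⟨a, ha⟩ := (IsPGroup.iff_orderOf.mp T.isPGroup') ⟨x, hxT⟩
      rw [Subgroup.orderOf_mk] at ha
      exact ⟨hxN, mem_pCore_of_mem_nilpotent_normal hnil hxN ha⟩
    let P : Subgroup (G ⧸ R) := (T : Subgroup G).map π'
    let K : Subgroup (G ⧸ R) := A.map π'
    have hdis : ∀ w, w ∈ A → w ∈ R → w = 1 := fun w hw hw' =>
      hdisj q t hqt w hw.2 w hw'.2 rfl
    -- the isomorphism of the Sylow subgroup with its image
    let f : (T : Subgroup G) →* ((T : Subgroup G).map π) :=
      (π.comp (T : Subgroup G).subtype).codRestrict _ (fun x => ⟨x, x.2, rfl⟩)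
    let f' : (T : Subgroup G) →* P :=
      (π'.comp (T : Subgroup G).subtype).codRestrict _ (fun x => ⟨x, x.2, rfl⟩)
    have hf : Function.Surjective f := by
      rintro ⟨_, x, hx, rfl⟩
      exact ⟨⟨x, hx⟩, rfl⟩
    have hf' : Function.Surjective f' := by
      rintro ⟨_, x, hx, rfl⟩
      exact ⟨⟨x, hx⟩, rfl⟩
    have hker : f'.ker = f.ker := by
      ext x
      rw [MonoidHom.mem_ker, MonoidHom.mem_ker]
      constructor
      · intro h
        have h1 : π' (x : G) = 1 := congrArg Subtype.val h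
        have h2 : (x : G) ∈ N := ((hπ'1 _).mp h1).1
        exact Subtype.ext ((hπ1 _).mpr h2)
      · intro h
        have h1 : π (x : G) = 1 := congrArg Subtype.val h
        have h2 : (x : G) ∈ N := (hπ1 _).mp h1
        exact Subtype.ext ((hπ'1 _).mpr (hTN x x.2 h2))
    let e : P ≃* ((T : Subgroup G).map π) :=
      (QuotientGroup.quotientKerEquivOfSurjective f' hf').symm.trans
        ((QuotientGroup.quotientMulEquivOfEq hker).trans
          (QuotientGroup.quotientKerEquivOfSurjective f hf))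
    -- nontriviality of the image of `A`
    have hK1 : K ≠ ⊥ := by
      obtain ⟨k, hkN, hk⟩ := hqelt q hq hqN
      have hkq : k ∈ Cfsg.pCore q G :=
        mem_pCore_of_mem_nilpotent_normal (k := 1) hnil hkN (by rw [hk, pow_one])
      intro h
      have h1 : π' k ∈ K := ⟨k, ⟨hkN, hkq⟩, rfl⟩
      rw [h, Subgroup.mem_bot, hπ'1] at h1
      have h2 := hdis k ⟨hkN, hkq⟩ h1
      rw [h2, orderOf_one] at hk
      exact hq.one_lt.ne hk
    have hKn : K.Normal := hAn.map π' hπ'
    have hPK : P ≤ Subgroup.normalizer (K : Set (G ⧸ R)) := by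
      rw [Subgroup.normalizer_eq_top_iff.mpr hKn]
      exact le_top
    have hPp : IsPGroup t P := T.isPGroup'.map π'
    have hfpf : ∀ a ∈ P, a ≠ 1 → ∀ v ∈ K, a * v = v * a → v = 1 := by
      rintro _ ⟨x, hx, rfl⟩ ha1 _ ⟨k, hk, rfl⟩ hcomm
      have hxN : x ∉ N := by
        intro hxN
        exact ha1 ((hπ'1 x).mpr (hTN x hx hxN))
      have hw : x * k * x⁻¹ * k⁻¹ ∈ R := by
        rw [← hπ'1]
        simp only [map_mul, map_inv]
        rw [hcomm]
        group
      have hw' : x * k * x⁻¹ * k⁻¹ ∈ A :=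
        A.mul_mem (hAn.conj_mem k hk x) (A.inv_mem hk)
      have hw1 := hdis _ hw' hw
      rw [mul_inv_eq_one, mul_inv_eq_iff_eq_mul] at hw1
      obtain ⟨a, ha⟩ := (IsPGroup.iff_orderOf.mp T.isPGroup') ⟨x, hx⟩
      rw [Subgroup.orderOf_mk] at ha
      obtain ⟨b, hb⟩ := (IsPGroup.iff_orderOf.mp (isPGroup_pCore q (G := G))) ⟨k, hk.2⟩
      rw [Subgroup.orderOf_mk] at hb
      have h1 := key x k hxN hk.1 hw1 (by
        rw [ha, hb]
        exact Nat.Coprime.pow _ _ ((Nat.coprime_primes ht hq).mpr hqt.symm))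
      rw [h1, map_one]
    rcases isCyclic_or_quaternion_of_fpf hK1 hPK hfpf hPp with h | ⟨-, n, ⟨g⟩⟩
    · left
      exact isCyclic_of_surjective e.toMonoidHom e.surjective
    · right
      exact ⟨n, ⟨e.symm.trans g⟩⟩

end Cfsg.Agent.S4155
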