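import Cfsg.Statements.S4156
import Mathlib
-- import your own Cfsg.Agent.* helpers here

set_option autoImplicit false
open Cfsg

namespace Cfsg.Agent.S4156

open scoped MatrixGroups

section

variable (F : Type*) [Field F] (n : ℕ)

/-- The sum of the coordinates. -/
noncomputable def sumF : Module.Dual F (Fin (n + 1) → F) := ∑ i, LinearMap.proj i

/-- The vectors with coordinate sum zero. -/
noncomputable abbrev W : Submodule F (Fin (n + 1) → F) := LinearMap.ker (sumF F n)

lemma sumF_apply (x : Fin (n + 1) → F) : sumF F n x = ∑ i, x i := by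
  simp [sumF]

lemma mem_W {x : Fin (n + 1) → F} : x ∈ W F n ↔ ∑ i, x i = 0 := by
  rw [LinearMap.mem_ker, sumF_apply]

lemma finrank_W : Module.finrank F (W F n) = n := by
  have hne : sumF F n ≠ 0 := by
    intro h
    have h1 := congrArg (fun f => f (Pi.single 0 1)) h
    simp [sumF_apply] at h1
  have h1 := Module.Dual.finrank_ker_add_one_of_ne_zero hne
  have h2 : Module.finrank F (Fin (n + 1) → F) = n + 1 := Module.finrank_fin_fun F
  rw [h2] at h1
  exact Nat.add_right_cancel h1

/-- The permutation action on coordinates. -/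
noncomputable def P (σ : Equiv.Perm (Fin (n + 1))) : (Fin (n + 1) → F) →ₗ[F] (Fin (n + 1) → F) :=
  LinearMap.funLeft F F (σ⁻¹ : Equiv.Perm (Fin (n + 1)))

lemma P_apply (σ : Equiv.Perm (Fin (n + 1))) (x : Fin (n + 1) → F) (i : Fin (n + 1)) :
    P F n σ x i = x (σ⁻¹ i) := rfl

lemma P_mem (σ : Equiv.Perm (Fin (n + 1))) : ∀ x ∈ W F n, P F n σ x ∈ W F n := by
  intro x hx
  rw [mem_W] at hx ⊢
  simp only [P_apply]
  rw [← hx]
  exact Equiv.sum_comp (σ⁻¹ : Equiv.Perm (Fin (n + 1))) x

/-- The representation on the deleted permutation module. -/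
noncomputable def phi : alternatingGroup (Fin (n + 1)) →* Module.End F (W F n) where
  toFun σ := (P F n σ.1).restrict (P_mem F n σ.1)
  map_one' := by
    ext x i
    simp [P_apply]
  map_mul' σ τ := by
    ext x i
    simp [P_apply, Module.End.mul_apply, LinearMap.restrict_apply]

/-- Matrices of the representation. -/
noncomputable def rho (b : Module.Basis (Fin n) F (W F n)) :
    alternatingGroup (Fin (n + 1)) →* GL (Fin n) F :=
  (Units.map (LinearMap.toMatrixAlgEquiv b).toAlgHom.toMonoidHom).comp (phi F n).toHomUnits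

lemma rho_coe (b : Module.Basis (Fin n) F (W F n)) (σ : alternatingGroup (Fin (n + 1))) :
    ((rho F n b σ : GL (Fin n) F) : Matrix (Fin n) (Fin n) F) =
      LinearMap.toMatrixAlgEquiv b (phi F n σ) := rfl

lemma det_rho (hn : 5 ≤ n) (b : Module.Basis (Fin n) F (W F n))
    (σ : alternatingGroup (Fin (n + 1))) :
    ((rho F n b σ : GL (Fin n) F) : Matrix (Fin n) (Fin n) F).det = 1 := by
  let d : alternatingGroup (Fin (n + 1)) →* Fˣ := Matrix.GeneralLinearGroup.det.comp (rho F n b)
  have htop := commutator_alternatingGroup_eq_top (α := Fin (n + 1))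
    (by simp; omega)
  have hle : commutator (alternatingGroup (Fin (n + 1))) ≤ d.ker :=
    Abelianization.commutator_subset_ker d
  rw [htop] at hle
  have h1 : d σ = 1 := hle (Subgroup.mem_top σ)
  have h2 := congrArg (fun u : Fˣ => (u : F)) h1
  simpa [d] using h2

/-- The map into the special linear group. -/
noncomputable def rhoSL (hn : 5 ≤ n) (b : Module.Basis (Fin n) F (W F n)) :
    alternatingGroup (Fin (n + 1)) →* Matrix.SpecialLinearGroup (Fin n) F where
  toFun σ := ⟨(rho F n b σ : GL (Fin n) F), det_rho F n hn b σ⟩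
  map_one' := by
    apply Subtype.ext
    simp
  map_mul' σ τ := by
    apply Subtype.ext
    change ((rho F n b (σ * τ) : GL (Fin n) F) : Matrix (Fin n) (Fin n) F) =
      ((rho F n b σ : GL (Fin n) F) : Matrix (Fin n) (Fin n) F) *
        ((rho F n b τ : GL (Fin n) F) : Matrix (Fin n) (Fin n) F)
    rw [map_mul, Units.val_mul]

end

/-- Let n ≥ 5 and F a finite field. Then the projective special linear group PSL_n(F) contains a subgroup isomorphic to the alternating group of degree n + 1. -/
theorem result (n : ℕ) (hn : 5 ≤ n) (F : Type*) [Field F] [Finite F] :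
    ∃ f : alternatingGroup (Fin (n + 1)) →* Matrix.ProjectiveSpecialLinearGroup (Fin n) F, Function.Injective f := by
  classical
  let b : Module.Basis (Fin n) F (W F n) := Module.finBasisOfFinrankEq F (W F n) (finrank_W F n)
  let f : alternatingGroup (Fin (n + 1)) →* Matrix.ProjectiveSpecialLinearGroup (Fin n) F :=
    (QuotientGroup.mk' _).comp (rhoSL F n hn b)
  refine ⟨f, ?_⟩
  have hs : IsSimpleGroup (alternatingGroup (Fin (n + 1))) :=
    alternatingGroup.isSimpleGroup (by simp; omega)
  rcases hs.eq_bot_or_eq_top_of_normal f.ker inferInstance with hk | hk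
  · exact (MonoidHom.ker_eq_bot_iff f).mp hk
  · exfalso
    let a : Fin (n + 1) := ⟨0, by omega⟩
    let b' : Fin (n + 1) := ⟨1, by omega⟩
    let c : Fin (n + 1) := ⟨2, by omega⟩
    let d : Fin (n + 1) := ⟨3, by omega⟩
    have hab : a ≠ b' := by simp [a, b', Fin.ext_iff]
    have hac : a ≠ c := by simp [a, c, Fin.ext_iff]
    have had : a ≠ d := by simp [a, d, Fin.ext_iff]
    have hbc : b' ≠ c := by simp [b', c, Fin.ext_iff]
    have hbd : b' ≠ d := by simp [b', d, Fin.ext_iff]
    have hcd : c ≠ d := by simp [c, d, Fin.ext_iff]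
    let s : Equiv.Perm (Fin (n + 1)) := Equiv.swap a b' * Equiv.swap c d
    have hs1 : s ∈ alternatingGroup (Fin (n + 1)) := by
      rw [Equiv.Perm.mem_alternatingGroup, Equiv.Perm.sign_mul, Equiv.Perm.sign_swap hab,
        Equiv.Perm.sign_swap hcd]
      simp
    let σ : alternatingGroup (Fin (n + 1)) := ⟨s, hs1⟩
    have hmem : f σ = 1 := by
      have : σ ∈ f.ker := by rw [hk]; exact Subgroup.mem_top σ
      exact this
    have hcen : rhoSL F n hn b σ ∈ Subgroup.center (Matrix.SpecialLinearGroup (Fin n) F) :=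
      (QuotientGroup.eq_one_iff _).mp hmem
    obtain ⟨r, -, hr⟩ := Matrix.SpecialLinearGroup.mem_center_iff.mp hcen
    have hr' : LinearMap.toMatrixAlgEquiv b (phi F n σ) = Matrix.scalar (Fin n) r := hr.symm
    have hφ : phi F n σ = algebraMap F (Module.End F (W F n)) r := by
      apply (LinearMap.toMatrixAlgEquiv b).injective
      rw [hr', AlgEquiv.commutes]
      rfl
    let v : Fin (n + 1) → F := Pi.single a 1 - Pi.single c 1
    have hv : v ∈ W F n := by
      rw [mem_W]
      simp [v, Finset.sum_sub_distrib]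
    have hact := congrArg (fun g : Module.End F (W F n) => ((g ⟨v, hv⟩ : W F n) : Fin (n + 1) → F)) hφ
    have hact' : P F n s v = r • v := hact
    have hsa : s⁻¹ a = b' := by
      rw [Equiv.Perm.inv_eq_iff_eq]
      simp [s, Equiv.swap_apply_of_ne_of_ne hbc hbd]
    have hsb : s⁻¹ b' = a := by
      rw [Equiv.Perm.inv_eq_iff_eq]
      simp [s, Equiv.swap_apply_of_ne_of_ne hac had]
    have e1 := congrFun hact' a
    have e2 := congrFun hact' b'
    rw [P_apply, hsa] at e1
    rw [P_apply, hsb] at e2
    simp [v, hab, hab.symm, hac, hbc, Pi.single_apply] at e1 e2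

end Cfsg.Agent.S4156
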