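import Cfsg.Statements.S4163
import Mathlib

set_option autoImplicit false
open Cfsg

namespace Cfsg.Agent.S4163

variable {G : Type*} [Group G] [Finite G]

local notation "C" x => Subgroup.centralizer ({x} : Set G)

theorem mem_Cx {g x : G} : g ∈ (C x) ↔ g * x = x * g := Subgroup.mem_centralizer_singleton_iff

/-- The commutator map on `A` for a fixed `x`. -/
def cmap (A : Subgroup G) [hn : A.Normal] (hA : IsMulCommutative A) (x : G) : ↥A →* ↥A where
  toFun a := ⟨a * (x * (a : G)⁻¹ * x⁻¹), A.mul_mem a.2 (hn.conj_mem _ (A.inv_mem a.2) x)⟩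
  map_one' := by
    apply Subtype.ext
    simp
  map_mul' := by
    intro a b
    apply Subtype.ext
    have hc : ∀ u ∈ A, ∀ v ∈ A, u * v = v * u := by
      intro u hu v hv
      have := hA.is_comm.comm ⟨u, hu⟩ ⟨v, hv⟩
      exact congrArg Subtype.val this
    simp only [Subgroup.coe_mul, mul_inv_rev]
    have h1 := hc ((b : G) * (x * (b : G)⁻¹ * x⁻¹)) (A.mul_mem b.2 (hn.conj_mem _ (A.inv_mem b.2) x))
      (x * (a : G)⁻¹ * x⁻¹) (hn.conj_mem _ (A.inv_mem a.2) x)
    calc (a : G) * b * (x * ((b : G)⁻¹ * (a : G)⁻¹) * x⁻¹)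
        = a * (((b : G) * (x * (b : G)⁻¹ * x⁻¹)) * (x * (a : G)⁻¹ * x⁻¹)) := by group
      _ = a * ((x * (a : G)⁻¹ * x⁻¹) * ((b : G) * (x * (b : G)⁻¹ * x⁻¹))) := by rw [h1]
      _ = _ := by group

theorem cmap_coe (A : Subgroup G) [hn : A.Normal] (hA : IsMulCommutative A) (x : G) (a : ↥A) :
    ((cmap A hA x a : ↥A) : G) = a * (x * (a : G)⁻¹ * x⁻¹) := rfl

theorem relIndex_symm_mul (N D : Subgroup G) : N.relIndex D * D.index = D.relIndex N * N.index := by
  have h1 := Subgroup.relIndex_mul_index (H := N ⊓ D) (K := D) inf_le_right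
  have h2 := Subgroup.relIndex_mul_index (H := N ⊓ D) (K := N) inf_le_left
  rw [Subgroup.inf_relIndex_right] at h1
  rw [Subgroup.inf_relIndex_left] at h2
  rw [h1, h2]

/-- The key lemma: elements of class size `m` act on `A` with central commutators. -/
theorem key (A : Subgroup G) [hn : A.Normal] (hA : IsMulCommutative A)
    (m : ℕ) (hmin : ∀ x : G, 1 < (C x).index → m ≤ (C x).index)
    {x : G} (hx : (C x).index = m) (a : G) (ha : a ∈ A) :
    a * (x * a⁻¹ * x⁻¹) ∈ Subgroup.center G := by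
  classical
  have hc : ∀ u ∈ A, ∀ v ∈ A, u * v = v * u := by
    intro u hu v hv
    have := hA.is_comm.comm ⟨u, hu⟩ ⟨v, hv⟩
    exact congrArg Subtype.val this
  set f := cmap A hA x with hf
  set c := a * (x * a⁻¹ * x⁻¹) with hc'
  by_cases hc1 : c = 1
  · rw [hc1]; exact Subgroup.one_mem _
  have hcA : c ∈ A := A.mul_mem ha (hn.conj_mem _ (A.inv_mem ha) x)
  set N := (C x) with hN
  set D := (C c) with hD
  -- `f.ker`
  have hker : f.ker = N.subgroupOf A := by
    ext b
    rw [MonoidHom.mem_ker, Subgroup.mem_subgroupOf, hN, mem_Cx]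
    constructor
    · intro h1
      have h2 := congrArg Subtype.val h1
      rw [hf, cmap_coe] at h2
      simp only [OneMemClass.coe_one] at h2
      have h3 : x * (b : G)⁻¹ * x⁻¹ = (b : G)⁻¹ := eq_inv_of_mul_eq_one_right h2
      have h4 : x * (b : G)⁻¹ = (b : G)⁻¹ * x := by
        calc x * (b : G)⁻¹ = (x * (b : G)⁻¹ * x⁻¹) * x := by group
          _ = (b : G)⁻¹ * x := by rw [h3]
      calc (b : G) * x = (b : G) * (x * (b : G)⁻¹) * b := by group
        _ = (b : G) * ((b : G)⁻¹ * x) * b := by rw [h4]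
        _ = x * b := by group
    · intro h1
      apply Subtype.ext
      rw [hf, cmap_coe]
      simp only [OneMemClass.coe_one]
      have h4 : x * (b : G)⁻¹ = (b : G)⁻¹ * x := by
        calc x * (b : G)⁻¹ = (b : G)⁻¹ * ((b : G) * x) * (b : G)⁻¹ := by group
          _ = (b : G)⁻¹ * (x * b) * (b : G)⁻¹ := by rw [h1]
          _ = (b : G)⁻¹ * x := by group
      rw [h4]; group
  set I := f.range with hI
  have hIcard : N.relIndex A = Nat.card I := by
    rw [Subgroup.relIndex, ← hker, Subgroup.index_ker]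
  have hAD : A ≤ D := fun b hb => mem_Cx.mpr (hc b hb c hcA)
  have h1 : N.relIndex A ≤ N.relIndex D :=
    Subgroup.relIndex_le_of_le_right hAD Subgroup.index_ne_zero_of_finite
  -- conjugation by `N` preserves `I`
  have hconjI : ∀ n ∈ N, n * c * n⁻¹ = (n * a * n⁻¹) * (x * (n * a * n⁻¹)⁻¹ * x⁻¹) := by
    intro n hn'
    have h4 : n * x = x * n := mem_Cx.mp hn'
    have e1 : n⁻¹ * x * n = x := by
      calc n⁻¹ * x * n = n⁻¹ * (x * n) := by group
        _ = n⁻¹ * (n * x) := by rw [h4]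
        _ = x := by group
    have e2 : n⁻¹ * x⁻¹ * n = x⁻¹ := by
      have := congrArg (fun w => w⁻¹) e1
      simpa [mul_assoc] using this
    calc n * c * n⁻¹ = n * a * x * a⁻¹ * x⁻¹ * n⁻¹ := by rw [hc']; group
      _ = n * a * (n⁻¹ * x * n) * a⁻¹ * (n⁻¹ * x⁻¹ * n) * n⁻¹ := by rw [e1, e2]
      _ = _ := by group
  have hmemI : ∀ n ∈ N, ∃ y : ↥I, ((y : ↥A) : G) = n * c * n⁻¹ := by
    intro n hn'
    have hb : n * a * n⁻¹ ∈ A := hn.conj_mem a ha n
    refine ⟨⟨f ⟨_, hb⟩, ⟨⟨_, hb⟩, rfl⟩⟩, ?_⟩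
    change ((cmap A hA x ⟨_, hb⟩ : ↥A) : G) = _
    rw [cmap_coe, hconjI n hn']
  -- the orbit injects into `I` missing `1`
  have h2 : D.relIndex N < N.relIndex A := by
    rw [hIcard, Subgroup.relIndex, Subgroup.index]
    choose F hF using fun q : ↥N ⧸ D.subgroupOf N => hmemI _ (Quotient.out q).2
    have hinj : Function.Injective F := by
      intro q₁ q₂ h12
      have h3 := congrArg (fun w : ↥I => ((w : ↥A) : G)) h12
      simp only [hF] at h3
      set n₁ : ↥N := Quotient.out q₁ with hn₁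
      set n₂ : ↥N := Quotient.out q₂ with hn₂
      have h4 : ((n₁⁻¹ * n₂ : ↥N) : G) ∈ D := by
        rw [hD, mem_Cx]
        simp only [Subgroup.coe_mul, Subgroup.coe_inv]
        calc (n₁ : G)⁻¹ * n₂ * c = (n₁ : G)⁻¹ * ((n₂ : G) * c * (n₂ : G)⁻¹) * n₂ := by group
          _ = (n₁ : G)⁻¹ * ((n₁ : G) * c * (n₁ : G)⁻¹) * n₂ := by rw [h3]
          _ = c * ((n₁ : G)⁻¹ * n₂) := by group
      have h5 : (n₁ : ↥N ⧸ D.subgroupOf N) = (n₂ : ↥N ⧸ D.subgroupOf N) :=
        QuotientGroup.eq.mpr (Subgroup.mem_subgroupOf.mpr h4)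
      rw [hn₁, hn₂, QuotientGroup.out_eq', QuotientGroup.out_eq'] at h5
      exact h5
    letI := Fintype.ofFinite (↥N ⧸ D.subgroupOf N)
    letI := Fintype.ofFinite ↥I
    rw [Nat.card_eq_fintype_card, Nat.card_eq_fintype_card]
    refine Fintype.card_lt_of_injective_of_notMem F hinj (b := 1) ?_
    rintro ⟨q, hq⟩
    have h3 := hF q
    rw [hq] at h3
    simp only [OneMemClass.coe_one] at h3
    apply hc1
    have h4 : (Quotient.out q : ↥N).1 * c * (Quotient.out q : ↥N).1⁻¹ = 1 := h3.symm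
    have h5 := congrArg (fun w => (Quotient.out q : ↥N).1⁻¹ * w * (Quotient.out q : ↥N).1) h4
    simpa [mul_assoc] using h5
  have hsym := relIndex_symm_mul N D
  rw [hx] at hsym
  have hm0 : 0 < m := by
    rw [← hx]; exact Nat.pos_of_ne_zero Subgroup.index_ne_zero_of_finite
  have hlt : D.index < m := by
    by_contra hge
    push Not at hge
    have h3 : N.relIndex A * m ≤ N.relIndex D * D.index := Nat.mul_le_mul h1 hge
    rw [hsym] at h3
    have h4 := Nat.le_of_mul_le_mul_right h3 hm0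
    omega
  have hD1 : D.index = 1 := by
    by_contra hne
    have h0 : D.index ≠ 0 := Subgroup.index_ne_zero_of_finite
    have h5 := hmin c
    rw [← hD] at h5
    have := h5 (by omega)
    omega
  have hDtop := Subgroup.index_eq_one.mp hD1
  rw [Subgroup.mem_center_iff]
  intro g
  have : g ∈ D := by rw [hDtop]; trivial
  exact mem_Cx.mp this

/-- The result. -/
theorem main (A : Subgroup G) [hn : A.Normal] (hA : IsMulCommutative A)
    (hCA : Subgroup.centralizer (A : Set G) = A)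
    (m : ℕ) (hmin : ∀ x : G, 1 < (C x).index → m ≤ (C x).index) :
    Subgroup.upperCentralSeries ↥(Subgroup.closure {x : G | (C x).index = 1 ∨ (C x).index = m}) 3 = ⊤ := by
  set H := Subgroup.closure {x : G | (C x).index = 1 ∨ (C x).index = m} with hH
  have hP : ∀ h ∈ H, ∀ a ∈ A, a * (h * a⁻¹ * h⁻¹) ∈ Subgroup.center G := by
    intro h hh
    induction hh using Subgroup.closure_induction with
    | mem x hx =>
      intro a ha
      rcases hx with hx | hx
      · have hx' := Subgroup.index_eq_one.mp hx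
        have h1 : a ∈ (C x) := by rw [hx']; trivial
        have h2 : a * x = x * a := mem_Cx.mp h1
        have e : a * (x * a⁻¹ * x⁻¹) = 1 := by
          rw [← mul_assoc, ← mul_assoc, h2]; group
        rw [e]; exact Subgroup.one_mem _
      · exact key A hA m hmin hx a ha
    | one =>
      intro a _
      have e : a * (1 * a⁻¹ * 1⁻¹) = 1 := by group
      rw [e]; exact Subgroup.one_mem _
    | mul g k _ _ hg hk =>
      intro a ha
      have e : a * (g * k * a⁻¹ * (g * k)⁻¹) =
          (a * (g * a⁻¹ * g⁻¹)) * (g * (a * (k * a⁻¹ * k⁻¹)) * g⁻¹) := by group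
      rw [e]
      exact Subgroup.mul_mem _ (hg a ha)
        ((inferInstance : (Subgroup.center G).Normal).conj_mem _ (hk a ha) g)
    | inv g _ hg =>
      intro a ha
      have hz := hg a⁻¹ (A.inv_mem ha)
      have e : a * (g⁻¹ * a⁻¹ * g⁻¹⁻¹) = g⁻¹ * (a * (a⁻¹ * (g * a⁻¹⁻¹ * g⁻¹)) * a⁻¹) * g⁻¹⁻¹ := by
        group
      rw [e]
      have hN : (Subgroup.center G).Normal := inferInstance
      exact hN.conj_mem _ (hN.conj_mem _ hz a) g⁻¹
  -- conjugation action on `A`
  have hact : ∀ g ∈ H, ∀ a ∈ A, ∃ z ∈ Subgroup.center G, g * a * g⁻¹ = a * z := by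
    intro g hg a ha
    refine ⟨_, hP g hg a⁻¹ (A.inv_mem ha), ?_⟩
    group
  have hcomm : ∀ g ∈ H, ∀ k ∈ H, g * k * g⁻¹ * k⁻¹ ∈ A := by
    intro g hg k hk
    have hsame : ∀ a ∈ A, (g * k) * a * (g * k)⁻¹ = (k * g) * a * (k * g)⁻¹ := by
      intro a ha
      obtain ⟨z, hz, e1⟩ := hact g hg a ha
      obtain ⟨w, hw, e2⟩ := hact k hk a ha
      have hz' := Subgroup.mem_center_iff.mp hz
      have hw' := Subgroup.mem_center_iff.mp hw
      calc (g * k) * a * (g * k)⁻¹ = g * (k * a * k⁻¹) * g⁻¹ := by group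
        _ = g * (a * w) * g⁻¹ := by rw [e2]
        _ = (g * a) * (w * g⁻¹) := by group
        _ = (g * a) * (g⁻¹ * w) := by rw [hw']
        _ = (g * a * g⁻¹) * w := by group
        _ = a * z * w := by rw [e1]
        _ = a * (w * z) := by rw [mul_assoc, hw']
        _ = (a * w) * z := by group
        _ = (k * a * k⁻¹) * z := by rw [e2]
        _ = k * a * (k⁻¹ * z) := by group
        _ = k * a * (z * k⁻¹) := by rw [hz']
        _ = k * (a * z) * k⁻¹ := by group
        _ = k * (g * a * g⁻¹) * k⁻¹ := by rw [e1]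
        _ = (k * g) * a * (k * g)⁻¹ := by group
    have hmem : g * k * g⁻¹ * k⁻¹ ∈ Subgroup.centralizer (A : Set G) := by
      rw [Subgroup.mem_centralizer_iff]
      intro a ha
      have ha' : (k * g)⁻¹ * a * (k * g) ∈ A := by
        have := hn.conj_mem a ha (k * g)⁻¹
        simpa using this
      have h1 := hsame _ ha'
      have h2 : (k * g) * ((k * g)⁻¹ * a * (k * g)) * (k * g)⁻¹ = a := by group
      rw [h2] at h1
      calc a * (g * k * g⁻¹ * k⁻¹) = ((g * k) * ((k * g)⁻¹ * a * (k * g)) * (g * k)⁻¹) * (g * k * g⁻¹ * k⁻¹) := by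
            rw [h1]
        _ = (g * k * g⁻¹ * k⁻¹) * a := by group
    rw [hCA] at hmem
    exact hmem
  rw [eq_top_iff]
  rintro x -
  have hsucc := fun (n : ℕ) (y : ↥H) =>
    Subgroup.mem_upperCentralSeries_succ_iff (G := ↥H) (n := n) (x := y)
  rw [show (3 : ℕ) = 2 + 1 from rfl, hsucc]
  intro y
  rw [show (2 : ℕ) = 1 + 1 from rfl, hsucc]
  intro z
  rw [show (1 : ℕ) = 0 + 1 from rfl, hsucc]
  intro w
  rw [Subgroup.upperCentralSeries_zero, Subgroup.mem_bot]
  apply Subtype.ext
  simp only [commutatorElement_def, Subgroup.coe_mul, Subgroup.coe_inv, OneMemClass.coe_one]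
  have h1 := hcomm x x.2 y y.2
  have h2 := hP z z.2 _ h1
  have e : ((x : G) * y * (x : G)⁻¹ * (y : G)⁻¹) * ((z : G) * ((x : G) * y * (x : G)⁻¹ * (y : G)⁻¹)⁻¹ * (z : G)⁻¹) =
      (x : G) * y * (x : G)⁻¹ * (y : G)⁻¹ * z * ((x : G) * y * (x : G)⁻¹ * (y : G)⁻¹)⁻¹ * (z : G)⁻¹ := by group
  rw [e] at h2
  have key2 : ∀ b : G, b ∈ Subgroup.center G → b * w * b⁻¹ * (w : G)⁻¹ = 1 := by
    intro b hb
    have h3 := (Subgroup.mem_center_iff.mp hb) w
    rw [← h3]
    group
  exact key2 _ h2

/-- Let G be a finite group with a normal abelian subgroup A satisfying C_G(A) = A. Suppose some conjugacy class of G has size greater than 1, let m be the smallest such size, and let M be the subgroup generated by the elements whose class has size 1 or m. Then M is nilpotent of class at most 3. -/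
theorem result {G : Type*} [Group G] [Finite G]
    (A : Subgroup G) [A.Normal] (hA : IsMulCommutative A) (hCA : Subgroup.centralizer (A : Set G) = A)
    (m : ℕ) (hm1 : 1 < m) (hm : ∃ x : G, (Subgroup.centralizer ({x} : Set G)).index = m) (hmin : ∀ x : G, 1 < (Subgroup.centralizer ({x} : Set G)).index → m ≤ (Subgroup.centralizer ({x} : Set G)).index) :
    Subgroup.upperCentralSeries ↥(Subgroup.closure {x : G | (Subgroup.centralizer ({x} : Set G)).index = 1 ∨ (Subgroup.centralizer ({x} : Set G)).index = m}) 3 = ⊤ :=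
  main A hA hCA m hmin

end Cfsg.Agent.S4163
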