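import Cfsg.Statements.S4168
import Mathlib
-- import your own Cfsg.Agent.* helpers here

set_option autoImplicit false
open Cfsg

namespace Cfsg.Agent.S4168

/-- Let L be a finite quasisimple group (perfect with L/Z(L) simple). Then every prime dividing the order of the centre Z(L) also divides the order of L/Z(L). -/
theorem result {L : Type*} [Group L] [Finite L] (hL : Cfsg.IsQuasisimple L)
    (p : ℕ) (hp : p.Prime) (hdiv : p ∣ Nat.card (Subgroup.center L)) : p ∣ (Subgroup.center L).index := by
  classical
  have : (Subgroup.center L).FiniteIndex := inferInstance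
  -- the transfer to the centre is trivial on a perfect group
  have hpow : ∀ x : L, x ^ (Subgroup.center L).index = 1 := by
    intro x
    have hcomm : commutator L ≤ (MonoidHom.transferCenterPow L).ker := by
      rw [commutator_eq_closure, Subgroup.closure_le]
      rintro _ ⟨a, b, rfl⟩
      simp only [SetLike.mem_coe, MonoidHom.mem_ker, map_commutatorElement]
      rw [commutatorElement_eq_one_iff_mul_comm]
      exact Subtype.ext (Subgroup.mem_center_iff.mp ((MonoidHom.transferCenterPow L) b).2 _)
    have hperf : commutator L = ⊤ := hL.1.commutator_eq_top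
    have hx : x ∈ (MonoidHom.transferCenterPow L).ker := hcomm (by rw [hperf]; trivial)
    have := congrArg (Subtype.val) (MonoidHom.mem_ker.mp hx)
    simpa [MonoidHom.transferCenterPow_apply] using this
  have : Fact p.Prime := ⟨hp⟩
  obtain ⟨z, hz⟩ := exists_prime_orderOf_dvd_card' (G := Subgroup.center L) p hdiv
  have h1 : (z : L) ^ (Subgroup.center L).index = 1 := hpow z
  have h2 : orderOf (z : L) = p := by
    rw [Subgroup.orderOf_coe]; exact hz
  rw [← h2]
  exact orderOf_dvd_of_pow_eq_one h1

end Cfsg.Agent.S4168
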