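import Cfsg.Statements.S4169
import Mathlib
import Cfsg.Agent.S4163
import Cfsg.Agent.Lib.PGroup.DStar

set_option autoImplicit false
open Cfsg

namespace Cfsg.Agent.S4169

/-- Let P be a finite p-group whose conjugacy classes have exactly two sizes (1 and one other value). Then P has nilpotency class at most 3. -/
theorem result {P : Type*} [Group P] [Finite P] {p : ℕ} [Fact p.Prime] (hP : IsPGroup p P)
    (m : ℕ) (hm : 1 < m) (h : ∀ x : P, (Subgroup.centralizer ({x} : Set P)).index = 1 ∨ (Subgroup.centralizer ({x} : Set P)).index = m) :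
    upperCentralSeries P 3 = ⊤ := by
  obtain ⟨A, hAn, hAc, hmax⟩ := Cfsg.Agent.Lib.PGroup.DStar.exists_maximal_normal_abelian (G := P)
  haveI := hAn
  have hA : IsMulCommutative A := ⟨⟨fun a b => Subtype.ext (hAc _ a.2 _ b.2)⟩⟩
  have hCA : Subgroup.centralizer (A : Set P) = A := by
    apply le_antisymm
    · exact Cfsg.Agent.Lib.PGroup.DStar.centralizer_le_of_maximal hP hAn hAc hmax
    · intro a ha
      rw [Subgroup.mem_centralizer_iff]
      intro b hb
      exact hAc b hb a ha
  have hmin : ∀ x : P, 1 < (Subgroup.centralizer ({x} : Set P)).index →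
      m ≤ (Subgroup.centralizer ({x} : Set P)).index := by
    intro x hx
    rcases h x with h1 | h1
    · omega
    · omega
  have hmain := Cfsg.Agent.S4163.main A hA hCA m hmin
  have htop : Subgroup.closure {x : P | (Subgroup.centralizer ({x} : Set P)).index = 1 ∨
      (Subgroup.centralizer ({x} : Set P)).index = m} = ⊤ := by
    rw [eq_top_iff]
    intro x _
    exact Subgroup.subset_closure (h x)
  rw [htop] at hmain
  rw [eq_top_iff]
  intro x _
  have hsucc := fun (n : ℕ) (y : ↥(⊤ : Subgroup P)) =>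
    Subgroup.mem_upperCentralSeries_succ_iff (G := ↥(⊤ : Subgroup P)) (n := n) (x := y)
  have h3 : (⟨x, trivial⟩ : ↥(⊤ : Subgroup P)) ∈ Subgroup.upperCentralSeries ↥(⊤ : Subgroup P) 3 := by
    rw [hmain]; trivial
  change x ∈ Subgroup.upperCentralSeries P (2 + 1)
  rw [Subgroup.mem_upperCentralSeries_succ_iff]
  intro y
  rw [show (2 : ℕ) = 1 + 1 from rfl, Subgroup.mem_upperCentralSeries_succ_iff]
  intro z
  rw [show (1 : ℕ) = 0 + 1 from rfl, Subgroup.mem_upperCentralSeries_succ_iff]
  intro w
  rw [Subgroup.upperCentralSeries_zero, Subgroup.mem_bot]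
  rw [show (3 : ℕ) = 2 + 1 from rfl, hsucc] at h3
  have h2 := h3 ⟨y, trivial⟩
  rw [show (2 : ℕ) = 1 + 1 from rfl, hsucc] at h2
  have h1 := h2 ⟨z, trivial⟩
  rw [show (1 : ℕ) = 0 + 1 from rfl, hsucc] at h1
  have h0 := h1 ⟨w, trivial⟩
  rw [Subgroup.upperCentralSeries_zero, Subgroup.mem_bot] at h0
  have := congrArg Subtype.val h0
  simpa [commutatorElement_def] using this

end Cfsg.Agent.S4169
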