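import Cfsg.Statements.S4170
import Cfsg.Agent.Lib.SylFix.Partition

set_option autoImplicit false
open scoped Pointwise
open Cfsg

namespace Cfsg.Agent.S4170

/-- Let p be an odd prime and G a nontrivial group of permutations of a finite set Ω that is generated by its elements of p-power order. Then Ω has two disjoint nonempty subsets Δ₁ and Δ₂ such that the index in G of the subgroup of elements mapping Δ₁ onto Δ₁ and Δ₂ onto Δ₂ (and hence also the complement of their union onto itself) is divisible by p. -/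
theorem result {Ω : Type*} [Fintype Ω] (p : ℕ) [Fact p.Prime] (hp : p ≠ 2) (G : Subgroup (Equiv.Perm Ω)) (hG : G ≠ ⊥) (hgen : Subgroup.closure {g : G | ∃ k : ℕ, orderOf g = p ^ k} = ⊤) :
    ∃ Δ₁ Δ₂ : Set Ω, Δ₁.Nonempty ∧ Δ₂.Nonempty ∧ Disjoint Δ₁ Δ₂ ∧ p ∣ (MulAction.stabilizer G Δ₁ ⊓ MulAction.stabilizer G Δ₂).index := by
  have hnt : ∃ (g : G) (a : Ω), g • a ≠ a := by
    obtain ⟨g, hg1⟩ := Subgroup.ne_bot_iff_exists_ne_one.1 hG
    have hg2 : (g : Equiv.Perm Ω) ≠ 1 := fun h => hg1 (Subtype.ext h)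
    obtain ⟨a, ha⟩ : ∃ a, (g : Equiv.Perm Ω) a ≠ a := by
      by_contra hcon
      push Not at hcon
      exact hg2 (Equiv.ext hcon)
    exact ⟨g, a, ha⟩
  exact Cfsg.Agent.SylFix.exists_two_sets p hgen hnt

end Cfsg.Agent.S4170
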