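import Cfsg.Statements.S4172
import Mathlib
import Cfsg.Agent.Lib.Transfer.Tate
import Cfsg.Agent.Lib.Transfer.Basic
import Cfsg.Agent.Lib.Basic.PCore
import Cfsg.Agent.Lib.Basic.SylowUtil
import Cfsg.Agent.Lib.PGroup.FrattiniBasis
import Cfsg.Agent.Lib.Components.Layer
import Cfsg.Agent.Lib.Components.FStar
import Cfsg.Agent.Lib.Components.FStarFactor
import Cfsg.Agent.Lib.Components.PComponent

set_option autoImplicit false
open Cfsg

namespace Cfsg.Agent.S4172

open Subgroup Cfsg.Agent.Lib.PGroup.FrattiniBasis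
open scoped commutatorElement

variable {G : Type*} [Group G] [Finite G] {p : ℕ} [hp : Fact p.Prime]

/-- Tate's theorem for a `P`-invariant subgroup. -/
theorem tate_inv (P : Sylow p G) (N : Subgroup G) (hPN : (P : Subgroup G) ≤ normalizer (N : Set G))
    (h : N ⊓ (P : Subgroup G) ≤ (frattini P).map (P : Subgroup G).subtype) :
    Cfsg.HasNormalPComplement p N := by
  classical
  let A : Subgroup G := N ⊔ (P : Subgroup G)
  have hPA : (P : Subgroup G) ≤ A := le_sup_right
  have hNA : N ≤ A := le_sup_left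
  have hAN : A ≤ normalizer (N : Set G) := sup_le le_normalizer hPN
  let P₀ : Subgroup A := (P : Subgroup G).subgroupOf A
  let L₀ : Subgroup A := N.subgroupOf A
  haveI hL₀ : L₀.Normal := by
    constructor
    rintro ⟨n, hnA⟩ hn ⟨g, hg⟩
    have hn' : n ∈ N := hn
    have := (Subgroup.mem_normalizer_iff.mp (hAN hg) n).mp hn'
    exact this
  have hP₀ : IsPGroup p P₀ := P.2.comap_subtype
  have hidx₀ : ¬ p ∣ P₀.index := fun hd =>
    P.not_dvd_index (hd.trans (Subgroup.relIndex_dvd_index_of_le hPA))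
  have hsup₀ : L₀ ⊔ P₀ = ⊤ := by
    apply Subgroup.map_injective A.subtype_injective
    rw [Subgroup.map_sup, Subgroup.map_subgroupOf_eq_of_le hNA,
      Subgroup.map_subgroupOf_eq_of_le hPA, ← MonoidHom.range_eq_map]
    simp [A]
  let e : P₀ ≃* (P : Subgroup G) := Subgroup.subgroupOfEquivOfLe hPA
  have he : ∀ x : P₀, ((e x : (P : Subgroup G)) : G) = ((x : A) : G) := fun x => rfl
  have hng₀ : ∀ M : Subgroup P₀, M ⊔ L₀.subgroupOf P₀ = ⊤ → M = ⊤ := by
    intro M hM
    have hsup : M.map e.toMonoidHom ⊔ frattini (P : Subgroup G) = ⊤ := by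
      rw [eq_top_iff]
      intro y _
      have hy : e.symm y ∈ M ⊔ L₀.subgroupOf P₀ := by rw [hM]; trivial
      have hy2 : y ∈ (M ⊔ L₀.subgroupOf P₀).map e.toMonoidHom :=
        ⟨e.symm y, hy, by simp⟩
      rw [Subgroup.map_sup] at hy2
      refine (sup_le_sup_left ?_ _ : _ ≤ M.map e.toMonoidHom ⊔ frattini (P : Subgroup G)) hy2
      rintro _ ⟨r, hr, rfl⟩
      have hr1 : ((r : A) : G) ∈ N := hr
      have hr2 : ((r : A) : G) ∈ (P : Subgroup G) := r.2
      obtain ⟨t, ht, hte⟩ := h (Subgroup.mem_inf.mpr ⟨hr1, hr2⟩)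
      have : (e r) = t := Subtype.ext hte.symm
      change e r ∈ _
      rw [this]
      exact ht
    have htop := frattini_nongenerating hsup
    rw [eq_top_iff]
    intro x _
    have hx : e x ∈ M.map e.toMonoidHom := by rw [htop]; trivial
    obtain ⟨m, hm, hme⟩ := hx
    have : m = x := e.injective hme
    rwa [← this]
  have hA := Cfsg.Agent.Lib.Transfer.Tate.hasNormalPComplement_of_nongenerating P₀ hP₀ hidx₀ L₀
    hsup₀ hng₀
  exact Cfsg.Agent.Lib.Transfer.Basic.HasNormalPComplement_of_injective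
    (Subgroup.inclusion hNA) (Subgroup.inclusion_injective hNA) hA

/-- A nontrivial normal subgroup is not inside the Frattini subgroup, on intersecting with `P`. -/
theorem not_le_of_normal (P : Sylow p G) (hcore : Cfsg.pPrimeCore p G = ⊥)
    (hfrat : ((frattini ↥(P : Subgroup G)).map (P : Subgroup G).subtype).normalCore = ⊥)
    (L : Subgroup G) [hL : L.Normal] (hne : L ≠ ⊥) :
    ¬ L ⊓ (P : Subgroup G) ≤ (frattini ↥(P : Subgroup G)).map (P : Subgroup G).subtype := by
  intro h
  have hnorm : (P : Subgroup G) ≤ normalizer (L : Set G) := fun x _ =>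
    Subgroup.mem_normalizer_iff.mpr fun n =>
      ⟨fun h => hL.conj_mem n h x, fun h => by
        have := hL.conj_mem _ h x⁻¹
        simpa [mul_assoc] using this⟩
  have h1 := tate_inv P L hnorm h
  obtain ⟨W, hW, hc, hq⟩ := Cfsg.Agent.Lib.Transfer.Basic.hasNormalPComplement_iff.mp h1
  have hLs : L.IsSubnormal := Subgroup.Normal.isSubnormal hL
  have hWs : (W.map L.subtype).IsSubnormal :=
    (Cfsg.Agent.Lib.Components.Basic.isSubnormal_map_subtype_iff L hLs W).mp
      (Subgroup.Normal.isSubnormal hW)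
  have hcard : (Nat.card (W.map L.subtype)).Coprime p := by
    rw [Subgroup.card_map_of_injective L.subtype_injective]; exact hc
  have hle := Cfsg.Agent.Lib.Components.PComponent.le_pPrimeCore_of_isSubnormal p hWs hcard
  rw [hcore, le_bot_iff] at hle
  have hWbot : W = ⊥ := (Subgroup.map_eq_bot_iff_of_injective _ L.subtype_injective).mp hle
  subst hWbot
  have hLp : IsPGroup p L := by
    have hinj : Function.Injective (QuotientGroup.mk' (⊥ : Subgroup L)) := by
      intro a b hab
      have := QuotientGroup.eq.mp hab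
      rw [Subgroup.mem_bot] at this
      exact (inv_mul_eq_one.mp this)
    exact IsPGroup.of_injective hq _ hinj
  have hLP : L ≤ (P : Subgroup G) := hLp.le_sylow_of_normal P
  have hL2 : L ≤ (frattini ↥(P : Subgroup G)).map (P : Subgroup G).subtype :=
    fun x hx => h (Subgroup.mem_inf.mpr ⟨hx, hLP hx⟩)
  have := Subgroup.normal_le_normalCore.mpr hL2
  rw [hfrat, le_bot_iff] at this
  exact hne this

/-- A `P`-invariant perfect subgroup containing a nontrivial subnormal subgroup meets `P` outside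
the Frattini subgroup. -/
theorem not_le_of_perfect (P : Sylow p G) (hcore : Cfsg.pPrimeCore p G = ⊥)
    (A : Subgroup G) (hPA : (P : Subgroup G) ≤ normalizer (A : Set G)) (hperf : ⁅A, A⁆ = A)
    (K : Subgroup G) (hK : K ≤ A) (hKs : K.IsSubnormal) (hne : K ≠ ⊥) :
    ¬ A ⊓ (P : Subgroup G) ≤ (frattini ↥(P : Subgroup G)).map (P : Subgroup G).subtype := by
  intro h
  have h1 := tate_inv P A hPA h
  obtain ⟨W, hW, hc, hq⟩ := Cfsg.Agent.Lib.Transfer.Basic.hasNormalPComplement_iff.mp h1
  -- `A / W` is a perfect `p`-group, hence trivial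
  have hWtop : W = ⊤ := by
    haveI hnil : Group.IsNilpotent (↥A ⧸ W) := hq.isNilpotent
    have hA' : ⁅(⊤ : Subgroup ↥A), (⊤ : Subgroup ↥A)⁆ = ⊤ := by
      apply Subgroup.map_injective A.subtype_injective
      rw [Subgroup.map_commutator, ← MonoidHom.range_eq_map, Subgroup.range_subtype, hperf]
    have hsurj : Function.Surjective (QuotientGroup.mk' W) := QuotientGroup.mk'_surjective W
    have hQ : (⊤ : Subgroup (↥A ⧸ W)) ≤ ⁅(⊤ : Subgroup (↥A ⧸ W)), (⊤ : Subgroup (↥A ⧸ W))⁆ := by
      have h2 : (⊤ : Subgroup ↥A).map (QuotientGroup.mk' W) = ⊤ := by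
        rw [← MonoidHom.range_eq_map]; exact MonoidHom.range_eq_top.mpr hsurj
      have h3 := Subgroup.map_commutator (⊤ : Subgroup ↥A) (⊤ : Subgroup ↥A) (QuotientGroup.mk' W)
      rw [hA', h2] at h3
      exact h3.le
    by_contra hne2
    have hne3 : (⊤ : Subgroup (↥A ⧸ W)) ≠ ⊥ := by
      intro hbot
      apply hne2
      rw [eq_top_iff]
      intro a _
      have : (QuotientGroup.mk' W a) ∈ (⊤ : Subgroup (↥A ⧸ W)) := trivial
      rw [hbot, Subgroup.mem_bot] at this
      exact (QuotientGroup.eq_one_iff a).mp this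
    exact Cfsg.Agent.Lib.Transfer.Tate.not_le_commutator_top _ hne3 hQ
  have hcA : (Nat.card A).Coprime p := by
    rw [hWtop] at hc
    simpa using hc
  have hcK : (Nat.card K).Coprime p :=
    Nat.Coprime.coprime_dvd_left (Subgroup.card_dvd_of_le hK) hcA
  have hle := Cfsg.Agent.Lib.Components.PComponent.le_pPrimeCore_of_isSubnormal p hKs hcK
  rw [hcore, le_bot_iff] at hle
  exact hne hle

/-- The Burnside basis argument: a normal subgroup of `P` outside `Φ(P)`, where `|P : Φ(P)| = p²`,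
has cyclic quotient. -/
theorem exists_gen {Q : Type*} [Group Q] [Finite Q] (hQ : IsPGroup p Q)
    (hgen : (frattini Q).index = p ^ 2) (R : Subgroup Q) [hR : R.Normal]
    (hRF : ¬ R ≤ frattini Q) : ∃ y : Q, ∀ x : Q, ∃ k : ℤ, ∃ r ∈ R, x = y ^ k * r := by
  classical
  have hFn : (frattini Q).Normal := inferInstance
  set T : Subgroup Q := R ⊔ frattini Q with hT
  have hTn : T.Normal := Subgroup.sup_normal _ _
  have hFT : frattini Q ≤ T := le_sup_right
  have hFlt : frattini Q < T := lt_of_le_of_ne hFT (fun h => hRF (h ▸ le_sup_left))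
  -- the index of `T` divides `p²` and is smaller than `p²`
  have hmul : T.index * (frattini Q).relIndex T = p ^ 2 := by
    rw [mul_comm, Subgroup.relIndex_mul_index hFT, hgen]
  have hrel : (frattini Q).relIndex T ≠ 1 := by
    intro h1
    have := Subgroup.relIndex_eq_one.mp h1
    exact absurd (le_antisymm hFT this) hFlt.ne
  have hdvd : T.index ∣ p := by
    obtain ⟨i, hi, hTi⟩ := (Nat.dvd_prime_pow hp.out).mp (Dvd.intro _ hmul)
    interval_cases i
    · rw [hTi]; simp
    · rw [hTi]; simp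
    · rw [hTi] at hmul
      have : (frattini Q).relIndex T = 1 := by
        have hpos : 0 < p ^ 2 := pow_pos hp.out.pos 2
        exact Nat.eq_of_mul_eq_mul_left hpos (by simpa using hmul)
      exact absurd this hrel
  -- pick `y` outside `T` (or anything if `T = ⊤`)
  have hgen2 : ∃ y : Q, Subgroup.zpowers y ⊔ T = ⊤ := by
    by_cases hTtop : T = ⊤
    · exact ⟨1, by rw [hTtop]; simp⟩
    · obtain ⟨y, hy⟩ : ∃ y : Q, y ∉ T := by
        by_contra hall
        push Not at hall
        exact hTtop (eq_top_iff.mpr fun x _ => hall x)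
      refine ⟨y, ?_⟩
      have hidx : T.index = p := by
        rcases (Nat.dvd_prime hp.out).mp hdvd with h | h
        · exact absurd (Subgroup.index_eq_one.mp h) hTtop
        · exact h
      have hle : T ≤ Subgroup.zpowers y ⊔ T := le_sup_right
      have hd : (Subgroup.zpowers y ⊔ T).index ∣ p := by
        rw [← hidx]; exact Subgroup.index_dvd_of_le hle
      rcases (Nat.dvd_prime hp.out).mp hd with h | h
      · exact Subgroup.index_eq_one.mp h
      · exfalso
        have hm := Subgroup.relIndex_mul_index hle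
        rw [h, hidx] at hm
        have h1 : T.relIndex (Subgroup.zpowers y ⊔ T) = 1 := by
          have hpos : 0 < p := hp.out.pos
          nlinarith
        have hle2 := Subgroup.relIndex_eq_one.mp h1
        exact hy (hle2 ((le_sup_left : Subgroup.zpowers y ≤ _) (Subgroup.mem_zpowers y)))
  obtain ⟨y, hy⟩ := hgen2
  refine ⟨y, ?_⟩
  have h3 : (Subgroup.zpowers y ⊔ R) ⊔ frattini Q = ⊤ := by
    rw [sup_assoc]; exact hy
  have h4 := frattini_nongenerating h3
  intro x
  have hx : x ∈ Subgroup.zpowers y ⊔ R := by rw [h4]; trivial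
  rw [← SetLike.mem_coe, Subgroup.mul_normal] at hx
  obtain ⟨a, ha, r, hr, rfl⟩ := hx
  obtain ⟨k, rfl⟩ := Subgroup.mem_zpowers_iff.mp ha
  exact ⟨k, r, hr, rfl⟩


/-- Two normal subgroups of `Q` outside the Frattini subgroup with trivial intersection force `Q`
to be commutative. -/
theorem comm_of_two {Q : Type*} [Group Q] [Finite Q] (hQ : IsPGroup p Q)
    (hgen : (frattini Q).index = p ^ 2) (R₁ R₂ : Subgroup Q) [R₁.Normal] [R₂.Normal]
    (h₁ : ¬ R₁ ≤ frattini Q) (h₂ : ¬ R₂ ≤ frattini Q) (hinf : R₁ ⊓ R₂ = ⊥) (x y : Q) :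
    x * y = y * x := by
  have key : ∀ R : Subgroup Q, R.Normal → ¬ R ≤ frattini Q → x * y * x⁻¹ * y⁻¹ ∈ R := by
    intro R hR hRF
    obtain ⟨z, hz⟩ := exists_gen (p := p) hQ hgen R hRF
    obtain ⟨a, r, hr, hx⟩ := hz x
    obtain ⟨b, r', hr', hy⟩ := hz y
    have hmk : (QuotientGroup.mk' R) (x * y * x⁻¹ * y⁻¹) = 1 := by
      have h1 : (QuotientGroup.mk' R) r = 1 := (QuotientGroup.eq_one_iff r).mpr hr
      have h2 : (QuotientGroup.mk' R) r' = 1 := (QuotientGroup.eq_one_iff r').mpr hr'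
      have hc : Commute ((QuotientGroup.mk' R) z ^ a) ((QuotientGroup.mk' R) z ^ b) :=
        (Commute.refl _).zpow_zpow a b
      rw [hx, hy]
      simp only [map_mul, map_inv, map_zpow, h1, h2, mul_one]
      rw [hc.eq]
      group
    exact (QuotientGroup.eq_one_iff _).mp hmk
  have h3 : x * y * x⁻¹ * y⁻¹ ∈ R₁ ⊓ R₂ :=
    Subgroup.mem_inf.mpr ⟨key R₁ inferInstance h₁, key R₂ inferInstance h₂⟩
  rw [hinf, Subgroup.mem_bot] at h3
  have h4 : x * y * x⁻¹ = y := by
    have := mul_inv_eq_one.mp h3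
    exact this
  calc x * y = x * y * x⁻¹ * x := by group
    _ = y * x := by rw [h4]

/-- In a cyclic group the solutions of `t ^ p = 1` are the powers of any nontrivial solution. -/
theorem cyc_aux {C : Type*} [Group C] [Finite C] [IsCyclic C] {x w : C} (hx : x ≠ 1)
    (hxp : x ^ p = 1) (hwp : w ^ p = 1) : w ∈ Subgroup.zpowers x := by
  classical
  haveI := Fintype.ofFinite C
  have h1 : (Finset.univ.filter fun a : C => a ^ p = 1).card ≤ p :=
    IsCyclic.card_pow_eq_one_le hp.out.pos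
  have hord : orderOf x = p := orderOf_eq_prime hxp hx
  have h2 : (Finset.univ.filter fun a : C => a ∈ Subgroup.zpowers x) ⊆
      (Finset.univ.filter fun a : C => a ^ p = 1) := by
    intro a ha
    simp only [Finset.mem_filter, Finset.mem_univ, true_and] at ha ⊢
    obtain ⟨k, rfl⟩ := Subgroup.mem_zpowers_iff.mp ha
    rw [← zpow_natCast, zpow_comm, zpow_natCast, hxp, one_zpow]
  have h3 : (Finset.univ.filter fun a : C => a ∈ Subgroup.zpowers x).card = p := by
    rw [← hord, ← Nat.card_zpowers, Nat.card_eq_fintype_card]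
    exact (Fintype.card_subtype _).symm
  have h4 := Finset.eq_of_subset_of_card_le h2 (by rw [h3]; exact h1)
  have : w ∈ (Finset.univ.filter fun a : C => a ^ p = 1) := by simp [hwp]
  rw [← h4] at this
  simpa using this

/-- Projection in a commutative group onto a complement. -/
theorem proj_abstract {A : Type*} [CommGroup A] (W B : Subgroup A) (hinf : W ⊓ B = ⊥)
    (hsup : W ⊔ B = ⊤) :
    ∃ π : A →* A, (∀ b ∈ B, π b = b) ∧ (∀ u ∈ W, π u = 1) ∧ ∀ a, π a ∈ B := by
  classical
  have hex : ∀ a : A, ∃ b : A, b ∈ B ∧ a * b⁻¹ ∈ W := by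
    intro a
    have ha : a ∈ W ⊔ B := by rw [hsup]; trivial
    obtain ⟨u, hu, b, hb, rfl⟩ := Subgroup.mem_sup.mp ha
    exact ⟨b, hb, by simpa using hu⟩
  choose f hfB hfW using hex
  have huniq : ∀ a b : A, b ∈ B → a * b⁻¹ ∈ W → f a = b := by
    intro a b hb hab
    have h1 : f a * b⁻¹ ∈ B := B.mul_mem (hfB a) (B.inv_mem hb)
    have h2 : f a * b⁻¹ ∈ W := by
      have h3 := W.mul_mem hab (W.inv_mem (hfW a))
      have h4 : a * b⁻¹ * (a * (f a)⁻¹)⁻¹ = f a * b⁻¹ := by
        rw [mul_comm a b⁻¹, mul_inv_rev, inv_inv, mul_comm (f a) a⁻¹, mul_comm (f a) b⁻¹]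
        group
      rwa [h4] at h3
    have h5 : f a * b⁻¹ ∈ W ⊓ B := Subgroup.mem_inf.mpr ⟨h2, h1⟩
    rw [hinf, Subgroup.mem_bot] at h5
    exact mul_inv_eq_one.mp h5
  refine ⟨MonoidHom.mk' f ?_, ?_, ?_, hfB⟩
  · intro a b
    apply huniq _ _ (B.mul_mem (hfB a) (hfB b))
    have h3 := W.mul_mem (hfW a) (hfW b)
    have h4 : a * (f a)⁻¹ * (b * (f b)⁻¹) = a * b * (f a * f b)⁻¹ := by
      rw [mul_inv, mul_mul_mul_comm]
    rwa [h4] at h3
  · intro b hb
    exact huniq b b hb (by simp)
  · intro u hu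
    exact huniq u 1 B.one_mem (by simpa using hu)

/-- Averaging a `H`-equivariant projection over the cosets of `H`. -/
theorem avg {Γ A : Type*} [Group Γ] [CommGroup A] (act : Γ →* MulAut A) (H : Subgroup Γ)
    [Finite (Γ ⧸ H)] (B : Subgroup A) (hB : ∀ g, ∀ b ∈ B, act g b ∈ B) (π : A →* A)
    (hπB : ∀ b ∈ B, π b = b) (hπr : ∀ a, π a ∈ B)
    (hπH : ∀ q ∈ H, ∀ a, π (act q a) = act q (π a)) :
    ∃ τ : A →* A, (∀ g a, τ (act g a) = act g (τ a)) ∧ (∀ b ∈ B, τ b = b ^ H.index) ∧
      ∀ a, τ a ∈ B := by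
  classical
  haveI := Fintype.ofFinite (Γ ⧸ H)
  have hwd : ∀ (a : A) (g g' : Γ), (QuotientGroup.leftRel H).r g g' →
      act g (π (act g⁻¹ a)) = act g' (π (act g'⁻¹ a)) := by
    intro a g g' hgg
    have hq : g⁻¹ * g' ∈ H := QuotientGroup.leftRel_apply.mp hgg
    obtain ⟨q, hq', rfl⟩ : ∃ q ∈ H, g' = g * q := ⟨g⁻¹ * g', hq, by group⟩
    have h1 : act (g * q)⁻¹ a = act q⁻¹ (act g⁻¹ a) := by
      rw [mul_inv_rev, map_mul, MulAut.mul_apply]
    rw [h1, hπH q⁻¹ (H.inv_mem hq'), map_mul, MulAut.mul_apply]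
    have h2 : ∀ x, act q (act q⁻¹ x) = x := by
      intro x
      rw [← MulAut.mul_apply, ← map_mul, mul_inv_cancel, map_one]
      rfl
    rw [h2]
  let fl : A → Γ ⧸ H → A := fun a c => Quotient.liftOn' c (fun g => act g (π (act g⁻¹ a))) (hwd a)
  have hfl : ∀ (a : A) (g : Γ), fl a (g : Γ ⧸ H) = act g (π (act g⁻¹ a)) := fun a g => rfl
  refine ⟨MonoidHom.mk' (fun a => ∏ c, fl a c) ?_, ?_, ?_, ?_⟩
  · intro a b
    rw [← Finset.prod_mul_distrib]
    apply Finset.prod_congr rfl
    intro c _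
    induction c using QuotientGroup.induction_on with
    | H g => simp [hfl]
  · intro h a
    simp only [MonoidHom.mk'_apply]
    have h1 : ∀ c : Γ ⧸ H, fl (act h a) c = act h (fl a (h⁻¹ • c)) := by
      intro c
      induction c using QuotientGroup.induction_on with
      | H g =>
        rw [show h⁻¹ • (g : Γ ⧸ H) = ((h⁻¹ * g : Γ) : Γ ⧸ H) from rfl, hfl, hfl]
        have e1 : act g⁻¹ (act h a) = act (h⁻¹ * g)⁻¹ a := by
          rw [mul_inv_rev, inv_inv, map_mul, MulAut.mul_apply]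
        have e2 : ∀ x, act h (act (h⁻¹ * g) x) = act g x := by
          intro x
          rw [← MulAut.mul_apply, ← map_mul]
          simp
        rw [e1, e2]
    simp_rw [h1]
    rw [← map_prod (act h)]
    congr 1
    exact Equiv.prod_comp (MulAction.toPerm h⁻¹) (fun c => fl a c)
  · intro b hb
    simp only [MonoidHom.mk'_apply]
    have h1 : ∀ c : Γ ⧸ H, fl b c = b := by
      intro c
      induction c using QuotientGroup.induction_on with
      | H g =>
        rw [hfl, hπB _ (hB _ _ hb)]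
        simp
    simp_rw [h1]
    rw [Finset.prod_const, Finset.card_univ, Subgroup.index_eq_card, Nat.card_eq_fintype_card]
  · intro a
    simp only [MonoidHom.mk'_apply]
    apply Subgroup.prod_mem
    intro c _
    induction c using QuotientGroup.induction_on with
    | H g =>
      rw [hfl]
      exact hB _ _ (hπr _)


/-- Elements of `L ⊓ P` outside `Φ(P)` give that `L.subgroupOf P` is not in `Φ(P)`. -/
theorem subgroupOf_not_le (P : Sylow p G) (L : Subgroup G)
    (h : ¬ L ⊓ (P : Subgroup G) ≤ (frattini ↥(P : Subgroup G)).map (P : Subgroup G).subtype) :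
    ¬ L.subgroupOf (P : Subgroup G) ≤ frattini ↥(P : Subgroup G) := by
  intro h2
  apply h
  intro x hx
  obtain ⟨hxL, hxP⟩ := Subgroup.mem_inf.mp hx
  exact ⟨⟨x, hxP⟩, h2 hxL, rfl⟩

/-- The transfer argument: a central element of a perfect normal subgroup inside `P` lies in
`Φ(P)`. -/
theorem transfer_contra (P : Sylow p G) (E : Subgroup G) [hE : E.Normal] (hperf : ⁅E, E⁆ = E)
    (a : G) (haE : a ∈ E) (haP : a ∈ (P : Subgroup G)) (hcen : ∀ e ∈ E, e * a = a * e)
    (hΦ : a ∉ (frattini ↥(P : Subgroup G)).map (P : Subgroup G).subtype) : False := by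
  classical
  have hPp : IsPGroup p ↥(P : Subgroup G) := P.isPGroup'
  let a₀ : ↥(P : Subgroup G) := ⟨a, haP⟩
  have ha₀ : a₀ ∉ frattini ↥(P : Subgroup G) := fun h => hΦ ⟨a₀, h, rfl⟩
  rw [mem_frattini_iff] at ha₀
  push Not at ha₀
  obtain ⟨M, hM, hnM⟩ := ha₀
  let H : Subgroup ↥E := (P : Subgroup G).subgroupOf E
  let ι : H →* ↥(P : Subgroup G) :=
    { toFun := fun x => ⟨((x : ↥E) : G), x.2⟩
      map_one' := rfl
      map_mul' := fun _ _ => rfl }
  let ϕ : H →* Abelianization ↥(P : Subgroup G) := Abelianization.of.comp ι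
  haveI : H.FiniteIndex := inferInstance
  let V : ↥E →* Abelianization ↥(P : Subgroup G) := ϕ.transfer
  have hV : ∀ x, V x = 1 := by
    have htop : ⁅(⊤ : Subgroup ↥E), (⊤ : Subgroup ↥E)⁆ = ⊤ := by
      apply Subgroup.map_injective E.subtype_injective
      rw [Subgroup.map_commutator, ← MonoidHom.range_eq_map, Subgroup.range_subtype, hperf]
    intro x
    have hx : x ∈ ⁅(⊤ : Subgroup ↥E), (⊤ : Subgroup ↥E)⁆ := by rw [htop]; trivial
    have h2 : ⁅(⊤ : Subgroup ↥E), (⊤ : Subgroup ↥E)⁆ ≤ V.ker := by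
      rw [Subgroup.commutator_le]
      intro g1 _ g2 _
      rw [MonoidHom.mem_ker, commutatorElement_def, map_mul, map_mul, map_mul, map_inv, map_inv,
        mul_comm (V g1) (V g2)]
      group
    exact h2 hx
  let g : ↥E := ⟨a, haE⟩
  have hgcen : ∀ (k : ℕ) (g₀ : ↥E), g₀⁻¹ * g ^ k * g₀ = g ^ k := by
    intro k g₀
    have hc : Commute g₀ g := Subtype.ext (hcen _ g₀.2)
    have hc2 : Commute g₀⁻¹ (g ^ k) := (hc.pow_right k).inv_left
    rw [hc2.eq, mul_assoc, inv_mul_cancel, mul_one]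
  have hkey : ∀ (k : ℕ) (g₀ : ↥E), g₀⁻¹ * g ^ k * g₀ ∈ H → g₀⁻¹ * g ^ k * g₀ = g ^ k :=
    fun k g₀ _ => hgcen k g₀
  have ht := MonoidHom.transfer_eq_pow ϕ g hkey
  have h1 : V g = 1 := hV g
  have h3 : ϕ ⟨g ^ H.index, MonoidHom.transfer_eq_pow_aux g hkey⟩ = 1 := by
    rw [← ht]; exact h1
  have h4 : Abelianization.of (a₀ ^ H.index) = 1 := h3
  have h5 : a₀ ^ H.index ∈ commutator ↥(P : Subgroup G) :=
    (QuotientGroup.eq_one_iff _).mp h4
  have h6 : a₀ ^ H.index ∈ M := commutator_le_coatom hPp hM h5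
  -- `H.index` is prime to `p`
  have hidx : ¬ p ∣ H.index := by
    obtain ⟨Q, hQ⟩ := Cfsg.Agent.Lib.Basic.SylowUtil.exists_sylow_inf_normal P E
    have hQH : (Q : Subgroup ↥E) = H := by
      apply Subgroup.map_injective E.subtype_injective
      rw [hQ, Subgroup.subgroupOf_map_subtype]
    rw [← hQH]
    exact Q.not_dvd_index
  have hco : (H.index).Coprime (orderOf a₀) := by
    obtain ⟨k, hk⟩ := hPp a₀
    have hd : orderOf a₀ ∣ p ^ k := orderOf_dvd_of_pow_eq_one hk
    have hc : (H.index).Coprime p := ((Nat.Prime.coprime_iff_not_dvd hp.out).mpr hidx).symm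
    exact Nat.Coprime.coprime_dvd_right hd (Nat.Coprime.pow_right k hc)
  obtain ⟨m, hm⟩ := exists_pow_eq_self_of_coprime hco
  apply hnM
  rw [← hm]
  exact M.pow_mem h6 m

/-- The minimal normal subgroup. -/
theorem exists_min_normal (P : Sylow p G) (hna : ¬ IsMulCommutative (P : Subgroup G))
    (hgen : (frattini ↥(P : Subgroup G)).index = p ^ 2) (hcore : Cfsg.pPrimeCore p G = ⊥)
    (hfrat : ((frattini ↥(P : Subgroup G)).map (P : Subgroup G).subtype).normalCore = ⊥) :
    ∃ L : Subgroup G, L.Normal ∧ L ≠ ⊥ ∧ ∀ K : Subgroup G, K.Normal → K ≠ ⊥ → L ≤ K := by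
  classical
  have hPp : IsPGroup p ↥(P : Subgroup G) := P.isPGroup'
  have hnb : ∃ N : Subgroup G, N.Normal ∧ N ≠ ⊥ := by
    by_contra hno
    push Not at hno
    have htop : (⊤ : Subgroup G) = ⊥ := hno ⊤ inferInstance
    apply hna
    refine ⟨⟨fun a b => Subtype.ext ?_⟩⟩
    have ha : (a : G) = 1 := by
      have : (a : G) ∈ (⊤ : Subgroup G) := trivial
      rwa [htop, Subgroup.mem_bot] at this
    have hb : (b : G) = 1 := by
      have : (b : G) ∈ (⊤ : Subgroup G) := trivial
      rwa [htop, Subgroup.mem_bot] at this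
    simp [ha, hb]
  obtain ⟨L, hL⟩ := exists_minimal_of_wellFoundedLT (fun N : Subgroup G => N.Normal ∧ N ≠ ⊥) hnb
  haveI hLn : L.Normal := hL.prop.1
  refine ⟨L, hL.prop.1, hL.prop.2, ?_⟩
  intro K hK hKne
  by_contra hLK
  have hinf : L ⊓ K = ⊥ := by
    by_contra hne
    have hinfn : (L ⊓ K).Normal := Subgroup.normal_inf_normal _ _
    have := hL.le_of_le (y := L ⊓ K) ⟨hinfn, hne⟩ inf_le_left
    exact hLK (this.trans inf_le_right)
  apply hna
  haveI hKn := hK
  refine ⟨⟨fun a b => ?_⟩⟩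
  have h₁ := subgroupOf_not_le P L (not_le_of_normal P hcore hfrat L hL.prop.2)
  have h₂ := subgroupOf_not_le P K (not_le_of_normal P hcore hfrat K hKne)
  have hinf2 : L.subgroupOf (P : Subgroup G) ⊓ K.subgroupOf (P : Subgroup G) = ⊥ := by
    rw [Subgroup.eq_bot_iff_forall]
    intro x hx
    have h3 : (x : G) ∈ L ⊓ K :=
      Subgroup.mem_inf.mpr ⟨(Subgroup.mem_inf.mp hx).1, (Subgroup.mem_inf.mp hx).2⟩
    rw [hinf, Subgroup.mem_bot] at h3
    exact Subtype.ext h3
  exact comm_of_two hPp hgen _ _ h₁ h₂ hinf2 a b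

/-- The Fitting subgroup under the hypotheses: inside `P`, commutative, exponent `p`. -/
theorem fit_props (P : Sylow p G) (hcore : Cfsg.pPrimeCore p G = ⊥)
    (hfrat : ((frattini ↥(P : Subgroup G)).map (P : Subgroup G).subtype).normalCore = ⊥) :
    Cfsg.fittingSubgroup G ≤ (P : Subgroup G) ∧
      (∀ a ∈ Cfsg.fittingSubgroup G, ∀ b ∈ Cfsg.fittingSubgroup G, a * b = b * a) ∧
      ∀ a ∈ Cfsg.fittingSubgroup G, a ^ p = 1 := by
  classical
  have hPp : IsPGroup p ↥(P : Subgroup G) := P.isPGroup'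
  have hFn : (Cfsg.fittingSubgroup G).Normal := Cfsg.Agent.Lib.Components.Fitting.fitting_normal
  have hFle : Cfsg.fittingSubgroup G ≤ Cfsg.pCore p G := by
    rw [Cfsg.Agent.Lib.Basic.PCore.fittingSubgroup_eq_iSup_pCore]
    apply iSup_le
    rintro ⟨q, hq⟩
    have hqp : q.Prime := Nat.prime_of_mem_primeFactors hq
    by_cases hqe : q = p
    · subst hqe; exact le_rfl
    · haveI : Fact q.Prime := ⟨hqp⟩
      have h1 : IsPGroup q (Cfsg.pCore q G) := Cfsg.Agent.Lib.Basic.PCore.pCore_isPGroup q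
      have h2 : (Nat.card (Cfsg.pCore q G)).Coprime p := by
        obtain ⟨k, hk⟩ := IsPGroup.iff_card.mp h1
        rw [hk]
        exact Nat.Coprime.pow_left k ((Nat.coprime_primes hqp hp.out).mpr hqe)
      have h3 := Cfsg.Agent.Lib.Basic.PCore.le_pPrimeCore
        (Cfsg.Agent.Lib.Basic.PCore.pCore_normal (p := q) (G := G)) h2
      rw [hcore, le_bot_iff] at h3
      simp only [h3]
      exact bot_le
  have hFP : Cfsg.fittingSubgroup G ≤ (P : Subgroup G) :=
    hFle.trans (Cfsg.Agent.Lib.Basic.PCore.pCore_le_sylow P)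
  have hkill : ∀ x : G, (∀ g : G, g * x * g⁻¹ ∈
      (frattini ↥(P : Subgroup G)).map (P : Subgroup G).subtype) → x = 1 := by
    intro x hx
    have : x ∈ ((frattini ↥(P : Subgroup G)).map (P : Subgroup G).subtype).normalCore := hx
    rwa [hfrat, Subgroup.mem_bot] at this
  have hconj : ∀ a ∈ Cfsg.fittingSubgroup G, ∀ g : G, g * a * g⁻¹ ∈ (P : Subgroup G) :=
    fun a ha g => hFP (hFn.conj_mem a ha g)
  refine ⟨hFP, ?_, ?_⟩
  · intro a ha b hb
    have h1 : a * b * a⁻¹ * b⁻¹ = 1 := by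
      apply hkill
      intro g
      let a' : ↥(P : Subgroup G) := ⟨g * a * g⁻¹, hconj a ha g⟩
      let b' : ↥(P : Subgroup G) := ⟨g * b * g⁻¹, hconj b hb g⟩
      have hmem : ⁅a', b'⁆ ∈ frattini ↥(P : Subgroup G) :=
        commutator_le_frattini hPp (Subgroup.commutator_mem_commutator (Subgroup.mem_top _)
          (Subgroup.mem_top _))
      refine ⟨⁅a', b'⁆, hmem, ?_⟩
      simp only [Subgroup.coe_subtype, commutatorElement_def, Subgroup.coe_mul, Subgroup.coe_inv]
      simp only [a', b']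
      group
    have h2 := mul_inv_eq_one.mp h1
    calc a * b = a * b * a⁻¹ * a := by group
      _ = b * a := by rw [h2]
  · intro a ha
    apply hkill
    intro g
    let a' : ↥(P : Subgroup G) := ⟨g * a * g⁻¹, hconj a ha g⟩
    refine ⟨a' ^ p, pow_mem_frattini hPp a', ?_⟩
    simp only [Subgroup.coe_subtype, Subgroup.coe_pow, a']
    rw [conj_pow]

/-- If the normal abelian `p`-subgroup `F ≤ P` of exponent `p` contains the smallest normal
subgroup `L`, then `F = L`. -/
theorem fit_le_min (P : Sylow p G) (hgen : (frattini ↥(P : Subgroup G)).index = p ^ 2)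
    (F L : Subgroup G) [hF : F.Normal] [hLn : L.Normal] (hLF : L ≤ F) (hFP : F ≤ (P : Subgroup G))
    (hcomm : ∀ a ∈ F, ∀ b ∈ F, a * b = b * a) (hexp : ∀ a ∈ F, a ^ p = 1)
    (hL : ¬ L ⊓ (P : Subgroup G) ≤ (frattini ↥(P : Subgroup G)).map (P : Subgroup G).subtype)
    (hmin : ∀ K : Subgroup G, K.Normal → K ≠ ⊥ → L ≤ K) (hLne : L ≠ ⊥) : F ≤ L := by
  classical
  by_contra hnot
  obtain ⟨f, hfF, hfL⟩ := SetLike.not_le_iff_exists.mp hnot
  have hPp : IsPGroup p ↥(P : Subgroup G) := P.isPGroup'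
  obtain ⟨y, hy⟩ := exists_gen hPp hgen (L.subgroupOf (P : Subgroup G)) (subgroupOf_not_le P L hL)
  have hdec : ∀ x ∈ (P : Subgroup G), ∃ k : ℤ, ∃ r ∈ L, x = (y : G) ^ k * r := by
    intro x hx
    obtain ⟨k, r, hr, hxe⟩ := hy ⟨x, hx⟩
    refine ⟨k, (r : G), hr, ?_⟩
    have := congrArg Subtype.val hxe
    simpa using this
  let W : Subgroup G := Subgroup.zpowers (y : G) ⊓ F
  have hWF : W ≤ F := inf_le_right
  have hWcen : ∀ w ∈ W, ∀ x ∈ (P : Subgroup G), x * w * x⁻¹ = w := by
    intro w hw x hx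
    obtain ⟨hw1, hw2⟩ := Subgroup.mem_inf.mp hw
    obtain ⟨k, r, hr, rfl⟩ := hdec x hx
    obtain ⟨j, rfl⟩ := Subgroup.mem_zpowers_iff.mp hw1
    have h1 : Commute r ((y : G) ^ j) := hcomm _ (hLF hr) _ hw2
    have h2 : Commute ((y : G) ^ k) ((y : G) ^ j) := (Commute.refl _).zpow_zpow k j
    have h3 : Commute ((y : G) ^ k * r) ((y : G) ^ j) := h2.mul_left h1
    rw [h3.eq]
    group
  have hsup : ∀ a ∈ F, ∃ u ∈ W, ∃ b ∈ L, a = u * b := by
    intro a ha
    obtain ⟨k, r, hr, hak⟩ := hdec a (hFP ha)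
    refine ⟨(y : G) ^ k, Subgroup.mem_inf.mpr ⟨Subgroup.zpow_mem_zpowers _ _, ?_⟩, r, hr, hak⟩
    have : (y : G) ^ k = a * r⁻¹ := by rw [hak]; group
    rw [this]
    exact F.mul_mem ha (F.inv_mem (hLF hr))
  obtain ⟨w₀, hw₀W, r₀, hr₀, hf⟩ := hsup f hfF
  have hw₀L : w₀ ∉ L := by
    intro hw
    apply hfL
    rw [hf]
    exact L.mul_mem hw hr₀
  have hinf : ∀ w ∈ W, w ∈ L → w = 1 := by
    intro w hw hwL
    by_contra hw1
    have hwz : w ∈ Subgroup.zpowers (y : G) := (Subgroup.mem_inf.mp hw).1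
    have hw₀z : w₀ ∈ Subgroup.zpowers (y : G) := (Subgroup.mem_inf.mp hw₀W).1
    let x' : ↥(Subgroup.zpowers (y : G)) := ⟨w, hwz⟩
    let w' : ↥(Subgroup.zpowers (y : G)) := ⟨w₀, hw₀z⟩
    have hx'1 : x' ≠ 1 := fun h => hw1 (congrArg Subtype.val h)
    have hx'p : x' ^ p = 1 := Subtype.ext (hexp w (hLF hwL))
    have hw'p : w' ^ p = 1 := Subtype.ext (hexp w₀ (hWF hw₀W))
    have hmem := cyc_aux hx'1 hx'p hw'p
    obtain ⟨k, hk⟩ := Subgroup.mem_zpowers_iff.mp hmem
    have hk2 : w ^ k = w₀ := congrArg Subtype.val hk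
    apply hw₀L
    rw [← hk2]
    exact L.zpow_mem hwL k
  letI cg : CommGroup ↥F :=
    { (inferInstance : Group ↥F) with
      mul_comm := fun a b => Subtype.ext (hcomm _ a.2 _ b.2) }
  let W' : Subgroup ↥F := W.subgroupOf F
  let B : Subgroup ↥F := L.subgroupOf F
  have hinf' : W' ⊓ B = ⊥ := by
    rw [Subgroup.eq_bot_iff_forall]
    intro x hx
    exact Subtype.ext (hinf _ (Subgroup.mem_inf.mp hx).1 (Subgroup.mem_inf.mp hx).2)
  have hsup' : W' ⊔ B = ⊤ := by
    rw [eq_top_iff]
    intro a _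
    obtain ⟨u, hu, b, hb, hab⟩ := hsup a a.2
    have hae : a = (⟨u, hWF hu⟩ : ↥F) * (⟨b, hLF hb⟩ : ↥F) := Subtype.ext hab
    rw [hae]
    exact Subgroup.mul_mem_sup (show _ ∈ W' from hu) (show _ ∈ B from hb)
  obtain ⟨π, hπB, hπW, hπr⟩ := proj_abstract W' B hinf' hsup'
  let act : G →* MulAut ↥F := MulAut.conjNormal
  have hact : ∀ (g : G) (a : ↥F), ((act g a : ↥F) : G) = g * (a : G) * g⁻¹ := by
    intro g a
    simp [act, MulAut.conjNormal_apply]
  have hB : ∀ g, ∀ b ∈ B, act g b ∈ B := by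
    intro g b hb
    change ((act g b : ↥F) : G) ∈ L
    rw [hact]
    exact hLn.conj_mem _ hb g
  have hπH : ∀ q ∈ (P : Subgroup G), ∀ a, π (act q a) = act q (π a) := by
    intro q hq a
    have ha : a ∈ W' ⊔ B := by rw [hsup']; trivial
    obtain ⟨u, hu, b, hb, rfl⟩ := Subgroup.mem_sup.mp ha
    have huq : act q u = u := by
      apply Subtype.ext
      rw [hact]
      exact hWcen _ hu q hq
    rw [map_mul, map_mul, map_mul, huq, hπW u hu, hπB _ (hB q b hb), hπB b hb, one_mul, one_mul]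
  obtain ⟨τ, hτ1, hτ2, hτ3⟩ := avg act (P : Subgroup G) B hB π hπB hπr hπH
  let K₀ : Subgroup G := τ.ker.map F.subtype
  have hK₀n : K₀.Normal := by
    refine ⟨?_⟩
    rintro _ ⟨k, hk, rfl⟩ g
    refine ⟨act g k, ?_, ?_⟩
    · have : τ (act g k) = 1 := by
        rw [hτ1, MonoidHom.mem_ker.mp hk, map_one]
      exact MonoidHom.mem_ker.mpr this
    · exact hact g k
  have hK₀ne : K₀ ≠ ⊥ := by
    intro hbot
    have hker : τ.ker = ⊥ := (Subgroup.map_eq_bot_iff_of_injective _ F.subtype_injective).mp hbot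
    have hinj : Function.Injective τ := (MonoidHom.ker_eq_bot_iff τ).mp hker
    have hsurj : Function.Surjective τ := Finite.injective_iff_surjective.mp hinj
    obtain ⟨a, ha⟩ := hsurj ⟨f, hfF⟩
    have := hτ3 a
    rw [ha] at this
    exact hfL this
  have hLK := hmin K₀ hK₀n hK₀ne
  apply hLne
  rw [Subgroup.eq_bot_iff_forall]
  intro x hx
  obtain ⟨k, hk, hke⟩ := hLK hx
  have hk1 : τ k = 1 := MonoidHom.mem_ker.mp hk
  have hkB : k ∈ B := by
    change (k : G) ∈ L
    have : (k : G) = x := hke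
    rw [this]
    exact hx
  rw [hτ2 k hkB] at hk1
  have hkp : k ^ p = 1 := Subtype.ext (hexp _ k.2)
  have hco : (P : Subgroup G).index.Coprime p :=
    ((Nat.Prime.coprime_iff_not_dvd hp.out).mpr P.not_dvd_index).symm
  have hord : orderOf k ∣ Nat.gcd (P : Subgroup G).index p :=
    Nat.dvd_gcd (orderOf_dvd_of_pow_eq_one hk1) (orderOf_dvd_of_pow_eq_one hkp)
  rw [hco, Nat.dvd_one, orderOf_eq_one_iff] at hord
  rw [← (show (k : G) = x from hke), hord]
  rfl

/-- Sup of a `P`-stable family of subgroups is `P`-invariant. -/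
theorem le_normalizer_sSup (P : Subgroup G) (S : Set (Subgroup G))
    (hS : ∀ x ∈ P, ∀ K ∈ S, K.map (MulAut.conj x).toMonoidHom ∈ S) :
    P ≤ normalizer ((sSup S : Subgroup G) : Set G) := by
  have key : ∀ x ∈ P, ∀ n ∈ sSup S, x * n * x⁻¹ ∈ sSup S := by
    intro x hx n hn
    have hle : sSup S ≤ (sSup S).comap (MulAut.conj x).toMonoidHom := by
      apply sSup_le
      intro K hK y hy
      exact le_sSup (hS x hx K hK) ⟨y, hy, rfl⟩
    exact hle hn
  intro x hx
  refine Subgroup.mem_normalizer_iff.mpr fun n => ⟨key x hx n, fun h => ?_⟩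
  have := key x⁻¹ (P.inv_mem hx) _ h
  simpa [mul_assoc] using this

/-- Sup of a family of perfect subgroups is perfect. -/
theorem commutator_sSup (S : Set (Subgroup G)) (hS : ∀ K ∈ S, ⁅K, K⁆ = K) :
    ⁅sSup S, sSup S⁆ = sSup S := by
  apply le_antisymm
  · rw [Subgroup.commutator_le]
    intro a ha b hb
    rw [commutatorElement_def]
    exact (sSup S).mul_mem ((sSup S).mul_mem ((sSup S).mul_mem ha hb) ((sSup S).inv_mem ha))
      ((sSup S).inv_mem hb)
  · apply sSup_le
    intro K hK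
    calc K = ⁅K, K⁆ := (hS K hK).symm
      _ ≤ ⁅sSup S, sSup S⁆ := Subgroup.commutator_mono (le_sSup hK) (le_sSup hK)

/-- `subgroupOf` of a `P`-invariant subgroup is normal in `P`. -/
theorem subgroupOf_normal_of_le (P : Subgroup G) (A : Subgroup G)
    (hA : P ≤ normalizer (A : Set G)) : (A.subgroupOf P).Normal := by
  refine ⟨fun n hn g => ?_⟩
  have h1 : (n : G) ∈ A := hn
  exact (Subgroup.mem_normalizer_iff.mp (hA g.2) n).mp h1

open Cfsg.Agent.Lib.Components.Layer in
/-- The conjugation transitivity: the components form one orbit of `P`. -/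
theorem components_transitive (P : Sylow p G) (hna : ¬ IsMulCommutative (P : Subgroup G))
    (hgen : (frattini ↥(P : Subgroup G)).index = p ^ 2) (hcore : Cfsg.pPrimeCore p G = ⊥)
    (hfit : Cfsg.fittingSubgroup G = ⊥) (K L : Subgroup G) (hK : Cfsg.IsComponent K)
    (hL : Cfsg.IsComponent L) : ∃ x ∈ (P : Subgroup G), L = K.map (MulAut.conj x).toMonoidHom := by
  classical
  have hPp : IsPGroup p ↥(P : Subgroup G) := P.isPGroup'
  by_contra hno
  let O : Set (Subgroup G) :=
    {K' | Cfsg.IsComponent K' ∧ ∃ x ∈ (P : Subgroup G), K' = K.map (MulAut.conj x).toMonoidHom}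
  let U : Set (Subgroup G) := {K' | Cfsg.IsComponent K' ∧ K' ∉ O}
  have hKO : K ∈ O := by
    refine ⟨hK, 1, P.one_mem, ?_⟩
    ext y
    simp
  have hLU : L ∈ U := ⟨hL, fun h => hno h.2⟩
  have hconj : ∀ (x y : G) (M : Subgroup G), (M.map (MulAut.conj y).toMonoidHom).map
      (MulAut.conj x).toMonoidHom = M.map (MulAut.conj (x * y)).toMonoidHom := by
    intro x y M
    rw [Subgroup.map_map]
    congr 1
    ext z
    simp [mul_assoc]
  have hOst : ∀ x ∈ (P : Subgroup G), ∀ K' ∈ O, K'.map (MulAut.conj x).toMonoidHom ∈ O := by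
    rintro x hx K' ⟨hK', y, hy, rfl⟩
    exact ⟨isComponent_conj x hK', x * y, (P : Subgroup G).mul_mem hx hy, hconj x y K⟩
  have hUst : ∀ x ∈ (P : Subgroup G), ∀ K' ∈ U, K'.map (MulAut.conj x).toMonoidHom ∈ U := by
    rintro x hx K' ⟨hK', hnO⟩
    refine ⟨isComponent_conj x hK', fun hO => hnO ?_⟩
    have := hOst x⁻¹ ((P : Subgroup G).inv_mem hx) _ hO
    rw [hconj, inv_mul_cancel] at this
    have he : K'.map (MulAut.conj (1 : G)).toMonoidHom = K' := by
      ext y; simp
    rwa [he] at this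
  let A : Subgroup G := sSup O
  let B : Subgroup G := sSup U
  have hPA : (P : Subgroup G) ≤ normalizer (A : Set G) := le_normalizer_sSup _ O hOst
  have hPB : (P : Subgroup G) ≤ normalizer (B : Set G) := le_normalizer_sSup _ U hUst
  have hperfA : ⁅A, A⁆ = A :=
    commutator_sSup O fun K' hK' => Subgroup.isPerfect_iff.mp hK'.1.2.1
  have hperfB : ⁅B, B⁆ = B :=
    commutator_sSup U fun K' hK' => Subgroup.isPerfect_iff.mp hK'.1.2.1
  have hKA : K ≤ A := le_sSup hKO
  have hLB : L ≤ B := le_sSup hLU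
  have hcomm : A ≤ centralizer (B : Set G) := by
    apply sSup_le
    intro K' hK'
    rw [Subgroup.le_centralizer_iff]
    apply sSup_le
    intro K'' hK''
    rw [← Subgroup.le_centralizer_iff, ← Subgroup.commutator_eq_bot_iff_le_centralizer]
    have hne : K' ≠ K'' := fun h => hK''.2 (h ▸ hK')
    rcases eq_or_commutator_eq_bot hK'.1 hK''.1 with h | h
    · exact absurd h hne
    · exact h
  have hAL : A ≤ Cfsg.layer G := sSup_le fun K' hK' => le_layer hK'.1
  have hLay : Cfsg.layer G = A ⊔ B := by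
    apply le_antisymm
    · apply sSup_le
      intro K' hK'
      by_cases h : K' ∈ O
      · exact (le_sSup h).trans le_sup_left
      · exact (le_sSup (show K' ∈ U from ⟨hK', h⟩)).trans le_sup_right
    · exact sup_le hAL (sSup_le fun K' hK' => le_layer hK'.1)
  have hAB : A ⊓ B = ⊥ := by
    have h1 : A ⊓ B ≤ Cfsg.layer G ⊓ centralizer (Cfsg.layer G : Set G) := by
      intro c hc
      obtain ⟨hcA, hcB⟩ := Subgroup.mem_inf.mp hc
      refine Subgroup.mem_inf.mpr ⟨hAL hcA, ?_⟩
      rw [hLay, Subgroup.mem_centralizer_iff]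
      intro h hh
      have hh' : h ∈ A ⊔ B := hh
      have h2 : A ⊔ B ≤ centralizer ({c} : Set G) := by
        apply sup_le
        · intro a ha
          rw [Subgroup.mem_centralizer_singleton_iff]
          exact (Subgroup.mem_centralizer_iff.mp (hcomm ha) c hcB).symm
        · intro b hb
          rw [Subgroup.mem_centralizer_singleton_iff]
          exact (Subgroup.mem_centralizer_iff.mp (hcomm hcA) b hb)
      have h3 := h2 hh'
      rw [Subgroup.mem_centralizer_singleton_iff] at h3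
      exact h3
    have h2 := h1.trans Cfsg.Agent.Lib.Components.FStarFactor.inf_centralizer_layer_le_fitting
    rw [hfit, le_bot_iff] at h2
    exact h2
  have hA' := not_le_of_perfect P hcore A hPA hperfA K hKA hK.1 (ne_bot_of_isComponent hK)
  have hB' := not_le_of_perfect P hcore B hPB hperfB L hLB hL.1 (ne_bot_of_isComponent hL)
  have h₁ := subgroupOf_not_le P A hA'
  have h₂ := subgroupOf_not_le P B hB'
  haveI := subgroupOf_normal_of_le (P : Subgroup G) A hPA
  haveI := subgroupOf_normal_of_le (P : Subgroup G) B hPB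
  have hinf2 : A.subgroupOf (P : Subgroup G) ⊓ B.subgroupOf (P : Subgroup G) = ⊥ := by
    rw [Subgroup.eq_bot_iff_forall]
    intro x hx
    have h3 : (x : G) ∈ A ⊓ B :=
      Subgroup.mem_inf.mpr ⟨(Subgroup.mem_inf.mp hx).1, (Subgroup.mem_inf.mp hx).2⟩
    rw [hAB, Subgroup.mem_bot] at h3
    exact Subtype.ext h3
  apply hna
  exact ⟨⟨fun a b => comm_of_two hPp hgen _ _ h₁ h₂ hinf2 a b⟩⟩

/-- The main structural statement: `F*(G)` is the smallest nontrivial normal subgroup, and either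
`F(G) = 1` or `F*(G) = F(G)` is commutative. -/
theorem main_struct (P : Sylow p G) (hna : ¬ IsMulCommutative (P : Subgroup G))
    (hgen : (frattini ↥(P : Subgroup G)).index = p ^ 2) (hcore : Cfsg.pPrimeCore p G = ⊥)
    (hfrat : ((frattini ↥(P : Subgroup G)).map (P : Subgroup G).subtype).normalCore = ⊥) :
    (∀ K : Subgroup G, K.Normal → K ≠ ⊥ → Cfsg.generalizedFittingSubgroup G ≤ K) ∧
      Cfsg.generalizedFittingSubgroup G ≠ ⊥ ∧
      (¬ IsMulCommutative (Cfsg.generalizedFittingSubgroup G) → Cfsg.fittingSubgroup G = ⊥) := by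
  classical
  obtain ⟨L, hLn, hLne, hmin⟩ := exists_min_normal P hna hgen hcore hfrat
  haveI := hLn
  have hLΦ := not_le_of_normal P hcore hfrat L hLne
  obtain ⟨hFP, hFcomm, hFexp⟩ := fit_props P hcore hfrat
  haveI hFn : (Cfsg.fittingSubgroup G).Normal := Cfsg.Agent.Lib.Components.Fitting.fitting_normal
  haveI hEn : (Cfsg.layer G).Normal := Cfsg.Agent.Lib.Components.Layer.layer_normal
  have hEnotbot : Cfsg.generalizedFittingSubgroup G ≠ ⊥ := by
    intro hb
    have h1 := Cfsg.Agent.Lib.Components.FStar.centralizer_generalizedFitting_le (G := G)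
    rw [hb] at h1
    apply hLne
    rw [Subgroup.eq_bot_iff_forall]
    intro x _
    have h2 : x ∈ centralizer (((⊥ : Subgroup G) : Subgroup G) : Set G) := by
      rw [Subgroup.mem_centralizer_iff]
      intro h hh
      have hh' : h ∈ (⊥ : Subgroup G) := hh
      rw [Subgroup.mem_bot] at hh'
      rw [hh']
      simp
    have h3 := h1 h2
    rwa [Subgroup.mem_bot] at h3
  by_cases hF : Cfsg.fittingSubgroup G = ⊥
  · -- `F(G) = 1`
    have hgf : Cfsg.generalizedFittingSubgroup G = Cfsg.layer G := by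
      unfold Cfsg.generalizedFittingSubgroup
      rw [hF, sup_bot_eq]
    have hEne : Cfsg.layer G ≠ ⊥ := hgf ▸ hEnotbot
    have hLE : L ≤ Cfsg.layer G := hmin _ hEn hEne
    have hEL : Cfsg.layer G ≤ L := by
      apply sSup_le
      intro K hK
      rcases Cfsg.Agent.Lib.Components.Layer.le_or_commutator_eq_bot_of_normal hK hLn with h | h
      · exact h
      · exfalso
        have hKC : K ≤ centralizer (L : Set G) :=
          Subgroup.commutator_eq_bot_iff_le_centralizer.mp h
        have hCn : (centralizer (L : Set G)).Normal := Subgroup.normal_centralizer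
        have hCne : centralizer (L : Set G) ≠ ⊥ := by
          intro hb
          rw [hb, le_bot_iff] at hKC
          exact Cfsg.Agent.Lib.Components.Layer.ne_bot_of_isComponent hK hKC
        have hLC := hmin _ hCn hCne
        -- `L` is abelian, hence inside `F(G) = 1`
        have hLab : L ≤ Cfsg.fittingSubgroup G := by
          apply Cfsg.Agent.Lib.Basic.PCore.le_fittingSubgroup hLn
          letI : CommGroup ↥L :=
            { (inferInstance : Group ↥L) with
              mul_comm := fun a b => Subtype.ext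
                (Subgroup.mem_centralizer_iff.mp (hLC a.2) b b.2).symm }
          exact CommGroup.isNilpotent
        rw [hF, le_bot_iff] at hLab
        exact hLne hLab
    have heq : Cfsg.generalizedFittingSubgroup G = L := hgf.trans (le_antisymm hEL hLE)
    exact ⟨fun K hK hne => heq ▸ hmin K hK hne, hEnotbot, fun _ => hF⟩
  · -- `F(G) ≠ 1`
    have hLF : L ≤ Cfsg.fittingSubgroup G := hmin _ hFn hF
    have hFL := fit_le_min P hgen (Cfsg.fittingSubgroup G) L hLF hFP hFcomm hFexp hLΦ hmin hLne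
    have hEbot : Cfsg.layer G = ⊥ := by
      by_contra hEne
      have hLE : L ≤ Cfsg.layer G := hmin _ hEn hEne
      have hLsolv : Group.IsSolvable ↥L := by
        letI : CommGroup ↥L :=
          { (inferInstance : Group ↥L) with
            mul_comm := fun a b => Subtype.ext (hFcomm _ (hLF a.2) _ (hLF b.2)) }
        exact inferInstance
      have hc := Cfsg.Agent.Lib.Components.Layer.commutator_layer_eq_bot_of_isSolvable hLsolv hLn
      apply hLΦ
      intro a ha
      obtain ⟨haL, haP⟩ := Subgroup.mem_inf.mp ha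
      by_contra haΦ
      refine transfer_contra P (Cfsg.layer G) Cfsg.Agent.Lib.Components.Layer.commutator_layer a
        (hLE haL) haP ?_ haΦ
      intro e he
      exact Cfsg.Agent.Lib.Components.Layer.commutator_eq_bot_iff_forall.mp hc e he a haL
    have heq : Cfsg.generalizedFittingSubgroup G = L := by
      unfold Cfsg.generalizedFittingSubgroup
      rw [hEbot, bot_sup_eq]
      exact le_antisymm hFL hLF
    refine ⟨fun K hK hne => heq ▸ hmin K hK hne, hEnotbot, fun hnc => ?_⟩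
    exfalso
    apply hnc
    rw [heq]
    exact ⟨⟨fun a b => Subtype.ext (hFcomm _ (hLF a.2) _ (hLF b.2))⟩⟩

/-- Let p be a prime and G a finite group with a non-commutative Sylow p-subgroup P whose Frattini subgroup has index p² in P (P is generated by two elements). Suppose G has no nontrivial normal subgroup of order prime to p and the Frattini subgroup of P contains no nontrivial normal subgroup of G. Then the generalized Fitting subgroup F*(G) is the unique minimal normal subgroup of G, the image of P in G/F*(G) is cyclic, and if F*(G) is not commutative then P permutes the components of G transitively by conjugation. -/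
theorem result {G : Type*} [Group G] [Finite G] (p : ℕ) [Fact p.Prime] (P : Sylow p G) (hna : ¬ IsMulCommutative (P : Subgroup G)) (hgen : (frattini ↥(P : Subgroup G)).index = p ^ 2) (hcore : Cfsg.pPrimeCore p G = ⊥) (hfrat : ((frattini ↥(P : Subgroup G)).map (P : Subgroup G).subtype).normalCore = ⊥) [hFn : (Cfsg.generalizedFittingSubgroup G).Normal] :
    (Cfsg.generalizedFittingSubgroup G ≠ ⊥ ∧ ∀ K : Subgroup G, K.Normal → K ≠ ⊥ → Cfsg.generalizedFittingSubgroup G ≤ K) ∧
      IsCyclic ↥((P : Subgroup G).map (QuotientGroup.mk' (Cfsg.generalizedFittingSubgroup G))) ∧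
      (¬ IsMulCommutative (Cfsg.generalizedFittingSubgroup G) → ∀ K L : Subgroup G, Cfsg.IsComponent K → Cfsg.IsComponent L → ∃ x ∈ (P : Subgroup G), L = K.map (MulAut.conj x).toMonoidHom) := by
  classical
  obtain ⟨hmin, hne, hfit⟩ := main_struct P hna hgen hcore hfrat
  refine ⟨⟨hne, hmin⟩, ?_, fun hnc K L hK hL =>
    components_transitive P hna hgen hcore (hfit hnc) K L hK hL⟩
  -- the cyclic quotient
  have hΦ := not_le_of_normal P hcore hfrat (Cfsg.generalizedFittingSubgroup G) hne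
  have hPp : IsPGroup p ↥(P : Subgroup G) := P.isPGroup'
  obtain ⟨y, hy⟩ := exists_gen hPp hgen ((Cfsg.generalizedFittingSubgroup G).subgroupOf
    (P : Subgroup G)) (subgroupOf_not_le P _ hΦ)
  refine ⟨⟨⟨QuotientGroup.mk' (Cfsg.generalizedFittingSubgroup G) (y : G), ⟨y, y.2, rfl⟩⟩, ?_⟩⟩
  rintro ⟨_, x, hx, rfl⟩
  obtain ⟨k, r, hr, hxe⟩ := hy ⟨x, hx⟩
  refine ⟨k, Subtype.ext ?_⟩
  have hxe2 : x = (y : G) ^ k * (r : G) := by
    have := congrArg Subtype.val hxe
    simpa using this
  have hr2 : QuotientGroup.mk' (Cfsg.generalizedFittingSubgroup G) (r : G) = 1 :=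
    (QuotientGroup.eq_one_iff _).mpr hr
  simp only [SubgroupClass.coe_zpow]
  rw [hxe2, map_mul, hr2, mul_one, map_zpow]

end Cfsg.Agent.S4172
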