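import Cfsg.Statements.S4178
import Mathlib

set_option autoImplicit false
set_option linter.unusedSectionVars false
set_option linter.style.haveILetI false

namespace Cfsg.Agent.S4178

variable {F V : Type*} [Field F] [Fintype F] [AddCommGroup V] [Module F V] [FiniteDimensional F V]

/-- Generators of the subgroup `R`. -/
def fixers (H : Subgroup (V ≃ₗ[F] V)) : Set ↥H := {h : ↥H | ∃ v : V, v ≠ 0 ∧ (h : V ≃ₗ[F] V) v = v}

theorem finite_V (F V : Type*) [Field F] [Fintype F] [AddCommGroup V] [Module F V]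
    [FiniteDimensional F V] : Finite V := Module.finite_of_finite F

/-- If `f h = f h'` forces `h⁻¹ h' ∈ R` then the index of `R` is at most the size of the target. -/
theorem index_le_of_map {G X : Type*} [Group G] [Finite X] (R : Subgroup G) (f : G → X)
    (hf : ∀ h h', f h = f h' → h⁻¹ * h' ∈ R) : R.index ≤ Nat.card X := by
  rw [Subgroup.index]
  refine Nat.card_le_card_of_injective (fun a : G ⧸ R => f a.out) ?_
  intro a b hab
  have := hf _ _ hab
  have h2 : (a.out : G ⧸ R) = (b.out : G ⧸ R) := QuotientGroup.eq.mpr this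
  simpa using h2

theorem card_ne_zero {U : Type*} [AddCommGroup U] [Finite U] :
    Nat.card {u : U // u ≠ 0} = Nat.card U - 1 := by
  classical
  haveI := Fintype.ofFinite U
  simp only [Nat.card_eq_fintype_card]
  rw [Fintype.card_subtype_compl]
  simp

theorem mem_closure_of_fix (H : Subgroup (V ≃ₗ[F] V)) {g : ↥H} {v : V} (hv : v ≠ 0)
    (hg : (g : V ≃ₗ[F] V) v = v) : g ∈ Subgroup.closure (fixers H) :=
  Subgroup.subset_closure ⟨v, hv, hg⟩

theorem inv_mul_fix (H : Subgroup (V ≃ₗ[F] V)) {h h' : ↥H} {v : V}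
    (hh : (h : V ≃ₗ[F] V) v = (h' : V ≃ₗ[F] V) v) :
    ((h⁻¹ * h' : ↥H) : V ≃ₗ[F] V) v = v := by
  apply (h : V ≃ₗ[F] V).injective
  rw [hh]
  rw [← LinearEquiv.mul_apply, ← Subgroup.coe_mul, mul_inv_cancel_left]

theorem index_le_V [Nontrivial V] (H : Subgroup (V ≃ₗ[F] V)) :
    (Subgroup.closure (fixers H)).index ≤ Fintype.card F ^ Module.finrank F V - 1 := by
  classical
  have := finite_V F V
  obtain ⟨v0, hv0⟩ := exists_ne (0 : V)
  have h1 := index_le_of_map (Subgroup.closure (fixers H))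
    (fun h : ↥H => (⟨(h : V ≃ₗ[F] V) v0, by
      simpa using hv0⟩ : {u : V // u ≠ 0}))
    (fun h h' hh => by
      have h2 : (h : V ≃ₗ[F] V) v0 = (h' : V ≃ₗ[F] V) v0 := congrArg Subtype.val hh
      exact mem_closure_of_fix H hv0 (inv_mul_fix H h2))
  rw [card_ne_zero, Module.natCard_eq_pow_finrank (K := F), Nat.card_eq_fintype_card] at h1
  exact h1

theorem index_le_sub (H : Subgroup (V ≃ₗ[F] V)) (W : Submodule F V) (hW0 : W ≠ ⊥)
    (hW : ∀ h ∈ H, ∀ w ∈ W, h w ∈ W) :
    (Subgroup.closure (fixers H)).index ≤ Fintype.card F ^ Module.finrank F W - 1 := by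
  classical
  have := finite_V F V
  obtain ⟨v0, hv0W, hv0⟩ := (Submodule.ne_bot_iff _).mp hW0
  have h1 := index_le_of_map (Subgroup.closure (fixers H))
    (fun h : ↥H => (⟨⟨(h : V ≃ₗ[F] V) v0, hW _ h.2 _ hv0W⟩, by
      intro h0
      have : (h : V ≃ₗ[F] V) v0 = 0 := congrArg Subtype.val h0
      exact hv0 (by simpa using this)⟩ : {u : W // u ≠ 0}))
    (fun h h' hh => by
      have h2 : (h : V ≃ₗ[F] V) v0 = (h' : V ≃ₗ[F] V) v0 :=
        congrArg (fun x : {u : W // u ≠ 0} => ((x.1 : W) : V)) hh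
      exact mem_closure_of_fix H hv0 (inv_mul_fix H h2))
  rw [card_ne_zero, Module.natCard_eq_pow_finrank (K := F), Nat.card_eq_fintype_card] at h1
  exact h1

/-- Eigenvalue one on a quotient gives eigenvalue one on the space. -/
theorem exists_fix_of_quot (g : V ≃ₗ[F] V) (W : Submodule F V) (hW : ∀ w ∈ W, g w ∈ W) {v : V}
    (hv : v ∉ W) (hgv : g v - v ∈ W) : ∃ x : V, x ≠ 0 ∧ g x = x := by
  classical
  by_contra hno
  push Not at hno
  let T : V →ₗ[F] V := (g : V →ₗ[F] V) - LinearMap.id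
  have hTa : ∀ x, T x = g x - x := fun x => rfl
  have hTinj : Function.Injective T := by
    rw [← LinearMap.ker_eq_bot, LinearMap.ker_eq_bot']
    intro x hx
    by_contra hx0
    exact hno x hx0 (sub_eq_zero.mp (by rw [← hTa]; exact hx))
  have hTW : ∀ w ∈ W, T w ∈ W := fun w hw => W.sub_mem (hW w hw) hw
  let TW : W →ₗ[F] W := T.restrict hTW
  have hTWinj : Function.Injective TW := by
    intro a b hab
    apply Subtype.ext
    apply hTinj
    exact congrArg Subtype.val hab
  have hTWsurj : Function.Surjective TW := LinearMap.injective_iff_surjective.mp hTWinj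
  obtain ⟨w, hw⟩ := hTWsurj ⟨T v, hgv⟩
  have h1 : T (w : V) = T v := congrArg Subtype.val hw
  have h2 : (w : V) = v := hTinj h1
  exact hv (h2 ▸ w.2)

theorem index_le_quot (H : Subgroup (V ≃ₗ[F] V)) (W : Submodule F V) (hWt : W ≠ ⊤)
    (hW : ∀ h ∈ H, ∀ w ∈ W, h w ∈ W) :
    (Subgroup.closure (fixers H)).index ≤ Fintype.card F ^ Module.finrank F (V ⧸ W) - 1 := by
  classical
  have := finite_V F V
  have hfq : Finite (V ⧸ W) := finite_V F (V ⧸ W)
  obtain ⟨v1, hv1⟩ : ∃ v, v ∉ W := by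
    by_contra h
    push Not at h
    exact hWt (eq_top_iff.mpr fun x _ => h x)
  have hinvW : ∀ (h : ↥H) (x : V), (h : V ≃ₗ[F] V) x ∈ W → x ∈ W := by
    intro h x hx
    have h2 := hW _ (h⁻¹).2 _ hx
    have h3 : ((h⁻¹ : ↥H) : V ≃ₗ[F] V) ((h : V ≃ₗ[F] V) x) = x := by
      rw [← LinearEquiv.mul_apply, ← Subgroup.coe_mul, inv_mul_cancel]
      rfl
    rwa [h3] at h2
  have h1 := index_le_of_map (Subgroup.closure (fixers H))
    (fun h : ↥H => (⟨Submodule.Quotient.mk ((h : V ≃ₗ[F] V) v1), by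
      intro h0
      rw [Submodule.Quotient.mk_eq_zero] at h0
      exact hv1 (hinvW h _ h0)⟩ : {u : V ⧸ W // u ≠ 0}))
    (fun h h' hh => by
      have h2 : (Submodule.Quotient.mk ((h : V ≃ₗ[F] V) v1) : V ⧸ W) =
          Submodule.Quotient.mk ((h' : V ≃ₗ[F] V) v1) := congrArg Subtype.val hh
      rw [Submodule.Quotient.eq] at h2
      -- `g = h⁻¹ h'` moves `v1` inside `W`
      set g : ↥H := h⁻¹ * h' with hg
      have hhg : (h : V ≃ₗ[F] V) ((g : V ≃ₗ[F] V) v1) = (h' : V ≃ₗ[F] V) v1 := by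
        rw [← LinearEquiv.mul_apply, ← Subgroup.coe_mul, hg, mul_inv_cancel_left]
      have h3 : (g : V ≃ₗ[F] V) v1 - v1 ∈ W := by
        apply hinvW h
        rw [map_sub, hhg]
        have := W.neg_mem h2
        simpa using this
      obtain ⟨x, hx, hgx⟩ := exists_fix_of_quot (g : V ≃ₗ[F] V) W (hW _ g.2) hv1 h3
      exact mem_closure_of_fix H hx hgx)
  rw [card_ne_zero, Module.natCard_eq_pow_finrank (K := F), Nat.card_eq_fintype_card] at h1
  exact h1

/-- Let F be a finite field with q elements, V a non-zero finite-dimensional F-space of dimension d, H a group of invertible linear maps of V, and R the subgroup of H generated by the elements of H that fix some non-zero vector (have eigenvalue 1). Then the index of R in H is at most q^d − 1; and if H leaves invariant some proper non-zero subspace, the index is at most q^(d/2) − 1. -/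
theorem result {F V : Type*} [Field F] [Fintype F] [AddCommGroup V] [Module F V] [FiniteDimensional F V] [Nontrivial V]
    (H : Subgroup (V ≃ₗ[F] V)) :
    (Subgroup.closure {h : ↥H | ∃ v : V, v ≠ 0 ∧ (h : V ≃ₗ[F] V) v = v}).index ≤ Fintype.card F ^ Module.finrank F V - 1 ∧
    ((∃ W : Submodule F V, W ≠ ⊥ ∧ W ≠ ⊤ ∧ ∀ h ∈ H, ∀ w ∈ W, h w ∈ W) →
      ((Subgroup.closure {h : ↥H | ∃ v : V, v ≠ 0 ∧ (h : V ≃ₗ[F] V) v = v}).index : ℝ) ≤ Real.sqrt ((Fintype.card F : ℝ) ^ Module.finrank F V) - 1) := by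
  refine ⟨index_le_V H, ?_⟩
  rintro ⟨W, hW0, hWt, hW⟩
  have h1 := index_le_sub H W hW0 hW
  have h2 := index_le_quot H W hWt hW
  set i := (Subgroup.closure (fixers H)).index with hi
  change (i : ℝ) ≤ _
  set q := Fintype.card F with hq
  have hqpos : 1 ≤ q := Fintype.card_pos
  have hx : i + 1 ≤ q ^ Module.finrank F W := by
    have := Nat.one_le_pow (Module.finrank F W) q hqpos
    omega
  have hy : i + 1 ≤ q ^ Module.finrank F (V ⧸ W) := by
    have := Nat.one_le_pow (Module.finrank F (V ⧸ W)) q hqpos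
    omega
  have hd : q ^ Module.finrank F V = q ^ Module.finrank F (V ⧸ W) * q ^ Module.finrank F W := by
    rw [← pow_add, Submodule.finrank_quotient_add_finrank]
  have hsq : (i + 1) ^ 2 ≤ q ^ Module.finrank F V := by
    rw [hd, sq]
    exact Nat.mul_le_mul hy hx
  have hsqR : ((i : ℝ) + 1) ^ 2 ≤ (q : ℝ) ^ Module.finrank F V := by
    exact_mod_cast hsq
  have := Real.le_sqrt_of_sq_le hsqR
  linarith

end Cfsg.Agent.S4178
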