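import Cfsg.Statements.S4182
import Mathlib

set_option autoImplicit false
open Cfsg

namespace Cfsg.Agent.S4182

universe u v

section basics

variable {G : Type u} [Group G] {p : ℕ}

/-- `p`-elements. -/
def PE (p : ℕ) (g : G) : Prop := ∃ k : ℕ, orderOf g = p ^ k

/-- The subgroup generated by the `p`-elements of `Y`. -/
def gen (p : ℕ) (Y : Subgroup G) : Subgroup G := Subgroup.closure {g | PE p g ∧ g ∈ Y}

/-- Subgroups generated by their `p`-elements. -/
def PG (p : ℕ) (X : Subgroup G) : Prop := gen p X = X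

lemma gen_le (Y : Subgroup G) : gen p Y ≤ Y := by
  rw [gen, Subgroup.closure_le]
  exact fun g hg => hg.2

lemma gen_pg (Y : Subgroup G) : PG p (gen p Y) := by
  refine le_antisymm (gen_le _) ?_
  conv_lhs => rw [gen]
  rw [Subgroup.closure_le]
  intro g hg
  exact Subgroup.subset_closure ⟨hg.1, Subgroup.subset_closure hg⟩

lemma PG.le_gen {X Y : Subgroup G} (hX : PG p X) (h : X ≤ Y) : X ≤ gen p Y := by
  rw [← hX]
  exact Subgroup.closure_mono fun g hg => ⟨hg.1, h hg.2⟩

lemma PG.sup {X Y : Subgroup G} (hX : PG p X) (hY : PG p Y) : PG p (X ⊔ Y) :=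
  le_antisymm (gen_le _) (sup_le (hX.le_gen le_sup_left) (hY.le_gen le_sup_right))

lemma PE.pow [hp : Fact p.Prime] {x : G} (hx : PE p x) (n : ℕ) : PE p (x ^ n) := by
  obtain ⟨k, hk⟩ := hx
  have h1 : orderOf (x ^ n) ∣ p ^ k := hk ▸ orderOf_pow_dvd n
  obtain ⟨j, -, hj⟩ := (Nat.dvd_prime_pow hp.out).1 h1
  exact ⟨j, hj⟩

lemma PE.zpowers [hp : Fact p.Prime] {x : G} (hx : PE p x) :
    PG p (Subgroup.zpowers x) := by
  refine le_antisymm (gen_le _) ?_
  rw [Subgroup.zpowers_le]
  exact Subgroup.subset_closure ⟨hx, Subgroup.mem_zpowers x⟩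

/-- conjugates of subgroups -/
def cj (g : G) (X : Subgroup G) : Subgroup G := X.map (MulAut.conj g).toMonoidHom

lemma mem_cj {g y : G} {X : Subgroup G} : y ∈ cj g X ↔ g⁻¹ * y * g ∈ X := by
  rw [cj, Subgroup.mem_map]
  constructor
  · rintro ⟨z, hz, rfl⟩
    simpa [mul_assoc] using hz
  · intro h
    exact ⟨_, h, by simp [mul_assoc]⟩

lemma cj_cj (g h : G) (X : Subgroup G) : cj g (cj h X) = cj (g * h) X := by
  ext y
  simp only [mem_cj, mul_inv_rev, mul_assoc]

lemma cj_one (X : Subgroup G) : cj 1 X = X := by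
  ext y
  simp [mem_cj]

lemma cj_inj (g : G) {X Y : Subgroup G} (h : cj g X = cj g Y) : X = Y := by
  have := congrArg (cj g⁻¹) h
  simpa [cj_cj, cj_one] using this

lemma cj_mono (g : G) {X Y : Subgroup G} (h : X ≤ Y) : cj g X ≤ cj g Y :=
  Subgroup.map_mono h

lemma cj_ne_top (g : G) {X : Subgroup G} (h : X ≠ ⊤) : cj g X ≠ ⊤ := by
  intro h2
  apply h
  rw [eq_top_iff]
  intro y _
  have : g * y * g⁻¹ ∈ cj g X := h2 ▸ Subgroup.mem_top _
  rw [mem_cj] at this
  simpa [mul_assoc] using this

lemma PE.conj {x : G} (hx : PE p x) (g : G) : PE p (g⁻¹ * x * g) := by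
  obtain ⟨k, hk⟩ := hx
  refine ⟨k, ?_⟩
  have : g⁻¹ * x * g = MulAut.conj g⁻¹ x := by simp
  rw [this, MulEquiv.orderOf_eq, hk]

lemma PG.cj {X : Subgroup G} (hX : PG p X) (g : G) : PG p (cj g X) := by
  refine le_antisymm (gen_le _) ?_
  intro y hy
  rw [mem_cj] at hy
  rw [← hX] at hy
  -- conjugate the generators
  have : ∀ z ∈ gen p X, g * z * g⁻¹ ∈ gen p (S4182.cj g X) := by
    intro z hz
    induction hz using Subgroup.closure_induction with
    | mem z hz =>
      refine Subgroup.subset_closure ⟨?_, ?_⟩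
      · have := hz.1.conj g⁻¹
        simpa using this
      · rw [mem_cj]
        simpa [mul_assoc] using hz.2
    | one => simp
    | mul a b _ _ ha hb =>
      have := mul_mem ha hb
      simpa [mul_assoc] using this
    | inv a _ ha =>
      have := inv_mem ha
      simpa [mul_assoc] using this
  have h2 := this _ hy
  simpa [mul_assoc] using h2

end basics

section counting

variable {G : Type u} [Group G] [Finite G] {p : ℕ} [hp : Fact p.Prime]
variable {ι : Type v} [Fintype ι]

/-- A `p`-group is not the union of at most `p` proper subgroups. -/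
lemma pgroup_no_cover (hpg : ∀ g : G, PE p g) (hι : Fintype.card ι ≤ p) (K : ι → Subgroup G)
    (hK : ∀ i, K i ≠ ⊤) (hcov : ∀ g : G, ∃ i, g ∈ K i) : False := by
  classical
  have := Fintype.ofFinite G
  have hpp := hp.out
  have hGp : IsPGroup p G := by
    intro g
    obtain ⟨k, hk⟩ := hpg g
    exact ⟨k, by rw [← hk, pow_orderOf_eq_one]⟩
  obtain ⟨m, hm⟩ := IsPGroup.iff_card.1 hGp
  -- each proper subgroup has order at most `|G| / p`
  have hK1 : ∀ i, Nat.card (K i) * p ≤ Nat.card G := by
    intro i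
    have h1 := Subgroup.card_mul_index (K i)
    have h2 : (K i).index ∣ p ^ m := hm ▸ ⟨_, by rw [← h1, mul_comm]⟩
    obtain ⟨j, -, hj⟩ := (Nat.dvd_prime_pow hpp).1 h2
    have hj0 : j ≠ 0 := by
      rintro rfl
      rw [pow_zero] at hj
      exact hK i (Subgroup.index_eq_one.1 hj)
    have h3 : p ∣ (K i).index := hj ▸ dvd_pow_self p hj0
    rw [← h1]
    exact Nat.mul_le_mul_left _ (Nat.le_of_dvd (Nat.pos_of_ne_zero Subgroup.index_ne_zero_of_finite) h3)
  obtain ⟨i0, -⟩ := hcov 1
  have hcard : Nat.card G = Fintype.card G := Nat.card_eq_fintype_card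
  set r := Fintype.card G with hr
  have hrp : p ≤ r := by
    have h1 := hK1 i0
    have h2 : 0 < Nat.card (K i0) := Nat.card_pos
    rw [hcard] at h1
    nlinarith
  have hsub : (Finset.univ.erase (1 : G)) ⊆
      Finset.univ.biUnion (fun i => (Finset.univ.filter (fun g : G => g ∈ K i)).erase 1) := by
    intro g hg
    rw [Finset.mem_erase] at hg
    obtain ⟨i, hi⟩ := hcov g
    rw [Finset.mem_biUnion]
    exact ⟨i, Finset.mem_univ _, by simp [hg.1, hi]⟩
  have h1 := (Finset.card_le_card hsub).trans Finset.card_biUnion_le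
  rw [Finset.card_erase_of_mem (Finset.mem_univ _), Finset.card_univ] at h1
  have h2 : ∀ i, (((Finset.univ.filter (fun g : G => g ∈ K i)).erase 1).card) * p ≤ r - p := by
    intro i
    rw [Finset.card_erase_of_mem (by simp [one_mem])]
    have h3 : (Finset.univ.filter (fun g : G => g ∈ K i)).card = Nat.card (K i) := by
      rw [← Nat.card_eq_finsetCard]
      exact Nat.card_congr (Equiv.subtypeEquivRight (by simp))
    rw [h3]
    have h4 := hK1 i
    rw [hcard] at h4
    have h5 : 0 < Nat.card (K i) := Nat.card_pos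
    obtain ⟨c, hc⟩ : ∃ c, Nat.card (K i) = c + 1 := ⟨Nat.card (K i) - 1, by omega⟩
    rw [hc] at h4 ⊢
    simp only [Nat.add_sub_cancel]
    have : (c + 1) * p = c * p + p := by ring
    omega
  have h3 : (r - 1) * p ≤ Fintype.card ι * (r - p) := by
    calc (r - 1) * p ≤ (∑ i, ((Finset.univ.filter (fun g : G => g ∈ K i)).erase 1).card) * p :=
          Nat.mul_le_mul_right _ h1
      _ = ∑ i, ((Finset.univ.filter (fun g : G => g ∈ K i)).erase 1).card * p := by
          rw [Finset.sum_mul]
      _ ≤ ∑ _i : ι, (r - p) := Finset.sum_le_sum (fun i _ => h2 i)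
      _ = Fintype.card ι * (r - p) := by
          rw [Finset.sum_const, Finset.card_univ, smul_eq_mul]
  have h4 : Fintype.card ι * (r - p) ≤ p * (r - p) := Nat.mul_le_mul_right _ hι
  have h5 : (r - 1) * p ≤ (r - p) * p := by
    calc (r - 1) * p ≤ Fintype.card ι * (r - p) := h3
      _ ≤ p * (r - p) := h4
      _ = (r - p) * p := mul_comm _ _
  have h6 := Nat.le_of_mul_le_mul_right h5 hpp.pos
  have := hpp.two_le
  omega

end counting

section main

variable {p : ℕ} [hp : Fact p.Prime] {ι : Type v} [Fintype ι]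

/-- Maximal members among proper subgroups generated by `p`-elements. -/
def IsMx {G : Type u} [Group G] (p : ℕ) (M : Subgroup G) : Prop :=
  M ≠ ⊤ ∧ PG p M ∧ ∀ X : Subgroup G, X ≠ ⊤ → PG p X → M ≤ X → X ≤ M

lemma IsMx.cj {G : Type u} [Group G] {M : Subgroup G} (h : IsMx p M) (g : G) :
    IsMx p (cj g M) := by
  refine ⟨cj_ne_top g h.1, h.2.1.cj g, ?_⟩
  intro X hX hXp hMX
  have h1 : M ≤ S4182.cj g⁻¹ X := by
    have := cj_mono g⁻¹ hMX
    simpa [cj_cj, cj_one] using this
  have h2 := h.2.2 _ (cj_ne_top g⁻¹ hX) (hXp.cj g⁻¹) h1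
  have := cj_mono g h2
  simpa [cj_cj, cj_one] using this

lemma exists_isMx {G : Type u} [Group G] [Finite G] {X : Subgroup G} (hX : X ≠ ⊤)
    (hXp : PG p X) : ∃ M, X ≤ M ∧ IsMx p M := by
  classical
  have := Fintype.ofFinite (Subgroup G)
  have h0 : X ∈ Finset.univ.filter (fun Y : Subgroup G => Y ≠ ⊤ ∧ PG p Y) := by
    simp [hX, hXp]
  obtain ⟨M, hXM, hM⟩ := Finset.exists_le_maximal _ h0
  have h1 := (Finset.mem_filter.1 hM.1).2
  refine ⟨M, hXM, h1.1, h1.2, ?_⟩
  intro Y hY hYp hMY
  exact hM.2 (by simp [hY, hYp]) hMY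

theorem core (hι : Fintype.card ι ≤ p) : ∀ (n : ℕ) (G : Type u) [Group G] [Finite G],
    Nat.card G = n → Subgroup.closure {g : G | PE p g} = ⊤ →
    ∀ K : ι → Subgroup G, (∀ i, K i ≠ ⊤) → (∀ g : G, PE p g → ∃ i, g ∈ K i) → False := by
  intro n
  induction n using Nat.strong_induction_on with
  | _ n IH =>
  intro G _ _ hn hgen K hK hcov
  classical
  have hpp := hp.out
  -- proper generated subgroups lie in a member of the family
  have step2 : ∀ X : Subgroup G, X ≠ ⊤ → PG p X → ∃ i, X ≤ K i := by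
    intro X hX hXp
    by_contra hno
    push Not at hno
    have hlt : Nat.card X < n := by
      rw [← hn]
      exact lt_of_le_of_ne (Subgroup.card_le_card_group X)
        (fun h => hX (Subgroup.eq_top_of_card_eq X h))
    refine IH _ hlt X rfl ?_ (fun i => (K i).subgroupOf X) ?_ ?_
    · -- generated by `p`-elements
      apply Subgroup.map_injective X.subtype_injective
      rw [MonoidHom.map_closure, ← MonoidHom.range_eq_map, Subgroup.range_subtype]
      conv_rhs => rw [← hXp]
      rw [gen]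
      congr 1
      ext g
      constructor
      · rintro ⟨y, ⟨k, hk⟩, rfl⟩
        refine ⟨⟨k, ?_⟩, y.2⟩
        simpa [Subgroup.orderOf_coe] using hk
      · rintro ⟨⟨k, hk⟩, hgX⟩
        refine ⟨⟨g, hgX⟩, ⟨k, ?_⟩, rfl⟩
        rw [← hk, ← Subgroup.orderOf_coe]
    · intro i h
      exact hno i (Subgroup.subgroupOf_eq_top.1 h)
    · intro g ⟨k, hk⟩
      obtain ⟨i, hi⟩ := hcov (g : G) ⟨k, by rw [Subgroup.orderOf_coe, hk]⟩
      exact ⟨i, hi⟩
  -- `G` is not a `p`-group
  have hnotp : ¬ ∀ g : G, PE p g := fun hpg =>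
    pgroup_no_cover hpg hι K hK (fun g => hcov g (hpg g))
  have hzp : ∀ y : G, PE p y → Subgroup.zpowers y ≠ ⊤ := by
    intro y hy htop
    apply hnotp
    intro g
    obtain ⟨k, hk⟩ := hy
    have h1 : orderOf g ∣ p ^ k := hk ▸ orderOf_dvd_of_mem_zpowers (htop ▸ Subgroup.mem_top g)
    obtain ⟨j, -, hj⟩ := (Nat.dvd_prime_pow hpp).1 h1
    exact ⟨j, hj⟩
  -- the set of maximal members
  have hinj : ∀ (f : {M : Subgroup G // IsMx p M} → ι) (_ : ∀ M, M.1 ≤ K (f M)),
      Function.Injective f := by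
    intro f hf M M' hMM'
    have hsup : M.1 ⊔ M'.1 ≤ K (f M) := sup_le (hf M) (hMM' ▸ hf M')
    have hne : M.1 ⊔ M'.1 ≠ ⊤ := fun h => hK (f M) (top_le_iff.1 (h ▸ hsup))
    have hpg := M.2.2.1.sup M'.2.2.1
    have h1 := M.2.2.2 _ hne hpg le_sup_left
    have h2 := M'.2.2.2 _ hne hpg le_sup_right
    apply Subtype.ext
    exact le_antisymm (le_sup_left.trans h2) (le_sup_right.trans h1)
  have hcardM : Nat.card {M : Subgroup G // IsMx p M} ≤ p := by
    have hex : ∀ M : {M : Subgroup G // IsMx p M}, ∃ i, M.1 ≤ K i :=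
      fun M => step2 M.1 M.2.1 M.2.2.1
    choose f hf using hex
    have h1 := Nat.card_le_card_of_injective f (hinj f hf)
    rw [Nat.card_eq_fintype_card (α := ι)] at h1
    exact h1.trans hι
  -- every `p`-element lies in a maximal member
  have hmem : ∀ y : G, PE p y → ∃ M, IsMx p M ∧ y ∈ M := by
    intro y hy
    obtain ⟨M, hM1, hM2⟩ := exists_isMx (hzp y hy) hy.zpowers
    exact ⟨M, hM2, hM1 (Subgroup.mem_zpowers y)⟩
  -- a `p`-element normalising one maximal member normalises all of them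
  have hC : ∀ u : G, PE p u → ∀ M0 M1 : Subgroup G, IsMx p M0 → IsMx p M1 →
      cj u M0 = M0 → cj u M1 = M1 := by
    intro u hu M0 M1 hM0 hM1 h0
    by_contra hne
    obtain ⟨k, hk⟩ := hu
    have hk0 : k ≠ 0 := by
      rintro rfl
      have : u = 1 := by simpa using hk
      subst this
      exact hne (cj_one _)
    have hpk : 1 < p ^ k := Nat.one_lt_pow hk0 hpp.one_lt
    -- powers of `u` prime to `p` still move `M1`
    have hmove : ∀ d : ℕ, 0 < d → d < p → cj (u ^ d) M1 ≠ M1 := by
      intro d hd0 hdp h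
      have hcop : Nat.Coprime d (p ^ k) :=
        Nat.Coprime.pow_right _ (((Nat.Prime.coprime_iff_not_dvd hpp).2
          (Nat.not_dvd_of_pos_of_lt hd0 hdp)).symm)
      obtain ⟨e, -, he⟩ := Nat.exists_mul_mod_eq_one_of_coprime hcop hpk
      have h2 : ∀ t : ℕ, cj ((u ^ d) ^ t) M1 = M1 := by
        intro t
        induction t with
        | zero => simpa using cj_one M1
        | succ t ih => rw [pow_succ, ← cj_cj, h, ih]
      have h3 : (u ^ d) ^ e = u := by
        rw [← pow_mul, ← pow_mod_orderOf, hk, he, pow_one]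
      have := h2 e
      rw [h3] at this
      exact hne this
    let f : Fin p → {M : Subgroup G // IsMx p M} :=
      fun i => ⟨cj (u ^ (i : ℕ)) M1, hM1.cj _⟩
    have hfinj : Function.Injective f := by
      have key : ∀ i j : Fin p, (i : ℕ) < j → f i ≠ f j := by
        intro i j hij h
        have h1 : cj (u ^ (i : ℕ)) M1 = cj (u ^ (j : ℕ)) M1 := congrArg Subtype.val h
        have h2 : u ^ (j : ℕ) = u ^ (i : ℕ) * u ^ ((j : ℕ) - i) := by
          rw [← pow_add]; congr 1; omega
        rw [h2, ← cj_cj] at h1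
        exact hmove ((j : ℕ) - i) (by omega) (by have := j.2; omega) (cj_inj _ h1).symm
      intro i j h
      by_contra hij
      rcases lt_or_gt_of_ne (fun h' => hij (Fin.ext h') : (i : ℕ) ≠ j) with h1 | h1
      · exact key i j h1 h
      · exact key j i h1 h.symm
    have hbij : Function.Bijective f := by
      refine hfinj.bijective_of_nat_card_le ?_
      simpa using hcardM
    obtain ⟨i, hi⟩ := hbij.2 ⟨M0, hM0⟩
    have hi' : cj (u ^ (i : ℕ)) M1 = M0 := congrArg Subtype.val hi
    apply hne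
    apply cj_inj (u ^ (i : ℕ))
    rw [cj_cj, (show u ^ (i : ℕ) * u = u * u ^ (i : ℕ) from (pow_succ u i).symm.trans (pow_succ' u i)),
      ← cj_cj, hi', h0]
  -- hence all maximal members are normal
  have hnorm : ∀ M : Subgroup G, IsMx p M → M.Normal := by
    intro M hM
    rw [← Subgroup.normalizer_eq_top_iff, eq_top_iff, ← hgen, Subgroup.closure_le]
    intro y hy
    obtain ⟨M0, hM0, hyM0⟩ := hmem y hy
    have h0 : cj y M0 = M0 := by
      apply le_antisymm
      · intro z hz
        rw [mem_cj] at hz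
        have := M0.mul_mem (M0.mul_mem hyM0 hz) (M0.inv_mem hyM0)
        simpa [mul_assoc] using this
      · intro z hz
        rw [mem_cj]
        exact M0.mul_mem (M0.mul_mem (M0.inv_mem hyM0) hz) hyM0
    have h1 := hC y hy M0 M hM0 hM h0
    have h2 : y ∈ Subgroup.normalizer (M : Set G) := by
      rw [Subgroup.mem_normalizer_iff_map_conj_eq]
      exact h1
    exact h2
  -- a `p`-element outside a maximal member generates modulo it
  have htop : ∀ M : Subgroup G, IsMx p M → ∀ y : G, PE p y → y ∉ M →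
      M ⊔ Subgroup.zpowers y = ⊤ := by
    intro M hM y hy hyM
    by_contra hne
    have := hM.2.2 _ hne (hM.2.1.sup hy.zpowers) le_sup_left
    exact hyM (this (le_sup_right (a := M) (Subgroup.mem_zpowers y)))
  -- a maximal member has index `p`
  have hidx : ∀ M : Subgroup G, IsMx p M → Nat.card (G ⧸ M) = p := by
    intro M hM
    haveI := hnorm M hM
    -- some `p`-element outside
    have hx : ∃ x : G, PE p x ∧ x ∉ M := by
      by_contra hno
      push Not at hno
      apply hM.1
      rw [eq_top_iff, ← hgen, Subgroup.closure_le]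
      exact fun g hg => hno g hg
    obtain ⟨x, hx, hxM⟩ := hx
    obtain ⟨k, hk⟩ := id hx
    have hex : ∃ t : ℕ, x ^ (p ^ t) ∈ M := ⟨k, by rw [← hk, pow_orderOf_eq_one]; exact M.one_mem⟩
    have ht0 : Nat.find hex ≠ 0 := by
      intro h
      have := Nat.find_spec hex
      rw [h] at this
      exact hxM (by simpa using this)
    obtain ⟨t, ht⟩ := Nat.exists_eq_succ_of_ne_zero ht0
    set z := x ^ (p ^ t) with hz
    have hzM : z ∉ M := Nat.find_min hex (by omega)
    have hzp' : z ^ p ∈ M := by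
      have := Nat.find_spec hex
      rw [ht, Nat.succ_eq_add_one, pow_succ, pow_mul] at this
      exact this
    have hzPE : PE p z := hx.pow _
    have h1 := htop M hM z hzPE hzM
    let π := QuotientGroup.mk' M
    have h2 : Subgroup.zpowers (π z) = ⊤ := by
      have h3 : (M ⊔ Subgroup.zpowers z).map π = ⊤ := by
        rw [h1, ← MonoidHom.range_eq_map, MonoidHom.range_eq_top]
        exact QuotientGroup.mk'_surjective M
      rw [Subgroup.map_sup, MonoidHom.map_zpowers] at h3
      have h4 : M.map π = ⊥ := by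
        rw [← le_bot_iff]
        rintro _ ⟨a, ha, rfl⟩
        exact (QuotientGroup.eq_one_iff a).2 ha
      rwa [h4, bot_sup_eq] at h3
    have h3 : orderOf (π z) = p := by
      apply orderOf_eq_prime
      · rw [← map_pow]
        exact (QuotientGroup.eq_one_iff _).2 hzp'
      · exact fun h => hzM ((QuotientGroup.eq_one_iff _).1 h)
    have h4 := Nat.card_zpowers (π z)
    rw [h2, h3, Subgroup.card_top] at h4
    exact h4
  -- any normal subgroup of index `p` is a maximal member
  have hY : ∀ Y : Subgroup G, Y.Normal → Nat.card (G ⧸ Y) = p → IsMx p Y := by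
    intro Y hYn hYc
    have hYtop : Y ≠ ⊤ := by
      rintro rfl
      have : Nat.card (G ⧸ (⊤ : Subgroup G)) = 1 := by
        rw [← Subgroup.index_eq_card]; simp
      rw [this] at hYc
      exact hpp.one_lt.ne hYc
    have hgtop : gen p Y ≠ ⊤ := fun h => hYtop (top_le_iff.1 (h ▸ gen_le Y))
    obtain ⟨M, hM1, hM2⟩ := exists_isMx hgtop (gen_pg Y)
    haveI := hnorm M hM2
    have hMc := hidx M hM2
    have hle : Y ≤ M := by
      intro y hy
      have hpow : y ^ p ∈ M := by
        have : (QuotientGroup.mk' M y) ^ p = 1 := by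
          rw [← hMc]; exact pow_card_eq_one'
        rw [← map_pow] at this
        exact (QuotientGroup.eq_one_iff _).1 this
      obtain ⟨a, m, hm, hord⟩ : ∃ a m, ¬ p ∣ m ∧ orderOf y = p ^ a * m := by
        obtain ⟨a, m, hm, h⟩ := Nat.exists_eq_pow_mul_and_not_dvd
          (orderOf_pos y).ne' p hpp.ne_one
        exact ⟨a, m, hm, h⟩
      have hym : PE p (y ^ m) := by
        refine ⟨a, ?_⟩
        rw [orderOf_pow_of_dvd (by
          intro h0; subst h0; simp at hm) ⟨p ^ a, by rw [hord, mul_comm]⟩, hord]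
        exact Nat.mul_div_cancel _ (Nat.pos_of_ne_zero (by
          intro h0; subst h0; simp at hm))
      have hymM : y ^ m ∈ M := hM1 (Subgroup.subset_closure ⟨hym, Y.pow_mem hy m⟩)
      obtain ⟨e, -, he⟩ := Nat.exists_mul_mod_eq_one_of_coprime
        ((Nat.Prime.coprime_iff_not_dvd hpp).2 hm).symm hpp.one_lt
      have h5 := Nat.div_add_mod (m * e) p
      rw [he] at h5
      have h6 : (y ^ m) ^ e = (y ^ p) ^ (m * e / p) * y := by
        rw [← pow_mul, ← pow_mul, ← pow_succ]
        congr 1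
        exact h5.symm
      have h7 : y = ((y ^ p) ^ (m * e / p))⁻¹ * (y ^ m) ^ e := by
        rw [h6]; group
      rw [h7]
      exact M.mul_mem (M.inv_mem (M.pow_mem hpow _)) (M.pow_mem hymM e)
    have hYM : Y = M := by
      apply Subgroup.eq_of_le_of_card_ge hle
      have h1 := Subgroup.card_mul_index Y
      have h2 := Subgroup.card_mul_index M
      rw [Subgroup.index_eq_card, hYc] at h1
      rw [Subgroup.index_eq_card, hMc] at h2
      have : Nat.card M * p = Nat.card Y * p := by rw [h1, h2]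
      exact (Nat.eq_of_mul_eq_mul_right hpp.pos this).le
    rw [hYM]
    exact hM2
  -- two distinct maximal members
  have hG1 : ∃ M : Subgroup G, IsMx p M := by
    obtain ⟨M, hM, -⟩ := hmem (1 : G) ⟨0, by simp⟩
    exact ⟨M, hM⟩
  obtain ⟨M1, hM1⟩ := hG1
  have hx : ∃ x : G, PE p x ∧ x ∉ M1 := by
    by_contra hno
    push Not at hno
    apply hM1.1
    rw [eq_top_iff, ← hgen, Subgroup.closure_le]
    exact fun g hg => hno g hg
  obtain ⟨a, ha, haM1⟩ := hx
  obtain ⟨M2, hM2, haM2⟩ := hmem a ha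
  have hM12 : M1 ≠ M2 := fun h => haM1 (h ▸ haM2)
  have hN1 := hnorm M1 hM1
  have hN2 := hnorm M2 hM2
  have hc1 := hidx M1 hM1
  have hc2 := hidx M2 hM2
  -- the homomorphisms onto `ZMod p`
  have hMcard : Nat.card (Multiplicative (ZMod p)) = p := by
    simp [Nat.card_eq_fintype_card, ZMod.card]
  let φ1 : G →* Multiplicative (ZMod p) :=
    (mulEquivOfPrimeCardEq hc1 hMcard).toMonoidHom.comp (QuotientGroup.mk' M1)
  let φ2 : G →* Multiplicative (ZMod p) :=
    (mulEquivOfPrimeCardEq hc2 hMcard).toMonoidHom.comp (QuotientGroup.mk' M2)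
  have hφ1 : ∀ g, φ1 g = 1 ↔ g ∈ M1 := by
    intro g
    change (mulEquivOfPrimeCardEq hc1 hMcard) (QuotientGroup.mk' M1 g) = 1 ↔ _
    rw [EmbeddingLike.map_eq_one_iff]
    exact QuotientGroup.eq_one_iff g
  have hφ2 : ∀ g, φ2 g = 1 ↔ g ∈ M2 := by
    intro g
    change (mulEquivOfPrimeCardEq hc2 hMcard) (QuotientGroup.mk' M2 g) = 1 ↔ _
    rw [EmbeddingLike.map_eq_one_iff]
    exact QuotientGroup.eq_one_iff g
  -- the family of `p + 1` normal subgroups of index `p`
  haveI : Fact (Nat.card (Multiplicative (ZMod p))).Prime := ⟨by rw [hMcard]; exact hpp⟩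
  have hkerc : ∀ ψ : G →* Multiplicative (ZMod p), (∃ g, ψ g ≠ 1) → Nat.card (G ⧸ ψ.ker) = p := by
    rintro ψ ⟨g, hg⟩
    rw [← Subgroup.index_eq_card, Subgroup.index_ker]
    rcases Subgroup.eq_bot_or_eq_top_of_prime_card ψ.range with h | h
    · exfalso
      apply hg
      have : ψ g ∈ ψ.range := ⟨g, rfl⟩
      rw [h] at this
      exact this
    · rw [h, Subgroup.card_top, hMcard]
  have hφ2a : φ2 a = 1 := (hφ2 a).2 haM2
  have hφ1a : φ1 a ≠ 1 := fun h => haM1 ((hφ1 a).1 h)
  let ψ : ℕ → (G →* Multiplicative (ZMod p)) := fun t => φ1 * φ2 ^ t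
  have hψ : ∀ t g, ψ t g = φ1 g * (φ2 g) ^ t := fun t g => rfl
  have hψa : ∀ t, ∃ g, ψ t g ≠ 1 := by
    intro t
    refine ⟨a, ?_⟩
    rw [hψ, hφ2a, one_pow, mul_one]
    exact hφ1a
  have hψM : ∀ t, IsMx p (ψ t).ker := fun t =>
    hY _ (MonoidHom.normal_ker _) (hkerc _ (hψa t))
  let F : Option (Fin p) → {M : Subgroup G // IsMx p M} := fun o =>
    match o with
    | none => ⟨M2, hM2⟩
    | some t => ⟨(ψ t).ker, hψM t⟩
  have hone : ∀ x : Multiplicative (ZMod p), ∀ d : ℕ, 0 < d → d < p → x ^ d = 1 → x = 1 := by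
    intro x d hd0 hdp hxd
    have h1 : x ^ p = 1 := by
      have := pow_card_eq_one' (x := x)
      rwa [hMcard] at this
    have h2 : orderOf x ∣ d := orderOf_dvd_of_pow_eq_one hxd
    have h3 : orderOf x ∣ p := orderOf_dvd_of_pow_eq_one h1
    have hcop : Nat.Coprime d p := ((Nat.Prime.coprime_iff_not_dvd hpp).2
      (Nat.not_dvd_of_pos_of_lt hd0 hdp)).symm
    have h4 : orderOf x = 1 := Nat.eq_one_of_dvd_coprimes hcop h2 h3
    exact orderOf_eq_one_iff.1 h4
  have hkey : ∀ s t : ℕ, s < t → t < p → (ψ s).ker ≠ (ψ t).ker := by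
    intro s t hst htp h
    have hle : ∀ g ∈ (ψ s).ker, g ∈ M1 ∧ g ∈ M2 := by
      intro g hg
      have h1 : ψ s g = 1 := hg
      have h2 : ψ t g = 1 := by
        have : g ∈ (ψ t).ker := h ▸ hg
        exact this
      rw [hψ] at h1 h2
      have h3 : (φ2 g) ^ (t - s) = 1 := by
        have h4 : (φ2 g) ^ t = (φ2 g) ^ s * (φ2 g) ^ (t - s) := by
          rw [← pow_add]; congr 1; omega
        rw [h4, ← mul_assoc, h1, one_mul] at h2
        exact h2
      have h4 : φ2 g = 1 := hone _ (t - s) (by omega) (by omega) h3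
      have h5 : φ1 g = 1 := by
        rw [h4, one_pow, mul_one] at h1
        exact h1
      exact ⟨(hφ1 g).1 h5, (hφ2 g).1 h4⟩
    have h1 : M1 ≤ (ψ s).ker := (hψM s).2.2 M1 hM1.1 hM1.2.1 (fun g hg => (hle g hg).1)
    have h2 : M2 ≤ (ψ s).ker := (hψM s).2.2 M2 hM2.1 hM2.2.1 (fun g hg => (hle g hg).2)
    apply hM12
    apply le_antisymm
    · exact h1.trans (fun g hg => (hle g hg).2)
    · exact h2.trans (fun g hg => (hle g hg).1)
  have hkey2 : ∀ t : ℕ, (ψ t).ker ≠ M2 := by
    intro t h
    have hle : M2 ≤ M1 := by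
      intro g hg
      have h1 : g ∈ (ψ t).ker := h ▸ hg
      have h2 : ψ t g = 1 := h1
      rw [hψ, (hφ2 g).2 hg, one_pow, mul_one] at h2
      exact (hφ1 g).1 h2
    exact hM12 (le_antisymm (hM2.2.2 M1 hM1.1 hM1.2.1 hle) hle)
  have hFinj : Function.Injective F := by
    intro o o' h
    have h' := congrArg Subtype.val h
    cases o with
    | none =>
      cases o' with
      | none => rfl
      | some t => exact absurd h'.symm (hkey2 t)
    | some s =>
      cases o' with
      | none => exact absurd h' (hkey2 s)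
      | some t =>
        by_contra hst
        have hne : (s : ℕ) ≠ t := fun h0 => hst (congrArg some (Fin.ext h0))
        rcases lt_or_gt_of_ne hne with h1 | h1
        · exact hkey s t h1 t.2 h'
        · exact hkey t s h1 s.2 h'.symm
  have h9 := Nat.card_le_card_of_injective F hFinj
  rw [Nat.card_eq_fintype_card, Fintype.card_option, Fintype.card_fin] at h9
  omega

/-- Let p be a prime and G a finite group generated by its p-elements. If a finite family of proper subgroups of G covers the set of p-elements of G (every element of p-power order lies in one of them), then the family has at least p + 1 members. -/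
theorem result {G : Type*} [Group G] [Finite G] (p : ℕ) [Fact p.Prime] (hgen : Subgroup.closure {g : G | ∃ k : ℕ, orderOf g = p ^ k} = ⊤)
    {ι : Type*} [Fintype ι] (K : ι → Subgroup G) (hK : ∀ i, K i ≠ ⊤)
    (hcov : ∀ g : G, (∃ k : ℕ, orderOf g = p ^ k) → ∃ i, g ∈ K i) :
    p + 1 ≤ Fintype.card ι := by
  by_contra h
  exact core (p := p) (ι := ι) (by omega) _ G rfl hgen K hK hcov

end main

end Cfsg.Agent.S4182
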