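import Cfsg.Statements.S4186
import Mathlib
-- import your own Cfsg.Agent.* helpers here

set_option autoImplicit false
open Cfsg

namespace Cfsg.Agent.S4186

/-- Let T and X be subgroups of a group with T a finite 2-group normalizing X but not centralizing it. Then some element of T inverts some non-identity element of X under conjugation. -/
theorem result {G : Type*} [Group G] (T X : Subgroup G) [Finite ↥T] (hT : IsPGroup 2 ↥T) (hTN : T ≤ Subgroup.normalizer (X : Set G)) (hTC : ¬ T ≤ Subgroup.centralizer (X : Set G)) : ∃ t ∈ T, ∃ x ∈ X, x ≠ 1 ∧ t * x * t⁻¹ = x⁻¹ := by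
  classical
  obtain ⟨t, htT, htC⟩ := Set.not_subset.mp hTC
  obtain ⟨k, hk⟩ := hT ⟨t, htT⟩
  have hk' : t ^ (2 ^ k) = 1 := by
    have := congrArg Subtype.val hk
    simpa using this
  have hex : ∃ m : ℕ, t ^ (2 ^ m) ∈ Subgroup.centralizer (X : Set G) := ⟨k, by rw [hk']; exact Subgroup.one_mem _⟩
  let m := Nat.find hex
  have hm : t ^ (2 ^ m) ∈ Subgroup.centralizer (X : Set G) := Nat.find_spec hex
  have hm0 : m ≠ 0 := by
    intro h0
    rw [h0] at hm
    simp only [pow_zero, pow_one] at hm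
    exact htC hm
  obtain ⟨n, hn⟩ := Nat.exists_eq_succ_of_ne_zero hm0
  have hs : t ^ (2 ^ n) ∉ Subgroup.centralizer (X : Set G) := by
    apply Nat.find_min hex (m := n)
    omega
  set s := t ^ (2 ^ n) with hsdef
  have hsT : s ∈ T := T.pow_mem htT _
  have hs2 : s * s ∈ Subgroup.centralizer (X : Set G) := by
    have : s * s = t ^ (2 ^ m) := by
      rw [hn, hsdef, ← pow_add]
      congr 1
      rw [pow_succ]; ring
    rw [this]; exact hm
  have hsN := hTN hsT
  rw [Subgroup.mem_centralizer_iff] at hs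
  push Not at hs
  obtain ⟨x, hxX, hx⟩ := hs
  have hxX' : x ∈ X := hxX
  have hsxX : s * x * s⁻¹ ∈ X := (Subgroup.mem_normalizer_iff.mp hsN x).mp hxX'
  refine ⟨s, hsT, x⁻¹ * (s * x * s⁻¹), X.mul_mem (X.inv_mem hxX') hsxX, ?_, ?_⟩
  · intro h
    apply hx
    have h3 : s * x * s⁻¹ = x := by
      have h2 := mul_eq_one_iff_eq_inv.mp h
      exact (inv_injective h2).symm
    have h4 : s * x = x * s := by
      calc s * x = (s * x * s⁻¹) * s := by group
        _ = x * s := by rw [h3]
    exact h4.symm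
  · have h2 : x * (s * s) = (s * s) * x := (Subgroup.mem_centralizer_iff.mp hs2) x hxX'
    have h5 : s * (s * x * s⁻¹) * s⁻¹ = x := by
      have : s * s * x = x * (s * s) := h2.symm
      calc s * (s * x * s⁻¹) * s⁻¹ = (s * s * x) * (s * s)⁻¹ := by group
        _ = x := by rw [this]; group
    calc s * (x⁻¹ * (s * x * s⁻¹)) * s⁻¹ = (s * x * s⁻¹)⁻¹ * (s * (s * x * s⁻¹) * s⁻¹) := by group
      _ = (s * x * s⁻¹)⁻¹ * x := by rw [h5]
      _ = (x⁻¹ * (s * x * s⁻¹))⁻¹ := by group

end Cfsg.Agent.S4186
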