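import Mathlib
import Cfsg.Agent.Lib.FrobRep.TwoRankThree
import Cfsg.Agent.Lib.PGroup.VRep

set_option autoImplicit false
set_option linter.style.haveILetI false

namespace Cfsg.Agent.S4188

open scoped Pointwise
open Cfsg.Agent.Lib.FrobRep.TwoRank Cfsg.Agent.Lib.PGroup.VRep

theorem result {G : Type*} [Group G] [Finite G] (N P : Subgroup G) (hN : N.Normal) (hNab : IsMulCommutative ↥N) (hNodd : Odd (Nat.card ↥N)) (hP : IsPGroup 2 ↥P) (hdisj : N ⊓ P = ⊥) (hprod : N ⊔ P = ⊤) (hmin : N ≠ ⊥ ∧ ∀ M : Subgroup G, M.Normal → M ≠ ⊥ → N ≤ M) : (frattini ↥P).index ≤ Nat.card ↥N - 1 := by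
  classical
  haveI hN' := hN
  -- a prime divisor
  have hcard1 : Nat.card ↥N ≠ 1 := by
    intro h
    apply hmin.1
    exact Subgroup.eq_bot_of_card_eq N h
  obtain ⟨r, hr, hrd⟩ := Nat.exists_prime_and_dvd hcard1
  haveI : Fact r.Prime := ⟨hr⟩
  have hr2 : r ≠ 2 := by
    rintro rfl
    exact (Nat.not_even_iff_odd.2 hNodd) (even_iff_two_dvd.2 hrd)
  -- the elements of order dividing r
  have hcomm : ∀ a ∈ N, ∀ b ∈ N, a * b = b * a := by
    intro a ha b hb
    have := hNab.is_comm.comm (⟨a, ha⟩ : N) ⟨b, hb⟩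
    exact congrArg Subtype.val this
  let Ω : Subgroup G :=
    { carrier := {x | x ∈ N ∧ x ^ r = 1}
      mul_mem' := fun {a b} ha hb => ⟨N.mul_mem ha.1 hb.1, by
        rw [(show Commute a b from hcomm a ha.1 b hb.1).mul_pow, ha.2, hb.2, one_mul]⟩
      one_mem' := ⟨N.one_mem, one_pow _⟩
      inv_mem' := fun {a} ha => ⟨N.inv_mem ha.1, by rw [inv_pow, ha.2, inv_one]⟩ }
  have hΩn : Ω.Normal := by
    constructor
    intro x hx g
    refine ⟨hN.conj_mem x hx.1 g, ?_⟩
    rw [conj_pow, hx.2]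
    group
  have hΩne : Ω ≠ ⊥ := by
    obtain ⟨y, hy⟩ := exists_prime_orderOf_dvd_card' r hrd
    intro h
    have h1 : (y : G) ∈ Ω := ⟨y.2, by
      have : y ^ r = 1 := by
        rw [← hy]
        exact pow_orderOf_eq_one y
      exact_mod_cast congrArg Subtype.val this⟩
    rw [h, Subgroup.mem_bot] at h1
    have h2 : y = 1 := Subtype.ext h1
    rw [h2, orderOf_one] at hy
    exact hr.one_lt.ne hy
  have hele : Cfsg.IsElementaryAbelian r N := ⟨hNab, fun a ha => (hmin.2 Ω hΩn hΩne ha).2⟩
  have hPV : P ≤ Subgroup.normalizer (N : Set G) := by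
    intro g _
    rw [Subgroup.mem_normalizer_iff]
    intro n
    constructor
    · intro h
      exact hN.conj_mem n h g
    · intro h
      have := hN.conj_mem _ h g⁻¹
      simpa [mul_assoc] using this
  -- faithfulness
  have hfaith : P ⊓ Subgroup.centralizer (N : Set G) = ⊥ := by
    by_contra hne
    have hnorm : (P ⊓ Subgroup.centralizer (N : Set G)).Normal := by
      constructor
      rintro x ⟨hxP, hxC⟩ g
      obtain ⟨n, hn, p, hp, rfl⟩ := Set.mem_mul.1 (show g ∈ (N : Set G) * (P : Set G) by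
        rw [← Subgroup.normal_mul, hprod]
        trivial)
      have hyC : p * x * p⁻¹ ∈ Subgroup.centralizer (N : Set G) := by
        rw [Subgroup.mem_centralizer_iff]
        intro m hm
        have h1 : p⁻¹ * m * p ∈ N := by
          have := hN.conj_mem m hm p⁻¹
          simpa using this
        have h2 := Subgroup.mem_centralizer_iff.1 hxC _ h1
        calc m * (p * x * p⁻¹) = p * ((p⁻¹ * m * p) * x) * p⁻¹ := by group
          _ = p * (x * (p⁻¹ * m * p)) * p⁻¹ := by rw [h2]
          _ = p * x * p⁻¹ * m := by group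
      have h3 : n * p * x * (n * p)⁻¹ = p * x * p⁻¹ := by
        have h4 := Subgroup.mem_centralizer_iff.1 hyC n hn
        calc n * p * x * (n * p)⁻¹ = n * (p * x * p⁻¹) * n⁻¹ := by group
          _ = (p * x * p⁻¹) * n * n⁻¹ := by rw [h4]
          _ = p * x * p⁻¹ := by group
      rw [h3]
      exact ⟨P.mul_mem (P.mul_mem hp hxP) (P.inv_mem hp), hyC⟩
    have h1 := hmin.2 _ hnorm hne
    have h2 : N ≤ N ⊓ P := le_inf le_rfl (h1.trans inf_le_left)
    rw [hdisj] at h2
    exact hmin.1 (le_bot_iff.1 h2)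
  have hinj := vRep_injective (hV := hele) hPV hfaith
  have hker : (vRep hele hPV : ↥P →* Module.End (ZMod r) (VMod r N hele)).ker = ⊥ :=
    (MonoidHom.ker_eq_bot_iff _).2 hinj
  haveI : Module.Finite (ZMod r) (VMod r N hele) := Module.Finite.of_finite
  set n := Module.finrank (ZMod r) (VMod r N hele) with hn
  have hcardN : Nat.card ↥N = r ^ n := by
    have h1 : Nat.card (VMod r N hele) = r ^ n := by
      rw [Module.natCard_eq_pow_finrank (K := ZMod r), Nat.card_zmod]
    rw [← h1]
    rfl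
  have hnpos : 1 ≤ n := by
    by_contra h0
    have h1 : n = 0 := by omega
    rw [h1, pow_zero] at hcardN
    exact hcard1 hcardN
  have h2F : ((2 : ℕ) : ZMod r) ≠ 0 := by
    intro h
    rw [ZMod.natCast_eq_zero_iff] at h
    rcases (Nat.dvd_prime Nat.prime_two).1 h with h3 | h3
    · exact hr.ne_one h3
    · exact hr2 h3
  rw [hcardN]
  have hr4 : r ≠ 4 := by
    rintro rfl
    exact (by norm_num : ¬ Nat.Prime 4) hr
  have hcase : r = 3 ∨ 5 ≤ r := by
    have := hr.two_le
    omega
  rcases hcase with h3 | h5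
  · have hg := b2 n (ZMod r) (by rw [Nat.card_zmod]; exact h3) (VMod r N hele) ↥P hP
      (vRep hele hPV) rfl
    rw [hker] at hg
    have h6 := index_frattini_le hP hg
    have h7 := pow_hBound_le n hnpos
    rw [h3]
    rw [h3] at *
    omega
  · have hg := b1 n (ZMod r) (VMod r N hele) ↥P hP (vRep hele hPV) h2F rfl
    rw [hker] at hg
    have h6 := index_frattini_le hP hg
    have h7 := pow_two_mul_le n hnpos r h5
    omega

end Cfsg.Agent.S4188
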