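import Cfsg.Statements.S4194
import Cfsg.Agent.Lib.TwoCentral.Main

set_option autoImplicit false
open Cfsg

namespace Cfsg.Agent.S4194

/-- A finite group G has commutative Sylow 2-subgroups if and only if every 2-element of G (element of order a power of 2) is 2-central, that is, its centralizer contains a Sylow 2-subgroup of G. -/
theorem result {G : Type*} [Group G] [Finite G] (P : Sylow 2 G) :
    IsMulCommutative (P : Subgroup G) ↔ ∀ x : G, (∃ k : ℕ, orderOf x = 2 ^ k) → (∃ Q : Sylow 2 G, (Q : Subgroup G) ≤ Subgroup.centralizer ({x} : Set G)) := by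
  constructor
  · rintro hP x ⟨k, hk⟩
    have hcomm : ∀ a ∈ (P : Subgroup G), ∀ b ∈ (P : Subgroup G), a * b = b * a := by
      intro a ha b hb
      have := hP.is_comm.comm (⟨a, ha⟩ : (P : Subgroup G)) ⟨b, hb⟩
      exact congrArg Subtype.val this
    have hpow : x ^ 2 ^ k = 1 := by rw [← hk]; exact pow_orderOf_eq_one x
    obtain ⟨Q, hQ⟩ := (Cfsg.Agent.Lib.TwoCentral.isPGroup_zpowers_of_pow hpow).exists_le_sylow
    have hxQ : x ∈ (Q : Subgroup G) := hQ (Subgroup.mem_zpowers x)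
    obtain ⟨g, hg⟩ := MulAction.exists_smul_eq G Q P
    refine ⟨Q, fun t ht => ?_⟩
    rw [Cfsg.Agent.Lib.TwoCentral.mem_centralizer_single]
    have h1 : g * t * g⁻¹ ∈ (P : Subgroup G) := by
      rw [← hg, Cfsg.Agent.Lib.TwoCentral.mem_smul_sylow]
      simpa [mul_assoc] using ht
    have h2 : g * x * g⁻¹ ∈ (P : Subgroup G) := by
      rw [← hg, Cfsg.Agent.Lib.TwoCentral.mem_smul_sylow]
      simpa [mul_assoc] using hxQ
    have h3 := hcomm _ h1 _ h2
    have h4 : g⁻¹ * ((g * t * g⁻¹) * (g * x * g⁻¹)) * g = g⁻¹ * ((g * x * g⁻¹) * (g * t * g⁻¹)) * g := by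
      rw [h3]
    simpa [mul_assoc] using h4
  · intro h
    refine ⟨⟨fun a b => Subtype.ext ?_⟩⟩
    exact Cfsg.Agent.Lib.TwoCentral.abelian_of_H2 (Cfsg.Agent.Lib.TwoCentral.H2.of_sylow h) P a b a.2 b.2

end Cfsg.Agent.S4194
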