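import Cfsg.Statements.S4195
import Mathlib

set_option autoImplicit false
open Cfsg

namespace Cfsg.Agent.S4195

/-- The class of `x` has size the index of its centralizer. -/
theorem card_isConj {G : Type*} [Group G] [Finite G] (x : G) :
    Nat.card {y : G // IsConj x y} = (Subgroup.centralizer ({x} : Set G)).index := by
  have h1 := MulAction.index_stabilizer (ConjAct G) x
  have h2 : (Subgroup.centralizer ({x} : Set G)) =
      (MulAction.stabilizer (ConjAct G) x).comap (ConjAct.toConjAct (G := G)).toMonoidHom := by
    ext g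
    rw [Subgroup.mem_comap, MulAction.mem_stabilizer_iff, Subgroup.mem_centralizer_iff]
    simp only [Set.mem_singleton_iff, forall_eq]
    show x * g = g * x ↔ ConjAct.toConjAct g • x = x
    rw [ConjAct.toConjAct_smul, mul_inv_eq_iff_eq_mul, eq_comm]
  rw [h2, Subgroup.index_comap_of_surjective _ (ConjAct.toConjAct (G := G)).surjective, h1]
  have h3 : MulAction.orbit (ConjAct G) x = {y | IsConj x y} := by
    ext y
    rw [MulAction.mem_orbit_iff]
    show _ ↔ IsConj x y
    rw [isConj_iff]
    constructor
    · rintro ⟨g, rfl⟩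
      exact ⟨ConjAct.ofConjAct g, by rw [ConjAct.smul_def]⟩
    · rintro ⟨g, rfl⟩
      exact ⟨ConjAct.toConjAct g, by rw [ConjAct.toConjAct_smul]⟩
  rw [h3]
  rfl

/-- Let x be a non-identity element of a finite group G whose centralizer contains a Sylow 2-subgroup of G. If x is conjugate to its inverse, then x has order 2. -/
theorem result {G : Type*} [Group G] [Finite G] (x : G) (hx : x ≠ 1) (P : Sylow 2 G) (hP : (P : Subgroup G) ≤ Subgroup.centralizer ({x} : Set G)) (hreal : IsConj x x⁻¹) : orderOf x = 2 := by
  classical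
  have h2 : x ^ 2 = 1 := by
    by_contra hne
    have hne' : x ≠ x⁻¹ := by
      intro h
      apply hne
      rw [pow_two]
      nth_rewrite 1 [h]
      simp
    have hodd : ¬ 2 ∣ (Subgroup.centralizer ({x} : Set G)).index := by
      intro hd
      exact P.not_dvd_index (hd.trans (Subgroup.index_dvd_of_le hP))
    -- the conjugacy class
    let C := {y : G // IsConj x y}
    have hcard : Nat.card C = (Subgroup.centralizer ({x} : Set G)).index := card_isConj x
    have hf : ∀ y : G, IsConj x y → IsConj x y⁻¹ := by
      intro y hy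
      obtain ⟨c, rfl⟩ := isConj_iff.mp hy
      obtain ⟨d, hd⟩ := isConj_iff.mp hreal
      rw [isConj_iff]
      refine ⟨c * d, ?_⟩
      have : (c * x * c⁻¹)⁻¹ = c * x⁻¹ * c⁻¹ := by group
      rw [this, ← hd]; group
    let f : Function.End C := fun y => ⟨y.1⁻¹, hf y.1 y.2⟩
    have hff : f ^ 2 ^ 1 = 1 := by
      funext y
      apply Subtype.ext
      show (f (f y)).1 = y.1
      simp [f]
    have : Fintype C := Fintype.ofFinite C
    have hmod := Equiv.Perm.card_fixedPoints_modEq (p := 2) (f := f) (n := 1) hff
    have hfix : IsEmpty f.fixedPoints := by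
      constructor
      rintro ⟨⟨y, hy⟩, hfy⟩
      have h3 : y⁻¹ = y := congrArg Subtype.val hfy
      apply hne'
      obtain ⟨c, rfl⟩ := isConj_iff.mp hy
      have h4 : c * x⁻¹ * c⁻¹ = c * x * c⁻¹ := by rw [← h3]; group
      have h5 := mul_left_cancel (mul_right_cancel h4)
      exact h5.symm
    rw [Fintype.card_eq_zero_iff.mpr hfix, ← Nat.card_eq_fintype_card, hcard] at hmod
    exact hodd (Nat.dvd_of_mod_eq_zero hmod)
  exact orderOf_eq_prime h2 hx

end Cfsg.Agent.S4195
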