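import Cfsg.Statements.S4196
import Cfsg.Agent.S4195
import Mathlib

set_option autoImplicit false
open Cfsg

namespace Cfsg.Agent.S4196

/-- A finite group G has elementary abelian Sylow 2-subgroups (commutative with every element squaring to the identity) if and only if every 2-element of G has a Sylow 2-subgroup in its centralizer and is conjugate to its inverse. -/
theorem result {G : Type*} [Group G] [Finite G] (P : Sylow 2 G) :
    (IsMulCommutative (P : Subgroup G) ∧ ∀ x ∈ (P : Subgroup G), x ^ 2 = 1) ↔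
      ∀ x : G, (∃ k : ℕ, orderOf x = 2 ^ k) → (∃ Q : Sylow 2 G, (Q : Subgroup G) ≤ Subgroup.centralizer ({x} : Set G)) ∧ IsConj x x⁻¹ := by
  classical
  constructor
  · rintro ⟨hc, hs⟩ x ⟨k, hk⟩
    have hpg : IsPGroup 2 (Subgroup.zpowers x) := by
      apply IsPGroup.of_card (n := k)
      rw [Nat.card_zpowers, hk]
    obtain ⟨Q, hQ⟩ := hpg.exists_le_sylow
    have hxQ : x ∈ (Q : Subgroup G) := hQ (Subgroup.mem_zpowers x)
    obtain ⟨g, rfl⟩ := MulAction.exists_smul_eq G P Q
    have hmem : ∀ y ∈ ((g • P : Sylow 2 G) : Subgroup G), ∃ z ∈ (P : Subgroup G), y = g * z * g⁻¹ := by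
      intro y hy
      rw [Sylow.coe_subgroup_smul, Subgroup.mem_pointwise_smul_iff_inv_smul_mem] at hy
      refine ⟨_, hy, ?_⟩
      simp [MulAut.smul_def, MulAut.conj_apply]
      group
    obtain ⟨z, hz, rfl⟩ := hmem x hxQ
    refine ⟨⟨g • P, ?_⟩, ?_⟩
    · intro y hy
      obtain ⟨w, hw, rfl⟩ := hmem y hy
      rw [Subgroup.mem_centralizer_iff]
      intro t ht
      rw [Set.mem_singleton_iff] at ht
      subst ht
      have hzw : z * w = w * z := by
        have := hc.is_comm.comm ⟨z, hz⟩ ⟨w, hw⟩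
        exact congrArg Subtype.val this
      calc g * z * g⁻¹ * (g * w * g⁻¹) = g * (z * w) * g⁻¹ := by group
        _ = g * (w * z) * g⁻¹ := by rw [hzw]
        _ = g * w * g⁻¹ * (g * z * g⁻¹) := by group
    · have h2 := hs z hz
      have : z⁻¹ = z := by
        rw [inv_eq_iff_mul_eq_one, ← pow_two, h2]
      have h3 : (g * z * g⁻¹)⁻¹ = g * z * g⁻¹ := by
        group
        simp only [Int.reduceNeg, zpow_neg, zpow_one]
        rw [this]
      rw [h3]
  · intro h
    have h2 : ∀ x ∈ (P : Subgroup G), x ^ 2 = 1 := by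
      intro x hx
      have hpg : ∃ k : ℕ, orderOf x = 2 ^ k := by
        have h1 := P.2 ⟨x, hx⟩
        obtain ⟨k, hk⟩ := h1
        have : orderOf x ∣ 2 ^ k := by
          apply orderOf_dvd_of_pow_eq_one
          exact congrArg Subtype.val hk
        obtain ⟨j, _, hj⟩ := (Nat.dvd_prime_pow Nat.prime_two).mp this
        exact ⟨j, hj⟩
      obtain ⟨⟨Q, hQ⟩, hr⟩ := h x hpg
      by_cases hx1 : x = 1
      · simp [hx1]
      · have := Cfsg.Agent.S4195.result x hx1 Q hQ hr
        rw [← this]
        exact pow_orderOf_eq_one x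
    refine ⟨⟨⟨?_⟩⟩, h2⟩
    intro a b
    apply Subtype.ext
    have h3 : ∀ x : (P : Subgroup G), (x : G) * x = 1 := by
      intro x
      rw [← pow_two]
      exact h2 x x.2
    have h4 := h3 (a * b)
    have ha := h3 a
    have hb := h3 b
    show (a : G) * b = b * a
    have h5 : ((a : G) * b) * (a * b) = 1 := by simpa using h4
    have ha' : (a : G)⁻¹ = a := inv_eq_of_mul_eq_one_left ha
    have hb' : (b : G)⁻¹ = b := inv_eq_of_mul_eq_one_left hb
    calc (a : G) * b = ((a : G) * b)⁻¹ := (inv_eq_of_mul_eq_one_left h5).symm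
      _ = (b : G)⁻¹ * (a : G)⁻¹ := mul_inv_rev _ _
      _ = b * a := by rw [ha', hb']

end Cfsg.Agent.S4196
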