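import Cfsg.Statements.S4214
import Mathlib
import Cfsg.Agent.S4345
import Cfsg.Agent.S0579
import Cfsg.Agent.Lib.Solvable.Hall
import Cfsg.Agent.Lib.Solvable.HallSystem
import Cfsg.Agent.Lib.Solvable.MinimalNormal
import Cfsg.Agent.Lib.Coprime.Coset

set_option autoImplicit false
set_option linter.style.haveILetI false
open Cfsg
open Cfsg.Agent.S4345 Cfsg.Agent.S0579
open Cfsg.Agent.Lib.Solvable.MinimalNormal

namespace Cfsg.Agent.S4214

/-- Fixed point congruence for conjugation. -/
theorem card_modEq_inf_centralizer {G : Type*} [Group G] [Finite G] {q : ℕ} [hq : Fact q.Prime]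
    (Y K : Subgroup G) (hY : IsPGroup q Y) (hYK : Y ≤ Subgroup.normalizer (K : Set G)) :
    Nat.card K ≡ Nat.card (K ⊓ Subgroup.centralizer (Y : Set G) : Subgroup G) [MOD q] := by
  letI : MulAction Y K :=
    { smul := fun y k => ⟨(y : G) * k * (y : G)⁻¹,
        (Subgroup.mem_normalizer_iff.mp (hYK y.2) k).mp k.2⟩
      one_smul := fun k => Subtype.ext (by show (1 : G) * k * (1 : G)⁻¹ = k; simp)
      mul_smul := fun a b k => Subtype.ext (by
        show ((a : G) * b) * k * ((a : G) * b)⁻¹ = (a : G) * ((b : G) * k * (b : G)⁻¹) * (a : G)⁻¹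
        group) }
  have h1 := hY.card_modEq_card_fixedPoints K
  have h2 : Nat.card (MulAction.fixedPoints Y K) =
      Nat.card (K ⊓ Subgroup.centralizer (Y : Set G) : Subgroup G) := by
    refine Nat.card_congr ⟨fun x => ⟨x.1.1, x.1.2, ?_⟩, fun x => ⟨⟨x.1, x.2.1⟩, ?_⟩, ?_, ?_⟩
    · refine Subgroup.mem_centralizer_iff.mpr ?_
      intro y hy
      have h3 : (⟨y, hy⟩ : Y) • x.1 = x.1 := x.2 ⟨y, hy⟩
      have h4 : y * x.1.1 * y⁻¹ = x.1.1 := congrArg Subtype.val h3
      rw [mul_inv_eq_iff_eq_mul] at h4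
      exact h4
    · intro y
      apply Subtype.ext
      show (y : G) * x.1 * (y : G)⁻¹ = x.1
      have h3 := Subgroup.mem_centralizer_iff.mp x.2.2 y y.2
      rw [h3]
      group
    · intro x; rfl
    · intro x; rfl
  rw [← h2]
  exact h1

/-- The chain argument counting the conjugates under a coprime solvable action. -/
theorem count_lemma {G : Type*} [Group G] [Finite G] (r : ℕ) (hr : r.Prime) (H : Subgroup G)
    (hHs : Group.IsSolvable H) (hcop : ¬ r ∣ Nat.card H) :
    ∀ (c : ℕ) (K : Subgroup G), Nat.card K = c → IsPGroup r K →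
      H ≤ Subgroup.normalizer (K : Set G) →
      ∃ l : List ℕ, l.prod = (K ⊓ Subgroup.centralizer (H : Set G)).relIndex K ∧
        ∀ f ∈ l, (∃ e : ℕ, f = r ^ e) ∧ ∃ q : ℕ, q.Prime ∧ q ∣ Nat.card H ∧ f ≡ 1 [MOD q] := by
  classical
  haveI hrf : Fact r.Prime := ⟨hr⟩
  intro c
  induction c using Nat.strong_induction_on with
  | _ c ih =>
    intro K hc hK hHK
    by_cases hcent : H ≤ Subgroup.centralizer (K : Set G)
    · refine ⟨[], ?_, by simp⟩
      have h1 : K ≤ K ⊓ Subgroup.centralizer (H : Set G) :=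
        le_inf le_rfl (Subgroup.le_centralizer_iff.mp hcent)
      rw [Subgroup.relIndex_eq_one.mpr h1]
      rfl
    -- the kernel of the action
    have hHC : H ≤ Subgroup.normalizer ((Subgroup.centralizer (K : Set G) : Subgroup G) : Set G) := by
      refine le_normalizer_of_conj ?_
      intro h hh x hx
      refine Subgroup.mem_centralizer_iff.mpr ?_
      replace hx := Subgroup.mem_centralizer_iff.mp hx
      intro k hk
      have h1 : h⁻¹ * k * h⁻¹⁻¹ ∈ K :=
        (Subgroup.mem_normalizer_iff.mp (hHK (H.inv_mem hh)) k).mp hk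
      rw [inv_inv] at h1
      have h2 := hx _ h1
      have e : k * (h * x * h⁻¹) = h * ((h⁻¹ * k * h) * x) * h⁻¹ := by group
      rw [e, h2]
      group
    let T : Subgroup H := (Subgroup.centralizer (K : Set G)).subgroupOf H
    haveI hTn : T.Normal := Subgroup.normal_subgroupOf_of_le_normalizer hHC
    have hTne : T ≠ ⊤ := by
      intro ht
      exact hcent (Subgroup.subgroupOf_eq_top.mp ht)
    haveI hQnt : Nontrivial (H ⧸ T) := by
      rw [← not_subsingleton_iff_nontrivial]
      intro hs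
      apply hTne
      rw [eq_top_iff]
      intro x _
      have h1 : QuotientGroup.mk' T x = 1 := Subsingleton.elim _ _
      have h2 : x ∈ (QuotientGroup.mk' T).ker := h1
      rwa [QuotientGroup.ker_mk'] at h2
    obtain ⟨Mb, hMb⟩ := exists_isMinNormal (G := H ⧸ T)
    haveI hMbn := hMb.normal
    obtain ⟨q, hq, hMbp, -, -⟩ := hMb.exists_isPGroup
    haveI hqf : Fact q.Prime := ⟨hq⟩
    have hqH : q ∣ Nat.card H := by
      have h1 : Nat.card Mb ≠ 1 := by
        intro h
        exact hMb.ne_bot (Subgroup.eq_bot_of_card_eq _ h)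
      obtain ⟨k, hk⟩ := hMbp.exists_card_eq
      have hk0 : k ≠ 0 := by
        rintro rfl
        exact h1 (by simpa using hk)
      have h2 : q ∣ Nat.card Mb := by rw [hk]; exact dvd_pow_self q hk0
      have h3 : Nat.card Mb ∣ Nat.card (H ⧸ T) := Subgroup.card_subgroup_dvd_card _
      have h4 : Nat.card (H ⧸ T) ∣ Nat.card H := by
        rw [← Subgroup.index_eq_card]
        exact Subgroup.index_dvd_card _
      exact h2.trans (h3.trans h4)
    have hqr : q ≠ r := by
      rintro rfl
      exact hcop hqH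
    let φ := QuotientGroup.mk' T
    have hφs : Function.Surjective φ := QuotientGroup.mk'_surjective T
    let Y₀ : Subgroup H := Mb.comap φ
    haveI hY₀n : Y₀.Normal := Subgroup.Normal.comap hMbn φ
    let Y₂ : Subgroup G := Y₀.map H.subtype
    have hY₂H : Y₂ ≤ H := Subgroup.map_subtype_le Y₀
    have hY₂n : H ≤ Subgroup.normalizer (Y₂ : Set G) := by
      refine le_normalizer_of_conj ?_
      rintro h hh _ ⟨y, hy, rfl⟩
      exact ⟨⟨h, hh⟩ * y * ⟨h, hh⟩⁻¹, hY₀n.conj_mem y hy _, rfl⟩
    have hY₂c : ¬ Y₂ ≤ Subgroup.centralizer (K : Set G) := by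
      intro hle
      apply hMb.ne_bot
      rw [eq_bot_iff]
      intro y hy
      obtain ⟨y, rfl⟩ := hφs y
      have h1 : (y : G) ∈ Y₂ := ⟨y, hy, rfl⟩
      have h2 : y ∈ T := hle h1
      have h3 : y ∈ φ.ker := by rw [QuotientGroup.ker_mk']; exact h2
      exact h3
    let S : Sylow q Y₂ := default
    let Y : Subgroup G := (S : Subgroup Y₂).map Y₂.subtype
    have hYp : IsPGroup q Y := S.isPGroup'.map _
    have hYY₂ : Y ≤ Y₂ := Subgroup.map_subtype_le _
    have hY₂sup : Y₂ ≤ Y ⊔ (H ⊓ Subgroup.centralizer (K : Set G)) := by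
      have hY₂N : Y₂ ≤ Subgroup.normalizer ((Subgroup.centralizer (K : Set G) : Subgroup G) : Set G) :=
        hY₂H.trans hHC
      haveI hT₂n : ((Subgroup.centralizer (K : Set G)).subgroupOf Y₂).Normal :=
        Subgroup.normal_subgroupOf_of_le_normalizer hY₂N
      have hq₂ : IsPGroup q (Y₂ ⧸ (Subgroup.centralizer (K : Set G)).subgroupOf Y₂) := by
        intro z
        obtain ⟨⟨z, hz⟩, rfl⟩ := QuotientGroup.mk_surjective z
        obtain ⟨u, huY, rfl⟩ := hz
        obtain ⟨k, hk⟩ := hMbp ⟨φ u, huY⟩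
        refine ⟨k, ?_⟩
        rw [← QuotientGroup.mk_pow, QuotientGroup.eq_one_iff, Subgroup.mem_subgroupOf]
        have h1 : (φ u) ^ q ^ k = 1 := by simpa using congrArg Subtype.val hk
        have h2 : u ^ q ^ k ∈ φ.ker := by
          show φ _ = 1
          rw [map_pow, h1]
        rw [QuotientGroup.ker_mk'] at h2
        have h3 : ((u ^ q ^ k : H) : G) ∈ Subgroup.centralizer (K : Set G) := h2
        simpa using h3
      have hsup := sylow_sup_eq_top S ((Subgroup.centralizer (K : Set G)).subgroupOf Y₂) hq₂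
      intro x hx
      have h1 : (⟨x, hx⟩ : Y₂) ∈ (S : Subgroup Y₂) ⊔ (Subgroup.centralizer (K : Set G)).subgroupOf Y₂ := by
        rw [hsup]; trivial
      have h2 := Subgroup.mem_map_of_mem Y₂.subtype h1
      rw [Subgroup.map_sup] at h2
      have hle : ((Subgroup.centralizer (K : Set G)).subgroupOf Y₂).map Y₂.subtype ≤
          H ⊓ Subgroup.centralizer (K : Set G) := by
        rintro _ ⟨z, hz, rfl⟩
        exact ⟨hY₂H z.2, hz⟩
      have h3 := sup_le_sup_left hle ((S : Subgroup Y₂).map Y₂.subtype)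
      exact h3 h2
    let K₁ : Subgroup G := K ⊓ Subgroup.centralizer (Y₂ : Set G)
    have hK₁Y : K₁ = K ⊓ Subgroup.centralizer (Y : Set G) := by
      apply le_antisymm
      · exact inf_le_inf_left _ (Subgroup.centralizer_le hYY₂)
      · rintro x ⟨hx, hxc⟩
        refine ⟨hx, ?_⟩
        refine Subgroup.mem_centralizer_iff.mpr ?_
        have h0 : Y ⊔ (H ⊓ Subgroup.centralizer (K : Set G)) ≤ Subgroup.centralizer ({x} : Set G) := by
          refine sup_le ?_ ?_
          · intro y hy
            rw [Subgroup.mem_centralizer_singleton_iff]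
            exact (Subgroup.mem_centralizer_iff.mp hxc y hy)
          · rintro y ⟨-, hy⟩
            rw [Subgroup.mem_centralizer_singleton_iff]
            exact (Subgroup.mem_centralizer_iff.mp hy x hx).symm
        intro y hy
        have h1 := h0 (hY₂sup hy)
        rw [Subgroup.mem_centralizer_singleton_iff] at h1
        exact h1
    have hK₁K : K₁ ≤ K := inf_le_left
    have hK₁ne : K₁ ≠ K := by
      intro he
      apply hY₂c
      rw [Subgroup.le_centralizer_iff, ← he]
      exact inf_le_right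
    have hcK₁ : Nat.card K₁ < c := by
      rw [← hc]
      refine lt_of_le_of_ne (Subgroup.card_le_of_le hK₁K) ?_
      intro h
      exact hK₁ne (Subgroup.eq_of_le_of_card_ge hK₁K h.ge)
    have hHK₁ : H ≤ Subgroup.normalizer (K₁ : Set G) := by
      refine le_normalizer_of_conj ?_
      intro h hh x hx
      refine ⟨(Subgroup.mem_normalizer_iff.mp (hHK hh) x).mp hx.1, ?_⟩
      refine Subgroup.mem_centralizer_iff.mpr ?_
      intro y hy
      have h1 : h⁻¹ * y * h ∈ Y₂ := by
        have := (Subgroup.mem_normalizer_iff.mp (hY₂n (H.inv_mem hh)) y).mp hy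
        simpa using this
      have h2 := Subgroup.mem_centralizer_iff.mp hx.2 _ h1
      have e : y * (h * x * h⁻¹) = h * ((h⁻¹ * y * h) * x) * h⁻¹ := by group
      rw [e, h2]
      group
    obtain ⟨l₁, hl₁, hl₁g⟩ := ih _ hcK₁ K₁ rfl (hK.to_le hK₁K) hHK₁
    have hK₁C : K₁ ⊓ Subgroup.centralizer (H : Set G) = K ⊓ Subgroup.centralizer (H : Set G) := by
      apply le_antisymm
      · exact inf_le_inf_right _ hK₁K
      · refine le_inf (le_inf inf_le_left ?_) inf_le_right
        exact inf_le_right.trans (Subgroup.centralizer_le hY₂H)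
    rw [hK₁C] at hl₁
    have hleC : K ⊓ Subgroup.centralizer (H : Set G) ≤ K₁ := hK₁C ▸ inf_le_left
    refine ⟨K₁.relIndex K :: l₁, ?_, ?_⟩
    · rw [List.prod_cons, hl₁, mul_comm]
      exact Subgroup.relIndex_mul_relIndex _ _ _ hleC hK₁K
    · intro f hf
      rcases List.mem_cons.mp hf with rfl | hf
      · obtain ⟨a, ha⟩ := hK.exists_card_eq
        have hd : K₁.relIndex K ∣ r ^ a := by
          rw [← ha]
          exact Subgroup.relIndex_dvd_card _ _
        obtain ⟨e, -, he⟩ := (Nat.dvd_prime_pow hr).mp hd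
        refine ⟨⟨e, he⟩, q, hq, hqH, ?_⟩
        have h1 := card_modEq_inf_centralizer Y K hYp (hYY₂.trans (hY₂H.trans hHK))
        rw [← hK₁Y] at h1
        have h2 : Nat.card K₁ * K₁.relIndex K = Nat.card K := by
          rw [← Subgroup.relIndex_bot_left K₁, ← Subgroup.relIndex_bot_left K]
          exact Subgroup.relIndex_mul_relIndex _ _ _ bot_le hK₁K
        rw [← h2] at h1
        have h3 : Nat.card K₁ * K₁.relIndex K ≡ Nat.card K₁ * 1 [MOD q] := by
          rw [mul_one]; exact h1
        obtain ⟨b, hb⟩ := (hK.to_le hK₁K).exists_card_eq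
        have hcop' : Nat.gcd q (Nat.card K₁) = 1 := by
          rw [hb]
          exact Nat.Coprime.pow_right b ((Nat.coprime_primes hq hr).mpr hqr)
        exact Nat.ModEq.cancel_left_of_coprime hcop' h3
      · exact hl₁g f hf

theorem map_conj_mul {G : Type*} [Group G] (H : Subgroup G) (a b : G) :
    H.map (MulAut.conj (a * b)).toMonoidHom =
      (H.map (MulAut.conj b).toMonoidHom).map (MulAut.conj a).toMonoidHom := by
  rw [Subgroup.map_map]
  congr 1
  ext x
  simp [MulAut.conj_apply, mul_assoc]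

theorem map_conj_one {G : Type*} [Group G] (H : Subgroup G) :
    H.map (MulAut.conj (1 : G)).toMonoidHom = H := by
  ext x
  simp [Subgroup.mem_map]

theorem mem_normalizer_of_map_conj {G : Type*} [Group G] [Finite G] (H : Subgroup G) (g : G)
    (h : H.map (MulAut.conj g).toMonoidHom = H) : g ∈ Subgroup.normalizer (H : Set G) := by
  refine le_normalizer_of_conj (A := Subgroup.zpowers g) (E := H) ?_ (Subgroup.mem_zpowers g)
  intro a ha y hy
  obtain ⟨k, rfl⟩ := Subgroup.mem_zpowers_iff.mp ha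
  have hpow : ∀ n : ℕ, H.map (MulAut.conj (g ^ n)).toMonoidHom = H := by
    intro n
    induction n with
    | zero => simpa using map_conj_one H
    | succ n ih => rw [pow_succ, map_conj_mul, h, ih]
  have hfin : IsOfFinOrder g := isOfFinOrder_of_finite g
  obtain ⟨n, hn⟩ : ∃ n : ℕ, g ^ k = g ^ n := by
    obtain ⟨n, hn⟩ := mem_powers_iff_mem_zpowers.mpr (Subgroup.zpow_mem_zpowers g k)
    exact ⟨n, hn.symm⟩
  rw [hn]
  rw [← hpow n]
  exact ⟨y, hy, rfl⟩

theorem map_conj_eq_of_mem_normalizer {G : Type*} [Group G] [Finite G] (H : Subgroup G) (g : G)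
    (h : g ∈ Subgroup.normalizer (H : Set G)) : H.map (MulAut.conj g).toMonoidHom = H := by
  apply Subgroup.eq_of_le_of_card_ge
  · rintro _ ⟨y, hy, rfl⟩
    exact (Subgroup.mem_normalizer_iff.mp h y).mp hy
  · rw [Cfsg.Agent.Lib.Solvable.Hall.card_map_conj]

/-- Number of conjugates. -/
theorem count_eq_index {G : Type*} [Group G] [Finite G] (H₀ : Subgroup G)
    (hconj : ∀ K : Subgroup G, Nat.card K = Nat.card H₀ →
      ∃ g : G, H₀.map (MulAut.conj g).toMonoidHom = K) :
    Nat.card {H : Subgroup G // Nat.card H = Nat.card H₀} =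
      (Subgroup.normalizer (H₀ : Set G)).index := by
  have hc : ∀ g : G, Nat.card (H₀.map (MulAut.conj g).toMonoidHom) = Nat.card H₀ := fun g =>
    Cfsg.Agent.Lib.Solvable.Hall.card_map_conj H₀ g
  let f : G ⧸ Subgroup.normalizer (H₀ : Set G) → {H : Subgroup G // Nat.card H = Nat.card H₀} :=
    fun q => Quotient.liftOn' q (fun g => ⟨H₀.map (MulAut.conj g).toMonoidHom, hc g⟩) (by
      intro a b hab
      have h1 : a⁻¹ * b ∈ Subgroup.normalizer (H₀ : Set G) := QuotientGroup.leftRel_apply.mp hab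
      apply Subtype.ext
      show H₀.map (MulAut.conj a).toMonoidHom = H₀.map (MulAut.conj b).toMonoidHom
      have h2 : b = a * (a⁻¹ * b) := by group
      rw [h2, map_conj_mul, map_conj_eq_of_mem_normalizer H₀ _ h1])
  have hbij : Function.Bijective f := by
    constructor
    · intro p q
      induction p using QuotientGroup.induction_on with
      | H a =>
      induction q using QuotientGroup.induction_on with
      | H b =>
      intro hpq
      have h1 : H₀.map (MulAut.conj a).toMonoidHom = H₀.map (MulAut.conj b).toMonoidHom :=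
        congrArg Subtype.val hpq
      rw [QuotientGroup.eq]
      apply mem_normalizer_of_map_conj
      rw [map_conj_mul, ← h1, ← map_conj_mul]
      simpa using map_conj_one H₀
    · rintro ⟨K, hK⟩
      obtain ⟨g, hg⟩ := hconj K hK
      exact ⟨(g : G ⧸ Subgroup.normalizer (H₀ : Set G)), Subtype.ext hg⟩
  rw [Subgroup.index]
  exact (Nat.card_eq_of_bijective f hbij).symm

/-- Conjugacy of Hall subgroups inside a subgroup. -/
theorem exists_conj_in {G : Type*} [Group G] [Finite G] [Group.IsSolvable G] (L H₁ H₂ : Subgroup G)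
    (h₁ : H₁ ≤ L) (h₂ : H₂ ≤ L) (hc : Nat.card H₁ = Nat.card H₂)
    (hcop : (Nat.card H₁).Coprime H₁.index) :
    ∃ x ∈ L, H₁.map (MulAut.conj x).toMonoidHom = H₂ := by
  have hc₁ : Nat.card (H₁.subgroupOf L) = Nat.card H₁ :=
    Nat.card_congr (Subgroup.subgroupOfEquivOfLe h₁).toEquiv
  have hc₂ : Nat.card (H₂.subgroupOf L) = Nat.card H₂ :=
    Nat.card_congr (Subgroup.subgroupOfEquivOfLe h₂).toEquiv
  have hL : Nat.card L = Nat.card H₁ * (H₁.subgroupOf L).index := by
    rw [← hc₁]; exact (Subgroup.card_mul_index _).symm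
  have hcop' : (Nat.card H₁).Coprime (H₁.subgroupOf L).index := by
    refine Nat.Coprime.coprime_dvd_right ?_ hcop
    exact Subgroup.relIndex_dvd_index_of_le h₁
  obtain ⟨y, hy⟩ := Cfsg.Agent.Lib.Solvable.Hall.exists_conj_eq (G := L) (Nat.card H₁) _ hL hcop'
    (H₂.subgroupOf L) (H₁.subgroupOf L) (hc₂.trans hc.symm) hc₁
  refine ⟨y, y.2, ?_⟩
  apply Subgroup.eq_of_le_of_card_ge
  · rintro _ ⟨a, ha, rfl⟩
    have h3 : (MulAut.conj y).toMonoidHom (⟨a, h₁ ha⟩ : L) ∈ H₂.subgroupOf L := by
      rw [← hy]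
      exact ⟨⟨a, h₁ ha⟩, ha, rfl⟩
    exact h3
  · rw [Cfsg.Agent.Lib.Solvable.Hall.card_map_conj, hc]

/-- Frattini argument for Hall subgroups. -/
theorem mem_normalizer_sup_hall {G : Type*} [Group G] [Finite G] [Group.IsSolvable G] (H₀ K : Subgroup G)
    [K.Normal] (hcop : (Nat.card H₀).Coprime H₀.index) (g : G)
    (hg : ∀ x ∈ H₀ ⊔ K, g * x * g⁻¹ ∈ H₀ ⊔ K) :
    g ∈ Subgroup.normalizer (H₀ : Set G) ⊔ K := by
  have hle : H₀.map (MulAut.conj g).toMonoidHom ≤ H₀ ⊔ K := by
    rintro _ ⟨x, hx, rfl⟩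
    exact hg x (Subgroup.mem_sup_left hx)
  obtain ⟨x, hx, hxe⟩ := exists_conj_in (H₀ ⊔ K) H₀ (H₀.map (MulAut.conj g).toMonoidHom) le_sup_left hle
    (Cfsg.Agent.Lib.Solvable.Hall.card_map_conj H₀ g).symm hcop
  have h1 : x⁻¹ * g ∈ Subgroup.normalizer (H₀ : Set G) := by
    apply mem_normalizer_of_map_conj
    rw [map_conj_mul, ← hxe, ← map_conj_mul]
    simpa using map_conj_one H₀
  have h2 : g = x * (x⁻¹ * g) := by group
  rw [h2]
  refine Subgroup.mul_mem _ ?_ (Subgroup.mem_sup_left h1)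
  have hle2 : H₀ ⊔ K ≤ Subgroup.normalizer (H₀ : Set G) ⊔ K :=
    sup_le_sup_right Subgroup.le_normalizer K
  exact hle2 hx

/-- Multiplicativity of the number of Hall subgroups along a normal subgroup. -/
theorem count_step {G : Type*} [Group G] [Finite G] [Group.IsSolvable G] (H₀ K : Subgroup G)
    [K.Normal] (hcop : (Nat.card H₀).Coprime H₀.index) :
    Nat.card {H : Subgroup G // Nat.card H = Nat.card H₀} =
      Nat.card {H : Subgroup (G ⧸ K) // Nat.card H = Nat.card (H₀.map (QuotientGroup.mk' K))} *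
        (Subgroup.normalizer (H₀ : Set G)).relIndex K ∧
    (Nat.card (H₀.map (QuotientGroup.mk' K))).Coprime (H₀.map (QuotientGroup.mk' K)).index := by
  let φ := QuotientGroup.mk' K
  have hφs : Function.Surjective φ := QuotientGroup.mk'_surjective K
  have hφk : φ.ker = K := QuotientGroup.ker_mk' K
  set N := Subgroup.normalizer (H₀ : Set G) with hN
  set Hb := H₀.map φ with hHb
  have hcb : (Nat.card Hb).Coprime Hb.index := by
    have h1 : Nat.card Hb ∣ Nat.card H₀ := H₀.card_map_dvd φ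
    have h2 : Hb.index ∣ H₀.index := Subgroup.index_map_dvd H₀ hφs
    exact Nat.Coprime.coprime_dvd_left h1 (Nat.Coprime.coprime_dvd_right h2 hcop)
  refine ⟨?_, hcb⟩
  have e1 := count_eq_index H₀ (fun L hL => by
    have hG : Nat.card G = Nat.card H₀ * H₀.index := (Subgroup.card_mul_index H₀).symm
    exact Cfsg.Agent.Lib.Solvable.Hall.exists_conj_eq _ _ hG hcop L H₀ hL rfl)
  have e2 := count_eq_index Hb (fun L hL => by
    have hG : Nat.card (G ⧸ K) = Nat.card Hb * Hb.index := (Subgroup.card_mul_index Hb).symm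
    exact Cfsg.Agent.Lib.Solvable.Hall.exists_conj_eq _ _ hG hcb L Hb hL rfl)
  have hcl : (Subgroup.normalizer (Hb : Set (G ⧸ K))).comap φ = N ⊔ K := by
    apply le_antisymm
    · intro g hg
      apply mem_normalizer_sup_hall H₀ K hcop g
      intro x hx
      have h0 : H₀ ⊔ K = Hb.comap φ := by
        rw [hHb, Subgroup.comap_map_eq, hφk]
      rw [h0] at hx ⊢
      rw [Subgroup.mem_comap] at hx ⊢
      have h1 : φ g ∈ Subgroup.normalizer (Hb : Set (G ⧸ K)) := hg
      rw [map_mul, map_mul, map_inv]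
      exact (Subgroup.mem_normalizer_iff.mp h1 _).mp hx
    · rw [← Subgroup.map_le_iff_le_comap, Subgroup.map_sup]
      refine sup_le ?_ ?_
      · exact Subgroup.le_normalizer_map φ
      · have : K.map φ = ⊥ := (Subgroup.map_eq_bot_iff _).mpr hφk.ge
        rw [this]; exact bot_le
  rw [e1, e2, ← Subgroup.index_comap_of_surjective _ hφs, hcl, ← relIndex_sup_of_normal N K, mul_comm]
  exact (Subgroup.relIndex_mul_index le_sup_left).symm

/-- The property wanted of each factor. -/
def Good (G : Type*) [Group G] (m f : ℕ) : Prop :=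
  (∃ q e : ℕ, q.Prime ∧ f = q ^ e) ∧
    (∃ K L : Subgroup G, K.Normal ∧ L.Normal ∧ K < L ∧
      (∀ M : Subgroup G, M.Normal → K ≤ M → M ≤ L → M = K ∨ M = L) ∧ f ∣ K.relIndex L) ∧
    (∃ q : ℕ, q.Prime ∧ q ∣ m ∧ f ≡ 1 [MOD q])

theorem Good.comap {G : Type*} [Group G] (K : Subgroup G) [K.Normal] {m' m f : ℕ} (hm : m' ∣ m)
    (h : Good (G ⧸ K) m' f) : Good G m f := by
  obtain ⟨h1, ⟨A, B, hAn, hBn, hAB, hch, hd⟩, ⟨q, hq, hqm, hmod⟩⟩ := h
  refine ⟨h1, ?_, ⟨q, hq, hqm.trans hm, hmod⟩⟩
  let φ := QuotientGroup.mk' K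
  have hφs : Function.Surjective φ := QuotientGroup.mk'_surjective K
  have hφk : φ.ker = K := QuotientGroup.ker_mk' K
  refine ⟨A.comap φ, B.comap φ, Subgroup.Normal.comap hAn φ, Subgroup.Normal.comap hBn φ, ?_, ?_, ?_⟩
  · refine lt_of_le_of_ne (Subgroup.comap_mono hAB.le) ?_
    intro he
    exact hAB.ne (Subgroup.comap_injective hφs he)
  · intro M hM hAM hMB
    have hKM : K ≤ M := by
      intro k hk
      apply hAM
      show φ k ∈ A
      have : φ k = 1 := by
        have h2 : k ∈ φ.ker := by rwa [hφk]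
        exact h2
      rw [this]
      exact A.one_mem
    haveI := hM
    have hMn : (M.map φ).Normal := Subgroup.Normal.map hM φ hφs
    have hAM' : A ≤ M.map φ := by
      intro a ha
      obtain ⟨x, rfl⟩ := hφs a
      exact ⟨x, hAM ha, rfl⟩
    have hMB' : M.map φ ≤ B := Subgroup.map_le_iff_le_comap.mpr hMB
    have hback : (M.map φ).comap φ = M := Subgroup.comap_map_eq_self (by rw [hφk]; exact hKM)
    rcases hch _ hMn hAM' hMB' with he | he
    · left
      rw [← hback, he]
    · right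
      rw [← hback, he]
  · rw [Subgroup.relIndex_comap, Subgroup.map_comap_eq_self_of_surjective hφs]
    exact hd

universe u

theorem main : ∀ (c : ℕ) (G : Type u) [Group G] [Finite G] [Group.IsSolvable G], Nat.card G = c →
    ∀ H₀ : Subgroup G, (Nat.card H₀).Coprime H₀.index →
    ∃ l : List ℕ, Nat.card {H : Subgroup G // Nat.card H = Nat.card H₀} = l.prod ∧
      ∀ f ∈ l, Good G (Nat.card H₀) f := by
  intro c
  induction c using Nat.strong_induction_on with
  | _ c ih =>
    intro G _ _ _ hc H₀ hcop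
    by_cases hnt : Nontrivial G
    swap
    · rw [not_nontrivial_iff_subsingleton] at hnt
      refine ⟨[], ?_, by simp⟩
      have e1 := count_eq_index H₀ (fun L hL => ⟨1, Subsingleton.elim _ _⟩)
      rw [e1, List.prod_nil, Subgroup.index_eq_one]
      exact Subsingleton.elim _ _
    obtain ⟨K, hK⟩ := exists_isMinNormal (G := G)
    haveI hKn := hK.normal
    obtain ⟨r, hr, hKp, -, -⟩ := hK.exists_isPGroup
    haveI hrf : Fact r.Prime := ⟨hr⟩
    obtain ⟨h1, h2⟩ := count_step H₀ K hcop
    have hlt : Nat.card (G ⧸ K) < c := hc ▸ card_quotient_lt K hK.ne_bot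
    obtain ⟨l₁, hl₁, hl₁g⟩ := ih _ hlt (G ⧸ K) rfl (H₀.map (QuotientGroup.mk' K)) h2
    have hdvd : Nat.card (H₀.map (QuotientGroup.mk' K)) ∣ Nat.card H₀ := H₀.card_map_dvd _
    have hl₁g' : ∀ f ∈ l₁, Good G (Nat.card H₀) f := fun f hf => Good.comap K hdvd (hl₁g f hf)
    rw [hl₁] at h1
    by_cases hrm : r ∣ Nat.card H₀
    · have hKH : K ≤ H₀ := by
        apply Cfsg.Agent.Lib.Solvable.HallSystem.le_of_coprime_index
        obtain ⟨a, ha⟩ := hKp.exists_card_eq
        rw [ha]
        exact Nat.Coprime.pow_left a (Nat.Coprime.coprime_dvd_left hrm hcop)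
      have hone : (Subgroup.normalizer (H₀ : Set G)).relIndex K = 1 :=
        Subgroup.relIndex_eq_one.mpr (hKH.trans Subgroup.le_normalizer)
      rw [hone, mul_one] at h1
      exact ⟨l₁, h1, hl₁g'⟩
    · have hH₀K : H₀ ≤ Subgroup.normalizer (K : Set G) := by
        rw [Subgroup.normalizer_eq_top]; exact le_top
      obtain ⟨l₂, hl₂, hl₂g⟩ := count_lemma r hr H₀ inferInstance hrm _ K rfl hKp hH₀K
      have hinf : H₀ ⊓ K = ⊥ := by
        obtain ⟨a, ha⟩ := hKp.exists_card_eq
        apply Cfsg.Agent.Lib.Coprime.Coset.inf_eq_bot_of_coprime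
        rw [ha]
        exact Nat.Coprime.pow_right a ((Nat.Prime.coprime_iff_not_dvd hr).mpr hrm).symm
      have hNK : Subgroup.normalizer (H₀ : Set G) ⊓ K = K ⊓ Subgroup.centralizer (H₀ : Set G) := by
        apply le_antisymm
        · rintro x ⟨hxN, hxK⟩
          refine ⟨hxK, Subgroup.mem_centralizer_iff.mpr ?_⟩
          intro h hh
          have h3 : x * h * x⁻¹ * h⁻¹ ∈ H₀ ⊓ K := by
            constructor
            · exact H₀.mul_mem ((Subgroup.mem_normalizer_iff.mp hxN h).mp hh) (H₀.inv_mem hh)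
            · have : x * h * x⁻¹ * h⁻¹ = x * (h * x⁻¹ * h⁻¹) := by group
              rw [this]
              exact K.mul_mem hxK (hKn.conj_mem _ (K.inv_mem hxK) h)
          rw [hinf, Subgroup.mem_bot] at h3
          have h4 : x * h * x⁻¹ = h := by rwa [mul_inv_eq_one] at h3
          rw [mul_inv_eq_iff_eq_mul] at h4
          exact h4.symm
        · rintro x ⟨hxK, hxC⟩
          refine ⟨?_, hxK⟩
          refine le_normalizer_of_conj (A := Subgroup.centralizer (H₀ : Set G)) (E := H₀) ?_ hxC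
          intro a ha y hy
          have h3 := Subgroup.mem_centralizer_iff.mp ha y hy
          rw [← h3]
          simpa using hy
      have hc2 : (Subgroup.normalizer (H₀ : Set G)).relIndex K =
          (K ⊓ Subgroup.centralizer (H₀ : Set G)).relIndex K := by
        rw [← hNK, Subgroup.inf_relIndex_right]
      rw [hc2, ← hl₂] at h1
      refine ⟨l₁ ++ l₂, by rw [List.prod_append]; exact h1, ?_⟩
      intro f hf
      rcases List.mem_append.mp hf with hf | hf
      · exact hl₁g' f hf
      · obtain ⟨⟨e, he⟩, hmod⟩ := hl₂g f hf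
        refine ⟨⟨r, e, hr, he⟩, ⟨⊥, K, inferInstance, hKn, bot_lt_iff_ne_bot.mpr hK.ne_bot, ?_, ?_⟩, hmod⟩
        · intro M hM _ hMK
          exact hK.eq_bot_or_eq M hM hMK
        · rw [Subgroup.relIndex_bot_left]
          have h5 : f ∣ l₂.prod := List.dvd_prod hf
          rw [hl₂] at h5
          exact h5.trans (Subgroup.relIndex_dvd_card _ _)

theorem result {G : Type*} [Group G] [Finite G] [Group.IsSolvable G] (m n : ℕ) (hG : Nat.card G = m * n) (hmn : Nat.Coprime m n) : ∃ (k : ℕ) (f : Fin k → ℕ), Nat.card {H : Subgroup G // Nat.card H = m} = ∏ i, f i ∧ ∀ i, (∃ q e : ℕ, q.Prime ∧ f i = q ^ e) ∧ (∃ K L : Subgroup G, K.Normal ∧ L.Normal ∧ K < L ∧ (∀ M : Subgroup G, M.Normal → K ≤ M → M ≤ L → M = K ∨ M = L) ∧ f i ∣ K.relIndex L) ∧ (∃ q : ℕ, q.Prime ∧ q ∣ m ∧ f i ≡ 1 [MOD q]) := by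
  obtain ⟨H₀, hH₀⟩ := Cfsg.Agent.Lib.Solvable.Hall.exists_card_eq m n hG hmn
  have hm : 0 < m := by
    rw [← hH₀]; exact Nat.card_pos
  have hidx : H₀.index = n := by
    have := Subgroup.card_mul_index H₀
    rw [hG, hH₀] at this
    exact Nat.eq_of_mul_eq_mul_left hm this
  obtain ⟨l, hl, hg⟩ := main _ G rfl H₀ (by rw [hH₀, hidx]; exact hmn)
  rw [hH₀] at hl hg
  refine ⟨l.length, l.get, ?_, ?_⟩
  · rw [hl, ← List.prod_ofFn, List.ofFn_get]
  · intro i
    exact hg _ (List.get_mem l i)

end Cfsg.Agent.S4214
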