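import Cfsg.Statements.S4230
import Mathlib
-- import your own Cfsg.Agent.* helpers here

set_option autoImplicit false
open Cfsg

namespace Cfsg.Agent.S4230

/-- Let p be an odd prime, q a natural number not divisible by p, and e the multiplicative order of q modulo p. For a natural number f, p divides the value at q of the f-th cyclotomic polynomial if and only if f = e·p^j for some j ≥ 0. -/
theorem result (p q f : ℕ) (hp : p.Prime) (hp2 : p ≠ 2) (hpq : ¬ p ∣ q) :
    ((p : ℤ) ∣ (Polynomial.cyclotomic f ℤ).eval (q : ℤ)) ↔ ∃ j : ℕ, f = orderOf (q : ZMod p) * p ^ j := by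
  have : Fact p.Prime := ⟨hp⟩
  have hq0 : (q : ZMod p) ≠ 0 := by
    rw [Ne, ZMod.natCast_eq_zero_iff]
    exact hpq
  have hcast : ((p : ℤ) ∣ (Polynomial.cyclotomic f ℤ).eval (q : ℤ)) ↔
      (Polynomial.cyclotomic f (ZMod p)).IsRoot (q : ZMod p) := by
    rw [← ZMod.intCast_zmod_eq_zero_iff_dvd, ← Polynomial.map_cyclotomic_int f (ZMod p),
      Polynomial.IsRoot.def]
    have h1 := Polynomial.eval_intCast_map (Int.castRingHom (ZMod p)) (Polynomial.cyclotomic f ℤ) (q : ℤ)
    rw [Int.cast_natCast] at h1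
    rw [h1]
    rfl
  rw [hcast]
  have hepos : 0 < orderOf (q : ZMod p) := by
    have : IsUnit (q : ZMod p) := hq0.isUnit
    exact orderOf_pos_iff.mpr (this.isOfFinOrder)
  have hedvd : orderOf (q : ZMod p) ∣ p - 1 := by
    apply orderOf_dvd_of_pow_eq_one
    exact ZMod.pow_card_sub_one_eq_one hq0
  have hpe : ¬ p ∣ orderOf (q : ZMod p) := by
    intro h
    have h1 := h.trans hedvd
    have h2 := Nat.le_of_dvd (by have := hp.two_le; omega) h1
    have := hp.two_le
    omega
  have hroot : ∀ (m k : ℕ), ¬ p ∣ m → ((Polynomial.cyclotomic (p ^ k * m) (ZMod p)).IsRoot (q : ZMod p) ↔ orderOf (q : ZMod p) = m) := by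
    intro m k hm
    have hne : NeZero ((m : ℕ) : ZMod p) := ⟨by rw [Ne, ZMod.natCast_eq_zero_iff]; exact hm⟩
    rw [Polynomial.isRoot_cyclotomic_prime_pow_mul_iff_of_charP]
    constructor
    · intro h
      exact h.eq_orderOf.symm
    · intro h
      rw [← h]
      exact IsPrimitiveRoot.orderOf _
  constructor
  · intro h0
    by_cases hf : f = 0
    · subst hf
      simp [Polynomial.IsRoot.def] at h0
    · obtain ⟨k, m, hm, rfl⟩ := Nat.exists_eq_pow_mul_and_not_dvd hf p hp.ne_one
      refine ⟨k, ?_⟩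
      rw [(hroot m k hm).mp h0]
      ring
  · rintro ⟨j, rfl⟩
    rw [mul_comm]
    exact (hroot _ j hpe).mpr rfl

end Cfsg.Agent.S4230
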