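import Cfsg.Statements.S4231
import Mathlib
import Cfsg.Agent.S2119
import Cfsg.Agent.Lib.Perm.AutA6Small

set_option autoImplicit false
open Cfsg

namespace Cfsg.Agent.S4231

open Equiv Equiv.Perm Cfsg.Agent.Lib.Perm.AutA6Small

/-- An `r`-group of permutations of fewer than `r ^ 2` points is commutative. -/
theorem perm_comm {n r : ℕ} [hr : Fact r.Prime] (hn : n < r ^ 2) (P : Subgroup (Perm (Fin n)))
    (hP : IsPGroup r P) (a b : P) : a * b = b * a := by
  classical
  apply Subtype.ext
  ext i : 1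
  let Δ := MulAction.orbit P i
  let ρ := MulAction.toPermHom P Δ
  have hle : Nat.card Δ ≤ n := by
    have := Nat.card_le_card_of_injective (fun x : Δ => (x : Fin n)) Subtype.val_injective
    simpa using this
  obtain ⟨j, hj⟩ := hP.card_orbit i
  have hj2 : j < 2 := by
    have h1 : r ^ j < r ^ 2 := lt_of_le_of_lt (hj ▸ hle) hn
    exact (Nat.pow_lt_pow_iff_right hr.out.one_lt).mp h1
  have hΔ : Nat.card Δ ≤ r := by
    rw [hj]
    calc r ^ j ≤ r ^ 1 := Nat.pow_le_pow_right hr.out.pos (by omega)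
      _ = r := pow_one r
  have hPr : IsPGroup r ρ.range := hP.of_surjective ρ.rangeRestrict ρ.rangeRestrict_surjective
  obtain ⟨k, hk⟩ := IsPGroup.iff_card.mp hPr
  have hdvd : r ^ k ∣ Nat.factorial r := by
    rw [← hk]
    have h1 : Nat.card ρ.range ∣ Nat.card (Perm Δ) := Subgroup.card_subgroup_dvd_card _
    rw [Nat.card_perm] at h1
    exact h1.trans (Nat.factorial_dvd_factorial hΔ)
  have hk1 : k < 3 := by
    by_contra hge
    have h2 : r ^ 2 ∣ Nat.factorial r := (pow_dvd_pow r (by omega)).trans hdvd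
    obtain ⟨s, hs⟩ : ∃ s, r = s + 1 := ⟨r - 1, by have := hr.out.pos; omega⟩
    rw [hs, Nat.factorial_succ, pow_two, ← hs] at h2
    have h3 := Nat.dvd_of_mul_dvd_mul_left hr.out.pos h2
    have h4 := (hr.out.dvd_factorial).mp h3
    omega
  have hcomm := comm_of_card_lt hPr (by
    rw [hk]; exact Nat.pow_lt_pow_right hr.out.one_lt hk1) ⟨ρ a, a, rfl⟩ ⟨ρ b, b, rfl⟩
  have h5 := congrArg (fun c : ρ.range => ((c : Perm Δ) ⟨i, MulAction.mem_orbit_self i⟩ : Δ)) hcomm
  exact congrArg Subtype.val h5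

/-- `r`-subgroups of `Aut(A_n)` are commutative, for `r` odd and `n < r ^ 2` or `n = 6`. -/
theorem aut_comm {n r : ℕ} [hr : Fact r.Prime] (hn : 5 ≤ n) (hr2 : r ≠ 2) (hnr : n = 6 ∨ n < r ^ 2)
    (P : Subgroup (MulAut (alternatingGroup (Fin n)))) (hP : IsPGroup r P) (a b : P) : a * b = b * a := by
  by_cases h6 : n = 6
  · subst h6
    exact comm_of_isPGroup hr2 P hP a b
  · have hnr' : n < r ^ 2 := hnr.resolve_left h6
    have hbij := Cfsg.Agent.S2119.result n (by omega) h6
    let E : Perm (Fin n) ≃* MulAut (alternatingGroup (Fin n)) := MulEquiv.ofBijective _ hbij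
    let φ : P →* Perm (Fin n) := (E.symm.toMonoidHom).comp P.subtype
    have h1 := perm_comm hnr' φ.range (hP.of_surjective φ.rangeRestrict φ.rangeRestrict_surjective) ⟨φ a, a, rfl⟩ ⟨φ b, b, rfl⟩
    have h2 : φ (a * b) = φ (b * a) := by
      rw [map_mul, map_mul]
      exact congrArg Subtype.val h1
    have hinj : Function.Injective φ :=
      E.symm.injective.comp (Subgroup.subtype_injective P)
    exact hinj h2

/-- Even elements of order `p * q` for distinct primes. -/
theorem exists_order {n p q : ℕ} (hp : p.Prime) (hq : q.Prime) (hpq : p ≠ q) (hq2 : q ≠ 2)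
    (h : (p = 2 ∧ q + 4 ≤ n) ∨ (p ≠ 2 ∧ p + q ≤ n)) :
    ∃ g : alternatingGroup (Fin n), orderOf g = p * q := by
  have hqodd : Odd q := hq.odd_of_ne_two hq2
  have hco : Nat.Coprime p q := (Nat.coprime_primes hp hq).mpr hpq
  have key : ∀ m : Multiset ℕ, m.sum ≤ n → (∀ a ∈ m, 2 ≤ a) → (m.map fun k => -(-1 : ℤˣ) ^ k).prod = 1 →
      m.lcm = p * q → ∃ g : alternatingGroup (Fin n), orderOf g = p * q := by
    intro m h1 h2 h3 h4
    obtain ⟨g, hg⟩ := (Equiv.Perm.exists_with_cycleType_iff (α := Fin n) (m := m)).mpr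
      ⟨by simpa using h1, h2⟩
    have hs : g ∈ alternatingGroup (Fin n) := by
      rw [mem_alternatingGroup, sign_of_cycleType', hg]; exact h3
    refine ⟨⟨g, hs⟩, ?_⟩
    rw [Subgroup.orderOf_mk, ← lcm_cycleType, hg, h4]
  have hq2' := hq.two_le
  have hp2' := hp.two_le
  rcases h with ⟨rfl, hn⟩ | ⟨hp2, hn⟩
  · refine key {2, 2, q} ?_ ?_ ?_ ?_
    · simp; omega
    · simp; omega
    · simp [hqodd.neg_one_pow]
    · simp [Nat.Coprime.lcm_eq_mul hco, lcm_eq_nat_lcm]
  · have hpodd : Odd p := hp.odd_of_ne_two hp2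
    refine key {p, q} ?_ ?_ ?_ ?_
    · simpa using hn
    · simp; omega
    · simp [hqodd.neg_one_pow, hpodd.neg_one_pow]
    · simp [Nat.Coprime.lcm_eq_mul hco, lcm_eq_nat_lcm]

/-- Let n ≥ 5 and let G be a group of automorphisms of the alternating group of degree n containing all inner automorphisms. If p ≠ q are primes and G has no element of order pq, then every Sylow p-subgroup of G is abelian or every Sylow q-subgroup of G is abelian. -/
theorem result (n : ℕ) (hn : 5 ≤ n) (G : Subgroup (MulAut (alternatingGroup (Fin n))))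
    (hG : (MulAut.conj : alternatingGroup (Fin n) →* MulAut (alternatingGroup (Fin n))).range ≤ G)
    (p q : ℕ) [Fact p.Prime] [Fact q.Prime] (hpq : p ≠ q) (h : ∀ g : G, orderOf g ≠ p * q) :
    (∀ P : Sylow p G, IsMulCommutative (P : Subgroup G)) ∨ (∀ Q : Sylow q G, IsMulCommutative (Q : Subgroup G)) := by
  classical
  have hcenter : Function.Injective (MulAut.conj : alternatingGroup (Fin n) →* MulAut (alternatingGroup (Fin n))) := by
    rw [injective_iff_map_eq_one]
    intro g hg
    have h1 : g ∈ Subgroup.center (alternatingGroup (Fin n)) := by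
      rw [Subgroup.mem_center_iff]
      intro x
      have h2 := congrArg (fun f : MulAut (alternatingGroup (Fin n)) => f x) hg
      simp only [MulAut.conj_apply, MulAut.one_apply] at h2
      exact (mul_inv_eq_iff_eq_mul.mp h2).symm
    rw [alternatingGroup.center_eq_bot (by simp; omega), Subgroup.mem_bot] at h1
    exact h1
  -- elements of `G` from `A_n`
  have hel : ∀ (hex : ∃ g : alternatingGroup (Fin n), orderOf g = p * q), False := by
    rintro ⟨g, hg⟩
    have h1 : MulAut.conj g ∈ G := hG ⟨g, rfl⟩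
    apply h ⟨MulAut.conj g, h1⟩
    rw [Subgroup.orderOf_mk, orderOf_injective _ hcenter, hg]
  -- commutativity for odd primes
  have hcomm : ∀ (r : ℕ) [Fact r.Prime], r ≠ 2 → (n = 6 ∨ n < r ^ 2) → ∀ P : Sylow r G, IsMulCommutative (P : Subgroup G) := by
    intro r _ hr2 hnr P
    refine ⟨⟨fun a b => ?_⟩⟩
    let ψ : (P : Subgroup G) →* MulAut (alternatingGroup (Fin n)) := G.subtype.comp (P : Subgroup G).subtype
    have h1 := aut_comm hn hr2 hnr ψ.range (P.isPGroup'.of_surjective ψ.rangeRestrict ψ.rangeRestrict_surjective) ⟨ψ a, a, rfl⟩ ⟨ψ b, b, rfl⟩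
    have h2 : ψ (a * b) = ψ (b * a) := by
      rw [map_mul, map_mul]
      exact congrArg Subtype.val h1
    have hinj : Function.Injective ψ :=
      (Subgroup.subtype_injective G).comp (Subgroup.subtype_injective _)
    exact hinj h2
  have hpp : p.Prime := Fact.out
  have hqp : q.Prime := Fact.out
  by_cases hn6 : n = 6
  · by_cases hp2 : p = 2
    · exact Or.inr (hcomm q (fun h => hpq (hp2.trans h.symm)) (Or.inl hn6))
    · exact Or.inl (hcomm p hp2 (Or.inl hn6))
  -- now `n ≠ 6`
  by_cases hp2 : p = 2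
  · have hq2 : q ≠ 2 := fun h => hpq (hp2.trans h.symm)
    by_cases hnq : n < q ^ 2
    · exact Or.inr (hcomm q hq2 (Or.inr hnq))
    · exfalso
      apply hel
      refine exists_order hpp hqp hpq hq2 (Or.inl ⟨hp2, ?_⟩)
      have h3 : 3 ≤ q := by have := hqp.two_le; omega
      nlinarith
  by_cases hq2 : q = 2
  · by_cases hnp : n < p ^ 2
    · exact Or.inl (hcomm p hp2 (Or.inr hnp))
    · exfalso
      apply hel
      rw [mul_comm]
      refine exists_order hqp hpp hpq.symm hp2 (Or.inl ⟨hq2, ?_⟩)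
      have h3 : 3 ≤ p := by have := hpp.two_le; omega
      nlinarith
  by_cases hnp : n < p ^ 2
  · exact Or.inl (hcomm p hp2 (Or.inr hnp))
  by_cases hnq : n < q ^ 2
  · exact Or.inr (hcomm q hq2 (Or.inr hnq))
  exfalso
  apply hel
  refine exists_order hpp hqp hpq hq2 (Or.inr ⟨hp2, ?_⟩)
  have h3 : 2 ≤ p := hpp.two_le
  have h4 : 2 ≤ q := hqp.two_le
  rcases le_total p q with h5 | h5 <;> nlinarith

end Cfsg.Agent.S4231
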