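import Cfsg.Agent.Lib.PSL2.DihedralMax
import Cfsg.Agent.Lib.PSL2.Macbeath
import Cfsg.Agent.Lib.PSL2.MaxOdd2

set_option autoImplicit false
set_option linter.unusedSectionVars false
set_option linter.unusedSimpArgs false
set_option linter.unusedVariables false
set_option linter.style.haveILetI false

namespace Cfsg.Agent.S4234

open Matrix Matrix.SpecialLinearGroup Subgroup
open scoped MatrixGroups
open Cfsg.Agent.Lib.PSL2.Basic Cfsg.Agent.Lib.PSL2.Conj Cfsg.Agent.Lib.PSL2.Members
open Cfsg.Agent.Lib.PSL2.DPart Cfsg.Agent.Lib.PSL2.DicksonCor Cfsg.Agent.Lib.PSL2.Dickson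
open Cfsg.Agent.Lib.PSL2.DihedralMax

instance f13 : Fact (Nat.Prime 13) := ⟨by norm_num⟩

section Psl13

variable {F : Type} [Field F] [Fintype F] [CharP F 13] [hF : Fact (Fintype.card F = 13)]

local notation "P" => PSL(2, F)

lemma cardF : Fintype.card F = 13 := hF.out

variable (F) in
lemma ddF : dd F = 2 := by
  simp [dd, cardF]

variable (F) in
lemma card_P : Nat.card P = 1092 := by
  have h := card_PSL2_mul_dd F
  rw [ddF, cardF, show (13 : ℕ) * (13 ^ 2 - 1) = 2184 by norm_num] at h
  omega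

variable (F) in
lemma simpleP : IsSimpleGroup P := Cfsg.Agent.Lib.PSL2.MaxOdd.isSimple_psl (by rw [cardF]; norm_num)

lemma dvd7 {n : ℕ} (h : n ∣ 7) : n = 1 ∨ n = 7 := by
  have := Nat.le_of_dvd (by norm_num) h
  interval_cases n <;> omega

lemma dvd6 {n : ℕ} (h : n ∣ 6) : n = 1 ∨ n = 2 ∨ n = 3 ∨ n = 6 := by
  have := Nat.le_of_dvd (by norm_num) h
  interval_cases n <;> omega

lemma cbar_card {A : SL(2, F)} (hA : NC A) (hd : disc A ≠ 0) :
    Nat.card (cbar A) = 7 ∨ Nat.card (cbar A) = 6 := by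
  obtain ⟨-, h2⟩ := Cfsg.Agent.Lib.PSL2.MemberCyc.cbar_cyclic hA hd
  simpa [cardF] using h2

/-- Dickson's theorem for `PSL(2, 13)`. -/
lemma proper_cases (H : Subgroup P) (hH : H ≠ ⊤) :
    (Nat.card H = 1 ∨ Nat.card H = 2 ∨ Nat.card H = 3 ∨ Nat.card H = 4 ∨ Nat.card H = 6 ∨
      Nat.card H = 7 ∨ Nat.card H = 12 ∨ Nat.card H = 14) ∨
    (∃ g : SL(2, F), ∀ X, mkP X ∈ H → Up g X) := by
  have hdiv : Nat.card H ∣ 1092 := card_P F ▸ Subgroup.card_subgroup_dvd_card H
  rcases dickson_frame 13 H with h | ⟨A, hA, hd, hle⟩ | ⟨A, hA, hd, hAH, hidx⟩ | ⟨g, hg⟩ |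
    ⟨⟨e⟩⟩ | ⟨⟨e⟩⟩ | ⟨⟨e⟩⟩ | ⟨K, _, _, m, hm, h⟩
  · exact Or.inl (Or.inl h)
  · left
    have h1 := Subgroup.card_dvd_of_le hle
    rcases cbar_card hA hd with h2 | h2 <;> rw [h2] at h1
    · have := dvd7 h1
      omega
    · have := dvd6 h1
      omega
  · left
    have h5 : Nat.card H = 2 * Nat.card (member H A) := by
      have := Subgroup.card_mul_index (member H A)
      rw [hidx] at this
      rw [← this, mul_comm]
    obtain ⟨-, h2⟩ := Cfsg.Agent.Lib.PSL2.MemberCyc.member_cyclic H hA hd
    have h2' : Nat.card (member H A) ∣ 7 ∨ Nat.card (member H A) ∣ 6 := by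
      simpa [cardF] using h2
    rcases h2' with h1 | h1
    · have := dvd7 h1
      omega
    · have := dvd6 h1
      omega
  · right; exact ⟨g, hg⟩
  · left
    rw [Nat.card_congr e.toEquiv, card_alt4]
    omega
  · exfalso
    rw [Nat.card_congr e.toEquiv, card_perm4] at hdiv
    omega
  · exfalso
    rw [Nat.card_congr e.toEquiv, card_alt5] at hdiv
    omega
  · exfalso
    rw [cardF (F := F)] at hm
    have hK := ((Nat.Prime.pow_eq_iff (by norm_num : Nat.Prime 13)).1 hm).1
    exact hH (eq_top_of_card_K (by rw [hK, cardF]) h)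

lemma frame_card {H : Subgroup P} {g : SL(2, F)} (hg : ∀ X, mkP X ∈ H → Up g X) :
    H ≤ borelP g ∧ Nat.card (borelP g) = 78 := by
  refine ⟨le_borelP hg, ?_⟩
  have h := card_borelP g
  rw [ddF, cardF, show (13 - 1 : ℕ) * 13 = 156 by norm_num] at h
  omega

lemma proper_card (H : Subgroup P) (hH : H ≠ ⊤) :
    Nat.card H ∈ ({1, 2, 3, 4, 6, 7, 12, 13, 14, 26, 39, 78} : Finset ℕ) := by
  rcases proper_cases H hH with h | ⟨g, hg⟩
  · simp only [Finset.mem_insert, Finset.mem_singleton]
    omega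
  · obtain ⟨h1, h2⟩ := frame_card hg
    have h3 := Subgroup.card_dvd_of_le h1
    rw [h2] at h3
    have h4 := Nat.le_of_dvd (by norm_num) h3
    simp only [Finset.mem_insert, Finset.mem_singleton]
    generalize Nat.card H = n at *
    interval_cases n <;> omega

/-- Multiples of `12`, `14`, `78` are maximal. -/
lemma coatom_of_card {A : Subgroup P} (h : Nat.card A = 12 ∨ Nat.card A = 14 ∨ Nat.card A = 78) :
    IsCoatom A := by
  constructor
  · rintro rfl
    rw [Subgroup.card_top, card_P F] at h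
    omega
  · intro M hM
    by_contra hne
    have h1 := proper_card M hne
    have h2 : Nat.card A ∣ Nat.card M := Subgroup.card_dvd_of_le hM.le
    have h3 : Nat.card A ≠ Nat.card M := fun h4 =>
      hM.ne (Subgroup.eq_of_le_of_card_ge hM.le h4.ge)
    simp only [Finset.mem_insert, Finset.mem_singleton] at h1
    generalize Nat.card M = n at *
    rcases h with h | h | h <;> rw [h] at h2 h3 <;> rcases h1 with rfl | rfl | rfl | rfl | rfl | rfl | rfl | rfl | rfl | rfl | rfl | rfl <;> omega

lemma card_of_dvd {M : Subgroup P} (hM : M ≠ ⊤) (h : 12 ∣ Nat.card M ∨ 14 ∣ Nat.card M ∨ 78 ∣ Nat.card M) :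
    Nat.card M = 12 ∨ Nat.card M = 14 ∨ Nat.card M = 78 := by
  have h1 := proper_card M hM
  simp only [Finset.mem_insert, Finset.mem_singleton] at h1
  generalize Nat.card M = n at *
  rcases h with h | h | h <;> rcases h1 with rfl | rfl | rfl | rfl | rfl | rfl | rfl | rfl | rfl | rfl | rfl | rfl <;> omega

lemma norm_ne_top {H : Subgroup P} (h1 : H ≠ ⊥) (h2 : H ≠ ⊤) :
    normalizer (H : Set P) ≠ ⊤ := by
  intro h
  haveI hn : H.Normal := Subgroup.normalizer_eq_top_iff.1 h
  haveI := simpleP F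
  rcases IsSimpleGroup.eq_bot_or_eq_top_of_normal H hn with h3 | h3
  · exact h1 h3
  · exact h2 h3

lemma coatom_of_dvd {H : Subgroup P} (h1 : H ≠ ⊥) (h2 : H ≠ ⊤)
    (h : 12 ∣ Nat.card (normalizer (H : Set P)) ∨ 14 ∣ Nat.card (normalizer (H : Set P)) ∨
      78 ∣ Nat.card (normalizer (H : Set P))) : IsCoatom (normalizer (H : Set P)) :=
  coatom_of_card (card_of_dvd (norm_ne_top h1 h2) h)


lemma ch_pow {g : SL(2, F)} {Z : SL(2, F)} (hZ : Up g Z) (n : ℕ) :
    Up g (Z ^ n) ∧ ch g (Z ^ n) = ch g Z ^ n := by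
  induction n with
  | zero =>
    refine ⟨?_, ?_⟩
    · rw [pow_zero]
      unfold Up
      rw [T_one]
      simp
    · rw [pow_zero, pow_zero]
      unfold ch
      rw [T_one]
      simp
  | succ k ih =>
    rw [pow_succ, pow_succ]
    exact ⟨up_mul ih.1 hZ, by rw [ch_mul hZ, ih.2]⟩

end Psl13

/-- Elements of a cyclic group killed by `|H|` lie in `H`. -/
lemma mem_of_pow_card_eq_one {C : Type*} [Group C] [Finite C] [IsCyclic C] (H : Subgroup C) {u : C}
    (hu : u ^ Nat.card H = 1) : u ∈ H := by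
  classical
  haveI := Fintype.ofFinite C
  have hpos : 0 < Nat.card H := Nat.card_pos
  have h1 := IsCyclic.card_pow_eq_one_le (α := C) hpos
  let T : Finset C := Finset.univ.filter (fun a => a ∈ H)
  let S : Finset C := Finset.univ.filter (fun a => a ^ Nat.card H = 1)
  have hTS : T ⊆ S := by
    intro a ha
    simp only [T, S, Finset.mem_filter, Finset.mem_univ, true_and] at ha ⊢
    have := pow_card_eq_one' (x := (⟨a, ha⟩ : H))
    exact congrArg Subtype.val this
  have hT : T.card = Nat.card H := by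
    rw [Nat.card_eq_fintype_card, Fintype.card_subtype]
  have hST : S = T := (Finset.eq_of_subset_of_card_le hTS (by rw [hT]; exact h1)).symm
  have hu' : u ∈ S := by
    simp only [S, Finset.mem_filter, Finset.mem_univ, true_and]
    exact hu
  rw [hST] at hu'
  simpa only [T, Finset.mem_filter, Finset.mem_univ, true_and] using hu'

lemma mem_normalizer_of_conj_le {G : Type*} [Group G] [Finite G] {Q : Subgroup G} {x : G}
    (h : ∀ y ∈ Q, x * y * x⁻¹ ∈ Q) : x ∈ normalizer (Q : Set G) := by
  rw [Subgroup.mem_normalizer_iff]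
  intro y
  refine ⟨h y, fun hy => ?_⟩
  let f : Q → Q := fun q => ⟨x * q.1 * x⁻¹, h q.1 q.2⟩
  have hf : Function.Injective f := by
    intro a b hab
    have h1 : x * a.1 * x⁻¹ = x * b.1 * x⁻¹ := congrArg Subtype.val hab
    exact Subtype.ext (mul_left_cancel (mul_right_cancel h1))
  obtain ⟨q, hq⟩ := (Finite.injective_iff_surjective.1 hf) ⟨_, hy⟩
  have h1 : x * q.1 * x⁻¹ = x * y * x⁻¹ := congrArg Subtype.val hq
  have h2 : q.1 = y := mul_left_cancel (mul_right_cancel h1)
  rw [← h2]
  exact q.2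

lemma le_normalizer_of_card_two {G : Type*} [Group G] [Finite G] {A B : Subgroup G} (hAB : A ≤ B)
    (h : Nat.card B = 2 * Nat.card A) : B ≤ normalizer (A : Set G) := by
  have hidx : (A.subgroupOf B).index = 2 := by
    have h1 := Subgroup.card_mul_index (A.subgroupOf B)
    have h2 : Nat.card (A.subgroupOf B) = Nat.card A :=
      Nat.card_congr (Subgroup.subgroupOfEquivOfLe hAB).toEquiv
    rw [h2, h] at h1
    have h3 : 0 < Nat.card A := Nat.card_pos
    have h4 : Nat.card A * (A.subgroupOf B).index = Nat.card A * 2 := by rw [h1]; ring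
    exact Nat.eq_of_mul_eq_mul_left h3 h4
  haveI := Subgroup.normal_of_index_eq_two hidx
  exact (Subgroup.normal_subgroupOf_iff_le_normalizer hAB).1 this

section Psl13b

variable {F : Type} [Field F] [Fintype F] [CharP F 13] [hF : Fact (Fintype.card F = 13)]

local notation "P" => PSL(2, F)

lemma exists_ch_one {H : Subgroup P} {g : SL(2, F)} (hg : ∀ X, mkP X ∈ H → Up g X)
    (h13 : 13 ∣ Nat.card H) : ∃ Z : SL(2, F), mkP Z ∈ H ∧ mkP Z ≠ 1 ∧ Up g Z ∧ ch g Z = 1 := by
  haveI : Fact (Nat.Prime 13) := f13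
  obtain ⟨x, hx⟩ := exists_prime_orderOf_dvd_card' (G := H) 13 h13
  obtain ⟨Z, hZ⟩ := mkP_surjective x.1
  have hZH : mkP Z ∈ H := by rw [hZ]; exact x.2
  have hUp := hg Z hZH
  have hord : orderOf (mkP Z) = 13 := by
    rw [hZ, Subgroup.orderOf_coe, hx]
  have hne : mkP Z ≠ 1 := by
    intro h
    rw [h, orderOf_one] at hord
    omega
  have h13' : (mkP Z) ^ 13 = 1 := by
    rw [← hord]; exact pow_orderOf_eq_one _
  rw [← map_pow, mkP_eq_one_iff] at h13'
  have hch : ch g Z ^ 13 = ch g Z := by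
    have h0 := FiniteField.pow_card (ch g Z)
    rwa [cardF (F := F)] at h0
  have hch2 : ch g Z = 1 ∨ ch g Z = -1 := by
    have h1 := (ch_pow hUp 13).2
    rw [hch] at h1
    rcases h13' with h2 | h2
    · left
      rw [← h1, h2]
      unfold ch
      rw [T_one]
      simp
    · right
      rw [← h1, h2, ch_neg]
      unfold ch
      rw [T_one]
      simp
  rcases hch2 with h1 | h1
  · exact ⟨Z, hZH, hne, hUp, h1⟩
  · refine ⟨-Z, ?_, ?_, up_neg hUp, ?_⟩
    · rw [mkP_neg]; exact hZH
    · rw [mkP_neg]; exact hne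
    · rw [ch_neg, h1, neg_neg]

lemma frame_all_mem {H : Subgroup P} {g : SL(2, F)} (hg : ∀ X, mkP X ∈ H → Up g X)
    (h13 : 13 ∣ Nat.card H) (t : F) : mkP (g⁻¹ * x t * g) ∈ H := by
  obtain ⟨Z, hZH, hne, hUp, hch⟩ := exists_ch_one hg h13
  let A : AddSubgroup F :=
    { carrier := {t | mkP (g⁻¹ * x t * g) ∈ H}
      add_mem' := by
        intro a b ha hb
        have h1 : g⁻¹ * x (a + b) * g = (g⁻¹ * x a * g) * (g⁻¹ * x b * g) := by
          rw [x_add]; group
        show mkP (g⁻¹ * x (a + b) * g) ∈ H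
        rw [h1, map_mul]
        exact H.mul_mem ha hb
      zero_mem' := by
        show mkP (g⁻¹ * x 0 * g) ∈ H
        rw [x_zero]
        simp
      neg_mem' := by
        intro a ha
        have h1 : g⁻¹ * x (-a) * g = (g⁻¹ * x a * g)⁻¹ := by
          rw [← x_inv]; group
        show mkP (g⁻¹ * x (-a) * g) ∈ H
        rw [h1, map_inv]
        exact H.inv_mem ha }
  have hT : T g Z = x ((T g Z).1 0 1) := by
    apply ext2
    · exact hch
    · simp
    · exact hUp
    · rw [T_11 hUp]
      simp only [x_11]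
      show (ch g Z)⁻¹ = 1
      rw [hch, inv_one]
  have hZe : Z = g⁻¹ * x ((T g Z).1 0 1) * g := by
    rw [← hT]; simp only [T]; group
  have hs : (T g Z).1 0 1 ∈ A := by
    show mkP (g⁻¹ * x ((T g Z).1 0 1) * g) ∈ H
    rw [← hZe]; exact hZH
  have hs0 : (T g Z).1 0 1 ≠ 0 := by
    intro h0
    rw [h0, x_zero] at hZe
    apply hne
    rw [hZe]
    simp
  haveI : Fact (Nat.Prime (Nat.card (Multiplicative F))) := ⟨by
    rw [Nat.card_congr Multiplicative.ofAdd.symm, Nat.card_eq_fintype_card, cardF (F := F)]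
    norm_num⟩
  have htop : A = ⊤ := by
    have h := Subgroup.eq_bot_or_eq_top_of_prime_card (G := Multiplicative F)
      (AddSubgroup.toSubgroup A)
    rcases h with h | h
    · exfalso
      apply hs0
      have h1 : Multiplicative.ofAdd ((T g Z).1 0 1) ∈ AddSubgroup.toSubgroup A := hs
      rw [h, Subgroup.mem_bot] at h1
      exact h1
    · ext u
      simp only [AddSubgroup.mem_top, iff_true]
      have h1 : Multiplicative.ofAdd u ∈ AddSubgroup.toSubgroup A := by rw [h]; trivial
      exact h1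
  have : t ∈ A := by rw [htop]; trivial
  exact this

lemma borel_le_normalizer {H : Subgroup P} {g : SL(2, F)} (hg : ∀ X, mkP X ∈ H → Up g X)
    (h13 : 13 ∣ Nat.card H) : borelP g ≤ normalizer (H : Set P) := by
  intro a ha
  obtain ⟨Y, rfl⟩ := mkP_surjective a
  rw [mem_borelP] at ha
  apply mem_normalizer_of_conj_le
  intro h hh
  obtain ⟨X, rfl⟩ := mkP_surjective h
  have hX := hg X hh
  let c : SL(2, F) := Y * X * Y⁻¹ * X⁻¹
  have hcUp : Up g c := up_mul (up_mul (up_mul ha hX) (up_inv ha)) (up_inv hX)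
  have hcch : ch g c = 1 := by
    have hY0 := ch_ne_zero ha
    have hX0 := ch_ne_zero hX
    simp only [c]
    rw [ch_mul (up_inv hX), ch_mul (up_inv ha), ch_mul hX, ch_inv hX, ch_inv ha]
    field_simp
  have hT : T g c = x ((T g c).1 0 1) := by
    apply ext2
    · exact hcch
    · simp
    · exact hcUp
    · rw [T_11 hcUp]
      simp only [x_11]
      show (ch g c)⁻¹ = 1
      rw [hcch, inv_one]
  have hce : c = g⁻¹ * x ((T g c).1 0 1) * g := by
    rw [← hT]; simp only [T]; group
  have h1 : mkP c ∈ H := by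
    rw [hce]; exact frame_all_mem hg h13 _
  have h2 : mkP Y * mkP X * (mkP Y)⁻¹ = mkP c * mkP X := by
    simp only [c]
    simp only [map_mul, map_inv]
    group
  rw [h2]
  exact H.mul_mem h1 hh

lemma card_top_P : Nat.card (⊤ : Subgroup P) = 1092 := by
  rw [Subgroup.card_top, card_P F]

lemma ne_top_of_card {H : Subgroup P} {n : ℕ} (h : Nat.card H = n) (hn : n ≠ 1092) : H ≠ ⊤ := by
  rintro rfl
  rw [card_top_P] at h
  omega

lemma ne_bot_of_card {H : Subgroup P} {n : ℕ} (h : Nat.card H = n) (hn : n ≠ 1) : H ≠ ⊥ := by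
  rintro rfl
  rw [Subgroup.card_bot] at h
  omega

lemma Nz_le {g : SL(2, F)} (hg : NC g) (hd : disc g ≠ 0) {H : Subgroup P} (hH : H ≤ cbar g) :
    Nz g ≤ normalizer (H : Set P) := by
  intro y hy
  apply mem_normalizer_of_conj_le
  intro h hh
  haveI := (Cfsg.Agent.Lib.PSL2.MemberCyc.cbar_cyclic hg hd).1
  have h1 : y * h * y⁻¹ ∈ cbar g := (Subgroup.mem_normalizer_iff.1 hy h).1 (hH hh)
  have h2 : ((⟨y * h * y⁻¹, h1⟩ : cbar g)) ∈ H.subgroupOf (cbar g) := by
    apply mem_of_pow_card_eq_one
    have h3 : Nat.card (H.subgroupOf (cbar g)) = Nat.card H :=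
      Nat.card_congr (Subgroup.subgroupOfEquivOfLe hH).toEquiv
    rw [h3]
    apply Subtype.ext
    have h4 : h ^ Nat.card H = 1 := by
      have := pow_card_eq_one' (x := (⟨h, hh⟩ : H))
      exact congrArg Subtype.val this
    show (y * h * y⁻¹) ^ Nat.card H = 1
    rw [conj_pow, h4]
    group
  exact h2

/-- Subgroups of order `2`, `3`, `7`. -/
lemma prime_case {H : Subgroup P} {p : ℕ} (hpp : p.Prime) (hp : p = 2 ∨ p = 3 ∨ p = 7)
    (hc : Nat.card H = p) :
    (p = 7 → 14 ∣ Nat.card (normalizer (H : Set P))) ∧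
      (p ≠ 7 → 12 ∣ Nat.card (normalizer (H : Set P))) := by
  haveI := Fact.mk hpp
  obtain ⟨z, hz⟩ := exists_prime_orderOf_dvd_card' (G := H) p (by rw [hc])
  obtain ⟨g, hgz⟩ := mkP_surjective z.1
  have hz1 : orderOf (mkP g) = p := by rw [hgz, Subgroup.orderOf_coe, hz]
  have hne : mkP g ≠ 1 := by
    intro h
    rw [h, orderOf_one] at hz1
    exact hpp.one_lt.ne hz1
  have hNC : NC g := by
    constructor
    · rintro rfl
      exact hne (map_one _)
    · rintro rfl
      exact hne mkP_neg_one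
  have hd : disc g ≠ 0 := by
    intro hd
    have hP := (isP_member (H := ⊤) 13 hNC hd).pgroup
    have h1 : (⟨mkP g, Subgroup.mem_top _⟩ : (⊤ : Subgroup P)) ∈ member ⊤ g := self_mem_member _
    obtain ⟨k, hk⟩ := IsPGroup.iff_orderOf.1 hP ⟨_, h1⟩
    have h2 : orderOf (⟨mkP g, Subgroup.mem_top _⟩ : (⊤ : Subgroup P)) = p := by
      rw [Subgroup.orderOf_mk, hz1]
    rw [Subgroup.orderOf_mk, Subgroup.orderOf_mk, hz1] at hk
    have h3 : p ∣ 13 ^ k := by rw [hk]
    have h4 : p ∣ 13 := hpp.dvd_of_dvd_pow h3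
    have h5 := Nat.le_of_dvd (by norm_num) h4
    rcases hp with rfl | rfl | rfl <;> omega
  have ht : tr g ^ 2 ≠ 4 := by
    intro h
    apply hd
    unfold disc
    rw [h, sub_self]
  obtain ⟨w, hw⟩ := Cfsg.Agent.Lib.PSL2.Macbeath.exists_conj_of_tr_eq g g⁻¹ ht (tr_inv g).symm
  have hHz : H = Subgroup.zpowers (mkP g) := by
    symm
    apply Subgroup.eq_of_le_of_card_ge
    · rw [Subgroup.zpowers_le, hgz]
      exact z.2
    · rw [Nat.card_zpowers, hz1, hc]
  have hle : H ≤ cbar g := by
    rw [hHz, Subgroup.zpowers_le]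
    exact mkP_mem_cbar.2 rfl
  have h1 := Subgroup.card_dvd_of_le (Nz_le hNC hd hle)
  rw [card_Nz 13 hNC hd hw] at h1
  have h2 := Subgroup.card_dvd_of_le hle
  rw [hc] at h2
  rcases cbar_card hNC hd with h3 | h3 <;> rw [h3] at h1 h2
  · refine ⟨fun _ => h1, fun h7 => ?_⟩
    exfalso
    rcases hp with rfl | rfl | rfl <;> omega
  · refine ⟨fun h7 => ?_, fun _ => h1⟩
    exfalso
    rcases hp with rfl | rfl | rfl <;> omega

/-- Subgroups of order `6`. -/
lemma six_case {H : Subgroup P} (hc : Nat.card H = 6) :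
    12 ∣ Nat.card (normalizer (H : Set P)) := by
  haveI : Fact (Nat.Prime 3) := ⟨by norm_num⟩
  obtain ⟨z, hz⟩ := exists_prime_orderOf_dvd_card' (G := H) 3 (by rw [hc]; norm_num)
  set Q : Subgroup P := Subgroup.zpowers z.1 with hQdef
  have hQc : Nat.card Q = 3 := by
    rw [hQdef, Nat.card_zpowers, Subgroup.orderOf_coe, hz]
  have hQH : Q ≤ H := by
    rw [hQdef, Subgroup.zpowers_le]
    exact z.2
  have h12 := (prime_case (H := Q) (by norm_num) (by omega) hQc).2 (by norm_num)
  have hNQ : Nat.card (normalizer (Q : Set P)) = 12 := by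
    rcases card_of_dvd (norm_ne_top (ne_bot_of_card hQc (by norm_num))
      (ne_top_of_card hQc (by norm_num))) (Or.inl h12) with h | h | h <;> omega
  have hHQ : H ≤ normalizer (Q : Set P) := le_normalizer_of_card_two hQH (by rw [hc, hQc])
  have h1 : normalizer (Q : Set P) ≤ normalizer (H : Set P) :=
    le_normalizer_of_card_two hHQ (by rw [hc, hNQ])
  have h2 := Subgroup.card_dvd_of_le h1
  rwa [hNQ] at h2

/-- Subgroups of order `4`. -/
lemma four_case {H : Subgroup P} (hc : Nat.card H = 4) :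
    12 ∣ Nat.card (normalizer (H : Set P)) := by
  have hne : normalizer (H : Set P) ≠ ⊤ :=
    norm_ne_top (ne_bot_of_card hc (by norm_num)) (ne_top_of_card hc (by norm_num))
  have h1 := proper_card _ hne
  have h2 : 4 ∣ Nat.card (normalizer (H : Set P)) := by
    have := Subgroup.card_dvd_of_le (le_normalizer (H := H))
    rwa [hc] at this
  by_cases h4 : Nat.card (normalizer (H : Set P)) = 4
  · exfalso
    have hNH : normalizer (H : Set P) = H :=
      (Subgroup.eq_of_le_of_card_ge le_normalizer (by rw [h4, hc])).symm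
    have hfac : Nat.card H = 2 ^ (Nat.card P).factorization 2 := by
      rw [hc, card_P F]
      have : (1092 : ℕ).factorization 2 = 2 := by
        rw [show (1092 : ℕ) = 2 ^ 2 * 273 by norm_num]
        rw [Nat.factorization_mul (by norm_num) (by norm_num),
          Nat.Prime.factorization_pow Nat.prime_two]
        have h273 : (273 : ℕ).factorization 2 = 0 :=
          Nat.factorization_eq_zero_of_not_dvd (by norm_num)
        simp [h273]
      rw [this]
      norm_num
    let S : Sylow 2 P := Sylow.ofCard H hfac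
    have hS : (S : Subgroup P) = H := rfl
    have hcomm : ∀ a ∈ H, ∀ b ∈ H, a * b = b * a := by
      have hP : IsPGroup 2 H := IsPGroup.of_card (n := 2) (by rw [hc]; norm_num)
      have hcard' : Nat.card H = 2 ^ 2 := by rw [hc]; norm_num
      have hcm := IsPGroup.isMulCommutative_of_card_eq_prime_sq (p := 2) hcard'
      intro a ha b hb
      have := mul_comm' (⟨a, ha⟩ : H) ⟨b, hb⟩
      exact congrArg Subtype.val this
    have hNC : normalizer ((S : Subgroup P) : Set P) ≤ Subgroup.centralizer ((S : Subgroup P) : Set P) := by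
      rw [hS, hNH]
      intro a ha
      rw [Subgroup.mem_centralizer_iff]
      intro b hb
      exact hcomm b hb a ha
    have hcompl := MonoidHom.ker_transferSylow_isComplement' S hNC
    haveI := simpleP F
    have hcard := hcompl.card_mul_card
    have hSc : Nat.card (S : Subgroup P) = 4 := hc
    rw [hSc, card_P F] at hcard
    rcases IsSimpleGroup.eq_bot_or_eq_top_of_normal _ (MonoidHom.normal_ker (MonoidHom.transferSylow S hNC)) with h5 | h5
    · rw [h5, Subgroup.card_bot] at hcard
      omega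
    · rw [h5, Subgroup.card_top, card_P F] at hcard
      omega
  · simp only [Finset.mem_insert, Finset.mem_singleton] at h1
    generalize Nat.card (normalizer (H : Set P)) = n at *
    rcases h1 with rfl | rfl | rfl | rfl | rfl | rfl | rfl | rfl | rfl | rfl | rfl | rfl <;> omega

/-- The main theorem for `PSL(2, 13)`. -/
theorem main_psl {H : Subgroup P} (h1 : H ≠ ⊥) (h2 : H ≠ ⊤) : IsCoatom (normalizer (H : Set P)) := by
  have hlist := proper_card H h2
  have hdvdN : Nat.card H ∣ Nat.card (normalizer (H : Set P)) :=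
    Subgroup.card_dvd_of_le le_normalizer
  apply coatom_of_dvd h1 h2
  have hcase13 : 13 ∣ Nat.card H → 78 ∣ Nat.card (normalizer (H : Set P)) := by
    intro h13
    rcases proper_cases H h2 with h | ⟨g, hg⟩
    · exfalso
      omega
    · have h3 := Subgroup.card_dvd_of_le (borel_le_normalizer hg h13)
      rwa [(frame_card hg).2] at h3
  simp only [Finset.mem_insert, Finset.mem_singleton] at hlist
  rcases hlist with h | h | h | h | h | h | h | h | h | h | h | h
  · exfalso
    apply h1
    exact Subgroup.eq_bot_of_card_eq _ h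
  · exact Or.inl ((prime_case (by norm_num) (by omega) h).2 (by norm_num))
  · exact Or.inl ((prime_case (by norm_num) (by omega) h).2 (by norm_num))
  · exact Or.inl (four_case h)
  · exact Or.inl (six_case h)
  · exact Or.inr (Or.inl ((prime_case (by norm_num) (by omega) h).1 rfl))
  · left; rwa [h] at hdvdN
  · right; right; exact hcase13 (by omega)
  · right; left; rwa [h] at hdvdN
  · right; right; exact hcase13 (by omega)
  · right; right; exact hcase13 (by omega)
  · right; right; exact hcase13 (by omega)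

end Psl13b

/-- The property of the statement. -/
def Good (K : Type*) [Group K] : Prop :=
  ∀ H : Subgroup K, ¬ H.Normal → IsCoatom (normalizer (H : Set K))

lemma coatom_comap {G G' : Type*} [Group G] [Group G'] (f : G →* G')
    (hf : Function.Surjective f) {M : Subgroup G'} (hM : IsCoatom M) : IsCoatom (M.comap f) := by
  constructor
  · intro h
    apply hM.1
    rw [eq_top_iff]
    intro y _
    obtain ⟨x, rfl⟩ := hf y
    have : x ∈ M.comap f := by rw [h]; trivial
    exact this
  · intro L hL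
    have h1 : M ≤ L.map f := by
      intro y hy
      obtain ⟨x, rfl⟩ := hf y
      exact ⟨x, hL.le hy, rfl⟩
    have h2 : L.map f ≠ M := by
      intro h3
      apply hL.not_ge
      intro x hx
      rw [Subgroup.mem_comap, ← h3]
      exact ⟨x, hx, rfl⟩
    have h3 : L.map f = ⊤ := hM.2 _ (lt_of_le_of_ne h1 (Ne.symm h2))
    rw [eq_top_iff]
    intro x _
    have h4 : f x ∈ L.map f := by rw [h3]; trivial
    obtain ⟨l, hl, hlx⟩ := h4
    have h5 : l⁻¹ * x ∈ M.comap f := by
      rw [Subgroup.mem_comap, map_mul, map_inv, hlx, inv_mul_cancel]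
      exact M.one_mem
    have h6 := L.mul_mem hl (hL.le h5)
    simpa using h6

lemma good_of_equiv {K K' : Type*} [Group K] [Group K'] (e : K ≃* K') (h : Good K') : Good K := by
  intro H hH
  set H' : Subgroup K' := H.comap e.symm.toMonoidHom with hH'
  have h1 : H'.comap e.toMonoidHom = H := by
    ext x
    simp [hH', Subgroup.mem_comap]
  have h2 : ¬ H'.Normal := by
    intro h3
    apply hH
    rw [← h1]
    exact h3.comap _
  have h3 := h H' h2
  have h4 := coatom_comap e.toMonoidHom e.surjective h3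
  have h5 := Subgroup.comap_normalizer_eq_of_surjective (H := H') (f := e.toMonoidHom) e.surjective
  rw [h1] at h5
  rwa [h5] at h4

section PslSl

variable {F : Type} [Field F] [Fintype F] [CharP F 13] [hF : Fact (Fintype.card F = 13)]

lemma good_psl : Good PSL(2, F) := by
  intro H hH
  apply main_psl
  · rintro rfl
    exact hH inferInstance
  · rintro rfl
    exact hH inferInstance

lemma two_ne : (2 : F) ≠ 0 := by
  intro h
  have h1 : ((2 : ℕ) : F) = 0 := by exact_mod_cast h
  have h2 := (CharP.cast_eq_zero_iff F 13 2).1 h1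
  omega

lemma neg_one_ne_one : (-1 : SL(2, F)) ≠ 1 := by
  intro h
  have h1 := congrArg (fun M : SL(2, F) => M.1 0 0) h
  simp at h1
  apply two_ne (F := F)
  linear_combination -h1

lemma odd_orderOf {H : Subgroup SL(2, F)} (hm : (-1 : SL(2, F)) ∉ H) {a : SL(2, F)} (ha : a ∈ H) :
    Odd (orderOf a) := by
  by_contra hodd
  have h2 : 2 ∣ orderOf a := (Nat.not_odd_iff_even.1 hodd).two_dvd
  have hne : orderOf a ≠ 0 := (isOfFinOrder_of_finite a).orderOf_pos.ne'
  have h3 := orderOf_pow_orderOf_div hne h2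
  set u := a ^ (orderOf a / 2) with hu
  have h4 : u * u = 1 := by
    have h0 := pow_orderOf_eq_one u
    rw [h3] at h0
    rw [← pow_two]
    exact h0
  rcases (Cfsg.Agent.Lib.PSL2.Torus.mul_self_eq_one_iff two_ne u).1 h4 with h5 | h5
  · rw [h5, orderOf_one] at h3
    omega
  · apply hm
    rw [← h5, hu]
    exact H.pow_mem ha _

lemma good_sl : Good SL(2, F) := by
  intro H hH
  have hbot : H.map (mkP : SL(2, F) →* PSL(2, F)) ≠ ⊥ := by
    intro h
    apply hH
    constructor
    intro n hn g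
    have h1 : mkP n ∈ H.map (mkP : SL(2, F) →* PSL(2, F)) := ⟨n, hn, rfl⟩
    rw [h, Subgroup.mem_bot, mkP_eq_one_iff] at h1
    rcases h1 with rfl | rfl
    · simpa using hn
    · simpa using hn
  have htop : H.map (mkP : SL(2, F) →* PSL(2, F)) ≠ ⊤ := by
    intro h
    apply hH
    constructor
    intro n hn g
    have h1 : mkP g ∈ H.map (mkP : SL(2, F) →* PSL(2, F)) := by rw [h]; trivial
    obtain ⟨g', hg', hgg⟩ := h1
    rcases mkP_eq_iff.1 hgg with rfl | rfl
    · exact H.mul_mem (H.mul_mem hg' hn) (H.inv_mem hg')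
    · have h2 : (-g') * n * (-g')⁻¹ = g' * n * g'⁻¹ := by
        simp
      rw [h2]
      exact H.mul_mem (H.mul_mem hg' hn) (H.inv_mem hg')
  have hco := main_psl hbot htop
  have hcom := coatom_comap (mkP : SL(2, F) →* PSL(2, F)) mkP_surjective hco
  have heq : (normalizer ((H.map (mkP : SL(2, F) →* PSL(2, F)) : Subgroup PSL(2, F)) : Set PSL(2, F))).comap
      (mkP : SL(2, F) →* PSL(2, F)) = normalizer (H : Set SL(2, F)) := by
    apply le_antisymm
    · intro y hy
      apply mem_normalizer_of_conj_le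
      intro h hh
      have h1 : mkP y * mkP h * (mkP y)⁻¹ ∈ H.map (mkP : SL(2, F) →* PSL(2, F)) :=
        (Subgroup.mem_normalizer_iff.1 hy _).1 ⟨h, hh, rfl⟩
      rw [← map_inv, ← map_mul, ← map_mul] at h1
      obtain ⟨h', hh', hhh⟩ := h1
      rcases mkP_eq_iff.1 hhh with h2 | h2
      · rw [h2]; exact hh'
      · by_cases hm : (-1 : SL(2, F)) ∈ H
        · rw [h2]
          have h3 : -h' = (-1) * h' := by simp
          rw [h3]
          exact H.mul_mem hm hh'
        · exfalso
          have ho1 := odd_orderOf hm hh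
          have ho2 := odd_orderOf hm hh'
          have hn : Odd (orderOf h * orderOf h') := ho1.mul ho2
          have h3 : (y * h * y⁻¹) ^ (orderOf h * orderOf h') = 1 := by
            rw [conj_pow, pow_mul, pow_orderOf_eq_one]
            simp
          rw [h2, hn.neg_pow, mul_comm, pow_mul, pow_orderOf_eq_one, one_pow] at h3
          exact neg_one_ne_one h3
    · intro y hy
      rw [Subgroup.mem_comap]
      exact Subgroup.le_normalizer_map (mkP : SL(2, F) →* PSL(2, F)) ⟨y, hy, rfl⟩
  rwa [heq] at hcom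

end PslSl

section Prod

variable {K S : Type*} [Group K] [CommGroup S] [Finite K] [Finite S]

lemma fst_mem (hKS : (Nat.card K).Coprime (Nat.card S)) {H : Subgroup (K × S)} {a : K} {b : S}
    (h : (a, b) ∈ H) : (a, (1 : S)) ∈ H := by
  obtain ⟨u, hu1, hu2⟩ : ∃ u : ℕ, u % Nat.card K = 1 % Nat.card K ∧ Nat.card S ∣ u := by
    obtain ⟨u, hu⟩ := Nat.chineseRemainder hKS 1 0
    refine ⟨u, hu.1, ?_⟩
    exact (Nat.modEq_zero_iff_dvd).1 hu.2
  have h1 := H.pow_mem h u
  have h2 : (a, b) ^ u = (a, (1 : S)) := by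
    rw [Prod.pow_mk]
    congr 1
    · rw [← pow_mod_natCard, hu1, pow_mod_natCard, pow_one]
    · obtain ⟨v, rfl⟩ := hu2
      rw [pow_mul, pow_card_eq_one', one_pow]
  rwa [h2] at h1

lemma snd_mem (hKS : (Nat.card K).Coprime (Nat.card S)) {H : Subgroup (K × S)} {a : K} {b : S}
    (h : (a, b) ∈ H) : ((1 : K), b) ∈ H := by
  have h3 := fst_mem hKS h
  have h4 := H.mul_mem (H.inv_mem h3) h
  simpa using h4

lemma good_prod (hK : Good K) (hKS : (Nat.card K).Coprime (Nat.card S)) : Good (K × S) := by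
  intro H hH
  set H₁ : Subgroup K := H.map (MonoidHom.fst K S) with hH₁
  have hmem : ∀ a : K, a ∈ H₁ ↔ (a, (1 : S)) ∈ H := by
    intro a
    constructor
    · rintro ⟨⟨a', b⟩, hab, rfl⟩
      exact fst_mem hKS hab
    · intro h
      exact ⟨_, h, rfl⟩
  have key : ∀ k : K, ∀ s : S, k ∈ normalizer (H₁ : Set K) → (k, s) ∈ normalizer (H : Set (K × S)) := by
    intro k s hk
    apply mem_normalizer_of_conj_le
    rintro ⟨a, b⟩ hab
    have h1 : a ∈ H₁ := (hmem a).2 (fst_mem hKS hab)
    have h2 : k * a * k⁻¹ ∈ H₁ := (Subgroup.mem_normalizer_iff.1 hk a).1 h1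
    have h3 := (hmem _).1 h2
    have h4 := snd_mem hKS hab
    have h5 := H.mul_mem h3 h4
    have h6 : (k, s) * (a, b) * (k, s)⁻¹ = (k * a * k⁻¹, (1 : S)) * ((1 : K), b) := by
      ext
      · simp
      · simp
    rw [h6]
    exact h5
  have hn : ¬ H₁.Normal := by
    intro h1
    apply hH
    rw [← Subgroup.normalizer_eq_top_iff, eq_top_iff]
    rintro ⟨k, s⟩ -
    apply key
    rw [Subgroup.normalizer_eq_top_iff.2 h1]
    trivial
  have hco := hK H₁ hn
  have hcom := coatom_comap (MonoidHom.fst K S) Prod.fst_surjective hco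
  have heq : (normalizer (H₁ : Set K)).comap (MonoidHom.fst K S) = normalizer (H : Set (K × S)) := by
    apply le_antisymm
    · rintro ⟨k, s⟩ hk
      exact key k s hk
    · rintro ⟨k, s⟩ hk
      rw [Subgroup.mem_comap]
      show k ∈ _
      apply mem_normalizer_of_conj_le
      intro a ha
      have h1 := (hmem a).1 ha
      have h2 := (Subgroup.mem_normalizer_iff.1 hk _).1 h1
      rw [hmem]
      have h3 : (k, s) * (a, (1 : S)) * (k, s)⁻¹ = (k * a * k⁻¹, (1 : S)) := by
        ext
        · simp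
        · simp
      rwa [h3] at h2
  rwa [heq] at hcom

end Prod

theorem result {K S : Type*} [Group K] [CommGroup S] [Finite K] [Finite S]
    (hK : Nonempty (K ≃* Matrix.ProjectiveSpecialLinearGroup (Fin 2) (ZMod 13)) ∨
      Nonempty (K ≃* Matrix.SpecialLinearGroup (Fin 2) (ZMod 13)))
    (hKS : (Nat.card K).Coprime (Nat.card S)) (H : Subgroup (K × S)) (hH : ¬ H.Normal) :
    IsCoatom (Subgroup.normalizer (H : Set (K × S))) := by
  haveI : Fact (Fintype.card (ZMod 13) = 13) := ⟨ZMod.card 13⟩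
  have hG : Good K := by
    rcases hK with ⟨⟨e⟩⟩ | ⟨⟨e⟩⟩
    · exact good_of_equiv e (good_psl (F := ZMod 13))
    · exact good_of_equiv e (good_sl (F := ZMod 13))
  exact good_prod hG hKS H hH

end Cfsg.Agent.S4234
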