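import Cfsg.Statements.S4236
import Cfsg.Agent.Lib.Perm.SylowNumber
import Cfsg.Agent.Lib.Basic.SylowCount

set_option autoImplicit false
set_option linter.unusedSectionVars false
open Cfsg

namespace Cfsg.Agent.S4236

open MulAction Cfsg.Agent.Lib.Perm.SylowNumber

universe u

instance fact_seventeen : Fact (Nat.Prime 17) := ⟨by norm_num⟩
instance fact_five : Fact (Nat.Prime 5) := ⟨by norm_num⟩

section core
variable {G : Type u} [Group G] [Finite G]

theorem hdiv35 : ∀ d, d ∣ 35 → d % 17 = 1 % 17 → d = 1 ∨ d = 35 := by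
  intro d hd hm
  have h1 : d ≤ 35 := Nat.le_of_dvd (by norm_num) hd
  interval_cases d <;> omega

theorem fix_one (hX : Nat.card (Sylow 17 G) = 35)
    (hfaith : Function.Injective (toPermHom G (Sylow 17 G))) (x : G) (k : ℕ)
    (hk : orderOf x = 17 ^ k) (hx : x ≠ 1) : (fixSet x : Set (Sylow 17 G)).ncard = 1 := by
  have h1 := two_mul_fix_le 35 hX (by norm_num) hdiv35 hfaith x k hk hx
  have h2 := card_fix_modEq (α := Sylow 17 G) 17 x k hk
  rw [hX] at h2
  have h3 : 35 % 17 = (fixSet x : Set (Sylow 17 G)).ncard % 17 := h2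
  omega

theorem free (hX : Nat.card (Sylow 17 G) = 35)
    (hfaith : Function.Injective (toPermHom G (Sylow 17 G))) (P : Sylow 17 G) :
    ∀ x ∈ (P : Subgroup G), x ≠ 1 → ∀ y : Sylow 17 G, x • y = y → y = P := by
  intro x hx hx1 y hy
  obtain ⟨k, hk⟩ := exists_orderOf_of_mem P hx
  obtain ⟨a, ha⟩ := Set.ncard_eq_one.mp (fix_one hX hfaith x k hk hx1)
  have h1 : y ∈ (fixSet x : Set (Sylow 17 G)) := hy
  have h2 : P ∈ (fixSet x : Set (Sylow 17 G)) := smul_self_of_mem P hx
  rw [ha, Set.mem_singleton_iff] at h1 h2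
  exact h1.trans h2.symm

theorem card_P (hX : Nat.card (Sylow 17 G) = 35)
    (hfaith : Function.Injective (toPermHom G (Sylow 17 G))) (P : Sylow 17 G) :
    Nat.card (P : Subgroup G) = 17 :=
  card_eq_of_free 35 hX (by norm_num) (by norm_num) P (free hX hfaith P)

/-- An element commuting with `P`, fixing `P` and another point, is trivial. -/
theorem eq_one_of_commute (hX : Nat.card (Sylow 17 G) = 35)
    (hfaith : Function.Injective (toPermHom G (Sylow 17 G))) (P b : Sylow 17 G) (hb : b ≠ P)
    (d : G) (hdP : d • P = P) (hdb : d • b = b) (hd : ∀ u ∈ (P : Subgroup G), d * u = u * d) :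
    d = 1 := by
  by_contra hd1
  obtain ⟨r, m, hrp, hro, -⟩ := exists_pow_prime_order d hd1
  haveI : Fact r.Prime := ⟨hrp⟩
  set e := d ^ m with he
  have he1 : e ≠ 1 := by
    intro h
    rw [h, orderOf_one] at hro
    exact hrp.one_lt.ne hro
  have heP : e • P = P := pow_smul_fix hdP m
  have heb : e • b = b := pow_smul_fix hdb m
  have hec : ∀ u ∈ (P : Subgroup G), e * u = u * e := fun u hu =>
    (Commute.pow_left (show Commute d u from hd u hu) m)
  have hmod := fix_mod_of_commute P e heP hec
  have hle := fix_le 35 hX e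
  have hne : (fixSet e : Set (Sylow 17 G)).ncard ≠ 35 := fun h =>
    he1 (eq_one_of_fix_all 35 hX hfaith e h)
  have hge : 2 ≤ (fixSet e : Set (Sylow 17 G)).ncard := by
    have hsub : ({P, b} : Set (Sylow 17 G)) ⊆ fixSet e := by
      intro a ha
      rcases ha with rfl | ha
      · exact heP
      · rw [Set.mem_singleton_iff] at ha
        rw [ha]; exact heb
    have h1 := Set.ncard_le_ncard hsub (Set.toFinite _)
    rwa [Set.ncard_pair (Ne.symm hb)] at h1
  have h18 : (fixSet e : Set (Sylow 17 G)).ncard = 18 := by omega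
  have hr := card_fix_modEq (α := Sylow 17 G) r e 1 (by rw [hro, pow_one])
  rw [hX, h18] at hr
  have hrd : r ∣ 35 - 18 := (Nat.modEq_iff_dvd' (by norm_num)).mp hr.symm
  have hr17 : r = 17 := (Nat.prime_dvd_prime_iff_eq hrp (by norm_num)).mp hrd
  have h1 := fix_one hX hfaith e 1 (by rw [hro, hr17, pow_one]) he1
  omega

/-- Structure of an involution. -/
theorem involution_struct (hX : Nat.card (Sylow 17 G) = 35)
    (hfaith : Function.Injective (toPermHom G (Sylow 17 G)))
    (hno : ∀ K : Subgroup G, K.Normal → ¬ 17 ∣ K.index → K = ⊤) (a : Sylow 17 G) (c : G)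
    (hc : orderOf c = 2) (hca : c • a = a) :
    (∀ u ∈ (a : Subgroup G), c * u * c⁻¹ = u⁻¹) ∧ (fixSet c : Set (Sylow 17 G)).ncard = 3 := by
  have hcc : c * c = 1 := by
    have := pow_orderOf_eq_one c
    rw [hc, pow_two] at this
    exact this
  have hc1 : c ≠ 1 := by
    intro h
    rw [h, orderOf_one] at hc
    omega
  have h4 := four_dvd_moved_sylow (p := 17) (by norm_num) hno hfaith c hc
  have hm := moved_add_fix 35 hX c
  have hle := fix_le 35 hX c
  have hne : (fixSet c : Set (Sylow 17 G)).ncard ≠ 35 := fun h =>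
    hc1 (eq_one_of_fix_all 35 hX hfaith c h)
  have hnc : ¬ ∀ u ∈ (a : Subgroup G), c * u = u * c := by
    intro hcomm
    have hmod := fix_mod_of_commute a c hca hcomm
    omega
  have hn : c ∈ Subgroup.normalizer ((a : Subgroup G) : Set G) :=
    Sylow.smul_eq_iff_mem_normalizer.mp hca
  have hinv := inverts_of_not_centralizes (a : Subgroup G) (card_P hX hfaith a) c hcc hn hnc
  refine ⟨hinv, ?_⟩
  have hS := mul_ncard_add_one_le 35 hX (by norm_num) a ((fixSet c : Set (Sylow 17 G)) \ {a})
    (fun y hy => hy.2) (fun y hy z hz hzo =>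
      fix_orbit_unique a (card_P hX hfaith a) (by norm_num) (free hX hfaith a) c hinv hy.1 hy.2 hz.1 hzo)
  have h5 := Set.ncard_sdiff_singleton_add_one (show a ∈ (fixSet c : Set (Sylow 17 G)) from hca)
    (Set.toFinite _)
  omega

/-- Two involutions fixing two common points coincide. -/
theorem involution_unique (hX : Nat.card (Sylow 17 G) = 35)
    (hfaith : Function.Injective (toPermHom G (Sylow 17 G)))
    (hno : ∀ K : Subgroup G, K.Normal → ¬ 17 ∣ K.index → K = ⊤) (a b : Sylow 17 G) (hab : a ≠ b)
    (c c' : G) (hc : orderOf c = 2) (hc' : orderOf c' = 2) (hca : c • a = a) (hcb : c • b = b)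
    (hca' : c' • a = a) (hcb' : c' • b = b) : c = c' := by
  obtain ⟨hinv, -⟩ := involution_struct hX hfaith hno a c hc hca
  obtain ⟨hinv', -⟩ := involution_struct hX hfaith hno a c' hc' hca'
  have hd : c * c' = 1 := by
    apply eq_one_of_commute hX hfaith a b (Ne.symm hab)
    · rw [mul_smul, hca', hca]
    · rw [mul_smul, hcb', hcb]
    · intro u hu
      have h1 := hinv' u hu
      have h2 := hinv u⁻¹ (inv_mem hu)
      have h3 : c * (c' * u * c'⁻¹) * c⁻¹ = u := by rw [h1, h2, inv_inv]
      calc c * c' * u = (c * (c' * u * c'⁻¹) * c⁻¹) * (c * c') := by group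
        _ = u * (c * c') := by rw [h3]
  have hcc' : c' * c' = 1 := by
    have := pow_orderOf_eq_one c'
    rw [hc', pow_two] at this
    exact this
  calc c = c * (c' * c') := by rw [hcc', mul_one]
    _ = (c * c') * c' := by group
    _ = c' := by rw [hd, one_mul]

/-- If there is an involution normalizing a Sylow subgroup, all pairs of points are fixed by an
involution. -/
theorem exists_involution_pair (hX : Nat.card (Sylow 17 G) = 35)
    (hfaith : Function.Injective (toPermHom G (Sylow 17 G)))
    (hno : ∀ K : Subgroup G, K.Normal → ¬ 17 ∣ K.index → K = ⊤) (P : Sylow 17 G) (c : G)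
    (hc : orderOf c = 2) (hcP : c • P = P) (a b : Sylow 17 G) (hab : a ≠ b) :
    ∃ c' : G, orderOf c' = 2 ∧ c' • a = a ∧ c' • b = b := by
  obtain ⟨hinv, h3⟩ := involution_struct hX hfaith hno P c hc hcP
  obtain ⟨g, rfl⟩ := MulAction.exists_smul_eq G P a
  set z := g⁻¹ • b with hz
  have hzP : z ≠ P := by
    intro h
    apply hab
    rw [← h, hz, smul_inv_smul]
  have hb : b = g • z := by rw [hz, smul_inv_smul]
  -- `z` is in the orbit of a fixed point of `c`
  obtain ⟨y, hy, hyz⟩ : ∃ y ∈ (fixSet c : Set (Sylow 17 G)) \ {P}, z ∈ orbit (P : Subgroup G) y := by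
    by_contra hcon
    simp only [not_exists, not_and] at hcon
    have hzn : z ∉ (fixSet c : Set (Sylow 17 G)) \ {P} := by
      intro hz2
      exact hcon z hz2 (mem_orbit_self z)
    have hS := mul_ncard_add_one_le 35 hX (by norm_num) P
      (insert z ((fixSet c : Set (Sylow 17 G)) \ {P}))
      (by
        rintro y (rfl | hy)
        · exact hzP
        · exact hy.2)
      (by
        rintro y (rfl | hy) w (rfl | hw) hyw
        · rfl
        · exact absurd (by rw [orbit_eq_iff.mpr hyw]; exact mem_orbit_self z) (hcon w hw)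
        · exact absurd hyw (hcon y hy)
        · exact fix_orbit_unique P (card_P hX hfaith P) (by norm_num) (free hX hfaith P) c hinv hy.1 hy.2 hw.1 hyw)
    rw [Set.ncard_insert_of_notMem hzn] at hS
    have h5 := Set.ncard_sdiff_singleton_add_one (show P ∈ (fixSet c : Set (Sylow 17 G)) from hcP)
      (Set.toFinite _)
    omega
  obtain ⟨⟨u, hu⟩, hzu⟩ := hyz
  have hzu' : u • y = z := hzu
  have hord : orderOf (g * (u * c * u⁻¹) * g⁻¹) = 2 := by
    have h1 : g * (u * c * u⁻¹) * g⁻¹ = MulAut.conj (g * u) c := by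
      simp [MulAut.conj_apply, mul_assoc]
    rw [h1, MulEquiv.orderOf_eq, hc]
  refine ⟨g * (u * c * u⁻¹) * g⁻¹, hord, ?_, ?_⟩
  · have huP : u⁻¹ • P = P := smul_self_of_mem P (inv_mem hu)
    have huP' : u • P = P := smul_self_of_mem P hu
    simp only [mul_smul, inv_smul_smul, huP, hcP, huP']
  · rw [hb, ← hzu']
    have hy' : c • y = y := hy.1
    simp only [mul_smul, inv_smul_smul, hy']

/-- A Steiner triple system on 35 points does not exist. -/
theorem no_involution_all (hX : Nat.card (Sylow 17 G) = 35)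
    (hfaith : Function.Injective (toPermHom G (Sylow 17 G)))
    (hno : ∀ K : Subgroup G, K.Normal → ¬ 17 ∣ K.index → K = ⊤)
    (hall : ∀ a b : Sylow 17 G, a ≠ b → ∃ c : G, orderOf c = 2 ∧ c • a = a ∧ c • b = b) : False := by
  classical
  haveI : Fintype (Sylow 17 G) := Fintype.ofFinite _
  have hch : ∀ a b : Sylow 17 G, ∃ c : G, a ≠ b → orderOf c = 2 ∧ c • a = a ∧ c • b = b := by
    intro a b
    by_cases h : a = b
    · exact ⟨1, fun h' => absurd h h'⟩
    · obtain ⟨c, hc⟩ := hall a b h
      exact ⟨c, fun _ => hc⟩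
  choose C hC using hch
  let L : Sylow 17 G → Sylow 17 G → Finset (Sylow 17 G) := fun a b =>
    (fixSet (C a b) : Set (Sylow 17 G)).toFinset
  have hmem : ∀ a b y, y ∈ L a b ↔ (C a b) • y = y := by
    intro a b y
    simp only [L, Set.mem_toFinset]
    exact Iff.rfl
  have hcount := design_count 3 L
    (fun a b hab => ⟨(hmem a b a).mpr (hC a b hab).2.1, (hmem a b b).mpr (hC a b hab).2.2⟩)
    (fun a b hab => by
      have h3 := (involution_struct hX hfaith hno a (C a b) (hC a b hab).1 (hC a b hab).2.1).2
      rw [Set.ncard_eq_toFinset_card'] at h3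
      exact h3)
    (fun a b a' b' hab hab' ha hb => by
      have h1 := involution_unique hX hfaith hno a' b' hab' (C a' b') (C a b) (hC a' b' hab').1
        (hC a b hab).1 (hC a' b' hab').2.1 (hC a' b' hab').2.2 ((hmem a b a').mp ha) ((hmem a b b').mp hb)
      simp only [L, h1])
  have hc35 : Fintype.card (Sylow 17 G) = 35 := by rw [← Nat.card_eq_fintype_card, hX]
  rw [hc35] at hcount
  omega

theorem core (hX : Nat.card (Sylow 17 G) = 35)
    (hfaith : Function.Injective (toPermHom G (Sylow 17 G)))
    (hno : ∀ K : Subgroup G, K.Normal → ¬ 17 ∣ K.index → K = ⊤) : False := by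
  obtain ⟨P⟩ : Nonempty (Sylow 17 G) := inferInstance
  set M := Subgroup.normalizer ((P : Subgroup G) : Set G) with hM
  by_cases h2 : 2 ∣ Nat.card M
  · obtain ⟨c, hc⟩ := exists_prime_orderOf_dvd_card' 2 h2
    have hc' : orderOf (c : G) = 2 := by rw [Subgroup.orderOf_coe, hc]
    have hcP : (c : G) • P = P := Sylow.smul_eq_iff_mem_normalizer.mpr c.2
    exact no_involution_all hX hfaith hno
      (fun a b hab => exists_involution_pair hX hfaith hno P c hc' hcP a b hab)
  · -- `M` has odd order
    have hnt : 1 < Nat.card (Sylow 17 G) := by rw [hX]; norm_num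
    have : Nontrivial (Sylow 17 G) := Finite.one_lt_card_iff_nontrivial.mp hnt
    obtain ⟨y, hy⟩ := exists_ne P
    -- the two-point stabilizer is trivial
    let T : Subgroup G := M ⊓ stabilizer G y
    have hTb : (T ⊓ Subgroup.centralizer ((P : Subgroup G) : Set G) : Subgroup G) = ⊥ := by
      rw [eq_bot_iff]
      rintro d ⟨⟨hd1, hd2⟩, hd3⟩
      rw [Subgroup.mem_bot]
      apply eq_one_of_commute hX hfaith P y hy d (Sylow.smul_eq_iff_mem_normalizer.mpr hd1) hd2
      intro u hu
      exact (Subgroup.mem_centralizer_iff.mp hd3 u hu).symm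
    have hTd := card_dvd_mul_mulAut (P : Subgroup G) T (inf_le_left)
    rw [hTb, Subgroup.card_bot, one_mul] at hTd
    haveI hcyc : IsCyclic (P : Subgroup G) := isCyclic_of_prime_card (p := 17) (card_P hX hfaith P)
    rw [hcyc.card_mulAut, card_P hX hfaith P] at hTd
    have htot : Nat.totient 17 = 16 := by decide
    rw [htot] at hTd
    have hTM : Nat.card T ∣ Nat.card M := Subgroup.card_dvd_of_le inf_le_left
    have hT1 : Nat.card T = 1 := by
      have hcop : Nat.Coprime 16 (Nat.card M) := by
        have : Nat.Coprime 2 (Nat.card M) := (Nat.Prime.coprime_iff_not_dvd Nat.prime_two).mpr h2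
        exact Nat.Coprime.pow_left 4 this
      exact Nat.eq_one_of_dvd_coprimes hcop hTd hTM
    -- the order of `M`
    have hst : Nat.card (stabilizer M y) = 1 := by
      rw [Nat.card_eq_one_iff_unique]
      refine ⟨⟨?_⟩, ⟨1⟩⟩
      have key : ∀ u : stabilizer M y, u = 1 := by
        intro u
        have hu : ((u : M) : G) ∈ T := ⟨(u : M).2, u.2⟩
        have hsub : Subsingleton T := (Nat.card_eq_one_iff_unique.mp hT1).1
        have h1 : (⟨_, hu⟩ : T) = 1 := Subsingleton.elim _ _
        have h2 : ((u : M) : G) = 1 := congrArg Subtype.val h1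
        exact Subtype.ext (Subtype.ext h2)
      intro a b
      rw [key a, key b]
    have hMo : Nat.card M = (orbit M y).ncard := by
      have h := Nat.card_congr (orbitProdStabilizerEquivGroup M y)
      rw [Nat.card_prod, hst, mul_one, Nat.card_coe_set_eq] at h
      exact h.symm
    have hnotP : P ∉ orbit M y := by
      rintro ⟨m, hm⟩
      apply hy
      have hm' : (m : G) • y = P := hm
      have hmP : (m : G)⁻¹ • P = P :=
        Sylow.smul_eq_iff_mem_normalizer.mpr (inv_mem m.2)
      have h3 : y = (m : G)⁻¹ • P := by rw [← hm', inv_smul_smul]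
      exact h3.trans hmP
    have h17 : 17 ∣ (orbit M y).ncard := by
      have h1 := dvd_ncard_sdiff P (orbit M y) (by
        rintro u hu _ ⟨m, rfl⟩
        exact ⟨⟨u, P.le_normalizer hu⟩ * m, by
          change ((u * (m : G))) • y = u • (m : G) • y
          rw [mul_smul]⟩)
      rwa [Set.sdiff_singleton_eq_self hnotP] at h1
    have hle : (orbit M y).ncard ≤ 34 := by
      have hsub : orbit M y ⊆ ({P} : Set (Sylow 17 G))ᶜ := by
        intro a ha h
        rw [Set.mem_singleton_iff] at h
        exact hnotP (h ▸ ha)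
      have h1 := Set.ncard_le_ncard hsub (Set.toFinite _)
      have h2 := Set.ncard_add_ncard_compl ({P} : Set (Sylow 17 G))
      rw [Set.ncard_singleton, hX] at h2
      omega
    have hpos : 0 < (orbit M y).ncard := by
      rw [Set.ncard_pos (Set.toFinite _)]
      exact ⟨y, mem_orbit_self y⟩
    have hM17 : Nat.card M = 17 := by
      rw [hMo] at h2 ⊢
      omega
    -- the order of `G`
    have hidx : M.index = 35 := by
      rw [← hX]
      exact (Sylow.card_eq_index_normalizer P).symm
    have hG : Nat.card G = 595 := by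
      have := Subgroup.card_mul_index M
      rw [hM17, hidx] at this
      omega
    -- a normal Sylow 5-subgroup
    obtain ⟨Z⟩ : Nonempty (Sylow 5 G) := inferInstance
    have hZ5 : Nat.card (Z : Subgroup G) = 5 :=
      Cfsg.Agent.Lib.Basic.SylowCount.card_sylow_eq_prime (by rw [hG]; norm_num) (by rw [hG]; norm_num) Z
    have hZi : (Z : Subgroup G).index = 119 := by
      have := Subgroup.card_mul_index (Z : Subgroup G)
      rw [hZ5, hG] at this
      omega
    have hn5 : Nat.card (Sylow 5 G) = 1 := by
      have h1 := Sylow.card_dvd_index Z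
      rw [hZi] at h1
      have h3 := card_sylow_modEq_one 5 G
      have h4 : Nat.card (Sylow 5 G) % 5 = 1 % 5 := h3
      have h5 : Nat.card (Sylow 5 G) ≤ 119 := Nat.le_of_dvd (by norm_num) h1
      generalize Nat.card (Sylow 5 G) = m at *
      interval_cases m <;> omega
    haveI hsub : Subsingleton (Sylow 5 G) := (Nat.card_eq_one_iff_unique.mp hn5).1
    haveI hZn : (Z : Subgroup G).Normal := Sylow.normal_of_subsingleton Z
    have hZb : (Z : Subgroup G) ≠ ⊥ := by
      intro h
      rw [h, Subgroup.card_bot] at hZ5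
      omega
    have horb := normal_transitive 35 hX hdiv35 hfaith (Z : Subgroup G) hZb P
    have hd := (index_stabilizer (Z : Subgroup G) P)
    rw [horb, Set.ncard_univ, hX] at hd
    have hd2 : (stabilizer (Z : Subgroup G) P).index ∣ Nat.card (Z : Subgroup G) :=
      Subgroup.index_dvd_card _
    rw [hd, hZ5] at hd2
    omega

end core

/-- No finite group has exactly 35 Sylow 17-subgroups. -/
theorem result {G : Type*} [Group G] [Finite G] : Nat.card (Sylow 17 G) ≠ 35 :=
  strong_reduction 35 (fun _ _ _ hX hf hn => core hX hf hn) _ G rfl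

end Cfsg.Agent.S4236
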