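import Cfsg.Statements.S4237
import Mathlib
import Cfsg.Agent.Lib.PGroup.KulakoffG
-- import your own Cfsg.Agent.* helpers here

set_option autoImplicit false
open Cfsg

namespace Cfsg.Agent.S4237

/-- Let G be a finite group, p a prime and a a natural number such that p^(a+1) divides the order of G. Then the number of subgroups of G of order p^a is congruent to 1 or to 1 + p modulo p². -/
theorem result {G : Type*} [Group G] [Finite G] (p a : ℕ) (hp : p.Prime) (hdvd : p ^ (a + 1) ∣ Nat.card G) :
    Nat.card {H : Subgroup G // Nat.card H = p ^ a} ≡ 1 [MOD p ^ 2] ∨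
      Nat.card {H : Subgroup G // Nat.card H = p ^ a} ≡ 1 + p [MOD p ^ 2] := by
  exact Cfsg.Agent.Lib.PGroup.KulakoffG.main p a hp hdvd

end Cfsg.Agent.S4237
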