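import Cfsg.Statements.S4238
import Cfsg.Agent.Lib.Transfer.Basic
import Cfsg.Agent.Lib.Transfer.Frobenius
import Cfsg.Agent.Lib.PGroup.Basic
import Cfsg.Agent.Lib.PGroup.Critical
import Cfsg.Agent.Lib.Coprime.OmegaOne
import Cfsg.Agent.Lib.Nilpotent.Elements
import Cfsg.Agent.S0132

set_option autoImplicit false
open Cfsg

namespace Cfsg.Agent.S4238

open Subgroup
open Cfsg.Agent.Lib.Transfer.Basic Cfsg.Agent.Lib.Transfer.Frobenius
open Cfsg.Agent.Lib.Coprime.OmegaOne
open scoped commutatorElement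

/-- A `p`-group has an element whose order is the exponent. -/
theorem exists_orderOf_eq_exponent_of_isPGroup {K : Type*} [Group K] [Finite K] {p : ℕ}
    [hp : Fact p.Prime] (hK : IsPGroup p K) : ∃ k : K, orderOf k = Monoid.exponent K := by
  obtain ⟨y, hy⟩ := Finite.exists_max (fun z : K => orderOf z)
  refine ⟨y, ?_⟩
  obtain ⟨a, ha⟩ := (IsPGroup.iff_orderOf.mp hK) y
  apply Nat.dvd_antisymm
  · exact Monoid.order_dvd_exponent y
  · rw [ha]
    apply Monoid.exponent_dvd_of_forall_pow_eq_one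
    intro z
    obtain ⟨b, hb⟩ := (IsPGroup.iff_orderOf.mp hK) z
    have h1 := hy z
    rw [ha, hb] at h1
    have h2 : b ≤ a := (Nat.pow_le_pow_iff_right hp.out.one_lt).mp h1
    rw [← orderOf_dvd_iff_pow_eq_one, hb]
    exact pow_dvd_pow p h2

/-- The Frobenius section. -/
theorem lemma_K {K : Type*} [Group K] [Finite K] {p q : ℕ} (hp : p.Prime) (hq : q.Prime)
    (hpq : p ≠ q) (V : Subgroup K) (hVn : V.Normal) (hVp : ∀ v ∈ V, v ^ p = 1)
    (hV1 : V ≠ ⊥) (x : K) (hxq : x ^ q = 1) (hx1 : x ≠ 1) (hsup : V ⊔ zpowers x = ⊤)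
    (hVc : ∀ a ∈ V, ∀ b ∈ V, a * b = b * a)
    (hfix : ∀ v ∈ V, v * x = x * v → v = 1) :
    pPrimeCore p K = ⊥ ∧ ∀ k : K, orderOf k ≠ Monoid.exponent K := by
  haveI : Fact p.Prime := ⟨hp⟩
  haveI : Fact q.Prime := ⟨hq⟩
  haveI := hVn
  have hform : ∀ y : K, ∃ v ∈ V, ∃ i : ℤ, y = v * x ^ i := by
    intro y
    have hy : y ∈ V ⊔ zpowers x := by rw [hsup]; exact mem_top y
    obtain ⟨v, hv, s, ⟨i, rfl⟩, rfl⟩ := Subgroup.mem_sup_of_normal_left.mp hy
    exact ⟨v, hv, i, rfl⟩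
  have hord : orderOf x = q := orderOf_eq_prime hxq hx1
  have hpq' : Nat.Coprime p q := (Nat.coprime_primes hp hq).mpr hpq
  -- elements outside `V` act without fixed points
  have hC1 : ∀ y, y ∉ V → ∀ w ∈ V, y * w = w * y → w = 1 := by
    intro y hy w hw hc
    obtain ⟨v, hv, i, rfl⟩ := hform y
    have hs : x ^ i * w = w * x ^ i := by
      have h1 : v * (x ^ i * w) = v * (w * x ^ i) := by
        calc v * (x ^ i * w) = v * x ^ i * w := by group
          _ = w * (v * x ^ i) := hc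
          _ = (w * v) * x ^ i := by group
          _ = (v * w) * x ^ i := by rw [hVc w hw v hv]
          _ = v * (w * x ^ i) := by group
      exact mul_left_cancel h1
    have hiq : ¬ (q : ℤ) ∣ i := by
      rintro ⟨j, rfl⟩
      apply hy
      rw [zpow_mul, zpow_natCast, hxq, one_zpow, mul_one]
      exact hv
    have hcop : IsCoprime i (q : ℤ) := by
      rw [isCoprime_comm]
      exact (Nat.prime_iff_prime_int.mp hq).coprime_iff_not_dvd.mpr hiq
    obtain ⟨a, b, hab⟩ := hcop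
    have hx' : x = (x ^ i) ^ a := by
      have h3 : x ^ (a * i + b * q) = x := by rw [hab, zpow_one]
      rw [zpow_add, mul_comm b, zpow_mul x (q : ℤ) b, zpow_natCast, hxq, one_zpow, mul_one] at h3
      rw [← zpow_mul, mul_comm]
      exact h3.symm
    have hcx : Commute x w := by
      rw [hx']
      exact (show Commute (x ^ i) w from hs).zpow_left a
    exact hfix w hw hcx.eq.symm
  have hC2 : ∀ y, y ∉ V → y ^ q = 1 := by
    intro y hy
    have hyq : y ^ q ∈ V := by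
      rw [← QuotientGroup.eq_one_iff]
      obtain ⟨v, hv, i, rfl⟩ := hform y
      have h1 : ((v * x ^ i : K) : K ⧸ V) = ((x ^ i : K) : K ⧸ V) := by
        rw [QuotientGroup.mk_mul, (QuotientGroup.eq_one_iff v).mpr hv, one_mul]
      rw [QuotientGroup.mk_pow, h1, ← QuotientGroup.mk_pow, ← zpow_natCast, ← zpow_mul, mul_comm,
        zpow_mul, zpow_natCast, hxq, one_zpow]
      rfl
    exact hC1 y hy _ hyq ((Commute.refl y).pow_right q).eq
  have hC3 : ∀ y : K, y ^ p = 1 ∨ y ^ q = 1 := by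
    intro y
    by_cases hy : y ∈ V
    · exact Or.inl (hVp y hy)
    · exact Or.inr (hC2 y hy)
  obtain ⟨v₀, hv₀, hv₀1⟩ : ∃ v ∈ V, v ≠ 1 := (Subgroup.bot_or_exists_ne_one V).resolve_left hV1
  have hordv : orderOf v₀ = p := orderOf_eq_prime (hVp v₀ hv₀) hv₀1
  have hexp : Monoid.exponent K = p * q := by
    apply Nat.dvd_antisymm
    · apply Monoid.exponent_dvd_of_forall_pow_eq_one
      intro g
      rcases hC3 g with h | h
      · rw [pow_mul, h, one_pow]
      · rw [mul_comm, pow_mul, h, one_pow]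
    · apply Nat.Coprime.mul_dvd_of_dvd_of_dvd hpq'
      · rw [← hordv]; exact Monoid.order_dvd_exponent v₀
      · rw [← hord]; exact Monoid.order_dvd_exponent x
  constructor
  · apply le_bot_iff.mp
    apply sSup_le
    rintro L ⟨hLn, hLc⟩
    have hstep : ∀ l ∈ L, l ∈ V → l = 1 := by
      intro l hl hlV
      have h1 : orderOf l ∣ Nat.card L := by
        have := Subgroup.orderOf_dvd_natCard L hl
        exact this
      have h2 : orderOf l ∣ p := orderOf_dvd_of_pow_eq_one (hVp l hlV)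
      have h3 := Nat.eq_one_of_dvd_coprimes hLc h1 h2
      exact orderOf_eq_one_iff.mp h3
    intro l hl
    rw [Subgroup.mem_bot]
    by_cases hlV : l ∈ V
    · exact hstep l hl hlV
    · exfalso
      apply hv₀1
      apply hC1 l hlV v₀ hv₀
      have h1 : l * v₀ * l⁻¹ * v₀⁻¹ ∈ L := by
        have e : l * v₀ * l⁻¹ * v₀⁻¹ = l * (v₀ * l⁻¹ * v₀⁻¹) := by group
        rw [e]
        exact L.mul_mem hl (hLn.conj_mem _ (L.inv_mem hl) v₀)
      have h1' : l * v₀ * l⁻¹ * v₀⁻¹ ∈ L := h1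
      have h2 : l * v₀ * l⁻¹ * v₀⁻¹ ∈ V :=
        V.mul_mem (hVn.conj_mem v₀ hv₀ l) (V.inv_mem hv₀)
      have h3 := hstep _ h1' h2
      have h4 : l * v₀ * l⁻¹ = v₀ := mul_inv_eq_one.mp h3
      calc l * v₀ = (l * v₀ * l⁻¹) * l := by group
        _ = v₀ * l := by rw [h4]
  · intro k hk
    rw [hexp] at hk
    have hpq1 : p * q ∣ orderOf k := by rw [hk]
    rcases hC3 k with h | h
    · have h1 := orderOf_dvd_of_pow_eq_one h
      rw [hk] at h1
      have h2 := Nat.le_of_dvd hp.pos h1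
      have := hq.two_le
      have := hp.pos
      nlinarith
    · have h1 := orderOf_dvd_of_pow_eq_one h
      rw [hk] at h1
      have h2 := Nat.le_of_dvd hq.pos h1
      have := hp.two_le
      have := hq.pos
      nlinarith

theorem comm_of_mk {G : Type*} [Group G] (R : Subgroup G) [R.Normal] {a b : G}
    (h : a * b * a⁻¹ * b⁻¹ ∈ R) : (a : G ⧸ R) * (b : G ⧸ R) = (b : G ⧸ R) * (a : G ⧸ R) := by
  have h1 := (QuotientGroup.eq_one_iff _).mpr h
  have h2 : ((a * b * a⁻¹ * b⁻¹ : G) : G ⧸ R) =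
      (a : G ⧸ R) * (b : G ⧸ R) * (a : G ⧸ R)⁻¹ * (b : G ⧸ R)⁻¹ := rfl
  rw [h2] at h1
  have h3 := mul_inv_eq_one.mp h1
  exact mul_inv_eq_iff_eq_mul.mp h3

theorem mem_of_comm {G : Type*} [Group G] (R : Subgroup G) [R.Normal] {a b : G}
    (h : (a : G ⧸ R) * (b : G ⧸ R) = (b : G ⧸ R) * (a : G ⧸ R)) : a * b * a⁻¹ * b⁻¹ ∈ R := by
  rw [← QuotientGroup.eq_one_iff]
  have h2 : ((a * b * a⁻¹ * b⁻¹ : G) : G ⧸ R) =
      (a : G ⧸ R) * (b : G ⧸ R) * (a : G ⧸ R)⁻¹ * (b : G ⧸ R)⁻¹ := rfl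
  rw [h2, h]
  group

/-- Every minimal non-`p`-nilpotent group has a Frobenius section. -/
theorem exists_section {W : Type*} [Group W] [Finite W] {p : ℕ} [hp : Fact p.Prime]
    (h1 : ¬ Cfsg.HasNormalPComplement p W)
    (h2 : ∀ H : Subgroup W, H ≠ ⊤ → Cfsg.HasNormalPComplement p H) :
    ∃ (M : Subgroup W) (_ : M.Normal), pPrimeCore p (W ⧸ M) = ⊥ ∧
      ∀ k : W ⧸ M, orderOf k ≠ Monoid.exponent (W ⧸ M) := by
  classical
  obtain ⟨hnil, -, hsyl⟩ := Cfsg.Agent.S0132.result h1 h2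
  let P₀ : Sylow p W := default
  set P : Subgroup W := (P₀ : Subgroup W) with hPdef
  have hPn : P.Normal := hsyl P₀
  have hPp : IsPGroup p P := P₀.isPGroup'
  have hPle : ∀ Q : Subgroup W, IsPGroup p Q → Q ≤ P := by
    intro Q hQ
    haveI := hPn
    have h3 := P₀.is_maximal' (hQ.to_sup_of_normal_right hPp) le_sup_right
    exact le_sup_left.trans (le_of_eq h3)
  -- a `p'`-element not centralizing `P`
  have hex : ∃ n : ℕ, ∃ y : W, orderOf y = n ∧ Nat.Coprime n p ∧ y ∉ centralizer (P : Set W) := by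
    by_contra hno
    push Not at hno
    apply h1
    apply hasNormalPComplement_of_hyp
    intro Q hQ g hg hc
    exact centralizer_le (hPle Q hQ) (hno _ g rfl hc)
  set n := Nat.find hex with hn
  obtain ⟨x, hxn, hxc, hxC⟩ := Nat.find_spec hex
  have hmin : ∀ y : W, orderOf y < n → Nat.Coprime (orderOf y) p → y ∈ centralizer (P : Set W) := by
    intro y hy hyc
    by_contra hyC
    exact Nat.find_min hex hy ⟨y, rfl, hyc, hyC⟩
  rw [← hn] at hxn hxc
  have hxcom : ∀ u ∈ P, u * x = x * u → False → False := fun _ _ _ h => h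
  have hn1 : n ≠ 1 := by
    intro h
    rw [h] at hxn
    apply hxC
    rw [orderOf_eq_one_iff.mp hxn]
    exact Subgroup.one_mem _
  have hn0 : 0 < n := by rw [← hxn]; exact orderOf_pos x
  set q := n.minFac with hq
  have hqp : q.Prime := Nat.minFac_prime hn1
  have hqn : q ∣ n := Nat.minFac_dvd n
  have hxqC : x ^ q ∈ centralizer (P : Set W) := by
    apply hmin
    · rw [orderOf_pow_of_dvd hqp.ne_zero (hxn ▸ hqn), hxn]
      exact Nat.div_lt_self hn0 hqp.one_lt
    · rw [orderOf_pow_of_dvd hqp.ne_zero (hxn ▸ hqn), hxn]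
      exact Nat.Coprime.coprime_dvd_left (Nat.div_dvd_of_dvd hqn) hxc
  have hqnep : p ≠ q := by
    intro h
    have h3 : q ∣ Nat.gcd n p := Nat.dvd_gcd hqn (h ▸ dvd_rfl)
    rw [hxc] at h3
    exact hqp.one_lt.ne' (Nat.dvd_one.mp h3)
  -- elements of `P` killed by a number prime to `p` are trivial
  have hPcop : ∀ y ∈ P, ∀ m : ℕ, Nat.Coprime m p → y ^ m = 1 → y = 1 := by
    intro y hy m hm hym
    obtain ⟨k, hk⟩ := (IsPGroup.iff_orderOf.mp hPp) ⟨y, hy⟩
    have hk' : orderOf y = p ^ k := by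
      rw [← hk]; exact (Subgroup.orderOf_mk y hy).symm
    have h3 : orderOf y ∣ m := orderOf_dvd_of_pow_eq_one hym
    have h4 := Nat.eq_one_of_dvd_coprimes (Nat.Coprime.pow_right k hm) h3 (hk' ▸ dvd_rfl)
    exact orderOf_eq_one_iff.mp h4
  have hxzP : ∀ i : ℤ, x ^ i ∈ P → x ^ i = 1 := by
    intro i hi
    apply hPcop _ hi n hxc
    rw [← zpow_natCast, ← zpow_mul, mul_comm, zpow_mul, zpow_natCast, ← hxn, pow_orderOf_eq_one,
      one_zpow]
  -- commuting of `x` with `p`-elements in a proper subgroup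
  have hcomm_prop : ∀ H : Subgroup W, H ≠ ⊤ → x ∈ H → ∀ u ∈ H, u ∈ P → x * u = u * x := by
    intro H hH hxH u huH huP
    haveI := hnil H hH
    obtain ⟨k, hk⟩ := (IsPGroup.iff_orderOf.mp hPp) ⟨u, huP⟩
    have hk' : orderOf u = p ^ k := by
      rw [← hk]; exact (Subgroup.orderOf_mk u huP).symm
    have hc : Nat.Coprime (orderOf (⟨x, hxH⟩ : H)) (orderOf (⟨u, huH⟩ : H)) := by
      rw [Subgroup.orderOf_mk, Subgroup.orderOf_mk, hk', hxn]
      exact Nat.Coprime.pow_right k hxc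
    have := Cfsg.Agent.Lib.Nilpotent.Elements.commute_of_coprime_orderOf hc
    exact congrArg Subtype.val this.eq
  have hsupW : P ⊔ zpowers x = ⊤ := by
    by_contra hne
    apply hxC
    rw [Subgroup.mem_centralizer_iff]
    intro u hu
    exact (hcomm_prop _ hne (le_sup_right (α := Subgroup W) (mem_zpowers x)) u
      (le_sup_left (α := Subgroup W) hu) hu).symm
  haveI := hPn
  have hform : ∀ g : W, ∃ u ∈ P, ∃ i : ℤ, g = u * x ^ i := by
    intro g
    have hg : g ∈ P ⊔ zpowers x := by rw [hsupW]; exact mem_top g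
    obtain ⟨v, hv, s, ⟨i, rfl⟩, rfl⟩ := Subgroup.mem_sup_of_normal_left.mp hg
    exact ⟨v, hv, i, rfl⟩
  -- `x ^ q` is central
  have hxqZ : ∀ g : W, g * x ^ q = x ^ q * g := by
    intro g
    obtain ⟨u, hu, i, rfl⟩ := hform g
    have h3 : u * x ^ q = x ^ q * u := (Subgroup.mem_centralizer_iff.mp hxqC) u hu
    have h4 : Commute (x ^ i) (x ^ q) := (Commute.refl x).zpow_left i |>.pow_right q
    calc u * x ^ i * x ^ q = u * (x ^ i * x ^ q) := by group
      _ = u * (x ^ q * x ^ i) := by rw [h4.eq]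
      _ = (u * x ^ q) * x ^ i := by group
      _ = x ^ q * (u * x ^ i) := by rw [h3]; group
  have hPne : P ≠ ⊥ := by
    intro h
    apply hxC
    rw [Subgroup.mem_centralizer_iff]
    intro u hu
    have : u = 1 := by
      rw [h] at hu
      exact hu
    simp [this]
  -- choose `R`
  obtain ⟨R, hRm⟩ := Set.Finite.exists_maximal (Set.toFinite
    {R : Subgroup W | R.Normal ∧ R ≤ P ∧ R ≠ P}) ⟨⊥, inferInstance, bot_le, fun h => hPne h.symm⟩
  obtain ⟨hRn, hRP, hRne⟩ := hRm.prop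
  haveI := hRn
  have hmaxR : ∀ L : Subgroup W, L.Normal → R ≤ L → L ≤ P → L = R ∨ L = P := by
    intro L hLn hRL hLP
    by_cases hL : L = P
    · exact Or.inr hL
    · left
      exact le_antisymm (hRm.le_of_ge ⟨hLn, hLP, hL⟩ hRL) hRL
  -- the Frattini subgroup of `P` lies in `R`
  let Φ : Subgroup W := (frattini P).map P.subtype
  have hΦn : Φ.Normal := ⟨by
    rintro _ ⟨u, hu, rfl⟩ g
    refine ⟨MulAut.conjNormal g u,
      (characteristic_iff_map_le.mp inferInstance (MulAut.conjNormal g)) ⟨u, hu, rfl⟩, ?_⟩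
    simp [MulAut.conjNormal_apply]⟩
  haveI := hΦn
  have hΦR : Φ ≤ R := by
    rcases hmaxR (R ⊔ Φ) inferInstance le_sup_left (sup_le hRP (map_subtype_le _)) with h | h
    · rw [← h]; exact le_sup_right
    · exfalso
      apply hRne
      have h5 : R.subgroupOf P ⊔ frattini P = ⊤ := by
        apply Subgroup.map_injective P.subtype_injective
        rw [Subgroup.map_sup, Subgroup.map_subgroupOf_eq_of_le hRP, ← MonoidHom.range_eq_map,
          Subgroup.range_subtype]
        exact h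
      have h6 := frattini_nongenerating h5
      exact le_antisymm hRP ((Subgroup.subgroupOf_eq_top).mp h6)
  have hRpow : ∀ u ∈ P, u ^ p ∈ R := by
    intro u hu
    apply hΦR
    exact ⟨_, Cfsg.Agent.Lib.PGroup.Basic.pow_mem_frattini hPp (⟨u, hu⟩ : P), rfl⟩
  have hRcomm : ∀ u ∈ P, ∀ v ∈ P, u * v * u⁻¹ * v⁻¹ ∈ R := by
    intro u hu v hv
    apply hΦR
    exact ⟨_, Cfsg.Agent.Lib.PGroup.Basic.commutatorElement_mem_frattini hPp (⟨u, hu⟩ : P) ⟨v, hv⟩, rfl⟩
  have hPbar : ∀ u ∈ P, ∀ v ∈ P, (u : W ⧸ R) * (v : W ⧸ R) = (v : W ⧸ R) * (u : W ⧸ R) :=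
    fun u hu v hv => comm_of_mk R (hRcomm u hu v hv)
  -- `x` centralizes `R`
  have hRx : R ⊔ zpowers x ≠ ⊤ := by
    intro htop
    apply hRne
    refine le_antisymm hRP ?_
    intro u hu
    have h3 : u ∈ R ⊔ zpowers x := by rw [htop]; exact mem_top u
    obtain ⟨r, hr, s, ⟨i, rfl⟩, rfl⟩ := Subgroup.mem_sup_of_normal_left.mp h3
    have h4 : x ^ i ∈ P := by
      have := P.mul_mem (P.inv_mem (hRP hr)) hu
      simpa using this
    have h5 : (fun i : ℤ => x ^ i) i = 1 := hxzP i h4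
    rw [h5, mul_one]
    exact hr
  have hxR : ∀ r ∈ R, x * r = r * x := fun r hr =>
    hcomm_prop _ hRx (le_sup_right (α := Subgroup W) (mem_zpowers x)) r
      (le_sup_left (α := Subgroup W) hr) (hRP hr)
  -- fixed points of `x` on `P / R`
  let A : Subgroup W := P ⊓ (centralizer ({(x : W ⧸ R)} : Set (W ⧸ R))).comap (QuotientGroup.mk' R)
  have hAm : ∀ u, u ∈ A ↔ u ∈ P ∧ (u : W ⧸ R) * (x : W ⧸ R) = (x : W ⧸ R) * (u : W ⧸ R) := by
    intro u
    constructor
    · rintro ⟨h3, h4⟩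
      have h5 := Subgroup.mem_centralizer_iff.mp h4 (x : W ⧸ R) (Set.mem_singleton _)
      exact ⟨h3, h5.symm⟩
    · rintro ⟨h3, h4⟩
      refine ⟨h3, ?_⟩
      show (u : W ⧸ R) ∈ centralizer ({(x : W ⧸ R)} : Set (W ⧸ R))
      rw [Subgroup.mem_centralizer_iff]
      rintro _ rfl
      exact h4.symm
  have hAn : A.Normal := ⟨by
    intro u hu g
    obtain ⟨hu1, hu2⟩ := (hAm u).mp hu
    refine (hAm _).mpr ⟨hPn.conj_mem u hu1 g, ?_⟩
    obtain ⟨v, hv, i, rfl⟩ := hform g
    have h3 : Commute ((x : W ⧸ R) ^ i) (u : W ⧸ R) :=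
      ((show Commute (u : W ⧸ R) (x : W ⧸ R) from hu2).symm).zpow_left i
    have h4 : Commute (v : W ⧸ R) (u : W ⧸ R) := hPbar v hv u hu1
    have h5 : ((v * x ^ i * u * (v * x ^ i)⁻¹ : W) : W ⧸ R) = (u : W ⧸ R) := by
      have h6 : ((v * x ^ i * u * (v * x ^ i)⁻¹ : W) : W ⧸ R) =
          (v : W ⧸ R) * (x : W ⧸ R) ^ i * (u : W ⧸ R) * ((v : W ⧸ R) * (x : W ⧸ R) ^ i)⁻¹ := rfl
      rw [h6, mul_inv_rev, mul_assoc (v : W ⧸ R), h3.eq, ← mul_assoc (v : W ⧸ R), h4.eq]
      group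
    rw [h5]
    exact hu2⟩
  have hRA : R ≤ A := by
    intro r hr
    refine (hAm r).mpr ⟨hRP hr, ?_⟩
    rw [(QuotientGroup.eq_one_iff r).mpr hr, one_mul, mul_one]
  have hxN : x ∈ normalizer (P : Set W) := by
    rw [Subgroup.normalizer_eq_top_iff.mpr hPn]; exact mem_top x
  have hfp : ∀ u ∈ P, (u : W ⧸ R) * (x : W ⧸ R) = (x : W ⧸ R) * (u : W ⧸ R) → u ∈ R := by
    rcases hmaxR A hAn hRA inf_le_left with h | h
    · intro u hu hc
      rw [← h]
      exact (hAm u).mpr ⟨hu, hc⟩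
    · exfalso
      apply hxC
      have ha : Nat.Coprime (orderOf (conjAut P x hxN)) p :=
        Nat.Coprime.coprime_dvd_left (orderOf_conjAut_dvd P x hxN) (hxn ▸ hxc)
      rw [Subgroup.mem_centralizer_iff]
      intro u hu
      have h3 := Cfsg.Agent.Lib.PGroup.Critical.eq_of_fixed_diff hPp (conjAut P x hxN) ha ⟨u, hu⟩ (by
        apply Subtype.ext
        show x * (u⁻¹ * (x * u * x⁻¹)) * x⁻¹ = u⁻¹ * (x * u * x⁻¹)
        have h4 : u⁻¹ * (x * u * x⁻¹) ∈ R := by
          have h5 : u⁻¹ ∈ A := by rw [h]; exact P.inv_mem hu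
          obtain ⟨-, h6⟩ := (hAm _).mp h5
          have h7 := mem_of_comm R h6
          have h8 : u⁻¹ * x * u⁻¹⁻¹ * x⁻¹ = u⁻¹ * (x * u * x⁻¹) := by group
          rw [h8] at h7
          exact h7
        have h9 := hxR _ h4
        calc x * (u⁻¹ * (x * u * x⁻¹)) * x⁻¹ = (u⁻¹ * (x * u * x⁻¹)) * x * x⁻¹ := by rw [h9]
          _ = _ := by group)
      have h10 : x * u * x⁻¹ = u := congrArg Subtype.val h3
      calc u * x = (x * u * x⁻¹) * x := by rw [h10]
        _ = x * u := by group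
  -- the section
  let Z : Subgroup W := zpowers (x ^ q)
  have hZn : Z.Normal := ⟨by
    rintro _ ⟨j, rfl⟩ g
    refine ⟨j, ?_⟩
    show (x ^ q) ^ j = g * (x ^ q) ^ j * g⁻¹
    have h3 : Commute g ((x ^ q) ^ j) := (show Commute g (x ^ q) from hxqZ g).zpow_right j
    rw [h3.eq]
    group⟩
  haveI := hZn
  let M : Subgroup W := R ⊔ Z
  have hMn : M.Normal := inferInstance
  haveI := hMn
  have hRM : R ≤ M := le_sup_left
  have hxqM : x ^ q ∈ M := le_sup_right (α := Subgroup W) (mem_zpowers (x ^ q))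
  have hPM : ∀ u ∈ P, u ∈ M → u ∈ R := by
    intro u hu huM
    obtain ⟨r, hr, s, ⟨j, rfl⟩, rfl⟩ := Subgroup.mem_sup_of_normal_left.mp huM
    have h4 : (x ^ q) ^ j ∈ P := by
      have := P.mul_mem (P.inv_mem (hRP hr)) hu
      simpa using this
    have h5 : (x ^ q) ^ j = 1 := by
      rw [← zpow_natCast, ← zpow_mul] at h4 ⊢
      exact hxzP _ h4
    have h6 : (fun j : ℤ => (x ^ q) ^ j) j = 1 := h5
    rw [h6, mul_one]
    exact hr
  obtain ⟨u₀, hu₀, hu₀R⟩ : ∃ u ∈ P, u ∉ R := by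
    by_contra hno
    push Not at hno
    exact hRne (le_antisymm hRP hno)
  have hxM : x ∉ M := by
    intro hx
    obtain ⟨r, hr, s, ⟨j, rfl⟩, hxe⟩ := Subgroup.mem_sup_of_normal_left.mp hx
    apply hu₀R
    apply hfp u₀ hu₀
    rw [← hxe, QuotientGroup.mk_mul, (QuotientGroup.eq_one_iff r).mpr hr, one_mul]
    have h3 : Commute u₀ ((x ^ q) ^ j) := (show Commute u₀ (x ^ q) from hxqZ u₀).zpow_right j
    have h4 : u₀ * (x ^ q) ^ j = (x ^ q) ^ j * u₀ := h3.eq
    have h5 := congrArg (fun y : W => (y : W ⧸ R)) h4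
    exact h5
  refine ⟨M, hMn, ?_⟩
  refine lemma_K hp.out hqp hqnep (P.map (QuotientGroup.mk' M))
    (hPn.map _ (QuotientGroup.mk'_surjective M)) ?_ ?_ (x : W ⧸ M) ?_ ?_ ?_ ?_ ?_
  · rintro _ ⟨u, hu, rfl⟩
    rw [← map_pow, QuotientGroup.mk'_apply, QuotientGroup.eq_one_iff]
    exact hRM (hRpow u hu)
  · intro h
    have h3 : (u₀ : W ⧸ M) ∈ P.map (QuotientGroup.mk' M) := ⟨u₀, hu₀, rfl⟩
    rw [h, Subgroup.mem_bot, QuotientGroup.eq_one_iff] at h3
    exact hu₀R (hPM u₀ hu₀ h3)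
  · rw [← QuotientGroup.mk_pow, QuotientGroup.eq_one_iff]
    exact hxqM
  · rw [Ne, QuotientGroup.eq_one_iff]
    exact hxM
  · have h3 : (P ⊔ zpowers x).map (QuotientGroup.mk' M) = ⊤ := by
      rw [hsupW, ← MonoidHom.range_eq_map]
      exact MonoidHom.range_eq_top.mpr (QuotientGroup.mk'_surjective M)
    rw [Subgroup.map_sup, MonoidHom.map_zpowers] at h3
    exact h3
  · rintro _ ⟨u, hu, rfl⟩ _ ⟨v, hv, rfl⟩
    exact comm_of_mk M (hRM (hRcomm u hu v hv))
  · rintro _ ⟨u, hu, rfl⟩ hc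
    have h3 : u * x * u⁻¹ * x⁻¹ ∈ M := mem_of_comm M hc
    have h4 : u * x * u⁻¹ * x⁻¹ ∈ P := by
      have e : u * x * u⁻¹ * x⁻¹ = u * (x * u⁻¹ * x⁻¹) := by group
      rw [e]
      exact P.mul_mem hu (hPn.conj_mem _ (P.inv_mem hu) x)
    have h5 := hPM _ h4 h3
    have h6 : u ∈ R := hfp u hu (comm_of_mk R h5)
    rw [QuotientGroup.mk'_apply, QuotientGroup.eq_one_iff]
    exact hRM h6

/-- Let G be a finite group and p a prime. Then G has a normal p-complement if and only if every section K = H/N of G (N a normal subgroup of a subgroup H) whose largest normal subgroup of order prime to p is trivial contains an element whose order equals the exponent of K. -/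
theorem result {G : Type*} [Group G] [Finite G] (p : ℕ) [Fact p.Prime] :
    Cfsg.HasNormalPComplement p G ↔
      ∀ (H : Subgroup G) (N : Subgroup H) [N.Normal], Cfsg.pPrimeCore p (H ⧸ N) = ⊥ →
        ∃ k : H ⧸ N, orderOf k = Monoid.exponent (H ⧸ N) := by
  constructor
  · intro h H N _ hcore
    have h1 : Cfsg.HasNormalPComplement p (H ⧸ N) :=
      HasNormalPComplement_of_surjective (QuotientGroup.mk' N) (QuotientGroup.mk'_surjective N)
        (HasNormalPComplement_subgroup h H)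
    obtain ⟨L, hL, h2, h3⟩ := hasNormalPComplement_iff.mp h1
    have hLbot : L = ⊥ := by
      apply le_bot_iff.mp
      rw [← hcore]
      exact le_sSup ⟨hL, h2⟩
    apply exists_orderOf_eq_exponent_of_isPGroup (p := p)
    intro k
    obtain ⟨j, hj⟩ := h3 (k : (H ⧸ N) ⧸ L)
    refine ⟨j, ?_⟩
    rw [← QuotientGroup.mk_pow, QuotientGroup.eq_one_iff, hLbot] at hj
    exact hj
  · intro h
    by_contra hG
    -- a minimal subgroup without a normal `p`-complement
    obtain ⟨T, hT⟩ := Set.Finite.exists_minimal (Set.toFinite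
      {T : Subgroup G | ¬ Cfsg.HasNormalPComplement p T})
      ⟨⊤, fun hc => hG ((HasNormalPComplement_congr Subgroup.topEquiv).mp hc)⟩
    have hT1 : ¬ Cfsg.HasNormalPComplement p T := hT.prop
    have hT2 : ∀ L : Subgroup T, L ≠ ⊤ → Cfsg.HasNormalPComplement p L := by
      intro L hL
      by_contra hc
      have h3 : ¬ Cfsg.HasNormalPComplement p (L.map T.subtype) := by
        intro hd
        exact hc ((HasNormalPComplement_congr (L.equivMapOfInjective T.subtype T.subtype_injective)).mpr hd)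
      have h4 : T ≤ L.map T.subtype := hT.le_of_le h3 (map_subtype_le L)
      apply hL
      rw [eq_top_iff]
      rintro ⟨t, ht⟩ -
      obtain ⟨l, hl, hle⟩ := h4 ht
      have : l = ⟨t, ht⟩ := Subtype.ext hle
      rwa [← this]
    obtain ⟨M, hM, h5, h6⟩ := exists_section hT1 hT2
    haveI := hM
    obtain ⟨k, hk⟩ := h T M h5
    exact h6 k hk

end Cfsg.Agent.S4238
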