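import Cfsg.Statements.S4242
import Mathlib
import Cfsg.Agent.Lib.Nilpotent.Fitting
import Cfsg.Agent.Lib.Nilpotent.Subnormal
import Cfsg.Agent.Lib.Nilpotent.SubnormalRadical
import Cfsg.Agent.Lib.Nilpotent.Elements
import Cfsg.Agent.Lib.Transfer.Frobenius
import Cfsg.Agent.Lib.Coprime.InvSylow
-- import your own Cfsg.Agent.* helpers here

set_option autoImplicit false
open Cfsg

namespace Cfsg.Agent.S4242

open Cfsg.Agent.Lib.Nilpotent.Fitting Cfsg.Agent.Lib.Nilpotent.Subnormal
open Cfsg.Agent.Lib.Nilpotent.SubnormalRadical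

section aux

variable {G : Type*} [Group G] [Finite G]

theorem exists_coatom_ge {H : Subgroup G} (hH : H ≠ ⊤) : ∃ M : Subgroup G, IsCoatom M ∧ H ≤ M := by
  obtain h | ⟨M, hM, hle⟩ := eq_top_or_exists_le_coatom H
  · exact absurd h hH
  · exact ⟨M, hM, hle⟩

/-- In a nilpotent subgroup containing them, elements of coprime order commute. -/
theorem commute_of_nilpotent {M : Subgroup G} (hM : Group.IsNilpotent M) {x y : G} (hx : x ∈ M)
    (hy : y ∈ M) (hc : (orderOf x).Coprime (orderOf y)) : x * y = y * x := by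
  have h1 : orderOf (⟨x, hx⟩ : M) = orderOf x := by
    rw [← Subgroup.orderOf_coe]
  have h2 : orderOf (⟨y, hy⟩ : M) = orderOf y := by
    rw [← Subgroup.orderOf_coe]
  have := Cfsg.Agent.Lib.Nilpotent.Elements.commute_of_coprime_orderOf
    (x := (⟨x, hx⟩ : M)) (y := (⟨y, hy⟩ : M)) (by rw [h1, h2]; exact hc)
  exact congrArg Subtype.val this.eq

/-- A `p`-element has order a power of `p`. -/
theorem orderOf_coprime_of_mem {p : ℕ} [hp : Fact p.Prime] {Q : Subgroup G} (hQ : IsPGroup p Q) {x y : G}
    (hx : x ∈ Q) (hy : (orderOf y).Coprime p) : (orderOf y).Coprime (orderOf x) := by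
  obtain ⟨k, hk⟩ := Cfsg.Agent.Lib.Nilpotent.Elements.exists_pow_eq_one_of_mem hQ hx
  exact Nat.Coprime.coprime_dvd_right (orderOf_dvd_of_pow_eq_one hk) (hy.pow_right k)

end aux

section main

variable {G : Type*} [Group G] [Finite G] {p : ℕ} [hp : Fact p.Prime]

/-- The main direction: a non-nilpotent maximal subgroup of order prime to `p`. -/
theorem direct_factor (hpG : p ∣ Nat.card G)
    (hall : ∀ M : Subgroup G, IsCoatom M → p ∣ Nat.card M → Group.IsNilpotent M)
    {M : Subgroup G} (hM : IsCoatom M) (hMn : ¬ Group.IsNilpotent M) (hMp : ¬ p ∣ Nat.card M) :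
    ∃ Z K : Subgroup G, Z.Normal ∧ K.Normal ∧ Z ⊓ K = ⊥ ∧ Z ⊔ K = ⊤ ∧ Nat.card Z = p ∧
      Cfsg.IsMinimalNonNilpotent K ∧ ¬ p ∣ Nat.card K := by
  classical
  -- overgroups of non-trivial `p`-subgroups
  have hcover : ∀ Y : Subgroup G, Y ≠ ⊤ → p ∣ Nat.card Y → Group.IsNilpotent Y := by
    intro Y hY hpY
    obtain ⟨M₁, hM₁, hle⟩ := exists_coatom_ge hY
    have hn := hall M₁ hM₁ (hpY.trans (Subgroup.card_dvd_of_le hle))
    exact isNilpotent_of_le hle hn
  -- Frobenius' criterion
  have hFrob : Cfsg.Agent.Lib.Transfer.Frobenius.FrobeniusHyp p G := by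
    intro Q hQ g hg hgc
    by_cases hQbot : Q = ⊥
    · subst hQbot
      rw [Subgroup.mem_centralizer_iff]
      intro h hh
      have : h = 1 := by simpa using hh
      simp [this]
    have hQp : p ∣ Nat.card Q := by
      obtain ⟨n, hn⟩ := IsPGroup.iff_card.mp hQ
      have hne : n ≠ 0 := by
        rintro rfl
        apply hQbot
        apply Subgroup.eq_bot_of_card_eq
        simpa using hn
      rw [hn]
      exact dvd_pow_self _ hne
    set W := Q ⊔ Subgroup.zpowers g with hW
    by_cases hWt : W = ⊤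
    · -- `G = Q⟨g⟩`, so `M` is cyclic
      exfalso
      apply hMn
      have hQn : Q.Normal := by
        have hle : W ≤ Subgroup.normalizer (Q : Set G) :=
          sup_le Subgroup.le_normalizer (Subgroup.zpowers_le.mpr hg)
        rw [hWt] at hle
        exact Subgroup.normalizer_eq_top_iff.mp (top_le_iff.mp hle)
      -- `M` embeds in the cyclic group `G ⧸ Q`
      have hcyc : IsCyclic (G ⧸ Q) := by
        refine ⟨⟨(QuotientGroup.mk g : G ⧸ Q), ?_⟩⟩
        intro x
        obtain ⟨y, rfl⟩ := QuotientGroup.mk'_surjective Q x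
        have hy : y ∈ W := by rw [hWt]; trivial
        have hmap : W.map (QuotientGroup.mk' Q) ≤ Subgroup.zpowers (QuotientGroup.mk g : G ⧸ Q) := by
          rw [hW, Subgroup.map_sup]
          refine sup_le ?_ ?_
          · rintro _ ⟨z, hz, rfl⟩
            have : QuotientGroup.mk' Q z = 1 := (QuotientGroup.eq_one_iff z).mpr hz
            rw [this]
            exact Subgroup.one_mem _
          · rw [Subgroup.map_le_iff_le_comap, Subgroup.zpowers_le]
            exact Subgroup.mem_zpowers _
        exact hmap (Subgroup.mem_map_of_mem _ hy)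
      let φ : M →* G ⧸ Q := (QuotientGroup.mk' Q).comp M.subtype
      have hφ : Function.Injective φ := by
        rw [injective_iff_map_eq_one]
        intro a ha
        have h1 : (a : G) ∈ Q := (QuotientGroup.eq_one_iff _).mp ha
        -- `a` has order prime to `p` and a power of `p`
        obtain ⟨k, hk⟩ := Cfsg.Agent.Lib.Nilpotent.Elements.exists_pow_eq_one_of_mem hQ h1
        have hd1 : orderOf (a : G) ∣ p ^ k := orderOf_dvd_of_pow_eq_one hk
        have hd2 : orderOf (a : G) ∣ Nat.card M := by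
          rw [Subgroup.orderOf_coe]
          exact orderOf_dvd_natCard a
        have hcop : (p ^ k).Coprime (Nat.card M) :=
          Nat.Coprime.pow_left k ((Nat.Prime.coprime_iff_not_dvd hp.out).mpr hMp)
        have h3 : orderOf (a : G) = 1 := Nat.eq_one_of_dvd_coprimes hcop hd1 hd2
        apply Subtype.ext
        exact orderOf_eq_one_iff.mp h3
      have hcM : IsCyclic M := isCyclic_of_injective φ hφ
      let _ : CommGroup M := IsCyclic.commGroup
      exact CommGroup.isNilpotent
    · have hpW : p ∣ Nat.card W := hQp.trans (Subgroup.card_dvd_of_le le_sup_left)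
      have hWn := hcover W hWt hpW
      rw [Subgroup.mem_centralizer_iff]
      intro h hh
      have hhW : h ∈ W := (le_sup_left : Q ≤ W) hh
      have hgW : g ∈ W := (le_sup_right : Subgroup.zpowers g ≤ W) (Subgroup.mem_zpowers g)
      exact (commute_of_nilpotent hWn hgW hhW (orderOf_coprime_of_mem hQ hh hgc)).symm
  obtain ⟨P, K, hKn, hKc⟩ := Cfsg.Agent.Lib.Transfer.Frobenius.hasNormalPComplement_of_hyp hFrob
  have hKcard : Nat.card K * Nat.card (P : Subgroup G) = Nat.card G := hKc.card_mul_card
  have hPp : IsPGroup p (P : Subgroup G) := P.isPGroup'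
  obtain ⟨n, hn⟩ := IsPGroup.iff_card.mp hPp
  have hidx : (P : Subgroup G).index = Nat.card K := by
    have h1 := Subgroup.card_mul_index (P : Subgroup G)
    have hpos : 0 < Nat.card (P : Subgroup G) := Nat.card_pos
    rw [← hKcard, mul_comm (Nat.card K)] at h1
    exact Nat.eq_of_mul_eq_mul_left hpos h1
  have hKp : ¬ p ∣ Nat.card K := by
    rw [← hidx]
    exact P.not_dvd_index
  have hPdvd : p ∣ Nat.card (P : Subgroup G) := by
    rw [← hKcard] at hpG
    rcases (Nat.Prime.dvd_mul hp.out).mp hpG with h | h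
    · exact absurd h hKp
    · exact h
  have hKne : K ≠ ⊤ := by
    rintro rfl
    apply hp.out.one_lt.ne'
    have h2 : Nat.card (P : Subgroup G) = 1 := by
      have h3 : Nat.card (⊤ : Subgroup G) = Nat.card G := Subgroup.card_top
      rw [h3] at hKcard
      have hpos : 0 < Nat.card G := Nat.card_pos
      exact Nat.eq_of_mul_eq_mul_left hpos (by rw [hKcard, mul_one])
    rw [h2] at hPdvd
    exact Nat.dvd_one.mp hPdvd
  -- `M ≤ K`
  have hMK : M ≤ K := by
    intro a ha
    rw [← QuotientGroup.eq_one_iff a]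
    have h1 : orderOf (QuotientGroup.mk a : G ⧸ K) ∣ Nat.card (G ⧸ K) := orderOf_dvd_natCard _
    have h2 : Nat.card (G ⧸ K) = p ^ n := by
      have h3 := Subgroup.card_mul_index K
      have hpos : 0 < Nat.card K := Nat.card_pos
      rw [← hKcard, hn] at h3
      exact Nat.eq_of_mul_eq_mul_left hpos h3
    have h4 : orderOf (QuotientGroup.mk a : G ⧸ K) ∣ orderOf a :=
      orderOf_map_dvd (QuotientGroup.mk' K) a
    have h5 : orderOf a ∣ Nat.card M := by
      have : orderOf (⟨a, ha⟩ : M) = orderOf a := by rw [← Subgroup.orderOf_coe]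
      rw [← this]
      exact orderOf_dvd_natCard _
    have hcop : (p ^ n).Coprime (Nat.card M) :=
      Nat.Coprime.pow_left n ((Nat.Prime.coprime_iff_not_dvd hp.out).mpr hMp)
    have h6 : orderOf (QuotientGroup.mk a : G ⧸ K) = 1 :=
      Nat.eq_one_of_dvd_coprimes hcop (h2 ▸ h1) (h4.trans h5)
    exact orderOf_eq_one_iff.mp h6
  have hMeq : M = K := by
    by_contra hne
    exact hKne (hM.2 K (lt_of_le_of_ne hMK hne))
  subst hMeq
  -- `P` has order `p`
  have hPcard : Nat.card (P : Subgroup G) = p := by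
    obtain ⟨x, hx⟩ := exists_prime_orderOf_dvd_card' p hPdvd
    have hxord : orderOf (x : G) = p := by rw [Subgroup.orderOf_coe]; exact hx
    have hxM : (x : G) ∉ M := by
      intro hxM
      have h1 : (x : G) ∈ M ⊓ (P : Subgroup G) := ⟨hxM, x.2⟩
      rw [hKc.disjoint.eq_bot, Subgroup.mem_bot] at h1
      rw [h1, orderOf_one] at hxord
      exact hp.out.one_lt.ne hxord
    set L := M ⊔ Subgroup.zpowers (x : G) with hL
    have hLtop : L = ⊤ := by
      apply hM.2
      refine lt_of_le_of_ne le_sup_left fun h => hxM ?_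
      rw [h]
      exact (le_sup_right : Subgroup.zpowers (x : G) ≤ L) (Subgroup.mem_zpowers _)
    have h2 : M.relIndex L = M.relIndex (Subgroup.zpowers (x : G)) :=
      Subgroup.relIndex_sup_left _ _
    have h3 : M.relIndex (Subgroup.zpowers (x : G)) ∣ p := by
      have := Subgroup.relIndex_dvd_card M (Subgroup.zpowers (x : G))
      rwa [Nat.card_zpowers, hxord] at this
    have h4 : Nat.card M * M.relIndex L = Nat.card L := by
      have := Subgroup.relIndex_mul_relIndex (⊥ : Subgroup G) M L bot_le le_sup_left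
      simp only [Subgroup.relIndex_bot_left] at this
      exact this
    have h5 : Nat.card L = Nat.card G := by
      rw [hLtop]
      exact Subgroup.card_top
    have h6 : Nat.card (P : Subgroup G) = M.relIndex L := by
      have hpos : 0 < Nat.card M := Nat.card_pos
      apply Nat.eq_of_mul_eq_mul_left hpos
      rw [hKcard, h4, h5]
    rw [h6, h2] at hPdvd ⊢
    exact (Nat.dvd_prime hp.out).mp h3 |>.resolve_left (fun h1 => by
      rw [h1] at hPdvd
      exact hp.out.one_lt.ne' (Nat.dvd_one.mp hPdvd))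
  have hPM : (P : Subgroup G) ⊓ M = ⊥ := by
    rw [inf_comm]
    exact hKc.disjoint.eq_bot
  have hPMt : (P : Subgroup G) ⊔ M = ⊤ := by
    rw [sup_comm]
    exact hKc.sup_eq_top
  have hPNil : Group.IsNilpotent (P : Subgroup G) := hPp.isNilpotent
  have hPdvdY : ∀ Y : Subgroup G, (P : Subgroup G) ≤ Y → p ∣ Nat.card Y := fun Y hY =>
    hPdvd.trans (Subgroup.card_dvd_of_le hY)
  -- `P` centralizes `M`
  have hcentr : M ≤ Subgroup.centralizer ((P : Subgroup G) : Set G) := by
    have hcop : (Nat.card (P : Subgroup G)).Coprime (Nat.card M) := by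
      rw [hPcard]
      exact (Nat.Prime.coprime_iff_not_dvd hp.out).mpr hKp
    have hsyl : ∀ q : ℕ, q.Prime → ¬ q ∣ ((Subgroup.centralizer ((P : Subgroup G) : Set G)).subgroupOf M).index := by
      intro q hq
      haveI : Fact q.Prime := ⟨hq⟩
      have hNle : (P : Subgroup G) ≤ Subgroup.normalizer (M : Set G) := by
        intro x _
        rw [Subgroup.mem_normalizer_iff]
        intro y
        constructor
        · exact fun hy => hKn.conj_mem y hy x
        · intro hy
          have := hKn.conj_mem _ hy x⁻¹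
          simpa [mul_assoc] using this
      obtain ⟨T, hT⟩ := Cfsg.Agent.Lib.Coprime.InvSylow.exists_invariant_sylow hNle hcop
        (Or.inl inferInstance) q
      set R := (T : Subgroup M).map M.subtype with hR
      have hRq : IsPGroup q R := T.isPGroup'.map _
      have hRM : R ≤ M := Subgroup.map_subtype_le _
      -- `R ⊔ P` is proper
      have hY : R ⊔ (P : Subgroup G) ≠ ⊤ := by
        intro hYt
        apply hMn
        have hcardY : Nat.card (R ⊔ (P : Subgroup G) : Subgroup G) ∣ Nat.card R * Nat.card (P : Subgroup G) := by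
          have hRn : R.Normal := by
            apply Subgroup.normalizer_eq_top_iff.mp
            apply top_le_iff.mp
            rw [← hYt]
            exact sup_le Subgroup.le_normalizer hT
          have h1 : R.relIndex (R ⊔ (P : Subgroup G)) = R.relIndex (P : Subgroup G) :=
            Subgroup.relIndex_sup_left _ _
          have h2 : R.relIndex (P : Subgroup G) ∣ Nat.card (P : Subgroup G) := Subgroup.relIndex_dvd_card _ _
          have h3 : Nat.card R * R.relIndex (R ⊔ (P : Subgroup G)) = Nat.card (R ⊔ (P : Subgroup G) : Subgroup G) := by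
            have := Subgroup.relIndex_mul_relIndex (⊥ : Subgroup G) R (R ⊔ (P : Subgroup G)) bot_le le_sup_left
            simp only [Subgroup.relIndex_bot_left] at this
            exact this
          rw [← h3, h1]
          exact mul_dvd_mul_left _ h2
        rw [hYt, Subgroup.card_top, ← hKcard] at hcardY
        have hposP : 0 < Nat.card (P : Subgroup G) := Nat.card_pos
        have h5 : Nat.card M ∣ Nat.card R := Nat.dvd_of_mul_dvd_mul_right hposP hcardY
        have hRM' : R = M := Subgroup.eq_of_le_of_card_ge hRM (Nat.le_of_dvd Nat.card_pos h5)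
        rw [← hRM'] at hMn ⊢
        exact hRq.isNilpotent
      have hYn := hcover _ hY (hPdvdY _ le_sup_right)
      -- `T` centralizes `P`
      have hTle : (T : Subgroup M) ≤ (Subgroup.centralizer ((P : Subgroup G) : Set G)).subgroupOf M := by
        intro t ht
        rw [Subgroup.mem_subgroupOf, Subgroup.mem_centralizer_iff]
        intro x hx
        have htR : (t : G) ∈ R := ⟨t, ht, rfl⟩
        have hcopo : (orderOf x).Coprime (orderOf (t : G)) := by
          obtain ⟨a, ha⟩ := Cfsg.Agent.Lib.Nilpotent.Elements.exists_pow_eq_one_of_mem hRq htR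
          obtain ⟨b, hb⟩ := Cfsg.Agent.Lib.Nilpotent.Elements.exists_pow_eq_one_of_mem hPp hx
          have hd1 : orderOf (t : G) ∣ Nat.card M := by
            rw [Subgroup.orderOf_coe]
            exact orderOf_dvd_natCard t
          have hd2 := orderOf_dvd_of_pow_eq_one hb
          have hc : (p ^ b).Coprime (Nat.card M) :=
            Nat.Coprime.pow_left b ((Nat.Prime.coprime_iff_not_dvd hp.out).mpr hKp)
          exact Nat.Coprime.coprime_dvd_left hd2 (Nat.Coprime.coprime_dvd_right hd1 hc)
        exact commute_of_nilpotent hYn ((le_sup_right : (P : Subgroup G) ≤ R ⊔ (P : Subgroup G)) hx)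
          ((le_sup_left : R ≤ R ⊔ (P : Subgroup G)) htR) hcopo
      intro hd
      have hd2 : ((Subgroup.centralizer ((P : Subgroup G) : Set G)).subgroupOf M).index ∣ (T : Subgroup M).index :=
        Subgroup.index_dvd_of_le hTle
      exact T.not_dvd_index (hd.trans hd2)
    have hidx1 : ((Subgroup.centralizer ((P : Subgroup G) : Set G)).subgroupOf M).index = 1 := by
      by_contra hne
      obtain ⟨q, hq, hqd⟩ := Nat.exists_prime_and_dvd hne
      exact hsyl q hq hqd
    have htop := Subgroup.index_eq_one.mp hidx1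
    intro k hk
    have : (⟨k, hk⟩ : M) ∈ (Subgroup.centralizer ((P : Subgroup G) : Set G)).subgroupOf M := by
      rw [htop]; trivial
    exact this
  have hPn : (P : Subgroup G).Normal := by
    apply Subgroup.normalizer_eq_top_iff.mp
    apply top_le_iff.mp
    rw [← hPMt]
    refine sup_le Subgroup.le_normalizer ?_
    intro k hk
    rw [Subgroup.mem_normalizer_iff]
    intro y
    constructor
    · intro hy
      have hc := Subgroup.mem_centralizer_iff.mp (hcentr hk) y hy
      have : k * y * k⁻¹ = y := by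
        rw [← hc]; group
      rwa [this]
    · intro hy
      have hc := Subgroup.mem_centralizer_iff.mp (hcentr (M.inv_mem hk)) _ hy
      have : y = k⁻¹ * (k * y * k⁻¹) * k⁻¹⁻¹ := by group
      rw [this, ← hc]
      have h2 : k⁻¹ * (k * y * k⁻¹) * k⁻¹⁻¹ = (k * y * k⁻¹) * k⁻¹ * k⁻¹⁻¹ := by
        rw [hc]
      simpa [mul_assoc] using hy
  refine ⟨(P : Subgroup G), M, hPn, hKn, hPM, hPMt, hPcard, ⟨hMn, ?_⟩, hKp⟩
  intro H hHne
  set L := H.map M.subtype with hLdef
  have hLM : L ≤ M := Subgroup.map_subtype_le _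
  have hY : L ⊔ (P : Subgroup G) ≠ ⊤ := by
    intro hYt
    apply hHne
    rw [eq_top_iff]
    rintro ⟨k, hk⟩ _
    have hk' : k ∈ L ⊔ (P : Subgroup G) := by rw [hYt]; trivial
    have hk2 : k ∈ ((L ⊔ (P : Subgroup G) : Subgroup G) : Set G) := hk'
    rw [Subgroup.mul_normal] at hk2
    obtain ⟨l, hl, x, hx, rfl⟩ := Set.mem_mul.mp hk2
    have hlM : l ∈ M := hLM hl
    have hxM : x ∈ M := by
      have := M.mul_mem (M.inv_mem hlM) hk
      simpa using this
    have hx1 : x = 1 := by
      have h1 : x ∈ (P : Subgroup G) ⊓ M := ⟨hx, hxM⟩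
      rw [hPM] at h1
      exact Subgroup.mem_bot.mp h1
    subst hx1
    obtain ⟨y, hy, hyl⟩ := hl
    have : y = ⟨l * 1, hk⟩ := Subtype.ext (by simpa using hyl)
    rwa [← this]
  have hYn := hcover _ hY (hPdvdY _ le_sup_right)
  have hLn : Group.IsNilpotent L := isNilpotent_of_le le_sup_left hYn
  have e : H ≃* L := H.equivMapOfInjective M.subtype M.subtype_injective
  exact Group.nilpotent_of_mulEquiv e.symm

theorem backward {Z K : Subgroup G} (hZ : Z.Normal) (hK : K.Normal) (hZK : Z ⊓ K = ⊥)
    (hZKt : Z ⊔ K = ⊤) (hZp : Nat.card Z = p) (hmin : Cfsg.IsMinimalNonNilpotent K)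
    (hKp : ¬ p ∣ Nat.card K) {M : Subgroup G} (hM : IsCoatom M) (hpM : p ∣ Nat.card M) :
    Group.IsNilpotent M := by
  classical
  have hcomm : ∀ z ∈ Z, ∀ k ∈ K, z * k = k * z := by
    intro z hz k hk
    have h1 : z * k * z⁻¹ * k⁻¹ ∈ Z ⊓ K := by
      constructor
      · have := Z.mul_mem hz (hZ.conj_mem z⁻¹ (Z.inv_mem hz) k)
        simpa [mul_assoc] using this
      · have := K.mul_mem (hK.conj_mem k hk z) (K.inv_mem hk)
        simpa [mul_assoc] using this
    rw [hZK, Subgroup.mem_bot] at h1
    have h2 : z * k * z⁻¹ = k := by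
      have := mul_inv_eq_one.mp h1
      exact this
    calc z * k = z * k * z⁻¹ * z := by group
      _ = k * z := by rw [h2]
  have hdecomp : ∀ g : G, ∃ z ∈ Z, ∃ k ∈ K, g = z * k := by
    intro g
    have h1 : g ∈ ((Z ⊔ K : Subgroup G) : Set G) := by rw [hZKt]; trivial
    rw [Subgroup.normal_mul] at h1
    obtain ⟨z, hz, k, hk, rfl⟩ := Set.mem_mul.mp h1
    exact ⟨z, hz, k, hk, rfl⟩
  have hZpow : ∀ z ∈ Z, z ^ p = 1 := by
    intro z hz
    have h1 : (⟨z, hz⟩ : Z) ^ p = 1 := by
      rw [← hZp]
      exact pow_card_eq_one'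
    exact congrArg Subtype.val h1
  have hcoprime : (p).Coprime (Nat.card K) := (Nat.Prime.coprime_iff_not_dvd hp.out).mpr hKp
  -- an element of order `p` of `M` lies in `Z`
  obtain ⟨x, hx⟩ := exists_prime_orderOf_dvd_card' p hpM
  have hxord : orderOf (x : G) = p := by rw [Subgroup.orderOf_coe]; exact hx
  obtain ⟨z, hz, k, hk, hxe⟩ := hdecomp (x : G)
  have hk1 : k = 1 := by
    have h1 : (z * k) ^ p = z ^ p * k ^ p := (show Commute z k from hcomm z hz k hk).mul_pow p
    have h2 : k ^ p = 1 := by
      have h5 : (x : G) ^ p = 1 := by rw [← hxord]; exact pow_orderOf_eq_one _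
      rw [← hxe, h5, hZpow z hz, one_mul] at h1
      exact h1.symm
    have h3 : orderOf k ∣ p := orderOf_dvd_of_pow_eq_one h2
    have h4 : orderOf k ∣ Nat.card K := by
      have : orderOf (⟨k, hk⟩ : K) = orderOf k := by rw [← Subgroup.orderOf_coe]
      rw [← this]
      exact orderOf_dvd_natCard _
    exact orderOf_eq_one_iff.mp (Nat.eq_one_of_dvd_coprimes hcoprime h3 h4)
  subst hk1
  rw [mul_one] at hxe
  have hxZ : (x : G) ∈ Z := hxe ▸ hz
  have hZM : Z ≤ M := by
    have h1 : Subgroup.zpowers (x : G) ≤ Z := Subgroup.zpowers_le.mpr hxZ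
    have h2 : Nat.card (Subgroup.zpowers (x : G)) = Nat.card Z := by
      rw [Nat.card_zpowers, hxord, hZp]
    have h3 : Subgroup.zpowers (x : G) = Z := Subgroup.eq_of_le_of_card_ge h1 h2.ge
    rw [← h3, Subgroup.zpowers_le]
    exact x.2
  set L := M ⊓ K with hL
  have hLK : L ≤ K := inf_le_right
  have hLM : L ≤ M := inf_le_left
  have hLne : L.subgroupOf K ≠ ⊤ := by
    intro h
    have hKM : K ≤ M := by
      intro a ha
      have : (⟨a, ha⟩ : K) ∈ L.subgroupOf K := by rw [h]; trivial
      exact hLM this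
    apply hM.1
    rw [eq_top_iff, ← hZKt]
    exact sup_le hZM hKM
  have hLn : Group.IsNilpotent L :=
    haveI := hmin.2 _ hLne
    Group.nilpotent_of_mulEquiv (Subgroup.subgroupOfEquivOfLe hLK)
  have hZn : Group.IsNilpotent Z := by
    have : IsPGroup p Z := IsPGroup.of_card (n := 1) (by rw [hZp, pow_one])
    exact this.isNilpotent
  have hnZ : Cfsg.Agent.Lib.Nilpotent.Subnormal.NormalIn Z M :=
    ⟨hZM, fun b _ a ha => hZ.conj_mem a ha b⟩
  have hnL : Cfsg.Agent.Lib.Nilpotent.Subnormal.NormalIn L M :=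
    ⟨hLM, fun b hb a ha => ⟨M.mul_mem (M.mul_mem hb ha.1) (M.inv_mem hb), hK.conj_mem a ha.2 b⟩⟩
  have hsup : Z ⊔ L = M := by
    apply le_antisymm (sup_le hZM hLM)
    intro m hm
    obtain ⟨z, hz, k, hk, rfl⟩ := hdecomp m
    have hkM : k ∈ M := by
      have := M.mul_mem (M.inv_mem (hZM hz)) hm
      simpa using this
    exact Subgroup.mul_mem _ ((le_sup_left : Z ≤ Z ⊔ L) hz) ((le_sup_right : L ≤ Z ⊔ L) ⟨hkM, hk⟩)
  have := isNilpotent_sup_of_normalIn hnZ hnL hZn hLn
  rwa [hsup] at this

end main

/-- Let G be a finite group and p a prime dividing its order. Every maximal subgroup of G of order divisible by p is nilpotent if and only if G is nilpotent, or G is a minimal non-nilpotent group, or G is the internal direct product of a normal subgroup of order p and a normal minimal non-nilpotent subgroup of order prime to p. -/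
theorem result {G : Type*} [Group G] [Finite G] (p : ℕ) (hp : p.Prime) (hpG : p ∣ Nat.card G) :
    (∀ M : Subgroup G, IsCoatom M → p ∣ Nat.card M → Group.IsNilpotent M) ↔
      (Group.IsNilpotent G ∨ Cfsg.IsMinimalNonNilpotent G ∨
        ∃ Z K : Subgroup G, Z.Normal ∧ K.Normal ∧ Z ⊓ K = ⊥ ∧ Z ⊔ K = ⊤ ∧ Nat.card Z = p ∧
          Cfsg.IsMinimalNonNilpotent K ∧ ¬ p ∣ Nat.card K) := by
  haveI : Fact p.Prime := ⟨hp⟩
  constructor
  · intro hall
    by_cases hG : Group.IsNilpotent G
    · exact Or.inl hG
    right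
    by_cases hprop : ∀ H : Subgroup G, H ≠ ⊤ → Group.IsNilpotent H
    · exact Or.inl ⟨hG, hprop⟩
    right
    push Not at hprop
    obtain ⟨H, hH, hHn⟩ := hprop
    obtain ⟨M, hM, hle⟩ := exists_coatom_ge hH
    have hMn : ¬ Group.IsNilpotent M := fun h => hHn (isNilpotent_of_le hle h)
    exact direct_factor hpG hall hM hMn (fun h => hMn (hall M hM h))
  · rintro (hG | hmin | ⟨Z, K, hZ, hK, hZK, hZKt, hZp, hmin, hKp⟩) M hM hpM
    · infer_instance
    · exact hmin.2 M hM.1
    · exact backward hZ hK hZK hZKt hZp hmin hKp hM hpM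

end Cfsg.Agent.S4242
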