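import Cfsg.Statements.S4244
import Mathlib

set_option autoImplicit false
open Cfsg

namespace Cfsg.Agent.S4244

theorem key {L : Type*} [Group L] [Finite L] (H K : Subgroup L) [H.Normal] :
    K.relIndex H ∣ K.index := by
  have hS : K.relIndex H = K.relIndex (K ⊔ H) := by
    have h1 : H.relIndex (K ⊔ H) = H.relIndex K := Subgroup.relIndex_sup_right K H
    have hcard : ∀ A B : Subgroup L, A ≤ B → A.relIndex B * Nat.card A = Nat.card B := by
      intro A B hAB
      have := Subgroup.relIndex_mul_relIndex (⊥ : Subgroup L) A B bot_le hAB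
      rw [Subgroup.relIndex_bot_left, Subgroup.relIndex_bot_left] at this
      rw [mul_comm]; exact this
    have h2 := hcard (H ⊓ K) H inf_le_left
    have h3 := hcard (H ⊓ K) K inf_le_right
    have h4 := hcard H (K ⊔ H) le_sup_right
    have h5 := hcard K (K ⊔ H) le_sup_left
    rw [Subgroup.inf_relIndex_left] at h2
    rw [Subgroup.inf_relIndex_right] at h3
    rw [h1] at h4
    have hc : 0 < Nat.card (↥(H ⊓ K)) := Nat.card_pos
    have hv : 0 < H.relIndex K := by
      rcases Nat.eq_zero_or_pos (H.relIndex K) with h0 | h0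
      · rw [h0, zero_mul] at h3
        exact absurd h3.symm (Nat.card_pos (α := K)).ne'
      · exact h0
    have e : K.relIndex (K ⊔ H) * (H.relIndex K * Nat.card (↥(H ⊓ K)))
        = K.relIndex H * (H.relIndex K * Nat.card (↥(H ⊓ K))) := by
      calc K.relIndex (K ⊔ H) * (H.relIndex K * Nat.card (↥(H ⊓ K)))
          = K.relIndex (K ⊔ H) * Nat.card K := by rw [h3]
        _ = H.relIndex K * Nat.card H := by rw [h5, h4]
        _ = H.relIndex K * (K.relIndex H * Nat.card (↥(H ⊓ K))) := by rw [h2]
        _ = K.relIndex H * (H.relIndex K * Nat.card (↥(H ⊓ K))) := by ring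
    exact (Nat.eq_of_mul_eq_mul_right (Nat.mul_pos hv hc) e).symm
  rw [hS]
  exact Subgroup.relIndex_dvd_index_of_le le_sup_left

/-- Let H be a subnormal subgroup of a finite group G. Then for every subgroup K of G the index of H ∩ K in H divides the index of K in G. -/
theorem result {G : Type*} [Group G] [Finite G] (H : Subgroup G) (hH : H.IsSubnormal) (K : Subgroup G) :
    (H ⊓ K).relIndex H ∣ K.index := by
  rw [Subgroup.inf_relIndex_left]
  induction hH with
  | top => rw [Subgroup.relIndex_top_right]
  | step H L hle _ hN ih =>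
    refine dvd_trans ?_ ih
    have h1 := Subgroup.relIndex_subgroupOf (H := K) (K := H) (L := L) hle
    rw [← h1]
    exact key (H.subgroupOf L) (K.subgroupOf L)

end Cfsg.Agent.S4244
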