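import Cfsg.Statements.S4245
import Mathlib
import Cfsg.Agent.Lib.Char.Burnside2
import Cfsg.Agent.Lib.Basic.BurnsideAut
import Cfsg.Agent.Lib.Fusion.Resist.TwoStruct

set_option autoImplicit false
open Cfsg

namespace Cfsg.Agent.S4245


universe u

open Subgroup Cfsg.Agent.Lib.Char.Burnside2

/-- The hypothesis of the statement, bundled. -/
def Hyp (p : ℕ) (G : Type u) [Group G] : Prop :=
  ∃ (A : Subgroup G) (B : Subgroup A) (_ : B.Normal), IsCyclic B ∧ IsCyclic (A ⧸ B) ∧
    (∃ r : ℕ, Nat.card (A ⧸ B) = 2 ^ r) ∧ ∃ s : ℕ, A.index = p ^ s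

/-- The hypothesis passes to quotients. -/
theorem Hyp.map {G G' : Type u} [Group G] [Group G'] [Finite G] (f : G →* G')
    (hf : Function.Surjective f) {p : ℕ} (hp : p.Prime) (h : Hyp p G) : Hyp p G' := by
  obtain ⟨A, B, hB, hc, hq, ⟨r, hr⟩, s, hs⟩ := h
  let ρ : A →* A.map f := f.subgroupMap A
  have hρ : Function.Surjective ρ := f.subgroupMap_surjective A
  haveI := hB
  haveI hN : (B.map ρ).Normal := Subgroup.Normal.map hB ρ hρ
  let φ : A ⧸ B →* (A.map f) ⧸ (B.map ρ) := QuotientGroup.map B (B.map ρ) ρ (Subgroup.le_comap_map ρ B)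
  have hφ : Function.Surjective φ := by
    intro y
    obtain ⟨y', rfl⟩ := QuotientGroup.mk_surjective y
    obtain ⟨x, rfl⟩ := hρ y'
    exact ⟨(x : A ⧸ B), rfl⟩
  refine ⟨A.map f, B.map ρ, hN, ?_, ?_, ?_, ?_⟩
  · exact isCyclic_of_surjective (ρ.subgroupMap B) (ρ.subgroupMap_surjective B)
  · exact isCyclic_of_surjective φ hφ
  · have hd : Nat.card ((A.map f) ⧸ (B.map ρ)) ∣ 2 ^ r := hr ▸ Subgroup.card_dvd_of_surjective φ hφ
    obtain ⟨k, -, hk⟩ := (Nat.dvd_prime_pow Nat.prime_two).1 hd
    exact ⟨k, hk⟩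
  · have hd : (A.map f).index ∣ p ^ s := hs ▸ Subgroup.index_map_dvd A hf
    obtain ⟨k, -, hk⟩ := (Nat.dvd_prime_pow hp).1 hd
    exact ⟨k, hk⟩

/-- `|N : A ∩ N|` divides `|G : A|` for a normal subgroup `N`. -/
theorem relIndex_dvd_index_aux {G : Type u} [Group G] [Finite G] (A N : Subgroup G) [N.Normal] :
    A.relIndex N ∣ A.index := by
  have h1 := Subgroup.relIndex_inf_mul_relIndex A N (A ⊔ N)
  have h2 := Subgroup.relIndex_inf_mul_relIndex N A (A ⊔ N)
  rw [inf_of_le_left (le_sup_right : N ≤ A ⊔ N)] at h1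
  rw [inf_of_le_left (le_sup_left : A ≤ A ⊔ N), inf_comm, ← h1] at h2
  have h4 : N.relIndex A ≠ 0 := by
    show (N.subgroupOf A).index ≠ 0
    exact Subgroup.index_ne_zero_of_finite
  have h5 : N.relIndex (A ⊔ N) = N.relIndex A := Subgroup.relIndex_sup_right A N
  rw [h5] at h2 h1
  have h6 : A.relIndex N = A.relIndex (A ⊔ N) := by
    have : N.relIndex A * A.relIndex (A ⊔ N) = A.relIndex N * N.relIndex A := h2
    rw [mul_comm] at this
    exact (Nat.eq_of_mul_eq_mul_right (Nat.pos_of_ne_zero h4) this).symm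
  rw [h6]
  exact Subgroup.relIndex_dvd_index_of_le le_sup_left

/-- The hypothesis passes to normal subgroups. -/
theorem Hyp.sub {G : Type u} [Group G] [Finite G] {p : ℕ} (hp : p.Prime) (h : Hyp p G)
    (N : Subgroup G) [N.Normal] : Hyp p N := by
  obtain ⟨A, B, hB, hc, hq, ⟨r, hr⟩, s, hs⟩ := h
  haveI := hB
  let A1 : Subgroup N := A.subgroupOf N
  let j : A1 →* A := N.subtype.subgroupComap A
  have hj : Function.Injective j := by
    intro x y hxy
    have h1 : ((j x : A) : G) = ((j y : A) : G) := congrArg _ hxy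
    exact Subtype.ext (Subtype.ext h1)
  let B1 : Subgroup A1 := B.comap j
  haveI hN1 : B1.Normal := Subgroup.Normal.comap hB j
  let φ : A1 ⧸ B1 →* A ⧸ B := QuotientGroup.map B1 B j le_rfl
  have hφ : Function.Injective φ := by
    rw [injective_iff_map_eq_one]
    intro y hy
    obtain ⟨x, rfl⟩ := QuotientGroup.mk_surjective y
    have h1 : j x ∈ B := (QuotientGroup.eq_one_iff _).1 hy
    exact (QuotientGroup.eq_one_iff _).2 h1
  refine ⟨A1, B1, hN1, ?_, ?_, ?_, ?_⟩
  · refine isCyclic_of_injective (j.subgroupComap B) ?_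
    intro x y hxy
    have h1 : ((j.subgroupComap B x : B) : A) = ((j.subgroupComap B y : B) : A) := congrArg _ hxy
    exact Subtype.ext (hj h1)
  · exact isCyclic_of_injective φ hφ
  · have hd : Nat.card (A1 ⧸ B1) ∣ 2 ^ r := hr ▸ Subgroup.card_dvd_of_injective φ hφ
    obtain ⟨k, -, hk⟩ := (Nat.dvd_prime_pow Nat.prime_two).1 hd
    exact ⟨k, hk⟩
  · have hd : A1.index ∣ p ^ s := hs ▸ relIndex_dvd_index_aux A N
    obtain ⟨k, -, hk⟩ := (Nat.dvd_prime_pow hp).1 hd
    exact ⟨k, hk⟩

/-- Prime order groups and powers of primes. -/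
theorem solvable_of_prime_pow {G : Type u} [Group G] [Finite G] {q k : ℕ} (hq : q.Prime)
    (h : Nat.card G = q ^ k) : Group.IsSolvable G :=
  isSolvable_of_card_eq hq hq _ G k 0 rfl (by simpa using h)

/-- A non-trivial element whose centralizer has prime power index gives solvability in a simple
group. -/
theorem solvable_of_class {G : Type u} [Group G] [Finite G] [IsSimpleGroup G] {q n : ℕ} (hq : q.Prime)
    (x : G) (hx : x ≠ 1) (hn : (centralizer ({x} : Set G)).index ∣ q ^ n) : Group.IsSolvable G := by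
  obtain ⟨k, -, hk⟩ := (Nat.dvd_prime_pow hq).1 hn
  have hpr := prime_card_of_simple_of_prime_power_class q k hq x hx hk
  exact solvable_of_prime_pow (k := 1) hpr (by simp)

/-- The simple case. -/
theorem simple_case {G : Type u} [Group G] [Finite G] [IsSimpleGroup G] {p : ℕ} (hp : p.Prime)
    (h : Hyp p G) : Group.IsSolvable G := by
  obtain ⟨A, B, hB, hc, hq, ⟨r, hr⟩, s, hs⟩ := h
  haveI := hB
  have hBi : B.index = 2 ^ r := hr
  have hcA : Nat.card A * p ^ s = Nat.card G := by rw [← hs]; exact A.card_mul_index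
  have hcB : Nat.card B * 2 ^ r = Nat.card A := by rw [← hBi]; exact B.card_mul_index
  -- every element of `B` has a centralizer containing `B`
  have hcent : ∀ x ∈ B, (centralizer ({(x : G)} : Set G)).index ∣ 2 ^ r * p ^ s := by
    intro x hx
    have hle : B.map A.subtype ≤ centralizer ({(x : G)} : Set G) := by
      rintro _ ⟨y, hy, rfl⟩
      rw [Subgroup.mem_centralizer_singleton_iff]
      have : x * y = y * x :=
        Cfsg.Agent.Lib.Fusion.Resist.TwoStruct.comm_of_isCyclic hc ⟨x, hx⟩ ⟨y, hy⟩ |> congrArg Subtype.val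
      exact (congrArg Subtype.val this).symm
    have := Subgroup.index_dvd_of_le hle
    rwa [Subgroup.index_map_subtype, hBi, hs] at this
  have hfin : (∃ n : ℕ, 2 ^ r * p ^ s = p ^ n) → Group.IsSolvable G := by
    rintro ⟨n, hn⟩
    by_cases hB1 : B = ⊥
    · subst hB1
      refine solvable_of_prime_pow hp (k := n) ?_
      rw [← hcA, ← hcB, Subgroup.card_bot, one_mul, hn]
    · obtain ⟨x, hx, hx1⟩ := (Subgroup.bot_or_exists_ne_one B).resolve_left hB1
      refine solvable_of_class hp (x : G) (fun h => hx1 (Subtype.ext h)) (n := n) (hn ▸ hcent x hx)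
  rcases eq_or_ne p 2 with rfl | hp2
  · exact hfin ⟨r + s, by rw [pow_add]⟩
  rcases Nat.eq_zero_or_pos r with rfl | hr0
  · exact hfin ⟨s, by simp⟩
  have hpodd : ¬ 2 ∣ p := fun h => hp2 ((Nat.prime_dvd_prime_iff_eq Nat.prime_two hp).1 h).symm
  by_cases h2 : 2 ∣ Nat.card B
  · -- a central involution of `A`
    haveI : Fact (Nat.Prime 2) := ⟨Nat.prime_two⟩
    obtain ⟨z, hz⟩ := exists_prime_orderOf_dvd_card' 2 h2
    have hz2 : z ^ 2 = 1 := hz ▸ pow_orderOf_eq_one z
    have hz1 : z ≠ 1 := by
      rintro rfl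
      rw [orderOf_one] at hz
      omega
    have hle : A ≤ centralizer ({(((z : B) : A) : G)} : Set G) := by
      intro a ha
      rw [Subgroup.mem_centralizer_singleton_iff]
      let a' : A := ⟨a, ha⟩
      let za : B := ⟨a' * (z : A) * a'⁻¹, hB.conj_mem _ z.2 a'⟩
      have hza : za ^ 2 = 1 := by
        apply Subtype.ext
        apply Subtype.ext
        have hz3 : (((z : B) : A) : G) * (((z : B) : A) : G) = 1 := by
          have := congrArg (fun x : B => ((x : A) : G)) hz2
          simpa [pow_two] using this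
        simp [za, a', pow_two]
        exact hz3
      have hcases := Cfsg.Agent.Lib.Fusion.Resist.TwoStruct.sq_cases_of_isCyclic hc hz2 hza
      rcases hcases with h | h | h
      · exact absurd h hz1
      · exfalso
        apply hz1
        have h' : ((za : A) : G) = 1 := by rw [h]; rfl
        have h'' : a * ((z : A) : G) * a⁻¹ = 1 := h'
        apply Subtype.ext
        apply Subtype.ext
        have : ((z : A) : G) = a⁻¹ * (a * ((z : A) : G) * a⁻¹) * a := by group
        rw [this, h'']
        simp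
      · have h' : ((z : A) : G) = ((za : A) : G) := by rw [← h]
        have h'' : ((z : A) : G) = a * ((z : A) : G) * a⁻¹ := h'
        calc a * ((z : A) : G) = (a * ((z : A) : G) * a⁻¹) * a := by group
          _ = ((z : A) : G) * a := by rw [← h'']
    have hd : (centralizer ({(((z : B) : A) : G)} : Set G)).index ∣ p ^ s := hs ▸ Subgroup.index_dvd_of_le hle
    refine solvable_of_class hp _ ?_ hd
    intro h
    exact hz1 (Subtype.ext (Subtype.ext h))
  · -- the Sylow `2`-subgroups are cyclic
    haveI : Fact (Nat.Prime 2) := ⟨Nat.prime_two⟩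
    have hcardG : Nat.card G = Nat.card B * 2 ^ r * p ^ s := by rw [← hcA, ← hcB]
    have hdvdA : 2 ^ r ∣ Nat.card A := ⟨Nat.card B, by rw [← hcB, mul_comm]⟩
    obtain ⟨T, hT⟩ := Sylow.exists_subgroup_card_pow_prime 2 hdvdA
    -- `T` injects into `A / B`
    have hTinj : Function.Injective ((QuotientGroup.mk' B).comp T.subtype) := by
      rw [injective_iff_map_eq_one]
      intro x hx
      have hxB : (x : A) ∈ B := (QuotientGroup.eq_one_iff _).1 hx
      have h1 : orderOf (⟨x, hxB⟩ : B) ∣ Nat.card B := orderOf_dvd_natCard _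
      have h3 : orderOf x ∣ 2 ^ r := by rw [← hT]; exact orderOf_dvd_natCard x
      have h4 : orderOf (⟨x, hxB⟩ : B) = orderOf x := by
        rw [← Subgroup.orderOf_coe (⟨x, hxB⟩ : B)]
        rw [← Subgroup.orderOf_coe x]
      rw [h4] at h1
      obtain ⟨k, -, hk⟩ := (Nat.dvd_prime_pow Nat.prime_two).1 h3
      rcases Nat.eq_zero_or_pos k with rfl | hk0
      · rw [pow_zero] at hk
        exact orderOf_eq_one_iff.1 hk
      · exfalso
        apply h2
        refine Dvd.dvd.trans ?_ h1
        rw [hk]
        exact dvd_pow_self 2 hk0.ne'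
    haveI hTc : IsCyclic T := isCyclic_of_injective _ hTinj
    let T' : Subgroup G := T.map A.subtype
    have hT'card : Nat.card T' = 2 ^ r := by
      rw [← hT]
      exact Subgroup.card_map_of_injective A.subtype_injective
    have hT'idx : ¬ 2 ∣ T'.index := by
      have hm := T'.card_mul_index
      rw [hT'card, hcardG] at hm
      have hi : T'.index = Nat.card B * p ^ s := by
        have hpos : 0 < 2 ^ r := by positivity
        apply Nat.eq_of_mul_eq_mul_left hpos
        rw [hm]
        ring
      rw [hi]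
      intro h
      rcases (Nat.prime_two.dvd_mul).1 h with h | h
      · exact h2 h
      · exact hpodd (Nat.prime_two.dvd_of_dvd_pow h)
    have hT'p : IsPGroup 2 T' := IsPGroup.of_card hT'card
    let S : Sylow 2 G := hT'p.toSylow hT'idx
    have hS : (S : Subgroup G) = T' := hT'p.toSylow_coe hT'idx
    haveI hSc : IsCyclic (S : Subgroup G) := by
      rw [hS]
      exact isCyclic_of_surjective (A.subtype.subgroupMap T) (A.subtype.subgroupMap_surjective T)
    have hScard : Nat.card (S : Subgroup G) = 2 ^ r := by rw [hS]; exact hT'card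
    have hcomp : Cfsg.HasNormalPComplement 2 G := by
      refine Cfsg.Agent.Lib.Basic.BurnsideAut.hasNormalPComplement_of_aut S IsCyclic.isMulCommutative ?_
      intro q hq hq2 _ σ hσ
      exfalso
      have h3 : q ∣ Nat.card (MulAut S) := hσ ▸ orderOf_dvd_natCard σ
      rw [IsCyclic.card_mulAut, hScard] at h3
      obtain ⟨k, rfl⟩ : ∃ k, r = k + 1 := ⟨r - 1, by omega⟩
      rw [Nat.totient_prime_pow_succ Nat.prime_two] at h3
      norm_num at h3
      exact hq2 ((Nat.prime_dvd_prime_iff_eq hq Nat.prime_two).1 (hq.dvd_of_dvd_pow h3))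
    obtain ⟨P, K, hK, hKP⟩ := hcomp
    haveI := hK
    have hmul := hKP.card_mul_card
    rcases (inferInstance : IsSimpleGroup G).eq_bot_or_eq_top_of_normal K hK with rfl | rfl
    · rw [Subgroup.card_bot, one_mul] at hmul
      obtain ⟨j, hj⟩ := (IsPGroup.iff_card.1 P.isPGroup')
      exact solvable_of_prime_pow Nat.prime_two (k := j) (by rw [← hmul, hj])
    · rw [Subgroup.card_top] at hmul
      have hP1 : Nat.card (P : Subgroup G) = 1 := by
        have hpos : 0 < Nat.card G := Nat.card_pos
        exact Nat.eq_of_mul_eq_mul_left hpos (by rw [hmul, mul_one])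
      have hPS : Nat.card (P : Subgroup G) = Nat.card (S : Subgroup G) := by rw [Sylow.card_eq_multiplicity P, Sylow.card_eq_multiplicity S]
      rw [hScard, hP1] at hPS
      have : 1 < 2 ^ r := Nat.one_lt_two_pow (by omega)
      omega

/-- The induction. -/
theorem main {p : ℕ} (hp : p.Prime) : ∀ (n : ℕ) (G : Type u) [Group G] [Finite G], Nat.card G = n →
    Hyp p G → Group.IsSolvable G := by
  intro n
  induction n using Nat.strong_induction_on with
  | _ n ih =>
    intro G _ _ hn h
    by_cases hex : ∃ N : Subgroup G, N.Normal ∧ N ≠ ⊥ ∧ N ≠ ⊤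
    · obtain ⟨N, hN, h1, h2⟩ := hex
      haveI := hN
      have hmul : Nat.card N * N.index = Nat.card G := N.card_mul_index
      have hpos : 0 < Nat.card G := Nat.card_pos
      have hc1 : 1 < Nat.card N := (Subgroup.one_lt_card_iff_ne_bot N).2 h1
      have hi1 : 1 < N.index := by
        have h0 : N.index ≠ 0 := by
          intro h0
          rw [h0] at hmul
          omega
        have h1' : N.index ≠ 1 := fun h => h2 (Subgroup.index_eq_one.1 h)
        omega
      have hlt1 : Nat.card N < n := by
        rw [← hn, ← hmul]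
        exact lt_mul_of_one_lt_right (by omega) hi1
      have hlt2 : Nat.card (G ⧸ N) < n := by
        rw [← hn, ← hmul, ← Subgroup.index_eq_card]
        exact lt_mul_of_one_lt_left (by omega) hc1
      haveI := ih _ hlt1 N rfl (h.sub hp N)
      haveI := ih _ hlt2 (G ⧸ N) rfl (h.map (QuotientGroup.mk' N) (QuotientGroup.mk'_surjective N) hp)
      exact Group.isSolvable_of_ker_le_range N.subtype (QuotientGroup.mk' N) (by simp)
    · by_cases hnt : Nontrivial G
      · haveI : IsSimpleGroup G := ⟨by
          intro N hN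
          by_contra hcon
          push Not at hcon
          exact hex ⟨N, hN, hcon.1, hcon.2⟩⟩
        exact simple_case hp h
      · haveI : Subsingleton G := not_nontrivial_iff_subsingleton.1 hnt
        infer_instance

/-- Let G be a finite group with a subgroup A of prime-power index. Suppose A has a normal cyclic subgroup B such that A/B is cyclic of order a power of 2. Then G is solvable. -/
theorem result {G : Type*} [Group G] [Finite G] (A : Subgroup G) (p s : ℕ) (hp : p.Prime) (hA : A.index = p ^ s)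
    (B : Subgroup A) [B.Normal] (hB : IsCyclic B) (hAB : IsCyclic (A ⧸ B)) (r : ℕ) (hr : Nat.card (A ⧸ B) = 2 ^ r) :
    Group.IsSolvable G := by
  exact main hp _ G rfl ⟨A, B, inferInstance, hB, hAB, ⟨r, hr⟩, s, hA⟩

end Cfsg.Agent.S4245
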