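import Cfsg.Statements.S4249
import Mathlib
import Cfsg.Agent.Lib.Coprime.FrobKey
import Cfsg.Agent.Lib.Coprime.Coset
import Cfsg.Agent.Lib.Coprime.FrattiniAct
import Cfsg.Agent.Lib.Solvable.PSeries3
import Cfsg.Agent.Lib.PGroup.Regular
import Cfsg.Agent.Lib.Basic.SylowUtil
import Cfsg.Agent.Lib.Basic.PCore
import Cfsg.Agent.Lib.Thompson.GlaubermanThompson
import Cfsg.Agent.Lib.Thompson.Transport
import Cfsg.Agent.Lib.Char.Burnside2
import Cfsg.Agent.Lib.Transfer.Basic
import Cfsg.Agent.Lib.Solvable.PSeries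

set_option autoImplicit false
set_option linter.unusedSectionVars false
set_option linter.style.haveILetI false
open Cfsg

namespace Cfsg.Agent.S4249

open Subgroup
open scoped commutatorElement

/-- A ring identity. -/
theorem ring_key {E : Type*} [Ring E] {p : ℕ} (hp : p.Prime) (Z A : E) (hc : Commute Z A)
    (hZ : Z ^ p = 1) (hN : ∀ i : ℕ, ∑ j ∈ Finset.range p, (Z ^ i * A) ^ j = 0) :
    (p : E) * (Z - 1) = 0 := by
  have hsum : ∑ i ∈ Finset.range p, ∑ j ∈ Finset.range p, (Z ^ i * A) ^ j = 0 :=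
    Finset.sum_eq_zero fun i _ => hN i
  have hterm : ∀ i j : ℕ, (Z ^ i * A) ^ j = Z ^ (i * j) * A ^ j := by
    intro i j
    rw [(hc.pow_left i).mul_pow, pow_mul]
  set N : E := ∑ i ∈ Finset.range p, Z ^ i with hNdef
  have hperm : ∀ j ∈ Finset.range p, j ≠ 0 → ∑ i ∈ Finset.range p, Z ^ (i * j) = N := by
    intro j hj hj0
    have hjlt : j < p := Finset.mem_range.mp hj
    have hcop : Nat.Coprime j p := (Nat.coprime_comm.mp ((Nat.Prime.coprime_iff_not_dvd hp).mpr
      (fun h => (Nat.not_lt.mpr (Nat.le_of_dvd (Nat.pos_of_ne_zero hj0) h)) hjlt)))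
    have hpow : ∀ m : ℕ, Z ^ m = Z ^ (m % p) := fun m => by
      conv_lhs => rw [← Nat.div_add_mod m p]
      rw [pow_add, pow_mul, hZ, one_pow, one_mul]
    rw [hNdef]
    refine Finset.sum_bij (fun i _ => (i * j) % p) ?_ ?_ ?_ ?_
    · intro i _
      exact Finset.mem_range.mpr (Nat.mod_lt _ hp.pos)
    · intro a ha b hb hab
      have ha' := Finset.mem_range.mp ha
      have hb' := Finset.mem_range.mp hb
      have h1 : a * j ≡ b * j [MOD p] := hab
      have h2 : a ≡ b [MOD p] := Nat.ModEq.cancel_right_of_coprime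
        (by rw [Nat.gcd_comm]; exact hcop) h1
      exact Nat.ModEq.eq_of_lt_of_lt h2 ha' hb'
    · intro b hb
      have hb' := Finset.mem_range.mp hb
      -- surjectivity through an inverse
      obtain ⟨u, hu⟩ := Nat.exists_mul_mod_eq_one_of_coprime hcop hp.one_lt
      refine ⟨(b * u) % p, Finset.mem_range.mpr (Nat.mod_lt _ hp.pos), ?_⟩
      have h1 : (b * u) % p * j ≡ b * u * j [MOD p] := (Nat.mod_modEq _ _).mul_right _
      have h2 : b * u * j ≡ b * 1 [MOD p] := by
        rw [mul_assoc]
        refine Nat.ModEq.mul_left _ ?_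
        rw [mul_comm]
        change j * u % p = 1 % p
        rw [hu.2, Nat.mod_eq_of_lt hp.one_lt]
      have h3 := h1.trans h2
      rw [mul_one] at h3
      change (b * u) % p * j % p = b % p at h3
      rw [h3, Nat.mod_eq_of_lt hb']
    · intro i _
      exact hpow _
  have hsum2 : ∑ j ∈ Finset.range p, (∑ i ∈ Finset.range p, Z ^ (i * j)) * A ^ j = 0 := by
    rw [← hsum, Finset.sum_comm]
    refine Finset.sum_congr rfl fun j _ => ?_
    rw [Finset.sum_mul]
    refine Finset.sum_congr rfl fun i _ => ?_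
    rw [hterm]
  have hA : ∑ j ∈ Finset.range p, A ^ j = 0 := by
    have := hN 0
    simpa using this
  obtain ⟨m, rfl⟩ : ∃ m, p = m + 1 := ⟨p - 1, by have := hp.pos; omega⟩
  rw [Finset.sum_range_succ'] at hsum2
  rw [Finset.sum_range_succ'] at hA
  have h0 : ∑ i ∈ Finset.range (m + 1), Z ^ (i * 0) = ((m + 1 : ℕ) : E) := by simp
  rw [h0, pow_zero, mul_one] at hsum2
  have hrest : ∑ j ∈ Finset.range m, (∑ i ∈ Finset.range (m + 1), Z ^ (i * (j + 1))) * A ^ (j + 1)
      = N * ∑ j ∈ Finset.range m, A ^ (j + 1) := by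
    rw [Finset.mul_sum]
    refine Finset.sum_congr rfl fun j hj => ?_
    rw [hperm (j + 1) (Finset.mem_range.mpr (by have := Finset.mem_range.mp hj; omega)) (by omega)]
  rw [hrest] at hsum2
  have hA' : ∑ j ∈ Finset.range m, A ^ (j + 1) = -1 := by
    rw [pow_zero] at hA
    exact eq_neg_of_add_eq_zero_left hA
  rw [hA', mul_neg, mul_one] at hsum2
  have hNeq : N = ((m + 1 : ℕ) : E) := by
    have := hsum2
    rw [neg_add_eq_sub, sub_eq_zero] at this
    exact this.symm
  have hgeom : N * (Z - 1) = Z ^ (m + 1) - 1 := by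
    rw [hNdef]
    exact geom_sum_mul Z (m + 1)
  rw [← hNeq, hgeom, hZ, sub_self]


section LemmaE

variable {G : Type*} [Group G] [Finite G]

open Cfsg.Agent.Lib.Coprime

/-- The norm as a power of a product. -/
theorem normList_eq (y t : G) (m : ℕ) : Frob.normList y t m = (t * y) ^ m * (y ^ m)⁻¹ := by
  induction m with
  | zero => simp [Frob.normList]
  | succ n ih =>
    have h1 : Frob.normList y t (n + 1) = Frob.normList y t n * (y ^ n * t * (y ^ n)⁻¹) := by
      unfold Frob.normList
      rw [List.range_succ, List.map_append, List.prod_append]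
      simp
    rw [h1, ih, pow_succ (t * y) n, pow_succ y n]
    group

/-- The action of the normaliser of `R` on the abelianization of `R`. -/
noncomputable def abAct (R : Subgroup G) :
    (Subgroup.normalizer (R : Set G)) →* AddMonoid.End (Additive (Abelianization R)) :=
  { toFun := fun a => (Abelianization.map (R.normalizerMonoidHom a).toMonoidHom).toAdditive
    map_one' := by
      ext x
      induction x using Additive.rec with
      | ofMul x =>
      refine QuotientGroup.induction_on x (fun p => ?_)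
      change Additive.ofMul (Abelianization.map (R.normalizerMonoidHom 1).toMonoidHom
        (Abelianization.of p)) = _
      rw [Abelianization.map_of]
      simp [map_one]
      rfl
    map_mul' := by
      intro a b
      ext x
      induction x using Additive.rec with
      | ofMul x =>
      refine QuotientGroup.induction_on x (fun p => ?_)
      change Additive.ofMul (Abelianization.map (R.normalizerMonoidHom (a * b)).toMonoidHom
          (Abelianization.of p)) =
        Additive.ofMul (Abelianization.map (R.normalizerMonoidHom a).toMonoidHom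
          (Abelianization.map (R.normalizerMonoidHom b).toMonoidHom (Abelianization.of p)))
      rw [Abelianization.map_of, Abelianization.map_of, Abelianization.map_of]
      simp [map_mul] }

theorem abAct_of (R : Subgroup G) (y : Subgroup.normalizer (R : Set G)) (t : R) :
    abAct R y (Additive.ofMul (Abelianization.of t)) =
      Additive.ofMul (Abelianization.of (R.normalizerMonoidHom y t)) := rfl

theorem normalizerMonoidHom_coe (R : Subgroup G) (y : Subgroup.normalizer (R : Set G)) (t : R) :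
    ((R.normalizerMonoidHom y t : R) : G) = y * t * (y : G)⁻¹ := rfl

/-- Sums of powers of the action compute the norm. -/
theorem sum_abAct (R : Subgroup G) (y : Subgroup.normalizer (R : Set G)) (t : R) (m : ℕ)
    (hn : Frob.normList (y : G) (t : G) m ∈ R) :
    (∑ j ∈ Finset.range m, (abAct R y) ^ j) (Additive.ofMul (Abelianization.of t)) =
      Additive.ofMul (Abelianization.of (⟨Frob.normList (y : G) (t : G) m, hn⟩ : R)) := by
  induction m with
  | zero =>
    simp only [Finset.range_zero, Finset.sum_empty]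
    have : (⟨Frob.normList (y : G) (t : G) 0, hn⟩ : R) = 1 := by
      apply Subtype.ext
      simp [Frob.normList]
    rw [this, map_one]
    rfl
  | succ n ih =>
    have hconj : ((y : G) ^ n * (t : G) * ((y : G) ^ n)⁻¹) ∈ R := by
      have := (y ^ n : Subgroup.normalizer (R : Set G))
      have h2 := ((R.normalizerMonoidHom (y ^ n) t : R)).2
      rw [normalizerMonoidHom_coe] at h2
      simpa using h2
    have h1 : Frob.normList (y : G) (t : G) (n + 1) =
        Frob.normList (y : G) (t : G) n * ((y : G) ^ n * (t : G) * ((y : G) ^ n)⁻¹) := by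
      unfold Frob.normList
      rw [List.range_succ, List.map_append, List.prod_append]
      simp
    have hn' : Frob.normList (y : G) (t : G) n ∈ R := by
      apply Frob.normList_mem
      · intro w hw
        have h2 := ((R.normalizerMonoidHom y ⟨w, hw⟩ : R)).2
        rwa [normalizerMonoidHom_coe] at h2
      · exact t.2
    rw [Finset.sum_range_succ]
    change (∑ x ∈ Finset.range n, (abAct R) y ^ x) (Additive.ofMul (Abelianization.of t)) +
      ((abAct R) y ^ n) (Additive.ofMul (Abelianization.of t)) = _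
    rw [ih hn']
    have h3 : ((abAct R y) ^ n) (Additive.ofMul (Abelianization.of t)) =
        Additive.ofMul (Abelianization.of (⟨(y : G) ^ n * (t : G) * ((y : G) ^ n)⁻¹, hconj⟩ : R)) := by
      rw [← map_pow, abAct_of]
      congr 2
    rw [h3, ← ofMul_mul, ← map_mul]
    have h4 : (⟨Frob.normList (y : G) (t : G) n, hn'⟩ : R) * ⟨(y : G) ^ n * (t : G) * ((y : G) ^ n)⁻¹, hconj⟩ =
        ⟨Frob.normList (y : G) (t : G) (n + 1), hn⟩ := Subtype.ext (by simp [h1])
    rw [h4]

/-- **Lemma E.** -/
theorem lemmaE (R : Subgroup G) {r p : ℕ} [hr : Fact r.Prime] (hp : p.Prime) (hrp : r ≠ p)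
    (hR : IsPGroup r R) (z a : G) (hzN : z ∈ Subgroup.normalizer (R : Set G))
    (haN : a ∈ Subgroup.normalizer (R : Set G)) (hz : IsPGroup p (zpowers z))
    (hzp : ∀ t ∈ R, z ^ p * t * (z ^ p)⁻¹ = t)
    (hza : ∀ t ∈ R, (z * a) * t * (z * a)⁻¹ = (a * z) * t * (a * z)⁻¹)
    (hnorm : ∀ i : ℕ, ∀ t ∈ R, Frob.normList (z ^ i * a) t p = 1) :
    ∀ t ∈ R, z * t * z⁻¹ = t := by
  classical
  haveI : Fact p.Prime := ⟨hp⟩
  set N := Subgroup.normalizer (R : Set G) with hNdef
  let zz : N := ⟨z, hzN⟩
  let aa : N := ⟨a, haN⟩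
  set V := Additive (Abelianization R) with hV
  haveI : Finite V := by
    change Finite (Additive (R ⧸ commutator R))
    exact Finite.of_equiv _ Additive.ofMul
  have hcardV : Nat.card V ∣ Nat.card R := by
    have h1 : Nat.card V = Nat.card (R ⧸ commutator R) := Nat.card_congr Additive.ofMul.symm
    rw [h1]
    exact Subgroup.card_quotient_dvd_card _
  have hext : ∀ f g : AddMonoid.End V,
      (∀ t : R, f (Additive.ofMul (Abelianization.of t)) = g (Additive.ofMul (Abelianization.of t))) →
      f = g := by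
    intro f g h
    ext x
    induction x using Additive.rec with
    | ofMul x =>
    refine QuotientGroup.induction_on x (fun p => ?_)
    exact h p
  have hcomm : Commute (abAct R zz) (abAct R aa) := by
    change abAct R zz * abAct R aa = abAct R aa * abAct R zz
    rw [← map_mul, ← map_mul]
    apply hext
    intro t
    rw [abAct_of, abAct_of]
    congr 2
    apply Subtype.ext
    rw [normalizerMonoidHom_coe, normalizerMonoidHom_coe]
    exact hza t t.2
  have hZp : (abAct R zz) ^ p = 1 := by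
    rw [← map_pow]
    apply hext
    intro t
    rw [abAct_of]
    have h1 : R.normalizerMonoidHom (zz ^ p) t = t := by
      apply Subtype.ext
      rw [normalizerMonoidHom_coe]
      simpa using hzp t t.2
    rw [h1]
    rfl
  have hN0 : ∀ i : ℕ, ∑ j ∈ Finset.range p, ((abAct R zz) ^ i * abAct R aa) ^ j = 0 := by
    intro i
    apply hext
    intro t
    have h1 : (abAct R zz) ^ i * abAct R aa = abAct R (zz ^ i * aa) := by
      rw [map_mul, map_pow]
    rw [h1]
    have hy : (((zz ^ i * aa : N)) : G) = z ^ i * a := by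
      simp [zz, aa]
    have h2 := hnorm i t t.2
    rw [← hy] at h2
    have hmem : Frob.normList ((zz ^ i * aa : N) : G) (t : G) p ∈ R := by
      rw [h2]; exact R.one_mem
    rw [sum_abAct R _ t p hmem]
    have : (⟨Frob.normList ((zz ^ i * aa : N) : G) (t : G) p, hmem⟩ : R) = 1 := Subtype.ext h2
    rw [this, map_one]
    rfl
  have hkey := ring_key hp _ _ hcomm hZp hN0
  -- `z` acts trivially
  have hcop : Nat.Coprime p (Nat.card V) := by
    obtain ⟨k, hk⟩ := IsPGroup.iff_card.mp hR
    rw [hk] at hcardV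
    refine Nat.Coprime.coprime_dvd_right hcardV ?_
    refine Nat.Coprime.pow_right _ ?_
    exact (Nat.coprime_primes hp hr.out).mpr (Ne.symm hrp)
  have htriv : ∀ v : V, abAct R zz v = v := by
    intro v
    have h1 : p • (abAct R zz v - v) = 0 := by
      have h2 : (((p : ℕ) : AddMonoid.End V) * (abAct R zz - 1)) v = (0 : AddMonoid.End V) v := by
        rw [hkey]
      have h3 : (((p : ℕ) : AddMonoid.End V) * (abAct R zz - 1)) v = p • (abAct R zz v - v) := by
        rw [← nsmul_eq_mul]
        rfl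
      rw [← h3, h2]
      rfl
    have h3 : addOrderOf (abAct R zz v - v) ∣ p := addOrderOf_dvd_of_nsmul_eq_zero h1
    have h4 : addOrderOf (abAct R zz v - v) ∣ Nat.card V := addOrderOf_dvd_natCard _
    have h5 : addOrderOf (abAct R zz v - v) = 1 := Nat.eq_one_of_dvd_coprimes hcop h3 h4
    have h6 : abAct R zz v - v = 0 := AddMonoid.addOrderOf_eq_one_iff.mp h5
    exact sub_eq_zero.mp h6
  have htrivn : ∀ (n : ℕ) (t : R), Abelianization.of (R.normalizerMonoidHom (zz ^ n) t) =
      Abelianization.of t := by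
    intro n t
    have h1 : (abAct R zz) ^ n = 1 := by
      have : abAct R zz = 1 := by
        apply hext
        intro t
        exact htriv _
      rw [this, one_pow]
    have h2 : ((abAct R zz) ^ n) (Additive.ofMul (Abelianization.of t)) =
        (1 : AddMonoid.End V) (Additive.ofMul (Abelianization.of t)) := by rw [h1]
    rw [← map_pow, abAct_of] at h2
    exact h2
  have hcA : (Nat.card (zpowers z)).Coprime r := by
    obtain ⟨k, hk⟩ := IsPGroup.iff_card.mp hz
    rw [hk]
    refine Nat.Coprime.pow_left _ ?_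
    exact (Nat.coprime_primes hp hr.out).mpr (Ne.symm hrp)
  have hfr := Cfsg.Agent.Lib.Coprime.FrattiniAct.le_centralizer_of_frattini (T := R) (A := zpowers z) hR
    ((zpowers_le).mpr hzN) hcA (by
      intro t ht b hb
      have hb' : b ∈ Submonoid.powers z := (mem_powers_iff_mem_zpowers).mpr hb
      obtain ⟨n, rfl⟩ := hb'
      have h1 := htrivn n ⟨t, ht⟩
      have h2 : (⟨t, ht⟩ : R)⁻¹ * (R.normalizerMonoidHom (zz ^ n) ⟨t, ht⟩) ∈ commutator R := by
        have := h1.symm
        exact QuotientGroup.eq.mp this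
      have h3 := Cfsg.Agent.Lib.PGroup.Regular.commutator_le_frattini_of_isPGroup hR h2
      refine ⟨_, h3, ?_⟩
      simp [zz])
  intro t ht
  have h1 := Subgroup.mem_centralizer_iff.mp (hfr (Subgroup.mem_zpowers z)) t ht
  rw [← h1]
  group

end LemmaE


section Main

universe u

/-- A nilpotent group has a normal `q`-complement. -/
theorem hnpc_of_isNilpotent {X : Type*} [Group X] [Finite X] {q : ℕ} [hq : Fact q.Prime]
    (h : Group.IsNilpotent X) : HasNormalPComplement q X := by
  classical
  refine Cfsg.Agent.Lib.Transfer.Basic.hasNormalPComplement_iff.mpr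
    ⟨pPrimeCore q X, inferInstance, Cfsg.Agent.Lib.Solvable.PSeries.pPrimeCore_coprime q, ?_⟩
  refine IsPGroup.of_card (n := (Nat.card (X ⧸ pPrimeCore q X)).primeFactorsList.length) ?_
  refine Nat.eq_prime_pow_of_unique_prime_dvd Nat.card_pos.ne' ?_
  intro d hd hdvd
  by_contra hdq
  haveI : Fact d.Prime := ⟨hd⟩
  let P : Sylow d X := default
  have hPn : (P : Subgroup X).Normal := inferInstance
  have hcop : (Nat.card (P : Subgroup X)).Coprime q := by
    obtain ⟨k, hk⟩ := IsPGroup.iff_card.mp P.isPGroup'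
    rw [hk]
    exact Nat.Coprime.pow_left _ ((Nat.coprime_primes hd hq.out).mpr hdq)
  have hle : (P : Subgroup X) ≤ pPrimeCore q X :=
    Cfsg.Agent.Lib.Basic.PCore.le_pPrimeCore hPn hcop
  have h1 : (pPrimeCore q X).index ∣ (P : Subgroup X).index := Subgroup.index_dvd_of_le hle
  have h2 : d ∣ (pPrimeCore q X).index := by
    rw [Subgroup.index]
    exact hdvd
  exact P.not_dvd_index (h2.trans h1)

/-- Commutators and conjugation. -/
theorem conj_mem_commutator {G : Type*} [Group G] {S Q : Subgroup G} {x : G}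
    (hS : ∀ s ∈ S, x * s * x⁻¹ ∈ S) (hQ : ∀ u ∈ Q, x * u * x⁻¹ ∈ Q) {v : G} (hv : v ∈ ⁅S, Q⁆) :
    x * v * x⁻¹ ∈ ⁅S, Q⁆ := by
  let f : G →* G := (MulAut.conj x).toMonoidHom
  have h1 : (⁅S, Q⁆ : Subgroup G).map f = ⁅S.map f, Q.map f⁆ := Subgroup.map_commutator S Q f
  have h2 : S.map f ≤ S := by
    rintro _ ⟨s, hs, rfl⟩
    exact hS s hs
  have h3 : Q.map f ≤ Q := by
    rintro _ ⟨s, hs, rfl⟩
    exact hQ s hs
  have h4 : (⁅S, Q⁆ : Subgroup G).map f ≤ ⁅S, Q⁆ := by
    rw [h1]
    exact Subgroup.commutator_mono h2 h3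
  exact h4 ⟨v, hv, rfl⟩

variable {G : Type u} [Group G] [Finite G]

/-- The induction hypothesis. -/
abbrev IHyp (p n : ℕ) : Prop :=
  ∀ (G' : Type u) [Group G'] [Finite G'], Nat.card G' < n → ∀ H' : Subgroup G', H'.Normal →
    H'.index = p → (∀ g, g ∉ H' → g ^ p = 1) → Group.IsNilpotent H'

theorem nilp_of_le {p : ℕ} (hp : p.Prime) (ih : IHyp.{u} p (Nat.card G)) (H : Subgroup G)
    (hHn : H.Normal) (hidx : H.index = p) (hout : ∀ g, g ∉ H → g ^ p = 1)
    (L : Subgroup G) (hL : L ≠ ⊤) (hLH : ¬ L ≤ H) (M : Subgroup G) (hMH : M ≤ H) (hML : M ≤ L) :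
    Group.IsNilpotent M := by
  classical
  have hcard : Nat.card L < Nat.card G := by
    have h1 := L.card_mul_index
    have h2 : L.index ≠ 1 := fun h => hL (Subgroup.index_eq_one.mp h)
    have h3 : L.index ≠ 0 := Subgroup.index_ne_zero_of_finite
    have h4 : 0 < Nat.card L := Nat.card_pos
    nlinarith [Nat.lt_of_le_of_ne (Nat.pos_of_ne_zero h3) (Ne.symm h2)]
  haveI := hHn
  have hi : (H.subgroupOf L).index = p := by
    have h1 : H.relIndex L ∣ H.index := Subgroup.relIndex_dvd_index_of_normal H L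
    rw [hidx] at h1
    rcases (Nat.dvd_prime hp).mp h1 with h2 | h2
    · exact absurd (Subgroup.relIndex_eq_one.mp h2) hLH
    · exact h2
  have hout' : ∀ g : L, g ∉ H.subgroupOf L → g ^ p = 1 := by
    intro g hg
    rw [Subgroup.mem_subgroupOf] at hg
    exact Subtype.ext (by simpa using hout _ hg)
  haveI hN := ih L hcard (H.subgroupOf L) inferInstance hi hout'
  let S : Subgroup (H.subgroupOf L) := M.comap (L.subtype.comp (H.subgroupOf L).subtype)
  let f : S →* M :=
    { toFun := fun s => ⟨((s : H.subgroupOf L) : L), s.2⟩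
      map_one' := rfl
      map_mul' := fun _ _ => rfl }
  refine Group.nilpotent_of_surjective f ?_
  rintro ⟨m, hm⟩
  refine ⟨⟨⟨⟨m, hML hm⟩, ?_⟩, ?_⟩, rfl⟩
  · rw [Subgroup.mem_subgroupOf]
    exact hMH hm
  · exact hm

theorem eq_top_of_le_of_not_mem {p : ℕ} (hp : p.Prime) (H : Subgroup G) (hidx : H.index = p)
    (K : Subgroup G) (hK : H ≤ K) {y : G} (hyK : y ∈ K) (hyH : y ∉ H) : K = ⊤ := by
  have h1 : K.index ∣ H.index := Subgroup.index_dvd_of_le hK
  rw [hidx] at h1
  rcases (Nat.dvd_prime hp).mp h1 with h2 | h2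
  · exact Subgroup.index_eq_one.mp h2
  · exfalso
    have h3 := Subgroup.relIndex_mul_index hK
    rw [hidx, h2] at h3
    have h4 : H.relIndex K = 1 := by
      have : H.relIndex K * p = 1 * p := by rw [h3, one_mul]
      exact Nat.eq_of_mul_eq_mul_right hp.pos this
    exact hyH (Subgroup.relIndex_eq_one.mp h4 hyK)

theorem nilp_of_normalized {p : ℕ} (hp : p.Prime) (ih : IHyp.{u} p (Nat.card G)) (H : Subgroup G)
    (hHn : H.Normal) (hidx : H.index = p) (hout : ∀ g, g ∉ H → g ^ p = 1)
    (M : Subgroup G) (hMH : M ≤ H) (hne : M ≠ H) {x : G} (hx : x ∉ H)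
    (hxM : x ∈ Subgroup.normalizer (M : Set G)) : Group.IsNilpotent M := by
  classical
  by_cases hN : Subgroup.normalizer (M : Set G) = ⊤
  · have hMn : M.Normal := Subgroup.normalizer_eq_top_iff.mp hN
    haveI := hMn
    refine nilp_of_le hp ih H hHn hidx hout (Subgroup.zpowers x ⊔ M) ?_ ?_ M hMH le_sup_right
    · intro htop
      have h1 := Subgroup.relIndex_sup_right (Subgroup.zpowers x) M
      rw [htop, Subgroup.relIndex_top_right] at h1
      have h2 : M.relIndex (Subgroup.zpowers x) ∣ Nat.card (Subgroup.zpowers x) :=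
        Subgroup.index_dvd_card _
      have h3 : Nat.card (Subgroup.zpowers x) ∣ p := by
        rw [Nat.card_zpowers]
        exact orderOf_dvd_of_pow_eq_one (hout x hx)
      have h4 : M.index ∣ p := by
        rw [h1]
        exact h2.trans h3
      have h5 := Subgroup.relIndex_mul_index hMH
      have h6 : M.relIndex H ≠ 1 := fun h => hne (le_antisymm hMH (Subgroup.relIndex_eq_one.mp h))
      have h7 : M.relIndex H ≠ 0 := by
        intro h0
        rw [h0, zero_mul] at h5
        exact (Subgroup.index_ne_zero_of_finite (H := M)) h5.symm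
      rw [hidx] at h5
      have h8 : M.index ≤ p := Nat.le_of_dvd hp.pos h4
      have h9 : 2 * p ≤ M.relIndex H * p := Nat.mul_le_mul_right _ (by omega)
      have := hp.pos
      omega
    · intro hle
      exact hx (hle (Subgroup.mem_sup_left (Subgroup.mem_zpowers x)))
  · exact nilp_of_le hp ih H hHn hidx hout _ hN (fun hle => hx (hle hxM)) M hMH
      Subgroup.le_normalizer

theorem nilp_quot {p : ℕ} (hp : p.Prime) (ih : IHyp.{u} p (Nat.card G)) (H : Subgroup G)
    (hHn : H.Normal) (hidx : H.index = p) (hout : ∀ g, g ∉ H → g ^ p = 1)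
    (N : Subgroup G) [hNn : N.Normal] (hN1 : N ≠ ⊥) (hNH : N ≤ H) :
    Group.IsNilpotent (H.map (QuotientGroup.mk' N)) := by
  classical
  have hcard : Nat.card (G ⧸ N) < Nat.card G := by
    have h1 := N.card_mul_index
    have h2 : Nat.card N ≠ 1 := by
      intro h
      exact hN1 ((Subgroup.eq_bot_iff_card N).mpr h)
    have h3 : 0 < Nat.card N := Nat.card_pos
    have h4 : 0 < N.index := Nat.pos_of_ne_zero Subgroup.index_ne_zero_of_finite
    have h5 : Nat.card (G ⧸ N) = N.index := rfl
    rw [h5]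
    nlinarith [Nat.lt_of_le_of_ne h3 (Ne.symm h2)]
  refine ih (G ⧸ N) hcard _ (Subgroup.Normal.map hHn _ (QuotientGroup.mk'_surjective N)) ?_ ?_
  · rw [Subgroup.index_map]
    have : (QuotientGroup.mk' N).ker = N := QuotientGroup.ker_mk' N
    rw [this, sup_eq_left.mpr hNH, MonoidHom.range_eq_top.mpr (QuotientGroup.mk'_surjective N),
      Subgroup.index_top, mul_one]
    exact hidx
  · intro g
    obtain ⟨g, rfl⟩ := QuotientGroup.mk_surjective g
    intro hg
    have : g ∉ H := fun h => hg ⟨g, h, rfl⟩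
    rw [← QuotientGroup.mk_pow, hout g this]
    rfl

/-- A nilpotency criterion. -/
theorem nilpotent_of_commuting {X : Type*} [Group X] [Finite X] {q : ℕ} [hq : Fact q.Prime]
    (N : Subgroup X) [hN : N.Normal] (hnil : Group.IsNilpotent N) (hpow : IsPGroup q (X ⧸ N))
    (Q : Sylow q X)
    (hc : ∀ r : ℕ, r.Prime → r ≠ q → ∀ S : Subgroup X, S ≤ N → IsPGroup r S →
      ∀ s ∈ S, ∀ u ∈ (Q : Subgroup X), s * u = u * s) : Group.IsNilpotent X := by
  classical
  have hS : ∀ r : ℕ, r.Prime → r ≠ q → ∃ S' : Subgroup X, S' ≤ N ∧ S'.Normal ∧ IsPGroup r S' ∧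
      ¬ r ∣ S'.index := by
    intro r hr hrq
    haveI : Fact r.Prime := ⟨hr⟩
    let S : Sylow r N := default
    have hSn : (S : Subgroup N).Normal := inferInstance
    haveI hch := Sylow.characteristic_of_normal S hSn
    refine ⟨(S : Subgroup N).map N.subtype, Subgroup.map_subtype_le _,
      Cfsg.Agent.Lib.Basic.PCore.map_subtype_normal_of_characteristic _, S.isPGroup'.map _, ?_⟩
    rw [Subgroup.index_map_subtype]
    refine Nat.Prime.not_dvd_mul hr S.not_dvd_index ?_
    obtain ⟨k, hk⟩ := IsPGroup.iff_card.mp hpow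
    have h1 : N.index = q ^ k := hk
    rw [h1]
    intro h2
    exact hrq ((Nat.prime_dvd_prime_iff_eq hr hq.out).mp (hr.dvd_of_dvd_pow h2))
  have hQn : (Q : Subgroup X).Normal := by
    rw [← Subgroup.normalizer_eq_top_iff, ← Subgroup.index_eq_one]
    by_contra h
    obtain ⟨l, hl, hd⟩ := Nat.exists_prime_and_dvd h
    by_cases hlq : l = q
    · subst hlq
      exact Q.not_dvd_index (hd.trans (Subgroup.index_dvd_of_le Subgroup.le_normalizer))
    · obtain ⟨S', hS'N, -, hS'p, hS'i⟩ := hS l hl hlq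
      have hle : S' ≤ Subgroup.normalizer ((Q : Subgroup X) : Set X) := by
        intro s hs
        rw [Subgroup.mem_normalizer_iff]
        intro u
        have hcomm := hc l hl hlq S' hS'N hS'p s hs
        constructor
        · intro hu
          have : s * u * s⁻¹ = u := by rw [hcomm u hu]; group
          rwa [this]
        · intro hu
          have h1 := hcomm _ hu
          have : u = s * u * s⁻¹ := by
            have h2 : s * (s * u * s⁻¹) * s⁻¹ = s * u * s⁻¹ := by
              rw [h1]; group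
            have h3 : s * (s * u * s⁻¹) * s⁻¹ = s * (s * u * s⁻¹ * s⁻¹) := by group
            rw [h3] at h2
            have h4 := mul_left_cancel (a := s) (b := s * u * s⁻¹ * s⁻¹) (c := u * s⁻¹) (by
              rw [h2]; group)
            have h5 : s * u * s⁻¹ = u := mul_right_cancel (b := s⁻¹) h4
            exact h5.symm
          rwa [this]
      exact hS'i (hd.trans (Subgroup.index_dvd_of_le hle))
  refine (Group.isNilpotent_of_finite_tfae.out 3 0).mp ?_
  intro r hrF P
  by_cases hrq : r = q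
  · subst hrq
    letI := Sylow.unique_of_normal Q hQn
    rw [Subsingleton.elim P Q]
    exact hQn
  · obtain ⟨S', -, hS'n, hS'p, hS'i⟩ := hS r hrF.out hrq
    let T : Sylow r X := hS'p.toSylow hS'i
    have hTn : (T : Subgroup X).Normal := hS'n
    letI := Sylow.unique_of_normal T hTn
    rw [Subsingleton.elim P T]
    exact hTn

/-- Fixed points: the case `q ≠ p`. -/
theorem comm_of_ne {p q r : ℕ} [hq : Fact q.Prime] [hr : Fact r.Prime] (hp : p.Prime)
    (H : Subgroup G) (hHn : H.Normal) (hout : ∀ g, g ∉ H → g ^ p = 1) (hqp : q ≠ p) (hrq : r ≠ q)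
    (S Q : Subgroup G) (hSn : S.Normal) (hSH : S ≤ H) (hSr : IsPGroup r S) (hQH : Q ≤ H)
    (hQq : IsPGroup q Q) (x : G) (hx : x ∉ H) (hxQ : x ∈ Subgroup.normalizer (Q : Set G)) :
    ∀ s ∈ S, ∀ u ∈ Q, s * u = u * s := by
  classical
  have hQS : Q ≤ Subgroup.normalizer (S : Set G) := by
    rw [Subgroup.normalizer_eq_top_iff.mpr hSn]
    exact le_top
  set W : Subgroup G := ⁅S, Q⁆ with hW
  have hWS : W ≤ S := Cfsg.Agent.Lib.Coprime.Coset.commutator_le_left_of_le_normalizer hQS
  have hWr : IsPGroup r W := hSr.to_le hWS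
  have hcop : (Nat.card Q).Coprime (Nat.card S) := by
    obtain ⟨a, ha⟩ := IsPGroup.iff_card.mp hQq
    obtain ⟨b, hb⟩ := IsPGroup.iff_card.mp hSr
    rw [ha, hb]
    exact Nat.Coprime.pow _ _ ((Nat.coprime_primes hq.out hr.out).mpr (Ne.symm hrq))
  have hsolv : Group.IsSolvable Q ∨ Group.IsSolvable S := by
    left
    haveI := hQq.isNilpotent
    infer_instance
  have hWeq : ⁅W, Q⁆ = W := Cfsg.Agent.Lib.Coprime.Coset.commutator_commutator_eq hQS hcop hsolv
  have hQW : Q ≤ Subgroup.normalizer (W : Set G) :=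
    Cfsg.Agent.Lib.Coprime.Coset.commutator_le_normalizer_right hQS
  have hconjS : ∀ s ∈ S, x * s * x⁻¹ ∈ S := fun s hs => hSn.conj_mem s hs x
  have hconjQ : ∀ u ∈ Q, x * u * x⁻¹ ∈ Q :=
    fun u hu => Cfsg.Agent.Lib.Coprime.FrobKey.conj_mem hxQ hu
  have hxW : x ∈ Subgroup.normalizer (W : Set G) :=
    Cfsg.Agent.Lib.Coprime.Three.mem_normalizer_of_conj_mem
      (fun v hv => conj_mem_commutator hconjS hconjQ hv)
  set Z : Subgroup G := ⁅W, W⁆ with hZ
  have hZW : Z ≤ W := Cfsg.Agent.Lib.PGroup.Regular.commutator_self_le W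
  have hnZ : ∀ g ∈ Subgroup.normalizer (W : Set G), g ∈ Subgroup.normalizer (Z : Set G) := by
    intro g hg
    have h1 : ∀ v ∈ W, g * v * g⁻¹ ∈ W :=
      fun v hv => Cfsg.Agent.Lib.Coprime.FrobKey.conj_mem hg hv
    exact Cfsg.Agent.Lib.Coprime.Three.mem_normalizer_of_conj_mem
      (fun v hv => conj_mem_commutator h1 h1 hv)
  have hT : ¬ r ∣ Nat.card Q := by
    obtain ⟨a, ha⟩ := IsPGroup.iff_card.mp hQq
    rw [ha]
    intro h
    exact hrq ((Nat.prime_dvd_prime_iff_eq hr.out hq.out).mp (hr.out.dvd_of_dvd_pow h))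
  have hfpf : ∀ i, 0 < i → i < p → ∀ t ∈ Q, x ^ i * t * (x ^ i)⁻¹ = t → t = 1 := by
    intro i hi hip t ht hfix
    have hxp := hout x hx
    have hxi : x ^ i ∉ H := by
      intro hmem
      have hcopi : Nat.Coprime i p :=
        Nat.coprime_comm.mp ((Nat.Prime.coprime_iff_not_dvd hp).mpr
          (fun h => (Nat.not_lt.mpr (Nat.le_of_dvd hi h)) hip))
      obtain ⟨u, -, hu⟩ := Nat.exists_mul_mod_eq_one_of_coprime hcopi hp.one_lt
      have h1 : (x ^ i) ^ u = x := by
        rw [← pow_mul]
        conv_lhs => rw [← Nat.div_add_mod (i * u) p]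
        rw [pow_add, pow_mul, hxp, one_pow, one_mul, hu, pow_one]
      exact hx (h1 ▸ H.pow_mem hmem u)
    have hmul : x ^ i * t ∉ H := fun h => hxi (by
      have h1 := H.mul_mem h (H.inv_mem (hQH ht))
      simpa using h1)
    have h1 := hout _ hmul
    have hc : Commute (x ^ i) t := by
      change x ^ i * t = t * x ^ i
      calc x ^ i * t = (x ^ i * t * (x ^ i)⁻¹) * x ^ i := by group
        _ = t * x ^ i := by rw [hfix]
    rw [hc.mul_pow, ← pow_mul, mul_comm i p, pow_mul, hxp, one_pow, one_mul] at h1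
    obtain ⟨k, hk⟩ := (IsPGroup.iff_orderOf.mp hQq) ⟨t, ht⟩
    have h2 : orderOf t = q ^ k := by rw [← hk, Subgroup.orderOf_mk]
    have h3 : orderOf t ∣ p := orderOf_dvd_of_pow_eq_one h1
    rcases (Nat.dvd_prime hp).mp h3 with h4 | h4
    · exact orderOf_eq_one_iff.mp h4
    · exfalso
      rw [h2] at h4
      have : q ∣ p := by
        rw [← h4]
        refine dvd_pow_self q ?_
        rintro rfl
        rw [pow_zero] at h4
        exact hp.one_lt.ne h4
      exact hqp ((Nat.prime_dvd_prime_iff_eq hq.out hp).mp this)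
  have hNorm : ∀ w ∈ W, Cfsg.Agent.Lib.Coprime.Frob.normList x w p ∈ Z := by
    intro w hw
    rw [normList_eq]
    have h1 : w * x ∉ H := fun h => hx (by
      have := H.mul_mem (H.inv_mem (hSH (hWS hw))) h
      simpa using this)
    rw [hout _ h1, hout x hx]
    simp [Z.one_mem]
  have hle : W ≤ Z := Cfsg.Agent.Lib.Coprime.FrobKey.le_of_norm_mem W Z Q x r p hZW hWr hT hQW
    (fun t ht => hnZ t (hQW ht)) hxW (hnZ x hxW) hxQ
    (fun a ha b hb => Subgroup.commutator_mem_commutator ha hb) hp.pos hfpf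
    (by rw [hWeq]; exact le_sup_left) hNorm
  have hWbot : W = ⊥ := by
    by_cases hnc : ∃ u ∈ W, ∃ v ∈ W, u * v ≠ v * u
    · exact absurd hle (not_le_of_gt (Cfsg.Agent.Lib.PGroup.Regular.commutator_lt hWr hnc))
    · push_neg at hnc
      have h1 : Z = ⊥ := by
        rw [eq_bot_iff, hZ, Subgroup.commutator_le]
        intro u hu v hv
        rw [Subgroup.mem_bot, commutatorElement_eq_one_iff_mul_comm]
        exact hnc u hu v hv
      rw [h1] at hle
      exact le_bot_iff.mp hle
  intro s hs u hu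
  have h1 : ⁅s, u⁆ ∈ W := Subgroup.commutator_mem_commutator hs hu
  rw [hWbot, Subgroup.mem_bot, commutatorElement_eq_one_iff_mul_comm] at h1
  exact h1

/-- An element of a `p`-subgroup has a power of prime order fixing the same things. -/
theorem exists_pow_order_p {Γ : Type*} [Group Γ] [Finite Γ] {p : ℕ} (hp : p.Prime) (y : Γ)
    (hy : y ≠ 1) (k : ℕ) (hk : orderOf y = p ^ k) :
    ∃ m : ℕ, y ^ m ≠ 1 ∧ (y ^ m) ^ p = 1 := by
  obtain ⟨n, rfl⟩ : ∃ n, k = n + 1 := by
    cases k with
    | zero =>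
      rw [pow_zero] at hk
      exact absurd (orderOf_eq_one_iff.mp hk) hy
    | succ n => exact ⟨n, rfl⟩
  refine ⟨p ^ n, ?_, ?_⟩
  · intro h
    have h1 := orderOf_dvd_of_pow_eq_one h
    rw [hk] at h1
    have h2 := Nat.le_of_dvd (pow_pos hp.pos n) h1
    have h3 : p ^ n < p ^ (n + 1) := Nat.pow_lt_pow_right hp.one_lt (Nat.lt_succ_self n)
    omega
  · rw [← pow_mul, ← pow_succ, ← hk]
    exact pow_orderOf_eq_one y

/-- The case `q = p`. -/
theorem comm_of_eq {p r : ℕ} [hr : Fact r.Prime] (hp : p.Prime)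
    (H : Subgroup G) (hout : ∀ g, g ∉ H → g ^ p = 1) (hrp : r ≠ p)
    (S Q : Subgroup G) (hSn : S.Normal) (hSH : S ≤ H) (hSr : IsPGroup r S) (hQH : Q ≤ H)
    (hQp : IsPGroup p Q) (a : G) (ha : a ∉ H) (haQ : a ∈ Subgroup.normalizer (Q : Set G)) :
    ∀ s ∈ S, ∀ u ∈ Q, s * u = u * s := by
  classical
  haveI hpF : Fact p.Prime := ⟨hp⟩
  haveI := hSn
  by_contra hcon
  push_neg at hcon
  obtain ⟨s₀, hs₀, u₀, hu₀, hne⟩ := hcon
  let φ : G →* MulAut S := MulAut.conjNormal
  have hφ : ∀ (g : G) (t : S), ((φ g t : S) : G) = g * t * g⁻¹ := fun g t =>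
    MulAut.conjNormal_apply g t
  set Y : Subgroup (MulAut S) := Q.map φ with hY
  have hYp : IsPGroup p Y := hQp.map φ
  have hu₀φ : φ u₀ ≠ 1 := by
    intro h
    have h1 := hφ u₀ ⟨s₀, hs₀⟩
    rw [h] at h1
    simp only [MulAut.one_apply] at h1
    apply hne
    have h2 : s₀ = u₀ * s₀ * u₀⁻¹ := h1
    calc s₀ * u₀ = (u₀ * s₀ * u₀⁻¹) * u₀ := by rw [← h2]
      _ = u₀ * s₀ := by group
  have hYne : Y ≠ ⊥ := by
    intro h
    have : φ u₀ ∈ Y := ⟨u₀, hu₀, rfl⟩
    rw [h, Subgroup.mem_bot] at this
    exact hu₀φ this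
  have hap := hout a ha
  have hxp : IsPGroup p (Subgroup.zpowers (φ a)) := by
    rintro ⟨g, hg⟩
    obtain ⟨n, rfl⟩ := Subgroup.mem_zpowers_iff.mp hg
    refine ⟨1, Subtype.ext ?_⟩
    have h1 : (φ a) ^ p = 1 := by rw [← map_pow, hap, map_one]
    simp only [pow_one, SubmonoidClass.mk_pow, OneMemClass.coe_one]
    rw [← zpow_natCast, ← zpow_mul, mul_comm, zpow_mul, zpow_natCast, h1, one_zpow]
  have hxY : φ a ∈ Subgroup.normalizer (Y : Set (MulAut S)) := by
    apply Cfsg.Agent.Lib.Coprime.Three.mem_normalizer_of_conj_mem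
    rintro _ ⟨u, hu, rfl⟩
    refine ⟨a * u * a⁻¹, Cfsg.Agent.Lib.Coprime.FrobKey.conj_mem haQ hu, ?_⟩
    simp [map_mul, map_inv]
  obtain ⟨y, hyY, hy1, hyfix⟩ := Cfsg.Agent.Lib.Coprime.FrobKey.exists_fixed_of_pelement
    Y hYp hYne (φ a) hxp hxY
  obtain ⟨u₁, hu₁, rfl⟩ := hyY
  have hmemY : φ u₁ ∈ Y := ⟨u₁, hu₁, rfl⟩
  obtain ⟨k, hk⟩ := (IsPGroup.iff_orderOf.mp hYp) ⟨φ u₁, hmemY⟩
  have hk' : orderOf (φ u₁) = p ^ k := by rw [← hk, Subgroup.orderOf_mk]
  obtain ⟨m, hm1, hm2⟩ := exists_pow_order_p hp (φ u₁) hy1 k hk'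
  set z := u₁ ^ m with hz
  have hzQ : z ∈ Q := Q.pow_mem hu₁ m
  have hφz : φ z = φ u₁ ^ m := map_pow φ u₁ m
  have hcomm : φ z * φ a = φ a * φ z := by
    rw [hφz]
    have h1 : φ a * φ u₁ * (φ a)⁻¹ = φ u₁ := hyfix
    have h2 : Commute (φ a) (φ u₁) := by
      change φ a * φ u₁ = φ u₁ * φ a
      calc φ a * φ u₁ = (φ a * φ u₁ * (φ a)⁻¹) * φ a := by group
        _ = φ u₁ * φ a := by rw [h1]
    exact (h2.pow_right m).eq.symm
  have hzout : ∀ i : ℕ, z ^ i * a ∉ H := by
    intro i hi
    have h1 := H.mul_mem (H.inv_mem (H.pow_mem (hQH hzQ) i)) hi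
    apply ha
    simpa using h1
  have hE := lemmaE S (r := r) (p := p) hp hrp hSr z a
    (by rw [Subgroup.normalizer_eq_top_iff.mpr hSn]; trivial)
    (by rw [Subgroup.normalizer_eq_top_iff.mpr hSn]; trivial)
    (hQp.to_le ((Subgroup.zpowers_le).mpr hzQ))
    (by
      intro t ht
      have h1 := hφ (z ^ p) ⟨t, ht⟩
      rw [map_pow, hφz, hm2] at h1
      exact h1.symm)
    (by
      intro t ht
      have h1 := hφ (z * a) ⟨t, ht⟩
      have h2 := hφ (a * z) ⟨t, ht⟩
      rw [map_mul] at h1 h2
      rw [hcomm] at h1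
      rw [← h1, ← h2])
    (by
      intro i t ht
      rw [normList_eq]
      have h1 : t * (z ^ i * a) ∉ H := fun h => hzout i (by
        have := H.mul_mem (H.inv_mem (hSH ht)) h
        simpa using this)
      rw [hout _ h1, hout _ (hzout i)]
      simp)
  apply hm1
  rw [← hφz]
  ext t
  have h1 := hφ z t
  rw [hE t t.2] at h1
  simpa using h1

/-- The "simple" case. -/
theorem false_of_simple {p : ℕ} (hp : p.Prime) (ih : IHyp.{u} p (Nat.card G)) (H : Subgroup G)
    (hHn : H.Normal) (hidx : H.index = p) (hout : ∀ g, g ∉ H → g ^ p = 1)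
    (hnil : ¬ Group.IsNilpotent H)
    (hsimple : ∀ N : Subgroup G, N.Normal → N ≤ H → N = ⊥ ∨ N = H) : False := by
  classical
  haveI := hHn
  have hnormal_of_char : ∀ T : Subgroup H, T.Characteristic → (T.map H.subtype).Normal := by
    intro T hT
    haveI := hT
    exact Cfsg.Agent.Lib.Basic.PCore.map_subtype_normal_of_characteristic T
  have hmap_eq_H : ∀ T : Subgroup H, T.map H.subtype = H → T = ⊤ := by
    intro T hT
    rw [eq_top_iff]
    rintro ⟨h, hh⟩ -
    rw [← hT] at hh
    obtain ⟨t, ht, hte⟩ := hh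
    have : t = ⟨h, by rw [← hT]; exact ⟨t, ht, hte⟩⟩ := Subtype.ext hte
    rw [← this]
    exact ht
  have hmap_eq_bot : ∀ T : Subgroup H, T.map H.subtype = ⊥ → T = ⊥ := by
    intro T hT
    rw [eq_bot_iff]
    intro t ht
    have : (t : G) ∈ T.map H.subtype := ⟨t, ht, rfl⟩
    rw [hT, Subgroup.mem_bot] at this
    exact Subgroup.mem_bot.mpr (Subtype.ext this)
  by_cases hq : ∃ q : ℕ, q.Prime ∧ 5 ≤ q ∧ q ∣ Nat.card H
  · obtain ⟨q, hqp, hq5, hqd⟩ := hq
    haveI hqF : Fact q.Prime := ⟨hqp⟩
    have hHq : ¬ IsPGroup q H := fun h => hnil h.isNilpotent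
    let P : Sylow q H := default
    set Pt : Subgroup G := (P : Subgroup H).map H.subtype with hPt
    have hfr : Subgroup.normalizer (Pt : Set G) ⊔ H = ⊤ := Sylow.normalizer_sup_eq_top P
    have hHne : H ≠ ⊤ := by
      intro h
      rw [h, Subgroup.index_top] at hidx
      exact hp.one_lt.ne hidx
    obtain ⟨x, hxN, hxH⟩ : ∃ x ∈ Subgroup.normalizer (Pt : Set G), x ∉ H := by
      by_contra hcon
      push_neg at hcon
      apply hHne
      have : Subgroup.normalizer (Pt : Set G) ≤ H := fun y hy => hcon y hy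
      rw [sup_eq_right.mpr this] at hfr
      exact hfr
    let α : MulAut H := MulAut.conjNormal x
    have hα : ∀ y : H, ((α y : H) : G) = x * y * x⁻¹ := fun y => MulAut.conjNormal_apply x y
    have hαP : ∀ y : H, y ∈ (P : Subgroup H) ↔ α y ∈ (P : Subgroup H) := by
      intro y
      have h1 : ∀ w : H, w ∈ (P : Subgroup H) ↔ (w : G) ∈ Pt := by
        intro w
        constructor
        · intro hw
          exact ⟨w, hw, rfl⟩
        · rintro ⟨w', hw', he⟩
          have : w' = w := Subtype.ext he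
          rwa [← this]
      rw [h1, h1, hα]
      exact (Subgroup.mem_normalizer_iff.mp hxN) y
    have hαPmap : (P : Subgroup H).map α.toMonoidHom = (P : Subgroup H) := by
      ext y
      constructor
      · rintro ⟨w, hw, rfl⟩
        exact (hαP w).mp hw
      · intro hy
        refine ⟨α⁻¹ y, (hαP _).mpr ?_, ?_⟩
        · simpa using hy
        · simp
    set J : Subgroup H := Cfsg.Agent.Lib.PGroup.ZJ.ZZ 0 (P : Subgroup H) with hJ
    have hαJ : J.map α.toMonoidHom = J := by
      rw [hJ, Cfsg.Agent.Lib.Thompson.Transport.ZZ_map_of_injOn α.toMonoidHom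
        (fun a _ b _ hab => α.injective hab), hαPmap]
    have hαJ' : ∀ y : H, y ∈ J ↔ α y ∈ J := by
      intro y
      constructor
      · intro hy
        rw [← hαJ]
        exact ⟨y, hy, rfl⟩
      · intro hy
        rw [← hαJ] at hy
        obtain ⟨w, hw, he⟩ := hy
        have : w = y := α.injective he
        rwa [← this]
    have hPne : (P : Subgroup H) ≠ ⊥ := by
      intro hbot
      have h1 := P.not_dvd_index
      rw [hbot, Subgroup.index_bot] at h1
      exact h1 hqd
    have hJne : J ≠ ⊥ := Cfsg.Agent.Lib.Thompson.Transport.ZZ_ne_bot P.isPGroup' hPne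
    have hJP : J ≤ (P : Subgroup H) := Cfsg.Agent.Lib.PGroup.ZJ.ZZ_le_self 0 _
    set M : Subgroup H := Subgroup.normalizer (J : Set H) with hM
    have hMnil : HasNormalPComplement q M := by
      by_cases hMtop : M = ⊤
      · exfalso
        have hJn : J.Normal := Subgroup.normalizer_eq_top_iff.mp hMtop
        have hJt : (J.map H.subtype).Normal := by
          have hle : H ≤ Subgroup.normalizer ((J.map H.subtype : Subgroup G) : Set G) := by
            intro h hh
            apply Cfsg.Agent.Lib.Coprime.Three.mem_normalizer_of_conj_mem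
            rintro _ ⟨j, hj, rfl⟩
            refine ⟨⟨h, hh⟩ * j * (⟨h, hh⟩ : H)⁻¹, hJn.conj_mem j hj _, ?_⟩
            simp
          have hx1 : x ∈ Subgroup.normalizer ((J.map H.subtype : Subgroup G) : Set G) := by
            apply Cfsg.Agent.Lib.Coprime.Three.mem_normalizer_of_conj_mem
            rintro _ ⟨j, hj, rfl⟩
            refine ⟨α j, (hαJ' j).mp hj, ?_⟩
            simpa using hα j
          rw [← Subgroup.normalizer_eq_top_iff]
          exact eq_top_of_le_of_not_mem hp H hidx _ hle hx1 hxH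
        rcases hsimple _ hJt (Subgroup.map_subtype_le _) with h | h
        · exact hJne (hmap_eq_bot _ h)
        · have h1 := hmap_eq_H _ h
          apply hHq
          have h2 : (⊤ : Subgroup H) ≤ P := by rw [← h1]; exact hJP
          have h3 : IsPGroup q (⊤ : Subgroup H) := P.isPGroup'.to_le h2
          exact IsPGroup.of_equiv h3 Subgroup.topEquiv
      · have hMt : M.map H.subtype ≠ H := fun h => hMtop (hmap_eq_H _ h)
        have hx1 : x ∈ Subgroup.normalizer ((M.map H.subtype : Subgroup G) : Set G) := by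
          apply Cfsg.Agent.Lib.Coprime.Three.mem_normalizer_of_conj_mem
          rintro _ ⟨n, hn, rfl⟩
          refine ⟨α n, ?_, ?_⟩
          · change α n ∈ Subgroup.normalizer (J : Set H)
            rw [Subgroup.mem_normalizer_iff]
            intro j
            have hn0 : n ∈ Subgroup.normalizer (J : Set H) := hn
            have hn' := (Subgroup.mem_normalizer_iff.mp hn0) (α⁻¹ j)
            have hj1 : α⁻¹ j ∈ J ↔ j ∈ J := by
              rw [hαJ' (α⁻¹ j)]
              simp
            have hj2 : n * α⁻¹ j * n⁻¹ ∈ J ↔ α n * j * (α n)⁻¹ ∈ J := by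
              rw [hαJ' (n * α⁻¹ j * n⁻¹)]
              simp
            rw [← hj1, hn', hj2]
          · simpa using hα n
        have h1 := nilp_of_normalized hp ih H hHn hidx hout (M.map H.subtype)
          (Subgroup.map_subtype_le _) hMt hxH hx1
        have h2 : Group.IsNilpotent M :=
          Group.nilpotent_of_surjective
            (M.equivMapOfInjective H.subtype H.subtype_injective).symm.toMonoidHom
            (M.equivMapOfInjective H.subtype H.subtype_injective).symm.surjective
        exact hnpc_of_isNilpotent h2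
    have hGT : HasNormalPComplement q H := by
      refine Cfsg.Agent.Lib.Thompson.GT.hasNormalPComplement_of_normalizer_ZJ hq5 P ?_
      rw [Cfsg.Agent.Lib.PGroup.ZJ.centerThompsonAOf_eq]
      exact hMnil
    obtain ⟨N, hN, h1, h2⟩ := Cfsg.Agent.Lib.Transfer.Basic.hasNormalPComplement_iff.mp hGT
    have hKch := Cfsg.Agent.Lib.Solvable.PSeries.pPrimeCore_char q H
    have hKn := hnormal_of_char _ hKch
    have hNK : N ≤ pPrimeCore q H :=
      Cfsg.Agent.Lib.Basic.PCore.le_pPrimeCore hN h1
    rcases hsimple _ hKn (Subgroup.map_subtype_le _) with h | h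
    · have h3 := hmap_eq_bot _ h
      rw [h3, le_bot_iff] at hNK
      apply hHq
      intro g
      obtain ⟨k, hk⟩ := h2 (g : H ⧸ N)
      refine ⟨k, ?_⟩
      rw [← QuotientGroup.mk_pow, QuotientGroup.eq_one_iff, hNK, Subgroup.mem_bot] at hk
      exact hk
    · have h3 := hmap_eq_H _ h
      have h4 := Cfsg.Agent.Lib.Solvable.PSeries.pPrimeCore_coprime (G := H) q
      rw [h3, Subgroup.card_top] at h4
      exact (Nat.Prime.coprime_iff_not_dvd hqp).mp h4.symm hqd
  · -- only the primes `2` and `3`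
    have hprimes : ∀ d : ℕ, d.Prime → d ∣ Nat.card H → d = 2 ∨ d = 3 := by
      intro d hd hdv
      by_contra hcon
      push_neg at hcon
      apply hq
      refine ⟨d, hd, ?_, hdv⟩
      have h2 := hd.two_le
      have h4 : d ≠ 4 := by
        rintro rfl
        exact absurd hd (by norm_num)
      omega
    have hcard : ∃ a b : ℕ, Nat.card H = 2 ^ a * 3 ^ b := by
      set n := Nat.card H with hn
      have hn0 : n ≠ 0 := Nat.card_pos.ne'
      have h2 := Nat.ordProj_mul_ordCompl_eq_self n 2
      set m := n / 2 ^ n.factorization 2 with hm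
      have hm0 : m ≠ 0 := by
        intro h0
        rw [h0, mul_zero] at h2
        exact hn0 h2.symm
      have h3 := Nat.ordProj_mul_ordCompl_eq_self m 3
      set l := m / 3 ^ m.factorization 3 with hl
      have hl1 : l = 1 := by
        by_contra hne
        obtain ⟨d, hd, hdv⟩ := Nat.exists_prime_and_dvd hne
        have hdm : d ∣ m := hdv.trans (Dvd.intro_left _ h3)
        have hdn : d ∣ n := hdm.trans (Dvd.intro_left _ h2)
        rcases hprimes d hd hdn with rfl | rfl
        · exact Nat.not_dvd_ordCompl Nat.prime_two hn0 hdm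
        · exact Nat.not_dvd_ordCompl Nat.prime_three hm0 hdv
      rw [hl1, mul_one] at h3
      exact ⟨_, _, by rw [← h2, ← h3]⟩
    obtain ⟨a, b, hab⟩ := hcard
    have hsolv : Group.IsSolvable H :=
      Cfsg.Agent.Lib.Char.Burnside2.isSolvable_of_card_eq Nat.prime_two Nat.prime_three _ H a b rfl hab
    have hTn := hnormal_of_char (commutator H) inferInstance
    rcases hsimple _ hTn (Subgroup.map_subtype_le _) with h | h
    · have h3 := hmap_eq_bot _ h
      apply hnil
      letI : CommGroup H := { (inferInstance : Group H) with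
        mul_comm := fun x y => by
          have h4 : ⁅x, y⁆ ∈ commutator H := Subgroup.commutator_mem_commutator trivial trivial
          rw [h3, Subgroup.mem_bot] at h4
          exact commutatorElement_eq_one_iff_mul_comm.mp h4 }
      infer_instance
    · have h3 := hmap_eq_H _ h
      apply hnil
      by_cases hnt : Nontrivial H
      · exact absurd h3 (Group.IsSolvable.commutator_lt_top_of_nontrivial H).ne
      · rw [not_nontrivial_iff_subsingleton] at hnt
        infer_instance

/-- **Kegel's theorem**, in the form needed here. -/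
theorem main_pair {p : ℕ} (hp : p.Prime) : ∀ (n : ℕ) (G : Type u) [Group G] [Finite G],
    Nat.card G = n → ∀ H : Subgroup G, H.Normal → H.index = p → (∀ g, g ∉ H → g ^ p = 1) →
      Group.IsNilpotent H := by
  intro n
  induction n using Nat.strong_induction_on with
  | _ n ih =>
    intro G _ _ hcard H hHn hidx hout
    classical
    by_contra hnil
    have ih' : IHyp.{u} p (Nat.card G) := by
      intro G' _ _ hlt H' hn' hi' ho'
      exact ih _ (hcard ▸ hlt) G' rfl H' hn' hi' ho'
    by_cases hsimple : ∀ N : Subgroup G, N.Normal → N ≤ H → N = ⊥ ∨ N = H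
    · exact false_of_simple hp ih' H hHn hidx hout hnil hsimple
    push_neg at hsimple
    obtain ⟨N₀, hN₀n, hN₀H, hN₀1, hN₀2⟩ := hsimple
    -- a maximal proper `G`-normal subgroup
    obtain ⟨N, hNmax⟩ := (Set.toFinite {N : Subgroup G | N.Normal ∧ N ≤ H ∧ N ≠ H ∧ N₀ ≤ N}).exists_maximal
      ⟨N₀, hN₀n, hN₀H, hN₀2, le_rfl⟩
    obtain ⟨hNn, hNH, hNne, hN₀N⟩ := hNmax.prop
    haveI := hNn
    haveI := hHn
    have hN1 : N ≠ ⊥ := by
      intro h
      rw [h, le_bot_iff] at hN₀N
      exact hN₀1 hN₀N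
    have hHne : H ≠ ⊤ := by
      intro h
      rw [h, Subgroup.index_top] at hidx
      exact hp.one_lt.ne hidx
    have hex : ∃ x, x ∉ H := by
      by_contra hcon
      push_neg at hcon
      exact hHne (eq_top_iff.mpr fun x _ => hcon x)
    obtain ⟨x₀, hx₀⟩ := hex
    have hNnil : Group.IsNilpotent N := nilp_of_normalized hp ih' H hHn hidx hout N hNH hNne hx₀
      (by rw [Subgroup.normalizer_eq_top_iff.mpr hNn]; trivial)
    have hHat := nilp_quot hp ih' H hHn hidx hout N hN1 hNH
    set Hat : Subgroup (G ⧸ N) := H.map (QuotientGroup.mk' N) with hHatdef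
    have hHatn : Hat.Normal := Subgroup.Normal.map hHn _ (QuotientGroup.mk'_surjective N)
    haveI := hHatn
    have hHat1 : Nat.card Hat ≠ 1 := by
      intro h
      have h1 := (Subgroup.eq_bot_iff_card Hat).mpr h
      apply hNne
      apply le_antisymm hNH
      intro g hg
      have : (g : G ⧸ N) ∈ Hat := ⟨g, hg, rfl⟩
      rw [h1, Subgroup.mem_bot] at this
      exact (QuotientGroup.eq_one_iff g).mp this
    obtain ⟨q, hqp, hqd⟩ := Nat.exists_prime_and_dvd hHat1
    haveI hqF : Fact q.Prime := ⟨hqp⟩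
    let T : Sylow q Hat := default
    have hTn : (T : Subgroup Hat).Normal := inferInstance
    haveI hTch := Sylow.characteristic_of_normal T hTn
    have hTtn : ((T : Subgroup Hat).map Hat.subtype).Normal :=
      Cfsg.Agent.Lib.Basic.PCore.map_subtype_normal_of_characteristic _
    set Y : Subgroup G := ((T : Subgroup Hat).map Hat.subtype).comap (QuotientGroup.mk' N) with hY
    have hYn : Y.Normal := Subgroup.Normal.comap hTtn _
    have hNY : N ≤ Y := by
      intro g hg
      rw [hY, Subgroup.mem_comap]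
      have : QuotientGroup.mk' N g = 1 := (QuotientGroup.eq_one_iff g).mpr hg
      rw [this]
      exact Subgroup.one_mem _
    have hYH : Y ≤ H := by
      intro g hg
      have h1 : QuotientGroup.mk' N g ∈ (T : Subgroup Hat).map Hat.subtype := hg
      obtain ⟨t, -, ht⟩ := h1
      obtain ⟨h, hh, he⟩ := t.2
      have h2 : QuotientGroup.mk' N h = QuotientGroup.mk' N g := by
        rw [he]
        exact ht
      have h3 : h⁻¹ * g ∈ N := QuotientGroup.eq.mp h2
      have h4 : g = h * (h⁻¹ * g) := by group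
      rw [h4]
      exact H.mul_mem hh (hNH h3)
    have hYeq : Y = H := by
      by_contra hne
      have h1 : Y ≤ N := hNmax.le_of_ge ⟨hYn, hYH, hne, hN₀N.trans hNY⟩ hNY
      -- `T` is trivial, contradiction
      have hTbot : (T : Subgroup Hat) = ⊥ := by
        rw [eq_bot_iff]
        intro t ht
        obtain ⟨g, hg⟩ := QuotientGroup.mk_surjective (t : G ⧸ N)
        have hgY : g ∈ Y := by
          rw [hY, Subgroup.mem_comap]
          exact ⟨t, ht, hg.symm⟩
        have h3 : ((g : G) : G ⧸ N) = 1 := (QuotientGroup.eq_one_iff g).mpr (h1 hgY)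
        rw [Subgroup.mem_bot]
        apply Subtype.ext
        rw [← hg, h3]
        rfl
      have h2 := T.not_dvd_index
      rw [hTbot, Subgroup.index_bot] at h2
      exact h2 hqd
    let N' : Subgroup H := N.subgroupOf H
    have hN'nil : Group.IsNilpotent N' :=
      Group.nilpotent_of_surjective (Subgroup.subgroupOfEquivOfLe hNH).symm.toMonoidHom
        (Subgroup.subgroupOfEquivOfLe hNH).symm.surjective
    have hpow : IsPGroup q (H ⧸ N') := by
      intro g
      obtain ⟨h, rfl⟩ := QuotientGroup.mk_surjective g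
      have h1 : (h : G) ∈ Y := by rw [hYeq]; exact h.2
      rw [hY, Subgroup.mem_comap] at h1
      obtain ⟨t, ht, hte⟩ := h1
      obtain ⟨k, hk⟩ := T.isPGroup' ⟨t, ht⟩
      refine ⟨k, ?_⟩
      rw [← QuotientGroup.mk_pow, QuotientGroup.eq_one_iff, Subgroup.mem_subgroupOf]
      have h2 : t ^ (q ^ k) = 1 := congrArg Subtype.val hk
      have h3 : ((t : G ⧸ N)) ^ (q ^ k) = 1 := congrArg Subtype.val h2
      rw [show (t : G ⧸ N) = QuotientGroup.mk' N (h : G) from hte] at h3
      rw [← map_pow, QuotientGroup.mk'_apply, QuotientGroup.eq_one_iff] at h3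
      simpa using h3
    let Q : Sylow q H := default
    set Qt : Subgroup G := (Q : Subgroup H).map H.subtype with hQt
    have hfr : Subgroup.normalizer (Qt : Set G) ⊔ H = ⊤ := Sylow.normalizer_sup_eq_top Q
    obtain ⟨x₁, hx₁N, hx₁H⟩ : ∃ x ∈ Subgroup.normalizer (Qt : Set G), x ∉ H := by
      by_contra hcon
      push_neg at hcon
      apply hHne
      have : Subgroup.normalizer (Qt : Set G) ≤ H := fun y hy => hcon y hy
      rw [sup_eq_right.mpr this] at hfr
      exact hfr
    have hQtH : Qt ≤ H := Subgroup.map_subtype_le _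
    have hQtq : IsPGroup q Qt := Q.isPGroup'.map _
    refine hnil (nilpotent_of_commuting N' hN'nil hpow Q ?_)
    intro r hr hrq S hSN hSp s hs u hu
    haveI hrF : Fact r.Prime := ⟨hr⟩
    let S₀ : Sylow r N := default
    have hS₀n : (S₀ : Subgroup N).Normal := inferInstance
    haveI hch := Sylow.characteristic_of_normal S₀ hS₀n
    have hStn : ((S₀ : Subgroup N).map N.subtype).Normal :=
      Cfsg.Agent.Lib.Basic.PCore.map_subtype_normal_of_characteristic _
    have hStN : (S₀ : Subgroup N).map N.subtype ≤ N := Subgroup.map_subtype_le _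
    have hStr : IsPGroup r ((S₀ : Subgroup N).map N.subtype) := S₀.isPGroup'.map _
    have hsSt : (s : G) ∈ (S₀ : Subgroup N).map N.subtype := by
      have hS'p : IsPGroup r ((S.map H.subtype).subgroupOf N) := by
        have h1 : IsPGroup r (S.map H.subtype) := hSp.map _
        have hinj : Function.Injective
            (Subgroup.subtype (S.map H.subtype) ∘ (fun w : ((S.map H.subtype).subgroupOf N) =>
              (⟨(w : N), w.2⟩ : (S.map H.subtype)))) := by
          intro a b hab
          apply Subtype.ext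
          apply Subtype.ext
          exact hab
        intro w
        obtain ⟨k, hk⟩ := h1 ⟨(w : N), w.2⟩
        refine ⟨k, ?_⟩
        apply Subtype.ext
        apply Subtype.ext
        have := congrArg Subtype.val hk
        simpa using this
      obtain ⟨T₂, hT₂⟩ := hS'p.exists_le_sylow
      letI := Sylow.unique_of_normal S₀ hS₀n
      have hT₂eq : T₂ = S₀ := Subsingleton.elim _ _
      subst hT₂eq
      have hsN : (s : G) ∈ N := by
        have := hSN hs
        rwa [Subgroup.mem_subgroupOf] at this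
      refine ⟨⟨(s : G), hsN⟩, hT₂ ?_, rfl⟩
      rw [Subgroup.mem_subgroupOf]
      exact ⟨s, hs, rfl⟩
    have huQt : (u : G) ∈ Qt := ⟨u, hu, rfl⟩
    apply Subtype.ext
    by_cases hqpq : q = p
    · subst hqpq
      exact comm_of_eq hp H hout hrq _ Qt hStn (hStN.trans hNH) hStr hQtH hQtq x₁ hx₁H hx₁N _ hsSt _ huQt
    · exact comm_of_ne hp H hHn hout hqpq hrq _ Qt hStn (hStN.trans hNH) hStr hQtH hQtq x₁ hx₁H hx₁N _ hsSt _ huQt

/-- The index of `H` is `p`. -/
theorem index_eq {p : ℕ} (hp : p.Prime) (H : Subgroup G) (hHn : H.Normal)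
    (hout : ∀ g, g ∉ H → g ^ p = 1) (hne : H ≠ ⊤) (hG : ¬ IsPGroup p G) : H.index = p := by
  classical
  haveI hpF : Fact p.Prime := ⟨hp⟩
  haveI := hHn
  have hquot : ∀ g : G ⧸ H, g ^ p = 1 := by
    intro g
    obtain ⟨g, rfl⟩ := QuotientGroup.mk_surjective g
    by_cases hg : g ∈ H
    · rw [(QuotientGroup.eq_one_iff g).mpr hg, one_pow]
    · rw [← QuotientGroup.mk_pow, hout g hg]
      rfl
  have hquotP : IsPGroup p (G ⧸ H) := fun g => ⟨1, by rw [pow_one]; exact hquot g⟩
  obtain ⟨k, hk⟩ := IsPGroup.iff_card.mp hquotP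
  have hk' : H.index = p ^ k := hk
  by_contra hidx
  -- a prime `r ≠ p` dividing `|H|`
  obtain ⟨r, hr, hrd, hrp⟩ : ∃ r : ℕ, r.Prime ∧ r ∣ Nat.card H ∧ r ≠ p := by
    by_contra hcon
    push_neg at hcon
    apply hG
    have h1 := Nat.eq_prime_pow_of_unique_prime_dvd (Nat.card_pos (α := H)).ne'
      (fun {d} hd hdv => hcon d hd hdv)
    refine IsPGroup.of_card (n := (Nat.card H).primeFactorsList.length + k) ?_
    rw [← H.card_mul_index, pow_add, hk', ← h1]
  haveI hrF : Fact r.Prime := ⟨hr⟩
  let R : Sylow r H := default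
  set Rt : Subgroup G := (R : Subgroup H).map H.subtype with hRt
  have hfr : Subgroup.normalizer (Rt : Set G) ⊔ H = ⊤ := Sylow.normalizer_sup_eq_top R
  have hRtH : Rt ≤ H := Subgroup.map_subtype_le _
  have hRtr : IsPGroup r Rt := R.isPGroup'.map _
  obtain ⟨t₀, ht₀, ht₀1⟩ : ∃ t ∈ Rt, t ≠ 1 := by
    have hRne : (R : Subgroup H) ≠ ⊥ := by
      intro hbot
      have h1 := R.not_dvd_index
      rw [hbot, Subgroup.index_bot] at h1
      exact h1 hrd
    obtain ⟨t, ht, ht1⟩ := (R : Subgroup H).bot_or_exists_ne_one.resolve_left hRne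
    exact ⟨t, ⟨t, ht, rfl⟩, fun h => ht1 (Subtype.ext h)⟩
  set M : Subgroup G := Subgroup.normalizer (Rt : Set G) with hM
  let f : M →* G ⧸ H := (QuotientGroup.mk' H).comp M.subtype
  have hf : Function.Surjective f := by
    intro g
    obtain ⟨g, rfl⟩ := QuotientGroup.mk_surjective g
    have hg : g ∈ M ⊔ H := by rw [hfr]; trivial
    rw [← SetLike.mem_coe, Subgroup.mul_normal, Set.mem_mul] at hg
    obtain ⟨m, hm, h, hh, rfl⟩ := hg
    refine ⟨⟨m, hm⟩, ?_⟩
    change ((m : G) : G ⧸ H) = ((m * h : G) : G ⧸ H)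
    rw [QuotientGroup.mk_mul, (QuotientGroup.eq_one_iff h).mpr hh, mul_one]
  let A : Sylow p M := default
  have hAf : (A : Subgroup M).map f = ⊤ := by
    rw [← Subgroup.index_eq_one]
    have h1 : ((A : Subgroup M).map f).index ∣ (A : Subgroup M).index :=
      Subgroup.index_map_dvd _ hf
    have h2 : ((A : Subgroup M).map f).index ∣ p ^ k := by
      rw [← hk]
      exact Subgroup.index_dvd_card _
    obtain ⟨j, -, hj⟩ := (Nat.dvd_prime_pow hp).mp h2
    cases j with
    | zero => simpa using hj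
    | succ j =>
      exfalso
      rw [hj] at h1
      exact A.not_dvd_index ((dvd_pow_self p (Nat.succ_ne_zero j)).trans h1)
  let φ : M →* MulAut Rt := Rt.normalizerMonoidHom
  have hφ : ∀ (g : M) (t : Rt), ((φ g t : Rt) : G) = g * t * (g : G)⁻¹ := fun g t => rfl
  set Γ : Subgroup (MulAut Rt) := (A : Subgroup M).map φ with hΓ
  have hΓp : IsPGroup p Γ := A.isPGroup'.map φ
  -- an element of `A` outside `H`
  have hfpf : ∀ a : M, ¬ (a : G) ∈ H → φ a ≠ 1 := by
    intro a ha h1
    have h2 := hφ a ⟨t₀, ht₀⟩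
    rw [h1] at h2
    have h3 : t₀ = (a : G) * t₀ * (a : G)⁻¹ := h2
    have hc : Commute (a : G) t₀ := by
      change (a : G) * t₀ = t₀ * (a : G)
      calc (a : G) * t₀ = ((a : G) * t₀ * (a : G)⁻¹) * a := by group
        _ = t₀ * a := by rw [← h3]
    have hmul : (a : G) * t₀ ∉ H := fun h => ha (by
      have := H.mul_mem h (H.inv_mem (hRtH ht₀))
      simpa using this)
    have h4 := hout _ hmul
    rw [hc.mul_pow, hout _ ha, one_mul] at h4
    obtain ⟨j, hj⟩ := (IsPGroup.iff_orderOf.mp hRtr) ⟨t₀, ht₀⟩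
    have h5 : orderOf t₀ = r ^ j := by rw [← hj, Subgroup.orderOf_mk]
    have h6 : orderOf t₀ ∣ p := orderOf_dvd_of_pow_eq_one h4
    rw [h5] at h6
    obtain ⟨j', hj', hj''⟩ := (Nat.dvd_prime_pow hr).mp (show r ^ j ∣ r ^ j from dvd_rfl)
    cases j with
    | zero =>
      rw [pow_zero] at h5
      exact ht₀1 (orderOf_eq_one_iff.mp h5)
    | succ j =>
      have : r ∣ p := (dvd_pow_self r (Nat.succ_ne_zero j)).trans h6
      exact hrp ((Nat.prime_dvd_prime_iff_eq hr hp).mp this)
  have hΓnt : Nontrivial Γ := by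
    have hne1 : ∃ g : G ⧸ H, g ≠ 1 := by
      by_contra hcon
      push_neg at hcon
      apply hne
      rw [eq_top_iff]
      intro x _
      exact (QuotientGroup.eq_one_iff x).mp (hcon _)
    obtain ⟨g, hg⟩ := hne1
    have hgm : g ∈ (A : Subgroup M).map f := by rw [hAf]; trivial
    obtain ⟨a, haA, rfl⟩ := hgm
    have haH : ¬ (a : G) ∈ H := by
      intro h
      exact hg ((QuotientGroup.eq_one_iff _).mpr h)
    rw [Subgroup.nontrivial_iff_ne_bot]
    intro hbot
    have : φ a ∈ Γ := ⟨a, haA, rfl⟩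
    rw [hbot, Subgroup.mem_bot] at this
    exact hfpf a haH this
  have hcen := hΓp.center_nontrivial
  obtain ⟨⟨ζ₀, hζ₀⟩, hζ₀1⟩ := exists_ne (1 : Subgroup.center Γ)
  have hζ₀1' : (ζ₀ : MulAut Rt) ≠ 1 := fun h => hζ₀1 (Subtype.ext (Subtype.ext h))
  obtain ⟨j, hj⟩ := (IsPGroup.iff_orderOf.mp hΓp) ζ₀
  have hj' : orderOf (ζ₀ : MulAut Rt) = p ^ j := by rw [← hj, Subgroup.orderOf_coe]
  obtain ⟨m, hm1, hm2⟩ := exists_pow_order_p hp (ζ₀ : MulAut Rt) hζ₀1' j hj'
  obtain ⟨z₀, hz₀A, hz₀⟩ := ζ₀.2
  set z : M := z₀ ^ m with hz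
  have hzA : z ∈ (A : Subgroup M) := Subgroup.pow_mem _ hz₀A m
  have hφz : φ z = (ζ₀ : MulAut Rt) ^ m := by rw [hz, map_pow, hz₀]
  have hφzc : ∀ a ∈ (A : Subgroup M), φ z * φ a = φ a * φ z := by
    intro a ha
    rw [hφz]
    have h1 : φ a ∈ Γ := ⟨a, ha, rfl⟩
    have h2 := (Subgroup.mem_center_iff.mp hζ₀) ⟨φ a, h1⟩
    have h3 : φ a * ζ₀ = ζ₀ * φ a := congrArg Subtype.val h2
    exact ((show Commute (φ a) (ζ₀ : MulAut Rt) from h3).pow_right m).eq.symm
  -- choosing `a`
  have hzord : (f z) ^ p = 1 := hquot _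
  have hzp : Subgroup.zpowers (f z) ≠ ⊤ := by
    intro htop
    have h1 : Nat.card (Subgroup.zpowers (f z)) ∣ p := by
      rw [Nat.card_zpowers]
      exact orderOf_dvd_of_pow_eq_one hzord
    rw [htop, Subgroup.card_top] at h1
    have h2 : H.index ∣ p := h1
    rcases (Nat.dvd_prime hp).mp h2 with h3 | h3
    · exact hne (Subgroup.index_eq_one.mp h3)
    · exact hidx h3
  obtain ⟨g, hg⟩ : ∃ g, g ∉ Subgroup.zpowers (f z) := by
    by_contra hcon
    push_neg at hcon
    exact hzp (eq_top_iff.mpr fun x _ => hcon x)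
  have hgm : g ∈ (A : Subgroup M).map f := by rw [hAf]; trivial
  obtain ⟨a, haA, rfl⟩ := hgm
  have hyout : ∀ i : ℕ, ((z : G) ^ i * (a : G)) ∉ H := by
    intro i hi
    apply hg
    have h1 : f (z ^ i * a) = 1 := (QuotientGroup.eq_one_iff _).mpr (by simpa using hi)
    rw [map_mul, map_pow] at h1
    have h2 : f a = ((f z) ^ i)⁻¹ := eq_inv_of_mul_eq_one_right h1
    rw [h2]
    exact Subgroup.inv_mem _ (Subgroup.pow_mem _ (Subgroup.mem_zpowers _) i)
  have hzAp : IsPGroup p (Subgroup.zpowers (z : G)) := by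
    rintro ⟨w, hw⟩
    obtain ⟨n, rfl⟩ := Subgroup.mem_zpowers_iff.mp hw
    obtain ⟨l, hl⟩ := A.isPGroup' ⟨z, hzA⟩
    have hl' : (z : G) ^ p ^ l = 1 := by
      have h1 : z ^ p ^ l = 1 := congrArg Subtype.val hl
      have h2 := congrArg Subtype.val h1
      simpa using h2
    refine ⟨l, Subtype.ext ?_⟩
    simp only [SubmonoidClass.mk_pow, OneMemClass.coe_one]
    rw [← zpow_natCast, ← zpow_mul, mul_comm, zpow_mul, zpow_natCast, hl', one_zpow]
  have hE := lemmaE Rt (r := r) (p := p) hp hrp hRtr (z : G) (a : G) z.2 a.2 hzAp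
    (by
      intro t ht
      have h1 := hφ (z ^ p) ⟨t, ht⟩
      rw [map_pow, hφz, hm2] at h1
      simpa using h1.symm)
    (by
      intro t ht
      have h1 := hφ (z * a) ⟨t, ht⟩
      have h2 := hφ (a * z) ⟨t, ht⟩
      rw [map_mul] at h1 h2
      rw [hφzc a haA] at h1
      have h3 := h1.symm.trans h2
      simpa using h3)
    (by
      intro i t ht
      rw [normList_eq]
      have h1 : t * ((z : G) ^ i * (a : G)) ∉ H := fun h => hyout i (by
        have := H.mul_mem (H.inv_mem (hRtH ht)) h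
        simpa using this)
      rw [hout _ h1, hout _ (hyout i)]
      simp)
  apply hm1
  rw [← hφz]
  ext t
  have h1 := hφ z t
  rw [hE t t.2] at h1
  simpa using h1

end Main

/-- Let G be a finite group and p a prime such that G is not a p-group, and suppose the Hughes subgroup H_p(G), generated by all elements g with g^p ≠ 1, is a proper subgroup. Then H_p(G) is nilpotent and has index p in G. -/
theorem result {G : Type*} [Group G] [Finite G] (p : ℕ) (hp : p.Prime) (hG : ¬ IsPGroup p G)
    (hH : Subgroup.closure {g : G | g ^ p ≠ 1} ≠ ⊤) :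
    Group.IsNilpotent (Subgroup.closure {g : G | g ^ p ≠ 1}) ∧ (Subgroup.closure {g : G | g ^ p ≠ 1}).index = p := by
  have hn : (Subgroup.closure {g : G | g ^ p ≠ 1}).Normal := by
    constructor
    intro n hn g
    induction hn using Subgroup.closure_induction with
    | mem x hx =>
      apply Subgroup.subset_closure
      change (g * x * g⁻¹) ^ p ≠ 1
      rw [conj_pow]
      intro h
      apply hx
      have h1 : x ^ p = g⁻¹ * (g * x ^ p * g⁻¹) * g := by group
      rw [h1, h]
      group
    | one => simp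
    | mul x y _ _ hx hy =>
      have : g * (x * y) * g⁻¹ = (g * x * g⁻¹) * (g * y * g⁻¹) := by group
      rw [this]
      exact Subgroup.mul_mem _ hx hy
    | inv x _ hx =>
      have : g * x⁻¹ * g⁻¹ = (g * x * g⁻¹)⁻¹ := by group
      rw [this]
      exact Subgroup.inv_mem _ hx
  have hout : ∀ g, g ∉ Subgroup.closure {g : G | g ^ p ≠ 1} → g ^ p = 1 := by
    intro g hg
    by_contra h
    exact hg (Subgroup.subset_closure h)
  have hidx := index_eq hp _ hn hout hH hG
  exact ⟨main_pair hp _ G rfl _ hn hidx hout, hidx⟩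

end Cfsg.Agent.S4249
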