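import Cfsg.Statements.S4250
import Mathlib
import Cfsg.Agent.Lib.PGroup.AlperinChain
-- import your own Cfsg.Agent.* helpers here

set_option autoImplicit false
open Cfsg

open scoped commutatorElement

namespace Cfsg.Agent.S4250

open Cfsg.Agent.Lib.PGroup.AlperinChain

/-- Let P be a Sylow p-subgroup of a finite group G. Call an intersection H = P ∩ Q with a Sylow p-subgroup Q tame when N_P(H) and N_Q(H) are Sylow p-subgroups of N_G(H). Then P ∩ G′ is generated by [P, N_G(P)] together with the commutator subgroups [P ∩ Q, ⟨x⟩] for all tame intersections P ∩ Q and all p-elements x of N_G(P ∩ Q). -/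
theorem result {G : Type*} [Group G] [Finite G] (p : ℕ) [Fact p.Prime] (P : Sylow p G) :
    (P : Subgroup G) ⊓ commutator G =
      ⁅(P : Subgroup G), Subgroup.normalizer ((P : Subgroup G) : Set G)⁆ ⊔
        ⨆ (Q : Sylow p G) (_ : (¬ p ∣ ((P : Subgroup G) ⊓ Subgroup.normalizer (((P : Subgroup G) ⊓ (Q : Subgroup G) : Subgroup G) : Set G)).relIndex (Subgroup.normalizer (((P : Subgroup G) ⊓ (Q : Subgroup G) : Subgroup G) : Set G)) ∧ ¬ p ∣ ((Q : Subgroup G) ⊓ Subgroup.normalizer (((P : Subgroup G) ⊓ (Q : Subgroup G) : Subgroup G) : Set G)).relIndex (Subgroup.normalizer (((P : Subgroup G) ⊓ (Q : Subgroup G) : Subgroup G) : Set G))))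
          (x : G) (_ : x ∈ Subgroup.normalizer (((P : Subgroup G) ⊓ (Q : Subgroup G) : Subgroup G) : Set G) ∧ ∃ k : ℕ, orderOf x = p ^ k),
          ⁅(P : Subgroup G) ⊓ (Q : Subgroup G), Subgroup.zpowers x⁆ := by
  classical
  set R : Subgroup G := ⁅(P : Subgroup G), Subgroup.normalizer ((P : Subgroup G) : Set G)⁆ ⊔
        ⨆ (Q : Sylow p G) (_ : (¬ p ∣ ((P : Subgroup G) ⊓ Subgroup.normalizer (((P : Subgroup G) ⊓ (Q : Subgroup G) : Subgroup G) : Set G)).relIndex (Subgroup.normalizer (((P : Subgroup G) ⊓ (Q : Subgroup G) : Subgroup G) : Set G)) ∧ ¬ p ∣ ((Q : Subgroup G) ⊓ Subgroup.normalizer (((P : Subgroup G) ⊓ (Q : Subgroup G) : Subgroup G) : Set G)).relIndex (Subgroup.normalizer (((P : Subgroup G) ⊓ (Q : Subgroup G) : Subgroup G) : Set G))))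
          (x : G) (_ : x ∈ Subgroup.normalizer (((P : Subgroup G) ⊓ (Q : Subgroup G) : Subgroup G) : Set G) ∧ ∃ k : ℕ, orderOf x = p ^ k),
          ⁅(P : Subgroup G) ⊓ (Q : Subgroup G), Subgroup.zpowers x⁆ with hR
  have hc : ∀ (D : Subgroup G) (y : G), ∀ a ∈ D, y ∈ Subgroup.normalizer (D : Set G) → ⁅a, y⁆ ∈ D ⊓ commutator G := by
    intro D y a ha hy
    refine Subgroup.mem_inf.mpr ⟨?_, ?_⟩
    · have h1 : y * a⁻¹ * y⁻¹ ∈ D := (Subgroup.mem_normalizer_iff.mp hy _).mp (D.inv_mem ha)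
      have : ⁅a, y⁆ = a * (y * a⁻¹ * y⁻¹) := by
        rw [commutatorElement_def]
        group
      rw [this]
      exact D.mul_mem ha h1
    · exact Subgroup.commutator_mem_commutator (Subgroup.mem_top a) (Subgroup.mem_top y)
  apply le_antisymm
  · -- hard direction
    rw [inf_comm, Subgroup.commutator_inf_eq_focalSubgroup, Subgroup.focalSubgroup_def, Subgroup.closure_le]
    have key : ∀ (l : List (Sylow p G × G)) (b : G), Good P {b} l → b * (wrd l)⁻¹ * b⁻¹ * wrd l ∈ R := by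
      intro l
      induction l with
      | nil =>
        intro b _
        simp [R.one_mem]
      | cons e l ih =>
        rintro b ⟨h1, h2, h3⟩
        have hb : b ∈ (P : Subgroup G) ⊓ (e.1 : Subgroup G) := h1 rfl
        have hset : cjs e.2 ({b} : Set G) = {e.2⁻¹ * b * e.2} := by
          simp [cjs]
        rw [hset] at h3
        have h4 := ih _ h3
        have e1 : b * (wrd (e :: l))⁻¹ * b⁻¹ * wrd (e :: l) =
            ⁅b, e.2⁻¹⁆ * ((e.2⁻¹ * b * e.2) * (wrd l)⁻¹ * (e.2⁻¹ * b * e.2)⁻¹ * wrd l) := by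
          rw [wrd_cons, commutatorElement_def]
          group
        rw [e1]
        refine R.mul_mem ?_ h4
        rcases h2.hord with h5 | ⟨k, hk⟩
        · -- Q = P
          apply Subgroup.mem_sup_left
          have h6 : e.2 ∈ Subgroup.normalizer ((P : Subgroup G) : Set G) := by
            have := h2.hx
            rw [h5, inf_idem] at this
            exact this
          exact Subgroup.commutator_mem_commutator (Subgroup.mem_inf.mp hb).1
            ((Subgroup.normalizer ((P : Subgroup G) : Set G)).inv_mem h6)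
        · apply Subgroup.mem_sup_right
          have h6 : ⁅b, e.2⁻¹⁆ ∈ ⁅(P : Subgroup G) ⊓ (e.1 : Subgroup G), Subgroup.zpowers e.2⁆ :=
            Subgroup.commutator_mem_commutator hb (Subgroup.inv_mem _ (Subgroup.mem_zpowers e.2))
          refine Subgroup.mem_iSup_of_mem e.1 (Subgroup.mem_iSup_of_mem ⟨h2.hP, h2.hQ⟩
            (Subgroup.mem_iSup_of_mem e.2 (Subgroup.mem_iSup_of_mem ⟨h2.hx, k, hk⟩ h6)))
    rintro g ⟨hg, x, hx, u, rfl⟩
    have h1 : u * x * u⁻¹ ∈ (P : Subgroup G) := by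
      have h2 : (x⁻¹ * (x * u * x⁻¹ * u⁻¹))⁻¹ ∈ (P : Subgroup G) := by
        refine (P : Subgroup G).inv_mem ((P : Subgroup G).mul_mem ((P : Subgroup G).inv_mem hx) ?_)
        rwa [commutatorElement_def] at hg
      have h3 : (x⁻¹ * (x * u * x⁻¹ * u⁻¹))⁻¹ = u * x * u⁻¹ := by group
      rwa [h3] at h2
    obtain ⟨l, hl, hw⟩ := fusion_list P {x} u⁻¹ (Set.singleton_subset_iff.mpr hx) (by
      rintro _ ⟨a, rfl, rfl⟩
      show u⁻¹⁻¹ * a * u⁻¹ ∈ (P : Subgroup G)
      rw [inv_inv]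
      exact h1)
    have h2 := key l x hl
    rw [hw] at h2
    have e1 : ⁅x, u⁆ = x * u⁻¹⁻¹ * x⁻¹ * u⁻¹ := by
      rw [commutatorElement_def, inv_inv]
    rw [e1]
    exact h2
  · apply sup_le
    · rw [Subgroup.commutator_le]
      intro a ha y hy
      exact Subgroup.mem_inf.mpr ⟨(Subgroup.mem_inf.mp (hc _ y a ha hy)).1, (Subgroup.mem_inf.mp (hc _ y a ha hy)).2⟩
    · refine iSup_le fun Q => iSup_le fun _ => iSup_le fun x => iSup_le fun hx => ?_
      rw [Subgroup.commutator_le]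
      intro a ha y hy
      have hy' : y ∈ Subgroup.normalizer (((P : Subgroup G) ⊓ (Q : Subgroup G) : Subgroup G) : Set G) := by
        obtain ⟨n, rfl⟩ := Subgroup.mem_zpowers_iff.mp hy
        exact Subgroup.zpow_mem _ hx.1 n
      obtain ⟨h1, h2⟩ := Subgroup.mem_inf.mp (hc _ y a ha hy')
      exact Subgroup.mem_inf.mpr ⟨(Subgroup.mem_inf.mp h1).1, h2⟩

end Cfsg.Agent.S4250
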