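import Cfsg.Statements.S4251
import Mathlib
import Cfsg.Agent.Lib.PGroup.AlperinChain
import Cfsg.Agent.Lib.Basic.ElementFusion
-- import your own Cfsg.Agent.* helpers here

set_option autoImplicit false
open Cfsg

namespace Cfsg.Agent.S4251

open Cfsg.Agent.Lib.PGroup.AlperinChain

/-- A quotient-`p` automizer factors through `P`. -/
theorem factor {G : Type*} [Group G] [Finite G] {p : ℕ} [hp : Fact p.Prime] (P : Sylow p G) (H : Subgroup G)
    (htame : ¬ p ∣ ((P : Subgroup G) ⊓ Subgroup.normalizer (H : Set G)).relIndex (Subgroup.normalizer (H : Set G)))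
    (hq : IsPGroup p (Subgroup.normalizer (H : Set G) ⧸
        (Subgroup.centralizer (H : Set G)).subgroupOf (Subgroup.normalizer (H : Set G))))
    {x : G} (hx : x ∈ Subgroup.normalizer (H : Set G)) :
    ∃ c ∈ Subgroup.centralizer (H : Set G), ∃ u ∈ (P : Subgroup G), x = c * u := by
  set N := Subgroup.normalizer (H : Set G) with hN
  have hS' : IsPGroup p ((P : Subgroup G).subgroupOf N) :=
    P.isPGroup'.comap_of_injective N.subtype N.subtype_injective
  have hidx : ¬ p ∣ ((P : Subgroup G).subgroupOf N).index := by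
    intro h
    apply htame
    rw [Subgroup.inf_relIndex_right]
    exact h
  let R : Sylow p N := hS'.toSylow hidx
  have hRcoe : ∀ n : N, n ∈ (R : Subgroup N) → (n : G) ∈ (P : Subgroup G) := by
    intro n hn
    exact hn
  have hCn : ((Subgroup.centralizer (H : Set G)).subgroupOf N).Normal := by
    rw [hN]
    refine ⟨fun c hc n => ?_⟩
    rw [Subgroup.mem_subgroupOf] at hc ⊢
    rw [Subgroup.mem_centralizer_iff] at hc ⊢
    intro h₀ hh₀
    have h1 : (n : G)⁻¹ * h₀ * n ∈ H := by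
      have := (Subgroup.mem_normalizer_iff.mp n.2 ((n : G)⁻¹ * h₀ * n)).mpr (by
        have e : (n : G) * ((n : G)⁻¹ * h₀ * n) * (n : G)⁻¹ = h₀ := by group
        rw [e]
        exact hh₀)
      exact this
    have h2 := hc _ h1
    simp only [Subgroup.coe_mul, InvMemClass.coe_inv]
    calc h₀ * ((n : G) * (c : G) * (n : G)⁻¹) = (n : G) * (((n : G)⁻¹ * h₀ * n) * (c : G)) * (n : G)⁻¹ := by group
      _ = (n : G) * ((c : G) * ((n : G)⁻¹ * h₀ * n)) * (n : G)⁻¹ := by rw [h2]
      _ = (n : G) * (c : G) * (n : G)⁻¹ * h₀ := by group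
  let φ := QuotientGroup.mk' ((Subgroup.centralizer (H : Set G)).subgroupOf N)
  have hφ : Function.Surjective φ := QuotientGroup.mk'_surjective _
  have htop : ((R.mapSurjective hφ : Sylow p (N ⧸ ((Subgroup.centralizer (H : Set G)).subgroupOf N))) : Subgroup (N ⧸ ((Subgroup.centralizer (H : Set G)).subgroupOf N))) = ⊤ :=
    ((R.mapSurjective hφ).is_maximal' (hq.to_subgroup _) le_top).symm
  have h1 : φ ⟨x, hx⟩ ∈ ((R.mapSurjective hφ : Sylow p (N ⧸ ((Subgroup.centralizer (H : Set G)).subgroupOf N))) : Subgroup (N ⧸ ((Subgroup.centralizer (H : Set G)).subgroupOf N))) := by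
    rw [htop]
    trivial
  rw [Sylow.coe_mapSurjective] at h1
  obtain ⟨r, hr, hr2⟩ := h1
  have h2 : r⁻¹ * ⟨x, hx⟩ ∈ (Subgroup.centralizer (H : Set G)).subgroupOf N := QuotientGroup.eq.mp hr2
  have h3 := hCn.conj_mem _ h2 r
  refine ⟨x * (r : G)⁻¹, ?_, r, hRcoe r hr, by group⟩
  have h4 : r * (r⁻¹ * ⟨x, hx⟩) * r⁻¹ ∈ (Subgroup.centralizer (H : Set G)).subgroupOf N := h3
  rw [Subgroup.mem_subgroupOf] at h4
  have e : ((r * (r⁻¹ * ⟨x, hx⟩) * r⁻¹ : N) : G) = x * (r : G)⁻¹ := by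
    simp
  rwa [e] at h4

/-- Let P be a Sylow p-subgroup of a finite group G. Call an intersection H = P ∩ Q with a Sylow p-subgroup Q tame when N_P(H) and N_Q(H) are Sylow p-subgroups of N_G(H). If N_G(H)/C_G(H) is a p-group for every nontrivial tame intersection H = P ∩ Q, then G has a normal p-complement. -/
theorem result {G : Type*} [Group G] [Finite G] (p : ℕ) [Fact p.Prime] (P : Sylow p G)
    (h : ∀ Q : Sylow p G, (P : Subgroup G) ⊓ (Q : Subgroup G) ≠ ⊥ → (¬ p ∣ ((P : Subgroup G) ⊓ Subgroup.normalizer (((P : Subgroup G) ⊓ (Q : Subgroup G) : Subgroup G) : Set G)).relIndex (Subgroup.normalizer (((P : Subgroup G) ⊓ (Q : Subgroup G) : Subgroup G) : Set G)) ∧ ¬ p ∣ ((Q : Subgroup G) ⊓ Subgroup.normalizer (((P : Subgroup G) ⊓ (Q : Subgroup G) : Subgroup G) : Set G)).relIndex (Subgroup.normalizer (((P : Subgroup G) ⊓ (Q : Subgroup G) : Subgroup G) : Set G))) →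
      IsPGroup p (Subgroup.normalizer (((P : Subgroup G) ⊓ (Q : Subgroup G) : Subgroup G) : Set G) ⧸
        (Subgroup.centralizer (((P : Subgroup G) ⊓ (Q : Subgroup G) : Subgroup G) : Set G)).subgroupOf
          (Subgroup.normalizer (((P : Subgroup G) ⊓ (Q : Subgroup G) : Subgroup G) : Set G)))) :
    Cfsg.HasNormalPComplement p G := by
  classical
  apply Cfsg.Agent.Lib.Basic.ElementFusion.hasNormalPComplement_of_element_fusion P
  have key : ∀ (l : List (Sylow p G × G)) (b : G), Good P {b} l → ∃ u ∈ (P : Subgroup G), (wrd l)⁻¹ * b * wrd l = u⁻¹ * b * u := by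
    intro l
    induction l with
    | nil =>
      intro b _
      exact ⟨1, Subgroup.one_mem _, by simp⟩
    | cons e l ih =>
      rintro b ⟨h1, h2, h3⟩
      have hb : b ∈ (P : Subgroup G) ⊓ (e.1 : Subgroup G) := h1 rfl
      have hset : cjs e.2 ({b} : Set G) = {e.2⁻¹ * b * e.2} := by
        simp [cjs]
      rw [hset] at h3
      obtain ⟨u, hu, hu2⟩ := ih _ h3
      by_cases hbot : (P : Subgroup G) ⊓ (e.1 : Subgroup G) = ⊥
      · rw [hbot, Subgroup.mem_bot] at hb
        subst hb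
        exact ⟨1, Subgroup.one_mem _, by simp⟩
      · obtain ⟨c, hc, v, hv, hcv⟩ := factor P _ h2.hP (h _ hbot ⟨h2.hP, h2.hQ⟩) h2.hx
        have hcb : b * c = c * b := (Subgroup.mem_centralizer_iff.mp hc) b hb
        refine ⟨v * u, (P : Subgroup G).mul_mem hv hu, ?_⟩
        have h5 : e.2⁻¹ * b * e.2 = v⁻¹ * b * v := by
          rw [hcv]
          calc (c * v)⁻¹ * b * (c * v) = v⁻¹ * (c⁻¹ * (b * c)) * v := by group
            _ = v⁻¹ * (c⁻¹ * (c * b)) * v := by rw [hcb]
            _ = v⁻¹ * b * v := by group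
        rw [wrd_cons]
        calc (e.2 * wrd l)⁻¹ * b * (e.2 * wrd l) = (wrd l)⁻¹ * (e.2⁻¹ * b * e.2) * wrd l := by group
          _ = u⁻¹ * (e.2⁻¹ * b * e.2) * u := hu2
          _ = u⁻¹ * (v⁻¹ * b * v) * u := by rw [h5]
          _ = (v * u)⁻¹ * b * (v * u) := by group
  intro x hx g hg
  obtain ⟨l, hl, hw⟩ := fusion_list P {x} g⁻¹ (Set.singleton_subset_iff.mpr hx) (by
    rintro _ ⟨a, rfl, rfl⟩
    show g⁻¹⁻¹ * a * g⁻¹ ∈ (P : Subgroup G)
    rw [inv_inv]
    exact hg)
  obtain ⟨u, hu, hu2⟩ := key l x hl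
  rw [hw] at hu2
  refine ⟨u⁻¹, (P : Subgroup G).inv_mem hu, ?_⟩
  simpa using hu2

end Cfsg.Agent.S4251
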