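import Cfsg.Statements.S4253
import Mathlib
-- import your own Cfsg.Agent.* helpers here

set_option autoImplicit false
open Cfsg
open scoped Pointwise

namespace Cfsg.Agent.S4253

/-- Let H be a Frobenius complement in a finite group G (a nontrivial proper subgroup meeting each conjugate gHg⁻¹ with g outside H trivially). Then in the action of G on the left cosets of H by left multiplication, no non-identity element of G fixes two distinct cosets. -/
theorem result {G : Type*} [Group G] [Finite G] (H : Subgroup G) (hH : Cfsg.IsFrobeniusComplement H)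
    (g : G) (hg : g ≠ 1) (a b : G ⧸ H) (ha : g • a = a) (hb : g • b = b) : a = b := by
  obtain ⟨hnt, htop, hTI⟩ := hH
  induction a using QuotientGroup.induction_on with
  | H x =>
  induction b using QuotientGroup.induction_on with
  | H y =>
  have hx : x⁻¹ * (g * x) ∈ H := by
    have h2 : ((g * x : G) : G ⧸ H) = x := ha
    exact QuotientGroup.eq.mp h2.symm |> fun h => by simpa [mul_assoc] using h
  have hy : y⁻¹ * (g * y) ∈ H := by
    have h2 : ((g * y : G) : G ⧸ H) = y := hb
    exact QuotientGroup.eq.mp h2.symm |> fun h => by simpa [mul_assoc] using h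
  by_contra hne
  have hnotin : y⁻¹ * x ∉ H := by
    intro hin
    apply hne
    apply QuotientGroup.eq.mpr
    have := H.inv_mem hin
    simpa using this
  have hbot := hTI (y⁻¹ * x) hnotin
  have hmem : y⁻¹ * (g * y) ∈ H ⊓ (MulAut.conj (y⁻¹ * x) • H) := by
    refine ⟨hy, ?_⟩
    show y⁻¹ * (g * y) ∈ MulAut.conj (y⁻¹ * x) • H
    rw [Subgroup.mem_smul_pointwise_iff_exists]
    refine ⟨x⁻¹ * (g * x), hx, ?_⟩
    simp [MulAut.conj_apply, mul_assoc]
  rw [hbot, Subgroup.mem_bot] at hmem
  apply hg
  calc g = y * (y⁻¹ * (g * y)) * y⁻¹ := by group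
    _ = 1 := by rw [hmem]; group

end Cfsg.Agent.S4253
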