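import Cfsg.Statements.S4260
import Mathlib
-- import your own Cfsg.Agent.* helpers here

set_option autoImplicit false
open Cfsg

namespace Cfsg.Agent.S4260

/-- Let H be a Hall subgroup of a finite group G (the order of H is coprime to its index) such that x^[G : H] lies in H for every x in G. Then H is normal in G. -/
theorem result {G : Type*} [Group G] [Finite G] (H : Subgroup G) (hHall : (Nat.card H).Coprime H.index)
    (hexp : ∀ x : G, x ^ H.index ∈ H) : H.Normal := by
  classical
  have hfact : ∀ y : G, y ^ Nat.card H = 1 → y ∈ H := by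
    intro y hy
    have hg : ((Nat.gcd H.index (Nat.card H) : ℕ) : ℤ) =
        H.index * Nat.gcdA H.index (Nat.card H) + Nat.card H * Nat.gcdB H.index (Nat.card H) :=
      Nat.gcd_eq_gcd_ab _ _
    have h1 : Nat.gcd H.index (Nat.card H) = 1 := hHall.symm
    rw [h1] at hg
    have e : y = (y ^ H.index) ^ (Nat.gcdA H.index (Nat.card H)) *
        (y ^ Nat.card H) ^ (Nat.gcdB H.index (Nat.card H)) := by
      rw [← zpow_natCast, ← zpow_natCast, ← zpow_mul, ← zpow_mul, ← zpow_add, ← hg]
      simp
    rw [e, hy, one_zpow, mul_one]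
    exact zpow_mem (hexp y) _
  refine ⟨?_⟩
  intro n hn g
  apply hfact
  rw [conj_pow]
  have h2 : n ^ Nat.card H = 1 := by
    have h4 : ((⟨n, hn⟩ : H) ^ Nat.card H) = 1 := pow_card_eq_one'
    have h3 := congrArg Subtype.val h4
    simpa only [SubgroupClass.coe_pow, OneMemClass.coe_one] using h3
  rw [h2]
  group

end Cfsg.Agent.S4260
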