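import Cfsg.Statements.S4261
import Mathlib
import Cfsg.Agent.Lib.Solvable.MinimalNormal
import Cfsg.Agent.Lib.PGroup.Basic
import Cfsg.Agent.Lib.Nilpotent.Fitting

set_option autoImplicit false

namespace Cfsg.Agent.S4261

open Subgroup Cfsg.Agent.Lib.Solvable.MinimalNormal

/-- Let M be a maximal subgroup of a finite solvable group G such that x^[G : M] lies in M for every x in G. Then M is normal in G. -/
theorem result {G : Type*} [Group G] [Finite G] (hG : Group.IsSolvable G) (M : Subgroup G) (hM : IsCoatom M)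
    (hexp : ∀ x : G, x ^ M.index ∈ M) : M.Normal := by
  classical
  induction hn : Nat.card G using Nat.strong_induction_on generalizing G with
  | _ n ih =>
  haveI := hG
  haveI hnt : Nontrivial G := by
    by_contra hnt
    rw [not_nontrivial_iff_subsingleton] at hnt
    exact hM.1 (Subsingleton.elim _ _)
  obtain ⟨V, hV⟩ := exists_isMinNormal (G := G)
  haveI hVn := hV.normal
  by_cases hVM : V ≤ M
  · have hlt := card_quotient_lt V hV.ne_bot
    have hq : (M.map (QuotientGroup.mk' V)).Normal := by
      refine ih _ (hn ▸ hlt) (G := G ⧸ V) inferInstance _ (isCoatom_map_mk' hM hVM) ?_ rfl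
      intro q
      obtain ⟨g, rfl⟩ := QuotientGroup.mk_surjective q
      rw [index_map_mk' hVM]
      exact ⟨g ^ M.index, hexp g, rfl⟩
    have hcm : (M.map (QuotientGroup.mk' V)).comap (QuotientGroup.mk' V) = M := by
      rw [comap_map_eq, QuotientGroup.ker_mk', sup_eq_left.mpr hVM]
    rw [← hcm]
    exact hq.comap _
  · have hsup : M ⊔ V = ⊤ := (le_or_sup_eq_top_of_isCoatom hM V).resolve_left hVM
    obtain ⟨p, hp, hVp, hVc, -⟩ := hV.exists_isPGroup
    haveI : Fact p.Prime := ⟨hp⟩
    have hVcomm : ∀ a ∈ V, ∀ b ∈ V, a * b = b * a := by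
      intro a ha b hb
      exact congrArg Subtype.val (hVc.is_comm.comm ⟨a, ha⟩ ⟨b, hb⟩)
    -- `V ⊓ M` is normal
    have hinfn : (V ⊓ M).Normal := by
      rw [← normalizer_eq_top_iff, eq_top_iff, ← hsup]
      refine sup_le ?_ ?_
      · rw [le_normalizer_iff]
        intro m hm x hx
        exact ⟨hVn.conj_mem x hx.1 m, M.mul_mem (M.mul_mem hm hx.2) (M.inv_mem hm)⟩
      · rw [le_normalizer_iff]
        intro v hv x hx
        have : v * x * v⁻¹ = x := by rw [hVcomm v hv x hx.1, mul_inv_cancel_right]
        rw [this]; exact hx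
    have hinf : V ⊓ M = ⊥ := by
      rcases hV.eq_bot_or_eq _ hinfn inf_le_left with h | h
      · exact h
      · exact absurd (inf_eq_left.mp h) hVM
    -- the index
    have hidx : M.index = Nat.card V := by
      rw [index_eq_relIndex_of_sup_eq_top hsup]
      have h1 : M.subgroupOf V = ⊥ := by
        rw [eq_bot_iff]
        intro x hx
        have : (x : G) ∈ V ⊓ M := ⟨x.2, hx⟩
        rw [hinf, mem_bot] at this
        exact (mem_bot).mpr (Subtype.ext this)
      show (M.subgroupOf V).index = _
      rw [h1, index_bot]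
    obtain ⟨a, ha⟩ := IsPGroup.iff_card.mp hVp
    -- `x ^ n` centralizes `V`
    have key : ∀ x : G, ∀ v ∈ V, x ^ M.index * v = v * x ^ M.index := by
      intro x v hv
      set y := x ^ M.index with hy
      have h1 : v⁻¹ * y * v ∈ M := by
        have : (v⁻¹ * x * v) ^ M.index = v⁻¹ * y * v := by
          have := conj_pow (a := v⁻¹) (b := x) (i := M.index)
          simpa [hy] using this
        rw [← this]
        exact hexp _
      have h2 : v⁻¹ * y * v * y⁻¹ ∈ M := M.mul_mem h1 (M.inv_mem (hexp x))
      have h3 : v⁻¹ * y * v * y⁻¹ ∈ V := by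
        have h4 := hVn.conj_mem v hv y
        have h5 := V.mul_mem (V.inv_mem hv) h4
        convert h5 using 1
        group
      have h6 : v⁻¹ * y * v * y⁻¹ ∈ V ⊓ M := ⟨h3, h2⟩
      rw [hinf, mem_bot] at h6
      have h7 : v⁻¹ * y * v = y := mul_inv_eq_one.mp h6
      calc y * v = v * (v⁻¹ * y * v) := by group
        _ = v * y := by rw [h7]
    -- the centralizer and the `p`-quotient
    let C : Subgroup G := Subgroup.centralizer (V : Set G)
    haveI hCn : C.Normal := Subgroup.normal_centralizer
    have hmemC : ∀ x : G, x ^ M.index ∈ C := by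
      intro x
      rw [Subgroup.mem_centralizer_iff]
      intro v hv
      exact (key x v hv).symm
    have hquot : IsPGroup p (G ⧸ C) := by
      intro q
      obtain ⟨g, rfl⟩ := QuotientGroup.mk_surjective q
      refine ⟨a, ?_⟩
      rw [← ha, ← hidx, ← QuotientGroup.mk_pow]
      exact (QuotientGroup.eq_one_iff _).mpr (hmemC g)
    obtain ⟨P⟩ : Nonempty (Sylow p G) := inferInstance
    let Pb : Sylow p (G ⧸ C) := P.mapSurjective (QuotientGroup.mk'_surjective C)
    have hPb : (Pb : Subgroup (G ⧸ C)) = ⊤ := by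
      have := Pb.is_maximal' (hquot.to_subgroup ⊤) le_top
      exact this.symm
    have hcover : ∀ g : G, ∃ x ∈ (P : Subgroup G), x⁻¹ * g ∈ C := by
      intro g
      have h1 : (QuotientGroup.mk g : G ⧸ C) ∈ (Pb : Subgroup (G ⧸ C)) := by
        rw [hPb]; exact mem_top _
      rw [Sylow.coe_mapSurjective] at h1
      obtain ⟨x, hx, hxg⟩ := h1
      refine ⟨x, hx, ?_⟩
      exact QuotientGroup.eq.mp hxg
    have hVP : V ≤ (P : Subgroup G) := by
      have h1 := Cfsg.Agent.Lib.Nilpotent.Fitting.le_pCore hVp
      exact h1.trans (Cfsg.Agent.Lib.Nilpotent.Fitting.pCore_le_sylow p P)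
    -- a central element in `V`
    haveI hVPn : (V.subgroupOf (P : Subgroup G)).Normal := inferInstance
    have hne : V.subgroupOf (P : Subgroup G) ≠ ⊥ := by
      intro hb
      rw [subgroupOf_eq_bot] at hb
      exact hV.ne_bot (hb.eq_bot_of_le hVP)
    have hz := Cfsg.Agent.Lib.PGroup.Basic.inf_center_ne_bot P.isPGroup' hne
    obtain ⟨⟨z, hz1⟩, hz2'⟩ := (Subgroup.ne_bot_iff_exists_ne_one).mp hz
    have hz2 : z ≠ 1 := fun h => hz2' (Subtype.ext h)
    have hzV : ((z : P) : G) ∈ V := hz1.1
    have hzP : z ∈ center (P : Subgroup G) := hz1.2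
    have hzcen : ((z : P) : G) ∈ V ⊓ center G := by
      refine ⟨hzV, ?_⟩
      show ((z : P) : G) ∈ center G
      rw [Subgroup.mem_center_iff]
      intro g
      obtain ⟨x, hx, hxg⟩ := hcover g
      have h1 : x * (z : P) = (z : P) * x := by
        have := (Subgroup.mem_center_iff.mp hzP) ⟨x, hx⟩
        exact congrArg Subtype.val this
      have h2 : (z : P) * (x⁻¹ * g) = (x⁻¹ * g) * (z : P) := by
        exact (Subgroup.mem_centralizer_iff.mp hxg _ hzV)
      calc g * (z : P) = x * ((x⁻¹ * g) * (z : P)) := by group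
        _ = x * ((z : P) * (x⁻¹ * g)) := by rw [h2]
        _ = (x * (z : P)) * (x⁻¹ * g) := by group
        _ = ((z : P) * x) * (x⁻¹ * g) := by rw [h1]
        _ = (z : P) * g := by group
    have hcenn : (V ⊓ center G).Normal := inferInstance
    have hVcen : V ≤ center G := by
      rcases hV.eq_bot_or_eq _ hcenn inf_le_left with h | h
      · exfalso
        rw [h, mem_bot] at hzcen
        apply hz2
        apply Subtype.ext
        simpa using hzcen
      · exact inf_eq_left.mp h
    rw [← normalizer_eq_top_iff, eq_top_iff, ← hsup]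
    refine sup_le le_normalizer ?_
    rw [le_normalizer_iff]
    intro v hv x hx
    have : v * x * v⁻¹ = x := by
      rw [(Subgroup.mem_center_iff.mp (hVcen hv) x).symm, mul_inv_cancel_right]
    rw [this]; exact hx

end Cfsg.Agent.S4261
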