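import Cfsg.Statements.S4262
import Cfsg.Agent.Lib.Basic.MaxCentralizer
import Cfsg.Agent.Lib.Char.FrobeniusKernel
-- import your own Cfsg.Agent.* helpers here

set_option autoImplicit false
open Cfsg

namespace Cfsg.Agent.S4262

section helpers

open Subgroup
open Cfsg.Agent.Lib.Basic.MaxCentralizer
open scoped Pointwise

universe u

variable {G : Type u} [Group G]

/-- Centralizer of an element. -/
abbrev cent (x : G) : Subgroup G := Subgroup.centralizer ({x} : Set G)

theorem mem_cent_self (x : G) : x ∈ (cent (x)) := by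
  rw [Subgroup.mem_centralizer_iff]
  intro a ha
  rw [Set.mem_singleton_iff] at ha
  rw [ha]

theorem mem_cent_iff {x y : G} : y ∈ (cent (x)) ↔ x * y = y * x := by
  rw [Subgroup.mem_centralizer_iff]
  simp

theorem cent_le_of_pow (x : G) (n : ℕ) : (cent (x)) ≤ (cent (x ^ n)) := by
  intro u hu
  rw [mem_cent_iff] at hu ⊢
  exact ((show Commute x u from hu).pow_left n).eq

theorem conj_mem_cent_iff (g x y : G) : y ∈ (cent (g * x * g⁻¹)) ↔ g⁻¹ * y * g ∈ (cent (x)) := by
  rw [mem_cent_iff, mem_cent_iff]
  constructor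
  · intro h
    have : x * (g⁻¹ * y * g) = g⁻¹ * ((g * x * g⁻¹) * y) * g := by group
    rw [this, h]
    group
  · intro h
    have : g * x * g⁻¹ * y = g * (x * (g⁻¹ * y * g)) * g⁻¹ := by group
    rw [this, h]
    group

section coatom

variable (hc : ∀ x : G, x ≠ 1 → IsCoatom ((cent (x))))

include hc

theorem cent_eq_of_le {x y : G} (hx : x ≠ 1) (hy : y ≠ 1) (hle : (cent (x)) ≤ (cent (y))) : (cent (x)) = (cent (y)) :=
  ((hc x hx).le_iff_eq (hc y hy).1).1 hle |>.symm

theorem cent_eq_of_coprime [Finite G] {x y : G} (hx : x ≠ 1) (hy : y ≠ 1) (hcomm : Commute x y)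
    (hcop : Nat.Coprime (orderOf x) (orderOf y)) : (cent (x)) = (cent (y)) := by
  have hz : x * y ≠ 1 := by
    intro h1
    have hyx : y = x⁻¹ := (eq_inv_of_mul_eq_one_right h1)
    rw [hyx, orderOf_inv, Nat.coprime_self] at hcop
    exact hx (orderOf_eq_one_iff.1 hcop)
  have h1 : ∀ a b : G, Commute a b → Nat.Coprime (orderOf a) (orderOf b) → (cent (a * b)) ≤ (cent (a)) := by
    intro a b hab hc'
    obtain ⟨m, hm⟩ := exists_pow_eq_self_of_coprime hc'.symm
    have h2 : (a * b) ^ orderOf b = a ^ orderOf b := by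
      rw [hab.mul_pow, pow_orderOf_eq_one, mul_one]
    have h3 : ((a * b) ^ orderOf b) ^ m = a := by rw [h2, hm]
    have h4 := cent_le_of_pow (a * b) (orderOf b * m)
    rwa [pow_mul, h3] at h4
  have h2 := cent_eq_of_le hc hz hx (h1 x y hcomm hcop)
  have h3 := cent_eq_of_le hc hz hy (by
    have := h1 y x hcomm.symm hcop.symm
    rwa [hcomm.symm.eq] at this)
  rw [← h2, h3]

/-- Dichotomy: each proper centralizer is abelian or a `p`-group. -/
theorem abelian_or_pgroup [Finite G] {x : G} (hx : x ≠ 1) :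
    (∀ a ∈ (cent (x)), ∀ b ∈ (cent (x)), a * b = b * a) ∨ ∃ p : ℕ, p.Prime ∧ IsPGroup p ((cent (x))) := by
  classical
  have hord : orderOf x ≠ 1 := fun h => hx (orderOf_eq_one_iff.1 h)
  obtain ⟨p, hp, hpd⟩ := Nat.exists_prime_and_dvd hord
  haveI : Fact p.Prime := ⟨hp⟩
  have hordne : orderOf x ≠ 0 := (orderOf_pos x).ne'
  set a := x ^ (orderOf x / p) with ha
  have hao : orderOf a = p := orderOf_pow_orderOf_div hordne hpd
  have ha1 : a ≠ 1 := by
    intro h
    rw [h, orderOf_one] at hao
    exact hp.one_lt.ne hao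
  have hCa : (cent (x)) = (cent (a)) := cent_eq_of_le hc hx ha1 (cent_le_of_pow x _)
  have hclaim : ∀ (w : G), w ≠ 1 → (cent (w)) = (cent (x)) → ∀ r : ℕ, r.Prime → orderOf w = r →
      ∀ y ∈ (cent (x)), Nat.Coprime r (orderOf y) → ∀ t ∈ (cent (x)), t * y = y * t := by
    intro w hw hCw r hr hor y hy hcop t ht
    by_cases hy1 : y = 1
    · simp [hy1]
    have hyw : y ∈ (cent (w)) := by rw [hCw]; exact hy
    have hcomm : Commute w y := mem_cent_iff.1 hyw
    have h1 : (cent (w)) = (cent (y)) := cent_eq_of_coprime hc hw hy1 hcomm (by rw [hor]; exact hcop)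
    rw [← hCw, h1] at ht
    exact (mem_cent_iff.1 ht).symm
  by_cases hP : IsPGroup p ((cent (x)))
  · exact Or.inr ⟨p, hp, hP⟩
  left
  -- a second prime
  obtain ⟨q, hq, hqd, hqp⟩ : ∃ q : ℕ, q.Prime ∧ q ∣ Nat.card ((cent (x))) ∧ q ≠ p := by
    by_contra hno
    push Not at hno
    apply hP
    rw [IsPGroup.iff_card]
    exact ⟨_, Nat.eq_prime_pow_of_unique_prime_dvd Nat.card_pos.ne' (fun {d} hd hdd => hno d hd hdd)⟩
  haveI : Fact q.Prime := ⟨hq⟩
  obtain ⟨b, hb⟩ := exists_prime_orderOf_dvd_card' q hqd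
  have hbo : orderOf (b : G) = q := by rw [Subgroup.orderOf_coe]; exact hb
  have hb1 : (b : G) ≠ 1 := by
    intro h
    rw [h, orderOf_one] at hbo
    exact hq.one_lt.ne hbo
  have hbcomm : Commute a (b : G) := mem_cent_iff.1 (by rw [← hCa]; exact b.2)
  have hCb : (cent ((b : G))) = (cent (x)) := by
    have h9 := cent_eq_of_coprime hc ha1 hb1 hbcomm (by
      rw [hao, hbo]
      exact (Nat.coprime_primes hp hq).2 (Ne.symm hqp))
    exact h9.symm.trans hCa.symm
  intro t ht y hy
  obtain ⟨i, m, hqm, hdec⟩ := Nat.exists_eq_pow_mul_and_not_dvd (orderOf_pos y).ne' q hq.ne_one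
  have hcop1 : Nat.Coprime (q ^ i) m := Nat.Coprime.pow_left _ ((Nat.Prime.coprime_iff_not_dvd hq).2 hqm)
  have hy1 : y ^ (q ^ i) ∈ (cent (x)) := ((cent (x))).pow_mem hy _
  have hy2 : y ^ m ∈ (cent (x)) := ((cent (x))).pow_mem hy _
  have ho1 : orderOf (y ^ (q ^ i)) ∣ m := by
    apply orderOf_dvd_of_pow_eq_one
    rw [← pow_mul, ← hdec, pow_orderOf_eq_one]
  have ho2 : orderOf (y ^ m) ∣ q ^ i := by
    apply orderOf_dvd_of_pow_eq_one
    rw [← pow_mul, mul_comm, ← hdec, pow_orderOf_eq_one]
  have hc1 : Commute t (y ^ (q ^ i)) := by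
    refine hclaim (b : G) hb1 hCb q hq hbo _ hy1 ?_ t ht
    exact Nat.Coprime.coprime_dvd_right ho1 ((Nat.Prime.coprime_iff_not_dvd hq).2 hqm)
  have hc2 : Commute t (y ^ m) := by
    refine hclaim a ha1 hCa.symm p hp hao _ hy2 ?_ t ht
    refine Nat.Coprime.coprime_dvd_right ho2 (Nat.Coprime.pow_right _ ?_)
    exact (Nat.coprime_primes hp hq).2 (Ne.symm hqp)
  have hgcd : ((q ^ i : ℕ) : ℤ) * Nat.gcdA (q ^ i) m + (m : ℤ) * Nat.gcdB (q ^ i) m = 1 := by
    have := Nat.gcd_eq_gcd_ab (q ^ i) m
    rw [hcop1.gcd_eq_one] at this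
    simpa using this.symm
  have hyeq : y = (y ^ (q ^ i)) ^ (Nat.gcdA (q ^ i) m) * (y ^ m) ^ (Nat.gcdB (q ^ i) m) := by
    rw [← zpow_natCast y (q ^ i), ← zpow_natCast y m, ← zpow_mul, ← zpow_mul, ← zpow_add, hgcd,
      zpow_one]
  have : Commute t y := by
    rw [hyeq]
    exact (hc1.zpow_right _).mul_right (hc2.zpow_right _)
  exact this.eq

end coatom

section frob

variable (hc : ∀ x : G, x ≠ 1 → IsCoatom (cent x))

include hc

/-- For `H = C(x)` abelian and `1 ≠ c ∈ H`, the centralizer of `c` is `H`. -/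
theorem cent_eq_of_mem_abelian {x c : G} (hx : x ≠ 1)
    (hab : ∀ a ∈ cent x, ∀ b ∈ cent x, a * b = b * a) (hcm : c ∈ cent x) (hc1 : c ≠ 1) :
    cent c = cent x := by
  refine (cent_eq_of_le hc hx hc1 ?_).symm
  intro y hy
  rw [mem_cent_iff]
  exact hab c hcm y hy

theorem isSolvable_of_abelian_cent [Finite G] {x : G} (hx : x ≠ 1)
    (hab : ∀ a ∈ cent x, ∀ b ∈ cent x, a * b = b * a)
    (hnorm : Subgroup.normalizer ((cent x : Subgroup G) : Set G) = cent x) :
    Group.IsSolvable G := by
  classical
  have hconj : ∀ g y : G, y ∈ MulAut.conj g • (cent x) ↔ y ∈ cent (g * x * g⁻¹) := by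
    intro g y
    rw [Cfsg.Agent.Lib.Char.FrobeniusKernel.mem_conj_smul_iff, conj_mem_cent_iff]
  have hab' : ∀ g : G, ∀ a ∈ cent (g * x * g⁻¹), ∀ b ∈ cent (g * x * g⁻¹), a * b = b * a := by
    intro g a ha b hb
    rw [conj_mem_cent_iff] at ha hb
    have := hab _ ha _ hb
    have h2 : g⁻¹ * (a * b) * g = g⁻¹ * (b * a) * g := by
      calc g⁻¹ * (a * b) * g = (g⁻¹ * a * g) * (g⁻¹ * b * g) := by group
        _ = (g⁻¹ * b * g) * (g⁻¹ * a * g) := this
        _ = g⁻¹ * (b * a) * g := by group
    simpa using h2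
  have hxg : ∀ g : G, g * x * g⁻¹ ≠ 1 := by
    intro g h
    apply hx
    have := congrArg (fun u => g⁻¹ * u * g) h
    simpa [mul_assoc] using this
  have hF : IsFrobeniusComplement (cent x) := by
    refine ⟨?_, (hc x hx).1, ?_⟩
    · intro h
      have := mem_cent_self x
      rw [h, Subgroup.mem_bot] at this
      exact hx this
    · intro g hg
      rw [eq_bot_iff]
      intro c hcm
      rw [Subgroup.mem_bot]
      by_contra hc1
      obtain ⟨hc2, hc3⟩ := Subgroup.mem_inf.1 hcm
      rw [hconj] at hc3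
      have h1 := cent_eq_of_mem_abelian hc hx hab hc2 hc1
      have h2 := cent_eq_of_mem_abelian hc (hxg g) (hab' g) hc3 hc1
      have h3 : cent x = cent (g * x * g⁻¹) := h1.symm.trans h2
      apply hg
      rw [← hnorm, Subgroup.mem_normalizer_iff]
      intro y
      have h4 : g * y * g⁻¹ ∈ cent (g * x * g⁻¹) ↔ y ∈ cent x := by
        rw [conj_mem_cent_iff]; simp [mul_assoc]
      rw [← h3] at h4
      exact h4.symm
  obtain ⟨L, hLset, hLn, hcomp⟩ := Cfsg.Agent.Lib.Char.FrobeniusKernel.frobenius_theorem (cent x) hF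
  haveI := hLn
  have hLmem : ∀ y, y ∈ L ↔ (y = 1 ∨ ∀ g : G, y ∉ MulAut.conj g • (cent x)) := by
    intro y
    have : y ∈ (L : Set G) ↔ y ∈ frobeniusKernel (cent x) := by rw [hLset]
    exact this
  have hLtop : L ≠ ⊤ := by
    intro h
    have h1 := hcomp.disjoint
    rw [h, disjoint_iff, top_inf_eq] at h1
    exact hF.1 h1
  have hLab : ∀ y ∈ L, ∀ t ∈ L, t * y = y * t := by
    intro y hy t ht
    by_cases hy1 : y = 1
    · simp [hy1]
    by_contra hne
    have hnle : ¬ L ≤ cent y := by
      intro hle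
      exact hne (mem_cent_iff.1 (hle ht)).symm
    have hsup : cent y ⊔ L = ⊤ := by
      apply (hc y hy1).2
      exact lt_of_le_of_ne le_sup_left (fun he => hnle (he ▸ le_sup_right))
    have hnle2 : ¬ cent y ≤ L := by
      intro hle
      exact hLtop (by rwa [sup_eq_right.2 hle] at hsup)
    obtain ⟨u, hu, huL⟩ := SetLike.not_le_iff_exists.1 hnle2
    rw [hLmem] at huL
    push Not at huL
    obtain ⟨hu1, g, hg⟩ := huL
    rw [hconj] at hg
    have h1 := cent_eq_of_mem_abelian hc (hxg g) (hab' g) hg hu1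
    have hyu : y ∈ cent u := mem_cent_iff.2 (mem_cent_iff.1 hu).symm
    rw [h1] at hyu
    have hyL := (hLmem y).1 hy
    rcases hyL with h | h
    · exact hy1 h
    · exact h g ((hconj g y).2 hyu)
  haveI hLsol : Group.IsSolvable L :=
    Group.isSolvable_of_comm (fun a b => Subtype.ext (hLab b b.2 a a.2))
  have hHsol : Group.IsSolvable (cent x) :=
    Group.isSolvable_of_comm (fun a b => Subtype.ext (hab a a.2 b b.2))
  haveI : Group.IsSolvable (G ⧸ L) := by
    have hsurj : Function.Surjective ((QuotientGroup.mk' L).comp (cent x).subtype) := by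
      intro q
      obtain ⟨g, rfl⟩ := QuotientGroup.mk_surjective q
      obtain ⟨⟨l, h⟩, hlh⟩ := hcomp.2 g
      refine ⟨h, ?_⟩
      simp only [MonoidHom.coe_comp, Function.comp_apply, Subgroup.subtype_apply,
        QuotientGroup.mk'_apply]
      rw [QuotientGroup.eq]
      have hlh' : (l : G) * (h : G) = g := hlh
      rw [← hlh']
      have : ((h : G))⁻¹ * ((l : G) * h) = (h : G)⁻¹ * l * (h : G)⁻¹⁻¹ := by group
      rw [this]
      exact hLn.conj_mem _ l.2 _
    exact Group.isSolvable_of_surjective hsurj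
  exact Group.isSolvable_of_ker_le_range L.subtype (QuotientGroup.mk' L) (by simp)

end frob

/-- A telescoping bound for the sum of inverse squares. -/
theorem sum_inv_sq_le (N : ℕ) (hN : 1 ≤ N) :
    ∑ n ∈ Finset.Icc 2 N, (1 : ℚ) / (n : ℚ) ^ 2 ≤ 1 - 1 / (N : ℚ) := by
  induction N, hN using Nat.le_induction with
  | base => simp
  | succ m hm ih =>
    rw [Finset.sum_Icc_succ_top (by omega)]
    have hm' : (0 : ℚ) < m := by exact_mod_cast hm
    have h1 : (1 : ℚ) / ((m + 1 : ℕ) : ℚ) ^ 2 ≤ 1 / (m : ℚ) - 1 / ((m + 1 : ℕ) : ℚ) := by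
      push_cast
      rw [div_sub_div _ _ hm'.ne' (by positivity), div_le_div_iff₀ (by positivity) (by positivity)]
      nlinarith
    linarith

/-- In a nonabelian `p`-group, the index of the center is at least `p ^ 2`. -/
theorem sq_mul_card_center_le [Finite G] {p : ℕ} [hp : Fact p.Prime] (hP : IsPGroup p G)
    (hn : ¬ ∀ a b : G, a * b = b * a) : p ^ 2 * Nat.card (Subgroup.center G) ≤ Nat.card G := by
  obtain ⟨k, hk⟩ := IsPGroup.iff_card.1 (hP.to_quotient (Subgroup.center G))
  have hidx : (Subgroup.center G).index = p ^ k := by rw [Subgroup.index_eq_card, hk]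
  have hk2 : 2 ≤ k := by
    by_contra hlt
    apply hn
    have hcyc : IsCyclic (G ⧸ Subgroup.center G) := by
      interval_cases k
      · have : Nat.card (G ⧸ Subgroup.center G) = 1 := by rw [hk]; simp
        haveI : Subsingleton (G ⧸ Subgroup.center G) := (Nat.card_eq_one_iff_unique.1 this).1
        infer_instance
      · exact isCyclic_of_prime_card (p := p) (by rw [hk]; simp)
    exact commutative_of_cyclic_center_quotient (QuotientGroup.mk' (Subgroup.center G)) (by simp)
  have h1 := Subgroup.index_mul_card (Subgroup.center G)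
  rw [← h1, hidx]
  apply Nat.mul_le_mul_right
  exact Nat.pow_le_pow_right hp.out.pos hk2

section count

variable (hc : ∀ x : G, x ≠ 1 → IsCoatom (cent x))

include hc

/-- The counting step: all proper centralizers are nonabelian `p`-groups (with `p` varying) is
impossible unless `G` is of prime power order. -/
theorem false_of_count [Fintype G] [DecidableEq G]
    (hP : ∀ x : G, x ≠ 1 → ∃ p : ℕ, p.Prime ∧ IsPGroup p (cent x))
    (hna : ∀ x : G, x ≠ 1 → ¬ ∀ a ∈ cent x, ∀ b ∈ cent x, a * b = b * a)
    (hGP : ∀ p : ℕ, p.Prime → ¬ IsPGroup p G) : False := by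
  classical
  have hG1 : Nat.card G ≠ 1 := by
    intro h
    apply hGP 2 Nat.prime_two
    rw [IsPGroup.iff_card]
    exact ⟨0, by simpa using h⟩
  have hGpos : 0 < Nat.card G := Nat.card_pos
  -- prime-power elements
  let A : ℕ → Finset G := fun p => Finset.univ.filter fun x => x ≠ 1 ∧ IsPGroup p (cent x)
  have hsyl : ∀ p : ℕ, p.Prime → ∀ C : Subgroup G, IsCoatom C → IsPGroup p C →
      ∀ [Fact p.Prime], ∃ T : Sylow p G, (T : Subgroup G) = C := by
    intro p hp C hC hCP _
    obtain ⟨T, hT⟩ := hCP.exists_le_sylow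
    refine ⟨T, ?_⟩
    by_contra hne
    have hlt : C < (T : Subgroup G) := lt_of_le_of_ne hT (Ne.symm hne)
    have htop := hC.2 _ hlt
    apply hGP p hp
    have := T.isPGroup'
    rw [htop] at this
    exact IsPGroup.of_equiv this Subgroup.topEquiv
  have hbound : ∀ p ∈ (Nat.card G).primeFactors, p ^ 2 * (A p).card < Nat.card G := by
    intro p hpm
    have hp : p.Prime := Nat.prime_of_mem_primeFactors hpm
    have hpd : p ∣ Nat.card G := Nat.dvd_of_mem_primeFactors hpm
    haveI : Fact p.Prime := ⟨hp⟩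
    let S : Sylow p G := Classical.arbitrary _
    have hSne : Nontrivial (S : Subgroup G) := by
      have hdvd : p ∣ Nat.card (S : Subgroup G) :=
        by simpa using S.pow_dvd_card_of_pow_dvd_card (n := 1) (by simpa using hpd)
      rw [← Finite.one_lt_card_iff_nontrivial]
      refine lt_of_le_of_ne Nat.card_pos (fun h => ?_)
      rw [← h] at hdvd
      exact hp.one_lt.ne' (Nat.dvd_one.1 hdvd)
    -- a central element of `S`
    haveI := hSne
    haveI hcn := S.isPGroup'.center_nontrivial
    obtain ⟨z, hz1⟩ := exists_ne (1 : Subgroup.center (S : Subgroup G))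
    have hz0 : ((z : (S : Subgroup G)) : G) ≠ 1 := by
      intro h
      apply hz1
      exact Subtype.ext (Subtype.ext h)
    set z0 : G := ((z : (S : Subgroup G)) : G) with hz0def
    have hzS : z0 ∈ (S : Subgroup G) := (z : (S : Subgroup G)).2
    have hzc : ∀ t ∈ (S : Subgroup G), t * z0 = z0 * t := by
      intro t ht
      have := Subgroup.mem_center_iff.1 z.2 ⟨t, ht⟩
      exact congrArg Subtype.val this
    have hSle : (S : Subgroup G) ≤ cent z0 := by
      intro t ht
      rw [mem_cent_iff]
      exact (hzc t ht).symm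
    obtain ⟨q, hq, hqP⟩ := hP z0 hz0
    have hqp : q = p := by
      by_contra hne
      -- `z0` has both `q`- and `p`-power order
      obtain ⟨a, ha⟩ := hqP ⟨z0, mem_cent_self z0⟩
      obtain ⟨b, hb⟩ := S.isPGroup' ⟨z0, hzS⟩
      have ha' : z0 ^ q ^ a = 1 := by simpa [Subtype.ext_iff] using ha
      have hb' : z0 ^ p ^ b = 1 := by simpa [Subtype.ext_iff] using hb
      have hcop : Nat.Coprime (q ^ a) (p ^ b) :=
        Nat.Coprime.pow _ _ ((Nat.coprime_primes hq hp).2 hne)
      have h3 : orderOf z0 = 1 := Nat.eq_one_of_dvd_coprimes hcop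
        (orderOf_dvd_of_pow_eq_one ha') (orderOf_dvd_of_pow_eq_one hb')
      exact hz0 (orderOf_eq_one_iff.1 h3)
    rw [hqp] at hqP
    have hSeq : (S : Subgroup G) = cent z0 := (S.is_maximal' hqP hSle).symm
    have hSna : ¬ ∀ a b : (S : Subgroup G), a * b = b * a := by
      intro hall
      apply hna z0 hz0
      rw [← hSeq]
      intro a ha b hb
      exact congrArg Subtype.val (hall ⟨a, ha⟩ ⟨b, hb⟩)
    have hcenter := sq_mul_card_center_le S.isPGroup' hSna
    -- the counting
    let W : Subgroup G := (Subgroup.center (S : Subgroup G)).map (S : Subgroup G).subtype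
    have hWcard : Nat.card W = Nat.card (Subgroup.center (S : Subgroup G)) :=
      Nat.card_congr (Subgroup.equivMapOfInjective _ _ (S : Subgroup G).subtype_injective).symm.toEquiv
    let B : Finset G := Finset.univ.filter fun x => x ≠ 1 ∧ x ∈ W
    have hBcard : B.card + 1 = Nat.card W := by
      have h1 : (Finset.univ.filter fun x => x ∈ W).card = Nat.card W :=
        (Nat.subtype_card _ (by simp)).symm
      rw [← h1]
      have h2 : (Finset.univ.filter fun x => x ∈ W) = insert 1 B := by
        ext x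
        simp only [Finset.mem_filter, Finset.mem_univ, true_and, Finset.mem_insert, B]
        constructor
        · intro hx
          by_cases hx1 : x = 1
          · exact Or.inl hx1
          · exact Or.inr ⟨hx1, hx⟩
        · rintro (rfl | hx)
          · exact W.one_mem
          · exact hx.2
      rw [h2, Finset.card_insert_of_notMem (by simp [B])]
    have hBW : ∀ z ∈ B, z ∈ W := fun z hz => (Finset.mem_filter.1 hz).2.2
    have hWS : ∀ z ∈ W, ∀ t ∈ (S : Subgroup G), t * z = z * t := by
      rintro _ ⟨w, hw, rfl⟩ t ht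
      have := Subgroup.mem_center_iff.1 hw ⟨t, ht⟩
      exact congrArg Subtype.val this
    have hA : (A p).card ≤ (S : Subgroup G).index * B.card := by
      apply Cfsg.Agent.Lib.Basic.MaxCentralizer.card_le_index_mul_card
      · intro x hx
        obtain ⟨-, hx1, hxP⟩ := Finset.mem_filter.1 hx
        obtain ⟨T, hT⟩ := hsyl p hp _ (hc x hx1) hxP
        obtain ⟨g, hg⟩ := MulAction.exists_smul_eq G S T
        have hmem : ∀ y, y ∈ cent x ↔ g⁻¹ * y * g ∈ (S : Subgroup G) := by
          intro y
          rw [← hT, ← hg, Sylow.smul_def, Sylow.pointwise_smul_def,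
            Subgroup.mem_pointwise_smul_iff_inv_smul_mem]
          simp [MulAut.smul_def]
        refine ⟨g, g⁻¹ * x * g, ?_, by group⟩
        refine Finset.mem_filter.2 ⟨Finset.mem_univ _, ?_, ?_⟩
        · intro h
          apply hx1
          have := congrArg (fun u => g * u * g⁻¹) h
          simpa [mul_assoc] using this
        · have h1 : g⁻¹ * x * g ∈ (S : Subgroup G) := (hmem x).1 (mem_cent_self x)
          refine ⟨⟨_, h1⟩, ?_, rfl⟩
          rw [SetLike.mem_coe, Subgroup.mem_center_iff]
          rintro ⟨t, ht⟩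
          apply Subtype.ext
          have ht' : g * t * g⁻¹ ∈ cent x := by
            rw [hmem]
            simpa [mul_assoc] using ht
          have hcomm := mem_cent_iff.1 ht'
          show t * (g⁻¹ * x * g) = (g⁻¹ * x * g) * t
          have e1 : t * (g⁻¹ * x * g) = g⁻¹ * (g * t * g⁻¹ * x) * g := by group
          have e2 : (g⁻¹ * x * g) * t = g⁻¹ * (x * (g * t * g⁻¹)) * g := by group
          rw [e1, e2, hcomm]
      · intro z hz
        exact hWS z (hBW z hz)
    have hidx := Subgroup.index_mul_card (S : Subgroup G)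
    have hipos : 0 < (S : Subgroup G).index := Nat.pos_of_ne_zero Subgroup.FiniteIndex.index_ne_zero
    have hp2 : 0 < p ^ 2 := by have := hp.pos; positivity
    calc p ^ 2 * (A p).card ≤ p ^ 2 * ((S : Subgroup G).index * B.card) :=
          Nat.mul_le_mul_left _ hA
      _ < p ^ 2 * ((S : Subgroup G).index * (B.card + 1)) := by
          apply Nat.mul_lt_mul_of_pos_left _ hp2
          exact Nat.mul_lt_mul_of_pos_left (Nat.lt_succ_self _) hipos
      _ = (S : Subgroup G).index * (p ^ 2 * Nat.card (Subgroup.center (S : Subgroup G))) := by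
          rw [hBcard, hWcard]; ring
      _ ≤ (S : Subgroup G).index * Nat.card (S : Subgroup G) :=
          Nat.mul_le_mul_left _ hcenter
      _ = Nat.card G := hidx
  -- every nontrivial element is in some `A p`
  have hcover : (Finset.univ.filter fun x : G => x ≠ 1) ⊆
      (Nat.card G).primeFactors.biUnion A := by
    intro x hx
    have hx1 : x ≠ 1 := (Finset.mem_filter.1 hx).2
    obtain ⟨p, hp, hxP⟩ := hP x hx1
    rw [Finset.mem_biUnion]
    refine ⟨p, ?_, Finset.mem_filter.2 ⟨Finset.mem_univ _, hx1, hxP⟩⟩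
    rw [Nat.mem_primeFactors]
    refine ⟨hp, ?_, Nat.card_pos.ne'⟩
    haveI : Fact p.Prime := ⟨hp⟩
    obtain ⟨a, ha⟩ := hxP ⟨x, mem_cent_self x⟩
    have ha' : x ^ p ^ a = 1 := by simpa [Subtype.ext_iff] using ha
    have h1 : orderOf x ∣ p ^ a := orderOf_dvd_of_pow_eq_one ha'
    have h2 : orderOf x ≠ 1 := fun h => hx1 (orderOf_eq_one_iff.1 h)
    obtain ⟨j, _, hj⟩ := (Nat.dvd_prime_pow hp).1 h1
    have hj0 : j ≠ 0 := by
      rintro rfl
      exact h2 (by simpa using hj)
    have h3 : p ∣ orderOf x := by rw [hj]; exact dvd_pow_self p hj0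
    exact h3.trans (orderOf_dvd_natCard x)
  have hcard1 : (Finset.univ.filter fun x : G => x ≠ 1).card + 1 = Nat.card G := by
    rw [Finset.filter_ne', Finset.card_erase_of_mem (Finset.mem_univ _), Finset.card_univ,
      Nat.card_eq_fintype_card]
    have : 0 < Fintype.card G := Fintype.card_pos
    omega
  have hle : ((Nat.card G : ℕ) : ℚ) - 1 ≤ ∑ p ∈ (Nat.card G).primeFactors, ((A p).card : ℚ) := by
    have h1 := (Finset.card_le_card hcover).trans Finset.card_biUnion_le
    have h2 : (Nat.card G : ℕ) ≤ ∑ p ∈ (Nat.card G).primeFactors, (A p).card + 1 := by omega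
    have h3 : ((Nat.card G : ℕ) : ℚ) ≤ ((∑ p ∈ (Nat.card G).primeFactors, (A p).card + 1 : ℕ) : ℚ) := by
      exact_mod_cast h2
    push_cast at h3
    linarith
  have hGq : (0 : ℚ) < (Nat.card G : ℕ) := by exact_mod_cast hGpos
  have hlt : ∑ p ∈ (Nat.card G).primeFactors, ((A p).card : ℚ) <
      ∑ p ∈ (Nat.card G).primeFactors, ((Nat.card G : ℕ) : ℚ) * (1 / (p : ℚ) ^ 2) := by
    apply Finset.sum_lt_sum_of_nonempty
    · exact Nat.nonempty_primeFactors.2 (by omega)
    · intro p hp
      have h1 := hbound p hp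
      have hp0 : (0 : ℚ) < (p : ℚ) ^ 2 := by
        have := (Nat.prime_of_mem_primeFactors hp).pos
        positivity
      have h2 : ((p : ℚ)) ^ 2 * ((A p).card : ℚ) < ((Nat.card G : ℕ) : ℚ) := by exact_mod_cast h1
      rw [mul_one_div, lt_div_iff₀ hp0]
      linarith
  have hsum : ∑ p ∈ (Nat.card G).primeFactors, (1 : ℚ) / (p : ℚ) ^ 2 ≤
      1 - 1 / ((Nat.card G : ℕ) : ℚ) := by
    refine le_trans ?_ (sum_inv_sq_le (Nat.card G) hGpos)
    apply Finset.sum_le_sum_of_subset_of_nonneg
    · intro p hp
      rw [Finset.mem_Icc]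
      exact ⟨(Nat.prime_of_mem_primeFactors hp).two_le,
        Nat.le_of_dvd hGpos (Nat.dvd_of_mem_primeFactors hp)⟩
    · intros; positivity
  rw [← Finset.mul_sum] at hlt
  have hfin : ((Nat.card G : ℕ) : ℚ) * ∑ p ∈ (Nat.card G).primeFactors, (1 : ℚ) / (p : ℚ) ^ 2 ≤
      ((Nat.card G : ℕ) : ℚ) - 1 := by
    calc _ ≤ ((Nat.card G : ℕ) : ℚ) * (1 - 1 / ((Nat.card G : ℕ) : ℚ)) :=
          mul_le_mul_of_nonneg_left hsum hGq.le
      _ = _ := by field_simp
  linarith

end count

/-- The centerless case. -/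
theorem isSolvable_of_forall_ne_one [Finite G]
    (hc : ∀ x : G, x ≠ 1 → IsCoatom (cent x)) : Group.IsSolvable G := by
  classical
  cases nonempty_fintype G
  have hsol : ∀ x : G, x ≠ 1 → Group.IsSolvable (cent x) := by
    intro x hx
    rcases abelian_or_pgroup hc hx with hab | ⟨p, hp, hP⟩
    · exact Group.isSolvable_of_comm (fun a b => Subtype.ext (hab a a.2 b b.2))
    · haveI : Fact p.Prime := ⟨hp⟩
      haveI : Group.IsNilpotent (cent x) := hP.isNilpotent
      infer_instance
  by_cases hn : ∃ x : G, x ≠ 1 ∧ (cent x).Normal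
  · obtain ⟨x, hx, hxn⟩ := hn
    haveI := hsol x hx
    exact isSolvable_of_normal_coatom (cent x) (hc x hx)
  push Not at hn
  have hnorm : ∀ x : G, x ≠ 1 →
      Subgroup.normalizer ((cent x : Subgroup G) : Set G) = cent x := by
    intro x hx
    by_contra hne
    have hlt : cent x < Subgroup.normalizer ((cent x : Subgroup G) : Set G) :=
      lt_of_le_of_ne Subgroup.le_normalizer (Ne.symm hne)
    exact hn x hx (Subgroup.normalizer_eq_top_iff.1 ((hc x hx).2 _ hlt))
  by_cases hab : ∃ x : G, x ≠ 1 ∧ ∀ a ∈ cent x, ∀ b ∈ cent x, a * b = b * a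
  · obtain ⟨x, hx, hxa⟩ := hab
    exact isSolvable_of_abelian_cent hc hx hxa (hnorm x hx)
  push Not at hab
  by_cases hGP : ∃ p : ℕ, p.Prime ∧ IsPGroup p G
  · obtain ⟨p, hp, hP⟩ := hGP
    haveI : Fact p.Prime := ⟨hp⟩
    haveI : Group.IsNilpotent G := hP.isNilpotent
    infer_instance
  push Not at hGP
  exfalso
  refine false_of_count hc ?_ ?_ hGP
  · intro x hx
    rcases abelian_or_pgroup hc hx with h | h
    · obtain ⟨a, ha, b, hb, hne⟩ := hab x hx
      exact absurd (h a ha b hb) hne
    · exact h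
  · intro x hx h
    obtain ⟨a, ha, b, hb, hne⟩ := hab x hx
    exact hne (h a ha b hb)

/-- The induction on the order, killing the center. -/
theorem isSolvable_aux : ∀ (n : ℕ) (G : Type u) [Group G] [Finite G], Nat.card G = n →
    (∀ g : G, g ∉ Subgroup.center G → IsCoatom (Subgroup.centralizer ({g} : Set G))) →
    Group.IsSolvable G := by
  intro n
  induction n using Nat.strong_induction_on with
  | _ n ih =>
    intro G _ _ hn h
    by_cases hZ : Subgroup.center G = ⊥
    · apply isSolvable_of_forall_ne_one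
      intro x hx
      apply h
      rw [hZ, Subgroup.mem_bot]
      exact hx
    -- pass to the central quotient
    haveI hZsol : Group.IsSolvable (Subgroup.center G) :=
      Group.isSolvable_of_comm (fun a b => Subtype.ext (Subgroup.mem_center_iff.1 b.2 a))
    have hlt : Nat.card (G ⧸ Subgroup.center G) < n := by
      have h1 := Subgroup.card_mul_index (Subgroup.center G)
      have h2 : 1 < Nat.card (Subgroup.center G) := by
        rw [Finite.one_lt_card_iff_nontrivial]
        exact (Subgroup.nontrivial_iff_ne_bot _).2 hZ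
      rw [Subgroup.index_eq_card] at h1
      have h3 : 0 < Nat.card (G ⧸ Subgroup.center G) := Nat.card_pos
      rw [← hn, ← h1]
      nlinarith
    haveI : Group.IsSolvable (G ⧸ Subgroup.center G) := by
      refine ih _ hlt (G ⧸ Subgroup.center G) rfl ?_
      intro q hq
      obtain ⟨g, rfl⟩ := QuotientGroup.mk_surjective q
      have hg : g ∉ Subgroup.center G := by
        intro hmem
        apply hq
        rw [(QuotientGroup.eq_one_iff g).2 hmem]
        exact Subgroup.one_mem _
      have hcoat := h g hg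
      constructor
      · intro htop
        apply hq
        rw [Subgroup.mem_center_iff]
        intro y
        have : y ∈ Subgroup.centralizer ({(g : G ⧸ Subgroup.center G)} : Set (G ⧸ Subgroup.center G)) := by
          rw [htop]; trivial
        rw [Subgroup.mem_centralizer_iff] at this
        exact (this _ rfl).symm
      · intro H hH
        have hle : Subgroup.centralizer ({g} : Set G) ≤ H.comap (QuotientGroup.mk' (Subgroup.center G)) := by
          intro u hu
          apply hH.le
          rw [Subgroup.mem_centralizer_iff]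
          rintro _ rfl
          have : g * u = u * g := by
            rw [Subgroup.mem_centralizer_iff] at hu
            exact hu g rfl
          show ((g * u : G) : G ⧸ Subgroup.center G) = ((u * g : G) : G ⧸ Subgroup.center G)
          rw [this]
        have hlt2 : Subgroup.centralizer ({g} : Set G) < H.comap (QuotientGroup.mk' (Subgroup.center G)) := by
          refine lt_of_le_of_ne hle ?_
          intro he
          obtain ⟨y, hyH, hyC⟩ := SetLike.exists_of_lt hH
          obtain ⟨y', rfl⟩ := QuotientGroup.mk_surjective y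
          have : y' ∈ H.comap (QuotientGroup.mk' (Subgroup.center G)) := hyH
          rw [← he] at this
          apply hyC
          rw [Subgroup.mem_centralizer_iff]
          rintro _ rfl
          rw [Subgroup.mem_centralizer_iff] at this
          have h5 := this g rfl
          show ((g * y' : G) : G ⧸ Subgroup.center G) = ((y' * g : G) : G ⧸ Subgroup.center G)
          rw [h5]
        have htop := hcoat.2 _ hlt2
        rw [eq_top_iff]
        intro y _
        obtain ⟨y', rfl⟩ := QuotientGroup.mk_surjective y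
        have : y' ∈ H.comap (QuotientGroup.mk' (Subgroup.center G)) := by rw [htop]; trivial
        exact this
    exact Group.isSolvable_of_ker_le_range (Subgroup.center G).subtype
      (QuotientGroup.mk' (Subgroup.center G)) (by simp)

end helpers

/-- Let G be a finite group in which the centralizer of every non-central element is a maximal subgroup of G. Then G is solvable. -/
theorem result {G : Type*} [Group G] [Finite G]
    (h : ∀ g : G, g ∉ Subgroup.center G → IsCoatom (Subgroup.centralizer ({g} : Set G))) :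
    Group.IsSolvable G := by
  exact isSolvable_aux _ G rfl h

end Cfsg.Agent.S4262
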