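import Mathlib
import Cfsg.Prelude.Def_HallClasses

set_option autoImplicit false

namespace Cfsg.Agent.S4269

open Subgroup

variable {G : Type*} [Group G]

theorem mem_map_conj {Q : Subgroup G} {g x : G} :
    x ∈ Q.map (MulAut.conj g).toMonoidHom ↔ g⁻¹ * x * g ∈ Q := by
  constructor
  · rintro ⟨y, hy, rfl⟩
    simpa [mul_assoc] using hy
  · intro h
    exact ⟨_, h, by simp [mul_assoc]⟩

theorem map_conj_self {H : Subgroup G} {h : G} (hh : h ∈ H) :
    H.map (MulAut.conj h).toMonoidHom = H := by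
  ext x
  rw [mem_map_conj]
  constructor
  · intro hx
    have := H.mul_mem (H.mul_mem hh hx) (H.inv_mem hh)
    simpa [mul_assoc] using this
  · intro hx
    exact H.mul_mem (H.mul_mem (H.inv_mem hh) hx) hh

theorem map_conj_mul (H : Subgroup G) (a b : G) :
    H.map (MulAut.conj (a * b)).toMonoidHom =
      (H.map (MulAut.conj b).toMonoidHom).map (MulAut.conj a).toMonoidHom := by
  ext x
  simp only [mem_map_conj]
  simp only [mul_inv_rev]
  constructor <;> intro h <;> convert h using 1 <;> group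

variable {V : Subgroup G} [hVn : V.Normal] {H : Subgroup G}

/-- `[H, U]` is normal in `G = HV`. -/
theorem commutator_normal_of_le (hV : IsMulCommutative ↥V) (hHV : H ⊔ V = ⊤) {U : Subgroup G}
    (hUV : U ≤ V) (hU : ∀ h ∈ H, U.map (MulAut.conj h).toMonoidHom = U) : (⁅H, U⁆).Normal := by
  have hcU : ⁅H, U⁆ ≤ U := by
    rw [Subgroup.commutator_le]
    intro h hh u hu
    have h1 : h * u * h⁻¹ ∈ U := by
      rw [← hU h hh]
      exact ⟨u, hu, rfl⟩
    rw [commutatorElement_def]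
    exact U.mul_mem h1 (U.inv_mem hu)
  constructor
  intro w hw g
  have hg : g ∈ V ⊔ H := by rw [sup_comm, hHV]; trivial
  obtain ⟨v, hv, h, hh, rfl⟩ := mem_sup_of_normal_left.mp hg
  have hinv : (⁅H, U⁆).map (MulAut.conj h).toMonoidHom = ⁅H, U⁆ := by
    rw [Subgroup.map_commutator, hU h hh, map_conj_self hh]
  have h1 : h * w * h⁻¹ ∈ ⁅H, U⁆ := by
    rw [← hinv]
    exact ⟨w, hw, rfl⟩
  have h2 : v * (h * w * h⁻¹) * v⁻¹ = h * w * h⁻¹ := by
    have := congrArg Subtype.val (hV.is_comm.comm ⟨v, hv⟩ ⟨_, hUV (hcU h1)⟩)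
    simp only [Subgroup.coe_mul] at this
    rw [this]
    group
  have e : v * h * w * (v * h)⁻¹ = v * (h * w * h⁻¹) * v⁻¹ := by group
  rw [e, h2]
  exact h1

/-- Let G be a finite group, V an abelian normal subgroup and H a subgroup with HV = G. Then H is pronormal in G (H and gHg⁻¹ are conjugate inside the subgroup they generate, for every g) if and only if every H-invariant subgroup U of V satisfies U = N_U(H)·[H, U], that is, U is the join of U ∩ N_G(H) and the commutator subgroup [H, U]. -/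
theorem result {G : Type*} [Group G] [Finite G]
    (V : Subgroup G) [V.Normal] (hV : IsMulCommutative ↥V) (H : Subgroup G) (hHV : H ⊔ V = ⊤) :
    Cfsg.IsPronormal H ↔
      ∀ U : Subgroup G, U ≤ V → (∀ h ∈ H, U.map (MulAut.conj h).toMonoidHom = U) →
        U = (U ⊓ Subgroup.normalizer (H : Set G)) ⊔ ⁅H, U⁆ := by
  have hcomm : ∀ a ∈ V, ∀ b ∈ V, a * b = b * a := fun a ha b hb =>
    congrArg Subtype.val (hV.is_comm.comm ⟨a, ha⟩ ⟨b, hb⟩)
  constructor
  · intro hpro U hUV hU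
    haveI hWn : (⁅H, U⁆).Normal := commutator_normal_of_le hV hHV hUV hU
    have hcU : ⁅H, U⁆ ≤ U := by
      rw [Subgroup.commutator_le]
      intro h hh u hu
      have h1 : h * u * h⁻¹ ∈ U := by
        rw [← hU h hh]
        exact ⟨u, hu, rfl⟩
      rw [commutatorElement_def]
      exact U.mul_mem h1 (U.inv_mem hu)
    apply le_antisymm _ (sup_le inf_le_left hcU)
    intro u hu
    obtain ⟨x, hx, hxe⟩ := hpro u
    -- `x ∈ [H,U] H`
    have hle : H ⊔ H.map (MulAut.conj u).toMonoidHom ≤ ⁅H, U⁆ ⊔ H := by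
      refine sup_le le_sup_right ?_
      rintro _ ⟨h, hh, rfl⟩
      have hc : h * u * h⁻¹ * u⁻¹ ∈ ⁅H, U⁆ := Subgroup.commutator_mem_commutator hh hu
      have e : (MulAut.conj u).toMonoidHom h = (h * u * h⁻¹ * u⁻¹)⁻¹ * h := by
        simp only [MulEquiv.coe_toMonoidHom, MulAut.conj_apply]
        group
      rw [e]
      exact mul_mem (mem_sup_left (inv_mem hc)) (mem_sup_right hh)
    obtain ⟨w, hw, h, hh, rfl⟩ := mem_sup_of_normal_left.mp (hle hx)
    have hxe2 : H.map (MulAut.conj u).toMonoidHom = H.map (MulAut.conj w).toMonoidHom := by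
      rw [hxe, map_conj_mul, map_conj_self hh]
    -- `w⁻¹ u` normalizes `H`
    have hn : w⁻¹ * u ∈ normalizer (H : Set G) := by
      rw [mem_normalizer_iff]
      intro z
      have h3 : ∀ y : G, y ∈ H ↔ u * y * u⁻¹ ∈ H.map (MulAut.conj w).toMonoidHom := by
        intro y
        rw [← hxe2, mem_map_conj]
        simp [mul_assoc]
      have h4 : ∀ y : G, y ∈ H ↔ w * y * w⁻¹ ∈ H.map (MulAut.conj w).toMonoidHom := by
        intro y
        rw [mem_map_conj]
        simp [mul_assoc]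
      rw [h3 z, h4 (w⁻¹ * u * z * (w⁻¹ * u)⁻¹)]
      have e : w * (w⁻¹ * u * z * (w⁻¹ * u)⁻¹) * w⁻¹ = u * z * u⁻¹ := by group
      rw [e]
    have e : u = (w⁻¹ * u) * (u⁻¹ * w * u) := by group
    have hwU : w ∈ U := hcU hw
    have hcommw : u⁻¹ * w * u = w := by
      have := hcomm _ (hUV hu) _ (hUV hwU)
      rw [mul_assoc, ← this]; group
    rw [e, hcommw]
    exact mul_mem (mem_sup_left ⟨U.mul_mem (U.inv_mem hwU) hu, hn⟩) (mem_sup_right hw)
  · intro hcond g
    have hg : g ∈ V ⊔ H := by rw [sup_comm, hHV]; trivial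
    obtain ⟨v, hv, h, hh, rfl⟩ := mem_sup_of_normal_left.mp hg
    have hgv : H.map (MulAut.conj (v * h)).toMonoidHom = H.map (MulAut.conj v).toMonoidHom := by
      rw [map_conj_mul, map_conj_self hh]
    rw [hgv]
    -- the `H`-invariant subgroup generated by `v`
    set S : Set G := (fun k => k * v * k⁻¹) '' (H : Set G) with hS
    set U : Subgroup G := closure S with hU
    have hSV : S ⊆ V := by
      rintro _ ⟨k, -, rfl⟩
      exact ‹V.Normal›.conj_mem v hv k
    have hUV : U ≤ V := (closure_le V).mpr hSV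
    have hUinv : ∀ h ∈ H, U.map (MulAut.conj h).toMonoidHom = U := by
      intro h₀ hh₀
      rw [hU, MonoidHom.map_closure]
      congr 1
      ext y
      constructor
      · rintro ⟨_, ⟨k, hk, rfl⟩, rfl⟩
        refine ⟨h₀ * k, H.mul_mem hh₀ hk, ?_⟩
        simp [mul_assoc]
      · rintro ⟨k, hk, rfl⟩
        refine ⟨_, ⟨h₀⁻¹ * k, H.mul_mem (H.inv_mem hh₀) hk, rfl⟩, ?_⟩
        simp [mul_assoc]
    haveI hWn : (⁅H, U⁆).Normal := commutator_normal_of_le hV hHV hUV hUinv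
    have hvU : v ∈ U := by
      apply Subgroup.subset_closure
      exact ⟨1, H.one_mem, by simp⟩
    have hdec := hcond U hUV hUinv
    rw [hdec] at hvU
    obtain ⟨n, hnn, w, hw, hnw⟩ := mem_sup_of_normal_right.mp hvU
    -- `H^v = H^w`
    have hcU : ⁅H, U⁆ ≤ U := by
      rw [Subgroup.commutator_le]
      intro h hh u hu
      have h1 : h * u * h⁻¹ ∈ U := by
        rw [← hUinv h hh]
        exact ⟨u, hu, rfl⟩
      rw [commutatorElement_def]
      exact U.mul_mem h1 (U.inv_mem hu)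
    have hvw : v = w * n := by
      rw [← hnw]
      exact hcomm _ (hUV hnn.1) _ (hUV (hcU hw))
    have hnH : H.map (MulAut.conj n).toMonoidHom = H := by
      ext y
      rw [mem_map_conj]
      have := mem_normalizer_iff.mp hnn.2 (n⁻¹ * y * n)
      rw [this]
      have e : n * (n⁻¹ * y * n) * n⁻¹ = y := by group
      rw [e]
    have hHv : H.map (MulAut.conj v).toMonoidHom = H.map (MulAut.conj w).toMonoidHom := by
      rw [hvw, map_conj_mul, hnH]
    refine ⟨w, ?_, hHv⟩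
    -- `[H, U] ≤ ⟨H, H^v⟩`
    have hJ : ∀ a ∈ H, a * v * a⁻¹ * v⁻¹ ∈ H ⊔ H.map (MulAut.conj v).toMonoidHom := by
      intro a ha
      have e : a * v * a⁻¹ * v⁻¹ = a * (v * a⁻¹ * v⁻¹) := by group
      rw [e]
      exact mul_mem (mem_sup_left ha) (mem_sup_right ⟨a⁻¹, H.inv_mem ha, rfl⟩)
    have hW : ⁅H, U⁆ ≤ H ⊔ H.map (MulAut.conj v).toMonoidHom := by
      rw [Subgroup.commutator_le]
      intro h hh u hu
      rw [commutatorElement_def]
      revert h
      refine Subgroup.closure_induction (p := fun u _ => ∀ h ∈ H,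
        h * u * h⁻¹ * u⁻¹ ∈ H ⊔ H.map (MulAut.conj v).toMonoidHom) ?_ ?_ ?_ ?_ hu
      · rintro _ ⟨k, hk, rfl⟩ h hh
        have e : h * (k * v * k⁻¹) * h⁻¹ * (k * v * k⁻¹)⁻¹ =
            ((h * k) * v * (h * k)⁻¹ * v⁻¹) * (k * v * k⁻¹ * v⁻¹)⁻¹ := by group
        simp only at e ⊢
        rw [e]
        exact mul_mem (hJ _ (H.mul_mem hh hk)) (inv_mem (hJ _ hk))
      · intro h _
        simp
      · intro u₁ u₂ hu₁ hu₂ h₁ h₂ h hh
        have hB : h * u₂ * h⁻¹ * u₂⁻¹ ∈ V :=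
          V.mul_mem (‹V.Normal›.conj_mem _ (hUV hu₂) h) (V.inv_mem (hUV hu₂))
        have e : h * (u₁ * u₂) * h⁻¹ * (u₁ * u₂)⁻¹ =
            (h * u₁ * h⁻¹ * u₁⁻¹) * (h * u₂ * h⁻¹ * u₂⁻¹) := by
          have hc := hcomm _ (V.inv_mem (hUV hu₁)) _ hB
          calc h * (u₁ * u₂) * h⁻¹ * (u₁ * u₂)⁻¹
              = (h * u₁ * h⁻¹) * ((h * u₂ * h⁻¹ * u₂⁻¹) * u₁⁻¹) := by group
            _ = (h * u₁ * h⁻¹) * (u₁⁻¹ * (h * u₂ * h⁻¹ * u₂⁻¹)) := by rw [hc]
            _ = _ := by group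
        rw [e]
        exact mul_mem (h₁ h hh) (h₂ h hh)
      · intro u hu₀ hp h hh
        have hc := hcomm _ (hUV hu₀) _ (‹V.Normal›.conj_mem _ (V.inv_mem (hUV hu₀)) h)
        have e : h * u⁻¹ * h⁻¹ * u⁻¹⁻¹ = (h * u * h⁻¹ * u⁻¹)⁻¹ := by
          calc h * u⁻¹ * h⁻¹ * u⁻¹⁻¹ = (h * u⁻¹ * h⁻¹) * u := by group
            _ = u * (h * u⁻¹ * h⁻¹) := hc.symm
            _ = _ := by group
        rw [e]
        exact inv_mem (hp h hh)
    exact hW hw

end Cfsg.Agent.S4269
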