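import Cfsg.Statements.S4270
import Mathlib
import Cfsg.Agent.Lib.Basic.SylowUtil

set_option autoImplicit false
open Cfsg

namespace Cfsg.Agent.S4270

open Subgroup
open scoped Pointwise

section General

variable {G : Type*} [Group G]

/-- Conjugate subgroup `g H g⁻¹`. -/
abbrev cj (g : G) (H : Subgroup G) : Subgroup G := H.map (MulAut.conj g).toMonoidHom

lemma mem_cj {g x : G} {H : Subgroup G} : x ∈ cj g H ↔ g⁻¹ * x * g ∈ H := by
  constructor
  · rintro ⟨h, hh, rfl⟩
    simpa [mul_assoc] using hh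
  · intro h
    exact ⟨_, h, by simp [mul_assoc]⟩

lemma cj_cj (a b : G) (H : Subgroup G) : cj a (cj b H) = cj (a * b) H := by
  ext x
  simp only [mem_cj, mul_inv_rev, mul_assoc]

lemma cj_one (H : Subgroup G) : cj (1 : G) H = H := by
  ext x
  simp [mem_cj]

lemma cj_inj {a : G} {H K : Subgroup G} (h : cj a H = cj a K) : H = K := by
  have := congrArg (cj a⁻¹) h
  simpa [cj_cj, cj_one] using this

lemma cj_sup (a : G) (H K : Subgroup G) : cj a (H ⊔ K) = cj a H ⊔ cj a K :=
  Subgroup.map_sup _ _ _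

lemma cj_mono (a : G) {H K : Subgroup G} (h : H ≤ K) : cj a H ≤ cj a K :=
  Subgroup.map_mono h

lemma cj_inf (a : G) (H K : Subgroup G) : cj a (H ⊓ K) = cj a H ⊓ cj a K := by
  ext x
  simp only [Subgroup.mem_inf, mem_cj]

lemma conj_mem_cj {a x : G} {H : Subgroup G} (h : x ∈ H) : a * x * a⁻¹ ∈ cj a H :=
  mem_cj.mpr (by simpa [mul_assoc] using h)

lemma cj_normal (a : G) (A : Subgroup G) [hA : A.Normal] : cj a A = A := by
  ext x
  rw [mem_cj]
  constructor
  · intro h
    have := hA.conj_mem _ h a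
    simpa [mul_assoc] using this
  · intro h
    have := hA.conj_mem _ h a⁻¹
    simpa using this

lemma mem_normalizer_iff_cj {a : G} {H : Subgroup G} :
    a ∈ normalizer (H : Set G) ↔ cj a H = H := by
  rw [Subgroup.mem_normalizer_iff]
  constructor
  · intro h
    ext x
    rw [mem_cj, h (a⁻¹ * x * a)]
    simp [mul_assoc]
  · intro h x
    rw [show (a * x * a⁻¹ ∈ H) ↔ a * x * a⁻¹ ∈ cj a H by rw [h], mem_cj]
    simp [mul_assoc]

lemma cj_eq_of_mem {a : G} {H : Subgroup G} (h : a ∈ H) : cj a H = H := by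
  ext x
  rw [mem_cj]
  constructor
  · intro hx
    have := H.mul_mem (H.mul_mem h hx) (H.inv_mem h)
    simpa [mul_assoc] using this
  · intro hx
    exact H.mul_mem (H.mul_mem (H.inv_mem h) hx) h

/-- The pronormality condition at one element. -/
def Good (K : Subgroup G) (g : G) : Prop := ∃ x ∈ K ⊔ cj g K, cj g K = cj x K

lemma good_step {K : Subgroup G} {g g' y n : G} (hg : g = y * g' * n)
    (hy : y ∈ K ⊔ cj g K) (hn : n ∈ normalizer (K : Set G)) (h : Good K g') : Good K g := by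
  obtain ⟨x, hx, hxe⟩ := h
  have h1 : cj g K = cj y (cj g' K) := by
    rw [hg, ← cj_cj (y * g') n K, mem_normalizer_iff_cj.mp hn, cj_cj]
  have h2 : cj g' K ≤ K ⊔ cj g K := by
    have : cj g' K = cj y⁻¹ (cj g K) := by rw [h1, cj_cj, inv_mul_cancel, cj_one]
    rw [this]
    intro z hz
    rw [mem_cj, inv_inv] at hz
    have : z = y⁻¹ * (y * z * y⁻¹) * y := by group
    rw [this]
    refine mul_mem (mul_mem (inv_mem hy) ?_) hy
    exact (le_sup_right : cj g K ≤ K ⊔ cj g K) (by simpa [mul_assoc] using hz)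
  have h3 : K ⊔ cj g' K ≤ K ⊔ cj g K := sup_le le_sup_left h2
  refine ⟨y * x, mul_mem hy (h3 hx), ?_⟩
  rw [h1, hxe, cj_cj]

lemma isPronormal_of_cj {K : Subgroup G} (c : G) (h : IsPronormal (cj c K)) : IsPronormal K := by
  intro g
  obtain ⟨x, hx, hxe⟩ := h (c * g * c⁻¹)
  change x ∈ cj c K ⊔ cj (c * g * c⁻¹) (cj c K) at hx
  change cj (c * g * c⁻¹) (cj c K) = cj x (cj c K) at hxe
  have e1 : cj (c * g * c⁻¹) (cj c K) = cj c (cj g K) := by
    rw [cj_cj, cj_cj]; congr 1; group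
  rw [e1, ← cj_sup] at hx
  rw [e1] at hxe
  have hx' := mem_cj.mp hx
  refine ⟨c⁻¹ * x * c, hx', ?_⟩
  show cj g K = cj (c⁻¹ * x * c) K
  apply cj_inj (a := c)
  rw [hxe, cj_cj, cj_cj]
  congr 1
  group

end General

section SI

variable {G : Type*} [Group G] [Finite G] {p : ℕ} [Fact p.Prime]

/-- `X` is a maximal `p`-subgroup of `A`. -/
def SI (p : ℕ) (A X : Subgroup G) : Prop :=
  X ≤ A ∧ IsPGroup p X ∧ ∀ Y : Subgroup G, Y ≤ A → IsPGroup p Y → X ≤ Y → Y = X

omit [Finite G] [Fact p.Prime] in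
lemma si_of_sylow {A : Subgroup G} (P : Sylow p A) : SI p A ((P : Subgroup A).map A.subtype) := by
  refine ⟨map_subtype_le _, P.2.map _, ?_⟩
  intro Y hYA hY hle
  have h1 : IsPGroup p (Y.subgroupOf A) := hY.comap_subtype
  have h2 : (P : Subgroup A) ≤ Y.subgroupOf A := by
    intro x hx
    exact hle ⟨x, hx, rfl⟩
  have h3 := P.is_maximal' h1 h2
  rw [← h3, Subgroup.map_subgroupOf_eq_of_le hYA]

omit [Finite G] [Fact p.Prime] in
lemma si_cj {A X : Subgroup G} [A.Normal] (h : SI p A X) (c : G) : SI p A (cj c X) := by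
  obtain ⟨h1, h2, h3⟩ := h
  refine ⟨?_, h2.map _, ?_⟩
  · rw [← cj_normal c A]
    exact cj_mono c h1
  · intro Y hY hYp hle
    have : cj c⁻¹ Y = X := by
      apply h3
      · rw [← cj_normal c⁻¹ A]
        exact cj_mono _ hY
      · exact hYp.map _
      · have := cj_mono c⁻¹ hle
        rwa [cj_cj, inv_mul_cancel, cj_one] at this
    rw [← this, cj_cj, mul_inv_cancel, cj_one]

lemma si_conj {A B X₁ X₂ : Subgroup G} (hB : B ≤ A) (h₁ : SI p A X₁) (h₂ : SI p A X₂)
    (l₁ : X₁ ≤ B) (l₂ : X₂ ≤ B) : ∃ q ∈ B, X₂ = cj q X₁ := by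
  have mk : ∀ X : Subgroup G, SI p A X → X ≤ B → ∃ S : Sylow p B, (S : Subgroup B) = X.subgroupOf B := by
    intro X hX hle
    refine ⟨⟨X.subgroupOf B, hX.2.1.comap_subtype, ?_⟩, rfl⟩
    intro Q hQ hleQ
    have hY := hX.2.2 (Q.map B.subtype) ((map_subtype_le _).trans hB) (hQ.map _) (by
      intro x hx
      exact ⟨⟨x, hle hx⟩, hleQ hx, rfl⟩)
    rw [← hY]
    exact (Subgroup.comap_map_eq_self_of_injective B.subtype_injective Q).symm
  obtain ⟨S₁, hS₁⟩ := mk X₁ h₁ l₁
  obtain ⟨S₂, hS₂⟩ := mk X₂ h₂ l₂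
  obtain ⟨q, hq⟩ := MulAction.exists_smul_eq B S₁ S₂
  refine ⟨q, q.2, ?_⟩
  have hco : (S₂ : Subgroup B) = MulAut.conj q • (S₁ : Subgroup B) := by
    rw [← hq, Sylow.coe_subgroup_smul]
  rw [hS₁, hS₂] at hco
  ext x
  rw [mem_cj]
  constructor
  · intro hx
    have h3 : (⟨x, l₂ hx⟩ : B) ∈ X₂.subgroupOf B := hx
    rw [hco, Subgroup.mem_pointwise_smul_iff_inv_smul_mem, Subgroup.mem_subgroupOf] at h3
    simpa [MulAut.smul_def, MulAut.conj_inv_apply] using h3
  · intro hx
    have hy : (⟨q⁻¹ * x * q, l₁ hx⟩ : B) ∈ X₁.subgroupOf B := hx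
    have h3 := Subgroup.smul_mem_pointwise_smul _ (MulAut.conj q) _ hy
    rw [← hco, Subgroup.mem_subgroupOf] at h3
    simpa [MulAut.smul_def, mul_assoc] using h3

end SI

section Main

variable {G : Type*} [Group G] [Finite G] {p : ℕ} [Fact p.Prime]

omit [Finite G] in
lemma map_cj {G' : Type*} [Group G'] (f : G →* G') (g : G) (H : Subgroup G) :
    (cj g H).map f = cj (f g) (H.map f) := by
  ext y
  constructor
  · rintro ⟨_, ⟨h, hh, rfl⟩, rfl⟩
    exact ⟨f h, ⟨h, hh, rfl⟩, by simp⟩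
  · rintro ⟨_, ⟨h, hh, rfl⟩, rfl⟩
    exact ⟨_, ⟨h, hh, rfl⟩, by simp⟩

omit [Finite G] [Fact p.Prime] in
lemma sylow_inf_eq {A T : Subgroup G} (hsi : SI p A T) {S : Subgroup G} (hS : IsPGroup p S)
    (hTS : T ≤ S) : S ⊓ A = T :=
  hsi.2.2 (S ⊓ A) inf_le_right (hS.to_le inf_le_left) (le_inf hTS hsi.1)

omit [Finite G] [Fact p.Prime] in
lemma le_normalizer_of_si {A T : Subgroup G} [A.Normal] (hsi : SI p A T) {S : Subgroup G}
    (hS : IsPGroup p S) (hTS : T ≤ S) : S ≤ normalizer (T : Set G) := by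
  intro s hs
  rw [mem_normalizer_iff_cj, ← sylow_inf_eq hsi hS hTS, cj_inf, cj_eq_of_mem hs, cj_normal]

/-- The pronormality property of subgroups of `N(T)` above `T`. -/
def Star (p : ℕ) (T : Subgroup G) : Prop :=
  ∀ H : Subgroup G, T ≤ H → H ≤ normalizer (T : Set G) → (∃ S : Sylow p G, (S : Subgroup G) ≤ H) →
    ∀ d ∈ normalizer (T : Set G), Good H d

/-- The last step of the reduction. -/
lemma good_last {A T K : Subgroup G} [A.Normal] (hsi : SI p A T) (hstar : Star p T)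
    (S₀ : Sylow p G) (hT : T ≤ S₀) (hK : (S₀ : Subgroup G) ≤ K) {d : G}
    (hd : d ∈ normalizer (T : Set G)) (hdQ : cj d (K ⊓ A) = K ⊓ A) : Good K d := by
  set Q₁ := K ⊓ A with hQ₁
  set H₁ := K ⊓ normalizer (T : Set G) with hH₁
  have hS₀N : (S₀ : Subgroup G) ≤ normalizer (T : Set G) := le_normalizer_of_si hsi S₀.2 hT
  have hH₁T : T ≤ H₁ := le_inf (hT.trans hK) (hT.trans hS₀N)
  obtain ⟨x, hx, hxe⟩ := hstar H₁ hH₁T inf_le_right ⟨S₀, le_inf hK hS₀N⟩ d hd
  have hT₁ : T ≤ Q₁ := le_inf (hT.trans hK) hsi.1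
  have hnk : ∀ k ∈ K, cj k Q₁ = Q₁ := by
    intro k hk
    rw [hQ₁, cj_inf, cj_eq_of_mem hk, cj_normal]
  -- Frattini
  have hFr : K = Q₁ ⊔ H₁ := by
    apply le_antisymm
    · intro k hk
      have h1 : cj k T ≤ Q₁ := by
        have := cj_mono k hT₁
        rwa [hnk k hk] at this
      obtain ⟨q, hq, hqe⟩ := si_conj (inf_le_right : Q₁ ≤ A) hsi (si_cj hsi k) hT₁ h1
      have h2 : q⁻¹ * k ∈ H₁ := by
        refine Subgroup.mem_inf.mpr ⟨K.mul_mem (K.inv_mem hq.1) hk, ?_⟩
        rw [mem_normalizer_iff_cj, ← cj_cj, hqe, cj_cj, inv_mul_cancel, cj_one]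
      have h3 : k = q * (q⁻¹ * k) := by group
      rw [h3]
      exact mul_mem ((le_sup_left : Q₁ ≤ Q₁ ⊔ H₁) hq) ((le_sup_right : H₁ ≤ Q₁ ⊔ H₁) h2)
    · exact sup_le inf_le_left inf_le_left
  have hxK : x ∈ K ⊔ cj d K := by
    have : H₁ ⊔ cj d H₁ ≤ K ⊔ cj d K :=
      sup_le (inf_le_left.trans le_sup_left) ((cj_mono d inf_le_left).trans le_sup_right)
    exact this hx
  have hxN : x ∈ normalizer (Q₁ : Set G) := by
    have h1 : K ≤ normalizer (Q₁ : Set G) := fun k hk => mem_normalizer_iff_cj.mpr (hnk k hk)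
    have hdN : d ∈ normalizer (Q₁ : Set G) := mem_normalizer_iff_cj.mpr hdQ
    have h2 : cj d K ≤ normalizer (Q₁ : Set G) := by
      intro y hy
      have h3 := h1 (mem_cj.mp hy)
      have h4 : y = d * (d⁻¹ * y * d) * d⁻¹ := by group
      rw [h4]
      exact mul_mem (mul_mem hdN h3) (inv_mem hdN)
    exact (sup_le h1 h2) hxK
  refine ⟨x, hxK, ?_⟩
  rw [hFr, cj_sup, cj_sup, hdQ, mem_normalizer_iff_cj.mp hxN, hxe]

/-- Reverse direction, for subgroups containing a fixed Sylow subgroup above `T`. -/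
theorem pronormal_of_star {A T K : Subgroup G} [A.Normal] (P : Sylow p A)
    (hPT : (P : Subgroup A).map A.subtype = T)
    (hA : ∀ K : Subgroup ↥A, (∃ P : Sylow p ↥A, (P : Subgroup ↥A) ≤ K) → IsPronormal K)
    (hQ : ∀ K : Subgroup (G ⧸ A), (∃ P : Sylow p (G ⧸ A), (P : Subgroup (G ⧸ A)) ≤ K) → IsPronormal K)
    (hstar : Star p T)
    (hii : ∀ K : Subgroup G, (∃ P : Sylow p G, (P : Subgroup G) ≤ K) →
      ∀ u ∈ normalizer ((K.map (QuotientGroup.mk' A) : Subgroup (G ⧸ A)) : Set (G ⧸ A)),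
        ∃ n ∈ normalizer (K : Set G), QuotientGroup.mk' A n = u)
    (S₀ : Sylow p G) (hT : T ≤ S₀) (hK : (S₀ : Subgroup G) ≤ K) : IsPronormal K := by
  intro g
  change Good K g
  have hsi : SI p A T := hPT ▸ si_of_sylow P
  set π := QuotientGroup.mk' A with hπ
  have hπs : Function.Surjective π := QuotientGroup.mk'_surjective A
  -- Step a
  have hQK : IsPronormal (K.map π) := by
    apply hQ
    exact ⟨S₀.mapSurjective hπs, by
      rw [Sylow.coe_mapSurjective]
      exact Subgroup.map_mono hK⟩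
  obtain ⟨xb, hxb, hxbe⟩ := hQK (π g)
  change xb ∈ K.map π ⊔ cj (π g) (K.map π) at hxb
  change cj (π g) (K.map π) = cj xb (K.map π) at hxbe
  rw [← map_cj, ← Subgroup.map_sup] at hxb
  obtain ⟨y, hy, rfl⟩ := hxb
  have hnor : π (y⁻¹ * g) ∈ normalizer ((K.map π : Subgroup (G ⧸ A)) : Set (G ⧸ A)) := by
    rw [mem_normalizer_iff_cj, map_mul, ← cj_cj, hxbe, cj_cj, map_inv, inv_mul_cancel, cj_one]
  obtain ⟨n, hn, hne⟩ := hii K ⟨S₀, hK⟩ _ hnor
  set b := y⁻¹ * g * n⁻¹ with hb
  have hbA : b ∈ A := by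
    have : π b = 1 := by
      rw [hb, map_mul, map_inv, hne]
      simp
    rwa [hπ, ← MonoidHom.mem_ker, QuotientGroup.ker_mk'] at this
  refine good_step (g' := b) (y := y) (n := n) (by rw [hb]; group) hy hn ?_
  -- Step b
  have hPK : (P : Subgroup A) ≤ K.subgroupOf A := by
    intro x hx
    have : (x : G) ∈ T := by rw [← hPT]; exact ⟨x, hx, rfl⟩
    exact hK (hT this)
  obtain ⟨x, hx, hxe⟩ := hA (K.subgroupOf A) ⟨P, hPK⟩ ⟨b, hbA⟩
  change x ∈ K.subgroupOf A ⊔ cj ⟨b, hbA⟩ (K.subgroupOf A) at hx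
  change cj ⟨b, hbA⟩ (K.subgroupOf A) = cj x (K.subgroupOf A) at hxe
  have hmapK : (K.subgroupOf A).map A.subtype = K ⊓ A := Subgroup.subgroupOf_map_subtype _ _
  have h1 := congrArg (Subgroup.map A.subtype) hxe
  rw [map_cj, map_cj, hmapK] at h1
  change cj b (K ⊓ A) = cj (x : G) (K ⊓ A) at h1
  have hxval : (x : G) ∈ K ⊔ cj b K := by
    have h2 : (x : G) ∈ (K.subgroupOf A ⊔ cj ⟨b, hbA⟩ (K.subgroupOf A)).map A.subtype := ⟨x, hx, rfl⟩
    rw [Subgroup.map_sup, map_cj, hmapK] at h2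
    exact (sup_le (inf_le_left.trans le_sup_left) ((cj_mono b inf_le_left).trans le_sup_right)) h2
  set b₁ := (x : G)⁻¹ * b with hb₁
  have hb₁A : b₁ ∈ A := A.mul_mem (A.inv_mem x.2) hbA
  have hb₁Q : cj b₁ (K ⊓ A) = K ⊓ A := by
    rw [hb₁, ← cj_cj, h1, cj_cj, inv_mul_cancel, cj_one]
  refine good_step (g' := b₁) (y := (x : G)) (n := 1) (by rw [hb₁]; group) hxval (one_mem _) ?_
  -- Step c
  have hT₁ : T ≤ K ⊓ A := le_inf (hT.trans hK) hsi.1
  have h2 : cj b₁ T ≤ K ⊓ A := by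
    have := cj_mono b₁ hT₁
    rwa [hb₁Q] at this
  obtain ⟨q, hq, hqe⟩ := si_conj (inf_le_right : K ⊓ A ≤ A) hsi (si_cj hsi b₁) hT₁ h2
  set d := q⁻¹ * b₁ with hd
  have hdT : d ∈ normalizer (T : Set G) := by
    rw [mem_normalizer_iff_cj, hd, ← cj_cj, hqe, cj_cj, inv_mul_cancel, cj_one]
  have hdQ : cj d (K ⊓ A) = K ⊓ A := by
    rw [hd, ← cj_cj, hb₁Q, cj_eq_of_mem (inv_mem hq)]
  refine good_step (g' := d) (y := q) (n := 1) (by rw [hd]; group)
    ((le_sup_left : K ≤ K ⊔ cj b₁ K) hq.1) (one_mem _) ?_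
  exact good_last hsi hstar S₀ hT hK hdT hdQ

end Main

/-- Star property from pronormality in the quotient `N(T)/T`. -/
lemma star_of_quotient {G : Type*} [Group G] [Finite G] {p : ℕ} [Fact p.Prime] (T : Subgroup G)
    [(T.subgroupOf (Subgroup.normalizer (T : Set G))).Normal]
    (hi : ∀ K : Subgroup (↥(Subgroup.normalizer (T : Set G)) ⧸ T.subgroupOf (Subgroup.normalizer (T : Set G))), (∃ P : Sylow p (↥(Subgroup.normalizer (T : Set G)) ⧸ T.subgroupOf (Subgroup.normalizer (T : Set G))), (P : Subgroup (↥(Subgroup.normalizer (T : Set G)) ⧸ T.subgroupOf (Subgroup.normalizer (T : Set G)))) ≤ K) → Cfsg.IsPronormal K) :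
    Star p T := by
  intro H hTH hHN ⟨S, hS⟩ d hd
  set N := Subgroup.normalizer (T : Set G) with hN
  set π := QuotientGroup.mk' (T.subgroupOf N) with hπ
  have hπs : Function.Surjective π := QuotientGroup.mk'_surjective _
  set H₀ := H.subgroupOf N with hH₀
  have hSN : (S : Subgroup G) ≤ N := hS.trans hHN
  have hpron : IsPronormal (H₀.map π) := by
    apply hi
    refine ⟨(S.subtype hSN).mapSurjective hπs, ?_⟩
    rw [Sylow.coe_mapSurjective, Sylow.coe_subtype]
    exact Subgroup.map_mono (fun x hx => hS hx)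
  set d₀ : N := ⟨d, hd⟩ with hd₀
  obtain ⟨xb, hxb, hxbe⟩ := hpron (π d₀)
  change xb ∈ H₀.map π ⊔ cj (π d₀) (H₀.map π) at hxb
  change cj (π d₀) (H₀.map π) = cj xb (H₀.map π) at hxbe
  rw [← map_cj, ← Subgroup.map_sup] at hxb
  obtain ⟨z, hz, rfl⟩ := hxb
  rw [← map_cj, ← map_cj] at hxbe
  have hker : π.ker = T.subgroupOf N := QuotientGroup.ker_mk' _
  have hTH₀ : T.subgroupOf N ≤ H₀ := fun x hx => hTH hx
  have hk1 : ∀ u : N, π.ker ≤ cj u H₀ := by
    intro u
    rw [hker, ← cj_normal u (T.subgroupOf N)]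
    exact cj_mono u hTH₀
  have h0 : cj d₀ H₀ = cj z H₀ := by
    rw [← Subgroup.comap_map_eq_self (hk1 d₀), hxbe, Subgroup.comap_map_eq_self (hk1 z)]
  have hmapH : H₀.map N.subtype = H := Subgroup.map_subgroupOf_eq_of_le hHN
  refine ⟨(z : G), ?_, ?_⟩
  · have h2 : (z : G) ∈ (H₀ ⊔ cj d₀ H₀).map N.subtype := ⟨z, hz, rfl⟩
    rw [Subgroup.map_sup, map_cj, hmapH] at h2
    exact h2
  · have h2 := congrArg (Subgroup.map N.subtype) h0
    rw [map_cj, map_cj, hmapH] at h2
    exact h2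

theorem result {G : Type*} [Group G] [Finite G] {p : ℕ} [Fact p.Prime]
    (A : Subgroup G) [A.Normal] (hA : (∀ K : Subgroup ↥A, (∃ P : Sylow p ↥A, (P : Subgroup ↥A) ≤ K) → Cfsg.IsPronormal K)) (hQ : (∀ K : Subgroup (G ⧸ A), (∃ P : Sylow p (G ⧸ A), (P : Subgroup (G ⧸ A)) ≤ K) → Cfsg.IsPronormal K))
    (T : Subgroup G) (hT : ∃ P : Sylow p ↥A, (P : Subgroup ↥A).map A.subtype = T) [(T.subgroupOf (Subgroup.normalizer (T : Set G))).Normal] :
    (∀ K : Subgroup G, (∃ P : Sylow p G, (P : Subgroup G) ≤ K) → Cfsg.IsPronormal K) ↔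
      ((∀ K : Subgroup (↥(Subgroup.normalizer (T : Set G)) ⧸ T.subgroupOf (Subgroup.normalizer (T : Set G))), (∃ P : Sylow p (↥(Subgroup.normalizer (T : Set G)) ⧸ T.subgroupOf (Subgroup.normalizer (T : Set G))), (P : Subgroup (↥(Subgroup.normalizer (T : Set G)) ⧸ T.subgroupOf (Subgroup.normalizer (T : Set G)))) ≤ K) → Cfsg.IsPronormal K) ∧
        ∀ K : Subgroup G, (∃ P : Sylow p G, (P : Subgroup G) ≤ K) →
          (Subgroup.normalizer (K : Set G)).map (QuotientGroup.mk' A) = Subgroup.normalizer ((K.map (QuotientGroup.mk' A) : Subgroup (G ⧸ A)) : Set (G ⧸ A))) := by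
  obtain ⟨P, hPT⟩ := hT
  have hsi : SI p A T := hPT ▸ si_of_sylow P
  constructor
  · intro hall
    refine ⟨?_, ?_⟩
    · -- pronormality in the quotient
      intro K hK
      set N := Subgroup.normalizer (T : Set G) with hN
      set π := QuotientGroup.mk' (T.subgroupOf N) with hπ
      have hπs : Function.Surjective π := QuotientGroup.mk'_surjective _
      set H := K.comap π with hH
      have hmapH : H.map π = K := Subgroup.map_comap_eq_self_of_surjective hπs K
      have hker : π.ker = T.subgroupOf N := QuotientGroup.ker_mk' _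
      have hhat : IsPronormal (H.map N.subtype) := by
        apply hall
        obtain ⟨Pb, hPb⟩ := hK
        have hkerp : IsPGroup p π.ker := by
          rw [hker]
          exact hsi.2.1.comap_subtype
        have hPh : IsPGroup p ((Pb : Subgroup _).comap π) := Pb.2.comap_of_ker_isPGroup π hkerp
        obtain ⟨S, hS⟩ := (hPh.map N.subtype).exists_le_sylow
        have hTS : T ≤ S := by
          intro t ht
          have htN : t ∈ N := by
            rw [hN, mem_normalizer_iff_cj]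
            exact cj_eq_of_mem ht
          apply hS
          refine Subgroup.mem_map.mpr ⟨⟨t, htN⟩, ?_, rfl⟩
          have : (⟨t, htN⟩ : N) ∈ π.ker := by
            rw [hker]
            exact ht
          rw [Subgroup.mem_comap, MonoidHom.mem_ker.mp this]
          exact one_mem _
        have hSN : (S : Subgroup G) ≤ N := le_normalizer_of_si hsi S.2 hTS
        have him : IsPGroup p (((S : Subgroup G).subgroupOf N).map π) :=
          (S.2.comap_subtype).map π
        have hle : (Pb : Subgroup _) ≤ ((S : Subgroup G).subgroupOf N).map π := by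
          intro y hy
          obtain ⟨w, rfl⟩ := hπs y
          refine ⟨w, ?_, rfl⟩
          exact hS ⟨w, hy, rfl⟩
        have heq := Pb.is_maximal' him hle
        refine ⟨S, ?_⟩
        intro s hs
        have hsN := hSN hs
        refine Subgroup.mem_map.mpr ⟨⟨s, hsN⟩, ?_, rfl⟩
        rw [hH, Subgroup.mem_comap]
        apply hPb
        rw [← heq]
        exact ⟨⟨s, hsN⟩, hs, rfl⟩
      intro gb
      obtain ⟨g₀, rfl⟩ := hπs gb
      obtain ⟨x, hx, hxe⟩ := hhat (g₀ : G)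
      change x ∈ H.map N.subtype ⊔ cj (g₀ : G) (H.map N.subtype) at hx
      change cj (g₀ : G) (H.map N.subtype) = cj x (H.map N.subtype) at hxe
      have e1 : cj (g₀ : G) (H.map N.subtype) = (cj g₀ H).map N.subtype := (map_cj _ _ _).symm
      rw [e1, ← Subgroup.map_sup] at hx
      obtain ⟨z, hz, rfl⟩ := hx
      have e2 : cj (N.subtype z) (H.map N.subtype) = (cj z H).map N.subtype := (map_cj _ _ _).symm
      rw [e1, e2] at hxe
      have h0 : cj g₀ H = cj z H := Subgroup.map_injective N.subtype_injective hxe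
      refine ⟨π z, ?_, ?_⟩
      · change π z ∈ K ⊔ cj (π g₀) K
        have h2 : π z ∈ (H ⊔ cj g₀ H).map π := ⟨z, hz, rfl⟩
        rw [Subgroup.map_sup, map_cj, hmapH] at h2
        exact h2
      · change cj (π g₀) K = cj (π z) K
        have h2 := congrArg (Subgroup.map π) h0
        rw [map_cj, map_cj, hmapH] at h2
        exact h2
    · -- normalizer condition
      intro K hK
      set π := QuotientGroup.mk' A with hπ
      apply le_antisymm
      · exact Subgroup.le_normalizer_map _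
      · intro u hu
        obtain ⟨g, rfl⟩ := QuotientGroup.mk'_surjective A u
        obtain ⟨x, hx, hxe⟩ := hall K hK g
        change x ∈ K ⊔ cj g K at hx
        change cj g K = cj x K at hxe
        have hle : K ⊔ cj g K ≤ K ⊔ A := by
          refine sup_le le_sup_left ?_
          have h1 : cj g K ≤ (K.map π).comap π := by
            intro y hy
            rw [Subgroup.mem_comap]
            have h2 : π y ∈ (cj g K).map π := ⟨y, hy, rfl⟩
            rw [map_cj, mem_normalizer_iff_cj.mp hu] at h2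
            exact h2
          rw [Subgroup.comap_map_eq, hπ, QuotientGroup.ker_mk'] at h1
          exact h1
        have hx2 := hle hx
        rw [sup_comm, ← SetLike.mem_coe, Subgroup.normal_mul] at hx2
        obtain ⟨a, ha, k, hk, rfl⟩ := Set.mem_mul.mp hx2
        have h3 : cj g K = cj a K := by
          rw [hxe, ← cj_cj, cj_eq_of_mem hk]
        refine ⟨a⁻¹ * g, ?_, ?_⟩
        · rw [SetLike.mem_coe, mem_normalizer_iff_cj, ← cj_cj, h3, cj_cj, inv_mul_cancel, cj_one]
        · have : π a = 1 := by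
            rw [← MonoidHom.mem_ker, hπ, QuotientGroup.ker_mk']
            exact ha
          rw [map_mul, map_inv, this, inv_one, one_mul]
  · rintro ⟨hi, hii⟩
    have hstar : Star p T := star_of_quotient T hi
    obtain ⟨S₀, hS₀⟩ := (hsi.2.1).exists_le_sylow
    rintro K ⟨R, hR⟩
    obtain ⟨c, hc⟩ := MulAction.exists_smul_eq G R S₀
    have hcle : (S₀ : Subgroup G) ≤ cj c K := by
      rw [← hc, Sylow.coe_subgroup_smul]
      intro y hy
      rw [Subgroup.mem_pointwise_smul_iff_inv_smul_mem] at hy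
      rw [mem_cj]
      apply hR
      simpa [MulAut.smul_def, MulAut.conj_inv_apply] using hy
    apply isPronormal_of_cj c
    refine pronormal_of_star P hPT hA hQ hstar ?_ S₀ hS₀ hcle
    intro K' hK' u hu
    have := hii K' hK'
    rw [← this] at hu
    obtain ⟨n, hn, hne⟩ := hu
    exact ⟨n, hn, hne⟩

end Cfsg.Agent.S4270
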