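import Cfsg.Statements.S4271
import Mathlib
import Cfsg.Agent.S4270
-- import your own Cfsg.Agent.* helpers here

set_option autoImplicit false
open Cfsg

namespace Cfsg.Agent.S4271

/-- Let p be a prime and G a finite group with a normal subgroup A such that every subgroup of A containing a Sylow p-subgroup of A is pronormal in A, and the Sylow p-subgroups of G/A are self-normalizing. Let T be a Sylow p-subgroup of A. Then every subgroup of G containing a Sylow p-subgroup of G is pronormal in G if and only if every subgroup of N_G(T)/T containing a Sylow p-subgroup of N_G(T)/T is pronormal in N_G(T)/T. (Pronormal: H and gHg⁻¹ are conjugate inside the subgroup they generate, for every g.) -/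
theorem result {G : Type*} [Group G] [Finite G] {p : ℕ} [Fact p.Prime]
    (A : Subgroup G) [A.Normal] (hA : (∀ K : Subgroup ↥A, (∃ P : Sylow p ↥A, (P : Subgroup ↥A) ≤ K) → Cfsg.IsPronormal K))
    (hQ : ∀ P : Sylow p (G ⧸ A), Subgroup.normalizer ((P : Subgroup (G ⧸ A)) : Set (G ⧸ A)) = P)
    (T : Subgroup G) (hT : ∃ P : Sylow p ↥A, (P : Subgroup ↥A).map A.subtype = T) [(T.subgroupOf (Subgroup.normalizer (T : Set G))).Normal] :
    (∀ K : Subgroup G, (∃ P : Sylow p G, (P : Subgroup G) ≤ K) → Cfsg.IsPronormal K) ↔ (∀ K : Subgroup (↥(Subgroup.normalizer (T : Set G)) ⧸ T.subgroupOf (Subgroup.normalizer (T : Set G))), (∃ P : Sylow p (↥(Subgroup.normalizer (T : Set G)) ⧸ T.subgroupOf (Subgroup.normalizer (T : Set G))), (P : Subgroup (↥(Subgroup.normalizer (T : Set G)) ⧸ T.subgroupOf (Subgroup.normalizer (T : Set G)))) ≤ K) → Cfsg.IsPronormal K) := by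
  have hQ' : ∀ K : Subgroup (G ⧸ A), (∃ P : Sylow p (G ⧸ A), (P : Subgroup (G ⧸ A)) ≤ K) → Cfsg.IsPronormal K := by
    rintro K ⟨P, hP⟩ g
    -- Sylow conjugacy inside the join
    set Y := K ⊔ S4270.cj g K with hY
    have h1 : IsPGroup p (P : Subgroup (G ⧸ A)) := P.2
    have h2 : (P : Subgroup (G ⧸ A)) ≤ Y := hP.trans le_sup_left
    have h3 : S4270.cj g (P : Subgroup (G ⧸ A)) ≤ Y :=
      (S4270.cj_mono g hP).trans le_sup_right
    have hS : S4270.SI p Y (P : Subgroup (G ⧸ A)) := by
      refine ⟨h2, h1, fun Z _ hZ hle => P.is_maximal' hZ hle⟩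
    have hS' : S4270.SI p Y (S4270.cj g (P : Subgroup (G ⧸ A))) := by
      refine ⟨h3, h1.map _, fun Z hZY hZ hle => ?_⟩
      have h4 : S4270.cj g⁻¹ Z = P := by
        apply P.is_maximal' (hZ.map _)
        have := S4270.cj_mono g⁻¹ hle
        rwa [S4270.cj_cj, inv_mul_cancel, S4270.cj_one] at this
      rw [← h4, S4270.cj_cj, mul_inv_cancel, S4270.cj_one]
    obtain ⟨y, hy, hye⟩ := S4270.si_conj le_rfl hS hS' h2 h3
    refine ⟨y, hy, ?_⟩
    have h5 : y⁻¹ * g ∈ Subgroup.normalizer ((P : Subgroup (G ⧸ A)) : Set (G ⧸ A)) := by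
      rw [S4270.mem_normalizer_iff_cj, ← S4270.cj_cj, hye, S4270.cj_cj, inv_mul_cancel, S4270.cj_one]
    rw [hQ P] at h5
    have h6 : S4270.cj (y⁻¹ * g) K = K := S4270.cj_eq_of_mem (hP h5)
    change S4270.cj g K = S4270.cj y K
    calc S4270.cj g K = S4270.cj y (S4270.cj (y⁻¹ * g) K) := by
          rw [S4270.cj_cj, mul_inv_cancel_left]
      _ = S4270.cj y K := by rw [h6]
  rw [S4270.result A hA hQ' T hT]
  constructor
  · exact fun h => h.1
  · intro h
    refine ⟨h, ?_⟩
    rintro K ⟨R, hR⟩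
    set π := QuotientGroup.mk' A with hπ
    apply le_antisymm (Subgroup.le_normalizer_map _)
    -- the normalizer of the image is the image
    have hRs := R.mapSurjective (QuotientGroup.mk'_surjective A)
    intro u hu
    have hP : ((R.mapSurjective (QuotientGroup.mk'_surjective A) : Sylow p (G ⧸ A)) : Subgroup (G ⧸ A)) ≤ K.map π := by
      rw [Sylow.coe_mapSurjective]
      exact Subgroup.map_mono hR
    set Pb := (R.mapSurjective (QuotientGroup.mk'_surjective A) : Sylow p (G ⧸ A)) with hPb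
    set Kb := K.map π with hKb
    have hcj : S4270.cj u Kb = Kb := S4270.mem_normalizer_iff_cj.mp hu
    have hl : S4270.cj u (Pb : Subgroup (G ⧸ A)) ≤ Kb := by
      have := S4270.cj_mono u hP
      rwa [hcj] at this
    have hS : S4270.SI p Kb (Pb : Subgroup (G ⧸ A)) :=
      ⟨hP, Pb.2, fun Z _ hZ hle => Pb.is_maximal' hZ hle⟩
    have hS' : S4270.SI p Kb (S4270.cj u (Pb : Subgroup (G ⧸ A))) := by
      refine ⟨hl, Pb.2.map _, fun Z hZY hZ hle => ?_⟩
      have h4 : S4270.cj u⁻¹ Z = Pb := by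
        apply Pb.is_maximal' (hZ.map _)
        have := S4270.cj_mono u⁻¹ hle
        rwa [S4270.cj_cj, inv_mul_cancel, S4270.cj_one] at this
      rw [← h4, S4270.cj_cj, mul_inv_cancel, S4270.cj_one]
    obtain ⟨q, hq, hqe⟩ := S4270.si_conj le_rfl hS hS' hP hl
    have h5 : q⁻¹ * u ∈ Subgroup.normalizer ((Pb : Subgroup (G ⧸ A)) : Set (G ⧸ A)) := by
      rw [S4270.mem_normalizer_iff_cj, ← S4270.cj_cj, hqe, S4270.cj_cj, inv_mul_cancel, S4270.cj_one]
    rw [hQ Pb] at h5
    have h6 : u ∈ Kb := by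
      have := Kb.mul_mem hq (hP h5)
      simpa using this
    obtain ⟨k, hk, rfl⟩ := h6
    refine ⟨k, ?_, rfl⟩
    exact Subgroup.mem_normalizer_iff.mpr (fun x => by
      constructor
      · intro hx; exact K.mul_mem (K.mul_mem hk hx) (K.inv_mem hk)
      · intro hx
        have := K.mul_mem (K.mul_mem (K.inv_mem hk) hx) hk
        simpa [mul_assoc] using this)

end Cfsg.Agent.S4271
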