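import Cfsg.Statements.S4330
import Mathlib
import Cfsg.Agent.Lib.LinAvoid.Main
import Cfsg.Agent.Lib.Basic.PCore

set_option autoImplicit false
set_option linter.unusedSectionVars false
set_option linter.unusedVariables false
set_option linter.style.haveILetI false
open Pointwise
open Cfsg

universe u

namespace Cfsg.Agent.S4330

open Subgroup Cfsg.Agent.Lib.LinAvoid Cfsg.Agent.Lib.Basic.PCore
open scoped commutatorElement

/-- The hypothesis on `A`. -/
def Hyp {G : Type*} [Group G] (A : Subgroup G) : Prop :=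
  ∀ c : G, ∃ g : G, IsConj c g ∧ (A.subgroupOf (A ⊔ MulAut.conj g • A)).IsSubnormal

theorem map_conj_smul {G H : Type*} [Group G] [Group H] (f : G →* H) (g : G) (A : Subgroup G)
    (hf : Function.Surjective f) :
    (MulAut.conj g • A).map f = MulAut.conj (f g) • (A.map f) := by
  ext x
  constructor
  · rintro ⟨y, hy, rfl⟩
    obtain ⟨a, ha, rfl⟩ := Subgroup.mem_pointwise_smul_iff_inv_smul_mem.mp hy |> fun h =>
      (⟨g⁻¹ * y * g, by simpa [MulAut.smul_def] using h, by group⟩ : ∃ a ∈ A, g * a * g⁻¹ = y)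
    rw [Subgroup.mem_pointwise_smul_iff_inv_smul_mem]
    refine ⟨a, ha, ?_⟩
    simp [MulAut.smul_def, map_mul, map_inv]
    group
  · intro h
    rw [Subgroup.mem_pointwise_smul_iff_inv_smul_mem] at h
    obtain ⟨a, ha, hax⟩ := h
    have hax' : f a = (f g)⁻¹ * x * f g := by
      rw [hax]
      simp [MulAut.smul_def]
    refine ⟨g * a * g⁻¹, ?_, ?_⟩
    · show g * a * g⁻¹ ∈ MulAut.conj g • A
      rw [Subgroup.mem_pointwise_smul_iff_inv_smul_mem]
      simpa [MulAut.smul_def, mul_assoc] using ha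
    · rw [map_mul, map_mul, map_inv, hax']
      group

theorem hyp_map {G H : Type*} [Group G] [Group H] (f : G →* H) (hf : Function.Surjective f)
    {A : Subgroup G} (h : Hyp A) : Hyp (A.map f) := by
  intro c
  obtain ⟨c₀, rfl⟩ := hf c
  obtain ⟨g, hg, hS⟩ := h c₀
  refine ⟨f g, ?_, ?_⟩
  · obtain ⟨k, hk⟩ := isConj_iff.mp hg
    refine isConj_iff.mpr ⟨f k, ?_⟩
    rw [← hk]
    simp [map_mul, map_inv]
  · set D := A ⊔ MulAut.conj g • A with hD
    have hAD : A ≤ D := le_sup_left
    have h1 : A.map f ⊔ MulAut.conj (f g) • A.map f = D.map f := by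
      rw [hD, Subgroup.map_sup, map_conj_smul f g A hf]
    rw [h1]
    have h2 := hS.map (f := f.subgroupMap D) (f.subgroupMap_surjective D)
    convert h2 using 1
    ext ⟨x, hx⟩
    constructor
    · rintro ⟨a, ha, hax⟩
      refine ⟨⟨a, hAD ha⟩, ha, ?_⟩
      exact Subtype.ext hax
    · rintro ⟨⟨a, haD⟩, ha, hax⟩
      exact ⟨a, ha, congrArg Subtype.val hax⟩

theorem exists_abelian_normal {G : Type*} [Group G] [Group.IsSolvable G] [Nontrivial G] :
    ∃ N : Subgroup G, N.Normal ∧ N ≠ ⊥ ∧ ∀ x ∈ N, ∀ y ∈ N, x * y = y * x := by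
  classical
  have hex : ∃ n, derivedSeries G n = ⊥ := (Group.isSolvable_def G).mp inferInstance
  set n := Nat.find hex with hn
  have hn1 : derivedSeries G n = ⊥ := Nat.find_spec hex
  have hn0 : n ≠ 0 := by
    intro h
    rw [h, derivedSeries_zero] at hn1
    exact top_ne_bot hn1
  obtain ⟨m, hm⟩ := Nat.exists_eq_succ_of_ne_zero hn0
  refine ⟨derivedSeries G m, derivedSeries_normal G m, ?_, ?_⟩
  · intro h
    have := Nat.find_min' hex h
    omega
  · intro x hx y hy
    have h1 : ⁅x, y⁆ ∈ derivedSeries G (m + 1) := by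
      rw [derivedSeries_succ]
      exact Subgroup.commutator_mem_commutator hx hy
    rw [← Nat.succ_eq_add_one, ← hm, hn1, Subgroup.mem_bot] at h1
    exact commutatorElement_eq_one_iff_mul_comm.mp h1

theorem coprime_of_pCore_bot {G : Type*} [Group G] [Finite G] {p : ℕ} [hp : Fact p.Prime]
    (hQ : pCore p G = ⊥) {N : Subgroup G} (hN : N.Normal)
    (hc : ∀ x ∈ N, ∀ y ∈ N, x * y = y * x) : Nat.Coprime p (Nat.card N) := by
  rw [Nat.Prime.coprime_iff_not_dvd hp.out]
  intro hd
  obtain ⟨x, hx⟩ := exists_prime_orderOf_dvd_card' p hd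
  have hx1 : (x : G) ≠ 1 := by
    intro h
    have h1 : x = 1 := Subtype.ext h
    rw [h1, orderOf_one] at hx
    exact hp.out.one_lt.ne hx
  have hxp : (x : G) ^ p = 1 := by
    have h1 := pow_orderOf_eq_one x
    rw [hx] at h1
    simpa using congrArg Subtype.val h1
  let K : Subgroup G :=
    { carrier := {y | y ∈ N ∧ y ^ p = 1}
      mul_mem' := by
        rintro a b ⟨ha, hap⟩ ⟨hb, hbp⟩
        refine ⟨mul_mem ha hb, ?_⟩
        have h1 : Commute a b := hc a ha b hb
        rw [h1.mul_pow, hap, hbp, one_mul]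
      one_mem' := ⟨one_mem _, one_pow _⟩
      inv_mem' := by
        rintro a ⟨ha, hap⟩
        exact ⟨inv_mem ha, by rw [inv_pow, hap, inv_one]⟩ }
  have hKn : K.Normal := by
    constructor
    rintro a ⟨ha, hap⟩ g
    refine ⟨hN.conj_mem a ha g, ?_⟩
    rw [conj_pow, hap]
    simp
  have hKp : IsPGroup p K := by
    intro y
    refine ⟨1, Subtype.ext ?_⟩
    simpa using y.2.2
  have h2 : K ≤ pCore p G := le_pCore hKn hKp
  rw [hQ] at h2
  exact hx1 (Subgroup.mem_bot.mp (h2 ⟨x.2, hxp⟩))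

theorem card_quot_lt {G : Type*} [Group G] [Finite G] {N : Subgroup G} [N.Normal] (hN : N ≠ ⊥) :
    Nat.card (G ⧸ N) < Nat.card G := by
  rw [Subgroup.card_eq_card_quotient_mul_card_subgroup N]
  have h1 : 1 < Nat.card N := (Subgroup.one_lt_card_iff_ne_bot N).mpr hN
  have h2 : 0 < Nat.card (G ⧸ N) := Nat.card_pos
  nlinarith

theorem eq_one_of_mem_of_pow {G : Type*} [Group G] [Finite G] {p : ℕ} {N : Subgroup G}
    (hcop : Nat.Coprime p (Nat.card N)) {n : G} (hn : n ∈ N) {k : ℕ} (h : n ^ (p ^ k) = 1) : n = 1 := by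
  have h1 : orderOf n ∣ p ^ k := orderOf_dvd_of_pow_eq_one h
  have h2 : orderOf n ∣ Nat.card N := Subgroup.orderOf_dvd_natCard N hn
  have h3 : Nat.Coprime (p ^ k) (Nat.card N) := Nat.Coprime.pow_left k hcop
  have h4 : orderOf n ∣ 1 := by
    have := Nat.dvd_gcd h1 h2
    rwa [h3] at this
  exact orderOf_eq_one_iff.mp (Nat.dvd_one.mp h4)

/-- The key fact: a `p`-subgroup `A` subnormal in `⟨A, A^g⟩` with `g` in a normal `p'`-subgroup is
normalized by `g`. -/
theorem conj_mem_of_subnormal {G : Type*} [Group G] [Finite G] {p : ℕ} [hp : Fact p.Prime]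
    {A N : Subgroup G} (hA : IsPGroup p A) (hN : N.Normal) (hcop : Nat.Coprime p (Nat.card N))
    {g : G} (hg : g ∈ N) (hS : (A.subgroupOf (A ⊔ MulAut.conj g • A)).IsSubnormal) :
    ∀ b ∈ A, g * b * g⁻¹ ∈ A := by
  haveI := hN
  set D := A ⊔ MulAut.conj g • A with hD
  have hAD : A ≤ D := le_sup_left
  have hconjD : ∀ b ∈ A, g * b * g⁻¹ ∈ D := by
    intro b hb
    refine mem_sup_right ?_
    show g * b * g⁻¹ ∈ MulAut.conj g • A
    rw [Subgroup.mem_pointwise_smul_iff_inv_smul_mem]
    simpa [MulAut.smul_def, mul_assoc] using hb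
  have hpD : IsPGroup p (A.subgroupOf D) := hA.comap_subtype
  have hle : A.subgroupOf D ≤ pCore p D := le_pCore_of_subnormal hS hpD
  have hDle : D ≤ A ⊔ N := by
    refine sup_le le_sup_left ?_
    intro x hx
    rw [Subgroup.mem_pointwise_smul_iff_inv_smul_mem] at hx
    have hb : g⁻¹ * x * g ∈ A := by simpa [MulAut.smul_def, mul_assoc] using hx
    set b := g⁻¹ * x * g with hbdef
    have hxb : x = g * b * g⁻¹ := by rw [hbdef]; group
    have h1 : x = b * (b⁻¹ * g * b * g⁻¹) := by rw [hxb]; group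
    rw [h1]
    refine mul_mem (mem_sup_left hb) (mem_sup_right (mul_mem ?_ (inv_mem hg)))
    have := hN.conj_mem g hg b⁻¹
    simpa using this
  have hdecomp : ∀ d ∈ D, ∃ a' ∈ A, ∃ n ∈ N, d = a' * n := by
    intro d hd
    have h1 : d ∈ ((A ⊔ N : Subgroup G) : Set G) := hDle hd
    rw [Subgroup.mul_normal] at h1
    obtain ⟨a', ha', n, hn, rfl⟩ := Set.mem_mul.mp h1
    exact ⟨a', ha', n, hn, rfl⟩
  have hRle : pCore p D ≤ A.subgroupOf D := by
    intro r hr
    obtain ⟨a', ha', n, hn, hrd⟩ := hdecomp r r.2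
    have ha'R : (⟨a', hAD ha'⟩ : D) ∈ pCore p D := hle ha'
    have hnD : n ∈ D := by
      have : n = a'⁻¹ * r := by rw [hrd]; group
      rw [this]
      exact mul_mem (inv_mem (hAD ha')) r.2
    have hnR : (⟨n, hnD⟩ : D) ∈ pCore p D := by
      have h1 : (⟨n, hnD⟩ : D) = (⟨a', hAD ha'⟩ : D)⁻¹ * r := by
        apply Subtype.ext
        show n = a'⁻¹ * r
        rw [hrd]
        group
      rw [h1]
      exact mul_mem (inv_mem ha'R) hr
    obtain ⟨k, hk⟩ := (pCore_isPGroup (G := D) p) ⟨⟨n, hnD⟩, hnR⟩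
    have hnk : n ^ (p ^ k) = 1 := by
      have := congrArg (fun x : pCore p D => ((x : D) : G)) hk
      simpa using this
    have hn1 := eq_one_of_mem_of_pow hcop hn hnk
    show (r : G) ∈ A
    rw [hrd, hn1, mul_one]
    exact ha'
  have hAeq : A.subgroupOf D = pCore p D := le_antisymm hle hRle
  have hAnorm : (A.subgroupOf D).Normal := by
    rw [hAeq]
    exact pCore_normal p D
  have hconj : ∀ d ∈ D, ∀ b ∈ A, d * b * d⁻¹ ∈ A := by
    intro d hd b hb
    have h1 := hAnorm.conj_mem ⟨b, hAD hb⟩ hb ⟨d, hd⟩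
    exact h1
  intro b hb
  obtain ⟨e, he⟩ := hA ⟨b, hb⟩
  have hbe : b ^ (p ^ e) = 1 := by simpa using congrArg Subtype.val he
  set x := g * b * g⁻¹ with hx
  have hxD : x ∈ D := hconjD b hb
  have hxe : x ^ (p ^ e) = 1 := by
    rw [hx, conj_pow, hbe]
    simp
  obtain ⟨a', ha', n, hn, hxd⟩ := hdecomp x hxD
  have hnD : n ∈ D := by
    have : n = a'⁻¹ * x := by rw [hxd]; group
    rw [this]
    exact mul_mem (inv_mem (hAD ha')) hxD
  have hform : ∀ m : ℕ, ∃ a'' ∈ A, x ^ m = a'' * n ^ m := by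
    intro m
    induction m with
    | zero => exact ⟨1, one_mem _, by simp⟩
    | succ m ih =>
      obtain ⟨a'', ha'', hm⟩ := ih
      refine ⟨a'' * (n ^ m * a' * (n ^ m)⁻¹), mul_mem ha'' (hconj _ (pow_mem hnD m) a' ha'), ?_⟩
      rw [pow_succ, hm, pow_succ]
      rw [hxd]
      group
  obtain ⟨a'', ha'', hm⟩ := hform (p ^ e)
  rw [hxe] at hm
  have h1 : n ^ (p ^ e) = a''⁻¹ := eq_inv_of_mul_eq_one_right hm.symm
  obtain ⟨f, hf⟩ := hA ⟨a''⁻¹, inv_mem ha''⟩
  have hf' : (a''⁻¹) ^ (p ^ f) = 1 := by simpa using congrArg Subtype.val hf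
  have h2 : n ^ (p ^ (e + f)) = 1 := by
    rw [pow_add, pow_mul, h1, hf']
  have hn1 := eq_one_of_mem_of_pow hcop hn h2
  rw [hxd, hn1, mul_one]
  exact ha'

theorem aux (p : ℕ) [hp : Fact p.Prime] (hp2 : p ≠ 2) :
    ∀ (n : ℕ) (G : Type u) [Group G] [Finite G], Nat.card G ≤ n → Group.IsSolvable G →
      ∀ A : Subgroup G, IsPGroup p A → Hyp A → A ≤ pCore p G := by
  intro n
  induction n using Nat.strong_induction_on with
  | _ n IH =>
  intro G _ _ hcard hsol A hA hyp
  by_cases hQ : pCore p G = ⊥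
  · by_contra hne
    obtain ⟨a, ha, ha1⟩ : ∃ a ∈ A, a ≠ 1 := by
      by_contra hcon
      push Not at hcon
      apply hne
      intro x hx
      rw [hcon x hx]
      exact one_mem _
    haveI : Nontrivial G := ⟨⟨a, 1, ha1⟩⟩
    obtain ⟨N, hNn, hNb, hNc⟩ := exists_abelian_normal (G := G)
    haveI := hNn
    have hcop := coprime_of_pCore_bot hQ hNn hNc
    letI commN : CommGroup N :=
      { (inferInstance : Group N) with
        mul_comm := fun x y => Subtype.ext (hNc x x.2 y y.2) }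
    have h1 : A.map (QuotientGroup.mk' N) ≤ pCore p (G ⧸ N) :=
      IH _ (lt_of_lt_of_le (card_quot_lt hNb) hcard) (G ⧸ N) le_rfl inferInstance _
        (hA.map _) (hyp_map _ (QuotientGroup.mk'_surjective N) hyp)
    set M : Subgroup G := (pCore p (G ⧸ N)).comap (QuotientGroup.mk' N) with hM
    have hAM : A ≤ M := fun x hx => h1 ⟨x, hx, rfl⟩
    have hMn : M.Normal := (pCore_normal p _).comap _
    let ρ : G →* MulAut N := MulAut.conjNormal
    have hρval : ∀ (g : G) (u : N), ((ρ g u : N) : G) = g * u * g⁻¹ := fun g u =>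
      MulAut.conjNormal_apply g u
    have hρN : ∀ n ∈ N, ρ n = 1 := by
      intro m hm
      ext u
      rw [hρval]
      show m * u * m⁻¹ = (u : G)
      rw [hNc m hm u u.2]
      group
    have hpow : ∀ m ∈ M, ∃ k : ℕ, m ^ (p ^ k) ∈ N := by
      intro m hm
      obtain ⟨k, hk⟩ := (pCore_isPGroup (G := G ⧸ N) p) ⟨_, hm⟩
      refine ⟨k, ?_⟩
      have h2 := congrArg Subtype.val hk
      have h3 : ((m ^ (p ^ k) : G) : G ⧸ N) = 1 := by
        simpa using h2
      exact (QuotientGroup.eq_one_iff _).mp h3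
    have hp_map : IsPGroup p (M.map ρ) := by
      rintro ⟨_, m, hm, rfl⟩
      obtain ⟨k, hk⟩ := hpow m hm
      refine ⟨k, Subtype.ext ?_⟩
      show (ρ m) ^ (p ^ k) = 1
      rw [← map_pow]
      exact hρN _ hk
    have hρa : ρ a ≠ 1 := by
      intro hρa1
      -- `a` centralizes `N`
      have hac : ∀ u ∈ N, a * u = u * a := by
        intro u hu
        have h2 := congrArg (fun f : MulAut N => ((f ⟨u, hu⟩ : N) : G)) hρa1
        have h3 : a * u * a⁻¹ = u := by
          have h4 := hρval a ⟨u, hu⟩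
          rw [← h4]
          exact h2
        calc a * u = (a * u * a⁻¹) * a := by group
          _ = u * a := by rw [h3]
      set C : Subgroup G := M ⊓ centralizer (N : Set G) with hC
      have hCn : C.Normal := by
        have h2 : (centralizer (N : Set G)).Normal := inferInstance
        exact Subgroup.normal_inf_normal _ _
      let f : C →* pCore p (G ⧸ N) :=
        ((QuotientGroup.mk' N).comp C.subtype).codRestrict _ (fun c => c.2.1)
      have hker : f.ker ≤ center C := by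
        intro c hc
        have h2 : ((c : G) : G ⧸ N) = 1 := by
          have := congrArg Subtype.val (MonoidHom.mem_ker.mp hc)
          exact this
        have hcN : (c : G) ∈ N := (QuotientGroup.eq_one_iff _).mp h2
        rw [Subgroup.mem_center_iff]
        intro d
        apply Subtype.ext
        have h3 : (d : G) ∈ centralizer (N : Set G) := d.2.2
        rw [Subgroup.mem_centralizer_iff] at h3
        exact (h3 _ hcN).symm
      haveI hnilQ : Group.IsNilpotent (pCore p (G ⧸ N)) :=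
        (pCore_isPGroup (G := G ⧸ N) p).isNilpotent
      have hnil : Group.IsNilpotent C := Subgroup.isNilpotent_of_ker_le_center f hker
      obtain ⟨k, hk⟩ := IsPGroup.iff_orderOf.mp hA ⟨a, ha⟩
      have hord : orderOf a = p ^ k := by
        rw [← hk]
        exact (Subgroup.orderOf_mk a ha).symm
      have haC : a ∈ C := by
        refine ⟨hAM ha, ?_⟩
        show a ∈ centralizer (N : Set G)
        rw [Subgroup.mem_centralizer_iff]
        intro u hu
        exact (hac u hu).symm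
      have h2 := mem_pCore_of_normal_nilpotent hCn hnil haC hp.out hord
      rw [hQ] at h2
      exact ha1 (Subgroup.mem_bot.mp h2)
    obtain ⟨v, hv⟩ := exists_avoid hp2 ρ M hMn hp_map (hAM ha) hρa hcop
    obtain ⟨g₀, hg₀, hS⟩ := hyp (v : G)
    obtain ⟨k, hk⟩ := isConj_iff.mp hg₀
    have hg₀N : g₀ ∈ N := by
      rw [← hk]
      exact hNn.conj_mem _ v.2 k
    have key := conj_mem_of_subnormal hA hNn hcop hg₀N hS
    have hc1 : g₀ * a * g₀⁻¹ * a⁻¹ = 1 := by
      obtain ⟨e, he⟩ := hA ⟨_, mul_mem (key a ha) (inv_mem ha)⟩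
      have he' : (g₀ * a * g₀⁻¹ * a⁻¹) ^ (p ^ e) = 1 := by
        simpa using congrArg Subtype.val he
      refine eq_one_of_mem_of_pow hcop ?_ he'
      have h2 : g₀ * a * g₀⁻¹ * a⁻¹ = g₀ * (a * g₀⁻¹ * a⁻¹) := by group
      rw [h2]
      exact mul_mem hg₀N (hNn.conj_mem _ (inv_mem hg₀N) a)
    have hc2 : g₀ * a = a * g₀ := by
      have h2 : g₀ * a * g₀⁻¹ = a := mul_inv_eq_one.mp hc1
      calc g₀ * a = (g₀ * a * g₀⁻¹) * g₀ := by group
        _ = a * g₀ := by rw [h2]
    apply hv k⁻¹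
    apply Subtype.ext
    rw [hρval]
    have h3 : (v : G) = k⁻¹ * g₀ * k := by
      rw [← hk]
      group
    rw [h3]
    have h4 : k⁻¹ * a * k⁻¹⁻¹ * (k⁻¹ * g₀ * k) * (k⁻¹ * a * k⁻¹⁻¹)⁻¹ =
        k⁻¹ * (a * g₀ * a⁻¹) * k := by group
    rw [h4, ← hc2]
    group
  · haveI := pCore_normal p G
    have h1 := IH _ (lt_of_lt_of_le (card_quot_lt hQ) hcard) (G ⧸ pCore p G) le_rfl inferInstance
      (A.map (QuotientGroup.mk' (pCore p G))) (hA.map _)
      (hyp_map _ (QuotientGroup.mk'_surjective _) hyp)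
    rw [pCore_quotient_eq_bot] at h1
    intro x hx
    have h2 := h1 ⟨x, hx, rfl⟩
    exact (QuotientGroup.eq_one_iff x).mp (Subgroup.mem_bot.mp h2)

/-- Let G be a finite solvable group, p an odd prime and A a p-subgroup of G such that every conjugacy class of G contains an element g for which A is subnormal in the subgroup generated by A and its conjugate by g. Then A is contained in O_p(G). (The hypothesis that p is odd is needed.) -/
theorem result {G : Type*} [Group G] [Finite G]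
    (hG : Group.IsSolvable G) (p : ℕ) [Fact p.Prime] (hp : p ≠ 2) (A : Subgroup G) (hA : IsPGroup p A)
    (h : ∀ c : G, ∃ g : G, IsConj c g ∧ (A.subgroupOf (A ⊔ MulAut.conj g • A)).IsSubnormal) :
    A ≤ Cfsg.pCore p G :=
  aux p hp _ G le_rfl hG A hA h

end Cfsg.Agent.S4330
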