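import Cfsg.Statements.S4331
import Mathlib
-- import your own Cfsg.Agent.* helpers here

set_option autoImplicit false
open Cfsg

namespace Cfsg.Agent.S4331

set_option maxRecDepth 100000

/-! The affine semilinear group of the field with nine elements (order 144), as pairs `(h, v)`:
`h = 2 i + e` codes `x ↦ ω ^ i * σ ^ e x` (`σ` the Frobenius), and `v = 3 a + b` is the translation
by `a + b √-1`.  All arithmetic is on natural numbers, which the kernel evaluates quickly. -/

abbrev H4 := Fin 16
abbrev V9 := Fin 9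

def hm (a b : H4) : H4 :=
  Fin.ofNat 16 (((a.val / 2 + (if a.val % 2 = 1 then 3 * (b.val / 2) else b.val / 2)) % 8) * 2 +
    (a.val % 2 + b.val % 2) % 2)

def hinv (a : H4) : H4 :=
  Fin.ofNat 16 (((8 - ((if a.val % 2 = 1 then 3 * (a.val / 2) else a.val / 2) % 8)) % 8) * 2 + a.val % 2)

def vadd (x y : V9) : V9 :=
  Fin.ofNat 9 (((x.val / 3 + y.val / 3) % 3) * 3 + ((x.val % 3 + y.val % 3) % 3))

def vneg (x : V9) : V9 :=
  Fin.ofNat 9 (((2 * (x.val / 3)) % 3) * 3 + ((2 * (x.val % 3)) % 3))

/-- Table of the linear parts (four bits per entry). -/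
def linT : ℕ :=
  0x165327840615237480852741630582471360624138570264318750543876210453786120237615480327165840471582360741852630318264750138624570786453120876543210

def lin (a : H4) (x : V9) : V9 :=
  Fin.ofNat 9 (Nat.land (Nat.shiftRight linT (4 * (a.val * 9 + x.val))) 15)

theorem hm_assoc : ∀ a b c : H4, hm (hm a b) c = hm a (hm b c) := by decide +kernel
theorem vadd_assoc : ∀ x y z : V9, vadd (vadd x y) z = vadd x (vadd y z) := by decide +kernel
theorem vadd_comm : ∀ x y : V9, vadd x y = vadd y x := by decide +kernel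
theorem lin_hm : ∀ (a b : H4) (x : V9), lin (hm a b) x = lin a (lin b x) := by decide +kernel
theorem lin_add : ∀ (a : H4) (x y : V9), lin a (vadd x y) = vadd (lin a x) (lin a y) := by decide +kernel
theorem hone_mul : ∀ a : H4, hm 0 a = a := by decide +kernel
theorem hinv_mul : ∀ a : H4, hm (hinv a) a = 0 := by decide +kernel
theorem vzero_add : ∀ x : V9, vadd 0 x = x := by decide +kernel
theorem vneg_add : ∀ x : V9, vadd (vneg x) x = 0 := by decide +kernel
theorem lin_zero : ∀ x : V9, lin 0 x = x := by decide +kernel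
theorem lin_vzero : ∀ a : H4, lin a 0 = 0 := by decide +kernel

def P : Type := H4 × V9

instance instFintypeP : Fintype P := inferInstanceAs (Fintype (Fin 16 × Fin 9))
instance instDecEqP : DecidableEq P := inferInstanceAs (DecidableEq (Fin 16 × Fin 9))

def pm (p q : P) : P := (hm p.1 q.1, vadd (lin p.1 q.2) p.2)
def pinv (p : P) : P := (hinv p.1, vneg (lin (hinv p.1) p.2))
def pone : P := (0, 0)

instance instMulP : Mul P := ⟨pm⟩
instance instInvP : Inv P := ⟨pinv⟩
instance instOneP : One P := ⟨pone⟩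

theorem pm_assoc (p q r : P) : pm (pm p q) r = pm p (pm q r) := by
  apply Prod.ext
  · exact hm_assoc _ _ _
  · show vadd (lin (hm p.1 q.1) r.2) (vadd (lin p.1 q.2) p.2) =
      vadd (lin p.1 (vadd (lin q.1 r.2) q.2)) p.2
    rw [lin_hm, lin_add, vadd_assoc]

theorem pone_pm (p : P) : pm pone p = p := by
  apply Prod.ext
  · exact hone_mul _
  · show vadd (lin 0 p.2) 0 = p.2
    rw [lin_zero, vadd_comm, vzero_add]

theorem pinv_pm (p : P) : pm (pinv p) p = pone := by
  apply Prod.ext
  · exact hinv_mul _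
  · show vadd (lin (hinv p.1) p.2) (vneg (lin (hinv p.1) p.2)) = 0
    rw [vadd_comm, vneg_add]

instance instGroupP : Group P := Group.ofLeftAxioms pm_assoc pone_pm pinv_pm

def vp (p : P) : ℕ := (Prod.snd p : Fin 9).val

def t : P := ((1 : Fin 16), (0 : Fin 9))

theorem t_sq : t * t = 1 := by decide +kernel
theorem t_ne : t ≠ 1 := by decide +kernel

theorem classes : ∀ c : P, ∃ u : P, vp (u * c * u⁻¹) = 0 ∨ (u * c * u⁻¹) * t = t * (u * c * u⁻¹) := by
  decide +kernel

theorem comm_key : ∀ x : P, x ≠ 1 → ∃ y : P, (x * (y * x⁻¹ * y⁻¹)) ^ 3 = 1 ∧ x * (y * x⁻¹ * y⁻¹) ≠ 1 := by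
  decide +kernel

theorem P0_mul (p q : P) (hp : vp p = 0) (hq : vp q = 0) : vp (p * q) = 0 := by
  have hp' : Prod.snd p = (0 : Fin 9) := Fin.ext hp
  have hq' : Prod.snd q = (0 : Fin 9) := Fin.ext hq
  show (vadd (lin (Prod.fst p) (Prod.snd q)) (Prod.snd p)).val = 0
  rw [hp', hq', lin_vzero]
  rfl

theorem P0_inv (p : P) (hp : vp p = 0) : vp (p⁻¹) = 0 := by
  have hp' : Prod.snd p = (0 : Fin 9) := Fin.ext hp
  show (vneg (lin (hinv (Prod.fst p)) (Prod.snd p))).val = 0
  rw [hp', lin_vzero]
  rfl

def P0 : Subgroup P where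
  carrier := {p | vp p = 0}
  mul_mem' := fun {a b} ha hb => P0_mul a b ha hb
  one_mem' := rfl
  inv_mem' := fun {a} ha => P0_inv a ha

theorem card_P0 : Fintype.card {p : P // vp p = 0} = 16 := by decide +kernel

theorem P0_two : IsPGroup 2 P0 := by
  apply IsPGroup.of_card (n := 4)
  have : Nat.card P0 = Nat.card {p : P // vp p = 0} := rfl
  rw [this, Nat.card_eq_fintype_card, card_P0]
  norm_num

/-! Solvability: the projection to the linear part has an abelian kernel and a 2-group as image. -/

def H2 : Type := Fin 16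

instance instFintypeH2 : Fintype H2 := inferInstanceAs (Fintype (Fin 16))
instance instMulH2 : Mul H2 := ⟨hm⟩
instance instInvH2 : Inv H2 := ⟨hinv⟩
instance instOneH2 : One H2 := ⟨(0 : Fin 16)⟩
instance instGroupH2 : Group H2 := Group.ofLeftAxioms hm_assoc hone_mul hinv_mul

def projH : P →* H2 where
  toFun p := Prod.fst p
  map_one' := rfl
  map_mul' _ _ := rfl

theorem H2_solvable : Group.IsSolvable H2 := by
  have h : IsPGroup 2 H2 := by
    apply IsPGroup.of_card (n := 4)
    rw [Nat.card_eq_fintype_card]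
    rfl
  have := h.isNilpotent
  infer_instance

theorem ker_solvable : Group.IsSolvable projH.ker := by
  apply Group.isSolvable_of_comm
  rintro ⟨a, ha⟩ ⟨b, hb⟩
  apply Subtype.ext
  have ha' : Prod.fst a = (0 : Fin 16) := ha
  have hb' : Prod.fst b = (0 : Fin 16) := hb
  show pm a b = pm b a
  apply Prod.ext
  · show hm (Prod.fst a) (Prod.fst b) = hm (Prod.fst b) (Prod.fst a)
    rw [ha', hb']
  · show vadd (lin (Prod.fst a) (Prod.snd b)) (Prod.snd a) = vadd (lin (Prod.fst b) (Prod.snd a)) (Prod.snd b)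
    rw [ha', hb', lin_zero, lin_zero, vadd_comm]

theorem solvableP : Group.IsSolvable P := by
  have h1 := ker_solvable
  have h2 := H2_solvable
  exact Group.isSolvable_of_ker_le_range projH.ker.subtype projH (by simp)

/-- In a finite nilpotent group, every subgroup is subnormal. -/
theorem isSubnormal_of_nilpotent {G : Type*} [Group G] [Finite G] (hn : Group.IsNilpotent G)
    (H : Subgroup G) : H.IsSubnormal := by
  induction H using WellFoundedGT.induction with
  | ind H ih =>
    by_cases hH : H = ⊤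
    · rw [hH]; exact Subgroup.IsSubnormal.top
    · have hlt := Group.normalizerCondition_of_isNilpotent H (lt_top_iff_ne_top.2 hH)
      exact Subgroup.IsSubnormal.step H _ hlt.le (ih _ hlt) Subgroup.normal_in_normalizer

theorem pCore_bot : Cfsg.pCore 2 P = ⊥ := by
  unfold Cfsg.pCore
  rw [sSup_eq_bot]
  rintro N ⟨hN, h2⟩
  rw [eq_bot_iff]
  intro x hx
  rw [Subgroup.mem_bot]
  by_contra hx1
  obtain ⟨y, hy3, hy1⟩ := comm_key x hx1
  have hz : x * (y * x⁻¹ * y⁻¹) ∈ N := mul_mem hx (hN.conj_mem _ (inv_mem hx) y)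
  obtain ⟨k, hk⟩ := h2 ⟨_, hz⟩
  have hk' : (x * (y * x⁻¹ * y⁻¹)) ^ (2 ^ k) = 1 := by
    have := congrArg Subtype.val hk
    simpa using this
  have hd1 : orderOf (x * (y * x⁻¹ * y⁻¹)) ∣ 2 ^ k := orderOf_dvd_of_pow_eq_one hk'
  have hd2 : orderOf (x * (y * x⁻¹ * y⁻¹)) ∣ 3 := orderOf_dvd_of_pow_eq_one hy3
  have hc : Nat.Coprime (2 ^ k) 3 := Nat.Coprime.pow_left k (by norm_num)
  have : orderOf (x * (y * x⁻¹ * y⁻¹)) = 1 := Nat.eq_one_of_dvd_coprimes hc hd1 hd2
  exact hy1 (orderOf_eq_one_iff.1 this)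

/-- There is a finite solvable group G with a subgroup A of order 2 such that every conjugacy class of G contains an element g for which A is subnormal in the subgroup generated by A and g, and yet A is not contained in O_2(G). (So the corresponding criteria for odd primes fail at the prime 2, even for solvable groups.) -/
theorem result :
    ∃ (G : Type) (_ : Group G) (_ : Finite G) (A : Subgroup G), Group.IsSolvable G ∧ Nat.card A = 2 ∧
      (∀ c : G, ∃ g : G, IsConj c g ∧ (A.subgroupOf (A ⊔ Subgroup.zpowers g)).IsSubnormal) ∧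
      ¬ A ≤ Cfsg.pCore 2 G := by
  refine ⟨P, instGroupP, Finite.of_fintype P, Subgroup.zpowers t, solvableP, ?_, ?_, ?_⟩
  · rw [Nat.card_zpowers]
    exact orderOf_eq_prime (by rw [pow_two]; exact t_sq) t_ne
  · intro c
    obtain ⟨u, hu⟩ := classes c
    refine ⟨u * c * u⁻¹, isConj_iff.2 ⟨u, rfl⟩, ?_⟩
    set g := u * c * u⁻¹ with hg
    rcases hu with h | h
    · -- g is in the 2-group
      have hle : Subgroup.zpowers t ⊔ Subgroup.zpowers g ≤ P0 :=
        sup_le (Subgroup.zpowers_le.2 (show vp t = 0 by decide +kernel)) (Subgroup.zpowers_le.2 h)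
      have h2 : IsPGroup 2 ↥(Subgroup.zpowers t ⊔ Subgroup.zpowers g) := P0_two.to_le hle
      exact isSubnormal_of_nilpotent h2.isNilpotent _
    · apply Subgroup.Normal.isSubnormal
      have hle : Subgroup.zpowers t ⊔ Subgroup.zpowers g ≤ Subgroup.centralizer {t} := by
        apply sup_le
        · rw [Subgroup.zpowers_le, Subgroup.mem_centralizer_singleton_iff]
        · rw [Subgroup.zpowers_le, Subgroup.mem_centralizer_singleton_iff]
          exact h
      constructor
      rintro ⟨a, ha⟩ ha' ⟨b, hb⟩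
      rw [Subgroup.mem_subgroupOf] at ha' ⊢
      have hb' := hle hb
      rw [Subgroup.mem_centralizer_singleton_iff] at hb'
      obtain ⟨k, rfl⟩ := ha'
      have hcomm : Commute b (t ^ k) := Commute.zpow_right hb' k
      show b * t ^ k * b⁻¹ ∈ _
      rw [hcomm.eq, mul_inv_cancel_right]
      exact ⟨k, rfl⟩
  · rw [pCore_bot]
    intro h
    have := h (Subgroup.mem_zpowers t)
    exact t_ne (Subgroup.mem_bot.1 this)

end Cfsg.Agent.S4331
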