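import Cfsg.Statements.S4332
import Cfsg.Agent.Lib.Basic.PCore
import Mathlib

set_option autoImplicit false
open Cfsg
open Pointwise

namespace Cfsg.Agent.S4332

open Equiv Equiv.Perm

/-- Data of a three-cycle around a point of its support. -/
theorem three_cycle_aux {α : Type*} [Fintype α] [DecidableEq α] {τ : Perm α} (hτ : τ.IsThreeCycle)
    {a : α} (ha : a ∈ τ.support) :
    τ (τ (τ a)) = a ∧ τ a ≠ a ∧ τ (τ a) ≠ a ∧ τ (τ a) ≠ τ a ∧ τ.support = {a, τ a, τ (τ a)} := by
  have h3 : τ ^ 3 = 1 := by
    have := pow_orderOf_eq_one τ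
    rwa [hτ.orderOf] at this
  have h1 : τ (τ (τ a)) = a := by
    have := congrArg (fun f : Perm α => f a) h3
    simpa [pow_succ] using this
  have h2 : τ a ≠ a := mem_support.mp ha
  have h4 : τ (τ a) ≠ a := by
    intro h
    apply h2
    rw [h] at h1
    exact h1
  have h5 : τ (τ a) ≠ τ a := fun h => h2 (τ.injective h)
  refine ⟨h1, h2, h4, h5, ?_⟩
  symm
  apply Finset.eq_of_subset_of_card_le
  · intro x hx
    simp only [Finset.mem_insert, Finset.mem_singleton] at hx
    rcases hx with rfl | rfl | rfl
    · exact ha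
    · rw [mem_support]; exact h5
    · rw [mem_support, h1]; exact fun h => h4 h.symm
  · rw [hτ.card_support, Finset.card_eq_three.mpr ⟨a, τ a, τ (τ a), h2.symm, h4.symm, h5.symm, rfl⟩]

/-- Two three-cycles with the same support agreeing at a point of it are equal. -/
theorem three_cycle_eq {α : Type*} [Fintype α] [DecidableEq α] {τ ρ : Perm α} (hτ : τ.IsThreeCycle)
    (hρ : ρ.IsThreeCycle) (hs : τ.support = ρ.support) {a : α} (ha : a ∈ ρ.support)
    (hab : τ a = ρ a) : τ = ρ := by
  obtain ⟨r1, r2, r3, r4, r5⟩ := three_cycle_aux hρ ha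
  obtain ⟨t1, t2, t3, t4, t5⟩ := three_cycle_aux hτ (hs ▸ ha)
  have hmem : τ (τ a) ∈ ρ.support := by
    rw [← hs, t5]; simp
  rw [r5] at hmem
  simp only [Finset.mem_insert, Finset.mem_singleton] at hmem
  have hττ : τ (τ a) = ρ (ρ a) := by
    rcases hmem with h | h | h
    · exact absurd h t3
    · exact absurd (h.trans hab.symm) t4
    · exact h
  ext x
  by_cases hx : x ∈ ρ.support
  · rw [r5] at hx
    simp only [Finset.mem_insert, Finset.mem_singleton] at hx
    rcases hx with rfl | rfl | rfl
    · exact hab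
    · rw [← hab, hττ, hab]
    · rw [← hττ, t1, hττ, r1]
  · have hx' : x ∉ τ.support := hs ▸ hx
    rw [notMem_support] at hx hx'
    rw [hx, hx']

/-- Two three-cycles with the same support are equal or inverse. -/
theorem three_cycle_eq_or_inv {α : Type*} [Fintype α] [DecidableEq α] {τ σ : Perm α}
    (hτ : τ.IsThreeCycle) (hσ : σ.IsThreeCycle) (hs : τ.support = σ.support) :
    τ = σ ∨ τ = σ⁻¹ := by
  have hne : σ.support.Nonempty := by
    rw [← Finset.card_pos, hσ.card_support]; norm_num
  obtain ⟨a, ha⟩ := hne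
  obtain ⟨r1, r2, r3, r4, r5⟩ := three_cycle_aux hσ ha
  have hmem : τ a ∈ σ.support := by
    rw [← hs, apply_mem_support, hs]; exact ha
  rw [r5] at hmem
  simp only [Finset.mem_insert, Finset.mem_singleton] at hmem
  rcases hmem with h | h | h
  · exact absurd h (mem_support.mp (hs ▸ ha))
  · exact Or.inl (three_cycle_eq hτ hσ hs ha h)
  · right
    have hσi : σ⁻¹.IsThreeCycle := by
      simpa using hσ.inv
    apply three_cycle_eq hτ hσi (by rw [hs, support_inv]) (by rwa [support_inv])
    rw [h, Perm.eq_inv_iff_eq, r1]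

/-- A combinatorial lemma: for every permutation of eight points there is a three-set either
invariant or disjoint from its image. -/
theorem core (c : Perm (Fin 8)) : ∃ T : Finset (Fin 8), T.card = 3 ∧
    (T.map c.toEmbedding = T ∨ Disjoint (T.map c.toEmbedding) T) := by
  by_cases hV : c.support.card ≤ 5
  · have h3 : 3 ≤ (c.supportᶜ).card := by
      rw [Finset.card_compl, Fintype.card_fin]; omega
    obtain ⟨T, hTsub, hTcard⟩ := Finset.exists_subset_card_eq h3
    refine ⟨T, hTcard, Or.inl ?_⟩
    have hfix : ∀ x ∈ T, c x = x := by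
      intro x hx
      have := hTsub hx
      rw [Finset.mem_compl, notMem_support] at this
      exact this
    ext x
    simp only [Finset.mem_map, Equiv.coe_toEmbedding]
    constructor
    · rintro ⟨y, hy, rfl⟩
      rwa [hfix y hy]
    · exact fun hx => ⟨x, hx, hfix x hx⟩
  · push Not at hV
    have hne : c.support.Nonempty := by
      rw [← Finset.card_pos]; omega
    obtain ⟨x₁, hx₁⟩ := hne
    set N₁ : Finset (Fin 8) := {x₁, c x₁, c⁻¹ x₁} with hN₁
    set R := c.support \ N₁ with hR
    have hNcard : N₁.card ≤ 3 := Finset.card_le_three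
    have hRcard : 3 ≤ R.card := by
      have : c.support.card - N₁.card ≤ R.card := Finset.le_card_sdiff N₁ c.support
      omega
    have hRmem : ∀ x ∈ R, c x ≠ x ∧ x ≠ x₁ ∧ x ≠ c x₁ ∧ x ≠ c⁻¹ x₁ := by
      intro x hx
      rw [hR, Finset.mem_sdiff, mem_support, hN₁] at hx
      simp only [Finset.mem_insert, Finset.mem_singleton, not_or] at hx
      exact ⟨hx.1, hx.2.1, hx.2.2.1, hx.2.2.2⟩
    have hx₁' : c x₁ ≠ x₁ := mem_support.mp hx₁
    by_cases hex : ∃ x₂ ∈ R, ∃ x₃ ∈ R, x₃ ≠ x₂ ∧ x₃ ≠ c x₂ ∧ x₃ ≠ c⁻¹ x₂
    · obtain ⟨x₂, hx₂, x₃, hx₃, h32, h3c, h3i⟩ := hex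
      obtain ⟨a1, a2, a3, a4⟩ := hRmem x₂ hx₂
      obtain ⟨b1, b2, b3, b4⟩ := hRmem x₃ hx₃
      refine ⟨{x₁, x₂, x₃}, ?_, Or.inr ?_⟩
      · rw [Finset.card_eq_three]
        exact ⟨x₁, x₂, x₃, a2.symm, b2.symm, h32.symm, rfl⟩
      · rw [Finset.disjoint_left]
        intro y hy hy'
        simp only [Finset.mem_map, Finset.mem_insert, Finset.mem_singleton,
          Equiv.coe_toEmbedding] at hy hy'
        obtain ⟨z, hz, rfl⟩ := hy
        have e2 : c x₂ ≠ x₁ := fun h => a4 (by rw [← h]; simp)
        have e3 : c x₃ ≠ x₁ := fun h => b4 (by rw [← h]; simp)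
        have e4 : c x₃ ≠ x₂ := fun h => h3i (by rw [← h]; simp)
        rcases hz with rfl | rfl | rfl <;> rcases hy' with h | h | h
        · exact hx₁' h
        · exact a3 h.symm
        · exact b3 h.symm
        · exact e2 h
        · exact a1 h
        · exact h3c h.symm
        · exact e3 h
        · exact e4 h
        · exact b1 h
    · push Not at hex
      have hsub : ∀ x ∈ R, R ⊆ {x, c x, c⁻¹ x} := by
        intro x hx y hy
        simp only [Finset.mem_insert, Finset.mem_singleton]
        by_cases h1 : y = x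
        · exact Or.inl h1
        by_cases h2 : y = c x
        · exact Or.inr (Or.inl h2)
        · exact Or.inr (Or.inr (hex x hx y hy h1 h2))
      have hRne : R.Nonempty := by
        rw [← Finset.card_pos]; omega
      obtain ⟨x₀, hx₀⟩ := hRne
      have hR3 : R.card = 3 := by
        have := Finset.card_le_card (hsub x₀ hx₀)
        have h' : ({x₀, c x₀, c⁻¹ x₀} : Finset (Fin 8)).card ≤ 3 := Finset.card_le_three
        omega
      have hclosed : ∀ x ∈ R, c x ∈ R := by
        intro x hx
        have h' : ({x, c x, c⁻¹ x} : Finset (Fin 8)).card ≤ 3 := Finset.card_le_three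
        have heq := Finset.eq_of_subset_of_card_le (hsub x hx) (by omega)
        rw [heq]
        simp
      refine ⟨R, hR3, Or.inl ?_⟩
      apply Finset.eq_of_subset_of_card_le
      · intro y hy
        simp only [Finset.mem_map, Equiv.coe_toEmbedding] at hy
        obtain ⟨z, hz, rfl⟩ := hy
        exact hclosed z hz
      · rw [Finset.card_map]

/-- Moving one three-set to another. -/
theorem exists_perm_map {S T : Finset (Fin 8)} (hS : S.card = 3) (hT : T.card = 3) :
    ∃ h : Perm (Fin 8), S.map h.toEmbedding = T := by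
  let e : {x // x ∈ S} ≃ {x // x ∈ T} := Finset.equivOfCardEq (by rw [hS, hT])
  refine ⟨e.extendSubtype, ?_⟩
  apply Finset.eq_of_subset_of_card_le
  · intro y hy
    simp only [Finset.mem_map, Equiv.coe_toEmbedding] at hy
    obtain ⟨z, hz, rfl⟩ := hy
    exact e.extendSubtype_mem z hz
  · rw [Finset.card_map, hS, hT]

/-- In the symmetric group of degree 8, let A be the subgroup generated by a 3-cycle. Then every conjugacy class contains an element g for which A is subnormal in the subgroup generated by A and its conjugate by g, although O_3 of the symmetric group of degree 8 is trivial. -/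
theorem result
    (σ : Equiv.Perm (Fin 8)) (hσ : σ.IsThreeCycle) :
    (∀ c : Equiv.Perm (Fin 8), ∃ g : Equiv.Perm (Fin 8), IsConj c g ∧
      ((Subgroup.zpowers σ).subgroupOf (Subgroup.zpowers σ ⊔ MulAut.conj g • Subgroup.zpowers σ)).IsSubnormal) ∧
    Cfsg.pCore 3 (Equiv.Perm (Fin 8)) = ⊥ := by
  constructor
  · intro c
    obtain ⟨T', hT'card, hT'⟩ := core c
    obtain ⟨h, hh⟩ := exists_perm_map hσ.card_support hT'card
    refine ⟨h⁻¹ * c * h, ?_, ?_⟩
    · rw [isConj_iff]
      exact ⟨h⁻¹, by group⟩
    set g := h⁻¹ * c * h with hg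
    set τ := g * σ * g⁻¹ with hτ
    have hτcyc : τ.IsThreeCycle := by
      rw [IsThreeCycle, hτ, cycleType_conj]
      exact hσ
    have hsupp : τ.support = (T'.map c.toEmbedding).map (h⁻¹).toEmbedding := by
      rw [hτ, support_conj, ← hh, Finset.map_map, Finset.map_map, hg]
      rfl
    have hhT : T'.map (h⁻¹).toEmbedding = σ.support := by
      rw [← hh, Finset.map_map]
      have : (Equiv.toEmbedding h).trans (Equiv.toEmbedding h⁻¹) = Function.Embedding.refl _ := by
        ext x
        simp
      rw [this, Finset.map_refl]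
    have hτN : τ ∈ Subgroup.normalizer ((Subgroup.zpowers σ : Subgroup (Perm (Fin 8))) : Set (Perm (Fin 8))) := by
      rcases hT' with h1 | h1
      · have hs : τ.support = σ.support := by rw [hsupp, h1, hhT]
        apply Subgroup.le_normalizer
        rcases three_cycle_eq_or_inv hτcyc hσ hs with h2 | h2
        · rw [h2]; exact Subgroup.mem_zpowers σ
        · rw [h2]; exact Subgroup.inv_mem _ (Subgroup.mem_zpowers σ)
      · have hd : Disjoint τ.support σ.support := by
          rw [hsupp, ← hhT]
          exact (Finset.disjoint_map _).mpr h1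
        have hcomm : Commute τ σ := (Equiv.Perm.disjoint_iff_disjoint_support.mpr hd).commute
        rw [Subgroup.mem_normalizer_iff]
        intro x
        constructor
        · intro hx
          obtain ⟨k, rfl⟩ := Subgroup.mem_zpowers_iff.mp hx
          have : τ * σ ^ k * τ⁻¹ = σ ^ k := by
            rw [(hcomm.zpow_right k).eq]; group
          rw [this]; exact hx
        · intro hx
          obtain ⟨k, hk⟩ := Subgroup.mem_zpowers_iff.mp hx
          have : x = σ ^ k := by
            have h3 : x = τ⁻¹ * (τ * x * τ⁻¹) * τ := by group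
            rw [h3, ← hk, mul_assoc, ← (hcomm.zpow_right k).eq]
            group
          rw [this]; exact Subgroup.zpow_mem_zpowers σ k
    have hconj : MulAut.conj g • Subgroup.zpowers σ = Subgroup.zpowers τ := by
      rw [Subgroup.pointwise_smul_def]
      exact MonoidHom.map_zpowers _ _
    apply Subgroup.Normal.isSubnormal
    rw [Subgroup.normal_subgroupOf_iff_le_normalizer le_sup_left]
    rw [hconj]
    apply sup_le Subgroup.le_normalizer
    rw [Subgroup.zpowers_le]
    exact hτN
  · rw [Cfsg.Agent.Lib.Basic.PCore.pCore_eq_bot_iff]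
    intro N hN hp
    by_contra hne
    have hnt : Nontrivial N := (Subgroup.nontrivial_iff_ne_bot N).mpr hne
    have hA := Equiv.Perm.alternatingGroup_le_of_normal (α := Fin 8) (by simp) hnt
    let x : Perm (Fin 8) := swap 0 1 * swap 2 3
    have hx : x ∈ alternatingGroup (Fin 8) := by
      rw [mem_alternatingGroup]
      decide
    have hxN : x ∈ N := hA hx
    obtain ⟨k, hk⟩ := hp ⟨x, hxN⟩
    have hk' : x ^ (3 ^ k) = 1 := by
      have := congrArg Subtype.val hk
      simpa using this
    have hx2 : x ^ 2 = 1 := by decide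
    have hx1 : x ≠ 1 := by decide
    have hodd : Odd (3 ^ k) := Odd.pow (by decide)
    obtain ⟨m, hm⟩ := hodd
    apply hx1
    rw [hm, pow_succ, pow_mul, hx2, one_pow, one_mul] at hk'
    exact hk'

end Cfsg.Agent.S4332
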