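import Cfsg.Statements.S4333
import Mathlib
import Cfsg.Agent.Lib.Nilpotent.Subnormal2
-- import your own Cfsg.Agent.* helpers here

set_option autoImplicit false
open Pointwise
open Cfsg

namespace Cfsg.Agent.S4333

/-- Let A be a subgroup of a finite group G. If A is subnormal in the subgroup generated by A and its conjugate by g⁻¹ a g, for every a ∈ A and every g ∈ G, then A is subnormal in G. (A sharpening of Wielandt's subnormality criterion: only conjugates of A by conjugates of elements of A are needed.) -/
theorem result {G : Type*} [Group G] [Finite G]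
    (A : Subgroup G)
    (h : ∀ a ∈ A, ∀ g : G, (A.subgroupOf (A ⊔ MulAut.conj (g⁻¹ * a * g) • A)).IsSubnormal) :
    A.IsSubnormal := by
  apply Cfsg.Agent.Lib.Nilpotent.Subnormal.SN.isSubnormal_top
  apply Cfsg.Agent.Lib.Nilpotent.Subnormal2.criterion_conj_in ⊤ A le_top
  intro a ha g _
  exact Cfsg.Agent.Lib.Nilpotent.Subnormal.sn_of_isSubnormal_subgroupOf le_sup_left (h a ha g)

end Cfsg.Agent.S4333
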