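import Cfsg.Statements.S4334
import Cfsg.Agent.Lib.Transfer.Frobenius
import Cfsg.Agent.Lib.Nilpotent.Elements
import Cfsg.Agent.Lib.Nilpotent.Parts

set_option autoImplicit false
open Cfsg

namespace Cfsg.Agent.S4334

open Subgroup Cfsg.Agent.Lib.Transfer.Basic Cfsg.Agent.Lib.Transfer.Frobenius

universe u

variable {G : Type u} [Group G] [Finite G]

/-- Elements of `H = Hs Ht` factor. -/
theorem exists_factor {Hs Ht : Subgroup G} (hcomm : ∀ a ∈ Hs, ∀ b ∈ Ht, a * b = b * a)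
    {h : G} (hh : h ∈ Hs ⊔ Ht) : ∃ a ∈ Hs, ∃ b ∈ Ht, h = a * b := by
  let T : Subgroup G :=
    { carrier := {x | ∃ a ∈ Hs, ∃ b ∈ Ht, x = a * b}
      mul_mem' := by
        rintro _ _ ⟨a, ha, b, hb, rfl⟩ ⟨a', ha', b', hb', rfl⟩
        refine ⟨a * a', Hs.mul_mem ha ha', b * b', Ht.mul_mem hb hb', ?_⟩
        calc a * b * (a' * b') = a * (b * a') * b' := by group
          _ = a * (a' * b) * b' := by rw [hcomm a' ha' b hb]
          _ = a * a' * (b * b') := by group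
      one_mem' := ⟨1, Hs.one_mem, 1, Ht.one_mem, by simp⟩
      inv_mem' := by
        rintro _ ⟨a, ha, b, hb, rfl⟩
        refine ⟨a⁻¹, Hs.inv_mem ha, b⁻¹, Ht.inv_mem hb, ?_⟩
        rw [mul_inv_rev]
        have := hcomm a⁻¹ (Hs.inv_mem ha) b⁻¹ (Ht.inv_mem hb)
        exact this.symm }
  have hle : Hs ⊔ Ht ≤ T := by
    refine sup_le ?_ ?_
    · intro a ha
      exact ⟨a, ha, 1, Ht.one_mem, by simp⟩
    · intro b hb
      exact ⟨1, Hs.one_mem, b, hb, by simp⟩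
  exact hle hh

/-- Every prime dividing the order of an element of a `σ`-subgroup is in `σ`. -/
theorem mem_of_dvd_orderOf {σ : Set ℕ} {K : Subgroup G} (hK : IsPiSubgroup σ K) {x : G}
    (hx : x ∈ K) {q : ℕ} (hq : q.Prime) (hd : q ∣ orderOf x) : q ∈ σ := by
  refine hK q hq (hd.trans ?_)
  have : orderOf (⟨x, hx⟩ : K) = orderOf x := Subgroup.orderOf_mk x hx
  rw [← this]
  exact orderOf_dvd_natCard _

section setting

variable {σ τ : Set ℕ} {Hs Ht : Subgroup G}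

theorem coprime_orderOf (hd : Disjoint σ τ) (hs : IsPiSubgroup σ Hs) (ht : IsPiSubgroup τ Ht)
    {a b : G} (ha : a ∈ Hs) (hb : b ∈ Ht) : (orderOf a).Coprime (orderOf b) := by
  refine Nat.Coprime.symm (Nat.coprime_of_dvd ?_)
  intro q hq h1 h2
  exact Set.disjoint_left.mp hd (mem_of_dvd_orderOf hs ha hq h2) (mem_of_dvd_orderOf ht hb hq h1)

/-- In `H = Hs × Ht`, a `p`-element (`p ∈ σ`) commutes with `p'`-elements. -/
theorem commute_of_p_elements (hd : Disjoint σ τ) (hs : IsPiSubgroup σ Hs)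
    (ht : IsPiSubgroup τ Ht) (hsn : Group.IsNilpotent Hs)
    (hcomm : ∀ a ∈ Hs, ∀ b ∈ Ht, a * b = b * a)
    {p : ℕ} (hp : p.Prime) (hpσ : p ∈ σ) {x y : G} (hx : x ∈ Hs ⊔ Ht) (hy : y ∈ Hs ⊔ Ht)
    {k : ℕ} (hyk : y ^ p ^ k = 1) (hxp : (orderOf x).Coprime p) : x * y = y * x := by
  obtain ⟨a, ha, b, hb, rfl⟩ := exists_factor hcomm hx
  obtain ⟨c, hc, e, he, rfl⟩ := exists_factor hcomm hy
  have hcab : Commute a b := hcomm a ha b hb
  have hcce : Commute c e := hcomm c hc e he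
  have hoab := hcab.orderOf_mul_eq_mul_orderOf_of_coprime (coprime_orderOf hd hs ht ha hb)
  have hoce := hcce.orderOf_mul_eq_mul_orderOf_of_coprime (coprime_orderOf hd hs ht hc he)
  -- `e = 1`
  have he1 : e = 1 := by
    have h1 : orderOf (c * e) ∣ p ^ k := orderOf_dvd_of_pow_eq_one hyk
    have h2 : orderOf e ∣ p ^ k := (Dvd.intro_left _ hoce.symm).trans h1
    by_contra hne
    have hne1 : orderOf e ≠ 1 := fun h => hne (orderOf_eq_one_iff.mp h)
    obtain ⟨q, hq, hqd⟩ := Nat.exists_prime_and_dvd hne1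
    have hqp : q = p := (Nat.prime_dvd_prime_iff_eq hq hp).mp (hq.dvd_of_dvd_pow (hqd.trans h2))
    subst hqp
    exact Set.disjoint_left.mp hd hpσ (mem_of_dvd_orderOf ht he hq hqd)
  subst he1
  rw [mul_one] at hyk ⊢
  -- `a` and `c` commute by nilpotency
  have hao : (orderOf a).Coprime p := by
    rw [hoab] at hxp
    exact Nat.Coprime.coprime_dvd_left (Dvd.intro _ rfl) hxp
  have hac : Commute a c := by
    have hcp : (orderOf (⟨a, ha⟩ : Hs)).Coprime (orderOf (⟨c, hc⟩ : Hs)) := by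
      rw [Subgroup.orderOf_mk, Subgroup.orderOf_mk]
      have h1 : orderOf c ∣ p ^ k := orderOf_dvd_of_pow_eq_one hyk
      exact Nat.Coprime.coprime_dvd_right h1 (Nat.Coprime.pow_right k hao)
    have := Cfsg.Agent.Lib.Nilpotent.Elements.commute_of_coprime_orderOf hcp
    have h2 : (⟨a, ha⟩ : Hs) * ⟨c, hc⟩ = ⟨c, hc⟩ * ⟨a, ha⟩ := this
    exact congrArg Subtype.val h2
  have hbc : b * c = c * b := (hcomm c hc b hb).symm
  calc a * b * c = a * (b * c) := by group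
    _ = a * (c * b) := by rw [hbc]
    _ = (a * c) * b := by group
    _ = (c * a) * b := by rw [hac.eq]
    _ = c * (a * b) := by group

end setting

/-- `R` Sylow in `G` inside `L` controls `r`-subgroups of `L` up to `L`-conjugacy. -/
theorem exists_conj_into {L R W : Subgroup G} {r : ℕ} [hr : Fact r.Prime] (hR : IsPGroup r R)
    (hRi : ¬ r ∣ R.index) (hRL : R ≤ L) (hW : IsPGroup r W) (hWL : W ≤ L) :
    ∃ l ∈ L, ∀ w ∈ W, l * w * l⁻¹ ∈ R := by
  have hR' : IsPGroup r (R.subgroupOf L) := by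
    refine IsPGroup.of_equiv hR (Subgroup.subgroupOfEquivOfLe hRL).symm
  have hidx : ¬ r ∣ (R.subgroupOf L).index := by
    intro h
    apply hRi
    rw [← Subgroup.relIndex_mul_index hRL]
    exact Dvd.dvd.mul_right h _
  let S : Sylow r L := hR'.toSylow hidx
  have hW' : IsPGroup r (W.subgroupOf L) :=
    IsPGroup.of_equiv hW (Subgroup.subgroupOfEquivOfLe hWL).symm
  obtain ⟨l, hl⟩ := exists_conj_mem_of_isPGroup S hW'
  refine ⟨l, l.2, fun w hw => ?_⟩
  have := hl ⟨w, hWL hw⟩ (Subgroup.mem_subgroupOf.mpr hw)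
  have h2 : (l * ⟨w, hWL hw⟩ * l⁻¹ : L) ∈ R.subgroupOf L := this
  exact Subgroup.mem_subgroupOf.mp h2

theorem exists_sylow_le {H : Subgroup G} {r : ℕ} [hr : Fact r.Prime] (hi : ¬ r ∣ H.index) :
    ∃ R : Subgroup G, R ≤ H ∧ IsPGroup r R ∧ ¬ r ∣ R.index := by
  let S₀ : Sylow r H := default
  have hle : (S₀ : Subgroup H).map H.subtype ≤ H := by
    rintro _ ⟨x, _, rfl⟩
    exact x.2
  have hidx : ((S₀ : Subgroup H).map H.subtype).index = (S₀ : Subgroup H).index * H.index := by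
    rw [← Subgroup.relIndex_mul_index hle]
    congr 1
    rw [Subgroup.relIndex, Subgroup.subgroupOf, Subgroup.comap_map_eq_self_of_injective]
    exact H.subtype_injective
  refine ⟨_, hle, S₀.isPGroup'.map H.subtype, ?_⟩
  rw [hidx, Nat.Prime.dvd_mul hr.out]
  push Not
  exact ⟨S₀.not_dvd_index, hi⟩

theorem mem_normalizer_of_commute {X : Subgroup G} {z : G} (h : ∀ q ∈ X, z * q = q * z) :
    z ∈ normalizer (X : Set G) := by
  apply mem_normalizer_of_conj_mem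
  intro q hq
  rw [h q hq, mul_inv_cancel_right]
  exact hq

/-- The `r`-element case of the key commutation. -/
theorem centralizes_of_r_element {H X : Subgroup G} {p r : ℕ} (hp : p.Prime) (hr : r.Prime)
    (hrp : r ≠ p) (hri : ¬ r ∣ H.index) (hXH : X ≤ H) (hXp : IsPGroup p X)
    (hC : ∀ x ∈ H, ∀ y ∈ H, ∀ k : ℕ, y ^ p ^ k = 1 → (orderOf x).Coprime p → x * y = y * x)
    {y : G} (hy : y ∈ normalizer (X : Set G)) {k : ℕ} (hyk : y ^ r ^ k = 1) :
    ∀ q ∈ X, y * q = q * y := by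
  haveI : Fact r.Prime := ⟨hr⟩
  haveI : Fact p.Prime := ⟨hp⟩
  obtain ⟨R, hRH, hRp, hRi⟩ := exists_sylow_le hri
  have hcopr : ∀ z ∈ R, (orderOf z).Coprime p := by
    intro z hz
    obtain ⟨m, hm⟩ := (IsPGroup.iff_orderOf.mp hRp) ⟨z, hz⟩
    have : orderOf z = r ^ m := by
      rw [← hm, Subgroup.orderOf_mk]
    rw [this]
    exact Nat.Coprime.pow_left _ ((Nat.coprime_primes hr hp).mpr hrp)
  have hqk : ∀ q ∈ X, ∃ j : ℕ, q ^ p ^ j = 1 := by
    intro q hq
    obtain ⟨m, hm⟩ := (IsPGroup.iff_orderOf.mp hXp) ⟨q, hq⟩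
    refine ⟨m, ?_⟩
    rw [← hm, Subgroup.orderOf_mk]
    exact pow_orderOf_eq_one q
  have hcomm : ∀ z ∈ R, ∀ q ∈ X, z * q = q * z := by
    intro z hz q hq
    obtain ⟨j, hj⟩ := hqk q hq
    exact hC z (hRH hz) q (hXH hq) j hj (hcopr z hz)
  have hRL : R ≤ normalizer (X : Set G) := fun z hz =>
    mem_normalizer_of_commute (hcomm z hz)
  have hWp : IsPGroup r (Subgroup.zpowers y) := by
    rw [IsPGroup.iff_orderOf]
    rintro ⟨w, hw⟩
    obtain ⟨i, rfl⟩ := Subgroup.mem_zpowers_iff.mp hw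
    have h1 : (⟨y ^ i, hw⟩ : Subgroup.zpowers y) ^ r ^ k = 1 := by
      apply Subtype.ext
      show (y ^ i) ^ r ^ k = 1
      rw [← zpow_natCast, zpow_comm, zpow_natCast, hyk, one_zpow]
    obtain ⟨m, _, hm⟩ := (Nat.dvd_prime_pow hr).mp (orderOf_dvd_of_pow_eq_one h1)
    exact ⟨m, hm⟩
  have hWL : Subgroup.zpowers y ≤ normalizer (X : Set G) :=
    (Subgroup.zpowers_le).mpr hy
  obtain ⟨l, hl, hlw⟩ := exists_conj_into hRp hRi hRL hWp hWL
  intro q hq
  have hz := hlw y (Subgroup.mem_zpowers y)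
  have hq1 : l * q * l⁻¹ ∈ X := (Subgroup.mem_normalizer_iff.mp hl q).mp hq
  have := hcomm _ hz _ hq1
  have e1 : l * y * l⁻¹ * (l * q * l⁻¹) = l * (y * q) * l⁻¹ := by group
  have e2 : l * q * l⁻¹ * (l * y * l⁻¹) = l * (q * y) * l⁻¹ := by group
  rw [e1, e2] at this
  exact mul_left_cancel (mul_right_cancel this)

/-- The general commutation: `π`-elements prime to `p` normalizing a `p`-subgroup of `H` centralize it. -/
theorem centralizes_of_order {H X : Subgroup G} {p : ℕ} (hp : p.Prime)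
    (hXH : X ≤ H) (hXp : IsPGroup p X)
    (hC : ∀ x ∈ H, ∀ y ∈ H, ∀ k : ℕ, y ^ p ^ k = 1 → (orderOf x).Coprime p → x * y = y * x) :
    ∀ (n : ℕ) (y : G), orderOf y = n → y ∈ normalizer (X : Set G) → (orderOf y).Coprime p →
      (∀ r : ℕ, r.Prime → r ∣ orderOf y → ¬ r ∣ H.index) → ∀ q ∈ X, y * q = q * y := by
  intro n
  induction n using Nat.strong_induction_on with
  | _ n ih =>
  intro y hyn hy hcop hpr q hq
  by_cases h1 : orderOf y = 1
  · rw [orderOf_eq_one_iff.mp h1]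
    simp
  obtain ⟨r, hr, hrd⟩ := Nat.exists_prime_and_dvd h1
  haveI : Fact r.Prime := ⟨hr⟩
  obtain ⟨a, b, hab, hay, hby, ⟨k, hk⟩, hbc⟩ := Cfsg.Agent.Lib.Nilpotent.Parts.exists_parts y r
  have hrp : r ≠ p := by
    rintro rfl
    have := Nat.dvd_gcd hrd (dvd_refl r)
    rw [hcop.gcd_eq_one] at this
    exact hr.one_lt.ne' (Nat.dvd_one.mp this)
  have hal : a ∈ normalizer (X : Set G) := (Subgroup.zpowers_le.mpr hy) hay
  have hbl : b ∈ normalizer (X : Set G) := (Subgroup.zpowers_le.mpr hy) hby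
  have ha := centralizes_of_r_element hp hr hrp (hpr r hr hrd) hXH hXp hC hal hk q hq
  have hbo : orderOf b ∣ orderOf y := by
    obtain ⟨i, rfl⟩ := Subgroup.mem_zpowers_iff.mp hby
    refine orderOf_dvd_of_pow_eq_one ?_
    rw [← zpow_natCast, zpow_comm, zpow_natCast, pow_orderOf_eq_one, one_zpow]
  have hblt : orderOf b < n := by
    rw [← hyn]
    refine lt_of_le_of_ne (Nat.le_of_dvd (orderOf_pos y) hbo) ?_
    intro he
    rw [he] at hbc
    have := Nat.dvd_gcd hrd (dvd_refl r)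
    rw [hbc.gcd_eq_one] at this
    exact hr.one_lt.ne' (Nat.dvd_one.mp this)
  have hb := ih _ hblt b rfl hbl (Nat.Coprime.coprime_dvd_left hbo hcop)
    (fun s hs hsd => hpr s hs (hsd.trans hbo)) q hq
  rw [hab]
  calc a * b * q = a * (b * q) := by group
    _ = a * (q * b) := by rw [hb]
    _ = (a * q) * b := by group
    _ = (q * a) * b := by rw [ha]
    _ = q * (a * b) := by group

/-- The Frobenius hypothesis for a `π`-subgroup `U`. -/
theorem frobeniusHyp_sub {H U : Subgroup G} {p : ℕ} [hp : Fact p.Prime]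
    (hpi : ¬ p ∣ H.index)
    (hC : ∀ x ∈ H, ∀ y ∈ H, ∀ k : ℕ, y ^ p ^ k = 1 → (orderOf x).Coprime p → x * y = y * x)
    (hU : ∀ r : ℕ, r.Prime → r ∣ Nat.card U → ¬ r ∣ H.index) : FrobeniusHyp p U := by
  obtain ⟨P, hPH, hPp, hPi⟩ := exists_sylow_le (r := p) hpi
  intro Q hQ g hg hc
  -- conjugate the image of `Q` into `P`
  set X : Subgroup G := Q.map U.subtype with hX
  have hXp : IsPGroup p X := hQ.map U.subtype
  let P' : Sylow p G := hPp.toSylow hPi
  obtain ⟨x, hx⟩ := exists_conj_mem_of_isPGroup P' hXp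
  set X₁ : Subgroup G := X.map (MulAut.conj x).toMonoidHom with hX₁
  have hX₁P : X₁ ≤ H := by
    rintro _ ⟨w, hw, rfl⟩
    exact hPH (hx w hw)
  have hX₁p : IsPGroup p X₁ := hXp.map _
  set y : G := x * (g : G) * x⁻¹ with hy
  have hyn : y ∈ normalizer (X₁ : Set G) := by
    apply mem_normalizer_of_conj_mem
    rintro _ ⟨w, hw, rfl⟩
    obtain ⟨w', hw', rfl⟩ := hw
    have h1 : g * w' * g⁻¹ ∈ Q := (Subgroup.mem_normalizer_iff.mp hg w').mp hw'
    refine ⟨_, ⟨_, h1, rfl⟩, ?_⟩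
    simp [hy, MulAut.conj_apply, mul_assoc]
  have hoy : orderOf y = orderOf g := by
    rw [hy, orderOf_conj_eq]
    exact Subgroup.orderOf_coe g
  have hcy : (orderOf y).Coprime p := by rw [hoy]; exact hc
  have hpr : ∀ r : ℕ, r.Prime → r ∣ orderOf y → ¬ r ∣ H.index := by
    intro r hr hd
    rw [hoy] at hd
    exact hU r hr (hd.trans (orderOf_dvd_natCard g))
  have key := centralizes_of_order hp.out hX₁P hX₁p hC _ y rfl hyn hcy hpr
  rw [Subgroup.mem_centralizer_iff]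
  intro q hq
  apply Subtype.ext
  have h2 := key (x * (q : G) * x⁻¹) ⟨_, ⟨_, hq, rfl⟩, rfl⟩
  have e1 : y * (x * (q : G) * x⁻¹) = x * ((g : G) * q) * x⁻¹ := by rw [hy]; group
  have e2 : (x * (q : G) * x⁻¹) * y = x * ((q : G) * g) * x⁻¹ := by rw [hy]; group
  rw [e1, e2] at h2
  exact (mul_left_cancel (mul_right_cancel h2)).symm

/-- The `p`-part step. -/
theorem conj_step {H U : Subgroup G} {p : ℕ} [hp : Fact p.Prime] (hpi : ¬ p ∣ H.index)
    (hC : ∀ x ∈ H, ∀ y ∈ H, ∀ k : ℕ, y ^ p ^ k = 1 → (orderOf x).Coprime p → x * y = y * x)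
    (hU : ∀ r : ℕ, r.Prime → r ∣ Nat.card U → ¬ r ∣ H.index)
    (hpU : p ∣ Nat.card U)
    (ih : ∀ V : Subgroup G, V < U → ∃ x : G, ∀ v ∈ V, x * v * x⁻¹ ∈ H) :
    ∃ x : G, ∀ u ∈ U, x * u * x⁻¹ ∈ H := by
  obtain ⟨PU, N, hNn, hNc⟩ := hasNormalPComplement_of_hyp (frobeniusHyp_sub hpi hC hU)
  have hcardN : ¬ p ∣ Nat.card N := by
    rw [← hNc.index_eq_card]
    exact PU.not_dvd_index
  set N' : Subgroup G := N.map U.subtype with hN'
  have hN'U : N' ≤ U := by
    rintro _ ⟨x, _, rfl⟩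
    exact x.2
  have hcN' : Nat.card N' = Nat.card N := Subgroup.card_map_of_injective U.subtype_injective
  have hlt : N' < U := by
    refine lt_of_le_of_ne hN'U ?_
    intro he
    rw [← he, hcN'] at hpU
    exact hcardN hpU
  obtain ⟨c, hc⟩ := ih N' hlt
  obtain ⟨P, hPH, hPp, hPi⟩ := exists_sylow_le (r := p) hpi
  set N₁ : Subgroup G := N'.map (MulAut.conj c).toMonoidHom with hN₁
  have hN₁H : N₁ ≤ H := by
    rintro _ ⟨w, hw, rfl⟩
    exact hc w hw
  have hN₁o : ∀ w ∈ N₁, (orderOf w).Coprime p := by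
    rintro _ ⟨_, ⟨m, hmN, rfl⟩, rfl⟩
    have e : orderOf ((MulAut.conj c).toMonoidHom (U.subtype m)) = orderOf m := by
      have : (MulAut.conj c).toMonoidHom (U.subtype m) = c * (m : G) * c⁻¹ := by
        simp [MulAut.conj_apply]
      rw [this, orderOf_conj_eq]
      exact Subgroup.orderOf_coe m
    rw [e]
    refine Nat.Coprime.symm ?_
    rw [Nat.Prime.coprime_iff_not_dvd hp.out]
    intro hd
    exact hcardN (hd.trans (Subgroup.orderOf_dvd_natCard N hmN))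
  have hPL : P ≤ normalizer (N₁ : Set G) := by
    intro z hz
    apply mem_normalizer_of_commute
    intro w hw
    obtain ⟨m, hm⟩ := (IsPGroup.iff_orderOf.mp hPp) ⟨z, hz⟩
    have hzk : z ^ p ^ m = 1 := by
      rw [← hm, Subgroup.orderOf_mk]
      exact pow_orderOf_eq_one z
    exact (hC w (hN₁H hw) z (hPH hz) m hzk (hN₁o w hw)).symm
  set P₁ : Subgroup G := (PU : Subgroup U).map (U.subtype.comp (MonoidHom.id U)) |>.map
    (MulAut.conj c).toMonoidHom with hP₁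
  have hP₁p : IsPGroup p P₁ := (PU.isPGroup'.map _).map _
  have hP₁L : P₁ ≤ normalizer (N₁ : Set G) := by
    rintro _ ⟨_, ⟨s, hs, rfl⟩, rfl⟩
    apply mem_normalizer_of_conj_mem
    rintro _ ⟨_, ⟨m, hm, rfl⟩, rfl⟩
    have hm' : s * m * s⁻¹ ∈ N := hNn.conj_mem m hm s
    refine ⟨_, ⟨s * m * s⁻¹, hm', rfl⟩, ?_⟩
    simp [MulAut.conj_apply, mul_assoc]
  obtain ⟨l, hl, hlw⟩ := exists_conj_into hPp hPi hPL hP₁p hP₁L
  refine ⟨l * c, fun u hu => ?_⟩
  obtain ⟨⟨⟨n, hn⟩, ⟨s, hs⟩⟩, hns, -⟩ := hNc.existsUnique ⟨u, hu⟩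
  have hns' : (n : G) * s = u := congrArg Subtype.val hns
  have e : l * c * u * (l * c)⁻¹ =
      (l * (c * n * c⁻¹) * l⁻¹) * (l * (c * s * c⁻¹) * l⁻¹) := by
    rw [← hns']
    group
  rw [e]
  refine H.mul_mem (hN₁H ?_) (hPH (hlw _ ?_))
  · refine (Subgroup.mem_normalizer_iff.mp hl _).mp ?_
    exact ⟨_, ⟨n, hn, rfl⟩, by simp [MulAut.conj_apply]⟩
  · exact ⟨_, ⟨s, hs, rfl⟩, by simp [MulAut.conj_apply]⟩

theorem isPi_of_le {π : Set ℕ} {U V : Subgroup G} (hU : IsPiSubgroup π U) (h : V ≤ U) :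
    IsPiSubgroup π V := fun r hr hd => hU r hr (hd.trans (Subgroup.card_dvd_of_le h))

/-- `Nat.card (Hs ⊔ Ht)` for commuting subgroups meeting trivially. -/
theorem card_sup_eq {Hs Ht : Subgroup G} (hcomm : ∀ a ∈ Hs, ∀ b ∈ Ht, a * b = b * a)
    (hdis : Disjoint Hs Ht) : Nat.card (Hs ⊔ Ht : Subgroup G) = Nat.card Hs * Nat.card Ht := by
  rw [← Nat.card_prod]
  symm
  refine Nat.card_congr (Equiv.ofBijective
    (fun x : Hs × Ht => (⟨(x.1 : G) * x.2, Subgroup.mul_mem_sup x.1.2 x.2.2⟩ :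
      (Hs ⊔ Ht : Subgroup G))) ⟨?_, ?_⟩)
  · rintro ⟨⟨a, ha⟩, ⟨b, hb⟩⟩ ⟨⟨a', ha'⟩, ⟨b', hb'⟩⟩ h
    have h1 : a * b = a' * b' := congrArg Subtype.val h
    have h2 : a'⁻¹ * a = b' * b⁻¹ := by
      calc a'⁻¹ * a = a'⁻¹ * (a * b) * b⁻¹ := by group
        _ = a'⁻¹ * (a' * b') * b⁻¹ := by rw [h1]
        _ = b' * b⁻¹ := by group
    have h3 : a'⁻¹ * a ∈ Hs ⊓ Ht :=
      ⟨Hs.mul_mem (Hs.inv_mem ha') ha, by rw [h2]; exact Ht.mul_mem hb' (Ht.inv_mem hb)⟩
    rw [disjoint_iff.mp hdis, Subgroup.mem_bot] at h3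
    have ea : a = a' := (inv_mul_eq_one.mp h3).symm
    have eb : b = b' := by
      subst ea
      exact mul_left_cancel h1
    subst ea
    subst eb
    rfl
  · rintro ⟨x, hx⟩
    obtain ⟨a, ha, b, hb, rfl⟩ := exists_factor hcomm hx
    exact ⟨(⟨a, ha⟩, ⟨b, hb⟩), rfl⟩

theorem eq_conj_of_maximal {π : Set ℕ} {H A : Subgroup G} (hHπ : IsPiSubgroup π H)
    (hA : Maximal (IsPiSubgroup π) A) {x : G} (hx : ∀ u ∈ A, x * u * x⁻¹ ∈ H) :
    A = H.map (MulAut.conj x⁻¹).toMonoidHom := by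
  have hle : A ≤ H.map (MulAut.conj x⁻¹).toMonoidHom := by
    intro u hu
    refine ⟨x * u * x⁻¹, hx u hu, ?_⟩
    simp [MulAut.conj_apply, mul_assoc]
  have hpi : IsPiSubgroup π (H.map (MulAut.conj x⁻¹).toMonoidHom) := by
    intro r hr hd
    rw [Subgroup.card_map_of_injective (MulAut.conj x⁻¹).injective] at hd
    exact hHπ r hr hd
  exact le_antisymm hle (hA.2 hpi hle)

/-- Let σ and τ be disjoint sets of primes with union π. Suppose a finite group G has a Hall π-subgroup H which is the direct product of a nilpotent σ-subgroup and a τ-subgroup (two elementwise-commuting subgroups generating H), and that the maximal τ-subgroups of G are pairwise conjugate. Then the maximal π-subgroups of G are pairwise conjugate. -/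
theorem result {G : Type*} [Group G] [Finite G]
    (σ τ π : Set ℕ) (hπ : π = σ ∪ τ) (hd : Disjoint σ τ) (H Hs Ht : Subgroup G) (hH : Cfsg.IsPiHall π H)
    (hs : Cfsg.IsPiSubgroup σ Hs) (ht : Cfsg.IsPiSubgroup τ Ht) (hsn : Group.IsNilpotent Hs)
    (hjoin : Hs ⊔ Ht = H) (hcomm : ∀ a ∈ Hs, ∀ b ∈ Ht, a * b = b * a) (hD : Cfsg.IsDPiGroup τ G) :
    Cfsg.IsDPiGroup π G := by
  classical
  have hHπ : IsPiSubgroup π H := hH.1
  have hσπ : σ ⊆ π := hπ ▸ Set.subset_union_left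
  have hτπ : τ ⊆ π := hπ ▸ Set.subset_union_right
  -- commuting
  have hC : ∀ p : ℕ, p.Prime → p ∈ σ → ∀ x ∈ H, ∀ y ∈ H, ∀ k : ℕ, y ^ p ^ k = 1 →
      (orderOf x).Coprime p → x * y = y * x := by
    intro p hp hpσ x hx y hy k hk hxp
    rw [← hjoin] at hx hy
    exact commute_of_p_elements hd hs ht hsn hcomm hp hpσ hx hy hk hxp
  -- `Ht` is a maximal `τ`-subgroup
  have hdis : Disjoint Hs Ht := by
    apply Subgroup.disjoint_of_coprime_natCard
    refine Nat.Coprime.symm (Nat.coprime_of_dvd ?_)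
    intro q hq h1 h2
    exact Set.disjoint_left.mp hd (hs q hq h2) (ht q hq h1)
  have hHtH : Ht ≤ H := hjoin ▸ le_sup_right
  have hcardH : Nat.card H = Nat.card Hs * Nat.card Ht := by
    rw [← card_sup_eq hcomm hdis, hjoin]
  have hrel : Ht.relIndex H = Nat.card Hs := by
    have h1 := Subgroup.card_mul_index (Ht.subgroupOf H)
    have h2 : Nat.card (Ht.subgroupOf H) = Nat.card Ht :=
      Nat.card_congr (Subgroup.subgroupOfEquivOfLe hHtH).toEquiv
    rw [h2, hcardH, mul_comm] at h1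
    exact Nat.eq_of_mul_eq_mul_right Nat.card_pos h1
  have hHtidx : ∀ r : ℕ, r.Prime → r ∈ τ → ¬ r ∣ Ht.index := by
    intro r hr hrτ hdvd
    rw [← Subgroup.relIndex_mul_index hHtH, hrel, hr.dvd_mul] at hdvd
    rcases hdvd with h | h
    · exact Set.disjoint_left.mp hd (hs r hr h) hrτ
    · exact hH.2 r hr (hτπ hrτ) h
  have hHtmax : Maximal (IsPiSubgroup τ) Ht := by
    refine ⟨ht, ?_⟩
    intro L hL hle
    by_contra hne
    have h1 : Ht.relIndex L ≠ 1 := by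
      intro h
      exact hne (Subgroup.relIndex_eq_one.mp h)
    obtain ⟨r, hr, hrd⟩ := Nat.exists_prime_and_dvd h1
    have h2 : r ∣ Nat.card L := by
      refine hrd.trans ?_
      have := Subgroup.card_mul_index (Ht.subgroupOf L)
      exact Dvd.intro_left _ this
    have hrτ := hL r hr h2
    apply hHtidx r hr hrτ
    rw [← Subgroup.relIndex_mul_index hle]
    exact Dvd.dvd.mul_right hrd _
  -- main
  have main : ∀ U : Subgroup G, IsPiSubgroup π U → ∃ x : G, ∀ u ∈ U, x * u * x⁻¹ ∈ H := by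
    intro U
    induction U using WellFoundedLT.induction with
    | ind U ih =>
    intro hU
    by_cases hcase : ∃ p : ℕ, p.Prime ∧ p ∈ σ ∧ p ∣ Nat.card U
    · obtain ⟨p, hp, hpσ, hpU⟩ := hcase
      haveI : Fact p.Prime := ⟨hp⟩
      refine conj_step (hH.2 p hp (hσπ hpσ)) (hC p hp hpσ)
        (fun r hr hdv => hH.2 r hr (hU r hr hdv)) hpU ?_
      intro V hV
      exact ih V hV (isPi_of_le hU hV.le)
    · -- `U` is a `τ`-subgroup
      have hUτ : IsPiSubgroup τ U := by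
        intro r hr hdv
        have h1 := hU r hr hdv
        rw [hπ] at h1
        rcases h1 with h1 | h1
        · exact absurd ⟨r, hr, h1, hdv⟩ hcase
        · exact h1
      obtain ⟨K, hUK, hK⟩ := (Set.toFinite {K : Subgroup G | IsPiSubgroup τ K}).exists_le_maximal hUτ
      have hK' : Maximal (IsPiSubgroup τ) K := hK
      obtain ⟨g, hg⟩ := hD Ht K hHtmax hK'
      refine ⟨g⁻¹, fun u hu => ?_⟩
      have hu' : u ∈ Ht.map (MulAut.conj g).toMonoidHom := hg ▸ hUK hu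
      obtain ⟨w, hw, rfl⟩ := hu'
      have : g⁻¹ * (MulAut.conj g).toMonoidHom w * g⁻¹⁻¹ = w := by
        simp [MulAut.conj_apply, mul_assoc]
      rw [this]
      exact hHtH hw
  intro A B hA hB
  obtain ⟨x, hx⟩ := main A hA.1
  obtain ⟨y, hy⟩ := main B hB.1
  have hAe := eq_conj_of_maximal hHπ hA hx
  have hBe := eq_conj_of_maximal hHπ hB hy
  refine ⟨y⁻¹ * x, ?_⟩
  rw [hAe, hBe, Subgroup.map_map]
  congr 1
  ext w
  simp [MulAut.conj_apply, mul_assoc]

end Cfsg.Agent.S4334
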