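import Cfsg.Statements.S4337
import Mathlib

set_option autoImplicit false
open Cfsg

namespace Cfsg.Agent.S4337

open Equiv Equiv.Perm

set_option maxRecDepth 100000 in
theorem dec0 : ∀ x y : Perm (Fin 4), sign (x * y * x⁻¹ * y⁻¹) = 1 := by decide +kernel

set_option maxRecDepth 100000 in
theorem dec1 : ∀ g h : Perm (Fin 4), g ^ 2 = 1 → sign g = 1 → h ^ 2 = 1 → sign h = 1 →
    (g * h) ^ 2 = 1 ∧ sign (g * h) = 1 := by decide +kernel

set_option maxRecDepth 100000 in
theorem dec2 : ∀ x y : Perm (Fin 4), sign x = 1 → sign y = 1 →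
    (x * y * x⁻¹ * y⁻¹) ^ 2 = 1 ∧ sign (x * y * x⁻¹ * y⁻¹) = 1 := by decide +kernel

set_option maxRecDepth 100000 in
theorem dec3 : ∀ x y : Perm (Fin 4), x ^ 2 = 1 → sign x = 1 → y ^ 2 = 1 → sign y = 1 →
    x * y * x⁻¹ * y⁻¹ = 1 := by decide +kernel

set_option maxRecDepth 100000 in
theorem dec4 : ∀ x : Perm (Fin 4), x ^ 2 = 1 → sign x = 1 → (x⁻¹) ^ 2 = 1 ∧ sign x⁻¹ = 1 := by
  decide +kernel

/-- The Klein four subgroup of `S₄`. -/
def V4 : Subgroup (Perm (Fin 4)) where
  carrier := {g | g ^ 2 = 1 ∧ sign g = 1}
  mul_mem' := fun {a b} ha hb => dec1 a b ha.1 ha.2 hb.1 hb.2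
  one_mem' := by simp
  inv_mem' := fun {a} ha => dec4 a ha.1 ha.2

theorem derived_three : derivedSeries (Perm (Fin 4)) 3 = ⊥ := by
  have h1 : derivedSeries (Perm (Fin 4)) 1 ≤ (sign : Perm (Fin 4) →* ℤˣ).ker := by
    rw [derivedSeries_succ, derivedSeries_zero, Subgroup.commutator_le]
    intro x _ y _
    rw [MonoidHom.mem_ker, commutatorElement_def]
    exact dec0 x y
  have h2 : derivedSeries (Perm (Fin 4)) 2 ≤ V4 := by
    rw [derivedSeries_succ, Subgroup.commutator_le]
    intro x hx y hy
    have hx' := h1 hx
    have hy' := h1 hy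
    rw [MonoidHom.mem_ker] at hx' hy'
    rw [commutatorElement_def]
    exact dec2 x y hx' hy'
  rw [derivedSeries_succ, ← le_bot_iff, Subgroup.commutator_le]
  intro x hx y hy
  have hx' := h2 hx
  have hy' := h2 hy
  rw [Subgroup.mem_bot, commutatorElement_def]
  exact dec3 x y hx'.1 hx'.2 hy'.1 hy'.2

/-- For a finite set `S` of swaps and a point `x`, there is a `S`-invariant set containing `x`
of size at most `|S| + 1`. -/
theorem exists_invariant {α : Type*} [Fintype α] [DecidableEq α] (S : Finset (Perm α))
    (hS : ∀ e ∈ S, e.IsSwap) (x : α) :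
    ∃ A : Finset α, x ∈ A ∧ A.card ≤ S.card + 1 ∧ ∀ e ∈ S, ∀ y ∈ A, e y ∈ A := by
  classical
  let P : Finset α → Prop := fun A => x ∈ A ∧ A.card ≤ (S.filter (fun e => e.support ⊆ A)).card + 1
  have hP0 : P {x} := ⟨Finset.mem_singleton_self x, by simp⟩
  obtain ⟨A, hA, hmax⟩ := Finset.exists_max_image (Finset.univ.filter P) Finset.card
    ⟨{x}, by simp [hP0]⟩
  have hPA : P A := (Finset.mem_filter.mp hA).2
  refine ⟨A, hPA.1, ?_, ?_⟩
  · exact hPA.2.trans (Nat.succ_le_succ (Finset.card_filter_le _ _))
  · intro e he y hy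
    by_contra hz
    obtain ⟨u, v, huv, rfl⟩ := hS e he
    -- `y` is one of `u, v`
    have hyuv : y = u ∨ y = v := by
      by_contra hcon
      push Not at hcon
      rw [Equiv.swap_apply_of_ne_of_ne hcon.1 hcon.2] at hz
      exact hz hy
    -- the other endpoint `z`
    obtain ⟨z, hzA, hsupp⟩ : ∃ z, z ∉ A ∧ (swap u v).support ⊆ insert z A := by
      rcases hyuv with rfl | rfl
      · refine ⟨v, by simpa using hz, ?_⟩
        rw [Equiv.Perm.support_swap huv]
        intro w hw
        simp only [Finset.mem_insert, Finset.mem_singleton] at hw ⊢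
        rcases hw with rfl | rfl
        · exact Or.inr hy
        · exact Or.inl rfl
      · refine ⟨u, by simpa using hz, ?_⟩
        rw [Equiv.Perm.support_swap huv]
        intro w hw
        simp only [Finset.mem_insert, Finset.mem_singleton] at hw ⊢
        rcases hw with rfl | rfl
        · exact Or.inl rfl
        · exact Or.inr hy
    have hnotsub : ¬ (swap u v).support ⊆ A := by
      intro h
      rcases hyuv with rfl | rfl
      · apply hz
        apply h
        rw [Equiv.Perm.support_swap huv]
        simp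
      · apply hz
        apply h
        rw [Equiv.Perm.support_swap huv]
        simp
    have hPA' : P (insert z A) := by
      refine ⟨Finset.mem_insert_of_mem hPA.1, ?_⟩
      rw [Finset.card_insert_of_notMem hzA]
      have hlt : (S.filter (fun e => e.support ⊆ A)).card <
          (S.filter (fun e => e.support ⊆ insert z A)).card := by
        apply Finset.card_lt_card
        rw [Finset.ssubset_iff_of_subset]
        · exact ⟨swap u v, Finset.mem_filter.mpr ⟨he, hsupp⟩,
            fun h => hnotsub (Finset.mem_filter.mp h).2⟩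
        · intro f hf
          rw [Finset.mem_filter] at hf ⊢
          exact ⟨hf.1, hf.2.trans (Finset.subset_insert _ _)⟩
      have := hPA.2
      omega
    have := hmax (insert z A) (Finset.mem_filter.mpr ⟨Finset.mem_univ _, hPA'⟩)
    rw [Finset.card_insert_of_notMem hzA] at this
    omega

/-- In a finite symmetric group, any three transpositions generate a solvable subgroup. -/
theorem result (n : ℕ) (a b c : Equiv.Perm (Fin n))
    (ha : a.IsSwap) (hb : b.IsSwap) (hc : c.IsSwap) :
    Group.IsSolvable (Subgroup.closure ({a, b, c} : Set (Equiv.Perm (Fin n)))) := by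
  classical
  set G := Subgroup.closure ({a, b, c} : Set (Equiv.Perm (Fin n))) with hG
  have hS : ∀ e ∈ ({a, b, c} : Finset (Perm (Fin n))), e.IsSwap := by
    intro e he
    simp only [Finset.mem_insert, Finset.mem_singleton] at he
    rcases he with rfl | rfl | rfl <;> assumption
  have key : ∀ x : Fin n, ∀ g ∈ derivedSeries G 3, (g : Perm (Fin n)) x = x := by
    intro x g hg
    obtain ⟨A, hxA, hAcard, hAinv⟩ := exists_invariant ({a, b, c} : Finset (Perm (Fin n))) hS x
    have hinv : ∀ g ∈ G, ∀ y, y ∈ A ↔ g y ∈ A := by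
      intro g hg
      induction hg using Subgroup.closure_induction with
      | mem e he =>
        have he' : e ∈ ({a, b, c} : Finset (Perm (Fin n))) := by
          simpa using he
        obtain ⟨u, v, _, rfl⟩ := hS e he'
        intro y
        refine ⟨hAinv _ he' y, fun h => ?_⟩
        have := hAinv _ he' _ h
        simpa using this
      | one => exact fun y => Iff.rfl
      | mul g h _ _ ihg ihh =>
        intro y
        rw [ihh y, ihg (h y)]
        rfl
      | inv g _ ih =>
        intro y
        rw [ih (g⁻¹ y)]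
        simp
    let B : SubMulAction G (Fin n) :=
      { carrier := A
        smul_mem' := fun g y hy => (hinv g g.2 y).mp hy }
    have hB : Nat.card B ≤ Nat.card (Fin 4) := by
      have h3 : ({a, b, c} : Finset (Perm (Fin n))).card ≤ 3 := Finset.card_le_three
      have : Nat.card B = A.card := by
        have h : Nat.card {y // y ∈ A} = A.card := by simp
        rw [← h]
        exact Nat.card_congr (Equiv.subtypeEquivRight (fun y => (Iff.rfl : y ∈ B ↔ y ∈ A)))
      rw [this]
      simp only [Nat.card_eq_fintype_card, Fintype.card_fin]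
      omega
    have : Fintype B := Fintype.ofFinite _
    rw [Nat.card_eq_fintype_card, Nat.card_eq_fintype_card] at hB
    obtain ⟨ι⟩ := Function.Embedding.nonempty_of_card_le hB
    let ψ : G →* Perm (Fin 4) := (viaEmbeddingHom ι).comp (MulAction.toPermHom G B)
    have h1 : ψ g ∈ (derivedSeries G 3).map ψ := Subgroup.mem_map_of_mem _ hg
    have h2 := map_derivedSeries_le_derivedSeries ψ 3 h1
    rw [derived_three, Subgroup.mem_bot] at h2
    have h3 : MulAction.toPermHom G B g = 1 := by
      apply viaEmbeddingHom_injective ι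
      rw [map_one]
      exact h2
    have h4 := congrArg (fun f : Perm B => ((f ⟨x, hxA⟩ : B) : Fin n)) h3
    exact h4
  refine ⟨3, ?_⟩
  rw [← le_bot_iff]
  intro g hg
  rw [Subgroup.mem_bot]
  apply Subtype.ext
  ext x
  exact congrArg _ (key x g hg)

end Cfsg.Agent.S4337
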