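import Cfsg.Statements.S4341
import Mathlib
import Cfsg.Agent.S4345

set_option autoImplicit false
set_option linter.style.haveILetI false
open Cfsg
open Cfsg.Agent.S4345

namespace Cfsg.Agent.S4341

/-- If `A` normalises `B`, then `[A ⊔ B : A] = [B : A ⊓ B]`. -/
theorem relIndex_sup_of_le_normalizer {G : Type*} [Group G] [Finite G] (A B : Subgroup G)
    (h : A ≤ Subgroup.normalizer (B : Set G)) : A.relIndex (A ⊔ B) = A.relIndex B := by
  let M : Subgroup G := A ⊔ B
  have hAM : A ≤ M := le_sup_left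
  have hBM : B ≤ M := le_sup_right
  have hMN : M ≤ Subgroup.normalizer (B : Set G) := sup_le h Subgroup.le_normalizer
  haveI : (B.subgroupOf M).Normal := Subgroup.normal_subgroupOf_of_le_normalizer hMN
  have h1 := relIndex_sup_of_normal (A.subgroupOf M) (B.subgroupOf M)
  have h2 : A.subgroupOf M ⊔ B.subgroupOf M = ⊤ := by
    rw [← Subgroup.subgroupOf_sup hAM hBM]
    exact Subgroup.subgroupOf_self M
  rw [h2, Subgroup.relIndex_top_right, Subgroup.relIndex_subgroupOf hBM] at h1
  exact h1

/-- If `Q ≤ A` and `Q` normalises `B`, then `[Q ⊔ B : A ∩ (Q ⊔ B)] = [B : A ∩ B]`. -/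
theorem relIndex_sup_eq {G : Type*} [Group G] [Finite G] (A B Q : Subgroup G) (hQA : Q ≤ A)
    (hQB : Q ≤ Subgroup.normalizer (B : Set G)) : A.relIndex (Q ⊔ B) = A.relIndex B := by
  let L : Subgroup G := Q ⊔ B
  have hBL : B ≤ L := le_sup_right
  have hLN : L ≤ Subgroup.normalizer (B : Set G) := sup_le hQB Subgroup.le_normalizer
  have h3 : A.relIndex L = (A ⊓ L).relIndex L := (Subgroup.inf_relIndex_right _ _).symm
  have h4 : (A ⊓ L) ⊔ B = L := by
    apply le_antisymm
    · exact sup_le inf_le_right hBL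
    · exact sup_le (le_sup_of_le_left (le_inf hQA le_sup_left)) le_sup_right
  have h5 := relIndex_sup_of_le_normalizer (A ⊓ L) B (inf_le_right.trans hLN)
  rw [h4] at h5
  have h6 : (A ⊓ L).relIndex B = ((A ⊓ L) ⊓ B).relIndex B := (Subgroup.inf_relIndex_right _ _).symm
  have h7 : (A ⊓ L) ⊓ B = A ⊓ B := by
    rw [inf_assoc, inf_eq_right.mpr hBL]
  show A.relIndex L = _
  rw [h3, h5, h6, h7, Subgroup.inf_relIndex_right]

theorem result {G : Type*} [Group G] [Finite G]
    (p : ℕ) [hpf : Fact p.Prime] (K : Subgroup G) [hKn : K.Normal] (P : Sylow p G) (N : Subgroup G)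
    (hN : N = ((P : Subgroup G) ⊔ K) ⊓ Subgroup.normalizer (((P : Subgroup G) ⊓ K : Subgroup G) : Set G))
    [hn : (((P : Subgroup G) ⊓ K).subgroupOf N).Normal] :
    Nat.card (Sylow p G) =
      Nat.card (Sylow p (G ⧸ K)) * Nat.card (Sylow p K) * Nat.card (Sylow p (N ⧸ ((P : Subgroup G) ⊓ K).subgroupOf N)) := by
  set D : Subgroup G := (P : Subgroup G) ⊓ K with hD
  set A := Subgroup.normalizer ((P : Subgroup G) : Set G) with hA
  have hDP : D ≤ P := inf_le_left
  have hDK : D ≤ K := inf_le_right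
  have hPN : (P : Subgroup G) ≤ Subgroup.normalizer (D : Set G) := by
    refine fun x hx => Subgroup.mem_normalizer_iff.mpr (fun y => ?_)
    constructor
    · rintro ⟨h1, h2⟩
      exact ⟨P.toSubgroup.mul_mem (P.toSubgroup.mul_mem hx h1) (P.toSubgroup.inv_mem hx),
        hKn.conj_mem y h2 x⟩
    · rintro ⟨h1, h2⟩
      have e : y = x⁻¹ * (x * y * x⁻¹) * x := by group
      refine ⟨?_, ?_⟩
      · rw [e]
        exact P.toSubgroup.mul_mem (P.toSubgroup.mul_mem (P.toSubgroup.inv_mem hx) h1) hx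
      · have := hKn.conj_mem _ h2 x⁻¹
        simpa [mul_assoc] using this
  have hAN : A ≤ Subgroup.normalizer (D : Set G) := by
    refine fun x hx => Subgroup.mem_normalizer_iff.mpr (fun y => ?_)
    have hxP := Subgroup.mem_normalizer_iff.mp hx y
    constructor
    · rintro ⟨h1, h2⟩
      exact ⟨hxP.mp h1, hKn.conj_mem y h2 x⟩
    · rintro ⟨h1, h2⟩
      refine ⟨hxP.mpr h1, ?_⟩
      have := hKn.conj_mem _ h2 x⁻¹
      simpa [mul_assoc] using this
  let X : Subgroup G := K ⊓ Subgroup.normalizer (D : Set G)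
  -- Step 1
  obtain ⟨h1, -⟩ := card_sylow_eq K P
  -- Step 2: `P` in `N`
  have hPNN : (P : Subgroup G) ≤ N := by
    rw [hN]
    exact le_inf le_sup_left hPN
  have hDN : D ≤ N := hDP.trans hPNN
  obtain ⟨h2, -⟩ := card_sylow_eq (D.subgroupOf N) (P.subtype hPNN)
  have h3 : (Subgroup.normalizer (((P.subtype hPNN : Sylow p N) : Subgroup N) : Set N)).relIndex
      (D.subgroupOf N) = 1 := by
    rw [Subgroup.relIndex_eq_one]
    refine le_trans ?_ Subgroup.le_normalizer
    show D.subgroupOf N ≤ (P : Subgroup G).subgroupOf N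
    exact fun x hx => hDP hx
  rw [h3, mul_one] at h2
  have e4 : Nat.card (Sylow p N) = A.relIndex N := by
    have e4 : Nat.card (Sylow p N) =
        (Subgroup.normalizer ((((P : Subgroup G).subgroupOf N : Subgroup N)) : Set N)).index :=
      Sylow.card_eq_index_normalizer (P.subtype hPNN)
    rw [e4, ← Subgroup.subgroupOf_normalizer_eq hPNN]
    rfl
  -- `N = P ⊔ X`
  have hNeq : N = (P : Subgroup G) ⊔ X := by
    apply le_antisymm
    · rw [hN]
      rintro x ⟨hx1, hx2⟩
      obtain ⟨a, ha, b, hb, rfl⟩ := Subgroup.mem_sup_of_normal_right.mp hx1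
      refine Subgroup.mul_mem _ (Subgroup.mem_sup_left ha) (Subgroup.mem_sup_right ⟨hb, ?_⟩)
      have e : b = a⁻¹ * (a * b) := by group
      rw [e]
      exact Subgroup.mul_mem _ (Subgroup.inv_mem _ (hPN ha)) hx2
    · rw [hN]
      refine sup_le (le_inf le_sup_left hPN) ?_
      exact inf_le_inf_right _ le_sup_right
  have hPX : (P : Subgroup G) ≤ Subgroup.normalizer (X : Set G) := by
    refine fun x hx => Subgroup.mem_normalizer_iff.mpr (fun y => ?_)
    constructor
    · rintro ⟨h1, h2⟩
      exact ⟨hKn.conj_mem y h1 x, Subgroup.mul_mem _ (Subgroup.mul_mem _ (hPN hx) h2)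
        (Subgroup.inv_mem _ (hPN hx))⟩
    · rintro ⟨h1, h2⟩
      have e : y = x⁻¹ * (x * y * x⁻¹) * x := by group
      refine ⟨?_, ?_⟩
      · have := hKn.conj_mem _ h1 x⁻¹
        simpa [mul_assoc] using this
      · rw [e]
        exact Subgroup.mul_mem _ (Subgroup.mul_mem _ (Subgroup.inv_mem _ (hPN hx)) h2) (hPN hx)
  have e5 : A.relIndex N = A.relIndex X := by
    rw [hNeq]
    exact relIndex_sup_eq A X P Subgroup.le_normalizer hPX
  -- Step 3
  have hAKX : A ⊓ K ≤ X := le_inf inf_le_right (inf_le_left.trans hAN)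
  have hXK : X ≤ K := inf_le_left
  have e6 : A.relIndex K = A.relIndex X * X.relIndex K := by
    have h7 := Subgroup.relIndex_mul_relIndex (A ⊓ K) X K hAKX hXK
    rw [Subgroup.inf_relIndex_right] at h7
    have h8 : (A ⊓ K).relIndex X = A.relIndex X := by
      have h9 : A ⊓ X = A ⊓ K := by
        apply le_antisymm
        · exact inf_le_inf_left _ hXK
        · exact le_inf inf_le_left hAKX
      rw [← h9, Subgroup.inf_relIndex_right]
    rw [h8] at h7
    exact h7.symm
  -- Step 4
  have hD₁p : IsPGroup p ((P : Subgroup G).subgroupOf K) :=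
    P.isPGroup'.comap_of_injective K.subtype K.subtype_injective
  have hD₁i : ¬ p ∣ ((P : Subgroup G).subgroupOf K).index := by
    intro hd
    apply P.not_dvd_index
    have h10 : (P : Subgroup G).relIndex K = (P : Subgroup G).relIndex ((P : Subgroup G) ⊔ K) :=
      (relIndex_sup_of_normal (P : Subgroup G) K).symm
    have h11 := Subgroup.relIndex_mul_index (le_sup_left : (P : Subgroup G) ≤ (P : Subgroup G) ⊔ K)
    rw [← h11, ← h10]
    exact hd.trans (dvd_mul_right _ _)
  have e7 : Nat.card (Sylow p K) = X.relIndex K := by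
    have e8 : Nat.card (Sylow p K) =
        (Subgroup.normalizer ((((P : Subgroup G).subgroupOf K : Subgroup K)) : Set K)).index :=
      Sylow.card_eq_index_normalizer (hD₁p.toSylow hD₁i)
    have e9 : (P : Subgroup G).subgroupOf K = D.subgroupOf K :=
      (Subgroup.inf_subgroupOf_right _ _).symm
    rw [e8, e9, ← Subgroup.subgroupOf_normalizer_eq hDK]
    show (Subgroup.normalizer (D : Set G)).relIndex K = _
    rw [← Subgroup.inf_relIndex_right (Subgroup.normalizer (D : Set G)) K, inf_comm]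
  rw [h1, ← h2, e4, e5, e7, e6]
  ring

end Cfsg.Agent.S4341
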