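import Cfsg.Statements.S4342
import Mathlib
import Cfsg.Agent.S4345

set_option autoImplicit false
set_option linter.style.haveILetI false
open Cfsg

namespace Cfsg.Agent.S4342

theorem result {G : Type*} [Group G] [Finite G]
    (p : ℕ) [hpf : Fact p.Prime] (H : Subgroup G) [H.Normal] (hp : ¬ p ∣ H.index) :
    Nat.card (Sylow p (H ⧸ Subgroup.center H)) = Nat.card (Sylow p G) := by
  let P : Sylow p G := default
  have hPH : (P : Subgroup G) ≤ H := by
    have hd1 : H.relIndex P ∣ H.index := Subgroup.relIndex_dvd_index_of_normal H P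
    have hd2 : H.relIndex P ∣ Nat.card P := Subgroup.relIndex_dvd_card H P
    obtain ⟨k, hk⟩ := IsPGroup.iff_card.mp P.isPGroup'
    rw [hk] at hd2
    have hc : (H.relIndex P).Coprime p :=
      Nat.Coprime.coprime_dvd_left hd1 ((Nat.Prime.coprime_iff_not_dvd hpf.out).mpr hp).symm
    exact Subgroup.relIndex_eq_one.mp (Nat.Coprime.eq_one_of_dvd (Nat.Coprime.pow_right k hc) hd2)
  set N := Subgroup.normalizer ((P : Subgroup G) : Set G) with hN
  have hsup : N ⊔ H = ⊤ := Sylow.normalizer_sup_eq_top' P hPH
  have e1 : Nat.card (Sylow p G) = N.index := Sylow.card_eq_index_normalizer P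
  have e2 : N.index = N.relIndex H := by
    rw [← Cfsg.Agent.S4345.relIndex_sup_of_normal N H, hsup, Subgroup.relIndex_top_right]
  have e3 : Nat.card (Sylow p H) = N.relIndex H := by
    have e4 : Nat.card (Sylow p H) =
        (Subgroup.normalizer ((((P : Subgroup G).subgroupOf H : Subgroup H)) : Set H)).index :=
      Sylow.card_eq_index_normalizer (P.subtype hPH)
    rw [e4, ← Subgroup.subgroupOf_normalizer_eq hPH]
    rfl
  obtain ⟨h1, -⟩ := Cfsg.Agent.S4345.card_sylow_eq (Subgroup.center H) (P.subtype hPH)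
  have h2 : (Subgroup.normalizer (((P.subtype hPH : Sylow p H) : Subgroup H) : Set H)).relIndex
      (Subgroup.center H) = 1 := by
    rw [Subgroup.relIndex_eq_one]
    intro x hx
    rw [Subgroup.mem_normalizer_iff]
    intro y
    have : x * y * x⁻¹ = y := by
      rw [(Subgroup.mem_center_iff.mp hx y).symm]; group
    rw [this]
  rw [h2, mul_one] at h1
  rw [← h1, e3, e1, e2]

end Cfsg.Agent.S4342
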