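import Cfsg.Statements.S4343
import Mathlib

set_option autoImplicit false
open Cfsg

namespace Cfsg.Agent.S4343

open scoped Pointwise
open MulAction

variable {S : Type*} [Group S] [Finite S] {p : ℕ} [Fact p.Prime]

/-- The orbit of `R` under `Q` has size `[Q : Q ⊓ R]`. -/
lemma card_inf_mul_orbit (Q R : Sylow p S) :
    Nat.card ((Q : Subgroup S) ⊓ (R : Subgroup S) : Subgroup S) *
      Nat.card (orbit (Q : Subgroup S) R) = Nat.card (Q : Subgroup S) := by
  have hQp : IsPGroup p (Q : Subgroup S) := Q.isPGroup'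
  have hst : stabilizer (Q : Subgroup S) R =
      ((Q : Subgroup S) ⊓ (R : Subgroup S)).subgroupOf (Q : Subgroup S) := by
    ext x
    rw [Subgroup.mem_subgroupOf, mem_stabilizer_iff]
    have h1 : (x : S) ∈ (Q : Subgroup S) ⊓ Subgroup.normalizer (R : Set S) ↔ (x : S) ∈
        (Q : Subgroup S) ⊓ (R : Subgroup S) := by
      rw [hQp.inf_normalizer_sylow R]
    constructor
    · intro h
      apply h1.1
      refine ⟨x.2, ?_⟩
      exact Sylow.smul_eq_iff_mem_normalizer.1 h
    · intro h
      exact Sylow.smul_eq_iff_mem_normalizer.2 (h1.2 h).2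
  have h2 := Subgroup.card_mul_index (stabilizer (Q : Subgroup S) R)
  rw [index_stabilizer] at h2
  rw [← h2, hst]
  congr 1
  exact Nat.card_congr (Subgroup.subgroupOfEquivOfLe inf_le_left).toEquiv.symm

/-- All Sylow subgroups have the same order. -/
lemma card_sylow_eq (Q R : Sylow p S) :
    Nat.card (Q : Subgroup S) = Nat.card (R : Subgroup S) := by
  rw [Sylow.card_eq_multiplicity, Sylow.card_eq_multiplicity]

/-- Distinct Sylow subgroups meet in index `p`, when there are fewer than `p²` of them. -/
lemma card_inf_mul_p (hn : Nat.card (Sylow p S) < p ^ 2) {Q R : Sylow p S} (hQR : Q ≠ R) :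
    Nat.card ((Q : Subgroup S) ⊓ (R : Subgroup S) : Subgroup S) * p = Nat.card (Q : Subgroup S) := by
  classical
  have hp := (Fact.out : p.Prime)
  have h1 := card_inf_mul_orbit Q R
  have hQp : IsPGroup p (Q : Subgroup S) := Q.isPGroup'
  -- the orbit size divides `|Q|`, hence is a power of `p`
  have hdvd : Nat.card (orbit (Q : Subgroup S) R) ∣ Nat.card (Q : Subgroup S) := ⟨_, by
    rw [← h1, mul_comm]⟩
  obtain ⟨m, hm⟩ := IsPGroup.iff_card.1 hQp
  rw [hm] at hdvd
  obtain ⟨k, -, hk⟩ := (Nat.dvd_prime_pow hp).1 hdvd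
  -- the orbit does not contain `Q`
  have hQnot : Q ∉ orbit (Q : Subgroup S) R := by
    rintro ⟨x, hx⟩
    apply hQR
    have : (x : S) • Q = Q := by
      rw [Sylow.smul_eq_iff_mem_normalizer]
      exact Subgroup.le_normalizer x.2
    have h3 : (x : S) • R = (x : S) • Q := by rw [this]; exact hx
    exact (smul_left_cancel (x : S) h3).symm
  -- the orbit contains `R`
  have hlt : Nat.card (orbit (Q : Subgroup S) R) < p ^ 2 := by
    refine lt_of_le_of_lt ?_ hn
    exact Nat.card_le_card_of_injective (Subtype.val) Subtype.val_injective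
  have hk2 : k < 2 := by
    rw [hk] at hlt
    exact (Nat.pow_lt_pow_iff_right hp.one_lt).1 hlt
  have hk0 : k ≠ 0 := by
    rintro rfl
    rw [pow_zero] at hk
    -- then `Q` fixes `R`
    have hstab : ∀ x : (Q : Subgroup S), x • R = R := by
      intro x
      have hsub : Subsingleton (orbit (Q : Subgroup S) R) :=
        (Nat.card_eq_one_iff_unique.1 hk).1
      have := hsub.elim ⟨x • R, mem_orbit _ _⟩ ⟨R, mem_orbit_self _⟩
      exact congrArg Subtype.val this
    have hle : (Q : Subgroup S) ≤ R := by
      intro x hx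
      have := hstab ⟨x, hx⟩
      have h4 := hQp.inf_normalizer_sylow R
      have h5 : x ∈ (Q : Subgroup S) ⊓ Subgroup.normalizer (R : Set S) :=
        ⟨hx, Sylow.smul_eq_iff_mem_normalizer.1 this⟩
      rw [h4] at h5
      exact h5.2
    exact hQR (Sylow.ext (Q.is_maximal' R.isPGroup' hle).symm)
  have : k = 1 := by omega
  subst this
  rw [pow_one] at hk
  rw [← h1, hk]

/-- The line through two distinct Sylow subgroups has at least `p + 1` points. -/
lemma card_line_ge (D : Subgroup S) (hD : IsPGroup p D) [Fintype (Sylow p S)] [DecidablePred (fun R : Sylow p S => D ≤ (R : Subgroup S))]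
    {Q R : Sylow p S} (hQ : D ≤ Q) (hR : D ≤ R) (hQR : Q ≠ R) :
    p + 1 ≤ (Finset.univ.filter (fun T : Sylow p S => D ≤ (T : Subgroup S))).card := by
  classical
  have hp := (Fact.out : p.Prime)
  have h1 : Nat.card (Sylow p S) ≡ Nat.card (fixedPoints D (Sylow p S)) [MOD p] :=
    hD.card_modEq_card_fixedPoints _
  have h2 := card_sylow_modEq_one p S
  have h3 : Nat.card (fixedPoints D (Sylow p S)) =
      (Finset.univ.filter (fun T : Sylow p S => D ≤ (T : Subgroup S))).card := by
    rw [← Nat.card_eq_finsetCard]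
    apply Nat.card_congr
    apply Equiv.subtypeEquivRight
    intro T
    rw [Finset.mem_filter]
    simp only [Finset.mem_univ, true_and]
    exact hD.sylow_mem_fixedPoints_iff
  rw [h3] at h1
  have h4 : (Finset.univ.filter (fun T : Sylow p S => D ≤ (T : Subgroup S))).card ≡ 1 [MOD p] :=
    h1.symm.trans h2
  have h5 : 1 < (Finset.univ.filter (fun T : Sylow p S => D ≤ (T : Subgroup S))).card := by
    rw [Finset.one_lt_card]
    exact ⟨Q, by simpa using hQ, R, by simpa using hR, hQR⟩
  have h6 : p ∣ (Finset.univ.filter (fun T : Sylow p S => D ≤ (T : Subgroup S))).card - 1 :=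
    (Nat.modEq_iff_dvd' h5.le).1 h4.symm
  have := Nat.le_of_dvd (by omega) h6
  omega

theorem result_aux [IsSimpleGroup S] (hS : ¬ IsMulCommutative S) (hp : p ∣ Nat.card S)
    (hn : Nat.card (Sylow p S) < p ^ 2) (P : Sylow p S) : Nat.card P = p := by
  classical
  have hpp := (Fact.out : p.Prime)
  have := Fintype.ofFinite (Sylow p S)
  -- Sylow subgroups are non-trivial and proper
  have hPpg : IsPGroup p (P : Subgroup S) := P.isPGroup'
  -- more than one Sylow subgroup
  have hntriv : ∀ N : Subgroup S, N.Normal → IsPGroup p N → N = ⊥ := by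
    intro N hN hNp
    rcases hN.eq_bot_or_eq_top with h | h
    · exact h
    · exfalso
      subst h
      have hpgrp : IsPGroup p S := by
        intro g
        obtain ⟨k, hk⟩ := hNp ⟨g, Subgroup.mem_top g⟩
        exact ⟨k, by simpa using congrArg Subtype.val hk⟩
      have hcn : Nontrivial S := inferInstance
      have hZ : Nontrivial (Subgroup.center S) := hpgrp.center_nontrivial
      rcases (inferInstance : (Subgroup.center S).Normal).eq_bot_or_eq_top with h | h
      · rw [h] at hZ
        exact not_nontrivial _ hZ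
      · apply hS
        constructor
        constructor
        intro a b
        have : (a : S) ∈ Subgroup.center S := h ▸ Subgroup.mem_top _
        exact (Subgroup.mem_center_iff.1 this b).symm
  -- the order of a Sylow subgroup
  by_contra hne
  obtain ⟨m, hm⟩ := IsPGroup.iff_card.1 hPpg
  have hc : ∀ T : Sylow p S, Nat.card (T : Subgroup S) = p ^ m := fun T => by
    rw [card_sylow_eq T P, hm]
  have hm0 : m ≠ 0 := by
    rintro rfl
    have h1 : Nat.card (P : Subgroup S) = 1 := by simpa using hm
    have h2 : ((Nat.card S).factorization p) ≠ 0 := by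
      have hcs : Nat.card S ≠ 0 := Nat.card_pos.ne'
      intro h0
      have := Nat.Prime.dvd_iff_one_le_factorization hpp hcs |>.1 hp
      omega
    rw [Sylow.card_eq_multiplicity] at h1
    have hpow : p ^ (Nat.card S).factorization p = 1 := h1
    have := Nat.one_lt_pow h2 hpp.one_lt
    omega
  have hm1 : m ≠ 1 := by
    rintro rfl
    apply hne
    simpa using hm
  have hPbot : (P : Subgroup S) ≠ ⊥ := by
    intro h
    have : Nat.card (P : Subgroup S) = 1 := by rw [h]; simp
    rw [hm] at this
    have h2 := Nat.one_lt_pow hm0 hpp.one_lt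
    omega
  -- at least two Sylow subgroups
  have hnt : Nontrivial (Sylow p S) := by
    by_contra hnt
    rw [not_nontrivial_iff_subsingleton] at hnt
    exact hPbot (hntriv _ (Sylow.normal_of_subsingleton P) hPpg)
  obtain ⟨Q0, R0, hQR0⟩ := exists_pair_ne (Sylow p S)
  set D0 : Subgroup S := (Q0 : Subgroup S) ⊓ (R0 : Subgroup S) with hD0
  have hcD0 : Nat.card D0 * p = p ^ m := by
    rw [card_inf_mul_p hn hQR0, hc]
  have hD0p : IsPGroup p D0 := Q0.isPGroup'.to_le inf_le_left
  have hD0bot : D0 ≠ ⊥ := by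
    intro h
    rw [h] at hcD0
    simp at hcD0
    have : p ^ 2 ≤ p ^ m := Nat.pow_le_pow_right hpp.pos (by omega)
    rw [← hcD0] at this
    have h3 := hpp.two_le
    nlinarith
  -- a Sylow subgroup off the line
  have hX : ∃ X : Sylow p S, ¬ D0 ≤ (X : Subgroup S) := by
    by_contra hall
    push Not at hall
    have h1 : D0 ≤ (P : Subgroup S).normalCore := by
      intro a ha
      intro b
      have h2 := hall (b⁻¹ • P) ha
      have h3 : a ∈ MulAut.conj b⁻¹ • (P : Subgroup S) := by
        rw [← Sylow.coe_subgroup_smul]; exact h2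
      rw [Subgroup.mem_pointwise_smul_iff_inv_smul_mem] at h3
      simpa [MulAut.smul_def] using h3
    have h2 : (P : Subgroup S).normalCore = ⊥ :=
      hntriv _ (Subgroup.normalCore_normal _) (hPpg.to_le (Subgroup.normalCore_le _))
    rw [h2] at h1
    exact hD0bot (le_bot_iff.1 h1)
  obtain ⟨X, hX⟩ := hX
  -- uniqueness of lines
  have hB : ∀ (A B : Sylow p S), A ≠ B → ∀ E : Subgroup S, E ≤ A → E ≤ B → Nat.card E * p = p ^ m →
      (A : Subgroup S) ⊓ (B : Subgroup S) = E := by
    intro A B hAB E hEA hEB hcE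
    symm
    apply Subgroup.eq_of_le_of_card_ge (le_inf hEA hEB)
    have h1 := card_inf_mul_p hn hAB
    rw [hc] at h1
    have h2 : Nat.card ((A : Subgroup S) ⊓ (B : Subgroup S) : Subgroup S) * p = Nat.card E * p := by
      rw [h1, hcE]
    exact (Nat.eq_of_mul_eq_mul_right hpp.pos h2).le
  set L0 : Finset (Sylow p S) := Finset.univ.filter (fun T : Sylow p S => D0 ≤ (T : Subgroup S))
    with hL0
  let t : Sylow p S → Finset (Sylow p S) := fun R =>
    (Finset.univ.filter (fun T : Sylow p S => (X : Subgroup S) ⊓ (R : Subgroup S) ≤ (T : Subgroup S))).erase X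
  have hXR : ∀ R ∈ L0, X ≠ R := by
    intro R hR h
    rw [hL0, Finset.mem_filter] at hR
    exact hX (h ▸ hR.2)
  have hcL0 : p + 1 ≤ L0.card :=
    card_line_ge D0 hD0p (inf_le_left) (inf_le_right) hQR0
  have hct : ∀ R ∈ L0, p ≤ (t R).card := by
    intro R hR
    have hXRne := hXR R hR
    have h1 : p + 1 ≤ (Finset.univ.filter (fun T : Sylow p S =>
        (X : Subgroup S) ⊓ (R : Subgroup S) ≤ (T : Subgroup S))).card :=
      card_line_ge _ (X.isPGroup'.to_le inf_le_left) inf_le_left inf_le_right hXRne
    have h2 : X ∈ (Finset.univ.filter (fun T : Sylow p S =>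
        (X : Subgroup S) ⊓ (R : Subgroup S) ≤ (T : Subgroup S))) := by
      simp
    simp only [t]
    rw [Finset.card_erase_of_mem h2]
    omega
  have hdisj : ∀ R ∈ L0, ∀ R' ∈ L0, R ≠ R' → Disjoint (t R) (t R') := by
    intro R hR R' hR' hRR'
    rw [Finset.disjoint_left]
    intro T hT hT'
    simp only [t, Finset.mem_erase, Finset.mem_filter, Finset.mem_univ, true_and] at hT hT'
    have hXRne := hXR R hR
    have hXRne' := hXR R' hR'
    have h1 : (X : Subgroup S) ⊓ (T : Subgroup S) = (X : Subgroup S) ⊓ (R : Subgroup S) :=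
      hB X T hT.1.symm _ inf_le_left hT.2 (by rw [card_inf_mul_p hn hXRne, hc])
    have h2 : (X : Subgroup S) ⊓ (T : Subgroup S) = (X : Subgroup S) ⊓ (R' : Subgroup S) :=
      hB X T hT'.1.symm _ inf_le_left hT'.2 (by rw [card_inf_mul_p hn hXRne', hc])
    have h3 : (X : Subgroup S) ⊓ (R : Subgroup S) = (X : Subgroup S) ⊓ (R' : Subgroup S) :=
      h1.symm.trans h2
    have hDR := (Finset.mem_filter.1 hR).2
    have hDR' := (Finset.mem_filter.1 hR').2
    have h4 : (R : Subgroup S) ⊓ (R' : Subgroup S) = D0 := hB R R' hRR' D0 hDR hDR' hcD0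
    have h5 : (R : Subgroup S) ⊓ (R' : Subgroup S) = (X : Subgroup S) ⊓ (R : Subgroup S) :=
      hB R R' hRR' _ inf_le_right (h3 ▸ inf_le_right) (by rw [card_inf_mul_p hn hXRne, hc])
    apply hX
    rw [← h4, h5]
    exact inf_le_left
  have hsub : L0.biUnion t ⊆ Finset.univ.erase X := by
    intro T hT
    rw [Finset.mem_biUnion] at hT
    obtain ⟨R, -, hT⟩ := hT
    simp only [t, Finset.mem_erase] at hT
    simp [hT.1]
  have hcard := Finset.card_le_card hsub
  rw [Finset.card_biUnion hdisj, Finset.card_erase_of_mem (Finset.mem_univ X)] at hcard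
  have hsum : L0.card * p ≤ ∑ R ∈ L0, (t R).card := by
    rw [← smul_eq_mul]
    exact Finset.card_nsmul_le_sum _ _ _ hct
  have hcn : Nat.card (Sylow p S) = Fintype.card (Sylow p S) := Nat.card_eq_fintype_card
  have h6 : (p + 1) * p ≤ L0.card * p := Nat.mul_le_mul_right p hcL0
  rw [Finset.card_univ, ← hcn] at hcard
  have h7 : 1 ≤ Nat.card (Sylow p S) := Nat.card_pos
  have h8 : (p + 1) * p ≤ Nat.card (Sylow p S) - 1 := h6.trans (hsum.trans hcard)
  have h9 : (p + 1) * p + 1 ≤ Nat.card (Sylow p S) := by omega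
  nlinarith

/-- Let S be a finite non-abelian simple group and p a prime dividing its order. If S has fewer than p² Sylow p-subgroups, then its Sylow p-subgroups have order p. -/
theorem result {S : Type*} [Group S] [Finite S]
    [IsSimpleGroup S] (hS : ¬ IsMulCommutative S) (p : ℕ) [Fact p.Prime] (hp : p ∣ Nat.card S)
    (hn : Nat.card (Sylow p S) < p ^ 2) (P : Sylow p S) : Nat.card P = p :=
  result_aux hS hp hn P

end Cfsg.Agent.S4343
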