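import Cfsg.Statements.S4344
import Mathlib
-- import your own Cfsg.Agent.* helpers here

set_option autoImplicit false
open Cfsg

namespace Cfsg.Agent.S4344

/-- Let S be a finite non-abelian simple group, M a maximal subgroup of S and C a cyclic normal subgroup of M. If a Sylow p-subgroup P of S (for a prime p dividing the order of S) is contained in C, then the number of Sylow p-subgroups of S equals the index of M. -/
theorem result {S : Type*} [Group S] [Finite S]
    [IsSimpleGroup S] (hS : ¬ IsMulCommutative S) (p : ℕ) [Fact p.Prime] (hp : p ∣ Nat.card S)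
    (M : Subgroup S) (hM : IsCoatom M) (C : Subgroup S) (hCM : C ≤ M) (hCn : (C.subgroupOf M).Normal)
    (hC : IsCyclic C) (P : Sylow p S) (hP : (P : Subgroup S) ≤ C) :
    Nat.card (Sylow p S) = M.index := by
  classical
  -- P is normal in M
  have hPcomm : ∀ m ∈ M, (P : Subgroup S).map (MulAut.conj m).toMonoidHom = P := by
    intro m hm
    have hmC : ∀ c ∈ C, m * c * m⁻¹ ∈ C := by
      intro c hc
      have hn := hCn.conj_mem ⟨c, hCM hc⟩ (by rw [Subgroup.mem_subgroupOf]; exact hc) ⟨m, hm⟩
      rwa [Subgroup.mem_subgroupOf] at hn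
    set Q : Sylow p S := m • P with hQ
    have hQcoe : (Q : Subgroup S) = (P : Subgroup S).map (MulAut.conj m).toMonoidHom := by
      rw [hQ, Sylow.coe_subgroup_smul]
      rfl
    have hQC : (Q : Subgroup S) ≤ C := by
      rw [hQcoe]
      rintro _ ⟨x, hx, rfl⟩
      exact hmC x (hP hx)
    have hcomm : ∀ a b : ↥C, a * b = b * a := by
      intro a b
      have hmc : IsMulCommutative ↥C := IsCyclic.isMulCommutative
      exact hmc.is_comm.comm a b
    -- Sylow subgroups of an abelian group are unique
    have huniq : (P.subtype hP) = (Q.subtype hQC) := by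
      obtain ⟨c, hc⟩ := MulAction.exists_smul_eq (↥C) (P.subtype hP) (Q.subtype hQC)
      rw [← hc]
      apply Sylow.ext
      rw [Sylow.coe_subgroup_smul]
      ext y
      rw [Subgroup.mem_pointwise_smul_iff_inv_smul_mem]
      have e : (MulAut.conj c)⁻¹ • y = y := by
        have e0 : (MulAut.conj c)⁻¹ = MulAut.conj c⁻¹ := (map_inv _ _).symm
        rw [MulAut.smul_def, e0, MulAut.conj_apply, hcomm c⁻¹ y]
        group
      rw [e]
    have hPQ : P = Q := Sylow.subtype_injective huniq
    rw [← hQcoe, ← hPQ]
  -- N(P) = M
  have hMN : M ≤ Subgroup.normalizer (P : Set S) := by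
    intro m hm
    exact Subgroup.mem_normalizer_iff_map_conj_eq.2 (hPcomm m hm)
  have hNtop : Subgroup.normalizer (P : Set S) ≠ ⊤ := by
    intro htop
    have hnorm : (P : Subgroup S).Normal := Subgroup.normalizer_eq_top_iff.1 htop
    rcases hnorm.eq_bot_or_eq_top with hb | ht
    · have hcard : Nat.card (P : Subgroup S) = 1 := by rw [hb]; simp
      have hidx := P.not_dvd_index
      have h3 := Subgroup.card_mul_index (P : Subgroup S)
      rw [hcard, one_mul] at h3
      rw [h3] at hidx
      exact hidx hp
    · -- S is cyclic, contradiction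
      have hCtop : C = ⊤ := top_le_iff.1 (ht ▸ hP)
      apply hS
      have : IsCyclic (⊤ : Subgroup S) := hCtop ▸ hC
      have hS2 : IsCyclic S := isCyclic_of_surjective (Subgroup.topEquiv (G := S)).toMonoidHom
        (MulEquiv.surjective _)
      exact IsCyclic.isMulCommutative
  have hNM : Subgroup.normalizer (P : Set S) = M := by
    by_contra hne
    exact hNtop (hM.2 _ (lt_of_le_of_ne hMN (Ne.symm hne)))
  rw [Sylow.card_eq_index_normalizer P, hNM]

end Cfsg.Agent.S4344
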