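import Cfsg.Statements.S4346
import Cfsg.Agent.Lib.Perm.SylowNumber
import Cfsg.Agent.Lib.Basic.SylowCount

set_option autoImplicit false
set_option linter.unusedSectionVars false
open Cfsg

namespace Cfsg.Agent.S4346

open MulAction Cfsg.Agent.Lib.Perm.SylowNumber

universe u

instance fact_three : Fact (Nat.Prime 3) := ⟨by norm_num⟩
instance fact_five : Fact (Nat.Prime 5) := ⟨by norm_num⟩
instance fact_seven : Fact (Nat.Prime 7) := ⟨by norm_num⟩
instance fact_eleven : Fact (Nat.Prime 11) := ⟨by norm_num⟩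

section phase1
variable {G : Type u} [Group G] [Finite G]

theorem card_sylow_eq (A B : Sylow 3 G) :
    Nat.card (A : Subgroup G) = Nat.card (B : Subgroup G) :=
  Nat.card_congr (Sylow.equiv A B).toEquiv

theorem mem_smul_iff {p : ℕ} [Fact p.Prime] (u x : G) (R : Sylow p G) :
    x ∈ ((u • R : Sylow p G) : Subgroup G) ↔ u⁻¹ * x * u ∈ (R : Subgroup G) := by
  rw [Sylow.coe_subgroup_smul, Subgroup.mem_pointwise_smul_iff_inv_smul_mem]
  simp [MulAut.smul_def]

theorem inf_eq (A B : Sylow 3 G) (hAB : A ≠ B) (D : Subgroup G) (hDA : D ≤ A) (hDB : D ≤ B)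
    (h3 : 3 * Nat.card D = Nat.card (A : Subgroup G)) :
    (A : Subgroup G) ⊓ B = D := by
  have hle : D ≤ (A : Subgroup G) ⊓ B := le_inf hDA hDB
  obtain ⟨m, hm⟩ := Subgroup.card_dvd_of_le hle
  obtain ⟨l, hl⟩ := Subgroup.card_dvd_of_le (inf_le_left : (A : Subgroup G) ⊓ B ≤ A)
  have hD0 : 0 < Nat.card D := Nat.card_pos
  have hml : m * l = 3 := by
    have h1 : Nat.card D * 3 = Nat.card D * (m * l) := by
      calc Nat.card D * 3 = Nat.card (A : Subgroup G) := by rw [← h3]; ring
        _ = Nat.card D * (m * l) := by rw [hl, hm]; ring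
    exact (Nat.eq_of_mul_eq_mul_left hD0 h1).symm
  have hl1 : l ≠ 1 := by
    rintro rfl
    have h2 : (A : Subgroup G) ⊓ B = A :=
      Subgroup.eq_of_le_of_card_ge inf_le_left (by rw [hl, mul_one])
    apply hAB
    have hle' : (A : Subgroup G) ≤ B := inf_eq_left.mp h2
    exact (Sylow.ext (A.is_maximal' B.isPGroup' hle')).symm
  have hm1 : m = 1 := by
    have hd : l ∣ 3 := ⟨m, by rw [← hml]; ring⟩
    have h3' : l = 3 := ((Nat.dvd_prime (by norm_num)).mp hd).resolve_left hl1
    rw [h3'] at hml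
    omega
  exact (Subgroup.eq_of_le_of_card_ge hle (by rw [hm, hm1, mul_one])).symm

theorem normalizes (A : Sylow 3 G) (D : Subgroup G) (hDA : D ≤ A)
    (h3 : 3 * Nat.card D = Nat.card (A : Subgroup G)) (u : G) (hu : u ∈ (A : Subgroup G))
    (d : G) (hd : d ∈ D) : u * d * u⁻¹ ∈ D := by
  let H : Subgroup (A : Subgroup G) := D.subgroupOf A
  have hHc : Nat.card H = Nat.card D :=
    Nat.card_congr (Subgroup.subgroupOfEquivOfLe hDA).toEquiv
  have hidx : H.index = 3 := by
    have h1 := Subgroup.card_mul_index H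
    rw [hHc, ← h3] at h1
    have hD0 : 0 < Nat.card D := Nat.card_pos
    have h2 : Nat.card D * H.index = Nat.card D * 3 := by rw [h1]; ring
    exact Nat.eq_of_mul_eq_mul_left hD0 h2
  have hmin : H.index = (Nat.card (A : Subgroup G)).minFac := by
    rw [hidx]
    obtain ⟨k, hk⟩ := IsPGroup.exists_card_eq A.isPGroup'
    have hk0 : k ≠ 0 := by
      rintro rfl
      have hD0 : 0 < Nat.card D := Nat.card_pos
      rw [hk] at h3
      omega
    rw [hk, Nat.Prime.pow_minFac (by norm_num) hk0]
  haveI hn : H.Normal := Subgroup.normal_of_index_eq_minFac_card hmin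
  have h4 := hn.conj_mem ⟨d, hDA hd⟩ (by rw [Subgroup.mem_subgroupOf]; exact hd) ⟨u, hu⟩
  rwa [Subgroup.mem_subgroupOf] at h4

theorem le_smul (A R : Sylow 3 G) (D : Subgroup G) (hDA : D ≤ A)
    (h3 : 3 * Nat.card D = Nat.card (A : Subgroup G)) (hDR : D ≤ R) (u : G)
    (hu : u ∈ (A : Subgroup G)) : D ≤ ((u • R : Sylow 3 G) : Subgroup G) := by
  intro x hx
  rw [mem_smul_iff]
  apply hDR
  have := normalizes A D hDA h3 u⁻¹ (inv_mem hu) x hx
  simpa using this

/-- Adjacency: the intersection has index three. -/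
def Adj (A B : Sylow 3 G) : Prop :=
  A ≠ B ∧ 3 * Nat.card ((A : Subgroup G) ⊓ B : Subgroup G) = Nat.card (A : Subgroup G)

theorem Adj.symm {A B : Sylow 3 G} (h : Adj A B) : Adj B A := by
  refine ⟨h.1.symm, ?_⟩
  rw [inf_comm, h.2, card_sylow_eq A B]

theorem adj_of_le {u w : Sylow 3 G} (huw : u ≠ w) (D : Subgroup G) (hDu : D ≤ u) (hDw : D ≤ w)
    (h3 : 3 * Nat.card D = Nat.card (u : Subgroup G)) : Adj u w :=
  ⟨huw, by rw [inf_eq u w huw D hDu hDw h3, h3]⟩

theorem key (u u' v : Sylow 3 G) (huu' : u ≠ u') (D : Subgroup G) (hDu : D ≤ u) (hDu' : D ≤ u')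
    (hD3 : 3 * Nat.card D = Nat.card (u : Subgroup G)) (hv : ¬ D ≤ v) (h1 : Adj v u)
    (h2 : Adj v u') : False := by
  obtain ⟨d, hd, hdv⟩ := SetLike.not_le_iff_exists.mp hv
  set v' : Sylow 3 G := d • v with hv'
  have hne : v ≠ v' := by
    intro h
    apply hdv
    obtain ⟨k, hk⟩ := exists_orderOf_of_mem u (hDu hd)
    exact (smul_eq_iff_mem d k hk v).mp h.symm
  have hvu : Nat.card (v : Subgroup G) = Nat.card (u : Subgroup G) := card_sylow_eq v u
  have hvu' : Nat.card (v : Subgroup G) = Nat.card (u' : Subgroup G) := card_sylow_eq v u'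
  set D1 : Subgroup G := (v : Subgroup G) ⊓ u with hD1
  set D2 : Subgroup G := (v : Subgroup G) ⊓ u' with hD2
  have h13 : 3 * Nat.card D1 = Nat.card (u : Subgroup G) := by rw [← hvu]; exact h1.2
  have h23 : 3 * Nat.card D2 = Nat.card (u' : Subgroup G) := by rw [← hvu']; exact h2.2
  have hD1v' : D1 ≤ v' := le_smul u v D1 inf_le_right h13 inf_le_left d (hDu hd)
  have hD2v' : D2 ≤ v' := le_smul u' v D2 inf_le_right h23 inf_le_left d (hDu' hd)
  have h3 : (v : Subgroup G) ⊓ v' = D1 := inf_eq v v' hne D1 inf_le_left hD1v' h1.2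
  have h4 : (v : Subgroup G) ⊓ v' = D2 := inf_eq v v' hne D2 inf_le_left hD2v' h2.2
  have h5 : D1 = D2 := h3.symm.trans h4
  have h6 : (u : Subgroup G) ⊓ u' = D := inf_eq u u' huu' D hDu hDu' hD3
  have h7 : (u : Subgroup G) ⊓ u' = D1 := by
    apply inf_eq u u' huu' D1 inf_le_right
    · rw [h5]; exact inf_le_right
    · exact h13
  apply hv
  rw [← h6, h7]
  exact inf_le_left

theorem card_inf_smul (g : G) (A B : Sylow 3 G) :
    Nat.card (((g • A : Sylow 3 G) : Subgroup G) ⊓ ((g • B : Sylow 3 G) : Subgroup G) : Subgroup G) =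
      Nat.card ((A : Subgroup G) ⊓ B : Subgroup G) := by
  symm
  refine Nat.card_congr ((MulAut.conj g).toEquiv.subtypeEquiv ?_)
  intro x
  simp only [Subgroup.mem_inf, mem_smul_iff]
  simp [MulAut.conj_apply, mul_assoc]

theorem adj_smul (g : G) (A B : Sylow 3 G) : Adj (g • A) (g • B) ↔ Adj A B := by
  unfold Adj
  rw [card_inf_smul, card_sylow_eq (g • A) A]
  constructor
  · rintro ⟨h1, h2⟩
    exact ⟨fun h => h1 (by rw [h]), h2⟩
  · rintro ⟨h1, h2⟩
    exact ⟨fun h => h1 (smul_left_cancel g h), h2⟩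

/-- The neighbours of a point. -/
def Nb (A : Sylow 3 G) : Set (Sylow 3 G) := {y | Adj A y}

theorem ncard_Nb_smul (g : G) (A : Sylow 3 G) : (Nb (g • A)).ncard = (Nb A).ncard := by
  have : Nb (g • A) = (fun y => g • y) '' Nb A := by
    ext y
    constructor
    · intro hy
      refine ⟨g⁻¹ • y, ?_, by simp⟩
      have hy' : Adj (g • A) y := hy
      rw [← smul_inv_smul g y, adj_smul] at hy'
      exact hy'
    · rintro ⟨z, hz, rfl⟩
      exact (adj_smul g A z).mpr hz
  rw [this, Set.ncard_image_of_injective _ (MulAction.injective g)]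

theorem ncard_Nb_eq (A B : Sylow 3 G) : (Nb A).ncard = (Nb B).ncard := by
  obtain ⟨g, rfl⟩ := MulAction.exists_smul_eq G A B
  exact (ncard_Nb_smul g A).symm

/-- Orbit-stabilizer for a Sylow subgroup acting on Sylow subgroups. -/
theorem orbit_card (A y : Sylow 3 G) :
    (orbit (A : Subgroup G) y).ncard * Nat.card ((A : Subgroup G) ⊓ y : Subgroup G) =
      Nat.card (A : Subgroup G) := by
  have h := Nat.card_congr (orbitProdStabilizerEquivGroup (A : Subgroup G) y)
  rw [Nat.card_prod, Nat.card_coe_set_eq] at h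
  rw [← h]
  congr 1
  symm
  refine Nat.card_congr (Equiv.ofBijective (fun x => ⟨((x : (A : Subgroup G)) : G), (x : (A : Subgroup G)).2, ?_⟩) ⟨?_, ?_⟩)
  · obtain ⟨k, hk⟩ := exists_orderOf_of_mem A (x : (A : Subgroup G)).2
    exact (smul_eq_iff_mem _ k hk y).mp x.2
  · rintro ⟨⟨x, hx⟩, hx2⟩ ⟨⟨z, hz⟩, hz2⟩ h
    have : x = z := congrArg (fun w : ((A : Subgroup G) ⊓ y : Subgroup G) => (w : G)) h
    subst this
    rfl
  · rintro ⟨x, hx1, hx2⟩
    exact ⟨⟨⟨x, hx1⟩, smul_self_of_mem y hx2⟩, rfl⟩

/-- If every orbit in an invariant set has size divisible by `m`, so does the set. -/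
theorem dvd_ncard_of_orbits {α : Type*} [Finite α] [MulAction G α] (A : Subgroup G) (S : Set α)
    (m : ℕ) (hinv : ∀ u ∈ A, ∀ y ∈ S, u • y ∈ S) (hm : ∀ y ∈ S, m ∣ (orbit A y).ncard) :
    m ∣ S.ncard := by
  let T : SubMulAction A α :=
    { carrier := S
      smul_mem' := by
        intro u y hy
        exact hinv u u.2 y hy }
  have hT : Nat.card T = S.ncard := Nat.card_coe_set_eq S
  rw [← hT]
  classical
  haveI : Fintype (orbitRel.Quotient A T) := Fintype.ofFinite _
  rw [Nat.card_congr (selfEquivSigmaOrbits A T), Nat.card_sigma]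
  apply Finset.dvd_sum
  intro ω _
  have h1 : (orbit A ((Quotient.out ω : T) : α)) = Subtype.val '' (orbit A (Quotient.out ω : T)) :=
    (SubMulAction.val_image_orbit _).symm
  have h2 := hm _ (Quotient.out ω : T).2
  rw [show ((Quotient.out ω : T) : α) = ((Quotient.out ω : T) : α) from rfl] at h2
  have h3 : (orbit A ((Quotient.out ω : T) : α)).ncard = Nat.card (orbit A (Quotient.out ω : T)) := by
    rw [h1, Set.ncard_image_of_injective _ Subtype.val_injective, Nat.card_coe_set_eq]
  rw [h3] at h2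
  exact h2

theorem nine_dvd (A : Sylow 3 G) : 9 ∣ {y : Sylow 3 G | y ≠ A ∧ ¬ Adj A y}.ncard := by
  apply dvd_ncard_of_orbits (A : Subgroup G)
  · rintro u hu y ⟨hy1, hy2⟩
    refine ⟨?_, ?_⟩
    · intro h
      apply hy1
      have h5 : u⁻¹ • A = A := smul_self_of_mem A (inv_mem hu)
      rw [← h5, ← h, inv_smul_smul]
    · intro h
      apply hy2
      rw [← smul_self_of_mem A hu] at h
      exact (adj_smul u A y).mp h
  · rintro y ⟨hy1, hy2⟩
    obtain ⟨k, hk⟩ := A.isPGroup'.card_orbit y
    rw [Nat.card_coe_set_eq] at hk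
    have hoc := orbit_card A y
    have hk0 : k ≠ 0 := by
      rintro rfl
      apply hy1
      rw [pow_zero] at hk
      obtain ⟨a, ha⟩ := Set.ncard_eq_one.mp hk
      apply eq_of_fixed A y
      intro u hu
      have h1 : y ∈ orbit (A : Subgroup G) y := mem_orbit_self y
      have h2 : (⟨u, hu⟩ : (A : Subgroup G)) • y ∈ orbit (A : Subgroup G) y := mem_orbit _ _
      rw [ha, Set.mem_singleton_iff] at h1 h2
      exact h2.trans h1.symm
    have hk1 : k ≠ 1 := by
      rintro rfl
      apply hy2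
      refine ⟨hy1.symm, ?_⟩
      rw [hk, pow_one] at hoc
      exact hoc
    rw [hk]
    exact pow_dvd_pow 3 (show 2 ≤ k by omega)

theorem Nb_mod (hX : Nat.card (Sylow 3 G) = 22) (A : Sylow 3 G) : (Nb A).ncard % 9 = 3 := by
  have hsplit : ({A}ᶜ : Set (Sylow 3 G)) = Nb A ∪ {y : Sylow 3 G | y ≠ A ∧ ¬ Adj A y} := by
    ext y
    simp only [Set.mem_compl_iff, Set.mem_singleton_iff, Set.mem_union, Set.mem_ofPred_eq, Nb]
    constructor
    · intro h
      by_cases h2 : Adj A y
      · exact Or.inl h2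
      · exact Or.inr ⟨h, h2⟩
    · rintro (h | h)
      · exact h.1.symm
      · exact h.1
  have hdisj : Disjoint (Nb A) {y : Sylow 3 G | y ≠ A ∧ ¬ Adj A y} := by
    rw [Set.disjoint_left]
    rintro y hy ⟨-, h⟩
    exact h hy
  have h1 := Set.ncard_union_eq hdisj (Set.toFinite _) (Set.toFinite _)
  rw [← hsplit] at h1
  have h2 := Set.ncard_add_ncard_compl ({A} : Set (Sylow 3 G))
  rw [Set.ncard_singleton, hX] at h2
  obtain ⟨k, hk⟩ := nine_dvd A
  rw [hk] at h1
  omega

theorem Nb_le (hX : Nat.card (Sylow 3 G) = 22) (A : Sylow 3 G) : (Nb A).ncard ≤ 21 := by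
  have hsub : Nb A ⊆ ({A}ᶜ : Set (Sylow 3 G)) := by
    intro y hy h
    rw [Set.mem_singleton_iff] at h
    exact hy.1 h.symm
  have h1 := Set.ncard_le_ncard hsub (Set.toFinite _)
  have h2 := Set.ncard_add_ncard_compl ({A} : Set (Sylow 3 G))
  rw [Set.ncard_singleton, hX] at h2
  omega

theorem case21 (hX : Nat.card (Sylow 3 G) = 22)
    (hfaith : Function.Injective (toPermHom G (Sylow 3 G))) (A B : Sylow 3 G) (hAB : Adj A B)
    (h21 : ∀ C : Sylow 3 G, (Nb C).ncard = 21) : Nat.card (A : Subgroup G) = 3 := by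
  have hadj : ∀ v w : Sylow 3 G, v ≠ w → Adj v w := by
    intro v w hvw
    have hsub : Nb v ⊆ ({v}ᶜ : Set (Sylow 3 G)) := by
      intro y hy h
      rw [Set.mem_singleton_iff] at h
      exact hy.1 h.symm
    have h2 := Set.ncard_add_ncard_compl ({v} : Set (Sylow 3 G))
    rw [Set.ncard_singleton, hX] at h2
    have heq := Set.eq_of_subset_of_ncard_le hsub (by rw [h21 v]; omega) (Set.toFinite _)
    have : w ∈ Nb v := by rw [heq]; exact fun h => hvw (Set.mem_singleton_iff.mp h).symm
    exact this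
  set D : Subgroup G := (A : Subgroup G) ⊓ B with hD
  have hall : ∀ v : Sylow 3 G, D ≤ v := by
    intro v
    by_contra hv
    have hvA : v ≠ A := fun h => hv (h ▸ inf_le_left)
    have hvB : v ≠ B := fun h => hv (h ▸ inf_le_right)
    exact key A B v hAB.1 D inf_le_left inf_le_right hAB.2 hv (hadj v A hvA) (hadj v B hvB)
  have hbot : D = ⊥ := by
    rw [eq_bot_iff]
    intro x hx
    rw [Subgroup.mem_bot]
    apply hfaith
    rw [map_one]
    refine Equiv.ext fun v => ?_
    exact smul_self_of_mem v (hall v hx)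
  have h3 := hAB.2
  rw [← hD, hbot, Subgroup.card_bot] at h3
  omega

theorem case12 (hX : Nat.card (Sylow 3 G) = 22) (A B : Sylow 3 G) (hAB : Adj A B)
    (h12 : ∀ C : Sylow 3 G, (Nb C).ncard = 12) : False := by
  classical
  haveI : Fintype (Sylow 3 G) := Fintype.ofFinite _
  set D : Subgroup G := (A : Subgroup G) ⊓ B with hD
  let L : Set (Sylow 3 G) := {R | D ≤ R}
  have hD3 : ∀ u : Sylow 3 G, 3 * Nat.card D = Nat.card (u : Subgroup G) := fun u => by
    rw [card_sylow_eq u A]; exact hAB.2
  have hAL : A ∈ L := (inf_le_left : D ≤ A)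
  have hBL : B ∈ L := (inf_le_right : D ≤ B)
  have hLsub : ∀ u ∈ L, L \ {u} ⊆ Nb u := by
    rintro u hu w ⟨hw, hwu⟩
    exact adj_of_le (fun h => hwu (Set.mem_singleton_iff.mpr h.symm)) D hu hw (hD3 u)
  have hf2 : 2 ≤ L.ncard := by
    have hsub : ({A, B} : Set (Sylow 3 G)) ⊆ L := by
      rintro y (rfl | hy)
      · exact hAL
      · rw [Set.mem_singleton_iff] at hy
        rw [hy]; exact hBL
    have h1 := Set.ncard_le_ncard hsub (Set.toFinite _)
    rwa [Set.ncard_pair hAB.1] at h1
  have hc1 : ∀ u ∈ L, (L \ {u}).ncard + 1 = L.ncard := fun u hu =>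
    Set.ncard_sdiff_singleton_add_one hu (Set.toFinite _)
  have hf13 : L.ncard ≤ 13 := by
    have h1 := Set.ncard_le_ncard (hLsub A hAL) (Set.toFinite _)
    rw [h12 A] at h1
    have := hc1 A hAL
    omega
  have hcompl := Set.ncard_add_ncard_compl L
  rw [hX] at hcompl
  -- a point off the line sees at most one point on the line
  have hsee : ∀ v, v ∉ L → ∀ u ∈ L, ∀ u' ∈ L, Adj v u → Adj v u' → u = u' := by
    intro v hv u hu u' hu' h1 h2
    by_contra hne
    exact key u u' v hne D hu hu' (hD3 u) hv h1 h2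
  -- disjoint outer neighbourhoods
  let E : Sylow 3 G → Finset (Sylow 3 G) := fun u => ((Nb u) \ L).toFinset
  have hEc : ∀ u ∈ L, (E u).card = 13 - L.ncard := by
    intro u hu
    have hcard : ((Nb u) \ L).ncard = 13 - L.ncard := by
      have hsplit : Nb u = (L \ {u}) ∪ ((Nb u) \ L) := by
        ext y
        constructor
        · intro hy
          by_cases hyL : y ∈ L
          · exact Or.inl ⟨hyL, fun h => hy.1 (Set.mem_singleton_iff.mp h).symm⟩
          · exact Or.inr ⟨hy, hyL⟩
        · rintro (hy | hy)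
          · exact hLsub u hu hy
          · exact hy.1
      have hdisj : Disjoint (L \ {u}) ((Nb u) \ L) := by
        rw [Set.disjoint_left]
        rintro y ⟨hy, -⟩ ⟨-, hy2⟩
        exact hy2 hy
      have h1 := Set.ncard_union_eq hdisj (Set.toFinite _) (Set.toFinite _)
      rw [← hsplit, h12 u] at h1
      have := hc1 u hu
      omega
    simp only [E]
    rw [← Set.ncard_eq_toFinset_card', hcard]
  have hdisjE : ((L.toFinset : Finset (Sylow 3 G)) : Set (Sylow 3 G)).PairwiseDisjoint E := by
    intro u hu u' hu' hne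
    change Disjoint (E u) (E u')
    rw [Finset.disjoint_iff_ne]
    intro a ha b hb hab
    subst hab
    have hu1 : u ∈ L := by simpa using hu
    have hu1' : u' ∈ L := by simpa using hu'
    have ha1 : a ∈ (Nb u) \ L := by simpa [E] using ha
    have ha2 : a ∈ (Nb u') \ L := by simpa [E] using hb
    exact hne (hsee a ha1.2 u hu1 u' hu1' ha1.1.symm ha2.1.symm)
  have hcardU : (L.toFinset.biUnion E).card = L.ncard * (13 - L.ncard) := by
    rw [Finset.card_biUnion hdisjE]
    rw [Finset.sum_congr rfl (fun u hu => hEc u (by simpa using hu)), Finset.sum_const, smul_eq_mul,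
      ← Set.ncard_eq_toFinset_card']
  have hsubU : L.toFinset.biUnion E ⊆ (Lᶜ).toFinset := by
    intro a ha
    obtain ⟨u, -, hu⟩ := Finset.mem_biUnion.mp ha
    have ha1 : a ∈ (Nb u) \ L := by simpa [E] using hu
    simpa using ha1.2
  have hle1 := Finset.card_le_card hsubU
  rw [hcardU, ← Set.ncard_eq_toFinset_card'] at hle1
  -- a point off the line
  obtain ⟨v, hv⟩ : ∃ v, v ∉ L := by
    by_contra hcon
    simp only [not_exists, not_not] at hcon
    have : L = Set.univ := Set.eq_univ_of_forall hcon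
    rw [this, Set.ncard_univ, hX] at hf13
    omega
  have hf10 : L.ncard ≤ 10 := by
    have hsub : Nb v ⊆ ((Lᶜ) \ {v}) ∪ (Nb v ∩ L) := by
      intro y hy
      by_cases hyL : y ∈ L
      · exact Or.inr ⟨hy, hyL⟩
      · exact Or.inl ⟨hyL, fun h => hy.1 (Set.mem_singleton_iff.mp h).symm⟩
    have h1 := Set.ncard_le_ncard hsub (Set.toFinite _)
    have h2 := Set.ncard_union_le ((Lᶜ) \ {v}) (Nb v ∩ L)
    have h3 : ((Lᶜ) \ {v}).ncard + 1 = (Lᶜ).ncard :=
      Set.ncard_sdiff_singleton_add_one hv (Set.toFinite _)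
    have h4 : (Nb v ∩ L).ncard ≤ 1 := by
      rw [Set.ncard_le_one (Set.toFinite _)]
      rintro a ⟨ha1, ha2⟩ b ⟨hb1, hb2⟩
      exact hsee v hv a ha2 b hb2 ha1 hb1
    rw [h12 v] at h1
    omega
  generalize L.ncard = f at *
  generalize (Lᶜ).ncard = f' at *
  interval_cases f <;> omega

open scoped Pointwise in
theorem case3 (hX : Nat.card (Sylow 3 G) = 22) (A B : Sylow 3 G) (hAB : Adj A B)
    (h3 : ∀ C : Sylow 3 G, (Nb C).ncard = 3) : False := by
  have hline : ∀ C E : Sylow 3 G, Adj C E → insert C (Nb C) = {R : Sylow 3 G | (C : Subgroup G) ⊓ E ≤ R} := by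
    intro C E hCE
    set D : Subgroup G := (C : Subgroup G) ⊓ E with hD
    have hsub : {R : Sylow 3 G | D ≤ R} \ {C} ⊆ Nb C := by
      rintro w ⟨hw, hwC⟩
      exact adj_of_le (fun h => hwC (Set.mem_singleton_iff.mpr h.symm)) D inf_le_left hw hCE.2
    have hdvd := dvd_ncard_sdiff C {R : Sylow 3 G | D ≤ R} (by
      intro u hu y hy
      exact le_smul C y D inf_le_left hCE.2 hy u hu)
    have hpos : 0 < ({R : Sylow 3 G | D ≤ R} \ {C}).ncard := by
      rw [Set.ncard_pos (Set.toFinite _)]
      exact ⟨E, (inf_le_right : D ≤ E), fun h => hCE.1 (Set.mem_singleton_iff.mp h).symm⟩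
    have hle := Set.ncard_le_ncard hsub (Set.toFinite _)
    rw [h3 C] at hle
    have heq : {R : Sylow 3 G | D ≤ R} \ {C} = Nb C :=
      Set.eq_of_subset_of_ncard_le hsub (by
        rw [h3 C]
        obtain ⟨k, hk⟩ := hdvd
        omega) (Set.toFinite _)
    ext y
    constructor
    · rintro (rfl | hy)
      · exact (inf_le_left : D ≤ y)
      · rw [← heq] at hy
        exact hy.1
    · intro hy
      by_cases hyC : y = C
      · exact Or.inl hyC
      · exact Or.inr (by rw [← heq]; exact ⟨hy, hyC⟩)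
  have hsame : ∀ C E : Sylow 3 G, E ∈ insert C (Nb C) → insert E (Nb E) = insert C (Nb C) := by
    rintro C E (rfl | hE)
    · rfl
    · have hCE : Adj C E := hE
      rw [hline C E hCE, hline E C hCE.symm, inf_comm]
  have hsm : ∀ (g : G) (C : Sylow 3 G), g • insert C (Nb C) = insert (g • C) (Nb (g • C)) := by
    intro g C
    ext y
    rw [Set.mem_smul_set]
    constructor
    · rintro ⟨z, (rfl | hz), rfl⟩
      · exact Or.inl rfl
      · exact Or.inr ((adj_smul g C z).mpr hz)
    · rintro (rfl | hy)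
      · exact ⟨C, Or.inl rfl, rfl⟩
      · refine ⟨g⁻¹ • y, Or.inr ?_, by simp⟩
        have hy' : Adj (g • C) y := hy
        rw [← smul_inv_smul g y, adj_smul] at hy'
        exact hy'
  have hblock : IsBlock G (insert A (Nb A)) := by
    rw [isBlock_iff_smul_eq_of_nonempty]
    rintro g ⟨c, hc1, hc2⟩
    rw [hsm] at hc1 ⊢
    rw [← hsame _ c hc1, hsame A c hc2]
  have hne : (insert A (Nb A)).Nonempty := ⟨A, Or.inl rfl⟩
  have hdv := hblock.ncard_dvd_card hne
  have hnot : A ∉ Nb A := fun h => h.1 rfl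
  rw [Set.ncard_insert_of_notMem hnot, h3 A, hX] at hdv
  omega

/-- Sylow `3`-subgroups have order three. -/
theorem card_P (hX : Nat.card (Sylow 3 G) = 22)
    (hfaith : Function.Injective (toPermHom G (Sylow 3 G))) (A : Sylow 3 G) :
    Nat.card (A : Subgroup G) = 3 := by
  have hmod := Nb_mod hX A
  have hle := Nb_le hX A
  have hpos : 0 < (Nb A).ncard := by omega
  obtain ⟨B, hB⟩ : (Nb A).Nonempty := (Set.ncard_pos (Set.toFinite _)).mp hpos
  have hcases : (Nb A).ncard = 3 ∨ (Nb A).ncard = 12 ∨ (Nb A).ncard = 21 := by omega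
  have hall : ∀ n, (Nb A).ncard = n → ∀ C : Sylow 3 G, (Nb C).ncard = n := by
    intro n hn C
    rw [ncard_Nb_eq C A, hn]
  rcases hcases with h | h | h
  · exact (case3 hX A B hB (hall _ h)).elim
  · exact (case12 hX A B hB (hall _ h)).elim
  · exact case21 hX hfaith A B hB (hall _ h)

end phase1

section phase2
variable {G : Type u} [Group G] [Finite G]

theorem invol_fix_mod (hX : Nat.card (Sylow 3 G) = 22)
    (hfaith : Function.Injective (toPermHom G (Sylow 3 G)))
    (hno : ∀ K : Subgroup G, K.Normal → ¬ 3 ∣ K.index → K = ⊤) (c : G) (hc : orderOf c = 2) :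
    (fixSet c : Set (Sylow 3 G)).ncard % 4 = 2 := by
  have h4 := four_dvd_moved_sylow (p := 3) (by norm_num) hno hfaith c hc
  have hm := moved_add_fix 22 hX c
  omega

theorem fix_conj {α : Type*} [MulAction G α] (g x : G) :
    (fixSet (g * x * g⁻¹) : Set α).ncard = (fixSet x : Set α).ncard := by
  have : (fixSet (g * x * g⁻¹) : Set α) = (fun y => g • y) '' fixSet x := by
    ext y
    constructor
    · intro hy
      refine ⟨g⁻¹ • y, ?_, by simp⟩
      have h1 : (g * x * g⁻¹) • y = y := hy
      change x • g⁻¹ • y = g⁻¹ • y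
      have h2 : g • x • g⁻¹ • y = y := by simpa [mul_smul] using h1
      exact (smul_eq_iff_eq_inv_smul g).mp h2
    · rintro ⟨z, hz, rfl⟩
      have hz' : x • z = z := hz
      change (g * x * g⁻¹) • g • z = g • z
      simp [mul_smul, hz']
  rw [this, Set.ncard_image_of_injective _ (MulAction.injective g)]

/-- Translates of `F` under `A` are pairwise disjoint: counting. -/
theorem translate {α : Type*} [Finite α] [MulAction G α] (A : Subgroup G) (F S : Set α)
    (hS : ∀ u ∈ A, ∀ y ∈ F, u • y ∈ S) (h : ∀ u ∈ A, ∀ y ∈ F, u • y ∈ F → u = 1) :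
    Nat.card A * F.ncard ≤ S.ncard := by
  have hinj : Function.Injective
      (fun q : A × F => (⟨(q.1 : G) • (q.2 : α), hS _ q.1.2 _ q.2.2⟩ : S)) := by
    rintro ⟨⟨u, hu⟩, ⟨y, hy⟩⟩ ⟨⟨v, hv⟩, ⟨z, hz⟩⟩ hq
    have h1 : u • y = v • z := congrArg Subtype.val hq
    have h2 : (v⁻¹ * u) • y = z := by rw [mul_smul, h1, inv_smul_smul]
    have h3 : v⁻¹ * u = 1 := h _ (mul_mem (inv_mem hv) hu) y hy (by rw [h2]; exact hz)
    have h4 : u = v := by
      have : v * (v⁻¹ * u) = v * 1 := by rw [h3]
      simpa using this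
    subst h4
    have h5 : y = z := by rwa [h3, one_smul] at h2
    subst h5
    rfl
  have := Nat.card_le_card_of_injective _ hinj
  rwa [Nat.card_prod, Nat.card_coe_set_eq, Nat.card_coe_set_eq] at this

/-- An involution moves a multiple of four points in every action, when the group has no subgroup
of index two. -/
theorem four_dvd_moved_gen (hno : ∀ K : Subgroup G, K.Normal → ¬ 3 ∣ K.index → K = ⊤)
    {α : Type*} [Finite α] [MulAction G α] (c : G) (hcc : c * c = 1)
    (hc1 : toPermHom G α c ≠ 1) : 4 ∣ ((fixSet c : Set α)ᶜ).ncard := by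
  classical
  haveI : Fintype α := Fintype.ofFinite _
  let f : G →* ℤˣ := Equiv.Perm.sign.comp (toPermHom G α)
  have hK := hno f.ker (MonoidHom.normal_ker f) (by
    rw [Subgroup.index_ker]
    intro hd
    have h2 : Nat.card f.range ∣ Nat.card ℤˣ := Subgroup.card_subgroup_dvd_card _
    have h3 : Nat.card ℤˣ = 2 := by rw [Nat.card_eq_fintype_card, Fintype.card_units_int]
    rw [h3] at h2
    have h4 := hd.trans h2
    omega)
  have hg1 : c ∈ f.ker := by rw [hK]; trivial
  let σ := toPermHom G α c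
  have hsuppset : (σ.support : Set α) = (fixSet c : Set α)ᶜ := by
    ext y
    simp only [Finset.mem_coe, Equiv.Perm.mem_support, Set.mem_compl_iff]
    exact Iff.rfl
  have hord : orderOf σ = 2 := by
    apply orderOf_eq_prime
    · rw [pow_two, ← map_mul, hcc, map_one]
    · exact hc1
  rw [← hsuppset, Set.ncard_coe_finset]
  obtain ⟨k, hk⟩ := Equiv.Perm.cycleType_prime_order (σ := σ) (by rw [hord]; norm_num)
  have hsum := Equiv.Perm.sum_cycleType σ
  rw [hk, hord, Multiset.sum_replicate, smul_eq_mul] at hsum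
  have hs' : Equiv.Perm.sign σ = 1 := hg1
  rw [Equiv.Perm.sign_of_cycleType, hk, hord] at hs'
  simp only [Multiset.sum_replicate, smul_eq_mul, Multiset.card_replicate] at hs'
  by_cases hev : Even (k + 1)
  · obtain ⟨m, hm⟩ := hev
    rw [← hsum, hm]
    exact ⟨m, by ring⟩
  · exfalso
    have hod : Odd ((k + 1) * 2 + (k + 1)) := by
      have : Odd (k + 1) := Nat.not_even_iff_odd.mp hev
      obtain ⟨m, hm⟩ := this
      rw [hm]
      exact ⟨3 * m + 1, by ring⟩
    rw [hod.neg_one_pow] at hs'
    exact absurd hs' (by decide)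

theorem orbit_three (hX : Nat.card (Sylow 3 G) = 22)
    (hfaith : Function.Injective (toPermHom G (Sylow 3 G))) (P y : Sylow 3 G) (hy : y ≠ P) :
    (orbit (P : Subgroup G) y).ncard = 3 := by
  have hP3 := card_P hX hfaith P
  have hoc := orbit_card P y
  rw [hP3] at hoc
  have hd : (orbit (P : Subgroup G) y).ncard ∣ 3 := ⟨_, hoc.symm⟩
  rcases (Nat.dvd_prime (by norm_num)).mp hd with h | h
  · exfalso
    apply hy
    obtain ⟨a, ha⟩ := Set.ncard_eq_one.mp h
    apply eq_of_fixed P y
    intro u hu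
    have h1 : y ∈ orbit (P : Subgroup G) y := mem_orbit_self y
    have h2 : (⟨u, hu⟩ : (P : Subgroup G)) • y ∈ orbit (P : Subgroup G) y := mem_orbit _ _
    rw [ha, Set.mem_singleton_iff] at h1 h2
    exact h2.trans h1.symm
  · exact h

open scoped Pointwise in
/-- The centralizer of a Sylow `3`-subgroup acts on the seven orbits on the other points. -/
theorem card_cent_dvd (hX : Nat.card (Sylow 3 G) = 22)
    (hfaith : Function.Injective (toPermHom G (Sylow 3 G))) (P : Sylow 3 G) :
    Nat.card (Subgroup.centralizer ((P : Subgroup G) : Set G)) ∣ 3 * 5040 := by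
  classical
  haveI : Fintype (Sylow 3 G) := Fintype.ofFinite _
  set C := Subgroup.centralizer ((P : Subgroup G) : Set G) with hC
  have hP3 := card_P hX hfaith P
  have hcomm : ∀ c ∈ C, ∀ u ∈ (P : Subgroup G), c * u = u * c := fun c hc u hu =>
    (Subgroup.mem_centralizer_iff.mp hc u hu).symm
  have hCP : ∀ c ∈ C, c • P = P := fun c hc =>
    Sylow.smul_eq_iff_mem_normalizer.mpr (Subgroup.centralizer_le_normalizer _ hc)
  let o : Sylow 3 G → Set (Sylow 3 G) := fun y => orbit (P : Subgroup G) y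
  have ho3 : ∀ y, y ≠ P → (o y).ncard = 3 := orbit_three hX hfaith P
  have hsm : ∀ (c : C) (y : Sylow 3 G), c • o y = o ((c : G) • y) := by
    intro c y
    ext z
    rw [Set.mem_smul_set]
    constructor
    · rintro ⟨w, ⟨⟨u, hu⟩, rfl⟩, rfl⟩
      refine ⟨⟨u, hu⟩, ?_⟩
      change u • (c : G) • y = (c : G) • u • y
      rw [← mul_smul, ← mul_smul, hcomm c c.2 u hu]
    · rintro ⟨⟨u, hu⟩, rfl⟩
      refine ⟨u • y, ⟨⟨u, hu⟩, rfl⟩, ?_⟩
      change (c : G) • u • y = u • (c : G) • y
      rw [← mul_smul, ← mul_smul, hcomm c c.2 u hu]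
  let T : SubMulAction C (Set (Sylow 3 G)) :=
    { carrier := o '' ({P}ᶜ : Set (Sylow 3 G))
      smul_mem' := by
        rintro c _ ⟨y, hy, rfl⟩
        refine ⟨(c : G) • y, ?_, (hsm c y).symm⟩
        intro h
        apply hy
        have h1 : (c : G) • y = P := h
        have h2 := hCP _ (inv_mem c.2)
        rw [← h2, ← h1]
        simp }
  -- seven orbits
  have hT7 : Nat.card T = 7 := by
    have hcardT : Nat.card T = (o '' ({P}ᶜ : Set (Sylow 3 G))).ncard := Nat.card_coe_set_eq _
    let S0 : Finset (Sylow 3 G) := ({P}ᶜ : Set (Sylow 3 G)).toFinset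
    have hS0 : S0.card = 21 := by
      have h2 := Set.ncard_add_ncard_compl ({P} : Set (Sylow 3 G))
      rw [Set.ncard_singleton, hX, Set.ncard_eq_toFinset_card'] at h2
      change 1 + S0.card = 22 at h2
      omega
    have h := Finset.card_eq_sum_card_image o S0
    have hfib : ∀ t ∈ S0.image o, (S0.filter (fun y => o y = t)).card = 3 := by
      intro t ht
      obtain ⟨y, hy, rfl⟩ := Finset.mem_image.mp ht
      have hyP : y ≠ P := by simpa [S0] using hy
      have heq : S0.filter (fun z => o z = o y) = (o y).toFinset := by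
        ext z
        simp only [Finset.mem_filter, Set.mem_toFinset]
        constructor
        · rintro ⟨-, hz⟩
          have : z ∈ o z := mem_orbit_self z
          rw [hz] at this
          exact this
        · intro hz
          refine ⟨?_, orbit_eq_iff.mpr hz⟩
          have hzP : z ≠ P := fun h => not_mem_orbit P y hyP (by
            have h9 : z ∈ orbit (P : Subgroup G) y := hz
            rwa [h] at h9)
          simpa [S0] using hzP
      rw [heq, ← Set.ncard_eq_toFinset_card', ho3 y hyP]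
    rw [Finset.sum_congr rfl hfib, Finset.sum_const, smul_eq_mul, hS0] at h
    have himg : o '' ({P}ᶜ : Set (Sylow 3 G)) = ((S0.image o : Finset _) : Set _) := by
      rw [Finset.coe_image]
      congr 1
      simp [S0]
    rw [hcardT, himg, Set.ncard_coe_finset]
    omega
  let φ : C →* Equiv.Perm T := toPermHom C T
  have hker3 : ∀ g : C, g ∈ φ.ker → (g : G) ^ 3 = 1 := by
    intro g hg
    apply hfaith
    rw [map_one]
    refine Equiv.ext fun y => ?_
    change ((g : G) ^ 3) • y = y
    by_cases hy : y = P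
    · rw [hy]
      exact pow_smul_fix (hCP g g.2) 3
    · have hmem : o y ∈ T := ⟨y, hy, rfl⟩
      have h1 : g • (⟨o y, hmem⟩ : T) = ⟨o y, hmem⟩ :=
        congrArg (fun e : Equiv.Perm T => e ⟨o y, hmem⟩) (MonoidHom.mem_ker.mp hg)
      have h2 : g • o y = o y := congrArg Subtype.val h1
      have h3 : (g : G) • y ∈ o y := by
        rw [← h2]
        exact Set.smul_mem_smul_set (mem_orbit_self y)
      obtain ⟨⟨u, hu⟩, hu2⟩ := h3
      have hu2' : u • y = (g : G) • y := hu2
      have hu3 : u ^ 3 = 1 := by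
        have h4 := pow_card_eq_one' (x := (⟨u, hu⟩ : (P : Subgroup G)))
        rw [hP3] at h4
        have h5 := congrArg Subtype.val h4
        simpa using h5
      have hc := hcomm g g.2 u hu
      calc ((g : G) ^ 3) • y = (g : G) • (g : G) • (g : G) • y := by
            simp only [pow_succ, pow_zero, one_mul, mul_smul]
        _ = (g : G) • (g : G) • u • y := by rw [hu2']
        _ = (g : G) • u • u • y := by
            rw [← mul_smul (g : G) u, hc, mul_smul, hu2']
        _ = u • u • u • y := by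
            rw [← mul_smul (g : G) u, hc, mul_smul, ← mul_smul (g : G) u, hc, mul_smul, hu2']
        _ = (u ^ 3) • y := by
            simp only [pow_succ, pow_zero, one_mul, mul_smul]
        _ = y := by rw [hu3, one_smul]
  have hpg : IsPGroup 3 φ.ker := fun g =>
    ⟨1, Subtype.ext (Subtype.ext (by simpa using hker3 g g.2))⟩
  obtain ⟨Q, hQ⟩ := (hpg.map C.subtype).exists_le_sylow
  have hkd : Nat.card φ.ker ∣ 3 := by
    have h1 := Subgroup.card_dvd_of_le hQ
    rw [Subgroup.card_map_of_injective C.subtype_injective, card_P hX hfaith Q] at h1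
    exact h1
  have hrange : Nat.card φ.range ∣ 5040 := by
    have h1 : Nat.card φ.range ∣ Nat.card (Equiv.Perm T) := Subgroup.card_subgroup_dvd_card _
    rw [Nat.card_perm, hT7] at h1
    exact h1
  have h1 := Subgroup.card_mul_index φ.ker
  rw [Subgroup.index_ker] at h1
  rw [← h1]
  exact Nat.mul_dvd_mul hkd hrange

theorem card_M_dvd (hX : Nat.card (Sylow 3 G) = 22)
    (hfaith : Function.Injective (toPermHom G (Sylow 3 G))) (P : Sylow 3 G) :
    Nat.card (Subgroup.normalizer ((P : Subgroup G) : Set G)) ∣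
      Nat.card (Subgroup.centralizer ((P : Subgroup G) : Set G)) * 2 := by
  have hP3 := card_P hX hfaith P
  have h1 := card_dvd_mul_mulAut (P : Subgroup G) (Subgroup.normalizer ((P : Subgroup G) : Set G)) le_rfl
  haveI hcyc : IsCyclic (P : Subgroup G) := isCyclic_of_prime_card (p := 3) hP3
  rw [hcyc.card_mulAut, hP3] at h1
  have htot : Nat.totient 3 = 2 := by decide
  rw [htot] at h1
  exact h1.trans (Nat.mul_dvd_mul_right (Subgroup.card_dvd_of_le inf_le_right) 2)

theorem no_eleven (hX : Nat.card (Sylow 3 G) = 22)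
    (hfaith : Function.Injective (toPermHom G (Sylow 3 G))) (a : Sylow 3 G) :
    ¬ 11 ∣ Nat.card (stabilizer G a) := by
  have hstab : stabilizer G a = Subgroup.normalizer ((a : Subgroup G) : Set G) := by
    ext g
    exact Sylow.smul_eq_iff_mem_normalizer
  rw [hstab]
  intro h
  have h1 := h.trans (card_M_dvd hX hfaith a)
  have h2 := h1.trans (Nat.mul_dvd_mul_right (card_cent_dvd hX hfaith a) 2)
  omega

/-- Sylow `11`-subgroups: local structure. -/
theorem sylow_eleven (hX : Nat.card (Sylow 3 G) = 22)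
    (hfaith : Function.Injective (toPermHom G (Sylow 3 G)))
    (hno : ∀ K : Subgroup G, K.Normal → ¬ 3 ∣ K.index → K = ⊤)
    (hG11 : 11 ∣ Nat.card G) (hG121 : ¬ 121 ∣ Nat.card G) (Y : Sylow 11 G) :
    Nat.card (Y : Subgroup G) = 11 ∧
    (∀ u ∈ (Y : Subgroup G), u ≠ 1 → ∀ a : Sylow 3 G, u • a ≠ a) ∧
    Nat.card (Subgroup.centralizer ((Y : Subgroup G) : Set G)) = 11 ∧
    Nat.card (Subgroup.normalizer ((Y : Subgroup G) : Set G)) ∣ 110 := by
  have hM11 := no_eleven hX hfaith
  have hY11 : Nat.card (Y : Subgroup G) = 11 :=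
    Cfsg.Agent.Lib.Basic.SylowCount.card_sylow_eq_prime hG11 (by simpa using hG121) Y
  have hel : ∀ y : G, orderOf y = 11 → ∀ a : Sylow 3 G, y • a ≠ a := by
    intro y hy a hya
    apply hM11 a
    have h0 : y ∈ stabilizer G a := hya
    have h1 : orderOf (⟨y, h0⟩ : stabilizer G a) = 11 := by
      rw [Subgroup.orderOf_mk, hy]
    rw [← h1]
    exact orderOf_dvd_natCard _
  have hYfree : ∀ u ∈ (Y : Subgroup G), u ≠ 1 → ∀ a : Sylow 3 G, u • a ≠ a := by
    intro u hu hu1 a
    apply hel
    have hd : orderOf (⟨u, hu⟩ : (Y : Subgroup G)) ∣ 11 := by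
      have := orderOf_dvd_natCard (⟨u, hu⟩ : (Y : Subgroup G))
      rwa [hY11] at this
    rw [Subgroup.orderOf_mk] at hd
    exact ((Nat.dvd_prime (by norm_num)).mp hd).resolve_left (fun h => hu1 (orderOf_eq_one_iff.mp h))
  set C := Subgroup.centralizer ((Y : Subgroup G) : Set G) with hC
  have hCfree : ∀ c ∈ C, c ≠ 1 → ∀ a ∈ (Set.univ : Set (Sylow 3 G)), c • a ≠ a := by
    intro c hc hc1 a _ hca
    obtain ⟨r, m, hrp, hro, -⟩ := exists_pow_prime_order c hc1
    haveI : Fact r.Prime := ⟨hrp⟩
    set e := c ^ m with he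
    have he1 : e ≠ 1 := by
      intro h
      rw [h, orderOf_one] at hro
      exact hrp.one_lt.ne hro
    have hec : ∀ u ∈ (Y : Subgroup G), e * u = u * e := fun u hu =>
      (Commute.pow_left (show Commute c u from (Subgroup.mem_centralizer_iff.mp hc u hu).symm) m)
    have hea : e • a = a := pow_smul_fix hca m
    have h11 : 11 ∣ (fixSet e : Set (Sylow 3 G)).ncard := by
      apply dvd_ncard_of_invariant (Y : Subgroup G) Y.isPGroup' _ (fixSet_invariant _ e hec)
      intro y _
      obtain ⟨v, hv⟩ : ∃ v : (Y : Subgroup G), v ≠ 1 := by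
        have : Nontrivial (Y : Subgroup G) :=
          Finite.one_lt_card_iff_nontrivial.mp (by rw [hY11]; norm_num)
        exact exists_ne 1
      refine ⟨v, v.2, ?_⟩
      exact hYfree v v.2 (fun h => hv (Subtype.ext h)) y
    have hle := fix_le 22 hX e
    have hne : (fixSet e : Set (Sylow 3 G)).ncard ≠ 22 := fun h =>
      he1 (eq_one_of_fix_all 22 hX hfaith e h)
    have hpos : 0 < (fixSet e : Set (Sylow 3 G)).ncard := by
      rw [Set.ncard_pos (Set.toFinite _)]
      exact ⟨a, hea⟩
    have hr := card_fix_modEq (α := Sylow 3 G) r e 1 (by rw [hro, pow_one])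
    rw [hX] at hr
    have hrdvd : r ∣ 22 - (fixSet e : Set (Sylow 3 G)).ncard :=
      (Nat.modEq_iff_dvd' hle).mp hr.symm
    have hf : (fixSet e : Set (Sylow 3 G)).ncard = 11 := by omega
    rw [hf] at hrdvd
    have hr11 : r = 11 := (Nat.prime_dvd_prime_iff_eq hrp (by norm_num)).mp hrdvd
    exact hel e (by rw [hro, hr11]) a hea
  have hCd : Nat.card C ∣ 22 := by
    have h1 := card_dvd_ncard_of_free C (Set.univ : Set (Sylow 3 G)) (fun _ _ _ _ => trivial) hCfree
    rwa [Set.ncard_univ, hX] at h1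
  have h2C : ¬ 2 ∣ Nat.card C := by
    intro h2
    obtain ⟨c, hc⟩ := exists_prime_orderOf_dvd_card' 2 h2
    have hc' : orderOf (c : G) = 2 := by rw [Subgroup.orderOf_coe, hc]
    have hc1 : (c : G) ≠ 1 := by
      intro h
      rw [h, orderOf_one] at hc'
      omega
    have hf := invol_fix_mod hX hfaith hno _ hc'
    have h0 : (fixSet (c : G) : Set (Sylow 3 G)) = ∅ := by
      ext a
      simp only [Set.mem_empty_iff_false, iff_false]
      exact hCfree _ c.2 hc1 a trivial
    rw [h0, Set.ncard_empty] at hf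
    omega
  have hYC : (Y : Subgroup G) ≤ C := fun a ha => Subgroup.mem_centralizer_iff.mpr fun b hb =>
    commute_of_card_prime (Y : Subgroup G) hY11 hb ha
  have h11C : 11 ∣ Nat.card C := by
    have h9 := Subgroup.card_dvd_of_le hYC
    rwa [hY11] at h9
  have hC11 : Nat.card C = 11 := by
    have hpos : 0 < Nat.card C := Nat.card_pos
    have hle : Nat.card C ≤ 22 := Nat.le_of_dvd (by norm_num) hCd
    obtain ⟨k, hk⟩ := h11C
    have hk' : k = 1 ∨ k = 2 := by omega
    rcases hk' with rfl | rfl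
    · omega
    · exact absurd (by omega) h2C
  have h1 := card_dvd_mul_mulAut (Y : Subgroup G) (Subgroup.normalizer ((Y : Subgroup G) : Set G)) le_rfl
  haveI hcyc : IsCyclic (Y : Subgroup G) := isCyclic_of_prime_card (p := 11) hY11
  rw [hcyc.card_mulAut, hY11] at h1
  have htot : Nat.totient 11 = 10 := by decide
  rw [htot] at h1
  have h2 : Nat.card (Subgroup.normalizer ((Y : Subgroup G) : Set G) ⊓ C : Subgroup G) ∣ 11 := by
    have h9 : Nat.card (Subgroup.normalizer ((Y : Subgroup G) : Set G) ⊓ C : Subgroup G) ∣ Nat.card C :=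
      Subgroup.card_dvd_of_le inf_le_right
    rwa [hC11] at h9
  exact ⟨hY11, hYfree, hC11, h1.trans (Nat.mul_dvd_mul_right h2 10)⟩

/-- An element normalizing `Y` and not centralizing it has at most two fixed points. -/
theorem fix_le_two (hX : Nat.card (Sylow 3 G) = 22) (Y : Sylow 11 G)
    (hY11 : Nat.card (Y : Subgroup G) = 11)
    (hYfree : ∀ u ∈ (Y : Subgroup G), u ≠ 1 → ∀ a : Sylow 3 G, u • a ≠ a)
    (a : G) (haN : a ∈ Subgroup.normalizer ((Y : Subgroup G) : Set G))
    (haC : a ∉ Subgroup.centralizer ((Y : Subgroup G) : Set G)) :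
    (fixSet a : Set (Sylow 3 G)).ncard ≤ 2 := by
  have h := translate (Y : Subgroup G) (fixSet a : Set (Sylow 3 G)) Set.univ
    (fun _ _ _ _ => trivial) (by
      intro u hu y hy huy
      by_contra hu1
      have hy' : a • y = y := hy
      have huy' : a • u • y = u • y := huy
      have h1 : (a * u * a⁻¹) • y = u • y := by
        calc (a * u * a⁻¹) • y = (a * u * a⁻¹) • a • y := by rw [hy']
          _ = a • u • y := by simp only [mul_smul, inv_smul_smul]
          _ = u • y := huy'
      have hau : a * u * a⁻¹ ∈ (Y : Subgroup G) := (Subgroup.mem_normalizer_iff.mp haN u).mp hu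
      have h2 : (u⁻¹ * (a * u * a⁻¹)) • y = y := by
        rw [mul_smul, h1, inv_smul_smul]
      have h3 : u⁻¹ * (a * u * a⁻¹) = 1 := by
        by_contra hne
        exact hYfree _ (mul_mem (inv_mem hu) hau) hne y h2
      have h4 : a * u = u * a := by
        have h5 : a * u * a⁻¹ = u := by
          have : u * (u⁻¹ * (a * u * a⁻¹)) = u * 1 := by rw [h3]
          simpa using this
        calc a * u = (a * u * a⁻¹) * a := by group
          _ = u * a := by rw [h5]
      apply haC
      refine Subgroup.mem_centralizer_iff.mpr fun v hv => ?_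
      obtain ⟨k, rfl⟩ := Subgroup.mem_zpowers_iff.mp (mem_zpowers_of_card_prime _ hY11 hu hu1 hv)
      exact (Commute.zpow_left (show Commute u a from h4.symm) k).eq)
  rw [hY11, Set.ncard_univ, hX] at h
  omega

/-- A subgroup of order `5` in the centralizer of `P` and one normalizing `Y` cannot coexist. -/
theorem five_case (hX : Nat.card (Sylow 3 G) = 22)
    (hfaith : Function.Injective (toPermHom G (Sylow 3 G))) (P : Sylow 3 G) (Y : Sylow 11 G)
    (hY11 : Nat.card (Y : Subgroup G) = 11)
    (hYfree : ∀ u ∈ (Y : Subgroup G), u ≠ 1 → ∀ a : Sylow 3 G, u • a ≠ a)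
    (hCY : Nat.card (Subgroup.centralizer ((Y : Subgroup G) : Set G)) = 11)
    (g w : G) (hg : g ∈ Subgroup.centralizer ((P : Subgroup G) : Set G)) (hg5 : orderOf g = 5)
    (hw : w ∈ Subgroup.normalizer ((Y : Subgroup G) : Set G)) (hw5 : orderOf w = 5)
    (h25 : ¬ 25 ∣ Nat.card G) : False := by
  have hg1 : g ≠ 1 := by
    intro h
    rw [h, orderOf_one] at hg5
    omega
  have hcomm : ∀ u ∈ (P : Subgroup G), g * u = u * g := fun u hu =>
    (Subgroup.mem_centralizer_iff.mp hg u hu).symm
  have hgP : g • P = P := Sylow.smul_eq_iff_mem_normalizer.mpr (Subgroup.centralizer_le_normalizer _ hg)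
  have hf3 := fix_mod_of_commute P g hgP hcomm
  have hf5 := card_fix_modEq (α := Sylow 3 G) 5 g 1 (by rw [hg5, pow_one])
  rw [hX] at hf5
  have hf5' : 22 % 5 = (fixSet g : Set (Sylow 3 G)).ncard % 5 := hf5
  have hle := fix_le 22 hX g
  have hne : (fixSet g : Set (Sylow 3 G)).ncard ≠ 22 := fun h =>
    hg1 (eq_one_of_fix_all 22 hX hfaith g h)
  have hf7 : (fixSet g : Set (Sylow 3 G)).ncard = 7 := by omega
  -- conjugate into `⟨w⟩`
  have hpgg : IsPGroup 5 (Subgroup.zpowers g) :=
    IsPGroup.of_card (n := 1) (by rw [Nat.card_zpowers, hg5, pow_one])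
  have hpgw : IsPGroup 5 (Subgroup.zpowers w) :=
    IsPGroup.of_card (n := 1) (by rw [Nat.card_zpowers, hw5, pow_one])
  obtain ⟨S1, hS1⟩ := hpgg.exists_le_sylow
  obtain ⟨S2, hS2⟩ := hpgw.exists_le_sylow
  have h5G : 5 ∣ Nat.card G := hg5 ▸ orderOf_dvd_natCard g
  have hc2 : Nat.card (S2 : Subgroup G) = 5 :=
    Cfsg.Agent.Lib.Basic.SylowCount.card_sylow_eq_prime h5G (by simpa using h25) S2
  obtain ⟨h, hh⟩ := MulAction.exists_smul_eq G S1 S2
  have hgS1 : g ∈ (S1 : Subgroup G) := hS1 (Subgroup.mem_zpowers g)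
  have hwS2 : w ∈ (S2 : Subgroup G) := hS2 (Subgroup.mem_zpowers w)
  have hconj : h * g * h⁻¹ ∈ (S2 : Subgroup G) := by
    rw [← hh, mem_smul_iff]
    simpa [mul_assoc] using hgS1
  have hw1 : w ≠ 1 := by
    intro h
    rw [h, orderOf_one] at hw5
    omega
  have hconjw : h * g * h⁻¹ ∈ Subgroup.zpowers w :=
    mem_zpowers_of_card_prime (S2 : Subgroup G) hc2 hwS2 hw1 hconj
  have hconjN : h * g * h⁻¹ ∈ Subgroup.normalizer ((Y : Subgroup G) : Set G) := by
    have : Subgroup.zpowers w ≤ Subgroup.normalizer ((Y : Subgroup G) : Set G) := by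
      rwa [Subgroup.zpowers_le]
    exact this hconjw
  have hord : orderOf (h * g * h⁻¹) = 5 := by
    have h1 : h * g * h⁻¹ = MulAut.conj h g := rfl
    rw [h1, MulEquiv.orderOf_eq, hg5]
  have hconjC : h * g * h⁻¹ ∉ Subgroup.centralizer ((Y : Subgroup G) : Set G) := by
    intro hmem
    have h1 := orderOf_dvd_natCard (⟨_, hmem⟩ : Subgroup.centralizer ((Y : Subgroup G) : Set G))
    rw [hCY, Subgroup.orderOf_mk, hord] at h1
    omega
  have h2 := fix_le_two hX Y hY11 hYfree _ hconjN hconjC
  rw [fix_conj, hf7] at h2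
  omega

/-- Elements of order seven centralizing `P` fix only the point `P`. -/
theorem fix_seven (hX : Nat.card (Sylow 3 G) = 22)
    (hfaith : Function.Injective (toPermHom G (Sylow 3 G))) (P : Sylow 3 G) (c : G)
    (hc : c ∈ Subgroup.centralizer ((P : Subgroup G) : Set G)) (h7 : orderOf c = 7)
    (a : Sylow 3 G) (ha : a ≠ P) : c • a ≠ a := by
  intro hca
  have hc1 : c ≠ 1 := by
    intro h
    rw [h, orderOf_one] at h7
    omega
  have hcomm : ∀ u ∈ (P : Subgroup G), c * u = u * c := fun u hu =>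
    (Subgroup.mem_centralizer_iff.mp hc u hu).symm
  have hcP : c • P = P := Sylow.smul_eq_iff_mem_normalizer.mpr (Subgroup.centralizer_le_normalizer _ hc)
  have hf3 := fix_mod_of_commute P c hcP hcomm
  have hf7 := card_fix_modEq (α := Sylow 3 G) 7 c 1 (by rw [h7, pow_one])
  rw [hX] at hf7
  have hf7' : 22 % 7 = (fixSet c : Set (Sylow 3 G)).ncard % 7 := hf7
  have hle := fix_le 22 hX c
  have hne : (fixSet c : Set (Sylow 3 G)).ncard ≠ 22 := fun h =>
    hc1 (eq_one_of_fix_all 22 hX hfaith c h)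
  have hf1 : (fixSet c : Set (Sylow 3 G)).ncard = 1 := by omega
  obtain ⟨x, hx⟩ := Set.ncard_eq_one.mp hf1
  have h1 : a ∈ (fixSet c : Set (Sylow 3 G)) := hca
  have h2 : P ∈ (fixSet c : Set (Sylow 3 G)) := hcP
  rw [hx, Set.mem_singleton_iff] at h1 h2
  exact ha (h1.trans h2.symm)

/-- Orders `105` and `337`: a Sylow `7`-subgroup of the centralizer has a normalizer too big. -/
theorem seven_case (hX : Nat.card (Sylow 3 G) = 22)
    (hfaith : Function.Injective (toPermHom G (Sylow 3 G)))
    (hno : ∀ K : Subgroup G, K.Normal → ¬ 3 ∣ K.index → K = ⊤) (P : Sylow 3 G)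
    (hC : Nat.card (Subgroup.centralizer ((P : Subgroup G) : Set G)) = 105 ∨
      Nat.card (Subgroup.centralizer ((P : Subgroup G) : Set G)) = 336) : False := by
  set C := Subgroup.centralizer ((P : Subgroup G) : Set G) with hCdef
  have hP3 := card_P hX hfaith P
  have hcomm : ∀ c ∈ C, ∀ u ∈ (P : Subgroup G), c * u = u * c := fun c hc u hu =>
    (Subgroup.mem_centralizer_iff.mp hc u hu).symm
  have hCP : ∀ c ∈ C, c • P = P := fun c hc =>
    Sylow.smul_eq_iff_mem_normalizer.mpr (Subgroup.centralizer_le_normalizer _ hc)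
  have h7 : 7 ∣ Nat.card C := by
    rcases hC with h | h <;> rw [h] <;> norm_num
  have h49 : ¬ 7 ^ 2 ∣ Nat.card C := by
    rcases hC with h | h <;> rw [h] <;> norm_num
  obtain ⟨Z⟩ : Nonempty (Sylow 7 C) := inferInstance
  have hZ7 : Nat.card (Z : Subgroup C) = 7 :=
    Cfsg.Agent.Lib.Basic.SylowCount.card_sylow_eq_prime h7 h49 Z
  set N := Subgroup.normalizer ((Z : Subgroup C) : Set C) with hNdef
  have hZN : (Z : Subgroup C) ≤ N := Z.le_normalizer
  have hPC : (P : Subgroup G) ≤ C := fun a ha => Subgroup.mem_centralizer_iff.mpr fun b hb =>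
    commute_of_card_prime (P : Subgroup G) hP3 hb ha
  have hPN : (P : Subgroup G).subgroupOf C ≤ N := by
    intro x hx
    rw [Subgroup.mem_subgroupOf] at hx
    rw [hNdef, Subgroup.mem_normalizer_iff]
    intro z
    have h1 : x * z * x⁻¹ = z := by
      apply Subtype.ext
      have h2 : (z : G) * (x : G) = (x : G) * (z : G) := hcomm z z.2 x hx
      simp only [Subgroup.coe_mul, Subgroup.coe_inv]
      rw [← h2]
      group
    rw [h1]
  have h3N : 3 ∣ Nat.card N := by
    have h1 := Subgroup.card_dvd_of_le hPN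
    have h2 : Nat.card ((P : Subgroup G).subgroupOf C) = Nat.card (P : Subgroup G) :=
      Nat.card_congr (Subgroup.subgroupOfEquivOfLe hPC).toEquiv
    rwa [h2, hP3] at h1
  have h7N : 7 ∣ Nat.card N := by
    have h1 := Subgroup.card_dvd_of_le hZN
    rwa [hZ7] at h1
  have h21N : 21 ∣ Nat.card N :=
    Nat.Coprime.mul_dvd_of_dvd_of_dvd (by norm_num : Nat.Coprime 3 7) h3N h7N
  have hn : N.index = Nat.card (Sylow 7 C) := (Sylow.card_eq_index_normalizer Z).symm
  have hmod : Nat.card (Sylow 7 C) % 7 = 1 := by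
    have h3 := card_sylow_modEq_one 7 C
    have h4 : Nat.card (Sylow 7 C) % 7 = 1 % 7 := h3
    omega
  have hNC := Subgroup.card_mul_index N
  rw [hn] at hNC
  obtain ⟨k, hk⟩ := h21N
  rw [hk] at hNC
  generalize Nat.card (Sylow 7 C) = n at hNC hmod
  -- elements of `Z` viewed in `G`
  let A : Subgroup G := (Z : Subgroup C).map C.subtype
  have hAZ : ∀ v : C, v ∈ (Z : Subgroup C) → (v : G) ∈ A := fun v hv => ⟨v, hv, rfl⟩
  have hApg : IsPGroup 7 A := Z.isPGroup'.map _
  have hAc : Nat.card A = 7 := by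
    rw [Subgroup.card_map_of_injective C.subtype_injective, hZ7]
  have hord : ∀ v ∈ (Z : Subgroup C), v ≠ 1 → orderOf (v : G) = 7 := by
    intro v hv hv1
    have hd : orderOf (⟨v, hv⟩ : (Z : Subgroup C)) ∣ 7 := by
      have := orderOf_dvd_natCard (⟨v, hv⟩ : (Z : Subgroup C))
      rwa [hZ7] at this
    rw [Subgroup.orderOf_mk] at hd
    rw [Subgroup.orderOf_coe]
    exact ((Nat.dvd_prime (by norm_num)).mp hd).resolve_left (fun h => hv1 (orderOf_eq_one_iff.mp h))
  obtain ⟨z, hz⟩ : ∃ z : (Z : Subgroup C), z ≠ 1 := by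
    have : Nontrivial (Z : Subgroup C) :=
      Finite.one_lt_card_iff_nontrivial.mp (by rw [hZ7]; norm_num)
    exact exists_ne 1
  have hz1 : ((z : C)) ≠ 1 := fun h => hz (Subtype.ext h)
  have hAfree : ∀ y : Sylow 3 G, y ≠ P → ((z : C) : G) • y ≠ y := fun y hy =>
    fix_seven hX hfaith P _ (z : C).2 (hord _ z.2 hz1) y hy
  -- an element commuting with `Z` has fixed points `1` mod `7`
  have hcom7 : ∀ s : C, (∀ v ∈ (Z : Subgroup C), s * v = v * s) →
      7 ∣ ((fixSet (s : G) : Set (Sylow 3 G)) \ {P}).ncard := by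
    intro s hs
    apply dvd_ncard_of_invariant A hApg
    · rintro _ ⟨v, hv, rfl⟩ y ⟨hy1, hy2⟩
      refine ⟨?_, ?_⟩
      · have hy1' : (s : G) • y = y := hy1
        change (s : G) • (v : G) • y = (v : G) • y
        have h1 : (s : G) * (v : G) = (v : G) * (s : G) := congrArg Subtype.val (hs v hv)
        rw [← mul_smul, h1, mul_smul, hy1']
      · intro h
        apply hy2
        rw [Set.mem_singleton_iff] at h ⊢
        have h1 := hCP _ (inv_mem v.2)
        have h2 : (v : G) • y = P := h
        rw [← h1, ← h2]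
        simp
    · rintro y ⟨-, hy2⟩
      exact ⟨_, hAZ _ z.2, hAfree y hy2⟩
  have hs1 : ∀ s : C, s ≠ 1 → ((s : G)) ≠ 1 := fun s hs h => hs (Subtype.ext h)
  have hfixP : ∀ s : C, P ∈ (fixSet (s : G) : Set (Sylow 3 G)) := fun s => hCP s s.2
  rcases hC with hC5 | hC2
  · -- order five element in `N`
    have hk5 : k * n = 5 := by
      rw [hC5] at hNC
      have : 21 * (k * n) = 21 * 5 := by rw [← mul_assoc]; omega
      exact Nat.eq_of_mul_eq_mul_left (by norm_num) this
    have h5N : 5 ∣ Nat.card N := by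
      rw [hk]
      have : k = 5 := by
        have hkle : k ≤ 5 := Nat.le_of_dvd (by norm_num) ⟨n, hk5.symm⟩
        interval_cases k <;> omega
      rw [this]
      norm_num
    obtain ⟨s, hs⟩ := exists_prime_orderOf_dvd_card' 5 h5N
    have hsC : orderOf ((s : N) : C) = 5 := by rw [Subgroup.orderOf_coe, hs]
    have hsG : orderOf (((s : N) : C) : G) = 5 := by rw [Subgroup.orderOf_coe, hsC]
    -- `s` centralizes `Z`
    have hT := card_dvd_mul_mulAut (Z : Subgroup C) (Subgroup.zpowers ((s : N) : C))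
      (by rw [Subgroup.zpowers_le]; exact s.2)
    haveI hcyc : IsCyclic (Z : Subgroup C) := isCyclic_of_prime_card (p := 7) hZ7
    rw [hcyc.card_mulAut, hZ7, Nat.card_zpowers, hsC] at hT
    have htot : Nat.totient 7 = 6 := by decide
    rw [htot] at hT
    have h5 : 5 ∣ Nat.card (Subgroup.zpowers ((s : N) : C) ⊓
        Subgroup.centralizer ((Z : Subgroup C) : Set C) : Subgroup C) :=
      (Nat.Coprime.dvd_of_dvd_mul_right (by norm_num : Nat.Coprime 5 6) hT)
    have hle : (Subgroup.zpowers ((s : N) : C) ⊓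
        Subgroup.centralizer ((Z : Subgroup C) : Set C) : Subgroup C) ≤
        Subgroup.zpowers ((s : N) : C) := inf_le_left
    have hd5 := Subgroup.card_dvd_of_le hle
    rw [Nat.card_zpowers, hsC] at hd5
    have heq := Subgroup.eq_of_le_of_card_ge hle (by
      rw [Nat.card_zpowers, hsC]
      exact Nat.le_of_dvd Nat.card_pos h5)
    have hsc : ((s : N) : C) ∈ Subgroup.centralizer ((Z : Subgroup C) : Set C) := by
      have h1 : ((s : N) : C) ∈ Subgroup.zpowers ((s : N) : C) := Subgroup.mem_zpowers _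
      rw [← heq] at h1
      exact h1.2
    have h7d := hcom7 ((s : N) : C) (fun v hv => (Subgroup.mem_centralizer_iff.mp hsc v hv).symm)
    have hf3 := fix_mod_of_commute P _ (hfixP ((s : N) : C)) (hcomm _ ((s : N) : C).2)
    have hf5 := card_fix_modEq (α := Sylow 3 G) 5 (((s : N) : C) : G) 1 (by rw [hsG, pow_one])
    rw [hX] at hf5
    have hf5' : 22 % 5 = (fixSet (((s : N) : C) : G) : Set (Sylow 3 G)).ncard % 5 := hf5
    have hle22 := fix_le 22 hX (((s : N) : C) : G)
    have hs1' : (((s : N) : C) : G) ≠ 1 := by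
      intro h
      rw [h, orderOf_one] at hsG
      omega
    have hne : (fixSet (((s : N) : C) : G) : Set (Sylow 3 G)).ncard ≠ 22 := fun h =>
      hs1' (eq_one_of_fix_all 22 hX hfaith _ h)
    have hsd := Set.ncard_sdiff_singleton_add_one (hfixP ((s : N) : C)) (Set.toFinite _)
    omega
  · -- involution in `N`
    have hk16 : k * n = 16 := by
      rw [hC2] at hNC
      have : 21 * (k * n) = 21 * 16 := by rw [← mul_assoc]; omega
      exact Nat.eq_of_mul_eq_mul_left (by norm_num) this
    have h2N : 2 ∣ Nat.card N := by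
      rw [hk]
      have : 2 ∣ k := by
        have hkle : k ≤ 16 := Nat.le_of_dvd (by norm_num) ⟨n, hk16.symm⟩
        interval_cases k <;> omega
      exact Dvd.dvd.mul_left this 21
    obtain ⟨s, hs⟩ := exists_prime_orderOf_dvd_card' 2 h2N
    have hsC : orderOf ((s : N) : C) = 2 := by rw [Subgroup.orderOf_coe, hs]
    have hsG : orderOf (((s : N) : C) : G) = 2 := by rw [Subgroup.orderOf_coe, hsC]
    set sC : C := ((s : N) : C) with hsCdef
    set sG : G := (sC : G) with hsGdef
    have hss : sC * sC = 1 := by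
      have := pow_orderOf_eq_one sC
      rw [hsC, pow_two] at this
      exact this
    have hs1' : sG ≠ 1 := by
      intro h
      rw [h, orderOf_one] at hsG
      omega
    have hf3 : (fixSet sG : Set (Sylow 3 G)).ncard % 3 = 1 % 3 :=
      fix_mod_of_commute P sG (hfixP sC) (hcomm _ sC.2)
    have hf4 := invol_fix_mod hX hfaith hno sG hsG
    have hle22 := fix_le 22 hX sG
    have hne : (fixSet sG : Set (Sylow 3 G)).ncard ≠ 22 := fun h =>
      hs1' (eq_one_of_fix_all 22 hX hfaith _ h)
    have hf10 : (fixSet sG : Set (Sylow 3 G)).ncard = 10 := by omega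
    have hsd : ((fixSet sG : Set (Sylow 3 G)) \ {P}).ncard + 1 = (fixSet sG : Set (Sylow 3 G)).ncard :=
      Set.ncard_sdiff_singleton_add_one (hfixP sC) (Set.toFinite _)
    by_cases hnc : ∀ v ∈ (Z : Subgroup C), sC * v = v * sC
    · have h7d : 7 ∣ ((fixSet sG : Set (Sylow 3 G)) \ {P}).ncard := hcom7 sC hnc
      omega
    · have hinv := inverts_of_not_centralizes (Z : Subgroup C) hZ7 sC hss s.2 hnc
      have htr := translate A ((fixSet sG : Set (Sylow 3 G)) \ {P}) ({P}ᶜ : Set (Sylow 3 G)) (by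
          rintro _ ⟨v, hv, rfl⟩ y ⟨-, hy2⟩ h
          apply hy2
          rw [Set.mem_singleton_iff] at h ⊢
          have h1 := hCP _ (inv_mem v.2)
          have h2 : (v : G) • y = P := h
          rw [← h1, ← h2]
          simp) (by
          rintro _ ⟨v, hv, rfl⟩ y ⟨hy1, hy2⟩ ⟨hu1, -⟩
          have hy1' : sG • y = y := hy1
          have hu1' : sG • (v : G) • y = (v : G) • y := hu1
          have hinvv : sG * (v : G) * sG⁻¹ = (v : G)⁻¹ := by
            have := congrArg Subtype.val (hinv v hv)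
            simpa using this
          have h1 : sG • (v : G) • y = (v : G)⁻¹ • y := by
            have : sG • (v : G) • y = (sG * (v : G) * sG⁻¹) • sG • y := by
              simp only [mul_smul, inv_smul_smul]
            rw [this, hinvv, hy1']
          rw [h1] at hu1'
          have h2 : ((v : G) * (v : G)) • y = y := by
            rw [mul_smul, ← hu1', smul_inv_smul]
          have hvv : v * v = 1 := by
            by_contra hne
            exact fix_seven hX hfaith P _ (v * v).2 (hord _ (mul_mem hv hv) hne) y hy2 h2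
          have hv1 : v = 1 := by
            have hd : orderOf v ∣ 2 := orderOf_dvd_of_pow_eq_one (by rw [pow_two]; exact hvv)
            have hd2 : orderOf v ∣ 7 := by
              have := orderOf_dvd_natCard (⟨v, hv⟩ : (Z : Subgroup C))
              rwa [hZ7, Subgroup.orderOf_mk] at this
            have : orderOf v = 1 := Nat.eq_one_of_dvd_coprimes (by norm_num) hd hd2
            exact orderOf_eq_one_iff.mp this
          rw [hv1]
          rfl)
      have h2 := Set.ncard_add_ncard_compl ({P} : Set (Sylow 3 G))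
      rw [Set.ncard_singleton, hX] at h2
      rw [hAc] at htr
      omega

/-- The final contradiction: an involution acts oddly on twelve Sylow `11`-subgroups. -/
theorem final (hno : ∀ K : Subgroup G, K.Normal → ¬ 3 ∣ K.index → K = ⊤) (Y : Sylow 11 G)
    (hY11 : Nat.card (Y : Subgroup G) = 11)
    (hN22 : Nat.card (Subgroup.normalizer ((Y : Subgroup G) : Set G)) = 22)
    (hCY : Nat.card (Subgroup.centralizer ((Y : Subgroup G) : Set G)) = 11)
    (hn : Nat.card (Sylow 11 G) = 12) : False := by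
  have h2 : 2 ∣ Nat.card (Subgroup.normalizer ((Y : Subgroup G) : Set G)) := by rw [hN22]; norm_num
  obtain ⟨t, ht⟩ := exists_prime_orderOf_dvd_card' 2 h2
  have ht' : orderOf (t : G) = 2 := by rw [Subgroup.orderOf_coe, ht]
  have htt : (t : G) * (t : G) = 1 := by
    have := pow_orderOf_eq_one (t : G)
    rw [ht', pow_two] at this
    exact this
  have hnc : ¬ ∀ u ∈ (Y : Subgroup G), (t : G) * u = u * (t : G) := by
    intro h
    have hmem : (t : G) ∈ Subgroup.centralizer ((Y : Subgroup G) : Set G) :=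
      Subgroup.mem_centralizer_iff.mpr fun u hu => (h u hu).symm
    have h1 := orderOf_dvd_natCard (⟨_, hmem⟩ : Subgroup.centralizer ((Y : Subgroup G) : Set G))
    rw [hCY, Subgroup.orderOf_mk, ht'] at h1
    omega
  have hinv := inverts_of_not_centralizes (Y : Subgroup G) hY11 (t : G) htt t.2 hnc
  set F : Set (Sylow 11 G) := fixSet (t : G) with hF
  have hYF : Y ∈ F := Sylow.smul_eq_iff_mem_normalizer.mpr t.2
  have htr := translate (Y : Subgroup G) (F \ {Y}) ({Y}ᶜ : Set (Sylow 11 G)) (by
      rintro u hu y ⟨-, hy2⟩ h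
      apply hy2
      rw [Set.mem_singleton_iff] at h ⊢
      have h1 := smul_self_of_mem Y (inv_mem hu)
      have h2 : u • y = Y := h
      rw [← h1, ← h2]
      simp) (by
      rintro u hu y ⟨hy1, hy2⟩ ⟨hu1, -⟩
      have hy1' : (t : G) • y = y := hy1
      have hu1' : (t : G) • u • y = u • y := hu1
      have h1 : (t : G) • u • y = u⁻¹ • y := by
        have : (t : G) • u • y = ((t : G) * u * (t : G)⁻¹) • (t : G) • y := by
          simp only [mul_smul, inv_smul_smul]
        rw [this, hinv u hu, hy1']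
      rw [h1] at hu1'
      have h2 : (u * u) • y = y := by
        rw [mul_smul, ← hu1', smul_inv_smul]
      by_contra hu1'
      have hd2 : orderOf u ∣ 11 := by
        have := orderOf_dvd_natCard (⟨u, hu⟩ : (Y : Subgroup G))
        rwa [hY11, Subgroup.orderOf_mk] at this
      have huu : u * u ≠ 1 := by
        intro huu
        have hd : orderOf u ∣ 2 := orderOf_dvd_of_pow_eq_one (by rw [pow_two]; exact huu)
        have : orderOf u = 1 := Nat.eq_one_of_dvd_coprimes (by norm_num) hd hd2
        exact hu1' (orderOf_eq_one_iff.mp this)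
      apply hy2
      rw [Set.mem_singleton_iff]
      apply eq_of_fixed Y y
      intro v hv
      obtain ⟨k, rfl⟩ := Subgroup.mem_zpowers_iff.mp
        (mem_zpowers_of_card_prime _ hY11 (mul_mem hu hu) huu hv)
      have h3 : (u * u) ∈ stabilizer G y := mem_stabilizer_iff.mpr h2
      exact mem_stabilizer_iff.mp (zpow_mem h3 k))
  have h2c := Set.ncard_add_ncard_compl ({Y} : Set (Sylow 11 G))
  rw [Set.ncard_singleton, hn] at h2c
  rw [hY11] at htr
  have hsd := Set.ncard_sdiff_singleton_add_one hYF (Set.toFinite _)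
  have hσ : toPermHom G (Sylow 11 G) (t : G) ≠ 1 := by
    intro h
    have hall : F = Set.univ := by
      ext y
      simp only [Set.mem_univ, iff_true]
      exact congrArg (fun e : Equiv.Perm (Sylow 11 G) => e y) h
    rw [hall, Set.ncard_univ, hn] at hsd
    rw [hall] at htr
    omega
  have h4 := four_dvd_moved_gen hno (t : G) htt hσ
  have hcc := Set.ncard_add_ncard_compl F
  rw [hn] at hcc
  have h4' : 4 ∣ (Fᶜ).ncard := h4
  omega

end phase2

theorem arith_r (r : ℕ) (hr : r ∣ 5040) (h3 : ¬ 3 ∣ r) (h : (6 * r) % 11 = 1) :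
    r = 2 ∨ r = 35 ∨ r = 112 := by
  have hc : Nat.Coprime r (3 ^ 2) :=
    (Nat.Coprime.pow_left 2 ((Nat.Prime.coprime_iff_not_dvd Nat.prime_three).mpr h3)).symm
  have hr' : r ∣ 560 := Nat.Coprime.dvd_of_dvd_mul_left hc (by norm_num; exact hr)
  have hle : r ≤ 560 := Nat.le_of_dvd (by norm_num) hr'
  clear hr hc h3
  interval_cases r <;> omega

theorem core {G : Type u} [Group G] [Finite G] (hX : Nat.card (Sylow 3 G) = 22)
    (hfaith : Function.Injective (toPermHom G (Sylow 3 G)))
    (hno : ∀ K : Subgroup G, K.Normal → ¬ 3 ∣ K.index → K = ⊤) : False := by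
  obtain ⟨P⟩ : Nonempty (Sylow 3 G) := inferInstance
  have hP3 := card_P hX hfaith P
  set C := Subgroup.centralizer ((P : Subgroup G) : Set G) with hC
  set M := Subgroup.normalizer ((P : Subgroup G) : Set G) with hM
  have hCM : C ≤ M := Subgroup.centralizer_le_normalizer _
  have hidx : M.index = 22 := by
    rw [← hX]
    exact (Sylow.card_eq_index_normalizer P).symm
  have hGM : Nat.card M * 22 = Nat.card G := by
    have := Subgroup.card_mul_index M
    rwa [hidx] at this
  have hMC := card_M_dvd hX hfaith P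
  have hCd := card_cent_dvd hX hfaith P
  obtain ⟨e, he⟩ := Subgroup.card_dvd_of_le hCM
  have hCpos : 0 < Nat.card C := Nat.card_pos
  have he2 : e ∣ 2 := by
    rw [← hC, ← hM, he] at hMC
    exact Nat.dvd_of_mul_dvd_mul_left hCpos hMC
  have hPC : (P : Subgroup G) ≤ C := fun a ha => Subgroup.mem_centralizer_iff.mpr fun b hb =>
    commute_of_card_prime (P : Subgroup G) hP3 hb ha
  obtain ⟨r, hr⟩ : 3 ∣ Nat.card C := by
    have h1 := Subgroup.card_dvd_of_le hPC
    rwa [hP3] at h1
  have hrd : r ∣ 5040 := by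
    rw [← hC, hr] at hCd
    exact Nat.dvd_of_mul_dvd_mul_left (by norm_num) hCd
  have hr3 : ¬ 3 ∣ r := by
    intro h
    obtain ⟨k, hk⟩ := h
    have h1 := P.not_dvd_index
    have h2 := Subgroup.card_mul_index (P : Subgroup G)
    rw [hP3] at h2
    have h3 : Nat.card G = Nat.card M * 22 := hGM.symm
    have h4 : 3 ∣ (P : Subgroup G).index := by
      have h5 : 3 * (P : Subgroup G).index = 3 * (3 * (k * e * 22)) := by
        rw [h2, h3, he, hr, hk]
        ring
      have h6 := Nat.eq_of_mul_eq_mul_left (by norm_num) h5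
      exact ⟨_, h6⟩
    exact h1 h4
  have hM11 : ¬ 11 ∣ Nat.card M := by
    intro h
    have h1 := h.trans hMC
    have h2 := h1.trans (Nat.mul_dvd_mul_right hCd 2)
    omega
  have hG11 : 11 ∣ Nat.card G := ⟨Nat.card M * 2, by rw [← hGM]; ring⟩
  have hG121 : ¬ 121 ∣ Nat.card G := by
    intro h
    rw [← hGM] at h
    have h1 : 11 * 11 ∣ Nat.card M * 2 * 11 := by
      have : Nat.card M * 22 = Nat.card M * 2 * 11 := by ring
      rwa [this] at h
    have h2 : 11 ∣ Nat.card M * 2 := Nat.dvd_of_mul_dvd_mul_right (by norm_num) h1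
    have h3 := Nat.Coprime.dvd_of_dvd_mul_right (by norm_num : Nat.Coprime 11 2) h2
    exact hM11 h3
  obtain ⟨Y⟩ : Nonempty (Sylow 11 G) := inferInstance
  obtain ⟨hY11, hYfree, hCY, hN110⟩ := sylow_eleven hX hfaith hno hG11 hG121 Y
  set N := Subgroup.normalizer ((Y : Subgroup G) : Set G) with hNdef
  have hYN : (Y : Subgroup G) ≤ N := Y.le_normalizer
  obtain ⟨d, hd⟩ : 11 ∣ Nat.card N := by
    have h1 := Subgroup.card_dvd_of_le hYN
    rwa [hY11] at h1
  have hd10 : d ∣ 10 := by
    rw [hd] at hN110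
    exact Nat.dvd_of_mul_dvd_mul_left (by norm_num : 0 < 11) (by simpa using hN110)
  have hn11 : N.index = Nat.card (Sylow 11 G) := (Sylow.card_eq_index_normalizer Y).symm
  have hmod : Nat.card (Sylow 11 G) % 11 = 1 := by
    have h3 := card_sylow_modEq_one 11 G
    have h4 : Nat.card (Sylow 11 G) % 11 = 1 % 11 := h3
    omega
  have hGN : Nat.card N * Nat.card (Sylow 11 G) = Nat.card G := by
    have := Subgroup.card_mul_index N
    rwa [hn11] at this
  -- `d ≠ 1`: transfer
  have hd1 : d ≠ 1 := by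
    rintro rfl
    have hNY : N = (Y : Subgroup G) :=
      (Subgroup.eq_of_le_of_card_ge hYN (by rw [hd, mul_one, hY11])).symm
    have hnc : Subgroup.normalizer ((Y : Subgroup G) : Set G) ≤
        Subgroup.centralizer ((Y : Subgroup G) : Set G) := by
      rw [← hNdef, hNY]
      exact fun a ha => Subgroup.mem_centralizer_iff.mpr fun b hb =>
        commute_of_card_prime (Y : Subgroup G) hY11 hb ha
    have hc := MonoidHom.ker_transferSylow_isComplement' Y hnc
    have hK : (MonoidHom.transferSylow Y hnc).ker.index = 11 := by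
      rw [hc.symm.index_eq_card, hY11]
    have := hno _ (MonoidHom.normal_ker _) (by rw [hK]; norm_num)
    rw [this, Subgroup.index_top] at hK
    omega
  -- `e = 2`: transfer
  have he22 : e = 2 := by
    have he' : e = 1 ∨ e = 2 := (Nat.dvd_prime Nat.prime_two).mp he2
    rcases he' with rfl | h
    · exfalso
      have hMC' : M = C := (Subgroup.eq_of_le_of_card_ge hCM (by rw [he, mul_one])).symm
      have hnc : Subgroup.normalizer ((P : Subgroup G) : Set G) ≤
          Subgroup.centralizer ((P : Subgroup G) : Set G) := by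
        rw [← hM, ← hC, hMC']
      have hc := MonoidHom.ker_transferSylow_isComplement' P hnc
      set K := (MonoidHom.transferSylow P hnc).ker with hKdef
      have hKi : K.index = 3 := by
        rw [hc.symm.index_eq_card, hP3]
      haveI hKn : K.Normal := MonoidHom.normal_ker _
      have hK11 : ¬ 11 ∣ K.index := by rw [hKi]; norm_num
      have hcn := card_sylow_normal (p := 11) K hK11
      obtain ⟨Y'⟩ : Nonempty (Sylow 11 K) := inferInstance
      have h1 := Subgroup.card_mul_index (Subgroup.normalizer ((Y' : Subgroup K) : Set K))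
      have hidx' : (Subgroup.normalizer ((Y' : Subgroup K) : Set K)).index = Nat.card (Sylow 11 K) :=
        (Sylow.card_eq_index_normalizer Y').symm
      rw [hidx', hcn] at h1
      have h2 := Subgroup.card_mul_index K
      rw [hKi] at h2
      have h3 : Nat.card N * Nat.card (Sylow 11 G) =
          3 * (Nat.card (Subgroup.normalizer ((Y' : Subgroup K) : Set K)) * Nat.card (Sylow 11 G)) := by
        rw [hGN, h1, ← h2]
        ring
      have hnpos : 0 < Nat.card (Sylow 11 G) := Nat.card_pos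
      have h4 : Nat.card N = 3 * Nat.card (Subgroup.normalizer ((Y' : Subgroup K) : Set K)) := by
        have : Nat.card N * Nat.card (Sylow 11 G) =
            (3 * Nat.card (Subgroup.normalizer ((Y' : Subgroup K) : Set K))) * Nat.card (Sylow 11 G) := by
          rw [h3]; ring
        exact Nat.eq_of_mul_eq_mul_right hnpos this
      have h5 : 3 ∣ Nat.card N := ⟨_, h4⟩
      have h6 := h5.trans hN110
      omega
    · exact h
  subst he22
  have hG : Nat.card G = 132 * r := by
    rw [← hGM, he, hr]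
    ring
  have hdn : d * Nat.card (Sylow 11 G) = 12 * r := by
    have h1 : 11 * (d * Nat.card (Sylow 11 G)) = 11 * (12 * r) := by
      calc 11 * (d * Nat.card (Sylow 11 G)) = Nat.card N * Nat.card (Sylow 11 G) := by rw [hd]; ring
        _ = Nat.card G := hGN
        _ = 11 * (12 * r) := by rw [hG]; ring
    exact Nat.eq_of_mul_eq_mul_left (by norm_num) h1
  have hd' : d = 2 ∨ d = 5 ∨ d = 10 := by
    have h1 : d ≤ 10 := Nat.le_of_dvd (by norm_num) hd10
    interval_cases d <;> omega
  have h25 : ¬ 25 ∣ Nat.card G := by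
    rw [hG]
    intro h
    have h1 := Nat.Coprime.dvd_of_dvd_mul_left (by norm_num : Nat.Coprime 25 132) h
    have h2 := h1.trans hrd
    omega
  generalize hn : Nat.card (Sylow 11 G) = n at hmod hdn hGN
  rcases hd' with rfl | h5 | h5
  · -- `d = 2`
    have hn6 : n = 6 * r := by omega
    rcases arith_r r hrd hr3 (by omega) with rfl | rfl | rfl
    · -- `r = 2`
      exact final hno Y hY11 (by rw [hd]) hCY (by rw [hn, hn6])
    · exact seven_case hX hfaith hno P (Or.inl (by rw [hr]))
    · exact seven_case hX hfaith hno P (Or.inr (by rw [hr]))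
  all_goals
    subst h5
    have h5r : 5 ∣ r := by omega
    have h5C : 5 ∣ Nat.card C := by rw [hr]; exact Dvd.dvd.mul_left h5r 3
    have h5N : 5 ∣ Nat.card N := by rw [hd]; omega
    obtain ⟨g, hg⟩ := exists_prime_orderOf_dvd_card' 5 h5C
    obtain ⟨w, hw⟩ := exists_prime_orderOf_dvd_card' 5 h5N
    exact five_case hX hfaith P Y hY11 hYfree hCY g w g.2 (by rw [Subgroup.orderOf_coe, hg]) w.2
      (by rw [Subgroup.orderOf_coe, hw]) h25

/-- No finite group has exactly 22 Sylow 3-subgroups. -/
theorem result {G : Type*} [Group G] [Finite G] : Nat.card (Sylow 3 G) ≠ 22 :=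
  strong_reduction 22 (fun _ _ _ hX hf hn => core hX hf hn) _ G rfl

end Cfsg.Agent.S4346
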