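import Cfsg.Statements.S4354
import Mathlib
-- import your own Cfsg.Agent.* helpers here

set_option autoImplicit false
open Cfsg

namespace Cfsg.Agent.S4354

open scoped Pointwise

variable {G : Type*} [Group G] [Finite G] {p : ℕ} [Fact p.Prime]

omit [Fact p.Prime] in
theorem relIndex_eq_of_normal (C N : Subgroup G) [N.Normal] :
    C.relIndex (C ⊔ N) = C.relIndex N := by
  have h1 : (C ⊓ N).relIndex N * N.index = (C ⊓ N).index :=
    Subgroup.relIndex_mul_index inf_le_right
  have h2 : (C ⊓ N).relIndex C * C.index = (C ⊓ N).index :=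
    Subgroup.relIndex_mul_index inf_le_left
  have h3 : C.relIndex (C ⊔ N) * (C ⊔ N).index = C.index :=
    Subgroup.relIndex_mul_index le_sup_left
  have h4 : N.relIndex (C ⊔ N) * (C ⊔ N).index = N.index :=
    Subgroup.relIndex_mul_index le_sup_right
  rw [Subgroup.inf_relIndex_right] at h1
  rw [Subgroup.inf_relIndex_left] at h2
  rw [Subgroup.relIndex_sup_right] at h4
  have hne1 : (C ⊔ N).index ≠ 0 := Subgroup.index_ne_zero_of_finite
  have hne2 : N.relIndex C ≠ 0 := by
    intro h0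
    rw [h0, zero_mul] at h2
    exact (Subgroup.index_ne_zero_of_finite (H := C ⊓ N)) h2.symm
  apply Nat.eq_of_mul_eq_mul_right (Nat.pos_of_ne_zero (Nat.mul_ne_zero hne2 hne1))
  calc C.relIndex (C ⊔ N) * (N.relIndex C * (C ⊔ N).index)
      = N.relIndex C * (C.relIndex (C ⊔ N) * (C ⊔ N).index) := by ring
    _ = N.relIndex C * C.index := by rw [h3]
    _ = C.relIndex N * N.index := by rw [h1, h2]
    _ = C.relIndex N * (N.relIndex C * (C ⊔ N).index) := by rw [h4]

omit [Fact p.Prime] in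
theorem relIndex_dvd_index_of_normal (C N : Subgroup G) [N.Normal] :
    C.relIndex N ∣ C.index := by
  rw [← relIndex_eq_of_normal]
  exact Subgroup.relIndex_dvd_index_of_le le_sup_left

omit [Finite G] in
theorem exists_conj_mem (P H C : Subgroup G) (hPg : IsPGroup p P) (hC : ¬ p ∣ C.relIndex H) :
    ∃ h ∈ H, ∀ u ∈ P, u ∈ H → h⁻¹ * u * h ∈ C := by
  have hQ : IsPGroup p (P.subgroupOf H) := hPg.comap_subtype
  have hcard : ¬ p ∣ Nat.card (↥H ⧸ C.subgroupOf H) := by
    have : Nat.card (↥H ⧸ C.subgroupOf H) = C.relIndex H := rfl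
    rwa [this]
  obtain ⟨q, hq⟩ := hQ.nonempty_fixed_point_of_prime_not_dvd_card (↥H ⧸ C.subgroupOf H) hcard
  obtain ⟨h, rfl⟩ := QuotientGroup.mk_surjective q
  refine ⟨h, h.2, fun u hu huH => ?_⟩
  have h1 := hq ⟨⟨u, huH⟩, by simpa [Subgroup.mem_subgroupOf] using hu⟩
  have h2 : (((⟨u, huH⟩ : H) * h : H) : ↥H ⧸ C.subgroupOf H) = (h : ↥H ⧸ C.subgroupOf H) := h1
  rw [QuotientGroup.eq, Subgroup.mem_subgroupOf] at h2
  have h3 := C.inv_mem h2
  simpa [mul_assoc] using h3

omit [Finite G] in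
theorem mem_of_commute_all {P : Sylow p G} {z : G} (hz : ∃ k : ℕ, orderOf z = p ^ k)
    (hc : ∀ u ∈ (P : Subgroup G), u * z = z * u) : z ∈ (P : Subgroup G) := by
  have hH : IsPGroup p (Subgroup.zpowers z) := by
    obtain ⟨k, hk⟩ := hz
    refine IsPGroup.of_card (n := k) ?_
    rw [Nat.card_zpowers, hk]
  have h1 := hH.inf_normalizer_sylow P
  have hzn : z ∈ Subgroup.normalizer (((P : Subgroup G)) : Set G) := by
    rw [Subgroup.mem_normalizer_iff]
    intro h
    constructor
    · intro hh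
      have : z * h * z⁻¹ = h := by rw [← hc h hh]; group
      rw [this]; exact hh
    · intro hh
      have h2 := hc _ hh
      have h3 : h = z * h * z⁻¹ := by
        have : z * h * z⁻¹ * z = z * (z * h * z⁻¹) := h2
        have h4 : z * h = z * (z * h * z⁻¹) := by simpa using this
        exact mul_left_cancel h4
      rw [h3]; exact hh
  exact (h1.le ⟨Subgroup.mem_zpowers z, hzn⟩).2

theorem step1
    (hcl : ∀ x : G, (∃ k : ℕ, orderOf x = p ^ k) → ¬ p ∣ (Subgroup.centralizer ({x} : Set G)).index)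
    (N : Subgroup G) [N.Normal] (hN : ∀ Q : Sylow p N, IsMulCommutative Q) (P : Sylow p G)
    (x : G) (hx : x ∈ (P : Subgroup G)) (a : G) (ha : a ∈ (P : Subgroup G)) (haN : a ∈ N) :
    x * a = a * x := by
  have hk : ∃ k : ℕ, orderOf x = p ^ k := by
    obtain ⟨k, hk⟩ := IsPGroup.iff_orderOf.mp P.isPGroup' ⟨x, hx⟩
    exact ⟨k, by rw [← hk, Subgroup.orderOf_mk]⟩
  have hC := hcl x hk
  obtain ⟨g, -, hg⟩ := exists_conj_mem (p := p) (P : Subgroup G) ⊤
    (Subgroup.centralizer ({x} : Set G)) P.isPGroup' (by rwa [Subgroup.relIndex_top_right])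
  -- the conjugate Sylow subgroup
  let P' : Sylow p G := g⁻¹ • P
  have hP' : ∀ u, u ∈ (P' : Subgroup G) → u * x = x * u := by
    intro u hu
    have hu' : u ∈ MulAut.conj g⁻¹ • (P : Subgroup G) := by
      rw [← Sylow.coe_subgroup_smul]; exact hu
    rw [Subgroup.mem_smul_pointwise_iff_exists] at hu'
    obtain ⟨v, hv, rfl⟩ := hu'
    have h1 := hg v hv trivial
    have h2 := Subgroup.mem_centralizer_iff.mp h1 x rfl
    simpa [MulAut.smul_def, MulAut.conj_apply, mul_assoc] using h2.symm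
  have hxP' : x ∈ (P' : Subgroup G) := mem_of_commute_all hk hP'
  -- subgroups
  let A' : Subgroup G := (P' : Subgroup G) ⊓ N
  let Q' : Subgroup G := A' ⊔ Subgroup.zpowers x
  let Q : Subgroup G := ((P : Subgroup G) ⊓ N) ⊔ Subgroup.zpowers x
  let M : Subgroup G := N ⊔ Subgroup.zpowers x
  have hQP : Q ≤ (P : Subgroup G) := by
    apply sup_le inf_le_left
    rw [Subgroup.zpowers_le]; exact hx
  have hQg : IsPGroup p Q := P.isPGroup'.to_le hQP
  have hQM : Q ≤ M := sup_le_sup_right inf_le_right _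
  -- A' commutative
  have hA'c : ∀ u ∈ A', ∀ v ∈ A', u * v = v * u := by
    intro u hu v hv
    have hpg : IsPGroup p (A'.subgroupOf N) :=
      (P'.isPGroup'.to_le (inf_le_left : A' ≤ (P' : Subgroup G))).comap_subtype
    obtain ⟨T, hT⟩ := hpg.exists_le_sylow
    have := hN T
    have hu' : (⟨u, hu.2⟩ : N) ∈ (T : Subgroup N) := hT (by simpa [Subgroup.mem_subgroupOf] using hu)
    have hv' : (⟨v, hv.2⟩ : N) ∈ (T : Subgroup N) := hT (by simpa [Subgroup.mem_subgroupOf] using hv)
    have h3 := mul_comm' (⟨_, hu'⟩ : (T : Subgroup N)) ⟨_, hv'⟩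
    exact congrArg (fun w : (T : Subgroup N) => ((w : N) : G)) h3
  -- Q' commutative
  have hQ'c : ∀ u ∈ Q', ∀ v ∈ Q', u * v = v * u := by
    have hS : (A' : Set G) ∪ {x} ⊆ Subgroup.centralizer ((A' : Set G) ∪ {x}) := by
      intro u hu
      rw [SetLike.mem_coe, Subgroup.mem_centralizer_iff]
      intro v hv
      rcases hu with hu | rfl <;> rcases hv with hv | rfl
      · exact hA'c v hv u hu
      · exact (hP' u hu.1).symm
      · exact hP' v hv.1
      · rfl
    have hQ1 : Q' ≤ Subgroup.centralizer ((A' : Set G) ∪ {x}) := by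
      apply sup_le
      · intro u hu; exact hS (Or.inl hu)
      · rw [Subgroup.zpowers_le]; exact hS (Or.inr rfl)
    have hQ2 : Q' ≤ Subgroup.centralizer (Q' : Set G) := by
      apply sup_le
      · intro u hu
        rw [Subgroup.mem_centralizer_iff]
        intro v hv
        exact (Subgroup.mem_centralizer_iff.mp (hQ1 hv) u (Or.inl hu)).symm
      · rw [Subgroup.zpowers_le, Subgroup.mem_centralizer_iff]
        intro v hv
        exact (Subgroup.mem_centralizer_iff.mp (hQ1 hv) x (Or.inr rfl)).symm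
    intro u hu v hv
    exact (Subgroup.mem_centralizer_iff.mp (hQ2 hu) v hv).symm
  -- index of Q' in M
  have hrel : ¬ p ∣ Q'.relIndex M := by
    have hsup : Q' ⊔ N = M := by
      apply le_antisymm
      · exact sup_le (sup_le_sup_right inf_le_right _) le_sup_left
      · exact sup_le le_sup_right (le_sup_of_le_left le_sup_right)
    rw [← hsup, relIndex_eq_of_normal]
    intro hdvd
    have h1 : Q'.relIndex N ∣ A'.relIndex N := Subgroup.relIndex_dvd_of_le_left N le_sup_left
    have h2 : A'.relIndex N = (P' : Subgroup G).relIndex N := Subgroup.inf_relIndex_right _ _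
    have h3 : (P' : Subgroup G).relIndex N ∣ (P' : Subgroup G).index :=
      relIndex_dvd_index_of_normal _ _
    exact P'.not_dvd_index (hdvd.trans (h1.trans (h2 ▸ h3)))
  obtain ⟨m, -, hm⟩ := exists_conj_mem (p := p) Q M Q' hQg hrel
  have hxQ : x ∈ Q := (le_sup_right : Subgroup.zpowers x ≤ Q) (Subgroup.mem_zpowers x)
  have haQ : a ∈ Q := (le_sup_left : (P : Subgroup G) ⊓ N ≤ Q) ⟨ha, haN⟩
  have h5 := hQ'c _ (hm x hxQ (hQM hxQ)) _ (hm a haQ (hQM haQ))
  have h6 : m⁻¹ * (x * a) * m = m⁻¹ * (a * x) * m := by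
    simpa [mul_assoc] using h5
  exact mul_left_cancel (mul_right_cancel h6)

theorem step2
    (hcl : ∀ x : G, (∃ k : ℕ, orderOf x = p ^ k) → ¬ p ∣ (Subgroup.centralizer ({x} : Set G)).index)
    (N : Subgroup G) [N.Normal] (hN : ∀ Q : Sylow p N, IsMulCommutative Q)
    (hQ : ∀ Q : Sylow p (G ⧸ N), IsMulCommutative Q) (P : Sylow p G) :
    IsMulCommutative (P : Subgroup G) := by
  let f : G →* G ⧸ N := QuotientGroup.mk' N
  have hf : Function.Surjective f := QuotientGroup.mk'_surjective N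
  have hfc : ∀ u ∈ (P : Subgroup G), ∀ v ∈ (P : Subgroup G), f u * f v = f v * f u := by
    intro u hu v hv
    have := hQ (P.mapSurjective hf)
    have hu' : f u ∈ ((P.mapSurjective hf : Sylow p (G ⧸ N)) : Subgroup (G ⧸ N)) := ⟨u, hu, rfl⟩
    have hv' : f v ∈ ((P.mapSurjective hf : Sylow p (G ⧸ N)) : Subgroup (G ⧸ N)) := ⟨v, hv, rfl⟩
    have h3 := mul_comm' (⟨_, hu'⟩ : ((P.mapSurjective hf : Sylow p (G ⧸ N)) : Subgroup (G ⧸ N))) ⟨_, hv'⟩
    exact congrArg (fun w : ((P.mapSurjective hf : Sylow p (G ⧸ N)) : Subgroup (G ⧸ N)) => (w : G ⧸ N)) h3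
  have key : ∀ x ∈ (P : Subgroup G), ∀ u ∈ (P : Subgroup G), u * x = x * u := by
    intro x hx
    have hk : ∃ k : ℕ, orderOf x = p ^ k := by
      obtain ⟨k, hk⟩ := IsPGroup.iff_orderOf.mp P.isPGroup' ⟨x, hx⟩
      exact ⟨k, by rw [← hk, Subgroup.orderOf_mk]⟩
    let H : Subgroup G := (Subgroup.centralizer ({f x} : Set (G ⧸ N))).comap f
    have hCH : Subgroup.centralizer ({x} : Set G) ≤ H := by
      intro c hc
      rw [Subgroup.mem_comap, Subgroup.mem_centralizer_iff]
      intro y hy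
      rw [Set.mem_singleton_iff] at hy
      subst hy
      have := Subgroup.mem_centralizer_iff.mp hc x rfl
      rw [← map_mul, ← map_mul, this]
    have hrel : ¬ p ∣ (Subgroup.centralizer ({x} : Set G)).relIndex H := fun hd =>
      hcl x hk (hd.trans (Subgroup.relIndex_dvd_index_of_le hCH))
    obtain ⟨h, hH, hh⟩ := exists_conj_mem (p := p) (P : Subgroup G) H _ P.isPGroup' hrel
    have hPH : ∀ u ∈ (P : Subgroup G), u ∈ H := by
      intro u hu
      rw [Subgroup.mem_comap, Subgroup.mem_centralizer_iff]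
      intro y hy
      rw [Set.mem_singleton_iff] at hy
      subst hy
      exact hfc x hx u hu
    let z : G := h * x * h⁻¹
    have hzc : ∀ u ∈ (P : Subgroup G), u * z = z * u := by
      intro u hu
      have h1 := hh u hu (hPH u hu)
      have h2 := Subgroup.mem_centralizer_iff.mp h1 x rfl
      have h3 : h * (x * (h⁻¹ * u * h)) * h⁻¹ = h * ((h⁻¹ * u * h) * x) * h⁻¹ := by rw [h2]
      simp only [z, mul_assoc] at h3 ⊢
      simpa [mul_assoc] using h3.symm
    have hzk : ∃ k : ℕ, orderOf z = p ^ k := by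
      obtain ⟨k, hk⟩ := hk
      refine ⟨k, ?_⟩
      have : z = MulAut.conj h x := rfl
      rw [this, MulEquiv.orderOf_eq, hk]
    have hzP : z ∈ (P : Subgroup G) := mem_of_commute_all hzk hzc
    have hb1 : x⁻¹ * z ∈ (P : Subgroup G) := mul_mem (inv_mem hx) hzP
    have hb2 : x⁻¹ * z ∈ N := by
      have h1 : f (x⁻¹ * z) = 1 := by
        have h2 : f h * f x = f x * f h := by
          have := Subgroup.mem_centralizer_iff.mp (Subgroup.mem_comap.mp hH) (f x) rfl
          exact this.symm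
        simp only [z, map_mul, map_inv]
        rw [h2]
        group
      have h3 : (QuotientGroup.mk (x⁻¹ * z) : G ⧸ N) = 1 := h1
      exact (QuotientGroup.eq_one_iff _).mp h3
    intro u hu
    have h1 := step1 hcl N hN P u hu _ hb1 hb2
    have h2 := hzc u hu
    -- u * (x⁻¹ * z) = (x⁻¹ * z) * u
    have h3 : u * x⁻¹ = x⁻¹ * u := by
      have h4 : u * x⁻¹ * z = x⁻¹ * u * z := by
        calc u * x⁻¹ * z = u * (x⁻¹ * z) := by group
          _ = x⁻¹ * z * u := h1
          _ = x⁻¹ * (z * u) := by group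
          _ = x⁻¹ * (u * z) := by rw [h2]
          _ = x⁻¹ * u * z := by group
      exact mul_right_cancel h4
    have h5 : x * (u * x⁻¹) * x = x * (x⁻¹ * u) * x := by rw [h3]
    simpa [mul_assoc] using h5.symm
  exact ⟨⟨fun a b => Subtype.ext (key b b.2 a a.2)⟩⟩


/-- Let G be a finite group and p a prime such that the Sylow p-subgroups of G are non-abelian while every element of p-power order has conjugacy class size prime to p, and suppose no nontrivial proper normal subgroup N of G has this property and no quotient G/N by such an N has it. Then G is simple. -/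
theorem result {G : Type*} [Group G] [Finite G]
    (p : ℕ) [Fact p.Prime] (h : ((∃ P : Sylow p G, ¬ IsMulCommutative P) ∧ ∀ x : G, (∃ k : ℕ, orderOf x = p ^ k) → ¬ p ∣ (Subgroup.centralizer ({x} : Set G)).index))
    (hmin : ∀ (N : Subgroup G) [N.Normal], N ≠ ⊥ → N ≠ ⊤ →
      ¬ ((∃ P : Sylow p N, ¬ IsMulCommutative P) ∧ ∀ x : N, (∃ k : ℕ, orderOf x = p ^ k) → ¬ p ∣ (Subgroup.centralizer ({x} : Set N)).index) ∧
      ¬ ((∃ P : Sylow p (G ⧸ N), ¬ IsMulCommutative P) ∧ ∀ x : (G ⧸ N), (∃ k : ℕ, orderOf x = p ^ k) → ¬ p ∣ (Subgroup.centralizer ({x} : Set (G ⧸ N))).index)) :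
    IsSimpleGroup G := by
  obtain ⟨⟨P0, hP0⟩, hcl⟩ := h
  have hnt : Nontrivial G := by
    by_contra hnt
    rw [not_nontrivial_iff_subsingleton] at hnt
    exact hP0 ⟨⟨fun a b => Subsingleton.elim _ _⟩⟩
  refine { exists_pair_ne := hnt.exists_pair_ne, eq_bot_or_eq_top_of_normal := ?_ }
  intro N hNn
  by_contra hne
  push Not at hne
  obtain ⟨hNb, hNt⟩ := hne
  obtain ⟨h1, h2⟩ := hmin N hNb hNt
  -- N has abelian Sylow subgroups
  have hN : ∀ Q : Sylow p N, IsMulCommutative Q := by
    intro Q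
    by_contra hQ
    apply h1
    refine ⟨⟨Q, hQ⟩, ?_⟩
    intro x hx hd
    obtain ⟨k, hk⟩ := hx
    have hk' : orderOf (x : G) = p ^ k := by rw [Subgroup.orderOf_coe, hk]
    apply hcl (x : G) ⟨k, hk'⟩
    have he : Subgroup.centralizer ({x} : Set N) =
        (Subgroup.centralizer ({(x : G)} : Set G)).subgroupOf N := by
      ext c
      rw [Subgroup.mem_subgroupOf, Subgroup.mem_centralizer_iff, Subgroup.mem_centralizer_iff]
      simp only [Set.mem_singleton_iff, forall_eq]
      constructor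
      · intro h; exact congrArg Subtype.val h
      · intro h; exact Subtype.ext h
    rw [he] at hd
    exact hd.trans (relIndex_dvd_index_of_normal _ N)
  have hQ : ∀ Q : Sylow p (G ⧸ N), IsMulCommutative Q := by
    intro Q
    by_contra hQ
    apply h2
    refine ⟨⟨Q, hQ⟩, ?_⟩
    intro x hx hd
    obtain ⟨k, hk⟩ := hx
    have hzp : IsPGroup p (Subgroup.zpowers x) := by
      refine IsPGroup.of_card (n := k) ?_
      rw [Nat.card_zpowers, hk]
    obtain ⟨Q1, hQ1⟩ := hzp.exists_le_sylow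
    have hf : Function.Surjective (QuotientGroup.mk' N) := QuotientGroup.mk'_surjective N
    obtain ⟨P1, rfl⟩ := Sylow.mapSurjective_surjective hf p Q1
    have hxm : x ∈ ((P1.mapSurjective hf : Sylow p (G ⧸ N)) : Subgroup (G ⧸ N)) :=
      hQ1 (Subgroup.mem_zpowers x)
    obtain ⟨y, hy, rfl⟩ := hxm
    have hyk : ∃ k : ℕ, orderOf y = p ^ k := by
      obtain ⟨k, hk⟩ := IsPGroup.iff_orderOf.mp P1.isPGroup' ⟨y, hy⟩
      exact ⟨k, by rw [← hk, Subgroup.orderOf_mk]⟩
    apply hcl y hyk
    have hle : (Subgroup.centralizer ({y} : Set G)).map (QuotientGroup.mk' N) ≤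
        Subgroup.centralizer ({QuotientGroup.mk' N y} : Set (G ⧸ N)) := by
      rintro _ ⟨c, hc, rfl⟩
      rw [Subgroup.mem_centralizer_iff]
      intro v hv
      rw [Set.mem_singleton_iff] at hv
      subst hv
      have := Subgroup.mem_centralizer_iff.mp hc y rfl
      rw [← map_mul, ← map_mul, this]
    exact hd.trans ((Subgroup.index_dvd_of_le hle).trans (Subgroup.index_map_dvd _ hf))
  exact hP0 (step2 hcl N hN hQ P0)

end Cfsg.Agent.S4354
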