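import Cfsg.Statements.S4359
import Mathlib
import Cfsg.Agent.Lib.Components.ChainBound
-- import your own Cfsg.Agent.* helpers here

set_option autoImplicit false
open Pointwise
open Cfsg

namespace Cfsg.Agent.S4359

/-- Let P be a subgroup of a finite group G and g an element such that P ∩ g⁻¹Pg is a normal subgroup of prime index p in g⁻¹Pg. Let n ≥ 1 and let K be the subgroup generated by P and its conjugates g⁻ⁱPgⁱ for i ≤ n. Suppose that g normalizes no non-identity normal subgroup of P and that P meets the center of K trivially. Then the order of P is pᵗ for some t with 1 ≤ t ≤ 3n and t ≠ 3n - 1. -/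
theorem result {G : Type*} [Group G] [Finite G]
    (P : Subgroup G) (g : G) (p : ℕ) (hp : p.Prime)
    (hN : ((P ⊓ MulAut.conj g⁻¹ • P).subgroupOf (MulAut.conj g⁻¹ • P)).Normal)
    (hidx : (P ⊓ MulAut.conj g⁻¹ • P).relIndex (MulAut.conj g⁻¹ • P) = p)
    (n : ℕ) (hn : 1 ≤ n) (K : Subgroup G) (hK : K = ⨆ i ∈ Finset.range (n + 1), MulAut.conj (g ^ i)⁻¹ • P)
    (h1 : ∀ Q : Subgroup G, Q ≤ P → (Q.subgroupOf P).Normal → MulAut.conj g • Q = Q → Q = ⊥)
    (h2 : P ⊓ (Subgroup.center K).map K.subtype = ⊥) :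
    ∃ t : ℕ, Nat.card P = p ^ t ∧ 1 ≤ t ∧ t ≤ 3 * n ∧ t ≠ 3 * n - 1 := by
  classical
  open Cfsg.Agent.Lib.Components.ChainBound in
  set σ : MulAut G := MulAut.conj g⁻¹ with hσ
  have hconj : MulAut.conj g = σ⁻¹ := by
    rw [hσ, map_inv, inv_inv]
  have h1' : ∀ Q : Subgroup G, Q ≤ P → (Q.subgroupOf P).Normal → σ • Q = Q → Q = ⊥ := by
    intro Q hQ hQn hs
    apply h1 Q hQ hQn
    rw [hconj, inv_smul_eq_iff, hs]
  have hpow : ∀ i : ℕ, MulAut.conj (g ^ i)⁻¹ • P =
      Cfsg.Agent.Lib.Components.ChainBound.Pz σ P (i : ℤ) := by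
    intro i
    unfold Cfsg.Agent.Lib.Components.ChainBound.Pz
    rw [zpow_natCast, hσ, ← map_pow, inv_pow]
  refine Cfsg.Agent.Lib.Components.ChainBound.chain_bound hp σ P hN hidx h1' n hn ?_
  intro z hz hcomm
  have hzK : z ∈ K := by
    rw [hK]
    have h0 : P ≤ ⨆ i ∈ Finset.range (n + 1), MulAut.conj (g ^ i)⁻¹ • P := by
      refine le_trans ?_ (le_iSup₂ (f := fun i (_ : i ∈ Finset.range (n + 1)) =>
        MulAut.conj (g ^ i)⁻¹ • P) 0 (Finset.mem_range.2 (Nat.succ_pos n)))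
      simp
    exact h0 hz
  have hKc : K ≤ Subgroup.centralizer {z} := by
    rw [hK]
    refine iSup₂_le ?_
    intro i hi x hx
    rw [Subgroup.mem_centralizer_singleton_iff]
    rw [hpow i] at hx
    have := hcomm i (Nat.lt_succ_iff.1 (Finset.mem_range.1 hi)) x hx
    exact this.symm
  have hzc : z ∈ (Subgroup.center K).map K.subtype := by
    refine ⟨⟨z, hzK⟩, ?_, rfl⟩
    rw [SetLike.mem_coe, Subgroup.mem_center_iff]
    rintro ⟨x, hx⟩
    apply Subtype.ext
    have := hKc hx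
    rw [Subgroup.mem_centralizer_singleton_iff] at this
    exact this
  have hz1 : z ∈ P ⊓ (Subgroup.center K).map K.subtype := ⟨hz, hzc⟩
  rw [h2] at hz1
  exact (Subgroup.mem_bot).1 hz1

end Cfsg.Agent.S4359
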