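import Cfsg.Statements.S4365
import Mathlib
import Cfsg.Agent.Lib.PGroup.KInf

set_option autoImplicit false
open Cfsg

namespace Cfsg.Agent.S4365

open scoped commutatorElement

section
variable {P : Type*} [Group P]

/-- The index-one case. -/
theorem mem_center_of_index_one {u : P} (h : (Subgroup.centralizer ({u} : Set P)).index = 1) :
    u ∈ Subgroup.center P := by
  rw [Subgroup.index_eq_one] at h
  rw [Subgroup.mem_center_iff]
  intro g
  have : g ∈ Subgroup.centralizer ({u} : Set P) := by rw [h]; trivial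
  exact Subgroup.mem_centralizer_singleton_iff.1 this

theorem cent_eq_of_le [Finite P] {p a : ℕ}
    (hidx : ∀ u : P, u ∉ Subgroup.center P → (Subgroup.centralizer ({u} : Set P)).index = p ^ a)
    {u v : P} (hu : u ∉ Subgroup.center P) (hv : v ∉ Subgroup.center P)
    (h : Subgroup.centralizer ({u} : Set P) ≤ Subgroup.centralizer ({v} : Set P)) :
    Subgroup.centralizer ({u} : Set P) = Subgroup.centralizer ({v} : Set P) := by
  apply Subgroup.eq_of_le_of_card_ge h
  have h1 := Subgroup.card_mul_index (Subgroup.centralizer ({u} : Set P))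
  have h2 := Subgroup.card_mul_index (Subgroup.centralizer ({v} : Set P))
  rw [hidx u hu] at h1
  rw [hidx v hv] at h2
  have hpos : 0 < p ^ a := by
    rcases Nat.eq_zero_or_pos (p ^ a) with h0 | h0
    · rw [h0, mul_zero] at h1
      have : 0 < Nat.card P := Nat.card_pos
      omega
    · exact h0
  exact (Nat.eq_of_mul_eq_mul_right hpos (h2.trans h1.symm)).le

theorem cent_le_pow (u : P) (k : ℕ) :
    Subgroup.centralizer ({u} : Set P) ≤ Subgroup.centralizer ({u ^ k} : Set P) := by
  intro g hg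
  rw [Subgroup.mem_centralizer_singleton_iff] at hg ⊢
  exact ((show Commute g u from hg).pow_right k)

/-- commutators with a fixed `z` having central commutators. -/
theorem comm_mul_right' {z : P} (hz : ∀ g, ⁅z, g⁆ ∈ Subgroup.center P) (g h : P) :
    ⁅z, g * h⁆ = ⁅z, g⁆ * ⁅z, h⁆ := by
  have e : ⁅z, g * h⁆ = ⁅z, g⁆ * (g * ⁅z, h⁆ * g⁻¹) := by
    simp only [commutatorElement_def]; group
  rw [e, (Subgroup.mem_center_iff.1 (hz h) g)]
  group

theorem comm_pow_right' {z : P} (hz : ∀ g, ⁅z, g⁆ ∈ Subgroup.center P) (g : P) (k : ℕ) :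
    ⁅z, g ^ k⁆ = ⁅z, g⁆ ^ k := by
  induction k with
  | zero => simp
  | succ k ih => rw [pow_succ, comm_mul_right' hz, ih, pow_succ]

theorem comm_pow_left' {z : P} (hz : ∀ g, ⁅z, g⁆ ∈ Subgroup.center P) (g : P) (k : ℕ) :
    ⁅z ^ k, g⁆ = ⁅z, g⁆ ^ k := by
  induction k with
  | zero => simp
  | succ k ih =>
    have e : ⁅z ^ k * z, g⁆ = (z ^ k * ⁅z, g⁆ * (z ^ k)⁻¹) * ⁅z ^ k, g⁆ := by
      simp only [commutatorElement_def]; group
    rw [pow_succ z, e, ih, (Subgroup.mem_center_iff.1 (hz g) (z ^ k)), mul_inv_cancel_right, pow_succ']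

theorem comm_eq_one_iff {z g : P} : ⁅z, g⁆ = 1 ↔ g ∈ Subgroup.centralizer ({z} : Set P) := by
  rw [commutatorElement_eq_one_iff_commute, Subgroup.mem_centralizer_singleton_iff]
  exact ⟨fun h => h.symm.eq, fun h => Commute.symm h⟩

end

/-- Reindexing powers of an element of order dividing `p`. -/
theorem prod_reindex {M : Type*} [CommGroup M] {p : ℕ} (hp : p.Prime) (β : MulAut M)
    (hβ : β ^ p = 1) (i : ℕ) (hi : Nat.Coprime i p) (m : M) :
    ∏ j ∈ Finset.range p, (β ^ (i * j)) m = ∏ j ∈ Finset.range p, (β ^ j) m := by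
  obtain ⟨c, hc⟩ := Nat.exists_mul_mod_eq_one_of_coprime hi hp.one_lt
  apply Finset.prod_nbij (fun j => (i * j) % p)
  · intro j _
    exact Finset.mem_range.2 (Nat.mod_lt _ hp.pos)
  · intro a ha b hb h
    have h1 : i * a ≡ i * b [MOD p] := h
    have h2 : a ≡ b [MOD p] := Nat.ModEq.cancel_left_of_coprime hi.symm h1
    rw [Nat.ModEq, Nat.mod_eq_of_lt (Finset.mem_range.1 ha), Nat.mod_eq_of_lt (Finset.mem_range.1 hb)] at h2
    exact h2
  · intro l hl
    have hl' : l < p := Finset.mem_range.1 hl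
    refine ⟨(c * l) % p, Finset.mem_coe.2 (Finset.mem_range.2 (Nat.mod_lt _ hp.pos)), ?_⟩
    have h3 : i * ((c * l) % p) ≡ l [MOD p] := by
      have h4 : i * ((c * l) % p) ≡ i * (c * l) [MOD p] := (Nat.mod_modEq _ _).mul_left _
      have h5 : i * c ≡ 1 [MOD p] := by
        rw [Nat.ModEq, hc.2, Nat.mod_eq_of_lt hp.one_lt]
      have h6 : (i * c) * l ≡ 1 * l [MOD p] := h5.mul_right _
      rw [one_mul, mul_assoc] at h6
      exact h4.trans h6
    show i * ((c * l) % p) % p = l
    rw [Nat.ModEq, Nat.mod_eq_of_lt hl'] at h3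
    exact h3
  · intro j _
    show (β ^ (i * j)) m = (β ^ ((i * j) % p)) m
    rw [pow_eq_pow_mod (i * j) hβ]

/-- The sum of norms. -/
theorem norm_identity {M : Type*} [CommGroup M] {p : ℕ} (hp : p.Prime) (α β : MulAut M)
    (hc : α * β = β * α) (hβ : β ^ p = 1) (m : M) :
    (∏ j ∈ Finset.range p, ∏ i ∈ Finset.range p, ((α * β ^ j) ^ i) m) *
        ∏ i ∈ Finset.range p, (β ^ i) m =
      m ^ p * ∏ i ∈ Finset.range p, (α ^ i) (∏ l ∈ Finset.range p, (β ^ l) m) := by
  have hcomm : ∀ j, Commute α (β ^ j) := fun j => Commute.pow_right hc j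
  have h1 : ∀ j i, ((α * β ^ j) ^ i) m = (α ^ i) ((β ^ (i * j)) m) := by
    intro j i
    rw [(hcomm j).mul_pow, ← pow_mul, mul_comm j i]
    rfl
  simp only [h1]
  rw [Finset.prod_comm]
  obtain ⟨q, hq⟩ : ∃ q, p = q + 1 := ⟨p - 1, by have := hp.pos; omega⟩
  have h2 : ∏ i ∈ Finset.range p, ∏ j ∈ Finset.range p, (α ^ i) ((β ^ (i * j)) m) =
      m ^ p * ∏ i ∈ Finset.range q, (α ^ (i + 1)) (∏ l ∈ Finset.range p, (β ^ l) m) := by
    conv_lhs => rw [hq, Finset.prod_range_succ']
    rw [← hq, mul_comm]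
    congr 1
    · simp
    · apply Finset.prod_congr rfl
      intro i hi
      rw [← map_prod]
      congr 1
      apply prod_reindex hp β hβ
      have hi' := Finset.mem_range.1 hi
      exact ((Nat.Prime.coprime_iff_not_dvd hp).2 (Nat.not_dvd_of_pos_of_lt (by omega) (by omega))).symm
  have h3 : ∀ W : M, ∏ i ∈ Finset.range p, (α ^ i) W = (∏ i ∈ Finset.range q, (α ^ (i + 1)) W) * W := by
    intro W
    rw [hq, Finset.prod_range_succ']
    simp
  rw [h2, h3, mul_assoc]

theorem final_step {M : Type*} [CommGroup M] {p : ℕ} (hp : p.Prime) (α β : MulAut M)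
    (hc : α * β = β * α) (hβ : β ^ p = 1) (Z : Subgroup M) (hαZ : ∀ z ∈ Z, α z = z)
    (hNβ : ∀ m, ∏ i ∈ Finset.range p, (β ^ i) m ∈ Z)
    (hNαβ : ∀ j, j < p → ∀ m, ∏ i ∈ Finset.range p, ((α * β ^ j) ^ i) m ∈ Z) (m : M) : m ^ p ∈ Z := by
  have h := norm_identity hp α β hc hβ m
  have hW := hNβ m
  set W := ∏ i ∈ Finset.range p, (β ^ i) m with hWdef
  have hfix : ∀ i : ℕ, (α ^ i) W = W := by
    intro i
    induction i with
    | zero => simp
    | succ i ih =>
      rw [pow_succ, MulAut.mul_apply, hαZ W hW, ih]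
  have h2 : ∏ i ∈ Finset.range p, (α ^ i) W = W ^ p := by
    simp [hfix]
  rw [h2] at h
  have h3 : (∏ j ∈ Finset.range p, ∏ i ∈ Finset.range p, ((α * β ^ j) ^ i) m) * W ∈ Z :=
    Z.mul_mem (Z.prod_mem fun j hj => hNαβ j (Finset.mem_range.1 hj) m) hW
  rw [h] at h3
  have h4 := Z.mul_mem h3 (Z.inv_mem (Z.pow_mem hW p))
  simpa using h4

/-- Class sizes `1, p`: directly. -/
theorem main_one {P : Type*} [Group P] [Finite P] {p : ℕ} [Fact p.Prime]
    (hP : IsPGroup p P)
    (hidx : ∀ u : P, u ∉ Subgroup.center P → (Subgroup.centralizer ({u} : Set P)).index = p ^ 1)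
    (x : P) : x ^ p ∈ Subgroup.center P := by
  have hp : p.Prime := Fact.out
  rw [Subgroup.mem_center_iff]
  intro t
  by_cases htx : t * x = x * t
  · exact ((show Commute t x from htx).pow_right p).eq
  have htZ : t ∉ Subgroup.center P := fun h => htx (Subgroup.mem_center_iff.1 h x).symm
  have hc : Nat.card (P ⧸ Subgroup.centralizer ({t} : Set P)) = p := by
    rw [← Subgroup.index_eq_card, hidx t htZ, pow_one]
  have hlt : Nat.card (P ⧸ Subgroup.centralizer ({t} : Set P)) < Nat.card (Fin (p + 1)) := by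
    rw [hc, Nat.card_fin]; omega
  have hninj : ¬ Function.Injective
      (fun i : Fin (p + 1) => ((x ^ (i : ℕ) : P) : P ⧸ Subgroup.centralizer ({t} : Set P))) :=
    fun hinj => absurd (Nat.card_le_card_of_injective _ hinj) (by omega)
  obtain ⟨i, j, hf, hij⟩ := Function.not_injective_iff.1 hninj
  -- WLOG `i < j`
  have key : ∀ i j : ℕ, i < j → j ≤ p →
      ((x ^ i : P) : P ⧸ Subgroup.centralizer ({t} : Set P)) = ((x ^ j : P) : P ⧸ _) →
      t * x ^ p = x ^ p * t := by
    intro i j hij hj hf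
    rw [QuotientGroup.eq] at hf
    have e : (x ^ i)⁻¹ * x ^ j = x ^ (j - i) := by
      rw [inv_mul_eq_iff_eq_mul, ← pow_add]
      congr 1
      omega
    rw [e] at hf
    by_cases hd : j - i = p
    · rw [hd] at hf
      exact (Subgroup.mem_centralizer_singleton_iff.1 hf).symm
    exfalso
    have hd0 : 0 < j - i := by omega
    have hdp : j - i < p := by omega
    obtain ⟨k, hk⟩ := IsPGroup.iff_orderOf.1 hP x
    have hxk : x ^ p ^ k = 1 := by rw [← hk]; exact pow_orderOf_eq_one x
    have hcop : Nat.Coprime (j - i) (p ^ k) :=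
      Nat.Coprime.pow_right _ ((Nat.Prime.coprime_iff_not_dvd hp).2
        (Nat.not_dvd_of_pos_of_lt hd0 hdp)).symm
    have hb := Nat.gcd_eq_gcd_ab (j - i) (p ^ k)
    rw [hcop.gcd_eq_one] at hb
    have hx : x = (x ^ (j - i)) ^ (Nat.gcdA (j - i) (p ^ k)) *
        (x ^ p ^ k) ^ (Nat.gcdB (j - i) (p ^ k)) := by
      rw [← zpow_natCast x (j - i), ← zpow_natCast x (p ^ k), ← zpow_mul, ← zpow_mul, ← zpow_add, ← hb]
      simp
    rw [hxk, one_zpow, mul_one] at hx
    have hxC : x ∈ Subgroup.centralizer ({t} : Set P) := by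
      rw [hx]
      exact Subgroup.zpow_mem _ hf _
    exact htx (Subgroup.mem_centralizer_singleton_iff.1 hxC).symm
  rcases lt_or_gt_of_ne (Fin.val_ne_of_ne hij) with h | h
  · exact key i j h (by omega) hf
  · exact key j i h (by omega) hf.symm

theorem main {P : Type*} [Group P] [Finite P] {p : ℕ} [Fact p.Prime]
    (hP : IsPGroup p P) (a : ℕ) (ha : 1 ≤ a)
    (hidx : ∀ u : P, u ∉ Subgroup.center P → (Subgroup.centralizer ({u} : Set P)).index = p ^ a)
    (x : P) : x ^ p ∈ Subgroup.center P := by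
  have hp : p.Prime := Fact.out
  by_cases ha1 : a = 1
  · subst ha1
    exact main_one hP hidx x
  have ha2 : 2 ≤ a := by omega
  by_contra hxp
  -- basic facts
  have hxZ : x ∉ Subgroup.center P := fun h => hxp (Subgroup.pow_mem _ h p)
  have hCx : Subgroup.centralizer ({x} : Set P) = Subgroup.centralizer ({x ^ p} : Set P) :=
    cent_eq_of_le hidx hxZ hxp (cent_le_pow x p)
  have hnil : Group.IsNilpotent P := hP.isNilpotent
  obtain ⟨z, -, hzZ, hz⟩ := Cfsg.Agent.Lib.PGroup.KInf.exists_commutator_mem_of_nilpotent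
    (Subgroup.center P) ⊤ ⊤ (fun h => hxZ (h trivial))
    (le_top)
  have hz' : ∀ g : P, ⁅z, g⁆ ∈ Subgroup.center P := fun g => hz g trivial
  -- `z ^ p` is central
  have hzp : z ^ p ∈ Subgroup.center P := by
    by_contra hzp
    have hCz := cent_eq_of_le hidx hzZ hzp (cent_le_pow z p)
    have key : ∀ (k : ℕ) (g : P), ⁅z, g⁆ ^ p ^ k = 1 → ⁅z, g⁆ = 1 := by
      intro k
      induction k with
      | zero => intro g h; simpa using h
      | succ k ih =>
        intro g h
        apply ih
        rw [← comm_pow_right' hz']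
        rw [comm_eq_one_iff, hCz, ← comm_eq_one_iff, comm_pow_left' hz', comm_pow_right' hz', ← pow_mul]
        rw [pow_succ] at h
        exact h
    apply hzZ
    rw [Subgroup.mem_center_iff]
    intro g
    obtain ⟨k, hk⟩ := IsPGroup.iff_orderOf.1 hP ⁅z, g⁆
    have h1 : ⁅z, g⁆ ^ p ^ k = 1 := by rw [← hk]; exact pow_orderOf_eq_one _
    have h2 := key k g h1
    rw [comm_eq_one_iff, Subgroup.mem_centralizer_singleton_iff] at h2
    exact h2
  have hcomm_p : ∀ g : P, ⁅z, g⁆ ^ p = 1 := by
    intro g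
    rw [← comm_pow_left' hz']
    rw [commutatorElement_eq_one_iff_commute]
    exact (Subgroup.mem_center_iff.1 hzp g).symm
  -- `z` commutes with `x`
  have hczx : Commute z x := by
    have h1 : ⁅z, x ^ p⁆ = 1 := by rw [comm_pow_right' hz', hcomm_p]
    have h2 : x ^ p ∈ Subgroup.centralizer ({z} : Set P) := comm_eq_one_iff.1 h1
    have h3 : z ∈ Subgroup.centralizer ({x ^ p} : Set P) :=
      Subgroup.mem_centralizer_singleton_iff.2 (Subgroup.mem_centralizer_singleton_iff.1 h2).symm
    rw [← hCx] at h3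
    exact Subgroup.mem_centralizer_singleton_iff.1 h3
  -- the centralizers coincide
  have hK : Subgroup.centralizer ({x} : Set P) = Subgroup.centralizer ({z} : Set P) := by
    have hv : (x * z) ^ p = x ^ p * z ^ p := (hczx.symm).mul_pow p
    have hvp : (x * z) ^ p ∉ Subgroup.center P := by
      intro h
      apply hxp
      have := Subgroup.mul_mem _ h (Subgroup.inv_mem _ hzp)
      rwa [hv, mul_inv_cancel_right] at this
    have hvZ : x * z ∉ Subgroup.center P := fun h => hvp (Subgroup.pow_mem _ h p)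
    have hCv := cent_eq_of_le hidx hvZ hvp (cent_le_pow (x * z) p)
    apply cent_eq_of_le hidx hxZ hzZ
    intro k hk
    have hk1 : k * x = x * k := Subgroup.mem_centralizer_singleton_iff.1 hk
    have hk2 : k * x ^ p = x ^ p * k := ((show Commute k x from hk1).pow_right p).eq
    have hk3 : k * (x * z) ^ p = (x * z) ^ p * k := by
      rw [hv, ← mul_assoc, hk2, mul_assoc, mul_assoc, Subgroup.mem_center_iff.1 hzp k]
    have hk4 : k ∈ Subgroup.centralizer ({x * z} : Set P) := by
      rw [hCv]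
      exact Subgroup.mem_centralizer_singleton_iff.2 hk3
    have hk5 : k * (x * z) = (x * z) * k := Subgroup.mem_centralizer_singleton_iff.1 hk4
    rw [Subgroup.mem_centralizer_singleton_iff]
    have : x * (k * z) = x * (z * k) := by
      calc x * (k * z) = (x * k) * z := by group
        _ = (k * x) * z := by rw [hk1]
        _ = k * (x * z) := by group
        _ = x * z * k := hk5
        _ = x * (z * k) := by group
    exact mul_left_cancel this
  set K := Subgroup.centralizer ({z} : Set P) with hKdef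
  -- `K` is the kernel of a homomorphism to the centre
  let φ : P →* Subgroup.center P := MonoidHom.mk' (fun g => ⟨⁅z, g⁆, hz' g⟩)
    (fun a b => Subtype.ext (comm_mul_right' hz' a b))
  have hKφ : φ.ker = K := by
    ext g
    rw [MonoidHom.mem_ker, hKdef, ← comm_eq_one_iff]
    exact Subtype.ext_iff
  have hKn : K.Normal := by rw [← hKφ]; infer_instance
  have htp : ∀ t : P, t ^ p ∈ K := fun t => comm_eq_one_iff.1 (by rw [comm_pow_right' hz', hcomm_p])
  have hcommK : ∀ u v : P, ⁅u, v⁆ ∈ K := by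
    intro u v
    rw [← hKφ, MonoidHom.mem_ker, map_commutatorElement, commutatorElement_eq_one_iff_commute]
    exact Subtype.ext (Subgroup.mem_center_iff.1 (φ v).2 _)
  have hKi : K.index = p ^ a := hidx z hzZ
  -- the abelian normal subgroup `A = Z(K)`
  set A : Subgroup P := K ⊓ Subgroup.centralizer (K : Set P) with hAdef
  have hCKn : (Subgroup.centralizer (K : Set P)).Normal := inferInstance
  have hAn : A.Normal := Subgroup.normal_inf_normal _ _
  have hxK : x ∈ K := by
    rw [← hK]
    exact Subgroup.mem_centralizer_singleton_iff.2 rfl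
  have hxA : x ∈ A := by
    refine Subgroup.mem_inf.2 ⟨hxK, Subgroup.mem_centralizer_iff.2 fun k hk => ?_⟩
    have hk' : k ∈ K := hk
    rw [← hK] at hk'
    exact Subgroup.mem_centralizer_singleton_iff.1 hk'
  have hAcomm : ∀ u v : ↥A, u * v = v * u := by
    intro u v
    apply Subtype.ext
    exact ((Subgroup.mem_centralizer_iff.1 (Subgroup.mem_inf.1 u.2).2) v (Subgroup.mem_inf.1 v.2).1).symm
  have hsame : ∀ w ∈ A, w ∉ Subgroup.center P → K = Subgroup.centralizer ({w} : Set P) := by
    intro w hw hwZ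
    apply cent_eq_of_le hidx hzZ hwZ
    intro k hk
    rw [Subgroup.mem_centralizer_singleton_iff]
    exact ((Subgroup.mem_centralizer_iff.1 (Subgroup.mem_inf.1 hw).2) k hk)
  let instM : CommGroup ↥A := { (inferInstance : Group ↥A) with mul_comm := hAcomm }
  have hact : ∀ u v : P, u⁻¹ * v ∈ K → MulAut.conjNormal (H := A) u = MulAut.conjNormal (H := A) v := by
    intro u v huv
    ext a
    simp only [MulAut.conjNormal_apply]
    have h1 := (Subgroup.mem_centralizer_iff.1 (Subgroup.mem_inf.1 a.2).2) _ huv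
    have hv : v = u * (u⁻¹ * v) := by group
    rw [hv]
    calc u * (a : P) * u⁻¹ = u * ((a : P) * (u⁻¹ * v)) * (u⁻¹ * v)⁻¹ * u⁻¹ := by group
      _ = u * ((u⁻¹ * v) * (a : P)) * (u⁻¹ * v)⁻¹ * u⁻¹ := by rw [← h1]
      _ = _ := by group
  have hγp : ∀ t : P, (MulAut.conjNormal (H := A) t) ^ p = 1 := by
    intro t
    rw [← map_pow, ← map_one (MulAut.conjNormal (H := A))]
    apply hact
    have := K.inv_mem (htp t)
    simpa using this
  have hZA : ∀ t : P, t ∉ K → ∀ y : ↥A,
      ∏ i ∈ Finset.range p, ((MulAut.conjNormal (H := A) t) ^ i) y ∈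
        (Subgroup.center P).subgroupOf A := by
    intro t ht y
    set γ := MulAut.conjNormal (H := A) t with hγ
    set w := ∏ i ∈ Finset.range p, (γ ^ i) y with hw
    have hfix : γ w = w := by
      rw [hw, map_prod]
      have h1 : ∀ i, γ ((γ ^ i) y) = (γ ^ (i + 1)) y := by
        intro i
        rw [pow_succ', MulAut.mul_apply]
      simp only [h1]
      have h2 := Finset.prod_range_succ (fun i => (γ ^ i) y) p
      have h3 := Finset.prod_range_succ' (fun i => (γ ^ i) y) p
      rw [h2] at h3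
      rw [hγp t] at h3
      simpa using h3.symm
    rw [Subgroup.mem_subgroupOf]
    by_contra hwZ
    have h4 := hsame (w : P) w.2 hwZ
    apply ht
    rw [h4]
    have h5 := congrArg Subtype.val hfix
    rw [hγ, MulAut.conjNormal_apply] at h5
    rw [Subgroup.mem_centralizer_singleton_iff]
    rw [mul_inv_eq_iff_eq_mul] at h5
    exact h5
  -- choice of `g`
  obtain ⟨g, hg⟩ : ∃ g, g ∉ K := by
    by_contra hcon
    push Not at hcon
    apply hzZ
    rw [Subgroup.mem_center_iff]
    intro g
    exact Subgroup.mem_centralizer_singleton_iff.1 (hcon g)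
  -- choice of `h`
  have hcardq : Nat.card (P ⧸ K) = p ^ a := by rw [← Subgroup.index_eq_card, hKi]
  obtain ⟨h, hh⟩ : ∃ h : P, ∀ i : ℕ, i < p → ((g ^ i : P) : P ⧸ K) ≠ (h : P ⧸ K) := by
    by_contra hcon
    push Not at hcon
    have hsurj : Function.Surjective (fun i : Fin p => ((g ^ (i : ℕ) : P) : P ⧸ K)) := by
      intro q
      obtain ⟨h, rfl⟩ := QuotientGroup.mk_surjective q
      obtain ⟨i, hi, hi'⟩ := hcon h
      exact ⟨⟨i, hi⟩, hi'⟩
    have h1 : Nat.card (P ⧸ K) ≤ Nat.card (Fin p) := Nat.card_le_card_of_surjective _ hsurj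
    rw [hcardq, Nat.card_fin] at h1
    have h2 : p ^ 2 ≤ p ^ a := Nat.pow_le_pow_right hp.pos ha2
    have h3 : p < p ^ 2 := by
      rw [pow_two]
      exact lt_mul_of_one_lt_left hp.pos hp.one_lt
    omega
  have hhK : h ∉ K := by
    intro hh2
    apply hh 0 hp.pos
    rw [pow_zero]
    exact ((QuotientGroup.eq_one_iff h).2 hh2).symm
  have hghK : ∀ j, j < p → g * h ^ j ∉ K := by
    intro j hj hmem
    have h1 : (g : P ⧸ K) * (h : P ⧸ K) ^ j = 1 := by
      have := (QuotientGroup.eq_one_iff (g * h ^ j)).2 hmem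
      simpa using this
    have hcomm : Commute (g : P ⧸ K) (h : P ⧸ K) := by
      have h2 : ((g * h : P) : P ⧸ K) = ((h * g : P) : P ⧸ K) := by
        rw [QuotientGroup.eq]
        have e : (g * h)⁻¹ * (h * g) = ⁅h⁻¹, g⁻¹⁆ := by
          simp only [commutatorElement_def]; group
        rw [e]
        exact hcommK _ _
      exact h2
    rcases Nat.eq_zero_or_pos j with hj0 | hj0
    · subst hj0
      apply hg
      have : (g : P ⧸ K) = 1 := by simpa using h1
      exact (QuotientGroup.eq_one_iff g).1 this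
    have hcop : Nat.Coprime j p :=
      ((Nat.Prime.coprime_iff_not_dvd hp).2 (Nat.not_dvd_of_pos_of_lt hj0 hj)).symm
    obtain ⟨m, hm⟩ := Nat.exists_mul_mod_eq_one_of_coprime hcop hp.one_lt
    have hhp : (h : P ⧸ K) ^ p = 1 := by
      have := (QuotientGroup.eq_one_iff (h ^ p)).2 (htp h)
      simpa using this
    have hgp : (g : P ⧸ K) ^ p = 1 := by
      have := (QuotientGroup.eq_one_iff (g ^ p)).2 (htp g)
      simpa using this
    have h2 : (g : P ⧸ K) ^ m * (h : P ⧸ K) = 1 := by
      have h3 := congrArg (· ^ m) h1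
      simp only [one_pow] at h3
      rw [(hcomm.pow_right j).mul_pow, ← pow_mul, pow_eq_pow_mod (j * m) hhp, hm.2, pow_one] at h3
      exact h3
    have h4 : (g : P ⧸ K) ^ m * (g : P ⧸ K) ^ (m * (p - 1)) = 1 := by
      rw [← pow_add]
      have h5 : m + m * (p - 1) = p * m := by
        obtain ⟨q, hq⟩ : ∃ q, p = q + 1 := ⟨p - 1, by have := hp.pos; omega⟩
        subst hq
        simp
        ring
      rw [h5, pow_mul, hgp, one_pow]
    have h6 : (g : P ⧸ K) ^ (m * (p - 1)) = (h : P ⧸ K) :=
      (mul_left_cancel (h4.trans h2.symm))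
    apply hh ((m * (p - 1)) % p) (Nat.mod_lt _ hp.pos)
    rw [QuotientGroup.mk_pow, ← pow_eq_pow_mod _ hgp]
    exact h6
  have hc : MulAut.conjNormal (H := A) g * MulAut.conjNormal (H := A) h =
      MulAut.conjNormal (H := A) h * MulAut.conjNormal (H := A) g := by
    rw [← map_mul, ← map_mul]
    apply hact
    have e : (g * h)⁻¹ * (h * g) = ⁅h⁻¹, g⁻¹⁆ := by
      simp only [commutatorElement_def]; group
    rw [e]
    exact hcommK _ _
  have hαZ : ∀ y ∈ (Subgroup.center P).subgroupOf A, MulAut.conjNormal (H := A) g y = y := by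
    intro y hy
    apply Subtype.ext
    rw [MulAut.conjNormal_apply]
    have hy' : (y : P) ∈ Subgroup.center P := Subgroup.mem_subgroupOf.1 hy
    rw [Subgroup.mem_center_iff.1 hy' g]
    group
  have key := final_step hp (MulAut.conjNormal (H := A) g) (MulAut.conjNormal (H := A) h) hc (hγp h)
    ((Subgroup.center P).subgroupOf A) hαZ (hZA h hhK) (by
      intro j hj m
      have e : MulAut.conjNormal (H := A) g * (MulAut.conjNormal (H := A) h) ^ j =
          MulAut.conjNormal (H := A) (g * h ^ j) := by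
        rw [map_mul, map_pow]
      rw [e]
      exact hZA _ (hghK j hj) m) ⟨x, hxA⟩
  exact hxp (Subgroup.mem_subgroupOf.1 key)

/-- Let P be a finite p-group whose conjugacy class sizes are exactly 1 and pᵃ for some a ≥ 1. Then every element of P has its p-th power in the center of P (P/Z(P) has exponent p). -/
theorem result {P : Type*} [Group P] [Finite P] (p : ℕ) [Fact p.Prime]
    (hP : IsPGroup p P) (a : ℕ) (ha : 1 ≤ a)
    (hcs : {k : ℕ | ∃ x : P, (Subgroup.centralizer ({x} : Set P)).index = k} = {1, p ^ a}) (x : P) :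
    x ^ p ∈ Subgroup.center P := by
  have hidx : ∀ u : P, u ∉ Subgroup.center P → (Subgroup.centralizer ({u} : Set P)).index = p ^ a := by
    intro u hu
    have h1 : (Subgroup.centralizer ({u} : Set P)).index ∈ ({1, p ^ a} : Set ℕ) := by
      rw [← hcs]; exact ⟨u, rfl⟩
    rcases h1 with h1 | h1
    · exact absurd (mem_center_of_index_one h1) hu
    · exact h1
  exact main hP a ha hidx x

end Cfsg.Agent.S4365
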