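import Cfsg.Statements.S4370
import Mathlib
import Cfsg.Agent.Lib.PGroup.CyclicMax2
-- import your own Cfsg.Agent.* helpers here

set_option autoImplicit false
open Cfsg

namespace Cfsg.Agent.S4370

open Subgroup Cfsg.Agent.Lib.PGroup.CyclicMax2
open QuaternionGroup

theorem two_mul_eq_zero {n : ℕ} [NeZero n] {j : ZMod (2 * n)} (h : 2 * j = 0) :
    j = 0 ∨ j = (n : ZMod (2 * n)) := by
  haveI : NeZero (2 * n) := ⟨by have := NeZero.ne n; omega⟩
  have hj : ((j.val : ℕ) : ZMod (2 * n)) = j := ZMod.natCast_zmod_val j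
  have h1 : ((2 * j.val : ℕ) : ZMod (2 * n)) = 0 := by
    push_cast
    rw [hj, h]
  have h2 : 2 * n ∣ 2 * j.val := (ZMod.natCast_eq_zero_iff _ _).mp h1
  have h3 : n ∣ j.val := Nat.dvd_of_mul_dvd_mul_left (by norm_num) h2
  obtain ⟨c, hc⟩ := h3
  have hlt : j.val < 2 * n := ZMod.val_lt j
  have hn : 0 < n := Nat.pos_of_ne_zero (NeZero.ne n)
  have hc2 : c < 2 := by
    rw [hc] at hlt
    by_contra hcon
    have : n * 2 ≤ n * c := Nat.mul_le_mul_left n (by omega)
    omega
  have hc3 : c = 0 ∨ c = 1 := by omega
  rcases hc3 with rfl | rfl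
  · left
    rw [← hj, hc]
    simp
  · right
    rw [← hj, hc]
    simp

theorem centralizer_quaternion_cyclic {n : ℕ} [NeZero n] (q : QuaternionGroup n)
    (hq : q ∉ center (QuaternionGroup n)) :
    IsCyclic (centralizer ({q} : Set (QuaternionGroup n))) := by
  have hn2 : ((2 * n : ℕ) : ZMod (2 * n)) = 0 := ZMod.natCast_self _
  have hn2' : 2 * (n : ZMod (2 * n)) = 0 := by
    have : ((2 * n : ℕ) : ZMod (2 * n)) = 2 * (n : ZMod (2 * n)) := by push_cast; rfl
    rw [← this, hn2]
  rcases q with i | i
  · by_cases hi : 2 * i = 0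
    · exfalso
      apply hq
      rw [Subgroup.mem_center_iff]
      rintro (j | j)
      · simp [add_comm]
      · simp only [xa_mul_a, a_mul_xa, xa.injEq]
        grind
    · apply Subgroup.isCyclic_of_le (H' := zpowers (a 1 : QuaternionGroup n))
      intro g hg
      rw [Subgroup.mem_centralizer_singleton_iff] at hg
      rcases g with j | j
      · have h1 : (a j : QuaternionGroup n) = (a 1) ^ j.val := by
          rw [a_one_pow]
          haveI : NeZero (2 * n) := ⟨by have := NeZero.ne n; omega⟩
          rw [ZMod.natCast_zmod_val]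
        rw [h1]
        exact pow_mem (mem_zpowers _) _
      · exfalso
        apply hi
        simp only [xa_mul_a, a_mul_xa, xa.injEq] at hg
        grind
  · apply Subgroup.isCyclic_of_le (H' := zpowers (xa i : QuaternionGroup n))
    intro g hg
    rw [Subgroup.mem_centralizer_singleton_iff] at hg
    rcases g with j | j
    · have hj : 2 * j = 0 := by
        simp only [xa_mul_a, a_mul_xa, xa.injEq] at hg
        grind
      rcases two_mul_eq_zero hj with rfl | rfl
      · rw [a_zero]
        exact one_mem _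
      · rw [← xa_sq i]
        exact pow_mem (mem_zpowers _) _
    · have hj : 2 * (i - j) = 0 := by
        simp only [xa_mul_xa, a.injEq] at hg
        grind
      rcases two_mul_eq_zero hj with h | h
      · have : j = i := by grind
        rw [this]
        exact mem_zpowers _
      · have h2 : (xa j : QuaternionGroup n) = (xa i)⁻¹ := by
          rw [eq_inv_iff_mul_eq_one, xa_mul_xa, one_def]
          congr 1
          grind
        rw [h2]
        exact inv_mem (mem_zpowers _)

theorem backward {G : Type*} [Group G] [Finite G] {k m : ℕ} (hm : Odd m)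
    (e : G ≃* QuaternionGroup (2 ^ k) × Multiplicative (ZMod m)) (x : G) (hx : x ∉ center G) :
    IsCyclic (centralizer ({x} : Set G)) := by
  haveI : NeZero (2 ^ k) := ⟨by positivity⟩
  haveI : NeZero m := ⟨by rintro rfl; simp at hm⟩
  have hq : (e x).1 ∉ center (QuaternionGroup (2 ^ k)) := by
    intro hc
    apply hx
    rw [Subgroup.mem_center_iff]
    intro g
    apply e.injective
    rw [map_mul, map_mul]
    apply Prod.ext
    · exact (Subgroup.mem_center_iff.mp hc) (e g).1
    · exact mul_comm _ _
  haveI hC := centralizer_quaternion_cyclic _ hq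
  have hcoprime : (Nat.card (centralizer ({(e x).1} : Set (QuaternionGroup (2 ^ k))))).Coprime
      (Nat.card (Multiplicative (ZMod m))) := by
    have h1 : Nat.card (Multiplicative (ZMod m)) = m := by
      rw [Nat.card_congr Multiplicative.toAdd, Nat.card_zmod]
    rw [h1]
    have h2 : Nat.card (centralizer ({(e x).1} : Set (QuaternionGroup (2 ^ k)))) ∣ 2 ^ (k + 2) := by
      have h3 := Subgroup.card_subgroup_dvd_card (centralizer ({(e x).1} : Set (QuaternionGroup (2 ^ k))))
      have h4 : Nat.card (QuaternionGroup (2 ^ k)) = 2 ^ (k + 2) := by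
        rw [Nat.card_eq_fintype_card, QuaternionGroup.card, pow_add]
        ring
      rwa [h4] at h3
    apply Nat.Coprime.coprime_dvd_left h2
    apply Nat.Coprime.pow_left
    exact Nat.coprime_two_left.mpr hm
  haveI : IsCyclic ((centralizer ({(e x).1} : Set (QuaternionGroup (2 ^ k)))) × Multiplicative (ZMod m)) :=
    Group.isCyclic_prod_iff.mpr ⟨hC, inferInstance, hcoprime⟩
  let f : centralizer ({x} : Set G) →* (centralizer ({(e x).1} : Set (QuaternionGroup (2 ^ k)))) × Multiplicative (ZMod m) :=
    { toFun := fun y => (⟨(e y.1).1, by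
          rw [Subgroup.mem_centralizer_singleton_iff]
          have h1 := Subgroup.mem_centralizer_singleton_iff.mp y.2
          have h2 := congrArg (fun w => (e w).1) h1
          simpa using h2⟩, (e y.1).2)
      map_one' := by
        apply Prod.ext
        · apply Subtype.ext; simp
        · simp
      map_mul' := by
        intro y z
        apply Prod.ext
        · apply Subtype.ext; simp
        · simp }
  apply isCyclic_of_injective f
  intro y z hyz
  apply Subtype.ext
  apply e.injective
  apply Prod.ext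
  · have := congrArg (fun w => ((w.1 : centralizer ({(e x).1} : Set (QuaternionGroup (2 ^ k)))) : QuaternionGroup (2 ^ k))) hyz
    exact this
  · have := congrArg Prod.snd hyz
    exact this

theorem eq_top_of_sylow_le {G : Type*} [Group G] [Finite G] (H : Subgroup G)
    (h : ∀ (q : ℕ) (_ : Fact q.Prime) (Q : Sylow q G), (Q : Subgroup G) ≤ H) : H = ⊤ := by
  by_contra hne
  have h1 : H.index ≠ 1 := fun hi => hne (Subgroup.index_eq_one.mp hi)
  obtain ⟨q, hq, hdvd⟩ := Nat.exists_prime_and_dvd h1
  haveI : Fact q.Prime := ⟨hq⟩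
  obtain ⟨Q⟩ : Nonempty (Sylow q G) := inferInstance
  exact Q.not_dvd_index (hdvd.trans (Subgroup.index_dvd_of_le (h q ‹_› Q)))

theorem sylow_commute {G : Type*} [Group G] [Finite G] [Group.IsNilpotent G] {p q : ℕ}
    [Fact p.Prime] [Fact q.Prime] (hpq : p ≠ q) (P : Sylow p G) (Q : Sylow q G) {x y : G}
    (hx : x ∈ P) (hy : y ∈ Q) : Commute x y :=
  commute_of_normal_of_disjoint _ _ inferInstance inferInstance
    (IsPGroup.disjoint_of_ne p q hpq _ _ P.isPGroup' Q.isPGroup') x y hx hy

theorem sylow_eq {G : Type*} [Group G] [Finite G] [Group.IsNilpotent G] {p : ℕ} [Fact p.Prime]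
    (P Q : Sylow p G) : P = Q := by
  haveI := Sylow.unique_of_normal P inferInstance
  exact Subsingleton.elim _ _

theorem central_of_comm {G : Type*} [Group G] [Finite G] [Group.IsNilpotent G] {p : ℕ} [Fact p.Prime]
    (P : Sylow p G) (hP : ∀ x ∈ (P : Subgroup G), ∀ y ∈ (P : Subgroup G), x * y = y * x) :
    (P : Subgroup G) ≤ center G := by
  intro x hx
  have htop : centralizer ({x} : Set G) = ⊤ := by
    apply eq_top_of_sylow_le
    intro q _ Q y hy
    rw [Subgroup.mem_centralizer_singleton_iff]
    by_cases hpq : p = q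
    · subst hpq
      rw [sylow_eq Q P] at hy
      exact hP y hy x hx
    · exact (sylow_commute hpq P Q hx hy).eq.symm
  rw [Subgroup.mem_center_iff]
  intro g
  have : g ∈ centralizer ({x} : Set G) := by rw [htop]; exact mem_top g
  rw [Subgroup.mem_centralizer_singleton_iff] at this
  exact this

theorem exists_nonabelian_sylow {G : Type*} [Group G] [Finite G] [Group.IsNilpotent G]
    (hna : ¬ IsMulCommutative G) :
    ∃ (p : ℕ) (_ : Fact p.Prime) (P : Sylow p G), ∃ x ∈ (P : Subgroup G), ∃ y ∈ (P : Subgroup G),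
      x * y ≠ y * x := by
  by_contra hcon
  push Not at hcon
  apply hna
  have htop : center G = ⊤ := by
    apply eq_top_of_sylow_le
    intro q hq Q
    exact central_of_comm Q (hcon q hq Q)
  refine isMulCommutative_iff.mpr fun a b => ?_
  have : a ∈ center G := by rw [htop]; exact mem_top a
  exact ((Subgroup.mem_center_iff.mp this) b).symm

theorem mem_zpowers_of_cyclic {G : Type*} [Group G] [Finite G] {p : ℕ} [Fact p.Prime] {C : Subgroup G}
    (hC : IsCyclic C) {y z : G} (hy : y ∈ C) (hz : z ∈ C) (hyp : y ^ p = 1) (hzp : z ^ p = 1)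
    (hy1 : y ≠ 1) (hz1 : z ≠ 1) : y ∈ zpowers z := by
  have hU : UniqueP p C := uniqueP_of_isCyclic
  have h1 := hU ⟨y, hy⟩ ⟨z, hz⟩ (Subtype.ext (by simpa using hyp)) (Subtype.ext (by simpa using hzp))
    (fun hc => hy1 (congrArg Subtype.val hc)) (fun hc => hz1 (congrArg Subtype.val hc))
  obtain ⟨i, hi⟩ := h1
  exact ⟨i, by simpa using congrArg Subtype.val hi⟩

theorem comm_of_cyc {G : Type*} [Group G] {C : Subgroup G} (hC : IsCyclic C) {x y : G} (hx : x ∈ C)
    (hy : y ∈ C) : x * y = y * x := by
  obtain ⟨g, hg⟩ := hC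
  obtain ⟨i, hi⟩ := hg ⟨x, hx⟩
  obtain ⟨j, hj⟩ := hg ⟨y, hy⟩
  have hi' : g ^ i = ⟨x, hx⟩ := hi
  have hj' : g ^ j = ⟨y, hy⟩ := hj
  have h1 := ((Commute.refl g).zpow_zpow i j).eq
  rw [hi', hj'] at h1
  exact congrArg Subtype.val h1

theorem forward {G : Type*} [Group G] [Finite G] [Group.IsNilpotent G] (hna : ¬ IsMulCommutative G)
    (hcyc : ∀ x : G, x ∉ center G → IsCyclic (centralizer ({x} : Set G))) :
    ∃ (k m : ℕ), 1 ≤ k ∧ Odd m ∧ Nonempty (G ≃* QuaternionGroup (2 ^ k) × Multiplicative (ZMod m)) := by
  obtain ⟨p, hp, P, a, haP, b, hbP, hab⟩ := exists_nonabelian_sylow hna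
  have hp' := hp.out
  have ha : a ∉ center G := by
    intro hc
    exact hab ((Subgroup.mem_center_iff.mp hc) b).symm
  have hCa := hcyc a ha
  have hcc : center G ≤ centralizer ({a} : Set G) := by
    intro z hz
    rw [Subgroup.mem_centralizer_singleton_iff]
    exact ((Subgroup.mem_center_iff.mp hz) a).symm
  have hZcyc : IsCyclic (center G) := Subgroup.isCyclic_of_le hcc
  -- the other Sylow subgroups are central
  have hother : ∀ (q : ℕ) (_ : Fact q.Prime) (Q : Sylow q G), p ≠ q → (Q : Subgroup G) ≤ center G := by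
    intro q hq Q hpq
    have hle : (Q : Subgroup G) ≤ centralizer ({a} : Set G) := by
      intro y hy
      rw [Subgroup.mem_centralizer_singleton_iff]
      exact (sylow_commute hpq P Q haP hy).eq.symm
    have hQc : IsCyclic (Q : Subgroup G) := Subgroup.isCyclic_of_le hle
    apply central_of_comm
    intro x hx y hy
    exact comm_of_cyc hQc hx hy
  have htop : (P : Subgroup G) ⊔ center G = ⊤ := by
    apply eq_top_of_sylow_le
    intro q hq Q
    by_cases hpq : p = q
    · subst hpq
      rw [sylow_eq Q P]
      exact le_sup_left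
    · exact (hother q hq Q hpq).trans le_sup_right
  -- complement
  obtain ⟨K, hK⟩ := Subgroup.exists_right_complement'_of_coprime (N := (P : Subgroup G)) P.card_coprime_index
  have hKcard : (P : Subgroup G).index = Nat.card K := hK.symm.index_eq_card
  have hcop : (Nat.card (P : Subgroup G)).Coprime (Nat.card K) := by
    rw [← hKcard]
    exact P.card_coprime_index
  have hKc : K ≤ center G := by
    intro y hy
    have hy' : y ∈ ((P : Subgroup G) ⊔ center G : Subgroup G) := by rw [htop]; exact mem_top y
    rw [← SetLike.mem_coe, Subgroup.mul_normal, Set.mem_mul] at hy'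
    obtain ⟨x, hx, z, hz, rfl⟩ := hy'
    have hzcomm : Commute x z := (Subgroup.mem_center_iff.mp hz) x
    have h1 : (x * z) ^ Nat.card K = 1 := by
      calc (x * z) ^ Nat.card K = (((⟨x * z, hy⟩ : K) ^ Nat.card K : K) : G) := rfl
        _ = ((1 : K) : G) := by rw [pow_card_eq_one']
        _ = 1 := rfl
    rw [hzcomm.mul_pow] at h1
    have h2 : x ^ Nat.card K = (z ^ Nat.card K)⁻¹ := eq_inv_of_mul_eq_one_left h1
    have h3 : x ^ Nat.card K ∈ center G := by
      rw [h2]
      exact inv_mem (pow_mem hz _)
    have hcop2 : (Nat.card K).Coprime (orderOf x) := by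
      have hdvd : orderOf x ∣ Nat.card (P : Subgroup G) := by
        have := orderOf_dvd_natCard (⟨x, hx⟩ : (P : Subgroup G))
        rwa [Subgroup.orderOf_mk] at this
      exact (Nat.Coprime.coprime_dvd_left hdvd hcop).symm
    obtain ⟨r, hr⟩ := exists_pow_eq_self_of_coprime hcop2
    have hxc : x ∈ center G := by
      rw [← hr]
      exact pow_mem h3 r
    exact mul_mem hxc hz
  have hKcyc : IsCyclic K := Subgroup.isCyclic_of_le hKc
  -- `UniqueP`
  haveI : Nontrivial (P : Subgroup G) :=
    ⟨⟨⟨a, haP⟩, ⟨1, one_mem _⟩, fun hc => by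
      have h1 : a = 1 := congrArg Subtype.val hc
      rw [h1] at hab
      simp at hab⟩⟩
  have hPp : IsPGroup p (P : Subgroup G) := P.isPGroup'
  obtain ⟨z, hzc, hz⟩ := exists_central_order_p hPp
  have hzp : ((z : G)) ^ p = 1 := by
    have := pow_orderOf_eq_one z
    rw [hz] at this
    simpa using congrArg Subtype.val this
  have hz1 : (z : G) ≠ 1 := by
    intro hc
    have : z = 1 := Subtype.ext hc
    rw [this, orderOf_one] at hz
    exact hp'.one_lt.ne hz
  have hzcomm : ∀ y ∈ (P : Subgroup G), y * (z : G) = (z : G) * y := by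
    intro y hy
    have := (Subgroup.mem_center_iff.mp hzc) ⟨y, hy⟩
    exact congrArg Subtype.val this
  have hkey : ∀ y ∈ (P : Subgroup G), y ^ p = 1 → y ≠ 1 → y ∈ zpowers (z : G) := by
    intro y hy hyp hy1
    by_cases hyc : y ∈ center G
    · have hyC : y ∈ centralizer ({a} : Set G) := hcc hyc
      have hzC : (z : G) ∈ centralizer ({a} : Set G) := by
        rw [Subgroup.mem_centralizer_singleton_iff]
        exact (hzcomm a haP).symm
      exact mem_zpowers_of_cyclic hCa hyC hzC hyp hzp hy1 hz1
    · have hyC : y ∈ centralizer ({y} : Set G) := by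
        rw [Subgroup.mem_centralizer_singleton_iff]
      have hzC : (z : G) ∈ centralizer ({y} : Set G) := by
        rw [Subgroup.mem_centralizer_singleton_iff]
        exact (hzcomm y hy).symm
      exact mem_zpowers_of_cyclic (hcyc y hyc) hyC hzC hyp hzp hy1 hz1
  have hU : UniqueP p (P : Subgroup G) := by
    intro y w hyp hwp hy1 hw1
    have hyp' : (y : G) ^ p = 1 := by simpa using congrArg Subtype.val hyp
    have hwp' : (w : G) ^ p = 1 := by simpa using congrArg Subtype.val hwp
    have hy1' : (y : G) ≠ 1 := fun hc => hy1 (Subtype.ext hc)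
    have hw1' : (w : G) ≠ 1 := fun hc => hw1 (Subtype.ext hc)
    have h1 := hkey y y.2 hyp' hy1'
    have h2 := hkey w w.2 hwp' hw1'
    have h3 := mem_zpowers_of_cyclic (C := zpowers (z : G)) inferInstance h1 h2 hyp' hwp' hy1' hw1'
    obtain ⟨i, hi⟩ := h3
    exact ⟨i, Subtype.ext (by simpa using hi)⟩
  rcases cyclic_or_quaternion hPp hU with hc | ⟨rfl, u, v, n, hSC, hn, hcard, hb, hbu, hb2⟩
  · exfalso
    haveI : IsCyclic (⊤ : Subgroup (P : Subgroup G)) := by
      exact isCyclic_of_surjective (Subgroup.topEquiv (G := (P : Subgroup G))).symm (Subgroup.topEquiv (G := (P : Subgroup G))).symm.surjective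
    have h1 := comm_of_cyc (C := (⊤ : Subgroup (P : Subgroup G))) inferInstance (mem_top (⟨a, haP⟩ : (P : Subgroup G))) (mem_top (⟨b, hbP⟩ : (P : Subgroup G)))
    exact hab (congrArg Subtype.val h1)
  · obtain ⟨eQ⟩ := quaternion_of_data (n := n) (by omega) hSC.hu hcard hb hbu hb2
    refine ⟨n - 1, Nat.card K, by omega, ?_, ?_⟩
    · rw [hcard] at hcop
      have := Nat.Coprime.coprime_dvd_left (dvd_pow_self 2 (by omega : n + 1 ≠ 0)) hcop
      exact Nat.coprime_two_left.mp this
    · let φ : ↥(P : Subgroup G) × ↥K →* G := MonoidHom.noncommCoprod (P : Subgroup G).subtype K.subtype (by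
        intro m n
        exact ((Subgroup.mem_center_iff.mp (hKc n.2)) m.1))
      have hφ : Function.Bijective φ := hK
      exact ⟨((MulEquiv.ofBijective φ hφ).symm).trans
        (MulEquiv.prodCongr eQ (zmodCyclicMulEquiv hKcyc).symm)⟩

/-- Let G be a finite non-abelian nilpotent group. Then the centralizer of every non-central element of G is cyclic if and only if G is isomorphic to the direct product of a generalized quaternion group and a cyclic group of odd order. -/
theorem result {G : Type*} [Group G] [Finite G] (hG : Group.IsNilpotent G)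
    (hna : ¬ IsMulCommutative G) :
    (∀ x : G, x ∉ Subgroup.center G → IsCyclic (Subgroup.centralizer ({x} : Set G))) ↔
      ∃ (k m : ℕ), 1 ≤ k ∧ Odd m ∧ Nonempty (G ≃* QuaternionGroup (2 ^ k) × Multiplicative (ZMod m)) := by
  haveI := hG
  constructor
  · exact forward hna
  · rintro ⟨k, m, _, hm, ⟨e⟩⟩ x hx
    exact backward hm e x hx

end Cfsg.Agent.S4370
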