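import Cfsg.Statements.S4377
import Mathlib
-- import your own Cfsg.Agent.* helpers here

set_option autoImplicit false
open Cfsg

namespace Cfsg.Agent.S4377

lemma card_pow_eq_one_eq_sum {G : Type*} [Group G] [Finite G] (n : ℕ) (hn : 0 < n) :
    Nat.card {g : G // g ^ n = 1} = ∑ d ∈ n.divisors, Nat.card {g : G // orderOf g = d} := by
  classical
  have : Fintype G := Fintype.ofFinite G
  have hmaps : ((Finset.univ.filter (fun g : G => g ^ n = 1) : Finset G) : Set G).MapsTo orderOf
      (n.divisors : Set ℕ) := by
    intro g hg
    have hg' : g ^ n = 1 := by simpa using hg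
    exact Finset.mem_coe.2 (Nat.mem_divisors.2 ⟨orderOf_dvd_of_pow_eq_one hg', hn.ne'⟩)
  have h := Finset.card_eq_sum_card_fiberwise hmaps
  rw [Nat.card_eq_fintype_card, Fintype.card_subtype, h]
  apply Finset.sum_congr rfl
  intro d hd
  rw [Nat.card_eq_fintype_card, Fintype.card_subtype]
  congr 1
  ext g
  simp only [Finset.mem_filter, Finset.mem_univ, true_and]
  constructor
  · exact fun hh => hh.2
  · intro hh
    refine ⟨?_, hh⟩
    rw [← orderOf_dvd_iff_pow_eq_one, hh]
    exact Nat.dvd_of_mem_divisors hd


/-- Two finite groups have the same number of elements of each order if and only if, for every n, they have the same number of elements g with gⁿ = 1. -/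
theorem result {G H : Type*} [Group G] [Finite G] [Group H] [Finite H] :
    (∀ n : ℕ, Nat.card {g : G // orderOf g = n} = Nat.card {h : H // orderOf h = n}) ↔
      ∀ n : ℕ, Nat.card {g : G // g ^ n = 1} = Nat.card {h : H // h ^ n = 1} := by
  classical
  constructor
  · intro h n
    have key : ∀ m : ℕ, 0 < m → Nat.card {g : G // g ^ m = 1} = Nat.card {x : H // x ^ m = 1} := by
      intro m hm
      rw [card_pow_eq_one_eq_sum m hm, card_pow_eq_one_eq_sum m hm]
      exact Finset.sum_congr rfl (fun d _ => h d)
    rcases Nat.eq_zero_or_pos n with rfl | hn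
    · -- n = 0: compare cardinalities
      have hG : Nat.card {g : G // g ^ (Nat.card G * Nat.card H) = 1} = Nat.card G := by
        apply Nat.card_congr
        refine Equiv.subtypeUnivEquiv ?_
        intro g
        rw [pow_mul, pow_card_eq_one', one_pow]
      have hH : Nat.card {x : H // x ^ (Nat.card G * Nat.card H) = 1} = Nat.card H := by
        apply Nat.card_congr
        refine Equiv.subtypeUnivEquiv ?_
        intro g
        rw [mul_comm, pow_mul, pow_card_eq_one', one_pow]
      have hpos : 0 < Nat.card G * Nat.card H := Nat.mul_pos Nat.card_pos Nat.card_pos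
      have hc := key _ hpos
      rw [hG, hH] at hc
      have e1 : Nat.card {g : G // g ^ 0 = 1} = Nat.card G := by
        apply Nat.card_congr
        exact Equiv.subtypeUnivEquiv (fun g => pow_zero g)
      have e2 : Nat.card {x : H // x ^ 0 = 1} = Nat.card H := by
        apply Nat.card_congr
        exact Equiv.subtypeUnivEquiv (fun g => pow_zero g)
      rw [e1, e2, hc]
    · exact key n hn
  · intro h n
    induction n using Nat.strong_induction_on with
    | _ n ih =>
    rcases Nat.eq_zero_or_pos n with rfl | hn
    · have e1 : IsEmpty {g : G // orderOf g = 0} := ⟨fun g => (orderOf_pos g.1).ne' g.2⟩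
      have e2 : IsEmpty {x : H // orderOf x = 0} := ⟨fun g => (orderOf_pos g.1).ne' g.2⟩
      rw [Nat.card_of_isEmpty, Nat.card_of_isEmpty]
    · have h1 := h n
      have hins : n.divisors = insert n n.properDivisors := (Nat.insert_self_properDivisors hn.ne').symm
      rw [card_pow_eq_one_eq_sum n hn, card_pow_eq_one_eq_sum n hn, hins,
        Finset.sum_insert (by simp), Finset.sum_insert (by simp)] at h1
      have h2 : ∑ d ∈ n.properDivisors, Nat.card {g : G // orderOf g = d} =
          ∑ d ∈ n.properDivisors, Nat.card {x : H // orderOf x = d} := by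
        apply Finset.sum_congr rfl
        intro d hd
        exact ih d (Nat.mem_properDivisors.1 hd).2
      omega

end Cfsg.Agent.S4377
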