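import Cfsg.Statements.S4378
import Mathlib
import Cfsg.Agent.Lib.Perm.PLenMax
import Cfsg.Agent.Lib.Solvable.PSeries

set_option autoImplicit false
open Cfsg

namespace Cfsg.Agent.S4378

/-- Let G be a finite solvable group in which every maximal subgroup either has a normal 2-complement or has prime index. Then G has a chain of normal subgroups 1 ≤ A ≤ B ≤ C ≤ G in which A and C/B have odd order and B/A and G/C are 2-groups (so the 2-length of G is at most 2). -/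
theorem result {G : Type*} [Group G] [Finite G]
    (hG : Group.IsSolvable G)
    (hmax : ∀ M : Subgroup G, IsCoatom M → (∃ K : Subgroup ↥M, K.Normal ∧ ¬ 2 ∣ Nat.card K ∧ ∃ k : ℕ, K.index = 2 ^ k) ∨ (M.index).Prime) :
    ∃ A B C : Subgroup G, A.Normal ∧ B.Normal ∧ C.Normal ∧ A ≤ B ∧ B ≤ C ∧ Odd (Nat.card A) ∧
      (∃ k : ℕ, A.relIndex B = 2 ^ k) ∧ Odd (B.relIndex C) ∧ ∃ k : ℕ, C.index = 2 ^ k := by
  haveI : Fact (Nat.Prime 2) := ⟨Nat.prime_two⟩
  haveI := hG
  obtain ⟨A, B, C, D, h1, h2, h3, h4, h5, h6, h7, h8, h9, h10, h11, -, h13⟩ :=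
    Cfsg.Agent.Lib.Perm.PLenMax.chain_main (p := 2) True (fun _ => rfl) _ G rfl
      Cfsg.Agent.Lib.Solvable.PSeries.isPSolvable_of_solvable hmax
  have hD := h13 trivial
  subst hD
  refine ⟨A, B, C, h1, h2, h3, h5, h6, Nat.odd_iff.2 (Nat.two_dvd_ne_zero.1 h8), h9,
    Nat.odd_iff.2 (Nat.two_dvd_ne_zero.1 h10), ?_⟩
  obtain ⟨k, hk⟩ := h11
  exact ⟨k, by rwa [Subgroup.relIndex_top_right] at hk⟩

end Cfsg.Agent.S4378
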