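import Cfsg.Statements.S4381
import Mathlib
import Cfsg.Agent.Lib.Coprime.InvSylow
import Cfsg.Agent.Lib.Coprime.Averaging
import Cfsg.Agent.Lib.PGroup.Basic

set_option autoImplicit false
open Pointwise
open Cfsg

namespace Cfsg.Agent.S4381

variable {A G : Type*} [Group A] [Group G] [MulDistribMulAction A G]

/-- Invariance. -/
def Inv (A : Type*) {G : Type*} [Group A] [Group G] [MulDistribMulAction A G] (L : Subgroup G) : Prop :=
  ∀ a : A, ∀ x ∈ L, a • x ∈ L

/-- Maximal invariance. -/
def MaxInv (A : Type*) {G : Type*} [Group A] [Group G] [MulDistribMulAction A G] (M : Subgroup G) : Prop :=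
  M ≠ ⊤ ∧ (∀ a : A, ∀ x ∈ M, a • x ∈ M) ∧ ∀ L : Subgroup G, M < L → (∀ a : A, ∀ x ∈ L, a • x ∈ L) → L = ⊤

theorem frattini_inv [Finite G] : Inv A (frattini G) := by
  intro a x hx
  have h1 : (frattini G).comap (MulDistribMulAction.toMulAut A G a).toMonoidHom = frattini G :=
    (inferInstance : (frattini G).Characteristic).fixed _
  rw [← h1] at hx
  exact hx

theorem exists_maxInv [Finite G] (L : Subgroup G) (hL : L ≠ ⊤) (hinv : Inv A L) :
    ∃ M, L ≤ M ∧ MaxInv A M := by
  classical
  let s : Set (Subgroup G) := {K | Inv A K ∧ K ≠ ⊤}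
  have hs : s.Finite := Set.toFinite s
  obtain ⟨m, hLm, hm⟩ := hs.exists_le_maximal (a := L) ⟨hinv, hL⟩
  refine ⟨m, hLm, hm.prop.2, hm.prop.1, ?_⟩
  intro K hK hKi
  by_contra hne
  exact absurd (hm.le_of_ge ⟨hKi, hne⟩ hK.le) (not_le_of_gt hK)

/-- Invariant Sylow subgroups. -/
theorem exists_sylow_inv [Finite A] [Finite G] (hcop : (Nat.card A).Coprime (Nat.card G))
    (hsol : Group.IsSolvable A ∨ Group.IsSolvable G) (q : ℕ) [Fact q.Prime] :
    ∃ S : Subgroup G, IsPGroup q S ∧ ¬ q ∣ S.index ∧ Inv A S := by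
  classical
  let φ : A →* MulAut G := MulDistribMulAction.toMulAut A G
  let H := G ⋊[φ] A
  haveI : Finite H := Finite.of_equiv (G × A) SemidirectProduct.equivProd.symm
  let K : Subgroup H := (SemidirectProduct.inl : G →* H).range
  let A' : Subgroup H := (SemidirectProduct.inr : A →* H).range
  have hKn : K.Normal := by
    have : K = (SemidirectProduct.rightHom : H →* A).ker := SemidirectProduct.range_inl_eq_ker_rightHom
    rw [this]
    infer_instance
  have hA'K : A' ≤ Subgroup.normalizer (K : Set H) := by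
    have : Subgroup.normalizer (K : Set H) = ⊤ := Subgroup.normalizer_eq_top K
    rw [this]
    exact le_top
  have hinl : Function.Injective (SemidirectProduct.inl : G →* H) := SemidirectProduct.inl_injective
  have hinr : Function.Injective (SemidirectProduct.inr : A →* H) := SemidirectProduct.inr_injective
  let eK := MonoidHom.ofInjective hinl
  let eA := MonoidHom.ofInjective hinr
  have cK : Nat.card K = Nat.card G := (Nat.card_congr eK.toEquiv).symm
  have cA : Nat.card A' = Nat.card A := (Nat.card_congr eA.toEquiv).symm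
  have hsolv : Group.IsSolvable A' ∨ Group.IsSolvable K := by
    rcases hsol with h | h
    · left
      exact Group.isSolvable_of_surjective (f := eA.toMonoidHom) eA.surjective
    · right
      exact Group.isSolvable_of_surjective (f := eK.toMonoidHom) eK.surjective
  obtain ⟨P, hP⟩ := Cfsg.Agent.Lib.Coprime.InvSylow.exists_invariant_sylow hA'K (by rw [cK, cA]; exact hcop)
    hsolv q
  let S : Subgroup G := (P : Subgroup K).comap eK.toMonoidHom
  have hSp : IsPGroup q S := P.2.comap_of_injective _ eK.injective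
  have hSi : S.index = (P : Subgroup K).index := Subgroup.index_comap_of_surjective _ eK.surjective
  refine ⟨S, hSp, by rw [hSi]; exact P.not_dvd_index, ?_⟩
  intro a x hx
  have hxP : eK x ∈ (P : Subgroup K) := hx
  have h1 : ((eK x : K) : H) ∈ (P : Subgroup K).map K.subtype := ⟨eK x, hxP, rfl⟩
  have h2 := (Subgroup.mem_normalizer_iff.mp (hP (⟨_, rfl⟩ : (SemidirectProduct.inr a : H) ∈ A'))
    _).mp h1
  obtain ⟨w, hw, hw'⟩ := h2
  have h3 : ((eK (a • x) : K) : H) = ((w : K) : H) := by
    have hw'' : ((w : K) : H) = (SemidirectProduct.inr a : H) * ((eK x : K) : H) * (SemidirectProduct.inr a : H)⁻¹ := hw'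
    rw [hw'']
    show (SemidirectProduct.inl (a • x) : H) = SemidirectProduct.inr a * SemidirectProduct.inl x * (SemidirectProduct.inr a)⁻¹
    rw [← map_inv]
    exact SemidirectProduct.inl_aut a x
  have h4 : eK (a • x) = w := Subtype.ext h3
  show eK (a • x) ∈ (P : Subgroup K)
  rw [h4]
  exact hw

theorem card_conj_smul [Finite G] (c : G) (M : Subgroup G) : Nat.card ↥(MulAut.conj c • M) = Nat.card M := by
  have h1 : (MulAut.conj c • M) = M.map (MulAut.conj c).toMonoidHom := rfl
  rw [h1, Subgroup.card_map_of_injective (MulAut.conj c).injective]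

theorem conj_smul_normal (c : G) (M : Subgroup G) [M.Normal] : MulAut.conj c • M = M := by
  ext x
  rw [Subgroup.mem_pointwise_smul_iff_inv_smul_mem]
  constructor
  · intro h
    have h1 : c⁻¹ * x * c ∈ M := by
      simpa [MulAut.smul_def, MulAut.conj_inv_apply] using h
    have h2 := (inferInstance : M.Normal).conj_mem _ h1 c
    simpa [mul_assoc] using h2
  · intro h
    have h2 := (inferInstance : M.Normal).conj_mem _ h c⁻¹
    simpa [MulAut.smul_def, MulAut.conj_inv_apply] using h2

/-- Conjugacy of maximal invariant subgroups forces a prime power order. -/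
theorem isPGroup_of_conj [Finite A] [Finite G] (hcop : (Nat.card A).Coprime (Nat.card G))
    (hsol : Group.IsSolvable A ∨ Group.IsSolvable G)
    (h : ∀ M N : Subgroup G, MaxInv A M → MaxInv A N →
        ∃ c : G, (∀ a : A, a • c = c) ∧ N = MulAut.conj c • M) :
    ∃ p : ℕ, p.Prime ∧ IsPGroup p G := by
  classical
  by_contra hno
  push Not at hno
  haveI : Fact (Nat.Prime 2) := ⟨Nat.prime_two⟩
  have hne : ∀ (q : ℕ) [Fact q.Prime], ∃ S : Subgroup G, ¬ q ∣ S.index ∧ ∃ M, S ≤ M ∧ MaxInv A M := by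
    intro q hq
    obtain ⟨S, hSp, hSi, hSinv⟩ := exists_sylow_inv (A := A) hcop hsol q
    have hS : S ≠ ⊤ := by
      intro h
      subst h
      apply hno q hq.out
      exact (IsPGroup.of_equiv hSp Subgroup.topEquiv)
    obtain ⟨M, hSM, hM⟩ := exists_maxInv S hS hSinv
    exact ⟨S, hSi, M, hSM, hM⟩
  obtain ⟨-, -, M₀, -, hM₀⟩ := hne 2
  have hidx : M₀.index = 1 := by
    by_contra hi
    let q := Nat.minFac M₀.index
    haveI : Fact q.Prime := ⟨Nat.minFac_prime hi⟩
    obtain ⟨S, hSi, M, hSM, hM⟩ := hne q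
    obtain ⟨c, -, hc⟩ := h M₀ M hM₀ hM
    have h1 : M.index = M₀.index := by
      have h2 := M.card_mul_index
      have h3 := M₀.card_mul_index
      have h4 : Nat.card M = Nat.card M₀ := by rw [hc]; exact card_conj_smul c M₀
      rw [h4, ← h3] at h2
      exact Nat.eq_of_mul_eq_mul_left Nat.card_pos h2
    have h5 : M.index ∣ S.index := Subgroup.index_dvd_of_le hSM
    apply hSi
    exact (by rw [h1] at h5; exact (Nat.minFac_dvd _).trans h5 : q ∣ S.index)
  exact hM₀.1 (Subgroup.index_eq_one.mp hidx)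

/-- A complement in a group of exponent `p`. -/
theorem exists_complement {V : Type*} [CommGroup V] [Finite V] {p : ℕ} [hp : Fact p.Prime]
    (hV : ∀ v : V, v ^ p = 1) (U : Subgroup V) : ∃ W : Subgroup V, U ⊓ W = ⊥ ∧ U ⊔ W = ⊤ := by
  classical
  let s : Set (Subgroup V) := {K | U ⊓ K = ⊥}
  have hs : s.Finite := Set.toFinite s
  obtain ⟨W, -, hW⟩ := hs.exists_le_maximal (a := ⊥) (by simp [s])
  refine ⟨W, hW.prop, ?_⟩
  rw [eq_top_iff]
  intro x _
  by_contra hx
  have hxW : x ∉ W := fun h => hx ((le_sup_right : W ≤ U ⊔ W) h)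
  have hbig : W < W ⊔ Subgroup.zpowers x := by
    refine lt_of_le_of_ne le_sup_left ?_
    intro h
    apply hxW
    rw [h]
    exact (le_sup_right : Subgroup.zpowers x ≤ _) (Subgroup.mem_zpowers x)
  have hnot : U ⊓ (W ⊔ Subgroup.zpowers x) ≠ ⊥ := by
    intro h
    exact absurd (hW.le_of_ge h hbig.le) (not_le_of_gt hbig)
  obtain ⟨⟨u, hu⟩, hu1'⟩ := Subgroup.ne_bot_iff_exists_ne_one.mp hnot
  have hu1 : u ≠ 1 := fun h => hu1' (Subtype.ext h)
  obtain ⟨huU, huW⟩ := Subgroup.mem_inf.mp hu
  obtain ⟨w, hw, z, hz, hwz⟩ := Subgroup.mem_sup.mp huW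
  obtain ⟨k, rfl⟩ := Subgroup.mem_zpowers_iff.mp hz
  have hxo : orderOf x = p ∨ x = 1 := by
    by_cases h1 : x = 1
    · exact Or.inr h1
    · exact Or.inl (orderOf_eq_prime (hV x) h1)
  have hx1 : x ≠ 1 := fun h => hxW (h ▸ W.one_mem)
  have hxo' : orderOf x = p := hxo.resolve_right hx1
  by_cases hk : (p : ℤ) ∣ k
  · apply hu1
    have h0 : x ^ k = 1 := by
      rw [← orderOf_dvd_iff_zpow_eq_one, hxo']
      exact hk
    rw [h0, mul_one] at hwz
    have : u ∈ U ⊓ W := ⟨huU, hwz ▸ hw⟩
    rw [hW.prop] at this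
    exact this
  · apply hx
    have hco : IsCoprime (k) (p : ℤ) := by
      have : Nat.Coprime k.natAbs p := by
        apply Nat.Coprime.symm
        rw [Nat.Prime.coprime_iff_not_dvd hp.out]
        rwa [← Int.natCast_dvd]
      exact Int.isCoprime_iff_gcd_eq_one.mpr (by rwa [Int.gcd, Int.natAbs_natCast])
    obtain ⟨a, b, hab⟩ := hco
    have h1 : x = (x ^ k) ^ a := by
      have h2 : x ^ (a * k + b * (p : ℤ)) = x := by rw [hab, zpow_one]
      rw [zpow_add, zpow_mul x b] at h2
      simp only [zpow_natCast, hV (x ^ b), mul_one] at h2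
      rw [← zpow_mul, mul_comm k a]
      exact h2.symm
    have h3 : x ^ k = w⁻¹ * u := by
      rw [← hwz]
      group
    rw [h1, h3]
    apply zpow_mem
    rw [mul_comm]
    exact Subgroup.mul_mem_sup huU (inv_mem hw)

/-- The irreducibility part. -/
theorem irred_of_conj [Finite A] [Finite G] (hcop : (Nat.card A).Coprime (Nat.card G))
    {p : ℕ} [hp : Fact p.Prime] (hG : IsPGroup p G)
    (h : ∀ M N : Subgroup G, MaxInv A M → MaxInv A N →
        ∃ c : G, (∀ a : A, a • c = c) ∧ N = MulAut.conj c • M)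
    (L : Subgroup G) (hL : frattini G < L) (hLinv : Inv A L) : L = ⊤ := by
  classical
  by_contra hne
  obtain ⟨M, hLM, hM⟩ := exists_maxInv L hne hLinv
  have hΦM : frattini G ≤ M := hL.le.trans hLM
  have hΦM' : frattini G < M := lt_of_lt_of_le hL hLM
  have hcomm : ∀ a b : G, a * b * a⁻¹ * b⁻¹ ∈ frattini G := by
    intro a b
    have := Cfsg.Agent.Lib.PGroup.Basic.commutatorElement_mem_frattini hG a b
    rwa [commutatorElement_def] at this
  haveI hMn : M.Normal := by
    refine ⟨fun n hn g => ?_⟩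
    have h1 := hΦM (hcomm g n)
    have h2 : g * n * g⁻¹ = (g * n * g⁻¹ * n⁻¹) * n := by group
    rw [h2]
    exact mul_mem h1 hn
  -- the quotient module
  have hVcomm : ∀ a b : G ⧸ frattini G, a * b = b * a := by
    intro a b
    obtain ⟨a, rfl⟩ := QuotientGroup.mk_surjective a
    obtain ⟨b, rfl⟩ := QuotientGroup.mk_surjective b
    rw [← QuotientGroup.mk_mul, ← QuotientGroup.mk_mul, QuotientGroup.eq]
    have := hcomm b a
    have h2 : (a * b)⁻¹ * (b * a) = b⁻¹ * a⁻¹ * b⁻¹⁻¹ * a⁻¹⁻¹ := by group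
    rw [h2]
    exact hcomm b⁻¹ a⁻¹
  letI : CommGroup (G ⧸ frattini G) := { (inferInstance : Group (G ⧸ frattini G)) with mul_comm := hVcomm }
  have hchar : ∀ a : A, (frattini G).comap (MulDistribMulAction.toMulAut A G a).toMonoidHom = frattini G :=
    fun a => (inferInstance : (frattini G).Characteristic).fixed _
  have hle : ∀ a : A, frattini G ≤ (frattini G).comap (MulDistribMulAction.toMulAut A G a).toMonoidHom :=
    fun a => (hchar a).ge
  have hle' : ∀ a : A, (frattini G).map (MulDistribMulAction.toMulAut A G a).toMonoidHom = frattini G := by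
    intro a
    apply le_antisymm
    · rintro _ ⟨x, hx, rfl⟩
      exact frattini_inv a x hx
    · intro x hx
      refine ⟨a⁻¹ • x, frattini_inv a⁻¹ x hx, ?_⟩
      show a • (a⁻¹ • x) = x
      simp
  let φ : A →* MulAut (G ⧸ frattini G) :=
    { toFun := fun a => QuotientGroup.congr (frattini G) (frattini G)
        (MulDistribMulAction.toMulAut A G a) (hle' a)
      map_one' := by
        ext x
        obtain ⟨x, rfl⟩ := QuotientGroup.mk_surjective x
        simp
      map_mul' := by
        intro a b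
        ext x
        obtain ⟨x, rfl⟩ := QuotientGroup.mk_surjective x
        simp [mul_smul] }
  have hφ : ∀ (a : A) (x : G), φ a (x : G ⧸ frattini G) = ((a • x : G) : G ⧸ frattini G) := fun a x => rfl
  let U : Subgroup (G ⧸ frattini G) := M.map (QuotientGroup.mk' (frattini G))
  have hUmem : ∀ x : G, (x : G ⧸ frattini G) ∈ U ↔ x ∈ M := by
    intro x
    constructor
    · rintro ⟨y, hy, hyx⟩
      have h1 : y⁻¹ * x ∈ frattini G := QuotientGroup.eq.mp hyx
      have : x = y * (y⁻¹ * x) := by group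
      rw [this]
      exact mul_mem hy (hΦM h1)
    · intro hx
      exact ⟨x, hx, rfl⟩
  have hVp : ∀ v : G ⧸ frattini G, v ^ p = 1 := by
    intro v
    obtain ⟨v, rfl⟩ := QuotientGroup.mk_surjective v
    rw [← QuotientGroup.mk_pow]
    exact (QuotientGroup.eq_one_iff _).mpr (Cfsg.Agent.Lib.PGroup.Basic.pow_mem_frattini hG v)
  obtain ⟨W, hW1, hW2⟩ := exists_complement hVp U
  letI : Fintype A := Fintype.ofFinite A
  have hcV : (Fintype.card A).Coprime (Nat.card (G ⧸ frattini G)) := by
    rw [← Nat.card_eq_fintype_card]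
    apply Nat.Coprime.coprime_dvd_right _ hcop
    rw [← Subgroup.index_eq_card]
    exact (frattini G).index_dvd_card
  obtain ⟨W', hW'1, hW'2, hW'3⟩ := Cfsg.Agent.Lib.Coprime.Averaging.exists_invariant_complement φ hcV U W hW1 hW2 (by
    intro a u hu
    obtain ⟨x, rfl⟩ := QuotientGroup.mk_surjective u
    rw [hUmem] at hu
    rw [hφ, hUmem]
    exact hM.2.1 a x hu)
  let C : Subgroup G := W'.comap (QuotientGroup.mk' (frattini G))
  have hCm : ∀ x : G, x ∈ C ↔ (x : G ⧸ frattini G) ∈ W' := fun x => Iff.rfl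
  have hCinv : Inv A C := by
    intro a x hx
    rw [hCm] at hx ⊢
    rw [← hφ]
    exact hW'1 a _ hx
  have hUne : U ≠ ⊥ := by
    intro hU
    obtain ⟨x, hxM, hxΦ⟩ := SetLike.exists_of_lt hΦM'
    have h1 : (x : G ⧸ frattini G) ∈ U := (hUmem x).mpr hxM
    rw [hU] at h1
    exact hxΦ ((QuotientGroup.eq_one_iff x).mp (Subgroup.mem_bot.mp h1))
  have hCne : C ≠ ⊤ := by
    intro hC
    have hW't : W' = ⊤ := by
      rw [eq_top_iff]
      intro v _
      obtain ⟨v, rfl⟩ := QuotientGroup.mk_surjective v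
      exact (hCm v).mp (hC ▸ Subgroup.mem_top v)
    rw [hW't, inf_top_eq] at hW'2
    exact hUne hW'2
  obtain ⟨N, hCN, hN⟩ := exists_maxInv C hCne hCinv
  obtain ⟨c, -, hc⟩ := h M N hM hN
  rw [conj_smul_normal] at hc
  subst hc
  have hW'U : W' ≤ U := by
    intro v hv
    obtain ⟨v, rfl⟩ := QuotientGroup.mk_surjective v
    exact (hUmem v).mpr (hCN ((hCm v).mpr hv))
  rw [sup_eq_left.mpr hW'U] at hW'3
  apply hN.1
  rw [eq_top_iff]
  intro x _
  exact (hUmem x).mp (hW'3 ▸ Subgroup.mem_top _)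

/-- The unique maximal invariant subgroup. -/
theorem maxInv_iff [Finite G] (hirr : ∀ L : Subgroup G, frattini G < L → Inv A L → L = ⊤)
    (M : Subgroup G) : MaxInv A M ↔ (M = frattini G ∧ M ≠ ⊤) := by
  constructor
  · intro hM
    have hsup : M ⊔ frattini G ≠ ⊤ := by
      intro h
      exact hM.1 (frattini_nongenerating h)
    have hinv : Inv A (M ⊔ frattini G) := by
      intro a x hx
      have h1 : M ⊔ frattini G ≤ (M ⊔ frattini G).comap (MulDistribMulAction.toMulAut A G a).toMonoidHom := by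
        refine sup_le ?_ ?_
        · intro y hy
          exact (le_sup_left : M ≤ M ⊔ frattini G) (hM.2.1 a y hy)
        · intro y hy
          exact (le_sup_right : frattini G ≤ M ⊔ frattini G) (frattini_inv a y hy)
      exact h1 hx
    have hle : M ≤ frattini G := by
      by_contra hnot
      have hlt : frattini G < M ⊔ frattini G := by
        refine lt_of_le_of_ne le_sup_right ?_
        intro h
        apply hnot
        rw [h]
        exact le_sup_left
      exact hsup (hirr _ hlt hinv)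
    have hΦ : frattini G ≠ ⊤ := by
      intro h
      apply hsup
      rw [h]
      exact le_antisymm le_top le_sup_right
    refine ⟨?_, hM.1⟩
    by_contra hne
    have hlt : M < frattini G := lt_of_le_of_ne hle hne
    exact hΦ (hM.2.2 _ hlt frattini_inv)
  · rintro ⟨rfl, hne⟩
    exact ⟨hne, frattini_inv, fun L hL hi => hirr L hL hi⟩


/-- Let the finite group A act by automorphisms on the finite group G with the orders of A and G coprime, and assume that A or G is solvable. Call a proper A-invariant subgroup of G maximal A-invariant when no A-invariant subgroup lies strictly between it and G. Then all maximal A-invariant subgroups of G are conjugate under elements of the fixed-point subgroup C_G(A) if and only if G is a p-group for some prime p and A leaves invariant no subgroup strictly between the Frattini subgroup of G and G. In that case, if G is nontrivial, the Frattini subgroup is the only maximal A-invariant subgroup (a trivial G has none). -/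
theorem result {A G : Type*} [Group A] [Finite A]
    [Group G] [Finite G] [MulDistribMulAction A G] (hcop : (Nat.card A).Coprime (Nat.card G)) (hsol : Group.IsSolvable A ∨ Group.IsSolvable G) :
    ((∀ M N : Subgroup G, (M ≠ ⊤ ∧ (∀ a : A, ∀ x ∈ M, a • x ∈ M) ∧ ∀ L : Subgroup G, M < L → (∀ a : A, ∀ x ∈ L, a • x ∈ L) → L = ⊤) → (N ≠ ⊤ ∧ (∀ a : A, ∀ x ∈ N, a • x ∈ N) ∧ ∀ L : Subgroup G, N < L → (∀ a : A, ∀ x ∈ L, a • x ∈ L) → L = ⊤) →
        ∃ c : G, (∀ a : A, a • c = c) ∧ N = MulAut.conj c • M) ↔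
      ((∃ p : ℕ, p.Prime ∧ IsPGroup p G) ∧ ∀ L : Subgroup G, frattini G < L → (∀ a : A, ∀ x ∈ L, a • x ∈ L) → L = ⊤)) ∧
    (((∃ p : ℕ, p.Prime ∧ IsPGroup p G) ∧ ∀ L : Subgroup G, frattini G < L → (∀ a : A, ∀ x ∈ L, a • x ∈ L) → L = ⊤) →
      ∀ M : Subgroup G, (M ≠ ⊤ ∧ (∀ a : A, ∀ x ∈ M, a • x ∈ M) ∧ ∀ L : Subgroup G, M < L → (∀ a : A, ∀ x ∈ L, a • x ∈ L) → L = ⊤) ↔ (M = frattini G ∧ M ≠ ⊤)) := by
  refine ⟨⟨fun h => ?_, fun h M N hM hN => ?_⟩, fun h M => ?_⟩
  · obtain ⟨p, hp, hG⟩ := isPGroup_of_conj (A := A) hcop hsol h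
    refine ⟨⟨p, hp, hG⟩, ?_⟩
    haveI : Fact p.Prime := ⟨hp⟩
    exact irred_of_conj (A := A) hcop hG h
  · have hM' := (maxInv_iff (A := A) h.2 M).mp hM
    have hN' := (maxInv_iff (A := A) h.2 N).mp hN
    refine ⟨1, fun a => smul_one a, ?_⟩
    rw [hN'.1, hM'.1, map_one, one_smul]
  · exact maxInv_iff (A := A) h.2 M

end Cfsg.Agent.S4381
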