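import Mathlib
import Cfsg.Agent.Lib.Basic.JordanCover

set_option autoImplicit false
open Pointwise

namespace Cfsg.Agent.S4387

open Subgroup

/-- Let G be a non-trivial finite group in which any two maximal subgroups are conjugate. Then G is cyclic of prime-power order. -/
theorem result {G : Type*} [Group G] [Finite G] [Nontrivial G]
    (h : ∀ M N : Subgroup G, IsCoatom M → IsCoatom N → ∃ g : G, N = MulAut.conj g • M) :
    IsCyclic G ∧ IsPrimePow (Nat.card G) := by
  obtain ⟨M, hM, -⟩ := (eq_top_or_exists_le_coatom (⊥ : Subgroup G)).resolve_left bot_ne_top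
  obtain ⟨g, hg⟩ : ∃ g : G, ∀ k : G, k * g * k⁻¹ ∉ M := by
    by_contra hcon
    push Not at hcon
    exact hM.1 (Cfsg.Agent.Lib.Basic.JordanCover.eq_top_of_forall_conj_mem M hcon)
  have hz : zpowers g = ⊤ := by
    by_contra hne
    obtain ⟨N, hN, hzN⟩ := (eq_top_or_exists_le_coatom (zpowers g)).resolve_left hne
    obtain ⟨k, rfl⟩ := h M N hM hN
    have h1 : g ∈ MulAut.conj k • M := hzN (mem_zpowers g)
    rw [Subgroup.mem_pointwise_smul_iff_inv_smul_mem] at h1
    apply hg k⁻¹
    simpa [MulAut.smul_def] using h1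
  have hcyc : IsCyclic G := isCyclic_iff_exists_zpowers_eq_top.mpr ⟨g, hz⟩
  refine ⟨hcyc, ?_⟩
  have hcomm : ∀ a b : G, a * b = b * a := fun a b => hcyc.isMulCommutative.is_comm.comm a b
  -- unique coatom
  have huniq : ∀ N : Subgroup G, IsCoatom N → N = M := by
    intro N hN
    obtain ⟨k, rfl⟩ := h M N hM hN
    ext x
    rw [Subgroup.mem_pointwise_smul_iff_inv_smul_mem]
    have : (MulAut.conj k)⁻¹ • x = x := by
      rw [MulAut.smul_def, ← map_inv, MulAut.conj_apply, hcomm k⁻¹ x]
      simp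
    rw [this]
  have hcard : Nat.card G ≠ 1 := by
    rw [Ne, Nat.card_eq_one_iff_unique]
    rintro ⟨h1, -⟩
    exact not_subsingleton G h1
  have hord : orderOf g = Nat.card G := by
    rw [← Nat.card_zpowers, hz, Subgroup.card_top]
  have hmem : ∀ q : ℕ, q.Prime → q ∣ Nat.card G → g ^ q ∈ M := by
    intro q hq hqd
    have hne : zpowers (g ^ q) ≠ ⊤ := by
      intro htop
      have h2 : orderOf (g ^ q) = Nat.card G := by
        rw [← Nat.card_zpowers, htop, Subgroup.card_top]
      rw [orderOf_pow' g hq.ne_zero, hord, Nat.gcd_eq_right hqd] at h2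
      have hpos : 0 < Nat.card G := Nat.card_pos
      have := Nat.div_lt_self hpos hq.one_lt
      omega
    obtain ⟨N, hN, hzN⟩ := (eq_top_or_exists_le_coatom _).resolve_left hne
    rw [huniq N hN] at hzN
    exact hzN (mem_zpowers _)
  rw [isPrimePow_iff_unique_prime_dvd]
  refine ⟨(Nat.card G).minFac, ⟨Nat.minFac_prime hcard, Nat.minFac_dvd _⟩, ?_⟩
  rintro q ⟨hq, hqd⟩
  by_contra hne
  have hp := Nat.minFac_prime hcard
  have hco : IsCoprime (q : ℤ) ((Nat.card G).minFac : ℤ) :=
    Nat.isCoprime_iff_coprime.mpr ((Nat.coprime_primes hq hp).mpr hne)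
  obtain ⟨a, b, hab⟩ := hco
  have hgM : g ∈ M := by
    have e : g = (g ^ q) ^ a * (g ^ (Nat.card G).minFac) ^ b := by
      rw [← zpow_natCast, ← zpow_natCast, ← zpow_mul, ← zpow_mul, ← zpow_add]
      rw [mul_comm (q : ℤ) a, mul_comm ((Nat.card G).minFac : ℤ) b, hab, zpow_one]
    rw [e]
    exact M.mul_mem (M.zpow_mem (hmem q hq hqd) _)
      (M.zpow_mem (hmem _ hp (Nat.minFac_dvd _)) _)
  apply hM.1
  rw [eq_top_iff, ← hz, zpowers_le]
  exact hgM

end Cfsg.Agent.S4387
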