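import Cfsg.Statements.S4396
import Cfsg.Agent.Lib.FrobFree.Main
import Cfsg.Agent.Lib.Frobenius.Basic

set_option autoImplicit false
set_option linter.style.haveILetI false
open Cfsg

namespace Cfsg.Agent.S4396

open Cfsg.Agent.Lib.FrobFree

theorem result {k V A : Type*} [Field k] [AddCommGroup V] [Module k V] [FiniteDimensional k V] [Group A] [Finite A] [DecidableEq A]
    (ρ : Representation k A V) (hρ : Function.Injective ρ)
    (Fk Hc : Subgroup A) [Fk.Normal] (hHc : Cfsg.IsFrobeniusComplement Hc) (hker : Cfsg.frobeniusKernel Hc = (Fk : Set A)) (hnil : Group.IsNilpotent ↥Fk)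
    (hCF : ∀ v : V, (∀ f ∈ Fk, ρ f v = v) → v = 0) :
    ∃ W : Submodule k V, DirectSum.IsInternal (fun h : ↥Hc => W.map (ρ (h : A))) := by
  classical
  letI : Fintype Hc := Fintype.ofFinite _
  let ρH : Hc →* Module.End k V := (ρ : A →* Module.End k V).comp Hc.subtype
  let ψ : Fk →* Module.End k V := (ρ : A →* Module.End k V).comp Fk.subtype
  let τ : Hc →* MulAut Fk := (MulAut.conjNormal (H := Fk)).comp Hc.subtype
  have hfpf : ∀ h : Hc, h ≠ 1 → ∀ x : Fk, τ h x = x → x = 1 := by
    intro h hh x hx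
    have h1 : (h : A) * (x : A) * (h : A)⁻¹ = x := congrArg Subtype.val hx
    have h2 : (h : A) * (x : A) = (x : A) * (h : A) := by
      calc (h : A) * (x : A) = ((h : A) * (x : A) * (h : A)⁻¹) * (h : A) := by group
        _ = (x : A) * (h : A) := by rw [h1]
    have h3 := Cfsg.Agent.Lib.Frobenius.Basic.kernel_fpf hHc hker.symm h.2
      (fun h4 => hh (Subtype.ext h4)) x.2 h2
    exact Subtype.ext h3
  obtain ⟨π, hπ⟩ := rel_main ρH (Nat.card Fk) Fk rfl hnil τ hfpf ψ
    (by
      intro h x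
      show ρ (h : A) * ρ (x : A) = ρ ((h : A) * (x : A) * (h : A)⁻¹) * ρ (h : A)
      rw [← map_mul, ← map_mul]
      congr 1
      group)
    1 (by simp) (by simp) (by simp) (by simp)
    (fun v _ hv => hCF v (fun f hf => hv ⟨f, hf⟩))
  exact ⟨LinearMap.range π, hπ.isInternal ρH (Equiv.refl _)⟩

end Cfsg.Agent.S4396
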