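import Cfsg.Statements.S4397
import Mathlib
import Cfsg.Agent.Lib.PGroup.Basic
import Cfsg.Agent.Lib.PGroup.Extraspecial
import Cfsg.Agent.Lib.PGroup.Regular
import Cfsg.Agent.Lib.PGroup.HuppertB

set_option autoImplicit false
open Cfsg

namespace Cfsg.Agent.S4397

open Subgroup Cfsg.Agent.Lib.PGroup.Basic
open scoped commutatorElement

universe u

section rankTransfer

variable {p k : ℕ}

theorem prank_of_injective {H K : Type*} [Group H] [Group K] [Finite K] (f : H →* K)
    (hf : Function.Injective f) (h : Cfsg.PRankLE p k K) : Cfsg.PRankLE p k H := by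
  intro A hAc hA
  have h1 := h (A.map f) ?_ ?_
  · have h2 : Nat.card (A.map f) = Nat.card A :=
      (Nat.card_congr (A.equivMapOfInjective f hf).toEquiv).symm
    rwa [h2] at h1
  · refine ⟨⟨?_⟩⟩
    rintro ⟨_, x, hx, rfl⟩ ⟨_, y, hy, rfl⟩
    apply Subtype.ext
    show f x * f y = f y * f x
    rw [← map_mul, ← map_mul]
    congr 1
    exact congrArg Subtype.val (hAc.is_comm.comm (⟨x, hx⟩ : A) ⟨y, hy⟩)
  · rintro _ ⟨x, hx, rfl⟩
    rw [← map_pow, hA x hx, map_one]

variable {G : Type*} [Group G] [Finite G]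

theorem sect_of_surj (hr : Cfsg.SectionalPRankLE p k G) (H : Subgroup G) {Q : Type*} [Group Q]
    (φ : H →* Q) (hφ : Function.Surjective φ) : Cfsg.PRankLE p k Q := by
  haveI : Finite Q := Finite.of_surjective φ hφ
  have h1 := hr H φ.ker
  exact prank_of_injective (QuotientGroup.quotientKerEquivOfSurjective φ hφ).symm.toMonoidHom
    (QuotientGroup.quotientKerEquivOfSurjective φ hφ).symm.injective h1

theorem rank_of_sect (hr : Cfsg.SectionalPRankLE p k G) : Cfsg.PRankLE p k G :=
  sect_of_surj hr ⊤ (⊤ : Subgroup G).subtype (fun g => ⟨⟨g, trivial⟩, rfl⟩)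

theorem rank_quot (hr : Cfsg.SectionalPRankLE p k G) (N : Subgroup G) [N.Normal] :
    Cfsg.PRankLE p k (G ⧸ N) :=
  sect_of_surj hr ⊤ ((QuotientGroup.mk' N).comp (⊤ : Subgroup G).subtype)
    (fun g => by
      obtain ⟨g, rfl⟩ := QuotientGroup.mk'_surjective N g
      exact ⟨⟨g, trivial⟩, rfl⟩)

theorem sect_quot (hr : Cfsg.SectionalPRankLE p k G) (N₀ : Subgroup G) [N₀.Normal] :
    Cfsg.SectionalPRankLE p k (G ⧸ N₀) := by
  intro H N _
  let π := QuotientGroup.mk' N₀
  refine sect_of_surj hr (H.comap π) ((QuotientGroup.mk' N).comp (π.subgroupComap H)) ?_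
  apply Function.Surjective.comp (QuotientGroup.mk'_surjective N)
  exact MonoidHom.subgroupComap_surjective_of_surjective π H (QuotientGroup.mk'_surjective N₀)

end rankTransfer

section metacyclic

variable {G : Type*} [Group G] [Finite G]

theorem normal_of_comm_le {K : Subgroup G} (h : commutator G ≤ K) : K.Normal := by
  refine ⟨fun n hn g => ?_⟩
  have h1 : ⁅g, n⁆ ∈ commutator G := Subgroup.commutator_mem_commutator trivial trivial
  have h2 : g * n * g⁻¹ = ⁅g, n⁆ * n := by
    rw [commutatorElement_def]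
    group
  rw [h2]
  exact mul_mem (h h1) hn

theorem metacyclic_of (x y : G) (hgen : closure ({x, y} : Set G) = ⊤)
    (hN : (zpowers x).Normal) : Cfsg.IsMetacyclic G := by
  refine ⟨zpowers x, hN, inferInstance, ?_⟩
  rw [isCyclic_iff_exists_zpowers_eq_top]
  refine ⟨QuotientGroup.mk' (zpowers x) y, ?_⟩
  rw [eq_top_iff]
  intro q _
  obtain ⟨g, rfl⟩ := QuotientGroup.mk'_surjective (zpowers x) q
  have h1 : closure ({x, y} : Set G) ≤ (zpowers (QuotientGroup.mk' (zpowers x) y)).comap
      (QuotientGroup.mk' (zpowers x)) := by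
    rw [closure_le]
    intro z hz
    rcases hz with hz | hz
    · rw [hz]
      show QuotientGroup.mk' (zpowers x) x ∈ zpowers (QuotientGroup.mk' (zpowers x) y)
      have : QuotientGroup.mk' (zpowers x) x = 1 :=
        (QuotientGroup.eq_one_iff x).mpr (mem_zpowers x)
      rw [this]
      exact one_mem _
    · have hz' : z = y := hz
      rw [hz']
      exact mem_zpowers _
  exact h1 (by rw [hgen]; trivial)

theorem comm_of_closure_pair {x y : G} (hgen : closure ({x, y} : Set G) = ⊤) (h : x * y = y * x) :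
    ∀ g h : G, g * h = h * g := by
  intro g k
  have h1 : ∀ a ∈ ({x, y} : Set G), ∀ b ∈ ({x, y} : Set G), a * b = b * a := by
    rintro a (rfl | rfl) b (rfl | rfl)
    · rfl
    · exact h
    · exact h.symm
    · rfl
  have h0 := Subgroup.isMulCommutative_closure h1
  have hg : g ∈ closure ({x, y} : Set G) := by rw [hgen]; trivial
  have hk : k ∈ closure ({x, y} : Set G) := by rw [hgen]; trivial
  exact congrArg Subtype.val (h0.is_comm.comm ⟨g, hg⟩ ⟨k, hk⟩)

/-- Independent generators. -/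
theorem indep_gens (hP : IsPGroup 2 G) (hc : ∀ x y : G, x * y = y * x) :
    ∀ (n : ℕ) (a b : G), orderOf a * orderOf b = n → closure ({a, b} : Set G) = ⊤ →
      ∃ a' b' : G, closure ({a', b'} : Set G) = ⊤ ∧ zpowers a' ⊓ zpowers b' = ⊥ := by
  classical
  haveI : Fact (Nat.Prime 2) := ⟨Nat.prime_two⟩
  intro n
  induction n using Nat.strong_induction_on with
  | _ n ih =>
    intro a b hn hgen
    by_cases hdis : zpowers a ⊓ zpowers b = ⊥
    · exact ⟨a, b, hgen, hdis⟩
    -- an involution in the intersection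
    obtain ⟨e, he⟩ : ∃ e : ↥(zpowers a ⊓ zpowers b), orderOf e = 2 := by
      have hQ : IsPGroup 2 ↥(zpowers a ⊓ zpowers b) := hP.to_subgroup _
      obtain ⟨m, hm⟩ := IsPGroup.iff_card.mp hQ
      have h2 : 2 ∣ Nat.card ↥(zpowers a ⊓ zpowers b) := by
        rw [hm]
        apply dvd_pow_self
        rintro rfl
        rw [pow_zero] at hm
        exact hdis (Subgroup.eq_bot_of_card_eq _ hm)
      exact exists_prime_orderOf_dvd_card' 2 h2
    have heo : orderOf (e : G) = 2 := by rw [Subgroup.orderOf_coe]; exact he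
    have he2 : (e : G) ^ 2 = 1 := by rw [← heo]; exact pow_orderOf_eq_one _
    have he1 : (e : G) ≠ 1 := by
      intro h
      rw [h, orderOf_one] at heo
      omega
    obtain ⟨i, hi⟩ := IsPGroup.iff_orderOf.mp hP a
    obtain ⟨j, hj⟩ := IsPGroup.iff_orderOf.mp hP b
    -- involution in a cyclic group
    have key : ∀ (c : G) (l : ℕ), orderOf c = 2 ^ l → (e : G) ∈ zpowers c →
        l ≠ 0 ∧ c ^ (2 ^ (l - 1)) = e := by
      intro c l hl hec
      rw [← mem_powers_iff_mem_zpowers, Submonoid.mem_powers_iff] at hec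
      obtain ⟨m, hm⟩ := hec
      have hl0 : l ≠ 0 := by
        rintro rfl
        rw [pow_zero, orderOf_eq_one_iff] at hl
        rw [hl, one_pow] at hm
        exact he1 hm.symm
      refine ⟨hl0, ?_⟩
      obtain ⟨l', rfl⟩ : ∃ l', l = l' + 1 := ⟨l - 1, by omega⟩
      have h1 : 2 ^ (l' + 1) ∣ m * 2 := by
        rw [← hl]
        apply orderOf_dvd_of_pow_eq_one
        rw [pow_mul, hm, he2]
      have h2 : 2 ^ l' ∣ m := by
        rw [pow_succ] at h1
        exact Nat.dvd_of_mul_dvd_mul_right (by norm_num) h1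
      obtain ⟨t, rfl⟩ := h2
      rw [Nat.add_sub_cancel]
      have h3 : (c ^ 2 ^ l') ^ 2 = 1 := by
        rw [← pow_mul, ← pow_succ, ← hl]
        exact pow_orderOf_eq_one c
      rw [pow_mul] at hm
      rcases Nat.even_or_odd t with ht | ht
      · exfalso
        obtain ⟨s, rfl⟩ := ht
        rw [← two_mul, pow_mul, h3, one_pow] at hm
        exact he1 hm.symm
      · obtain ⟨s, rfl⟩ := ht
        rw [pow_succ, pow_mul, h3, one_pow, one_mul] at hm
        exact hm
    obtain ⟨hi0, hie⟩ := key a i hi e.2.1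
    obtain ⟨hj0, hje⟩ := key b j hj e.2.2
    -- reduction
    have reduce : ∀ (a b : G) (i j : ℕ), orderOf a = 2 ^ i → orderOf b = 2 ^ j → j ≠ 0 → j ≤ i →
        a ^ 2 ^ (i - 1) = (e : G) → b ^ 2 ^ (j - 1) = (e : G) → closure ({a, b} : Set G) = ⊤ →
        ∃ b' : G, closure ({a, b'} : Set G) = ⊤ ∧ orderOf b' < orderOf b := by
      intro a b i j hi hj hj0 hji hie hje hgen
      refine ⟨b * (a ^ 2 ^ (i - j))⁻¹, ?_, ?_⟩
      · rw [eq_top_iff, ← hgen, closure_le]
        have ha : a ∈ closure ({a, b * (a ^ 2 ^ (i - j))⁻¹} : Set G) := subset_closure (by simp)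
        have hb' : b * (a ^ 2 ^ (i - j))⁻¹ ∈ closure ({a, b * (a ^ 2 ^ (i - j))⁻¹} : Set G) :=
          subset_closure (by simp)
        rintro _ (rfl | rfl)
        · exact ha
        · have := mul_mem hb' (pow_mem ha (2 ^ (i - j)))
          simpa using this
      · have hcom : Commute b ((a ^ 2 ^ (i - j))⁻¹) := hc _ _
        have h1 : (b * (a ^ 2 ^ (i - j))⁻¹) ^ 2 ^ (j - 1) = 1 := by
          rw [hcom.mul_pow, hje, inv_pow, ← pow_mul, ← pow_add]
          have : i - j + (j - 1) = i - 1 := by omega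
          rw [this, hie]
          simp
        have h2 : orderOf (b * (a ^ 2 ^ (i - j))⁻¹) ∣ 2 ^ (j - 1) := orderOf_dvd_of_pow_eq_one h1
        have h3 := Nat.le_of_dvd (by positivity) h2
        rw [hj]
        refine lt_of_le_of_lt h3 ?_
        exact Nat.pow_lt_pow_right (by norm_num) (by omega)
    rcases le_total j i with hji | hij
    · obtain ⟨b', hb'1, hb'2⟩ := reduce a b i j hi hj hj0 hji hie hje hgen
      refine ih (orderOf a * orderOf b') ?_ a b' rfl hb'1
      rw [← hn]
      exact Nat.mul_lt_mul_of_pos_left hb'2 (orderOf_pos a)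
    · have hgen' : closure ({b, a} : Set G) = ⊤ := by rw [Set.pair_comm]; exact hgen
      obtain ⟨a', ha'1, ha'2⟩ := reduce b a j i hj hi hi0 hij hje hie hgen'
      refine ih (orderOf b * orderOf a') ?_ b a' rfl ha'1
      rw [← hn, mul_comm (orderOf a)]
      exact Nat.mul_lt_mul_of_pos_left ha'2 (orderOf_pos b)

end metacyclic

section hatPart

/-- In a `2`-group generated by `a, b` with `a` in a normal elementary subgroup of order at most `4`,
the derived group is central of exponent `2`. -/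
theorem hat_lemma {H : Type*} [Group H] [Finite H] (hP : IsPGroup 2 H) (V : Subgroup H) [hVn : V.Normal]
    (hV : Nat.card V ≤ 4) (hVexp : ∀ v ∈ V, v ^ 2 = 1) (a b : H)
    (hgen : closure ({a, b} : Set H) = ⊤) (ha : a ∈ V) :
    ∀ y ∈ commutator H, y ^ 2 = 1 ∧ ∀ g : H, ⁅y, g⁆ = 1 := by
  classical
  haveI : Fact (Nat.Prime 2) := ⟨Nat.prime_two⟩
  have hcen : ∀ v ∈ V, ∀ g : H, ⁅v, g⁆ ∈ center H := by
    intro v hv g
    by_cases hvc : v ∈ center H
    · have h1 : ⁅v, g⁆ = 1 := by
        rw [commutatorElement_eq_one_iff_mul_comm]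
        exact (Subgroup.mem_center_iff.mp hvc g).symm
      rw [h1]
      exact one_mem _
    have hv1 : v ≠ 1 := by
      rintro rfl
      exact hvc (one_mem _)
    have hVne : V ≠ ⊥ := by
      intro h
      rw [h] at hv
      exact hv1 hv
    obtain ⟨⟨z₀, hz₀V, hz₀Z⟩, hz₀1⟩ := Subgroup.ne_bot_iff_exists_ne_one.mp
      (Cfsg.Agent.Lib.PGroup.Basic.inf_center_ne_bot hP hVne)
    have hz₀1' : z₀ ≠ 1 := fun h => hz₀1 (Subtype.ext h)
    have hsub : ({1, z₀, v, v * z₀} : Set H) ⊆ (V : Set H) := by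
      rintro x (rfl | rfl | rfl | rfl)
      · exact one_mem V
      · exact hz₀V
      · exact hv
      · exact mul_mem hv hz₀V
    have hz₀v : z₀ ≠ v := by
      rintro rfl
      exact hvc hz₀Z
    have hcard4 : ({1, z₀, v, v * z₀} : Set H).ncard = 4 := by
      rw [Set.ncard_eq_toFinset_card']
      simp only [Set.toFinset_insert, Set.toFinset_singleton]
      rw [Finset.card_insert_of_notMem, Finset.card_insert_of_notMem, Finset.card_insert_of_notMem,
        Finset.card_singleton]
      · simp only [Finset.mem_singleton]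
        intro h
        have : z₀ = 1 := by simpa using h.symm
        exact hz₀1' this
      · simp only [Finset.mem_insert, Finset.mem_singleton, not_or]
        refine ⟨hz₀v, ?_⟩
        intro h
        have hvv : v * z₀ = 1 * z₀ := by rw [one_mul]; exact h.symm
        exact hv1 (mul_right_cancel hvv)
      · simp only [Finset.mem_insert, Finset.mem_singleton, not_or]
        refine ⟨hz₀1'.symm, hv1.symm, ?_⟩
        intro h
        have h6 : v = z₀⁻¹ := eq_inv_of_mul_eq_one_left h.symm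
        exact hvc (h6 ▸ inv_mem hz₀Z)
    have hVset : ({1, z₀, v, v * z₀} : Set H) = (V : Set H) := by
      apply Set.eq_of_subset_of_ncard_le hsub _ (Set.toFinite _)
      rw [hcard4]
      have h5 : Nat.card V = (V : Set H).ncard := Nat.card_coe_set_eq _
      omega
    have hgv : g * v * g⁻¹ ∈ (V : Set H) := hVn.conj_mem v hv g
    rw [← hVset] at hgv
    have hcomm : ⁅v, g⁆ = v * (g * v * g⁻¹)⁻¹ := by
      rw [commutatorElement_def]
      group
    rw [hcomm]
    rcases hgv with h | h | h | h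
    · exfalso
      apply hv1
      have h1 : g * v = g := by
        calc g * v = (g * v * g⁻¹) * g := by group
          _ = g := by rw [h, one_mul]
      simpa using h1
    · exfalso
      apply hvc
      have h1 : v = z₀ := by
        have h2 : g * v = g * z₀ := by
          calc g * v = (g * v * g⁻¹) * g := by group
            _ = z₀ * g := by rw [h]
            _ = g * z₀ := (Subgroup.mem_center_iff.mp hz₀Z g).symm
        exact mul_left_cancel h2
      rw [h1]
      exact hz₀Z
    · rw [h, mul_inv_cancel]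
      exact one_mem _
    · have h1 : v * (v * z₀)⁻¹ = z₀⁻¹ := by
        have h2 := Subgroup.mem_center_iff.mp (inv_mem hz₀Z) v
        rw [mul_inv_rev, ← mul_assoc, h2]
        group
      rw [h, h1]
      exact inv_mem hz₀Z
  have hab : ⁅a, b⁆ ∈ V := by
    have h1 : ⁅a, b⁆ = a * (b * a⁻¹ * b⁻¹) := by
      rw [commutatorElement_def]
      group
    rw [h1]
    exact mul_mem ha (hVn.conj_mem a⁻¹ (inv_mem ha) b)
  have hw2 := hVexp _ hab
  have hwc := hcen a ha b
  have hle : commutator H ≤ zpowers ⁅a, b⁆ := by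
    have h1 := Cfsg.Agent.Lib.PGroup.Regular.commutator_closure_pair_le (a := a) (b := b)
      (N := zpowers ⁅a, b⁆) (by
        intro g _ n hn
        have h3 : n ∈ center H := (zpowers_le.mpr hwc) hn
        rw [Subgroup.mem_center_iff] at h3
        rw [h3 g]
        simpa using hn) (mem_zpowers _)
    rw [hgen] at h1
    exact h1
  intro y hy
  obtain ⟨i, hi⟩ := hle hy
  have hi' : (⁅a, b⁆ : H) ^ i = y := hi
  constructor
  · rw [← hi', ← zpow_natCast, ← zpow_mul, mul_comm, zpow_mul, zpow_natCast, hw2, one_zpow]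
  · intro g
    rw [commutatorElement_eq_one_iff_mul_comm]
    have h3 : y ∈ center H := (zpowers_le.mpr hwc) (hle hy)
    exact (Subgroup.mem_center_iff.mp h3 g).symm

end hatPart

section step

variable {G : Type*} [Group G] [Finite G]

/-- The subgroup `Φ(G')[G',G]`. -/
def Tsub (G : Type*) [Group G] : Subgroup G :=
  normalClosure {y | ∃ x ∈ commutator G, ∃ g : G, y = ⁅x, g⁆ ∨ y = x ^ 2}

instance Tsub_normal (G : Type*) [Group G] : (Tsub G).Normal := by
  unfold Tsub
  exact normalClosure_normal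

theorem normal_comm_mem {x : G} (hx : x ∈ commutator G) (g : G) : ⁅x, g⁆ ∈ commutator G :=
  Subgroup.commutator_mem_commutator trivial trivial

theorem Tsub_le_commutator : Tsub G ≤ commutator G := by
  unfold Tsub
  apply normalClosure_le_normal
  rintro y ⟨x, hx, g, rfl | rfl⟩
  · exact normal_comm_mem hx g
  · exact pow_mem hx 2

/-- A subgroup with frattini quotient: normality. -/
theorem frat_map_normal (A : Subgroup G) [hA : A.Normal] : ((frattini A).map A.subtype).Normal := by
  refine ⟨?_⟩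
  rintro _ ⟨k, hk, rfl⟩ g
  have h1 : (frattini A).Characteristic := inferInstance
  have h2 := (Subgroup.characteristic_iff_map_eq.mp h1) (MulAut.conjNormal g)
  have h3 : MulAut.conjNormal g k ∈ frattini A := by
    rw [← h2]
    exact ⟨k, hk, rfl⟩
  refine ⟨_, h3, ?_⟩
  exact MulAut.conjNormal_apply g k

end step

section mainCases

variable {G : Type*} [Group G] [Finite G]

theorem mem_zp2 {c w : G} (hc : c ^ 2 = 1) (hw : w ∈ zpowers c) : w = 1 ∨ w = c := by
  obtain ⟨i, rfl⟩ := hw
  rcases Int.even_or_odd' i with ⟨k, rfl | rfl⟩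
  · left
    show c ^ (2 * k) = 1
    rw [zpow_mul, zpow_ofNat, hc, one_zpow]
  · right
    show c ^ (2 * k + 1) = c
    rw [zpow_add, zpow_mul, zpow_ofNat, hc, one_zpow, one_mul, zpow_one]

theorem card_double {K K' : Subgroup G} (hle : K ≤ K') {x : G} (hx : x ∈ K') (hxK : x ∉ K) :
    2 * Nat.card K ≤ Nat.card K' := by
  obtain ⟨m, hm⟩ := Subgroup.card_dvd_of_le hle
  have hK'0 : 0 < Nat.card K' := Nat.card_pos
  have hm0 : m ≠ 0 := by
    rintro rfl
    omega
  have hm1 : m ≠ 1 := by
    rintro rfl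
    rw [mul_one] at hm
    have h1 : K = K' := Subgroup.eq_of_le_of_card_ge hle hm.le
    exact hxK (h1 ▸ hx)
  have hm2 : 2 ≤ m := by omega
  rw [hm, mul_comm]
  exact Nat.mul_le_mul_left _ hm2

theorem frat_index_le {A : Type*} [Group A] [Finite A] (hP : IsPGroup 2 A)
    (h : Cfsg.PRankLE 2 2 (A ⧸ frattini A)) : (frattini A).index ≤ 2 ^ 2 := by
  haveI : Fact (Nat.Prime 2) := ⟨Nat.prime_two⟩
  have h1 := h ⊤ ?_ ?_
  · have h2 : Nat.card (⊤ : Subgroup (A ⧸ frattini A)) = (frattini A).index := by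
      rw [Subgroup.card_top, Subgroup.index_eq_card]
    rwa [h2] at h1
  · refine ⟨⟨?_⟩⟩
    rintro ⟨a, -⟩ ⟨b, -⟩
    apply Subtype.ext
    obtain ⟨a, rfl⟩ := QuotientGroup.mk'_surjective _ a
    obtain ⟨b, rfl⟩ := QuotientGroup.mk'_surjective _ b
    show (QuotientGroup.mk' (frattini A) a) * (QuotientGroup.mk' (frattini A) b) =
      (QuotientGroup.mk' (frattini A) b) * (QuotientGroup.mk' (frattini A) a)
    have h3 : QuotientGroup.mk' (frattini A) ⁅a, b⁆ = 1 :=
      (QuotientGroup.eq_one_iff _).mpr (commutatorElement_mem_frattini hP a b)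
    rw [map_commutatorElement, commutatorElement_eq_one_iff_mul_comm] at h3
    exact h3
  · rintro a -
    obtain ⟨a, rfl⟩ := QuotientGroup.mk'_surjective _ a
    rw [← map_pow]
    exact (QuotientGroup.eq_one_iff _).mpr (pow_mem_frattini hP a)

theorem case_bot (hP : IsPGroup 2 G) (hr : Cfsg.SectionalPRankLE 2 2 G) (hT : Tsub G = ⊥) :
    Cfsg.IsMetacyclic G := by
  classical
  haveI : Fact (Nat.Prime 2) := ⟨Nat.prime_two⟩
  have hc1 : ∀ x ∈ commutator G, x ^ 2 = 1 ∧ ∀ g : G, ⁅x, g⁆ = 1 := by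
    intro x hx
    constructor
    · have h1 : x ^ 2 ∈ Tsub G := subset_normalClosure ⟨x, hx, 1, Or.inr rfl⟩
      rw [hT] at h1
      exact h1
    · intro g
      have h1 : ⁅x, g⁆ ∈ Tsub G := subset_normalClosure ⟨x, hx, g, Or.inl rfl⟩
      rw [hT] at h1
      exact h1
  have hcent : ∀ x ∈ commutator G, x ∈ center G := by
    intro x hx
    rw [Subgroup.mem_center_iff]
    intro g
    have h1 := (hc1 x hx).2 g
    rw [commutatorElement_eq_one_iff_mul_comm] at h1
    exact h1.symm
  have hccen : ∀ x y : G, ⁅x, y⁆ ∈ center G := fun x y =>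
    hcent _ (Subgroup.commutator_mem_commutator trivial trivial)
  obtain ⟨a₀, b₀, hgen₀⟩ := Cfsg.Agent.Lib.PGroup.HuppertA.exists_pair_generating hP
    (frat_index_le hP (rank_quot hr (frattini G)))
  by_cases hcab : a₀ * b₀ = b₀ * a₀
  · have hcc := comm_of_closure_pair hgen₀ hcab
    apply metacyclic_of a₀ b₀ hgen₀
    apply normal_of_comm_le
    rw [show commutator G = ⁅(⊤ : Subgroup G), (⊤ : Subgroup G)⁆ from rfl, Subgroup.commutator_le]
    intro g _ h _
    have h1 : ⁅g, h⁆ = 1 := by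
      rw [commutatorElement_eq_one_iff_mul_comm]
      exact hcc g h
    rw [h1]
    exact one_mem _
  obtain ⟨c₀, hc₀⟩ : ∃ c₀, c₀ = ⁅a₀, b₀⁆ := ⟨_, rfl⟩
  have hc₀1 : c₀ ≠ 1 := by
    rw [hc₀, Ne, commutatorElement_eq_one_iff_mul_comm]
    exact hcab
  have hc₀G : c₀ ∈ commutator G := by
    rw [hc₀]
    exact Subgroup.commutator_mem_commutator trivial trivial
  have hc₀2 : c₀ ^ 2 = 1 := (hc1 c₀ hc₀G).1
  have hc₀Z : c₀ ∈ center G := hcent c₀ hc₀G
  have hle : commutator G ≤ zpowers c₀ := by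
    have h1 := Cfsg.Agent.Lib.PGroup.Regular.commutator_closure_pair_le (a := a₀) (b := b₀)
      (N := zpowers c₀) (by
        intro g _ n hn
        have h3 : n ∈ center G := (zpowers_le.mpr hc₀Z) hn
        rw [Subgroup.mem_center_iff] at h3
        rw [h3 g]
        simpa using hn) (by rw [← hc₀]; exact mem_zpowers _)
    rw [hgen₀] at h1
    exact h1
  haveI hNn : (zpowers c₀).Normal := normal_of_comm_le hle
  obtain ⟨π, hπ⟩ : ∃ π, π = QuotientGroup.mk' (zpowers c₀) := ⟨_, rfl⟩
  have hπs : Function.Surjective π := by rw [hπ]; exact QuotientGroup.mk'_surjective _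
  have hπker : ∀ x, π x = 1 ↔ x ∈ zpowers c₀ := by
    intro x
    rw [hπ]
    exact QuotientGroup.eq_one_iff x
  have hQcomm : ∀ x y : G ⧸ zpowers c₀, x * y = y * x := by
    intro x y
    obtain ⟨x, rfl⟩ := hπs x
    obtain ⟨y, rfl⟩ := hπs y
    have h1 : π ⁅x, y⁆ = 1 :=
      (hπker _).mpr (hle (Subgroup.commutator_mem_commutator trivial trivial))
    rw [map_commutatorElement, commutatorElement_eq_one_iff_mul_comm] at h1
    exact h1
  have hQP : IsPGroup 2 (G ⧸ zpowers c₀) := hP.to_quotient _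
  have hgenQ : closure ({π a₀, π b₀} : Set (G ⧸ zpowers c₀)) = ⊤ := by
    rw [eq_top_iff]
    intro q _
    obtain ⟨g, rfl⟩ := hπs q
    have h1 : closure ({a₀, b₀} : Set G) ≤
        (closure ({π a₀, π b₀} : Set (G ⧸ zpowers c₀))).comap π := by
      rw [closure_le]
      rintro z (rfl | rfl)
      · exact subset_closure (by simp)
      · exact subset_closure (by simp)
    exact h1 (by rw [hgen₀]; trivial)
  obtain ⟨a', b', hgen', hdis⟩ := indep_gens hQP hQcomm _ _ _ rfl hgenQ
  obtain ⟨a, rfl⟩ := hπs a'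
  obtain ⟨b, rfl⟩ := hπs b'
  have hgen : closure ({a, b} : Set G) = ⊤ := by
    apply frattini_nongenerating
    rw [eq_top_iff]
    intro g _
    have h1 : π g ∈ closure ({π a, π b} : Set (G ⧸ zpowers c₀)) := by rw [hgen']; trivial
    have h2 : closure ({π a, π b} : Set (G ⧸ zpowers c₀)) ≤ (closure ({a, b} : Set G)).map π := by
      rw [closure_le]
      rintro z (rfl | rfl)
      · exact ⟨a, subset_closure (by simp), rfl⟩
      · exact ⟨b, subset_closure (by simp), rfl⟩
    obtain ⟨k, hk, hkg⟩ := h2 h1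
    have h3 : k⁻¹ * g ∈ zpowers c₀ := by
      rw [← hπker, map_mul, map_inv, hkg]
      simp
    have h4 : k⁻¹ * g ∈ frattini G := commutator_le_frattini hP (by
      have h5 := hle
      exact Subgroup.zpowers_le.mpr hc₀G h3)
    have h5 := mul_mem_sup hk h4
    simpa using h5
  have hnc : a * b ≠ b * a := by
    intro h
    exact hcab (comm_of_closure_pair hgen h a₀ b₀)
  have hab : ⁅a, b⁆ = c₀ := by
    have h1 : ⁅a, b⁆ ∈ commutator G := Subgroup.commutator_mem_commutator trivial trivial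
    rcases mem_zp2 hc₀2 (hle h1) with h2 | h2
    · exfalso
      rw [commutatorElement_eq_one_iff_mul_comm] at h2
      exact hnc h2
    · exact h2
  obtain ⟨i, hi⟩ := IsPGroup.iff_orderOf.mp hQP (π a)
  obtain ⟨j, hj⟩ := IsPGroup.iff_orderOf.mp hQP (π b)
  have hap : a ^ 2 ^ i ∈ zpowers c₀ := by
    rw [← hπker, map_pow, ← hi]
    exact pow_orderOf_eq_one _
  have hbp : b ^ 2 ^ j ∈ zpowers c₀ := by
    rw [← hπker, map_pow, ← hj]
    exact pow_orderOf_eq_one _
  rcases mem_zp2 hc₀2 hap with ha1 | hac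
  swap
  · apply metacyclic_of a b hgen
    apply normal_of_comm_le
    refine hle.trans (zpowers_le.mpr ?_)
    rw [← hac]
    exact pow_mem (mem_zpowers a) _
  rcases mem_zp2 hc₀2 hbp with hb1 | hbc
  swap
  · apply metacyclic_of b a (by rw [Set.pair_comm]; exact hgen)
    apply normal_of_comm_le
    refine hle.trans (zpowers_le.mpr ?_)
    rw [← hbc]
    exact pow_mem (mem_zpowers b) _
  have hi0 : i ≠ 0 := by
    rintro rfl
    rw [pow_zero, pow_one] at ha1
    exact hnc (by rw [ha1]; simp)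
  have hj0 : j ≠ 0 := by
    rintro rfl
    rw [pow_zero, pow_one] at hb1
    exact hnc (by rw [hb1]; simp)
  obtain ⟨i', rfl⟩ : ∃ i', i = i' + 1 := ⟨i - 1, by omega⟩
  obtain ⟨j', rfl⟩ : ∃ j', j = j' + 1 := ⟨j - 1, by omega⟩
  by_cases h11 : i' = 0 ∧ j' = 0
  · obtain ⟨rfl, rfl⟩ := h11
    simp only [zero_add, pow_one] at ha1 hb1
    have hai : a⁻¹ = a := by
      have : a * a = 1 := by rw [← pow_two, ha1]
      exact inv_eq_of_mul_eq_one_left this
    have hbi : b⁻¹ = b := by
      have : b * b = 1 := by rw [← pow_two, hb1]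
      exact inv_eq_of_mul_eq_one_left this
    have hsq : (a * b) ^ 2 = c₀ := by
      rw [← hab, commutatorElement_def, hai, hbi, pow_two]
      group
    have hgen2 : closure ({a * b, a} : Set G) = ⊤ := by
      rw [eq_top_iff, ← hgen, closure_le]
      have h1 : a * b ∈ closure ({a * b, a} : Set G) := subset_closure (by simp)
      have h2 : a ∈ closure ({a * b, a} : Set G) := subset_closure (by simp)
      rintro z (rfl | rfl)
      · exact h2
      · have := mul_mem (inv_mem h2) h1
        simpa using this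
    apply metacyclic_of (a * b) a hgen2
    apply normal_of_comm_le
    refine hle.trans (zpowers_le.mpr ?_)
    rw [← hsq]
    exact pow_mem (mem_zpowers _) _
  -- an elementary abelian subgroup of order eight
  exfalso
  obtain ⟨e₁, he₁⟩ : ∃ e₁, e₁ = a ^ 2 ^ i' := ⟨_, rfl⟩
  obtain ⟨e₂, he₂⟩ : ∃ e₂, e₂ = b ^ 2 ^ j' := ⟨_, rfl⟩
  have he₁2 : e₁ ^ 2 = 1 := by
    rw [he₁, ← pow_mul, ← pow_succ, ha1]
  have he₂2 : e₂ ^ 2 = 1 := by
    rw [he₂, ← pow_mul, ← pow_succ, hb1]
  have hπe₁ : π e₁ ≠ 1 := by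
    rw [he₁, map_pow]
    intro h
    have h1 := orderOf_dvd_of_pow_eq_one h
    rw [hi] at h1
    have h2 := (Nat.pow_dvd_pow_iff_le_right (by norm_num)).mp h1
    omega
  have hπe₂ : π e₂ ≠ 1 := by
    rw [he₂, map_pow]
    intro h
    have h1 := orderOf_dvd_of_pow_eq_one h
    rw [hj] at h1
    have h2 := (Nat.pow_dvd_pow_iff_le_right (by norm_num)).mp h1
    omega
  have hcomm12 : e₁ * e₂ = e₂ * e₁ := by
    have h1 : ⁅e₁, e₂⁆ = 1 := by
      rw [he₁, he₂, Cfsg.Agent.Lib.PGroup.Extraspecial.comm_pow_left hccen,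
        Cfsg.Agent.Lib.PGroup.Extraspecial.comm_pow_right hccen, hab, ← pow_mul]
      have h2 : 2 ∣ 2 ^ j' * 2 ^ i' := by
        by_cases hi'0 : i' = 0
        · have hj'0 : j' ≠ 0 := fun h => h11 ⟨hi'0, h⟩
          exact Dvd.dvd.mul_right (dvd_pow_self 2 hj'0) _
        · exact Dvd.dvd.mul_left (dvd_pow_self 2 hi'0) _
      obtain ⟨t, ht⟩ := h2
      rw [ht, pow_mul, hc₀2, one_pow]
    rwa [commutatorElement_eq_one_iff_mul_comm] at h1
  have hc₀c : ∀ g : G, c₀ * g = g * c₀ := fun g => (Subgroup.mem_center_iff.mp hc₀Z g).symm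
  let X : Set G := {c₀, e₁, e₂}
  have hXc : ∀ x ∈ X, ∀ y ∈ X, x * y = y * x := by
    rintro x (rfl | rfl | rfl) y (rfl | rfl | rfl)
    · rfl
    · exact hc₀c _
    · exact hc₀c _
    · exact (hc₀c _).symm
    · rfl
    · exact hcomm12
    · exact (hc₀c _).symm
    · exact hcomm12.symm
    · rfl
  have hXp : ∀ x ∈ X, x ^ 2 = 1 := by
    rintro x (rfl | rfl | rfl)
    · exact hc₀2
    · exact he₁2
    · exact he₂2
  have hHc := Subgroup.isMulCommutative_closure hXc
  have hHcomm : ∀ x ∈ closure X, ∀ y ∈ closure X, x * y = y * x := fun x hx y hy =>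
    congrArg Subtype.val (hHc.is_comm.comm ⟨x, hx⟩ ⟨y, hy⟩)
  have hHexp : ∀ x ∈ closure X, x ^ 2 = 1 := by
    intro x hx
    induction hx using Subgroup.closure_induction with
    | mem x hx => exact hXp x hx
    | one => exact one_pow 2
    | mul x y hx hy ihx ihy =>
      have hcc : Commute x y := hHcomm x hx y hy
      rw [hcc.mul_pow, ihx, ihy, one_mul]
    | inv x _ ihx => rw [inv_pow, ihx, inv_one]
  have hcardH : Nat.card (closure X) ≤ 2 ^ 2 := by
    apply rank_of_sect hr (closure X) hHc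
    exact hHexp
  -- the chain
  have hH1le : closure ({c₀, e₁} : Set G) ≤ closure X := by
    apply Subgroup.closure_mono
    rintro z (rfl | rfl)
    · exact Or.inl rfl
    · exact Or.inr (Or.inl rfl)
  have hc₀mem : c₀ ∈ closure ({c₀, e₁} : Set G) := subset_closure (by simp)
  have he₁mem : e₁ ∈ closure ({c₀, e₁} : Set G) := subset_closure (by simp)
  have h1 : 2 * Nat.card (zpowers c₀) ≤ Nat.card (closure ({c₀, e₁} : Set G)) := by
    apply card_double (zpowers_le.mpr hc₀mem) he₁mem
    intro h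
    exact hπe₁ ((hπker _).mpr h)
  have h2 : 2 * Nat.card (closure ({c₀, e₁} : Set G)) ≤ Nat.card (closure X) := by
    apply card_double hH1le (x := e₂) (subset_closure (by simp [X]))
    intro h
    have h3 : closure ({c₀, e₁} : Set G) ≤ (zpowers (π a)).comap π := by
      rw [closure_le]
      rintro z (rfl | rfl)
      · show π z ∈ zpowers (π a)
        rw [(hπker z).mpr (mem_zpowers z)]
        exact one_mem _
      · show π z ∈ zpowers (π a)
        rw [he₁, map_pow]
        exact pow_mem (mem_zpowers _) _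
    have h4 : π e₂ ∈ zpowers (π a) := h3 h
    have h5 : π e₂ ∈ zpowers (π b) := by
      rw [he₂, map_pow]
      exact pow_mem (mem_zpowers _) _
    have h6 : π e₂ ∈ zpowers (π a) ⊓ zpowers (π b) := ⟨h4, h5⟩
    rw [hdis] at h6
    exact hπe₂ h6
  have h3 : Nat.card (zpowers c₀) = 2 := by
    rw [Nat.card_zpowers]
    exact orderOf_eq_prime hc₀2 hc₀1
  omega

end mainCases

section mainTwo

variable {G : Type*} [Group G] [Finite G]

theorem case_ne (hP : IsPGroup 2 G) (hr : Cfsg.SectionalPRankLE 2 2 G)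
    (hQ : Cfsg.IsMetacyclic (G ⧸ Tsub G)) : Cfsg.IsMetacyclic G := by
  classical
  haveI : Fact (Nat.Prime 2) := ⟨Nat.prime_two⟩
  obtain ⟨π, hπ⟩ : ∃ π, π = QuotientGroup.mk' (Tsub G) := ⟨_, rfl⟩
  have hπs : Function.Surjective π := by rw [hπ]; exact QuotientGroup.mk'_surjective _
  have hπker : ∀ x, π x = 1 ↔ x ∈ Tsub G := by
    intro x
    rw [hπ]
    exact QuotientGroup.eq_one_iff x
  obtain ⟨Nb, hNb, hcyc, hcyc2⟩ := hQ
  let A : Subgroup G := Nb.comap π
  haveI hAn : A.Normal := hNb.comap π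
  obtain ⟨xb, hxb⟩ := IsCyclic.exists_generator (α := Nb)
  obtain ⟨x, hx⟩ := hπs xb
  have hxA : x ∈ A := by
    show π x ∈ Nb
    rw [hx]
    exact xb.2
  have hAform : ∀ y ∈ A, ∃ l : ℤ, x⁻¹ ^ l * y ∈ Tsub G := by
    intro y hy
    obtain ⟨l, hl⟩ := hxb ⟨π y, hy⟩
    refine ⟨l, ?_⟩
    rw [← hπker, map_mul, map_zpow, map_inv, hx]
    have h1 : (xb : G ⧸ Tsub G) ^ l = π y := by
      have := congrArg Subtype.val hl
      simpa using this
    rw [← h1, inv_zpow, inv_mul_cancel]
  obtain ⟨qb, hqb⟩ := IsCyclic.exists_generator (α := (G ⧸ Tsub G) ⧸ Nb)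
  obtain ⟨qb', hqb'⟩ := QuotientGroup.mk'_surjective Nb qb
  obtain ⟨b, hb⟩ := hπs qb'
  have hGform : ∀ g : G, ∃ m : ℤ, (b ^ m)⁻¹ * g ∈ A := by
    intro g
    obtain ⟨m, hm⟩ := hqb (QuotientGroup.mk' Nb (π g))
    refine ⟨m, ?_⟩
    show π ((b ^ m)⁻¹ * g) ∈ Nb
    have h1 : QuotientGroup.mk' Nb (π ((b ^ m)⁻¹ * g)) = 1 := by
      rw [map_mul, map_inv, map_zpow, map_mul, map_inv, map_zpow, hb, hqb']
      have h2 : qb ^ m = QuotientGroup.mk' Nb (π g) := hm
      rw [h2]
      simp
    exact (QuotientGroup.eq_one_iff _).mp h1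
  have hTΦ : Tsub G ≤ frattini G := Tsub_le_commutator.trans (commutator_le_frattini hP)
  have hgen : closure ({x, b} : Set G) = ⊤ := by
    apply frattini_nongenerating
    rw [eq_top_iff]
    intro g _
    obtain ⟨m, hm⟩ := hGform g
    obtain ⟨l, hl⟩ := hAform _ hm
    have hxm : x ∈ closure ({x, b} : Set G) := subset_closure (by simp)
    have hbm : b ∈ closure ({x, b} : Set G) := subset_closure (by simp)
    have h1 : g = (b ^ m * x ^ l) * (x⁻¹ ^ l * ((b ^ m)⁻¹ * g)) := by
      simp only [inv_zpow]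
      group
    rw [h1]
    apply mul_mem_sup (mul_mem (zpow_mem hbm m) (zpow_mem hxm l)) (hTΦ hl)
  -- the Frattini subgroup of `A`
  obtain ⟨F, hF⟩ : ∃ F, F = (frattini A).map A.subtype := ⟨_, rfl⟩
  haveI hFn : F.Normal := by rw [hF]; exact frat_map_normal A
  have hAp : IsPGroup 2 A := hP.to_subgroup A
  have hAidx : (frattini A).index ≤ 2 ^ 2 := by
    apply frat_index_le hAp
    exact hr A (frattini A)
  have hTF : Tsub G ≤ F := by
    unfold Tsub
    apply normalClosure_le_normal
    obtain ⟨ρ, hρ⟩ : ∃ ρ, ρ = QuotientGroup.mk' F := ⟨_, rfl⟩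
    have hρs : Function.Surjective ρ := by rw [hρ]; exact QuotientGroup.mk'_surjective _
    have hρker : ∀ x, ρ x = 1 ↔ x ∈ F := by
      intro x
      rw [hρ]
      exact QuotientGroup.eq_one_iff x
    haveI hVn : (A.map ρ).Normal := hAn.map ρ hρs
    have hVcard : Nat.card (A.map ρ) ≤ 4 := by
      have h1 : A.map ρ = (ρ.comp A.subtype).range := by
        rw [MonoidHom.range_comp, MonoidHom.range_eq_map]
        congr 1
        ext y
        simp
      rw [h1, ← Subgroup.index_ker]
      have h2 : frattini A ≤ (ρ.comp A.subtype).ker := by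
        intro k hk
        rw [MonoidHom.mem_ker]
        show ρ (k : G) = 1
        rw [hρker, hF]
        exact ⟨k, hk, rfl⟩
      have h3 := Subgroup.index_dvd_of_le h2
      have h4 := Nat.le_of_dvd (Nat.pos_of_ne_zero Subgroup.index_ne_zero_of_finite) h3
      have : (2 : ℕ) ^ 2 = 4 := rfl
      omega
    have hVexp : ∀ v ∈ A.map ρ, v ^ 2 = 1 := by
      rintro _ ⟨k, hk, rfl⟩
      rw [← map_pow, hρker, hF]
      exact ⟨(⟨k, hk⟩ : A) ^ 2, pow_mem_frattini hAp _, rfl⟩
    have hgenρ : closure ({ρ x, ρ b} : Set (G ⧸ F)) = ⊤ := by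
      rw [eq_top_iff]
      intro q _
      obtain ⟨g, rfl⟩ := hρs q
      have h1 : closure ({x, b} : Set G) ≤ (closure ({ρ x, ρ b} : Set (G ⧸ F))).comap ρ := by
        rw [closure_le]
        rintro z (rfl | rfl)
        · exact subset_closure (by simp)
        · exact subset_closure (by simp)
      exact h1 (by rw [hgen]; trivial)
    have hhat := hat_lemma (hP.to_quotient F) (A.map ρ) hVcard hVexp (ρ x) (ρ b) hgenρ
      ⟨x, hxA, rfl⟩
    rintro y ⟨x', hx', g, rfl | rfl⟩
    · have h1 : ρ x' ∈ commutator (G ⧸ F) := by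
        rw [← Cfsg.Agent.Lib.PGroup.HuppertA.map_commutator_of_surjective ρ hρs]
        exact ⟨x', hx', rfl⟩
      rw [SetLike.mem_coe, ← hρker, map_commutatorElement]
      exact (hhat _ h1).2 _
    · have h1 : ρ x' ∈ commutator (G ⧸ F) := by
        rw [← Cfsg.Agent.Lib.PGroup.HuppertA.map_commutator_of_surjective ρ hρs]
        exact ⟨x', hx', rfl⟩
      rw [SetLike.mem_coe, ← hρker, map_pow]
      exact (hhat _ h1).1
  -- `A` is cyclic, generated by `x`
  have htop : zpowers (⟨x, hxA⟩ : A) = ⊤ := by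
    apply frattini_nongenerating
    rw [eq_top_iff]
    rintro ⟨y, hy⟩ _
    obtain ⟨l, hl⟩ := hAform y hy
    have h1 := hTF hl
    rw [hF] at h1
    obtain ⟨k, hk, hky⟩ := h1
    have h2 : (⟨y, hy⟩ : A) = (⟨x, hxA⟩ : A) ^ l * k := by
      apply Subtype.ext
      have h3 : ((⟨x, hxA⟩ : A) ^ l * k : A).1 = x ^ l * (k : G) := by simp
      rw [h3]
      have h4 : (k : G) = x⁻¹ ^ l * y := hky
      rw [h4, inv_zpow]
      group
    rw [h2]
    exact mul_mem_sup (zpow_mem (mem_zpowers _) l) hk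
  have hAeq : zpowers x = A := by
    apply le_antisymm (zpowers_le.mpr hxA)
    intro y hy
    have h1 : (⟨y, hy⟩ : A) ∈ zpowers (⟨x, hxA⟩ : A) := by rw [htop]; trivial
    obtain ⟨i, hi⟩ := h1
    refine ⟨i, ?_⟩
    have := congrArg Subtype.val hi
    simpa using this
  apply metacyclic_of x b hgen
  rw [hAeq]
  exact hAn

end mainTwo

theorem main_ind : ∀ (n : ℕ) (S : Type u) [Group S] [Finite S], Nat.card S = n → IsPGroup 2 S →
    Cfsg.SectionalPRankLE 2 2 S → Cfsg.IsMetacyclic S := by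
  intro n
  induction n using Nat.strong_induction_on with
  | _ n ih =>
    intro S _ _ hn hP hr
    by_cases hT : Tsub S = ⊥
    · exact case_bot hP hr hT
    · apply case_ne hP hr
      refine ih (Nat.card (S ⧸ Tsub S)) ?_ _ rfl (hP.to_quotient _) (sect_quot hr _)
      have h1 := (Tsub S).card_mul_index
      rw [Subgroup.index_eq_card, hn] at h1
      have h2 : 1 < Nat.card (Tsub S) := (Subgroup.one_lt_card_iff_ne_bot _).mpr hT
      have h3 : 0 < Nat.card (S ⧸ Tsub S) := Nat.card_pos
      rw [← h1]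
      nlinarith


/-- A finite 2-group of sectional 2-rank at most 2 (every section has no elementary abelian subgroup of order 8) is metacyclic: it has a cyclic normal subgroup with cyclic quotient. -/
theorem result {S : Type*} [Group S] [Finite S] (h2 : IsPGroup 2 S) (hr : Cfsg.SectionalPRankLE 2 2 S) : Cfsg.IsMetacyclic S := by
  exact main_ind _ S rfl h2 hr

end Cfsg.Agent.S4397
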