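import Cfsg.Statements.S4398
import Mathlib
import Cfsg.Agent.Lib.PGroup.CyclicMax2
import Cfsg.Agent.S4397

set_option autoImplicit false
open Cfsg

namespace Cfsg.Agent.S4398

open Subgroup Cfsg.Agent.Lib.PGroup.CyclicMax2
open scoped commutatorElement

/-- The relevant common features of `D₈` and `Q₈`. -/
def Q8like (G : Type*) [Group G] : Prop :=
  Nat.card G = 8 ∧ ∃ z : G, z ≠ 1 ∧ (∀ u : G, u ^ 2 = 1 ∨ u ^ 2 = z) ∧ ∃ f g : G, ⁅f, g⁆ = z

set_option maxRecDepth 100000 in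
theorem Q8like_D : Q8like (DihedralGroup 4) := by
  refine ⟨by rw [DihedralGroup.nat_card], DihedralGroup.r 2, by decide +kernel, by decide +kernel,
    DihedralGroup.r 1, DihedralGroup.sr 0, by decide +kernel⟩

set_option maxRecDepth 100000 in
theorem Q8like_Q : Q8like (QuaternionGroup 2) := by
  refine ⟨by rw [Nat.card_eq_fintype_card, QuaternionGroup.card], QuaternionGroup.a 2, by decide +kernel,
    by decide +kernel, QuaternionGroup.a 1, QuaternionGroup.xa 0, by decide +kernel⟩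

theorem Q8like.of_equiv {H G₀ : Type*} [Group H] [Group G₀] (e : H ≃* G₀) (h : Q8like G₀) :
    Q8like H := by
  obtain ⟨h8, z, hz1, hu, f, g, hfg⟩ := h
  refine ⟨by rw [Nat.card_congr e.toEquiv, h8], e.symm z, ?_, ?_, e.symm f, e.symm g, ?_⟩
  · intro h
    apply hz1
    have := congrArg e h
    simpa using this
  · intro u
    rcases hu (e u) with h | h
    · left
      apply e.injective
      rw [map_pow, h, map_one]
    · right
      apply e.injective
      rw [map_pow, h]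
      simp
  · rw [← hfg, map_commutatorElement]

section numbers

theorem arith1 {n r : ℕ} (hn : 2 ≤ n) (h4 : 4 ∣ r + 1) (h : r ^ 2 ≡ 1 [MOD 2 ^ n]) :
    2 ^ (n - 1) ∣ r + 1 := by
  obtain ⟨s, hs⟩ := h4
  have hr : 1 ≤ r ^ 2 := by
    have : 1 ≤ r := by omega
    exact Nat.one_le_pow _ _ this
  have h1 : 2 ^ n ∣ r ^ 2 - 1 := (Nat.modEq_iff_dvd' hr).mp h.symm
  have hs1 : 1 ≤ s := by omega
  have h2 : r ^ 2 - 1 = 2 * ((2 * s - 1) * (r + 1)) := by
    have hr' : r = 4 * s - 1 := by omega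
    obtain ⟨t, rfl⟩ : ∃ t, s = t + 1 := ⟨s - 1, by omega⟩
    have h5 : r = 4 * t + 3 := by omega
    subst h5
    have h6 : 2 * (t + 1) - 1 = 2 * t + 1 := by omega
    rw [h6]
    have h7 : (4 * t + 3) ^ 2 = 2 * ((2 * t + 1) * (4 * t + 3 + 1)) + 1 := by ring
    omega
  rw [h2] at h1
  obtain ⟨m, rfl⟩ : ∃ m, n = m + 1 := ⟨n - 1, by omega⟩
  rw [Nat.add_sub_cancel]
  have h3 : 2 ^ m ∣ (2 * s - 1) * (r + 1) := by
    rw [pow_succ, mul_comm] at h1
    exact Nat.dvd_of_mul_dvd_mul_left (by norm_num) h1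
  have h4 : Nat.Coprime (2 ^ m) (2 * s - 1) := by
    apply Nat.Coprime.pow_left
    rw [Nat.coprime_two_left]
    exact ⟨s - 1, by omega⟩
  exact h4.dvd_of_dvd_mul_left h3

theorem arith2 {n r u : ℕ} (hn : 2 ≤ n) (h4 : 4 ∣ r + 1) (h : 2 ^ n ∣ (r - 1) * u) :
    2 ^ (n - 1) ∣ u := by
  obtain ⟨s, hs⟩ := h4
  have hs1 : 1 ≤ s := by omega
  have h2 : r - 1 = 2 * (2 * s - 1) := by omega
  rw [h2] at h
  obtain ⟨m, rfl⟩ : ∃ m, n = m + 1 := ⟨n - 1, by omega⟩
  rw [Nat.add_sub_cancel]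
  have h3 : 2 ^ m ∣ (2 * s - 1) * u := by
    rw [pow_succ, mul_comm, mul_assoc] at h
    exact Nat.dvd_of_mul_dvd_mul_left (by norm_num) h
  have h4 : Nat.Coprime (2 ^ m) (2 * s - 1) := by
    apply Nat.Coprime.pow_left
    rw [Nat.coprime_two_left]
    exact ⟨s - 1, by omega⟩
  exact h4.dvd_of_dvd_mul_left h3

end numbers

section groupPart

variable {S : Type*} [Group S] [Finite S]

theorem mem_zp2 {c w : S} (hc : c ^ 2 = 1) (hw : w ∈ zpowers c) : w = 1 ∨ w = c := by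
  obtain ⟨i, rfl⟩ := hw
  rcases Int.even_or_odd' i with ⟨k, rfl | rfl⟩
  · left
    show c ^ (2 * k) = 1
    rw [zpow_mul, zpow_ofNat, hc, one_zpow]
  · right
    show c ^ (2 * k + 1) = c
    rw [zpow_add, zpow_mul, zpow_ofNat, hc, one_zpow, one_mul, zpow_one]

theorem order_conj {S : Type*} [Group S] (y b : S) : orderOf (y * b * y⁻¹) = orderOf b :=
  orderOf_injective (MulAut.conj y).toMonoidHom (MulAut.conj y).injective b

/-- Elements of order four in a cyclic group. -/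
theorem cyc4 {B : Type*} [Group B] [Finite B] [IsCyclic B] {b w : B} (hb : orderOf b = 4)
    (hw : orderOf w = 4) : w = b ∨ w = b⁻¹ := by
  classical
  haveI := Fintype.ofFinite B
  have h1 : (4 : ℕ) ∣ Fintype.card B := by
    rw [← hb, ← Nat.card_eq_fintype_card]
    exact orderOf_dvd_natCard b
  have h2 := IsCyclic.card_orderOf_eq_totient h1
  have h3 : Nat.totient 4 = 2 := by decide
  rw [h3] at h2
  have hbb : b ≠ b⁻¹ := by
    intro h
    have h4 : b ^ 2 = 1 := by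
      rw [pow_two]
      nth_rw 2 [h]
      simp
    have h5 := orderOf_dvd_of_pow_eq_one h4
    rw [hb] at h5
    omega
  have hsub : ({b, b⁻¹} : Finset B) ⊆ Finset.univ.filter (fun a => orderOf a = 4) := by
    intro a ha
    simp only [Finset.mem_insert, Finset.mem_singleton] at ha
    simp only [Finset.mem_filter, Finset.mem_univ, true_and]
    rcases ha with rfl | rfl
    · exact hb
    · rw [orderOf_inv]
      exact hb
  have hcard : ({b, b⁻¹} : Finset B).card = 2 := Finset.card_pair hbb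
  have heq : ({b, b⁻¹} : Finset B) = Finset.univ.filter (fun a => orderOf a = 4) := by
    apply Finset.eq_of_subset_of_card_le hsub
    rw [hcard, h2]
  have hmem : w ∈ ({b, b⁻¹} : Finset B) := by
    rw [heq]
    simp [hw]
  simpa using hmem

variable (hP : IsPGroup 2 S) (A : Subgroup S) [hAn : A.Normal] [hAc : IsCyclic A]
  [hQc : IsCyclic (S ⧸ A)]

include hP in
theorem data_of_H (H : Subgroup S) (hH : Q8like H) :
    ∃ b t : S, b ∈ A ∧ orderOf b = 4 ∧ t ∉ A ∧ t ^ 2 ∈ A ∧ t * b * t⁻¹ = b⁻¹ := by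
  classical
  haveI : Fact (Nat.Prime 2) := ⟨Nat.prime_two⟩
  obtain ⟨hcard, z, hz1, hu, f, g, hfg⟩ := hH
  have hπker : ∀ x : S, QuotientGroup.mk' A x = 1 ↔ x ∈ A := fun x => QuotientGroup.eq_one_iff x
  have hQcomm : ∀ x y : S ⧸ A, x * y = y * x := fun x y =>
    (IsCyclic.commGroup (α := S ⧸ A)).mul_comm x y
  have hcommA : ∀ x y : S, ⁅x, y⁆ ∈ A := by
    intro x y
    rw [← hπker, map_commutatorElement, commutatorElement_eq_one_iff_mul_comm]
    exact hQcomm _ _
  have hzA : (z : S) ∈ A := by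
    rw [← hfg]
    exact hcommA (f : S) (g : S)
  have hsq : ∀ u : H, (QuotientGroup.mk' A (u : S)) ^ 2 = 1 := by
    intro u
    rw [← map_pow, hπker]
    rcases hu u with h | h
    · have h2 : (u : S) ^ 2 = 1 := by simpa using congrArg Subtype.val h
      rw [h2]
      exact one_mem _
    · have h2 : (u : S) ^ 2 = z := by simpa using congrArg Subtype.val h
      rw [h2]
      exact hzA
  have hAcomm : ∀ x ∈ A, ∀ y ∈ A, x * y = y * x := by
    intro x hx y hy
    have h1 := mul_comm' (⟨x, hx⟩ : A) ⟨y, hy⟩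
    exact congrArg Subtype.val h1
  obtain ⟨t, ht⟩ : ∃ t : H, (t : S) ∉ A := by
    by_contra hall
    push Not at hall
    apply hz1
    rw [← hfg, commutatorElement_eq_one_iff_mul_comm]
    apply Subtype.ext
    exact hAcomm _ (hall f) _ (hall g)
  -- uniqueness of the involution in the cyclic quotient
  have huniq : ∀ u : H, (u : S) ∉ A → QuotientGroup.mk' A (u : S) = QuotientGroup.mk' A (t : S) := by
    intro u huA
    have hUP : UniqueP 2 (S ⧸ A) := uniqueP_of_isCyclic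
    have h1 := hUP _ _ (hsq u) (hsq t) (fun h => huA ((hπker _).mp h)) (fun h => ht ((hπker _).mp h))
    rcases mem_zp2 (hsq t) h1 with h2 | h2
    · exact absurd ((hπker _).mp h2) huA
    · exact h2
  let K : Subgroup H := A.subgroupOf H
  have hKmem : ∀ u : H, u ∈ K ↔ (u : S) ∈ A := fun u => Subgroup.mem_subgroupOf
  have hidx : K.index = 2 := by
    rw [Subgroup.index_eq_two_iff]
    refine ⟨t, ?_⟩
    intro u
    by_cases huA : (u : S) ∈ A
    · right
      refine ⟨(hKmem u).mpr huA, ?_⟩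
      rw [hKmem]
      intro h
      apply ht
      have h2 := mul_mem (inv_mem huA) h
      have h3 : (u : S)⁻¹ * (((u * t : H)) : S) = (t : S) := by
        show (u : S)⁻¹ * ((u : S) * (t : S)) = t
        group
      rwa [h3] at h2
    · left
      refine ⟨?_, fun h => huA ((hKmem u).mp h)⟩
      rw [hKmem, ← hπker]
      have h1 := huniq u huA
      have h2 := hsq t
      show QuotientGroup.mk' A ((u : S) * (t : S)) = 1
      rw [map_mul, h1, ← pow_two, h2]
  have hK4 : Nat.card K = 4 := by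
    have h1 := K.card_mul_index
    rw [hidx, hcard] at h1
    omega
  haveI hKc : IsCyclic K := by
    let ι : K →* A := { toFun := fun u => ⟨(u : H).1, (hKmem _).mp u.2⟩, map_one' := rfl, map_mul' := fun _ _ => rfl }
    apply isCyclic_of_injective ι
    intro u v h
    apply Subtype.ext
    apply Subtype.ext
    have h2 := congrArg Subtype.val h
    exact h2
  obtain ⟨b₀, hb₀⟩ := IsCyclic.exists_generator (α := K)
  have hb₀o : orderOf b₀ = 4 := by
    rw [← hK4]
    exact orderOf_eq_card_of_forall_mem_zpowers hb₀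
  have hbo : orderOf ((b₀ : H) : S) = 4 := by
    rw [Subgroup.orderOf_coe, Subgroup.orderOf_coe]
    exact hb₀o
  have hbA : ((b₀ : H) : S) ∈ A := (hKmem _).mp b₀.2
  refine ⟨((b₀ : H) : S), t, hbA, hbo, ht, ?_, ?_⟩
  · rw [← hπker, map_pow]
    exact hsq t
  -- the action on `b`
  have hconjA : (t : S) * ((b₀ : H) : S) * (t : S)⁻¹ ∈ A := hAn.conj_mem _ hbA _
  have hb'o : orderOf ((t : S) * ((b₀ : H) : S) * (t : S)⁻¹) = 4 := by
    rw [← hbo]
    exact order_conj _ _
  have hcy := cyc4 (B := A) (b := ⟨_, hbA⟩) (w := ⟨_, hconjA⟩)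
    (by rw [Subgroup.orderOf_mk]; exact hbo) (by rw [Subgroup.orderOf_mk]; exact hb'o)
  rcases hcy with h | h
  · exfalso
    have h1 : (t : S) * ((b₀ : H) : S) * (t : S)⁻¹ = ((b₀ : H) : S) := congrArg Subtype.val h
    have hcom : (t : S) * ((b₀ : H) : S) = ((b₀ : H) : S) * (t : S) := by
      calc (t : S) * ((b₀ : H) : S) = ((t : S) * ((b₀ : H) : S) * (t : S)⁻¹) * (t : S) := by group
        _ = ((b₀ : H) : S) * (t : S) := by rw [h1]
    have hcom' : Commute (t : H) (b₀ : H) := Subtype.ext hcom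
    -- every element is `b^i` or `t b^i`
    have hform : ∀ u : H, ∃ i : ℤ, ∃ e : ℕ, u = (t : H) ^ e * (b₀ : H) ^ i := by
      intro u
      by_cases huA : (u : S) ∈ A
      · obtain ⟨i, hi⟩ := hb₀ ⟨u, (hKmem u).mpr huA⟩
        refine ⟨i, 0, ?_⟩
        have h3 := congrArg Subtype.val hi
        simpa using h3.symm
      · have h2 : ((t : H)⁻¹ * u : H) ∈ K := by
          rw [hKmem, ← hπker]
          show QuotientGroup.mk' A ((t : S)⁻¹ * (u : S)) = 1
          rw [map_mul, map_inv, huniq u huA]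
          simp
        obtain ⟨i, hi⟩ := hb₀ ⟨_, h2⟩
        refine ⟨i, 1, ?_⟩
        have h3 : (b₀ : H) ^ i = (t : H)⁻¹ * u := by
          have h4 := congrArg Subtype.val hi
          simpa using h4
        rw [h3]
        simp
    apply hz1
    rw [← hfg, commutatorElement_eq_one_iff_mul_comm]
    obtain ⟨i, e, hf⟩ := hform f
    obtain ⟨j, e', hg⟩ := hform g
    rw [hf, hg]
    have c1 : Commute ((t : H) ^ e) ((t : H) ^ e') := (Commute.refl _).pow_pow e e'
    have c2 : Commute ((t : H) ^ e) ((b₀ : H) ^ j) := (hcom'.pow_left e).zpow_right j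
    have c3 : Commute ((b₀ : H) ^ i) ((t : H) ^ e') := (hcom'.symm.zpow_left i).pow_right e'
    have c4 : Commute ((b₀ : H) ^ i) ((b₀ : H) ^ j) := (Commute.refl _).zpow_zpow i j
    exact (c1.mul_right c2).mul_left (c3.mul_right c4)
  · have h1 : (t : S) * ((b₀ : H) : S) * (t : S)⁻¹ = ((b₀ : H) : S)⁻¹ := congrArg Subtype.val h
    exact h1

include hP in
/-- The quotient has order two. -/
theorem index_two {b t : S} (hbA : b ∈ A) (hbo : orderOf b = 4) (ht : t ∉ A) (ht2 : t ^ 2 ∈ A)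
    (hact : t * b * t⁻¹ = b⁻¹) : Nat.card (S ⧸ A) = 2 := by
  classical
  haveI : Fact (Nat.Prime 2) := ⟨Nat.prime_two⟩
  have hπker : ∀ x : S, QuotientGroup.mk' A x = 1 ↔ x ∈ A := fun x => QuotientGroup.eq_one_iff x
  have hAcomm : ∀ x ∈ A, ∀ y ∈ A, x * y = y * x := by
    intro x hx y hy
    have h1 := mul_comm' (⟨x, hx⟩ : A) ⟨y, hy⟩
    exact congrArg Subtype.val h1
  have hQP : IsPGroup 2 (S ⧸ A) := hP.to_quotient A
  obtain ⟨q, hq⟩ := IsCyclic.exists_generator (α := S ⧸ A)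
  have hqo : orderOf q = Nat.card (S ⧸ A) := orderOf_eq_card_of_forall_mem_zpowers hq
  obtain ⟨m, hm⟩ := IsPGroup.iff_card.mp hQP
  rw [hm] at hqo ⊢
  have htb1 : QuotientGroup.mk' A t ≠ 1 := fun h => ht ((hπker _).mp h)
  have htb2 : (QuotientGroup.mk' A t) ^ 2 = 1 := by
    rw [← map_pow, hπker]
    exact ht2
  have hm0 : m ≠ 0 := by
    rintro rfl
    apply htb1
    rw [pow_zero, orderOf_eq_one_iff] at hqo
    obtain ⟨i, hi⟩ := hq (QuotientGroup.mk' A t)
    rw [← hi, hqo]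
    simp
  by_cases hm1 : m = 1
  · rw [hm1, pow_one]
  exfalso
  obtain ⟨l, rfl⟩ : ∃ l, m = l + 2 := ⟨m - 2, by omega⟩
  -- a square root of `t` modulo `A`
  have hy2 : (q ^ 2 ^ l) ^ 2 ≠ 1 := by
    rw [← pow_mul, ← pow_succ]
    intro h
    have h1 := orderOf_dvd_of_pow_eq_one h
    rw [hqo] at h1
    have h2 := (Nat.pow_dvd_pow_iff_le_right (by norm_num)).mp h1
    omega
  have hy4 : ((q ^ 2 ^ l) ^ 2) ^ 2 = 1 := by
    rw [← pow_mul, ← pow_mul, show 2 ^ l * (2 * 2) = 2 ^ (l + 2) by ring, ← hqo]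
    exact pow_orderOf_eq_one q
  have hUP : UniqueP 2 (S ⧸ A) := uniqueP_of_isCyclic
  have h1 := hUP _ _ hy4 htb2 hy2 htb1
  have hyt : (q ^ 2 ^ l) ^ 2 = QuotientGroup.mk' A t := by
    rcases mem_zp2 htb2 h1 with h2 | h2
    · exact absurd h2 hy2
    · exact h2
  obtain ⟨y, hy⟩ := QuotientGroup.mk'_surjective A (q ^ 2 ^ l)
  have hta : (y ^ 2)⁻¹ * t ∈ A := by
    rw [← hπker, map_mul, map_inv, map_pow, hy, hyt]
    simp
  obtain ⟨a, haA⟩ : ∃ a, a = (y ^ 2)⁻¹ * t := ⟨_, rfl⟩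
  rw [← haA] at hta
  have htform : t = y ^ 2 * a := by
    rw [haA]
    group
  -- `y` acts on `b` by `±1`
  have hybA : y * b * y⁻¹ ∈ A := hAn.conj_mem _ hbA _
  have hybo : orderOf (y * b * y⁻¹) = 4 := by
    rw [← hbo]
    exact order_conj _ _
  have hcy := cyc4 (B := A) (b := ⟨_, hbA⟩) (w := ⟨_, hybA⟩)
    (by rw [Subgroup.orderOf_mk]; exact hbo) (by rw [Subgroup.orderOf_mk]; exact hybo)
  have hy2b : y ^ 2 * b * (y ^ 2)⁻¹ = b := by
    rw [pow_two]
    rcases hcy with h | h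
    · have h2 : y * b * y⁻¹ = b := congrArg Subtype.val h
      calc y * y * b * (y * y)⁻¹ = y * (y * b * y⁻¹) * y⁻¹ := by group
        _ = b := by rw [h2, h2]
    · have h2 : y * b * y⁻¹ = b⁻¹ := congrArg Subtype.val h
      have h3 : y * b⁻¹ * y⁻¹ = b := by
        calc y * b⁻¹ * y⁻¹ = (y * b * y⁻¹)⁻¹ := by group
          _ = b := by rw [h2, inv_inv]
      calc y * y * b * (y * y)⁻¹ = y * (y * b * y⁻¹) * y⁻¹ := by group
        _ = b := by rw [h2, h3]
  have hab : a * b * a⁻¹ = b := by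
    rw [hAcomm a hta b hbA]
    group
  have h5 : b⁻¹ = b := by
    rw [← hact, htform]
    calc y ^ 2 * a * b * (y ^ 2 * a)⁻¹ = y ^ 2 * (a * b * a⁻¹) * (y ^ 2)⁻¹ := by group
      _ = b := by rw [hab, hy2b]
  have h6 : b ^ 2 = 1 := by
    rw [pow_two]
    nth_rw 1 [← h5]
    simp
  have h7 := orderOf_dvd_of_pow_eq_one h6
  rw [hbo] at h7
  omega

theorem final (hP : IsPGroup 2 S) (A : Subgroup S) [hAn : A.Normal] [hAc : IsCyclic A]
    (hQ2 : Nat.card (S ⧸ A) = 2) {b t : S} (hbA : b ∈ A) (hbo : orderOf b = 4) (ht : t ∉ A)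
    (ht2 : t ^ 2 ∈ A) (hact : t * b * t⁻¹ = b⁻¹) :
    ((∃ k : ℕ, Nonempty (S ≃* DihedralGroup (2 ^ (k + 2)))) ∨
      (∃ k : ℕ, Nat.card S = 2 ^ (k + 4) ∧ ∃ a b : S, orderOf a = 2 ^ (k + 3) ∧ orderOf b = 2 ∧
        b * a * b⁻¹ = a ^ (2 ^ (k + 2) - 1)) ∨
      (∃ k : ℕ, Nonempty (S ≃* QuaternionGroup (2 ^ (k + 1))))) := by
  classical
  haveI : Fact (Nat.Prime 2) := ⟨Nat.prime_two⟩
  obtain ⟨x₀, hx₀⟩ := IsCyclic.exists_generator (α := A)
  obtain ⟨x, hx⟩ : ∃ x : S, x = (x₀ : S) := ⟨_, rfl⟩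
  have hxA : x ∈ A := by rw [hx]; exact x₀.2
  have hAz : A = zpowers x := by
    apply le_antisymm
    · intro y hy
      obtain ⟨i, hi⟩ := hx₀ ⟨y, hy⟩
      refine ⟨i, ?_⟩
      have := congrArg Subtype.val hi
      rw [hx]
      simpa using this
    · exact zpowers_le.mpr hxA
  have hAp : IsPGroup 2 A := hP.to_subgroup A
  obtain ⟨n, hn⟩ := IsPGroup.iff_card.mp hAp
  have hxo : orderOf x = 2 ^ n := by
    rw [hx, Subgroup.orderOf_coe, ← hn]
    exact orderOf_eq_card_of_forall_mem_zpowers hx₀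
  have hn2 : 2 ≤ n := by
    have h1 : orderOf b ∣ Nat.card A := Subgroup.orderOf_dvd_natCard A hbA
    rw [hbo, hn, show (4 : ℕ) = 2 ^ 2 from rfl] at h1
    exact (Nat.pow_dvd_pow_iff_le_right (by norm_num)).mp h1
  have hcard : Nat.card S = 2 ^ (n + 1) := by
    have h1 := A.card_mul_index
    rw [Subgroup.index_eq_card, hQ2, hn] at h1
    rw [← h1, pow_succ]
  have htz : t ∉ zpowers x := by
    rw [← hAz]
    exact ht
  have hzpow : ∀ y ∈ A, ∃ k : ℕ, y = x ^ k := by
    intro y hy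
    rw [hAz, ← mem_powers_iff_mem_zpowers, Submonoid.mem_powers_iff] at hy
    obtain ⟨k, hk⟩ := hy
    exact ⟨k, hk.symm⟩
  obtain ⟨r, hr⟩ := hzpow _ (hAn.conj_mem x hxA t)
  have hconj : ∀ k : ℕ, t * x ^ k * t⁻¹ = x ^ (r * k) := by
    intro k
    rw [← conj_pow, hr, ← pow_mul]
  obtain ⟨c, hc⟩ := hzpow b hbA
  have hbr : b ^ (r + 1) = 1 := by
    have h1 : b ^ r = b⁻¹ := by
      rw [← hact, hc, hconj, ← pow_mul, mul_comm]
    rw [pow_succ, h1, inv_mul_cancel]
  have h4 : 4 ∣ r + 1 := by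
    rw [← hbo]
    exact orderOf_dvd_of_pow_eq_one hbr
  obtain ⟨u, hu⟩ := hzpow _ ht2
  have hcommA : ∀ y ∈ A, ∀ w ∈ A, y * w = w * y := by
    intro y hy w hw
    have h1 := mul_comm' (⟨y, hy⟩ : A) ⟨w, hw⟩
    exact congrArg Subtype.val h1
  have hr2 : r ^ 2 ≡ 1 [MOD 2 ^ n] := by
    have h1 : x ^ (r ^ 2) = x ^ 1 := by
      have h2 : t ^ 2 * x * (t ^ 2)⁻¹ = x := by
        rw [hcommA _ ht2 _ hxA]
        group
      have h3 : t ^ 2 * x * (t ^ 2)⁻¹ = t * (t * x * t⁻¹) * t⁻¹ := by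
        rw [pow_two]
        group
      rw [h3, hr, hconj] at h2
      rw [pow_one, pow_two, h2]
    have h2 := pow_eq_pow_iff_modEq.mp h1
    rwa [hxo] at h2
  have hrw := arith1 hn2 h4 hr2
  obtain ⟨w, hw⟩ := hrw
  have hr1 : 1 ≤ r := by
    obtain ⟨s, hs⟩ := h4
    omega
  have hu2 : 2 ^ n ∣ (r - 1) * u := by
    have h1 : x ^ (r * u) = x ^ u := by
      rw [← hconj, ← hu]
      rw [pow_two]
      group
    have h2 := pow_eq_pow_iff_modEq.mp h1
    rw [hxo] at h2
    have h3 : u ≤ r * u := Nat.le_mul_of_pos_left u (by omega)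
    have h5 := (Nat.modEq_iff_dvd' h3).mp h2.symm
    have h6 : r * u - u = (r - 1) * u := by
      rw [Nat.sub_mul, one_mul]
    rwa [h6] at h5
  obtain ⟨v, hv⟩ := arith2 hn2 h4 hu2
  obtain ⟨z, hz⟩ : ∃ z, z = x ^ 2 ^ (n - 1) := ⟨_, rfl⟩
  have hz2 : z ^ 2 = 1 := by
    rw [hz, ← pow_mul, ← pow_succ, show n - 1 + 1 = n by omega, ← hxo]
    exact pow_orderOf_eq_one x
  have hev : ∀ m : ℕ, z ^ m = 1 ∨ z ^ m = z := by
    intro m
    rcases Nat.even_or_odd' m with ⟨l, rfl | rfl⟩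
    · left
      rw [pow_mul, hz2, one_pow]
    · right
      rw [pow_succ, pow_mul, hz2, one_pow, one_mul]
  have htsq : t ^ 2 = 1 ∨ t ^ 2 = z := by
    rw [hu, hv, pow_mul, ← hz]
    exact hev v
  have hxr : x ^ r * x = 1 ∨ x ^ r * x = z := by
    rw [← pow_succ, hw, pow_mul, ← hz]
    exact hev w
  obtain ⟨k, rfl⟩ : ∃ k, n = k + 2 := ⟨n - 2, by omega⟩
  have hk1 : k + 2 - 1 = k + 1 := rfl
  rcases hxr with hxr | hxr
  · -- `t` inverts `x`
    have hinv : t * x * t⁻¹ = x⁻¹ := by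
      rw [hr]
      exact eq_inv_of_mul_eq_one_left hxr
    rcases htsq with h | h
    · left
      exact ⟨k, dihedral_of_data hxo hcard htz hinv h⟩
    · right; right
      refine ⟨k, ?_⟩
      have h5 : t ^ 2 = x ^ 2 ^ (k + 2 - 1) := by rw [h, hz]
      exact quaternion_of_data (by omega) hxo hcard htz hinv h5
  · -- semidihedral
    right; left
    -- `w` is odd, so `k ≥ 1`
    have hk : k ≠ 0 := by
      rintro rfl
      have h5 : x ^ (r + 1) = 1 := by
        have h6 : 2 ^ (0 + 2) ∣ r + 1 := h4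
        obtain ⟨e, he⟩ := h6
        rw [he, pow_mul, ← hxo, pow_orderOf_eq_one, one_pow]
      rw [pow_succ, hxr] at h5
      have h6 : z ≠ 1 := by
        rw [hz]
        intro h
        have h7 := orderOf_dvd_of_pow_eq_one h
        rw [hxo] at h7
        have h8 := (Nat.pow_dvd_pow_iff_le_right (by norm_num)).mp h7
        omega
      exact h6 h5
    obtain ⟨k', rfl⟩ : ∃ k', k = k' + 1 := ⟨k - 1, by omega⟩
    have hform : x ^ r = x ^ (2 ^ (k' + 2) - 1) := by
      have h5 : x ^ (2 ^ (k' + 2) - 1) * x = z := by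
        rw [← pow_succ, hz]
        congr 1
        have h6 : 1 ≤ 2 ^ (k' + 2) := Nat.one_le_two_pow
        have h7 : k' + 1 + 2 - 1 = k' + 2 := rfl
        rw [h7]
        omega
      exact mul_right_cancel (hxr.trans h5.symm)
    have hz_x : Commute z x := by
      rw [hz]
      exact (Commute.refl x).pow_left _
    have hznot : ∀ y : S, y ^ 2 = 1 → y ∉ zpowers x → y * x * y⁻¹ = x ^ r →
        orderOf y = 2 ∧ y * x * y⁻¹ = x ^ (2 ^ (k' + 2) - 1) := by
      intro y hy1 hy2 hy3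
      refine ⟨orderOf_eq_prime hy1 ?_, by rw [hy3, hform]⟩
      rintro rfl
      exact hy2 (one_mem _)
    have hex : ∃ b' : S, orderOf b' = 2 ∧ b' * x * b'⁻¹ = x ^ (2 ^ (k' + 2) - 1) := by
      rcases htsq with h | h
      · obtain ⟨h1, h2⟩ := hznot t h htz hr
        exact ⟨t, h1, h2⟩
      · have h0 : (t * x) ^ 2 = 1 := by
          have h1 : (t * x) ^ 2 = (t * x * t⁻¹) * t ^ 2 * x := by
            rw [pow_two, pow_two]
            group
          have hzc : Commute z (x ^ r) := hz_x.pow_right r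
          rw [h1, hr, h, ← hzc.eq, mul_assoc, hxr, ← pow_two, hz2]
        have h1 : t * x ∉ zpowers x := by
          intro h2
          apply htz
          have h3 := mul_mem h2 (inv_mem (mem_zpowers x))
          simpa using h3
        have h2 : t * x * x * (t * x)⁻¹ = x ^ r := by
          rw [← hr]
          group
        obtain ⟨h3, h5⟩ := hznot _ h0 h1 h2
        exact ⟨_, h3, h5⟩
    obtain ⟨b', h1, h2⟩ := hex
    exact ⟨k', hcard.trans (by ring_nf), x, b', hxo.trans (by ring_nf), h1, h2⟩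

end groupPart


/-- Let S be a finite 2-group of sectional 2-rank at most 2 that contains a subgroup isomorphic to the dihedral group of order 8 or to the quaternion group of order 8. Then S is dihedral of order at least 8, semidihedral of order at least 16 (order 2^(k+4) with an element a of order 2^(k+3) and an involution b with b a b⁻¹ = a^(2^(k+2)−1)), or generalized quaternion of order at least 8. -/
theorem result {S : Type*} [Group S] [Finite S] (h2 : IsPGroup 2 S) (hr : Cfsg.SectionalPRankLE 2 2 S)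
    (hsub : ∃ H : Subgroup S, Nonempty (↥H ≃* DihedralGroup 4) ∨ Nonempty (↥H ≃* QuaternionGroup 2)) :
    ((∃ k : ℕ, Nonempty (S ≃* DihedralGroup (2 ^ (k + 2)))) ∨
      (∃ k : ℕ, Nat.card S = 2 ^ (k + 4) ∧ ∃ a b : S, orderOf a = 2 ^ (k + 3) ∧ orderOf b = 2 ∧ b * a * b⁻¹ = a ^ (2 ^ (k + 2) - 1)) ∨
      (∃ k : ℕ, Nonempty (S ≃* QuaternionGroup (2 ^ (k + 1))))) := by
  classical
  obtain ⟨A, hAn, hAc, hQc⟩ := Cfsg.Agent.S4397.result h2 hr
  obtain ⟨H, hH⟩ := hsub
  have hH8 : Q8like H := by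
    rcases hH with ⟨⟨e⟩⟩ | ⟨⟨e⟩⟩
    · exact Q8like.of_equiv e Q8like_D
    · exact Q8like.of_equiv e Q8like_Q
  obtain ⟨b, t, hbA, hbo, ht, ht2, hact⟩ := data_of_H h2 A H hH8
  exact final h2 A (index_two h2 A hbA hbo ht ht2 hact) hbA hbo ht ht2 hact

end Cfsg.Agent.S4398
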