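import Cfsg.Statements.S4400
import Mathlib
import Cfsg.Agent.Lib.PGroup.Basic
import Cfsg.Agent.Lib.PGroup.KInf
import Cfsg.Agent.Lib.PGroup.Replacement
import Cfsg.Agent.Lib.Basic.PCore
import Cfsg.Agent.S0112

set_option autoImplicit false
open Cfsg
open scoped commutatorElement

namespace Cfsg.Agent.S4400

/-- The centre of a normal subgroup with centre of order 2 is central. -/
theorem center_map_le_center {S : Type*} [Group S] [Finite S] (h2 : IsPGroup 2 S)
    (P : Subgroup S) [P.Normal] (hZ : Nat.card (Subgroup.center P) = 2) :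
    (Subgroup.center P).map P.subtype ≤ Subgroup.center S := by
  have hN : ((Subgroup.center P).map P.subtype).Normal :=
    Cfsg.Agent.Lib.Basic.PCore.map_subtype_normal_of_characteristic _
  have hcard : Nat.card ((Subgroup.center P).map P.subtype) = 2 := by
    rw [Subgroup.card_map_of_injective P.subtype_injective, hZ]
  have hle := Cfsg.Agent.S0112.normalizer_le_centralizer_of_card_eq h2 _ hcard
  intro z hz
  rw [Subgroup.mem_center_iff]
  intro s
  have hs : s ∈ Subgroup.normalizer (((Subgroup.center P).map P.subtype : Subgroup S) : Set S) := by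
    rw [Subgroup.mem_normalizer_iff]
    intro h
    exact ⟨fun hh => hN.conj_mem h hh s, fun hh => by
      have := hN.conj_mem _ hh s⁻¹
      have e : s⁻¹ * (s * h * s⁻¹) * s⁻¹⁻¹ = h := by group
      rwa [e] at this⟩
  exact (Subgroup.mem_centralizer_iff.mp (hle hs) z hz).symm

/-- If a normal subgroup `Q` meets `P` then it contains the centre of `P` when `|Z(P)| = 2`. -/
theorem center_map_le_of_inf_ne_bot {S : Type*} [Group S] [Finite S] {P Q : Subgroup S}
    [P.Normal] [Q.Normal] (hPp : IsPGroup 2 P) (hZ : Nat.card (Subgroup.center P) = 2)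
    (hne : ¬ P ⊓ Q = ⊥) : (Subgroup.center P).map P.subtype ≤ Q := by
  have hW : (Q.subgroupOf P) ≠ ⊥ := by
    intro h
    apply hne
    rw [eq_bot_iff]
    rintro x ⟨hx1, hx2⟩
    have : (⟨x, hx1⟩ : P) ∈ Q.subgroupOf P := hx2
    rw [h, Subgroup.mem_bot] at this
    exact congrArg Subtype.val this
  have h1 := Cfsg.Agent.Lib.PGroup.Basic.inf_center_ne_bot hPp hW
  obtain ⟨⟨z, hz⟩, hz1⟩ := Subgroup.ne_bot_iff_exists_ne_one.mp h1
  have hz1' : z ≠ 1 := fun h => hz1 (Subtype.ext h)
  obtain ⟨w, -, hw⟩ := (Nat.card_eq_two_iff' (1 : Subgroup.center P)).mp hZ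
  have hzw : (⟨z, hz.2⟩ : Subgroup.center P) = w := hw _ (by
    intro h
    exact hz1' (congrArg Subtype.val h))
  rintro _ ⟨c, hc, rfl⟩
  by_cases hc1 : c = 1
  · rw [hc1, map_one]
    exact one_mem _
  · have hcw : (⟨c, hc⟩ : Subgroup.center P) = w := hw _ (by
      intro h
      exact hc1 (congrArg Subtype.val h))
    have : c = z := by
      have := hcw.trans hzw.symm
      exact congrArg Subtype.val this
    rw [this]
    exact hz.1

/-- The Frattini subgroup of a non-abelian 2-group has index at least 4. -/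
theorem four_mul_card_frattini_le {P : Type*} [Group P] [Finite P] (hP : IsPGroup 2 P)
    (hna : ¬ IsMulCommutative P) : 4 * Nat.card (frattini P) ≤ Nat.card P := by
  have hcyc : ∀ u : P, Subgroup.zpowers u ⊔ frattini P = ⊤ → False := by
    intro u hu
    have h1 : Subgroup.zpowers u = ⊤ := frattini_nongenerating hu
    apply hna
    have : IsCyclic P := ⟨u, fun x => by
      have : x ∈ Subgroup.zpowers u := by rw [h1]; trivial
      exact this⟩
    letI := IsCyclic.commGroup (α := P)
    exact ⟨⟨mul_comm⟩⟩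
  obtain ⟨k, hk⟩ := hP.index (frattini P)
  have hcard := Subgroup.card_mul_index (frattini P)
  have hk2 : 2 ≤ k := by
    by_contra hlt
    have hk1 : k = 0 ∨ k = 1 := by omega
    rcases hk1 with rfl | rfl
    · rw [pow_zero, Subgroup.index_eq_one] at hk
      exact hcyc 1 (by rw [hk]; simp)
    · rw [pow_one] at hk
      have hne : frattini P ≠ ⊤ := by
        intro h
        rw [h, Subgroup.index_top] at hk
        omega
      obtain ⟨u, hu⟩ : ∃ u, u ∉ frattini P := by
        by_contra hcon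
        push Not at hcon
        exact hne (eq_top_iff.mpr fun x _ => hcon x)
      apply hcyc u
      have hle : frattini P ≤ Subgroup.zpowers u ⊔ frattini P := le_sup_right
      have hd : (Subgroup.zpowers u ⊔ frattini P).index ∣ 2 := by
        rw [← hk]
        exact Subgroup.index_dvd_of_le hle
      rcases (Nat.dvd_prime Nat.prime_two).mp hd with h1 | h1
      · exact Subgroup.index_eq_one.mp h1
      · exfalso
        have hc1 := Subgroup.card_mul_index (Subgroup.zpowers u ⊔ frattini P)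
        rw [h1, ← hcard, hk] at hc1
        have heq : Nat.card ↥(Subgroup.zpowers u ⊔ frattini P) = Nat.card (frattini P) :=
          Nat.eq_of_mul_eq_mul_right (by norm_num) hc1
        have := Subgroup.eq_of_le_of_card_ge hle heq.le
        apply hu
        rw [this]
        exact Subgroup.mem_sup_left (Subgroup.mem_zpowers u)
  obtain ⟨j, rfl⟩ := Nat.exists_eq_add_of_le hk2
  rw [← hcard, hk, pow_add, mul_comm (Nat.card _)]
  have : 0 < 2 ^ j := by positivity
  nlinarith [Nat.card_pos (α := frattini P)]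

/-- If the centre of a non-abelian 2-group has order 2, then it lies in the Frattini subgroup. -/
theorem center_le_frattini {P : Type*} [Group P] [Finite P] (hP : IsPGroup 2 P)
    (hna : ¬ IsMulCommutative P) (hZ : Nat.card (Subgroup.center P) = 2) :
    Subgroup.center P ≤ frattini P := by
  have hCne : commutator P ≠ ⊥ := by
    intro h
    apply hna
    refine ⟨⟨fun a b => ?_⟩⟩
    have h1 : ⁅a, b⁆ ∈ commutator P :=
      Subgroup.commutator_mem_commutator (Subgroup.mem_top a) (Subgroup.mem_top b)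
    rw [h, Subgroup.mem_bot] at h1
    exact commutatorElement_eq_one_iff_mul_comm.mp h1
  have h1 := Cfsg.Agent.Lib.PGroup.Basic.inf_center_ne_bot hP hCne
  obtain ⟨⟨z, hz⟩, hz1⟩ := Subgroup.ne_bot_iff_exists_ne_one.mp h1
  have hz1' : z ≠ 1 := fun h => hz1 (Subtype.ext h)
  obtain ⟨w, -, hw⟩ := (Nat.card_eq_two_iff' (1 : Subgroup.center P)).mp hZ
  have hzw : (⟨z, hz.2⟩ : Subgroup.center P) = w := hw _ (by
    intro h
    exact hz1' (congrArg Subtype.val h))
  intro c hc
  by_cases hc1 : c = 1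
  · rw [hc1]
    exact one_mem _
  · have hcw : (⟨c, hc⟩ : Subgroup.center P) = w := hw _ (by
      intro h
      exact hc1 (congrArg Subtype.val h))
    have : c = z := by
      have := hcw.trans hzw.symm
      exact congrArg Subtype.val this
    rw [this]
    exact Cfsg.Agent.Lib.PGroup.Basic.commutator_le_frattini hP hz.1

/-- Let S be a finite 2-group of sectional 2-rank at most 4, and let P and Q be normal non-abelian subgroups of S whose centres have order 2 and are different. Then P and Q commute elementwise and intersect trivially, and PQ contains its own centralizer in S. -/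
theorem result {S : Type*} [Group S] [Finite S] (h2 : IsPGroup 2 S) (hr : Cfsg.SectionalPRankLE 2 4 S)
    (P Q : Subgroup S) [P.Normal] [Q.Normal] (hP : ¬ IsMulCommutative ↥P) (hQ : ¬ IsMulCommutative ↥Q)
    (hZP : Nat.card ↥(Subgroup.center ↥P) = 2) (hZQ : Nat.card ↥(Subgroup.center ↥Q) = 2)
    (hne : (Subgroup.center ↥P).map P.subtype ≠ (Subgroup.center ↥Q).map Q.subtype) :
    ⁅P, Q⁆ = ⊥ ∧ P ⊓ Q = ⊥ ∧ Subgroup.centralizer ((P ⊔ Q : Subgroup S) : Set S) ≤ P ⊔ Q := by
  classical
  have hPp : IsPGroup 2 P := h2.to_subgroup P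
  have hQp : IsPGroup 2 Q := h2.to_subgroup Q
  have hZPS := center_map_le_center h2 P hZP
  have hZQS := center_map_le_center h2 Q hZQ
  have hPQ : P ⊓ Q = ⊥ := by
    by_contra hne'
    have hle1 := center_map_le_of_inf_ne_bot hPp hZP hne'
    have hle2 : (Subgroup.center ↥P).map P.subtype ≤ (Subgroup.center ↥Q).map Q.subtype := by
      rintro z hz
      refine ⟨⟨z, hle1 hz⟩, ?_, rfl⟩
      change _ ∈ Subgroup.center ↥Q
      rw [Subgroup.mem_center_iff]
      rintro ⟨q, hq⟩
      apply Subtype.ext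
      exact (Subgroup.mem_center_iff.mp (hZPS hz) q)
    refine hne (Subgroup.eq_of_le_of_card_ge hle2 ?_)
    rw [Subgroup.card_map_of_injective P.subtype_injective,
      Subgroup.card_map_of_injective Q.subtype_injective, hZP, hZQ]
  have hcomm : ⁅P, Q⁆ = ⊥ := by
    rw [eq_bot_iff, ← hPQ]
    exact Subgroup.commutator_le_inf P Q
  have hPQc : ∀ a ∈ P, ∀ b ∈ Q, a * b = b * a := by
    intro a ha b hb
    have h1 : ⁅a, b⁆ ∈ ⁅P, Q⁆ := Subgroup.commutator_mem_commutator ha hb
    rw [hcomm, Subgroup.mem_bot] at h1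
    exact commutatorElement_eq_one_iff_mul_comm.mp h1
  refine ⟨hcomm, hPQ, ?_⟩
  by_contra hC
  set R := P ⊔ Q with hR
  set C := Subgroup.centralizer ((R : Subgroup S) : Set S) with hCdef
  obtain ⟨y, hyC, hyR⟩ := Set.not_subset.mp hC
  -- an element `x ∈ C \\ R` with `x² ∈ R`
  obtain ⟨x, hxC, hxR, hx2⟩ : ∃ x ∈ C, x ∉ R ∧ x ^ 2 ∈ R := by
    have hex : ∃ j : ℕ, y ^ (2 ^ j) ∈ R := by
      obtain ⟨k, hk⟩ := h2 y
      refine ⟨k, ?_⟩
      rw [hk]
      exact one_mem _
    have hj := Nat.find_spec hex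
    have hj0 : Nat.find hex ≠ 0 := by
      intro h0
      rw [h0, pow_zero, pow_one] at hj
      exact hyR hj
    obtain ⟨i, hi⟩ := Nat.exists_eq_succ_of_ne_zero hj0
    refine ⟨y ^ (2 ^ i), pow_mem hyC _, ?_, ?_⟩
    · exact Nat.find_min hex (by omega)
    · rw [← pow_mul, ← pow_succ]
      rw [hi] at hj
      exact hj
  -- the Frattini pieces
  set FP := (frattini ↥P).map P.subtype with hFP
  set FQ := (frattini ↥Q).map Q.subtype with hFQ
  have hFPn : FP.Normal := Cfsg.Agent.Lib.Basic.PCore.map_subtype_normal_of_characteristic _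
  have hFQn : FQ.Normal := Cfsg.Agent.Lib.Basic.PCore.map_subtype_normal_of_characteristic _
  set F := FP ⊔ FQ with hF
  have hFn : F.Normal := inferInstance
  have hZPF := center_le_frattini hPp hP hZP
  have hZQF := center_le_frattini hQp hQ hZQ
  -- `x² ∈ F`
  have hx2F : x ^ 2 ∈ F := by
    have hx2C : x ^ 2 ∈ C := pow_mem hxC 2
    obtain ⟨a, ha, b, hb, hab⟩ := Subgroup.mem_sup_of_normal_right.mp hx2
    have hc : ∀ r ∈ R, r * (a * b) = (a * b) * r := by
      intro r hr
      rw [hab]
      exact (Subgroup.mem_centralizer_iff.mp hx2C r hr)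
    have haZ : (⟨a, ha⟩ : P) ∈ Subgroup.center ↥P := by
      rw [Subgroup.mem_center_iff]
      rintro ⟨u, hu⟩
      apply Subtype.ext
      have h1 := hc u (Subgroup.mem_sup_left hu)
      have h3 : b * u = u * b := (hPQc u hu b hb).symm
      change u * a = a * u
      calc u * a = (u * (a * b)) * b⁻¹ := by group
        _ = (a * b * u) * b⁻¹ := by rw [h1]
        _ = a * (b * u) * b⁻¹ := by group
        _ = a * (u * b) * b⁻¹ := by rw [h3]
        _ = a * u := by group
    have hbZ : (⟨b, hb⟩ : Q) ∈ Subgroup.center ↥Q := by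
      rw [Subgroup.mem_center_iff]
      rintro ⟨u, hu⟩
      apply Subtype.ext
      have h1 := hc u (Subgroup.mem_sup_right hu)
      have h3 : a * u = u * a := hPQc a ha u hu
      change u * b = b * u
      calc u * b = a⁻¹ * (a * u) * b := by group
        _ = a⁻¹ * (u * a) * b := by rw [h3]
        _ = a⁻¹ * (u * (a * b)) := by group
        _ = a⁻¹ * (a * b * u) := by rw [h1]
        _ = b * u := by group
    rw [← hab]
    exact mul_mem (Subgroup.mem_sup_left ⟨_, hZPF haZ, rfl⟩) (Subgroup.mem_sup_right ⟨_, hZQF hbZ, rfl⟩)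
  -- the subgroup `T`
  set T := R ⊔ Subgroup.zpowers x with hT
  have hRT : R ≤ T := le_sup_left
  have hFR : F ≤ R := by
    refine sup_le ?_ ?_
    · rintro _ ⟨u, -, rfl⟩
      exact Subgroup.mem_sup_left u.2
    · rintro _ ⟨u, -, rfl⟩
      exact Subgroup.mem_sup_right u.2
  have hsq : ∀ t ∈ T, t ^ 2 ∈ F := by
    intro t ht
    obtain ⟨r, hr, k, rfl⟩ := Cfsg.Agent.Lib.PGroup.KInf.exists_mul_of_mem_sup_zpowers hxC ht
    obtain ⟨a, ha, b, hb, rfl⟩ := Subgroup.mem_sup_of_normal_right.mp hr
    have hcx : Commute (a * b) (x ^ k) :=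
      Commute.zpow_right (Subgroup.mem_centralizer_iff.mp hxC (a * b) hr) k
    have hab : Commute a b := hPQc a ha b hb
    rw [hcx.mul_pow, hab.mul_pow]
    have h1 : a ^ 2 ∈ F := by
      refine Subgroup.mem_sup_left ⟨(⟨a, ha⟩ : P) ^ 2, ?_, rfl⟩
      exact Cfsg.Agent.Lib.PGroup.Basic.pow_mem_frattini hPp _
    have h2' : b ^ 2 ∈ F := by
      refine Subgroup.mem_sup_right ⟨(⟨b, hb⟩ : Q) ^ 2, ?_, rfl⟩
      exact Cfsg.Agent.Lib.PGroup.Basic.pow_mem_frattini hQp _
    have h3 : (x ^ k) ^ 2 = (x ^ 2) ^ k := by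
      rw [← zpow_natCast, ← zpow_natCast x 2, ← zpow_mul, ← zpow_mul, mul_comm]
    rw [h3]
    exact mul_mem (mul_mem h1 h2') (zpow_mem hx2F k)
  -- the section
  let N : Subgroup T := F.subgroupOf T
  have hNn : N.Normal := Subgroup.normal_subgroupOf
  have hexp : ∀ a : T ⧸ N, a ^ 2 = 1 := by
    intro a
    obtain ⟨t, rfl⟩ := QuotientGroup.mk_surjective a
    rw [← QuotientGroup.mk_pow, QuotientGroup.eq_one_iff]
    exact hsq t t.2
  have hcommQ : ∀ a b : T ⧸ N, a * b = b * a := by
    intro a b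
    have h1 : (a * b) ^ 2 = 1 := hexp _
    have h2' := hexp a
    have h3 := hexp b
    calc a * b = a * (a * b * (a * b)) * b := by
          rw [← pow_two, h1]; group
      _ = (a * a) * (b * a) * (b * b) := by group
      _ = b * a := by rw [← pow_two, ← pow_two, h2', h3]; group
  have hbound := hr T N ⊤ ⟨⟨fun a b => Subtype.ext (hcommQ a b)⟩⟩ (fun a _ => hexp a)
  have hcardQ : Nat.card (T ⧸ N) ≤ 2 ^ 4 := by
    rw [← Nat.card_congr (Subgroup.topEquiv (G := T ⧸ N)).toEquiv]
    exact hbound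
  have hT1 : Nat.card T = Nat.card (T ⧸ N) * Nat.card N :=
    Subgroup.card_eq_card_quotient_mul_card_subgroup N
  have hN1 : Nat.card N = Nat.card F :=
    Nat.card_congr (Subgroup.subgroupOfEquivOfLe (hFR.trans hRT)).toEquiv
  -- the lower bound
  have hFcard : Nat.card F ≤ Nat.card FP * Nat.card FQ := by
    rw [← Nat.card_prod]
    apply Nat.card_le_card_of_surjective
      (fun u : FP × FQ => (⟨(u.1 : S) * u.2, mul_mem (Subgroup.mem_sup_left u.1.2)
        (Subgroup.mem_sup_right u.2.2)⟩ : F))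
    rintro ⟨f, hf⟩
    obtain ⟨a, ha, b, hb, rfl⟩ := Subgroup.mem_sup_of_normal_right.mp hf
    exact ⟨(⟨a, ha⟩, ⟨b, hb⟩), rfl⟩
  have hRcard : Nat.card P * Nat.card Q ≤ Nat.card R := by
    rw [← Nat.card_prod]
    apply Nat.card_le_card_of_injective
      (fun u : P × Q => (⟨(u.1 : S) * u.2, mul_mem (Subgroup.mem_sup_left u.1.2)
        (Subgroup.mem_sup_right u.2.2)⟩ : R))
    rintro ⟨⟨a, ha⟩, ⟨b, hb⟩⟩ ⟨⟨a', ha'⟩, ⟨b', hb'⟩⟩ h
    have h1 : a * b = a' * b' := congrArg Subtype.val h
    have h2' : a'⁻¹ * a = b' * b⁻¹ := by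
      calc a'⁻¹ * a = a'⁻¹ * (a * b) * b⁻¹ := by group
        _ = a'⁻¹ * (a' * b') * b⁻¹ := by rw [h1]
        _ = b' * b⁻¹ := by group
    have h3 : a'⁻¹ * a ∈ P ⊓ Q :=
      Subgroup.mem_inf.mpr ⟨P.mul_mem (P.inv_mem ha') ha, h2' ▸ Q.mul_mem hb' (Q.inv_mem hb)⟩
    rw [hPQ, Subgroup.mem_bot] at h3
    have haa : a = a' := by
      have := inv_mul_eq_one.mp h3
      exact this.symm
    have hbb : b = b' := by
      subst haa
      exact mul_left_cancel h1
    subst haa hbb
    rfl
  have hTcard : 2 * Nat.card R ≤ Nat.card T := by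
    have hlt : R < T := by
      refine lt_of_le_of_ne hRT fun h => hxR ?_
      rw [h]
      exact Subgroup.mem_sup_right (Subgroup.mem_zpowers x)
    have h1 := Cfsg.Agent.Lib.PGroup.Replacement.card_lt_of_lt hlt
    obtain ⟨c, hc⟩ := Subgroup.card_dvd_of_le hRT
    rw [hc] at h1 ⊢
    have hRpos : 0 < Nat.card R := Nat.card_pos
    have hc2 : 2 ≤ c := by
      by_contra hlt2
      have : c ≤ 1 := by omega
      have := Nat.mul_le_mul_left (Nat.card R) this
      omega
    rw [mul_comm]
    exact Nat.mul_le_mul_left _ hc2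
  have hFPc : 4 * Nat.card FP ≤ Nat.card P := by
    rw [Subgroup.card_map_of_injective P.subtype_injective]
    exact four_mul_card_frattini_le hPp hP
  have hFQc : 4 * Nat.card FQ ≤ Nat.card Q := by
    rw [Subgroup.card_map_of_injective Q.subtype_injective]
    exact four_mul_card_frattini_le hQp hQ
  have hFpos : 0 < Nat.card F := Nat.card_pos
  have hup : Nat.card T ≤ 16 * Nat.card F := by
    rw [hT1, hN1]
    exact Nat.mul_le_mul_right _ hcardQ
  have hmul : (4 * Nat.card FP) * (4 * Nat.card FQ) ≤ Nat.card P * Nat.card Q :=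
    Nat.mul_le_mul hFPc hFQc
  nlinarith

end Cfsg.Agent.S4400
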