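import Cfsg.Statements.S4401
import Mathlib
import Cfsg.Agent.Lib.PGroup.Basic
import Cfsg.Agent.Lib.PGroup.HuppertB
import Cfsg.Agent.Lib.Fusion.Meta.Two

set_option autoImplicit false
open Cfsg

namespace Cfsg.Agent.S4401

universe u

section Rank

variable {S : Type*} [Group S] [Finite S]

/-- A surjection from a subgroup onto an elementary abelian group bounds its order. -/
theorem card_le_of_surj {k : ℕ} (hr : Cfsg.SectionalPRankLE 2 k S) (H : Subgroup S) {T : Type*}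
    [Group T] (g : H →* T) (hg : Function.Surjective g) (hc : ∀ a b : T, a * b = b * a)
    (he : ∀ a : T, a ^ 2 = 1) : Nat.card T ≤ 2 ^ k := by
  let e := QuotientGroup.quotientKerEquivOfSurjective g hg
  have h := hr H g.ker (⊤ : Subgroup (H ⧸ g.ker))
  have hcomm : ∀ a b : (H ⧸ g.ker), a * b = b * a := by
    intro a b
    apply e.injective
    rw [map_mul, map_mul, hc]
  have hexp : ∀ a ∈ (⊤ : Subgroup (H ⧸ g.ker)), a ^ 2 = 1 := by
    intro a _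
    apply e.injective
    rw [map_pow, he, map_one]
  have h2 := h ⟨⟨fun a b => Subtype.ext (hcomm a.1 b.1)⟩⟩ hexp
  rwa [Subgroup.card_top, Nat.card_congr e.toEquiv] at h2

/-- Version with a homomorphism from an auxiliary group. -/
theorem card_le_of_lift {k : ℕ} (hr : Cfsg.SectionalPRankLE 2 k S) {D T : Type*} [Group D] [Group T]
    (Ψ : D →* S) (f : D →* T) (hf : Function.Surjective f) (hker : Ψ.ker ≤ f.ker)
    (hc : ∀ a b : T, a * b = b * a) (he : ∀ a : T, a ^ 2 = 1) : Nat.card T ≤ 2 ^ k := by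
  have hs : Function.Surjective Ψ.rangeRestrict := MonoidHom.rangeRestrict_surjective Ψ
  have hk : Ψ.rangeRestrict.ker ≤ f.ker := by
    rw [MonoidHom.ker_rangeRestrict]
    exact hker
  let g : Ψ.range →* T := (MonoidHom.liftOfSurjective Ψ.rangeRestrict hs) ⟨f, hk⟩
  have hg : ∀ d, g (Ψ.rangeRestrict d) = f d := fun d =>
    MonoidHom.liftOfRightInverse_comp_apply _ _ _ _ d
  apply card_le_of_surj hr Ψ.range g _ hc he
  intro t
  obtain ⟨d, rfl⟩ := hf t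
  exact ⟨_, hg d⟩

end Rank

/-- A non-abelian finite `2`-group has an elementary abelian quotient of order at least `4`
killing the centre. -/
theorem exists_quot {P : Type u} [Group P] [Finite P] (hP : IsPGroup 2 P)
    (hna : ¬ IsMulCommutative P) :
    ∃ (W : Type u) (_ : Group W) (F : P →* W), Function.Surjective F ∧ (∀ a b : W, a * b = b * a) ∧
      (∀ a : W, a ^ 2 = 1) ∧ 4 ≤ Nat.card W ∧ (∀ x ∈ Subgroup.center P, F x = 1) := by
  haveI : Fact (Nat.Prime 2) := ⟨Nat.prime_two⟩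
  let Q := P ⧸ Subgroup.center P
  have hQ : IsPGroup 2 Q := hP.to_quotient _
  let W := Q ⧸ frattini Q
  let F : P →* W := (QuotientGroup.mk' (frattini Q)).comp (QuotientGroup.mk' (Subgroup.center P))
  refine ⟨W, inferInstance, F, ?_, ?_, ?_, ?_, ?_⟩
  · exact (QuotientGroup.mk'_surjective _).comp (QuotientGroup.mk'_surjective _)
  · exact Cfsg.Agent.Lib.Fusion.Meta.Two.frat_comm hQ
  · exact Cfsg.Agent.Lib.Fusion.Meta.Two.frat_exp hQ
  · by_contra hlt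
    push Not at hlt
    have hW : IsPGroup 2 W := hQ.to_quotient _
    obtain ⟨n, hn⟩ := IsPGroup.iff_card.1 hW
    have hn1 : n ≤ 1 := by
      by_contra h
      push Not at h
      have : 2 ^ 2 ≤ 2 ^ n := Nat.pow_le_pow_right (by norm_num) h
      omega
    have hcycW : IsCyclic W := by
      rcases Nat.le_one_iff_eq_zero_or_eq_one.1 hn1 with rfl | rfl
      · haveI : Subsingleton W := (Nat.card_eq_one_iff_unique.1 (by simpa using hn)).1
        infer_instance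
      · exact isCyclic_of_prime_card (p := 2) (by simpa using hn)
    have hcycR : IsCyclic (QuotientGroup.mk' (frattini Q)).range := by
      rw [MonoidHom.range_eq_top.2 (QuotientGroup.mk'_surjective _)]
      exact (Subgroup.topEquiv (G := W)).symm.isCyclic.1 hcycW
    have hcycQ : IsCyclic Q :=
      Cfsg.Agent.Lib.PGroup.HuppertA.isCyclic_of_ker_le_frattini _ (by simp) hcycR
    apply hna
    exact MonoidHom.isMulCommutative_of_isCyclic_of_ker_le_center (QuotientGroup.mk' (Subgroup.center P))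
      (by simp)
  · intro x hx
    have : (QuotientGroup.mk' (Subgroup.center P)) x = 1 := by
      rw [QuotientGroup.mk'_apply]
      exact (QuotientGroup.eq_one_iff x).2 hx
    simp [F, this]

section Main

variable {S : Type u} [Group S] [Finite S] {P S₀ : Subgroup S} {z₀ : S}

/-- Three pairwise commuting conjugates of a non-abelian subgroup violate the rank bound. -/
theorem no_three (hr : Cfsg.SectionalPRankLE 2 4 S) (hpg : IsPGroup 2 P) (hna : ¬ IsMulCommutative P)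
    (t g : S) (hA : ∀ p ∈ P, ∀ q ∈ P, p * (t * q * t⁻¹) = (t * q * t⁻¹) * p)
    (hB : ∀ p ∈ P, ∀ q ∈ P, p * (g * q * g⁻¹) = (g * q * g⁻¹) * p)
    (hC : ∀ p ∈ P, ∀ q ∈ P, (t * p * t⁻¹) * (g * q * g⁻¹) = (g * q * g⁻¹) * (t * p * t⁻¹)) :
    False := by
  obtain ⟨W, _, F, hF, hc, he, hW, hZ⟩ := exists_quot hpg hna
  let Ψ : (P × P × P) →* S := MonoidHom.mk' (fun d => (d.1 : S) * (t * (d.2.1 : S) * t⁻¹) * (g * (d.2.2 : S) * g⁻¹))
    (by
      rintro ⟨a, b, c⟩ ⟨a', b', c'⟩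
      simp only [Prod.mk_mul_mk, Subgroup.coe_mul]
      have h1 := hA a' a'.2 b b.2
      have h2 := hB a' a'.2 c c.2
      have h3 := hC b' b'.2 c c.2
      calc (a : S) * a' * (t * (b * b' : S) * t⁻¹) * (g * (c * c' : S) * g⁻¹)
          = a * (a' * (t * b * t⁻¹)) * (t * b' * t⁻¹) * ((g * c * g⁻¹) * (g * c' * g⁻¹)) := by group
        _ = a * (t * b * t⁻¹) * (a' * (t * b' * t⁻¹)) * ((g * c * g⁻¹) * (g * c' * g⁻¹)) := by
            rw [h1]; group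
        _ = a * (t * b * t⁻¹) * a' * ((t * b' * t⁻¹) * (g * c * g⁻¹)) * (g * c' * g⁻¹) := by group
        _ = a * (t * b * t⁻¹) * (a' * (g * c * g⁻¹)) * (t * b' * t⁻¹) * (g * c' * g⁻¹) := by
            rw [h3]; group
        _ = a * (t * b * t⁻¹) * (g * c * g⁻¹) * a' * (t * b' * t⁻¹) * (g * c' * g⁻¹) := by
            rw [h2]; group
        _ = _ := by group)
  let f : (P × P × P) →* (W × W × W) := F.prodMap (F.prodMap F)
  have hf : Function.Surjective f := by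
    rintro ⟨x, y, w⟩
    obtain ⟨a, rfl⟩ := hF x
    obtain ⟨b, rfl⟩ := hF y
    obtain ⟨c, rfl⟩ := hF w
    exact ⟨(a, b, c), rfl⟩
  have hker : Ψ.ker ≤ f.ker := by
    rintro ⟨a, b, c⟩ h
    have h0 : (a : S) * (t * (b : S) * t⁻¹) * (g * (c : S) * g⁻¹) = 1 := h
    have ha : a ∈ Subgroup.center P := by
      rw [Subgroup.mem_center_iff]
      intro x
      apply Subtype.ext
      simp only [Subgroup.coe_mul]
      have e : (a : S) = ((t * (b : S) * t⁻¹) * (g * (c : S) * g⁻¹))⁻¹ := by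
        rw [eq_inv_iff_mul_eq_one, ← mul_assoc]
        exact h0
      rw [e]
      have h1 : Commute (x : S) (t * b * t⁻¹) := hA x x.2 b b.2
      have h2 : Commute (x : S) (g * c * g⁻¹) := hB x x.2 c c.2
      exact ((h1.mul_right h2).inv_right).eq
    have hb : b ∈ Subgroup.center P := by
      rw [Subgroup.mem_center_iff]
      intro x
      apply Subtype.ext
      simp only [Subgroup.coe_mul]
      have e : t * (b : S) * t⁻¹ = (a : S)⁻¹ * (g * (c : S) * g⁻¹)⁻¹ := by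
        rw [eq_inv_mul_iff_mul_eq, eq_inv_iff_mul_eq_one]
        exact h0
      have h1 : Commute (a : S) (t * x * t⁻¹) := hA a a.2 x x.2
      have h2 : Commute (t * (x : S) * t⁻¹) (g * (c : S) * g⁻¹) := hC x x.2 c c.2
      have key : Commute (t * (x : S) * t⁻¹) (t * (b : S) * t⁻¹) := by
        rw [e]
        exact (h1.symm.inv_right).mul_right (h2.inv_right)
      have key2 : t * ((x : S) * b) * t⁻¹ = t * ((b : S) * x) * t⁻¹ := by
        calc t * ((x : S) * b) * t⁻¹ = (t * (x : S) * t⁻¹) * (t * (b : S) * t⁻¹) := by group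
          _ = (t * (b : S) * t⁻¹) * (t * (x : S) * t⁻¹) := key
          _ = _ := by group
      exact mul_left_cancel (mul_right_cancel key2)
    have hc' : c ∈ Subgroup.center P := by
      rw [Subgroup.mem_center_iff]
      intro x
      apply Subtype.ext
      simp only [Subgroup.coe_mul]
      have e : g * (c : S) * g⁻¹ = ((a : S) * (t * (b : S) * t⁻¹))⁻¹ := by
        rw [eq_inv_iff_mul_eq_one]
        have h1 : Commute (a : S) (g * c * g⁻¹) := hB a a.2 c c.2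
        have h2 : Commute (t * (b : S) * t⁻¹) (g * c * g⁻¹) := hC b b.2 c c.2
        have : Commute (g * (c : S) * g⁻¹) ((a : S) * (t * (b : S) * t⁻¹)) := (h1.mul_left h2).symm
        rw [this.eq]
        exact h0
      have h1 : Commute (a : S) (g * x * g⁻¹) := hB a a.2 x x.2
      have h2 : Commute (t * (b : S) * t⁻¹) (g * x * g⁻¹) := hC b b.2 x x.2
      have key : Commute (g * (x : S) * g⁻¹) (g * (c : S) * g⁻¹) := by
        rw [e]
        exact (h1.mul_left h2).symm.inv_right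
      have key2 : g * ((x : S) * c) * g⁻¹ = g * ((c : S) * x) * g⁻¹ := by
        calc g * ((x : S) * c) * g⁻¹ = (g * (x : S) * g⁻¹) * (g * (c : S) * g⁻¹) := by group
          _ = (g * (c : S) * g⁻¹) * (g * (x : S) * g⁻¹) := key
          _ = _ := by group
      exact mul_left_cancel (mul_right_cancel key2)
    change (F a, F b, F c) = 1
    rw [hZ a ha, hZ b hb, hZ c hc']
    rfl
  have hcard := card_le_of_lift hr Ψ f hf hker
    (by
      rintro ⟨a, b, c⟩ ⟨a', b', c'⟩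
      simp only [Prod.mk_mul_mk, hc a a', hc b b', hc c c'])
    (by
      rintro ⟨a, b, c⟩
      simp only [Prod.pow_mk, he, Prod.mk_one_one])
  rw [Nat.card_prod, Nat.card_prod] at hcard
  have hW2 : 4 * (4 * 4) ≤ Nat.card W * (Nat.card W * Nat.card W) :=
    Nat.mul_le_mul hW (Nat.mul_le_mul hW hW)
  omega

/-- Data for the argument. -/
structure Ctx (P S₀ : Subgroup S) (z₀ : S) : Prop where
  h2 : IsPGroup 2 S
  hz : z₀ ∈ P
  hz1 : z₀ ≠ 1
  hcen : ∀ c ∈ P, (∀ x ∈ P, c * x = x * c) → c = 1 ∨ c = z₀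
  hS₀ : ∀ x, x ∈ S₀ ↔ x * z₀ = z₀ * x
  hPS : P ≤ S₀
  hPn : ∀ s ∈ S₀, ∀ x ∈ P, s * x * s⁻¹ ∈ P

/-- A subgroup normalized by `P` meeting `P` nontrivially contains `z₀`. -/
theorem Ctx.meet (C : Ctx P S₀ z₀) (X : Subgroup S) (hX : ∀ p ∈ P, ∀ x ∈ X, p * x * p⁻¹ ∈ X)
    {c : S} (hcP : c ∈ P) (hcX : c ∈ X) (hc1 : c ≠ 1) : z₀ ∈ X := by
  haveI : Fact (Nat.Prime 2) := ⟨Nat.prime_two⟩
  have hpg : IsPGroup 2 P := C.h2.to_subgroup P
  let N : Subgroup P := X.subgroupOf P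
  haveI hN : N.Normal := ⟨fun n hn g => by
    change ((g * n * g⁻¹ : P) : S) ∈ X
    exact hX g g.2 n hn⟩
  have hne : N ≠ ⊥ := by
    intro h
    have : (⟨c, hcP⟩ : P) ∈ N := hcX
    rw [h, Subgroup.mem_bot] at this
    exact hc1 (congrArg Subtype.val this)
  have h1 := Cfsg.Agent.Lib.PGroup.Basic.inf_center_ne_bot hpg hne
  obtain ⟨y, hy, hy1⟩ := (Subgroup.bot_or_exists_ne_one _).resolve_left h1
  have hyX : (y : S) ∈ X := hy.1
  have hyc : ∀ x ∈ P, (y : S) * x = x * y := by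
    intro x hx
    have := (Subgroup.mem_center_iff.1 hy.2) ⟨x, hx⟩
    exact (congrArg Subtype.val this).symm
  rcases C.hcen y y.2 hyc with h | h
  · exact absurd (Subtype.ext h) hy1
  · rwa [h] at hyX

/-- The basic commuting lemma. -/
theorem Ctx.meet_conj (C : Ctx P S₀ z₀) (g : S) (h1 : ∀ p ∈ P, g⁻¹ * p * g ∈ S₀)
    (h2 : ∀ p ∈ P, g * p * g⁻¹ ∈ S₀) (h3 : g * z₀ * g⁻¹ ≠ z₀) {p q : S} (hp : p ∈ P) (hq : q ∈ P)
    (h : g * q * g⁻¹ = p) : p = 1 := by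
  by_contra hp1
  let X : Subgroup S := P.map (MulAut.conj g).toMonoidHom
  have hmem : ∀ {r : S}, r ∈ P → g * r * g⁻¹ ∈ X := fun {r} hr => ⟨r, hr, rfl⟩
  have hX : ∀ p ∈ P, ∀ x ∈ X, p * x * p⁻¹ ∈ X := by
    rintro r hr _ ⟨y, hy, rfl⟩
    have h4 := C.hPn _ (h1 r hr) y hy
    have : r * ((MulAut.conj g).toMonoidHom y) * r⁻¹ = g * ((g⁻¹ * r * g) * y * (g⁻¹ * r * g)⁻¹) * g⁻¹ := by
      simp only [MulEquiv.coe_toMonoidHom, MulAut.conj_apply]
      group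
    rw [this]
    exact hmem h4
  have hzX := C.meet X hX hp (by rw [← h]; exact hmem hq) hp1
  obtain ⟨q₀, hq₀, hq₀e⟩ := hzX
  have hq₀e' : g * q₀ * g⁻¹ = z₀ := hq₀e
  have hcomm : ∀ x ∈ P, q₀ * x = x * q₀ := by
    intro x hx
    have h5 := (C.hS₀ _).1 (h2 x hx)
    rw [← hq₀e'] at h5
    have h6 : g * (x * q₀) * g⁻¹ = g * (q₀ * x) * g⁻¹ := by
      calc g * (x * q₀) * g⁻¹ = (g * x * g⁻¹) * (g * q₀ * g⁻¹) := by group
        _ = (g * q₀ * g⁻¹) * (g * x * g⁻¹) := h5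
        _ = _ := by group
    exact (mul_left_cancel (mul_right_cancel h6)).symm
  rcases C.hcen q₀ hq₀ hcomm with h7 | h7
  · rw [h7] at hq₀e'
    simp at hq₀e'
    exact C.hz1 hq₀e'.symm
  · rw [h7] at hq₀e'
    exact h3 hq₀e'

theorem Ctx.comm_conj (C : Ctx P S₀ z₀) (g : S) (h1 : ∀ p ∈ P, g⁻¹ * p * g ∈ S₀)
    (h2 : ∀ p ∈ P, g * p * g⁻¹ ∈ S₀) (h3 : g * z₀ * g⁻¹ ≠ z₀) {p q : S} (hp : p ∈ P) (hq : q ∈ P) :
    p * (g * q * g⁻¹) = (g * q * g⁻¹) * p := by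
  -- the commutator lies in `P` and in the conjugate
  have h4 : (g * q * g⁻¹) * p⁻¹ * (g * q * g⁻¹)⁻¹ ∈ P := C.hPn _ (h2 q hq) _ (P.inv_mem hp)
  have h5 : (g⁻¹ * p * g) * q * (g⁻¹ * p * g)⁻¹ ∈ P := C.hPn _ (h1 p hp) q hq
  have h6 : (g⁻¹ * p * g) * q⁻¹ * (g⁻¹ * p * g)⁻¹ ∈ P := C.hPn _ (h1 p hp) _ (P.inv_mem hq)
  set c := p * ((g * q * g⁻¹) * p⁻¹ * (g * q * g⁻¹)⁻¹) with hc
  have hcP : c ∈ P := P.mul_mem hp h4
  have hce : g * (((g⁻¹ * p * g) * q * (g⁻¹ * p * g)⁻¹) * q⁻¹) * g⁻¹ = c := by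
    rw [hc]
    group
  have hc1 := C.meet_conj g h1 h2 h3 hcP (P.mul_mem h5 (P.inv_mem hq)) hce
  rw [hc] at hc1
  have h7 : p * (g * q * g⁻¹) * p⁻¹ * (g * q * g⁻¹)⁻¹ = 1 := by
    rw [← hc1]
    group
  have h8 : p * (g * q * g⁻¹) * p⁻¹ = g * q * g⁻¹ := mul_inv_eq_one.1 h7
  exact mul_inv_eq_iff_eq_mul.1 h8

theorem comm_conj_of (P : Subgroup S) (t g : S)
    (h : ∀ p ∈ P, ∀ q ∈ P, p * ((t⁻¹ * g) * q * (t⁻¹ * g)⁻¹) = ((t⁻¹ * g) * q * (t⁻¹ * g)⁻¹) * p) :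
    ∀ p ∈ P, ∀ q ∈ P, (t * p * t⁻¹) * (g * q * g⁻¹) = (g * q * g⁻¹) * (t * p * t⁻¹) := by
  intro p hp q hq
  have := h p hp q hq
  calc (t * p * t⁻¹) * (g * q * g⁻¹) = t * (p * ((t⁻¹ * g) * q * (t⁻¹ * g)⁻¹)) * t⁻¹ := by group
    _ = t * (((t⁻¹ * g) * q * (t⁻¹ * g)⁻¹) * p) * t⁻¹ := by rw [this]
    _ = _ := by group

theorem Ctx.norm_facts (C : Ctx P S₀ z₀) {u : S} (hu : u ∈ (Subgroup.normalizer (S₀ : Set S))) (hu' : u ∉ S₀) :
    (∀ p ∈ P, u⁻¹ * p * u ∈ S₀) ∧ (∀ p ∈ P, u * p * u⁻¹ ∈ S₀) ∧ u * z₀ * u⁻¹ ≠ z₀ := by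
  refine ⟨fun p hp => ?_, fun p hp => ?_, fun h => hu' ?_⟩
  · have := (Subgroup.mem_normalizer_iff.1 (Subgroup.inv_mem _ hu) p).1 (C.hPS hp)
    simpa using this
  · exact (Subgroup.mem_normalizer_iff.1 hu p).1 (C.hPS hp)
  · rw [C.hS₀]; exact mul_inv_eq_iff_eq_mul.1 h

/-- The rank statement. -/
theorem rank_part (hr : Cfsg.SectionalPRankLE 2 4 S) (P : Subgroup S) (t : S)
    (hcomm : ∀ p ∈ P, ∀ q ∈ P, p * (t * q * t⁻¹) = (t * q * t⁻¹) * p)
    (hmeet : ∀ p ∈ P, ∀ q ∈ P, t * q * t⁻¹ = p → p = 1) : Cfsg.SectionalPRankLE 2 2 P := by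
  intro H N _ A hA hAe
  let A' : Subgroup H := A.comap (QuotientGroup.mk' N)
  let π : A' →* A := (QuotientGroup.mk' N).subgroupComap A
  have hπ : Function.Surjective π :=
    MonoidHom.subgroupComap_surjective_of_surjective _ _ (QuotientGroup.mk'_surjective N)
  let ι : A' → S := fun a => (((a : H) : P) : S)
  have hι : ∀ a, ι a ∈ P := fun a => ((a : H) : P).2
  let Ψ : (A' × A') →* S := MonoidHom.mk' (fun d => ι d.1 * (t * ι d.2 * t⁻¹))
    (by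
      rintro ⟨a, b⟩ ⟨a', b'⟩
      have h1 := hcomm (ι a') (hι a') (ι b) (hι b)
      have e1 : ι (a * a') = ι a * ι a' := rfl
      have e2 : ι (b * b') = ι b * ι b' := rfl
      change ι (a * a') * (t * ι (b * b') * t⁻¹) = ι a * (t * ι b * t⁻¹) * (ι a' * (t * ι b' * t⁻¹))
      rw [e1, e2]
      calc ι a * ι a' * (t * (ι b * ι b') * t⁻¹)
          = ι a * (ι a' * (t * ι b * t⁻¹)) * (t * ι b' * t⁻¹) := by group
        _ = ι a * ((t * ι b * t⁻¹) * ι a') * (t * ι b' * t⁻¹) := by rw [h1]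
        _ = _ := by group)
  let f : (A' × A') →* (A × A) := π.prodMap π
  have hf : Function.Surjective f := by
    rintro ⟨x, y⟩
    obtain ⟨a, rfl⟩ := hπ x
    obtain ⟨b, rfl⟩ := hπ y
    exact ⟨(a, b), rfl⟩
  have hinj : ∀ a : A', ι a = 1 → a = 1 := by
    intro a h
    apply Subtype.ext
    apply Subtype.ext
    apply Subtype.ext
    exact h
  have hker : Ψ.ker ≤ f.ker := by
    rintro ⟨a, b⟩ h
    have h0 : ι a * (t * ι b * t⁻¹) = 1 := h
    have h1 : t * ι b * t⁻¹ = (ι a)⁻¹ := eq_inv_of_mul_eq_one_right h0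
    have h2 := hmeet _ (P.inv_mem (hι a)) _ (hι b) h1
    have ha : ι a = 1 := inv_eq_one.1 h2
    have hb : ι b = 1 := by
      rw [h2] at h1
      have : t * ι b * t⁻¹ = t * 1 * t⁻¹ := by rw [h1]; group
      exact mul_left_cancel (mul_right_cancel this)
    rw [hinj a ha, hinj b hb]
    exact (MonoidHom.mem_ker).2 (map_one f)
  have hcm : ∀ a b : A, a * b = b * a := fun a b => hA.is_comm.comm a b
  have hcard := card_le_of_lift hr Ψ f hf hker
    (by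
      rintro ⟨a, b⟩ ⟨a', b'⟩
      simp only [Prod.mk_mul_mk, hcm a a', hcm b b'])
    (by
      rintro ⟨a, b⟩
      have h1 : a ^ 2 = 1 := Subtype.ext (hAe a a.2)
      have h2 : b ^ 2 = 1 := Subtype.ext (hAe b b.2)
      simp only [Prod.pow_mk, h1, h2, Prod.mk_one_one])
  rw [Nat.card_prod] at hcard
  by_contra hlt
  push Not at hlt
  have h5 : 5 ≤ Nat.card A := by omega
  have := Nat.mul_le_mul h5 h5
  omega

/-- The index statement. -/
theorem Ctx.index_two (C : Ctx P S₀ z₀) (hr : Cfsg.SectionalPRankLE 2 4 S)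
    (hna : ¬ IsMulCommutative P) {t : S} (ht : t ∈ (Subgroup.normalizer (S₀ : Set S))) (ht' : t ∉ S₀) :
    S₀.index = 2 := by
  haveI : Fact (Nat.Prime 2) := ⟨Nat.prime_two⟩
  obtain ⟨h1t, h2t, h3t⟩ := C.norm_facts ht ht'
  have hpg : IsPGroup 2 P := C.h2.to_subgroup P
  have hA : ∀ p ∈ P, ∀ q ∈ P, p * (t * q * t⁻¹) = (t * q * t⁻¹) * p :=
    fun p hp q hq => C.comm_conj t h1t h2t h3t hp hq
  have caseII : ∀ u ∈ (Subgroup.normalizer (S₀ : Set S)), u ∈ S₀ ∨ t⁻¹ * u ∈ S₀ := by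
    intro u hu
    by_contra hcon
    push Not at hcon
    obtain ⟨hu1, hu2⟩ := hcon
    obtain ⟨a1, a2, a3⟩ := C.norm_facts hu hu1
    have hw : t⁻¹ * u ∈ (Subgroup.normalizer (S₀ : Set S)) := (Subgroup.normalizer (S₀ : Set S)).mul_mem ((Subgroup.normalizer (S₀ : Set S)).inv_mem ht) hu
    obtain ⟨b1, b2, b3⟩ := C.norm_facts hw hu2
    exact no_three hr hpg hna t u hA (fun p hp q hq => C.comm_conj u a1 a2 a3 hp hq)
      (comm_conj_of P t u (fun p hp q hq => C.comm_conj _ b1 b2 b3 hp hq))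
  have hS0S1 : S₀ ≤ (Subgroup.normalizer (S₀ : Set S)) := Subgroup.le_normalizer
  by_cases hS1 : (Subgroup.normalizer (S₀ : Set S)) = ⊤
  · rw [Subgroup.index_eq_two_iff_exists_notMem_and']
    refine ⟨t⁻¹, fun h => ht' (by simpa using S₀.inv_mem h), fun b => ?_⟩
    rcases caseII b (hS1 ▸ Subgroup.mem_top b) with h | h
    · exact Or.inr h
    · exact Or.inl h
  exfalso
  obtain ⟨g, hg, hg'⟩ := Cfsg.Agent.Lib.PGroup.Basic.exists_mem_normalizer_notMem C.h2 hS1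
  have hg1 : ∀ u ∈ (Subgroup.normalizer (S₀ : Set S)), g * u * g⁻¹ ∈ (Subgroup.normalizer (S₀ : Set S)) :=
    fun u hu => (Subgroup.mem_normalizer_iff.1 hg u).1 hu
  have hg2 : ∀ u ∈ (Subgroup.normalizer (S₀ : Set S)), g⁻¹ * u * g ∈ (Subgroup.normalizer (S₀ : Set S)) := fun u hu => by
    have := (Subgroup.mem_normalizer_iff.1 (Subgroup.inv_mem _ hg) u).1 hu
    simpa using this
  have hc1 : ∀ u ∈ (Subgroup.normalizer (S₀ : Set S)), ∀ x, x ∈ S₀ ↔ u * x * u⁻¹ ∈ S₀ :=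
    fun u hu => Subgroup.mem_normalizer_iff.1 hu
  have F1 : ∀ x ∈ (Subgroup.normalizer (S₀ : Set S)), ∀ y ∈ (Subgroup.normalizer (S₀ : Set S)), x ∉ S₀ → y ∉ S₀ → x⁻¹ * y ∈ S₀ := by
    intro x hx y hy hx' hy'
    have h1 := (caseII x hx).resolve_left hx'
    have h2 := (caseII y hy).resolve_left hy'
    have := S₀.mul_mem (S₀.inv_mem h1) h2
    have e : (t⁻¹ * x)⁻¹ * (t⁻¹ * y) = x⁻¹ * y := by group
    rwa [e] at this
  have hPS1 : ∀ {p}, p ∈ P → p ∈ (Subgroup.normalizer (S₀ : Set S)) := fun hp => hS0S1 (C.hPS hp)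
  let X : Subgroup S := S₀.map (MulAut.conj g).toMonoidHom
  have hXm : ∀ x, x ∈ X ↔ g⁻¹ * x * g ∈ S₀ := by
    intro x
    constructor
    · rintro ⟨s, hs, rfl⟩
      have e : g⁻¹ * ((MulAut.conj g).toMonoidHom s) * g = s := by
        simp only [MulEquiv.coe_toMonoidHom, MulAut.conj_apply]
        group
      rwa [e]
    · intro h
      refine ⟨_, h, ?_⟩
      simp only [MulEquiv.coe_toMonoidHom, MulAut.conj_apply]
      group
  have hX : ∀ p ∈ P, ∀ x ∈ X, p * x * p⁻¹ ∈ X := by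
    intro p hp x hx
    rw [hXm] at hx ⊢
    have e : g⁻¹ * (p * x * p⁻¹) * g = (g⁻¹ * p * g) * (g⁻¹ * x * g) * (g⁻¹ * p * g)⁻¹ := by group
    rw [e]
    exact (hc1 _ (hg2 p (hPS1 hp)) _).1 hx
  -- Step B
  have stepB : g⁻¹ * z₀ * g ∈ S₀ := by
    by_contra h
    have hex : ∃ c ∈ P, c ∈ X ∧ c ≠ 1 := by
      by_contra hne
      push Not at hne
      have hall : ∀ p ∈ P, p = 1 ∨ p = z₀ := by
        intro p hp
        by_cases hpX : g⁻¹ * p * g ∈ S₀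
        · exact Or.inl (hne p hp ((hXm p).2 hpX))
        · right
          have h1 := F1 _ (hg2 p (hPS1 hp)) _ (hg2 z₀ (hPS1 C.hz)) hpX h
          have e : (g⁻¹ * p * g)⁻¹ * (g⁻¹ * z₀ * g) = g⁻¹ * (p⁻¹ * z₀) * g := by group
          rw [e] at h1
          have h2 := hne (p⁻¹ * z₀) (P.mul_mem (P.inv_mem hp) C.hz) ((hXm _).2 h1)
          exact inv_mul_eq_one.1 h2
      apply hna
      refine ⟨⟨fun a b => Subtype.ext ?_⟩⟩
      change (a : S) * b = b * a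
      rcases hall a a.2 with h1 | h1 <;> rcases hall b b.2 with h2 | h2 <;> simp [h1, h2]
    obtain ⟨c, hc, hcX, hc1'⟩ := hex
    exact h ((hXm _).1 (C.meet X hX hc hcX hc1'))
  have hw₀ := (C.hS₀ _).1 stepB
  -- `z' = g z₀ g⁻¹ ∈ S₀`
  have hz'S : g * z₀ * g⁻¹ ∈ S₀ := by
    rw [C.hS₀]
    calc g * z₀ * g⁻¹ * z₀ = g * (z₀ * (g⁻¹ * z₀ * g)) * g⁻¹ := by group
      _ = g * ((g⁻¹ * z₀ * g) * z₀) * g⁻¹ := by rw [hw₀]
      _ = _ := by group
  have hinvt : ∀ x ∈ S₀, t⁻¹ * x * t ∈ S₀ := fun x hx => by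
    have := (hc1 _ (Subgroup.inv_mem _ ht) x).1 hx
    simpa using this
  -- Step A
  have stepA : ∀ x ∈ P, g⁻¹ * x * g ∈ S₀ := by
    intro x hx
    by_contra hxS
    obtain ⟨z', hz'⟩ : ∃ z', z' = g * z₀ * g⁻¹ := ⟨_, rfl⟩
    rw [← hz'] at hz'S
    have hv1 : x * z' * x⁻¹ * z'⁻¹ ≠ 1 := by
      intro h
      apply hxS
      rw [C.hS₀]
      have h2 : x * z' = z' * x := by
        have := mul_inv_eq_one.1 h
        exact mul_inv_eq_iff_eq_mul.1 this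
      calc g⁻¹ * x * g * z₀ = g⁻¹ * (x * z') * g := by rw [hz']; group
        _ = g⁻¹ * (z' * x) * g := by rw [h2]
        _ = _ := by rw [hz']; group
    have hvP : x * (z' * x⁻¹ * z'⁻¹) ∈ P := P.mul_mem hx (C.hPn _ hz'S _ (P.inv_mem hx))
    have hx'S : t * x * t⁻¹ ∈ S₀ := h2t x hx
    have hx'g : g⁻¹ * (t * x * t⁻¹) * g ∉ S₀ := by
      intro h
      have e : g⁻¹ * (t * x * t⁻¹) * g = (g⁻¹ * t * g) * (g⁻¹ * x * g) * (g⁻¹ * t * g)⁻¹ := by group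
      rw [e] at h
      exact hxS ((hc1 _ (hg2 t ht) _).2 h)
    have hF := F1 _ (hg2 _ (hPS1 hx)) _ (hg2 _ (hS0S1 hx'S)) hxS hx'g
    have hF2 := (C.hS₀ _).1 hF
    have hcomm : (x⁻¹ * (t * x * t⁻¹)) * z' = z' * (x⁻¹ * (t * x * t⁻¹)) := by
      calc (x⁻¹ * (t * x * t⁻¹)) * z'
          = g * (((g⁻¹ * x * g)⁻¹ * (g⁻¹ * (t * x * t⁻¹) * g)) * z₀) * g⁻¹ := by rw [hz']; group
        _ = g * (z₀ * ((g⁻¹ * x * g)⁻¹ * (g⁻¹ * (t * x * t⁻¹) * g))) * g⁻¹ := by rw [hF2]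
        _ = _ := by rw [hz']; group
    have hve : x * z' * x⁻¹ * z'⁻¹ = (t * x * t⁻¹) * z' * (t * x * t⁻¹)⁻¹ * z'⁻¹ := by
      have : (t * x * t⁻¹) * z' * (t * x * t⁻¹)⁻¹ = x * z' * x⁻¹ := by
        calc (t * x * t⁻¹) * z' * (t * x * t⁻¹)⁻¹
            = x * ((x⁻¹ * (t * x * t⁻¹)) * z') * (t * x * t⁻¹)⁻¹ := by group
          _ = x * (z' * (x⁻¹ * (t * x * t⁻¹))) * (t * x * t⁻¹)⁻¹ := by rw [hcomm]
          _ = _ := by group
      rw [this]
    have hz't : t⁻¹ * z' * t ∈ S₀ := hinvt _ hz'S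
    have hq : x * ((t⁻¹ * z' * t) * x⁻¹ * (t⁻¹ * z' * t)⁻¹) ∈ P :=
      P.mul_mem hx (C.hPn _ hz't _ (P.inv_mem hx))
    have hqe : t * (x * ((t⁻¹ * z' * t) * x⁻¹ * (t⁻¹ * z' * t)⁻¹)) * t⁻¹ = x * (z' * x⁻¹ * z'⁻¹) := by
      have e1 : x * (z' * x⁻¹ * z'⁻¹) = x * z' * x⁻¹ * z'⁻¹ := by group
      rw [e1, hve]
      group
    have h9 := C.meet_conj t h1t h2t h3t hvP hq hqe
    apply hv1
    rw [← h9]
    group
  -- Step A'
  have stepA' : ∀ p ∈ P, g * p * g⁻¹ ∈ S₀ := by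
    intro p hp
    by_contra hxS
    obtain ⟨w₀, hw₀e⟩ : ∃ w₀, w₀ = g⁻¹ * z₀ * g := ⟨_, rfl⟩
    rw [← hw₀e] at stepB
    have hzw : z₀ = g * w₀ * g⁻¹ := by rw [hw₀e]; group
    have hv1 : (g * p * g⁻¹) * z₀ * (g * p * g⁻¹)⁻¹ * z₀⁻¹ ≠ 1 := by
      intro h
      apply hxS
      rw [C.hS₀]
      have := mul_inv_eq_one.1 h
      exact mul_inv_eq_iff_eq_mul.1 this
    have hq : p * (w₀ * p⁻¹ * w₀⁻¹) ∈ P := P.mul_mem hp (C.hPn _ stepB _ (P.inv_mem hp))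
    have hw₁ : t⁻¹ * w₀ * t ∈ S₀ := hinvt _ stepB
    have hr' : p * ((t⁻¹ * w₀ * t) * p⁻¹ * (t⁻¹ * w₀ * t)⁻¹) ∈ P :=
      P.mul_mem hp (C.hPn _ hw₁ _ (P.inv_mem hp))
    have hx''1 : g * (t * p * t⁻¹) * g⁻¹ ∉ S₀ := by
      intro h
      have e : g * (t * p * t⁻¹) * g⁻¹ = (g * t * g⁻¹) * (g * p * g⁻¹) * (g * t * g⁻¹)⁻¹ := by group
      rw [e] at h
      exact hxS ((hc1 _ (hg1 t ht) _).2 h)
    have hF := F1 _ (hg1 _ (hPS1 hp)) _ (hg1 _ (hS0S1 (h2t p hp))) hxS hx''1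
    have hF2 := (C.hS₀ _).1 hF
    have hx2 : (g * (t * p * t⁻¹) * g⁻¹) * z₀ * (g * (t * p * t⁻¹) * g⁻¹)⁻¹
        = (g * p * g⁻¹) * z₀ * (g * p * g⁻¹)⁻¹ := by
      calc (g * (t * p * t⁻¹) * g⁻¹) * z₀ * (g * (t * p * t⁻¹) * g⁻¹)⁻¹
          = (g * p * g⁻¹) * (((g * p * g⁻¹)⁻¹ * (g * (t * p * t⁻¹) * g⁻¹)) * z₀)
              * (g * (t * p * t⁻¹) * g⁻¹)⁻¹ := by group
        _ = (g * p * g⁻¹) * (z₀ * ((g * p * g⁻¹)⁻¹ * (g * (t * p * t⁻¹) * g⁻¹)))
              * (g * (t * p * t⁻¹) * g⁻¹)⁻¹ := by rw [hF2]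
        _ = _ := by group
    have hqe : g * (p * (w₀ * p⁻¹ * w₀⁻¹)) * g⁻¹ = (g * p * g⁻¹) * z₀ * (g * p * g⁻¹)⁻¹ * z₀⁻¹ := by
      rw [hzw]; group
    have hre : g * (t * (p * ((t⁻¹ * w₀ * t) * p⁻¹ * (t⁻¹ * w₀ * t)⁻¹)) * t⁻¹) * g⁻¹
        = (g * (t * p * t⁻¹) * g⁻¹) * z₀ * (g * (t * p * t⁻¹) * g⁻¹)⁻¹ * z₀⁻¹ := by
      rw [hzw]; group
    have h10 : t * (p * ((t⁻¹ * w₀ * t) * p⁻¹ * (t⁻¹ * w₀ * t)⁻¹)) * t⁻¹ = p * (w₀ * p⁻¹ * w₀⁻¹) := by
      apply mul_left_cancel (a := g)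
      apply mul_right_cancel (b := g⁻¹)
      rw [hre, hqe, hx2]
    have h9 := C.meet_conj t h1t h2t h3t hq hr' h10
    apply hv1
    rw [← hqe, h9]
    group
  -- Lemma C for `g` and `t⁻¹ g`
  have hg3 : g * z₀ * g⁻¹ ≠ z₀ := fun h => hg' (hS0S1 ((C.hS₀ _).2 (mul_inv_eq_iff_eq_mul.1 h)))
  have hτ : ∀ p ∈ P, (t⁻¹ * g)⁻¹ * p * (t⁻¹ * g) ∈ S₀ := by
    intro p hp
    have e : (t⁻¹ * g)⁻¹ * p * (t⁻¹ * g) = (g⁻¹ * t * g) * (g⁻¹ * p * g) * (g⁻¹ * t * g)⁻¹ := by group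
    rw [e]
    exact (hc1 _ (hg2 t ht) _).1 (stepA p hp)
  have hτ2 : ∀ p ∈ P, (t⁻¹ * g) * p * (t⁻¹ * g)⁻¹ ∈ S₀ := by
    intro p hp
    have e : (t⁻¹ * g) * p * (t⁻¹ * g)⁻¹ = t⁻¹ * (g * p * g⁻¹) * t := by group
    rw [e]
    exact hinvt _ (stepA' p hp)
  have hτ3 : (t⁻¹ * g) * z₀ * (t⁻¹ * g)⁻¹ ≠ z₀ := by
    intro h
    have h1 : t⁻¹ * g ∈ S₀ := (C.hS₀ _).2 (mul_inv_eq_iff_eq_mul.1 h)
    apply hg'
    have := Subgroup.mul_mem _ ht (hS0S1 h1)
    simpa using this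
  exact no_three hr hpg hna t g hA (fun p hp q hq => C.comm_conj g stepA stepA' hg3 hp hq)
    (comm_conj_of P t g (fun p hp q hq => C.comm_conj _ hτ hτ2 hτ3 hp hq))

end Main

/-- Let S be a finite 2-group of sectional 2-rank at most 4 and P a proper non-abelian subgroup whose centre has order 2. Let S₀ be the centralizer in S of Z(P) and suppose P is normal in S₀. Then either S₀ = S, or P has sectional 2-rank at most 2 and S₀ has index 2 in S. -/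
theorem result {S : Type*} [Group S] [Finite S] (h2 : IsPGroup 2 S) (hr : Cfsg.SectionalPRankLE 2 4 S)
    (P : Subgroup S) (hPlt : P ≠ ⊤) (hP : ¬ IsMulCommutative ↥P) (hZP : Nat.card ↥(Subgroup.center ↥P) = 2)
    (S₀ : Subgroup S) (hS₀ : S₀ = Subgroup.centralizer (((Subgroup.center ↥P).map P.subtype : Subgroup S) : Set S))
    (hPn : ∀ s ∈ S₀, ∀ x ∈ P, s * x * s⁻¹ ∈ P) :
    S₀ = ⊤ ∨ (Cfsg.SectionalPRankLE 2 2 ↥P ∧ S₀.index = 2) := by
  classical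
  haveI : Fact (Nat.Prime 2) := ⟨Nat.prime_two⟩
  by_cases htop : S₀ = ⊤
  · exact Or.inl htop
  right
  obtain ⟨z, hz, huniq⟩ := (Nat.card_eq_two_iff' (1 : Subgroup.center P)).1 hZP
  have hall : ∀ y : Subgroup.center P, y = 1 ∨ y = z := by
    intro y
    by_cases h : y = 1
    · exact Or.inl h
    · exact Or.inr (huniq y h)
  have hS₀m : ∀ x, x ∈ S₀ ↔ x * ((z : P) : S) = ((z : P) : S) * x := by
    intro x
    rw [hS₀, Subgroup.mem_centralizer_iff]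
    constructor
    · intro h
      exact (h _ ⟨z, z.2, rfl⟩).symm
    · rintro h _ ⟨c, hc, rfl⟩
      rcases hall ⟨c, hc⟩ with h1 | h1
      · have : c = 1 := congrArg Subtype.val h1
        simp [this]
      · have : c = z := congrArg Subtype.val h1
        rw [this]
        exact h.symm
  have C : Ctx P S₀ ((z : P) : S) :=
    { h2 := h2
      hz := (z : P).2
      hz1 := by
        intro h
        apply hz
        exact Subtype.ext (Subtype.ext h)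
      hcen := by
        intro c hc hcc
        have hc' : (⟨c, hc⟩ : P) ∈ Subgroup.center P := by
          rw [Subgroup.mem_center_iff]
          intro x
          exact Subtype.ext (hcc x x.2).symm
        rcases hall ⟨_, hc'⟩ with h | h
        · left
          exact congrArg (fun y : Subgroup.center P => ((y : P) : S)) h
        · right
          exact congrArg (fun y : Subgroup.center P => ((y : P) : S)) h
      hS₀ := hS₀m
      hPS := by
        intro p hp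
        rw [hS₀m]
        have := (Subgroup.mem_center_iff.1 z.2) ⟨p, hp⟩
        exact (congrArg Subtype.val this)
      hPn := hPn }
  obtain ⟨t, ht, ht'⟩ := Cfsg.Agent.Lib.PGroup.Basic.exists_mem_normalizer_notMem h2 htop
  obtain ⟨h1t, h2t, h3t⟩ := C.norm_facts ht ht'
  exact ⟨rank_part hr P t (fun p hp q hq => C.comm_conj t h1t h2t h3t hp hq)
    (fun p hp q hq h => C.meet_conj t h1t h2t h3t hp hq h), C.index_two hr hP ht ht'⟩

end Cfsg.Agent.S4401
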