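import Cfsg.Statements.S4404
import Mathlib
import Cfsg.Agent.Lib.QFour.Main

set_option autoImplicit false
open Cfsg

namespace Cfsg.Agent.S4404

open Cfsg.Agent.Lib.QFour Act Pair Main
open scoped commutatorElement

/-- Group-theoretic transfer from the abstract `𝔽₂`-module statement. -/
theorem transfer_abstract {S A : Type*} [Group S] [Finite S] [Group.IsSolvable S] [AddCommGroup A]
    [Module (ZMod 2) A] [Finite A] (Φ : A → S) (hΦinj : Function.Injective Φ)
    (hΦadd : ∀ a b, Φ (a + b) = Φ a * Φ b) (M : Subgroup S) (hMr : ∀ s, s ∈ M ↔ ∃ a, Φ a = s)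
    (ρ : S →* Module.End (ZMod 2) A) (hρ : ∀ g a, Φ (ρ g a) = g * Φ a * g⁻¹)
    (p : ℕ) (hp : p.Prime) (hp2 : p ≠ 2) (E : Subgroup S) (hE : Cfsg.IsElementaryAbelian p E)
    (hE3 : Nat.card ↥E = p ^ 3) (Q : Subgroup S) (hQc : IsCyclic ↥Q) (hQ3 : IsPGroup 3 ↥Q)
    (hQ1 : ∀ x ∈ Q, x ^ 3 ∈ Subgroup.centralizer (M : Set S)) (hQM : Nat.card ↥⁅Q, M⁆ = 4) :
    ∃ (r : ℕ) (F : Subgroup S), r.Prime ∧ r ≠ 2 ∧ Cfsg.IsElementaryAbelian r F ∧ Nat.card ↥F = r ^ 3 ∧
      ¬ IsCyclic ↥(F ⊓ Subgroup.centralizer ((⁅Q, M⁆ : Subgroup S) : Set S)) := by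
  classical
  have hΦ0 : Φ 0 = 1 := by
    have := hΦadd 0 0
    rw [add_zero] at this
    exact (mul_eq_left.1 this.symm)
  have hΦneg : ∀ a, Φ (-a) = (Φ a)⁻¹ := by
    intro a
    have := hΦadd (-a) a
    rw [neg_add_cancel, hΦ0] at this
    exact eq_inv_of_mul_eq_one_left this.symm
  have hΦsub : ∀ g a, Φ (ρ g a - a) = ⁅g, Φ a⁆ := by
    intro g a
    rw [sub_eq_add_neg, hΦadd, hΦneg, hρ, commutatorElement_def]
  obtain ⟨x, hx⟩ := IsCyclic.exists_generator (α := Q)
  have hx₀Q : x.1 ∈ Q := x.2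
  have hQz : ∀ q ∈ Q, q ∈ Subgroup.closure ({x.1} : Set S) := by
    intro q hq
    obtain ⟨k, hk⟩ := hx ⟨q, hq⟩
    rw [← Subgroup.zpowers_eq_closure]
    refine ⟨k, ?_⟩
    have := congrArg Subtype.val hk
    simpa using this
  let L : Subgroup S :=
    { carrier := {s | ∃ v ∈ W ρ x.1, Φ v = s}
      one_mem' := ⟨0, Submodule.zero_mem _, hΦ0⟩
      mul_mem' := by
        rintro _ _ ⟨v, hv, rfl⟩ ⟨w, hw, rfl⟩
        exact ⟨v + w, Submodule.add_mem _ hv hw, hΦadd v w⟩
      inv_mem' := by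
        rintro _ ⟨v, hv, rfl⟩
        exact ⟨-v, Submodule.neg_mem _ hv, hΦneg v⟩ }
  have hLeq : ⁅Q, M⁆ = L := by
    apply le_antisymm
    · rw [Subgroup.commutator_le]
      intro q hq m hm
      obtain ⟨a, rfl⟩ := (hMr m).1 hm
      refine ⟨ρ q a - a, ?_, hΦsub q a⟩
      have h1 : W ρ q ≤ W ρ x.1 := W_closure_le ρ (s := {x.1})
        (fun g hg => by rw [Set.mem_singleton_iff.1 hg]) (hQz q hq)
      exact h1 (mem_W ρ q a)
    · rintro _ ⟨v, hv, rfl⟩
      obtain ⟨a, rfl⟩ := (mem_W_iff ρ).1 hv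
      rw [hΦsub]
      exact Subgroup.commutator_mem_commutator hx₀Q ((hMr _).2 ⟨a, rfl⟩)
  have hmem : ∀ s, s ∈ ⁅Q, M⁆ ↔ ∃ v ∈ W ρ x.1, Φ v = s := by
    intro s; rw [hLeq]; rfl
  -- dimension
  have hcardW : Nat.card (W ρ x.1) = 4 := by
    rw [← hQM]
    refine Nat.card_congr (Equiv.ofBijective
      (fun v => (⟨Φ v.1, (hmem _).2 ⟨v.1, v.2, rfl⟩⟩ : ↥⁅Q, M⁆)) ⟨?_, ?_⟩)
    · intro v w hvw
      exact Subtype.ext (hΦinj (congrArg Subtype.val hvw))
    · rintro ⟨s, hs⟩
      obtain ⟨v, hv, rfl⟩ := (hmem s).1 hs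
      exact ⟨⟨v, hv⟩, rfl⟩
  have hW : Module.finrank (ZMod 2) (W ρ x.1) = 2 := by
    have h1 := Module.natCard_eq_pow_finrank (K := ZMod 2) (V := W ρ x.1)
    rw [Nat.card_zmod, hcardW] at h1
    have h2 : (2 : ℕ) ^ 2 = 2 ^ Module.finrank (ZMod 2) (W ρ x.1) := by
      rw [← h1]; norm_num
    exact (Nat.pow_right_injective (le_refl 2) h2).symm
  have hρ3 : ρ x.1 ^ 3 = 1 := by
    ext a
    apply hΦinj
    rw [← map_pow, hρ, Module.End.one_apply]
    have h1 := Subgroup.mem_centralizer_iff.1 (hQ1 x.1 hx₀Q) (Φ a) ((hMr _).2 ⟨a, rfl⟩)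
    rw [← h1]; group
  have hxp : ∃ n, x.1 ^ 3 ^ n = 1 := by
    obtain ⟨n, hn⟩ := hQ3 x
    refine ⟨n, ?_⟩
    have := congrArg Subtype.val hn
    simpa using this
  obtain ⟨r, F, hr, hr2, hFE, hFc, hnc⟩ := main_abstract (ρ := ρ) x.1 hxp hρ3 hW p hp hp2 E hE hE3
  refine ⟨r, F, hr, hr2, hFE, hFc, ?_⟩
  have heq : F ⊓ Fx ρ (W ρ x.1) = F ⊓ Subgroup.centralizer ((⁅Q, M⁆ : Subgroup S) : Set S) := by
    congr 1
    ext g
    constructor
    · intro hg
      rw [Subgroup.mem_centralizer_iff]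
      intro w hw
      obtain ⟨v, hv, rfl⟩ := (hmem w).1 hw
      have h1 := hρ g v
      rw [hg v hv] at h1
      calc Φ v * g = (g * Φ v * g⁻¹) * g := by rw [← h1]
        _ = g * Φ v := by group
    · intro hg v hv
      apply hΦinj
      rw [hρ]
      have h1 := Subgroup.mem_centralizer_iff.1 hg (Φ v) ((hmem _).2 ⟨v, hv, rfl⟩)
      rw [← h1]; group
  rw [← heq]
  exact hnc

/-- Let S be a finite solvable group and M a normal elementary abelian 2-subgroup of S. Suppose S contains an elementary abelian subgroup of order p³ for some odd prime p, and a cyclic 3-subgroup Q such that the cubes of the elements of Q centralize M and the commutator subgroup [Q, M] has order 4 (a four-group inside M). Then S contains an elementary abelian subgroup F of order r³, for some odd prime r, whose centralizer of [Q, M] in F — the subgroup C_F([Q, M]) — is not cyclic. -/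
theorem result {S : Type*} [Group S] [Finite S]
    [Group.IsSolvable S] (M : Subgroup S) [M.Normal] (hM : Cfsg.IsElementaryAbelian 2 M)
    (p : ℕ) (hp : p.Prime) (hp2 : p ≠ 2) (E : Subgroup S) (hE : Cfsg.IsElementaryAbelian p E) (hE3 : Nat.card ↥E = p ^ 3)
    (Q : Subgroup S) (hQc : IsCyclic ↥Q) (hQ3 : IsPGroup 3 ↥Q)
    (hQ1 : ∀ x ∈ Q, x ^ 3 ∈ Subgroup.centralizer (M : Set S)) (hQM : Nat.card ↥⁅Q, M⁆ = 4) :
    ∃ (r : ℕ) (F : Subgroup S), r.Prime ∧ r ≠ 2 ∧ Cfsg.IsElementaryAbelian r F ∧ Nat.card ↥F = r ^ 3 ∧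
      ¬ IsCyclic ↥(F ⊓ Subgroup.centralizer ((⁅Q, M⁆ : Subgroup S) : Set S)) := by
  classical
  haveI hfin : Finite (Additive M) := inferInstanceAs (Finite M)
  letI iCG : CommGroup M :=
    { (inferInstance : Group M) with
      mul_comm := fun a b => hM.1.1.1 a b }
  letI iM : Module (ZMod 2) (Additive M) := AddCommGroup.zmodModule (n := 2) (by
    intro a
    apply Additive.toMul.injective
    apply Subtype.ext
    simpa using hM.2 _ a.toMul.2)
  have hnorm : M.Normal := inferInstance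
  let cj : S → (Additive M →+ Additive M) := fun h =>
    { toFun := fun x => Additive.ofMul (⟨h * (x.toMul : M).val * h⁻¹, hnorm.conj_mem _ x.toMul.2 h⟩ : M)
      map_zero' := by
        apply Additive.toMul.injective
        apply Subtype.ext
        simp
      map_add' := fun x y => by
        apply Additive.toMul.injective
        apply Subtype.ext
        simp }
  have hcj : ∀ h (x : Additive M), ((cj h x).toMul : M).val = h * (x.toMul : M).val * h⁻¹ :=
    fun _ _ => rfl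
  let ρ : S →* Module.End (ZMod 2) (Additive M) :=
    { toFun := fun h => (cj h).toZModLinearMap 2
      map_one' := by
        refine LinearMap.ext fun x => ?_
        apply Additive.toMul.injective
        apply Subtype.ext
        show ((cj 1 x).toMul : M).val = _
        rw [hcj]
        simp
      map_mul' := fun a b => by
        refine LinearMap.ext fun x => ?_
        apply Additive.toMul.injective
        apply Subtype.ext
        show ((cj (a * b) x).toMul : M).val = ((cj a (cj b x)).toMul : M).val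
        rw [hcj, hcj, hcj]
        group }
  exact transfer_abstract (A := Additive M) (fun a => (a.toMul : M).val)
    (fun a b h => Additive.toMul.injective (Subtype.ext h)) (fun a b => rfl) M
    (fun s => ⟨fun hs => ⟨Additive.ofMul ⟨s, hs⟩, rfl⟩, by
      rintro ⟨a, rfl⟩
      exact a.toMul.2⟩) ρ (fun g a => rfl) p hp hp2 E hE hE3 Q hQc hQ3 hQ1 hQM

end Cfsg.Agent.S4404
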