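import Cfsg.Statements.S4405
import Mathlib
import Cfsg.Agent.Lib.PGroup.Extraspecial
import Cfsg.Agent.Lib.PGroup.Critical
import Cfsg.Agent.Lib.Solvable.PSeries
import Cfsg.Agent.Lib.Basic.PCore
import Cfsg.Agent.Lib.PGroup.CyclicMax2

set_option autoImplicit false
open Cfsg

namespace Cfsg.Agent.S4405

open Subgroup
open scoped commutatorElement Pointwise

instance fact5 : Fact (Nat.Prime 5) := ⟨by norm_num⟩

theorem card_mod_five {α : Type*} [Finite α] (f : α → α) (hf : ∀ x, f (f (f (f (f x)))) = x) :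
    Nat.card α ≡ Nat.card {x // f x = x} [MOD 5] := by
  classical
  haveI := Fintype.ofFinite α
  have h := Equiv.Perm.card_fixedPoints_modEq (p := 5) (n := 1) (f := (f : Function.End α))
    (by
      funext x
      show f (f (f (f (f x)))) = x
      exact hf x)
  rw [Nat.card_eq_fintype_card]
  have h2 : Nat.card {x // f x = x} = Fintype.card (Function.fixedPoints (f : Function.End α)) := by
    rw [Nat.card_eq_fintype_card]
    exact Fintype.card_congr (Equiv.refl _)
  rw [h2]
  exact h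

theorem card_mod_two {α : Type*} [Finite α] (f : α → α) (hf : ∀ x, f (f x) = x) :
    Nat.card α ≡ Nat.card {x // f x = x} [MOD 2] := by
  classical
  haveI := Fintype.ofFinite α
  have h := Equiv.Perm.card_fixedPoints_modEq (p := 2) (n := 1) (f := (f : Function.End α))
    (by
      funext x
      show f (f x) = x
      exact hf x)
  rw [Nat.card_eq_fintype_card]
  have h2 : Nat.card {x // f x = x} = Fintype.card (Function.fixedPoints (f : Function.End α)) := by
    rw [Nat.card_eq_fintype_card]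
    exact Fintype.card_congr (Equiv.refl _)
  rw [h2]
  exact h

section Abstract

variable {V : Type*} [Group V] [Finite V]

/-- Fixed points as a subgroup. -/
def fix (σ : MulAut V) : Subgroup V where
  carrier := {v | σ v = v}
  one_mem' := map_one σ
  mul_mem' := by
    intro a b ha hb
    show σ (a * b) = a * b
    rw [map_mul, show σ a = a from ha, show σ b = b from hb]
  inv_mem' := by
    intro a ha
    show σ a⁻¹ = a⁻¹
    rw [map_inv, show σ a = a from ha]

theorem mem_fix {σ : MulAut V} {v : V} : v ∈ fix σ ↔ σ v = v := Iff.rfl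

theorem num_fact : ∀ n ≤ 16, n ∣ 16 → n ≡ 1 [MOD 5] → n = 1 ∨ n = 16 := by decide

theorem fix_eq_bot (σ : MulAut V) (h5 : ∀ x, σ (σ (σ (σ (σ x)))) = x) (h16 : Nat.card V = 16)
    (hne : σ ≠ 1) : fix σ = ⊥ := by
  have h1 := card_mod_five (fun x => σ x) h5
  have h2 : Nat.card {x // σ x = x} = Nat.card (fix σ) := rfl
  rw [h2, h16] at h1
  have hd : Nat.card (fix σ) ∣ 16 := by
    rw [← h16]; exact Subgroup.card_subgroup_dvd_card _
  have hm : Nat.card (fix σ) ≡ 1 [MOD 5] := h1.symm.trans (by decide)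
  rcases num_fact _ (Nat.le_of_dvd (by norm_num) hd) hd hm with h3 | h3
  · exact Subgroup.eq_bot_of_card_eq _ h3
  · exfalso
    apply hne
    have h4 : fix σ = ⊤ := Subgroup.eq_top_of_card_eq _ (by rw [h3, h16])
    ext x
    have : x ∈ fix σ := by rw [h4]; trivial
    exact this

theorem comm_case (σ t : MulAut V) (h5 : ∀ x, σ (σ (σ (σ (σ x)))) = x) (h16 : Nat.card V = 16)
    (hσ : fix σ = ⊥) (ht2 : ∀ x, t (t x) = x) (hcomm : ∀ x, t (σ x) = σ (t x)) : t = 1 := by
  let F := fix t
  have hFσ : ∀ x ∈ F, σ x ∈ F := by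
    intro x hx
    show t (σ x) = σ x
    rw [hcomm, show t x = x from hx]
  let g : F → F := fun x => ⟨σ x, hFσ x x.2⟩
  have hg : ∀ x, g (g (g (g (g x)))) = x := fun x => Subtype.ext (h5 x)
  have h1 := card_mod_five g hg
  have h2 : Nat.card {x // g x = x} = 1 := by
    rw [Nat.card_eq_one_iff_unique]
    refine ⟨⟨?_⟩, ⟨⟨1, Subtype.ext (map_one σ)⟩⟩⟩
    intro a b
    have h3 : ∀ x : F, g x = x → x = 1 := by
      rintro ⟨x, hx⟩ h
      have h4 : σ x = x := congrArg Subtype.val h
      have h5' : x ∈ fix σ := h4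
      rw [hσ] at h5'
      exact Subtype.ext h5'
    exact Subtype.ext ((h3 _ a.2).trans (h3 _ b.2).symm)
  rw [h2] at h1
  have hd : Nat.card F ∣ 16 := by
    rw [← h16]; exact Subgroup.card_subgroup_dvd_card _
  have h3 := card_mod_two (fun x => t x) ht2
  have h4 : Nat.card {x // t x = x} = Nat.card F := rfl
  rw [h4, h16] at h3
  rcases num_fact _ (Nat.le_of_dvd (by norm_num) hd) hd h1 with h6 | h6
  · rw [h6] at h3
    exact absurd h3 (by decide)
  · have h7 : F = ⊤ := Subgroup.eq_top_of_card_eq _ (by rw [h6, h16])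
    ext x
    have : x ∈ F := by rw [h7]; trivial
    exact this

theorem inv_case (hV : ∀ a b : V, a * b = b * a) (σ t : MulAut V)
    (h5 : ∀ x, σ (σ (σ (σ (σ x)))) = x) (h16 : Nat.card V = 16)
    (hσ : fix σ = ⊥) (hinv : ∀ x, σ (t (σ x)) = t x) : Nat.card (fix t) ≤ 4 := by
  by_contra hnot
  push Not at hnot
  let F := fix t
  let W := F.map σ.toMonoidHom
  haveI hWn : W.Normal := ⟨fun n hn g => by rw [hV g n]; simpa using hn⟩
  have hWc : Nat.card W = Nat.card F := Subgroup.card_map_of_injective σ.injective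
  have hd : Nat.card F ∣ 16 := by
    rw [← h16]; exact Subgroup.card_subgroup_dvd_card _
  have hF8 : 8 ≤ Nat.card F := by
    have h1 : Nat.card F ≤ 16 := Nat.le_of_dvd (by norm_num) hd
    have h2 : 4 < Nat.card F := hnot
    interval_cases (Nat.card F) <;> first | omega | (exfalso; revert hd; decide)
  have hidx : W.index ≤ 2 := by
    have h1 := W.card_mul_index
    rw [hWc, h16] at h1
    by_contra h2
    push Not at h2
    have h3 : 8 * 3 ≤ Nat.card F * W.index := Nat.mul_le_mul hF8 h2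
    omega
  have hrel : W.relIndex F ≤ 2 := by
    have h1 := Subgroup.relIndex_dvd_index_of_normal W F
    have h2 : W.index ≠ 0 := Subgroup.index_ne_zero_of_finite
    exact (Nat.le_of_dvd (by omega) h1).trans hidx
  have hcardinf := Cfsg.Agent.Lib.PGroup.Critical.card_eq_mul_relIndex (inf_le_left : F ⊓ W ≤ F)
  rw [Subgroup.inf_relIndex_left] at hcardinf
  have hgt : 1 < Nat.card ↥(F ⊓ W) := by
    by_contra h
    push Not at h
    have h1 : Nat.card F ≤ 1 * 2 := by
      rw [hcardinf]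
      exact Nat.mul_le_mul h hrel
    omega
  haveI : Nontrivial ↥(F ⊓ W) := Finite.one_lt_card_iff_nontrivial.mp hgt
  obtain ⟨⟨v, hv⟩, hv1⟩ := exists_ne (1 : ↥(F ⊓ W))
  have hv1' : v ≠ 1 := fun h => hv1 (Subtype.ext h)
  obtain ⟨hvF, w, hw, hwv⟩ := hv
  have htv : t v = v := hvF
  have htw : t w = w := hw
  have hwv' : σ w = v := hwv
  have h1 : σ v = w := by
    have h2 := hinv w
    rw [hwv', htv, htw] at h2
    exact h2
  have h2 : σ (σ v) = v := by rw [h1, hwv']
  have h3 : σ v = v := by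
    have h4 := h5 v
    rw [h2, h2] at h4
    exact h4
  have h4 : v ∈ fix σ := h3
  rw [hσ] at h4
  exact hv1' h4

theorem image_eq (hV : ∀ a b : V, a * b = b * a) (hexp : ∀ v : V, v * v = 1) (t : MulAut V)
    (ht2 : ∀ x, t (t x) = x) (h16 : Nat.card V = 16) (hle : Nat.card (fix t) ≤ 4)
    (v : V) (hv : v ∈ fix t) : ∃ w, v = t w * w⁻¹ := by
  let ψ : V →* V :=
    { toFun := fun w => t w * w⁻¹
      map_one' := by simp
      map_mul' := by
        intro a b
        rw [map_mul, mul_inv_rev, hV b⁻¹ a⁻¹]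
        simp only [mul_assoc]
        congr 1
        rw [← mul_assoc, hV (t b), mul_assoc] }
  have hker : ψ.ker = fix t := by
    ext w
    rw [MonoidHom.mem_ker]
    show t w * w⁻¹ = 1 ↔ t w = w
    rw [mul_inv_eq_one]
  have hinv : ∀ a : V, a⁻¹ = a := fun a => inv_eq_of_mul_eq_one_left (hexp a)
  have hrange : ψ.range ≤ fix t := by
    rintro _ ⟨w, rfl⟩
    show t (t w * w⁻¹) = t w * w⁻¹
    rw [map_mul, ht2, map_inv, hinv, hinv, hV]
  have h1 := ψ.ker.card_mul_index
  rw [Subgroup.index_ker, hker, h16] at h1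
  have h2 : Nat.card (fix t) ≤ Nat.card ψ.range := by
    by_contra h3
    push Not at h3
    have h4 : Nat.card (fix t) * Nat.card ψ.range ≤ 4 * 3 := Nat.mul_le_mul hle (by omega)
    omega
  have h3 : ψ.range = fix t := Subgroup.eq_of_le_of_card_ge hrange h2
  rw [← h3] at hv
  obtain ⟨w, hw⟩ := hv
  exact ⟨w, hw.symm⟩

end Abstract

section Act

variable {G : Type*} [Group G] [Finite G]

theorem center_map_eq (H : Subgroup G) [H.Normal] (g : G) :
    (center H).map (MulAut.conjNormal g : MulAut H).toMonoidHom = center H := by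
  exact Subgroup.characteristic_iff_map_eq.mp inferInstance _

/-- The action on `H / Z(H)`. -/
noncomputable def actQ (H : Subgroup G) [H.Normal] : G →* MulAut (H ⧸ center H) where
  toFun g := QuotientGroup.congr (center H) (center H) (MulAut.conjNormal g) (center_map_eq H g)
  map_one' := by
    ext x
    obtain ⟨x, rfl⟩ := QuotientGroup.mk_surjective x
    simp
  map_mul' := by
    intro a b
    ext x
    obtain ⟨x, rfl⟩ := QuotientGroup.mk_surjective x
    simp
    rfl

theorem actQ_mk (H : Subgroup G) [H.Normal] (g : G) (h : H) :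
    actQ H g (h : H ⧸ center H) = ((MulAut.conjNormal g h : H) : H ⧸ center H) := rfl

theorem card_ten_solvable {X : Type*} [Group X] [Finite X] (hX : Nat.card X = 10) :
    Group.IsSolvable X := by
  obtain ⟨f, hf⟩ := exists_prime_orderOf_dvd_card' (G := X) 5 (by rw [hX]; norm_num)
  have hidx : (zpowers f).index = 2 := by
    have h1 := (zpowers f).card_mul_index
    rw [Nat.card_zpowers, hf, hX] at h1
    omega
  haveI hn : (zpowers f).Normal := Subgroup.normal_of_index_eq_two hidx
  haveI : Group.IsSolvable (zpowers f) := by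
    exact Group.isSolvable_of_comm (fun a b => (inferInstance : IsMulCommutative (zpowers f)).is_comm.comm a b)
  haveI : Group.IsSolvable (X ⧸ zpowers f) := by
    haveI : Fact (Nat.Prime (Nat.card (X ⧸ zpowers f))) := by
      rw [← Subgroup.index_eq_card, hidx]
      exact ⟨Nat.prime_two⟩
    have hc : IsCyclic (X ⧸ zpowers f) := isCyclic_of_prime_card rfl
    exact Group.isSolvable_of_comm (fun a b => hc.isMulCommutative.is_comm.comm a b)
  exact Group.isSolvable_of_ker_le_range (zpowers f).subtype (QuotientGroup.mk' (zpowers f)) (by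
    intro x hx
    refine ⟨⟨x, ?_⟩, rfl⟩
    exact (QuotientGroup.eq_one_iff x).mp hx)

theorem main (hG : Nat.card G = 320) (H : Subgroup G) [hHn : H.Normal]
    (hC : centralizer (H : Set G) ≤ H) (hex : Cfsg.IsExtraspecial 2 H) (h32 : Nat.card H = 32)
    (T : G) (hT : orderOf T = 2) (hTH : T ∉ H) :
    ∀ c ∈ H ⊓ centralizer ({T} : Set G), c ^ 2 = 1 := by
  classical
  have hZ2 : Nat.card (center H) = 2 := hex.2
  have hcomm : ∀ x y : H, ⁅x, y⁆ ∈ center H := Cfsg.Agent.Lib.PGroup.Extraspecial.IsExtraspecial.comm_mem_center hex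
  have hpow2 : ∀ x : H, x ^ 2 ∈ center H := Cfsg.Agent.Lib.PGroup.Extraspecial.IsExtraspecial.pow_mem_center hex
  have hHp : IsPGroup 2 H := hex.1.1
  have hZuniq : ∀ a ∈ center H, ∀ b ∈ center H, a ≠ 1 → b ≠ 1 → a = b := by
    intro a ha b hb ha1 hb1
    obtain ⟨y, -, hy⟩ := (Nat.card_eq_two_iff' (1 : center H)).mp hZ2
    have h1 := hy ⟨a, ha⟩ (fun h => ha1 (congrArg Subtype.val h))
    have h2 := hy ⟨b, hb⟩ (fun h => hb1 (congrArg Subtype.val h))
    exact congrArg Subtype.val (h1.trans h2.symm)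
  have hZsq : ∀ a ∈ center H, a * a = 1 := by
    intro a ha
    have h1 := pow_card_eq_one' (x := (⟨a, ha⟩ : center H))
    rw [hZ2] at h1
    have h2 : a ^ 2 = 1 := by simpa using congrArg Subtype.val h1
    rwa [pow_two] at h2
  have hZfix : ∀ (g : G), ∀ a ∈ center H, (MulAut.conjNormal g a : H) = a := by
    intro g a ha
    by_cases ha1 : a = 1
    · rw [ha1, map_one]
    apply hZuniq _ _ _ ha _ ha1
    · rw [← center_map_eq H g]
      exact ⟨a, ha, rfl⟩
    · intro h
      apply ha1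
      apply (MulAut.conjNormal g : MulAut H).injective
      rw [h, map_one]
  have hVcomm : ∀ a b : H ⧸ center H, a * b = b * a := by
    intro a b
    obtain ⟨a, rfl⟩ := QuotientGroup.mk_surjective a
    obtain ⟨b, rfl⟩ := QuotientGroup.mk_surjective b
    rw [← QuotientGroup.mk_mul, ← QuotientGroup.mk_mul, QuotientGroup.eq]
    have h2 : (a * b)⁻¹ * (b * a) = ⁅b⁻¹, a⁻¹⁆ := by
      rw [commutatorElement_def]
      group
    rw [h2]
    exact hcomm _ _
  have hVexp : ∀ v : H ⧸ center H, v * v = 1 := by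
    intro v
    obtain ⟨v, rfl⟩ := QuotientGroup.mk_surjective v
    rw [← QuotientGroup.mk_mul, ← pow_two]
    exact (QuotientGroup.eq_one_iff _).mpr (hpow2 v)
  have hV16 : Nat.card (H ⧸ center H) = 16 := by
    have h1 := (center H).card_mul_index
    rw [hZ2, h32, Subgroup.index_eq_card] at h1
    omega
  have hHact : ∀ h ∈ H, actQ H h = 1 := by
    intro h hh
    ext x
    obtain ⟨w, rfl⟩ := QuotientGroup.mk_surjective x
    rw [actQ_mk]
    show ((MulAut.conjNormal h w : H) : H ⧸ center H) = (w : H ⧸ center H)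
    symm
    rw [QuotientGroup.eq]
    have h1 : w⁻¹ * (MulAut.conjNormal h w : H) = ⁅w⁻¹, (⟨h, hh⟩ : H)⁆ := by
      apply Subtype.ext
      rw [commutatorElement_def]
      simp [MulAut.conjNormal_apply]
      group
    rw [h1]
    exact hcomm _ _
  -- the element of order five
  obtain ⟨f, hf⟩ := exists_prime_orderOf_dvd_card' (G := G) 5 (by rw [hG]; norm_num)
  have hf5 : f ^ 5 = 1 := by rw [← hf, pow_orderOf_eq_one]
  obtain ⟨σ, hσdef⟩ : ∃ σ, σ = actQ H f := ⟨_, rfl⟩
  have hσ5' : σ ^ 5 = 1 := by rw [hσdef, ← map_pow, hf5, map_one]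
  have hσ5 : ∀ x, σ (σ (σ (σ (σ x)))) = x := by
    intro x
    have h1 : (σ ^ 5) x = x := by rw [hσ5']; rfl
    simpa [pow_succ] using h1
  have hTT : T * T = 1 := by rw [← pow_two, ← hT, pow_orderOf_eq_one]
  have hTi : T⁻¹ = T := inv_eq_of_mul_eq_one_left hTT
  obtain ⟨t, htdef⟩ : ∃ t, t = actQ H T := ⟨_, rfl⟩
  have htt : t * t = 1 := by rw [htdef, ← map_mul, hTT, map_one]
  have ht2 : ∀ x, t (t x) = x := by
    intro x
    have h1 : (t * t) x = x := by rw [htt]; rfl
    exact h1
  have hfH : f ∉ H := by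
    intro h
    have h1 := Subgroup.orderOf_dvd_natCard H h
    rw [hf, h32] at h1
    omega
  have hσne : σ ≠ 1 := by
    intro h
    apply hfH
    apply hC
    rw [mem_centralizer_iff]
    intro w hw
    have h1 : σ ((⟨w, hw⟩ : H) : H ⧸ center H) = ((⟨w, hw⟩ : H) : H ⧸ center H) := by rw [h]; rfl
    rw [hσdef, actQ_mk] at h1
    have h2 : (⟨w, hw⟩ : H)⁻¹ * (MulAut.conjNormal f ⟨w, hw⟩ : H) ∈ center H := by
      apply QuotientGroup.eq.mp
      exact h1.symm
    obtain ⟨ζ, hζ⟩ : ∃ ζ, ζ = (⟨w, hw⟩ : H)⁻¹ * (MulAut.conjNormal f ⟨w, hw⟩ : H) := ⟨_, rfl⟩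
    rw [← hζ] at h2
    have h3 : (MulAut.conjNormal f ⟨w, hw⟩ : H) = ⟨w, hw⟩ * ζ := by rw [hζ]; group
    have hpow : ∀ j : ℕ, (MulAut.conjNormal (f ^ j) ⟨w, hw⟩ : H) = ⟨w, hw⟩ * ζ ^ j := by
      intro j
      induction j with
      | zero => simp
      | succ j ih =>
        rw [pow_succ', map_mul, MulAut.mul_apply, ih, map_mul, h3, map_pow, hZfix f ζ h2, pow_succ']
        group
    have h4 := hpow 5
    rw [hf5, map_one] at h4
    have h5 : ζ ^ 5 = 1 := by
      have h6 : (⟨w, hw⟩ : H) = ⟨w, hw⟩ * ζ ^ 5 := h4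
      exact (mul_eq_left.mp h6.symm)
    have h6 : ζ = 1 := by
      have h7 : ζ ^ 5 = ζ := by
        have h8 : ζ ^ 5 = (ζ * ζ) * (ζ * ζ) * ζ := by
          simp only [pow_succ, pow_zero, one_mul, mul_assoc]
        rw [h8, hZsq ζ h2]
        simp
      rw [← h7, h5]
    rw [h6, mul_one] at h3
    have h7 : f * w * f⁻¹ = w := congrArg Subtype.val h3
    calc w * f = (f * w * f⁻¹) * f := by rw [h7]
      _ = f * w := by group
  have hfix : fix σ = ⊥ := fix_eq_bot σ hσ5 hV16 hσne
  -- the normal subgroup of index two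
  have hdisj : Disjoint (zpowers f) H := by
    rw [Subgroup.disjoint_def]
    intro x hx1 hx2
    have h3 : orderOf x ∣ 32 := by
      rw [← h32]; exact Subgroup.orderOf_dvd_natCard _ hx2
    have h4 : orderOf x ∣ 5 := by
      rw [← hf]
      have := Subgroup.orderOf_dvd_natCard _ hx1
      rwa [Nat.card_zpowers] at this
    have h5 : Nat.Coprime 32 5 := by norm_num
    exact orderOf_eq_one_iff.mp (Nat.eq_one_of_dvd_coprimes h5 h3 h4)
  have hLcard : Nat.card ↥(zpowers f ⊔ H) = 160 := by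
    rw [Cfsg.Agent.Lib.PGroup.CyclicMax2.card_sup_eq_of_disjoint _ _ hdisj, Nat.card_zpowers, hf, h32]
  have hLidx : (zpowers f ⊔ H).index = 2 := by
    have h1 := (zpowers f ⊔ H).card_mul_index
    rw [hLcard, hG] at h1
    omega
  haveI hLn : (zpowers f ⊔ H).Normal := Subgroup.normal_of_index_eq_two hLidx
  have hTfT : T * f * T⁻¹ ∈ zpowers f ⊔ H :=
    hLn.conj_mem f ((le_sup_left : zpowers f ≤ _) (mem_zpowers f)) T
  have hset : ((zpowers f ⊔ H : Subgroup G) : Set G) = (zpowers f : Set G) * (H : Set G) :=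
    Subgroup.mul_normal (zpowers f) H
  have hTfT' : T * f * T⁻¹ ∈ (zpowers f : Set G) * (H : Set G) := by
    rw [← hset]; exact hTfT
  obtain ⟨a, ha, h, hh, hah⟩ := Set.mem_mul.mp hTfT'
  obtain ⟨i, hi⟩ := (mem_powers_iff_mem_zpowers).mpr ha
  simp only at hi
  have hconj : t * σ * t = σ ^ i := by
    have h1 : actQ H (T * f * T⁻¹) = σ ^ i := by
      rw [← hah, ← hi, map_mul, hHact h hh, mul_one, map_pow, hσdef]
    rw [map_mul, map_mul, hTi, ← htdef, ← hσdef] at h1
    exact h1
  have hσo : orderOf σ = 5 := orderOf_eq_prime hσ5' hσne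
  have hii : σ ^ (i * i) = σ := by
    have h1 : t * (t * σ * t) * t = σ := by
      calc t * (t * σ * t) * t = (t * t) * σ * (t * t) := by group
        _ = σ := by rw [htt]; group
    rw [hconj] at h1
    have h2 : t * σ ^ i * t = (t * σ * t) ^ i := by
      have h3 : t⁻¹ = t := inv_eq_of_mul_eq_one_left htt
      have h4 := conj_pow (a := t) (b := σ) (i := i)
      rw [h3] at h4
      exact h4.symm
    rw [h2, hconj, ← pow_mul] at h1
    exact h1
  have hmod : i * i ≡ 1 [MOD 5] := by
    have h1 : σ ^ (i * i) = σ ^ 1 := by rw [hii, pow_one]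
    rw [pow_eq_pow_iff_modEq, hσo] at h1
    exact h1
  have hcases : i % 5 = 1 ∨ i % 5 = 4 := by
    have h1 : (i * i) % 5 = 1 := hmod
    rw [Nat.mul_mod] at h1
    have h2 : i % 5 < 5 := Nat.mod_lt _ (by norm_num)
    revert h1
    generalize i % 5 = j at *
    interval_cases j <;> simp
  have hσi : σ ^ i = σ ^ (i % 5) := by
    rw [← hσo, pow_mod_orderOf]
  rcases hcases with hcase | hcase
  · -- commuting case: a contradiction
    exfalso
    rw [hσi, hcase, pow_one] at hconj
    have hts : t * σ = σ * t := by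
      calc t * σ = (t * σ * t) * t := by
            rw [mul_assoc (t * σ), htt, mul_one]
        _ = σ * t := by rw [hconj]
    have ht1 : t = 1 := comm_case σ t hσ5 hV16 hfix ht2 (fun x => by
      have h1 : (t * σ) x = (σ * t) x := by rw [hts]
      exact h1)
    have hmemZ : ∀ w : H, w⁻¹ * (MulAut.conjNormal T w : H) ∈ center H := by
      intro w
      have h1 : t (w : H ⧸ center H) = (w : H ⧸ center H) := by rw [ht1]; rfl
      rw [htdef, actQ_mk] at h1
      exact QuotientGroup.eq.mp h1.symm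
    let c : H →* center H :=
      { toFun := fun w => ⟨w⁻¹ * (MulAut.conjNormal T w : H), hmemZ w⟩
        map_one' := by
          apply Subtype.ext
          simp
        map_mul' := by
          intro a b
          apply Subtype.ext
          show (a * b)⁻¹ * (MulAut.conjNormal T (a * b) : H) =
            (a⁻¹ * (MulAut.conjNormal T a : H)) * (b⁻¹ * (MulAut.conjNormal T b : H))
          have h1 := (Subgroup.mem_center_iff.mp (hmemZ a)) b⁻¹
          rw [map_mul, mul_inv_rev]
          calc b⁻¹ * a⁻¹ * ((MulAut.conjNormal T a : H) * (MulAut.conjNormal T b : H))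
              = b⁻¹ * (a⁻¹ * (MulAut.conjNormal T a : H)) * (MulAut.conjNormal T b : H) := by group
            _ = (a⁻¹ * (MulAut.conjNormal T a : H)) * b⁻¹ * (MulAut.conjNormal T b : H) := by rw [h1]
            _ = _ := by group }
    have hcZ : ∀ z ∈ center H, c z = 1 := by
      intro z hz
      apply Subtype.ext
      show z⁻¹ * (MulAut.conjNormal T z : H) = 1
      rw [hZfix T z hz]
      group
    obtain ⟨e, he⟩ := Cfsg.Agent.Lib.PGroup.Extraspecial.exists_comm_eq_of_hom hHp hcomm hZ2 c hcZ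
    apply hTH
    have hcent : (e : G)⁻¹ * T ∈ centralizer (H : Set G) := by
      rw [mem_centralizer_iff]
      intro w hw
      have h1 := he ⟨w, hw⟩
      have h2 : (⟨w, hw⟩ : H)⁻¹ * (MulAut.conjNormal T ⟨w, hw⟩ : H) = ⁅e, (⟨w, hw⟩ : H)⁆ := h1
      have h3 := (Subgroup.mem_center_iff.mp (hcomm e ⟨w, hw⟩)) ⟨w, hw⟩
      have h4 : (MulAut.conjNormal T ⟨w, hw⟩ : H) = e * ⟨w, hw⟩ * e⁻¹ := by
        calc (MulAut.conjNormal T ⟨w, hw⟩ : H)
            = ⟨w, hw⟩ * ((⟨w, hw⟩ : H)⁻¹ * (MulAut.conjNormal T ⟨w, hw⟩ : H)) := by group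
          _ = ⟨w, hw⟩ * ⁅e, (⟨w, hw⟩ : H)⁆ := by rw [h2]
          _ = ⁅e, (⟨w, hw⟩ : H)⁆ * ⟨w, hw⟩ := h3
          _ = e * ⟨w, hw⟩ * e⁻¹ := by
            rw [commutatorElement_def]
            group
      have h5 : T * w * T⁻¹ = (e : G) * w * (e : G)⁻¹ := congrArg Subtype.val h4
      calc w * ((e : G)⁻¹ * T) = (e : G)⁻¹ * (((e : G) * w * (e : G)⁻¹) * T) := by group
        _ = (e : G)⁻¹ * ((T * w * T⁻¹) * T) := by rw [h5]
        _ = (e : G)⁻¹ * T * w := by group
    have h6 : (e : G)⁻¹ * T ∈ H := hC hcent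
    have h7 : T = (e : G) * ((e : G)⁻¹ * T) := by group
    rw [h7]
    exact mul_mem e.2 h6
  · -- inverting case
    rw [hσi, hcase] at hconj
    have hσinv : σ * t * σ = t := by
      have h1 : σ * (t * σ * t) = 1 := by
        rw [hconj, ← pow_succ']
        exact hσ5'
      calc σ * t * σ = σ * (t * σ * t) * t := by
            simp only [mul_assoc, htt, mul_one]
        _ = t := by rw [h1, one_mul]
    have hle : Nat.card (fix t) ≤ 4 := inv_case hVcomm σ t hσ5 hV16 hfix (fun x => by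
      have h1 : (σ * t * σ) x = t x := by rw [hσinv]
      exact h1)
    intro c hc
    obtain ⟨hcH, hcT⟩ := hc
    have hcT' : T * c * T⁻¹ = c := by
      have h1 := (Subgroup.mem_centralizer_iff.mp hcT) T rfl
      rw [h1]
      group
    have hcfix : ((⟨c, hcH⟩ : H) : H ⧸ center H) ∈ fix t := by
      show t _ = _
      rw [htdef, actQ_mk]
      congr 1
      apply Subtype.ext
      exact hcT'
    obtain ⟨wb, hwb⟩ := image_eq hVcomm hVexp t ht2 hV16 hle _ hcfix
    obtain ⟨w, rfl⟩ := QuotientGroup.mk_surjective wb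
    rw [htdef, actQ_mk, ← QuotientGroup.mk_inv, ← QuotientGroup.mk_mul] at hwb
    have hζ := QuotientGroup.eq.mp hwb
    obtain ⟨ζ, hζdef⟩ : ∃ ζ, ζ = (⟨c, hcH⟩ : H)⁻¹ * ((MulAut.conjNormal T w : H) * w⁻¹) := ⟨_, rfl⟩
    rw [← hζdef] at hζ
    have hζ' : (ζ : G) = c⁻¹ * ((T * w * T⁻¹) * (w : G)⁻¹) := by
      rw [hζdef]
      rfl
    have hζfix : T * (ζ : G) * T⁻¹ = ζ := congrArg Subtype.val (hZfix T ζ hζ)
    obtain ⟨u, hu⟩ : ∃ u : G, u = (T * w * T⁻¹) * (w : G)⁻¹ := ⟨_, rfl⟩
    rw [← hu] at hζ'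
    have huc : u = c * ζ := by rw [hζ', hu]; group
    have hTu : T * u * T⁻¹ = u⁻¹ := by
      rw [hu, hTi]
      calc T * (T * (w : G) * T * (w : G)⁻¹) * T = (T * T) * (w : G) * (T * (w : G)⁻¹ * T) := by group
        _ = (w : G) * (T * (w : G)⁻¹ * T) := by rw [hTT, one_mul]
        _ = _ := by
          rw [mul_inv_rev, mul_inv_rev, mul_inv_rev, inv_inv, hTi]
          group
    have hTu2 : T * u * T⁻¹ = u := by
      rw [huc]
      calc T * (c * (ζ : G)) * T⁻¹ = (T * c * T⁻¹) * (T * (ζ : G) * T⁻¹) := by group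
        _ = c * ζ := by rw [hcT', hζfix]
    have huu : u * u = 1 := by
      have h1 : u = u⁻¹ := hTu2.symm.trans hTu
      nth_rewrite 1 [h1]
      simp
    have hζz : (ζ : G) * ζ = 1 := congrArg Subtype.val (hZsq ζ hζ)
    have hcζ : c * (ζ : G) = ζ * c := by
      have := (Subgroup.mem_center_iff.mp hζ) ⟨c, hcH⟩
      exact (congrArg Subtype.val this)
    rw [pow_two]
    calc c * c = c * c * ((ζ : G) * ζ) := by rw [hζz, mul_one]
      _ = c * (c * ζ) * ζ := by group
      _ = c * (ζ * c) * ζ := by rw [hcζ]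
      _ = (c * ζ) * (c * ζ) := by group
      _ = 1 := by rw [← huc, huu]

end Act


/-- Let G be a finite group of order 320 = 64·5 whose largest normal 2-subgroup H = O₂(G) equals the Fitting subgroup F(G) and is extraspecial of order 32 containing no elementary abelian subgroup of order 8 (so H is the central product of a quaternion group and a dihedral group of order 8). If T is an involution of G outside H whose centralizer in H contains an elementary abelian subgroup of order 4, then C_H(T) itself is elementary abelian of order 4. -/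
theorem result {G : Type*} [Group G] [Finite G]
    (hG : Nat.card G = 320) (hHF : Cfsg.pCore 2 G = Cfsg.fittingSubgroup G)
    (hex : Cfsg.IsExtraspecial 2 ↥(Cfsg.pCore 2 G)) (h32 : Nat.card ↥(Cfsg.pCore 2 G) = 32)
    (hminus : ∀ A : Subgroup G, A ≤ Cfsg.pCore 2 G → Cfsg.IsElementaryAbelian 2 A → Nat.card ↥A ≤ 4)
    (T : G) (hT : orderOf T = 2) (hTH : T ∉ Cfsg.pCore 2 G)
    (V : Subgroup G) (hV : V ≤ Cfsg.pCore 2 G ⊓ Subgroup.centralizer ({T} : Set G)) (hV4 : Nat.card ↥V = 4) (hVe : Cfsg.IsElementaryAbelian 2 V) :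
    Nat.card ↥(Cfsg.pCore 2 G ⊓ Subgroup.centralizer ({T} : Set G)) = 4 ∧
      Cfsg.IsElementaryAbelian 2 (Cfsg.pCore 2 G ⊓ Subgroup.centralizer ({T} : Set G)) := by
  classical
  have h32' := h32
  obtain ⟨H, hH⟩ : ∃ H, H = Cfsg.pCore 2 G := ⟨_, rfl⟩
  rw [← hH] at h32 hex hTH hV hminus hHF ⊢
  haveI hHn : H.Normal := by rw [hH]; exact Cfsg.pCore_normal 2 G
  have hHp : IsPGroup 2 H := hex.1.1
  -- the `2'`-core is trivial
  have hO : Cfsg.pPrimeCore 2 G = ⊥ := by
    have hc : (Nat.card (Cfsg.pPrimeCore 2 G)).Coprime 2 := Cfsg.Agent.Lib.Solvable.PSeries.pPrimeCore_coprime 2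
    haveI hn : (Cfsg.pPrimeCore 2 G).Normal := Cfsg.pPrimeCore_normal 2 G
    have hd : Nat.card (Cfsg.pPrimeCore 2 G) ∣ 5 := by
      have h1 : Nat.card (Cfsg.pPrimeCore 2 G) ∣ 64 * 5 := by
        have := Subgroup.card_subgroup_dvd_card (Cfsg.pPrimeCore 2 G)
        rw [hG] at this
        exact this
      have h2 : (Nat.card (Cfsg.pPrimeCore 2 G)).Coprime 64 := Nat.Coprime.pow_right 6 hc
      exact h2.dvd_of_dvd_mul_left h1
    rcases (Nat.dvd_prime (by norm_num : Nat.Prime 5)).mp hd with h1 | h1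
    · exact Subgroup.eq_bot_of_card_eq _ h1
    · exfalso
      have hp5 : IsPGroup 5 (Cfsg.pPrimeCore 2 G) := IsPGroup.of_card (n := 1) (by rw [h1, pow_one])
      have hnil : Group.IsNilpotent (Cfsg.pPrimeCore 2 G) := hp5.isNilpotent
      have hle : Cfsg.pPrimeCore 2 G ≤ H := by
        rw [hHF]
        exact Cfsg.Agent.Lib.Basic.PCore.le_fittingSubgroup hn hnil
      have h2 := Subgroup.card_dvd_of_le hle
      rw [h1, h32] at h2
      omega
  have hsolv : Cfsg.IsPSolvable 2 G := by
    apply Cfsg.Agent.Lib.Solvable.PSeries.isPSolvable_of_normal_quotient H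
    · haveI : Group.IsNilpotent H := hHp.isNilpotent
      exact Cfsg.Agent.Lib.Solvable.PSeries.isPSolvable_of_solvable
    · have h10 : Nat.card (G ⧸ H) = 10 := by
        have h1 := H.card_mul_index
        rw [h32, hG, Subgroup.index_eq_card] at h1
        omega
      haveI := card_ten_solvable h10
      exact Cfsg.Agent.Lib.Solvable.PSeries.isPSolvable_of_solvable
  have hC : centralizer (H : Set G) ≤ H := by
    rw [hH]
    exact Cfsg.Agent.Lib.Solvable.PSeries.centralizer_pCore_le hsolv hO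
  have hsq := main hG H hC hex h32 T hT hTH
  have hEA : Cfsg.IsElementaryAbelian 2 (H ⊓ centralizer ({T} : Set G)) := by
    refine ⟨⟨⟨fun a b => Subtype.ext ?_⟩⟩, hsq⟩
    have ha := hsq a a.2
    have hb := hsq b b.2
    have hab := hsq _ (mul_mem a.2 b.2)
    rw [pow_two] at ha hb hab
    show (a : G) * b = b * a
    have h1 : (a : G) * b = (b : G)⁻¹ * (a : G)⁻¹ := by
      rw [← mul_inv_rev]
      exact eq_inv_of_mul_eq_one_left hab
    rw [h1, inv_eq_of_mul_eq_one_left hb, inv_eq_of_mul_eq_one_left ha]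
  refine ⟨?_, hEA⟩
  have h1 := hminus _ inf_le_left hEA
  have h2 := Subgroup.card_dvd_of_le hV
  rw [hV4] at h2
  have h3 : 0 < Nat.card ↥(H ⊓ centralizer ({T} : Set G)) := Nat.card_pos
  have h4 := Nat.le_of_dvd h3 h2
  omega

end Cfsg.Agent.S4405
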