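import Cfsg.Statements.S4406
import Mathlib
-- import your own Cfsg.Agent.* helpers here

set_option autoImplicit false
open Cfsg

namespace Cfsg.Agent.S4406

abbrev A4 := alternatingGroup (Fin 4)
abbrev G := ↥(alternatingGroup (Fin 4)) × ↥(alternatingGroup (Fin 4))

set_option maxRecDepth 100000
set_option synthInstance.maxHeartbeats 400000
set_option synthInstance.maxSize 2000

def inB (x b1 b2 : G) : Bool := decide (x = b1) || decide (x = b2) || decide (x = b1 * b2)
def P (g b1 b2 : G) : Bool := inB (g * b1 * g⁻¹) b1 b2 && inB (g * b2 * g⁻¹) b1 b2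

theorem key : ∀ b1 : G, b1 ^ 2 = 1 → b1.1 ≠ 1 → b1.2 ≠ 1 →
    ∀ b2 : G, b2 ^ 2 = 1 → b2.1 ≠ 1 → b2.2 ≠ 1 → b1 ≠ b2 → (b1 * b2).1 ≠ 1 → (b1 * b2).2 ≠ 1 →
    ∀ s t : A4, s ≠ 1 → s ^ 3 = 1 → t ≠ 1 → t ^ 3 = 1 →
      (P (s, t) b1 b2 || P (s, t ^ 2) b1 b2) = true := by decide +kernel

theorem exp6 : ∀ g : G, g ^ 6 = 1 := by decide +kernel
theorem card_G : Nat.card G = 144 := by rw [Nat.card_eq_fintype_card]; decide +kernel
theorem card_A4 : Nat.card A4 = 12 := by rw [Nat.card_eq_fintype_card]; decide +kernel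
theorem pow9 : ∀ s : A4, s ^ 9 = 1 → s ^ 3 = 1 := by decide +kernel

theorem sq_of_mem_sylow (X : Sylow 2 G) (b : G) (hb : b ∈ (X : Subgroup G)) : b ^ 2 = 1 := by
  obtain ⟨k, hk⟩ := X.2 ⟨b, hb⟩
  have hk' : b ^ (2 ^ k) = 1 := by
    have := congrArg Subtype.val hk
    simpa using this
  have h1 : orderOf b ∣ 2 ^ k := orderOf_dvd_of_pow_eq_one hk'
  have h2 : orderOf b ∣ 2 * 3 := orderOf_dvd_of_pow_eq_one (exp6 b)
  have hc : Nat.Coprime (orderOf b) 3 :=
    Nat.Coprime.coprime_dvd_left h1 (Nat.Coprime.pow_left k (by norm_num))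
  exact orderOf_dvd_iff_pow_eq_one.1 (hc.dvd_of_dvd_mul_right h2)

theorem card_sylow3 (Q : Sylow 3 G) : Nat.card (Q : Subgroup G) = 9 := by
  have h := Q.card_eq_multiplicity
  rw [card_G] at h
  rw [h]
  have : (144 : ℕ).factorization 3 = 2 := by
    rw [show (144 : ℕ) = 3 ^ 2 * 16 by norm_num, Nat.factorization_mul (by norm_num) (by norm_num),
      Nat.factorization_pow]
    simp [Nat.Prime.factorization (by norm_num : Nat.Prime 3)]
    exact Nat.factorization_eq_zero_of_not_dvd (by norm_num)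
  rw [this]; norm_num

theorem exists_fst (Q : Sylow 3 G) : ∃ s : A4, s ≠ 1 ∧ ((s, 1) : G) ∈ (Q : Subgroup G) := by
  let f : (Q : Subgroup G) →* A4 := (MonoidHom.snd A4 A4).comp (Q : Subgroup G).subtype
  have hni : ¬ Function.Injective f := by
    intro hf
    have := Subgroup.card_dvd_of_injective f hf
    rw [card_sylow3, card_A4] at this
    omega
  simp only [Function.Injective, not_forall] at hni
  obtain ⟨x, y, hxy, hne⟩ := hni
  have hxy2 : (x : G).2 = (y : G).2 := hxy
  refine ⟨((x : G) * (y : G)⁻¹).1, ?_, ?_⟩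
  · intro h
    apply hne
    apply Subtype.ext
    have h2 : ((x : G) * (y : G)⁻¹).2 = 1 := by
      simp [Prod.snd_mul, hxy2]
    have : (x : G) * (y : G)⁻¹ = 1 := Prod.ext h h2
    exact mul_inv_eq_one.1 this
  · have h2 : ((x : G) * (y : G)⁻¹).2 = 1 := by
      simp [Prod.snd_mul, hxy2]
    have : (((x : G) * (y : G)⁻¹).1, (1 : A4)) = (x : G) * (y : G)⁻¹ := Prod.ext rfl h2.symm
    rw [this]
    exact mul_mem x.2 (inv_mem y.2)

theorem exists_snd (Q : Sylow 3 G) : ∃ t : A4, t ≠ 1 ∧ ((1, t) : G) ∈ (Q : Subgroup G) := by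
  let f : (Q : Subgroup G) →* A4 := (MonoidHom.fst A4 A4).comp (Q : Subgroup G).subtype
  have hni : ¬ Function.Injective f := by
    intro hf
    have := Subgroup.card_dvd_of_injective f hf
    rw [card_sylow3, card_A4] at this
    omega
  simp only [Function.Injective, not_forall] at hni
  obtain ⟨x, y, hxy, hne⟩ := hni
  have hxy2 : (x : G).1 = (y : G).1 := hxy
  refine ⟨((x : G) * (y : G)⁻¹).2, ?_, ?_⟩
  · intro h
    apply hne
    apply Subtype.ext
    have h2 : ((x : G) * (y : G)⁻¹).1 = 1 := by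
      simp [Prod.fst_mul, hxy2]
    have : (x : G) * (y : G)⁻¹ = 1 := Prod.ext h2 h
    exact mul_inv_eq_one.1 this
  · have h2 : ((x : G) * (y : G)⁻¹).1 = 1 := by
      simp [Prod.fst_mul, hxy2]
    have : ((1 : A4), ((x : G) * (y : G)⁻¹).2) = (x : G) * (y : G)⁻¹ := Prod.ext h2.symm rfl
    rw [this]
    exact mul_mem x.2 (inv_mem y.2)

theorem cube_of_mem (Q : Sylow 3 G) (g : G) (hg : g ∈ (Q : Subgroup G)) : g ^ 9 = 1 := by
  have h := pow_card_eq_one' (x := (⟨g, hg⟩ : (Q : Subgroup G)))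
  rw [card_sylow3] at h
  have := congrArg Subtype.val h
  simpa using this

/-- A subgroup of order four with all elements of square one, given two distinct non-identity
elements, is exactly the four expected elements. -/
theorem four_elts (B : Subgroup G) (hB : Nat.card B = 4) (b1 b2 : G) (h1 : b1 ∈ B) (h2 : b2 ∈ B)
    (h11 : b1 ≠ 1) (h21 : b2 ≠ 1) (h12 : b1 ≠ b2) (h121 : b1 * b2 ≠ 1) (h : G) (hh : h ∈ B) :
    h = 1 ∨ h = b1 ∨ h = b2 ∨ h = b1 * b2 := by
  classical
  by_contra hcon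
  simp only [not_or] at hcon
  obtain ⟨ha, hb, hc, hd⟩ := hcon
  let S : Finset G := {1, b1, b2, b1 * b2, h}
  have hcard : S.card = 5 := by
    have e1 : b1 ≠ b1 * b2 := by
      intro e
      apply h21
      exact (mul_eq_left.1 e.symm)
    have e2 : b2 ≠ b1 * b2 := by
      intro e
      apply h11
      exact (mul_eq_right.1 e.symm)
    simp only [S]
    rw [Finset.card_insert_of_notMem, Finset.card_insert_of_notMem, Finset.card_insert_of_notMem,
      Finset.card_insert_of_notMem, Finset.card_singleton]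
    · simp only [Finset.mem_singleton]; exact fun e => hd e.symm
    · simp only [Finset.mem_insert, Finset.mem_singleton, not_or]
      exact ⟨e2, fun e => hc e.symm⟩
    · simp only [Finset.mem_insert, Finset.mem_singleton, not_or]
      exact ⟨h12, e1, fun e => hb e.symm⟩
    · simp only [Finset.mem_insert, Finset.mem_singleton, not_or]
      exact ⟨Ne.symm h11, Ne.symm h21, Ne.symm h121, fun e => ha e.symm⟩
  have hsub : ∀ x ∈ S, x ∈ B := by
    intro x hx
    simp only [S, Finset.mem_insert, Finset.mem_singleton] at hx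
    rcases hx with rfl | rfl | rfl | rfl | rfl
    · exact one_mem B
    · exact h1
    · exact h2
    · exact mul_mem h1 h2
    · exact hh
  have : S.card ≤ Nat.card B := by
    rw [show Nat.card B = (B : Set G).ncard from Nat.card_coe_set_eq _, ← Set.ncard_coe_finset S]
    exact Set.ncard_le_ncard (fun x hx => hsub x hx) (Set.toFinite _)
  omega

/-- In the direct product P = A₄ × A₄, let X be the Sylow 2-subgroup, X₁ and X₂ its intersections with the two direct factors, Q a Sylow 3-subgroup and Q₁, Q₂ its intersections with the two factors. Then every subgroup B of X of order 4 either meets X₁ or X₂ nontrivially, or is normalized by one of the two subgroups of Q of order 3 other than Q₁ and Q₂. -/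
theorem result
    (X : Sylow 2 (↥(alternatingGroup (Fin 4)) × ↥(alternatingGroup (Fin 4))))
    (Q : Sylow 3 (↥(alternatingGroup (Fin 4)) × ↥(alternatingGroup (Fin 4))))
    (B : Subgroup (↥(alternatingGroup (Fin 4)) × ↥(alternatingGroup (Fin 4)))) (hBX : B ≤ (X : Subgroup _)) (hB4 : Nat.card ↥B = 4) :
    B ⊓ ((X : Subgroup _) ⊓ Subgroup.prod ⊤ ⊥) ≠ ⊥ ∨ B ⊓ ((X : Subgroup _) ⊓ Subgroup.prod ⊥ ⊤) ≠ ⊥ ∨
      ∃ R : Subgroup (↥(alternatingGroup (Fin 4)) × ↥(alternatingGroup (Fin 4))), R ≤ (Q : Subgroup _) ∧ Nat.card ↥R = 3 ∧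
        R ≠ (Q : Subgroup _) ⊓ Subgroup.prod ⊤ ⊥ ∧ R ≠ (Q : Subgroup _) ⊓ Subgroup.prod ⊥ ⊤ ∧ R ≤ Subgroup.normalizer (B : Set _) := by
  classical
  by_cases hA : B ⊓ ((X : Subgroup _) ⊓ Subgroup.prod ⊤ ⊥) = ⊥
  swap
  · exact Or.inl hA
  by_cases hC : B ⊓ ((X : Subgroup _) ⊓ Subgroup.prod ⊥ ⊤) = ⊥
  swap
  · exact Or.inr (Or.inl hC)
  right; right
  have hsnd : ∀ b ∈ B, b ≠ 1 → b.2 ≠ 1 := by
    intro b hb hb1 hb2
    apply hb1
    have hm : b ∈ B ⊓ ((X : Subgroup _) ⊓ Subgroup.prod ⊤ ⊥) :=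
      ⟨hb, hBX hb, Subgroup.mem_prod.2 ⟨Subgroup.mem_top _, by simpa using hb2⟩⟩
    rw [hA] at hm
    simpa using hm
  have hfst : ∀ b ∈ B, b ≠ 1 → b.1 ≠ 1 := by
    intro b hb hb1 hb2
    apply hb1
    have hm : b ∈ B ⊓ ((X : Subgroup _) ⊓ Subgroup.prod ⊥ ⊤) :=
      ⟨hb, hBX hb, Subgroup.mem_prod.2 ⟨by simpa using hb2, Subgroup.mem_top _⟩⟩
    rw [hC] at hm
    simpa using hm
  have hsq : ∀ b ∈ B, b ^ 2 = 1 := fun b hb => sq_of_mem_sylow X b (hBX hb)
  -- pick two elements
  have hex : ∀ S : Finset G, S.card < 4 → ∃ b ∈ B, b ∉ S := by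
    intro S hS
    by_contra hcon
    simp only [not_exists, not_and, not_not] at hcon
    have : Nat.card B ≤ S.card := by
      rw [show Nat.card B = (B : Set G).ncard from Nat.card_coe_set_eq _, ← Set.ncard_coe_finset S]
      exact Set.ncard_le_ncard (fun x hx => hcon x hx) (Set.toFinite _)
    omega
  obtain ⟨b1, hb1, hb1'⟩ := hex {1} (by simp)
  obtain ⟨b2, hb2, hb2'⟩ := hex {1, b1} (Nat.lt_of_le_of_lt (Finset.card_le_two) (by norm_num))
  have h11 : b1 ≠ 1 := by simpa using hb1'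
  have h21 : b2 ≠ 1 := by
    intro e; apply hb2'; simp [e]
  have h12 : b1 ≠ b2 := by
    intro e; apply hb2'; simp [e]
  have h121 : b1 * b2 ≠ 1 := by
    intro e
    apply h12
    have : b1 * b1 = 1 := by rw [← pow_two]; exact hsq b1 hb1
    exact mul_left_cancel (this.trans e.symm)
  obtain ⟨s, hs1, hsQ⟩ := exists_fst Q
  obtain ⟨t, ht1, htQ⟩ := exists_snd Q
  have hs3 : s ^ 3 = 1 := by
    apply pow9
    have := congrArg Prod.fst (cube_of_mem Q _ hsQ)
    simpa using this
  have ht3 : t ^ 3 = 1 := by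
    apply pow9
    have := congrArg Prod.snd (cube_of_mem Q _ htQ)
    simpa using this
  have hk := key b1 (hsq b1 hb1) (hfst b1 hb1 h11) (hsnd b1 hb1 h11)
    b2 (hsq b2 hb2) (hfst b2 hb2 h21) (hsnd b2 hb2 h21) h12
    (hfst _ (mul_mem hb1 hb2) h121) (hsnd _ (mul_mem hb1 hb2) h121) s t hs1 hs3 ht1 ht3
  have final : ∀ u : A4, u ≠ 1 → u ^ 3 = 1 → ((s, u) : G) ∈ (Q : Subgroup G) → P (s, u) b1 b2 = true →
      ∃ R : Subgroup G, R ≤ (Q : Subgroup _) ∧ Nat.card ↥R = 3 ∧
        R ≠ (Q : Subgroup _) ⊓ Subgroup.prod ⊤ ⊥ ∧ R ≠ (Q : Subgroup _) ⊓ Subgroup.prod ⊥ ⊤ ∧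
        R ≤ Subgroup.normalizer (B : Set _) := by
    intro u hu1 hu3 hm hP
    let g : G := (s, u)
    have hg3 : g ^ 3 = 1 := by
      apply Prod.ext
      · simpa [g] using hs3
      · simpa [g] using hu3
    have hg1 : g ≠ 1 := by
      intro e
      exact hs1 (congrArg Prod.fst e)
    have : Fact (Nat.Prime 3) := ⟨by norm_num⟩
    have hcj : ∀ h ∈ B, g * h * g⁻¹ ∈ B := by
      have hinB : ∀ x : G, inB x b1 b2 = true → x ∈ B := by
        intro x hx
        simp only [inB, Bool.or_eq_true, decide_eq_true_eq] at hx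
        rcases hx with (rfl | rfl) | rfl
        · exact hb1
        · exact hb2
        · exact mul_mem hb1 hb2
      simp only [P, Bool.and_eq_true] at hP
      have hc1 := hinB _ hP.1
      have hc2 := hinB _ hP.2
      intro h hh
      rcases four_elts B hB4 b1 b2 hb1 hb2 h11 h21 h12 h121 h hh with rfl | rfl | rfl | rfl
      · simp
      · exact hc1
      · exact hc2
      · have e : g * (b1 * b2) * g⁻¹ = (g * b1 * g⁻¹) * (g * b2 * g⁻¹) := by group
        rw [e]
        exact mul_mem hc1 hc2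
    have hnorm : g ∈ Subgroup.normalizer (B : Set G) := by
      rw [Subgroup.mem_normalizer_iff]
      intro h
      constructor
      · exact fun hh => hcj h hh
      · intro hh
        have h2 := hcj _ (hcj _ hh)
        have e : g * (g * (g * h * g⁻¹) * g⁻¹) * g⁻¹ = h := by
          have hgg : g * (g * g) = 1 := by rw [← pow_three]; exact hg3
          calc g * (g * (g * h * g⁻¹) * g⁻¹) * g⁻¹ = (g * (g * g)) * h * (g * (g * g))⁻¹ := by
                simp only [mul_inv_rev, mul_assoc]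
            _ = h := by rw [hgg]; simp
        rwa [e] at h2
    refine ⟨Subgroup.zpowers g, ?_, ?_, ?_, ?_, ?_⟩
    · exact (Subgroup.zpowers_le).2 hm
    · rw [Nat.card_zpowers]
      exact orderOf_eq_prime hg3 hg1
    · intro e
      have : g ∈ (Q : Subgroup _) ⊓ Subgroup.prod ⊤ ⊥ := by
        rw [← e]; exact Subgroup.mem_zpowers g
      have h2 := (Subgroup.mem_prod.1 this.2).2
      exact hu1 (by simpa [g] using h2)
    · intro e
      have : g ∈ (Q : Subgroup _) ⊓ Subgroup.prod ⊥ ⊤ := by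
        rw [← e]; exact Subgroup.mem_zpowers g
      have h2 := (Subgroup.mem_prod.1 this.2).1
      exact hs1 (by simpa [g] using h2)
    · exact (Subgroup.zpowers_le).2 hnorm
  have hsmem : ∀ k : ℕ, ((s, t ^ k) : G) ∈ (Q : Subgroup G) := by
    intro k
    have := mul_mem hsQ (pow_mem htQ k)
    simpa using this
  simp only [Bool.or_eq_true] at hk
  rcases hk with hk | hk
  · exact final t ht1 ht3 (by simpa using hsmem 1) hk
  · refine final (t ^ 2) ?_ ?_ (hsmem 2) hk
    · intro e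
      apply ht1
      calc t = t ^ 3 * (t ^ 2)⁻¹ := by group
        _ = 1 := by rw [ht3, e]; simp
    · rw [← pow_mul, mul_comm, pow_mul, ht3, one_pow]

end Cfsg.Agent.S4406
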