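import Cfsg.Statements.S4407
import Cfsg.Agent.Lib.S4407.Core

set_option autoImplicit false
open Cfsg

namespace Cfsg.Agent.S4407

open Cfsg.Agent.Lib.S4407 DihedralGroup

abbrev D4 : Type := DihedralGroup 4

def Fe : Finset D4 := {1, r 2, sr 0, sr 2}
def Fo : Finset D4 := {1, r 2, sr 1, sr 3}

def Ve : Subgroup D4 where
  carrier := ↑Fe
  mul_mem' := by
    have h : ∀ a ∈ Fe, ∀ b ∈ Fe, a * b ∈ Fe := by decide
    intro a b ha hb
    exact h a ha b hb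
  one_mem' := by
    have h : (1 : D4) ∈ Fe := by decide
    exact h
  inv_mem' := by
    have h : ∀ a ∈ Fe, a⁻¹ ∈ Fe := by decide
    intro a ha
    exact h a ha

def Vo : Subgroup D4 where
  carrier := ↑Fo
  mul_mem' := by
    have h : ∀ a ∈ Fo, ∀ b ∈ Fo, a * b ∈ Fo := by decide
    intro a b ha hb
    exact h a ha b hb
  one_mem' := by
    have h : (1 : D4) ∈ Fo := by decide
    exact h
  inv_mem' := by
    have h : ∀ a ∈ Fo, a⁻¹ ∈ Fo := by decide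
    intro a ha
    exact h a ha

theorem mem_Ve {x : D4} : x ∈ Ve ↔ x ∈ Fe := Iff.rfl
theorem mem_Vo {x : D4} : x ∈ Vo ↔ x ∈ Fo := Iff.rfl

theorem card_Ve : Nat.card Ve = 4 := by
  have h : Nat.card Ve = Nat.card {x // x ∈ Fe} := rfl
  rw [h, Nat.card_eq_fintype_card, Fintype.card_coe]
  decide

theorem card_Vo : Nat.card Vo = 4 := by
  have h : Nat.card Vo = Nat.card {x // x ∈ Fo} := rfl
  rw [h, Nat.card_eq_fintype_card, Fintype.card_coe]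
  decide

theorem classify (B : Subgroup D4) (hc : Nat.card B = 4) (hexp : ∀ x ∈ B, x ^ 2 = 1) :
    B = Ve ∨ B = Vo := by
  have hr1 : (r 1 : D4) ∉ B := fun h => absurd (hexp _ h) (by decide)
  have hr3 : (r 3 : D4) ∉ B := fun h => absurd (hexp _ h) (by decide)
  have key : ∀ x : D4, x = 1 ∨ x = r 2 ∨ x = r 1 ∨ x = r 3 ∨ x = sr 0 ∨ x = sr 1 ∨ x = sr 2 ∨ x = sr 3 := by
    decide
  have p01 : (sr 0 * sr 1 : D4) = r 1 := by decide
  have p03 : (sr 0 * sr 3 : D4) = r 3 := by decide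
  have p21 : (sr 2 * sr 1 : D4) = r 3 := by decide
  have p23 : (sr 2 * sr 3 : D4) = r 1 := by decide
  by_cases he : (sr 0 : D4) ∈ B ∨ (sr 2 : D4) ∈ B
  · left
    apply Subgroup.eq_of_le_of_card_ge
    · intro x hx
      rw [mem_Ve]
      rcases key x with rfl | rfl | rfl | rfl | rfl | rfl | rfl | rfl
      · decide
      · decide
      · exact absurd hx hr1
      · exact absurd hx hr3
      · decide
      · exfalso
        rcases he with h | h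
        · exact hr1 (p01 ▸ mul_mem h hx)
        · exact hr3 (p21 ▸ mul_mem h hx)
      · decide
      · exfalso
        rcases he with h | h
        · exact hr3 (p03 ▸ mul_mem h hx)
        · exact hr1 (p23 ▸ mul_mem h hx)
    · rw [card_Ve, hc]
  · by_cases ho : (sr 1 : D4) ∈ B ∨ (sr 3 : D4) ∈ B
    · right
      apply Subgroup.eq_of_le_of_card_ge
      · intro x hx
        rw [mem_Vo]
        rcases key x with rfl | rfl | rfl | rfl | rfl | rfl | rfl | rfl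
        · decide
        · decide
        · exact absurd hx hr1
        · exact absurd hx hr3
        · exact absurd (Or.inl hx) he
        · decide
        · exact absurd (Or.inr hx) he
        · decide
      · rw [card_Vo, hc]
    · exfalso
      have hle : B ≤ Subgroup.zpowers (r 2 : D4) := by
        intro x hx
        rcases key x with rfl | rfl | rfl | rfl | rfl | rfl | rfl | rfl
        · exact one_mem _
        · exact Subgroup.mem_zpowers _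
        · exact absurd hx hr1
        · exact absurd hx hr3
        · exact absurd (Or.inl hx) he
        · exact absurd (Or.inl hx) ho
        · exact absurd (Or.inr hx) he
        · exact absurd (Or.inr hx) ho
      have h1 := Subgroup.card_le_of_le hle
      rw [Nat.card_zpowers, hc] at h1
      have h2 : orderOf (r 2 : D4) = 2 := by
        apply orderOf_eq_prime (by decide) (by decide)
      omega

section Group

variable {S : Type*} [Group S]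

theorem cube_eq (x : S) : x * x * x = x ^ 3 := by rw [pow_succ, pow_two]

theorem self_inv_eq_one {x : S} (h3 : x ^ 3 = 1) (h : x = x⁻¹) : x = 1 := by
  have h2 : x * x = 1 := by
    calc x * x = x⁻¹ * x := congrArg (· * x) h
      _ = 1 := inv_mul_cancel x
  calc x = x * (x * x) := by rw [h2, mul_one]
    _ = x ^ 3 := by rw [← mul_assoc, cube_eq]
    _ = 1 := h3

/-- From conjugation relations to the relations `Rel`. -/
theorem mk_rel (A : Subgroup S) [hN : A.Normal] (hcomm : ∀ a ∈ A, ∀ b ∈ A, a * b = b * a)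
    (hcube : ∀ a ∈ A, a ^ 3 = 1) {ρ₀ s b : S} (hr4 : ρ₀ * ρ₀ * (ρ₀ * ρ₀) = 1) (hs2 : s * s = 1)
    (hsr : s * ρ₀ * s⁻¹ = ρ₀⁻¹) (hb : b ∈ A) (hne : b ≠ 1) (hsb : s * b * s⁻¹ = b)
    (hz : ∀ a ∈ A, (ρ₀ * ρ₀) * a * (ρ₀ * ρ₀)⁻¹ = a⁻¹) :
    Rel ρ₀ s b (ρ₀ * b * ρ₀⁻¹) := by
  set b₂ := ρ₀ * b * ρ₀⁻¹ with hb₂
  have hb₂A : b₂ ∈ A := hN.conj_mem b hb ρ₀
  have hinv : ρ₀ * (ρ₀ * ρ₀) = ρ₀⁻¹ := by
    rw [eq_inv_iff_mul_eq_one]
    rw [← hr4]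
    group
  have hs' : s⁻¹ = s := by
    rw [inv_eq_iff_mul_eq_one]
    exact hs2
  have hzinv : (ρ₀ * ρ₀)⁻¹ = ρ₀ * ρ₀ := by
    rw [inv_eq_iff_mul_eq_one]
    exact hr4
  have h_b₂_inv : b₂⁻¹ = b₂ * b₂ := by
    have h3 := hcube b₂ hb₂A
    rw [← cube_eq] at h3
    exact inv_eq_of_mul_eq_one_right (by rw [← mul_assoc]; exact h3)
  have hb3 := hcube b hb
  have hb₂3 := hcube b₂ hb₂A
  have hsr1 : s * ρ₀ = ρ₀ * (ρ₀ * ρ₀) * s := by
    rw [hinv, ← hsr]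
    group
  have hr2b₂ : ρ₀ * b₂ * ρ₀⁻¹ = b⁻¹ := by
    rw [← hz b hb, hb₂]
    group
  refine ⟨hr4, hs2, hsr1, ?_, ?_, ?_, hcomm b hb b₂ hb₂A, hne, ?_, ?_, ?_, ?_⟩
  · -- `z` commutes with `s`
    have h1 : s * (ρ₀ * ρ₀) = (ρ₀ * ρ₀)⁻¹ * s := by
      calc s * (ρ₀ * ρ₀) = (s * ρ₀ * s⁻¹) * (s * ρ₀ * s⁻¹) * s := by group
        _ = (ρ₀ * ρ₀)⁻¹ * s := by rw [hsr]; group
    rw [h1, hzinv]
  · rw [← hb3, cube_eq]
  · rw [← hb₂3, cube_eq]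
  · rw [hb₂]; group
  · have h1 : b = ρ₀ * b₂⁻¹ * ρ₀⁻¹ := by
      have := congrArg (fun x => x⁻¹) hr2b₂
      simp only [mul_inv_rev, inv_inv] at this
      rw [← this]
      group
    calc b * ρ₀ = (ρ₀ * b₂⁻¹ * ρ₀⁻¹) * ρ₀ := by rw [← h1]
      _ = ρ₀ * b₂⁻¹ := by group
      _ = ρ₀ * (b₂ * b₂) := by rw [h_b₂_inv]
  · exact mul_inv_eq_iff_eq_mul.mp hsb
  · -- `s` inverts `b₂`
    have h1 : s * b₂ * s⁻¹ = b₂⁻¹ := by
      have e1 : s * b₂ * s⁻¹ = (s * ρ₀ * s⁻¹) * (s * b * s⁻¹) * (s * ρ₀ * s⁻¹)⁻¹ := by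
        rw [hb₂]; group
      rw [e1, hsr, hsb]
      have e2 : b₂⁻¹ = ρ₀ * b⁻¹ * ρ₀⁻¹ := by rw [hb₂]; group
      rw [e2]
      calc ρ₀⁻¹ * b * (ρ₀⁻¹)⁻¹ = ρ₀ * ((ρ₀ * ρ₀)⁻¹ * b * (ρ₀ * ρ₀)) * ρ₀⁻¹ := by group
        _ = ρ₀ * ((ρ₀ * ρ₀) * b * (ρ₀ * ρ₀)⁻¹) * ρ₀⁻¹ := by rw [hzinv]
        _ = ρ₀ * b⁻¹ * ρ₀⁻¹ := by rw [hz b hb]
    have h2 := mul_inv_eq_iff_eq_mul.mp h1
    rw [h2, h_b₂_inv]

theorem zinv (A : Subgroup S) [hN : A.Normal] (hcomm : ∀ a ∈ A, ∀ b ∈ A, a * b = b * a)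
    (hcube : ∀ a ∈ A, a ^ 3 = 1) (hA9 : Nat.card A = 9) {ρ₀ : S} (hr4 : ρ₀ * ρ₀ * (ρ₀ * ρ₀) = 1)
    (hne : ∃ a ∈ A, (ρ₀ * ρ₀) * a * (ρ₀ * ρ₀)⁻¹ ≠ a) :
    ∀ a ∈ A, (ρ₀ * ρ₀) * a * (ρ₀ * ρ₀)⁻¹ = a⁻¹ := by
  obtain ⟨z, hz⟩ : ∃ z, z = ρ₀ * ρ₀ := ⟨_, rfl⟩
  rw [← hz] at hr4 hne ⊢
  have hzinv : z⁻¹ = z := inv_eq_iff_mul_eq_one.mpr hr4
  have hτ2 : ∀ x, z * (z * x * z⁻¹) * z⁻¹ = x := by
    intro x
    rw [hzinv]
    calc z * (z * x * z) * z = (z * z) * x * (z * z) := by group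
      _ = x := by rw [hr4]; group
  by_contra hcon
  push Not at hcon
  obtain ⟨c, hc, hcne⟩ := hcon
  obtain ⟨a, ha, hane⟩ := hne
  have hτmem : ∀ x ∈ A, z * x * z⁻¹ ∈ A := fun x hx => hN.conj_mem x hx z
  obtain ⟨p, hp⟩ : ∃ p, p = c * (z * c * z⁻¹) := ⟨_, rfl⟩
  have hpA : p ∈ A := hp ▸ mul_mem hc (hτmem c hc)
  have hp1 : p ≠ 1 := by
    intro h
    rw [hp] at h
    exact hcne (eq_inv_of_mul_eq_one_right h)
  have hτp : z * p * z⁻¹ = p := by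
    have e : z * p * z⁻¹ = (z * c * z⁻¹) * (z * (z * c * z⁻¹) * z⁻¹) := by rw [hp]; group
    rw [e, hτ2, hp]
    exact hcomm _ (hτmem c hc) _ hc
  obtain ⟨q, hq⟩ : ∃ q, q = a * (z * a * z⁻¹)⁻¹ := ⟨_, rfl⟩
  have hqA : q ∈ A := hq ▸ mul_mem ha (inv_mem (hτmem a ha))
  have hq1 : q ≠ 1 := by
    intro h
    rw [hq] at h
    exact hane (mul_inv_eq_one.mp h).symm
  have hτq : z * q * z⁻¹ = q⁻¹ := by
    have e : z * q * z⁻¹ = (z * a * z⁻¹) * (z * (z * a * z⁻¹) * z⁻¹)⁻¹ := by rw [hq]; group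
    rw [e, hτ2, hq, mul_inv_rev, inv_inv]
  let Am : Subgroup S :=
    { carrier := {x | x ∈ A ∧ z * x * z⁻¹ = x⁻¹}
      mul_mem' := by
        rintro x y ⟨hx, hx'⟩ ⟨hy, hy'⟩
        refine ⟨mul_mem hx hy, ?_⟩
        have e : z * (x * y) * z⁻¹ = (z * x * z⁻¹) * (z * y * z⁻¹) := by group
        rw [e, hx', hy', mul_inv_rev]
        exact hcomm _ (inv_mem hx) _ (inv_mem hy)
      one_mem' := by
        refine ⟨one_mem _, ?_⟩
        group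
      inv_mem' := by
        rintro x ⟨hx, hx'⟩
        refine ⟨inv_mem hx, ?_⟩
        have e : z * x⁻¹ * z⁻¹ = (z * x * z⁻¹)⁻¹ := by group
        rw [e, hx'] }
  haveI : Finite A := Nat.finite_of_card_ne_zero (by rw [hA9]; norm_num)
  have hleA : Am ≤ A := fun x hx => hx.1
  have hdvd : Nat.card Am ∣ 3 ^ 2 := by
    rw [show 3 ^ 2 = Nat.card A by rw [hA9]; norm_num]
    exact Subgroup.card_dvd_of_le hleA
  obtain ⟨k, hk, hcard⟩ := (Nat.dvd_prime_pow Nat.prime_three).mp hdvd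
  haveI : Fact (Nat.Prime 3) := ⟨Nat.prime_three⟩
  have hq3 : orderOf q = 3 := orderOf_eq_prime (hcube q hqA) hq1
  have hle : Subgroup.zpowers q ≤ Am := by
    rw [Subgroup.zpowers_le]
    exact ⟨hqA, hτq⟩
  haveI : Finite Am := Nat.finite_of_card_ne_zero (by rw [hcard]; positivity)
  have hk' : k = 0 ∨ k = 1 ∨ k = 2 := by omega
  rcases hk' with rfl | rfl | rfl
  · have h := Subgroup.card_le_of_le hle
    rw [Nat.card_zpowers, hq3, hcard] at h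
    omega
  · have hEq : Subgroup.zpowers q = Am :=
      Subgroup.eq_of_le_of_card_ge hle (by rw [Nat.card_zpowers, hq3, hcard]; norm_num)
    have hzρ : z * ρ₀ = ρ₀ * z := by rw [hz]; group
    obtain ⟨y, hy⟩ : ∃ y, y = ρ₀ * q * ρ₀⁻¹ := ⟨_, rfl⟩
    have hyA : y ∈ A := hy ▸ hN.conj_mem q hqA ρ₀
    have hyAm : y ∈ Am := by
      refine ⟨hyA, ?_⟩
      have e : z * y * z⁻¹ = ρ₀ * (z * q * z⁻¹) * ρ₀⁻¹ := by
        rw [hy, hzinv, hz]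
        group
      rw [e, hτq, hy]
      group
    rw [← hEq, Subgroup.mem_zpowers_iff] at hyAm
    obtain ⟨n, hn⟩ := hyAm
    have e : z * q * z⁻¹ = q ^ (n * n) := by
      have e1 : z * q * z⁻¹ = ρ₀ * y * ρ₀⁻¹ := by
        rw [hy, hzinv, hz]
        have h4 : (ρ₀ * ρ₀) * (ρ₀ * ρ₀) = 1 := by rw [← hz]; exact hr4
        have h5 : (ρ₀ * ρ₀)⁻¹ = ρ₀ * ρ₀ := inv_eq_iff_mul_eq_one.mpr h4
        calc ρ₀ * ρ₀ * q * (ρ₀ * ρ₀) = ρ₀ * ρ₀ * q * (ρ₀ * ρ₀)⁻¹ := by rw [h5]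
          _ = ρ₀ * (ρ₀ * q * ρ₀⁻¹) * ρ₀⁻¹ := by group
      rw [e1, ← hn, ← conj_zpow, ← hy, ← hn, ← zpow_mul]
    rw [hτq] at e
    have h1 : q ^ (n * n + 1) = 1 := by
      rw [zpow_add, zpow_one, ← e]
      exact inv_mul_cancel q
    have h2 := orderOf_dvd_iff_zpow_eq_one.mpr h1
    rw [hq3] at h2
    have h3 : (n * n + 1) % 3 = 0 := Int.emod_eq_zero_of_dvd h2
    have h4 : n % 3 = 0 ∨ n % 3 = 1 ∨ n % 3 = 2 := by omega
    rcases h4 with h | h | h <;> simp [Int.add_emod, Int.mul_emod, h] at h3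
  · have hEq : Am = A := Subgroup.eq_of_le_of_card_ge hleA (by rw [hcard, hA9]; norm_num)
    have hpAm : p ∈ Am := by rw [hEq]; exact hpA
    have h := hpAm.2
    rw [hτp] at h
    exact hp1 (self_inv_eq_one (hcube p hpA) h)

theorem genA (A I : Subgroup S) (hA9 : Nat.card A = 9) (hcube : ∀ a ∈ A, a ^ 3 = 1) {a₁ a₂ : S}
    (h1 : a₁ ∈ A) (h2 : a₂ ∈ A) (hne : a₁ ≠ 1) (hnot : a₂ ∉ Subgroup.zpowers a₁) (hI1 : a₁ ∈ I)
    (hI2 : a₂ ∈ I) : A ≤ I := by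
  haveI : Finite A := Nat.finite_of_card_ne_zero (by rw [hA9]; norm_num)
  have hleA : A ⊓ I ≤ A := inf_le_left
  have hdvd : Nat.card ↥(A ⊓ I) ∣ 3 ^ 2 := by
    rw [show 3 ^ 2 = Nat.card A by rw [hA9]; norm_num]
    exact Subgroup.card_dvd_of_le hleA
  obtain ⟨k, hk, hcard⟩ := (Nat.dvd_prime_pow Nat.prime_three).mp hdvd
  haveI : Fact (Nat.Prime 3) := ⟨Nat.prime_three⟩
  have hq3 : orderOf a₁ = 3 := orderOf_eq_prime (hcube a₁ h1) hne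
  have hle : Subgroup.zpowers a₁ ≤ A ⊓ I := by
    rw [Subgroup.zpowers_le]
    exact ⟨h1, hI1⟩
  haveI : Finite ↥(A ⊓ I) := Nat.finite_of_card_ne_zero (by rw [hcard]; positivity)
  have hk' : k = 0 ∨ k = 1 ∨ k = 2 := by omega
  rcases hk' with rfl | rfl | rfl
  · have h := Subgroup.card_le_of_le hle
    rw [Nat.card_zpowers, hq3, hcard] at h
    omega
  · have hEq : Subgroup.zpowers a₁ = A ⊓ I :=
      Subgroup.eq_of_le_of_card_ge hle (by rw [Nat.card_zpowers, hq3, hcard]; norm_num)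
    exact absurd (hEq ▸ (⟨h2, hI2⟩ : a₂ ∈ A ⊓ I)) hnot
  · have hEq : A ⊓ I = A := Subgroup.eq_of_le_of_card_ge hleA (by rw [hcard, hA9]; norm_num)
    exact inf_eq_left.mp hEq

/-- Choosing `a₁` fixed by `f`. -/
theorem gens (A : Subgroup S) [hN : A.Normal] (hcomm : ∀ a ∈ A, ∀ b ∈ A, a * b = b * a)
    {f z : S} (hf2 : f * f = 1) (hzi : ∀ a ∈ A, z * a * z⁻¹ = a⁻¹)
    (hne : ∃ a ∈ A, (f * z) * a ≠ a * (f * z)) :
    ∃ a₁ ∈ A, a₁ ≠ 1 ∧ f * a₁ * f⁻¹ = a₁ := by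
  obtain ⟨a', ha', hne'⟩ := hne
  have hfA : f * a' * f⁻¹ ∈ A := hN.conj_mem a' ha' f
  have hfinv : f⁻¹ = f := inv_eq_iff_mul_eq_one.mpr hf2
  refine ⟨a' * (f * a' * f⁻¹), mul_mem ha' hfA, ?_, ?_⟩
  · intro h
    apply hne'
    have h1 : f * a' * f⁻¹ = a'⁻¹ := eq_inv_of_mul_eq_one_right h
    have h2 : (f * z) * a' * (f * z)⁻¹ = a' := by
      calc (f * z) * a' * (f * z)⁻¹ = f * (z * a' * z⁻¹) * f⁻¹ := by group
        _ = f * a'⁻¹ * f⁻¹ := by rw [hzi a' ha']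
        _ = (f * a' * f⁻¹)⁻¹ := by group
        _ = a' := by rw [h1, inv_inv]
    exact mul_inv_eq_iff_eq_mul.mp h2
  · calc f * (a' * (f * a' * f⁻¹)) * f⁻¹ = (f * a' * f⁻¹) * ((f * f) * a' * (f⁻¹ * f⁻¹)) := by group
      _ = (f * a' * f⁻¹) * a' := by rw [hfinv, hf2]; group
      _ = a' * (f * a' * f⁻¹) := hcomm _ hfA _ ha'

/-- The stabiliser of a submodule. -/
def invSub {M : Type*} [AddCommGroup M] [Module (ZMod 2) M] [Finite S]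
    (ρ : Representation (ZMod 2) S M) (N : Submodule (ZMod 2) M) : Subgroup S where
  carrier := {g | ∀ m ∈ N, ρ g m ∈ N}
  mul_mem' := by
    intro a b ha hb m hm
    rw [mulap]
    exact ha _ (hb _ hm)
  one_mem' := by
    intro m hm
    rw [oneap]
    exact hm
  inv_mem' := by
    intro g hg
    have hpow : ∀ n : ℕ, ∀ m ∈ N, ρ (g ^ n) m ∈ N := by
      intro n
      induction n with
      | zero =>
        intro m hm
        rw [pow_zero, oneap]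
        exact hm
      | succ n ih =>
        intro m hm
        rw [pow_succ, mulap]
        exact ih _ (hg _ hm)
    have h : g⁻¹ = g ^ (orderOf g - 1) := by
      apply inv_eq_of_mul_eq_one_right
      rw [← pow_succ', Nat.sub_add_cancel (orderOf_pos g), pow_orderOf_eq_one]
    intro m hm
    rw [h]
    exact hpow _ m hm

theorem third {M : Type*} [AddCommGroup M] [Module (ZMod 2) M] {x y z : M} (h : x + y + z = 0) :
    z = x + y :=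
  (eq_of_add_eq_zero' (x := x + y) (y := z) h).symm

theorem dichotomy {M : Type*} [AddCommGroup M] [Module (ZMod 2) M] [Finite M]
    (ρ : Representation (ZMod 2) S M) (hfaith : Function.Injective ρ) {r₀ f t a₁ a₂ b₂ : S}
    (hT₁ : Rel r₀ f a₁ a₂) (hT₂ : Rel r₀ t (a₁ * a₂) b₂)
    (hirr₁ : ∀ N : Submodule (ZMod 2) M, (∀ m ∈ N, ρ a₁ m ∈ N) → (∀ m ∈ N, ρ a₂ m ∈ N) →
      (∀ m ∈ N, ρ r₀ m ∈ N) → (∀ m ∈ N, ρ f m ∈ N) → N = ⊥ ∨ N = ⊤)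
    (hirr₂ : ∀ N : Submodule (ZMod 2) M, (∀ m ∈ N, ρ (a₁ * a₂) m ∈ N) → (∀ m ∈ N, ρ b₂ m ∈ N) →
      (∀ m ∈ N, ρ r₀ m ∈ N) → (∀ m ∈ N, ρ t m ∈ N) → N = ⊥ ∨ N = ⊤)
    (ha₂ : a₂ * r₀ = r₀ * a₁) (hne : a₁ ≠ a₂) :
    (Nat.card M = 16 ∧ Nat.card {m : M // ρ (r₀ * r₀) m = m ∧ ρ f m = m} = 4 ∧
      Nat.card {m : M // ρ (r₀ * r₀) m = m ∧ ρ (r₀ * f) m = m} = 2) ∨
    (Nat.card M = 16 ∧ Nat.card {m : M // ρ (r₀ * r₀) m = m ∧ ρ t m = m} = 4 ∧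
      Nat.card {m : M // ρ (r₀ * r₀) m = m ∧ ρ (r₀ * t) m = m} = 2) := by
  by_cases h1 : ∃ m : M, m ≠ 0 ∧ ρ a₁ m = m
  · exact Or.inl (core ρ hT₁ hfaith hirr₁ h1)
  by_cases h2 : ∃ m : M, m ≠ 0 ∧ ρ (a₁ * a₂) m = m
  · exact Or.inr (core ρ hT₂ hfaith hirr₂ h2)
  exfalso
  push Not at h1 h2
  have hC : ∀ g : S, g * g * g = 1 → (∀ m : M, m ≠ 0 → ρ g m ≠ m) →
      ∀ m : M, m + ρ g m + ρ g (ρ g m) = 0 := by
    intro g hg hfix m
    by_contra hne'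
    apply hfix _ hne'
    have h3 : ρ g (ρ g (ρ g m)) = m := by
      rw [← mulap, ← mulap, hg, oneap]
    simp only [map_add, h3]
    abel
  have h1' : ∀ m : M, m ≠ 0 → ρ a₂ m ≠ m := by
    intro m hm hfx
    refine h1 (ρ r₀⁻¹ m) ?_ ?_
    · intro h
      exact hm (inj_ρ ρ _ h)
    · have e : a₁ * r₀⁻¹ = r₀⁻¹ * a₂ := by
        rw [mul_inv_eq_iff_eq_mul, mul_assoc, ha₂]
        group
      rw [← mulap, e, mulap, hfx]
  have C₁ := hC a₁ hT₁.a13 h1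
  have C₂ := hC a₂ hT₁.a23 h1'
  have hcube : (a₁ * a₂) * (a₁ * a₂) * (a₁ * a₂) = 1 := hT₂.a13
  have C₃ := hC (a₁ * a₂) hcube h2
  apply hne
  apply hfaith
  apply LinearMap.ext
  intro m
  have e2 := third (C₂ m)
  have e1 := third (C₁ (m + ρ a₂ m))
  have hc : a₁ * a₂ = a₂ * a₁ := hT₁.comm
  have e3 : ρ (a₁ * a₂) (ρ (a₁ * a₂) m) = ρ a₁ (ρ a₁ (ρ a₂ (ρ a₂ m))) := by
    rw [mulap, mulap]
    congr 1
    rw [← mulap ρ a₂ a₁, ← hc, mulap]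
  have e4 := C₃ m
  rw [e3, e2, e1, mulap] at e4
  simp only [map_add] at e4
  -- `e4 : m + ρ a₁ (ρ a₂ m) + (m + ρ a₂ m + (ρ a₁ m + ρ a₁ (ρ a₂ m))) = 0`
  have e5 : ρ a₁ m + ρ a₂ m = 0 := by
    have e6 : m + ρ a₁ (ρ a₂ m) + (m + ρ a₂ m + (ρ a₁ m + ρ a₁ (ρ a₂ m)))
        = (ρ a₁ m + ρ a₂ m) + (m + m) + (ρ a₁ (ρ a₂ m) + ρ a₁ (ρ a₂ m)) := by abel
    rw [e6, add_self', add_self', add_zero, add_zero] at e4
    exact e4
  exact eq_of_add_eq_zero' e5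

end Group

section Final

variable {S : Type*} [Group S] {M : Type*} [AddCommGroup M] [Module (ZMod 2) M]

theorem fix_two (ι : D4 →* S) (ρ : Representation (ZMod 2) S M) (V : Subgroup D4) {u v : D4}
    (hu : u ∈ V) (hv : v ∈ V) (hV : ∀ x ∈ V, x = 1 ∨ x = u ∨ x = v ∨ x = u * v) :
    Nat.card {m : M // ∀ b ∈ V.map ι, ρ b m = m} =
      Nat.card {m : M // ρ (ι u) m = m ∧ ρ (ι v) m = m} := by
  apply Nat.card_congr
  apply Equiv.subtypeEquivRight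
  intro m
  constructor
  · intro h
    exact ⟨h _ (Subgroup.mem_map_of_mem ι hu), h _ (Subgroup.mem_map_of_mem ι hv)⟩
  · rintro ⟨h1, h2⟩ b ⟨x, hx, rfl⟩
    rcases hV x hx with rfl | rfl | rfl | rfl
    · rw [map_one, oneap]
    · exact h1
    · exact h2
    · rw [map_mul, mulap, h2, h1]

theorem finish (ι : D4 →* S) (hιinj : Function.Injective ι) (X : Subgroup S) (hιr : ι.range = X)
    (ρ : Representation (ZMod 2) S M) {V₂ V₄ : Subgroup D4}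
    (hcl : ∀ B : Subgroup D4, Nat.card B = 4 → (∀ x ∈ B, x ^ 2 = 1) → B = V₂ ∨ B = V₄)
    (hc : Nat.card V₂ = 4) (hexp : ∀ x ∈ V₂, x ^ 2 = 1)
    (h2 : Nat.card {m : M // ∀ b ∈ V₂.map ι, ρ b m = m} = 2)
    (h4 : Nat.card {m : M // ∀ b ∈ V₄.map ι, ρ b m = m} = 4) :
    ∃! B : Subgroup S, B ≤ X ∧ Nat.card ↥B = 4 ∧ (∀ b ∈ B, b ^ 2 = 1) ∧
      Nat.card {m : M // ∀ b ∈ B, ρ b m = m} = 2 := by
  refine ⟨V₂.map ι, ⟨?_, ?_, ?_, h2⟩, ?_⟩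
  · rw [← hιr]
    exact Subgroup.map_le_range ι V₂
  · rw [Subgroup.card_map_of_injective hιinj]
    exact hc
  · rintro _ ⟨x, hx, rfl⟩
    rw [← map_pow, hexp x hx, map_one]
  · rintro B ⟨hle, hcard, hexpB, hfix⟩
    have hB : (B.comap ι).map ι = B := Subgroup.map_comap_eq_self (hιr ▸ hle)
    have hcard' : Nat.card (B.comap ι) = 4 := by
      have h := Subgroup.card_map_of_injective (K := B.comap ι) hιinj
      rw [hB] at h
      omega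
    have hexp' : ∀ x ∈ B.comap ι, x ^ 2 = 1 := fun x hx =>
      hιinj (by rw [map_pow, map_one]; exact hexpB _ hx)
    rcases hcl _ hcard' hexp' with h | h
    · rw [← hB, h]
    · exfalso
      rw [← hB, h, h4] at hfix
      omega

end Final

theorem gen_D4 (H : Subgroup D4) (h1 : (r 1 : D4) ∈ H) (h2 : (sr 0 : D4) ∈ H) (y : D4) : y ∈ H := by
  have key : ∀ y : D4, y = 1 ∨ y = r 1 ∨ y = r 1 * r 1 ∨ y = r 1 * r 1 * r 1 ∨ y = sr 0 ∨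
      y = sr 0 * r 1 ∨ y = sr 0 * r 1 * r 1 ∨ y = sr 0 * r 1 * r 1 * r 1 := by decide
  rcases key y with rfl | rfl | rfl | rfl | rfl | rfl | rfl | rfl
  · exact one_mem _
  · exact h1
  · exact mul_mem h1 h1
  · exact mul_mem (mul_mem h1 h1) h1
  · exact h2
  · exact mul_mem h2 h1
  · exact mul_mem (mul_mem h2 h1) h1
  · exact mul_mem (mul_mem (mul_mem h2 h1) h1) h1

/-- Let S be a finite group with a normal elementary abelian subgroup A of order 9 that is self-centralizing (C_S(A) = A), and a dihedral subgroup X of order 8 with S = AX. Let M be a finite-dimensional module for S over the field with two elements that is faithful and irreducible. Then M has 16 elements, and X contains exactly one subgroup B of order 4 and exponent 2 whose fixed points on M form a subspace with exactly 2 elements (equivalently, M is free of rank one over the group algebra of B).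 -/
theorem result {S : Type*} [Group S] [Finite S]
    (A : Subgroup S) [A.Normal] (hA : Cfsg.IsElementaryAbelian 3 A) (hA9 : Nat.card ↥A = 9)
    (hAC : Subgroup.centralizer (A : Set S) = A) (X : Subgroup S) (hX : Nonempty (↥X ≃* DihedralGroup 4)) (hAX : A ⊔ X = ⊤)
    {M : Type*} [AddCommGroup M] [Module (ZMod 2) M] [Finite M] (ρ : Representation (ZMod 2) S M)
    (hfaith : Function.Injective ρ)
    (hirr : ∀ N : Submodule (ZMod 2) M, (∀ s : S, ∀ m ∈ N, ρ s m ∈ N) → N = ⊥ ∨ N = ⊤) (hM : Nontrivial M) :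
    Nat.card M = 16 ∧
      ∃! B : Subgroup S, B ≤ X ∧ Nat.card ↥B = 4 ∧ (∀ b ∈ B, b ^ 2 = 1) ∧
        Nat.card {m : M // ∀ b ∈ B, ρ b m = m} = 2 := by
  obtain ⟨φ⟩ := hX
  obtain ⟨ι, hιdef⟩ : ∃ ι : D4 →* S, ι = X.subtype.comp φ.symm.toMonoidHom := ⟨_, rfl⟩
  have hιinj : Function.Injective ι := by
    rw [hιdef]
    exact Subtype.val_injective.comp φ.symm.injective
  have hιr : ι.range = X := by
    ext x
    rw [MonoidHom.mem_range, hιdef]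
    constructor
    · rintro ⟨y, rfl⟩
      exact (φ.symm y).2
    · intro hx
      exact ⟨φ ⟨x, hx⟩, by simp⟩
  have hcomm : ∀ a ∈ A, ∀ b ∈ A, a * b = b * a := fun a ha b hb =>
    congrArg Subtype.val (hA.1.is_comm.comm ⟨a, ha⟩ ⟨b, hb⟩)
  have hcube : ∀ a ∈ A, a ^ 3 = 1 := hA.2
  have hne : ∀ x : D4, x ≠ 1 → ∃ a ∈ A, ι x * a ≠ a * ι x := by
    intro x hx
    by_contra hcon
    push Not at hcon
    have hmem : ι x ∈ A := by
      rw [← hAC, Subgroup.mem_centralizer_iff]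
      intro a ha
      exact (hcon a ha).symm
    have h3 := hcube _ hmem
    have h4 : (ι x) ^ 4 = 1 := by
      have h : ∀ y : D4, y ^ 4 = 1 := by decide
      rw [← map_pow, h, map_one]
    apply hx
    apply hιinj
    rw [map_one]
    calc ι x = (ι x) ^ 4 * ((ι x) ^ 3)⁻¹ := by group
      _ = 1 := by rw [h3, h4]; group
  obtain ⟨r₀, hr₀⟩ : ∃ r₀, r₀ = ι (r 1) := ⟨_, rfl⟩
  obtain ⟨f, hf⟩ : ∃ f, f = ι (sr 0) := ⟨_, rfl⟩
  obtain ⟨t, ht⟩ : ∃ t, t = ι (sr 3) := ⟨_, rfl⟩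
  have ez : r₀ * r₀ = ι (r 2) := by rw [hr₀, ← map_mul]; rfl
  have et : t = r₀ * f := by rw [ht, hr₀, hf, ← map_mul]; rfl
  have hr4 : r₀ * r₀ * (r₀ * r₀) = 1 := by
    rw [ez, ← map_mul, show (r 2 * r 2 : D4) = 1 from by decide, map_one]
  have hf2 : f * f = 1 := by
    rw [hf, ← map_mul, show (sr 0 * sr 0 : D4) = 1 from by decide, map_one]
  have ht2 : t * t = 1 := by
    rw [ht, ← map_mul, show (sr 3 * sr 3 : D4) = 1 from by decide, map_one]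
  have hfr : f * r₀ * f⁻¹ = r₀⁻¹ := by
    rw [hf, hr₀, ← map_inv, ← map_inv, ← map_mul, ← map_mul]
    congr 1
  have htr : t * r₀ * t⁻¹ = r₀⁻¹ := by
    rw [ht, hr₀, ← map_inv, ← map_inv, ← map_mul, ← map_mul]
    congr 1
  have hzi := zinv A hcomm hcube hA9 hr4 (by
    obtain ⟨a, ha, hane⟩ := hne (r 2) (by decide)
    refine ⟨a, ha, ?_⟩
    rw [ez]
    intro h
    exact hane (mul_inv_eq_iff_eq_mul.mp h))
  obtain ⟨a₁, ha₁, ha₁ne, hfa₁⟩ := gens A hcomm hf2 hzi (by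
    obtain ⟨a, ha, hane⟩ := hne (sr 2) (by decide)
    refine ⟨a, ha, ?_⟩
    rw [hf, ez, ← map_mul]
    exact hane)
  obtain ⟨a₂, ha₂⟩ : ∃ a₂, a₂ = r₀ * a₁ * r₀⁻¹ := ⟨_, rfl⟩
  have hT₁ : Rel r₀ f a₁ a₂ := by
    rw [ha₂]
    exact mk_rel A hcomm hcube hr4 hf2 hfr ha₁ ha₁ne hfa₁ hzi
  have ha₂A : a₂ ∈ A := ha₂ ▸ ‹A.Normal›.conj_mem a₁ ha₁ r₀
  have hfinv : f⁻¹ = f := inv_eq_iff_mul_eq_one.mpr hf2
  have hnot : a₂ ∉ Subgroup.zpowers a₁ := by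
    intro h
    obtain ⟨n, hn⟩ := Subgroup.mem_zpowers_iff.mp h
    have h1 : f * a₂ * f⁻¹ = a₂ := by
      rw [← hn, ← conj_zpow, hfa₁]
    have h3 : f * a₂ * f⁻¹ = a₂ * a₂ := mul_inv_eq_iff_eq_mul.mpr hT₁.h4
    have h4 : a₂ * a₂ = a₂ := by rw [← h3]; exact h1
    have h5 : a₂ = 1 := by simpa using h4
    rw [ha₂] at h5
    apply ha₁ne
    have h6 : a₁ = r₀⁻¹ * (r₀ * a₁ * r₀⁻¹) * r₀ := by group
    rw [h6, h5]
    group
  have hinv_all : ∀ N : Submodule (ZMod 2) M, A ≤ invSub ρ N → r₀ ∈ invSub ρ N → f ∈ invSub ρ N →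
      N = ⊥ ∨ N = ⊤ := by
    intro N hA' hr hf'
    apply hirr
    intro s m hm
    have hX' : X ≤ invSub ρ N := by
      rw [← hιr]
      rintro _ ⟨y, rfl⟩
      exact gen_D4 ((invSub ρ N).comap ι) (by rw [Subgroup.mem_comap, ← hr₀]; exact hr)
        (by rw [Subgroup.mem_comap, ← hf]; exact hf') y
    have hsup : A ⊔ X ≤ invSub ρ N := sup_le hA' hX'
    rw [hAX] at hsup
    exact hsup (Subgroup.mem_top s) m hm
  have hirr₁ : ∀ N : Submodule (ZMod 2) M, (∀ m ∈ N, ρ a₁ m ∈ N) → (∀ m ∈ N, ρ a₂ m ∈ N) →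
      (∀ m ∈ N, ρ r₀ m ∈ N) → (∀ m ∈ N, ρ f m ∈ N) → N = ⊥ ∨ N = ⊤ := by
    intro N h1 h2 h3 h4
    exact hinv_all N (genA A (invSub ρ N) hA9 hcube ha₁ ha₂A ha₁ne hnot h1 h2) h3 h4
  have hfr' : f * r₀ = r₀⁻¹ * f := mul_inv_eq_iff_eq_mul.mp hfr
  have e1 : t * a₁ * t⁻¹ = a₂ := by
    rw [et, ha₂]
    calc r₀ * f * a₁ * (r₀ * f)⁻¹ = r₀ * (f * a₁ * f⁻¹) * r₀⁻¹ := by group
      _ = r₀ * a₁ * r₀⁻¹ := by rw [hfa₁]
  have e2 : t * a₂ * t⁻¹ = a₁ := by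
    rw [et, ha₂]
    calc r₀ * f * (r₀ * a₁ * r₀⁻¹) * (r₀ * f)⁻¹ = r₀ * (f * r₀) * a₁ * (r₀ * (f * r₀))⁻¹ := by group
      _ = f * a₁ * f⁻¹ := by rw [hfr']; group
      _ = a₁ := hfa₁
  have htb₁ : t * (a₁ * a₂) * t⁻¹ = a₁ * a₂ := by
    calc t * (a₁ * a₂) * t⁻¹ = (t * a₁ * t⁻¹) * (t * a₂ * t⁻¹) := by group
      _ = a₂ * a₁ := by rw [e1, e2]
      _ = a₁ * a₂ := hcomm _ ha₂A _ ha₁
  have hb₁ne : a₁ * a₂ ≠ 1 := by
    intro h
    apply hnot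
    rw [eq_inv_of_mul_eq_one_right h]
    exact inv_mem (Subgroup.mem_zpowers a₁)
  have hne' : a₁ ≠ a₂ := by
    intro h
    apply hnot
    rw [← h]
    exact Subgroup.mem_zpowers a₁
  have hT₂ : Rel r₀ t (a₁ * a₂) (r₀ * (a₁ * a₂) * r₀⁻¹) :=
    mk_rel A hcomm hcube hr4 ht2 htr (mul_mem ha₁ ha₂A) hb₁ne htb₁ hzi
  have hb₂ : r₀ * (a₁ * a₂) * r₀⁻¹ = a₂ * a₁⁻¹ := by
    have h3 : r₀ * a₂ * r₀⁻¹ = a₁⁻¹ := by
      rw [← hzi a₁ ha₁, ha₂]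
      group
    calc r₀ * (a₁ * a₂) * r₀⁻¹ = (r₀ * a₁ * r₀⁻¹) * (r₀ * a₂ * r₀⁻¹) := by group
      _ = a₂ * a₁⁻¹ := by rw [h3, ha₂]
  have hirr₂ : ∀ N : Submodule (ZMod 2) M, (∀ m ∈ N, ρ (a₁ * a₂) m ∈ N) →
      (∀ m ∈ N, ρ (r₀ * (a₁ * a₂) * r₀⁻¹) m ∈ N) →
      (∀ m ∈ N, ρ r₀ m ∈ N) → (∀ m ∈ N, ρ t m ∈ N) → N = ⊥ ∨ N = ⊤ := by
    intro N h1 h2 h3 h4
    have h1' : a₁ * a₂ ∈ invSub ρ N := h1
    have h2' : a₂ * a₁⁻¹ ∈ invSub ρ N := by rw [← hb₂]; exact h2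
    have h3' : r₀ ∈ invSub ρ N := h3
    have h4' : t ∈ invSub ρ N := h4
    have h5 : f ∈ invSub ρ N := by
      have e : f = r₀⁻¹ * t := by rw [et]; group
      rw [e]
      exact mul_mem (inv_mem h3') h4'
    have h6 : a₂ ∈ invSub ρ N := by
      have e1 : a₂ * a₂ * a₂ = 1 := hT₁.a23
      have e2 : a₂ = (a₂ * a₂)⁻¹ := eq_inv_of_mul_eq_one_right e1
      have e3 : a₂ * a₂ = (a₁ * a₂) * (a₂ * a₁⁻¹) := by
        have e4 : a₁ * a₂ = a₂ * a₁ := hcomm _ ha₁ _ ha₂A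
        calc a₂ * a₂ = a₂ * (a₂ * a₁) * a₁⁻¹ := by group
          _ = a₂ * (a₁ * a₂) * a₁⁻¹ := by rw [e4]
          _ = (a₂ * a₁) * a₂ * a₁⁻¹ := by group
          _ = (a₁ * a₂) * a₂ * a₁⁻¹ := by rw [e4]
          _ = (a₁ * a₂) * (a₂ * a₁⁻¹) := by group
      rw [e2, e3]
      exact inv_mem (mul_mem h1' h2')
    have h7 : a₁ ∈ invSub ρ N := by
      have e : a₁ = (a₁ * a₂) * a₂⁻¹ := by group
      rw [e]
      exact mul_mem h1' (inv_mem h6)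
    exact hinv_all N (genA A (invSub ρ N) hA9 hcube ha₁ ha₂A ha₁ne hnot h7 h6) h3' h5
  have hfixVe0 := fix_two ι ρ (M := M) Ve (u := r 2) (v := sr 0) (mem_Ve.mpr (by decide))
    (mem_Ve.mpr (by decide)) (fun x hx =>
      (by decide : ∀ x ∈ Fe, x = 1 ∨ x = r 2 ∨ x = sr 0 ∨ x = r 2 * sr 0) x (mem_Ve.mp hx))
  have hfixVe2 := fix_two ι ρ (M := M) Ve (u := r 2) (v := sr 2) (mem_Ve.mpr (by decide))
    (mem_Ve.mpr (by decide)) (fun x hx =>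
      (by decide : ∀ x ∈ Fe, x = 1 ∨ x = r 2 ∨ x = sr 2 ∨ x = r 2 * sr 2) x (mem_Ve.mp hx))
  have hfixVo1 := fix_two ι ρ (M := M) Vo (u := r 2) (v := sr 3) (mem_Vo.mpr (by decide))
    (mem_Vo.mpr (by decide)) (fun x hx =>
      (by decide : ∀ x ∈ Fo, x = 1 ∨ x = r 2 ∨ x = sr 3 ∨ x = r 2 * sr 3) x (mem_Vo.mp hx))
  have hexpVe : ∀ x ∈ Ve, x ^ 2 = 1 := fun x hx =>
    (by decide : ∀ x ∈ Fe, x ^ 2 = 1) x (mem_Ve.mp hx)
  have hexpVo : ∀ x ∈ Vo, x ^ 2 = 1 := fun x hx =>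
    (by decide : ∀ x ∈ Fo, x ^ 2 = 1) x (mem_Vo.mp hx)
  have et2 : r₀ * t = ι (sr 2) := by rw [ht, hr₀, ← map_mul]; rfl
  rcases dichotomy ρ hfaith hT₁ hT₂ hirr₁ hirr₂ hT₁.h1 hne' with ⟨h16, h4, h2⟩ | ⟨h16, h4, h2⟩
  · rw [ez, hf] at h4
    rw [← et, ez, ht] at h2
    exact ⟨h16, finish ι hιinj X hιr ρ (V₂ := Vo) (V₄ := Ve)
      (fun B h1 h2 => (classify B h1 h2).symm) card_Vo hexpVo (by rw [hfixVo1]; exact h2)
      (by rw [hfixVe0]; exact h4)⟩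
  · rw [ez, ht] at h4
    rw [et2, ez] at h2
    exact ⟨h16, finish ι hιinj X hιr ρ (V₂ := Ve) (V₄ := Vo)
      (fun B h1 h2 => classify B h1 h2) card_Ve hexpVe (by rw [hfixVe2]; exact h2)
      (by rw [hfixVo1]; exact h4)⟩

end Cfsg.Agent.S4407
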