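import Cfsg.Statements.S4408
import Mathlib
import Cfsg.Agent.Lib.Solvable.AxB
import Cfsg.Agent.Lib.Coprime.Generation
import Cfsg.Agent.Lib.Nilpotent.Fitting
import Cfsg.Agent.Lib.Nilpotent.Elements
import Cfsg.Agent.Lib.Components.Fitting
import Cfsg.Agent.Lib.PGroup.Timmesfeld
import Cfsg.Agent.Lib.Transfer.Basic

set_option autoImplicit false
open Cfsg

namespace Cfsg.Agent.S4408

set_option linter.style.haveILetI false
set_option linter.unusedVariables false

open Subgroup

section aux

variable {S : Type*} [Group S]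

private theorem cocyc_case {I B : Subgroup S} (hI : Cfsg.IsElementaryAbelian 2 I) (hBI : B ≤ I)
    {a : S} (haI : a ∈ I) (hBa : B ⊔ zpowers a = I) {c : S} (hc : c ∈ I) : c ∈ B ∨ c * a ∈ B := by
  have hcomm : ∀ u ∈ I, ∀ v ∈ I, u * v = v * u := fun u hu v hv => by
    have := hI.1.is_comm.comm (⟨u, hu⟩ : I) ⟨v, hv⟩
    simpa using congrArg Subtype.val this
  have ha2 : a * a = 1 := by have := hI.2 a haI; rwa [pow_two] at this
  have hsq : ∀ u ∈ I, u * u = 1 := fun u hu => by
    have := hI.2 u hu; rwa [pow_two] at this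
  rw [← hBa, sup_eq_closure] at hc
  have hP : c ∈ I ∧ (c ∈ B ∨ c * a ∈ B) := by
    induction hc using Subgroup.closure_induction with
    | mem x hx =>
      rcases hx with hx | hx
      · exact ⟨hBI hx, Or.inl hx⟩
      · have hxI : x ∈ I := by rw [← hBa]; exact (le_sup_right : zpowers a ≤ _) hx
        refine ⟨hxI, ?_⟩
        obtain ⟨m, rfl⟩ := hx
        rcases Int.even_or_odd' m with ⟨t, rfl | rfl⟩
        · left
          have : a ^ (2 * t) = 1 := by
            rw [zpow_mul]
            have : a ^ (2 : ℤ) = 1 := by rw [zpow_ofNat, pow_two, ha2]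
            rw [this, one_zpow]
          change a ^ (2 * t) ∈ B
          rw [this]; exact B.one_mem
        · right
          have h2 : a ^ (2 * t + 1) * a = 1 := by
            rw [zpow_add, zpow_mul, zpow_one, mul_assoc, ha2, mul_one]
            have : a ^ (2 : ℤ) = 1 := by rw [zpow_ofNat, pow_two, ha2]
            rw [this, one_zpow]
          change a ^ (2 * t + 1) * a ∈ B
          rw [h2]; exact B.one_mem
    | one => exact ⟨I.one_mem, Or.inl B.one_mem⟩
    | mul x y hx' hy' hx hy =>
      obtain ⟨hxI, hx⟩ := hx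
      obtain ⟨hyI, hy⟩ := hy
      refine ⟨I.mul_mem hxI hyI, ?_⟩
      rcases hx with hx | hx <;> rcases hy with hy | hy
      · exact Or.inl (B.mul_mem hx hy)
      · right; rw [mul_assoc]; exact B.mul_mem hx hy
      · right
        have : x * y * a = x * a * y := by rw [mul_assoc, hcomm y hyI a haI, mul_assoc]
        rw [this]; exact B.mul_mem hx hy
      · left
        have : x * y = x * a * (y * a) := by
          calc x * y = x * (a * a) * y := by rw [ha2, mul_one]
            _ = x * a * (a * y) := by group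
            _ = x * a * (y * a) := by rw [hcomm a haI y hyI]
        rw [this]; exact B.mul_mem hx hy
    | inv x hx' hx =>
      obtain ⟨hxI, hx⟩ := hx
      have : x⁻¹ = x := by
        rw [inv_eq_iff_mul_eq_one]; exact hsq x hxI
      rw [this]; exact ⟨hxI, hx⟩
  exact hP.2

variable [Finite S]

/-- An elementary abelian `2`-group acting on an odd `p`-group: every non-centralizing element
has an eigenvector of order `p` on which it acts by inversion. -/
theorem eigen_element {p : ℕ} [hp : Fact p.Prime] (hp2 : p ≠ 2) {I : Subgroup S}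
    (hI : Cfsg.IsElementaryAbelian 2 I) (Y : Subgroup S) (hY : IsPGroup p Y)
    (hIY : I ≤ normalizer (Y : Set S)) {i : S} (hi : i ∈ I) (hiY : ¬ Y ≤ centralizer ({i} : Set S)) :
    ∃ x ∈ Y, orderOf x = p ∧ i * x * i⁻¹ = x⁻¹ ∧ ∀ h ∈ I, h * x * h⁻¹ = x ∨ h * x * h⁻¹ = x⁻¹ := by
  induction Y using WellFoundedLT.induction with
  | _ Y ih =>
  have hi2 : i * i = 1 := by have := hI.2 i hi; rwa [pow_two] at this
  have hiinv : i⁻¹ = i := by rw [inv_eq_iff_mul_eq_one]; exact hi2
  have hcomm : ∀ u ∈ I, ∀ v ∈ I, u * v = v * u := fun u hu v hv => by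
    have := hI.1.is_comm.comm (⟨u, hu⟩ : I) ⟨v, hv⟩
    simpa using congrArg Subtype.val this
  have hcardI : ∃ m, Nat.card I = 2 ^ m := by
    have h2I : IsPGroup 2 I := by
      intro x
      exact ⟨1, by ext; simpa using hI.2 x x.2⟩
    haveI : Fact (Nat.Prime 2) := ⟨Nat.prime_two⟩
    obtain ⟨m, hm⟩ := IsPGroup.iff_card.mp h2I
    exact ⟨m, hm⟩
  have hcop : (Nat.card I).Coprime (Nat.card Y) := by
    obtain ⟨m, hm⟩ := hcardI
    obtain ⟨k, hk⟩ := IsPGroup.iff_card.mp hY
    rw [hm, hk]
    apply Nat.Coprime.pow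
    exact (Nat.coprime_primes Nat.prime_two hp.out).mpr (Ne.symm hp2)
  have hgen := Cfsg.Agent.Lib.Coprime.Generation.le_iSup_cocyclic_of_pgroup I Y hI.1 hIY hcop hY
  -- some cocyclic subgroup's fixed points are moved by `i`
  have hex : ∃ B ∈ Cfsg.Agent.Lib.Coprime.Generation.cocyclicSubgroups I,
      ¬ (Y ⊓ centralizer (B : Set S)) ≤ centralizer ({i} : Set S) := by
    by_contra hcon
    push Not at hcon
    apply hiY
    refine hgen.trans ?_
    refine iSup_le fun B => iSup_le fun hB => hcon B hB
  obtain ⟨B, ⟨hBI, a, haI, hBa⟩, hYB⟩ := hex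
  set Y' : Subgroup S := Y ⊓ centralizer (B : Set S) with hY'
  have hIY' : I ≤ normalizer (Y' : Set S) := by
    intro h hh
    rw [mem_normalizer_iff]
    intro y
    have hcent : ∀ y : S, y ∈ centralizer (B : Set S) ↔ h * y * h⁻¹ ∈ centralizer (B : Set S) := by
      intro y
      rw [mem_centralizer_iff, mem_centralizer_iff]
      constructor
      · intro hy b hb
        have e := hy b hb
        have hbh := hcomm b (hBI hb) h hh
        calc b * (h * y * h⁻¹) = (b * h) * y * h⁻¹ := by group
          _ = h * (b * y) * h⁻¹ := by rw [hbh]; group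
          _ = h * (y * b) * h⁻¹ := by rw [e]
          _ = h * y * h⁻¹ * (h * b * h⁻¹) := by group
          _ = h * y * h⁻¹ * b := by rw [← hbh]; group
      · intro hy b hb
        have e := hy b hb
        have hbh := hcomm b (hBI hb) h hh
        have e2 : h * (b * y) * h⁻¹ = h * (y * b) * h⁻¹ := by
          calc h * (b * y) * h⁻¹ = (h * b) * y * h⁻¹ := by group
            _ = (b * h) * y * h⁻¹ := by rw [hbh]
            _ = b * (h * y * h⁻¹) := by group
            _ = (h * y * h⁻¹) * b := e
            _ = h * y * (h⁻¹ * b) := by group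
            _ = h * y * (b * h⁻¹) := by
              congr 1
              have : b * h = h * b := hbh
              calc h⁻¹ * b = h⁻¹ * (b * h) * h⁻¹ := by group
                _ = h⁻¹ * (h * b) * h⁻¹ := by rw [this]
                _ = b * h⁻¹ := by group
            _ = h * (y * b) * h⁻¹ := by group
        have := mul_left_cancel (mul_right_cancel e2)
        exact this
    have hY := mem_normalizer_iff.mp (hIY hh) y
    constructor
    · intro hy
      exact ⟨(hY).mp hy.1, (hcent y).mp hy.2⟩
    · intro hy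
      exact ⟨(hY).mpr hy.1, (hcent y).mpr hy.2⟩
  by_cases hlt : Y' < Y
  · obtain ⟨x, hx, h1, h2, h3⟩ := ih Y' hlt (hY.to_le inf_le_left) hIY' hYB
    exact ⟨x, hx.1, h1, h2, h3⟩
  have hYeq : Y ≤ centralizer (B : Set S) := by
    have : Y' = Y := by
      by_contra hne
      exact hlt (lt_of_le_of_ne inf_le_left hne)
    rw [← this]; exact inf_le_right
  -- `i ∉ B`
  have hiB : i ∉ B := by
    intro hiB
    apply hYB
    intro y hy
    rw [mem_centralizer_iff]
    intro g hg
    rw [Set.mem_singleton_iff.mp hg]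
    exact (mem_centralizer_iff.mp hy.2 i hiB)
  -- a moved element
  obtain ⟨y, hyY, hyi⟩ : ∃ y ∈ Y, y ∉ centralizer ({i} : Set S) := by
    by_contra hcon
    push Not at hcon
    exact hiY hcon
  have hyi' : i * y ≠ y * i := by
    intro h
    apply hyi
    rw [mem_centralizer_iff]
    intro g hg
    rw [Set.mem_singleton_iff.mp hg]
    exact h
  set x₀ : S := y⁻¹ * (i * y * i⁻¹) with hx₀
  have hiY' : i * y * i⁻¹ ∈ Y := (mem_normalizer_iff.mp (hIY hi) y).mp hyY
  have hx₀Y : x₀ ∈ Y := Y.mul_mem (Y.inv_mem hyY) hiY'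
  have hx₀1 : x₀ ≠ 1 := by
    intro h
    apply hyi'
    have : i * y * i⁻¹ = y := by
      have h' := h
      rw [hx₀, inv_mul_eq_one] at h'
      exact h'.symm
    calc i * y = i * y * i⁻¹ * i := by group
      _ = y * i := by rw [this]
  have hx₀i : i * x₀ * i⁻¹ = x₀⁻¹ := by
    rw [hx₀, hiinv]
    calc i * (y⁻¹ * (i * y * i)) * i = i * y⁻¹ * (i * y) * (i * i) := by group
      _ = i * y⁻¹ * (i * y) := by rw [hi2, mul_one]
      _ = (y⁻¹ * (i * y * i))⁻¹ := by
        have : i⁻¹ = i := hiinv
        calc i * y⁻¹ * (i * y) = i⁻¹ * y⁻¹ * (i⁻¹⁻¹ * y) := by rw [inv_inv, this]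
          _ = (y⁻¹ * (i * y * i))⁻¹ := by
            simp only [mul_inv_rev, inv_inv, this]
            group
  -- prime order power
  obtain ⟨k, hk⟩ : ∃ k, orderOf x₀ = p ^ k := by
    have h := (IsPGroup.iff_orderOf.mp hY) ⟨x₀, hx₀Y⟩
    obtain ⟨k, hk⟩ := h
    exact ⟨k, by rw [← hk]; exact (Subgroup.orderOf_mk x₀ hx₀Y).symm⟩
  have hk0 : k ≠ 0 := by
    rintro rfl
    rw [pow_zero, orderOf_eq_one_iff] at hk
    exact hx₀1 hk
  obtain ⟨k', rfl⟩ := Nat.exists_eq_succ_of_ne_zero hk0
  set x : S := x₀ ^ (p ^ k') with hx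
  have hxord : orderOf x = p := by
    have h1 : orderOf x = orderOf x₀ / p ^ k' := by
      rw [hx, orderOf_pow_of_dvd (pow_ne_zero _ hp.out.ne_zero)]
      rw [hk]; exact pow_dvd_pow _ (Nat.le_succ _)
    rw [h1, hk, Nat.succ_eq_add_one, pow_succ]
    exact Nat.mul_div_cancel_left _ (pow_pos hp.out.pos _)
  have hxY : x ∈ Y := Y.pow_mem hx₀Y _
  have hxi : i * x * i⁻¹ = x⁻¹ := by
    rw [hx, ← conj_pow, hx₀i, inv_pow]
  refine ⟨x, hxY, hxord, hxi, ?_⟩
  intro h hh
  have hxB : x ∈ centralizer (B : Set S) := hYeq hxY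
  have hcB : ∀ b ∈ B, b * x * b⁻¹ = x := fun b hb => by
    rw [mem_centralizer_iff.mp hxB b hb]; group
  rcases cocyc_case hI hBI haI hBa hh with hhB | hha
  · exact Or.inl (hcB h hhB)
  · right
    have hia : i * a ∈ B := (cocyc_case hI hBI haI hBa hi).resolve_left hiB
    have ha2 : a * a = 1 := by have := hI.2 a haI; rwa [pow_two] at this
    have hhi : h * i ∈ B := by
      have : h * i = h * a * (i * a) := by
        calc h * i = h * (a * a) * i := by rw [ha2, mul_one]
          _ = h * a * (a * i) := by group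
          _ = h * a * (i * a) := by rw [hcomm a haI i hi]
      rw [this]; exact B.mul_mem hha hia
    have e := hcB _ hhi
    calc h * x * h⁻¹ = (h * i) * (i⁻¹ * x * i) * (h * i)⁻¹ := by group
      _ = (h * i) * (i * x * i⁻¹) * (h * i)⁻¹ := by rw [hiinv]
      _ = (h * i) * x⁻¹ * (h * i)⁻¹ := by rw [hxi]
      _ = ((h * i) * x * (h * i)⁻¹)⁻¹ := by group
      _ = x⁻¹ := by rw [e]


theorem fit_step [Group.IsSolvable S] (hF : Odd (Nat.card ↥(Cfsg.fittingSubgroup S)))
    {I : Subgroup S} (hI : Cfsg.IsElementaryAbelian 2 I) (B : Subgroup S)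
    (hBF : B ≤ Cfsg.fittingSubgroup S) (hIB : I ≤ normalizer (B : Set S))
    {i : S} (hiI : i ∈ I) (hiB : i ∈ centralizer (B : Set S)) (hi1 : i ≠ 1) :
    ∃ x ∈ Cfsg.fittingSubgroup S, (orderOf x).Prime ∧ i * x * i⁻¹ = x⁻¹ ∧
      (∀ h ∈ I, h * x * h⁻¹ = x ∨ h * x * h⁻¹ = x⁻¹) ∧ x ∈ centralizer (B : Set S) ∧ x ≠ 1 := by
  have hFn : (Cfsg.fittingSubgroup S).Normal := Cfsg.Agent.Lib.Nilpotent.Fitting.fittingSubgroup_normal
  have hFnil : Group.IsNilpotent (Cfsg.fittingSubgroup S) :=
    Cfsg.Agent.Lib.Nilpotent.Fitting.isNilpotent_fittingSubgroup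
  have hi2 : i * i = 1 := by have := hI.2 i hiI; rwa [pow_two] at this
  -- `C(F) ≤ F`
  have hCF : centralizer (Cfsg.fittingSubgroup S : Set S) ≤ Cfsg.fittingSubgroup S := by
    apply Cfsg.Agent.Lib.Components.Fitting.le_fitting_of_solvable_of_le_centralizer _ le_rfl
    · exact le_normalizer
    · exact inferInstance
  -- `i` does not centralize `F`
  have hiF : ¬ Cfsg.fittingSubgroup S ≤ centralizer ({i} : Set S) := by
    intro hle
    have hmem : i ∈ Cfsg.fittingSubgroup S := by
      apply hCF
      rw [mem_centralizer_iff]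
      intro g hg
      exact (mem_centralizer_iff.mp (hle hg) i rfl).symm
    have hdvd : orderOf i ∣ Nat.card ↥(Cfsg.fittingSubgroup S) := by
      have := orderOf_dvd_natCard (⟨i, hmem⟩ : ↥(Cfsg.fittingSubgroup S))
      rwa [Subgroup.orderOf_mk] at this
    have h2 : orderOf i ∣ 2 := orderOf_dvd_of_pow_eq_one (by rw [pow_two]; exact hi2)
    have hone : orderOf i = 1 := by
      rcases (Nat.dvd_prime Nat.prime_two).mp h2 with h | h
      · exact h
      · exfalso
        rw [h] at hdvd
        exact (Nat.not_even_iff_odd.mpr hF) (even_iff_two_dvd.mpr hdvd)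
    exact hi1 (orderOf_eq_one_iff.mp hone)
  -- a prime `p`
  obtain ⟨⟨p, hp⟩, hpF⟩ : ∃ p : Nat.Primes, ¬ Cfsg.pCore (p : ℕ) S ≤ centralizer ({i} : Set S) := by
    by_contra hcon
    push Not at hcon
    apply hiF
    rw [Cfsg.Agent.Lib.Nilpotent.Fitting.fittingSubgroup_eq_iSup_primes]
    exact iSup_le hcon
  haveI : Fact p.Prime := ⟨hp⟩
  change ¬ Cfsg.pCore p S ≤ centralizer ({i} : Set S) at hpF
  set P : Subgroup S := Cfsg.pCore p S with hP
  have hPn : P.Normal := Cfsg.Agent.Lib.Nilpotent.Fitting.pCore_normal p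
  have hPp : IsPGroup p P := Cfsg.Agent.Lib.Nilpotent.Fitting.isPGroup_pCore p
  have hPF : P ≤ Cfsg.fittingSubgroup S := Cfsg.Agent.Lib.Nilpotent.Fitting.pCore_le_fittingSubgroup p
  have hp2 : p ≠ 2 := by
    rintro rfl
    apply hpF
    have hc : Nat.card P ∣ Nat.card ↥(Cfsg.fittingSubgroup S) := Subgroup.card_dvd_of_le hPF
    obtain ⟨k, hk⟩ := IsPGroup.iff_card.mp hPp
    have hk0 : k = 0 := by
      by_contra hk0
      rw [hk] at hc
      have : 2 ∣ Nat.card ↥(Cfsg.fittingSubgroup S) := (dvd_pow_self 2 hk0).trans hc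
      exact (Nat.not_even_iff_odd.mpr hF) (even_iff_two_dvd.mpr this)
    rw [hk0, pow_zero] at hk
    have hbot : P = ⊥ := Subgroup.card_eq_one.mp hk
    rw [hbot]; exact bot_le
  -- the group `D = P ⊓ B`
  set D : Subgroup S := P ⊓ B with hD
  have hDp : IsPGroup p D := hPp.to_le inf_le_left
  have hCi : ∀ W : Subgroup S, W ≤ centralizer (zpowers i : Set S) ↔ W ≤ centralizer ({i} : Set S) := by
    intro W
    constructor
    · intro h g hg
      exact centralizer_le (by
        intro z hz
        rw [Set.mem_singleton_iff.mp hz]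
        exact mem_zpowers i) (h hg)
    · intro h g hg
      rw [mem_centralizer_iff]
      rintro _ ⟨m, rfl⟩
      have e : i * g = g * i := (mem_centralizer_iff.mp (h hg) i rfl)
      exact ((show Commute i g from e).zpow_left m)
  have hordi : orderOf i = 2 := orderOf_eq_prime (by rw [pow_two]; exact hi2) hi1
  have hab := fun h => Cfsg.Agent.Lib.Solvable.AxB.ab_lemma (p := p) (A := zpowers i) (B := D) (P := P)
      hPp hDp
      (by
        rw [Nat.card_zpowers, hordi]
        exact (Nat.coprime_primes Nat.prime_two hp).mpr (Ne.symm hp2))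
      (by
        intro z hz
        obtain ⟨m, rfl⟩ := hz
        rw [mem_centralizer_iff]
        intro g hg
        have e : g * i = i * g := mem_centralizer_iff.mp hiB g hg.2
        exact ((show Commute g i from e).zpow_right m).eq)
      (by
        intro z hz
        rw [show normalizer (P : Set S) = ⊤ from normalizer_eq_top_iff.mpr hPn]; trivial)
      (by
        intro z hz
        rw [show normalizer (P : Set S) = ⊤ from normalizer_eq_top_iff.mpr hPn]; trivial)
      h
  have hY : ¬ (P ⊓ centralizer (D : Set S)) ≤ centralizer ({i} : Set S) := by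
    intro h
    apply hpF
    exact (hCi P).mp (hab ((hCi _).mpr h))
  have hIN : I ≤ normalizer ((P ⊓ centralizer (D : Set S) : Subgroup S) : Set S) := by
    intro h hh
    rw [mem_normalizer_iff]
    intro y
    have hP' : y ∈ P ↔ h * y * h⁻¹ ∈ P := by
      constructor
      · intro hy; exact hPn.conj_mem y hy h
      · intro hy
        have := hPn.conj_mem _ hy h⁻¹
        simpa [mul_assoc] using this
    have hB' := mem_normalizer_iff.mp (hIB hh)
    have hDD : ∀ z, z ∈ D ↔ h * z * h⁻¹ ∈ D := fun z => by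
      constructor
      · intro hz; exact ⟨hPn.conj_mem z hz.1 h, (hB' z).mp hz.2⟩
      · intro hz
        refine ⟨?_, (hB' z).mpr hz.2⟩
        have := hPn.conj_mem _ hz.1 h⁻¹
        simpa [mul_assoc] using this
    constructor
    · intro hy
      refine Subgroup.mem_inf.mpr ⟨hP'.mp hy.1, mem_centralizer_iff.mpr ?_⟩
      intro d hd
      have hd' : h⁻¹ * d * h ∈ D := by
        rw [hDD]
        have e : h * (h⁻¹ * d * h) * h⁻¹ = d := by group
        rw [e]; exact hd
      have e := mem_centralizer_iff.mp hy.2 _ hd'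
      calc d * (h * y * h⁻¹) = h * ((h⁻¹ * d * h) * y) * h⁻¹ := by group
        _ = h * (y * (h⁻¹ * d * h)) * h⁻¹ := by rw [e]
        _ = h * y * h⁻¹ * d := by group
    · intro hy
      refine Subgroup.mem_inf.mpr ⟨hP'.mpr hy.1, mem_centralizer_iff.mpr ?_⟩
      intro d hd
      have e := mem_centralizer_iff.mp hy.2 _ ((hDD d).mp hd)
      have e2 : h * (d * y) * h⁻¹ = h * (y * d) * h⁻¹ := by
        calc h * (d * y) * h⁻¹ = (h * d * h⁻¹) * (h * y * h⁻¹) := by group
          _ = (h * y * h⁻¹) * (h * d * h⁻¹) := e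
          _ = h * (y * d) * h⁻¹ := by group
      exact mul_left_cancel (mul_right_cancel e2)
  obtain ⟨x, hxY, hxord, hxi, hxI⟩ := eigen_element hp2 hI (P ⊓ centralizer (D : Set S))
    (hPp.to_le inf_le_left) hIN hiI hY
  have hxF : x ∈ Cfsg.fittingSubgroup S := hPF hxY.1
  refine ⟨x, hxF, by rw [hxord]; exact hp, hxi, hxI, ?_, ?_⟩
  · rw [mem_centralizer_iff]
    intro b hb
    obtain ⟨u, v, rfl, huv, huz, hvz, ⟨k, hk⟩, hvc⟩ :=
      Cfsg.Agent.Lib.Transfer.Basic.exists_pPart_decomp (p := p) b
    have hu : u ∈ B := (zpowers_le.mpr hb) huz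
    have hv : v ∈ B := (zpowers_le.mpr hb) hvz
    have huP : u ∈ P := Cfsg.Agent.Lib.Nilpotent.Fitting.mem_pCore_of_mem_nilpotent_normal
      hFnil (hBF hu) hk
    have e1 : u * x = x * u := mem_centralizer_iff.mp hxY.2 u ⟨huP, hu⟩
    have e2 : v * x = x * v := by
      have hc : Commute (⟨v, hBF hv⟩ : ↥(Cfsg.fittingSubgroup S)) ⟨x, hxF⟩ := by
        apply Cfsg.Agent.Lib.Nilpotent.Elements.commute_of_coprime_orderOf
        rw [Subgroup.orderOf_mk, Subgroup.orderOf_mk, hxord]
        exact hvc
      simpa using congrArg Subtype.val hc.eq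
    calc u * v * x = u * (v * x) := by group
      _ = u * (x * v) := by rw [e2]
      _ = (u * x) * v := by group
      _ = (x * u) * v := by rw [e1]
      _ = x * (u * v) := by group
  · intro h1
    rw [h1, orderOf_one] at hxord
    exact hp.one_lt.ne hxord

theorem card_eq_two_mul {L T : Subgroup S} {i : S} (hi : i ∈ L) (hiT : i ∉ T)
    (h : ∀ g ∈ L, g ∈ T ∨ g * i ∈ T) : Nat.card L = 2 * Nat.card ↥(L ⊓ T) := by
  have hidx : (T.subgroupOf L).index = 2 := by
    rw [Subgroup.index_eq_two_iff]
    refine ⟨⟨i, hi⟩, ?_⟩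
    rintro ⟨g, hg⟩
    simp only [Subgroup.mem_subgroupOf]
    rw [xor_iff_iff_not]
    constructor
    · intro h1 h2
      apply hiT
      have : i = g⁻¹ * (g * i) := by group
      rw [this]
      exact T.mul_mem (T.inv_mem h2) h1
    · intro h2
      exact (h g hg).resolve_left h2
  have h1 := Subgroup.card_mul_index (T.subgroupOf L)
  rw [hidx] at h1
  have h2 : Nat.card ↥(T.subgroupOf L) = Nat.card ↥(L ⊓ T) := by
    rw [← Subgroup.inf_subgroupOf_left]
    exact Nat.card_congr (Subgroup.subgroupOfEquivOfLe inf_le_left).toEquiv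
  rw [h2] at h1
  rw [← h1, mul_comm]

theorem main_chain [Group.IsSolvable S] (hF : Odd (Nat.card ↥(Cfsg.fittingSubgroup S)))
    {I : Subgroup S} (hI : Cfsg.IsElementaryAbelian 2 I) (n : ℕ) (hIn : Nat.card ↥I = 2 ^ n)
    (k : ℕ) (hk : k ≤ n) :
    ∃ f : ℕ → Subgroup S, (∀ j < k, (Nat.card ↥(f j)).Prime) ∧
      (∀ j < k, f j ≤ Cfsg.fittingSubgroup S) ∧
      (∀ j < k, I ≤ normalizer (f j : Set S)) ∧
      (∀ j < k, f j ≤ centralizer (((Finset.range j).sup f : Subgroup S) : Set S)) ∧
      Nat.card ↥((Finset.range k).sup f) = ∏ j ∈ Finset.range k, Nat.card ↥(f j) ∧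
      Nat.card ↥(I ⊓ centralizer (((Finset.range k).sup f : Subgroup S) : Set S)) * 2 ^ k = 2 ^ n := by
  induction k with
  | zero =>
    refine ⟨fun _ => ⊥, by simp, by simp, by simp, by simp, by simp, ?_⟩
    simp only [Finset.range_zero, Finset.sup_empty, pow_zero, mul_one]
    have : I ⊓ centralizer ((⊥ : Subgroup S) : Set S) = I :=
      inf_eq_left.mpr (fun g _ => mem_centralizer_iff.mpr (fun b hb => by
        have hb1 : b = 1 := hb
        simp [hb1]))
    rw [this]; exact hIn
  | succ k ih =>
    obtain ⟨f, h1, h2, h3, h4, h5, h6⟩ := ih (by omega)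
    set B : Subgroup S := (Finset.range k).sup f with hB
    set L : Subgroup S := I ⊓ centralizer (B : Set S) with hL
    have hBF : B ≤ Cfsg.fittingSubgroup S := Finset.sup_le fun j hj => h2 j (Finset.mem_range.mp hj)
    have hIB : I ≤ normalizer (B : Set S) := by
      have : ∀ m, m ≤ k → I ≤ normalizer (((Finset.range m).sup f : Subgroup S) : Set S) := by
        intro m hm
        induction m with
        | zero =>
          intro z hz
          rw [mem_normalizer_iff]
          intro y
          simp only [Finset.range_zero, Finset.sup_empty]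
          simp
        | succ m ihm =>
          rw [Finset.range_add_one, Finset.sup_insert]
          intro z hz
          exact Cfsg.Agent.Lib.Coprime.Three.sup_mem_normalizer (h3 m (by omega) hz) (ihm (by omega) hz)
      exact this k le_rfl
    have hcardL : 1 < Nat.card L := by
      have hpos : Nat.card L ≠ 0 := Nat.card_pos.ne'
      have e : 2 ^ n = Nat.card L * 2 ^ k := h6.symm
      have hlt : 2 ^ k < 2 ^ n := Nat.pow_lt_pow_right (by norm_num) (by omega)
      by_contra hcon
      have : Nat.card L = 1 := by omega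
      rw [this, one_mul] at e
      omega
    obtain ⟨i, hiL, hi1⟩ : ∃ i ∈ L, i ≠ 1 := by
      haveI : Nontrivial L := Finite.one_lt_card_iff_nontrivial.mp hcardL
      obtain ⟨z, hz⟩ := exists_ne (1 : L)
      exact ⟨z, z.2, fun h => hz (Subtype.ext h)⟩
    obtain ⟨x, hxF, hxp, hxi, hxI, hxB, hx1⟩ := fit_step hF hI B hBF hIB hiL.1 hiL.2 hi1
    have hinvx : x⁻¹ ≠ x := by
      intro h
      -- `x` has odd order
      have hdvd : orderOf x ∣ Nat.card ↥(Cfsg.fittingSubgroup S) := by
        have := orderOf_dvd_natCard (⟨x, hxF⟩ : ↥(Cfsg.fittingSubgroup S))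
        rwa [Subgroup.orderOf_mk] at this
      have h2x : orderOf x ∣ 2 := orderOf_dvd_of_pow_eq_one (by
        rw [pow_two]
        nth_rewrite 1 [← h]
        exact inv_mul_cancel x)
      have : orderOf x = 2 := (Nat.prime_dvd_prime_iff_eq hxp Nat.prime_two).mp h2x
      rw [this] at hdvd
      exact (Nat.not_even_iff_odd.mpr hF) (even_iff_two_dvd.mpr hdvd)
    set A : Subgroup S := zpowers x with hA
    have hxA : x ∈ A := mem_zpowers x
    have hcardA : Nat.card A = orderOf x := Nat.card_zpowers x
    have hCA : ∀ g, g ∈ centralizer (A : Set S) ↔ g * x = x * g := by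
      intro g
      constructor
      · intro hg; exact (mem_centralizer_iff.mp hg x hxA).symm
      · intro hg
        rw [mem_centralizer_iff]
        rintro _ ⟨m, rfl⟩
        exact (((show Commute x g from hg.symm).zpow_left m)).eq
    have hiA : i ∉ centralizer (A : Set S) := by
      intro h
      apply hinvx
      have e := (hCA i).mp h
      rw [← hxi, e]
      group
    have hLA : ∀ g ∈ L, g ∈ centralizer (A : Set S) ∨ g * i ∈ centralizer (A : Set S) := by
      intro g hg
      rcases hxI g hg.1 with e | e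
      · left
        rw [hCA]
        calc g * x = g * x * g⁻¹ * g := by group
          _ = x * g := by rw [e]
      · right
        rw [hCA]
        have hi2 : i * i = 1 := by have := hI.2 i hiL.1; rwa [pow_two] at this
        have hiinv : i⁻¹ = i := by rw [inv_eq_iff_mul_eq_one]; exact hi2
        have e3 : i * x = x⁻¹ * i := by
          calc i * x = i * x * i⁻¹ * i := by group
            _ = x⁻¹ * i := by rw [hxi]
        have e4 : g * x⁻¹ = x * g := by
          calc g * x⁻¹ = (g * x * g⁻¹)⁻¹ * g := by group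
            _ = x * g := by rw [e, inv_inv]
        calc g * i * x = g * (i * x) := by group
          _ = g * (x⁻¹ * i) := by rw [e3]
          _ = (g * x⁻¹) * i := by group
          _ = x * g * i := by rw [e4]
          _ = x * (g * i) := by group
    have hIA : I ≤ normalizer (A : Set S) := by
      intro h hh
      rw [mem_normalizer_iff]
      have hzp : ∀ h ∈ I, ∀ y ∈ A, h * y * h⁻¹ ∈ A := by
        intro h hh y hy
        obtain ⟨m, rfl⟩ := hy
        change h * x ^ m * h⁻¹ ∈ A
        rw [← conj_zpow]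
        rcases hxI h hh with e | e <;> rw [e]
        · exact A.zpow_mem hxA m
        · exact A.zpow_mem (A.inv_mem hxA) m
      intro y
      constructor
      · exact hzp h hh y
      · intro hy
        have := hzp h⁻¹ (I.inv_mem hh) _ hy
        simpa [mul_assoc] using this
    have hAB : A ≤ centralizer (B : Set S) := by
      rw [hA, zpowers_le]
      exact hxB
    have hinf : A ⊓ B = ⊥ := by
      rw [eq_bot_iff]
      intro z hz
      rw [mem_bot]
      by_contra hz1
      have hzA : z ∈ A := hz.1
      -- a nontrivial element of a prime order cyclic group generates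
      have hzgen : A ≤ zpowers z := by
        have hcardle : Nat.card (zpowers z) = Nat.card A := by
          rw [hcardA, Nat.card_zpowers]
          have hdvd : orderOf z ∣ orderOf x := by
            exact orderOf_dvd_of_mem_zpowers hzA
          rcases (Nat.dvd_prime hxp).mp hdvd with h | h
          · exact absurd (orderOf_eq_one_iff.mp h) hz1
          · exact h
        have hle : zpowers z ≤ A := (zpowers_le.mpr hzA)
        exact (Subgroup.eq_of_le_of_card_ge hle hcardle.ge).symm.le
      apply hiA
      have hcomm : z * i = i * z := mem_centralizer_iff.mp hiL.2 z hz.2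
      rw [hCA]
      obtain ⟨m, hm⟩ := hzgen hxA
      rw [← hm]
      exact ((show Commute i z from hcomm.symm).zpow_right m).eq
    let f' : ℕ → Subgroup S := Function.update f k A
    have hf'lt : ∀ j, j < k → f' j = f j := fun j hj => Function.update_of_ne hj.ne _ _
    have hf'k : f' k = A := Function.update_self _ _ _
    have hsup : ∀ m, m ≤ k → (Finset.range m).sup f' = (Finset.range m).sup f := by
      intro m hm
      apply Finset.sup_congr rfl
      intro j hj
      exact hf'lt j (by have := Finset.mem_range.mp hj; omega)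
    have hsupk : (Finset.range (k + 1)).sup f' = A ⊔ B := by
      rw [Finset.range_add_one, Finset.sup_insert, hsup k le_rfl, hf'k]
    have hcardsup := Cfsg.Agent.Lib.PGroup.Timmesfeld.card_sup_mul_card_inf_of_le_normalizer A B
      (by
        intro a ha
        rw [mem_normalizer_iff]
        intro y
        have hcc : ∀ y ∈ B, a * y * a⁻¹ = y := fun y hy => by
          rw [(mem_centralizer_iff.mp (hAB ha) y hy).symm]; group
        constructor
        · intro hy; rw [hcc y hy]; exact hy
        · intro hy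
          have e : y = a⁻¹ * (a * y * a⁻¹) * a := by group
          rw [e]
          have := hcc _ hy
          have h2 : a⁻¹ * (a * y * a⁻¹) * a = a * y * a⁻¹ := by
            have e5 : a⁻¹ ∈ A := A.inv_mem ha
            have := (mem_centralizer_iff.mp (hAB e5) _ hy)
            calc a⁻¹ * (a * y * a⁻¹) * a = (a * y * a⁻¹) * a⁻¹ * a := by rw [this]
              _ = a * y * a⁻¹ := by group
          rw [h2]; exact hy)
    rw [hinf] at hcardsup
    refine ⟨f', ?_, ?_, ?_, ?_, ?_, ?_⟩
    · intro j hj
      rcases Nat.lt_succ_iff_lt_or_eq.mp hj with h | rfl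
      · rw [hf'lt j h]; exact h1 j h
      · rw [hf'k, hcardA]; exact hxp
    · intro j hj
      rcases Nat.lt_succ_iff_lt_or_eq.mp hj with h | rfl
      · rw [hf'lt j h]; exact h2 j h
      · rw [hf'k, hA, zpowers_le]; exact hxF
    · intro j hj
      rcases Nat.lt_succ_iff_lt_or_eq.mp hj with h | rfl
      · rw [hf'lt j h]; exact h3 j h
      · rw [hf'k]; exact hIA
    · intro j hj
      rcases Nat.lt_succ_iff_lt_or_eq.mp hj with h | rfl
      · rw [hf'lt j h, hsup j h.le]; exact h4 j h
      · rw [hf'k, hsup j le_rfl]; exact hAB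
    · rw [hsupk, Finset.prod_range_succ, hf'k]
      have hprod : ∏ j ∈ Finset.range k, Nat.card ↥(f' j) = ∏ j ∈ Finset.range k, Nat.card ↥(f j) := by
        apply Finset.prod_congr rfl
        intro j hj
        rw [hf'lt j (Finset.mem_range.mp hj)]
      rw [hprod, ← h5]
      have hbot : Nat.card (⊥ : Subgroup S) = 1 := Subgroup.card_bot
      rw [hbot, mul_one] at hcardsup
      rw [hcardsup, mul_comm]
    · rw [hsupk]
      have hcent : I ⊓ centralizer ((A ⊔ B : Subgroup S) : Set S) = L ⊓ centralizer (A : Set S) := by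
        ext g
        simp only [mem_inf, hL]
        constructor
        · rintro ⟨hg, hgc⟩
          exact ⟨⟨hg, centralizer_le (SetLike.coe_subset_coe.mpr le_sup_right) hgc⟩,
            centralizer_le (SetLike.coe_subset_coe.mpr le_sup_left) hgc⟩
        · rintro ⟨⟨hg, hgB⟩, hgA⟩
          refine ⟨hg, ?_⟩
          have : (A ⊔ B : Subgroup S) ≤ centralizer ({g} : Set S) := by
            apply sup_le
            · intro y hy
              rw [mem_centralizer_iff]
              intro g' hg'
              rw [Set.mem_singleton_iff.mp hg']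
              exact (mem_centralizer_iff.mp hgA y hy).symm
            · intro y hy
              rw [mem_centralizer_iff]
              intro g' hg'
              rw [Set.mem_singleton_iff.mp hg']
              exact (mem_centralizer_iff.mp hgB y hy).symm
          rw [mem_centralizer_iff]
          intro y hy
          exact (mem_centralizer_iff.mp (this hy) g rfl).symm
      rw [hcent]
      have htwo := card_eq_two_mul hiL hiA hLA
      rw [← h6, htwo, pow_succ]
      ring

end aux

/-- Let S be a finite solvable group whose Fitting subgroup F(S) has odd order, and let I be an elementary abelian 2-subgroup of S of order 2ⁿ with n ≥ 1. Then F(S) contains subgroups A₁, …, Aₙ of prime order, each normalized by I, pairwise commuting and generating a subgroup A of order |A₁|⋯|Aₙ| (their internal direct product), such that no non-identity element of I centralizes A. -/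
theorem result {S : Type*} [Group S] [Finite S]
    [Group.IsSolvable S] (hF : Odd (Nat.card ↥(Cfsg.fittingSubgroup S)))
    (I : Subgroup S) (hI : Cfsg.IsElementaryAbelian 2 I) (n : ℕ) (hn : 1 ≤ n) (hIn : Nat.card ↥I = 2 ^ n) :
    ∃ f : Fin n → Subgroup S, (∀ i, (Nat.card ↥(f i)).Prime) ∧ (∀ i, f i ≤ Cfsg.fittingSubgroup S) ∧
      (∀ i, I ≤ Subgroup.normalizer ((f i) : Set S)) ∧ (∀ i j, i ≠ j → ∀ a ∈ f i, ∀ b ∈ f j, a * b = b * a) ∧
      Nat.card ↥(⨆ i, f i) = ∏ i, Nat.card ↥(f i) ∧ I ⊓ Subgroup.centralizer ((⨆ i, f i : Subgroup S) : Set S) = ⊥ := by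
  obtain ⟨f, h1, h2, h3, h4, h5, h6⟩ := main_chain hF hI n hIn n le_rfl
  have hsup : (⨆ i : Fin n, f i) = (Finset.range n).sup f := by
    apply le_antisymm
    · exact iSup_le fun i => Finset.le_sup (Finset.mem_range.mpr i.2)
    · exact Finset.sup_le fun j hj => le_iSup (fun i : Fin n => f i) ⟨j, Finset.mem_range.mp hj⟩
  have hcomm : ∀ j l, j < n → l < j → ∀ a ∈ f j, ∀ b ∈ f l, a * b = b * a := by
    intro j l hj hl a ha b hb
    have hbs : b ∈ (Finset.range j).sup f :=
      (Finset.le_sup (f := f) (Finset.mem_range.mpr hl)) hb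
    exact (Subgroup.mem_centralizer_iff.mp (h4 j hj ha) b hbs).symm
  refine ⟨fun i => f i, fun i => h1 i i.2, fun i => h2 i i.2, fun i => h3 i i.2, ?_, ?_, ?_⟩
  · intro i j hij a ha b hb
    rcases lt_or_gt_of_ne (fun h => hij (Fin.ext h) : (i : ℕ) ≠ j) with h | h
    · exact (hcomm j i j.2 h b hb a ha).symm
    · exact hcomm i j i.2 h a ha b hb
  · rw [hsup, h5]
    exact (Fin.prod_univ_eq_prod_range (fun j => Nat.card ↥(f j)) n).symm
  · rw [hsup]
    have hcard : Nat.card ↥(I ⊓ Subgroup.centralizer (((Finset.range n).sup f : Subgroup S) : Set S)) = 1 := by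
      have hpos : 0 < 2 ^ n := by positivity
      exact Nat.eq_of_mul_eq_mul_right hpos (by rw [h6, one_mul])
    exact Subgroup.card_eq_one.mp hcard

end Cfsg.Agent.S4408
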