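import Cfsg.Statements.S4409
import Mathlib
import Cfsg.Agent.Lib.Blocks.NoA8
import Cfsg.Agent.Lib.Coprime.Coset
import Cfsg.Agent.Lib.PGroup.ExtraClass
import Cfsg.Agent.Lib.Solvable.PSeries
import Cfsg.Agent.Lib.Coprime.PSolvable
import Cfsg.Agent.Lib.Basic.PCore

set_option autoImplicit false
set_option linter.style.longLine false
open Cfsg

namespace Cfsg.Agent.S4409

open Subgroup Cfsg.Agent.Lib.Blocks.NoA8
open scoped commutatorElement

variable {G : Type*} [Group G] [Finite G]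

/-- Invariance under `Q`. -/
def InvQ (Q Y : Subgroup G) : Prop := ∀ q ∈ Q, ∀ y ∈ Y, q * y * q⁻¹ ∈ Y

theorem InvQ.sup {Q Y Y' : Subgroup G} (h : InvQ Q Y) (h' : InvQ Q Y') : InvQ Q (Y ⊔ Y') := by
  intro q hq y hy
  have hle : Y ⊔ Y' ≤ (Y ⊔ Y').comap (MulAut.conj q).toMonoidHom := by
    refine sup_le (fun a ha => ?_) (fun a ha => ?_)
    · rw [Subgroup.mem_comap]
      exact Subgroup.mem_sup_left (h q hq a ha)
    · rw [Subgroup.mem_comap]
      exact Subgroup.mem_sup_right (h' q hq a ha)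
  exact hle hy

theorem InvQ.zpowers_of_fix {Q : Subgroup G} {y : G} (h : ∀ q ∈ Q, q * y * q⁻¹ = y) :
    InvQ Q (zpowers y) := by
  rintro q hq _ ⟨k, rfl⟩
  refine ⟨k, ?_⟩
  show y ^ k = q * y ^ k * q⁻¹
  rw [← conj_zpow, h q hq]

/-- The setting. -/
structure Setup (X Q : Subgroup G) : Prop where
  two : IsPGroup 2 X
  norm : Q ≤ normalizer (X : Set G)
  odd : ¬ 2 ∣ Nat.card Q
  cen : centralizer (X : Set G) ≤ X
  ne : Q ≠ ⊥
  min : ∀ Y : Subgroup G, Y ≤ X → Y ≠ X → InvQ Q Y → NoA Y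
  hA : ¬ NoA X

section Setup

variable {X Q : Subgroup G} (hs : Setup X Q)
include hs

theorem Setup.invX : InvQ Q X :=
  fun q hq y hy => (Subgroup.mem_normalizer_iff.mp (hs.norm hq) y).mp hy

theorem Setup.oddOrder {q : G} (hq : q ∈ Q) : Odd (orderOf q) := by
  have h1 : orderOf q ∣ Nat.card Q := Subgroup.orderOf_dvd_natCard Q hq
  rw [← Nat.not_even_iff_odd, even_iff_two_dvd]
  exact fun h2 => hs.odd (h2.trans h1)

theorem Setup.cop : (Nat.card Q).Coprime (Nat.card X) := by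
  obtain ⟨n, hn⟩ := IsPGroup.iff_card.mp hs.two
  rw [hn]
  exact Nat.Coprime.pow_right _ ((Nat.Prime.coprime_iff_not_dvd Nat.prime_two).mpr hs.odd).symm

theorem Setup.inf_bot : Q ⊓ X = ⊥ := Cfsg.Agent.Lib.Coprime.Coset.inf_eq_bot_of_coprime hs.cop

theorem Setup.exists_nt : ∃ q ∈ Q, ∃ x ∈ X, q * x * q⁻¹ ≠ x := by
  by_contra hcon
  push Not at hcon
  apply hs.ne
  rw [eq_bot_iff]
  intro q hq
  have h1 : q ∈ centralizer (X : Set G) := by
    rw [Subgroup.mem_centralizer_iff]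
    intro x hx
    have h2 := hcon q hq x hx
    calc x * q = (q * x * q⁻¹) * q := by rw [h2]
      _ = q * x := by group
  have h2 : q ∈ Q ⊓ X := ⟨hq, hs.cen h1⟩
  rwa [hs.inf_bot] at h2

theorem Setup.vq {Y : Subgroup G} (hYX : Y ≤ X) (hYne : Y ≠ X) (hinv : InvQ Q Y)
    (hnt : ∃ q ∈ Q, ∃ y ∈ Y, q * y * q⁻¹ ≠ y) : ∃ q ∈ Q, VQ Y q := by
  obtain ⟨q, hq, y, hy, hne⟩ := hnt
  exact ⟨q, hq, vq_of_noA (hs.two.to_le hYX) (hs.oddOrder hq) (hinv q hq) ⟨y, hy, hne⟩
    (hs.min Y hYX hYne hinv)⟩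

end Setup

/-- Recognition of special groups from the ambient group. -/
theorem special_of {X Zs : Subgroup G} (hX2 : IsPGroup 2 X) (hZX : Zs ≤ X)
    (hsq : ∀ x ∈ X, x ^ 2 ∈ Zs) (hcen : ∀ z ∈ Zs, ∀ x ∈ X, z * x = x * z)
    (hcen2 : ∀ x ∈ X, (∀ y ∈ X, x * y = y * x) → x ∈ Zs) (hcomm : Zs ≤ ⁅X, X⁆) :
    Cfsg.IsSpecial 2 X ∧ Nat.card (center X) = Nat.card Zs := by
  classical
  haveI : Fact (Nat.Prime 2) := ⟨Nat.prime_two⟩
  have hc : center X = Zs.subgroupOf X := by
    ext ⟨x, hx⟩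
    rw [Subgroup.mem_center_iff, Subgroup.mem_subgroupOf]
    constructor
    · intro h
      refine hcen2 x hx (fun y hy => ?_)
      exact (congrArg Subtype.val (h ⟨y, hy⟩)).symm
    · intro h g
      apply Subtype.ext
      exact (hcen x h g g.2).symm
  have hF : frattini X ≤ center X := by
    rw [Cfsg.Agent.Lib.PGroup.Basic.frattini_le_iff hX2, hc]
    constructor
    · intro x
      rw [Subgroup.mem_subgroupOf]
      exact hsq x x.2
    · intro x y
      rw [Subgroup.mem_subgroupOf]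
      have h1 : ((⁅x, y⁆ : X) : G) = ((x : G) * y) ^ 2 * ((y : G)⁻¹ * (x : G)⁻¹ * y) ^ 2 * ((y : G)⁻¹) ^ 2 := by
        simp only [commutatorElement_def, pow_two, Subgroup.coe_mul, Subgroup.coe_inv]
        group
      rw [h1]
      exact mul_mem (mul_mem (hsq _ (mul_mem x.2 y.2))
        (hsq _ (mul_mem (mul_mem (inv_mem y.2) (inv_mem x.2)) y.2))) (hsq _ (inv_mem y.2))
  have hC : center X ≤ commutator X := by
    rw [hc]
    intro z hz
    rw [Subgroup.mem_subgroupOf] at hz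
    have h1 := hcomm hz
    rw [← Subgroup.map_subtype_commutator] at h1
    obtain ⟨w, hw, hwz⟩ := h1
    have : w = z := Subtype.ext hwz
    rwa [← this]
  have hD : commutator X ≤ frattini X := Cfsg.Agent.Lib.PGroup.Basic.commutator_le_frattini hX2
  refine ⟨⟨hX2, le_antisymm hF (hC.trans hD), le_antisymm (hD.trans hF) hC⟩, ?_⟩
  rw [hc]
  exact Nat.card_congr (Subgroup.subgroupOfEquivOfLe hZX).toEquiv

/-- Coprime action: fixed points lie in the commutator subgroup when `[X, Q] = X`. -/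
theorem mem_commutator_of_fixed {X Q : Subgroup G} (hN : Q ≤ normalizer (X : Set G))
    (hodd : ¬ 2 ∣ Nat.card Q) (hX2 : IsPGroup 2 X) (hW : ⁅X, Q⁆ = X) {y : G} (hy : y ∈ X)
    (hfix : ∀ q ∈ Q, q * y * q⁻¹ = y) : y ∈ ⁅X, X⁆ := by
  classical
  haveI := Fintype.ofFinite Q
  let c : Q → X →* X := fun q =>
    { toFun := fun x => ⟨(q : G) * x * (q : G)⁻¹, (Subgroup.mem_normalizer_iff.mp (hN q.2) x).mp x.2⟩
      map_one' := by apply Subtype.ext; simp
      map_mul' := by
        intro a b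
        apply Subtype.ext
        show (q : G) * ((a : G) * b) * (q : G)⁻¹ = ((q : G) * a * (q : G)⁻¹) * ((q : G) * b * (q : G)⁻¹)
        group }
  have hc : ∀ (q : Q) (x : X), ((c q x : X) : G) = (q : G) * x * (q : G)⁻¹ := fun _ _ => rfl
  let ν : X →* Abelianization X :=
    { toFun := fun x => ∏ q : Q, Abelianization.of (c q x)
      map_one' := by simp
      map_mul' := by
        intro a b
        simp only [map_mul]
        exact Finset.prod_mul_distrib }
  have hνapp : ∀ x : X, ν x = ∏ q : Q, Abelianization.of (c q x) := fun _ => rfl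
  have hνc : ∀ (q₀ : Q) (x : X), ν (c q₀ x) = ν x := by
    intro q₀ x
    rw [hνapp, hνapp]
    refine Fintype.prod_equiv (Equiv.mulRight q₀) _ _ (fun q => ?_)
    congr 1
    apply Subtype.ext
    show (q : G) * ((q₀ : G) * x * (q₀ : G)⁻¹) * (q : G)⁻¹ = ((q * q₀ : Q) : G) * x * ((q * q₀ : Q) : G)⁻¹
    simp only [Subgroup.coe_mul]
    group
  have hle : ⁅X, Q⁆ ≤ (ν.ker).map X.subtype := by
    rw [Subgroup.commutator_le]
    intro x hx q hq
    have h1 : ⁅x, q⁆ = x * (q * x⁻¹ * q⁻¹) := by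
      simp only [commutatorElement_def]; group
    have h2 : ((⟨x, hx⟩ : X) * c ⟨q, hq⟩ (⟨x, hx⟩ : X)⁻¹ : X) ∈ ν.ker := by
      rw [MonoidHom.mem_ker, map_mul, hνc, ← map_mul, mul_inv_cancel, map_one]
    refine ⟨_, h2, ?_⟩
    rw [h1]
    rfl
  have hy1 : y ∈ ⁅X, Q⁆ := by rw [hW]; exact hy
  obtain ⟨w, hw, hwy⟩ := hle hy1
  have hwy' : w = ⟨y, hy⟩ := Subtype.ext hwy
  rw [hwy'] at hw
  replace hw : ν ⟨y, hy⟩ = 1 := hw
  rw [hνapp] at hw
  have h3 : ∀ q : Q, c q ⟨y, hy⟩ = ⟨y, hy⟩ := fun q => Subtype.ext (hfix q q.2)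
  simp only [h3, Finset.prod_const, Finset.card_univ] at hw
  obtain ⟨k, hk⟩ := exists_two_pow hX2 hy
  have hk' : (Abelianization.of (⟨y, hy⟩ : X)) ^ 2 ^ k = 1 := by
    rw [← map_pow]
    have : (⟨y, hy⟩ : X) ^ 2 ^ k = 1 := Subtype.ext hk
    rw [this, map_one]
  have h5 : (Fintype.card Q).Coprime (2 ^ k) := by
    rw [← Nat.card_eq_fintype_card]
    exact Nat.Coprime.pow_right _ ((Nat.Prime.coprime_iff_not_dvd Nat.prime_two).mpr hodd).symm
  have h6 := orderOf_eq_one_iff.mp (Nat.eq_one_of_dvd_coprimes h5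
    (orderOf_dvd_of_pow_eq_one hw) (orderOf_dvd_of_pow_eq_one hk'))
  have h7 : (⟨y, hy⟩ : X) ∈ commutator X := by
    rw [← Abelianization.ker_of]
    exact h6
  have h8 : y ∈ (commutator X).map X.subtype := ⟨_, h7, rfl⟩
  rwa [Subgroup.map_subtype_commutator] at h8

/-! ### The case `[X, Q] < X` -/

section CaseA

variable {X Q : Subgroup G} (hs : Setup X Q)
include hs

theorem Setup.caseA (hW : ⁅X, Q⁆ ≠ X) :
    IsMulCommutative ↥X ∨
        (∃ (X₀ : Subgroup G) (k : ℕ), X₀ ≤ X ∧ X₀.relIndex X = 2 ∧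
          Nonempty (↥X₀ ≃* QuaternionGroup (2 ^ (k + 1))) ∧
            X₀ ⊔ (X ⊓ Subgroup.centralizer (X₀ : Set G)) = X) := by
  classical
  haveI : Fact (Nat.Prime 2) := ⟨Nat.prime_two⟩
  have hN := hs.norm
  have hcop := hs.cop
  have hsolv : Group.IsSolvable Q ∨ Group.IsSolvable X := Or.inr (by haveI := hs.two.isNilpotent; infer_instance)
  set W : Subgroup G := ⁅X, Q⁆ with hWdef
  have hWX : W ≤ X := Cfsg.Agent.Lib.Coprime.Coset.commutator_le_left_of_le_normalizer hN
  have hWinv : InvQ Q W := fun q hq y hy =>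
    (Subgroup.mem_normalizer_iff.mp (Cfsg.Agent.Lib.Coprime.Coset.commutator_le_normalizer_right hN hq) y).mp hy
  have hWnorm : ∀ x ∈ X, ∀ w ∈ W, x * w * x⁻¹ ∈ W := fun x hx w hw =>
    (Subgroup.mem_normalizer_iff.mp (Cfsg.Agent.Lib.Coprime.Coset.commutator_le_normalizer_left hN hx) w).mp hw
  have hsup : W ⊔ (X ⊓ centralizer (Q : Set G)) = X :=
    Cfsg.Agent.Lib.Coprime.Coset.commutator_sup_centralizer hN hcop hsolv
  set Yc : Subgroup G := X ⊓ centralizer (Q : Set G) with hYc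
  have hYX : Yc ≤ X := inf_le_left
  have hYfix : ∀ y ∈ Yc, ∀ q ∈ Q, q * y * q⁻¹ = y := by
    intro y hy q hq
    have h1 := (Subgroup.mem_centralizer_iff.mp (Subgroup.mem_inf.mp hy).2) q hq
    rw [h1]
    group
  have hnt : ∃ q ∈ Q, ∃ w ∈ W, q * w * q⁻¹ ≠ w := by
    by_contra hcon
    push Not at hcon
    obtain ⟨q, hq, x, hx, hne⟩ := hs.exists_nt
    apply hne
    have hle : W ⊔ Yc ≤ centralizer ({q} : Set G) := by
      refine sup_le (fun w hw => ?_) (fun y hy => ?_)
      · rw [Subgroup.mem_centralizer_singleton_iff]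
        have h1 := hcon q hq w hw
        calc w * q = (q * w * q⁻¹) * q := by rw [h1]
          _ = q * w := by group
      · rw [Subgroup.mem_centralizer_singleton_iff]
        have h1 := hYfix y hy q hq
        calc y * q = (q * y * q⁻¹) * q := by rw [h1]
          _ = q * y := by group
    have hx' : x ∈ W ⊔ Yc := by rw [hsup]; exact hx
    have h2 := Subgroup.mem_centralizer_singleton_iff.mp (hle hx')
    rw [← h2]
    group
  obtain ⟨q, hq, hvq⟩ := hs.vq hWX hW hWinv hnt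
  have hact := hvq.act
  -- `C_X(Q)` centralizes `W`
  have hYcen : ∀ y ∈ Yc, ∀ w ∈ W, y * w = w * y := by
    intro y hy
    have htriv := hvq.act_trivial (N := Yc) (hs.two.to_le hYX)
      (fun n hn x hx => hWnorm n (hYX hn) x hx)
      (fun n hn => by
        have h1 := hYfix n hn q hq
        have h2 : q⁻¹ * n * q = n := by
          nth_rewrite 1 [← h1]
          group
        rw [h2]
        exact hn)
    exact hvq.centralize (hYfix y hy q hq) (htriv y hy)
  -- an element of `C_X(Q)` outside `W`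
  have hex : ∃ y ∈ Yc, y ∉ W := by
    by_contra hcon
    push Not at hcon
    apply hW
    refine le_antisymm hWX ?_
    rw [← hsup]
    exact sup_le le_rfl hcon
  obtain ⟨y, hyY, hyW⟩ := hex
  rcases hvq.case with ⟨h4, hb, hsq⟩ | ⟨h8, -, -, ⟨e⟩⟩
  · -- the four-group
    left
    -- an involution in `Yc` outside `W`
    have hXle : (W ⊔ zpowers y : Subgroup G) ≤ X := sup_le hWX ((Subgroup.zpowers_le).mpr (hYX hyY))
    have hinv : InvQ Q (W ⊔ zpowers y) :=
      InvQ.sup hWinv (InvQ.zpowers_of_fix (fun q hq => hYfix y hyY q hq))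
    -- the power of `y`
    obtain ⟨k, hk⟩ := exists_two_pow hs.two (hYX hyY)
    obtain ⟨l, hl1, hl2⟩ := exists_last_power (R := W) hyW hk
    have hy0Y : y ^ 2 ^ l ∈ Yc := Subgroup.pow_mem _ hyY _
    have hy0 : (y ^ 2 ^ l) ^ 2 = 1 := by
      have h1 : (y ^ 2 ^ l) ^ 2 ∈ fixS W q :=
        mem_fixS.mpr ⟨hl2, hYfix _ (Subgroup.pow_mem _ hy0Y _) q hq⟩
      rw [hb, Subgroup.mem_bot] at h1
      exact h1
    set y₀ := y ^ 2 ^ l with hy₀
    have hXle0 : (W ⊔ zpowers y₀ : Subgroup G) ≤ X := sup_le hWX ((Subgroup.zpowers_le).mpr (hYX hy0Y))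
    have hinv0 : InvQ Q (W ⊔ zpowers y₀) :=
      InvQ.sup hWinv (InvQ.zpowers_of_fix (fun q hq => hYfix y₀ hy0Y q hq))
    have hnot := not_noA_of_four h4 hsq hl1 (hs.two.to_le hXle0) (hYcen y₀ hy0Y)
    have heq : W ⊔ zpowers y₀ = X := by
      by_contra hne
      exact hnot (hs.min _ hXle0 hne hinv0)
    -- `X` is abelian
    have hWcomm : ∀ a ∈ W, ∀ b ∈ W, a * b = b * a := by
      intro a ha b hb
      have h1 := hsq a ha
      have h2 := hsq b hb
      have h3 := hsq _ (mul_mem ha hb)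
      rw [pow_two] at h1 h2 h3
      calc a * b = a * (a * b * (a * b)) * b := by rw [h3]; group
        _ = (a * a) * b * a * (b * b) := by group
        _ = b * a := by rw [h1, h2]; group
    have := isMulCommutative_sup_zpowers hWcomm (hYcen y₀ hy0Y)
    rw [heq] at this
    exact this
  · -- the quaternion group
    right
    obtain ⟨k, hk⟩ := exists_two_pow hs.two (hYX hyY)
    obtain ⟨l, hl1, hl2⟩ := exists_last_power (R := W) hyW hk
    have hy0Y : y ^ 2 ^ l ∈ Yc := Subgroup.pow_mem _ hyY _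
    set y₀ := y ^ 2 ^ l with hy₀
    have hXle0 : (W ⊔ zpowers y₀ : Subgroup G) ≤ X := sup_le hWX ((Subgroup.zpowers_le).mpr (hYX hy0Y))
    have hinv0 : InvQ Q (W ⊔ zpowers y₀) :=
      InvQ.sup hWinv (InvQ.zpowers_of_fix (fun q hq => hYfix y₀ hy0Y q hq))
    have hnot := hvq.not_noA_of_centralizing h8 hl1 (hs.two.to_le hXle0) (hYcen y₀ hy0Y)
    have heq : W ⊔ zpowers y₀ = X := by
      by_contra hne
      exact hnot (hs.min _ hXle0 hne hinv0)
    have hy0X : y₀ ∈ X := hYX hy0Y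
    have hcomm0 := hYcen y₀ hy0Y
    refine ⟨W, 0, hWX, ?_, ⟨e⟩, ?_⟩
    · -- the index
      rw [Subgroup.relIndex, Subgroup.index_eq_two_iff]
      refine ⟨⟨y₀, hy0X⟩, ?_⟩
      rintro ⟨b, hb⟩
      simp only [Subgroup.mem_subgroupOf, Subgroup.coe_mul]
      have hb' : b ∈ W ⊔ zpowers y₀ := by rw [heq]; exact hb
      rcases mem_sup_zpowers_cases (fun h hh => by
          rw [hcomm0 h hh]; simpa using hh) hl2 hb' with h1 | h1
      · right
        refine ⟨h1, ?_⟩
        intro h2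
        apply hl1
        have : y₀ = b⁻¹ * (b * y₀) := by group
        rw [this]
        exact mul_mem (inv_mem h1) h2
      · left
        refine ⟨?_, ?_⟩
        · have h3 : b * y₀ = y₀ ^ 2 * (y₀⁻¹ * b) := by
            have h4 := hcomm0 _ h1
            have h5 : b = y₀ * (y₀⁻¹ * b) := by group
            calc b * y₀ = y₀ * ((y₀⁻¹ * b) * y₀) := by group
              _ = y₀ * (y₀ * (y₀⁻¹ * b)) := by rw [h4]
              _ = _ := by rw [pow_two]; group
          rw [h3]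
          exact mul_mem hl2 h1
        · intro h2
          apply hl1
          have : y₀ = b * (y₀⁻¹ * b)⁻¹ := by group
          rw [this]
          exact mul_mem h2 (inv_mem h1)
    · refine le_antisymm (sup_le hWX inf_le_left) ?_
      have hy1 : y₀ ∈ W ⊔ (X ⊓ centralizer (W : Set G)) := by
        refine Subgroup.mem_sup_right (Subgroup.mem_inf.mpr ⟨hy0X, ?_⟩)
        rw [Subgroup.mem_centralizer_iff]
        intro w hw
        exact (hcomm0 w hw).symm
      calc X = W ⊔ zpowers y₀ := heq.symm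
        _ ≤ _ := sup_le le_sup_left ((Subgroup.zpowers_le).mpr hy1)

end CaseA

/-! ### The case `[X, Q] = X` -/

section CaseB

variable {X Q : Subgroup G} (hs : Setup X Q)
include hs

theorem Setup.inv_comm {a b q : G} (hq : q ∈ Q) : q * (a * b * a⁻¹ * b⁻¹) * q⁻¹ =
    (q * a * q⁻¹) * (q * b * q⁻¹) * (q * a * q⁻¹)⁻¹ * (q * b * q⁻¹)⁻¹ := by group

/-- Squares lie in a maximal invariant subgroup. -/
theorem Setup.sq_mem_of_max {M : Subgroup G} (hMX : M ≤ X) (hMne : M ≠ X) (hMinv : InvQ Q M)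
    (hMmax : ∀ Y : Subgroup G, Y ≤ X → Y ≠ X → InvQ Q Y → M ≤ Y → Y = M) {x : G} (hx : x ∈ X) :
    x ^ 2 ∈ M := by
  classical
  haveI : Fact (Nat.Prime 2) := ⟨Nat.prime_two⟩
  set D : Subgroup G := Subgroup.closure {y | ∃ x ∈ X, x ^ 2 = y} with hD
  have hDX : D ≤ X := by
    rw [hD, Subgroup.closure_le]
    rintro _ ⟨x, hx, rfl⟩
    exact X.pow_mem hx 2
  have hDinv : InvQ Q D := by
    intro q hq y hy
    have : D ≤ D.comap (MulAut.conj q).toMonoidHom := by
      rw [hD, Subgroup.closure_le]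
      rintro _ ⟨x, hx, rfl⟩
      have h1 : (MulAut.conj q).toMonoidHom (x ^ 2) = (q * x * q⁻¹) ^ 2 := by
        simp [MulAut.conj_apply, conj_pow]
      rw [SetLike.mem_coe, Subgroup.mem_comap, h1]
      exact Subgroup.subset_closure ⟨_, hs.invX q hq x hx, rfl⟩
    exact this hy
  have hle : M ⊔ D ≤ ((M.subgroupOf X) ⊔ frattini X).map X.subtype := by
    refine sup_le (fun m hm => ⟨⟨m, hMX hm⟩, Subgroup.mem_sup_left (by
        rw [Subgroup.mem_subgroupOf]; exact hm), rfl⟩) ?_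
    rw [hD, Subgroup.closure_le]
    rintro _ ⟨x, hx, rfl⟩
    refine ⟨⟨x, hx⟩ ^ 2, Subgroup.mem_sup_right
      (Cfsg.Agent.Lib.PGroup.Basic.pow_mem_frattini hs.two _), rfl⟩
  have hne : M ⊔ D ≠ X := by
    intro heq
    have htop : (M.subgroupOf X) ⊔ frattini X = ⊤ := by
      rw [eq_top_iff]
      rintro ⟨y, hy⟩ -
      have h1 : y ∈ M ⊔ D := by rw [heq]; exact hy
      obtain ⟨z, hz, hzy⟩ := hle h1
      have : z = ⟨y, hy⟩ := Subtype.ext hzy
      rwa [← this]
    have h2 := frattini_nongenerating htop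
    apply hMne
    refine le_antisymm hMX (fun y hy => ?_)
    have h3 : (⟨y, hy⟩ : X) ∈ M.subgroupOf X := by rw [h2]; trivial
    exact Subgroup.mem_subgroupOf.mp h3
  have h4 := hMmax _ (sup_le hMX hDX) hne (InvQ.sup hMinv hDinv) le_sup_left
  rw [← h4]
  exact Subgroup.mem_sup_right (Subgroup.subset_closure ⟨x, hx, rfl⟩)

omit hs in
theorem comm_eq_squares (x y : G) : x * y * x⁻¹ * y⁻¹ =
    (x * y) ^ 2 * (y⁻¹ * x⁻¹ * y) ^ 2 * (y⁻¹) ^ 2 := by
  simp only [pow_two]; group

/-- The trivial case. -/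
theorem Setup.caseB_triv (hW : ⁅X, Q⁆ = X) {M : Subgroup G} (hMX : M ≤ X) (hMne : M ≠ X)
    (hMinv : InvQ Q M)
    (hMmax : ∀ Y : Subgroup G, Y ≤ X → Y ≠ X → InvQ Q Y → M ≤ Y → Y = M)
    (hMfix : ∀ q ∈ Q, ∀ m ∈ M, q * m * q⁻¹ = m) :
    IsMulCommutative ↥X ∨ (Cfsg.IsExtraspecial 2 ↥X ∧ 32 ≤ Nat.card ↥X) ∨
        (Cfsg.IsSpecial 2 ↥X ∧ Nat.card ↥(Subgroup.center ↥X) = 4) := by
  classical
  haveI : Fact (Nat.Prime 2) := ⟨Nat.prime_two⟩
  have hMsq : ∀ x ∈ X, x ^ 2 ∈ M := fun x hx => hs.sq_mem_of_max hMX hMne hMinv hMmax hx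
  have hMcomm : ∀ x ∈ X, ∀ y ∈ X, x * y * x⁻¹ * y⁻¹ ∈ M := by
    intro x hx y hy
    rw [comm_eq_squares]
    exact mul_mem (mul_mem (hMsq _ (mul_mem hx hy))
      (hMsq _ (mul_mem (mul_mem (inv_mem hy) (inv_mem hx)) hy))) (hMsq _ (inv_mem hy))
  -- `M` is central in `X`
  have hcentral : ∀ y ∈ M, ∀ x ∈ X, x * y = y * x := by
    intro y hy x hx
    have hle : ⁅X, Q⁆ ≤ centralizer ({y} : Set G) := by
      rw [Subgroup.commutator_le]
      intro t ht q hq
      rw [Subgroup.mem_centralizer_singleton_iff]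
      have hc := hMcomm t⁻¹ (inv_mem ht) y (hMX hy)
      have h1 := hMfix q hq _ hc
      rw [hs.inv_comm hq, hMfix q hq y hy] at h1
      have h2 : (q * t⁻¹ * q⁻¹) * y * (q * t⁻¹ * q⁻¹)⁻¹ = t⁻¹ * y * t := by
        have := congrArg (fun z => z * y) h1
        simpa [mul_assoc] using this
      have h3 : ⁅t, q⁆ = t * (q * t⁻¹ * q⁻¹) := by
        simp only [commutatorElement_def]; group
      rw [h3]
      calc t * (q * t⁻¹ * q⁻¹) * y
          = t * ((q * t⁻¹ * q⁻¹) * y * (q * t⁻¹ * q⁻¹)⁻¹) * (q * t⁻¹ * q⁻¹) := by group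
        _ = t * (t⁻¹ * y * t) * (q * t⁻¹ * q⁻¹) := by rw [h2]
        _ = _ := by group
    have hx' : x ∈ ⁅X, Q⁆ := by rw [hW]; exact hx
    exact Subgroup.mem_centralizer_singleton_iff.mp (hle hx')
  by_cases hab : ∀ a ∈ X, ∀ b ∈ X, a * b = b * a
  · left
    refine ⟨⟨?_⟩⟩
    rintro ⟨a, ha⟩ ⟨b, hb⟩
    exact Subtype.ext (hab a ha b hb)
  right
  have hna := hab
  push Not at hna
  -- the centre
  have hcen2 : ∀ x ∈ X, (∀ y ∈ X, x * y = y * x) → x ∈ M := by
    intro x hx hc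
    set Z : Subgroup G := X ⊓ centralizer (X : Set G) with hZ
    have hZX : Z ≤ X := inf_le_left
    have hZne : Z ≠ X := by
      intro heq
      obtain ⟨a, ha, b, hb, hab'⟩ := hna
      have : a ∈ Z := heq ▸ ha
      exact hab' ((Subgroup.mem_centralizer_iff.mp (Subgroup.mem_inf.mp this).2) b hb).symm
    have hZinv : InvQ Q Z := by
      intro q hq z hz
      refine Subgroup.mem_inf.mpr ⟨hs.invX q hq z (hZX hz), ?_⟩
      rw [Subgroup.mem_centralizer_iff]
      intro y hy
      have h1 : q⁻¹ * y * q ∈ X := inv_conj_mem (hs.invX q hq) y hy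
      have h2 := (Subgroup.mem_centralizer_iff.mp (Subgroup.mem_inf.mp hz).2) _ h1
      calc y * (q * z * q⁻¹) = q * ((q⁻¹ * y * q) * z) * q⁻¹ := by group
        _ = q * (z * (q⁻¹ * y * q)) * q⁻¹ := by rw [h2]
        _ = _ := by group
    have hMZ : M ≤ Z := by
      intro m hm
      refine Subgroup.mem_inf.mpr ⟨hMX hm, ?_⟩
      rw [Subgroup.mem_centralizer_iff]
      intro y hy
      exact hcentral m hm y hy
    have h3 := hMmax Z hZX hZne hZinv hMZ
    rw [← h3]
    refine Subgroup.mem_inf.mpr ⟨hx, ?_⟩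
    rw [Subgroup.mem_centralizer_iff]
    intro y hy
    exact (hc y hy).symm
  -- `M ≤ [X, X]`
  have hMD : M ≤ ⁅X, X⁆ := fun m hm =>
    mem_commutator_of_fixed hs.norm hs.odd hs.two hW (hMX hm) (fun q hq => hMfix q hq m hm)
  -- exponent two
  have hexp : ∀ m ∈ M, m ^ 2 = 1 := by
    let Ω : Subgroup G :=
      { carrier := {x | x ∈ M ∧ x ^ 2 = 1}
        one_mem' := ⟨one_mem M, one_pow 2⟩
        mul_mem' := by
          rintro a b ⟨ha, ha2⟩ ⟨hb, hb2⟩
          refine ⟨mul_mem ha hb, ?_⟩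
          have h1 : Commute a b := (hcentral b hb a (hMX ha))
          rw [h1.mul_pow, ha2, hb2, one_mul]
        inv_mem' := by
          rintro a ⟨ha, ha2⟩
          exact ⟨inv_mem ha, by rw [inv_pow, ha2, inv_one]⟩ }
    have hle : ⁅X, X⁆ ≤ Ω := by
      rw [Subgroup.commutator_le]
      intro x hx y hy
      have hc := hMcomm x hx y hy
      rw [commutatorElement_def]
      refine ⟨hc, ?_⟩
      set c := x * y * x⁻¹ * y⁻¹ with hcdef
      have h1 : x * y * x⁻¹ = c * y := by rw [hcdef]; group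
      have h2 : (x * y * x⁻¹) ^ 2 = y ^ 2 := by
        rw [conj_pow]
        have h3 := hcentral _ (hMsq y hy) x hx
        rw [h3]
        group
      have h3 : (c * y) ^ 2 = c ^ 2 * y ^ 2 := by
        have h4 : Commute c y := (hcentral c hc y hy).symm
        exact h4.mul_pow 2
      rw [h1, h3] at h2
      exact mul_eq_right.mp h2
    intro m hm
    exact (hle (hMD hm)).2
  have hMcard : Nat.card M ≤ 4 := by
    by_contra hlt
    push Not at hlt
    obtain ⟨n, hn⟩ := IsPGroup.iff_card.mp (hs.two.to_le hMX)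
    have h3 : 3 ≤ n := by
      by_contra hlt2
      have h3 : n ≤ 2 := by omega
      have h5 : 2 ^ n ≤ 2 ^ 2 := Nat.pow_le_pow_right (by norm_num) h3
      rw [hn] at hlt
      omega
    have h8 : 8 ≤ Nat.card M := by
      rw [hn]
      calc 8 = 2 ^ 3 := by norm_num
        _ ≤ 2 ^ n := Nat.pow_le_pow_right (by norm_num) h3
    have hMc : IsMulCommutative M := by
      refine ⟨⟨?_⟩⟩
      rintro ⟨a, ha⟩ ⟨b, hb⟩
      exact Subtype.ext (hcentral b hb a (hMX ha))
    refine not_noA_of_abelian hMc (hs.two.to_le hMX) ?_ h8 (hs.min M hMX hMne hMinv)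
    intro hc
    obtain ⟨g, hg⟩ := hc.exists_generator
    have hord : orderOf g = Nat.card M := orderOf_eq_card_of_forall_mem_zpowers hg
    have hg2 : g ^ 2 = 1 := Subtype.ext (by simpa using hexp g g.2)
    have := orderOf_le_of_pow_eq_one (by norm_num : 0 < 2) hg2
    omega
  have hsp := special_of hs.two hMX hMsq (fun z hz x hx => (hcentral z hz x hx).symm) hcen2 hMD
  obtain ⟨hsp1, hsp2⟩ := hsp
  have hM1 : Nat.card M ≠ 1 := by
    intro h1
    have hb := Subgroup.eq_bot_of_card_eq M h1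
    obtain ⟨a, ha, b, hb', hab'⟩ := hna
    have h2 := hMcomm a ha b hb'
    rw [hb, Subgroup.mem_bot] at h2
    apply hab'
    have h3 : a * b * a⁻¹ = b := mul_inv_eq_one.mp h2
    calc a * b = (a * b * a⁻¹) * a := by group
      _ = b * a := by rw [h3]
  obtain ⟨n, hn⟩ := IsPGroup.iff_card.mp (hs.two.to_le hMX)
  have hn2 : n = 1 ∨ n = 2 := by
    have h1 : n ≠ 0 := by
      rintro rfl
      exact hM1 (by rw [hn, pow_zero])
    have h2 : n ≤ 2 := by
      by_contra hlt
      have h3 : 2 ^ 3 ≤ 2 ^ n := Nat.pow_le_pow_right (by norm_num) (by omega)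
      rw [hn] at hMcard
      omega
    omega
  rcases hn2 with h1 | h1
  · left
    have hcard2 : Nat.card (center X) = 2 := by rw [hsp2, hn, h1, pow_one]
    have hext : Cfsg.IsExtraspecial 2 X := ⟨hsp1, hcard2⟩
    refine ⟨hext, ?_⟩
    obtain ⟨m, hm1, hmc, -⟩ := Cfsg.Agent.Lib.PGroup.ExtraClass.extraspecial_card hext
    -- `X` has order more than eight
    have h16 : 16 ≤ Nat.card X := by
      have hA := hs.hA
      unfold NoA at hA
      push Not at hA
      obtain ⟨A, hAX, hAc, hAnc, hA8⟩ := hA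
      have hne : A ≠ X := by
        intro heq
        subst heq
        obtain ⟨a, ha, b, hb, hab'⟩ := hna
        exact hab' (congrArg Subtype.val (hAc.is_comm.comm (⟨a, ha⟩ : A) ⟨b, hb⟩))
      have := two_mul_card_le_of_lt hAX hne
      omega
    rw [hmc] at h16 ⊢
    have hm2 : 2 ≤ m := by
      by_contra hlt
      have : m = 1 := by omega
      subst this
      norm_num at h16
    calc 32 = 2 ^ 5 := by norm_num
      _ ≤ 2 ^ (2 * m + 1) := Nat.pow_le_pow_right (by norm_num) (by omega)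
  · right
    exact ⟨hsp1, by rw [hsp2, hn, h1]; norm_num⟩

end CaseB

section CaseB2

variable {X Q : Subgroup G} (hs : Setup X Q)
include hs

/-- The four-group case. -/
theorem Setup.caseB_four {M : Subgroup G} (hMX : M ≤ X) (hMne : M ≠ X) (hMinv : InvQ Q M)
    (hMmax : ∀ Y : Subgroup G, Y ≤ X → Y ≠ X → InvQ Q Y → M ≤ Y → Y = M)
    {q : G} (hq : q ∈ Q) (hvq : VQ M q) (h4 : Nat.card M = 4) (hb : fixS M q = ⊥) :
    IsMulCommutative ↥X ∨ (Cfsg.IsSpecial 2 ↥X ∧ Nat.card ↥(Subgroup.center ↥X) = 4) := by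
  classical
  haveI : Fact (Nat.Prime 2) := ⟨Nat.prime_two⟩
  have hMsq : ∀ x ∈ X, x ^ 2 ∈ M := fun x hx => hs.sq_mem_of_max hMX hMne hMinv hMmax hx
  have hMcomm : ∀ x ∈ X, ∀ y ∈ X, x * y * x⁻¹ * y⁻¹ ∈ M := by
    intro x hx y hy
    rw [comm_eq_squares]
    exact mul_mem (mul_mem (hMsq _ (mul_mem hx hy))
      (hMsq _ (mul_mem (mul_mem (inv_mem hy) (inv_mem hx)) hy))) (hMsq _ (inv_mem hy))
  have hMnorm : ∀ n ∈ X, ∀ x ∈ M, n * x * n⁻¹ ∈ M := by
    intro n hn x hx
    have h1 : n * x * n⁻¹ = (n * x * n⁻¹ * x⁻¹) * x := by group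
    rw [h1]
    exact mul_mem (hMcomm n hn x (hMX hx)) hx
  have htriv := hvq.act_trivial (N := X) hs.two hMnorm (fun n hn => inv_conj_mem (hs.invX q hq) n hn)
  have hcentral : ∀ y ∈ M, ∀ x ∈ X, x * y = y * x := by
    intro y hy x hx
    have h1 := htriv x hx y hy
    rw [hb, Subgroup.mem_bot] at h1
    have h3 : x * y * x⁻¹ = y := mul_inv_eq_one.mp h1
    calc x * y = (x * y * x⁻¹) * x := by group
      _ = y * x := by rw [h3]
  by_cases hab : ∀ a ∈ X, ∀ b ∈ X, a * b = b * a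
  · left
    refine ⟨⟨?_⟩⟩
    rintro ⟨a, ha⟩ ⟨b, hb⟩
    exact Subtype.ext (hab a ha b hb)
  right
  have hna := hab
  push Not at hna
  have hcen2 : ∀ x ∈ X, (∀ y ∈ X, x * y = y * x) → x ∈ M := by
    intro x hx hc
    set Z : Subgroup G := X ⊓ centralizer (X : Set G) with hZ
    have hZX : Z ≤ X := inf_le_left
    have hZne : Z ≠ X := by
      intro heq
      obtain ⟨a, ha, b, hb, hab'⟩ := hna
      have : a ∈ Z := heq ▸ ha
      exact hab' ((Subgroup.mem_centralizer_iff.mp (Subgroup.mem_inf.mp this).2) b hb).symm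
    have hZinv : InvQ Q Z := by
      intro q hq z hz
      refine Subgroup.mem_inf.mpr ⟨hs.invX q hq z (hZX hz), ?_⟩
      rw [Subgroup.mem_centralizer_iff]
      intro y hy
      have h1 : q⁻¹ * y * q ∈ X := inv_conj_mem (hs.invX q hq) y hy
      have h2 := (Subgroup.mem_centralizer_iff.mp (Subgroup.mem_inf.mp hz).2) _ h1
      calc y * (q * z * q⁻¹) = q * ((q⁻¹ * y * q) * z) * q⁻¹ := by group
        _ = q * (z * (q⁻¹ * y * q)) * q⁻¹ := by rw [h2]
        _ = _ := by group
    have hMZ : M ≤ Z := by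
      intro m hm
      refine Subgroup.mem_inf.mpr ⟨hMX hm, ?_⟩
      rw [Subgroup.mem_centralizer_iff]
      intro y hy
      exact hcentral m hm y hy
    have h3 := hMmax Z hZX hZne hZinv hMZ
    rw [← h3]
    refine Subgroup.mem_inf.mpr ⟨hx, ?_⟩
    rw [Subgroup.mem_centralizer_iff]
    intro y hy
    exact (hc y hy).symm
  -- the commutator subgroup
  have hDM : ⁅X, X⁆ ≤ M := by
    rw [Subgroup.commutator_le]
    intro x hx y hy
    rw [commutatorElement_def]
    exact hMcomm x hx y hy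
  have hDinv : ∀ x ∈ ⁅X, X⁆, q * x * q⁻¹ ∈ ⁅X, X⁆ := by
    intro x hx
    have hle : ⁅X, X⁆ ≤ (⁅X, X⁆ : Subgroup G).comap (MulAut.conj q).toMonoidHom := by
      rw [Subgroup.commutator_le]
      intro a ha b hb
      rw [Subgroup.mem_comap]
      have h1 : (MulAut.conj q).toMonoidHom ⁅a, b⁆ = ⁅q * a * q⁻¹, q * b * q⁻¹⁆ := by
        simp only [commutatorElement_def]
        show q * (a * b * a⁻¹ * b⁻¹) * q⁻¹ = _
        group
      rw [h1]
      exact Subgroup.commutator_mem_commutator (hs.invX q hq a ha) (hs.invX q hq b hb)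
    exact hle hx
  have hDeq : ⁅X, X⁆ = M := by
    by_contra hne
    have hfix := hvq.act.min _ hDM hDinv hne
    obtain ⟨a, ha, b, hb', hab'⟩ := hna
    have h1 : a * b * a⁻¹ * b⁻¹ ∈ ⁅X, X⁆ := by
      have := Subgroup.commutator_mem_commutator ha hb'
      rwa [commutatorElement_def] at this
    have h2 : a * b * a⁻¹ * b⁻¹ ∈ fixS M q := mem_fixS.mpr ⟨hDM h1, hfix _ h1⟩
    rw [hb, Subgroup.mem_bot] at h2
    apply hab'
    have h3 : a * b * a⁻¹ = b := mul_inv_eq_one.mp h2
    calc a * b = (a * b * a⁻¹) * a := by group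
      _ = b * a := by rw [h3]
  obtain ⟨h1, h2⟩ := special_of hs.two hMX hMsq (fun z hz x hx => (hcentral z hz x hx).symm) hcen2
    hDeq.ge
  exact ⟨h1, by rw [h2, h4]⟩

/-- The quaternion case. -/
theorem Setup.caseB_quat (hW : ⁅X, Q⁆ = X) {M : Subgroup G} (hMX : M ≤ X) (hMne : M ≠ X)
    (hMinv : InvQ Q M)
    (hMmax : ∀ Y : Subgroup G, Y ≤ X → Y ≠ X → InvQ Q Y → M ≤ Y → Y = M)
    {q : G} (hq : q ∈ Q) (hvq : VQ M q) (h8 : Nat.card M = 8) :
    Cfsg.IsExtraspecial 2 ↥X ∧ 32 ≤ Nat.card ↥X := by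
  classical
  haveI : Fact (Nat.Prime 2) := ⟨Nat.prime_two⟩
  obtain ⟨hE2, hcenM, -⟩ := hvq.q8_data h8
  have hMsq : ∀ x ∈ X, x ^ 2 ∈ M := fun x hx => hs.sq_mem_of_max hMX hMne hMinv hMmax hx
  have hMcomm : ∀ x ∈ X, ∀ y ∈ X, x * y * x⁻¹ * y⁻¹ ∈ M := by
    intro x hx y hy
    rw [comm_eq_squares]
    exact mul_mem (mul_mem (hMsq _ (mul_mem hx hy))
      (hMsq _ (mul_mem (mul_mem (inv_mem hy) (inv_mem hx)) hy))) (hMsq _ (inv_mem hy))
  have hMnorm : ∀ n ∈ X, ∀ x ∈ M, n * x * n⁻¹ ∈ M := by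
    intro n hn x hx
    have h1 : n * x * n⁻¹ = (n * x * n⁻¹ * x⁻¹) * x := by group
    rw [h1]
    exact mul_mem (hMcomm n hn x (hMX hx)) hx
  have htriv := hvq.act_trivial (N := X) hs.two hMnorm (fun n hn => inv_conj_mem (hs.invX q hq) n hn)
  have hNX : ∀ x ∈ X, x ∈ normalizer (M : Set G) := by
    intro x hx
    rw [Subgroup.mem_normalizer_iff]
    intro y
    constructor
    · exact hMnorm x hx y
    · intro hy
      have := inv_conj_mem (hMnorm x hx) _ hy
      simpa [mul_assoc] using this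
  set C : Subgroup G := X ⊓ centralizer (M : Set G) with hC
  have hCX : C ≤ X := inf_le_left
  have hCcomm : ∀ c ∈ C, ∀ m ∈ M, c * m = m * c := fun c hc m hm =>
    ((Subgroup.mem_centralizer_iff.mp (Subgroup.mem_inf.mp hc).2) m hm).symm
  have hXdec : ∀ x ∈ X, ∃ u ∈ M, ∃ c ∈ C, x = u * c := by
    intro x hx
    obtain ⟨u, hu, huc⟩ := hvq.exists_inner h8 (hNX x hx) (htriv x hx)
    refine ⟨u, hu, u⁻¹ * x, Subgroup.mem_inf.mpr ⟨mul_mem (inv_mem (hMX hu)) hx, ?_⟩, by group⟩
    rw [Subgroup.mem_centralizer_iff]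
    intro m hm
    exact (huc m hm).symm
  have hCinv : InvQ Q C := by
    intro q₀ hq₀ c hc
    refine Subgroup.mem_inf.mpr ⟨hs.invX q₀ hq₀ c (hCX hc), ?_⟩
    rw [Subgroup.mem_centralizer_iff]
    intro m hm
    have h1 := hCcomm c hc _ (inv_conj_mem (hMinv q₀ hq₀) m hm)
    calc m * (q₀ * c * q₀⁻¹) = q₀ * ((q₀⁻¹ * m * q₀) * c) * q₀⁻¹ := by group
      _ = q₀ * (c * (q₀⁻¹ * m * q₀)) * q₀⁻¹ := by rw [h1]
      _ = _ := by group
  -- `M` is nonabelian
  have hMna : ∃ a ∈ M, ∃ b ∈ M, a * b ≠ b * a := by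
    by_contra hcon
    push Not at hcon
    apply hvq.act.ne_top_fix
    refine le_antisymm inf_le_left (fun x hx => (hcenM x).mpr ⟨hx, fun y hy => hcon x hx y hy⟩)
  have hCne : C ≠ X := by
    intro heq
    obtain ⟨a, ha, b, hb, hab⟩ := hMna
    have h1 : a ∈ C := heq ▸ hMX ha
    exact hab (hCcomm a h1 b hb)
  have hCnt : ∃ q' ∈ Q, ∃ c ∈ C, q' * c * q'⁻¹ ≠ c := by
    by_contra hcon
    push Not at hcon
    apply hMne
    refine le_antisymm hMX ?_
    rw [← hW]
    rw [hW]
    have hle : ⁅X, Q⁆ ≤ M := by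
      rw [Subgroup.commutator_le]
      intro x hx q₀ hq₀
      obtain ⟨u, hu, c, hc, rfl⟩ := hXdec x hx
      have h1 := hcon q₀ hq₀ c hc
      have h2 : ⁅u * c, q₀⁆ = u * (q₀ * u⁻¹ * q₀⁻¹) := by
        simp only [commutatorElement_def]
        have h3 : c * q₀ = q₀ * c := by
          calc c * q₀ = (q₀ * c * q₀⁻¹) * q₀ := by rw [h1]
            _ = q₀ * c := by group
        calc u * c * q₀ * (u * c)⁻¹ * q₀⁻¹ = u * (c * q₀) * c⁻¹ * u⁻¹ * q₀⁻¹ := by group
          _ = u * (q₀ * c) * c⁻¹ * u⁻¹ * q₀⁻¹ := by rw [h3]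
          _ = _ := by group
      rw [h2]
      exact mul_mem hu (hMinv q₀ hq₀ _ (inv_mem hu))
    rw [hW] at hle
    exact hle
  obtain ⟨q', hq', hvq'⟩ := hs.vq hCX hCne hCinv hCnt
  -- the central involution
  obtain ⟨z, hz1⟩ : ∃ z : fixS M q, z ≠ 1 := by
    haveI : Nontrivial (fixS M q) := (Finite.one_lt_card_iff_nontrivial (α := fixS M q)).mp (by omega)
    exact exists_ne 1
  obtain ⟨z, hzE⟩ := z
  have hz1' : z ≠ 1 := fun hc => hz1 (Subtype.ext hc)
  have hzM : z ∈ M := (mem_fixS.mp hzE).1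
  have hzC : z ∈ C := by
    refine Subgroup.mem_inf.mpr ⟨hMX hzM, ?_⟩
    rw [Subgroup.mem_centralizer_iff]
    intro m hm
    exact (((hcenM z).mp hzE).2 m hm).symm
  have hzfix : q' * z * q'⁻¹ = z := by
    have h1 := hvq.fix_conj_mem (hMinv q' hq') hzE
    refine hvq.fix_uniq h8 h1 hzE ?_ hz1'
    intro hc
    apply hz1'
    have := congrArg (fun w => q'⁻¹ * w * q') hc
    simpa [mul_assoc] using this
  have hzE' : z ∈ fixS C q' := mem_fixS.mpr ⟨hzC, hzfix⟩
  have h8' : Nat.card C = 8 := by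
    rcases hvq'.case with ⟨-, hb, -⟩ | ⟨h1, -⟩
    · rw [hb, Subgroup.mem_bot] at hzE'
      exact absurd hzE' hz1'
    · exact h1
  obtain ⟨hE2', hcenC, -⟩ := hvq'.q8_data h8'
  -- the elements of the two centres
  have hE'E : ∀ a ∈ fixS C q', a ∈ fixS M q := by
    intro a ha
    by_cases ha1 : a = 1
    · rw [ha1]; exact one_mem _
    · rw [hvq'.fix_uniq h8' ha hzE' ha1 hz1']
      exact hzE
  have hsq : ∀ x ∈ X, x ^ 2 ∈ fixS M q := by
    intro x hx
    obtain ⟨u, hu, c, hc, rfl⟩ := hXdec x hx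
    have h1 : Commute u c := (hCcomm c hc u hu).symm
    rw [h1.mul_pow]
    exact mul_mem (hvq.act.sq_mem hu) (hE'E _ (hvq'.act.sq_mem hc))
  have hcenX : ∀ e ∈ fixS M q, ∀ x ∈ X, e * x = x * e := by
    intro e he x hx
    obtain ⟨u, hu, c, hc, rfl⟩ := hXdec x hx
    have h1 := ((hcenM e).mp he)
    have heC : c * e = e * c := hCcomm c hc e h1.1
    calc e * (u * c) = (e * u) * c := by group
      _ = (u * e) * c := by rw [h1.2 u hu]
      _ = u * (e * c) := by group
      _ = u * (c * e) := by rw [heC]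
      _ = _ := by group
  have hcen2 : ∀ x ∈ X, (∀ y ∈ X, x * y = y * x) → x ∈ fixS M q := by
    intro x hx hc₀
    obtain ⟨u, hu, c, hc, rfl⟩ := hXdec x hx
    have huE : u ∈ fixS M q := by
      refine (hcenM u).mpr ⟨hu, fun m hm => ?_⟩
      have h1 := hc₀ m (hMX hm)
      have h2 := hCcomm c hc m hm
      have h3 : u * c * m = u * m * c := by rw [mul_assoc, h2]; group
      have h4 : m * (u * c) = m * u * c := by group
      rw [h3, h4] at h1
      exact mul_right_cancel h1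
    have hcE : c ∈ fixS C q' := by
      refine (hcenC c).mpr ⟨hc, fun c' hc' => ?_⟩
      have h1 := hc₀ c' (hCX hc')
      have h2 := hCcomm c' hc' u hu
      have h3 : c' * (u * c) = u * (c' * c) := by
        rw [← mul_assoc, h2]; group
      rw [h3, mul_assoc] at h1
      exact mul_left_cancel h1
    exact mul_mem huE (hE'E c hcE)
  have hcomm : fixS M q ≤ ⁅X, X⁆ := by
    intro e he
    by_cases he1 : e = 1
    · rw [he1]; exact one_mem _
    obtain ⟨a, ha, b, hb, hab⟩ := hMna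
    have h1 := hvq.act.comm_mem ha hb
    have h2 : a * b * a⁻¹ * b⁻¹ ≠ 1 := by
      intro hc
      apply hab
      have h3 : a * b * a⁻¹ = b := mul_inv_eq_one.mp hc
      calc a * b = (a * b * a⁻¹) * a := by group
        _ = b * a := by rw [h3]
    have h3 := hvq.fix_uniq h8 he h1 he1 h2
    rw [h3]
    have := Subgroup.commutator_mem_commutator (hMX ha) (hMX hb)
    rwa [commutatorElement_def] at this
  have hEX : fixS M q ≤ X := fun e he => hMX (mem_fixS.mp he).1
  obtain ⟨h1, h2⟩ := special_of hs.two hEX hsq hcenX hcen2 hcomm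
  have hext : Cfsg.IsExtraspecial 2 X := ⟨h1, by rw [h2, hE2]⟩
  refine ⟨hext, ?_⟩
  obtain ⟨m, hm1, hmc, -⟩ := Cfsg.Agent.Lib.PGroup.ExtraClass.extraspecial_card hext
  have h16 : 16 ≤ Nat.card X := by
    have := two_mul_card_le_of_lt hMX hMne
    omega
  rw [hmc] at h16 ⊢
  have hm2 : 2 ≤ m := by
    by_contra hlt
    have : m = 1 := by omega
    subst this
    norm_num at h16
  calc 32 = 2 ^ 5 := by norm_num
    _ ≤ 2 ^ (2 * m + 1) := Nat.pow_le_pow_right (by norm_num) (by omega)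

/-- Second main case. -/
theorem Setup.caseB (hW : ⁅X, Q⁆ = X) :
    IsMulCommutative ↥X ∨ (Cfsg.IsExtraspecial 2 ↥X ∧ 32 ≤ Nat.card ↥X) ∨
        (Cfsg.IsSpecial 2 ↥X ∧ Nat.card ↥(Subgroup.center ↥X) = 4) := by
  classical
  let S' : Set (Subgroup G) := {Y | Y ≤ X ∧ Y ≠ X ∧ InvQ Q Y}
  have hXne : (⊥ : Subgroup G) ≠ X := by
    intro heq
    apply hs.hA
    rw [← heq]
    intro A hA _ hnc
    have : A = ⊥ := le_bot_iff.mp hA
    subst this
    intro hc
    simp at hc
  have hS' : S'.Nonempty := ⟨⊥, bot_le, hXne, by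
    intro q _ y hy
    rw [Subgroup.mem_bot] at hy ⊢
    rw [hy]; simp⟩
  obtain ⟨M, hM⟩ := (Set.toFinite S').exists_maximal hS'
  obtain ⟨hMX, hMne, hMinv⟩ := hM.prop
  have hMmax : ∀ Y : Subgroup G, Y ≤ X → Y ≠ X → InvQ Q Y → M ≤ Y → Y = M :=
    fun Y h1 h2 h3 h4 => le_antisymm (hM.le_of_ge ⟨h1, h2, h3⟩ h4) h4
  by_cases hMQ : ∃ q ∈ Q, ∃ m ∈ M, q * m * q⁻¹ ≠ m
  · obtain ⟨q, hq, hvq⟩ := hs.vq hMX hMne hMinv hMQ
    rcases hvq.case with ⟨h4, hb, -⟩ | ⟨h8, -⟩
    · rcases hs.caseB_four hMX hMne hMinv hMmax hq hvq h4 hb with h | h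
      · exact Or.inl h
      · exact Or.inr (Or.inr h)
    · exact Or.inr (Or.inl (hs.caseB_quat hW hMX hMne hMinv hMmax hq hvq h8))
  · push Not at hMQ
    exact hs.caseB_triv hW hMX hMne hMinv hMmax hMQ

end CaseB2

/-- The first part: no forbidden subgroup can exist when `O₂(G)` is small and not Sylow. -/
theorem contra_of_vq {T : Subgroup G} [hTn : T.Normal] {q : G} (hvq : VQ T q)
    (hcen : centralizer (T : Set G) ≤ T) {A : Subgroup G} (hAc : IsMulCommutative A)
    (hAnc : ¬ IsCyclic A) (hA8 : Nat.card A = 8) : False := by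
  classical
  haveI : Fact (Nat.Prime 2) := ⟨Nat.prime_two⟩
  open Cfsg.Agent.Lib.PGroup.LocalIndex in
  have hT6 : T.index ∣ 6 := by
    have hNtop : normalizer (T : Set G) = ⊤ := Subgroup.normalizer_eq_top_iff.mpr hTn
    rcases hvq.case with ⟨h4, -, hsq⟩ | ⟨-, -, -, ⟨e⟩⟩
    · haveI : IsKleinFour T := isKleinFour_of_sq h4 (fun t => Subtype.ext (by simpa using hsq t t.2))
      have h1 : (centralizer (T : Set G)).relIndex (normalizer (T : Set G)) ∣ 6 := by
        rw [relIndex_centralizer_eq]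
        exact (Subgroup.card_subgroup_dvd_card _).trans (card_mulAut_dvd_six T)
      rw [hNtop, Subgroup.relIndex_top_right] at h1
      exact (Subgroup.index_dvd_of_le hcen).trans h1
    · haveI := isKleinFour_quot e
      have h1 : (T ⊔ centralizer (T : Set G)).relIndex (normalizer (T : Set G)) ∣ 6 := by
        rw [relIndex_sup_eq_card_range T e]
        exact (Subgroup.card_subgroup_dvd_card _).trans (card_mulAut_dvd_six _)
      rw [hNtop, Subgroup.relIndex_top_right, sup_eq_left.mpr hcen] at h1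
      exact h1
  have hAT : T.relIndex A ∣ 2 := by
    have h1 : T.relIndex A ∣ 6 := (Subgroup.relIndex_dvd_index_of_normal T A).trans hT6
    have h2 : T.relIndex A ∣ 8 := by
      rw [← hA8]
      exact Subgroup.index_dvd_card _
    have h3 := Nat.dvd_gcd h1 h2
    simpa using h3
  have hB4 : 4 ≤ Nat.card (T.subgroupOf A) := by
    have h1 := Subgroup.card_mul_index (T.subgroupOf A)
    have h2 : (T.subgroupOf A).index ≤ 2 := Nat.le_of_dvd (by norm_num) hAT
    rw [hA8] at h1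
    have h3 : T.relIndex A = (T.subgroupOf A).index := rfl
    nlinarith
  set B : Subgroup G := (T.subgroupOf A).map A.subtype with hB
  have hBA : B ≤ A := Subgroup.map_subtype_le _
  have hBT : B ≤ T := by
    rintro _ ⟨x, hx, rfl⟩
    exact Subgroup.mem_subgroupOf.mp hx
  have hBcard : 4 ≤ Nat.card B := by
    rw [hB, Subgroup.card_map_of_injective Subtype.val_injective]
    exact hB4
  have hAcomm : ∀ a ∈ A, ∀ b ∈ A, a * b = b * a := fun a ha b hb =>
    congrArg Subtype.val (hAc.is_comm.comm (⟨a, ha⟩ : A) ⟨b, hb⟩)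
  rcases hvq.case with ⟨h4, -, hsq⟩ | ⟨h8, hE2, hcenT, ⟨e⟩⟩
  · have hBeq : B = T := Subgroup.eq_of_le_of_card_ge hBT (by omega)
    have hAle : A ≤ T := by
      intro a ha
      apply hcen
      rw [Subgroup.mem_centralizer_iff]
      intro t ht
      exact hAcomm t (hBA (hBeq ▸ ht)) a ha
    have := Subgroup.card_le_of_le hAle
    omega
  · -- an element `i` of order four in `A ∩ T`
    have hact := hvq.act
    obtain ⟨i, hiB, hiE⟩ : ∃ i ∈ B, i ∉ fixS T q := by
      by_contra hcon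
      push Not at hcon
      have := Subgroup.card_le_of_le (show B ≤ fixS T q from hcon)
      omega
    have hiT := hBT hiB
    have hiA := hBA hiB
    have hi2 : i ^ 2 ≠ 1 := fun hc => hiE (hvq.mem_fix_of_sq_eq_one h8 hiT hc)
    have hi2E : i ^ 2 ∈ fixS T q := hact.sq_mem hiT
    have hi4 : i ^ 4 = 1 := by
      have := hvq.fix_sq hi2E
      rwa [← pow_mul] at this
    have hiord : orderOf i = 4 := by
      have : orderOf i = 2 ^ 2 := orderOf_eq_prime_pow (p := 2) (n := 1)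
        (by simpa using hi2) (by simpa using hi4)
      rw [this]; norm_num
    -- the second involution
    letI : CommGroup A := { (inferInstance : Group A) with mul_comm := hAc.is_comm.comm }
    obtain ⟨p, hp, E, hE, hEp⟩ := Cfsg.Agent.Lib.Frobenius.Norm.exists_elementary_of_not_isCyclic hAnc
    have hp2 : p = 2 := by
      have h1 : p ∣ Nat.card A := by
        rw [← Subgroup.card_mul_index E, hE]
        exact Dvd.dvd.mul_right (dvd_pow_self p (by norm_num)) _
      rw [hA8] at h1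
      have h2 : p ∣ 2 ^ 3 := by simpa using h1
      exact (Nat.prime_dvd_prime_iff_eq hp Nat.prime_two).mp (hp.dvd_of_dvd_pow h2)
    subst hp2
    have hEex : ∃ w ∈ E, (w : G) ≠ 1 ∧ (w : G) ≠ i ^ 2 := by
      by_contra hcon
      push Not at hcon
      have hsub : (E : Set A) ⊆ ({1, ⟨i ^ 2, pow_mem hiA 2⟩} : Set A) := by
        intro w hw
        by_cases hw1 : (w : G) = 1
        · left
          exact Subtype.ext hw1
        · right
          exact Subtype.ext (hcon w hw hw1)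
      have h1 : Nat.card E ≤ 2 := by
        have h2 : Nat.card (E : Set A) ≤ Nat.card (({1, ⟨i ^ 2, pow_mem hiA 2⟩} : Set A) : Set A) :=
          Nat.card_mono (Set.toFinite _) hsub
        have h3 : Nat.card (({1, ⟨i ^ 2, pow_mem hiA 2⟩} : Set A) : Set A) ≤ 2 := by
          rw [Nat.card_coe_set_eq]
          exact Set.ncard_insert_le _ _ |>.trans (by simp)
        exact h2.trans h3
      rw [hE] at h1
      omega
    obtain ⟨w', hw'E, hw1, hw2⟩ := hEex
    set w : G := (w' : G) with hw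
    have hwA : w ∈ A := w'.2
    have hwsq : w ^ 2 = 1 := congrArg Subtype.val (hEp w' hw'E)
    have hwT : w ∉ T := by
      intro hc
      have h1 := hvq.mem_fix_of_sq_eq_one h8 hc hwsq
      exact hw2 (hvq.fix_uniq h8 h1 hi2E hw1 hi2)
    have hwi : w * i = i * w := hAcomm w hwA i hiA
    have hwz : ∀ a ∈ zpowers i, w * a = a * w := by
      rintro _ ⟨k, rfl⟩
      have h1 : Commute w i := hwi
      exact h1.zpow_right k
    -- index two
    have hI : zpowers i ≤ T := (Subgroup.zpowers_le).mpr hiT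
    have hidx : ((zpowers i).subgroupOf T).index = 2 := by
      have h1 := Subgroup.card_mul_index ((zpowers i).subgroupOf T)
      have h2 : Nat.card ((zpowers i).subgroupOf T) = Nat.card (zpowers i) :=
        Nat.card_congr (Subgroup.subgroupOfEquivOfLe hI).toEquiv
      rw [h2, Nat.card_zpowers, hiord, h8] at h1
      omega
    have htriv : ∀ x ∈ T, w * x * w⁻¹ * x⁻¹ ∈ fixS T q := by
      intro x hx
      by_cases hxI : x ∈ zpowers i
      · have h1 := hwz x hxI
        have h2 : w * x * w⁻¹ * x⁻¹ = 1 := by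
          rw [h1]; group
        rw [h2]
        exact one_mem _
      · have hyT : w * x * w⁻¹ ∈ T := by
          have := hTn.conj_mem x hx w
          exact this
        have hyI : w * x * w⁻¹ ∉ zpowers i := by
          intro hc
          apply hxI
          have h1 := hwz _ hc
          have h2 : x = w⁻¹ * (w * x * w⁻¹) * w := by group
          rw [h2]
          have h3 : w⁻¹ * (w * x * w⁻¹) * w = w * x * w⁻¹ := by
            calc w⁻¹ * (w * x * w⁻¹) * w = w⁻¹ * ((w * x * w⁻¹) * w) := by group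
              _ = w⁻¹ * (w * (w * x * w⁻¹)) := by rw [h1]
              _ = _ := by group
          rw [h3]
          exact hc
        have hr : (⟨w * x * w⁻¹, hyT⟩ : T) * (⟨x, hx⟩ : T)⁻¹ ∈ (zpowers i).subgroupOf T := by
          rw [Subgroup.mul_mem_iff_of_index_two hidx]
          constructor
          · intro h1
            exact absurd (Subgroup.mem_subgroupOf.mp h1) hyI
          · intro h1
            have h2 := Subgroup.mem_subgroupOf.mp h1
            exact absurd (by simpa using inv_mem h2) hxI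
        rw [Subgroup.mem_subgroupOf] at hr
        set r := w * x * w⁻¹ * x⁻¹ with hrdef
        have hr' : r ∈ zpowers i := by simpa [hrdef] using hr
        have hrT : r ∈ T := hI hr'
        have hrw := hwz r hr'
        have h1 : w * x * w⁻¹ = r * x := by rw [hrdef]; group
        have hww : w * w = 1 := by rwa [pow_two] at hwsq
        have hwinv : w⁻¹ = w := inv_eq_of_mul_eq_one_left hww
        have h2 : r * r * x = x := by
          have h3 : w * (w * x * w⁻¹) * w⁻¹ = x := by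
            rw [hwinv]
            calc w * (w * x * w) * w = (w * w) * x * (w * w) := by group
              _ = x := by rw [hww]; group
          rw [h1] at h3
          have h4 : w * (r * x) * w⁻¹ = r * (w * x * w⁻¹) := by
            calc w * (r * x) * w⁻¹ = (w * r) * x * w⁻¹ := by group
              _ = (r * w) * x * w⁻¹ := by rw [hrw]
              _ = _ := by group
          rw [h4, h1] at h3
          rw [← mul_assoc] at h3
          exact h3
        have h3 : r ^ 2 = 1 := by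
          rw [pow_two]
          exact mul_eq_right.mp h2
        exact hvq.mem_fix_of_sq_eq_one h8 hrT h3
    have hwN : w ∈ normalizer (T : Set G) := by
      rw [Subgroup.normalizer_eq_top_iff.mpr hTn]
      trivial
    obtain ⟨u, hu, huc⟩ := hvq.exists_inner h8 hwN htriv
    have h1 : (u : G)⁻¹ * w ∈ centralizer (T : Set G) := by
      rw [Subgroup.mem_centralizer_iff]
      intro y hy
      exact (huc y hy).symm
    apply hwT
    have h2 : w = u * ((u : G)⁻¹ * w) := by group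
    rw [h2]
    exact mul_mem hu (hcen h1)

/-- The conclusion, for a subgroup. -/
def Concl {S : Type*} [Group S] (X : Subgroup S) : Prop :=
    X.Normal ∧
      (IsMulCommutative ↥X ∨
        (Cfsg.IsExtraspecial 2 ↥X ∧ 32 ≤ Nat.card ↥X) ∨
        (∃ (X₀ : Subgroup S) (k : ℕ), X₀ ≤ X ∧ X₀.relIndex X = 2 ∧
          Nonempty (↥X₀ ≃* QuaternionGroup (2 ^ (k + 1))) ∧ X₀ ⊔ (X ⊓ Subgroup.centralizer (X₀ : Set S)) = X) ∨
        (Cfsg.IsSpecial 2 ↥X ∧ Nat.card ↥(Subgroup.center ↥X) = 4))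

/-- **Statement.** -/
theorem result {S : Type*} [Group S] [Finite S]
    [Group.IsSolvable S] (hO : Cfsg.pPrimeCore 2 S = ⊥)
    (h8 : ∃ A : Subgroup S, IsMulCommutative ↥A ∧ ¬ IsCyclic ↥A ∧ Nat.card ↥A = 8)
    (hmin : ∀ R : Subgroup S, R ≠ ⊤ → (∃ k : ℕ, R.index = 2 ^ k) →
      ¬ ∃ A : Subgroup S, A ≤ R ∧ IsMulCommutative ↥A ∧ ¬ IsCyclic ↥A ∧ Nat.card ↥A = 8)
    (X : Sylow 2 S) :
    (X : Subgroup S).Normal ∧
      (IsMulCommutative ↥X ∨
        (Cfsg.IsExtraspecial 2 ↥X ∧ 32 ≤ Nat.card ↥X) ∨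
        (∃ (X₀ : Subgroup S) (k : ℕ), X₀ ≤ (X : Subgroup S) ∧ X₀.relIndex (X : Subgroup S) = 2 ∧
          Nonempty (↥X₀ ≃* QuaternionGroup (2 ^ (k + 1))) ∧ X₀ ⊔ ((X : Subgroup S) ⊓ Subgroup.centralizer (X₀ : Set S)) = (X : Subgroup S)) ∨
        (Cfsg.IsSpecial 2 ↥X ∧ Nat.card ↥(Subgroup.center ↥X) = 4)) := by
  classical
  haveI : Fact (Nat.Prime 2) := ⟨Nat.prime_two⟩
  show Concl (X : Subgroup S)
  obtain ⟨A₀, hA₀c, hA₀nc, hA₀8⟩ := h8
  have hsolv : Cfsg.IsPSolvable 2 S := Cfsg.Agent.Lib.Solvable.PSeries.isPSolvable_of_solvable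
  obtain ⟨Q, hQodd, m, hQidx⟩ := Cfsg.Agent.Lib.Coprime.PSolvable.exists_hall Nat.prime_two hsolv
  set T : Subgroup S := Cfsg.pCore 2 S with hT
  haveI hTn : T.Normal := Cfsg.Agent.Lib.Basic.PCore.pCore_normal 2 S
  have hT2 : IsPGroup 2 T := Cfsg.Agent.Lib.Basic.PCore.pCore_isPGroup 2
  have hcen : Subgroup.centralizer (T : Set S) ≤ T :=
    Cfsg.Agent.Lib.Solvable.PSeries.centralizer_pCore_le hsolv hO
  have hA₀2 : IsPGroup 2 A₀ := IsPGroup.of_card (n := 3) (by rw [hA₀8]; norm_num)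
  by_cases hQ : Q = ⊥
  · -- `S` is a `2`-group
    subst hQ
    have hcard : Nat.card S = 2 ^ m := by
      rw [← hQidx, Subgroup.index_bot]
    have hS2 : IsPGroup 2 S := IsPGroup.of_card hcard
    have hXtop : (X : Subgroup S) = ⊤ := (X.3 (hS2.to_subgroup ⊤) le_top).symm
    have hA₀top : A₀ = ⊤ := by
      by_contra hne
      refine hmin A₀ hne ?_ ⟨A₀, le_rfl, hA₀c, hA₀nc, hA₀8⟩
      have h1 : A₀.index ∣ 2 ^ m := by
        rw [← hcard]
        exact Subgroup.index_dvd_card A₀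
      obtain ⟨k, -, hk⟩ := (Nat.dvd_prime_pow Nat.prime_two).mp h1
      exact ⟨k, hk⟩
    rw [hXtop]
    refine ⟨inferInstance, Or.inl ?_⟩
    rw [← hA₀top]
    exact hA₀c
  · -- the main case
    have hcop : (Nat.card Q).Coprime (Nat.card T) := by
      obtain ⟨n, hn⟩ := IsPGroup.iff_card.mp hT2
      rw [hn]
      exact Nat.Coprime.pow_right _ ((Nat.Prime.coprime_iff_not_dvd Nat.prime_two).mpr hQodd).symm
    have hbot : Q ⊓ T = ⊥ := Cfsg.Agent.Lib.Coprime.Coset.inf_eq_bot_of_coprime hcop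
    by_cases hR₀ : T ⊔ Q = ⊤
    · -- `T` is the Sylow subgroup
      have hNQ : Q ≤ Subgroup.normalizer (T : Set S) := by
        rw [Subgroup.normalizer_eq_top_iff.mpr hTn]
        exact le_top
      have hSylT : ∀ P : Sylow 2 S, (P : Subgroup S) = T := by
        intro P
        have hTP : T ≤ P := Cfsg.Agent.Lib.Basic.PCore.pCore_le_sylow P
        refine le_antisymm (fun x hx => ?_) hTP
        have hx' : x ∈ T ⊔ Q := by rw [hR₀]; trivial
        obtain ⟨t, ht, a, ha, rfl⟩ :=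
          (Cfsg.Agent.Lib.Coprime.Coset.mem_sup_iff_of_le_normalizer hNQ x).mp hx'
        have haP : a ∈ (P : Subgroup S) := by
          have : a = t⁻¹ * (t * a) := by group
          rw [this]
          exact mul_mem (inv_mem (hTP ht)) hx
        have h2 : (Nat.card Q).Coprime (Nat.card P) := by
          obtain ⟨n, hn⟩ := IsPGroup.iff_card.mp P.2
          rw [hn]
          exact Nat.Coprime.pow_right _ ((Nat.Prime.coprime_iff_not_dvd Nat.prime_two).mpr hQodd).symm
        have h3 : Q ⊓ (P : Subgroup S) = ⊥ := Cfsg.Agent.Lib.Coprime.Coset.inf_eq_bot_of_coprime h2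
        have h4 : a ∈ Q ⊓ (P : Subgroup S) := ⟨ha, haP⟩
        rw [h3, Subgroup.mem_bot] at h4
        rw [h4, mul_one]
        exact ht
      have hXT := hSylT X
      have hAT : A₀ ≤ T := by
        obtain ⟨P, hP⟩ := hA₀2.exists_le_sylow
        rw [← hSylT P]
        exact hP
      have hsetup : Setup T Q := by
        refine ⟨hT2, hNQ, hQodd, hcen, hQ, ?_, fun hno => hno A₀ hAT hA₀c hA₀nc hA₀8⟩
        intro Y hYT hYne hYinv A hAY hAc hAnc hA8
        have hNY : Q ≤ Subgroup.normalizer (Y : Set S) := by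
          intro q hq
          rw [Subgroup.mem_normalizer_iff]
          intro y
          constructor
          · exact hYinv q hq y
          · intro hy
            have := inv_conj_mem (hYinv q hq) _ hy
            simpa [mul_assoc] using this
        refine hmin (Y ⊔ Q) ?_ ?_ ⟨A, hAY.trans le_sup_left, hAc, hAnc, hA8⟩
        · intro htop
          apply hYne
          refine le_antisymm hYT (fun t ht => ?_)
          have ht' : t ∈ Y ⊔ Q := by rw [htop]; trivial
          obtain ⟨y, hy, a, ha, rfl⟩ :=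
            (Cfsg.Agent.Lib.Coprime.Coset.mem_sup_iff_of_le_normalizer hNY t).mp ht'
          have haT : a ∈ T := by
            have : a = y⁻¹ * (y * a) := by group
            rw [this]
            exact mul_mem (inv_mem (hYT hy)) ht
          have h4 : a ∈ Q ⊓ T := ⟨ha, haT⟩
          rw [hbot, Subgroup.mem_bot] at h4
          rw [h4, mul_one]
          exact hy
        · have h1 : (Y ⊔ Q).index ∣ 2 ^ m := by
            rw [← hQidx]
            exact Subgroup.index_dvd_of_le le_sup_right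
          obtain ⟨k, -, hk⟩ := (Nat.dvd_prime_pow Nat.prime_two).mp h1
          exact ⟨k, hk⟩
      rw [hXT]
      refine ⟨hTn, ?_⟩
      by_cases hW : ⁅T, Q⁆ = T
      · rcases hsetup.caseB hW with h | h | h
        · exact Or.inl h
        · exact Or.inr (Or.inl h)
        · exact Or.inr (Or.inr (Or.inr h))
      · rcases hsetup.caseA hW with h | h
        · exact Or.inl h
        · exact Or.inr (Or.inr (Or.inl h))
    · -- contradiction
      exfalso
      have hnoA : NoA T := by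
        intro A hAT hAc hAnc hA8
        refine hmin (T ⊔ Q) hR₀ ?_ ⟨A, hAT.trans le_sup_left, hAc, hAnc, hA8⟩
        have h1 : (T ⊔ Q).index ∣ 2 ^ m := by
          rw [← hQidx]
          exact Subgroup.index_dvd_of_le le_sup_right
        obtain ⟨k, -, hk⟩ := (Nat.dvd_prime_pow Nat.prime_two).mp h1
        exact ⟨k, hk⟩
      obtain ⟨q, hq, hq1⟩ := (Subgroup.bot_or_exists_ne_one Q).resolve_left hQ
      have hqodd : Odd (orderOf q) := by
        have h1 : orderOf q ∣ Nat.card Q := Subgroup.orderOf_dvd_natCard Q hq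
        rw [← Nat.not_even_iff_odd, even_iff_two_dvd]
        exact fun h2 => hQodd (h2.trans h1)
      have hnt : ∃ x ∈ T, q * x * q⁻¹ ≠ x := by
        by_contra hcon
        push Not at hcon
        apply hq1
        have h1 : q ∈ Subgroup.centralizer (T : Set S) := by
          rw [Subgroup.mem_centralizer_iff]
          intro x hx
          have h2 := hcon x hx
          calc x * q = (q * x * q⁻¹) * q := by rw [h2]
            _ = q * x := by group
        have h2 : q ∈ Q ⊓ T := ⟨hq, hcen h1⟩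
        rwa [hbot, Subgroup.mem_bot] at h2
      have hvq : VQ T q := vq_of_noA hT2 hqodd (fun x hx => hTn.conj_mem x hx q) hnt hnoA
      exact contra_of_vq hvq hcen hA₀c hA₀nc hA₀8

end Cfsg.Agent.S4409
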