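import Cfsg.Statements.S4410
import Mathlib
import Cfsg.Agent.Lib.Gross.Active
-- import your own Cfsg.Agent.* helpers here

set_option autoImplicit false
open Cfsg

namespace Cfsg.Agent.S4410

open scoped TensorProduct

theorem zmod2_eq_one : ∀ d : ZMod 2, d ≠ 0 → d = 1 := by decide

/-- A commuting operator fixing the image of `τ - 1` at an eigenvector of eigenvalue `≠ 1`. -/
theorem fixed_of_eigen {K W : Type*} [Field K] [AddCommGroup W] [Module K W] (τ γ : Module.End K W)
    (hcomm : γ * τ = τ * γ) (w : W) (l : K) (hl : l ≠ 1) (hw : γ w = l • w)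
    (hfix : γ ((τ - 1) w) = (τ - 1) w) : τ w = w := by
  have h3 : γ (τ w) = τ (γ w) := by
    rw [← Module.End.mul_apply, hcomm, Module.End.mul_apply]
  have h2 : γ ((τ - 1) w) = l • ((τ - 1) w) := by
    rw [LinearMap.sub_apply, map_sub, h3, Module.End.one_apply, hw, map_smul, smul_sub]
  have hmain : (l - 1) • ((τ - 1) w) = 0 := by
    rw [sub_smul, one_smul, ← h2, hfix, sub_self]
  rcases smul_eq_zero.mp hmain with h | h
  · exact absurd (sub_eq_zero.mp h) hl
  · exact sub_eq_zero.mp h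

/-- Let V be a finite-dimensional vector space over the field with two elements and S a solvable group of linear automorphisms of V with O₂(S) = 1. If P ∈ S has order 4 and (P − 1)³ = 0 on V, then the image of (P − 1)² has at least 4 elements; equivalently, in the decomposition of V into indecomposable modules for the cyclic group generated by P, at least two summands have dimension 3. -/
theorem result
    {V : Type*} [AddCommGroup V] [Module (ZMod 2) V] [Finite V]
    (S : Subgroup (V ≃ₗ[ZMod 2] V)) (hS : Group.IsSolvable ↥S) (hO2 : Cfsg.pCore 2 ↥S = ⊥)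
    (P : V ≃ₗ[ZMod 2] V) (hPS : P ∈ S) (hP4 : orderOf P = 4)
    (hcub : ((P : V →ₗ[ZMod 2] V) - LinearMap.id) ^ 3 = 0) :
    4 ≤ Nat.card ↥(LinearMap.range (((P : V →ₗ[ZMod 2] V) - LinearMap.id) ^ 2)) := by
  classical
  haveI : Fact (Nat.Prime 2) := ⟨Nat.prime_two⟩
  haveI : Module.Finite (ZMod 2) V := Module.Finite.of_finite
  haveI : Finite (V ≃ₗ[ZMod 2] V) := Finite.of_injective (fun e => (e : V → V)) (fun e f h => by
    ext v; exact congrFun h v)
  by_contra hlt
  push Not at hlt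
  -- the representation
  let π₀ : ↥S →* Module.End (ZMod 2) V := LinearEquiv.automorphismGroup.toLinearMapMonoidHom.comp S.subtype
  have hπ₀ : Function.Injective π₀ := by
    intro g h hgh
    apply Subtype.ext
    ext v
    exact LinearMap.congr_fun hgh v
  let K := AlgebraicClosure (ZMod 2)
  let W := TensorProduct (ZMod 2) K V
  let ρ' : ↥S →* Module.End K W := ((Module.End.baseChangeHom (ZMod 2) K V).toMonoidHom).comp π₀
  have hρ' : Function.Injective ρ' := by
    intro g h hgh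
    apply hπ₀
    exact LinearMap.baseChangeHom_injective (ZMod 2) V K hgh
  let a : ↥S := ⟨P, hPS⟩
  have hord : orderOf a = 2 ^ 2 := by
    rw [Subgroup.orderOf_mk, hP4]
    norm_num
  let A : Module.End (ZMod 2) V := (P : V →ₗ[ZMod 2] V)
  have hA : π₀ a = A := rfl
  have htwo : ∀ v : V, v + v = 0 := fun v => by
    have h := two_smul (ZMod 2) v
    rw [← h, show (2 : ZMod 2) = 0 from rfl, zero_smul]
  -- the sum of the powers
  have hsum : ∑ i ∈ Finset.range (2 ^ 2), A ^ i = 0 := by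
    rw [← Cfsg.Agent.Lib.HallHigman.Block.sub_one_pow_eq_sum (p := 2) A 2]
    exact hcub
  have hs : ∀ v, ∑ i ∈ Finset.range (2 ^ 2), ρ' (a ^ i) v = 0 := by
    intro v
    have h2 : ∑ i ∈ Finset.range (2 ^ 2), ρ' (a ^ i) = 0 := by
      have e1 : ∀ i, ρ' (a ^ i) = Module.End.baseChangeHom (ZMod 2) K V (A ^ i) := by
        intro i
        have h0 : ρ' (a ^ i) = Module.End.baseChangeHom (ZMod 2) K V (π₀ (a ^ i)) := rfl
        rw [h0, map_pow π₀, hA]
      simp only [e1]
      rw [← map_sum, hsum, map_zero]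
    have h3 := LinearMap.congr_fun h2 v
    simpa [LinearMap.sum_apply] using h3
  -- the involution
  let t : ↥S := a ^ 2 ^ (2 - 1)
  have hta : t = a ^ 2 := by
    show a ^ 2 ^ (2 - 1) = a ^ 2
    norm_num
  have htord : orderOf t = 2 := by
    rw [hta, orderOf_pow_of_dvd (by norm_num) (by rw [hord]; norm_num), hord]
    norm_num
  obtain ⟨q, hq, hq2, x, hx, hxne⟩ :=
    Cfsg.Agent.Lib.Gross.Active.exists_core_moved hS hO2 htord
  haveI : Fact q.Prime := ⟨hq⟩
  have hqK : (q : K) ≠ 0 := by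
    have h2K : ((2 : ℕ) : K) = 0 := CharP.cast_eq_zero K 2
    exact Cfsg.Agent.Lib.Gross.LemmaZ.cast_ne_zero_of_ne Nat.prime_two hq hq2 h2K
  obtain ⟨C, hCn, hCq, hCab, lam, w, hw, hwne, c, hc, hlamc⟩ :=
    Cfsg.Agent.Lib.Gross.Active.exists_active (K := K) (V := W) hS ρ' hρ' hq2 hqK (a := a) (m := 2)
      (by norm_num) hord hs ⟨x, hx, hxne⟩
  have hCK : (Nat.card C : K) ≠ 0 := Cfsg.Agent.Lib.Gross.TheoremU.card_ne_zero_of_pgroup hqK hCq
  have hct : t * c = c * t :=
    Cfsg.Agent.Lib.Gross.Active.last_centralizes_abelian ρ' hρ' (by norm_num) hord hs hCn hCK hCab c hc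
  -- the image of `(A - 1)^2`
  let T : Module.End (ZMod 2) V := (A - 1) ^ 2
  have hT : T = A ^ 2 - 1 :=
    Cfsg.Agent.Lib.HallHigman.Block.sub_one_pow_char_pow (p := 2) A 1
  have hπt : π₀ t = A ^ 2 := by
    rw [hta, map_pow, hA]
  have hfin : Module.finrank (ZMod 2) (LinearMap.range T) ≤ 1 := by
    have h4 : Nat.card (LinearMap.range T) = 2 ^ Module.finrank (ZMod 2) (LinearMap.range T) := by
      have := Module.natCard_eq_pow_finrank (K := ZMod 2) (V := LinearMap.range T)
      simpa using this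
    by_contra h5
    push Not at h5
    have h6 : 2 ^ 2 ≤ 2 ^ Module.finrank (ZMod 2) (LinearMap.range T) :=
      Nat.pow_le_pow_right (by norm_num) h5
    have h7 : Nat.card (LinearMap.range T) < 4 := hlt
    rw [h4] at h7
    omega
  obtain ⟨v₀', hv₀'⟩ := finrank_le_one_iff.mp hfin
  let v₀ : V := v₀'
  have hv₀ : ∀ v, ∃ d : ZMod 2, T v = d • v₀ := by
    intro v
    obtain ⟨d, hd⟩ := hv₀' ⟨T v, LinearMap.mem_range_self T v⟩
    exact ⟨d, (congrArg Subtype.val hd).symm⟩
  -- `c` fixes `v₀`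
  have hcomm : π₀ c * T = T * π₀ c := by
    have h1 : π₀ c * π₀ t = π₀ t * π₀ c := by
      rw [← map_mul, ← map_mul, hct]
    rw [hπt] at h1
    rw [hT, mul_sub, sub_mul, h1, mul_one, one_mul]
  have hcfix : ∀ u, π₀ c (T u) = T u := by
    intro u
    obtain ⟨d, hd⟩ := hv₀ u
    have h1 : π₀ c (T u) = T (π₀ c u) := by
      rw [← Module.End.mul_apply, hcomm, Module.End.mul_apply]
    obtain ⟨e, he⟩ := hv₀ (π₀ c u)
    -- `π₀ c` is injective on `V`
    have hinj : ∀ y, π₀ c y = 0 → y = 0 := by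
      intro y hy
      have h2 : π₀ c⁻¹ (π₀ c y) = y := by
        rw [← Module.End.mul_apply, ← map_mul π₀, inv_mul_cancel, map_one]
        rfl
      rw [← h2, hy, map_zero]
    by_cases hd0 : d = 0
    · rw [hd, hd0, zero_smul, map_zero]
    · by_cases he0 : e = 0
      · have h3 : π₀ c (T u) = 0 := by rw [h1, he, he0, zero_smul]
        have h4 := hinj _ h3
        rw [h4, map_zero]
      · have hd1 : d = 1 := by
          exact zmod2_eq_one d hd0
        have he1 : e = 1 := by
          exact zmod2_eq_one e he0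
        rw [h1, he, hd, hd1, he1]
  -- base change
  have hKrange : ∀ u : W, ∃ β : K, (ρ' t - 1) u = β ⊗ₜ[ZMod 2] v₀ := by
    have e0 : ρ' t - 1 = Module.End.baseChangeHom (ZMod 2) K V T := by
      have h0 : ρ' t = Module.End.baseChangeHom (ZMod 2) K V (π₀ t) := rfl
      rw [h0, hπt, hT, map_sub, map_one]
    intro u
    rw [e0]
    induction u using TensorProduct.induction_on with
    | zero => exact ⟨0, by simp⟩
    | tmul β v =>
      obtain ⟨d, hd⟩ := hv₀ v
      refine ⟨d • β, ?_⟩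
      have h0 : Module.End.baseChangeHom (ZMod 2) K V T (β ⊗ₜ[ZMod 2] v) = β ⊗ₜ[ZMod 2] (T v) := rfl
      rw [h0, hd, TensorProduct.smul_tmul]
    | add x y hx hy =>
      obtain ⟨β₁, h1⟩ := hx
      obtain ⟨β₂, h2⟩ := hy
      exact ⟨β₁ + β₂, by rw [map_add, h1, h2, TensorProduct.add_tmul]⟩
  have hcK : ∀ u : W, ρ' c ((ρ' t - 1) u) = (ρ' t - 1) u := by
    intro u
    obtain ⟨β, hβ⟩ := hKrange u
    rw [hβ]
    have h0 : ρ' c (β ⊗ₜ[ZMod 2] v₀) = β ⊗ₜ[ZMod 2] (π₀ c v₀) := rfl
    rw [h0]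
    obtain ⟨u₀, hu₀⟩ := v₀'.2
    have h1 : π₀ c v₀ = v₀ := by
      have h2 := hcfix u₀
      rw [hu₀] at h2
      exact h2
    rw [h1]
  have hcomm' : ρ' c * ρ' t = ρ' t * ρ' c := by
    rw [← map_mul ρ', ← map_mul ρ', hct]
  exact hwne (fixed_of_eigen (ρ' t) (ρ' c) hcomm' w (lam c) hlamc (hw c hc) (hcK w))

end Cfsg.Agent.S4410
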