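import Cfsg.Statements.S4411
import Cfsg.Agent.Lib.AutoSyl.Thompson
import Cfsg.Agent.Lib.AutoSyl.Section
import Cfsg.Agent.Lib.PGroup.ThompsonG
import Cfsg.Agent.Lib.PGroup.BaumannSect
import Cfsg.Agent.S0602
import Mathlib

set_option autoImplicit false
open Cfsg

namespace Cfsg.Agent.S4411

universe u

open Cfsg.Agent.Lib.AutoSyl.Basic Cfsg.Agent.Lib.AutoSyl.HallPQ Cfsg.Agent.Lib.AutoSyl.Thompson
  Cfsg.Agent.Lib.AutoSyl.Section Cfsg.Agent.Lib.Coprime.PSolvable Cfsg.Agent.Lib.PGroup.ThompsonG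

section Maps

variable {Γ G : Type u} [Group Γ] [Group G] (f : Γ →* G) (hf : Function.Injective f) (p : ℕ)
include hf

theorem omega_map (P : Subgroup Γ) :
    (omegaOne p (P ⊓ Subgroup.centralizer (P : Set Γ))).map f =
      omegaOne p (P.map f ⊓ Subgroup.centralizer ((P.map f : Subgroup G) : Set G)) := by
  rw [omegaOne, omegaOne, MonoidHom.map_closure]
  congr 1
  ext x
  constructor
  · rintro ⟨a, ⟨ha, hap⟩, rfl⟩
    obtain ⟨ha1, ha2⟩ := Subgroup.mem_inf.mp ha
    refine ⟨Subgroup.mem_inf.mpr ⟨⟨a, ha1, rfl⟩, ?_⟩, by rw [← map_pow, hap, map_one]⟩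
    rw [Subgroup.mem_centralizer_iff]
    rintro _ ⟨b, hb, rfl⟩
    rw [← map_mul, ← map_mul, Subgroup.mem_centralizer_iff.mp ha2 b hb]
  · rintro ⟨hx, hxp⟩
    obtain ⟨hx1, hx2⟩ := Subgroup.mem_inf.mp hx
    obtain ⟨a, ha, rfl⟩ := hx1
    refine ⟨a, ⟨Subgroup.mem_inf.mpr ⟨ha, ?_⟩, hf (by rwa [map_pow, map_one])⟩, rfl⟩
    rw [Subgroup.mem_centralizer_iff]
    intro b hb
    apply hf
    rw [map_mul, map_mul]
    exact Subgroup.mem_centralizer_iff.mp hx2 (f b) ⟨b, hb, rfl⟩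

theorem thompson_map (P : Subgroup Γ) :
    (thompsonSubgroupOf p P).map f = thompsonSubgroupOf p (P.map f) := by
  have hcomap : ∀ B : Subgroup G, B ≤ P.map f → (B.comap f).map f = B := by
    intro B hB
    apply Subgroup.map_comap_eq_self
    exact hB.trans (Subgroup.map_le_range f P)
  have hcardm : ∀ A : Subgroup Γ, Nat.card (A.map f) = Nat.card A := fun A =>
    (Nat.card_congr (A.equivMapOfInjective f hf).toEquiv).symm
  have hcomapP : ∀ B : Subgroup G, B ≤ P.map f → B.comap f ≤ P := by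
    intro B hB a ha
    obtain ⟨b, hb, hba⟩ := hB ha
    rwa [← hf hba]
  rw [thompsonSubgroupOf_eq, thompsonSubgroupOf_eq]
  apply le_antisymm
  · rw [Subgroup.map_le_iff_le_comap]
    apply sSup_le
    intro A hA
    rw [← Subgroup.map_le_iff_le_comap]
    apply le_sSup
    refine ⟨Subgroup.map_mono hA.1, ea_map f hA.2.1, ?_⟩
    intro B hB hBE
    rw [hcardm, ← hcomap B hB, hcardm] 
    refine hA.2.2 _ (hcomapP B hB) (ea_of_map hf ?_)
    rwa [hcomap B hB]
  · apply sSup_le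
    intro B hB
    rw [← hcomap B hB.1]
    apply Subgroup.map_mono
    apply le_sSup
    refine ⟨hcomapP B hB.1, ea_of_map hf (by rw [hcomap B hB.1]; exact hB.2.1), ?_⟩
    intro A hA hAE
    have h1 := hB.2.2 (A.map f) (Subgroup.map_mono hA) (ea_map f hAE)
    rw [hcardm, ← hcomap B hB.1, hcardm] at h1
    exact h1

end Maps

section Main

variable {p q : ℕ} [hp : Fact p.Prime] [hq : Fact q.Prime] {G : Type u} [Group G] [Finite G]

theorem omega_ne_bot {S : Subgroup G} (hS : IsPGroup p S) (hS0 : S ≠ ⊥) :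
    omegaOne p (S ⊓ Subgroup.centralizer (S : Set G)) ≠ ⊥ := by
  haveI : Nontrivial S := Subgroup.nontrivial_iff_ne_bot S |>.mpr hS0
  haveI := hS.center_nontrivial
  have hZp : IsPGroup p (Subgroup.center S) := IsPGroup.to_subgroup hS _
  obtain ⟨k, hk⟩ := IsPGroup.iff_card.mp hZp
  have hk0 : k ≠ 0 := by
    rintro rfl
    rw [pow_zero] at hk
    exact (Finite.one_lt_card (α := Subgroup.center S)).ne' hk
  have hd : p ∣ Nat.card (Subgroup.center S) := by
    rw [hk]; exact dvd_pow_self p hk0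
  obtain ⟨z, hz⟩ := exists_prime_orderOf_dvd_card' p hd
  intro hbot
  have h1 : ((z : S) : G) ∈ omegaOne p (S ⊓ Subgroup.centralizer (S : Set G)) := by
    apply Subgroup.subset_closure
    refine ⟨Subgroup.mem_inf.mpr ⟨(z : S).2, ?_⟩, ?_⟩
    · rw [Subgroup.mem_centralizer_iff]
      intro s hs
      have := (Subgroup.mem_center_iff.mp z.2) ⟨s, hs⟩
      exact congrArg Subtype.val this
    · have := pow_orderOf_eq_one z
      rw [hz] at this
      have h2 := congrArg (fun w : Subgroup.center S => ((w : S) : G)) this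
      simpa using h2
  rw [hbot, Subgroup.mem_bot] at h1
  have h3 : z = 1 := Subtype.ext (Subtype.ext h1)
  rw [h3, orderOf_one] at hz
  exact hp.out.one_lt.ne hz

theorem thompson_ne_bot {S : Subgroup G} (hS : IsPGroup p S) (hS0 : S ≠ ⊥) :
    thompsonSubgroupOf p S ≠ ⊥ := by
  haveI : Nontrivial S := Subgroup.nontrivial_iff_ne_bot S |>.mpr hS0
  obtain ⟨k, hk⟩ := IsPGroup.iff_card.mp hS
  have hk0 : k ≠ 0 := by
    rintro rfl
    rw [pow_zero] at hk
    exact (Finite.one_lt_card (α := S)).ne' hk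
  have hd : p ∣ Nat.card S := by
    rw [hk]; exact dvd_pow_self p hk0
  have h1 := (Cfsg.Agent.S0602.result (G := S) (p := p)).2 hd
  intro hbot
  exact h1 ((Subgroup.map_eq_bot_iff_of_injective _ S.subtype_injective).mp hbot)

theorem mem_normalizer_map {X : Subgroup G} {A : Subgroup X} {n : X}
    (hn : n ∈ Subgroup.normalizer (A : Set X)) :
    (n : G) ∈ Subgroup.normalizer ((A.map X.subtype : Subgroup G) : Set G) := by
  apply Cfsg.Agent.Lib.Coprime.Three.mem_normalizer_of_conj_mem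
  rintro _ ⟨v, hv, rfl⟩
  exact ⟨n * v * n⁻¹, (Subgroup.mem_normalizer_iff.mp hn v).mp hv, rfl⟩

theorem centralizer_le_normalizer' (H : Subgroup G) :
    Subgroup.centralizer (H : Set G) ≤ Subgroup.normalizer (H : Set G) := by
  intro c hc
  rw [Subgroup.mem_normalizer_iff]
  intro h
  have h1 : ∀ z ∈ H, c * z * c⁻¹ = z := by
    intro z hz
    have := Subgroup.mem_centralizer_iff.mp hc z hz
    rw [← this]; group
  constructor
  · intro hh
    rw [h1 h hh]; exact hh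
  · intro hh
    have := Subgroup.mem_centralizer_iff.mp hc _ hh
    have h2 : c * h * c⁻¹ * c = c * h := by group
    rw [this] at h2
    have h3 := mul_left_cancel h2
    rwa [← h3]

/-- A `q`-element of `H C_G(H)` centralizes `H`. -/
theorem mem_centralizer_of_factor (hpq : p ≠ q) {H : Subgroup G} (hHp : IsPGroup p H) {a b : G}
    (ha : a ∈ H) (hb : b ∈ Subgroup.centralizer (H : Set G)) (h : QE q (a * b)) :
    a * b ∈ Subgroup.centralizer (H : Set G) := by
  obtain ⟨m, hm⟩ := h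
  have hcomm : Commute a b := Subgroup.mem_centralizer_iff.mp hb a ha
  have h1 : a ^ q ^ m * b ^ q ^ m = 1 := by rw [← hcomm.mul_pow, hm]
  have h2 : a ^ q ^ m ∈ Subgroup.centralizer (H : Set G) := by
    rw [eq_inv_of_mul_eq_one_left h1]
    exact inv_mem (pow_mem hb _)
  obtain ⟨e, he⟩ := hHp ⟨a, ha⟩
  have he' : a ^ p ^ (e + 1) = 1 := by
    have : a ^ p ^ e = 1 := by simpa using congrArg Subtype.val he
    rw [pow_succ, pow_mul, this, one_pow]
  have hcop : (q ^ m).Coprime (p ^ (e + 1)) :=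
    Nat.Coprime.pow _ _ ((Nat.coprime_primes hq.out hp.out).mpr hpq.symm)
  have h1p : 1 < p ^ (e + 1) := Nat.one_lt_pow (by omega) hp.out.one_lt
  obtain ⟨s, -, hs⟩ := Nat.exists_mul_mod_eq_one_of_coprime hcop h1p
  have h3 : a = (a ^ q ^ m) ^ s := by
    rw [← pow_mul, pow_eq_pow_mod (q ^ m * s) he', hs, pow_one]
  have h4 : a ∈ Subgroup.centralizer (H : Set G) := by
    rw [h3]; exact pow_mem h2 s
  exact mul_mem h4 hb

/-- The centralizer of `H` in `S` lies in `H`, at a maximal pair. -/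
theorem centralizer_le (hpq : p ≠ q) {H S : Subgroup G} (hF : Fam p q H S)
    (hSmax : ∀ K S' : Subgroup G, Fam p q K S' → Nat.card S' ≤ Nat.card S)
    (hHmax : ∀ K : Subgroup G, Fam p q K S → Nat.card K ≤ Nat.card H) :
    S ⊓ Subgroup.centralizer (H : Set G) ≤ H := by
  obtain ⟨hSp, hHS, hSN, x, hx⟩ := id hF
  have hHp : IsPGroup p H := hSp.to_le hHS
  set N : Subgroup G := Subgroup.normalizer (H : Set G) with hN
  set C : Subgroup G := Subgroup.centralizer (H : Set G) with hC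
  have hCN : C ≤ N := centralizer_le_normalizer' H
  have hmaxS : ∀ T : Subgroup G, IsPGroup p T → S ≤ T → T ≤ N → T = S := fun T hT hST hTN =>
    (Subgroup.eq_of_le_of_card_ge hST (hSmax H T ⟨hT, hHS.trans hST, hTN, x, hx⟩)).symm
  set H' : Subgroup N := H.subgroupOf N with hH'
  set C' : Subgroup N := C.subgroupOf N with hC'
  haveI hH'n : H'.Normal := Subgroup.normal_subgroupOf_of_le_normalizer le_rfl
  haveI hC'n : C'.Normal := inferInstance
  set D' : Subgroup N := H' ⊔ C' with hD'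
  haveI hD'n : D'.Normal := Subgroup.sup_normal _ _
  have hS'p : IsPGroup p (S.subgroupOf N) := hSp.comap_subtype
  obtain ⟨P, hP⟩ := hS'p.exists_le_sylow
  have hPS : (P : Subgroup N).map N.subtype = S :=
    hmaxS _ (P.2.map _) (fun s hs => ⟨⟨s, hSN hs⟩, hP hs, rfl⟩)
      (by rintro _ ⟨a, -, rfl⟩; exact a.2)
  have hmemP : ∀ a : ↥N, a ∈ (P : Subgroup N) ↔ (a : G) ∈ S := by
    intro a
    constructor
    · intro ha
      rw [← hPS]; exact ⟨a, ha, rfl⟩
    · intro ha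
      exact hP ha
  obtain ⟨Q, hQ⟩ := Cfsg.Agent.Lib.Basic.SylowUtil.exists_sylow_inf_normal P D'
  set x₀ : ↥N := ⟨x, hx.1⟩ with hx₀'
  obtain ⟨d, hd, h, hh, hx₀⟩ := Cfsg.Agent.Lib.Basic.SylowUtil.frattini_argument' Q x₀
  rw [hQ] at hh
  set R₁ : Subgroup G := ((P : Subgroup N) ⊓ D').map N.subtype with hR₁
  have hx₀D : x₀ ∉ D' := by
    intro hmem
    have hmem' : x₀ ∈ ((H' ⊔ C' : Subgroup N) : Set N) := hmem
    rw [Subgroup.mul_normal] at hmem'
    obtain ⟨a, ha, b, hb, hab⟩ := Set.mem_mul.mp hmem'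
    have hab' : (a : G) * (b : G) = x := congrArg Subtype.val hab
    apply hx.2.1
    rw [← hab']
    refine mem_centralizer_of_factor hpq hHp ha hb ?_
    rw [hab']
    exact hx.2.2
  set φ := QuotientGroup.mk' D' with hφ
  have hφx : φ h = φ x₀ := by
    have hd1 : φ d = 1 := (QuotientGroup.eq_one_iff d).mpr hd
    rw [hx₀, map_mul, hd1, one_mul]
  obtain ⟨m, hm⟩ := hx.2.2
  have hφm : φ h ^ q ^ m = 1 := by
    rw [hφx, ← map_pow]
    have : x₀ ^ q ^ m = 1 := Subtype.ext (by simpa [hx₀'] using hm)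
    rw [this, map_one]
  obtain ⟨k, hk, hqe⟩ := exists_q_part φ h hφm
  set y₀ : ↥N := h ^ k with hy₀
  have hy₀D : y₀ ∉ D' := by
    intro hmem
    apply hx₀D
    apply (QuotientGroup.eq_one_iff x₀).mp
    show φ x₀ = 1
    rw [← hφx, ← hk]
    exact (QuotientGroup.eq_one_iff _).mpr hmem
  have hy₀n : y₀ ∈ Subgroup.normalizer (((P : Subgroup N) ⊓ D' : Subgroup N) : Set N) :=
    pow_mem hh k
  have hHR₁ : H ≤ R₁ := by
    intro z hz
    refine ⟨⟨z, Subgroup.le_normalizer hz⟩, Subgroup.mem_inf.mpr ⟨?_, ?_⟩, rfl⟩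
    · exact (hmemP _).mpr (hHS hz)
    · exact (le_sup_left : H' ≤ D') hz
  have hFR : Fam p q R₁ S := by
    refine ⟨hSp, ?_, ?_, (y₀ : G), mem_normalizer_map hy₀n, ?_, hqe.map N.subtype⟩
    · rintro _ ⟨a, ha, rfl⟩
      exact (hmemP a).mp (Subgroup.mem_inf.mp ha).1
    · intro s hs
      have hs₀ : (⟨s, hSN hs⟩ : ↥N) ∈ (P : Subgroup N) := hP hs
      refine mem_normalizer_map (n := (⟨s, hSN hs⟩ : ↥N)) ?_
      apply Cfsg.Agent.Lib.Coprime.Three.mem_normalizer_of_conj_mem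
      intro v hv
      obtain ⟨hv1, hv2⟩ := Subgroup.mem_inf.mp hv
      exact Subgroup.mem_inf.mpr ⟨mul_mem (mul_mem hs₀ hv1) (inv_mem hs₀), hD'n.conj_mem v hv2 _⟩
    · intro hc
      apply hy₀D
      apply (le_sup_right : C' ≤ D')
      show (y₀ : G) ∈ C
      rw [hC, Subgroup.mem_centralizer_iff]
      intro z hz
      exact Subgroup.mem_centralizer_iff.mp hc z (hHR₁ hz)
  have hR₁H : H = R₁ := Subgroup.eq_of_le_of_card_ge hHR₁ (hHmax R₁ hFR)
  intro a ha
  obtain ⟨ha1, ha2⟩ := Subgroup.mem_inf.mp ha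
  rw [hR₁H]
  refine ⟨⟨a, hCN ha2⟩, Subgroup.mem_inf.mpr ⟨(hmemP _).mpr ha1, ?_⟩, rfl⟩
  exact (le_sup_right : C' ≤ D') ha2

theorem exists_W (hpq : p ≠ q) (h23 : ¬ ((p = 2 ∧ q = 3) ∨ (p = 3 ∧ q = 2)))
    (hsol : ∀ H : Subgroup G, IsPGroup p ↥H →
      Cfsg.IsPSolvable p (↥(Subgroup.normalizer (H : Set G)) ⧸ (Subgroup.centralizer (H : Set G)).subgroupOf (Subgroup.normalizer (H : Set G))))
    {H S : Subgroup G} (hF : Fam p q H S)
    (hSmax : ∀ K S' : Subgroup G, Fam p q K S' → Nat.card S' ≤ Nat.card S)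
    (hcen : S ⊓ Subgroup.centralizer (H : Set G) ≤ H) :
    ∃ (W : Subgroup G) (y : G), W ≠ ⊥ ∧ W ≤ S ∧
      Subgroup.normalizer (S : Set G) ≤ Subgroup.normalizer (W : Set G) ∧
      y ∈ Subgroup.normalizer (W : Set G) ∧ Mv q H y := by
  obtain ⟨hSp, hHS, hSN, x, hx⟩ := id hF
  have hHp : IsPGroup p H := hSp.to_le hHS
  set N : Subgroup G := Subgroup.normalizer (H : Set G) with hN
  set C : Subgroup G := Subgroup.centralizer (H : Set G) with hC
  have hCN : C ≤ N := centralizer_le_normalizer' H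
  have hmaxS : ∀ T : Subgroup G, IsPGroup p T → S ≤ T → T ≤ N → T = S := fun T hT hST hTN =>
    (Subgroup.eq_of_le_of_card_ge hST (hSmax H T ⟨hT, hHS.trans hST, hTN, x, hx⟩)).symm
  set C' : Subgroup N := C.subgroupOf N with hC'
  haveI hC'n : C'.Normal := inferInstance
  have hsolN : IsPSolvable p (↥N ⧸ C') := hsol H hHp
  obtain ⟨Kh, hKhS, hKhPQ, hKhq⟩ := hallPQ (q := q) hpq hsolN
    ((S.subgroupOf N).map (QuotientGroup.mk' C')) ((hSp.comap_subtype).map _)
  set X₂ : Subgroup G := (Kh.comap (QuotientGroup.mk' C')).map N.subtype with hX₂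
  have hX₂N : X₂ ≤ N := by
    rintro _ ⟨a, -, rfl⟩
    exact a.2
  have hmemX₂ : ∀ a : ↥N, (a : G) ∈ X₂ ↔ QuotientGroup.mk' C' a ∈ Kh := by
    intro a
    constructor
    · rintro ⟨b, hb, hba⟩
      have : b = a := Subtype.ext hba
      rwa [← this]
    · intro h
      exact ⟨a, h, rfl⟩
  have hSX₂ : S ≤ X₂ := by
    intro s hs
    exact (hmemX₂ ⟨s, hSN hs⟩).mpr (hKhS ⟨⟨s, hSN hs⟩, hs, rfl⟩)
  have hHX₂ : H ≤ X₂ := hHS.trans hSX₂
  set C₂ : Subgroup X₂ := C.subgroupOf X₂ with hC₂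
  haveI hC₂n : C₂.Normal := Subgroup.normal_subgroupOf_of_le_normalizer
    (hX₂N.trans (Cfsg.Agent.Lib.PGroup.BaumannSect.normalizer_le_centralizer H))
  let ι : ↥X₂ →* (↥N ⧸ C') := (QuotientGroup.mk' C').comp (Subgroup.inclusion hX₂N)
  have hιker : ι.ker = C₂ := by
    ext a
    rw [MonoidHom.mem_ker]
    exact QuotientGroup.eq_one_iff _
  have hιrange : ι.range = Kh := by
    ext b
    constructor
    · rintro ⟨a, rfl⟩
      exact (hmemX₂ ⟨a, hX₂N a.2⟩).mp a.2
    · intro hb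
      obtain ⟨a, rfl⟩ := QuotientGroup.mk'_surjective C' b
      exact ⟨⟨a, (hmemX₂ a).mpr hb⟩, rfl⟩
  have hC₂idx : C₂.index = Nat.card Kh := by
    rw [← hιker, Subgroup.index_ker, hιrange]
  have hsolv : IsPSolvable p (↥X₂ ⧸ C₂) :=
    isPSolvable_of_section ι (QuotientGroup.mk' C₂) (QuotientGroup.mk'_surjective C₂)
      (by
        intro a ha
        rw [hιker] at ha
        exact (QuotientGroup.eq_one_iff a).mpr ha) hsolN
  have hqdvd : q ∣ C₂.index := by
    have h1 : q ∣ C'.index := (dvd_index_iff H).mpr ⟨x, hx⟩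
    have h2 : Nat.card (↥N ⧸ C') = Nat.card Kh * Kh.index := (Subgroup.card_mul_index Kh).symm
    have h3 : q ∣ Nat.card (↥N ⧸ C') := h1
    rw [h2] at h3
    rw [hC₂idx]
    exact ((Nat.Prime.dvd_mul hq.out).mp h3).resolve_right hKhq
  have hS'p : IsPGroup p (S.subgroupOf X₂) := hSp.comap_subtype
  obtain ⟨P₂, hP₂⟩ := hS'p.exists_le_sylow
  have hP₂S : (P₂ : Subgroup X₂).map X₂.subtype = S :=
    hmaxS _ (P₂.2.map _) (fun s hs => ⟨⟨s, hSX₂ hs⟩, hP₂ hs, rfl⟩)
      (by rintro _ ⟨a, -, rfl⟩; exact hX₂N a.2)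
  have hmemP₂ : ∀ a : ↥X₂, a ∈ (P₂ : Subgroup X₂) → (a : G) ∈ S := by
    intro a ha
    rw [← hP₂S]
    exact ⟨a, ha, rfl⟩
  have hcen₂ : ∀ a ∈ (P₂ : Subgroup X₂) ⊓ C₂, ∀ c ∈ C₂, a * c = c * a := by
    intro a ha c hc
    obtain ⟨ha1, ha2⟩ := Subgroup.mem_inf.mp ha
    have h1 : (a : G) ∈ H := hcen (Subgroup.mem_inf.mpr ⟨hmemP₂ a ha1, ha2⟩)
    exact Subtype.ext (Subgroup.mem_centralizer_iff.mp hc _ h1)
  have hTF := thompsonStep hpq h23 C₂ hsolv (by rw [hC₂idx]; exact hKhPQ) P₂ hcen₂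
  -- `O_{p'}(X₂)` centralizes `H`
  have hH₂n : (H.subgroupOf X₂).Normal := Subgroup.normal_subgroupOf_of_le_normalizer hX₂N
  have hH₂p : IsPGroup p (H.subgroupOf X₂) := hHp.comap_subtype
  have hO : pPrimeCore p ↥X₂ ≤ C₂ := by
    intro o ho
    show (o : G) ∈ C
    rw [hC, Subgroup.mem_centralizer_iff]
    intro h hh
    set h₂ : ↥X₂ := ⟨h, hHX₂ hh⟩ with hh₂
    have hh₂m : h₂ ∈ H.subgroupOf X₂ := hh
    have hOn : (pPrimeCore p ↥X₂).Normal := Cfsg.Agent.Lib.Basic.PCore.pPrimeCore_normal p _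
    have h1 : h₂ * o * h₂⁻¹ * o⁻¹ ∈ pPrimeCore p ↥X₂ :=
      mul_mem (hOn.conj_mem o ho h₂) (inv_mem ho)
    have h2 : h₂ * o * h₂⁻¹ * o⁻¹ ∈ H.subgroupOf X₂ := by
      have h3 := hH₂n.conj_mem _ (inv_mem hh₂m) o
      have h4 := mul_mem hh₂m h3
      have h5 : h₂ * (o * h₂⁻¹ * o⁻¹) = h₂ * o * h₂⁻¹ * o⁻¹ := by group
      rwa [h5] at h4
    have h3 := Cfsg.Agent.Lib.Components.PConstrained.eq_one_of_mem_pgroup_of_mem_core hH₂p h2 h1
    have h4 : h₂ * o = o * h₂ := by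
      rw [mul_inv_eq_one, mul_inv_eq_iff_eq_mul] at h3
      exact h3
    exact congrArg Subtype.val h4
  set L₁ : Subgroup X₂ := Subgroup.centralizer
    (omegaOne p ((P₂ : Subgroup X₂) ⊓ Subgroup.centralizer ((P₂ : Subgroup X₂) : Set X₂)) : Set X₂) with hL₁
  set L₂ : Subgroup X₂ := Subgroup.normalizer
    (thompsonSubgroupOf p (P₂ : Subgroup X₂) : Set X₂) with hL₂
  have hfac : ∀ g : ↥X₂, ∃ c ∈ L₁, ∃ n ∈ L₂, QuotientGroup.mk' C₂ g =
      QuotientGroup.mk' C₂ c * QuotientGroup.mk' C₂ n := by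
    intro g
    obtain ⟨x₀, hx₀, c, hc, n, hn, rfl⟩ := hTF P₂ g
    refine ⟨c, hc, n, hn, ?_⟩
    have h1 : QuotientGroup.mk' C₂ x₀ = 1 := (QuotientGroup.eq_one_iff x₀).mpr (hO hx₀)
    rw [map_mul, map_mul, h1, one_mul]
  obtain ⟨y₀, hy₀, hφ, hQE⟩ := exists_QE_of_factor (QuotientGroup.mk' C₂)
    (QuotientGroup.mk'_surjective C₂) L₁ L₂ hfac hqdvd
  have hMv : Mv q H (y₀ : G) :=
    ⟨hX₂N y₀.2, fun h => hφ ((QuotientGroup.eq_one_iff y₀).mpr h), hQE.map X₂.subtype⟩
  have hS0 : S ≠ ⊥ := by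
    intro hbot
    apply hx.2.1
    rw [Subgroup.mem_centralizer_iff]
    intro h hh
    have : h ∈ (⊥ : Subgroup G) := hbot ▸ hHS hh
    rw [Subgroup.mem_bot] at this
    rw [this, one_mul, mul_one]
  rcases hy₀ with h₁ | h₂
  · refine ⟨omegaOne p (S ⊓ Subgroup.centralizer (S : Set G)), (y₀ : G), omega_ne_bot hSp hS0, ?_,
      Cfsg.Agent.Lib.PGroup.BaumannSect.normalizer_le_omegaOneCenter S, ?_, hMv⟩
    · rw [omegaOne, Subgroup.closure_le]
      rintro w ⟨hw, -⟩
      exact (Subgroup.mem_inf.mp hw).1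
    · have hmap := omega_map X₂.subtype X₂.subtype_injective p (P₂ : Subgroup X₂)
      rw [hP₂S] at hmap
      apply centralizer_le_normalizer'
      rw [← hmap, Subgroup.mem_centralizer_iff]
      rintro _ ⟨w, hw, rfl⟩
      exact congrArg Subtype.val (Subgroup.mem_centralizer_iff.mp h₁ w hw)
  · refine ⟨thompsonSubgroupOf p S, (y₀ : G), thompson_ne_bot hSp hS0,
      thompsonSubgroupOf_le_self S,
      normalizer_le_normalizer_thompson S, ?_, hMv⟩
    have hmap := thompson_map X₂.subtype X₂.subtype_injective p (P₂ : Subgroup X₂)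
    rw [hP₂S] at hmap
    rw [← hmap]
    exact mem_normalizer_map h₂

theorem final_step (hpq : p ≠ q) 
    (hsol : ∀ H : Subgroup G, IsPGroup p ↥H →
      Cfsg.IsPSolvable p (↥(Subgroup.normalizer (H : Set G)) ⧸ (Subgroup.centralizer (H : Set G)).subgroupOf (Subgroup.normalizer (H : Set G))))
    {H S S₂ W : Subgroup G} {y : G} (hF : Fam p q H S)
    (hSmax : ∀ K S' : Subgroup G, Fam p q K S' → Nat.card S' ≤ Nat.card S)
    (hS₂p : IsPGroup p S₂) (hlt : S < S₂) (hS₂W : S₂ ≤ Subgroup.normalizer (W : Set G))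
    (hW0 : W ≠ ⊥) (hWS : W ≤ S) (hyW : y ∈ Subgroup.normalizer (W : Set G)) (hy : Mv q H y)
    (ih : ∀ (T : Type u) [Group T] [Finite T], Nat.card T < Nat.card G →
      (∀ R : Subgroup T, IsPGroup p ↥R →
        Cfsg.IsPSolvable p (↥(Subgroup.normalizer (R : Set T)) ⧸ (Subgroup.centralizer (R : Set T)).subgroupOf (Subgroup.normalizer (R : Set T)))) →
      (∃ K S : Subgroup T, Fam p q K S) → ∀ Gp : Sylow p T, ∃ K : Subgroup T, Fam p q K Gp) :
    False := by
  obtain ⟨hSp, hHS, hSN, -⟩ := id hF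
  have hWp : IsPGroup p W := hSp.to_le hWS
  have hcardlt : Nat.card S < Nat.card S₂ := Set.ncard_lt_ncard hlt (Set.toFinite _)
  by_cases hyC : y ∈ Subgroup.centralizer (W : Set G)
  · set M : Subgroup G := Subgroup.normalizer (W : Set G) with hM
    set W' : Subgroup M := W.subgroupOf M with hW'
    haveI hW'n : W'.Normal := Subgroup.normal_subgroupOf_of_le_normalizer le_rfl
    have hWM : W ≤ M := Subgroup.le_normalizer
    have hW'0 : W' ≠ ⊥ := by
      intro h
      apply hW0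
      have h1 : W'.map M.subtype = W := by
        rw [hW', Subgroup.subgroupOf_map_subtype, inf_of_le_left hWM]
      rw [← h1, h, Subgroup.map_bot]
    have hlt' : Nat.card (↥M ⧸ W') < Nat.card G :=
      (card_quotient_lt' W' hW'0).trans_le (Subgroup.card_le_card_group M)
    set π : ↥M →* (↥M ⧸ W') := QuotientGroup.mk' W' with hπ
    have hπs : Function.Surjective π := QuotientGroup.mk'_surjective W'
    have hker : π.ker = W' := QuotientGroup.ker_mk' W'
    have hk : IsPGroup p π.ker := by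
      rw [hker]; exact hWp.comap_subtype
    have hSM : S ≤ M := (le_of_lt hlt).trans hS₂W
    have hHM : H ≤ M := hHS.trans hSM
    have hkerW : ∀ m : ↥M, π m = 1 → (m : G) ∈ W := by
      intro m hm
      have : m ∈ W' := (QuotientGroup.eq_one_iff m).mp hm
      exact this
    have hsolT := hsol_transfer hπs hk hsol
    have hMv := Mv_descend (π := π) hpq W H hWp hkerW hHM hyW hy hyC
    set Kb : Subgroup (↥M ⧸ W') := (H.subgroupOf M).map π with hKb
    have hKbp : IsPGroup p Kb := ((hSp.to_le hHS).comap_subtype).map _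
    have hFT : Fam p q Kb Kb := ⟨hKbp, le_rfl, Subgroup.le_normalizer, _, hMv⟩
    have hS₂bp : IsPGroup p ((S₂.subgroupOf M).map π) := (hS₂p.comap_subtype).map _
    obtain ⟨Sg, hSg⟩ := hS₂bp.exists_le_sylow
    obtain ⟨K', hK'⟩ := ih _ hlt' hsolT ⟨Kb, Kb, hFT⟩ Sg
    have hL := Fam_lift hπs hk hK'
    have h1 := hSmax _ _ hL
    have hle : S₂ ≤ pre M π (Sg : Subgroup _) := by
      intro s hs
      exact mem_pre.mpr ⟨hS₂W hs, hSg ⟨⟨s, hS₂W hs⟩, hs, rfl⟩⟩
    have h2 : Nat.card S₂ ≤ Nat.card (pre M π (Sg : Subgroup _)) :=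
      Subgroup.card_le_of_le hle
    omega
  · have h1 := hSmax W S₂ ⟨hS₂p, hWS.trans (le_of_lt hlt), hS₂W, y, hyW, hyC, hy.2.2⟩
    omega

theorem main_aux (hpq : p ≠ q) (h23 : ¬ ((p = 2 ∧ q = 3) ∨ (p = 3 ∧ q = 2))) :
    ∀ (n : ℕ) (G : Type u) [Group G] [Finite G], Nat.card G = n →
      (∀ H : Subgroup G, IsPGroup p ↥H →
        Cfsg.IsPSolvable p (↥(Subgroup.normalizer (H : Set G)) ⧸ (Subgroup.centralizer (H : Set G)).subgroupOf (Subgroup.normalizer (H : Set G)))) →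
      (∃ K S : Subgroup G, Fam p q K S) → ∀ Gp : Sylow p G, ∃ K : Subgroup G, Fam p q K Gp := by
  intro n
  induction n using Nat.strong_induction_on with
  | _ n ih =>
  intro G _ _ hn hsol h0 Gp
  obtain ⟨K0, S0, hF0⟩ := h0
  obtain ⟨S, ⟨H₀, hS⟩, hSmax'⟩ := Set.exists_max_image {S : Subgroup G | ∃ K, Fam p q K S}
    (fun S => Nat.card S) (Set.toFinite _) ⟨S0, K0, hF0⟩
  obtain ⟨H, hH, hHmax'⟩ := Set.exists_max_image {K : Subgroup G | Fam p q K S}
    (fun K => Nat.card K) (Set.toFinite _) ⟨H₀, hS⟩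
  have hSmax : ∀ K S' : Subgroup G, Fam p q K S' → Nat.card S' ≤ Nat.card S := fun K S' h => hSmax' S' ⟨K, h⟩
  have hHmax : ∀ K : Subgroup G, Fam p q K S → Nat.card K ≤ Nat.card H := fun K h => hHmax' K h
  by_cases hgrow : ∃ S₂ : Subgroup G, IsPGroup p S₂ ∧ S < S₂ ∧ S₂ ≤ Subgroup.normalizer (S : Set G)
  · exfalso
    obtain ⟨S₂, hS₂p, hlt, hS₂N⟩ := hgrow
    have hcen := centralizer_le hpq hH hSmax hHmax
    obtain ⟨W, y, hW0, hWS, hNW, hyW, hy⟩ := exists_W hpq h23 hsol hH hSmax hcen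
    refine final_step hpq hsol hH hSmax hS₂p hlt (hS₂N.trans hNW) hW0 hWS hyW hy ?_
    intro T _ _ hT hsolT hT0 GpT
    exact ih _ (hn ▸ hT) T rfl hsolT hT0 GpT
  · -- `S` is a Sylow subgroup
    obtain ⟨P, hP⟩ := hH.1.exists_le_sylow
    have hSP : S = P := by
      by_contra hne
      apply hgrow
      have hltP : S.subgroupOf P < ⊤ := by
        rw [lt_top_iff_ne_top]
        intro htop
        apply hne
        apply le_antisymm hP
        intro x hx
        have : (⟨x, hx⟩ : P) ∈ S.subgroupOf P := by rw [htop]; trivial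
        exact this
      haveI := P.2.isNilpotent
      have hcond := Group.normalizerCondition_of_isNilpotent (G := ↥(P : Subgroup G))
      have h1 := hcond _ hltP
      obtain ⟨a, ha1, ha2⟩ := SetLike.exists_of_lt h1
      refine ⟨(Subgroup.normalizer ((S.subgroupOf P : Subgroup P) : Set P)).map (P : Subgroup G).subtype,
        P.2.to_le (by rintro _ ⟨x, -, rfl⟩; exact x.2), ?_, ?_⟩
      · refine SetLike.lt_iff_le_and_exists.mpr ⟨?_, (a : G), Subgroup.mem_map_of_mem _ ha1, ha2⟩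
        intro s hs
        exact ⟨⟨s, hP hs⟩, Subgroup.le_normalizer hs, rfl⟩
      · rintro _ ⟨b, hb, rfl⟩
        apply Cfsg.Agent.Lib.Coprime.Three.mem_normalizer_of_conj_mem
        intro v hv
        have h2 := (Subgroup.mem_normalizer_iff.mp hb ⟨v, hP hv⟩).mp hv
        exact h2
    obtain ⟨g, hg⟩ := Cfsg.Agent.Lib.Basic.SylowUtil.exists_conj_smul_eq P Gp
    refine ⟨H.map (MulAut.conj g).toMonoidHom, ?_⟩
    have h1 := Fam.conj hH g
    rw [hSP] at h1
    rw [← hg, Subgroup.pointwise_smul_def]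
    exact h1

end Main

/-- Let p and q be distinct primes with {p, q} ≠ {2, 3}, and let G be a finite group such that for every p-subgroup H of G the automizer N_G(H)/C_G(H) is p-solvable. If q divides the order of N_G(H)/C_G(H) for some p-subgroup H, then a Sylow p-subgroup of G has a normal subgroup K (normal in the Sylow subgroup) such that q divides the order of N_G(K)/C_G(K). -/
theorem result {G : Type*} [Group G] [Finite G]
    (p q : ℕ) [Fact p.Prime] [Fact q.Prime] (hpq : p ≠ q) (h23 : ¬ ((p = 2 ∧ q = 3) ∨ (p = 3 ∧ q = 2)))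
    (hsol : ∀ H : Subgroup G, IsPGroup p ↥H →
      Cfsg.IsPSolvable p (↥(Subgroup.normalizer (H : Set G)) ⧸ (Subgroup.centralizer (H : Set G)).subgroupOf (Subgroup.normalizer (H : Set G))))
    (H : Subgroup G) (hH : IsPGroup p ↥H)
    (hq : q ∣ ((Subgroup.centralizer (H : Set G)).subgroupOf (Subgroup.normalizer (H : Set G))).index)
    (Gp : Sylow p G) :
    ∃ K : Subgroup G, K ≤ (Gp : Subgroup G) ∧ (Gp : Subgroup G) ≤ Subgroup.normalizer (K : Set G) ∧
      q ∣ ((Subgroup.centralizer (K : Set G)).subgroupOf (Subgroup.normalizer (K : Set G))).index := by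
  have hq' : ∃ K S : Subgroup G, Fam p q K S := by
    obtain ⟨y, hy⟩ := (dvd_index_iff H).mp hq
    exact ⟨H, H, hH, le_rfl, Subgroup.le_normalizer, y, hy⟩
  obtain ⟨K, hK1, hK2, hK3, y, hy⟩ := main_aux hpq h23 _ G rfl hsol hq' Gp
  exact ⟨K, hK2, hK3, (dvd_index_iff K).mpr ⟨y, hy⟩⟩

end Cfsg.Agent.S4411
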