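import Cfsg.Statements.S4412
import Cfsg.Agent.Lib.Coprime.GenerationE
set_option autoImplicit false
set_option linter.style.haveILetI false
set_option linter.unusedVariables false
set_option linter.unusedSectionVars false
set_option linter.deprecated false
open Cfsg
open Cfsg.Agent.Lib.Coprime.GenerationE

namespace Cfsg.Agent.S4412

variable {P : Type*} [Group P] {Γ : Type*} [Group Γ]

/-- Fixed points of a subgroup of the acting group. -/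
def Fx (φ : Γ →* MulAut P) (B : Subgroup Γ) : Subgroup P where
  carrier := {x | ∀ γ ∈ B, φ γ x = x}
  one_mem' := fun γ _ => map_one (φ γ)
  mul_mem' := fun {a b} ha hb γ hγ => by rw [map_mul, ha γ hγ, hb γ hγ]
  inv_mem' := fun {a} ha γ hγ => by rw [map_inv, ha γ hγ]

theorem mem_Fx {φ : Γ →* MulAut P} {B : Subgroup Γ} {x : P} : x ∈ Fx φ B ↔ ∀ γ ∈ B, φ γ x = x :=
  Iff.rfl

theorem gen_index_two [Finite P] [Finite Γ] (φ : Γ →* MulAut P)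
    (hΓ : Cfsg.IsElementaryAbelian 2 (⊤ : Subgroup Γ)) (hodd : ¬ 2 ∣ Nat.card P) :
    (⨆ B : {B : Subgroup Γ // B.index ≤ 2}, Fx φ B.1) = ⊤ := by
  classical
  haveI : Fact (Nat.Prime 2) := ⟨Nat.prime_two⟩
  let H := SemidirectProduct P Γ φ
  haveI : Finite H := Finite.of_equiv _ SemidirectProduct.equivProd.symm
  let A : Subgroup H := (SemidirectProduct.inr : Γ →* H).range
  let X : Subgroup H := (SemidirectProduct.inl : P →* H).range
  have hXn : X.Normal := by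
    change (SemidirectProduct.inl : P →* H).range.Normal
    rw [SemidirectProduct.range_inl_eq_ker_rightHom]
    infer_instance
  have hA : Cfsg.IsElementaryAbelian 2 A := by
    refine ⟨⟨⟨?_⟩⟩, ?_⟩
    · rintro ⟨_, a, rfl⟩ ⟨_, b, rfl⟩
      apply Subtype.ext
      change SemidirectProduct.inr a * SemidirectProduct.inr b =
        (SemidirectProduct.inr b * SemidirectProduct.inr a : H)
      rw [← map_mul, ← map_mul]
      congr 1
      have := hΓ.1.is_comm.comm ⟨a, trivial⟩ ⟨b, trivial⟩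
      exact congrArg Subtype.val this
    · rintro _ ⟨a, rfl⟩
      change (SemidirectProduct.inr a : H) ^ 2 = 1
      rw [← map_pow, hΓ.2 a trivial, map_one]
  have hX : ¬ 2 ∣ Nat.card X := by
    have : Nat.card X = Nat.card P :=
      Nat.card_congr (MonoidHom.ofInjective SemidirectProduct.inl_injective).symm.toEquiv
    rwa [this]
  have hAX : A ≤ Subgroup.normalizer (X : Set H) := by
    have h := Subgroup.normalizer_eq_top_iff.mpr hXn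
    rw [h]
    exact le_top
  have key := le_iSup_relIndex_le A X hA hX hAX
  rw [eq_top_iff]
  intro x _
  set W : Subgroup P := ⨆ B : {B : Subgroup Γ // B.index ≤ 2}, Fx φ B.1 with hW
  have hle : (⨆ B : {B : Subgroup H // B ≤ A ∧ B.relIndex A ≤ 2},
      X ⊓ Subgroup.centralizer ((B : Subgroup H) : Set H)) ≤
      W.map (SemidirectProduct.inl : P →* H) := by
    refine iSup_le ?_
    rintro ⟨B, hBA, hB2⟩
    rintro y ⟨⟨z, rfl⟩, hy⟩
    refine ⟨z, ?_, rfl⟩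
    let B₀ : Subgroup Γ := B.comap (SemidirectProduct.inr : Γ →* H)
    have hB₀ : B₀.index ≤ 2 := by
      have h1 : B₀.relIndex ⊤ = B.relIndex ((⊤ : Subgroup Γ).map (SemidirectProduct.inr : Γ →* H)) :=
        Subgroup.relIndex_comap _ _ _
      rw [Subgroup.relIndex_top_right, ← MonoidHom.range_eq_map] at h1
      rw [h1]
      exact hB2
    refine (le_iSup (fun B : {B : Subgroup Γ // B.index ≤ 2} => Fx φ B.1) ⟨B₀, hB₀⟩) ?_
    intro γ hγ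
    have hγ' : (SemidirectProduct.inr γ : H) ∈ B := hγ
    have hc := (Subgroup.mem_centralizer_iff.mp hy) _ hγ'
    have h2 : (SemidirectProduct.inl (φ γ z) : H) = SemidirectProduct.inr γ * SemidirectProduct.inl z * SemidirectProduct.inr γ⁻¹ :=
      SemidirectProduct.inl_aut _ _
    rw [map_inv, hc, mul_assoc, mul_inv_cancel, mul_one] at h2
    exact SemidirectProduct.inl_injective h2
  have hx : (SemidirectProduct.inl x : H) ∈ W.map (SemidirectProduct.inl : P →* H) :=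
    hle (key ⟨x, rfl⟩)
  obtain ⟨y, hy, hxy⟩ := hx
  have := SemidirectProduct.inl_injective hxy
  exact this ▸ hy


/-- An involutory automorphism of a cyclic group of odd prime power order is trivial or the inversion. -/
theorem inv_or_id {p : ℕ} [Fact p.Prime] (hp2 : p ≠ 2) (hP : IsPGroup p P) (g : P) (σ : MulAut P)
    (hσ : ∀ x, σ (σ x) = x) (hg : σ g ∈ Subgroup.zpowers g) :
    (∀ x ∈ Subgroup.zpowers g, σ x = x) ∨ (∀ x ∈ Subgroup.zpowers g, σ x = x⁻¹) := by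
  obtain ⟨k, hk⟩ := hg
  have hk' : g ^ k = σ g := hk
  have h1 : g ^ (k * k) = g := by
    rw [zpow_mul, hk', ← map_zpow, hk', hσ]
  have h2 : g ^ (k * k - 1) = 1 := by
    rw [zpow_sub, h1, zpow_one, mul_inv_cancel]
  obtain ⟨m, hm⟩ := (IsPGroup.iff_orderOf.mp hP) g
  have h3 : ((orderOf g : ℕ) : ℤ) ∣ k * k - 1 := orderOf_dvd_iff_zpow_eq_one.mpr h2
  have h4 : k * k - 1 = (k - 1) * (k + 1) := by ring
  rw [h4, hm] at h3
  push_cast at h3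
  have hpZ : Prime (p : ℤ) := Nat.prime_iff_prime_int.mp Fact.out
  by_cases hd : (p : ℤ) ∣ k - 1
  · have hnd : ¬ (p : ℤ) ∣ k + 1 := by
      intro h
      have h5 : (p : ℤ) ∣ 2 := by
        have := dvd_sub h hd
        have h6 : k + 1 - (k - 1) = 2 := by ring
        rwa [h6] at this
      have h6 : p ∣ 2 := by exact_mod_cast h5
      exact hp2 ((Nat.prime_dvd_prime_iff_eq Fact.out Nat.prime_two).mp h6)
    have hc : IsCoprime ((p : ℤ) ^ m) (k + 1) :=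
      (hpZ.irreducible.coprime_iff_not_dvd.mpr hnd).pow_left
    have h7 : (p : ℤ) ^ m ∣ k - 1 := hc.dvd_of_dvd_mul_right h3
    have h8 : g ^ (k - 1) = 1 := by
      rw [← orderOf_dvd_iff_zpow_eq_one, hm]
      exact_mod_cast h7
    have h9 : σ g = g := by
      rw [← hk']
      rw [zpow_sub, zpow_one] at h8
      exact mul_inv_eq_one.mp h8
    left
    rintro x ⟨j, rfl⟩
    change σ (g ^ j) = g ^ j
    rw [map_zpow, h9]
  · have hc : IsCoprime ((p : ℤ) ^ m) (k - 1) :=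
      (hpZ.irreducible.coprime_iff_not_dvd.mpr hd).pow_left
    have h7 : (p : ℤ) ^ m ∣ k + 1 := hc.dvd_of_dvd_mul_left h3
    have h8 : g ^ (k + 1) = 1 := by
      rw [← orderOf_dvd_iff_zpow_eq_one, hm]
      exact_mod_cast h7
    have h9 : σ g = g⁻¹ := by
      rw [← hk']
      rw [zpow_add, zpow_one] at h8
      exact mul_eq_one_iff_eq_inv.mp h8
    right
    rintro x ⟨j, rfl⟩
    change σ (g ^ j) = (g ^ j)⁻¹
    rw [map_zpow, h9, inv_zpow]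

/-- Fixed point free involutory automorphisms invert. -/
theorem fpf_invert [Finite P] (R : Subgroup P) (σ : MulAut P) (hσ : ∀ x, σ (σ x) = x)
    (hR : ∀ x ∈ R, σ x ∈ R) (hfix : ∀ x ∈ R, σ x = x → x = 1) : ∀ x ∈ R, σ x = x⁻¹ := by
  let f : R → R := fun y => ⟨(y : P)⁻¹ * σ y, R.mul_mem (R.inv_mem y.2) (hR _ y.2)⟩
  have hinj : Function.Injective f := by
    intro y z h
    have h1 : (y : P)⁻¹ * σ y = (z : P)⁻¹ * σ z := congrArg Subtype.val h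
    have h2 : σ ((z : P) * (y : P)⁻¹) = (z : P) * (y : P)⁻¹ := by
      rw [map_mul, map_inv]
      have h3 : σ (z : P) = z * ((y : P)⁻¹ * σ y) := by
        rw [h1, mul_inv_cancel_left]
      rw [h3]
      group
    have h4 := hfix _ (R.mul_mem z.2 (R.inv_mem y.2)) h2
    apply Subtype.ext
    exact (mul_inv_eq_one.mp h4).symm
  have hsurj : Function.Surjective f := Finite.surjective_of_injective hinj
  intro x hx
  obtain ⟨y, hy⟩ := hsurj ⟨x, hx⟩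
  have h1 : (y : P)⁻¹ * σ y = x := congrArg Subtype.val hy
  rw [← h1, map_mul, map_inv, hσ, mul_inv_rev, inv_inv]

section core

variable {p : ℕ} [Fact p.Prime] [Finite P] [Finite Γ]

/-- `γ` is broad when its fixed points do not form a cyclic group. -/
def Broad (φ : Γ →* MulAut P) (γ : Γ) : Prop :=
  ¬ ∃ g : P, ∀ x : P, (φ γ x = x ↔ x ∈ Subgroup.zpowers g)

omit [Fact p.Prime] in
theorem eq_one_of_sq_eq_one (hodd : ¬ 2 ∣ Nat.card P) {x : P} (h : x * x = 1) : x = 1 := by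
  have h2 : x ^ 2 = 1 := by rw [pow_two, h]
  have h3 : orderOf x ∣ 2 := orderOf_dvd_of_pow_eq_one h2
  have h4 : orderOf x ∣ Nat.card P := orderOf_dvd_natCard x
  have h5 : orderOf x = 1 := by
    rcases (Nat.dvd_prime Nat.prime_two).mp h3 with h | h
    · exact h
    · exact absurd (h ▸ h4) hodd
  exact orderOf_eq_one_iff.mp h5

theorem broad_of (hp2 : p ≠ 2) (hP : IsPGroup p P) (hodd : ¬ 2 ∣ Nat.card P) (φ : Γ →* MulAut P)
    (hcomm : ∀ a b : Γ, a * b = b * a) (hexp : ∀ a : Γ, a * a = 1)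
    (a b : Γ) (x y : P) (hax : φ a x = x) (hay : φ a y = y) (hbx : φ b x ≠ x) (hby : φ b y = y)
    (hy : y ≠ 1) : Broad φ a := by
  rintro ⟨g, hg⟩
  have hσ : ∀ z, φ b (φ b z) = z := fun z => by
    change (φ b * φ b) z = z
    rw [← map_mul, hexp, map_one]; rfl
  have hgg : φ b g ∈ Subgroup.zpowers g := by
    rw [← hg]
    have h1 : φ a g = g := (hg g).mpr (Subgroup.mem_zpowers g)
    change (φ a * φ b) g = φ b g
    rw [← map_mul, hcomm, map_mul]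
    change φ b (φ a g) = φ b g
    rw [h1]
  rcases inv_or_id hp2 hP g (φ b) hσ hgg with h | h
  · exact hbx (h x ((hg x).mp hax))
  · have h1 := h y ((hg y).mp hay)
    rw [hby] at h1
    apply hy
    apply eq_one_of_sq_eq_one hodd
    nth_rewrite 1 [h1]
    exact inv_mul_cancel y

/-- Local structure of the fixed points of a product `a * b`. -/
theorem local_struct (hp2 : p ≠ 2) (hP : IsPGroup p P) (hodd : ¬ 2 ∣ Nat.card P) (φ : Γ →* MulAut P)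
    (hcomm : ∀ a b : Γ, a * b = b * a) (hexp : ∀ a : Γ, a * a = 1)
    (a b c : Γ) (g x : P) (hg : ∀ x : P, (φ (a * b) x = x ↔ x ∈ Subgroup.zpowers g))
    (hax : φ a x = x) (hbx : φ b x = x) (hcx : φ c x ≠ x) :
    g ≠ 1 ∧ ∀ z ∈ Subgroup.zpowers g, φ a z = z ∧ φ b z = z ∧ φ c z = z⁻¹ := by
  have hx1 : x ≠ 1 := by
    rintro rfl
    exact hcx (map_one _)
  have hσ : ∀ s : Γ, ∀ z, φ s (φ s z) = z := fun s z => by
    change (φ s * φ s) z = z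
    rw [← map_mul, hexp, map_one]; rfl
  have hab : φ (a * b) x = x := by
    rw [map_mul]
    change φ a (φ b x) = x
    rw [hbx, hax]
  have hxg : x ∈ Subgroup.zpowers g := (hg x).mp hab
  have hgg : ∀ s : Γ, φ s g ∈ Subgroup.zpowers g := by
    intro s
    rw [← hg]
    have h1 : φ (a * b) g = g := (hg g).mpr (Subgroup.mem_zpowers g)
    change (φ (a * b) * φ s) g = φ s g
    rw [← map_mul, hcomm, map_mul]
    change φ s (φ (a * b) g) = φ s g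
    rw [h1]
  have hfix : ∀ s : Γ, φ s x = x → ∀ z ∈ Subgroup.zpowers g, φ s z = z := by
    intro s hs
    rcases inv_or_id hp2 hP g (φ s) (hσ s) (hgg s) with h | h
    · exact h
    · exfalso
      have h1 := h x hxg
      rw [hs] at h1
      apply hx1
      apply eq_one_of_sq_eq_one hodd
      nth_rewrite 1 [h1]
      exact inv_mul_cancel x
  refine ⟨?_, ?_⟩
  · rintro rfl
    have : x = 1 := by simpa using hxg
    exact hx1 this
  · intro z hz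
    refine ⟨hfix a hax z hz, hfix b hbx z hz, ?_⟩
    rcases inv_or_id hp2 hP g (φ c) (hσ c) (hgg c) with h | h
    · exact absurd (h x hxg) hcx
    · exact h z hz


omit [Finite P] in
/-- Three hyperplanes of a group of order 8 in general position. -/
theorem exists_triple (h8 : Nat.card Γ = 8) (𝓗 : Set (Subgroup Γ))
    (h2 : ∀ H ∈ 𝓗, H.index = 2) (hsep : ∀ γ : Γ, γ ≠ 1 → ∃ H ∈ 𝓗, γ ∉ H) :
    ∃ H₁ ∈ 𝓗, ∃ H₂ ∈ 𝓗, ∃ H₃ ∈ 𝓗, ∃ e₁ e₂ e₃ : Γ,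
      e₁ ∉ H₁ ∧ e₁ ∈ H₂ ∧ e₁ ∈ H₃ ∧ e₂ ∈ H₁ ∧ e₂ ∉ H₂ ∧ e₂ ∈ H₃ ∧ e₃ ∈ H₁ ∧ e₃ ∈ H₂ ∧ e₃ ∉ H₃ ∧
      ∀ γ, γ ∈ H₁ → γ ∈ H₂ → γ ∈ H₃ → γ = 1 := by
  classical
  haveI : Nontrivial Γ := by
    rw [← Finite.one_lt_card_iff_nontrivial, h8]; norm_num
  have hne : ∀ K : Subgroup Γ, 1 < Nat.card K → ∃ x ∈ K, x ≠ 1 := by
    intro K hK
    rcases Subgroup.bot_or_exists_ne_one K with h | h
    · rw [h, Subgroup.card_bot] at hK
      exact absurd hK (lt_irrefl _)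
    · exact h
  have hcardH : ∀ H ∈ 𝓗, Nat.card H = 4 := by
    intro H hH
    have := Subgroup.card_mul_index H
    rw [h2 H hH, h8] at this
    omega
  have hinf : ∀ H ∈ 𝓗, ∀ K ∈ 𝓗, 2 ≤ Nat.card ↥(H ⊓ K) := by
    intro H hH K hK
    have h1 := Subgroup.card_mul_index (H ⊓ K)
    have h3 : (H ⊓ K).index ≤ H.index * K.index := Subgroup.index_inf_le
    rw [h2 H hH, h2 K hK] at h3
    rw [h8] at h1
    by_contra hlt
    have h4 : Nat.card ↥(H ⊓ K) ≤ 1 := by omega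
    have h5 : Nat.card ↥(H ⊓ K) * (H ⊓ K).index ≤ 1 * 4 := Nat.mul_le_mul h4 h3
    omega
  obtain ⟨γ, hγ⟩ := exists_ne (1 : Γ)
  obtain ⟨H₁, hH₁, -⟩ := hsep γ hγ
  obtain ⟨t, ht, ht1⟩ := hne H₁ (by rw [hcardH H₁ hH₁]; norm_num)
  obtain ⟨H₂, hH₂, ht2⟩ := hsep t ht1
  have hJ2 := hinf H₁ hH₁ H₂ hH₂
  have hJcard : Nat.card ↥(H₁ ⊓ H₂) = 2 := by
    have hd : Nat.card ↥(H₁ ⊓ H₂) ∣ Nat.card H₁ := Subgroup.card_dvd_of_le inf_le_left
    rw [hcardH H₁ hH₁] at hd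
    have hle : Nat.card ↥(H₁ ⊓ H₂) ≤ 4 := Nat.le_of_dvd (by norm_num) hd
    have hne4 : Nat.card ↥(H₁ ⊓ H₂) ≠ 4 := by
      intro h4
      have : H₁ ⊓ H₂ = H₁ := Subgroup.eq_of_le_of_card_ge inf_le_left (by rw [h4, hcardH H₁ hH₁])
      have ht' : t ∈ H₁ ⊓ H₂ := by rw [this]; exact ht
      exact ht2 ht'.2
    have h3 : Nat.card ↥(H₁ ⊓ H₂) ≠ 3 := by
      intro h3
      rw [h3] at hd
      norm_num at hd
    omega
  obtain ⟨e₃, he₃, he₃1⟩ := hne _ (by rw [hJcard]; norm_num : 1 < Nat.card ↥(H₁ ⊓ H₂))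
  obtain ⟨H₃, hH₃, he₃3⟩ := hsep e₃ he₃1
  have huniq : ∀ γ, γ ∈ H₁ → γ ∈ H₂ → γ ≠ 1 → γ = e₃ := by
    intro γ h1 h2' h3
    obtain ⟨y, -, hy⟩ := (Nat.card_eq_two_iff' (1 : ↥(H₁ ⊓ H₂))).mp hJcard
    have h5 := hy ⟨γ, h1, h2'⟩ (fun h => h3 (congrArg Subtype.val h))
    have h6 := hy ⟨e₃, he₃⟩ (fun h => he₃1 (congrArg Subtype.val h))
    exact congrArg Subtype.val (h5.trans h6.symm)
  have htrip : ∀ γ, γ ∈ H₁ → γ ∈ H₂ → γ ∈ H₃ → γ = 1 := by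
    intro γ h1 h2' h3
    by_contra hne1
    exact he₃3 ((huniq γ h1 h2' hne1) ▸ h3)
  obtain ⟨e₁, he₁, he₁1⟩ := hne _ (lt_of_lt_of_le (by norm_num) (hinf H₂ hH₂ H₃ hH₃))
  obtain ⟨e₂, he₂, he₂1⟩ := hne _ (lt_of_lt_of_le (by norm_num) (hinf H₁ hH₁ H₃ hH₃))
  refine ⟨H₁, hH₁, H₂, hH₂, H₃, hH₃, e₁, e₂, e₃, ?_, he₁.1, he₁.2, he₂.1, ?_, he₂.2, he₃.1, he₃.2,
    he₃3, htrip⟩
  · exact fun h => he₁1 (htrip e₁ h he₁.1 he₁.2)
  · exact fun h => he₂1 (htrip e₂ he₂.1 h he₂.2)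

omit [Finite P] [Finite Γ] in
theorem moved_of (φ : Γ →* MulAut P) (H : Subgroup Γ) (hH : H.index = 2) (e : Γ) (he : e ∉ H)
    (γ : Γ) (x : P) (hx : x ∈ Fx φ H) (hγ : φ γ x ≠ x) : φ e x ≠ x := by
  intro hex
  have hγH : γ ∉ H := fun h => hγ (hx γ h)
  have hm : γ * e ∈ H := by
    rw [Subgroup.mul_mem_iff_of_index_two hH]
    exact ⟨fun h => absurd h hγH, fun h => absurd h he⟩
  have h1 := hx _ hm
  rw [map_mul] at h1
  change φ γ (φ e x) = x at h1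
  rw [hex] at h1
  exact hγ h1

/-- Pairwise commutation. -/
theorem comm_pair (hodd : ¬ 2 ∣ Nat.card P) (φ : Γ →* MulAut P) (hexp : ∀ a : Γ, a * a = 1)
    (hcomm : ∀ a b : Γ, a * b = b * a)
    (a b c : Γ) (gx gy gz : P)
    (h1 : ∀ z ∈ Subgroup.zpowers gx, φ a z = z⁻¹ ∧ φ b z = z ∧ φ c z = z)
    (h3 : ∀ z ∈ Subgroup.zpowers gy, φ a z = z ∧ φ b z = z ∧ φ c z = z⁻¹)
    (h2 : ∀ z ∈ Subgroup.zpowers gz, φ b z = z⁻¹)
    (hC : ∀ w : P, φ (a * c) w = w ↔ w ∈ Subgroup.zpowers gz) :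
    ∀ x ∈ Subgroup.zpowers gx, ∀ y ∈ Subgroup.zpowers gy, x * y = y * x := by
  set R : Subgroup P := Subgroup.zpowers gx ⊔ Subgroup.zpowers gy with hR
  have hσ : ∀ w, φ (a * c) (φ (a * c) w) = w := by
    intro w
    change (φ (a * c) * φ (a * c)) w = w
    rw [← map_mul, hexp, map_one]; rfl
  have hσx : ∀ z ∈ Subgroup.zpowers gx, φ (a * c) z = z⁻¹ := by
    intro z hz
    rw [map_mul]
    change φ a (φ c z) = z⁻¹
    rw [(h1 z hz).2.2, (h1 z hz).1]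
  have hσy : ∀ z ∈ Subgroup.zpowers gy, φ (a * c) z = z⁻¹ := by
    intro z hz
    rw [map_mul]
    change φ a (φ c z) = z⁻¹
    rw [(h3 z hz).2.2, map_inv, (h3 z hz).1]
  have hRinv : ∀ w ∈ R, φ (a * c) w ∈ R := by
    have : R ≤ R.comap (φ (a * c)).toMonoidHom := by
      refine sup_le ?_ ?_
      · intro z hz
        change φ (a * c) z ∈ R
        rw [hσx z hz]
        exact R.inv_mem ((le_sup_left : _ ≤ R) hz)
      · intro z hz
        change φ (a * c) z ∈ R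
        rw [hσy z hz]
        exact R.inv_mem ((le_sup_right : _ ≤ R) hz)
    exact fun w hw => this hw
  have hb : ∀ w ∈ R, φ b w = w := by
    have : R ≤ (φ b).toMonoidHom.eqLocus (MonoidHom.id P) := by
      refine sup_le ?_ ?_
      · intro z hz
        exact (h1 z hz).2.1
      · intro z hz
        exact (h3 z hz).2.1
    exact fun w hw => this hw
  have hfix : ∀ w ∈ R, φ (a * c) w = w → w = 1 := by
    intro w hw hfw
    have h4 := h2 w ((hC w).mp hfw)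
    rw [hb w hw] at h4
    apply eq_one_of_sq_eq_one hodd
    nth_rewrite 1 [h4]
    exact inv_mul_cancel w
  have hinv := fpf_invert R (φ (a * c)) hσ hRinv hfix
  intro x hx y hy
  have hxR : x ∈ R := (le_sup_left : _ ≤ R) hx
  have hyR : y ∈ R := (le_sup_right : _ ≤ R) hy
  have h5 := hinv (x * y) (R.mul_mem hxR hyR)
  rw [map_mul, hσx x hx, hσy y hy, mul_inv_rev] at h5
  have h6 := congrArg (·⁻¹) h5
  simp only [mul_inv_rev, inv_inv] at h6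
  exact h6.symm


theorem core (hp2 : p ≠ 2) (hP : IsPGroup p P) (φ : Γ →* MulAut P) (hφ : Function.Injective φ)
    (hcomm : ∀ a b : Γ, a * b = b * a) (hexp : ∀ a : Γ, a * a = 1) (h8 : Nat.card Γ = 8)
    (Γ₀ : Subgroup Γ) (hdisj : ∀ γ ∈ Γ₀, γ ≠ 1 → ¬ Broad φ γ)
    (hprod : ∀ γ γ' : Γ, γ ≠ 1 → γ' ≠ 1 → Broad φ γ → Broad φ γ' → γ * γ' ∈ Γ₀) :
    ∃ (e₁ e₂ e₃ : Γ) (g₁ g₂ g₃ : P),
      e₁ ≠ e₂ ∧ e₁ ≠ e₃ ∧ e₂ ≠ e₃ ∧ e₁ ≠ 1 ∧ e₂ ≠ 1 ∧ e₃ ≠ 1 ∧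
      (∀ γ : Γ, γ = 1 ∨ γ = e₁ ∨ γ = e₂ ∨ γ = e₃ ∨ γ = e₁ * e₂ ∨ γ = e₂ * e₃ ∨ γ = e₁ * e₃ ∨
        γ = e₁ * e₂ * e₃) ∧
      (∀ γ : Γ, γ ≠ 1 → (Broad φ γ ↔ γ = e₁ ∨ γ = e₂ ∨ γ = e₃)) ∧
      (∀ γ : Γ, γ ∈ Γ₀ ↔ γ = 1 ∨ γ = e₁ * e₂ ∨ γ = e₂ * e₃ ∨ γ = e₁ * e₃) ∧
      (∀ x y : P, x * y = y * x) ∧
      (Subgroup.zpowers g₁ ⊔ Subgroup.zpowers g₂ ⊔ Subgroup.zpowers g₃ = ⊤) ∧
      g₁ ≠ 1 ∧ g₂ ≠ 1 ∧ g₃ ≠ 1 ∧
      (∀ z ∈ Subgroup.zpowers g₁, φ e₁ z = z⁻¹ ∧ φ e₂ z = z ∧ φ e₃ z = z) ∧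
      (∀ z ∈ Subgroup.zpowers g₂, φ e₁ z = z ∧ φ e₂ z = z⁻¹ ∧ φ e₃ z = z) ∧
      (∀ z ∈ Subgroup.zpowers g₃, φ e₁ z = z ∧ φ e₂ z = z ∧ φ e₃ z = z⁻¹) := by
  classical
  have hodd : ¬ 2 ∣ Nat.card P := by
    obtain ⟨k, hk⟩ := IsPGroup.iff_card.mp hP
    rw [hk]
    intro h
    have := Nat.Prime.dvd_of_dvd_pow Nat.prime_two h
    exact hp2 ((Nat.prime_dvd_prime_iff_eq Nat.prime_two Fact.out).mp this).symm
  have hΓ : Cfsg.IsElementaryAbelian 2 (⊤ : Subgroup Γ) :=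
    ⟨⟨⟨fun a b => Subtype.ext (hcomm _ _)⟩⟩, fun a _ => by rw [pow_two, hexp]⟩
  have hgen := gen_index_two φ hΓ hodd
  let 𝓗 : Set (Subgroup Γ) := {H | H.index = 2 ∧ ∃ γ, ∃ x ∈ Fx φ H, φ γ x ≠ x}
  have hsep : ∀ γ : Γ, γ ≠ 1 → ∃ H ∈ 𝓗, γ ∉ H := by
    intro γ hγ
    by_contra hall
    push Not at hall
    apply hγ
    apply hφ
    rw [map_one]
    ext x
    have hx : x ∈ (⨆ B : {B : Subgroup Γ // B.index ≤ 2}, Fx φ B.1) := by rw [hgen]; trivial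
    have hle : (⨆ B : {B : Subgroup Γ // B.index ≤ 2}, Fx φ B.1) ≤
        (φ γ).toMonoidHom.eqLocus (MonoidHom.id P) := by
      refine iSup_le ?_
      rintro ⟨B, hB⟩ y hy
      by_cases hγB : γ ∈ B
      · exact hy γ hγB
      · have hidx : B.index = 2 := by
          have h0 : B.index ≠ 0 := Subgroup.index_ne_zero_of_finite
          have h1 : B.index ≠ 1 := fun h => hγB (by rw [Subgroup.index_eq_one.mp h]; trivial)
          omega
        by_contra hne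
        exact hγB (hall B ⟨hidx, γ, y, hy, hne⟩)
    exact hle hx
  obtain ⟨H₁, hH₁, H₂, hH₂, H₃, hH₃, e₁, e₂, e₃, he₁1, he₁2, he₁3, he₂1, he₂2, he₂3, he₃1, he₃2,
    he₃3, htrip⟩ := exists_triple h8 𝓗 (fun H hH => hH.1) hsep
  obtain ⟨idx₁, γ₁, x₁, hx₁, hγ₁⟩ := hH₁
  obtain ⟨idx₂, γ₂, x₂, hx₂, hγ₂⟩ := hH₂
  obtain ⟨idx₃, γ₃, x₃, hx₃, hγ₃⟩ := hH₃
  have m₁ := moved_of φ H₁ idx₁ e₁ he₁1 γ₁ x₁ hx₁ hγ₁
  have m₂ := moved_of φ H₂ idx₂ e₂ he₂2 γ₂ x₂ hx₂ hγ₂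
  have m₃ := moved_of φ H₃ idx₃ e₃ he₃3 γ₃ x₃ hx₃ hγ₃
  have hx₁1 : x₁ ≠ 1 := fun h => m₁ (by rw [h, map_one])
  have hx₂1 : x₂ ≠ 1 := fun h => m₂ (by rw [h, map_one])
  have hx₃1 : x₃ ≠ 1 := fun h => m₃ (by rw [h, map_one])
  have B₁ : Broad φ e₁ := broad_of hp2 hP hodd φ hcomm hexp e₁ e₂ x₂ x₃ (hx₂ e₁ he₁2) (hx₃ e₁ he₁3)
    m₂ (hx₃ e₂ he₂3) hx₃1
  have B₂ : Broad φ e₂ := broad_of hp2 hP hodd φ hcomm hexp e₂ e₃ x₃ x₁ (hx₃ e₂ he₂3) (hx₁ e₂ he₂1)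
    m₃ (hx₁ e₃ he₃1) hx₁1
  have B₃ : Broad φ e₃ := broad_of hp2 hP hodd φ hcomm hexp e₃ e₁ x₁ x₂ (hx₁ e₃ he₃1) (hx₂ e₃ he₃2)
    m₁ (hx₂ e₁ he₁2) hx₂1
  have ne₁ : e₁ ≠ 1 := fun h => he₁1 (h ▸ H₁.one_mem)
  have ne₂ : e₂ ≠ 1 := fun h => he₂2 (h ▸ H₂.one_mem)
  have ne₃ : e₃ ≠ 1 := fun h => he₃3 (h ▸ H₃.one_mem)
  have ne₁₂ : e₁ ≠ e₂ := fun h => he₁1 (h ▸ he₂1)
  have ne₁₃ : e₁ ≠ e₃ := fun h => he₁1 (h ▸ he₃1)
  have ne₂₃ : e₂ ≠ e₃ := fun h => he₂2 (h ▸ he₃2)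
  have hmulne : ∀ a b : Γ, a ≠ b → a * b ≠ 1 := by
    intro a b hab h
    apply hab
    have h1 : a * b = b * b := by rw [h, hexp]
    exact mul_right_cancel h1
  have t₃ : e₁ * e₂ ∈ Γ₀ := hprod e₁ e₂ ne₁ ne₂ B₁ B₂
  have t₁ : e₂ * e₃ ∈ Γ₀ := hprod e₂ e₃ ne₂ ne₃ B₂ B₃
  have t₂ : e₁ * e₃ ∈ Γ₀ := hprod e₁ e₃ ne₁ ne₃ B₁ B₃
  obtain ⟨g₃, hg₃⟩ : ∃ g : P, ∀ x : P, (φ (e₁ * e₂) x = x ↔ x ∈ Subgroup.zpowers g) :=
    not_not.mp (hdisj _ t₃ (hmulne _ _ ne₁₂))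
  obtain ⟨g₁, hg₁⟩ : ∃ g : P, ∀ x : P, (φ (e₂ * e₃) x = x ↔ x ∈ Subgroup.zpowers g) :=
    not_not.mp (hdisj _ t₁ (hmulne _ _ ne₂₃))
  obtain ⟨g₂, hg₂⟩ : ∃ g : P, ∀ x : P, (φ (e₁ * e₃) x = x ↔ x ∈ Subgroup.zpowers g) :=
    not_not.mp (hdisj _ t₂ (hmulne _ _ ne₁₃))
  obtain ⟨g₃1, S₃⟩ := local_struct hp2 hP hodd φ hcomm hexp e₁ e₂ e₃ g₃ x₃ hg₃ (hx₃ e₁ he₁3)
    (hx₃ e₂ he₂3) m₃
  obtain ⟨g₁1, S₁⟩ := local_struct hp2 hP hodd φ hcomm hexp e₂ e₃ e₁ g₁ x₁ hg₁ (hx₁ e₂ he₂1)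
    (hx₁ e₃ he₃1) m₁
  obtain ⟨g₂1, S₂⟩ := local_struct hp2 hP hodd φ hcomm hexp e₁ e₃ e₂ g₂ x₂ hg₂ (hx₂ e₁ he₁2)
    (hx₂ e₃ he₃2) m₂
  have c13 := comm_pair hodd φ hexp hcomm e₁ e₂ e₃ g₁ g₃ g₂
    (fun z hz => ⟨(S₁ z hz).2.2, (S₁ z hz).1, (S₁ z hz).2.1⟩) S₃
    (fun z hz => (S₂ z hz).2.2) hg₂
  have c12 := comm_pair hodd φ hexp hcomm e₁ e₃ e₂ g₁ g₂ g₃
    (fun z hz => ⟨(S₁ z hz).2.2, (S₁ z hz).2.1, (S₁ z hz).1⟩) S₂
    (fun z hz => (S₃ z hz).2.2) hg₃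
  have c23 := comm_pair hodd φ hexp hcomm e₂ e₁ e₃ g₂ g₃ g₁
    (fun z hz => ⟨(S₂ z hz).2.2, (S₂ z hz).1, (S₂ z hz).2.1⟩)
    (fun z hz => ⟨(S₃ z hz).2.1, (S₃ z hz).1, (S₃ z hz).2.2⟩)
    (fun z hz => (S₁ z hz).2.2) hg₁
  have hsame : ∀ g : P, ∀ x ∈ Subgroup.zpowers g, ∀ y ∈ Subgroup.zpowers g, x * y = y * x := by
    rintro g _ ⟨a, rfl⟩ _ ⟨b, rfl⟩
    exact ((Commute.refl g).zpow_zpow a b).eq
  have hsup : Subgroup.zpowers g₁ ⊔ Subgroup.zpowers g₂ ⊔ Subgroup.zpowers g₃ = ⊤ := by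
    rw [eq_top_iff, ← hgen]
    refine iSup_le ?_
    rintro ⟨B, hB⟩ x hx
    have hS1 : Subgroup.zpowers g₁ ≤ Subgroup.zpowers g₁ ⊔ Subgroup.zpowers g₂ ⊔ Subgroup.zpowers g₃ :=
      le_sup_left.trans le_sup_left
    have hS2 : Subgroup.zpowers g₂ ≤ Subgroup.zpowers g₁ ⊔ Subgroup.zpowers g₂ ⊔ Subgroup.zpowers g₃ :=
      le_sup_right.trans le_sup_left
    have hS3 : Subgroup.zpowers g₃ ≤ Subgroup.zpowers g₁ ⊔ Subgroup.zpowers g₂ ⊔ Subgroup.zpowers g₃ :=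
      le_sup_right
    by_cases h1 : e₂ * e₃ ∈ B
    · exact hS1 ((hg₁ x).mp (hx _ h1))
    by_cases h2 : e₁ * e₃ ∈ B
    · exact hS2 ((hg₂ x).mp (hx _ h2))
    have hidx : B.index = 2 := by
      have h0 : B.index ≠ 0 := Subgroup.index_ne_zero_of_finite
      have h3 : B.index ≠ 1 := fun h => h1 (by rw [Subgroup.index_eq_one.mp h]; trivial)
      change B.index ≤ 2 at hB
      omega
    have h3 : e₂ * e₃ * (e₁ * e₃) ∈ B := by
      rw [Subgroup.mul_mem_iff_of_index_two hidx]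
      exact ⟨fun h => absurd h h1, fun h => absurd h h2⟩
    have h4 : e₂ * e₃ * (e₁ * e₃) = e₁ * e₂ := by
      calc e₂ * e₃ * (e₁ * e₃) = e₂ * (e₃ * e₁) * e₃ := by simp only [mul_assoc]
        _ = e₂ * (e₁ * e₃) * e₃ := by rw [hcomm e₃ e₁]
        _ = e₂ * e₁ * (e₃ * e₃) := by simp only [mul_assoc]
        _ = e₁ * e₂ := by rw [hexp, mul_one, hcomm]
    rw [h4] at h3
    exact hS3 ((hg₃ x).mp (hx _ h3))
  have hall : ∀ x y : P, x * y = y * x := by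
    have hQc : ∀ x, (x ∈ Subgroup.zpowers g₁ ∨ x ∈ Subgroup.zpowers g₂ ∨ x ∈ Subgroup.zpowers g₃) →
        ∀ y, y * x = x * y := by
      intro x hx y
      have hle : Subgroup.zpowers g₁ ⊔ Subgroup.zpowers g₂ ⊔ Subgroup.zpowers g₃ ≤
          Subgroup.centralizer ({x} : Set P) := by
        refine sup_le (sup_le ?_ ?_) ?_
        · intro w hw
          rw [Subgroup.mem_centralizer_iff]
          rintro _ rfl
          rcases hx with hx | hx | hx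
          · exact hsame _ _ hx _ hw
          · exact (c12 _ hw _ hx).symm
          · exact (c13 _ hw _ hx).symm
        · intro w hw
          rw [Subgroup.mem_centralizer_iff]
          rintro _ rfl
          rcases hx with hx | hx | hx
          · exact c12 _ hx _ hw
          · exact hsame _ _ hx _ hw
          · exact (c23 _ hw _ hx).symm
        · intro w hw
          rw [Subgroup.mem_centralizer_iff]
          rintro _ rfl
          rcases hx with hx | hx | hx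
          · exact c13 _ hx _ hw
          · exact c23 _ hx _ hw
          · exact hsame _ _ hx _ hw
      rw [hsup] at hle
      exact (Subgroup.mem_centralizer_iff.mp (hle (Subgroup.mem_top y)) x rfl).symm
    have hc : Subgroup.zpowers g₁ ⊔ Subgroup.zpowers g₂ ⊔ Subgroup.zpowers g₃ ≤ Subgroup.center P := by
      refine sup_le (sup_le ?_ ?_) ?_
      · intro x hx
        rw [Subgroup.mem_center_iff]
        exact hQc x (Or.inl hx)
      · intro x hx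
        rw [Subgroup.mem_center_iff]
        exact hQc x (Or.inr (Or.inl hx))
      · intro x hx
        rw [Subgroup.mem_center_iff]
        exact hQc x (Or.inr (Or.inr hx))
    rw [hsup] at hc
    intro x y
    exact (Subgroup.mem_center_iff.mp (hc (Subgroup.mem_top x)) y).symm
  -- the product of the three inverts everything
  have hw : ∀ x, φ (e₁ * e₂ * e₃) x = x⁻¹ := by
    let K : Subgroup P :=
      { carrier := {x | φ (e₁ * e₂ * e₃) x = x⁻¹}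
        one_mem' := by simp
        mul_mem' := fun {a b} ha hb => by
          simp only [Set.mem_setOf_eq] at ha hb ⊢
          rw [map_mul, ha, hb, mul_inv_rev, hall]
        inv_mem' := fun {a} ha => by
          simp only [Set.mem_setOf_eq] at ha ⊢
          rw [map_inv, ha] }
    have hle : Subgroup.zpowers g₁ ⊔ Subgroup.zpowers g₂ ⊔ Subgroup.zpowers g₃ ≤ K := by
      have hact : ∀ z, φ (e₁ * e₂ * e₃) z = φ e₁ (φ e₂ (φ e₃ z)) := fun z => by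
        rw [map_mul, map_mul]; rfl
      refine sup_le (sup_le ?_ ?_) ?_
      · intro z hz
        change φ (e₁ * e₂ * e₃) z = z⁻¹
        rw [hact, (S₁ z hz).2.1, (S₁ z hz).1, (S₁ z hz).2.2]
      · intro z hz
        change φ (e₁ * e₂ * e₃) z = z⁻¹
        rw [hact, (S₂ z hz).2.1, (S₂ z hz).2.2, map_inv, (S₂ z hz).1]
      · intro z hz
        change φ (e₁ * e₂ * e₃) z = z⁻¹
        rw [hact, (S₃ z hz).2.2, map_inv, (S₃ z hz).2.1, map_inv, (S₃ z hz).1]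
    rw [hsup] at hle
    intro x
    exact hle (Subgroup.mem_top x)
  have hwb : ¬ Broad φ (e₁ * e₂ * e₃) := by
    intro hb
    apply hb
    refine ⟨1, fun x => ?_⟩
    rw [hw, Subgroup.zpowers_one_eq_bot, Subgroup.mem_bot]
    constructor
    · intro h
      apply eq_one_of_sq_eq_one hodd
      nth_rewrite 1 [← h]
      exact inv_mul_cancel x
    · rintro rfl
      simp
  -- enumeration
  have hstep : ∀ (H : Subgroup Γ), H.index = 2 → ∀ e, e ∉ H → ∀ γ, γ ∈ H ∨ γ * e ∈ H := by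
    intro H hH e he γ
    by_cases h : γ ∈ H
    · exact Or.inl h
    · right
      rw [Subgroup.mul_mem_iff_of_index_two hH]
      exact ⟨fun h' => absurd h' h, fun h' => absurd h' he⟩
  have hone : ∀ γ a : Γ, γ * a = 1 → γ = a := by
    intro γ a h
    have h1 : γ * a = a * a := by rw [h, hexp]
    exact mul_right_cancel h1
  have henum : ∀ γ : Γ, γ = 1 ∨ γ = e₁ ∨ γ = e₂ ∨ γ = e₃ ∨ γ = e₁ * e₂ ∨ γ = e₂ * e₃ ∨ γ = e₁ * e₃ ∨
      γ = e₁ * e₂ * e₃ := by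
    intro γ
    have h3 : ∀ δ, δ ∈ H₁ → δ ∈ H₂ → δ = 1 ∨ δ * e₃ = 1 := by
      intro δ h1 h2
      rcases hstep H₃ idx₃ e₃ he₃3 δ with h | h
      · exact Or.inl (htrip δ h1 h2 h)
      · exact Or.inr (htrip _ (H₁.mul_mem h1 he₃1) (H₂.mul_mem h2 he₃2) h)
    have h2 : ∀ δ, δ ∈ H₁ → (δ = 1 ∨ δ * e₃ = 1) ∨ (δ * e₂ = 1 ∨ δ * e₂ * e₃ = 1) := by
      intro δ h1
      rcases hstep H₂ idx₂ e₂ he₂2 δ with h | h
      · exact Or.inl (h3 δ h1 h)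
      · exact Or.inr (h3 _ (H₁.mul_mem h1 he₂1) h)
    rcases hstep H₁ idx₁ e₁ he₁1 γ with h | h
    · rcases h2 γ h with (h | h) | (h | h)
      · exact Or.inl h
      · exact Or.inr (Or.inr (Or.inr (Or.inl (hone _ _ h))))
      · exact Or.inr (Or.inr (Or.inl (hone _ _ h)))
      · rw [mul_assoc] at h
        exact Or.inr (Or.inr (Or.inr (Or.inr (Or.inr (Or.inl (hone _ _ h))))))
    · rcases h2 _ h with (h | h) | (h | h)
      · exact Or.inr (Or.inl (hone _ _ h))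
      · rw [mul_assoc] at h
        exact Or.inr (Or.inr (Or.inr (Or.inr (Or.inr (Or.inr (Or.inl (hone _ _ h)))))))
      · rw [mul_assoc] at h
        exact Or.inr (Or.inr (Or.inr (Or.inr (Or.inl (hone _ _ h)))))
      · rw [mul_assoc, mul_assoc, ← mul_assoc e₁] at h
        exact Or.inr (Or.inr (Or.inr (Or.inr (Or.inr (Or.inr (Or.inr (hone _ _ h)))))))
  refine ⟨e₁, e₂, e₃, g₁, g₂, g₃, ne₁₂, ne₁₃, ne₂₃, ne₁, ne₂, ne₃, henum, ?_, ?_, hall, hsup, g₁1, g₂1,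
    g₃1, fun z hz => ⟨(S₁ z hz).2.2, (S₁ z hz).1, (S₁ z hz).2.1⟩,
    fun z hz => ⟨(S₂ z hz).1, (S₂ z hz).2.2, (S₂ z hz).2.1⟩, S₃⟩
  · intro γ hγ
    constructor
    · intro hb
      rcases henum γ with h | h | h | h | h | h | h | h
      · exact absurd h hγ
      · exact Or.inl h
      · exact Or.inr (Or.inl h)
      · exact Or.inr (Or.inr h)
      · exact absurd hb (hdisj γ (h ▸ t₃) hγ)
      · exact absurd hb (hdisj γ (h ▸ t₁) hγ)
      · exact absurd hb (hdisj γ (h ▸ t₂) hγ)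
      · exact absurd hb (h ▸ hwb)
    · rintro (rfl | rfl | rfl)
      · exact B₁
      · exact B₂
      · exact B₃
  · intro γ
    constructor
    · intro hγ
      rcases henum γ with h | h | h | h | h | h | h | h
      · exact Or.inl h
      · exact absurd B₁ (hdisj _ (h ▸ hγ) ne₁)
      · exact absurd B₂ (hdisj _ (h ▸ hγ) ne₂)
      · exact absurd B₃ (hdisj _ (h ▸ hγ) ne₃)
      · exact Or.inr (Or.inl h)
      · exact Or.inr (Or.inr (Or.inl h))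
      · exact Or.inr (Or.inr (Or.inr h))
      · exfalso
        have h1 : γ * (e₁ * e₂) ∈ Γ₀ := Γ₀.mul_mem hγ t₃
        have h2 : γ * (e₁ * e₂) = e₃ := by
          rw [h, hcomm (e₁ * e₂) e₃, mul_assoc, hexp, mul_one]
        rw [h2] at h1
        exact hdisj _ h1 ne₃ B₃
    · rintro (rfl | rfl | rfl | rfl)
      · exact Γ₀.one_mem
      · exact t₃
      · exact t₁
      · exact t₂

end core


theorem omega_bound {Q : Type*} [CommGroup Q] [Finite Q] (p : ℕ) [Fact p.Prime] (a b : Q)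
    (hgen : Subgroup.closure {a, b} = ⊤) : Nat.card {x : Q // x ^ p = 1} ≤ p ^ 2 := by
  classical
  let f : Q →* Q := powMonoidHom p
  have h1 : Nat.card {x : Q // x ^ p = 1} = Nat.card f.ker :=
    Nat.card_congr (Equiv.subtypeEquivRight (fun x => by simp [MonoidHom.mem_ker, f]))
  have h2 : Nat.card f.ker * f.ker.index = Nat.card Q := Subgroup.card_mul_index _
  have h3 : f.ker.index = Nat.card f.range := Subgroup.index_ker f
  have h4 : Nat.card f.range * f.range.index = Nat.card Q := Subgroup.card_mul_index _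
  have h5 : Nat.card f.ker = f.range.index := by
    have h6 : 0 < Nat.card f.range := Nat.card_pos
    rw [h3, ← h4, mul_comm] at h2
    exact Nat.eq_of_mul_eq_mul_left h6 h2
  rw [h1, h5]
  let π : Q →* Q ⧸ f.range := QuotientGroup.mk' f.range
  have hπ : Function.Surjective π := QuotientGroup.mk'_surjective _
  have hp0 : 0 < p := (Fact.out : p.Prime).pos
  haveI : NeZero p := ⟨hp0.ne'⟩
  have hpow : ∀ x : Q, π x ^ p = 1 := by
    intro x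
    rw [← map_pow]
    exact (QuotientGroup.eq_one_iff _).mpr ⟨x, rfl⟩
  have hmod : ∀ (c : Q ⧸ f.range), c ^ p = 1 → ∀ m : ℤ, ∃ i : Fin p, c ^ (i : ℕ) = c ^ m := by
    intro c hc m
    have hp0' : (0 : ℤ) < p := by exact_mod_cast hp0
    have hn : 0 ≤ m % p := Int.emod_nonneg _ hp0'.ne'
    have hl : m % p < p := Int.emod_lt_of_pos _ hp0'
    refine ⟨⟨(m % p).toNat, by omega⟩, ?_⟩
    have h7 : ((m % p).toNat : ℤ) = m % p := Int.toNat_of_nonneg hn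
    have h8 : c ^ ((m % p).toNat) = c ^ (m % p) := by
      rw [← zpow_natCast, h7]
    change c ^ ((m % p).toNat) = c ^ m
    rw [h8]
    conv_rhs => rw [← Int.emod_add_mul_ediv m p]
    rw [zpow_add, zpow_mul]
    have : c ^ (p : ℤ) = 1 := by rw [zpow_natCast, hc]
    rw [this, one_zpow, mul_one]
  let g : Fin p × Fin p → Q ⧸ f.range := fun ij => π a ^ (ij.1 : ℕ) * π b ^ (ij.2 : ℕ)
  have hs : Function.Surjective g := by
    intro q
    obtain ⟨x, rfl⟩ := hπ q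
    have hx : x ∈ Subgroup.closure {a, b} := by rw [hgen]; trivial
    obtain ⟨m, n, rfl⟩ := Subgroup.mem_closure_pair.mp hx
    obtain ⟨i, hi⟩ := hmod (π a) (hpow a) m
    obtain ⟨j, hj⟩ := hmod (π b) (hpow b) n
    refine ⟨(i, j), ?_⟩
    change π a ^ (i : ℕ) * π b ^ (j : ℕ) = π (a ^ m * b ^ n)
    rw [hi, hj, map_mul, map_zpow, map_zpow]
  have hc := Nat.card_le_card_of_surjective g hs
  rw [Nat.card_prod, Nat.card_fin] at hc
  rw [pow_two]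
  exact hc

/-- First coordinate of a product of three independent elements. -/
theorem coord {Q : Type*} [CommGroup Q] (p : ℕ) (hp : p.Prime) (hp2 : p ≠ 2) (σ : MulAut Q)
    (y₁ y₂ y₃ : Q) (h₁ : σ y₁ = y₁⁻¹) (h₂ : σ y₂ = y₂) (h₃ : σ y₃ = y₃) (ho : orderOf y₁ = p)
    {i i' j j' k k' : ℕ} (hi : i < p) (hi' : i' < p)
    (h : y₁ ^ i * y₂ ^ j * y₃ ^ k = y₁ ^ i' * y₂ ^ j' * y₃ ^ k') : i = i' := by
  have hπ : ∀ i j k : ℕ, (y₁ ^ i * y₂ ^ j * y₃ ^ k) * (σ (y₁ ^ i * y₂ ^ j * y₃ ^ k))⁻¹ = y₁ ^ (2 * i) := by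
    intro i j k
    simp only [map_mul, map_pow, h₁, h₂, h₃, mul_inv, inv_pow, inv_inv]
    rw [two_mul, pow_add]
    have h4 : ∀ a b c : Q, a * b * c * (a * b⁻¹ * c⁻¹) = a * a := by
      intro a b c
      calc a * b * c * (a * b⁻¹ * c⁻¹) = a * a * (b * b⁻¹) * (c * c⁻¹) := by
            simp only [mul_assoc, mul_left_comm, mul_comm]
        _ = a * a := by simp
    exact h4 _ _ _
  have h5 := hπ i j k
  rw [h, hπ i' j' k'] at h5
  have h6 : 2 * i' ≡ 2 * i [MOD orderOf y₁] := (pow_eq_pow_iff_modEq).mp h5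
  rw [ho] at h6
  have hg : Nat.gcd p 2 = 1 := by
    rw [Nat.gcd_comm]
    exact (Nat.coprime_primes Nat.prime_two hp).mpr (Ne.symm hp2)
  have h7 := Nat.ModEq.cancel_left_of_coprime hg h6
  exact (Nat.ModEq.eq_of_lt_of_lt h7 hi' hi).symm

section final

variable {p : ℕ} [Fact p.Prime] [Finite P]

theorem not_two_gen (hp2 : p ≠ 2) (hP : IsPGroup p P) (φ : Γ →* MulAut P) (e₁ e₂ e₃ : Γ)
    (g₁ g₂ g₃ : P) (hall : ∀ x y : P, x * y = y * x) (hg₁ : g₁ ≠ 1) (hg₂ : g₂ ≠ 1) (hg₃ : g₃ ≠ 1)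
    (T₁ : ∀ z ∈ Subgroup.zpowers g₁, φ e₁ z = z⁻¹ ∧ φ e₂ z = z ∧ φ e₃ z = z)
    (T₂ : ∀ z ∈ Subgroup.zpowers g₂, φ e₁ z = z ∧ φ e₂ z = z⁻¹ ∧ φ e₃ z = z)
    (T₃ : ∀ z ∈ Subgroup.zpowers g₃, φ e₁ z = z ∧ φ e₂ z = z ∧ φ e₃ z = z⁻¹) :
    ¬ ∃ a b : P, Subgroup.closure {a, b} = ⊤ := by
  rintro ⟨a, b, hab⟩
  classical
  have hpp : p.Prime := Fact.out
  letI inst : CommGroup P := { (inferInstance : Group P) with mul_comm := hall }
  have hup := omega_bound p a b hab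
  have hord : ∀ g : P, g ≠ 1 → ∃ y ∈ Subgroup.zpowers g, orderOf y = p := by
    intro g hg
    obtain ⟨m, hm⟩ := (IsPGroup.iff_orderOf.mp hP) g
    have hm0 : m ≠ 0 := by
      rintro rfl
      rw [pow_zero, orderOf_eq_one_iff] at hm
      exact hg hm
    have hd : p ∣ orderOf g := by
      rw [hm]
      exact dvd_pow_self p hm0
    refine ⟨g ^ (orderOf g / p), Subgroup.npow_mem_zpowers _ _, ?_⟩
    exact orderOf_pow_orderOf_div (by rw [hm]; exact pow_ne_zero _ hpp.ne_zero) hd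
  obtain ⟨y₁, hy₁, hoy₁⟩ := hord g₁ hg₁
  obtain ⟨y₂, hy₂, hoy₂⟩ := hord g₂ hg₂
  obtain ⟨y₃, hy₃, hoy₃⟩ := hord g₃ hg₃
  let F : Fin p × Fin p × Fin p → {x : P // x ^ p = 1} := fun ijk =>
    ⟨y₁ ^ (ijk.1 : ℕ) * y₂ ^ (ijk.2.1 : ℕ) * y₃ ^ (ijk.2.2 : ℕ), by
      have hy : ∀ y : P, orderOf y = p → y ^ p = 1 := fun y hy => by
        rw [← hy]; exact pow_orderOf_eq_one y
      rw [mul_pow, mul_pow, ← pow_mul, ← pow_mul, ← pow_mul, mul_comm (ijk.1 : ℕ),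
        mul_comm (ijk.2.1 : ℕ), mul_comm (ijk.2.2 : ℕ), pow_mul, pow_mul, pow_mul, hy y₁ hoy₁,
        hy y₂ hoy₂, hy y₃ hoy₃]
      simp⟩
  have hF : Function.Injective F := by
    rintro ⟨i, j, k⟩ ⟨i', j', k'⟩ h
    have h' : y₁ ^ (i : ℕ) * y₂ ^ (j : ℕ) * y₃ ^ (k : ℕ) =
        y₁ ^ (i' : ℕ) * y₂ ^ (j' : ℕ) * y₃ ^ (k' : ℕ) := congrArg Subtype.val h
    have hi : (i : ℕ) = i' := coord p hpp hp2 (φ e₁) y₁ y₂ y₃ (T₁ _ hy₁).1 (T₂ _ hy₂).1 (T₃ _ hy₃).1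
      hoy₁ i.2 i'.2 h'
    have hj : (j : ℕ) = j' := by
      have h2 : y₂ ^ (j : ℕ) * y₁ ^ (i : ℕ) * y₃ ^ (k : ℕ) =
          y₂ ^ (j' : ℕ) * y₁ ^ (i' : ℕ) * y₃ ^ (k' : ℕ) := by
        rw [mul_comm (y₂ ^ (j : ℕ)), mul_comm (y₂ ^ (j' : ℕ))]
        exact h'
      exact coord p hpp hp2 (φ e₂) y₂ y₁ y₃ (T₂ _ hy₂).2.1 (T₁ _ hy₁).2.1 (T₃ _ hy₃).2.1
        hoy₂ j.2 j'.2 h2
    have hk : (k : ℕ) = k' := by
      have h2 : y₃ ^ (k : ℕ) * y₁ ^ (i : ℕ) * y₂ ^ (j : ℕ) =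
          y₃ ^ (k' : ℕ) * y₁ ^ (i' : ℕ) * y₂ ^ (j' : ℕ) := by
        have rot : ∀ a b c : P, c * a * b = a * b * c := fun a b c => by rw [mul_assoc, mul_comm]
        rw [rot (y₁ ^ (i : ℕ)) (y₂ ^ (j : ℕ)) (y₃ ^ (k : ℕ)),
          rot (y₁ ^ (i' : ℕ)) (y₂ ^ (j' : ℕ)) (y₃ ^ (k' : ℕ))]
        exact h'
      exact coord p hpp hp2 (φ e₃) y₃ y₁ y₂ (T₃ _ hy₃).2.2 (T₁ _ hy₁).2.2 (T₂ _ hy₂).2.2
        hoy₃ k.2 k'.2 h2
    have hi2 : i = i' := Fin.ext hi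
    have hj2 : j = j' := Fin.ext hj
    have hk2 : k = k' := Fin.ext hk
    rw [hi2, hj2, hk2]
  have hlow := Nat.card_le_card_of_injective F hF
  rw [Nat.card_prod, Nat.card_prod, Nat.card_fin] at hlow
  have h3 : p * (p * p) ≤ p ^ 2 := hlow.trans hup
  have h2 : 2 ≤ p := hpp.two_le
  nlinarith

end final

/-- Let p be an odd prime, P a finite p-group and I an elementary abelian subgroup of order 8 of Aut(P). Call T ∈ I, T ≠ 1, broad when its fixed-point subgroup C_P(T) is not cyclic. Suppose I has a proper subgroup I₀ containing no broad element such that the product of any two broad elements lies in I₀. Then P is abelian of rank exactly 3 (generated by three elements but not by two), there are exactly three broad elements and they generate I, and I₀ is exactly the set of products of two broad elements. -/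
theorem result
    {P : Type*} [Group P] [Finite P] (p : ℕ) (hp : p.Prime) (hp2 : p ≠ 2) (hP : IsPGroup p P)
    (I : Subgroup (MulAut P)) (hI : Cfsg.IsElementaryAbelian 2 I) (hI8 : Nat.card ↥I = 8)
    (I₀ : Subgroup (MulAut P)) (hI₀ : I₀ < I)
    (hdisj : ∀ T ∈ I₀, T ≠ 1 → ∃ g : P, ∀ x : P, (T x = x ↔ x ∈ Subgroup.zpowers g))
    (hprod : ∀ T ∈ I, ∀ T' ∈ I, T ≠ 1 → T' ≠ 1 → (¬ ∃ g : P, ∀ x : P, (T x = x ↔ x ∈ Subgroup.zpowers g)) →
      (¬ ∃ g : P, ∀ x : P, (T' x = x ↔ x ∈ Subgroup.zpowers g)) → T * T' ∈ I₀) :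
    IsMulCommutative P ∧ (∃ a b c : P, Subgroup.closure {a, b, c} = ⊤) ∧ (¬ ∃ a b : P, Subgroup.closure {a, b} = ⊤) ∧
      Nat.card {T : MulAut P // T ∈ I ∧ T ≠ 1 ∧ ¬ ∃ g : P, ∀ x : P, (T x = x ↔ x ∈ Subgroup.zpowers g)} = 3 ∧
      Subgroup.closure {T : MulAut P | T ∈ I ∧ T ≠ 1 ∧ ¬ ∃ g : P, ∀ x : P, (T x = x ↔ x ∈ Subgroup.zpowers g)} = I ∧
      (I₀ : Set (MulAut P)) = {S : MulAut P | ∃ T T' : MulAut P, T ∈ I ∧ T' ∈ I ∧ T ≠ 1 ∧ T' ≠ 1 ∧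
        (¬ ∃ g : P, ∀ x : P, (T x = x ↔ x ∈ Subgroup.zpowers g)) ∧ (¬ ∃ g : P, ∀ x : P, (T' x = x ↔ x ∈ Subgroup.zpowers g)) ∧ S = T * T'} := by
  classical
  haveI : Fact p.Prime := ⟨hp⟩
  let φ : ↥I →* MulAut P := I.subtype
  have hφ : Function.Injective φ := I.subtype_injective
  have hcomm : ∀ a b : ↥I, a * b = b * a := hI.1.is_comm.comm
  have hexp : ∀ a : ↥I, a * a = 1 := fun a => by
    apply Subtype.ext
    have := hI.2 a a.2
    rw [pow_two] at this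
    exact this
  have hd' : ∀ γ ∈ I₀.subgroupOf I, γ ≠ 1 → ¬ Broad φ γ := fun γ hγ hne hb =>
    hb (hdisj γ hγ (fun h => hne (Subtype.ext h)))
  have hp' : ∀ γ γ' : ↥I, γ ≠ 1 → γ' ≠ 1 → Broad φ γ → Broad φ γ' → γ * γ' ∈ I₀.subgroupOf I :=
    fun γ γ' h1 h2 hb hb' => hprod γ γ.2 γ' γ'.2 (fun h => h1 (Subtype.ext h))
      (fun h => h2 (Subtype.ext h)) hb hb'
  obtain ⟨e₁, e₂, e₃, g₁, g₂, g₃, ne₁₂, ne₁₃, ne₂₃, ne₁, ne₂, ne₃, henum, hbr, hΓ₀, hall, hsup, hg₁, hg₂,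
    hg₃, T₁, T₂, T₃⟩ := core hp2 hP φ hφ hcomm hexp hI8 (I₀.subgroupOf I) hd' hp'
  have hcoe : ∀ a b : ↥I, a ≠ b → (a : MulAut P) ≠ b := fun a b h h' => h (Subtype.ext h')
  have hcoe1 : ∀ a : ↥I, a ≠ 1 → (a : MulAut P) ≠ 1 := fun a h h' => h (Subtype.ext h')
  have hS : {T : MulAut P | T ∈ I ∧ T ≠ 1 ∧ ¬ ∃ g : P, ∀ x : P, (T x = x ↔ x ∈ Subgroup.zpowers g)} =
      {(e₁ : MulAut P), (e₂ : MulAut P), (e₃ : MulAut P)} := by
    ext T
    constructor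
    · rintro ⟨hT, h1, hb⟩
      have hne : (⟨T, hT⟩ : ↥I) ≠ 1 := fun h => h1 (congrArg Subtype.val h)
      rcases (hbr ⟨T, hT⟩ hne).mp hb with h | h | h
      · exact Or.inl (congrArg Subtype.val h)
      · exact Or.inr (Or.inl (congrArg Subtype.val h))
      · exact Or.inr (Or.inr (congrArg Subtype.val h))
    · rintro (rfl | rfl | rfl)
      · exact ⟨e₁.2, hcoe1 _ ne₁, (hbr e₁ ne₁).mpr (Or.inl rfl)⟩
      · exact ⟨e₂.2, hcoe1 _ ne₂, (hbr e₂ ne₂).mpr (Or.inr (Or.inl rfl))⟩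
      · exact ⟨e₃.2, hcoe1 _ ne₃, (hbr e₃ ne₃).mpr (Or.inr (Or.inr rfl))⟩
  refine ⟨⟨⟨hall⟩⟩, ⟨g₁, g₂, g₃, ?_⟩, not_two_gen hp2 hP φ e₁ e₂ e₃ g₁ g₂ g₃ hall hg₁ hg₂ hg₃ T₁ T₂ T₃,
    ?_, ?_, ?_⟩
  · rw [eq_top_iff, ← hsup]
    refine sup_le (sup_le ?_ ?_) ?_
    · exact (Subgroup.zpowers_le).mpr (Subgroup.subset_closure (by simp))
    · exact (Subgroup.zpowers_le).mpr (Subgroup.subset_closure (by simp))
    · exact (Subgroup.zpowers_le).mpr (Subgroup.subset_closure (by simp))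
  · have h3 : Set.ncard {T : MulAut P | T ∈ I ∧ T ≠ 1 ∧
        ¬ ∃ g : P, ∀ x : P, (T x = x ↔ x ∈ Subgroup.zpowers g)} = 3 := by
      rw [hS, Set.ncard_eq_three]
      exact ⟨_, _, _, hcoe _ _ ne₁₂, hcoe _ _ ne₁₃, hcoe _ _ ne₂₃, rfl⟩
    rw [← Nat.card_coe_set_eq] at h3
    exact h3
  · rw [hS]
    apply le_antisymm
    · rw [Subgroup.closure_le]
      rintro _ (rfl | rfl | rfl)
      · exact e₁.2
      · exact e₂.2
      · exact e₃.2
    · intro T hT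
      have h1 : (e₁ : MulAut P) ∈ Subgroup.closure {(e₁ : MulAut P), (e₂ : MulAut P), (e₃ : MulAut P)} :=
        Subgroup.subset_closure (by simp)
      have h2 : (e₂ : MulAut P) ∈ Subgroup.closure {(e₁ : MulAut P), (e₂ : MulAut P), (e₃ : MulAut P)} :=
        Subgroup.subset_closure (by simp)
      have h3 : (e₃ : MulAut P) ∈ Subgroup.closure {(e₁ : MulAut P), (e₂ : MulAut P), (e₃ : MulAut P)} :=
        Subgroup.subset_closure (by simp)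
      have hval : ∀ γ : ↥I, (γ = 1 ∨ γ = e₁ ∨ γ = e₂ ∨ γ = e₃ ∨ γ = e₁ * e₂ ∨ γ = e₂ * e₃ ∨ γ = e₁ * e₃ ∨
          γ = e₁ * e₂ * e₃) → (γ : MulAut P) ∈ Subgroup.closure
            {(e₁ : MulAut P), (e₂ : MulAut P), (e₃ : MulAut P)} := by
        rintro γ (rfl | rfl | rfl | rfl | rfl | rfl | rfl | rfl)
        · exact Subgroup.one_mem _
        · exact h1
        · exact h2
        · exact h3
        · exact Subgroup.mul_mem _ h1 h2
        · exact Subgroup.mul_mem _ h2 h3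
        · exact Subgroup.mul_mem _ h1 h3
        · exact Subgroup.mul_mem _ (Subgroup.mul_mem _ h1 h2) h3
      exact hval ⟨T, hT⟩ (henum ⟨T, hT⟩)
  · have hb₁ := (hbr e₁ ne₁).mpr (Or.inl rfl)
    have hb₂ := (hbr e₂ ne₂).mpr (Or.inr (Or.inl rfl))
    have hb₃ := (hbr e₃ ne₃).mpr (Or.inr (Or.inr rfl))
    ext S
    constructor
    · intro hS'
      have hSI : S ∈ I := hI₀.le hS'
      rcases (hΓ₀ ⟨S, hSI⟩).mp hS' with h | h | h | h
      · refine ⟨e₁, e₁, e₁.2, e₁.2, hcoe1 _ ne₁, hcoe1 _ ne₁, hb₁, hb₁, ?_⟩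
        have h1 : S = 1 := congrArg Subtype.val h
        have h2 := congrArg Subtype.val (hexp e₁)
        exact h1.trans h2.symm
      · exact ⟨e₁, e₂, e₁.2, e₂.2, hcoe1 _ ne₁, hcoe1 _ ne₂, hb₁, hb₂, congrArg Subtype.val h⟩
      · exact ⟨e₂, e₃, e₂.2, e₃.2, hcoe1 _ ne₂, hcoe1 _ ne₃, hb₂, hb₃, congrArg Subtype.val h⟩
      · exact ⟨e₁, e₃, e₁.2, e₃.2, hcoe1 _ ne₁, hcoe1 _ ne₃, hb₁, hb₃, congrArg Subtype.val h⟩
    · rintro ⟨T, T', hT, hT', h1, h1', hb, hb', rfl⟩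
      exact hprod T hT T' hT' h1 h1' hb hb'

end Cfsg.Agent.S4412
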