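import Cfsg.Statements.S4413
import Mathlib
import Cfsg.Agent.Lib.PGroup.ExtraOut

set_option autoImplicit false
open Cfsg

namespace Cfsg.Agent.S4413

open Cfsg.Agent.Lib.PGroup.ExtraQuad Cfsg.Agent.Lib.PGroup.ExtraClass Cfsg.Agent.Lib.PGroup.ExtraOut

/-- The index set. -/
abbrev I4 := (Fin 1 ⊕ Fin 1) ⊕ Fin 2
/-- The space. -/
abbrev V4 := I4 → ZMod 2
/-- The form. -/
noncomputable abbrev Q4 : V4 → ZMod 2 := Cfsg.quadFormMinus 1 (ZMod 2) 1 1

/-- Explicit vectors. -/
def vec (a b c d : ZMod 2) : V4 := fun x => match x with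
  | .inl (.inl _) => a
  | .inl (.inr _) => b
  | .inr i => if i = 0 then c else d

lemma fin1_eq (i : Fin 1) : i = 0 := Subsingleton.elim _ _

lemma vec_eta (v : V4) :
    v = vec (v (.inl (.inl 0))) (v (.inl (.inr 0))) (v (.inr 0)) (v (.inr 1)) := by
  funext x
  rcases x with (i | i) | k
  · rw [fin1_eq i]; rfl
  · rw [fin1_eq i]; rfl
  · fin_cases k <;> rfl

lemma vec_ext {a b c d a' b' c' d' : ZMod 2} :
    vec a b c d = vec a' b' c' d' ↔ a = a' ∧ b = b' ∧ c = c' ∧ d = d' := by
  constructor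
  · intro h
    exact ⟨congrFun h (.inl (.inl 0)), congrFun h (.inl (.inr 0)), congrFun h (.inr 0),
      congrFun h (.inr 1)⟩
  · rintro ⟨rfl, rfl, rfl, rfl⟩; rfl

lemma Q_vec (a b c d : ZMod 2) : Q4 (vec a b c d) = a * b + (c ^ 2 + c * d + d ^ 2) := by
  simp [Q4, Cfsg.quadFormMinus, vec]

lemma vec_add (a b c d a' b' c' d' : ZMod 2) :
    vec a b c d + vec a' b' c' d' = vec (a + a') (b + b') (c + c') (d + d') := by
  funext x
  rcases x with (i | i) | k
  · rfl
  · rfl
  · fin_cases k <;> rfl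

lemma vec_zero : vec 0 0 0 0 = 0 := by
  funext x
  rcases x with (i | i) | k
  · rfl
  · rfl
  · fin_cases k <;> rfl

lemma vec_smul (t a b c d : ZMod 2) : t • vec a b c d = vec (t * a) (t * b) (t * c) (t * d) := by
  funext x
  rcases x with (i | i) | k
  · rfl
  · rfl
  · fin_cases k <;> rfl

/-- The five singular vectors. -/
def sv : Fin 5 → V4 := ![vec 1 0 0 0, vec 0 1 0 0, vec 1 1 1 0, vec 1 1 0 1, vec 1 1 1 1]

lemma q4_cases : ∀ a b c d : ZMod 2, a * b + (c ^ 2 + c * d + d ^ 2) = 0 →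
    (a = 0 ∧ b = 0 ∧ c = 0 ∧ d = 0) ∨ (a = 1 ∧ b = 0 ∧ c = 0 ∧ d = 0) ∨
    (a = 0 ∧ b = 1 ∧ c = 0 ∧ d = 0) ∨ (a = 1 ∧ b = 1 ∧ c = 1 ∧ d = 0) ∨
    (a = 1 ∧ b = 1 ∧ c = 0 ∧ d = 1) ∨ (a = 1 ∧ b = 1 ∧ c = 1 ∧ d = 1) := by
  decide

lemma exists_sv {v : V4} (h0 : v ≠ 0) (hQ : Q4 v = 0) : ∃ i, v = sv i := by
  rw [vec_eta v, Q_vec] at hQ
  rcases q4_cases _ _ _ _ hQ with ⟨h1, h2, h3, h4⟩ | ⟨h1, h2, h3, h4⟩ | ⟨h1, h2, h3, h4⟩ |
    ⟨h1, h2, h3, h4⟩ | ⟨h1, h2, h3, h4⟩ | ⟨h1, h2, h3, h4⟩
  · exfalso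
    apply h0
    rw [vec_eta v, h1, h2, h3, h4, vec_zero]
  · exact ⟨0, by rw [vec_eta v, h1, h2, h3, h4]; rfl⟩
  · exact ⟨1, by rw [vec_eta v, h1, h2, h3, h4]; rfl⟩
  · exact ⟨2, by rw [vec_eta v, h1, h2, h3, h4]; rfl⟩
  · exact ⟨3, by rw [vec_eta v, h1, h2, h3, h4]; rfl⟩
  · exact ⟨4, by rw [vec_eta v, h1, h2, h3, h4]; rfl⟩

lemma sv_ne_zero (i : Fin 5) : sv i ≠ 0 := by
  rw [← vec_zero]
  fin_cases i <;> simp [sv, vec_ext]

lemma Q_sv (i : Fin 5) : Q4 (sv i) = 0 := by
  fin_cases i <;> simp only [sv, Q_vec] <;> decide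

lemma sv_inj : Function.Injective sv := by
  intro i j h
  fin_cases i <;> fin_cases j <;> first | rfl | (exfalso; revert h; simp [sv, vec_ext])

/-- The polar form. -/
def BB (u v : V4) : ZMod 2 :=
  u (.inl (.inl 0)) * v (.inl (.inr 0)) + u (.inl (.inr 0)) * v (.inl (.inl 0)) +
    u (.inr 0) * v (.inr 1) + u (.inr 1) * v (.inr 0)

lemma BB_add_left (u v w : V4) : BB (u + v) w = BB u w + BB v w := by
  simp only [BB, Pi.add_apply]; ring

lemma BB_smul_left (t : ZMod 2) (u w : V4) : BB (t • u) w = t * BB u w := by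
  simp only [BB, Pi.smul_apply, smul_eq_mul]; ring

lemma BB_add_right (u v w : V4) : BB w (u + v) = BB w u + BB w v := by
  simp only [BB, Pi.add_apply]; ring

lemma BB_smul_right (t : ZMod 2) (u w : V4) : BB w (t • u) = t * BB w u := by
  simp only [BB, Pi.smul_apply, smul_eq_mul]; ring

lemma two_zero : (2 : ZMod 2) = 0 := rfl

lemma BB_self (u : V4) : BB u u = 0 := by
  simp only [BB]
  linear_combination (u (.inl (.inl 0)) * u (.inl (.inr 0)) + u (.inr 0) * u (.inr 1)) * two_zero

lemma Q_add (u v : V4) : Q4 (u + v) = Q4 u + Q4 v + BB u v := by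
  rw [vec_eta u, vec_eta v, vec_add, Q_vec, Q_vec, Q_vec]
  simp only [BB, vec]
  simp
  ring

lemma Q_smul (t : ZMod 2) (u : V4) : Q4 (t • u) = t ^ 2 * Q4 u := by
  rw [vec_eta u, vec_smul, Q_vec, Q_vec]
  ring

lemma BB_sv : ∀ i j : Fin 5, BB (sv i) (sv j) = if i = j then 0 else 1 := by
  intro i j
  fin_cases i <;> fin_cases j <;> simp [BB, sv, vec] <;> decide

lemma zmod_sq_eq (t : ZMod 2) : t ^ 2 = t := by revert t; decide

/-- The transvection. -/
def Tlin (u : V4) : V4 →ₗ[ZMod 2] V4 where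
  toFun v := v + BB v u • u
  map_add' a b := by
    rw [BB_add_left, add_smul]; abel
  map_smul' t a := by
    rw [BB_smul_left, mul_smul, smul_add]; rfl

lemma Tlin_apply (u v : V4) : Tlin u v = v + BB v u • u := rfl

lemma Tlin_invol (u v : V4) : Tlin u (Tlin u v) = v := by
  simp only [Tlin_apply, BB_add_left, BB_smul_left, BB_self, mul_zero, add_zero]
  rw [add_assoc, ← add_smul, zmod2_add_self, zero_smul, add_zero]

lemma Q_Tlin {u : V4} (hu : Q4 u = 1) (v : V4) : Q4 (Tlin u v) = Q4 v := by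
  rw [Tlin_apply, Q_add, Q_smul, hu, BB_smul_right, mul_one, zmod_sq_eq]
  have := zmod_sq_eq (BB v u)
  have h2 : BB v u * BB v u = BB v u := by rw [← pow_two]; exact this
  rw [h2]
  linear_combination (BB v u) * two_zero

/-- The matrix of a transvection. -/
noncomputable def Tmat (u : V4) : Matrix I4 I4 (ZMod 2) := LinearMap.toMatrix' (Tlin u)

lemma Tmat_mulVec (u v : V4) : (Tmat u).mulVec v = Tlin u v := by
  rw [Tmat, LinearMap.toMatrix'_mulVec]

lemma Tmat_sq (u : V4) : Tmat u * Tmat u = 1 := by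
  apply Matrix.mulVec_injective
  funext v
  rw [← Matrix.mulVec_mulVec, Tmat_mulVec, Tmat_mulVec, Tlin_invol, Matrix.one_mulVec]

/-- The transvection in the general linear group. -/
noncomputable def Tgl (u : V4) : Matrix.GeneralLinearGroup I4 (ZMod 2) :=
  ⟨Tmat u, Tmat u, Tmat_sq u, Tmat_sq u⟩

lemma Tgl_mem {u : V4} (hu : Q4 u = 1) : Tgl u ∈ Cfsg.isometryGroup (ZMod 2) Q4 := by
  intro v _
  show Q4 ((Tmat u).mulVec v) = Q4 v
  rw [Tmat_mulVec, Q_Tlin hu]

/-- Elements of the isometry group. -/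
noncomputable abbrev OG := Cfsg.isometryGroup (ZMod 2) Q4

lemma og_Q (g : OG) (v : V4) :
    Q4 ((g.1 : Matrix I4 I4 (ZMod 2)).mulVec v) = Q4 v := g.2 v v

lemma og_mul (g h : OG) (v : V4) : (((g * h : OG).1 : Matrix I4 I4 (ZMod 2))).mulVec v =
    (g.1 : Matrix I4 I4 (ZMod 2)).mulVec ((h.1 : Matrix I4 I4 (ZMod 2)).mulVec v) := by
  rw [Matrix.mulVec_mulVec]; rfl

lemma og_inv (g : OG) (v : V4) :
    (g.1 : Matrix I4 I4 (ZMod 2)).mulVec (((g⁻¹ : OG).1 : Matrix I4 I4 (ZMod 2)).mulVec v) = v := by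
  rw [← og_mul, mul_inv_cancel]
  exact Matrix.one_mulVec v

lemma og_inv' (g : OG) (v : V4) :
    ((g⁻¹ : OG).1 : Matrix I4 I4 (ZMod 2)).mulVec ((g.1 : Matrix I4 I4 (ZMod 2)).mulVec v) = v := by
  rw [← og_mul, inv_mul_cancel]
  exact Matrix.one_mulVec v

lemma exists_act (g : OG) (i : Fin 5) : ∃ j, (g.1 : Matrix I4 I4 (ZMod 2)).mulVec (sv i) = sv j := by
  refine exists_sv ?_ (by rw [og_Q, Q_sv])
  intro h
  apply sv_ne_zero i
  have := og_inv' g (sv i)
  rw [h, Matrix.mulVec_zero] at this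
  exact this.symm

/-- The action on the five points. -/
noncomputable def act (g : OG) (i : Fin 5) : Fin 5 := (exists_act g i).choose

lemma act_spec (g : OG) (i : Fin 5) : (g.1 : Matrix I4 I4 (ZMod 2)).mulVec (sv i) = sv (act g i) :=
  (exists_act g i).choose_spec

lemma act_one (i : Fin 5) : act 1 i = i := by
  apply sv_inj
  rw [← act_spec]
  exact Matrix.one_mulVec _

lemma act_mul (g h : OG) (i : Fin 5) : act (g * h) i = act g (act h i) := by
  apply sv_inj
  rw [← act_spec, og_mul, act_spec, act_spec]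

/-- The hom to the symmetric group. -/
noncomputable def rho : OG →* Equiv.Perm (Fin 5) where
  toFun g :=
    { toFun := act g
      invFun := act g⁻¹
      left_inv := fun i => by rw [← act_mul, inv_mul_cancel, act_one]
      right_inv := fun i => by rw [← act_mul, mul_inv_cancel, act_one] }
  map_one' := by
    ext i
    simp [act_one]
  map_mul' g h := by
    ext i
    simp [act_mul]

lemma rho_apply (g : OG) (i : Fin 5) : rho g i = act g i := rfl

lemma rho_inj : Function.Injective rho := by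
  rw [injective_iff_map_eq_one]
  intro g hg
  have hfix : ∀ i, (g.1 : Matrix I4 I4 (ZMod 2)).mulVec (sv i) = sv i := by
    intro i
    rw [act_spec, ← rho_apply, hg]; rfl
  let R : AddSubgroup V4 :=
    { carrier := {v | (g.1 : Matrix I4 I4 (ZMod 2)).mulVec v = v}
      add_mem' := by
        intro a b ha hb
        show _ = _
        rw [Matrix.mulVec_add, ha, hb]
      zero_mem' := Matrix.mulVec_zero _
      neg_mem' := by
        intro a ha
        show _ = _
        rw [Matrix.mulVec_neg, ha] }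
  have hsv : ∀ i, sv i ∈ R := hfix
  have h2 : vec 0 0 1 0 ∈ R := by
    have : vec 0 0 1 0 = sv 2 + sv 0 + sv 1 := by
      simp only [sv]
      show vec 0 0 1 0 = vec 1 1 1 0 + vec 1 0 0 0 + vec 0 1 0 0
      rw [vec_add, vec_add]
      rfl
    rw [this]
    exact R.add_mem (R.add_mem (hsv 2) (hsv 0)) (hsv 1)
  have h3 : vec 0 0 0 1 ∈ R := by
    have : vec 0 0 0 1 = sv 3 + sv 0 + sv 1 := by
      simp only [sv]
      show vec 0 0 0 1 = vec 1 1 0 1 + vec 1 0 0 0 + vec 0 1 0 0
      rw [vec_add, vec_add]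
      rfl
    rw [this]
    exact R.add_mem (R.add_mem (hsv 3) (hsv 0)) (hsv 1)
  have hall : ∀ v, v ∈ R := by
    refine mem_of_single R ?_
    rintro ((i | i) | k)
    · rw [fin1_eq i]
      have : (Pi.single (Sum.inl (Sum.inl 0)) 1 : V4) = sv 0 := by
        funext x
        rcases x with (i | i) | k
        · rw [fin1_eq i]; simp [sv, vec]
        · simp [sv, vec]
        · simp [sv, vec]
      rw [this]; exact hsv 0
    · rw [fin1_eq i]
      have : (Pi.single (Sum.inl (Sum.inr 0)) 1 : V4) = sv 1 := by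
        funext x
        rcases x with (i | i) | k
        · simp [sv, vec]
        · rw [fin1_eq i]; simp [sv, vec]
        · simp [sv, vec]
      rw [this]; exact hsv 1
    · fin_cases k
      · have : (Pi.single (Sum.inr 0) 1 : V4) = vec 0 0 1 0 := by
          funext x
          rcases x with (i | i) | k
          · simp [vec]
          · simp [vec]
          · fin_cases k <;> simp [vec]
        simp only [Fin.zero_eta, Fin.isValue]
        rw [this]; exact h2
      · have : (Pi.single (Sum.inr 1) 1 : V4) = vec 0 0 0 1 := by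
          funext x
          rcases x with (i | i) | k
          · simp [vec]
          · simp [vec]
          · fin_cases k <;> simp [vec]
        simp only [Fin.mk_one, Fin.isValue]
        rw [this]; exact h3
  apply Subtype.ext
  apply Units.ext
  apply Matrix.mulVec_injective
  funext v
  have := hall v
  show (g.1 : Matrix I4 I4 (ZMod 2)).mulVec v = (1 : Matrix I4 I4 (ZMod 2)).mulVec v
  rw [Matrix.one_mulVec]
  exact this

/-- The transvection attached to a pair of points. -/
noncomputable def tau (i j : Fin 5) (hij : i ≠ j) : OG :=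
  ⟨Tgl (sv i + sv j), Tgl_mem (by
    rw [Q_add, Q_sv, Q_sv, BB_sv, if_neg hij]; rfl)⟩

lemma rho_tau (i j : Fin 5) (hij : i ≠ j) : rho (tau i j hij) = Equiv.swap i j := by
  ext k
  have h1 : (sv (rho (tau i j hij) k)) = sv (Equiv.swap i j k) := by
    rw [rho_apply, ← act_spec]
    show (Tmat (sv i + sv j)).mulVec (sv k) = _
    rw [Tmat_mulVec, Tlin_apply, BB_add_right, BB_sv, BB_sv]
    by_cases hki : k = i
    · subst hki
      rw [if_pos rfl, if_neg hij, Equiv.swap_apply_left, zero_add, one_smul, ← add_assoc,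
        ]
      funext x
      have := zmod2_add_self (sv k x)
      simp only [Pi.add_apply]
      rw [this, zero_add]
    · by_cases hkj : k = j
      · subst hkj
        rw [if_neg hki, if_pos rfl, Equiv.swap_apply_right, add_zero, one_smul, add_comm (sv i),
          ← add_assoc]
        funext x
        have := zmod2_add_self (sv k x)
        simp only [Pi.add_apply]
        rw [this, zero_add]
      · rw [if_neg hki, if_neg hkj, Equiv.swap_apply_of_ne_of_ne hki hkj, zmod2_add_self,
          zero_smul, add_zero]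
  rw [sv_inj h1]

lemma rho_surj : Function.Surjective rho := by
  rw [← MonoidHom.range_eq_top, eq_top_iff, ← Equiv.Perm.closure_isSwap, Subgroup.closure_le]
  rintro σ ⟨i, j, hij, rfl⟩
  exact ⟨tau i j hij, rho_tau i j hij⟩

/-- The isometry group of the elliptic form on `F₂⁴` is `S₅`. -/
noncomputable def ogEquiv : OG ≃* Equiv.Perm (Fin 5) :=
  MulEquiv.ofBijective rho ⟨rho_inj, rho_surj⟩



/-- Let P be an extraspecial 2-group of order 32 with no elementary abelian subgroup of order 8 (the central product of a dihedral and a quaternion group of order 8). Then the inner automorphism group of P has order 16 and the outer automorphism group Aut(P)/Inn(P) is isomorphic to the symmetric group of degree 5; in particular Aut(P) has order 1920. -/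
theorem result {P : Type*} [Group P] [Finite P]
    (hex : Cfsg.IsExtraspecial 2 P) (h32 : Nat.card P = 32)
    (hminus : ∀ A : Subgroup P, Cfsg.IsElementaryAbelian 2 A → Nat.card ↥A ≤ 4)
    [(MulAut.conj : P →* MulAut P).range.Normal] :
    Nat.card ↥(MulAut.conj : P →* MulAut P).range = 16 ∧ Nat.card (MulAut P) = 1920 ∧
      Nonempty ((MulAut P ⧸ (MulAut.conj : P →* MulAut P).range) ≃* Equiv.Perm (Fin 5)) := by
  have h := quadPair_of_extraspecial hex
  have hno : ¬ ∃ A : Subgroup P, Cfsg.IsElementaryAbelian 2 A ∧ Nat.card ↥A = 2 ^ (2 + 1) := by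
    rintro ⟨A, hA, hc⟩
    have := hminus A hA
    rw [hc] at this
    norm_num at this
  have hcard : Nat.card P = 2 ^ (2 * 2 + 1) := by rw [h32]; norm_num
  obtain ⟨hO⟩ := (out_extraspecial hex 2 (by norm_num) hcard).2 hno
  have hinn : Nat.card ↥(MulAut.conj : P →* MulAut P).range = 16 := by
    have h1 : (MulAut.conj : P →* MulAut P).ker = Subgroup.center P := by
      ext x
      rw [MonoidHom.mem_ker, Subgroup.mem_center_iff]
      constructor
      · intro hx g
        have := congrArg (fun f : MulAut P => f g) hx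
        simp only [MulAut.conj_apply, MulAut.one_apply] at this
        calc g * x = x * g * x⁻¹ * x := by rw [this]
          _ = x * g := by group
      · intro hx
        ext g
        simp only [MulAut.conj_apply, MulAut.one_apply]
        rw [← hx g]; group
    have h2 := Subgroup.index_ker (MulAut.conj : P →* MulAut P)
    have h3 := Subgroup.card_mul_index (MulAut.conj : P →* MulAut P).ker
    rw [h2, h1, h.card_eq, h32] at h3
    omega
  refine ⟨hinn, ?_, ⟨hO.trans ogEquiv⟩⟩
  have h3 := Subgroup.card_mul_index (MulAut.conj : P →* MulAut P).range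
  have h4 : (MulAut.conj : P →* MulAut P).range.index = 120 := by
    rw [Subgroup.index_eq_card]
    have h5 : Nat.card (MulAut P ⧸ (MulAut.conj : P →* MulAut P).range) = Nat.card (Equiv.Perm (Fin 5)) :=
      Nat.card_congr (hO.trans ogEquiv).toEquiv
    rw [h5, Nat.card_eq_fintype_card, Fintype.card_perm, Fintype.card_fin]
    rfl
  rw [hinn, h4] at h3
  omega

end Cfsg.Agent.S4413
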