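import Cfsg.Statements.S4414
import Mathlib

set_option autoImplicit false
set_option linter.unusedSectionVars false
set_option linter.unusedVariables false
set_option linter.style.haveILetI false
open Cfsg

namespace Cfsg.Agent.S4414

open Module TensorProduct
open scoped commutatorElement

section Graded

variable {K V X : Type*} [Field K] [AddCommGroup V] [Module K V]

/-- The sum of the pieces over a set of indices. -/
def part (W : X → Submodule K V) (D : Set X) : Submodule K V := ⨆ χ ∈ D, W χ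

theorem part_mono (W : X → Submodule K V) {D D' : Set X} (h : D ⊆ D') : part W D ≤ part W D' :=
  biSup_mono h

theorem le_part (W : X → Submodule K V) {D : Set X} {χ : X} (h : χ ∈ D) : W χ ≤ part W D :=
  le_biSup W h

theorem part_empty (W : X → Submodule K V) : part W ∅ = ⊥ := by simp [part]

theorem part_union (W : X → Submodule K V) (D D' : Set X) :
    part W (D ∪ D') = part W D ⊔ part W D' := by
  unfold part
  exact iSup_union

theorem part_disjoint {W : X → Submodule K V} (hW : iSupIndep W) {D D' : Set X}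
    (h : Disjoint D D') : Disjoint (part W D) (part W D') :=
  hW.disjoint_biSup_biSup h

theorem part_inter {W : X → Submodule K V} (hW : iSupIndep W) {D D' : Set X} {v : V}
    (h : v ∈ part W D) (h' : v ∈ part W D') : v ∈ part W (D ∩ D') := by
  have e : part W D = part W (D ∩ D') ⊔ part W (D \ D') := by
    rw [← part_union, Set.inter_union_sdiff]
  rw [e] at h
  obtain ⟨a, ha, b, hb, rfl⟩ := Submodule.mem_sup.1 h
  have hb0 : b = 0 := by
    have hd : Disjoint (part W (D \ D')) (part W D') :=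
      part_disjoint hW (Set.disjoint_sdiff_left)
    have hb' : b ∈ part W D' := by
      have e2 : b = (a + b) - a := by abel
      rw [e2]
      exact Submodule.sub_mem _ h' (part_mono W Set.inter_subset_right ha)
    exact Submodule.disjoint_def.1 hd b hb hb'
  simpa [hb0] using ha

theorem map_part {W : X → Submodule K V} (f : V →ₗ[K] V) (s : X → X)
    (hf : ∀ χ, ∀ v ∈ W χ, f v ∈ W (s χ)) {D : Set X} {v : V} (hv : v ∈ part W D) :
    f v ∈ part W (s '' D) := by
  have h : part W D ≤ (part W (s '' D)).comap f := by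
    refine iSup₂_le fun χ hχ v hv => ?_
    exact le_part W (Set.mem_image_of_mem s hχ) (hf χ v hv)
  exact h hv

/-- The vectors fixed by a group of endomorphisms. -/
def fixSub {T : Type*} [Group T] (τ : T →* Module.End K V) : Submodule K V where
  carrier := {v | ∀ t, τ t v = v}
  add_mem' := fun {a b} ha hb t => by rw [map_add, ha t, hb t]
  zero_mem' := fun t => map_zero _
  smul_mem' := fun c a ha t => by rw [map_smul, ha t]

theorem mem_fixSub {T : Type*} [Group T] {τ : T →* Module.End K V} {v : V} :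
    v ∈ fixSub τ ↔ ∀ t, τ t v = v := Iff.rfl

/-- A permutation of prime order without fixed points has no invariant finite set of order prime
to its order. -/
theorem false_of_stable {X : Type*} (g : Equiv.Perm X) (q : ℕ) [Fact q.Prime] (hg : g ^ q = 1)
    {O : Set X} (hO : O.Finite) (hst : ∀ x ∈ O, g x ∈ O) (hfree : ∀ x ∈ O, g x ≠ x)
    (hne : O.Nonempty) (hcard : ¬ q ∣ Nat.card O) : False := by
  classical
  have hpow : ∀ n : ℕ, ∀ x ∈ O, (g ^ n) x ∈ O := by
    intro n
    induction n with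
    | zero => intro x hx; simpa using hx
    | succ n ih =>
      intro x hx
      rw [pow_succ', Equiv.Perm.mul_apply]
      exact hst _ (ih x hx)
  have hq : 1 ≤ q := (Fact.out : q.Prime).one_lt.le
  have hinv : ∀ x, g x ∈ O → x ∈ O := by
    intro x hx
    have h1 := hpow (q - 1) _ hx
    rw [← Equiv.Perm.mul_apply, ← pow_succ, Nat.sub_add_cancel hq, hg] at h1
    simpa using h1
  let f : Function.End O := fun x => ⟨g x, hst x x.2⟩
  have hpowf : ∀ n : ℕ, ∀ x : O, (((f ^ n) x : O) : X) = (g ^ n) x.1 := by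
    intro n
    induction n with
    | zero => intro x; rfl
    | succ n ih =>
      intro x
      rw [pow_succ', Function.End.mul_def, pow_succ', Equiv.Perm.mul_apply]
      change g (((f ^ n) x : O) : X) = _
      rw [ih]
  have hf1 : f ^ (q ^ 1) = 1 := by
    funext x
    apply Subtype.ext
    rw [pow_one, hpowf, hg]
    rfl
  haveI : Fintype O := hO.fintype
  have h2 := Equiv.Perm.card_fixedPoints_modEq hf1
  have h3 : Fintype.card (Function.fixedPoints f) = 0 := by
    rw [Fintype.card_eq_zero_iff]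
    refine ⟨fun x => ?_⟩
    have hx : f x.1 = x.1 := x.2
    exact hfree x.1.1 x.1.2 (congrArg Subtype.val hx)
  rw [h3] at h2
  apply hcard
  rw [Nat.card_eq_fintype_card]
  exact (Nat.modEq_zero_iff_dvd).1 h2

variable {T : Type*} [Group T] [Finite T] [MulAction T X]

/-- A fixed vector supported on an orbit has full support. -/
theorem orbit_subset {W : X → Submodule K V} (hW : iSupIndep W) (τ : T →* Module.End K V)
    (hτ : ∀ t χ, ∀ v ∈ W χ, τ t v ∈ W (t • χ)) {a : V} (ha0 : a ≠ 0) (hfix : a ∈ fixSub τ)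
    (χ : X) (ha : a ∈ part W (MulAction.orbit T χ)) {D : Set X} (hD : a ∈ part W D) :
    MulAction.orbit T χ ⊆ D := by
  classical
  by_contra hsub
  obtain ⟨χ', hχ', hχ'D⟩ := Set.not_subset.1 hsub
  set O : Set X := MulAction.orbit T χ with hO
  have hOf : O.Finite := Set.finite_range _
  -- one point removed
  have h1 : ∀ x ∈ O, a ∈ part W (O \ {x}) := by
    intro x hx
    obtain ⟨t, ht⟩ : ∃ t : T, t • χ' = x := by
      have : x ∈ MulAction.orbit T χ' := by
        rw [MulAction.orbit_eq_iff.2 hχ']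
        exact hx
      exact this
    have h2 : a ∈ part W (O ∩ D) := part_inter hW ha hD
    have h3 := map_part (τ t) (fun c => t • c) (hτ t) h2
    rw [hfix t] at h3
    refine part_mono W ?_ h3
    rintro _ ⟨c, ⟨hc1, hc2⟩, rfl⟩
    refine ⟨?_, ?_⟩
    · obtain ⟨s, rfl⟩ := hc1
      exact ⟨t * s, mul_smul _ _ _⟩
    · intro h4
      apply hχ'D
      have h5 : t • c = t • χ' := by
        rw [ht]
        exact h4
      rw [← smul_left_cancel t h5]
      exact hc2
  -- removing everything
  have h2 : ∀ F : Finset X, (∀ x ∈ F, x ∈ O) → a ∈ part W (O \ (F : Set X)) := by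
    intro F
    induction F using Finset.induction_on with
    | empty =>
      intro _
      simpa using ha
    | insert x F hx ih =>
      intro hF
      have h3 := ih (fun y hy => hF y (Finset.mem_insert_of_mem hy))
      have h4 := h1 x (hF x (Finset.mem_insert_self _ _))
      have h5 := part_inter hW h3 h4
      refine part_mono W ?_ h5
      rintro y ⟨⟨hy1, hy2⟩, hy3, hy4⟩
      refine ⟨hy1, ?_⟩
      simp only [Finset.coe_insert, Set.mem_insert_iff, not_or]
      exact ⟨hy4, hy2⟩
  have h3 := h2 hOf.toFinset (fun x hx => hOf.mem_toFinset.1 hx)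
  have h4 : O \ (hOf.toFinset : Set X) = ∅ := by simp
  rw [h4, part_empty] at h3
  exact ha0 (by simpa using h3)

end Graded
section Main

variable {K V X T : Type*} [Field K] [AddCommGroup V] [Module K V] [Group T] [Finite T]

/-- A `2`-group has a nonzero fixed vector on a nonzero invariant subspace in characteristic two. -/
theorem exists_fixed [CharP K 2] (hT : IsPGroup 2 T) (τ : T →* Module.End K V)
    (U : Submodule K V) (hU : U ≠ ⊥) (hinv : ∀ t, ∀ u ∈ U, τ t u ∈ U) :
    ∃ u ∈ U, u ≠ 0 ∧ u ∈ fixSub τ := by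
  classical
  obtain ⟨u, huU, hu0⟩ := (Submodule.ne_bot_iff U).1 hU
  have h2 : ∀ x : V, x + x = 0 := by
    intro x
    have h3 : (2 : K) = 0 := CharTwo.two_eq_zero
    rw [← two_smul K x, h3, zero_smul]
  set M : AddSubgroup V := AddSubgroup.closure (Set.range fun t : T => τ t u) with hM
  have hMU : M ≤ U.toAddSubgroup := by
    rw [hM, AddSubgroup.closure_le]
    rintro _ ⟨t, rfl⟩
    exact hinv t u huU
  have hMinv : ∀ t : T, ∀ x ∈ M, τ t x ∈ M := by
    intro t x hx
    induction hx using AddSubgroup.closure_induction with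
    | mem x hx =>
      obtain ⟨s, rfl⟩ := hx
      refine AddSubgroup.subset_closure ⟨t * s, ?_⟩
      simp [map_mul]
    | zero => simp
    | add x y _ _ hx hy =>
      rw [map_add]
      exact M.add_mem hx hy
    | neg x _ hx =>
      rw [map_neg]
      exact M.neg_mem hx
  haveI hMf : Finite M := by
    haveI : AddGroup.FG M := by
      rw [AddGroup.fg_iff_addSubgroup_fg]
      exact ⟨(Set.finite_range (fun t : T => τ t u)).toFinset, by simp [hM]⟩
    refine AddCommGroup.finite_of_fg_isAddTorsion (G := M) ?_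
    intro x
    refine isOfFinAddOrder_iff_nsmul_eq_zero.2 ⟨2, by norm_num, ?_⟩
    apply Subtype.ext
    simpa [two_nsmul] using h2 x.1
  letI act : MulAction T M :=
    { smul := fun t x => ⟨τ t x.1, hMinv t x.1 x.2⟩
      one_smul := fun x => by
        apply Subtype.ext
        change τ 1 x.1 = x.1
        simp
      mul_smul := fun s t x => by
        apply Subtype.ext
        change τ (s * t) x.1 = τ s (τ t x.1)
        simp [map_mul] }
  have hsmul : ∀ (t : T) (x : M), ((t • x : M) : V) = τ t x.1 := fun _ _ => rfl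
  have huM : u ∈ M := by
    refine AddSubgroup.subset_closure ⟨1, ?_⟩
    simp
  have hcard : 2 ∣ Nat.card M := by
    have h3 : addOrderOf (⟨u, huM⟩ : M) = 2 := by
      apply addOrderOf_eq_prime
      · apply Subtype.ext
        simpa [two_nsmul] using h2 u
      · intro h4
        exact hu0 (congrArg Subtype.val h4)
    rw [← h3]
    exact addOrderOf_dvd_natCard _
  have hmod := hT.card_modEq_card_fixedPoints M
  have hfixcard : 2 ∣ Nat.card (MulAction.fixedPoints T M) :=
    (Nat.modEq_zero_iff_dvd.1 (hmod.symm.trans (Nat.modEq_zero_iff_dvd.2 hcard)))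
  have h0fix : (0 : M) ∈ MulAction.fixedPoints T M := by
    intro t
    apply Subtype.ext
    rw [hsmul]
    simp
  haveI : Nonempty (MulAction.fixedPoints T M) := ⟨⟨0, h0fix⟩⟩
  have hpos : 0 < Nat.card (MulAction.fixedPoints T M) := Nat.card_pos
  have hgt : 1 < Nat.card (MulAction.fixedPoints T M) := by
    obtain ⟨c, hc⟩ := hfixcard
    omega
  haveI := (Finite.one_lt_card_iff_nontrivial).1 hgt
  obtain ⟨x, hx⟩ := exists_ne (⟨0, h0fix⟩ : MulAction.fixedPoints T M)
  refine ⟨x.1.1, hMU x.1.2, ?_, ?_⟩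
  · intro h3
    apply hx
    apply Subtype.ext
    apply Subtype.ext
    exact h3
  · intro t
    have h3 := x.2 t
    have h4 := congrArg Subtype.val h3
    rwa [hsmul] at h4

variable [MulAction T X]

theorem graded_main [FiniteDimensional K V] [Nontrivial V] (W : X → Submodule K V)
    (hW : iSupIndep W) (htop : ⨆ χ, W χ = ⊤)
    (hT : IsPGroup 2 T) (τ : T →* Module.End K V)
    (hτ : ∀ t χ, ∀ v ∈ W χ, τ t v ∈ W (t • χ))
    (hfixex : ∀ U : Submodule K V, U ≠ ⊥ → (∀ t, ∀ u ∈ U, τ t u ∈ U) →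
      ∃ u ∈ U, u ≠ 0 ∧ u ∈ fixSub τ)
    (y : Module.End K V) (hyinj : Function.Injective y) (σ : Equiv.Perm X)
    (hy : ∀ χ, ∀ v ∈ W χ, y v ∈ W (σ χ))
    (q : ℕ) [Fact q.Prime] (hq2 : q ≠ 2) (hσq : σ ^ q = 1) (hfree : ∀ χ, W χ ≠ ⊥ → σ χ ≠ χ) :
    2 ≤ finrank K (fixSub τ) ∧ (finrank K (fixSub τ) = 2 → ¬ ∀ c ∈ fixSub τ, y c ∈ fixSub τ) := by
  classical
  have hqp : q.Prime := Fact.out
  -- injectivity of the group action
  have hτinj : ∀ t, Function.Injective (τ t) := by
    intro t a b h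
    have h2 : τ t⁻¹ (τ t a) = τ t⁻¹ (τ t b) := by rw [h]
    have h3 : ∀ c, τ t⁻¹ (τ t c) = c := by
      intro c
      rw [← Module.End.mul_apply, ← map_mul]
      simp
    rwa [h3, h3] at h2
  have hne_of_mem : ∀ χ, ∀ v ∈ W χ, v ≠ 0 → W χ ≠ ⊥ := by
    intro χ v hv hv0 h
    rw [h] at hv
    exact hv0 (by simpa using hv)
  -- weights along orbits
  have horbne : ∀ χ, W χ ≠ ⊥ → ∀ χ' ∈ MulAction.orbit T χ, W χ' ≠ ⊥ := by
    rintro χ hχ _ ⟨t, rfl⟩
    obtain ⟨v, hv, hv0⟩ := (Submodule.ne_bot_iff _).1 hχ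
    refine hne_of_mem _ (τ t v) (hτ t χ v hv) ?_
    intro h
    exact hv0 (hτinj t (by simpa using h))
  have hσne : ∀ χ, W χ ≠ ⊥ → W (σ χ) ≠ ⊥ := by
    intro χ hχ
    obtain ⟨v, hv, hv0⟩ := (Submodule.ne_bot_iff _).1 hχ
    refine hne_of_mem _ (y v) (hy χ v hv) ?_
    intro h
    exact hv0 (hyinj (by simpa using h))
  have hpartinv : ∀ χ t, ∀ u ∈ part W (MulAction.orbit T χ), τ t u ∈ part W (MulAction.orbit T χ) := by
    intro χ t u hu
    have h := map_part (τ t) (fun c => t • c) (hτ t) hu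
    refine part_mono W ?_ h
    rintro _ ⟨c, ⟨s, rfl⟩, rfl⟩
    exact ⟨t * s, mul_smul _ _ _⟩
  have hexfix : ∀ χ, W χ ≠ ⊥ →
      ∃ a ∈ part W (MulAction.orbit T χ), a ≠ 0 ∧ a ∈ fixSub τ := by
    intro χ hχ
    refine hfixex _ ?_ (hpartinv χ)
    intro h
    apply hχ
    rw [eq_bot_iff, ← h]
    exact le_part W (MulAction.mem_orbit_self χ)
  have hcard : ∀ χ : X, ¬ q ∣ Nat.card (MulAction.orbit T χ) := by
    intro χ h
    haveI : Finite (MulAction.orbit T χ) := (Set.finite_range _).to_subtype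
    obtain ⟨n, hn⟩ := hT.card_orbit χ
    rw [hn] at h
    have h2 := (Nat.prime_dvd_prime_iff_eq hqp Nat.prime_two).1 (hqp.dvd_of_dvd_pow h)
    exact hq2 h2
  have hstable : ∀ χ, W χ ≠ ⊥ → ¬ ∀ x ∈ MulAction.orbit T χ, σ⁻¹ x ∈ MulAction.orbit T χ := by
    intro χ hχ hst
    refine false_of_stable σ⁻¹ q (by rw [inv_pow, hσq, inv_one]) (Set.finite_range _) hst ?_
      ⟨χ, MulAction.mem_orbit_self χ⟩ (hcard χ)
    intro x hx h
    have h2 : σ x = x := by
      conv_lhs => rw [← h]
      simp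
    exact hfree x (horbne χ hχ x hx) h2
  have hstable' : ∀ χ, W χ ≠ ⊥ → ¬ ∀ x ∈ MulAction.orbit T χ, σ x ∈ MulAction.orbit T χ := by
    intro χ hχ hst
    exact false_of_stable σ q hσq (Set.finite_range _) hst
      (fun x hx => hfree x (horbne χ hχ x hx)) ⟨χ, MulAction.mem_orbit_self χ⟩ (hcard χ)
  -- a first weight
  obtain ⟨χ₁, hχ₁⟩ : ∃ χ, W χ ≠ ⊥ := by
    by_contra h
    push Not at h
    have h2 : (⊤ : Submodule K V) = ⊥ := by
      rw [← htop]
      simp [h]
    exact top_ne_bot h2
  -- a second orbit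
  obtain ⟨χ₂, hχ₂, hχ₂O⟩ : ∃ χ, W χ ≠ ⊥ ∧ χ ∉ MulAction.orbit T χ₁ := by
    by_contra h
    push Not at h
    refine hstable' χ₁ hχ₁ (fun x hx => h _ (hσne x (horbne χ₁ hχ₁ x hx)))
  have hdisj : Disjoint (MulAction.orbit T χ₁) (MulAction.orbit T χ₂) := by
    rw [Set.disjoint_left]
    intro c hc1 hc2
    apply hχ₂O
    rw [← MulAction.orbit_eq_iff.2 hc1, MulAction.orbit_eq_iff.2 hc2]
    exact MulAction.mem_orbit_self _
  obtain ⟨a₁, ha₁, ha₁0, ha₁C⟩ := hexfix χ₁ hχ₁
  obtain ⟨a₂, ha₂, ha₂0, ha₂C⟩ := hexfix χ₂ hχ₂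
  have hpd := part_disjoint hW hdisj
  -- independence
  have hli : LinearIndependent K ![(⟨a₁, ha₁C⟩ : fixSub τ), (⟨a₂, ha₂C⟩ : fixSub τ)] := by
    rw [LinearIndependent.pair_iff]
    intro s t h
    have h' : s • a₁ + t • a₂ = 0 := congrArg Subtype.val h
    have hs : s • a₁ = 0 := by
      have h2 : s • a₁ = -(t • a₂) := eq_neg_of_add_eq_zero_left h'
      refine Submodule.disjoint_def.1 hpd _ (Submodule.smul_mem _ _ ha₁) ?_
      rw [h2]
      exact Submodule.neg_mem _ (Submodule.smul_mem _ _ ha₂)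
    have hs0 : s = 0 := (smul_eq_zero.1 hs).resolve_right ha₁0
    have ht : t • a₂ = 0 := by simpa [hs] using h'
    exact ⟨hs0, (smul_eq_zero.1 ht).resolve_right ha₂0⟩
  refine ⟨?_, ?_⟩
  · simpa using hli.fintype_card_le_finrank
  intro hdim hyC
  -- spanning
  have hspan : ∀ c ∈ fixSub τ, ∃ α β : K, c = α • a₁ + β • a₂ := by
    intro c hc
    have h1 := hli.span_eq_top_of_card_eq_finrank' (by simpa using hdim.symm)
    have h2 : (⟨c, hc⟩ : fixSub τ) ∈ Submodule.span K (Set.range ![(⟨a₁, ha₁C⟩ : fixSub τ), (⟨a₂, ha₂C⟩ : fixSub τ)]) := by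
      rw [h1]
      exact Submodule.mem_top
    simp only [Matrix.range_cons, Matrix.range_empty, Set.union_empty, Set.singleton_union] at h2
    obtain ⟨α, β, h3⟩ := Submodule.mem_span_pair.1 h2
    refine ⟨α, β, ?_⟩
    have h4 := congrArg Subtype.val h3
    exact h4.symm
  -- the basic step
  have step : ∀ (χ χ' : X) (a a' : V), W χ ≠ ⊥ → Disjoint (MulAction.orbit T χ) (MulAction.orbit T χ') →
      a ∈ part W (MulAction.orbit T χ) → a' ∈ part W (MulAction.orbit T χ') → a ≠ 0 → a' ≠ 0 →
      a ∈ fixSub τ → a' ∈ fixSub τ → ∀ α β : K, y a = α • a + β • a' →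
      ∀ x ∈ MulAction.orbit T χ', σ⁻¹ x ∈ MulAction.orbit T χ := by
    intro χ χ' a a' hχ hd ha ha' ha0 ha'0 haC ha'C α β he
    have hya : y a ∈ part W (σ '' MulAction.orbit T χ) := map_part y σ hy ha
    have hα : α = 0 := by
      by_contra hα
      have h1 : a = α⁻¹ • (y a - β • a') := by
        rw [he]
        simp [smul_smul, hα]
      have h2 : a ∈ part W ((σ '' MulAction.orbit T χ) ∪ MulAction.orbit T χ') := by
        rw [h1, part_union]
        refine Submodule.smul_mem _ _ (Submodule.sub_mem _ ?_ ?_)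
        · exact Submodule.mem_sup_left hya
        · exact Submodule.mem_sup_right (Submodule.smul_mem _ _ ha')
      have h3 := orbit_subset hW τ hτ ha0 haC χ ha h2
      refine hstable χ hχ ?_
      intro x hx
      rcases h3 hx with ⟨z, hz, rfl⟩ | h4
      · simpa using hz
      · exact absurd h4 (Set.disjoint_left.1 hd hx)
    have hβ : β ≠ 0 := by
      intro hβ
      rw [hα, hβ, zero_smul, zero_smul, add_zero] at he
      exact ha0 (hyinj (by simpa using he))
    have h1 : a' = β⁻¹ • y a := by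
      rw [he, hα]
      simp [smul_smul, hβ]
    have h2 : a' ∈ part W (σ '' MulAction.orbit T χ) := by
      rw [h1]
      exact Submodule.smul_mem _ _ hya
    have h3 := orbit_subset hW τ hτ ha'0 ha'C χ' ha' h2
    intro x hx
    obtain ⟨z, hz, rfl⟩ := h3 hx
    simpa using hz
  obtain ⟨α, β, h1⟩ := hspan _ (hyC a₁ ha₁C)
  obtain ⟨α', β', h2⟩ := hspan _ (hyC a₂ ha₂C)
  have hs1 := step χ₁ χ₂ a₁ a₂ hχ₁ hdisj ha₁ ha₂ ha₁0 ha₂0 ha₁C ha₂C α β h1
  have hs2 := step χ₂ χ₁ a₂ a₁ hχ₂ hdisj.symm ha₂ ha₁ ha₂0 ha₁0 ha₂C ha₁C β' α' (by rw [h2, add_comm])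
  -- parity
  have hodd : ∀ k : ℕ, ∀ x ∈ MulAction.orbit T χ₁, (σ⁻¹ ^ (2 * k + 1)) x ∈ MulAction.orbit T χ₂ := by
    intro k
    induction k with
    | zero =>
      intro x hx
      simpa using hs2 x hx
    | succ k ih =>
      intro x hx
      have e : 2 * (k + 1) + 1 = 2 + (2 * k + 1) := by ring
      rw [e, pow_add, Equiv.Perm.mul_apply, sq, Equiv.Perm.mul_apply]
      exact hs2 _ (hs1 _ (ih x hx))
  obtain ⟨k, hk⟩ : ∃ k, q = 2 * k + 1 := by
    rcases hqp.eq_two_or_odd' with h | ⟨k, hk⟩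
    · exact absurd h hq2
    · exact ⟨k, hk⟩
  have h3 := hodd k χ₁ (MulAction.mem_orbit_self _)
  rw [← hk, inv_pow, hσq, inv_one] at h3
  have h4 : χ₁ ∈ MulAction.orbit T χ₂ := by simpa using h3
  exact hχ₂O (by
    rw [MulAction.orbit_eq_iff.2 h4]
    exact MulAction.mem_orbit_self _)

end Main
section Concrete

variable {S E : Type*} [Group S] [Finite S] [AddCommGroup E] [Module (ZMod 2) E]
variable (K : Type) [Field K] [Algebra (ZMod 2) K]

/-- The base change of a representation. -/
noncomputable def RR (ρ : Representation (ZMod 2) S E) : S →* Module.End K (K ⊗[ZMod 2] E) :=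
  (Module.End.baseChangeHom (ZMod 2) K E).toMonoidHom.comp ρ

variable {K}

theorem RR_tmul (ρ : Representation (ZMod 2) S E) (s : S) (k : K) (e : E) :
    RR K ρ s (k ⊗ₜ[ZMod 2] e) = k ⊗ₜ[ZMod 2] ρ s e := rfl

theorem RR_inv_injective (ρ : Representation (ZMod 2) S E) (s : S) :
    Function.Injective (RR K ρ s) := by
  intro a b h
  have h2 : RR K ρ s⁻¹ (RR K ρ s a) = RR K ρ s⁻¹ (RR K ρ s b) := by rw [h]
  have h3 : ∀ c, RR K ρ s⁻¹ (RR K ρ s c) = c := by
    intro c
    rw [← Module.End.mul_apply, ← map_mul]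
    simp
  rwa [h3, h3] at h2

/-- The fixed vectors of the base change come from the fixed vectors of the module. -/
theorem fixed_span (ρ : Representation (ZMod 2) S E) (H : Set S) (v : K ⊗[ZMod 2] E)
    (hv : ∀ h ∈ H, RR K ρ h v = v) :
    v ∈ Submodule.span K ((fun e : E => (1 : K) ⊗ₜ[ZMod 2] e) '' {e | ∀ h ∈ H, ρ h e = e}) := by
  classical
  let b := Basis.ofVectorSpace (ZMod 2) K
  let e := TensorProduct.equivFinsuppOfBasisLeft (N := E) b
  have key : ∀ (h : S) (x : K ⊗[ZMod 2] E) (i), e (RR K ρ h x) i = ρ h (e x i) := by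
    intro h x i
    induction x using TensorProduct.induction_on with
    | zero => simp
    | tmul k n =>
      rw [RR_tmul]
      simp only [e, TensorProduct.equivFinsuppOfBasisLeft_apply_tmul_apply, map_smul]
    | add x y hx hy =>
      rw [map_add, map_add, Finsupp.add_apply, hx, hy, map_add, Finsupp.add_apply, map_add]
  have hfix : ∀ i, ∀ h ∈ H, ρ h (e v i) = e v i := by
    intro i h hh
    rw [← key, hv h hh]
  have hsum : v = (e v).sum fun i n => b i ⊗ₜ[ZMod 2] n := by
    have h1 := TensorProduct.equivFinsuppOfBasisLeft_symm_apply (N := E) b (e v)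
    rw [← h1]
    exact (e.symm_apply_apply v).symm
  rw [hsum]
  refine Submodule.sum_mem _ fun i _ => ?_
  have h2 : b i ⊗ₜ[ZMod 2] (e v i) = b i • ((1 : K) ⊗ₜ[ZMod 2] (e v i)) := by
    rw [TensorProduct.smul_tmul', smul_eq_mul, mul_one]
  change b i ⊗ₜ[ZMod 2] (e v i) ∈ _
  rw [h2]
  refine Submodule.smul_mem _ _ (Submodule.subset_span ⟨e v i, ?_, rfl⟩)
  exact fun h hh => hfix i h hh

end Concrete

section Weights

variable {S E : Type*} [Group S] [Finite S] [AddCommGroup E] [Module (ZMod 2) E] [Finite E]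
variable {K : Type} [Field K] [Algebra (ZMod 2) K] [IsAlgClosed K] [CharP K 2]
variable (A : Subgroup S) [A.Normal]

/-- The action of the group on functions on a normal subgroup. -/
@[reducible] def wAct (K : Type) : MulAction S (A → K) where
  smul s χ := fun a => χ (MulAut.conjNormal s⁻¹ a)
  one_smul χ := by
    funext a
    change χ (MulAut.conjNormal (1 : S)⁻¹ a) = χ a
    simp
  mul_smul s t χ := by
    funext a
    change χ (MulAut.conjNormal (s * t)⁻¹ a) = χ (MulAut.conjNormal t⁻¹ (MulAut.conjNormal s⁻¹ a))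
    simp [mul_inv_rev, map_mul]

/-- The simultaneous generalized eigenspaces. -/
noncomputable def WW (ρ : Representation (ZMod 2) S E) (χ : A → K) :
    Submodule K (K ⊗[ZMod 2] E) :=
  ⨅ a : A, (RR K ρ (a : S)).maxGenEigenspace (χ a)

variable {A}

theorem WW_indep (ρ : Representation (ZMod 2) S E) (hcomm : ∀ a ∈ A, ∀ b ∈ A, a * b = b * a) :
    iSupIndep (WW A ρ : (A → K) → _) := by
  refine Module.End.independent_iInf_maxGenEigenspace_of_forall_mapsTo
    (fun a : A => RR K ρ (a : S)) ?_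
  intro a b φ
  apply Module.End.mapsTo_maxGenEigenspace_of_comm
  rw [Commute, SemiconjBy, ← map_mul, ← map_mul, hcomm _ b.2 _ a.2]

theorem WW_top (ρ : Representation (ZMod 2) S E) (hcomm : ∀ a ∈ A, ∀ b ∈ A, a * b = b * a) :
    ⨆ χ : A → K, WW A ρ χ = ⊤ := by
  haveI : Module.Finite (ZMod 2) E := Module.Finite.of_finite
  refine Module.End.iSup_iInf_maxGenEigenspace_eq_top_of_iSup_maxGenEigenspace_eq_top_of_commute
    (fun a : A => RR K ρ (a : S)) ?_ (fun a => Module.End.iSup_maxGenEigenspace_eq_top _)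
  intro a b _
  rw [Commute, SemiconjBy, ← map_mul, ← map_mul, hcomm _ a.2 _ b.2]

theorem WW_smul (ρ : Representation (ZMod 2) S E) (s : S) (χ : A → K) (v : K ⊗[ZMod 2] E)
    (hv : v ∈ WW A ρ χ) :
    RR K ρ s v ∈ WW A ρ (letI := wAct (S := S) A K; s • χ) := by
  letI := wAct (S := S) A K
  unfold WW at hv ⊢
  rw [Submodule.mem_iInf] at hv ⊢
  intro a
  set b : A := MulAut.conjNormal s⁻¹ a with hb
  have hba : (b : S) = s⁻¹ * a * s := by
    rw [hb]
    simp
  have h1 := hv b
  rw [Module.End.mem_maxGenEigenspace] at h1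
  obtain ⟨k, hk⟩ := h1
  rw [Module.End.mem_maxGenEigenspace]
  refine ⟨k, ?_⟩
  have hμ : (s • χ) a = χ b := rfl
  rw [hμ]
  have hsc : SemiconjBy (RR K ρ s) (RR K ρ (b : S) - χ b • (1 : Module.End K _))
      (RR K ρ (a : S) - χ b • (1 : Module.End K _)) := by
    unfold SemiconjBy
    have h2 : RR K ρ s * RR K ρ (b : S) = RR K ρ (a : S) * RR K ρ s := by
      rw [← map_mul, ← map_mul, hba]
      congr 1
      group
    apply LinearMap.ext
    intro x
    have hx := congrArg (fun f => f x) h2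
    simp only [Module.End.mul_apply] at hx
    simp only [Module.End.mul_apply, LinearMap.sub_apply, LinearMap.smul_apply, Module.End.one_apply]
    rw [map_sub, map_smul, hx]
  have h3 := (hsc.pow_right k).eq
  have h4 := congrArg (fun f => f v) h3
  simp only [Module.End.mul_apply] at h4
  rw [← h4, hk, map_zero]

theorem WW_eigen (ρ : Representation (ZMod 2) S E) (hodd : Odd (Nat.card A)) (χ : A → K)
    (v : K ⊗[ZMod 2] E) (hv : v ∈ WW A ρ χ) (a : A) : RR K ρ (a : S) v = χ a • v := by
  classical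
  unfold WW at hv
  rw [Submodule.mem_iInf] at hv
  have h1 := hv a
  have hn : ((Nat.card A : ℕ) : K) ≠ 0 := by
    intro h
    have h2 := (CharP.cast_eq_zero_iff K 2 (Nat.card A)).1 h
    obtain ⟨m, hm⟩ := hodd
    omega
  have hs : (Polynomial.X ^ (Nat.card A) - Polynomial.C (1 : K)).Separable :=
    Polynomial.separable_X_pow_sub_C 1 hn one_ne_zero
  have hsem : (RR K ρ (a : S)).IsSemisimple := by
    refine Module.End.isSemisimple_of_squarefree_aeval_eq_zero hs.squarefree ?_
    have h2 : (a : S) ^ (Nat.card A) = 1 := by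
      have := pow_card_eq_one' (x := a)
      exact_mod_cast congrArg Subtype.val this
    simp only [map_sub, map_pow, Polynomial.aeval_X, map_one]
    rw [← map_pow, h2, map_one]
    simp
  have h3 := (Module.End.isFinitelySemisimple_iff_isSemisimple.mpr hsem).maxGenEigenspace_eq_eigenspace (χ a)
  rw [h3] at h1
  exact Module.End.mem_eigenspace_iff.1 h1

end Weights
/-- Let S be a finite solvable group whose order is divisible only by the primes 2, p, q (p, q distinct odd primes), with a Sylow system S₂, S_p, S_q (pairwise permutable Sylow subgroups) such that: S_p is a minimal normal subgroup of S of order p or p²; S_q has order q and [S_p, S_q] = S_p; and O₂(S) = 1. Let E be an irreducible module for S over the field with two elements on which S_p acts faithfully, and E₀ the subspace of fixed points of S₂. Then either E₀ has at least 8 elements, or E₀ has exactly 4 elements and S_q does not leave E₀ invariant. -/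
theorem result {S : Type*} [Group S] [Finite S]
    [Group.IsSolvable S] (p q : ℕ) (hp : p.Prime) (hq : q.Prime) (hp2 : p ≠ 2) (hq2 : q ≠ 2) (hpq : p ≠ q)
    (hπ : ∀ r : ℕ, r.Prime → r ∣ Nat.card S → r = 2 ∨ r = p ∨ r = q)
    (S₂ : Sylow 2 S) (Sp : Sylow p S) (Sq : Sylow q S)
    (h2q : Nat.card ↥((S₂ : Subgroup S) ⊔ (Sq : Subgroup S)) = Nat.card ↥S₂ * Nat.card ↥Sq)
    (h2p : Nat.card ↥((S₂ : Subgroup S) ⊔ (Sp : Subgroup S)) = Nat.card ↥S₂ * Nat.card ↥Sp)
    (hpq' : Nat.card ↥((Sp : Subgroup S) ⊔ (Sq : Subgroup S)) = Nat.card ↥Sp * Nat.card ↥Sq)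
    (hSpN : (Sp : Subgroup S).Normal) (hSpmin : ∀ N : Subgroup S, N.Normal → N ≤ (Sp : Subgroup S) → N = ⊥ ∨ N = (Sp : Subgroup S))
    (hSpcard : Nat.card ↥Sp = p ∨ Nat.card ↥Sp = p ^ 2)
    (hSq : Nat.card ↥Sq = q) (hcomm : ⁅(Sp : Subgroup S), (Sq : Subgroup S)⁆ = (Sp : Subgroup S))
    (hO2 : Cfsg.pCore 2 S = ⊥)
    {E : Type*} [AddCommGroup E] [Module (ZMod 2) E] [Finite E] (ρ : Representation (ZMod 2) S E) (hE : Nontrivial E)
    (hirr : ∀ N : Submodule (ZMod 2) E, (∀ s : S, ∀ m ∈ N, ρ s m ∈ N) → N = ⊥ ∨ N = ⊤)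
    (hfaith : ∀ x ∈ (Sp : Subgroup S), ρ x = 1 → x = 1) :
    8 ≤ Nat.card {v : E // ∀ s ∈ (S₂ : Subgroup S), ρ s v = v} ∨
      (Nat.card {v : E // ∀ s ∈ (S₂ : Subgroup S), ρ s v = v} = 4 ∧
        ∃ x ∈ (Sq : Subgroup S), ∃ v : E, (∀ s ∈ (S₂ : Subgroup S), ρ s v = v) ∧ ¬ ∀ s ∈ (S₂ : Subgroup S), ρ s (ρ x v) = ρ x v) := by
  classical
  haveI hpf : Fact p.Prime := ⟨hp⟩
  haveI hqf : Fact q.Prime := ⟨hq⟩
  set A : Subgroup S := (Sp : Subgroup S) with hAdef
  haveI hAn : A.Normal := hSpN
  have hAcard : Nat.card A = p ∨ Nat.card A = p ^ 2 := hSpcard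
  let K : Type := AlgebraicClosure (ZMod 2)
  haveI : Module.Finite (ZMod 2) E := Module.Finite.of_finite
  have hAcomm : ∀ a ∈ A, ∀ b ∈ A, a * b = b * a := by
    intro a ha b hb
    have hpA : IsPGroup p A := Sp.isPGroup'
    have hc : ∀ x y : A, x * y = y * x := by
      rcases hAcard with h | h
      · haveI : IsCyclic A := isCyclic_of_prime_card h
        intro x y
        obtain ⟨g, hg⟩ := IsCyclic.exists_generator (α := A)
        obtain ⟨i, rfl⟩ := Subgroup.mem_zpowers_iff.1 (hg x)
        obtain ⟨j, rfl⟩ := Subgroup.mem_zpowers_iff.1 (hg y)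
        exact zpow_mul_comm _ _ _
      · haveI := IsPGroup.isMulCommutative_of_card_eq_prime_sq h
        intro x y
        exact mul_comm' x y
    have := hc ⟨a, ha⟩ ⟨b, hb⟩
    exact congrArg Subtype.val this
  have hAodd : Odd (Nat.card A) := by
    have h2 : ¬ 2 ∣ Nat.card A := by
      intro h
      rcases hAcard with h3 | h3
      · rw [h3] at h
        exact hp2 ((Nat.prime_dvd_prime_iff_eq Nat.prime_two hp).1 h).symm
      · rw [h3] at h
        exact hp2 ((Nat.prime_dvd_prime_iff_eq Nat.prime_two hp).1 (Nat.prime_two.dvd_of_dvd_pow h)).symm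
    exact Nat.not_even_iff_odd.1 (fun h => h2 h.two_dvd)
  -- no fixed vectors of A
  have hCA : ∀ e : E, (∀ a ∈ A, ρ a e = e) → e = 0 := by
    let N : Submodule (ZMod 2) E :=
      { carrier := {e | ∀ a ∈ A, ρ a e = e}
        add_mem' := fun {x y} hx hy a ha => by rw [map_add, hx a ha, hy a ha]
        zero_mem' := fun a _ => map_zero _
        smul_mem' := fun c x hx a ha => by rw [map_smul, hx a ha] }
    have hN : ∀ s : S, ∀ m ∈ N, ρ s m ∈ N := by
      intro s m hm a ha
      have h1 : s⁻¹ * a * s ∈ A := by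
        have := hAn.conj_mem a ha s⁻¹
        simpa using this
      have h2 := hm _ h1
      have h3 : ρ a (ρ s m) = ρ s (ρ (s⁻¹ * a * s) m) := by
        rw [← Module.End.mul_apply, ← Module.End.mul_apply, ← map_mul, ← map_mul]
        congr 2
        group
      rw [h3, h2]
    rcases hirr N hN with h | h
    · intro e he
      have : e ∈ N := he
      rw [h] at this
      simpa using this
    · exfalso
      have htriv : ∀ a ∈ A, a = 1 := by
        intro a ha
        apply hfaith a ha
        apply LinearMap.ext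
        intro e
        have : e ∈ N := by rw [h]; exact Submodule.mem_top
        exact this a ha
      have h1 : A = ⊥ := (Subgroup.eq_bot_iff_forall _).2 htriv
      have h2 : Nat.card A = 1 := by rw [h1]; simp
      rcases hAcard with h3 | h3
      · rw [h2] at h3
        exact hp.one_lt.ne h3
      · rw [h2] at h3
        have : 1 < p ^ 2 := Nat.one_lt_pow (by norm_num) hp.one_lt
        omega
  -- no fixed vectors of A over K
  have hCAK : ∀ v : K ⊗[ZMod 2] E, (∀ a ∈ A, RR K ρ a v = v) → v = 0 := by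
    intro v hv
    have h1 := fixed_span ρ (A : Set S) v (fun a ha => hv a ha)
    have h2 : ((fun e : E => (1 : K) ⊗ₜ[ZMod 2] e) '' {e | ∀ h ∈ (A : Set S), ρ h e = e}) ⊆ {0} := by
      rintro _ ⟨e, he, rfl⟩
      have : e = 0 := hCA e he
      simp [this]
    have h3 := Submodule.span_mono (R := K) h2 h1
    simpa using h3
  -- a generator of Sq
  obtain ⟨y, hy⟩ : ∃ y : Sq, y ≠ 1 := by
    haveI : Nontrivial ↥(Sq : Subgroup S) := by
      rw [← Finite.one_lt_card_iff_nontrivial]
      rw [show Nat.card ↥(Sq : Subgroup S) = q from hSq]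
      exact hq.one_lt
    exact exists_ne 1
  have hyord : orderOf y = q := by
    haveI : Fact (Nat.card ↥(Sq : Subgroup S)).Prime := by
      rw [show Nat.card ↥(Sq : Subgroup S) = q from hSq]
      exact hqf
    have := orderOf_eq_prime (p := Nat.card ↥(Sq : Subgroup S)) (pow_card_eq_one') hy
    rw [this]
    exact hSq
  have hzp : (Subgroup.zpowers (y : S)) = (Sq : Subgroup S) := by
    apply Subgroup.eq_of_le_of_card_ge
    · rw [Subgroup.zpowers_le]
      exact y.2
    · rw [Nat.card_zpowers, Subgroup.orderOf_coe, hyord]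
      exact hSq.le
  have hypow : (y : S) ^ q = 1 := by
    have h := pow_orderOf_eq_one y
    rw [hyord] at h
    exact_mod_cast congrArg Subtype.val h
  letI actS : MulAction S (A → K) := wAct (S := S) A K
  -- freeness
  have hfree : ∀ χ : A → K, WW A ρ χ ≠ ⊥ → MulAction.toPerm (y : S) χ ≠ χ := by
    intro χ hχ hfix
    obtain ⟨v, hv, hv0⟩ := (Submodule.ne_bot_iff _).1 hχ
    have hfix' : ((y : S) • χ) = χ := hfix
    have hstab : ∀ z ∈ (Sq : Subgroup S), z • χ = χ := by
      have : (Subgroup.zpowers (y : S)) ≤ MulAction.stabilizer S χ := by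
        rw [Subgroup.zpowers_le]
        exact hfix'
      intro z hz
      rw [← hzp] at hz
      exact this hz
    apply hv0
    apply hCAK v
    intro a ha
    let Hv : Subgroup S :=
      { carrier := {g | RR K ρ g v = v}
        mul_mem' := fun {g h} hg hh => by
          change RR K ρ (g * h) v = v
          rw [map_mul, Module.End.mul_apply, hh, hg]
        one_mem' := by
          change RR K ρ 1 v = v
          simp
        inv_mem' := fun {g} hg => by
          change RR K ρ g⁻¹ v = v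
          conv_lhs => rw [← hg]
          rw [← Module.End.mul_apply, ← map_mul]
          simp }
    have hle : ⁅(Sp : Subgroup S), (Sq : Subgroup S)⁆ ≤ Hv := by
      rw [Subgroup.commutator_le]
      intro g hg z hz
      change RR K ρ ⁅g, z⁆ v = v
      have hb : z * g⁻¹ * z⁻¹ ∈ A := hAn.conj_mem _ (A.inv_mem hg) z
      have hval : χ ⟨z * g⁻¹ * z⁻¹, hb⟩ = χ ⟨g⁻¹, A.inv_mem hg⟩ := by
        have h1 := congrFun (hstab z hz) ⟨z * g⁻¹ * z⁻¹, hb⟩
        rw [← h1]
        change χ (MulAut.conjNormal z⁻¹ ⟨z * g⁻¹ * z⁻¹, hb⟩) = _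
        congr 1
        apply Subtype.ext
        simp
        group
      have h1 := WW_eigen ρ hAodd χ v hv ⟨z * g⁻¹ * z⁻¹, hb⟩
      have h2 := WW_eigen ρ hAodd χ v hv ⟨g⁻¹, A.inv_mem hg⟩
      have e : ⁅g, z⁆ = g * (z * g⁻¹ * z⁻¹) := by
        rw [commutatorElement_def]
        group
      rw [e, map_mul, Module.End.mul_apply]
      change RR K ρ g (RR K ρ ((⟨z * g⁻¹ * z⁻¹, hb⟩ : A) : S) v) = v
      rw [h1, hval, ← h2]
      change RR K ρ g (RR K ρ g⁻¹ v) = v
      rw [← Module.End.mul_apply, ← map_mul]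
      simp
    exact hle (by rw [hcomm]; exact ha)
  -- the main statement over the closure
  let τ : ↥(S₂ : Subgroup S) →* Module.End K (K ⊗[ZMod 2] E) :=
    (RR K ρ).comp (S₂ : Subgroup S).subtype
  haveI hVnt : Nontrivial (K ⊗[ZMod 2] E) := by
    have h1 : Module.finrank K (K ⊗[ZMod 2] E) = Module.finrank (ZMod 2) E :=
      Module.finrank_baseChange
    have h2 : 0 < Module.finrank (ZMod 2) E := Module.finrank_pos
    exact Module.nontrivial_of_finrank_pos (R := K) (by omega)
  have hσq : (MulAction.toPerm (y : S) : Equiv.Perm (A → K)) ^ q = 1 := by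
    have := map_pow (MulAction.toPermHom S (A → K)) (y : S) q
    rw [hypow, map_one] at this
    exact this.symm
  have hmain := graded_main (T := ↥(S₂ : Subgroup S)) (WW A ρ : (A → K) → _)
    (WW_indep ρ hAcomm) (WW_top ρ hAcomm) S₂.isPGroup' τ
    (fun t χ v hv => WW_smul ρ (t : S) χ v hv)
    (fun U hU hinv => exists_fixed S₂.isPGroup' τ U hU hinv)
    (RR K ρ y) (RR_inv_injective ρ y) (MulAction.toPerm (y : S))
    (fun χ v hv => WW_smul ρ y χ v hv) q hq2 hσq hfree
  -- the fixed points of the Sylow subgroup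
  let E₀ : Submodule (ZMod 2) E :=
    { carrier := {v | ∀ s ∈ (S₂ : Subgroup S), ρ s v = v}
      add_mem' := fun {x y} hx hy s hs => by rw [map_add, hx s hs, hy s hs]
      zero_mem' := fun s _ => map_zero _
      smul_mem' := fun c x hx s hs => by rw [map_smul, hx s hs] }
  have hC : ∀ c ∈ fixSub τ, c ∈ Submodule.span K ((fun e : E => (1 : K) ⊗ₜ[ZMod 2] e) '' (E₀ : Set E)) := by
    intro c hc
    exact fixed_span ρ ((S₂ : Subgroup S) : Set S) c (fun h hh => hc ⟨h, hh⟩)
  have hgenC : ∀ e ∈ E₀, (1 : K) ⊗ₜ[ZMod 2] e ∈ fixSub τ := by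
    intro e he t
    change RR K ρ (t : S) ((1 : K) ⊗ₜ[ZMod 2] e) = _
    rw [RR_tmul, he t t.2]
  let b₀ := Module.finBasis (ZMod 2) E₀
  have hspan : Submodule.span K ((fun e : E => (1 : K) ⊗ₜ[ZMod 2] e) '' (E₀ : Set E)) ≤
      Submodule.span K (Set.range fun i => (1 : K) ⊗ₜ[ZMod 2] ((b₀ i : E₀) : E)) := by
    rw [Submodule.span_le]
    rintro _ ⟨e, he, rfl⟩
    have hx : (⟨e, he⟩ : E₀) ∈ Submodule.span (ZMod 2) (Set.range b₀) := by
      rw [b₀.span_eq]
      exact Submodule.mem_top
    have key : ∀ x ∈ Submodule.span (ZMod 2) (Set.range b₀),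
        (1 : K) ⊗ₜ[ZMod 2] ((x : E₀) : E) ∈
          Submodule.span K (Set.range fun i => (1 : K) ⊗ₜ[ZMod 2] ((b₀ i : E₀) : E)) := by
      intro x hx
      induction hx using Submodule.span_induction with
      | mem x hx =>
        obtain ⟨i, rfl⟩ := hx
        exact Submodule.subset_span ⟨i, rfl⟩
      | zero => simp
      | add x y _ _ hx hy =>
        simp only [Submodule.coe_add, TensorProduct.tmul_add]
        exact Submodule.add_mem _ hx hy
      | smul c x _ hx =>
        simp only [Submodule.coe_smul, TensorProduct.tmul_smul]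
        exact Submodule.smul_of_tower_mem _ c hx
    exact key _ hx
  have hdim : Module.finrank K (fixSub τ) ≤ Module.finrank (ZMod 2) E₀ := by
    have h1 : fixSub τ ≤ Submodule.span K (Set.range fun i => (1 : K) ⊗ₜ[ZMod 2] ((b₀ i : E₀) : E)) :=
      fun c hc => hspan (hC c hc)
    have h2 := Submodule.finrank_mono h1
    have h3 := finrank_range_le_card (R := K) (fun i => (1 : K) ⊗ₜ[ZMod 2] ((b₀ i : E₀) : E))
    rw [Set.finrank] at h3
    simp only [Fintype.card_fin] at h3
    exact h2.trans h3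
  have hcardE : Nat.card {v : E // ∀ s ∈ (S₂ : Subgroup S), ρ s v = v} = 2 ^ Module.finrank (ZMod 2) E₀ := by
    change Nat.card E₀ = _
    haveI : Fintype E₀ := Fintype.ofFinite _
    rw [Nat.card_eq_fintype_card, Module.card_eq_pow_finrank (K := ZMod 2), ZMod.card]
  have hd2 : 2 ≤ Module.finrank (ZMod 2) E₀ := hmain.1.trans hdim
  by_cases h8 : 8 ≤ Nat.card {v : E // ∀ s ∈ (S₂ : Subgroup S), ρ s v = v}
  · exact Or.inl h8
  right
  rw [hcardE] at h8 ⊢
  have hd3 : Module.finrank (ZMod 2) E₀ = 2 := by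
    by_contra hne
    have h3 : 3 ≤ Module.finrank (ZMod 2) E₀ := by omega
    exact h8 (by
      calc 8 = 2 ^ 3 := by norm_num
        _ ≤ _ := Nat.pow_le_pow_right (by norm_num) h3)
  rw [hd3]
  refine ⟨by norm_num, ?_⟩
  by_contra hno
  push Not at hno
  refine hmain.2 (le_antisymm (hdim.trans hd3.le) hmain.1) ?_
  intro c hc
  have h1 : Submodule.span K ((fun e : E => (1 : K) ⊗ₜ[ZMod 2] e) '' (E₀ : Set E)) ≤
      (fixSub τ).comap (RR K ρ y) := by
    rw [Submodule.span_le]
    rintro _ ⟨e, he, rfl⟩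
    change RR K ρ y ((1 : K) ⊗ₜ[ZMod 2] e) ∈ fixSub τ
    rw [RR_tmul]
    exact hgenC _ (hno y y.2 e he)
  exact h1 (hC c hc)
end Cfsg.Agent.S4414
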