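import Mathlib
import Cfsg.Agent.Lib.FrobRep.PCross

set_option autoImplicit false

namespace Cfsg.Agent.S4417

open Cfsg.Agent.Lib.FrobRep.PLinear

theorem result {F : Type*} [Field F] [Fintype F] (q : ℕ) (hF : Fintype.card F = q) (p : ℕ) [Fact p.Prime] (hpq : ¬ p ∣ q) (n e : ℕ) (he : e = orderOf (q : ZMod p)) (hen : e ≤ n) (P : Subgroup (GL (Fin n) F)) (hP : IsPGroup p P) : derivedSeries ↥P (Nat.log 2 (n / e) + 1) = ⊥ := by
  classical
  subst hF
  haveI : Finite (GL (Fin n) F) := inferInstance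
  let τ : ↥P →* Module.End F (Fin n → F) :=
    ((Matrix.toLinAlgEquiv' (R := F) (n := Fin n)).toRingEquiv.toMonoidHom).comp
      ((Units.coeHom (Matrix (Fin n) (Fin n) F)).comp P.subtype)
  have hτ : ∀ g, τ g = 1 → g = 1 := by
    intro g hg
    have h1 : (Matrix.toLinAlgEquiv' (R := F) (n := Fin n))
        (((g : GL (Fin n) F)) : Matrix (Fin n) (Fin n) F) = 1 := hg
    have h2 : (((g : GL (Fin n) F)) : Matrix (Fin n) (Fin n) F) = 1 := by
      apply (Matrix.toLinAlgEquiv' (R := F) (n := Fin n)).injective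
      rw [h1, map_one]
    apply Subtype.ext
    exact Units.ext h2
  have hfr : Module.finrank F (Fin n → F) = n := by simp
  have hepos : 0 < e := by
    rw [he, orderOf_pos_iff]
    haveI : Fact p.Prime := inferInstance
    have hu : IsUnit ((Fintype.card F : ℕ) : ZMod p) := by
      rw [ZMod.isUnit_iff_coprime]
      exact ((Nat.Prime.coprime_iff_not_dvd Fact.out).2 hpq).symm
    exact hu.isOfFinOrder
  have hlt : n / e < 2 ^ (Nat.log 2 (n / e) + 1) := Nat.lt_pow_succ_log_self (by norm_num) _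
  have hp2 : 2 ≤ p := (Fact.out : p.Prime).two_le
  have hlt2 : n < e * p ^ (Nat.log 2 (n / e) + 1) := by
    have h1 : n < 2 ^ (Nat.log 2 (n / e) + 1) * e := (Nat.div_lt_iff_lt_mul hepos).1 hlt
    have h2 : 2 ^ (Nat.log 2 (n / e) + 1) ≤ p ^ (Nat.log 2 (n / e) + 1) :=
      Nat.pow_le_pow_left hp2 _
    rw [mul_comm] at h1
    exact lt_of_lt_of_le h1 (Nat.mul_le_mul_left _ h2)
  rw [eq_bot_iff]
  intro g hg
  rw [Subgroup.mem_bot]
  apply hτ
  subst he
  exact cross_bound p F hpq n _ (Fin n → F) ↥P hP τ hfr hlt2 g hg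

end Cfsg.Agent.S4417
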