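import Mathlib
import Cfsg.Agent.Lib.PGroup.FrattiniBasis

set_option autoImplicit false

namespace Cfsg.Agent.S4420

open Subgroup

variable {H : Type*} [Group H]

/-- An element whose translates by `A` all square to one inverts `A`. -/
theorem conj_eq_inv {x a : H} (hx : x ^ 2 = 1) (hxa : (x * a) ^ 2 = 1) : x * a * x⁻¹ = a⁻¹ := by
  have h1 : x⁻¹ = x := by
    rw [inv_eq_iff_mul_eq_one, ← sq, hx]
  rw [h1]
  rw [sq] at hxa
  rw [eq_inv_iff_mul_eq_one]
  rw [← hxa]
  group

/-- Groups of exponent two are commutative. -/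
theorem comm_of_sq {h : ∀ x : H, x ^ 2 = 1} (x y : H) : x * y = y * x := by
  have hinv : ∀ z : H, z⁻¹ = z := fun z => by
    rw [inv_eq_iff_mul_eq_one, ← sq, h]
  have := hinv (x * y)
  rw [mul_inv_rev, hinv x, hinv y] at this
  exact this.symm

/-- Two distinct index-two subgroups with the inversion property force exponent two. -/
theorem unique_aux {B B' : Subgroup H} (hB : B.index = 2) (hB' : B'.index = 2)
    (hinv : ∀ x : H, x ∉ B → x ^ 2 = 1 ∧ ∀ b ∈ B, x * b * x⁻¹ = b⁻¹)
    (hinv' : ∀ x : H, x ∉ B' → x ^ 2 = 1 ∧ ∀ b ∈ B', x * b * x⁻¹ = b⁻¹) (hne : B' ≠ B) :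
    ∀ x : H, x ^ 2 = 1 := by
  classical
  have hle : ∀ {C D : Subgroup H}, C.index = 2 → D.index = 2 → C ≤ D → C = D := by
    intro C D hC hD hCD
    have h1 := Subgroup.relIndex_mul_index hCD
    rw [hC, hD] at h1
    have h2 : C.relIndex D = 1 := by omega
    exact le_antisymm hCD (Subgroup.relIndex_eq_one.mp h2)
  obtain ⟨b, hbB, hbB'⟩ : ∃ b, b ∈ B ∧ b ∉ B' := by
    by_contra hcon
    push Not at hcon
    exact hne (hle hB hB' hcon).symm
  obtain ⟨b', hbB'2, hbB2⟩ : ∃ b', b' ∈ B' ∧ b' ∉ B := by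
    by_contra hcon
    push Not at hcon
    exact hne (hle hB' hB hcon)
  have hbb' : b * b' ∉ B := by
    intro h
    apply hbB2
    have := B.mul_mem (B.inv_mem hbB) h
    simpa using this
  intro x
  by_cases hxB : x ∈ B
  · by_cases hxB' : x ∈ B'
    · -- `x` is inverted by `b`, by `b'`, and by `b b'`
      have h1 := (hinv' b hbB').2 x hxB'
      have h2 := (hinv b' hbB2).2 x hxB
      have h3 := (hinv (b * b') hbb').2 x hxB
      have h4 : b * b' * x * (b * b')⁻¹ = x := by
        have e : b * b' * x * (b * b')⁻¹ = b * (b' * x * b'⁻¹) * b⁻¹ := by group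
        rw [e, h2]
        have e2 : b * x⁻¹ * b⁻¹ = (b * x * b⁻¹)⁻¹ := by group
        rw [e2, h1, inv_inv]
      rw [h4] at h3
      rw [sq]
      nth_rewrite 1 [h3]
      group
    · exact (hinv' x hxB').1
  · exact (hinv x hxB).1

/-- Structure of groups in which every element outside some proper subgroup has square 1. Let H be a finite group with a proper subgroup A such that every element outside A has square 1. Then H has an abelian normal subgroup B of index 2 such that every element outside B is an involution inverting every element of B; and if H is not an elementary abelian 2-group, B is the only abelian normal subgroup of index 2 with this property. -/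
theorem result {H : Type*} [Group H] [Finite H] (A : Subgroup H) (hA : A ≠ ⊤) (hD : ∀ x : H, x ∉ A → x ^ 2 = 1) :
    ∃ B : Subgroup H, B.Normal ∧ IsMulCommutative ↥B ∧ B.index = 2 ∧
      (∀ x : H, x ∉ B → x ^ 2 = 1 ∧ ∀ b ∈ B, x * b * x⁻¹ = b⁻¹) ∧
      (¬ (IsMulCommutative H ∧ ∀ x : H, x ^ 2 = 1) →
        ∀ B' : Subgroup H, B'.Normal → IsMulCommutative ↥B' → B'.index = 2 →
          (∀ x : H, x ∉ B' → x ^ 2 = 1 ∧ ∀ b ∈ B', x * b * x⁻¹ = b⁻¹) → B' = B) := by
  classical
  obtain ⟨x₀, hx₀⟩ : ∃ x, x ∉ A := by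
    by_contra hcon
    push Not at hcon
    exact hA (eq_top_iff.mpr fun x _ => hcon x)
  have hinvA : ∀ x : H, x ∉ A → ∀ a ∈ A, x * a * x⁻¹ = a⁻¹ := by
    intro x hx a ha
    refine conj_eq_inv (hD x hx) (hD _ ?_)
    intro h
    apply hx
    have := A.mul_mem h (A.inv_mem ha)
    simpa using this
  have huniq : ∀ B : Subgroup H, B.index = 2 →
      (∀ x : H, x ∉ B → x ^ 2 = 1 ∧ ∀ b ∈ B, x * b * x⁻¹ = b⁻¹) →
      (¬ (IsMulCommutative H ∧ ∀ x : H, x ^ 2 = 1) →
        ∀ B' : Subgroup H, B'.Normal → IsMulCommutative ↥B' → B'.index = 2 →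
          (∀ x : H, x ∉ B' → x ^ 2 = 1 ∧ ∀ b ∈ B', x * b * x⁻¹ = b⁻¹) → B' = B) := by
    intro B hB hBinv hnot B' _ _ hB' hB'inv
    by_contra hne
    apply hnot
    have hall := unique_aux hB hB' hBinv hB'inv hne
    exact ⟨⟨⟨comm_of_sq (h := hall)⟩⟩, hall⟩
  by_cases hidx : A.index = 2
  · refine ⟨A, Subgroup.normal_of_index_eq_two hidx, ?_, hidx, fun x hx => ⟨hD x hx, hinvA x hx⟩,
      huniq A hidx fun x hx => ⟨hD x hx, hinvA x hx⟩⟩
    refine ⟨⟨?_⟩⟩
    rintro ⟨a, ha⟩ ⟨b, hb⟩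
    apply Subtype.ext
    have h1 := hinvA x₀ hx₀ a ha
    have h2 := hinvA x₀ hx₀ b hb
    have h3 := hinvA x₀ hx₀ (a * b) (A.mul_mem ha hb)
    have e : x₀ * (a * b) * x₀⁻¹ = (x₀ * a * x₀⁻¹) * (x₀ * b * x₀⁻¹) := by group
    rw [e, h1, h2, ← mul_inv_rev] at h3
    have := inv_injective h3
    exact this.symm
  · -- exponent two
    have hall : ∀ x : H, x ^ 2 = 1 := by
      obtain ⟨y, hy, hyx⟩ : ∃ y, y ∉ A ∧ y * x₀ ∉ A := by
        by_contra hcon
        push Not at hcon
        apply hidx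
        rw [Subgroup.index_eq_two_iff]
        refine ⟨x₀, fun b => ?_⟩
        by_cases hb : b ∈ A
        · right
          refine ⟨hb, fun h => hx₀ ?_⟩
          have := A.mul_mem (A.inv_mem hb) h
          simpa using this
        · left
          exact ⟨hcon b hb, hb⟩
      intro a
      by_cases ha : a ∈ A
      · have h1 := hinvA _ hx₀ a ha
        have h2 := hinvA _ hy a ha
        have h3 := hinvA _ hyx a ha
        have e : y * x₀ * a * (y * x₀)⁻¹ = y * (x₀ * a * x₀⁻¹) * y⁻¹ := by group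
        rw [e, h1] at h3
        have e2 : y * a⁻¹ * y⁻¹ = (y * a * y⁻¹)⁻¹ := by group
        rw [e2, h2, inv_inv] at h3
        rw [sq]
        nth_rewrite 1 [h3]
        group
      · exact hD a ha
    have hcomm : ∀ x y : H, x * y = y * x := comm_of_sq (h := hall)
    -- a coatom above `A`
    obtain ⟨M, hM, -⟩ := (eq_top_or_exists_le_coatom A).resolve_left hA
    have hH2 : IsPGroup 2 H := fun x => ⟨1, by simpa using hall x⟩
    haveI : Fact (Nat.Prime 2) := ⟨Nat.prime_two⟩
    have hMidx : M.index = 2 := Cfsg.Agent.Lib.PGroup.FrattiniBasis.coatom_index hH2 hM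
    have hinvM : ∀ x : H, x ∉ M → x ^ 2 = 1 ∧ ∀ b ∈ M, x * b * x⁻¹ = b⁻¹ := by
      intro x _
      refine ⟨hall x, fun b _ => ?_⟩
      rw [hcomm x b]
      have : b⁻¹ = b := by
        rw [inv_eq_iff_mul_eq_one, ← sq, hall]
      rw [this]
      group
    refine ⟨M, Subgroup.normal_of_index_eq_two hMidx, ?_, hMidx, hinvM, huniq M hMidx hinvM⟩
    refine ⟨⟨?_⟩⟩
    rintro ⟨a, ha⟩ ⟨b, hb⟩
    exact Subtype.ext (hcomm a b)

end Cfsg.Agent.S4420
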