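import Cfsg.Statements.S4442
import Cfsg.Agent.Lib.DefectOne.Induced

set_option autoImplicit false
open Cfsg

namespace Cfsg.Agent.S4442

open Cfsg.Agent.Lib.DefectOne Subgroup Finset Cfsg.Agent.Lib.Blocks.Local Cfsg.Agent.Lib.Blocks.Central

set_option maxHeartbeats 2000000 in
/-- Blocks of defect one. Let p be an odd prime and G a finite group whose Sylow p-subgroup P has order p; let C = C_G(P) and N = N_G(P), and fix a maximal ideal M of the algebraic integers containing p. Let B be a block of G with defect group P, b a block of C inducing B, and θ the member of b having P in its kernel (there is exactly one). Let T be the stabilizer of θ in N (the elements g ∈ N with θ(g c g⁻¹) = θ(c) for all c ∈ C) and e the index of C in T. Then e divides p − 1 and B contains exactly e + (p − 1)/e irreducible characters. Moreover B is the disjoint union of a set X of e characters and a set Y of (p − 1)/e characters such that, with f the index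 of C in N: every χ ∈ X has χ(1) ≡ ±(f/e)·θ(1) (mod p), there is one sign ε with ψ(1) ≡ ε f θ(1) (mod p) for all ψ ∈ Y, and all members of Y agree on the p-regular elements of G. -/
theorem result {G : Type*} [Group G] [Finite G] (p : ℕ) [Fact p.Prime] (M : Ideal Cfsg.AlgInt) (hM : Cfsg.IsPModular p M) (hodd : p ≠ 2) (P : Sylow p G) (hP : Nat.card P = p) (B : Set (Cfsg.IrrCharacter G)) (hB : Cfsg.IsPBlock M B) (hBP : Cfsg.IsDefectGroup p M B P) (b : Set (Cfsg.IrrCharacter (Subgroup.centralizer ((P : Subgroup G) : Set G)))) (hind : Cfsg.IsInducedBlock M (Subgroup.centralizer ((P : Subgroup G) : Set G)) b B) (θ : Cfsg.IrrCharacter (Subgroup.centralizer ((P : Subgroup G) : Set G))) (hθ : θ ∈ b) (hθP : ∀ x : Subgroup.centralizer ((P : Subgroup G) : Set G), (x : G) ∈ (P : Subgroup G) → (θ : Subgroup.centralizer ((P : Subgroup G) : Set G) → ℂ) x = (θ : Subgroup.centralizer ((P : Subgroup G) : Set G) → ℂ) 1) (T : Subgroup G) (hT : ∀ g :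 G, g ∈ T ↔ (g ∈ Subgroup.normalizer ((P : Subgroup G) : Set G) ∧ ∀ c c' : Subgroup.centralizer ((P : Subgroup G) : Set G), (c' : G) = g * c * g⁻¹ → (θ : Subgroup.centralizer ((P : Subgroup G) : Set G) → ℂ) c' = (θ : Subgroup.centralizer ((P : Subgroup G) : Set G) → ℂ) c)) (e f : ℕ) (he : (Subgroup.centralizer ((P : Subgroup G) : Set G)).relIndex T = e) (hf : (Subgroup.centralizer ((P : Subgroup G) : Set G)).relIndex (Subgroup.normalizer ((P : Subgroup G) : Set G)) = f) : e ∣ p - 1 ∧ Nat.card B = e + (p - 1) / e ∧ ∃ X Y : Set (Cfsg.IrrCharacter G), B = X ∪ Y ∧ Disjoint X Y ∧ Nat.card X = e ∧ Nat.card Y = (p - 1) / e ∧ (∀ χ ∈ X, (Cfsg.charDegree (χ : G → ℂ) : ℤ) ≡ ((f / e * Cfsg.charDegree (θ : Subgroup.centralizer ((P : Subgroup G) : Set G) → ℂ) : ℕ) : ℤ) [ZMOD p] ∨ (Cfsg.charDegree (χ : G → ℂ) : ℤ) ≡ -((f / e * Cfsg.charDegree (θ : Subgroup.centralizer ((P : Subgroup G) : Set G) → ℂ) : ℕ) : ℤ) [ZMOD p]) ∧ (∃ ε : ℤ, (ε = 1 ∨ ε =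 -1) ∧ ∀ ψ ∈ Y, (Cfsg.charDegree (ψ : G → ℂ) : ℤ) ≡ ε * ((f * Cfsg.charDegree (θ : Subgroup.centralizer ((P : Subgroup G) : Set G) → ℂ) : ℕ) : ℤ) [ZMOD p]) ∧ ∀ ψ ∈ Y, ∀ ψ' ∈ Y, ∀ g : G, ¬ p ∣ orderOf g → (ψ : G → ℂ) g = (ψ' : G → ℂ) g := by
  classical
  letI : Fintype G := Fintype.ofFinite _
  have hp := (Fact.out : p.Prime)
  have hnt : Nontrivial (P : Subgroup G) := by
    have h1 : 1 < Nat.card (P : Subgroup G) := by
      show 1 < Nat.card P
      rw [hP]
      exact hp.one_lt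
    exact Finite.one_lt_card_iff_nontrivial.1 h1
  obtain ⟨⟨x, hxP⟩, hx1⟩ := exists_ne (1 : (P : Subgroup G))
  have hx1' : x ≠ 1 := fun h => hx1 (Subtype.ext h)
  obtain ⟨hz, H, hL⟩ := exists_localData P hP hxP hx1'
  letI : Fintype H := Fintype.ofFinite _
  letI : Fintype (IrrCharacter G) := Fintype.ofFinite _
  haveI hMp : M.IsPrime := isPrime_of_isPModular hM
  have hζ : IsPrimitiveRoot (Complex.exp (2 * Real.pi * Complex.I / p)) p := Complex.isPrimitiveRoot_exp p hp.ne_zero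
  set ζ := Complex.exp (2 * Real.pi * Complex.I / p) with hζdef
  have hcen : centralizer ((P : Subgroup G) : Set G) = centralizer (zpowers x : Set G) := by rw [hz]
  have hnor : normalizer ((P : Subgroup G) : Set G) = normalizer (zpowers x : Set G) := by rw [hz]
  letI : Fintype (centralizer ((P : Subgroup G) : Set G)) := Fintype.ofFinite _
  have hC' : ∀ c : G, c ∈ centralizer ((P : Subgroup G) : Set G) ↔ c * x = x * c := by
    intro c
    rw [hcen]
    constructor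
    · intro hc
      exact (Subgroup.mem_centralizer_iff.1 hc x (Subgroup.mem_zpowers x)).symm
    · intro hc
      rw [Subgroup.mem_centralizer_iff]
      intro h hh
      obtain ⟨k, rfl⟩ := Subgroup.mem_zpowers_iff.1 hh
      have : Commute c x := hc
      exact (this.zpow_right k).eq.symm
  have hθP' : ∀ u : centralizer ((P : Subgroup G) : Set G), (u : G) ∈ zpowers x → (θ : centralizer ((P : Subgroup G) : Set G) → ℂ) u = (θ : centralizer ((P : Subgroup G) : Set G) → ℂ) 1 := by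
    intro u hu
    rw [hz] at hu
    exact hθP u hu
  let φ : H → ℂ := resH hL hC' (θ : centralizer ((P : Subgroup G) : Set G) → ℂ)
  have hφ : IsIrrCharacter H φ := isIrr_resH hL hC' θ.2 hθP'
  have hTeq : T = TT hL φ := by
    ext g
    rw [hT, mem_TT_iff hL hC' θ.2 hθP', hnor]
  obtain ⟨A, e₀, t, hI⟩ := exists_inertiaData hL (isClassFunction_of_irr hφ)
  have he₀ : e₀ = e := by
    rw [← hI.idx, ← he, hcen, hTeq]
  subst he₀
  obtain ⟨X, Y, εX, ε₀, bY, hS⟩ := exists_rowStructure hL hφ hζ hI.epos hI.het hI.Acard hI.hA hI.T1 hI.T2 hI.fib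
  have hdc : ∀ χ : IrrCharacter G, (χ : G → ℂ) 1 = (charDegree (χ : G → ℂ) : ℂ) := fun χ =>
    (Cfsg.Agent.Lib.Char.Values.IsCharacter.charDegree_cast
      (Cfsg.Agent.Lib.Char.Basic.isCharacter_of_isIrrCharacter χ.2)).symm
  have hφ1 : φ 1 = ((charDegree (θ : centralizer ((P : Subgroup G) : Set G) → ℂ) : ℕ) : ℂ) :=
    (Cfsg.Agent.Lib.Char.Values.IsCharacter.charDegree_cast
      (Cfsg.Agent.Lib.Char.Basic.isCharacter_of_isIrrCharacter θ.2)).symm
  have hepos := hI.epos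
  have helt := e_lt_p hL hI
  have hpe : ¬ (p : ℤ) ∣ (e₀ : ℤ) := by
    intro h
    have h1 : p ∣ e₀ := by exact_mod_cast h
    have h2 := Nat.le_of_dvd hepos h1
    omega
  have hpi : Prime (p : ℤ) := Nat.prime_iff_prime_int.1 hp
  obtain ⟨χ₀, hχ₀⟩ := hB
  have hχ₀B : χ₀ ∈ B := by
    rw [hχ₀]
    exact Cfsg.Agent.Lib.Blocks.Osima.mem_blockOf_self χ₀
  have hcardU : (X ∪ Y).card = e₀ + t := by
    rw [card_union_of_disjoint hS.disj, hS.cardX, hS.cardY]
  obtain ⟨χ₁, hχ₁⟩ : (X ∪ Y).Nonempty := by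
    rw [← card_pos, hcardU]
    omega
  have hsub : ∀ χ ∈ X ∪ Y, χ ∈ B := by
    intro χ hχ
    rw [hχ₀]
    intro g
    have h1 := hind.2.2 θ hθ χ₀ hχ₀B g
    have h2 := centralChar_congr hL hM χ.2 hφ hζ (not_dvd_mTot hL hS hI hχ) g
    rw [inducedCentralChar_eq hL hC' θ.2 hθP' g] at h1
    have hφ1' : MemLocalRing M (φ 1)⁻¹ := by
      rw [hφ1]
      exact memLocalRing_inv_natCast hM (not_dvd_degree hL hφ hφ1)
    have hφ0 : φ 1 ≠ 0 := Cfsg.Agent.Lib.Char.Ortho.irr_apply_one_ne_zero hφ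
    have h3 := memLocalIdeal_mul_left hφ1' h2
    have h4 := memLocalIdeal_add h1 h3
    have h5 := memLocalIdeal_neg h4
    convert h5 using 1
    show _ = -((φ 1)⁻¹ * _ - _ + (φ 1)⁻¹ * (φ 1 * centralChar (χ : G → ℂ) g - _))
    field_simp
    ring
  have hχ₁B : χ₁ ∈ blockOf M (χ₀ : G → ℂ) := by
    rw [← hχ₀]
    exact hsub χ₁ hχ₁
  have hBeq : B = blockOf M (χ₁ : G → ℂ) := by
    rw [hχ₀]
    exact (Cfsg.Agent.Lib.Blocks.Osima.blockOf_eq_of_mem hχ₁B).symm
  have hdeg : ∀ χ ∈ blockOf M (χ₁ : G → ℂ), ¬ p ∣ charDegree (χ : G → ℂ) := by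
    intro χ hχ
    exact not_dvd_of_mem_block hM hL.syl (not_dvd_deg hL hφ hζ hS hI hχ₁ (hdc χ₁)) hχ
  have hBU : B = ((X ∪ Y : Finset (IrrCharacter G)) : Set (IrrCharacter G)) := by
    rw [hBeq]
    exact block_eq_rows hL hM hφ hζ hS hI hχ₁ hdeg
  have hcardc : ∀ S : Finset (IrrCharacter G), Nat.card ((S : Set (IrrCharacter G))) = S.card := by
    intro S
    simp
  have htdiv : (p - 1) / e₀ = t := (Nat.div_eq_of_eq_mul_right hepos hI.het)
  -- the relative index
  have hCT : centralizer ((P : Subgroup G) : Set G) ≤ T := by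
    intro c hc
    rw [hTeq]
    exact mem_TT_of_comm hL (isClassFunction_of_irr hφ) ((hC' c).1 hc)
  have hTN : T ≤ normalizer ((P : Subgroup G) : Set G) := by
    intro g hg
    rw [hnor, hTeq] at *
    exact TT_le hL _ hg
  obtain ⟨q, hq⟩ : ∃ q, f = e₀ * q := by
    refine ⟨T.relIndex (normalizer ((P : Subgroup G) : Set G)), ?_⟩
    rw [← hf, ← he]
    exact (Subgroup.relIndex_mul_relIndex _ _ _ hCT hTN).symm
  have hfdiv : f / e₀ = q := by
    rw [hq]
    exact Nat.mul_div_cancel_left _ hepos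
  obtain ⟨u, hu⟩ : ∃ u : ℤ, ((centralizer (zpowers x : Set G)).index : ℤ) = e₀ * q + p * u := by
    have h1 := index_centralizer_modEq P
    rw [hf, hcen, hq] at h1
    have h2 : (((e₀ * q : ℕ) : ℤ)) ≡ ((centralizer (zpowers x : Set G)).index : ℤ) [ZMOD p] :=
      ((Int.natCast_modEq_iff).2 h1).symm
    obtain ⟨u, hu⟩ := Int.modEq_iff_dvd.1 h2
    refine ⟨u, ?_⟩
    rw [Nat.cast_mul] at hu
    linear_combination hu
  refine ⟨⟨t, hI.het⟩, ?_, (X : Set (IrrCharacter G)), (Y : Set (IrrCharacter G)), ?_, ?_, ?_, ?_, ?_, ⟨ε₀, hS.sign₀, ?_⟩, ?_⟩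
  · rw [hBU, hcardc, hcardU, htdiv]
  · rw [hBU, Finset.coe_union]
  · exact Finset.disjoint_coe.2 hS.disj
  · rw [hcardc, hS.cardX]
  · rw [hcardc, hS.cardY, htdiv]
  · intro χ hχ
    have hχ' : χ ∈ X := hχ
    obtain ⟨hs, hr⟩ := hS.rowX χ hχ'
    obtain ⟨k, hk⟩ := degree_cong hL χ hφ hζ hI _ _ (hdc χ) hφ1 ((hS.supp χ).1 (mem_union_left _ hχ'))
    rw [Rsum_of_X hS hχ', Nat.cast_mul, hu] at hk
    rw [hfdiv]
    rcases hs with hs | hs
    · right
      rw [Int.modEq_iff_dvd]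
      rw [hs] at hk
      have h1 : (p : ℤ) ∣ (e₀ : ℤ) * (-((q * charDegree (θ : centralizer ((P : Subgroup G) : Set G) → ℂ) : ℕ) : ℤ) - (charDegree (χ : G → ℂ) : ℤ)) := by
        refine ⟨k - e₀ * q * (charDegree (θ : centralizer ((P : Subgroup G) : Set G) → ℂ) : ℤ) - u * (charDegree (θ : centralizer ((P : Subgroup G) : Set G) → ℂ) : ℤ) * (p - 1), ?_⟩
        push_cast
        linear_combination hk
      exact (hpi.dvd_or_dvd h1).resolve_left hpe
    · left
      rw [Int.modEq_iff_dvd]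
      rw [hs] at hk
      have h1 : (p : ℤ) ∣ (e₀ : ℤ) * (((q * charDegree (θ : centralizer ((P : Subgroup G) : Set G) → ℂ) : ℕ) : ℤ) - (charDegree (χ : G → ℂ) : ℤ)) := by
        refine ⟨k + e₀ * q * (charDegree (θ : centralizer ((P : Subgroup G) : Set G) → ℂ) : ℤ) + u * (charDegree (θ : centralizer ((P : Subgroup G) : Set G) → ℂ) : ℤ) * (p - 1), ?_⟩
        push_cast
        linear_combination hk
      exact (hpi.dvd_or_dvd h1).resolve_left hpe
  · intro ψ hψ
    have hψ' : ψ ∈ Y := hψ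
    obtain ⟨k, hk⟩ := degree_cong hL ψ hφ hζ hI _ _ (hdc ψ) hφ1 ((hS.supp ψ).1 (mem_union_right _ hψ'))
    rw [Rsum_of_Y hS hI.Acard hI.hA hψ', Nat.cast_mul, hu] at hk
    rw [Int.modEq_iff_dvd, hq]
    have h1 : (p : ℤ) ∣ (e₀ : ℤ) * (ε₀ * (((e₀ * q * charDegree (θ : centralizer ((P : Subgroup G) : Set G) → ℂ) : ℕ) : ℤ)) - (charDegree (ψ : G → ℂ) : ℤ)) := by
      refine ⟨k - u * (charDegree (θ : centralizer ((P : Subgroup G) : Set G) → ℂ) : ℤ) * ε₀ * e₀, ?_⟩
      push_cast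
      linear_combination hk
    exact (hpi.dvd_or_dvd h1).resolve_left hpe
  · intro ψ hψ ψ' hψ' g hg
    have h1 := hS.rel g hg ψ hψ
    have h2 := hS.rel g hg ψ' hψ'
    have h3 : (ε₀ : ℂ) * (ψ : G → ℂ) g = (ε₀ : ℂ) * (ψ' : G → ℂ) g := by linear_combination h1 - h2
    have h4 : (ε₀ : ℂ) ≠ 0 := by
      rcases hS.sign₀ with h | h <;> rw [h] <;> norm_num
    exact mul_left_cancel₀ h4 h3

end Cfsg.Agent.S4442
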