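import Cfsg.Statements.S4452
import Mathlib
import Cfsg.Agent.Lib.Char.CoprimeCount

set_option autoImplicit false
open Cfsg

namespace Cfsg.Agent.S4452

open scoped Pointwise

/-- Let the finite group G be the product of a normal subgroup K and a solvable subgroup H of coprime orders, and let N = N_G(H). Then the number of irreducible characters of G of degree coprime to the order of H equals the number of irreducible characters of N of degree coprime to the order of H. (The two sets are in fact in a canonical bijection; only the equality of their sizes is stated here.) -/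
theorem result {G : Type*} [Group G] [Finite G] (K H : Subgroup G) [K.Normal] (hKH : K ⊔ H = ⊤) (hcop : (Nat.card K).Coprime (Nat.card H)) (hsolv : Group.IsSolvable H) : Nat.card {χ : Cfsg.IrrCharacter G // (Cfsg.charDegree (χ : G → ℂ)).Coprime (Nat.card H)} = Nat.card {η : Cfsg.IrrCharacter (Subgroup.normalizer (H : Set G)) // (Cfsg.charDegree (η : Subgroup.normalizer (H : Set G) → ℂ)).Coprime (Nat.card H)} := by
  classical
  letI := Fintype.ofFinite G
  have hKHd : Disjoint K H := Subgroup.disjoint_of_coprime_natCard hcop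
  have hmul : ((K : Set G) * (H : Set G)) = Set.univ := by
    rw [← Subgroup.normal_mul, hKH]
    rfl
  have hc : K.IsComplement' H := Subgroup.isComplement'_of_disjoint_and_mul_eq_univ hKHd hmul
  have hHN : H ≤ Subgroup.normalizer (H : Set G) := Subgroup.le_normalizer
  -- the centralizer
  set C : Subgroup G := K ⊓ Subgroup.centralizer (H : Set G) with hC
  have hcomm : ∀ x : G, x ∈ K → x ∈ Subgroup.normalizer (H : Set G) → ∀ h ∈ H, h * x = x * h := by
    intro x hx hxN h hh
    have h1 : x * h * x⁻¹ ∈ H := (Subgroup.mem_normalizer_iff.mp hxN h).mp hh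
    have h2 : x * h * x⁻¹ * h⁻¹ ∈ H := H.mul_mem h1 (H.inv_mem hh)
    have h3 : x * h * x⁻¹ * h⁻¹ ∈ K := by
      have := ‹K.Normal›.conj_mem x⁻¹ (K.inv_mem hx) h
      have h4 : x * (h * x⁻¹ * h⁻¹) ∈ K := K.mul_mem hx this
      have h5 : x * h * x⁻¹ * h⁻¹ = x * (h * x⁻¹ * h⁻¹) := by group
      rwa [h5]
    have h4 : x * h * x⁻¹ * h⁻¹ = 1 := Subgroup.disjoint_def.mp hKHd h3 h2
    have h5 : x * h * x⁻¹ = h := mul_inv_eq_one.mp h4
    have h6 : x * h = h * x := mul_inv_eq_iff_eq_mul.mp h5
    exact h6.symm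
  have hCK : C ≤ K := inf_le_left
  have hCN : C ≤ Subgroup.normalizer (H : Set G) := by
    intro x hx
    rw [Subgroup.mem_normalizer_iff]
    intro h
    have hxc : ∀ h ∈ (H : Set G), h * x = x * h :=
      fun h hh => Subgroup.mem_centralizer_iff.mp hx.2 h hh
    constructor
    · intro hh
      have h1 : x * h * x⁻¹ = h := by rw [← hxc h hh]; group
      rw [h1]
      exact hh
    · intro hh
      have h1 := hxc _ hh
      have h2 : x * h * x⁻¹ * x = x * h := by group
      have h5 : x * (x * h * x⁻¹) = x * h := by rw [← h1, h2]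
      have h4 : x * h * x⁻¹ = h := mul_left_cancel h5
      rwa [h4] at hh
  have hNC : ∀ x : G, x ∈ K → x ∈ Subgroup.normalizer (H : Set G) → x ∈ C := by
    intro x hx hxN
    refine ⟨hx, Subgroup.mem_centralizer_iff.mpr fun h hh => hcomm x hx hxN h hh⟩
  -- inside the normalizer
  let K₁ : Subgroup (Subgroup.normalizer (H : Set G)) := K.subgroupOf _
  let H₁ : Subgroup (Subgroup.normalizer (H : Set G)) := H.subgroupOf _
  let eH : H₁ ≃* H := Subgroup.subgroupOfEquivOfLe hHN
  have hEq : K₁.map (Subgroup.normalizer (H : Set G)).subtype = C := by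
    ext x
    constructor
    · rintro ⟨y, hy, rfl⟩
      exact hNC _ hy y.2
    · intro hx
      exact ⟨⟨x, hCN hx⟩, hCK hx, rfl⟩
  let eK : K₁ ≃* C := (K₁.equivMapOfInjective _ Subtype.val_injective).trans
    (MulEquiv.subgroupCongr hEq)
  have hcardK : Nat.card K₁ = Nat.card C := Nat.card_congr eK.toEquiv
  have hcardH : Nat.card H₁ = Nat.card H := Nat.card_congr eH.toEquiv
  have hcop₁ : (Nat.card K₁).Coprime (Nat.card H₁) := by
    rw [hcardK, hcardH]
    exact Nat.Coprime.coprime_dvd_left (Subgroup.card_dvd_of_le hCK) hcop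
  have hd₁ : Disjoint K₁ H₁ := Subgroup.disjoint_of_coprime_natCard hcop₁
  have hdec : ∀ n : Subgroup.normalizer (H : Set G), ∃ k ∈ K₁, ∃ h ∈ H₁, k * h = n := by
    intro n
    have h1 : (n : G) ∈ ((K : Set G) * (H : Set G)) := by
      rw [hmul]
      trivial
    obtain ⟨k, hk, h, hh, hkh⟩ := h1
    have hkN : k ∈ Subgroup.normalizer (H : Set G) := by
      have : k = n * h⁻¹ := eq_mul_inv_of_mul_eq hkh
      rw [this]
      exact Subgroup.mul_mem _ n.2 (Subgroup.inv_mem _ (hHN hh))
    exact ⟨⟨k, hkN⟩, hk, ⟨h, hHN hh⟩, hh, Subtype.ext hkh⟩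
  have hmul₁ : ((K₁ : Set (Subgroup.normalizer (H : Set G))) *
      (H₁ : Set (Subgroup.normalizer (H : Set G)))) = Set.univ := by
    apply Set.eq_univ_of_forall
    intro n
    obtain ⟨k, hk, h, hh, hkh⟩ := hdec n
    exact ⟨k, hk, h, hh, hkh⟩
  have hc₁ : K₁.IsComplement' H₁ := Subgroup.isComplement'_of_disjoint_and_mul_eq_univ hd₁ hmul₁
  -- the two counts
  have h1 := Cfsg.Agent.Lib.Char.CoprimeCount.card_coprime_deg K H hc hcop
  have h2 := Cfsg.Agent.Lib.Char.CoprimeCount.card_coprime_deg K₁ H₁ hc₁ hcop₁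
  rw [hcardH] at h2
  rw [h1, h2, Cfsg.Agent.Lib.Char.CoprimeCount.card_invIrr_eq K H hc hcop hsolv hC]
  have h3 : Nat.card (Cfsg.Agent.Lib.Char.CoprimeCount.InvIrr (Subgroup.normalizer (H : Set G)) K₁)
      = Nat.card (Cfsg.IrrCharacter K₁) := by
    refine Nat.card_congr (Equiv.subtypeUnivEquiv ?_)
    intro θ g n
    obtain ⟨k, hk, h, hh, rfl⟩ := hdec g
    have hcl := Cfsg.Agent.Lib.Char.Basic.isClassFunction_of_isCharacter
      (Cfsg.Agent.Lib.Char.Basic.isCharacter_of_isIrrCharacter θ.2) n ⟨k, hk⟩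
    rw [← hcl]
    refine congrArg _ (Subtype.ext (Subtype.ext ?_))
    have hcm := hcomm ((n : Subgroup.normalizer (H : Set G)) : G) n.2 (n : Subgroup.normalizer (H : Set G)).2
      (h : G) hh
    simp only [Subgroup.coe_mul, InvMemClass.coe_inv]
    have : ((h : G)) * ((n : Subgroup.normalizer (H : Set G)) : G) * (h : G)⁻¹ =
        ((n : Subgroup.normalizer (H : Set G)) : G) := by
      rw [hcm]
      group
    simp only [mul_inv_rev]
    calc _ = (k : G) * ((h : G) * ((n : Subgroup.normalizer (H : Set G)) : G) * (h : G)⁻¹) * (k : G)⁻¹ := by group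
      _ = _ := by rw [this]
  have h4 : Nat.card (H₁ →* ℂˣ) = Nat.card (H →* ℂˣ) :=
    Nat.card_congr (MulEquiv.monoidHomCongrLeft eH).toEquiv
  rw [h3, h4, Cfsg.Agent.Lib.Char.CoprimeCount.card_irr_congr eK]

end Cfsg.Agent.S4452
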