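import Cfsg.Statements.S4457
import Mathlib
import Cfsg.Agent.S4458
import Cfsg.Agent.S4845
import Cfsg.Agent.Lib.Char.TwoDeg
import Cfsg.Agent.Lib.Char.GlaubCyclic
import Cfsg.Agent.Lib.Char.PDerived
import Cfsg.Agent.Lib.Coprime.KGV
import Cfsg.Agent.Lib.Nilpotent.Elements

set_option autoImplicit false
set_option linter.style.haveILetI false
set_option linter.unusedSectionVars false
open Cfsg

namespace Cfsg.Agent.S4457

open Cfsg.Agent.Lib.Char Cfsg.Agent.Lib.Char.TwoDeg
open scoped commutatorElement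

universe u

section Calc

variable {G : Type u} [Group G]

/-- The three subgroups lemma for normal subgroups, modulo a normal subgroup. -/
theorem three_subgroups (A B C R : Subgroup G) [R.Normal]
    (h1 : ⁅⁅B, C⁆, A⁆ ≤ R) (h2 : ⁅⁅C, A⁆, B⁆ ≤ R) : ⁅⁅A, B⁆, C⁆ ≤ R := by
  let π := QuotientGroup.mk' R
  have hker : π.ker = R := QuotientGroup.ker_mk' R
  have e : ∀ H : Subgroup G, H ≤ R ↔ H.map π = ⊥ := by
    intro H
    rw [Subgroup.map_eq_bot_iff, hker]
  rw [e] at h1 h2 ⊢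
  simp only [Subgroup.map_commutator] at h1 h2 ⊢
  exact Subgroup.commutator_commutator_eq_bot_of_rotate h1 h2

/-- The descending chain `K, [K,G], [K,G,G], …`. -/
def Kc (K : Subgroup G) : ℕ → Subgroup G
  | 0 => K
  | i + 1 => ⁅Kc K i, ⊤⁆

theorem Kc_normal (K : Subgroup G) [hK : K.Normal] (i : ℕ) : (Kc K i).Normal := by
  induction i with
  | zero => exact hK
  | succ n ih =>
    haveI := ih
    exact Subgroup.commutator_normal (Kc K n) ⊤

theorem Kc_succ_le (K : Subgroup G) [K.Normal] (i : ℕ) : Kc K (i + 1) ≤ Kc K i := by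
  haveI := Kc_normal K i
  exact Subgroup.commutator_le_left _ _

theorem Kc_antitone (K : Subgroup G) [K.Normal] : Antitone (Kc K) :=
  antitone_nat_of_succ_le (Kc_succ_le K)

theorem Kc_le_lcs (K : Subgroup G) (i : ℕ) : Kc K i ≤ (⊤ : Subgroup G).lowerCentralSeries i := by
  induction i with
  | zero => exact le_top
  | succ n ih =>
    exact Subgroup.commutator_mono ih le_rfl

/-- The upper central series relative to `M`. -/
def Rc (M : Subgroup G) [M.Normal] (j : ℕ) : Subgroup G :=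
  (Subgroup.upperCentralSeries (G ⧸ M) j).comap (QuotientGroup.mk' M)

theorem Rc_zero (M : Subgroup G) [M.Normal] : Rc M 0 = M := by
  rw [Rc, Subgroup.upperCentralSeries_zero]
  ext x
  simp

theorem Rc_normal (M : Subgroup G) [M.Normal] (j : ℕ) : (Rc M j).Normal := by
  unfold Rc
  haveI : (Subgroup.upperCentralSeries (G ⧸ M) j).Normal := Subgroup.normal_of_characteristic _
  exact Subgroup.Normal.comap inferInstance _

theorem mem_Rc_succ (M : Subgroup G) [M.Normal] (j : ℕ) (x : G) :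
    x ∈ Rc M (j + 1) ↔ ∀ g : G, ⁅x, g⁆ ∈ Rc M j := by
  rw [Rc, Subgroup.mem_comap, Subgroup.mem_upperCentralSeries_succ_iff]
  constructor
  · intro h g
    rw [Rc, Subgroup.mem_comap]
    simpa using h (g : G ⧸ M)
  · intro h y
    obtain ⟨g, rfl⟩ := QuotientGroup.mk_surjective y
    have := h g
    rw [Rc, Subgroup.mem_comap] at this
    simpa using this

theorem le_Rc (M : Subgroup G) [M.Normal] (j : ℕ) : M ≤ Rc M j := by
  intro x hx
  rw [Rc, Subgroup.mem_comap]
  have : QuotientGroup.mk' M x = 1 := by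
    simpa [QuotientGroup.eq_one_iff] using hx
  rw [this]
  exact one_mem _

/-- The commutator calculus: `⁅K, K⁆` lies in the relative hypercentre. -/
theorem commutator_le_Rc (K L M : Subgroup G) [K.Normal] [M.Normal] {n : ℕ}
    (hn : Kc K n ≤ L) (hKL : ∀ k ∈ K, ∀ l ∈ L, ⁅k, l⁆ ∈ M) :
    ⁅K, K⁆ ≤ Rc M (2 * n) := by
  have main : ∀ d a b : ℕ, 2 * n ≤ a + b + d → ⁅Kc K a, Kc K b⁆ ≤ Rc M d := by
    intro d
    induction d with
    | zero =>
      intro a b hab
      rw [Rc_zero]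
      have hle : ∀ i, Kc K i ≤ K := fun i => Kc_antitone K (Nat.zero_le i)
      rcases (by omega : n ≤ a ∨ n ≤ b) with h | h
      · rw [Subgroup.commutator_le]
        intro x hx y hy
        have h1 : x ∈ L := hn (Kc_antitone K h hx)
        have h2 := hKL y (hle b hy) x h1
        have h3 : ⁅x, y⁆ = ⁅y, x⁆⁻¹ := (commutatorElement_inv y x).symm
        rw [h3]
        exact inv_mem h2
      · rw [Subgroup.commutator_le]
        intro x hx y hy
        exact hKL x (hle a hx) y (hn (Kc_antitone K h hy))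
    | succ d ih =>
      intro a b hab
      haveI := Rc_normal M d
      have h3 : ⁅⁅Kc K a, Kc K b⁆, ⊤⁆ ≤ Rc M d := by
        apply three_subgroups
        · show ⁅Kc K (b + 1), Kc K a⁆ ≤ Rc M d
          exact ih (b + 1) a (by omega)
        · rw [Subgroup.commutator_comm ⊤ (Kc K a)]
          show ⁅Kc K (a + 1), Kc K b⁆ ≤ Rc M d
          exact ih (a + 1) b (by omega)
      intro x hx
      rw [mem_Rc_succ]
      intro g
      apply h3
      exact Subgroup.commutator_mem_commutator hx (Subgroup.mem_top g)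
  exact main (2 * n) 0 0 (by omega)

/-- A subgroup with `[L,G] = L` in the relative hypercentre lies in `M`. -/
theorem le_of_le_Rc (L M : Subgroup G) [M.Normal] (hL : ⁅L, ⊤⁆ = L) (j : ℕ)
    (h : L ≤ Rc M j) : L ≤ M := by
  induction j with
  | zero => rwa [Rc_zero] at h
  | succ j ih =>
    apply ih
    rw [← hL, Subgroup.commutator_le]
    intro x hx g _
    exact (mem_Rc_succ M j x).mp (h hx) g

/-- The terminal member of the lower central series. -/
theorem exists_terminal [Finite G] :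
    ∃ n : ℕ, ⁅(⊤ : Subgroup G).lowerCentralSeries (n + 1), ⊤⁆ =
      (⊤ : Subgroup G).lowerCentralSeries (n + 1) := by
  classical
  have hanti : Antitone (⊤ : Subgroup G).lowerCentralSeries := Subgroup.lowerCentralSeries_antitone _
  haveI : WellFoundedGT (Subgroup G)ᵒᵈ := inferInstance
  let f : ℕ →o (Subgroup G)ᵒᵈ := ⟨fun n => OrderDual.toDual ((⊤ : Subgroup G).lowerCentralSeries n),
    fun a b h => hanti h⟩
  obtain ⟨n, hn⟩ := WellFoundedGT.monotone_chain_condition f
  refine ⟨n, ?_⟩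
  have h1 : (⊤ : Subgroup G).lowerCentralSeries n = (⊤ : Subgroup G).lowerCentralSeries (n + 1) :=
    hn (n + 1) (by omega)
  have h2 : (⊤ : Subgroup G).lowerCentralSeries n = (⊤ : Subgroup G).lowerCentralSeries (n + 2) :=
    hn (n + 2) (by omega)
  show (⊤ : Subgroup G).lowerCentralSeries (n + 2) = _
  rw [← h2, h1]

end Calc

section Ext

/-- Linear characters extend over abelian quotients. -/
theorem exists_lin_ext {K : Type*} [Group K] [Finite K] {B : Type*} [Group B] [Finite B]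
    (D : Subgroup K) [D.Normal] (hQ : ∀ a b : K, ⁅a, b⁆ ∈ D) (i : B →* K) (l : B →* ℂˣ)
    (hker : ∀ b, i b ∈ D → l b = 1) : ∃ θ : K →* ℂˣ, ∀ b, θ (i b) = l b := by
  classical
  let π := QuotientGroup.mk' D
  have hab : ∀ a b : K ⧸ D, a * b = b * a := by
    intro a b
    obtain ⟨a, rfl⟩ := QuotientGroup.mk_surjective a
    obtain ⟨b, rfl⟩ := QuotientGroup.mk_surjective b
    have h1 : (⁅a, b⁆ : K) ∈ D := hQ a b
    rw [← QuotientGroup.mk_mul, ← QuotientGroup.mk_mul, eq_comm, QuotientGroup.eq]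
    have h2 : (b * a)⁻¹ * (a * b) = ⁅a⁻¹, b⁻¹⁆ := by
      simp only [commutatorElement_def, inv_inv]; group
    rw [h2]
    exact hQ _ _
  let f : B →* K ⧸ D := π.comp i
  let f' : B →* f.range := f.rangeRestrict
  have hsurj : Function.Surjective f' := f.rangeRestrict_surjective
  have hkerle : f'.ker ≤ l.ker := by
    intro b hb
    rw [MonoidHom.mem_ker] at hb ⊢
    apply hker
    have h1 : f b = 1 := congrArg Subtype.val hb
    exact (QuotientGroup.eq_one_iff _).mp h1
  let lbar : f.range →* ℂˣ := f'.liftOfSurjective hsurj ⟨l, hkerle⟩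
  have hlbar : ∀ b, lbar (f' b) = l b := fun b =>
    MonoidHom.liftOfRightInverse_comp_apply _ _ _ _ _
  obtain ⟨ψ, hψ⟩ := exists_hom_extend hab f.range lbar
  refine ⟨ψ.comp π, fun b => ?_⟩
  have h1 := hψ (f' b)
  rw [hlbar] at h1
  exact h1

end Ext

section Central

open Cfsg.Agent.Lib.Char.Basic

variable {G : Type u} [Group G] [Fintype G]

/-- A central character. -/
theorem exists_central_char (A K : Subgroup G) [A.Normal] (hAK : A ≤ K)
    (hc : ∀ a ∈ A, ∀ k ∈ K, a * k = k * a) {θ : K → ℂ} (hθ : IsIrrCharacter K θ) :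
    ∃ l : A →* ℂˣ, IsOver A hAK l θ := by
  classical
  have h1 : θ 1 ≠ 0 := Ortho.irr_apply_one_ne_zero hθ
  have hz : ∀ a : A, (⟨a, hAK a.2⟩ : K) ∈ Subgroup.center K := by
    intro a
    rw [Subgroup.mem_center_iff]
    intro k
    exact Subtype.ext (hc a a.2 k k.2).symm
  let f : A →* ℂ :=
    { toFun := fun a => θ ⟨a, hAK a.2⟩ / θ 1
      map_one' := by
        have : (⟨((1 : A) : G), hAK (1 : A).2⟩ : K) = 1 := rfl
        rw [this, div_self h1]
      map_mul' := by
        intro a b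
        have h2 := PDerived.central_mul_eq hθ (hz a) ⟨b, hAK b.2⟩
        have h3 : (⟨((a * b : A) : G), hAK (a * b : A).2⟩ : K) =
            (⟨a, hAK a.2⟩ : K) * ⟨b, hAK b.2⟩ := rfl
        rw [h3]
        field_simp
        linear_combination h2 }
  refine ⟨f.toHomUnits, fun a => ?_⟩
  have : ((f.toHomUnits a : ℂˣ) : ℂ) = θ ⟨a, hAK a.2⟩ / θ 1 := rfl
  rw [this]
  field_simp

end Central

section NonNil

/-- A maximal proper normal subgroup of `G` inside `L`. -/
structure MaxN {G : Type u} [Group G] (L M : Subgroup G) : Prop where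
  normal : M.Normal
  lt : M < L
  max : ∀ M' : Subgroup G, M'.Normal → M ≤ M' → M' ≤ L → M' = M ∨ M' = L

theorem exists_maxN {G : Type u} [Group G] [Finite G] (L Y : Subgroup G) (hY : Y.Normal)
    (hYL : Y < L) : ∃ M : Subgroup G, Y ≤ M ∧ MaxN L M := by
  classical
  have hfin : ({M : Subgroup G | M.Normal ∧ M < L}).Finite := Set.toFinite _
  obtain ⟨M, hYM, hmax⟩ := hfin.exists_le_maximal (a := Y) ⟨hY, hYL⟩
  refine ⟨M, hYM, hmax.prop.1, hmax.prop.2, ?_⟩
  intro M' hM' hMM' hM'L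
  by_cases h : M' = L
  · exact Or.inr h
  · exact Or.inl (le_antisymm (hmax.2 ⟨hM', lt_of_le_of_ne hM'L h⟩ hMM') hMM')

variable {G : Type u} [Group G] [Fintype G] {m : ℕ}
  (hcd : ∀ χ : IrrCharacter G, charDegree (χ : G → ℂ) = 1 ∨ charDegree (χ : G → ℂ) = m)
  (hm1 : m ≠ 1)
  (L : Subgroup G) [hL : L.Normal] (hab : ∀ a ∈ L, ∀ b ∈ L, a * b = b * a)
  (hcc : ∀ c ∈ commutator G, ∀ b ∈ L, c * b = b * c)
  (hL1 : ⁅L, ⊤⁆ = L) {n : ℕ} (hKc : ∀ K : Subgroup G, Kc K n ≤ L)

/-- The normal core of the kernel. -/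
def coreKer (l : L →* ℂˣ) : Subgroup G := ((l.ker).map L.subtype).normalCore

instance coreKer_normal (l : L →* ℂˣ) : (coreKer L l).Normal := Subgroup.normalCore_normal _

theorem coreKer_le (l : L →* ℂˣ) : coreKer L l ≤ L :=
  (Subgroup.normalCore_le _).trans (Subgroup.map_subtype_le _)

theorem coreKer_lt (l : L →* ℂˣ) (hl : l ≠ 1) : coreKer L l < L := by
  refine lt_of_le_of_ne (coreKer_le L l) ?_
  intro h
  apply hl
  ext a
  have h1 : (a : G) ∈ coreKer L l := by rw [h]; exact a.2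
  have h2 := Subgroup.normalCore_le _ h1
  rw [Subgroup.mem_map] at h2
  obtain ⟨b, hb, hba⟩ := h2
  have : b = a := Subtype.ext hba
  rw [← this, (MonoidHom.mem_ker).mp hb]
  rfl

theorem le_coreKer (l : L →* ℂˣ) {M : Subgroup G} (hM : M.Normal) (hML : M ≤ L)
    (hlM : ∀ a : L, (a : G) ∈ M → l a = 1) : M ≤ coreKer L l := by
  rw [coreKer, Subgroup.normal_le_normalCore]
  intro x hx
  exact ⟨⟨x, hML hx⟩, (MonoidHom.mem_ker).mpr (hlM ⟨x, hML hx⟩ hx), rfl⟩

include hcc in
/-- Commutators with elements of the inertia group lie in the core of the kernel. -/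
theorem comm_mem_core (l : L →* ℂˣ) {g : G} (hg : g ∈ stab L l) {b : G} (hb : b ∈ L) :
    ⁅g, b⁆ ∈ coreKer L l := by
  rw [coreKer]
  intro x
  have hmem : ⁅g, b⁆ ∈ L := by
    have : ⁅g, b⁆ = g * b * g⁻¹ * b⁻¹ := rfl
    rw [this]
    exact L.mul_mem (hL.conj_mem b hb g) (L.inv_mem hb)
  have hfix : cj L g (cj L x l) = cj L x l := by
    rw [cj_comm' L hcc, (mem_stab L).mp hg]
  have h1 := DFunLike.congr_fun hfix ⟨b, hb⟩
  rw [cj_apply] at h1
  have hmem2 := hL.conj_mem _ hmem x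
  refine ⟨⟨_, hmem2⟩, (MonoidHom.mem_ker).mpr ?_, rfl⟩
  have h2 : (⟨x * ⁅g, b⁆ * x⁻¹, hmem2⟩ : L) =
      (MulAut.conjNormal x ⟨g * b * g⁻¹, hL.conj_mem b hb g⟩) *
        (MulAut.conjNormal x ⟨b, hb⟩)⁻¹ := by
    apply Subtype.ext
    simp [commutatorElement_def]
    group
  rw [h2, map_mul, map_inv]
  have e1 : ∀ c : L, l (MulAut.conjNormal x c) = cj L x l c := fun _ => rfl
  rw [e1, e1, h1, mul_inv_cancel]

/-- An element whose commutators lie in the kernel is in the inertia group. -/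
theorem mem_stab_of_comm (l : L →* ℂˣ) {g : G}
    (h : ∀ b (hb : b ∈ L), ∃ hc : ⁅g, b⁆ ∈ L, l ⟨⁅g, b⁆, hc⟩ = 1) : g ∈ stab L l := by
  rw [mem_stab]
  ext b
  obtain ⟨hc, h1⟩ := h b b.2
  rw [cj_apply]
  have h2 : (⟨g * b * g⁻¹, hL.conj_mem b b.2 g⟩ : L) = ⟨⁅g, (b : G)⁆, hc⟩ * b := by
    apply Subtype.ext
    simp [commutatorElement_def]
  rw [h2, map_mul, h1, one_mul]

include hcc hKc hL1 hab hcd hm1 in
/-- The main step for a maximal `M`. -/
theorem step_one {M : Subgroup G} (hM : MaxN L M) (l : L →* ℂˣ) (hl : l ≠ 1)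
    (hlM : ∀ a : L, (a : G) ∈ M → l a = 1) :
    (∀ g ∈ stab L l, ∀ b ∈ L, ⁅g, b⁆ ∈ M) ∧ (stab L l).index = m ∧
      ∃ θ : stab L l →* ℂˣ, ∀ a : L, θ ⟨a, le_stab L hab l a.2⟩ = l a := by
  classical
  haveI := hM.normal
  haveI hKn : (stab L l).Normal := stab_normal' L hcc l
  have hcore : coreKer L l = M := by
    rcases hM.max _ (coreKer_normal L l) (le_coreKer L l hM.normal hM.lt.le hlM)
      (coreKer_le L l) with h | h
    · exact h
    · exact absurd h (coreKer_lt L l hl).ne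
  have ha : ∀ g ∈ stab L l, ∀ b ∈ L, ⁅g, b⁆ ∈ M := by
    intro g hg b hb
    rw [← hcore]
    exact comm_mem_core L hcc l hg hb
  set K := stab L l with hK
  have hLK : L ≤ K := le_stab L hab l
  -- the commutator calculus
  have hnot : ¬ L ≤ ⁅K, K⁆ ⊔ M := by
    intro hle
    have h1 := commutator_le_Rc K L M (hKc K) (fun k hk b hb => ha k hk b hb)
    have h2 : ⁅K, K⁆ ⊔ M ≤ Rc M (2 * n) := sup_le h1 (le_Rc M _)
    exact hM.lt.not_ge (le_of_le_Rc L M hL1 _ (hle.trans h2))
  have hinf : L ⊓ (⁅K, K⁆ ⊔ M) = M := by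
    haveI : (⁅K, K⁆ : Subgroup G).Normal := Subgroup.commutator_normal K K
    have hN : (L ⊓ (⁅K, K⁆ ⊔ M)).Normal := inferInstance
    rcases hM.max _ hN (le_inf hM.lt.le le_sup_right) inf_le_left with h | h
    · exact h
    · exact absurd (h ▸ inf_le_right) hnot
  -- the linear extension
  have hθ : ∃ θ : K →* ℂˣ, ∀ a : L, θ ⟨a, hLK a.2⟩ = l a := by
    haveI : (⁅K, K⁆ ⊔ M : Subgroup G).Normal := by
      haveI : (⁅K, K⁆ : Subgroup G).Normal := Subgroup.commutator_normal K K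
      infer_instance
    obtain ⟨θ, hθ⟩ := exists_lin_ext (K := K) (B := L) ((⁅K, K⁆ ⊔ M).subgroupOf K) (by
        intro a b
        rw [Subgroup.mem_subgroupOf]
        exact Subgroup.mem_sup_left (Subgroup.commutator_mem_commutator a.2 b.2))
      (Subgroup.inclusion hLK) l (by
        intro b hb
        rw [Subgroup.mem_subgroupOf] at hb
        apply hlM
        rw [← hinf]
        exact ⟨b.2, hb⟩)
    exact ⟨θ, hθ⟩
  refine ⟨ha, ?_, hθ⟩
  obtain ⟨θ, hθ⟩ := hθ
  have hover : IsOver L hLK l (fun k : K => ((θ k : ℂˣ) : ℂ)) := by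
    intro a
    simp only [map_one, Units.val_one, one_mul]
    rw [hθ a]
  obtain ⟨χ, d, hd, hχ⟩ := exists_irr_degree_of_over L l hLK
    (LinearChars.isIrr_of_hom θ) hover
  have hd1 : d = 1 := by
    have : ((d : ℕ) : ℂ) = 1 := by
      rw [← hd]
      simp
    exact_mod_cast this
  rw [hd1, mul_one] at hχ
  rcases hcd χ with h | h
  · exfalso
    rw [hχ, Subgroup.index_eq_one] at h
    apply hM.lt.not_ge
    rw [← hL1, Subgroup.commutator_le]
    intro b hb g _
    have htop : K = ⊤ := h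
    have h1 := ha g (by rw [htop]; trivial) b hb
    have h3 : ⁅b, g⁆ = ⁅g, b⁆⁻¹ := (commutatorElement_inv g b).symm
    rw [h3]
    exact inv_mem h1
  · rw [← hχ, h]

include hcc hKc hL1 hab hcd hm1 in
/-- All nontrivial characters of `L` have inertia groups of index `m`. -/
theorem step_two (μ : L →* ℂˣ) (hμ : μ ≠ 1) : (stab L μ).index = m := by
  classical
  obtain ⟨M, hYM, hM⟩ := exists_maxN L (coreKer L μ) (coreKer_normal L μ) (coreKer_lt L μ hμ)
  obtain ⟨x, hxL, hxM⟩ := SetLike.exists_of_lt hM.lt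
  have hab' : ∀ x y : L, x * y = y * x := fun x y => Subtype.ext (hab x x.2 y y.2)
  obtain ⟨l, hlM, hlx⟩ := exists_hom_sep hab' (M.subgroupOf L) (x := ⟨x, hxL⟩)
    (by rwa [Subgroup.mem_subgroupOf])
  have hl1 : l ≠ 1 := by
    rintro rfl
    exact hlx rfl
  have hlM' : ∀ a : L, (a : G) ∈ M → l a = 1 := fun a ha => hlM a (by rwa [Subgroup.mem_subgroupOf])
  obtain ⟨-, hidx, -⟩ := step_one hcd hm1 L hab hcc hL1 hKc hM l hl1 hlM'
  have hle : stab L μ ≤ stab L l := by
    intro g hg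
    apply mem_stab_of_comm
    intro b hb
    have h1 := hYM (comm_mem_core L hcc μ hg hb)
    exact ⟨hM.lt.le h1, hlM' ⟨_, hM.lt.le h1⟩ h1⟩
  have hd1 : m ∣ (stab L μ).index := by
    rw [← hidx]
    exact Subgroup.index_dvd_of_le hle
  obtain ⟨η, hη, hover⟩ := exists_over L μ (le_stab L hab μ)
  obtain ⟨χ, d, hd, hχ⟩ := exists_irr_degree_of_over L μ (le_stab L hab μ) hη hover
  rcases hcd χ with h | h
  · rw [hχ] at h
    have h1 := Nat.eq_one_of_mul_eq_one_right h
    rw [h1] at hd1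
    exact absurd (Nat.dvd_one.mp hd1) hm1
  · rw [hχ] at h
    exact Nat.dvd_antisymm ⟨d, h.symm⟩ hd1

include hcc hKc hL1 hab hcd hm1 in
/-- The conclusion in the non-nilpotent case. -/
theorem nonnil_main (hLbot : L ≠ ⊥) :
    ∃ A : Subgroup G, A.Normal ∧ (∀ a ∈ A, ∀ b ∈ A, a * b = b * a) ∧ A.index = m := by
  classical
  have hbot : (⊥ : Subgroup G) < L := bot_lt_iff_ne_bot.mpr hLbot
  obtain ⟨M, -, hM⟩ := exists_maxN L ⊥ inferInstance hbot
  obtain ⟨x, hxL, hxM⟩ := SetLike.exists_of_lt hM.lt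
  have hab' : ∀ x y : L, x * y = y * x := fun x y => Subtype.ext (hab x x.2 y y.2)
  obtain ⟨l, hlM, hlx⟩ := exists_hom_sep hab' (M.subgroupOf L) (x := ⟨x, hxL⟩)
    (by rwa [Subgroup.mem_subgroupOf])
  have hl1 : l ≠ 1 := by
    rintro rfl
    exact hlx rfl
  have hlM' : ∀ a : L, (a : G) ∈ M → l a = 1 := fun a ha => hlM a (by rwa [Subgroup.mem_subgroupOf])
  obtain ⟨-, hidx, θ₁, hθ₁⟩ := step_one hcd hm1 L hab hcc hL1 hKc hM l hl1 hlM'
  have hLK : L ≤ (stab L l) := le_stab L hab l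
  have hall : ∀ μ : L →* ℂˣ, μ ≠ 1 → stab L μ = (stab L l) := by
    intro μ hμ
    exact (comAct' L hcc).stabS_eq (m := m)
      (fun l hl => step_two hcd hm1 L hab hcc hL1 hKc l hl) hμ hl1
  have hcen : ∀ a ∈ L, ∀ k ∈ (stab L l), a * k = k * a := by
    intro a ha k hk
    refine (commute_of_forall_stab L hab (g := k) ?_ a ha).symm
    intro μ
    by_cases hμ : μ = 1
    · rw [hμ, mem_stab]
      ext b
      rfl
    · rw [hall μ hμ]
      exact hk
  have hm0 : m ≠ 0 := by
    rw [← hidx]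
    exact Subgroup.index_ne_zero_of_finite
  -- characters over nontrivial linear characters are linear
  have hlin : ∀ (μ : L →* ℂˣ), μ ≠ 1 → ∀ η : (stab L l) → ℂ, IsIrrCharacter (stab L l) η → IsOver L hLK μ η →
      η 1 = 1 := by
    intro μ hμ η hη hover
    obtain ⟨χ, d, hd, hχ⟩ := exists_irr_degree_of_over' L μ (hall μ hμ) hLK hη hover
    rw [hidx] at hχ
    have hd1 : d = 1 := by
      rcases hcd χ with h | h
      · rw [hχ] at h
        exact absurd (Nat.eq_one_of_mul_eq_one_right h) hm1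
      · rw [hχ] at h
        exact Nat.eq_of_mul_eq_mul_left (Nat.pos_of_ne_zero hm0) (by rw [h, mul_one])
    rw [hd, hd1]
    simp
  have hlinear : ∀ η : IrrCharacter (stab L l), (η : (stab L l) → ℂ) 1 = 1 := by
    rintro ⟨η, hη⟩
    obtain ⟨μ, hμ⟩ := exists_central_char L (stab L l) hLK hcen hη
    by_cases hμ1 : μ = 1
    · subst hμ1
      have h1 := GlaubCyclic.isIrr_lin_mul θ₁ hη
      have h2 : IsOver L hLK l (fun y => ((θ₁ y : ℂˣ) : ℂ) * η y) := by
        intro a
        have h3 := hμ a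
        simp only [map_one, Units.val_one, one_mul]
        rw [h3, hθ₁ a]
        simp
        ring
      have h4 := hlin l hl1 _ h1 h2
      simpa using h4
    · exact hlin μ hμ1 η hη hμ
  refine ⟨(stab L l), stab_normal' L hcc l, ?_, hidx⟩
  intro a ha b hb
  have := ItoMichler.mul_comm_of_forall_degree_one hlinear ⟨a, ha⟩ ⟨b, hb⟩
  exact congrArg Subtype.val this

end NonNil

section Nil

open Cfsg.Agent.Lib.Char.Basic

variable {G : Type u} [Group G] [Finite G] {m : ℕ}
  (hcd : ∀ χ : IrrCharacter G, charDegree (χ : G → ℂ) = 1 ∨ charDegree (χ : G → ℂ) = m)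

/-- A nonabelian quotient has a nonlinear character, so `m` divides its order. -/
theorem dvd_card_quotient (hcd : ∀ χ : IrrCharacter G, charDegree (χ : G → ℂ) = 1 ∨ charDegree (χ : G → ℂ) = m)
    (N : Subgroup G) [N.Normal] (hne : ∃ a b : G ⧸ N, a * b ≠ b * a) : m ∣ Nat.card (G ⧸ N) := by
  obtain ⟨χ, hχ⟩ := Cfsg.Agent.S4845.exists_nonlinear (X := G ⧸ N) (by
    rintro ⟨⟨hc⟩⟩
    obtain ⟨a, b, hab⟩ := hne
    exact hab (hc a b))
  have h1 := Cfsg.Agent.S4845.deg_dvd χ
  let χ' : IrrCharacter G := ⟨fun g => (χ : G ⧸ N → ℂ) (g : G ⧸ N),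
    isIrrCharacter_comp_surjective χ.2 (QuotientGroup.mk' N) (QuotientGroup.mk'_surjective N)⟩
  have h2 : charDegree (χ' : G → ℂ) = charDegree (χ : G ⧸ N → ℂ) := by
    apply Values.IsCharacter.charDegree_eq (Values.IsIrrCharacter.isCharacter χ'.2)
    have h0 : (χ' : G → ℂ) 1 = (χ : G ⧸ N → ℂ) 1 := rfl
    rw [h0]
    exact (Cfsg.Agent.S4845.deg_cast χ).symm
  rcases hcd χ' with h | h
  · exact absurd (h2.symm.trans h) hχ
  · rw [h2] at h
    rwa [h] at h1

include hcd in
theorem nil_main [hnil : Group.IsNilpotent G] (hm1 : m ≠ 1)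
    (hm : ∃ χ : IrrCharacter G, charDegree (χ : G → ℂ) = m) (hm0 : m ≠ 0) :
    ∃ p e : ℕ, p.Prime ∧ m = p ^ e ∧ ∃ P A : Subgroup G, P.Normal ∧ A.Normal ∧ IsPGroup p P ∧
      (∀ a ∈ A, ∀ b ∈ A, a * b = b * a) ∧ P ⊓ A = ⊥ ∧ P ⊔ A = ⊤ := by
  classical
  obtain ⟨p, hp, hpm⟩ := Nat.exists_prime_and_dvd hm1
  haveI : Fact p.Prime := ⟨hp⟩
  obtain ⟨χ, hχ⟩ := hm
  let S : Sylow p G := default
  let P : Subgroup G := S
  haveI hPn : P.Normal := inferInstance
  have hPp : IsPGroup p P := S.isPGroup'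
  -- `P` is not abelian
  have hPnab : ¬ ∀ a ∈ P, ∀ b ∈ P, a * b = b * a := by
    intro hab
    obtain ⟨e, he, hd⟩ := Cfsg.Agent.Lib.Coprime.KGV.exists_degree_dvd_index P hab χ.2
    have h2 := Values.IsCharacter.charDegree_eq (Values.IsIrrCharacter.isCharacter χ.2) he
    rw [hχ] at h2
    rw [← h2] at hd
    exact S.not_dvd_index (hpm.trans hd)
  -- a complement
  have hcop : (Nat.card P).Coprime P.index := by
    exact (Sylow.card_coprime_index S)
  obtain ⟨A, hA⟩ := Subgroup.exists_right_complement'_of_coprime hcop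
  -- elements of `A` have order prime to `p`, so commute with `P`
  have hAcop : (Nat.card A).Coprime (Nat.card P) := by
    have h1 : Nat.card A = P.index := by
      have h2 := hA.card_mul_card
      have h3 := P.card_mul_index
      have h4 : 0 < Nat.card P := Nat.card_pos
      exact Nat.eq_of_mul_eq_mul_left h4 (h2.trans h3.symm)
    rw [h1]
    exact hcop.symm
  have hcomm : ∀ a ∈ A, ∀ x ∈ P, a * x = x * a := by
    intro a ha x hx
    have h1 : orderOf a ∣ Nat.card A := by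
      have := Subgroup.orderOf_dvd_natCard A ha
      exact this
    have h2 : orderOf x ∣ Nat.card P := Subgroup.orderOf_dvd_natCard P hx
    have h3 : (orderOf a).Coprime (orderOf x) := Nat.Coprime.of_dvd h1 h2 hAcop
    exact (Cfsg.Agent.Lib.Nilpotent.Elements.commute_of_coprime_orderOf h3).eq
  have hinf : P ⊓ A = ⊥ := hA.disjoint.eq_bot
  have hsup : P ⊔ A = ⊤ := hA.sup_eq_top
  -- `A` is normal
  haveI hAn : A.Normal := by
    have hmem : ∀ g : G, ∃ x ∈ P, ∃ a ∈ A, g = x * a := by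
      intro g
      obtain ⟨⟨x, a⟩, hg⟩ := hA.2 g
      exact ⟨x, x.2, a, a.2, hg.symm⟩
    constructor
    intro a ha g
    obtain ⟨x, hx, b, hb, rfl⟩ := hmem g
    have h1 : x * b * a * (x * b)⁻¹ = x * (b * a * b⁻¹) * x⁻¹ := by group
    rw [h1]
    have h2 := A.mul_mem (A.mul_mem hb ha) (A.inv_mem hb)
    have h3 := hcomm _ h2 x hx
    rw [← h3, mul_inv_cancel_right]
    exact h2
  -- `G / A` is not abelian
  have hPdvd : m ∣ Nat.card P := by
    have h1 : Nat.card (G ⧸ A) = Nat.card P := by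
      have h2 : Nat.card (G ⧸ A) = A.index := rfl
      have h3 := hA.card_mul_card
      have h4 := A.card_mul_index
      have h5 : 0 < Nat.card A := Nat.card_pos
      rw [h2]
      apply Nat.eq_of_mul_eq_mul_left h5
      rw [h4, ← h3, mul_comm]
    rw [← h1]
    apply dvd_card_quotient hcd A
    by_contra hcon
    push Not at hcon
    apply hPnab
    intro a ha b hb
    have h1 : (⁅a, b⁆ : G) ∈ A := by
      have h2 := hcon (a : G ⧸ A) (b : G ⧸ A)
      rw [← QuotientGroup.mk_mul, ← QuotientGroup.mk_mul, QuotientGroup.eq] at h2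
      have h3 : (a * b)⁻¹ * (b * a) = ⁅b⁻¹, a⁻¹⁆ := by
        simp only [commutatorElement_def, inv_inv]; group
      have h4 : ∀ x y : G, (x : G ⧸ A) * y = y * x := by
        intro x y
        exact hcon _ _
      have h5 := h4 b⁻¹ a⁻¹
      rw [← QuotientGroup.mk_mul, ← QuotientGroup.mk_mul, QuotientGroup.eq] at h5
      have h6 : (b⁻¹ * a⁻¹)⁻¹ * (a⁻¹ * b⁻¹) = ⁅a, b⁆ := by
        simp only [commutatorElement_def]; group
      rwa [h6] at h5
    have h2 : (⁅a, b⁆ : G) ∈ P := by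
      have : (⁅a, b⁆ : G) = (a * b * a⁻¹) * b⁻¹ := rfl
      rw [this]
      exact P.mul_mem (P.mul_mem (P.mul_mem ha hb) (P.inv_mem ha)) (P.inv_mem hb)
    have h3 : (⁅a, b⁆ : G) ∈ P ⊓ A := ⟨h2, h1⟩
    rw [hinf, Subgroup.mem_bot, commutatorElement_eq_one_iff_mul_comm] at h3
    exact h3
  obtain ⟨k, hk⟩ := hPp.exists_card_eq
  rw [hk] at hPdvd
  obtain ⟨e, -, he⟩ := (Nat.dvd_prime_pow hp).mp hPdvd
  refine ⟨p, e, hp, he, P, A, hPn, hAn, hPp, ?_, hinf, hsup⟩
  -- `A` is abelian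
  by_contra hcon
  push Not at hcon
  obtain ⟨a, ha, b, hb, hab⟩ := hcon
  have hdvd : m ∣ Nat.card (G ⧸ P) := by
    apply dvd_card_quotient hcd P
    refine ⟨a, b, ?_⟩
    intro h
    rw [← QuotientGroup.mk_mul, ← QuotientGroup.mk_mul, QuotientGroup.eq] at h
    have h1 : (a * b)⁻¹ * (b * a) ∈ A :=
      A.mul_mem (A.inv_mem (A.mul_mem ha hb)) (A.mul_mem hb ha)
    have h3 : (a * b)⁻¹ * (b * a) ∈ P ⊓ A := ⟨h, h1⟩
    rw [hinf, Subgroup.mem_bot] at h3
    apply hab
    have h4 : b * a = a * b := by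
      have := inv_mul_eq_one.mp h3
      exact this.symm
    exact h4.symm
  have h5 : p ∣ P.index := by
    have : Nat.card (G ⧸ P) = P.index := rfl
    rw [this] at hdvd
    exact hpm.trans hdvd
  exact S.not_dvd_index h5

end Nil

/-- Let G be a finite group whose irreducible character degrees are exactly 1 and m (m ≠ 1). Then either G has an abelian normal subgroup of index m, or m is a power of a prime p and G is the direct product of a p-group and an abelian group: there are normal subgroups P and A with P a p-group, A abelian, P ⊓ A = 1 and P ⊔ A = G. -/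
theorem result {G : Type*} [Group G] [Finite G] (m : ℕ) (hcd : ∀ χ : Cfsg.IrrCharacter G, Cfsg.charDegree (χ : G → ℂ) = 1 ∨ Cfsg.charDegree (χ : G → ℂ) = m) (hm : ∃ χ : Cfsg.IrrCharacter G, Cfsg.charDegree (χ : G → ℂ) = m) (hm1 : m ≠ 1) : (∃ A : Subgroup G, A.Normal ∧ (∀ a ∈ A, ∀ b ∈ A, a * b = b * a) ∧ A.index = m) ∨ ∃ p e : ℕ, p.Prime ∧ m = p ^ e ∧ ∃ P A : Subgroup G, P.Normal ∧ A.Normal ∧ IsPGroup p P ∧ (∀ a ∈ A, ∀ b ∈ A, a * b = b * a) ∧ P ⊓ A = ⊥ ∧ P ⊔ A = ⊤ := by
  classical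
  cases nonempty_fintype G
  have hder := Cfsg.Agent.S4458.result m hcd hm hm1
  have hm0 : m ≠ 0 := by
    obtain ⟨χ, hχ⟩ := hm
    rw [← hχ]
    intro h0
    have h1 := Cfsg.Agent.S4845.deg_cast χ
    rw [h0] at h1
    exact Ortho.irr_apply_one_ne_zero χ.2 (by rw [← h1]; simp)
  by_cases hnil : Group.IsNilpotent G
  · exact Or.inr (nil_main hcd hm1 hm hm0)
  · left
    obtain ⟨n, hn⟩ := exists_terminal (G := G)
    let L : Subgroup G := (⊤ : Subgroup G).lowerCentralSeries (n + 1)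
    haveI hLn : L.Normal := Subgroup.normal_of_characteristic _
    have hLle : L ≤ commutator G := by
      have h1 : L ≤ (⊤ : Subgroup G).lowerCentralSeries 1 :=
        Subgroup.lowerCentralSeries_antitone _ (by omega)
      rwa [Subgroup.top_lowerCentralSeries_one] at h1
    have hab : ∀ a ∈ L, ∀ b ∈ L, a * b = b * a := fun a ha b hb => hder a (hLle ha) b (hLle hb)
    have hcc : ∀ c ∈ commutator G, ∀ b ∈ L, c * b = b * c := fun c hc b hb =>
      hder c hc b (hLle hb)
    have hLbot : L ≠ ⊥ := by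
      intro h
      apply hnil
      rw [Subgroup.nilpotent_iff_lowerCentralSeries]
      exact ⟨n + 1, h⟩
    exact nonnil_main hcd hm1 L hab hcc hn (n := n + 1) (fun K => Kc_le_lcs K (n + 1)) hLbot

end Cfsg.Agent.S4457
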