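import Cfsg.Statements.S4459
import Mathlib
import Cfsg.Agent.S4458
import Cfsg.Agent.S4845
import Cfsg.Agent.Lib.Char.TwoDeg
import Cfsg.Agent.Lib.Coprime.KGV
import Cfsg.Agent.Lib.Char.PDerived

set_option autoImplicit false
set_option linter.style.haveILetI false
set_option linter.unusedSectionVars false
open Cfsg

namespace Cfsg.Agent.S4459

open Cfsg.Agent.Lib.Char Cfsg.Agent.Lib.Char.TwoDeg
open scoped commutatorElement

universe u

section General

variable {G : Type u} [Group G] [Finite G]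

/-- An abelian subgroup lies in a self-centralizing abelian subgroup. -/
theorem exists_max_abelian (B : Subgroup G) (hB : ∀ a ∈ B, ∀ b ∈ B, a * b = b * a) :
    ∃ A : Subgroup G, B ≤ A ∧ (∀ a ∈ A, ∀ b ∈ A, a * b = b * a) ∧
      ∀ g : G, (∀ a ∈ A, g * a = a * g) → g ∈ A := by
  classical
  have hfin : ({A : Subgroup G | B ≤ A ∧ ∀ a ∈ A, ∀ b ∈ A, a * b = b * a}).Finite := Set.toFinite _
  obtain ⟨A, hBA, hmax⟩ := hfin.exists_le_maximal (a := B) ⟨le_rfl, hB⟩
  refine ⟨A, hBA, hmax.prop.2, ?_⟩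
  intro g hg
  let k : Set G := (A : Set G) ∪ {g}
  have hk : ∀ x ∈ k, ∀ y ∈ k, x * y = y * x := by
    rintro x (hx | hx) y (hy | hy)
    · exact hmax.prop.2 x hx y hy
    · rw [Set.mem_singleton_iff.mp hy]; exact (hg x hx).symm
    · rw [Set.mem_singleton_iff.mp hx]; exact hg y hy
    · rw [Set.mem_singleton_iff.mp hx, Set.mem_singleton_iff.mp hy]
  haveI := Subgroup.isMulCommutative_closure hk
  have hcl : ∀ a ∈ Subgroup.closure k, ∀ b ∈ Subgroup.closure k, a * b = b * a := fun a ha b hb =>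
    congrArg Subtype.val (mul_comm' (⟨a, ha⟩ : Subgroup.closure k) ⟨b, hb⟩)
  have hle : A ≤ Subgroup.closure k := fun x hx => Subgroup.subset_closure (Or.inl hx)
  have h1 := hmax.2 ⟨hBA.trans hle, hcl⟩ hle
  exact h1 (Subgroup.subset_closure (Or.inr rfl))

end General

section Cd

variable {G : Type u} [Group G] [Fintype G] {p : ℕ} (hp : p.Prime)
  (hcd : ∀ χ : IrrCharacter G, charDegree (χ : G → ℂ) = 1 ∨ charDegree (χ : G → ℂ) = p)

include hp hcd in
theorem hidx_of_hcd (A : Subgroup G) [A.Normal] (hab : ∀ a ∈ A, ∀ b ∈ A, a * b = b * a)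
    (l : A →* ℂˣ) : (stab A l).index = 1 ∨ (stab A l).index = p := by
  obtain ⟨η, hη, hover⟩ := exists_over A l (le_stab A hab l)
  obtain ⟨χ, d, hd, hχ⟩ := exists_irr_degree_of_over A l (le_stab A hab l) hη hover
  rcases hcd χ with h | h
  · rw [hχ] at h
    exact Or.inl (Nat.eq_one_of_mul_eq_one_right h)
  · rw [hχ] at h
    have : (stab A l).index ∣ p := ⟨d, h.symm⟩
    exact (Nat.dvd_prime hp).mp this

include hp hcd in
theorem lin_of_index (A : Subgroup G) [A.Normal] (hab : ∀ a ∈ A, ∀ b ∈ A, a * b = b * a)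
    (l : A →* ℂˣ) (hl : (stab A l).index = p) (η : stab A l → ℂ)
    (hη : IsIrrCharacter (stab A l) η) (hover : IsOver A (le_stab A hab l) l η) : η 1 = 1 := by
  obtain ⟨χ, d, hd, hχ⟩ := exists_irr_degree_of_over A l (le_stab A hab l) hη hover
  rw [hl] at hχ
  have hd1 : d = 1 := by
    rcases hcd χ with h | h
    · rw [hχ] at h
      exact absurd (Nat.eq_one_of_mul_eq_one_right h) hp.one_lt.ne'
    · rw [hχ] at h
      exact Nat.eq_of_mul_eq_mul_left hp.pos (by rw [h, mul_one])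
  rw [hd, hd1]
  simp

end Cd

section Data

variable {G : Type u} [Group G] [Finite G]

/-- The data of an element `a` of `A` generating `A` modulo the centre. -/
structure Data (A : Subgroup G) (a : G) : Prop where
  mem : a ∈ A
  not_center : a ∉ Subgroup.center G
  comm_center : ∀ x : G, ⁅x, a⁆ ∈ Subgroup.center G
  span : ∀ b ∈ A, ∃ i : ℕ, (a ^ i)⁻¹ * b ∈ Subgroup.center G

variable {A : Subgroup G} {a : G}

/-- The homomorphism `x ↦ ⁅x, a⁆`. -/
def cHom (h : Data A a) : G →* G where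
  toFun x := ⁅x, a⁆
  map_one' := by simp
  map_mul' := by
    intro x y
    have hc := Subgroup.mem_center_iff.mp (h.comm_center y) x
    have hc2 := Subgroup.mem_center_iff.mp (h.comm_center y) ⁅x, a⁆
    show ⁅x * y, a⁆ = ⁅x, a⁆ * ⁅y, a⁆
    rw [hc2]
    have h1 : ⁅x * y, a⁆ = x * ⁅y, a⁆ * a * x⁻¹ * a⁻¹ := by
      simp only [commutatorElement_def]; group
    rw [h1, hc]
    simp only [commutatorElement_def]; group

theorem cHom_apply (h : Data A a) (x : G) : cHom h x = ⁅x, a⁆ := rfl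

theorem cHom_eq_one_iff (h : Data A a) (x : G) : cHom h x = 1 ↔ x * a = a * x := by
  rw [cHom_apply, commutatorElement_eq_one_iff_mul_comm]

theorem cHom_mem_center (h : Data A a) (x : G) : cHom h x ∈ Subgroup.center G := h.comm_center x

variable (hab : ∀ a ∈ A, ∀ b ∈ A, a * b = b * a) (hcent : ∀ g : G, (∀ a ∈ A, g * a = a * g) → g ∈ A)

include hcent in
theorem center_le : Subgroup.center G ≤ A := fun z hz =>
  hcent z (fun a _ => (Subgroup.mem_center_iff.mp hz a).symm)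

include hab hcent in
theorem ker_cHom (h : Data A a) : (cHom h).ker = A := by
  ext x
  rw [MonoidHom.mem_ker, cHom_eq_one_iff]
  constructor
  · intro hx
    apply hcent
    intro b hb
    obtain ⟨i, hi⟩ := h.span b hb
    have hb' : b = a ^ i * ((a ^ i)⁻¹ * b) := by group
    rw [hb']
    have h1 : x * a ^ i = a ^ i * x := (Commute.pow_right hx i)
    have h2 := (Subgroup.mem_center_iff.mp hi x)
    calc x * (a ^ i * ((a ^ i)⁻¹ * b)) = (x * a ^ i) * ((a ^ i)⁻¹ * b) := by group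
      _ = a ^ i * (x * ((a ^ i)⁻¹ * b)) := by rw [h1]; group
      _ = a ^ i * (((a ^ i)⁻¹ * b) * x) := by rw [h2]
      _ = _ := by group
  · intro hx
    exact hab x hx a h.mem

theorem conj_eq_pow_mul (h : Data A a) (g : G) {b : G} {i : ℕ}
    (hi : (a ^ i)⁻¹ * b ∈ Subgroup.center G) : g * b * g⁻¹ = ⁅g, a⁆ ^ i * b := by
  have h1 : g * a * g⁻¹ = ⁅g, a⁆ * a := by
    rw [commutatorElement_def]; group
  have hc : Commute ⁅g, a⁆ a := Subgroup.mem_center_iff.mp (h.comm_center g) a |>.symm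
  have h2 : g * a ^ i * g⁻¹ = ⁅g, a⁆ ^ i * a ^ i := by
    rw [← hc.mul_pow, ← h1]
    simp [conj_pow]
  have h3 : b = a ^ i * ((a ^ i)⁻¹ * b) := by group
  set z := (a ^ i)⁻¹ * b with hz
  have hzc := Subgroup.mem_center_iff.mp hi g
  calc g * b * g⁻¹ = g * (a ^ i * z) * g⁻¹ := by rw [← h3]
    _ = (g * a ^ i * g⁻¹) * (g * z * g⁻¹) := by group
    _ = (⁅g, a⁆ ^ i * a ^ i) * z := by
        rw [h2, hzc, mul_inv_cancel_right]
    _ = ⁅g, a⁆ ^ i * (a ^ i * z) := by group
    _ = _ := by rw [← h3]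

variable [A.Normal]

include hcent in
/-- The inertia group in terms of `⁅g, a⁆`. -/
theorem mem_stab_iff (h : Data A a) (l : A →* ℂˣ) (g : G) :
    g ∈ stab A l ↔ l ⟨⁅g, a⁆, center_le hcent (h.comm_center g)⟩ = 1 := by
  rw [mem_stab]
  have hmul : ∀ (i : ℕ) (b : A), (⟨⁅g, a⁆ ^ i * b, mul_mem (pow_mem (center_le hcent (h.comm_center g)) i) b.2⟩ : A) =
      (⟨⁅g, a⁆, center_le hcent (h.comm_center g)⟩ : A) ^ i * b := by
    intro i b
    apply Subtype.ext
    simp
  constructor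
  · intro hs
    have h1 := DFunLike.congr_fun hs ⟨a, h.mem⟩
    rw [cj_apply] at h1
    have h2 : (⟨g * a * g⁻¹, ‹A.Normal›.conj_mem a h.mem g⟩ : A) =
        (⟨⁅g, a⁆, center_le hcent (h.comm_center g)⟩ : A) * ⟨a, h.mem⟩ := by
      apply Subtype.ext
      simp only [Subgroup.coe_mul, commutatorElement_def]
      group
    rw [h2, map_mul] at h1
    exact mul_eq_right.mp h1
  · intro hl
    ext b
    obtain ⟨i, hi⟩ := h.span b b.2
    rw [cj_apply]
    have h2 : (⟨g * b * g⁻¹, ‹A.Normal›.conj_mem b b.2 g⟩ : A) =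
        (⟨⁅g, a⁆, center_le hcent (h.comm_center g)⟩ : A) ^ i * b := by
      rw [← hmul]
      apply Subtype.ext
      exact conj_eq_pow_mul h g hi
    rw [h2, map_mul, map_pow, hl, one_pow, one_mul]

end Data

section Counting

/-- The subgroup of products `u^m v^n` for commuting elements. -/
def pairSub {C : Type*} [Group C] (u v : C) (huv : Commute u v) : Subgroup C where
  carrier := {w | ∃ m n : ℤ, w = u ^ m * v ^ n}
  one_mem' := ⟨0, 0, by simp⟩
  mul_mem' := by
    rintro _ _ ⟨m, n, rfl⟩ ⟨m', n', rfl⟩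
    refine ⟨m + m', n + n', ?_⟩
    have h1 : Commute (v ^ n) (u ^ m') := ((huv.symm).zpow_zpow n m')
    rw [zpow_add, zpow_add]
    calc u ^ m * v ^ n * (u ^ m' * v ^ n') = u ^ m * (v ^ n * u ^ m') * v ^ n' := by group
      _ = u ^ m * (u ^ m' * v ^ n) * v ^ n' := by rw [h1.eq]
      _ = _ := by group
  inv_mem' := by
    rintro _ ⟨m, n, rfl⟩
    refine ⟨-m, -n, ?_⟩
    have h1 : Commute (u ^ (-m)) (v ^ (-n)) := huv.zpow_zpow _ _
    rw [mul_inv_rev, zpow_neg, zpow_neg, ← zpow_neg, ← zpow_neg]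
    exact h1.eq.symm

theorem mem_pairSub {C : Type*} [Group C] {u v : C} {huv : Commute u v} {w : C} :
    w ∈ pairSub u v huv ↔ ∃ m n : ℤ, w = u ^ m * v ^ n := Iff.rfl

/-- A subgroup inside the products `u^m v^n`, with `u, v` of exponent `p`, has at most `p²`
elements. -/
theorem card_le_of_pair {C : Type*} [Group C] [Finite C] {p : ℕ} (hp : p.Prime) (W : Subgroup C)
    {u v : C} (hu : u ^ p = 1) (hv : v ^ p = 1) (hW : ∀ w ∈ W, ∃ m n : ℤ, w = u ^ m * v ^ n) :
    Nat.card W ≤ p ^ 2 := by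
  classical
  have hp0 : (0 : ℤ) < p := by exact_mod_cast hp.pos
  have key : ∀ w : W, ∃ ij : Fin p × Fin p, u ^ (ij.1 : ℕ) * v ^ (ij.2 : ℕ) = w := by
    intro w
    obtain ⟨m, n, hmn⟩ := hW w w.2
    have hred : ∀ (t : C) (k : ℤ), t ^ p = 1 → ∃ i : Fin p, t ^ (i : ℕ) = t ^ k := by
      intro t k ht
      have h1 := Int.emod_nonneg k hp0.ne'
      refine ⟨⟨(k % p).toNat, ?_⟩, ?_⟩
      · have h2 := Int.emod_lt_of_pos k hp0
        omega
      · have h3 : t ^ k = t ^ (k % p) := by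
          conv_lhs => rw [← Int.mul_ediv_add_emod k p, zpow_add, zpow_mul]
          simp [ht]
        rw [h3, ← zpow_natCast, Int.toNat_of_nonneg h1]
    obtain ⟨i, hi⟩ := hred u m hu
    obtain ⟨j, hj⟩ := hred v n hv
    exact ⟨⟨i, j⟩, by simp only [hi, hj]; exact hmn.symm⟩
  choose s hs using key
  have hinj : Function.Injective s := by
    intro a b hab
    apply Subtype.ext
    rw [← hs a, ← hs b, hab]
  have h1 := Nat.card_le_card_of_injective s hinj
  simpa [sq] using h1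

end Counting

section Main

variable {G : Type u} [Group G] [Fintype G] {p : ℕ} (hp : p.Prime)
  (hcd : ∀ χ : IrrCharacter G, charDegree (χ : G → ℂ) = 1 ∨ charDegree (χ : G → ℂ) = p)

include hp hcd in
/-- The main claim: commutators lie in the span of the values of `c`. -/
theorem exists_zpow_of_not_mem {A : Subgroup G} [hA : A.Normal]
    (hab : ∀ a ∈ A, ∀ b ∈ A, a * b = b * a) (hcomm : commutator G ≤ A)
    (hcent : ∀ g : G, (∀ a ∈ A, g * a = a * g) → g ∈ A) {a : G} (h : Data A a) (x y g₀ : G)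
    (hg₀ : ∀ m n : ℤ, cHom h g₀ ≠ cHom h x ^ m * cHom h y ^ n) :
    ∃ m n : ℤ, ⁅x, y⁆ = cHom h x ^ m * cHom h y ^ n := by
  classical
  by_contra hcon
  push Not at hcon
  have hcA := center_le hcent
  have hc : ⁅x, y⁆ ∈ A := hcomm (by
    rw [commutator_def]
    exact Subgroup.commutator_mem_commutator (Subgroup.mem_top _) (Subgroup.mem_top _))
  have huv : Commute (cHom h x) (cHom h y) :=
    Subgroup.mem_center_iff.mp (cHom_mem_center h y) _
  let S : Subgroup A := (pairSub _ _ huv).subgroupOf A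
  have hmemS : ∀ c : G, (hc : c ∈ A) → (∃ m n : ℤ, c = cHom h x ^ m * cHom h y ^ n) →
      (⟨c, hc⟩ : A) ∈ S := by
    intro c hc hcS
    rw [Subgroup.mem_subgroupOf]
    exact hcS
  have hb : (⟨⁅x, y⁆, hc⟩ : A) ∉ S := by
    intro hb
    rw [Subgroup.mem_subgroupOf] at hb
    obtain ⟨m, n, hmn⟩ := hb
    exact hcon m n hmn
  have hw : (⟨cHom h g₀, hcA (cHom_mem_center h g₀)⟩ : A) ∉ S := by
    intro hb
    rw [Subgroup.mem_subgroupOf] at hb
    obtain ⟨m, n, hmn⟩ := hb
    exact hg₀ m n hmn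
  have hab' : ∀ x y : A, x * y = y * x := fun x y => Subtype.ext (hab x x.2 y y.2)
  obtain ⟨l₀, hl₀S, hl₀b⟩ := exists_hom_sep hab' S hb
  obtain ⟨ν, hνS, hνw⟩ := exists_hom_sep hab' S hw
  obtain ⟨l, hlS, hlb, hlw⟩ : ∃ l : A →* ℂˣ, (∀ s ∈ S, l s = 1) ∧
      l ⟨⁅x, y⁆, hc⟩ ≠ 1 ∧ l ⟨cHom h g₀, hcA (cHom_mem_center h g₀)⟩ ≠ 1 := by
    by_cases h1 : l₀ ⟨cHom h g₀, hcA (cHom_mem_center h g₀)⟩ ≠ 1
    · exact ⟨l₀, hl₀S, hl₀b, h1⟩
    by_cases h2 : ν ⟨⁅x, y⁆, hc⟩ ≠ 1
    · exact ⟨ν, hνS, h2, hνw⟩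
    push Not at h1 h2
    refine ⟨l₀ * ν, ?_, ?_, ?_⟩
    · intro s hs
      show l₀ s * ν s = 1
      rw [hl₀S s hs, hνS s hs, one_mul]
    · show l₀ _ * ν _ ≠ 1
      rw [h2, mul_one]
      exact hl₀b
    · show l₀ _ * ν _ ≠ 1
      rw [h1, one_mul]
      exact hνw
  have hx : x ∈ stab A l := by
    rw [mem_stab_iff hcent h]
    exact hlS _ (hmemS _ _ ⟨1, 0, by simp [cHom_apply]⟩)
  have hy : y ∈ stab A l := by
    rw [mem_stab_iff hcent h]
    exact hlS _ (hmemS _ _ ⟨0, 1, by simp [cHom_apply]⟩)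
  have hg₀' : g₀ ∉ stab A l := by
    rw [mem_stab_iff hcent h]
    exact hlw
  have hidx : (stab A l).index = p := by
    rcases hidx_of_hcd hp hcd A hab l with h1 | h1
    · exact absurd (by rw [Subgroup.index_eq_one.mp h1]; trivial) hg₀'
    · exact h1
  exact hlb (apply_commutator_eq_one A l (le_stab A hab l)
    (fun η hη hover => lin_of_index hp hcd A hab l hidx η hη hover) hx hy hc)

/-- The class two homomorphisms. -/
def commL (hcl : ∀ x y : G, ⁅x, y⁆ ∈ Subgroup.center G) (h : G) : G →* G where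
  toFun x := ⁅x, h⁆
  map_one' := by simp
  map_mul' := by
    intro x y
    have hc := Subgroup.mem_center_iff.mp (hcl y h) x
    have hc2 := Subgroup.mem_center_iff.mp (hcl y h) ⁅x, h⁆
    show ⁅x * y, h⁆ = ⁅x, h⁆ * ⁅y, h⁆
    rw [hc2]
    have h1 : ⁅x * y, h⁆ = x * ⁅y, h⁆ * h * x⁻¹ * h⁻¹ := by
      simp only [commutatorElement_def]; group
    rw [h1, hc]
    simp only [commutatorElement_def]; group

theorem commL_apply (hcl : ∀ x y : G, ⁅x, y⁆ ∈ Subgroup.center G) (h x : G) :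
    commL hcl h x = ⁅x, h⁆ := rfl

/-- The class two homomorphism in the second variable. -/
def commR (hcl : ∀ x y : G, ⁅x, y⁆ ∈ Subgroup.center G) (g : G) : G →* G where
  toFun h := ⁅g, h⁆
  map_one' := by simp
  map_mul' := by
    intro h k
    show ⁅g, h * k⁆ = ⁅g, h⁆ * ⁅g, k⁆
    have e : ∀ a b : G, ⁅a, b⁆ = ⁅b, a⁆⁻¹ := fun a b => (commutatorElement_inv b a).symm
    rw [e g (h * k), e g h, e g k]
    have h1 : ⁅h * k, g⁆ = ⁅h, g⁆ * ⁅k, g⁆ := map_mul (commL hcl g) h k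
    rw [h1, mul_inv_rev]
    exact Subgroup.mem_center_iff.mp ((Subgroup.center G).inv_mem (hcl h g)) _

theorem commR_apply (hcl : ∀ x y : G, ⁅x, y⁆ ∈ Subgroup.center G) (g h : G) :
    commR hcl g h = ⁅g, h⁆ := rfl

variable (hnab : ∃ a b : G, a * b ≠ b * a)
  (hno : ¬ ∃ A : Subgroup G, A.Normal ∧ (∀ a ∈ A, ∀ b ∈ A, a * b = b * a) ∧ A.index = p)

include hp hcd hnab hno in
/-- The structure of a self-centralizing abelian subgroup containing `G'`. -/
theorem good (A : Subgroup G) [hA : A.Normal] (hab : ∀ a ∈ A, ∀ b ∈ A, a * b = b * a)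
    (hcomm : commutator G ≤ A) (hcent : ∀ g : G, (∀ a ∈ A, g * a = a * g) → g ∈ A) :
    ∃ β : A →* ℂˣ, β ≠ 1 ∧ (∀ g, cj A g β = β) ∧ (∀ b, β b ^ p = 1) ∧
      (∀ a : A, (a : G) ∈ Subgroup.center G ↔ β a = 1) ∧
      (Subgroup.center G).index = A.index * p := by
  rcases structure_of_rank_one A hab hcomm hp (hidx_of_hcd hp hcd A hab) hcent with h | h | h
  · exfalso
    obtain ⟨a, b, hne⟩ := hnab
    rw [Subgroup.index_eq_one] at h
    exact hne (hab a (by rw [h]; trivial) b (by rw [h]; trivial))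
  · exact absurd ⟨A, hA, hab, h⟩ hno
  · obtain ⟨β, h1, h2, h3, -, h5, -, h7⟩ := h
    exact ⟨β, h1, h2, h3, h5, h7⟩

/-- The data from the character `β`. -/
theorem data_of_good {A : Subgroup G} [hA : A.Normal] (hp : p.Prime)
    (hab : ∀ a ∈ A, ∀ b ∈ A, a * b = b * a) {β : A →* ℂˣ}
    (hinv : ∀ g, cj A g β = β) (hpow : ∀ b, β b ^ p = 1)
    (hcen : ∀ a : A, (a : G) ∈ Subgroup.center G ↔ β a = 1) (a : A)
    (ha : (a : G) ∉ Subgroup.center G) : Data A (a : G) := by
  have hβ1 : β ≠ 1 := by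
    rintro rfl
    exact ha ((hcen a).mpr rfl)
  refine ⟨a.2, ha, ?_, ?_⟩
  · intro x
    have hmem : ⁅x, (a : G)⁆ ∈ A := by
      have h1 : ⁅x, (a : G)⁆ = (x * a * x⁻¹) * (a : G)⁻¹ := rfl
      rw [h1]
      exact A.mul_mem (hA.conj_mem a a.2 x) (A.inv_mem a.2)
    have h1 := (hcen ⟨_, hmem⟩).mpr
    apply h1
    have h2 : (⟨⁅x, (a : G)⁆, hmem⟩ : A) = ⟨x * a * x⁻¹, hA.conj_mem a a.2 x⟩ * a⁻¹ := rfl
    rw [h2, map_mul, map_inv]
    have h3 := DFunLike.congr_fun (hinv x) a
    rw [cj_apply] at h3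
    rw [h3, mul_inv_cancel]
  · intro b hb
    have hker : (β.ker).index = p := by
      rw [Subgroup.index_ker]
      exact card_range_eq hp hβ1 hpow
    have hak : a ∉ β.ker := by
      rw [MonoidHom.mem_ker]
      exact fun h => ha ((hcen a).mpr h)
    obtain ⟨i, hi⟩ := exists_pow_inv_mul_mem hp hker hak ⟨b, hb⟩
    refine ⟨i, ?_⟩
    have h1 := (hcen _).mpr ((MonoidHom.mem_ker).mp hi)
    simpa using h1

include hp hcd hnab hno in
/-- Anisotropy: the centralizer of a noncentral `b` is `⟨b⟩ Z(G)` when `G` has class two. -/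
theorem aniso (hcl : ∀ x y : G, ⁅x, y⁆ ∈ Subgroup.center G) {b u : G}
    (hb : b ∉ Subgroup.center G) (hu : u * b = b * u) :
    ∃ k : ℕ, (b ^ k)⁻¹ * u ∈ Subgroup.center G := by
  classical
  let k : Set G := (Subgroup.center G : Set G) ∪ {b, u}
  have hk : ∀ x ∈ k, ∀ y ∈ k, x * y = y * x := by
    have hz : ∀ z ∈ Subgroup.center G, ∀ y : G, z * y = y * z := fun z hz y =>
      (Subgroup.mem_center_iff.mp hz y).symm
    rintro x (hx | hx | hx) y (hy | hy | hy)
    · exact hz x hx y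
    · exact hz x hx y
    · exact hz x hx y
    · exact (hz y hy x).symm
    · rw [hx, hy]
    · rw [hx, Set.mem_singleton_iff.mp hy]; exact hu.symm
    · exact (hz y hy x).symm
    · rw [Set.mem_singleton_iff.mp hx, hy]; exact hu
    · rw [Set.mem_singleton_iff.mp hx, Set.mem_singleton_iff.mp hy]
  haveI := Subgroup.isMulCommutative_closure hk
  have hcl2 : ∀ a ∈ Subgroup.closure k, ∀ b ∈ Subgroup.closure k, a * b = b * a := fun a ha b hb =>
    congrArg Subtype.val (mul_comm' (⟨a, ha⟩ : Subgroup.closure k) ⟨b, hb⟩)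
  obtain ⟨A, hBA, hab, hcent⟩ := exists_max_abelian (Subgroup.closure k) hcl2
  have hcenter : Subgroup.center G ≤ A := fun z hz =>
    hBA (Subgroup.subset_closure (Or.inl hz))
  have hcomm : commutator G ≤ A := by
    rw [commutator_def, Subgroup.commutator_le]
    intro g _ h _
    exact hcenter (hcl g h)
  haveI hA : A.Normal := Subgroup.Normal.of_commutator_le _ hcomm
  obtain ⟨β, -, hinv, hpow, hcen, -⟩ := good hp hcd hnab hno A hab hcomm hcent
  have hbA : b ∈ A := hBA (Subgroup.subset_closure (Or.inr (Or.inl rfl)))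
  have huA : u ∈ A := hBA (Subgroup.subset_closure (Or.inr (Or.inr rfl)))
  exact (data_of_good hp hab hinv hpow hcen ⟨b, hbA⟩ hb).span u huA

include hp hcd hnab hno in
/-- The index of the centre. -/
theorem main_forward (hder : ∀ a ∈ commutator G, ∀ b ∈ commutator G, a * b = b * a) :
    (Subgroup.center G).index = p ^ 3 := by
  classical
  haveI : Fact p.Prime := ⟨hp⟩
  obtain ⟨A, hBA, hab, hcent⟩ := exists_max_abelian (commutator G) hder
  haveI hA : A.Normal := Subgroup.Normal.of_commutator_le _ hBA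
  obtain ⟨β, hβ1, hinv, hpow, hcen, hidx⟩ := good hp hcd hnab hno A hab hBA hcent
  -- the element `a`
  obtain ⟨a, ha⟩ : ∃ a : A, β a ≠ 1 := by
    by_contra hcon
    push Not at hcon
    exact hβ1 (MonoidHom.ext hcon)
  have ha' : (a : G) ∉ Subgroup.center G := fun h => ha ((hcen a).mp h)
  have h := data_of_good hp hab hinv hpow hcen a ha'
  have hkerc : (cHom h).ker = A := ker_cHom hab hcent h
  have hindex : A.index = Nat.card (cHom h).range := by
    rw [← Subgroup.index_ker (cHom h)]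
    exact congrArg Subgroup.index hkerc.symm
  have hexp : ∀ x, cHom h x ^ p = 1 := by
    intro x
    rw [← map_pow, ← MonoidHom.mem_ker, hkerc]
    apply hcent
    apply commute_of_forall_stab A hab
    intro l
    haveI := stab_normal A hab hBA l
    rcases hidx_of_hcd hp hcd A hab l with h1 | h1
    · rw [Subgroup.index_eq_one.mp h1]; trivial
    · rw [← h1]
      exact Subgroup.pow_index_mem _ x
  by_cases hp2 : A.index = p ^ 2
  · rw [hidx, hp2]; ring
  exfalso
  have hA1 : A.index ≠ 1 := by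
    intro h1
    obtain ⟨a, b, hne⟩ := hnab
    rw [Subgroup.index_eq_one] at h1
    exact hne (hab a (by rw [h1]; trivial) b (by rw [h1]; trivial))
  have hAp : A.index ≠ p := fun h1 => hno ⟨A, hA, hab, h1⟩
  have hcr : ∀ x : G, cHom h x ∈ (cHom h).range := fun x => ⟨x, rfl⟩
  -- no two elements span the range
  have hnot : ∀ x y : G, ∃ g₀, ∀ m n : ℤ, cHom h g₀ ≠ cHom h x ^ m * cHom h y ^ n := by
    intro x y
    by_contra hcon
    push Not at hcon
    have hle : Nat.card (cHom h).range ≤ p ^ 2 := by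
      apply card_le_of_pair hp _ (hexp x) (hexp y)
      rintro _ ⟨g, rfl⟩
      exact hcon g
    have hpg : IsPGroup p (cHom h).range := by
      rintro ⟨_, g, rfl⟩
      refine ⟨1, ?_⟩
      apply Subtype.ext
      simp [hexp g]
    obtain ⟨k, hk⟩ := IsPGroup.iff_card.mp hpg
    rw [hk] at hle
    have hk2 : k ≤ 2 := (Nat.pow_le_pow_iff_right hp.one_lt).mp hle
    rw [← hindex] at hk
    interval_cases k
    · exact hA1 (by simpa using hk)
    · exact hAp (by simpa using hk)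
    · exact hp2 hk
  have hpair : ∀ x y : G, ∃ m n : ℤ, ⁅x, y⁆ = cHom h x ^ m * cHom h y ^ n := by
    intro x y
    obtain ⟨g₀, hg₀⟩ := hnot x y
    exact exists_zpow_of_not_mem hp hcd hab hBA hcent h x y g₀ hg₀
  have hcl : ∀ x y : G, ⁅x, y⁆ ∈ Subgroup.center G := by
    intro x y
    obtain ⟨m, n, hmn⟩ := hpair x y
    rw [hmn]
    exact mul_mem (zpow_mem (cHom_mem_center h x) m) (zpow_mem (cHom_mem_center h y) n)
  have hc1 : ∃ x, cHom h x ≠ 1 := by
    by_contra hcon
    push Not at hcon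
    apply hA1
    rw [Subgroup.index_eq_one, ← hkerc]
    exact MonoidHom.ker_eq_top_iff.mpr (MonoidHom.ext hcon)
  obtain ⟨x, hx⟩ := hc1
  obtain ⟨y, hy⟩ := hnot x x
  obtain ⟨m, n, hmn⟩ := hpair x y
  set c := cHom h with hc
  have hca : c a = 1 := by
    rw [← MonoidHom.mem_ker, hkerc]
    exact a.2
  set X := x * (a : G) ^ n with hX
  set Y := y * (a : G) ^ (-m) with hY
  have hcX : c X = c x := by
    rw [hX, map_mul, map_zpow, hca, one_zpow, mul_one]
  have hcY : c Y = c y := by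
    rw [hY, map_mul, map_zpow, hca, one_zpow, mul_one]
  -- `X` and `Y` commute
  have hcomm : ⁅X, Y⁆ = 1 := by
    have e1 : ⁅X, Y⁆ = ⁅x, Y⁆ * ⁅(a : G), Y⁆ ^ n := by
      have := map_mul (commL hcl Y) x ((a : G) ^ n)
      rw [map_zpow] at this
      exact this
    have e2 : ⁅x, Y⁆ = ⁅x, y⁆ * ⁅x, (a : G)⁆ ^ (-m) := by
      have := map_mul (commR hcl x) y ((a : G) ^ (-m))
      rw [map_zpow] at this
      exact this
    have e3 : ⁅(a : G), Y⁆ = ⁅(a : G), y⁆ * ⁅(a : G), (a : G)⁆ ^ (-m) := by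
      have := map_mul (commR hcl (a : G)) y ((a : G) ^ (-m))
      rw [map_zpow] at this
      exact this
    have e4 : ⁅(a : G), y⁆ = (c y)⁻¹ := (commutatorElement_inv y (a : G)).symm
    have e5 : ⁅x, (a : G)⁆ = c x := rfl
    rw [e1, e2, e3, commutatorElement_self, one_zpow, mul_one, e4, e5, hmn]
    have hcc : Commute (c x) (c y) := Subgroup.mem_center_iff.mp (cHom_mem_center h y) _
    have h1 : Commute (c y ^ n) (c x ^ (-m)) := (hcc.symm).zpow_zpow n (-m)
    calc c x ^ m * c y ^ n * c x ^ (-m) * ((c y)⁻¹) ^ n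
        = c x ^ m * (c y ^ n * c x ^ (-m)) * ((c y)⁻¹) ^ n := by group
      _ = c x ^ m * (c x ^ (-m) * c y ^ n) * ((c y)⁻¹) ^ n := by rw [h1.eq]
      _ = 1 := by group
  have hXc : X ∉ Subgroup.center G := by
    intro hXc
    apply hx
    rw [← hcX, hc, cHom_apply]
    rw [commutatorElement_eq_one_iff_mul_comm]
    exact (Subgroup.mem_center_iff.mp hXc a).symm
  obtain ⟨k, hk⟩ := aniso hp hcd hnab hno hcl hXc
    (commutatorElement_eq_one_iff_mul_comm.mp hcomm).symm
  apply hy (k : ℤ) 0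
  rw [zpow_zero, mul_one, zpow_natCast]
  rw [← hcY, ← hcX, ← map_pow]
  have hz : c ((X ^ k)⁻¹ * Y) = 1 := by
    rw [hc, cHom_apply, commutatorElement_eq_one_iff_mul_comm]
    exact (Subgroup.mem_center_iff.mp hk a).symm
  rw [map_mul, map_inv, inv_mul_eq_one] at hz
  exact hz.symm

end Main

section Backward

variable {G : Type u} [Group G] [Finite G] {p : ℕ} (hp : p.Prime)
  (hG : ∃ a b : G, a * b ≠ b * a)

include hG in
theorem exists_nonlinear' : ∃ χ : IrrCharacter G, charDegree (χ : G → ℂ) ≠ 1 := by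
  apply Cfsg.Agent.S4845.exists_nonlinear
  rintro ⟨⟨hc⟩⟩
  obtain ⟨a, b, hne⟩ := hG
  exact hne (hc a b)

include hp in
theorem deg_of_abelian {A : Subgroup G} [A.Normal] (hab : ∀ a ∈ A, ∀ b ∈ A, a * b = b * a)
    (hi : A.index = p) (χ : IrrCharacter G) :
    charDegree (χ : G → ℂ) = 1 ∨ charDegree (χ : G → ℂ) = p := by
  obtain ⟨e, he, hd⟩ := Cfsg.Agent.Lib.Coprime.KGV.exists_degree_dvd_index A hab χ.2
  rw [hi] at hd
  have h2 := Values.IsCharacter.charDegree_eq (Values.IsIrrCharacter.isCharacter χ.2) he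
  rw [h2]
  exact (Nat.dvd_prime hp).mp hd

include hp in
theorem deg_of_center (hi : (Subgroup.center G).index = p ^ 3) (χ : IrrCharacter G) :
    charDegree (χ : G → ℂ) = 1 ∨ charDegree (χ : G → ℂ) = p := by
  classical
  cases nonempty_fintype G
  obtain ⟨n, ρ, hirr, hρ⟩ := χ.2
  haveI := hirr
  have h1 := Integrality.finrank_dvd_index_center ρ
  have h2 : charDegree (χ : G → ℂ) = n := by
    apply Values.IsCharacter.charDegree_eq (Values.IsIrrCharacter.isCharacter χ.2)
    rw [← hρ, Representation.char_one]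
    simp
  have h3 : charDegree (χ : G → ℂ) ∣ p ^ 3 := by
    rw [h2, ← hi]
    simpa using h1
  obtain ⟨k, hk3, hk⟩ := (Nat.dvd_prime_pow hp).mp h3
  have h4 := PDerived.deg_sq_mul_card_center_le χ.2
  rw [Cfsg.Agent.S4845.deg_norm χ] at h4
  have h5 : charDegree (χ : G → ℂ) ^ 2 * Nat.card (Subgroup.center G) ≤ Nat.card G := by
    exact_mod_cast h4
  have h6 := (Subgroup.center G).card_mul_index
  rw [hi] at h6
  rw [← h6, mul_comm] at h5
  have h7 : charDegree (χ : G → ℂ) ^ 2 ≤ p ^ 3 := Nat.le_of_mul_le_mul_left h5 Nat.card_pos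
  rw [hk, ← pow_mul] at h7
  have h8 : k * 2 ≤ 3 := (Nat.pow_le_pow_iff_right hp.one_lt).mp h7
  have h9 : k = 0 ∨ k = 1 := by omega
  rcases h9 with rfl | rfl
  · left; simpa using hk
  · right; simpa using hk

end Backward

/-- Let G be a non-abelian finite group and p a prime. Then the irreducible character degrees of G are exactly 1 and p if and only if either G has an abelian normal subgroup of index p or the centre of G has index p³. -/
theorem result {G : Type*} [Group G] [Finite G] (hG : ∃ a b : G, a * b ≠ b * a) (p : ℕ) (hp : p.Prime) : ((∀ χ : Cfsg.IrrCharacter G, Cfsg.charDegree (χ : G → ℂ) = 1 ∨ Cfsg.charDegree (χ : G → ℂ) = p) ∧ ∃ χ : Cfsg.IrrCharacter G, Cfsg.charDegree (χ : G → ℂ) = p) ↔ ((∃ A : Subgroup G, A.Normal ∧ (∀ a ∈ A, ∀ b ∈ A, a * b = b * a) ∧ A.index = p) ∨ (Subgroup.center G).index = p ^ 3) := by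
  classical
  cases nonempty_fintype G
  constructor
  · rintro ⟨hcd, hex⟩
    by_cases hno : ∃ A : Subgroup G, A.Normal ∧ (∀ a ∈ A, ∀ b ∈ A, a * b = b * a) ∧ A.index = p
    · exact Or.inl hno
    · right
      have hder := Cfsg.Agent.S4458.result p hcd hex hp.one_lt.ne'
      exact main_forward hp hcd hG hno hder
  · intro h
    have hall : ∀ χ : IrrCharacter G, charDegree (χ : G → ℂ) = 1 ∨ charDegree (χ : G → ℂ) = p := by
      intro χ
      rcases h with ⟨A, hA, hab, hi⟩ | hi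
      · haveI := hA
        exact deg_of_abelian hp hab hi χ
      · exact deg_of_center hp hi χ
    refine ⟨hall, ?_⟩
    obtain ⟨χ, hχ⟩ := exists_nonlinear' hG
    exact ⟨χ, (hall χ).resolve_left hχ⟩

end Cfsg.Agent.S4459
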