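import Cfsg.Statements.S4798
import Mathlib
import Cfsg.Agent.Lib.Char.PrimeCod
import Cfsg.Agent.Lib.Char.FrobeniusKernel

set_option autoImplicit false
open Cfsg

namespace Cfsg.Agent.S4798

open Cfsg Cfsg.Agent.Lib.Char.Basic Cfsg.Agent.Lib.Char.Ortho Cfsg.Agent.Lib.Char.Induced
  Cfsg.Agent.Lib.Char.Clifford Cfsg.Agent.Lib.Char.CliffordCorr Cfsg.Agent.Lib.Char.PrimeCod

universe u

/-- The degree of an irreducible constituent is at most the degree of the character. -/
theorem degree_le_of_classInner_ne_zero {G : Type u} [Group G] [Fintype G] {ψ β : G → ℂ}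
    (hψ : IsCharacter G ψ) (hβ : IsIrrCharacter G β) (h : classInner ψ β ≠ 0) :
    ∃ a b : ℕ, β 1 = a ∧ ψ 1 = b ∧ a ≤ b := by
  classical
  obtain ⟨m, hm⟩ := exists_nat_decomp hψ
  let β₀ : IrrCharacter G := ⟨β, hβ⟩
  have hmβ : (m β₀ : ℂ) = classInner ψ β := by
    have := classInner_sum_irr (G := G) (fun ν => (m ν : ℂ)) β₀
    rw [← this]
    congr 1
    rw [hm]
    exact Finset.sum_congr rfl (fun ν _ => by rw [Nat.cast_smul_eq_nsmul])
  have hm0 : m β₀ ≠ 0 := by
    intro h0
    rw [h0] at hmβ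
    exact h (by simpa using hmβ.symm)
  let Ξ : G → ℂ := ∑ ν ∈ Finset.univ.erase β₀, m ν • (ν : G → ℂ)
  have hΞ : IsCharacter G Ξ := by
    refine isCharacter_finset_sum _ (fun ν _ => ?_)
    exact isCharacter_nsmul (isCharacter_of_isIrrCharacter ν.2) _
  have hdec : ψ = m β₀ • β + Ξ := by
    rw [hm, ← Finset.add_sum_erase _ _ (Finset.mem_univ β₀)]
  obtain ⟨a, ha, haβ⟩ := irr_degree_pos hβ
  obtain ⟨b, hb⟩ := exists_degree_of_isCharacter hΞ
  refine ⟨a, m β₀ * a + b, haβ, ?_, ?_⟩
  · have h3 := congrFun hdec 1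
    rw [Pi.add_apply, Pi.smul_apply, haβ, hb, nsmul_eq_mul] at h3
    rw [h3]
    push_cast
    ring
  · have : 1 * a ≤ m β₀ * a := Nat.mul_le_mul_right a (Nat.one_le_iff_ne_zero.mpr hm0)
    omega

/-- The degree of an irreducible character of a `p`-group is a power of `p`. -/
theorem exists_degree_eq_pow {G : Type u} [Group G] [Finite G] {ν : G → ℂ} (hν : IsIrrCharacter G ν)
    {p a : ℕ} (hp : p.Prime) (hcard : Nat.card G = p ^ a) :
    ∃ j : ℕ, j ≤ a ∧ ν 1 = ((p ^ j : ℕ) : ℂ) := by
  obtain ⟨n, ρ, hρ, rfl⟩ := hν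
  haveI := hρ
  have h1 := Cfsg.Agent.Lib.Char.Integrality.finrank_dvd_card ρ
  rw [hcard, Nat.dvd_prime_pow hp] at h1
  obtain ⟨j, hj, hj2⟩ := h1
  refine ⟨j, hj, ?_⟩
  rw [Representation.char_one, hj2]


/-- Let p be a prime and χ a faithful irreducible complex character of the finite group G (χ(g) = χ(1) only for g = 1), so that its codegree is #G / χ(1). Then #G / χ(1) is a power of p if and only if χ is induced from a character of a Sylow p-subgroup of G. -/
theorem result {G : Type*} [Group G] [Fintype G] (p : ℕ) [Fact p.Prime] (χ : Cfsg.IrrCharacter G) (hfaith : ∀ g : G, (χ : G → ℂ) g = (χ : G → ℂ) 1 → g = 1) : (∃ k : ℕ, Nat.card G = p ^ k * Cfsg.charDegree (χ : G → ℂ)) ↔ ∃ (P : Sylow p G) (θ : ↥(P : Subgroup G) → ℂ), Cfsg.IsCharacter ↥(P : Subgroup G) θ ∧ (χ : G → ℂ) = Cfsg.indFun (P : Subgroup G) θ := by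
  classical
  have hχ := χ.2
  have hχc := isCharacter_of_isIrrCharacter hχ
  have hd : (χ : G → ℂ) 1 = (Cfsg.charDegree (χ : G → ℂ) : ℕ) :=
    (Cfsg.Agent.Lib.Char.Values.IsCharacter.charDegree_cast hχc).symm
  have hd0 := Cfsg.Agent.Lib.Char.Codegree.charDegree_pos hχ
  generalize hddef : Cfsg.charDegree (χ : G → ℂ) = d at hd hd0 ⊢
  have hp : p.Prime := Fact.out
  constructor
  · rintro ⟨k, hk⟩
    obtain ⟨P⟩ : Nonempty (Sylow p G) := inferInstance
    obtain ⟨a, ha⟩ := IsPGroup.exists_card_eq P.isPGroup'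
    have hmul : p ^ a * (P : Subgroup G).index = p ^ k * d := by
      rw [← ha, Subgroup.card_mul_index, hk]
    have hnd : ¬ p ∣ (P : Subgroup G).index := P.not_dvd_index
    set m := (P : Subgroup G).index with hmdef
    have hm0 : 0 < m := Nat.pos_of_ne_zero (fun h0 => hnd (by rw [h0]; exact dvd_zero p))
    have hcop : Nat.Coprime m (p ^ k) :=
      ((Nat.Prime.coprime_iff_not_dvd hp).2 hnd).symm.pow_right k
    have hmd : m ∣ d := hcop.dvd_of_dvd_mul_left (Dvd.intro_left (p ^ a) hmul)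
    obtain ⟨x, rfl⟩ := hmd
    have hpa : p ^ a = p ^ k * x := by
      have : p ^ a * m = (p ^ k * x) * m := by rw [hmul]; ring
      exact Nat.eq_of_mul_eq_mul_right hm0 this
    obtain ⟨j, -, rfl⟩ := (Nat.dvd_prime_pow hp).1 (Dvd.intro_left (p ^ k) hpa.symm)
    have hres := isCharacter_restrict hχc (P : Subgroup G)
    obtain ⟨e, he⟩ := exists_nat_decomp hres
    haveI : Fintype (P : Subgroup G) := Fintype.ofFinite _
    -- each constituent has degree at least `p ^ j`
    have hdegν : ∀ ν : IrrCharacter ↥(P : Subgroup G), e ν ≠ 0 →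
        classInner (indFun (P : Subgroup G) (ν : ↥(P : Subgroup G) → ℂ)) (χ : G → ℂ) ≠ 0 := by
      intro ν hν
      rw [frobenius_reciprocity (P : Subgroup G) _ _ (isClassFunction_of_isCharacter hχc)]
      have h1 : classInner (fun h : (P : Subgroup G) => (χ : G → ℂ) h) (ν : ↥(P : Subgroup G) → ℂ)
          = e ν := by
        have := classInner_sum_irr (G := (P : Subgroup G)) (fun ψ => (e ψ : ℂ)) ν
        rw [← this]
        congr 1
        rw [he]
        exact Finset.sum_congr rfl (fun ψ _ => by rw [Nat.cast_smul_eq_nsmul])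
      rw [← classInner_conj_symm, h1]
      simpa using hν
    have hge : ∀ ν : IrrCharacter ↥(P : Subgroup G), e ν ≠ 0 →
        ∃ i : ℕ, j ≤ i ∧ (ν : ↥(P : Subgroup G) → ℂ) 1 = ((p ^ i : ℕ) : ℂ) := by
      intro ν hν
      obtain ⟨i, -, hi⟩ := exists_degree_eq_pow ν.2 hp ha
      refine ⟨i, ?_, hi⟩
      obtain ⟨A, B, hA, hB, hAB⟩ := degree_le_of_classInner_ne_zero
        (Cfsg.Agent.Lib.Char.IndRep.isCharacter_indFun (P : Subgroup G)
          (isCharacter_of_isIrrCharacter ν.2)) hχ (hdegν ν hν)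
      rw [hd] at hA
      rw [indFun_one, hi] at hB
      have hA' : m * p ^ j = A := by exact_mod_cast hA
      have hB' : m * p ^ i = B := by
        have : ((m * p ^ i : ℕ) : ℂ) = (B : ℂ) := by
          rw [← hB, hmdef]
          push_cast
          rfl
        exact_mod_cast this
      rw [← hA', ← hB'] at hAB
      have := Nat.le_of_mul_le_mul_left hAB hm0
      exact (Nat.pow_le_pow_iff_right hp.one_lt).1 this
    obtain ⟨ν, hν, hν1⟩ : ∃ ν : IrrCharacter ↥(P : Subgroup G), e ν ≠ 0 ∧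
        (ν : ↥(P : Subgroup G) → ℂ) 1 = ((p ^ j : ℕ) : ℂ) := by
      by_contra hcon
      push Not at hcon
      apply hnd
      have h1 : (P : Subgroup G) ≤ ⊤ := le_top
      have hsum : (χ : G → ℂ) 1 = ∑ ν, (e ν : ℂ) * (ν : ↥(P : Subgroup G) → ℂ) 1 := by
        have := congrFun he 1
        simp only [Finset.sum_apply, Pi.smul_apply, nsmul_eq_mul, OneMemClass.coe_one] at this
        exact this
      have hdvd : ∀ ν : IrrCharacter ↥(P : Subgroup G),
          ∃ c : ℕ, (e ν : ℂ) * (ν : ↥(P : Subgroup G) → ℂ) 1 = ((p ^ (j + 1) * c : ℕ) : ℂ) := by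
        intro ν
        by_cases hν : e ν = 0
        · exact ⟨0, by simp [hν]⟩
        · obtain ⟨i, hi, hi2⟩ := hge ν hν
          have hne : i ≠ j := by
            rintro rfl
            exact hcon ν hν hi2
          obtain ⟨t, rfl⟩ := Nat.exists_eq_add_of_le (show j + 1 ≤ i by omega)
          refine ⟨p ^ t * e ν, ?_⟩
          rw [hi2]
          push_cast
          ring
      choose c hc using hdvd
      have h2 : m * p ^ j = p ^ (j + 1) * ∑ ν, c ν := by
        have h3 : ((m * p ^ j : ℕ) : ℂ) = ((p ^ (j + 1) * ∑ ν, c ν : ℕ) : ℂ) := by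
          rw [Finset.sum_congr rfl (fun ν _ => hc ν)] at hsum
          rw [hd] at hsum
          rw [hsum]
          push_cast
          rw [Finset.mul_sum]
        exact_mod_cast h3
      have h4 : m = p * ∑ ν, c ν := by
        have hpj : 0 < p ^ j := pow_pos hp.pos j
        apply Nat.eq_of_mul_eq_mul_right hpj
        rw [h2]
        ring
      exact ⟨_, h4⟩
    refine ⟨P, ν, isCharacter_of_isIrrCharacter ν.2, ?_⟩
    refine (eq_of_classInner_ne_zero (Cfsg.Agent.Lib.Char.IndRep.isCharacter_indFun (P : Subgroup G)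
      (isCharacter_of_isIrrCharacter ν.2)) hχ (hdegν ν hν) ?_).symm
    rw [indFun_one, hν1, hd]
    push_cast
    rfl
  · rintro ⟨P, θ, hθ, hind⟩
    haveI : Fintype (P : Subgroup G) := Fintype.ofFinite _
    obtain ⟨a, ha⟩ := IsPGroup.exists_card_eq P.isPGroup'
    have hone := congrFun hind 1
    rw [indFun_one, hd] at hone
    have hm0 : ((P : Subgroup G).index : ℂ) ≠ 0 := by
      exact_mod_cast Subgroup.index_ne_zero_of_finite
    have hθ1 : θ 1 ≠ 0 := by
      intro h0
      rw [h0, mul_zero] at hone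
      have : (d : ℂ) ≠ 0 := by exact_mod_cast hd0.ne'
      exact this hone
    obtain ⟨ν, hν, hne⟩ := exists_irr_constituent hθ hθ1
    obtain ⟨e, he⟩ := exists_nat_decomp hθ
    let ν₀ : IrrCharacter (P : Subgroup G) := ⟨ν, hν⟩
    have hmν : e ν₀ ≠ 0 := by
      intro h0
      apply hne
      have := classInner_sum_irr (G := (P : Subgroup G)) (fun ψ => (e ψ : ℂ)) ν₀
      have h2 : classInner θ ν = e ν₀ := by
        rw [← this]
        congr 1
        rw [he]
        exact Finset.sum_congr rfl (fun ψ _ => by rw [Nat.cast_smul_eq_nsmul])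
      rw [h2, h0]
      simp
    let θ' : ↥(P : Subgroup G) → ℂ :=
      (e ν₀ - 1) • ν + ∑ ψ ∈ Finset.univ.erase ν₀, e ψ • (ψ : ↥(P : Subgroup G) → ℂ)
    have hθ' : IsCharacter (P : Subgroup G) θ' := by
      refine isCharacter_add (isCharacter_nsmul (isCharacter_of_isIrrCharacter hν) _) ?_
      refine isCharacter_finset_sum _ (fun ψ _ => ?_)
      exact isCharacter_nsmul (isCharacter_of_isIrrCharacter ψ.2) _
    have hdec : θ = ν + θ' := by
      have h2 : e ν₀ = (e ν₀ - 1) + 1 := by omega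
      have h3 : e ν₀ • ν = ν + (e ν₀ - 1) • ν := by
        conv_lhs => rw [h2, add_smul, one_smul, add_comm]
      rw [he, ← Finset.add_sum_erase _ _ (Finset.mem_univ ν₀)]
      show e ν₀ • ν + _ = _
      rw [h3, add_assoc]
    have hind2 : (χ : G → ℂ) = indFun (P : Subgroup G) ν + indFun (P : Subgroup G) θ' := by
      rw [hind, hdec, Cfsg.Agent.Lib.Char.FrobeniusKernel.indFun_add_fun]
    have hν1 : indFun (P : Subgroup G) ν 1 ≠ 0 := by
      rw [indFun_one]
      exact mul_ne_zero hm0 (irr_apply_one_ne_zero hν)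
    have h0 := Cfsg.Agent.Lib.Char.MackeyNormal.eq_zero_of_irr_eq_add hχ
      (Cfsg.Agent.Lib.Char.IndRep.isCharacter_indFun (P : Subgroup G)
        (isCharacter_of_isIrrCharacter hν))
      (Cfsg.Agent.Lib.Char.IndRep.isCharacter_indFun (P : Subgroup G) hθ') hind2 hν1
    have h1 : θ' 1 = 0 := by
      have := congrFun h0 1
      rw [indFun_one] at this
      simpa [hm0] using this
    have h2 : θ' = 0 := eq_zero_of_apply_one_eq_zero hθ' h1
    have h3 : θ = ν := by rw [hdec, h2, add_zero]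
    subst h3
    obtain ⟨i, hi, hi2⟩ := exists_degree_eq_pow hν hp ha
    have h4 : d = (P : Subgroup G).index * p ^ i := by
      have : ((d : ℕ) : ℂ) = (((P : Subgroup G).index * p ^ i : ℕ) : ℂ) := by
        rw [hone, hi2]
        push_cast
        ring
      exact_mod_cast this
    refine ⟨a - i, ?_⟩
    rw [h4, ← Subgroup.card_mul_index (P : Subgroup G), ha]
    obtain ⟨t, rfl⟩ := Nat.exists_eq_add_of_le hi
    simp only [Nat.add_sub_cancel_left]
    ring

end Cfsg.Agent.S4798
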