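import Cfsg.Statements.S4464
import Mathlib
import Cfsg.Agent.Lib.Char.TIFixed
import Cfsg.Agent.Lib.Char.ItoMichler
import Cfsg.Agent.S4798

set_option autoImplicit false
open Cfsg

namespace Cfsg.Agent.S4464

open Cfsg.Agent.Lib.Char.Basic Cfsg.Agent.Lib.Char.Ortho Cfsg.Agent.Lib.Char.TIFixed
  Cfsg.Agent.Lib.Char.Induced Cfsg.Agent.Lib.Char.IndRep Cfsg.Agent.Lib.Char.CliffordCorr
  Cfsg.Agent.Lib.Char.CompleteCor Cfsg.Agent.Lib.Char.ItoMichler
open scoped ComplexConjugate

universe u

/-- Averages of a small-degree representation over `G` and over an overgroup of `N_G(P)` agree,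
for a TI Sylow subgroup `P`. -/
theorem avg_character_eq_of_TI {G : Type*} [Group G] [Fintype G] {p : ℕ} [Fact p.Prime]
    (P : Sylow p G)
    (hTI : ∀ g : G, g ∉ Subgroup.normalizer ((P : Subgroup G) : Set G) →
      ∀ u ∈ (P : Subgroup G), g⁻¹ * u * g ∈ (P : Subgroup G) → u = 1)
    {m : ℕ} (σ : Representation ℂ G (Fin m → ℂ)) (hm : m < Nat.card ↥(P : Subgroup G))
    (H : Subgroup G) [Fintype ↥H] (hH : Subgroup.normalizer ((P : Subgroup G) : Set G) ≤ H) :
    (Nat.card ↥H : ℂ)⁻¹ * ∑ h : ↥H, σ.character (h : G)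
      = (Nat.card G : ℂ)⁻¹ * ∑ g : G, σ.character g := by
  classical
  let avgG : (Fin m → ℂ) →ₗ[ℂ] (Fin m → ℂ) := (Nat.card G : ℂ)⁻¹ • ∑ g, σ g
  let avgH : (Fin m → ℂ) →ₗ[ℂ] (Fin m → ℂ) := (Nat.card ↥H : ℂ)⁻¹ • ∑ h : ↥H, σ (h : G)
  have hcardG : (Nat.card G : ℂ) ≠ 0 := by exact_mod_cast Nat.card_pos.ne'
  have hcardH : (Nat.card ↥H : ℂ) ≠ 0 := by exact_mod_cast Nat.card_pos.ne'
  have trG : LinearMap.trace ℂ _ avgG = (Nat.card G : ℂ)⁻¹ * ∑ g : G, σ.character g := by
    simp only [avgG, map_smul, map_sum, smul_eq_mul, Representation.character]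
  have trH : LinearMap.trace ℂ _ avgH = (Nat.card ↥H : ℂ)⁻¹ * ∑ h : ↥H, σ.character (h : G) := by
    simp only [avgH, map_smul, map_sum, smul_eq_mul, Representation.character]
  rw [← trG, ← trH]
  congr 1
  have hG_left : ∀ g, σ g * avgG = avgG := by
    intro g
    simp only [avgG, mul_smul_comm, Finset.mul_sum, ← map_mul]
    congr 1
    exact Fintype.sum_equiv (Equiv.mulLeft g) _ _ (fun _ => rfl)
  have hG_right : ∀ g, avgG * σ g = avgG := by
    intro g
    simp only [avgG, smul_mul_assoc, Finset.sum_mul, ← map_mul]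
    congr 1
    exact Fintype.sum_equiv (Equiv.mulRight g) _ _ (fun _ => rfl)
  have hH_left : ∀ h ∈ H, σ h * avgH = avgH := by
    intro h hh
    simp only [avgH, mul_smul_comm, Finset.mul_sum, ← map_mul]
    congr 1
    exact Fintype.sum_equiv (Equiv.mulLeft (⟨h, hh⟩ : ↥H)) _ _ (fun _ => rfl)
  have hGG : avgG * avgG = avgG := by
    have h1 : avgG * ((Nat.card G : ℂ)⁻¹ • ∑ g, σ g) = avgG := by
      simp only [mul_smul_comm, Finset.mul_sum, hG_right]
      rw [Finset.sum_const, Finset.card_univ, ← Nat.card_eq_fintype_card, ← Nat.cast_smul_eq_nsmul ℂ,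
        smul_smul, inv_mul_cancel₀ hcardG, one_smul]
    exact h1
  have hGH : avgG * avgH = avgG := by
    have h1 : avgG * ((Nat.card ↥H : ℂ)⁻¹ • ∑ h : ↥H, σ (h : G)) = avgG := by
      simp only [mul_smul_comm, Finset.mul_sum, hG_right]
      rw [Finset.sum_const, Finset.card_univ, ← Nat.card_eq_fintype_card, ← Nat.cast_smul_eq_nsmul ℂ,
        smul_smul, inv_mul_cancel₀ hcardH, one_smul]
    exact h1
  have hU' : Module.finrank ℂ (⊤ : Submodule ℂ (Fin m → ℂ)) < Nat.card ↥(P : Subgroup G) := by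
    rw [finrank_top, Module.finrank_fin_fun]
    exact hm
  refine LinearMap.ext fun x => ?_
  have hidem : ∀ y, avgG (avgG y) = avgG y := by
    intro y
    rw [← Module.End.mul_apply, hGG]
  have hkey : avgH x - avgG (avgH x) = 0 := by
    refine eq_zero_of_TI P σ hTI ⊤ hU' (fun _ _ _ => Submodule.mem_top) _ Submodule.mem_top ?_ ?_
    · intro y hy
      have h7 : ∀ w, σ y (avgG w) = avgG w := fun w => by
        rw [← Module.End.mul_apply, hG_left]
      have h8 : σ y (avgH x) = avgH x := by
        rw [← Module.End.mul_apply, hH_left y (hH hy)]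
      rw [map_sub, h7, h8]
    · have h1 : ∑ g, σ g (avgH x - avgG (avgH x))
          = (Nat.card G : ℂ) • avgG (avgH x - avgG (avgH x)) := by
        simp only [avgG, LinearMap.smul_apply, LinearMap.sum_apply, smul_smul,
          mul_inv_cancel₀ hcardG, one_smul]
      rw [h1]
      have h2 : avgG (avgH x - avgG (avgH x)) = 0 := by
        rw [map_sub, hidem, sub_self]
      rw [h2, smul_zero]
  have h5 : avgG (avgH x) = avgG x := by
    rw [← Module.End.mul_apply, hGH]
  rw [h5] at hkey
  exact sub_eq_zero.1 hkey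

/-- All irreducible character degrees are less than `p`. -/
def DegLt (p : ℕ) (G : Type*) [Group G] : Prop :=
  ∀ χ : IrrCharacter G, charDegree (χ : G → ℂ) < p

theorem exists_irr_over' {G : Type u} [Group G] [Fintype G] (N : Subgroup G) [Fintype N] {θ : N → ℂ}
    (hθ : IsIrrCharacter N θ) :
    ∃ χ : G → ℂ, IsIrrCharacter G χ ∧ classInner (fun n : N => χ n) θ ≠ 0 := by
  classical
  have hθc := isCharacter_of_isIrrCharacter hθ
  have h1 : indFun N θ 1 ≠ 0 := by
    rw [indFun_one]
    refine mul_ne_zero ?_ (irr_apply_one_ne_zero hθ)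
    exact_mod_cast (Subgroup.index_ne_zero_of_finite (H := N))
  obtain ⟨χ, hχ, hne⟩ := exists_irr_constituent (isCharacter_indFun N hθc) h1
  refine ⟨χ, hχ, ?_⟩
  rw [frobenius_reciprocity N θ χ
    (isClassFunction_of_isCharacter (isCharacter_of_isIrrCharacter hχ))] at hne
  intro h0
  apply hne
  rw [← classInner_conj_symm, h0]
  simp

theorem degLt_subgroup {G : Type u} [Group G] [Finite G] {p : ℕ} (H : Subgroup G)
    (hG : DegLt p G) : DegLt p H := by
  classical
  cases nonempty_fintype G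
  letI : Fintype H := Fintype.ofFinite _
  intro θ
  obtain ⟨χ, hχ, hne⟩ := exists_irr_over' H θ.2
  have hres : IsCharacter H (fun h : H => χ h) :=
    isCharacter_restrict (isCharacter_of_isIrrCharacter hχ) H
  have hne' : classInner (fun h : H => χ h) (θ : H → ℂ) ≠ 0 := hne
  obtain ⟨a, b, ha, hb, hab⟩ :=
    Cfsg.Agent.S4798.degree_le_of_classInner_ne_zero hres θ.2 hne'
  have h1 : charDegree (θ : H → ℂ) = a :=
    Cfsg.Agent.Lib.Char.Values.IsCharacter.charDegree_eq (isCharacter_of_isIrrCharacter θ.2) ha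
  have h2 : charDegree χ = b := by
    apply Cfsg.Agent.Lib.Char.Values.IsCharacter.charDegree_eq (isCharacter_of_isIrrCharacter hχ)
    simpa using hb
  have := hG ⟨χ, hχ⟩
  change charDegree χ < p at this
  omega

theorem degLt_quotient {G : Type u} [Group G] {p : ℕ} (N : Subgroup G) [N.Normal]
    (hD : DegLt p G) : DegLt p (G ⧸ N) := by
  intro χ
  have h := hD ⟨fun g => (χ : G ⧸ N → ℂ) (g : G ⧸ N),
    isIrrCharacter_comp_surjective χ.2 (QuotientGroup.mk' N) (QuotientGroup.mk'_surjective N)⟩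
  simpa [charDegree] using h

/-- Sylow subgroups are abelian under the degree hypothesis. -/
theorem comm_of_degLt {G : Type u} [Group G] [Finite G] {p : ℕ} [hp : Fact p.Prime]
    (hG : DegLt p G) (P : Sylow p G) (x y : G) (hx : x ∈ (P : Subgroup G))
    (hy : y ∈ (P : Subgroup G)) : x * y = y * x := by
  have hP : DegLt p ↥(P : Subgroup G) := degLt_subgroup _ hG
  obtain ⟨a, ha⟩ := IsPGroup.iff_card.1 P.isPGroup'
  have h1 : ∀ χ : IrrCharacter ↥(P : Subgroup G), (χ : ↥(P : Subgroup G) → ℂ) 1 = 1 := by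
    intro χ
    obtain ⟨j, -, hj⟩ := Cfsg.Agent.S4798.exists_degree_eq_pow χ.2 hp.out ha
    have h2 : charDegree (χ : ↥(P : Subgroup G) → ℂ) = p ^ j :=
      Cfsg.Agent.Lib.Char.Values.IsCharacter.charDegree_eq (isCharacter_of_isIrrCharacter χ.2) hj
    have h3 := hP χ
    rw [h2] at h3
    have h4 : j = 0 := by
      by_contra h5
      have : p ≤ p ^ j := Nat.le_self_pow h5 p
      omega
    rw [hj, h4]
    simp
  have := mul_comm_of_forall_degree_one h1 ⟨x, hx⟩ ⟨y, hy⟩
  exact congrArg Subtype.val this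

/-- A `p`-element lies in a normal subgroup of index prime to `p`. -/
theorem mem_of_not_dvd_index {X : Type*} [Group X] [Finite X] {p : ℕ} (hp : p.Prime)
    (S : Subgroup X) [S.Normal] (hS : ¬ p ∣ S.index) (x : X) (k : ℕ) (hx : x ^ p ^ k = 1) :
    x ∈ S := by
  have h1 : ((x : X ⧸ S)) ^ p ^ k = 1 := by
    rw [← QuotientGroup.mk_pow, hx, QuotientGroup.mk_one]
  have h2 := orderOf_dvd_of_pow_eq_one h1
  have h3 : orderOf (x : X ⧸ S) ∣ S.index := by
    rw [Subgroup.index_eq_card]
    exact orderOf_dvd_natCard _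
  have h4 : Nat.Coprime (p ^ k) S.index :=
    Nat.Coprime.pow_left k ((Nat.Prime.coprime_iff_not_dvd hp).2 hS)
  have h5 : orderOf (x : X ⧸ S) = 1 := Nat.eq_one_of_dvd_coprimes h4 h2 h3
  rw [orderOf_eq_one_iff] at h5
  exact (QuotientGroup.eq_one_iff x).1 h5


theorem sum_irr_one {G : Type u} [Group G] [Fintype G] [Fintype (IrrCharacter G)] :
    ∑ β : IrrCharacter G, (β : G → ℂ) 1 * conj ((β : G → ℂ) 1) = (Nat.card G : ℂ) := by
  have : Subgroup.centralizer ({1} : Set G) = ⊤ := by
    ext y
    simp [Subgroup.mem_centralizer_singleton_iff]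
  rw [column_orth_conj (IsConj.refl 1), this, Subgroup.card_top]

theorem sum_irr_ne {G : Type u} [Group G] [Fintype G] [Fintype (IrrCharacter G)] {x : G}
    (hx : x ≠ 1) : ∑ β : IrrCharacter G, (β : G → ℂ) x * conj ((β : G → ℂ) 1) = 0 := by
  refine column_orth_not_conj ?_
  rwa [isConj_one_left]

theorem core {p : ℕ} [hp : Fact p.Prime] (n : ℕ) : ∀ (G : Type u) [Group G] [Finite G],
    Nat.card G = n → DegLt p G → ∃ P : Subgroup G, P.Normal ∧ IsPGroup p P ∧ ¬ p ∣ P.index := by
  induction n using Nat.strong_induction_on with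
  | _ n ih =>
  intro G _ _ hn hG
  classical
  cases nonempty_fintype G
  let P : Sylow p G := (Sylow.nonempty : Nonempty (Sylow p G)).some
  suffices hnorm : (P : Subgroup G).Normal from ⟨P, hnorm, P.isPGroup', P.not_dvd_index⟩
  by_contra hnn
  -- the trivial intersection property
  have hTI : ∀ g : G, g ∉ Subgroup.normalizer ((P : Subgroup G) : Set G) →
      ∀ u ∈ (P : Subgroup G), g⁻¹ * u * g ∈ (P : Subgroup G) → u = 1 := by
    intro g hg u hu hgu
    by_contra hu1
    let P' : Sylow p G := g • P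
    have hu' : u ∈ (P' : Subgroup G) := by
      rw [Sylow.coe_subgroup_smul, Subgroup.mem_smul_pointwise_iff_exists]
      refine ⟨_, hgu, ?_⟩
      simp [MulAut.conj_apply, mul_assoc]
    let C : Subgroup G := Subgroup.centralizer ({u} : Set G)
    have hPC : ∀ Q : Sylow p G, u ∈ (Q : Subgroup G) → (Q : Subgroup G) ≤ C := by
      intro Q hQ x hx
      rw [Subgroup.mem_centralizer_singleton_iff]
      exact comm_of_degLt hG Q x u hx hQ
    by_cases hCtop : C = ⊤
    · -- the element is central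
      let Q : Subgroup G := Subgroup.zpowers u
      have hcen : ∀ y : G, y * u = u * y := by
        intro y
        have : y ∈ C := by rw [hCtop]; exact Subgroup.mem_top y
        exact Subgroup.mem_centralizer_singleton_iff.1 this
      haveI hQn : Q.Normal := by
        refine ⟨?_⟩
        rintro _ ⟨z, rfl⟩ y
        refine ⟨z, ?_⟩
        have h1 : Commute y (u ^ z) := ((Commute.zpow_right (show Commute y u from hcen y) z))
        simp only [h1.eq, mul_inv_cancel_right]
      have hQp : IsPGroup p Q := by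
        obtain ⟨k, hk⟩ := P.isPGroup' ⟨u, hu⟩
        have hk' : u ^ p ^ k = 1 := by
          have := congrArg Subtype.val hk
          simpa using this
        rintro ⟨y, z, rfl⟩
        refine ⟨k, ?_⟩
        apply Subtype.ext
        change (u ^ z) ^ p ^ k = 1
        rw [← zpow_natCast, ← zpow_mul, mul_comm, zpow_mul, zpow_natCast, hk', one_zpow]
      have hlt : Nat.card (G ⧸ Q) < n := by
        rw [← hn, Subgroup.card_eq_card_quotient_mul_card_subgroup Q]
        have h1 : 1 < Nat.card Q := by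
          rw [Nat.card_zpowers]
          have h3 := orderOf_pos u
          have h4 : orderOf u ≠ 1 := fun h => hu1 (orderOf_eq_one_iff.1 h)
          omega
        have h2 : 0 < Nat.card (G ⧸ Q) := Nat.card_pos
        nlinarith
      obtain ⟨S, hSn, hSp, hSi⟩ := ih _ hlt (G ⧸ Q) rfl (degLt_quotient Q hG)
      let T : Subgroup G := S.comap (QuotientGroup.mk' Q)
      have hTp : IsPGroup p T := by
        refine hSp.comap_of_ker_isPGroup (QuotientGroup.mk' Q) ?_
        rw [QuotientGroup.ker_mk']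
        exact hQp
      have hPT : (P : Subgroup G) ≤ T := by
        intro y hy
        obtain ⟨k, hk⟩ := P.isPGroup' ⟨y, hy⟩
        have hk' : y ^ p ^ k = 1 := by
          have := congrArg Subtype.val hk
          simpa using this
        change (y : G ⧸ Q) ∈ S
        refine mem_of_not_dvd_index hp.out S hSi _ k ?_
        rw [← QuotientGroup.mk_pow, hk', QuotientGroup.mk_one]
      have hTP := P.is_maximal' hTp hPT
      apply hnn
      rw [← hTP]
      exact Subgroup.Normal.comap hSn _
    · -- the centralizer is proper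
      have hlt : Nat.card C < n := by
        rw [← hn]
        exact lt_of_le_of_ne (Subgroup.card_le_card_group C)
          (fun h => hCtop (Subgroup.eq_top_of_card_eq _ h))
      obtain ⟨S, hSn, hSp, hSi⟩ := ih _ hlt C rfl (degLt_subgroup C hG)
      let T : Subgroup G := S.map C.subtype
      have hTp : IsPGroup p T := hSp.map _
      have hQT : ∀ Q : Sylow p G, u ∈ (Q : Subgroup G) → T = Q := by
        intro Q hQ
        refine Q.is_maximal' hTp ?_
        intro y hy
        obtain ⟨k, hk⟩ := Q.isPGroup' ⟨y, hy⟩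
        have hk' : y ^ p ^ k = 1 := by
          have := congrArg Subtype.val hk
          simpa using this
        have hyC : y ∈ C := hPC Q hQ hy
        refine ⟨⟨y, hyC⟩, ?_, rfl⟩
        refine mem_of_not_dvd_index hp.out S hSi _ k ?_
        apply Subtype.ext
        simpa using hk'
      have h1 : (P' : Subgroup G) = P := (hQT P' hu').symm.trans (hQT P hu)
      have h2 : P' = P := Sylow.ext h1
      exact hg (Sylow.smul_eq_iff_mem_normalizer.1 h2)
  -- the counting argument
  have hPcard : p ≤ Nat.card ↥(P : Subgroup G) := by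
    obtain ⟨a, ha⟩ := IsPGroup.iff_card.1 P.isPGroup'
    rw [ha]
    have ha0 : a ≠ 0 := by
      rintro rfl
      apply hnn
      rw [pow_zero] at ha
      rw [Subgroup.eq_bot_of_card_eq _ ha]
      infer_instance
    exact Nat.le_self_pow ha0 p
  set N : Subgroup G := Subgroup.normalizer ((P : Subgroup G) : Set G) with hN
  letI : Fintype ↥N := Fintype.ofFinite _
  letI : Fintype (IrrCharacter G) := Fintype.ofFinite _
  have hk : ∀ β : IrrCharacter G, (Nat.card ↥N : ℂ)⁻¹ * ∑ x : ↥N, (β : G → ℂ) (x : G)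
      = (Nat.card G : ℂ)⁻¹ * ∑ g : G, (β : G → ℂ) g := by
    rintro ⟨β, hβ⟩
    have hb := hG ⟨β, hβ⟩
    obtain ⟨m, σ, hσirr, rfl⟩ := hβ
    have h1 : charDegree σ.character = m := by
      apply Cfsg.Agent.Lib.Char.Values.IsCharacter.charDegree_eq ⟨m, σ, rfl⟩
      simp [Representation.character]
    change charDegree σ.character < p at hb
    rw [h1] at hb
    exact avg_character_eq_of_TI P hTI σ (lt_of_lt_of_le hb hPcard) N le_rfl
  have hsum : (Nat.card ↥N : ℂ)⁻¹ * (Nat.card G : ℂ) = (Nat.card G : ℂ)⁻¹ * (Nat.card G : ℂ) := by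
    have h1 : ∑ β : IrrCharacter G, ((Nat.card ↥N : ℂ)⁻¹ * ∑ x : ↥N, (β : G → ℂ) (x : G))
          * conj ((β : G → ℂ) 1)
        = (Nat.card ↥N : ℂ)⁻¹ * (Nat.card G : ℂ) := by
      simp only [mul_assoc, Finset.sum_mul]
      rw [← Finset.mul_sum, Finset.sum_comm]
      congr 1
      rw [Finset.sum_eq_single (1 : ↥N)]
      · exact sum_irr_one
      · intro x _ hx
        exact sum_irr_ne (fun h => hx (Subtype.ext h))
      · simp
    have h2 : ∑ β : IrrCharacter G, ((Nat.card G : ℂ)⁻¹ * ∑ g : G, (β : G → ℂ) g)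
          * conj ((β : G → ℂ) 1)
        = (Nat.card G : ℂ)⁻¹ * (Nat.card G : ℂ) := by
      simp only [mul_assoc, Finset.sum_mul]
      rw [← Finset.mul_sum, Finset.sum_comm]
      congr 1
      rw [Finset.sum_eq_single (1 : G)]
      · exact sum_irr_one
      · intro x _ hx
        exact sum_irr_ne hx
      · simp
    rw [← h1, ← h2]
    exact Finset.sum_congr rfl (fun β _ => by rw [hk β])
  have hcardG : (Nat.card G : ℂ) ≠ 0 := by exact_mod_cast Nat.card_pos.ne'
  have hcardN : (Nat.card ↥N : ℂ) ≠ 0 := by exact_mod_cast Nat.card_pos.ne'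
  have hEq : Nat.card ↥N = Nat.card G := by
    rw [inv_mul_cancel₀ hcardG] at hsum
    field_simp at hsum
    exact_mod_cast hsum.symm
  have hNtop : N = ⊤ := Subgroup.eq_top_of_card_eq _ hEq
  apply hnn
  exact Subgroup.normalizer_eq_top_iff.1 hNtop

/-- Let p be a prime and G a finite group all of whose irreducible character degrees are less than p. Then G has a normal abelian Sylow p-subgroup. -/
theorem result {G : Type*} [Group G] [Finite G] (p : ℕ) (hp : p.Prime) (hb : ∀ χ : Cfsg.IrrCharacter G, Cfsg.charDegree (χ : G → ℂ) < p) : ∃ P : Subgroup G, P.Normal ∧ (∀ x ∈ P, ∀ y ∈ P, x * y = y * x) ∧ IsPGroup p P ∧ ¬ p ∣ P.index := by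
  haveI : Fact p.Prime := ⟨hp⟩
  obtain ⟨P, hP1, hP2, hP3⟩ := core (p := p) (Nat.card G) G rfl hb
  refine ⟨P, hP1, ?_, hP2, hP3⟩
  intro x hx y hy
  exact comm_of_degLt hb (hP2.toSylow hP3) x y (by simpa using hx) (by simpa using hy)

end Cfsg.Agent.S4464
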