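import Cfsg.Statements.S4479
import Mathlib
import Cfsg.Agent.Lib.Char.Klein4Formula

set_option autoImplicit false
open Cfsg

namespace Cfsg.Agent.S4479

/-- An order formula from the principal 2-block. Let G be a finite group of order 4·g₀ with g₀ odd having no normal 2-complement (no normal subgroup of order g₀); let P be a Sylow 2-subgroup, J an involution of P, and fix a maximal ideal M of the algebraic integers containing 2. Suppose the principal 2-block consists of the principal character and three further distinct characters χ₁, χ₂, χ₃ of degrees x₁, x₂, x₃, with χ_i(J) = ε_i = ±1. Then, writing c(J) and c(P) for the orders of the centralizers of J and of P, the order of G equals 8·α·c(J)³/c(P)² with α = x₁x₂x₃ / ((x₁ + ε₁)(x₂ + ε₂)(x₃ + ε₃)). -/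
theorem result {G : Type*} [Group G] [Finite G] (M : Ideal Cfsg.AlgInt) (hM : Cfsg.IsPModular 2 M) (g₀ : ℕ) (hg₀ : Odd g₀) (hG : Nat.card G = 4 * g₀) (hnc : ¬ ∃ N : Subgroup G, N.Normal ∧ Nat.card N = g₀) (P : Sylow 2 G) (J : G) (hJ : J ∈ (P : Subgroup G)) (hJ2 : orderOf J = 2) (χ₁ χ₂ χ₃ : Cfsg.IrrCharacter G) (ε₁ ε₂ ε₃ : ℤ) (hB : Cfsg.principalBlock M G = {χ : Cfsg.IrrCharacter G | (χ : G → ℂ) = (fun _ => 1) ∨ χ = χ₁ ∨ χ = χ₂ ∨ χ = χ₃}) (hdist : (χ₁ : G → ℂ) ≠ (fun _ => 1) ∧ (χ₂ : G → ℂ) ≠ (fun _ => 1) ∧ (χ₃ : G → ℂ) ≠ (fun _ => 1) ∧ χ₁ ≠ χ₂ ∧ χ₁ ≠ χ₃ ∧ χ₂ ≠ χ₃) (hε : (ε₁ = 1 ∨ ε₁ = -1) ∧ (ε₂ = 1 ∨ ε₂ = -1) ∧ (ε₃ = 1 ∨ ε₃ = -1)) (hval : (χ₁ : G → ℂ) J = ε₁ ∧ (χ₂ : G → ℂ) J = ε₂ ∧ (χ₃ : G → ℂ) J = ε₃) : (Nat.card G : ℚ) = 8 * (((Cfsg.charDegree (χ₁ : G → ℂ) : ℚ) * Cfsg.charDegree (χ₂ : G → ℂ) * Cfsg.charDegree (χ₃ : G → ℂ)) / ((Cfsg.charDegree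 (χ₁ : G → ℂ) + ε₁) * (Cfsg.charDegree (χ₂ : G → ℂ) + ε₂) * (Cfsg.charDegree (χ₃ : G → ℂ) + ε₃))) * (Nat.card (Subgroup.centralizer ({J} : Set G)) : ℚ) ^ 3 / (Nat.card (Subgroup.centralizer ((P : Subgroup G) : Set G)) : ℚ) ^ 2 := by
  classical
  cases nonempty_fintype G
  have hk := Cfsg.Agent.Lib.Char.Klein4.KF.of_no_complement P hg₀ hG hnc
  obtain ⟨h1, h2⟩ := Cfsg.Agent.Lib.Char.Klein4.formula_core hk hM P hJ2 hB hdist hval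
  obtain ⟨hv1, hv2, hv3⟩ := hval
  obtain ⟨he1, he2, he3⟩ := hε
  haveI hMp : M.IsPrime := Cfsg.Agent.Lib.Blocks.Local.isPrime_of_isPModular hM
  have hmem : ∀ χ, χ = χ₁ ∨ χ = χ₂ ∨ χ = χ₃ → χ ∈ Cfsg.principalBlock M G := by
    intro χ hχ
    rw [hB]
    exact Or.inr hχ
  have hne : ∀ (χ : Cfsg.IrrCharacter G) (ε : ℤ), χ ∈ Cfsg.principalBlock M G → (χ : G → ℂ) J = ε →
      (ε = 1 ∨ ε = -1) → ((Cfsg.charDegree (χ : G → ℂ) : ℚ) + ε) ≠ 0 := by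
    intro χ ε hχ hv hε h0
    have hd := Cfsg.Agent.Lib.Char.Klein4.deg_mod_four hk hM hJ2 hχ hv
    have hpos := Cfsg.Agent.Lib.Char.Codegree.charDegree_pos χ.2
    have h3 : (Cfsg.charDegree (χ : G → ℂ) : ℤ) + ε = 0 := by exact_mod_cast h0
    rcases hε with rfl | rfl
    · omega
    · omega
  have hn1 := hne χ₁ ε₁ (hmem _ (by simp)) hv1 he1
  have hn2 := hne χ₂ ε₂ (hmem _ (by simp)) hv2 he2
  have hn3 := hne χ₃ ε₃ (hmem _ (by simp)) hv3 he3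
  set x₁ := Cfsg.charDegree (χ₁ : G → ℂ) with hx₁
  set x₂ := Cfsg.charDegree (χ₂ : G → ℂ) with hx₂
  set x₃ := Cfsg.charDegree (χ₃ : G → ℂ) with hx₃
  have e1 : ε₁ ^ 2 = 1 := by rcases he1 with rfl | rfl <;> norm_num
  have e2 : ε₂ ^ 2 = 1 := by rcases he2 with rfl | rfl <;> norm_num
  have e3 : ε₃ ^ 2 = 1 := by rcases he3 with rfl | rfl <;> norm_num
  have hA : ((x₁ : ℤ) + ε₁) * ((x₂ : ℤ) + ε₂) * ((x₃ : ℤ) + ε₃) =
      (x₁ : ℤ) * x₂ * x₃ + ε₁ * x₂ * x₃ + ε₂ * x₁ * x₃ + ε₃ * x₁ * x₂ := by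
    linear_combination (ε₁ * ε₂ * ε₃) * h1 - ε₂ * ε₃ * x₁ * e1 - ε₁ * ε₃ * x₂ * e2 - ε₁ * ε₂ * x₃ * e3
  rw [← hA] at h2
  set idx := (Subgroup.centralizer ({J} : Set G)).index with hidx
  set c := Nat.card (Subgroup.centralizer ({J} : Set G)) with hc
  set cP := Nat.card (Subgroup.centralizer ((P : Subgroup G) : Set G)) with hcP
  have hcard : Nat.card G = c * idx := (Subgroup.card_mul_index _).symm
  have hmain : (idx : ℚ) * (((x₁ : ℚ) + ε₁) * ((x₂ : ℚ) + ε₂) * ((x₃ : ℚ) + ε₃)) * (cP : ℚ) ^ 2 =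
      8 * (c : ℚ) ^ 2 * ((x₁ : ℚ) * x₂ * x₃) := by
    exact_mod_cast h2
  have hcPne : (cP : ℚ) ≠ 0 := Nat.cast_ne_zero.mpr Nat.card_pos.ne'
  have hcq : (Nat.card G : ℚ) = c * idx := by exact_mod_cast hcard
  rw [hcq]
  field_simp
  linear_combination (c : ℚ) * hmain

end Cfsg.Agent.S4479
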