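import Cfsg.Statements.S4497
import Mathlib
import Cfsg.Agent.S0995
import Cfsg.Agent.S4496
import Cfsg.Agent.S4088
import Cfsg.Agent.Lib.Basic.PCore
import Cfsg.Agent.Lib.Solvable.PSeries

set_option autoImplicit false
open Cfsg

namespace Cfsg.Agent.S4497

open Subgroup Cfsg.Agent.S0995
open scoped commutatorElement

variable {G : Type*} [Group G] [Finite G]

theorem count_core (p : ℕ) [Fact p.Prime] (z : G) (hz : orderOf z = p)
    (hC : Subgroup.centralizer ({z} : Set G) = Subgroup.zpowers z) :
    ∃ (S0 : Sylow p G) (e : ℕ), (S0 : Subgroup G) = zpowers z ∧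
      Nat.card ↥(normalizer ((S0 : Subgroup G) : Set G)) = p * e ∧
      Nat.card {c : ConjClasses G // ∃ g : G, ConjClasses.mk g = c ∧ orderOf g = p} * e = p - 1 := by
  classical
  have hpp : p.Prime := Fact.out
  set Z := zpowers z with hZ
  have hZc : Nat.card Z = p := by rw [hZ, Nat.card_zpowers, hz]
  have hz1 : z ≠ 1 := by
    intro h; rw [h, orderOf_one] at hz; exact hpp.one_lt.ne hz
  have hCh : ∀ h ∈ Z, h ≠ 1 → centralizer ({h} : Set G) = Z := by
    intro h hh h1
    have e : zpowers h = Z := zpowers_eq_of_mem hz hh h1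
    rw [← hC]
    apply le_antisymm
    · intro c hc
      rw [mem_centralizer_singleton_iff] at hc ⊢
      have hzm : z ∈ zpowers h := by rw [e]; exact mem_zpowers z
      obtain ⟨k, rfl⟩ := mem_zpowers_iff.mp hzm
      exact ((show Commute c h from hc).zpow_right k)
    · intro c hc
      rw [mem_centralizer_singleton_iff] at hc ⊢
      obtain ⟨k, rfl⟩ := mem_zpowers_iff.mp hh
      exact ((show Commute c z from hc).zpow_right k)
  -- Z is Sylow
  have hZp : IsPGroup p Z := IsPGroup.of_card (n := 1) (by rw [hZc, pow_one])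
  obtain ⟨S0, hS0⟩ := hZp.exists_le_sylow
  have hS0Z : (S0 : Subgroup G) = Z := by
    apply le_antisymm _ hS0
    have hzS : z ∈ (S0 : Subgroup G) := hS0 (mem_zpowers z)
    haveI : Nontrivial ↥(S0 : Subgroup G) := ⟨⟨⟨z, hzS⟩, 1, fun h => hz1 (congrArg Subtype.val h)⟩⟩
    haveI := S0.isPGroup'.center_nontrivial
    obtain ⟨c, hc1⟩ := exists_ne (1 : Subgroup.center ↥(S0 : Subgroup G))
    set c0 : G := ((c : ↥(S0 : Subgroup G)) : G) with hc0
    have hc01 : c0 ≠ 1 := by
      intro h
      apply hc1
      apply Subtype.ext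
      apply Subtype.ext
      exact h
    have hcomm : ∀ s ∈ (S0 : Subgroup G), s * c0 = c0 * s := by
      intro s hs
      have := (Subgroup.mem_center_iff.mp c.2) ⟨s, hs⟩
      exact congrArg Subtype.val this
    have hc0Z : c0 ∈ Z := by
      rw [← hC, mem_centralizer_singleton_iff]
      exact (hcomm z hzS).symm
    intro s hs
    rw [← hCh c0 hc0Z hc01, mem_centralizer_singleton_iff]
    exact hcomm s hs
  have hcardS : ∀ T : Sylow p G, Nat.card ↥(T : Subgroup G) = p := by
    intro T
    rw [Sylow.card_eq_multiplicity, ← Sylow.card_eq_multiplicity S0, hS0Z, hZc]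
  -- centralizers of elements of order p
  have hCg : ∀ g : G, orderOf g = p → Nat.card ↥(centralizer ({g} : Set G)) = p := by
    intro g hg
    have hgp : IsPGroup p (zpowers g) := IsPGroup.of_card (n := 1) (by rw [Nat.card_zpowers, hg, pow_one])
    obtain ⟨T, hT⟩ := hgp.exists_le_sylow
    obtain ⟨x, hx⟩ := MulAction.exists_smul_eq G S0 T
    have hgT : g ∈ ((x • S0 : Sylow p G) : Subgroup G) := by rw [hx]; exact hT (mem_zpowers g)
    rw [Cfsg.Agent.Lib.Perm.SylowConj.mem_smul_iff, hS0Z] at hgT
    have hne : x⁻¹ * g * x ≠ 1 := by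
      intro h
      have : g = 1 := by
        have e : g = x * (x⁻¹ * g * x) * x⁻¹ := by group
        rw [e, h]; group
      rw [this, orderOf_one] at hg
      exact hpp.one_lt.ne hg
    rw [← card_centralizer_conj g x, hCh _ hgT hne, hZc]
  -- the element sets
  let X := {g : G // orderOf g = p}
  let Tt := {c : ConjClasses G // ∃ g : G, ConjClasses.mk g = c ∧ orderOf g = p}
  have hdvd : p ∣ Nat.card G := by rw [← hz]; exact orderOf_dvd_natCard z
  obtain ⟨m, hm⟩ := hdvd
  -- count by classes
  have hXT : Nat.card X = Nat.card Tt * m := by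
    apply Cfsg.Agent.S4088.card_eq_mul_of_fibers
      (fun x : X => (⟨ConjClasses.mk x.1, x.1, rfl, x.2⟩ : Tt))
    rintro ⟨c, g0, rfl, hg0⟩
    have h1 := card_conj_mul g0
    rw [hCg g0 hg0, hm, mul_comm] at h1
    have h2 : m = Nat.card {x : G // IsConj g0 x} := Nat.eq_of_mul_eq_mul_right hpp.pos h1
    rw [h2]
    apply Nat.card_congr
    refine ⟨fun x => ⟨x.1.1, ?_⟩, fun y => ⟨⟨y.1, ?_⟩, ?_⟩, ?_, ?_⟩
    · have : ConjClasses.mk x.1.1 = ConjClasses.mk g0 := congrArg Subtype.val x.2
      exact ConjClasses.mk_eq_mk_iff_isConj.mp this.symm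
    · obtain ⟨c, hc⟩ := isConj_iff.mp y.2
      rw [← hg0, ← hc]
      exact (MulAut.conj c).orderOf_eq g0
    · apply Subtype.ext
      exact (ConjClasses.mk_eq_mk_iff_isConj.mpr y.2).symm
    · intro x; rfl
    · intro y; rfl
  -- count by Sylow subgroups
  have hmemS : ∀ (T : Sylow p G) (g : G), orderOf g = p → g ∈ (T : Subgroup G) → zpowers g = T := by
    intro T g hg hgT
    apply Subgroup.eq_of_le_of_card_ge (zpowers_le.mpr hgT)
    rw [hcardS, Nat.card_zpowers, hg]
  have hex : ∀ g : X, ∃ T : Sylow p G, g.1 ∈ (T : Subgroup G) := by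
    intro g
    have hgp : IsPGroup p (zpowers g.1) := IsPGroup.of_card (n := 1) (by rw [Nat.card_zpowers, g.2, pow_one])
    obtain ⟨T, hT⟩ := hgp.exists_le_sylow
    exact ⟨T, hT (mem_zpowers _)⟩
  choose F hF using hex
  have hXS : Nat.card X = Nat.card (Sylow p G) * (p - 1) := by
    apply Cfsg.Agent.S4088.card_eq_mul_of_fibers F
    intro T
    have e1 : Nat.card {x : X // F x = T} = Nat.card {h : ↥(T : Subgroup G) // h ≠ 1} := by
      apply Nat.card_congr
      refine ⟨fun x => ⟨⟨x.1.1, by have h5 := hF x.1; rw [x.2] at h5; exact h5⟩, ?_⟩, fun y => ⟨⟨y.1.1, ?_⟩, ?_⟩, ?_, ?_⟩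
      · intro h
        have h0 : x.1.1 = 1 := congrArg Subtype.val h
        have := x.1.2
        rw [h0, orderOf_one] at this
        exact hpp.one_lt.ne this
      · have hd : orderOf y.1.1 ∣ p := by
          have := Subgroup.orderOf_dvd_natCard _ y.1.2
          rwa [hcardS T] at this
        rcases (Nat.dvd_prime hpp).mp hd with h2 | h2
        · exact absurd (Subtype.ext (orderOf_eq_one_iff.mp h2)) y.2
        · exact h2
      · have hd : orderOf y.1.1 ∣ p := by
          have := Subgroup.orderOf_dvd_natCard _ y.1.2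
          rwa [hcardS T] at this
        have ho : orderOf y.1.1 = p := by
          rcases (Nat.dvd_prime hpp).mp hd with h2 | h2
          · exact absurd (Subtype.ext (orderOf_eq_one_iff.mp h2)) y.2
          · exact h2
        have h3 := hmemS T y.1.1 ho y.1.2
        have h4 := hmemS (F ⟨y.1.1, ho⟩) y.1.1 ho (hF ⟨y.1.1, ho⟩)
        exact Sylow.ext (h4.symm.trans h3)
      · intro x; rfl
      · intro y; rfl
    rw [e1]
    have e2 : Nat.card {h : ↥(T : Subgroup G) // h ≠ 1} = Nat.card ↥(T : Subgroup G) - 1 := by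
      haveI : Fintype ↥(T : Subgroup G) := Fintype.ofFinite _
      rw [Nat.card_eq_fintype_card, Nat.card_eq_fintype_card]
      simp [Fintype.card_subtype_compl]
    rw [e2, hcardS]
  -- arithmetic
  set s := Nat.card (Sylow p G) with hs
  have hspos : 0 < s := Nat.card_pos
  have hmod : s % p = 1 := by
    have := card_sylow_modEq_one p G
    have h1 : s % p = 1 % p := this
    rw [h1, Nat.mod_eq_of_lt hpp.one_lt]
  have hs1 : s = 1 + (s / p) * p := by
    have := Nat.div_add_mod s p
    rw [hmod] at this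
    rw [mul_comm] at this
    omega
  have hNZ : Z ≤ normalizer ((S0 : Subgroup G) : Set G) := by
    rw [← hS0Z]; exact le_normalizer
  have hcardN : Nat.card ↥(normalizer ((S0 : Subgroup G) : Set G)) * s = Nat.card G := by
    have e0 := Sylow.card_eq_index_normalizer S0
    rw [hs, e0]
    exact Subgroup.card_mul_index _
  obtain ⟨e, he⟩ : p ∣ Nat.card ↥(normalizer ((S0 : Subgroup G) : Set G)) := by
    have := Subgroup.card_dvd_of_le hNZ
    rwa [hZc] at this
  have hms : m = e * s := by
    rw [he, hm, mul_assoc] at hcardN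
    exact (Nat.eq_of_mul_eq_mul_left hpp.pos hcardN).symm
  have htm : Nat.card Tt * m = s * (p - 1) := hXT.symm.trans hXS
  have hte : Nat.card Tt * e = p - 1 := by
    rw [hms] at htm
    have : s * (Nat.card Tt * e) = s * (p - 1) := by rw [← htm]; ring
    exact Nat.eq_of_mul_eq_mul_left hspos this
  exact ⟨S0, e, by rw [hS0Z], he, hte⟩

/-- Let the finite group G contain an element x of prime order p with C_G(x) = ⟨x⟩, let t be the number of conjugacy classes of elements of order p, and let S* = O_{p′}(G) be the largest normal subgroup of order prime to p. Then S* ≤ G′; if t ≠ p − 1 the quotient G′/S* is simple (in particular non-trivial); if t = p − 1 then G′ = S*. -/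
theorem result {G : Type*} [Group G] [Finite G] (p : ℕ) (hp : p.Prime) (x : G) (hx : orderOf x = p) (hC : Subgroup.centralizer ({x} : Set G) = Subgroup.zpowers x) (t : ℕ) (ht : Nat.card {C : ConjClasses G // ∃ g ∈ C.carrier, orderOf g = p} = t) : Cfsg.pPrimeCore p G ≤ commutator G ∧ (t ≠ p - 1 → ∀ h : ((Cfsg.pPrimeCore p G).subgroupOf (commutator G)).Normal, IsSimpleGroup (↥(commutator G) ⧸ (Cfsg.pPrimeCore p G).subgroupOf (commutator G))) ∧ (t = p - 1 → commutator G = Cfsg.pPrimeCore p G) := by
  classical
  haveI : Fact p.Prime := ⟨hp⟩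
  obtain ⟨S0, e, hS0, hNe, hte⟩ := count_core p x hx hC
  have hbridge : Nat.card {C : ConjClasses G // ∃ g ∈ C.carrier, orderOf g = p} =
      Nat.card {c : ConjClasses G // ∃ g : G, ConjClasses.mk g = c ∧ orderOf g = p} := by
    apply Nat.card_congr
    apply Equiv.subtypeEquivRight
    intro c
    simp only [ConjClasses.mem_carrier_iff_mk_eq]
  rw [hbridge] at ht
  rw [ht] at hte
  set Sc := Cfsg.pPrimeCore p G with hSc
  haveI hScn : Sc.Normal := Cfsg.Agent.Lib.Basic.PCore.pPrimeCore_normal p G
  have hSccop : (Nat.card Sc).Coprime p := Cfsg.Agent.Lib.Solvable.PSeries.pPrimeCore_coprime p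
  have hx1 : x ≠ 1 := by
    intro h; rw [h, orderOf_one] at hx; exact hp.one_lt.ne hx
  -- elements of the core in ⟨x⟩ are trivial
  have hinf : ∀ y ∈ Sc, y ∈ zpowers x → y = 1 := by
    intro y hy hyx
    have h1 : orderOf y ∣ Nat.card Sc := Subgroup.orderOf_dvd_natCard Sc hy
    have h2 : orderOf y ∣ p := by rw [← hx]; exact orderOf_dvd_of_mem_zpowers hyx
    exact orderOf_eq_one_iff.mp (Nat.Coprime.eq_one_of_dvd (hSccop.coprime_dvd_left h1) h2)
  have hxS : x ∉ Sc := fun h => hx1 (hinf x h (mem_zpowers x))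
  -- part one
  have hpart1 : Sc ≤ commutator G := by
    let φ : Sc → Sc := fun u => ⟨(u : G)⁻¹ * (x * u * x⁻¹), Sc.mul_mem (Sc.inv_mem u.2) (hScn.conj_mem _ u.2 x)⟩
    have hinj : Function.Injective φ := by
      intro u v huv
      have h1 : (u : G)⁻¹ * (x * u * x⁻¹) = (v : G)⁻¹ * (x * v * x⁻¹) := congrArg Subtype.val huv
      have h2 : (v : G) * (u : G)⁻¹ ∈ Subgroup.centralizer ({x} : Set G) := by
        rw [mem_centralizer_singleton_iff]
        have h3 : (u : G)⁻¹ * (x * u) = (v : G)⁻¹ * (x * v) := by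
          have := congrArg (fun w => w * x) h1
          simpa [mul_assoc] using this
        have h4 : x * u = u * ((v : G)⁻¹ * (x * v)) := by rw [← h3]; group
        calc (v : G) * (u : G)⁻¹ * x = (v : G) * ((u : G)⁻¹ * x * u) * (u : G)⁻¹ := by group
          _ = (v : G) * ((u : G)⁻¹ * (x * u)) * (u : G)⁻¹ := by group
          _ = (v : G) * ((v : G)⁻¹ * (x * v)) * (u : G)⁻¹ := by rw [h3]
          _ = x * ((v : G) * (u : G)⁻¹) := by group
      rw [hC] at h2
      have h3 := hinf _ (Sc.mul_mem v.2 (Sc.inv_mem u.2)) h2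
      exact (Subtype.ext (mul_inv_eq_one.mp h3)).symm
    have hsurj : Function.Surjective φ := Finite.injective_iff_surjective.mp hinj
    intro s hs
    obtain ⟨u, hu⟩ := hsurj ⟨s, hs⟩
    have h1 : (u : G)⁻¹ * (x * u * x⁻¹) = s := congrArg Subtype.val hu
    rw [← h1]
    have e1 : (u : G)⁻¹ * (x * u * x⁻¹) = ⁅(u : G)⁻¹, x⁆ := by
      rw [commutatorElement_def]; group
    rw [e1, _root_.commutator_def]
    exact Subgroup.commutator_mem_commutator (Subgroup.mem_top _) (Subgroup.mem_top _)
  have hpos : 0 < p - 1 := by have := hp.two_le; omega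
  refine ⟨hpart1, ?_, ?_⟩
  · -- t ≠ p - 1
    intro htne h
    have he1 : e ≠ 1 := by
      rintro rfl
      rw [mul_one] at hte
      exact htne hte
    have hZx : x ∈ (S0 : Subgroup G) := by rw [hS0]; exact mem_zpowers x
    have hlt : (S0 : Subgroup G) < normalizer ((S0 : Subgroup G) : Set G) := by
      refine lt_of_le_of_ne le_normalizer ?_
      intro h0
      apply he1
      rw [← h0, hS0, Nat.card_zpowers, hx] at hNe
      have : p * 1 = p * e := by rw [mul_one]; exact hNe
      exact (Nat.eq_of_mul_eq_mul_left hp.pos this).symm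
    obtain ⟨n, hnN, hnZ⟩ := SetLike.exists_of_lt hlt
    have hnx : n * x * n⁻¹ ∈ zpowers x := by
      rw [← hS0]
      exact (mem_normalizer_iff.mp hnN x).mp hZx
    have hne : n * x * n⁻¹ ≠ x := by
      intro h0
      apply hnZ
      rw [hS0, ← hC, mem_centralizer_singleton_iff]
      calc n * x = n * x * n⁻¹ * n := by group
        _ = x * n := by rw [h0]
    set w := n * x * n⁻¹ * x⁻¹ with hw
    have hwZ : w ∈ zpowers x := Subgroup.mul_mem _ hnx (Subgroup.inv_mem _ (mem_zpowers x))
    have hw1 : w ≠ 1 := by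
      intro h0
      exact hne (mul_inv_eq_one.mp h0)
    have hwA : w ∈ commutator G := by
      have e1 : w = ⁅n, x⁆ := by rw [hw, commutatorElement_def]
      rw [e1, _root_.commutator_def]
      exact Subgroup.commutator_mem_commutator (Subgroup.mem_top _) (Subgroup.mem_top _)
    have hxA : x ∈ commutator G := by
      have e2 : zpowers w = zpowers x := zpowers_eq_of_mem hx hwZ hw1
      have h1 : x ∈ zpowers w := by rw [e2]; exact mem_zpowers x
      exact (zpowers_le.mpr hwA) h1
    set A := commutator G with hAdef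
    let x' : A := ⟨x, hxA⟩
    have hx' : orderOf x' = p := by rw [Subgroup.orderOf_mk]; exact hx
    have hC' : Subgroup.centralizer ({x'} : Set A) = zpowers x' := by
      apply le_antisymm
      · intro c hc
        rw [mem_centralizer_singleton_iff] at hc
        have h1 : (c : G) ∈ Subgroup.centralizer ({x} : Set G) := by
          rw [mem_centralizer_singleton_iff]
          exact congrArg Subtype.val hc
        rw [hC] at h1
        obtain ⟨k, hk⟩ := mem_zpowers_iff.mp h1
        apply mem_zpowers_iff.mpr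
        refine ⟨k, ?_⟩
        apply Subtype.ext
        show (x' ^ k : A).1 = c
        rw [Subgroup.coe_zpow]
        exact hk
      · rw [zpowers_le, mem_centralizer_singleton_iff]
    have hSp : ¬ p ∣ Nat.card Sc := by
      intro h1
      have := Nat.dvd_gcd h1 (dvd_refl p)
      rw [hSccop] at this
      exact hp.one_lt.ne' (Nat.dvd_one.mp this)
    set S1 := Sc.subgroupOf A with hS1
    have hx'S : x' ∉ S1 := fun h1 => hxS (mem_subgroupOf.mp h1)
    by_cases hperf : commutator A = ⊤
    · -- perfect case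
      haveI : Nontrivial (A ⧸ S1) := by
        refine ⟨⟨(x' : A ⧸ S1), 1, ?_⟩⟩
        intro h1
        exact hx'S ((QuotientGroup.eq_one_iff _).mp h1)
      refine ⟨?_⟩
      intro X hX
      set Kt := X.comap (QuotientGroup.mk' S1) with hKt
      haveI hKtn : Kt.Normal := hX.comap _
      by_cases hd : p ∣ Nat.card Kt
      · right
        have h1 := (Cfsg.Agent.S4496.result p hp x' hx' hC' Kt).1 hd
        rw [hperf] at h1
        rw [eq_top_iff]
        intro y _
        obtain ⟨a, rfl⟩ := QuotientGroup.mk_surjective y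
        exact h1 (Subgroup.mem_top a)
      · left
        have hKtO : Kt ≤ Cfsg.pPrimeCore p A := Cfsg.Agent.Lib.Basic.PCore.le_pPrimeCore hKtn
          (((Nat.Prime.coprime_iff_not_dvd hp).mpr hd).symm)
        set O := Cfsg.pPrimeCore p A with hO
        haveI hOn : O.Normal := Cfsg.Agent.Lib.Basic.PCore.pPrimeCore_normal p A
        have hOcop : (Nat.card O).Coprime p := Cfsg.Agent.Lib.Solvable.PSeries.pPrimeCore_coprime p
        have hOhat : (O.map A.subtype).Normal := by
          constructor
          rintro _ ⟨a, ha, rfl⟩ g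
          let φ : MulAut A := MulAut.conjNormal g
          have hJn : (O.map φ.toMonoidHom).Normal := hOn.map _ φ.surjective
          have hJc : (Nat.card ↥(O.map φ.toMonoidHom)).Coprime p := by
            have hinj : Function.Injective φ.toMonoidHom := φ.injective
            rw [Subgroup.card_map_of_injective hinj]
            exact hOcop
          have hJO : O.map φ.toMonoidHom ≤ O := Cfsg.Agent.Lib.Basic.PCore.le_pPrimeCore hJn hJc
          have h2 : φ a ∈ O := hJO ⟨a, ha, rfl⟩
          exact ⟨φ a, h2, rfl⟩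
        have hOhatc : (Nat.card ↥(O.map A.subtype)).Coprime p := by
          rw [Subgroup.card_map_of_injective A.subtype_injective]
          exact hOcop
        have hOS : O.map A.subtype ≤ Sc := Cfsg.Agent.Lib.Basic.PCore.le_pPrimeCore hOhat hOhatc
        rw [eq_bot_iff]
        intro y hy
        obtain ⟨a, rfl⟩ := QuotientGroup.mk_surjective y
        have h1 : a ∈ Kt := hy
        have h2 : (a : G) ∈ Sc := hOS ⟨a, hKtO h1, rfl⟩
        rw [Subgroup.mem_bot]
        exact (QuotientGroup.eq_one_iff _).mpr (mem_subgroupOf.mpr h2)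
    · -- nonperfect case
      have hDn : (⁅A, A⁆ : Subgroup G).Normal := inferInstance
      have hDp : ¬ p ∣ Nat.card ↥(⁅A, A⁆ : Subgroup G) := by
        intro hd
        apply hperf
        have h1 := (Cfsg.Agent.S4496.result p hp x hx hC (⁅A, A⁆ : Subgroup G)).1 hd
        rw [eq_top_iff]
        rintro a -
        have h2 : (a : G) ∈ (⁅A, A⁆ : Subgroup G) := h1 a.2
        rw [← Subgroup.map_subtype_commutator] at h2
        obtain ⟨b, hb, e2⟩ := h2
        have : b = a := Subtype.ext e2
        rwa [← this]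
      have hDS : (⁅A, A⁆ : Subgroup G) ≤ Sc := Cfsg.Agent.Lib.Basic.PCore.le_pPrimeCore hDn
        (((Nat.Prime.coprime_iff_not_dvd hp).mpr hDp).symm)
      obtain ⟨-, -, -, hbar⟩ := (Cfsg.Agent.S4496.result p hp x hx hC Sc).2 hSp
      have hgen : ∀ y : A ⧸ S1, y ∈ zpowers ((x' : A) : A ⧸ S1) := by
        intro y
        obtain ⟨a, rfl⟩ := QuotientGroup.mk_surjective y
        have h1 : ((a : G) : G ⧸ Sc) ∈ Subgroup.centralizer ({((x : G) : G ⧸ Sc)} : Set (G ⧸ Sc)) := by
          rw [mem_centralizer_singleton_iff, ← QuotientGroup.mk_mul, ← QuotientGroup.mk_mul, QuotientGroup.eq]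
          have h2 : ⁅(a : G), x⁆ ∈ (⁅A, A⁆ : Subgroup G) := Subgroup.commutator_mem_commutator a.2 hxA
          have h3 := hDS h2
          have h4 : ((a : G) * x)⁻¹ * (x * a) = (a : G)⁻¹ * (x⁻¹ * ⁅(a : G), x⁆⁻¹ * x) * a := by
            rw [commutatorElement_def]; group
          have h5 : x⁻¹ * ⁅(a : G), x⁆⁻¹ * x ∈ Sc := by
            have := hScn.conj_mem _ (Sc.inv_mem h3) x⁻¹
            simpa using this
          have h6 := hScn.conj_mem _ h5 (a : G)⁻¹
          rw [h4]
          simpa using h6
        rw [hbar] at h1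
        obtain ⟨k, hk⟩ := mem_zpowers_iff.mp h1
        apply mem_zpowers_iff.mpr
        refine ⟨k, ?_⟩
        rw [← QuotientGroup.mk_zpow] at hk ⊢
        rw [QuotientGroup.eq] at hk ⊢
        apply mem_subgroupOf.mpr
        simpa [x'] using hk
      have hxp : ((x' : A) : A ⧸ S1) ^ p = 1 := by
        rw [← QuotientGroup.mk_pow, ← hx', pow_orderOf_eq_one]
        rfl
      have hxne : ((x' : A) : A ⧸ S1) ≠ 1 := fun h1 => hx'S ((QuotientGroup.eq_one_iff _).mp h1)
      have hord : orderOf ((x' : A) : A ⧸ S1) = p := orderOf_eq_prime hxp hxne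
      have hcard : Nat.card (A ⧸ S1) = p := by
        rw [← hord]
        exact (orderOf_eq_card_of_forall_mem_zpowers hgen).symm
      exact isSimpleGroup_of_prime_card hcard
  · -- t = p - 1
    intro htp
    have he1 : e = 1 := by
      rw [htp] at hte
      have : (p - 1) * e = (p - 1) * 1 := by rw [hte, mul_one]
      exact Nat.eq_of_mul_eq_mul_left hpos this
    rw [he1, mul_one] at hNe
    have hN : normalizer ((S0 : Subgroup G) : Set G) = (S0 : Subgroup G) := by
      symm
      apply Subgroup.eq_of_le_of_card_ge le_normalizer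
      rw [hNe, hS0, Nat.card_zpowers, hx]
    have hcomm : ∀ a ∈ (S0 : Subgroup G), ∀ b ∈ (S0 : Subgroup G), a * b = b * a := by
      intro a ha b hb
      rw [hS0] at ha hb
      obtain ⟨i, rfl⟩ := mem_zpowers_iff.mp ha
      obtain ⟨j, rfl⟩ := mem_zpowers_iff.mp hb
      exact (Commute.refl x).zpow_zpow i j
    have hNC : normalizer ((S0 : Subgroup G) : Set G) ≤ Subgroup.centralizer ((S0 : Subgroup G) : Set G) := by
      rw [hN]
      intro a ha
      rw [Subgroup.mem_centralizer_iff]
      intro b hb
      exact hcomm b hb a ha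
    set K := (MonoidHom.transferSylow S0 hNC).ker with hK
    haveI hKn : K.Normal := MonoidHom.normal_ker _
    have hKp : ¬ p ∣ Nat.card K := MonoidHom.not_dvd_card_ker_transferSylow S0 hNC
    have hKS : K ≤ Sc := Cfsg.Agent.Lib.Basic.PCore.le_pPrimeCore hKn
      (((Nat.Prime.coprime_iff_not_dvd hp).mpr hKp).symm)
    have hGK : commutator G ≤ K := by
      rw [_root_.commutator_def, Subgroup.commutator_le]
      intro a _ b _
      rw [hK, MonoidHom.mem_ker, map_commutatorElement, commutatorElement_eq_one_iff_mul_comm]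
      apply Subtype.ext
      exact hcomm _ (Subtype.property _) _ (Subtype.property _)
    exact le_antisymm (hGK.trans hKS) hpart1

end Cfsg.Agent.S4497
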