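import Mathlib
import Cfsg.Prelude.Def_Blocks
import Cfsg.Agent.Lib.Blocks.RealBlock
set_option autoImplicit false
namespace Cfsg.Agent.S4517

open Cfsg Cfsg.Agent.Lib.Blocks.Local Cfsg.Agent.Lib.Blocks.RealBlock Cfsg.Agent.Lib.Blocks.Osima Cfsg.Agent.Lib.Blocks.Central Cfsg.Agent.Lib.Blocks.Principal

theorem result {G : Type*} [Group G] [Finite G] (M : Ideal Cfsg.AlgInt) (hM : Cfsg.IsPModular 2 M) (k : ℕ) (hk : Nat.Coprime k (Nat.card G)) (hk₂ : ∀ g : G, Odd (orderOf g) → g ^ k = g⁻¹) (B : Set (Cfsg.IrrCharacter G)) (hB : Cfsg.IsPBlock M B) (hdef : Cfsg.blockDefect 2 B = (Nat.card G).factorization 2) (hstab : ∀ χ ∈ B, ∃ ψ ∈ B, ∀ g : G, (ψ : G → ℂ) g = (χ : G → ℂ) (g ^ k)) : B = Cfsg.principalBlock M G := by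
  classical
  haveI : M.IsPrime := hM.2.1.isPrime
  haveI := Fintype.ofFinite G
  -- a character in `B` for which the real classes vanish
  have hexists : ∃ χ ∈ B, ∀ g : G, g ≠ 1 → ¬ 2 ∣ orderOf g → IsConj g g⁻¹ →
      MemLocalIdeal M (centralChar (χ : G → ℂ) g) := by
    obtain ⟨χ₀, rfl⟩ := id hB
    have hχ₀ := mem_blockOf_self (M := M) χ₀
    by_cases hν : (Nat.card G).factorization 2 = 0
    · refine ⟨χ₀, hχ₀, fun g h1 h2 h3 => ?_⟩
      exfalso
      have h4 := even_index_of_real h1 h2 h3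
      have h5 : 2 ∣ Nat.card G := h4.trans (Subgroup.index_dvd_card _)
      have h6 := (Nat.Prime.dvd_iff_one_le_factorization Nat.prime_two Nat.card_pos.ne').1 h5
      omega
    · have hs : sInf ((fun χ : IrrCharacter G => (charDegree (χ : G → ℂ)).factorization 2) ''
          blockOf M (χ₀ : G → ℂ)) = 0 := by
        rw [blockDefect] at hdef
        omega
      have hne : ((fun χ : IrrCharacter G => (charDegree (χ : G → ℂ)).factorization 2) ''
          blockOf M (χ₀ : G → ℂ)).Nonempty := ⟨_, χ₀, hχ₀, rfl⟩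
      obtain ⟨χ, hχ, hχs⟩ := Nat.sInf_mem hne
      rw [hs] at hχs
      have hχ1 : charDegree (χ : G → ℂ) ≠ 0 := by
        intro h0
        have h1 : (χ : G → ℂ) 1 = (charDegree (χ : G → ℂ) : ℂ) :=
          (Cfsg.Agent.Lib.Char.Values.IsCharacter.charDegree_cast
            (Cfsg.Agent.Lib.Char.Basic.isCharacter_of_isIrrCharacter χ.2)).symm
        rw [h0] at h1
        exact Cfsg.Agent.Lib.Char.Ortho.irr_apply_one_ne_zero χ.2 (by simpa using h1)
      have hodd : Odd (charDegree (χ : G → ℂ)) := by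
        have h2 : ¬ 2 ∣ charDegree (χ : G → ℂ) := by
          intro h3
          have h6 := (Nat.Prime.dvd_iff_one_le_factorization Nat.prime_two hχ1).1 h3
          simp only at hχs
          omega
        exact Nat.odd_iff.2 (by omega)
      exact ⟨χ, hχ, fun g h1 h2 h3 => memLocalIdeal_centralChar_of_odd hM hodd (even_index_of_real h1 h2 h3)⟩
  obtain ⟨χ, hχ, hreg⟩ := hexists
  have hBχ : B = blockOf M (χ : G → ℂ) := by
    obtain ⟨χ₀, rfl⟩ := id hB
    exact (blockOf_eq_of_mem hχ).symm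
  -- the permutation
  choose! π hπB hπ using hstab
  have hpow : Function.Surjective (fun g : G => g ^ k) :=
    (powCoprime (G := G) hk.symm).surjective
  have hinj : Set.InjOn π B := by
    intro a ha b hb hab
    apply Subtype.ext
    funext g
    obtain ⟨g', rfl⟩ := hpow g
    show (a : G → ℂ) (g' ^ k) = (b : G → ℂ) (g' ^ k)
    rw [← hπ a ha, ← hπ b hb, hab]
  have hodd2 : ∀ g : G, ¬ 2 ∣ orderOf g → Odd (orderOf g) := fun g hg => Nat.odd_iff.2 (by omega)
  have h1 : trivChar G ∈ blockOf M (χ : G → ℂ) := by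
    refine trivChar_mem_of_real hM (fun g hg => ?_) (fun g hg => ?_) hreg
    · rw [← hBχ]
      refine blockCoeff_inv_of_perm π hinj hπB (fun ψ hψ => ?_) (fun ψ hψ => ?_)
      · rw [hπ ψ hψ, one_pow]
      · rw [hπ ψ hψ, hk₂ g (hodd2 g hg)]
    · have hπχ := hπB χ hχ
      rw [hBχ] at hπχ
      have h2 := hπχ g
      have h3 : centralChar (π χ : G → ℂ) g = centralChar (χ : G → ℂ) g⁻¹ := by
        refine centralChar_of_apply_eq ?_ ?_
        · rw [hπ χ hχ, one_pow]
        · rw [hπ χ hχ, hk₂ g (hodd2 g hg)]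
      rw [h3] at h2
      have := memLocalIdeal_neg h2
      rwa [neg_sub] at this
  rw [hBχ]
  exact (blockOf_eq_of_mem (χ := trivChar G) (sameBlock_symm h1))

end Cfsg.Agent.S4517
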