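import Cfsg.Statements.S4518
import Cfsg.Agent.Lib.Char.CliffordCorr
import Cfsg.Agent.Lib.Char.Galois
import Cfsg.Agent.Lib.Char.Monomial

set_option autoImplicit false
open Cfsg

namespace Cfsg.Agent.S4518

open Cfsg.Agent.Lib.Char.Basic Cfsg.Agent.Lib.Char.Ortho Cfsg.Agent.Lib.Char.Clifford
  Cfsg.Agent.Lib.Char.CliffordCorr Cfsg.Agent.Lib.Char.Monomial
open scoped ComplexConjugate

/-- See the statement. -/
theorem result {G : Type*} [Group G] [Fintype G] (p : ℕ) [Fact p.Prime] (N : Subgroup G) [N.Normal] [Fintype N] (hidx : ¬ p ∣ N.index) (k e : ℕ) (hk : Nat.Coprime k (Nat.card G)) (hke : k ^ (p ^ e) ≡ 1 [MOD Nat.card G]) (χ : Cfsg.IrrCharacter G) (hχ : ∀ g : G, (χ : G → ℂ) (g ^ k) = (χ : G → ℂ) g) (θ : Cfsg.IrrCharacter N) (hθ : Cfsg.classInner (fun n : N => (χ : G → ℂ) n) (θ : N → ℂ) ≠ 0) : ∀ n : N, (θ : N → ℂ) (n ^ k) = (θ : N → ℂ) n := by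
  classical
  have hkN : k.Coprime (Nat.card N) :=
    Nat.Coprime.coprime_dvd_right (Subgroup.card_subgroup_dvd_card N) hk
  let σ : (N → ℂ) → (N → ℂ) := fun τ n => τ (n ^ k)
  have hσdef : ∀ τ n, σ τ n = τ (n ^ k) := fun _ _ => rfl
  -- σ preserves the inner product with the restriction of χ
  have hinner : ∀ τ : N → ℂ, classInner (fun n : N => (χ : G → ℂ) n) (σ τ) =
      classInner (fun n : N => (χ : G → ℂ) n) τ := by
    intro τ
    unfold classInner
    congr 1
    have := Equiv.sum_comp (powCoprime (G := N) hkN.symm)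
      (fun m : N => (χ : G → ℂ) m * conj (τ m))
    rw [← this]
    refine Finset.sum_congr rfl (fun n _ => ?_)
    simp only [powCoprime_apply, Subgroup.coe_pow, hχ, hσdef]
  -- σ commutes with conjugation
  have hσconj : ∀ (g : G) (τ : N → ℂ), σ (conjFun N g τ) = conjFun N g (σ τ) := by
    intro g τ
    funext n
    rw [hσdef, conjFun_apply, conjFun_apply, hσdef]
    congr 1
    apply Subtype.ext
    simp [conj_pow]
  have hσirr : ∀ {τ : N → ℂ}, IsIrrCharacter N τ → IsIrrCharacter N (σ τ) := fun h =>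
    Cfsg.Agent.Lib.Char.Galois.isIrrCharacter_pow_of_coprime h hkN
  -- σ θ is conjugate to θ
  obtain ⟨h₀, hh₀⟩ := exists_conj_of_classInner_ne_zero N χ.2 θ.2 (hσirr θ.2) hθ
    (by rw [hinner]; exact hθ)
  have hθirr := θ.2
  -- the orbit
  let Ω : Set (N → ℂ) := orbitSet N (θ : N → ℂ)
  have hfin : Ω.Finite := orbitSet_finite N θ.2
  letI : Fintype Ω := hfin.fintype
  have hstep : ∀ τ ∈ Ω, σ τ ∈ Ω := by
    rintro τ ⟨g, rfl⟩
    refine ⟨h₀ * g, ?_⟩
    rw [hσconj, hh₀, conjFun_mul]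
  let f : Function.End Ω := fun τ => ⟨σ τ.1, hstep _ τ.2⟩
  have hpow : ∀ (m : ℕ) (τ : Ω) (n : N), ((f ^ m) τ : Ω).1 n = τ.1 (n ^ (k ^ m)) := by
    intro m
    induction m with
    | zero =>
      intro τ n
      simp only [pow_zero, pow_one]
      rfl
    | succ m ih =>
      intro τ n
      rw [pow_succ, Function.End.mul_def]
      show ((f ^ m) (f τ) : Ω).1 n = _
      rw [ih]
      show τ.1 ((n ^ (k ^ m)) ^ k) = _
      rw [← pow_mul, pow_succ]
  have hfp : f ^ p ^ e = 1 := by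
    funext τ
    apply Subtype.ext
    funext n
    rw [hpow]
    have h1 : n ^ (k ^ p ^ e) = n := by
      apply Subtype.ext
      rw [Subgroup.coe_pow]
      rw [← pow_mod_natCard, hke, pow_mod_natCard, pow_one]
    rw [h1]
    rfl
  have hcard := Equiv.Perm.card_fixedPoints_modEq hfp
  -- the size of the orbit
  have hΩcard : Fintype.card Ω = (inertiaOf N (θ : N → ℂ)).index := by
    rw [← ncard_orbitSet N (θ : N → ℂ) (inertiaOf N (θ : N → ℂ)) (mem_inertiaOf N _)]
    rw [← Nat.card_coe_set_eq, Nat.card_eq_fintype_card]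
  have hNT : N ≤ inertiaOf N (θ : N → ℂ) := by
    intro a ha n
    have hcl := isClassFunction_of_isCharacter (isCharacter_of_isIrrCharacter θ.2)
    have := hcl n ⟨a, ha⟩
    exact this
  have hndvd : ¬ p ∣ Fintype.card Ω := by
    rw [hΩcard]
    intro h
    exact hidx (h.trans (Subgroup.index_dvd_of_le hNT))
  have hfixne : Nonempty f.fixedPoints := by
    by_contra hcon
    rw [not_nonempty_iff] at hcon
    apply hndvd
    have h0 : Fintype.card f.fixedPoints = 0 := Fintype.card_eq_zero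
    rw [h0] at hcard
    exact (Nat.modEq_zero_iff_dvd.mp hcard)
  obtain ⟨⟨⟨τ₀, g, rfl⟩, hτ₀⟩⟩ := hfixne
  have h1 : σ (conjFun N g (θ : N → ℂ)) = conjFun N g (θ : N → ℂ) :=
    congrArg Subtype.val hτ₀
  have h2 : σ (θ : N → ℂ) = θ := by
    have h3 : conjFun N g (σ (θ : N → ℂ)) = conjFun N g (θ : N → ℂ) := by
      rw [← hσconj, h1]
    exact conjFun_injective N g h3
  intro n
  exact congrFun h2 n

end Cfsg.Agent.S4518
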