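import Cfsg.Statements.S4519
import Mathlib
import Cfsg.Agent.Lib.Char.GoodSect
import Cfsg.Agent.Lib.Char.Gallagher
import Cfsg.Agent.Lib.Char.IndNormal
import Cfsg.Agent.Lib.Char.Monomial
import Cfsg.Agent.Lib.Char.GallagherAvg
import Cfsg.Agent.Lib.Blocks.Kernel

set_option autoImplicit false
set_option linter.style.haveILetI false
set_option linter.unusedSectionVars false
set_option linter.unusedVariables false
open Cfsg

namespace Cfsg.Agent.S4519

universe u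

open Cfsg.Agent.Lib.Char.GoodLift Cfsg.Agent.Lib.Char.DetExt Cfsg.Agent.Lib.Char.Galois
  Cfsg.Agent.Lib.Char.GalFix Cfsg.Agent.Lib.Char.Basic Cfsg.Agent.Lib.Char.Ortho
open scoped ComplexConjugate

lemma eq_one_of_pows {R : Type*} [Monoid R] {v : R} {a c s t : ℕ} (h1 : v ^ a = 1) (h2 : v ^ c = 1)
    (h : c * s = a * t + 1) : v = 1 := by
  have h3 : v ^ (c * s) = 1 := by rw [pow_mul, h2, one_pow]
  rw [h, pow_succ, pow_mul, h1, one_pow, one_mul] at h3
  exact h3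

/-- Odd divisors of the group order divide `k + 1`. -/
theorem odd_dvd_succ {G : Type*} [Group G] [Finite G] {k e : ℕ}
    (hke : k ^ (2 ^ e) ≡ 1 [MOD Nat.card G]) (hk₂ : ∀ g : G, Odd (orderOf g) → g ^ k = g⁻¹)
    {m : ℕ} (hm : Odd m) (hd : m ∣ Nat.card G) : m ∣ k + 1 := by
  rw [Nat.dvd_iff_prime_pow_dvd_dvd]
  intro r a hr hra
  rcases Nat.eq_zero_or_pos a with rfl | ha
  · simp
  haveI : Fact r.Prime := ⟨hr⟩
  have hrm : r ∣ m := (dvd_pow_self r ha.ne').trans hra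
  have hrodd : Odd r := Odd.of_dvd_nat hm hrm
  have hr2 : r ≠ 2 := by
    rintro rfl
    exact (by decide : ¬ Odd 2) hrodd
  have hrG : r ∣ Nat.card G := hrm.trans hd
  obtain ⟨x, hx⟩ := exists_prime_orderOf_dvd_card' r hrG
  have hxodd : Odd (orderOf x) := hx ▸ hrodd
  have h1 : x ^ (k + 1) = 1 := by
    rw [pow_succ, hk₂ x hxodd, inv_mul_cancel]
  have hrk : r ∣ k + 1 := hx ▸ orderOf_dvd_of_pow_eq_one h1
  have hraG : r ^ a ∣ Nat.card G := hra.trans hd
  -- `e ≠ 0`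
  have he : e ≠ 0 := by
    rintro rfl
    have h2 : k ≡ 1 [MOD r] := by
      have h3 : k ^ 2 ^ 0 ≡ 1 [MOD r] := hke.of_dvd hrG
      simpa using h3
    have h3 : r ∣ k + 1 - (k - 1) ∨ k = 0 := by
      rcases Nat.eq_zero_or_pos k with h0 | h0
      · exact Or.inr h0
      · left
        have h4 : r ∣ k - 1 := (Nat.modEq_iff_dvd' h0).1 h2.symm
        exact Nat.dvd_sub hrk h4
    rcases h3 with h3 | h3
    · have h4 : k + 1 - (k - 1) = 2 ∨ k = 0 := by omega
      rcases h4 with h4 | h4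
      · rw [h4] at h3
        exact hr2 ((Nat.prime_dvd_prime_iff_eq hr Nat.prime_two).1 h3)
      · subst h4
        simp at hrk
        exact hr.one_lt.ne' hrk
    · subst h3
      simp at hrk
      exact hr.one_lt.ne' hrk
  -- work with `u = -k`
  obtain ⟨b, rfl⟩ : ∃ b, a = b + 1 := ⟨a - 1, by omega⟩
  set u : ℤ := -(k : ℤ) with hu
  have h2 : (r : ℤ) ∣ u - 1 := by
    have : (r : ℤ) ∣ (k : ℤ) + 1 := by exact_mod_cast hrk
    rw [hu]
    have h3 : -(k : ℤ) - 1 = -((k : ℤ) + 1) := by ring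
    rw [h3]
    exact (dvd_neg).2 this
  have h3 : ((r ^ (b + 1) : ℕ) : ℤ) ∣ u ^ r ^ b - 1 := by
    have := dvd_sub_pow_of_dvd_sub h2 b
    simpa using this
  have h4 : ((r ^ (b + 1) : ℕ) : ℤ) ∣ u ^ 2 ^ e - 1 := by
    have h5 : k ^ 2 ^ e ≡ 1 [MOD r ^ (b + 1)] := hke.of_dvd hraG
    have h6 : ((r ^ (b + 1) : ℕ) : ℤ) ∣ ((k ^ 2 ^ e : ℕ) : ℤ) - 1 := by
      have := (Nat.modEq_iff_dvd.1 h5.symm)
      simpa using this
    have h7 : u ^ 2 ^ e = ((k ^ 2 ^ e : ℕ) : ℤ) := by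
      rw [hu, Nat.cast_pow]
      exact Even.neg_pow ((Nat.even_pow.2 ⟨even_two, he⟩)) _
    rw [h7]
    exact h6
  -- Bezout
  have hcop : Nat.Coprime (2 ^ e) (r ^ b) :=
    Nat.Coprime.pow _ _ ((Nat.coprime_primes Nat.prime_two hr).2 (Ne.symm hr2))
  set v : ZMod (r ^ (b + 1)) := (u : ZMod (r ^ (b + 1))) with hv
  have h5 : v ^ r ^ b = 1 := by
    have := (ZMod.intCast_zmod_eq_zero_iff_dvd _ _).2 h3
    rw [Int.cast_sub, Int.cast_pow, Int.cast_one, sub_eq_zero] at this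
    exact this
  have h6 : v ^ 2 ^ e = 1 := by
    have := (ZMod.intCast_zmod_eq_zero_iff_dvd _ _).2 h4
    rw [Int.cast_sub, Int.cast_pow, Int.cast_one, sub_eq_zero] at this
    exact this
  have h7 : v = 1 := by
    rcases Nat.eq_zero_or_pos b with rfl | hb
    · have hb1 : v ^ r ^ 0 = 1 := h5
      simpa using hb1
    have hb2 : 1 < r ^ b := Nat.one_lt_pow hb.ne' hr.one_lt
    obtain ⟨s, -, hs⟩ := Nat.exists_mul_mod_eq_one_of_coprime hcop hb2
    have h8 : 2 ^ e * s = r ^ b * (2 ^ e * s / r ^ b) + 1 := by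
      have := Nat.div_add_mod (2 ^ e * s) (r ^ b)
      rw [hs] at this
      exact this.symm
    exact eq_one_of_pows h5 h6 h8
  have h8 : ((r ^ (b + 1) : ℕ) : ℤ) ∣ u - 1 := by
    rw [← ZMod.intCast_zmod_eq_zero_iff_dvd, Int.cast_sub, Int.cast_one, sub_eq_zero]
    exact h7
  have h9 : ((r ^ (b + 1) : ℕ) : ℤ) ∣ ((k + 1 : ℕ) : ℤ) := by
    have h10 : ((k + 1 : ℕ) : ℤ) = -(u - 1) := by
      rw [hu]
      push_cast
      ring
    rw [h10]
    exact (dvd_neg).2 h8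
  exact Int.natCast_dvd_natCast.1 h9

/-- A central-like extension with kernel of exponent coprime to the index splits over `G`
compatibly with a given normal splitting over `N`. -/
theorem exists_section {E G : Type*} [Group E] [Finite E] [Group G] [Finite G] (π : E →* G)
    (hπ : Function.Surjective π) (N : Subgroup G) [hN : N.Normal] (ι : N →* E)
    (hι : ∀ n : N, π (ι n) = n) (hn : ι.range.Normal) (f : ℕ) (hexp : ∀ x, π x = 1 → x ^ f = 1)
    (hcop : Nat.Coprime N.index f) :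
    ∃ s : G →* E, (∀ g, π (s g) = g) ∧ ∀ n : N, s n = ι n := by
  classical
  choose sec hsec using hπ
  let N₁ : Subgroup E := ι.range
  haveI hN₁ : N₁.Normal := hn
  let B : Subgroup E := N.comap π
  haveI hBn : B.Normal := hN.comap π
  have hBidx : B.index = N.index := Subgroup.index_comap_of_surjective N (fun g => ⟨sec g, hsec g⟩)
  let mk : E →* E ⧸ N₁ := QuotientGroup.mk' N₁
  have hmksurj : Function.Surjective mk := QuotientGroup.mk'_surjective N₁
  have hmkker : mk.ker = N₁ := QuotientGroup.ker_mk' N₁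
  have hN₁B : N₁ ≤ B := by
    rintro _ ⟨n, rfl⟩
    change π (ι n) ∈ N
    rw [hι]
    exact n.2
  let A : Subgroup (E ⧸ N₁) := B.map mk
  haveI hAn : A.Normal := hBn.map mk hmksurj
  have hAidx : A.index = N.index := by
    rw [← hBidx]
    exact Subgroup.index_map_eq B hmksurj (by rw [hmkker]; exact hN₁B)
  have hexpA : ∀ x ∈ A, x ^ f = 1 := by
    rintro _ ⟨b, hb, rfl⟩
    let n : N := ⟨π b, hb⟩
    have h1 : π (b * (ι n)⁻¹) = 1 := by
      rw [map_mul, map_inv, hι]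
      simp [n]
    have h2 : mk (b * (ι n)⁻¹) = mk b := by
      rw [map_mul, map_inv]
      have : mk (ι n) = 1 := by
        rw [← MonoidHom.mem_ker, hmkker]
        exact ⟨n, rfl⟩
      rw [this]
      simp
    rw [← h2, ← map_pow, hexp _ h1, map_one]
  have hcard : Nat.Coprime (Nat.card A) A.index := by
    by_contra hcon
    obtain ⟨p, hp, hp1, hp2⟩ := Nat.Prime.not_coprime_iff_dvd.mp hcon
    haveI : Fact p.Prime := ⟨hp⟩
    obtain ⟨x, hx⟩ := exists_prime_orderOf_dvd_card' p hp1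
    have h1 : x ^ f = 1 := by
      apply Subtype.ext
      exact hexpA x.1 x.2
    have h2 : p ∣ f := by
      rw [← hx]
      exact orderOf_dvd_of_pow_eq_one h1
    rw [hAidx] at hp2
    exact hp.one_lt.ne' (Nat.eq_one_of_dvd_coprimes hcop hp2 h2)
  obtain ⟨K, hK⟩ := Subgroup.exists_right_complement'_of_coprime hcard
  let L : Subgroup E := K.comap mk
  have hN₁L : N₁ ≤ L := by
    rintro x hx
    change mk x ∈ K
    have : mk x = 1 := by
      rw [← MonoidHom.mem_ker, hmkker]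
      exact hx
    rw [this]
    exact K.one_mem
  let Φ : L →* G := π.comp L.subtype
  have hΦinj : Function.Injective Φ := by
    rw [injective_iff_map_eq_one]
    rintro ⟨x, hx⟩ hx1
    have hπx : π x = 1 := hx1
    have h1 : mk x ∈ A := ⟨x, (by change π x ∈ N; rw [hπx]; exact N.one_mem), rfl⟩
    have h2 : mk x ∈ K := hx
    have h3 : mk x = 1 := (Subgroup.disjoint_def.mp hK.disjoint) h1 h2
    have h4 : x ∈ N₁ := by
      rw [← hmkker, MonoidHom.mem_ker]
      exact h3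
    obtain ⟨n, rfl⟩ := h4
    rw [hι] at hπx
    have h5 : n = 1 := Subtype.ext hπx
    subst h5
    apply Subtype.ext
    simp
  have hΦsurj : Function.Surjective Φ := by
    intro g
    obtain ⟨⟨a, k⟩, hak⟩ := hK.2 (mk (sec g))
    simp only at hak
    obtain ⟨a, ha⟩ := a
    obtain ⟨k, hk⟩ := k
    obtain ⟨b, hb, rfl⟩ := ha
    have hb' : π b ∈ N := hb
    let n : N := ⟨π b, hb'⟩
    let y : E := ι n * (b⁻¹ * sec g)
    have hy : y ∈ L := by
      change mk y ∈ K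
      have h1 : mk (ι n) = 1 := by
        rw [← MonoidHom.mem_ker, hmkker]
        exact ⟨n, rfl⟩
      simp only [y, map_mul, map_inv, h1, one_mul]
      rw [← hak]
      simpa using hk
    refine ⟨⟨y, hy⟩, ?_⟩
    change π y = g
    simp only [y, map_mul, map_inv, hι]
    simp [n, hsec]
  let e : L ≃* G := MulEquiv.ofBijective Φ ⟨hΦinj, hΦsurj⟩
  refine ⟨L.subtype.comp e.symm.toMonoidHom, fun g => e.apply_symm_apply g, fun n => ?_⟩
  have h1 : e ⟨ι n, hN₁L ⟨n, rfl⟩⟩ = n := hι n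
  have h2 : e.symm (n : G) = ⟨ι n, hN₁L ⟨n, rfl⟩⟩ := by
    rw [← h1]
    simp
  show ((e.symm (n : G) : L) : E) = ι n
  rw [h2]

lemma exists_bezout {a b : ℕ} (h : Nat.Coprime a b) (ha : 0 < a) : ∃ u t : ℕ, a * u = b * t + 1 := by
  rcases Nat.lt_or_ge 1 b with hb | hb
  · obtain ⟨s, -, hs⟩ := Nat.exists_mul_mod_eq_one_of_coprime h hb
    refine ⟨s, a * s / b, ?_⟩
    have := Nat.div_add_mod (a * s) b
    rw [hs] at this
    exact this.symm
  · interval_cases b
    · have h1 : a = 1 := by simpa using h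
      exact ⟨1, 0, by simp [h1]⟩
    · exact ⟨1, a - 1, by simp; omega⟩

/-- The arithmetic of the scaling. -/
lemma exists_root {k o h d' : ℕ} {y z : ℂˣ} (hk1 : 1 ≤ k) (hy : y ^ (2 ^ h * d') = 1)
    (hz : z ^ (2 ^ h * d') = 1) (hyz : z ^ (k - 1) = y ^ o) (ho : Odd o) (hd' : Odd d') (hdk : d' ∣ k + 1) :
    ∃ w : ℂˣ, w ^ (2 ^ h * d') = 1 ∧ w ^ (k - 1) = y := by
  have hcop : Nat.Coprime o (2 ^ h) := Nat.Coprime.pow_right _ (Nat.coprime_two_right.2 ho)
  obtain ⟨u, t, hut⟩ := exists_bezout hcop ho.pos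
  obtain ⟨c, hc⟩ := hd'
  set v : ℂˣ := ((y ^ 2 ^ h) ^ t)⁻¹ with hv
  have h1 : y = (y ^ o) ^ u * v := by
    rw [← pow_mul, hut, pow_succ, pow_mul, hv]
    group
  have h2 : v ^ d' = 1 := by
    have h5 : ((y ^ 2 ^ h) ^ t) ^ d' = (y ^ (2 ^ h * d')) ^ t := by
      rw [← pow_mul, ← pow_mul, ← pow_mul]
      congr 1
      ring
    rw [hv, inv_pow, h5, hy, one_pow, inv_one]
  have h3 : (v ^ c) ^ d' = 1 := by rw [← pow_mul, mul_comm, pow_mul, h2, one_pow]
  have h4 : (v ^ c) ^ (k - 1) = v := by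
    have h5 : (v ^ c) ^ (k + 1) = 1 := by
      obtain ⟨r, hr⟩ := hdk
      rw [hr, pow_mul, h3, one_pow]
    have h6 : k + 1 = (k - 1) + 2 := by omega
    rw [h6, pow_add] at h5
    have h7 : (v ^ c) ^ 2 = v⁻¹ := by
      rw [← pow_mul]
      have h8 : v ^ (c * 2) * v = 1 := by
        rw [← pow_succ, show c * 2 + 1 = d' by omega, h2]
      exact eq_inv_of_mul_eq_one_left h8
    rw [h7] at h5
    exact (mul_inv_eq_one.1 h5)
  refine ⟨z ^ u * v ^ c, ?_, ?_⟩
  · rw [mul_pow, ← pow_mul, mul_comm u, pow_mul, hz, one_pow, one_mul, mul_comm (2 ^ h), pow_mul, h3, one_pow]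
  · rw [mul_pow, h4, ← pow_mul, mul_comm u, pow_mul, hyz]
    exact h1.symm

section Inv

variable {G : Type u} [Group G] [Fintype G] {N : Subgroup G} [hN : N.Normal] [Fintype N] {d : ℕ}
  (ρ : Representation ℂ N (Fin d → ℂ)) [hρ : ρ.IsIrreducible]

lemma twistEnd_scalar (τ : ℂ →+* ℂ) (c : ℂ) :
    twistEnd τ (c • (LinearMap.id : (Fin d → ℂ) →ₗ[ℂ] Fin d → ℂ)) =
      (τ c) • (LinearMap.id : (Fin d → ℂ) →ₗ[ℂ] Fin d → ℂ) := by
  show Matrix.toLin' ((LinearMap.toMatrix' _).map τ) = _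
  have h1 : LinearMap.toMatrix' (c • (LinearMap.id : (Fin d → ℂ) →ₗ[ℂ] Fin d → ℂ)) = c • 1 := by
    rw [map_smul, LinearMap.toMatrix'_id]
  rw [h1]
  have h2 : (c • (1 : Matrix (Fin d) (Fin d) ℂ)).map τ = (τ c) • 1 := by
    ext i j
    by_cases hij : i = j <;> simp [hij]
  rw [h2, map_smul, Matrix.toLin'_one]

lemma twU_scalarU (τ : ℂ →+* ℂ) (c : ℂˣ) :
    twU τ (scalarU c : (EE d)ˣ) = scalarU (Units.map τ.toMonoidHom c) := by
  apply Units.ext
  rw [coe_twU, coe_scalarU, coe_scalarU]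
  exact twistEnd_scalar τ _

lemma scalarU_injective (hd : d ≠ 0) {a b : ℂˣ} (h : (scalarU a : (EE d)ˣ) = scalarU b) : a = b := by
  have h1 := congrArg Units.val h
  rw [coe_scalarU, coe_scalarU] at h1
  haveI : NeZero d := ⟨hd⟩
  have h2 := congrFun (LinearMap.congr_fun h1 (fun _ => 1)) (0 : Fin d)
  apply Units.ext
  simpa using h2

lemma detU_twU (τ : ℂ →+* ℂ) (T : (EE d)ˣ) : detU (twU τ T) = Units.map τ.toMonoidHom (detU T) := by
  apply Units.ext
  show LinearMap.det (twistEnd τ (T : EE d)) = τ (LinearMap.det (T : EE d))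
  exact det_twistEnd τ _

/-- The group of fixed pairs. -/
def SS0 (φ : G →* ℂˣ) (τ : ℂ →+* ℂ) (W : (EE d)ˣ) : Subgroup (G × (EE d)ˣ) where
  carrier := {P | P ∈ Impl ρ ∧ detU P.2 = φ P.1 ∧ W * twU τ P.2 * W⁻¹ = P.2}
  mul_mem' := by
    rintro a b ⟨h1, h2, h3⟩ ⟨h4, h5, h6⟩
    refine ⟨(Impl ρ).mul_mem h1 h4, ?_, ?_⟩
    · simp only [Prod.snd_mul, Prod.fst_mul, map_mul, h2, h5]
    · simp only [Prod.snd_mul, map_mul]
      conv_rhs => rw [← h3, ← h6]
      group
  one_mem' := by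
    refine ⟨(Impl ρ).one_mem, ?_, ?_⟩ <;> simp
  inv_mem' := by
    rintro a ⟨h1, h2, h3⟩
    refine ⟨(Impl ρ).inv_mem h1, ?_, ?_⟩
    · simp only [Prod.snd_inv, Prod.fst_inv, map_inv, h2]
    · simp only [Prod.snd_inv, map_inv]
      conv_rhs => rw [← h3]
      group

lemma exists_impl_det (hinv : ∀ (g : G) (n : N), ρ.character ⟨g * n * g⁻¹, hN.conj_mem (n : G) n.2 g⟩ = ρ.character n)
    (φ : G →* ℂˣ) (g : G) : ∃ T : (EE d)ˣ, ((g, T) : G × (EE d)ˣ) ∈ Impl ρ ∧ detU T = φ g := by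
  obtain ⟨T, h1, h2⟩ := exists_mem_gammaOne N ρ φ hinv g
  refine ⟨T, ?_, h2⟩
  intro n
  have h3 := h1 n
  have h4 : T * MonoidHom.toHomUnits ρ n = MonoidHom.toHomUnits ρ ⟨g * n * g⁻¹, hN.conj_mem n n.2 g⟩ * T := by
    simp only at h3
    rw [← h3]
    group
  exact congrArg Units.val h4

/-- Scaling a pair to a fixed pair. -/
lemma exists_fixed_scale (hinv : ∀ (g : G) (n : N), ρ.character ⟨g * n * g⁻¹, hN.conj_mem (n : G) n.2 g⟩ = ρ.character n)
    {φ : G →* ℂˣ} (hφN : ∀ n : N, φ n = detU (MonoidHom.toHomUnits ρ n))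
    {τ : ℂ →+* ℂ} {W : (EE d)ˣ} (hW : ∀ n : N, (W : EE d) * twistEnd τ (ρ n) = ρ n * (W : EE d))
    {k h d' : ℕ} (hd : d = 2 ^ h * d') (hd' : Odd d') (hdk : d' ∣ k + 1) (hk1 : 1 ≤ k)
    (hG : d ∣ Nat.card G) (hodd : Odd N.index)
    (hτ : ∀ ε : ℂ, ε ^ Nat.card G = 1 → τ ε = ε ^ k)
    (hφτ : ∀ g, Units.map τ.toMonoidHom (φ g) = φ g)
    (g : G) : ∃ T : (EE d)ˣ, ((g, T) : G × (EE d)ˣ) ∈ SS0 ρ φ τ W := by
  have hd0 : d ≠ 0 := d_ne_zero ρ
  obtain ⟨T, hT, hdet⟩ := exists_impl_det ρ hinv φ g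
  set P : G × (EE d)ˣ := (g, T) with hP
  have hαm := alpha_mem ρ hW hT
  obtain ⟨y, hy⟩ := exists_eq_scalP_mul ρ hT hαm rfl
  have hy2 : W * twU τ T * W⁻¹ = scalarU y * T := congrArg Prod.snd hy
  have hfr : Module.finrank ℂ (Fin d → ℂ) = d := finrank_eq
  have hyd : y ^ d = 1 := by
    have h1 := congrArg detU hy2
    rw [map_mul, map_mul, map_inv, mul_comm (detU W), mul_inv_cancel_right, detU_twU, hdet, hφτ, map_mul,
      detU_scalarU, hdet, hfr] at h1
    have h2 : y ^ d * φ g = 1 * φ g := by rw [one_mul]; exact h1.symm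
    exact mul_right_cancel h2
  set o := N.index with ho
  have hgo : g ^ o ∈ N := Subgroup.pow_index_mem N g
  set n₀ : N := ⟨g ^ o, hgo⟩ with hn₀
  obtain ⟨z, hz⟩ := exists_eq_scalP_mul ρ (hatN_mem ρ n₀) ((Impl ρ).pow_mem hT o) rfl
  have hz2 : T ^ o = scalarU z * MonoidHom.toHomUnits ρ n₀ := congrArg Prod.snd hz
  have hzd : z ^ d = 1 := by
    have h1 := congrArg detU hz2
    rw [map_pow, map_mul, hdet, detU_scalarU, hfr, ← hφN, ← map_pow] at h1
    have h2 : z ^ d * φ (g ^ o) = 1 * φ (g ^ o) := by rw [one_mul]; exact h1.symm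
    exact mul_right_cancel h2
  have hrootz : ∀ w : ℂˣ, w ^ d = 1 → Units.map τ.toMonoidHom w = w ^ k := by
    intro w hw
    apply Units.ext
    show τ (w : ℂ) = ((w ^ k : ℂˣ) : ℂ)
    rw [hτ, Units.val_pow_eq_pow_val]
    obtain ⟨r, hr⟩ := hG
    rw [hr, pow_mul, ← Units.val_pow_eq_pow_val, hw]
    simp
  -- apply the twist to `T ^ o`
  have hRfix : W * twU τ (MonoidHom.toHomUnits ρ n₀) * W⁻¹ = MonoidHom.toHomUnits ρ n₀ := by
    apply Units.ext
    have h1 := hW n₀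
    show (W : EE d) * twistEnd τ (ρ n₀) * ((W⁻¹ : (EE d)ˣ) : EE d) = ρ n₀
    rw [h1, mul_assoc]
    have hb : (W : EE d) * ((W⁻¹ : (EE d)ˣ) : EE d) = 1 := Units.mul_inv W
    rw [hb, mul_one]
  have hzy : z ^ k = y ^ o * z := by
    have h1 : W * twU τ (T ^ o) * W⁻¹ = (W * twU τ T * W⁻¹) ^ o := by
      rw [map_pow]
      have := conj_pow (a := W) (b := twU τ T) (i := o)
      exact this.symm
    rw [hy2, hz2, map_mul, twU_scalarU, hrootz z hzd] at h1
    have h2 : W * (scalarU (z ^ k) * twU τ (MonoidHom.toHomUnits ρ n₀)) * W⁻¹ =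
        scalarU (z ^ k) * (W * twU τ (MonoidHom.toHomUnits ρ n₀) * W⁻¹) := by
      have h3 := (scalarU_comm (z ^ k) W).eq
      calc W * (scalarU (z ^ k) * twU τ (MonoidHom.toHomUnits ρ n₀)) * W⁻¹
          = (W * scalarU (z ^ k)) * twU τ (MonoidHom.toHomUnits ρ n₀) * W⁻¹ := by group
        _ = (scalarU (z ^ k) * W) * twU τ (MonoidHom.toHomUnits ρ n₀) * W⁻¹ := by rw [h3]
        _ = _ := by group
    rw [h2, hRfix] at h1
    have h3 : (scalarU y * T) ^ o = scalarU (y ^ o) * T ^ o := by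
      rw [(scalarU_comm y T).mul_pow]
      congr 1
      apply Units.ext
      simp [scalarU]
    rw [h3, hz2, ← mul_assoc] at h1
    have h4 : (scalarU (y ^ o) : (EE d)ˣ) * scalarU z = scalarU (y ^ o * z) := by
      simp [scalarU]
    rw [h4] at h1
    exact scalarU_injective hd0 (mul_right_cancel h1)
  have hyz : z ^ (k - 1) = y ^ o := by
    have h1 : z ^ (k - 1) * z = y ^ o * z := by
      rw [← pow_succ, Nat.sub_add_cancel hk1, hzy]
    exact mul_right_cancel h1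
  subst hd
  obtain ⟨w, hw1, hw2⟩ := exists_root hk1 hyd hzd hyz hodd hd' hdk
  refine ⟨scalarU w⁻¹ * T, ?_, ?_, ?_⟩
  · have h5 : scalP G w⁻¹ * P = (g, scalarU w⁻¹ * T) := Prod.ext (one_mul g) rfl
    have h6 := (Impl ρ).mul_mem (scalP_mem ρ w⁻¹) hT
    rwa [h5] at h6
  · show detU (scalarU w⁻¹ * T) = φ g
    rw [map_mul, detU_scalarU, hfr, inv_pow, hw1, inv_one, one_mul, hdet]
  · show W * twU τ (scalarU w⁻¹ * T) * W⁻¹ = scalarU w⁻¹ * T
    rw [map_mul, twU_scalarU, map_inv, hrootz w hw1]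
    have h3 := (scalarU_comm (w ^ k)⁻¹ W).eq
    calc W * (scalarU (w ^ k)⁻¹ * twU τ T) * W⁻¹
        = (W * scalarU (w ^ k)⁻¹) * twU τ T * W⁻¹ := by group
      _ = (scalarU (w ^ k)⁻¹ * W) * twU τ T * W⁻¹ := by rw [h3]
      _ = scalarU (w ^ k)⁻¹ * (W * twU τ T * W⁻¹) := by group
      _ = scalarU (w ^ k)⁻¹ * (scalarU y * T) := by rw [hy2]
      _ = (scalarU (w ^ k)⁻¹ * scalarU y) * T := by group
      _ = _ := by
        congr 1
        have h4 : (w ^ k)⁻¹ * y = w⁻¹ := by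
          rw [← hw2]
          have h5 : w ^ k = w ^ (k - 1) * w := by rw [← pow_succ, Nat.sub_add_cancel hk1]
          rw [h5]
          group
        rw [← h4]
        simp [scalarU]

/-- Finiteness from finite kernel. -/
lemma finite_of_ker {E H : Type*} [Group E] [Group H] [Finite H] (π : E →* H) [Finite π.ker] : Finite E := by
  haveI : Finite (E ⧸ π.ker) := Finite.of_injective _ (QuotientGroup.kerLift_injective π)
  exact Finite.of_equiv _ (Subgroup.groupEquivQuotientProdSubgroup (s := π.ker)).symm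

/-- Existence of a fixed extension in the invariant case. -/
theorem exists_fixed_ext (hodd : Odd N.index) {k e : ℕ} (hk1 : 1 ≤ k) (hk : k.Coprime (Nat.card G))
    (hke : k ^ (2 ^ e) ≡ 1 [MOD Nat.card G]) (hk₂ : ∀ g : G, Odd (orderOf g) → g ^ k = g⁻¹)
    (hinv : ∀ (g : G) (n : N), ρ.character ⟨g * n * g⁻¹, hN.conj_mem (n : G) n.2 g⟩ = ρ.character n)
    (hfix : ∀ n : N, ρ.character (n ^ k) = ρ.character n) :
    ∃ X : G → ℂ, IsIrrCharacter G X ∧ (∀ n : N, X n = ρ.character n) ∧ ∀ g, X (g ^ k) = X g := by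
  classical
  have hd0 : d ≠ 0 := d_ne_zero ρ
  have hcard : 0 < Nat.card G := Nat.card_pos
  have hpowN : ∀ n : N, n ^ Nat.card G = 1 := fun n => Subtype.ext (by simp)
  obtain ⟨τ, hτ⟩ := exists_ringHom_pow (Nat.card G) hcard k hk
  have hτθ : ∀ n : N, τ (ρ.character n) = ρ.character n := by
    intro n
    rw [map_character τ hcard hτ ρ n (hpowN n), hfix]
  have hch : (twist τ ρ).character = ρ.character := by
    funext n
    rw [character_twist, hτθ]
  haveI hirrt : (twist τ ρ).IsIrreducible := isIrreducible_twist τ ρ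
  obtain ⟨E⟩ := Cfsg.Agent.Lib.Char.CyclicExt.nonempty_equiv_of_character_eq (twist τ ρ) ρ hch
  let W : (EE d)ˣ := LinearMap.GeneralLinearGroup.ofLinearEquiv E.toLinearEquiv
  have hW : ∀ n : N, (W : EE d) * twistEnd τ (ρ n) = ρ n * (W : EE d) := by
    intro n
    apply LinearMap.ext
    intro v
    exact Representation.IntertwiningMap.isIntertwining _ _ E.toIntertwiningMap n v
  -- the determinant
  let l : N →* ℂˣ := detU.comp (MonoidHom.toHomUnits ρ)
  have hlpow : ∀ x : N, l x ^ (k - 1) = 1 := by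
    intro x
    set u : ℂˣ := l x with hu
    have huval : (u : ℂ) = LinearMap.det (ρ x) := rfl
    have h1 : u ^ Nat.card G = 1 := by
      rw [hu, ← map_pow, hpowN, map_one]
    have h2 : LinearMap.det (twistEnd τ (ρ x)) = (u : ℂ) := by
      have h3 := detChar_character (twist τ ρ) x
      rw [hch, detChar_character] at h3
      exact h3.symm
    rw [det_twistEnd, ← huval, hτ _ (by rw [← Units.val_pow_eq_pow_val, h1]; simp)] at h2
    have h5 : u ^ (k - 1) * u = 1 * u := by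
      rw [← pow_succ, Nat.sub_add_cancel hk1, one_mul]
      exact Units.ext (by simpa using h2)
    exact mul_right_cancel h5
  have hlinv : ∀ (g : G) (n : N), l ⟨g * n * g⁻¹, hN.conj_mem (n : G) n.2 g⟩ = l n := by
    intro g n
    obtain ⟨T, hT, -⟩ := exists_impl_det ρ hinv (1 : G →* ℂˣ) g
    have h1 : T * MonoidHom.toHomUnits ρ n = MonoidHom.toHomUnits ρ ⟨g * n * g⁻¹, hN.conj_mem n n.2 g⟩ * T :=
      Units.ext (hT n)
    have h2 := congrArg detU h1
    rw [map_mul, map_mul, mul_comm] at h2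
    exact (mul_right_cancel h2).symm
  have hlord : orderOf l ∣ k - 1 := by
    refine orderOf_dvd_of_pow_eq_one ?_
    ext x
    simp [hlpow]
  have hindG : N.index ∣ Nat.card G := Subgroup.index_dvd_card N
  have hindk : N.index ∣ k + 1 := odd_dvd_succ hke hk₂ hodd hindG
  have hlcop : Nat.Coprime (orderOf l) N.index := by
    set c := Nat.gcd (orderOf l) N.index with hc
    have h1 : c ∣ k - 1 := (Nat.gcd_dvd_left _ _).trans hlord
    have h2 : c ∣ k + 1 := (Nat.gcd_dvd_right _ _).trans hindk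
    have h3 : c ∣ 2 := by
      have h4 := Nat.dvd_sub h2 h1
      have h5 : k + 1 - (k - 1) = 2 := by omega
      rwa [h5] at h4
    have h4 : Odd c := Odd.of_dvd_nat hodd (Nat.gcd_dvd_right _ _)
    rcases (Nat.dvd_prime Nat.prime_two).1 h3 with h5 | h5
    · exact h5
    · rw [h5] at h4
      exact absurd h4 (by decide)
  obtain ⟨φ, hφ, hφo⟩ := Cfsg.Agent.Lib.Char.DetExt2.exists_ext_hom N l hlinv hlcop
  have hφN : ∀ n : N, φ n = detU (MonoidHom.toHomUnits ρ n) := hφ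
  have hφk : ∀ g, φ g ^ (k - 1) = 1 := by
    intro g
    have h0 : orderOf φ ∣ k - 1 := by
      rw [hφo]
      exact hlord
    have h1 : φ ^ (k - 1) = 1 := orderOf_dvd_iff_pow_eq_one.1 h0
    have h2 := congrArg (fun F : G →* ℂˣ => F g) h1
    simpa using h2
  have hφτ : ∀ g, Units.map τ.toMonoidHom (φ g) = φ g := by
    intro g
    apply Units.ext
    show τ ((φ g : ℂˣ) : ℂ) = ((φ g : ℂˣ) : ℂ)
    have h2 : ((φ g : ℂˣ) : ℂ) ^ Nat.card G = 1 := by
      rw [← Units.val_pow_eq_pow_val, ← map_pow, pow_card_eq_one', map_one, Units.val_one]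
    rw [hτ _ h2, ← Units.val_pow_eq_pow_val]
    congr 1
    have h5 : φ g ^ (k - 1) * φ g = φ g := by rw [hφk, one_mul]
    rwa [← pow_succ, Nat.sub_add_cancel hk1] at h5
  -- arithmetic of `d`
  obtain ⟨h, d', hd'2, hdd⟩ := Nat.exists_eq_pow_mul_and_not_dvd hd0 2 (by norm_num)
  have hd'odd : Odd d' := Nat.not_even_iff_odd.1 fun h1 => hd'2 h1.two_dvd
  have hdG : d ∣ Nat.card G := by
    have h1 := Cfsg.Agent.Lib.Char.Integrality.finrank_dvd_card ρ
    rw [finrank_eq] at h1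
    exact h1.trans (Subgroup.card_subgroup_dvd_card N)
  have hdk : d' ∣ k + 1 := odd_dvd_succ hke hk₂ hd'odd ((Dvd.intro_left _ hdd.symm).trans hdG)
  -- the group
  set S₀ := SS0 ρ φ τ W with hS₀
  let π : S₀ →* G := (MonoidHom.fst G (EE d)ˣ).comp S₀.subtype
  have hπ : ∀ x : S₀, π x = x.1.1 := fun _ => rfl
  have hsurj : Function.Surjective π := by
    intro g
    obtain ⟨T, hT⟩ := exists_fixed_scale ρ hinv hφN hW hdd hd'odd hdk hk1 hdG hodd hτ hφτ g
    exact ⟨⟨_, hT⟩, rfl⟩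
  -- kernel elements are scalars
  have hker : ∀ x : S₀, π x = 1 → ∃ z : ℂˣ, x.1 = scalP G z ∧ z ^ d = 1 := by
    intro x hx
    obtain ⟨z, hz⟩ := exists_eq_scalP ρ x.2.1 hx
    refine ⟨z, hz, ?_⟩
    have h1 := x.2.2.1
    rw [hz] at h1
    have h2 : detU (scalarU z : (EE d)ˣ) = φ 1 := h1
    rw [detU_scalarU, finrank_eq, map_one] at h2
    exact h2
  have hroot : ∀ w : ℂˣ, w ^ d = 1 → Units.map τ.toMonoidHom w = w ^ k := by
    intro w hw
    apply Units.ext
    show τ (w : ℂ) = ((w ^ k : ℂˣ) : ℂ)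
    rw [hτ, Units.val_pow_eq_pow_val]
    obtain ⟨r, hr⟩ := hdG
    rw [hr, pow_mul, ← Units.val_pow_eq_pow_val, hw]
    simp
  have hexp : ∀ x : S₀, π x = 1 → x ^ (2 ^ h) = 1 := by
    intro x hx
    obtain ⟨z, hz, hzd⟩ := hker x hx
    have h1 := x.2.2.2
    rw [hz] at h1
    have h2 : W * twU τ (scalarU z) * W⁻¹ = scalarU z := h1
    rw [twU_scalarU, hroot z hzd, (scalarU_comm (z ^ k) W).symm.eq, mul_inv_cancel_right] at h2
    have h3 : z ^ k = z := scalarU_injective hd0 h2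
    have h4 : z ^ (k - 1) = 1 := by
      have h5 : z ^ (k - 1) * z = 1 * z := by
        rw [← pow_succ, Nat.sub_add_cancel hk1, h3, one_mul]
      exact mul_right_cancel h5
    -- `w = z ^ 2 ^ h` is trivial
    set w : ℂˣ := z ^ 2 ^ h with hw
    have h5 : w ^ d' = 1 := by
      rw [hw, ← pow_mul, ← hdd, hzd]
    have h6 : w ^ (k - 1) = 1 := by
      rw [hw, ← pow_mul, mul_comm, pow_mul, h4, one_pow]
    have h7 : w ^ (k + 1) = 1 := by
      obtain ⟨r, hr⟩ := hdk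
      rw [hr, pow_mul, h5, one_pow]
    have h8 : w ^ 2 = 1 := by
      have h9 : k + 1 = (k - 1) + 2 := by omega
      rw [h9, pow_add, h6, one_mul] at h7
      exact h7
    have h9 : w = 1 := by
      obtain ⟨c, hc⟩ := hd'odd
      rw [hc, pow_succ, pow_mul, h8, one_pow, one_mul] at h5
      exact h5
    apply Subtype.ext
    show x.1 ^ 2 ^ h = 1
    rw [hz, ← scalP_pow, ← hw, h9, scalP_one]
  -- the subgroup of `N`
  have hιmem : ∀ n : N, hatN ρ n ∈ S₀ := by
    intro n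
    refine ⟨hatN_mem ρ n, (hφN n).symm, ?_⟩
    apply Units.ext
    have h1 := hW n
    show (W : EE d) * twistEnd τ (ρ n) * ((W⁻¹ : (EE d)ˣ) : EE d) = ρ n
    rw [h1, mul_assoc]
    have hb : (W : EE d) * ((W⁻¹ : (EE d)ˣ) : EE d) = 1 := Units.mul_inv W
    rw [hb, mul_one]
  let ι : N →* S₀ := MonoidHom.mk' (fun n => ⟨hatN ρ n, hιmem n⟩) (fun a b => Subtype.ext (hatN_mul ρ a b))
  have hι : ∀ n : N, π (ι n) = n := fun _ => rfl
  have hιn : ι.range.Normal := by
    refine ⟨?_⟩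
    rintro _ ⟨n, rfl⟩ x
    refine ⟨⟨x.1.1 * n * x.1.1⁻¹, hN.conj_mem n n.2 x.1.1⟩, ?_⟩
    apply Subtype.ext
    apply Prod.ext
    · rfl
    · apply Units.ext
      have h1 := x.2.1 n
      show ρ _ = ((x.1.2 * MonoidHom.toHomUnits ρ n * x.1.2⁻¹ : (EE d)ˣ) : EE d)
      rw [Units.val_mul, Units.val_mul]
      show ρ _ = (x.1.2 : EE d) * ρ n * ((x.1.2⁻¹ : (EE d)ˣ) : EE d)
      rw [h1, mul_assoc (ρ _)]
      have hb : (x.1.2 : EE d) * ((x.1.2⁻¹ : (EE d)ˣ) : EE d) = 1 := Units.mul_inv x.1.2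
      rw [hb, mul_one]
  -- finiteness
  haveI : Finite π.ker := by
    haveI : NeZero d := ⟨hd0⟩
    choose z hz hzd using fun x : π.ker => hker x.1 x.2
    let F : π.ker → rootsOfUnity d ℂ := fun x => ⟨z x, (mem_rootsOfUnity _ _).2 (hzd x)⟩
    refine Finite.of_injective F fun a b hab => ?_
    apply Subtype.ext
    apply Subtype.ext
    have h1 : z a = z b := congrArg Subtype.val hab
    rw [hz, hz, h1]
  haveI : Finite S₀ := finite_of_ker π
  have hcop2 : Nat.Coprime N.index (2 ^ h) := Nat.Coprime.pow_right _ (Nat.coprime_two_right.2 hodd)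
  obtain ⟨s, hs1, hs2⟩ := exists_section π hsurj N ι hι hιn (2 ^ h) hexp hcop2
  -- the representation
  let ρ' : Representation ℂ G (Fin d → ℂ) :=
    (Units.coeHom (EE d)).comp ((MonoidHom.snd G (EE d)ˣ).comp (S₀.subtype.comp s))
  have hρ' : ∀ g, ρ' g = (((s g).1.2 : (EE d)ˣ) : EE d) := fun _ => rfl
  have hρ'N : ∀ n : N, ρ' n = ρ n := by
    intro n
    rw [hρ', hs2]
    rfl
  have hcomp : ρ'.comp N.subtype = ρ := by
    ext n : 1
    exact hρ'N n
  haveI hirr' : Representation.IsIrreducible (ρ'.comp N.subtype) := by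
    rw [hcomp]
    exact hρ
  haveI hirr : ρ'.IsIrreducible := Cfsg.Agent.Lib.Char.CyclicExt.isIrreducible_of_comp ρ' N.subtype
  refine ⟨ρ'.character, ⟨d, ρ', hirr, rfl⟩, fun n => ?_, fun g => ?_⟩
  · show LinearMap.trace ℂ _ (ρ' n) = LinearMap.trace ℂ _ (ρ n)
    rw [hρ'N]
  · rw [← map_character τ hcard hτ ρ' g pow_card_eq_one']
    show τ (LinearMap.trace ℂ _ (ρ' g)) = LinearMap.trace ℂ _ (ρ' g)
    rw [← trace_twistEnd, hρ']
    have h1 := (s g).2.2.2
    conv_rhs => rw [← h1]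
    rw [Units.val_mul, Units.val_mul, LinearMap.trace_mul_comm, ← mul_assoc]
    have h3 : ((W⁻¹ : (EE d)ˣ) : EE d) * (W : EE d) = 1 := Units.inv_mul W
    rw [h3, one_mul]
    rfl

end Inv

section Main

variable {G : Type u} [Group G] [Fintype G] {N : Subgroup G} [hN : N.Normal] [Fintype N]

open Cfsg.Agent.Lib.Char.Induced Cfsg.Agent.Lib.Char.IndNormal

theorem unique_fixed (hodd : Odd N.index) {k e : ℕ} (hk : k.Coprime (Nat.card G))
    (hke : k ^ (2 ^ e) ≡ 1 [MOD Nat.card G]) (hk₂ : ∀ g : G, Odd (orderOf g) → g ^ k = g⁻¹)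
    {θ : N → ℂ} (hθ : IsIrrCharacter N θ)
    (hinv : ∀ (g : G) (n : N), θ ⟨g * n * g⁻¹, hN.conj_mem (n : G) n.2 g⟩ = θ n)
    {X : G → ℂ} (hX : IsIrrCharacter G X) (hXN : ∀ n : N, X n = θ n) (hXfix : ∀ g, X (g ^ k) = X g)
    {X' : G → ℂ} (hX' : IsIrrCharacter G X') (hcon : classInner (fun n : N => X' n) θ ≠ 0)
    (hX'fix : ∀ g, X' (g ^ k) = X' g) : X' = X := by
  classical
  let one : N → ℂ := fun _ => 1
  have hone : IsIrrCharacter N one := isIrrCharacter_principal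
  have hprod : one * θ = θ := by
    funext n
    simp [one]
  have hbij := Cfsg.Agent.Lib.Char.Gallagher.gallagher_bijOn N hone (fun _ _ => rfl) hinv
    (by rw [hprod]; exact hθ) hX hXN
  have hX'cl := Cfsg.Agent.Lib.Char.Basic.isClassFunction_of_isCharacter (isCharacter_of_isIrrCharacter hX')
  have hfrob : ∀ (β : G → ℂ), IsClassFunction G β → classInner (indFun N one) β = classInner one (fun n : N => β n) :=
    fun β hβ => frobenius_reciprocity N one β hβ
  have hX'B : X' ∈ {ψ : G → ℂ | IsIrrCharacter G ψ ∧ classInner (indFun N (one * θ)) ψ ≠ 0} := by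
    refine ⟨hX', ?_⟩
    rw [hprod, frobenius_reciprocity N θ X' hX'cl]
    intro h0
    apply hcon
    rw [← classInner_conj_symm, h0]
    simp
  obtain ⟨β, ⟨hβ, hβc⟩, hβX⟩ := hbij.surjOn hX'B
  have hβX' : ∀ g, β g * X g = X' g := fun g => congrFun hβX g
  have hβcl := Cfsg.Agent.Lib.Char.Basic.isClassFunction_of_isCharacter (isCharacter_of_isIrrCharacter hβ)
  rw [hfrob β hβcl] at hβc
  have hβc' : classInner (fun n : N => β n) one ≠ 0 := by
    intro h0
    apply hβc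
    rw [← classInner_conj_symm, h0]
    simp
  have hres := Cfsg.Agent.Lib.Char.GallagherAvg.res_eq_smul_of_invariant N hβ hone hβc' (fun _ _ => rfl)
  have hβN : ∀ n : N, β n = β 1 := by
    intro n
    have h1 := congrFun hres n
    have h2 := congrFun hres 1
    simp only [Pi.smul_apply, smul_eq_mul, one, mul_one] at h1 h2
    rw [h1]
    exact h2.symm
  let β' : G → ℂ := fun g => β (g ^ k)
  have hβ' : IsIrrCharacter G β' := isIrrCharacter_pow_of_coprime hβ hk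
  have hβ'cl := Cfsg.Agent.Lib.Char.Basic.isClassFunction_of_isCharacter (isCharacter_of_isIrrCharacter hβ')
  have hresβ' : (fun n : N => β' n) = fun n : N => β n := by
    funext n
    show β ((n : G) ^ k) = β n
    have h1 := hβN (n ^ k)
    rw [hβN n, ← h1]
    rfl
  have hβ'c : classInner (indFun N one) β' ≠ 0 := by
    rw [hfrob β' hβ'cl, hresβ']
    exact hβc
  have hmul : (fun x : G → ℂ => x * X) β' = (fun x : G → ℂ => x * X) β := by
    funext g
    show β (g ^ k) * X g = β g * X g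
    have h1 := hβX' (g ^ k)
    rw [hXfix, hX'fix, ← hβX' g] at h1
    exact h1
  have hββ' : β' = β := hbij.injOn ⟨hβ', hβ'c⟩ ⟨hβ, by rw [hfrob β hβcl]; exact hβc⟩ hmul
  have hβfix : ∀ g, β (g ^ k) = β g := fun g => congrFun hββ' g
  obtain ⟨βb, hβb⟩ := Cfsg.Agent.Lib.Blocks.Kernel.exists_irr_of_kernel (N := N) hβ
    (fun n hn => hβN ⟨n, hn⟩)
  have hcardq : Nat.card (G ⧸ N) = N.index := rfl
  have hoddq : Odd (Nat.card (G ⧸ N)) := hodd
  have hindk : N.index ∣ k + 1 := odd_dvd_succ hke hk₂ hodd (Subgroup.index_dvd_card N)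
  have hreal : ∀ x : G ⧸ N, conj ((βb : G ⧸ N → ℂ) x) = (βb : G ⧸ N → ℂ) x := by
    intro x
    obtain ⟨g, rfl⟩ := QuotientGroup.mk_surjective x
    have h1 : ((g : G ⧸ N)) ^ (k + 1) = 1 := by
      obtain ⟨r, hr⟩ := hindk
      rw [hr, pow_mul, ← hcardq, pow_card_eq_one', one_pow]
    have h2 : ((g ^ k : G) : G ⧸ N) = (g : G ⧸ N)⁻¹ := by
      rw [QuotientGroup.mk_pow]
      rw [pow_succ] at h1
      exact eq_inv_of_mul_eq_one_left h1
    have h3 := hβfix g
    rw [hβb] at h3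
    simp only [Function.comp] at h3
    rw [h2, Cfsg.Agent.Lib.Char.Ortho.character_inv_of_isCharacter
      (isCharacter_of_isIrrCharacter βb.2)] at h3
    exact h3
  have hβb1 := real_irr_eq_principal_of_odd hoddq βb.2 hreal
  funext g
  rw [← hβX' g, hβb]
  simp [hβb1]

/-- Invariant case. -/
theorem inv_case (hodd : Odd N.index) {k e : ℕ} (hk1 : 1 ≤ k) (hk : k.Coprime (Nat.card G))
    (hke : k ^ (2 ^ e) ≡ 1 [MOD Nat.card G]) (hk₂ : ∀ g : G, Odd (orderOf g) → g ^ k = g⁻¹)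
    {θ : N → ℂ} (hθ : IsIrrCharacter N θ)
    (hinv : ∀ (g : G) (n : N), θ ⟨g * n * g⁻¹, hN.conj_mem (n : G) n.2 g⟩ = θ n)
    (hfix : ∀ n : N, θ (n ^ k) = θ n) :
    ∃ X : G → ℂ, IsIrrCharacter G X ∧ (∀ n : N, X n = θ n) ∧ (∀ g, X (g ^ k) = X g) ∧
      ∀ X' : G → ℂ, IsIrrCharacter G X' → classInner (fun n : N => X' n) θ ≠ 0 →
        (∀ g, X' (g ^ k) = X' g) → X' = X := by
  have hθ₀ := hθ
  obtain ⟨d, ρ, hρ, rfl⟩ := hθ
  obtain ⟨X, hX, hXN, hXfix⟩ := exists_fixed_ext ρ hodd hk1 hk hke hk₂ hinv hfix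
  exact ⟨X, hX, hXN, hXfix, fun X' hX' hcon hX'fix =>
    unique_fixed hodd hk hke hk₂ hθ₀ hinv hX hXN hXfix hX' hcon hX'fix⟩

lemma extendByZero_pow (T : Subgroup G) (ψ : T → ℂ) {k : ℕ} (hk : k.Coprime (Nat.card G)) (h : G) :
    extendByZero T ψ (h ^ k) = extendByZero T (fun t => ψ (t ^ k)) h := by
  by_cases hh : h ∈ T
  · have hh2 : h ^ k ∈ T := T.pow_mem hh k
    rw [extendByZero_of_mem _ _ hh2, extendByZero_of_mem _ _ hh]
    rfl
  · have hh2 : h ^ k ∉ T := by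
      intro h2
      have hc : k.Coprime (orderOf h) := Nat.Coprime.coprime_dvd_right (orderOf_dvd_natCard h) hk
      obtain ⟨m, hm⟩ := exists_pow_eq_self_of_coprime hc
      apply hh
      rw [← hm]
      exact T.pow_mem h2 m
    rw [extendByZero_of_notMem _ _ hh2, extendByZero_of_notMem _ _ hh]

lemma indFun_pow (T : Subgroup G) (ψ : T → ℂ) {k : ℕ} (hk : k.Coprime (Nat.card G)) (g : G) :
    indFun T ψ (g ^ k) = indFun T (fun t => ψ (t ^ k)) g := by
  simp only [indFun_apply]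
  congr 1
  refine Finset.sum_congr rfl fun x _ => ?_
  have h1 : x⁻¹ * g ^ k * x = (x⁻¹ * g * x) ^ k := by
    have := conj_pow (a := x⁻¹) (b := g) (i := k)
    simpa using this.symm
  rw [h1, extendByZero_pow T ψ hk]

/-- General case. -/
theorem gen_case (hodd : Odd N.index) {k e : ℕ} (hk1 : 1 ≤ k) (hk : k.Coprime (Nat.card G))
    (hke : k ^ (2 ^ e) ≡ 1 [MOD Nat.card G]) (hk₂ : ∀ g : G, Odd (orderOf g) → g ^ k = g⁻¹)
    {θ : N → ℂ} (hθ : IsIrrCharacter N θ) (hfix : ∀ n : N, θ (n ^ k) = θ n) :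
    ∃ χ : G → ℂ, IsIrrCharacter G χ ∧ classInner (fun n : N => χ n) θ ≠ 0 ∧ (∀ g, χ (g ^ k) = χ g) ∧
      ∀ χ' : G → ℂ, IsIrrCharacter G χ' → classInner (fun n : N => χ' n) θ ≠ 0 →
        (∀ g, χ' (g ^ k) = χ' g) → χ' = χ := by
  classical
  let T : Subgroup G := Cfsg.Agent.Lib.Char.Monomial.inertiaOf N θ
  have hT : ∀ g : G, g ∈ T ↔ ∀ n : N, θ ⟨g * n * g⁻¹, hN.conj_mem (n : G) n.2 g⟩ = θ n :=
    Cfsg.Agent.Lib.Char.Monomial.mem_inertiaOf N θ
  have hθcl := Cfsg.Agent.Lib.Char.Basic.isClassFunction_of_isCharacter (isCharacter_of_isIrrCharacter hθ)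
  have hHT : N ≤ T := by
    intro n hn
    rw [hT]
    intro m
    exact hθcl m ⟨n, hn⟩
  letI : Fintype T := Fintype.ofFinite _
  -- the subgroup of `T`
  let N₁ : Subgroup T := N.subgroupOf T
  haveI hN₁ : N₁.Normal := inferInstance
  letI : Fintype N₁ := Fintype.ofFinite _
  let ε : N₁ ≃* N := Subgroup.subgroupOfEquivOfLe hHT
  have hε : ∀ x : N₁, ((ε x : N) : G) = ((x : T) : G) := fun _ => rfl
  let θ₁ : N₁ → ℂ := θ ∘ ε
  have hθ₁ : IsIrrCharacter N₁ θ₁ :=
    Cfsg.Agent.Lib.Char.Basic.isIrrCharacter_comp_surjective hθ ε.toMonoidHom ε.surjective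
  have hinv₁ : ∀ (t : T) (n : N₁), θ₁ ⟨t * n * t⁻¹, hN₁.conj_mem (n : T) n.2 t⟩ = θ₁ n := by
    intro t n
    have h1 := (hT t).1 t.2 (ε n)
    show θ (ε _) = θ (ε n)
    rw [← h1]
    rfl
  have hfix₁ : ∀ n : N₁, θ₁ (n ^ k) = θ₁ n := by
    intro n
    show θ (ε (n ^ k)) = θ (ε n)
    rw [map_pow, hfix]
  have hodd₁ : Odd N₁.index :=
    Odd.of_dvd_nat hodd (Subgroup.relIndex_dvd_index_of_normal N T)
  have hcT : Nat.card T ∣ Nat.card G := Subgroup.card_subgroup_dvd_card T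
  have hkT : k.Coprime (Nat.card T) := Nat.Coprime.coprime_dvd_right hcT hk
  obtain ⟨X₀, hX₀, hX₀N, hX₀fix, hX₀uniq⟩ := inv_case hodd₁ hk1 hkT (hke.of_dvd hcT)
    (fun t ht => Subtype.ext (by
      have h1 := hk₂ t (by rwa [← Subgroup.orderOf_coe] at ht)
      simpa using h1)) hθ₁ hinv₁ hfix₁
  -- comparing inner products on `N₁` and `N`
  have hinner : ∀ ψ : T → ℂ, classInner (fun n : N₁ => ψ n) θ₁ =
      classInner (Cfsg.Agent.Lib.Char.CliffordCorr.resT N T hHT ψ) θ := by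
    intro ψ
    simp only [classInner_def]
    have hc : Nat.card N₁ = Nat.card N := Nat.card_congr ε.toEquiv
    rw [hc]
    congr 1
    exact Fintype.sum_equiv ε.toEquiv _ _ fun x => rfl
  have hres₀ : Cfsg.Agent.Lib.Char.CliffordCorr.resT N T hHT X₀ = θ := by
    funext n
    have h1 := hX₀N (ε.symm n)
    have h2 : ((ε.symm n : N₁) : T) = ⟨(n : G), hHT n.2⟩ := by
      apply Subtype.ext
      rw [← hε, MulEquiv.apply_symm_apply]
    show X₀ ⟨(n : G), hHT n.2⟩ = θ n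
    rw [← h2, h1]
    show θ (ε (ε.symm n)) = θ n
    rw [MulEquiv.apply_symm_apply]
  have hc₀ : classInner (Cfsg.Agent.Lib.Char.CliffordCorr.resT N T hHT X₀) θ ≠ 0 := by
    rw [hres₀, classInner_irr_self hθ]
    exact one_ne_zero
  have hχ := Cfsg.Agent.Lib.Char.CliffordCorr.isIrr_indFun N θ T hHT hθ hT hX₀ hc₀
  have hχfix : ∀ g, indFun T X₀ (g ^ k) = indFun T X₀ g := by
    intro g
    rw [indFun_pow T X₀ hk]
    congr 1
    funext t
    exact hX₀fix t
  have hself : classInner (indFun T X₀) (indFun T X₀) ≠ 0 := by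
    rw [classInner_irr_self hχ]
    exact one_ne_zero
  have hcore := Cfsg.Agent.Lib.Char.CliffordCorr.core N θ T hHT hθ hT hX₀ hc₀ hχ hself
  refine ⟨indFun T X₀, hχ, ?_, hχfix, ?_⟩
  · rw [← hcore.2]
    exact hc₀
  · intro χ' hχ' hcon hχ'fix
    obtain ⟨ψ, hψ, hind, hinn⟩ := Cfsg.Agent.Lib.Char.CliffordCorr.exists_indFun_eq N θ T hHT hθ hT hχ' hcon
    have hψc : classInner (Cfsg.Agent.Lib.Char.CliffordCorr.resT N T hHT ψ) θ ≠ 0 := by
      rw [hinn]
      exact hcon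
    -- the conjugate of `ψ`
    let ψ' : T → ℂ := fun t => ψ (t ^ k)
    have hψ' : IsIrrCharacter T ψ' := isIrrCharacter_pow_of_coprime hψ hkT
    have hsm := Cfsg.Agent.Lib.Char.CliffordCorr.res_eq_smul_of_inertia N θ T hHT hθ hT hψ hψc
    have hres' : Cfsg.Agent.Lib.Char.CliffordCorr.resT N T hHT ψ' =
        Cfsg.Agent.Lib.Char.CliffordCorr.resT N T hHT ψ := by
      funext n
      have h1 := congrFun hsm n
      have h2 := congrFun hsm (n ^ k)
      simp only [Pi.smul_apply, smul_eq_mul] at h1 h2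
      rw [hfix, ← h1] at h2
      exact h2
    have hψ'c : classInner (Cfsg.Agent.Lib.Char.CliffordCorr.resT N T hHT ψ') θ ≠ 0 := by
      rw [hres']
      exact hψc
    have hind' : indFun T ψ = indFun T ψ' := by
      funext g
      rw [← indFun_pow T ψ hk, hind, hχ'fix]
    have hψψ' : ψ = ψ' := Cfsg.Agent.Lib.Char.CliffordCorr.eq_of_indFun_eq N θ T hHT hθ hT hψ hψ' hψc hψ'c hind'
    have h5 : ψ = X₀ := by
      apply hX₀uniq ψ hψ
      · rw [hinner]
        exact hψc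
      · intro t
        exact (congrFun hψψ' t).symm
    rw [← hind, h5]

end Main

/-- Let N be a normal subgroup of odd index in the finite group G, and let k be coprime to the order of G with k ^ (2 ^ e) ≡ 1 modulo the order of G for some e and g ^ k = g⁻¹ for every element g of odd order (so g ↦ g ^ k induces a field automorphism of 2-power order inverting the roots of unity of odd order). If an irreducible character θ of N satisfies θ (n ^ k) = θ n for all n, then there is exactly one irreducible character χ of G with θ a constituent of its restriction to N and χ (g ^ k) = χ g for all g; moreover, if θ is invariant under conjugation by G, that χ restricts to θ. -/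
theorem result {G : Type*} [Group G] [Fintype G] (N : Subgroup G) [hN : N.Normal] [Fintype N] (hidx : Odd N.index) (k e : ℕ) (hk : Nat.Coprime k (Nat.card G)) (hke : k ^ (2 ^ e) ≡ 1 [MOD Nat.card G]) (hk₂ : ∀ g : G, Odd (orderOf g) → g ^ k = g⁻¹) (θ : Cfsg.IrrCharacter N) (hθ : ∀ n : N, (θ : N → ℂ) (n ^ k) = (θ : N → ℂ) n) : ∃ χ : Cfsg.IrrCharacter G, (Cfsg.classInner (fun n : N => (χ : G → ℂ) n) (θ : N → ℂ) ≠ 0 ∧ (∀ g : G, (χ : G → ℂ) (g ^ k) = (χ : G → ℂ) g) ∧ ((∀ g : G, ∀ n : N, (θ : N → ℂ) ⟨g * n * g⁻¹, hN.conj_mem n n.2 g⟩ = (θ : N → ℂ) n) → ∀ n : N, (χ : G → ℂ) n = (θ : N → ℂ) n)) ∧ ∀ χ' : Cfsg.IrrCharacter G, Cfsg.classInner (fun n : N => (χ' : G → ℂ) n) (θ : N → ℂ) ≠ 0 → (∀ g : G, (χ' : G → ℂ) (g ^ k) = (χ' : G → ℂ) g) → χ' = χ := by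
  classical
  -- make `k` positive
  have hpos : 0 < Nat.card G := Nat.card_pos
  set k₁ := k + Nat.card G with hk₁
  have hk1 : 1 ≤ k₁ := by omega
  have hpw : ∀ g : G, g ^ k₁ = g ^ k := by
    intro g
    rw [hk₁, pow_add, pow_card_eq_one', mul_one]
  have hpwN : ∀ n : N, n ^ k₁ = n ^ k := by
    intro n
    apply Subtype.ext
    simp [hpw]
  have hk₁c : k₁.Coprime (Nat.card G) := by
    rw [hk₁]
    simpa using hk
  have hke₁ : k₁ ^ (2 ^ e) ≡ 1 [MOD Nat.card G] := by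
    have h1 : k₁ ≡ k [MOD Nat.card G] := by
      rw [hk₁]
      simp [Nat.ModEq]
    exact (h1.pow _).trans hke
  have hk₂₁ : ∀ g : G, Odd (orderOf g) → g ^ k₁ = g⁻¹ := fun g hg => by
    rw [hpw, hk₂ g hg]
  have hfix₁ : ∀ n : N, (θ : N → ℂ) (n ^ k₁) = (θ : N → ℂ) n := fun n => by
    rw [hpwN, hθ n]
  obtain ⟨χ, hχ, hcon, hχfix, huniq⟩ := gen_case hidx hk1 hk₁c hke₁ hk₂₁ θ.2 hfix₁
  refine ⟨⟨χ, hχ⟩, ⟨hcon, fun g => ?_, fun hinv n => ?_⟩, fun χ' hχ'1 hχ'2 => Subtype.ext ?_⟩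
  · show χ (g ^ k) = χ g
    rw [← hpw, hχfix]
  · obtain ⟨X, hX, hXN, hXfix, -⟩ := inv_case hidx hk1 hk₁c hke₁ hk₂₁ θ.2 hinv hfix₁
    have h1 : classInner (fun n : N => X n) (θ : N → ℂ) ≠ 0 := by
      have h2 : (fun n : N => X n) = (θ : N → ℂ) := funext hXN
      rw [h2, classInner_irr_self θ.2]
      exact one_ne_zero
    have h2 := huniq X hX h1 hXfix
    show χ n = (θ : N → ℂ) n
    rw [← h2]
    exact hXN n
  · apply huniq _ χ'.2 hχ'1
    intro g
    rw [hpw]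
    exact hχ'2 g

end Cfsg.Agent.S4519
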