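import Cfsg.Statements.S4520
import Mathlib
import Cfsg.Agent.Lib.Blocks.Regular
import Cfsg.Agent.Lib.Blocks.Covering
import Cfsg.Agent.Lib.Blocks.RealBlock

set_option autoImplicit false
open Cfsg

set_option linter.style.haveILetI false
set_option linter.unusedVariables false
set_option linter.unusedSectionVars false

namespace Cfsg.Agent.S4520

open Cfsg.Agent.Lib.Blocks.Local Cfsg.Agent.Lib.Blocks.Central Cfsg.Agent.Lib.Blocks.Regular
  Cfsg.Agent.Lib.Blocks.Principal Cfsg.Agent.Lib.Blocks.Covering Cfsg.Agent.Lib.Blocks.BlockHom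
open scoped ComplexConjugate

variable {G : Type*} [Group G] [Fintype G] {M : Ideal AlgInt} (N : Subgroup G) [hN : N.Normal] [Fintype N]

/-- The `2`-regular elements outside `N`. -/
noncomputable def offN (y : G) : ℂ := by
  classical exact if y ∈ N then 0 else reg 2 (fun _ : G => (1 : ℂ)) y

omit [Fintype N] in
lemma offN_class : IsClassFunction G (offN N) := by
  classical
  intro g h
  have h1 := isClassFunction_reg (p := 2) (f := fun _ : G => (1 : ℂ)) (fun _ _ => rfl) g h
  have h2 : h * g * h⁻¹ ∈ N ↔ g ∈ N := ⟨fun h3 => by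
      have := hN.conj_mem _ h3 h⁻¹
      simpa [mul_assoc] using this, fun h3 => hN.conj_mem _ h3 h⟩
  by_cases hg : g ∈ N
  · simp only [offN, if_pos hg, if_pos (h2.2 hg)]
  · have hg' : h * g * h⁻¹ ∉ N := fun h3 => hg (h2.1 h3)
    simp only [offN, if_neg hg, if_neg hg', h1]

omit [Fintype N] in
lemma offN_inv (y : G) : offN N y⁻¹ = offN N y := by
  classical
  by_cases hg : y ∈ N
  · simp only [offN, if_pos hg, if_pos (N.inv_mem hg)]
  · have hg' : y⁻¹ ∉ N := fun h3 => hg (by simpa using N.inv_mem h3)
    simp only [offN, if_neg hg, if_neg hg', reg, orderOf_inv]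

omit [Fintype N] in
lemma offN_ne_zero {y : G} (h : offN N y ≠ 0) : y ∉ N ∧ ¬ 2 ∣ orderOf y := by
  classical
  constructor
  · intro hg
    exact h (by simp only [offN, if_pos hg])
  · intro hg
    apply h
    by_cases hy : y ∈ N
    · simp only [offN, if_pos hy]
    · simp only [offN, if_neg hy, reg_of_dvd _ hg]

/-- An element of odd order outside `N` is not real when `G / N` has odd order. -/
lemma not_real (hidx : Odd N.index) {y : G} (hy : y ∉ N) (h2 : ¬ 2 ∣ orderOf y) : ¬ IsConj y⁻¹ y := by
  intro hc
  classical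
  haveI : Fintype (G ⧸ N) := Fintype.ofFinite _
  set q := QuotientGroup.mk' N with hq
  have h1 : q y ≠ 1 := fun h => hy ((QuotientGroup.eq_one_iff y).1 h)
  have h3 : ¬ 2 ∣ orderOf (q y) := fun h => h2 (h.trans (orderOf_map_dvd q y))
  have h4 : IsConj (q y) (q y)⁻¹ := by
    have := (MonoidHom.map_isConj q hc).symm
    rwa [map_inv] at this
  have h5 := Cfsg.Agent.Lib.Blocks.RealBlock.even_index_of_real h1 h3 h4
  have h6 : 2 ∣ Nat.card (G ⧸ N) := h5.trans (Subgroup.index_dvd_card _)
  have h7 : Nat.card (G ⧸ N) = N.index := rfl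
  rw [h7] at h6
  obtain ⟨k, hk⟩ := hidx
  omega

omit [Fintype N] in
/-- The sum of the `2`-regular elements outside `N` acts as zero modulo `M` on characters that
are real on `2`-regular elements. -/
lemma memLocalIdeal_omega_off (hM : IsPModular 2 M) (hidx : Odd N.index) {χ : IrrCharacter G}
    (hχ : ∀ y, ¬ 2 ∣ orderOf y → (χ : G → ℂ) y⁻¹ = (χ : G → ℂ) y) :
    MemLocalIdeal M (omega (χ : G → ℂ) (ofFun (offN N))) := by
  classical
  haveI hMp := isPrime_of_isPModular hM
  haveI hchar : CharP (localRing M ⧸ localIdeal M) 2 := charP_residue hM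
  have hcl : IsClassFunction G (ofFun (offN N)).coeff := by
    intro g h
    simp only [coeff_ofFun]
    exact offN_class N g h
  rw [omega_eq_sum_centralChar (isClassFunction_of_irr χ.2) hcl]
  simp only [coeff_ofFun]
  have hof : ∀ y, MemLocalRing M (offN N y) := by
    intro y
    by_cases hy : y ∈ N
    · simp only [offN, if_pos hy]
      exact memLocalRing_zero
    · by_cases hg : 2 ∣ orderOf y
      · simp only [offN, if_neg hy, reg_of_dvd _ hg]
        exact memLocalRing_zero
      · simp only [offN, if_neg hy, reg_of_not_dvd _ hg]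
        exact memLocalRing_one
  have hloc : ∀ y, MemLocalRing M (offN N y * centralChar (χ : G → ℂ) y) := fun y =>
    memLocalRing_mul (hof y) (memLocalRing_centralChar χ.2 y)
  let z : ConjClasses G → localRing M := fun K => ⟨_, hloc K.out⟩
  let invC : ConjClasses G → ConjClasses G := fun K => ConjClasses.mk (K.out)⁻¹
  have hinv : ∀ K, z (invC K) = z K := by
    intro K
    apply Subtype.ext
    show offN N (invC K).out * centralChar (χ : G → ℂ) (invC K).out =
      offN N K.out * centralChar (χ : G → ℂ) K.out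
    have h1 : IsConj (invC K).out (K.out)⁻¹ := isConj_mk_out _
    obtain ⟨c, hc⟩ := isConj_iff.1 h1.symm
    rw [← hc, offN_class N, Cfsg.Agent.Lib.Blocks.Principal.centralChar_conj χ.2, offN_inv]
    by_cases h0 : offN N K.out = 0
    · rw [h0, zero_mul, zero_mul]
    · congr 1
      have h3 := (offN_ne_zero N h0).2
      unfold centralChar
      rw [hχ _ h3, Cfsg.Agent.Lib.Blocks.RealBlock.centralizer_inv']
  have hsum : residue M (∑ K, z K) = 0 := by
    rw [map_sum]
    refine Finset.sum_involution (fun K _ => invC K) ?_ ?_ (fun _ _ => Finset.mem_univ _) ?_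
    · intro K _
      rw [hinv]
      exact CharTwo.add_self_eq_zero _
    · intro K _ h hK
      have h0 : offN N K.out ≠ 0 := by
        intro h0
        apply h
        have : z K = 0 := by
          apply Subtype.ext
          show offN N K.out * centralChar (χ : G → ℂ) K.out = 0
          rw [h0, zero_mul]
        rw [this, map_zero]
      obtain ⟨h3, h4⟩ := offN_ne_zero N h0
      apply not_real N hidx h3 h4
      have h5 : ConjClasses.mk (K.out)⁻¹ = ConjClasses.mk K.out := by
        rw [mk_out]
        exact hK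
      exact ConjClasses.mk_eq_mk_iff_isConj.1 h5
    · intro K _
      show ConjClasses.mk ((ConjClasses.mk (K.out)⁻¹).out)⁻¹ = K
      have h1 : IsConj (ConjClasses.mk (K.out)⁻¹).out (K.out)⁻¹ := isConj_mk_out _
      have h2 : IsConj ((ConjClasses.mk (K.out)⁻¹).out)⁻¹ K.out := by
        have := isConj_iff.1 h1
        obtain ⟨c, hc⟩ := this
        refine isConj_iff.2 ⟨c, ?_⟩
        rw [← inv_inj, mul_inv_rev, mul_inv_rev, inv_inv, inv_inv, ← mul_assoc, hc]
      rw [ConjClasses.mk_eq_mk_iff_isConj.2 h2, mk_out]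
  rw [residue_eq_zero_iff] at hsum
  have h9 : ((∑ K, z K : localRing M) : ℂ) =
      ∑ K : ConjClasses G, offN N K.out * centralChar (χ : G → ℂ) K.out := by
    rw [AddSubmonoidClass.coe_finsetSum]
  rwa [h9] at hsum

/-- The decomposition of the regular sum. -/
lemma regT_eq : regT 2 G = push N (regT 2 N) + ofFun (offN N) := by
  classical
  apply ext_coeff
  intro x
  rw [MonoidAlgebra.coeff_add, Finsupp.add_apply, coeff_ofFun]
  by_cases hx : x ∈ N
  · have h1 := coeff_push_coe N (regT 2 N) ⟨x, hx⟩
    simp only at h1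
    rw [h1]
    simp only [regT, coeff_regElt, offN, if_pos hx, add_zero, reg, Subgroup.orderOf_mk]
  · rw [coeff_push_of_notMem N _ hx]
    simp only [regT, coeff_regElt, offN, if_neg hx, zero_add]

lemma class_push : IsClassFunction G (push N (regT 2 N)).coeff := by
  refine isClassFunction_push fun g n => ?_
  simp only [regT, coeff_regElt, reg]
  have h1 : orderOf (⟨g * n * g⁻¹, hN.conj_mem n n.2 g⟩ : N) = orderOf n := by
    rw [Subgroup.orderOf_mk, ← Subgroup.orderOf_coe n]
    exact orderOf_injective (MulAut.conj g).toMonoidHom (MulEquiv.injective _) (n : G)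
  rw [h1]

/-- Let N be a normal subgroup of odd index in the finite group G, M a maximal ideal of the algebraic integers containing 2, and k coprime to the order of G with k ^ (2 ^ e) ≡ 1 modulo the order of G for some e and g ^ k = g⁻¹ for every element g of odd order. Let θ be an irreducible character of N and χ an irreducible character of G over θ, both unchanged by composing with g ↦ g ^ k. Then χ lies in the principal 2-block of G if and only if θ lies in the principal 2-block of N. -/
theorem result {G : Type*} [Group G] [Fintype G] (M : Ideal Cfsg.AlgInt) (hM : Cfsg.IsPModular 2 M) (N : Subgroup G) [N.Normal] [Fintype N] (hidx : Odd N.index) (k e : ℕ) (hk : Nat.Coprime k (Nat.card G)) (hke : k ^ (2 ^ e) ≡ 1 [MOD Nat.card G]) (hk₂ : ∀ g : G, Odd (orderOf g) → g ^ k = g⁻¹) (θ : Cfsg.IrrCharacter N) (hθ : ∀ n : N, (θ : N → ℂ) (n ^ k) = (θ : N → ℂ) n) (χ : Cfsg.IrrCharacter G) (hχ : ∀ g : G, (χ : G → ℂ) (g ^ k) = (χ : G → ℂ) g) (hover : Cfsg.classInner (fun n : N => (χ : G → ℂ) n) (θ : N → ℂ) ≠ 0) : χ ∈ Cfsg.principalBlock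 M G ↔ θ ∈ Cfsg.principalBlock M N := by
  classical
  haveI hMp := isPrime_of_isPModular hM
  haveI : Fact (Nat.Prime 2) := Nat.fact_prime_two
  have hreal : ∀ y, ¬ 2 ∣ orderOf y → (χ : G → ℂ) y⁻¹ = (χ : G → ℂ) y := by
    intro y hy
    have h1 := hχ y
    rw [hk₂ y (Nat.odd_iff.2 (by omega))] at h1
    exact h1
  have h1 := memLocalIdeal_omega_off N (M := M) hM hidx hreal
  have h2 : omega (χ : G → ℂ) (regT 2 G) =
      omega (θ : N → ℂ) (regT 2 N) + omega (χ : G → ℂ) (ofFun (offN N)) := by
    rw [regT_eq N, omega_add, omega_push_eq_of_constituent χ.2 θ.2 hover (class_push N)]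
  constructor
  · intro hχB
    refine mem_principalBlock_of_not_memLocalIdeal hM fun h3 => ?_
    apply not_memLocalIdeal_omega_regT hM hχB
    rw [h2]
    exact memLocalIdeal_add h3 h1
  · intro hθB
    refine mem_principalBlock_of_not_memLocalIdeal hM fun h3 => ?_
    apply not_memLocalIdeal_omega_regT hM hθB
    have := memLocalIdeal_sub h3 h1
    rwa [h2, add_sub_cancel_right] at this

end Cfsg.Agent.S4520
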