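import Cfsg.Statements.S4521
import Mathlib
import Cfsg.Agent.Lib.Blocks.Regular
import Cfsg.Agent.Lib.Blocks.FongMain
import Cfsg.Agent.Lib.Char.Integrality
import Cfsg.Agent.Lib.Char.GallagherAvg

set_option autoImplicit false
set_option linter.style.haveILetI false
set_option linter.unusedSectionVars false

open Cfsg Cfsg.Agent.Lib.Blocks.Local Cfsg.Agent.Lib.Blocks.Central Cfsg.Agent.Lib.Blocks.Osima
open Cfsg.Agent.Lib.Blocks.Regular
open Cfsg.Agent.Lib.Char.Basic Cfsg.Agent.Lib.Char.Ortho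

namespace Cfsg.Agent.S4521

universe u

section Mul

variable {G : Type u} [Group G]

lemma normal_left (U₁ U₂ : Subgroup G) (hcomm : ∀ u ∈ U₁, ∀ v ∈ U₂, u * v = v * u) (hgen : U₁ ⊔ U₂ = ⊤) :
    U₁.Normal := by
  rw [← Subgroup.normalizer_eq_top_iff, eq_top_iff, ← hgen]
  refine sup_le Subgroup.le_normalizer ?_
  intro v hv
  rw [Subgroup.mem_normalizer_iff]
  intro h
  have hconj : ∀ u ∈ U₁, v * u * v⁻¹ = u := fun u hu => by
    rw [← hcomm u hu v hv]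
    group
  constructor
  · intro hh
    rwa [hconj h hh]
  · intro hh
    have h1 : v⁻¹ * (v * h * v⁻¹) * v = h := by group
    have h2 : v⁻¹ * (v * h * v⁻¹) * v = v * h * v⁻¹ := by
      have h3 := hcomm _ hh v hv
      calc v⁻¹ * (v * h * v⁻¹) * v = v⁻¹ * ((v * h * v⁻¹) * v) := by group
        _ = v⁻¹ * (v * (v * h * v⁻¹)) := by rw [h3]
        _ = v * h * v⁻¹ := by group
    rw [← h1, h2]
    exact hh

lemma normal_right (U₁ U₂ : Subgroup G) (hcomm : ∀ u ∈ U₁, ∀ v ∈ U₂, u * v = v * u) (hgen : U₁ ⊔ U₂ = ⊤) :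
    U₂.Normal :=
  normal_left U₂ U₁ (fun u hu v hv => (hcomm v hv u hu).symm) (by rw [sup_comm, hgen])

variable [Fintype G]

/-- The value of an irreducible character on a product of commuting pieces. -/
theorem character_mul_commuting {n : ℕ} (ρ : Representation ℂ G (Fin n → ℂ)) [hρ : ρ.IsIrreducible]
    (U₁ U₂ : Subgroup G) [Fintype U₁] (hcomm : ∀ u ∈ U₁, ∀ v ∈ U₂, u * v = v * u) (hgen : U₁ ⊔ U₂ = ⊤)
    {a b : G} (ha : a ∈ U₁) (hb : b ∈ U₂) :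
    ρ.character (a * b) * ρ.character 1 = ρ.character a * ρ.character b := by
  classical
  haveI hU₁ := normal_left U₁ U₂ hcomm hgen
  set z : (Fin n → ℂ) →ₗ[ℂ] (Fin n → ℂ) := ∑ x : U₁, ρ ((x : G) * a * (x : G)⁻¹) with hz
  have hzapp : ∀ w, z w = ∑ x : U₁, ρ ((x : G) * a * (x : G)⁻¹) w := by
    intro w
    simp [hz, LinearMap.sum_apply]
  have hzc : ∀ g, z ∘ₗ ρ g = ρ g ∘ₗ z := by
    intro g
    have hg : g ∈ U₁ ⊔ U₂ := by
      rw [hgen]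
      trivial
    obtain ⟨u, hu, v, hv, rfl⟩ := Subgroup.mem_sup_of_normal_left.1 hg
    refine LinearMap.ext fun w => ?_
    rw [LinearMap.comp_apply, LinearMap.comp_apply, hzapp, hzapp, map_sum]
    refine (Equiv.sum_comp (Equiv.mulLeft (⟨u, hu⟩ : U₁)) _).symm.trans ?_
    refine Finset.sum_congr rfl fun x _ => ?_
    have h1 : u * (x : G) * a * (u * (x : G))⁻¹ * u = u * ((x : G) * a * (x : G)⁻¹) := by group
    have h2 : ρ v (ρ ((x : G) * a * (x : G)⁻¹) w) = ρ ((x : G) * a * (x : G)⁻¹) (ρ v w) := by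
      rw [← Module.End.mul_apply, ← Module.End.mul_apply, ← map_mul, ← map_mul,
        hcomm _ (U₁.mul_mem (U₁.mul_mem x.2 ha) (U₁.inv_mem x.2)) v hv]
    have hmul : ∀ (c d : G) (w' : Fin n → ℂ), ρ c (ρ d w') = ρ (c * d) w' := by
      intro c d w'
      rw [map_mul]
      rfl
    show ρ (u * (x : G) * a * (u * (x : G))⁻¹) (ρ (u * v) w) = ρ (u * v) (ρ ((x : G) * a * (x : G)⁻¹) w)
    rw [← hmul u v, ← hmul u v, hmul, h1, ← hmul, h2]
  have hmul0 : ∀ (c d : G) (w' : Fin n → ℂ), ρ (c * d) w' = ρ c (ρ d w') := by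
    intro c d w'
    rw [map_mul]
    rfl
  have hz2 := Cfsg.Agent.Lib.Char.Integrality.eq_trace_div_smul_of_commute ρ z hzc
  have hcard : (Nat.card U₁ : ℂ) ≠ 0 := Nat.cast_ne_zero.2 Nat.card_pos.ne'
  have hclass : ∀ (c : G) (x : U₁), ρ.character ((x : G) * c * (x : G)⁻¹) = ρ.character c := by
    intro c x
    exact isClassFunction_of_isCharacter (isCharacter_of_rep ρ) c x
  have htrz : LinearMap.trace ℂ _ z = (Nat.card U₁ : ℂ) * ρ.character a := by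
    rw [hz, map_sum]
    have h3 : ∀ x : U₁, LinearMap.trace ℂ _ (ρ ((x : G) * a * (x : G)⁻¹)) = ρ.character a := fun x => hclass a x
    simp only [h3, Finset.sum_const, Finset.card_univ, nsmul_eq_mul, Nat.card_eq_fintype_card]
  have htrzb : LinearMap.trace ℂ _ (z ∘ₗ ρ b) = (Nat.card U₁ : ℂ) * ρ.character (a * b) := by
    have h3 : z ∘ₗ ρ b = ∑ x : U₁, ρ (((x : G) * a * (x : G)⁻¹) * b) := by
      refine LinearMap.ext fun w => ?_
      rw [LinearMap.comp_apply, hzapp, LinearMap.sum_apply]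
      refine Finset.sum_congr rfl fun x _ => ?_
      exact (hmul0 _ _ _).symm
    rw [h3, map_sum]
    have h4 : ∀ x : U₁, LinearMap.trace ℂ _ (ρ (((x : G) * a * (x : G)⁻¹) * b)) = ρ.character (a * b) := by
      intro x
      have h5 : ((x : G) * a * (x : G)⁻¹) * b = (x : G) * (a * b) * (x : G)⁻¹ := by
        have h6 : (x : G)⁻¹ * b = b * (x : G)⁻¹ := by
          have := hcomm _ (U₁.inv_mem x.2) b hb
          exact this
        calc ((x : G) * a * (x : G)⁻¹) * b = (x : G) * a * ((x : G)⁻¹ * b) := by group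
          _ = (x : G) * a * (b * (x : G)⁻¹) := by rw [h6]
          _ = (x : G) * (a * b) * (x : G)⁻¹ := by group
      rw [h5]
      exact hclass (a * b) x
    simp only [h4, Finset.sum_const, Finset.card_univ, nsmul_eq_mul, Nat.card_eq_fintype_card]
  have hd : ρ.character 1 = (Module.finrank ℂ (Fin n → ℂ) : ℂ) := Representation.char_one ρ
  have hd0 : ρ.character 1 ≠ 0 := by
    rw [hd]
    exact Nat.cast_ne_zero.2 (Cfsg.Agent.Lib.Char.Integrality.finrank_ne_zero_of_isIrreducible ρ)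
  rw [hz2, LinearMap.smul_comp, LinearMap.id_comp, map_smul, smul_eq_mul, htrz] at htrzb
  have hb' : LinearMap.trace ℂ _ (ρ b) = ρ.character b := rfl
  rw [hb', ← hd] at htrzb
  field_simp at htrzb
  rw [htrzb]
  ring

end Mul

section Bij

variable {G : Type u} [Group G] {p : ℕ} [hp : Fact p.Prime]

lemma not_dvd_orderOf_mul {a b : G} (hab : Commute a b) (ha : ¬ p ∣ orderOf a) (hb : ¬ p ∣ orderOf b) :
    ¬ p ∣ orderOf (a * b) := fun h => by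
  have h1 := h.trans hab.orderOf_mul_dvd_lcm
  rcases (Nat.Prime.dvd_lcm hp.out).1 h1 with h2 | h2
  · exact ha h2
  · exact hb h2

lemma isPPart_one {a : G} (ha : ¬ p ∣ orderOf a) : IsPPart p a (1 : G) :=
  ⟨a, one_mul a, Commute.one_left a, ⟨0, by simp⟩, ha⟩

/-- A `p`-regular element `g = u₁ u₂` has `p`-regular factors up to a central `p`-element:
it is a product of `p`-regular elements. -/
lemma exists_regular_factors (U₁ U₂ : Subgroup G) [Finite G]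
    (hcomm : ∀ u ∈ U₁, ∀ v ∈ U₂, u * v = v * u) {g : G} (hg : ¬ p ∣ orderOf g)
    {u₁ u₂ : G} (h₁ : u₁ ∈ U₁) (h₂ : u₂ ∈ U₂) (hu : u₁ * u₂ = g) :
    ∃ a ∈ U₁, ∃ b ∈ U₂, ¬ p ∣ orderOf a ∧ ¬ p ∣ orderOf b ∧ a * b = g := by
  obtain ⟨x₁, hx₁⟩ := Cfsg.Agent.Lib.Blocks.SecondMain.exists_isPPart p u₁
  obtain ⟨x₂, hx₂⟩ := Cfsg.Agent.Lib.Blocks.SecondMain.exists_isPPart p u₂
  obtain ⟨s₁, hs₁⟩ := Cfsg.Agent.Lib.Blocks.Sections.isPPart_exists_pow_eq hx₁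
  obtain ⟨s₂, hs₂⟩ := Cfsg.Agent.Lib.Blocks.Sections.isPPart_exists_pow_eq hx₂
  obtain ⟨y₁, hy₁, hc₁, ⟨k₁, hk₁⟩, hr₁⟩ := hx₁
  obtain ⟨y₂, hy₂, hc₂, ⟨k₂, hk₂⟩, hr₂⟩ := hx₂
  have hx₁m : x₁ ∈ U₁ := hs₁ ▸ U₁.pow_mem h₁ s₁
  have hx₂m : x₂ ∈ U₂ := hs₂ ▸ U₂.pow_mem h₂ s₂
  have hy₁m : y₁ ∈ U₁ := by
    have : y₁ = x₁⁻¹ * u₁ := by rw [← hy₁]; group
    rw [this]
    exact U₁.mul_mem (U₁.inv_mem hx₁m) h₁
  have hy₂m : y₂ ∈ U₂ := by
    have : y₂ = x₂⁻¹ * u₂ := by rw [← hy₂]; group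
    rw [this]
    exact U₂.mul_mem (U₂.inv_mem hx₂m) h₂
  have hcxx : Commute x₁ x₂ := hcomm _ hx₁m _ hx₂m
  have hcyy : Commute y₁ y₂ := hcomm _ hy₁m _ hy₂m
  have hcxy : Commute x₁ y₂ := hcomm _ hx₁m _ hy₂m
  have hcyx : Commute y₁ x₂ := hcomm _ hy₁m _ hx₂m
  have hxx : IsPPart p g (x₁ * x₂) := by
    refine ⟨y₁ * y₂, ?_, ?_, ?_, not_dvd_orderOf_mul hcyy hr₁ hr₂⟩
    · rw [← hu, ← hy₁, ← hy₂]
      calc x₁ * x₂ * (y₁ * y₂) = x₁ * (x₂ * y₁) * y₂ := by group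
        _ = x₁ * (y₁ * x₂) * y₂ := by rw [(hcyx.eq).symm]
        _ = x₁ * y₁ * (x₂ * y₂) := by group
    · exact (hc₁.mul_right hcxy).mul_left (hcyx.symm.mul_right hc₂)
    · have h1 : IsPGroup p (Subgroup.zpowers (x₁ * x₂)) := by
        have h2 : (x₁ * x₂) ^ (p ^ (k₁ + k₂)) = 1 := by
          rw [hcxx.mul_pow]
          have h3 : x₁ ^ (p ^ (k₁ + k₂)) = 1 := by
            rw [pow_add, pow_mul, ← hk₁, pow_orderOf_eq_one, one_pow]
          have h4 : x₂ ^ (p ^ (k₁ + k₂)) = 1 := by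
            rw [pow_add, mul_comm, pow_mul, ← hk₂, pow_orderOf_eq_one, one_pow]
          rw [h3, h4, one_mul]
        obtain ⟨k, -, hk⟩ := (Nat.dvd_prime_pow hp.out).1 (orderOf_dvd_of_pow_eq_one h2)
        intro z
        obtain ⟨i, hi⟩ := Subgroup.mem_zpowers_iff.1 z.2
        refine ⟨k, Subtype.ext ?_⟩
        rw [Subgroup.coe_pow, ← hi, ← zpow_natCast, ← zpow_mul, mul_comm, zpow_mul, zpow_natCast]
        have : (x₁ * x₂) ^ (p ^ k) = 1 := by rw [← hk, pow_orderOf_eq_one]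
        rw [this, one_zpow]
        rfl
      have h2 : (x₁ * x₂) ^ (p ^ (k₁ + k₂)) = 1 := by
        rw [hcxx.mul_pow]
        have h3 : x₁ ^ (p ^ (k₁ + k₂)) = 1 := by
          rw [pow_add, pow_mul, ← hk₁, pow_orderOf_eq_one, one_pow]
        have h4 : x₂ ^ (p ^ (k₁ + k₂)) = 1 := by
          rw [pow_add, mul_comm, pow_mul, ← hk₂, pow_orderOf_eq_one, one_pow]
        rw [h3, h4, one_mul]
      obtain ⟨k, -, hk⟩ := (Nat.dvd_prime_pow hp.out).1 (orderOf_dvd_of_pow_eq_one h2)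
      exact ⟨k, hk⟩
  have h1 := Cfsg.Agent.Lib.Blocks.Sections.isPPart_unique hxx (isPPart_one hg)
  refine ⟨y₁, hy₁m, y₂, hy₂m, hr₁, hr₂, ?_⟩
  have h2 : x₁ * x₂ * (y₁ * y₂) = g := by
    rw [← hu, ← hy₁, ← hy₂]
    calc x₁ * x₂ * (y₁ * y₂) = x₁ * (x₂ * y₁) * y₂ := by group
      _ = x₁ * (y₁ * x₂) * y₂ := by rw [(hcyx.eq).symm]
      _ = x₁ * y₁ * (x₂ * y₂) := by group
  rw [h1, one_mul] at h2
  exact h2

/-- Uniqueness of the regular factorisation. -/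
lemma regular_factors_unique (U₁ U₂ : Subgroup G) [Finite G]
    (hcomm : ∀ u ∈ U₁, ∀ v ∈ U₂, u * v = v * u) (hZ : IsPGroup p ↥(U₁ ⊓ U₂))
    {a a' b b' : G} (ha : a ∈ U₁) (ha' : a' ∈ U₁) (hb : b ∈ U₂) (hb' : b' ∈ U₂)
    (hra : ¬ p ∣ orderOf a) (hra' : ¬ p ∣ orderOf a') (h : a * b = a' * b') :
    a = a' ∧ b = b' := by
  set z : G := a'⁻¹ * a with hz
  have hz₁ : z ∈ U₁ := U₁.mul_mem (U₁.inv_mem ha') ha
  have hz₂ : z = b' * b⁻¹ := by
    rw [hz]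
    have : a = a' * b' * b⁻¹ := by rw [← h]; group
    rw [this]
    group
  have hz₂m : z ∈ U₂ := hz₂ ▸ U₂.mul_mem hb' (U₂.inv_mem hb)
  obtain ⟨k, hk⟩ := hZ ⟨z, hz₁, hz₂m⟩
  have hk' : z ^ (p ^ k) = 1 := by
    have := congrArg Subtype.val hk
    simpa using this
  obtain ⟨j, -, hj⟩ := (Nat.dvd_prime_pow hp.out).1 (orderOf_dvd_of_pow_eq_one hk')
  have hpart : IsPPart p a z := by
    refine ⟨a', ?_, ?_, ⟨j, hj⟩, hra'⟩
    · have : Commute z a' := (hcomm _ ha' _ hz₂m).symm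
      rw [this.eq, hz]
      group
    · exact (hcomm _ ha' _ hz₂m).symm
  have h1 := Cfsg.Agent.Lib.Blocks.Sections.isPPart_unique hpart (isPPart_one hra)
  have h2 : a = a' := by
    have : a' * z = a := by rw [hz]; group
    rw [h1, mul_one] at this
    exact this.symm
  refine ⟨h2, ?_⟩
  rw [h2] at h
  exact mul_left_cancel h

end Bij

section Main

variable {G : Type u} [Group G] [Fintype G] {p : ℕ} [hp : Fact p.Prime]

/-- The sum over the `p`-regular elements of a central product. -/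
theorem sum_regular_prod (U₁ U₂ : Subgroup G) [Fintype U₁] [Fintype U₂]
    (hcomm : ∀ u ∈ U₁, ∀ v ∈ U₂, u * v = v * u) (hgen : U₁ ⊔ U₂ = ⊤) (hZ : IsPGroup p ↥(U₁ ⊓ U₂))
    (f : G → ℂ) :
    ∑ g : G, reg p (fun _ => (1 : ℂ)) g * f g =
      ∑ a : U₁, ∑ b : U₂, reg p (fun _ => (1 : ℂ)) a * reg p (fun _ => (1 : ℂ)) b * f (a * b) := by
  classical
  haveI hU₁ := normal_left U₁ U₂ hcomm hgen
  have hR : ∀ {H : Type u} [Group H] (x : H) (c : ℂ), reg p (fun _ => (1 : ℂ)) x * c =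
      if ¬ p ∣ orderOf x then c else 0 := by
    intro H _ x c
    by_cases h : p ∣ orderOf x
    · simp [reg_of_dvd, h]
    · simp [reg_of_not_dvd, h]
  have hordU₁ : ∀ a : U₁, orderOf a = orderOf (a : G) := fun a => (Subgroup.orderOf_coe a).symm
  have hordU₂ : ∀ a : U₂, orderOf a = orderOf (a : G) := fun a => (Subgroup.orderOf_coe a).symm
  have hL : ∑ g : G, reg p (fun _ => (1 : ℂ)) g * f g =
      ∑ g ∈ Finset.univ.filter (fun g : G => ¬ p ∣ orderOf g), f g := by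
    rw [Finset.sum_filter]
    exact Finset.sum_congr rfl fun g _ => hR g _
  have hRR : ∑ a : U₁, ∑ b : U₂, reg p (fun _ => (1 : ℂ)) a * reg p (fun _ => (1 : ℂ)) b * f (a * b) =
      ∑ x ∈ Finset.univ.filter (fun x : U₁ × U₂ => ¬ p ∣ orderOf (x.1 : G) ∧ ¬ p ∣ orderOf (x.2 : G)),
        f (x.1 * x.2) := by
    rw [← Finset.sum_product', Finset.sum_filter]
    refine Finset.sum_congr rfl fun x _ => ?_
    by_cases h1 : p ∣ orderOf (x.1 : G)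
    · rw [reg_of_dvd _ (by rw [hordU₁]; exact h1), if_neg (fun h => h.1 h1)]
      simp
    · by_cases h2 : p ∣ orderOf (x.2 : G)
      · rw [reg_of_dvd (G := U₂) _ (by rw [hordU₂]; exact h2), if_neg (fun h => h.2 h2)]
        simp
      · rw [reg_of_not_dvd _ (by rw [hordU₁]; exact h1),
          reg_of_not_dvd (G := U₂) _ (by rw [hordU₂]; exact h2), if_pos ⟨h1, h2⟩]
        simp
  rw [hL, hRR]
  symm
  refine Finset.sum_bij (fun x _ => (x.1 : G) * x.2) ?_ ?_ ?_ (fun _ _ => rfl)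
  · intro x hx
    simp only [Finset.mem_filter, Finset.mem_univ, true_and] at hx ⊢
    exact not_dvd_orderOf_mul (hcomm _ x.1.2 _ x.2.2) hx.1 hx.2
  · intro x hx y hy hxy
    simp only [Finset.mem_filter, Finset.mem_univ, true_and] at hx hy
    obtain ⟨h1, h2⟩ := regular_factors_unique U₁ U₂ hcomm hZ x.1.2 y.1.2 x.2.2 y.2.2 hx.1 hy.1 hxy
    exact Prod.ext (Subtype.ext h1) (Subtype.ext h2)
  · intro g hg
    simp only [Finset.mem_filter, Finset.mem_univ, true_and] at hg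
    have hg' : g ∈ U₁ ⊔ U₂ := by
      rw [hgen]
      trivial
    obtain ⟨u, hu, v, hv, rfl⟩ := Subgroup.mem_sup_of_normal_left.1 hg'
    obtain ⟨a, ha, b, hb, hra, hrb, hab⟩ := exists_regular_factors U₁ U₂ hcomm hg hu hv rfl
    exact ⟨(⟨a, ha⟩, ⟨b, hb⟩), by simp only [Finset.mem_filter, Finset.mem_univ, true_and]; exact ⟨hra, hrb⟩, hab⟩

theorem omega_regT_prod (U₁ U₂ : Subgroup G) [Fintype U₁] [Fintype U₂]
    (hcomm : ∀ u ∈ U₁, ∀ v ∈ U₂, u * v = v * u) (hgen : U₁ ⊔ U₂ = ⊤) (hZ : IsPGroup p ↥(U₁ ⊓ U₂))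
    (χ : IrrCharacter G) (ψ₁ : IrrCharacter U₁) (ψ₂ : IrrCharacter U₂)
    (h₁ : classInner (fun u : U₁ => (χ : G → ℂ) u) (ψ₁ : U₁ → ℂ) ≠ 0)
    (h₂ : classInner (fun u : U₂ => (χ : G → ℂ) u) (ψ₂ : U₂ → ℂ) ≠ 0) :
    omega (χ : G → ℂ) (Cfsg.Agent.Lib.Blocks.Regular.regT p G) =
      omega (ψ₁ : U₁ → ℂ) (Cfsg.Agent.Lib.Blocks.Regular.regT p U₁) *
        omega (ψ₂ : U₂ → ℂ) (Cfsg.Agent.Lib.Blocks.Regular.regT p U₂) := by
  classical
  haveI hU₁ := normal_left U₁ U₂ hcomm hgen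
  haveI hU₂ := normal_right U₁ U₂ hcomm hgen
  have hinv₁ : ∀ (g : G) (n : U₁), (ψ₁ : U₁ → ℂ) (Cfsg.Agent.Lib.Char.DegreeDvd.cn g n) = (ψ₁ : U₁ → ℂ) n := by
    intro g n
    have hg' : g ∈ U₁ ⊔ U₂ := by
      rw [hgen]
      trivial
    obtain ⟨u, hu, v, hv, rfl⟩ := Subgroup.mem_sup_of_normal_left.1 hg'
    have h3 : Cfsg.Agent.Lib.Char.DegreeDvd.cn (u * v) n = (⟨u, hu⟩ : U₁) * n * (⟨u, hu⟩ : U₁)⁻¹ := by
      apply Subtype.ext
      show (u * v) * (n : G) * (u * v)⁻¹ = u * (n : G) * u⁻¹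
      have : v * (n : G) = n * v := (hcomm _ n.2 _ hv).symm
      calc (u * v) * (n : G) * (u * v)⁻¹ = u * (v * (n : G)) * v⁻¹ * u⁻¹ := by group
        _ = u * ((n : G) * v) * v⁻¹ * u⁻¹ := by rw [this]
        _ = u * (n : G) * u⁻¹ := by group
    rw [h3]
    exact isClassFunction_of_isCharacter (isCharacter_of_isIrrCharacter ψ₁.2) n _
  have hinv₂ : ∀ (g : G) (n : U₂), (ψ₂ : U₂ → ℂ) (Cfsg.Agent.Lib.Char.DegreeDvd.cn g n) = (ψ₂ : U₂ → ℂ) n := by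
    intro g n
    have hg' : g ∈ U₂ ⊔ U₁ := by
      rw [sup_comm, hgen]
      trivial
    obtain ⟨u, hu, v, hv, rfl⟩ := Subgroup.mem_sup_of_normal_left.1 hg'
    have h3 : Cfsg.Agent.Lib.Char.DegreeDvd.cn (u * v) n = (⟨u, hu⟩ : U₂) * n * (⟨u, hu⟩ : U₂)⁻¹ := by
      apply Subtype.ext
      show (u * v) * (n : G) * (u * v)⁻¹ = u * (n : G) * u⁻¹
      have : v * (n : G) = n * v := hcomm _ hv _ n.2
      calc (u * v) * (n : G) * (u * v)⁻¹ = u * (v * (n : G)) * v⁻¹ * u⁻¹ := by group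
        _ = u * ((n : G) * v) * v⁻¹ * u⁻¹ := by rw [this]
        _ = u * (n : G) * u⁻¹ := by group
    rw [h3]
    exact isClassFunction_of_isCharacter (isCharacter_of_isIrrCharacter ψ₂.2) n _
  have hv₁ := fun n : U₁ => Cfsg.Agent.Lib.Blocks.FongMain.character_mul_of_invariant ψ₁.2 hinv₁ (χ := χ) h₁ n
  have hv₂ := fun n : U₂ => Cfsg.Agent.Lib.Blocks.FongMain.character_mul_of_invariant ψ₂.2 hinv₂ (χ := χ) h₂ n
  have hdeg : ∀ {H : Type u} [Group H] (θ : IrrCharacter H), (θ : H → ℂ) 1 ≠ 0 := by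
    intro H _ θ
    obtain ⟨d, ρ, hρ, h⟩ := θ.2
    rw [← h, Representation.char_one]
    exact Nat.cast_ne_zero.2 (Cfsg.Agent.Lib.Char.Integrality.finrank_ne_zero_of_isIrreducible ρ)
  have hχ1 := hdeg χ
  have hψ1 := hdeg ψ₁
  have hψ2 := hdeg ψ₂
  have hprod : ∀ (a : U₁) (b : U₂), (χ : G → ℂ) (a * b) / (χ : G → ℂ) 1 =
      ((ψ₁ : U₁ → ℂ) a / (ψ₁ : U₁ → ℂ) 1) * ((ψ₂ : U₂ → ℂ) b / (ψ₂ : U₂ → ℂ) 1) := by
    intro a b
    obtain ⟨d, ρ, hρ, h⟩ := χ.2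
    have hh := character_mul_commuting ρ U₁ U₂ hcomm hgen a.2 b.2
    rw [h] at hh
    have e₁ := hv₁ a
    have e₂ := hv₂ b
    have e₁' : (χ : G → ℂ) a / (χ : G → ℂ) 1 = (ψ₁ : U₁ → ℂ) a / (ψ₁ : U₁ → ℂ) 1 := by
      field_simp
      linear_combination e₁
    have e₂' : (χ : G → ℂ) b / (χ : G → ℂ) 1 = (ψ₂ : U₂ → ℂ) b / (ψ₂ : U₂ → ℂ) 1 := by
      field_simp
      linear_combination e₂
    rw [← e₁', ← e₂']
    field_simp
    linear_combination hh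
  simp only [omega, Cfsg.Agent.Lib.Blocks.Regular.regT, coeff_regElt]
  rw [sum_regular_prod U₁ U₂ hcomm hgen hZ, Finset.sum_div, div_mul_div_comm, Finset.sum_mul_sum,
    Finset.sum_div]
  refine Finset.sum_congr rfl fun a _ => ?_
  rw [Finset.sum_div, Finset.sum_div]
  refine Finset.sum_congr rfl fun b _ => ?_
  have := hprod a b
  rw [div_mul_div_comm] at this
  calc reg p (fun _ => (1 : ℂ)) a * reg p (fun _ => (1 : ℂ)) b * (χ : G → ℂ) (a * b) / (χ : G → ℂ) 1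
      = reg p (fun _ => (1 : ℂ)) a * reg p (fun _ => (1 : ℂ)) b * ((χ : G → ℂ) (a * b) / (χ : G → ℂ) 1) := by
        ring
    _ = _ := by
        rw [this]
        ring

end Main

/-- Statement. -/
theorem result {G : Type*} [Group G] [Fintype G] (p : ℕ) [Fact p.Prime] (M : Ideal Cfsg.AlgInt)
    (hM : Cfsg.IsPModular p M) (U₁ U₂ : Subgroup G) [Fintype U₁] [Fintype U₂]
    (hcomm : ∀ u ∈ U₁, ∀ v ∈ U₂, u * v = v * u) (hgen : U₁ ⊔ U₂ = ⊤)
    (hZ : IsPGroup p ↥(U₁ ⊓ U₂)) (χ : Cfsg.IrrCharacter G) (ψ₁ : Cfsg.IrrCharacter U₁)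
    (ψ₂ : Cfsg.IrrCharacter U₂)
    (h₁ : Cfsg.classInner (fun u : U₁ => (χ : G → ℂ) u) (ψ₁ : U₁ → ℂ) ≠ 0)
    (h₂ : Cfsg.classInner (fun u : U₂ => (χ : G → ℂ) u) (ψ₂ : U₂ → ℂ) ≠ 0) :
    χ ∈ Cfsg.principalBlock M G ↔
      (ψ₁ ∈ Cfsg.principalBlock M U₁ ∧ ψ₂ ∈ Cfsg.principalBlock M U₂) := by
  haveI := isPrime_of_isPModular hM
  rw [mem_principalBlock_iff_omega_regT hM, mem_principalBlock_iff_omega_regT hM,
    mem_principalBlock_iff_omega_regT hM, omega_regT_prod U₁ U₂ hcomm hgen hZ χ ψ₁ ψ₂ h₁ h₂]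
  exact mul_ne_zero_iff

end Cfsg.Agent.S4521
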