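import Cfsg.Statements.S4540
import Mathlib
import Cfsg.Agent.Lib.Blocks.MajorSub3

set_option autoImplicit false
open Cfsg

namespace Cfsg.Agent.S4540


/-- Let B be a 2-block of the finite group G (relative to a maximal ideal M of the algebraic integers containing 2) of defect d with defect group D. Let z be an element of D commuting with every element of D, and let b be a block of the centralizer C of z with defect group D that induces B (a major subsection (z, b)). If b has 2-regular rank at most three, then 3·k(B) ≤ 3·k₀(B) + 2·Σ 2 ^ h(χ), where k(B) is the number of members of B, k₀(B) the number of members of height zero, and the sum runs over the members χ of B of positive height h(χ); this bound is at most 3·2 ^ d, so in particular B contains at most 2 ^ d irreducible characters. -/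
theorem result {G : Type*} [Group G] [Finite G] (M : Ideal Cfsg.AlgInt) (hM : Cfsg.IsPModular 2 M) (B : Set (Cfsg.IrrCharacter G)) (hB : Cfsg.IsPBlock M B) (D : Subgroup G) (hD : Cfsg.IsDefectGroup 2 M B D) (z : G) (hzD : z ∈ D) (hzc : ∀ d ∈ D, d * z = z * d) (b : Set (Cfsg.IrrCharacter ↥(Subgroup.centralizer ({z} : Set G)))) (hb : Cfsg.IsInducedBlock M (Subgroup.centralizer ({z} : Set G)) b B) (hbD : Cfsg.IsDefectGroup 2 M b (D.subgroupOf (Subgroup.centralizer ({z} : Set G)))) (hl : Cfsg.blockRank 2 b ≤ 3) : 3 * Nat.card B ≤ 3 * Nat.card {χ : Cfsg.IrrCharacter G // χ ∈ B ∧ Cfsg.blockHeight 2 B (χ : G → ℂ) = 0} + 2 * (∑ᶠ χ ∈ {χ : Cfsg.IrrCharacter G | χ ∈ B ∧ 1 ≤ Cfsg.blockHeight 2 B (χ : G → ℂ)}, 2 ^ Cfsg.blockHeight 2 B (χ : G → ℂ)) ∧ 3 * Nat.card {χ : Cfsg.IrrCharacter G // χ ∈ B ∧ Cfsg.blockHeight 2 B (χ : G → ℂ) = 0} + 2 * (∑ᶠ χ ∈ {χ : Cfsg.IrrCharacter G | χ ∈ B ∧ 1 ≤ Cfsg.blockHeight 2 B (χ : G → ℂ)},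 2 ^ Cfsg.blockHeight 2 B (χ : G → ℂ)) ≤ 3 * 2 ^ Cfsg.blockDefect 2 B := by
  classical
  cases nonempty_fintype G
  haveI := Cfsg.Agent.Lib.Blocks.Local.isPrime_of_isPModular hM
  haveI : Fintype (Subgroup.centralizer ({z} : Set G)) := Fintype.ofFinite _
  haveI : Fact (Nat.Prime 2) := ⟨Nat.prime_two⟩
  have hzp : ∃ k : ℕ, orderOf z = 2 ^ k := by
    have hcard := Cfsg.Agent.S0908.result 2 M hM B hB D hD
    have h1 : orderOf (⟨z, hzD⟩ : D) ∣ 2 ^ Cfsg.blockDefect 2 B := by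
      rw [← hcard]
      exact orderOf_dvd_natCard _
    obtain ⟨k, -, hk⟩ := (Nat.dvd_prime_pow Nat.prime_two).1 h1
    exact ⟨k, by rw [← hk, Subgroup.orderOf_mk]⟩
  obtain ⟨k, hk⟩ := hzp
  have hd := Cfsg.Agent.Lib.Blocks.MajorSub3.defect_eq hM hB hD hzc hb.1 hbD
  have hD2 := Cfsg.Agent.Lib.Blocks.MajorSub3.major2 hM hk hb hd
  have hc : 0 < 2 ^ Cfsg.blockDefect 2 b := by positivity
  obtain ⟨χ₁, hχ₁, h₁⟩ := Cfsg.Agent.Lib.Blocks.HeightZero.exists_height_zero (p := 2)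
    (Cfsg.Agent.Lib.Blocks.HeightZero.nonempty_of_isPBlock hB)
  have hmain := hD2.bound_three hM hc ⟨χ₁, by simpa using hχ₁, h₁⟩ hl
    (Cfsg.Agent.Lib.Blocks.MajorSub3.trace_XX hM hk hb)
  set S := Finset.univ.filter (· ∈ B) with hS
  have hcard : Nat.card {χ : Cfsg.IrrCharacter G // χ ∈ B ∧ Cfsg.blockHeight 2 B (χ : G → ℂ) = 0} =
      (S.filter (fun χ : Cfsg.IrrCharacter G => Cfsg.blockHeight 2 B (χ : G → ℂ) = 0)).card := by
    rw [Nat.card_eq_fintype_card, Fintype.card_subtype]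
    congr 1
    ext χ
    simp [hS]
  have hsum : ∑ᶠ χ ∈ {χ : Cfsg.IrrCharacter G | χ ∈ B ∧ 1 ≤ Cfsg.blockHeight 2 B (χ : G → ℂ)}, 2 ^ Cfsg.blockHeight 2 B (χ : G → ℂ) =
      ∑ χ ∈ S.filter (fun χ : Cfsg.IrrCharacter G => Cfsg.blockHeight 2 B (χ : G → ℂ) ≠ 0), 2 ^ Cfsg.blockHeight 2 B (χ : G → ℂ) := by
    rw [Cfsg.Agent.Lib.Blocks.Osima.finsum_mem_eq_sum_filter]
    refine Finset.sum_congr ?_ fun _ _ => rfl
    ext χ
    simp [hS, Nat.one_le_iff_ne_zero]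
  have hB' : Nat.card B = S.card := by
    rw [Nat.card_eq_fintype_card, Fintype.card_of_subtype S (fun χ => by simp [hS])]
  rw [hsum, hcard, hB', ← hd]
  refine ⟨?_, hmain⟩
  rw [← Finset.card_filter_add_card_filter_not (s := S) (fun χ : Cfsg.IrrCharacter G => Cfsg.blockHeight 2 B (χ : G → ℂ) = 0)]
  have h3 : 3 * (S.filter (fun χ : Cfsg.IrrCharacter G => ¬ Cfsg.blockHeight 2 B (χ : G → ℂ) = 0)).card ≤
      2 * ∑ χ ∈ S.filter (fun χ : Cfsg.IrrCharacter G => Cfsg.blockHeight 2 B (χ : G → ℂ) ≠ 0), 2 ^ Cfsg.blockHeight 2 B (χ : G → ℂ) := by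
    rw [Finset.mul_sum, Finset.card_eq_sum_ones, Finset.mul_sum]
    refine Finset.sum_le_sum fun χ hχ => ?_
    have h4 := (Finset.mem_filter.mp hχ).2
    obtain ⟨t, ht⟩ : ∃ t, Cfsg.blockHeight 2 B (χ : G → ℂ) = t + 1 := ⟨_, (Nat.succ_pred_eq_of_ne_zero h4).symm⟩
    rw [ht, pow_succ]
    have : 0 < 2 ^ t := by positivity
    omega
  omega

end Cfsg.Agent.S4540
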