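import Cfsg.Statements.S4541
import Mathlib
import Cfsg.Agent.Lib.Blocks.MajorSub3

set_option autoImplicit false
open Cfsg

namespace Cfsg.Agent.S4541


/-- Let B be a 2-block of the finite group G (relative to a maximal ideal M of the algebraic integers containing 2), u a 2-element, and b a block of the centralizer of u inducing B (a subsection (u, b)), of defect q and 2-regular rank l; write s for the integer square root of l and k₀(B) for the number of members of B of height zero. If s is odd then k₀(B) ≤ s·2 ^ q, and otherwise (s + 1)·k₀(B) ≤ l·2 ^ q; in particular k₀(B) ≤ 2 ^ q when l ≤ 3. -/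
theorem result {G : Type*} [Group G] [Finite G] (M : Ideal Cfsg.AlgInt) (hM : Cfsg.IsPModular 2 M) (B : Set (Cfsg.IrrCharacter G)) (hB : Cfsg.IsPBlock M B) (u : G) (hu : ∃ j : ℕ, orderOf u = 2 ^ j) (b : Set (Cfsg.IrrCharacter ↥(Subgroup.centralizer ({u} : Set G)))) (hb : Cfsg.IsInducedBlock M (Subgroup.centralizer ({u} : Set G)) b B) : (Odd (Nat.sqrt (Cfsg.blockRank 2 b)) → Nat.card {χ : Cfsg.IrrCharacter G // χ ∈ B ∧ Cfsg.blockHeight 2 B (χ : G → ℂ) = 0} ≤ Nat.sqrt (Cfsg.blockRank 2 b) * 2 ^ Cfsg.blockDefect 2 b) ∧ (¬ Odd (Nat.sqrt (Cfsg.blockRank 2 b)) → (Nat.sqrt (Cfsg.blockRank 2 b) + 1) * Nat.card {χ : Cfsg.IrrCharacter G // χ ∈ B ∧ Cfsg.blockHeight 2 B (χ : G → ℂ) = 0} ≤ Cfsg.blockRank 2 b * 2 ^ Cfsg.blockDefect 2 b) ∧ (Cfsg.blockRank 2 b ≤ 3 → Nat.card {χ : Cfsg.IrrCharacter G // χ ∈ B ∧ Cfsg.blockHeight 2 B (χ : G → ℂ) = 0} ≤ 2 ^ Cfsg.blockDefect 2 b) := by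
  classical
  cases nonempty_fintype G
  haveI := Cfsg.Agent.Lib.Blocks.Local.isPrime_of_isPModular hM
  haveI : Fintype (Subgroup.centralizer ({u} : Set G)) := Fintype.ofFinite _
  obtain ⟨k, hk⟩ := hu
  set S := Finset.univ.filter (· ∈ B) with hS
  set z := S.filter (fun χ : Cfsg.IrrCharacter G => Cfsg.blockHeight 2 B (χ : G → ℂ) = 0) with hz
  have hH := Cfsg.Agent.Lib.Blocks.MajorSub3.herm_XX hM hk hb
  have hz0 : ∀ χ ∈ z, χ ∈ B ∧ Cfsg.blockHeight 2 B (χ : G → ℂ) = 0 := by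
    intro χ hχ
    have h1 := Finset.mem_filter.mp hχ
    exact ⟨(Finset.mem_filter.mp h1.1).2, h1.2⟩
  have hc : 0 < 2 ^ Cfsg.blockDefect 2 b := by positivity
  have hmain := Cfsg.Agent.Lib.Blocks.MajorNum.sqrt_bound hM hH hc z (Finset.filter_subset _ _)
    (fun i hi j hj => Cfsg.Agent.Lib.Blocks.Local.ne_zero_of_not_memLocalIdeal
      (Cfsg.Agent.Lib.Blocks.MajorSub2.XX_not_mem hM hk hb (hz0 i hi).1 (hz0 j hj).1 (hz0 i hi).2 (hz0 j hj).2))
    (fun i hi => Cfsg.Agent.Lib.Blocks.MajorSub2.XX_not_mem hM hk hb (hz0 i hi).1 (hz0 i hi).1 (hz0 i hi).2 (hz0 i hi).2)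
    (Cfsg.Agent.Lib.Blocks.MajorSub3.trace_XX hM hk hb)
  have hcard : Nat.card {χ : Cfsg.IrrCharacter G // χ ∈ B ∧ Cfsg.blockHeight 2 B (χ : G → ℂ) = 0} = z.card := by
    rw [Nat.card_eq_fintype_card, Fintype.card_subtype]
    congr 1
    ext χ
    simp [hz, hS]
  rw [hcard]
  exact hmain

end Cfsg.Agent.S4541
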