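import Mathlib
import Cfsg.Prelude.Def_Blocks
import Cfsg.Agent.Lib.Char.B0Height
import Cfsg.Agent.Lib.Char.B0Core
import Cfsg.Agent.Lib.Char.GalFix
import Cfsg.Agent.Lib.Char.DetExt2

set_option autoImplicit false
set_option linter.style.haveILetI false
set_option linter.unusedSectionVars false
set_option linter.unusedVariables false

open Cfsg

namespace Cfsg.Agent.S4549

section Helpers

open Cfsg.Agent.Lib.Blocks.Local Cfsg.Agent.Lib.Blocks.Central Cfsg.Agent.Lib.Blocks.Regular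
  Cfsg.Agent.Lib.Blocks.Principal Cfsg.Agent.Lib.Blocks.Covering Cfsg.Agent.Lib.Blocks.Osima
  Cfsg.Agent.Lib.Char.AlpDade Cfsg.Agent.Lib.Char.B0Tools Cfsg.Agent.Lib.Char.PResChars
  Cfsg.Agent.Lib.Char.Clifford Cfsg.Agent.Lib.Char.Basic Cfsg.Agent.Lib.Char.LinearChars
  Cfsg.Agent.Lib.Char.B0Height Cfsg.Agent.Lib.Char.B0Core Cfsg.Agent.Lib.Char.Galois
  Cfsg.Agent.Lib.Char.GalFix Cfsg.Agent.Lib.Char.DetExt Cfsg.Agent.Lib.Char.DetExt2

universe u

section Num

theorem three_pow_two_pow (a : ℕ) : ∃ b : ℕ, 3 ^ (2 ^ b) ≡ 1 [MOD 2 ^ a] := by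
  rcases a with _ | t
  · exact ⟨0, Nat.modEq_one⟩
  · refine ⟨t, ?_⟩
    have h := Nat.ModEq.pow_totient (x := 3) (n := 2 ^ (t + 1)) (by
      exact Nat.Coprime.pow_right _ (by decide))
    rwa [Nat.totient_prime_pow_succ Nat.prime_two, show 2 - 1 = 1 from rfl, mul_one] at h

end Num

section Pow

variable {G : Type u} [Group G] [Finite G] {k : ℕ}

theorem coprime_k (hk₁ : ∀ g : G, (∃ j : ℕ, orderOf g = 2 ^ j) → g ^ k = g ^ 3)
    (hk₂ : ∀ g : G, Odd (orderOf g) → g ^ k = g) : k.Coprime (Nat.card G) := by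
  refine Nat.Coprime.symm (Nat.coprime_of_dvd fun q hq hqG hqk => ?_)
  haveI : Fact q.Prime := ⟨hq⟩
  obtain ⟨g, hg⟩ := exists_prime_orderOf_dvd_card' q hqG
  have h1 : g ^ k = g := by
    rcases hq.eq_two_or_odd' with rfl | hodd
    · have := hk₁ g ⟨1, by rw [hg, pow_one]⟩
      rw [this, pow_succ, pow_two, mul_assoc]
      have h2 : g * g = 1 := by
        rw [← pow_two, ← hg, pow_orderOf_eq_one]
      rw [h2, mul_one]
    · exact hk₂ g (by rwa [hg])
  have h2 : g ^ k = 1 := by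
    obtain ⟨c, rfl⟩ := hqk
    rw [pow_mul, ← hg, pow_orderOf_eq_one, one_pow]
  have h3 : g = 1 := h1.symm.trans h2
  rw [h3, orderOf_one] at hg
  exact hq.one_lt.ne hg

theorem exists_two_pow_fix (hk₁ : ∀ g : G, (∃ j : ℕ, orderOf g = 2 ^ j) → g ^ k = g ^ 3)
    (hk₂ : ∀ g : G, Odd (orderOf g) → g ^ k = g) : ∃ b : ℕ, ∀ g : G, g ^ (k ^ (2 ^ b)) = g := by
  obtain ⟨a, m, hm, hn⟩ := Nat.exists_eq_two_pow_mul_odd (n := Nat.card G) Nat.card_pos.ne'
  obtain ⟨b, hb⟩ := three_pow_two_pow a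
  refine ⟨b, fun g => ?_⟩
  set J := k ^ (2 ^ b) with hJ
  have hcard : g ^ (2 ^ a * m) = 1 := by rw [← hn, pow_card_eq_one']
  -- the odd part
  set A := g ^ (2 ^ a) with hA
  have hAm : A ^ m = 1 := by rw [hA, ← pow_mul, hcard]
  have hAo : Odd (orderOf A) := Odd.of_dvd_nat hm (orderOf_dvd_of_pow_eq_one hAm)
  have hAk : A ^ k = A := hk₂ A hAo
  have hAj : ∀ j : ℕ, A ^ (k ^ j) = A := by
    intro j
    induction j with
    | zero => simp
    | succ j ih => rw [pow_succ, pow_mul, ih, hAk]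
  -- the even part
  set B := g ^ m with hB
  have hBa : B ^ (2 ^ a) = 1 := by rw [hB, ← pow_mul, mul_comm, hcard]
  have hBo : ∃ j : ℕ, orderOf B = 2 ^ j := by
    obtain ⟨j, -, hj⟩ := (Nat.dvd_prime_pow Nat.prime_two).1 (orderOf_dvd_of_pow_eq_one hBa)
    exact ⟨j, hj⟩
  have hBk : B ^ k = B ^ 3 := hk₁ B hBo
  have hBj : ∀ j : ℕ, B ^ (k ^ j) = B ^ (3 ^ j) := by
    intro j
    induction j with
    | zero => simp
    | succ j ih =>
      rw [pow_succ, mul_comm, pow_mul, hBk, ← pow_mul, mul_comm, pow_mul, ih, ← pow_mul, ← pow_succ]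
  have hBJ : B ^ J = B := by
    rw [hJ, hBj]
    have h1 : orderOf B ∣ 2 ^ a := orderOf_dvd_of_pow_eq_one hBa
    have h2 : 3 ^ (2 ^ b) ≡ 1 [MOD orderOf B] := hb.of_dvd h1
    have h3 : B ^ (3 ^ (2 ^ b)) = B ^ 1 := pow_eq_pow_iff_modEq.2 h2
    simpa using h3
  -- combine
  set w := g ^ J * g⁻¹ with hw
  have hwa : w ^ (2 ^ a) = 1 := by
    have hc : Commute (g ^ J) g⁻¹ := (Commute.refl g).pow_left J |>.inv_right
    rw [hw, hc.mul_pow, inv_pow, ← pow_mul, mul_comm, pow_mul]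
    show (g ^ 2 ^ a) ^ J * (g ^ 2 ^ a)⁻¹ = 1
    rw [← hA, hJ, hAj, mul_inv_cancel]
  have hwm : w ^ m = 1 := by
    have hc : Commute (g ^ J) g⁻¹ := (Commute.refl g).pow_left J |>.inv_right
    rw [hw, hc.mul_pow, inv_pow, ← pow_mul, mul_comm, pow_mul]
    show (g ^ m) ^ J * (g ^ m)⁻¹ = 1
    rw [← hB, hBJ, mul_inv_cancel]
  have hgcd : Nat.gcd (2 ^ a) m = 1 := Nat.Coprime.pow_left a (Nat.coprime_two_left.2 hm)
  have hw1 : w = 1 := by
    have h6 : w ^ Nat.gcd (2 ^ a) m = 1 := pow_gcd_eq_one.mpr ⟨hwa, hwm⟩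
    rwa [hgcd, pow_one] at h6
  exact (mul_inv_eq_one.1 hw1)

end Pow

section Main

variable {G : Type u} [Group G] [Fintype G] {M : Ideal AlgInt} [hMp : M.IsPrime] {k : ℕ}

local notation "R" => Cfsg.pResidual 2 G

/-- A Galois-stable invariant character of `O²(G)` of odd degree, in the principal block, has a
Galois-stable extension in the principal block. -/
theorem exists_fixed_ext [Fintype R] (hM : IsPModular 2 M)
    (hk₁ : ∀ g : G, (∃ j : ℕ, orderOf g = 2 ^ j) → g ^ k = g ^ 3)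
    (hk₂ : ∀ g : G, Odd (orderOf g) → g ^ k = g)
    {θ : IrrCharacter R} (hθ : θ ∈ principalBlock M R) (hinv : IsInv R (θ : R → ℂ))
    (hd : ¬ 2 ∣ charDegree (θ : R → ℂ)) (hfix : ∀ n : R, (θ : R → ℂ) (n ^ k) = (θ : R → ℂ) n) :
    ∃ χ : IrrCharacter G, χ ∈ principalBlock M G ∧ (χ : G → ℂ) 1 = (θ : R → ℂ) 1 ∧
      ∀ g : G, (χ : G → ℂ) (g ^ k) = (χ : G → ℂ) g := by
  classical
  have hkc := coprime_k hk₁ hk₂
  obtain ⟨χ, μ, hχ, hχN, hdet, hμo⟩ := exists_ext_of_inv 2 θ.2 hinv hd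
  have hres : (fun n : R => χ n) = (θ : R → ℂ) := funext hχN
  have hcon : classInner (fun n : R => χ n) (θ : R → ℂ) ≠ 0 := by
    rw [hres, Cfsg.Agent.Lib.Char.Ortho.classInner_irr_self θ.2]
    exact one_ne_zero
  obtain ⟨χ₀, h0, hc0⟩ := exists_principal_over R hM hθ
  have hs : SameBlock M (χ₀ : G → ℂ) ((⟨χ, hχ⟩ : IrrCharacter G) : G → ℂ) :=
    sameBlock_of_constituents hM (exists_index_eq 2) hc0 hcon (sameBlock_refl _)
  refine ⟨⟨χ, hχ⟩, sameBlock_trans h0 hs, hχN 1, ?_⟩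
  -- uniqueness of the extension with a given determinant
  have hψ : IsIrrCharacter G (fun g => χ (g ^ k)) := isIrrCharacter_pow_of_coprime hχ hkc
  have hψN : ∀ n : R, (fun g => χ (g ^ k)) (n : G) = (θ : R → ℂ) n := by
    intro n
    show χ ((n : G) ^ k) = _
    have h1 := hχN (n ^ k)
    have h2 : ((n ^ k : R) : G) = (n : G) ^ k := by simp
    rw [h2] at h1
    rw [h1, hfix]
  -- the determinant of the twisted character
  obtain ⟨a, m, hm, hn⟩ := Nat.exists_eq_two_pow_mul_odd (n := Nat.card G) Nat.card_pos.ne'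
  have hμk : ∀ g : G, (μ g) ^ k = μ g := by
    intro g
    set A := g ^ (2 ^ a) with hA
    have hAm : A ^ m = 1 := by
      rw [hA, ← pow_mul, ← hn, pow_card_eq_one']
    have hAo : Odd (orderOf A) := Odd.of_dvd_nat hm (orderOf_dvd_of_pow_eq_one hAm)
    have hAk : A ^ k = A := hk₂ A hAo
    have h1 : ((μ g) ^ (2 ^ a)) ^ k = (μ g) ^ (2 ^ a) := by
      have := congrArg μ hAk
      simpa [hA, map_pow] using this
    set y := (μ g) ^ k / μ g with hy
    have hy1 : y ^ (2 ^ a) = 1 := by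
      rw [hy, div_pow, ← pow_mul, mul_comm k, pow_mul, h1, div_self']
    have hy2 : y ^ orderOf μ = 1 := by
      have h2 : (μ g) ^ orderOf μ = 1 := by
        have h4 := DFunLike.congr_fun (pow_orderOf_eq_one μ) g
        simpa only [MonoidHom.pow_apply, MonoidHom.one_apply] using h4
      rw [hy, div_pow, ← pow_mul, mul_comm k, pow_mul, h2, one_pow, div_one]
    have hgcd : Nat.gcd (2 ^ a) (orderOf μ) = 1 :=
      Nat.Coprime.pow_left a hμo.symm
    have hy3 : y = 1 := by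
      have h6 : y ^ Nat.gcd (2 ^ a) (orderOf μ) = 1 := pow_gcd_eq_one.mpr ⟨hy1, hy2⟩
      rwa [hgcd, pow_one] at h6
    exact div_eq_one.1 hy3
  have hdetψ : detChar (fun g => χ (g ^ k)) = detChar χ := by
    funext g
    have hdg := congrFun hdet g
    obtain ⟨d', ρ, hρ, rfl⟩ := id hχ
    obtain ⟨τ, hτ⟩ := exists_ringHom_pow (Nat.card G) Nat.card_pos k hkc
    have h1 : (fun g => ρ.character (g ^ k)) = (twist τ ρ).character := by
      funext g
      rw [character_twist]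
      exact (map_character τ Nat.card_pos hτ ρ g (pow_card_eq_one')).symm
    have h2 : LinearMap.det ((twist τ ρ) g) = τ (LinearMap.det (ρ g)) := det_twistEnd τ (ρ g)
    rw [h1, detChar_character, h2]
    rw [detChar_character] at hdg ⊢
    rw [hdg, hτ]
    · rw [← Units.val_pow_eq_pow_val, hμk]
    · rw [← Units.val_pow_eq_pow_val, ← map_pow, pow_card_eq_one', map_one, Units.val_one]
  have hc := isCharacter_of_isIrrCharacter hχ
  have hcast := Cfsg.Agent.Lib.Char.Values.IsCharacter.charDegree_cast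
    (isCharacter_of_isIrrCharacter θ.2)
  obtain ⟨j, hj⟩ := exists_index_eq (G := G) 2
  have hcop2 : Nat.Coprime (R).index (charDegree (θ : R → ℂ)) := by
    rw [hj]
    exact Nat.Coprime.pow_left j ((Nat.Prime.coprime_iff_not_dvd Nat.prime_two).mpr hd)
  have hμ : IsCharacter G (detChar χ) ∧ detChar χ 1 = 1 := detChar_isCharacter hc
  have hμN : ∀ n : R, detChar χ n = detChar (θ : R → ℂ) n := by
    intro n
    rw [detChar_res R hc n, hres]
  obtain ⟨χ₁, -, huniq⟩ := existsUnique_ext_det R (θ : R → ℂ) θ.2 (charDegree (θ : R → ℂ)) hcast.symm hcop2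
    ⟨χ, hχ, hχN⟩ (detChar χ) hμ hμN
  have h9 : (fun g => χ (g ^ k)) = χ :=
    (huniq _ ⟨hψ, hψN, hdetψ⟩).trans (huniq χ ⟨hχ, hχN, rfl⟩).symm
  intro g
  exact congrFun h9 g

open Classical in
/-- If all Galois-stable members of `B₀(G)` of odd degree are linear then `O²(G)` has odd order. -/
theorem not_dvd_card_residual_gal [Fintype R] (hM : IsPModular 2 M)
    (hk₁ : ∀ g : G, (∃ j : ℕ, orderOf g = 2 ^ j) → g ^ k = g ^ 3)
    (hk₂ : ∀ g : G, Odd (orderOf g) → g ^ k = g)
    (hdeg : ∀ χ ∈ principalBlock M G, Odd (charDegree (χ : G → ℂ)) →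
      (∀ g : G, (χ : G → ℂ) (g ^ k) = (χ : G → ℂ) g) → charDegree (χ : G → ℂ) = 1) :
    ¬ 2 ∣ Nat.card R := by
  intro hdvd
  have hkc := coprime_k hk₁ hk₂
  have hkR : k.Coprime (Nat.card R) := Nat.Coprime.coprime_dvd_right (Subgroup.card_subgroup_dvd_card _) hkc
  have h1 := prime_dvd_sum_principal (G := R) hM hdvd
  set f : IrrCharacter R → ℕ := fun θ => if θ ∈ principalBlock M R then charDegree (θ : R → ℂ) ^ 2 else 0
    with hf
  have hf0 : ∑ θ ∈ Finset.univ.filter (· ∈ principalBlock M R), charDegree (θ : R → ℂ) ^ 2 = ∑ θ, f θ := by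
    rw [Finset.sum_filter]
  rw [hf0] at h1
  have hfinv : ∀ (g : G) (φ : IrrCharacter R), f ⟨conjFun R g φ, isIrr_conjFun R g φ.2⟩ = f φ := by
    intro g φ
    have hmem : (⟨conjFun R g φ, isIrr_conjFun R g φ.2⟩ : IrrCharacter R) ∈ principalBlock M R ↔
        φ ∈ principalBlock M R := by
      have key : ∀ (g : G) (φ : IrrCharacter R), φ ∈ principalBlock M R →
          (⟨conjFun R g φ, isIrr_conjFun R g φ.2⟩ : IrrCharacter R) ∈ principalBlock M R := by
        intro g φ h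
        have h2 : SameBlock M ((trivChar R : IrrCharacter R) : R → ℂ) (φ : R → ℂ) := h
        have h3 := sameBlock_conjIrr g h2
        have h4 : (conjIrr g (trivChar R) : R → ℂ) = ((trivChar R : IrrCharacter R) : R → ℂ) := rfl
        rw [h4] at h3
        exact h3
      refine ⟨fun h => ?_, key g φ⟩
      have h2 := key g⁻¹ _ h
      have h3 : (⟨conjFun R g⁻¹ (conjFun R g (φ : R → ℂ)), isIrr_conjFun R g⁻¹
          (isIrr_conjFun R g φ.2)⟩ : IrrCharacter R) = φ := by
        apply Subtype.ext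
        show conjFun R g⁻¹ (conjFun R g (φ : R → ℂ)) = φ
        rw [← conjFun_mul]
        simp
      exact h3 ▸ h2
    simp only [hf]
    by_cases h : φ ∈ principalBlock M R
    · rw [if_pos h, if_pos (hmem.2 h)]
      show charDegree (conjFun R g (φ : R → ℂ)) ^ 2 = _
      rw [charDegree_conjFun]
    · rw [if_neg h, if_neg (fun h' => h (hmem.1 h'))]
  have h2 := sum_modEq_inv R 2 (exists_index_eq 2) f hfinv
  set I := Finset.univ.filter (fun φ : IrrCharacter R => IsInv R (φ : R → ℂ)) with hI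
  set F := I.filter (fun θ => θ ∈ principalBlock M R ∧ ¬ 2 ∣ charDegree (θ : R → ℂ)) with hF
  have h3 : ∑ θ ∈ I, f θ ≡ F.card [MOD 2] := by
    rw [hF, Finset.card_filter]
    refine Nat.ModEq.sum fun θ hθ => ?_
    by_cases h4 : θ ∈ principalBlock M R
    · have hfθ : f θ = charDegree (θ : R → ℂ) ^ 2 := if_pos h4
      rw [hfθ]
      by_cases h5 : 2 ∣ charDegree (θ : R → ℂ)
      · rw [if_neg (fun h => h.2 h5)]
        exact (Nat.modEq_zero_iff_dvd).2 (Dvd.dvd.pow h5 two_ne_zero)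
      · rw [if_pos ⟨h4, h5⟩]
        have h6 : Odd (charDegree (θ : R → ℂ) ^ 2) := Odd.pow (Nat.not_even_iff_odd.1 (fun h => h5 h.two_dvd))
        exact Nat.odd_iff.1 h6
    · have hfθ : f θ = 0 := if_neg h4
      rw [hfθ, if_neg (fun h => h4 h.1)]
  set Fl := F.filter (fun θ : IrrCharacter R => charDegree (θ : R → ℂ) = 1) with hFl
  set Fn := F.filter (fun θ : IrrCharacter R => ¬ charDegree (θ : R → ℂ) = 1) with hFn
  have hsplit : Fl.card + Fn.card = F.card := by
    rw [hFl, hFn]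
    exact Finset.card_filter_add_card_filter_not (s := F) _
  -- the linear part
  have h4 : Nat.card (linB (G := G) 2 M) = Fl.card := by
    have hbij : Function.Bijective (fun l : linB (G := G) 2 M =>
        (⟨⟨fun n => ((l.1 n : ℂˣ) : ℂ), isIrr_of_hom l.1⟩, by
          have h5 : charDegree (fun n : R => ((l.1 n : ℂˣ) : ℂ)) = 1 := by
            simp [charDegree]
          simp only [hFl, hF, hI, Finset.mem_filter, Finset.mem_univ, true_and]
          refine ⟨⟨l.2.1, l.2.2, ?_⟩, h5⟩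
          show ¬ 2 ∣ charDegree (fun n : R => ((l.1 n : ℂˣ) : ℂ))
          rw [h5]
          norm_num⟩ : {θ : IrrCharacter R // θ ∈ Fl})) := by
      constructor
      · intro a b hab
        apply Subtype.ext
        ext n
        have h5 := congrFun (congrArg (fun θ : {θ : IrrCharacter R // θ ∈ Fl} => ((θ.1 : IrrCharacter R) : R → ℂ)) hab) n
        exact h5
      · rintro ⟨θ, hθ⟩
        simp only [hFl, hF, hI, Finset.mem_filter, Finset.mem_univ, true_and] at hθ
        obtain ⟨⟨h5, h6, h7⟩, h8⟩ := hθ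
        have h9 : (θ : R → ℂ) 1 = 1 := by
          rw [← Cfsg.Agent.Lib.Char.Values.IsCharacter.charDegree_cast
            (isCharacter_of_isIrrCharacter θ.2), h8, Nat.cast_one]
        obtain ⟨l, hl⟩ := exists_hom_of_isCharacter_one (isCharacter_of_isIrrCharacter θ.2) h9
        have hθl : θ = ⟨fun n => ((l n : ℂˣ) : ℂ), isIrr_of_hom l⟩ := Subtype.ext hl
        refine ⟨⟨l, ?_, ?_⟩, ?_⟩
        · show IsInv R (fun n => ((l n : ℂˣ) : ℂ))
          rw [← hl]
          exact h5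
        · rw [← hθl]
          exact h6
        · apply Subtype.ext
          exact hθl.symm
    rw [Nat.card_congr (Equiv.ofBijective _ hbij), Nat.card_eq_fintype_card, Fintype.card_coe]
  -- the non linear part: no fixed point of the Galois action
  have hmemFn : ∀ θ : IrrCharacter R, θ ∈ Fn ↔ (IsInv R (θ : R → ℂ) ∧ θ ∈ principalBlock M R ∧
      ¬ 2 ∣ charDegree (θ : R → ℂ)) ∧ ¬ charDegree (θ : R → ℂ) = 1 := by
    intro θ
    simp only [hFn, hF, hI, Finset.mem_filter, Finset.mem_univ, true_and]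
  have hdegpow : ∀ θ : IrrCharacter R, charDegree ((powIrr hkR θ : IrrCharacter R) : R → ℂ) = charDegree (θ : R → ℂ) := by
    intro θ
    show charDegree (fun n : R => (θ : R → ℂ) (n ^ k)) = _
    simp [charDegree]
  have hstab : ∀ θ : IrrCharacter R, θ ∈ Fn → powIrr hkR θ ∈ Fn := by
    intro θ hθ
    rw [hmemFn] at hθ ⊢
    obtain ⟨⟨h5, h6, h7⟩, h8⟩ := hθ
    refine ⟨⟨?_, mem_principal_pow hM hkR h6, ?_⟩, ?_⟩
    · intro g n
      show (θ : R → ℂ) ((⟨g * n * g⁻¹, _⟩ : R) ^ k) = (θ : R → ℂ) (n ^ k)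
      have h9 := h5 g (n ^ k)
      rw [← h9]
      refine congrArg (θ : R → ℂ) (Subtype.ext ?_)
      simp [conj_pow]
    · rw [hdegpow]; exact h7
    · rw [hdegpow]; exact h8
  let fσ : Function.End {θ : IrrCharacter R // θ ∈ Fn} := fun θ => ⟨powIrr hkR θ.1, hstab θ.1 θ.2⟩
  have hpowf : ∀ (j : ℕ) (θ : {θ : IrrCharacter R // θ ∈ Fn}) (n : R),
      (((fσ ^ j) θ).1 : R → ℂ) n = (θ.1 : R → ℂ) (n ^ (k ^ j)) := by
    intro j
    induction j with
    | zero =>
      intro θ n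
      simp only [pow_zero, pow_one]
      rfl
    | succ j ih =>
      intro θ n
      have h0 : (fσ ^ (j + 1)) θ = (fσ ^ j) (fσ θ) := by
        rw [pow_succ]
        rfl
      rw [h0, ih]
      show (θ.1 : R → ℂ) ((n ^ (k ^ j)) ^ k) = _
      rw [← pow_mul, pow_succ]
  obtain ⟨b, hb⟩ := exists_two_pow_fix (G := G) hk₁ hk₂
  have hfpow : fσ ^ 2 ^ b = 1 := by
    funext θ
    apply Subtype.ext
    apply Subtype.ext
    funext n
    rw [hpowf]
    refine congrArg (θ.1 : R → ℂ) (Subtype.ext ?_)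
    simpa using hb (n : G)
  have hcard := Equiv.Perm.card_fixedPoints_modEq (f := fσ) (p := 2) (n := b) hfpow
  have hempty : ∀ x : {θ : IrrCharacter R // θ ∈ Fn}, fσ x = x → False := by
    rintro ⟨θ, hθ⟩ hx
    have hθ' := (hmemFn θ).1 hθ
    obtain ⟨⟨h5, h6, h7⟩, h8⟩ := hθ'
    have hfix : ∀ n : R, (θ : R → ℂ) (n ^ k) = (θ : R → ℂ) n := by
      intro n
      have h9 : fσ ⟨θ, hθ⟩ = ⟨θ, hθ⟩ := hx
      have h10 := congrArg (fun y : {θ : IrrCharacter R // θ ∈ Fn} => (y.1 : R → ℂ) n) h9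
      exact h10
    obtain ⟨χ, hχ, hχ1, hχk⟩ := exists_fixed_ext hM hk₁ hk₂ h6 h5 h7 hfix
    have hdegeq : charDegree (χ : G → ℂ) = charDegree (θ : R → ℂ) := by
      unfold charDegree
      rw [hχ1]
    apply h8
    rw [← hdegeq]
    refine hdeg χ hχ ?_ hχk
    rw [hdegeq]
    exact Nat.not_even_iff_odd.1 (fun h => h7 h.two_dvd)
  have hFn2 : 2 ∣ Fn.card := by
    have h0 : Fintype.card {θ : IrrCharacter R // θ ∈ Fn} ≡ 0 [MOD 2] := by
      refine hcard.trans ?_
      rw [Fintype.card_eq_zero_iff.2 ⟨fun x => hempty x.1 x.2⟩]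
    rw [Fintype.card_coe] at h0
    exact Nat.modEq_zero_iff_dvd.1 h0
  apply not_dvd_card_linB (G := G) (M := M) 2
  rw [h4]
  have h5 : 2 ∣ F.card := by
    have h6 := (h2.trans h3).symm
    exact Nat.modEq_zero_iff_dvd.1 (h6.trans (Nat.modEq_zero_iff_dvd.2 h1))
  rw [← hsplit] at h5
  exact (Nat.dvd_add_left hFn2).1 h5

end Main

end Helpers

/-- Let G be a finite group and M a maximal ideal of the algebraic integers containing 2. Let k be a natural number with g ^ k = g ^ 3 for every 2-element g and g ^ k = g for every element g of odd order (such k exist); an irreducible character χ is unchanged by g ↦ g ^ k exactly when it is fixed by the field automorphism that cubes the 2-power roots of unity and fixes the roots of unity of odd order. Then G has a normal 2-complement if and only if every member χ of the principal 2-block of odd degree with χ (g ^ k) = χ g for all g has degree one. -/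
theorem result {G : Type*} [Group G] [Finite G] (M : Ideal Cfsg.AlgInt) (hM : Cfsg.IsPModular 2 M) (k : ℕ) (hk₁ : ∀ g : G, (∃ j : ℕ, orderOf g = 2 ^ j) → g ^ k = g ^ 3) (hk₂ : ∀ g : G, Odd (orderOf g) → g ^ k = g) : Cfsg.HasNormalPComplement 2 G ↔ ∀ χ ∈ Cfsg.principalBlock M G, Odd (Cfsg.charDegree (χ : G → ℂ)) → (∀ g : G, (χ : G → ℂ) (g ^ k) = (χ : G → ℂ) g) → Cfsg.charDegree (χ : G → ℂ) = 1 := by
  classical
  haveI : Fintype G := Fintype.ofFinite G
  haveI : M.IsPrime := hM.2.1.isPrime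
  constructor
  · intro h χ hχ hodd _
    obtain ⟨d, hd⟩ := (Cfsg.Agent.Lib.Char.B0Height.equal_height_zero_iff 2 hM).2 h
    have h1 := hd (Cfsg.Agent.Lib.Blocks.Principal.trivChar G) Cfsg.Agent.Lib.Blocks.Principal.trivChar_mem_principalBlock (by
      rw [Cfsg.Agent.Lib.Char.B0Height.height_zero_iff M (Cfsg.Agent.Lib.Blocks.Principal.trivChar G).2,
        Cfsg.Agent.Lib.Blocks.Principal.charDegree_trivChar]
      norm_num)
    rw [Cfsg.Agent.Lib.Blocks.Principal.charDegree_trivChar] at h1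
    have h2 := hd χ hχ ((Cfsg.Agent.Lib.Char.B0Height.height_zero_iff M χ.2).2
      (fun h3 => (Nat.not_even_iff_odd.2 hodd) (even_iff_two_dvd.2 h3)))
    rw [h2, ← h1]
  · intro h
    haveI : Fintype (Cfsg.pResidual 2 G) := Fintype.ofFinite _
    have h2 := not_dvd_card_residual_gal hM hk₁ hk₂ h
    refine Cfsg.Agent.Lib.Transfer.Basic.hasNormalPComplement_iff_pResidual.2 ?_
    exact ((Nat.Prime.coprime_iff_not_dvd Nat.prime_two).2 h2).symm

end Cfsg.Agent.S4549
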