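import Mathlib
import Cfsg.Agent.Lib.Blocks.AbFrob
import Cfsg.Agent.Lib.Char.Galois
import Cfsg.Agent.Lib.Char.Values2
import Cfsg.Agent.Lib.Char.Virtual
import Cfsg.Agent.Lib.Transfer.Basic
import Cfsg.Agent.Lib.Char.Values

set_option autoImplicit false

open Cfsg

namespace Cfsg.Agent.S4550

open Cfsg.Agent.Lib.Blocks.AbFrob
open scoped ComplexConjugate

variable {G : Type*} [Group G] [Fintype G] {p : ℕ} [hp : Fact p.Prime] {M : Ideal AlgInt}

/-- The decomposition into a `p`-part and a `p`-regular part. -/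
lemma exists_part {K : Type*} [Group K] [Finite K] (g : K) :
    ∃ x y : K, x * y = g ∧ Commute x y ∧ (∃ j : ℕ, orderOf x = p ^ j) ∧ ¬ p ∣ orderOf y := by
  obtain ⟨a, b, hab, hc, -, -, hk, hbo⟩ :=
    Cfsg.Agent.Lib.Transfer.Basic.exists_pPart_decomp (p := p) g
  refine ⟨a, b, hab, hc, hk, fun h => ?_⟩
  have h1 := Nat.Coprime.eq_one_of_dvd hbo.symm h
  exact hp.out.one_lt.ne' h1

/-- Two irreducible characters agreeing on `p`-regular elements lie in the same block, when the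
first lies in the principal block. -/
lemma mem_B0_of_agree (hM : IsPModular p M) [M.IsPrime] {χ χ' : IrrCharacter G} (hχ : χ ∈ principalBlock M G)
    (hag : ∀ g : G, ¬ p ∣ orderOf g → (χ : G → ℂ) g = (χ' : G → ℂ) g) : χ' ∈ principalBlock M G := by
  classical
  by_contra hχ'
  have hne : χ ≠ χ' := fun h => hχ' (h ▸ hχ)
  have hne' : (χ : G → ℂ) ≠ (χ' : G → ℂ) := fun h => hne (Subtype.ext h)
  have hsum : ∑ ψ ∈ B0 M G, (classInner (χ : G → ℂ) (ψ : G → ℂ) - classInner (χ' : G → ℂ) (ψ : G → ℂ)) *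
      (ψ : G → ℂ) 1 = (χ : G → ℂ) 1 := by
    rw [Finset.sum_eq_single χ]
    · rw [Cfsg.Agent.Lib.Char.Virtual.classInner_irr_self χ.2,
        Cfsg.Agent.Lib.Char.Virtual.classInner_irr_of_ne χ'.2 χ.2 hne'.symm]
      ring
    · intro ψ hψ hψχ
      have h1 : (ψ : G → ℂ) ≠ (χ : G → ℂ) := fun h => hψχ (Subtype.ext h)
      have h2 : (ψ : G → ℂ) ≠ (χ' : G → ℂ) := by
        intro h
        have : ψ = χ' := Subtype.ext h
        exact hχ' (this ▸ mem_B0.1 hψ)
      rw [Cfsg.Agent.Lib.Char.Virtual.classInner_irr_of_ne χ.2 ψ.2 h1.symm,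
        Cfsg.Agent.Lib.Char.Virtual.classInner_irr_of_ne χ'.2 ψ.2 h2.symm]
      ring
    · intro h
      exact absurd (mem_B0.2 hχ) h
  have hzero : ∑ ψ ∈ B0 M G, (classInner (χ : G → ℂ) (ψ : G → ℂ) - classInner (χ' : G → ℂ) (ψ : G → ℂ)) *
      (ψ : G → ℂ) 1 = 0 := by
    have e : ∀ ψ : IrrCharacter G, (classInner (χ : G → ℂ) (ψ : G → ℂ) - classInner (χ' : G → ℂ) (ψ : G → ℂ)) *
        (ψ : G → ℂ) 1 = (Nat.card G : ℂ)⁻¹ * ∑ g : G, ((χ : G → ℂ) g - (χ' : G → ℂ) g) *
          ((ψ : G → ℂ) 1 * conj ((ψ : G → ℂ) g)) := by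
      intro ψ
      simp only [classInner]
      rw [← mul_sub, ← Finset.sum_sub_distrib, mul_assoc, Finset.sum_mul]
      congr 1
      refine Finset.sum_congr rfl fun g _ => ?_
      ring
    simp only [e]
    rw [← Finset.mul_sum, Finset.sum_comm]
    simp only [← Finset.mul_sum]
    rw [Finset.sum_eq_zero, mul_zero]
    intro g _
    by_cases hg : p ∣ orderOf g
    · obtain ⟨x, y, hxy, hc, hx, hy⟩ := exists_part (p := p) g
      have hx1 : x ≠ 1 := by
        rintro rfl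
        rw [one_mul] at hxy
        exact hy (hxy ▸ hg)
      have h0 := sum_B0_eq_zero (M := M) hM (g := 1) (h := g) (x := 1) (y := x)
        ⟨1, one_mul 1, Commute.one_left 1, ⟨0, by simp⟩, by simp [hp.out.one_lt.ne']⟩ ⟨y, hxy, hc, hx, hy⟩
        (fun h => hx1 (isConj_one_right.1 h))
      rw [h0, mul_zero]
    · rw [hag g hg, sub_self, zero_mul]
  rw [hzero] at hsum
  exact Cfsg.Agent.Lib.Char.Ortho.irr_apply_one_ne_zero χ.2 hsum.symm

/-- The number of odd-degree characters in the principal `2`-block is even. -/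
lemma even_card_odd (hM : IsPModular 2 M) [M.IsPrime] (hev : Even (Nat.card G)) :
    Even ((B0 M G).filter (fun χ : IrrCharacter G => Odd (charDegree (χ : G → ℂ)))).card := by
  classical
  haveI : Fact (Nat.Prime 2) := ⟨Nat.prime_two⟩
  obtain ⟨t, ht⟩ := exists_prime_orderOf_dvd_card' (G := G) 2 hev.two_dvd
  have ht1 : t ≠ 1 := by
    rintro rfl
    rw [orderOf_one] at ht
    norm_num at ht
  have hs := sum_B0_eq_zero (M := M) hM (g := t) (h := 1) (x := t) (y := 1)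
    ⟨1, mul_one t, Commute.one_right t, ⟨1, by rw [ht, pow_one]⟩, by simp⟩
    ⟨1, one_mul 1, Commute.one_left 1, ⟨0, by simp⟩, by simp⟩ (fun h => ht1 (isConj_one_right.1 h.symm))
  have hχ : ∀ χ : IrrCharacter G, ∃ n : ℤ, (χ : G → ℂ) t = (n : ℂ) ∧
      (2 : ℤ) ∣ (charDegree (χ : G → ℂ) : ℤ) - n := fun χ =>
    Cfsg.Agent.Lib.Char.Values2.character_involution _
      (Cfsg.Agent.Lib.Char.Basic.isCharacter_of_isIrrCharacter χ.2) t ht
  choose n hn1 hn2 using hχ
  have hdeg : ∀ χ : IrrCharacter G, (χ : G → ℂ) 1 = (charDegree (χ : G → ℂ) : ℂ) := fun χ =>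
    (Cfsg.Agent.Lib.Char.Values.IsCharacter.charDegree_cast
      (Cfsg.Agent.Lib.Char.Basic.isCharacter_of_isIrrCharacter χ.2)).symm
  have hZ : ∑ χ ∈ B0 M G, n χ * (charDegree (χ : G → ℂ) : ℤ) = 0 := by
    have h1 : ∑ χ ∈ B0 M G, ((n χ : ℂ)) * (charDegree (χ : G → ℂ) : ℂ) = 0 := by
      rw [← hs]
      refine Finset.sum_congr rfl fun χ _ => ?_
      rw [hn1, hdeg, Complex.conj_natCast]
    exact_mod_cast h1
  have h2 : Even (∑ χ ∈ B0 M G, charDegree (χ : G → ℂ) ^ 2) := by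
    have h3 : ((∑ χ ∈ B0 M G, charDegree (χ : G → ℂ) ^ 2 : ℕ) : ℤ) =
        ∑ χ ∈ B0 M G, ((charDegree (χ : G → ℂ) : ℤ) - n χ) * (charDegree (χ : G → ℂ) : ℤ) := by
      push_cast
      have h4 : ∀ χ ∈ B0 M G, ((charDegree (χ : G → ℂ) : ℤ) - n χ) * (charDegree (χ : G → ℂ) : ℤ) =
          (charDegree (χ : G → ℂ) : ℤ) ^ 2 - n χ * (charDegree (χ : G → ℂ) : ℤ) := fun χ _ => by ring
      rw [Finset.sum_congr rfl h4, Finset.sum_sub_distrib, hZ, sub_zero]
    have h5 : (2 : ℤ) ∣ ((∑ χ ∈ B0 M G, charDegree (χ : G → ℂ) ^ 2 : ℕ) : ℤ) := by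
      rw [h3]
      exact Finset.dvd_sum fun χ _ => Dvd.dvd.mul_right (hn2 χ) _
    have h6 : 2 ∣ ∑ χ ∈ B0 M G, charDegree (χ : G → ℂ) ^ 2 := by exact_mod_cast h5
    exact (even_iff_two_dvd).2 h6
  rw [Finset.even_sum_iff_even_card_odd] at h2
  have h7 : ∀ χ ∈ B0 M G, (Odd (charDegree (χ : G → ℂ) ^ 2) ↔ Odd (charDegree (χ : G → ℂ))) := by
    intro χ _
    rw [Nat.odd_pow_iff (by norm_num)]
  rwa [Finset.filter_congr h7] at h2

lemma pow_three_pow (n : ℕ) : 2 ^ (n + 1) ∣ 3 ^ (2 ^ n) - 1 := by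
  induction n with
  | zero => norm_num
  | succ n ih =>
    have h1 : 1 ≤ 3 ^ (2 ^ n) := Nat.one_le_pow _ _ (by norm_num)
    have h2 : 3 ^ (2 ^ (n + 1)) - 1 = (3 ^ (2 ^ n) - 1) * (3 ^ (2 ^ n) + 1) := by
      obtain ⟨c, hc⟩ : ∃ c, 3 ^ (2 ^ n) = c + 1 := ⟨3 ^ (2 ^ n) - 1, by omega⟩
      rw [pow_succ 2 n, pow_mul, hc]
      simp only [Nat.add_sub_cancel]
      rw [Nat.sub_eq_of_eq_add]
      ring
    rw [h2, pow_succ 2 (n + 1)]
    apply Nat.mul_dvd_mul ih
    have h3 : Odd (3 ^ (2 ^ n)) := Odd.pow (by decide)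
    exact (even_iff_two_dvd.1 h3.add_one)

/-- Let G be a finite group of even order and M a maximal ideal of the algebraic integers containing 2. Let k be a natural number with g ^ k = g ^ 3 for every 2-element g and g ^ k = g for every element g of odd order (such k exist); an irreducible character χ is unchanged by g ↦ g ^ k exactly when it is fixed by the field automorphism that cubes the 2-power roots of unity and fixes the roots of unity of odd order. Then the number of members χ of the principal 2-block of odd degree with χ (g ^ k) = χ g for all g is even. -/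
theorem result {G : Type*} [Group G] [Finite G] (M : Ideal Cfsg.AlgInt) (hM : Cfsg.IsPModular 2 M) (hev : Even (Nat.card G)) (k : ℕ) (hk₁ : ∀ g : G, (∃ j : ℕ, orderOf g = 2 ^ j) → g ^ k = g ^ 3) (hk₂ : ∀ g : G, Odd (orderOf g) → g ^ k = g) : Even (Nat.card {χ : Cfsg.IrrCharacter G // χ ∈ Cfsg.principalBlock M G ∧ Odd (Cfsg.charDegree (χ : G → ℂ)) ∧ ∀ g : G, (χ : G → ℂ) (g ^ k) = (χ : G → ℂ) g}) := by
  classical
  haveI hf2 : Fact (Nat.Prime 2) := ⟨Nat.prime_two⟩
  letI : Fintype G := Fintype.ofFinite G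
  haveI : M.IsPrime := hM.2.1.isPrime
  -- `k` is prime to the group order
  have hprime : ∀ q : ℕ, q.Prime → q ∣ Nat.card G → ¬ q ∣ k := by
    intro q hq hdvd hqk
    haveI : Fact q.Prime := ⟨hq⟩
    obtain ⟨g, hg⟩ := exists_prime_orderOf_dvd_card' (G := G) q hdvd
    have h1 : g ^ k = 1 := by
      rw [← hg] at hqk
      exact orderOf_dvd_iff_pow_eq_one.1 hqk
    have h2 : g ^ k = g := by
      rcases hq.eq_two_or_odd' with h | h
      · subst h
        rw [hk₁ g ⟨1, by rw [hg, pow_one]⟩]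
        have h3 : g ^ 2 = 1 := by rw [← hg]; exact pow_orderOf_eq_one g
        rw [pow_succ, h3, one_mul]
      · exact hk₂ g (by rw [hg]; exact h)
    rw [h1] at h2
    rw [← h2, orderOf_one] at hg
    exact hq.one_lt.ne hg
  have hcop : k.Coprime (Nat.card G) := by
    apply Nat.coprime_of_dvd
    intro q hq hqk hqG
    exact hprime q hq hqG hqk
  let σ : IrrCharacter G → IrrCharacter G := fun χ =>
    ⟨fun g => (χ : G → ℂ) (g ^ k), Cfsg.Agent.Lib.Char.Galois.isIrrCharacter_pow_of_coprime χ.2 hcop⟩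
  have hσ : ∀ χ g, (σ χ : G → ℂ) g = (χ : G → ℂ) (g ^ k) := fun _ _ => rfl
  let X := {χ : IrrCharacter G // χ ∈ principalBlock M G ∧ Odd (charDegree (χ : G → ℂ))}
  have hσB : ∀ χ : X, σ χ.1 ∈ principalBlock M G ∧ Odd (charDegree (σ χ.1 : G → ℂ)) := by
    intro χ
    refine ⟨mem_B0_of_agree hM χ.2.1 (fun g hg => ?_), ?_⟩
    · rw [hσ, hk₂ g (Nat.odd_iff.2 (Nat.mod_two_ne_zero.1 fun h => hg (Nat.dvd_of_mod_eq_zero h)))]
    · have h1 : charDegree (σ χ.1 : G → ℂ) = charDegree (χ.1 : G → ℂ) := by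
        unfold charDegree
        rw [hσ, one_pow]
      rw [h1]
      exact χ.2.2
  let f : Function.End X := fun χ => ⟨σ χ.1, hσB χ⟩
  have hf : ∀ r : ℕ, ∀ χ : X, ∀ g : G, (((f ^ r) χ).1 : G → ℂ) g = (χ.1 : G → ℂ) (g ^ (k ^ r)) := by
    intro r
    induction r with
    | zero =>
      intro χ g
      rw [pow_zero, pow_zero, pow_one]
      rfl
    | succ r ih =>
      intro χ g
      rw [pow_succ', Function.End.mul_def]
      show (σ ((f ^ r) χ).1 : G → ℂ) g = _
      rw [hσ, ih, ← pow_mul, pow_succ']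
  have hpowg : ∀ g : G, g ^ (k ^ (2 ^ Nat.card G)) = g := by
    intro g
    obtain ⟨x, y, hxy, hc, ⟨j, hj⟩, hy⟩ := exists_part (p := 2) g
    have hyo : Odd (orderOf y) := Nat.odd_iff.2 (Nat.mod_two_ne_zero.1 fun h => hy (Nat.dvd_of_mod_eq_zero h))
    have hx : ∀ r, x ^ (k ^ r) = x ^ (3 ^ r) := by
      intro r
      induction r with
      | zero => simp
      | succ r ih =>
        rw [pow_succ', pow_mul, hk₁ x ⟨j, hj⟩, ← pow_mul, mul_comm, pow_mul, ih, ← pow_mul, pow_succ, mul_comm (3 ^ r)]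
    have hyy : ∀ r, y ^ (k ^ r) = y := by
      intro r
      induction r with
      | zero => simp
      | succ r ih => rw [pow_succ', pow_mul, hk₂ y hyo, ih]
    rw [← hxy, hc.mul_pow, hx, hyy]
    congr 1
    have hle : j ≤ Nat.card G + 1 := by
      have h1 : orderOf x ≤ Nat.card G := orderOf_le_card
      rw [hj] at h1
      have h2 : j < 2 ^ j := Nat.lt_two_pow_self
      omega
    have h3 : orderOf x ∣ 3 ^ (2 ^ Nat.card G) - 1 := by
      rw [hj]
      exact (pow_dvd_pow 2 hle).trans (pow_three_pow _)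
    have h4 : x ^ (3 ^ (2 ^ Nat.card G) - 1) = 1 := orderOf_dvd_iff_pow_eq_one.1 h3
    have h5 : 1 ≤ 3 ^ (2 ^ Nat.card G) := Nat.one_le_pow _ _ (by norm_num)
    calc x ^ (3 ^ (2 ^ Nat.card G)) = x ^ (3 ^ (2 ^ Nat.card G) - 1) * x := by
          rw [← pow_succ, Nat.sub_add_cancel h5]
      _ = x := by rw [h4, one_mul]
  have hfn : f ^ 2 ^ Nat.card G = 1 := by
    funext χ
    apply Subtype.ext
    apply Subtype.ext
    funext g
    rw [hf, hpowg]
    rfl
  letI : Fintype X := Fintype.ofFinite X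
  have hmod := Equiv.Perm.card_fixedPoints_modEq (p := 2) hfn
  have hX : Even (Fintype.card X) := by
    have h1 := even_card_odd (M := M) hM hev
    have h2 : Fintype.card X = ((B0 M G).filter (fun χ : IrrCharacter G => Odd (charDegree (χ : G → ℂ)))).card := by
      apply Fintype.card_of_subtype
      intro χ
      simp
    rwa [h2]
  have hfix : Even (Fintype.card f.fixedPoints) := by
    rw [Nat.even_iff] at hX ⊢
    rw [← hmod, hX]
  have hcard : Nat.card {χ : Cfsg.IrrCharacter G // χ ∈ Cfsg.principalBlock M G ∧ Odd (Cfsg.charDegree (χ : G → ℂ)) ∧ ∀ g : G, (χ : G → ℂ) (g ^ k) = (χ : G → ℂ) g} =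
      Fintype.card f.fixedPoints := by
    rw [← Nat.card_eq_fintype_card]
    refine Nat.card_congr ⟨fun χ => ⟨⟨χ.1, χ.2.1, χ.2.2.1⟩, ?_⟩, fun χ => ⟨χ.1.1, χ.1.2.1, χ.1.2.2, ?_⟩, ?_, ?_⟩
    · apply Subtype.ext
      apply Subtype.ext
      funext g
      exact χ.2.2.2 g
    · intro g
      have h := χ.2
      have h2 : f χ.1 = χ.1 := h
      have h3 := congrArg (fun u : X => ((u.1 : IrrCharacter G) : G → ℂ) g) h2
      exact h3
    · intro χ
      rfl
    · intro χ
      rfl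
  rw [hcard]
  exact hfix

end Cfsg.Agent.S4550
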