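import Cfsg.Statements.S4558
import Cfsg.Agent.Lib.Char.Values2
-- import your own Cfsg.Agent.* helpers here

set_option autoImplicit false
open Cfsg

namespace Cfsg.Agent.S4558

/-- Let χ be a character of the finite group G and g an element of p-power order for the prime p. If χ g = 0, then p divides the degree of χ. -/
theorem result {G : Type*} [Group G] [Finite G] (p : ℕ) [Fact p.Prime] (χ : G → ℂ) (hχ : Cfsg.IsCharacter G χ) (g : G) (hg : ∃ j : ℕ, orderOf g = p ^ j) (h0 : χ g = 0) : p ∣ Cfsg.charDegree χ := by
  exact Cfsg.Agent.Lib.Char.Values2.dvd_degree_of_vanish_pelement p (Fact.out) χ hχ g hg h0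

end Cfsg.Agent.S4558
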