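import Cfsg.Statements.S4560
import Cfsg.Agent.Lib.Char.PermChar
import Cfsg.Agent.Lib.Char.Virtual
import Cfsg.Agent.Lib.Char.Values
import Mathlib

set_option autoImplicit false
set_option linter.unusedSectionVars false
open Cfsg

namespace Cfsg.Agent.S4560

open MulAction Finset

section SymA

variable {G X : Type*} [Group G] [MulAction G X]

/-- The action on unordered pairs. -/
instance symAction : MulAction G (Sym2 X) where
  smul g z := Sym2.map (fun x => g • x) z
  one_smul z := by
    induction z using Sym2.ind with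
    | _ a b =>
      change Sym2.map (fun x => (1 : G) • x) s(a, b) = s(a, b)
      simp
  mul_smul g h z := by
    induction z using Sym2.ind with
    | _ a b =>
      change Sym2.map (fun x => (g * h) • x) s(a, b) =
        Sym2.map (fun x => g • x) (Sym2.map (fun x => h • x) s(a, b))
      simp [mul_smul]

theorem sym_smul_mk (g : G) (a b : X) : g • s(a, b) = s(g • a, g • b) := rfl

end SymA

section Generic

variable {G X : Type*} [Group G] [Fintype G] [MulAction G X] [Fintype X] [DecidableEq X]

/-- Fixed points. -/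
def fixF (g : G) : Finset X := univ.filter (fun x => g • x = x)

/-- Points in two-cycles. -/
def twoT (g : G) : Finset X := univ.filter (fun x => g • x ≠ x ∧ g • (g • x) = x)

theorem mem_fixF {g : G} {x : X} : x ∈ fixF (X := X) g ↔ g • x = x := by
  simp [fixF]

theorem mem_twoT {g : G} {x : X} : x ∈ twoT (X := X) g ↔ g • x ≠ x ∧ g • (g • x) = x := by
  simp [twoT]

theorem smul_mem_twoT {g : G} {x : X} (h : x ∈ twoT (X := X) g) : g • x ∈ twoT (X := X) g := by
  rw [mem_twoT] at h ⊢
  refine ⟨?_, ?_⟩
  · rw [h.2]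
    exact fun h' => h.1 h'.symm
  · rw [h.2]

/-- Twisted Burnside. -/
theorem sum_count {k : ℕ} [IsMultiplyPretransitive G X k] [Nonempty (Fin k ↪ X)]
    (φ : (Fin k ↪ X) → (Fin k ↪ X)) :
    ∑ g : G, (univ.filter (fun v : Fin k ↪ X => g • v = φ v)).card = Fintype.card G := by
  classical
  have hY : 0 < Fintype.card (Fin k ↪ X) := Fintype.card_pos
  have hc : ∀ v : Fin k ↪ X,
      (univ.filter (fun g : G => g • v = φ v)).card * Fintype.card (Fin k ↪ X) = Fintype.card G := by
    intro v
    obtain ⟨g₀, hg₀⟩ := MulAction.exists_smul_eq G v (φ v)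
    have h1 : (univ.filter (fun g : G => g • v = φ v)).card = Nat.card (stabilizer G v) := by
      rw [Nat.card_eq_fintype_card, ← Fintype.card_subtype]
      apply Fintype.card_congr
      exact
        { toFun := fun g => ⟨g₀⁻¹ * g.1, by
            rw [mem_stabilizer_iff, mul_smul, g.2, ← hg₀, inv_smul_smul]⟩
          invFun := fun s => ⟨g₀ * s.1, by
            have := s.2
            rw [mem_stabilizer_iff] at this
            rw [mul_smul, this, hg₀]⟩
          left_inv := fun g => by simp
          right_inv := fun s => by simp }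
    have h2 : (stabilizer G v).index = Fintype.card (Fin k ↪ X) := by
      rw [index_stabilizer, orbit_eq_univ, Set.ncard_univ, Nat.card_eq_fintype_card]
    have h3 := Subgroup.card_mul_index (stabilizer G v)
    rw [h1, ← h2, h3, Nat.card_eq_fintype_card]
  have h1 : ∑ g : G, (univ.filter (fun v : Fin k ↪ X => g • v = φ v)).card =
      ∑ v : Fin k ↪ X, (univ.filter (fun g : G => g • v = φ v)).card := by
    simp only [card_filter]
    rw [sum_comm]
  rw [h1]
  apply Nat.eq_of_mul_eq_mul_right hY
  rw [sum_mul, sum_congr rfl (fun v _ => hc v), sum_const, card_univ, smul_eq_mul, mul_comm]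


omit [Fintype X] [DecidableEq X] in
theorem inj2 {a b : X} (h1 : a ≠ b) : Function.Injective ![a, b] := by
  intro i j hij
  fin_cases i <;> fin_cases j <;> first
    | rfl
    | exact absurd hij h1
    | exact absurd hij.symm h1

omit [Fintype X] [DecidableEq X] in
theorem inj3 {a b c : X} (h1 : a ≠ b) (h2 : a ≠ c) (h3 : b ≠ c) : Function.Injective ![a, b, c] := by
  intro i j hij
  fin_cases i <;> fin_cases j <;> first
    | rfl
    | exact absurd hij h1
    | exact absurd hij h2
    | exact absurd hij h3
    | exact absurd hij.symm h1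
    | exact absurd hij.symm h2
    | exact absurd hij.symm h3

omit [Fintype X] [DecidableEq X] in
theorem inj4 {a b c d : X} (h1 : a ≠ b) (h2 : a ≠ c) (h3 : a ≠ d) (h4 : b ≠ c) (h5 : b ≠ d)
    (h6 : c ≠ d) : Function.Injective ![a, b, c, d] := by
  intro i j hij
  fin_cases i <;> fin_cases j <;> first
    | rfl
    | exact absurd hij h1
    | exact absurd hij h2
    | exact absurd hij h3
    | exact absurd hij h4
    | exact absurd hij h5
    | exact absurd hij h6
    | exact absurd hij.symm h1
    | exact absurd hij.symm h2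
    | exact absurd hij.symm h3
    | exact absurd hij.symm h4
    | exact absurd hij.symm h5
    | exact absurd hij.symm h6

theorem smul_emb_apply {k : ℕ} (g : G) (v : Fin k ↪ X) (i : Fin k) : (g • v) i = g • v i := rfl

theorem count_id (k : ℕ) (g : G) :
    (univ.filter (fun v : Fin k ↪ X => g • v = v)).card = (fixF (X := X) g).card.descFactorial k := by
  classical
  rw [← Fintype.card_subtype]
  have e : {v : Fin k ↪ X // g • v = v} ≃ (Fin k ↪ {x // x ∈ fixF (X := X) g}) :=
    { toFun := fun v => ⟨fun i => ⟨v.1 i, by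
          rw [mem_fixF]
          have := congrArg (fun w : Fin k ↪ X => w i) v.2
          exact this⟩, fun i j h => v.1.injective (congrArg Subtype.val h)⟩
      invFun := fun w => ⟨w.trans (Function.Embedding.subtype _), by
          ext i
          have := (w i).2
          rw [mem_fixF] at this
          exact this⟩
      left_inv := fun v => by
        ext i
        rfl
      right_inv := fun w => by
        ext i
        rfl }
  rw [Fintype.card_congr e, Fintype.card_embedding_eq, Fintype.card_fin, Fintype.card_coe]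

/-- `φ` for a permutation of the indices. -/
def twist {k : ℕ} (σ : Equiv.Perm (Fin k)) (v : Fin k ↪ X) : Fin k ↪ X :=
  σ.toEmbedding.trans v

theorem twist_apply {k : ℕ} (σ : Equiv.Perm (Fin k)) (v : Fin k ↪ X) (i : Fin k) :
    twist σ v i = v (σ i) := rfl

theorem fixF_disj {g : G} {x : X} (h : x ∈ twoT (X := X) g) : x ∉ fixF (X := X) g := by
  rw [mem_twoT] at h
  rw [mem_fixF]
  exact h.1

theorem twist_eq_iff {k : ℕ} (σ : Equiv.Perm (Fin k)) (g : G) (v : Fin k ↪ X) :
    g • v = twist σ v ↔ ∀ i, g • v i = v (σ i) := by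
  constructor
  · intro h i
    exact congrArg (fun w : Fin k ↪ X => w i) h
  · intro h
    ext i
    exact h i

/-- `k = 2`, swap. -/
theorem count_s2 (g : G) :
    (univ.filter (fun v : Fin 2 ↪ X => g • v = twist (Equiv.swap 0 1) v)).card =
      (twoT (X := X) g).card := by
  classical
  apply Finset.card_bij (fun v _ => v 0)
  · intro v hv
    simp only [mem_filter, mem_univ, true_and, twist_eq_iff] at hv
    have h0 := hv 0
    have h1 := hv 1
    simp only [Equiv.swap_apply_left, Equiv.swap_apply_right] at h0 h1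
    rw [mem_twoT, h0, h1]
    refine ⟨fun h => ?_, rfl⟩
    exact absurd (v.injective h) (by decide)
  · intro v hv w hw h
    simp only [mem_filter, mem_univ, true_and, twist_eq_iff] at hv hw
    have h0 := hv 0
    have h0' := hw 0
    simp only [Equiv.swap_apply_left] at h0 h0'
    ext i
    fin_cases i
    · exact h
    · show v 1 = w 1
      rw [← h0, ← h0', h]
  · intro a ha
    rw [mem_twoT] at ha
    refine ⟨⟨![a, g • a], inj2 (fun h => ha.1 h.symm)⟩, ?_, rfl⟩
    · simp only [mem_filter, mem_univ, true_and, twist_eq_iff]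
      intro i
      fin_cases i
      · change g • a = ![a, g • a] (Equiv.swap 0 1 0)
        rw [show Equiv.swap (0 : Fin 2) 1 0 = 1 by decide]
        rfl
      · change g • (g • a) = ![a, g • a] (Equiv.swap 0 1 1)
        rw [show Equiv.swap (0 : Fin 2) 1 1 = 0 by decide]
        exact ha.2

/-- `k = 3`. -/
theorem count_s3 (g : G) :
    (univ.filter (fun v : Fin 3 ↪ X => g • v = twist (Equiv.swap 0 1) v)).card =
      (twoT (X := X) g).card * (fixF (X := X) g).card := by
  classical
  rw [← card_product]
  apply Finset.card_bij (fun v _ => (v 0, v 2))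
  · intro v hv
    simp only [mem_filter, mem_univ, true_and, twist_eq_iff] at hv
    have h0 := hv 0
    have h1 := hv 1
    have h2 := hv 2
    rw [show Equiv.swap (0 : Fin 3) 1 2 = 2 by decide] at h2
    rw [show Equiv.swap (0 : Fin 3) 1 0 = 1 by decide] at h0
    rw [show Equiv.swap (0 : Fin 3) 1 1 = 0 by decide] at h1
    rw [mem_product]
    refine ⟨?_, mem_fixF.2 h2⟩
    simp only
    rw [mem_twoT, h0, h1]
    refine ⟨fun h => ?_, rfl⟩
    exact absurd (v.injective h) (by decide)
  · intro v hv w hw h
    simp only [mem_filter, mem_univ, true_and, twist_eq_iff] at hv hw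
    have h0 := hv 0
    have h0' := hw 0
    rw [show Equiv.swap (0 : Fin 3) 1 0 = 1 by decide] at h0 h0'
    have h3 := congrArg Prod.fst h
    have h4 := congrArg Prod.snd h
    simp only at h3 h4
    ext i
    fin_cases i
    · exact h3
    · show v 1 = w 1
      rw [← h0, ← h0', h3]
    · exact h4
  · rintro ⟨a, c⟩ hb
    rw [mem_product] at hb
    obtain ⟨ha, hc⟩ := hb
    simp only at ha hc
    have h1 := fixF_disj ha
    have h2 := fixF_disj (smul_mem_twoT ha)
    have hac : a ≠ c := fun h => h1 (h ▸ hc)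
    have hbc : g • a ≠ c := fun h => h2 (h ▸ hc)
    rw [mem_twoT] at ha
    rw [mem_fixF] at hc
    refine ⟨⟨![a, g • a, c], inj3 (fun h => ha.1 h.symm) hac hbc⟩, ?_, rfl⟩
    · simp only [mem_filter, mem_univ, true_and, twist_eq_iff]
      intro i
      fin_cases i
      · change g • a = ![a, g • a, c] (Equiv.swap 0 1 0)
        rw [show Equiv.swap (0 : Fin 3) 1 0 = 1 by decide]
        rfl
      · change g • (g • a) = ![a, g • a, c] (Equiv.swap 0 1 1)
        rw [show Equiv.swap (0 : Fin 3) 1 1 = 0 by decide]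
        exact ha.2
      · change g • c = ![a, g • a, c] (Equiv.swap 0 1 2)
        rw [show Equiv.swap (0 : Fin 3) 1 2 = 2 by decide]
        exact hc

/-- `k = 4`, one swap. -/
theorem count_s4 (g : G) :
    (univ.filter (fun v : Fin 4 ↪ X => g • v = twist (Equiv.swap 0 1) v)).card =
      (twoT (X := X) g).card * (fixF (X := X) g).offDiag.card := by
  classical
  rw [← card_product]
  apply Finset.card_bij (fun v _ => (v 0, (v 2, v 3)))
  · intro v hv
    simp only [mem_filter, mem_univ, true_and, twist_eq_iff] at hv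
    have h0 := hv 0
    have h1 := hv 1
    have h2 := hv 2
    have h3 := hv 3
    rw [show Equiv.swap (0 : Fin 4) 1 2 = 2 by decide] at h2
    rw [show Equiv.swap (0 : Fin 4) 1 3 = 3 by decide] at h3
    rw [show Equiv.swap (0 : Fin 4) 1 0 = 1 by decide] at h0
    rw [show Equiv.swap (0 : Fin 4) 1 1 = 0 by decide] at h1
    rw [mem_product, mem_offDiag]
    simp only
    refine ⟨?_, mem_fixF.2 h2, mem_fixF.2 h3, fun h => ?_⟩
    · rw [mem_twoT, h0, h1]
      refine ⟨fun h => ?_, rfl⟩
      exact absurd (v.injective h) (by decide)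
    · exact absurd (v.injective h) (by decide)
  · intro v hv w hw h
    simp only [mem_filter, mem_univ, true_and, twist_eq_iff] at hv hw
    have h0 := hv 0
    have h0' := hw 0
    rw [show Equiv.swap (0 : Fin 4) 1 0 = 1 by decide] at h0 h0'
    simp only [Prod.mk.injEq] at h
    obtain ⟨h3, h4, h5⟩ := h
    ext i
    fin_cases i
    · exact h3
    · show v 1 = w 1
      rw [← h0, ← h0', h3]
    · exact h4
    · exact h5
  · rintro ⟨a, c, d⟩ hb
    rw [mem_product, mem_offDiag] at hb
    obtain ⟨ha, hc, hd, hcd⟩ := hb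
    simp only at ha hc hd hcd
    have h1 := fixF_disj ha
    have h2 := fixF_disj (smul_mem_twoT ha)
    have hac : a ≠ c := fun h => h1 (h ▸ hc)
    have hbc : g • a ≠ c := fun h => h2 (h ▸ hc)
    have had : a ≠ d := fun h => h1 (h ▸ hd)
    have hbd : g • a ≠ d := fun h => h2 (h ▸ hd)
    rw [mem_twoT] at ha
    rw [mem_fixF] at hc hd
    refine ⟨⟨![a, g • a, c, d], inj4 (fun h => ha.1 h.symm) hac had hbc hbd hcd⟩, ?_, rfl⟩
    · simp only [mem_filter, mem_univ, true_and, twist_eq_iff]
      intro i
      fin_cases i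
      · change g • a = ![a, g • a, c, d] (Equiv.swap 0 1 0)
        rw [show Equiv.swap (0 : Fin 4) 1 0 = 1 by decide]
        rfl
      · change g • (g • a) = ![a, g • a, c, d] (Equiv.swap 0 1 1)
        rw [show Equiv.swap (0 : Fin 4) 1 1 = 0 by decide]
        exact ha.2
      · change g • c = ![a, g • a, c, d] (Equiv.swap 0 1 2)
        rw [show Equiv.swap (0 : Fin 4) 1 2 = 2 by decide]
        exact hc
      · change g • d = ![a, g • a, c, d] (Equiv.swap 0 1 3)
        rw [show Equiv.swap (0 : Fin 4) 1 3 = 3 by decide]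
        exact hd

/-- `k = 4`, two swaps. -/
theorem count_d4 (g : G) :
    (univ.filter (fun v : Fin 4 ↪ X =>
      g • v = twist (Equiv.swap 0 1 * Equiv.swap 2 3) v)).card =
      ∑ a ∈ twoT (X := X) g, (((twoT (X := X) g).erase a).erase (g • a)).card := by
  classical
  rw [← card_sigma]
  apply Finset.card_bij (fun v _ => (⟨v 0, v 2⟩ : Σ _ : X, X))
  · intro v hv
    simp only [mem_filter, mem_univ, true_and, twist_eq_iff] at hv
    have h0 := hv 0
    have h1 := hv 1
    have h2 := hv 2
    have h3 := hv 3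
    rw [show (Equiv.swap (0 : Fin 4) 1 * Equiv.swap 2 3 : Equiv.Perm (Fin 4)) 0 = 1 by decide] at h0
    rw [show (Equiv.swap (0 : Fin 4) 1 * Equiv.swap 2 3 : Equiv.Perm (Fin 4)) 1 = 0 by decide] at h1
    rw [show (Equiv.swap (0 : Fin 4) 1 * Equiv.swap 2 3 : Equiv.Perm (Fin 4)) 2 = 3 by decide] at h2
    rw [show (Equiv.swap (0 : Fin 4) 1 * Equiv.swap 2 3 : Equiv.Perm (Fin 4)) 3 = 2 by decide] at h3
    rw [mem_sigma]
    simp only
    refine ⟨?_, ?_⟩
    · rw [mem_twoT, h0, h1]
      refine ⟨fun h => ?_, rfl⟩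
      exact absurd (v.injective h) (by decide)
    · rw [mem_erase, mem_erase, h0]
      refine ⟨fun h => ?_, fun h => ?_, ?_⟩
      · exact absurd (v.injective h) (by decide)
      · exact absurd (v.injective h) (by decide)
      · rw [mem_twoT, h2, h3]
        refine ⟨fun h => ?_, rfl⟩
        exact absurd (v.injective h) (by decide)
  · intro v hv w hw h
    simp only [mem_filter, mem_univ, true_and, twist_eq_iff] at hv hw
    have h0 := hv 0
    have h0' := hw 0
    have h2 := hv 2
    have h2' := hw 2
    rw [show (Equiv.swap (0 : Fin 4) 1 * Equiv.swap 2 3 : Equiv.Perm (Fin 4)) 0 = 1 by decide] at h0 h0'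
    rw [show (Equiv.swap (0 : Fin 4) 1 * Equiv.swap 2 3 : Equiv.Perm (Fin 4)) 2 = 3 by decide] at h2 h2'
    simp only [Sigma.mk.injEq, heq_eq_eq] at h
    obtain ⟨h3, h4⟩ := h
    ext i
    fin_cases i
    · exact h3
    · show v 1 = w 1
      rw [← h0, ← h0', h3]
    · exact h4
    · show v 3 = w 3
      rw [← h2, ← h2', h4]
  · rintro ⟨a, c⟩ hb
    rw [mem_sigma] at hb
    obtain ⟨ha, hc⟩ := hb
    rw [mem_erase, mem_erase] at hc
    obtain ⟨hc1, hc2, hc3⟩ := hc
    have hd3 := smul_mem_twoT hc3
    have hgc1 : g • a ≠ g • c := fun h => hc2 ((MulAction.injective g h).symm)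
    rw [mem_twoT] at ha hc3
    have hgc2 : a ≠ g • c := by
      intro h
      apply hc1
      have : g • a = g • (g • c) := congrArg (fun x => g • x) h
      rw [hc3.2] at this
      exact this.symm
    refine ⟨⟨![a, g • a, c, g • c], inj4 (fun h => ha.1 h.symm) (Ne.symm hc2) hgc2 (Ne.symm hc1)
      hgc1 (fun h => hc3.1 h.symm)⟩, ?_, rfl⟩
    · simp only [mem_filter, mem_univ, true_and, twist_eq_iff]
      intro i
      fin_cases i
      · change g • a = ![a, g • a, c, g • c] ((Equiv.swap 0 1 * Equiv.swap 2 3 : Equiv.Perm (Fin 4)) 0)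
        rw [show (Equiv.swap (0 : Fin 4) 1 * Equiv.swap 2 3 : Equiv.Perm (Fin 4)) 0 = 1 by decide]
        rfl
      · change g • (g • a) = ![a, g • a, c, g • c] ((Equiv.swap 0 1 * Equiv.swap 2 3 : Equiv.Perm (Fin 4)) 1)
        rw [show (Equiv.swap (0 : Fin 4) 1 * Equiv.swap 2 3 : Equiv.Perm (Fin 4)) 1 = 0 by decide]
        exact ha.2
      · change g • c = ![a, g • a, c, g • c] ((Equiv.swap 0 1 * Equiv.swap 2 3 : Equiv.Perm (Fin 4)) 2)
        rw [show (Equiv.swap (0 : Fin 4) 1 * Equiv.swap 2 3 : Equiv.Perm (Fin 4)) 2 = 3 by decide]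
        rfl
      · change g • (g • c) = ![a, g • a, c, g • c] ((Equiv.swap 0 1 * Equiv.swap 2 3 : Equiv.Perm (Fin 4)) 3)
        rw [show (Equiv.swap (0 : Fin 4) 1 * Equiv.swap 2 3 : Equiv.Perm (Fin 4)) 3 = 2 by decide]
        exact hc3.2

theorem two_mul_fixSym (g : G) :
    2 * (univ.filter (fun z : Sym2 X => g • z = z)).card =
      (fixF (X := X) g).card * (fixF (X := X) g).card + (fixF (X := X) g).card +
        (twoT (X := X) g).card := by
  classical
  set S := univ.filter (fun z : Sym2 X => g • z = z) with hS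
  set A := univ.filter (fun p : X × X => g • s(p.1, p.2) = s(p.1, p.2)) with hA
  have hAmem : ∀ a b : X, (a, b) ∈ A ↔ (g • a = a ∧ g • b = b) ∨ (g • a = b ∧ g • b = a) := by
    intro a b
    simp only [hA, mem_filter, mem_univ, true_and, sym_smul_mk, Sym2.eq_iff]
  -- count `A`
  have h1 : A.card = (fixF (X := X) g).card * (fixF (X := X) g).card + (twoT (X := X) g).card := by
    have hdecomp : A = (fixF (X := X) g ×ˢ fixF (X := X) g) ∪
        (twoT (X := X) g).image (fun a => (a, g • a)) := by
      ext ⟨a, b⟩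
      rw [hAmem, mem_union, mem_product, mem_image]
      simp only [mem_fixF]
      constructor
      · rintro (h | ⟨h1, h2⟩)
        · exact Or.inl h
        · by_cases h : g • a = a
          · left
            have hb : b = a := by rw [← h1, h]
            subst hb
            exact ⟨h, h⟩
          · right
            refine ⟨a, mem_twoT.2 ⟨h, ?_⟩, ?_⟩
            · rw [h1, h2]
            · rw [h1]
      · rintro (h | ⟨c, hc, he⟩)
        · exact Or.inl h
        · right
          have h2 : c = a := congrArg Prod.fst he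
          have h3 : g • c = b := congrArg Prod.snd he
          subst h2
          exact ⟨h3, by rw [← h3]; exact (mem_twoT.1 hc).2⟩
    rw [hdecomp, card_union_of_disjoint, card_product, card_image_of_injective]
    · intro a b h
      exact congrArg Prod.fst h
    · rw [disjoint_left]
      rintro ⟨a, b⟩ h1 h2
      rw [mem_product] at h1
      rw [mem_image] at h2
      obtain ⟨c, hc, he⟩ := h2
      have h3 : c = a := congrArg Prod.fst he
      subst h3
      exact fixF_disj hc h1.1
  -- fibres
  have h2 : A.card = ∑ z ∈ S, (A.filter (fun p => s(p.1, p.2) = z)).card := by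
    apply card_eq_sum_card_fiberwise
    intro p hp
    simp only [hA, coe_filter, mem_univ, true_and, Set.mem_setOf_eq] at hp
    simp only [hS, coe_filter, mem_univ, true_and, Set.mem_setOf_eq]
    exact hp
  have h3 : ∀ z ∈ S, (A.filter (fun p => s(p.1, p.2) = z)).card + (if z.IsDiag then 1 else 0) = 2 := by
    intro z hz
    induction z using Sym2.ind with
    | _ a b =>
      have hz' : g • s(a, b) = s(a, b) := (mem_filter.1 hz).2
      have hf : A.filter (fun p => s(p.1, p.2) = s(a, b)) = {(a, b), (b, a)} := by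
        ext ⟨c, d⟩
        simp only [mem_filter, mem_insert, mem_singleton, Prod.mk.injEq, hA, mem_univ, true_and,
          Sym2.eq_iff]
        constructor
        · rintro ⟨_, h⟩
          exact h
        · intro h
          refine ⟨?_, h⟩
          rcases h with ⟨rfl, rfl⟩ | ⟨rfl, rfl⟩
          · exact hz'
          · rw [Sym2.eq_swap (a := c) (b := d)]
            exact hz'
      rw [hf]
      by_cases hab : a = b
      · subst hab
        simp
      · have : ¬ s(a, b).IsDiag := by simpa using hab
        rw [card_pair (by simpa [Prod.mk.injEq] using fun h _ => hab h), if_neg this]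
  have h4 : (S.filter (fun z => z.IsDiag)).card = (fixF (X := X) g).card := by
    symm
    apply Finset.card_bij (fun a _ => s(a, a))
    · intro a ha
      rw [mem_fixF] at ha
      rw [mem_filter, hS, mem_filter]
      refine ⟨⟨mem_univ _, ?_⟩, by simp⟩
      rw [sym_smul_mk, ha]
    · intro a _ b _ h
      simpa using h
    · intro z hz
      rw [mem_filter, hS, mem_filter] at hz
      induction z using Sym2.ind with
      | _ a b =>
        have hab : a = b := by simpa using hz.2
        subst hab
        refine ⟨a, ?_, rfl⟩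
        rw [mem_fixF]
        have h5 := hz.1.2
        rw [sym_smul_mk, Sym2.eq_iff] at h5
        rcases h5 with h5 | h5
        · exact h5.1
        · exact h5.1
  have h5 : 2 * S.card = ∑ z ∈ S, ((A.filter (fun p => s(p.1, p.2) = z)).card +
      (if z.IsDiag then 1 else 0)) := by
    rw [sum_congr rfl h3, sum_const, smul_eq_mul, mul_comm]
  rw [h5, sum_add_distrib, ← h2, h1, ← card_filter, h4]
  ring

/-! ### The moments -/

/-- Number of fixed points in `ℂ`. -/
noncomputable def fC (g : G) : ℂ := ((fixF (X := X) g).card : ℂ)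

/-- Number of points in two-cycles in `ℂ`. -/
noncomputable def tC (g : G) : ℂ := ((twoT (X := X) g).card : ℂ)

theorem sum_twoT_erase (g : G) :
    ((∑ a ∈ twoT (X := X) g, (((twoT (X := X) g).erase a).erase (g • a)).card : ℕ) : ℂ) =
      tC (X := X) g * (tC (X := X) g - 2) := by
  classical
  rw [Nat.cast_sum, tC]
  have h : ∀ a ∈ twoT (X := X) g, ((((twoT (X := X) g).erase a).erase (g • a)).card : ℂ) =
      ((twoT (X := X) g).card : ℂ) - 2 := by
    intro a ha
    have h1 := smul_mem_twoT ha
    have h2 : g • a ≠ a := (mem_twoT.1 ha).1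
    have h3 : g • a ∈ (twoT (X := X) g).erase a := mem_erase.2 ⟨h2, h1⟩
    have h4 := card_erase_of_mem h3
    have h5 := card_erase_of_mem ha
    have h6 : 2 ≤ (twoT (X := X) g).card := by
      have : ({a, g • a} : Finset X) ⊆ twoT (X := X) g := by
        intro x hx
        simp only [mem_insert, mem_singleton] at hx
        rcases hx with rfl | rfl
        · exact ha
        · exact h1
      have h7 := card_le_card this
      rwa [card_pair (Ne.symm h2)] at h7
    rw [h4, h5]
    push_cast [Nat.cast_sub (show 1 ≤ (twoT (X := X) g).card - 1 by omega),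
      Nat.cast_sub (show 1 ≤ (twoT (X := X) g).card by omega)]
    ring
  rw [sum_congr rfl h, sum_const, nsmul_eq_mul]

variable [Nonempty (Fin 4 ↪ X)] [IsMultiplyPretransitive G X 4]

theorem inst_emb_le {k : ℕ} (hk : k ≤ 4) : Nonempty (Fin k ↪ X) := by
  obtain ⟨v⟩ := ‹Nonempty (Fin 4 ↪ X)›
  exact ⟨(Fin.castLEEmb hk).trans v⟩

theorem pretrans_le {k : ℕ} (hk : k ≤ 4) : IsMultiplyPretransitive G X k := by
  haveI : Finite X := inferInstance
  exact isMultiplyPretransitive_of_le (n := 4) hk (by
    obtain ⟨v⟩ := ‹Nonempty (Fin 4 ↪ X)›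
    have := Fintype.card_le_of_embedding v
    simpa using this)

theorem moment_id (k : ℕ) (hk : k ≤ 4) :
    ∑ g : G, ((fixF (X := X) g).card.descFactorial k : ℂ) = (Fintype.card G : ℂ) := by
  haveI := inst_emb_le (X := X) hk
  haveI := pretrans_le (G := G) (X := X) hk
  have h := sum_count (G := G) (X := X) (k := k) id
  simp only [id] at h
  rw [← h, Nat.cast_sum]
  apply sum_congr rfl
  intro g _
  rw [count_id]

theorem moment_1 : ∑ g : G, fC (X := X) g = (Fintype.card G : ℂ) := by
  rw [← moment_id (G := G) (X := X) 1 (by norm_num)]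
  simp [fC]

theorem desc2 (n : ℕ) : ((n.descFactorial 2 : ℕ) : ℂ) = (n : ℂ) * ((n : ℂ) - 1) := by
  rw [← descPochhammer_eval_eq_descFactorial ℂ]
  simp [descPochhammer_succ_right]

theorem desc3 (n : ℕ) :
    ((n.descFactorial 3 : ℕ) : ℂ) = (n : ℂ) * ((n : ℂ) - 1) * ((n : ℂ) - 2) := by
  rw [← descPochhammer_eval_eq_descFactorial ℂ]
  simp [descPochhammer_succ_right]

theorem desc4 (n : ℕ) :
    ((n.descFactorial 4 : ℕ) : ℂ) = (n : ℂ) * ((n : ℂ) - 1) * ((n : ℂ) - 2) * ((n : ℂ) - 3) := by
  rw [← descPochhammer_eval_eq_descFactorial ℂ]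
  simp [descPochhammer_succ_right]

theorem moment_2 : ∑ g : G, (fC (X := X) g * (fC (X := X) g - 1)) = (Fintype.card G : ℂ) := by
  rw [← moment_id (G := G) (X := X) 2 (by norm_num)]
  exact sum_congr rfl (fun g _ => (desc2 _).symm)

theorem moment_3 :
    ∑ g : G, (fC (X := X) g * (fC (X := X) g - 1) * (fC (X := X) g - 2)) = (Fintype.card G : ℂ) := by
  rw [← moment_id (G := G) (X := X) 3 (by norm_num)]
  exact sum_congr rfl (fun g _ => (desc3 _).symm)

theorem moment_4 :
    ∑ g : G, (fC (X := X) g * (fC (X := X) g - 1) * (fC (X := X) g - 2) * (fC (X := X) g - 3)) =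
      (Fintype.card G : ℂ) := by
  rw [← moment_id (G := G) (X := X) 4 (by norm_num)]
  exact sum_congr rfl (fun g _ => (desc4 _).symm)

theorem moment_t1 : ∑ g : G, tC (X := X) g = (Fintype.card G : ℂ) := by
  haveI := inst_emb_le (X := X) (show 2 ≤ 4 by norm_num)
  haveI := pretrans_le (G := G) (X := X) (show 2 ≤ 4 by norm_num)
  have h := sum_count (G := G) (X := X) (k := 2) (twist (Equiv.swap 0 1))
  rw [← h, Nat.cast_sum]
  apply sum_congr rfl
  intro g _
  rw [count_s2]
  rfl

theorem moment_t2 : ∑ g : G, (tC (X := X) g * fC (X := X) g) = (Fintype.card G : ℂ) := by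
  haveI := inst_emb_le (X := X) (show 3 ≤ 4 by norm_num)
  haveI := pretrans_le (G := G) (X := X) (show 3 ≤ 4 by norm_num)
  have h := sum_count (G := G) (X := X) (k := 3) (twist (Equiv.swap 0 1))
  rw [← h, Nat.cast_sum]
  apply sum_congr rfl
  intro g _
  rw [count_s3]
  simp [tC, fC]

theorem moment_t3 :
    ∑ g : G, (tC (X := X) g * (fC (X := X) g * (fC (X := X) g - 1))) = (Fintype.card G : ℂ) := by
  have h := sum_count (G := G) (X := X) (k := 4) (twist (Equiv.swap 0 1))
  rw [← h, Nat.cast_sum]
  apply sum_congr rfl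
  intro g _
  rw [count_s4, offDiag_card]
  have h1 : (fixF (X := X) g).card ≤ (fixF (X := X) g).card * (fixF (X := X) g).card :=
    Nat.le_mul_self _
  push_cast [Nat.cast_sub h1]
  simp only [tC, fC]
  ring

theorem moment_t4 :
    ∑ g : G, (tC (X := X) g * (tC (X := X) g - 2)) = (Fintype.card G : ℂ) := by
  have h := sum_count (G := G) (X := X) (k := 4) (twist (Equiv.swap 0 1 * Equiv.swap 2 3))
  rw [← h, Nat.cast_sum]
  apply sum_congr rfl
  intro g _
  rw [count_d4, sum_twoT_erase]

/-! ### The three generalized characters -/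

/-- Fixed unordered pairs in `ℂ`. -/
noncomputable def uC (g : G) : ℂ := ((univ.filter (fun z : Sym2 X => g • z = z)).card : ℂ)

omit [Nonempty (Fin 4 ↪ X)] [IsMultiplyPretransitive G X 4] in
theorem two_uC (g : G) :
    2 * uC (X := X) g = fC (X := X) g * fC (X := X) g + fC (X := X) g + tC (X := X) g := by
  have h := two_mul_fixSym (G := G) (X := X) g
  have h' := congrArg (Nat.cast : ℕ → ℂ) h
  push_cast at h'
  exact h'

/-- The character `(n-1,1)`. -/
noncomputable def chi1 (g : G) : ℂ := fC (X := X) g - 1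

/-- The character `(n-2,2)`. -/
noncomputable def chi2 (g : G) : ℂ := uC (X := X) g - 2 * fC (X := X) g

/-- The character `(n-2,1,1)`. -/
noncomputable def chi3 (g : G) : ℂ :=
  fC (X := X) g * fC (X := X) g - uC (X := X) g - fC (X := X) g + 1

omit [Nonempty (Fin 4 ↪ X)] [IsMultiplyPretransitive G X 4] in
theorem fC_eq_perm (g : G) :
    Cfsg.Agent.Lib.Char.PermChar.permChar G X g = fC (X := X) g := by
  classical
  simp only [Cfsg.Agent.Lib.Char.PermChar.permChar, fC]
  congr 1
  rw [Nat.card_eq_fintype_card, ← Fintype.card_coe]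
  apply Fintype.card_congr
  exact Equiv.subtypeEquivRight (fun x => by simp [mem_fixF, mem_fixedBy])

omit [Nonempty (Fin 4 ↪ X)] [IsMultiplyPretransitive G X 4] in
theorem uC_eq_perm (g : G) :
    Cfsg.Agent.Lib.Char.PermChar.permChar G (Sym2 X) g = uC (X := X) g := by
  classical
  simp only [Cfsg.Agent.Lib.Char.PermChar.permChar, uC]
  congr 1
  rw [Nat.card_eq_fintype_card, ← Fintype.card_coe]
  apply Fintype.card_congr
  exact Equiv.subtypeEquivRight (fun x => by simp [mem_fixedBy])

omit [Nonempty (Fin 4 ↪ X)] [IsMultiplyPretransitive G X 4] in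
theorem isGen_f : IsGeneralizedCharacter G (fC (X := X) : G → ℂ) := by
  classical
  have h : (fC (X := X) : G → ℂ) = Cfsg.Agent.Lib.Char.PermChar.permChar G X :=
    funext (fun g => (fC_eq_perm g).symm)
  rw [h]
  exact Cfsg.Agent.Lib.Char.Virtual.isGeneralized_of_isCharacter
    Cfsg.Agent.Lib.Char.PermChar.isCharacter_perm

omit [Nonempty (Fin 4 ↪ X)] [IsMultiplyPretransitive G X 4] in
theorem isGen_u : IsGeneralizedCharacter G (uC (X := X) : G → ℂ) := by
  classical
  have h : (uC (X := X) : G → ℂ) = Cfsg.Agent.Lib.Char.PermChar.permChar G (Sym2 X) :=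
    funext (fun g => (uC_eq_perm g).symm)
  rw [h]
  exact Cfsg.Agent.Lib.Char.Virtual.isGeneralized_of_isCharacter
    Cfsg.Agent.Lib.Char.PermChar.isCharacter_perm

omit [Nonempty (Fin 4 ↪ X)] [IsMultiplyPretransitive G X 4] in
theorem isGen_ff : IsGeneralizedCharacter G (fun g : G => fC (X := X) g * fC (X := X) g) := by
  classical
  have h : (fun g : G => fC (X := X) g * fC (X := X) g) =
      Cfsg.Agent.Lib.Char.PermChar.permChar G (X × X) := by
    funext g
    simp only [Cfsg.Agent.Lib.Char.PermChar.permChar]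
    rw [Cfsg.Agent.Lib.Char.PermChar.card_fixedBy_prod]
    push_cast
    have := fC_eq_perm (G := G) (X := X) g
    simp only [Cfsg.Agent.Lib.Char.PermChar.permChar] at this
    rw [this]
  rw [h]
  exact Cfsg.Agent.Lib.Char.Virtual.isGeneralized_of_isCharacter
    Cfsg.Agent.Lib.Char.PermChar.isCharacter_perm

omit [Fintype X] [DecidableEq X] [MulAction G X] [Nonempty (Fin 4 ↪ X)] [IsMultiplyPretransitive G X 4] in
theorem isGen_one : IsGeneralizedCharacter G (fun _ : G => (1 : ℂ)) := by
  classical
  have h : (fun _ : G => (1 : ℂ)) = Cfsg.Agent.Lib.Char.PermChar.permChar G Unit := by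
    funext g
    simp only [Cfsg.Agent.Lib.Char.PermChar.permChar]
    have : fixedBy Unit g = Set.univ := by
      ext x
      simp [mem_fixedBy]
    rw [this]
    simp
  rw [h]
  exact Cfsg.Agent.Lib.Char.Virtual.isGeneralized_of_isCharacter
    Cfsg.Agent.Lib.Char.PermChar.isCharacter_perm

omit [Nonempty (Fin 4 ↪ X)] [IsMultiplyPretransitive G X 4] in
theorem isGen_chi1 : IsGeneralizedCharacter G (chi1 (X := X) : G → ℂ) :=
  Cfsg.Agent.Lib.Char.Virtual.isGeneralized_sub isGen_f isGen_one

omit [Nonempty (Fin 4 ↪ X)] [IsMultiplyPretransitive G X 4] in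
theorem isGen_chi2 : IsGeneralizedCharacter G (chi2 (X := X) : G → ℂ) := by
  have h : (chi2 (X := X) : G → ℂ) = uC (X := X) - fC (X := X) - fC (X := X) := by
    funext g
    simp only [chi2, Pi.sub_apply]
    ring
  rw [h]
  exact Cfsg.Agent.Lib.Char.Virtual.isGeneralized_sub
    (Cfsg.Agent.Lib.Char.Virtual.isGeneralized_sub isGen_u isGen_f) isGen_f

omit [Nonempty (Fin 4 ↪ X)] [IsMultiplyPretransitive G X 4] in
theorem isGen_chi3 : IsGeneralizedCharacter G (chi3 (X := X) : G → ℂ) :=
  Cfsg.Agent.Lib.Char.Virtual.isGeneralized_add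
    (Cfsg.Agent.Lib.Char.Virtual.isGeneralized_sub
      (Cfsg.Agent.Lib.Char.Virtual.isGeneralized_sub isGen_ff isGen_u) isGen_f) isGen_one

omit [Nonempty (Fin 4 ↪ X)] [IsMultiplyPretransitive G X 4] in
theorem conj_fC (g : G) : (starRingEnd ℂ) (fC (X := X) g) = fC (X := X) g := by
  simp [fC]

omit [Nonempty (Fin 4 ↪ X)] [IsMultiplyPretransitive G X 4] in
theorem conj_uC (g : G) : (starRingEnd ℂ) (uC (X := X) g) = uC (X := X) g := by
  simp [uC]

/-- Average computation. -/
theorem card_ne : (Fintype.card G : ℂ) ≠ 0 := by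
  exact_mod_cast Fintype.card_ne_zero

theorem inner_chi1 : classInner (chi1 (X := X) : G → ℂ) (chi1 (X := X)) = 1 := by
  have h : ∀ g : G, chi1 (X := X) g * (starRingEnd ℂ) (chi1 (X := X) g) =
      fC (X := X) g * (fC (X := X) g - 1) - fC (X := X) g + 1 := by
    intro g
    simp only [chi1, map_sub, map_one, conj_fC]
    ring
  rw [classInner, Nat.card_eq_fintype_card, sum_congr rfl (fun g _ => h g)]
  simp only [sum_add_distrib, sum_sub_distrib, moment_1, moment_2, sum_const, card_univ,
    nsmul_eq_mul, mul_one]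
  have := card_ne (G := G)
  field_simp
  ring

theorem inner_chi2 : classInner (chi2 (X := X) : G → ℂ) (chi2 (X := X)) = 1 := by
  have h : ∀ g : G, chi2 (X := X) g * (starRingEnd ℂ) (chi2 (X := X) g) =
      (1 / 4) * ((fC (X := X) g * (fC (X := X) g - 1) * (fC (X := X) g - 2) * (fC (X := X) g - 3))
        - 2 * (fC (X := X) g * (fC (X := X) g - 1)) + 4 * fC (X := X) g
        + 2 * (tC (X := X) g * (fC (X := X) g * (fC (X := X) g - 1)))
        - 4 * (tC (X := X) g * fC (X := X) g)
        + tC (X := X) g * (tC (X := X) g - 2) + 2 * tC (X := X) g) := by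
    intro g
    simp only [chi2, map_sub, map_mul, conj_fC, conj_uC, map_ofNat]
    have h2 := two_uC (G := G) (X := X) g
    have h3 : uC (X := X) g =
        (fC (X := X) g * fC (X := X) g + fC (X := X) g + tC (X := X) g) / 2 := by
      rw [← h2]; ring
    rw [h3]
    ring
  rw [classInner, Nat.card_eq_fintype_card, sum_congr rfl (fun g _ => h g), ← mul_sum]
  simp only [sum_add_distrib, sum_sub_distrib, ← mul_sum, moment_1, moment_2, moment_4, moment_t1,
    moment_t2, moment_t3, moment_t4]
  have := card_ne (G := G)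
  field_simp
  ring

theorem inner_chi3 : classInner (chi3 (X := X) : G → ℂ) (chi3 (X := X)) = 1 := by
  have h : ∀ g : G, chi3 (X := X) g * (starRingEnd ℂ) (chi3 (X := X) g) =
      (1 / 4) * ((fC (X := X) g * (fC (X := X) g - 1) * (fC (X := X) g - 2) * (fC (X := X) g - 3))
        + 2 * (fC (X := X) g * (fC (X := X) g - 1)) - 4 * fC (X := X) g + 4
        - 2 * (tC (X := X) g * (fC (X := X) g * (fC (X := X) g - 1)))
        + 4 * (tC (X := X) g * fC (X := X) g)
        + tC (X := X) g * (tC (X := X) g - 2) - 2 * tC (X := X) g) := by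
    intro g
    simp only [chi3, map_sub, map_mul, map_add, map_one, conj_fC, conj_uC]
    have h2 := two_uC (G := G) (X := X) g
    have h3 : uC (X := X) g =
        (fC (X := X) g * fC (X := X) g + fC (X := X) g + tC (X := X) g) / 2 := by
      rw [← h2]; ring
    rw [h3]
    ring
  rw [classInner, Nat.card_eq_fintype_card, sum_congr rfl (fun g _ => h g), ← mul_sum]
  simp only [sum_add_distrib, sum_sub_distrib, ← mul_sum, moment_1, moment_2, moment_4, moment_t1,
    moment_t2, moment_t3, moment_t4, sum_const, card_univ, nsmul_eq_mul]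
  have := card_ne (G := G)
  field_simp
  ring

omit [Nonempty (Fin 4 ↪ X)] [IsMultiplyPretransitive G X 4] [MulAction G X] [Fintype X] [DecidableEq X] in
theorem irr_of {θ : G → ℂ} (hg : IsGeneralizedCharacter G θ) (hn : classInner θ θ = 1)
    {r : ℝ} (hr : 0 < r) (h1 : θ 1 = (r : ℂ)) : IsIrrCharacter G θ := by
  rcases Cfsg.Agent.Lib.Char.Virtual.isSignedIrr_of_norm_one hg hn with h | h
  · exact h
  · exfalso
    have hc := Cfsg.Agent.Lib.Char.Values.IsIrrCharacter.isCharacter h
    obtain ⟨m, hm⟩ := Cfsg.Agent.Lib.Char.Values.IsCharacter.exists_one_eq hc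
    have h2 : ((-θ) 1) = -(r : ℂ) := by simp [h1]
    rw [h2] at hm
    have h3 : -(r : ℝ) = (m : ℝ) := by
      have : ((-(r : ℝ) : ℝ) : ℂ) = ((m : ℝ) : ℂ) := by push_cast; exact hm
      exact_mod_cast this
    have h4 : (0 : ℝ) ≤ (m : ℝ) := Nat.cast_nonneg m
    linarith

omit [Nonempty (Fin 4 ↪ X)] [IsMultiplyPretransitive G X 4] in
theorem f_one : fC (X := X) (1 : G) = (Fintype.card X : ℂ) := by
  simp [fC, fixF]

omit [Nonempty (Fin 4 ↪ X)] [IsMultiplyPretransitive G X 4] in
theorem t_one : tC (X := X) (1 : G) = 0 := by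
  simp [tC, twoT]

theorem irr_chi1 (hn : 2 ≤ Fintype.card X) : IsIrrCharacter G (chi1 (X := X) : G → ℂ) := by
  apply irr_of isGen_chi1 inner_chi1 (r := (Fintype.card X : ℝ) - 1)
  · have : (2 : ℝ) ≤ Fintype.card X := by exact_mod_cast hn
    linarith
  · simp [chi1, f_one]

theorem irr_chi2 (hn : 4 ≤ Fintype.card X) : IsIrrCharacter G (chi2 (X := X) : G → ℂ) := by
  apply irr_of isGen_chi2 inner_chi2
    (r := ((Fintype.card X : ℝ) * (Fintype.card X : ℝ) - 3 * (Fintype.card X : ℝ)) / 2)
  · have : (4 : ℝ) ≤ Fintype.card X := by exact_mod_cast hn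
    nlinarith
  · have h2 := two_uC (G := G) (X := X) 1
    rw [f_one, t_one] at h2
    have h3 : uC (X := X) (1 : G) =
        ((Fintype.card X : ℂ) * (Fintype.card X : ℂ) + (Fintype.card X : ℂ) + 0) / 2 := by
      rw [← h2]; ring
    simp only [chi2, f_one, h3]
    push_cast
    ring

theorem irr_chi3 (hn : 3 ≤ Fintype.card X) : IsIrrCharacter G (chi3 (X := X) : G → ℂ) := by
  apply irr_of isGen_chi3 inner_chi3
    (r := ((Fintype.card X : ℝ) * (Fintype.card X : ℝ) - 3 * (Fintype.card X : ℝ) + 2) / 2)
  · have : (3 : ℝ) ≤ Fintype.card X := by exact_mod_cast hn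
    nlinarith
  · have h2 := two_uC (G := G) (X := X) 1
    rw [f_one, t_one] at h2
    have h3 : uC (X := X) (1 : G) =
        ((Fintype.card X : ℂ) * (Fintype.card X : ℂ) + (Fintype.card X : ℂ) + 0) / 2 := by
      rw [← h2]; ring
    simp only [chi3, f_one, h3]
    push_cast
    ring

end Generic

section Concrete

variable (n : ℕ)

theorem exists_elt (m : Multiset ℕ) (hsum : m.sum ≤ n) (h2 : ∀ a ∈ m, 2 ≤ a)
    (hpar : Even (m.sum + Multiset.card m)) :
    ∃ x : alternatingGroup (Fin n), (x : Equiv.Perm (Fin n)).cycleType = m := by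
  obtain ⟨g, hg⟩ := Equiv.Perm.exists_with_cycleType_iff (Fin n) |>.2
    ⟨by simpa using hsum, h2⟩
  refine ⟨⟨g, ?_⟩, hg⟩
  rw [Equiv.Perm.mem_alternatingGroup, Equiv.Perm.sign_of_cycleType, hg]
  exact hpar.neg_one_pow

variable {n}

theorem fC_of (x : alternatingGroup (Fin n)) :
    fC (X := Fin n) x = ((n - (x : Equiv.Perm (Fin n)).cycleType.sum : ℕ) : ℂ) := by
  rw [fC, Equiv.Perm.sum_cycleType]
  congr 1
  have h : fixF (X := Fin n) x = ((x : Equiv.Perm (Fin n)).support)ᶜ := by
    ext i
    rw [mem_fixF, mem_compl, Equiv.Perm.mem_support, not_not]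
    rfl
  rw [h, card_compl, Fintype.card_fin]

theorem tC_of (x : alternatingGroup (Fin n))
    (h : ∀ a ∈ (x : Equiv.Perm (Fin n)).cycleType, 3 ≤ a) : tC (X := Fin n) x = 0 := by
  rw [tC, Nat.cast_eq_zero, card_eq_zero, eq_empty_iff_forall_notMem]
  intro j hj
  rw [mem_twoT] at hj
  set σ : Equiv.Perm (Fin n) := (x : Equiv.Perm (Fin n)) with hσ
  have h1 : σ j ≠ j := hj.1
  have h2 : σ (σ j) = j := hj.2
  have hmem : σ.cycleOf j ∈ σ.cycleFactorsFinset :=
    Equiv.Perm.cycleOf_mem_cycleFactorsFinset_iff.2 (Equiv.Perm.mem_support.2 h1)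
  have h3 : (σ.cycleOf j).support.card ∈ σ.cycleType := by
    rw [Equiv.Perm.cycleType_def]
    exact Multiset.mem_map.2 ⟨_, hmem, rfl⟩
  have h4 := h _ h3
  have hsub : (σ.cycleOf j).support ⊆ {j, σ j} := by
    intro y hy
    rw [Equiv.Perm.mem_support_cycleOf_iff] at hy
    obtain ⟨i, hi⟩ := hy.1
    have hsq : (σ * σ) j = j := h2
    have hsq' : (σ * σ) (σ j) = σ j := by
      change σ (σ (σ j)) = σ j
      rw [h2]
    have h5 : ∀ q : ℤ, ((σ * σ) ^ q) j = j := fun q =>
      Equiv.Perm.zpow_apply_eq_self_of_apply_eq_self hsq q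
    have h6 : ∀ q : ℤ, ((σ * σ) ^ q) (σ j) = σ j := fun q =>
      Equiv.Perm.zpow_apply_eq_self_of_apply_eq_self hsq' q
    rw [mem_insert, mem_singleton]
    rcases Int.even_or_odd' i with ⟨q, rfl | rfl⟩
    · left
      rw [← hi, zpow_mul, zpow_two]
      exact h5 q
    · right
      rw [← hi, zpow_add, zpow_mul, zpow_two, zpow_one, Equiv.Perm.mul_apply]
      exact h6 q
  have h5 := card_le_card hsub
  have h6 : ({j, σ j} : Finset (Fin n)).card ≤ 2 := card_le_two
  omega

theorem order_of_dvd (x : alternatingGroup (Fin n)) {d : ℕ}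
    (h : ∀ a ∈ (x : Equiv.Perm (Fin n)).cycleType, a ∣ d) : orderOf x ∣ d := by
  rw [← Subgroup.orderOf_coe, ← Equiv.Perm.lcm_cycleType]
  exact Multiset.lcm_dvd.2 h

theorem inst4A (hn : 7 ≤ n) : IsMultiplyPretransitive (alternatingGroup (Fin n)) (Fin n) 4 := by
  have h : IsMultiplyPretransitive (alternatingGroup (Fin n)) (Fin n) (Nat.card (Fin n) - 2) :=
    alternatingGroup.isMultiplyPretransitive (Fin n)
  apply isMultiplyPretransitive_of_le (n := Nat.card (Fin n) - 2)
  · simp only [Nat.card_eq_fintype_card, Fintype.card_fin]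
    omega
  · simp only [Nat.card_eq_fintype_card, Fintype.card_fin]
    omega

theorem inst4S : IsMultiplyPretransitive (Equiv.Perm (Fin n)) (Fin n) 4 :=
  Equiv.Perm.isMultiplyPretransitive (Fin n) 4

theorem instE (hn : 7 ≤ n) : Nonempty (Fin 4 ↪ Fin n) :=
  ⟨Fin.castLEEmb (by omega)⟩

theorem chi1_compat (x : alternatingGroup (Fin n)) :
    chi1 (X := Fin n) (x : Equiv.Perm (Fin n)) = chi1 (X := Fin n) x := rfl

theorem chi2_compat (x : alternatingGroup (Fin n)) :
    chi2 (X := Fin n) (x : Equiv.Perm (Fin n)) = chi2 (X := Fin n) x := rfl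

theorem chi3_compat (x : alternatingGroup (Fin n)) :
    chi3 (X := Fin n) (x : Equiv.Perm (Fin n)) = chi3 (X := Fin n) x := rfl

theorem chi2_zero (x : alternatingGroup (Fin n)) (h1 : fC (X := Fin n) x = 0)
    (h2 : tC (X := Fin n) x = 0) : chi2 (X := Fin n) x = 0 := by
  have h := two_uC (G := alternatingGroup (Fin n)) (X := Fin n) x
  rw [h1, h2] at h
  have h3 : uC (X := Fin n) x = 0 := by
    have : 2 * uC (X := Fin n) x = 0 := by rw [h]; ring
    simpa using this
  rw [chi2, h1, h3]
  ring

theorem chi3_zero (x : alternatingGroup (Fin n)) (h1 : fC (X := Fin n) x = 2)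
    (h2 : tC (X := Fin n) x = 0) : chi3 (X := Fin n) x = 0 := by
  have h := two_uC (G := alternatingGroup (Fin n)) (X := Fin n) x
  rw [h1, h2] at h
  have h3 : uC (X := Fin n) x = 3 := by
    have : 2 * uC (X := Fin n) x = 2 * 3 := by rw [h]; ring
    exact mul_left_cancel₀ two_ne_zero this
  rw [chi3, h1, h3]
  ring

theorem irrs (hn : 7 ≤ n) :
    IsIrrCharacter (alternatingGroup (Fin n)) (chi1 (X := Fin n)) ∧
    IsIrrCharacter (alternatingGroup (Fin n)) (chi2 (X := Fin n)) ∧
    IsIrrCharacter (alternatingGroup (Fin n)) (chi3 (X := Fin n)) ∧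
    IsIrrCharacter (Equiv.Perm (Fin n)) (chi1 (X := Fin n)) ∧
    IsIrrCharacter (Equiv.Perm (Fin n)) (chi2 (X := Fin n)) ∧
    IsIrrCharacter (Equiv.Perm (Fin n)) (chi3 (X := Fin n)) := by
  haveI := inst4A hn
  haveI := inst4S (n := n)
  haveI := instE hn
  have hc : Fintype.card (Fin n) = n := Fintype.card_fin n
  refine ⟨irr_chi1 (by omega), irr_chi2 (by omega), irr_chi3 (by omega), irr_chi1 (by omega),
    irr_chi2 (by omega), irr_chi3 (by omega)⟩

end Concrete

/-- For n ≥ 7 the alternating group on n letters has an irreducible character that vanishes at some 2-element and is the restriction of an irreducible character of the symmetric group, and an irreducible character that vanishes at some element of order 3 and is the restriction of an irreducible character of the symmetric group. -/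
theorem result (n : ℕ) (hn : 7 ≤ n) : (∃ χ : Cfsg.IrrCharacter (alternatingGroup (Fin n)), (∃ x : alternatingGroup (Fin n), (∃ j : ℕ, orderOf x = 2 ^ j) ∧ (χ : alternatingGroup (Fin n) → ℂ) x = 0) ∧ ∃ ψ : Cfsg.IrrCharacter (Equiv.Perm (Fin n)), ∀ x : alternatingGroup (Fin n), (ψ : Equiv.Perm (Fin n) → ℂ) x = (χ : alternatingGroup (Fin n) → ℂ) x) ∧ (∃ χ : Cfsg.IrrCharacter (alternatingGroup (Fin n)), (∃ y : alternatingGroup (Fin n), orderOf y = 3 ∧ (χ : alternatingGroup (Fin n) → ℂ) y = 0) ∧ ∃ ψ : Cfsg.IrrCharacter (Equiv.Perm (Fin n)), ∀ x : alternatingGroup (Fin n), (ψ : Equiv.Perm (Fin n) → ℂ) x = (χ : alternatingGroup (Fin n) → ℂ) x) := by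
  obtain ⟨i1, i2, i3, j1, j2, j3⟩ := irrs hn
  -- general packaging
  have two_elt : ∀ x : alternatingGroup (Fin n),
      (∀ a ∈ (x : Equiv.Perm (Fin n)).cycleType, a ∣ 2 ^ 3) → ∃ j : ℕ, orderOf x = 2 ^ j := by
    intro x hx
    obtain ⟨j, _, hj⟩ := (Nat.dvd_prime_pow Nat.prime_two).1 (order_of_dvd x hx)
    exact ⟨j, hj⟩
  have three_elt : ∀ x : alternatingGroup (Fin n), (x : Equiv.Perm (Fin n)).cycleType ≠ 0 →
      (∀ a ∈ (x : Equiv.Perm (Fin n)).cycleType, a ∣ 3) → orderOf x = 3 := by
    intro x hx0 hx
    rcases (Nat.dvd_prime Nat.prime_three).1 (order_of_dvd x hx) with h | h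
    · exfalso
      apply hx0
      have : x = 1 := orderOf_eq_one_iff.1 h
      subst this
      simp
    · exact h
  refine ⟨?_, ?_⟩
  · -- the 2-element
    have h4 : n % 4 = 0 ∨ n % 4 = 1 ∨ n % 4 = 2 ∨ n % 4 = 3 := by omega
    rcases h4 with h | h | h | h
    · -- `n ≡ 0`, `chi2`
      obtain ⟨k, hk⟩ : ∃ k, n = 4 * k := ⟨n / 4, by omega⟩
      have hk2 : 2 ≤ k := by omega
      have hm : ∃ m : Multiset ℕ, m.sum = n ∧ (∀ a ∈ m, a = 4 ∨ a = 8) ∧
          Even (m.sum + Multiset.card m) := by
        rcases Nat.even_or_odd k with he | ho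
        · refine ⟨Multiset.replicate k 4, by simp [hk, mul_comm], ?_, ?_⟩
          · intro a ha
            exact Or.inl (Multiset.eq_of_mem_replicate ha)
          · simp only [Multiset.sum_replicate, Multiset.card_replicate, smul_eq_mul]
            exact (he.mul_right 4).add he
        · refine ⟨8 ::ₘ Multiset.replicate (k - 2) 4, ?_, ?_, ?_⟩
          · simp only [Multiset.sum_cons, Multiset.sum_replicate, smul_eq_mul]
            omega
          · intro a ha
            rcases Multiset.mem_cons.1 ha with rfl | ha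
            · exact Or.inr rfl
            · exact Or.inl (Multiset.eq_of_mem_replicate ha)
          · simp only [Multiset.sum_cons, Multiset.sum_replicate, Multiset.card_cons,
              Multiset.card_replicate, smul_eq_mul]
            obtain ⟨c, hc⟩ := ho
            rw [Nat.even_iff]
            omega
      obtain ⟨m, hs, hm48, hpar⟩ := hm
      obtain ⟨x, hx⟩ := exists_elt n m hs.le
        (fun a ha => by rcases hm48 a ha with rfl | rfl <;> norm_num) hpar
      refine ⟨⟨chi2 (X := Fin n), i2⟩, ⟨x, two_elt x ?_, ?_⟩,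
        ⟨chi2 (X := Fin n), j2⟩, fun y => chi2_compat y⟩
      · rw [hx]
        intro a ha
        rcases hm48 a ha with rfl | rfl <;> norm_num
      · apply chi2_zero
        · rw [fC_of, hx, hs]
          simp
        · apply tC_of
          rw [hx]
          intro a ha
          rcases hm48 a ha with rfl | rfl <;> norm_num
    · -- `n ≡ 1`, `chi1`
      obtain ⟨x, hx⟩ := exists_elt n (Multiset.replicate ((n - 1) / 2) 2)
        (by simp only [Multiset.sum_replicate, smul_eq_mul]; omega)
        (fun a ha => (Multiset.eq_of_mem_replicate ha).ge)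
        (by
          simp only [Multiset.sum_replicate, Multiset.card_replicate, smul_eq_mul]
          rw [Nat.even_iff]
          omega)
      refine ⟨⟨chi1 (X := Fin n), i1⟩, ⟨x, two_elt x ?_, ?_⟩,
        ⟨chi1 (X := Fin n), j1⟩, fun y => chi1_compat y⟩
      · rw [hx]
        intro a ha
        rw [Multiset.eq_of_mem_replicate ha]
        norm_num
      · change fC (X := Fin n) x - 1 = 0
        rw [fC_of, hx]
        simp only [Multiset.sum_replicate, smul_eq_mul]
        have : n - (n - 1) / 2 * 2 = 1 := by omega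
        rw [this]
        simp
    · -- `n ≡ 2`, `chi3`
      obtain ⟨k, hk⟩ : ∃ k, n = 4 * k + 2 := ⟨n / 4, by omega⟩
      have hk2 : 2 ≤ k := by omega
      have hm : ∃ m : Multiset ℕ, m.sum = 4 * k ∧ (∀ a ∈ m, a = 4 ∨ a = 8) ∧
          Even (m.sum + Multiset.card m) := by
        rcases Nat.even_or_odd k with he | ho
        · refine ⟨Multiset.replicate k 4, by simp [mul_comm], ?_, ?_⟩
          · intro a ha
            exact Or.inl (Multiset.eq_of_mem_replicate ha)
          · simp only [Multiset.sum_replicate, Multiset.card_replicate, smul_eq_mul]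
            exact (he.mul_right 4).add he
        · refine ⟨8 ::ₘ Multiset.replicate (k - 2) 4, ?_, ?_, ?_⟩
          · simp only [Multiset.sum_cons, Multiset.sum_replicate, smul_eq_mul]
            omega
          · intro a ha
            rcases Multiset.mem_cons.1 ha with rfl | ha
            · exact Or.inr rfl
            · exact Or.inl (Multiset.eq_of_mem_replicate ha)
          · simp only [Multiset.sum_cons, Multiset.sum_replicate, Multiset.card_cons,
              Multiset.card_replicate, smul_eq_mul]
            obtain ⟨c, hc⟩ := ho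
            rw [Nat.even_iff]
            omega
      obtain ⟨m, hs, hm48, hpar⟩ := hm
      obtain ⟨x, hx⟩ := exists_elt n m (by omega)
        (fun a ha => by rcases hm48 a ha with rfl | rfl <;> norm_num) hpar
      refine ⟨⟨chi3 (X := Fin n), i3⟩, ⟨x, two_elt x ?_, ?_⟩,
        ⟨chi3 (X := Fin n), j3⟩, fun y => chi3_compat y⟩
      · rw [hx]
        intro a ha
        rcases hm48 a ha with rfl | rfl <;> norm_num
      · apply chi3_zero
        · rw [fC_of, hx, hs]
          have : n - 4 * k = 2 := by omega
          rw [this]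
          simp
        · apply tC_of
          rw [hx]
          intro a ha
          rcases hm48 a ha with rfl | rfl <;> norm_num
    · -- `n ≡ 3`, `chi1`
      obtain ⟨x, hx⟩ := exists_elt n (4 ::ₘ Multiset.replicate ((n - 5) / 2) 2)
        (by simp only [Multiset.sum_cons, Multiset.sum_replicate, smul_eq_mul]; omega)
        (fun a ha => by
          rcases Multiset.mem_cons.1 ha with rfl | ha
          · norm_num
          · exact (Multiset.eq_of_mem_replicate ha).ge)
        (by
          simp only [Multiset.sum_cons, Multiset.sum_replicate, Multiset.card_cons,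
            Multiset.card_replicate, smul_eq_mul]
          rw [Nat.even_iff]
          omega)
      refine ⟨⟨chi1 (X := Fin n), i1⟩, ⟨x, two_elt x ?_, ?_⟩,
        ⟨chi1 (X := Fin n), j1⟩, fun y => chi1_compat y⟩
      · rw [hx]
        intro a ha
        rcases Multiset.mem_cons.1 ha with rfl | ha
        · norm_num
        · rw [Multiset.eq_of_mem_replicate ha]
          norm_num
      · change fC (X := Fin n) x - 1 = 0
        rw [fC_of, hx]
        simp only [Multiset.sum_cons, Multiset.sum_replicate, smul_eq_mul]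
        have : n - (4 + (n - 5) / 2 * 2) = 1 := by omega
        rw [this]
        simp
  · -- the element of order 3
    have hm3 : ∀ k : ℕ, Even ((Multiset.replicate k 3).sum + Multiset.card (Multiset.replicate k 3)) := by
      intro k
      simp only [Multiset.sum_replicate, Multiset.card_replicate, smul_eq_mul]
      rw [Nat.even_iff]
      omega
    have hx3 : ∀ (k : ℕ) (x : alternatingGroup (Fin n)),
        (x : Equiv.Perm (Fin n)).cycleType = Multiset.replicate k 3 → 0 < k → orderOf x = 3 := by
      intro k x hx hk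
      apply three_elt x
      · rw [hx]
        intro h0
        have := congrArg Multiset.card h0
        simp only [Multiset.card_replicate, Multiset.card_zero] at this
        omega
      · rw [hx]
        intro a ha
        rw [Multiset.eq_of_mem_replicate ha]
    have ht3 : ∀ (k : ℕ) (x : alternatingGroup (Fin n)),
        (x : Equiv.Perm (Fin n)).cycleType = Multiset.replicate k 3 → tC (X := Fin n) x = 0 := by
      intro k x hx
      apply tC_of
      rw [hx]
      intro a ha
      exact (Multiset.eq_of_mem_replicate ha).ge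
    have h3 : n % 3 = 0 ∨ n % 3 = 1 ∨ n % 3 = 2 := by omega
    rcases h3 with h | h | h
    · obtain ⟨x, hx⟩ := exists_elt n (Multiset.replicate (n / 3) 3)
        (by simp only [Multiset.sum_replicate, smul_eq_mul]; omega)
        (fun a ha => by rw [Multiset.eq_of_mem_replicate ha]; norm_num) (hm3 _)
      refine ⟨⟨chi2 (X := Fin n), i2⟩, ⟨x, hx3 _ x hx (by omega), ?_⟩,
        ⟨chi2 (X := Fin n), j2⟩, fun y => chi2_compat y⟩
      apply chi2_zero _ _ (ht3 _ x hx)
      rw [fC_of, hx]
      simp only [Multiset.sum_replicate, smul_eq_mul]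
      have : n - n / 3 * 3 = 0 := by omega
      rw [this]
      simp
    · obtain ⟨x, hx⟩ := exists_elt n (Multiset.replicate ((n - 1) / 3) 3)
        (by simp only [Multiset.sum_replicate, smul_eq_mul]; omega)
        (fun a ha => by rw [Multiset.eq_of_mem_replicate ha]; norm_num) (hm3 _)
      refine ⟨⟨chi1 (X := Fin n), i1⟩, ⟨x, hx3 _ x hx (by omega), ?_⟩,
        ⟨chi1 (X := Fin n), j1⟩, fun y => chi1_compat y⟩
      change fC (X := Fin n) x - 1 = 0
      rw [fC_of, hx]
      simp only [Multiset.sum_replicate, smul_eq_mul]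
      have : n - (n - 1) / 3 * 3 = 1 := by omega
      rw [this]
      simp
    · obtain ⟨x, hx⟩ := exists_elt n (Multiset.replicate ((n - 2) / 3) 3)
        (by simp only [Multiset.sum_replicate, smul_eq_mul]; omega)
        (fun a ha => by rw [Multiset.eq_of_mem_replicate ha]; norm_num) (hm3 _)
      refine ⟨⟨chi3 (X := Fin n), i3⟩, ⟨x, hx3 _ x hx (by omega), ?_⟩,
        ⟨chi3 (X := Fin n), j3⟩, fun y => chi3_compat y⟩
      apply chi3_zero _ _ (ht3 _ x hx)
      rw [fC_of, hx]
      simp only [Multiset.sum_replicate, smul_eq_mul]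
      have : n - (n - 2) / 3 * 3 = 2 := by omega
      rw [this]
      simp


end Cfsg.Agent.S4560
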