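import Cfsg.Statements.S4561
import Mathlib
import Cfsg.Agent.Lib.CentralType.Final
import Cfsg.Agent.Lib.CentralType.Embed
-- import your own Cfsg.Agent.* helpers here

set_option autoImplicit false
universe u
open Cfsg

namespace Cfsg.Agent.S4561

/-- For every finite solvable group G there is a finite group H with a faithful irreducible character χ whose degree squared equals the index of the centre Z(H) (so χ is fully ramified over the centre), such that G is isomorphic to a subgroup of H/Z(H), the primes dividing the orders of H, of Z(H) and of G are the same, and the order of Z(H) is squarefree. -/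
theorem result {G : Type u} [Group G] [Finite G] (hsolv : Group.IsSolvable G) : ∃ (H : Type u) (_ : Group H) (_ : Finite H) (χ : Cfsg.IrrCharacter H), (∀ h : H, (χ : H → ℂ) h = (χ : H → ℂ) 1 → h = 1) ∧ (Cfsg.charDegree (χ : H → ℂ)) ^ 2 = (Subgroup.center H).index ∧ (∃ f : G →* H ⧸ Subgroup.center H, Function.Injective f) ∧ (∀ p : ℕ, p.Prime → ((p ∣ Nat.card H ↔ p ∣ Nat.card G) ∧ (p ∣ Nat.card (Subgroup.center H) ↔ p ∣ Nat.card G))) ∧ Squarefree (Nat.card (Subgroup.center H)) := by
  have hG0 : Nat.card G ≠ 0 := Nat.card_pos.ne'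
  let N₀ : ℕ := ∏ p ∈ (Nat.card G).primeFactors, p
  have hN₀ : 0 < N₀ := Finset.prod_pos fun p hp => (Nat.prime_of_mem_primeFactors hp).pos
  have hdvd : ∀ p : ℕ, p.Prime → (p ∣ N₀ ↔ p ∣ Nat.card G) := by
    intro p hp
    constructor
    · intro h
      obtain ⟨q, hq, hpq⟩ := (Prime.exists_mem_finset_dvd hp.prime) h
      rw [(Nat.prime_dvd_prime_iff_eq hp (Nat.prime_of_mem_primeFactors hq)).mp hpq]
      exact Nat.dvd_of_mem_primeFactors hq
    · intro h
      exact Finset.dvd_prod_of_mem _ (Nat.mem_primeFactors.mpr ⟨hp, h, hG0⟩)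
  have hsq : Squarefree N₀ := by
    have key : ∀ S : Finset ℕ, (∀ p ∈ S, p.Prime) → Squarefree (∏ p ∈ S, p) := by
      intro S
      induction S using Finset.induction_on with
      | empty => simp
      | insert a S ha ih =>
        intro hS
        rw [Finset.prod_insert ha, Nat.squarefree_mul_iff]
        refine ⟨?_, (hS a (Finset.mem_insert_self _ _)).prime.squarefree,
          ih fun p hp => hS p (Finset.mem_insert_of_mem hp)⟩
        refine Nat.Coprime.prod_right fun p hp => ?_
        refine (Nat.coprime_primes (hS a (Finset.mem_insert_self _ _))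
          (hS p (Finset.mem_insert_of_mem hp))).mpr ?_
        rintro rfl
        exact ha hp
    exact key _ fun p hp => Nat.prime_of_mem_primeFactors hp
  obtain ⟨Q, _, _, W, _, _, _, α, hα, hQ, f, hf⟩ := Cfsg.Agent.Lib.CentralType.Embed.exists_ndrep N₀
    _ G rfl hsolv (fun r hr hd => (hdvd r hr).mpr hd)
  obtain ⟨H, _, _, χ, h1, h2, ⟨g, hg⟩, h4, h5⟩ :=
    Cfsg.Agent.Lib.CentralType.Final.exists_central_type hN₀ hα
  refine ⟨H, inferInstance, inferInstance, χ, h1, h2, ⟨g.comp f, hg.comp hf⟩, ?_, ?_⟩
  · intro p hp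
    rw [h4, h5, hdvd p hp]
    refine ⟨⟨fun h => ?_, fun h => ?_⟩, Iff.rfl⟩
    · rcases (Nat.Prime.dvd_mul hp).mp h with h | h
      · exact (hdvd p hp).mp h
      · exact (hdvd p hp).mp (hQ p hp h)
    · exact Dvd.dvd.mul_right ((hdvd p hp).mpr h) _
  · rw [h5]
    exact hsq

end Cfsg.Agent.S4561
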