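import Cfsg.Statements.S4563
import Mathlib
import Cfsg.Agent.Lib.Char.FRHall2
import Cfsg.Agent.S0006

set_option autoImplicit false
open Cfsg

namespace Cfsg.Agent.S4563

/-- Let χ be an irreducible character of the finite group H that is fully ramified over the normal subgroup Z: the restriction of χ to Z is e times an irreducible character of Z with e ^ 2 equal to the index of Z. If K is a proper normal subgroup of H containing Z and χ is induced from a character of K, then H/K is solvable; in particular, if K is solvable then so is H. -/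
theorem result {H : Type*} [Group H] [Fintype H] (Z : Subgroup H) [Z.Normal] (χ : Cfsg.IrrCharacter H) (hfr : ∃ (θ : Cfsg.IrrCharacter ↥Z) (e : ℕ), e ^ 2 = Z.index ∧ ∀ z : ↥Z, (χ : H → ℂ) z = (e : ℂ) * (θ : ↥Z → ℂ) z) (K : Subgroup H) [K.Normal] [Fintype K] (hZK : Z ≤ K) (hK : K ≠ ⊤) (φ : ↥K → ℂ) (hφ : Cfsg.IsCharacter ↥K φ) (hind : Cfsg.indFun K φ = (χ : H → ℂ)) : Group.IsSolvable (H ⧸ K) ∧ (Group.IsSolvable ↥K → Group.IsSolvable H) := by
  classical
  obtain ⟨θ, e, he, hres⟩ := hfr
  letI : Fintype Z := Fintype.ofFinite Z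
  have hsol : Group.IsSolvable (H ⧸ K) := by
    apply Cfsg.Agent.S0006.result
    intro r hr
    obtain ⟨U, hKU, hnr, n, hn⟩ := Cfsg.Agent.Lib.Char.FRHall.exists_complement χ.2 θ.2 he hres K hZK φ hφ
      (by rw [hind]) r hr
    let π : H →* H ⧸ K := QuotientGroup.mk' K
    have hπ : Function.Surjective π := QuotientGroup.mk'_surjective K
    have hker : π.ker = K := QuotientGroup.ker_mk' K
    have hidx : (U.map π).index = r ^ n := by
      rw [Subgroup.index_map, hker, sup_eq_left.mpr hKU, MonoidHom.range_eq_top.mpr hπ,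
        Subgroup.index_top, mul_one, hn]
    have hcard : Nat.card (U.map π) = K.relIndex U := by
      have h1 := Cfsg.Agent.Lib.Char.FRHall.relIndex_comap_mk K (U.map π)
      have h2 : (U.map π).comap (QuotientGroup.mk' K) = U := by
        show (U.map π).comap π = U
        rw [Subgroup.comap_map_eq, hker, sup_eq_left.mpr hKU]
      rw [h2] at h1
      exact h1.symm
    refine ⟨U.map π, ?_⟩
    have h3 := Subgroup.card_mul_index (U.map π)
    rw [hcard, hidx] at h3
    have h0 : K.relIndex U ≠ 0 := by
      intro h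
      rw [h] at hnr
      exact hnr (dvd_zero r)
    rw [hidx, ← h3, Nat.factorization_mul h0 (pow_ne_zero _ hr.ne_zero)]
    simp [Nat.factorization_eq_zero_of_not_dvd hnr, hr.factorization_self, Nat.Prime.factorization_pow hr]
  refine ⟨hsol, fun hKs => ?_⟩
  exact Group.isSolvable_of_ker_le_range K.subtype (QuotientGroup.mk' K) (by
    rw [QuotientGroup.ker_mk', Subgroup.range_subtype])

end Cfsg.Agent.S4563
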