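import Cfsg.Statements.S4564
import Mathlib
import Cfsg.Agent.Lib.Char.FullyRamified2

set_option autoImplicit false
open Cfsg

namespace Cfsg.Agent.S4564

open Cfsg.Agent.Lib.Char.Basic Cfsg.Agent.Lib.Char.Ortho Cfsg.Agent.Lib.Char.Induced
  Cfsg.Agent.Lib.Char.FullyRamified Cfsg.Agent.Lib.Char.FullyRamified2
open scoped Pointwise

/-- Uniqueness of the `p`-adic decomposition. -/
theorem pow_eq_of_mul_eq {p x y u v : ℕ} (hp : p.Prime) (hu : ¬ p ∣ u) (hv : ¬ p ∣ v)
    (h : p ^ x * u = p ^ y * v) : x = y := by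
  have hpos : ∀ n, 0 < p ^ n := fun n => pow_pos hp.pos n
  rcases lt_trichotomy x y with hlt | heq | hgt
  · exfalso
    obtain ⟨d, rfl⟩ := Nat.exists_eq_add_of_lt hlt
    have h1 : u = p ^ (d + 1) * v := by
      apply Nat.eq_of_mul_eq_mul_left (hpos x)
      rw [h]
      ring
    apply hu
    rw [h1, pow_succ]
    exact ⟨p ^ d * v, by ring⟩
  · exact heq
  · exfalso
    obtain ⟨d, rfl⟩ := Nat.exists_eq_add_of_lt hgt
    have h1 : v = p ^ (d + 1) * u := by
      apply Nat.eq_of_mul_eq_mul_left (hpos y)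
      rw [← h]
      ring
    apply hv
    rw [h1, pow_succ]
    exact ⟨p ^ d * u, by ring⟩

/-- Let χ be an irreducible character of the finite group H that is fully ramified over the normal subgroup Z: the restriction of χ to Z is e times an irreducible character of Z with e ^ 2 equal to the index of Z. Let K be a normal subgroup of H containing Z and P a cyclic Sylow p-subgroup of H/K. Then P has a complement in H/K: a subgroup meeting P trivially whose product with P is the whole group. -/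
theorem result {H : Type*} [Group H] [Finite H] (Z : Subgroup H) [Z.Normal] (χ : Cfsg.IrrCharacter H) (hfr : ∃ (θ : Cfsg.IrrCharacter ↥Z) (e : ℕ), e ^ 2 = Z.index ∧ ∀ z : ↥Z, (χ : H → ℂ) z = (e : ℂ) * (θ : ↥Z → ℂ) z) (K : Subgroup H) [K.Normal] (hZK : Z ≤ K) (p : ℕ) [Fact p.Prime] (P : Sylow p (H ⧸ K)) (hcyc : IsCyclic P) : ∃ M : Subgroup (H ⧸ K), M.IsComplement' (P : Subgroup (H ⧸ K)) := by
  classical
  letI : Fintype H := Fintype.ofFinite H
  letI : Fintype Z := Fintype.ofFinite Z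
  have hp : p.Prime := Fact.out
  obtain ⟨θ, e, he, hres⟩ := hfr
  let πZ : H →* H ⧸ Z := QuotientGroup.mk' Z
  have hπZs : Function.Surjective πZ := QuotientGroup.mk'_surjective Z
  have hπZ : ∀ x, πZ x = 1 ↔ x ∈ Z := fun x => QuotientGroup.eq_one_iff x
  let Kh : Subgroup (H ⧸ Z) := K.map πZ
  haveI hKhn : Kh.Normal := Subgroup.Normal.map inferInstance πZ hπZs
  obtain ⟨P₀⟩ : Nonempty (Sylow p Kh) := Sylow.nonempty
  let Ph₀ : Subgroup (H ⧸ Z) := (P₀ : Subgroup Kh).map Kh.subtype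
  have hPh₀ : IsPGroup p Ph₀ := P₀.isPGroup'.map _
  obtain ⟨Sh, hSh⟩ := hPh₀.exists_le_sylow
  let S₀ : Subgroup H := Ph₀.comap πZ
  let S : Subgroup H := (Sh : Subgroup (H ⧸ Z)).comap πZ
  have hS₀mem : ∀ x, x ∈ S₀ ↔ πZ x ∈ Ph₀ := fun x => Iff.rfl
  have hSmem : ∀ x, x ∈ S ↔ πZ x ∈ (Sh : Subgroup (H ⧸ Z)) := fun x => Iff.rfl
  have hZS₀ : Z ≤ S₀ := fun z hz => by
    rw [hS₀mem, (hπZ z).mpr hz]
    exact Ph₀.one_mem
  have hS₀S : S₀ ≤ S := fun x hx => hSh hx
  -- elements of `K` modulo `Z`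
  have hKmem : ∀ x, πZ x ∈ Kh → x ∈ K := by
    intro x hx
    obtain ⟨k, hk, hk'⟩ := hx
    have h1 : k⁻¹ * x ∈ Z := by
      rw [← hπZ, map_mul, map_inv, hk', inv_mul_cancel]
    have h2 := K.mul_mem hk (hZK h1)
    simpa using h2
  have hS₀K : S₀ ≤ K := by
    intro x hx
    obtain ⟨y, -, hy⟩ := hx
    apply hKmem
    rw [← hy]
    exact y.2
  have hSK : ∀ x ∈ S, x ∈ K → x ∈ S₀ := by
    intro x hxS hxK
    let Q : Subgroup Kh := (Sh : Subgroup (H ⧸ Z)).comap Kh.subtype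
    have hQ : IsPGroup p Q := Sh.isPGroup'.comap_of_injective _ Kh.subtype_injective
    have hle : (P₀ : Subgroup Kh) ≤ Q := fun y hy => hSh ⟨y, hy, rfl⟩
    have hQ2 := P₀.is_maximal' hQ hle
    have hmem : (⟨πZ x, Subgroup.mem_map_of_mem πZ hxK⟩ : Kh) ∈ Q := hxS
    rw [hQ2] at hmem
    exact ⟨_, hmem, rfl⟩
  -- the normalizer
  let N : Subgroup H := Subgroup.normalizer (S₀ : Set H)
  have hS₀N : S₀ ≤ N := Subgroup.le_normalizer
  have hconj : ∀ x ∈ S, ∀ y ∈ S₀, x * y * x⁻¹ ∈ S₀ := by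
    intro x hx y hy
    refine hSK _ (S.mul_mem (S.mul_mem hx (hS₀S hy)) (S.inv_mem hx)) ?_
    exact (inferInstance : K.Normal).conj_mem y (hS₀K hy) x
  have hSN : S ≤ N := by
    intro x hx
    rw [Subgroup.mem_normalizer_iff]
    intro y
    constructor
    · exact hconj x hx y
    · intro hy
      have := hconj x⁻¹ (S.inv_mem hx) _ hy
      simpa [mul_assoc] using this
  -- Frattini
  have hfrat : ∀ h : H, ∃ n ∈ N, ∃ k ∈ K, h = n * k := by
    intro h
    have htop := Sylow.normalizer_sup_eq_top P₀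
    have h1 : πZ h ∈ ((Subgroup.normalizer (Ph₀ : Set (H ⧸ Z)) ⊔ Kh : Subgroup (H ⧸ Z)) :
        Set (H ⧸ Z)) := by
      have h2 : (Subgroup.normalizer (Ph₀ : Set (H ⧸ Z)) ⊔ Kh : Subgroup (H ⧸ Z)) = ⊤ := htop
      rw [h2]
      trivial
    rw [Subgroup.mul_normal] at h1
    obtain ⟨a, ha, b, hb, hab⟩ := Set.mem_mul.mp h1
    obtain ⟨n, rfl⟩ := hπZs a
    refine ⟨n, ?_, n⁻¹ * h, ?_, by group⟩
    · rw [Subgroup.mem_normalizer_iff]
      intro y
      have h3 := Subgroup.mem_normalizer_iff.mp ha (πZ y)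
      have h4 : πZ (n * y * n⁻¹) = πZ n * πZ y * (πZ n)⁻¹ := by simp
      rw [hS₀mem, hS₀mem, h4]
      exact h3
    · apply hKmem
      have h3 : πZ (n⁻¹ * h) = b := by
        rw [map_mul, map_inv, ← hab]
        group
      rw [h3]
      exact hb
  -- the group `Γ = N`
  let A : Subgroup N := Z.subgroupOf N
  let B : Subgroup N := S₀.subgroupOf N
  let C : Subgroup N := S.subgroupOf N
  let N₀ : Subgroup N := K.subgroupOf N
  haveI hAn : A.Normal := Subgroup.normal_subgroupOf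
  haveI hBn : B.Normal := Subgroup.normal_in_normalizer
  haveI hN₀n : N₀.Normal := Subgroup.normal_subgroupOf
  letI : Fintype N := Fintype.ofFinite _
  letI : Fintype A := Fintype.ofFinite _
  letI : Fintype C := Fintype.ofFinite _
  have hZN : Z ≤ N := hZS₀.trans hS₀N
  have hAB : A ≤ B := fun a ha => hZS₀ ha
  have hBC : B ≤ C := fun a ha => hS₀S ha
  have hBN₀ : B ≤ N₀ := fun a ha => hS₀K ha
  let θ₁ : A → ℂ := fun a => (θ : Z → ℂ) ⟨a.1.1, Subgroup.mem_subgroupOf.mp a.2⟩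
  have hθ₁ : IsIrrCharacter A θ₁ :=
    isIrrCharacter_comp_surjective θ.2 (Subgroup.subgroupOfEquivOfLe hZN).toMonoidHom
      (Subgroup.subgroupOfEquivOfLe hZN).surjective
  have hinv : ∀ (g : N) (n : A), θ₁ ⟨g * n * g⁻¹, hAn.conj_mem (n : N) n.2 g⟩ = θ₁ n := by
    intro g n
    exact invariant χ.2 he hres (g : H) ⟨n.1.1, Subgroup.mem_subgroupOf.mp n.2⟩
  have hχc := isCharacter_of_isIrrCharacter χ.2
  let φ : C → ℂ := fun c => (χ : H → ℂ) c.1.1
  have hφ : IsCharacter C φ := isCharacter_comp_hom hχc (N.subtype.comp C.subtype)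
  have hφ1 : ∀ a : A, φ ⟨a, hBC (hAB a.2)⟩ = e * θ₁ a := fun a =>
    hres ⟨a.1.1, Subgroup.mem_subgroupOf.mp a.2⟩
  have hφ0 : ∀ c : C, (c : N) ∉ A → φ c = 0 := fun c hc =>
    vanish_off χ.2 θ.2 he hres c.1.1 hc
  -- the indices
  obtain ⟨b, hb⟩ := IsPGroup.iff_card.mp Sh.isPGroup'
  have hrel : Z.relIndex S = p ^ b := by
    have h1 : Z = (⊥ : Subgroup (H ⧸ Z)).comap πZ := by
      ext x
      rw [Subgroup.mem_comap, Subgroup.mem_bot, hπZ]
    rw [h1, Subgroup.relIndex_comap, Subgroup.relIndex_bot_left]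
    rw [Subgroup.map_comap_eq_self_of_surjective hπZs]
    exact hb
  have hSidx : ¬ p ∣ S.index := by
    rw [Subgroup.index_comap_of_surjective _ hπZs]
    exact Sh.not_dvd_index
  have he0 : e ≠ 0 := e_ne_zero he
  obtain ⟨α, e', he', he2⟩ := Nat.exists_eq_pow_mul_and_not_dvd he0 p hp.ne_one
  have hb2 : b = 2 * α := by
    have h1 : e ^ 2 = p ^ b * S.index := by
      rw [he, ← hrel]
      exact (Subgroup.relIndex_mul_index (hZS₀.trans hS₀S)).symm
    rw [he2] at h1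
    refine pow_eq_of_mul_eq hp hSidx (u := S.index) (v := e' ^ 2) ?_ ?_
    · intro h2
      exact he' (hp.dvd_of_dvd_pow h2)
    · rw [← h1]
      ring
  have hidx : A.relIndex C = p ^ (2 * α) := by
    rw [Subgroup.relIndex_subgroupOf hSN, hrel, hb2]
  -- `C / B` is cyclic
  let π : H →* H ⧸ K := QuotientGroup.mk' K
  have hπs : Function.Surjective π := QuotientGroup.mk'_surjective K
  have hπ : ∀ x, π x = 1 ↔ x ∈ K := fun x => QuotientGroup.eq_one_iff x
  let T₀ : Subgroup (H ⧸ K) := S.map π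
  have hT₀p : IsPGroup p T₀ := by
    rintro ⟨q, s, hs, rfl⟩
    obtain ⟨n, hn⟩ := Sh.isPGroup' ⟨πZ s, hs⟩
    refine ⟨n, ?_⟩
    apply Subtype.ext
    have h1 : s ^ (p ^ n) ∈ Z := by
      rw [← hπZ, map_pow]
      exact congrArg Subtype.val hn
    simp only [Subgroup.coe_pow, Subgroup.coe_one]
    rw [← map_pow]
    exact (hπ _).mpr (hZK h1)
  have hT₀i : ¬ p ∣ T₀.index := fun h => hSidx (h.trans (Subgroup.index_map_dvd S hπs))
  let Tsyl : Sylow p (H ⧸ K) := hT₀p.toSylow hT₀i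
  let eqv : P ≃* Tsyl := P.equiv Tsyl
  have hcT : IsCyclic T₀ := isCyclic_of_surjective eqv.toMonoidHom eqv.surjective
  have hcycC : IsCyclic (C ⧸ B.subgroupOf C) := by
    let f : C →* T₀ := ((π.comp (N.subtype.comp C.subtype))).codRestrict T₀
      (fun c => ⟨c.1.1, c.2, rfl⟩)
    have hker : B.subgroupOf C ≤ f.ker := by
      intro c hc
      rw [MonoidHom.mem_ker]
      apply Subtype.ext
      exact (hπ _).mpr (hS₀K (Subgroup.mem_subgroupOf.mp (Subgroup.mem_subgroupOf.mp hc)))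
    let F : C ⧸ B.subgroupOf C →* T₀ := QuotientGroup.lift _ f hker
    have hF : Function.Injective F := by
      rw [injective_iff_map_eq_one]
      intro q
      obtain ⟨c, rfl⟩ := QuotientGroup.mk_surjective q
      intro hc
      have h1 : f c = 1 := hc
      have h2 : π c.1.1 = 1 := congrArg Subtype.val h1
      rw [QuotientGroup.eq_one_iff, Subgroup.mem_subgroupOf, Subgroup.mem_subgroupOf]
      exact hSK _ c.2 ((hπ _).mp h2)
    exact isCyclic_of_injective F hF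
  -- the index in `K`
  have hNp : ¬ p ∣ B.relIndex N₀ := by
    have h1 : B.relIndex N₀ = S₀.relIndex (K ⊓ N) := by
      have h0 : N₀ = (K ⊓ N).subgroupOf N := (Subgroup.inf_subgroupOf_right K N).symm
      rw [h0]
      exact Subgroup.relIndex_subgroupOf inf_le_right
    have h2 : S₀.relIndex (K ⊓ N) ∣ S₀.relIndex K := by
      have := Subgroup.relIndex_mul_relIndex S₀ (K ⊓ N) K (le_inf hS₀K hS₀N) inf_le_left
      exact Dvd.intro _ this
    have h3 : S₀.relIndex K = (P₀ : Subgroup Kh).index := by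
      show (Ph₀.comap πZ).relIndex K = _
      rw [Subgroup.relIndex_comap]
      show (Ph₀.comap Kh.subtype).index = _
      rw [Subgroup.comap_map_eq_self_of_injective Kh.subtype_injective]
    rw [h1]
    intro h4
    apply P₀.not_dvd_index
    rw [← h3]
    exact h4.trans h2
  obtain ⟨U, hN₀U, hCU, hCB⟩ := exists_stabilizer A B C N₀ hAB hBC hBN₀ hθ₁ hinv hφ hφ1 hφ0 hidx he2
    hp he' hcycC hNp
  let W : Subgroup (H ⧸ K) := (U.map N.subtype).map π
  have hmul : ((T₀ : Subgroup (H ⧸ K)) : Set (H ⧸ K)) * (W : Set (H ⧸ K)) = Set.univ := by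
    rw [Set.eq_univ_iff_forall]
    intro q
    obtain ⟨h, rfl⟩ := hπs q
    obtain ⟨n, hn, k, hk, rfl⟩ := hfrat h
    obtain ⟨c, hc, u, hu, heq⟩ := hCU ⟨n, hn⟩
    have h1 : n = (c : H) * (u : H) := congrArg Subtype.val heq
    refine Set.mem_mul.mpr ⟨π c, ⟨c, hc, rfl⟩, π u, ⟨u, ⟨u, hu, rfl⟩, rfl⟩, ?_⟩
    rw [map_mul π n k, (hπ k).mpr hk, mul_one, h1, map_mul]
  have hdisj : Disjoint T₀ W := by
    rw [Subgroup.disjoint_def]
    rintro x ⟨s, hs, rfl⟩ ⟨_, ⟨u, hu, rfl⟩, hux⟩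
    have hux' : π (u : H) = π s := hux
    let s' : N := ⟨s, hSN hs⟩
    have hs' : s' ∈ C := hs
    have h1 : u⁻¹ * s' ∈ N₀ := by
      rw [Subgroup.mem_subgroupOf, ← hπ]
      show π ((u : H)⁻¹ * s) = 1
      rw [map_mul, map_inv, hux', inv_mul_cancel]
    have h2 : s' ∈ U := by
      have h3 := U.mul_mem hu (hN₀U h1)
      simpa using h3
    have h3 : s' ∈ B := hCB s' hs' h2
    exact (hπ s).mpr (hS₀K h3)
  have hcompl := Subgroup.isComplement'_of_disjoint_and_mul_eq_univ hdisj hmul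
  have hcard := hcompl.card_mul_card
  have hTc : Nat.card P = Nat.card T₀ := Nat.card_congr eqv.toEquiv
  obtain ⟨j, hj⟩ := IsPGroup.iff_card.mp P.isPGroup'
  have hW : ¬ p ∣ Nat.card W := by
    have h1 := Subgroup.card_mul_index T₀
    rw [← hcard] at h1
    have h2 : Nat.card W = T₀.index := (Nat.eq_of_mul_eq_mul_left Nat.card_pos h1).symm
    rw [h2]
    exact hT₀i
  refine ⟨W, Subgroup.isComplement'_of_coprime (by rw [mul_comm, hTc]; exact hcard) ?_⟩
  have h1 : Nat.card (P : Subgroup (H ⧸ K)) = p ^ j := hj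
  rw [h1]
  exact Nat.Coprime.pow_right _ ((Nat.Prime.coprime_iff_not_dvd hp).mpr hW).symm

end Cfsg.Agent.S4564
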