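import Cfsg.Statements.S4565
import Mathlib
import Cfsg.Agent.Lib.Char.FullyRamified
import Cfsg.Agent.S0886

set_option autoImplicit false
open Cfsg

namespace Cfsg.Agent.S4565

open Cfsg.Agent.Lib.Char.Basic Cfsg.Agent.Lib.Char.Ortho Cfsg.Agent.Lib.Char.Induced
  Cfsg.Agent.Lib.Char.IndRep Cfsg.Agent.Lib.Char.Clifford Cfsg.Agent.Lib.Char.CliffordCorr
  Cfsg.Agent.Lib.Char.MackeyNormal Cfsg.Agent.Lib.Char.GoingDown
  Cfsg.Agent.Lib.Char.FullyRamified
open scoped ComplexConjugate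

/-- Let χ be an irreducible character of the finite group H that is fully ramified over the normal subgroup Z: the restriction of χ to Z is e times an irreducible character of Z with e ^ 2 equal to the index of Z. If Z ≠ H, then H/Z has no cyclic subgroup that is its own centralizer. -/
theorem result {H : Type*} [Group H] [Finite H] (Z : Subgroup H) [Z.Normal] (χ : Cfsg.IrrCharacter H) (hfr : ∃ (θ : Cfsg.IrrCharacter ↥Z) (e : ℕ), e ^ 2 = Z.index ∧ ∀ z : ↥Z, (χ : H → ℂ) z = (e : ℂ) * (θ : ↥Z → ℂ) z) (hZ : Z ≠ ⊤) (C : Subgroup (H ⧸ Z)) (hC : IsCyclic C) : Subgroup.centralizer (C : Set (H ⧸ Z)) ≠ C := by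
  classical
  letI : Fintype H := Fintype.ofFinite H
  letI : Fintype Z := Fintype.ofFinite Z
  obtain ⟨θ, e, he, hres⟩ := hfr
  intro hself
  obtain ⟨c, hc⟩ := hC.exists_generator
  let π : H →* H ⧸ Z := QuotientGroup.mk' Z
  have hπ : ∀ z : H, π z = 1 ↔ z ∈ Z := fun z => QuotientGroup.eq_one_iff z
  obtain ⟨x₀, hx₀⟩ : ∃ x₀ : H, π x₀ = (c : H ⧸ Z) := QuotientGroup.mk_surjective _
  let L : Subgroup H := C.comap π
  letI : Fintype L := Fintype.ofFinite L
  have hZL : Z ≤ L := by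
    intro z hz
    show π z ∈ C
    rw [(hπ z).mpr hz]
    exact C.one_mem
  have hx₀L : x₀ ∈ L := by
    show π x₀ ∈ C
    rw [hx₀]
    exact c.2
  let N : Subgroup L := Z.subgroupOf L
  haveI hNn : N.Normal := Subgroup.normal_subgroupOf
  letI : Fintype N := Fintype.ofFinite N
  -- elements of the image of `L` are powers of `c`
  have hpow : ∀ y : L, ∃ k : ℤ, π y = (c : H ⧸ Z) ^ k := by
    intro y
    obtain ⟨k, hk⟩ := Subgroup.mem_zpowers_iff.mp (hc ⟨π y, y.2⟩)
    refine ⟨k, ?_⟩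
    have := congrArg Subtype.val hk
    simpa using this.symm
  have hab : ∀ a b : L, a * b * a⁻¹ * b⁻¹ ∈ N := by
    intro a b
    rw [Subgroup.mem_subgroupOf]
    rw [← hπ]
    obtain ⟨k, hk⟩ := hpow a
    obtain ⟨j, hj⟩ := hpow b
    have : π ((a * b * a⁻¹ * b⁻¹ : L) : H) =
        π a * π b * (π a)⁻¹ * (π b)⁻¹ := by
      simp
    rw [this, hk, hj]
    have h0 : Commute ((c : H ⧸ Z) ^ k) ((c : H ⧸ Z) ^ j) :=
      (Commute.refl (c : H ⧸ Z)).zpow_zpow k j
    rw [h0.eq]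
    group
  -- the generator is not trivial
  have hc1 : (c : H ⧸ Z) ≠ 1 := by
    intro h1
    apply hZ
    have hCbot : C = ⊥ := by
      rw [Subgroup.eq_bot_iff_forall]
      intro y hy
      obtain ⟨k, hk⟩ := Subgroup.mem_zpowers_iff.mp (hc ⟨y, hy⟩)
      have := congrArg Subtype.val hk
      simp only [Subgroup.coe_zpow] at this
      rw [← this, h1, one_zpow]
    rw [hCbot] at hself
    have h2 : ∀ y : H ⧸ Z, y = 1 := by
      intro y
      have h3 : y ∈ Subgroup.centralizer (((⊥ : Subgroup (H ⧸ Z)) : Set (H ⧸ Z))) := by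
        rw [Subgroup.mem_centralizer_iff]
        intro h hh
        have : h = 1 := by simpa using hh
        rw [this, one_mul, mul_one]
      rw [hself] at h3
      simpa using h3
    rw [eq_top_iff]
    intro z _
    rw [← hπ]
    exact h2 _
  -- the character `θ` on `N`
  let θ' : N → ℂ := fun n => (θ : Z → ℂ) ⟨n.1.1, Subgroup.mem_subgroupOf.mp n.2⟩
  have hθ' : IsIrrCharacter N θ' :=
    isIrrCharacter_comp_surjective θ.2 (Subgroup.subgroupOfEquivOfLe hZL).toMonoidHom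
      (Subgroup.subgroupOfEquivOfLe hZL).surjective
  have hinv : ∀ (g : L) (n : N), θ' ⟨g * n * g⁻¹, hNn.conj_mem (n : L) n.2 g⟩ = θ' n := by
    intro g n
    exact invariant χ.2 he hres (g : H) ⟨n.1.1, Subgroup.mem_subgroupOf.mp n.2⟩
  -- `L / N` is cyclic
  have hcyc : IsCyclic (L ⧸ N) := by
    refine ⟨⟨QuotientGroup.mk (⟨x₀, hx₀L⟩ : L), ?_⟩⟩
    intro q
    obtain ⟨y, rfl⟩ := QuotientGroup.mk_surjective q
    obtain ⟨k, hk⟩ := hpow y
    refine ⟨k, ?_⟩
    show (QuotientGroup.mk (⟨x₀, hx₀L⟩ : L) : L ⧸ N) ^ k = QuotientGroup.mk y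
    rw [← QuotientGroup.mk_zpow, QuotientGroup.eq]
    rw [Subgroup.mem_subgroupOf, ← hπ]
    simp only [Subgroup.coe_mul, Subgroup.coe_inv, Subgroup.coe_zpow, map_mul, map_inv, map_zpow]
    rw [hk, hx₀]
    group
  obtain ⟨ψ, hψ, hψN⟩ := Cfsg.Agent.S0886.result N hcyc θ' hθ' hinv
  have hψc := isCharacter_of_isIrrCharacter hψ
  have hψcl := isClassFunction_of_isCharacter hψc
  have hψirr : IsIrrCharacter N (fun n : N => ψ n) := by
    rwa [show (fun n : N => ψ n) = θ' from funext hψN]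
  obtain ⟨Ξ, hΞ, hdec, hcard⟩ := exists_indFun_one_eq_sum N hab
  have hlin : ∀ ξ ∈ Ξ, (∀ n : N, (ξ : L → ℂ) n = 1) ∧
      (∀ a b : L, (ξ : L → ℂ) (a * b) = (ξ : L → ℂ) a * (ξ : L → ℂ) b) ∧
      ∀ a : L, conj ((ξ : L → ℂ) a) * (ξ : L → ℂ) a = 1 := fun ξ hξ =>
    Cfsg.Agent.Lib.Char.AbelianQuot.linear_of_over_one N hab ξ.2 ((hΞ ξ).mp hξ)
  -- `ψ` vanishes on the coset
  have hvan : ∀ y : L, π y = (c : H ⧸ Z) → ψ y = 0 := by
    intro y hy
    have hyZ : (y : H) ∉ Z := by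
      intro h0
      apply hc1
      rw [← hy]
      exact (hπ _).mpr h0
    -- the induced characters vanish at `y`
    have h1 : ∑ ξ ∈ Ξ, (ξ : L → ℂ) y⁻¹ * indFun L (ψ * (ξ : L → ℂ)) y = 0 := by
      refine Finset.sum_eq_zero (fun ξ hξ => ?_)
      have hc2 : IsCharacter L (ψ * (ξ : L → ℂ)) :=
        isCharacter_mul hψc (isCharacter_of_isIrrCharacter ξ.2)
      rw [indFun_eq_zero χ.2 θ.2 he hres L hZL hc2 1 ?_ (y : H) hyZ, mul_zero]
      intro w hw
      have h3 := hψN ⟨w, Subgroup.mem_subgroupOf.mpr hw⟩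
      have h4 := (hlin ξ hξ).1 ⟨w, Subgroup.mem_subgroupOf.mpr hw⟩
      simp only [Pi.mul_apply]
      rw [show ψ w = θ' ⟨w, Subgroup.mem_subgroupOf.mpr hw⟩ from h3,
        show (ξ : L → ℂ) w = 1 from h4, mul_one, one_mul]
    -- inner sums
    have hsum : ∀ w : L, ∑ ξ ∈ Ξ, (ξ : L → ℂ) y⁻¹ * (ψ * (ξ : L → ℂ)) w =
        ψ w * indFun N (fun _ => (1 : ℂ)) (y⁻¹ * w) := by
      intro w
      rw [hdec, Finset.sum_apply, Finset.mul_sum]
      refine Finset.sum_congr rfl (fun ξ hξ => ?_)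
      rw [(hlin ξ hξ).2.1]
      simp only [Pi.mul_apply]
      ring
    set A : ℂ := (N.index : ℂ) * ψ y with hA
    have hterm : ∀ g : H, ∑ ξ ∈ Ξ, (ξ : L → ℂ) y⁻¹ *
        extendByZero L (ψ * (ξ : L → ℂ)) (g⁻¹ * y * g) =
        extendByZero L (fun _ => A) g := by
      intro g
      by_cases hm : g⁻¹ * (y : H) * g ∈ L
      · have h2 : ∀ ξ ∈ Ξ, (ξ : L → ℂ) y⁻¹ * extendByZero L (ψ * (ξ : L → ℂ)) (g⁻¹ * y * g) =
            (ξ : L → ℂ) y⁻¹ * (ψ * (ξ : L → ℂ)) ⟨g⁻¹ * y * g, hm⟩ := by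
          intro ξ _
          rw [extendByZero_of_mem _ _ hm]
        rw [Finset.sum_congr rfl h2, hsum]
        by_cases hg : g ∈ L
        · rw [extendByZero_of_mem _ _ hg]
          have h3 : y⁻¹ * (⟨g⁻¹ * y * g, hm⟩ : L) ∈ N := by
            have := hab y⁻¹ (⟨g, hg⟩ : L)⁻¹
            have h4 : y⁻¹ * (⟨g, hg⟩ : L)⁻¹ * y⁻¹⁻¹ * (⟨g, hg⟩ : L)⁻¹⁻¹ =
                y⁻¹ * (⟨g⁻¹ * y * g, hm⟩ : L) := by
              apply Subtype.ext
              simp only [Subgroup.coe_mul, Subgroup.coe_inv, inv_inv]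
              group
            rwa [h4] at this
          rw [indFun_one_of_mem N h3]
          have h4 : ψ (⟨g⁻¹ * y * g, hm⟩ : L) = ψ y := by
            have := hψcl y (⟨g, hg⟩ : L)⁻¹
            rw [← this]
            congr 1
            apply Subtype.ext
            simp
          rw [h4, hA]
          ring
        · rw [extendByZero_of_notMem _ _ hg]
          have h3 : y⁻¹ * (⟨g⁻¹ * y * g, hm⟩ : L) ∉ N := by
            intro h4
            apply hg
            rw [Subgroup.mem_subgroupOf, ← hπ] at h4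
            simp only [Subgroup.coe_mul, Subgroup.coe_inv, map_mul, map_inv] at h4
            rw [hy] at h4
            have h5 : Commute (π g) (c : H ⧸ Z) := by
              have h6 : (c : H ⧸ Z)⁻¹ * ((π g)⁻¹ * (c : H ⧸ Z) * π g) = 1 := h4
              have h7 : (π g)⁻¹ * (c : H ⧸ Z) * π g = c := by
                rwa [inv_mul_eq_one, eq_comm] at h6
              show π g * (c : H ⧸ Z) = (c : H ⧸ Z) * π g
              calc π g * (c : H ⧸ Z) = π g * ((π g)⁻¹ * (c : H ⧸ Z) * π g) := by rw [h7]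
                _ = (c : H ⧸ Z) * π g := by group
            show π g ∈ C
            rw [← hself, Subgroup.mem_centralizer_iff]
            intro h hh
            obtain ⟨k, hk⟩ := Subgroup.mem_zpowers_iff.mp (hc ⟨h, hh⟩)
            have h6 : (c : H ⧸ Z) ^ k = h := by
              have := congrArg Subtype.val hk
              simpa using this
            rw [← h6]
            exact ((h5.symm).zpow_left k).eq
          rw [indFun_one_of_notMem N h3, mul_zero]
      · have hg : g ∉ L := by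
          intro hg
          apply hm
          exact L.mul_mem (L.mul_mem (L.inv_mem hg) y.2) hg
        rw [extendByZero_of_notMem _ _ hg]
        refine Finset.sum_eq_zero (fun ξ _ => ?_)
        rw [extendByZero_of_notMem _ _ hm, mul_zero]
    have h5 : ∑ ξ ∈ Ξ, (ξ : L → ℂ) y⁻¹ * indFun L (ψ * (ξ : L → ℂ)) y = A := by
      have h6 : ∀ ξ ∈ Ξ, (ξ : L → ℂ) y⁻¹ * indFun L (ψ * (ξ : L → ℂ)) y =
          (Nat.card L : ℂ)⁻¹ * ∑ g : H, (ξ : L → ℂ) y⁻¹ *
            extendByZero L (ψ * (ξ : L → ℂ)) (g⁻¹ * y * g) := by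
        intro ξ _
        rw [indFun_apply, mul_left_comm, Finset.mul_sum]
      rw [Finset.sum_congr rfl h6, ← Finset.mul_sum, Finset.sum_comm,
        Finset.sum_congr rfl (fun g _ => hterm g), sum_extendByZero]
      have hLc : (Nat.card L : ℂ) ≠ 0 := natCard_ne_zero_complex
      simp only [Finset.sum_const, Finset.card_univ, nsmul_eq_mul]
      rw [Nat.card_eq_fintype_card] at hLc ⊢
      field_simp
    rw [h5, hA] at h1
    have hI : (N.index : ℂ) ≠ 0 := by
      exact_mod_cast (Subgroup.index_ne_zero_of_finite (H := N))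
    exact (mul_eq_zero.mp h1).resolve_left hI
  obtain ⟨w, hw, hw0⟩ := Cfsg.Agent.Lib.Char.FullyRamified.exists_coset_ne_zero N hab hψ hψirr
    (⟨x₀, hx₀L⟩ : L)
  apply hw0
  apply hvan
  rw [Subgroup.mem_subgroupOf, ← hπ] at hw
  simp only [Subgroup.coe_mul, Subgroup.coe_inv, map_mul, map_inv] at hw
  rw [← hx₀]
  rw [inv_mul_eq_one] at hw
  exact hw.symm

end Cfsg.Agent.S4565
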