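import Cfsg.Statements.S4566
import Mathlib
import Cfsg.Agent.Lib.Char.ClassMul
import Cfsg.Agent.Lib.Char.Ortho
import Cfsg.Agent.Lib.Char.LinearChars
import Cfsg.Agent.Lib.Char.Integrality

set_option autoImplicit false
open Cfsg

namespace Cfsg.Agent.S4566

open Cfsg.Agent.Lib.Char.ClassMul Cfsg.Agent.Lib.Char.LinearChars in

/-- Let N be a central subgroup of the finite group G, ψ a faithful irreducible (hence degree-one) character of N, and χ an irreducible character of G whose restriction to N contains ψ. If g ∈ G and some x ∈ G has commutator x⁻¹ g⁻¹ x g in N but different from 1, then χ g = 0. -/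
theorem result {G : Type*} [Group G] [Fintype G] (N : Subgroup G) [Fintype N] (hN : N ≤ Subgroup.center G) (ψ : Cfsg.IrrCharacter ↥N) (hfaith : ∀ n : ↥N, (ψ : ↥N → ℂ) n = (ψ : ↥N → ℂ) 1 → n = 1) (χ : Cfsg.IrrCharacter G) (hover : Cfsg.classInner (fun n : ↥N => (χ : G → ℂ) n) (ψ : ↥N → ℂ) ≠ 0) (g x : G) (hcomm : x⁻¹ * g⁻¹ * x * g ∈ N) (hne : x⁻¹ * g⁻¹ * x * g ≠ 1) : (χ : G → ℂ) g = 0 := by
  classical
  haveI := Fintype.ofFinite G
  -- `ψ` is a hom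
  have habN : ∀ a : ↥N, a ∈ Subgroup.center ↥N := by
    intro a
    rw [Subgroup.mem_center_iff]
    intro b
    apply Subtype.ext
    exact Subgroup.mem_center_iff.1 (hN a.2) b
  have hψ1 : (ψ : ↥N → ℂ) 1 = 1 := by
    obtain ⟨f, n, ρ, hρ, rfl⟩ := ψ
    haveI := hρ
    have h1 := Cfsg.Agent.Lib.Char.Integrality.finrank_dvd_index_center ρ
    have h2 : Subgroup.center ↥N = ⊤ := by
      ext a
      simp [habN a]
    rw [h2, Subgroup.index_top, Nat.dvd_one] at h1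
    show ρ.character 1 = 1
    rw [Representation.char_one, h1]
    simp
  obtain ⟨ψ₀, hψ₀⟩ := exists_hom_of_isCharacter_one
    (Cfsg.Agent.Lib.Char.Basic.isCharacter_of_isIrrCharacter ψ.2) hψ1
  have hψv : ∀ n : ↥N, (ψ : ↥N → ℂ) n = ((ψ₀ n : ℂˣ) : ℂ) := fun n => congrFun hψ₀ n
  -- the scalar
  have hχ1 : (χ : G → ℂ) 1 ≠ 0 := Cfsg.Agent.Lib.Char.Ortho.irr_apply_one_ne_zero χ.2
  have hGne : (Nat.card G : ℂ) ≠ 0 := Nat.cast_ne_zero.mpr Nat.card_pos.ne'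
  have hscal : ∀ (n : ↥N) (y : G), (χ : G → ℂ) 1 * (χ : G → ℂ) ((n : G) * y) = (χ : G → ℂ) n * (χ : G → ℂ) y := by
    intro n y
    have h1 := irr_one_mul_sum χ (n : G) y
    have h2 : ∀ a : G, a * (n : G) * a⁻¹ = n := by
      intro a
      have := Subgroup.mem_center_iff.1 (hN n.2) a
      rw [this]
      group
    simp only [h2, Finset.sum_const, Finset.card_univ, nsmul_eq_mul, ← Nat.card_eq_fintype_card] at h1
    have h3 : (Nat.card G : ℂ) * ((χ : G → ℂ) 1 * (χ : G → ℂ) ((n : G) * y)) =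
        (Nat.card G : ℂ) * ((χ : G → ℂ) n * (χ : G → ℂ) y) := by
      rw [← h1]
      ring
    exact mul_left_cancel₀ hGne h3
  -- the inner product
  have hA : ∀ n : ↥N, (χ : G → ℂ) n = ((ψ₀ n : ℂˣ) : ℂ) * (χ : G → ℂ) 1 := by
    intro n
    unfold Cfsg.classInner at hover
    set A := ∑ m : ↥N, (χ : G → ℂ) (m : G) * (starRingEnd ℂ) ((ψ : ↥N → ℂ) m) with hAdef
    have hAne : A ≠ 0 := right_ne_zero_of_mul hover
    have hnorm : ((ψ₀ n : ℂˣ) : ℂ) * (starRingEnd ℂ) ((ψ₀ n : ℂˣ) : ℂ) = 1 := by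
      have hfin : IsOfFinOrder (ψ₀ n) := ψ₀.isOfFinOrder (isOfFinOrder_of_finite n)
      obtain ⟨k, hk, hk2⟩ := isOfFinOrder_iff_pow_eq_one.1 hfin
      have h3 : ((ψ₀ n : ℂˣ) : ℂ) ^ k = 1 := by rw [← Units.val_pow_eq_pow_val, hk2]; rfl
      have hroot := Complex.norm_eq_one_of_pow_eq_one h3 hk.ne'
      rw [Complex.mul_conj, Complex.normSq_eq_norm_sq, hroot]
      simp
    have h1 : (χ : G → ℂ) 1 * A = (χ : G → ℂ) n * (starRingEnd ℂ) ((ψ₀ n : ℂˣ) : ℂ) * A := by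
      rw [hAdef, Finset.mul_sum, Finset.mul_sum]
      refine (Fintype.sum_equiv (Equiv.mulLeft n) _ _ fun m => ?_).symm
      simp only [Equiv.coe_mulLeft, hψv, map_mul, Subgroup.coe_mul, Units.val_mul]
      have h2 := hscal n m
      rw [← mul_assoc ((χ : G → ℂ) 1), h2]
      ring
    have h2 := mul_right_cancel₀ hAne h1
    calc (χ : G → ℂ) n = (χ : G → ℂ) n * (((ψ₀ n : ℂˣ) : ℂ) * (starRingEnd ℂ) ((ψ₀ n : ℂˣ) : ℂ)) := by
          rw [hnorm, mul_one]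
      _ = ((ψ₀ n : ℂˣ) : ℂ) * ((χ : G → ℂ) n * (starRingEnd ℂ) ((ψ₀ n : ℂˣ) : ℂ)) := by ring
      _ = ((ψ₀ n : ℂˣ) : ℂ) * (χ : G → ℂ) 1 := by rw [← h2]
  have hmul : ∀ (n : ↥N) (y : G), (χ : G → ℂ) ((n : G) * y) = ((ψ₀ n : ℂˣ) : ℂ) * (χ : G → ℂ) y := by
    intro n y
    have h1 := hscal n y
    rw [hA n] at h1
    have h2 : (χ : G → ℂ) 1 * (χ : G → ℂ) ((n : G) * y) = (χ : G → ℂ) 1 * (((ψ₀ n : ℂˣ) : ℂ) * (χ : G → ℂ) y) := by
      rw [h1]
      ring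
    exact mul_left_cancel₀ hχ1 h2
  -- the commutator
  let c : ↥N := ⟨x⁻¹ * g⁻¹ * x * g, hcomm⟩
  have hc : (ψ₀ c : ℂˣ) ≠ 1 := by
    intro h
    have h1 : (ψ : ↥N → ℂ) c = (ψ : ↥N → ℂ) 1 := by
      rw [hψv c, h, hψ1]
      rfl
    have h2 := hfaith c h1
    exact hne (congrArg Subtype.val h2)
  have h1 : (c : G) * g⁻¹ = x⁻¹ * g⁻¹ * x := by
    show x⁻¹ * g⁻¹ * x * g * g⁻¹ = x⁻¹ * g⁻¹ * x
    group
  have h2 : (χ : G → ℂ) (x⁻¹ * g⁻¹ * x) = (χ : G → ℂ) g⁻¹ := by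
    apply Cfsg.Agent.Lib.Char.CompleteCor.irr_apply_of_isConj
    refine isConj_iff.2 ⟨x, ?_⟩
    group
  have h3 := hmul c g⁻¹
  rw [h1, h2] at h3
  have h4 : (1 - ((ψ₀ c : ℂˣ) : ℂ)) * (χ : G → ℂ) g⁻¹ = 0 := by
    linear_combination h3
  have h5 : (χ : G → ℂ) g⁻¹ = 0 := by
    refine (mul_eq_zero.1 h4).resolve_left fun h6 => hc ?_
    apply Units.ext
    rw [Units.val_one]
    linear_combination -h6
  have h6 := Cfsg.Agent.Lib.Char.Ortho.character_inv_of_isCharacter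
    (Cfsg.Agent.Lib.Char.Basic.isCharacter_of_isIrrCharacter χ.2) g
  rw [h5] at h6
  have h7 := congrArg (starRingEnd ℂ) h6
  simpa using h7.symm

end Cfsg.Agent.S4566
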