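import Cfsg.Statements.S4567
import Cfsg.Agent.Lib.Char.GlaubCyclic
import Cfsg.Agent.Lib.Char.Complete
import Cfsg.Agent.Lib.Char.CompleteCor
import Cfsg.Agent.Lib.Char.AbelianQuot
import Cfsg.Agent.Lib.Char.Integrality

set_option autoImplicit false
open Cfsg

namespace Cfsg.Agent.S4567

open Cfsg.Agent.Lib.Char.Basic Cfsg.Agent.Lib.Char.Ortho
  Cfsg.Agent.Lib.Char.LinearChars Cfsg.Agent.Lib.Char.GlaubCyclic Cfsg.Agent.Lib.Char.Integrality
open scoped ComplexConjugate

universe u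

variable {G : Type u} [Group G]

/-- The central character of an irreducible character. -/
theorem exists_central_char (N : Subgroup G) (hN : N ≤ Subgroup.center G) {χ : G → ℂ}
    (hχ : IsIrrCharacter G χ) :
    ∃ l : N →* ℂˣ, ∀ (g : G) (n : N), χ (g * n) = ((l n : ℂˣ) : ℂ) * χ g := by
  obtain ⟨m, ρ, hρ, rfl⟩ := hχ
  haveI := hρ
  have hn : ∀ n : N, ∃ a : ℂ, ρ (n : G) = a • LinearMap.id := fun n =>
    exists_smul_id_of_commute ρ _ (fun g => by
      have h1 : (n : G) * g = g * n := (Subgroup.mem_center_iff.mp (hN n.2) g).symm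
      rw [← Module.End.mul_eq_comp, ← Module.End.mul_eq_comp, ← map_mul, ← map_mul, h1])
  choose c hc using hn
  haveI := nontrivial_of_isIrreducible ρ
  obtain ⟨v, hv⟩ := exists_ne (0 : Fin m → ℂ)
  have huniq : ∀ a b : ℂ, a • v = b • v → a = b := by
    intro a b h
    have : (a - b) • v = 0 := by rw [sub_smul, h, sub_self]
    rcases smul_eq_zero.mp this with h | h
    · exact sub_eq_zero.mp h
    · exact absurd h hv
  have hval : ∀ n : N, ρ (n : G) v = c n • v := by
    intro n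
    rw [hc n]
    rfl
  let f : N →* ℂ :=
    { toFun := c
      map_one' := by
        apply huniq
        rw [← hval]
        simp
      map_mul' := by
        intro a b
        apply huniq
        have h2 : ρ ((a * b : N) : G) v = c a • c b • v := by
          rw [Subgroup.coe_mul, map_mul, Module.End.mul_apply, hval b, map_smul, hval a, smul_comm]
        rw [← hval, h2, mul_smul] }
  refine ⟨f.toHomUnits, fun g n => ?_⟩
  show LinearMap.trace ℂ _ (ρ (g * n)) = _ * LinearMap.trace ℂ _ (ρ g)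
  rw [map_mul, hc n]
  simp only [Module.End.mul_eq_comp, LinearMap.comp_smul, LinearMap.comp_id, map_smul, smul_eq_mul]
  rfl

section Main

variable (N : Subgroup G) (l : N →* ℂˣ)

/-- The space of class functions lying over `l`. -/
def spaceA : Submodule ℂ (G → ℂ) where
  carrier := {f | IsClassFunction G f ∧ ∀ (g : G) (n : N), f (g * n) = ((l n : ℂˣ) : ℂ) * f g}
  add_mem' := by
    rintro a b ⟨ha1, ha2⟩ ⟨hb1, hb2⟩
    refine ⟨fun g h => ?_, fun g n => ?_⟩
    · simp only [Pi.add_apply, ha1 g h, hb1 g h]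
    · simp only [Pi.add_apply, ha2 g n, hb2 g n]; ring
  zero_mem' := by
    refine ⟨fun g h => rfl, fun g n => ?_⟩
    simp
  smul_mem' := by
    rintro c a ⟨ha1, ha2⟩
    refine ⟨fun g h => ?_, fun g n => ?_⟩
    · simp only [Pi.smul_apply, ha1 g h]
    · simp only [Pi.smul_apply, ha2 g n, smul_eq_mul]; ring

theorem mem_spaceA {f : G → ℂ} : f ∈ spaceA N l ↔
    IsClassFunction G f ∧ ∀ (g : G) (n : N), f (g * n) = ((l n : ℂˣ) : ℂ) * f g := Iff.rfl

/-- The property of being a special element. -/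
def IsSpecial (g : G) : Prop := ∀ x : G, x⁻¹ * g⁻¹ * x * g ∈ N → x * g = g * x

variable [Fintype G] [hNn : N.Normal] [Fintype N]

omit [Fintype N] in
theorem lin_ne_zero (n : N) : ((l n : ℂˣ) : ℂ) ≠ 0 := Units.ne_zero _

theorem classInner_zero_of_ne (hN : N ≤ Subgroup.center G) {χ : G → ℂ} (hχ : IsIrrCharacter G χ)
    (hnot : ¬ ∀ (g : G) (n : N), χ (g * n) = ((l n : ℂˣ) : ℂ) * χ g)
    {f : G → ℂ} (hf : f ∈ spaceA N l) : classInner f χ = 0 := by
  obtain ⟨l', hl'⟩ := exists_central_char N hN hχ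
  have hne : ∃ n, l n ≠ l' n := by
    by_contra hcon
    push Not at hcon
    apply hnot
    intro g n
    rw [hl', hcon]
  obtain ⟨n, hn⟩ := hne
  have hsum : ∑ g, f g * conj (χ g) = ((l n : ℂˣ) : ℂ) * conj ((l' n : ℂˣ) : ℂ) * ∑ g, f g * conj (χ g) := by
    conv_lhs => rw [← Equiv.sum_comp (Equiv.mulRight (n : G))]
    rw [Finset.mul_sum]
    refine Finset.sum_congr rfl (fun g _ => ?_)
    simp only [Equiv.coe_mulRight]
    rw [hf.2 g n, hl' g n, map_mul]
    ring
  have hl1 : ((l' n : ℂˣ) : ℂ) * conj ((l' n : ℂˣ) : ℂ) = 1 := lin_mul_conj l' n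
  have hne2 : ((l n : ℂˣ) : ℂ) * conj ((l' n : ℂˣ) : ℂ) ≠ 1 := by
    intro h
    apply hn
    apply Units.ext
    have h3 : ((l n : ℂˣ) : ℂ) * conj ((l' n : ℂˣ) : ℂ) = ((l' n : ℂˣ) : ℂ) * conj ((l' n : ℂˣ) : ℂ) := by
      rw [h, hl1]
    exact mul_right_cancel₀ (by
      intro h0
      rw [h0] at hl1
      simp at hl1) h3
  have h0 : ∑ g, f g * conj (χ g) = 0 := by
    have h4 : (1 - ((l n : ℂˣ) : ℂ) * conj ((l' n : ℂˣ) : ℂ)) * ∑ g, f g * conj (χ g) = 0 := by
      rw [sub_mul, one_mul, ← hsum, sub_self]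
    rcases mul_eq_zero.mp h4 with h5 | h5
    · exact absurd (sub_eq_zero.mp h5).symm hne2
    · exact h5
  unfold classInner
  rw [h0, mul_zero]

theorem classInner_res_ne_zero_iff (hN : N ≤ Subgroup.center G) {χ : G → ℂ}
    (hχ : IsIrrCharacter G χ) :
    classInner (fun n : N => χ n) (fun n : N => ((l n : ℂˣ) : ℂ)) ≠ 0 ↔
      ∀ (g : G) (n : N), χ (g * n) = ((l n : ℂˣ) : ℂ) * χ g := by
  obtain ⟨l', hl'⟩ := exists_central_char N hN hχ
  have hres : (fun n : N => χ n) = χ 1 • (fun n : N => ((l' n : ℂˣ) : ℂ)) := by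
    funext n
    have := hl' 1 n
    rw [one_mul] at this
    rw [this]
    simp [mul_comm]
  have h10 := irr_apply_one_ne_zero hχ
  rw [hres, classInner_smul_left]
  constructor
  · intro h
    have hll : l' = l := by
      by_contra hne
      apply h
      have hne' : (fun n : N => ((l' n : ℂˣ) : ℂ)) ≠ (fun n : N => ((l n : ℂˣ) : ℂ)) := by
        intro h2
        apply hne
        ext n
        exact congrFun h2 n
      rw [classInner_irr_of_ne (isIrr_of_hom l') (isIrr_of_hom l) hne', mul_zero]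
    subst hll
    exact hl'
  · intro h
    have hll : l' = l := by
      ext n
      have h2 := h 1 n
      rw [hl' 1 n] at h2
      exact mul_right_cancel₀ h10 h2
    subst hll
    rw [classInner_irr_self (isIrr_of_hom l'), mul_one]
    exact h10

theorem finrank_spaceA (hN : N ≤ Subgroup.center G) :
    Module.finrank ℂ (spaceA N l) =
      Nat.card {χ : IrrCharacter G // ∀ (g : G) (n : N), (χ : G → ℂ) (g * n) = ((l n : ℂˣ) : ℂ) * (χ : G → ℂ) g} := by
  classical
  letI : Fintype (IrrCharacter G) := Fintype.ofFinite _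
  let X := {χ : IrrCharacter G // ∀ (g : G) (n : N), (χ : G → ℂ) (g * n) = ((l n : ℂˣ) : ℂ) * (χ : G → ℂ) g}
  letI : Fintype X := Fintype.ofFinite _
  let b : X → (G → ℂ) := fun x => (x.1 : G → ℂ)
  have hb : LinearIndependent ℂ b :=
    (Cfsg.Agent.Lib.Char.Complete.linearIndependent_irr (G := G)).comp _ Subtype.val_injective
  have hspan : spaceA N l = Submodule.span ℂ (Set.range b) := by
    apply le_antisymm
    · intro f hf
      rw [Cfsg.Agent.Lib.Char.Complete.eq_sum_classInner f hf.1]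
      refine Submodule.sum_mem _ (fun χ _ => ?_)
      by_cases hχ : ∀ (g : G) (n : N), (χ : G → ℂ) (g * n) = ((l n : ℂˣ) : ℂ) * (χ : G → ℂ) g
      · exact Submodule.smul_mem _ _ (Submodule.subset_span ⟨⟨χ, hχ⟩, rfl⟩)
      · rw [classInner_zero_of_ne N l hN χ.2 hχ hf, zero_smul]
        exact Submodule.zero_mem _
    · rw [Submodule.span_le]
      rintro _ ⟨x, rfl⟩
      exact ⟨isClassFunction_of_isCharacter (isCharacter_of_isIrrCharacter x.1.2), x.2⟩
  rw [hspan, finrank_span_eq_card hb, Nat.card_eq_fintype_card]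

omit [Fintype N] in
theorem vanish_of_not_special (hfaith : ∀ n : N, l n = 1 → n = 1) {f : G → ℂ}
    (hf : f ∈ spaceA N l) {h : G} (hh : ¬ IsSpecial N h) : f h = 0 := by
  unfold IsSpecial at hh
  push Not at hh
  obtain ⟨x, hx, hne⟩ := hh
  let n : N := ⟨(x⁻¹ * h⁻¹ * x * h)⁻¹, N.inv_mem hx⟩
  have hn1 : l n ≠ 1 := by
    intro h1
    have := hfaith n h1
    have h2 : (x⁻¹ * h⁻¹ * x * h)⁻¹ = 1 := congrArg Subtype.val this
    apply hne
    rw [inv_eq_one] at h2
    have h3 : x⁻¹ * h⁻¹ * x = h⁻¹ := by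
      rwa [mul_eq_one_iff_eq_inv] at h2
    have h4 : h⁻¹ * x = x * h⁻¹ := by
      rw [mul_assoc, inv_mul_eq_iff_eq_mul] at h3
      exact h3
    calc x * h = h * (h⁻¹ * x) * h := by group
      _ = h * (x * h⁻¹) * h := by rw [h4]
      _ = h * x := by group
  have h1 : h * (n : G) = x⁻¹ * h * x := by
    show h * (x⁻¹ * h⁻¹ * x * h)⁻¹ = _
    group
  have h2 := hf.2 h n
  rw [h1] at h2
  have h3 := hf.1 h x⁻¹
  rw [inv_inv] at h3
  rw [h3] at h2
  have h4 : (((l n : ℂˣ) : ℂ) - 1) * f h = 0 := by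
    rw [sub_mul, one_mul, ← h2, sub_self]
  rcases mul_eq_zero.mp h4 with h5 | h5
  · exact absurd (Units.ext (sub_eq_zero.mp h5)) hn1
  · exact h5

omit [Fintype N] in
/-- The weight function `w` on the coset `gN`. -/
noncomputable def wt (g : G) (h : G) : ℂ := by
  classical
  exact if hm : g⁻¹ * h ∈ N then ((l ⟨g⁻¹ * h, hm⟩ : ℂˣ) : ℂ) else 0

omit [Fintype N] in
theorem wt_mem (g h : G) (hm : g⁻¹ * h ∈ N) : wt N l g h = ((l ⟨g⁻¹ * h, hm⟩ : ℂˣ) : ℂ) := by
  unfold wt
  rw [dif_pos hm]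

omit [Fintype N] in
theorem wt_notMem (g h : G) (hm : g⁻¹ * h ∉ N) : wt N l g h = 0 := by
  unfold wt
  rw [dif_neg hm]

/-- The averaged weight. -/
noncomputable def raw (g : G) (h : G) : ℂ := ∑ y : G, wt N l g (y⁻¹ * h * y)

omit [Fintype N] in
theorem raw_mem (hN : N ≤ Subgroup.center G) (g : G) : raw N l g ∈ spaceA N l := by
  classical
  refine ⟨fun h k => ?_, fun h n => ?_⟩
  · unfold raw
    rw [← Equiv.sum_comp (Equiv.mulLeft k)]
    refine Finset.sum_congr rfl (fun y _ => ?_)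
    congr 1
    simp [mul_assoc]
  · unfold raw
    rw [Finset.mul_sum]
    refine Finset.sum_congr rfl (fun y _ => ?_)
    have hc : y⁻¹ * (h * n) * y = y⁻¹ * h * y * n := by
      have : (n : G) * y = y * n := (Subgroup.mem_center_iff.mp (hN n.2) y).symm
      calc y⁻¹ * (h * n) * y = y⁻¹ * h * (n * y) := by group
        _ = y⁻¹ * h * (y * n) := by rw [this]
        _ = y⁻¹ * h * y * n := by group
    rw [hc]
    by_cases hm : g⁻¹ * (y⁻¹ * h * y) ∈ N
    · have hm2 : g⁻¹ * (y⁻¹ * h * y * n) ∈ N := by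
        rw [← mul_assoc]
        exact N.mul_mem hm n.2
      rw [wt_mem N l _ _ hm, wt_mem N l _ _ hm2, ← Units.val_mul, ← map_mul]
      congr 2
      apply Subtype.ext
      have hcn := (Subgroup.mem_center_iff.mp (hN n.2) (g⁻¹ * (y⁻¹ * h * y))).symm
      show g⁻¹ * (y⁻¹ * h * y * n) = (n : G) * (g⁻¹ * (y⁻¹ * h * y))
      rw [hcn]
      group
    · have hm2 : g⁻¹ * (y⁻¹ * h * y * n) ∉ N := by
        intro h3
        apply hm
        have := N.mul_mem h3 (N.inv_mem n.2)
        simpa [mul_assoc] using this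
      rw [wt_notMem N l _ _ hm, wt_notMem N l _ _ hm2, mul_zero]

omit [Fintype N] in
theorem raw_self_ne_zero (g : G) (hg : IsSpecial N g) : raw N l g g ≠ 0 := by
  classical
  have h1 : ∀ y : G, wt N l g (y⁻¹ * g * y) = if y⁻¹ * g * y = g then 1 else 0 := by
    intro y
    by_cases hm : g⁻¹ * (y⁻¹ * g * y) ∈ N
    · have hc : y * g = g * y := by
        apply hg y
        have := N.inv_mem hm
        simpa [mul_assoc] using this
      have hy : y⁻¹ * g * y = g := by
        rw [mul_assoc, inv_mul_eq_iff_eq_mul, hc]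
      rw [if_pos hy, wt_mem N l _ _ hm]
      have h2 : (⟨g⁻¹ * (y⁻¹ * g * y), hm⟩ : N) = 1 := by
        apply Subtype.ext
        simp [hy]
      rw [h2]
      simp
    · rw [wt_notMem N l _ _ hm, if_neg]
      intro hy
      apply hm
      rw [hy]
      simp [N.one_mem]
  unfold raw
  rw [Finset.sum_congr rfl (fun y _ => h1 y), Finset.sum_boole]
  norm_cast
  rw [Finset.card_eq_zero]
  intro h0
  have : (1 : G) ∈ Finset.univ.filter (fun y : G => y⁻¹ * g * y = g) := by simp
  rw [h0] at this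
  simp at this

omit [Fintype N] in
theorem raw_of_not_conj (g h : G)
    (hc : ¬ IsConj (g : G ⧸ N) (h : G ⧸ N)) : raw N l g h = 0 := by
  classical
  unfold raw
  refine Finset.sum_eq_zero (fun y _ => ?_)
  apply wt_notMem
  intro hm
  apply hc
  rw [isConj_iff]
  refine ⟨(y : G ⧸ N), ?_⟩
  have h2 : (g : G ⧸ N) = ((y⁻¹ * h * y : G) : G ⧸ N) := QuotientGroup.eq.mpr hm
  rw [h2]
  simp only [QuotientGroup.mk_mul, QuotientGroup.mk_inv]
  group

theorem finrank_spaceA_eq (hN : N ≤ Subgroup.center G) (hfaith : ∀ n : N, l n = 1 → n = 1) :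
    Module.finrank ℂ (spaceA N l) = Nat.card {C : ConjClasses (G ⧸ N) // ∃ g : G, ConjClasses.mk (g : G ⧸ N) = C ∧ ∀ x : G, x⁻¹ * g⁻¹ * x * g ∈ N → x * g = g * x} := by
  classical
  let S := {C : ConjClasses (G ⧸ N) // ∃ g : G, ConjClasses.mk (g : G ⧸ N) = C ∧ ∀ x : G, x⁻¹ * g⁻¹ * x * g ∈ N → x * g = g * x}
  letI : Fintype (G ⧸ N) := Fintype.ofFinite _
  letI : Fintype S := Fintype.ofFinite _
  choose rep hrep1 hrep2 using (fun C : S => C.2)
  let Φ : spaceA N l →ₗ[ℂ] (S → ℂ) :=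
    { toFun := fun f C => f.1 (rep C)
      map_add' := fun _ _ => rfl
      map_smul' := fun _ _ => rfl }
  have hinj : Function.Injective Φ := by
    rw [← LinearMap.ker_eq_bot, LinearMap.ker_eq_bot']
    intro f hf
    apply Subtype.ext
    funext h
    show f.1 h = 0
    by_cases hs : IsSpecial N h
    · let C : S := ⟨ConjClasses.mk (h : G ⧸ N), h, rfl, hs⟩
      have hf0 : f.1 (rep C) = 0 := congrFun hf C
      have h1 : ConjClasses.mk ((rep C : G) : G ⧸ N) = ConjClasses.mk (h : G ⧸ N) := hrep1 C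
      rw [ConjClasses.mk_eq_mk_iff_isConj, isConj_iff] at h1
      obtain ⟨c, hc⟩ := h1
      obtain ⟨y, rfl⟩ := QuotientGroup.mk_surjective c
      have h2 : (h : G ⧸ N) = ((y * rep C * y⁻¹ : G) : G ⧸ N) := by
        rw [← hc]
        simp only [QuotientGroup.mk_mul, QuotientGroup.mk_inv]
      have h3 : h⁻¹ * (y * rep C * y⁻¹) ∈ N := QuotientGroup.eq.mp h2
      have h4 := f.2.2 h ⟨_, h3⟩
      have h5 : h * ((⟨_, h3⟩ : N) : G) = y * rep C * y⁻¹ := by
        simp
      rw [h5, f.2.1 (rep C) y, hf0] at h4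
      have h6 := lin_ne_zero N l ⟨_, h3⟩
      exact (mul_eq_zero.mp h4.symm).resolve_left h6
    · exact vanish_of_not_special N l hfaith f.2 hs
  have hsurj : Function.Surjective Φ := by
    intro v
    let F : spaceA N l := ∑ C : S, (v C / raw N l (rep C) (rep C)) • (⟨raw N l (rep C), raw_mem N l hN (rep C)⟩ : spaceA N l)
    refine ⟨F, ?_⟩
    funext C'
    show F.1 (rep C') = v C'
    simp only [F, AddSubmonoidClass.coe_finset_sum, Finset.sum_apply, Submodule.coe_smul, Pi.smul_apply, smul_eq_mul]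
    rw [Finset.sum_eq_single C']
    · rw [div_mul_cancel₀]
      exact raw_self_ne_zero N l _ (hrep2 C')
    · intro C _ hC
      rw [raw_of_not_conj N l (rep C) (rep C'), mul_zero]
      intro hconj
      apply hC
      apply Subtype.ext
      rw [← hrep1 C, ← hrep1 C']
      exact ConjClasses.mk_eq_mk_iff_isConj.mpr hconj
    · intro h
      exact absurd (Finset.mem_univ _) h
  have he := (LinearEquiv.ofBijective Φ ⟨hinj, hsurj⟩).finrank_eq
  rw [he, Module.finrank_fintype_fun_eq_card, Nat.card_eq_fintype_card]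

end Main

/-- See the statement. -/
theorem result {G : Type*} [Group G] [Fintype G] (N : Subgroup G) [N.Normal] [Fintype N] (hN : N ≤ Subgroup.center G) (ψ : Cfsg.IrrCharacter ↥N) (hfaith : ∀ n : ↥N, (ψ : ↥N → ℂ) n = (ψ : ↥N → ℂ) 1 → n = 1) : Nat.card {χ : Cfsg.IrrCharacter G // Cfsg.classInner (fun n : ↥N => (χ : G → ℂ) n) (ψ : ↥N → ℂ) ≠ 0} = Nat.card {C : ConjClasses (G ⧸ N) // ∃ g : G, ConjClasses.mk (g : G ⧸ N) = C ∧ ∀ x : G, x⁻¹ * g⁻¹ * x * g ∈ N → x * g = g * x} := by
  classical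
  -- ψ is linear
  have h1 : (ψ : N → ℂ) 1 = 1 := by
    obtain ⟨m, ρ, hρ, hψ⟩ := ψ.2
    haveI := hρ
    have hm := Cfsg.Agent.Lib.Char.AbelianQuot.finrank_eq_one_of_commuting ρ (fun x y => by
      have h2 : x * y = y * x := by
        apply Subtype.ext
        exact (Subgroup.mem_center_iff.mp (hN x.2) y).symm
      rw [← Module.End.mul_eq_comp, ← Module.End.mul_eq_comp, ← map_mul, ← map_mul, h2])
    rw [← hψ, Representation.char_one, hm]
    simp
  obtain ⟨l, hl⟩ := exists_hom_of_isCharacter_one (isCharacter_of_isIrrCharacter ψ.2) h1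
  have hl' : ∀ n : N, l n = 1 → n = 1 := by
    intro n hn
    apply hfaith
    rw [h1, hl]
    simp [hn]
  rw [← finrank_spaceA_eq N l hN hl', finrank_spaceA N l hN, hl]
  refine Nat.card_congr (Equiv.subtypeEquivRight (fun χ => ?_))
  exact classInner_res_ne_zero_iff N l hN χ.2

end Cfsg.Agent.S4567
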