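import Cfsg.Statements.S4571
import Mathlib
import Cfsg.Agent.Lib.Blocks.Dominate
import Cfsg.Agent.Lib.Blocks.BlockCount
import Cfsg.Agent.Lib.Blocks.KOCoset
import Cfsg.Agent.Lib.Blocks.CentralProd
import Cfsg.Agent.S4964

set_option autoImplicit false
set_option linter.style.haveILetI false

open Cfsg Cfsg.Agent.Lib.Blocks.Local Cfsg.Agent.Lib.Blocks.Central Cfsg.Agent.Lib.Blocks.Osima
open Cfsg.Agent.Lib.Blocks.Regular Cfsg.Agent.Lib.Blocks.BlockCount

namespace Cfsg.Agent.S4571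

universe u

variable {G : Type u} [Group G] [Fintype G] {p : ℕ} [hp : Fact p.Prime] (Q : Subgroup G) [hQn : Q.Normal]

/-- Pulling back to `G` and cutting down to the `p`-regular elements. -/
noncomputable def pull (p : ℕ) : (G ⧸ Q → ℂ) →ₗ[ℂ] (G → ℂ) where
  toFun f := reg p (f ∘ QuotientGroup.mk)
  map_add' f f' := by
    funext g
    by_cases h : p ∣ orderOf g
    · simp [reg_of_dvd _ h]
    · simp [reg_of_not_dvd _ h]
  map_smul' c f := by
    funext g
    by_cases h : p ∣ orderOf g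
    · simp [reg_of_dvd _ h]
    · simp [reg_of_not_dvd _ h]

omit [Fintype G] hp in
lemma pull_apply (f : G ⧸ Q → ℂ) (g : G) : pull Q p f g = reg p (f ∘ QuotientGroup.mk) g := rfl

omit [Fintype G] hp in
lemma not_dvd_orderOf_mk {g : G} (h : ¬ p ∣ orderOf g) : ¬ p ∣ orderOf (g : G ⧸ Q) := fun h' =>
  h (h'.trans (orderOf_map_dvd (QuotientGroup.mk' Q) g))

omit hp in
lemma pull_reg (f : G ⧸ Q → ℂ) : pull Q p (reg p f) = reg p (f ∘ QuotientGroup.mk) := by
  funext g
  rw [pull_apply]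
  by_cases h : p ∣ orderOf g
  · simp [reg_of_dvd _ h]
  · simp only [reg_of_not_dvd _ h, Function.comp_apply]
    rw [reg_of_not_dvd _ (not_dvd_orderOf_mk Q h)]

set_option linter.unusedSectionVars false

/-- Uniqueness of the `p`-regular lift. -/
lemma regular_lift_unique (hQ : IsPGroup p Q)
    (hC : ∃ k : ℕ, (Subgroup.centralizer (Q : Set G)).index = p ^ k) {g g' : G}
    (hg : ¬ p ∣ orderOf g) (hg' : ¬ p ∣ orderOf g') (h : (g : G ⧸ Q) = (g' : G ⧸ Q)) : g = g' := by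
  have h1 : g' * g⁻¹ ∈ Q := by
    have h2 : g⁻¹ * g' ∈ Q := QuotientGroup.eq.1 h
    have h3 := hQn.conj_mem _ h2 g
    have h4 : g * (g⁻¹ * g') * g⁻¹ = g' * g⁻¹ := by group
    rwa [h4] at h3
  obtain ⟨t, ht, hte⟩ := Cfsg.Agent.Lib.Blocks.KOCoset.exists_conj_of_coset hQ h1 hg
    (by rwa [inv_mul_cancel_right])
  rw [inv_mul_cancel_right] at hte
  have hc := Subgroup.mem_centralizer_iff.1 (Cfsg.Agent.Lib.Blocks.CentralProd.mem_centralizer_of_reg hC hg) t ht
  rw [← hte, hc]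
  group

/-- The descent of a `p`-regular class function to `G/Q`. -/
theorem exists_descent (hQ : IsPGroup p Q)
    (hC : ∃ k : ℕ, (Subgroup.centralizer (Q : Set G)).index = p ^ k) {u : G → ℂ}
    (hu : IsClassFunction G u) :
    ∃ v : G ⧸ Q → ℂ, IsClassFunction (G ⧸ Q) v ∧ pull Q p v = reg p u := by
  classical
  have hlift : ∀ c : G ⧸ Q, ¬ p ∣ orderOf c → ∃ g : G, (g : G ⧸ Q) = c ∧ ¬ p ∣ orderOf g :=
    fun c hc => Cfsg.Agent.S4964.exists_regular_lift hQ c hc
  let v : G ⧸ Q → ℂ := fun c => if h : p ∣ orderOf c then 0 else u (hlift c h).choose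
  have hv : ∀ (g : G), ¬ p ∣ orderOf g → v (g : G ⧸ Q) = u g := by
    intro g hg
    have h1 := not_dvd_orderOf_mk Q hg
    simp only [v, dif_neg h1]
    have h2 := (hlift _ h1).choose_spec
    rw [regular_lift_unique Q hQ hC h2.2 hg h2.1]
  refine ⟨v, ?_, ?_⟩
  · intro c x
    obtain ⟨y, rfl⟩ := QuotientGroup.mk_surjective x
    have hord : orderOf ((y : G ⧸ Q) * c * (y : G ⧸ Q)⁻¹) = orderOf c := by
      rw [← MulAut.conj_apply, MulEquiv.orderOf_eq]
    by_cases hd : p ∣ orderOf c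
    · simp only [v, dif_pos hd, dif_pos (hord ▸ hd : p ∣ orderOf ((y : G ⧸ Q) * c * (y : G ⧸ Q)⁻¹))]
    · obtain ⟨g, rfl, hg⟩ := hlift c hd
      have h3 : ¬ p ∣ orderOf (y * g * y⁻¹) := by
        rwa [orderOf_conj']
      have h4 : (y : G ⧸ Q) * (g : G ⧸ Q) * (y : G ⧸ Q)⁻¹ = ((y * g * y⁻¹ : G) : G ⧸ Q) := rfl
      rw [h4, hv _ h3, hv _ hg]
      exact hu g y
  · funext g
    rw [pull_apply]
    by_cases h : p ∣ orderOf g
    · rw [reg_of_dvd _ h, reg_of_dvd _ h]
    · rw [reg_of_not_dvd _ h, reg_of_not_dvd _ h, Function.comp_apply, hv g h]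

/-- The `p`-regular span of the principal block of `G` is the pullback of that of `G/Q`. -/
theorem map_regSpan [Fintype (G ⧸ Q)] {M : Ideal AlgInt} [hMp : M.IsPrime] (hM : IsPModular p M) (hQ : IsPGroup p Q)
    (hC : ∃ k : ℕ, (Subgroup.centralizer (Q : Set G)).index = p ^ k) :
    (regSpan p (principalBlock M (G ⧸ Q))).map (pull Q p) = regSpan p (principalBlock M G) := by
  classical
  have hirr : ∀ θ : IrrCharacter (G ⧸ Q), IsIrrCharacter G ((θ : G ⧸ Q → ℂ) ∘ QuotientGroup.mk) := fun θ =>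
    Cfsg.Agent.Lib.Char.Basic.isIrrCharacter_comp_surjective θ.2 (QuotientGroup.mk' Q)
      (QuotientGroup.mk'_surjective Q)
  apply le_antisymm
  · rw [regSpan, Submodule.map_span, Submodule.span_le]
    rintro _ ⟨_, ⟨θ, hθ, rfl⟩, rfl⟩
    show pull Q p (pRegularPart p (θ : G ⧸ Q → ℂ)) ∈ _
    rw [Cfsg.Agent.Lib.Blocks.Cartan.pRegularPart_eq_reg, pull_reg]
    apply Submodule.subset_span
    refine ⟨⟨_, hirr θ⟩, ?_, Cfsg.Agent.Lib.Blocks.Cartan.pRegularPart_eq_reg _ _⟩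
    have h1 := Cfsg.Agent.Lib.Blocks.Dominate.sameBlock_comp_mk Q
      (Cfsg.Agent.Lib.Blocks.Principal.trivChar (G ⧸ Q)).2 θ.2 hθ
    exact h1
  · rw [regSpan, Submodule.span_le]
    rintro _ ⟨χ, hχ, rfl⟩
    show pRegularPart p (χ : G → ℂ) ∈ _
    rw [Cfsg.Agent.Lib.Blocks.Cartan.pRegularPart_eq_reg]
    obtain ⟨v, hv, hpull⟩ := exists_descent Q hQ hC (isClassFunction_of_irr χ.2)
    have hsum := Cfsg.Agent.Lib.Char.Complete.eq_sum_classInner v hv
    set A := principalBlock M G with hA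
    have hAcl : IsClosed M A := isClosed_of_isPBlock (Cfsg.Agent.Lib.Blocks.Principal.isPBlock_principalBlock M)
    have h1 : reg p (χ : G → ℂ) = blockPartL A (reg p (χ : G → ℂ)) := by
      rw [blockPartL_apply]
      exact (blockPart_reg_of_mem hM hAcl hχ).symm
    rw [h1, ← hpull, hsum, map_sum, map_sum]
    refine Submodule.sum_mem _ fun θ _ => ?_
    rw [map_smul, map_smul]
    refine Submodule.smul_mem _ _ ?_
    have h2 : pull Q p (θ : G ⧸ Q → ℂ) = reg p (((⟨_, hirr θ⟩ : IrrCharacter G) : G → ℂ)) := rfl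
    rw [h2, blockPartL_apply]
    by_cases hθA : (⟨_, hirr θ⟩ : IrrCharacter G) ∈ A
    · rw [blockPart_reg_of_mem hM hAcl hθA]
      refine ⟨reg p (θ : G ⧸ Q → ℂ), ?_, pull_reg Q _⟩
      apply Submodule.subset_span
      refine ⟨θ, ?_, Cfsg.Agent.Lib.Blocks.Cartan.pRegularPart_eq_reg _ _⟩
      exact Cfsg.Agent.Lib.Blocks.Dominate.sameBlock_of_comp_mk Q hM hQ hC
        (χ := Cfsg.Agent.Lib.Blocks.Principal.trivChar (G ⧸ Q)) (ψ := θ) hθA
    · rw [blockPart_reg_of_notMem hM hAcl hθA]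
      exact Submodule.zero_mem _

/-- **Principal block rank modulo a centralised `p`-subgroup.** -/
theorem result {G : Type*} [Group G] [Finite G] (p : ℕ) [Fact p.Prime] (M : Ideal Cfsg.AlgInt) (hM : Cfsg.IsPModular p M) (Q : Subgroup G) [Q.Normal] (hQ : IsPGroup p Q) (hsup : Q ⊔ Subgroup.centralizer (Q : Set G) = ⊤) : Cfsg.blockRank p (Cfsg.principalBlock M G) = Cfsg.blockRank p (Cfsg.principalBlock M (G ⧸ Q)) := by
  classical
  letI := Fintype.ofFinite G
  letI : Fintype (G ⧸ Q) := Fintype.ofFinite _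
  haveI hMp := isPrime_of_isPModular hM
  have hC := Cfsg.Agent.Lib.Blocks.CentralProd.index_centralizer_eq Q hQ hsup
  rw [blockRank_eq, blockRank_eq, ← map_regSpan Q hM hQ hC]
  set S := regSpan p (principalBlock M (G ⧸ Q)) with hS
  have hinj : Function.Injective ((pull Q p).domRestrict S) := by
    rw [← LinearMap.ker_eq_bot, LinearMap.ker_eq_bot']
    rintro ⟨f, hf⟩ h0
    apply Subtype.ext
    funext c
    show f c = 0
    by_cases hc : p ∣ orderOf c
    · exact mem_regSpan_vanish hf hc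
    · obtain ⟨g, rfl, hg⟩ := Cfsg.Agent.S4964.exists_regular_lift hQ c hc
      have h1 := congrFun h0 g
      have h2 : pull Q p f g = 0 := h1
      rwa [pull_apply, reg_of_not_dvd _ hg] at h2
  have h3 := LinearMap.finrank_range_of_inj hinj
  rw [LinearMap.range_domRestrict] at h3
  exact h3

end Cfsg.Agent.S4571
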