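import Cfsg.Statements.S4574
import Mathlib
import Cfsg.Agent.Lib.Char.GaloisC
import Cfsg.Agent.Lib.Char.Values
import Cfsg.Agent.Lib.Char.Codegree
-- import your own Cfsg.Agent.* helpers here

set_option autoImplicit false
open Cfsg

namespace Cfsg.Agent.S4574

/-- The set where `|χ| = χ(1)` is stable under inverses of coprime power maps. -/
theorem norm_of_norm_pow {G : Type*} [Group G] [Finite G] {χ : G → ℂ}
    (hχ : Cfsg.IsCharacter G χ) (x : G) {k : ℕ} (hk : k.Coprime (Nat.card G))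
    (h : ‖χ (x ^ k)‖ = (Cfsg.charDegree χ : ℝ)) : ‖χ x‖ = (Cfsg.charDegree χ : ℝ) := by
  obtain ⟨n, ρ, rfl⟩ := hχ
  have hdeg : Cfsg.charDegree ρ.character = Module.finrank ℂ (Fin n → ℂ) := by
    unfold Cfsg.charDegree
    rw [Representation.char_one]
    simp
  rw [hdeg] at h ⊢
  rw [Cfsg.Agent.Lib.Char.Values.norm_character_eq_iff] at h ⊢
  obtain ⟨ω, hω⟩ := h
  have hk' : k.Coprime (orderOf x) := Nat.Coprime.coprime_dvd_right (orderOf_dvd_natCard x) hk
  obtain ⟨m, hm⟩ := exists_pow_eq_self_of_coprime hk'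
  refine ⟨ω ^ m, ?_⟩
  have hω' : ρ (x ^ k) = ω • (1 : Module.End ℂ (Fin n → ℂ)) := hω
  have h2 : ρ x = (ω • (1 : Module.End ℂ (Fin n → ℂ))) ^ m := by
    rw [← hω', ← map_pow, hm]
  rw [h2, smul_pow, one_pow]
  rfl

/-- Let χ be an irreducible character of the finite group G, of degree d, and let Z(χ) be the set of elements g with |χ g| = d (the centre of χ). Then χ vanishes on at least (d ^ 2 - 1) · |Z(χ)| elements of G, with equality when every value |χ g| is 0, 1 or d. -/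
theorem result {G : Type*} [Group G] [Fintype G] [DecidableEq G] (χ : G → ℂ) (hχ : Cfsg.IsIrrCharacter G χ) : (Cfsg.charDegree χ ^ 2 - 1) * (Finset.univ.filter (fun g : G => ‖χ g‖ = (Cfsg.charDegree χ : ℝ))).card ≤ (Finset.univ.filter (fun g : G => χ g = 0)).card ∧ ((∀ g : G, ‖χ g‖ = 0 ∨ ‖χ g‖ = 1 ∨ ‖χ g‖ = (Cfsg.charDegree χ : ℝ)) → (Cfsg.charDegree χ ^ 2 - 1) * (Finset.univ.filter (fun g : G => ‖χ g‖ = (Cfsg.charDegree χ : ℝ))).card = (Finset.univ.filter (fun g : G => χ g = 0)).card) := by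
  classical
  have hdpos := Cfsg.Agent.Lib.Char.Codegree.charDegree_pos hχ
  have hsq := Cfsg.Agent.Lib.Char.GaloisC.sum_norm_sq_of_isIrr hχ
  have hχc : IsCharacter G χ := by
    obtain ⟨n, ρ, -, rfl⟩ := hχ
    exact ⟨n, ρ, rfl⟩
  set d := Cfsg.charDegree χ with hd
  -- the set `X` of nonzero values of absolute value other than `d`
  set Z := Finset.univ.filter (fun g : G => ‖χ g‖ = (d : ℝ)) with hZ
  set W := Finset.univ.filter (fun g : G => χ g = 0) with hW
  set X := Finset.univ.filter (fun g : G => χ g ≠ 0 ∧ ‖χ g‖ ≠ (d : ℝ)) with hX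
  -- coprime powers preserve `Z`
  have hdist : Disjoint Z W := by
    rw [Finset.disjoint_left]
    intro g hg hg'
    rw [hZ, Finset.mem_filter] at hg
    rw [hW, Finset.mem_filter] at hg'
    have : ‖χ g‖ = 0 := by rw [hg'.2]; simp
    have h2 : (d : ℝ) = 0 := by rw [← hg.2, this]
    have h3 : d = 0 := by exact_mod_cast h2
    omega
  have hne : ∀ g : G, χ g = 0 → ‖χ g‖ ≠ (d : ℝ) := by
    intro g hg h
    have h0 : ‖χ g‖ = 0 := by rw [hg]; simp
    have h2 : (d : ℝ) = 0 := by rw [← h, h0]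
    have h3 : d = 0 := by exact_mod_cast h2
    omega
  have hcard : (Z.card : ℝ) + X.card + W.card = Nat.card G := by
    have hpart : ∀ g : G, ((if ‖χ g‖ = (d : ℝ) then (1 : ℝ) else 0) +
        (if χ g ≠ 0 ∧ ‖χ g‖ ≠ (d : ℝ) then (1 : ℝ) else 0) +
        (if χ g = 0 then (1 : ℝ) else 0)) = 1 := by
      intro g
      by_cases h1 : χ g = 0
      · have h3 := hne g h1
        rw [if_neg h3, if_neg (fun h => h.1 h1), if_pos h1]; norm_num
      · by_cases h2 : ‖χ g‖ = (d : ℝ)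
        · rw [if_pos h2, if_neg (fun h => h.2 h2), if_neg h1]; norm_num
        · rw [if_neg h2, if_pos ⟨h1, h2⟩, if_neg h1]; norm_num
    have h := Finset.sum_congr (rfl : (Finset.univ : Finset G) = Finset.univ) (fun g _ => hpart g)
    rw [Finset.sum_add_distrib, Finset.sum_add_distrib, Finset.sum_boole, Finset.sum_boole,
      Finset.sum_boole] at h
    rw [hZ, hX, hW, h]
    simp [Nat.card_eq_fintype_card]
  have hsum : (∑ g, ‖χ g‖ ^ 2) = (d : ℝ) ^ 2 * Z.card + ∑ g ∈ X, ‖χ g‖ ^ 2 := by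
    have hpart : ∀ g : G, ‖χ g‖ ^ 2 = (if ‖χ g‖ = (d : ℝ) then (d : ℝ) ^ 2 else 0) +
        (if χ g ≠ 0 ∧ ‖χ g‖ ≠ (d : ℝ) then ‖χ g‖ ^ 2 else 0) := by
      intro g
      by_cases h1 : χ g = 0
      · have h3 := hne g h1
        rw [if_neg h3, if_neg (fun h => h.1 h1), h1]; simp
      · by_cases h2 : ‖χ g‖ = (d : ℝ)
        · rw [if_pos h2, if_neg (fun h => h.2 h2), h2, add_zero]
        · rw [if_neg h2, if_pos ⟨h1, h2⟩, zero_add]
    rw [Finset.sum_congr rfl (fun g _ => hpart g), Finset.sum_add_distrib, hX, hZ,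
      Finset.sum_filter]
    congr 1
    rw [← Finset.sum_filter, Finset.sum_const, nsmul_eq_mul, mul_comm]
  have hXle : (X.card : ℝ) ≤ ∑ x ∈ X, ‖χ x‖ ^ 2 := by
    refine Cfsg.Agent.Lib.Char.GaloisC.card_le_sum_norm_pow hχc X ?_ ?_ 2
    · intro x hx k hk
      rw [hX, Finset.mem_filter] at hx ⊢
      refine ⟨Finset.mem_univ _, Cfsg.Agent.Lib.Char.GaloisC.character_pow_ne_zero hχc hx.2.1 hk, ?_⟩
      intro h
      exact hx.2.2 (norm_of_norm_pow hχc x hk h)
    · intro x hx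
      rw [hX, Finset.mem_filter] at hx
      exact hx.2.1
  rw [hsq] at hsum
  have hd1 : (1 : ℝ) ≤ (d : ℝ) ^ 2 := by
    have : (1 : ℝ) ≤ d := by exact_mod_cast hdpos
    nlinarith
  have hcast : (((d ^ 2 - 1 : ℕ)) : ℝ) = (d : ℝ) ^ 2 - 1 := by
    rw [Nat.cast_sub (Nat.one_le_pow _ _ hdpos)]
    push_cast; ring
  constructor
  · have : (((d ^ 2 - 1) * Z.card : ℕ) : ℝ) ≤ (W.card : ℝ) := by
      push_cast
      rw [hcast]
      nlinarith
    exact_mod_cast this
  · intro hvals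
    have hX1 : ∑ x ∈ X, ‖χ x‖ ^ 2 = (X.card : ℝ) := by
      have : ∀ x ∈ X, ‖χ x‖ ^ 2 = 1 := by
        intro x hx
        rw [hX, Finset.mem_filter] at hx
        rcases hvals x with h | h | h
        · exact absurd (norm_eq_zero.1 h) hx.2.1
        · rw [h]; norm_num
        · exact absurd h hx.2.2
      rw [Finset.sum_congr rfl this]
      simp
    have : (((d ^ 2 - 1) * Z.card : ℕ) : ℝ) = (W.card : ℝ) := by
      push_cast
      rw [hcast]
      rw [hX1] at hsum
      nlinarith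
    exact_mod_cast this

end Cfsg.Agent.S4574
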