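import Cfsg.Statements.S4580
import Mathlib
import Cfsg.Agent.Lib.Blocks.RealBlock
import Cfsg.Agent.Lib.Blocks.PElements
import Cfsg.Agent.Lib.Char.GlaubCyclic

set_option autoImplicit false
open Cfsg

set_option linter.style.haveILetI false
set_option linter.unusedVariables false

namespace Cfsg.Agent.S4580

open Cfsg.Agent.Lib.Blocks.Local Cfsg.Agent.Lib.Blocks.RealBlock
open scoped ComplexConjugate

/-- A linear character is a square times a character of `2`-power order. -/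
lemma exists_split {G : Type*} [Group G] [Finite G] (l : G →* ℂˣ) :
    ∃ (ν l₂ : G →* ℂˣ) (a : ℕ), (∀ g, l g = ν g ^ 2 * l₂ g) ∧ (∀ g, (l₂ g) ^ (2 ^ a) = 1) ∧
      (∀ g, (∀ n : ℤ, l g = 1 → ν g = 1)) := by
  obtain ⟨a, u, hu, hcard⟩ := Nat.exists_eq_two_pow_mul_odd (n := Nat.card G) Nat.card_pos.ne'
  have hcop : IsCoprime ((2 : ℤ) ^ (a + 1)) (u : ℤ) := by
    apply IsCoprime.pow_left
    rw [Int.isCoprime_iff_gcd_eq_one]
    have : Nat.Coprime 2 u := (Nat.coprime_two_left).2 hu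
    simpa [Int.gcd] using this
  obtain ⟨x, y, hxy⟩ := hcop
  refine ⟨l ^ (x * 2 ^ a), l ^ (y * u), a, fun g => ?_, fun g => ?_, fun g n h => ?_⟩
  · simp only [MonoidHom.zpow_apply, ← zpow_natCast, ← zpow_mul, ← zpow_add]
    conv_lhs => rw [← zpow_one (l g)]
    congr 1
    rw [← hxy]
    push_cast
    ring
  · have h1 : (l g) ^ (Nat.card G) = 1 := by
      rw [← map_pow, pow_card_eq_one', map_one]
    have h2 : ((l ^ (y * (u : ℤ))) g) ^ (2 ^ a) = ((l g) ^ (Nat.card G)) ^ y := by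
      simp only [MonoidHom.zpow_apply, ← zpow_natCast, ← zpow_mul]
      congr 1
      rw [hcard]
      push_cast
      ring
    rw [h2, h1, one_zpow]
  · simp [MonoidHom.zpow_apply, h]

/-- Let N be a normal subgroup of the finite group G, M a maximal ideal of the algebraic integers containing 2, and θ a real-valued irreducible character of N of odd degree that extends to G (some irreducible character of G restricts to θ). Then θ has an extension to G lying in the principal 2-block of G. -/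
theorem result {G : Type*} [Group G] [Finite G] (N : Subgroup G) [N.Normal] (M : Ideal Cfsg.AlgInt) (hM : Cfsg.IsPModular 2 M) (θ : Cfsg.IrrCharacter N) (hreal : ∀ n : N, ((θ : N → ℂ) n).im = 0) (hodd : Odd (Cfsg.charDegree (θ : N → ℂ))) (hext : ∃ η : Cfsg.IrrCharacter G, ∀ n : N, (η : G → ℂ) n = (θ : N → ℂ) n) :
    ∃ η : Cfsg.IrrCharacter G, (∀ n : N, (η : G → ℂ) n = (θ : N → ℂ) n) ∧ η ∈ Cfsg.principalBlock M G := by
  classical
  haveI := Fintype.ofFinite G
  haveI := Fintype.ofFinite N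
  obtain ⟨η, hη⟩ := hext
  haveI hMp := isPrime_of_isPModular hM
  have hconj : ∀ n : N, (η : G → ℂ) n = (irrConj η : G → ℂ) n := by
    intro n
    rw [coe_irrConj, hη n]
    exact (Complex.conj_eq_iff_im.2 (hreal n)).symm
  have hirr : IsIrrCharacter N (fun n : N => (η : G → ℂ) n) := by
    have : (fun n : N => (η : G → ℂ) n) = (θ : N → ℂ) := funext hη
    rw [this]
    exact θ.2
  obtain ⟨l, hlN, hl⟩ := Cfsg.Agent.Lib.Char.GlaubCyclic.exists_lin_of_ext N η.2 (irrConj η).2 hconj hirr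
  obtain ⟨ν, l₂, a, hsplit, hl₂, hνN⟩ := exists_split l
  let η₁ : IrrCharacter G := ⟨fun g => ((ν g : ℂˣ) : ℂ) * (η : G → ℂ) g,
    Cfsg.Agent.Lib.Char.GlaubCyclic.isIrr_lin_mul ν η.2⟩
  have hη₁ : ∀ g, (η₁ : G → ℂ) g = ((ν g : ℂˣ) : ℂ) * (η : G → ℂ) g := fun g => rfl
  have hres : ∀ n : N, (η₁ : G → ℂ) n = (θ : N → ℂ) n := by
    intro n
    rw [hη₁, hνN _ 0 (hlN n), hη n]
    simp
  refine ⟨η₁, hres, ?_⟩
  have hone : (η₁ : G → ℂ) 1 = (θ : N → ℂ) 1 := by
    have := hres 1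
    simpa using this
  have hodd₁ : Odd (charDegree (η₁ : G → ℂ)) := by
    have : charDegree (η₁ : G → ℂ) = charDegree (θ : N → ℂ) := by
      unfold charDegree
      rw [hone]
    rwa [this]
  -- the conjugate of `η₁` is its twist by `l₂`
  have hη₁conj : ∀ g, (irrConj η₁ : G → ℂ) g = ((l₂ g : ℂˣ) : ℂ) * (η₁ : G → ℂ) g := by
    intro g
    have h1 : (irrConj η : G → ℂ) g = ((l g : ℂˣ) : ℂ) * (η : G → ℂ) g := congrFun hl g
    rw [coe_irrConj] at h1
    have h2 := Cfsg.Agent.Lib.Char.GlaubCyclic.lin_mul_conj ν g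
    have h3 : ((ν g : ℂˣ) : ℂ) ≠ 0 := Units.ne_zero _
    rw [coe_irrConj, hη₁, map_mul, h1, hsplit g]
    push_cast
    have h4 : conj ((ν g : ℂˣ) : ℂ) = ((ν g : ℂˣ) : ℂ)⁻¹ := by
      field_simp
      rw [mul_comm]
      exact h2
    rw [h4]
    field_simp
  have hself : SameBlock M (η₁ : G → ℂ) (irrConj η₁ : G → ℂ) := by
    intro g
    have h1 : centralChar (irrConj η₁ : G → ℂ) g = ((l₂ g : ℂˣ) : ℂ) * centralChar (η₁ : G → ℂ) g := by
      unfold centralChar
      rw [hη₁conj g, irrConj_apply_one]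
      ring
    rw [h1]
    have h2 : centralChar (η₁ : G → ℂ) g - ((l₂ g : ℂˣ) : ℂ) * centralChar (η₁ : G → ℂ) g =
        (-(((l₂ g : ℂˣ) : ℂ) - 1)) * centralChar (η₁ : G → ℂ) g := by ring
    rw [h2]
    refine memLocalIdeal_mul_right (memLocalIdeal_neg ?_) ?_
    · refine Cfsg.Agent.Lib.Blocks.PElements.memLocalIdeal_sub_one_of_pow hM (k := a) ?_
      rw [← Units.val_pow_eq_pow_val, hl₂ g, Units.val_one]
    · exact memLocalRing_of_isIntegral (Cfsg.Agent.Lib.Blocks.Central.isIntegral_centralChar η₁.2 g)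
  refine mem_principalBlock_of_conj_stable hM (fun ψ hψ => ?_) (fun g h1 h2 h3 => ?_)
  · have h5 := sameBlock_irrConj (M := M) hψ
    intro g
    have h6 := memLocalIdeal_add (hself g) (h5 g)
    convert h6 using 1
    ring
  · exact memLocalIdeal_centralChar_of_odd hM hodd₁ (even_index_of_real h1 h2 h3)

end Cfsg.Agent.S4580
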