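import Cfsg.Statements.S4581
import Mathlib
import Cfsg.Agent.Lib.Char.RealOdd6
import Cfsg.Agent.Lib.PGroup.ActionFrattini
import Cfsg.Agent.Lib.PGroup.FrattiniBasis

set_option autoImplicit false
set_option linter.style.haveILetI false
set_option linter.unusedSectionVars false
set_option linter.unusedVariables false
open Cfsg

namespace Cfsg.Agent.S4581

open Cfsg.Agent.Lib.Char.RealOdd

theorem QB_iff {G : Type*} [Group G] [Finite G] (P : Sylow 2 G) :
    QB P ↔ (commutator (P : Subgroup G) = frattini (P : Subgroup G) ∧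
      Subgroup.normalizer ((P : Subgroup G) : Set G) = (P : Subgroup G)) := by
  have hP : IsPGroup 2 (P : Subgroup G) := P.isPGroup'
  haveI hfact : Fact (Nat.Prime 2) := ⟨Nat.prime_two⟩
  constructor
  · intro h
    refine ⟨le_antisymm (Cfsg.Agent.Lib.PGroup.FrattiniBasis.commutator_le_frattini hP) ?_,
      le_antisymm (fun n hn => h.1 n hn) Subgroup.le_normalizer⟩
    refine Cfsg.Agent.Lib.PGroup.ActionFrattini.frattini_le hP _ le_rfl (fun x => ?_)
    by_contra hx
    have h1 : (Abelianization.of (x ^ 2) : Abelianization (P : Subgroup G)) ≠ 1 := by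
      intro h0
      exact hx ((QuotientGroup.eq_one_iff _).1 h0)
    haveI : NeZero (Monoid.exponent (Abelianization (P : Subgroup G))) :=
      ⟨Monoid.exponent_ne_zero_of_finite⟩
    obtain ⟨φ, hφ⟩ := CommGroup.exists_apply_ne_one_of_hasEnoughRootsOfUnity
      (Abelianization (P : Subgroup G)) ℂ h1
    apply hφ
    have h2 := h.2 (φ.comp Abelianization.of) x
    rw [map_pow]
    rw [map_pow]
    exact_mod_cast h2
  · rintro ⟨h1, h2⟩
    refine ⟨fun n hn => ?_, fun μ u => ?_⟩
    · rw [← h2]
      exact hn
    · have h3 : u ^ 2 ∈ commutator (P : Subgroup G) := by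
        rw [h1]
        exact Cfsg.Agent.Lib.PGroup.FrattiniBasis.pow_mem_frattini hP u
      have h4 : commutator (P : Subgroup G) ≤ μ.ker := Abelianization.commutator_subset_ker μ
      have h5 := h4 h3
      rw [MonoidHom.mem_ker, map_pow] at h5
      exact h5


/-- Let G be a finite solvable group, P a Sylow 2-subgroup and N its normalizer. Then G and N have the same number of real-valued irreducible characters of odd degree; and every odd-degree irreducible character of G is real-valued exactly when the derived subgroup of P equals the Frattini subgroup of P and P is its own normalizer in G. -/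
theorem result {G : Type*} [Group G] [Finite G] [Group.IsSolvable G] (P : Sylow 2 G) :
    Nat.card {χ : Cfsg.IrrCharacter G // (∀ g : G, ((χ : G → ℂ) g).im = 0) ∧ Odd (Cfsg.charDegree (χ : G → ℂ))} =
      Nat.card {ψ : Cfsg.IrrCharacter (Subgroup.normalizer ((P : Subgroup G) : Set G)) // (∀ g, ((ψ : Subgroup.normalizer ((P : Subgroup G) : Set G) → ℂ) g).im = 0) ∧ Odd (Cfsg.charDegree (ψ : Subgroup.normalizer ((P : Subgroup G) : Set G) → ℂ))} ∧
    ((∀ χ : Cfsg.IrrCharacter G, Odd (Cfsg.charDegree (χ : G → ℂ)) → ∀ g : G, ((χ : G → ℂ) g).im = 0) ↔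
      (commutator (P : Subgroup G) = frattini (P : Subgroup G) ∧ Subgroup.normalizer ((P : Subgroup G) : Set G) = (P : Subgroup G))) := by
  refine ⟨partA _ G rfl P, ?_⟩
  rw [← QB_iff]
  exact ⟨fun h => partB2 _ G rfl P h, fun h => partB1 _ G rfl P h⟩

end Cfsg.Agent.S4581
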