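import Cfsg.Statements.S4582
import Mathlib
-- import your own Cfsg.Agent.* helpers here

set_option autoImplicit false
open Cfsg

namespace Cfsg.Agent.S4582

open MulAction Subgroup

universe u

/-- Homs from `N` to a 2-group vanish if `N/N'` has odd order. -/
theorem kill {N : Type*} [Group N] [Finite N] (hodd : Odd (Nat.card (Abelianization N)))
    {A : Type*} [CommGroup A] (hA : IsPGroup 2 A) (f : N →* A) (n : N) : f n = 1 := by
  haveI : Fact (Nat.Prime 2) := ⟨Nat.prime_two⟩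
  have h1 : (f n) ^ Nat.card (Abelianization N) = 1 := by
    have h2 := pow_card_eq_one' (x := Abelianization.of n)
    have h3 : (Abelianization.lift f) (Abelianization.of n ^ Nat.card (Abelianization N)) = 1 := by
      rw [h2, map_one]
    simpa only [map_pow, Abelianization.lift_apply_of] using h3
  obtain ⟨k, hk⟩ := (IsPGroup.iff_orderOf.1 hA) (f n)
  have h4 : orderOf (f n) ∣ Nat.card (Abelianization N) := orderOf_dvd_of_pow_eq_one h1
  have h5 : Nat.Coprime (orderOf (f n)) (Nat.card (Abelianization N)) := by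
    rw [hk]
    exact Nat.Coprime.pow_left k (Nat.coprime_two_left.2 hodd)
  exact orderOf_eq_one_iff.1 (h5.eq_one_of_dvd h4)

/-- The case `G = NP`. -/
theorem main_aux {G : Type u} [Group G] [Finite G] (N : Subgroup G) [hN : N.Normal] (P : Sylow 2 G)
    (hsup : N ⊔ (P : Subgroup G) = ⊤)
    (hP : ∀ x ∈ (P : Subgroup G), x ^ 2 ∈ ((P : Subgroup G) ⊓ N) ⊔ ⁅(P : Subgroup G), (P : Subgroup G)⁆)
    (hQ : ∀ x ∈ (P : Subgroup G) ⊓ N, x ^ 2 ∈ ⁅(P : Subgroup G) ⊓ N, (P : Subgroup G) ⊓ N⁆)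
    (hkill : ∀ (A : Type u) [CommGroup A], IsPGroup 2 A → ∀ f : G →* A, ∀ n ∈ N, f n = 1) :
    ∀ x ∈ (P : Subgroup G), x ^ 2 ∈ ⁅(P : Subgroup G), (P : Subgroup G)⁆ := by
  classical
  haveI : Fact (Nat.Prime 2) := ⟨Nat.prime_two⟩
  intro x hx
  let A := Abelianization ↥(P : Subgroup G)
  let ϕ : ↥(P : Subgroup G) →* A := Abelianization.of
  have hA : IsPGroup 2 A := P.2.to_quotient (commutator ↥(P : Subgroup G))
  have hϕ : ∀ s : ↥(P : Subgroup G), ϕ s = 1 ↔ s ∈ commutator ↥(P : Subgroup G) :=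
    fun s => QuotientGroup.eq_one_iff s
  let V : G →* A := MonoidHom.transfer ϕ
  have hcommle : ⁅(P : Subgroup G), (P : Subgroup G)⁆ ≤ V.ker :=
    (Subgroup.commutator_mono le_top le_top).trans (Abelianization.commutator_subset_ker V)
  have hNle : N ≤ V.ker := fun n hn => hkill A hA V n hn
  have hV2 : V x ^ 2 = 1 := by
    rw [← map_pow]
    exact (sup_le (inf_le_right.trans hNle) hcommle) (hP x hx)
  -- the subgroup of `A` coming from `P ∩ N`
  let B : Subgroup A := (((P : Subgroup G) ⊓ N).subgroupOf (P : Subgroup G)).map ϕ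
  have hBsq : ∀ b ∈ B, b ^ 2 = 1 := by
    rintro _ ⟨q, hq, rfl⟩
    rw [← map_pow, hϕ]
    have hq' : (q : G) ∈ (P : Subgroup G) ⊓ N := hq
    have h1 := hQ (q : G) hq'
    have h2 : ⁅(P : Subgroup G) ⊓ N, (P : Subgroup G) ⊓ N⁆ ≤ ⁅(P : Subgroup G), (P : Subgroup G)⁆ :=
      Subgroup.commutator_mono inf_le_left inf_le_left
    have h3 := h2 h1
    rw [← Subgroup.map_subtype_commutator] at h3
    obtain ⟨y, hy, hye⟩ := h3
    have : y = q ^ 2 := by
      apply Subtype.ext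
      simpa using hye
    rwa [← this]
  have : Fintype (Quotient (orbitRel (zpowers x) (G ⧸ (P : Subgroup G)))) := Fintype.ofFinite _
  have hxP : (⟨x, hx⟩ : ↥(P : Subgroup G)) = ⟨x, hx⟩ := rfl
  set xt : ↥(P : Subgroup G) := ⟨x, hx⟩ with hxt
  have hstep : ∀ Q : Quotient (orbitRel (zpowers x) (G ⧸ (P : Subgroup G))),
      ∃ b ∈ B, ϕ ⟨Q.out.out⁻¹ * x ^ Function.minimalPeriod (x • ·) Q.out * Q.out.out,
        QuotientGroup.out_conj_pow_minimalPeriod_mem _ x Q.out⟩ =
        b * ϕ xt ^ Function.minimalPeriod (x • ·) Q.out := by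
    intro Q
    set k := Function.minimalPeriod (x • ·) Q.out with hk
    have hw := QuotientGroup.out_conj_pow_minimalPeriod_mem (P : Subgroup G) x Q.out
    set g := Q.out.out with hg
    have hgmem : g ∈ ((N ⊔ (P : Subgroup G) : Subgroup G) : Set G) := by rw [hsup]; trivial
    rw [Subgroup.normal_mul] at hgmem
    obtain ⟨n, hn, p, hp, hnp⟩ := hgmem
    have hnp' : g = n * p := hnp.symm
    -- y = n⁻¹ x^k n
    have hy : n⁻¹ * x ^ k * n ∈ (P : Subgroup G) := by
      have : n⁻¹ * x ^ k * n = p * (g⁻¹ * x ^ k * g) * p⁻¹ := by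
        rw [hnp']; group
      rw [this]
      exact (P : Subgroup G).mul_mem ((P : Subgroup G).mul_mem hp hw) ((P : Subgroup G).inv_mem hp)
    have hxk : x ^ k ∈ (P : Subgroup G) := (P : Subgroup G).pow_mem hx k
    have hqP : n⁻¹ * x ^ k * n * (x ^ k)⁻¹ ∈ (P : Subgroup G) :=
      (P : Subgroup G).mul_mem hy ((P : Subgroup G).inv_mem hxk)
    have hqN : n⁻¹ * x ^ k * n * (x ^ k)⁻¹ ∈ N := by
      have : n⁻¹ * x ^ k * n * (x ^ k)⁻¹ = n⁻¹ * (x ^ k * n * (x ^ k)⁻¹) := by group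
      rw [this]
      exact N.mul_mem (N.inv_mem hn) (hN.conj_mem n hn _)
    let qt : ↥(P : Subgroup G) := ⟨_, hqP⟩
    refine ⟨ϕ qt, ⟨qt, ⟨hqP, hqN⟩, rfl⟩, ?_⟩
    let pt : ↥(P : Subgroup G) := ⟨p, hp⟩
    have hwe : (⟨g⁻¹ * x ^ k * g, hw⟩ : ↥(P : Subgroup G)) = pt⁻¹ * (qt * xt ^ k) * pt := by
      apply Subtype.ext
      simp only [Subgroup.coe_mul, Subgroup.coe_inv, SubgroupClass.coe_pow, qt, pt, hxt]
      rw [hnp']
      group
    rw [hwe, map_mul, map_mul, map_inv, map_mul, map_pow]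
    rw [mul_comm (ϕ pt)⁻¹, mul_assoc, inv_mul_cancel, mul_one]
  choose b hbB hbeq using hstep
  have hVform : V x = (∏ Q, b Q) * ϕ xt ^ (P : Subgroup G).index := by
    change MonoidHom.transfer ϕ x = _
    rw [MonoidHom.transfer_eq_prod_quotient_orbitRel_zpowers_quot]
    rw [Finset.prod_congr rfl (fun Q _ => hbeq Q), Finset.prod_mul_distrib,
      Finset.prod_pow_eq_pow_sum, Subgroup.index_eq_sum_minimalPeriod (P : Subgroup G) x]
  have hB : (∏ Q, b Q) ^ 2 = 1 := hBsq _ (Subgroup.prod_mem _ fun Q _ => hbB Q)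
  have h1 : (ϕ xt ^ 2) ^ (P : Subgroup G).index = 1 := by
    have : V x ^ 2 = (∏ Q, b Q) ^ 2 * (ϕ xt ^ 2) ^ (P : Subgroup G).index := by
      rw [hVform, mul_pow, ← pow_mul, ← pow_mul, mul_comm 2]
    rw [hV2, hB, one_mul] at this
    exact this.symm
  have hoddidx : Nat.Coprime 2 (P : Subgroup G).index :=
    (Nat.Prime.coprime_iff_not_dvd Nat.prime_two).2 P.not_dvd_index
  have h2 : ϕ xt ^ 2 = 1 := by
    obtain ⟨k, hk⟩ := (IsPGroup.iff_orderOf.1 hA) (ϕ xt ^ 2)
    have h4 := orderOf_dvd_of_pow_eq_one h1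
    have h5 : Nat.Coprime (orderOf (ϕ xt ^ 2)) (P : Subgroup G).index := by
      rw [hk]
      exact Nat.Coprime.pow_left k hoddidx
    exact orderOf_eq_one_iff.1 (h5.eq_one_of_dvd h4)
  rw [← map_pow, hϕ] at h2
  rw [← Subgroup.map_subtype_commutator]
  exact ⟨_, h2, by simp [hxt]⟩

/-- Let N be a normal subgroup of the finite group G, P a Sylow 2-subgroup of G and Q = P ∩ N. Suppose that P/QP' and Q/Q' are elementary abelian (every square of an element of P lies in the subgroup generated by Q and the derived subgroup of P, and every square of an element of Q lies in the derived subgroup of Q), and that the commutator factor group N/N' has odd order. Then P/P' is elementary abelian. -/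
theorem result {G : Type*} [Group G] [Finite G] (N : Subgroup G) [N.Normal] (P : Sylow 2 G)
    (hP : ∀ x ∈ (P : Subgroup G), x ^ 2 ∈ ((P : Subgroup G) ⊓ N) ⊔ ⁅(P : Subgroup G), (P : Subgroup G)⁆)
    (hQ : ∀ x ∈ (P : Subgroup G) ⊓ N, x ^ 2 ∈ ⁅(P : Subgroup G) ⊓ N, (P : Subgroup G) ⊓ N⁆)
    (hodd : Odd (Nat.card (Abelianization N))) :
    ∀ x ∈ (P : Subgroup G), x ^ 2 ∈ ⁅(P : Subgroup G), (P : Subgroup G)⁆ := by
  classical
  set H : Subgroup G := N ⊔ (P : Subgroup G) with hH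
  have hPH : (P : Subgroup G) ≤ H := le_sup_right
  have hNH : N ≤ H := le_sup_left
  let P' : Sylow 2 ↥H := P.subtype hPH
  let N' : Subgroup ↥H := N.subgroupOf H
  have hP'coe : (P' : Subgroup ↥H) = (P : Subgroup G).subgroupOf H := Sylow.coe_subtype P hPH
  have hmapP : (P' : Subgroup ↥H).map H.subtype = (P : Subgroup G) := by
    rw [hP'coe]; exact Subgroup.map_subgroupOf_eq_of_le hPH
  have hmapN : N'.map H.subtype = N := Subgroup.map_subgroupOf_eq_of_le hNH
  have hinj : Function.Injective H.subtype := H.subtype_injective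
  have hmapinf : ((P' : Subgroup ↥H) ⊓ N').map H.subtype = (P : Subgroup G) ⊓ N := by
    rw [Subgroup.map_inf _ _ _ hinj, hmapP, hmapN]
  have hsup : N' ⊔ (P' : Subgroup ↥H) = ⊤ := by
    apply Subgroup.map_injective hinj
    rw [Subgroup.map_sup, hmapP, hmapN, ← MonoidHom.range_eq_map, Subgroup.range_subtype]
  have hP' : ∀ x ∈ (P' : Subgroup ↥H),
      x ^ 2 ∈ ((P' : Subgroup ↥H) ⊓ N') ⊔ ⁅(P' : Subgroup ↥H), (P' : Subgroup ↥H)⁆ := by
    intro x hx
    have hx' : (x : G) ∈ (P : Subgroup G) := by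
      rw [hP'coe] at hx
      exact hx
    have h1 := hP (x : G) hx'
    rw [← Subgroup.mem_map_iff_mem hinj (x := x ^ 2), Subgroup.map_sup, Subgroup.map_commutator,
      hmapinf, hmapP]
    simpa using h1
  have hQ' : ∀ x ∈ (P' : Subgroup ↥H) ⊓ N',
      x ^ 2 ∈ ⁅(P' : Subgroup ↥H) ⊓ N', (P' : Subgroup ↥H) ⊓ N'⁆ := by
    intro x hx
    have hx' : (x : G) ∈ (P : Subgroup G) ⊓ N := by
      rw [← hmapinf]
      exact ⟨x, hx, rfl⟩
    have h1 := hQ (x : G) hx'
    rw [← Subgroup.mem_map_iff_mem hinj (x := x ^ 2), Subgroup.map_commutator, hmapinf]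
    simpa using h1
  have hkill : ∀ (A : Type _) [CommGroup A], IsPGroup 2 A → ∀ f : ↥H →* A, ∀ n ∈ N', f n = 1 := by
    intro A _ hA f n hn
    have := kill hodd hA (f.comp (Subgroup.inclusion hNH)) ⟨n, hn⟩
    exact this
  have hmain := main_aux N' P' hsup hP' hQ' hkill
  intro x hx
  have h1 := hmain ⟨x, hPH hx⟩ (by rw [hP'coe]; exact hx)
  have h2 := Subgroup.mem_map_of_mem H.subtype h1
  rw [Subgroup.map_commutator, hmapP] at h2
  simpa using h2

end Cfsg.Agent.S4582
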