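import Cfsg.Statements.S4583
import Mathlib
import Cfsg.Agent.Lib.Blocks.Regular
import Cfsg.Agent.Lib.Char.Complete
import Cfsg.Agent.Lib.Char.Values

set_option autoImplicit false
open Cfsg

set_option linter.style.haveILetI false
set_option linter.unusedVariables false

namespace Cfsg.Agent.S4583

open Cfsg.Agent.Lib.Blocks.Local Cfsg.Agent.Lib.Blocks.Central Cfsg.Agent.Lib.Blocks.Regular
  Cfsg.Agent.Lib.Blocks.Principal Cfsg.Agent.Lib.Char.Ortho Cfsg.Agent.Lib.Char.Basic
open scoped ComplexConjugate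

/-- Constituents pass down along a homomorphism. -/
lemma constituent_res {K N : Type*} [Group K] [Fintype K] [Group N] [Fintype N] (i : N →* K)
    (ψ : K → ℂ) (hψ : IsCharacter K ψ) (η : IrrCharacter K) (θ : IrrCharacter N)
    (hη : ∀ n, (η : K → ℂ) (i n) = (θ : N → ℂ) n) (h : classInner ψ (η : K → ℂ) ≠ 0) :
    classInner (fun n => ψ (i n)) (θ : N → ℂ) ≠ 0 := by
  classical
  have h1 := decomp_eq_sum_classInner hψ
  have h2 : (fun n => ψ (i n)) =
      ∑ ζ : IrrCharacter K, classInner ψ (ζ : K → ℂ) • (fun n => (ζ : K → ℂ) (i n)) := by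
    funext n
    conv_lhs => rw [h1]
    simp [Finset.sum_apply]
  rw [h2, classInner_sum_left]
  choose c hc using fun ζ : IrrCharacter K => exists_nat_classInner hψ ζ
  choose d hd using fun ζ : IrrCharacter K =>
    exists_nat_classInner (isCharacter_comp_hom (isCharacter_of_isIrrCharacter ζ.2) i) θ
  simp only [classInner_smul_left, hc, hd]
  have h3 : d η = 1 := by
    have h4 := hd η
    have h5 : (fun n => (η : K → ℂ) (i n)) = (θ : N → ℂ) := funext hη
    rw [h5, classInner_irr_self θ.2] at h4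
    exact_mod_cast h4.symm
  have h6 : c η ≠ 0 := by
    intro h0
    apply h
    rw [hc, h0]
    simp
  have h7 : (∑ ζ : IrrCharacter K, c ζ * d ζ) ≠ 0 := by
    intro h0
    have h8 := (Finset.sum_eq_zero_iff.1 h0) η (Finset.mem_univ _)
    rw [h3, mul_one] at h8
    exact h6 h8
  exact_mod_cast h7

/-- A `p`-regular element of `NP` lies in `N`. -/
lemma mem_of_regular {G : Type*} [Group G] [Finite G] {p : ℕ} [Fact p.Prime] (N : Subgroup G) [N.Normal]
    {P : Subgroup G} (hP : IsPGroup p P) {x : G} (hx : x ∈ N ⊔ P) (hr : ¬ p ∣ orderOf x) : x ∈ N := by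
  have h1 : QuotientGroup.mk' N x ∈ P.map (QuotientGroup.mk' N) := by
    have h2 := Subgroup.mem_map_of_mem (QuotientGroup.mk' N) hx
    rw [Subgroup.map_sup, QuotientGroup.map_mk'_self, bot_sup_eq] at h2
    exact h2
  obtain ⟨k, hk⟩ := (hP.map (QuotientGroup.mk' N)) ⟨_, h1⟩
  have h3 : (QuotientGroup.mk' N x) ^ (p ^ k) = 1 := by
    have := congrArg Subtype.val hk
    simpa using this
  have h4 : (QuotientGroup.mk' N x) ^ (orderOf x) = 1 := by
    rw [← map_pow, pow_orderOf_eq_one, map_one]
  have h5 : Nat.Coprime (p ^ k) (orderOf x) :=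
    Nat.Coprime.pow_left k ((Nat.Prime.coprime_iff_not_dvd (Fact.out)).2 hr)
  have h6 := pow_gcd_eq_one.2 ⟨h3, h4⟩
  rw [h5, pow_one] at h6
  exact (QuotientGroup.eq_one_iff x).1 h6

/-- Let N be a normal subgroup of the finite group G, p a prime, M a maximal ideal of the algebraic integers containing p, and P a Sylow p-subgroup of G. Let θ be an irreducible character of N of degree prime to p lying in the principal p-block of N, and suppose θ extends to the subgroup NP (some irreducible character of NP restricts to θ). Then some irreducible character χ of G of degree prime to p in the principal p-block of G lies over θ (θ is a constituent of the restriction of χ to N). -/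
theorem result {G : Type*} [Group G] [Finite G] (N : Subgroup G) [N.Normal] (p : ℕ) [Fact p.Prime] (M : Ideal Cfsg.AlgInt) (hM : Cfsg.IsPModular p M) (P : Sylow p G)
    (θ : Cfsg.IrrCharacter N) (hθ : θ ∈ Cfsg.principalBlock M N) (hdeg : ¬ p ∣ Cfsg.charDegree (θ : N → ℂ))
    (hext : ∃ η : Cfsg.IrrCharacter ↥(N ⊔ (P : Subgroup G)), ∀ n : N, (η : ↥(N ⊔ (P : Subgroup G)) → ℂ) (Subgroup.inclusion le_sup_left n) = (θ : N → ℂ) n) :
    ∃ χ : Cfsg.IrrCharacter G, χ ∈ Cfsg.principalBlock M G ∧ ¬ p ∣ Cfsg.charDegree (χ : G → ℂ) ∧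
      haveI := Fintype.ofFinite N; Cfsg.classInner (fun n : N => (χ : G → ℂ) n) (θ : N → ℂ) ≠ 0 := by
  classical
  haveI := Fintype.ofFinite G
  letI : Fintype N := Fintype.ofFinite N
  haveI hMp := isPrime_of_isPModular hM
  set K : Subgroup G := N ⊔ (P : Subgroup G) with hK
  haveI : Fintype K := Fintype.ofFinite K
  obtain ⟨η, hη⟩ := hext
  have hPp : IsPGroup p (P : Subgroup G) := P.isPGroup'
  set f : G → ℂ := reg p (fun _ => 1) with hf
  have hfreal : ∀ y, conj (f y) = f y := by
    intro y
    by_cases hy : p ∣ orderOf y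
    · simp [hf, reg_of_dvd _ hy]
    · simp [hf, reg_of_not_dvd _ hy]
  have hfclass : IsClassFunction G f := isClassFunction_reg (fun _ _ => rfl)
  set t : IrrCharacter G → ℂ := fun χ => ∑ y : G, f y * (χ : G → ℂ) y with ht
  have homega : ∀ χ : IrrCharacter G, t χ = omega (χ : G → ℂ) (regT p G) * (χ : G → ℂ) 1 := by
    intro χ
    rw [regT, omega_regElt, div_mul_cancel₀ _ (irr_apply_one_ne_zero χ.2)]
  have homegaN : (∑ n : N, f n * (θ : N → ℂ) n) = omega (θ : N → ℂ) (regT p N) * (θ : N → ℂ) 1 := by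
    rw [regT, omega_regElt, div_mul_cancel₀ _ (irr_apply_one_ne_zero θ.2)]
    refine Finset.sum_congr rfl fun n _ => ?_
    simp only [hf, reg, Subgroup.orderOf_coe]
  choose c hc using fun χ : IrrCharacter G => exists_nat_classInner
    (isCharacter_restrict (isCharacter_of_isIrrCharacter χ.2) K) η
  have hcard : (K.index : ℂ) * (Nat.card K : ℂ) = (Nat.card G : ℂ) := by
    exact_mod_cast Subgroup.index_mul_card K
  have hG0 : (Nat.card G : ℂ) ≠ 0 := Nat.cast_ne_zero.2 Nat.card_pos.ne'
  have hK0 : (Nat.card K : ℂ) ≠ 0 := Nat.cast_ne_zero.2 Nat.card_pos.ne'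
  have hI0 : (K.index : ℂ) ≠ 0 := left_ne_zero_of_mul (hcard.symm ▸ hG0)
  -- the key identity
  have hkey : (K.index : ℂ) * ∑ n : N, f n * (θ : N → ℂ) n = ∑ χ : IrrCharacter G, t χ * (c χ : ℂ) := by
    have hA1 : (∑ h : K, f h * conj ((η : K → ℂ) h)) = ∑ n : N, f n * conj ((θ : N → ℂ) n) := by
      symm
      refine Fintype.sum_of_injective (Subgroup.inclusion (le_sup_left : N ≤ K))
        (Subgroup.inclusion_injective _) _ _ ?_ ?_
      · intro h hh
        by_cases hr : p ∣ orderOf (h : G)
        · simp [hf, reg_of_dvd _ hr]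
        · exfalso
          apply hh
          exact ⟨⟨h, mem_of_regular N hPp h.2 hr⟩, Subtype.ext rfl⟩
      · intro n
        rw [← hη n]
        rfl
    have hexp : ∀ y, f y = ∑ χ : IrrCharacter G, classInner f (χ : G → ℂ) * (χ : G → ℂ) y := by
      intro y
      have := congrFun (Cfsg.Agent.Lib.Char.Complete.eq_sum_classInner f hfclass) y
      rw [this]
      simp [Finset.sum_apply]
    have hA2 : (∑ h : K, f h * conj ((η : K → ℂ) h)) =
        ∑ χ : IrrCharacter G, classInner f (χ : G → ℂ) * ((Nat.card K : ℂ) * (c χ : ℂ)) := by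
      have h1 : ∀ χ : IrrCharacter G, (Nat.card K : ℂ) * (c χ : ℂ) =
          ∑ h : K, (χ : G → ℂ) h * conj ((η : K → ℂ) h) := by
        intro χ
        rw [← hc χ, classInner, mul_inv_cancel_left₀ hK0]
      simp only [h1, Finset.mul_sum]
      rw [Finset.sum_comm]
      refine Finset.sum_congr rfl fun h _ => ?_
      rw [hexp (h : G), Finset.sum_mul]
      refine Finset.sum_congr rfl fun χ _ => ?_
      ring
    have hconj : ∀ χ : IrrCharacter G, conj (classInner f (χ : G → ℂ)) = (Nat.card G : ℂ)⁻¹ * t χ := by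
      intro χ
      rw [classInner, map_mul, map_inv₀, Complex.conj_natCast, map_sum]
      congr 1
      refine Finset.sum_congr rfl fun y _ => ?_
      rw [map_mul, hfreal, Complex.conj_conj]
    have hA3 : (∑ n : N, f n * (θ : N → ℂ) n) = conj (∑ n : N, f n * conj ((θ : N → ℂ) n)) := by
      rw [map_sum]
      refine Finset.sum_congr rfl fun n _ => ?_
      rw [map_mul, hfreal, Complex.conj_conj]
    rw [hA3, ← hA1, hA2, map_sum, Finset.mul_sum]
    refine Finset.sum_congr rfl fun χ _ => ?_
    rw [map_mul, map_mul, hconj, Complex.conj_natCast, Complex.conj_natCast]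
    rw [← hcard]
    field_simp
  -- the left side is a unit
  have hθ0 : MemLocalRing M (omega (θ : N → ℂ) (regT p N)) := memLocalRing_omega θ.2 regT_mem_localCenter
  have hθ1 : ¬ MemLocalIdeal M (omega (θ : N → ℂ) (regT p N)) := not_memLocalIdeal_omega_regT hM hθ
  have hdegθ : (θ : N → ℂ) 1 = (charDegree (θ : N → ℂ) : ℂ) :=
    (Cfsg.Agent.Lib.Char.Values.IsCharacter.charDegree_cast (isCharacter_of_isIrrCharacter θ.2)).symm
  have hidx : ¬ p ∣ K.index := fun h =>
    P.not_dvd_index (h.trans (Subgroup.index_dvd_of_le (le_sup_right : (P : Subgroup G) ≤ K)))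
  have hL : ¬ MemLocalIdeal M ((K.index : ℂ) * ∑ n : N, f n * (θ : N → ℂ) n) := by
    rw [homegaN, hdegθ]
    refine not_memLocalIdeal_mul (memLocalRing_natCast _) (memLocalRing_mul hθ0 (memLocalRing_natCast _))
      ?_ ?_
    · rw [memLocalIdeal_natCast_iff hM]
      exact hidx
    · refine not_memLocalIdeal_mul hθ0 (memLocalRing_natCast _) hθ1 ?_
      rw [memLocalIdeal_natCast_iff hM]
      exact hdeg
  -- conclude
  by_contra hcon
  push_neg at hcon
  apply hL
  rw [hkey]
  refine memLocalIdeal_sum _ _ fun χ _ => ?_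
  by_cases hχ : χ ∈ principalBlock M G
  · by_cases hc0 : c χ = 0
    · rw [hc0]
      simpa using memLocalIdeal_zero
    · have hne : classInner (fun h : K => (χ : G → ℂ) h) (η : K → ℂ) ≠ 0 := by
        rw [hc χ]
        exact_mod_cast hc0
      have hres := constituent_res (Subgroup.inclusion (le_sup_left : N ≤ K))
        (fun h : K => (χ : G → ℂ) h) (isCharacter_restrict (isCharacter_of_isIrrCharacter χ.2) K)
        η θ hη hne
      have hdvd : p ∣ charDegree (χ : G → ℂ) := by
        by_contra hnd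
        exact hres (hcon χ hχ hnd)
      have hdegχ : (χ : G → ℂ) 1 = (charDegree (χ : G → ℂ) : ℂ) :=
        (Cfsg.Agent.Lib.Char.Values.IsCharacter.charDegree_cast (isCharacter_of_isIrrCharacter χ.2)).symm
      rw [homega, hdegχ]
      refine memLocalIdeal_mul_right (memLocalIdeal_mul_left (memLocalRing_omega χ.2 regT_mem_localCenter)
        ((memLocalIdeal_natCast_iff hM).2 hdvd)) (memLocalRing_natCast _)
  · rw [homega, omega_regT_eq_zero hM hχ]
    simpa using memLocalIdeal_zero

end Cfsg.Agent.S4583
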