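import Cfsg.Statements.S4584
import Mathlib
-- import your own Cfsg.Agent.* helpers here

set_option autoImplicit false
open Cfsg

namespace Cfsg.Agent.S4584

open Subgroup
open scoped commutatorElement

section
variable {P : Type*} [Group P]

/-- A proper inclusion of subgroups of a finite `p`-group multiplies the order by at least `p`. -/
theorem card_mul_le [Finite P] {p : ℕ} [hp : Fact p.Prime] (hP : IsPGroup p P) {A B : Subgroup P}
    (hAB : A ≤ B) {b : P} (hb : b ∈ B) (hbA : b ∉ A) : p * Nat.card A ≤ Nat.card B := by
  obtain ⟨n, hn⟩ := (hP.to_subgroup B).index (A.subgroupOf B)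
  have h2 : A.relIndex B = p ^ n := hn
  have h3 : n ≠ 0 := by
    rintro rfl
    rw [pow_zero] at h2
    exact hbA (Subgroup.relIndex_eq_one.1 h2 hb)
  have h4 : p ≤ p ^ n := Nat.le_self_pow h3 p
  have h5 : A.relIndex B * B.index = A.index := Subgroup.relIndex_mul_index hAB
  have h6 : Nat.card A * A.index = Nat.card P := Subgroup.card_mul_index A
  have h7 : Nat.card B * B.index = Nat.card P := Subgroup.card_mul_index B
  have h8 : 0 < B.index := Nat.pos_of_ne_zero Subgroup.index_ne_zero_of_finite
  have h9 : Nat.card B = A.relIndex B * Nat.card A := by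
    apply Nat.eq_of_mul_eq_mul_right h8
    rw [h7, ← h6, ← h5]
    ring
  rw [h9, h2]
  exact Nat.mul_le_mul_right _ h4

theorem commutator_mem_center {hc : commutator P ≤ center P} (a b : P) : ⁅a, b⁆ ∈ center P := by
  apply hc
  rw [_root_.commutator_def]
  exact Subgroup.commutator_mem_commutator (mem_top a) (mem_top b)

/-- With central commutators, the commutator is multiplicative in the first variable. -/
theorem comm_mul_left (hc : commutator P ≤ center P) (a b c : P) :
    ⁅a * b, c⁆ = ⁅a, c⁆ * ⁅b, c⁆ := by
  have h := mem_center_iff.1 (commutator_mem_center (hc := hc) b c) a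
  have h' := mem_center_iff.1 (commutator_mem_center (hc := hc) b c) ⁅a, c⁆
  rw [h']
  calc ⁅a * b, c⁆ = (a * ⁅b, c⁆) * (c * a⁻¹ * c⁻¹) := by
        simp only [commutatorElement_def]; group
    _ = (⁅b, c⁆ * a) * (c * a⁻¹ * c⁻¹) := by rw [h]
    _ = ⁅b, c⁆ * ⁅a, c⁆ := by simp only [commutatorElement_def]; group

/-- With central commutators, `u ↦ ⁅u, v⁆` is a homomorphism. -/
def comRight (hc : commutator P ≤ center P) (v : P) : P →* P :=
  MonoidHom.mk' (fun u => ⁅u, v⁆) (fun a b => comm_mul_left hc a b v)

@[simp] theorem comRight_apply (hc : commutator P ≤ center P) (v u : P) :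
    comRight hc v u = ⁅u, v⁆ := rfl

/-- A normal subgroup of prime order `p` of a finite `p`-group is central. -/
theorem le_center_of_card_eq_prime [Finite P] {p : ℕ} [hp : Fact p.Prime] (hP : IsPGroup p P)
    (N : Subgroup P) [N.Normal] (hN : Nat.card N = p) : N ≤ center P := by
  have hP' : IsPGroup p (ConjAct P) := hP.of_equiv ConjAct.toConjAct
  have hdvd : p ∣ Nat.card N := by rw [hN]
  have hfix : (1 : N) ∈ MulAction.fixedPoints (ConjAct P) N := by
    intro g
    exact smul_one g
  obtain ⟨b, hb, hne⟩ := hP'.exists_fixed_point_of_prime_dvd_card_of_fixed_point N hdvd hfix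
  have hbc : (b : P) ∈ center P := by
    rw [mem_center_iff]
    intro g
    have h1 := hb (ConjAct.toConjAct g)
    have h2 : (ConjAct.toConjAct g) • (b : P) = b := congrArg Subtype.val h1
    rw [ConjAct.smul_def, ConjAct.ofConjAct_toConjAct] at h2
    calc g * b = (g * b * g⁻¹) * g := by group
      _ = b * g := by rw [h2]
  intro n hn
  have h3 : (⟨n, hn⟩ : N) ∈ zpowers b := mem_zpowers_of_prime_card hN (Ne.symm hne)
  obtain ⟨k, hk⟩ := h3
  have h4 : (b : P) ^ k = n := congrArg Subtype.val hk
  rw [← h4]
  exact zpow_mem hbc k

end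

/-- Let p be a prime and P a group of order p^4. Then the derived subgroup P' has order p if and only if the centre Z(P) has index p^2 in P. -/
theorem result {P : Type*} [Group P] [Finite P] (p : ℕ) [Fact p.Prime] (hP : Nat.card P = p ^ 4) :
    Nat.card (commutator P) = p ↔ (Subgroup.center P).index = p ^ 2 := by
  have hp : p.Prime := Fact.out
  have hp0 : 0 < p := hp.pos
  have hPp : IsPGroup p P := IsPGroup.of_card hP
  have hZ : Nat.card (center P) * (center P).index = p ^ 4 := by
    rw [← hP]; exact Subgroup.card_mul_index _
  constructor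
  · intro h
    -- `P'` is central
    have hc : commutator P ≤ center P := le_center_of_card_eq_prime hPp _ h
    -- a noncommuting pair
    obtain ⟨x, y, hxy⟩ : ∃ x y : P, x * y ≠ y * x := by
      by_contra hcon
      push_neg at hcon
      have : commutator P = ⊥ := by
        rw [_root_.commutator_def, eq_bot_iff, Subgroup.commutator_le]
        intro a _ b _
        rw [mem_bot, commutatorElement_eq_one_iff_mul_comm]
        exact hcon a b
      rw [this, Subgroup.card_bot] at h
      exact hp.one_lt.ne h
    have hxyc : x ∉ centralizer ({y} : Set P) := by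
      rw [mem_centralizer_singleton_iff]
      exact hxy
    have hyxc : y ∉ centralizer ({x} : Set P) := by
      rw [mem_centralizer_singleton_iff]
      exact fun h' => hxy h'.symm
    have hxx : x ∈ centralizer ({x} : Set P) := by
      rw [mem_centralizer_singleton_iff]
    have hyy : y ∈ centralizer ({y} : Set P) := by
      rw [mem_centralizer_singleton_iff]
    set E : Subgroup P := centralizer ({x} : Set P) ⊓ centralizer ({y} : Set P) with hE
    -- the chain lemma
    have hchain : ∀ T : Subgroup P, E ≤ T → x ∈ T → y ∈ T → p ^ 2 * Nat.card E ≤ Nat.card T := by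
      intro T hET hxT hyT
      have h1 : p * Nat.card E ≤ Nat.card (T ⊓ centralizer ({x} : Set P) : Subgroup P) :=
        card_mul_le hPp (le_inf hET inf_le_left) (b := x) ⟨hxT, hxx⟩ (fun h' => hxyc h'.2)
      have h2 : p * Nat.card (T ⊓ centralizer ({x} : Set P) : Subgroup P) ≤ Nat.card T :=
        card_mul_le hPp inf_le_left (b := y) hyT (fun h' => hyxc h'.2)
      calc p ^ 2 * Nat.card E = p * (p * Nat.card E) := by ring
        _ ≤ p * Nat.card (T ⊓ centralizer ({x} : Set P) : Subgroup P) := Nat.mul_le_mul_left _ h1
        _ ≤ Nat.card T := h2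
    -- `E` has order at most `p²`
    have hE1 : Nat.card E ≤ p ^ 2 := by
      have h1 := hchain ⊤ le_top (mem_top x) (mem_top y)
      rw [Subgroup.card_top, hP] at h1
      have h2 : p ^ 4 = p ^ 2 * p ^ 2 := by ring
      rw [h2] at h1
      exact Nat.le_of_mul_le_mul_left h1 (by positivity)
    -- `E` has order at least `p²`
    have hE2 : p ^ 2 ≤ Nat.card E := by
      let Φ : P →* P × P := (comRight hc x).prod (comRight hc y)
      have hker : Φ.ker = E := by
        ext u
        rw [MonoidHom.mem_ker, hE, mem_inf, mem_centralizer_singleton_iff,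
          mem_centralizer_singleton_iff]
        simp only [Φ, MonoidHom.prod_apply, Prod.mk_eq_one, comRight_apply,
          commutatorElement_eq_one_iff_mul_comm]
      have hrange : Φ.range ≤ (commutator P).prod (commutator P) := by
        rintro _ ⟨u, rfl⟩
        refine ⟨?_, ?_⟩
        · show ⁅u, x⁆ ∈ commutator P
          rw [_root_.commutator_def]
          exact Subgroup.commutator_mem_commutator (mem_top _) (mem_top _)
        · show ⁅u, y⁆ ∈ commutator P
          rw [_root_.commutator_def]
          exact Subgroup.commutator_mem_commutator (mem_top _) (mem_top _)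
      have h1 : Nat.card Φ.range ≤ p ^ 2 := by
        calc Nat.card Φ.range ≤ Nat.card ((commutator P).prod (commutator P) : Subgroup (P × P)) :=
              Subgroup.card_le_of_le hrange
          _ = Nat.card (commutator P) * Nat.card (commutator P) := by
              rw [Nat.card_congr (Subgroup.prodEquiv _ _).toEquiv, Nat.card_prod]
          _ = p ^ 2 := by rw [h]; ring
      have h2 : Nat.card Φ.ker * Nat.card Φ.range = p ^ 4 := by
        rw [← hP, ← Subgroup.index_ker]
        exact Subgroup.card_mul_index _
      rw [hker] at h2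
      by_contra hlt
      push_neg at hlt
      have h3 : Nat.card E * Nat.card Φ.range < p ^ 2 * p ^ 2 := by
        calc Nat.card E * Nat.card Φ.range ≤ Nat.card E * p ^ 2 := Nat.mul_le_mul_left _ h1
          _ < p ^ 2 * p ^ 2 := Nat.mul_lt_mul_of_pos_right hlt (by positivity)
      rw [h2] at h3
      have h4 : p ^ 4 = p ^ 2 * p ^ 2 := by ring
      omega
    have hEcard : Nat.card E = p ^ 2 := le_antisymm hE1 hE2
    have hEcomm : IsMulCommutative E := IsPGroup.isMulCommutative_of_card_eq_prime_sq hEcard
    -- `E` is central
    have hEZ : E ≤ center P := by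
      intro e he
      have hcent : centralizer ({e} : Set P) = ⊤ := by
        apply Subgroup.eq_top_of_card_eq
        have hT := hchain (centralizer ({e} : Set P)) ?_ ?_ ?_
        · rw [hEcard] at hT
          apply le_antisymm (Subgroup.card_le_card_group _)
          rw [hP]
          calc p ^ 4 = p ^ 2 * p ^ 2 := by ring
            _ ≤ _ := hT
        · intro f hf
          rw [mem_centralizer_singleton_iff]
          have := hEcomm.is_comm.comm (⟨f, hf⟩ : E) ⟨e, he⟩
          exact congrArg Subtype.val this
        · rw [mem_centralizer_singleton_iff]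
          have : e ∈ centralizer ({x} : Set P) := he.1
          rw [mem_centralizer_singleton_iff] at this
          exact this.symm
        · rw [mem_centralizer_singleton_iff]
          have : e ∈ centralizer ({y} : Set P) := he.2
          rw [mem_centralizer_singleton_iff] at this
          exact this.symm
      rw [mem_center_iff]
      intro g
      have : g ∈ centralizer ({e} : Set P) := by rw [hcent]; exact mem_top g
      rw [mem_centralizer_singleton_iff] at this
      exact this
    have hZcard : p ^ 2 ≤ Nat.card (center P) := hEcard ▸ Subgroup.card_le_of_le hEZ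
    -- the index of the centre
    obtain ⟨k, hk⟩ := hPp.index (center P)
    have hk2 : k ≤ 2 := by
      by_contra hlt
      push_neg at hlt
      have h1 : p ^ 3 ≤ p ^ k := Nat.pow_le_pow_right hp0 hlt
      have h2 : p ^ 2 * p ^ 3 ≤ Nat.card (center P) * (center P).index := by
        rw [hk]; exact Nat.mul_le_mul hZcard h1
      rw [hZ] at h2
      have h3 : p ^ 4 < p ^ 5 := Nat.pow_lt_pow_right hp.one_lt (by norm_num)
      have h4 : p ^ 2 * p ^ 3 = p ^ 5 := by ring
      omega
    have hk0 : k ≠ 0 := by
      rintro rfl
      rw [pow_zero, Subgroup.index_eq_one] at hk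
      apply hxy
      have : x ∈ center P := by rw [hk]; exact mem_top x
      exact (mem_center_iff.1 this y).symm
    have hk1 : k ≠ 1 := by
      rintro rfl
      rw [pow_one] at hk
      have hcard : Nat.card (P ⧸ center P) = p := hk
      haveI : IsCyclic (P ⧸ center P) := isCyclic_of_prime_card hcard
      have hcomm : IsMulCommutative P :=
        (QuotientGroup.mk' (center P)).isMulCommutative_of_isCyclic_of_ker_le_center
          (by rw [QuotientGroup.ker_mk'])
      exact hxy (hcomm.is_comm.comm x y)
    have : k = 2 := by omega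
    rw [hk, this]
  · intro hi
    have hQcard : Nat.card (P ⧸ center P) = p ^ 2 := hi
    have hcomm : IsMulCommutative (P ⧸ center P) :=
      IsPGroup.isMulCommutative_of_card_eq_prime_sq hQcard
    have hc : commutator P ≤ center P :=
      Subgroup.Normal.quotient_commutative_iff_commutator_le.1 hcomm
    obtain ⟨x, hx⟩ : ∃ x : P, x ∉ center P := by
      by_contra hcon
      push_neg at hcon
      have h1 : center P = ⊤ := eq_top_iff.2 (fun x _ => hcon x)
      rw [h1, Subgroup.index_top] at hi
      have h2 : 1 < p ^ 2 := Nat.one_lt_pow (by norm_num) hp.one_lt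
      omega
    obtain ⟨y, hy⟩ : ∃ y : P, y * x ≠ x * y := by
      by_contra hcon
      push_neg at hcon
      exact hx (mem_center_iff.2 hcon)
    have hyc : y ∉ centralizer ({x} : Set P) := by
      rw [mem_centralizer_singleton_iff]
      exact hy
    have hxx : x ∈ centralizer ({x} : Set P) := by
      rw [mem_centralizer_singleton_iff]
    have hT : ∀ T : Subgroup P, center P ≤ T → x ∈ T → y ∈ T → T = ⊤ := by
      intro T hZT hxT hyT
      have h1 : p * Nat.card (center P) ≤ Nat.card (T ⊓ centralizer ({x} : Set P) : Subgroup P) :=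
        card_mul_le hPp (le_inf hZT (Subgroup.center_le_centralizer _)) (b := x) ⟨hxT, hxx⟩ hx
      have h2 : p * Nat.card (T ⊓ centralizer ({x} : Set P) : Subgroup P) ≤ Nat.card T :=
        card_mul_le hPp inf_le_left (b := y) hyT (fun h' => hyc h'.2)
      apply Subgroup.eq_top_of_card_eq
      apply le_antisymm (Subgroup.card_le_card_group _)
      rw [hP, ← hZ, hi]
      calc Nat.card (center P) * p ^ 2 = p * (p * Nat.card (center P)) := by ring
        _ ≤ p * Nat.card (T ⊓ centralizer ({x} : Set P) : Subgroup P) := Nat.mul_le_mul_left _ h1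
        _ ≤ Nat.card T := h2
    set c : P := ⁅x, y⁆ with hcdef
    have hc1 : c ≠ 1 := by
      rw [hcdef, Ne, commutatorElement_eq_one_iff_mul_comm]
      exact fun h' => hy h'.symm
    -- `x^p` is central
    have hxp : x ^ p ∈ center P := by
      let q : P →* P ⧸ center P := QuotientGroup.mk' (center P)
      have h1 : orderOf (q x) ∣ p ^ 2 := by
        rw [← hQcard]; exact orderOf_dvd_natCard _
      obtain ⟨k, hk, hk'⟩ := (Nat.dvd_prime_pow hp).1 h1
      have h2 : k ≠ 2 := by
        rintro rfl
        haveI : IsCyclic (P ⧸ center P) := isCyclic_of_orderOf_eq_card (q x) (by rw [hk', hQcard])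
        have hcomm' : IsMulCommutative P :=
          (QuotientGroup.mk' (center P)).isMulCommutative_of_isCyclic_of_ker_le_center
            (by rw [QuotientGroup.ker_mk'])
        exact hy (hcomm'.is_comm.comm y x)
      have h3 : orderOf (q x) ∣ p := by
        rw [hk']
        have : k ≤ 1 := by omega
        simpa using pow_dvd_pow p this
      have h4 : q x ^ p = 1 := orderOf_dvd_iff_pow_eq_one.1 h3
      rw [← map_pow] at h4
      exact (QuotientGroup.eq_one_iff _).1 h4
    have hcp : c ^ p = 1 := by
      have h1 : comRight hc y (x ^ p) = (comRight hc y x) ^ p := map_pow _ _ _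
      rw [comRight_apply, comRight_apply] at h1
      rw [hcdef, ← h1, commutatorElement_eq_one_iff_mul_comm]
      exact (mem_center_iff.1 hxp y).symm
    have ho : orderOf c = p := orderOf_eq_prime hcp hc1
    -- the subgroups `T_v`
    have hmem1 : ∀ v : P, ∀ z ∈ center P, ⁅z, v⁆ ∈ zpowers c := by
      intro v z hz
      have : ⁅z, v⁆ = 1 := by
        rw [commutatorElement_eq_one_iff_mul_comm]
        exact (mem_center_iff.1 hz v).symm
      rw [this]
      exact one_mem _
    have hinv : ∀ u v : P, ⁅u, v⁆ ∈ zpowers c → ⁅v, u⁆ ∈ zpowers c := by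
      intro u v h
      have : ⁅v, u⁆ = ⁅u, v⁆⁻¹ := by
        simp only [commutatorElement_def]; group
      rw [this]
      exact inv_mem h
    have hself : ∀ u : P, ⁅u, u⁆ ∈ zpowers c := by
      intro u
      have : ⁅u, u⁆ = 1 := commutatorElement_self u
      rw [this]
      exact one_mem _
    have hcmem : c ∈ zpowers c := mem_zpowers c
    have hTv : ∀ v : P, ⁅x, v⁆ ∈ zpowers c → ⁅y, v⁆ ∈ zpowers c → ∀ u : P, ⁅u, v⁆ ∈ zpowers c := by
      intro v h1 h2 u
      have h3 := hT ((zpowers c).comap (comRight hc v)) (fun z hz => hmem1 v z hz) h1 h2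
      have : u ∈ (zpowers c).comap (comRight hc v) := by rw [h3]; exact mem_top u
      exact this
    have hTx : ∀ u : P, ⁅u, x⁆ ∈ zpowers c := hTv x (hself x) (hinv _ _ hcmem)
    have hTy : ∀ u : P, ⁅u, y⁆ ∈ zpowers c := hTv y hcmem (hself y)
    have hall : ∀ u v : P, ⁅u, v⁆ ∈ zpowers c := by
      intro u v
      apply hTv v
      · exact hinv _ _ (hTx v)
      · exact hinv _ _ (hTy v)
    have hH : commutator P = zpowers c := by
      apply le_antisymm
      · rw [_root_.commutator_def, Subgroup.commutator_le]
        intro u _ v _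
        exact hall u v
      · rw [Subgroup.zpowers_le, _root_.commutator_def]
        exact Subgroup.commutator_mem_commutator (mem_top x) (mem_top y)
    rw [hH, Nat.card_zpowers, ho]

end Cfsg.Agent.S4584
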