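import Cfsg.Statements.S4585
import Mathlib
import Cfsg.Agent.S4584
-- import your own Cfsg.Agent.* helpers here

set_option autoImplicit false
open Cfsg

namespace Cfsg.Agent.S4585

open Subgroup
open scoped commutatorElement

section
variable {P : Type*} [Group P]

/-- In a finite nilpotent group, a nontrivial term of the lower central series strictly contains
the next one. -/
theorem lcs_succ_ne [Group.IsNilpotent P] (n : ℕ)
    (h : (⊤ : Subgroup P).lowerCentralSeries (n + 1) = (⊤ : Subgroup P).lowerCentralSeries n) :
    (⊤ : Subgroup P).lowerCentralSeries n = ⊥ := by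
  have h1 : ∀ m, (⊤ : Subgroup P).lowerCentralSeries (n + m) =
      (⊤ : Subgroup P).lowerCentralSeries n := by
    intro m
    induction m with
    | zero => rfl
    | succ k ih =>
      rw [← add_assoc, Subgroup.lowerCentralSeries_succ, ih, ← Subgroup.lowerCentralSeries_succ, h]
  have h2 : (⊤ : Subgroup P).lowerCentralSeries (n + Group.nilpotencyClass P) = ⊥ := by
    rw [Subgroup.lowerCentralSeries_eq_bot_iff_nilpotencyClass_le]
    omega
  rw [← h1 (Group.nilpotencyClass P), h2]

theorem commutator_le_of_isCyclic (N : Subgroup P) [N.Normal] (hN : N ≤ commutator P)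
    (hN2 : ⁅commutator P, (⊤ : Subgroup P)⁆ ≤ N) [IsCyclic (P ⧸ commutator P)] :
    commutator P ≤ N := by
  let q : P →* P ⧸ N := QuotientGroup.mk' N
  have hq : Function.Surjective q := QuotientGroup.mk'_surjective _
  let f : P ⧸ N →* P ⧸ commutator P := QuotientGroup.map N (commutator P) (MonoidHom.id P) hN
  have hf : f.ker ≤ Subgroup.center (P ⧸ N) := by
    intro a ha
    obtain ⟨y, rfl⟩ := hq a
    have hy : y ∈ commutator P := by
      have : f (q y) = (y : P ⧸ commutator P) := rfl
      rw [MonoidHom.mem_ker, this] at ha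
      exact (QuotientGroup.eq_one_iff y).1 ha
    rw [Subgroup.mem_center_iff]
    intro b
    obtain ⟨z, rfl⟩ := hq b
    have h1 : ⁅y, z⁆ ∈ N := hN2 (Subgroup.commutator_mem_commutator hy (mem_top z))
    have h2 : q ⁅y, z⁆ = 1 := (QuotientGroup.eq_one_iff _).2 h1
    rw [commutatorElement_def, map_mul, map_mul, map_mul, map_inv, map_inv] at h2
    have h3 : q y * q z * (q y)⁻¹ * (q z)⁻¹ * (q z * q y) = q z * q y := by rw [h2, one_mul]
    rw [← h3]
    group
  have hcomm : IsMulCommutative (P ⧸ N) := f.isMulCommutative_of_isCyclic_of_ker_le_center hf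
  exact (Subgroup.Normal.quotient_commutative_iff_commutator_le).1 hcomm

end

/-- Let p be a prime and P a group of order p^4. Then P' has index p^2 in P if and only if P has maximal nilpotency class, that is, nilpotency class exactly 3. -/
theorem result {P : Type*} [Group P] [Finite P] (p : ℕ) [Fact p.Prime] (hP : Nat.card P = p ^ 4) :
    (commutator P).index = p ^ 2 ↔ Group.nilpotencyClass P = 3 := by
  have hp : p.Prime := Fact.out
  have hp0 : 0 < p := hp.pos
  have hPp : IsPGroup p P := IsPGroup.of_card hP
  haveI hnil : Group.IsNilpotent P := hPp.isNilpotent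
  let L : ℕ → Subgroup P := (⊤ : Subgroup P).lowerCentralSeries
  have hL0 : L 0 = ⊤ := rfl
  have hL1 : L 1 = commutator P := Subgroup.top_lowerCentralSeries_one
  have hle : ∀ n, L (n + 1) ≤ L n := fun n =>
    Subgroup.lowerCentralSeries_antitone (⊤ : Subgroup P) (Nat.le_succ n)
  -- a strict step multiplies the order by at least `p`
  have hstep : ∀ n, L n ≠ ⊥ → p * Nat.card (L (n + 1)) ≤ Nat.card (L n) := by
    intro n hn
    have hne : L (n + 1) ≠ L n := fun h => hn (lcs_succ_ne n h)
    obtain ⟨b, hb, hb'⟩ := SetLike.exists_of_lt (lt_of_le_of_ne (hle n) hne)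
    exact Cfsg.Agent.S4584.card_mul_le hPp (hle n) hb hb'
  have hcard_index : Nat.card (commutator P) * (commutator P).index = p ^ 4 := by
    rw [← hP]; exact Subgroup.card_mul_index _
  have hbot : ∀ n, L n = ⊥ ↔ Group.nilpotencyClass P ≤ n := fun n =>
    Subgroup.lowerCentralSeries_eq_bot_iff_nilpotencyClass_le
  constructor
  · intro hi
    have hcard : Nat.card (commutator P) = p ^ 2 := by
      rw [hi] at hcard_index
      have h1 : p ^ 4 = p ^ 2 * p ^ 2 := by ring
      rw [h1] at hcard_index
      exact Nat.eq_of_mul_eq_mul_right (by positivity) hcard_index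
    -- `L 2 ≠ ⊥`
    have hL2 : L 2 ≠ ⊥ := by
      intro hL2
      have hc : commutator P ≤ center P := by
        intro y hy
        rw [mem_center_iff]
        intro g
        have h1 : ⁅y, g⁆ ∈ L 2 := by
          have : y ∈ L 1 := by rw [hL1]; exact hy
          exact Subgroup.commutator_mem_commutator this (mem_top g)
        rw [hL2, mem_bot, commutatorElement_eq_one_iff_mul_comm] at h1
        exact h1.symm
      have h1 : (center P).index ∣ p ^ 2 := by
        rw [← hi]
        exact Subgroup.index_dvd_of_le hc
      obtain ⟨k, hk, hk'⟩ := (Nat.dvd_prime_pow hp).1 h1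
      have hne : ¬ IsMulCommutative P := by
        intro hcomm
        have : commutator P = ⊥ := by
          rw [_root_.commutator_def, eq_bot_iff, Subgroup.commutator_le]
          intro a _ b _
          rw [mem_bot, commutatorElement_eq_one_iff_mul_comm]
          exact hcomm.is_comm.comm a b
        rw [this, Subgroup.card_bot] at hcard
        have h2 : 1 < p ^ 2 := Nat.one_lt_pow (by norm_num) hp.one_lt
        omega
      have hk0 : k ≠ 0 := by
        rintro rfl
        rw [pow_zero, Subgroup.index_eq_one] at hk'
        apply hne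
        refine ⟨⟨fun a b => ?_⟩⟩
        have : a ∈ center P := by rw [hk']; exact mem_top a
        exact (mem_center_iff.1 this b).symm
      have hk1 : k ≠ 1 := by
        rintro rfl
        rw [pow_one] at hk'
        have hcardq : Nat.card (P ⧸ center P) = p := hk'
        haveI : IsCyclic (P ⧸ center P) := isCyclic_of_prime_card hcardq
        exact hne ((QuotientGroup.mk' (center P)).isMulCommutative_of_isCyclic_of_ker_le_center
          (by rw [QuotientGroup.ker_mk']))
      have hk2 : k = 2 := by omega
      rw [hk2] at hk'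
      have h5 := (Cfsg.Agent.S4584.result p hP).2 hk'
      rw [hcard] at h5
      have h6 : p ^ 1 < p ^ 2 := Nat.pow_lt_pow_right hp.one_lt (by norm_num)
      rw [pow_one] at h6
      omega
    -- `L 3 = ⊥`
    have hL3 : L 3 = ⊥ := by
      have h1 : L 1 ≠ ⊥ := by
        intro h
        apply hL2
        rw [eq_bot_iff, ← h]
        exact hle 1
      have h2 := hstep 1 h1
      have h3 := hstep 2 hL2
      rw [hL1, hcard] at h2
      have h4 : p * (p * Nat.card (L 3)) ≤ p ^ 2 :=
        le_trans (Nat.mul_le_mul_left _ h3) h2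
      have h5 : Nat.card (L 3) ≤ 1 := by
        have h6 : p ^ 2 * Nat.card (L 3) ≤ p ^ 2 * 1 := by
          calc p ^ 2 * Nat.card (L 3) = p * (p * Nat.card (L 3)) := by ring
            _ ≤ p ^ 2 := h4
            _ = p ^ 2 * 1 := by ring
        exact Nat.le_of_mul_le_mul_left h6 (by positivity)
      have h7 : Nat.card (L 3) = 1 := le_antisymm h5 Nat.card_pos
      exact Subgroup.eq_bot_of_card_eq _ h7
    have h1 : Group.nilpotencyClass P ≤ 3 := (hbot 3).1 hL3
    have h2 : ¬ Group.nilpotencyClass P ≤ 2 := fun h => hL2 ((hbot 2).2 h)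
    omega
  · intro hcl
    have hL3 : L 3 = ⊥ := (hbot 3).2 (by omega)
    have hL2 : L 2 ≠ ⊥ := fun h => by
      have := (hbot 2).1 h
      omega
    have hL1' : L 1 ≠ ⊥ := by
      intro h
      apply hL2
      rw [eq_bot_iff, ← h]
      exact hle 1
    have hL0' : L 0 ≠ ⊥ := by
      intro h
      apply hL2
      rw [eq_bot_iff, ← h]
      exact le_trans (hle 1) (hle 0)
    have h2 := hstep 1 hL1'
    have h1 := hstep 0 hL0'
    have hL2pos : 1 ≤ Nat.card (L 2) := Nat.card_pos
    have hL2ne : 1 < Nat.card (L 2) := by
      rcases Nat.lt_or_ge 1 (Nat.card (L 2)) with h | h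
      · exact h
      · exfalso
        exact hL2 (Subgroup.eq_bot_of_card_eq _ (le_antisymm h hL2pos))
    have hL2p : p ≤ Nat.card (L 2) := by
      haveI : Nontrivial (L 2) := Finite.one_lt_card_iff_nontrivial.1 hL2ne
      obtain ⟨n, hn0, hn⟩ := (hPp.to_subgroup (L 2)).nontrivial_iff_card.1 this
      rw [hn]
      exact Nat.le_self_pow (by omega) p
    have hbig : p ^ 2 ≤ Nat.card (commutator P) := by
      rw [← hL1]
      calc p ^ 2 = p * p := by ring
        _ ≤ p * Nat.card (L 2) := Nat.mul_le_mul_left _ hL2p
        _ ≤ Nat.card (L 1) := h2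
    obtain ⟨k, hk⟩ := hPp.index (commutator P)
    have hk2 : k ≤ 2 := by
      by_contra hlt
      push_neg at hlt
      have h3 : p ^ 3 ≤ p ^ k := Nat.pow_le_pow_right hp0 hlt
      have h4 : p ^ 2 * p ^ 3 ≤ Nat.card (commutator P) * (commutator P).index := by
        rw [hk]; exact Nat.mul_le_mul hbig h3
      rw [hcard_index] at h4
      have h5 : p ^ 4 < p ^ 5 := Nat.pow_lt_pow_right hp.one_lt (by norm_num)
      have h6 : p ^ 2 * p ^ 3 = p ^ 5 := by ring
      omega
    have hk0 : k ≠ 0 := by
      rintro rfl
      rw [pow_zero, Subgroup.index_eq_one] at hk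
      have h3 : L 1 = L 0 := by rw [hL1, hL0, hk]
      exact hL0' (lcs_succ_ne 0 h3)
    have hk1 : k ≠ 1 := by
      rintro rfl
      rw [pow_one] at hk
      have hcardq : Nat.card (P ⧸ commutator P) = p := hk
      haveI : IsCyclic (P ⧸ commutator P) := isCyclic_of_prime_card hcardq
      haveI : (L 2).Normal := by
        have : (L 2).Characteristic := inferInstance
        infer_instance
      have h3 : commutator P ≤ L 2 := by
        apply commutator_le_of_isCyclic (L 2)
        · rw [← hL1]; exact hle 1
        · rw [← hL1]; exact le_rfl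
      have h4 : L 2 = L 1 := le_antisymm (hle 1) (by rw [hL1]; exact h3)
      exact hL1' (lcs_succ_ne 1 h4)
    have : k = 2 := by omega
    rw [hk, this]

end Cfsg.Agent.S4585
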