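import Cfsg.Statements.S4586
import Mathlib
-- import your own Cfsg.Agent.* helpers here

set_option autoImplicit false
open Cfsg

namespace Cfsg.Agent.S4586

open Subgroup
open scoped commutatorElement

section
variable {P : Type*} [Group P]

/-- A subgroup containing a subgroup of prime index and an element outside it is everything. -/
theorem eq_top_of_le_of_mem [Finite P] {p : ℕ} [hp : Fact p.Prime] {N H : Subgroup P}
    (hN : N.index = p) (hNH : N ≤ H) {x : P} (hxH : x ∈ H) (hx : x ∉ N) : H = ⊤ := by
  have h1 : N.relIndex H * H.index = N.index := Subgroup.relIndex_mul_index hNH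
  rw [hN] at h1
  have h2 : H.index ∣ p := ⟨_, by rw [← h1]; ring⟩
  rcases (Nat.dvd_prime hp.out).1 h2 with h3 | h3
  · exact Subgroup.index_eq_one.1 h3
  · exfalso
    rw [h3] at h1
    have h4 : N.relIndex H = 1 := by
      have := hp.out.pos
      nlinarith
    have h5 : H ≤ N := Subgroup.relIndex_eq_one.1 h4
    exact hx (h5 hxH)

/-- The commutator `x n x⁻¹ n⁻¹` as an element of the normal subgroup `N`. -/
def comEl (N : Subgroup P) [hN : N.Normal] (x : P) (n : N) : N :=
  ⟨x * n * x⁻¹ * (n : P)⁻¹, N.mul_mem (hN.conj_mem n n.2 x) (N.inv_mem n.2)⟩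

@[simp] theorem comEl_coe (N : Subgroup P) [N.Normal] (x : P) (n : N) :
    ((comEl N x n : N) : P) = x * n * x⁻¹ * (n : P)⁻¹ := rfl

/-- The commutator map modulo `N'` is a homomorphism. -/
noncomputable def comHom (N : Subgroup P) [N.Normal] (x : P) : N →* Abelianization N :=
  MonoidHom.mk' (fun n => Abelianization.of (comEl N x n)) (by
    intro a b
    have h : comEl N x (a * b) = comEl N x a * (a * comEl N x b * a⁻¹) := by
      apply Subtype.ext
      simp only [comEl_coe, Subgroup.coe_mul, Subgroup.coe_inv]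
      group
    rw [h, map_mul, map_mul, map_mul, map_inv, mul_comm (Abelianization.of a),
      mul_inv_cancel_right])

theorem comHom_apply (N : Subgroup P) [N.Normal] (x : P) (n : N) :
    comHom N x n = Abelianization.of (comEl N x n) := rfl

theorem mem_ker_comHom (N : Subgroup P) [N.Normal] (x : P) (n : N) :
    n ∈ (comHom N x).ker ↔ x * n * x⁻¹ * (n : P)⁻¹ ∈ (commutator N).map N.subtype := by
  rw [MonoidHom.mem_ker, comHom_apply, ← MonoidHom.mem_ker, Abelianization.ker_of]
  constructor
  · intro h
    exact ⟨_, h, rfl⟩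
  · rintro ⟨c, hc, hc'⟩
    have : c = comEl N x n := Subtype.ext hc'
    rwa [← this]

/-- The subgroup `[N,x] N'` of `N`. -/
noncomputable def D₀ (N : Subgroup P) [N.Normal] (x : P) : Subgroup N :=
  (comHom N x).range.comap Abelianization.of

/-- The subgroup `[N,x] N'`, in `P`. -/
noncomputable def D (N : Subgroup P) [N.Normal] (x : P) : Subgroup P :=
  (D₀ N x).map N.subtype

theorem comEl_mem_D₀ (N : Subgroup P) [N.Normal] (x : P) (n : N) : comEl N x n ∈ D₀ N x :=
  ⟨n, rfl⟩

theorem comm_le_D₀ (N : Subgroup P) [N.Normal] (x : P) : commutator N ≤ D₀ N x := by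
  intro c hc
  have : Abelianization.of c = 1 := by
    rw [← MonoidHom.mem_ker, Abelianization.ker_of]; exact hc
  show Abelianization.of c ∈ (comHom N x).range
  rw [this]
  exact one_mem _

theorem D_le_N (N : Subgroup P) [N.Normal] (x : P) : D N x ≤ N := by
  rintro _ ⟨n, _, rfl⟩
  exact n.2

theorem comm_N_le_D (N : Subgroup P) [N.Normal] (x : P) : ⁅N, N⁆ ≤ D N x := by
  rw [← Subgroup.map_subtype_commutator]
  exact Subgroup.map_mono (comm_le_D₀ N x)

theorem D_le_commutator (N : Subgroup P) [N.Normal] (x : P) : D N x ≤ commutator P := by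
  rintro _ ⟨n, hn, rfl⟩
  obtain ⟨m, hm⟩ := hn
  -- `of (comEl m) = of n`
  have h1 : Abelianization.of ((comEl N x m)⁻¹ * n) = 1 := by
    rw [map_mul, map_inv, ← comHom_apply]
    show _ * Abelianization.of n = 1
    rw [← hm]
    exact inv_mul_cancel _
  rw [← MonoidHom.mem_ker, Abelianization.ker_of] at h1
  have h2 : ((((comEl N x m)⁻¹ * n : N)) : P) ∈ commutator P := by
    have h3 : ⁅N, N⁆ ≤ commutator P := by
      rw [commutator_def]
      exact Subgroup.commutator_mono le_top le_top
    apply h3
    rw [← Subgroup.map_subtype_commutator]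
    exact ⟨_, h1, rfl⟩
  have h4 : ((comEl N x m : N) : P) ∈ commutator P := by
    rw [commutator_def]
    exact Subgroup.commutator_mem_commutator (mem_top x) (mem_top (m : P))
  have h5 : ((n : N) : P) = ((comEl N x m : N) : P) * (((comEl N x m)⁻¹ * n : N) : P) := by
    rw [← Subgroup.coe_mul, mul_inv_cancel_left]
  show ((n : N) : P) ∈ commutator P
  rw [h5]
  exact mul_mem h4 h2

theorem D_normal [Finite P] {p : ℕ} [Fact p.Prime] (N : Subgroup P) [hNn : N.Normal]
    (hN : N.index = p) (x : P) (hx : x ∉ N) : (D N x).Normal := by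
  rw [← Subgroup.normalizer_eq_top_iff]
  refine eq_top_of_le_of_mem hN ?_ (x := x) ?_ hx
  · rw [Subgroup.le_normalizer_iff_commutator_le_right]
    calc ⁅N, D N x⁆ ≤ ⁅N, N⁆ := Subgroup.commutator_mono le_rfl (D_le_N N x)
      _ ≤ D N x := comm_N_le_D N x
  · rw [Subgroup.mem_normalizer_iff]
    intro h
    have key : ∀ n : N, x * (n : P) * x⁻¹ = ((comEl N x n : N) : P) * n := by
      intro n
      simp [comEl_coe]
    constructor
    · rintro ⟨n, hn, rfl⟩
      show x * (n : P) * x⁻¹ ∈ D N x
      rw [key]
      exact ⟨comEl N x n * n, mul_mem (comEl_mem_D₀ N x n) hn, rfl⟩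
    · intro hh
      have hhN : h ∈ N := by
        have := D_le_N N x hh
        have h2 := hNn.conj_mem _ this x⁻¹
        simpa [mul_assoc] using h2
      have h3 := key ⟨h, hhN⟩
      simp only at h3
      rw [h3] at hh
      obtain ⟨m, hm, hm'⟩ := hh
      have : m = comEl N x ⟨h, hhN⟩ * ⟨h, hhN⟩ := Subtype.ext hm'
      rw [this] at hm
      have h4 := (Subgroup.mul_mem_cancel_left (D₀ N x) (comEl_mem_D₀ N x ⟨h, hhN⟩)).1 hm
      exact ⟨_, h4, rfl⟩

theorem commutator_le_D [Finite P] {p : ℕ} [hp : Fact p.Prime] (N : Subgroup P) [hNn : N.Normal]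
    (hN : N.index = p) (x : P) (hx : x ∉ N) : commutator P ≤ D N x := by
  haveI := D_normal N hN x hx
  let q : P →* P ⧸ D N x := QuotientGroup.mk' (D N x)
  have hq : Function.Surjective q := QuotientGroup.mk'_surjective _
  let f : P ⧸ D N x →* P ⧸ N := QuotientGroup.map (D N x) N (MonoidHom.id P) (D_le_N N x)
  haveI : IsCyclic (P ⧸ N) := by
    have hcard : Nat.card (P ⧸ N) = p := hN
    haveI : Fact (Nat.card (P ⧸ N)).Prime := ⟨by rw [hcard]; exact hp.out⟩
    exact isCyclic_of_prime_card rfl
  have hf : f.ker ≤ Subgroup.center (P ⧸ D N x) := by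
    intro a ha
    obtain ⟨y, rfl⟩ := hq a
    have hy : y ∈ N := by
      have : f (q y) = (y : P ⧸ N) := rfl
      rw [MonoidHom.mem_ker, this] at ha
      exact (QuotientGroup.eq_one_iff y).1 ha
    -- centralizer of `q y` contains `N` and `x`
    let S : Subgroup P := (Subgroup.centralizer {q y}).comap q
    have hS : S = ⊤ := by
      refine eq_top_of_le_of_mem hN ?_ (x := x) ?_ hx
      · intro m hm
        show q m ∈ Subgroup.centralizer {q y}
        rw [Subgroup.mem_centralizer_singleton_iff]
        have h1 : ⁅m, y⁆ ∈ D N x := comm_N_le_D N x (Subgroup.commutator_mem_commutator hm hy)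
        have h2 : q ⁅m, y⁆ = 1 := (QuotientGroup.eq_one_iff _).2 h1
        rw [commutatorElement_def, map_mul, map_mul, map_mul, map_inv, map_inv] at h2
        have h3 : q m * q y * (q m)⁻¹ * (q y)⁻¹ * (q y * q m) = q y * q m := by rw [h2, one_mul]
        rw [← h3]
        group
      · show q x ∈ Subgroup.centralizer {q y}
        rw [Subgroup.mem_centralizer_singleton_iff]
        have h1 : x * y * x⁻¹ * y⁻¹ ∈ D N x :=
          ⟨comEl N x ⟨y, hy⟩, comEl_mem_D₀ N x _, rfl⟩
        have h2 : q (x * y * x⁻¹ * y⁻¹) = 1 := (QuotientGroup.eq_one_iff _).2 h1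
        rw [map_mul, map_mul, map_mul, map_inv, map_inv] at h2
        have h3 : q x * q y * (q x)⁻¹ * (q y)⁻¹ * (q y * q x) = q y * q x := by rw [h2, one_mul]
        rw [← h3]
        group
    rw [Subgroup.mem_center_iff]
    intro b
    obtain ⟨z, rfl⟩ := hq b
    have hz : z ∈ S := by rw [hS]; exact mem_top z
    have hz' : q z ∈ Subgroup.centralizer {q y} := hz
    rw [Subgroup.mem_centralizer_singleton_iff] at hz'
    exact hz'
  have hcomm : IsMulCommutative (P ⧸ D N x) :=
    f.isMulCommutative_of_isCyclic_of_ker_le_center hf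
  exact (Subgroup.Normal.quotient_commutative_iff_commutator_le).1 hcomm

theorem commutator_eq_D [Finite P] {p : ℕ} [Fact p.Prime] (N : Subgroup P) [N.Normal]
    (hN : N.index = p) (x : P) (hx : x ∉ N) : commutator P = D N x :=
  le_antisymm (commutator_le_D N hN x hx) (D_le_commutator N x)

/-- The key formula `[P : P'] · |N'| = p · c(x)` for all `x` outside `N`. -/
theorem key_formula [Finite P] {p : ℕ} [Fact p.Prime] (N : Subgroup P) [N.Normal]
    (hN : N.index = p) (x : P) (hx : x ∉ N) :
    (commutator P).index * Nat.card (commutator N) =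
      p * Nat.card {n : N // x * n * x⁻¹ * (n : P)⁻¹ ∈ (commutator N).map N.subtype} := by
  have h0 : Nat.card {n : N // x * n * x⁻¹ * (n : P)⁻¹ ∈ (commutator N).map N.subtype} =
      Nat.card (comHom N x).ker :=
    Nat.card_congr (Equiv.subtypeEquivRight (fun n => (mem_ker_comHom N x n).symm))
  rw [h0, commutator_eq_D N hN x hx, D, Subgroup.index_map_subtype, hN, D₀,
    Subgroup.index_comap_of_surjective _ (f := Abelianization.of)
      (QuotientGroup.mk'_surjective _)]
  set R := (comHom N x).range with hR
  have h1 : Nat.card (comHom N x).ker * Nat.card R = Nat.card N := by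
    rw [hR, ← Subgroup.index_ker]
    exact Subgroup.card_mul_index _
  have h2 : Nat.card (commutator N) * Nat.card (Abelianization N) = Nat.card N :=
    Subgroup.card_mul_index (commutator N)
  have h3 : R.index * Nat.card R = Nat.card (Abelianization N) := Subgroup.index_mul_card R
  have h4 : 0 < Nat.card R := Nat.card_pos
  have h5 : R.index * Nat.card (commutator N) = Nat.card (comHom N x).ker := by
    apply Nat.eq_of_mul_eq_mul_right h4
    rw [h1, ← h2, ← h3]
    ring
  rw [← h5]
  ring

end

/-- Let p be a prime, P a finite p-group and N a normal subgroup of P of index p. For x ∈ P write c(x) for the number of elements n of N whose commutator x n x⁻¹ n⁻¹ lies in the derived subgroup N' (so c(x)/#N' is the order of the centralizer of x acting on N/N'). Then [P : P'] = p² if and only if c(x) = p·#N' for every x ∈ P outside N, and also if and only if c(x) = p·#N' for some x ∈ P outside N. -/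
theorem result {P : Type*} [Group P] [Finite P] (p : ℕ) [Fact p.Prime] (hP : IsPGroup p P) (N : Subgroup P) [N.Normal] (hN : N.index = p) :
    ((commutator P).index = p ^ 2 ↔ ∀ x : P, x ∉ N →
        Nat.card {n : N // x * n * x⁻¹ * (n : P)⁻¹ ∈ (commutator N).map N.subtype} = p * Nat.card (commutator N)) ∧
    ((commutator P).index = p ^ 2 ↔ ∃ x : P, x ∉ N ∧
        Nat.card {n : N // x * n * x⁻¹ * (n : P)⁻¹ ∈ (commutator N).map N.subtype} = p * Nat.card (commutator N)) := by
  have hp : 0 < p := (Fact.out : p.Prime).pos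
  have hc : 0 < Nat.card (commutator N) := Nat.card_pos
  have hiff : ∀ x : P, x ∉ N → ((commutator P).index = p ^ 2 ↔
      Nat.card {n : N // x * n * x⁻¹ * (n : P)⁻¹ ∈ (commutator N).map N.subtype} =
        p * Nat.card (commutator N)) := by
    intro x hx
    have hk := key_formula N hN x hx
    constructor
    · intro h
      rw [h] at hk
      apply Nat.eq_of_mul_eq_mul_left hp
      rw [← hk]
      ring
    · intro h
      rw [h] at hk
      apply Nat.eq_of_mul_eq_mul_right hc
      rw [hk]
      ring
  have hex : ∃ x : P, x ∉ N := by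
    by_contra hcon
    push_neg at hcon
    have : N = ⊤ := eq_top_iff.2 (fun x _ => hcon x)
    rw [this, Subgroup.index_top] at hN
    exact (Fact.out : p.Prime).one_lt.ne hN
  constructor
  · constructor
    · intro h x hx
      exact (hiff x hx).1 h
    · intro h
      obtain ⟨x, hx⟩ := hex
      exact (hiff x hx).2 (h x hx)
  · constructor
    · intro h
      obtain ⟨x, hx⟩ := hex
      exact ⟨x, hx, (hiff x hx).1 h⟩
    · rintro ⟨x, hx, h⟩
      exact (hiff x hx).2 h

end Cfsg.Agent.S4586
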