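import Cfsg.Statements.S4591
import Mathlib
import Cfsg.Agent.Lib.Char.GlaubSolv
import Cfsg.Agent.Lib.Char.GlaubOver
import Cfsg.Agent.Lib.Char.GlaubCyclic
import Cfsg.Agent.Lib.Char.GallagherAvg
import Cfsg.Agent.Lib.Char.Clifford
import Cfsg.Agent.Lib.Char.Codegree
import Cfsg.Agent.Lib.Char.Induced
import Cfsg.Agent.Lib.Char.IndRep
import Cfsg.Agent.Lib.Char.LinearChars
import Cfsg.Agent.Lib.Char.CompleteCor
import Cfsg.Agent.Lib.Blocks.Principal
import Cfsg.Agent.Lib.Transfer.Tate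
import Cfsg.Agent.Lib.PGroup.FrattiniBasis

set_option autoImplicit false
set_option linter.style.haveILetI false

open Cfsg Module Cfsg.Agent.Lib.Char.Basic Cfsg.Agent.Lib.Char.Ortho
open Cfsg.Agent.Lib.Char.GlaubP Cfsg.Agent.Lib.Char.GlaubOver
open scoped ComplexConjugate commutatorElement

namespace Cfsg.Agent.S4591

universe u

section Basic

variable {G : Type u} [Group G]

theorem charDegree_eq {χ : G → ℂ} {d : ℕ} (h : χ 1 = d) : charDegree χ = d := by
  simp [charDegree, h]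

/-- A character of degree prime to `p` has an irreducible constituent of degree prime to `p`. -/
theorem exists_constituent_not_dvd [Fintype G] {φ : G → ℂ} (hφ : IsCharacter G φ) {p d : ℕ}
    (hd : φ 1 = d) (hpd : ¬ p ∣ d) :
    ∃ ψ : IrrCharacter G, classInner φ (ψ : G → ℂ) ≠ 0 ∧ ¬ p ∣ charDegree (ψ : G → ℂ) := by
  classical
  obtain ⟨m, hm⟩ := exists_nat_decomp hφ
  by_contra hcon
  push Not at hcon
  apply hpd
  have h1 : (d : ℂ) = ∑ ψ : IrrCharacter G, (m ψ : ℂ) * (ψ : G → ℂ) 1 := by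
    rw [← hd, hm]
    simp [Finset.sum_apply]
  choose e he _ _ using fun ψ : IrrCharacter G => exists_degree_dvd ψ.2
  have h2 : d = ∑ ψ : IrrCharacter G, m ψ * e ψ := by
    have : (d : ℂ) = ((∑ ψ : IrrCharacter G, m ψ * e ψ : ℕ) : ℂ) := by
      rw [h1]
      push_cast
      exact Finset.sum_congr rfl fun ψ _ => by rw [he]
    exact_mod_cast this
  rw [h2]
  refine Finset.dvd_sum fun ψ _ => ?_
  by_cases h0 : m ψ = 0
  · simp [h0]
  · have h3 : classInner φ (ψ : G → ℂ) ≠ 0 := by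
      have := classInner_sum_irr (fun χ => (m χ : ℂ)) ψ
      simp only [Nat.cast_smul_eq_nsmul] at this
      rw [← hm] at this
      rw [this]
      exact_mod_cast h0
    have h4 := hcon ψ h3
    rw [charDegree_eq (he ψ)] at h4
    exact Dvd.dvd.mul_left h4 _

/-- Kernels of irreducible characters, as subgroups. -/
theorem exists_ker {χ : G → ℂ} [Finite G] (hχ : IsCharacter G χ) :
    ∃ R : Subgroup G, R.Normal ∧ ∀ g, χ g = χ 1 ↔ g ∈ R := by
  obtain ⟨n, ρ, rfl⟩ := hχ
  exact ⟨Cfsg.Agent.Lib.Char.Codegree.repKer ρ, inferInstance,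
    fun g => Cfsg.Agent.Lib.Char.Codegree.character_eq_one_iff ρ g⟩

/-- Elements in the kernel of a character can be dropped. -/
theorem apply_mul_of_ker [Finite G] {χ : G → ℂ} (hχ : IsCharacter G χ) {x : G} (hx : χ x = χ 1)
    (a : G) : χ (x * a) = χ a := by
  obtain ⟨n, ρ, rfl⟩ := hχ
  have h1 := (Cfsg.Agent.Lib.Char.Codegree.character_eq_one_iff ρ x).1 hx
  rw [Cfsg.Agent.Lib.Char.Codegree.mem_repKer] at h1
  show LinearMap.trace ℂ _ (ρ (x * a)) = LinearMap.trace ℂ _ (ρ a)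
  rw [map_mul, h1, one_mul]

end Basic

section Lin

variable {G : Type u} [Group G]

/-- The constituent of `Ind λ` of degree prime to `p`. -/
theorem exists_irr_over_lin [Fintype G] {p : ℕ} (A : Subgroup G) [Fintype A] (hA : ¬ p ∣ A.index)
    (l : A →* ℂˣ) :
    ∃ χ : IrrCharacter G, ¬ p ∣ charDegree (χ : G → ℂ) ∧
      classInner (fun a : A => ((l a : ℂˣ) : ℂ)) (fun a : A => (χ : G → ℂ) a) ≠ 0 := by
  have hθ : IsCharacter A (fun a : A => ((l a : ℂˣ) : ℂ)) :=
    isCharacter_of_isIrrCharacter (Cfsg.Agent.Lib.Char.LinearChars.isIrr_of_hom l)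
  have hind := Cfsg.Agent.Lib.Char.IndRep.isCharacter_indFun (G := G) (H := A) hθ
  have h1 : indFun A (fun a : A => ((l a : ℂˣ) : ℂ)) 1 = (A.index : ℂ) := by
    rw [Cfsg.Agent.Lib.Char.Induced.indFun_one]
    simp
  obtain ⟨ψ, hψ, hψd⟩ := exists_constituent_not_dvd hind h1 hA
  refine ⟨ψ, hψd, ?_⟩
  rw [← Cfsg.Agent.Lib.Char.Induced.frobenius_reciprocity A _ _
    (isClassFunction_of_isCharacter (isCharacter_of_isIrrCharacter ψ.2))]
  exact hψ

/-- A linear constituent is trivial on the kernel. -/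
theorem lin_eq_one [Fintype G] (A : Subgroup G) [Fintype A] (l : A →* ℂˣ) {χ : G → ℂ}
    (hχ : IsCharacter G χ)
    (hne : classInner (fun a : A => ((l a : ℂˣ) : ℂ)) (fun a : A => χ a) ≠ 0) (x : A)
    (hx : χ x = χ 1) : l x = 1 := by
  unfold classInner at hne
  set S : ℂ := ∑ a : A, ((l a : ℂˣ) : ℂ) * conj (χ a) with hS
  have hS0 : S ≠ 0 := right_ne_zero_of_mul hne
  have h1 : S = ((l x : ℂˣ) : ℂ) * S := by
    calc S = ∑ a : A, ((l (x * a) : ℂˣ) : ℂ) * conj (χ ((x * a : A) : G)) :=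
          (Equiv.sum_comp (Equiv.mulLeft x) (fun a : A => ((l a : ℂˣ) : ℂ) * conj (χ a))).symm
      _ = ∑ a : A, ((l x : ℂˣ) : ℂ) * (((l a : ℂˣ) : ℂ) * conj (χ a)) := by
          refine Finset.sum_congr rfl fun a _ => ?_
          rw [Subgroup.coe_mul, apply_mul_of_ker hχ hx, map_mul, Units.val_mul, mul_assoc]
      _ = ((l x : ℂˣ) : ℂ) * S := by rw [hS, Finset.mul_sum]
  have h2 : ((l x : ℂˣ) : ℂ) = 1 := by
    have h3 : (((l x : ℂˣ) : ℂ) - 1) * S = 0 := by
      rw [sub_mul, one_mul, ← h1, sub_self]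
    exact sub_eq_zero.1 ((mul_eq_zero.1 h3).resolve_right hS0)
  exact Units.ext h2

/-- A linear character of `P ⊔ ⟨x⟩` nontrivial on `x`, when `x ∉ P` centralises `P`. -/
theorem exists_lin_of_commute [Finite G] {P : Subgroup G} {x : G} (hxP : ∀ a ∈ P, x * a = a * x)
    (hx : x ∉ P) :
    ∃ (A : Subgroup G) (_ : P ≤ A) (hxA : x ∈ A) (l : A →* ℂˣ), l ⟨x, hxA⟩ ≠ 1 := by
  classical
  set A : Subgroup G := P ⊔ Subgroup.zpowers x with hA
  have hPA : P ≤ A := le_sup_left
  have hxA : x ∈ A := (le_sup_right : Subgroup.zpowers x ≤ A) (Subgroup.mem_zpowers x)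
  have hnorm : A ≤ Subgroup.normalizer (P : Set G) := by
    refine sup_le Subgroup.le_normalizer ?_
    rw [Subgroup.zpowers_le, Subgroup.mem_normalizer_iff]
    intro h
    constructor
    · intro hh
      have : x * h * x⁻¹ = h := by rw [hxP h hh]; group
      rwa [this]
    · intro hh
      have h1 := hxP _ hh
      have h2 : h = x * h * x⁻¹ := by
        have h3 : x * (x * h * x⁻¹) = x * h * x⁻¹ * x := h1
        have h4 : x * h * x⁻¹ * x = x * h := by group
        rw [h4] at h3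
        exact (mul_left_cancel h3).symm
      rwa [h2]
  haveI hP₁ : (P.subgroupOf A).Normal := Subgroup.normal_subgroupOf_of_le_normalizer hnorm
  set x₁ : A := ⟨x, hxA⟩ with hx₁
  have htop : P.subgroupOf A ⊔ Subgroup.zpowers x₁ = ⊤ := by
    apply Subgroup.map_injective A.subtype_injective
    rw [Subgroup.map_sup, ← MonoidHom.range_eq_map, Subgroup.range_subtype,
      Subgroup.map_subgroupOf_eq_of_le hPA, MonoidHom.map_zpowers]
    rfl
  have hcyc : IsCyclic (A ⧸ P.subgroupOf A) := Cfsg.Agent.Lib.Char.GlaubCyclic.isCyclic_quotient htop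
  letI hcg : CommGroup (A ⧸ P.subgroupOf A) := IsCyclic.commGroup
  have hne : ((x₁ : A) : A ⧸ P.subgroupOf A) ≠ 1 := by
    rw [Ne, QuotientGroup.eq_one_iff]
    exact hx
  obtain ⟨φ, hφ⟩ := CommGroup.exists_apply_ne_one_of_hasEnoughRootsOfUnity (A ⧸ P.subgroupOf A) ℂ hne
  exact ⟨A, hPA, hxA, φ.comp (QuotientGroup.mk' _), hφ⟩

end Lin

section TatePart

variable {G : Type u} [Group G] [Finite G] {p : ℕ} [hp : Fact p.Prime]

/-- Tate's theorem in the form needed. -/
theorem tate_part (P : Sylow p G) (K : Subgroup G) [hKn : K.Normal]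
    (hK : K ⊓ (P : Subgroup G) ≤ ⁅(P : Subgroup G), (P : Subgroup G)⁆) :
    ∃ N₀ : Subgroup G, N₀.Normal ∧ N₀ ≤ K ∧ (∀ x ∈ N₀, ¬ p ∣ orderOf x) ∧
      K ≤ N₀ ⊔ (K ⊓ (P : Subgroup G)) := by
  classical
  set Q : Subgroup G := (P : Subgroup G) with hQ
  set G₁ : Subgroup G := K ⊔ Q with hG₁
  have hKG : K ≤ G₁ := le_sup_left
  have hQG : Q ≤ G₁ := le_sup_right
  set P₁ : Subgroup G₁ := Q.subgroupOf G₁ with hP₁
  set K₁ : Subgroup G₁ := K.subgroupOf G₁ with hK₁
  have e₁ : P₁ ≃* Q := Subgroup.subgroupOfEquivOfLe hQG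
  have hP₁p : IsPGroup p P₁ := IsPGroup.of_equiv P.isPGroup' e₁.symm
  have hidx : ¬ p ∣ P₁.index := by
    intro h
    apply P.not_dvd_index
    have h1 : Q.relIndex G₁ * G₁.index = Q.index := Subgroup.relIndex_mul_index hQG
    exact h1 ▸ h.trans (Dvd.intro _ rfl)
  have hsup : K₁ ⊔ P₁ = ⊤ := by
    apply Subgroup.map_injective G₁.subtype_injective
    rw [Subgroup.map_sup, ← MonoidHom.range_eq_map, Subgroup.range_subtype,
      Subgroup.map_subgroupOf_eq_of_le hKG, Subgroup.map_subgroupOf_eq_of_le hQG]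
  have hng : ∀ M : Subgroup P₁, M ⊔ K₁.subgroupOf P₁ = ⊤ → M = ⊤ := by
    intro M hM
    apply frattini_nongenerating (K := M)
    rw [eq_top_iff, ← hM]
    refine sup_le_sup_left ?_ M
    refine le_trans ?_ (Cfsg.Agent.Lib.PGroup.FrattiniBasis.commutator_le_frattini hP₁p)
    intro y hy
    set f : P₁ →* G := G₁.subtype.comp P₁.subtype with hf
    have hfinj : Function.Injective f := G₁.subtype_injective.comp P₁.subtype_injective
    have hrange : f.range = Q := by
      ext g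
      constructor
      · rintro ⟨z, rfl⟩
        exact z.2
      · intro hg
        exact ⟨⟨⟨g, hQG hg⟩, hg⟩, rfl⟩
    have hmap : (commutator P₁).map f = ⁅Q, Q⁆ := by
      rw [commutator_def, Subgroup.map_commutator, ← MonoidHom.range_eq_map, hrange]
    have h1 : f y ∈ ⁅Q, Q⁆ := hK ⟨hy, y.2⟩
    rw [← hmap] at h1
    obtain ⟨z, hz, hzy⟩ := h1
    rwa [← hfinj hzy]
  obtain ⟨L', hL'K, hL'n, hL'sup, hL'bot⟩ :=
    Cfsg.Agent.Lib.Transfer.Tate.tate_core P₁ hP₁p hidx _ K₁ inferInstance rfl hsup hng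
  have hdisj : Disjoint L' P₁ := by
    rw [disjoint_iff, eq_bot_iff]
    intro x hx
    have hx' : (⟨x, hx.2⟩ : P₁) ∈ L'.subgroupOf P₁ := by
      rw [Subgroup.mem_subgroupOf]
      exact hx.1
    rw [hL'bot, Subgroup.mem_bot] at hx'
    have := congrArg Subtype.val hx'
    simpa using this
  have hc : L'.IsComplement' P₁ := by
    apply Subgroup.isComplement'_of_disjoint_and_mul_eq_univ hdisj
    rw [← Subgroup.normal_mul, hL'sup]
    rfl
  have hcard1 : Nat.card L' = P₁.index := hc.index_eq_card.symm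
  have hcard2 : L'.index = Nat.card P₁ := hc.symm.index_eq_card
  have hL'p : ∀ y ∈ L', ¬ p ∣ orderOf y := by
    intro y hy h
    apply hidx
    rw [← hcard1]
    exact h.trans (Subgroup.orderOf_dvd_natCard L' hy)
  have hcopy : ∀ y ∈ K, ¬ p ∣ orderOf y → ∀ hy : y ∈ G₁, (⟨y, hy⟩ : G₁) ∈ L' := by
    intro y _ hyp hy
    have h1 := Subgroup.pow_index_mem L' (⟨y, hy⟩ : G₁)
    rw [hcard2] at h1
    obtain ⟨k, hk⟩ := IsPGroup.iff_card.mp hP₁p
    have h2 : (Nat.card P₁).Coprime (orderOf (⟨y, hy⟩ : G₁)) := by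
      rw [hk, Subgroup.orderOf_mk]
      exact Nat.Coprime.pow_left _ ((Nat.Prime.coprime_iff_not_dvd hp.out).2 hyp)
    obtain ⟨t, ht⟩ := exists_pow_eq_self_of_coprime h2
    rw [← ht]
    exact L'.pow_mem h1 t
  refine ⟨L'.map G₁.subtype, ?_, ?_, ?_, ?_⟩
  · constructor
    rintro _ ⟨y, hy, rfl⟩ g
    have h1 : (y : G) ∈ K := hL'K hy
    have h2 : g * (y : G) * g⁻¹ ∈ K := hKn.conj_mem _ h1 g
    have h3 : ¬ p ∣ orderOf (g * (y : G) * g⁻¹) := by
      have h4 : orderOf (g * (y : G) * g⁻¹) = orderOf y := by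
        rw [← MulAut.conj_apply, MulEquiv.orderOf_eq, Subgroup.orderOf_coe]
      rw [h4]
      exact hL'p y hy
    exact ⟨⟨_, hKG h2⟩, hcopy _ h2 h3 _, rfl⟩
  · rintro _ ⟨y, hy, rfl⟩
    exact hL'K hy
  · rintro _ ⟨y, hy, rfl⟩
    have := hL'p y hy
    rwa [Subgroup.coe_subtype, Subgroup.orderOf_coe]
  · intro k hk
    have hk₁ : (⟨k, hKG hk⟩ : G₁) ∈ L' ⊔ P₁ := by
      rw [hL'sup]
      trivial
    obtain ⟨l, hl, a, ha, hla⟩ := Subgroup.mem_sup_of_normal_left.1 hk₁
    have hla' : (l : G) * (a : G) = k := congrArg Subtype.val hla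
    rw [← hla']
    refine Subgroup.mul_mem_sup ⟨l, hl, rfl⟩ ⟨?_, ha⟩
    have h1 : (l : G) ∈ K := hL'K hl
    have h2 : (a : G) = (l : G)⁻¹ * k := by rw [← hla']; group
    rw [h2]
    exact K.mul_mem (K.inv_mem h1) hk

end TatePart

section Inv

variable {G : Type u} [Group G] [Finite G] {p : ℕ} [hp : Fact p.Prime]

/-- A normal subgroup in which a `p`-group has trivial centraliser has order prime to `p`. -/
theorem not_dvd_card_of_inf (P N : Subgroup G) [hNn : N.Normal] (hP : IsPGroup p P)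
    (hN : N ⊓ Subgroup.centralizer (P : Set G) = ⊥) : ¬ p ∣ Nat.card N := by
  classical
  letI : MulAction P N := MulAction.compHom N ((MulAut.conjNormal : G →* MulAut N).comp P.subtype)
  have h1 := hP.card_modEq_card_fixedPoints N
  have h2 : Nat.card (MulAction.fixedPoints P N) = 1 := by
    rw [Nat.card_eq_one_iff_unique]
    refine ⟨⟨?_⟩, ⟨⟨1, ?_⟩⟩⟩
    · rintro ⟨a, ha⟩ ⟨b, hb⟩
      have key : ∀ c : N, c ∈ MulAction.fixedPoints P N → c = 1 := by
        intro c hc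
        have hc1 : (c : G) ∈ N ⊓ Subgroup.centralizer (P : Set G) := by
          refine ⟨c.2, ?_⟩
          show (c : G) ∈ Subgroup.centralizer (P : Set G)
          rw [Subgroup.mem_centralizer_iff]
          intro u hu
          have h3 := hc ⟨u, hu⟩
          have h4 : u * (c : G) * u⁻¹ = c := congrArg Subtype.val h3
          exact mul_inv_eq_iff_eq_mul.1 h4
        rw [hN, Subgroup.mem_bot] at hc1
        exact Subtype.ext hc1
      exact Subtype.ext ((key a ha).trans (key b hb).symm)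
    · intro u
      exact map_one (MulAut.conjNormal (u : G) : N ≃* N)
  rw [h2] at h1
  intro h
  have h5 := (Nat.modEq_zero_iff_dvd.2 h).symm.trans h1
  have h6 : p ∣ 1 := (Nat.modEq_zero_iff_dvd).1 h5.symm
  exact hp.out.one_lt.ne' (Nat.dvd_one.1 h6)

/-- An invariant irreducible character is trivial when the centraliser is trivial. -/
theorem sinv_eq_triv (P N : Subgroup G) [hNn : N.Normal] (hP : IsPGroup p P)
    (hcop : (Nat.card N).Coprime (Nat.card P))
    (hN : N ⊓ Subgroup.centralizer (P : Set G) = ⊥) (θ : IrrCharacter N)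
    (hθ : SInv P (θ : N → ℂ)) : θ = Cfsg.Agent.Lib.Blocks.Principal.trivChar N := by
  classical
  haveI : Group.IsNilpotent P := hP.isNilpotent
  have h1 := Cfsg.Agent.Lib.Char.GlaubSolv.card_sinv_eq (G := N) (S := P)
    (C := N ⊓ Subgroup.centralizer (P : Set G))
    (fun s _ g hg => hNn.conj_mem g hg s) hcop inferInstance rfl
  have h2 : Nat.card (IrrCharacter ↥(N ⊓ Subgroup.centralizer (P : Set G))) = 1 := by
    rw [Cfsg.Agent.Lib.Char.CompleteCor.card_irr_eq_card_conjClasses, Nat.card_eq_one_iff_unique]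
    have hsub : Subsingleton ↥(N ⊓ Subgroup.centralizer (P : Set G)) := by
      rw [hN]
      infer_instance
    refine ⟨⟨?_⟩, ⟨1⟩⟩
    rintro ⟨a⟩ ⟨b⟩
    exact congrArg _ (Subsingleton.elim a b)
  rw [h2, Nat.card_eq_one_iff_unique] at h1
  have h3 : SInv P ((Cfsg.Agent.Lib.Blocks.Principal.trivChar N : IrrCharacter N) : N → ℂ) :=
    fun _ _ _ _ _ => rfl
  have h4 := h1.1.elim ⟨θ, hθ⟩ ⟨_, h3⟩
  exact congrArg Subtype.val h4

/-- A character of degree prime to `p` has an invariant constituent under a `p`-group. -/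
theorem exists_sinv_constituent (P N : Subgroup G) [hNn : N.Normal] [Fintype N] (hP : IsPGroup p P)
    {χ : G → ℂ} (hχ : IsCharacter G χ) {d : ℕ} (hd : χ 1 = d) (hpd : ¬ p ∣ d) :
    ∃ θ : IrrCharacter N, classInner (fun n : N => χ n) (θ : N → ℂ) ≠ 0 ∧
      SInv P (θ : N → ℂ) := by
  classical
  have hnorm : ∀ u ∈ P, ∀ h ∈ N, u * h * u⁻¹ ∈ N := fun u _ h hh => hNn.conj_mem h hh u
  letI act := conjAct N P hnorm
  have hsm : ∀ (u : P) (θ : IrrCharacter N) (n : N), ((u • θ : IrrCharacter N) : N → ℂ) n =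
      (θ : N → ℂ) ⟨(u : G)⁻¹ * n * u, by
        have := hnorm _ (u⁻¹ : P).2 n n.2
        simpa using this⟩ := fun u θ n => conjAct_apply hnorm u θ n
  have hres : IsCharacter N (fun n : N => χ n) := isCharacter_comp_hom hχ N.subtype
  choose m hm using fun θ : IrrCharacter N => exists_nat_classInner hres θ
  choose e he he0 _ using fun θ : IrrCharacter N => exists_degree_dvd θ.2
  have hsum : ∑ θ, m θ * e θ = d := by
    have h1 := congrFun (decomp_eq_sum_classInner hres) 1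
    simp only [Finset.sum_apply, Pi.smul_apply, smul_eq_mul, hm, he] at h1
    have h2 : (χ 1 : ℂ) = d := hd
    have h3 : ((1 : N) : G) = 1 := rfl
    simp only [h3, h2] at h1
    exact_mod_cast h1.symm
  have hf : ∀ (u : P) (θ : IrrCharacter N), m (u • θ) * e (u • θ) = m θ * e θ := by
    intro u θ
    have hd1 : e (u • θ) = e θ := by
      have h1 : (e (u • θ) : ℂ) = e θ := by
        rw [← he, ← he, hsm]
        refine congrArg _ (Subtype.ext ?_)
        simp
      exact_mod_cast h1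
    have hm1 : m (u • θ) = m θ := by
      have h1 : (m (u • θ) : ℂ) = m θ := by
        rw [← hm, ← hm]
        have h2 := Cfsg.Agent.Lib.Char.Clifford.classInner_comp_equiv
          (conjE N ((u⁻¹ : P) : G) (hnorm _ (u⁻¹ : P).2)) (fun n : N => χ n) (θ : N → ℂ)
        rw [← h2]
        congr 1
        funext n
        have h3 := isClassFunction_of_isCharacter hχ (n : G) (((u⁻¹ : P) : G))
        exact h3.symm
      exact_mod_cast h1
    rw [hd1, hm1]
  have hcong := sum_modEq_sum_fixed hP (fun θ => m θ * e θ) hf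
  rw [hsum] at hcong
  have hne : ∑ θ ∈ Finset.univ.filter (fun θ : IrrCharacter N => ∀ u : P, u • θ = θ), m θ * e θ ≠ 0 := by
    intro h0
    rw [h0] at hcong
    exact hpd ((Nat.modEq_zero_iff_dvd).1 hcong)
  obtain ⟨θ, hθ, hθ0⟩ := Finset.exists_ne_zero_of_sum_ne_zero hne
  rw [Finset.mem_filter] at hθ
  refine ⟨θ, ?_, (fixed_iff_sinv hnorm θ).1 hθ.2⟩
  rw [hm]
  intro h
  have : m θ = 0 := by exact_mod_cast h
  rw [this, zero_mul] at hθ0
  exact hθ0 rfl

/-- The normal subgroup with trivial centraliser lies in the kernel of a `p'`-degree character. -/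
theorem normal_le_ker (P N : Subgroup G) [hNn : N.Normal] (hP : IsPGroup p P)
    (hN : N ⊓ Subgroup.centralizer (P : Set G) = ⊥) (χ : IrrCharacter G)
    (hpχ : ¬ p ∣ charDegree (χ : G → ℂ)) (n : G) (hn : n ∈ N) :
    (χ : G → ℂ) n = (χ : G → ℂ) 1 := by
  classical
  letI := Fintype.ofFinite G
  letI := Fintype.ofFinite N
  obtain ⟨d, hd, -, -⟩ := exists_degree_dvd χ.2
  rw [charDegree_eq hd] at hpχ
  obtain ⟨θ, hθ₁, hθ₂⟩ := exists_sinv_constituent P N hP
    (isCharacter_of_isIrrCharacter χ.2) hd hpχ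
  have hcard : (Nat.card N).Coprime (Nat.card P) := by
    obtain ⟨k, hk⟩ := IsPGroup.iff_card.mp hP
    rw [hk]
    exact Nat.Coprime.pow_right _ ((Nat.Prime.coprime_iff_not_dvd hp.out).2
      (not_dvd_card_of_inf P N hP hN)).symm
  have h1 := sinv_eq_triv P N hP hcard hN θ hθ₂
  rw [h1] at hθ₁
  have h2 := Cfsg.Agent.Lib.Char.GallagherAvg.res_eq_smul_of_invariant N χ.2
    (Cfsg.Agent.Lib.Blocks.Principal.trivChar N).2 hθ₁ (fun _ _ => rfl)
  have h3 := congrFun h2 ⟨n, hn⟩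
  have h4 := congrFun h2 1
  simp only [Pi.smul_apply] at h3 h4
  have h5 : ((1 : N) : G) = 1 := rfl
  rw [h5] at h4
  rw [h3, h4]
  rfl

end Inv

section Eigen

variable {Q : Type*} [Group Q] [Fintype Q] {V : Type*} [AddCommGroup V] [Module ℂ V]

/-- A linear constituent is afforded by an eigenvector. -/
theorem exists_eigen (σ : Representation ℂ Q V) (l : Q →* ℂˣ)
    (hne' : ∑ a : Q, (((l a)⁻¹ : ℂˣ) : ℂ) * σ.character a ≠ 0) :
    ∃ v : V, v ≠ 0 ∧ ∀ b, σ b v = ((l b : ℂˣ) : ℂ) • v := by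
  classical
  set E : V →ₗ[ℂ] V := ∑ a : Q, (((l a)⁻¹ : ℂˣ) : ℂ) • σ a with hE
  have hE0 : E ≠ 0 := by
    intro h0
    apply hne'
    have h1 : LinearMap.trace ℂ V E = 0 := by rw [h0, map_zero]
    rw [hE, map_sum] at h1
    simpa [Representation.character] using h1
  obtain ⟨w, hw⟩ : ∃ w, E w ≠ 0 := by
    by_contra hcon
    push Not at hcon
    exact hE0 (LinearMap.ext hcon)
  refine ⟨E w, hw, fun b => ?_⟩
  have h2 : ∀ u : V, E u = ∑ a : Q, (((l a)⁻¹ : ℂˣ) : ℂ) • σ a u := by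
    intro u
    simp [hE, LinearMap.sum_apply]
  rw [h2, map_sum, Finset.smul_sum]
  refine Eq.trans ?_ (Equiv.sum_comp (Equiv.mulLeft b)
    (fun a => ((l b : ℂˣ) : ℂ) • (((l a)⁻¹ : ℂˣ) : ℂ) • σ a w))
  refine Finset.sum_congr rfl fun a _ => ?_
  have h3 : ((l b : ℂˣ) : ℂ) * (((l (b * a))⁻¹ : ℂˣ) : ℂ) = (((l a)⁻¹ : ℂˣ) : ℂ) := by
    rw [map_mul, mul_inv_rev, Units.val_mul]
    rw [mul_comm (((l a)⁻¹ : ℂˣ) : ℂ), ← mul_assoc, ← Units.val_mul, mul_inv_cancel, Units.val_one,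
      one_mul]
  simp only [Equiv.coe_mulLeft, map_mul, Module.End.mul_apply, map_smul, smul_smul]
  rw [← h3, map_mul]

end Eigen

section MainLemmas

variable {G : Type u} [Group G] [Finite G] {p : ℕ} [hp : Fact p.Prime]

/-- The inclusion `core ≤ ker`. -/
theorem core_le_ker (P : Sylow p G) (N : Subgroup G) [hNn : N.Normal]
    (hN : N ⊓ Subgroup.centralizer ((P : Subgroup G) : Set G) = ⊥) (X : Subgroup G) [hXn : X.Normal]
    (hX : X ≤ N ⊔ ⁅(P : Subgroup G), (P : Subgroup G)⁆) (χ : IrrCharacter G)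
    (hpχ : ¬ p ∣ charDegree (χ : G → ℂ)) (x : G) (hx : x ∈ X) :
    (χ : G → ℂ) x = (χ : G → ℂ) 1 := by
  classical
  letI := Fintype.ofFinite G
  set Q : Subgroup G := (P : Subgroup G) with hQ
  letI := Fintype.ofFinite Q
  have hQp : IsPGroup p Q := P.isPGroup'
  have hker : ∀ n ∈ N, (χ : G → ℂ) n = (χ : G → ℂ) 1 := normal_le_ker Q N hQp hN χ hpχ
  obtain ⟨n, ρ, hρ, hχρ⟩ := χ.2
  obtain ⟨d, hd, -, -⟩ := exists_degree_dvd χ.2
  rw [charDegree_eq hd] at hpχ
  have hresc : IsCharacter Q (fun a : Q => (χ : G → ℂ) a) :=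
    isCharacter_comp_hom (isCharacter_of_isIrrCharacter χ.2) Q.subtype
  obtain ⟨ψ, hψ, hψd⟩ := exists_constituent_not_dvd hresc hd hpχ
  obtain ⟨d', hd', hd'0, hd'dvd⟩ := exists_degree_dvd ψ.2
  rw [charDegree_eq hd'] at hψd
  have hd'1 : d' = 1 := by
    obtain ⟨k, hk⟩ := IsPGroup.iff_card.mp hQp
    rw [hk] at hd'dvd
    obtain ⟨j, -, rfl⟩ := (Nat.dvd_prime_pow hp.out).1 hd'dvd
    rcases j with _ | j
    · simp
    · exact absurd (dvd_pow_self p (Nat.succ_ne_zero j)) hψd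
  have hψ1 : (ψ : Q → ℂ) 1 = 1 := by rw [hd', hd'1]; simp
  obtain ⟨l, hl⟩ := Cfsg.Agent.Lib.Char.LinearChars.exists_hom_of_isCharacter_one
    (isCharacter_of_isIrrCharacter ψ.2) hψ1
  have hconj : ∀ a : Q, conj ((l a : ℂˣ) : ℂ) = (((l a)⁻¹ : ℂˣ) : ℂ) := by
    intro a
    have h : ((l a : ℂˣ) : ℂ) ^ (Nat.card Q) = 1 := by
      rw [← Units.val_pow_eq_pow_val, ← map_pow, pow_card_eq_one']
      simp
    have hn := Complex.norm_eq_one_of_pow_eq_one h Nat.card_pos.ne'
    rw [Units.val_inv_eq_inv_val, Complex.inv_eq_conj hn]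
  set σ : Representation ℂ Q (Fin n → ℂ) := ρ.comp Q.subtype with hσ
  have hσc : ∀ a : Q, σ.character a = (χ : G → ℂ) a := by
    intro a
    rw [← hχρ]
    rfl
  have hsum : ∑ a : Q, (((l a)⁻¹ : ℂˣ) : ℂ) * σ.character a ≠ 0 := by
    intro h0
    apply hψ
    rw [hl]
    unfold classInner
    have h1 : ∑ a : Q, (χ : G → ℂ) a * conj ((l a : ℂˣ) : ℂ) =
        ∑ a : Q, (((l a)⁻¹ : ℂˣ) : ℂ) * σ.character a :=
      Finset.sum_congr rfl fun a _ => by rw [hconj, hσc, mul_comm]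
    rw [h1, h0, mul_zero]
  obtain ⟨v, hv0, hv⟩ := exists_eigen σ l hsum
  haveI := hρ
  have hρker : ∀ g : G, (χ : G → ℂ) g = (χ : G → ℂ) 1 ↔ ρ g = 1 := by
    intro g
    rw [← hχρ, Cfsg.Agent.Lib.Char.Codegree.character_eq_one_iff,
      Cfsg.Agent.Lib.Char.Codegree.mem_repKer]
  let F : Subgroup G :=
    { carrier := {g | ρ g v = v}
      mul_mem' := by
        intro a b ha hb
        show ρ (a * b) v = v
        have ha' : ρ a v = v := ha
        have hb' : ρ b v = v := hb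
        rw [map_mul, Module.End.mul_apply, hb', ha']
      one_mem' := by
        show ρ 1 v = v
        rw [map_one]
        rfl
      inv_mem' := by
        intro a ha
        show ρ a⁻¹ v = v
        have ha' : ρ a v = v := ha
        conv_lhs => rw [← ha']
        rw [← Module.End.mul_apply, ← map_mul, inv_mul_cancel, map_one]
        rfl }
  have hNF : N ≤ F := by
    intro m hm
    show ρ m v = v
    rw [(hρker m).1 (hker m hm)]
    rfl
  have hCF : ⁅Q, Q⁆ ≤ F := by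
    rw [Subgroup.commutator_le]
    intro a ha b hb
    show ρ ⁅a, b⁆ v = v
    have h1 := hv ⁅(⟨a, ha⟩ : Q), (⟨b, hb⟩ : Q)⁆
    have hl1 : l ⁅(⟨a, ha⟩ : Q), (⟨b, hb⟩ : Q)⁆ = 1 := by
      rw [map_commutatorElement l, commutatorElement_eq_one_iff_commute.2 (Commute.all _ _)]
    rw [hl1] at h1
    have h2 : ρ ⁅a, b⁆ v = σ ⁅(⟨a, ha⟩ : Q), (⟨b, hb⟩ : Q)⁆ v := rfl
    rw [h2, h1]
    simp
  have hXF : X ≤ F := hX.trans (sup_le hNF hCF)
  let W : Subrepresentation ρ :=
    ⟨{ carrier := {w | ∀ y ∈ X, ρ y w = w}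
       add_mem' := by
         intro a b ha hb y hy
         rw [map_add, ha y hy, hb y hy]
       zero_mem' := by
         intro y _
         rw [map_zero]
       smul_mem' := by
         intro c a ha y hy
         rw [map_smul, ha y hy] }, by
      intro g w hw y hy
      have h1 : g⁻¹ * y * g ∈ X := by
        have := hXn.conj_mem y hy g⁻¹
        simpa using this
      have h2 : ρ (g⁻¹ * y * g) w = w := hw _ h1
      show ρ y (ρ g w) = ρ g w
      conv_rhs => rw [← h2]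
      rw [← Module.End.mul_apply, ← map_mul, ← Module.End.mul_apply, ← map_mul]
      congr 2
      group⟩
  have hWne : W ≠ ⊥ := by
    intro h0
    have h1 : v ∈ W.toSubmodule := fun y hy => hXF hy
    rw [h0] at h1
    exact hv0 h1
  have hWtop : W = ⊤ := (hρ.eq_bot_or_eq_top W).resolve_left hWne
  rw [hρker]
  refine LinearMap.ext fun w => ?_
  have h2 : w ∈ W.toSubmodule := by
    rw [hWtop]
    trivial
  exact h2 x hx

/-- The kernel set, as a subgroup. -/
theorem exists_kernel (p : ℕ) :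
    ∃ K : Subgroup G, K.Normal ∧ ∀ g, g ∈ K ↔
      ∀ χ : IrrCharacter G, ¬ p ∣ charDegree (χ : G → ℂ) → (χ : G → ℂ) g = (χ : G → ℂ) 1 := by
  choose R hRn hR using fun χ : IrrCharacter G =>
    exists_ker (isCharacter_of_isIrrCharacter χ.2)
  refine ⟨⨅ (χ : IrrCharacter G) (_ : ¬ p ∣ charDegree (χ : G → ℂ)), R χ, ?_, ?_⟩
  · constructor
    intro n hn g
    simp only [Subgroup.mem_iInf] at hn ⊢
    intro χ hχ
    haveI := hRn χ
    exact (hRn χ).conj_mem n (hn χ hχ) g
  · intro g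
    simp only [Subgroup.mem_iInf, hR]

/-- The inclusion `ker ≤ N P'`. -/
theorem ker_le (P : Sylow p G) (N : Subgroup G)
    (hmax : ∀ L : Subgroup G, L.Normal →
      L ⊓ Subgroup.centralizer ((P : Subgroup G) : Set G) = ⊥ → L ≤ N)
    (K : Subgroup G) [hKn : K.Normal]
    (hK : ∀ g ∈ K, ∀ χ : IrrCharacter G, ¬ p ∣ charDegree (χ : G → ℂ) →
      (χ : G → ℂ) g = (χ : G → ℂ) 1) :
    K ≤ N ⊔ ⁅(P : Subgroup G), (P : Subgroup G)⁆ := by
  classical
  letI := Fintype.ofFinite G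
  set Q : Subgroup G := (P : Subgroup G) with hQ
  have hpp : ¬ p ∣ Q.index := P.not_dvd_index
  -- a linear character of an overgroup of `Q` is trivial on `K`
  have hlin : ∀ (A : Subgroup G) (_ : Q ≤ A) (l : A →* ℂˣ) (y : A), (y : G) ∈ K → l y = 1 := by
    intro A hQA l y hy
    letI := Fintype.ofFinite A
    have hA : ¬ p ∣ A.index := by
      intro h
      exact hpp (h.trans (Subgroup.index_dvd_of_le hQA))
    obtain ⟨χ, hχ, hne⟩ := exists_irr_over_lin A hA l
    exact lin_eq_one A l (isCharacter_of_isIrrCharacter χ.2) hne y (hK y hy χ hχ)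
  -- `K ∩ Q ≤ Q'`
  have h1 : K ⊓ Q ≤ ⁅Q, Q⁆ := by
    intro y hy
    by_contra hcon
    have hne : Abelianization.of (⟨y, hy.2⟩ : Q) ≠ 1 := by
      rw [Ne, ← MonoidHom.mem_ker, Abelianization.ker_of]
      intro hm
      apply hcon
      have h3 := Subgroup.mem_map_of_mem Q.subtype hm
      rwa [Subgroup.map_subtype_commutator] at h3
    obtain ⟨φ, hφ⟩ := CommGroup.exists_apply_ne_one_of_hasEnoughRootsOfUnity (Abelianization Q) ℂ hne
    exact hφ (hlin Q le_rfl (φ.comp Abelianization.of) ⟨y, hy.2⟩ hy.1)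
  obtain ⟨N₀, hN₀n, hN₀K, hN₀p, hK₀⟩ := tate_part P K h1
  have h2 : N₀ ⊓ Subgroup.centralizer (Q : Set G) = ⊥ := by
    rw [eq_bot_iff]
    rintro x ⟨hx₀, hxC⟩
    rw [Subgroup.mem_bot]
    by_contra hx1
    have hxQ : x ∉ Q := by
      intro hxQ
      have h3 : IsPGroup p Q := P.isPGroup'
      obtain ⟨k, hk⟩ := IsPGroup.iff_card.mp h3
      have h4 := Subgroup.orderOf_dvd_natCard Q hxQ
      rw [hk] at h4
      obtain ⟨j, -, hj⟩ := (Nat.dvd_prime_pow hp.out).1 h4
      rcases j with _ | j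
      · apply hx1
        rw [pow_zero] at hj
        exact orderOf_eq_one_iff.1 hj
      · apply hN₀p x hx₀
        rw [hj]
        exact dvd_pow_self p (Nat.succ_ne_zero j)
    have hcomm : ∀ a ∈ Q, x * a = a * x := by
      intro a ha
      exact (Subgroup.mem_centralizer_iff.1 hxC a ha).symm
    obtain ⟨A, hQA, hxA, l, hl⟩ := exists_lin_of_commute hcomm hxQ
    exact hl (hlin A hQA l ⟨x, hxA⟩ (hN₀K hx₀))
  have h3 : N₀ ≤ N := hmax N₀ hN₀n h2
  exact hK₀.trans (sup_le_sup h3 (h1))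

end MainLemmas

/-- **The common kernel of the irreducible characters of degree prime to `p`.** -/
theorem result {G : Type*} [Group G] [Finite G] (p : ℕ) [Fact p.Prime] (P : Sylow p G) (N : Subgroup G) [N.Normal]
    (hN : N ⊓ Subgroup.centralizer ((P : Subgroup G) : Set G) = ⊥)
    (hmax : ∀ L : Subgroup G, L.Normal → L ⊓ Subgroup.centralizer ((P : Subgroup G) : Set G) = ⊥ → L ≤ N) :
    {g : G | ∀ χ : Cfsg.IrrCharacter G, ¬ p ∣ Cfsg.charDegree (χ : G → ℂ) → (χ : G → ℂ) g = (χ : G → ℂ) 1} =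
      ((N ⊔ ⁅(P : Subgroup G), (P : Subgroup G)⁆).normalCore : Set G) := by
  obtain ⟨K, hKn, hK⟩ := exists_kernel (G := G) p
  ext g
  simp only [Set.mem_ofPred_eq, SetLike.mem_coe]
  rw [← hK]
  constructor
  · intro hg
    have h1 : K ≤ N ⊔ ⁅(P : Subgroup G), (P : Subgroup G)⁆ :=
      ker_le P N hmax K (fun x hx => (hK x).1 hx)
    exact (Subgroup.normal_le_normalCore.2 h1) hg
  · intro hg
    rw [hK]
    intro χ hχ
    exact core_le_ker P N hN _ (Subgroup.normalCore_le _) χ hχ g hg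

end Cfsg.Agent.S4591
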