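import Cfsg.Statements.S4593
import Cfsg.Agent.Lib.Components.ZStarCore
import Cfsg.Agent.Lib.Solvable.PSeries

set_option autoImplicit false
open Cfsg

namespace Cfsg.Agent.S4593

open Subgroup
open scoped commutatorElement

/-- Let G be a finite group with trivial centre and no nontrivial normal subgroup of odd order, whose Sylow 2-subgroups are abelian, and let P be a Sylow 2-subgroup. Every automorphism of G of 2-power order that fixes P elementwise is inner. -/
theorem result {G : Type*} [Group G] [Finite G] (hZ : Subgroup.center G = ⊥) (hcore : Cfsg.pPrimeCore 2 G = ⊥) (P : Sylow 2 G) (hab : IsMulCommutative (P : Subgroup G))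
    (α : MulAut G) (h2 : ∃ j : ℕ, orderOf α = 2 ^ j) (hfix : ∀ x ∈ (P : Subgroup G), α x = x) :
    ∃ g : G, ∀ x : G, α x = g * x * g⁻¹ := by
  classical
  have hconj : ∀ (β : MulAut G) (x : G), β * MulAut.conj x * β⁻¹ = MulAut.conj (β x) := by
    intro β x
    ext y
    simp [MulAut.mul_apply, MulAut.conj_apply]
  have hinj : Function.Injective (MulAut.conj : G →* MulAut G) := by
    rw [injective_iff_map_eq_one]
    intro x hx
    have : x ∈ center G := by
      rw [mem_center_iff]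
      intro y
      have h1 : MulAut.conj x y = y := by rw [hx]; rfl
      rw [MulAut.conj_apply] at h1
      exact (mul_inv_eq_iff_eq_mul.mp h1).symm
    rw [hZ, mem_bot] at this
    exact this
  let Inn : Subgroup (MulAut G) := (MulAut.conj : G →* MulAut G).range
  haveI hInnN : Inn.Normal := by
    constructor
    rintro _ ⟨x, rfl⟩ β
    exact ⟨β x, (hconj β x).symm⟩
  -- the centralizer of `Inn` is trivial
  have hcent : ∀ β : MulAut G, (∀ x : G, β * MulAut.conj x = MulAut.conj x * β) → β = 1 := by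
    intro β hβ
    ext x
    have h1 : MulAut.conj (β x) = MulAut.conj x := by
      rw [← hconj β x, hβ x, mul_inv_cancel_right]
    simpa using hinj h1
  let Γ : Subgroup (MulAut G) := Inn ⊔ zpowers α
  have hInnΓ : Inn ≤ Γ := le_sup_left
  have hαΓ : α ∈ Γ := (le_sup_right : zpowers α ≤ Γ) (mem_zpowers α)
  have hmemΓ : ∀ τ ∈ Γ, ∃ y : G, ∃ k : ℤ, MulAut.conj y * α ^ k = τ := by
    intro τ hτ
    obtain ⟨a, ⟨y, rfl⟩, b, hb, rfl⟩ := mem_sup_of_normal_left.mp hτ
    obtain ⟨k, rfl⟩ := mem_zpowers_iff.mp hb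
    exact ⟨y, k, rfl⟩
  -- the commutator subgroup lies in `Inn`
  have hcomm : commutator ↥Γ ≤ Inn.subgroupOf Γ := by
    rw [commutator_def, commutator_le]
    rintro ⟨x, hx⟩ - ⟨y, hy⟩ -
    rw [mem_subgroupOf]
    obtain ⟨a, k, rfl⟩ := hmemΓ x hx
    obtain ⟨b, l, rfl⟩ := hmemΓ y hy
    have hq : ∀ (c : G) (m : ℤ), (QuotientGroup.mk (s := Inn) (MulAut.conj c * α ^ m)) = (QuotientGroup.mk (s := Inn) α) ^ m := by
      intro c m
      rw [QuotientGroup.mk_mul, QuotientGroup.mk_zpow]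
      have : (QuotientGroup.mk (s := Inn) (MulAut.conj c)) = 1 :=
        (QuotientGroup.eq_one_iff _).mpr ⟨c, rfl⟩
      rw [this, one_mul]
    rw [← QuotientGroup.eq_one_iff]
    simp only [commutatorElement_def, Subgroup.coe_mul, Subgroup.coe_inv, QuotientGroup.mk_mul, QuotientGroup.mk_inv, hq]
    have : Commute ((QuotientGroup.mk (s := Inn) α) ^ k) ((QuotientGroup.mk (s := Inn) α) ^ l) :=
      Commute.zpow_zpow_self _ k l
    rw [this.eq]
    group
  -- the centre of `Γ`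
  have hZΓ : center ↥Γ = ⊥ := by
    rw [eq_bot_iff]
    intro τ hτ
    rw [mem_bot]
    apply Subtype.ext
    apply hcent
    intro x
    have := (mem_center_iff.mp hτ) ⟨MulAut.conj x, hInnΓ ⟨x, rfl⟩⟩
    exact (congrArg Subtype.val this).symm
  -- the odd core of `Γ`
  have hOΓ : Cfsg.oddCore ↥Γ = ⊥ := by
    have hn : (Cfsg.oddCore ↥Γ).Normal := inferInstance
    have hodd : (Nat.card (Cfsg.oddCore ↥Γ)).Coprime 2 :=
      Cfsg.Agent.Lib.Solvable.PSeries.pPrimeCore_coprime 2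
    let ι : G →* ↥Γ := (MulAut.conj : G →* MulAut G).codRestrict Γ (fun x => hInnΓ ⟨x, rfl⟩)
    have hι : Function.Injective ι := by
      intro a b hab
      exact hinj (congrArg Subtype.val hab)
    let M : Subgroup G := (Cfsg.oddCore ↥Γ).comap ι
    have hMcard : (Nat.card M).Coprime 2 := by
      have h1 : Nat.card M ∣ Nat.card (Cfsg.oddCore ↥Γ) := by
        refine Subgroup.card_dvd_of_injective (ι.subgroupComap (Cfsg.oddCore ↥Γ)) ?_
        intro a b hab
        apply Subtype.ext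
        apply hι
        exact congrArg Subtype.val hab
      exact hodd.coprime_dvd_left h1
    have hMn : M.Normal := hn.comap ι
    have hMbot : M = ⊥ := by
      rw [eq_bot_iff, ← hcore]
      exact Cfsg.Agent.Lib.Basic.PCore.le_pPrimeCore hMn hMcard
    rw [eq_bot_iff]
    intro τ hτ
    rw [mem_bot]
    apply Subtype.ext
    ext x
    have h1 : ι (((τ : ↥Γ) : MulAut G) x * x⁻¹) ∈ Cfsg.oddCore ↥Γ := by
      have h2 : ι (((τ : ↥Γ) : MulAut G) x * x⁻¹) = τ * (ι x * τ⁻¹ * (ι x)⁻¹) := by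
        apply Subtype.ext
        have h3 := hconj (τ : ↥Γ) x
        change MulAut.conj (((τ : ↥Γ) : MulAut G) x * x⁻¹) =
          ((τ : ↥Γ) : MulAut G) * (MulAut.conj x * ((τ : ↥Γ) : MulAut G)⁻¹ * (MulAut.conj x)⁻¹)
        rw [map_mul, ← h3, map_inv]
        group
      rw [h2]
      exact mul_mem hτ (hn.conj_mem _ (inv_mem hτ) _)
    have h4 : ((τ : ↥Γ) : MulAut G) x * x⁻¹ ∈ M := h1
    rw [hMbot, mem_bot] at h4
    exact mul_inv_eq_one.mp h4
  -- the abelian Sylow subgroup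
  obtain ⟨j, hj⟩ := h2
  have hPp : IsPGroup 2 (P : Subgroup G) := P.isPGroup'
  have hzp : IsPGroup 2 (zpowers α) := by
    apply IsPGroup.of_card (n := j)
    rw [Nat.card_zpowers, hj]
  have hprodp : IsPGroup 2 (↥(P : Subgroup G) × ↥(zpowers α)) := by
    obtain ⟨a, ha⟩ := IsPGroup.iff_card.mp hPp
    obtain ⟨b, hb⟩ := IsPGroup.iff_card.mp hzp
    apply IsPGroup.of_card (n := a + b)
    rw [Nat.card_prod, ha, hb, pow_add]
  have hPcomm : ∀ a ∈ (P : Subgroup G), α * MulAut.conj a = MulAut.conj a * α := by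
    intro a ha
    have h1 := hconj α a
    rw [hfix a ha] at h1
    exact mul_inv_eq_iff_eq_mul.mp h1
  let f1 : ↥(P : Subgroup G) →* MulAut G := (MulAut.conj : G →* MulAut G).comp (P : Subgroup G).subtype
  let f : ↥(P : Subgroup G) × ↥(zpowers α) →* MulAut G :=
    MonoidHom.noncommCoprod f1 (zpowers α).subtype (by
      rintro ⟨a, ha⟩ ⟨b, hb⟩
      obtain ⟨k, rfl⟩ := mem_zpowers_iff.mp hb
      have h1 : Commute α (MulAut.conj a) := hPcomm a ha
      exact (h1.zpow_left k).symm)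
  let X : Subgroup (MulAut G) := f.range
  have hXp : IsPGroup 2 X := hprodp.of_surjective f.rangeRestrict f.rangeRestrict_surjective
  have hXab : ∀ a ∈ X, ∀ b ∈ X, a * b = b * a := by
    rintro _ ⟨a, rfl⟩ _ ⟨b, rfl⟩
    rw [← map_mul, ← map_mul]
    congr 1
    refine Prod.ext ?_ ?_
    · exact hab.is_comm.comm a.1 b.1
    · have : IsMulCommutative (zpowers α) := inferInstance
      exact this.is_comm.comm a.2 b.2
  have hf1 : ∀ a : G, a ∈ (P : Subgroup G) → MulAut.conj a ∈ X := by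
    intro a ha
    exact ⟨(⟨a, ha⟩, 1), by simp [f, f1]⟩
  have hαX : ∀ k : ℤ, α ^ k ∈ X := by
    intro k
    refine ⟨(1, ⟨α ^ k, zpow_mem_zpowers α k⟩), ?_⟩
    simp [f]
  have hXΓ : X ≤ Γ := by
    rintro _ ⟨⟨a, b⟩, rfl⟩
    have : f (a, b) = MulAut.conj (a : G) * (b : MulAut G) := rfl
    rw [this]
    exact mul_mem (hInnΓ ⟨a, rfl⟩) ((le_sup_right : zpowers α ≤ Γ) b.2)
  have hX'p : IsPGroup 2 (X.subgroupOf Γ) := hXp.comap_of_injective Γ.subtype Γ.subtype_injective
  obtain ⟨T, hT⟩ := hX'p.exists_le_sylow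
  have hTX : (T : Subgroup ↥Γ) ≤ X.subgroupOf Γ := by
    rintro ⟨τ, hτΓ⟩ hτ
    rw [mem_subgroupOf]
    obtain ⟨y, k, hy⟩ := hmemΓ τ hτΓ
    have hmemT : ∀ β (hβ : β ∈ X), (⟨β, hXΓ hβ⟩ : ↥Γ) ∈ (T : Subgroup ↥Γ) := by
      intro β hβ
      exact hT (mem_subgroupOf.mpr hβ)
    -- `conj y` lies in `T`
    have hyT : (⟨MulAut.conj y, hInnΓ ⟨y, rfl⟩⟩ : ↥Γ) ∈ (T : Subgroup ↥Γ) := by
      have h1 := mul_mem hτ (inv_mem (hmemT _ (hαX k)))
      convert h1 using 1
      apply Subtype.ext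
      change MulAut.conj y = τ * (α ^ k)⁻¹
      rw [← hy]
      group
    let ι : G →* ↥Γ := (MulAut.conj : G →* MulAut G).codRestrict Γ (fun x => hInnΓ ⟨x, rfl⟩)
    have hι : Function.Injective ι := by
      intro a b hab
      exact hinj (congrArg Subtype.val hab)
    let Q : Subgroup G := (T : Subgroup ↥Γ).comap ι
    have hQp : IsPGroup 2 Q := (T.isPGroup').comap_of_injective ι hι
    have hPQ : (P : Subgroup G) ≤ Q := by
      intro a ha
      exact hmemT _ (hf1 a ha)
    have hQP : Q = (P : Subgroup G) := P.is_maximal' hQp hPQ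
    have hyP : y ∈ (P : Subgroup G) := by
      rw [← hQP]
      exact hyT
    change τ ∈ X
    rw [← hy]
    exact mul_mem (hf1 y hyP) (hαX k)
  have hTab : ∀ a ∈ (T : Subgroup ↥Γ), ∀ b ∈ (T : Subgroup ↥Γ), a * b = b * a := by
    intro a ha b hb
    apply Subtype.ext
    exact hXab _ (hTX ha) _ (hTX hb)
  have hTK := Cfsg.Agent.Lib.Components.ZStarCore.sylow_le_commutator_of_abelian hOΓ hZΓ T hTab
  have hαT : (⟨α, hαΓ⟩ : ↥Γ) ∈ (T : Subgroup ↥Γ) := by
    apply hT
    rw [mem_subgroupOf]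
    simpa using hαX 1
  have := hcomm (hTK hαT)
  rw [mem_subgroupOf] at this
  obtain ⟨g, hg⟩ := this
  refine ⟨g, fun x => ?_⟩
  have h1 : (MulAut.conj g) x = α x := by
    rw [show (MulAut.conj g) = α from hg]
  rw [← h1, MulAut.conj_apply]

end Cfsg.Agent.S4593
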