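import Cfsg.Statements.S4601
import Cfsg.Agent.Lib.Coprime.PSolvable
import Cfsg.Agent.Lib.Coprime.InvSylow
import Cfsg.Agent.Lib.Basic.SylowConj
import Cfsg.Agent.Lib.Basic.SylowUtil

set_option autoImplicit false
open Cfsg

namespace Cfsg.Agent.S4601

universe u

open Cfsg.Agent.Lib.Coprime.PSolvable Cfsg.Agent.Lib.Coprime.InvSylow
open Cfsg.Agent.Lib.Basic.SylowConj Cfsg.Agent.Lib.Basic.SylowUtil

/-- The hypothesis on class sizes. -/
def Hyp (p q : ℕ) (G : Type u) [Group G] : Prop :=
  ∀ y : G, (∃ k : ℕ, orderOf y = q ^ k) → ¬ p ∣ (Subgroup.centralizer ({y} : Set G)).index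

section
variable {G : Type u} [Group G] [Finite G] {p q : ℕ} [Fact p.Prime] [Fact q.Prime]

theorem hyp_quotient (h : Hyp p q G) (N : Subgroup G) [N.Normal] : Hyp p q (G ⧸ N) := by
  intro y hy hdvd
  obtain ⟨k, hk⟩ := hy
  obtain ⟨R, hR⟩ := exists_sylow_of_orderOf hk
  obtain ⟨Q, rfl⟩ := Sylow.mapSurjective_surjective (QuotientGroup.mk'_surjective N) q R
  have hR' : y ∈ (Q : Subgroup G).map (QuotientGroup.mk' N) := hR
  obtain ⟨g, hg, rfl⟩ := hR'
  obtain ⟨j, hj⟩ := orderOf_eq_pow_of_mem Q hg
  apply h g ⟨j, hj⟩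
  refine hdvd.trans ?_
  refine (Subgroup.index_dvd_of_le ?_).trans
    (Subgroup.index_map_dvd (Subgroup.centralizer ({g} : Set G)) (QuotientGroup.mk'_surjective N))
  rintro _ ⟨c, hc, rfl⟩
  rw [SetLike.mem_coe, Subgroup.mem_centralizer_iff] at hc
  rw [Subgroup.mem_centralizer_iff]
  rintro _ rfl
  have := hc g rfl
  rw [← map_mul, ← map_mul, this]

/-- The fixed-point step: `P` acts on the `N`-orbit of `Q`. -/
theorem exists_normalizing (P : Sylow p G) (Q : Sylow q G) (N : Subgroup G) [hN : N.Normal]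
    (hcl : ∀ g ∈ (P : Subgroup G), ∃ n ∈ N, g • Q = n • Q)
    (hS : ¬ p ∣ (MulAction.stabilizer N Q).index) :
    ∃ R : Sylow q G, (P : Subgroup G) ≤ Subgroup.normalizer ((R : Subgroup G) : Set G) := by
  classical
  let T : SubMulAction (P : Subgroup G) (Sylow q G) :=
    { carrier := MulAction.orbit N Q
      smul_mem' := by
        rintro ⟨g, hg⟩ _ ⟨⟨n, hn⟩, rfl⟩
        obtain ⟨n', hn', he⟩ := hcl g hg
        refine ⟨⟨(g * n * g⁻¹) * n', N.mul_mem (hN.conj_mem n hn g) hn'⟩, ?_⟩
        change ((g * n * g⁻¹) * n') • Q = g • (n • Q)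
        rw [mul_smul, ← he, ← mul_smul, ← mul_smul]
        congr 1
        group }
  have hcard : ¬ p ∣ Nat.card T := by
    have : Nat.card T = (MulAction.stabilizer N Q).index := by
      rw [MulAction.index_stabilizer, ← Nat.card_coe_set_eq]
      rfl
    rwa [this]
  obtain ⟨⟨R, hR⟩, hfix⟩ := P.2.nonempty_fixed_point_of_prime_not_dvd_card T hcard
  refine ⟨R, fun g hg => ?_⟩
  have := hfix ⟨g, hg⟩
  have h2 : g • R = R := congrArg Subtype.val this
  exact Sylow.smul_eq_iff_mem_normalizer.mp h2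

/-- A `p`-subgroup that is normal lies in the centralizer of every `q`-element. -/
theorem le_centralizer_of_pgroup (h : Hyp p q G) {N : Subgroup G} [hN : N.Normal]
    (hp : IsPGroup p N) {x : G} (hx : ∃ k : ℕ, orderOf x = q ^ k) :
    N ≤ Subgroup.centralizer ({x} : Set G) := by
  obtain ⟨S⟩ : Nonempty (Sylow p (Subgroup.centralizer ({x} : Set G))) := inferInstance
  obtain ⟨P, hP⟩ := sylow_map_of_not_dvd_index (h x hx) S
  have h1 : N ≤ (P : Subgroup G) := hp.le_sylow_of_normal P
  rw [hP] at h1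
  refine h1.trans ?_
  rintro _ ⟨c, _, rfl⟩
  exact c.2

theorem mem_normalizer_of_comm {H : Subgroup G} {n : G} (h : ∀ x ∈ H, n * x = x * n) :
    n ∈ Subgroup.normalizer (H : Set G) := by
  rw [Subgroup.mem_normalizer_iff]
  intro x
  constructor
  · intro hx
    rw [h x hx]; simpa using hx
  · intro hx
    have := h _ hx
    have h2 : n * x * n⁻¹ = x := by
      have h3 : n * (n * x * n⁻¹) = n * x * n⁻¹ * n := this
      have h4 : n * x * n⁻¹ * n = n * x := by group
      rw [h4] at h3
      exact mul_left_cancel h3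
    rwa [h2] at hx

theorem stabilizer_top_of_forall {Q : Sylow q G} {N : Subgroup G}
    (h : ∀ n ∈ N, n ∈ Subgroup.normalizer ((Q : Subgroup G) : Set G)) :
    ¬ p ∣ (MulAction.stabilizer N Q).index := by
  have : MulAction.stabilizer N Q = ⊤ := by
    rw [eq_top_iff]
    rintro ⟨n, hn⟩ -
    exact Sylow.smul_eq_iff_mem_normalizer.mpr (h n hn)
  rw [this, Subgroup.index_top]
  exact fun hd => (Fact.out : p.Prime).one_lt.ne' (Nat.dvd_one.mp hd)

/-- Case: `N` is a `q`-group. -/
theorem case_q {Q : Sylow q G} {N : Subgroup G} [N.Normal] (hq : IsPGroup q N) :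
    ¬ p ∣ (MulAction.stabilizer N Q).index :=
  stabilizer_top_of_forall fun n hn =>
    Subgroup.le_normalizer (hq.le_sylow_of_normal Q hn)

/-- Case: `N` is a `p`-group. -/
theorem case_p (h : Hyp p q G) {Q : Sylow q G} {N : Subgroup G} [N.Normal] (hp : IsPGroup p N) :
    ¬ p ∣ (MulAction.stabilizer N Q).index := by
  refine stabilizer_top_of_forall fun n hn => ?_
  refine mem_normalizer_of_comm fun x hx => ?_
  have := le_centralizer_of_pgroup h hp (orderOf_eq_pow_of_mem Q hx) hn
  rw [Subgroup.mem_centralizer_iff] at this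
  exact (this x rfl).symm

/-- Case: `N` is a `p'`-group. -/
theorem case_p' {Q : Sylow q G} {N : Subgroup G} (hp : (Nat.card N).Coprime p) :
    ¬ p ∣ (MulAction.stabilizer N Q).index := by
  intro hd
  have h1 : p ∣ Nat.card N := hd.trans (Subgroup.index_dvd_card _)
  have := Nat.Coprime.eq_one_of_dvd hp.symm h1
  exact (Nat.Prime.one_lt Fact.out).ne' this

/-- Case: `N` is a `q'`-group. -/
theorem case_q' (h : Hyp p q G) {Q : Sylow q G} {N : Subgroup G} [hN : N.Normal]
    (hq : (Nat.card N).Coprime q) :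
    ¬ p ∣ (MulAction.stabilizer N Q).index := by
  have hnorm : ∀ A : Subgroup G, A ≤ Subgroup.normalizer (N : Set G) := fun A => by
    rw [Subgroup.normalizer_eq_top_iff.mpr hN]; exact le_top
  have hcop : ∀ A : Subgroup G, IsPGroup q A → (Nat.card A).Coprime (Nat.card N) := fun A hA => by
    obtain ⟨k, hk⟩ := IsPGroup.iff_card.mp hA
    rw [hk]
    exact (Nat.Coprime.pow_left k hq.symm)
  have hsolv : ∀ A : Subgroup G, IsPGroup q A → Group.IsSolvable A := fun A hA => by
    haveI := hA.isNilpotent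
    infer_instance
  obtain ⟨S₀, hS₀⟩ := exists_invariant_sylow (hnorm Q) (hcop Q Q.2) (Or.inl (hsolv Q Q.2)) p
  have key : ∀ x ∈ (Q : Subgroup G), ∀ s ∈ (S₀ : Subgroup N), (s : G) * x = x * s := by
    intro x hx s hs
    have hxq := orderOf_eq_pow_of_mem Q hx
    set A : Subgroup G := Subgroup.zpowers x with hA
    have hAQ : A ≤ Q := by
      rw [hA, Subgroup.zpowers_le]; exact hx
    have hAp : IsPGroup q A := Q.2.to_le hAQ
    obtain ⟨C⟩ : Nonempty (Sylow p (Subgroup.centralizer ({x} : Set G))) := inferInstance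
    obtain ⟨P, hP⟩ := sylow_map_of_not_dvd_index (h x hxq) C
    obtain ⟨S₁, hS₁⟩ := exists_sylow_inf_normal P N
    have hcomm₁ : ∀ y ∈ (S₁ : Subgroup N), (y : G) * x = x * y := by
      intro y hy
      have h1 : (y : G) ∈ (P : Subgroup G) := by
        have : (y : G) ∈ (S₁ : Subgroup N).map N.subtype := ⟨y, hy, rfl⟩
        rw [hS₁] at this
        exact this.1
      rw [hP] at h1
      obtain ⟨c, _, hc⟩ := h1
      have := c.2
      rw [Subgroup.mem_centralizer_iff] at this
      have h3 := this x rfl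
      rw [← hc]
      exact h3.symm
    have hA₀ : A ≤ Subgroup.normalizer (((S₀ : Subgroup N).map N.subtype : Subgroup G) : Set G) :=
      hAQ.trans hS₀
    have hA₁ : A ≤ Subgroup.normalizer (((S₁ : Subgroup N).map N.subtype : Subgroup G) : Set G) := by
      rw [hA, Subgroup.zpowers_le]
      refine mem_normalizer_of_comm ?_
      rintro _ ⟨y, hy, rfl⟩
      exact (hcomm₁ y hy).symm
    obtain ⟨c, hc, hcS⟩ := invariant_sylow_conj (hnorm A) (hcop A hAp) (Or.inl (hsolv A hAp)) p
      S₀ S₁ hA₀ hA₁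
    have hcx : (c : G) * x = x * c := by
      rw [Subgroup.mem_centralizer_iff] at hc
      exact (hc x (Subgroup.mem_zpowers x)).symm
    have hmem : c * s * c⁻¹ ∈ (S₁ : Subgroup N) := by
      rw [← hcS, Sylow.pointwise_smul_def]
      exact ⟨s, hs, rfl⟩
    have h4 := hcomm₁ _ hmem
    have h5 : ((c * s * c⁻¹ : N) : G) = (c : G) * s * (c : G)⁻¹ := by simp
    rw [h5] at h4
    have h7 : (c : G) * ((s : G) * x) = (c : G) * (x * s) := by
      calc (c : G) * ((s : G) * x) = (c : G) * s * ((c : G)⁻¹ * (c : G)) * x := by group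
        _ = (c : G) * s * (c : G)⁻¹ * ((c : G) * x) := by group
        _ = (c : G) * s * (c : G)⁻¹ * (x * c) := by rw [hcx]
        _ = ((c : G) * s * (c : G)⁻¹ * x) * c := by group
        _ = (x * ((c : G) * s * (c : G)⁻¹)) * c := by rw [h4]
        _ = (x * c) * s := by group
        _ = (c : G) * x * s := by rw [hcx]
        _ = (c : G) * (x * s) := by group
    exact mul_left_cancel h7
  have hle : (S₀ : Subgroup N) ≤ MulAction.stabilizer N Q := by
    intro s hs
    have : (s : G) ∈ Subgroup.normalizer ((Q : Subgroup G) : Set G) :=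
      mem_normalizer_of_comm fun x hx => key x hx s hs
    exact Sylow.smul_eq_iff_mem_normalizer.mpr this
  exact fun hd => S₀.not_dvd_index (hd.trans (Subgroup.index_dvd_of_le hle))

end

theorem main (p q : ℕ) [Fact p.Prime] [Fact q.Prime] : ∀ (n : ℕ) (G : Type u) [Group G] [Finite G],
    Nat.card G = n → (Cfsg.IsPSolvable p G ∨ Cfsg.IsPSolvable q G) → Hyp p q G →
    ∃ (P : Sylow p G) (Q : Sylow q G),
      (P : Subgroup G) ≤ Subgroup.normalizer ((Q : Subgroup G) : Set G) := by
  intro n
  induction n using Nat.strong_induction_on with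
  | _ n ih =>
    intro G _ _ hn hsolv h
    rcases subsingleton_or_nontrivial G with hs | hnt
    · obtain ⟨P⟩ : Nonempty (Sylow p G) := inferInstance
      obtain ⟨Q⟩ : Nonempty (Sylow q G) := inferInstance
      refine ⟨P, Q, fun g _ => ?_⟩
      rw [Subsingleton.elim g 1]
      exact one_mem _
    · -- a good normal subgroup
      have hex : ∃ N : Subgroup G, N.Normal ∧ N ≠ ⊥ ∧ (Good p (Nat.card N) ∨ Good q (Nat.card N)) := by
        rcases hsolv with hs | hs
        · obtain ⟨N, h1, h2, h3⟩ := exists_normal_good hs hnt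
          exact ⟨N, h1, h2, Or.inl h3⟩
        · obtain ⟨N, h1, h2, h3⟩ := exists_normal_good hs hnt
          exact ⟨N, h1, h2, Or.inr h3⟩
      obtain ⟨N, hN, hbot, hgood⟩ := hex
      have hlt : Nat.card (G ⧸ N) < n := by
        have h1 := Subgroup.card_mul_index N
        have h2 : 1 < Nat.card N := (Subgroup.one_lt_card_iff_ne_bot N).mpr hbot
        have h3 : 0 < N.index := Nat.pos_of_ne_zero Subgroup.index_ne_zero_of_finite
        rw [← hn, ← Subgroup.index_eq_card]
        nlinarith
      have hsolv' : Cfsg.IsPSolvable p (G ⧸ N) ∨ Cfsg.IsPSolvable q (G ⧸ N) := by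
        rcases hsolv with hs | hs
        · exact Or.inl (isPSolvable_quotient Fact.out N hs)
        · exact Or.inr (isPSolvable_quotient Fact.out N hs)
      obtain ⟨Pb, Qb, hPQ⟩ := ih _ hlt (G ⧸ N) rfl hsolv' (hyp_quotient h N)
      obtain ⟨P, rfl⟩ := Sylow.mapSurjective_surjective (QuotientGroup.mk'_surjective N) p Pb
      obtain ⟨Q, rfl⟩ := Sylow.mapSurjective_surjective (QuotientGroup.mk'_surjective N) q Qb
      have hcl : ∀ g ∈ (P : Subgroup G), ∃ n ∈ N, g • Q = n • Q := by
        intro g hg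
        set Qm : Subgroup (G ⧸ N) := (Q : Subgroup G).map (QuotientGroup.mk' N) with hQm
        have hgn : (QuotientGroup.mk' N g) ∈ Subgroup.normalizer (Qm : Set (G ⧸ N)) :=
          hPQ ⟨g, hg, rfl⟩
        set L : Subgroup G := Qm.comap (QuotientGroup.mk' N) with hL
        have hQL : (Q : Subgroup G) ≤ L := fun y hy => ⟨y, hy, rfl⟩
        have hgQL : ((g • Q : Sylow q G) : Subgroup G) ≤ L := by
          rw [Sylow.coe_subgroup_smul]
          rintro _ ⟨y, hy, rfl⟩
          have hy' : QuotientGroup.mk' N y ∈ Qm := ⟨y, hy, rfl⟩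
          have := (Subgroup.mem_normalizer_iff.mp hgn _).mp hy'
          change QuotientGroup.mk' N _ ∈ Qm
          simpa [MulAut.conj_apply] using this
        obtain ⟨u, huL, hu⟩ := exists_mem_smul_eq L Q (g • Q) hQL hgQL
        obtain ⟨y, hy, hyu⟩ := huL
        refine ⟨u * y⁻¹, ?_, ?_⟩
        · have h1 : (QuotientGroup.mk (u * y⁻¹) : G ⧸ N) = 1 := by
            have : (QuotientGroup.mk y : G ⧸ N) = QuotientGroup.mk u := hyu
            rw [QuotientGroup.mk_mul, QuotientGroup.mk_inv, ← this, mul_inv_cancel]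
          exact (QuotientGroup.eq_one_iff _).mp h1
        · rw [← hu, mul_smul]
          congr 1
          rw [eq_comm, inv_smul_eq_iff]
          exact (Sylow.smul_eq_iff_mem_normalizer.mpr (Subgroup.le_normalizer hy)).symm
      have hst : ¬ p ∣ (MulAction.stabilizer N Q).index := by
        rcases hgood with (⟨m, hm⟩ | hc) | (⟨m, hm⟩ | hc)
        · exact case_p h (IsPGroup.of_card hm)
        · exact case_p' hc
        · exact case_q (IsPGroup.of_card hm)
        · exact case_q' h hc
      obtain ⟨R, hR⟩ := exists_normalizing P Q N hcl hst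
      exact ⟨P, R, hR⟩

/-- Let p and q be primes and G a finite group that is p-solvable or q-solvable, in which no q-element has conjugacy class size divisible by p. Then some Sylow p-subgroup of G normalizes some Sylow q-subgroup of G. -/
theorem result {G : Type*} [Group G] [Finite G] (p q : ℕ) [Fact p.Prime] [Fact q.Prime] (hsolv : Cfsg.IsPSolvable p G ∨ Cfsg.IsPSolvable q G)
    (h : ∀ y : G, (∃ k : ℕ, orderOf y = q ^ k) → ¬ p ∣ (Subgroup.centralizer ({y} : Set G)).index) :
    ∃ (P : Sylow p G) (Q : Sylow q G), (P : Subgroup G) ≤ Subgroup.normalizer ((Q : Subgroup G) : Set G) := by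
  exact main p q _ G rfl hsolv h

end Cfsg.Agent.S4601
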