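import Cfsg.Statements.S4602
import Mathlib
import Cfsg.Agent.Lib.Coprime.InvSylow
import Cfsg.Agent.Lib.Solvable.PSeries

set_option autoImplicit false
open Cfsg

namespace Cfsg.Agent.S4602

/-- Let G be a finite p-solvable group and q a prime different from p. Some Sylow p-subgroup of G normalizes some Sylow q-subgroup of G if and only if q does not divide the order of G/O_{p'}(G), the quotient by the largest normal subgroup of order prime to p. -/
theorem result {G : Type*} [Group G] [Finite G] (p q : ℕ) [Fact p.Prime] [Fact q.Prime] (hpq : p ≠ q) (hsolv : Cfsg.IsPSolvable p G) :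
    (∃ (P : Sylow p G) (Q : Sylow q G), (P : Subgroup G) ≤ Subgroup.normalizer ((Q : Subgroup G) : Set G)) ↔ ¬ q ∣ (Cfsg.pPrimeCore p G).index := by
  classical
  open Cfsg.Agent.Lib.Coprime.Coset Cfsg.Agent.Lib.Coprime.InvSylow Cfsg.Agent.Lib.Basic.PCore
    Cfsg.Agent.Lib.Solvable.PSeries in
  have hp : p.Prime := Fact.out
  have hq : q.Prime := Fact.out
  set O : Subgroup G := Cfsg.pPrimeCore p G with hO
  haveI hOnormal : O.Normal := pPrimeCore_normal p G
  have hOcop : (Nat.card O).Coprime p := pPrimeCore_coprime p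
  constructor
  · rintro ⟨P, Q, hPQ⟩
    set π : G →* G ⧸ O := QuotientGroup.mk' O with hπ
    have hπsurj : Function.Surjective π := QuotientGroup.mk'_surjective O
    set Rb : Subgroup (G ⧸ O) := Cfsg.pCore p (G ⧸ O) with hRb
    haveI hRbnormal : Rb.Normal := pCore_normal p _
    have hRbp : IsPGroup p Rb := pCore_isPGroup p
    have hRP : Rb ≤ (P : Subgroup G).map π := by
      have := pCore_le_sylow (p := p) (G := G ⧸ O) (P.mapSurjective hπsurj)
      rwa [Sylow.coe_mapSurjective] at this
    set Qb : Subgroup (G ⧸ O) := (Q : Subgroup G).map π with hQb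
    have hQbq : IsPGroup q Qb := Q.isPGroup'.map π
    have hinf : Qb ⊓ Rb = ⊥ := by
      apply inf_eq_bot_of_coprime
      exact IsPGroup.coprime_card_of_ne q p hpq.symm Qb Rb hQbq hRbp
    have hcentr : Qb ≤ Subgroup.centralizer (Rb : Set (G ⧸ O)) := by
      rintro _ ⟨w, hw, rfl⟩
      rw [Subgroup.mem_centralizer_iff]
      intro t ht
      obtain ⟨u, hu, rfl⟩ := hRP ht
      have h1 : π u * π w * (π u)⁻¹ * (π w)⁻¹ ∈ Qb ⊓ Rb := by
        constructor
        · have h2 : u * w * u⁻¹ * w⁻¹ ∈ (Q : Subgroup G) :=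
            (Q : Subgroup G).mul_mem ((Subgroup.mem_normalizer_iff.mp (hPQ hu) w).mp hw)
              ((Q : Subgroup G).inv_mem hw)
          refine ⟨_, h2, ?_⟩
          simp only [map_mul, map_inv]
        · have h2 : π u * π w * (π u)⁻¹ * (π w)⁻¹ = π u * (π w * (π u)⁻¹ * (π w)⁻¹) := by group
          rw [h2]
          exact Rb.mul_mem ht (hRbnormal.conj_mem _ (Rb.inv_mem ht) _)
      rw [hinf] at h1
      have h5 : π u * π w * (π u)⁻¹ * (π w)⁻¹ = 1 := (Subgroup.mem_bot).mp h1
      rw [mul_inv_eq_one, mul_inv_eq_iff_eq_mul] at h5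
      exact h5
    have hcent := centralizer_pCore_le (isPSolvable_quotient hsolv O) (pPrimeCore_quotient p)
    have hQbbot : Qb = ⊥ := by
      rw [eq_bot_iff, ← hinf]
      intro y hy
      exact ⟨hy, hcent (hcentr hy)⟩
    have hQO : (Q : Subgroup G) ≤ O := by
      intro w hw
      have h1 : π w ∈ Qb := ⟨w, hw, rfl⟩
      rw [hQbbot] at h1
      have h2 : π w = 1 := (Subgroup.mem_bot).mp h1
      rw [← MonoidHom.mem_ker, QuotientGroup.ker_mk'] at h2
      exact h2
    intro hdvd
    exact Q.not_dvd_index (hdvd.trans (Subgroup.index_dvd_of_le hQO))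
  · intro hnd
    obtain ⟨P⟩ : Nonempty (Sylow p G) := inferInstance
    have hPO : (P : Subgroup G) ≤ Subgroup.normalizer (O : Set G) := by
      intro u _
      rw [Subgroup.mem_normalizer_iff]
      intro y
      constructor
      · exact fun hy => hOnormal.conj_mem y hy u
      · intro hy
        have := hOnormal.conj_mem _ hy u⁻¹
        simpa [mul_assoc] using this
    have hcop : (Nat.card (P : Subgroup G)).Coprime (Nat.card O) := by
      obtain ⟨n, hn⟩ := IsPGroup.iff_card.mp P.isPGroup'
      rw [hn]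
      exact Nat.Coprime.pow_left n hOcop.symm
    have hsolvP : Group.IsSolvable (P : Subgroup G) ∨ Group.IsSolvable O := by
      left
      haveI := P.isPGroup'.isNilpotent
      infer_instance
    obtain ⟨Q₀, hQ₀⟩ := exists_invariant_sylow hPO hcop hsolvP q
    have hQ₀p : IsPGroup q ((Q₀ : Subgroup O).map O.subtype) := Q₀.isPGroup'.map O.subtype
    have hQ₀idx : ¬ q ∣ ((Q₀ : Subgroup O).map O.subtype).index := by
      rw [Subgroup.index_map_subtype]
      intro h
      rcases (Nat.Prime.dvd_mul hq).mp h with h | h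
      · exact Q₀.not_dvd_index h
      · exact hnd h
    refine ⟨P, hQ₀p.toSylow hQ₀idx, ?_⟩
    rw [IsPGroup.toSylow_coe]
    exact hQ₀

end Cfsg.Agent.S4602
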