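import Cfsg.Statements.S4604
import Mathlib
import Cfsg.Agent.S0876

set_option autoImplicit false
open Cfsg

namespace Cfsg.Agent.S4604

open Cfsg in
theorem exists_maximal_p (p : ℕ) (hp : p.Prime) : ∃ M : Ideal AlgInt, M.IsMaximal ∧ (p : AlgInt) ∈ M := by
  have hne : Ideal.span {(p : AlgInt)} ≠ ⊤ := by
    intro htop
    rw [Ideal.span_singleton_eq_top] at htop
    obtain ⟨γ, hγ⟩ := htop.exists_right_inv
    have h1 : ((p : ℂ)) * (γ : ℂ) = 1 := by
      have := congrArg (Subtype.val) hγ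
      simpa using this
    have hp0 : (p : ℂ) ≠ 0 := by exact_mod_cast hp.ne_zero
    have h2 : (γ : ℂ) = algebraMap ℚ ℂ ((p : ℚ)⁻¹) := by
      simp only [map_inv₀, map_natCast]
      field_simp
      linear_combination h1
    have h3 : IsIntegral ℤ (algebraMap ℚ ℂ ((p : ℚ)⁻¹)) := h2 ▸ γ.2
    have h4 : IsIntegral ℤ ((p : ℚ)⁻¹) :=
      (isIntegral_algebraMap_iff (algebraMap ℚ ℂ).injective).1 h3
    obtain ⟨n, hn⟩ := IsIntegrallyClosed.isIntegral_iff.1 h4
    have h5 : (n : ℚ) * p = 1 := by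
      have hp0' : (p : ℚ) ≠ 0 := by exact_mod_cast hp.ne_zero
      have hn' : (n : ℚ) = (p : ℚ)⁻¹ := by simpa using hn
      rw [hn']
      field_simp
    have h6 : n * (p : ℤ) = 1 := by exact_mod_cast h5
    have h7 : (p : ℤ) ∣ 1 := ⟨n, by linarith⟩
    have h8 : p ∣ 1 := by exact_mod_cast h7
    exact hp.one_lt.ne' (Nat.dvd_one.1 h8)
  obtain ⟨M, hM, hle⟩ := Ideal.exists_le_maximal _ hne
  exact ⟨M, hM, hle (Ideal.mem_span_singleton_self _)⟩


/-- Let G be a finite group, p a prime and p^a the p-part of the order of G. Let x, y ∈ G and let x′, y′ be their p-regular parts: x′ has order prime to p, commutes with x·x′⁻¹, and x·x′⁻¹ has p-power order (likewise for y). Then x′ and y′ are conjugate in G if and only if for every irreducible character χ of G the algebraic integer χ(x)^(p^a) − χ(y)^(p^a) is p times an algebraic integer. -/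
theorem result {G : Type*} [Group G] [Finite G] (p : ℕ) [Fact p.Prime] (x y x' y' : G)
    (hx : (∃ k : ℕ, orderOf (x * x'⁻¹) = p ^ k) ∧ Commute (x * x'⁻¹) x' ∧ ¬ p ∣ orderOf x')
    (hy : (∃ k : ℕ, orderOf (y * y'⁻¹) = p ^ k) ∧ Commute (y * y'⁻¹) y' ∧ ¬ p ∣ orderOf y') :
    IsConj x' y' ↔ ∀ χ : Cfsg.IrrCharacter G, ∃ γ : Cfsg.AlgInt,
      (χ : G → ℂ) x ^ (p ^ (Nat.card G).factorization p) - (χ : G → ℂ) y ^ (p ^ (Nat.card G).factorization p) = (p : ℂ) * (γ : ℂ) := by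
  classical
  have hp : p.Prime := Fact.out
  obtain ⟨hx1, hx2, hx3⟩ := hx
  obtain ⟨hy1, hy2, hy3⟩ := hy
  obtain ⟨k, hk⟩ := hx1
  obtain ⟨l, hl⟩ := hy1
  set q := p ^ (Nat.card G).factorization p with hq
  have hCh : ∀ χ : Cfsg.IrrCharacter G, Cfsg.IsCharacter G (χ : G → ℂ) := fun χ =>
    Cfsg.Agent.Lib.Char.Basic.isCharacter_of_isIrrCharacter χ.2
  have hdq : ∀ z : G, ∀ j : ℕ, orderOf z = p ^ j → z ^ q = 1 := by
    intro z j hz
    have h1 : p ^ j ∣ Nat.card G := hz ▸ orderOf_dvd_natCard z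
    have h2 : p ^ j ∣ q := by
      rw [hq]
      exact (Nat.Prime.pow_dvd_iff_le_factorization hp Nat.card_pos.ne').1 h1 |> fun h =>
        pow_dvd_pow p h
    exact orderOf_dvd_iff_pow_eq_one.1 (hz ▸ h2)
  have hpowx : x ^ q = x' ^ q := by
    have h1 : x = (x * x'⁻¹) * x' := by group
    conv_lhs => rw [h1]
    rw [hx2.mul_pow, hdq _ k hk, one_mul]
  have hpowy : y ^ q = y' ^ q := by
    have h1 : y = (y * y'⁻¹) * y' := by group
    conv_lhs => rw [h1]
    rw [hy2.mul_pow, hdq _ l hl, one_mul]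
  constructor
  · intro hconj χ
    have hconj2 : IsConj (x ^ q) (y ^ q) := by
      rw [hpowx, hpowy]
      obtain ⟨c, hc⟩ := isConj_iff.1 hconj
      refine isConj_iff.2 ⟨c, ?_⟩
      rw [← hc, conj_pow]
    have h1 := Cfsg.Agent.Lib.Char.FrobCong.val_pow_pow_sub_mem (hCh χ) p hp x
      ((Nat.card G).factorization p)
    have h2 := Cfsg.Agent.Lib.Char.FrobCong.val_pow_pow_sub_mem (hCh χ) p hp y
      ((Nat.card G).factorization p)
    have h3 := Cfsg.Agent.S0876.val_eq_of_isConj (hCh χ) χ.2 hconj2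
    have h4 := Ideal.sub_mem _ h1 h2
    rw [← hq, h3, sub_sub_sub_cancel_right] at h4
    obtain ⟨γ, hγ⟩ := Ideal.mem_span_singleton'.1 h4
    refine ⟨γ, ?_⟩
    have := congrArg (Subtype.val) hγ
    rw [mul_comm]
    simpa [Cfsg.Agent.Lib.Char.FrobCong.val] using this.symm
  · intro h
    obtain ⟨M, hmax, hpM⟩ := exists_maximal_p p hp
    haveI := hmax
    have hM : Cfsg.IsPModular p M := ⟨hp, hmax, hpM⟩
    have ha : Cfsg.IsPPart p x (x * x'⁻¹) :=
      ⟨x', by group, hx2, ⟨k, hk⟩, hx3⟩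
    have hb : Cfsg.IsPPart p y (y * y'⁻¹) :=
      ⟨y', by group, hy2, ⟨l, hl⟩, hy3⟩
    have key := (Cfsg.Agent.S0876.result p M hM x y _ _ ha hb).2 ?_
    · have e1 : (x * x'⁻¹)⁻¹ * x = x' := by group
      have e2 : (y * y'⁻¹)⁻¹ * y = y' := by group
      rwa [e1, e2] at key
    · intro χ
      obtain ⟨γ, hγ⟩ := h χ
      have h5 : Cfsg.Agent.Lib.Char.FrobCong.val (hCh χ) x ^ q -
          Cfsg.Agent.Lib.Char.FrobCong.val (hCh χ) y ^ q = (p : Cfsg.AlgInt) * γ := by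
        apply Subtype.ext
        simpa [Cfsg.Agent.Lib.Char.FrobCong.val] using hγ
      have h6 := Cfsg.Agent.Lib.Char.FrobCong.sub_mem_of_pow_sub_mem p hp M hpM _ _ _
        (h5 ▸ Ideal.mul_mem_right γ M hpM)
      refine ⟨_, 1, h6, ?_, ?_⟩
      · intro h1M
        exact hmax.ne_top ((Ideal.eq_top_iff_one _).2 h1M)
      · simp [Cfsg.Agent.Lib.Char.FrobCong.val]

end Cfsg.Agent.S4604
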