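import Cfsg.Statements.S4608
import Cfsg.Agent.Lib.Blocks.Sym5Main
import Cfsg.Agent.Lib.Blocks.Sym5Glue4

set_option autoImplicit false
open Cfsg

namespace Cfsg.Agent.S4608

/-- Let G be a finite group, p a prime, M a maximal ideal of the algebraic integers containing p, and B a p-block of G with defect group D. If B has p-regular rank one and exactly five irreducible characters, then D is cyclic of order 5, or D has order 8 and is non-abelian (dihedral or quaternion). -/
theorem result {G : Type*} [Group G] [Finite G] (p : ℕ) [Fact p.Prime] (M : Ideal Cfsg.AlgInt) (hM : Cfsg.IsPModular p M) (B : Set (Cfsg.IrrCharacter G)) (hB : Cfsg.IsPBlock M B) (D : Subgroup G) (hD : Cfsg.IsDefectGroup p M B D)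
    (hl : Cfsg.blockRank p B = 1) (hk : Nat.card B = 5) :
    (Nat.card D = 5) ∨ (Nat.card D = 8 ∧ ¬ IsMulCommutative D) := by
  refine Cfsg.Agent.Lib.Blocks.Sym5Glue.card_defect_of_bound ?_ p M hM B hB D hD hl hk
  intro k A _ _ _ _ _ t I h hd
  exact (Cfsg.Agent.Lib.Blocks.Sym5Main.finrank_le_eight h hd).trans (by norm_num)

end Cfsg.Agent.S4608
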