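import Cfsg.Statements.S4611
import Mathlib
import Cfsg.Agent.S0915
import Cfsg.Agent.Lib.Blocks.Dominate
import Cfsg.Agent.Lib.Blocks.PrincipalCen
import Cfsg.Agent.Lib.Components.PComponent
import Cfsg.Agent.Lib.Char.FrobeniusKernel
import Cfsg.Agent.Lib.Char.Virtual
-- import your own Cfsg.Agent.* helpers here

set_option autoImplicit false
open Cfsg

namespace Cfsg.Agent.S4611



/-- Let G be a finite solvable group and π a nonempty set of primes, each dividing the order of G; fix for each p in π a maximal ideal M p of the algebraic integers containing p. Then the only irreducible character lying in the principal p-block for every p in π is the principal character if and only if G is generated by the subgroups O_{p'}(G), p in π (the largest normal subgroups of order prime to p). -/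
theorem result {G : Type*} [Group G] [Finite G] [Group.IsSolvable G] (π : Set ℕ) (hπ : ∀ p ∈ π, p.Prime ∧ p ∣ Nat.card G) (hne : π.Nonempty) (M : ℕ → Ideal Cfsg.AlgInt) (hM : ∀ p ∈ π, Cfsg.IsPModular p (M p)) :
    (∀ χ : Cfsg.IrrCharacter G, (∀ p ∈ π, χ ∈ Cfsg.principalBlock (M p) G) → (χ : G → ℂ) = fun _ => 1) ↔
      ⨆ p ∈ π, Cfsg.pPrimeCore p G = ⊤ := by
  classical
  letI := Fintype.ofFinite G
  constructor
  · intro hall
    by_contra hK
    set K : Subgroup G := ⨆ p ∈ π, pPrimeCore p G with hKdef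
    haveI hKn : K.Normal := Subgroup.biSup_normal π (fun p => pPrimeCore p G) (fun p _ => inferInstance)
    obtain ⟨g, hg⟩ : ∃ g, g ∉ K := by
      by_contra hno
      push Not at hno
      exact hK (eq_top_iff.mpr fun x _ => hno x)
    letI : Fintype (G ⧸ K) := Fintype.ofFinite _
    have hg1 : ((g : G ⧸ K)) ≠ 1 := fun h => hg ((QuotientGroup.eq_one_iff g).mp h)
    obtain ⟨θ, hθ, hθg⟩ : ∃ θ : G ⧸ K → ℂ, IsIrrCharacter (G ⧸ K) θ ∧ θ (g : G ⧸ K) ≠ θ 1 := by
      by_contra hno
      push Not at hno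
      exact hg1 (Cfsg.Agent.Lib.Char.FrobeniusKernel.eq_one_of_forall_irr hno)
    have hψ : IsIrrCharacter G (θ ∘ QuotientGroup.mk) :=
      Cfsg.Agent.Lib.Char.Basic.isIrrCharacter_comp_surjective hθ (QuotientGroup.mk' K) (QuotientGroup.mk'_surjective K)
    have hmem : ∀ p ∈ π, (⟨θ ∘ QuotientGroup.mk, hψ⟩ : IrrCharacter G) ∈ principalBlock (M p) G := by
      intro p hp
      haveI : Fact p.Prime := ⟨(hπ p hp).1⟩
      haveI := Cfsg.Agent.Lib.Blocks.Local.isPrime_of_isPModular (hM p hp)
      have hker : ∀ n ∈ pPrimeCore p G, (θ ∘ QuotientGroup.mk) n = (θ ∘ QuotientGroup.mk) 1 := by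
        intro n hn
        have hnK : n ∈ K := (le_iSup₂ (f := fun p (_ : p ∈ π) => pPrimeCore p G) p hp) hn
        have h1 : ((n : G ⧸ K)) = 1 := (QuotientGroup.eq_one_iff n).mpr hnK
        simp [h1]
      obtain ⟨χ', hχ'⟩ := Cfsg.Agent.Lib.Blocks.Kernel.exists_irr_of_kernel (pPrimeCore p G) hψ hker
      letI : Fintype (G ⧸ pPrimeCore p G) := Fintype.ofFinite _
      have hsolv : IsPSolvable p (G ⧸ pPrimeCore p G) :=
        Cfsg.Agent.Lib.Solvable.PSeries.isPSolvable_quotient
          (Cfsg.Agent.Lib.Solvable.PSeries.isPSolvable_of_solvable) _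
      have hsame := Cfsg.Agent.S0915.result p (M p) (hM p hp) hsolv
        (Cfsg.Agent.Lib.Components.PComponent.pPrimeCore_quotient_eq_bot p)
        (Cfsg.Agent.Lib.Blocks.Principal.trivChar _) χ'
      have h2 := Cfsg.Agent.Lib.Blocks.Dominate.sameBlock_comp_mk (pPrimeCore p G)
        (Cfsg.Agent.Lib.Blocks.Principal.trivChar _).2 χ'.2 hsame
      change SameBlock (M p) (fun _ : G => (1 : ℂ)) (θ ∘ QuotientGroup.mk)
      rw [hχ']
      exact h2
    have h3 := hall _ hmem
    have h4 := congrFun h3 g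
    have h5 := congrFun h3 1
    simp only [Function.comp] at h4 h5
    exact hθg (by rw [h4]; exact h5.symm ▸ rfl)
  · intro hK χ hχ
    obtain ⟨L, hLn, hL⟩ := Cfsg.Agent.Lib.Blocks.Kernel.exists_ker_of_irr χ.2
    have hle : (⨆ p ∈ π, pPrimeCore p G) ≤ L := by
      refine iSup₂_le fun p hp n hn => ?_
      haveI : Fact p.Prime := ⟨(hπ p hp).1⟩
      haveI := Cfsg.Agent.Lib.Blocks.Local.isPrime_of_isPModular (hM p hp)
      exact (hL n).mpr (Cfsg.Agent.Lib.Blocks.PrincipalCen.apply_eq_of_mem_core (hM p hp) (hχ p hp) hn)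
    rw [hK] at hle
    have hconst : ∀ g, (χ : G → ℂ) g = (χ : G → ℂ) 1 := fun g => (hL g).mp (hle trivial)
    obtain ⟨d, hd0, hd⟩ := Cfsg.Agent.Lib.Char.Virtual.exists_degree_of_isIrr χ.2
    have hself := Cfsg.Agent.Lib.Char.Ortho.classInner_irr_self χ.2
    rw [Cfsg.Agent.Lib.Char.Induced.classInner_def] at hself
    simp only [hconst, hd, map_natCast, Finset.sum_const, Finset.card_univ, nsmul_eq_mul] at hself
    have hcard : (Nat.card G : ℂ) ≠ 0 := Nat.cast_ne_zero.mpr Nat.card_pos.ne'
    rw [← Nat.card_eq_fintype_card] at hself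
    have h6 : ((d : ℂ) * d) = 1 := by
      field_simp at hself
      linear_combination hself
    have h7 : d * d = 1 := by exact_mod_cast h6
    have h8 : d = 1 := Nat.eq_one_of_mul_eq_one_right h7
    funext g
    rw [hconst, hd, h8]
    simp

end Cfsg.Agent.S4611
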