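import Cfsg.Statements.S4613
import Mathlib
import Cfsg.Agent.Lib.SylFix.Tw
import Cfsg.Agent.Lib.SylFix.Sz
import Cfsg.Agent.Lib.SylFix.Orth
import Cfsg.Agent.Lib.SylFix.Unit
import Cfsg.Agent.Lib.SylFix.Symp
import Cfsg.Agent.Lib.SylFix.Lin
import Cfsg.Agent.Lib.MinIndex.OOdd

set_option autoImplicit false
open Cfsg

namespace Cfsg.Agent.S4613

open Cfsg.Agent.Lib.SylFix.Core Cfsg.Agent.Lib.SylFix.Tw

/-- The case analysis. -/
theorem key {G : Type*} [Group G] [Finite G] [hs : IsSimpleGroup G] (p : ℕ) [Fact p.Prime] (hG : Cfsg.IsLieTypeChar p G) :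
    CF p G := by
  rcases hG with ⟨F, _, _, _, n, hn, -, ⟨e⟩⟩ | ⟨F, _, _, _, m, hm, -, ⟨e⟩⟩ | ⟨F, _, _, _, n, q, hF, hn, -, ⟨e⟩⟩ |
    ⟨F, _, _, _, m, hm, hodd, ⟨e⟩⟩ | ⟨F, _, _, _, m, hm, ⟨e⟩⟩ | ⟨F, _, _, _, m, a, b, hm, hab, ⟨e⟩⟩ |
    ⟨F, _, _, _, h⟩ | ⟨K, _, _, _, q, hq, h⟩ | ⟨rfl, h⟩ | ⟨rfl, K, _, _, m, hm, hK, ⟨e⟩⟩ | ⟨rfl, K, _, _, m, hm, hK, ⟨e⟩⟩
  · haveI := e.symm.isSimpleGroup
    exact CF.of_equiv e (Cfsg.Agent.Lib.SylFix.Lin.lin_CF hn p)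
  · haveI := e.symm.isSimpleGroup
    exact CF.of_equiv e (Cfsg.Agent.Lib.SylFix.Symp.sp_CF (by omega) p)
  · haveI := e.symm.isSimpleGroup
    exact CF.of_equiv e (Cfsg.Agent.Lib.SylFix.Unit.unit_CF hF hn p)
  · exact CF.of_equiv e (Cfsg.Agent.Lib.SylFix.Orth.odd_CF m hm (Cfsg.Agent.Lib.MinIndex.OOdd.two_ne_of_odd rfl hodd) p (CharP.cast_eq_zero F p) e.symm.isSimpleGroup)
  · exact CF.of_equiv e (Cfsg.Agent.Lib.SylFix.Orth.plus_CF m hm p (CharP.cast_eq_zero F p) e.symm.isSimpleGroup)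
  · exact CF.of_equiv e (Cfsg.Agent.Lib.SylFix.Orth.minus_CF (m - 1) (by omega) hab p (CharP.cast_eq_zero F p) e.symm.isSimpleGroup)
  · rcases h with ⟨-, ⟨e⟩⟩ | ⟨⟨e⟩⟩ | ⟨⟨e⟩⟩ | ⟨⟨e⟩⟩ | ⟨⟨e⟩⟩
    · haveI := e.symm.isSimpleGroup
      exact CF.of_equiv e (exc_CF (D := Cfsg.Lie.chevG2) (by simp) (by decide) F p)
    · haveI := e.symm.isSimpleGroup
      exact CF.of_equiv e (exc_CF (D := Cfsg.Lie.chevF4) (by simp) (by decide) F p)
    · haveI := e.symm.isSimpleGroup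
      exact CF.of_equiv e (exc_CF (D := Cfsg.Lie.chevE6) (by simp) (by decide) F p)
    · haveI := e.symm.isSimpleGroup
      exact CF.of_equiv e (exc_CF (D := Cfsg.Lie.chevE7) (by simp) (by decide) F p)
    · haveI := e.symm.isSimpleGroup
      exact CF.of_equiv e (exc_CF (D := Cfsg.Lie.chevE8) (by simp) (by decide) F p)
  · rcases h with ⟨hK, ⟨e⟩⟩ | ⟨hK, ⟨e⟩⟩
    · haveI := e.symm.isSimpleGroup
      exact CF.of_equiv e (e6_CF hq hK p)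
    · haveI := e.symm.isSimpleGroup
      exact CF.of_equiv e (d4_CF hq hK p)
  · exact Cfsg.Agent.Lib.SylFix.SzFix.iso_fix h
  · haveI := e.symm.isSimpleGroup
    exact CF.of_equiv e (f4_CF hK)
  · haveI := e.symm.isSimpleGroup
    exact CF.of_equiv e (g2_CF hK)

/-- Let G be a finite simple group of Lie type in characteristic p and α an automorphism of G of order prime to p that fixes some Sylow p-subgroup of G elementwise. Then α is the identity. -/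
theorem result {G : Type*} [Group G] [Finite G] [IsSimpleGroup G] (p : ℕ) [Fact p.Prime] (hG : Cfsg.IsLieTypeChar p G) (α : MulAut G) (hα : ¬ p ∣ orderOf α) (U : Sylow p G) (hfix : ∀ x ∈ (U : Subgroup G), α x = x) : α = 1 :=
  key p hG α hα U hfix

end Cfsg.Agent.S4613
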