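import Cfsg.Statements.S4620
import Mathlib
import Cfsg.Agent.Lib.Basic.PCore
import Cfsg.Agent.Lib.Solvable.PSeries
import Cfsg.Agent.Lib.Solvable.MinimalNormal
-- import your own Cfsg.Agent.* helpers here

set_option autoImplicit false
open scoped Pointwise
open Cfsg

namespace Cfsg.Agent.S4620

open Cfsg.Agent.Lib.Basic.PCore Cfsg.Agent.Lib.Solvable.MinimalNormal
open Cfsg.Agent.Lib.Solvable.PSeries (pPrimeCore_char pPrimeCore_coprime)

section aux

variable {H : Type*} [Group H] [Finite H] {p : ℕ} [Fact p.Prime]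

/-- A `p`-element normalizing a Sylow `p`-subgroup lies in it. -/
theorem mem_sylow_of_mem_normalizer (S : Sylow p H) {z : H} {k : ℕ} (hz : z ^ (p ^ k) = 1)
    (hn : z ∈ Subgroup.normalizer ((S : Subgroup H) : Set H)) : z ∈ (S : Subgroup H) := by
  have hp : IsPGroup p (Subgroup.zpowers z) := by
    rintro ⟨y, hy⟩
    obtain ⟨i, rfl⟩ := Subgroup.mem_zpowers_iff.mp hy
    refine ⟨k, Subtype.ext ?_⟩
    show (z ^ i) ^ (p ^ k) = 1
    rw [← zpow_natCast, zpow_comm, zpow_natCast, hz, one_zpow]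
  have h := hp.inf_normalizer_sylow S
  have hmem : z ∈ Subgroup.zpowers z ⊓ Subgroup.normalizer (S : Set H) :=
    ⟨Subgroup.mem_zpowers z, hn⟩
  rw [h] at hmem
  exact hmem.2

/-- Trivial intersection: an element commuting with a non-identity element of `S` normalizes `S`. -/
theorem mem_normalizer_of_commute
    (hTI : ∀ S S' : Sylow p H, S ≠ S' → (S : Subgroup H) ⊓ (S' : Subgroup H) = ⊥)
    (S : Sylow p H) {x y : H} (hx : x ∈ (S : Subgroup H)) (hx1 : x ≠ 1) (hc : y * x = x * y) :
    y ∈ Subgroup.normalizer ((S : Subgroup H) : Set H) := by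
  apply Sylow.smul_eq_iff_mem_normalizer.mp
  by_contra hne
  have h := hTI S (y • S) (Ne.symm hne)
  have hmem : x ∈ (S : Subgroup H) ⊓ ((y • S : Sylow p H) : Subgroup H) := by
    refine ⟨hx, ?_⟩
    rw [Sylow.coe_subgroup_smul]
    refine ⟨x, hx, ?_⟩
    show y * x * y⁻¹ = x
    rw [hc, mul_inv_cancel_right]
  rw [h] at hmem
  exact hx1 hmem

/-- The key lemma: no two nontrivial commuting normal subgroups. -/
theorem no_commuting_normals {X : Type*} [Group X] [Finite X] (ι : X →* H)
    (hι : Function.Injective ι)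
    (hTI : ∀ S S' : Sylow p H, S ≠ S' → (S : Subgroup H) ⊓ (S' : Subgroup H) = ⊥)
    (h1 : Cfsg.pCore p X = ⊥) (h2 : Cfsg.pPrimeCore p X = ⊥)
    (A B : Subgroup X) (hA : A.Normal) (hB : B.Normal) (hA1 : A ≠ ⊥) (hB1 : B ≠ ⊥)
    (hcomm : ∀ a ∈ A, ∀ b ∈ B, a * b = b * a) : False := by
  have hdvd : ∀ K : Subgroup X, K.Normal → K ≠ ⊥ → p ∣ Nat.card K := by
    intro K hK hK1
    by_contra hnd
    have hcop : (Nat.card K).Coprime p :=
      ((Nat.Prime.coprime_iff_not_dvd (Fact.out : p.Prime)).mpr hnd).symm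
    have := le_pPrimeCore hK hcop
    rw [h2] at this
    exact hK1 (le_bot_iff.mp this)
  obtain ⟨⟨x, hxA⟩, hx⟩ := exists_prime_orderOf_dvd_card' (G := A) p (hdvd A hA hA1)
  have hx' : orderOf x = p := by
    rw [← hx]
    exact (Subgroup.orderOf_mk x hxA).symm
  have hpr : p.Prime := Fact.out
  have hιx : orderOf (ι x) = p := by
    rw [orderOf_injective ι hι, hx']
  have hpx : IsPGroup p (Subgroup.zpowers (ι x)) := by
    rintro ⟨y, hy⟩
    obtain ⟨i, rfl⟩ := Subgroup.mem_zpowers_iff.mp hy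
    refine ⟨1, Subtype.ext ?_⟩
    show (ι x ^ i) ^ (p ^ 1) = 1
    rw [pow_one, ← zpow_natCast, zpow_comm, zpow_natCast, ← hιx, pow_orderOf_eq_one, one_zpow]
  obtain ⟨S, hS⟩ := hpx.exists_le_sylow
  have hxS : ι x ∈ (S : Subgroup H) := hS (Subgroup.mem_zpowers _)
  have hιx1 : ι x ≠ 1 := by
    intro h
    rw [h, orderOf_one] at hιx
    exact hpr.one_lt.ne hιx
  have hBn : ∀ b ∈ B, ι b ∈ Subgroup.normalizer ((S : Subgroup H) : Set H) := by
    intro b hb
    apply mem_normalizer_of_commute hTI S hxS hιx1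
    rw [← map_mul, ← map_mul, hcomm x hxA b hb]
  let R : Subgroup X := B ⊓ (S : Subgroup H).comap ι
  have hRp : IsPGroup p R := by
    rintro ⟨r, hrB, hrS⟩
    obtain ⟨k, hk⟩ := S.isPGroup' ⟨ι r, hrS⟩
    refine ⟨k, Subtype.ext ?_⟩
    have : ι r ^ (p ^ k) = 1 := congrArg Subtype.val hk
    apply hι
    show ι (r ^ (p ^ k)) = ι 1
    rw [map_pow, this, map_one]
  have hRn : R.Normal := by
    constructor
    rintro r ⟨hrB, hrS⟩ n
    refine ⟨hB.conj_mem r hrB n, ?_⟩
    obtain ⟨k, hk⟩ := S.isPGroup' ⟨ι r, hrS⟩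
    have hk' : ι r ^ (p ^ k) = 1 := congrArg Subtype.val hk
    have hpow : (ι (n * r * n⁻¹)) ^ (p ^ k) = 1 := by
      rw [map_mul, map_mul, map_inv, conj_pow, hk']
      simp
    exact mem_sylow_of_mem_normalizer S hpow (hBn _ (hB.conj_mem r hrB n))
  have hR1 : R = ⊥ := by
    have := le_pCore hRn hRp
    rw [h1] at this
    exact le_bot_iff.mp this
  obtain ⟨⟨z, hzB⟩, hz⟩ := exists_prime_orderOf_dvd_card' (G := B) p (hdvd B hB hB1)
  have hz' : orderOf z = p := by
    rw [← hz]
    exact (Subgroup.orderOf_mk z hzB).symm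
  have hzp : (ι z) ^ (p ^ 1) = 1 := by
    rw [pow_one, ← hz', ← map_pow, pow_orderOf_eq_one, map_one]
  have hzS : ι z ∈ (S : Subgroup H) := mem_sylow_of_mem_normalizer S hzp (hBn z hzB)
  have hzR : z ∈ R := ⟨hzB, hzS⟩
  rw [hR1] at hzR
  have : z = 1 := hzR
  rw [this, orderOf_one] at hz'
  exact hpr.one_lt.ne hz'

theorem IsMinNormal_map_mulAut {G : Type*} [Group G] (e : MulAut G) {M : Subgroup G}
    (h : IsMinNormal M) : IsMinNormal (M.map e.toMonoidHom) := by
  refine ⟨Subgroup.Normal.map h.normal _ e.surjective, ?_, ?_⟩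
  · intro hb
    exact h.ne_bot ((Subgroup.map_eq_bot_iff_of_injective _ e.injective).mp hb)
  · intro K hK hle
    have hK'n : (K.comap e.toMonoidHom).Normal := Subgroup.Normal.comap hK _
    have hK'le : K.comap e.toMonoidHom ≤ M := by
      intro x hx
      obtain ⟨m, hm, hmx⟩ := hle hx
      have : m = x := e.injective hmx
      rwa [← this]
    rcases h.eq_bot_or_eq _ hK'n hK'le with h1 | h1
    · left
      rw [eq_bot_iff]
      intro y hy
      have hmem : e.symm y ∈ K.comap e.toMonoidHom := by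
        show e (e.symm y) ∈ K
        rwa [e.apply_symm_apply]
      rw [h1] at hmem
      have h2 : e.symm y = 1 := hmem
      have h3 : y = e (e.symm y) := (e.apply_symm_apply y).symm
      rw [h3, h2, map_one]
      exact Subgroup.one_mem _
    · right
      apply le_antisymm hle
      rintro _ ⟨m, hm, rfl⟩
      rw [← h1] at hm
      exact hm

end aux

/-- Let H be a finite group with no nontrivial normal p-subgroup and no nontrivial normal subgroup of order prime to p, whose Sylow p-subgroup P is nontrivial and a trivial-intersection set (P meets its conjugates by elements outside N_H(P) trivially). Then H has a unique minimal normal subgroup N; N is non-abelian simple with trivial centralizer in H (so H embeds in Aut(N)), and a Sylow p-subgroup of N is again a nontrivial trivial-intersection set in N. -/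
theorem result {H : Type*} [Group H] [Finite H] (p : ℕ) [Fact p.Prime] (hOp : Cfsg.pCore p H = ⊥) (hOp' : Cfsg.pPrimeCore p H = ⊥) (P : Sylow p H) (hP1 : (P : Subgroup H) ≠ ⊥)
    (hTI : ∀ g : H, g ∉ Subgroup.normalizer ((P : Subgroup H) : Set H) → (P : Subgroup H) ⊓ (MulAut.conj g • (P : Subgroup H)) = ⊥) :
    ∃ N : Subgroup H, N.Normal ∧ N ≠ ⊥ ∧ (∀ K : Subgroup H, K.Normal → K ≠ ⊥ → N ≤ K) ∧
      IsSimpleGroup N ∧ ¬ IsMulCommutative N ∧ Subgroup.centralizer (N : Set H) = ⊥ ∧
      ∀ Q : Sylow p N, (Q : Subgroup N) ≠ ⊥ ∧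
        ∀ n : N, n ∉ Subgroup.normalizer ((Q : Subgroup N) : Set N) → (Q : Subgroup N) ⊓ (MulAut.conj n • (Q : Subgroup N)) = ⊥ := by
  classical
  have hpr : p.Prime := Fact.out
  have hTI' : ∀ S S' : Sylow p H, S ≠ S' → (S : Subgroup H) ⊓ (S' : Subgroup H) = ⊥ := by
    intro S S' hne
    obtain ⟨k, rfl⟩ := MulAction.exists_smul_eq H P S
    obtain ⟨l, rfl⟩ := MulAction.exists_smul_eq H P S'
    have hg : k⁻¹ * l ∉ Subgroup.normalizer ((P : Subgroup H) : Set H) := by
      intro hmem
      apply hne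
      have h1 : (k⁻¹ * l) • P = P := Sylow.smul_eq_iff_mem_normalizer.mpr hmem
      calc k • P = k • ((k⁻¹ * l) • P) := by rw [h1]
        _ = l • P := by rw [smul_smul, mul_inv_cancel_left]
    have h := hTI _ hg
    rw [eq_bot_iff]
    rintro x ⟨hx1, hx2⟩
    rw [Sylow.coe_subgroup_smul] at hx1 hx2
    obtain ⟨a, ha, rfl⟩ := hx1
    obtain ⟨b, hb, hab⟩ := hx2
    have hab' : l * b * l⁻¹ = k * a * k⁻¹ := hab
    have hamem : a ∈ (P : Subgroup H) ⊓ (MulAut.conj (k⁻¹ * l) • (P : Subgroup H)) := by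
      refine ⟨ha, ⟨b, hb, ?_⟩⟩
      show (k⁻¹ * l) * b * (k⁻¹ * l)⁻¹ = a
      calc (k⁻¹ * l) * b * (k⁻¹ * l)⁻¹ = k⁻¹ * (l * b * l⁻¹) * k := by group
        _ = k⁻¹ * (k * a * k⁻¹) * k := by rw [hab']
        _ = a := by group
    rw [h] at hamem
    have ha1 : a = 1 := hamem
    show (MulAut.conj k • a : H) ∈ (⊥ : Subgroup H)
    rw [ha1, smul_one]
    exact Subgroup.one_mem _
  have hnt : Nontrivial H := by
    by_contra hnt
    rw [not_nontrivial_iff_subsingleton] at hnt
    exact hP1 (Subsingleton.elim _ _)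
  obtain ⟨N, hN⟩ := exists_isMinNormal (G := H)
  have hNn : N.Normal := hN.normal
  have hE : ∀ A B : Subgroup H, A.Normal → B.Normal → A ≠ ⊥ → B ≠ ⊥ →
      (∀ a ∈ A, ∀ b ∈ B, a * b = b * a) → False :=
    fun A B hA hB hA1 hB1 hc => no_commuting_normals (MonoidHom.id H) Function.injective_id hTI'
      hOp hOp' A B hA hB hA1 hB1 hc
  have hNK : ∀ K : Subgroup H, K.Normal → K ≠ ⊥ → N ≤ K := by
    intro K hK hK1
    by_contra hle
    have hinf : N ⊓ K = ⊥ := by
      rcases hN.eq_bot_or_eq (N ⊓ K) (Subgroup.normal_inf_normal N K) inf_le_left with h | h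
      · exact h
      · exact absurd (inf_eq_left.mp h) hle
    exact hE N K hNn hK hN.ne_bot hK1 (fun a ha b hb =>
      Subgroup.commute_of_normal_of_disjoint N K hNn hK (disjoint_iff.mpr hinf) a b ha hb)
  have hC : Subgroup.centralizer (N : Set H) = ⊥ := by
    by_contra hne
    exact hE N _ hNn Subgroup.normal_centralizer hN.ne_bot hne
      (fun a ha b hb => Subgroup.mem_centralizer_iff.mp hb a ha)
  have hNcomm : ¬ IsMulCommutative N := by
    intro h
    exact hE N N hNn hNn hN.ne_bot hN.ne_bot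
      (fun a ha b hb => congrArg Subtype.val (h.is_comm.comm ⟨a, ha⟩ ⟨b, hb⟩))
  have hOpN : Cfsg.pCore p N = ⊥ := by
    have hle := map_pCore_of_normal_le (p := p) (N := N)
    rw [hOp, le_bot_iff] at hle
    exact (Subgroup.map_eq_bot_iff_of_injective _ N.subtype_injective).mp hle
  have hOp'N : Cfsg.pPrimeCore p N = ⊥ := by
    have hle := Cfsg.Agent.Lib.Solvable.PSeries.map_pPrimeCore_of_normal_le (p := p) (N := N)
    rw [hOp', le_bot_iff] at hle
    exact (Subgroup.map_eq_bot_iff_of_injective _ N.subtype_injective).mp hle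
  have hSimple : IsSimpleGroup N := by
    have hntN : Nontrivial N := (Subgroup.nontrivial_iff_ne_bot N).mpr hN.ne_bot
    refine ⟨?_⟩
    by_contra hcon
    push Not at hcon
    obtain ⟨L, hLn, hLb, hLt⟩ := hcon
    obtain ⟨M, hM, hML⟩ := exists_isMinNormal_le L hLn hLb
    have hMt : M ≠ ⊤ := fun h => hLt (top_le_iff.mp (h ▸ hML))
    have hex : ∃ h : H, M.map (MulAut.conjNormal h : MulAut N).toMonoidHom ≠ M := by
      by_contra hall
      push Not at hall
      have hn : (M.map N.subtype).Normal := by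
        constructor
        rintro _ ⟨m, hm, rfl⟩ h
        have : (MulAut.conjNormal h : MulAut N) m ∈ M := by
          rw [← hall h]
          exact ⟨m, hm, rfl⟩
        exact ⟨_, this, by simp [MulAut.conjNormal_apply]⟩
      have hne : M.map N.subtype ≠ ⊥ := by
        intro hb
        exact hM.ne_bot ((Subgroup.map_eq_bot_iff_of_injective _ N.subtype_injective).mp hb)
      have hle := hNK _ hn hne
      apply hMt
      rw [eq_top_iff]
      rintro ⟨x, hx⟩ -
      obtain ⟨m, hm, hmx⟩ := hle hx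
      have : m = ⟨x, hx⟩ := Subtype.ext hmx
      rwa [← this]
    obtain ⟨h, hh⟩ := hex
    have hM'min := IsMinNormal_map_mulAut (MulAut.conjNormal h : MulAut N) hM
    set M' := M.map (MulAut.conjNormal h : MulAut N).toMonoidHom with hM'
    have hinf : M ⊓ M' = ⊥ := by
      rcases hM.eq_bot_or_eq (M ⊓ M') (@Subgroup.normal_inf_normal _ _ M M' hM.normal hM'min.normal)
        inf_le_left with h1 | h1
      · exact h1
      · exfalso
        have hle : M ≤ M' := inf_eq_left.mp h1
        rcases hM'min.eq_bot_or_eq M hM.normal hle with h2 | h2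
        · exact hM.ne_bot h2
        · exact hh h2.symm
    exact no_commuting_normals N.subtype N.subtype_injective hTI' hOpN hOp'N M M' hM.normal
      hM'min.normal hM.ne_bot hM'min.ne_bot (fun a ha b hb =>
        Subgroup.commute_of_normal_of_disjoint M M' hM.normal hM'min.normal
          (disjoint_iff.mpr hinf) a b ha hb)
  refine ⟨N, hNn, hN.ne_bot, hNK, hSimple, hNcomm, hC, ?_⟩
  intro Q
  refine ⟨?_, ?_⟩
  · have hdvdN : p ∣ Nat.card N := by
      by_contra hnd
      have hcop : (Nat.card N).Coprime p :=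
        ((Nat.Prime.coprime_iff_not_dvd hpr).mpr hnd).symm
      have := le_pPrimeCore hNn hcop
      rw [hOp'] at this
      exact hN.ne_bot (le_bot_iff.mp this)
    have := Q.dvd_card_of_dvd_card hdvdN
    intro hQ
    rw [hQ, Subgroup.card_bot] at this
    exact hpr.one_lt.ne' (Nat.dvd_one.mp this)
  · intro n hn
    have hQp : IsPGroup p ((Q : Subgroup N).map N.subtype) := Q.isPGroup'.map _
    obtain ⟨S, hS⟩ := hQp.exists_le_sylow
    have hcomapP : IsPGroup p ((S : Subgroup H).comap N.subtype) :=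
      S.isPGroup'.comap_of_injective _ N.subtype_injective
    have hQle : (Q : Subgroup N) ≤ (S : Subgroup H).comap N.subtype := fun q hq => hS ⟨q, hq, rfl⟩
    have hQeq : (S : Subgroup H).comap N.subtype = Q := Q.is_maximal' hcomapP hQle
    rw [eq_bot_iff]
    rintro x ⟨hx1, hx2⟩
    by_contra hx
    obtain ⟨y, hy, hyx⟩ := hx2
    have hyx' : n * y * n⁻¹ = x := hyx
    have hxS : (x : H) ∈ (S : Subgroup H) := hQle hx1
    have hyS : (y : H) ∈ (S : Subgroup H) := hQle hy
    have hxS' : (x : H) ∈ (((n : H) • S : Sylow p H) : Subgroup H) := by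
      rw [Sylow.coe_subgroup_smul]
      refine ⟨y, hyS, ?_⟩
      show (n : H) * y * (n : H)⁻¹ = x
      rw [← hyx']
      rfl
    have hnS : (n : H) • S = S := by
      by_contra hne
      have h := hTI' S ((n : H) • S) (Ne.symm hne)
      have hmem : (x : H) ∈ (S : Subgroup H) ⊓ (((n : H) • S : Sylow p H) : Subgroup H) := ⟨hxS, hxS'⟩
      rw [h] at hmem
      apply hx
      have : (x : H) = 1 := hmem
      exact Subtype.ext this
    have hnN : (n : H) ∈ Subgroup.normalizer ((S : Subgroup H) : Set H) :=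
      Sylow.smul_eq_iff_mem_normalizer.mp hnS
    apply hn
    rw [Subgroup.mem_normalizer_iff]
    intro q
    have hqiff : ∀ r : N, r ∈ (Q : Subgroup N) ↔ (r : H) ∈ (S : Subgroup H) := by
      intro r
      rw [← hQeq]
      rfl
    rw [hqiff, hqiff]
    exact Subgroup.mem_normalizer_iff.mp hnN q

end Cfsg.Agent.S4620
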