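import Cfsg.Statements.S4629
import Mathlib
import Cfsg.Agent.Lib.Char.SylowSq.Plane

set_option autoImplicit false
open Cfsg

namespace Cfsg.Agent.S4629

theorem result {F : Type*} [Field F] [Fintype F] (hF : Odd (Fintype.card F)) (m : ℕ) (hm : 3 ≤ m) (P : Sylow 2 (Cfsg.Omega F (Cfsg.quadFormOdd m F))) : ∀ x : (P : Subgroup (Cfsg.Omega F (Cfsg.quadFormOdd m F))), x ^ 2 ∈ commutator (P : Subgroup (Cfsg.Omega F (Cfsg.quadFormOdd m F))) :=
  Cfsg.Agent.Lib.Char.SylowSq.Plane.sq_odd hF hm P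

end Cfsg.Agent.S4629
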