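import Cfsg.Statements.S4630
import Mathlib
import Cfsg.Agent.Lib.Char.SylowSq.Two

set_option autoImplicit false
open Cfsg

namespace Cfsg.Agent.S4630

theorem result {F : Type*} [Field F] [Fintype F] (hF : Odd (Fintype.card F)) (m : ℕ) (hm : 1 ≤ m) (hm' : Even m ∨ 4 ≤ m) (P : Sylow 2 (Cfsg.Omega F (Cfsg.quadFormPlus m F))) : ∀ x : (P : Subgroup (Cfsg.Omega F (Cfsg.quadFormPlus m F))), x ^ 2 ∈ commutator (P : Subgroup (Cfsg.Omega F (Cfsg.quadFormPlus m F))) := by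
  by_cases h4 : 4 ≤ m
  · exact Cfsg.Agent.Lib.Char.SylowSq.Plane.sq_plus hF h4 P
  · have h2 : m = 2 := by
      rcases hm' with ⟨k, hk⟩ | h
      · omega
      · omega
    subst h2
    exact Cfsg.Agent.Lib.Char.SylowSq.Two.sq_plus_two hF P

end Cfsg.Agent.S4630
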