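import Cfsg.Statements.S4631
import Mathlib
import Cfsg.Agent.Lib.Char.SylowSq.Plane

set_option autoImplicit false
open Cfsg

namespace Cfsg.Agent.S4631

theorem result {F : Type*} [Field F] [Fintype F] (hF : Odd (Fintype.card F)) (m : ℕ) (hm : 4 ≤ m) (a b : F) (hab : ∀ z₁ z₂ : F, z₁ ^ 2 + a * z₁ * z₂ + b * z₂ ^ 2 = 0 → z₁ = 0 ∧ z₂ = 0) (P : Sylow 2 (Cfsg.Omega F (Cfsg.quadFormMinus (m - 1) F a b))) : ∀ x : (P : Subgroup (Cfsg.Omega F (Cfsg.quadFormMinus (m - 1) F a b))), x ^ 2 ∈ commutator (P : Subgroup (Cfsg.Omega F (Cfsg.quadFormMinus (m - 1) F a b))) :=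
  Cfsg.Agent.Lib.Char.SylowSq.Plane.sq_minus hF hm hab P

end Cfsg.Agent.S4631
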