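import Cfsg.Statements.S4634
import Mathlib
import Cfsg.Agent.Lib.Dade.PH

set_option autoImplicit false
set_option linter.style.haveILetI false
open Cfsg

namespace Cfsg.Agent.S4634

open Cfsg.Agent.Lib.Dade Cfsg.Agent.Lib.Blocks.AbFree

lemma arith1 {t e r : ℕ} (h4 : t ^ 2 ≤ (t + 1) * e) (hr : r * e = t) (hr2 : 2 ≤ r) (he : 0 < e) : False := by
  have h5 : 2 * e ≤ t := by
    rw [← hr]
    exact Nat.mul_le_mul_right e hr2
  have ht0 : 0 < t := by omega
  have h6 : 2 * t ^ 2 ≤ (t + 1) * t := by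
    calc 2 * t ^ 2 ≤ 2 * ((t + 1) * e) := Nat.mul_le_mul_left 2 h4
      _ = (t + 1) * (2 * e) := by ring
      _ ≤ (t + 1) * t := Nat.mul_le_mul_left _ h5
  have h7 : 2 * t * t ≤ (t + 1) * t := by
    calc 2 * t * t = 2 * t ^ 2 := by ring
      _ ≤ _ := h6
  have h8 := Nat.le_of_mul_le_mul_right h7 ht0
  omega

lemma arith2 {t d₁ d₂ d₃ : ℕ} (h1 : t ≤ d₁) (h2 : t ≤ d₂) (h3 : d₁ ^ 2 + (d₂ ^ 2 + d₃ ^ 2) ≤ (t + 1) * t) (h4 : 1 ≤ d₃) :
    False := by
  have h5 := Nat.pow_le_pow_left h1 2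
  have h6 := Nat.pow_le_pow_left h2 2
  have h7 := Nat.pow_le_pow_left h4 2
  nlinarith

/-- The group `Q` is normal when its index is small. -/
lemma normal_of_index {L : Type*} [Group L] [Finite L] {p : ℕ} [hp : Fact p.Prime] {Q : Subgroup L} (hQp : IsPGroup p Q)
    {e : ℕ} (hi : Q.index = e) (he : e < p) (he0 : 0 < e) : Q.Normal := by
  have hpe : ¬ p ∣ Q.index := by
    rw [hi]
    exact Nat.not_dvd_of_pos_of_lt he0 he
  let S : Sylow p L := hQp.toSylow hpe
  have h1 := card_sylow_modEq_one p L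
  have h2 : Nat.card (Sylow p L) ∣ Q.index := by
    have := S.card_dvd_index
    exact this
  rw [hi] at h2
  have h3 : Nat.card (Sylow p L) < p := lt_of_le_of_lt (Nat.le_of_dvd he0 h2) he
  have h4 : Nat.card (Sylow p L) = 1 := by
    have h5 : Nat.card (Sylow p L) % p = 1 % p := h1
    rwa [Nat.mod_eq_of_lt h3, Nat.mod_eq_of_lt hp.out.one_lt] at h5
  haveI : Subsingleton (Sylow p L) := (Nat.card_eq_one_iff_unique.mp h4).1
  exact S.normal_of_subsingleton

/-- Let B be a block of the finite group G relative to a maximal ideal M of the algebraic integers containing the prime p, with a nontrivial cyclic defect group P, let c be a block of C_G(P) inducing B, T the stabilizer of c in N_G(P) and e the index of C_G(P) in T. Let F be any finite group of order #P · e having a cyclic subgroup Q of order #P that is its own centralizer (F is then the semidirect product of Q by a cyclic group of order e acting faithfully). Then there is a perfect isometry from the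 set of all irreducible characters of F onto B whose signs agree on all the characters of F that do not contain Q in their kernel. -/
theorem result {G : Type*} [Group G] [Finite G] (p : ℕ) [Fact p.Prime] (M : Ideal Cfsg.AlgInt) (hM : Cfsg.IsPModular p M) (B : Set (Cfsg.IrrCharacter G)) (hB : Cfsg.IsPBlock M B) (P : Subgroup G) (hPD : Cfsg.IsDefectGroup p M B P) (hP1 : P ≠ ⊥) (hcyc : IsCyclic P) (c : Set (Cfsg.IrrCharacter (Subgroup.centralizer (P : Set G)))) (hc : Cfsg.IsInducedBlock M (Subgroup.centralizer (P : Set G)) c B) (T : Subgroup G) (hT : ∀ g : G, g ∈ T ↔ (g ∈ Subgroup.normalizer (P : Set G) ∧ Cfsg.StabilizesBlock (Subgroup.centralizer (P : Set G)) c g)) (e : ℕ) (he : (Subgroup.centralizer (P : Set G)).relIndex T = e) (F : Type*) [Group F] [Finite F] (hF : Nat.card F = Nat.card P * e) (Q : Subgroup F) (hQ : IsCyclic Q) (hQcard : Nat.card Q = Nat.card P) (hQC : Subgroup.centralizer (Q : Set F) = Q) : ∃ (I : Cfsg.IrrCharacter F → Cfsg.IrrCharacter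 G) (ε : Cfsg.IrrCharacter F → ℤ), Cfsg.IsPerfectIsometry p M (Set.univ : Set (Cfsg.IrrCharacter F)) B I ε ∧ ∀ η η' : Cfsg.IrrCharacter F, (∃ x ∈ Q, (η : F → ℂ) x ≠ (η : F → ℂ) 1) → (∃ x ∈ Q, (η' : F → ℂ) x ≠ (η' : F → ℂ) 1) → ε η = ε η' := by
  classical
  cases nonempty_fintype G
  cases nonempty_fintype F
  haveI := Cfsg.Agent.Lib.Blocks.Local.isPrime_of_isPModular hM
  letI iP : Fintype P := Fintype.ofFinite _
  letI iQ : Fintype Q := Fintype.ofFinite _
  have hcard := Cfsg.Agent.S0908.result p M hM B hB P hPD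
  have ha1 : 1 ≤ blockDefect p B := by
    by_contra h0
    have h2 : blockDefect p B = 0 := by omega
    rw [h2, pow_zero] at hcard
    exact hP1 ((Subgroup.card_eq_one).mp hcard)
  obtain ⟨hep, hrank, -, r₀, -, -, hr₀, -⟩ := cyclic_main hM hcyc ha1 hcard hB hPD hc hT he
  obtain ⟨F₁, E₁, X₁, a₁, s₁, y₁, he₁, H₁, N₁, C₁⟩ := exists_cyclic_data hM hB hPD hP1 hcyc hc hT he
  have hq2 : 2 ≤ Nat.card P := by
    rw [hcard]
    calc 2 ≤ p := (Fact.out : p.Prime).two_le
      _ ≤ p ^ blockDefect p B := Nat.le_self_pow (by omega) p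
  have he0 : 0 < e := by
    have h1 : 0 < Nat.card F := Nat.card_pos
    rw [hF] at h1
    exact Nat.pos_of_mul_pos_left h1
  have hpp : p.Prime := Fact.out
  have hep' : e < p := by
    have h6 := Nat.le_of_dvd (by have := hpp.two_le; omega) hep
    have := hpp.two_le
    omega
  have hpe : ¬ p ∣ e := Nat.not_dvd_of_pos_of_lt he0 hep'
  have hQc' : Nat.card Q = p ^ blockDefect p B := hQcard.trans hcard
  have hQp : IsPGroup p Q := IsPGroup.of_card hQc'
  have hF' : Nat.card F = Nat.card Q * e := by rw [hQcard, hF]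
  have hQi : Q.index = e := by
    have h1 := Q.card_mul_index
    rw [hF'] at h1
    exact Nat.eq_of_mul_eq_mul_left Nat.card_pos h1
  haveI hN : Q.Normal := normal_of_index hQp hQi hep' he0
  have he₂ : Nat.card (autQ Q) = e := card_autQ hQC hF'
  -- the free action
  let ρ : P ≃* Q := mulEquivOfCyclicCardEq hQcard.symm
  have hfree : ∀ σ ∈ autQ Q, ∀ v : Q, v ≠ 1 → σ v = v → σ = 1 := by
    intro σ hσ v hv hfix
    have h3 := pow_card_eq_one' (x := (⟨σ, hσ⟩ : autQ Q))
    rw [he₂] at h3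
    have h4 : σ ^ e = 1 := congrArg Subtype.val h3
    have h5 : MulAut.congr ρ.symm (σ ^ e) = 1 := by rw [h4, map_one]
    rw [map_pow] at h5
    have h6 := mem_of_pow_eq_one' hcyc hcard he₁ hep h5
    have h7 : ρ.symm v ≠ 1 := by
      intro h0
      apply hv
      simpa using h0
    have h8 : MulAut.congr ρ.symm σ (ρ.symm v) = ρ.symm v := by
      show ρ.symm (σ (ρ (ρ.symm v))) = ρ.symm v
      rw [MulEquiv.apply_symm_apply, hfix]
    have h9 := H₁.hfree _ h6 _ h7 h8
    exact (MulAut.congr ρ.symm).injective (h9.trans (map_one _).symm)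
  -- the data of the second group
  have heq : e < Nat.card Q := by
    rw [hQc']
    calc e < p := hep'
      _ ≤ p ^ blockDefect p B := Nat.le_self_pow (by omega) p
  have hcu : ∀ η : IrrCharacter F, η ∈ (Set.univ : Set (IrrCharacter F)) := fun _ => Set.mem_univ _
  have H₂ := lat_of_frob hQ hQc' hQC hF' heq hfree hcu
  have C₂ := colData_of_frob (M := M) hQ hQc' hQC hF' hpe hfree hcu H₂
  letI iE : Fintype (autQ Q) := Fintype.ofFinite _
  have hEc : Fintype.card (autQ Q) = e := by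
    rw [← Nat.card_eq_fintype_card, he₂]
  have hr₀' : r₀ * e = Nat.card Q - 1 := by rw [hQc']; exact hr₀
  have hr1 : 1 ≤ r₀ := by
    by_contra h0
    have h2 : r₀ = 0 := by omega
    rw [h2, zero_mul] at hr₀'
    have : 2 ≤ Nat.card Q := by rw [hQcard]; exact hq2
    omega
  have hirr := card_irr_frob hQ hQC hfree hF' hr₀'
  obtain ⟨X₂, a₂, s₂, y₂, N₂⟩ := exists_nf H₂ hr1 (by rw [hEc]; exact hr₀') (by
    refine (congrArg Finset.card (Finset.eq_univ_of_forall fun x => by simp)).trans ?_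
    rw [Finset.card_univ, ← Nat.card_eq_fintype_card, hirr, hEc])
  obtain ⟨I, ε, hI, hY⟩ := exists_perfect hM hcyc hQ hcard hQc' he₁ he₂ hep H₁ N₁ C₁ H₂ N₂ C₂
  refine ⟨I, ε, hI, ?_⟩
  intro η η' hη hη'
  have hcQ := comm_of_cyclic hQ
  have hqQ2 : 2 ≤ Nat.card Q := by rw [hQcard]; exact hq2
  have hdegge : ∀ ζ : IrrCharacter F, (∀ u v : Q, u ≠ 1 → v ≠ 1 → (ζ : F → ℂ) u = (ζ : F → ℂ) v) →
      (∃ x ∈ Q, (ζ : F → ℂ) x ≠ (ζ : F → ℂ) 1) → Nat.card Q - 1 ≤ charDegree (ζ : F → ℂ) := by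
    rintro ζ hconst ⟨x, hxQ, hx⟩
    have hx1 : (⟨x, hxQ⟩ : Q) ≠ 1 := by
      intro h
      have h1 : x = 1 := congrArg Subtype.val h
      rw [h1] at hx
      exact hx rfl
    exact deg_ge_of_const hcQ ζ (c := (ζ : F → ℂ) x) (fun v hv => hconst v ⟨x, hxQ⟩ hv hx1) hx
  by_cases hm1 : r₀ = 1
  · have hee : e = Nat.card Q - 1 := by
      rw [hm1, one_mul] at hr₀'
      exact hr₀'
    have htrans : ∀ u v : Q, u ≠ 1 → v ≠ 1 → ∃ σ ∈ autQ Q, σ u = v := by
      intro u v hu hv
      have hinj : Function.Injective (fun σ : autQ Q => (σ : MulAut Q) u) := by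
        intro σ τ h
        have h5 : ((τ⁻¹ * σ : autQ Q) : MulAut Q) u = u := by
          show (τ : MulAut Q)⁻¹ ((σ : MulAut Q) u) = u
          have h6 : (σ : MulAut Q) u = (τ : MulAut Q) u := h
          rw [h6]
          simp
        have h7 := hfree _ (τ⁻¹ * σ : autQ Q).2 u hu h5
        have h8 : τ⁻¹ * σ = 1 := Subtype.ext h7
        exact (inv_mul_eq_one.mp h8).symm
      have himg : (Finset.univ : Finset (autQ Q)).image (fun σ : autQ Q => (σ : MulAut Q) u) = (Finset.univ.erase (1 : Q)) := by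
        refine Finset.eq_of_subset_of_card_le ?_ ?_
        · intro w hw
          obtain ⟨σ, -, rfl⟩ := Finset.mem_image.mp hw
          refine Finset.mem_erase.mpr ⟨?_, Finset.mem_univ _⟩
          intro h
          apply hu
          simpa using h
        · rw [Finset.card_image_of_injective _ hinj, Finset.card_univ, hEc, hee,
            Finset.card_erase_of_mem (Finset.mem_univ _), Finset.card_univ, Nat.card_eq_fintype_card]
      have hvm : v ∈ (Finset.univ.erase (1 : Q)) := Finset.mem_erase.mpr ⟨hv, Finset.mem_univ _⟩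
      rw [← himg] at hvm
      obtain ⟨σ, -, hσ⟩ := Finset.mem_image.mp hvm
      exact ⟨σ, σ.2, hσ⟩
    have hconstall : ∀ (ζ : IrrCharacter F) (u v : Q), u ≠ 1 → v ≠ 1 → (ζ : F → ℂ) u = (ζ : F → ℂ) v := by
      intro ζ u v hu hv
      obtain ⟨σ, hσ, rfl⟩ := htrans u v hu hv
      exact (H₂.inv ζ (by simp) σ hσ u hu).symm
    by_cases hne : η = η'
    · rw [hne]
    exfalso
    have h1 := hdegge η (hconstall η) hη
    have h2 := hdegge η' (hconstall η') hη'
    let triv : IrrCharacter F := ⟨fun b => (((1 : F →* ℂˣ) b : ℂˣ) : ℂ), Cfsg.Agent.Lib.Char.LinearChars.isIrr_of_hom 1⟩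
    have htriv : ∀ ζ : IrrCharacter F, (∃ x ∈ Q, (ζ : F → ℂ) x ≠ (ζ : F → ℂ) 1) → ζ ≠ triv := by
      rintro ζ ⟨x, -, hx⟩ rfl
      apply hx
      simp [triv]
    have hsum : ∑ χ : IrrCharacter F, charDegree (χ : F → ℂ) ^ 2 = Nat.card F := by
      have h3 := Cfsg.Agent.Lib.Char.CompleteCor.sum_sq_degrees (G := F)
      have h4 : ((∑ χ : IrrCharacter F, charDegree (χ : F → ℂ) ^ 2 : ℕ) : ℂ) = (Nat.card F : ℂ) := by
        rw [← h3]
        push_cast
        refine Finset.sum_congr rfl fun χ _ => ?_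
        rw [Cfsg.Agent.Lib.Blocks.RegInt.charDegree_cast]
      exact_mod_cast h4
    have h3 : ∑ χ ∈ ({η, η', triv} : Finset (IrrCharacter F)), charDegree (χ : F → ℂ) ^ 2 ≤
        ∑ χ : IrrCharacter F, charDegree (χ : F → ℂ) ^ 2 :=
      Finset.sum_le_sum_of_subset (Finset.subset_univ _)
    rw [Finset.sum_insert (by simp [hne, htriv η hη]), Finset.sum_insert (by simp [htriv η' hη']), Finset.sum_singleton,
      hsum, hF', hee] at h3
    have h4 : 1 ≤ charDegree ((triv : IrrCharacter F) : F → ℂ) :=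
      Nat.one_le_iff_ne_zero.mpr (Cfsg.Agent.Lib.Blocks.RegInt.charDegree_ne_zero triv)
    obtain ⟨t, ht⟩ : ∃ t, Nat.card Q = t + 1 := ⟨Nat.card Q - 1, by omega⟩
    rw [ht, Nat.add_sub_cancel] at h1 h2 h3
    exact arith2 h1 h2 h3 h4
  · have hr2 : 2 ≤ r₀ := by omega
    have hnotX : ∀ ζ : IrrCharacter F, (∃ x ∈ Q, (ζ : F → ℂ) x ≠ (ζ : F → ℂ) 1) → ζ ∉ X₂ := by
      intro ζ hζ hX
      have h1 := hdegge ζ (fun u v hu hv => by
        have h3 := N₂.F_X H₂ hX hu
        have h4 := N₂.F_X H₂ hX hv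
        exact h3.trans h4.symm) hζ
      have h2 := deg_sq_le ζ
      rw [hF'] at h2
      obtain ⟨t, ht⟩ : ∃ t, Nat.card Q = t + 1 := ⟨Nat.card Q - 1, by omega⟩
      rw [ht, Nat.add_sub_cancel] at h1 hr₀'
      rw [ht] at h2
      have h3 := Nat.pow_le_pow_left h1 2
      have h4 : t ^ 2 ≤ (t + 1) * e := h3.trans h2
      exact arith1 h4 hr₀' hr2 he0
    rw [hY η (Set.mem_univ _) (hnotX η hη), hY η' (Set.mem_univ _) (hnotX η' hη')]

end Cfsg.Agent.S4634
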