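import Cfsg.Statements.S4635
import Mathlib
import Cfsg.Agent.Lib.Dade.PF
import Cfsg.Agent.S0973
import Cfsg.Agent.S4670
import Cfsg.Agent.Lib.Blocks.PerfectV4c

set_option autoImplicit false
set_option linter.style.haveILetI false
open Cfsg

namespace Cfsg.Agent.S4635

open Cfsg.Agent.Lib.Blocks.Pairs Cfsg.Agent.Lib.Blocks.AbelianCount
  Cfsg.Agent.Lib.Blocks.CentralQuot Cfsg.Agent.Lib.Blocks.Sections Cfsg.Agent.Lib.Blocks.Regular
  Cfsg.Agent.Lib.Blocks.PerfectV4 Cfsg.Agent.Lib.Blocks.Transport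

/-- The subgroup of order `p` of a cyclic group is characteristic. -/
lemma mem_iff_of_cyclic {G : Type*} [Group G] [Finite G] {p : ℕ} [hp : Fact p.Prime] {P Z : Subgroup G} (hZ : Z ≤ P)
    (hZcard : Nat.card Z = p) (hcyc : IsCyclic P) (x : G) : x ∈ Z ↔ x ∈ P ∧ x ^ p = 1 := by
  classical
  letI : Fintype P := Fintype.ofFinite _
  have h1 := IsCyclic.card_pow_eq_one_le (α := P) hp.out.pos
  have hZp : ∀ x ∈ Z, x ^ p = 1 := by
    intro x hx
    have h3 := pow_card_eq_one' (x := (⟨x, hx⟩ : Z))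
    rw [hZcard] at h3
    exact congrArg Subtype.val h3
  have h2 : (Finset.univ.filter (fun a : P => (a : G) ∈ Z)) ⊆ (Finset.univ.filter (fun a : P => a ^ p = 1)) := by
    intro a ha
    refine Finset.mem_filter.mpr ⟨Finset.mem_univ _, Subtype.ext ?_⟩
    simpa using hZp _ (Finset.mem_filter.mp ha).2
  have h3 : (Finset.univ.filter (fun a : P => (a : G) ∈ Z)).card = p := by
    rw [← hZcard, ← Nat.card_congr (Subgroup.subgroupOfEquivOfLe hZ).toEquiv]
    exact (Nat.subtype_card (Finset.univ.filter (fun a : P => (a : G) ∈ Z))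
      (p := fun a : P => a ∈ Z.subgroupOf P) (by simp [Subgroup.mem_subgroupOf])).symm
  have h4 := Finset.eq_of_subset_of_card_le h2 (by rw [h3]; exact h1)
  constructor
  · intro hx
    exact ⟨hZ hx, hZp x hx⟩
  · rintro ⟨hxP, hxp⟩
    have h5 : (⟨x, hxP⟩ : P) ∈ (Finset.univ.filter (fun a : P => a ^ p = 1)) :=
      Finset.mem_filter.mpr ⟨Finset.mem_univ _, Subtype.ext (by simpa using hxp)⟩
    rw [← h4] at h5
    exact (Finset.mem_filter.mp h5).2

/-- Let B be a block of the finite group G relative to a maximal ideal M of the algebraic integers containing the prime p, with a nontrivial cyclic defect group P; let Z be the subgroup of order p of P and H = N_G(Z), which contains N_G(P). Let c be the block of H with defect group P that induces B. Then B and c contain the same number of irreducible characters, have the same p-regular rank, and there is a perfect isometry from c onto B. -/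
theorem result {G : Type*} [Group G] [Finite G] (p : ℕ) [Fact p.Prime] (M : Ideal Cfsg.AlgInt) (hM : Cfsg.IsPModular p M) (B : Set (Cfsg.IrrCharacter G)) (hB : Cfsg.IsPBlock M B) (P : Subgroup G) (hPD : Cfsg.IsDefectGroup p M B P) (hP1 : P ≠ ⊥) (hcyc : IsCyclic P) (Z : Subgroup G) (hZ : Z ≤ P) (hZcard : Nat.card Z = p) (H : Subgroup G) (hH : H = Subgroup.normalizer (Z : Set G)) (c : Set (Cfsg.IrrCharacter H)) (hcD : Cfsg.IsDefectGroup p M c (P.subgroupOf H)) (hc : Cfsg.IsInducedBlock M H c B) : Nat.card c = Nat.card B ∧ Cfsg.blockRank p c = Cfsg.blockRank p B ∧ ∃ (I : Cfsg.IrrCharacter H → Cfsg.IrrCharacter G) (ε : Cfsg.IrrCharacter H → ℤ), Cfsg.IsPerfectIsometry p M c B I ε := by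
  classical
  cases nonempty_fintype G
  haveI := Cfsg.Agent.Lib.Blocks.Local.isPrime_of_isPModular hM
  have hcB := hc.1
  letI : Fintype H := Fintype.ofFinite _
  letI iP : Fintype P := Fintype.ofFinite _
  have hcard := Cfsg.Agent.S0908.result p M hM B hB P hPD
  have hPp : IsPGroup p P := IsPGroup.of_card hcard
  have ha1 : 1 ≤ blockDefect p B := by
    by_contra h0
    have h2 : blockDefect p B = 0 := by omega
    rw [h2, pow_zero] at hcard
    exact hP1 ((Subgroup.card_eq_one).mp hcard)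
  have hab : ∀ x ∈ P, ∀ y ∈ P, x * y = y * x := by
    intro x hx y hy
    haveI : IsMulCommutative P := IsCyclic.isMulCommutative
    have : (⟨x, hx⟩ : P) * ⟨y, hy⟩ = ⟨y, hy⟩ * ⟨x, hx⟩ := IsMulCommutative.is_comm.comm _ _
    exact congrArg Subtype.val this
  have hCN : Subgroup.centralizer (P : Set G) ≤ H := by
    rw [hH]
    exact (Subgroup.centralizer_le hZ).trans (Cfsg.Agent.Lib.Blocks.FirstMain.centralizer_le_normalizer' Z)
  have hPN : P ≤ H := by
    rw [hH]
    have hPC : P ≤ Subgroup.centralizer (Z : Set G) := fun u hu => Subgroup.mem_centralizer_iff.mpr fun q hq => hab q (hZ hq) u hu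
    exact hPC.trans (Cfsg.Agent.Lib.Blocks.FirstMain.centralizer_le_normalizer' Z)
  have hNN : Subgroup.normalizer (P : Set G) ≤ H := by
    rw [hH]
    intro g hg
    rw [Subgroup.mem_normalizer_iff]
    intro x
    rw [mem_iff_of_cyclic hZ hZcard hcyc, mem_iff_of_cyclic hZ hZcard hcyc, ← (Subgroup.mem_normalizer_iff.mp hg x)]
    have h1 : (g * x * g⁻¹) ^ p = g * x ^ p * g⁻¹ := by
      exact conj_pow
    rw [h1]
    constructor
    · rintro ⟨h2, h3⟩
      rw [h3]
      simp [h2]
    · rintro ⟨h2, h3⟩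
      refine ⟨h2, ?_⟩
      simpa using h3
  -- the same facts in `H`
  have hcardP' : Nat.card (P.subgroupOf H) = Nat.card P := card_subgroupOf_of_le hPN
  have hP'p : IsPGroup p (P.subgroupOf H) := IsPGroup.of_card (n := blockDefect p B) (by rw [hcardP']; exact hcard)
  have hab' : ∀ x ∈ P.subgroupOf H, ∀ y ∈ P.subgroupOf H, x * y = y * x := by
    intro x hx y hy
    exact Subtype.ext (hab _ (Subgroup.mem_subgroupOf.mp hx) _ (Subgroup.mem_subgroupOf.mp hy))
  have hcyc' : IsCyclic (P.subgroupOf H) :=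
    isCyclic_of_surjective (Subgroup.subgroupOfEquivOfLe hPN).symm (Subgroup.subgroupOfEquivOfLe hPN).symm.surjective
  have hP1' : P.subgroupOf H ≠ ⊥ := by
    intro h0
    have h1 : Nat.card (P.subgroupOf H) = 1 := by
      rw [h0]
      simp
    rw [hcardP'] at h1
    exact hP1 ((Subgroup.card_eq_one).mp h1)
  -- the block of the centralizer in `H`
  obtain ⟨c₀', hc₀'⟩ : ∃ c₀' : Set (IrrCharacter (Subgroup.centralizer ((P.subgroupOf H : Subgroup _) : Set H))),
      IsInducedBlock M (Subgroup.centralizer ((P.subgroupOf H : Subgroup _) : Set H)) c₀' c := by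
    obtain ⟨⟨b, -, hbc⟩, -⟩ := Cfsg.Agent.S0973.result p M hM c hcB _ hcD
    have hsup : P.subgroupOf H ⊔ Subgroup.centralizer ((P.subgroupOf H : Subgroup _) : Set H) =
        Subgroup.centralizer ((P.subgroupOf H : Subgroup _) : Set H) := by
      refine sup_eq_right.mpr fun u hu => Subgroup.mem_centralizer_iff.mpr fun v hv => hab' v hv u hu
    have key : ∀ (K : Subgroup H) (_ : K = Subgroup.centralizer ((P.subgroupOf H : Subgroup _) : Set H))
        (b : Set (IrrCharacter K)), IsInducedBlock M K b c →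
        ∃ c₀' : Set (IrrCharacter (Subgroup.centralizer ((P.subgroupOf H : Subgroup _) : Set H))),
        IsInducedBlock M (Subgroup.centralizer ((P.subgroupOf H : Subgroup _) : Set H)) c₀' c := by
      rintro K rfl b hb
      exact ⟨b, hb⟩
    exact key _ hsup b hbc
  -- the block of the centralizer in `G`
  have hc₀ := isInducedBlock_of_stages hCN hPN hc₀' hc
  set c₀ := blockMap (cD hCN le_rfl hPN).symm c₀' with hc₀def
  -- the inertial groups
  set T : Subgroup G := Subgroup.normalizer (P : Set G) ⊓ blockStabilizer (Subgroup.centralizer (P : Set G)) c₀ with hTdef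
  have hT : ∀ g : G, g ∈ T ↔ (g ∈ Subgroup.normalizer (P : Set G) ∧ StabilizesBlock (Subgroup.centralizer (P : Set G)) c₀ g) :=
    fun g => Iff.rfl
  have hTN : T ≤ H := inf_le_left.trans hNN
  have hT' : ∀ g : H, g ∈ T.subgroupOf H ↔
      (g ∈ Subgroup.normalizer ((P.subgroupOf H : Subgroup _) : Set H) ∧
        StabilizesBlock (Subgroup.centralizer ((P.subgroupOf H : Subgroup _) : Set H)) c₀' g) := by
    intro g
    rw [Subgroup.mem_subgroupOf, hT, Cfsg.Agent.S4670.mem_normalizer_subgroupOf_iff hPN g]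
    constructor
    · rintro ⟨h1, h2⟩
      exact ⟨h1, (stabilizesBlock_cD_iff hCN hPN c₀' g (normalizer_le_normalizer_centralizer P h1)).mpr h2⟩
    · rintro ⟨h1, h2⟩
      exact ⟨h1, (stabilizesBlock_cD_iff hCN hPN c₀' g (normalizer_le_normalizer_centralizer P h1)).mp h2⟩
  have hrel : (Subgroup.centralizer ((P.subgroupOf H : Subgroup _) : Set H)).relIndex
      (T.subgroupOf H) = (Subgroup.centralizer (P : Set G)).relIndex T := by
    have h1 : Subgroup.centralizer ((P.subgroupOf H : Subgroup _) : Set H) =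
        (Subgroup.centralizer (P : Set G)).subgroupOf H := by
      ext u
      rw [Subgroup.mem_subgroupOf]
      exact mem_centralizer_subgroupOf_iff hPN u
    rw [h1, Subgroup.subgroupOf, Subgroup.relIndex_comap, Subgroup.map_subgroupOf_eq_of_le hTN]
  set e := (Subgroup.centralizer (P : Set G)).relIndex T with he
  have hcard' : Nat.card (P.subgroupOf H) = p ^ blockDefect p B := by rw [hcardP', hcard]
  obtain ⟨hep, hrankB, -⟩ := Cfsg.Agent.Lib.Dade.cyclic_main hM hcyc ha1 hcard hB hPD hc₀ hT he.symm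
  obtain ⟨-, hrankc, -⟩ := Cfsg.Agent.Lib.Dade.cyclic_main hM hcyc' ha1 hcard' hcB hcD hc₀' hT' hrel
  letI iP' : Fintype (P.subgroupOf H) := Fintype.ofFinite _
  obtain ⟨F₁, E₁, X₁, a₁, s₁, y₁, he₁, H₁, N₁, C₁⟩ := Cfsg.Agent.Lib.Dade.exists_cyclic_data hM hB hPD hP1 hcyc hc₀ hT he.symm
  obtain ⟨F₂, E₂, X₂, a₂, s₂, y₂, he₂, H₂, N₂, C₂⟩ := Cfsg.Agent.Lib.Dade.exists_cyclic_data hM hcB hcD hP1' hcyc' hc₀' hT' hrel
  obtain ⟨I, ε, hI, -⟩ := Cfsg.Agent.Lib.Dade.exists_perfect hM hcyc hcyc' hcard hcard' he₁ he₂ hep H₁ N₁ C₁ H₂ N₂ C₂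
  refine ⟨?_, by rw [hrankB, hrankc], I, ε, hI⟩
  exact Nat.card_congr (hI.1.equiv I)

end Cfsg.Agent.S4635
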