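import Cfsg.Statements.S4641
import Mathlib
import Cfsg.Agent.Lib.Blocks.Pim12

set_option autoImplicit false
open Cfsg

namespace Cfsg.Agent.S4641

open Cfsg Cfsg.Agent.Lib.Blocks.Local Cfsg.Agent.Lib.Blocks.Central Cfsg.Agent.Lib.Blocks.Osima
open Cfsg.Agent.Lib.Blocks.Covering Cfsg.Agent.Lib.Blocks.BlockHom Cfsg.Agent.Lib.Blocks.Pairs
open Cfsg.Agent.Lib.Blocks.Twisted Cfsg.Agent.Lib.Blocks.Nilp Cfsg.Agent.Lib.Blocks.Sections
open Cfsg.Agent.Lib.Blocks.Regular Cfsg.Agent.Lib.Blocks.SecondMain Cfsg.Agent.Lib.Blocks.Pim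
open Cfsg.Agent.Lib.Blocks.RegInt Cfsg.Agent.Lib.Blocks.HeightZero
open Cfsg.Agent.Lib.Char.Ortho
open scoped ComplexConjugate

universe u

section Aux

variable {G : Type u} [Group G] [Fintype G] {M : Ideal AlgInt} [hM : M.IsPrime] {p : ℕ} [hp : Fact p.Prime]
  {B : Set (IrrCharacter G)}

lemma pow_dvd_of_eq_mul (hMp : IsPModular p M) {D a : ℕ} (hD : D ≠ 0) {z : ℂ} (hz : MemLocalRing M z)
    (h : (D : ℂ) = (p : ℂ) ^ a * z) : p ^ a ∣ D := by
  obtain ⟨t, q, hq, rfl⟩ := Nat.exists_eq_pow_mul_and_not_dvd hD p hp.out.ne_one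
  by_cases hta : a ≤ t
  · exact (pow_dvd_pow p hta).trans (dvd_mul_right _ _)
  exfalso
  push Not at hta
  apply hq
  rw [← memLocalIdeal_natCast_iff hMp]
  have hp0 : (p : ℂ) ≠ 0 := by
    exact_mod_cast hp.out.ne_zero
  have h1 : (q : ℂ) = (p : ℂ) ^ (a - t) * z := by
    have h2 : (p : ℂ) ^ t * q = (p : ℂ) ^ t * ((p : ℂ) ^ (a - t) * z) := by
      push_cast at h
      rw [h, ← mul_assoc, ← pow_add]
      congr 2
      omega
    exact mul_left_cancel₀ (pow_ne_zero _ hp0) h2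
  rw [h1]
  refine memLocalIdeal_mul_right ?_ hz
  have h3 : ((p ^ (a - t) : ℕ) : ℂ) = (p : ℂ) ^ (a - t) := by
    push_cast
    rfl
  rw [← h3, memLocalIdeal_natCast_iff hMp]
  exact dvd_pow_self p (by omega)

lemma card_centralizer_one : Nat.card (Subgroup.centralizer ({(1 : G)} : Set G)) = Nat.card G := by
  have h : Subgroup.centralizer ({(1 : G)} : Set G) = ⊤ := by
    ext x
    simp [Subgroup.mem_centralizer_singleton_iff]
  rw [h]
  exact Subgroup.card_top

lemma degree_facts (hMp : IsPModular p M) (hB : IsPBlock M B) {D : Subgroup G} (hD : IsDefectGroup p M B D) {a d : ℕ}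
    (ha : (Nat.card G).factorization p = a) (hd : Nat.card D = p ^ d) :
    d ≤ a ∧ (∀ χ ∈ B, p ^ (a - d) ∣ charDegree (χ : G → ℂ)) ∧
      ∃ χ₀ ∈ B, blockHeight p B (χ₀ : G → ℂ) = 0 ∧ (charDegree (χ₀ : G → ℂ)).factorization p = a - d := by
  classical
  have hcD := Cfsg.Agent.S0908.result p M hMp B hB D hD
  have hdb : d = blockDefect p B := by
    rw [hd] at hcD
    exact Nat.pow_right_injective hp.out.two_le hcD
  obtain ⟨χ₀, hχ₀, h0⟩ := exists_height_zero (p := p) (nonempty_of_isPBlock hB)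
  set m := sInf ((fun χ : IrrCharacter G => (charDegree (χ : G → ℂ)).factorization p) '' B) with hm
  have hle : ∀ χ ∈ B, m ≤ (charDegree (χ : G → ℂ)).factorization p := fun χ hχ => Nat.sInf_le ⟨χ, hχ, rfl⟩
  have hdb' : d = a - m := by
    rw [hdb, blockDefect, ha]
  have h1 : (charDegree (χ₀ : G → ℂ)).factorization p = m := by
    have h2 : (charDegree (χ₀ : G → ℂ)).factorization p - m = 0 := h0
    have := hle χ₀ hχ₀
    omega
  have hma : m ≤ a := by
    rw [← h1, ← ha]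
    exact (Nat.factorization_le_iff_dvd (charDegree_ne_zero χ₀) Nat.card_pos.ne').mpr
      (charDegree_dvd_card χ₀.2) p
  have hsub : a - d = m := by omega
  refine ⟨by omega, fun χ hχ => ?_, χ₀, hχ₀, h0, by rw [h1, hsub]⟩
  rw [hsub]
  exact (hp.out.pow_dvd_iff_le_factorization (charDegree_ne_zero χ)).mpr (hle χ hχ)

open Classical in
/-- The regular character along the representatives of the principal indecomposables. -/
theorem sum_decomp (hMp : IsPModular p M) (hB : IsPBlock M B) {g : ℕ} (hg0 : g ≠ 0)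
    (hg1 : ∀ χ ∈ B, g ∣ charDegree (χ : G → ℂ)) {a m u : ℕ} (ha : (Nat.card G).factorization p = a)
    (hg : g = p ^ m * u) (hu : ¬ p ∣ u) :
    ∃ (R : Finset (MonoidAlgebra ℂ G)) (v : ℕ), blockRank p B ≤ R.card ∧ R.card ≤ v ∧
      ∑ χ ∈ (Finset.univ : Finset (IrrCharacter G)).filter (· ∈ B), charDegree (χ : G → ℂ) ^ 2 = g * (p ^ a * u) * v := by
  classical
  obtain ⟨J, R, hJ, hRs, hRJ, hR⟩ := exists_blockDec (M := M) hB
  obtain ⟨A, -, hA1, hA2⟩ := exists_A hMp hB hJ hRs hRJ hR hg0 hg1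
  have hnat : ∀ (χ : IrrCharacter G) (r : MonoidAlgebra ℂ G), ∃ n : ℕ, r ∈ R → twTrace (χ : G → ℂ) 1 r = n := by
    intro χ r
    by_cases hr : r ∈ R
    · obtain ⟨n, hn⟩ := exists_nat_twTrace_idem (Cfsg.Agent.Lib.Char.Values.IsIrrCharacter.isCharacter χ.2)
        (hJ.prim r (hRs hr)).idem
      exact ⟨n, fun _ => hn⟩
    · exact ⟨0, fun h => absurd h hr⟩
  choose dd hdd using hnat
  set T := (Finset.univ : Finset (IrrCharacter G)).filter (· ∈ B) with hT
  have hdeg : ∀ χ ∈ T, charDegree (χ : G → ℂ) = g * ∑ r ∈ R, A r * dd χ r := by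
    intro χ hχ
    have hχ' := (Finset.mem_filter.mp hχ).2
    have h1 : ((charDegree (χ : G → ℂ) / g : ℕ) : ℂ) = ((∑ r ∈ R, A r * dd χ r : ℕ) : ℂ) := by
      rw [hA2 χ hχ']
      push_cast
      exact Finset.sum_congr rfl fun r hr => by rw [hdd χ r hr]
    have h2 : charDegree (χ : G → ℂ) / g = ∑ r ∈ R, A r * dd χ r := Nat.cast_injective h1
    rw [← h2, Nat.mul_div_cancel' (hg1 χ hχ')]
  set DD : MonoidAlgebra ℂ G → ℕ := fun r => ∑ χ ∈ T, dd χ r * charDegree (χ : G → ℂ) with hDD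
  have hDDc : ∀ r ∈ R, ((DD r : ℕ) : ℂ) = (Nat.card G : ℂ) * r.coeff 1 := by
    intro r hr
    have hEr : blockElt B * r = r := hJ.mul_left (hRs hr)
    have h1 := sum_conj_twTrace (1 : G) r
    rw [card_centralizer_one, classTrace_one] at h1
    rw [← h1]
    have h2 : ∑ χ : IrrCharacter G, conj ((χ : G → ℂ) 1) * twTrace (χ : G → ℂ) 1 r =
        ∑ χ ∈ T, conj ((χ : G → ℂ) 1) * twTrace (χ : G → ℂ) 1 r := by
      rw [hT, Finset.sum_filter]
      refine Finset.sum_congr rfl fun χ _ => ?_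
      split_ifs with hχ
      · rfl
      · rw [twTrace_of_notMem hχ hEr, mul_zero]
    rw [h2, hDD]
    push_cast
    refine Finset.sum_congr rfl fun χ _ => ?_
    rw [hdd χ r hr, ← charDegree_cast, Complex.conj_natCast, mul_comm]
  have hDDpos : ∀ r ∈ R, DD r ≠ 0 := by
    intro r hr
    obtain ⟨χ, hχ, hne⟩ := exists_char_ne hMp hB hJ hRs hR hr
    have hχT : χ ∈ T := Finset.mem_filter.mpr ⟨Finset.mem_univ _, hχ⟩
    have h1 : dd χ r ≠ 0 := by
      intro h
      rw [hdd χ r hr, h] at hne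
      simp at hne
    have h2 : 0 < dd χ r * charDegree (χ : G → ℂ) := Nat.mul_pos (Nat.pos_of_ne_zero h1) (Nat.pos_of_ne_zero (charDegree_ne_zero χ))
    have h3 : dd χ r * charDegree (χ : G → ℂ) ≤ DD r :=
      Finset.single_le_sum (f := fun χ => dd χ r * charDegree (χ : G → ℂ)) (fun _ _ => Nat.zero_le _) hχT
    omega
  have hpu : Nat.Coprime (p ^ a) u :=
    Nat.Coprime.pow_left _ ((Nat.Prime.coprime_iff_not_dvd hp.out).mpr hu)
  have hDDdvd : ∀ r ∈ R, p ^ a * u ∣ DD r := by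
    intro r hr
    refine Nat.Coprime.mul_dvd_of_dvd_of_dvd hpu ?_ ?_
    · -- the power of `p`
      set m' := ordCompl[p] (Nat.card G) with hm'
      have h0 : p ^ a * m' = Nat.card G := by
        rw [← ha, hm']
        exact Nat.ordProj_mul_ordCompl_eq_self _ _
      refine pow_dvd_of_eq_mul hMp (hDDpos r hr) (z := (m' : ℂ) * r.coeff 1)
        (memLocalRing_mul (memLocalRing_natCast _) ((hJ.prim r (hRs hr)).loc 1)) ?_
      rw [hDDc r hr, ← h0]
      push_cast
      ring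
    · have h1 : u ∣ g := ⟨p ^ m, by rw [hg, mul_comm]⟩
      refine Finset.dvd_sum fun χ hχ => ?_
      exact Dvd.dvd.mul_left (h1.trans (hg1 χ (Finset.mem_filter.mp hχ).2)) _
  choose! w hw using hDDdvd
  refine ⟨R, ∑ r ∈ R, A r * w r, ?_, ?_, ?_⟩
  · -- the rank
    have hex : ∀ x : G, ∃ c : MonoidAlgebra ℂ G → ℂ, ¬ p ∣ orderOf x →
        ∀ χ ∈ B, (χ : G → ℂ) x = ∑ r ∈ R, c r * twTrace (χ : G → ℂ) 1 r := by
      intro x
      by_cases hx : ¬ p ∣ orderOf x
      · obtain ⟨c, hc⟩ := exists_reg_coeff hMp hB hJ hRJ hx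
        exact ⟨c, fun _ => hc⟩
      · exact ⟨0, fun h => absurd h hx⟩
    choose c hc using hex
    set F : R → (G → ℂ) := fun r x => if IsPRegular p x then c x r else 0 with hF
    have hreg : ∀ χ ∈ B, pRegularPart p (χ : G → ℂ) = ∑ r : R, (dd χ r : ℂ) • F r := by
      intro χ hχ
      funext x
      simp only [Finset.sum_apply, Pi.smul_apply, smul_eq_mul, hF, pRegularPart]
      by_cases hx : IsPRegular p x
      · simp only [if_pos hx]
        rw [hc x hx χ hχ, ← Finset.sum_coe_sort R]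
        refine Finset.sum_congr rfl fun r _ => ?_
        rw [hdd χ r r.2, mul_comm]
      · simp [if_neg hx]
    have hspan : Submodule.span ℂ ((fun χ : IrrCharacter G => pRegularPart p (χ : G → ℂ)) '' B) ≤
        Submodule.span ℂ (Set.range F) := by
      refine Submodule.span_le.mpr ?_
      rintro _ ⟨χ, hχ, rfl⟩
      simp only
      rw [hreg χ hχ]
      exact Submodule.sum_mem _ fun r _ => Submodule.smul_mem _ _ (Submodule.subset_span ⟨r, rfl⟩)
    unfold blockRank
    refine (Submodule.finrank_mono hspan).trans ?_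
    refine (finrank_range_le_card F).trans ?_
    simp
  · have h1 : ∀ r ∈ R, 1 ≤ A r * w r := by
      intro r hr
      have h2 : w r ≠ 0 := by
        intro h
        apply hDDpos r hr
        rw [hw r hr, h, mul_zero]
      exact Nat.mul_pos (hA1 r hr) (Nat.pos_of_ne_zero h2)
    calc R.card = ∑ r ∈ R, 1 := by simp
      _ ≤ _ := Finset.sum_le_sum h1
  · calc ∑ χ ∈ T, charDegree (χ : G → ℂ) ^ 2
        = ∑ χ ∈ T, charDegree (χ : G → ℂ) * (g * ∑ r ∈ R, A r * dd χ r) :=
          Finset.sum_congr rfl fun χ hχ => by rw [← hdeg χ hχ, sq]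
      _ = g * ∑ r ∈ R, A r * DD r := by
          simp only [hDD, Finset.mul_sum]
          rw [Finset.sum_comm]
          refine Finset.sum_congr rfl fun r _ => Finset.sum_congr rfl fun χ _ => ?_
          ring
      _ = g * ∑ r ∈ R, A r * (p ^ a * u * w r) := by
          congr 1
          exact Finset.sum_congr rfl fun r hr => by rw [hw r hr]
      _ = g * (p ^ a * u) * ∑ r ∈ R, A r * w r := by
          simp only [Finset.mul_sum]
          refine Finset.sum_congr rfl fun r _ => ?_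
          ring

open Classical in
/-- The cofactor is prime to `p`. -/
theorem not_dvd_of_sum (hMp : IsPModular p M) (hB : IsPBlock M B) {D : Subgroup G} (hD : IsDefectGroup p M B D)
    {a d : ℕ} (ha : (Nat.card G).factorization p = a) (hd : Nat.card D = p ^ d) (hda : d ≤ a)
    {χ₀ : IrrCharacter G} (hχ₀ : χ₀ ∈ B) (h0 : blockHeight p B (χ₀ : G → ℂ) = 0)
    (hχ₀d : (charDegree (χ₀ : G → ℂ)).factorization p = a - d) {u v : ℕ}
    (hS : ∑ χ ∈ (Finset.univ : Finset (IrrCharacter G)).filter (· ∈ B), charDegree (χ : G → ℂ) ^ 2 =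
      p ^ (2 * a - d) * u ^ 2 * v) : ¬ p ∣ v := by
  intro hv
  obtain ⟨c₀, w, hdc, hwl, hwu, hE1⟩ := exists_unit_coeff_one hMp hB hD
  have hfac := factorization_index_of_height_zero hχ₀ h0 (factorization_card_centralizer hMp hB hdc)
  set idx := (Subgroup.centralizer ({c₀} : Set G)).index with hidx
  have hp0 : (p : ℂ) ≠ 0 := by
    exact_mod_cast hp.out.ne_zero
  have hG0 : (Nat.card G : ℂ) ≠ 0 := by
    exact_mod_cast Nat.card_pos.ne'
  -- the value at `1`
  have h1 : (Nat.card G : ℂ) * (blockElt B).coeff 1 =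
      ((∑ χ ∈ (Finset.univ : Finset (IrrCharacter G)).filter (· ∈ B), charDegree (χ : G → ℂ) ^ 2 : ℕ) : ℂ) := by
    rw [coeff_blockElt, blockCoeff_eq_sum, ← mul_assoc, mul_inv_cancel₀ hG0, one_mul]
    push_cast
    refine Finset.sum_congr rfl fun χ _ => ?_
    rw [← charDegree_cast, Complex.conj_natCast, sq]
  rw [hS, hE1] at h1
  set m := ordCompl[p] (Nat.card G) with hm
  set m' := ordCompl[p] idx with hm'
  have hGm : p ^ a * m = Nat.card G := by
    rw [← ha, hm]
    exact Nat.ordProj_mul_ordCompl_eq_self _ _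
  have hidxm : p ^ (a - d) * m' = idx := by
    rw [hm', ← hχ₀d, ← hfac]
    exact Nat.ordProj_mul_ordCompl_eq_self _ _
  have hmnd : ¬ p ∣ m := by
    rw [hm]
    exact Nat.not_dvd_ordCompl hp.out Nat.card_pos.ne'
  have hmnd' : ¬ p ∣ m' := by
    rw [hm']
    exact Nat.not_dvd_ordCompl hp.out Subgroup.index_ne_zero_of_finite
  have h2 : ((u ^ 2 * v : ℕ) : ℂ) = (m : ℂ) * (m' : ℂ) * w := by
    have h3 : ((p : ℂ) ^ (2 * a - d)) * ((u ^ 2 * v : ℕ) : ℂ) = ((p : ℂ) ^ (2 * a - d)) * ((m : ℂ) * (m' : ℂ) * w) := by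
      have h4 : (2 * a - d) = a + (a - d) := by omega
      have e1 : (Nat.card G : ℂ) = (p : ℂ) ^ a * m := by
        rw [← hGm]
        push_cast
        ring
      have e2 : (idx : ℂ) = (p : ℂ) ^ (a - d) * m' := by
        rw [← hidxm]
        push_cast
        ring
      push_cast at h1 ⊢
      rw [mul_assoc] at h1
      rw [← h1, e1, e2, h4, pow_add]
      ring
    exact mul_left_cancel₀ (pow_ne_zero _ hp0) h3
  have hleft : MemLocalIdeal M ((u ^ 2 * v : ℕ) : ℂ) := by
    rw [memLocalIdeal_natCast_iff hMp]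
    exact Dvd.dvd.mul_left hv _
  rw [h2] at hleft
  have hmu : ¬ MemLocalIdeal M (m : ℂ) := by
    rwa [memLocalIdeal_natCast_iff hMp]
  have hmu' : ¬ MemLocalIdeal M (m' : ℂ) := by
    rwa [memLocalIdeal_natCast_iff hMp]
  refine not_memLocalIdeal_mul (memLocalRing_mul (memLocalRing_natCast _) (memLocalRing_natCast _)) hwl
    (not_memLocalIdeal_mul (memLocalRing_natCast _) (memLocalRing_natCast _) hmu hmu') hwu hleft

end Aux

/-- Let B be a block of the finite group G relative to a maximal ideal M of the algebraic integers containing the prime p, let p^a be the p-part of the order of G and p^d the order of a defect group D of B, and let g be the greatest common divisor of the degrees of the members of B. Then the p-part of g is exactly p^(a−d), and writing g = p^(a−d)·u there is a positive integer v, prime to p and at least the p-regular rank of B (its number of irreducible Brauer characters), with Σ_{χ ∈ B} χ(1)² = p^(2a−d)·u²·v. -/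
theorem result {G : Type*} [Group G] [Finite G] (p : ℕ) [Fact p.Prime] (M : Ideal Cfsg.AlgInt) (hM : Cfsg.IsPModular p M) (B : Set (Cfsg.IrrCharacter G)) (hB : Cfsg.IsPBlock M B) (D : Subgroup G) (hD : Cfsg.IsDefectGroup p M B D) (a d : ℕ) (ha : (Nat.card G).factorization p = a) (hd : Nat.card D = p ^ d) (g : ℕ) (hg1 : ∀ χ ∈ B, g ∣ Cfsg.charDegree (χ : G → ℂ)) (hg2 : ∀ g' : ℕ, (∀ χ ∈ B, g' ∣ Cfsg.charDegree (χ : G → ℂ)) → g' ∣ g) : g.factorization p = a - d ∧ ∃ v : ℕ, 0 < v ∧ ¬ p ∣ v ∧ Cfsg.blockRank p B ≤ v ∧ ∑ᶠ χ ∈ B, Cfsg.charDegree (χ : G → ℂ) ^ 2 = p ^ (2 * a - d) * (g / p ^ (a - d)) ^ 2 * v := by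
  classical
  cases nonempty_fintype G
  haveI : M.IsPrime := hM.2.1.isPrime
  have hpp : p.Prime := Fact.out
  obtain ⟨hda, hpow, χ₀, hχ₀, h0, hχ₀d⟩ := degree_facts hM hB hD ha hd
  have hg0 : g ≠ 0 := by
    rintro rfl
    exact charDegree_ne_zero χ₀ (zero_dvd_iff.mp (hg1 χ₀ hχ₀))
  have hpg : p ^ (a - d) ∣ g := hg2 _ hpow
  have hfacg : g.factorization p = a - d := by
    refine le_antisymm ?_ ?_
    · rw [← hχ₀d]
      exact (Nat.factorization_le_iff_dvd hg0 (charDegree_ne_zero χ₀)).mpr (hg1 χ₀ hχ₀) p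
    · exact (hpp.pow_dvd_iff_le_factorization hg0).mp hpg
  refine ⟨hfacg, ?_⟩
  set u := g / p ^ (a - d) with hu
  have hgu : g = p ^ (a - d) * u := (Nat.mul_div_cancel' hpg).symm
  have hund : ¬ p ∣ u := by
    intro h
    have h1 : p ^ (a - d + 1) ∣ g := by
      rw [hgu, pow_succ]
      exact Nat.mul_dvd_mul_left _ h
    have h2 := (hpp.pow_dvd_iff_le_factorization hg0).mp h1
    omega
  obtain ⟨R, v, hrank, hRv, hsum⟩ := sum_decomp hM hB hg0 hg1 ha hgu hund
  have hS : ∑ χ ∈ (Finset.univ : Finset (IrrCharacter G)).filter (· ∈ B), charDegree (χ : G → ℂ) ^ 2 =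
      p ^ (2 * a - d) * u ^ 2 * v := by
    rw [hsum, hgu]
    have h4 : (2 * a - d) = (a - d) + a := by omega
    rw [h4, pow_add]
    ring
  have hSpos : 0 < ∑ χ ∈ (Finset.univ : Finset (IrrCharacter G)).filter (· ∈ B), charDegree (χ : G → ℂ) ^ 2 := by
    refine Finset.sum_pos' (fun _ _ => Nat.zero_le _) ⟨χ₀, Finset.mem_filter.mpr ⟨Finset.mem_univ _, hχ₀⟩, ?_⟩
    exact pow_pos (Nat.pos_of_ne_zero (charDegree_ne_zero χ₀)) 2
  refine ⟨v, ?_, not_dvd_of_sum hM hB hD ha hd hda hχ₀ h0 hχ₀d hS, hrank.trans hRv, ?_⟩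
  · rw [hS] at hSpos
    exact Nat.pos_of_ne_zero fun h => by simp [h] at hSpos
  · rw [Cfsg.Agent.Lib.Blocks.Osima.finsum_mem_eq_sum_filter, hS]

end Cfsg.Agent.S4641
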