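import Cfsg.Statements.S4696
import Mathlib
import Cfsg.Agent.Lib.Dade.DU
-- import your own Cfsg.Agent.* helpers here

set_option autoImplicit false
open Cfsg

namespace Cfsg.Agent.S4696

/-- Let p be a prime, M a maximal ideal of the algebraic integers containing p, and B a p-block of the finite group G whose defect group D is cyclic of order p^a with a ≥ 1. Let C = C_G(D), let b be a block of C inducing B, let T be the stabilizer of b in N_G(D) (the elements g of N_G(D) such that the g-conjugate of every member of b is again in b), and let e be the index of C in T (the inertial index of B). Then e divides p − 1, every irreducible character in B has height zero, and B is the disjoint union of a set X of e characters and a set Y of (p^a − 1)/e characters, the members of Y agreeing on p-regular elements, for which there are signs δ_χ = ±1 (χ ∈ X) and δ₀ = ±1 such that: for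 every ψ ∈ Y and every p-regular g, δ₀ ψ(g) + Σ_{χ ∈ X} δ_χ χ(g) = 0; for all χ, χ' ∈ X the integers δ_χ χ(1) and δ_χ' χ'(1) are congruent modulo p^a; and for ψ ∈ Y and χ ∈ X, ψ(1) ≡ −e δ₀ δ_χ χ(1) modulo p^a. -/
theorem result {G : Type*} [Group G] [Finite G] (p : ℕ) [Fact p.Prime] (M : Ideal Cfsg.AlgInt) (hM : Cfsg.IsPModular p M) (D : Subgroup G) (hD : IsCyclic D) (a : ℕ) (ha : 1 ≤ a) (hDa : Nat.card D = p ^ a) (B : Set (Cfsg.IrrCharacter G)) (hB : Cfsg.IsPBlock M B) (hBD : Cfsg.IsDefectGroup p M B D) (b : Set (Cfsg.IrrCharacter (Subgroup.centralizer (D : Set G)))) (hind : Cfsg.IsInducedBlock M (Subgroup.centralizer (D : Set G)) b B) (T : Subgroup G) (hT : ∀ g : G, g ∈ T ↔ (g ∈ Subgroup.normalizer (D : Set G) ∧ ∀ θ ∈ b, ∀ θ' : Cfsg.IrrCharacter (Subgroup.centralizer (D : Set G)), (∀ h h' : Subgroup.centralizer (D : Set G), (h' : G) = g * h * g⁻¹ → (θ' : Subgroup.centralizer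 (D : Set G) → ℂ) h' = (θ : Subgroup.centralizer (D : Set G) → ℂ) h) → θ' ∈ b)) (e : ℕ) (he : (Subgroup.centralizer (D : Set G)).relIndex T = e) : e ∣ p - 1 ∧ (∀ χ ∈ B, Cfsg.blockHeight p B (χ : G → ℂ) = 0) ∧ ∃ X Y : Set (Cfsg.IrrCharacter G), B = X ∪ Y ∧ Disjoint X Y ∧ Nat.card X = e ∧ Nat.card Y = (p ^ a - 1) / e ∧ (∀ ψ ∈ Y, ∀ ψ' ∈ Y, ∀ g : G, ¬ p ∣ orderOf g → (ψ : G → ℂ) g = (ψ' : G → ℂ) g) ∧ ∃ (δ : Cfsg.IrrCharacter G → ℤ) (δ₀ : ℤ), (∀ χ ∈ X, δ χ = 1 ∨ δ χ = -1) ∧ (δ₀ = 1 ∨ δ₀ = -1) ∧ (∀ ψ ∈ Y, ∀ g : G, ¬ p ∣ orderOf g → (δ₀ : ℂ) * (ψ : G → ℂ) g + ∑ᶠ χ ∈ X, (δ χ : ℂ) * (χ : G → ℂ) g = 0) ∧ (∀ χ ∈ X, ∀ χ' ∈ X, δ χ * (Cfsg.charDegree (χ : G → ℂ) : ℤ) ≡ δ χ' * (Cfsg.charDegree (χ' : G → ℂ) : ℤ) [ZMOD (p : ℤ) ^ a]) ∧ (∀ ψ ∈ Y, ∀ χ ∈ X, (Cfsg.charDegree (ψ : G → ℂ) : ℤ) ≡ -((e : ℤ) * δ₀ * δ χ * (Cfsg.charDegree (χ : G → ℂ) : ℤ)) [ZMOD (p : ℤ) ^ a]) := by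
  classical
  cases nonempty_fintype G
  have hT' : ∀ g : G, g ∈ T ↔ g ∈ Subgroup.normalizer (D : Set G) ∧ Cfsg.StabilizesBlock (Subgroup.centralizer (D : Set G)) b g := by
    intro g
    rw [hT g]
    constructor
    · rintro ⟨h1, h2⟩
      exact ⟨h1, (Cfsg.Agent.Lib.Dade.stab_conv (Cfsg.Agent.Lib.Blocks.Pairs.normalizer_le_normalizer_centralizer D h1)).mpr h2⟩
    · rintro ⟨h1, h2⟩
      exact ⟨h1, (Cfsg.Agent.Lib.Dade.stab_conv (Cfsg.Agent.Lib.Blocks.Pairs.normalizer_le_normalizer_centralizer D h1)).mp h2⟩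
  obtain ⟨h1, -, h3, r₀, X, Y, hr, hXY, hdisj, hXc, hYc, hreg, δ, δ₀, hδ, hδ₀, hsum, hc1, hc2⟩ :=
    Cfsg.Agent.Lib.Dade.cyclic_main hM hD ha hDa hB hBD hind hT' he
  have he0 : 0 < e := by
    rw [← he]
    exact Nat.pos_of_ne_zero (Subgroup.index_ne_zero_of_finite (H := (Subgroup.centralizer (D : Set G)).subgroupOf T))
  refine ⟨h1, h3, (X : Set _), (Y : Set _), ?_, ?_, ?_, ?_, ?_, δ, δ₀, ?_, hδ₀, ?_, ?_, ?_⟩
  · ext χ
    simpa using hXY χ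
  · exact Finset.disjoint_coe.mpr hdisj
  · simp [hXc]
  · rw [← hr, Nat.mul_div_cancel _ he0]
    simp [hYc]
  · exact fun ψ hψ ψ' hψ' g hg => hreg ψ hψ ψ' hψ' g hg
  · exact fun χ hχ => hδ χ hχ
  · intro ψ hψ g hg
    rw [finsum_mem_coe_finset]
    exact hsum ψ hψ g hg
  · exact fun χ hχ χ' hχ' => hc1 χ hχ χ' hχ'
  · exact fun ψ hψ χ hχ => hc2 ψ hψ χ hχ

end Cfsg.Agent.S4696
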