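import Cfsg.Statements.S4724
import Mathlib
import Cfsg.Agent.Lib.DefectOne.TopD
import Cfsg.Agent.Lib.DefectOne.FinalIndex

set_option autoImplicit false
open Cfsg

namespace Cfsg.Agent.S4724

open Subgroup Cfsg.Agent.Lib.DefectOne Cfsg.Agent.Lib.DefectOne.TopA

/-- Let G be a transitive permutation group of prime degree p having exactly one irreducible character of degree p. Let P be a Sylow p-subgroup and suppose N_G(P) = P·E for a subgroup E with P ∩ E = 1, such that the normalizer of E has order 2·#E and E meets each of its conjugates by elements outside its normalizer trivially. Then p is 5, 7 or 11 and G is isomorphic to PSL(2, p). -/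
theorem result {α : Type*} [Fintype α] [DecidableEq α] {p : ℕ} [Fact p.Prime] (hα : Fintype.card α = p) (G : Subgroup (Equiv.Perm α)) [MulAction.IsPretransitive G α] (huniq : ∃! χ : Cfsg.IrrCharacter G, Cfsg.charDegree (χ : G → ℂ) = p) (P : Sylow p G) (E : Subgroup G) (hPE : (P : Subgroup G) ⊔ E = Subgroup.normalizer ((P : Subgroup G) : Set G)) (hPE' : (P : Subgroup G) ⊓ E = ⊥) (hNE : Nat.card (Subgroup.normalizer (E : Set G)) = 2 * Nat.card E) (hTI : ∀ g : G, g ∉ Subgroup.normalizer (E : Set G) → E ⊓ E.map (MulAut.conj g).toMonoidHom = ⊥) : (p = 5 ∨ p = 7 ∨ p = 11) ∧ ∃ (F : Type) (_ : Field F) (_ : Fintype F), Fintype.card F = p ∧ Nonempty (G ≃* Matrix.ProjectiveSpecialLinearGroup (Fin 2) F) := by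
  classical
  letI : Fintype G := Fintype.ofFinite _
  have hp' : p.Prime := Fact.out
  have hαc : Nat.card α = p := by rw [Nat.card_eq_fintype_card, hα]
  have hfaith : ∀ g : G, (∀ a : α, g • a = a) → g = 1 := by
    intro g hg
    apply Subtype.ext
    apply Equiv.ext
    exact hg
  haveI : Nonempty α := by
    apply (Nat.card_pos_iff.1 _).1
    rw [hαc]
    exact hp'.pos
  obtain ⟨a₀⟩ := ‹Nonempty α›
  haveI : Nonempty α := ⟨a₀⟩
  have horbit : Nat.card (MulAction.orbit G a₀) = p := by
    rw [MulAction.orbit_eq_univ, Nat.card_coe_set_eq, Set.ncard_univ, hαc]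
  have hd : p ∣ Nat.card G := by
    have h1 := Cfsg.Agent.Lib.Perm.PrimeDeg.natCard_orbit_mul G a₀
    rw [horbit] at h1
    exact Dvd.intro _ h1
  have hcenall : ∀ y : G, orderOf y = p → ∀ c : G, c * y = y * c → c ∈ zpowers y := by
    intro y hy c hc
    exact cen_of_regular hfaith (regular_of_prime hαc hfaith hy).2 hc
  obtain ⟨x, hord, hz⟩ := exists_generator hcenall P hd
  have h : Loc p x E P := {
    hord := hord
    hcenall := hcenall
    hz := hz
    hPE := by rw [hz]; exact hPE
    hPE' := by rw [hz]; exact hPE'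
    hNE := hNE
    hTI := hTI }
  obtain ⟨St, hStirr, hSt1, hStx⟩ := TopB.st_data h huniq
  have hle : p ^ 2 ≤ Nat.card G := TopB.sq_le ⟨St, hStirr, hSt1⟩
  have hp5 : 5 ≤ p := by
    by_contra hlt
    have h1 : Nat.card G ≤ Nat.card (Equiv.Perm α) := Subgroup.card_le_card_group G
    rw [Nat.card_perm, hαc] at h1
    have h2 := hle.trans h1
    have h3 : p < 5 := by omega
    have h4 := hp'.two_le
    interval_cases p
    · exact absurd h2 (by decide)
    · exact absurd h2 (by decide)
    · exact absurd hp' (by decide)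
  have hStz : ∀ u ∈ zpowers x, u ≠ 1 → St u = 0 := by
    intro u hu hu1
    apply hStx
    have h1 := PermSt.mem_zpowers_of_ne_one h.hord hu hu1
    rw [← h.hord]
    exact orderOf_dvd_of_mem_zpowers h1
  have hE1 := TopB.hE1 h hle
  have hperf : commutator G = ⊤ := PermSt.perfect_of h.hord h.hcen P h.hz h.hEN h.hPE h.hPE' hE1 huniq hStirr hSt1 hStz
  haveI hsimple : IsSimpleGroup G := PermSt.simple_of hαc hfaith h.hord P h.hz h.hEcomm h.hPE hperf
  have hmain : ∃ (F : Type) (_ : Field F) (_ : Fintype F), Fintype.card F = p ∧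
      Nonempty (G ≃* Matrix.ProjectiveSpecialLinearGroup (Fin 2) F) := by
    rcases Nat.even_or_odd (Nat.card E) with heven | hodd
    · exact TopD.even_branch h hle hperf heven (TopC.two_mul_le h hαc hfaith hperf hp5) hp5
    · exact ⟨ZMod p, inferInstance, inferInstance, ZMod.card p, TopB.odd_branch h hle hperf hStirr hSt1 hStx hodd hp5⟩
  refine ⟨?_, hmain⟩
  obtain ⟨F, _, _, hF, ⟨ψ⟩⟩ := hmain
  have hindex : (MulAction.stabilizer G a₀).index = p := by
    rw [MulAction.index_stabilizer, MulAction.orbit_eq_univ, Set.ncard_univ, hαc]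
  have hindex2 : ((MulAction.stabilizer G a₀).map ψ.toMonoidHom).index = p := by
    rw [Subgroup.index_map_of_bijective (f := ψ.toMonoidHom) ψ.bijective, hindex]
  exact FinalIndex.psl_index_p hF hp5 _ hindex2

end Cfsg.Agent.S4724
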