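import Cfsg.Statements.S4741
import Mathlib
import Cfsg.Agent.Lib.Blocks.ClassIndep2
import Cfsg.Agent.Lib.Blocks.RegInt
import Cfsg.Agent.Lib.Blocks.Laradji
-- import your own Cfsg.Agent.* helpers here

set_option autoImplicit false
open Cfsg

namespace Cfsg.Agent.S4741

open Cfsg.Agent.Lib.Blocks.Local Cfsg.Agent.Lib.Blocks.Central Cfsg.Agent.Lib.Blocks.Osima
  Cfsg.Agent.Lib.Blocks.ClassIndep2 Cfsg.Agent.Lib.Blocks.BlockHom

/-- Let p be a prime, M a maximal ideal of the algebraic integers containing p, and D a subgroup of the finite group G. Let x₁, …, x_r be pairwise non-conjugate elements of G such that D is a Sylow p-subgroup of the centralizer of each xᵢ, and such that for any conjugates g of some xᵢ and h of some xⱼ the element g h⁻¹ is never a non-identity p-element. Then there are r distinct p-blocks B₁, …, B_r of G, each having D as a defect group, such that for every choice of characters χᵢ ∈ Bᵢ of height zero the determinant of the r × r matrix (χᵢ(xⱼ)) does not lie in the local ideal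 at M. -/
theorem result {G : Type*} [Group G] [Finite G] (p : ℕ) [Fact p.Prime] (M : Ideal Cfsg.AlgInt) (hM : Cfsg.IsPModular p M) (D : Subgroup G) {r : ℕ} (x : Fin r → G) (hx : ∀ i j : Fin r, IsConj (x i) (x j) → i = j) (hD : ∀ i : Fin r, ∃ S : Sylow p ↥(Subgroup.centralizer ({x i} : Set G)), (S : Subgroup ↥(Subgroup.centralizer ({x i} : Set G))).map (Subgroup.centralizer ({x i} : Set G)).subtype = D) (hsep : ∀ i j : Fin r, ∀ g h : G, IsConj (x i) g → IsConj (x j) h → ∀ k : ℕ, 0 < k → orderOf (g * h⁻¹) ≠ p ^ k) : ∃ B : Fin r → Set (Cfsg.IrrCharacter G), Function.Injective B ∧ (∀ i : Fin r, Cfsg.IsPBlock M (B i) ∧ Cfsg.IsDefectGroup p M (B i) D) ∧ ∀ χ : Fin r → Cfsg.IrrCharacter G, (∀ i : Fin r, χ i ∈ B i ∧ Cfsg.blockHeight p (B i) (χ i : G → ℂ) = 0) → ¬ Cfsg.MemLocalIdeal M (Matrix.det (Matrix.of fun i j : Fin r => (χ i : G → ℂ) (x j))) := by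
  classical
  cases nonempty_fintype G
  haveI hMp := isPrime_of_isPModular hM
  set I := {ξ : Cfsg.IrrCharacter G // Cfsg.IsDefectGroup p M (Cfsg.blockOf M (ξ : G → ℂ)) D} with hI
  haveI : Fintype I := Fintype.ofFinite _
  let W : Cfsg.IrrCharacter G → Fin r → localRing M := fun ξ j =>
    ⟨omega (ξ : G → ℂ) (classSum (x j)), memLocalRing_omega ξ.2 (classSum_mem_localCenter _)⟩
  have hWcoe : ∀ ξ j, ((W ξ j : localRing M) : ℂ) = Cfsg.centralChar (ξ : G → ℂ) (x j) := fun ξ j =>
    omega_classSum (isClassFunction_of_irr ξ.2) _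
  let A : Matrix I (Fin r) (localRing M ⧸ localIdeal M) := Matrix.of fun ξ j => residue M (W ξ.1 j)
  have hinj : Function.Injective A.mulVecLin := by
    rw [injective_iff_map_eq_zero]
    intro v hv
    choose vl hvl using fun C => Ideal.Quotient.mk_surjective (v C)
    have hzero : ∀ χ : Cfsg.IrrCharacter G, Cfsg.IsDefectGroup p M (Cfsg.blockOf M (χ : G → ℂ)) D →
        MemLocalIdeal M (omega (χ : G → ℂ) (∑ C, ((vl C : localRing M) : ℂ) • classSum (x C))) := by
      intro χ hχ
      rw [omega_sum]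
      simp only [omega_smul]
      have h1 := congrFun hv ⟨χ, hχ⟩
      simp only [Matrix.mulVecLin_apply, Matrix.mulVec, dotProduct, Pi.zero_apply] at h1
      have h2 : ∑ C, ((vl C : localRing M) : ℂ) * omega (χ : G → ℂ) (classSum (x C)) =
          ((∑ C, vl C * W χ C : localRing M) : ℂ) := by
        rw [AddSubmonoidClass.coe_finset_sum]
        rfl
      rw [h2, ← residue_eq_zero_iff, map_sum, ← h1]
      refine Finset.sum_congr rfl fun C _ => ?_
      rw [map_mul, mul_comm]
      show _ * residue M (vl C) = _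
      rw [hvl C]
      rfl
    funext C
    have h1 := memLocalIdeal_of_separated hM x hx hD hsep (fun C => ((vl C : localRing M) : ℂ)) (fun C => (vl C).2) hzero C
    rw [← hvl C]
    exact residue_eq_zero_iff.mpr h1
  obtain ⟨φ, hφ⟩ := exists_det_ne_zero_of_injective A hinj
  -- rows in the same block agree
  have hsame : ∀ (i : Fin r) (χ : Cfsg.IrrCharacter G) (j : Fin r), χ ∈ Cfsg.blockOf M (((φ i).1 : Cfsg.IrrCharacter G) : G → ℂ) →
      residue M (W χ j) = A (φ i) j := by
    intro i χ j hχ
    show residue M (W χ j) = residue M (W (φ i).1 j)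
    rw [residue_eq_iff, hWcoe, hWcoe]
    have := hχ (x j)
    rw [← neg_sub]
    exact memLocalIdeal_neg this
  refine ⟨fun i => Cfsg.blockOf M (((φ i).1 : Cfsg.IrrCharacter G) : G → ℂ), ?_, fun i => ⟨⟨_, rfl⟩, (φ i).2⟩, ?_⟩
  · intro i i' hii'
    by_contra hne
    apply hφ
    refine Matrix.det_zero_of_row_eq hne ?_
    funext j
    show A (φ i) j = A (φ i') j
    have h1 : (φ i).1 ∈ Cfsg.blockOf M (((φ i').1 : Cfsg.IrrCharacter G) : G → ℂ) := by
      have hh : (φ i).1 ∈ Cfsg.blockOf M (((φ i).1 : Cfsg.IrrCharacter G) : G → ℂ) := mem_blockOf_self _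
      have h2 : Cfsg.blockOf M (((φ i).1 : Cfsg.IrrCharacter G) : G → ℂ) = Cfsg.blockOf M (((φ i').1 : Cfsg.IrrCharacter G) : G → ℂ) := hii'
      rw [← h2]
      exact hh
    exact hsame i' _ j h1
  · intro χ hχ hdet
    let Wm : Matrix (Fin r) (Fin r) (localRing M) := Matrix.of fun i j => W (χ i) j
    have hres : residue M Wm.det ≠ 0 := by
      have hmap : (residue M).mapMatrix Wm = Matrix.of fun i j => A (φ i) j :=
        Matrix.ext fun i j => hsame i (χ i) j (hχ i).1
      rw [RingHom.map_det, hmap]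
      exact hφ
    apply hres
    rw [residue_eq_zero_iff]
    have hcoe : ((Wm.det : localRing M) : ℂ) = Matrix.det ((localRing M).subtype.mapMatrix Wm) :=
      (localRing M).subtype.map_det Wm
    have hmat : (localRing M).subtype.mapMatrix Wm = Matrix.of fun i j =>
        (((χ i : Cfsg.IrrCharacter G) : G → ℂ) 1)⁻¹ *
          (((Subgroup.centralizer ({x j} : Set G)).index : ℂ) * ((χ i : Cfsg.IrrCharacter G) : G → ℂ) (x j)) := by
      ext i j
      show ((W (χ i) j : localRing M) : ℂ) = _
      rw [hWcoe, Cfsg.centralChar]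
      simp only [Matrix.of_apply]
      ring
    have hdetrel : ((Wm.det : localRing M) : ℂ) = (∏ i, ((Subgroup.centralizer ({x i} : Set G)).index : ℂ) /
        ((χ i : Cfsg.IrrCharacter G) : G → ℂ) 1) * Matrix.det (Matrix.of fun i j => ((χ i : Cfsg.IrrCharacter G) : G → ℂ) (x j)) := by
      have h1 : Matrix.det (Matrix.of fun i j => (((χ i : Cfsg.IrrCharacter G) : G → ℂ) 1)⁻¹ *
          (((Subgroup.centralizer ({x j} : Set G)).index : ℂ) * ((χ i : Cfsg.IrrCharacter G) : G → ℂ) (x j))) =
          (∏ i, (((χ i : Cfsg.IrrCharacter G) : G → ℂ) 1)⁻¹) * Matrix.det (Matrix.of fun i j =>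
            ((Subgroup.centralizer ({x j} : Set G)).index : ℂ) * ((χ i : Cfsg.IrrCharacter G) : G → ℂ) (x j)) :=
        Matrix.det_mul_column (fun i => (((χ i : Cfsg.IrrCharacter G) : G → ℂ) 1)⁻¹)
          (Matrix.of fun i j => ((Subgroup.centralizer ({x j} : Set G)).index : ℂ) * ((χ i : Cfsg.IrrCharacter G) : G → ℂ) (x j))
      have h2 : Matrix.det (Matrix.of fun i j =>
            ((Subgroup.centralizer ({x j} : Set G)).index : ℂ) * ((χ i : Cfsg.IrrCharacter G) : G → ℂ) (x j)) =
          (∏ j, ((Subgroup.centralizer ({x j} : Set G)).index : ℂ)) *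
            Matrix.det (Matrix.of fun i j => ((χ i : Cfsg.IrrCharacter G) : G → ℂ) (x j)) :=
        Matrix.det_mul_row (fun j => ((Subgroup.centralizer ({x j} : Set G)).index : ℂ))
          (Matrix.of fun i j => ((χ i : Cfsg.IrrCharacter G) : G → ℂ) (x j))
      rw [hcoe, hmat, h1, h2, Finset.prod_div_distrib, div_eq_mul_inv, Finset.prod_inv_distrib]
      ring
    rw [hdetrel]
    refine memLocalIdeal_mul_left (memLocalRing_prod _ _ fun i _ => ?_) hdet
    rw [← Cfsg.Agent.Lib.Blocks.RegInt.charDegree_cast]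
    refine Cfsg.Agent.Lib.Blocks.Laradji.memLocalRing_natCast_div hM ?_ Subgroup.index_ne_zero_of_finite ?_
    · exact Cfsg.Agent.Lib.Blocks.RegInt.charDegree_ne_zero _
    · have h1 : Nat.card D = p ^ Cfsg.blockDefect p (Cfsg.blockOf M (((φ i).1 : Cfsg.IrrCharacter G) : G → ℂ)) :=
        Cfsg.Agent.S0908.result p M hM _ ⟨_, rfl⟩ D (φ i).2
      have h2 : Nat.card D = p ^ (Nat.card (Subgroup.centralizer ({x i} : Set G))).factorization p :=
        ((Cfsg.Agent.S0916.exists_sylow_map_iff (p := p)).mp (hD i)).2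
      have h3 : Cfsg.blockDefect p (Cfsg.blockOf M (((φ i).1 : Cfsg.IrrCharacter G) : G → ℂ)) =
          (Nat.card (Subgroup.centralizer ({x i} : Set G))).factorization p :=
        Nat.pow_right_injective (Fact.out : p.Prime).two_le (h1.symm.trans h2)
      have h4 := (hχ i).2
      have h5 : (Nat.card (Subgroup.centralizer ({x i} : Set G)) * (Subgroup.centralizer ({x i} : Set G)).index).factorization p =
          (Nat.card G).factorization p := by rw [Subgroup.card_mul_index]
      rw [Nat.factorization_mul Nat.card_pos.ne' Subgroup.index_ne_zero_of_finite] at h5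
      simp only [Finsupp.add_apply] at h5
      have h6 : (Cfsg.charDegree ((χ i : Cfsg.IrrCharacter G) : G → ℂ)).factorization p ≤ (Nat.card G).factorization p :=
        (Nat.factorization_le_iff_dvd (Cfsg.Agent.Lib.Blocks.RegInt.charDegree_ne_zero _) Nat.card_pos.ne').mpr
          (Cfsg.Agent.Lib.Blocks.HeightZero.charDegree_dvd_card (χ i).2) p
      unfold Cfsg.blockHeight at h4
      unfold Cfsg.blockDefect at h3
      beta_reduce at h4
      omega

end Cfsg.Agent.S4741
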