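import Mathlib
import Cfsg.Agent.S4742
import Cfsg.Prelude.Def_Local

set_option autoImplicit false
open Cfsg

namespace Cfsg.Agent.S4743

theorem core_step {G : Type*} [Group G] [Finite G] (r s : ℕ) [Fact r.Prime] [Fact s.Prime]
    (hrs : r ≠ s) (hsolv : Cfsg.IsPSolvable r G) (hrG : r ∣ Nat.card G)
    (h1 : ∀ z : G, z ≠ 1 → (∃ k : ℕ, orderOf z = r ^ k) → ∃ g h : G, IsConj z g ∧ IsConj z h ∧
      g * h⁻¹ ≠ 1 ∧ ∃ k : ℕ, orderOf (g * h⁻¹) = s ^ k)
    (h2 : ∀ z : G, z ≠ 1 → (∃ k : ℕ, orderOf z = s ^ k) → ∃ g h : G, IsConj z g ∧ IsConj z h ∧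
      g * h⁻¹ ≠ 1 ∧ ∃ k : ℕ, orderOf (g * h⁻¹) = r ^ k) : False := by
  classical
  have hrp : r.Prime := Fact.out
  have hsp : s.Prime := Fact.out
  obtain ⟨n, H, h0, hlast, hmono, hnorm, hstep⟩ := hsolv
  -- the first step where `r` appears
  have hex : ∃ i : ℕ, ∃ hi : i < n + 1, r ∣ Nat.card (H ⟨i, hi⟩) := by
    refine ⟨n, Nat.lt_succ_self n, ?_⟩
    have : (⟨n, Nat.lt_succ_self n⟩ : Fin (n + 1)) = Fin.last n := rfl
    rw [this, hlast]
    simpa using hrG
  have hfind := Nat.find_spec hex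
  obtain ⟨hi, hdvd⟩ := hfind
  set i := Nat.find hex with hidef
  have hipos : i ≠ 0 := by
    intro h0'
    have : (⟨i, hi⟩ : Fin (n + 1)) = 0 := by
      apply Fin.ext
      simpa using h0'
    rw [this, h0] at hdvd
    simp only [Subgroup.card_bot, Nat.dvd_one] at hdvd
    exact hrp.one_lt.ne' hdvd
  obtain ⟨j, hj⟩ := Nat.exists_eq_succ_of_ne_zero hipos
  have hjlt : j < n := by omega
  have hRndvd : ¬ r ∣ Nat.card (H ⟨j, by omega⟩) := by
    intro hd
    have := Nat.find_min' hex (m := j) ⟨by omega, hd⟩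
    omega
  set R := H ⟨j, by omega⟩ with hRdef
  set S := H ⟨i, hi⟩ with hSdef
  have hRn : R.Normal := hnorm _
  have hSn : S.Normal := hnorm _
  have hRS : R ≤ S := hmono (by
    change (⟨j, _⟩ : Fin (n + 1)) ≤ ⟨i, hi⟩
    rw [Fin.mk_le_mk]; omega)
  -- the relative index is a power of `r`
  have hst := hstep ⟨j, hjlt⟩
  have hc1 : (⟨j, hjlt⟩ : Fin n).castSucc = ⟨j, by omega⟩ := rfl
  have hc2 : (⟨j, hjlt⟩ : Fin n).succ = ⟨i, hi⟩ := by
    apply Fin.ext; simp [hj]
  rw [hc1, hc2] at hst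
  have hcard : Nat.card S = Nat.card R * R.relIndex S := by
    have := Subgroup.relIndex_mul_index (H := R) (K := S) hRS
    have h3 := Subgroup.card_mul_index R
    have h4 := Subgroup.card_mul_index S
    have hpos : 0 < S.index := Nat.pos_of_ne_zero Subgroup.index_ne_zero_of_finite
    apply Nat.eq_of_mul_eq_mul_right hpos
    rw [h4, ← h3, ← this, mul_assoc]
  have hrel : ∃ m : ℕ, R.relIndex S = r ^ m := by
    rcases hst with h | h
    · exact h
    · exfalso
      rw [hcard] at hdvd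
      rcases (Nat.Prime.dvd_mul hrp).1 hdvd with h5 | h5
      · exact hRndvd h5
      · exact (Nat.Prime.coprime_iff_not_dvd hrp).1 h.symm h5
  obtain ⟨m, hm⟩ := hrel
  -- an element of order `r` in `S`
  obtain ⟨y, hy⟩ := exists_prime_orderOf_dvd_card' (G := S) r hdvd
  have hy1 : (y : G) ≠ 1 := by
    intro h
    have : y = 1 := Subtype.ext h
    rw [this, orderOf_one] at hy
    exact hrp.one_lt.ne hy
  have hyo : orderOf (y : G) = r ^ 1 := by
    rw [Subgroup.orderOf_coe, hy, pow_one]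
  obtain ⟨g, h, hg, hh, hne, k, hk⟩ := h1 y hy1 ⟨1, hyo⟩
  have hmemconj : ∀ (N : Subgroup G) [N.Normal] {a b : G}, a ∈ N → IsConj a b → b ∈ N := by
    intro N _ a b ha hab
    obtain ⟨c, rfl⟩ := isConj_iff.1 hab
    exact Subgroup.Normal.conj_mem inferInstance a ha c
  have hgS : g ∈ S := hmemconj S y.2 hg
  have hhS : h ∈ S := hmemconj S y.2 hh
  set w := g * h⁻¹ with hw
  have hwS : w ∈ S := S.mul_mem hgS (S.inv_mem hhS)
  -- `w ∈ R`
  have hwR : w ∈ R := by
    have hnm : (R.subgroupOf S).Normal := Subgroup.Normal.subgroupOf hRn S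
    have h5 := Subgroup.pow_index_mem (R.subgroupOf S) (⟨w, hwS⟩ : S)
    rw [Subgroup.mem_subgroupOf] at h5
    have h6 : w ^ (R.subgroupOf S).index ∈ R := by simpa using h5
    have h7 : (R.subgroupOf S).index = r ^ m := hm
    rw [h7] at h6
    have hco : (r ^ m).Coprime (orderOf w) := by
      rw [hk]
      exact Nat.Coprime.pow _ _ ((Nat.coprime_primes hrp hsp).2 hrs)
    obtain ⟨c, hc⟩ := exists_pow_eq_self_of_coprime hco
    rw [← hc]
    exact R.pow_mem h6 c
  obtain ⟨g', h', hg', hh', hne', k', hk'⟩ := h2 w hne ⟨k, hk⟩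
  have hg'R : g' ∈ R := hmemconj R hwR hg'
  have hh'R : h' ∈ R := hmemconj R hwR hh'
  have hv : g' * h'⁻¹ ∈ R := R.mul_mem hg'R (R.inv_mem hh'R)
  have hk0 : k' ≠ 0 := by
    rintro rfl
    rw [pow_zero, orderOf_eq_one_iff] at hk'
    exact hne' hk'
  apply hRndvd
  have h8 : orderOf (⟨_, hv⟩ : R) = r ^ k' := by
    rw [← Subgroup.orderOf_coe]; exact hk'
  have h9 : orderOf (⟨_, hv⟩ : R) ∣ Nat.card R := orderOf_dvd_natCard _
  rw [h8] at h9
  exact (dvd_pow_self r hk0).trans h9

/-- Let p ≠ q be primes dividing the order of the finite group G, suppose the centralizer of every non-identity p-element has order prime to q, and suppose G is p-solvable or q-solvable. Then G has an irreducible character of p-defect zero or an irreducible character of q-defect zero. -/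
theorem result {G : Type*} [Group G] [Finite G] (p q : ℕ) [Fact p.Prime] [Fact q.Prime] (hppq : p ≠ q) (hpG : p ∣ Nat.card G) (hqG : q ∣ Nat.card G) (hC : ∀ g : G, g ≠ 1 → (∃ k : ℕ, orderOf g = p ^ k) → ¬ q ∣ Nat.card ↥(Subgroup.centralizer ({g} : Set G))) (hsolv : Cfsg.IsPSolvable p G ∨ Cfsg.IsPSolvable q G) : (∃ χ : Cfsg.IrrCharacter G, (Cfsg.charDegree (χ : G → ℂ)).factorization p = (Nat.card G).factorization p) ∨ (∃ χ : Cfsg.IrrCharacter G, (Cfsg.charDegree (χ : G → ℂ)).factorization q = (Nat.card G).factorization q) := by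
  have hpp : p.Prime := Fact.out
  have hqq : q.Prime := Fact.out
  -- the dual hypothesis
  have hC' : ∀ g : G, g ≠ 1 → (∃ k : ℕ, orderOf g = q ^ k) →
      ¬ p ∣ Nat.card ↥(Subgroup.centralizer ({g} : Set G)) := by
    rintro z hz1 ⟨k, hk⟩ hd
    obtain ⟨y, hy⟩ := exists_prime_orderOf_dvd_card' (G := Subgroup.centralizer ({z} : Set G)) p hd
    have hy1 : (y : G) ≠ 1 := by
      intro h
      have : y = 1 := Subtype.ext h
      rw [this, orderOf_one] at hy
      exact hpp.one_lt.ne hy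
    have hyo : orderOf (y : G) = p ^ 1 := by
      rw [Subgroup.orderOf_coe, hy, pow_one]
    apply hC y hy1 ⟨1, hyo⟩
    have hk0 : k ≠ 0 := by
      rintro rfl
      rw [pow_zero, orderOf_eq_one_iff] at hk
      exact hz1 hk
    have hzm : z ∈ Subgroup.centralizer ({(y : G)} : Set G) := by
      rw [Subgroup.mem_centralizer_singleton_iff]
      have := y.2
      rw [Subgroup.mem_centralizer_singleton_iff] at this
      exact this.symm
    have h8 : orderOf (⟨z, hzm⟩ : Subgroup.centralizer ({(y : G)} : Set G)) = q ^ k := by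
      rw [← Subgroup.orderOf_coe]; exact hk
    have h9 := orderOf_dvd_natCard (⟨z, hzm⟩ : Subgroup.centralizer ({(y : G)} : Set G))
    rw [h8] at h9
    exact (dvd_pow_self q hk0).trans h9
  rcases Cfsg.Agent.S4742.result p q hppq hpG hqG hC with h | hA
  · exact Or.inl h
  rcases Cfsg.Agent.S4742.result q p hppq.symm hqG hpG hC' with h | hB
  · exact Or.inr h
  exfalso
  rcases hsolv with hs | hs
  · exact core_step p q hppq hs hpG hB hA
  · exact core_step q p hppq.symm hs hqG hA hB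

end Cfsg.Agent.S4743
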