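import Mathlib
import Cfsg.Agent.S4742

set_option autoImplicit false
open Cfsg
open scoped Pointwise

namespace Cfsg.Agent.S4744

section FPF
variable {S : Type*} [Group S] [Finite S]

theorem inverts_of_fpf (σ : S →* S) (hσ : ∀ x, σ (σ x) = x) (hfix : ∀ x, σ x = x → x = 1) (x : S) :
    σ x = x⁻¹ := by
  let f : S → S := fun a => a⁻¹ * σ a
  have hf : Function.Injective f := by
    intro a b hab
    have h1 : σ (b * a⁻¹) = b * a⁻¹ := by
      have h2 : b * a⁻¹ = σ b * (σ a)⁻¹ := by
        have h3 : a⁻¹ * σ a = b⁻¹ * σ b := hab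
        calc b * a⁻¹ = b * (a⁻¹ * σ a) * (σ a)⁻¹ := by group
          _ = b * (b⁻¹ * σ b) * (σ a)⁻¹ := by rw [h3]
          _ = _ := by group
      rw [map_mul, map_inv]; exact h2.symm
    have h3 := hfix _ h1
    exact (mul_inv_eq_one.1 h3).symm
  have hs := Finite.injective_iff_surjective.1 hf
  obtain ⟨a, rfl⟩ := hs x
  simp only [f, map_mul, map_inv, hσ, mul_inv_rev, inv_inv]

omit [Finite S] in
theorem comm_of_inverts (σ : S →* S) (h : ∀ x, σ x = x⁻¹) (a b : S) : a * b = b * a := by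
  have h1 := map_mul σ a b
  rw [h, h, h, mul_inv_rev] at h1
  calc a * b = (b⁻¹ * a⁻¹)⁻¹ := by group
    _ = (a⁻¹ * b⁻¹)⁻¹ := by rw [h1]
    _ = b * a := by group

end FPF

theorem exists_stable_sylow {C : Type*} [Group C] [Finite C] (p : ℕ) [Fact p.Prime]
    (hodd : Odd (Nat.card C)) (α : C ≃* C) (hα : ∀ x, α (α x) = x) :
    ∃ S : Sylow p C, ∀ x ∈ (S : Subgroup C), α x ∈ (S : Subgroup C) := by
  classical
  haveI : Fintype (Sylow p C) := Fintype.ofFinite _
  let A : MulAut C := α
  have hAA : A * A = 1 := by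
    ext x
    exact hα x
  let f : Function.End (Sylow p C) := fun S => A • S
  have hf : f ^ 2 ^ 1 = 1 := by
    funext S
    change A • A • S = S
    rw [smul_smul, hAA, one_smul]
  haveI : Fact (Nat.Prime 2) := ⟨Nat.prime_two⟩
  have hcard := Equiv.Perm.card_fixedPoints_modEq (p := 2) (n := 1) hf
  haveI : Nonempty (Sylow p C) := inferInstance
  obtain ⟨P⟩ := (inferInstance : Nonempty (Sylow p C))
  have hodd2 : Odd (Fintype.card (Sylow p C)) := by
    have h1 := P.card_dvd_index
    have h2 : Nat.card (Sylow p C) ∣ Nat.card C :=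
      h1.trans (Subgroup.index_dvd_card _)
    rw [Nat.card_eq_fintype_card] at h2
    exact Odd.of_dvd_nat hodd h2
  have hfix : 0 < Fintype.card (Function.fixedPoints f) := by
    rcases Nat.eq_zero_or_pos (Fintype.card (Function.fixedPoints f)) with h0 | h0
    · exfalso
      rw [h0] at hcard
      have : Fintype.card (Sylow p C) % 2 = 0 := by
        have := hcard
        unfold Nat.ModEq at this
        simpa using this
      rw [Nat.odd_iff] at hodd2
      omega
    · exact h0
  obtain ⟨⟨S, hS⟩⟩ := Fintype.card_pos_iff.1 hfix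
  refine ⟨S, fun x hx => ?_⟩
  have h3 : A • S = S := hS
  have h4 : A • (S : Subgroup C) = S := by
    rw [← Sylow.pointwise_smul_def, h3]
  rw [← h4]
  exact Subgroup.smul_mem_pointwise_smul _ A _ hx

section Main

variable {G : Type*} [Group G] [Finite G] (p : ℕ) [Fact p.Prime]

/-- The key lemma: a `p`-element inverted by an involution. -/
theorem lemmaA
    (hC : ∀ g : G, g ≠ 1 → (∃ k : ℕ, orderOf g = p ^ k) →
      Odd (Nat.card ↥(Subgroup.centralizer ({g} : Set G))))
    {y u : G} (hy1 : y ≠ 1) (hyp : ∃ k : ℕ, orderOf y = p ^ k) (hu1 : u ≠ 1) (hu : u * u = 1)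
    (hinv : u * y * u⁻¹ = y⁻¹) :
    ∃ S : Subgroup G, S ≤ Subgroup.centralizer ({y} : Set G) ∧ IsPGroup p S ∧
      (∀ Q : Subgroup G, IsPGroup p Q → Q ≤ Subgroup.centralizer ({y} : Set G) →
        Nat.card Q ≤ Nat.card S) ∧
      (∀ s ∈ S, u * s * u⁻¹ = s⁻¹) ∧ (∀ a ∈ S, ∀ b ∈ S, a * b = b * a) := by
  classical
  set C := Subgroup.centralizer ({y} : Set G) with hCdef
  have huinv : u⁻¹ = u := inv_eq_of_mul_eq_one_left hu
  have hinv' : u * y⁻¹ * u⁻¹ = y := by
    have : u * y⁻¹ * u⁻¹ = (u * y * u⁻¹)⁻¹ := by group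
    rw [this, hinv, inv_inv]
  have hmem : ∀ x : G, x ∈ C → u * x * u⁻¹ ∈ C := by
    intro x hx
    rw [hCdef, Subgroup.mem_centralizer_singleton_iff] at hx ⊢
    have hx' : x * y⁻¹ = y⁻¹ * x := by
      have : y⁻¹ * (x * y) * y⁻¹ = y⁻¹ * (y * x) * y⁻¹ := by rw [hx]
      calc x * y⁻¹ = y⁻¹ * (y * x) * y⁻¹ := by group
        _ = y⁻¹ * (x * y) * y⁻¹ := by rw [hx]
        _ = y⁻¹ * x := by group
    calc u * x * u⁻¹ * y = u * x * u⁻¹ * (u * y⁻¹ * u⁻¹) := by rw [hinv']
      _ = u * (x * y⁻¹) * u⁻¹ := by group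
      _ = u * (y⁻¹ * x) * u⁻¹ := by rw [hx']
      _ = (u * y⁻¹ * u⁻¹) * (u * x * u⁻¹) := by group
      _ = y * (u * x * u⁻¹) := by rw [hinv']
  let α : C ≃* C :=
    { toFun := fun x => ⟨u * x * u⁻¹, hmem x x.2⟩
      invFun := fun x => ⟨u * x * u⁻¹, hmem x x.2⟩
      left_inv := fun x => by
        apply Subtype.ext
        change u * (u * x * u⁻¹) * u⁻¹ = x
        rw [huinv]
        calc u * (u * x * u) * u = (u * u) * x * (u * u) := by group
          _ = x := by rw [hu]; group
      right_inv := fun x => by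
        apply Subtype.ext
        change u * (u * x * u⁻¹) * u⁻¹ = x
        rw [huinv]
        calc u * (u * x * u) * u = (u * u) * x * (u * u) := by group
          _ = x := by rw [hu]; group
      map_mul' := fun a b => by
        apply Subtype.ext
        change u * (a * b) * u⁻¹ = (u * a * u⁻¹) * (u * b * u⁻¹)
        group }
  have hα : ∀ x, α (α x) = x := fun x => α.left_inv x
  obtain ⟨P, hP⟩ := exists_stable_sylow p (hC y hy1 hyp) α hα
  let σ : (P : Subgroup C) →* (P : Subgroup C) :=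
    { toFun := fun x => ⟨α x, hP x x.2⟩
      map_one' := by
        apply Subtype.ext
        simp
      map_mul' := fun a b => by
        apply Subtype.ext
        simp }
  have hσ : ∀ x, σ (σ x) = x := fun x => by
    apply Subtype.ext
    exact hα x
  have hPp : IsPGroup p (P : Subgroup C) := P.2
  have hfix : ∀ x, σ x = x → x = 1 := by
    intro x hx
    by_contra hne
    have hx1 : ((x : C) : G) ≠ 1 := fun h => hne (Subtype.ext (Subtype.ext h))
    have hord : ∃ k : ℕ, orderOf ((x : C) : G) = p ^ k := by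
      obtain ⟨k, hk⟩ := (IsPGroup.iff_orderOf.1 hPp) x
      refine ⟨k, ?_⟩
      rw [Subgroup.orderOf_coe, Subgroup.orderOf_coe]
      exact hk
    have hodd := hC _ hx1 hord
    have hcom : u ∈ Subgroup.centralizer ({((x : C) : G)} : Set G) := by
      rw [Subgroup.mem_centralizer_singleton_iff]
      have h1 : u * ((x : C) : G) * u⁻¹ = ((x : C) : G) := by
        have := congrArg (fun w : (P : Subgroup C) => ((w : C) : G)) hx
        exact this
      calc u * ((x : C) : G) = (u * ((x : C) : G) * u⁻¹) * u := by group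
        _ = ((x : C) : G) * u := by rw [h1]
    have hou : orderOf u = 2 := orderOf_eq_prime (by rw [pow_two]; exact hu) hu1
    have h2 : orderOf (⟨u, hcom⟩ : Subgroup.centralizer ({((x : C) : G)} : Set G)) = 2 := by
      rw [← Subgroup.orderOf_coe]; exact hou
    have h3 := orderOf_dvd_natCard (⟨u, hcom⟩ : Subgroup.centralizer ({((x : C) : G)} : Set G))
    rw [h2] at h3
    exact (Nat.not_even_iff_odd.2 hodd) (even_iff_two_dvd.2 h3)
  have hinvS := inverts_of_fpf σ hσ hfix
  have hcomS := comm_of_inverts σ hinvS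
  refine ⟨(P : Subgroup C).map C.subtype, ?_, hPp.map _, ?_, ?_, ?_⟩
  · rintro _ ⟨x, _, rfl⟩
    exact x.2
  · intro Q hQ hQC
    have hQ' : IsPGroup p (Q.subgroupOf C) := hQ.comap_of_injective C.subtype Subtype.val_injective
      |>.of_equiv (MulEquiv.refl _)
    obtain ⟨R, hR⟩ := hQ'.exists_le_sylow
    have hcard1 : Nat.card Q = Nat.card (Q.subgroupOf C) :=
      (Nat.card_congr (Subgroup.subgroupOfEquivOfLe hQC).toEquiv).symm
    have hcard2 : Nat.card (Q.subgroupOf C) ≤ Nat.card R :=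
      Subgroup.card_le_of_le hR
    have hcard3 : Nat.card R = Nat.card P := by
      rw [Sylow.card_eq_multiplicity, Sylow.card_eq_multiplicity]
    have hcard4 : Nat.card ((P : Subgroup C).map C.subtype) = Nat.card P :=
      Subgroup.card_map_of_injective Subtype.val_injective
    rw [hcard1, hcard4, ← hcard3]
    exact hcard2
  · rintro _ ⟨x, hx, rfl⟩
    have := hinvS ⟨x, hx⟩
    have h2 := congrArg (fun w : (P : Subgroup C) => ((w : C) : G)) this
    exact h2
  · rintro _ ⟨a, ha, rfl⟩ _ ⟨b, hb, rfl⟩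
    have := hcomS ⟨a, ha⟩ ⟨b, hb⟩
    have h2 := congrArg (fun w : (P : Subgroup C) => ((w : C) : G)) this
    exact h2

end Main

/-- Let p be an odd prime and G a finite group of even order divisible by p in which the centralizer of every non-identity p-element has odd order. Then either G has an irreducible character of p-defect zero, or the normalizer of every Sylow p-subgroup P of G has even order and P is abelian. -/
theorem result {G : Type*} [Group G] [Finite G] (p : ℕ) [Fact p.Prime] (hp2 : p ≠ 2) (hpG : p ∣ Nat.card G) (h2G : 2 ∣ Nat.card G) (hC : ∀ g : G, g ≠ 1 → (∃ k : ℕ, orderOf g = p ^ k) → Odd (Nat.card ↥(Subgroup.centralizer ({g} : Set G)))) : (∃ χ : Cfsg.IrrCharacter G, (Cfsg.charDegree (χ : G → ℂ)).factorization p = (Nat.card G).factorization p) ∨ ∀ P : Sylow p G, Even (Nat.card ↥(Subgroup.normalizer ((P : Subgroup G) : Set G))) ∧ IsMulCommutative ↥(P : Subgroup G) := by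
  classical
  haveI : Fact (Nat.Prime 2) := ⟨Nat.prime_two⟩
  have hpp : p.Prime := Fact.out
  have hC' : ∀ g : G, g ≠ 1 → (∃ k : ℕ, orderOf g = p ^ k) → ¬ 2 ∣ Nat.card ↥(Subgroup.centralizer ({g} : Set G)) := by
    intro g hg hk hd
    have := hC g hg hk
    exact (Nat.not_even_iff_odd.2 this) (even_iff_two_dvd.2 hd)
  rcases Cfsg.Agent.S4742.result p 2 hp2 hpG h2G hC' with h | hB
  · exact Or.inl h
  right
  obtain ⟨t, ht⟩ := exists_prime_orderOf_dvd_card' (G := G) 2 h2G
  have ht1 : t ≠ 1 := by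
    rintro rfl
    rw [orderOf_one] at ht
    omega
  obtain ⟨g, h, hg, hh, hne, k, hk⟩ := hB t ht1 ⟨1, by rw [ht, pow_one]⟩
  have ht2 : t ^ 2 = 1 := by rw [← ht]; exact pow_orderOf_eq_one t
  have hg2 : g * g = 1 := by
    obtain ⟨c, rfl⟩ := isConj_iff.1 hg
    have : c * t * c⁻¹ * (c * t * c⁻¹) = c * (t * t) * c⁻¹ := by group
    rw [this, ← pow_two, ht2]; group
  have hh2 : h * h = 1 := by
    obtain ⟨c, rfl⟩ := isConj_iff.1 hh
    have : c * t * c⁻¹ * (c * t * c⁻¹) = c * (t * t) * c⁻¹ := by group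
    rw [this, ← pow_two, ht2]; group
  have hginv : g⁻¹ = g := inv_eq_of_mul_eq_one_left hg2
  have hhinv : h⁻¹ = h := inv_eq_of_mul_eq_one_left hh2
  have hg1 : g ≠ 1 := by
    rintro rfl
    exact ht1 (isConj_one_right.1 hg.symm)
  set y := g * h⁻¹ with hy
  have hinv : g * y * g⁻¹ = y⁻¹ := by
    rw [hy, mul_inv_rev, inv_inv, hhinv, hginv]
    calc g * (g * h) * g = (g * g) * h * g := by group
      _ = h * g := by rw [hg2, one_mul]
  obtain ⟨S, hSC, hSp, hSmax, hSinv, -⟩ := lemmaA p hC hne ⟨k, hk⟩ hg1 hg2 hinv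
  -- `y ∈ S`
  have hyC : y ∈ Subgroup.centralizer ({y} : Set G) := by
    rw [Subgroup.mem_centralizer_singleton_iff]
  have hYp : IsPGroup p (Subgroup.zpowers y) := by
    rw [IsPGroup.iff_card, Nat.card_zpowers]
    exact ⟨k, hk⟩
  have hSN : S ≤ Subgroup.normalizer ((Subgroup.zpowers y : Subgroup G) : Set G) := by
    intro x hx
    have hxy : Commute x y := by
      have := hSC hx
      rw [Subgroup.mem_centralizer_singleton_iff] at this
      exact this
    rw [Subgroup.mem_normalizer_iff]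
    intro w
    constructor
    · rintro ⟨n, rfl⟩
      have : x * (fun n : ℤ => y ^ n) n * x⁻¹ = y ^ n := by
        simp only
        rw [(hxy.zpow_right n).eq]
        group
      rw [this]
      exact ⟨n, rfl⟩
    · rintro ⟨n, hn⟩
      have h1 : w = y ^ n := by
        have h2 : x * w * x⁻¹ = y ^ n := hn.symm
        have h3 : x⁻¹ * (y ^ n) * x = y ^ n := by
          have := (hxy.zpow_right n).eq
          calc x⁻¹ * y ^ n * x = x⁻¹ * (y ^ n * x) := by group
            _ = x⁻¹ * (x * y ^ n) := by rw [this]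
            _ = y ^ n := by group
        calc w = x⁻¹ * (x * w * x⁻¹) * x := by group
          _ = x⁻¹ * y ^ n * x := by rw [h2]
          _ = y ^ n := h3
      rw [h1]
      exact ⟨n, rfl⟩
  have hyS : y ∈ S := by
    have hQp : IsPGroup p (S ⊔ Subgroup.zpowers y : Subgroup G) :=
      IsPGroup.to_sup_of_normal_right' hSp hYp hSN
    have hQC : (S ⊔ Subgroup.zpowers y : Subgroup G) ≤ Subgroup.centralizer ({y} : Set G) := by
      refine sup_le hSC ?_
      rw [Subgroup.zpowers_le]
      exact hyC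
    have hle := hSmax _ hQp hQC
    have heq := Subgroup.eq_of_le_of_card_ge (le_sup_left : S ≤ S ⊔ Subgroup.zpowers y) hle
    rw [heq]
    exact Subgroup.mem_sup_right (Subgroup.mem_zpowers y)
  obtain ⟨T, hST⟩ := hSp.exists_le_sylow
  have hTp : IsPGroup p (T : Subgroup G) := T.2
  haveI : Nontrivial (T : Subgroup G) :=
    ⟨⟨⟨y, hST hyS⟩, 1, fun h => hne (congrArg Subtype.val h)⟩⟩
  haveI := hTp.center_nontrivial
  obtain ⟨z, hz⟩ := exists_ne (1 : Subgroup.center (T : Subgroup G))
  set z₀ : G := ((z : (T : Subgroup G)) : G) with hz₀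
  have hz₀1 : z₀ ≠ 1 := fun h => hz (Subtype.ext (Subtype.ext h))
  have hz₀T : z₀ ∈ (T : Subgroup G) := (z : (T : Subgroup G)).2
  have hz₀p : ∃ k : ℕ, orderOf z₀ = p ^ k := by
    obtain ⟨n, hn⟩ := (IsPGroup.iff_orderOf.1 hTp) (z : (T : Subgroup G))
    exact ⟨n, by rw [hz₀, Subgroup.orderOf_coe]; exact hn⟩
  have hzcomm : ∀ x ∈ (T : Subgroup G), x * z₀ = z₀ * x := by
    intro x hx
    have := (Subgroup.mem_center_iff.1 z.2) ⟨x, hx⟩
    exact congrArg Subtype.val this
  have hz₀C : z₀ ∈ Subgroup.centralizer ({y} : Set G) := by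
    rw [Subgroup.mem_centralizer_singleton_iff]
    exact (hzcomm y (hST hyS)).symm
  have hz₀S : z₀ ∈ S := by
    have hQp : IsPGroup p ((T : Subgroup G) ⊓ Subgroup.centralizer ({y} : Set G) : Subgroup G) :=
      hTp.to_le inf_le_left
    have hle := hSmax _ hQp inf_le_right
    have heq := Subgroup.eq_of_le_of_card_ge (le_inf hST hSC) hle
    rw [heq]
    exact ⟨hz₀T, hz₀C⟩
  have hinvz := hSinv z₀ hz₀S
  obtain ⟨S₂, -, hS₂p, hS₂max, hS₂inv, hS₂com⟩ := lemmaA p hC hz₀1 hz₀p hg1 hg2 hinvz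
  have hTC : (T : Subgroup G) ≤ Subgroup.centralizer ({z₀} : Set G) := by
    intro x hx
    rw [Subgroup.mem_centralizer_singleton_iff]
    exact hzcomm x hx
  have hcT := hS₂max _ hTp hTC
  obtain ⟨P₀, hP₀⟩ := hS₂p.exists_le_sylow
  have hcP : Nat.card P₀ = Nat.card T := by
    rw [Sylow.card_eq_multiplicity, Sylow.card_eq_multiplicity]
  have heqP : S₂ = (P₀ : Subgroup G) := by
    apply Subgroup.eq_of_le_of_card_ge hP₀
    change Nat.card P₀ ≤ _
    rw [hcP]
    exact hcT
  rw [heqP] at hS₂inv hS₂com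
  have hgN : ∀ x, x ∈ (P₀ : Subgroup G) → g * x * g⁻¹ ∈ (P₀ : Subgroup G) := by
    intro x hx
    rw [hS₂inv x hx]
    exact Subgroup.inv_mem _ hx
  intro P
  obtain ⟨c, hc⟩ := MulAction.exists_smul_eq G P₀ P
  have hmem : ∀ x, x ∈ (P : Subgroup G) ↔ c⁻¹ * x * c ∈ (P₀ : Subgroup G) := by
    intro x
    rw [← hc]
    change x ∈ MulAut.conj c • (P₀ : Subgroup G) ↔ _
    rw [Subgroup.mem_pointwise_smul_iff_inv_smul_mem]
    simp [MulAut.smul_def]
  have hmem' : ∀ x, x ∈ (P₀ : Subgroup G) → c * x * c⁻¹ ∈ (P : Subgroup G) := by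
    intro x hx
    rw [hmem]
    convert hx using 1
    group
  constructor
  · -- even normalizer
    set g' := c * g * c⁻¹ with hg'
    have hg'inv : g'⁻¹ = g' := by
      rw [hg', mul_inv_rev, mul_inv_rev, inv_inv, hginv]
      group
    have hg'2 : g' * g' = 1 := by
      rw [hg']
      calc c * g * c⁻¹ * (c * g * c⁻¹) = c * (g * g) * c⁻¹ := by group
        _ = 1 := by rw [hg2]; group
    have hg'1 : g' ≠ 1 := by
      intro h1
      apply hg1
      have : g = c⁻¹ * g' * c := by rw [hg']; group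
      rw [this, h1]; group
    have hstep : ∀ x, x ∈ (P : Subgroup G) → g' * x * g'⁻¹ ∈ (P : Subgroup G) := by
      intro x hx
      have h1 := hgN _ ((hmem x).1 hx)
      have h2 := hmem' _ h1
      convert h2 using 1
      rw [hg']
      group
    have hgN' : g' ∈ Subgroup.normalizer ((P : Subgroup G) : Set G) := by
      rw [Subgroup.mem_normalizer_iff]
      intro x
      refine ⟨hstep x, fun hx => ?_⟩
      have := hstep _ hx
      have h3 : g' * (g' * x * g'⁻¹) * g'⁻¹ = x := by
        rw [hg'inv]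
        calc g' * (g' * x * g') * g' = (g' * g') * x * (g' * g') := by group
          _ = x := by rw [hg'2]; group
      rwa [h3] at this
    have hou : orderOf g' = 2 := orderOf_eq_prime (by rw [pow_two]; exact hg'2) hg'1
    have h2 : orderOf (⟨g', hgN'⟩ : Subgroup.normalizer ((P : Subgroup G) : Set G)) = 2 := by
      rw [← Subgroup.orderOf_coe]; exact hou
    have h3 := orderOf_dvd_natCard (⟨g', hgN'⟩ : Subgroup.normalizer ((P : Subgroup G) : Set G))
    rw [h2] at h3
    exact even_iff_two_dvd.2 h3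
  · -- commutative
    refine ⟨⟨fun a b => ?_⟩⟩
    apply Subtype.ext
    have h1 := hS₂com _ ((hmem a).1 a.2) _ ((hmem b).1 b.2)
    have h2 : (a : G) * b = c * ((c⁻¹ * a * c) * (c⁻¹ * b * c)) * c⁻¹ := by group
    have h3 : (b : G) * a = c * ((c⁻¹ * b * c) * (c⁻¹ * a * c)) * c⁻¹ := by group
    change (a : G) * b = b * a
    rw [h2, h3, h1]

end Cfsg.Agent.S4744
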