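import Mathlib
import Cfsg.Agent.S4742
import Cfsg.Agent.Lib.Char.Kazarin
import Cfsg.Agent.Lib.Char.CompleteCor
import Cfsg.Agent.Lib.Char.IndNormal
import Cfsg.Agent.Lib.CharFS.IndicatorReal
import Cfsg.Agent.Lib.CharFS.Tri

set_option autoImplicit false
open Cfsg
open scoped ComplexConjugate

namespace Cfsg.Agent.S4746

open Cfsg.Agent.Lib.CharFS.Indicator Cfsg.Agent.Lib.CharFS.Tri Cfsg.Agent.Lib.CharFS.IndicatorReal
  Cfsg.Agent.Lib.Char.CompleteCor

/-- A non-identity real element with a unique square root forces an irreducible character of even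
degree. -/
theorem even_degree_aux {G : Type*} [Group G] [Fintype G] [DecidableEq G] [Fintype (IrrCharacter G)]
    {F : Type} [CommRing F] [Nontrivial F] (π : AlgInt →+* F) (h2F : (2 : F) = 0)
    {y : G} (hy1 : y ≠ 1) (hreal : IsConj y y⁻¹)
    (hsq : (Finset.univ.filter fun x : G => x ^ 2 = y).card = 1) :
    ∃ χ : IrrCharacter G, Even (charDegree (χ : G → ℂ)) := by
  classical
  by_contra hno
  push Not at hno
  have hodd : ∀ χ : IrrCharacter G, Odd (charDegree (χ : G → ℂ)) := fun χ =>
    Nat.not_even_iff_odd.1 (hno χ)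
  have hneg : (-1 : F) = 1 := by
    have : (1 : F) + 1 = 0 := by rw [one_add_one_eq_two, h2F]
    exact (eq_neg_of_add_eq_zero_left this).symm
  have h10 : (1 : F) ≠ 0 := one_ne_zero
  have hint : ∀ χ : IrrCharacter G, ∀ g, IsIntegral ℤ ((χ : G → ℂ) g) := fun χ g =>
    Cfsg.Agent.Lib.Char.Values.IsCharacter.isIntegral
      (Cfsg.Agent.Lib.Char.Basic.isCharacter_of_isIrrCharacter χ.2) g
  let a : IrrCharacter G → AlgInt := fun χ => ⟨(χ : G → ℂ) y, hint χ y⟩
  have hncj : ¬ IsConj y 1 := fun h => hy1 (isConj_one_right.1 h.symm)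
  -- first relation: column orthogonality
  have hcol : ∑ χ : IrrCharacter G, π (a χ) = 0 := by
    have h1 := column_orth_not_conj (G := G) hncj
    have h2 : ∑ χ : IrrCharacter G, a χ * ((charDegree (χ : G → ℂ) : ℕ) : AlgInt) = 0 := by
      apply Subtype.ext
      have : ((∑ χ : IrrCharacter G, a χ * ((charDegree (χ : G → ℂ) : ℕ) : AlgInt) : AlgInt) : ℂ)
          = ∑ χ : IrrCharacter G, (χ : G → ℂ) y * conj ((χ : G → ℂ) 1) := by
        push_cast
        refine Finset.sum_congr rfl fun χ _ => ?_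
        rw [Cfsg.Agent.Lib.Char.Values.IsCharacter.charDegree_cast
          (Cfsg.Agent.Lib.Char.Basic.isCharacter_of_isIrrCharacter χ.2),
          conj_apply_one χ.2]
      rw [this, h1]
      rfl
    have h3 := congrArg π h2
    rw [map_sum, map_zero] at h3
    rw [← h3]
    refine Finset.sum_congr rfl fun χ _ => ?_
    rw [map_mul, map_natCast]
    obtain ⟨c, hc⟩ := hodd χ
    rw [hc]
    push_cast
    rw [show (2 : F) = 0 from h2F]
    simp
  -- second relation: Frobenius-Schur
  have hfs : ∑ χ : IrrCharacter G, (if ∀ g, conj ((χ : G → ℂ) g) = (χ : G → ℂ) g then π (a χ) else 0) = 1 := by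
    have h1 := sqrtCount_eq_sum (G := G) y
    have h2 : sqrtCount G y = 1 := by
      unfold sqrtCount
      rw [hsq]; simp
    rw [h2] at h1
    have hν : ∀ χ : IrrCharacter G, ∃ e : ℤ, nu (χ : G → ℂ) = e := fun χ =>
      nu_eq_int (Cfsg.Agent.Lib.Char.Basic.isCharacter_of_isIrrCharacter χ.2)
    choose e he using hν
    have h3 : ∑ χ : IrrCharacter G, ((e χ : ℤ) : AlgInt) * a χ = 1 := by
      apply Subtype.ext
      have : ((∑ χ : IrrCharacter G, ((e χ : ℤ) : AlgInt) * a χ : AlgInt) : ℂ)
          = ∑ χ : IrrCharacter G, nu (χ : G → ℂ) * (χ : G → ℂ) y := by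
        push_cast
        refine Finset.sum_congr rfl fun χ _ => ?_
        rw [he χ]
      rw [this, ← h1]
      rfl
    have h4 := congrArg π h3
    rw [map_sum, map_one] at h4
    rw [← h4]
    refine Finset.sum_congr rfl fun χ _ => ?_
    rw [map_mul, map_intCast]
    split_ifs with hr
    · have h5 := nu_of_real χ.2 hr
      rw [he χ] at h5
      have h6 : e χ = 1 ∨ e χ = -1 := by
        rcases h5 with h5 | h5
        · left; exact_mod_cast h5
        · right; exact_mod_cast h5
      rcases h6 with h6 | h6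
      · rw [h6]; simp
      · rw [h6]; push_cast; rw [hneg, one_mul]
    · have h5 := nu_of_not_real χ.2 (by push Not at hr; exact hr)
      rw [he χ] at h5
      have h6 : e χ = 0 := by exact_mod_cast h5
      rw [h6]; simp
  -- third relation: the non-real characters pair off
  have hnr : ∑ χ : IrrCharacter G, (if ∀ g, conj ((χ : G → ℂ) g) = (χ : G → ℂ) g then 0 else π (a χ)) = 0 := by
    let σ : IrrCharacter G → IrrCharacter G := fun χ =>
      ⟨fun g => conj ((χ : G → ℂ) g), Cfsg.Agent.Lib.Char.IndNormal.isIrrCharacter_conj χ.2⟩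
    have hσσ : ∀ χ, σ (σ χ) = χ := fun χ => by
      apply Subtype.ext
      funext g
      simp [σ]
    have hval : ∀ χ, a (σ χ) = a χ := fun χ => by
      apply Subtype.ext
      change conj ((χ : G → ℂ) y) = (χ : G → ℂ) y
      rw [← Cfsg.Agent.Lib.Char.Complete.isIrr_inv χ.2]
      exact irr_apply_of_isConj hreal.symm χ
    have hrσ : ∀ χ, (∀ g, conj (((σ χ) : G → ℂ) g) = ((σ χ) : G → ℂ) g) ↔ (∀ g, conj ((χ : G → ℂ) g) = (χ : G → ℂ) g) := by
      intro χ
      simp only [σ, Complex.conj_conj]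
      exact ⟨fun h g => (h g).symm, fun h g => (h g).symm⟩
    apply Finset.sum_involution (fun χ _ => σ χ)
    · intro χ _
      by_cases hr : ∀ g, conj ((χ : G → ℂ) g) = (χ : G → ℂ) g
      · rw [if_pos hr, if_pos ((hrσ χ).2 hr)]; simp
      · rw [if_neg hr, if_neg (fun h => hr ((hrσ χ).1 h)), hval, ← two_mul, h2F, zero_mul]
    · intro χ _ hne heq
      by_cases hr : ∀ g, conj ((χ : G → ℂ) g) = (χ : G → ℂ) g
      · rw [if_pos hr] at hne; exact hne rfl
      · apply hr
        intro g
        have := congrArg (fun τ : IrrCharacter G => (τ : G → ℂ) g) heq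
        exact this
    · intro χ _; exact Finset.mem_univ _
    · intro χ _; exact hσσ χ
  apply h10
  have hsplit : ∑ χ : IrrCharacter G, π (a χ) = ∑ χ : IrrCharacter G, (if ∀ g, conj ((χ : G → ℂ) g) = (χ : G → ℂ) g then π (a χ) else 0)
      + ∑ χ : IrrCharacter G, (if ∀ g, conj ((χ : G → ℂ) g) = (χ : G → ℂ) g then 0 else π (a χ)) := by
    rw [← Finset.sum_add_distrib]
    refine Finset.sum_congr rfl fun χ _ => ?_
    split_ifs <;> simp
  rw [hcol, hfs, hnr, add_zero] at hsplit
  exact hsplit.symm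

/-- A non-identity real element with a unique square root forces an irreducible character of even
degree. -/
theorem even_degree_of_real {G : Type*} [Group G] [Fintype G] [DecidableEq G] [Fintype (IrrCharacter G)]
    {y : G} (hy1 : y ≠ 1) (hreal : IsConj y y⁻¹)
    (hsq : (Finset.univ.filter fun x : G => x ^ 2 = y).card = 1) :
    ∃ χ : IrrCharacter G, Even (charDegree (χ : G → ℂ)) := by
  obtain ⟨M, -, hMmax, h2M⟩ := Cfsg.Agent.Lib.Char.Kazarin.exists_modular 2 Nat.prime_two
  haveI := hMmax
  haveI : Nontrivial (AlgInt ⧸ M) := Ideal.Quotient.nontrivial_iff.2 hMmax.ne_top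
  refine even_degree_aux (Ideal.Quotient.mk M) ?_ hy1 hreal hsq
  have h : (Ideal.Quotient.mk M) (((2 : ℕ) : AlgInt)) = 0 := Ideal.Quotient.eq_zero_iff_mem.2 h2M
  rw [map_natCast] at h
  exact_mod_cast h

/-- Let p be an odd prime and G a finite group of even order divisible by p in which the centralizer of every non-identity p-element has odd order. Then G has an irreducible character of p-defect zero or an irreducible character of even degree. -/
theorem result {G : Type*} [Group G] [Finite G] (p : ℕ) [Fact p.Prime] (hp2 : p ≠ 2) (hpG : p ∣ Nat.card G) (h2G : 2 ∣ Nat.card G) (hC : ∀ g : G, g ≠ 1 → (∃ k : ℕ, orderOf g = p ^ k) → Odd (Nat.card ↥(Subgroup.centralizer ({g} : Set G)))) : (∃ χ : Cfsg.IrrCharacter G, (Cfsg.charDegree (χ : G → ℂ)).factorization p = (Nat.card G).factorization p) ∨ ∃ χ : Cfsg.IrrCharacter G, Even (Cfsg.charDegree (χ : G → ℂ)) := by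
  classical
  cases nonempty_fintype G
  haveI : Finite (Cfsg.IrrCharacter G) := Cfsg.Agent.Lib.Char.Complete.finite_irr
  cases nonempty_fintype (Cfsg.IrrCharacter G)
  haveI : Fact (Nat.Prime 2) := ⟨Nat.prime_two⟩
  have hC' : ∀ g : G, g ≠ 1 → (∃ k : ℕ, orderOf g = p ^ k) → ¬ 2 ∣ Nat.card ↥(Subgroup.centralizer ({g} : Set G)) := by
    intro g hg hk hd
    have := hC g hg hk
    exact (Nat.not_even_iff_odd.2 this) (even_iff_two_dvd.2 hd)
  rcases Cfsg.Agent.S4742.result p 2 hp2 hpG h2G hC' with h | hB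
  · exact Or.inl h
  right
  obtain ⟨t, ht⟩ := exists_prime_orderOf_dvd_card' (G := G) 2 h2G
  have ht1 : t ≠ 1 := by
    rintro rfl
    rw [orderOf_one] at ht
    omega
  obtain ⟨g, h, hg, hh, hne, k, hk⟩ := hB t ht1 ⟨1, by rw [ht, pow_one]⟩
  have ht2 : t ^ 2 = 1 := by rw [← ht]; exact pow_orderOf_eq_one t
  have hg2 : g * g = 1 := by
    obtain ⟨c, rfl⟩ := isConj_iff.1 hg
    have : c * t * c⁻¹ * (c * t * c⁻¹) = c * (t * t) * c⁻¹ := by group
    rw [this, ← pow_two, ht2]; group
  have hh2 : h * h = 1 := by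
    obtain ⟨c, rfl⟩ := isConj_iff.1 hh
    have : c * t * c⁻¹ * (c * t * c⁻¹) = c * (t * t) * c⁻¹ := by group
    rw [this, ← pow_two, ht2]; group
  have hginv : g⁻¹ = g := inv_eq_of_mul_eq_one_left hg2
  have hhinv : h⁻¹ = h := inv_eq_of_mul_eq_one_left hh2
  set y := g * h⁻¹ with hy
  have hreal : IsConj y y⁻¹ := by
    rw [isConj_iff]
    refine ⟨g, ?_⟩
    rw [hy, mul_inv_rev, inv_inv, hhinv, hginv]
    calc g * (g * h) * g = (g * g) * h * g := by group
      _ = h * g := by rw [hg2, one_mul]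
  have hodd := hC y hne ⟨k, hk⟩
  obtain ⟨c, hc⟩ := hodd
  -- unique square root
  have hsq : (Finset.univ.filter fun x : G => x ^ 2 = y).card = 1 := by
    rw [Finset.card_eq_one]
    refine ⟨y ^ (c + 1), ?_⟩
    have hpow : ∀ x : G, x ∈ Subgroup.centralizer ({y} : Set G) → x ^ (2 * c + 1) = 1 := by
      intro x hx
      have h8 := orderOf_dvd_natCard (⟨x, hx⟩ : Subgroup.centralizer ({y} : Set G))
      rw [hc, orderOf_dvd_iff_pow_eq_one] at h8
      have := congrArg Subtype.val h8
      simpa using this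
    have hym : y ∈ Subgroup.centralizer ({y} : Set G) := by
      rw [Subgroup.mem_centralizer_singleton_iff]
    ext x
    simp only [Finset.mem_filter, Finset.mem_univ, true_and, Finset.mem_singleton]
    constructor
    · intro hx
      have hxm : x ∈ Subgroup.centralizer ({y} : Set G) := by
        rw [Subgroup.mem_centralizer_singleton_iff, ← hx, pow_two, mul_assoc]
      have h9 := hpow x hxm
      calc x = x ^ (2 * c + 1) * x := by rw [h9, one_mul]
        _ = (x ^ 2) ^ (c + 1) := by rw [← pow_succ, ← pow_mul]; congr 1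
        _ = y ^ (c + 1) := by rw [hx]
    · rintro rfl
      rw [← pow_mul]
      have h9 := hpow y hym
      calc y ^ ((c + 1) * 2) = y ^ (2 * c + 1) * y := by rw [← pow_succ]; congr 1; ring
        _ = y := by rw [h9, one_mul]
  exact even_degree_of_real hne hreal hsq

end Cfsg.Agent.S4746
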