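import Cfsg.Statements.S4748
import Mathlib
import Cfsg.Agent.Lib.Char.Ortho
import Cfsg.Agent.Lib.Char.AbelianQuot
import Cfsg.Agent.Lib.Char.LinearChars
import Cfsg.Agent.Lib.Char.Values
import Cfsg.Agent.Lib.Char.Integrality
import Cfsg.Agent.Lib.Solvable.PSeries
import Cfsg.Agent.Lib.Basic.PCore
-- import your own Cfsg.Agent.* helpers here

set_option autoImplicit false
open scoped Pointwise commutatorElement
open Cfsg

namespace Cfsg.Agent.S4748

open Module Cfsg.Agent.Lib.Char.Basic Cfsg.Agent.Lib.Char.Ortho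

section Core

variable {R P : Type*} [Group R] [Group P] [Finite R] [Finite P] (α : P →* MulAut R)

omit [Finite R] [Finite P] in
theorem eq_one_of_pows {t : R} {a b : ℕ} (hcop : a.Coprime b) (h1 : t ^ a = 1) (h2 : t ^ b = 1) :
    t = 1 := by
  have := pow_gcd_eq_one.2 ⟨h1, h2⟩
  rw [hcop, pow_one] at this
  exact this

/-- A `p`-automorphism acting on `g` by right multiplication by a fixed element acts trivially. -/
theorem eq_one_of_fixed (hcop : (Nat.card R).Coprime (Nat.card P)) (y : P) (g m : R)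
    (h1 : α y g = g * m) (h2 : α y m = m) : m = 1 := by
  have key : ∀ k : ℕ, α (y ^ k) g = g * m ^ k := by
    intro k
    induction k with
    | zero => simp
    | succ k ih =>
      rw [pow_succ, map_mul, MulAut.mul_apply, h1, map_mul, ih]
      have h3 : α (y ^ k) m = m := by
        clear ih
        induction k with
        | zero => simp
        | succ k ih2 =>
          rw [pow_succ, map_mul, MulAut.mul_apply, h2, ih2]
      rw [h3, pow_succ, mul_assoc]
  have h3 := key (Nat.card P)
  rw [pow_card_eq_one', map_one, MulAut.one_apply] at h3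
  have h4 : m ^ Nat.card P = 1 := by
    have := mul_left_cancel (a := g) (b := 1) (c := m ^ Nat.card P) (by rw [mul_one]; exact h3)
    exact this.symm
  exact eq_one_of_pows hcop pow_card_eq_one' h4

/-- The subgroup of fixed points. -/
def fixedSub : Subgroup R where
  carrier := {c | ∀ y, α y c = c}
  one_mem' := fun y => map_one _
  mul_mem' := fun {a b} ha hb y => by rw [map_mul, ha, hb]
  inv_mem' := fun {a} ha y => by rw [map_inv, ha]

theorem mem_fixedSub {c : R} : c ∈ fixedSub α ↔ ∀ y, α y c = c := Iff.rfl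

variable (hmin : ∀ S : Subgroup R, S ≠ ⊤ → (∀ y, ∀ g ∈ S, α y g ∈ S) → ∀ y, ∀ g ∈ S, α y g = g)
  (hnc : ∃ y g, α y g ≠ g)

include hmin hnc in
/-- An invariant subgroup containing all `g⁻¹ * α y g` is everything. -/
theorem eq_top_of_mem (hcop : (Nat.card R).Coprime (Nat.card P)) (S : Subgroup R)
    (hS : ∀ y, ∀ g ∈ S, α y g ∈ S) (hm : ∀ y g, g⁻¹ * α y g ∈ S) : S = ⊤ := by
  by_contra hne
  obtain ⟨y, g, hg⟩ := hnc
  apply hg
  have h1 := hmin S hne hS y _ (hm y g)
  have h2 : α y g = g * (g⁻¹ * α y g) := by group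
  have h3 := eq_one_of_fixed α hcop y g _ h2 h1
  rw [h2, h3, mul_one]

include hnc in
theorem fixedSub_ne_top : fixedSub α ≠ ⊤ := by
  intro h
  obtain ⟨y, g, hg⟩ := hnc
  exact hg ((mem_fixedSub α).1 (h ▸ Subgroup.mem_top g) y)

variable (hfix : ∀ y, y ≠ 1 → ∀ c, α y c = c → ∀ y', α y' c = c)

include hnc hfix in
/-- `R / C` has at least `|P| + 1` elements. -/
theorem succ_card_le (hcop : (Nat.card R).Coprime (Nat.card P)) [hC : (fixedSub α).Normal] :
    (Nat.card P + 1) * Nat.card (fixedSub α) ≤ Nat.card R := by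
  classical
  cases nonempty_fintype P
  cases nonempty_fintype R
  obtain ⟨g, hg⟩ : ∃ g, g ∉ fixedSub α := by
    by_contra hcon
    push Not at hcon
    exact fixedSub_ne_top α hnc (by
      ext x
      simpa using hcon x)
  let F : Option P → R ⧸ fixedSub α := fun o => match o with
    | none => (1 : R ⧸ fixedSub α)
    | some y => (QuotientGroup.mk (α y g) : R ⧸ fixedSub α)
  have hnone : ∀ y, α y g ∉ fixedSub α := by
    intro y hy
    apply hg
    have h1 := (mem_fixedSub α).1 hy y⁻¹
    rw [← MulAut.mul_apply, ← map_mul, inv_mul_cancel, map_one, MulAut.one_apply] at h1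
    rw [h1]
    exact hy
  have hF : Function.Injective F := by
    intro a b hab
    rcases a with _ | y <;> rcases b with _ | y'
    · rfl
    · exfalso
      have h1 : (QuotientGroup.mk (α y' g) : R ⧸ fixedSub α) = 1 := hab.symm
      rw [QuotientGroup.eq_one_iff] at h1
      exact hnone y' h1
    · exfalso
      have h1 : (QuotientGroup.mk (α y g) : R ⧸ fixedSub α) = 1 := hab
      rw [QuotientGroup.eq_one_iff] at h1
      exact hnone y h1
    · have h1 : (QuotientGroup.mk (α y g) : R ⧸ fixedSub α) = QuotientGroup.mk (α y' g) := hab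
      rw [QuotientGroup.eq] at h1
      -- `w = y⁻¹ * y'`
      set m := (α y g)⁻¹ * α y' g with hm
      have h2 : α y⁻¹ m = g⁻¹ * α (y⁻¹ * y') g := by
        rw [hm, map_mul, map_inv, ← MulAut.mul_apply, ← map_mul, inv_mul_cancel, map_one,
          MulAut.one_apply, map_mul, MulAut.mul_apply]
      have h3 : α y⁻¹ m = m := (mem_fixedSub α).1 h1 _
      rw [h3] at h2
      have h4 : α (y⁻¹ * y') g = g * m := by
        rw [h2]; group
      have h5 : m = 1 := eq_one_of_fixed α hcop _ g m h4 ((mem_fixedSub α).1 h1 _)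
      rw [h5, mul_one] at h4
      by_contra hne
      have hne' : y⁻¹ * y' ≠ 1 := by
        intro h
        apply hne
        have : y = y' := by
          rw [inv_mul_eq_one] at h
          exact h
        rw [this]
      exact hg (hfix _ hne' g h4)
  have h1 : Nat.card (Option P) ≤ Nat.card (R ⧸ fixedSub α) := Nat.card_le_card_of_injective F hF
  have h2 : Nat.card (Option P) = Nat.card P + 1 := by
    rw [Nat.card_eq_fintype_card, Nat.card_eq_fintype_card, Fintype.card_option]
  rw [h2] at h1
  calc (Nat.card P + 1) * Nat.card (fixedSub α)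
      ≤ Nat.card (R ⧸ fixedSub α) * Nat.card (fixedSub α) := Nat.mul_le_mul_right _ h1
    _ = Nat.card R := (Subgroup.card_eq_card_quotient_mul_card_subgroup _).symm

end Core

section Rep

variable {R : Type*} [Group R] [Finite R]

/-- Vanishing off a subgroup gives a lower bound on the degree. -/
theorem card_le_of_vanish {W : Type*} [AddCommGroup W] [Module ℂ W] [FiniteDimensional ℂ W]
    (σ : Representation ℂ R W) [σ.IsIrreducible] (D : Subgroup R)
    (hv : ∀ g, g ∉ D → σ.character g = 0) :
    Nat.card R ≤ Nat.card D * (finrank ℂ W) ^ 2 := by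
  classical
  cases nonempty_fintype R
  have hθ : IsIrrCharacter R σ.character := isIrrCharacter_of_rep σ
  have h1 := classInner_irr_self hθ
  rw [classInner_self_eq] at h1
  have h2 : ((Nat.card R : ℝ)⁻¹ * ∑ g : R, ‖σ.character g‖ ^ 2 : ℝ) = 1 := by exact_mod_cast h1
  have hpos : (0 : ℝ) < Nat.card R := by exact_mod_cast Nat.card_pos
  have h3 : ∑ g : R, ‖σ.character g‖ ^ 2 = (Nat.card R : ℝ) := by
    field_simp at h2
    linarith
  have h4 : ∑ g : R, ‖σ.character g‖ ^ 2 =
      ∑ g ∈ Finset.univ.filter (fun g => g ∈ D), ‖σ.character g‖ ^ 2 := by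
    rw [Finset.sum_filter]
    refine Finset.sum_congr rfl fun g _ => ?_
    by_cases hg : g ∈ D
    · simp [hg]
    · simp [hg, hv g hg]
  have h5 : ∑ g ∈ Finset.univ.filter (fun g => g ∈ D), ‖σ.character g‖ ^ 2 ≤
      ∑ _g ∈ Finset.univ.filter (fun g => g ∈ D), ((finrank ℂ W : ℝ) ^ 2) := by
    refine Finset.sum_le_sum fun g _ => ?_
    have := Cfsg.Agent.Lib.Char.Values.norm_character_le σ g
    exact pow_le_pow_left₀ (norm_nonneg _) this 2
  rw [Finset.sum_const, nsmul_eq_mul] at h5
  have h6 : (Finset.univ.filter (fun g => g ∈ D)).card = Nat.card D := by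
    rw [Nat.card_eq_fintype_card, Fintype.card_subtype]
  rw [h6] at h5
  have h7 : (Nat.card R : ℝ) ≤ (Nat.card D : ℝ) * (finrank ℂ W : ℝ) ^ 2 := by
    rw [← h3, h4]
    exact h5
  exact_mod_cast h7

/-- The degree of a constituent is bounded by the degree. -/
theorem degree_le_of_mult {χ : R → ℂ} {d : ℕ} (hd : χ 1 = d) (m : IrrCharacter R → ℕ)
    [Fintype (IrrCharacter R)] (hm : χ = ∑ ψ, m ψ • (ψ : R → ℂ)) (deg : IrrCharacter R → ℕ)
    (hdeg : ∀ ψ : IrrCharacter R, (ψ : R → ℂ) 1 = deg ψ) : d = ∑ ψ, m ψ * deg ψ := by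
  have h1 : (d : ℂ) = ∑ ψ, (m ψ : ℂ) * (deg ψ : ℂ) := by
    rw [← hd, hm, Finset.sum_apply]
    refine Finset.sum_congr rfl fun ψ _ => ?_
    simp [hdeg]
  exact_mod_cast h1

variable {P : Type*} [Group P] [Finite P] (α : P →* MulAut R)
  (hmin : ∀ S : Subgroup R, S ≠ ⊤ → (∀ y, ∀ g ∈ S, α y g ∈ S) → ∀ y, ∀ g ∈ S, α y g = g)
  (hnc : ∃ y g, α y g ≠ g)
  (hfix : ∀ y, y ≠ 1 → ∀ c, α y c = c → ∀ y', α y' c = c)

include hmin hnc hfix in
/-- The nonabelian case. -/
theorem nonabelian_case (hcop : (Nat.card R).Coprime (Nat.card P)) {r : ℕ} [Fact r.Prime]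
    (hr : IsPGroup r R) (hnab : ∃ a b : R, a * b ≠ b * a) {χ : R → ℂ} (hχ : IsCharacter R χ)
    (hfaith : ∀ g, χ g = χ 1 → g = 1) {d : ℕ} (hd : χ 1 = d) : Nat.card P < d ^ 2 := by
  classical
  cases nonempty_fintype R
  obtain ⟨a₀, b₀, hab₀⟩ := hnab
  haveI : Nontrivial R := ⟨⟨a₀ * b₀, b₀ * a₀, hab₀⟩⟩
  haveI : Group.IsNilpotent R := hr.isNilpotent
  set R' := commutator R with hR'def
  have hR'1 : R' ≠ ⊤ := (IsSolvable.commutator_lt_top_of_nontrivial R).ne
  have hR'inv : ∀ y, ∀ g ∈ R', α y g ∈ R' := by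
    intro y g hg
    have h1 : (commutator R).comap (α y).toMonoidHom = commutator R :=
      (inferInstance : (commutator R).Characteristic).fixed (α y)
    have hg' : g ∈ commutator R := hg
    rw [← h1] at hg'
    exact hg'
  have hfixR' : ∀ y, ∀ z ∈ R', α y z = z := hmin R' hR'1 hR'inv
  have hnorm : R'.Normal := inferInstance
  -- `R'` is central
  have hcent : ∀ z ∈ R', ∀ g, z * g = g * z := by
    have htop := eq_top_of_mem α hmin hnc hcop (Subgroup.centralizer (R' : Set R))
      (by
        intro y x hx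
        rw [Subgroup.mem_centralizer_iff] at hx ⊢
        intro z hz
        have h1 := hx z hz
        have h2 := hfixR' y z hz
        calc z * α y x = α y z * α y x := by rw [h2]
          _ = α y (z * x) := (map_mul _ _ _).symm
          _ = α y (x * z) := by rw [h1]
          _ = α y x * α y z := map_mul _ _ _
          _ = α y x * z := by rw [h2])
      (by
        intro y g
        rw [Subgroup.mem_centralizer_iff]
        intro z hz
        have hw : g * z * g⁻¹ ∈ R' := hnorm.conj_mem z hz g
        have h2 := hfixR' y _ hw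
        rw [map_mul, map_mul, map_inv, hfixR' y z hz] at h2
        -- `α y g * z * (α y g)⁻¹ = g * z * g⁻¹`
        have h3 : (g⁻¹ * α y g) * z = z * (g⁻¹ * α y g) := by
          have h4 : α y g * z = g * z * g⁻¹ * α y g := by
            rw [← h2]; group
          calc (g⁻¹ * α y g) * z = g⁻¹ * (α y g * z) := by group
            _ = g⁻¹ * (g * z * g⁻¹ * α y g) := by rw [h4]
            _ = z * (g⁻¹ * α y g) := by group
        exact h3.symm)
    intro z hz g
    have h1 : g ∈ Subgroup.centralizer (R' : Set R) := htop ▸ Subgroup.mem_top g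
    exact (Subgroup.mem_centralizer_iff.1 h1) z hz
  -- `C` is normal
  have hR'C : R' ≤ fixedSub α := fun z hz y => hfixR' y z hz
  haveI hC : (fixedSub α).Normal := by
    constructor
    intro c hc g
    have h1 : g * c * g⁻¹ = ⁅g, c⁆ * c := by
      rw [commutatorElement_def]; group
    rw [h1]
    refine (fixedSub α).mul_mem (hR'C ?_) hc
    exact Subgroup.commutator_mem_commutator (Subgroup.mem_top g) (Subgroup.mem_top c)
  have hsucc := succ_card_le α hnc hfix hcop
  -- a constituent nontrivial on `R'`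
  set z : R := ⁅a₀, b₀⁆ with hz
  have hzR' : z ∈ R' := Subgroup.commutator_mem_commutator (Subgroup.mem_top _) (Subgroup.mem_top _)
  have hz1 : z ≠ 1 := by
    intro h
    rw [hz, commutatorElement_eq_one_iff_mul_comm] at h
    exact hab₀ h
  have hχz : χ z ≠ χ 1 := fun h => hz1 (hfaith z h)
  obtain ⟨m, hm⟩ := exists_nat_decomp hχ
  obtain ⟨ψ, hψm, hψz⟩ : ∃ ψ : IrrCharacter R, m ψ ≠ 0 ∧ (ψ : R → ℂ) z ≠ (ψ : R → ℂ) 1 := by
    by_contra hcon
    push Not at hcon
    apply hχz
    rw [hm, Finset.sum_apply, Finset.sum_apply]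
    refine Finset.sum_congr rfl fun ψ _ => ?_
    by_cases h0 : m ψ = 0
    · simp [h0]
    · simp [hcon ψ h0]
  choose deg hdegpos hdeg using fun ψ : IrrCharacter R => irr_degree_pos ψ.2
  have hsum := degree_le_of_mult hd m hm deg hdeg
  have hle : deg ψ ≤ d := by
    rw [hsum]
    calc deg ψ ≤ m ψ * deg ψ := Nat.le_mul_of_pos_left _ (Nat.pos_of_ne_zero hψm)
      _ ≤ _ := Finset.single_le_sum (f := fun ψ => m ψ * deg ψ) (fun _ _ => Nat.zero_le _)
        (Finset.mem_univ ψ)
  obtain ⟨c, σ, hσ, hψσ⟩ := ψ.2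
  haveI := hσ
  have hc : c = deg ψ := by
    have h1 := hdeg ψ
    rw [← hψσ, Representation.char_one, finrank_fin_fun] at h1
    exact_mod_cast h1
  have hσz : σ z ≠ 1 := by
    intro h
    apply hψz
    rw [← hψσ]
    simp only [Representation.character, h, map_one]
  -- the subgroup `D`
  let D : Subgroup R :=
    { carrier := {g | ∀ u, σ (g * u) = σ (u * g)}
      one_mem' := fun u => by simp
      mul_mem' := fun {a b} ha hb u => by
        show σ (a * b * u) = σ (u * (a * b))
        calc σ (a * b * u) = σ (a * (b * u)) := by rw [mul_assoc]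
          _ = σ (b * u * a) := ha _
          _ = σ (b * (u * a)) := by rw [mul_assoc]
          _ = σ (u * a * b) := hb _
          _ = σ (u * (a * b)) := by rw [mul_assoc]
      inv_mem' := fun {a} ha u => by
        have := ha (a⁻¹ * u * a⁻¹)
        have h1 : a * (a⁻¹ * u * a⁻¹) = u * a⁻¹ := by group
        have h2 : a⁻¹ * u * a⁻¹ * a = a⁻¹ * u := by group
        rw [h1, h2] at this
        exact this.symm }
  have hDmem : ∀ g, g ∈ D ↔ ∀ u, σ (g * u) = σ (u * g) := fun g => Iff.rfl
  -- commutators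
  have hcomm : ∀ v g : R, (v * g)⁻¹ * (g * v) ∈ R' := by
    intro v g
    have h1 : (v * g)⁻¹ * (g * v) = ⁅g⁻¹, v⁻¹⁆ := by
      rw [commutatorElement_def]; group
    rw [h1]
    exact Subgroup.commutator_mem_commutator (Subgroup.mem_top _) (Subgroup.mem_top _)
  have hDinv : ∀ y, ∀ g ∈ D, α y g ∈ D := by
    intro y g hg u
    set v := α y⁻¹ u with hv
    have huv : u = α y v := by
      rw [hv, ← MulAut.mul_apply, ← map_mul, mul_inv_cancel, map_one, MulAut.one_apply]
    set t := (v * g)⁻¹ * (g * v) with ht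
    have ht1 : σ t = 1 := by
      rw [ht, map_mul, hg v, ← map_mul, inv_mul_cancel, map_one]
    have hgv : g * v = v * g * t := by
      rw [ht]; group
    have ht2 : α y t = t := hfixR' y t (hcomm v g)
    have h1 : α y g * u = α y (v * g) * t := by
      rw [huv, ← map_mul, hgv, map_mul, ht2]
    rw [h1, map_mul, ht1, mul_one, huv, map_mul]
  have hDne : D ≠ ⊤ := by
    intro hD
    apply hσz
    have hcle : commutator R ≤ (σ : R →* _).ker := by
      rw [commutator_def, Subgroup.commutator_le]
      intro a _ b _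
      have hb : a ∈ D := hD ▸ Subgroup.mem_top a
      rw [MonoidHom.mem_ker]
      have h1 : ⁅a, b⁆ = a * b * (a⁻¹ * b⁻¹) := by
        rw [commutatorElement_def]; group
      rw [h1, map_mul, hb b, ← map_mul]
      have h2 : b * a * (a⁻¹ * b⁻¹) = 1 := by group
      rw [h2, map_one]
    exact hcle hzR'
  have hDC : ∀ g ∈ D, g ∈ fixedSub α := fun g hg y => hmin D hDne hDinv y g hg
  have hDcard : Nat.card D ≤ Nat.card (fixedSub α) :=
    Subgroup.card_le_of_le (fun g hg => hDC g hg)
  -- vanishing off `D`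
  have hvan : ∀ g, g ∉ D → σ.character g = 0 := by
    intro g hg
    rw [hDmem] at hg
    push Not at hg
    obtain ⟨u, hu⟩ := hg
    set t := (u * g)⁻¹ * (g * u) with ht
    have htcent : ∀ w, t * w = w * t := hcent t (hcomm u g)
    have hgu : g * u = u * g * t := by
      rw [ht]; group
    obtain ⟨l, hl⟩ := Cfsg.Agent.Lib.Char.Integrality.exists_smul_id_of_commute σ (σ t) (by
      intro w
      rw [← Module.End.mul_eq_comp, ← Module.End.mul_eq_comp, ← map_mul, ← map_mul, htcent])
    have hl1 : l ≠ 1 := by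
      rintro rfl
      apply hu
      rw [hgu, map_mul, hl, one_smul]
      rfl
    have h1 : σ.character g = l * σ.character g := by
      have h2 : u⁻¹ * g * u = g * t := by
        rw [ht]; group
      have h3 : σ.character (u⁻¹ * g * u) = σ.character g := by
        have := σ.char_conj g u⁻¹
        simpa using this
      rw [h2] at h3
      have h4 : σ.character (g * t) = l * σ.character g := by
        simp only [Representation.character, map_mul, hl]
        rw [Module.End.mul_eq_comp, LinearMap.comp_smul, map_smul, LinearMap.comp_id]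
        simp
      exact h3.symm.trans h4
    have h2 : (1 - l) * σ.character g = 0 := by
      rw [sub_mul, one_mul, ← h1, sub_self]
    exact (mul_eq_zero.mp h2).resolve_left (sub_ne_zero.mpr (Ne.symm hl1))
  have hbound := card_le_of_vanish σ D hvan
  rw [finrank_fin_fun] at hbound
  have hCpos : 0 < Nat.card (fixedSub α) := Nat.card_pos
  have hfinal : (Nat.card P + 1) * Nat.card (fixedSub α) ≤ c ^ 2 * Nat.card (fixedSub α) := by
    calc (Nat.card P + 1) * Nat.card (fixedSub α) ≤ Nat.card R := hsucc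
      _ ≤ Nat.card D * c ^ 2 := hbound
      _ ≤ Nat.card (fixedSub α) * c ^ 2 := Nat.mul_le_mul_right _ hDcard
      _ = c ^ 2 * Nat.card (fixedSub α) := Nat.mul_comm _ _
  have h3 := Nat.le_of_mul_le_mul_right hfinal hCpos
  have h4 : c ^ 2 ≤ d ^ 2 := by
    rw [hc]
    exact Nat.pow_le_pow_left hle 2
  omega

include hmin hnc hfix in
/-- The abelian case. -/
theorem abelian_case (hcop : (Nat.card R).Coprime (Nat.card P)) (hab : ∀ a b : R, a * b = b * a)
    {χ : R → ℂ} (hχ : IsCharacter R χ)
    (hfaith : ∀ g, χ g = χ 1 → g = 1) (hinv : ∀ y g, χ (α y g) = χ g) {d : ℕ} (hd : χ 1 = d) :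
    Nat.card P ≤ d := by
  classical
  cases nonempty_fintype R
  cases nonempty_fintype P
  -- the fixed points are trivial
  have hCone : ∀ c, (∀ y, α y c = c) → c = 1 := by
    intro c hc
    letI : CommGroup R := { (inferInstance : Group R) with mul_comm := hab }
    let N : R →* R :=
      { toFun := fun g => ∏ y : P, α y g
        map_one' := by simp
        map_mul' := fun a b => by simp [Finset.prod_mul_distrib] }
    have hNtop : N.ker = ⊤ := by
      apply eq_top_of_mem α hmin hnc hcop
      · intro y g hg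
        rw [MonoidHom.mem_ker] at hg ⊢
        have h1 : N (α y g) = N g := by
          show ∏ y' : P, α y' (α y g) = ∏ y' : P, α y' g
          have h2 : ∀ y' : P, α y' (α y g) = α (y' * y) g := by
            intro y'
            rw [map_mul, MulAut.mul_apply]
          simp only [h2]
          exact Fintype.prod_equiv (Equiv.mulRight y) _ _ (fun _ => rfl)
        rw [h1, hg]
      · intro y g
        rw [MonoidHom.mem_ker, map_mul, map_inv]
        have h1 : N (α y g) = N g := by
          show ∏ y' : P, α y' (α y g) = ∏ y' : P, α y' g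
          have h2 : ∀ y' : P, α y' (α y g) = α (y' * y) g := by
            intro y'
            rw [map_mul, MulAut.mul_apply]
          simp only [h2]
          exact Fintype.prod_equiv (Equiv.mulRight y) _ _ (fun _ => rfl)
        rw [h1, inv_mul_cancel]
    have h1 : N c = 1 := by
      have : c ∈ N.ker := hNtop ▸ Subgroup.mem_top c
      exact this
    have h2 : N c = c ^ Nat.card P := by
      show ∏ y : P, α y c = _
      simp only [hc]
      rw [Finset.prod_const, Finset.card_univ, Nat.card_eq_fintype_card]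
    rw [h2] at h1
    exact eq_one_of_pows hcop pow_card_eq_one' h1
  -- commutators with a nontrivial element are onto
  have hsurj : ∀ y : P, y ≠ 1 → ∀ t : R, ∃ h, h⁻¹ * α y h = t := by
    intro y hy
    have hinj : Function.Injective (fun h : R => h⁻¹ * α y h) := by
      intro a b hab'
      simp only at hab'
      have h1 : α y (a * b⁻¹) = a * b⁻¹ := by
        rw [map_mul, map_inv]
        have h2 : α y a = a * (b⁻¹ * α y b) := by
          rw [← hab']; group
        rw [h2]
        rw [hab a]
        have h3 := hab (b⁻¹ * α y b) ((α y b)⁻¹)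
        calc b⁻¹ * α y b * a * (α y b)⁻¹ = b⁻¹ * (α y b * (a * (α y b)⁻¹)) := by group
          _ = b⁻¹ * (α y b * ((α y b)⁻¹ * a)) := by rw [hab a]
          _ = b⁻¹ * a := by group
          _ = a * b⁻¹ := hab _ _
      have h2 := hCone _ (hfix y hy _ h1)
      exact mul_inv_eq_one.mp h2
    exact (Finite.injective_iff_surjective.mp hinj)
  obtain ⟨y₀, g₀, hy₀⟩ := hnc
  have hg1 : g₀ ≠ 1 := by
    rintro rfl
    exact hy₀ (map_one _)
  have hχz : χ g₀ ≠ χ 1 := fun h => hg1 (hfaith g₀ h)
  obtain ⟨m, hm⟩ := exists_nat_decomp hχ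
  obtain ⟨ψ, hψm, hψz⟩ : ∃ ψ : IrrCharacter R, m ψ ≠ 0 ∧ (ψ : R → ℂ) g₀ ≠ (ψ : R → ℂ) 1 := by
    by_contra hcon
    push Not at hcon
    apply hχz
    rw [hm, Finset.sum_apply, Finset.sum_apply]
    refine Finset.sum_congr rfl fun ψ _ => ?_
    by_cases h0 : m ψ = 0
    · simp [h0]
    · simp [hcon ψ h0]
  choose deg hdegpos hdeg using fun ψ : IrrCharacter R => irr_degree_pos ψ.2
  have hsum := degree_le_of_mult hd m hm deg hdeg
  -- `ψ` is linear
  have hψ1 : (ψ : R → ℂ) 1 = 1 := by
    obtain ⟨c, σ, hσ, hψσ⟩ := ψ.2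
    haveI := hσ
    have h1 := Cfsg.Agent.Lib.Char.AbelianQuot.finrank_eq_one_of_commuting σ (by
      intro a b
      rw [← Module.End.mul_eq_comp, ← Module.End.mul_eq_comp, ← map_mul, ← map_mul, hab])
    rw [← hψσ, Representation.char_one, h1]
    simp
  obtain ⟨φ, hφ⟩ := Cfsg.Agent.Lib.Char.LinearChars.exists_hom_of_isCharacter_one
    (isCharacter_of_isIrrCharacter ψ.2) hψ1
  -- translates
  let T : P → IrrCharacter R := fun y =>
    ⟨fun g => (ψ : R → ℂ) (α y g),
      isIrrCharacter_comp_surjective ψ.2 (α y).toMonoidHom (α y).surjective⟩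
  have hTinj : Function.Injective T := by
    intro y y' hyy
    by_contra hne
    have hw : y' * y⁻¹ ≠ 1 := by
      intro h
      exact hne (mul_inv_eq_one.mp h).symm
    have h1 : ∀ h, (ψ : R → ℂ) h = (ψ : R → ℂ) (α (y' * y⁻¹) h) := by
      intro h
      have h2 := congrFun (congrArg Subtype.val hyy) (α y⁻¹ h)
      simp only [T] at h2
      rw [← MulAut.mul_apply, ← map_mul, mul_inv_cancel, map_one, MulAut.one_apply,
        ← MulAut.mul_apply, ← map_mul] at h2
      exact h2
    have h2 : ∀ t : R, φ t = 1 := by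
      intro t
      obtain ⟨h, rfl⟩ := hsurj _ hw t
      have h3 := h1 h
      rw [hφ] at h3
      simp only at h3
      have h4 : φ h = φ (α (y' * y⁻¹) h) := Units.ext h3
      rw [map_mul, map_inv, ← h4, inv_mul_cancel]
    apply hψz
    rw [hφ]
    simp only [h2]
  -- multiplicities
  have hmult : ∀ ψ' : IrrCharacter R, classInner χ ψ' = m ψ' := by
    intro ψ'
    have := classInner_sum_irr (fun χ => (m χ : ℂ)) ψ'
    simp only [Nat.cast_smul_eq_nsmul] at this
    rw [← hm] at this
    exact this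
  have hmT : ∀ y, m (T y) = m ψ := by
    intro y
    have h1 : classInner χ (T y) = classInner χ ψ := by
      unfold classInner
      congr 1
      refine Fintype.sum_equiv (α y).toEquiv _ _ (fun g => ?_)
      simp only [T, MulEquiv.toEquiv_eq_coe, EquivLike.coe_coe, hinv]
    rw [hmult, hmult] at h1
    exact_mod_cast h1
  rw [hsum]
  calc Nat.card P = (Finset.univ.image T).card := by
        rw [Finset.card_image_of_injective _ hTinj, Finset.card_univ, Nat.card_eq_fintype_card]
    _ = ∑ _ψ' ∈ Finset.univ.image T, 1 := by simp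
    _ ≤ ∑ ψ' ∈ Finset.univ.image T, m ψ' * deg ψ' := by
        refine Finset.sum_le_sum fun ψ' hψ' => ?_
        obtain ⟨y, -, rfl⟩ := Finset.mem_image.mp hψ'
        rw [hmT]
        exact Nat.mul_pos (Nat.pos_of_ne_zero hψm) (hdegpos _)
    _ ≤ ∑ ψ', m ψ' * deg ψ' :=
        Finset.sum_le_sum_of_subset (Finset.subset_univ _)

/-- The minimal subgroup is a prime power group. -/
theorem exists_isPGroup (hcop : (Nat.card R).Coprime (Nat.card P)) {p : ℕ} [Fact p.Prime]
    (hP : IsPGroup p P)
    (hmin : ∀ S : Subgroup R, S ≠ ⊤ → (∀ y, ∀ g ∈ S, α y g ∈ S) → ∀ y, ∀ g ∈ S, α y g = g)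
    (hnc : ∃ y g, α y g ≠ g) : ∃ r : ℕ, r.Prime ∧ IsPGroup r R := by
  classical
  by_contra hcon
  push Not at hcon
  letI : MulDistribMulAction P R := MulDistribMulAction.compHom R α
  have hP1 : Nontrivial P := by
    obtain ⟨y, g, hg⟩ := hnc
    refine ⟨⟨y, 1, ?_⟩⟩
    rintro rfl
    exact hg (by simp)
  have hpP : p ∣ Nat.card P := by
    obtain ⟨k, hk⟩ := IsPGroup.iff_card.mp hP
    have hk0 : k ≠ 0 := by
      rintro rfl
      have := Nat.card_eq_one_iff_unique.mp (by simpa using hk)
      exact not_subsingleton P this.1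
    rw [hk]
    exact dvd_pow_self p hk0
  have hpR : ¬ p ∣ Nat.card R := by
    intro h
    have := Nat.dvd_gcd h hpP
    rw [hcop] at this
    exact (Fact.out : p.Prime).one_lt.ne' (Nat.dvd_one.mp this)
  have hS : ∀ r : ℕ, r.Prime → ∃ S : Sylow r R, ∀ y, ∀ g ∈ (S : Subgroup R), α y g ∈ (S : Subgroup R) := by
    intro r hr
    haveI : Fact r.Prime := ⟨hr⟩
    have hcard : ¬ p ∣ Nat.card (Sylow r R) := by
      intro h
      apply hpR
      have h1 : Nat.card (Sylow r R) ∣ Nat.card R := by
        obtain ⟨Q⟩ : Nonempty (Sylow r R) := inferInstance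
        exact (Sylow.card_dvd_index Q).trans (Subgroup.index_dvd_card _)
      exact h.trans h1
    obtain ⟨S, hS⟩ := hP.nonempty_fixed_point_of_prime_not_dvd_card (Sylow r R) hcard
    refine ⟨S, fun y g hg => ?_⟩
    have h1 : y • S = S := hS y
    have h2 : y • (S : Subgroup R) = (S : Subgroup R) := congrArg (fun Q : Sylow r R => (Q : Subgroup R)) h1
    rw [← h2]
    exact Subgroup.smul_mem_pointwise_smul g y _ hg
  have hC : Nat.card R ∣ Nat.card (fixedSub α) := by
    rw [Nat.dvd_iff_prime_pow_dvd_dvd]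
    intro r k hr hk
    obtain ⟨S, hS⟩ := hS r hr
    haveI : Fact r.Prime := ⟨hr⟩
    have hne : (S : Subgroup R) ≠ ⊤ := by
      intro htop
      apply hcon r hr
      have h1 := S.2
      rw [htop] at h1
      exact h1.of_equiv Subgroup.topEquiv
    have hSC : (S : Subgroup R) ≤ fixedSub α := fun g hg y => hmin S hne hS y g hg
    have h1 : r ^ k ∣ Nat.card (S : Subgroup R) := S.pow_dvd_card_of_pow_dvd_card hk
    exact h1.trans (Subgroup.card_dvd_of_le hSC)
  have h2 : Nat.card (fixedSub α) = Nat.card R :=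
    le_antisymm (Subgroup.card_le_card_group _) (Nat.le_of_dvd Nat.card_pos hC)
  have h3 : fixedSub α = ⊤ := Subgroup.eq_top_of_card_eq _ h2
  exact fixedSub_ne_top α hnc h3

include hmin hnc hfix in
/-- The bound. -/
theorem core (hcop : (Nat.card R).Coprime (Nat.card P)) {p : ℕ} [Fact p.Prime]
    (hP : IsPGroup p P) {χ : R → ℂ} (hχ : IsCharacter R χ)
    (hfaith : ∀ g, χ g = χ 1 → g = 1) (hinv : ∀ y g, χ (α y g) = χ g) {d : ℕ} (hd : χ 1 = d) :
    Nat.card P < d ^ 2 := by
  by_cases hab : ∀ a b : R, a * b = b * a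
  · have h1 := abelian_case α hmin hnc hfix hcop hab hχ hfaith hinv hd
    have h2 : 1 < Nat.card P := by
      obtain ⟨y, g, hg⟩ := hnc
      have : Nontrivial P := ⟨⟨y, 1, by
        rintro rfl
        exact hg (by simp)⟩⟩
      exact Finite.one_lt_card
    nlinarith
  · push Not at hab
    obtain ⟨r, hr, hrR⟩ := exists_isPGroup α hcop hP hmin hnc
    haveI : Fact r.Prime := ⟨hr⟩
    exact nonabelian_case α hmin hnc hfix hcop hrR hab hχ hfaith hd

end Rep

section Assembly

variable {G : Type*} [Group G] [Finite G] {p : ℕ} [hp : Fact p.Prime]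

open Cfsg.Agent.Lib.Solvable.PSeries Cfsg.Agent.Lib.Basic.PCore

/-- A Sylow `p`-subgroup with trivial intersections which centralizes `O_{p'}(G)` is normal. -/
theorem normal_of_centralizes (hsolv : IsPSolvable p G) (P : Sylow p G)
    (hTI : ∀ g : G, g ∉ Subgroup.normalizer ((P : Subgroup G) : Set G) →
      (P : Subgroup G) ⊓ (MulAut.conj g • (P : Subgroup G)) = ⊥)
    (hcomm : ∀ y ∈ (P : Subgroup G), ∀ n ∈ pPrimeCore p G, y * n = n * y) :
    (P : Subgroup G).Normal := by
  classical
  by_contra hnn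
  obtain ⟨g₀, hg₀⟩ : ∃ g₀, g₀ ∉ Subgroup.normalizer ((P : Subgroup G) : Set G) := by
    by_contra hcon
    push Not at hcon
    apply hnn
    rw [← Subgroup.normalizer_eq_top_iff]
    exact eq_top_iff.mpr fun g _ => hcon g
  set N := pPrimeCore p G with hN
  haveI hNn : N.Normal := pPrimeCore_normal p G
  have hNc : (Nat.card N).Coprime p := pPrimeCore_coprime p
  obtain ⟨k, hk⟩ := IsPGroup.iff_card.mp P.2
  have hNP : (Nat.card N).Coprime (Nat.card (P : Subgroup G)) := by
    rw [hk]
    exact hNc.pow_right k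
  let π : G →* G ⧸ N := QuotientGroup.mk' N
  have hπ : Function.Surjective π := QuotientGroup.mk'_surjective N
  -- `O_p(G/N)` is nontrivial
  have hnt : Nontrivial (G ⧸ N) := by
    by_contra hcon
    rw [not_nontrivial_iff_subsingleton] at hcon
    have htop : N = ⊤ := by
      rw [eq_top_iff]
      intro g _
      have : π g = 1 := Subsingleton.elim _ _
      exact (QuotientGroup.eq_one_iff g).mp this
    apply hnn
    have hbot : (P : Subgroup G) = ⊥ := by
      rw [eq_bot_iff]
      intro x hx
      have h1 : x ^ Nat.card N = 1 := by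
        have hxN : x ∈ N := htop ▸ Subgroup.mem_top x
        have := pow_card_eq_one' (x := (⟨x, hxN⟩ : N))
        exact congrArg Subtype.val this
      have h2 : x ^ Nat.card (P : Subgroup G) = 1 := by
        have := pow_card_eq_one' (x := (⟨x, hx⟩ : (P : Subgroup G)))
        exact congrArg Subtype.val this
      have := pow_gcd_eq_one.2 ⟨h1, h2⟩
      rw [hNP, pow_one] at this
      exact this
    rw [hbot]
    infer_instance
  have hO : pCore p (G ⧸ N) ≠ ⊥ := by
    have h1 := isPSolvable_core_ne_bot (isPSolvable_quotient hsolv N)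
    rcases h1 with h1 | h1
    · exact h1
    · exact absurd (pPrimeCore_quotient p) h1
  haveI : Nontrivial (pCore p (G ⧸ N)) := (Subgroup.nontrivial_iff_ne_bot _).mpr hO
  obtain ⟨x, hxO, hx1⟩ := Subgroup.exists_ne_one_of_nontrivial (pCore p (G ⧸ N))
  let Phat : Sylow p (G ⧸ N) := P.mapSurjective hπ
  have hOle : pCore p (G ⧸ N) ≤ (P : Subgroup G).map π := by
    have := pCore_le_sylow Phat
    simpa [Phat] using this
  obtain ⟨u, huP, rfl⟩ := hOle hxO
  -- the conjugate of `u`
  have hO' : π (g₀ * u * g₀⁻¹) ∈ pCore p (G ⧸ N) := by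
    have := (pCore_normal p (G ⧸ N)).conj_mem _ hxO (π g₀)
    simpa using this
  obtain ⟨v, hvP, hv⟩ := hOle hO'
  set t := g₀ * u * g₀⁻¹ with ht
  set n := v⁻¹ * t with hn
  have hnN : n ∈ N := by
    rw [← QuotientGroup.eq_one_iff]
    have h1 : π n = 1 := by
      rw [hn, map_mul, map_inv, ← hv, inv_mul_cancel]
    exact h1
  have htv : t = v * n := by
    rw [hn]; group
  have hvn : v * n = n * v := hcomm v hvP n hnN
  have ht1 : t ^ Nat.card (P : Subgroup G) = 1 := by
    rw [ht, conj_pow]
    have := pow_card_eq_one' (x := (⟨u, huP⟩ : (P : Subgroup G)))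
    have h2 : u ^ Nat.card (P : Subgroup G) = 1 := congrArg Subtype.val this
    rw [h2]
    group
  have hv1 : v ^ Nat.card (P : Subgroup G) = 1 := by
    have := pow_card_eq_one' (x := (⟨v, hvP⟩ : (P : Subgroup G)))
    exact congrArg Subtype.val this
  have hn1 : n ^ Nat.card (P : Subgroup G) = 1 := by
    rw [htv, (Commute.mul_pow hvn), hv1, one_mul] at ht1
    exact ht1
  have hn2 : n ^ Nat.card N = 1 := by
    have := pow_card_eq_one' (x := (⟨n, hnN⟩ : N))
    exact congrArg Subtype.val this
  have hnone : n = 1 := by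
    have := pow_gcd_eq_one.2 ⟨hn2, hn1⟩
    rw [hNP, pow_one] at this
    exact this
  have htP : t ∈ (P : Subgroup G) := by
    rw [htv, hnone, mul_one]
    exact hvP
  have htP2 : t ∈ MulAut.conj g₀ • (P : Subgroup G) := by
    rw [Subgroup.mem_pointwise_smul_iff_inv_smul_mem]
    have : (MulAut.conj g₀)⁻¹ • t = u := by
      simp [ht, MulAut.smul_def, MulAut.inv_def]
      group
    rw [this]
    exact huP
  have htbot : t ∈ (P : Subgroup G) ⊓ (MulAut.conj g₀ • (P : Subgroup G)) := ⟨htP, htP2⟩
  rw [hTI g₀ hg₀, Subgroup.mem_bot, ht] at htbot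
  have hu1 : u = 1 := by
    have h2 : g₀ * u = g₀ := by
      rw [← mul_inv_eq_one]
      exact htbot
    simpa using h2
  apply hx1
  rw [hu1, map_one]

end Assembly

/-- The action by conjugation. -/
def conjAct {G : Type*} [Group G] (Q R : Subgroup G) (h : ∀ y ∈ Q, ∀ g ∈ R, y * g * y⁻¹ ∈ R) :
    Q →* MulAut R where
  toFun y :=
    { toFun := fun g => ⟨y * g * (y : G)⁻¹, h y y.2 g g.2⟩
      invFun := fun g => ⟨(y : G)⁻¹ * g * y, by
        have := h y⁻¹ (Q.inv_mem y.2) g g.2
        simpa using this⟩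
      left_inv := fun g => by
        apply Subtype.ext
        simp [mul_assoc]
      right_inv := fun g => by
        apply Subtype.ext
        simp [mul_assoc]
      map_mul' := fun a b => by
        apply Subtype.ext
        simp [mul_assoc] }
  map_one' := by
    ext g
    simp
  map_mul' := fun a b => by
    ext g
    simp [mul_assoc, MulAut.mul_apply]

/-- Let G be a finite p-solvable group whose Sylow p-subgroup P meets each conjugate g P g⁻¹ with g outside N_G(P) trivially, and let χ be a faithful character of G (χ g = χ 1 only for g = 1) whose degree d satisfies d² ≤ |P|. Then P is normal in G. -/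
theorem result {G : Type*} [Group G] [Finite G] (p : ℕ) [Fact p.Prime] (hsolv : Cfsg.IsPSolvable p G) (P : Sylow p G) (hTI : ∀ g : G, g ∉ Subgroup.normalizer ((P : Subgroup G) : Set G) → (P : Subgroup G) ⊓ (MulAut.conj g • (P : Subgroup G)) = ⊥) (χ : G → ℂ) (hχ : Cfsg.IsCharacter G χ) (hfaith : ∀ g : G, χ g = χ 1 → g = 1) (hdeg : Cfsg.charDegree χ ^ 2 ≤ Nat.card ↥(P : Subgroup G)) : (P : Subgroup G).Normal := by
  classical
  by_contra hnn
  set Q : Subgroup G := (P : Subgroup G) with hQ
  have hnotcent : ¬ ∀ y ∈ Q, ∀ n ∈ pPrimeCore p G, y * n = n * y := fun h =>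
    hnn (normal_of_centralizes hsolv P hTI h)
  -- choose the minimal `R`
  let 𝓢 : Set (Subgroup G) := {S | (Nat.card S).Coprime p ∧ (∀ y ∈ Q, ∀ g ∈ S, y * g * y⁻¹ ∈ S) ∧
    ∃ y ∈ Q, ∃ g ∈ S, y * g ≠ g * y}
  have hne : 𝓢.Nonempty := by
    refine ⟨pPrimeCore p G, Cfsg.Agent.Lib.Solvable.PSeries.pPrimeCore_coprime p, ?_, ?_⟩
    · intro y _ g hg
      exact (pPrimeCore_normal p G).conj_mem g hg y
    · by_contra hcon
      push Not at hcon
      exact hnotcent hcon
  obtain ⟨R, hR⟩ := 𝓢.toFinite.exists_minimal hne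
  obtain ⟨⟨hRc, hRinv, y₀, hy₀, g₀, hg₀, hne₀⟩, hRmin⟩ := hR
  obtain ⟨k, hk⟩ := IsPGroup.iff_card.mp P.2
  have hcop : (Nat.card R).Coprime (Nat.card Q) := by
    show (Nat.card R).Coprime (Nat.card (P : Subgroup G))
    rw [hk]
    exact hRc.pow_right k
  let α : Q →* MulAut R := conjAct Q R hRinv
  have hα : ∀ (y : Q) (g : R), ((α y g : R) : G) = y * g * (y : G)⁻¹ := fun _ _ => rfl
  have hmin : ∀ S : Subgroup R, S ≠ ⊤ → (∀ y, ∀ g ∈ S, α y g ∈ S) → ∀ y, ∀ g ∈ S, α y g = g := by
    intro S hS hSinv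
    by_contra hcon
    push Not at hcon
    obtain ⟨y, g, hg, hyg⟩ := hcon
    have hmem : S.map R.subtype ∈ 𝓢 := by
      refine ⟨?_, ?_, y, y.2, g, ⟨g, hg, rfl⟩, ?_⟩
      · rw [Subgroup.card_map_of_injective R.subtype_injective]
        exact Nat.Coprime.coprime_dvd_left (Subgroup.card_subgroup_dvd_card S) hRc
      · rintro y' hy' _ ⟨g', hg', rfl⟩
        exact ⟨α ⟨y', hy'⟩ g', hSinv _ _ hg', rfl⟩
      · intro h
        apply hyg
        apply Subtype.ext
        rw [hα]
        rw [h]
        group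
    have hle : S.map R.subtype ≤ R := Subgroup.map_subtype_le S
    have h2 := hRmin hmem hle
    apply hS
    rw [eq_top_iff]
    intro x _
    obtain ⟨x', hx', hxx⟩ := h2 x.2
    have : x' = x := Subtype.ext hxx
    rwa [← this]
  have hnc : ∃ y g, α y g ≠ g := by
    refine ⟨⟨y₀, hy₀⟩, ⟨g₀, hg₀⟩, ?_⟩
    intro h
    apply hne₀
    have h1 := congrArg Subtype.val h
    rw [hα] at h1
    simp only at h1
    calc y₀ * g₀ = y₀ * g₀ * y₀⁻¹ * y₀ := by group
      _ = g₀ * y₀ := by rw [h1]
  have hdisj : ∀ t ∈ Q, t ∈ R → t = 1 := by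
    intro t ht1 ht2
    have h1 : t ^ Nat.card Q = 1 := by
      have := pow_card_eq_one' (x := (⟨t, ht1⟩ : Q))
      exact congrArg Subtype.val this
    have h2 : t ^ Nat.card R = 1 := by
      have := pow_card_eq_one' (x := (⟨t, ht2⟩ : R))
      exact congrArg Subtype.val this
    have := pow_gcd_eq_one.2 ⟨h2, h1⟩
    rw [hcop, pow_one] at this
    exact this
  have hfix : ∀ y, y ≠ 1 → ∀ c, α y c = c → ∀ y', α y' c = c := by
    intro y hy c hc y'
    have hcy : (y : G) * c * (y : G)⁻¹ = c := by
      have h1 := congrArg Subtype.val hc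
      rwa [hα] at h1
    -- `c` normalizes `Q`
    have hcN : (c : G) ∈ Subgroup.normalizer ((P : Subgroup G) : Set G) := by
      by_contra hcon
      have h1 := hTI c hcon
      have h2 : (y : G) ∈ (P : Subgroup G) ⊓ (MulAut.conj (c : G) • (P : Subgroup G)) := by
        refine Subgroup.mem_inf.mpr ⟨y.2, ?_⟩
        rw [Subgroup.mem_pointwise_smul_iff_inv_smul_mem]
        have h3 : (MulAut.conj (c : G))⁻¹ • (y : G) = y := by
          simp only [MulAut.smul_def, MulAut.inv_def, MulAut.conj_symm_apply]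
          have h4 : (y : G) * c = c * y := by
            calc (y : G) * c = (y : G) * c * (y : G)⁻¹ * y := by group
              _ = c * y := by rw [hcy]
          calc (c : G)⁻¹ * y * c = (c : G)⁻¹ * (y * c) := by group
            _ = (c : G)⁻¹ * (c * y) := by rw [h4]
            _ = y := by group
        rw [h3]
        exact y.2
      rw [h1, Subgroup.mem_bot] at h2
      exact hy (Subtype.ext h2)
    have h3 := (Subgroup.mem_normalizer_iff.mp hcN (y' : G)).mp y'.2
    -- the commutator lies in `Q ∩ R`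
    have h4 : (c : G) * y' * (c : G)⁻¹ * (y' : G)⁻¹ ∈ Q := Q.mul_mem h3 (Q.inv_mem y'.2)
    have h5 : (c : G) * y' * (c : G)⁻¹ * (y' : G)⁻¹ ∈ R := by
      have h6 := hRinv y' y'.2 _ (R.inv_mem c.2)
      have h7 := R.mul_mem c.2 h6
      simpa [mul_assoc] using h7
    have h6 := hdisj _ h4 h5
    apply Subtype.ext
    rw [hα]
    have h7 : (c : G) * y' = y' * c := by
      calc (c : G) * y' = ((c : G) * y' * (c : G)⁻¹ * (y' : G)⁻¹) * (y' * c) := by group
        _ = y' * c := by rw [h6, one_mul]
    rw [← h7]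
    group
  -- the character
  obtain ⟨n, ρ, rfl⟩ := hχ
  have hdeg' : Cfsg.charDegree ρ.character = n := by
    unfold Cfsg.charDegree
    rw [Representation.char_one, finrank_fin_fun]
    simp
  rw [hdeg'] at hdeg
  have hbound := core α hmin hnc hfix hcop (p := p) P.2
    (isCharacter_restrict ⟨n, ρ, rfl⟩ R) (fun g hg => by
      apply Subtype.ext
      exact hfaith g hg) (fun y g => by
      have := isClassFunction_of_isCharacter ⟨n, ρ, rfl⟩ (g : G) (y : G)
      exact this) (d := n) (by
      show ρ.character ((1 : R) : G) = n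
      rw [Subgroup.coe_one, Representation.char_one, finrank_fin_fun])
  exact absurd hdeg (not_le.mpr hbound)

end Cfsg.Agent.S4748
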