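import Cfsg.Statements.S4750
import Mathlib
import Cfsg.Agent.Lib.Char.TIFixed
import Cfsg.Agent.Lib.Char.Ortho
import Cfsg.Agent.Lib.Char.Values

set_option autoImplicit false
open scoped Pointwise
open Cfsg

namespace Cfsg.Agent.S4750

open Cfsg.Agent.Lib.Char.Basic Cfsg.Agent.Lib.Char.Ortho Cfsg.Agent.Lib.Char.TIFixed

/-- Let P be a Sylow p-subgroup of the finite group G that meets each conjugate g P g⁻¹ with g outside N_G(P) trivially, χ a character of G with χ(1)² ≤ |P|, and H a subgroup of G containing N_G(P). Then the inner product of χ with itself over G equals the inner product over H of the restriction of χ to H. -/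
theorem result {G : Type*} [Group G] [Fintype G] [DecidableEq G] (p : ℕ) [Fact p.Prime] (P : Sylow p G) (hTI : ∀ g : G, g ∉ Subgroup.normalizer ((P : Subgroup G) : Set G) → (P : Subgroup G) ⊓ (MulAut.conj g • (P : Subgroup G)) = ⊥) (χ : G → ℂ) (hχ : Cfsg.IsCharacter G χ) (hdeg : Cfsg.charDegree χ ^ 2 ≤ Nat.card ↥(P : Subgroup G)) (H : Subgroup G) [Fintype ↥H] (hH : Subgroup.normalizer ((P : Subgroup G) : Set G) ≤ H) : Cfsg.classInner χ χ = Cfsg.classInner (fun h : ↥H => χ h) (fun h : ↥H => χ h) := by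
  classical
  by_cases h00 : classInner χ χ = 0
  · have h0 := eq_zero_of_classInner_self_eq_zero h00
    subst h0
    simp [classInner]
  obtain ⟨m, σ, hσ⟩ : IsCharacter G (χ * fun g => (starRingEnd ℂ) (χ g)) :=
    isCharacter_mul hχ (isCharacter_conj hχ)
  have hσg : ∀ g, LinearMap.trace ℂ (Fin m → ℂ) (σ g) = χ g * (starRingEnd ℂ) (χ g) := by
    intro g
    have := congrFun hσ g
    simpa [Representation.character] using this
  -- the degree bound
  have hm : m ≤ Nat.card ↥(P : Subgroup G) := by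
    have h1 := hσg 1
    rw [map_one, LinearMap.trace_one, Module.finrank_fin_fun] at h1
    have h2 := Cfsg.Agent.Lib.Char.Values.IsCharacter.charDegree_cast hχ
    rw [← h2] at h1
    have h3 : m = charDegree χ ^ 2 := by
      have : (m : ℂ) = ((charDegree χ ^ 2 : ℕ) : ℂ) := by
        rw [h1]
        push_cast
        rw [Complex.conj_natCast, sq]
      exact_mod_cast this
    rw [h3]
    exact hdeg
  set N : Subgroup G := Subgroup.normalizer ((P : Subgroup G) : Set G) with hN
  let avgG : (Fin m → ℂ) →ₗ[ℂ] (Fin m → ℂ) := (Nat.card G : ℂ)⁻¹ • ∑ g, σ g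
  let avgH : (Fin m → ℂ) →ₗ[ℂ] (Fin m → ℂ) := (Nat.card ↥H : ℂ)⁻¹ • ∑ h : ↥H, σ (h : G)
  have hcardG : (Nat.card G : ℂ) ≠ 0 := by exact_mod_cast Nat.card_pos.ne'
  have hcardH : (Nat.card ↥H : ℂ) ≠ 0 := by exact_mod_cast Nat.card_pos.ne'
  have trG : LinearMap.trace ℂ _ avgG = classInner χ χ := by
    simp only [avgG, classInner, map_smul, map_sum, hσg, smul_eq_mul]
  have trH : LinearMap.trace ℂ _ avgH = classInner (fun h : ↥H => χ h) (fun h : ↥H => χ h) := by
    simp only [avgH, classInner, map_smul, map_sum, hσg, smul_eq_mul]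
  rw [← trG, ← trH]
  congr 1
  have hG_left : ∀ g, σ g * avgG = avgG := by
    intro g
    simp only [avgG, mul_smul_comm, Finset.mul_sum, ← map_mul]
    congr 1
    exact Fintype.sum_equiv (Equiv.mulLeft g) _ _ (fun _ => rfl)
  have hG_right : ∀ g, avgG * σ g = avgG := by
    intro g
    simp only [avgG, smul_mul_assoc, Finset.sum_mul, ← map_mul]
    congr 1
    exact Fintype.sum_equiv (Equiv.mulRight g) _ _ (fun _ => rfl)
  have hH_left : ∀ h ∈ H, σ h * avgH = avgH := by
    intro h hh
    simp only [avgH, mul_smul_comm, Finset.mul_sum, ← map_mul]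
    congr 1
    exact Fintype.sum_equiv (Equiv.mulLeft (⟨h, hh⟩ : ↥H)) _ _ (fun _ => rfl)
  have hGG : avgG * avgG = avgG := by
    have h1 : avgG * ((Nat.card G : ℂ)⁻¹ • ∑ g, σ g) = avgG := by
      simp only [mul_smul_comm, Finset.mul_sum, hG_right]
      rw [Finset.sum_const, Finset.card_univ, ← Nat.card_eq_fintype_card, ← Nat.cast_smul_eq_nsmul ℂ,
        smul_smul, inv_mul_cancel₀ hcardG, one_smul]
    exact h1
  have hGH : avgG * avgH = avgG := by
    have h1 : avgG * ((Nat.card ↥H : ℂ)⁻¹ • ∑ h : ↥H, σ (h : G)) = avgG := by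
      simp only [mul_smul_comm, Finset.mul_sum, hG_right]
      rw [Finset.sum_const, Finset.card_univ, ← Nat.card_eq_fintype_card, ← Nat.cast_smul_eq_nsmul ℂ,
        smul_smul, inv_mul_cancel₀ hcardH, one_smul]
    exact h1
  have hTI' : ∀ g : G, g ∉ N → ∀ u ∈ (P : Subgroup G), g⁻¹ * u * g ∈ (P : Subgroup G) → u = 1 := by
    intro g hg u hu hgu
    have h1 := hTI g hg
    have h2 : u ∈ (P : Subgroup G) ⊓ (MulAut.conj g • (P : Subgroup G)) := by
      refine ⟨hu, ?_⟩
      change u ∈ MulAut.conj g • (P : Subgroup G)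
      rw [Subgroup.mem_smul_pointwise_iff_exists]
      refine ⟨_, hgu, ?_⟩
      simp [MulAut.conj_apply, mul_assoc]
    rw [h1] at h2
    exact h2
  let U' : Submodule ℂ (Fin m → ℂ) := LinearMap.ker avgG
  have hU'top : U' ≠ ⊤ := by
    intro h
    apply h00
    rw [← trG]
    have : avgG = 0 := LinearMap.ker_eq_top.1 h
    rw [this, map_zero]
  have hU' : Module.finrank ℂ U' < Nat.card ↥(P : Subgroup G) := by
    have := Submodule.finrank_lt hU'top
    rw [Module.finrank_fin_fun] at this
    omega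
  have hstable : ∀ g : G, ∀ w ∈ U', σ g w ∈ U' := by
    intro g w hw
    have hw' : avgG w = 0 := hw
    change avgG (σ g w) = 0
    rw [← Module.End.mul_apply, hG_right, hw']
  have hNH : ∀ x ∈ N, x ∈ H := fun x hx => hH hx
  refine LinearMap.ext fun x => ?_
  have hidem : ∀ y, avgG (avgG y) = avgG y := by
    intro y
    rw [← Module.End.mul_apply, hGG]
  have hkey : avgH x - avgG (avgH x) = 0 := by
    refine eq_zero_of_TI P σ hTI' U' hU' hstable _ ?_ ?_ ?_
    · change avgG _ = 0
      rw [map_sub, hidem, sub_self]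
    · intro y hy
      have h7 : ∀ w, σ y (avgG w) = avgG w := fun w => by
        rw [← Module.End.mul_apply, hG_left]
      have h8 : σ y (avgH x) = avgH x := by
        rw [← Module.End.mul_apply, hH_left y (hNH y hy)]
      rw [map_sub, h7, h8]
    · have h1 : ∑ g, σ g (avgH x - avgG (avgH x)) = (Nat.card G : ℂ) • avgG (avgH x - avgG (avgH x)) := by
        simp only [avgG, LinearMap.smul_apply, LinearMap.sum_apply, smul_smul,
          mul_inv_cancel₀ hcardG, one_smul]
      rw [h1]
      have h2 : avgG (avgH x - avgG (avgH x)) = 0 := by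
        rw [map_sub, hidem, sub_self]
      rw [h2, smul_zero]
  have h5 : avgG (avgH x) = avgG x := by
    rw [← Module.End.mul_apply, hGH]
  rw [h5] at hkey
  exact (sub_eq_zero.1 hkey).symm

end Cfsg.Agent.S4750
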