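import Cfsg.Statements.S4756
import Mathlib
import Cfsg.Agent.Lib.Char.CompleteCor
import Cfsg.Agent.Lib.Char.LinearChars
import Cfsg.Agent.Lib.Char.ClassMul
import Cfsg.Agent.Lib.Char.Ortho
import Cfsg.Agent.Lib.Char.Values
import Cfsg.Agent.Lib.Char.Burnside2
import Cfsg.Agent.Lib.Char.Virtual
import Cfsg.Agent.Lib.Char.AbelianQuot
import Cfsg.Agent.Lib.Frobenius.SylowFpf

set_option autoImplicit false
open Cfsg

namespace Cfsg.Agent.S4756

open Cfsg.Agent.Lib.Char.CompleteCor Cfsg.Agent.Lib.Char.LinearChars Cfsg.Agent.Lib.Char.ClassMul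
open Cfsg.Agent.Lib.Char.Ortho Cfsg.Agent.Lib.Char.Basic
open scoped ComplexConjugate commutatorElement

section Basics

variable {G : Type*} [Group G] [Finite G]

theorem linear_mul (χ : IrrCharacter G) (h1 : (χ : G → ℂ) 1 = 1) (x y : G) :
    (χ : G → ℂ) (x * y) = (χ : G → ℂ) x * (χ : G → ℂ) y := by
  obtain ⟨φ, hφ⟩ := exists_hom_of_isCharacter_one (isCharacter_of_isIrrCharacter χ.2) h1
  rw [hφ]
  simp

theorem linear_mul_conj (χ : IrrCharacter G) (h1 : (χ : G → ℂ) 1 = 1) (x : G) :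
    (χ : G → ℂ) x * conj ((χ : G → ℂ) x) = 1 := by
  rw [← character_inv_of_isCharacter (isCharacter_of_isIrrCharacter χ.2), ← linear_mul χ h1]
  simpa using h1

theorem linear_commutator (χ : IrrCharacter G) (h1 : (χ : G → ℂ) 1 = 1) {w : G}
    (hw : w ∈ commutator G) : (χ : G → ℂ) w = 1 := by
  obtain ⟨φ, hφ⟩ := exists_hom_of_isCharacter_one (isCharacter_of_isIrrCharacter χ.2) h1
  have h2 : commutator G ≤ φ.ker := Abelianization.commutator_subset_ker φ
  have h3 : φ w = 1 := h2 hw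
  rw [hφ]
  simp [h3]

theorem orderOf_conj' (a x : G) : orderOf (a * x * a⁻¹) = orderOf x := by
  have := orderOf_injective (MulAut.conj a).toMonoidHom (MulEquiv.injective _) x
  simpa [MulAut.conj_apply] using this

/-- Conjugation by a fixed point free element of a normal subgroup is onto. -/
theorem exists_conj_of_fpf {N : Subgroup G} (hN : N.Normal) {h : G}
    (hf : ∀ w ∈ N, h * w = w * h → w = 1) {t : G} (ht : t ∈ N) :
    ∃ d ∈ N, h⁻¹ * d * h * d⁻¹ = t := by
  classical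
  have hmem : ∀ d : N, h⁻¹ * (d : G) * h * (d : G)⁻¹ ∈ N := by
    intro d
    refine N.mul_mem ?_ (N.inv_mem d.2)
    simpa using hN.conj_mem (d : G) d.2 h⁻¹
  let ψ : N → N := fun d => ⟨_, hmem d⟩
  have hinj : Function.Injective ψ := by
    intro d e hde
    have h1 : h⁻¹ * (d : G) * h * (d : G)⁻¹ = h⁻¹ * (e : G) * h * (e : G)⁻¹ := congrArg Subtype.val hde
    have h2 : (d : G) * h * (d : G)⁻¹ = (e : G) * h * (e : G)⁻¹ := by
      have h3 : h * (h⁻¹ * (d : G) * h * (d : G)⁻¹) = h * (h⁻¹ * (e : G) * h * (e : G)⁻¹) := by rw [h1]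
      simpa [mul_assoc] using h3
    have h4 : (e : G)⁻¹ * (d : G) = 1 := by
      apply hf _ (N.mul_mem (N.inv_mem e.2) d.2)
      have h5 : (e : G)⁻¹ * ((d : G) * h * (d : G)⁻¹) * (d : G) = h * ((e : G)⁻¹ * (d : G)) := by
        rw [h2]; group
      have h6 : (e : G)⁻¹ * ((d : G) * h * (d : G)⁻¹) * (d : G) = (e : G)⁻¹ * (d : G) * h := by group
      rw [← h5, h6]
    apply Subtype.ext
    exact (inv_mul_eq_one.1 h4).symm
  obtain ⟨d, hd⟩ := (Finite.injective_iff_surjective.1 hinj) ⟨t, ht⟩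
  exact ⟨d, d.2, congrArg Subtype.val hd⟩

end Basics

section Forward

variable {G : Type*} [Group G] [Finite G]

/-- The multiplicativity hypothesis. -/
def Hyp (G : Type*) [Group G] : Prop :=
  ∀ (x y : G) (χ : IrrCharacter G), x ≠ 1 → y ≠ 1 →
    (∃ p q a b : ℕ, p.Prime ∧ q.Prime ∧ p ≠ q ∧ orderOf x = p ^ a ∧ orderOf y = q ^ b) →
    (χ : G → ℂ) (x * y) = (χ : G → ℂ) x * (χ : G → ℂ) y

/-- `χ` vanishes on the nontrivial `q`-elements. -/
def Van (χ : IrrCharacter G) (q : ℕ) : Prop :=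
  ∀ x : G, x ≠ 1 → (∃ j : ℕ, orderOf x = q ^ j) → (χ : G → ℂ) x = 0

theorem mul_eq_zero_of_hyp (h : Hyp G) (χ : IrrCharacter G) (hχ : (χ : G → ℂ) 1 ≠ 1) {x y : G}
    (hx : x ≠ 1) (hy : y ≠ 1)
    (hxy : ∃ p q a b : ℕ, p.Prime ∧ q.Prime ∧ p ≠ q ∧ orderOf x = p ^ a ∧ orderOf y = q ^ b) :
    (χ : G → ℂ) x * (χ : G → ℂ) y = 0 := by
  classical
  cases nonempty_fintype G
  have key : ∀ a : G, (χ : G → ℂ) (a * x * a⁻¹ * y) = (χ : G → ℂ) x * (χ : G → ℂ) y := by
    intro a
    have h1 : a * x * a⁻¹ ≠ 1 := by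
      intro h2
      apply hx
      have : x = a⁻¹ * (a * x * a⁻¹) * a := by group
      rw [this, h2]; group
    have h3 : orderOf (a * x * a⁻¹) = orderOf x := orderOf_conj' a x
    obtain ⟨p, q, s, t, hp, hq, hpq, h4, h5⟩ := hxy
    rw [h _ y χ h1 hy ⟨p, q, s, t, hp, hq, hpq, h3.trans h4, h5⟩, isIrr_classFunction χ.2 x a]
  have h2 := irr_one_mul_sum χ x y
  simp only [key, Finset.sum_const, Finset.card_univ, nsmul_eq_mul] at h2
  rw [← Nat.card_eq_fintype_card] at h2
  have hG : (Nat.card G : ℂ) ≠ 0 := by exact_mod_cast Nat.card_pos.ne'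
  have h3 : ((χ : G → ℂ) 1 - 1) * ((Nat.card G : ℂ) * ((χ : G → ℂ) x * (χ : G → ℂ) y)) = 0 := by
    linear_combination h2
  rcases mul_eq_zero.1 h3 with h4 | h4
  · exact absurd (sub_eq_zero.1 h4) hχ
  · exact (mul_eq_zero.1 h4).resolve_left hG

theorem degree_cast (χ : IrrCharacter G) :
    ((charDegree (χ : G → ℂ) : ℕ) : ℂ) = (χ : G → ℂ) 1 :=
  Cfsg.Agent.Lib.Char.Values.IsCharacter.charDegree_cast (isCharacter_of_isIrrCharacter χ.2)

theorem card_dvd_of_van (χ : IrrCharacter G) {q : ℕ} [Fact q.Prime] (hv : Van χ q) (Q : Sylow q G) :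
    Nat.card Q ∣ charDegree (χ : G → ℂ) := by
  classical
  cases nonempty_fintype G
  have : Fintype Q := Fintype.ofFinite _
  have hψ : IsCharacter Q (fun u : Q => (χ : G → ℂ) u) :=
    isCharacter_restrict (isCharacter_of_isIrrCharacter χ.2) Q
  obtain ⟨n, hn⟩ := exists_nat_classInner hψ
    ⟨fun _ => 1, Cfsg.Agent.Lib.Char.Burnside2.isIrrCharacter_one⟩
  have h2 : classInner (fun u : Q => (χ : G → ℂ) u) (fun _ => 1) =
      (Nat.card Q : ℂ)⁻¹ * (χ : G → ℂ) 1 := by
    unfold classInner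
    congr 1
    rw [Finset.sum_eq_single 1]
    · simp
    · intro u _ hu
      have h3 : (u : G) ≠ 1 := fun h => hu (Subtype.ext h)
      obtain ⟨k, hk⟩ := (IsPGroup.iff_orderOf.1 Q.2) u
      have h4 : orderOf (u : G) = q ^ k := by rw [Subgroup.orderOf_coe, hk]
      simp [hv _ h3 ⟨k, h4⟩]
    · simp
  have h3 : (Nat.card Q : ℂ)⁻¹ * (χ : G → ℂ) 1 = n := by rw [← h2]; exact hn
  have hne : (Nat.card Q : ℂ) ≠ 0 := by exact_mod_cast Nat.card_pos.ne'
  rw [← degree_cast] at h3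
  have h4 : ((charDegree (χ : G → ℂ) : ℕ) : ℂ) = (Nat.card Q : ℂ) * n := by
    field_simp at h3
    exact h3
  exact ⟨n, by exact_mod_cast h4⟩

theorem degree_sq_lt (χ : IrrCharacter G) (hχ : (χ : G → ℂ) 1 ≠ 1) :
    charDegree (χ : G → ℂ) ^ 2 < Nat.card G := by
  classical
  cases nonempty_fintype G
  have := Fintype.ofFinite (IrrCharacter G)
  have h1 := sum_sq_degrees (G := G)
  have h2 : ∑ ψ : IrrCharacter G, (charDegree (ψ : G → ℂ)) ^ 2 = Nat.card G := by
    have h3 : ((∑ ψ : IrrCharacter G, (charDegree (ψ : G → ℂ)) ^ 2 : ℕ) : ℂ) = (Nat.card G : ℂ) := by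
      rw [← h1]
      push_cast
      refine Finset.sum_congr rfl (fun ψ _ => ?_)
      rw [degree_cast]
    exact_mod_cast h3
  let τ : IrrCharacter G := ⟨fun _ => 1, Cfsg.Agent.Lib.Char.Burnside2.isIrrCharacter_one⟩
  have hne : χ ≠ τ := by
    rintro rfl
    exact hχ rfl
  have hτ : charDegree (τ : G → ℂ) = 1 := by
    have := degree_cast τ
    have h4 : ((charDegree (τ : G → ℂ) : ℕ) : ℂ) = 1 := this
    exact_mod_cast h4
  have h5 : ∑ ψ ∈ ({χ, τ} : Finset (IrrCharacter G)), (charDegree (ψ : G → ℂ)) ^ 2 ≤ Nat.card G := by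
    rw [← h2]
    exact Finset.sum_le_sum_of_subset (Finset.subset_univ _)
  rw [Finset.sum_pair hne, hτ] at h5
  omega

theorem ordCompl_dvd (χ : IrrCharacter G) (r : ℕ) (hv : ∀ q : ℕ, q.Prime → q ≠ r → Van χ q) :
    Nat.card G / r ^ (Nat.card G).factorization r ∣ charDegree (χ : G → ℂ) := by
  have hn : Nat.card G ≠ 0 := Nat.card_pos.ne'
  have hd : charDegree (χ : G → ℂ) ≠ 0 := by
    intro h0
    have h1 := degree_cast χ
    rw [h0] at h1
    exact Cfsg.Agent.Lib.Char.Virtual.irr_one_ne_zero χ.2 (by simpa using h1.symm)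
  have h1 : Nat.card G / r ^ (Nat.card G).factorization r ≠ 0 := (Nat.ordCompl_pos r hn).ne'
  refine (Nat.factorization_prime_le_iff_dvd h1 hd).1 (fun q hq => ?_)
  rw [Nat.factorization_ordCompl]
  by_cases hqr : q = r
  · subst hqr
    simp
  · rw [Finsupp.erase_ne hqr]
    have : Fact q.Prime := ⟨hq⟩
    obtain ⟨Q⟩ : Nonempty (Sylow q G) := inferInstance
    have h2 := card_dvd_of_van χ (hv q hq hqr) Q
    rw [Sylow.card_eq_multiplicity] at h2
    exact (hq.pow_dvd_iff_le_factorization hd).1 h2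

theorem ordCompl_lt (χ : IrrCharacter G) (hχ : (χ : G → ℂ) 1 ≠ 1) (r : ℕ)
    (hv : ∀ q : ℕ, q.Prime → q ≠ r → Van χ q) :
    Nat.card G / r ^ (Nat.card G).factorization r < r ^ (Nat.card G).factorization r := by
  have hn : Nat.card G ≠ 0 := Nat.card_pos.ne'
  have h1 := ordCompl_dvd χ r hv
  have h2 := degree_sq_lt χ hχ
  have hd : 0 < charDegree (χ : G → ℂ) := by
    rcases Nat.eq_zero_or_pos (charDegree (χ : G → ℂ)) with h0 | h0
    · exfalso
      have h3 := degree_cast χ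
      rw [h0] at h3
      exact Cfsg.Agent.Lib.Char.Virtual.irr_one_ne_zero χ.2 (by simpa using h3.symm)
    · exact h0
  have h3 := Nat.le_of_dvd hd h1
  have h4 := Nat.ordProj_mul_ordCompl_eq_self (Nat.card G) r
  set c := Nat.card G / r ^ (Nat.card G).factorization r
  set v := r ^ (Nat.card G).factorization r
  have hc : 0 < c := Nat.ordCompl_pos r hn
  by_contra hlt
  push Not at hlt
  have h5 : v * c ≤ c * c := Nat.mul_le_mul_right c hlt
  have h6 : c * c ≤ charDegree (χ : G → ℂ) ^ 2 := by nlinarith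
  omega

theorem exists_prime_van (h : Hyp G) (χ : IrrCharacter G) (hχ : (χ : G → ℂ) 1 ≠ 1) :
    ∃ r : ℕ, r.Prime ∧ ∀ q : ℕ, q.Prime → q ≠ r → Van χ q := by
  by_cases hall : ∀ q : ℕ, q.Prime → Van χ q
  · exact ⟨2, Nat.prime_two, fun q hq _ => hall q hq⟩
  · push Not at hall
    obtain ⟨r, hr, hrv⟩ := hall
    refine ⟨r, hr, fun q hq hqr => ?_⟩
    by_contra hqv
    unfold Van at hrv hqv
    push Not at hrv hqv
    obtain ⟨y, hy1, ⟨b, hy2⟩, hy3⟩ := hrv
    obtain ⟨x, hx1, ⟨a, hx2⟩, hx3⟩ := hqv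
    exact (mul_ne_zero hx3 hy3) (mul_eq_zero_of_hyp h χ hχ hx1 hy1 ⟨q, r, a, b, hq, hr, hqr, hx2, hy2⟩)

theorem prime_unique (χ χ' : IrrCharacter G) (hχ : (χ : G → ℂ) 1 ≠ 1) (hχ' : (χ' : G → ℂ) 1 ≠ 1)
    {r r' : ℕ} (hr : r.Prime) (hr' : r'.Prime)
    (hv : ∀ q : ℕ, q.Prime → q ≠ r → Van χ q) (hv' : ∀ q : ℕ, q.Prime → q ≠ r' → Van χ' q) : r = r' := by
  by_contra hne
  have hn : Nat.card G ≠ 0 := Nat.card_pos.ne'
  have h1 := ordCompl_lt χ hχ r hv
  have h2 := ordCompl_lt χ' hχ' r' hv'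
  have key : ∀ {s t : ℕ}, s.Prime → t.Prime → s ≠ t →
      s ^ (Nat.card G).factorization s ≤ Nat.card G / t ^ (Nat.card G).factorization t := by
    intro s t hs ht hst
    have h3 : s ^ (Nat.card G).factorization s ∣ Nat.card G := Nat.ordProj_dvd _ _
    have h4 : Nat.Coprime (s ^ (Nat.card G).factorization s) (t ^ (Nat.card G).factorization t) :=
      Nat.Coprime.pow _ _ ((Nat.coprime_primes hs ht).2 hst)
    have h5 := Nat.ordProj_mul_ordCompl_eq_self (Nat.card G) t
    have h7 : s ^ (Nat.card G).factorization s ∣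
        t ^ (Nat.card G).factorization t * (Nat.card G / t ^ (Nat.card G).factorization t) := by
      rw [h5]; exact Nat.ordProj_dvd _ _
    exact Nat.le_of_dvd (Nat.ordCompl_pos t hn) (h4.dvd_of_dvd_mul_left h7)
  have h3 := key hr hr' hne
  have h4 := key hr' hr (Ne.symm hne)
  omega

/-- The conjugacy consequence of the vanishing. -/
theorem isConj_mul {p : ℕ} (hvan : ∀ χ : IrrCharacter G, (χ : G → ℂ) 1 ≠ 1 →
      ∀ q : ℕ, q.Prime → q ≠ p → Van χ q) {x : G} (hx : x ≠ 1) {q : ℕ} (hq : q.Prime) (hqp : q ≠ p)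
    (hord : ∃ j : ℕ, orderOf x = q ^ j) {w : G} (hw : w ∈ commutator G) : IsConj x (x * w) := by
  classical
  cases nonempty_fintype G
  by_contra hc
  have := Fintype.ofFinite (IrrCharacter G)
  have h0 := column_orth_not_conj hc
  have hterm : ∀ χ : IrrCharacter G, (χ : G → ℂ) x * conj ((χ : G → ℂ) (x * w)) =
      if (χ : G → ℂ) 1 = 1 then 1 else 0 := by
    intro χ
    split_ifs with h1
    · rw [linear_mul χ h1, linear_commutator χ h1 hw, mul_one, linear_mul_conj χ h1]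
    · rw [hvan χ h1 q hq hqp x hx hord, zero_mul]
  simp only [hterm] at h0
  rw [Finset.sum_boole] at h0
  have h1 : (Finset.univ.filter fun χ : IrrCharacter G => (χ : G → ℂ) 1 = 1).card = 0 := by
    exact_mod_cast h0
  rw [Finset.card_eq_zero] at h1
  have h2 : (⟨fun _ => 1, Cfsg.Agent.Lib.Char.Burnside2.isIrrCharacter_one⟩ : IrrCharacter G) ∈
      (Finset.univ.filter fun χ : IrrCharacter G => (χ : G → ℂ) 1 = 1) := by
    simp
  rw [h1] at h2
  simp at h2

theorem isCyclic_of_quaternion {P : Type*} [Group P] (hP : ∀ a b : P, a * b = b * a) {n : ℕ}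
    (e : P ≃* QuaternionGroup (2 ^ n)) : IsCyclic P := by
  cases n with
  | zero =>
    have h1 : IsCyclic (QuaternionGroup (2 ^ 0)) := by
      have : NeZero (2 ^ 0) := ⟨by norm_num⟩
      refine isCyclic_of_orderOf_eq_card (QuaternionGroup.xa 0) ?_
      rw [QuaternionGroup.orderOf_xa, Nat.card_eq_fintype_card, QuaternionGroup.card]
      norm_num
    exact isCyclic_of_surjective e.symm.toMonoidHom e.symm.surjective
  | succ n =>
    exfalso
    have h2 : NeZero (2 ^ (n + 1)) := ⟨by positivity⟩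
    have h1 := hP (e.symm (QuaternionGroup.a 1)) (e.symm (QuaternionGroup.xa 0))
    rw [← map_mul, ← map_mul, e.symm.injective.eq_iff, QuaternionGroup.a_mul_xa,
      QuaternionGroup.xa_mul_a] at h1
    have h3 : (0 - 1 : ZMod (2 * 2 ^ (n + 1))) = 0 + 1 := QuaternionGroup.xa.inj h1
    have h4 : (2 : ZMod (2 * 2 ^ (n + 1))) = 0 := by linear_combination -h3
    have h5 : ((2 : ℕ) : ZMod (2 * 2 ^ (n + 1))) = 0 := by exact_mod_cast h4
    rw [ZMod.natCast_eq_zero_iff] at h5
    have h6 := Nat.le_of_dvd (by norm_num) h5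
    have h7 : 2 ≤ 2 ^ (n + 1) := by
      calc 2 = 2 ^ 1 := by norm_num
        _ ≤ 2 ^ (n + 1) := Nat.pow_le_pow_right (by norm_num) (by omega)
    omega

end Forward



section Main

variable {G : Type*} [Group G] [Finite G]

theorem forward (h : Hyp G) : ((∃ p : ℕ, p.Prime ∧ IsPGroup p G) ∨ IsMulCommutative G ∨ ∃ (p : ℕ) (_ : Fact p.Prime) (P : Sylow p G) (A : Subgroup G), (P : Subgroup G).Normal ∧ IsCyclic ↥A ∧ A ≠ ⊥ ∧ (Nat.card ↥A).Coprime p ∧ A ⊔ (P : Subgroup G) = ⊤ ∧ IsMulCommutative ↥((P : Subgroup G) ⊓ Subgroup.centralizer (A : Set G)) ∧ (⁅A, (P : Subgroup G)⁆).Normal ∧ ((P : Subgroup G) ⊓ Subgroup.centralizer (A : Set G)) ⊔ ⁅A, (P : Subgroup G)⁆ = (P : Subgroup G) ∧ ((P : Subgroup G) ⊓ Subgroup.centralizer (A : Set G)) ⊓ ⁅A, (P : Subgroup G)⁆ = ⊥ ∧ ∀ a ∈ A, a ≠ 1 → ∀ d ∈ ⁅A, (P : Subgroup G)⁆, a * d = d * a → d = 1) := by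
  classical
  cases nonempty_fintype G
  by_cases hab : IsMulCommutative G
  · exact Or.inr (Or.inl hab)
  -- a nonlinear character exists
  have hex : ∃ χ₀ : IrrCharacter G, (χ₀ : G → ℂ) 1 ≠ 1 := by
    by_contra hall
    push Not at hall
    apply hab
    refine ⟨⟨fun x y => ?_⟩⟩
    have h1 : IsConj ⁅x, y⁆ 1 := by
      refine isConj_of_forall_irr (fun χ => ?_)
      rw [hall χ]
      exact linear_commutator χ (hall χ) (Subgroup.commutator_mem_commutator (Subgroup.mem_top x) (Subgroup.mem_top y))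
    have h2 : ⁅x, y⁆ = 1 := isConj_one_right.1 h1.symm
    exact commutatorElement_eq_one_iff_mul_comm.1 h2
  obtain ⟨χ₀, hχ₀⟩ := hex
  obtain ⟨p, hp, hv₀⟩ := exists_prime_van h χ₀ hχ₀
  have hvan : ∀ χ : IrrCharacter G, (χ : G → ℂ) 1 ≠ 1 → ∀ q : ℕ, q.Prime → q ≠ p → Van χ q := by
    intro χ hχ
    obtain ⟨r, hr, hv⟩ := exists_prime_van h χ hχ
    have := prime_unique χ χ₀ hχ hχ₀ hr hp hv hv₀
    rwa [this] at hv
  have hconj : ∀ {x : G}, x ≠ 1 → ∀ {q : ℕ}, q.Prime → q ≠ p → (∃ j : ℕ, orderOf x = q ^ j) →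
      ∀ {w : G}, w ∈ commutator G → IsConj x (x * w) := fun hx _ hq hqp hord _ hw =>
    isConj_mul hvan hx hq hqp hord hw
  have : Fact p.Prime := ⟨hp⟩
  -- the commutator subgroup is a `p`-group
  have hG'p : IsPGroup p (commutator G) := by
    refine IsPGroup.of_card (n := (Nat.card (commutator G)).primeFactorsList.length) ?_
    refine Nat.eq_prime_pow_of_unique_prime_dvd Nat.card_pos.ne' ?_
    intro q hq hqd
    by_contra hqp
    have : Fact q.Prime := ⟨hq⟩
    obtain ⟨u, hu⟩ := exists_prime_orderOf_dvd_card' (G := commutator G) q hqd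
    have h1 : orderOf (u : G) = q := by rw [Subgroup.orderOf_coe, hu]
    have hu1 : (u : G) ≠ 1 := by
      intro h2
      rw [h2, orderOf_one] at h1
      exact hq.one_lt.ne h1
    have h2 := hconj hu1 hq hqp ⟨1, by rw [h1, pow_one]⟩ ((commutator G).inv_mem u.2)
    rw [mul_inv_cancel] at h2
    exact hu1 (isConj_one_right.1 h2.symm)
  obtain ⟨P, hG'P⟩ := hG'p.exists_le_sylow
  have hPn : (P : Subgroup G).Normal := by
    refine ⟨fun u hu g => ?_⟩
    have h1 : g * u * g⁻¹ * u⁻¹ ∈ (P : Subgroup G) :=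
      hG'P (Subgroup.commutator_mem_commutator (Subgroup.mem_top g) (Subgroup.mem_top u))
    have h2 : g * u * g⁻¹ = (g * u * g⁻¹ * u⁻¹) * u := by group
    rw [h2]
    exact (P : Subgroup G).mul_mem h1 hu
  have hcopP : Nat.Coprime (Nat.card (P : Subgroup G)) (P : Subgroup G).index := P.card_coprime_index
  obtain ⟨A, hPA⟩ := Subgroup.exists_right_complement'_of_coprime hcopP
  have hAcard : Nat.card A = (P : Subgroup G).index := by
    have h1 := hPA.card_mul_card
    have h2 := Subgroup.card_mul_index (P : Subgroup G)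
    rw [← h2] at h1
    exact Nat.eq_of_mul_eq_mul_left Nat.card_pos h1
  have hcopA : (Nat.card A).Coprime p := by
    rw [hAcard]
    exact Nat.Coprime.symm ((Nat.Prime.coprime_iff_not_dvd hp).2 P.not_dvd_index)
  have hsup : A ⊔ (P : Subgroup G) = ⊤ := by
    rw [sup_comm]; exact hPA.sup_eq_top
  have hdisj : Disjoint (P : Subgroup G) A := hPA.disjoint
  by_cases hAbot : A = ⊥
  · left
    refine ⟨p, hp, ?_⟩
    rw [hAbot, bot_sup_eq] at hsup
    intro g
    obtain ⟨k, hk⟩ := P.2 ⟨g, by rw [hsup]; exact Subgroup.mem_top g⟩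
    exact ⟨k, by simpa using congrArg Subtype.val hk⟩
  right; right
  -- fixed point freeness on the commutator subgroup
  have hfpf : ∀ a ∈ A, a ≠ 1 → ∀ w ∈ commutator G, a * w = w * a → w = 1 := by
    intro a ha ha1 w hw hc
    have hord : orderOf a ≠ 1 := fun h1 => ha1 (orderOf_eq_one_iff.1 h1)
    obtain ⟨q, hq, hqd⟩ := Nat.exists_prime_and_dvd hord
    have hqp : q ≠ p := by
      rintro rfl
      have h1 : orderOf a ∣ Nat.card A := by
        have := Subgroup.orderOf_dvd_natCard A ha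
        exact this
      have h2 := Nat.dvd_gcd (hqd.trans h1) (dvd_refl q)
      rw [hcopA] at h2
      exact hq.one_lt.ne' (Nat.dvd_one.1 h2)
    have hoa : orderOf a ≠ 0 := (orderOf_pos a).ne'
    set x := a ^ (orderOf a / q) with hx
    have hxo : orderOf x = q := orderOf_pow_orderOf_div hoa hqd
    have hx1 : x ≠ 1 := by
      intro h2
      rw [h2, orderOf_one] at hxo
      exact hq.one_lt.ne hxo
    have hcx : Commute x w := Commute.pow_left hc _
    have h2 := hconj hx1 hq hqp ⟨1, by rw [hxo, pow_one]⟩ hw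
    obtain ⟨c, hc2⟩ := isConj_iff.1 h2
    have h3 : orderOf (x * w) = q := by rw [← hc2, orderOf_conj', hxo]
    obtain ⟨k, hk⟩ := (IsPGroup.iff_orderOf.1 hG'p) ⟨w, hw⟩
    have hk2 : orderOf w = p ^ k := by
      rw [← Subgroup.orderOf_mk w hw]
      exact hk
    have hco : (orderOf x).Coprime (orderOf w) := by
      rw [hxo, hk2]
      exact Nat.Coprime.pow_right k ((Nat.coprime_primes hq hp).2 hqp)
    have h4 := hcx.orderOf_mul_eq_mul_orderOf_of_coprime hco
    rw [h3, hxo] at h4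
    have h5 : orderOf w = 1 := by
      have h6 : q * orderOf w = q * 1 := by rw [← h4, mul_one]
      exact Nat.eq_of_mul_eq_mul_left hq.pos h6
    exact orderOf_eq_one_iff.1 h5
  have hG'n : (commutator G).Normal := inferInstance
  -- A is nontrivial
  obtain ⟨a₁, ha₁, ha₁1⟩ : ∃ a ∈ A, a ≠ 1 := by
    by_contra hall
    push Not at hall
    exact hAbot ((Subgroup.eq_bot_iff_forall A).2 hall)
  -- `⁅A, P⁆` is the commutator subgroup
  have hDeq : ⁅A, (P : Subgroup G)⁆ = commutator G := by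
    apply le_antisymm
    · exact Subgroup.commutator_mono le_top le_top
    · intro w hw
      obtain ⟨d, hd, hdw⟩ := exists_conj_of_fpf hG'n (hfpf a₁ ha₁ ha₁1) hw
      rw [← hdw]
      have h1 : a₁⁻¹ * d * a₁ * d⁻¹ = ⁅a₁⁻¹, d⁆ := by
        rw [commutatorElement_def, inv_inv]
      rw [h1]
      exact Subgroup.commutator_mem_commutator (A.inv_mem ha₁) (hG'P hd)
  -- `A` is abelian
  have hAab : ∀ a b : A, a * b = b * a := by
    intro a b
    have h1 : ⁅(a : G), (b : G)⁆ ∈ A := A.mul_mem (A.mul_mem (A.mul_mem a.2 b.2) (A.inv_mem a.2)) (A.inv_mem b.2)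
    have h2 : ⁅(a : G), (b : G)⁆ ∈ (P : Subgroup G) :=
      hG'P (Subgroup.commutator_mem_commutator (Subgroup.mem_top _) (Subgroup.mem_top _))
    have h3 : ⁅(a : G), (b : G)⁆ = 1 := (Subgroup.disjoint_def.1 hdisj) h2 h1
    exact Subtype.ext (commutatorElement_eq_one_iff_mul_comm.1 h3)
  have hG'bot : commutator G ≠ ⊥ := by
    intro h0
    apply hab
    refine ⟨⟨fun x y => ?_⟩⟩
    have h1 : ⁅x, y⁆ ∈ commutator G :=
      Subgroup.commutator_mem_commutator (Subgroup.mem_top x) (Subgroup.mem_top y)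
    rw [h0, Subgroup.mem_bot] at h1
    exact commutatorElement_eq_one_iff_mul_comm.1 h1
  -- `A` is cyclic
  have hAcyc : IsCyclic A := by
    let _ : CommGroup A := { (inferInstance : Group A) with mul_comm := hAab }
    have hZ : IsZGroup A := by
      refine ⟨fun q hq Q => ?_⟩
      have : Fact q.Prime := ⟨hq⟩
      let Q' : Subgroup G := (Q : Subgroup A).map A.subtype
      have hQ' : IsPGroup q Q' := Q.2.map A.subtype
      have hQA : Q' ≤ A := by
        rintro _ ⟨x, -, rfl⟩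
        exact x.2
      have hnorm : Q' ≤ Subgroup.normalizer (commutator G : Set G) := by
        rw [Subgroup.normalizer_eq_top_iff.2 hG'n]
        exact le_top
      have e : (Q : Subgroup A) ≃* Q' :=
        (Q : Subgroup A).equivMapOfInjective A.subtype Subtype.val_injective
      rcases Cfsg.Agent.Lib.Frobenius.SylowFpf.isCyclic_or_quaternion_of_fpf hG'bot hnorm
        (fun a ha ha1 v hv hc => hfpf a (hQA ha) ha1 v hv hc) hQ' with h1 | ⟨-, n, ⟨e2⟩⟩
      · exact isCyclic_of_surjective e.symm.toMonoidHom e.symm.surjective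
      · have hcomm : ∀ a b : Q', a * b = b * a := by
          intro a b
          apply Subtype.ext
          have h2 := hAab ⟨a, hQA a.2⟩ ⟨b, hQA b.2⟩
          have h3 : (a : G) * (b : G) = (b : G) * (a : G) := congrArg Subtype.val h2
          exact h3
        have h1 : IsCyclic Q' := isCyclic_of_quaternion hcomm e2
        exact isCyclic_of_surjective e.symm.toMonoidHom e.symm.surjective
    infer_instance
  refine ⟨p, inferInstance, P, A, hPn, hAcyc, hAbot, hcopA, hsup, ?_, ?_, ?_, ?_, ?_⟩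
  · -- the centralizer part is abelian
    refine ⟨⟨fun u v => ?_⟩⟩
    apply Subtype.ext
    have h1 : ⁅(u : G), (v : G)⁆ ∈ commutator G :=
      Subgroup.commutator_mem_commutator (Subgroup.mem_top _) (Subgroup.mem_top _)
    have hcu : Commute a₁ (u : G) := (Subgroup.mem_centralizer_iff.1 u.2.2 a₁ ha₁)
    have hcv : Commute a₁ (v : G) := (Subgroup.mem_centralizer_iff.1 v.2.2 a₁ ha₁)
    have h2 : a₁ * ⁅(u : G), (v : G)⁆ = ⁅(u : G), (v : G)⁆ * a₁ := by
      rw [commutatorElement_def]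
      exact ((hcu.mul_right hcv).mul_right hcu.inv_right).mul_right hcv.inv_right
    exact commutatorElement_eq_one_iff_mul_comm.1 (hfpf a₁ ha₁ ha₁1 _ h1 h2)
  · rw [hDeq]; exact hG'n
  · rw [hDeq]
    apply le_antisymm
    · exact sup_le inf_le_left hG'P
    · intro u hu
      obtain ⟨g₀, hg₀⟩ := IsCyclic.exists_generator (α := A)
      have hg1 : (g₀ : G) ≠ 1 := by
        intro h1
        apply ha₁1
        obtain ⟨k, hk⟩ := Subgroup.mem_zpowers_iff.1 (hg₀ ⟨a₁, ha₁⟩)
        have h2 := congrArg Subtype.val hk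
        simp only [Subgroup.coe_zpow, h1, one_zpow] at h2
        exact h2.symm
      have h1 : (g₀ : G)⁻¹ * u⁻¹ * (g₀ : G) * u ∈ commutator G := by
        have h2 : (g₀ : G)⁻¹ * u⁻¹ * (g₀ : G) * u = ⁅(g₀ : G)⁻¹, u⁻¹⁆ := by
          rw [commutatorElement_def, inv_inv, inv_inv]
        rw [h2]
        exact Subgroup.commutator_mem_commutator (Subgroup.mem_top _) (Subgroup.mem_top _)
      obtain ⟨d, hd, hdt⟩ := exists_conj_of_fpf hG'n (hfpf (g₀ : G) g₀.2 hg1) h1
      have h3 : d * (g₀ : G) * d⁻¹ = u⁻¹ * (g₀ : G) * u := by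
        have h4 : (g₀ : G) * ((g₀ : G)⁻¹ * d * (g₀ : G) * d⁻¹) =
            (g₀ : G) * ((g₀ : G)⁻¹ * u⁻¹ * (g₀ : G) * u) := by rw [hdt]
        simpa [mul_assoc] using h4
      set c := u * d with hc
      have hc1 : c * (g₀ : G) = (g₀ : G) * c := by
        have h4 : c * (g₀ : G) * c⁻¹ = (g₀ : G) := by
          rw [hc]
          calc u * d * (g₀ : G) * (u * d)⁻¹ = u * (d * (g₀ : G) * d⁻¹) * u⁻¹ := by group
            _ = (g₀ : G) := by rw [h3]; group
        calc c * (g₀ : G) = c * (g₀ : G) * c⁻¹ * c := by group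
          _ = (g₀ : G) * c := by rw [h4]
      have hcP : c ∈ (P : Subgroup G) := (P : Subgroup G).mul_mem hu (hG'P hd)
      have hcC : c ∈ Subgroup.centralizer (A : Set G) := by
        rw [Subgroup.mem_centralizer_iff]
        intro a ha
        obtain ⟨k, hk⟩ := Subgroup.mem_zpowers_iff.1 (hg₀ ⟨a, ha⟩)
        have h2 : a = (g₀ : G) ^ k := by
          have := congrArg Subtype.val hk
          simpa using this.symm
        rw [h2]
        exact ((Commute.zpow_left (show Commute (g₀ : G) c from hc1.symm) k)).eq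
      have hu2 : u = c * d⁻¹ := by rw [hc]; group
      rw [hu2]
      exact Subgroup.mul_mem_sup ⟨hcP, hcC⟩ ((commutator G).inv_mem hd)
  · rw [hDeq, eq_bot_iff]
    intro w hw
    rw [Subgroup.mem_bot]
    refine hfpf a₁ ha₁ ha₁1 w hw.2 ?_
    exact (Subgroup.mem_centralizer_iff.1 hw.1.2 a₁ ha₁)
  · rw [hDeq]
    exact hfpf

end Main


section Backward

variable {G : Type*} [Group G] [Finite G]

/-- Nonlinear characters vanish at `g` when `g` has small centralizer. -/
theorem vanish_of_centralizer_le (g : G)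
    (hg : Nat.card (Subgroup.centralizer ({g} : Set G)) ≤ (commutator G).index)
    (χ : IrrCharacter G) (hχ : (χ : G → ℂ) 1 ≠ 1) : (χ : G → ℂ) g = 0 := by
  classical
  cases nonempty_fintype G
  have := Fintype.ofFinite (IrrCharacter G)
  have h0 := column_orth_conj (IsConj.refl g)
  have h1 : ∀ ψ : IrrCharacter G, (ψ : G → ℂ) g * conj ((ψ : G → ℂ) g) =
      ((Complex.normSq ((ψ : G → ℂ) g) : ℝ) : ℂ) := fun ψ => Complex.mul_conj _
  simp only [h1] at h0
  have h2 : ∑ ψ : IrrCharacter G, Complex.normSq ((ψ : G → ℂ) g) =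
      (Nat.card (Subgroup.centralizer ({g} : Set G)) : ℝ) := by exact_mod_cast h0
  have h3 : ∑ ψ ∈ Finset.univ.filter (fun ψ : IrrCharacter G => (ψ : G → ℂ) 1 = 1),
      Complex.normSq ((ψ : G → ℂ) g) = ((commutator G).index : ℝ) := by
    rw [← card_linear_chars, Nat.card_eq_fintype_card, Fintype.card_subtype,
      Finset.sum_congr rfl (g := fun _ => (1 : ℝ))]
    · simp
    · intro ψ hψ
      have h4 := linear_mul_conj ψ (Finset.mem_filter.1 hψ).2 g
      rw [h1] at h4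
      exact_mod_cast h4
  have h4 := Finset.sum_filter_add_sum_filter_not (Finset.univ : Finset (IrrCharacter G))
    (fun ψ : IrrCharacter G => (ψ : G → ℂ) 1 = 1) (fun ψ => Complex.normSq ((ψ : G → ℂ) g))
  rw [h2, h3] at h4
  have h5 : ∑ ψ ∈ Finset.univ.filter (fun ψ : IrrCharacter G => ¬ (ψ : G → ℂ) 1 = 1),
      Complex.normSq ((ψ : G → ℂ) g) ≤ 0 := by
    have h6 : (Nat.card (Subgroup.centralizer ({g} : Set G)) : ℝ) ≤ ((commutator G).index : ℝ) := by
      exact_mod_cast hg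
    linarith
  have h6 := (Finset.sum_eq_zero_iff_of_nonneg (fun ψ _ => Complex.normSq_nonneg _)).1
    (le_antisymm h5 (Finset.sum_nonneg (fun ψ _ => Complex.normSq_nonneg _))) χ
    (Finset.mem_filter.2 ⟨Finset.mem_univ _, hχ⟩)
  exact Complex.normSq_eq_zero.1 h6

/-- A centralizer meeting the commutator subgroup trivially is small. -/
theorem centralizer_le_of_disjoint (g : G)
    (hg : ∀ w ∈ commutator G, g * w = w * g → w = 1) :
    Nat.card (Subgroup.centralizer ({g} : Set G)) ≤ (commutator G).index := by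
  let f : Subgroup.centralizer ({g} : Set G) →* G ⧸ commutator G :=
    (QuotientGroup.mk' (commutator G)).comp (Subgroup.centralizer ({g} : Set G)).subtype
  have hf : Function.Injective f := by
    rw [injective_iff_map_eq_one]
    intro c hc
    have h1 : (c : G) ∈ commutator G := (QuotientGroup.eq_one_iff _).1 hc
    have h2 : g * (c : G) = (c : G) * g := by
      have := Subgroup.mem_centralizer_singleton_iff.1 c.2
      exact this.symm
    exact Subtype.ext (hg _ h1 h2)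
  have := Nat.card_le_card_of_injective f hf
  rwa [Subgroup.index]

theorem backward_struct (p : ℕ) [hp : Fact p.Prime] (P : Sylow p G) (A : Subgroup G)
    (hPn : (P : Subgroup G).Normal) (hAcyc : IsCyclic ↥A) (hcop : (Nat.card ↥A).Coprime p)
    (hsup : A ⊔ (P : Subgroup G) = ⊤)
    (hCab : IsMulCommutative ↥((P : Subgroup G) ⊓ Subgroup.centralizer (A : Set G)))
    (hDn : (⁅A, (P : Subgroup G)⁆).Normal)
    (hCD : ((P : Subgroup G) ⊓ Subgroup.centralizer (A : Set G)) ⊔ ⁅A, (P : Subgroup G)⁆ = (P : Subgroup G))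
    (hfpf : ∀ a ∈ A, a ≠ 1 → ∀ d ∈ ⁅A, (P : Subgroup G)⁆, a * d = d * a → d = 1) :
    Hyp G := by
  classical
  set D : Subgroup G := ⁅A, (P : Subgroup G)⁆ with hD
  set C : Subgroup G := (P : Subgroup G) ⊓ Subgroup.centralizer (A : Set G) with hC
  have hDP : D ≤ (P : Subgroup G) := Subgroup.commutator_le_right A (P : Subgroup G)
  -- decomposition of elements
  have hdec : ∀ g : G, ∃ a ∈ A, ∃ c ∈ C, ∃ d ∈ D, g = a * c * d := by
    intro g
    have h1 : g ∈ ((A ⊔ (P : Subgroup G) : Subgroup G) : Set G) := by rw [hsup]; simp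
    rw [Subgroup.mul_normal] at h1
    obtain ⟨a, ha, u, hu, rfl⟩ := Set.mem_mul.1 h1
    have h2 : u ∈ ((C ⊔ D : Subgroup G) : Set G) := by rw [hCD]; exact hu
    rw [Subgroup.mul_normal] at h2
    obtain ⟨c, hc, d, hd, rfl⟩ := Set.mem_mul.1 h2
    exact ⟨a, ha, c, hc, d, hd, by group⟩
  have hAcomm : ∀ a ∈ A, ∀ b ∈ A, a * b = b * a := by
    intro a ha b hb
    have h0 : IsMulCommutative A := IsCyclic.isMulCommutative
    have := h0.is_comm.comm ⟨a, ha⟩ ⟨b, hb⟩
    exact congrArg Subtype.val this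
  have hCcomm : ∀ a ∈ C, ∀ b ∈ C, a * b = b * a := by
    intro a ha b hb
    have := hCab.is_comm.comm ⟨a, ha⟩ ⟨b, hb⟩
    exact congrArg Subtype.val this
  have hAC : ∀ a ∈ A, ∀ c ∈ C, a * c = c * a := fun a ha c hc =>
    Subgroup.mem_centralizer_iff.1 hc.2 a ha
  -- the commutator subgroup lies in `D`
  have hG'D : commutator G ≤ D := by
    rw [commutator_def, Subgroup.commutator_le]
    intro g _ h _
    obtain ⟨a, ha, c, hc, d, hd, rfl⟩ := hdec g
    obtain ⟨a', ha', c', hc', d', hd', rfl⟩ := hdec h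
    rw [← QuotientGroup.eq_one_iff, commutatorElement_def]
    have hd1 : ((d : G) : G ⧸ D) = 1 := (QuotientGroup.eq_one_iff _).2 hd
    have hd2 : ((d' : G) : G ⧸ D) = 1 := (QuotientGroup.eq_one_iff _).2 hd'
    have hcomm : Commute ((a : G ⧸ D) * (c : G ⧸ D)) ((a' : G ⧸ D) * (c' : G ⧸ D)) := by
      have h1 : Commute (a : G ⧸ D) (a' : G ⧸ D) := by
        show (a : G ⧸ D) * a' = a' * a
        rw [← QuotientGroup.mk_mul, hAcomm a ha a' ha', QuotientGroup.mk_mul]
      have h2 : Commute (a : G ⧸ D) (c' : G ⧸ D) := by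
        show (a : G ⧸ D) * c' = c' * a
        rw [← QuotientGroup.mk_mul, hAC a ha c' hc', QuotientGroup.mk_mul]
      have h3 : Commute (c : G ⧸ D) (a' : G ⧸ D) := by
        show (c : G ⧸ D) * a' = a' * c
        rw [← QuotientGroup.mk_mul, ← hAC a' ha' c hc, QuotientGroup.mk_mul]
      have h4 : Commute (c : G ⧸ D) (c' : G ⧸ D) := by
        show (c : G ⧸ D) * c' = c' * c
        rw [← QuotientGroup.mk_mul, hCcomm c hc c' hc', QuotientGroup.mk_mul]
      exact (h1.mul_right h2).mul_left (h3.mul_right h4)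
    simp only [QuotientGroup.mk_mul, QuotientGroup.mk_inv, hd1, hd2, mul_one, mul_inv_rev, one_mul, inv_one]
    have := hcomm.eq
    calc (a : G ⧸ D) * c * (a' * c') * ((c : G ⧸ D)⁻¹ * (a : G ⧸ D)⁻¹) * ((c' : G ⧸ D)⁻¹ * (a' : G ⧸ D)⁻¹)
        = ((a : G ⧸ D) * c) * (a' * c') * ((a * c : G ⧸ D))⁻¹ * ((a' * c' : G ⧸ D))⁻¹ := by group
      _ = 1 := by rw [this]; group
  have hG'P : commutator G ≤ (P : Subgroup G) := hG'D.trans hDP
  -- elements outside `P`
  have hout : ∀ g : G, g ∉ (P : Subgroup G) → ∀ w ∈ D, g * w = w * g → w = 1 := by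
    intro g hg
    obtain ⟨a, ha, c, hc, d', hd', rfl⟩ := hdec g
    have ha1 : a ≠ 1 := by
      rintro rfl
      apply hg
      rw [one_mul]
      exact (P : Subgroup G).mul_mem hc.1 (hDP hd')
    set h := a * c with hh
    have hcomm : Commute a c := hAC a ha c hc
    -- `h` acts fixed point freely
    have hfh : ∀ w ∈ D, h * w = w * h → w = 1 := by
      intro w hw hwc
      obtain ⟨k, hk⟩ := (IsPGroup.iff_orderOf.1 P.2) ⟨c, hc.1⟩
      have hk2 : c ^ (p ^ k) = 1 := by
        rw [← orderOf_dvd_iff_pow_eq_one]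
        have : orderOf c = p ^ k := by
          rw [← Subgroup.orderOf_mk c hc.1]
          exact hk
        rw [this]
      have h3 : h ^ (p ^ k) = a ^ (p ^ k) := by
        rw [hh, hcomm.mul_pow, hk2, mul_one]
      have h4 : a ^ (p ^ k) ≠ 1 := by
        intro h5
        have h6 : orderOf a ∣ p ^ k := orderOf_dvd_of_pow_eq_one h5
        have h7 : orderOf a ∣ Nat.card A := Subgroup.orderOf_dvd_natCard A ha
        have h8 : Nat.Coprime (orderOf a) (p ^ k) :=
          Nat.Coprime.pow_right k (Nat.Coprime.coprime_dvd_left h7 hcop)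
        have h9 := Nat.Coprime.eq_one_of_dvd h8 h6
        exact ha1 (orderOf_eq_one_iff.1 h9)
      refine hfpf _ (A.pow_mem ha _) h4 w hw ?_
      rw [← h3]
      exact (Commute.pow_left (show Commute h w from hwc) _)
    intro w hw hwc
    obtain ⟨d, hd, hdt⟩ := exists_conj_of_fpf hDn hfh hd'
    have h5 : d * h * d⁻¹ = h * d' := by
      rw [← hdt]; group
    have h6 : a * c * d' = d * h * d⁻¹ := by rw [h5]
    rw [h6] at hwc
    have h7 : d⁻¹ * w * d = 1 := by
      refine hfh _ ?_ ?_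
      · simpa using hDn.conj_mem w hw d⁻¹
      · have h8 : h * (d⁻¹ * w * d) = d⁻¹ * ((d * h * d⁻¹) * w) * d := by group
        have h9 : d⁻¹ * w * d * h = d⁻¹ * (w * (d * h * d⁻¹)) * d := by group
        rw [h8, h9, hwc]
    have h8 : w = d * (d⁻¹ * w * d) * d⁻¹ := by group
    rw [h8, h7]; group
  -- the vanishing
  have hvan : ∀ g : G, g ∉ (P : Subgroup G) → ∀ χ : IrrCharacter G, (χ : G → ℂ) 1 ≠ 1 →
      (χ : G → ℂ) g = 0 := by
    intro g hg χ hχ
    refine vanish_of_centralizer_le g (centralizer_le_of_disjoint g ?_) χ hχ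
    intro w hw hc
    exact hout g hg w (hG'D hw) hc
  -- elements of order coprime to `p` are outside `P`
  have hnotP : ∀ x : G, x ≠ 1 → ∀ q j : ℕ, q.Prime → q ≠ p → orderOf x = q ^ j → x ∉ (P : Subgroup G) := by
    intro x hx q j hq hqp hord hxP
    obtain ⟨k, hk⟩ := (IsPGroup.iff_orderOf.1 P.2) ⟨x, hxP⟩
    have hk2 : orderOf x = p ^ k := by
      rw [← Subgroup.orderOf_mk x hxP]
      exact hk
    have h1 : Nat.Coprime (q ^ j) (p ^ k) :=
      Nat.Coprime.pow _ _ ((Nat.coprime_primes hq hp.out).2 hqp)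
    rw [← hord, hk2] at h1
    have h2 : p ^ k = 1 := by simpa using h1
    rw [hk2, h2] at hord
    rw [← hk2, orderOf_eq_one_iff] at h2
    exact hx h2
  -- products
  have hprod : ∀ x y : G, ∀ q r a b : ℕ, q ≠ r → q.Prime → r.Prime → orderOf x = q ^ a →
      orderOf y = r ^ b → x * y ∈ (P : Subgroup G) → x ∈ (P : Subgroup G) := by
    intro x y q r a b hqr hq hr hx hy hxy
    have h1 : ((x : G) : G ⧸ (P : Subgroup G)) * (y : G ⧸ (P : Subgroup G)) = 1 := by
      rw [← QuotientGroup.mk_mul]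
      exact (QuotientGroup.eq_one_iff _).2 hxy
    have h2 : (y : G ⧸ (P : Subgroup G)) = (x : G ⧸ (P : Subgroup G))⁻¹ :=
      eq_inv_of_mul_eq_one_right h1
    have h3 : (x : G ⧸ (P : Subgroup G)) ^ (q ^ a) = 1 := by
      rw [← QuotientGroup.mk_pow, ← hx, pow_orderOf_eq_one]
      rfl
    have h4 : (x : G ⧸ (P : Subgroup G)) ^ (r ^ b) = 1 := by
      have h5 : (y : G ⧸ (P : Subgroup G)) ^ (r ^ b) = 1 := by
        rw [← QuotientGroup.mk_pow, ← hy, pow_orderOf_eq_one]
        rfl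
      rw [h2, inv_pow] at h5
      simpa using h5
    have h6 : orderOf (x : G ⧸ (P : Subgroup G)) ∣ q ^ a := orderOf_dvd_of_pow_eq_one h3
    have h7 : orderOf (x : G ⧸ (P : Subgroup G)) ∣ r ^ b := orderOf_dvd_of_pow_eq_one h4
    have h8 : Nat.Coprime (q ^ a) (r ^ b) := Nat.Coprime.pow _ _ ((Nat.coprime_primes hq hr).2 hqr)
    have h9 := Nat.Coprime.eq_one_of_dvd (Nat.Coprime.coprime_dvd_left h6 h8) h7
    exact (QuotientGroup.eq_one_iff _).1 (orderOf_eq_one_iff.1 h9)
  intro x y χ hx hy hxy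
  by_cases hχ : (χ : G → ℂ) 1 = 1
  · exact linear_mul χ hχ x y
  obtain ⟨q, r, a, b, hq, hr, hqr, hxo, hyo⟩ := hxy
  by_cases hqp : q = p
  · -- `y` is the element outside `P`
    have hrp : r ≠ p := fun h => hqr (hqp.trans h.symm)
    have hyP := hnotP y hy r b hr hrp hyo
    have hxyP : x * y ∉ (P : Subgroup G) := by
      intro hxyP
      have hm : y * x ∈ (P : Subgroup G) := by
        have h1 : y * x = x⁻¹ * (x * y) * x := by group
        rw [h1]
        simpa using hPn.conj_mem _ hxyP x⁻¹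
      exact hyP (hprod y x r q b a hqr.symm hr hq hyo hxo hm)
    rw [hvan _ hxyP χ hχ, hvan _ hyP χ hχ, mul_zero]
  · have hxP := hnotP x hx q a hq hqp hxo
    have hxyP : x * y ∉ (P : Subgroup G) := fun hxyP =>
      hxP (hprod x y q r a b hqr hq hr hxo hyo hxyP)
    rw [hvan _ hxyP χ hχ, hvan _ hxP χ hχ, zero_mul]

theorem backward (h : ((∃ p : ℕ, p.Prime ∧ IsPGroup p G) ∨ IsMulCommutative G ∨ ∃ (p : ℕ) (_ : Fact p.Prime) (P : Sylow p G) (A : Subgroup G), (P : Subgroup G).Normal ∧ IsCyclic ↥A ∧ A ≠ ⊥ ∧ (Nat.card ↥A).Coprime p ∧ A ⊔ (P : Subgroup G) = ⊤ ∧ IsMulCommutative ↥((P : Subgroup G) ⊓ Subgroup.centralizer (A : Set G)) ∧ (⁅A, (P : Subgroup G)⁆).Normal ∧ ((P : Subgroup G) ⊓ Subgroup.centralizer (A : Set G)) ⊔ ⁅A, (P : Subgroup G)⁆ = (P : Subgroup G) ∧ ((P : Subgroup G) ⊓ Subgroup.centralizer (A : Set G)) ⊓ ⁅A, (P : Subgroup G)⁆ = ⊥ ∧ ∀ a ∈ A, a ≠ 1 → ∀ d ∈ ⁅A, (P : Subgroup G)⁆, a * d = d * a → d = 1)) : Hyp G := by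
  rcases h with ⟨p, hp, hG⟩ | hab | ⟨p, hf, P, A, h1, h2, -, h3, h4, h5, h6, h7, -, h8⟩
  · intro x y χ hx hy hxy
    exfalso
    obtain ⟨q, r, a, b, hq, hr, hqr, hxo, hyo⟩ := hxy
    have : Fact p.Prime := ⟨hp⟩
    have key : ∀ (z : G) (s c : ℕ), z ≠ 1 → s.Prime → orderOf z = s ^ c → s = p := by
      intro z s c hz hs hord
      obtain ⟨k, hk⟩ := (IsPGroup.iff_orderOf.1 hG) z
      rw [hk] at hord
      have hc : c ≠ 0 := by
        rintro rfl
        rw [pow_zero] at hord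
        exact hz (orderOf_eq_one_iff.1 (hk.trans hord))
      have h1 : s ∣ p ^ k := by
        rw [hord]
        exact dvd_pow_self s hc
      exact (Nat.prime_dvd_prime_iff_eq hs hp).1 (hs.dvd_of_dvd_pow h1)
    exact hqr ((key x q a hx hq hxo).trans (key y r b hy hr hyo).symm)
  · intro x y χ _ _ _
    have h1 : (χ : G → ℂ) 1 = 1 := by
      obtain ⟨f, n, ρ, hirr, hf⟩ := χ
      subst hf
      haveI := hirr
      have h2 := Cfsg.Agent.Lib.Char.AbelianQuot.finrank_eq_one_of_commuting ρ (fun x y => by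
        rw [← Module.End.mul_eq_comp, ← Module.End.mul_eq_comp, ← map_mul, ← map_mul,
          hab.is_comm.comm x y])
      show ρ.character 1 = 1
      rw [Representation.char_one, h2]
      simp
    exact linear_mul χ h1 x y
  · exact backward_struct p P A h1 h2 h3 h4 h5 h6 h7 h8

end Backward

/-- For a finite group G the following are equivalent. (1) χ(x y) = χ(x) χ(y) for every irreducible character χ and all non-identity elements x, y of prime power orders for two different primes. (2) G is a p-group for some prime p, or G is abelian, or for some prime p: G = A P with P a normal Sylow p-subgroup and A a nontrivial cyclic subgroup of order prime to p such that, with C = C_P(A) and D = [A, P], one has P = C D, C abelian, D normal in G, C ∩ D = 1, and A acts fixed-point-freely on D (no non-identity element of A centralizes a non-identity element of D). -/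
theorem result {G : Type*} [Group G] [Finite G] : (∀ (x y : G) (χ : Cfsg.IrrCharacter G), x ≠ 1 → y ≠ 1 → (∃ p q a b : ℕ, p.Prime ∧ q.Prime ∧ p ≠ q ∧ orderOf x = p ^ a ∧ orderOf y = q ^ b) → (χ : G → ℂ) (x * y) = (χ : G → ℂ) x * (χ : G → ℂ) y) ↔ ((∃ p : ℕ, p.Prime ∧ IsPGroup p G) ∨ IsMulCommutative G ∨ ∃ (p : ℕ) (_ : Fact p.Prime) (P : Sylow p G) (A : Subgroup G), (P : Subgroup G).Normal ∧ IsCyclic ↥A ∧ A ≠ ⊥ ∧ (Nat.card ↥A).Coprime p ∧ A ⊔ (P : Subgroup G) = ⊤ ∧ IsMulCommutative ↥((P : Subgroup G) ⊓ Subgroup.centralizer (A : Set G)) ∧ (⁅A, (P : Subgroup G)⁆).Normal ∧ ((P : Subgroup G) ⊓ Subgroup.centralizer (A : Set G)) ⊔ ⁅A, (P : Subgroup G)⁆ = (P : Subgroup G) ∧ ((P : Subgroup G) ⊓ Subgroup.centralizer (A : Set G)) ⊓ ⁅A, (P : Subgroup G)⁆ = ⊥ ∧ ∀ a ∈ A, a ≠ 1 → ∀ d ∈ ⁅A, (P : Subgroup G)⁆, a * d = d * a → d = 1) := by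
  exact ⟨forward, backward⟩

end Cfsg.Agent.S4756
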