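import Cfsg.Statements.S4763
import Mathlib
import Cfsg.Agent.S4452
import Cfsg.Agent.Lib.Char.CoprimeCount
import Cfsg.Agent.Lib.Char.ItoMichler
import Cfsg.Agent.Lib.Char.CliffordCorr
import Cfsg.Agent.Lib.Char.Gallagher
import Cfsg.Agent.Lib.Char.Integrality
import Cfsg.Agent.Lib.Char.Monomial
import Cfsg.Agent.Lib.Char.Values
import Cfsg.Agent.Lib.Char.Burnside2
import Cfsg.Agent.Lib.Char.CompleteCor
import Cfsg.Agent.Lib.PSL2.Unipotent
import Cfsg.Agent.Lib.Basic.SylowUtil

set_option autoImplicit false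
open Cfsg

namespace Cfsg.Agent.S4763

open Cfsg.Agent.Lib.Char.Basic Cfsg.Agent.Lib.Char.Ortho Cfsg.Agent.Lib.Char.Values
open Cfsg.Agent.Lib.Char.CompleteCor Cfsg.Agent.Lib.Char.CoprimeCount
open scoped ComplexConjugate

section Aux

variable {G : Type*} [Group G] [Finite G]

omit [Finite G] in
theorem degree_cast (χ : IrrCharacter G) :
    ((charDegree (χ : G → ℂ) : ℕ) : ℂ) = (χ : G → ℂ) 1 :=
  IsCharacter.charDegree_cast (isCharacter_of_isIrrCharacter χ.2)

/-- The degree of an irreducible character divides the index of a central subgroup. -/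
theorem degree_dvd_index_of_central (χ : IrrCharacter G) (Z : Subgroup G)
    (hZ : ∀ z ∈ Z, ∀ g : G, z * g = g * z) : charDegree (χ : G → ℂ) ∣ Z.index := by
  obtain ⟨f, n, ρ, hirr, rfl⟩ := χ
  have := hirr
  have h1 := Cfsg.Agent.Lib.Char.Integrality.finrank_dvd_index_center ρ
  have h2 : (Subgroup.center G).index ∣ Z.index := by
    apply Subgroup.index_dvd_of_le
    intro z hz
    rw [Subgroup.mem_center_iff]
    intro g
    exact (hZ z hz g).symm
  have h3 : charDegree ρ.character = Module.finrank ℂ (Fin n → ℂ) := by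
    have h4 := IsCharacter.charDegree_cast (χ := ρ.character) ⟨n, ρ, rfl⟩
    rw [Representation.char_one] at h4
    exact_mod_cast h4
  show charDegree ρ.character ∣ _
  rw [h3]
  exact h1.trans h2

end Aux

section CaseA

variable {G : Type*} [Group G] [Finite G] {p : ℕ} [hp : Fact p.Prime]

/-- The abelian Sylow case: the numbers of `p'`-degree characters and `p'`-size classes agree. -/
theorem card_eq_of_comm (N : Subgroup G) [N.Normal] (P : Sylow p G)
    (hsup : N ⊔ (P : Subgroup G) = ⊤) (hcop : (Nat.card N).Coprime (Nat.card (P : Subgroup G)))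
    (hcomm : ∀ a ∈ (P : Subgroup G), ∀ b ∈ (P : Subgroup G), a * b = b * a)
    (hP1 : (P : Subgroup G) ≠ ⊥) :
    Nat.card {χ : IrrCharacter G // ¬ p ∣ charDegree (χ : G → ℂ)} =
      Nat.card {C : ConjClasses G // ¬ p ∣ Nat.card C.carrier} := by
  classical
  obtain ⟨j, hj⟩ := IsPGroup.iff_card.1 P.2
  have hj0 : j ≠ 0 := by
    rintro rfl
    rw [pow_zero] at hj
    exact hP1 ((Subgroup.card_eq_one).1 hj)
  have hcoprime : ∀ d : ℕ, Nat.Coprime d (Nat.card (P : Subgroup G)) ↔ ¬ p ∣ d := by
    intro d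
    rw [hj, Nat.coprime_pow_right_iff (Nat.pos_of_ne_zero hj0), Nat.coprime_comm,
      Nat.Prime.coprime_iff_not_dvd hp.out]
  set M : Subgroup G := Subgroup.normalizer ((P : Subgroup G) : Set G) with hM
  have hPM : (P : Subgroup G) ≤ M := Subgroup.le_normalizer
  -- the Sylow subgroup is central in its normalizer
  have hcent : ∀ x ∈ M, ∀ u ∈ (P : Subgroup G), x * u = u * x := by
    intro x hx u hu
    have h1 : x ∈ ((N ⊔ (P : Subgroup G) : Subgroup G) : Set G) := by rw [hsup]; simp
    rw [Subgroup.normal_mul] at h1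
    obtain ⟨n, hn, w, hw, rfl⟩ := Set.mem_mul.1 h1
    have hnM : n ∈ M := by
      have h2 : n = (n * w) * w⁻¹ := by group
      rw [h2]
      exact M.mul_mem hx (M.inv_mem (hPM hw))
    have h3 : n * u * n⁻¹ ∈ (P : Subgroup G) := (Subgroup.mem_normalizer_iff.1 hnM u).1 hu
    have h4 : n * u * n⁻¹ * u⁻¹ ∈ (P : Subgroup G) := (P : Subgroup G).mul_mem h3 ((P : Subgroup G).inv_mem hu)
    have h5 : n * u * n⁻¹ * u⁻¹ ∈ N := by
      have h6 : n * u * n⁻¹ * u⁻¹ = n * (u * n⁻¹ * u⁻¹) := by group
      rw [h6]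
      exact N.mul_mem hn (‹N.Normal›.conj_mem _ (N.inv_mem hn) u)
    have hdisj : Disjoint N (P : Subgroup G) := Subgroup.disjoint_of_coprime_natCard hcop
    have h7 : n * u * n⁻¹ * u⁻¹ = 1 := (Subgroup.disjoint_def.1 hdisj) h5 h4
    have h8 : n * u = u * n := by
      have h9 : n * u * n⁻¹ = u := by rwa [mul_inv_eq_one] at h7
      exact mul_inv_eq_iff_eq_mul.1 h9
    calc n * w * u = n * (w * u) := by group
      _ = n * (u * w) := by rw [hcomm w hw u hu]
      _ = (n * u) * w := by group
      _ = u * (n * w) := by rw [h8]; group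
  -- all degrees of `M` are prime to `p`
  have hdeg : ∀ η : IrrCharacter M, ¬ p ∣ charDegree (η : M → ℂ) := by
    intro η hd
    have h1 := degree_dvd_index_of_central η ((P : Subgroup G).subgroupOf M) (by
      intro z hz g
      apply Subtype.ext
      exact (hcent g g.2 z hz).symm)
    have h2 : ((P : Subgroup G).subgroupOf M).index ∣ (P : Subgroup G).index := by
      have h3 := Subgroup.relIndex_mul_index hPM
      exact ⟨M.index, by rw [← h3]; rfl⟩
    exact P.not_dvd_index (hd.trans (h1.trans h2))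
  have hX : Nat.card {χ : IrrCharacter G // ¬ p ∣ charDegree (χ : G → ℂ)} =
      Nat.card (ConjClasses M) := by
    have hsolv : Group.IsSolvable (P : Subgroup G) := by
      have := P.2.isNilpotent
      infer_instance
    have h1 := Cfsg.Agent.S4452.result N (P : Subgroup G) hsup hcop hsolv
    have h2 : Nat.card {χ : IrrCharacter G // ¬ p ∣ charDegree (χ : G → ℂ)} =
        Nat.card {χ : IrrCharacter G // (charDegree (χ : G → ℂ)).Coprime (Nat.card (P : Subgroup G))} :=
      Nat.card_congr (Equiv.subtypeEquivRight (fun χ => (hcoprime _).symm))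
    have h3 : Nat.card {η : IrrCharacter M // (charDegree (η : M → ℂ)).Coprime (Nat.card (P : Subgroup G))} =
        Nat.card (IrrCharacter M) :=
      Nat.card_congr (Equiv.subtypeUnivEquiv (fun η => (hcoprime _).2 (hdeg η)))
    rw [h2, h1, h3]
    exact card_irr_eq_card_conjClasses
  rw [hX]
  -- the bijection on classes
  have hsize : ∀ x : M, ¬ p ∣ Nat.card (ConjClasses.mk (x : G)).carrier := by
    intro x hd
    rw [Cfsg.Agent.Lib.PSL2.Unipotent.card_carrier_eq_index] at hd
    have h1 : (P : Subgroup G) ≤ Subgroup.centralizer ({(x : G)} : Set G) := by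
      intro u hu
      rw [Subgroup.mem_centralizer_singleton_iff]
      exact (hcent x x.2 u hu).symm
    exact P.not_dvd_index (hd.trans (Subgroup.index_dvd_of_le h1))
  let F : ConjClasses M → {C : ConjClasses G // ¬ p ∣ Nat.card C.carrier} := fun q =>
    ⟨ConjClasses.map M.subtype q, by
      obtain ⟨x, rfl⟩ := ConjClasses.mk_surjective q
      exact hsize x⟩
  have hF : Function.Bijective F := by
    constructor
    · intro q q' h
      obtain ⟨x, rfl⟩ := ConjClasses.mk_surjective q
      obtain ⟨y, rfl⟩ := ConjClasses.mk_surjective q'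
      have h1 : ConjClasses.mk (x : G) = ConjClasses.mk (y : G) := congrArg Subtype.val h
      rw [ConjClasses.mk_eq_mk_iff_isConj, isConj_iff] at h1
      obtain ⟨g, hg⟩ := h1
      obtain ⟨n, hn, hn2⟩ := Cfsg.Agent.Lib.Basic.SylowUtil.burnside_fusion P {(x : G)} g
        (by
          rintro _ rfl u hu
          exact hcent x x.2 u hu)
        (by
          rintro _ rfl u hu
          rw [hg]
          exact hcent y y.2 u hu)
      have h2 := hn2 x rfl
      rw [hg] at h2
      rw [ConjClasses.mk_eq_mk_iff_isConj, isConj_iff]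
      refine ⟨⟨n, hn⟩, Subtype.ext ?_⟩
      simpa using h2
    · rintro ⟨C, hC⟩
      obtain ⟨g, rfl⟩ := ConjClasses.mk_surjective C
      rw [Cfsg.Agent.Lib.PSL2.Unipotent.card_carrier_eq_index] at hC
      set Cg := Subgroup.centralizer ({g} : Set G) with hCg
      have hα : ¬ p ∣ Nat.card (G ⧸ Cg) := hC
      obtain ⟨q, hq⟩ := P.2.nonempty_fixed_point_of_prime_not_dvd_card (G ⧸ Cg) hα
      obtain ⟨h, rfl⟩ := QuotientGroup.mk_surjective q
      have hfix : ∀ u ∈ (P : Subgroup G), h⁻¹ * u * h ∈ Cg := by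
        intro u hu
        have h1 := hq ⟨u, hu⟩
        have h2 : ((u * h : G) : G ⧸ Cg) = (h : G ⧸ Cg) := h1
        rw [QuotientGroup.eq] at h2
        have h3 : (u * h)⁻¹ * h ∈ Cg := h2
        have h4 : h⁻¹ * u * h = ((u * h)⁻¹ * h)⁻¹ := by group
        rw [h4]
        exact Cg.inv_mem h3
      have hg' : h * g * h⁻¹ ∈ M := by
        rw [hM, Subgroup.mem_normalizer_iff]
        intro u
        have hc : ∀ u ∈ (P : Subgroup G), (h * g * h⁻¹) * u * (h * g * h⁻¹)⁻¹ = u := by
          intro u hu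
          have h1 := Subgroup.mem_centralizer_singleton_iff.1 (hfix u hu)
          calc (h * g * h⁻¹) * u * (h * g * h⁻¹)⁻¹
              = h * (g * (h⁻¹ * u * h) * g⁻¹) * h⁻¹ := by group
            _ = h * ((h⁻¹ * u * h) * g * g⁻¹) * h⁻¹ := by rw [← h1]
            _ = u := by group
        constructor
        · intro hu
          rw [hc u hu]
          exact hu
        · intro hu
          have h1 := hc _ hu
          have h2 : (h * g * h⁻¹) * u * (h * g * h⁻¹)⁻¹ = u := by
            have h3 := congrArg (fun z => (h * g * h⁻¹)⁻¹ * z * (h * g * h⁻¹)) h1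
            simpa [mul_assoc] using h3
          rw [h2] at hu
          exact hu
      refine ⟨ConjClasses.mk ⟨h * g * h⁻¹, hg'⟩, Subtype.ext ?_⟩
      show ConjClasses.mk (h * g * h⁻¹) = ConjClasses.mk g
      rw [ConjClasses.mk_eq_mk_iff_isConj, isConj_iff]
      exact ⟨h⁻¹, by group⟩
  exact Nat.card_congr (Equiv.ofBijective F hF)

end CaseA



section CaseB

variable {G : Type*} [Group G] [Finite G] {p : ℕ} [hp : Fact p.Prime]

/-- A nonabelian Sylow subgroup forces the normal complement to be trivial. -/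
theorem eq_bot_of_not_comm (N : Subgroup G) [hNn : N.Normal] (P : Sylow p G)
    (hc : N.IsComplement' (P : Subgroup G)) (hN : (Nat.card N).Coprime p)
    (hidx : ∃ k : ℕ, N.index = p ^ k)
    (hone : Nat.card {χ : IrrCharacter G // p ∣ charDegree (χ : G → ℂ)} = 1)
    (hnc : ¬ ∀ a ∈ (P : Subgroup G), ∀ b ∈ (P : Subgroup G), a * b = b * a) : N = ⊥ := by
  classical
  cases nonempty_fintype G
  have : Fintype N := Fintype.ofFinite _
  by_contra hNbot
  obtain ⟨k, hk⟩ := hidx
  -- a nonlinear character of `P`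
  have hex : ∃ τ : IrrCharacter (P : Subgroup G), (τ : ↥(P : Subgroup G) → ℂ) 1 ≠ 1 := by
    by_contra hall
    push Not at hall
    apply hnc
    intro a ha b hb
    have := Cfsg.Agent.Lib.Char.ItoMichler.mul_comm_of_forall_degree_one hall ⟨a, ha⟩ ⟨b, hb⟩
    exact congrArg Subtype.val this
  obtain ⟨τ, hτ⟩ := hex
  obtain ⟨j, hj⟩ := IsPGroup.iff_card.1 P.2
  have hpτ : p ∣ charDegree (τ : ↥(P : Subgroup G) → ℂ) := by
    obtain ⟨f, n, ρ, hirr, hf⟩ := τ
    subst hf
    have := hirr
    have h1 := Cfsg.Agent.Lib.Char.Integrality.finrank_dvd_card ρ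
    have h2 : charDegree ρ.character = Module.finrank ℂ (Fin n → ℂ) := by
      have h4 := IsCharacter.charDegree_cast (χ := ρ.character) ⟨n, ρ, rfl⟩
      rw [Representation.char_one] at h4
      exact_mod_cast h4
    show p ∣ charDegree ρ.character
    rw [h2]
    rw [hj] at h1
    obtain ⟨i, -, hi⟩ := (Nat.dvd_prime_pow hp.out).1 h1
    rw [hi]
    have hi0 : i ≠ 0 := by
      rintro rfl
      apply hτ
      show ρ.character 1 = 1
      rw [Representation.char_one, hi]
      simp
    exact dvd_pow_self p hi0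
  -- the inflation
  set r := retr hc with hr
  have hrs : Function.Surjective r := fun h => ⟨(h : G), retr_coe hc h⟩
  let τ' : IrrCharacter G := ⟨fun g => (τ : ↥(P : Subgroup G) → ℂ) (r g),
    isIrrCharacter_comp_surjective τ.2 r hrs⟩
  have hτ'N : ∀ n : N, (τ' : G → ℂ) n = (τ : ↥(P : Subgroup G) → ℂ) 1 := by
    intro n
    show (τ : ↥(P : Subgroup G) → ℂ) (r n) = _
    rw [hr, retr_of_mem hc n.2]
  have hτ'deg : charDegree (τ' : G → ℂ) = charDegree (τ : ↥(P : Subgroup G) → ℂ) := by
    have h1 := degree_cast τ'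
    have h2 := degree_cast τ
    have h3 : (τ' : G → ℂ) 1 = (τ : ↥(P : Subgroup G) → ℂ) 1 := by
      show (τ : ↥(P : Subgroup G) → ℂ) (r 1) = _
      rw [map_one]
    rw [h3, ← h2] at h1
    exact_mod_cast h1
  have huniq : ∀ χ : IrrCharacter G, p ∣ charDegree (χ : G → ℂ) → χ = τ' := by
    intro χ hχ
    have h1 : Subsingleton {χ : IrrCharacter G // p ∣ charDegree (χ : G → ℂ)} :=
      (Nat.card_eq_one_iff_unique.1 hone).1
    have h2 := h1.elim ⟨χ, hχ⟩ ⟨τ', by rw [hτ'deg]; exact hpτ⟩
    exact congrArg Subtype.val h2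
  -- a nontrivial character of `N`
  obtain ⟨n₀, hn₀, hn₀1⟩ : ∃ n ∈ N, n ≠ 1 := by
    by_contra hall
    push Not at hall
    exact hNbot ((Subgroup.eq_bot_iff_forall N).2 hall)
  have hex2 : ∃ α : IrrCharacter N, (α : N → ℂ) ⟨n₀, hn₀⟩ ≠ (α : N → ℂ) 1 := by
    by_contra hall
    push Not at hall
    have h1 := isConj_of_forall_irr hall
    have h2 : (⟨n₀, hn₀⟩ : N) = 1 := isConj_one_right.1 h1.symm
    exact hn₀1 (congrArg Subtype.val h2)
  obtain ⟨α, hα⟩ := hex2
  have hαne : (α : N → ℂ) ≠ fun _ => 1 := by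
    intro h
    apply hα
    rw [h]
  have hτ1 : (τ : ↥(P : Subgroup G) → ℂ) 1 ≠ 0 := irr_apply_one_ne_zero τ.2
  -- orthogonality with the trivial character
  have horth : classInner (fun _ : N => (1 : ℂ)) (α : N → ℂ) = 0 :=
    classInner_irr_of_ne Cfsg.Agent.Lib.Char.Burnside2.isIrrCharacter_one α.2 (Ne.symm hαne)
  have hαc := isClassFunction_of_isCharacter (isCharacter_of_isIrrCharacter α.2)
  -- step one: invariance
  have hinv : ∀ (g : G) (n : N), (α : N → ℂ) ⟨g * n * g⁻¹, hNn.conj_mem (n : G) n.2 g⟩ = (α : N → ℂ) n := by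
    by_contra hnot
    obtain ⟨χ, hχ, hne⟩ := Cfsg.Agent.Lib.Char.ItoMichler.exists_irr_over N α.2
    set I := Cfsg.Agent.Lib.Char.Monomial.inertiaOf N (α : N → ℂ) with hI
    have hdeg := Cfsg.Agent.Lib.Char.CliffordCorr.apply_one_eq N (α : N → ℂ) I α.2
      (fun g => Cfsg.Agent.Lib.Char.Monomial.mem_inertiaOf N (α : N → ℂ) g) hχ hne
    obtain ⟨e, he⟩ := exists_nat_classInner_of_isCharacter
      (isCharacter_restrict (isCharacter_of_isIrrCharacter hχ) N) (isCharacter_of_isIrrCharacter α.2)
    have hNI : N ≤ I := by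
      intro n hn
      rw [hI, Cfsg.Agent.Lib.Char.Monomial.mem_inertiaOf]
      intro m
      have h1 := hαc m ⟨n, hn⟩
      exact h1
    have hIne : I ≠ ⊤ := by
      intro h
      apply hnot
      intro g n
      have h1 : g ∈ I := by rw [h]; trivial
      exact ((Cfsg.Agent.Lib.Char.Monomial.mem_inertiaOf N (α : N → ℂ) g).1 h1) n
    have h1 : I.index ∣ p ^ k := hk ▸ Subgroup.index_dvd_of_le hNI
    obtain ⟨i, -, hi⟩ := (Nat.dvd_prime_pow hp.out).1 h1
    have hi0 : i ≠ 0 := by
      rintro rfl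
      rw [pow_zero] at hi
      exact hIne (Subgroup.index_eq_one.1 hi)
    have hpI : p ∣ I.index := by
      rw [hi]
      exact dvd_pow_self p hi0
    have hχdeg : p ∣ charDegree (χ : G → ℂ) := by
      have h2 := degree_cast ⟨χ, hχ⟩
      have h3 := degree_cast α
      simp only at h2
      rw [hdeg, he, ← h3] at h2
      have h4 : charDegree χ = e * (I.index * charDegree (α : N → ℂ)) := by exact_mod_cast h2
      rw [h4]
      exact Dvd.dvd.mul_left (Dvd.dvd.mul_right hpI _) _
    have h5 := huniq ⟨χ, hχ⟩ hχdeg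
    apply hne
    have h6 : χ = (τ' : G → ℂ) := congrArg Subtype.val h5
    have h7 : (fun n : N => χ n) = ((τ : ↥(P : Subgroup G) → ℂ) 1) • (fun _ : N => (1 : ℂ)) := by
      funext n
      rw [h6, hτ'N]
      simp
    rw [h7, classInner_smul_left, horth, mul_zero]
  -- step two: extension
  have hcop : Nat.Coprime (Nat.card N) N.index := by
    rw [hk]
    exact Nat.Coprime.pow_right k hN
  obtain ⟨α', hα', hαext⟩ := exists_ext_of_coprime N hcop α.2 hinv
  have hprod : IsIrrCharacter N ((fun _ : N => (1 : ℂ)) * (α : N → ℂ)) := by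
    have h1 : (fun _ : N => (1 : ℂ)) * (α : N → ℂ) = (α : N → ℂ) := by
      funext n
      simp
    rw [h1]
    exact α.2
  have hgal := Cfsg.Agent.Lib.Char.Gallagher.gallagher_bijOn N
    (φ := fun _ : N => (1 : ℂ)) (ϑ := (α : N → ℂ)) Cfsg.Agent.Lib.Char.Burnside2.isIrrCharacter_one
    (fun _ _ => rfl) hinv hprod hα' hαext
  have hτmem : (τ' : G → ℂ) ∈ {β : G → ℂ | IsIrrCharacter G β ∧
      classInner (indFun N (fun _ : N => (1 : ℂ))) β ≠ 0} := by
    refine ⟨τ'.2, ?_⟩
    rw [Cfsg.Agent.Lib.Char.Induced.frobenius_reciprocity N _ _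
      (isClassFunction_of_isCharacter (isCharacter_of_isIrrCharacter τ'.2))]
    have h7 : (fun n : N => (τ' : G → ℂ) n) = ((τ : ↥(P : Subgroup G) → ℂ) 1) • (fun _ : N => (1 : ℂ)) := by
      funext n
      rw [hτ'N]
      simp
    rw [h7, classInner_smul_right]
    have h8 : classInner (fun _ : N => (1 : ℂ)) (fun _ : N => (1 : ℂ)) = 1 :=
      classInner_irr_self Cfsg.Agent.Lib.Char.Burnside2.isIrrCharacter_one
    rw [h8, mul_one]
    exact (map_ne_zero _).2 hτ1
  have hirr := (hgal.mapsTo hτmem).1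
  -- the product has degree divisible by `p`
  have hξdeg : p ∣ charDegree ((⟨(τ' : G → ℂ) * α', hirr⟩ : IrrCharacter G) : G → ℂ) := by
    have h2 := degree_cast ⟨(τ' : G → ℂ) * α', hirr⟩
    have h3 := degree_cast τ'
    have h4 := degree_cast ⟨α', hα'⟩
    simp only [Pi.mul_apply] at h2
    simp only at h4
    rw [← h3, ← h4] at h2
    have h5 : charDegree ((τ' : G → ℂ) * α') = charDegree (τ' : G → ℂ) * charDegree α' := by
      exact_mod_cast h2
    show p ∣ charDegree ((τ' : G → ℂ) * α')
    rw [h5, hτ'deg]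
    exact Dvd.dvd.mul_right hpτ _
  have h6 := huniq _ hξdeg
  have h7 : (τ' : G → ℂ) * α' = (τ' : G → ℂ) := congrArg Subtype.val h6
  apply hαne
  funext n
  have h8 := congrFun h7 n
  simp only [Pi.mul_apply, hτ'N, hαext] at h8
  exact mul_left_cancel₀ hτ1 (h8.trans (mul_one _).symm)

end CaseB

/-- Let p be a prime and G a finite group that is not nilpotent and has a normal p-complement (a normal subgroup of order prime to p and index a power of p). If G has exactly one irreducible complex character of degree divisible by p, then G has exactly one conjugacy class whose size is divisible by p. -/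
theorem result {G : Type*} [Group G] [Finite G] (p : ℕ) [Fact p.Prime] (hnil : ¬ Group.IsNilpotent G) (N : Subgroup G) [N.Normal] (hN : (Nat.card N).Coprime p) (hidx : ∃ k : ℕ, N.index = p ^ k) (hone : Nat.card {χ : Cfsg.IrrCharacter G // p ∣ Cfsg.charDegree (χ : G → ℂ)} = 1) : Nat.card {C : ConjClasses G // p ∣ Nat.card C.carrier} = 1 := by
  classical
  have hG : Nat.card G = Nat.card N * N.index := (Subgroup.card_mul_index N).symm
  obtain ⟨P⟩ : Nonempty (Sylow p G) := inferInstance
  obtain ⟨k, hk⟩ := hidx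
  -- the order of a Sylow subgroup
  have hPcard : Nat.card (P : Subgroup G) = p ^ k := by
    rw [P.card_eq_multiplicity, hG, hk, Nat.factorization_mul (Nat.card_pos.ne') (pow_ne_zero _ (Fact.out : p.Prime).ne_zero),
      Nat.Prime.factorization_pow (Fact.out : p.Prime)]
    have h1 : (Nat.card N).factorization p = 0 :=
      Nat.factorization_eq_zero_of_not_dvd (fun h => by
        have h2 := Nat.dvd_gcd h (dvd_refl p)
        rw [hN] at h2
        exact (Fact.out : p.Prime).one_lt.ne' (Nat.dvd_one.1 h2))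
    simp [h1]
  have hcop : (Nat.card N).Coprime (Nat.card (P : Subgroup G)) := by
    rw [hPcard]
    exact Nat.Coprime.pow_right k hN
  have hc : N.IsComplement' (P : Subgroup G) := Subgroup.isComplement'_of_coprime
    (by rw [hPcard, ← hk, Subgroup.card_mul_index]) hcop
  have hsup : N ⊔ (P : Subgroup G) = ⊤ := hc.sup_eq_top
  by_cases hcomm : ∀ a ∈ (P : Subgroup G), ∀ b ∈ (P : Subgroup G), a * b = b * a
  · -- the abelian case
    have hP1 : (P : Subgroup G) ≠ ⊥ := by
      intro hbot
      have h1 : Nat.card (P : Subgroup G) = 1 := by rw [hbot]; simp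
      obtain ⟨χ⟩ := (Nat.card_eq_one_iff_unique.1 hone).2
      have h2 : charDegree (χ.1 : G → ℂ) ∣ Nat.card G := by
        obtain ⟨⟨f, n, ρ, hirr, hf⟩, hχ⟩ := χ
        subst hf
        have := hirr
        have h3 := Cfsg.Agent.Lib.Char.Integrality.finrank_dvd_card ρ
        have h4 : charDegree ρ.character = Module.finrank ℂ (Fin n → ℂ) := by
          have h4 := IsCharacter.charDegree_cast (χ := ρ.character) ⟨n, ρ, rfl⟩
          rw [Representation.char_one] at h4
          exact_mod_cast h4
        show charDegree ρ.character ∣ _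
        rw [h4]
        exact h3
      have h3 : p ∣ Nat.card G := χ.2.trans h2
      have h4 : p ^ k = 1 := hPcard.symm.trans h1
      rw [hG, hk, h4, mul_one] at h3
      have h5 := Nat.dvd_gcd h3 (dvd_refl p)
      rw [hN] at h5
      exact (Fact.out : p.Prime).one_lt.ne' (Nat.dvd_one.1 h5)
    have h1 := card_eq_of_comm N P hsup hcop hcomm hP1
    have h2 : Nat.card (IrrCharacter G) = Nat.card (ConjClasses G) := card_irr_eq_card_conjClasses
    have h3 : Nat.card (IrrCharacter G) = Nat.card {χ : IrrCharacter G // p ∣ charDegree (χ : G → ℂ)} +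
        Nat.card {χ : IrrCharacter G // ¬ p ∣ charDegree (χ : G → ℂ)} := by
      rw [← Nat.card_sum]
      exact Nat.card_congr (Equiv.sumCompl _).symm
    have h4 : Nat.card (ConjClasses G) = Nat.card {C : ConjClasses G // p ∣ Nat.card C.carrier} +
        Nat.card {C : ConjClasses G // ¬ p ∣ Nat.card C.carrier} := by
      rw [← Nat.card_sum]
      exact Nat.card_congr (Equiv.sumCompl _).symm
    rw [h3, h4, hone, h1] at h2
    omega
  · -- the nonabelian case does not occur
    exfalso
    have h1 := eq_bot_of_not_comm N P hc hN ⟨k, hk⟩ hone hcomm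
    apply hnil
    have h2 : (P : Subgroup G) = ⊤ := by
      rw [h1, bot_sup_eq] at hsup
      exact hsup
    have h3 : IsPGroup p G := by
      intro g
      obtain ⟨j, hj⟩ := P.2 ⟨g, by rw [h2]; exact Subgroup.mem_top g⟩
      exact ⟨j, by simpa using congrArg Subtype.val hj⟩
    exact h3.isNilpotent

end Cfsg.Agent.S4763
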