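import Cfsg.Statements.S4765
import Mathlib
import Cfsg.Agent.Lib.Char.SL2Half
import Cfsg.Agent.Lib.Char.QuotRep

set_option autoImplicit false
open Cfsg
open Cfsg.Agent.Lib.Char.SL2Irr Cfsg.Agent.Lib.Char.GL2Values Cfsg.Agent.Lib.Char.GL2Principal
open Cfsg.Agent.Lib.Char.Codegree Cfsg.Agent.Lib.Char.QuotRep Cfsg.Agent.Lib.Char.Basic
open Matrix.SpecialLinearGroup (toGL)
open scoped MatrixGroups Matrix.SpecialLinearGroup

namespace Cfsg.Agent.S4765

theorem StS_neg_one {F : Type*} [Field F] [Fintype F] [DecidableEq F] :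
    (StS : SL(2, F) → ℂ) (-1) = (Fintype.card F : ℂ) := by
  unfold StS
  rw [Pi.sub_apply, ← Cfsg.Agent.Lib.Char.SL2Split.ind_res,
    ind_scalar 1 1 (toGL (-1 : SL(2, F))) (-1) (by
      ext i j
      fin_cases i <;> fin_cases j <;> simp [toGL])]
  rw [MulChar.one_apply (isUnit_iff_ne_zero.2 (neg_ne_zero.2 one_ne_zero))]
  simp

theorem degree_eq {G : Type*} [Group G] {χ : G → ℂ} (hχ : IsIrrCharacter G χ) :
    χ 1 = (charDegree χ : ℂ) := by
  obtain ⟨n, ρ, hρ, rfl⟩ := hχ
  have hdeg : charDegree ρ.character = n := by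
    unfold charDegree
    rw [Representation.char_one]
    simp
  rw [hdeg, Representation.char_one]
  simp

/-- Let F be a finite field of characteristic p with at least 4 elements. Then PSL(2,F) has exactly one irreducible complex character of degree divisible by p, and its degree is the order of F. -/
theorem result (p : ℕ) [Fact p.Prime] (F : Type*) [Field F] [Fintype F] [CharP F p] (hF : 4 ≤ Fintype.card F) : Nat.card {χ : Cfsg.IrrCharacter (Matrix.ProjectiveSpecialLinearGroup (Fin 2) F) // p ∣ Cfsg.charDegree (χ : Matrix.ProjectiveSpecialLinearGroup (Fin 2) F → ℂ)} = 1 ∧ ∀ χ : Cfsg.IrrCharacter (Matrix.ProjectiveSpecialLinearGroup (Fin 2) F), p ∣ Cfsg.charDegree (χ : Matrix.ProjectiveSpecialLinearGroup (Fin 2) F → ℂ) → Cfsg.charDegree (χ : Matrix.ProjectiveSpecialLinearGroup (Fin 2) F → ℂ) = Fintype.card F := by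
  classical
  have hpq : p ∣ Fintype.card F := by
    have := FiniteField.cast_card_eq_zero F
    exact (CharP.cast_eq_zero_iff F p _).1 this
  have hp : p.Prime := Fact.out
  have hp1 : ¬ p ∣ 1 := hp.one_lt.ne' ∘ Nat.dvd_one.1
  let N := Subgroup.center SL(2, F)
  let π : SL(2, F) →* Matrix.ProjectiveSpecialLinearGroup (Fin 2) F := QuotientGroup.mk' N
  have hsurj : Function.Surjective π := QuotientGroup.mk'_surjective N
  have key : ∀ χ : IrrCharacter (Matrix.ProjectiveSpecialLinearGroup (Fin 2) F),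
      p ∣ charDegree (χ : Matrix.ProjectiveSpecialLinearGroup (Fin 2) F → ℂ) →
      charDegree (χ : Matrix.ProjectiveSpecialLinearGroup (Fin 2) F → ℂ) = Fintype.card F ∧
        (fun s => χ.1 (π s)) = StS := by
    intro χ hdvd
    have h1 : IsIrrCharacter SL(2, F) (fun s => χ.1 (π s)) :=
      isIrrCharacter_comp_surjective χ.2 π hsurj
    have h2 : (fun s => χ.1 (π s)) 1 = (charDegree χ.1 : ℂ) := by
      simp only [map_one]
      exact degree_eq χ.2
    set d := charDegree χ.1 with hd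
    rcases irrS_cases_nat h1 h2 with h | h | h | h | h | h
    · rw [h.1] at hdvd
      exact absurd hdvd hp1
    · exact h
    · exfalso
      apply hp1
      have h3 : p ∣ Fintype.card F + 1 := h.1 ▸ hdvd
      exact (Nat.dvd_add_right hpq).1 h3
    · exfalso
      apply hp1
      have h3 : p ∣ Fintype.card F + 1 := h.1 ▸ Dvd.dvd.mul_left hdvd 2
      exact (Nat.dvd_add_right hpq).1 h3
    · exfalso
      apply hp1
      rw [← h.1] at hpq
      exact (Nat.dvd_add_right hdvd).1 hpq
    · exfalso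
      apply hp1
      rw [← h.1] at hpq
      exact (Nat.dvd_add_right (Dvd.dvd.mul_left hdvd 2)).1 hpq
  refine ⟨?_, fun χ hχ => (key χ hχ).1⟩
  obtain ⟨n, ρ, hρ, hρc⟩ := isIrr_StS (F := F)
  have hN : ∀ g ∈ N, ρ g = 1 := by
    intro g hg
    have h3 := (Cfsg.Agent.Lib.PSL2.Basic.mem_center_iff₂).1 hg
    have h4 : g ∈ repKer ρ := by
      rw [← character_eq_one_iff, hρc]
      rcases h3 with rfl | rfl
      · rfl
      · rw [StS_neg_one, StS_one]
    exact h4
  have hχ₀ : IsIrrCharacter (Matrix.ProjectiveSpecialLinearGroup (Fin 2) F)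
      (quotRep ρ N hN).character := ⟨n, quotRep ρ N hN, quotRep_isIrreducible ρ N hN, rfl⟩
  have hχ₀s : ∀ s, (quotRep ρ N hN).character (π s) = StS s := by
    intro s
    rw [← hρc]
    rfl
  have hdeg₀ : charDegree (quotRep ρ N hN).character = Fintype.card F := by
    unfold charDegree
    have : (quotRep ρ N hN).character 1 = (StS : SL(2, F) → ℂ) 1 := by
      rw [← hχ₀s, map_one]
    rw [this, StS_one]
    simp
  refine Nat.card_eq_one_iff_unique.2 ⟨⟨?_⟩, ⟨⟨⟨_, hχ₀⟩, ?_⟩⟩⟩
  · rintro ⟨χ₁, h₁⟩ ⟨χ₂, h₂⟩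
    have e₁ := (key χ₁ h₁).2
    have e₂ := (key χ₂ h₂).2
    apply Subtype.ext
    apply Subtype.ext
    funext z
    obtain ⟨s, rfl⟩ := hsurj z
    have := congrFun (e₁.trans e₂.symm) s
    exact this
  · show p ∣ charDegree (quotRep ρ N hN).character
    rw [hdeg₀]
    exact hpq

end Cfsg.Agent.S4765
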