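import Mathlib
import Cfsg.Prelude.Def_DegreeGraph
import Cfsg.Agent.Lib.Char.SL2Degrees

set_option autoImplicit false

open Cfsg Cfsg.Agent.Lib.Char.SL2Degrees
open scoped MatrixGroups

namespace Cfsg.Agent.S4774

theorem sq_sub_one_eq (q : ℕ) (h : 1 ≤ q) : q ^ 2 - 1 = (q - 1) * (q + 1) := by
  obtain ⟨k, rfl⟩ : ∃ k, q = k + 1 := ⟨q - 1, by omega⟩
  rw [Nat.add_sub_cancel]
  apply Nat.sub_eq_of_eq_add
  ring

theorem result (F : Type*) [Field F] [Fintype F] (t : ℕ) [Fact t.Prime] [CharP F t] (ht : t ≠ 2) (q : ℕ) (hq : Fintype.card F = q) (h5 : 5 < q) {S : Type*} [Group S] [Finite S] (hS : Nonempty (S ≃* Matrix.ProjectiveSpecialLinearGroup (Fin 2) F) ∨ Nonempty (S ≃* Matrix.SpecialLinearGroup (Fin 2) F)) : Cfsg.degreePrimes S = {r : ℕ | r.Prime ∧ r ∣ q * (q ^ 2 - 1)} ∧ ∀ r s : ℕ, (Cfsg.degreeGraph S).Adj r s ↔ (r ≠ s ∧ r.Prime ∧ s.Prime ∧ r ∣ q ^ 2 - 1 ∧ s ∣ q ^ 2 - 1 ∧ (r = 2 ∨ s = 2 ∨ (r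 ∣ q + 1 ∧ s ∣ q + 1) ∨ (r ∣ q - 1 ∧ s ∣ q - 1))) := by
  classical
  have ht0 : t.Prime := Fact.out
  have hch : ringChar F ≠ 2 := by
    rw [ringChar.eq F t]
    exact ht
  have hq6 : 6 ≤ Fintype.card F := by omega
  have hq5 : 5 ≤ Fintype.card F := by omega
  obtain ⟨hsub, hq0, hqp, hqm⟩ : charDegrees S ⊆ charDegrees (SL(2, F)) ∧ q ∈ charDegrees S ∧
      q + 1 ∈ charDegrees S ∧ q - 1 ∈ charDegrees S := by
    rcases hS with ⟨⟨e⟩⟩ | ⟨⟨e⟩⟩
    · rw [charDegrees_congr e, ← hq]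
      exact ⟨psl_subset, q_mem_psl, qp_mem_psl hq6, qm_mem_psl hch hq5⟩
    · rw [charDegrees_congr e, ← hq]
      exact ⟨subset_rfl, q_mem, qp_mem hq6, qm_mem hch hq5⟩
  obtain ⟨n, -, hn⟩ := FiniteField.card F t
  rw [hq] at hn
  have hprime : ∀ r : ℕ, r.Prime → r ∣ q → r = t := by
    intro r hr h
    rw [hn] at h
    exact (Nat.prime_dvd_prime_iff_eq hr ht0).1 (hr.dvd_of_dvd_pow h)
  have hodd : ¬ 2 ∣ q := fun h => ht (hprime 2 Nat.prime_two h).symm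
  have hlist : ∀ d ∈ charDegrees S, d = 1 ∨ d = q ∨ d ∣ q + 1 ∨ d ∣ q - 1 := by
    intro d hd
    have := deg_list d (hsub hd)
    rw [hq] at this
    rcases this with h | h | h | h | h | h
    · exact Or.inl h
    · exact Or.inr (Or.inl h)
    · subst h
      exact Or.inr (Or.inr (Or.inl dvd_rfl))
    · exact Or.inr (Or.inr (Or.inl ⟨2, by omega⟩))
    · have : d = q - 1 := by omega
      subst this
      exact Or.inr (Or.inr (Or.inr dvd_rfl))
    · exact Or.inr (Or.inr (Or.inr ⟨2, by omega⟩))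
  have h2p : 2 ∣ q + 1 := by omega
  have h2m : 2 ∣ q - 1 := by omega
  have hfact : ∀ r : ℕ, r.Prime → r ∣ q ^ 2 - 1 → r ∣ q - 1 ∨ r ∣ q + 1 := by
    intro r hr h
    rw [sq_sub_one_eq q (by omega)] at h
    exact hr.dvd_mul.1 h
  have hm2 : ∀ r : ℕ, r ∣ q - 1 → r ∣ q ^ 2 - 1 := by
    intro r h
    rw [sq_sub_one_eq q (by omega)]
    exact h.trans (dvd_mul_right _ _)
  have hp2 : ∀ r : ℕ, r ∣ q + 1 → r ∣ q ^ 2 - 1 := by
    intro r h
    rw [sq_sub_one_eq q (by omega)]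
    exact h.trans (dvd_mul_left _ _)
  refine ⟨?_, ?_⟩
  · ext r
    constructor
    · rintro ⟨hr, d, hd, hrd⟩
      refine ⟨hr, ?_⟩
      rcases hlist d hd with rfl | rfl | h | h
      · exact absurd (Nat.dvd_one.1 hrd) hr.one_lt.ne'
      · exact hrd.trans (dvd_mul_right _ _)
      · exact (hp2 r (hrd.trans h)).trans (dvd_mul_left _ _)
      · exact (hm2 r (hrd.trans h)).trans (dvd_mul_left _ _)
    · rintro ⟨hr, h⟩
      refine ⟨hr, ?_⟩
      rcases hr.dvd_mul.1 h with h | h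
      · exact ⟨q, hq0, h⟩
      · rcases hfact r hr h with h | h
        · exact ⟨q - 1, hqm, h⟩
        · exact ⟨q + 1, hqp, h⟩
  · intro r s
    constructor
    · rintro ⟨hne, hr, hs, d, hd, hrs⟩
      have hrd : r ∣ d := (dvd_mul_right _ _).trans hrs
      have hsd : s ∣ d := (dvd_mul_left _ _).trans hrs
      rcases hlist d hd with rfl | rfl | h | h
      · exact absurd (Nat.dvd_one.1 hrd) hr.one_lt.ne'
      · exact absurd ((hprime r hr hrd).trans (hprime s hs hsd).symm) hne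
      · exact ⟨hne, hr, hs, hp2 r (hrd.trans h), hp2 s (hsd.trans h),
          Or.inr (Or.inr (Or.inl ⟨hrd.trans h, hsd.trans h⟩))⟩
      · exact ⟨hne, hr, hs, hm2 r (hrd.trans h), hm2 s (hsd.trans h),
          Or.inr (Or.inr (Or.inr ⟨hrd.trans h, hsd.trans h⟩))⟩
    · rintro ⟨hne, hr, hs, hr2, hs2, h⟩
      have hcop := (Nat.coprime_primes hr hs).2 hne
      refine ⟨hne, hr, hs, ?_⟩
      have hp : r ∣ q + 1 ∧ s ∣ q + 1 → ∃ d ∈ charDegrees S, r * s ∣ d := fun h =>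
        ⟨q + 1, hqp, hcop.mul_dvd_of_dvd_of_dvd h.1 h.2⟩
      have hm : r ∣ q - 1 ∧ s ∣ q - 1 → ∃ d ∈ charDegrees S, r * s ∣ d := fun h =>
        ⟨q - 1, hqm, hcop.mul_dvd_of_dvd_of_dvd h.1 h.2⟩
      rcases h with rfl | rfl | h | h
      · rcases hfact s hs hs2 with h | h
        · exact hm ⟨h2m, h⟩
        · exact hp ⟨h2p, h⟩
      · rcases hfact r hr hr2 with h | h
        · exact hm ⟨h, h2m⟩
        · exact hp ⟨h, h2p⟩
      · exact hp h
      · exact hm h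

end Cfsg.Agent.S4774
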