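import Cfsg.Statements.S4775
import Mathlib
import Cfsg.Agent.Lib.SzChar.Main
import Cfsg.Agent.Lib.Char.SL2Degrees
import Cfsg.Agent.Lib.Suzuki.Iso
-- import your own Cfsg.Agent.* helpers here

set_option autoImplicit false
open Cfsg

namespace Cfsg.Agent.S4775

theorem two_of_dvd_pow {p k : ℕ} (hp : p.Prime) (h : p ∣ 2 ^ k) : p = 2 :=
  (Nat.prime_dvd_prime_iff_eq hp Nat.prime_two).mp (hp.dvd_of_dvd_pow h)

theorem graph_of_degrees (m q : ℕ) (hm : 1 ≤ m) (hqm : q = 2 ^ (2 * m + 1)) (D : Set ℕ)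
    (D1 : ∀ d ∈ D, d = 1 ∨ d = q ^ 2 ∨ d = 2 ^ m * (q - 1) ∨ d = q ^ 2 + 1 ∨
      d = (q - 1) * (q + 1 - 2 ^ (m + 1)) ∨ d = (q - 1) * (q + 1 + 2 ^ (m + 1)))
    (hq2 : q ^ 2 ∈ D) (ht : 2 ^ m * (q - 1) ∈ D) (hq21 : q ^ 2 + 1 ∈ D)
    (ha2 : (q - 1) * (q + 1 - 2 ^ (m + 1)) ∈ D) (ha1 : (q - 1) * (q + 1 + 2 ^ (m + 1)) ∈ D) :
    {p : ℕ | p.Prime ∧ ∃ d ∈ D, p ∣ d} = {r : ℕ | r.Prime ∧ (r = 2 ∨ r ∣ (q - 1) * (q ^ 2 + 1))} ∧
    ∀ r s : ℕ, (r ≠ s ∧ r.Prime ∧ s.Prime ∧ ∃ d ∈ D, r * s ∣ d) ↔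
      (r ≠ s ∧ r.Prime ∧ s.Prime ∧ ((r ∣ (q - 1) * (q ^ 2 + 1) ∧ s ∣ (q - 1) * (q ^ 2 + 1)) ∨
        (r = 2 ∧ s ∣ q - 1) ∨ (s = 2 ∧ r ∣ q - 1))) := by
  set r₀ := 2 ^ (m + 1) with hr₀
  have hrr : r₀ * r₀ = 2 * q := by
    rw [hr₀, hqm, ← pow_add, ← pow_succ']
    congr 1
    ring
  have hle : r₀ ≤ q + 1 := by
    rw [hr₀, hqm]
    have : 2 ^ (m + 1) ≤ 2 ^ (2 * m + 1) := Nat.pow_le_pow_right (by norm_num) (by omega)
    omega
  obtain ⟨a₂, ha₂⟩ : ∃ a₂, q + 1 = a₂ + r₀ := ⟨q + 1 - r₀, by omega⟩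
  have ha₂' : q + 1 - r₀ = a₂ := by omega
  rw [ha₂'] at D1 ha2
  have hprod : q ^ 2 + 1 = a₂ * (q + 1 + r₀) := by
    have h1 : (q + 1) ^ 2 = (a₂ + r₀) ^ 2 := by rw [ha₂]
    have h2 : a₂ * (q + 1 + r₀) = a₂ * (a₂ + 2 * r₀) := by
      rw [ha₂]
      ring
    rw [h2]
    nlinarith
  set a₁ := q + 1 + r₀ with ha₁'
  set Q := (q - 1) * (q ^ 2 + 1) with hQ
  have hd1 : (q - 1) * a₁ ∣ Q := by
    rw [hQ, hprod, mul_comm a₂ a₁]
    exact mul_dvd_mul_left _ (dvd_mul_right _ _)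
  have hd2 : (q - 1) * a₂ ∣ Q := by
    rw [hQ, hprod]
    exact mul_dvd_mul_left _ (dvd_mul_right _ _)
  have hd3 : q ^ 2 + 1 ∣ Q := dvd_mul_left _ _
  have hd4 : q - 1 ∣ Q := dvd_mul_right _ _
  have hq2pow : ∀ {p : ℕ}, p.Prime → p ∣ q ^ 2 → p = 2 := by
    intro p hp h
    have h1 := hp.dvd_of_dvd_pow h
    rw [hqm] at h1
    exact two_of_dvd_pow hp h1
  have htdvd : ∀ {p : ℕ}, p.Prime → p ∣ 2 ^ m * (q - 1) → p = 2 ∨ p ∣ q - 1 := by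
    intro p hp h
    rcases (Nat.Prime.dvd_mul hp).mp h with h1 | h1
    · exact Or.inl (two_of_dvd_pow hp h1)
    · exact Or.inr h1
  have hQcases : ∀ {p : ℕ}, p.Prime → p ∣ Q → p ∣ q - 1 ∨ p ∣ a₁ ∨ p ∣ a₂ := by
    intro p hp h
    rw [hQ, hprod] at h
    rcases (Nat.Prime.dvd_mul hp).mp h with h1 | h1
    · exact Or.inl h1
    · rcases (Nat.Prime.dvd_mul hp).mp h1 with h2 | h2
      · exact Or.inr (Or.inr h2)
      · exact Or.inr (Or.inl h2)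
  have h2t : 2 ∣ 2 ^ m * (q - 1) := by
    apply Dvd.dvd.mul_right
    exact dvd_pow_self 2 (by omega)
  have h2q : 2 ∣ q ^ 2 := by
    rw [hqm]
    exact dvd_pow (dvd_pow_self 2 (by omega)) (by norm_num)
  constructor
  · ext p
    show (p.Prime ∧ ∃ d ∈ D, p ∣ d) ↔ (p.Prime ∧ (p = 2 ∨ p ∣ Q))
    constructor
    · rintro ⟨hp, d, hd, hpd⟩
      refine ⟨hp, ?_⟩
      rcases D1 d hd with rfl | rfl | rfl | rfl | rfl | rfl
      · exact absurd (Nat.dvd_one.mp hpd) hp.one_lt.ne'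
      · exact Or.inl (hq2pow hp hpd)
      · rcases htdvd hp hpd with h | h
        · exact Or.inl h
        · exact Or.inr (h.trans hd4)
      · exact Or.inr (hpd.trans hd3)
      · exact Or.inr (hpd.trans hd2)
      · exact Or.inr (hpd.trans hd1)
    · rintro ⟨hp, h | h⟩
      · subst h
        exact ⟨hp, _, hq2, h2q⟩
      · refine ⟨hp, ?_⟩
        rcases hQcases hp h with h1 | h1 | h1
        · exact ⟨_, ht, Dvd.dvd.mul_left h1 _⟩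
        · exact ⟨_, ha1, Dvd.dvd.mul_left h1 _⟩
        · exact ⟨_, ha2, Dvd.dvd.mul_left h1 _⟩
  · intro r s
    constructor
    · rintro ⟨hne, hr, hs, d, hd, hdvd⟩
      refine ⟨hne, hr, hs, ?_⟩
      have hrd : r ∣ d := (dvd_mul_right r s).trans hdvd
      have hsd : s ∣ d := (dvd_mul_left s r).trans hdvd
      rcases D1 d hd with rfl | rfl | rfl | rfl | rfl | rfl
      · exact absurd (Nat.dvd_one.mp hrd) hr.one_lt.ne'
      · exact absurd ((hq2pow hr hrd).trans (hq2pow hs hsd).symm) hne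
      · rcases htdvd hr hrd with h1 | h1 <;> rcases htdvd hs hsd with h2 | h2
        · exact absurd (h1.trans h2.symm) hne
        · exact Or.inr (Or.inl ⟨h1, h2⟩)
        · exact Or.inr (Or.inr ⟨h2, h1⟩)
        · exact Or.inl ⟨h1.trans hd4, h2.trans hd4⟩
      · exact Or.inl ⟨hrd.trans hd3, hsd.trans hd3⟩
      · exact Or.inl ⟨hrd.trans hd2, hsd.trans hd2⟩
      · exact Or.inl ⟨hrd.trans hd1, hsd.trans hd1⟩
    · rintro ⟨hne, hr, hs, h⟩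
      refine ⟨hne, hr, hs, ?_⟩
      have hcop : Nat.Coprime r s := (Nat.coprime_primes hr hs).mpr hne
      have hcomb : ∀ {d : ℕ}, d ∈ D → r ∣ d → s ∣ d → ∃ d ∈ D, r * s ∣ d := by
        intro d hd h1 h2
        exact ⟨d, hd, hcop.mul_dvd_of_dvd_of_dvd h1 h2⟩
      rcases h with ⟨h1, h2⟩ | ⟨h1, h2⟩ | ⟨h1, h2⟩
      · rcases hQcases hr h1 with h3 | h3 | h3 <;> rcases hQcases hs h2 with h4 | h4 | h4
        · exact hcomb ht (Dvd.dvd.mul_left h3 _) (Dvd.dvd.mul_left h4 _)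
        · exact hcomb ha1 (Dvd.dvd.mul_right h3 _) (Dvd.dvd.mul_left h4 _)
        · exact hcomb ha2 (Dvd.dvd.mul_right h3 _) (Dvd.dvd.mul_left h4 _)
        · exact hcomb ha1 (Dvd.dvd.mul_left h3 _) (Dvd.dvd.mul_right h4 _)
        · exact hcomb hq21 (by rw [hprod]; exact Dvd.dvd.mul_left h3 _) (by rw [hprod]; exact Dvd.dvd.mul_left h4 _)
        · exact hcomb hq21 (by rw [hprod]; exact Dvd.dvd.mul_left h3 _) (by rw [hprod]; exact Dvd.dvd.mul_right h4 _)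
        · exact hcomb ha2 (Dvd.dvd.mul_left h3 _) (Dvd.dvd.mul_right h4 _)
        · exact hcomb hq21 (by rw [hprod]; exact Dvd.dvd.mul_right h3 _) (by rw [hprod]; exact Dvd.dvd.mul_left h4 _)
        · exact hcomb hq21 (by rw [hprod]; exact Dvd.dvd.mul_right h3 _) (by rw [hprod]; exact Dvd.dvd.mul_right h4 _)
      · subst h1
        exact hcomb ht h2t (Dvd.dvd.mul_left h2 _)
      · subst h1
        exact hcomb ht (Dvd.dvd.mul_left h2 _) h2t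


/-- Let F be a finite field with q = 2^(2m+1) ≥ 8 elements and let S be isomorphic to the Suzuki group over F. Then the vertices of the character degree graph of S are 2 and the primes dividing (q − 1)(q² + 1); the primes dividing (q − 1)(q² + 1) are pairwise adjacent, and 2 is adjacent exactly to the primes dividing q − 1. -/
theorem result (F : Type*) [Field F] [Fintype F] (m : ℕ) (hm : 1 ≤ m) (q : ℕ) (hq : Fintype.card F = q) (hqm : q = 2 ^ (2 * m + 1)) {S : Type*} [Group S] [Finite S] (hS : Nonempty (S ≃* ↥(Cfsg.Lie.Sz F (2 ^ (m + 1))))) : Cfsg.degreePrimes S = {r : ℕ | r.Prime ∧ (r = 2 ∨ r ∣ (q - 1) * (q ^ 2 + 1))} ∧ ∀ r s : ℕ, (Cfsg.degreeGraph S).Adj r s ↔ (r ≠ s ∧ r.Prime ∧ s.Prime ∧ ((r ∣ (q - 1) * (q ^ 2 + 1) ∧ s ∣ (q - 1) * (q ^ 2 + 1)) ∨ (r = 2 ∧ s ∣ q - 1) ∨ (s = 2 ∧ r ∣ q - 1))) := by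
  have h : Cfsg.Agent.Lib.Suzuki.Basic.Hyp F m := ⟨hm, hq.trans hqm⟩
  have e : S ≃* Cfsg.Agent.Lib.Suzuki.Struct.G F m := hS.some.trans (Cfsg.Agent.Lib.Suzuki.Iso.suzEquiv h).symm
  have hD : Cfsg.charDegrees S = Cfsg.charDegrees (Cfsg.Agent.Lib.Suzuki.Struct.G F m) :=
    Cfsg.Agent.Lib.Char.SL2Degrees.charDegrees_congr e
  have hq0 : ((q : ℕ) : ℤ) = 2 ^ (2 * m + 1) := by
    rw [hqm]
    push_cast
    rfl
  obtain ⟨k1, ⟨χ2, k2⟩, ⟨χ3, k3⟩, ⟨χ4, k4⟩, ⟨χ5, k5⟩, ⟨χ6, k6⟩⟩ :=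
    Cfsg.Agent.Lib.SzChar.Main.deg_main h (q : ℤ) ((2 : ℤ) ^ (m + 1)) hq0 rfl
  have hq1 : 1 ≤ q := by
    rw [hqm]
    exact Nat.one_le_two_pow
  have hP : ((q - 1 : ℕ) : ℤ) = (q : ℤ) - 1 := by
    rw [Nat.cast_sub hq1]
    rfl
  have hle : 2 ^ (m + 1) ≤ q + 1 := by
    rw [hqm]
    have : 2 ^ (m + 1) ≤ 2 ^ (2 * m + 1) := Nat.pow_le_pow_right (by norm_num) (by omega)
    omega
  have hA2 : ((q + 1 - 2 ^ (m + 1) : ℕ) : ℤ) = (q : ℤ) + 1 - 2 ^ (m + 1) := by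
    rw [Nat.cast_sub hle]
    push_cast
    rfl
  have hA1 : ((q + 1 + 2 ^ (m + 1) : ℕ) : ℤ) = (q : ℤ) + 1 + 2 ^ (m + 1) := by
    push_cast
    rfl
  have hT : ∀ d : ℕ, 2 * (d : ℤ) = 2 ^ (m + 1) * ((q : ℤ) - 1) → d = 2 ^ m * (q - 1) := by
    intro d hd
    rw [← hP, pow_succ] at hd
    have h1 : (d : ℤ) = ((2 ^ m * (q - 1) : ℕ) : ℤ) := by
      push_cast
      linarith
    exact_mod_cast h1
  have hmem2 : q ^ 2 ∈ Cfsg.charDegrees (Cfsg.Agent.Lib.Suzuki.Struct.G F m) := by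
    refine ⟨χ2, ?_⟩
    exact_mod_cast k2
  have hmem3 : 2 ^ m * (q - 1) ∈ Cfsg.charDegrees (Cfsg.Agent.Lib.Suzuki.Struct.G F m) :=
    ⟨χ3, hT _ k3⟩
  have hmem4 : q ^ 2 + 1 ∈ Cfsg.charDegrees (Cfsg.Agent.Lib.Suzuki.Struct.G F m) := by
    refine ⟨χ4, ?_⟩
    exact_mod_cast k4
  have hmem5 : (q - 1) * (q + 1 - 2 ^ (m + 1)) ∈ Cfsg.charDegrees (Cfsg.Agent.Lib.Suzuki.Struct.G F m) := by
    refine ⟨χ5, ?_⟩
    have : ((charDegree χ5.1 : ℕ) : ℤ) = (((q - 1) * (q + 1 - 2 ^ (m + 1)) : ℕ) : ℤ) := by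
      rw [Nat.cast_mul, hP, hA2]
      exact k5
    exact_mod_cast this
  have hmem6 : (q - 1) * (q + 1 + 2 ^ (m + 1)) ∈ Cfsg.charDegrees (Cfsg.Agent.Lib.Suzuki.Struct.G F m) := by
    refine ⟨χ6, ?_⟩
    have : ((charDegree χ6.1 : ℕ) : ℤ) = (((q - 1) * (q + 1 + 2 ^ (m + 1)) : ℕ) : ℤ) := by
      rw [Nat.cast_mul, hP, hA1]
      exact k6
    exact_mod_cast this
  have hD1 : ∀ d ∈ Cfsg.charDegrees (Cfsg.Agent.Lib.Suzuki.Struct.G F m), d = 1 ∨ d = q ^ 2 ∨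
      d = 2 ^ m * (q - 1) ∨ d = q ^ 2 + 1 ∨ d = (q - 1) * (q + 1 - 2 ^ (m + 1)) ∨
      d = (q - 1) * (q + 1 + 2 ^ (m + 1)) := by
    rintro d ⟨χ, rfl⟩
    rcases k1 χ with h1 | h1 | h1 | h1 | h1 | h1
    · left
      exact_mod_cast h1
    · right; left
      exact_mod_cast h1
    · right; right; left
      exact hT _ h1
    · right; right; right; left
      exact_mod_cast h1
    · right; right; right; right; left
      have : ((charDegree χ.1 : ℕ) : ℤ) = (((q - 1) * (q + 1 - 2 ^ (m + 1)) : ℕ) : ℤ) := by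
        rw [Nat.cast_mul, hP, hA2]
        exact h1
      exact_mod_cast this
    · right; right; right; right; right
      have : ((charDegree χ.1 : ℕ) : ℤ) = (((q - 1) * (q + 1 + 2 ^ (m + 1)) : ℕ) : ℤ) := by
        rw [Nat.cast_mul, hP, hA1]
        exact h1
      exact_mod_cast this
  obtain ⟨g1, g2⟩ := graph_of_degrees m q hm hqm _ hD1 hmem2 hmem3 hmem4 hmem5 hmem6
  constructor
  · unfold Cfsg.degreePrimes
    rw [hD]
    exact g1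
  · intro r s
    have : (Cfsg.degreeGraph S).Adj r s ↔ (r ≠ s ∧ r.Prime ∧ s.Prime ∧ ∃ d ∈ Cfsg.charDegrees S, r * s ∣ d) := Iff.rfl
    rw [this, hD]
    exact g2 r s


end Cfsg.Agent.S4775
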