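import Cfsg.Statements.S4782
import Cfsg.Agent.Lib.Blocks.TwoPrimes

set_option autoImplicit false
open Cfsg

namespace Cfsg.Agent.S4782

/-- If the finite group G is not solvable, then at least three distinct primes each divide some irreducible complex character degree of G. -/
theorem result {G : Type*} [Group G] [Finite G] (hG : ¬ Group.IsSolvable G) : ∃ p q r : ℕ, p ≠ q ∧ q ≠ r ∧ p ≠ r ∧ p ∈ Cfsg.degreePrimes G ∧ q ∈ Cfsg.degreePrimes G ∧ r ∈ Cfsg.degreePrimes G := by
  exact Cfsg.Agent.Lib.Blocks.TwoPrimes.main hG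

end Cfsg.Agent.S4782
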