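import Cfsg.Statements.S4784
import Mathlib
import Cfsg.Agent.Lib.Char.Induced
import Cfsg.Agent.Lib.Char.IndRep
import Cfsg.Agent.Lib.Char.CompleteCor
import Cfsg.Agent.Lib.CharFS.Tri
import Cfsg.Agent.Lib.Char.IndNormal
import Cfsg.Agent.Lib.Char.QuotRep
import Cfsg.Agent.Lib.Char.Values

set_option autoImplicit false
open Cfsg

namespace Cfsg.Agent.S4784

open Cfsg.Agent.Lib.Char Cfsg.Agent.Lib.CharFS
open scoped ComplexConjugate

/-- Frobenius–Schur count of orbitals. -/
theorem sum_mult_nu {G : Type*} [Group G] [Fintype G] [DecidableEq G] (H : Subgroup G) [Fintype H]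
    [DecidablePred (· ∈ H)] [Fintype (IrrCharacter G)] :
    ∑ χ : IrrCharacter G, classInner (indFun H (fun _ : H => (1 : ℂ))) (χ : G → ℂ) *
        Indicator.nu (χ : G → ℂ) =
      (Nat.card H : ℂ)⁻¹ * ((Finset.univ.filter fun x : G => x ^ 2 ∈ H).card : ℂ) := by
  classical
  have hcl := Indicator.isClassFunction_sqrtCount (G := G)
  have h1 := Induced.frobenius_reciprocity H (fun _ : H => (1 : ℂ)) (Indicator.sqrtCount G) hcl
  have h2 : classInner (fun _ : H => (1 : ℂ)) (fun h : H => Indicator.sqrtCount G h) =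
      (Nat.card H : ℂ)⁻¹ * ((Finset.univ.filter fun x : G => x ^ 2 ∈ H).card : ℂ) := by
    rw [Induced.classInner_def]
    congr 1
    have : ∀ h : H, (1 : ℂ) * conj (Indicator.sqrtCount G h) = Indicator.sqrtCount G h := by
      intro h
      simp [Indicator.sqrtCount]
    simp_rw [this]
    have h3 := Indicator.sum_sqrtCount_mul (G := G) (fun g => if g ∈ H then (1 : ℂ) else 0)
    have h4 : ∑ g : G, Indicator.sqrtCount G g * (if g ∈ H then (1 : ℂ) else 0) =
        ∑ h : H, Indicator.sqrtCount G h := by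
      have := Induced.sum_extendByZero_mul (G := G) H (fun _ : H => (1 : ℂ)) (Indicator.sqrtCount G)
      simp only [one_mul] at this
      rw [← this]
      refine Finset.sum_congr rfl fun g _ => ?_
      by_cases hg : g ∈ H
      · rw [Induced.extendByZero_of_mem H _ hg, if_pos hg]
        ring
      · rw [Induced.extendByZero_of_notMem H _ hg, if_neg hg]
        ring
    rw [← h4, h3, Finset.sum_boole]
  rw [← h2, ← h1]
  -- expand the square root count on the right
  simp only [Induced.classInner_def]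
  rw [Finset.sum_congr rfl (fun χ _ => by
    rw [mul_assoc, Finset.sum_mul] :
    ∀ χ ∈ (Finset.univ : Finset (IrrCharacter G)), _ = (Nat.card G : ℂ)⁻¹ * ∑ g : G,
      indFun H (fun _ : H => (1 : ℂ)) g * conj ((χ : G → ℂ) g) * Indicator.nu (χ : G → ℂ))]
  rw [← Finset.mul_sum, Finset.sum_comm]
  congr 1
  refine Finset.sum_congr rfl fun g _ => ?_
  rw [IndicatorReal.sqrtCount_eq_sum, map_sum, Finset.mul_sum]
  refine Finset.sum_congr rfl fun χ _ => ?_
  obtain ⟨n, ρ, -, hρ⟩ := χ.2
  obtain ⟨m, hm⟩ := Indicator.nu_eq_int (G := G) (χ := (χ : G → ℂ)) ⟨n, ρ, hρ⟩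
  rw [hm, map_mul, map_intCast]
  ring

/-- The permutation character is constant on the core. -/
theorem indFun_one_of_mem_core {G : Type*} [Group G] [Fintype G] (H : Subgroup G) {k : G}
    (hk : k ∈ H.normalCore) :
    indFun H (fun _ : H => (1 : ℂ)) k = indFun H (fun _ : H => (1 : ℂ)) 1 := by
  have h : ∀ x : G, extendByZero H (fun _ : H => (1 : ℂ)) (x⁻¹ * k * x) = 1 := by
    intro x
    have : x⁻¹ * k * x ∈ H := by
      have := hk x⁻¹
      simpa using this
    rw [Induced.extendByZero_of_mem H _ this]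
  have h' : ∀ x : G, extendByZero H (fun _ : H => (1 : ℂ)) (x⁻¹ * 1 * x) = 1 := by
    intro x
    have : x⁻¹ * 1 * x ∈ H := by simp
    rw [Induced.extendByZero_of_mem H _ this]
  rw [Induced.indFun_apply, Induced.indFun_apply]
  simp_rw [h, h']

/-- A constituent of the permutation character is trivial on the core. -/
theorem eq_one_of_constituent {G : Type*} [Group G] [Fintype G] (H : Subgroup G)
    [Fintype (IrrCharacter G)] (χ : IrrCharacter G)
    (hm : classInner (indFun H (fun _ : H => (1 : ℂ))) (χ : G → ℂ) ≠ 0) {k : G}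
    (hk : k ∈ H.normalCore) : (χ : G → ℂ) k = (χ : G → ℂ) 1 := by
  classical
  have hcl := Induced.indFun_isClassFunction H (fun _ : H => (1 : ℂ))
  have hdec := Complete.eq_sum_classInner (G := G) _ hcl
  have hchar : IsCharacter G (indFun H (fun _ : H => (1 : ℂ))) :=
    IndRep.isCharacter_indFun H (Values.IsIrrCharacter.isCharacter (IndNormal.isIrrCharacter_principal (K := H)))
  choose m hm' using fun ψ : IrrCharacter G => Ortho.exists_nat_classInner hchar ψ
  have hk' := congrFun hdec k
  have h1' := congrFun hdec 1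
  rw [indFun_one_of_mem_core H hk, h1'] at hk'
  simp only [Finset.sum_apply, Pi.smul_apply, smul_eq_mul, hm'] at hk'
  have hdeg : ∀ ψ : IrrCharacter G, ∃ r : ℕ, (ψ : G → ℂ) 1 = r ∧ ‖(ψ : G → ℂ) k‖ ≤ r := by
    intro ψ
    obtain ⟨n, ρ, -, hρ⟩ := ψ.2
    refine ⟨n, ?_, ?_⟩
    · rw [← hρ]; simp
    · rw [← hρ]
      have := Values.norm_character_le ρ k
      simpa using this
  choose r hr1 hr2 using hdeg
  have hre : ∑ ψ : IrrCharacter G, (m ψ : ℝ) * ((r ψ : ℝ) - ((ψ : G → ℂ) k).re) = 0 := by
    have := congrArg Complex.re hk'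
    simp only [Complex.re_sum, hr1, Complex.mul_re, Complex.natCast_re, Complex.natCast_im, zero_mul,
      sub_zero] at this
    simp only [mul_sub, Finset.sum_sub_distrib]
    rw [this]
    simp
  have hnn : ∀ ψ ∈ (Finset.univ : Finset (IrrCharacter G)),
      0 ≤ (m ψ : ℝ) * ((r ψ : ℝ) - ((ψ : G → ℂ) k).re) := by
    intro ψ _
    apply mul_nonneg (Nat.cast_nonneg _)
    have := (Complex.re_le_norm ((ψ : G → ℂ) k)).trans (hr2 ψ)
    linarith
  have hz := (Finset.sum_eq_zero_iff_of_nonneg hnn).1 hre χ (Finset.mem_univ _)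
  have hmχ : (m χ : ℝ) ≠ 0 := by
    have : m χ ≠ 0 := by
      intro h0
      apply hm
      rw [hm', h0]; simp
    exact_mod_cast this
  have hz' : (r χ : ℝ) = ((χ : G → ℂ) k).re := by
    have := (mul_eq_zero.1 hz).resolve_left hmχ
    linarith
  have him : ((χ : G → ℂ) k).im = 0 := by
    have h := hr2 χ
    rw [hz'] at h
    have h2 := Complex.sq_norm ((χ : G → ℂ) k)
    rw [Complex.normSq_apply] at h2
    have h3 : ‖(χ : G → ℂ) k‖ ^ 2 ≤ ((χ : G → ℂ) k).re ^ 2 := by
      apply pow_le_pow_left₀ (norm_nonneg _) h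
    nlinarith
  apply Complex.ext
  · rw [hr1]; simpa using hz'.symm
  · rw [hr1]; simpa using him

/-- Main theorem -/
theorem result {G : Type*} [Group G] [Fintype G] (H : Subgroup G) : Nat.card {χ : Cfsg.IrrCharacter G // Cfsg.classInner (Cfsg.indFun H (fun _ : H => (1 : ℂ))) (χ : G → ℂ) ≠ 0 ∧ (∀ g : G, (starRingEnd ℂ) ((χ : G → ℂ) g) = (χ : G → ℂ) g) ∧ (Nat.card G : ℂ)⁻¹ * ∑ g : G, (χ : G → ℂ) (g * g) = 1} = 1 ↔ Odd H.normalCore.index := by
  classical
  haveI : Fintype (IrrCharacter G) := Fintype.ofFinite _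
  have hnu : ∀ χ : G → ℂ, (Nat.card G : ℂ)⁻¹ * ∑ g : G, χ (g * g) = Indicator.nu χ := by
    intro χ
    simp only [Indicator.nu, pow_two]
  simp only [hnu]
  -- the principal character
  let e : IrrCharacter G := ⟨fun _ => 1, IndNormal.isIrrCharacter_principal⟩
  have hem : classInner (indFun H (fun _ : H => (1 : ℂ))) (e : G → ℂ) = 1 := by
    rw [Induced.frobenius_reciprocity H _ _ (fun _ _ => rfl)]
    rw [Induced.classInner_def]
    simp [e, Nat.card_eq_fintype_card]
  have hnue : Indicator.nu (e : G → ℂ) = 1 := by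
    simp only [Indicator.nu, e, Finset.sum_const, Finset.card_univ, nsmul_eq_mul, mul_one]
    rw [← Nat.card_eq_fintype_card]
    exact inv_mul_cancel₀ Induced.natCard_ne_zero_complex
  have hmem : classInner (indFun H (fun _ : H => (1 : ℂ))) (e : G → ℂ) ≠ 0 ∧
      (∀ g : G, (starRingEnd ℂ) ((e : G → ℂ) g) = (e : G → ℂ) g) ∧ Indicator.nu (e : G → ℂ) = 1 :=
    ⟨by rw [hem]; exact one_ne_zero, fun g => by simp [e], hnue⟩
  rw [Nat.card_eq_one_iff_unique]
  constructor
  · rintro ⟨hs, -⟩
    -- uniqueness: every other constituent contributes non-positively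
    have hchar : IsCharacter G (indFun H (fun _ : H => (1 : ℂ))) :=
      IndRep.isCharacter_indFun H (Values.IsIrrCharacter.isCharacter (IndNormal.isIrrCharacter_principal (K := H)))
    choose m hm using fun ψ : IrrCharacter G => Ortho.exists_nat_classInner hchar ψ
    have hval : ∀ ψ : IrrCharacter G, ∃ n : ℤ, Indicator.nu (ψ : G → ℂ) = n ∧ (ψ ≠ e → m ψ = 0 ∨ n ≤ 0) := by
      intro ψ
      by_cases hr : ∀ g, conj ((ψ : G → ℂ) g) = (ψ : G → ℂ) g
      · rcases Tri.nu_of_real ψ.2 hr with h | h
        · refine ⟨1, by simpa using h, fun hne => Or.inl ?_⟩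
          by_contra hm0
          apply hne
          have h1 : classInner (indFun H (fun _ : H => (1 : ℂ))) (ψ : G → ℂ) ≠ 0 := by
            rw [hm]; exact_mod_cast hm0
          have := hs.elim (⟨ψ, h1, hr, h⟩ : {χ : IrrCharacter G // _}) ⟨e, hmem⟩
          exact congrArg Subtype.val this
        · exact ⟨-1, by simpa using h, fun _ => Or.inr (by norm_num)⟩
      · push Not at hr
        exact ⟨0, by simpa using Tri.nu_of_not_real ψ.2 hr, fun _ => Or.inr le_rfl⟩
    choose n hn hn' using hval
    have hme : m e = 1 := by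
      have := hm e
      rw [hem] at this
      exact_mod_cast this.symm
    have hne : n e = 1 := by
      have := hn e
      rw [hnue] at this
      exact_mod_cast this.symm
    have hsum := sum_mult_nu (G := G) H
    have hsum' : ((∑ ψ : IrrCharacter G, (m ψ : ℤ) * n ψ : ℤ) : ℂ) =
        (Nat.card H : ℂ)⁻¹ * ((Finset.univ.filter fun x : G => x ^ 2 ∈ H).card : ℂ) := by
      rw [← hsum]
      push_cast
      refine Finset.sum_congr rfl fun ψ _ => ?_
      rw [hm, hn]
    have hle : (∑ ψ : IrrCharacter G, (m ψ : ℤ) * n ψ) ≤ 1 := by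
      have : ∑ ψ : IrrCharacter G, (m ψ : ℤ) * n ψ ≤ ∑ ψ : IrrCharacter G, if ψ = e then (1 : ℤ) else 0 := by
        refine Finset.sum_le_sum fun ψ _ => ?_
        by_cases h : ψ = e
        · subst h
          simp [hme, hne]
        · rw [if_neg h]
          rcases hn' ψ h with h0 | h0
          · simp [h0]
          · exact mul_nonpos_of_nonneg_of_nonpos (Nat.cast_nonneg _) h0
      simpa using this
    -- the set of square roots of H-elements is H
    have hHpos : (Nat.card H : ℂ) ≠ 0 := Induced.natCard_ne_zero_complex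
    have hcard : ((Finset.univ.filter fun x : G => x ^ 2 ∈ H).card : ℂ) =
        (Nat.card H : ℂ) * ((∑ ψ : IrrCharacter G, (m ψ : ℤ) * n ψ : ℤ) : ℂ) := by
      rw [hsum']
      field_simp
    have hcard' : ((Finset.univ.filter fun x : G => x ^ 2 ∈ H).card : ℤ) =
        (Nat.card H : ℤ) * (∑ ψ : IrrCharacter G, (m ψ : ℤ) * n ψ) := by
      exact_mod_cast hcard
    have hle2 : (Finset.univ.filter fun x : G => x ^ 2 ∈ H).card ≤ Nat.card H := by
      have : ((Finset.univ.filter fun x : G => x ^ 2 ∈ H).card : ℤ) ≤ (Nat.card H : ℤ) := by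
        rw [hcard']
        nlinarith [(Int.natCast_nonneg (Nat.card H))]
      exact_mod_cast this
    have hsub : (Finset.univ.filter fun x : G => x ∈ H) ⊆ (Finset.univ.filter fun x : G => x ^ 2 ∈ H) := by
      intro x hx
      simp only [Finset.mem_filter, Finset.mem_univ, true_and] at hx ⊢
      exact H.pow_mem hx 2
    have hcardH : (Finset.univ.filter fun x : G => x ∈ H).card = Nat.card H := by
      rw [Nat.card_eq_fintype_card, Fintype.card_subtype]
    have heq : (Finset.univ.filter fun x : G => x ∈ H) = (Finset.univ.filter fun x : G => x ^ 2 ∈ H) :=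
      Finset.eq_of_subset_of_card_le hsub (by rw [hcardH]; exact hle2)
    have hsq : ∀ x : G, x ^ 2 ∈ H → x ∈ H := by
      intro x hx
      have : x ∈ (Finset.univ.filter fun x : G => x ^ 2 ∈ H) := by simp [hx]
      rw [← heq] at this
      simpa using this
    have h2el : ∀ (k : ℕ) (x : G), x ^ (2 ^ k) = 1 → x ∈ H := by
      intro k
      induction k with
      | zero => intro x hx; simp at hx; simp [hx]
      | succ k ih =>
        intro x hx
        apply hsq
        apply ih
        rw [← pow_mul, ← pow_succ']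
        exact hx
    haveI : Fact (Nat.Prime 2) := ⟨Nat.prime_two⟩
    obtain ⟨P⟩ : Nonempty (Sylow 2 G) := inferInstance
    have hP : (P : Subgroup G) ≤ H.normalCore := by
      intro g hg
      intro b
      obtain ⟨k, hk⟩ := P.isPGroup' ⟨g, hg⟩
      apply h2el k
      have hk' : g ^ (2 ^ k) = 1 := by
        have := congrArg Subtype.val hk
        simpa using this
      rw [conj_pow, hk']
      simp
    have hdvd : H.normalCore.index ∣ (P : Subgroup G).index := Subgroup.index_dvd_of_le hP
    have hodd : ¬ 2 ∣ (P : Subgroup G).index := P.not_dvd_index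
    rw [← Nat.not_even_iff_odd, even_iff_two_dvd]
    exact fun h => hodd (h.trans hdvd)
  · intro hodd
    refine ⟨⟨?_⟩, ⟨⟨e, hmem⟩⟩⟩
    have key : ∀ χ : {χ : IrrCharacter G // classInner (indFun H (fun _ : H => (1 : ℂ))) (χ : G → ℂ) ≠ 0 ∧
      (∀ g : G, (starRingEnd ℂ) ((χ : G → ℂ) g) = (χ : G → ℂ) g) ∧ Indicator.nu (χ : G → ℂ) = 1},
        χ = ⟨e, hmem⟩ := by
      rintro ⟨χ, hχ, hr, -⟩
      apply Subtype.ext
      apply Subtype.ext
      obtain ⟨n, ρ, hirr, hρ⟩ := χ.2
      have hker : ∀ k ∈ H.normalCore, ρ k = 1 := by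
        intro k hk
        have h1 := eq_one_of_constituent H χ hχ hk
        rw [← hρ] at h1
        have h2 : ρ.character k = ((Module.finrank ℂ (Fin n → ℂ) : ℕ) : ℂ) := by
          rw [h1]; simp
        exact (Values.character_eq_finrank_iff ρ k).1 h2
      haveI := hirr
      have hirr' := QuotRep.quotRep_isIrreducible ρ H.normalCore hker
      have hθ : IsIrrCharacter (G ⧸ H.normalCore) (QuotRep.quotRep ρ H.normalCore hker).character :=
        ⟨n, _, hirr', rfl⟩
      have hoddq : Odd (Nat.card (G ⧸ H.normalCore)) := by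
        rw [Subgroup.index] at hodd
        exact hodd
      have hreal : ∀ g : G ⧸ H.normalCore,
          conj ((QuotRep.quotRep ρ H.normalCore hker).character g) =
            (QuotRep.quotRep ρ H.normalCore hker).character g := by
        intro g
        induction g using QuotientGroup.induction_on with
        | H g =>
          rw [QuotRep.quotRep_character, hρ]
          exact hr g
      have h1 := IndNormal.real_irr_eq_principal_of_odd hoddq hθ hreal
      funext g
      have := congrFun h1 (g : G ⧸ H.normalCore)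
      rw [QuotRep.quotRep_character, hρ] at this
      simpa [e] using this
    intro a b
    rw [key a, key b]
end Cfsg.Agent.S4784
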