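import Cfsg.Statements.S4796
import Mathlib
import Cfsg.Agent.Lib.Char.PrimeCod

set_option autoImplicit false
open Cfsg

namespace Cfsg.Agent.S4796

/-- Let G be a finite group with a faithful irreducible complex character χ whose codegree #G / χ(1) is a prime p (for a faithful character the kernel is trivial, so the codegree is #G / χ(1)). Then either G is cyclic of order p, or G is a Frobenius group whose Frobenius kernel has order p: some proper non-trivial subgroup H satisfies H ∩ gHg⁻¹ = 1 for every element g outside H, and the set of elements lying in no conjugate of H, together with the identity, has exactly p elements. -/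
theorem result {G : Type*} [Group G] [Finite G] (χ : Cfsg.IrrCharacter G) (hfaith : ∀ g : G, (χ : G → ℂ) g = (χ : G → ℂ) 1 → g = 1) (p : ℕ) (hp : p.Prime) (hcod : Nat.card G = p * Cfsg.charDegree (χ : G → ℂ)) : (IsCyclic G ∧ Nat.card G = p) ∨ ∃ H : Subgroup G, Cfsg.IsFrobeniusComplement H ∧ Nat.card ↥(Cfsg.frobeniusKernel H) = p := by
  have hχ := χ.2
  have hd : (χ : G → ℂ) 1 = (Cfsg.charDegree (χ : G → ℂ) : ℕ) :=
    (Cfsg.Agent.Lib.Char.Values.IsCharacter.charDegree_cast
      (Cfsg.Agent.Lib.Char.Basic.isCharacter_of_isIrrCharacter hχ)).symm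
  rcases Cfsg.Agent.Lib.Char.PrimeCod.cyclic_or_frobenius hχ hp hd hcod with h | ⟨H, hH, hidx⟩
  · exact Or.inl h
  · exact Or.inr ⟨H, hH, by rw [Cfsg.Agent.Lib.Frobenius.Basic.card_frobeniusKernel hH, hidx]⟩

end Cfsg.Agent.S4796
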