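import Cfsg.Statements.S4801
import Mathlib
import Cfsg.Agent.Lib.Char.Codegree
import Cfsg.Agent.Lib.Char.Burnside2
import Cfsg.Agent.Lib.Char.AbelianQuot
-- import your own Cfsg.Agent.* helpers here

set_option autoImplicit false
open Cfsg

namespace Cfsg.Agent.S4801

/-- The codegree of an irreducible complex character χ of a finite group G is [G : ker χ] / χ(1), where ker χ is the set of elements at which χ takes the value χ(1). Let S be a finite simple group and G a finite group such that every codegree of an irreducible character of S is a codegree of an irreducible character of G. Then the order of S divides the order of G. -/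
theorem result {S : Type*} [Group S] [Finite S] (hS : IsSimpleGroup S) {G : Type*} [Group G] [Finite G] (hsub : ∀ χ : Cfsg.IrrCharacter S, ∃ ψ : Cfsg.IrrCharacter G, (Nat.card S / (Nat.card {g : S // (χ : S → ℂ) g = (χ : S → ℂ) 1} * Cfsg.charDegree (χ : S → ℂ))) = (Nat.card G / (Nat.card {g : G // (ψ : G → ℂ) g = (ψ : G → ℂ) 1} * Cfsg.charDegree (ψ : G → ℂ)))) : Nat.card S ∣ Nat.card G := by
  classical
  rw [Nat.dvd_iff_prime_pow_dvd_dvd]
  intro p k hp hpk
  rcases Nat.eq_zero_or_pos k with rfl | hk
  · simp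
  -- a faithful character of degree prime to `p`
  haveI := hS.toNontrivial
  obtain ⟨g, hg⟩ := exists_ne (1 : S)
  obtain ⟨n, ρ, hρ, hne, hpn, -⟩ :=
    Cfsg.Agent.Lib.Char.Burnside2.exists_irr_not_dvd_ne_zero p hp g hg
  haveI := hρ
  have hirr : IsIrrCharacter S ρ.character := ⟨n, ρ, hρ, rfl⟩
  obtain ⟨ψ, hψ⟩ := hsub ⟨ρ.character, hirr⟩
  have hcodG := Cfsg.Agent.Lib.Char.Codegree.cod_dvd_card ψ.2
  rw [← hψ] at hcodG
  refine Dvd.dvd.trans ?_ hcodG
  -- the kernel is trivial
  have hker : Cfsg.Agent.Lib.Char.Codegree.repKer ρ = ⊥ := by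
    rcases (Cfsg.Agent.Lib.Char.Codegree.repKer_normal ρ).eq_bot_or_eq_top with h | h
    · exact h
    · exfalso
      apply hne
      funext x
      have hx : x ∈ Cfsg.Agent.Lib.Char.Codegree.repKer ρ := by rw [h]; trivial
      rw [Cfsg.Agent.Lib.Char.Codegree.mem_repKer] at hx
      have hfr : Module.finrank ℂ (Fin n → ℂ) = 1 := by
        refine Cfsg.Agent.Lib.Char.AbelianQuot.finrank_eq_one_of_commuting ρ (fun a b => ?_)
        have ha : a ∈ Cfsg.Agent.Lib.Char.Codegree.repKer ρ := by rw [h]; trivial
        have hb : b ∈ Cfsg.Agent.Lib.Char.Codegree.repKer ρ := by rw [h]; trivial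
        rw [Cfsg.Agent.Lib.Char.Codegree.mem_repKer] at ha hb
        rw [ha, hb]
      have hn1 : n = 1 := by simpa using hfr
      subst hn1
      unfold Representation.character
      rw [hx, show (1 : (Fin 1 → ℂ) →ₗ[ℂ] (Fin 1 → ℂ)) = LinearMap.id from rfl, LinearMap.trace_id]
      simp
  have hdeg : charDegree ρ.character = n := by
    unfold charDegree
    rw [Representation.char_one]
    simp
  have hcardker : Nat.card {x : S // ρ.character x = ρ.character 1} = 1 := by
    rw [Cfsg.Agent.Lib.Char.Codegree.natCard_ker_eq, hker]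
    simp
  show p ^ k ∣ Nat.card S / (Nat.card {x : S // ρ.character x = ρ.character 1} *
    charDegree ρ.character)
  rw [hcardker, hdeg, one_mul]
  have hdvd : n ∣ Nat.card S := by
    have := Cfsg.Agent.Lib.Char.Integrality.finrank_dvd_card ρ
    simpa using this
  obtain ⟨c, hc⟩ := hdvd
  have hn0 : 0 < n := by
    have := Cfsg.Agent.Lib.Char.Codegree.charDegree_pos hirr
    rwa [hdeg] at this
  rw [hc, Nat.mul_div_cancel_left _ hn0]
  rw [hc] at hpk
  have hcop : Nat.Coprime (p ^ k) n := Nat.Coprime.pow_left k ((Nat.Prime.coprime_iff_not_dvd hp).2 hpn)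
  exact hcop.dvd_of_dvd_mul_left hpk

end Cfsg.Agent.S4801
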