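import Cfsg.Statements.S4802
import Mathlib
import Cfsg.Agent.Lib.Char.ClassMul

set_option autoImplicit false
open Cfsg

namespace Cfsg.Agent.S4802

open Cfsg.Agent.Lib.Char.Integrality Cfsg.Agent.Lib.Char.CompleteCor
open scoped ComplexConjugate

/-- The sum over a normal subgroup not in the kernel of an irreducible representation vanishes. -/
theorem sum_normal_eq_zero {G : Type*} [Group G] [Finite G] {V : Type*} [AddCommGroup V] [Module ℂ V]
    [FiniteDimensional ℂ V] (ρ : Representation ℂ G V) [ρ.IsIrreducible] (N : Subgroup G) [N.Normal]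
    [Fintype N] (x : G) (hx : x ∈ N) (hρx : ρ x ≠ 1) : ∑ n : N, ρ (n : G) = 0 := by
  classical
  obtain ⟨a, ha⟩ := exists_smul_id_of_commute ρ (∑ n : N, ρ (n : G)) (fun g => by
    refine LinearMap.ext fun v => ?_
    simp only [LinearMap.comp_apply, LinearMap.sum_apply, map_sum]
    let e : N ≃ N :=
      { toFun := fun n => ⟨g⁻¹ * n * g, by
          have := (inferInstance : N.Normal).conj_mem n n.2 g⁻¹
          simpa using this⟩
        invFun := fun n => ⟨g * n * g⁻¹, (inferInstance : N.Normal).conj_mem n n.2 g⟩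
        left_inv := fun n => by ext; simp [mul_assoc]
        right_inv := fun n => by ext; simp [mul_assoc] }
    refine Fintype.sum_equiv e _ _ fun n => ?_
    rw [← Module.End.mul_apply, ← Module.End.mul_apply, ← map_mul, ← map_mul]
    show ρ ((n : G) * g) v = ρ (g * (g⁻¹ * n * g)) v
    congr 2
    group)
  by_cases ha0 : a = 0
  · rw [ha, ha0, zero_smul]
  exfalso
  apply hρx
  have h1 : ρ x * ∑ n : N, ρ (n : G) = ∑ n : N, ρ (n : G) := by
    rw [Finset.mul_sum]
    refine Fintype.sum_equiv (Equiv.mulLeft (⟨x, hx⟩ : N)) _ _ fun n => ?_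
    rw [← map_mul]
    rfl
  rw [ha] at h1
  refine LinearMap.ext fun v => ?_
  have h2 := LinearMap.congr_fun h1 v
  simp only [Module.End.mul_apply, LinearMap.smul_apply, LinearMap.id_apply, map_smul] at h2
  exact smul_right_injective _ ha0 h2

/-- Let N < M be normal subgroups of the finite group G and g ∈ M ∖ N. Then the conjugacy class of g is exactly M ∖ N if and only if every irreducible complex character of G whose kernel contains N takes the same value at all elements of M ∖ N, and every irreducible complex character of G whose kernel does not contain N vanishes at g. -/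
theorem result {G : Type*} [Group G] [Finite G] (N M : Subgroup G) [N.Normal] [M.Normal] (hNM : N < M) (g : G) (hgM : g ∈ M) (hgN : g ∉ N) : {h : G | IsConj g h} = (M : Set G) \ (N : Set G) ↔ ((∀ χ : Cfsg.IrrCharacter G, (∀ x ∈ N, (χ : G → ℂ) x = (χ : G → ℂ) 1) → ∀ x ∈ M, x ∉ N → ∀ y ∈ M, y ∉ N → (χ : G → ℂ) x = (χ : G → ℂ) y) ∧ (∀ χ : Cfsg.IrrCharacter G, (∃ x ∈ N, (χ : G → ℂ) x ≠ (χ : G → ℂ) 1) → (χ : G → ℂ) g = 0)) := by
  classical
  cases nonempty_fintype G
  haveI : Finite (Cfsg.IrrCharacter G) := Cfsg.Agent.Lib.Char.Complete.finite_irr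
  cases nonempty_fintype (Cfsg.IrrCharacter G)
  cases nonempty_fintype N
  have hNnorm : N.Normal := inferInstance
  have hMnorm : M.Normal := inferInstance
  constructor
  · intro hcl
    have hmem : ∀ x, x ∈ M → x ∉ N → IsConj g x := fun x hx hx' => by
      have : x ∈ {h : G | IsConj g h} := by rw [hcl]; exact ⟨hx, hx'⟩
      exact this
    refine ⟨?_, ?_⟩
    · intro χ _ x hx hxN y hy hyN
      rw [← irr_apply_of_isConj (hmem x hx hxN) χ, ← irr_apply_of_isConj (hmem y hy hyN) χ]
    · rintro ⟨f, n, ρ, hirr, rfl⟩ ⟨x, hx, hne⟩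
      haveI := hirr
      have hρx : ρ x ≠ 1 := by
        intro h
        apply hne
        show LinearMap.trace ℂ _ (ρ x) = LinearMap.trace ℂ _ (ρ 1)
        rw [h, MonoidHom.map_one ρ]
      have hS := sum_normal_eq_zero ρ N x hx hρx
      have h1 : ∑ y : N, ρ.character (g * (y : G)) = 0 := by
        have h2 : LinearMap.trace ℂ _ (ρ g * ∑ y : N, ρ (y : G)) = 0 := by
          rw [hS, mul_zero, map_zero]
        rw [Finset.mul_sum, map_sum] at h2
        rw [← h2]
        refine Finset.sum_congr rfl fun y _ => ?_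
        rw [← map_mul]
        rfl
      have h3 : ∀ y : N, ρ.character (g * (y : G)) = ρ.character g := by
        intro y
        have hc := hmem (g * y) (M.mul_mem hgM (hNM.le y.2)) (fun h => hgN (by
          have := N.mul_mem h (N.inv_mem y.2)
          simpa using this))
        exact (irr_apply_of_isConj hc (⟨ρ.character, n, ρ, hirr, rfl⟩ : Cfsg.IrrCharacter G)).symm
      simp only [h3, Finset.sum_const, Finset.card_univ, nsmul_eq_mul] at h1
      have hN0 : (Fintype.card N : ℂ) ≠ 0 := Nat.cast_ne_zero.mpr Fintype.card_ne_zero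
      exact (mul_eq_zero.1 h1).resolve_left hN0
  · rintro ⟨h1, h2⟩
    ext h
    simp only [Set.mem_setOf_eq, Set.mem_diff, SetLike.mem_coe]
    constructor
    · intro hc
      obtain ⟨c, rfl⟩ := isConj_iff.1 hc
      refine ⟨hMnorm.conj_mem g hgM c, fun hh => hgN ?_⟩
      have := hNnorm.conj_mem _ hh c⁻¹
      simpa [mul_assoc] using this
    · rintro ⟨hhM, hhN⟩
      by_contra hc
      have hc' : ¬ IsConj h g := fun h' => hc h'.symm
      have h3 := column_orth_not_conj hc'
      have h4 := column_orth_conj (IsConj.refl g)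
      have h5 : ∀ χ : Cfsg.IrrCharacter G, (χ : G → ℂ) h * conj ((χ : G → ℂ) g) =
          (χ : G → ℂ) g * conj ((χ : G → ℂ) g) := by
        intro χ
        by_cases hk : ∀ x ∈ N, (χ : G → ℂ) x = (χ : G → ℂ) 1
        · rw [h1 χ hk h hhM hhN g hgM hgN]
        · push Not at hk
          rw [h2 χ hk]
          simp
      simp only [h5] at h3
      rw [h3] at h4
      have h6 : (Nat.card (Subgroup.centralizer ({g} : Set G)) : ℂ) ≠ 0 :=
        Nat.cast_ne_zero.mpr Nat.card_pos.ne'
      exact h6 h4.symm

end Cfsg.Agent.S4802
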