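import Cfsg.Statements.S4808
import Mathlib
import Cfsg.Agent.Lib.Char.QuotRep
import Cfsg.Agent.Lib.Char.PRegular
import Cfsg.Agent.Lib.Char.Burnside2

set_option autoImplicit false
open Cfsg

namespace Cfsg.Agent.S4808

open Cfsg.Agent.Lib.Char.Codegree Cfsg.Agent.Lib.Char.QuotRep

/-- If the codegree of `ρ` is prime to `p` then the character vanishes on elements of order `p`
outside the kernel. -/
theorem character_eq_zero {G : Type*} [Group G] [Finite G] (p : ℕ) (hp : p.Prime) {n : ℕ}
    (ρ : Representation ℂ G (Fin n → ℂ)) [ρ.IsIrreducible]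
    (hcod : ¬ p ∣ (Nat.card G / (Nat.card {g : G // ρ.character g = ρ.character 1} *
      Cfsg.charDegree ρ.character))) (x : G) (hx : orderOf x = p) (hxK : x ∉ repKer ρ) :
    ρ.character x = 0 := by
  classical
  haveI : Fact p.Prime := ⟨hp⟩
  have hdeg : Cfsg.charDegree ρ.character = n := by
    unfold Cfsg.charDegree
    rw [Representation.char_one]
    simp
  rw [natCard_ker_eq, hdeg] at hcod
  set K := repKer ρ with hK
  let ρ' : Representation ℂ (G ⧸ K) (Fin n → ℂ) := quotRep ρ K (fun g hg => hg)
  haveI : ρ'.IsIrreducible := quotRep_isIrreducible ρ K _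
  have hq : Nat.card (G ⧸ K) = K.index := rfl
  have hnq : n ∣ K.index := by
    have := finrank_dvd_index_repKer ρ
    simpa using this
  obtain ⟨c, hc⟩ := hnq
  have hcard := Subgroup.card_mul_index K
  have hK0 : 0 < Nat.card K := Nat.card_pos
  have hn0 : 0 < n := by
    by_contra h
    have h0 : n = 0 := by omega
    have hnt := Cfsg.Agent.Lib.Char.Integrality.nontrivial_of_isIrreducible ρ
    subst h0
    exact not_subsingleton (Fin 0 → ℂ) inferInstance
  have hcc : Nat.card G / (Nat.card K * n) = c := by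
    rw [← hcard, hc, ← mul_assoc]
    exact Nat.mul_div_cancel_left _ (Nat.mul_pos hK0 hn0)
  rw [hcc] at hcod
  set e := (Nat.card (G ⧸ K)).factorization p with he
  have hQ0 : Nat.card (G ⧸ K) ≠ 0 := Nat.card_pos.ne'
  have h1 : p ^ e ∣ Nat.card (G ⧸ K) := Nat.ordProj_dvd _ _
  have h2 : ¬ p ^ (e + 1) ∣ Nat.card (G ⧸ K) := Nat.pow_succ_factorization_not_dvd hQ0 hp
  have h3 : p ^ e ∣ Module.finrank ℂ (Fin n → ℂ) := by
    rw [Module.finrank_fin_fun]
    rw [hq, hc] at h1
    exact (Nat.Coprime.pow_left e ((Nat.Prime.coprime_iff_not_dvd hp).2 hcod)).dvd_of_dvd_mul_right h1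
  have hordx : p ∣ orderOf (x : G ⧸ K) := by
    have hpow : (x : G ⧸ K) ^ p = 1 := by
      rw [← QuotientGroup.mk_pow, ← hx, pow_orderOf_eq_one]
      rfl
    have hne : (x : G ⧸ K) ≠ 1 := by
      intro h
      exact hxK ((QuotientGroup.eq_one_iff x).1 h)
    have := orderOf_eq_prime hpow hne
    rw [this]
  have := Cfsg.Agent.Lib.Char.PRegular.character_eq_zero_of_defect_zero ρ' p e hp h1 h2 h3 (x : G ⧸ K) hordx
  exact this

/-- The codegree of an irreducible complex character χ of a finite group G is [G : ker χ] / χ(1), where ker χ is the set of elements at which χ takes the value χ(1). A prime divides the order of G if and only if it divides the codegree of some irreducible complex character of G. -/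
theorem result {G : Type*} [Group G] [Finite G] (p : ℕ) (hp : p.Prime) : p ∣ Nat.card G ↔ ∃ χ : Cfsg.IrrCharacter G, p ∣ (Nat.card G / (Nat.card {g : G // (χ : G → ℂ) g = (χ : G → ℂ) 1} * Cfsg.charDegree (χ : G → ℂ))) := by
  classical
  constructor
  · intro hpG
    by_contra hcon
    push Not at hcon
    cases nonempty_fintype G
    haveI : Finite (Cfsg.IrrCharacter G) := Cfsg.Agent.Lib.Char.Complete.finite_irr
    cases nonempty_fintype (Cfsg.IrrCharacter G)
    haveI : Fact p.Prime := ⟨hp⟩
    obtain ⟨x, hx⟩ := exists_prime_orderOf_dvd_card' (G := G) p hpG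
    have hx1 : x ≠ 1 := by
      rintro rfl
      rw [orderOf_one] at hx
      exact hp.one_lt.ne hx
    have hsum := Cfsg.Agent.Lib.Char.Burnside2.sum_degree_mul_character (G := G) x
    rw [if_neg hx1] at hsum
    have hterm : ∀ χ : Cfsg.IrrCharacter G, 0 ≤ ((χ : G → ℂ) 1 * (χ : G → ℂ) x).re := by
      rintro ⟨f, n, ρ, hirr, rfl⟩
      haveI := hirr
      by_cases hk : x ∈ repKer ρ
      · have h := (character_eq_one_iff ρ x).2 hk
        simp only [h]
        rw [Representation.char_one]
        simp only [Module.finrank_fin_fun]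
        rw [← Nat.cast_mul]
        exact_mod_cast Nat.zero_le _
      · have := character_eq_zero p hp ρ (hcon ⟨ρ.character, n, ρ, hirr, rfl⟩) x hx hk
        simp only [this]
        simp
    let one : Cfsg.IrrCharacter G := ⟨fun _ => 1, Cfsg.Agent.Lib.Char.Burnside2.isIrrCharacter_one⟩
    have h1 := Finset.single_le_sum (f := fun χ : Cfsg.IrrCharacter G => ((χ : G → ℂ) 1 * (χ : G → ℂ) x).re)
      (fun χ _ => hterm χ) (Finset.mem_univ one)
    rw [← Complex.re_sum, hsum] at h1
    simp [one] at h1
    linarith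
  · rintro ⟨χ, hχ⟩
    exact hχ.trans (cod_dvd_card χ.2)

end Cfsg.Agent.S4808
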