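import Mathlib
import Cfsg.Prelude.Def_DegreeGraph
import Cfsg.Agent.Lib.Char.SL2Degrees
import Cfsg.Agent.Lib.PSL2.Basic

set_option autoImplicit false

open Cfsg Cfsg.Agent.Lib.Char.SL2Degrees
open scoped MatrixGroups

namespace Cfsg.Agent.S4812

theorem sq_sub_one_eq (q : ℕ) (h : 1 ≤ q) : q ^ 2 - 1 = (q - 1) * (q + 1) := by
  obtain ⟨k, rfl⟩ : ∃ k, q = k + 1 := ⟨q - 1, by omega⟩
  rw [Nat.add_sub_cancel]
  apply Nat.sub_eq_of_eq_add
  ring

theorem result (F : Type*) [Field F] [Fintype F] [CharP F 2] (q : ℕ) (hq : Fintype.card F = q) (h4 : 4 ≤ q) {S : Type*} [Group S] [Finite S] (hS : Nonempty (S ≃* Matrix.ProjectiveSpecialLinearGroup (Fin 2) F) ∨ Nonempty (S ≃* Matrix.SpecialLinearGroup (Fin 2) F)) : Cfsg.degreePrimes S = {r : ℕ | r.Prime ∧ r ∣ q * (q ^ 2 - 1)} ∧ ∀ r s : ℕ, (Cfsg.degreeGraph S).Adj r s ↔ (r ≠ s ∧ r.Prime ∧ s.Prime ∧ ((r ∣ q + 1 ∧ s ∣ q + 1) ∨ (r ∣ q - 1 ∧ s ∣ q - 1))) := by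
  classical
  have h2 : (2 : F) = 0 := by exact_mod_cast CharP.cast_eq_zero F 2
  have hch : ringChar F = 2 := ringChar.eq F 2
  obtain ⟨e⟩ : Nonempty (S ≃* SL(2, F)) := by
    rcases hS with ⟨⟨e⟩⟩ | h
    · exact ⟨e.trans (Cfsg.Agent.Lib.PSL2.Basic.pslEquivSL h2)⟩
    · exact h
  have hD : charDegrees S = charDegrees (SL(2, F)) := charDegrees_congr e
  obtain ⟨n, -, hn⟩ := FiniteField.card F 2
  rw [hq] at hn
  have hprime : ∀ r : ℕ, r.Prime → r ∣ q → r = 2 := by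
    intro r hr h
    rw [hn] at h
    exact (Nat.prime_dvd_prime_iff_eq hr Nat.prime_two).1 (hr.dvd_of_dvd_pow h)
  have heven : 2 ∣ q := by
    rw [hn]
    exact dvd_pow_self 2 n.ne_zero
  have hlist : ∀ d ∈ charDegrees S, d = 1 ∨ d = q ∨ d = q + 1 ∨ d + 1 = q := by
    intro d hd
    rw [hD] at hd
    have := deg_list d hd
    rw [hq] at this
    obtain ⟨k, hk⟩ := heven
    omega
  have hq0 : q ∈ charDegrees S := by
    rw [hD, ← hq]
    exact q_mem
  have hqp : q + 1 ∈ charDegrees S := by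
    rw [hD, ← hq]
    exact qp_mem_even hch (by omega)
  have hqm : q - 1 ∈ charDegrees S := by
    rw [hD, ← hq]
    exact qm_mem_even hch (by omega)
  refine ⟨?_, ?_⟩
  · ext r
    constructor
    · rintro ⟨hr, d, hd, hrd⟩
      refine ⟨hr, ?_⟩
      rw [sq_sub_one_eq q (by omega)]
      rcases hlist d hd with rfl | rfl | rfl | h
      · exact absurd (Nat.dvd_one.1 hrd) hr.one_lt.ne'
      · exact hrd.trans (dvd_mul_right _ _)
      · exact hrd.trans ((dvd_mul_left _ _).trans (dvd_mul_left _ _))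
      · have : d = q - 1 := by omega
        subst this
        exact hrd.trans ((dvd_mul_right _ _).trans (dvd_mul_left _ _))
    · rintro ⟨hr, h⟩
      refine ⟨hr, ?_⟩
      rw [sq_sub_one_eq q (by omega)] at h
      rcases hr.dvd_mul.1 h with h | h
      · exact ⟨q, hq0, h⟩
      · rcases hr.dvd_mul.1 h with h | h
        · exact ⟨q - 1, hqm, h⟩
        · exact ⟨q + 1, hqp, h⟩
  · intro r s
    constructor
    · rintro ⟨hne, hr, hs, d, hd, hrs⟩
      refine ⟨hne, hr, hs, ?_⟩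
      have hrd : r ∣ d := (dvd_mul_right _ _).trans hrs
      have hsd : s ∣ d := (dvd_mul_left _ _).trans hrs
      rcases hlist d hd with rfl | rfl | rfl | h
      · exact absurd (Nat.dvd_one.1 hrd) hr.one_lt.ne'
      · exact absurd ((hprime r hr hrd).trans (hprime s hs hsd).symm) hne
      · exact Or.inl ⟨hrd, hsd⟩
      · have : d = q - 1 := by omega
        subst this
        exact Or.inr ⟨hrd, hsd⟩
    · rintro ⟨hne, hr, hs, h | h⟩
      · exact ⟨hne, hr, hs, q + 1, hqp,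
          ((Nat.coprime_primes hr hs).2 hne).mul_dvd_of_dvd_of_dvd h.1 h.2⟩
      · exact ⟨hne, hr, hs, q - 1, hqm,
          ((Nat.coprime_primes hr hs).2 hne).mul_dvd_of_dvd_of_dvd h.1 h.2⟩

end Cfsg.Agent.S4812
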