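import Cfsg.Statements.S4813
import Mathlib
import Cfsg.Agent.S4466
import Cfsg.Agent.Lib.Char.MinNonab
import Cfsg.Agent.Lib.Char.AbelianQuot

set_option autoImplicit false
open Cfsg

namespace Cfsg.Agent.S4813

open Cfsg.Agent.Lib.Char.Basic Cfsg.Agent.Lib.Char.Ortho Cfsg.Agent.Lib.Char.Induced
  Cfsg.Agent.Lib.Char.IndRep Cfsg.Agent.Lib.Char.Values Cfsg.Agent.Lib.Char.PrimeIndex
  Cfsg.Agent.Lib.Char.LinearChars Cfsg.Agent.Lib.Char.MinNonab
open scoped ComplexConjugate

/-- If every irreducible complex character of the finite group G of degree greater than one has prime degree, then G has at most three distinct irreducible character degrees. -/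
theorem result {G : Type*} [Group G] [Finite G] (hprime : ∀ d ∈ Cfsg.charDegrees G, d = 1 ∨ d.Prime) : Nat.card ↥(Cfsg.charDegrees G) ≤ 3 := by
  classical
  letI : Fintype G := Fintype.ofFinite G
  have hall : ∀ χ : IrrCharacter G, charDegree (χ : G → ℂ) = 1 ∨ (charDegree (χ : G → ℂ)).Prime :=
    fun χ => hprime _ ⟨χ, rfl⟩
  have hfin : ∀ (a b c : ℕ), Cfsg.charDegrees G ⊆ ({a, b, c} : Finset ℕ) →
      Nat.card ↥(Cfsg.charDegrees G) ≤ 3 := by
    intro a b c hsub
    have hfs : (Cfsg.charDegrees G).Finite := (Finset.finite_toSet _).subset hsub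
    rw [Nat.card_coe_set_eq]
    calc (Cfsg.charDegrees G).ncard ≤ (({a, b, c} : Finset ℕ) : Set ℕ).ncard :=
          Set.ncard_le_ncard hsub (Finset.finite_toSet _)
      _ = ({a, b, c} : Finset ℕ).card := Set.ncard_coe_finset _
      _ ≤ 3 := Finset.card_le_three
  by_cases hna : ∃ a b : G, a * b ≠ b * a
  · have hs : Group.IsSolvable G := Cfsg.Agent.S4466.result (fun χ h => (hall χ).resolve_left h)
    obtain ⟨A, hA, μ, g0, a0, hp, hne⟩ := hasData_of_allPrime _ G rfl hs hall hna
    have := hA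
    letI : Fintype A := Fintype.ofFinite A
    -- the twist
    let ν : A →* ℂˣ :=
      { toFun := fun a => μ ⟨g0 * a * g0⁻¹, hA.conj_mem a a.2 g0⟩ * (μ a)⁻¹
        map_one' := by
          have : (⟨g0 * ((1 : A) : G) * g0⁻¹, hA.conj_mem _ (1 : A).2 g0⟩ : A) = 1 :=
            Subtype.ext (by simp)
          show μ ⟨g0 * ((1 : A) : G) * g0⁻¹, _⟩ * (μ 1)⁻¹ = 1
          rw [this, map_one, inv_one, one_mul]
        map_mul' := by
          intro a b
          have : (⟨g0 * ((a * b : A) : G) * g0⁻¹, hA.conj_mem _ (a * b : A).2 g0⟩ : A) =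
              ⟨g0 * a * g0⁻¹, hA.conj_mem a a.2 g0⟩ * ⟨g0 * b * g0⁻¹, hA.conj_mem b b.2 g0⟩ :=
            Subtype.ext (by simp [mul_assoc])
          rw [this, map_mul, map_mul, mul_inv]
          exact mul_mul_mul_comm _ _ _ _ }
    have hν : ν ≠ 1 := by
      intro h
      apply hne
      have h1 : ν a0 = 1 := by rw [h]; rfl
      exact mul_inv_eq_one.mp h1
    apply hfin 1 A.index (orderOf ν)
    rintro d ⟨χ', rfl⟩
    obtain ⟨χ, hχ⟩ := χ'
    simp only [Finset.coe_insert, Finset.coe_singleton, Set.mem_insert_iff, Set.mem_singleton_iff]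
    by_contra hcon
    push Not at hcon
    obtain ⟨h1, hfx, hsx⟩ := hcon
    have hχc := isCharacter_of_isIrrCharacter hχ
    set n := charDegree χ with hndef
    have hn : χ 1 = n := (IsCharacter.charDegree_cast hχc).symm
    have hnp : n.Prime := (hall ⟨χ, hχ⟩).resolve_left h1
    have hnd : ¬ A.index ∣ n := fun h => hfx
      (((Nat.dvd_prime hnp).1 h).resolve_left hp.one_lt.ne').symm
    have hθ := isIrr_res_of_prime_index A hp hχ hn hnd
    -- the product
    have hΨ := isIrr_mul_hom hθ μ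
    have hinv : ∀ (g : G) (a : A), (fun a : A => χ a * ((μ a : ℂˣ) : ℂ))
        ⟨g * a * g⁻¹, hA.conj_mem a a.2 g⟩ = (fun a : A => χ a * ((μ a : ℂˣ) : ℂ)) a := by
      intro g a
      by_contra hg
      have hind := isIrr_indFun_of_not_invariant A hp hΨ ⟨g, a, hg⟩
      have hdeg : indFun A (fun a : A => χ a * ((μ a : ℂˣ) : ℂ)) 1 = ((A.index * n : ℕ) : ℂ) := by
        rw [indFun_one]
        push_cast
        simp [hn]
      have hcd := IsCharacter.charDegree_eq (isCharacter_of_isIrrCharacter hind) hdeg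
      have h2 := hall ⟨_, hind⟩
      simp only [hcd] at h2
      rcases h2 with h3 | h3
      · have := Nat.eq_one_of_mul_eq_one_left h3
        exact hnp.one_lt.ne' this
      · exact Nat.not_prime_mul hp.one_lt.ne' hnp.one_lt.ne' h3
    have hfix : ∀ a : A, (fun a : A => χ a) a * ((ν a : ℂˣ) : ℂ) = (fun a : A => χ a) a := by
      intro a
      have h2 := hinv g0 a
      simp only at h2
      have h3 : χ (g0 * a * g0⁻¹) = χ a := isClassFunction_of_isCharacter hχc a g0
      rw [h3] at h2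
      have h4 : ((ν a : ℂˣ) : ℂ) = ((μ ⟨g0 * a * g0⁻¹, hA.conj_mem a a.2 g0⟩ : ℂˣ) : ℂ) * ((μ a : ℂˣ) : ℂ)⁻¹ := by
        show (((μ ⟨g0 * a * g0⁻¹, hA.conj_mem a a.2 g0⟩ * (μ a)⁻¹ : ℂˣ)) : ℂ) = _
        simp
      rw [h4]
      have hμne : ((μ a : ℂˣ) : ℂ) ≠ 0 := (μ a).ne_zero
      field_simp
      exact h2
    have hpow : ν ^ n = 1 := by
      ext a
      have := Cfsg.Agent.Lib.Char.TwistDet.pow_eq_one_of_twist hθ ν hfix (by simpa using hn) a
      simpa using this
    have hdvd : orderOf ν ∣ n := orderOf_dvd_of_pow_eq_one hpow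
    rcases (Nat.dvd_prime hnp).1 hdvd with h5 | h5
    · exact hν (orderOf_eq_one_iff.mp h5)
    · exact hsx h5.symm
  · -- abelian case
    push Not at hna
    apply hfin 1 1 1
    rintro d ⟨χ', rfl⟩
    obtain ⟨χ, n, ρ, hρ, rfl⟩ := χ'
    have := hρ
    have h1 : Module.finrank ℂ (Fin n → ℂ) = 1 :=
      Cfsg.Agent.Lib.Char.AbelianQuot.finrank_eq_one_of_commuting ρ (fun x y => by
        have h2 := congrArg ρ (hna x y)
        rw [map_mul, map_mul] at h2
        exact h2)
    have h2 : charDegree ρ.character = 1 := by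
      apply IsCharacter.charDegree_eq (isCharacter_of_isIrrCharacter ⟨n, ρ, hρ, rfl⟩)
      rw [Representation.char_one, h1]
    simp [h2]

end Cfsg.Agent.S4813
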