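import Cfsg.Statements.S4825
import Mathlib
import Cfsg.Agent.S0907
import Cfsg.Agent.Lib.Blocks.Osima
import Cfsg.Agent.Lib.Blocks.PElements
import Cfsg.Agent.Lib.Char.CliffordCorr
import Cfsg.Agent.Lib.Char.Monomial

set_option autoImplicit false
set_option linter.style.haveILetI false
open Cfsg

namespace Cfsg.Agent.S4825

theorem sq2 : ∀ w : ZMod 2, w ≠ 0 → w ^ 2 = 1 := by decide
theorem sq3 : ∀ w : ZMod 3, w ≠ 0 → w ^ 2 = 1 := by decide

open Cfsg.Agent.Lib.Blocks.Local Cfsg.Agent.Lib.Blocks.Central Cfsg.Agent.Lib.Blocks.Osima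
open Cfsg.Agent.Lib.Char.Ortho Cfsg.Agent.Lib.Char.Basic

section Key

variable {G : Type*} [Group G] [Fintype G] {N : Subgroup G} [hN : N.Normal] [Fintype N]

lemma asAlg_eq {m : ℕ} (ρ : Representation ℂ N (Fin m → ℂ)) (a : MonoidAlgebra ℂ N) :
    ρ.asAlgebraHom a = ∑ n : N, a.coeff n • ρ n := by
  classical
  have h1 : a = ∑ g : N, MonoidAlgebra.single g (a.coeff g) := by
    ext x
    simp [MonoidAlgebra.coeff_sum, MonoidAlgebra.coeff_single]
  conv_lhs => rw [h1]
  rw [map_sum]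
  refine Finset.sum_congr rfl fun g _ => ?_
  rw [Representation.asAlgebraHom_single]

/-- The congruence: the trace of a `p`-element on the `θ`-isotypic part. -/
theorem key_congr {p : ℕ} {M : Ideal AlgInt} (hM : IsPModular p M) {m : ℕ}
    (ρ : Representation ℂ G (Fin m → ℂ)) (θ : IrrCharacter N) (u : G) {k : ℕ} (hu : u ^ (p ^ k) = 1)
    (hinv : ∀ n : N, (θ : N → ℂ) ⟨u * n * u⁻¹, hN.conj_mem n n.2 u⟩ = (θ : N → ℂ) n) :
    MemLocalIdeal M (∑ n : N, blockCoeff ({θ} : Set (IrrCharacter N)) n * ρ.character (u * n) -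
      ∑ n : N, blockCoeff ({θ} : Set (IrrCharacter N)) n * ρ.character n) := by
  classical
  have hMp := isPrime_of_isPModular hM
  set a : N → ℂ := fun n => blockCoeff ({θ} : Set (IrrCharacter N)) n with ha
  let ρ' : Representation ℂ N (Fin m → ℂ) := ρ.comp N.subtype
  set E : Module.End ℂ (Fin m → ℂ) := ∑ n : N, a n • ρ n with hE
  have hEeq : E = ρ'.asAlgebraHom (blockElt ({θ} : Set (IrrCharacter N))) := by
    rw [asAlg_eq, hE]
    refine Finset.sum_congr rfl fun n _ => ?_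
    rw [coeff_blockElt]
    rfl
  have hEE : E * E = E := by
    rw [hEeq, ← map_mul, blockElt_mul_self]
  set A : Module.End ℂ (Fin m → ℂ) := ρ u with hA
  have haconj : ∀ n : N, a ⟨u * n * u⁻¹, hN.conj_mem n n.2 u⟩ = a n := by
    intro n
    simp only [ha, blockCoeff, finsum_mem_singleton]
    rw [hinv]
  have hAE : A * E = E * A := by
    rw [hE, Finset.mul_sum, Finset.sum_mul]
    let e : N ≃ N := (MulAut.conjNormal u).toEquiv
    have he : ∀ n : N, ((e n : N) : G) = u * n * u⁻¹ := fun n => by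
      simp [e, MulAut.conjNormal_apply]
    rw [← Equiv.sum_comp e (fun n : N => a n • ρ n * A)]
    refine Finset.sum_congr rfl fun n _ => ?_
    have h1 : a (e n) = a n := by
      have : e n = ⟨u * n * u⁻¹, hN.conj_mem n n.2 u⟩ := Subtype.ext (he n)
      rw [this, haconj]
    rw [h1, mul_smul_comm, smul_mul_assoc]
    congr 1
    rw [hA, ← map_mul, ← map_mul, he]
    congr 1
    group
  set f : Module.End ℂ (Fin m → ℂ) := A * E + (1 - E) with hf
  have hfpow : ∀ j : ℕ, f ^ j = A ^ j * E + (1 - E) := by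
    intro j
    induction j with
    | zero => simp
    | succ j ih =>
      rw [pow_succ, ih, hf]
      have h1 : E * A = A * E := hAE.symm
      have h2 : A ^ j * E * (A * E) = A ^ (j + 1) * E := by
        rw [mul_assoc, ← mul_assoc E, h1, mul_assoc A, hEE, ← mul_assoc, pow_succ]
      have h3 : A ^ j * E * (1 - E) = 0 := by
        rw [mul_assoc, mul_sub, mul_one, hEE, sub_self, mul_zero]
      have h4 : (1 - E) * (A * E) = 0 := by
        rw [sub_mul, one_mul, ← mul_assoc E, h1, mul_assoc A, hEE, sub_self]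
      have h5 : (1 - E) * (1 - E) = 1 - E := by
        rw [sub_mul, one_mul, mul_sub, mul_one, hEE, sub_self, sub_zero]
      rw [add_mul, mul_add, mul_add, h2, h3, h4, h5]
      abel
  have hfp : f ^ (p ^ k) = 1 := by
    rw [hfpow, hA, ← map_pow, hu, map_one, one_mul]
    abel
  have hpos : 0 < p ^ k := pow_pos hM.1.pos k
  obtain ⟨n', b, μ, hb, hμ⟩ := exists_eigenbasis f hpos hfp
  have htr := trace_eq_sum_of_eigenbasis f b μ hb
  have hn' : n' = m := by
    have := Module.finrank_eq_card_basis b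
    simpa using this.symm
  subst hn'
  have htrf : LinearMap.trace ℂ (Fin n' → ℂ) f =
      LinearMap.trace ℂ (Fin n' → ℂ) (A * E) + (n' : ℂ) - LinearMap.trace ℂ (Fin n' → ℂ) E := by
    rw [hf, map_add, map_sub]
    have : LinearMap.trace ℂ (Fin n' → ℂ) (1 : Module.End ℂ (Fin n' → ℂ)) = (n' : ℂ) := by
      rw [LinearMap.trace_one]
      simp
    rw [this]
    ring
  have h1 : LinearMap.trace ℂ (Fin n' → ℂ) (A * E) = ∑ n : N, a n * ρ.character (u * n) := by
    rw [hE, Finset.mul_sum, map_sum]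
    refine Finset.sum_congr rfl fun n _ => ?_
    rw [mul_smul_comm, map_smul, smul_eq_mul, hA, ← map_mul]
    rfl
  have h2 : LinearMap.trace ℂ (Fin n' → ℂ) E = ∑ n : N, a n * ρ.character n := by
    rw [hE, map_sum]
    refine Finset.sum_congr rfl fun n _ => ?_
    rw [map_smul, smul_eq_mul]
    rfl
  have h3 : (∑ n : N, a n * ρ.character (u * n) - ∑ n : N, a n * ρ.character n) =
      ∑ i : Fin n', (μ i - 1) := by
    rw [← h1, ← h2]
    have h4 : ∑ i : Fin n', (μ i - 1) = ∑ i, μ i - n' := by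
      rw [Finset.sum_sub_distrib]
      simp
    rw [h4, ← htr, htrf]
    ring
  rw [h3]
  exact memLocalIdeal_sum _ _ fun i _ => Cfsg.Agent.Lib.Blocks.PElements.memLocalIdeal_sub_one_of_pow hM (hμ i)

end Key

/-- Let p be a prime, G a finite group with Sylow p-subgroup P, M a maximal ideal of the algebraic integers containing p, and B a p-block of G with defect group P. Let N be a normal subgroup of G not containing P and θ an irreducible character of N. Then the number of irreducible characters in B of degree prime to p lying over θ (having θ as a constituent on restriction to N) is either 0 or at least 2, and when p ≤ 3 it is divisible by p. -/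
theorem result {G : Type*} [Group G] [Fintype G] (p : ℕ) [Fact p.Prime] (P : Sylow p G) (M : Ideal Cfsg.AlgInt) (hM : Cfsg.IsPModular p M) (B : Set (Cfsg.IrrCharacter G)) (hB : Cfsg.IsPBlock M B) (hBP : Cfsg.IsDefectGroup p M B P) (N : Subgroup G) [N.Normal] [Fintype N] (hPN : ¬ (P : Subgroup G) ≤ N) (θ : Cfsg.IrrCharacter N) :
    (Nat.card {χ : Cfsg.IrrCharacter G // χ ∈ B ∧ ¬ p ∣ Cfsg.charDegree (χ : G → ℂ) ∧ Cfsg.classInner (fun n : N => (χ : G → ℂ) n) (θ : N → ℂ) ≠ 0} = 0 ∨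
      2 ≤ Nat.card {χ : Cfsg.IrrCharacter G // χ ∈ B ∧ ¬ p ∣ Cfsg.charDegree (χ : G → ℂ) ∧ Cfsg.classInner (fun n : N => (χ : G → ℂ) n) (θ : N → ℂ) ≠ 0}) ∧
    (p ≤ 3 → p ∣ Nat.card {χ : Cfsg.IrrCharacter G // χ ∈ B ∧ ¬ p ∣ Cfsg.charDegree (χ : G → ℂ) ∧ Cfsg.classInner (fun n : N => (χ : G → ℂ) n) (θ : N → ℂ) ≠ 0}) := by
  classical
  have hp : p.Prime := Fact.out
  haveI hMp := isPrime_of_isPModular hM
  have hNn : N.Normal := inferInstance
  -- natural numbers
  have hdeg : ∀ χ : IrrCharacter G, (χ : G → ℂ) 1 = (charDegree (χ : G → ℂ) : ℂ) := by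
    intro χ
    obtain ⟨n, hn0, hn⟩ := irr_degree_pos χ.2
    rw [hn, charDegree, hn]
    simp
  have hdegθ : (θ : N → ℂ) 1 = (charDegree (θ : N → ℂ) : ℂ) := by
    obtain ⟨n, hn0, hn⟩ := irr_degree_pos θ.2
    rw [hn, charDegree, hn]
    simp
  have hex : ∀ χ : IrrCharacter G, ∃ e : ℕ, classInner (fun n : N => (χ : G → ℂ) n) (θ : N → ℂ) = e := fun χ =>
    exists_nat_classInner (isCharacter_restrict (isCharacter_of_isIrrCharacter χ.2) N) θ
  choose e he using hex
  set X : Finset (IrrCharacter G) := Finset.univ.filter (fun χ => χ ∈ B ∧ ¬ p ∣ charDegree (χ : G → ℂ) ∧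
    classInner (fun n : N => (χ : G → ℂ) n) (θ : N → ℂ) ≠ 0) with hX
  have hcard : Nat.card {χ : IrrCharacter G // χ ∈ B ∧ ¬ p ∣ charDegree (χ : G → ℂ) ∧
      classInner (fun n : N => (χ : G → ℂ) n) (θ : N → ℂ) ≠ 0} = X.card := by
    rw [Nat.card_eq_fintype_card, Fintype.card_subtype]
  rw [hcard]
  by_cases hXe : X = ∅
  · rw [hXe]
    simp
  obtain ⟨χ₀, hχ₀⟩ := Finset.nonempty_iff_ne_empty.mpr hXe
  obtain ⟨-, hχ₀B, hχ₀d, hχ₀e⟩ := Finset.mem_filter.mp hχ₀
  set T : Subgroup G := Cfsg.Agent.Lib.Char.Monomial.inertiaOf N (θ : N → ℂ) with hT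
  have hTm := Cfsg.Agent.Lib.Char.Monomial.mem_inertiaOf N (θ : N → ℂ)
  set t := T.index with ht
  set tθ := charDegree (θ : N → ℂ) with htθ
  -- Clifford
  have hcl : ∀ χ : IrrCharacter G, e χ ≠ 0 → charDegree (χ : G → ℂ) = e χ * (t * tθ) := by
    intro χ hχ
    have h1 := Cfsg.Agent.Lib.Char.CliffordCorr.apply_one_eq N (θ : N → ℂ) T θ.2 hTm χ.2 (by
      rw [he χ]
      exact_mod_cast hχ)
    rw [hdeg χ, he χ, hdegθ] at h1
    exact_mod_cast h1
  have h0 := hcl χ₀ (by
    intro h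
    apply hχ₀e
    rw [he χ₀, h]
    simp)
  have hpt : ¬ p ∣ t := fun h => hχ₀d (by rw [h0]; exact Dvd.dvd.mul_left (Dvd.dvd.mul_right h _) _)
  have hpθ : ¬ p ∣ tθ := fun h => hχ₀d (by rw [h0]; exact Dvd.dvd.mul_left (Dvd.dvd.mul_left h _) _)
  -- the element
  obtain ⟨u, huT, huN, k, huk⟩ : ∃ u ∈ T, u ∉ N ∧ ∃ k : ℕ, u ^ (p ^ k) = 1 := by
    have hfix := IsPGroup.nonempty_fixed_point_of_prime_not_dvd_card P.isPGroup' (G ⧸ T) hpt
    obtain ⟨q, hq⟩ := hfix
    obtain ⟨g, rfl⟩ := QuotientGroup.mk_surjective q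
    obtain ⟨x, hxP, hxN⟩ : ∃ x ∈ (P : Subgroup G), x ∉ N := by
      by_contra hcon
      exact hPN fun x hx => by
        by_contra hxN
        exact hcon ⟨x, hx, hxN⟩
    have h1 := hq ⟨x, hxP⟩
    have h2 : ((x * g : G) : G ⧸ T) = (g : G ⧸ T) := h1
    rw [QuotientGroup.eq] at h2
    refine ⟨g⁻¹ * x * g, ?_, ?_, ?_⟩
    · have : (x * g)⁻¹ * g = g⁻¹ * x⁻¹ * g := by group
      rw [this] at h2
      have h3 := T.inv_mem h2
      have : (g⁻¹ * x⁻¹ * g)⁻¹ = g⁻¹ * x * g := by group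
      rwa [this] at h3
    · intro h
      apply hxN
      have := hNn.conj_mem _ h g
      have h4 : g * (g⁻¹ * x * g) * g⁻¹ = x := by group
      rwa [h4] at this
    · obtain ⟨k, hk⟩ := P.isPGroup' ⟨x, hxP⟩
      refine ⟨k, ?_⟩
      have h5 : x ^ (p ^ k) = 1 := congrArg Subtype.val hk
      have h6 : (g⁻¹ * x * g) ^ (p ^ k) = g⁻¹ * x ^ (p ^ k) * g := by
        have := conj_pow (a := g⁻¹) (b := x) (i := p ^ k)
        simpa using this
      rw [h6, h5]
      group
  have hinv : ∀ n : N, (θ : N → ℂ) ⟨u * n * u⁻¹, hNn.conj_mem n n.2 u⟩ = (θ : N → ℂ) n := (hTm u).mp huT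
  -- singular elements
  have hsing : ∀ n : N, p ∣ orderOf (u * n) := by
    intro n
    by_contra hcon
    let f : G →* G ⧸ N := QuotientGroup.mk' N
    have h1 : f (u * n) = f u := by
      rw [map_mul]
      have : f n = 1 := (QuotientGroup.eq_one_iff _).mpr n.2
      rw [this, mul_one]
    have h2 : orderOf (f u) ∣ orderOf (u * n) := by
      rw [← h1]
      exact orderOf_map_dvd f _
    have h3 : orderOf (f u) ∣ p ^ k := by
      apply orderOf_dvd_of_pow_eq_one
      rw [← map_pow, huk, map_one]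
    have h4 : Nat.Coprime (orderOf (f u)) (orderOf (u * n)) := by
      have : Nat.Coprime (p ^ k) (orderOf (u * n)) :=
        Nat.Coprime.pow_left _ ((Nat.Prime.coprime_iff_not_dvd hp).mpr hcon)
      exact Nat.Coprime.coprime_dvd_left h3 this
    have h5 : orderOf (f u) = 1 := Nat.Coprime.eq_one_of_dvd h4 h2
    rw [orderOf_eq_one_iff] at h5
    exact huN ((QuotientGroup.eq_one_iff _).mp h5)
  set a : N → ℂ := fun n => blockCoeff ({θ} : Set (IrrCharacter N)) n with ha
  have ha' : ∀ n : N, a n = (Nat.card N : ℂ)⁻¹ * ((θ : N → ℂ) 1 * (starRingEnd ℂ) ((θ : N → ℂ) n)) := by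
    intro n
    simp only [ha, blockCoeff, finsum_mem_singleton]
  -- the congruence for each character
  have hkey : ∀ χ : IrrCharacter G, MemLocalIdeal M (∑ n : N, a n * (χ : G → ℂ) (u * n) -
      (tθ : ℂ) * (e χ : ℂ)) := by
    intro χ
    obtain ⟨m, ρ, -, hρ⟩ := χ.2
    have h1 := key_congr hM ρ θ u huk hinv
    rw [hρ] at h1
    have h2 : ∑ n : N, blockCoeff ({θ} : Set (IrrCharacter N)) n * (χ : G → ℂ) n = (tθ : ℂ) * (e χ : ℂ) := by
      rw [← he χ, ← hdegθ, classInner, Finset.mul_sum, Finset.mul_sum]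
      refine Finset.sum_congr rfl fun n _ => ?_
      have := ha' n
      simp only [ha] at this
      rw [this]
      ring
    rw [h2] at h1
    exact h1
  set F : Finset (IrrCharacter G) := Finset.univ.filter (· ∈ B) with hF
  have hzero : ∀ n : N, ∑ χ ∈ F, (charDegree (χ : G → ℂ) : ℂ) * (χ : G → ℂ) (u * n) = 0 := by
    intro n
    have h1 := Cfsg.Agent.S0907.result p M hM B hB 1 (u * n)⁻¹ (by simpa using hp.one_lt.ne') (by
      rw [orderOf_inv]
      exact hsing n)
    rw [Cfsg.Agent.Lib.Blocks.Osima.finsum_mem_eq_sum_filter] at h1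
    rw [← h1]
    refine Finset.sum_congr rfl fun χ _ => ?_
    rw [hdeg χ, conj_of_isCharacter (isCharacter_of_isIrrCharacter χ.2), inv_inv]
  have hSsum : MemLocalIdeal M (((∑ χ ∈ F, charDegree (χ : G → ℂ) * (tθ * e χ) : ℕ) : ℂ)) := by
    have h1 : MemLocalIdeal M (∑ χ ∈ F, (charDegree (χ : G → ℂ) : ℂ) *
        (∑ n : N, a n * (χ : G → ℂ) (u * n) - (tθ : ℂ) * (e χ : ℂ))) :=
      memLocalIdeal_sum _ _ fun χ _ => memLocalIdeal_mul_left (memLocalRing_natCast _) (hkey χ)
    have h2 : (∑ χ ∈ F, (charDegree (χ : G → ℂ) : ℂ) *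
        (∑ n : N, a n * (χ : G → ℂ) (u * n) - (tθ : ℂ) * (e χ : ℂ))) =
        - ((∑ χ ∈ F, charDegree (χ : G → ℂ) * (tθ * e χ) : ℕ) : ℂ) := by
      have h3 : ∑ χ ∈ F, (charDegree (χ : G → ℂ) : ℂ) * ∑ n : N, a n * (χ : G → ℂ) (u * n) = 0 := by
        have h4 : ∑ χ ∈ F, (charDegree (χ : G → ℂ) : ℂ) * ∑ n : N, a n * (χ : G → ℂ) (u * n) =
            ∑ n : N, a n * ∑ χ ∈ F, (charDegree (χ : G → ℂ) : ℂ) * (χ : G → ℂ) (u * n) := by
          simp only [Finset.mul_sum]
          rw [Finset.sum_comm]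
          refine Finset.sum_congr rfl fun n _ => Finset.sum_congr rfl fun χ _ => ?_
          ring
        rw [h4]
        exact Finset.sum_eq_zero fun n _ => by rw [hzero n, mul_zero]
      simp only [mul_sub, Finset.sum_sub_distrib]
      rw [h3]
      push_cast
      ring
    rw [h2] at h1
    have := memLocalIdeal_neg h1
    rwa [neg_neg] at this
  rw [memLocalIdeal_natCast_iff hM] at hSsum
  -- modulo `p`
  have hz : ∑ χ ∈ X, (t : ZMod p) * ((tθ : ZMod p) * (e χ : ZMod p)) ^ 2 = 0 := by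
    have h1 : ((∑ χ ∈ F, charDegree (χ : G → ℂ) * (tθ * e χ) : ℕ) : ZMod p) = 0 :=
      (ZMod.natCast_eq_zero_iff _ _).mpr hSsum
    rw [← h1]
    push_cast
    have hXF : X ⊆ F := by
      intro χ hχ
      exact Finset.mem_filter.mpr ⟨Finset.mem_univ _, (Finset.mem_filter.mp hχ).2.1⟩
    rw [← Finset.sum_subset hXF]
    · refine Finset.sum_congr rfl fun χ hχ => ?_
      obtain ⟨-, -, -, h3⟩ := Finset.mem_filter.mp hχ
      have h4 : e χ ≠ 0 := by
        intro h
        apply h3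
        rw [he χ, h]
        simp
      rw [hcl χ h4]
      push_cast
      ring
    · intro χ hχF hχX
      have hχB : χ ∈ B := (Finset.mem_filter.mp hχF).2
      by_cases h4 : e χ = 0
      · rw [h4]
        simp
      · have h5 : p ∣ charDegree (χ : G → ℂ) := by
          by_contra h6
          apply hχX
          refine Finset.mem_filter.mpr ⟨Finset.mem_univ _, hχB, h6, ?_⟩
          rw [he χ]
          exact_mod_cast h4
        have h6 : (charDegree (χ : G → ℂ) : ZMod p) = 0 := (ZMod.natCast_eq_zero_iff _ _).mpr h5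
        rw [h6, zero_mul]
  have hunit : ∀ χ ∈ X, (tθ : ZMod p) * (e χ : ZMod p) ≠ 0 := by
    intro χ hχ
    obtain ⟨-, -, h2, h3⟩ := Finset.mem_filter.mp hχ
    have h4 : e χ ≠ 0 := by
      intro h
      apply h3
      rw [he χ, h]
      simp
    rw [hcl χ h4] at h2
    intro h
    have h5 : ((tθ * e χ : ℕ) : ZMod p) = 0 := by
      push_cast
      exact h
    have h6 := (ZMod.natCast_eq_zero_iff _ _).mp h5
    apply h2
    have : e χ * (t * tθ) = t * (tθ * e χ) := by ring
    rw [this]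
    exact Dvd.dvd.mul_left h6 _
  have ht0 : (t : ZMod p) ≠ 0 := fun h => hpt ((ZMod.natCast_eq_zero_iff _ _).mp h)
  constructor
  · right
    by_contra hlt
    have hpos : 0 < X.card := Finset.card_pos.mpr ⟨χ₀, hχ₀⟩
    have h1 : X.card = 1 := by omega
    obtain ⟨χ₁, hχ₁⟩ := Finset.card_eq_one.mp h1
    rw [hχ₁, Finset.sum_singleton] at hz
    have h2 := hunit χ₁ (by rw [hχ₁]; simp)
    exact mul_ne_zero ht0 (pow_ne_zero 2 h2) hz
  · intro hp3
    have hsq : ∀ w : ZMod p, w ≠ 0 → w ^ 2 = 1 := by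
      have h23 : p = 2 ∨ p = 3 := by
        have := hp.two_le
        omega
      rcases h23 with rfl | rfl
      · intro w hw
        exact sq2 w hw
      · intro w hw
        exact sq3 w hw
    have h1 : ∑ χ ∈ X, (t : ZMod p) * ((tθ : ZMod p) * (e χ : ZMod p)) ^ 2 = (X.card : ZMod p) * t := by
      rw [Finset.sum_congr rfl (fun χ hχ => by rw [hsq _ (hunit χ hχ), mul_one])]
      simp
    rw [h1] at hz
    have h2 := (mul_eq_zero.mp hz).resolve_right ht0
    exact (ZMod.natCast_eq_zero_iff _ _).mp h2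

end Cfsg.Agent.S4825
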