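import Cfsg.Statements.S4837
import Cfsg.Agent.Lib.Char.Gagola
-- import your own Cfsg.Agent.* helpers here

set_option autoImplicit false
open Cfsg

namespace Cfsg.Agent.S4837

/-- Let G be a finite group of order greater than 2 with an irreducible character χ nonzero on exactly two conjugacy classes, and let N be the set of elements where χ is nonzero, given as a nontrivial normal p-subgroup of G for the prime p. Then for every nonidentity x in N the centralizer C_G(x) is a Sylow p-subgroup of G, and for every irreducible character λ ≠ 1 of N the stabilizer of λ in G (its inertia group) is a Sylow p-subgroup of G. -/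
theorem result {G : Type*} [Group G] [Finite G] (hG : 2 < Nat.card G) (χ : Cfsg.IrrCharacter G) (hχ : Nat.card {C : ConjClasses G // ∃ g ∈ C.carrier, (χ : G → ℂ) g ≠ 0} = 2) (p : ℕ) [Fact p.Prime] (N : Subgroup G) [N.Normal] (hN : ∀ g : G, g ∈ N ↔ (χ : G → ℂ) g ≠ 0) (hNp : IsPGroup p N) (hN1 : N ≠ ⊥) :
    (∀ x ∈ N, x ≠ 1 → ∃ P : Sylow p G, Subgroup.centralizer ({x} : Set G) = P) ∧
      (∀ μ : Cfsg.IrrCharacter N, (μ : N → ℂ) ≠ (fun _ => (1 : ℂ)) → ∃ P : Sylow p G, ∀ g : G, g ∈ (P : Subgroup G) ↔ ∀ n n' : N, (n' : G) = g * n * g⁻¹ → (μ : N → ℂ) n' = (μ : N → ℂ) n) := by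
  
  have h := Cfsg.Agent.Lib.Char.Gagola.twoClass_of hG hχ hN
  refine ⟨fun x hx hx1 => h.exists_sylow_centralizer hNp hx hx1, ?_⟩
  intro μ hμ
  obtain ⟨φ, hφ⟩ := h.exists_hom μ
  have hφ1 : φ ≠ 1 := by
    rintro rfl
    apply hμ
    rw [hφ]
    simp
  obtain ⟨P, hP⟩ := h.exists_sylow_stab hNp hφ1
  refine ⟨P, fun g => ?_⟩
  rw [hP, h.mem_stab, hφ]
  constructor
  · intro hg n n' hn
    have hn' : n' = MulAut.conjNormal g n := by
      apply Subtype.ext
      rw [hn, MulAut.conjNormal_apply]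
    simp only
    rw [hn', hg n]
  · intro hg n
    apply Units.ext
    exact hg n _ (by rw [MulAut.conjNormal_apply])

end Cfsg.Agent.S4837
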