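import Cfsg.Statements.S4843
import Mathlib
import Cfsg.Agent.Lib.Char.MackeyNormal
import Cfsg.Agent.Lib.Char.GoingDown
import Cfsg.Agent.Lib.Char.Galois
import Cfsg.Agent.Lib.Char.LinearChars
import Cfsg.Agent.Lib.Char.Monomial
import Cfsg.Agent.Lib.Char.AbelianQuot
import Cfsg.Agent.Lib.Char.FrobeniusKernel
import Cfsg.Agent.Lib.Nilpotent.Fitting
import Cfsg.Agent.S0169
import Cfsg.Agent.S0890

set_option autoImplicit false
open Cfsg

namespace Cfsg.Agent.S4843

open Cfsg.Agent.Lib.Char.Basic Cfsg.Agent.Lib.Char.Ortho Cfsg.Agent.Lib.Char.Induced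
  Cfsg.Agent.Lib.Char.IndRep Cfsg.Agent.Lib.Char.Clifford Cfsg.Agent.Lib.Char.CliffordCorr
  Cfsg.Agent.Lib.Char.Monomial Cfsg.Agent.Lib.Char.GoingDown Cfsg.Agent.Lib.Char.MackeyNormal
  Cfsg.Agent.Lib.Char.Galois
open scoped ComplexConjugate

universe u

section Central
variable {G : Type u} [Group G]

/-- A central element acts on an irreducible representation by a scalar. -/
theorem central_mul [Finite G] {χ : G → ℂ} (hχ : IsIrrCharacter G χ) {z : G}
    (hz : ∀ g, g * z = z * g) (g : G) : χ (z * g) * χ 1 = χ z * χ g := by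
  obtain ⟨n, ρ, hρ, rfl⟩ := hχ
  haveI := hρ
  obtain ⟨a, ha⟩ := Cfsg.Agent.Lib.Char.Integrality.exists_smul_id_of_commute ρ (ρ z) (fun g => by
    show ρ z * ρ g = ρ g * ρ z
    rw [← map_mul, ← map_mul, hz])
  have h1 : ∀ y, ρ.character (z * y) = a * ρ.character y := by
    intro y
    show LinearMap.trace ℂ _ (ρ (z * y)) = a * LinearMap.trace ℂ _ (ρ y)
    rw [map_mul, ha]
    have : a • (LinearMap.id : (Fin n → ℂ) →ₗ[ℂ] (Fin n → ℂ)) * ρ y = a • ρ y := by
      ext v i
      simp
    rw [this, map_smul, smul_eq_mul]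
  rw [h1 g]
  have := h1 1
  rw [mul_one] at this
  rw [this]
  ring

end Central

section Quasi
variable {G : Type u} [Group G] [Fintype G]

/-- The norm of a restricted Galois conjugate. -/
theorem classInner_pow_res (T : Subgroup G) [Fintype T] (χ : G → ℂ) {k : ℕ}
    (hk : k.Coprime (Nat.card G)) :
    classInner (fun t : T => χ ((t : G) ^ k)) (fun t : T => χ ((t : G) ^ k)) =
      classInner (fun t : T => χ t) (fun t : T => χ t) := by
  classical
  have hc : (Nat.card T).Coprime k :=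
    Nat.Coprime.coprime_dvd_left (Subgroup.card_subgroup_dvd_card T) hk.symm
  unfold classInner
  congr 1
  have := Equiv.sum_comp (powCoprime hc) (fun t : T => χ t * conj (χ t))
  rw [← this]
  refine Finset.sum_congr rfl (fun t _ => ?_)
  simp [powCoprime]

/-- If the product of `χ` and a Galois conjugate is irreducible, `χ` is quasi-primitive. -/
theorem invariant_of_irr_product {χ : G → ℂ} (hχ : IsIrrCharacter G χ) {k : ℕ}
    (hk : k.Coprime (Nat.card G)) (hω : IsIrrCharacter G (fun g => χ g * χ (g ^ k)))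
    (N : Subgroup G) [hN : N.Normal] [Fintype N] {μ : N → ℂ} (hμ : IsIrrCharacter N μ)
    (hne : classInner (fun n : N => χ n) μ ≠ 0) (g : G) (n : N) :
    μ ⟨g * n * g⁻¹, hN.conj_mem (n : G) n.2 g⟩ = μ n := by
  classical
  have hχc := isCharacter_of_isIrrCharacter hχ
  have hχσc : IsCharacter G (fun g => χ (g ^ k)) := isCharacter_pow_of_coprime hχc hk
  have hχσcl := isClassFunction_of_isCharacter hχσc
  set T : Subgroup G := inertiaOf N μ with hTdef
  letI : Fintype T := Fintype.ofFinite _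
  have hNT : N ≤ T := by
    intro a ha n
    have hcl := isClassFunction_of_isCharacter (isCharacter_of_isIrrCharacter hμ)
    exact hcl n ⟨a, ha⟩
  suffices hTtop : T = ⊤ by
    have hg : g ∈ T := hTtop ▸ Subgroup.mem_top g
    exact hg n
  obtain ⟨ψ, hψ, hind, -⟩ := exists_indFun_eq N μ T hNT hμ (mem_inertiaOf N μ) hχ hne
  have hψc := isCharacter_of_isIrrCharacter hψ
  by_contra hTne
  have hIdx : T.index ≠ 1 := fun h => hTne (Subgroup.index_eq_one.mp h)
  have hψ1 : ψ 1 ≠ 0 := irr_apply_one_ne_zero hψ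
  -- `χ_T` is reducible
  have h1 : classInner (fun t : T => χ t) (fun t : T => χ t) ≠ 1 := by
    intro h
    have hχT : IsIrrCharacter T (fun t : T => χ t) :=
      isIrrCharacter_of_classInner_self_eq_one (isCharacter_restrict hχc T) h
    have h2 := frobenius_reciprocity T ψ χ (isClassFunction_of_isCharacter hχc)
    rw [hind, classInner_irr_self hχ] at h2
    have h3 : ψ = fun t : T => χ t := by
      by_contra hcon
      have := classInner_irr_of_ne hψ hχT hcon
      rw [this] at h2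
      exact one_ne_zero h2
    have h4 : χ 1 = (T.index : ℂ) * ψ 1 := by
      rw [← indFun_one T ψ, hind]
    have h5 : ψ 1 = χ 1 := by
      rw [h3]
      simp
    rw [h5] at h4
    have h6 : (T.index : ℂ) = 1 := by
      have h7 := irr_apply_one_ne_zero hχ
      field_simp at h4
      exact h4.symm
    exact hIdx (by exact_mod_cast h6)
  -- so is the restriction of the conjugate
  set β : T → ℂ := fun t : T => χ ((t : G) ^ k) with hβ
  have hβc : IsCharacter T β := isCharacter_restrict hχσc T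
  have hβ1 : β 1 ≠ 0 := by
    simp only [hβ]
    simpa using irr_apply_one_ne_zero hχ
  obtain ⟨ν, hν, hνne⟩ := exists_irr_constituent hβc hβ1
  obtain ⟨Ξ, hΞ, hadd⟩ := exists_char_add hβc hν hνne
  have hΞ1 : Ξ 1 ≠ 0 := by
    intro h0
    have h2 := eq_zero_of_apply_one_eq_zero hΞ h0
    apply h1
    rw [← classInner_pow_res T χ hk]
    change classInner β β = 1
    rw [hadd, h2, add_zero]
    exact classInner_irr_self hν
  -- the product decomposes
  have hω2 : (fun g => χ g * χ (g ^ k)) =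
      indFun T (ψ * ν) + indFun T (ψ * Ξ) := by
    have h2 : (fun g => χ g * χ (g ^ k)) = indFun T (ψ * β) := by
      rw [← Cfsg.Agent.Lib.Char.Gallagher.indFun_mul_res T ψ hχσcl, hind]
      rfl
    rw [h2, hadd, mul_add]
    exact Cfsg.Agent.Lib.Char.FrobeniusKernel.indFun_add_fun _ _
  have hνc := isCharacter_of_isIrrCharacter hν
  have hc1 := isCharacter_indFun T (isCharacter_mul hψc hνc)
  have hc2 := isCharacter_indFun T (isCharacter_mul hψc hΞ)
  have hI : (T.index : ℂ) ≠ 0 := by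
    exact_mod_cast (Subgroup.index_ne_zero_of_finite (H := T))
  have h3 : indFun T (ψ * ν) 1 ≠ 0 := by
    rw [indFun_one]
    simp only [Pi.mul_apply]
    exact mul_ne_zero hI (mul_ne_zero hψ1 (irr_apply_one_ne_zero hν))
  have h4 := eq_zero_of_irr_eq_add hω hc1 hc2 hω2 h3
  have h5 := congrFun h4 1
  rw [indFun_one] at h5
  simp only [Pi.mul_apply, Pi.zero_apply] at h5
  exact (mul_ne_zero hI (mul_ne_zero hψ1 hΞ1)) h5

end Quasi

section Main
variable {G : Type u} [Group G] [Fintype G]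

/-- If `ε` is trivial where `τ` does not vanish, `ε^G` is a constituent of `τ τ̄`. -/
theorem classInner_ind_abs_ne_zero (T : Subgroup G) [Fintype T] {ε : T → ℂ} {τ : G → ℂ}
    (hτ1 : τ 1 ≠ 0) (hv : ∀ t : T, τ t ≠ 0 → ε t = 1) (hτ : IsClassFunction G τ) :
    classInner (indFun T ε) (fun g => τ g * conj (τ g)) ≠ 0 := by
  classical
  have hcl : IsClassFunction G (fun g => τ g * conj (τ g)) := by
    intro g h
    simp only
    rw [hτ g h]
  rw [frobenius_reciprocity T ε _ hcl, classInner_def]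
  have hT : (Nat.card T : ℂ) ≠ 0 := natCard_ne_zero_complex
  apply mul_ne_zero (inv_ne_zero hT)
  have h1 : ∀ t : T, ε t * conj (τ t * conj (τ t)) = ((‖τ t‖ ^ 2 : ℝ) : ℂ) := by
    intro t
    by_cases h0 : τ t = 0
    · simp [h0]
    · rw [hv t h0, one_mul, map_mul, Complex.conj_conj, mul_comm, Complex.mul_conj,
        Complex.normSq_eq_norm_sq]
  rw [Finset.sum_congr rfl (fun t _ => h1 t), ← Complex.ofReal_sum]
  have h2 : 0 < ∑ t : T, ‖τ t‖ ^ 2 :=
    Finset.sum_pos' (fun _ _ => by positivity)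
      ⟨1, Finset.mem_univ _, by
        have : ‖τ ((1 : T) : G)‖ ≠ 0 := by simpa using hτ1
        positivity⟩
  exact_mod_cast h2.ne'

/-- The nonabelian case. -/
theorem false_of_nonabelian {χ : G → ℂ} (hχ : IsIrrCharacter G χ)
    (hfaith : ∀ g, χ g = χ 1 → g = 1) {k : ℕ} (hk : k.Coprime (Nat.card G))
    (hω : IsIrrCharacter G (fun g => χ g * χ (g ^ k)))
    (E : Subgroup G) [hE : E.Normal] {p : ℕ} (hp : p.Prime) (hpG : p ∣ Nat.card G)
    (hEZ : ∀ a ∈ E, ∀ b ∈ E, a * b * a⁻¹ * b⁻¹ ∈ Subgroup.center G)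
    (hEp : ∀ a ∈ E, a ^ p ∈ Subgroup.center G)
    (hCE : ∀ y ∈ E, (∀ e ∈ E, y * e = e * y) → y ∈ Subgroup.center G)
    {x : G} (hxE : x ∈ E) (hxZ : x ∉ Subgroup.center G) : False := by
  classical
  letI : Fintype E := Fintype.ofFinite _
  have hχc := isCharacter_of_isIrrCharacter hχ
  have hχcl := isClassFunction_of_isCharacter hχc
  have hχ1 := irr_apply_one_ne_zero hχ
  have hZn : (Subgroup.center G).Normal := inferInstance
  have hcent : ∀ z ∈ Subgroup.center G, ∀ g, g * z = z * g := fun z hz g =>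
    (Subgroup.mem_center_iff.mp hz g)
  -- the central character
  let lamH : Subgroup.center G →* ℂ :=
    { toFun := fun z => χ z / χ 1
      map_one' := by
        simp [hχ1]
      map_mul' := by
        intro a b
        have h1 := central_mul hχ (hcent a a.2) (b : G)
        simp only [Subgroup.coe_mul]
        field_simp
        rw [h1] }
  have hlam : ∀ (z : Subgroup.center G) (g : G), χ ((z : G) * g) = lamH z * χ g := by
    intro z g
    have h1 := central_mul hχ (hcent z z.2) g
    show χ ((z : G) * g) = χ z / χ 1 * χ g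
    field_simp
    rw [h1]
  have hlam1 : ∀ z : Subgroup.center G, lamH z = 1 → z = 1 := by
    intro z hz
    apply Subtype.ext
    apply hfaith
    have h1 : χ z / χ 1 = 1 := hz
    field_simp at h1
    exact h1
  -- the group `T`
  let T : Subgroup G :=
    { carrier := {g | g * x * g⁻¹ * x⁻¹ ∈ Subgroup.center G}
      mul_mem' := by
        intro a b ha hb
        have hb' := hZn.conj_mem _ hb a
        have : (a * b) * x * (a * b)⁻¹ * x⁻¹ =
            (a * (b * x * b⁻¹ * x⁻¹) * a⁻¹) * (a * x * a⁻¹ * x⁻¹) := by group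
        show (a * b) * x * (a * b)⁻¹ * x⁻¹ ∈ Subgroup.center G
        rw [this]
        exact Subgroup.mul_mem _ hb' ha
      one_mem' := by
        show 1 * x * 1⁻¹ * x⁻¹ ∈ Subgroup.center G
        simp [Subgroup.one_mem]
      inv_mem' := by
        intro a ha
        have ha' := hZn.conj_mem _ (Subgroup.inv_mem _ ha) a⁻¹
        show a⁻¹ * x * a⁻¹⁻¹ * x⁻¹ ∈ Subgroup.center G
        have : a⁻¹ * x * a⁻¹⁻¹ * x⁻¹ = a⁻¹ * (a * x * a⁻¹ * x⁻¹)⁻¹ * a⁻¹⁻¹ := by group
        rw [this]
        exact ha' }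
  have hTmem : ∀ g, g ∈ T ↔ g * x * g⁻¹ * x⁻¹ ∈ Subgroup.center G := fun g => Iff.rfl
  letI : Fintype T := Fintype.ofFinite _
  have hET : E ≤ T := fun e he => hEZ e he x hxE
  -- the commutator homomorphism
  let φ : T →* Subgroup.center G :=
    { toFun := fun t => ⟨(t : G) * x * (t : G)⁻¹ * x⁻¹, t.2⟩
      map_one' := by
        apply Subtype.ext
        simp
      map_mul' := by
        intro a b
        apply Subtype.ext
        simp only [Subgroup.coe_mul]
        have hb := hcent _ b.2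
        have h1 : ((a : G) * b) * x * ((a : G) * b)⁻¹ * x⁻¹ =
            (a : G) * (((b : G) * x * (b : G)⁻¹ * x⁻¹) * (x * (a : G)⁻¹ * x⁻¹)) := by group
        rw [h1, ← hb]
        group }
  have hφ : ∀ t : T, ((φ t : Subgroup.center G) : G) = (t : G) * x * (t : G)⁻¹ * x⁻¹ :=
    fun _ => rfl
  let εU : T →* ℂˣ := (lamH.comp φ).toHomUnits
  let ε : T → ℂ := fun t => ((εU t : ℂˣ) : ℂ)
  have hε : IsIrrCharacter T ε := Cfsg.Agent.Lib.Char.LinearChars.isIrr_of_hom εU
  have hεval : ∀ t : T, ε t = lamH (φ t) := fun _ => rfl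
  let μU : E →* ℂˣ := εU.comp (Subgroup.inclusion hET)
  let μ : E → ℂ := fun n => ((μU n : ℂˣ) : ℂ)
  have hμ : IsIrrCharacter E μ := Cfsg.Agent.Lib.Char.LinearChars.isIrr_of_hom μU
  have hμval : ∀ n : E, μ n = ε ⟨n, hET n.2⟩ := fun _ => rfl
  have hμ0 : ∀ n : E, μ n ≠ 0 := fun n => (μU n).ne_zero
  -- `T` is the inertia group of `μ`
  have hT : ∀ g : G, g ∈ T ↔ ∀ n : E, μ ⟨g * n * g⁻¹, hE.conj_mem (n : G) n.2 g⟩ = μ n := by
    intro g
    set y := g⁻¹ * x * g with hy
    have hyE : y ∈ E := by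
      have := hE.conj_mem x hxE g⁻¹
      simpa [hy] using this
    set w := y * x⁻¹ with hw
    have hwE : w ∈ E := E.mul_mem hyE (E.inv_mem hxE)
    have hkey : ∀ n : E, μ ⟨g * n * g⁻¹, hE.conj_mem (n : G) n.2 g⟩ =
        lamH ⟨(n : G) * w * (n : G)⁻¹ * w⁻¹, hEZ _ n.2 _ hwE⟩ * μ n := by
      intro n
      rw [hμval, hμval, hεval, hεval, ← map_mul]
      congr 1
      apply Subtype.ext
      rw [Subgroup.coe_mul, hφ, hφ]
      simp only
      have hc1 := hcent _ (hEZ _ n.2 _ hxE)
      have hc2 := hcent _ (hEZ _ n.2 _ hyE)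
      have h1 : (g * (n : G) * g⁻¹) * x * (g * (n : G) * g⁻¹)⁻¹ * x⁻¹ =
          g * ((n : G) * y * (n : G)⁻¹ * y⁻¹) * g⁻¹ := by
        rw [hy]
        group
      have h2 : g * ((n : G) * y * (n : G)⁻¹ * y⁻¹) * g⁻¹ = (n : G) * y * (n : G)⁻¹ * y⁻¹ := by
        rw [hc2 g]
        group
      rw [h1, h2]
      have hc3 := (hc1 w⁻¹).symm
      calc (n : G) * y * (n : G)⁻¹ * y⁻¹
          = (n : G) * w * (n : G)⁻¹ * (((n : G) * x * (n : G)⁻¹ * x⁻¹) * w⁻¹) := by
            rw [hw]
            group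
        _ = (n : G) * w * (n : G)⁻¹ * (w⁻¹ * ((n : G) * x * (n : G)⁻¹ * x⁻¹)) := by rw [hc3]
        _ = (n : G) * w * (n : G)⁻¹ * w⁻¹ * ((n : G) * x * (n : G)⁻¹ * x⁻¹) := by group
    have hwT : g ∈ T ↔ w ∈ Subgroup.center G := by
      have h1 : w = g⁻¹ * x * g⁻¹⁻¹ * x⁻¹ := by
        rw [hw, hy]
        group
      rw [h1, ← hTmem]
      exact (T.inv_mem_iff).symm
    rw [hwT]
    constructor
    · intro hwZ n
      rw [hkey]
      have h1 : (⟨(n : G) * w * (n : G)⁻¹ * w⁻¹, hEZ _ n.2 _ hwE⟩ : Subgroup.center G) = 1 := by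
        apply Subtype.ext
        have h2 := hcent w hwZ (n : G)
        show (n : G) * w * (n : G)⁻¹ * w⁻¹ = 1
        rw [h2]
        group
      rw [h1, map_one, one_mul]
    · intro hall
      apply hCE w hwE
      intro e he
      have h1 := hkey ⟨e, he⟩
      rw [hall ⟨e, he⟩] at h1
      have h2 : lamH ⟨e * w * e⁻¹ * w⁻¹, hEZ _ he _ hwE⟩ = 1 := by
        have h3 := hμ0 ⟨e, he⟩
        field_simp at h1
        exact h1.symm
      have h3 := congrArg Subtype.val (hlam1 _ h2)
      have h4 : e * w * e⁻¹ * w⁻¹ = 1 := h3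
      have h5 : e * w = w * e := by
        rw [mul_inv_eq_one, mul_inv_eq_iff_eq_mul] at h4
        exact h4
      exact h5.symm
  -- `ε^G` is irreducible
  have hres : classInner (resT E T hET ε) μ ≠ 0 := by
    have h1 : resT E T hET ε = μ := rfl
    rw [h1, classInner_irr_self hμ]
    exact one_ne_zero
  have hγ : IsIrrCharacter G (indFun T ε) := isIrr_indFun E μ T hET hμ hT hε hres
  -- the vanishing
  have hV1 : ∀ t : T, χ t ≠ 0 → ε t = 1 := by
    intro t ht
    have h1 : x * t * x⁻¹ = ((φ t)⁻¹ : Subgroup.center G) * (t : G) := by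
      rw [Subgroup.coe_inv, hφ]
      group
    have h2 := hχcl (t : G) x
    rw [h1, hlam] at h2
    have h3 : lamH (φ t)⁻¹ = 1 := by
      exact mul_right_cancel₀ ht (by rw [h2, one_mul])
    rw [hεval]
    have h4 : lamH (φ t) * lamH (φ t)⁻¹ = 1 := by
      rw [← map_mul, mul_inv_cancel, map_one]
    rw [h3, mul_one] at h4
    exact h4
  -- the exponent
  have hεp : ∀ t : T, (ε t) ^ p = 1 := by
    intro t
    have h1 : (φ t) ^ p = 1 := by
      apply Subtype.ext
      rw [Subgroup.coe_pow, hφ]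
      set z : G := (t : G) * x * (t : G)⁻¹ * x⁻¹ with hz
      have hzc : z ∈ Subgroup.center G := t.2
      have h2 : (t : G) * x * (t : G)⁻¹ = z * x := by
        rw [hz]
        group
      have h3 : Commute z x := (hcent z hzc x).symm
      have h4 : (t : G) * x ^ p * (t : G)⁻¹ = z ^ p * x ^ p := by
        rw [← h3.mul_pow, ← h2, conj_pow]
      have h5 := hcent _ (hEp x hxE) (t : G)
      rw [h5] at h4
      simp only [mul_inv_cancel_right] at h4
      have h6 : z ^ p = 1 := by
        have h7 : 1 * x ^ p = z ^ p * x ^ p := by rw [one_mul]; exact h4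
        exact (mul_right_cancel h7).symm
      exact h6
    rw [hεval, ← map_pow, h1, map_one]
  have hV2 : ∀ t : T, χ ((t : G) ^ k) ≠ 0 → ε t = 1 := by
    intro t ht
    have h1 : ε (t ^ k) = 1 := hV1 (t ^ k) (by simpa using ht)
    have h2 : ε t ^ k = 1 := by
      rw [← h1]
      show ((εU t : ℂˣ) : ℂ) ^ k = ((εU (t ^ k) : ℂˣ) : ℂ)
      rw [map_pow, Units.val_pow_eq_pow_val]
    have h3 := pow_gcd_eq_one.mpr ⟨h2, hεp t⟩
    have hcop : Nat.gcd k p = 1 := by
      have : k.Coprime p := Nat.Coprime.coprime_dvd_right hpG hk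
      exact this
    rwa [hcop, pow_one] at h3
  -- the two products
  have hχσ : IsIrrCharacter G (fun g => χ (g ^ k)) := isIrrCharacter_pow_of_coprime hχ hk
  have hχσc := isCharacter_of_isIrrCharacter hχσ
  have hχσ1 : χ ((1 : G) ^ k) ≠ 0 := by simpa using hχ1
  let φ₁ : G → ℂ := fun g => χ g * conj (χ g)
  let φ₂ : G → ℂ := fun g => χ (g ^ k) * conj (χ (g ^ k))
  have hφ₁c : IsCharacter G φ₁ := isCharacter_mul hχc (isCharacter_conj hχc)
  have hφ₂c : IsCharacter G φ₂ := isCharacter_mul hχσc (isCharacter_conj hχσc)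
  have hinner : classInner φ₁ φ₂ = 1 := by
    rw [← classInner_irr_self hω]
    unfold classInner
    congr 1
    refine Finset.sum_congr rfl (fun g _ => ?_)
    simp only [φ₁, φ₂, map_mul, Complex.conj_conj]
    ring
  have hirrc : ∀ i : IrrCharacter G, IsCharacter G (i : G → ℂ) := fun i =>
    isCharacter_of_isIrrCharacter i.2
  choose a ha using fun i : IrrCharacter G => exists_nat_classInner_of_isCharacter hφ₁c (hirrc i)
  choose b hb using fun i : IrrCharacter G => exists_nat_classInner_of_isCharacter (hirrc i) hφ₂c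
  have hsum : ∑ i : IrrCharacter G, a i * b i = 1 := by
    have h1 := classInner_eq_sum_mul hφ₁c hφ₂c
    rw [hinner] at h1
    have h2 : ((∑ i : IrrCharacter G, a i * b i : ℕ) : ℂ) = 1 := by
      rw [h1]
      push_cast
      exact Finset.sum_congr rfl (fun i _ => by rw [ha, hb])
    exact_mod_cast h2
  let one : IrrCharacter G := ⟨fun _ => 1, Cfsg.Agent.Lib.Char.Burnside2.isIrrCharacter_one⟩
  let γ₀ : IrrCharacter G := ⟨indFun T ε, hγ⟩
  have haone : a one = 1 := by
    have h1 := ha one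
    have h2 : classInner φ₁ (one : G → ℂ) = classInner χ χ := by
      unfold classInner
      congr 1
      refine Finset.sum_congr rfl (fun g _ => ?_)
      simp [φ₁, one]
    rw [h2, classInner_irr_self hχ] at h1
    exact_mod_cast h1.symm
  have hbone : b one = 1 := by
    have h1 := hb one
    have h2 : classInner (one : G → ℂ) φ₂ = classInner (fun g => χ (g ^ k)) (fun g => χ (g ^ k)) := by
      unfold classInner
      congr 1
      refine Finset.sum_congr rfl (fun g _ => ?_)
      simp only [one, φ₂, map_mul, Complex.conj_conj]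
      ring
    rw [h2, classInner_irr_self hχσ] at h1
    exact_mod_cast h1.symm
  have haγ : a γ₀ ≠ 0 := by
    intro h0
    have h1 := ha γ₀
    rw [h0] at h1
    have h2 := classInner_ind_abs_ne_zero T hχ1 hV1 hχcl
    apply h2
    rw [← classInner_conj_symm]
    change conj (classInner φ₁ (indFun T ε)) = 0
    rw [show classInner φ₁ (indFun T ε) = classInner φ₁ (γ₀ : G → ℂ) from rfl, h1]
    simp
  have hbγ : b γ₀ ≠ 0 := by
    intro h0
    have h1 := hb γ₀
    rw [h0] at h1
    have h2 := classInner_ind_abs_ne_zero T (τ := fun g => χ (g ^ k)) hχσ1 hV2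
      (isClassFunction_of_isCharacter hχσc)
    apply h2
    exact h1.trans (by simp)
  have hne : γ₀ ≠ one := by
    intro h0
    have h1 : indFun T ε = fun _ => 1 := congrArg Subtype.val h0
    have h2 := frobenius_reciprocity T ε (fun _ => (1 : ℂ)) (fun _ _ => rfl)
    rw [h1, classInner_irr_self (Cfsg.Agent.Lib.Char.Burnside2.isIrrCharacter_one)] at h2
    have h3 : ε = fun _ => 1 := by
      by_contra hcon
      have := classInner_irr_of_ne hε (Cfsg.Agent.Lib.Char.Burnside2.isIrrCharacter_one) hcon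
      rw [this] at h2
      exact one_ne_zero h2
    apply hxZ
    apply hCE x hxE
    intro e he
    have h4 : ε ⟨e, hET he⟩ = 1 := congrFun h3 _
    have h5 := hlam1 _ h4
    have h6 : e * x * e⁻¹ * x⁻¹ = 1 := congrArg Subtype.val h5
    have h7 : e * x = x * e := by
      rw [mul_inv_eq_one, mul_inv_eq_iff_eq_mul] at h6
      exact h6
    exact h7.symm
  have h2 : 2 ≤ ∑ i : IrrCharacter G, a i * b i := by
    have h3 : ∑ i ∈ ({one, γ₀} : Finset (IrrCharacter G)), a i * b i ≤
        ∑ i : IrrCharacter G, a i * b i :=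
      Finset.sum_le_sum_of_subset (Finset.subset_univ _)
    rw [Finset.sum_pair (Ne.symm hne), haone, hbone] at h3
    have h4 : 1 ≤ a γ₀ * b γ₀ := Nat.one_le_iff_ne_zero.mpr (mul_ne_zero haγ hbγ)
    omega
  omega

/-- The abelian case. -/
theorem le_center_of_abelian {χ : G → ℂ} (hχ : IsIrrCharacter G χ)
    (hfaith : ∀ g, χ g = χ 1 → g = 1) {k : ℕ} (hk : k.Coprime (Nat.card G))
    (hω : IsIrrCharacter G (fun g => χ g * χ (g ^ k)))
    (E : Subgroup G) [hE : E.Normal] (hab : ∀ a ∈ E, ∀ b ∈ E, a * b = b * a) :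
    E ≤ Subgroup.center G := by
  classical
  letI : Fintype E := Fintype.ofFinite _
  have hχc := isCharacter_of_isIrrCharacter hχ
  have hχ1 := irr_apply_one_ne_zero hχ
  have hres := isCharacter_restrict hχc E
  obtain ⟨μ, hμ, hne⟩ := exists_irr_constituent hres (by simpa using hχ1)
  have hinv := invariant_of_irr_product hχ hk hω E hμ hne
  have hRes := Cfsg.Agent.Lib.Char.GallagherAvg.res_eq_smul_of_invariant E hχ hμ hne hinv
  have hcomm : ∀ a b : E, a * b = b * a := fun a b => Subtype.ext (hab a a.2 b b.2)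
  obtain ⟨-, hμ1⟩ := Cfsg.Agent.S0169.norm_irr_of_comm hcomm hμ 1
  obtain ⟨f, hf⟩ := Cfsg.Agent.Lib.Char.LinearChars.exists_hom_of_isCharacter_one
    (isCharacter_of_isIrrCharacter hμ) hμ1
  have hμmul : ∀ a b : E, μ (a * b) = μ a * μ b := by
    intro a b
    rw [hf]
    simp
  intro x hx
  rw [Subgroup.mem_center_iff]
  intro g
  have hy : g * x * g⁻¹ * x⁻¹ ∈ E := E.mul_mem (hE.conj_mem x hx g) (E.inv_mem hx)
  have h1 : μ ⟨g * x * g⁻¹ * x⁻¹, hy⟩ = 1 := by
    have h2 : (⟨g * x * g⁻¹ * x⁻¹, hy⟩ : E) =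
        ⟨g * x * g⁻¹, hE.conj_mem x hx g⟩ * ⟨x, hx⟩⁻¹ := rfl
    rw [h2, hμmul]
    have h3 := hinv g ⟨x, hx⟩
    rw [h3, ← hμmul, mul_inv_cancel, hμ1]
  have h2 := congrFun hRes ⟨_, hy⟩
  have h3 := congrFun hRes 1
  simp only [Pi.smul_apply, smul_eq_mul, hμ1, mul_one] at h2 h3
  rw [h1, mul_one] at h2
  have h4 : χ (g * x * g⁻¹ * x⁻¹) = χ 1 := by
    rw [show χ (g * x * g⁻¹ * x⁻¹) = _ from h2]
    exact h3.symm
  have h5 := hfaith _ h4
  rw [mul_inv_eq_one, mul_inv_eq_iff_eq_mul] at h5
  exact h5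

/-- The descending chain `E, [E,F], [E,F,F], ...`. -/
def chain (E F : Subgroup G) : ℕ → Subgroup G
  | 0 => E
  | n + 1 => ⁅chain E F n, F⁆

/-- A minimal normal subgroup above the centre in the Fitting subgroup. -/
theorem exists_chief_in_fitting [Finite G]
    (h : Cfsg.fittingSubgroup G ≠ Subgroup.center G) :
    ∃ E : Subgroup G, E.Normal ∧ Subgroup.center G < E ∧
      (∀ M : Subgroup G, M.Normal → Subgroup.center G ≤ M → M ≤ E →
        M = Subgroup.center G ∨ M = E) ∧ ⁅E, E⁆ ≤ Subgroup.center G := by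
  classical
  set F := Cfsg.fittingSubgroup G with hF
  set Z := Subgroup.center G with hZ
  haveI hFn : F.Normal := Cfsg.Agent.Lib.Nilpotent.Fitting.fittingSubgroup_normal
  have hZn : Z.Normal := inferInstance
  have hZF : Z ≤ F := Cfsg.Agent.Lib.Nilpotent.Fitting.le_fittingSubgroup
    ((Subgroup.isNilpotent_iff_lowerCentralSeries _).mpr ⟨1, by
      rw [Subgroup.lowerCentralSeries_succ, Subgroup.lowerCentralSeries_zero,
        Subgroup.commutator_eq_bot_iff_le_centralizer]
      exact fun z hz => Subgroup.mem_centralizer_iff.mpr (fun h _ => Subgroup.mem_center_iff.mp hz h)⟩)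
  have hZF' : Z < F := lt_of_le_of_ne hZF (Ne.symm h)
  obtain ⟨E, hEm⟩ := (Set.toFinite {K : Subgroup G | K.Normal ∧ Z < K ∧ K ≤ F}).exists_minimal
    ⟨F, hFn, hZF', le_refl _⟩
  obtain ⟨⟨hEn, hZE, hEF⟩, hEmin⟩ := hEm
  have hchief : ∀ M : Subgroup G, M.Normal → Z ≤ M → M ≤ E → M = Z ∨ M = E := by
    intro M hM hZM hME
    by_cases hMZ : M = Z
    · exact Or.inl hMZ
    · right
      exact le_antisymm hME (hEmin ⟨hM, lt_of_le_of_ne hZM (Ne.symm hMZ), hME.trans hEF⟩ hME)
  refine ⟨E, hEn, hZE, hchief, ?_⟩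
  -- the chain
  let A : ℕ → Subgroup G := chain E F
  have hA0 : A 0 = E := rfl
  have hAs : ∀ n, A (n + 1) = ⁅A n, F⁆ := fun _ => rfl
  have hAn : ∀ n, (A n).Normal := by
    intro n
    induction n with
    | zero => exact hEn
    | succ n ih =>
      rw [hAs]
      haveI : (A n).Normal := ih
      exact Subgroup.commutator_normal (A n) F
  have hAE : ∀ n, A n ≤ E := by
    intro n
    induction n with
    | zero => exact le_refl _
    | succ n ih =>
      rw [hAs]
      haveI := hAn n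
      exact (Subgroup.commutator_le_left (A n) F).trans ih
  have hAl : ∀ n, A n ≤ F.lowerCentralSeries n := by
    intro n
    induction n with
    | zero => exact hEF
    | succ n ih =>
      rw [hAs, Subgroup.lowerCentralSeries_succ]
      exact Subgroup.commutator_mono ih le_rfl
  have hnil : Group.IsNilpotent F := Cfsg.Agent.Lib.Nilpotent.Fitting.isNilpotent_fittingSubgroup
  obtain ⟨c, hc⟩ := (Subgroup.isNilpotent_iff_lowerCentralSeries F).mp hnil
  have hex : ∃ n, A n ≤ Z := by
    refine ⟨c, ?_⟩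
    have := hAl c
    rw [hc] at this
    exact this.trans bot_le
  have hfind := Nat.find_spec hex
  have hmin := fun m => Nat.find_min hex (m := m)
  have hn0 : Nat.find hex ≠ 0 := by
    intro h0
    rw [h0, hA0] at hfind
    exact absurd hZE (not_lt_of_ge hfind)
  obtain ⟨m, hm⟩ := Nat.exists_eq_succ_of_ne_zero hn0
  have hAm : ¬ A m ≤ Z := hmin m (by rw [hm]; exact Nat.lt_succ_self m)
  have hAm1 : ⁅A m, F⁆ ≤ Z := by
    rw [hm] at hfind
    exact hfind
  haveI := hAn m
  have hsup : Z ⊔ A m = E := by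
    rcases hchief (Z ⊔ A m) (Subgroup.sup_normal _ _) le_sup_left (sup_le hZE.le (hAE m)) with h1 | h1
    · exfalso
      apply hAm
      rw [← h1]
      exact le_sup_right
    · exact h1
  have hEF2 : ⁅E, F⁆ ≤ Z := by
    rw [Subgroup.commutator_le]
    intro y hy f hf
    rw [← hsup] at hy
    have hy' : y ∈ ((Z ⊔ A m : Subgroup G) : Set G) := hy
    rw [Subgroup.mul_normal] at hy'
    obtain ⟨z, hz, a, ha, rfl⟩ := Set.mem_mul.mp hy'
    have h1 : a * f * a⁻¹ * f⁻¹ ∈ Z := hAm1 (Subgroup.commutator_mem_commutator ha hf)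
    have h3 : ∀ g, g * z = z * g := fun g => Subgroup.mem_center_iff.mp hz g
    have h8 : z⁻¹ * f⁻¹ = f⁻¹ * z⁻¹ := by
      rw [eq_mul_inv_iff_mul_eq, mul_assoc, h3 f⁻¹, ← mul_assoc, inv_mul_cancel, one_mul]
    have h4 : z * a * f * (z * a)⁻¹ * f⁻¹ = z * (a * f * a⁻¹ * f⁻¹) * z⁻¹ := by
      calc z * a * f * (z * a)⁻¹ * f⁻¹ = z * a * f * a⁻¹ * (z⁻¹ * f⁻¹) := by group
        _ = z * a * f * a⁻¹ * (f⁻¹ * z⁻¹) := by rw [h8]
        _ = z * (a * f * a⁻¹ * f⁻¹) * z⁻¹ := by group
    have h2 : z * a * f * (z * a)⁻¹ * f⁻¹ = a * f * a⁻¹ * f⁻¹ := by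
      rw [h4, ← h3]
      group
    show z * a * f * (z * a)⁻¹ * f⁻¹ ∈ Z
    rw [h2]
    exact h1
  exact (Subgroup.commutator_mono le_rfl hEF).trans hEF2

end Main

/-- Let G be a finite group with a faithful irreducible character χ (taking the value χ(1) only at the identity) and let k be prime to the order of G, so that g ↦ χ(g^k) is a Galois conjugate of χ. If the pointwise product g ↦ χ(g)·χ(g^k) is again an irreducible character, then the Fitting subgroup of G equals its centre. -/
theorem result {G : Type*} [Group G] [Finite G] (χ : Cfsg.IrrCharacter G) (hfaith : ∀ g : G, (χ : G → ℂ) g = (χ : G → ℂ) 1 → g = 1) (k : ℕ) (hk : Nat.Coprime k (Nat.card G)) (hirr : Cfsg.IsIrrCharacter G (fun g => (χ : G → ℂ) g * (χ : G → ℂ) (g ^ k))) : Cfsg.fittingSubgroup G = Subgroup.center G := by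
  classical
  letI : Fintype G := Fintype.ofFinite G
  by_contra hne
  obtain ⟨E, hEn, hZE, hchief, hab⟩ := exists_chief_in_fitting hne
  haveI := hEn
  obtain ⟨x, hxE, hxZ⟩ := SetLike.exists_of_lt hZE
  -- the centre of `E`
  have hCn : (E ⊓ Subgroup.centralizer (E : Set G)).Normal := by
    constructor
    rintro y ⟨hy1, hy2⟩ g
    refine ⟨hEn.conj_mem y hy1 g, ?_⟩
    have hy2' : y ∈ Subgroup.centralizer (E : Set G) := hy2
    rw [Subgroup.mem_centralizer_iff] at hy2'
    show g * y * g⁻¹ ∈ Subgroup.centralizer (E : Set G)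
    rw [Subgroup.mem_centralizer_iff]
    intro h hh
    have h1 := hy2' (g⁻¹ * h * g) (by
      have := hEn.conj_mem h hh g⁻¹
      simpa using this)
    calc h * (g * y * g⁻¹) = g * ((g⁻¹ * h * g) * y) * g⁻¹ := by group
      _ = g * (y * (g⁻¹ * h * g)) * g⁻¹ := by rw [h1]
      _ = g * y * g⁻¹ * h := by group
  have hZC : Subgroup.center G ≤ E ⊓ Subgroup.centralizer (E : Set G) := by
    intro z hz
    refine ⟨hZE.le hz, ?_⟩
    show z ∈ Subgroup.centralizer (E : Set G)
    rw [Subgroup.mem_centralizer_iff]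
    intro h _
    exact (Subgroup.mem_center_iff.mp hz h)
  rcases hchief _ hCn hZC inf_le_left with h1 | h1
  · -- the nonabelian case
    have hrel : (Subgroup.center G).relIndex E ≠ 1 := by
      intro h0
      rw [Subgroup.relIndex_eq_one] at h0
      exact absurd hZE (not_lt_of_ge h0)
    obtain ⟨p, hp, hpd⟩ := Nat.exists_prime_and_dvd hrel
    have hpG : p ∣ Nat.card G :=
      hpd.trans ((Subgroup.relIndex_dvd_card _ _).trans (Subgroup.card_subgroup_dvd_card E))
    have hEp := Cfsg.Agent.S0890.pow_mem_of_chief (Subgroup.center G) E hchief hZE.le hab hp hpd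
    refine false_of_nonabelian χ.2 hfaith hk hirr E hp hpG ?_ hEp ?_ hxE hxZ
    · intro a ha b hb
      exact hab (Subgroup.commutator_mem_commutator ha hb)
    · intro y hy hc
      rw [← h1]
      refine ⟨hy, ?_⟩
      show y ∈ Subgroup.centralizer (E : Set G)
      rw [Subgroup.mem_centralizer_iff]
      intro h hh
      exact (hc h hh).symm
  · -- the abelian case
    have hEab : ∀ a ∈ E, ∀ b ∈ E, a * b = b * a := by
      intro a ha b hb
      have h2 : b ∈ E ⊓ Subgroup.centralizer (E : Set G) := by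
        rw [h1]
        exact hb
      exact Subgroup.mem_centralizer_iff.mp h2.2 a ha
    have h3 := le_center_of_abelian χ.2 hfaith hk hirr E hEab
    exact hxZ (h3 hxE)

end Cfsg.Agent.S4843
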