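import Cfsg.Statements.S4861
import Mathlib
import Cfsg.Agent.Lib.Char.RealOver

set_option autoImplicit false
set_option linter.style.haveILetI false
set_option linter.unusedSectionVars false
set_option linter.unusedVariables false
open Cfsg

namespace Cfsg.Agent.S4861

open Cfsg.Agent.Lib.Char.RealOver

/-- A Sylow subgroup of `U` contained in a normal `p`-subgroup is normal in `U`. -/
theorem sylow_normal_of {G : Type*} [Group G] [Finite G] (p : ℕ) [Fact p.Prime] {U R : Subgroup G}
    (hR : R.Normal) (hRp : IsPGroup p R)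
    (hUR : ∀ x ∈ U, (∃ k : ℕ, orderOf x = p ^ k) → x ∈ R) (Q : Sylow p U) :
    (Q : Subgroup U).Normal := by
  have hle : (Q : Subgroup U) ≤ R.subgroupOf U := by
    intro x hx
    rw [Subgroup.mem_subgroupOf]
    refine hUR x x.2 ?_
    obtain ⟨k, hk⟩ := IsPGroup.iff_orderOf.1 Q.isPGroup' ⟨x, hx⟩
    refine ⟨k, ?_⟩
    rw [← hk, Subgroup.orderOf_mk, Subgroup.orderOf_coe]
  have hp : IsPGroup p (R.subgroupOf U) := by
    intro x
    obtain ⟨k, hk⟩ := hRp ⟨x.1.1, x.2⟩
    refine ⟨k, Subtype.ext (Subtype.ext ?_)⟩
    have := congrArg Subtype.val hk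
    simpa using this
  have hQ : (Q : Subgroup U) = R.subgroupOf U := (Q.is_maximal' hp hle).symm
  rw [hQ]
  exact hR.subgroupOf U


/-- Let p be a prime and G a finite group such that the subgroup generated by the p-elements of G (the smallest normal subgroup of index prime to p) is solvable and every real-valued irreducible complex character of G has degree prime to p. Let K be the subgroup generated by the 2-elements of G (the smallest normal subgroup of odd index). Then the Sylow p-subgroups of K are normal in K. -/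
theorem result {G : Type*} [Group G] [Finite G] (p : ℕ) [Fact p.Prime] (hsolv : Group.IsSolvable ↥(Subgroup.closure {g : G | ∃ k : ℕ, orderOf g = p ^ k})) (hreal : ∀ χ : Cfsg.IrrCharacter G, (∀ g : G, ((χ : G → ℂ) g).im = 0) → ¬ p ∣ Cfsg.charDegree (χ : G → ℂ)) (Q : Sylow p ↥(Subgroup.closure {g : G | ∃ k : ℕ, orderOf g = 2 ^ k})) : (Q : Subgroup ↥(Subgroup.closure {g : G | ∃ k : ℕ, orderOf g = 2 ^ k})).Normal := by
  obtain ⟨R, hR, hRp, hUR⟩ := main_A p _ G le_rfl hsolv hreal _ (pClo_normal 2)
    (fun u hu => ⟨0, by simpa using hu⟩)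
  exact sylow_normal_of p hR hRp hUR Q


end Cfsg.Agent.S4861
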