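import Cfsg.Statements.S4863
import Mathlib
import Cfsg.Agent.Lib.Char.RealOver

set_option autoImplicit false
set_option linter.style.haveILetI false
set_option linter.unusedSectionVars false
set_option linter.unusedVariables false
open Cfsg

namespace Cfsg.Agent.S4863

open Cfsg.Agent.Lib.Char.RealOver

/-- A Sylow subgroup of `U` contained in a normal `p`-subgroup is normal in `U`. -/
theorem sylow_normal_of {G : Type*} [Group G] [Finite G] (p : ℕ) [Fact p.Prime] {U R : Subgroup G}
    (hR : R.Normal) (hRp : IsPGroup p R)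
    (hUR : ∀ x ∈ U, (∃ k : ℕ, orderOf x = p ^ k) → x ∈ R) (Q : Sylow p U) :
    (Q : Subgroup U).Normal := by
  have hle : (Q : Subgroup U) ≤ R.subgroupOf U := by
    intro x hx
    rw [Subgroup.mem_subgroupOf]
    refine hUR x x.2 ?_
    obtain ⟨k, hk⟩ := IsPGroup.iff_orderOf.1 Q.isPGroup' ⟨x, hx⟩
    refine ⟨k, ?_⟩
    rw [← hk, Subgroup.orderOf_mk, Subgroup.orderOf_coe]
  have hp : IsPGroup p (R.subgroupOf U) := by
    intro x
    obtain ⟨k, hk⟩ := hRp ⟨x.1.1, x.2⟩
    refine ⟨k, Subtype.ext (Subtype.ext ?_)⟩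
    have := congrArg Subtype.val hk
    simpa using this
  have hQ : (Q : Subgroup U) = R.subgroupOf U := (Q.is_maximal' hp hle).symm
  rw [hQ]
  exact hR.subgroupOf U


/-- Let p be a prime and G a finite group such that the subgroup generated by the p-elements of G (the smallest normal subgroup of index prime to p) is solvable and every real-valued irreducible complex character of G has degree prime to p. Let K be the subgroup generated by the 2-elements of G (the smallest normal subgroup of odd index). Let U be the largest normal subgroup of G containing K such that the index of K in U is a power of p (so that U/K is the p-core of G/K). Then the Sylow p-subgroups of U are normal in U. -/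
theorem result {G : Type*} [Group G] [Finite G] (p : ℕ) [Fact p.Prime] (hsolv : Group.IsSolvable ↥(Subgroup.closure {g : G | ∃ k : ℕ, orderOf g = p ^ k})) (hreal : ∀ χ : Cfsg.IrrCharacter G, (∀ g : G, ((χ : G → ℂ) g).im = 0) → ¬ p ∣ Cfsg.charDegree (χ : G → ℂ)) (U : Subgroup G) (hU : U.Normal) (hKU : (Subgroup.closure {g : G | ∃ k : ℕ, orderOf g = 2 ^ k}) ≤ U) (hUp : ∃ a : ℕ, (Subgroup.closure {g : G | ∃ k : ℕ, orderOf g = 2 ^ k}).relIndex U = p ^ a) (hmax : ∀ V : Subgroup G, V.Normal → (Subgroup.closure {g : G | ∃ k : ℕ, orderOf g = 2 ^ k}) ≤ V → (∃ b : ℕ, (Subgroup.closure {g : G | ∃ k : ℕ, orderOf g = 2 ^ k}).relIndex V = p ^ b) → V ≤ U) (Q : Sylow p ↥U) : (Q : Subgroup ↥U).Normal := by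
  have hUK : ∀ u ∈ U, ∃ k : ℕ, u ^ (p ^ k) ∈ pClo 2 G := by
    intro u hu
    obtain ⟨a, ha⟩ := hUp
    refine ⟨a, ?_⟩
    haveI : (pClo 2 G).Normal := pClo_normal 2
    have h1 : (pClo 2 G).subgroupOf U |>.Normal := Subgroup.Normal.subgroupOf inferInstance U
    have h2 := Subgroup.pow_index_mem ((pClo 2 G).subgroupOf U) (⟨u, hu⟩ : U)
    have h3 : ((pClo 2 G).subgroupOf U).index = p ^ a := ha
    rw [h3, Subgroup.mem_subgroupOf] at h2
    simpa using h2
  obtain ⟨R, hR, hRp, hUR⟩ := main_A p _ G le_rfl hsolv hreal U hU hUK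
  exact sylow_normal_of p hR hRp hUR Q


end Cfsg.Agent.S4863
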