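import Cfsg.Statements.S4864
import Mathlib
import Cfsg.Agent.Lib.Char.RealClass2

set_option autoImplicit false
set_option linter.style.haveILetI false
set_option linter.unusedSectionVars false
set_option linter.unusedVariables false
open Cfsg

namespace Cfsg.Agent.S4864
open scoped Pointwise

open Cfsg.Agent.Lib.Char.RealOver Cfsg.Agent.Lib.Char.RealClass in
theorem key {G : Type*} [Group G] [Finite G] (p : ℕ) [hp : Fact p.Prime]
    (hsolv : Group.IsSolvable (pClo p G)) (hreal : RealPrime p G) (P : Sylow p G) (x : G)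
    (hx : IsConj x x⁻¹) :
    ∃ y ∈ Subgroup.normalizer ((P : Subgroup G) : Set G), IsConj x y := by
  classical
  haveI h2f : Fact (Nat.Prime 2) := ⟨Nat.prime_two⟩
  obtain ⟨R, hRn, hRp, hR⟩ := main_A p (Nat.card G) G le_rfl hsolv hreal (pClo 2 G) (pClo_normal 2)
    (fun u hu => ⟨0, by simpa using hu⟩)
  haveI := hRn
  let f : G →* G ⧸ R := QuotientGroup.mk' R
  have hf : Function.Surjective f := QuotientGroup.mk'_surjective R
  have hfker : ∀ g, f g = 1 ↔ g ∈ R := fun g => QuotientGroup.eq_one_iff g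
  -- `R ≤ P`
  have hRP : R ≤ (P : Subgroup G) := by
    obtain ⟨Q, hQ⟩ := hRp.exists_le_sylow
    obtain ⟨g, hg⟩ := MulAction.exists_smul_eq G Q P
    intro r hr
    have h1 : g⁻¹ * r * g ∈ (Q : Subgroup G) := by
      apply hQ
      have := hRn.conj_mem r hr g⁻¹
      simpa using this
    have h3 : g * (g⁻¹ * r * g) * g⁻¹ ∈ (g • Q : Sylow p G) := by
      have h4 : ((g • Q : Sylow p G) : Set G) = MulAut.conj g • ((Q : Subgroup G) : Set G) :=
        Sylow.coe_smul
      show _ ∈ ((g • Q : Sylow p G) : Set G)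
      rw [h4]
      exact Set.mem_smul_set.2 ⟨_, h1, by rw [MulAut.smul_def, MulAut.conj_apply]⟩
    rw [hg] at h3
    have h5 : g * (g⁻¹ * r * g) * g⁻¹ = r := by group
    rwa [h5] at h3
  let K : Subgroup (G ⧸ R) := (pClo 2 G).map f
  haveI hKn : K.Normal := (pClo_normal 2).map f hf
  have hK : ¬ p ∣ Nat.card K := by
    intro hd
    obtain ⟨z, hz⟩ := exists_prime_orderOf_dvd_card' p hd
    have hsurj : Function.Surjective (f.subgroupMap (pClo 2 G)) := f.subgroupMap_surjective _
    obtain ⟨w, ⟨j, hj⟩, hw⟩ := exists_lift p (f.subgroupMap (pClo 2 G)) hsurj z 1 (by simpa using hz)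
    have hw' : (w : G) ∈ R := hR w w.2 ⟨j, by rw [← hj, Subgroup.orderOf_coe]⟩
    have h1 : f (w : G) = 1 := (hfker _).2 hw'
    have h3 : z = 1 := by
      apply Subtype.ext
      rw [← hw]
      exact h1
    rw [h3, orderOf_one] at hz
    exact hp.out.one_lt.ne hz
  have h2 : ∀ g : G ⧸ R, (∃ k : ℕ, orderOf g = 2 ^ k) → g ∈ K := by
    rintro g ⟨k, hk⟩
    obtain ⟨w, hw, rfl⟩ := exists_lift 2 f hf g k hk
    exact ⟨w, Subgroup.subset_closure hw, rfl⟩
  have hrealΓ : RealPrime p (G ⧸ R) := RealPrime.of_surjective p f hf hreal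
  let P' : Sylow p (G ⧸ R) := P.mapSurjective hf
  have hfx : IsConj (f x) (f x)⁻¹ := by
    obtain ⟨c, hc⟩ := isConj_iff.1 hx
    refine isConj_iff.2 ⟨f c, ?_⟩
    have h5 := congrArg f hc
    simpa only [map_mul, map_inv] using h5
  obtain ⟨hxK, hxK'⟩ := real_mem_of h2 (f x) hfx
  obtain ⟨g, hg⟩ := exists_centralizing_conj p K hK h2 hrealΓ P' ⟨f x, hxK⟩ hxK'
  obtain ⟨h, rfl⟩ := hf g
  refine ⟨h * x * h⁻¹, ?_, isConj_iff.2 ⟨h, rfl⟩⟩
  apply Subgroup.mem_normalizer_fintype
  intro u hu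
  have hu' : f u ∈ (P' : Subgroup (G ⧸ R)) := ⟨u, hu, rfl⟩
  have h3 := hg (f u) hu'
  have h4 : f (h * x * h⁻¹) = f h * (⟨f x, hxK⟩ : K) * (f h)⁻¹ := by
    simp only [map_mul, map_inv]
  rw [← h4] at h3
  have h5 : f ((h * x * h⁻¹) * u * (h * x * h⁻¹)⁻¹ * u⁻¹) = 1 := by
    simp only [map_mul, map_inv] at h3 ⊢
    rw [← h3]
    group
  have h6 := hRP ((hfker _).1 h5)
  have h7 : (h * x * h⁻¹) * u * (h * x * h⁻¹)⁻¹ =
      ((h * x * h⁻¹) * u * (h * x * h⁻¹)⁻¹ * u⁻¹) * u := by group
  rw [h7]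
  exact (P : Subgroup G).mul_mem h6 hu


/-- Let p be a prime and G a finite group such that the subgroup generated by the p-elements of G is solvable and every real-valued irreducible complex character of G has degree prime to p. Then the normalizer of a Sylow p-subgroup of G contains an element of every real conjugacy class of G: every element conjugate to its inverse is conjugate to an element of that normalizer. -/
theorem result {G : Type*} [Group G] [Finite G] (p : ℕ) [Fact p.Prime] (hsolv : Group.IsSolvable ↥(Subgroup.closure {g : G | ∃ k : ℕ, orderOf g = p ^ k})) (hreal : ∀ χ : Cfsg.IrrCharacter G, (∀ g : G, ((χ : G → ℂ) g).im = 0) → ¬ p ∣ Cfsg.charDegree (χ : G → ℂ)) (P : Sylow p G) (x : G) (hx : IsConj x x⁻¹) : ∃ y ∈ Subgroup.normalizer ((P : Subgroup G) : Set G), IsConj x y := by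
  exact key p hsolv hreal P x hx


end Cfsg.Agent.S4864
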