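import Cfsg.Statements.S4865
import Mathlib
import Cfsg.Agent.Lib.Char.RealMcKayC

set_option autoImplicit false
set_option linter.style.haveILetI false
set_option linter.unusedSectionVars false
set_option linter.unusedVariables false
open Cfsg

namespace Cfsg.Agent.S4865
open scoped Pointwise

open Cfsg.Agent.Lib.Char.RealOver Cfsg.Agent.Lib.Char.RealClass Cfsg.Agent.Lib.Char.RealMcKay in
theorem key {G : Type*} [Group G] [Finite G] (p : ℕ) [hp : Fact p.Prime]
    (hsolv : Group.IsSolvable (pClo p G)) (hreal : RealPrime p G) (P : Sylow p G) :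
    ∃ f : {χ : Cfsg.IrrCharacter G // ∀ g : G, ((χ : G → ℂ) g).im = 0} →
      {ξ : Cfsg.IrrCharacter ↥(NN P) // (∀ n, ((ξ : ↥(NN P) → ℂ) n).im = 0) ∧
        ¬ p ∣ Cfsg.charDegree (ξ : ↥(NN P) → ℂ)},
      Function.Bijective f ∧ ∀ χ, ((Cfsg.charDegree ((f χ).1 : ↥(NN P) → ℂ) : ZMod p) =
          (Cfsg.charDegree (χ.1 : G → ℂ) : ZMod p) ∨
        (Cfsg.charDegree ((f χ).1 : ↥(NN P) → ℂ) : ZMod p) =
          -(Cfsg.charDegree (χ.1 : G → ℂ) : ZMod p)) := by
  classical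
  haveI : Fintype G := Fintype.ofFinite G
  let K : Subgroup G := pClo 2 G
  haveI hKn : K.Normal := pClo_normal 2
  haveI : Fintype K := Fintype.ofFinite K
  haveI : Fintype ↥(NN P) := Fintype.ofFinite _
  haveI : Fintype ↥(CC P K) := Fintype.ofFinite _
  haveI : Fintype ↥(HN P K) := Fintype.ofFinite _
  have h2 : Two K := fun g hg => Subgroup.subset_closure hg
  obtain ⟨R, hRn, hRp, hR⟩ := main_A p (Nat.card G) G le_rfl hsolv hreal K (pClo_normal 2)
    (fun u hu => ⟨0, by simpa using hu⟩)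
  haveI := hRn
  -- `R ≤ P`
  have hRP : R ≤ (P : Subgroup G) := by
    obtain ⟨Q, hQ⟩ := hRp.exists_le_sylow
    obtain ⟨g, hg⟩ := MulAction.exists_smul_eq G Q P
    intro r hr
    have h1 : g⁻¹ * r * g ∈ (Q : Subgroup G) := by
      apply hQ
      have := hRn.conj_mem r hr g⁻¹
      simpa using this
    have h3 : g * (g⁻¹ * r * g) * g⁻¹ ∈ (g • Q : Sylow p G) := by
      have h4 : ((g • Q : Sylow p G) : Set G) = MulAut.conj g • ((Q : Subgroup G) : Set G) :=
        Sylow.coe_smul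
      show _ ∈ ((g • Q : Sylow p G) : Set G)
      rw [h4]
      exact Set.mem_smul_set.2 ⟨_, h1, by rw [MulAut.smul_def, MulAut.conj_apply]⟩
    rw [hg] at h3
    have h5 : g * (g⁻¹ * r * g) * g⁻¹ = r := by group
    rwa [h5] at h3
  let Q : Subgroup G := R ⊓ K
  have hQK : Q ≤ K := inf_le_right
  have hQR : Q ≤ R := inf_le_left
  have hQn : ∀ k ∈ K, ∀ q ∈ Q, k * q * k⁻¹ ∈ Q := fun k _ q hq =>
    ⟨hRn.conj_mem q hq.1 k, hKn.conj_mem q hq.2 k⟩
  have hQpg : IsPGroup p Q := hRp.to_le hQR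
  have hQp : ∃ a : ℕ, Nat.card Q = p ^ a := IsPGroup.iff_card.1 hQpg
  have hpel : ∀ w : K, (∃ j : ℕ, orderOf w = p ^ j) → (w : G) ∈ Q := by
    rintro w ⟨j, hj⟩
    exact ⟨hR w w.2 ⟨j, by rw [← hj, Subgroup.orderOf_coe]⟩, w.2⟩
  have hsyl : ¬ p ∣ Q.relIndex K := by
    intro hd
    let Q₁ : Subgroup K := Q.subgroupOf K
    haveI hQ₁ : Q₁.Normal := ⟨fun n hn g => by
      rw [Subgroup.mem_subgroupOf] at hn ⊢
      exact hQn g g.2 n hn⟩
    have hd' : p ∣ Nat.card (K ⧸ Q₁) := hd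
    obtain ⟨z, hz⟩ := exists_prime_orderOf_dvd_card' p hd'
    let f : K →* K ⧸ Q₁ := QuotientGroup.mk' Q₁
    have hf : Function.Surjective f := QuotientGroup.mk'_surjective Q₁
    obtain ⟨w, ⟨j, hj⟩, hw⟩ := exists_lift p f hf z 1 (by simpa using hz)
    have hw' : w ∈ Q₁ := hpel w ⟨j, hj⟩
    have h1 : f w = 1 := (QuotientGroup.eq_one_iff w).2 hw'
    have h3 : z = 1 := by rw [← hw, h1]
    rw [h3, orderOf_one] at hz
    exact hp.out.one_lt.ne hz
  have hCK : CC P K ≤ K := inf_le_left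
  have hC : ∀ k : G, k ∈ CC P K ↔ k ∈ K ∧ ∀ x ∈ (P : Subgroup G), x * k * x⁻¹ * k⁻¹ ∈ Q := by
    intro k
    constructor
    · rintro ⟨hkK, hkN⟩
      refine ⟨hkK, fun x hx => ?_⟩
      have h1 : x * k * x⁻¹ * k⁻¹ ∈ K :=
        K.mul_mem (hKn.conj_mem k hkK x) (K.inv_mem hkK)
      have h3 : k * x⁻¹ * k⁻¹ ∈ (P : Subgroup G) :=
        (Subgroup.mem_normalizer_iff.1 hkN _).1 ((P : Subgroup G).inv_mem hx)
      have h4 : x * k * x⁻¹ * k⁻¹ ∈ (P : Subgroup G) := by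
        have h5 : x * k * x⁻¹ * k⁻¹ = x * (k * x⁻¹ * k⁻¹) := by group
        rw [h5]
        exact (P : Subgroup G).mul_mem hx h3
      obtain ⟨j, hj⟩ := (IsPGroup.iff_orderOf.1 P.isPGroup') ⟨_, h4⟩
      refine hpel ⟨_, h1⟩ ⟨j, ?_⟩
      rw [← hj, Subgroup.orderOf_mk, Subgroup.orderOf_mk]
    · rintro ⟨hkK, hk⟩
      refine ⟨hkK, ?_⟩
      apply Subgroup.mem_normalizer_fintype
      intro n hn
      have h1 := hRP (hQR (hk n⁻¹ ((P : Subgroup G).inv_mem hn)))
      have h3 : k * n * k⁻¹ = n * (n⁻¹ * k * n⁻¹⁻¹ * k⁻¹) := by group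
      rw [show ((P : Subgroup G) : Set G) = (P : Subgroup G) from rfl]
      show k * n * k⁻¹ ∈ (P : Subgroup G)
      rw [h3]
      exact (P : Subgroup G).mul_mem hn h1
  have hPK : ∀ x ∈ (P : Subgroup G), ∀ g ∈ K, x * g * x⁻¹ ∈ K := fun x _ g hg => hKn.conj_mem g hg x
  obtain ⟨a, b, c⟩ := Cfsg.Agent.Lib.Char.DGNMain.main hp.out _ (P : Subgroup G) rfl P.isPGroup' K Q
    (CC P K) hPK hQK hQn hQp hsyl hCK hC
  exact exists_bij P K hreal h2 hCK a b c


/-- Let p be a prime and G a finite group such that the subgroup generated by the p-elements of G is solvable and every real-valued irreducible complex character of G has degree prime to p. Let N be the normalizer of a Sylow p-subgroup of G. Then there is a bijection from the real-valued irreducible characters of G onto the real-valued irreducible characters of N of degree prime to p under which corresponding degrees are congruent modulo p up to sign. -/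
theorem result {G : Type*} [Group G] [Finite G] (p : ℕ) [Fact p.Prime] (hsolv : Group.IsSolvable ↥(Subgroup.closure {g : G | ∃ k : ℕ, orderOf g = p ^ k})) (hreal : ∀ χ : Cfsg.IrrCharacter G, (∀ g : G, ((χ : G → ℂ) g).im = 0) → ¬ p ∣ Cfsg.charDegree (χ : G → ℂ)) (P : Sylow p G) : ∃ f : {χ : Cfsg.IrrCharacter G // ∀ g : G, ((χ : G → ℂ) g).im = 0} → {ξ : Cfsg.IrrCharacter ↥(Subgroup.normalizer ((P : Subgroup G) : Set G)) // (∀ n, ((ξ : ↥(Subgroup.normalizer ((P : Subgroup G) : Set G)) → ℂ) n).im = 0) ∧ ¬ p ∣ Cfsg.charDegree (ξ : ↥(Subgroup.normalizer ((P : Subgroup G) : Set G)) → ℂ)}, Function.Bijective f ∧ ∀ χ, ((Cfsg.charDegree ((f χ).1 : ↥(Subgroup.normalizer ((P : Subgroup G) : Set G)) → ℂ) : ZMod p) = (Cfsg.charDegree (χ.1 : G → ℂ) : ZMod p) ∨ (Cfsg.charDegree ((f χ).1 : ↥(Subgroup.normalizer ((P : Subgroup G) : Set G)) → ℂ) : ZMod p) = -(Cfsg.charDegree (χ.1 : G → ℂ) : ZMod p)) := by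
  exact key p hsolv hreal P

end Cfsg.Agent.S4865
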