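import Cfsg.Statements.S4866
import Mathlib
import Cfsg.Agent.S0860
import Cfsg.Agent.Lib.Char.Galois
import Cfsg.Agent.Lib.Char.Basic
import Cfsg.Agent.Lib.Char.Ortho

set_option autoImplicit false
open Cfsg

namespace Cfsg.Agent.S4866

section Abstract

variable {G : Type*} [Group G] {Y : Type*} [MulAction (G × ℤˣ) Y]

variable (G Y) in
/-- The fixed points of the element `(1, -1)`. -/
def XX : Type _ := {y : Y // (((1 : G), (-1 : ℤˣ)) : G × ℤˣ) • y = y}

theorem comm1 (g : G) (y : Y) : (((1 : G), (-1 : ℤˣ)) : G × ℤˣ) • ((g, (1 : ℤˣ)) : G × ℤˣ) • y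
    = ((g, (-1 : ℤˣ)) : G × ℤˣ) • y := by
  rw [smul_smul]
  simp

theorem comm2 (g : G) (y : Y) : ((g, (1 : ℤˣ)) : G × ℤˣ) • (((1 : G), (-1 : ℤˣ)) : G × ℤˣ) • y
    = ((g, (-1 : ℤˣ)) : G × ℤˣ) • y := by
  rw [smul_smul]
  simp

noncomputable instance instXX : MulAction G (XX G Y) where
  smul g x := ⟨((g, (1 : ℤˣ)) : G × ℤˣ) • x.1, by
    rw [comm1, ← comm2, x.2]⟩
  one_smul x := Subtype.ext (by
    show (((1 : G), (1 : ℤˣ)) : G × ℤˣ) • x.1 = x.1
    exact one_smul _ _)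
  mul_smul g h x := Subtype.ext (by
    show ((g * h, (1 : ℤˣ)) : G × ℤˣ) • x.1 = ((g, (1 : ℤˣ)) : G × ℤˣ) • ((h, (1 : ℤˣ)) : G × ℤˣ) • x.1
    rw [smul_smul]
    simp)

theorem xx_smul_val (g : G) (x : XX G Y) : (g • x).1 = ((g, (1 : ℤˣ)) : G × ℤˣ) • x.1 := rfl

theorem fixed_equiv (K : Subgroup G) [K.Normal] (hodd : Odd K.index)
    (htriv : ∀ k ∈ K, ∀ y : Y, ((k, (1 : ℤˣ)) : G × ℤˣ) • y = y) (g : G) :
    Nat.card (MulAction.fixedBy (XX G Y) g) = Nat.card {y : Y // ((g, (-1 : ℤˣ)) : G × ℤˣ) • y = y} := by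
  have hσ : ∀ y : Y, ((g, (-1 : ℤˣ)) : G × ℤˣ) • y = y → (((1 : G), (-1 : ℤˣ)) : G × ℤˣ) • y = y := by
    intro y hy
    have h1 : ((g, (-1 : ℤˣ)) : G × ℤˣ) ^ K.index ∈ MulAction.stabilizer (G × ℤˣ) y :=
      Subgroup.pow_mem _ hy _
    have h2 : ((g, (-1 : ℤˣ)) : G × ℤˣ) ^ K.index = ((g ^ K.index, (1 : ℤˣ)) : G × ℤˣ) *
        (((1 : G), (-1 : ℤˣ)) : G × ℤˣ) := by
      rw [Prod.pow_mk, hodd.neg_one_pow]
      simp
    have h3 : ((g ^ K.index, (1 : ℤˣ)) : G × ℤˣ) • (((1 : G), (-1 : ℤˣ)) : G × ℤˣ) • y = y := by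
      rw [smul_smul, ← h2]
      exact h1
    rw [htriv _ (Subgroup.pow_index_mem K g)] at h3
    exact h3
  refine Nat.card_congr
    { toFun := fun x => ⟨x.1.1, ?_⟩
      invFun := fun y => ⟨⟨y.1, hσ y.1 y.2⟩, ?_⟩
      left_inv := fun x => rfl
      right_inv := fun y => rfl }
  · have h1 : ((g, (1 : ℤˣ)) : G × ℤˣ) • x.1.1 = x.1.1 := congrArg Subtype.val x.2
    rw [← comm2, x.1.2, h1]
  · apply Subtype.ext
    show ((g, (1 : ℤˣ)) : G × ℤˣ) • y.1 = y.1
    have h1 := comm2 g y.1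
    rw [hσ y.1 y.2, y.2] at h1
    exact h1

theorem burnside (K : Subgroup G) [K.Normal] (hodd : Odd K.index) [Fintype G] [Finite Y]
    (htriv : ∀ k ∈ K, ∀ y : Y, ((k, (1 : ℤˣ)) : G × ℤˣ) • y = y) :
    Nat.card (MulAction.orbitRel.Quotient G (XX G Y)) * Nat.card G =
      ∑ g : G, Nat.card {y : Y // ((g, (-1 : ℤˣ)) : G × ℤˣ) • y = y} := by
  classical
  haveI : Finite (XX G Y) := Subtype.finite
  haveI : Fintype (XX G Y) := Fintype.ofFinite _
  haveI : Fintype (MulAction.orbitRel.Quotient G (XX G Y)) := Fintype.ofFinite _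
  have := MulAction.sum_card_fixedBy_eq_card_orbits_mul_card_group G (XX G Y)
  rw [Nat.card_eq_fintype_card, Nat.card_eq_fintype_card, ← this]
  refine Finset.sum_congr rfl fun g _ => ?_
  rw [← fixed_equiv K hodd htriv g, Nat.card_eq_fintype_card]

theorem card_quot_eq {T X : Type*} [MulAction G X] (f : T → X) (hf : Function.Surjective f)
    (r : T → T → Prop) (hr : ∀ a b, r a b ↔ ∃ g : G, g • f a = f b) :
    Nat.card (Quot r) = Nat.card (MulAction.orbitRel.Quotient G X) := by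
  refine Nat.card_congr (Equiv.ofBijective (Quot.lift (fun a => (Quotient.mk'' (f a) :
    MulAction.orbitRel.Quotient G X)) ?_) ⟨?_, ?_⟩)
  · intro a b hab
    obtain ⟨g, hg⟩ := (hr a b).1 hab
    apply Quotient.sound'
    refine ⟨g⁻¹, ?_⟩
    show g⁻¹ • f b = f a
    rw [← hg, inv_smul_smul]
  · intro a b
    induction a using Quot.ind with | _ a => ?_
    induction b using Quot.ind with | _ b => ?_
    intro h
    have h2 : f a ∈ MulAction.orbit G (f b) := Quotient.exact' h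
    obtain ⟨g, hg⟩ := h2
    exact (Quot.sound ((hr b a).2 ⟨g, hg⟩)).symm
  · intro x
    induction x using Quotient.inductionOn' with | _ x => ?_
    obtain ⟨a, rfl⟩ := hf x
    exact ⟨Quot.mk _ a, rfl⟩

end Abstract

section Concrete

variable {G : Type*} [Group G] (K : Subgroup G) [K.Normal]

/-- the action of `G × ℤˣ` on the elements of `K`. -/
noncomputable def actK (a : G × ℤˣ) (k : K) : K :=
  MulAut.conjNormal a.1 (k ^ ((a.2 : ℤˣ) : ℤ))

theorem actK_one (k : K) : actK K 1 k = k := by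
  simp [actK]

theorem actK_mul (a b : G × ℤˣ) (k : K) : actK K (a * b) k = actK K a (actK K b k) := by
  simp only [actK, Prod.fst_mul, Prod.snd_mul, Units.val_mul, map_mul, map_zpow, MulAut.mul_apply,
    mul_comm ((a.2 : ℤˣ) : ℤ), zpow_mul]

theorem actK_coe_g (g : G) (k : K) : ((actK K (g, (1 : ℤˣ)) k : K) : G) = g * k * g⁻¹ := by
  simp [actK]

theorem isConj_actK (a : G × ℤˣ) {x y : K} (h : IsConj x y) : IsConj (actK K a x) (actK K a y) := by
  obtain ⟨c, rfl⟩ := isConj_iff.1 h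
  refine isConj_iff.2 ⟨MulAut.conjNormal a.1 c, ?_⟩
  simp only [actK]
  rw [conj_zpow, map_mul, map_mul, map_inv]

variable [Finite G]

theorem irr_inv {X : Type*} [Group X] [Finite X] {χ : X → ℂ} (hχ : IsIrrCharacter X χ) :
    IsIrrCharacter X (fun g => χ g⁻¹) := by
  have hinv : (fun g => χ (g ^ (Nat.card X - 1))) = fun g => χ g⁻¹ := by
    funext g
    have h1 : g ^ (Nat.card X - 1) = g⁻¹ := by
      rw [eq_inv_iff_mul_eq_one, ← pow_succ, Nat.sub_add_cancel Nat.card_pos, pow_card_eq_one']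
    rw [h1]
  have hcop : (Nat.card X - 1).Coprime (Nat.card X) := by
    have h1 := Nat.card_pos (α := X)
    obtain ⟨m, hm⟩ : ∃ m, Nat.card X = m + 1 := ⟨Nat.card X - 1, by omega⟩
    rw [hm]
    simp
  rw [← hinv]
  exact Cfsg.Agent.Lib.Char.Galois.isIrrCharacter_pow_of_coprime hχ hcop

theorem irr_actK (a : G × ℤˣ) {θ : K → ℂ} (hθ : IsIrrCharacter K θ) :
    IsIrrCharacter K (fun k => θ (actK K a k)) := by
  have h1 : IsIrrCharacter K (fun k => θ (MulAut.conjNormal a.1 k)) :=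
    Cfsg.Agent.Lib.Char.Basic.isIrrCharacter_comp_surjective hθ (MulAut.conjNormal a.1 : K ≃* K).toMonoidHom
      (MulAut.conjNormal a.1 : K ≃* K).surjective
  rcases Int.units_eq_one_or a.2 with h | h
  · simpa [actK, h] using h1
  · simpa [actK, h] using irr_inv h1

noncomputable instance instIrr : MulAction (G × ℤˣ) (IrrCharacter K) where
  smul a θ := ⟨fun k => θ.1 (actK K a⁻¹ k), irr_actK K a⁻¹ θ.2⟩
  one_smul θ := Subtype.ext (by
    funext k
    show θ.1 (actK K (1 : G × ℤˣ)⁻¹ k) = θ.1 k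
    rw [inv_one, actK_one])
  mul_smul a b θ := Subtype.ext (by
    funext k
    show θ.1 (actK K (a * b)⁻¹ k) = θ.1 (actK K b⁻¹ (actK K a⁻¹ k))
    rw [mul_inv_rev, actK_mul])

theorem irr_smul_apply (a : G × ℤˣ) (θ : IrrCharacter K) (k : K) :
    ((a • θ : IrrCharacter K) : K → ℂ) k = θ.1 (actK K a⁻¹ k) := rfl

noncomputable instance instCl : MulAction (G × ℤˣ) (ConjClasses K) where
  smul a C := Quotient.map' (actK K a) (fun _ _ h => isConj_actK K a h) C
  one_smul C := by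
    induction C using Quotient.inductionOn' with | _ x => ?_
    show ConjClasses.mk (actK K 1 x) = ConjClasses.mk x
    rw [actK_one]
  mul_smul a b C := by
    induction C using Quotient.inductionOn' with | _ x => ?_
    show ConjClasses.mk (actK K (a * b) x) = ConjClasses.mk (actK K a (actK K b x))
    rw [actK_mul]

theorem cl_smul_mk (a : G × ℤˣ) (x : K) :
    a • (ConjClasses.mk x : ConjClasses K) = ConjClasses.mk (actK K a x) := rfl

theorem compat (a : G × ℤˣ) (χ : IrrCharacter K) (g g' : K)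
    (h : ConjClasses.mk g' = a • ConjClasses.mk g) : ((a • χ : IrrCharacter K) : K → ℂ) g' = (χ : K → ℂ) g := by
  haveI := Fintype.ofFinite K
  rw [cl_smul_mk, ConjClasses.mk_eq_mk_iff_isConj] at h
  have h2 := isConj_actK K a⁻¹ h
  rw [← actK_mul, inv_mul_cancel, actK_one] at h2
  rw [irr_smul_apply]
  exact Cfsg.Agent.Lib.Char.CompleteCor.irr_apply_of_isConj h2 χ

theorem triv_irr (k : G) (hk : k ∈ K) (θ : IrrCharacter K) :
    ((k, (1 : ℤˣ)) : G × ℤˣ) • θ = θ := by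
  haveI := Fintype.ofFinite K
  apply Subtype.ext
  funext x
  rw [irr_smul_apply]
  refine Cfsg.Agent.Lib.Char.CompleteCor.irr_apply_of_isConj ?_ θ
  refine isConj_iff.2 ⟨⟨k, hk⟩, Subtype.ext ?_⟩
  have h1 : ((k, (1 : ℤˣ)) : G × ℤˣ)⁻¹ = (k⁻¹, (1 : ℤˣ)) := by simp
  rw [h1]
  push_cast
  rw [actK_coe_g]
  simp only [inv_inv]
  group

theorem triv_cl (k : G) (hk : k ∈ K) (C : ConjClasses K) :
    ((k, (1 : ℤˣ)) : G × ℤˣ) • C = C := by
  obtain ⟨x, rfl⟩ := ConjClasses.mk_surjective C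
  rw [cl_smul_mk, ConjClasses.mk_eq_mk_iff_isConj]
  refine (isConj_iff.2 ⟨⟨k, hk⟩⁻¹, Subtype.ext ?_⟩)
  push_cast
  rw [actK_coe_g]
  simp only [inv_inv]
  group

theorem sig_irr (θ : IrrCharacter K) :
    (((1 : G), (-1 : ℤˣ)) : G × ℤˣ) • θ = θ ↔ ∀ k : K, (θ.1 k).im = 0 := by
  haveI := Fintype.ofFinite K
  have h1 : ((((1 : G), (-1 : ℤˣ)) : G × ℤˣ))⁻¹ = (1, -1) := by
    ext <;> simp
  have h2 : ∀ k : K, ((((1 : G), (-1 : ℤˣ)) : G × ℤˣ) • θ : IrrCharacter K).1 k = θ.1 k⁻¹ := by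
    intro k
    rw [irr_smul_apply, h1]
    simp [actK]
  have hconj : ∀ k : K, θ.1 k⁻¹ = (starRingEnd ℂ) (θ.1 k) := by
    intro k
    exact Cfsg.Agent.Lib.Char.Ortho.character_inv_of_isCharacter
      (Cfsg.Agent.Lib.Char.Basic.isCharacter_of_isIrrCharacter θ.2) k
  constructor
  · intro h k
    have h3 := congrFun (congrArg Subtype.val h) k
    rw [h2, hconj] at h3
    exact Complex.conj_eq_iff_im.1 h3
  · intro h
    apply Subtype.ext
    funext k
    rw [h2, hconj]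
    exact Complex.conj_eq_iff_im.2 (h k)

theorem sig_cl (x : K) :
    (((1 : G), (-1 : ℤˣ)) : G × ℤˣ) • (ConjClasses.mk x : ConjClasses K) = ConjClasses.mk x ↔
      IsConj x x⁻¹ := by
  rw [cl_smul_mk, ConjClasses.mk_eq_mk_iff_isConj]
  have : actK K ((1 : G), (-1 : ℤˣ)) x = x⁻¹ := by
    simp [actK]
  rw [this]
  exact ⟨fun h => h.symm, fun h => h.symm⟩

end Concrete

/-- Let K be a normal subgroup of odd index in the finite group G. Then G has as many orbits on the real-valued irreducible complex characters of K (acting by conjugation) as it has orbits on the conjugacy classes of K that are real in K; equivalently, the number of G-orbits of real-valued irreducible characters of K equals the number of G-conjugacy classes of elements of K that are conjugate in K to their inverses. -/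
theorem result {G : Type*} [Group G] [Finite G] (K : Subgroup G) [K.Normal] (hodd : Odd K.index) : Nat.card (Quot (fun θ η : {θ : Cfsg.IrrCharacter ↥K // (∀ k : ↥K, ((θ : ↥K → ℂ) k).im = 0)} => ∃ g : G, ∀ k k' : ↥K, (k' : G) = g * (k : G) * g⁻¹ → (η.1 : ↥K → ℂ) k' = (θ.1 : ↥K → ℂ) k)) = Nat.card (Quot (fun x y : {x : ↥K // IsConj x x⁻¹} => ∃ g : G, (y.1 : G) = g * x.1 * g⁻¹)) := by
  classical
  haveI := Fintype.ofFinite G
  have hb1 := burnside (Y := IrrCharacter K) K hodd (fun k hk y => triv_irr K k hk y)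
  have hb2 := burnside (Y := ConjClasses K) K hodd (fun k hk y => triv_cl K k hk y)
  have hS : ∀ g : G, Nat.card {y : IrrCharacter K // ((g, (-1 : ℤˣ)) : G × ℤˣ) • y = y} =
      Nat.card {y : ConjClasses K // ((g, (-1 : ℤˣ)) : G × ℤˣ) • y = y} := fun g =>
    Cfsg.Agent.S0860.result (compat K) _
  simp_rw [hS] at hb1
  have hG : 0 < Nat.card G := Nat.card_pos
  have hmain := Nat.eq_of_mul_eq_mul_right hG (hb1.trans hb2.symm)
  rw [card_quot_eq (G := G) (X := XX G (IrrCharacter K))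
    (fun θ => ⟨θ.1, (sig_irr K θ.1).2 θ.2⟩) ?_ _ ?_, hmain,
    card_quot_eq (G := G) (X := XX G (ConjClasses K))
    (fun x => ⟨ConjClasses.mk x.1, (sig_cl K x.1).2 x.2⟩) ?_ _ ?_]
  · -- surjective, classes
    rintro ⟨C, hC⟩
    obtain ⟨x, rfl⟩ := ConjClasses.mk_surjective C
    exact ⟨⟨x, (sig_cl K x).1 hC⟩, rfl⟩
  · -- relation, classes
    rintro ⟨x, hx⟩ ⟨y, hy⟩
    constructor
    · rintro ⟨g, hg⟩
      refine ⟨g, Subtype.ext ?_⟩
      show ((g, (1 : ℤˣ)) : G × ℤˣ) • (ConjClasses.mk x : ConjClasses K) = ConjClasses.mk y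
      rw [cl_smul_mk]
      congr 1
      apply Subtype.ext
      rw [actK_coe_g]
      exact hg.symm
    · rintro ⟨g, hg⟩
      have h1 : ((g, (1 : ℤˣ)) : G × ℤˣ) • (ConjClasses.mk x : ConjClasses K) = ConjClasses.mk y :=
        congrArg Subtype.val hg
      rw [cl_smul_mk, ConjClasses.mk_eq_mk_iff_isConj] at h1
      obtain ⟨c, hc⟩ := isConj_iff.1 h1
      refine ⟨c * g, ?_⟩
      have h2 := congrArg (Subtype.val) hc
      push_cast at h2
      rw [actK_coe_g] at h2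
      rw [← h2]
      group
  · -- surjective, characters
    rintro ⟨θ, hθ⟩
    exact ⟨⟨θ, (sig_irr K θ).1 hθ⟩, rfl⟩
  · -- relation, characters
    rintro ⟨θ, hθ⟩ ⟨η, hη⟩
    have hinv : ∀ (g : G), ((g, (1 : ℤˣ)) : G × ℤˣ)⁻¹ = (g⁻¹, (1 : ℤˣ)) := fun g => by simp
    constructor
    · rintro ⟨g, hg⟩
      refine ⟨g, Subtype.ext (Subtype.ext ?_)⟩
      funext k'
      show ((((g, (1 : ℤˣ)) : G × ℤˣ) • θ : IrrCharacter K) : K → ℂ) k' = η.1 k'
      rw [irr_smul_apply, hinv]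
      refine (hg _ _ ?_).symm
      rw [actK_coe_g]
      group
    · rintro ⟨g, hg⟩
      refine ⟨g, fun k k' hk => ?_⟩
      have h1 : ((g, (1 : ℤˣ)) : G × ℤˣ) • θ = η := congrArg Subtype.val hg
      show η.1 k' = θ.1 k
      rw [← h1, irr_smul_apply, hinv]
      have h2 : actK K (g⁻¹, (1 : ℤˣ)) k' = k := by
        apply Subtype.ext
        rw [actK_coe_g, hk]
        group
      rw [h2]

end Cfsg.Agent.S4866
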