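import Cfsg.Statements.S4870
import Cfsg.Agent.Lib.Char.Gallagher
import Cfsg.Agent.Lib.Char.GlaubCyclic
import Cfsg.Agent.Lib.Char.Complete

set_option autoImplicit false
open Cfsg

namespace Cfsg.Agent.S4870

open Cfsg.Agent.Lib.Char.Basic Cfsg.Agent.Lib.Char.Ortho Cfsg.Agent.Lib.Char.Induced
  Cfsg.Agent.Lib.Char.IndRep Cfsg.Agent.Lib.Char.CliffordCorr Cfsg.Agent.Lib.Char.Gallagher
  Cfsg.Agent.Lib.Char.LinearChars Cfsg.Agent.Lib.Char.GlaubCyclic

universe u

/-- Homomorphisms trivial on `I`: at most `[G:I]` of them, by Dedekind independence. -/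
theorem card_hom_trivial_le {G : Type u} [Group G] [Finite G] (I : Subgroup G) :
    Nat.card {f : G →* ℂˣ // ∀ t ∈ I, f t = 1} ≤ I.index := by
  classical
  haveI : Finite (G →* ℂˣ) := Finite.of_equiv _ (linearEquivHom (G := G))
  letI : Fintype {f : G →* ℂˣ // ∀ t ∈ I, f t = 1} := Fintype.ofFinite _
  letI : Fintype (G ⧸ I) := Fintype.ofFinite _
  let S := {f : G →* ℂˣ // ∀ t ∈ I, f t = 1}
  let v' : S → (G ⧸ I → ℂ) := fun f x => ((f.1 x.out : ℂˣ) : ℂ)
  have hv' : ∀ (f : S) (g : G), v' f (g : G ⧸ I) = ((f.1 g : ℂˣ) : ℂ) := by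
    intro f g
    show ((f.1 (g : G ⧸ I).out : ℂˣ) : ℂ) = _
    have h1 : g⁻¹ * (g : G ⧸ I).out ∈ I := QuotientGroup.eq.mp (QuotientGroup.out_eq' _).symm
    have h2 := f.2 _ h1
    rw [map_mul, map_inv, inv_mul_eq_one] at h2
    rw [← h2]
  have hli : LinearIndependent ℂ v' := by
    apply LinearIndependent.of_comp (LinearMap.funLeft ℂ ℂ (fun g : G => (g : G ⧸ I)))
    have h0 := linearIndependent_monoidHom G ℂ
    let j : S → (G →* ℂ) := fun f => (Units.coeHom ℂ).comp f.1
    have hj : Function.Injective j := by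
      intro f f' h
      apply Subtype.ext
      ext g
      exact congrArg (fun F : G →* ℂ => F g) h
    have h1 := h0.comp j hj
    have h3 : (LinearMap.funLeft ℂ ℂ (fun g : G => (g : G ⧸ I))) ∘ v' =
        (fun f : G →* ℂ => (f : G → ℂ)) ∘ j := by
      funext f g
      simp [LinearMap.funLeft_apply, hv', j]
    rw [h3]
    exact h1
  have h2 := hli.fintype_card_le_finrank
  rw [Module.finrank_fintype_fun_eq_card] at h2
  rw [Nat.card_eq_fintype_card, Subgroup.index, Nat.card_eq_fintype_card]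
  exact h2

/-- Gallagher injectivity: a linear character of `I` trivial on `N` which fixes an irreducible
character `ψ` with irreducible restriction to `N` is trivial. -/
theorem hom_trivial_of_mul_eq {I : Type u} [Group I] [Fintype I] (N : Subgroup I) [hN : N.Normal]
    {ψ : I → ℂ} (hψ : IsIrrCharacter I ψ) (hres : IsIrrCharacter N (fun n : N => ψ n))
    (β : I →* ℂˣ) (hβ : ∀ n ∈ N, β n = 1) (h : (fun g => ((β g : ℂˣ) : ℂ) * ψ g) = ψ) : β = 1 := by
  classical
  letI : Fintype N := Fintype.ofFinite _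
  have hone : IsIrrCharacter N (1 : N → ℂ) := by
    have := isIrr_of_hom (1 : N →* ℂˣ)
    convert this using 1
    funext g
    simp
  have hone' : IsIrrCharacter I (1 : I → ℂ) := by
    have := isIrr_of_hom (1 : I →* ℂˣ)
    convert this using 1
    funext g
    simp
  have hβirr : IsIrrCharacter I (fun g => ((β g : ℂˣ) : ℂ)) := isIrr_of_hom β
  have hcl := isClassFunction_of_isCharacter (isCharacter_of_isIrrCharacter hψ)
  have hbij := gallagher_bijOn (G := I) N (φ := (1 : N → ℂ)) (ϑ := fun n : N => ψ n) hone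
    (fun _ _ => rfl) (fun g n => hcl n g) (by simpa using hres) hψ (fun _ => rfl)
  have hmem : ∀ {b : I → ℂ}, IsIrrCharacter I b → (∀ n : N, b n = 1) →
      b ∈ {β : I → ℂ | IsIrrCharacter I β ∧ classInner (indFun N (1 : N → ℂ)) β ≠ 0} := by
    intro b hb hbN
    refine ⟨hb, ?_⟩
    rw [frobenius_reciprocity N _ b (isClassFunction_of_isCharacter (isCharacter_of_isIrrCharacter hb))]
    have : (fun n : N => b n) = (1 : N → ℂ) := funext hbN
    rw [this, classInner_irr_self hone]
    exact one_ne_zero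
  have h1 := hbij.injOn (hmem hone' (fun _ => rfl))
    (hmem hβirr (fun n => by simp [hβ n.1 n.2]))
    (by
      show (1 : I → ℂ) * ψ = (fun g => ((β g : ℂˣ) : ℂ)) * ψ
      rw [one_mul]
      exact h.symm)
  ext g
  have := congrFun h1 g
  simp only [Pi.one_apply] at this
  simpa using this.symm

/-- Every linear character is trivial on a non-abelian minimal normal subgroup. -/
theorem hom_trivial_on {G : Type u} [Group G] (N : Subgroup G) (hN : N.Normal)
    (hmin : ∀ M : Subgroup G, M.Normal → M ≤ N → M = ⊥ ∨ M = N) (hna : ¬ IsMulCommutative ↥N)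
    (f : G →* ℂˣ) : ∀ n ∈ N, f n = 1 := by
  haveI := hN
  have hker : (N ⊓ f.ker).Normal := Subgroup.normal_inf_normal _ _
  rcases hmin _ hker inf_le_left with h | h
  · exfalso
    apply hna
    refine ⟨⟨fun x y => ?_⟩⟩
    apply Subtype.ext
    have hc : (x : G) * y * (x : G)⁻¹ * (y : G)⁻¹ ∈ N ⊓ f.ker := by
      refine ⟨N.mul_mem (N.mul_mem (N.mul_mem x.2 y.2) (N.inv_mem x.2)) (N.inv_mem y.2), ?_⟩
      show (x : G) * y * (x : G)⁻¹ * (y : G)⁻¹ ∈ f.ker
      rw [MonoidHom.mem_ker]
      simp only [map_mul, map_inv]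
      rw [mul_comm (f x) (f y)]
      simp
    rw [h, Subgroup.mem_bot] at hc
    show (x : G) * y = y * x
    have h2 : (x : G) * y * (x : G)⁻¹ = y := by
      rwa [mul_inv_eq_one] at hc
    rw [mul_inv_eq_iff_eq_mul] at h2
    exact h2
  · intro n hn
    have : n ∈ N ⊓ f.ker := by rw [h]; exact hn
    exact this.2

theorem charDegree_eq {G : Type u} [Group G] {χ : G → ℂ} {d : ℕ} (h : χ 1 = d) :
    charDegree χ = d := by
  unfold charDegree
  rw [h]
  simp

/-- See the statement. -/
theorem result {G : Type*} [Group G] [Finite G] (N : Subgroup G) (hN : N.Normal) (hN1 : N ≠ ⊥) (hmin : ∀ M : Subgroup G, M.Normal → M ≤ N → M = ⊥ ∨ M = N) (hna : ¬ IsMulCommutative ↥N) (φ : Cfsg.IrrCharacter ↥N) (I : Subgroup G) (hI : ∀ g : G, g ∈ I ↔ ∀ n n' : ↥N, (n' : G) = g * (n : G) * g⁻¹ → (φ : ↥N → ℂ) n' = (φ : ↥N → ℂ) n) (hNI : N ≤ I) (hext : ∃ ψ : Cfsg.IrrCharacter ↥I, ∀ n : ↥N, (ψ : ↥I → ℂ) (Subgroup.inclusion hNI n) = (φ : ↥N → ℂ) n) : Nat.card {χ : Cfsg.IrrCharacter G // Cfsg.charDegree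 (χ : G → ℂ) = 1} ≤ I.index * Nat.card {χ : Cfsg.IrrCharacter G // Cfsg.charDegree (χ : G → ℂ) = Cfsg.charDegree (φ : ↥N → ℂ) * I.index} := by
  classical
  letI : Fintype G := Fintype.ofFinite _
  letI : Fintype N := Fintype.ofFinite _
  letI : Fintype I := Fintype.ofFinite _
  haveI : Finite (G →* ℂˣ) := Finite.of_equiv _ (linearEquivHom (G := G))
  letI : Fintype (G →* ℂˣ) := Fintype.ofFinite _
  haveI := hN
  obtain ⟨ψ, hψ⟩ := hext
  -- linear characters as homs
  have hL : Nat.card {χ : IrrCharacter G // charDegree (χ : G → ℂ) = 1} = Nat.card (G →* ℂˣ) := by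
    rw [← Nat.card_congr (linearEquivHom (G := G))]
    refine Nat.card_congr (Equiv.subtypeEquivRight (fun χ => ?_))
    obtain ⟨d, -, hd⟩ := irr_degree_pos χ.2
    rw [charDegree_eq hd, hd]
    norm_cast
  rw [hL]
  obtain ⟨d, hdpos, hd⟩ := irr_degree_pos φ.2
  have hT : ∀ g : G, g ∈ I ↔ ∀ n : N, (φ : N → ℂ) ⟨g * n * g⁻¹, hN.conj_mem (n : G) n.2 g⟩ = (φ : N → ℂ) n := by
    intro g
    rw [hI]
    constructor
    · intro h n
      exact h n _ rfl
    · intro h n n' hn
      have : n' = ⟨g * n * g⁻¹, hN.conj_mem (n : G) n.2 g⟩ := Subtype.ext hn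
      rw [this]
      exact h n
  -- the twist
  let tw : (G →* ℂˣ) → (I → ℂ) := fun f t => ((f.comp I.subtype t : ℂˣ) : ℂ) * (ψ : I → ℂ) t
  have htwirr : ∀ f, IsIrrCharacter I (tw f) := fun f => isIrr_lin_mul (f.comp I.subtype) ψ.2
  have htwres : ∀ f, resT N I hNI (tw f) = (φ : N → ℂ) := by
    intro f
    funext n
    show ((f (n : G) : ℂˣ) : ℂ) * (ψ : I → ℂ) ⟨(n : G), hNI n.2⟩ = _
    rw [hom_trivial_on N hN hmin hna f n n.2]
    simp only [Units.val_one, one_mul]
    exact hψ n
  have hinner : ∀ f, classInner (resT N I hNI (tw f)) (φ : N → ℂ) ≠ 0 := by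
    intro f
    rw [htwres, classInner_irr_self φ.2]
    exact one_ne_zero
  have hind : ∀ f, IsIrrCharacter G (indFun I (tw f)) := fun f =>
    isIrr_indFun N (φ : N → ℂ) I hNI φ.2 hT (htwirr f) (hinner f)
  have hdeg : ∀ f, charDegree (indFun I (tw f)) = charDegree (φ : N → ℂ) * I.index := by
    intro f
    rw [charDegree_eq hd]
    apply charDegree_eq
    rw [indFun_one]
    have h1 : tw f 1 = (φ : N → ℂ) 1 := congrFun (htwres f) 1
    rw [h1, hd]
    push_cast
    ring
  let F : (G →* ℂˣ) → {χ : IrrCharacter G // charDegree (χ : G → ℂ) = charDegree (φ : N → ℂ) * I.index} :=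
    fun f => ⟨⟨indFun I (tw f), hind f⟩, hdeg f⟩
  -- the fibres
  have hfib : ∀ f f₀, F f = F f₀ → ∀ t ∈ I, (f / f₀) t = 1 := by
    intro f f₀ h
    have h1 : indFun I (tw f) = indFun I (tw f₀) := by
      have := congrArg (fun x => ((x.1 : IrrCharacter G) : G → ℂ)) h
      exact this
    have h2 : tw f = tw f₀ := eq_of_indFun_eq N (φ : N → ℂ) I hNI φ.2 hT (htwirr f) (htwirr f₀)
      (hinner f) (hinner f₀) h1
    let N' : Subgroup I := N.subgroupOf I
    haveI : N'.Normal := Subgroup.Normal.subgroupOf hN I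
    let e : N' ≃* N := Subgroup.subgroupOfEquivOfLe hNI
    have hres : IsIrrCharacter N' (fun n : N' => (ψ : I → ℂ) n) := by
      have h3 := isIrrCharacter_comp_surjective φ.2 e.toMonoidHom e.surjective
      convert h3 using 1
      funext n
      have := hψ (e n)
      show _ = (φ : N → ℂ) (e n)
      rw [← this]
      rfl
    let β : I →* ℂˣ := (f / f₀).comp I.subtype
    have hβ : β = 1 := by
      apply hom_trivial_of_mul_eq N' ψ.2 hres β
      · intro n hn
        show (f / f₀) (n : G) = 1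
        have hn' : (n : G) ∈ N := hn
        simp [hom_trivial_on N hN hmin hna f n hn', hom_trivial_on N hN hmin hna f₀ n hn']
      · funext t
        have h4 := congrFun h2 t
        have h5 : ((f t : ℂˣ) : ℂ) * (ψ : I → ℂ) t = ((f₀ t : ℂˣ) : ℂ) * (ψ : I → ℂ) t := h4
        show (((f / f₀) (t : G) : ℂˣ) : ℂ) * (ψ : I → ℂ) t = _
        simp only [MonoidHom.div_apply, Units.val_div_eq_div_val]
        have h6 : ((f₀ t : ℂˣ) : ℂ) ≠ 0 := Units.ne_zero _
        field_simp
        rw [h5]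
    intro t ht
    have := congrArg (fun b : I →* ℂˣ => b ⟨t, ht⟩) hβ
    simpa [β] using this
  -- counting
  letI : Fintype {χ : IrrCharacter G // charDegree (χ : G → ℂ) = charDegree (φ : N → ℂ) * I.index} :=
    Fintype.ofFinite _
  have hcount : Fintype.card (G →* ℂˣ) ≤ I.index * (Finset.univ.image F).card := by
    rw [← Finset.card_univ]
    apply Finset.card_le_mul_card_image
    intro a ha
    obtain ⟨f₀, -, rfl⟩ := Finset.mem_image.mp ha
    refine le_trans ?_ (card_hom_trivial_le I)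
    rw [Nat.card_eq_fintype_card (α := {f : G →* ℂˣ // ∀ t ∈ I, f t = 1})]
    let j : {x // x ∈ Finset.univ.filter (fun x => F x = F f₀)} → {f : G →* ℂˣ // ∀ t ∈ I, f t = 1} :=
      fun x => ⟨x.1 / f₀, hfib x.1 f₀ (Finset.mem_filter.mp x.2).2⟩
    have hj : Function.Injective j := by
      intro x y h
      apply Subtype.ext
      have := congrArg Subtype.val h
      exact div_left_injective this
    have := Fintype.card_le_of_injective j hj
    rwa [Fintype.card_coe] at this
  rw [Nat.card_eq_fintype_card, Nat.card_eq_fintype_card]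
  refine le_trans hcount (Nat.mul_le_mul_left _ ?_)
  exact Finset.card_le_univ _

end Cfsg.Agent.S4870
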