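import Mathlib
import Cfsg.Prelude.Def_Transfer
import Cfsg.Agent.Lib.Char.CliffordCorr
import Cfsg.Agent.Lib.Char.LinearChars
import Cfsg.Agent.Lib.Char.GlaubCyclic
import Cfsg.Agent.Lib.Char.Complete
import Cfsg.Agent.Lib.Char.Virtual
import Cfsg.Agent.Lib.Char.Values
import Cfsg.Agent.Lib.Blocks.AbFrob2

set_option autoImplicit false

open Cfsg

namespace Cfsg.Agent.S4871

open Cfsg.Agent.Lib.Char.Basic Cfsg.Agent.Lib.Char.Ortho Cfsg.Agent.Lib.Char.Induced
  Cfsg.Agent.Lib.Char.LinearChars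

/-- Distinct homomorphisms agreeing on `T` number at most `|G : T|`. -/
lemma card_le_index {G : Type*} [Group G] [Finite G] (T : Subgroup G) {ι : Type*} [Fintype ι]
    (f : ι → G →* ℂˣ) (hinj : Function.Injective f)
    (hagree : ∀ i j, ∀ t ∈ T, f i t = f j t) : Fintype.card ι ≤ T.index := by
  classical
  cases nonempty_fintype G
  haveI : Fintype (G ⧸ T) := Fintype.ofFinite _
  let f' : ι → (G →* ℂ) := fun i => (Units.coeHom ℂ).comp (f i)
  have hf' : Function.Injective f' := by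
    intro i j h
    apply hinj
    ext g
    exact congrArg (fun F : G →* ℂ => F g) h
  have hli := (linearIndependent_monoidHom G ℂ).comp f' hf'
  let v : ι → (G ⧸ T → ℂ) := fun i c => (f i c.out : ℂˣ)
  have hv : LinearIndependent ℂ v := by
    rw [Fintype.linearIndependent_iff]
    intro a ha i
    rw [Fintype.linearIndependent_iff] at hli
    refine hli a ?_ i
    funext g
    simp only [Finset.sum_apply, Pi.smul_apply, Function.comp, Pi.zero_apply, smul_eq_mul]
    set c : G ⧸ T := QuotientGroup.mk g with hc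
    have htm : c.out⁻¹ * g ∈ T := by
      have : (QuotientGroup.mk c.out : G ⧸ T) = QuotientGroup.mk g := by
        rw [QuotientGroup.out_eq']
      exact QuotientGroup.eq.1 this
    have h1 := congrFun ha c
    simp only [Finset.sum_apply, Pi.smul_apply, Pi.zero_apply, smul_eq_mul] at h1
    have h2 : ∀ j, (f' j : G → ℂ) g = ((f i (c.out⁻¹ * g) : ℂˣ) : ℂ) * ((f j c.out : ℂˣ) : ℂ) := by
      intro j
      have h3 : g = c.out * (c.out⁻¹ * g) := by group
      have h4 : (f j g) = f j c.out * f i (c.out⁻¹ * g) := by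
        rw [← hagree j i _ htm, ← map_mul, ← h3]
      show ((f j g : ℂˣ) : ℂ) = _
      rw [h4, Units.val_mul, mul_comm]
    simp_rw [h2]
    have h5 : ∑ j, a j * (((f i (c.out⁻¹ * g) : ℂˣ) : ℂ) * ((f j c.out : ℂˣ) : ℂ)) =
        ((f i (c.out⁻¹ * g) : ℂˣ) : ℂ) * ∑ j, a j * ((f j c.out : ℂˣ) : ℂ) := by
      rw [Finset.mul_sum]
      exact Finset.sum_congr rfl (fun j _ => by ring)
    rw [h5]
    have h6 : ∑ j, a j * ((f j c.out : ℂˣ) : ℂ) = 0 := h1
    rw [h6, mul_zero]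
  have h1 := hv.fintype_card_le_finrank
  rw [Module.finrank_fintype_fun_eq_card] at h1
  rw [Subgroup.index_eq_card, Nat.card_eq_fintype_card]
  exact h1

/-- A hom to `ℂˣ` whose sum does not vanish is trivial. -/
lemma sum_hom_eq_zero {A : Type*} [Group A] [Fintype A] (φ : A →* ℂˣ) {a : A} (ha : φ a ≠ 1) :
    ∑ x : A, ((φ x : ℂˣ) : ℂ) = 0 := by
  have h1 : ((φ a : ℂˣ) : ℂ) * ∑ x : A, ((φ x : ℂˣ) : ℂ) = ∑ x : A, ((φ x : ℂˣ) : ℂ) := by
    rw [Finset.mul_sum]
    refine Fintype.sum_equiv (Equiv.mulLeft a) _ _ (fun x => ?_)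
    simp
  have hne : ((φ a : ℂˣ) : ℂ) ≠ 1 := fun h => ha (Units.ext h)
  have h2 : (((φ a : ℂˣ) : ℂ) - 1) * ∑ x : A, ((φ x : ℂˣ) : ℂ) = 0 := by
    rw [sub_mul, h1, one_mul, sub_self]
  exact (mul_eq_zero.1 h2).resolve_left (sub_ne_zero.2 hne)

/-- The pure counting: from the map `F` on degree-one members with fibres of size at most `d`. -/
lemma count {X : Type*} [Fintype X] [DecidableEq X] (D : X → ℕ) (d : ℕ) (hd : 2 ≤ d)
    (hD : ∀ x, D x = 1 ∨ 2 ≤ D x) (F : X → X) (hF : ∀ x, D x = 1 → D (F x) = d)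
    (hfib : ∀ y, (Finset.univ.filter (fun x => D x = 1 ∧ F x = y)).card ≤ d) :
    4 * Fintype.card X ≤ 3 * ∑ x, D x := by
  classical
  set S := Finset.univ.filter (fun x => D x = 1) with hS
  set Y := S.image F with hY
  have h1 : S.card ≤ d * Y.card := by
    apply Finset.card_le_mul_card_image
    intro y _
    have : S.filter (fun x => F x = y) = Finset.univ.filter (fun x => D x = 1 ∧ F x = y) := by
      ext x; simp [hS]
    rw [this]
    exact hfib y
  have hYS : ∀ y ∈ Y, y ∉ S := by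
    intro y hy hyS
    obtain ⟨x, hx, rfl⟩ := Finset.mem_image.1 hy
    have h2 := hF x (Finset.mem_filter.1 hx).2
    have h3 := (Finset.mem_filter.1 hyS).2
    omega
  -- integer computation
  have hsum : (∑ x, (3 * (D x : ℤ) - 4)) ≥ 0 := by
    have h2 : (∑ x, (3 * (D x : ℤ) - 4)) =
        ∑ x ∈ S, (3 * (D x : ℤ) - 4) + ∑ x ∈ Sᶜ, (3 * (D x : ℤ) - 4) :=
      (Finset.sum_add_sum_compl S _).symm
    have h3 : ∑ x ∈ S, (3 * (D x : ℤ) - 4) = - (S.card : ℤ) := by
      have : ∀ x ∈ S, (3 * (D x : ℤ) - 4) = -1 := by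
        intro x hx
        rw [(Finset.mem_filter.1 hx).2]; norm_num
      rw [Finset.sum_congr rfl this]
      simp
    have hYc : Y ⊆ Sᶜ := fun y hy => Finset.mem_compl.2 (hYS y hy)
    have h4 : ∑ x ∈ Y, (3 * (D x : ℤ) - 4) ≤ ∑ x ∈ Sᶜ, (3 * (D x : ℤ) - 4) := by
      apply Finset.sum_le_sum_of_subset_of_nonneg hYc
      intro x hx _
      have : D x ≠ 1 := fun h => (Finset.mem_compl.1 hx) (Finset.mem_filter.2 ⟨Finset.mem_univ _, h⟩)
      have h5 := (hD x).resolve_left this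
      have h6 : (2 : ℤ) ≤ D x := by exact_mod_cast h5
      linarith
    have h5 : ∑ x ∈ Y, (3 * (D x : ℤ) - 4) ≥ (d : ℤ) * Y.card := by
      have : ∀ x ∈ Y, (d : ℤ) ≤ (3 * (D x : ℤ) - 4) := by
        intro x hx
        obtain ⟨z, hz, rfl⟩ := Finset.mem_image.1 hx
        rw [hF z (Finset.mem_filter.1 hz).2]
        have : (2 : ℤ) ≤ d := by exact_mod_cast hd
        linarith
      have h6 := Finset.card_nsmul_le_sum Y _ _ this
      rw [nsmul_eq_mul] at h6
      linarith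
    have h6 : (S.card : ℤ) ≤ d * Y.card := by exact_mod_cast h1
    rw [h2, h3]
    linarith
  have h7 : (∑ x, (3 * (D x : ℤ) - 4)) = 3 * ∑ x, (D x : ℤ) - 4 * Fintype.card X := by
    rw [Finset.sum_sub_distrib, ← Finset.mul_sum]
    simp [mul_comm]
  rw [h7] at hsum
  have h8 : (4 * Fintype.card X : ℤ) ≤ 3 * ∑ x, (D x : ℤ) := by linarith
  exact_mod_cast h8


section Main

variable {G : Type*} [Group G] {N P : Subgroup G} [hN : N.Normal]

/-- Conjugation on the normal subgroup. -/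
def cj (g : G) (n : N) : N := ⟨g * n * g⁻¹, hN.conj_mem _ n.2 g⟩

@[simp] lemma coe_cj (g : G) (n : N) : (cj g n : G) = g * n * g⁻¹ := rfl

lemma cj_mul (a b : G) (n : N) : cj (a * b) n = cj a (cj b n) := by
  apply Subtype.ext; simp only [coe_cj]; group

@[simp] lemma cj_one (n : N) : cj (1 : G) n = n := by
  apply Subtype.ext; simp

lemma cj_mul_arg (g : G) (a b : N) : cj g (a * b) = cj g a * cj g b := by
  apply Subtype.ext; simp only [coe_cj, Subgroup.coe_mul]; group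

/-- The inertia group of a linear character of `N`. -/
def inert (θ : N →* ℂˣ) : Subgroup G where
  carrier := {g | ∀ n : N, θ (cj g n) = θ n}
  one_mem' n := by simp
  mul_mem' {a b} ha hb n := by
    simp only [Set.mem_setOf_eq] at ha hb
    rw [cj_mul, ha, hb]
  inv_mem' {a} ha n := by
    simp only [Set.mem_setOf_eq] at ha
    rw [← ha (cj a⁻¹ n), ← cj_mul]
    simp

lemma mem_inert {θ : N →* ℂˣ} {g : G} : g ∈ inert θ ↔ ∀ n : N, θ (cj g n) = θ n := Iff.rfl

lemma cj_of_mem {a : G} (ha : a ∈ N) (hcomm : ∀ a b : N, a * b = b * a) (n : N) : cj a n = n := by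
  apply Subtype.ext
  have := congrArg Subtype.val (hcomm ⟨a, ha⟩ n)
  simp only [Subgroup.coe_mul] at this
  simp only [coe_cj]
  rw [this]; group

lemma le_inert (θ : N →* ℂˣ) (hcomm : ∀ a b : N, a * b = b * a) : N ≤ inert θ := by
  intro a ha n
  rw [cj_of_mem ha hcomm]

/-- The decomposition `N × P ≃ G`. -/
noncomputable def dec (hc : N.IsComplement' P) : N × P ≃ G :=
  Equiv.ofBijective (fun x => (x.1 : G) * x.2) hc

noncomputable def lft (hc : N.IsComplement' P) (g : G) : N := ((dec hc).symm g).1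
noncomputable def rgt (hc : N.IsComplement' P) (g : G) : P := ((dec hc).symm g).2

lemma lft_mul_rgt (hc : N.IsComplement' P) (g : G) : (lft hc g : G) * rgt hc g = g :=
  (dec hc).apply_symm_apply g

lemma dec_symm_mul (hc : N.IsComplement' P) (n : N) (p : P) :
    (dec hc).symm ((n : G) * p) = (n, p) :=
  (dec hc).symm_apply_apply (n, p)

lemma lft_mul (hc : N.IsComplement' P) (n : N) (p : P) : lft hc ((n : G) * p) = n := by
  unfold lft; rw [dec_symm_mul]

lemma sum_decomp (hc : N.IsComplement' P) [Fintype G] [Fintype N] [Fintype P] (F : G → ℂ) :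
    ∑ g, F g = ∑ n : N, ∑ p : P, F ((n : G) * p) := by
  rw [← Fintype.sum_prod_type']
  exact (Equiv.sum_comp (dec hc) F).symm

variable (hc : N.IsComplement' P) (θ : N →* ℂˣ) (hcomm : ∀ a b : N, a * b = b * a)

include hc in
lemma mem_inert_of_rgt (g : G) (hg : g ∈ inert θ) (hcomm : ∀ a b : N, a * b = b * a) :
    (rgt hc g : G) ∈ inert θ := by
  have h1 : (rgt hc g : G) = (lft hc g : G)⁻¹ * g := by
    rw [eq_inv_mul_iff_mul_eq, lft_mul_rgt]
  rw [h1]
  exact (inert θ).mul_mem ((inert θ).inv_mem (le_inert θ hcomm (lft hc g).2)) hg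

lemma mul_decomp (n m : N) (p r : P) :
    ((n : G) * p) * ((m : G) * r) = ((n * cj (p : G) m : N) : G) * ((p * r : P) : G) := by
  simp only [Subgroup.coe_mul, coe_cj]
  group

/-- The extension of `θ` to its inertia group, trivial on the complement. -/
noncomputable def hatHom : inert θ →* ℂˣ :=
  MonoidHom.mk' (fun t => θ (lft hc (t : G))) (by
    intro a b
    have ha := lft_mul_rgt hc (a : G)
    have hb := lft_mul_rgt hc (b : G)
    have hp := mem_inert_of_rgt hc θ (a : G) a.2 hcomm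
    have h1 : ((a * b : inert θ) : G) = ((lft hc (a : G) * cj (rgt hc (a : G) : G) (lft hc (b : G)) : N) : G) *
        ((rgt hc (a : G) * rgt hc (b : G) : P) : G) := by
      rw [← mul_decomp, ha, hb]; rfl
    rw [h1, lft_mul, map_mul, hp])

lemma hatHom_apply (t : inert θ) : hatHom hc θ hcomm t = θ (lft hc (t : G)) := rfl

lemma lft_coe (n : N) : lft hc (n : G) = n := by
  have := lft_mul hc n (1 : P)
  simpa using this

/-- The linear character of the inertia group as a function. -/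
noncomputable def psi : inert θ → ℂ := fun t => ((hatHom hc θ hcomm t : ℂˣ) : ℂ)

lemma isIrr_psi : IsIrrCharacter (inert θ) (psi hc θ hcomm) := isIrr_of_hom _

lemma ext_mem {g : G} (hg : g ∈ inert θ) :
    extendByZero (inert θ) (psi hc θ hcomm) g = ((θ (lft hc g) : ℂˣ) : ℂ) := by
  rw [extendByZero_of_mem _ _ hg]
  rfl

lemma ext_notMem {g : G} (hg : g ∉ inert θ) :
    extendByZero (inert θ) (psi hc θ hcomm) g = 0 :=
  extendByZero_of_notMem _ _ hg

/-- The induced character. -/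
noncomputable def chi1 [Fintype G] : G → ℂ := indFun (inert θ) (psi hc θ hcomm)

section Counting

variable [Fintype G] {z : P} (hz : ∀ n : N, θ (cj (z : G) n) = (θ n)⁻¹) (hzz : z * z = 1)

include hcomm in
lemma mem_inert_iff_mul (n : N) (p : P) : (n : G) * p ∈ inert θ ↔ (p : G) ∈ inert θ := by
  have hn : (n : G) ∈ inert θ := le_inert θ hcomm n.2
  exact (Subgroup.mul_mem_cancel_left _ hn)

include hcomm in
/-- The value of the inner sum. -/
lemma inner_sum [Fintype N] (p : P) [Decidable (∀ n : N, θ (cj (p : G) n) = (θ n)⁻¹)] :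
    ∑ n : N, extendByZero (inert θ) (psi hc θ hcomm) ((((n : G) * p) * ((n : G) * p))) =
      if (∀ n : N, θ (cj (p : G) n) = (θ n)⁻¹) then (Fintype.card N : ℂ) else 0 := by
  classical
  let β : N →* ℂˣ := MonoidHom.mk' (fun n => θ n * θ (cj (p : G) n)) (by
    intro a b
    rw [cj_mul_arg, map_mul, map_mul]
    exact mul_mul_mul_comm _ _ _ _)
  have hval : ∀ n : N, ((n : G) * p) * ((n : G) * p) ∈ inert θ →
      extendByZero (inert θ) (psi hc θ hcomm) (((n : G) * p) * ((n : G) * p)) = ((β n : ℂˣ) : ℂ) := by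
    intro n hn
    rw [ext_mem hc θ hcomm hn, mul_decomp, lft_mul]
    simp [β]
  have hmem : ∀ n : N, ((n : G) * p) * ((n : G) * p) ∈ inert θ ↔ ((p * p : P) : G) ∈ inert θ := by
    intro n
    rw [mul_decomp]
    exact mem_inert_iff_mul θ hcomm _ _
  split_ifs with hA
  · have hpp : ((p * p : P) : G) ∈ inert θ := by
      intro n
      simp only [Subgroup.coe_mul]
      rw [cj_mul, hA, hA, inv_inv]
    have h1 : ∀ n : N, extendByZero (inert θ) (psi hc θ hcomm) (((n : G) * p) * ((n : G) * p)) = 1 := by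
      intro n
      rw [hval n ((hmem n).2 hpp)]
      simp [β, hA]
    rw [Finset.sum_congr rfl (fun n _ => h1 n)]
    simp
  · by_cases hpp : ((p * p : P) : G) ∈ inert θ
    · push Not at hA
      obtain ⟨a, ha⟩ := hA
      have hβ : β a ≠ 1 := by
        intro h
        apply ha
        have : θ a * θ (cj (p : G) a) = 1 := h
        exact eq_inv_of_mul_eq_one_right this
      rw [Finset.sum_congr rfl (fun n _ => hval n ((hmem n).2 hpp))]
      exact sum_hom_eq_zero β hβ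
    · apply Finset.sum_eq_zero
      intro n _
      exact ext_notMem hc θ hcomm (fun h => hpp ((hmem n).1 h))


include hcomm hz hzz in
lemma inert_iff (p : P) : (p : G) ∈ inert θ ↔ ∀ n : N, θ (cj ((p * z : P) : G) n) = (θ n)⁻¹ := by
  constructor
  · intro hp n
    simp only [Subgroup.coe_mul]
    rw [cj_mul, hp, hz]
  · intro h m
    have hzz' : ((z : G) * z) = 1 := by exact_mod_cast congrArg Subtype.val hzz
    have hm : cj (z : G) (cj (z : G) m) = m := by
      rw [← cj_mul, hzz', cj_one]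
    have h1 := h (cj (z : G) m)
    simp only [Subgroup.coe_mul] at h1
    rw [cj_mul, hm] at h1
    rw [h1, hz, inv_inv]

include hcomm hz hzz in
lemma sum_ext_sq : ∑ g : G, extendByZero (inert θ) (psi hc θ hcomm) (g * g) = (Nat.card (inert θ) : ℂ) := by
  classical
  haveI : Fintype N := Fintype.ofFinite _
  haveI : Fintype P := Fintype.ofFinite _
  have h1 : ∑ g : G, extendByZero (inert θ) (psi hc θ hcomm) (g * g) =
      ∑ p : P, if (∀ n : N, θ (cj (p : G) n) = (θ n)⁻¹) then (Fintype.card N : ℂ) else 0 := by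
    rw [sum_decomp hc, Finset.sum_comm]
    exact Finset.sum_congr rfl (fun p _ => inner_sum hc θ hcomm p)
  have h2 : (Nat.card (inert θ) : ℂ) = ∑ g : G, if g ∈ inert θ then (1 : ℂ) else 0 := by
    rw [Finset.sum_boole]
    congr 1
    rw [Nat.card_eq_fintype_card, Fintype.card_subtype]
  have h3 : ∑ g : G, (if g ∈ inert θ then (1 : ℂ) else 0) =
      ∑ p : P, if (p : G) ∈ inert θ then (Fintype.card N : ℂ) else 0 := by
    rw [sum_decomp hc, Finset.sum_comm]
    refine Finset.sum_congr rfl (fun p _ => ?_)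
    simp only [mem_inert_iff_mul θ hcomm]
    split_ifs <;> simp
  rw [h1, h2, h3]
  rw [← Equiv.sum_comp (Equiv.mulRight z)]
  refine Finset.sum_congr rfl (fun p _ => ?_)
  simp only [Equiv.coe_mulRight]
  by_cases hp : (p : G) ∈ inert θ
  · rw [if_pos hp]
    exact if_pos ((inert_iff θ hcomm hz hzz p).1 hp)
  · rw [if_neg hp]
    exact if_neg (fun h => hp ((inert_iff θ hcomm hz hzz p).2 h))

include hz hzz in
/-- The Frobenius-Schur indicator of the induced character is `1`. -/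
lemma nu_chi1 : (Nat.card G : ℂ)⁻¹ * ∑ g : G, chi1 hc θ hcomm (g * g) = 1 := by
  classical
  have hG : (Nat.card G : ℂ) ≠ 0 := natCard_ne_zero_complex
  have hT : (Nat.card (inert θ) : ℂ) ≠ 0 := natCard_ne_zero_complex
  have h1 : ∑ g : G, chi1 hc θ hcomm (g * g) =
      (Nat.card (inert θ) : ℂ)⁻¹ * ∑ x : G, ∑ g : G,
        extendByZero (inert θ) (psi hc θ hcomm) (g * g) := by
    unfold chi1
    simp only [indFun_apply]
    rw [← Finset.mul_sum, Finset.sum_comm]
    congr 1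
    refine Finset.sum_congr rfl (fun x _ => ?_)
    refine Fintype.sum_equiv (MulAut.conj x⁻¹).toEquiv _ _ (fun g => ?_)
    congr 1
    simp
    group
  rw [h1, sum_ext_sq hc θ hcomm hz hzz]
  simp only [Finset.sum_const, Finset.card_univ, nsmul_eq_mul]
  rw [Nat.card_eq_fintype_card] at hG ⊢
  field_simp

end Counting

/-- `χ₁` is irreducible. -/
lemma isIrr_chi1 [Fintype G] : IsIrrCharacter G (chi1 hc θ hcomm) := by
  classical
  haveI : Fintype N := Fintype.ofFinite _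
  haveI : Fintype (inert θ) := Fintype.ofFinite _
  have hϑ : IsIrrCharacter N (fun n : N => ((θ n : ℂˣ) : ℂ)) := isIrr_of_hom θ
  refine Cfsg.Agent.Lib.Char.CliffordCorr.isIrr_indFun N (fun n : N => ((θ n : ℂˣ) : ℂ)) (inert θ)
    (le_inert θ hcomm) hϑ ?_ (isIrr_psi hc θ hcomm) ?_
  · intro g
    rw [mem_inert]
    refine forall_congr' (fun n => ?_)
    exact ⟨fun h => congrArg Units.val h, fun h => Units.ext h⟩
  · have h1 : Cfsg.Agent.Lib.Char.CliffordCorr.resT N (inert θ) (le_inert θ hcomm) (psi hc θ hcomm) =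
        (fun n : N => ((θ n : ℂˣ) : ℂ)) := by
      funext n
      show ((θ (lft hc (n : G)) : ℂˣ) : ℂ) = _
      rw [lft_coe]
    rw [h1, classInner_irr_self hϑ]
    exact one_ne_zero

lemma chi1_one [Fintype G] : chi1 hc θ hcomm 1 = ((inert θ).index : ℂ) := by
  unfold chi1
  rw [indFun_one]
  have : psi hc θ hcomm 1 = 1 := by
    unfold psi
    simp
  rw [this, mul_one]

/-- Twisting the induced character by a linear character of `G`. -/
lemma ind_twist [Fintype G] (φ : G →* ℂˣ) (g : G) :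
    indFun (inert θ) (fun t => ((φ (t : G) : ℂˣ) : ℂ) * psi hc θ hcomm t) g =
      ((φ g : ℂˣ) : ℂ) * chi1 hc θ hcomm g := by
  classical
  unfold chi1
  simp only [indFun_apply]
  rw [← mul_assoc, mul_comm ((φ g : ℂˣ) : ℂ), mul_assoc]
  congr 1
  rw [Finset.mul_sum]
  refine Finset.sum_congr rfl (fun x _ => ?_)
  have hφ : φ (x⁻¹ * g * x) = φ g := by
    rw [map_mul, map_mul, map_inv, mul_comm (φ x)⁻¹, mul_assoc, inv_mul_cancel, mul_one]
  by_cases hy : x⁻¹ * g * x ∈ inert θ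
  · rw [extendByZero_of_mem _ _ hy, extendByZero_of_mem _ _ hy, hφ]
  · rw [extendByZero_of_notMem _ _ hy, extendByZero_of_notMem _ _ hy, mul_zero]


/-- A group-theoretic input: a central involution of `P` inverts `N`. -/
lemma exists_inverter [Finite G] (hc : N.IsComplement' P) (hcomm : ∀ a b : N, a * b = b * a) (hP : IsPGroup 2 ↥P) (hP1 : P ≠ ⊥) (q : ℕ) (hq : Odd q)
    (hexp : ∀ a ∈ N, a ^ q = 1)
    (hmin : N ≠ ⊥ ∧ ∀ M : Subgroup G, M.Normal → M ≠ ⊥ → N ≤ M) :
    ∃ z : P, z * z = 1 ∧ z ≠ 1 ∧ ∀ n : N, cj (z : G) n = n⁻¹ := by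
  classical
  haveI : Nontrivial P := (Subgroup.nontrivial_iff_ne_bot P).2 hP1
  haveI : Nontrivial (Subgroup.center P) := hP.center_nontrivial
  haveI : Fact (Nat.Prime 2) := ⟨Nat.prime_two⟩
  have hPc : IsPGroup 2 (Subgroup.center P) := hP.to_subgroup _
  have hdvd : 2 ∣ Nat.card (Subgroup.center P) := by
    rcases hPc.card_eq_or_dvd with h | h
    · exact absurd h Finite.one_lt_card.ne'
    · exact h
  obtain ⟨c, hc2⟩ := exists_prime_orderOf_dvd_card' 2 hdvd
  set z : P := (c : P) with hzdef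
  have hz2 : orderOf z = 2 := by
    rw [hzdef, ← hc2]
    exact Subgroup.orderOf_coe c
  have hzz : z * z = 1 := by
    rw [← pow_two, ← hz2]; exact pow_orderOf_eq_one z
  have hz1 : z ≠ 1 := by
    intro h
    rw [h, orderOf_one] at hz2
    omega
  have hzcen : ∀ p : P, p * z = z * p := fun p => (Subgroup.mem_center_iff.1 c.2 p)
  have hzzG : ((z : G) * z) = 1 := by exact_mod_cast congrArg Subtype.val hzz
  have hz1G : (z : G) ≠ 1 := fun h => hz1 (Subtype.ext h)
  refine ⟨z, hzz, hz1, ?_⟩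
  -- the fixed points of `z` in `N`
  let C : Subgroup G := N ⊓ Subgroup.centralizer ({(z : G)} : Set G)
  have hcommN : ∀ a ∈ N, ∀ b ∈ N, a * b = b * a := fun a ha b hb =>
    congrArg Subtype.val (hcomm ⟨a, ha⟩ ⟨b, hb⟩)
  have hCmem : ∀ a, a ∈ C ↔ a ∈ N ∧ (z : G) * a = a * z := by
    intro a
    rw [Subgroup.mem_inf, Subgroup.mem_centralizer_singleton_iff]
    exact ⟨fun h => ⟨h.1, h.2.symm⟩, fun h => ⟨h.1, h.2.symm⟩⟩
  have hCn : C.Normal := by
    refine ⟨fun a ha g => ?_⟩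
    obtain ⟨haN, haz⟩ := (hCmem a).1 ha
    rw [hCmem]
    have hpz : (rgt hc g : G) * z = z * rgt hc g := congrArg Subtype.val (hzcen (rgt hc g))
    have hpa : (rgt hc g : G) * a * (rgt hc g : G)⁻¹ ∈ N := hN.conj_mem a haN _
    have hgdec := lft_mul_rgt hc g
    have h1 : g * a * g⁻¹ = (rgt hc g : G) * a * (rgt hc g : G)⁻¹ := by
      conv_lhs => rw [← hgdec]
      have h2 := hcommN _ (lft hc g).2 _ hpa
      calc ((lft hc g : G) * rgt hc g) * a * ((lft hc g : G) * rgt hc g)⁻¹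
          = (lft hc g : G) * ((rgt hc g : G) * a * (rgt hc g : G)⁻¹) * (lft hc g : G)⁻¹ := by group
        _ = ((rgt hc g : G) * a * (rgt hc g : G)⁻¹) * (lft hc g : G) * (lft hc g : G)⁻¹ := by rw [h2]
        _ = _ := by group
    rw [h1]
    refine ⟨hpa, ?_⟩
    have hpz' : (rgt hc g : G)⁻¹ * z = z * (rgt hc g : G)⁻¹ := by
      rw [inv_mul_eq_iff_eq_mul, ← mul_assoc, hpz, mul_assoc, mul_inv_cancel, mul_one]
    calc (z : G) * ((rgt hc g : G) * a * (rgt hc g : G)⁻¹)
        = (rgt hc g : G) * ((z : G) * a) * (rgt hc g : G)⁻¹ := by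
          rw [← mul_assoc, ← mul_assoc, ← hpz, mul_assoc (rgt hc g : G)]
      _ = (rgt hc g : G) * a * ((z : G) * (rgt hc g : G)⁻¹) := by rw [haz]; group
      _ = _ := by rw [← hpz']; group
  by_cases hCbot : C = ⊥
  · -- `z` has no fixed points in `N`: it inverts `N`
    intro n
    apply Subtype.ext
    simp only [coe_cj, InvMemClass.coe_inv]
    have hm : (n : G) * ((z : G) * n * (z : G)⁻¹) ∈ C := by
      rw [hCmem]
      have hzn : (z : G) * n * (z : G)⁻¹ ∈ N := hN.conj_mem _ n.2 _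
      refine ⟨N.mul_mem n.2 hzn, ?_⟩
      have hinv : (z : G)⁻¹ = z := by
        rw [eq_comm, eq_inv_iff_mul_eq_one]; exact hzzG
      have h3 := hcommN _ n.2 _ hzn
      rw [hinv] at h3 ⊢
      calc (z : G) * ((n : G) * ((z : G) * n * z)) = (z : G) * (((z : G) * n * z) * n) := by rw [h3]
        _ = ((z : G) * z) * n * z * n := by simp only [mul_assoc]
        _ = (n : G) * z * n := by rw [hzzG, one_mul]
        _ = (n : G) * z * n * ((z : G) * z) := by rw [hzzG, mul_one]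
        _ = _ := by simp only [mul_assoc]
    rw [hCbot, Subgroup.mem_bot] at hm
    exact eq_inv_of_mul_eq_one_right hm
  · exfalso
    have hle : N ≤ C := hmin.2 C hCn hCbot
    have hcen : (z : G) ∈ Subgroup.center G := by
      rw [Subgroup.mem_center_iff]
      intro g
      have hgdec := lft_mul_rgt hc g
      have h1 : (lft hc g : G) * z = z * lft hc g := ((hCmem _).1 (hle (lft hc g).2)).2.symm
      have h2 : (rgt hc g : G) * z = z * rgt hc g := congrArg Subtype.val (hzcen (rgt hc g))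
      conv_lhs => rw [← hgdec]
      conv_rhs => rw [← hgdec]
      rw [mul_assoc, h2, ← mul_assoc, h1, mul_assoc]
    have hzn : (Subgroup.zpowers (z : G)).Normal := by
      refine ⟨fun a ha g => ?_⟩
      have : g * a * g⁻¹ = a := by
        obtain ⟨k, rfl⟩ := Subgroup.mem_zpowers_iff.1 ha
        have h1 : g * (z : G) ^ k = (z : G) ^ k * g :=
          ((Subgroup.center G).zpow_mem hcen k |> Subgroup.mem_center_iff.1) g
        rw [h1]; group
      rw [this]; exact ha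
    have hzb : Subgroup.zpowers (z : G) ≠ ⊥ := by
      intro h
      exact hz1G (Subgroup.zpowers_eq_bot.1 h)
    have hle2 := hmin.2 _ hzn hzb
    obtain ⟨n, hn, hn1⟩ := (Subgroup.bot_or_exists_ne_one N).resolve_left hmin.1
    have hn2 : n * n = 1 := by
      obtain ⟨k, hk⟩ := Subgroup.mem_zpowers_iff.1 (hle2 hn)
      rw [← hk, ← (Commute.refl (z : G)).mul_zpow, hzzG, one_zpow]
    obtain ⟨r, hr⟩ := hq
    have hn3 := hexp n hn
    rw [hr, pow_succ, pow_mul, pow_two, hn2, one_pow, one_mul] at hn3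
    exact hn1 hn3


lemma charDegree_ne_zero' {A : Type*} [Group A] [Finite A] {χ : A → ℂ} (hχ : IsIrrCharacter A χ) :
    charDegree χ ≠ 0 := by
  obtain ⟨n, hn, hn2⟩ := Cfsg.Agent.Lib.Char.Virtual.exists_degree_of_isIrr hχ
  unfold charDegree
  rw [hn2]
  simp [hn.ne']

lemma agree_of_twist [Fintype G] (φ φ' : G →* ℂˣ) (hφN : ∀ n ∈ N, φ n = 1) (hφN' : ∀ n ∈ N, φ' n = 1)
    (h : ∀ g, ((φ g : ℂˣ) : ℂ) * chi1 hc θ hcomm g = ((φ' g : ℂˣ) : ℂ) * chi1 hc θ hcomm g)
    {t : G} (ht : t ∈ inert θ) : φ t = φ' t := by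
  classical
  haveI : Fintype N := Fintype.ofFinite _
  haveI : Fintype (inert θ) := Fintype.ofFinite _
  have hϑ : IsIrrCharacter N (fun n : N => ((θ n : ℂˣ) : ℂ)) := isIrr_of_hom θ
  let ψ₁ : inert θ → ℂ := fun t => ((φ (t : G) : ℂˣ) : ℂ) * psi hc θ hcomm t
  let ψ₂ : inert θ → ℂ := fun t => ((φ' (t : G) : ℂˣ) : ℂ) * psi hc θ hcomm t
  have h1 : IsIrrCharacter (inert θ) ψ₁ :=
    Cfsg.Agent.Lib.Char.GlaubCyclic.isIrr_lin_mul (φ.comp (inert θ).subtype) (isIrr_psi hc θ hcomm)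
  have h2 : IsIrrCharacter (inert θ) ψ₂ :=
    Cfsg.Agent.Lib.Char.GlaubCyclic.isIrr_lin_mul (φ'.comp (inert θ).subtype) (isIrr_psi hc θ hcomm)
  have hres : ∀ (φ₀ : G →* ℂˣ), (∀ n ∈ N, φ₀ n = 1) →
      Cfsg.Agent.Lib.Char.CliffordCorr.resT N (inert θ) (le_inert θ hcomm)
        (fun t => ((φ₀ (t : G) : ℂˣ) : ℂ) * psi hc θ hcomm t) = (fun n : N => ((θ n : ℂˣ) : ℂ)) := by
    intro φ₀ h0
    funext n
    show ((φ₀ (n : G) : ℂˣ) : ℂ) * ((θ (lft hc (n : G)) : ℂˣ) : ℂ) = _
    rw [h0 n n.2, lft_coe]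
    simp
  have hind : indFun (inert θ) ψ₁ = indFun (inert θ) ψ₂ := by
    funext g
    rw [ind_twist, ind_twist, h]
  have hψ := Cfsg.Agent.Lib.Char.CliffordCorr.eq_of_indFun_eq N (fun n : N => ((θ n : ℂˣ) : ℂ)) (inert θ)
    (le_inert θ hcomm) hϑ (by
      intro g
      rw [mem_inert]
      refine forall_congr' (fun n => ?_)
      exact ⟨fun h => congrArg Units.val h, fun h => Units.ext h⟩) h1 h2
    (by
      rw [hres φ hφN, classInner_irr_self hϑ]; exact one_ne_zero)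
    (by
      rw [hres φ' hφN', classInner_irr_self hϑ]; exact one_ne_zero) hind
  have h3 := congrFun hψ ⟨t, ht⟩
  have h4 : psi hc θ hcomm ⟨t, ht⟩ ≠ 0 := Units.ne_zero _
  exact Units.ext (mul_right_cancel₀ h4 h3)

/-- The main count. -/
theorem main [Fintype G] [DecidableEq G] (hc : N.IsComplement' P) (hcomm : ∀ a b : N, a * b = b * a)
    (hP : IsPGroup 2 ↥P) (hP1 : P ≠ ⊥) (q : ℕ) (hq : Odd q)
    (hexp : ∀ a ∈ N, a ^ q = 1)
    (hmin : N ≠ ⊥ ∧ ∀ M : Subgroup G, M.Normal → M ≠ ⊥ → N ≤ M) :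
    4 * Nat.card {χ : Cfsg.IrrCharacter G // (Cfsg.charDegree (χ : G → ℂ) = 1 ∨ 2 ∣ Cfsg.charDegree (χ : G → ℂ)) ∧ (Nat.card G : ℂ)⁻¹ * ∑ᶠ g : G, (χ : G → ℂ) (g * g) = 1} ≤ 3 * (∑ᶠ χ : {χ : Cfsg.IrrCharacter G // (Cfsg.charDegree (χ : G → ℂ) = 1 ∨ 2 ∣ Cfsg.charDegree (χ : G → ℂ)) ∧ (Nat.card G : ℂ)⁻¹ * ∑ᶠ g : G, (χ : G → ℂ) (g * g) = 1}, Cfsg.charDegree (χ.1 : G → ℂ)) := by
  classical
  obtain ⟨z, hzz, hz1, hzinv⟩ := exists_inverter hc hcomm hP hP1 q hq hexp hmin
  -- a nontrivial linear character of `N`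
  haveI : Fintype N := Fintype.ofFinite _
  obtain ⟨n0, hn0, hn01⟩ := (Subgroup.bot_or_exists_ne_one N).resolve_left hmin.1
  obtain ⟨θ, hθ⟩ := Cfsg.Agent.Lib.Blocks.AbFrob.exists_dual_ne hcomm
    (a := (⟨n0, hn0⟩ : N)) (fun h => hn01 (congrArg Subtype.val h))
  have hz : ∀ n : N, θ (cj (z : G) n) = (θ n)⁻¹ := by
    intro n; rw [hzinv, map_inv]
  -- `d` is at least two
  set T := inert θ with hTdef
  set d := T.index with hd
  have hzT : (z : G) ∉ T := by
    intro h
    apply hθ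
    have h1 := h ⟨n0, hn0⟩
    rw [hz] at h1
    have h2 : θ ⟨n0, hn0⟩ * θ ⟨n0, hn0⟩ = 1 := by
      nth_rw 1 [← h1]; simp
    obtain ⟨r, hr⟩ := hq
    have h3 : θ ⟨n0, hn0⟩ ^ q = 1 := by
      rw [← map_pow]
      have : (⟨n0, hn0⟩ : N) ^ q = 1 := Subtype.ext (hexp n0 hn0)
      rw [this, map_one]
    rw [hr, pow_succ, pow_mul, pow_two, h2, one_pow, one_mul] at h3
    exact h3
  have hdne1 : d ≠ 1 := by
    intro h
    rw [hd, Subgroup.index_eq_one] at h
    apply hzT
    rw [h]; trivial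
  have hd2dvd : 2 ∣ d := by
    have h1 : d ∣ N.index := Subgroup.index_dvd_of_le (le_inert θ hcomm)
    have h2 : N.index = Nat.card P := hc.symm.index_eq_card
    rw [h2] at h1
    obtain ⟨k, hk⟩ := (IsPGroup.iff_card).1 hP
    rw [hk] at h1
    obtain ⟨j, _, hj⟩ := (Nat.dvd_prime_pow Nat.prime_two).1 h1
    rw [hj]
    rcases j with _ | j
    · exfalso; apply hdne1; rw [hj]; rfl
    · exact dvd_pow_self 2 (Nat.succ_ne_zero j)
  have hdpos : 0 < d := Nat.pos_of_ne_zero Subgroup.index_ne_zero_of_finite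
  have hd2 : 2 ≤ d := by omega
  -- the members of degree one
  haveI : Finite (IrrCharacter G) := Cfsg.Agent.Lib.Char.Complete.finite_irr
  have hlin : ∀ x : {χ : Cfsg.IrrCharacter G // (Cfsg.charDegree (χ : G → ℂ) = 1 ∨ 2 ∣ Cfsg.charDegree (χ : G → ℂ)) ∧ (Nat.card G : ℂ)⁻¹ * ∑ᶠ g : G, (χ : G → ℂ) (g * g) = 1},
      charDegree (x.1 : G → ℂ) = 1 → ∃ φ : G →* ℂˣ, ((x.1 : G → ℂ) = fun g => ((φ g : ℂˣ) : ℂ)) ∧
        (∀ g, φ g * φ g = 1) ∧ ∀ n ∈ N, φ n = 1 := by
    intro x hx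
    have hxc : IsCharacter G (x.1 : G → ℂ) := isCharacter_of_isIrrCharacter x.1.2
    have h1 : (x.1 : G → ℂ) 1 = 1 := by
      rw [← Cfsg.Agent.Lib.Char.Values.IsCharacter.charDegree_cast hxc, hx]; simp
    obtain ⟨φ, hφ⟩ := exists_hom_of_isCharacter_one hxc h1
    have hsq : φ * φ = 1 := by
      by_contra hne
      obtain ⟨a, ha⟩ : ∃ a, (φ * φ) a ≠ 1 := by
        by_contra hcon
        push Not at hcon
        exact hne (MonoidHom.ext hcon)
      have h2 := sum_hom_eq_zero (φ * φ) ha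
      have h3 := x.2.2
      rw [finsum_eq_sum_of_fintype, hφ] at h3
      have h4 : ∑ g : G, (((φ (g * g) : ℂˣ)) : ℂ) = 0 := by
        rw [← h2]
        refine Finset.sum_congr rfl (fun g _ => ?_)
        simp
      rw [h4, mul_zero] at h3
      exact zero_ne_one h3
    have hsq' : ∀ g, φ g * φ g = 1 := fun g => by
      have := congrArg (fun F : G →* ℂˣ => F g) hsq
      simpa using this
    refine ⟨φ, hφ, hsq', fun n hn => ?_⟩
    obtain ⟨r, hr⟩ := hq
    have h3 : φ n ^ q = 1 := by rw [← map_pow, hexp n hn, map_one]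
    rw [hr, pow_succ, pow_mul, pow_two, hsq', one_pow, one_mul] at h3
    exact h3
  choose! φ hφ1 hφ2 hφ3 using hlin
  have htw : ∀ x : {χ : Cfsg.IrrCharacter G // (Cfsg.charDegree (χ : G → ℂ) = 1 ∨ 2 ∣ Cfsg.charDegree (χ : G → ℂ)) ∧ (Nat.card G : ℂ)⁻¹ * ∑ᶠ g : G, (χ : G → ℂ) (g * g) = 1},
      charDegree (x.1 : G → ℂ) = 1 →
      IsIrrCharacter G (fun g => ((φ x g : ℂˣ) : ℂ) * chi1 hc θ hcomm g) ∧
      charDegree (fun g => ((φ x g : ℂˣ) : ℂ) * chi1 hc θ hcomm g) = d ∧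
      (Nat.card G : ℂ)⁻¹ * ∑ᶠ g : G, ((φ x (g * g) : ℂˣ) : ℂ) * chi1 hc θ hcomm (g * g) = 1 := by
    intro x hx
    refine ⟨Cfsg.Agent.Lib.Char.GlaubCyclic.isIrr_lin_mul (φ x) (isIrr_chi1 hc θ hcomm), ?_, ?_⟩
    · unfold charDegree
      simp only [map_one, Units.val_one, one_mul]
      rw [chi1_one]
      simp [hd, hTdef]
    · rw [finsum_eq_sum_of_fintype]
      rw [← nu_chi1 hc θ hcomm hz hzz]
      congr 1
      refine Finset.sum_congr rfl (fun g _ => ?_)
      rw [map_mul, hφ2 x hx g]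
      simp
  haveI : Fintype {χ : Cfsg.IrrCharacter G // (Cfsg.charDegree (χ : G → ℂ) = 1 ∨ 2 ∣ Cfsg.charDegree (χ : G → ℂ)) ∧ (Nat.card G : ℂ)⁻¹ * ∑ᶠ g : G, (χ : G → ℂ) (g * g) = 1} := Fintype.ofFinite _
  rw [Nat.card_eq_fintype_card, finsum_eq_sum_of_fintype]
  let F : {χ : Cfsg.IrrCharacter G // (Cfsg.charDegree (χ : G → ℂ) = 1 ∨ 2 ∣ Cfsg.charDegree (χ : G → ℂ)) ∧ (Nat.card G : ℂ)⁻¹ * ∑ᶠ g : G, (χ : G → ℂ) (g * g) = 1} →
      {χ : Cfsg.IrrCharacter G // (Cfsg.charDegree (χ : G → ℂ) = 1 ∨ 2 ∣ Cfsg.charDegree (χ : G → ℂ)) ∧ (Nat.card G : ℂ)⁻¹ * ∑ᶠ g : G, (χ : G → ℂ) (g * g) = 1} :=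
    fun x => if hx : charDegree (x.1 : G → ℂ) = 1 then
      ⟨⟨_, (htw x hx).1⟩, Or.inr (by
        show 2 ∣ charDegree (fun g => ((φ x g : ℂˣ) : ℂ) * chi1 hc θ hcomm g)
        rw [(htw x hx).2.1]; exact hd2dvd), by
        have := (htw x hx).2.2
        simpa only [map_mul] using this⟩ else x
  have hFapp : ∀ x (hx : charDegree (x.1 : G → ℂ) = 1), (((F x).1 : G → ℂ)) =
      fun g => ((φ x g : ℂˣ) : ℂ) * chi1 hc θ hcomm g := by
    intro x hx
    simp only [F, dif_pos hx]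
  refine count (fun x => charDegree (x.1 : G → ℂ)) d hd2 ?_ F ?_ ?_
  · intro x
    rcases x.2.1 with h | h
    · exact Or.inl h
    · exact Or.inr (Nat.le_of_dvd (Nat.pos_of_ne_zero (charDegree_ne_zero' x.1.2)) h)
  · intro x hx
    show charDegree ((F x).1 : G → ℂ) = d
    rw [hFapp x hx]
    exact (htw x hx).2.1
  · intro y
    set S := Finset.univ.filter (fun x => charDegree (x.1 : G → ℂ) = 1 ∧ F x = y) with hS
    have hmem : ∀ s : S, charDegree (s.1.1 : G → ℂ) = 1 ∧ F s.1 = y := fun s =>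
      (Finset.mem_filter.1 s.2).2
    have h1 := card_le_index T (ι := S) (fun s => φ s.1) (by
      intro s s' h
      apply Subtype.ext
      apply Subtype.ext
      apply Subtype.ext
      rw [hφ1 s.1 (hmem s).1, hφ1 s'.1 (hmem s').1]
      funext g
      have := congrArg (fun F : G →* ℂˣ => ((F g : ℂˣ) : ℂ)) h
      exact this) (by
      intro i j t ht
      refine agree_of_twist hc θ hcomm _ _ (hφ3 i.1 (hmem i).1) (hφ3 j.1 (hmem j).1) ?_ ht
      intro g
      have h2 : (F i.1).1.1 = (F j.1).1.1 := by rw [(hmem i).2, (hmem j).2]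
      have h3 : ((F i.1).1 : G → ℂ) = ((F j.1).1 : G → ℂ) := h2
      rw [hFapp i.1 (hmem i).1, hFapp j.1 (hmem j).1] at h3
      exact congrFun h3 g)
    rw [Fintype.card_coe] at h1
    exact h1

end Main

/-- Let G be a finite group that is the semidirect product of a normal elementary abelian subgroup N of odd order by a non-trivial 2-subgroup P, with N the unique minimal normal subgroup of G. Consider the strongly real irreducible complex characters of G (Frobenius–Schur indicator +1) whose degree is 1 or even. Then their average degree is at least 4/3: four times their number is at most three times the sum of their degrees. -/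
theorem result {G : Type*} [Group G] [Finite G] (N P : Subgroup G) (hN : N.Normal) (q : ℕ) [Fact q.Prime] (hq : q ≠ 2) (hNel : Cfsg.IsElementaryAbelian q N) (hP : IsPGroup 2 ↥P) (hP1 : P ≠ ⊥) (hdisj : N ⊓ P = ⊥) (hprod : N ⊔ P = ⊤) (hmin : N ≠ ⊥ ∧ ∀ M : Subgroup G, M.Normal → M ≠ ⊥ → N ≤ M) : 4 * Nat.card {χ : Cfsg.IrrCharacter G // (Cfsg.charDegree (χ : G → ℂ) = 1 ∨ 2 ∣ Cfsg.charDegree (χ : G → ℂ)) ∧ (Nat.card G : ℂ)⁻¹ * ∑ᶠ g : G, (χ : G → ℂ) (g * g) = 1} ≤ 3 * (∑ᶠ χ : {χ : Cfsg.IrrCharacter G // (Cfsg.charDegree (χ : G → ℂ) = 1 ∨ 2 ∣ Cfsg.charDegree (χ : G → ℂ)) ∧ (Nat.card G : ℂ)⁻¹ * ∑ᶠ g : G, (χ : G → ℂ) (g * g) = 1}, Cfsg.charDegree (χ.1 : G → ℂ)) := by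
  classical
  cases nonempty_fintype G
  haveI := hN
  have hc : N.IsComplement' P := by
    apply Subgroup.isComplement'_of_disjoint_and_mul_eq_univ
    · exact disjoint_iff.2 hdisj
    · rw [← Subgroup.normal_mul, hprod]; rfl
  have hcomm : ∀ a b : N, a * b = b * a := fun a b => hNel.1.is_comm.comm a b
  have hqodd : Odd q := (Fact.out : q.Prime).odd_of_ne_two hq
  exact main hc hcomm hP hP1 q hqodd hNel.2 hmin

end Cfsg.Agent.S4871
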