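import Cfsg.Statements.S4872
import Mathlib
import Cfsg.Agent.Lib.CharFS.Tri
import Cfsg.Agent.Lib.Char.CliffordCorr
import Cfsg.Agent.Lib.Char.PRegular
import Cfsg.Agent.Lib.Char.DegreeDvd
import Cfsg.Agent.Lib.Char.BrauerSCNum
import Cfsg.Agent.Lib.Char.IndRep
import Cfsg.Agent.Lib.Char.Values
import Cfsg.Agent.Lib.Char.Monomial
import Cfsg.Agent.Lib.Char.IndNormal

set_option autoImplicit false
set_option linter.style.haveILetI false
set_option linter.unusedSectionVars false
set_option linter.unusedVariables false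
open Cfsg

namespace Cfsg.Agent.S4872

open Cfsg Cfsg.Agent.Lib.Char.Basic Cfsg.Agent.Lib.Char.Ortho Cfsg.Agent.Lib.Char.Induced
  Cfsg.Agent.Lib.Char.IndRep Cfsg.Agent.Lib.CharFS.Indicator Cfsg.Agent.Lib.CharFS.Tri Matrix
open scoped ComplexConjugate

universe u

section Parity

variable {G : Type u} [Group G] [Fintype G]

/-- If the Frobenius-Schur indicator of `χ` is `-1`, then every restriction of `χ` contains the
principal character an even number of times. -/
theorem parity (P : Subgroup G) [Fintype P] {n : ℕ} (ρ : Representation ℂ G (Fin n → ℂ))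
    (hρ : ρ.IsIrreducible) (hreal : ∀ g, conj (ρ.character g) = ρ.character g)
    (hν : nu ρ.character = -1) (c : ℕ)
    (hc : (Nat.card P : ℂ)⁻¹ * ∑ p : P, ρ.character p = c) : Even c := by
  classical
  have hχ : IsIrrCharacter G ρ.character := ⟨n, ρ, hρ, rfl⟩
  obtain ⟨⟨M, hM0, hM⟩, hMall⟩ := form_key ρ hχ hreal
  have hMT : Mᵀ = -M := by
    rw [hMall M hM, hν]; simp
  have hMX : ∀ g, M * X ρ g = (X ρ g⁻¹)ᵀ * M := by
    intro g
    have h1 := hM g⁻¹
    calc M * X ρ g = ((X ρ g⁻¹)ᵀ * M * X ρ g⁻¹) * X ρ g := by rw [h1]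
      _ = (X ρ g⁻¹)ᵀ * M * (X ρ g⁻¹ * X ρ g) := by rw [Matrix.mul_assoc]
      _ = (X ρ g⁻¹)ᵀ * M := by rw [← X_mul, inv_mul_cancel, X_one, Matrix.mul_one]
  have hρX : ∀ g v, ρ g v = X ρ g *ᵥ v := fun g v => (LinearMap.toMatrix'_mulVec _ _).symm
  have hMinj : ∀ v, M *ᵥ v = 0 → v = 0 := by
    let S : Subrepresentation ρ := ⟨LinearMap.ker (Matrix.toLin' M), fun g v hv => by
      rw [LinearMap.mem_ker, Matrix.toLin'_apply] at hv ⊢
      rw [hρX, Matrix.mulVec_mulVec, hMX, ← Matrix.mulVec_mulVec, hv, Matrix.mulVec_zero]⟩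
    rcases hρ.eq_bot_or_eq_top S with h | h
    · intro v hv
      have h1 : v ∈ S.toSubmodule := by
        show v ∈ LinearMap.ker (Matrix.toLin' M)
        rw [LinearMap.mem_ker, Matrix.toLin'_apply]
        exact hv
      rw [h] at h1
      exact h1
    · exfalso
      apply hM0
      have h1 : LinearMap.ker (Matrix.toLin' M) = ⊤ := congrArg Subrepresentation.toSubmodule h
      have h2 : Matrix.toLin' M = 0 := LinearMap.ker_eq_top.1 h1
      exact (Matrix.toLin').injective (h2.trans (map_zero _).symm)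
  have hP0 : (Nat.card P : ℂ) ≠ 0 := by exact_mod_cast (Nat.card_pos (α := P)).ne'
  let E : Matrix (Fin n) (Fin n) ℂ := (Nat.card P : ℂ)⁻¹ • ∑ p : P, X ρ p
  have hXE : ∀ p : P, X ρ p * E = E := by
    intro p
    simp only [E, Matrix.mul_smul, Finset.mul_sum, ← X_mul]
    congr 1
    exact Equiv.sum_comp (Equiv.mulLeft p) (fun q : P => X ρ (q : G))
  have hE2 : E * E = E := by
    calc E * E = (Nat.card P : ℂ)⁻¹ • ∑ p : P, X ρ p * E := by
          simp only [E, Matrix.smul_mul, Finset.sum_mul]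
      _ = (Nat.card P : ℂ)⁻¹ • ∑ _p : P, E := by simp only [hXE]
      _ = E := by
        rw [Finset.sum_const, Finset.card_univ, ← Nat.card_eq_fintype_card,
          ← Nat.cast_smul_eq_nsmul ℂ, smul_smul, inv_mul_cancel₀ hP0, one_smul]
  have htr : E.trace = c := by
    rw [← hc]
    simp only [E, Matrix.trace_smul, Matrix.trace_sum, smul_eq_mul, char_eq_trace]
  have hEM : Eᵀ * M = M * E := by
    simp only [E, Matrix.transpose_smul, Matrix.transpose_sum, Matrix.smul_mul, Matrix.mul_smul,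
      Finset.sum_mul, Finset.mul_sum]
    congr 1
    rw [← Equiv.sum_comp (Equiv.inv P) (fun q : P => M * X ρ (q : G))]
    refine Finset.sum_congr rfl fun p _ => ?_
    have h1 := hMX ((p : G)⁻¹)
    rw [inv_inv] at h1
    simpa using h1.symm
  -- the fixed space
  let f : (Fin n → ℂ) →ₗ[ℂ] (Fin n → ℂ) := Matrix.toLin' E
  have hf : IsIdempotentElem f := by
    change f * f = f
    rw [Module.End.mul_eq_comp]
    simp only [f]
    rw [← Matrix.toLin'_mul, hE2]
  let W := LinearMap.range f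
  have hWrank : Module.finrank ℂ W = c := by
    have h1 := (LinearMap.IsIdempotentElem.isProj_range f hf).trace
    have h2 : LinearMap.trace ℂ (Fin n → ℂ) f = E.trace := Matrix.trace_toLin'_eq E
    rw [h2, htr] at h1
    exact_mod_cast h1.symm
  have hEw : ∀ w ∈ W, E *ᵥ w = w := by
    rintro w ⟨u, rfl⟩
    show E *ᵥ (Matrix.toLin' E u) = Matrix.toLin' E u
    rw [Matrix.toLin'_apply, Matrix.mulVec_mulVec, hE2]
  have hEu : ∀ u, E *ᵥ u ∈ W := fun u => ⟨u, Matrix.toLin'_apply E u⟩
  let b := Module.finBasisOfFinrankEq ℂ W hWrank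
  let B : Matrix (Fin c) (Fin c) ℂ := Matrix.of fun i j => ((b i : W) : Fin n → ℂ) ⬝ᵥ (M *ᵥ ((b j : W) : Fin n → ℂ))
  have hBT : Bᵀ = -B := by
    ext i j
    show ((b j : W) : Fin n → ℂ) ⬝ᵥ (M *ᵥ ((b i : W) : Fin n → ℂ)) =
      - (((b i : W) : Fin n → ℂ) ⬝ᵥ (M *ᵥ ((b j : W) : Fin n → ℂ)))
    rw [Matrix.dotProduct_mulVec, dotProduct_comm, ← Matrix.mulVec_transpose, hMT, Matrix.neg_mulVec,
      dotProduct_neg]
  have hdet : B.det ≠ 0 := by
    intro h0
    obtain ⟨x, hx, hBx⟩ := Matrix.exists_mulVec_eq_zero_iff.2 h0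
    let w : W := ∑ j, x j • b j
    have hw0 : w ≠ 0 := by
      intro h
      apply hx
      funext j
      exact Fintype.linearIndependent_iff.1 b.linearIndependent x h j
    have hwv : ((w : W) : Fin n → ℂ) = ∑ j, x j • ((b j : W) : Fin n → ℂ) := by
      simp [w]
    have h1 : ∀ i, ((b i : W) : Fin n → ℂ) ⬝ᵥ (M *ᵥ (w : Fin n → ℂ)) = 0 := by
      intro i
      have h2 : (B *ᵥ x) i = 0 := congrFun hBx i
      rw [hwv, Matrix.mulVec_sum, dotProduct_sum]
      simp only [Matrix.mulVec_smul, dotProduct_smul, smul_eq_mul]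
      rw [← h2]
      simp only [Matrix.mulVec, dotProduct, B, Matrix.of_apply]
      refine Finset.sum_congr rfl fun j _ => ?_
      rw [mul_comm]
    have h3 : ∀ v : W, ((v : W) : Fin n → ℂ) ⬝ᵥ (M *ᵥ (w : Fin n → ℂ)) = 0 := by
      intro v
      have h4 : v = ∑ i, b.repr v i • b i := (b.sum_repr v).symm
      rw [h4]
      simp only [Submodule.coe_sum, Submodule.coe_smul, sum_dotProduct, smul_dotProduct, h1,
        smul_eq_mul, mul_zero, Finset.sum_const_zero]
    have h5 : M *ᵥ (w : Fin n → ℂ) = 0 := by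
      apply dotProduct_eq_zero
      intro u
      rw [dotProduct_comm]
      have h6 := h3 ⟨E *ᵥ u, hEu u⟩
      have h7 : (E *ᵥ u) ⬝ᵥ (M *ᵥ (w : Fin n → ℂ)) = u ⬝ᵥ (M *ᵥ (w : Fin n → ℂ)) := by
        rw [dotProduct_comm, Matrix.dotProduct_mulVec, ← Matrix.mulVec_transpose, dotProduct_comm,
          Matrix.mulVec_mulVec, hEM, ← Matrix.mulVec_mulVec, hEw _ w.2]
      rw [← h7]
      exact h6
    exact hw0 (Subtype.ext (hMinj _ h5))
  have hdet2 : B.det = (-1) ^ c * B.det := by
    have h1 := Matrix.det_transpose B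
    rw [hBT, Matrix.det_neg, Fintype.card_fin] at h1
    exact h1.symm
  by_contra hodd
  rw [Nat.not_even_iff_odd] at hodd
  rw [hodd.neg_one_pow] at hdet2
  have h6 : (2 : ℂ) * B.det = 0 := by linear_combination hdet2
  rcases mul_eq_zero.1 h6 with h7 | h7
  · norm_num at h7
  · exact hdet h7

end Parity


/-- Let N be a normal subgroup of the finite group G with G/N a 2-group, and let φ be an irreducible complex character of N of 2-defect zero (the 2-part of #N divides φ(1)) whose complex conjugate is G-conjugate to φ. Then some irreducible character of G with Frobenius–Schur indicator +1 contains φ with multiplicity exactly one on restriction to N. -/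
theorem result {G : Type*} [Group G] [Finite G] (N : Subgroup G) [N.Normal] (h2 : IsPGroup 2 (G ⧸ N)) (φ : Cfsg.IrrCharacter ↥N) (hdef : 2 ^ (Nat.card ↥N).factorization 2 ∣ Cfsg.charDegree (φ : ↥N → ℂ)) (hconj : ∃ g : G, ∀ n n' : ↥N, (n' : G) = g * (n : G) * g⁻¹ → (φ : ↥N → ℂ) n' = (starRingEnd ℂ) ((φ : ↥N → ℂ) n)) : ∃ χ : Cfsg.IrrCharacter G, (Nat.card G : ℂ)⁻¹ * ∑ᶠ g : G, (χ : G → ℂ) (g * g) = 1 ∧ (Nat.card ↥N : ℂ)⁻¹ * ∑ᶠ n : ↥N, (χ : G → ℂ) n * (starRingEnd ℂ) ((φ : ↥N → ℂ) n) = 1 := by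
  classical
  cases nonempty_fintype G
  letI : Fintype N := Fintype.ofFinite _
  obtain ⟨k₀, hk₀⟩ := IsPGroup.iff_card.1 h2
  have hidx : N.index = 2 ^ k₀ := hk₀
  haveI : Fact (Nat.Prime 2) := ⟨Nat.prime_two⟩
  let P : Sylow 2 G := Classical.arbitrary _
  letI : Fintype (P : Subgroup G) := Fintype.ofFinite _
  have hφ : IsIrrCharacter N (φ : N → ℂ) := φ.2
  have hφc := isCharacter_of_isIrrCharacter hφ
  -- degrees
  set d := charDegree (φ : N → ℂ) with hd
  have hd1 : (φ : N → ℂ) 1 = d := (Cfsg.Agent.Lib.Char.Values.IsCharacter.charDegree_cast hφc).symm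
  have hddvd : d ∣ Nat.card N := Cfsg.Agent.Lib.Char.BrauerSCNum.degree_dvd φ d hd1
  set a := (Nat.card N).factorization 2 with ha
  have hN0 : Nat.card N ≠ 0 := Nat.card_pos.ne'
  have ha1 : 2 ^ a ∣ Nat.card N := Nat.ordProj_dvd _ _
  have ha2 : ¬ 2 ^ (a + 1) ∣ Nat.card N := Nat.pow_succ_factorization_not_dvd hN0 Nat.prime_two
  -- vanishing on `2`-singular elements
  have hvan : ∀ n : N, 2 ∣ orderOf n → (φ : N → ℂ) n = 0 := by
    intro n hn
    obtain ⟨k, ρ, hρ, hρe⟩ := hφ
    haveI : ρ.IsIrreducible := hρ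
    rw [← hρe]
    refine Cfsg.Agent.Lib.Char.PRegular.character_eq_zero_of_defect_zero ρ 2 a Nat.prime_two ha1 ha2 ?_ n hn
    have h1 : ρ.character 1 = (d : ℂ) := by rw [hρe]; exact hd1
    rw [Representation.char_one] at h1
    have h3 : Module.finrank ℂ (Fin k → ℂ) = d := by exact_mod_cast h1
    rw [h3]
    exact hdef
  set Φ : G → ℂ := indFun N (φ : N → ℂ) with hΦdef
  have hΦ : IsCharacter G Φ := isCharacter_indFun N hφc
  -- the sum over `P`
  have hPsum : ∑ p : (P : Subgroup G), Φ p = Φ 1 := by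
    rw [Finset.sum_eq_single (1 : (P : Subgroup G))]
    · rfl
    · intro p _ hp
      rw [hΦdef, indFun_apply]
      have h0 : ∀ x : G, extendByZero N (φ : N → ℂ) (x⁻¹ * p * x) = 0 := by
        intro x
        by_cases hx : x⁻¹ * p * x ∈ N
        · rw [extendByZero_of_mem N _ hx]
          apply hvan
          have h3 : orderOf (⟨_, hx⟩ : N) = orderOf ((p : (P : Subgroup G)) : G) := by
            rw [← Subgroup.orderOf_coe (⟨_, hx⟩ : N)]
            have := orderOf_injective (MulAut.conj x⁻¹).toMonoidHom (MulAut.conj x⁻¹).injective (p : G)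
            simpa using this
          rw [h3, Subgroup.orderOf_coe]
          obtain ⟨k, hk⟩ := P.isPGroup' p
          obtain ⟨j, -, hj⟩ := (Nat.dvd_prime_pow Nat.prime_two).1 (orderOf_dvd_of_pow_eq_one hk)
          rw [hj]
          have hj0 : j ≠ 0 := by
            rintro rfl
            rw [pow_zero, orderOf_eq_one_iff] at hj
            exact hp hj
          exact dvd_pow_self 2 hj0
        · exact extendByZero_of_notMem N _ hx
      simp [h0]
    · intro h
      exact absurd (Finset.mem_univ _) h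
  have hΦ1 : Φ 1 = (N.index : ℂ) * d := by
    rw [hΦdef, indFun_one, hd1]
  -- multiplicities
  choose m hm using fun χ : IrrCharacter G => exists_nat_classInner hΦ χ
  have hcharP : ∀ χ : IrrCharacter G, IsCharacter (P : Subgroup G) (fun p : (P : Subgroup G) => (χ : G → ℂ) p) :=
    fun χ => isCharacter_restrict (isCharacter_of_isIrrCharacter χ.2) _
  choose c hc using fun χ : IrrCharacter G =>
    exists_nat_classInner_of_isCharacter (hcharP χ) (isCharacter_one (G := (P : Subgroup G)))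
  have hc' : ∀ χ : IrrCharacter G,
      (Nat.card (P : Subgroup G) : ℂ)⁻¹ * ∑ p : (P : Subgroup G), (χ : G → ℂ) p = c χ := by
    intro χ
    rw [← hc χ, classInner_def]
    simp
  have hdec : ∀ g, Φ g = ∑ χ : IrrCharacter G, (m χ : ℂ) * (χ : G → ℂ) g := by
    intro g
    have h1 := congrFun (decomp_eq_sum_classInner hΦ) g
    simp only [Finset.sum_apply, Pi.smul_apply, smul_eq_mul, hm] at h1
    exact h1
  have hP0 : (Nat.card (P : Subgroup G) : ℂ) ≠ 0 := by
    exact_mod_cast (Nat.card_pos (α := (P : Subgroup G))).ne'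
  have hsum : (Nat.card (P : Subgroup G) : ℂ)⁻¹ * ∑ p : (P : Subgroup G), Φ p =
      ∑ χ : IrrCharacter G, (m χ : ℂ) * c χ := by
    simp only [hdec]
    rw [Finset.sum_comm, Finset.mul_sum]
    refine Finset.sum_congr rfl fun χ _ => ?_
    rw [← hc' χ, ← Finset.mul_sum]
    ring
  -- the odd number
  obtain ⟨q, hq⟩ := (show 2 ^ a ∣ d from hdef)
  have hqodd : Odd q := by
    rw [← Nat.not_even_iff_odd]
    rintro ⟨t, ht⟩
    apply ha2
    have h3 : 2 ^ (a + 1) ∣ d := by
      rw [hq, ht, pow_succ]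
      exact ⟨t, by ring⟩
    exact h3.trans hddvd
  have hPcard : Nat.card (P : Subgroup G) = 2 ^ a * 2 ^ k₀ := by
    rw [P.card_eq_multiplicity]
    have h3 : Nat.card G = Nat.card N * 2 ^ k₀ := by
      rw [← hidx]; exact (N.card_mul_index).symm
    rw [h3, Nat.factorization_mul hN0 (pow_ne_zero _ two_ne_zero)]
    simp only [Finsupp.coe_add, Pi.add_apply, Nat.factorization_pow, Finsupp.smul_apply,
      Nat.Prime.factorization_self Nat.prime_two, smul_eq_mul, mul_one]
    rw [pow_add]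
  have hsumq : ∑ χ : IrrCharacter G, m χ * c χ = q := by
    have h3 : ((∑ χ : IrrCharacter G, m χ * c χ : ℕ) : ℂ) = q := by
      push_cast
      rw [← hsum, hPsum, hΦ1, hPcard, hidx, hq]
      push_cast
      field_simp
    exact_mod_cast h3
  have hoddcard : Odd (Finset.univ.filter (fun χ : IrrCharacter G => Odd (m χ * c χ))).card := by
    rw [← Finset.odd_sum_iff_odd_card_odd, hsumq]
    exact hqodd
  -- complex conjugation
  let cj : IrrCharacter G → IrrCharacter G := fun χ =>
    ⟨fun g => conj ((χ : G → ℂ) g), Cfsg.Agent.Lib.Char.IndNormal.isIrrCharacter_conj χ.2⟩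
  have hcc : ∀ χ, cj (cj χ) = χ := by
    intro χ
    apply Subtype.ext
    funext g
    exact Complex.conj_conj _
  have hcconj : ∀ χ, c (cj χ) = c χ := by
    intro χ
    have h1 := hc' (cj χ)
    have h3 : (Nat.card (P : Subgroup G) : ℂ)⁻¹ * ∑ p : (P : Subgroup G), (cj χ : G → ℂ) p =
        conj ((Nat.card (P : Subgroup G) : ℂ)⁻¹ * ∑ p : (P : Subgroup G), (χ : G → ℂ) p) := by
      rw [map_mul, map_inv₀, Complex.conj_natCast, map_sum]
    rw [h3, hc' χ, Complex.conj_natCast] at h1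
    exact_mod_cast h1.symm
  obtain ⟨g₀, hg₀⟩ := hconj
  have hmeq : ∀ χ : IrrCharacter G, (m χ : ℂ) =
      (Nat.card N : ℂ)⁻¹ * ∑ n : N, (φ : N → ℂ) n * conj ((χ : G → ℂ) n) := by
    intro χ
    rw [← hm χ, hΦdef, frobenius_reciprocity N _ _
      (isClassFunction_of_isCharacter (isCharacter_of_isIrrCharacter χ.2)), classInner_def]
  have hmconj : ∀ χ, m (cj χ) = m χ := by
    intro χ
    have hcl := isClassFunction_of_isCharacter (isCharacter_of_isIrrCharacter χ.2)
    have h1 := hmeq (cj χ)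
    have h3 := hmeq χ
    have h4 : ∑ n : N, (φ : N → ℂ) n * conj ((cj χ : G → ℂ) n) =
        ∑ n : N, conj ((φ : N → ℂ) n) * (χ : G → ℂ) n := by
      have h5 : ∀ n : N, conj ((cj χ : G → ℂ) n) = (χ : G → ℂ) n := fun n => Complex.conj_conj _
      simp only [h5]
      rw [← Equiv.sum_comp (MulAut.conjNormal g₀).toEquiv]
      refine Finset.sum_congr rfl fun n _ => ?_
      have h6 : (φ : N → ℂ) ((MulAut.conjNormal g₀) n) = conj ((φ : N → ℂ) n) :=
        hg₀ n _ (MulAut.conjNormal_apply _ _)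
      have h7 : (χ : G → ℂ) ((MulAut.conjNormal g₀) n : N) = (χ : G → ℂ) n := by
        rw [MulAut.conjNormal_apply]
        exact hcl _ _
      show (φ : N → ℂ) ((MulAut.conjNormal g₀) n) * (χ : G → ℂ) ((MulAut.conjNormal g₀) n : N) = _
      rw [h6, h7]
    rw [h4] at h1
    have h8 : (m (cj χ) : ℂ) = conj (m χ : ℂ) := by
      rw [h1, h3, map_mul, map_inv₀, Complex.conj_natCast, map_sum]
      congr 1
      refine Finset.sum_congr rfl fun n _ => ?_
      rw [map_mul, Complex.conj_conj]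
    rw [Complex.conj_natCast] at h8
    exact_mod_cast h8
  -- a real member
  have hfix : ∃ χ : IrrCharacter G, Odd (m χ * c χ) ∧ cj χ = χ := by
    by_contra hno
    push Not at hno
    have h3 : ((Finset.univ.filter (fun χ : IrrCharacter G => Odd (m χ * c χ))).card : ZMod 2) = 0 := by
      have h4 : ∑ _χ ∈ Finset.univ.filter (fun χ : IrrCharacter G => Odd (m χ * c χ)), (1 : ZMod 2) = 0 := by
        refine Finset.sum_involution (fun χ _ => cj χ) ?_ ?_ ?_ ?_
        · intro χ _
          exact CharTwo.add_self_eq_zero (1 : ZMod 2)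
        · intro χ hχ _
          exact hno χ (Finset.mem_filter.1 hχ).2
        · intro χ hχ
          refine Finset.mem_filter.2 ⟨Finset.mem_univ _, ?_⟩
          rw [hmconj, hcconj]
          exact (Finset.mem_filter.1 hχ).2
        · intro χ _
          exact hcc χ
      simpa using h4
    rw [ZMod.natCast_eq_zero_iff] at h3
    exact (Nat.not_even_iff_odd.2 hoddcard) (even_iff_two_dvd.2 h3)
  obtain ⟨χ, hodd, hχreal⟩ := hfix
  have hmodd : Odd (m χ) := (Nat.odd_mul.1 hodd).1
  have hcodd : Odd (c χ) := (Nat.odd_mul.1 hodd).2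
  have hreal : ∀ g, conj ((χ : G → ℂ) g) = (χ : G → ℂ) g := by
    intro g
    have := congrFun (congrArg Subtype.val hχreal) g
    exact this
  -- the indicator
  have hν : nu (χ : G → ℂ) = 1 := by
    rcases Cfsg.Agent.Lib.CharFS.Tri.nu_of_real χ.2 hreal with h | h
    · exact h
    · exfalso
      obtain ⟨n, ρ, hρ, hρe⟩ := χ.2
      have h3 : ∀ g, conj (ρ.character g) = ρ.character g := by
        rw [hρe]; exact hreal
      have h4 := parity (P : Subgroup G) ρ hρ h3 (by rw [hρe]; exact h) (c χ) (by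
        rw [hρe]; exact hc' χ)
      exact (Nat.not_even_iff_odd.2 hcodd) h4
  -- the multiplicity
  have hinner : classInner (fun n : N => (χ : G → ℂ) n) (φ : N → ℂ) = m χ := by
    have h1 := classInner_conj_symm (fun n : N => (χ : G → ℂ) n) (φ : N → ℂ)
    have h3 : classInner (φ : N → ℂ) (fun n : N => (χ : G → ℂ) n) = m χ := by
      rw [hmeq χ, classInner_def]
    rw [h3] at h1
    have h5 := congrArg conj h1
    rw [Complex.conj_conj, Complex.conj_natCast] at h5
    exact h5
  have hm0 : classInner (fun n : N => (χ : G → ℂ) n) (φ : N → ℂ) ≠ 0 := by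
    rw [hinner]
    exact_mod_cast hmodd.pos.ne'
  obtain ⟨e, he1, he2⟩ := Cfsg.Agent.Lib.Char.DegreeDvd.exists_degree_ratio N χ.2 hφ hm0
  have happ := Cfsg.Agent.Lib.Char.CliffordCorr.apply_one_eq N (φ : N → ℂ)
    (Cfsg.Agent.Lib.Char.Monomial.inertiaOf N (φ : N → ℂ)) hφ
    (Cfsg.Agent.Lib.Char.Monomial.mem_inertiaOf N (φ : N → ℂ)) χ.2 hm0
  have hφ10 : (φ : N → ℂ) 1 ≠ 0 := irr_apply_one_ne_zero hφ
  have he3 : e = m χ * (Cfsg.Agent.Lib.Char.Monomial.inertiaOf N (φ : N → ℂ)).index := by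
    rw [he1, hinner] at happ
    have h3 : (e : ℂ) = m χ * (Cfsg.Agent.Lib.Char.Monomial.inertiaOf N (φ : N → ℂ)).index := by
      apply mul_right_cancel₀ hφ10
      rw [happ]
      ring
    exact_mod_cast h3
  have hm1 : m χ = 1 := by
    have h3 : m χ ∣ 2 ^ k₀ := by
      rw [← hidx]
      exact (Dvd.intro _ he3.symm).trans he2
    have h4 : Nat.Coprime (m χ) (2 ^ k₀) :=
      Nat.Coprime.pow_right _ (Nat.coprime_two_right.2 hmodd)
    exact Nat.Coprime.eq_one_of_dvd h4 h3
  refine ⟨χ, ?_, ?_⟩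
  · rw [finsum_eq_sum_of_fintype]
    have := hν
    simp only [nu, pow_two] at this
    exact this
  · rw [finsum_eq_sum_of_fintype]
    have h3 := hinner
    rw [classInner_def, hm1] at h3
    simpa using h3

end Cfsg.Agent.S4872
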