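import Cfsg.Statements.S4873
import Cfsg.Agent.Lib.Char.CliffordCorr
import Cfsg.Agent.Lib.Char.CompleteCor
import Cfsg.Agent.Lib.Char.Integrality
import Cfsg.Agent.Lib.Char.IndNormal
import Cfsg.Agent.Lib.CharFS.Tri
import Cfsg.Agent.Lib.CharFS.IndicatorReal

set_option autoImplicit false
open Cfsg

namespace Cfsg.Agent.S4873

open Cfsg.Agent.Lib.Char.Basic Cfsg.Agent.Lib.Char.Ortho Cfsg.Agent.Lib.Char.Clifford
  Cfsg.Agent.Lib.Char.CliffordCorr Cfsg.Agent.Lib.Char.Induced Cfsg.Agent.Lib.Char.Complete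
  Cfsg.Agent.Lib.Char.IndRep Cfsg.Agent.Lib.CharFS.Indicator
open scoped ComplexConjugate

universe u

variable {G : Type u} [Group G] [Fintype G]

/-- Convolution of an irreducible character with a class function. -/
theorem sum_conj_mul {f : G → ℂ} (hf : IsClassFunction G f) {χ : G → ℂ}
    (hχ : IsIrrCharacter G χ) (x : G) :
    (∑ g, conj (f g) * χ (x * g)) * χ 1 = (Nat.card G : ℂ) * classInner χ f * χ x := by
  obtain ⟨m, ρ, hρ, rfl⟩ := hχ
  haveI := hρ
  let T := classOp ρ (fun g => conj (f g))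
  have hcl : IsClassFunction G (fun g => conj (f g)) := fun g h => by simp only [hf g h]
  have hT : ∀ g, T ∘ₗ ρ g = ρ g ∘ₗ T := fun g => LinearMap.ext fun v => classOp_comm ρ _ hcl g v
  have h1 := Cfsg.Agent.Lib.Char.Integrality.eq_trace_div_smul_of_commute ρ T hT
  have htr : LinearMap.trace ℂ _ T = ∑ g, conj (f g) * ρ.character g := trace_classOp ρ _
  have hsum : ∑ g, conj (f g) * ρ.character (x * g) = LinearMap.trace ℂ _ (ρ x ∘ₗ T) := by
    have hcomp : ρ x ∘ₗ T = ∑ g, conj (f g) • (ρ x ∘ₗ ρ g) := by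
      apply LinearMap.ext
      intro v
      simp [T, classOp, LinearMap.sum_apply, map_sum]
    rw [hcomp, map_sum]
    refine Finset.sum_congr rfl (fun g _ => ?_)
    rw [map_smul, smul_eq_mul]
    congr 1
    show LinearMap.trace ℂ _ (ρ (x * g)) = _
    rw [map_mul]
    rfl
  have hd : ((Module.finrank ℂ (Fin m → ℂ) : ℕ) : ℂ) = ρ.character 1 := by
    rw [Representation.char_one]
  have hd0 : ρ.character 1 ≠ 0 := irr_apply_one_ne_zero ⟨m, ρ, hρ, rfl⟩
  rw [hsum]
  conv_lhs => rw [h1]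
  rw [LinearMap.comp_smul, LinearMap.comp_id, map_smul, smul_eq_mul, hd, htr]
  have hc : (Nat.card G : ℂ) * classInner ρ.character f = ∑ g, conj (f g) * ρ.character g := by
    rw [Cfsg.Agent.Lib.Char.Induced.classInner_def, ← mul_assoc, mul_inv_cancel₀ natCard_ne_zero_complex, one_mul]
    exact Finset.sum_congr rfl (fun g _ => mul_comm _ _)
  rw [hc]
  show _ = _ * LinearMap.trace ℂ _ (ρ x)
  have : (LinearMap.trace ℂ (Fin m → ℂ)) (ρ x) = ρ.character x := rfl
  rw [this]
  field_simp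

/-- In a group of odd order, an element conjugate to its inverse is trivial. -/
theorem eq_one_of_isConj_inv {K : Type*} [Group K] [Finite K] (hodd : Odd (Nat.card K)) {x : K}
    (h : IsConj x x⁻¹) : x = 1 := by
  obtain ⟨y, hy⟩ := isConj_iff.mp h
  obtain ⟨k, hk⟩ := hodd
  have hy1 : y ^ (2 * k + 1) = 1 := by rw [← hk]; exact pow_card_eq_one'
  have hc : Commute (y * y) x := by
    show y * y * x = x * (y * y)
    have h2 : y * x * y⁻¹ = x⁻¹ := hy
    have h3 : y * x⁻¹ * y⁻¹ = x := by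
      have := congrArg (·⁻¹) h2
      simpa [mul_assoc] using this
    calc y * y * x = y * (y * x * y⁻¹) * y⁻¹ * (y * y) := by group
      _ = y * x⁻¹ * y⁻¹ * (y * y) := by rw [h2]
      _ = x * (y * y) := by rw [h3]
  have hyy : y = ((y * y) ^ k)⁻¹ := by
    rw [eq_inv_iff_mul_eq_one, ← pow_two, ← pow_mul, ← pow_succ']
    rwa [show 2 * k + 1 = k * 2 + 1 by ring, show (k * 2 + 1) = 2 * k + 1 by ring]
  have hc2 : Commute y x := by
    rw [hyy]
    exact (hc.pow_left k).inv_left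
  have h4 : x⁻¹ = x := by
    rw [← hy]
    show y * x * y⁻¹ = x
    rw [hc2.eq, mul_inv_cancel_right]
  have h5 : x ^ 2 = 1 := by
    rw [pow_two]
    nth_rw 1 [← h4]
    simp
  have h6 : orderOf x ∣ 2 := orderOf_dvd_of_pow_eq_one h5
  have h7 : Odd (orderOf x) := Odd.of_dvd_nat ⟨k, hk⟩ (orderOf_dvd_natCard x)
  rcases (Nat.dvd_prime Nat.prime_two).1 h6 with h8 | h8
  · exact orderOf_eq_one_iff.mp h8
  · rw [h8] at h7
    exact absurd h7 (by decide)

section Main

variable (N : Subgroup G) [hN : N.Normal] [Fintype N] {φ : N → ℂ}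

theorem indFun_off {g : G} (hg : g ∉ N) (φ : N → ℂ) : indFun N φ g = 0 := by
  rw [indFun_apply]
  rw [Finset.sum_eq_zero, mul_zero]
  intro x _
  apply extendByZero_of_notMem
  intro h
  apply hg
  have := hN.conj_mem _ h x
  simpa [mul_assoc] using this

theorem classInner_left_indFun (hφ : IsIrrCharacter N φ) {χ : G → ℂ} (hχ : IsIrrCharacter G χ) :
    classInner χ (indFun N φ) = classInner (fun n : N => χ n) φ := by
  have h1 := frobenius_reciprocity N φ χ (isClassFunction_of_isCharacter (isCharacter_of_isIrrCharacter hχ))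
  rw [← classInner_conj_symm, h1, classInner_conj_symm]

/-- The orbit sum. -/
noncomputable def orbSum (φ : N → ℂ) : N → ℂ := ∑ᶠ ψ ∈ orbitSet N φ, ψ

theorem res_eq (hφ : IsIrrCharacter N φ) {χ : G → ℂ} (hχ : IsIrrCharacter G χ)
    (h : classInner (fun n : N => χ n) φ ≠ 0) :
    (fun n : N => χ n) = classInner (fun n : N => χ n) φ • orbSum N φ :=
  res_eq_smul_finsum N hχ hφ h

/-- The value of the convolution with the induced character. -/
theorem conv_eq (hφ : IsIrrCharacter N φ) {χ : G → ℂ} (hχ : IsIrrCharacter G χ) (x : G) :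
    (∑ g, conj (indFun N φ g) * χ (x * g)) * orbSum N φ 1 =
      if classInner (fun n : N => χ n) φ ≠ 0 then (Nat.card G : ℂ) * χ x else 0 := by
  have h1 := sum_conj_mul (indFun_isClassFunction N φ) hχ x
  rw [classInner_left_indFun N hφ hχ] at h1
  have h0 := irr_apply_one_ne_zero hχ
  split_ifs with h
  · have h2 : χ 1 = classInner (fun n : N => χ n) φ * orbSum N φ 1 := by
      have := congrFun (res_eq N hφ hχ h) 1
      simpa using this
    rw [h2] at h1
    have h3 : classInner (fun n : N => χ n) φ ≠ 0 := h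
    apply mul_left_cancel₀ h3
    calc _ = (∑ g, conj (indFun N φ g) * χ (x * g)) * (classInner (fun n : N => χ n) φ * orbSum N φ 1) := by ring
      _ = _ := h1
      _ = _ := by ring
  · push Not at h
    rw [h, mul_zero, zero_mul] at h1
    have h4 : ∑ g, conj (indFun N φ g) * χ (x * g) = 0 :=
      (mul_eq_zero.mp h1).resolve_right h0
    rw [h4, zero_mul]

open Classical in
/-- The sum of squares of the characters over `φ` vanishes off `N`. -/
theorem sum_sq_off (hφ : IsIrrCharacter N φ) (hodd : Odd N.index) {g : G} (hg : g ∉ N) :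
    ∑ χ ∈ Finset.univ.filter (fun χ : IrrCharacter G => classInner (fun n : N => (χ : G → ℂ) n) φ ≠ 0),
      (χ : G → ℂ) g ^ 2 = 0 := by
  have h1 : ∀ χ : IrrCharacter G, (if classInner (fun n : N => (χ : G → ℂ) n) φ ≠ 0 then (Nat.card G : ℂ) * (χ : G → ℂ) g else 0) * (χ : G → ℂ) g =
      (∑ h, conj (indFun N φ h) * (χ : G → ℂ) (g * h)) * orbSum N φ 1 * (χ : G → ℂ) g := by
    intro χ
    rw [conv_eq N hφ χ.2 g]
  have h2 : (Nat.card G : ℂ) * ∑ χ ∈ Finset.univ.filter (fun χ : IrrCharacter G => classInner (fun n : N => (χ : G → ℂ) n) φ ≠ 0),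
      (χ : G → ℂ) g ^ 2 = ∑ χ : IrrCharacter G, (if classInner (fun n : N => (χ : G → ℂ) n) φ ≠ 0 then (Nat.card G : ℂ) * (χ : G → ℂ) g else 0) * (χ : G → ℂ) g := by
    rw [Finset.sum_filter, Finset.mul_sum]
    refine Finset.sum_congr rfl (fun χ _ => ?_)
    split_ifs
    · ring
    · ring
  have h3 : ∑ χ : IrrCharacter G, (if classInner (fun n : N => (χ : G → ℂ) n) φ ≠ 0 then (Nat.card G : ℂ) * (χ : G → ℂ) g else 0) * (χ : G → ℂ) g = 0 := by
    rw [Finset.sum_congr rfl (fun χ _ => h1 χ)]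
    have h4 : ∀ χ : IrrCharacter G, (∑ h, conj (indFun N φ h) * (χ : G → ℂ) (g * h)) * orbSum N φ 1 * (χ : G → ℂ) g =
        ∑ h, conj (indFun N φ h) * orbSum N φ 1 * ((χ : G → ℂ) (g * h) * conj ((χ : G → ℂ) g⁻¹)) := by
      intro χ
      rw [conj_of_isCharacter (isCharacter_of_isIrrCharacter χ.2), inv_inv, Finset.sum_mul, Finset.sum_mul]
      refine Finset.sum_congr rfl (fun h _ => ?_)
      ring
    rw [Finset.sum_congr rfl (fun χ _ => h4 χ), Finset.sum_comm]
    refine Finset.sum_eq_zero (fun h _ => ?_)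
    rw [← Finset.mul_sum]
    by_cases hh : h ∈ N
    · have hnc : ¬ IsConj (g * h) g⁻¹ := by
        intro hc
        have hq : Odd (Nat.card (G ⧸ N)) := hodd
        have h5 : IsConj ((g : G ⧸ N)) ((g : G ⧸ N))⁻¹ := by
          have h6 : ((g * h : G) : G ⧸ N) = (g : G ⧸ N) := by
            rw [QuotientGroup.mk_mul, (QuotientGroup.eq_one_iff h).mpr hh, mul_one]
          obtain ⟨c, hc'⟩ := isConj_iff.mp hc
          rw [isConj_iff]
          refine ⟨(c : G ⧸ N), ?_⟩
          rw [← h6, ← QuotientGroup.mk_mul, ← QuotientGroup.mk_inv, ← QuotientGroup.mk_mul, hc',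
            QuotientGroup.mk_inv, h6]
        have h8 := eq_one_of_isConj_inv hq h5
        exact hg ((QuotientGroup.eq_one_iff g).mp h8)
      rw [Cfsg.Agent.Lib.Char.CompleteCor.column_orth_not_conj hnc, mul_zero]
    · rw [indFun_off N hh φ]
      simp
  rw [h3] at h2
  exact (mul_eq_zero.mp h2).resolve_left natCard_ne_zero_complex

open Classical in
/-- The sum of squares over `N`. -/
theorem sum_sq_on (hφ : IsIrrCharacter N φ)
    (hreal : ∀ n, conj (φ n) = φ n) :
    ∑ n : N, ∑ χ ∈ Finset.univ.filter (fun χ : IrrCharacter G => classInner (fun n : N => (χ : G → ℂ) n) φ ≠ 0),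
      (χ : G → ℂ) n ^ 2 = (Nat.card G : ℂ) := by
  set X := Finset.univ.filter (fun χ : IrrCharacter G => classInner (fun n : N => (χ : G → ℂ) n) φ ≠ 0) with hX
  let m : IrrCharacter G → ℂ := fun χ => classInner (fun n : N => (χ : G → ℂ) n) φ
  have hmconj : ∀ χ, conj (m χ) = m χ := by
    intro χ
    obtain ⟨a, ha⟩ := exists_nat_classInner (isCharacter_restrict (isCharacter_of_isIrrCharacter χ.2) N) ⟨φ, hφ⟩
    show conj (classInner (fun n : N => (χ : G → ℂ) n) φ) = classInner (fun n : N => (χ : G → ℂ) n) φ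
    rw [ha]
    simp
  let θ := indFun N φ
  have hθc : IsCharacter G θ := isCharacter_indFun N (isCharacter_of_isIrrCharacter hφ)
  have hinner : ∀ χ : IrrCharacter G, classInner θ χ = m χ := by
    intro χ
    rw [← classInner_conj_symm, classInner_left_indFun N hφ χ.2, hmconj]
  have hinner' : ∀ χ : IrrCharacter G, classInner (χ : G → ℂ) θ = m χ := by
    intro χ
    exact classInner_left_indFun N hφ χ.2
  let μ : ℂ := ∑ χ ∈ X, m χ ^ 2
  have hres : ∀ χ ∈ X, ∀ n : N, (χ : G → ℂ) n = m χ * orbSum N φ n := by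
    intro χ hχ n
    have h1 := res_eq N hφ χ.2 (Finset.mem_filter.mp hχ).2
    exact congrFun h1 n
  have hθn : ∀ n : N, θ n = μ * orbSum N φ n := by
    intro n
    have h1 := congrFun (decomp_eq_sum_classInner hθc) (n : G)
    simp only [Finset.sum_apply, Pi.smul_apply, smul_eq_mul] at h1
    rw [h1, Finset.sum_congr rfl (fun χ _ => by rw [hinner χ])]
    have h2 : ∑ χ : IrrCharacter G, m χ * (χ : G → ℂ) n = ∑ χ ∈ X, m χ * (χ : G → ℂ) n := by
      symm
      apply Finset.sum_subset (Finset.subset_univ _)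
      intro χ _ hχ
      have : m χ = 0 := by
        by_contra h
        exact hχ (Finset.mem_filter.mpr ⟨Finset.mem_univ _, h⟩)
      rw [this, zero_mul]
    rw [h2, Finset.sum_congr rfl (fun χ hχ => by rw [hres χ hχ n]), Finset.sum_mul]
    refine Finset.sum_congr rfl (fun χ _ => ?_)
    ring
  have hμ : classInner θ θ = μ := by
    rw [classInner_eq_sum_mul hθc hθc]
    have h2 : ∑ χ : IrrCharacter G, classInner θ χ * classInner (χ : G → ℂ) θ = ∑ χ : IrrCharacter G, m χ ^ 2 := by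
      refine Finset.sum_congr rfl (fun χ _ => ?_)
      rw [hinner, hinner', sq]
    rw [h2]
    symm
    apply Finset.sum_subset (Finset.subset_univ _)
    intro χ _ hχ
    have : m χ = 0 := by
      by_contra h
      exact hχ (Finset.mem_filter.mpr ⟨Finset.mem_univ _, h⟩)
    rw [this]
    simp
  have hμ0 : μ ≠ 0 := by
    rw [← hμ]
    intro h0
    have h1 := eq_zero_of_classInner_self_eq_zero h0
    have h2 := congrFun h1 1
    have h3 : θ 1 = (N.index : ℂ) * φ 1 := indFun_one N φ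
    rw [h3] at h2
    have hI : (N.index : ℂ) ≠ 0 := by
      exact_mod_cast (Subgroup.index_ne_zero_of_finite (H := N))
    exact (mul_ne_zero hI (irr_apply_one_ne_zero hφ)) h2
  have hθreal : ∀ n : N, conj (θ n) = θ n := by
    intro n
    have h1 : θ n = (Nat.card N : ℂ)⁻¹ * ∑ x : G, conjFun N x⁻¹ φ n := indFun_res N φ n
    rw [h1, map_mul, map_sum, map_inv₀, Complex.conj_natCast]
    congr 1
    refine Finset.sum_congr rfl (fun x _ => ?_)
    rw [conjFun_apply, hreal]
  have hsumθ : ∑ n : N, θ n ^ 2 = (Nat.card G : ℂ) * μ := by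
    rw [← hμ, Cfsg.Agent.Lib.Char.Induced.classInner_def, ← mul_assoc,
      mul_inv_cancel₀ natCard_ne_zero_complex, one_mul]
    apply Fintype.sum_of_injective (Subtype.val : N → G) Subtype.val_injective
    · intro g hg
      have hgN : g ∉ N := fun h => hg ⟨⟨g, h⟩, rfl⟩
      have : θ g = 0 := indFun_off N hgN φ
      rw [this, zero_mul]
    · intro n
      rw [hθreal n, sq]
  have hin : ∀ n : N, μ * ∑ χ ∈ X, (χ : G → ℂ) n ^ 2 = θ n ^ 2 := by
    intro n
    rw [hθn n, Finset.sum_congr rfl (fun χ hχ => by rw [hres χ hχ n]), mul_pow,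
      sq μ, mul_assoc]
    congr 1
    rw [Finset.sum_congr rfl (fun χ _ => mul_pow (m χ) (orbSum N φ n) 2), ← Finset.sum_mul]
  apply mul_left_cancel₀ hμ0
  rw [Finset.mul_sum, Finset.sum_congr rfl (fun n _ => hin n), hsumθ, mul_comm]

open Classical in
/-- The number of real characters over a real character is one. -/
theorem card_real_eq_one (hφ : IsIrrCharacter N φ) (hodd : Odd N.index)
    (hreal : ∀ n, conj (φ n) = φ n) :
    (Finset.univ.filter (fun χ : IrrCharacter G => classInner (fun n : N => (χ : G → ℂ) n) φ ≠ 0 ∧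
      ∀ g, conj ((χ : G → ℂ) g) = (χ : G → ℂ) g)).card = 1 := by
  set X := Finset.univ.filter (fun χ : IrrCharacter G => classInner (fun n : N => (χ : G → ℂ) n) φ ≠ 0) with hX
  have h1 : ∑ g : G, ∑ χ ∈ X, (χ : G → ℂ) g ^ 2 = (Nat.card G : ℂ) := by
    rw [← sum_sq_on N hφ hreal]
    symm
    apply Fintype.sum_of_injective (Subtype.val : N → G) Subtype.val_injective
    · intro g hg
      have hgN : g ∉ N := fun h => hg ⟨⟨g, h⟩, rfl⟩
      exact sum_sq_off N hφ hodd hgN
    · intro n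
      rfl
  rw [Finset.sum_comm] at h1
  have h2 : ∀ χ : IrrCharacter G, ∑ g : G, (χ : G → ℂ) g ^ 2 =
      (Nat.card G : ℂ) * if ∀ g, conj ((χ : G → ℂ) g) = (χ : G → ℂ) g then 1 else 0 := by
    intro χ
    have h3 := classInner_irr χ.2 (Cfsg.Agent.Lib.Char.IndNormal.isIrrCharacter_conj χ.2)
    rw [Cfsg.Agent.Lib.Char.Induced.classInner_def] at h3
    simp only [Complex.conj_conj] at h3
    have h4 : ∑ g : G, (χ : G → ℂ) g ^ 2 = (Nat.card G : ℂ) *
        ((Nat.card G : ℂ)⁻¹ * ∑ g : G, (χ : G → ℂ) g * (χ : G → ℂ) g) := by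
      rw [← mul_assoc, mul_inv_cancel₀ natCard_ne_zero_complex, one_mul]
      exact Finset.sum_congr rfl (fun g _ => sq _)
    rw [h4, h3]
    congr 1
    by_cases h5 : ∀ g, conj ((χ : G → ℂ) g) = (χ : G → ℂ) g
    · rw [if_pos h5, if_pos]
      funext g
      exact (h5 g).symm
    · rw [if_neg h5, if_neg]
      intro h6
      apply h5
      intro g
      exact (congrFun h6 g).symm
  rw [Finset.sum_congr rfl (fun χ _ => h2 χ), ← Finset.mul_sum] at h1
  have h3 := mul_left_cancel₀ natCard_ne_zero_complex (h1.trans (mul_one _).symm)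
  rw [Finset.sum_boole] at h3
  have h4 : (Finset.filter (fun χ : IrrCharacter G => ∀ g, conj ((χ : G → ℂ) g) = (χ : G → ℂ) g) X).card = 1 := by
    exact_mod_cast h3
  rw [← h4, hX, Finset.filter_filter]

/-- Squares in an odd quotient. -/
theorem mem_of_sq_mem (hodd : Odd N.index) {g : G} (h : g ^ 2 ∈ N) : g ∈ N := by
  have hq : Odd (Nat.card (G ⧸ N)) := hodd
  have h1 : (g : G ⧸ N) ^ 2 = 1 := by
    rw [← QuotientGroup.mk_pow]
    exact (QuotientGroup.eq_one_iff _).mpr h
  have h2 : orderOf (g : G ⧸ N) ∣ 2 := orderOf_dvd_of_pow_eq_one h1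
  have h3 : Odd (orderOf (g : G ⧸ N)) := Odd.of_dvd_nat hq (orderOf_dvd_natCard _)
  rcases (Nat.dvd_prime Nat.prime_two).1 h2 with h4 | h4
  · exact (QuotientGroup.eq_one_iff _).mp (orderOf_eq_one_iff.mp h4)
  · rw [h4] at h3
    exact absurd h3 (by decide)

/-- The indicator of the induced character. -/
theorem nu_indFun (hodd : Odd N.index) (φ : N → ℂ) : nu (indFun N φ) = nu φ := by
  have h1 : ∑ g : G, indFun N φ (g ^ 2) = ∑ n : N, indFun N φ ((n : G) ^ 2) := by
    symm
    apply Fintype.sum_of_injective (Subtype.val : N → G) Subtype.val_injective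
    · intro g hg
      have hgN : g ∉ N := fun h => hg ⟨⟨g, h⟩, rfl⟩
      exact indFun_off N (fun h => hgN (mem_of_sq_mem N hodd h)) φ
    · intro n
      rfl
  have h2 : ∀ n : N, indFun N φ ((n : G) ^ 2) = (Nat.card N : ℂ)⁻¹ * ∑ x : G, φ (MulAut.conjNormal x⁻¹ n ^ 2) := by
    intro n
    have h3 := indFun_res N φ (n ^ 2)
    rw [Subgroup.coe_pow] at h3
    rw [h3]
    congr 1
    refine Finset.sum_congr rfl (fun x _ => ?_)
    rw [conjFun_eq_comp]
    show φ (MulAut.conjNormal x⁻¹ (n ^ 2)) = _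
    rw [map_pow]
  unfold nu
  rw [h1, Finset.sum_congr rfl (fun n _ => h2 n), ← Finset.mul_sum, Finset.sum_comm]
  have h3 : ∀ x : G, ∑ n : N, φ (MulAut.conjNormal x⁻¹ n ^ 2) = ∑ n : N, φ (n ^ 2) := by
    intro x
    exact Equiv.sum_comp (MulAut.conjNormal x⁻¹).toEquiv (fun n : N => φ (n ^ 2))
  rw [Finset.sum_congr rfl (fun x _ => h3 x), Finset.sum_const, Finset.card_univ, nsmul_eq_mul,
    ← Nat.card_eq_fintype_card, ← mul_assoc, ← mul_assoc, mul_comm (Nat.card G : ℂ)⁻¹,
    mul_assoc (Nat.card N : ℂ)⁻¹, inv_mul_cancel₀ natCard_ne_zero_complex, mul_one]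

/-- The indicator is linear on a decomposition. -/
theorem nu_decomp {θ : G → ℂ} (hθ : IsCharacter G θ) :
    nu θ = ∑ χ : IrrCharacter G, classInner θ χ * nu (χ : G → ℂ) := by
  unfold nu
  have h1 : ∀ x : G, θ (x ^ 2) = ∑ χ : IrrCharacter G, classInner θ χ * (χ : G → ℂ) (x ^ 2) := by
    intro x
    have h2 := congrFun (decomp_eq_sum_classInner hθ) (x ^ 2)
    simpa only [Finset.sum_apply, Pi.smul_apply, smul_eq_mul] using h2
  rw [Finset.sum_congr rfl (fun x _ => h1 x), Finset.sum_comm, Finset.mul_sum]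
  refine Finset.sum_congr rfl (fun χ _ => ?_)
  rw [← Finset.mul_sum]
  ring

end Main

/-- See the statement. -/
theorem result {G : Type*} [Group G] [Finite G] (N : Subgroup G) [N.Normal] (hodd : Odd N.index) (φ : Cfsg.IrrCharacter ↥N) (hφ : (Nat.card ↥N : ℂ)⁻¹ * ∑ᶠ g : ↥N, (φ : ↥N → ℂ) (g * g) = 1) : ∃! χ : Cfsg.IrrCharacter G, (Nat.card G : ℂ)⁻¹ * ∑ᶠ g : G, (χ : G → ℂ) (g * g) = 1 ∧ (∑ᶠ n : ↥N, (χ : G → ℂ) n * (starRingEnd ℂ) ((φ : ↥N → ℂ) n)) ≠ 0 := by
  classical
  letI : Fintype G := Fintype.ofFinite _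
  letI : Fintype N := Fintype.ofFinite _
  have hnuφ : nu (φ : N → ℂ) = 1 := by
    rw [← hφ, finsum_eq_sum_of_fintype]
    unfold nu
    congr 1
    exact Finset.sum_congr rfl (fun n _ => by rw [sq])
  have hreal : ∀ n, conj ((φ : N → ℂ) n) = (φ : N → ℂ) n :=
    Cfsg.Agent.Lib.CharFS.IndicatorReal.conj_eq_of_nu_ne_zero φ.2 (by rw [hnuφ]; exact one_ne_zero)
  have hcard := card_real_eq_one N φ.2 hodd hreal
  obtain ⟨χ₀, hχ₀⟩ := Finset.card_eq_one.mp hcard
  have hmem : χ₀ ∈ Finset.univ.filter (fun χ : IrrCharacter G => classInner (fun n : N => (χ : G → ℂ) n) (φ : N → ℂ) ≠ 0 ∧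
      ∀ g, conj ((χ : G → ℂ) g) = (χ : G → ℂ) g) := by
    rw [hχ₀]
    exact Finset.mem_singleton_self _
  obtain ⟨hover, hrealχ⟩ := (Finset.mem_filter.mp hmem).2
  -- the indicator of `χ₀`
  have hθc : IsCharacter G (indFun N (φ : N → ℂ)) :=
    isCharacter_indFun N (isCharacter_of_isIrrCharacter φ.2)
  have h1 := nu_decomp hθc
  rw [nu_indFun N hodd, hnuφ] at h1
  have hinner : ∀ χ : IrrCharacter G, classInner (indFun N (φ : N → ℂ)) χ = conj (classInner (fun n : N => (χ : G → ℂ) n) (φ : N → ℂ)) := by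
    intro χ
    rw [← classInner_conj_symm, classInner_left_indFun N φ.2 χ.2]
  have h2 : ∑ χ : IrrCharacter G, classInner (indFun N (φ : N → ℂ)) χ * nu (χ : G → ℂ) =
      classInner (indFun N (φ : N → ℂ)) χ₀ * nu (χ₀ : G → ℂ) := by
    apply Finset.sum_eq_single χ₀
    · intro χ _ hne
      by_cases hov : classInner (fun n : N => (χ : G → ℂ) n) (φ : N → ℂ) ≠ 0
      · have hnr : ∃ g, conj ((χ : G → ℂ) g) ≠ (χ : G → ℂ) g := by
          by_contra hcon
          push Not at hcon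
          have hm : χ ∈ Finset.univ.filter (fun χ : IrrCharacter G => classInner (fun n : N => (χ : G → ℂ) n) (φ : N → ℂ) ≠ 0 ∧
              ∀ g, conj ((χ : G → ℂ) g) = (χ : G → ℂ) g) :=
            Finset.mem_filter.mpr ⟨Finset.mem_univ _, hov, hcon⟩
          rw [hχ₀, Finset.mem_singleton] at hm
          exact hne hm
        rw [Cfsg.Agent.Lib.CharFS.Tri.nu_of_not_real χ.2 hnr, mul_zero]
      · push Not at hov
        rw [hinner, hov]
        simp
    · intro h
      exact absurd (Finset.mem_univ _) h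
  rw [h2] at h1
  have hnu₀ : nu (χ₀ : G → ℂ) = 1 := by
    obtain ⟨a, ha⟩ := exists_nat_classInner hθc χ₀
    rcases Cfsg.Agent.Lib.CharFS.Tri.nu_of_real χ₀.2 hrealχ with h3 | h3
    · exact h3
    · exfalso
      rw [h3, ha] at h1
      have h4 : (((a : ℤ) * (-1) : ℤ) : ℂ) = ((1 : ℤ) : ℂ) := by
        push_cast
        exact h1.symm
      have h5 : (a : ℤ) * (-1) = 1 := by exact_mod_cast h4
      omega
  have hinnerover : ∀ χ : IrrCharacter G, (∑ᶠ n : N, (χ : G → ℂ) n * conj ((φ : N → ℂ) n)) ≠ 0 ↔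
      classInner (fun n : N => (χ : G → ℂ) n) (φ : N → ℂ) ≠ 0 := by
    intro χ
    rw [finsum_eq_sum_of_fintype, Cfsg.Agent.Lib.Char.Induced.classInner_def]
    constructor
    · intro h
      exact mul_ne_zero (inv_ne_zero natCard_ne_zero_complex) h
    · intro h h0
      apply h
      rw [h0, mul_zero]
  have hnuform : ∀ χ : IrrCharacter G, (Nat.card G : ℂ)⁻¹ * ∑ᶠ g : G, (χ : G → ℂ) (g * g) = nu (χ : G → ℂ) := by
    intro χ
    rw [finsum_eq_sum_of_fintype]
    unfold nu
    congr 1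
    exact Finset.sum_congr rfl (fun n _ => by rw [sq])
  refine ⟨χ₀, ⟨by rw [hnuform]; exact hnu₀, (hinnerover χ₀).mpr hover⟩, ?_⟩
  rintro χ ⟨h3, h4⟩
  rw [hnuform] at h3
  have hm : χ ∈ Finset.univ.filter (fun χ : IrrCharacter G => classInner (fun n : N => (χ : G → ℂ) n) (φ : N → ℂ) ≠ 0 ∧
      ∀ g, conj ((χ : G → ℂ) g) = (χ : G → ℂ) g) :=
    Finset.mem_filter.mpr ⟨Finset.mem_univ _, (hinnerover χ).mp h4,
      Cfsg.Agent.Lib.CharFS.IndicatorReal.conj_eq_of_nu_ne_zero χ.2 (by rw [h3]; exact one_ne_zero)⟩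
  rw [hχ₀, Finset.mem_singleton] at hm
  exact hm

end Cfsg.Agent.S4873
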