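import Cfsg.Statements.S4885
import Cfsg.Agent.Lib.Blocks.TPB7

set_option autoImplicit false
open Cfsg

namespace Cfsg.Agent.S4885

/-- Let p and q be primes dividing the order of the finite group G, and suppose G is p-solvable and q-solvable. Fix maximal ideals of the algebraic integers containing p and q, defining the principal p-block and the principal q-block. If the irreducible characters of degree prime to p in the principal p-block are exactly the irreducible characters of degree prime to q in the principal q-block, then p = q. -/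
theorem result {G : Type*} [Group G] [Finite G] (p q : ℕ) [Fact p.Prime] [Fact q.Prime] (hp : p ∣ Nat.card G) (hq : q ∣ Nat.card G) (hps : Cfsg.IsPSolvable p G) (hqs : Cfsg.IsPSolvable q G) (Mp Mq : Ideal Cfsg.AlgInt) (hMp : Cfsg.IsPModular p Mp) (hMq : Cfsg.IsPModular q Mq) (h : ∀ χ : Cfsg.IrrCharacter G, (χ ∈ Cfsg.principalBlock Mp G ∧ ¬ p ∣ Cfsg.charDegree (χ : G → ℂ)) ↔ (χ ∈ Cfsg.principalBlock Mq G ∧ ¬ q ∣ Cfsg.charDegree (χ : G → ℂ))) : p = q := by
  classical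
  by_contra hpq
  cases nonempty_fintype G
  open Cfsg.Agent.Lib.Blocks.TPB Cfsg.Agent.Lib.Solvable.PSeries in
  have H1 : ∀ χ : Cfsg.IrrCharacter G, χ ∈ Cfsg.principalBlock Mp G → ¬ p ∣ Cfsg.charDegree (χ : G → ℂ) → ¬ q ∣ Cfsg.charDegree (χ : G → ℂ) :=
    fun χ h1 h2 => ((h χ).1 ⟨h1, h2⟩).2
  have H2 : ∀ χ : Cfsg.IrrCharacter G, χ ∈ Cfsg.principalBlock Mq G → ¬ q ∣ Cfsg.charDegree (χ : G → ℂ) → ¬ p ∣ Cfsg.charDegree (χ : G → ℂ) :=
    fun χ h1 h2 => ((h χ).2 ⟨h1, h2⟩).2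
  obtain ⟨P, Q, hc⟩ := Cfsg.Agent.Lib.Blocks.TPB.exists_commuting _ G p q rfl hpq hps hqs
    (Cfsg.Agent.Lib.Blocks.TPB.hyp_of_block hMp hps H1) (Cfsg.Agent.Lib.Blocks.TPB.hyp_of_block hMq hqs H2)
  have hPD : (P : Subgroup G) ≤ Cfsg.pPrimeCore q G :=
    Cfsg.Agent.Lib.Blocks.TPB.le_pPrimeCore_of_commute hqs P
      (Cfsg.Agent.Lib.Blocks.TPB.card_coprime_of_isPGroup hpq P.isPGroup') Q hc
  obtain ⟨χ, h1, h2, x, hx, h3⟩ := Cfsg.Agent.Lib.Blocks.TPB.exists_char_nontrivial_on_sylow hp P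
  have h4 := Cfsg.Agent.Lib.Blocks.TPB.mem_principal_of_trivial hMp hps χ h1
  have h5 := ((h χ).1 ⟨h4, h2⟩).1
  haveI := Cfsg.Agent.Lib.Blocks.Local.isPrime_of_isPModular hMq
  exact h3 (Cfsg.Agent.Lib.Blocks.PrincipalCen.apply_eq_of_mem_core hMq h5 (hPD hx))

end Cfsg.Agent.S4885
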