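import Cfsg.Statements.S4886
import Cfsg.Agent.Lib.Blocks.TPB6

set_option autoImplicit false
open Cfsg

namespace Cfsg.Agent.S4886

/-- Let p ≠ q be primes and G a finite group that is p-solvable and q-solvable. Fix maximal ideals of the algebraic integers containing p and q, defining the principal p-block and the principal q-block. Then every irreducible character of degree prime to p in the principal p-block has degree prime to q and every irreducible character of degree prime to q in the principal q-block has degree prime to p, if and only if some Sylow p-subgroup of G commutes elementwise with some Sylow q-subgroup. -/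
theorem result {G : Type*} [Group G] [Finite G] (p q : ℕ) [Fact p.Prime] [Fact q.Prime] (hpq : p ≠ q) (Mp Mq : Ideal Cfsg.AlgInt) (hMp : Cfsg.IsPModular p Mp) (hMq : Cfsg.IsPModular q Mq) (hps : Cfsg.IsPSolvable p G) (hqs : Cfsg.IsPSolvable q G) : ((∀ χ : Cfsg.IrrCharacter G, χ ∈ Cfsg.principalBlock Mp G → ¬ p ∣ Cfsg.charDegree (χ : G → ℂ) → ¬ q ∣ Cfsg.charDegree (χ : G → ℂ)) ∧ (∀ χ : Cfsg.IrrCharacter G, χ ∈ Cfsg.principalBlock Mq G → ¬ q ∣ Cfsg.charDegree (χ : G → ℂ) → ¬ p ∣ Cfsg.charDegree (χ : G → ℂ))) ↔ ∃ (P : Sylow p G) (Q : Sylow q G), ∀ x ∈ (P : Subgroup G), ∀ y ∈ (Q : Subgroup G), x * y = y * x := by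
  classical
  cases nonempty_fintype G
  open Cfsg.Agent.Lib.Blocks.TPB Cfsg.Agent.Lib.Solvable.PSeries in
  constructor
  · rintro ⟨h1, h2⟩
    exact exists_commuting _ G p q rfl hpq hps hqs (hyp_of_block hMp hps h1) (hyp_of_block hMq hqs h2)
  · rintro ⟨P, Q, hc⟩
    have hPD : (P : Subgroup G) ≤ Cfsg.pPrimeCore q G :=
      le_pPrimeCore_of_commute hqs P (card_coprime_of_isPGroup hpq P.isPGroup') Q hc
    have hQE : (Q : Subgroup G) ≤ Cfsg.pPrimeCore p G :=
      le_pPrimeCore_of_commute hps Q (card_coprime_of_isPGroup hpq.symm Q.isPGroup') P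
        (fun a ha x hx => (hc x hx a ha).symm)
    exact ⟨fun χ hχ _ => not_dvd_of_principal hMp hχ Q hQE, fun χ hχ _ => not_dvd_of_principal hMq hχ P hPD⟩

end Cfsg.Agent.S4886
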