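import Cfsg.Statements.S4888
import Mathlib
import Cfsg.Agent.Lib.Char.B0Height

set_option autoImplicit false
open Cfsg

namespace Cfsg.Agent.S4888

/-- Let G be a finite group, p a prime and M a maximal ideal of the algebraic integers containing p. Then all height-zero irreducible characters of the principal p-block of G (equivalently, all its characters of degree prime to p) have the same degree if and only if G has a normal p-complement. -/
theorem result {G : Type*} [Group G] [Finite G] (p : ℕ) [Fact p.Prime] (M : Ideal Cfsg.AlgInt) (hM : Cfsg.IsPModular p M) : (∃ d : ℕ, ∀ χ : Cfsg.IrrCharacter G, χ ∈ (Cfsg.principalBlock M G) → Cfsg.blockHeight p (Cfsg.principalBlock M G) (χ : G → ℂ) = 0 → Cfsg.charDegree (χ : G → ℂ) = d) ↔ Cfsg.HasNormalPComplement p G := by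
  classical
  letI : Fintype G := Fintype.ofFinite G
  haveI : M.IsPrime := Cfsg.Agent.Lib.Blocks.Local.isPrime_of_isPModular hM
  exact Cfsg.Agent.Lib.Char.B0Height.equal_height_zero_iff p hM

end Cfsg.Agent.S4888
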