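import Cfsg.Statements.S4892
import Mathlib
import Cfsg.Agent.Lib.Char.GoodSect

set_option autoImplicit false
open Cfsg

namespace Cfsg.Agent.S4892

set_option linter.style.haveILetI false
set_option linter.unusedSectionVars false
set_option linter.unusedVariables false

open Cfsg.Agent.Lib.Blocks.Local Cfsg.Agent.Lib.Char.GoodLift Cfsg.Agent.Lib.Char.DetExt
  Cfsg.Agent.Lib.Char.AlpDade Cfsg.Agent.Lib.Blocks.Regular Cfsg.Agent.Lib.Char.Galois
  Cfsg.Agent.Lib.Char.GalFix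

universe u

lemma exists_k_two {p : ℕ} [hp : Fact p.Prime] (hp2 : p ≠ 2) {n₁ : ℕ} (hn₁ : ¬ p ∣ n₁) (c : ℕ) :
    ∃ k : ℕ, 1 ≤ k ∧ k ≡ 1 [MOD n₁] ∧ k.Coprime (p ^ c * n₁) ∧ (k - 1).Coprime p := by
  have hcop : Nat.Coprime p n₁ := (Nat.Prime.coprime_iff_not_dvd hp.out).2 hn₁
  obtain ⟨k, hk2, hk1⟩ := Nat.chineseRemainder hcop 2 1
  have h2p : Nat.Coprime 2 p := by
    rw [Nat.coprime_comm, Nat.Prime.coprime_iff_not_dvd hp.out]
    intro h
    exact hp2 ((Nat.prime_dvd_prime_iff_eq hp.out Nat.prime_two).1 h)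
  have hkp : Nat.Coprime k p := by
    unfold Nat.Coprime
    rw [hk2.gcd_eq]
    exact h2p
  have hkn : Nat.Coprime k n₁ := by
    unfold Nat.Coprime
    rw [hk1.gcd_eq]
    simp
  have hk0 : 1 ≤ k := by
    rcases Nat.eq_zero_or_pos k with h | h
    · subst h
      have := hkp
      simp only [Nat.coprime_zero_left] at this
      exact absurd this hp.out.ne_one
    · exact h
  refine ⟨k, hk0, hk1, Nat.Coprime.mul_right (Nat.Coprime.pow_right c hkp) hkn, ?_⟩
  have h3 : (k - 1) + 1 ≡ 1 + 1 [MOD p] := by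
    rw [Nat.sub_add_cancel hk0]
    exact hk2
  have h4 : k - 1 ≡ 1 [MOD p] := Nat.ModEq.add_right_cancel' 1 h3
  unfold Nat.Coprime
  rw [h4.gcd_eq]
  simp

section Aux

variable {G : Type u} [Group G] [Fintype G] {N : Subgroup G} [hN : N.Normal] [Fintype N] {d : ℕ}
  (ρ : Representation ℂ N (Fin d → ℂ)) [hρ : ρ.IsIrreducible]

lemma twist_character_eq {τ : ℂ →+* ℂ} (h : ∀ n : N, τ (ρ.character n) = ρ.character n) :
    (twist τ ρ).character = ρ.character := by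
  funext n
  rw [character_twist, h]

lemma det_pow_e {p : ℕ} [hp : Fact p.Prime] (hp2 : p ≠ 2) {c e m : ℕ} (hce : Nat.card G = p ^ c * e)
    (he : ¬ p ∣ e) (hd : ¬ p ∣ d) (hm : ¬ p ∣ m)
    (hrat : ∀ n : N, ρ.character n ∈ IntermediateField.adjoin ℚ
      ({Complex.exp (2 * Real.pi * Complex.I / m)} : Set ℂ)) (x : N) :
    detU (MonoidHom.toHomUnits ρ x) ^ e = 1 := by
  have hdvd : ∀ {u v : ℕ}, ¬ p ∣ u → ¬ p ∣ v → ¬ p ∣ u * v := fun h1 h2 h3 =>
    (hp.out.dvd_mul.1 h3).elim h1 h2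
  have hn₁ : ¬ p ∣ e * d * m := hdvd (hdvd he hd) hm
  set n₁ := e * d * m with hn₁def
  obtain ⟨k, hk1, hkm, hkc, hkp⟩ := exists_k_two hp2 hn₁ c
  set n := p ^ c * n₁ with hndef
  have hn0 : 0 < n := by
    rw [hndef]
    refine Nat.mul_pos (pow_pos hp.out.pos c) (Nat.pos_of_ne_zero ?_)
    intro h
    exact hn₁ (h ▸ dvd_zero p)
  obtain ⟨τ, hτ⟩ := exists_ringHom_pow n hn0 k hkc
  have hm0 : m ≠ 0 := fun h => hm (h ▸ dvd_zero p)
  have hmn₁ : m ∣ n₁ := Dvd.intro_left _ rfl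
  have hmn : m ∣ n := hmn₁.trans (Dvd.intro_left _ rfl)
  have hfix : ∀ y : N, τ (ρ.character y) = ρ.character y := fun y =>
    fix_of_modEq τ hτ hm0 hmn (hkm.of_dvd hmn₁) (hrat y)
  have hch := twist_character_eq ρ hfix
  set u : ℂˣ := detU (MonoidHom.toHomUnits ρ x) with hu
  have huval : (u : ℂ) = LinearMap.det (ρ x) := rfl
  have h1 : u ^ Nat.card G = 1 := by
    rw [hu, ← map_pow, ← map_pow]
    have h0 : x ^ Nat.card G = 1 := Subtype.ext pow_card_eq_one'
    rw [h0, map_one, map_one]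
  have h2 : LinearMap.det (twistEnd τ (ρ x)) = (u : ℂ) := by
    have h3 := detChar_character (twist τ ρ) x
    rw [hch, detChar_character] at h3
    exact h3.symm
  rw [det_twistEnd] at h2
  have hGn : Nat.card G ∣ n := by
    rw [hce, hndef, hn₁def]
    exact Nat.mul_dvd_mul_left _ (Dvd.intro (d * m) (by ring))
  have h3 : (u : ℂ) ^ n = 1 := by
    obtain ⟨r, hr⟩ := hGn
    rw [hr, pow_mul, ← Units.val_pow_eq_pow_val, h1]
    simp
  rw [← huval, hτ _ h3] at h2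
  have h4 : u ^ (k - 1) = 1 := by
    have h5 : u ^ (k - 1) * u = 1 * u := by
      rw [← pow_succ, Nat.sub_add_cancel hk1, one_mul]
      exact Units.ext (by simpa using h2)
    exact mul_right_cancel h5
  have h5 : (u ^ e) ^ (p ^ c) = 1 := by
    rw [← pow_mul, mul_comm, ← hce, h1]
  have h6 : (u ^ e) ^ (k - 1) = 1 := by
    rw [← pow_mul, mul_comm, pow_mul, h4, one_pow]
  have h7 := (pow_gcd_eq_one (a := u ^ e) (m := p ^ c) (n := k - 1)).2 ⟨h5, h6⟩
  have h8 : Nat.gcd (p ^ c) (k - 1) = 1 := Nat.Coprime.pow_left c hkp.symm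
  rwa [h8, pow_one] at h7

end Aux

/-- Let p be an odd prime, M a maximal ideal of the algebraic integers containing p, N a normal subgroup of the finite group G, and θ an irreducible character of N that is G-invariant, of degree prime to p, p-rational (values in the field generated over ℚ by a root of unity of order prime to p) and lies in the principal p-block of N. Let Q be a Sylow p-subgroup of N and suppose the index of N·C_G(Q) in G is a power of p. Then θ extends to a p-rational irreducible character of G lying in the principal p-block of G. -/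
theorem result {G : Type*} [Group G] [Finite G] (p : ℕ) [Fact p.Prime] (hp : p ≠ 2) (M : Ideal Cfsg.AlgInt) (hM : Cfsg.IsPModular p M) (N : Subgroup G) [N.Normal] (θ : Cfsg.IrrCharacter ↥N) (hinv : ∀ g : G, ∀ n n' : ↥N, (n' : G) = g * (n : G) * g⁻¹ → (θ : ↥N → ℂ) n' = (θ : ↥N → ℂ) n) (hdeg : ¬ p ∣ Cfsg.charDegree (θ : ↥N → ℂ)) (hrat : ∃ m : ℕ, ¬ p ∣ m ∧ ∀ n : ↥N, (θ : ↥N → ℂ) n ∈ IntermediateField.adjoin ℚ ({Complex.exp (2 * Real.pi * Complex.I / m)} : Set ℂ)) (hB : θ ∈ Cfsg.principalBlock M ↥N) (Q : Sylow p ↥N) (hidx : ∃ a : ℕ, (N ⊔ Subgroup.centralizer (((Q : Subgroup ↥N).map N.subtype : Subgroup G) : Set G)).index = p ^ a) : ∃ χ : Cfsg.IrrCharacter G, χ ∈ (Cfsg.principalBlock M G) ∧ (∃ n : ℕ, ¬ p ∣ n ∧ ∀ g : G, (χ : G → ℂ) g ∈ IntermediateField.adjoin ℚ ({Complex.exp (2 * Real.pi * Complex.I / n)} : Set ℂ)) ∧ ∀ n : ↥N, (χ : G → ℂ) n = (θ : ↥N → ℂ) n := by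
  classical
  haveI := Fintype.ofFinite G
  haveI : Fintype N := Fintype.ofFinite N
  haveI hMp : M.IsPrime := isPrime_of_isPModular hM
  obtain ⟨d, ρ, hρ, hρχ⟩ := θ.2
  have hρθ : (θ : N → ℂ) = ρ.character := hρχ.symm
  have hd : ¬ p ∣ d := by
    have h1 : Cfsg.charDegree (θ : N → ℂ) = d := by
      rw [Cfsg.charDegree, hρθ, ρ.char_one]
      simp
    rwa [h1] at hdeg
  have hinv' : ∀ (g : G) (n : N), ρ.character ⟨g * n * g⁻¹, ‹N.Normal›.conj_mem (n : G) n.2 g⟩ = ρ.character n := by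
    intro g n
    rw [← hρθ]
    exact hinv g n _ rfl
  obtain ⟨a, ha⟩ := hidx
  have hcnt : ∀ y : G, ¬ p ∣ orderOf y → ¬ p ∣ cnt p N (y : G ⧸ N) := fun y hy => not_dvd_cnt Q ha hy
  have hregJ : ∀ y : G, ¬ p ∣ orderOf y → y ∈ JJ M N := fun y hy => mem_JJ_of_cnt hM (hcnt y hy)
  obtain ⟨c, e, he, hce⟩ := Nat.exists_eq_pow_mul_and_not_dvd (Nat.card_pos (α := G)).ne' p
    (Fact.out : p.Prime).ne_one
  obtain ⟨m, hm, hrat'⟩ := hrat
  have hrat'' : ∀ n : N, ρ.character n ∈ IntermediateField.adjoin ℚ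
      ({Complex.exp (2 * Real.pi * Complex.I / m)} : Set ℂ) := by
    intro n
    rw [← hρθ]
    exact hrat' n
  have hdetN := det_pow_e ρ hp hce he hd hm hrat''
  obtain ⟨R, hR, hRN⟩ := exists_rep_J ρ θ hρθ hB hM hinv' hce he hd hdetN
  -- the representation of `J`
  let ρJ : Representation ℂ (JJ M N) (Fin d → ℂ) := (Units.coeHom (EE d)).comp R
  have hρJ : ∀ g, ρJ g = ((R g : (EE d)ˣ) : EE d) := fun _ => rfl
  have hcompJ : ρJ.comp (Subgroup.inclusion (le_JJ (M := M) (N := N))) = ρ := by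
    ext n : 1
    show ((R ⟨(n : G), le_JJ n.2⟩ : (EE d)ˣ) : EE d) = ρ n
    rw [hRN]
    rfl
  haveI hirrJ' : Representation.IsIrreducible (ρJ.comp (Subgroup.inclusion (le_JJ (M := M) (N := N)))) := by
    rw [hcompJ]
    exact hρ
  haveI hirrJ : ρJ.IsIrreducible :=
    Cfsg.Agent.Lib.Char.CyclicExt.isIrreducible_of_comp ρJ (Subgroup.inclusion (le_JJ (M := M) (N := N)))
  have hχJ : Cfsg.IsIrrCharacter (JJ M N) ρJ.character := ⟨d, ρJ, hirrJ, rfl⟩
  have hconj : ∀ (h : G), ∃ U : (EE d)ˣ, ∀ g : JJ M N,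
      R ⟨h * g * h⁻¹, (normal_JJ (M := M) (N := N)).conj_mem g g.2 h⟩ = U * R g * U⁻¹ := by
    intro h
    obtain ⟨U, hU, -⟩ := exists_det_one_pair ρ hinv' h
    exact ⟨U, fun g => rep_J_conj ρ θ hρθ hB hM he hd R hR hU g⟩
  have hinvJ : ∀ (h : G) (g : JJ M N),
      ρJ.character ⟨h * g * h⁻¹, (normal_JJ (M := M) (N := N)).conj_mem g g.2 h⟩ = ρJ.character g := by
    intro h g
    obtain ⟨U, hU⟩ := hconj h
    show LinearMap.trace ℂ _ (ρJ _) = LinearMap.trace ℂ _ (ρJ _)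
    rw [hρJ, hρJ, hU, Units.val_mul, Units.val_mul, LinearMap.trace_mul_comm, ← mul_assoc]
    have h3 : ((U⁻¹ : (EE d)ˣ) : EE d) * (U : EE d) = 1 := Units.inv_mul U
    rw [h3, one_mul]
  obtain ⟨b, hb⟩ := index_eq_pow_of_regular (p := p) (JJ M N) hregJ
  have hcopd : Nat.Coprime (JJ M N).index d := by
    rw [hb]
    exact Nat.Coprime.pow_left b ((Nat.Prime.coprime_iff_not_dvd Fact.out).2 hd)
  let l : JJ M N →* ℂˣ := detU.comp R
  have hle : ∀ g, l g ^ e = 1 := fun g => (hR g).2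
  have hlinv : ∀ (h : G) (g : JJ M N), l ⟨h * g * h⁻¹, (normal_JJ (M := M) (N := N)).conj_mem g g.2 h⟩ = l g := by
    intro h g
    obtain ⟨U, hU⟩ := hconj h
    show detU (R _) = detU (R _)
    rw [hU, map_mul, map_mul, map_inv, mul_comm (detU U), mul_inv_cancel_right]
  have hlord : orderOf l ∣ e := by
    refine orderOf_dvd_of_pow_eq_one ?_
    ext g
    simp [hle]
  have hlcop : Nat.Coprime (orderOf l) (JJ M N).index := by
    rw [hb]
    refine Nat.Coprime.coprime_dvd_left hlord (Nat.Coprime.pow_right b ?_)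
    exact ((Nat.Prime.coprime_iff_not_dvd Fact.out).2 he).symm
  obtain ⟨μ, hμ, hμo⟩ := Cfsg.Agent.Lib.Char.DetExt2.exists_ext_hom (JJ M N) l hlinv hlcop
  have hμe : ∀ g, μ g ^ e = 1 := by
    intro g
    have h0 : orderOf μ ∣ e := by
      rw [hμo]
      exact hlord
    have h1 : μ ^ e = 1 := orderOf_dvd_iff_pow_eq_one.1 h0
    have h2 := congrArg (fun F : G →* ℂˣ => F g) h1
    simpa using h2
  let μ' : G → ℂ := fun g => ((μ g : ℂˣ) : ℂ)
  have hμ' : Cfsg.IsCharacter G μ' ∧ μ' 1 = 1 :=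
    ⟨Cfsg.Agent.Lib.Char.Basic.isCharacter_of_isIrrCharacter
      (Cfsg.Agent.Lib.Char.LinearChars.isIrr_of_hom μ), by simp [μ']⟩
  have hμN : ∀ n : JJ M N, μ' n = Cfsg.detChar ρJ.character n := by
    intro n
    rw [detChar_character, hρJ]
    show ((μ n : ℂˣ) : ℂ) = _
    rw [hμ n]
    rfl
  have hdone : ρJ.character 1 = d := by
    rw [ρJ.char_one]
    simp
  have hext1 := (extends_iff_det_extends (JJ M N) ρJ.character hχJ hinvJ d hdone hcopd).2
    ⟨μ', hμ'.1, hμ'.2, hμN⟩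
  obtain ⟨X, ⟨hX, hXJ, hXdet⟩, hXuniq⟩ := Cfsg.Agent.Lib.Char.DetExt2.existsUnique_ext_det (JJ M N)
    ρJ.character hχJ d hdone hcopd hext1 μ' hμ' hμN
  -- the block
  let T' : G → (EE d)ˣ := fun g => if h : g ∈ JJ M N then R ⟨g, h⟩ else 1
  have hT' : ∀ (g : G) (h : g ∈ JJ M N), T' g = R ⟨g, h⟩ := fun g h => dif_pos h
  have hχJval : ∀ n : N, ρJ.character ⟨(n : G), le_JJ n.2⟩ = ρ.character n := by
    intro n
    show LinearMap.trace ℂ _ (((R ⟨(n : G), le_JJ n.2⟩ : (EE d)ˣ) : EE d)) = _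
    rw [hRN]
    rfl
  have hblock : (⟨X, hX⟩ : Cfsg.IrrCharacter G) ∈ Cfsg.principalBlock M G := by
    refine mem_principal_top ρ hM hcnt T' ?_ ?_ _ ?_ ?_
    · intro y hy
      rw [hT' y (hregJ y hy)]
      exact (hR ⟨y, hregJ y hy⟩).1
    · intro y y' hy hy' h
      rw [hT' y (hregJ y hy), hT' y' (hregJ y' hy')]
      have h1 : (⟨y', hregJ y' hy'⟩ : JJ M N) = ⟨y' * y⁻¹, le_JJ h⟩ * ⟨y, hregJ y hy⟩ :=
        Subtype.ext (by simp)
      rw [h1, map_mul, Units.val_mul, hRN ⟨y' * y⁻¹, h⟩]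
      rfl
    · intro y hy
      rw [hT' y (hregJ y hy)]
      exact hXJ ⟨y, hregJ y hy⟩
    · have h1 := hXJ 1
      simp only [Subgroup.coe_one] at h1
      show X 1 = d
      rw [h1, hdone]
  refine ⟨⟨X, hX⟩, hblock, ?_, ?_⟩
  · -- rationality
    have hdvd : ∀ {u v : ℕ}, ¬ p ∣ u → ¬ p ∣ v → ¬ p ∣ u * v := fun h1 h2 h3 =>
      ((Fact.out : p.Prime).dvd_mul.1 h3).elim h1 h2
    have hn₁ : ¬ p ∣ e * d * m := hdvd (hdvd he hd) hm
    set n₁ := e * d * m with hn₁def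
    have hn₁0 : n₁ ≠ 0 := fun h => hn₁ (h ▸ dvd_zero p)
    set n := p ^ c * n₁ with hndef
    have hn0 : 0 < n := Nat.mul_pos (pow_pos (Fact.out : p.Prime).pos c) (Nat.pos_of_ne_zero hn₁0)
    have hGn : Nat.card G ∣ n := by
      rw [hce, hndef, hn₁def]
      exact Nat.mul_dvd_mul_left _ (Dvd.intro (d * m) (by ring))
    -- the main Galois invariance
    have hkey : ∀ k : ℕ, 1 ≤ k → k.Coprime n → k ≡ 1 [MOD n₁] → ∀ g : G, X (g ^ k) = X g := by
      intro k hk1 hkc hkm g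
      obtain ⟨τ, hτ⟩ := exists_ringHom_pow n hn0 k hkc
      have hm0 : m ≠ 0 := fun h => hm (h ▸ dvd_zero p)
      have hmn₁ : m ∣ n₁ := Dvd.intro_left _ rfl
      have hmn : m ∣ n := hmn₁.trans (Dvd.intro_left _ rfl)
      have hfix : ∀ y : N, τ (ρ.character y) = ρ.character y := fun y =>
        fix_of_modEq τ hτ hm0 hmn (hkm.of_dvd hmn₁) (hrat'' y)
      have hch := twist_character_eq ρ hfix
      haveI hirrt : (twist τ ρ).IsIrreducible := isIrreducible_twist τ ρ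
      obtain ⟨E⟩ := Cfsg.Agent.Lib.Char.CyclicExt.nonempty_equiv_of_character_eq (twist τ ρ) ρ hch
      let W : (EE d)ˣ := LinearMap.GeneralLinearGroup.ofLinearEquiv E.toLinearEquiv
      have hW : ∀ n : N, (W : EE d) * twistEnd τ (ρ n) = ρ n * (W : EE d) := by
        intro n
        apply LinearMap.ext
        intro v
        exact Representation.IntertwiningMap.isIntertwining _ _ E.toIntertwiningMap n v
      have hek : e ∣ k - 1 := by
        have h1 : n₁ ∣ k - 1 := (Nat.modEq_iff_dvd' hk1).1 hkm.symm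
        exact (Dvd.intro (d * m) (by rw [hn₁def]; ring)).trans h1
      have hfixR : ∀ g : JJ M N, W * twU τ (R g) * W⁻¹ = R g := fun g =>
        rep_J_twist ρ hW θ hρθ hB hM hce he hd hk1 hek hGn hτ R hR hRN g
      have hχJτ : ∀ g : JJ M N, τ (ρJ.character g) = ρJ.character g := by
        intro g
        show τ (LinearMap.trace ℂ _ (ρJ g)) = LinearMap.trace ℂ _ (ρJ g)
        rw [← trace_twistEnd, hρJ]
        conv_rhs => rw [← hfixR g]
        rw [Units.val_mul, Units.val_mul, LinearMap.trace_mul_comm, ← mul_assoc]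
        have h3 : ((W⁻¹ : (EE d)ˣ) : EE d) * (W : EE d) = 1 := Units.inv_mul W
        rw [h3, one_mul]
        rfl
      obtain ⟨d', ρX, hρX, rfl⟩ := hX
      have hgn : g ^ n = 1 := by
        obtain ⟨r, hr⟩ := hGn
        rw [hr, pow_mul, pow_card_eq_one', one_pow]
      have hX' : Cfsg.IsIrrCharacter G (twist τ ρX).character := ⟨d', twist τ ρX, isIrreducible_twist τ ρX, rfl⟩
      have hX'J : ∀ y : JJ M N, (twist τ ρX).character y = ρJ.character y := by
        intro y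
        rw [character_twist, hXJ y, hχJτ]
      have hX'det : Cfsg.detChar (twist τ ρX).character = μ' := by
        funext y
        rw [detChar_character]
        have h1 : LinearMap.det (twist τ ρX y) = τ (LinearMap.det (ρX y)) := det_twistEnd τ _
        rw [h1, ← detChar_character ρX y, hXdet]
        show τ ((μ y : ℂˣ) : ℂ) = ((μ y : ℂˣ) : ℂ)
        have h2 : ((μ y : ℂˣ) : ℂ) ^ Nat.card G = 1 := by
          rw [← Units.val_pow_eq_pow_val, ← map_pow, pow_card_eq_one', map_one, Units.val_one]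
        have h3 : ((μ y : ℂˣ) : ℂ) ^ n = 1 := by
          obtain ⟨r, hr⟩ := hGn
          rw [hr, pow_mul, h2, one_pow]
        rw [hτ _ h3]
        have h4 : ((μ y : ℂˣ) : ℂ) ^ (k - 1) = 1 := by
          obtain ⟨r, hr⟩ := hek
          rw [hr, pow_mul, ← Units.val_pow_eq_pow_val, hμe y, Units.val_one, one_pow]
        calc ((μ y : ℂˣ) : ℂ) ^ k = ((μ y : ℂˣ) : ℂ) ^ (k - 1) * ((μ y : ℂˣ) : ℂ) := by
              rw [← pow_succ, Nat.sub_add_cancel hk1]
          _ = _ := by rw [h4, one_mul]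
      have h5 := hXuniq _ ⟨hX', hX'J, hX'det⟩
      have h6 := map_character τ hn0 hτ ρX g hgn
      rw [← h6, ← character_twist, h5]
    refine ⟨n₁, hn₁, fun g => ?_⟩
    obtain ⟨d', ρX, hρX, hXρ⟩ := hX
    obtain ⟨ι, hι, z, hz1, hz2⟩ := character_eigen ρX g (Nat.card_pos (α := G)) pow_card_eq_one'
    have h1 : X g = ∑ i, z i := by
      have h2 := hz2 1
      simp only [pow_one] at h2
      rw [← hXρ]
      exact h2
    show X g ∈ _
    rw [h1]
    haveI : NeZero n := ⟨hn0.ne'⟩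
    refine mem_adjoin_of_fixed n n₁ (Dvd.intro_left _ rfl) hn₁0 z (fun i => ?_) fun k hk1 hkc hkm => ?_
    · obtain ⟨r, hr⟩ := hGn
      rw [hr, pow_mul, hz1, one_pow]
    · rw [← hz2 k, ← h1, hXρ]
      exact hkey k hk1 hkc hkm g
  · intro n
    rw [hρθ, ← hχJval n]
    exact hXJ ⟨(n : G), le_JJ n.2⟩

end Cfsg.Agent.S4892
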