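import Cfsg.Statements.S4911
import Mathlib
import Cfsg.Agent.Lib.Char.RealCount
import Cfsg.Agent.Lib.Char.GlaubSolv

set_option autoImplicit false
set_option linter.style.haveILetI false
open Cfsg

namespace Cfsg.Agent.S4911

open Cfsg.Agent.Lib.Char.RealCount Cfsg.Agent.Lib.Char.GlaubRel Cfsg.Agent.Lib.Char.GlaubP
open Cfsg.Agent.Lib.Char.GlaubSolv
open scoped ComplexConjugate

/-- Complex conjugate of an irreducible character. -/
noncomputable def conjIrr {C : Type*} [Group C] [Fintype C] (β : IrrCharacter C) : IrrCharacter C :=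
  ⟨fun g => conj ((β : C → ℂ) g), Cfsg.Agent.Lib.Char.IndNormal.isIrrCharacter_conj β.2⟩

theorem conjIrr_conjIrr {C : Type*} [Group C] [Fintype C] (β : IrrCharacter C) :
    conjIrr (conjIrr β) = β := by
  apply Subtype.ext
  funext g
  simp [conjIrr]

theorem conjIrr_eq_iff {C : Type*} [Group C] [Fintype C] (β : IrrCharacter C) :
    conjIrr β = β ↔ ∀ k : C, ((β : C → ℂ) k).im = 0 := by
  constructor
  · intro h k
    have h1 : conj ((β : C → ℂ) k) = (β : C → ℂ) k :=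
      congrFun (congrArg Subtype.val h) k
    exact Complex.conj_eq_iff_im.1 h1
  · intro h
    apply Subtype.ext
    funext k
    exact Complex.conj_eq_iff_im.2 (h k)

theorem prel_conj {C : Type*} [Group C] [Fintype C] {p : ℕ} {f : C → ℂ} {β : IrrCharacter C}
    (h : PRel p f β) : PRel p (fun g => conj (f g)) (conjIrr β) := by
  obtain ⟨ε, hε, H⟩ := h
  refine ⟨ε, hε, fun β' => ?_⟩
  obtain ⟨m, h1, h2⟩ := H (conjIrr β')
  refine ⟨m, ?_, ?_⟩
  · have h3 := congrArg conj h1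
    rw [Complex.conj_natCast] at h3
    rw [← h3]
    simp only [classInner, conjIrr, map_mul, map_sum, map_inv₀, Complex.conj_natCast,
      Complex.conj_conj]
  · have : (β' = conjIrr β) ↔ (conjIrr β' = β) := by
      constructor
      · rintro rfl
        exact conjIrr_conjIrr β
      · rintro rfl
        exact (conjIrr_conjIrr β').symm
    simp only [this]
    exact h2

theorem real_iff {K : Type*} [Group K] (x : K) :
    (∀ k : K, ConjClasses.mk k = ConjClasses.mk x → IsConj k k⁻¹) ↔ IsConj x x⁻¹ := by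
  refine ⟨fun h => h x rfl, fun h k hk => ?_⟩
  have h1 : IsConj k x := ConjClasses.mk_eq_mk_iff_isConj.1 hk
  have h2 : IsConj k⁻¹ x⁻¹ := by
    obtain ⟨y, hy⟩ := isConj_iff.1 h1
    refine isConj_iff.2 ⟨y, ?_⟩
    rw [← hy]
    group
  exact (h1.trans h).trans h2.symm


/-- Let P and K be subgroups of a finite group with P a p-group normalizing K and K of order prime to p. Then the number of P-invariant real-valued irreducible complex characters of K equals the number of conjugacy classes of K that are real (closed under inversion) and P-invariant. Moreover, if every real-valued irreducible character of K is P-invariant, then every real element of K (one conjugate in K to its inverse) is conjugate in K to an element centralized by P. -/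
theorem result {G : Type*} [Group G] [Finite G] (p : ℕ) [Fact p.Prime] (P K : Subgroup G) (hP : IsPGroup p ↥P) (hK : ¬ p ∣ Nat.card ↥K) (hPK : P ≤ Subgroup.normalizer (K : Set G)) : Nat.card {θ : Cfsg.IrrCharacter ↥K // (∀ k : ↥K, ((θ : ↥K → ℂ) k).im = 0) ∧ (∀ x ∈ P, ∀ k k' : ↥K, (k' : G) = x * (k : G) * x⁻¹ → (θ : ↥K → ℂ) k' = (θ : ↥K → ℂ) k)} = Nat.card {c : ConjClasses ↥K // (∀ k : ↥K, ConjClasses.mk k = c → IsConj k k⁻¹) ∧ ∀ k : ↥K, ConjClasses.mk k = c → ∀ x ∈ P, ∀ k' : ↥K, (k' : G) = x * (k : G) * x⁻¹ → ConjClasses.mk k' = c} ∧ ((∀ θ : Cfsg.IrrCharacter ↥K, (∀ k : ↥K, ((θ : ↥K → ℂ) k).im = 0) → (∀ x ∈ P, ∀ k k' : ↥K, (k' : G) = x * (k : G) * x⁻¹ → (θ : ↥K → ℂ) k' = (θ : ↥K → ℂ) k)) → ∀ k : ↥K, IsConj k k⁻¹ → ∃ k' : ↥K, IsConj k k' ∧ ∀ x ∈ P, x * (k' : G) * x⁻¹ = (k' : G)) := by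
  classical
  haveI hp : Fact p.Prime := inferInstance
  haveI : Fintype G := Fintype.ofFinite G
  haveI : Fintype K := Fintype.ofFinite K
  haveI : Fintype P := Fintype.ofFinite P
  set C₀ : Subgroup G := K ⊓ Subgroup.centralizer (P : Set G) with hC₀
  haveI : Fintype C₀ := Fintype.ofFinite C₀
  have hnorm : ∀ s ∈ P, ∀ g ∈ K, s * g * s⁻¹ ∈ K := Subgroup.le_normalizer_iff.1 hPK
  have hcop : (Nat.card K).Coprime (Nat.card P) := by
    obtain ⟨n, hn⟩ := IsPGroup.iff_card.1 hP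
    rw [hn]
    exact Nat.Coprime.pow_right _ (((Nat.Prime.coprime_iff_not_dvd hp.out).2 hK).symm)
  have hsolv : Group.IsSolvable P := by
    haveI := hP.isNilpotent
    infer_instance
  have hCG : C₀ ≤ K := inf_le_left
  obtain ⟨c1, c2, c3⟩ := corr hp.out _ P rfl hP K C₀ hnorm hcop hC₀ hCG
  -- part A: real invariant characters
  have hinv_conj : ∀ χ : IrrCharacter K, SInv P (χ : K → ℂ) → SInv P (conjIrr χ : K → ℂ) := by
    intro χ hχ x hx k k' hk
    show conj _ = conj _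
    rw [hχ x hx k k' hk]
  have hres_conj : ∀ χ : IrrCharacter K, resC hCG (conjIrr χ : K → ℂ) =
      fun c => conj (resC hCG (χ : K → ℂ) c) := fun χ => rfl
  have hA : Nat.card {θ : IrrCharacter K // (∀ k : K, ((θ : K → ℂ) k).im = 0) ∧
      (∀ x ∈ P, ∀ k k' : K, (k' : G) = x * (k : G) * x⁻¹ → (θ : K → ℂ) k' = (θ : K → ℂ) k)} =
      Nat.card {β : IrrCharacter C₀ // ∀ k : C₀, ((β : C₀ → ℂ) k).im = 0} := by
    have hmap : ∀ θ : {θ : IrrCharacter K // (∀ k : K, ((θ : K → ℂ) k).im = 0) ∧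
        (∀ x ∈ P, ∀ k k' : K, (k' : G) = x * (k : G) * x⁻¹ → (θ : K → ℂ) k' = (θ : K → ℂ) k)},
        ∃ β : {β : IrrCharacter C₀ // ∀ k : C₀, ((β : C₀ → ℂ) k).im = 0},
          PRel p (resC hCG (θ.1 : K → ℂ)) β.1 := by
      intro θ
      obtain ⟨β, hβ⟩ := c1 θ.1 θ.2.2
      have h1 := prel_conj hβ
      have h2 : (fun g => conj (resC hCG (θ.1 : K → ℂ) g)) = resC hCG (θ.1 : K → ℂ) := by
        funext g
        exact Complex.conj_eq_iff_im.2 (θ.2.1 _)
      rw [h2] at h1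
      have h3 := hβ.unique hp.out h1
      exact ⟨⟨β, (conjIrr_eq_iff β).1 h3⟩, hβ⟩
    choose f hf using hmap
    refine Nat.card_congr (Equiv.ofBijective f ⟨?_, ?_⟩)
    · intro θ θ' h
      apply Subtype.ext
      refine c2 _ _ θ.2.2 θ'.2.2 (f θ).1 (hf θ) ?_
      rw [h]
      exact hf θ'
    · intro β
      obtain ⟨χ, hχ, hχβ⟩ := c3 β.1
      have h1 := prel_conj hχβ
      rw [(conjIrr_eq_iff β.1).2 β.2, ← hres_conj] at h1
      have h2 : χ = conjIrr χ := c2 _ _ hχ (hinv_conj χ hχ) β.1 hχβ h1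
      have hreal : ∀ k : K, ((χ : K → ℂ) k).im = 0 := (conjIrr_eq_iff χ).1 h2.symm
      refine ⟨⟨χ, hreal, hχ⟩, ?_⟩
      apply Subtype.ext
      exact hχβ.unique hp.out (hf ⟨χ, hreal, hχ⟩)
  -- part B: classes
  let i : C₀ →* K := Subgroup.inclusion hCG
  have hCc : ∀ c : C₀, ∀ s ∈ P, s * (c : G) = (c : G) * s := by
    intro c s hs
    have h1 := (Subgroup.mem_inf.1 c.2).2
    rw [Subgroup.mem_centralizer_iff] at h1
    exact h1 s hs
  have hfix : ∀ c : C₀, ∀ s ∈ P, ∀ g g' : K, (g' : G) = s * g * s⁻¹ →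
      ConjClasses.mk g = ConjClasses.mk (i c) → ConjClasses.mk g' = ConjClasses.mk (i c) := by
    intro c s hs g g' hg h
    rw [ConjClasses.mk_eq_mk_iff_isConj, isConj_comm, isConj_iff] at h ⊢
    obtain ⟨x, hx⟩ := h
    refine ⟨⟨s * x * s⁻¹, hnorm s hs x x.2⟩, ?_⟩
    apply Subtype.ext
    have hx' : (x : G) * c * (x : G)⁻¹ = g := congrArg Subtype.val hx
    show s * (x : G) * s⁻¹ * c * (s * (x : G) * s⁻¹)⁻¹ = g'
    rw [hg, ← hx']
    have hsc : s⁻¹ * c = c * s⁻¹ := by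
      have h1 := hCc c s hs
      calc s⁻¹ * c = s⁻¹ * (c * s) * s⁻¹ := by group
        _ = s⁻¹ * (s * c) * s⁻¹ := by rw [h1]
        _ = c * s⁻¹ := by group
    calc s * (x : G) * s⁻¹ * c * (s * (x : G) * s⁻¹)⁻¹
        = s * (x : G) * (s⁻¹ * c) * s * (x : G)⁻¹ * s⁻¹ := by group
      _ = s * (x : G) * (c * s⁻¹) * s * (x : G)⁻¹ * s⁻¹ := by rw [hsc]
      _ = s * ((x : G) * c * (x : G)⁻¹) * s⁻¹ := by group
  -- a fixed class contains a fixed element
  have hex : ∀ c : ConjClasses K, (∀ s ∈ P, ∀ g g' : K, (g' : G) = s * g * s⁻¹ →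
      ConjClasses.mk g = c → ConjClasses.mk g' = c) → ∃ c₀ : C₀, ConjClasses.mk (i c₀) = c := by
    intro c hc
    obtain ⟨g₀, rfl⟩ := ConjClasses.mk_surjective c
    let X : Set G := {x | ∃ h : x ∈ K, ConjClasses.mk (⟨x, h⟩ : K) = ConjClasses.mk g₀}
    obtain ⟨x, ⟨hxK, hx⟩, hxs⟩ := exists_fixed_of_transitive hnorm hcop hsolv X
      ⟨g₀, g₀.2, rfl⟩
      (by
        rintro g hg x ⟨hxK, hx⟩
        refine ⟨K.mul_mem (K.mul_mem hg hxK) (K.inv_mem hg), ?_⟩
        rw [← hx, ConjClasses.mk_eq_mk_iff_isConj, isConj_comm, isConj_iff]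
        exact ⟨⟨g, hg⟩, rfl⟩)
      (by
        rintro s hs x ⟨hxK, hx⟩
        refine ⟨hnorm s hs x hxK, ?_⟩
        exact hc s hs ⟨x, hxK⟩ ⟨s * x * s⁻¹, hnorm s hs x hxK⟩ rfl hx)
      (by
        rintro x ⟨hxK, hx⟩ y ⟨hyK, hy⟩
        rw [← hy, ConjClasses.mk_eq_mk_iff_isConj, isConj_iff] at hx
        obtain ⟨g, hg⟩ := hx
        exact ⟨g, g.2, congrArg Subtype.val hg⟩)
    refine ⟨⟨x, ?_⟩, hx⟩
    refine Subgroup.mem_inf.2 ⟨hxK, ?_⟩
    rw [Subgroup.mem_centralizer_iff]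
    exact fun s hs => hxs s hs
  -- the bijection on classes
  let A := {c : ConjClasses K // ∀ s ∈ P, ∀ g g' : K, (g' : G) = s * g * s⁻¹ →
      ConjClasses.mk g = c → ConjClasses.mk g' = c}
  let F₀ : ConjClasses C₀ → A := fun c =>
    ⟨ConjClasses.map i c, by
      obtain ⟨c, rfl⟩ := ConjClasses.mk_surjective c
      exact hfix c⟩
  have hF₀s : Function.Surjective F₀ := by
    intro a
    obtain ⟨c₀, h⟩ := hex a.1 a.2
    exact ⟨ConjClasses.mk c₀, Subtype.ext h⟩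
  have hF₀i : Function.Injective F₀ :=
    (hF₀s.bijective_of_nat_card_le
      (card_fixed_classes hnorm hcop hsolv hC₀).ge).1
  have hreal : ∀ c : C₀, IsConj (i c) (i c)⁻¹ ↔ IsConj c c⁻¹ := by
    intro c
    constructor
    · intro h
      have h1 : F₀ (ConjClasses.mk c) = F₀ (ConjClasses.mk c⁻¹) := by
        apply Subtype.ext
        show ConjClasses.mk (i c) = ConjClasses.mk (i c⁻¹)
        rw [map_inv]
        exact ConjClasses.mk_eq_mk_iff_isConj.2 h
      exact ConjClasses.mk_eq_mk_iff_isConj.1 (hF₀i h1)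
    · intro h
      obtain ⟨y, hy⟩ := isConj_iff.1 h
      refine isConj_iff.2 ⟨i y, ?_⟩
      have h1 := congrArg i hy
      simpa only [map_mul, map_inv] using h1
  have hB : Nat.card {c : ConjClasses C₀ // ∀ k : C₀, ConjClasses.mk k = c → IsConj k k⁻¹} =
      Nat.card {c : ConjClasses K // (∀ k : K, ConjClasses.mk k = c → IsConj k k⁻¹) ∧
        ∀ k : K, ConjClasses.mk k = c → ∀ x ∈ P, ∀ k' : K, (k' : G) = x * (k : G) * x⁻¹ →
          ConjClasses.mk k' = c} := by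
    let g : {c : ConjClasses C₀ // ∀ k : C₀, ConjClasses.mk k = c → IsConj k k⁻¹} →
        {c : ConjClasses K // (∀ k : K, ConjClasses.mk k = c → IsConj k k⁻¹) ∧
        ∀ k : K, ConjClasses.mk k = c → ∀ x ∈ P, ∀ k' : K, (k' : G) = x * (k : G) * x⁻¹ →
          ConjClasses.mk k' = c} := fun c => ⟨(F₀ c.1).1, by
        obtain ⟨c, hc⟩ := c
        obtain ⟨c, rfl⟩ := ConjClasses.mk_surjective c
        refine ⟨?_, ?_⟩
        · have h1 : IsConj c c⁻¹ := (real_iff c).1 hc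
          exact (real_iff (i c)).2 ((hreal c).2 h1)
        · intro k hk x hx k' hk'
          exact (F₀ (ConjClasses.mk c)).2 x hx k k' hk' hk⟩
    refine Nat.card_congr (Equiv.ofBijective g ⟨?_, ?_⟩)
    · intro c c' h
      apply Subtype.ext
      apply hF₀i
      apply Subtype.ext
      have h1 : ((g c).1 : ConjClasses K) = (g c').1 := congrArg Subtype.val h
      exact h1
    · rintro ⟨c, hc1, hc2⟩
      obtain ⟨c₀, rfl⟩ := hex c (fun s hs g g' hg' hg => hc2 g hg s hs g' hg')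
      refine ⟨⟨ConjClasses.mk c₀, ?_⟩, ?_⟩
      · exact (real_iff c₀).2 ((hreal c₀).1 ((real_iff (i c₀)).1 hc1))
      · exact Subtype.ext rfl
  have hMain : Nat.card {θ : IrrCharacter K // (∀ k : K, ((θ : K → ℂ) k).im = 0) ∧
      (∀ x ∈ P, ∀ k k' : K, (k' : G) = x * (k : G) * x⁻¹ → (θ : K → ℂ) k' = (θ : K → ℂ) k)} =
      Nat.card {c : ConjClasses K // (∀ k : K, ConjClasses.mk k = c → IsConj k k⁻¹) ∧
        ∀ k : K, ConjClasses.mk k = c → ∀ x ∈ P, ∀ k' : K, (k' : G) = x * (k : G) * x⁻¹ →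
          ConjClasses.mk k' = c} := by
    rw [hA, card_real_irr, hB]
  refine ⟨hMain, ?_⟩
  intro H k hk
  -- every real class is invariant
  have h1 : Nat.card {θ : IrrCharacter K // ∀ k : K, ((θ : K → ℂ) k).im = 0} =
      Nat.card {θ : IrrCharacter K // (∀ k : K, ((θ : K → ℂ) k).im = 0) ∧
      (∀ x ∈ P, ∀ k k' : K, (k' : G) = x * (k : G) * x⁻¹ → (θ : K → ℂ) k' = (θ : K → ℂ) k)} :=
    Nat.card_congr (Equiv.subtypeEquivRight fun θ =>
      ⟨fun h => ⟨h, H θ h⟩, fun h => h.1⟩)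
  rw [card_real_irr, hMain] at h1
  let e : {c : ConjClasses K // (∀ k : K, ConjClasses.mk k = c → IsConj k k⁻¹) ∧
        ∀ k : K, ConjClasses.mk k = c → ∀ x ∈ P, ∀ k' : K, (k' : G) = x * (k : G) * x⁻¹ →
          ConjClasses.mk k' = c} →
      {c : ConjClasses K // ∀ k : K, ConjClasses.mk k = c → IsConj k k⁻¹} :=
    fun c => ⟨c.1, c.2.1⟩
  have he : Function.Bijective e := by
    refine Function.Injective.bijective_of_nat_card_le ?_ h1.le
    intro a b h
    have h2 : (e a).1 = (e b).1 := congrArg Subtype.val h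
    exact Subtype.ext h2
  obtain ⟨⟨c, hc1, hc2⟩, hc⟩ := he.2 ⟨ConjClasses.mk k, (real_iff k).2 hk⟩
  have hc' : c = ConjClasses.mk k := congrArg Subtype.val hc
  subst hc'
  obtain ⟨c₀, hc₀⟩ := hex _ (fun s hs g g' hg' hg => hc2 g hg s hs g' hg')
  refine ⟨i c₀, ConjClasses.mk_eq_mk_iff_isConj.1 hc₀.symm, ?_⟩
  intro x hx
  show x * (c₀ : G) * x⁻¹ = c₀
  rw [hCc c₀ x hx]
  group

end Cfsg.Agent.S4911
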