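import Cfsg.Statements.S4914
import Mathlib
import Cfsg.Agent.Lib.Char.DGNMain

set_option autoImplicit false
set_option linter.style.haveILetI false
open Cfsg

namespace Cfsg.Agent.S4914

open Cfsg.Agent.Lib.Char.DGNMain Cfsg.Agent.Lib.Char.DGNCyc Cfsg.Agent.Lib.Char.GlaubP
open scoped ComplexConjugate

/-- Let P and K be subgroups of a finite group G with P a p-group normalizing K, and suppose K has a normal Sylow p-subgroup Q. Let C be the subgroup of those k ∈ K whose commutator with every element of P lies in Q (so that C/Q is the fixed-point subgroup of P on K/Q). Then there is a bijection f from the P-invariant irreducible complex characters of K onto the P-invariant irreducible complex characters of C such that, for every P-invariant irreducible character χ of K, the multiplicity of f(χ) in the restriction of χ to C is a natural number congruent to 1 or to −1 modulo p, every other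 P-invariant irreducible character of C occurs in that restriction with multiplicity divisible by p, and the degrees of χ and f(χ) are congruent modulo p up to sign. -/
theorem result {G : Type*} [Group G] [Finite G] (p : ℕ) [Fact p.Prime] (P K Q C : Subgroup G) (hP : IsPGroup p ↥P) (hPK : P ≤ Subgroup.normalizer (K : Set G)) (hQK : Q ≤ K) (hQn : ∀ k ∈ K, ∀ q ∈ Q, k * q * k⁻¹ ∈ Q) (hQp : ∃ a : ℕ, Nat.card ↥Q = p ^ a) (hQsyl : ¬ p ∣ Q.relIndex K) (hCK : C ≤ K) (hC : ∀ k : G, k ∈ C ↔ (k ∈ K ∧ ∀ x ∈ P, x * k * x⁻¹ * k⁻¹ ∈ Q)) : ∃ f : {χ : Cfsg.IrrCharacter ↥K // (∀ x ∈ P, ∀ k k' : ↥K, (k' : G) = x * (k : G) * x⁻¹ → (χ : ↥K → ℂ) k' = (χ : ↥K → ℂ) k)} → {ξ : Cfsg.IrrCharacter ↥C // (∀ x ∈ P, ∀ k k' : ↥C, (k' : G) = x * (k : G) * x⁻¹ → (ξ : ↥C → ℂ) k' = (ξ : ↥C → ℂ) k)}, Function.Bijective f ∧ ∀ χ, (∀ ξ : {ξ : Cfsg.IrrCharacter ↥C // (∀ x ∈ P, ∀ k k' : ↥C, (k' : G) = x * (k : G) * x⁻¹ → (ξ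 : ↥C → ℂ) k' = (ξ : ↥C → ℂ) k)}, ∃ m : ℕ, (Nat.card ↥C : ℂ)⁻¹ * ∑ᶠ c : ↥C, (χ.1 : ↥K → ℂ) (Subgroup.inclusion hCK c) * (starRingEnd ℂ) ((ξ.1 : ↥C → ℂ) c) = (m : ℂ) ∧ (ξ = f χ → ((m : ZMod p) = 1 ∨ (m : ZMod p) = -1)) ∧ (ξ ≠ f χ → p ∣ m)) ∧ ((Cfsg.charDegree ((f χ).1 : ↥C → ℂ) : ZMod p) = (Cfsg.charDegree (χ.1 : ↥K → ℂ) : ZMod p) ∨ (Cfsg.charDegree ((f χ).1 : ↥C → ℂ) : ZMod p) = -(Cfsg.charDegree (χ.1 : ↥K → ℂ) : ZMod p)) := by
  classical
  haveI : Fintype G := Fintype.ofFinite G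
  haveI : Fintype K := Fintype.ofFinite K
  haveI : Fintype C := Fintype.ofFinite C
  have hp : p.Prime := Fact.out
  have hPK' : ∀ x ∈ P, ∀ g ∈ K, x * g * x⁻¹ ∈ K := Subgroup.le_normalizer_iff.1 hPK
  obtain ⟨a, b, c⟩ := main hp _ P rfl hP K Q C hPK' hQK hQn hQp hQsyl hCK hC
  have hPQ : ∀ x ∈ P, ∀ q ∈ Q, x * q * x⁻¹ ∈ Q := fun x hx =>
    conj_mem_Q hp hQK hQn hQp hQsyl (hPK' x hx)
  have hPC : ∀ y ∈ P, ∀ k ∈ C, y * k * y⁻¹ ∈ C := by
    intro y hy k hk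
    obtain ⟨hk1, hk2⟩ := (hC k).1 hk
    refine (hC _).2 ⟨hPK' y hy k hk1, fun x hx => ?_⟩
    have h1 := hk2 (y⁻¹ * x * y) (P.mul_mem (P.mul_mem (P.inv_mem hy) hx) hy)
    have h2 := hPQ y hy _ h1
    have h3 : y * (y⁻¹ * x * y * k * (y⁻¹ * x * y)⁻¹ * k⁻¹) * y⁻¹ =
        x * (y * k * y⁻¹) * x⁻¹ * (y * k * y⁻¹)⁻¹ := by group
    rw [h3] at h2
    exact h2
  choose f hf using fun χ : {χ : Cfsg.IrrCharacter ↥K // (∀ x ∈ P, ∀ k k' : ↥K, (k' : G) = x * (k : G) * x⁻¹ → (χ : ↥K → ℂ) k' = (χ : ↥K → ℂ) k)} => a χ.1 χ.2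
  refine ⟨fun χ => ⟨f χ, (hf χ).1⟩, ⟨?_, ?_⟩, fun χ => ⟨fun ξ => ?_, ?_⟩⟩
  · intro χ χ' h
    have h1 : f χ = f χ' := congrArg Subtype.val h
    apply Subtype.ext
    refine b χ.1 χ'.1 χ.2 χ'.2 (f χ) (hf χ).1 (hf χ).2 ?_
    rw [h1]
    exact (hf χ').2
  · intro ξ
    obtain ⟨χ, hχ, hrel⟩ := c ξ.1 ξ.2
    refine ⟨⟨χ, hχ⟩, Subtype.ext ?_⟩
    exact (hf ⟨χ, hχ⟩).2.unique hp hrel (hf ⟨χ, hχ⟩).1 ξ.2
  · obtain ⟨ε, hε, H⟩ := (hf χ).2
    obtain ⟨m, hm, hc⟩ := H ξ.1 ξ.2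
    refine ⟨m, ?_, ?_, ?_⟩
    · rw [← hm, finsum_eq_sum_of_fintype]
      rfl
    · intro h
      have h1 : ξ.1 = f χ := congrArg Subtype.val h
      rw [if_pos h1] at hc
      have h2 := (ZMod.intCast_eq_intCast_iff _ _ p).2 hc
      rcases hε with rfl | rfl
      · left
        simpa using h2
      · right
        simpa using h2
    · intro h
      have h1 : ξ.1 ≠ f χ := fun h' => h (Subtype.ext h')
      rw [if_neg h1] at hc
      exact Int.natCast_dvd_natCast.1 (Int.modEq_zero_iff_dvd.1 hc)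
  · obtain ⟨ε, hε, H⟩ := (hf χ).2
    have hχc := Cfsg.Agent.Lib.Char.Basic.isCharacter_of_isIrrCharacter χ.1.2
    have hξc := Cfsg.Agent.Lib.Char.Basic.isCharacter_of_isIrrCharacter (f χ).2
    have hd := deg_modEq hp hP hCK hPK' hPC χ.2 (hf χ).1 H
      (Cfsg.Agent.Lib.Char.Values.IsCharacter.charDegree_cast hχc).symm
      (Cfsg.Agent.Lib.Char.Values.IsCharacter.charDegree_cast hξc).symm
    have h2 := (ZMod.intCast_eq_intCast_iff _ _ p).2 hd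
    rcases hε with rfl | rfl
    · left
      simp only [Int.cast_natCast, Int.cast_mul, Int.cast_one, one_mul] at h2
      exact h2.symm
    · right
      simp only [Int.cast_natCast, Int.cast_mul, Int.cast_neg, Int.cast_one, neg_mul, one_mul] at h2
      rw [h2]
      simp

end Cfsg.Agent.S4914
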