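import Cfsg.Statements.S4916
import Mathlib
import Cfsg.Agent.S0907
import Cfsg.Agent.S0914
import Cfsg.Agent.Lib.Blocks.Principal
import Cfsg.Agent.Lib.Char.Values

set_option autoImplicit false
open Cfsg

namespace Cfsg.Agent.S4916

open Cfsg.Agent.Lib.Blocks.Osima Cfsg.Agent.Lib.Blocks.Central Cfsg.Agent.Lib.Blocks.Local
open Cfsg.Agent.Lib.Blocks.Principal
open scoped ComplexConjugate

/-- Let G be a finite group, p a prime and M a maximal ideal of the algebraic integers containing p. Then the principal character is the only irreducible character of degree prime to p in the principal p-block of G if and only if p does not divide the order of G. -/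
theorem result {G : Type*} [Group G] [Finite G] (p : ℕ) [Fact p.Prime] (M : Ideal Cfsg.AlgInt) (hM : Cfsg.IsPModular p M) : (∀ χ : Cfsg.IrrCharacter G, χ ∈ Cfsg.principalBlock M G → ¬ p ∣ Cfsg.charDegree (χ : G → ℂ) → (χ : G → ℂ) = fun _ => (1 : ℂ)) ↔ ¬ p ∣ Nat.card G := by
  classical
  cases nonempty_fintype G
  have hMp := isPrime_of_isPModular hM
  constructor
  · intro h hdvd
    obtain ⟨x, hx⟩ := exists_prime_orderOf_dvd_card' (G := G) p hdvd
    have h0 := Cfsg.Agent.S0907.result p M hM (principalBlock M G) (isPBlock_principalBlock M)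
      1 x (by simp [(Fact.out : p.Prime).one_lt.ne']) (by rw [hx])
    rw [Cfsg.Agent.Lib.Blocks.Osima.finsum_mem_eq_sum_filter] at h0
    set s := (Finset.univ : Finset (IrrCharacter G)).filter (· ∈ principalBlock M G) with hs
    have hmem : trivChar G ∈ s := by
      simp [hs, trivChar_mem_principalBlock]
    rw [← Finset.add_sum_erase s _ hmem] at h0
    have hrest : MemLocalIdeal M (∑ χ ∈ s.erase (trivChar G), (χ : G → ℂ) 1 * conj ((χ : G → ℂ) x)) := by
      refine memLocalIdeal_sum _ _ ?_
      intro χ hχ
      have hχ1 : χ ≠ trivChar G := (Finset.mem_erase.mp hχ).1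
      have hχ2 : χ ∈ principalBlock M G := by
        have := (Finset.mem_erase.mp hχ).2
        simpa [hs] using this
      have hchar := Cfsg.Agent.Lib.Char.Values.IsIrrCharacter.isCharacter χ.2
      have hdeg : p ∣ charDegree (χ : G → ℂ) := by
        by_contra hnd
        exact hχ1 (Subtype.ext (h χ hχ2 hnd))
      refine memLocalIdeal_mul_right ?_ ?_
      · rw [← Cfsg.Agent.Lib.Char.Values.IsCharacter.charDegree_cast hchar]
        exact (memLocalIdeal_natCast_iff hM).2 hdeg
      · rw [← Cfsg.Agent.Lib.Char.Values.IsCharacter.inv hchar]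
        exact memLocalRing_of_isIntegral (Cfsg.Agent.Lib.Char.Values.IsCharacter.isIntegral hchar _)
    have h1 : (((trivChar G : IrrCharacter G) : G → ℂ) 1 * conj (((trivChar G : IrrCharacter G) : G → ℂ) x)) = 1 := by
      simp
    rw [h1] at h0
    apply not_memLocalIdeal_one (M := M)
    have : (1 : ℂ) = -∑ χ ∈ s.erase (trivChar G), (χ : G → ℂ) 1 * conj ((χ : G → ℂ) x) := by
      linear_combination h0
    rw [this]
    exact memLocalIdeal_neg hrest
  · intro hnd χ hχ _
    have h1 := (Cfsg.Agent.S0914.result p M hM (trivChar G)).1 (by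
      rw [charDegree_trivChar, Nat.div_one]; exact hnd)
    have h2 : χ ∈ blockOf M (((trivChar G : IrrCharacter G)) : G → ℂ) := hχ
    rw [h1] at h2
    have h3 : χ = trivChar G := h2
    rw [h3]
    rfl

end Cfsg.Agent.S4916
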