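import Cfsg.Statements.S4930
import Mathlib
import Cfsg.Agent.Lib.Char.Complete
import Cfsg.Agent.Lib.Char.CompleteCor
import Cfsg.Agent.Lib.Char.Burnside2
import Cfsg.Agent.Lib.Char.Clifford
import Cfsg.Agent.Lib.Char.GallagherAvg
import Cfsg.Agent.Lib.Char.Induced
import Cfsg.Agent.Lib.Char.IndRep
import Cfsg.Agent.Lib.Char.Integrality
import Cfsg.Agent.Lib.Char.LinearChars
import Cfsg.Agent.Lib.Char.Values
import Cfsg.Agent.Lib.Char.Ortho
import Cfsg.Agent.Lib.Blocks.Kernel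
import Cfsg.Agent.Lib.Palfy.Frat
import Cfsg.Agent.S4456

set_option autoImplicit false
set_option linter.style.haveILetI false
open Cfsg

namespace Cfsg.Agent.S4930

open Cfsg.Agent.Lib.Char.Basic Cfsg.Agent.Lib.Char.Ortho Cfsg.Agent.Lib.Char.Induced
  Cfsg.Agent.Lib.Char.Clifford Cfsg.Agent.Lib.Char.GallagherAvg Cfsg.Agent.Lib.Char.Values
  Cfsg.Agent.Lib.Char.Complete

universe u

open scoped commutatorElement Pointwise

section helpers

variable {Γ : Type u} [Group Γ]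

lemma eq_of_re_ge {z : ℂ} {d : ℝ} (h1 : ‖z‖ ≤ d) (h2 : d ≤ z.re) : z = d := by
  have h3 : z.re ≤ ‖z‖ := Complex.re_le_norm z
  have hre : z.re = d := le_antisymm (h3.trans h1) h2
  have hnorm : ‖z‖ = d := le_antisymm h1 (h2.trans h3)
  have hd : 0 ≤ d := by rw [← hnorm]; exact norm_nonneg z
  have hsq : z.re * z.re + z.im * z.im = d * d := by
    have := Complex.normSq_eq_norm_sq z
    rw [Complex.normSq_apply, hnorm] at this
    rw [this]; ring
  rw [hre] at hsq
  have him : z.im * z.im = 0 := by linarith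
  have him0 : z.im = 0 := by simpa using him
  apply Complex.ext
  · simpa using hre
  · simpa using him0

/-- natural-number decomposition of a character -/
lemma exists_decomp [Fintype Γ] [Fintype (IrrCharacter Γ)] {χ : Γ → ℂ} (hχ : IsCharacter Γ χ) :
    ∃ a : IrrCharacter Γ → ℕ, (∀ β : IrrCharacter Γ, classInner χ β = a β) ∧
      χ = ∑ β : IrrCharacter Γ, (a β : ℂ) • (β : Γ → ℂ) := by
  choose a ha using exists_nat_classInner hχ
  refine ⟨a, ha, ?_⟩
  conv_lhs => rw [eq_sum_classInner χ (isClassFunction_of_isCharacter hχ)]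
  refine Finset.sum_congr rfl fun β _ => ?_
  rw [ha]

lemma charDegree_cast' {χ : Γ → ℂ} (hχ : IsCharacter Γ χ) : χ 1 = (charDegree χ : ℂ) :=
  (IsCharacter.charDegree_cast hχ).symm

lemma irr_isChar {χ : Γ → ℂ} (hχ : IsIrrCharacter Γ χ) : IsCharacter Γ χ :=
  isCharacter_of_isIrrCharacter hχ

lemma degree_decomp [Fintype Γ] [Fintype (IrrCharacter Γ)] {χ : Γ → ℂ} (hχ : IsCharacter Γ χ)
    {a : IrrCharacter Γ → ℕ} (ha : χ = ∑ β : IrrCharacter Γ, (a β : ℂ) • (β : Γ → ℂ)) :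
    charDegree χ = ∑ β : IrrCharacter Γ, a β * charDegree (β : Γ → ℂ) := by
  have h1 := congrFun ha 1
  simp only [Finset.sum_apply, Pi.smul_apply, smul_eq_mul] at h1
  rw [charDegree_cast' hχ] at h1
  have h2 : ∀ β : IrrCharacter Γ, (β : Γ → ℂ) 1 = (charDegree (β : Γ → ℂ) : ℂ) := fun β =>
    charDegree_cast' (irr_isChar β.2)
  simp only [h2] at h1
  exact_mod_cast h1

/-- A normal subgroup whose sum under an irreducible character is nonzero lies in the kernel. -/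
lemma over_of_sum_ne_zero [Fintype Γ] (U : Subgroup Γ) [U.Normal] [Fintype U] {ψ : Γ → ℂ}
    (hψ : IsIrrCharacter Γ ψ) (h : ∑ n : U, ψ n ≠ 0) : ∀ u ∈ U, ψ u = ψ 1 := by
  classical
  have h1 := sum_mul_eq_card_mul U hψ h 1
  simp only [mul_one] at h1
  have hd := charDegree_cast' (irr_isChar hψ)
  set d := charDegree ψ with hd_def
  have hle : ∀ n : U, ‖ψ n‖ ≤ (d : ℝ) := fun n => by
    have := IsCharacter.norm_le (irr_isChar hψ) (n : Γ)
    rw [hd] at this
    simpa using this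
  have hsum : ∑ n : U, ((d : ℝ) - (ψ n).re) = 0 := by
    have h2 := congrArg Complex.re h1
    rw [Complex.re_sum, hd] at h2
    simp only [← Nat.cast_mul, Complex.natCast_re] at h2
    rw [Finset.sum_sub_distrib, h2]
    simp [Nat.card_eq_fintype_card]
  have hnonneg : ∀ n ∈ (Finset.univ : Finset U), 0 ≤ (d : ℝ) - (ψ n).re := fun n _ => by
    have := Complex.re_le_norm (ψ n)
    linarith [hle n]
  have hz := (Finset.sum_eq_zero_iff_of_nonneg hnonneg).1 hsum
  intro u hu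
  have := hz ⟨u, hu⟩ (Finset.mem_univ _)
  have h3 : (d : ℝ) ≤ (ψ u).re := by
    have h4 : (d : ℝ) - (ψ u).re = 0 := this
    linarith
  have h5 := eq_of_re_ge (hle ⟨u, hu⟩) h3
  rw [hd, show ψ u = ((d : ℝ) : ℂ) from h5]
  simp

open Classical in
/-- Sum of the degree-weighted values over the characters with `U` in the kernel. -/
lemma sum_over [Fintype Γ] [Fintype (IrrCharacter Γ)]
    (U : Subgroup Γ) [U.Normal] [Fintype U] (y : Γ) :
    (Nat.card U : ℂ) * ∑ ψ ∈ (Finset.univ.filter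
        fun ψ : IrrCharacter Γ => ∀ u ∈ U, (ψ : Γ → ℂ) u = (ψ : Γ → ℂ) 1),
        (ψ : Γ → ℂ) 1 * (ψ : Γ → ℂ) y =
      if y ∈ U then (Nat.card Γ : ℂ) else 0 := by
  classical
  have hU : (Nat.card U : ℂ) ≠ 0 := Nat.cast_ne_zero.2 Nat.card_pos.ne'
  have key : ∀ ψ : IrrCharacter Γ, ∑ n : U, (ψ : Γ → ℂ) ((n : Γ) * y) =
      if (∀ u ∈ U, (ψ : Γ → ℂ) u = (ψ : Γ → ℂ) 1) then (Nat.card U : ℂ) * (ψ : Γ → ℂ) y else 0 := by
    intro ψ
    by_cases h : ∀ u ∈ U, (ψ : Γ → ℂ) u = (ψ : Γ → ℂ) 1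
    · rw [if_pos h]
      apply sum_mul_eq_card_mul U ψ.2
      have : ∑ n : U, (ψ : Γ → ℂ) n = (Nat.card U : ℂ) * (ψ : Γ → ℂ) 1 := by
        rw [Finset.sum_congr rfl fun (n : U) _ => h (n : Γ) n.2]
        simp [Nat.card_eq_fintype_card]
      rw [this]
      exact mul_ne_zero hU (irr_apply_one_ne_zero ψ.2)
    · rw [if_neg h]
      apply sum_mul_eq_zero U ψ.2
      by_contra hne
      exact h (over_of_sum_ne_zero U ψ.2 hne)
  have h1 : (Nat.card U : ℂ) * ∑ ψ ∈ (Finset.univ.filter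
        fun ψ : IrrCharacter Γ => ∀ u ∈ U, (ψ : Γ → ℂ) u = (ψ : Γ → ℂ) 1),
        (ψ : Γ → ℂ) 1 * (ψ : Γ → ℂ) y =
      ∑ ψ : IrrCharacter Γ, (ψ : Γ → ℂ) 1 * ∑ n : U, (ψ : Γ → ℂ) ((n : Γ) * y) := by
    rw [Finset.sum_filter, Finset.mul_sum]
    refine Finset.sum_congr rfl fun ψ _ => ?_
    rw [key ψ]
    split_ifs
    · ring
    · simp
  rw [h1]
  simp only [Finset.mul_sum]
  rw [Finset.sum_comm]
  have h2 : ∀ n : U, ∑ ψ : IrrCharacter Γ, (ψ : Γ → ℂ) 1 * (ψ : Γ → ℂ) ((n : Γ) * y) =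
      if (n : Γ) * y = 1 then (Nat.card Γ : ℂ) else 0 := fun n =>
    Cfsg.Agent.Lib.Char.Burnside2.sum_degree_mul_character _
  rw [Finset.sum_congr rfl fun n _ => h2 n]
  by_cases hy : y ∈ U
  · rw [if_pos hy]
    rw [Finset.sum_eq_single (⟨y⁻¹, U.inv_mem hy⟩ : U)]
    · simp
    · intro b _ hb
      rw [if_neg]
      intro h
      apply hb
      apply Subtype.ext
      exact eq_inv_of_mul_eq_one_left h
    · simp
  · rw [if_neg hy]
    apply Finset.sum_eq_zero
    intro n _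
    rw [if_neg]
    intro h
    apply hy
    have : y = (n : Γ)⁻¹ := eq_inv_of_mul_eq_one_right h
    rw [this]
    exact U.inv_mem n.2

end helpers


section helpers2

variable {Γ : Type u} [Group Γ]

lemma two_dvd_of_integral {d : ℕ} {β : ℂ} (hβ : IsIntegral ℤ β) (h : (d : ℂ) = 2 * β) : 2 ∣ d := by
  have h1 : (((d : ℚ) / 2 : ℚ) : ℂ) = β := by
    push_cast
    rw [h]
    ring
  have h2 : IsIntegral ℤ ((d : ℚ) / 2 : ℚ) := by
    rw [← h1] at hβ
    have : IsIntegral ℤ (algebraMap ℚ ℂ ((d : ℚ) / 2)) := by simpa using hβ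
    exact (isIntegral_algebraMap_iff (algebraMap ℚ ℂ).injective).1 this
  obtain ⟨y, hy⟩ := IsIntegrallyClosed.isIntegral_iff.1 h2
  have h3 : (d : ℚ) = 2 * y := by
    have : (y : ℚ) = (d : ℚ) / 2 := by simpa using hy
    rw [this]; ring
  have h4 : (d : ℤ) = 2 * y := by exact_mod_cast h3
  exact Int.natCast_dvd_natCast.1 (by rw [h4]; exact_mod_cast Dvd.intro _ rfl)

/-- The parity trick. -/
lemma over_of_odd_of_fixed [Fintype Γ] (A : Subgroup Γ) [hA : A.Normal] [Fintype A] (Q : Subgroup Γ)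
    (hQ : IsPGroup 2 Q) (hfix : ∀ a ∈ A, (∀ q ∈ Q, q * a * q⁻¹ = a) → a = 1)
    {χ : Γ → ℂ} (hχ : IsIrrCharacter Γ χ) (hodd : ¬ 2 ∣ charDegree χ) :
    ∀ a ∈ A, χ a = χ 1 := by
  classical
  apply over_of_sum_ne_zero A hχ
  intro hsum
  have hcl : IsClassFunction Γ χ := isClassFunction_of_isCharacter (irr_isChar hχ)
  let g : A → ℂ := fun a => χ a
  let X : Finset A := Finset.univ.filter fun a => a ≠ 1
  have hsplit : ∑ a : A, χ a = χ 1 + ∑ a ∈ X, g a := by
    rw [← Finset.add_sum_erase _ _ (Finset.mem_univ (1 : A))]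
    congr 1
    refine Finset.sum_congr ?_ (fun _ _ => rfl)
    ext a
    simp [X]
  have heven : ∀ w : ℂ, 2 ∣ (X.filter fun a => g a = w).card := by
    intro w
    let T := {a : A // a ≠ 1 ∧ χ a = w}
    letI : MulAction Q T :=
      { smul := fun q a => ⟨⟨(q : Γ) * a.1 * (q : Γ)⁻¹, hA.conj_mem _ a.1.2 _⟩, by
          intro h
          apply a.2.1
          apply Subtype.ext
          have h' : (q : Γ) * a.1 * (q : Γ)⁻¹ = 1 := congrArg Subtype.val h
          have : ((a.1 : A) : Γ) = (q : Γ)⁻¹ * ((q : Γ) * a.1 * (q : Γ)⁻¹) * q := by group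
          rw [this, h']; simp, by
          show χ ((q : Γ) * a.1 * (q : Γ)⁻¹) = w
          rw [hcl]; exact a.2.2⟩
        one_smul := fun a => by
          apply Subtype.ext; apply Subtype.ext
          show ((1 : Q) : Γ) * a.1 * ((1 : Q) : Γ)⁻¹ = a.1
          simp
        mul_smul := fun q r a => by
          apply Subtype.ext; apply Subtype.ext
          show ((q * r : Q) : Γ) * a.1 * ((q * r : Q) : Γ)⁻¹ =
            (q : Γ) * ((r : Γ) * a.1 * (r : Γ)⁻¹) * (q : Γ)⁻¹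
          push_cast
          group }
    have hc := hQ.card_modEq_card_fixedPoints T
    have hempty : IsEmpty (MulAction.fixedPoints Q T) := by
      refine ⟨fun a => ?_⟩
      apply a.1.2.1
      apply Subtype.ext
      apply hfix _ a.1.1.2
      intro q hq
      have := a.2 ⟨q, hq⟩
      exact congrArg (fun t : T => ((t.1 : A) : Γ)) this
    have hT : Nat.card T = (X.filter fun a => g a = w).card := by
      rw [Nat.card_eq_fintype_card, Fintype.card_subtype, Finset.filter_filter]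
    rw [← hT]
    have h0 : Nat.card (MulAction.fixedPoints Q T) = 0 := Nat.card_of_isEmpty
    rw [h0] at hc
    exact Nat.modEq_zero_iff_dvd.1 hc
  have hsum2 : ∑ a ∈ X, g a = 2 * ∑ w ∈ X.image g,
      (((X.filter fun a => g a = w).card / 2 : ℕ) : ℂ) * w := by
    have h1 := Finset.sum_comp (s := X) (f := fun w : ℂ => w) (g := g)
    rw [h1, Finset.mul_sum]
    refine Finset.sum_congr rfl fun w _ => ?_
    obtain ⟨c, hc⟩ := heven w
    rw [hc]
    simp only [nsmul_eq_mul, Nat.cast_mul, Nat.ofNat_pos, Nat.mul_div_cancel_left]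
    push_cast
    ring
  have hint : IsIntegral ℤ (∑ w ∈ X.image g, (((X.filter fun a => g a = w).card / 2 : ℕ) : ℂ) * w) := by
    apply IsIntegral.sum
    intro w hw
    apply IsIntegral.mul
    · exact isIntegral_natCast _
    · obtain ⟨a, -, rfl⟩ := Finset.mem_image.1 hw
      exact IsCharacter.isIntegral (irr_isChar hχ) _
  rw [hsplit, hsum2, charDegree_cast' (irr_isChar hχ)] at hsum
  apply hodd
  have hneg : (charDegree χ : ℂ) = 2 * (-(∑ w ∈ X.image g,
      (((X.filter fun a => g a = w).card / 2 : ℕ) : ℂ) * w)) := by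
    linear_combination hsum
  exact two_dvd_of_integral hint.neg hneg

/-- Characters over the commutator of a normal subgroup of odd index have odd degree. -/
lemma odd_of_over [Fintype Γ] (Q : Subgroup Γ) [hQ : Q.Normal] (hidx : ¬ 2 ∣ Q.index)
    {ψ : Γ → ℂ} (hψ : IsIrrCharacter Γ ψ) (h : ∀ u ∈ ⁅Q, Q⁆, ψ u = ψ 1) :
    ¬ 2 ∣ charDegree ψ := by
  classical
  obtain ⟨ψ', hψ'⟩ := Cfsg.Agent.Lib.Blocks.Kernel.exists_irr_of_kernel (N := ⁅Q, Q⁆) hψ h
  let f := QuotientGroup.mk' (⁅Q, Q⁆ : Subgroup Γ)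
  have hf : Function.Surjective f := QuotientGroup.mk'_surjective _
  let A : Subgroup (Γ ⧸ (⁅Q, Q⁆ : Subgroup Γ)) := Q.map f
  haveI hAn : A.Normal := hQ.map f hf
  haveI hAc : IsMulCommutative A := by
    refine ⟨⟨fun a b => ?_⟩⟩
    obtain ⟨x, hx, hxa⟩ := a.2
    obtain ⟨y, hy, hyb⟩ := b.2
    apply Subtype.ext
    show a.1 * b.1 = b.1 * a.1
    rw [← hxa, ← hyb]
    have hc : ⁅x, y⁆ ∈ (⁅Q, Q⁆ : Subgroup Γ) := Subgroup.commutator_mem_commutator hx hy
    have h1 : f ⁅x, y⁆ = 1 := (QuotientGroup.eq_one_iff _).2 hc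
    rw [commutatorElement_def, map_mul, map_mul, map_mul, map_inv, map_inv] at h1
    have h2 : f x * f y = f y * f x := by
      calc f x * f y = (f x * f y * (f x)⁻¹ * (f y)⁻¹) * (f y * f x) := by group
        _ = f y * f x := by rw [h1, one_mul]
    exact h2
  haveI : Fintype (Γ ⧸ (⁅Q, Q⁆ : Subgroup Γ)) := Fintype.ofFinite _
  obtain ⟨e, he, hd⟩ := Cfsg.Agent.Lib.Palfy.exists_degree_dvd_index_of_abelian A ψ'.2
  have h1 : ψ 1 = (e : ℂ) := by
    rw [hψ']
    simpa using he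
  have h2 : charDegree ψ = e := IsCharacter.charDegree_eq (irr_isChar hψ) h1
  rw [h2]
  intro h3
  exact hidx (h3.trans (hd.trans (Subgroup.index_map_dvd Q hf)))

/-- Odd-degree irreducible characters are trivial on the commutator of a normal 2-subgroup. -/
lemma over_of_odd [Fintype Γ] (Q : Subgroup Γ) [hQ : Q.Normal] (h2 : IsPGroup 2 Q)
    {ψ : Γ → ℂ} (hψ : IsIrrCharacter Γ ψ) (hodd : ¬ 2 ∣ charDegree ψ) :
    ∀ u ∈ (⁅Q, Q⁆ : Subgroup Γ), ψ u = ψ 1 := by
  classical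
  haveI : Fact (Nat.Prime 2) := ⟨Nat.prime_two⟩
  letI : Fintype Q := Fintype.ofFinite _
  letI : Fintype (IrrCharacter Q) := Fintype.ofFinite _
  let R : Subgroup Γ := ⁅Q, Q⁆
  letI : Fintype R := Fintype.ofFinite _
  haveI hRn : R.Normal := Subgroup.commutator_normal Q Q
  have hres : IsCharacter Q (fun n : Q => ψ n) := isCharacter_restrict (irr_isChar hψ) Q
  obtain ⟨a, ha, hdec⟩ := exists_decomp hres
  have hdeg := degree_decomp hres hdec
  have hdeg' : charDegree (fun n : Q => ψ n) = charDegree ψ := rfl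
  -- an odd constituent
  obtain ⟨β, hβa, hβodd⟩ : ∃ β : IrrCharacter Q, a β ≠ 0 ∧ ¬ 2 ∣ charDegree (β : Q → ℂ) := by
    by_contra hcon
    push Not at hcon
    apply hodd
    rw [← hdeg', hdeg]
    apply Finset.dvd_sum
    intro β _
    by_cases h0 : a β = 0
    · simp [h0]
    · exact Dvd.dvd.mul_left (hcon β h0) _
  -- it is linear
  have hβ1 : (β : Q → ℂ) 1 = 1 := by
    obtain ⟨n, ρ, hρ, hρχ⟩ := β.2
    haveI := hρ
    have hdvd := Cfsg.Agent.Lib.Char.Integrality.finrank_dvd_card ρ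
    have h3 : (β : Q → ℂ) 1 = (Module.finrank ℂ (Fin n → ℂ) : ℂ) := by
      rw [← hρχ, Representation.char_one]
    have h4 : charDegree (β : Q → ℂ) = Module.finrank ℂ (Fin n → ℂ) :=
      IsCharacter.charDegree_eq (irr_isChar β.2) h3
    obtain ⟨k, hk⟩ := h2.exists_card_eq
    rw [hk] at hdvd
    obtain ⟨j, -, hj⟩ := (Nat.dvd_prime_pow Nat.prime_two).1 hdvd
    have h5 : Module.finrank ℂ (Fin n → ℂ) = 1 := by
      rcases j with _ | j
      · simpa using hj
      · exfalso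
        apply hβodd
        rw [h4, hj, pow_succ]
        exact Dvd.intro_left _ rfl
    rw [h3, h5]
    simp
  obtain ⟨φ, hφ⟩ := Cfsg.Agent.Lib.Char.LinearChars.exists_hom_of_isCharacter_one (irr_isChar β.2) hβ1
  have hβcomm : ∀ c ∈ commutator Q, (β : Q → ℂ) c = 1 := by
    intro c hc
    have h6 : commutator Q ≤ φ.ker := by
      rw [commutator_def, Subgroup.commutator_le]
      intro x _ y _
      rw [MonoidHom.mem_ker, map_commutatorElement, commutatorElement_def]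
      rw [mul_comm (φ x) (φ y)]
      simp
    have h7 : φ c = 1 := h6 hc
    rw [hφ]
    simp [h7]
  -- split off
  have hne : classInner (fun n : Q => ψ n) (β : Q → ℂ) ≠ 0 := by
    rw [ha]
    exact_mod_cast hβa
  obtain ⟨Ξ, hΞ, hsplit⟩ := exists_char_add hres β.2 hne
  have hRle : R ≤ Q := Subgroup.commutator_le_left Q Q
  let ι : R →* Q := Subgroup.inclusion hRle
  have hΞ' : IsCharacter R (Ξ ∘ ι) := isCharacter_comp_hom hΞ ι
  obtain ⟨n, hn⟩ := exists_nat_classInner_of_isCharacter hΞ' (isCharacter_one (G := R))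
  have hval : ∀ u : R, ψ u = 1 + (Ξ ∘ ι) u := by
    intro u
    have h1 := congrFun hsplit (ι u)
    have h2 : (β : Q → ℂ) (ι u) = 1 := by
      apply hβcomm
      have h3 : (u : Γ) ∈ (commutator Q).map Q.subtype := by
        rw [Subgroup.map_subtype_commutator]; exact u.2
      obtain ⟨c, hc, hcu⟩ := h3
      have h4 : ι u = c := Subtype.ext hcu.symm
      rw [h4]; exact hc
    have h5 : ψ u = (β : Q → ℂ) (ι u) + Ξ (ι u) := h1
    rw [h5, h2]
    rfl
  apply over_of_sum_ne_zero R hψ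
  rw [Finset.sum_congr rfl fun u _ => hval u, Finset.sum_add_distrib]
  have hcard : (Nat.card R : ℂ) ≠ 0 := Nat.cast_ne_zero.2 Nat.card_pos.ne'
  have h8 : ∑ u : R, (Ξ ∘ ι) u = (Nat.card R : ℂ) * n := by
    rw [Cfsg.Agent.Lib.Char.Induced.classInner_def] at hn
    simp only [Pi.one_apply, map_one, mul_one] at hn
    field_simp at hn
    rw [hn]
  rw [h8]
  simp only [Finset.sum_const, Finset.card_univ, nsmul_eq_mul, mul_one, ← Nat.card_eq_fintype_card]
  have h9 : (Nat.card R : ℂ) + (Nat.card R : ℂ) * n = (Nat.card R : ℂ) * ((n + 1 : ℕ) : ℂ) := by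
    push_cast; ring
  rw [h9]
  exact mul_ne_zero hcard (Nat.cast_ne_zero.2 (Nat.succ_ne_zero n))

/-- Odd constituents of odd-index restriction. -/
lemma exists_odd_over [Fintype Γ] [Fintype (IrrCharacter Γ)] (H : Subgroup Γ) [Fintype H]
    (hH : ¬ 2 ∣ H.index) {β : H → ℂ} (hβ : IsIrrCharacter H β) (hodd : ¬ 2 ∣ charDegree β) :
    ∃ χ : IrrCharacter Γ, ¬ 2 ∣ charDegree (χ : Γ → ℂ) ∧
      classInner (fun n : H => (χ : Γ → ℂ) n) β ≠ 0 := by
  classical
  have hind : IsCharacter Γ (indFun H β) :=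
    Cfsg.Agent.Lib.Char.IndRep.isCharacter_indFun H (irr_isChar hβ)
  obtain ⟨a, ha, hdec⟩ := exists_decomp hind
  have hdeg := degree_decomp hind hdec
  have h1 : indFun H β 1 = ((H.index * charDegree β : ℕ) : ℂ) := by
    rw [indFun_one, charDegree_cast' (irr_isChar hβ)]
    push_cast; ring
  have h2 : charDegree (indFun H β) = H.index * charDegree β :=
    IsCharacter.charDegree_eq hind h1
  have h3 : ¬ 2 ∣ H.index * charDegree β := by
    rw [Nat.Prime.dvd_mul Nat.prime_two]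
    tauto
  obtain ⟨χ, hχa, hχodd⟩ : ∃ χ : IrrCharacter Γ, a χ ≠ 0 ∧ ¬ 2 ∣ charDegree (χ : Γ → ℂ) := by
    by_contra hcon
    push Not at hcon
    apply h3
    rw [← h2, hdeg]
    apply Finset.dvd_sum
    intro χ _
    by_cases h0 : a χ = 0
    · simp [h0]
    · exact Dvd.dvd.mul_left (hcon χ h0) _
  refine ⟨χ, hχodd, ?_⟩
  have h4 := frobenius_reciprocity H β (χ : Γ → ℂ)
    (isClassFunction_of_isCharacter (irr_isChar χ.2))
  rw [ha] at h4
  intro h0
  rw [← classInner_conj_symm] at h4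
  rw [h0] at h4
  simp only [map_zero] at h4
  exact hχa (by exact_mod_cast h4)

end helpers2

section core

variable {G : Type u} [Group G] [Fintype G] [Fintype (IrrCharacter G)]
  (H : Subgroup G) [Fintype H] [Fintype (IrrCharacter H)]

open Classical in
theorem core_count (hH : ¬ 2 ∣ H.index) (S : Finset (IrrCharacter H))
    (hS : ∀ ψ ∈ S, ¬ 2 ∣ charDegree (ψ : H → ℂ)) :
    ∑ ψ ∈ S, (charDegree (ψ : H → ℂ)) ^ 2 ≤
      ∑ χ ∈ Finset.univ.filter (fun χ : IrrCharacter G => ¬ 2 ∣ charDegree (χ : G → ℂ)),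
        (charDegree (χ : G → ℂ)) ^ 2 ∧
    (∑ ψ ∈ S, (charDegree (ψ : H → ℂ)) ^ 2 =
      ∑ χ ∈ Finset.univ.filter (fun χ : IrrCharacter G => ¬ 2 ∣ charDegree (χ : G → ℂ)),
        (charDegree (χ : G → ℂ)) ^ 2 →
      (∀ χ : IrrCharacter G, ¬ 2 ∣ charDegree (χ : G → ℂ) →
        ∃ ψ ∈ S, ∀ n : H, (χ : G → ℂ) n = (ψ : H → ℂ) n) ∧
      (∀ ψ ∈ S, ∃ χ : IrrCharacter G, ¬ 2 ∣ charDegree (χ : G → ℂ) ∧
        ∀ n : H, (χ : G → ℂ) n = (ψ : H → ℂ) n)) := by
  set I := Finset.univ.filter (fun χ : IrrCharacter G => ¬ 2 ∣ charDegree (χ : G → ℂ)) with hI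
  have hres : ∀ χ : IrrCharacter G, IsCharacter H (fun n : H => (χ : G → ℂ) n) := fun χ =>
    isCharacter_restrict (irr_isChar χ.2) H
  choose a ha hdec using fun χ : IrrCharacter G => exists_decomp (hres χ)
  have hdeg : ∀ χ : IrrCharacter G, charDegree (χ : G → ℂ) =
      ∑ ψ : IrrCharacter H, a χ ψ * charDegree (ψ : H → ℂ) := fun χ =>
    degree_decomp (hres χ) (hdec χ)
  let d : IrrCharacter H → ℕ := fun ψ => charDegree (ψ : H → ℂ)
  let e : IrrCharacter G → ℕ := fun χ => charDegree (χ : G → ℂ)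
  let c : IrrCharacter H → ℕ := fun ψ => ∑ χ ∈ I, e χ * a χ ψ
  have hD : ∑ χ ∈ I, (e χ) ^ 2 = ∑ ψ : IrrCharacter H, d ψ * c ψ := by
    simp only [c, Finset.mul_sum]
    rw [Finset.sum_comm]
    refine Finset.sum_congr rfl fun χ _ => ?_
    rw [sq]
    nth_rewrite 2 [show e χ = ∑ ψ : IrrCharacter H, a χ ψ * d ψ from hdeg χ]
    rw [Finset.mul_sum]
    refine Finset.sum_congr rfl fun ψ _ => ?_
    ring
  have hdpos : ∀ ψ : IrrCharacter H, 0 < d ψ := by
    intro ψ
    obtain ⟨n, hn, h⟩ := irr_degree_pos ψ.2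
    have := IsCharacter.charDegree_eq (irr_isChar ψ.2) h
    show 0 < charDegree (ψ : H → ℂ)
    rw [this]; exact hn
  have hepos : ∀ χ : IrrCharacter G, 0 < e χ := by
    intro χ
    obtain ⟨n, hn, h⟩ := irr_degree_pos χ.2
    have := IsCharacter.charDegree_eq (irr_isChar χ.2) h
    show 0 < charDegree (χ : G → ℂ)
    rw [this]; exact hn
  have hmemI : ∀ χ : IrrCharacter G, χ ∈ I ↔ ¬ 2 ∣ charDegree (χ : G → ℂ) := fun χ => by
    simp [hI]
  have hale : ∀ (χ : IrrCharacter G) (ψ : IrrCharacter H), a χ ψ * d ψ ≤ e χ := by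
    intro χ ψ
    show _ ≤ charDegree (χ : G → ℂ)
    rw [hdeg χ]
    exact Finset.single_le_sum (f := fun ψ => a χ ψ * charDegree (ψ : H → ℂ))
      (fun _ _ => Nat.zero_le _) (Finset.mem_univ ψ)
  have hane : ∀ (χ : IrrCharacter G) (ψ : IrrCharacter H),
      classInner (fun n : H => (χ : G → ℂ) n) (ψ : H → ℂ) ≠ 0 → a χ ψ ≠ 0 := by
    intro χ ψ h h0
    apply h
    rw [ha, h0]
    simp
  have hcge : ∀ ψ ∈ S, ∃ χ ∈ I, a χ ψ ≠ 0 := by
    intro ψ hψ
    obtain ⟨χ, hχ, hne⟩ := exists_odd_over H hH ψ.2 (hS ψ hψ)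
    exact ⟨χ, (hmemI χ).2 hχ, hane χ ψ hne⟩
  have hcS : ∀ ψ ∈ S, d ψ ≤ c ψ := by
    intro ψ hψ
    obtain ⟨χ, hχ, hne⟩ := hcge ψ hψ
    have h1 : d ψ ≤ e χ := by
      have := hale χ ψ
      calc d ψ ≤ a χ ψ * d ψ := Nat.le_mul_of_pos_left _ (Nat.pos_of_ne_zero hne)
        _ ≤ e χ := this
    have h2 : e χ * a χ ψ ≤ c ψ :=
      Finset.single_le_sum (f := fun χ => e χ * a χ ψ) (fun _ _ => Nat.zero_le _) hχ
    calc d ψ ≤ e χ := h1
      _ ≤ e χ * a χ ψ := Nat.le_mul_of_pos_right _ (Nat.pos_of_ne_zero hne)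
      _ ≤ c ψ := h2
  have hle1 : ∑ ψ ∈ S, (d ψ) ^ 2 ≤ ∑ ψ ∈ S, d ψ * c ψ := by
    refine Finset.sum_le_sum fun ψ hψ => ?_
    rw [sq]
    exact Nat.mul_le_mul_left _ (hcS ψ hψ)
  have hle2 : ∑ ψ ∈ S, d ψ * c ψ ≤ ∑ ψ : IrrCharacter H, d ψ * c ψ :=
    Finset.sum_le_sum_of_subset_of_nonneg (Finset.subset_univ S) (fun _ _ _ => Nat.zero_le _)
  refine ⟨by rw [show ∑ χ ∈ I, (charDegree (χ : G → ℂ)) ^ 2 = ∑ χ ∈ I, (e χ) ^ 2 from rfl, hD]
             exact hle1.trans hle2, fun heq => ?_⟩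
  have heq' : ∑ ψ ∈ S, (d ψ) ^ 2 = ∑ ψ : IrrCharacter H, d ψ * c ψ := by
    rw [← hD]; exact heq
  -- pointwise equalities
  have hcnot : ∀ ψ, ψ ∉ S → c ψ = 0 := by
    intro ψ hψ
    by_contra hne
    have h1 : ∑ ψ ∈ S, d ψ * c ψ < ∑ ψ : IrrCharacter H, d ψ * c ψ := by
      apply Finset.sum_lt_sum_of_subset (Finset.subset_univ S) (Finset.mem_univ ψ) hψ
      · exact Nat.mul_pos (hdpos ψ) (Nat.pos_of_ne_zero hne)
      · intro _ _ _; exact Nat.zero_le _
    omega
  have hceq : ∀ ψ ∈ S, c ψ = d ψ := by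
    intro ψ hψ
    by_contra hne
    have hlt : d ψ < c ψ := lt_of_le_of_ne (hcS ψ hψ) (Ne.symm hne)
    have h1 : ∑ ψ ∈ S, (d ψ) ^ 2 < ∑ ψ ∈ S, d ψ * c ψ := by
      apply Finset.sum_lt_sum
      · intro i hi
        rw [sq]
        exact Nat.mul_le_mul_left _ (hcS i hi)
      · refine ⟨ψ, hψ, ?_⟩
        rw [sq]
        exact Nat.mul_lt_mul_of_pos_left hlt (hdpos ψ)
    omega
  have hstar : ∀ (χ : IrrCharacter G) (ψ : IrrCharacter H), χ ∈ I → a χ ψ ≠ 0 →
      ψ ∈ S ∧ ∀ n : H, (χ : G → ℂ) n = (ψ : H → ℂ) n := by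
    intro χ ψ hχ hne
    have h2 : e χ * a χ ψ ≤ c ψ :=
      Finset.single_le_sum (f := fun χ => e χ * a χ ψ) (fun _ _ => Nat.zero_le _) hχ
    have hψS : ψ ∈ S := by
      by_contra hnS
      have := hcnot ψ hnS
      have h3 : 0 < e χ * a χ ψ := Nat.mul_pos (hepos χ) (Nat.pos_of_ne_zero hne)
      omega
    refine ⟨hψS, ?_⟩
    have h4 := hceq ψ hψS
    have h5 := hale χ ψ
    have hapos : 1 ≤ a χ ψ := Nat.pos_of_ne_zero hne
    have h6 : e χ ≤ d ψ := by
      calc e χ ≤ e χ * a χ ψ := Nat.le_mul_of_pos_right _ hapos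
        _ ≤ c ψ := h2
        _ = d ψ := h4
    have h7 : d ψ ≤ e χ := by
      calc d ψ ≤ a χ ψ * d ψ := Nat.le_mul_of_pos_left _ hapos
        _ ≤ e χ := h5
    have h8 : e χ = d ψ := le_antisymm h6 h7
    have hcl : classInner (fun n : H => (χ : G → ℂ) n) (ψ : H → ℂ) ≠ 0 := by
      rw [ha]
      exact_mod_cast hne
    obtain ⟨Ξ, hΞ, hsplit⟩ := exists_char_add (hres χ) ψ.2 hcl
    have h9 : Ξ 1 = 0 := by
      have h10 := congrFun hsplit 1
      have h11 : (χ : G → ℂ) ((1 : H) : G) = (charDegree (χ : G → ℂ) : ℂ) := by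
        rw [OneMemClass.coe_one]
        exact charDegree_cast' (irr_isChar χ.2)
      have h12 := charDegree_cast' (irr_isChar ψ.2)
      rw [h11, Pi.add_apply, h12] at h10
      have h13 : charDegree (χ : G → ℂ) = charDegree (ψ : H → ℂ) := h8
      rw [h13] at h10
      simpa using h10.symm
    have h14 : Ξ = 0 := eq_zero_of_apply_one_eq_zero hΞ h9
    intro n
    have h15 := congrFun hsplit n
    rw [h14] at h15
    simpa using h15
  constructor
  · intro χ hχ
    have h1 : ∃ ψ, a χ ψ ≠ 0 := by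
      by_contra hcon
      push Not at hcon
      have h2 := hdeg χ
      simp only [hcon, zero_mul, Finset.sum_const_zero] at h2
      exact absurd h2 (hepos χ).ne'
    obtain ⟨ψ, hψ⟩ := h1
    obtain ⟨h3, h4⟩ := hstar χ ψ ((hmemI χ).2 hχ) hψ
    exact ⟨ψ, h3, h4⟩
  · intro ψ hψ
    obtain ⟨χ, hχ, hne⟩ := hcge ψ hψ
    exact ⟨χ, (hmemI χ).1 hχ, (hstar χ ψ hχ hne).2⟩

end core

section assembly

variable {G : Type u} [Group G] [Finite G]

lemma normal_map_of_complement (H : Subgroup G) [hH : H.Normal] (L : Subgroup H) [hL : L.Normal]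
    (hcop : (Nat.card L).Coprime 2) (k : ℕ) (hidx : L.index = 2 ^ k) :
    (L.map H.subtype).Normal := by
  constructor
  rintro _ ⟨a, ha, rfl⟩ g
  have hb : g * (a : G) * g⁻¹ ∈ H := hH.conj_mem _ a.2 g
  refine ⟨⟨_, hb⟩, ?_, rfl⟩
  let b : H := ⟨_, hb⟩
  have h0 : a ^ Nat.card L = 1 := by
    have := pow_card_eq_one' (x := (⟨a, ha⟩ : L))
    exact congrArg Subtype.val this
  have h1 : b ^ Nat.card L = 1 := by
    apply Subtype.ext
    show (g * (a : G) * g⁻¹) ^ Nat.card L = 1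
    rw [conj_pow]
    have h0' : (a : G) ^ Nat.card L = 1 := congrArg Subtype.val h0
    rw [h0']
    simp
  have h2 : (b : H ⧸ L) ^ (2 ^ k) = 1 := by
    rw [← QuotientGroup.mk_pow, QuotientGroup.eq_one_iff, ← hidx]
    exact Subgroup.pow_index_mem L b
  have h3 : (b : H ⧸ L) ^ Nat.card L = 1 := by
    rw [← QuotientGroup.mk_pow, h1]
    rfl
  have h4 : (b : H ⧸ L) ^ Nat.gcd (Nat.card L) (2 ^ k) = 1 := pow_gcd_eq_one.2 ⟨h3, h2⟩
  have hg : Nat.gcd (Nat.card L) (2 ^ k) = 1 := (Nat.Coprime.pow_right k hcop)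
  rw [hg, pow_one, QuotientGroup.eq_one_iff] at h4
  exact h4

lemma mem_normalizer_of_conj_subset (K : Subgroup G) (a : G) (h : ∀ x ∈ K, a * x * a⁻¹ ∈ K) :
    a ∈ Subgroup.normalizer (K : Set G) := by
  have hpow : ∀ n : ℕ, ∀ x ∈ K, a ^ n * x * (a ^ n)⁻¹ ∈ K := by
    intro n
    induction n with
    | zero => intro x hx; simpa using hx
    | succ n ih =>
      intro x hx
      have := ih _ (h x hx)
      convert this using 1
      group
  rw [Subgroup.mem_normalizer_iff]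
  intro y
  refine ⟨fun hy => h y hy, fun hy => ?_⟩
  have hn : 0 < orderOf a := orderOf_pos a
  have h1 := hpow (orderOf a - 1) _ hy
  have h2 : a ^ (orderOf a - 1) * a = 1 := by
    rw [← pow_succ, Nat.sub_add_cancel hn, pow_orderOf_eq_one]
  have h3 : a ^ (orderOf a - 1) * (a * y * a⁻¹) * (a ^ (orderOf a - 1))⁻¹ = y := by
    have h4 : a ^ (orderOf a - 1) = a⁻¹ := eq_inv_of_mul_eq_one_left h2
    rw [h4]
    group
  rwa [h3] at h1

lemma transfer_ker {U : Type u} [Group U] [Finite U] {φ β Ξ : U → ℂ} (hβ : IsCharacter U β)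
    (hΞ : IsCharacter U Ξ) (hφ : φ = β + Ξ) (m : U) (h : φ m = φ 1) : β m = β 1 := by
  have h1 : β m + Ξ m = β 1 + Ξ 1 := by
    have := h
    rw [hφ] at this
    simpa using this
  have hb := charDegree_cast' hβ
  have hx := charDegree_cast' hΞ
  have hbn := IsCharacter.norm_le hβ m
  have hxn := IsCharacter.norm_le hΞ m
  rw [hb] at hbn h1
  rw [hx] at hxn h1
  have hbn' : ‖β m‖ ≤ (charDegree β : ℝ) := by simpa using hbn
  have hxn' : ‖Ξ m‖ ≤ (charDegree Ξ : ℝ) := by simpa using hxn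
  have h2 := congrArg Complex.re h1
  simp only [Complex.add_re, Complex.natCast_re] at h2
  have h3 := Complex.re_le_norm (Ξ m)
  have h4 : (charDegree β : ℝ) ≤ (β m).re := by linarith
  have h5 := eq_of_re_ge hbn' h4
  rw [hb, h5]
  simp

lemma mem_smul_sylow {Γ : Type*} [Group Γ] {p : ℕ} (S : Sylow p Γ) (a x : Γ) :
    x ∈ ((a • S : Sylow p Γ) : Subgroup Γ) ↔ a⁻¹ * x * a ∈ (S : Subgroup Γ) := by
  rw [Sylow.coe_subgroup_smul, Subgroup.mem_pointwise_smul_iff_inv_smul_mem]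
  simp [MulAut.smul_def]

lemma claimA (P : Sylow 2 G) (M M0 : Subgroup G) [hMn : M.Normal] [hM0n : M0.Normal]
    (hMM0 : M ≤ M0) (hPM0 : (P : Subgroup G) ≤ M0)
    (hcomm : (⁅(P : Subgroup G), (P : Subgroup G)⁆ : Subgroup G) ≤ M)
    (hNM0 : ∀ y ∈ Subgroup.normalizer ((P : Subgroup G) : Set G), y ∈ M0 → y ∈ (P : Subgroup G))
    (hM : ∀ g, g ∈ M ↔ ∀ χ : IrrCharacter G, ¬ 2 ∣ charDegree (χ : G → ℂ) →
      (χ : G → ℂ) g = (χ : G → ℂ) 1) :
    ∀ g ∈ M0, (QuotientGroup.mk' M) g ∈ (P : Subgroup G).map (QuotientGroup.mk' M) := by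
  classical
  haveI : Fact (Nat.Prime 2) := ⟨Nat.prime_two⟩
  letI : Fintype G := Fintype.ofFinite G
  set f := QuotientGroup.mk' M with hf
  have hfs : Function.Surjective f := QuotientGroup.mk'_surjective M
  set Pb := (P : Subgroup G).map f with hPb
  set Hb := M0.map f with hHb
  haveI hHbn : Hb.Normal := hM0n.map f hfs
  have hPbHb : Pb ≤ Hb := Subgroup.map_mono hPM0
  have hcommP : ∀ a ∈ Pb, ∀ b ∈ Pb, a * b = b * a := by
    rintro _ ⟨x, hx, rfl⟩ _ ⟨y, hy, rfl⟩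
    have hc : ⁅x, y⁆ ∈ M := hcomm (Subgroup.commutator_mem_commutator hx hy)
    have h1 : f ⁅x, y⁆ = 1 := (QuotientGroup.eq_one_iff _).2 hc
    rw [commutatorElement_def, map_mul, map_mul, map_mul, map_inv, map_inv] at h1
    calc f x * f y = (f x * f y * (f x)⁻¹ * (f y)⁻¹) * (f y * f x) := by group
      _ = f y * f x := by rw [h1, one_mul]
  -- the key normalizing lemma
  have hsn : ∀ g ∈ M0, (∀ x ∈ (P : Subgroup G), f (g * x * g⁻¹) ∈ Pb) → f g ∈ Pb := by
    intro g hg hgx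
    let X : Subgroup G := Pb.comap f
    have hPX : (P : Subgroup G) ≤ X := Subgroup.le_comap_map f _
    have hXM0 : X ≤ M0 := by
      intro y hy
      obtain ⟨x, hx, hxy⟩ := (Subgroup.mem_comap.1 hy)
      have h1 : x⁻¹ * y ∈ M := by
        rw [← QuotientGroup.eq_one_iff (N := M)]
        show f (x⁻¹ * y) = 1
        rw [map_mul, map_inv, hxy, inv_mul_cancel]
      have h2 := M0.mul_mem (hPM0 hx) (hMM0 h1)
      simpa using h2
    let P2 : Sylow 2 G := g • P
    have hP2mem : ∀ x ∈ (P : Subgroup G), g * x * g⁻¹ ∈ (P2 : Subgroup G) := by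
      intro x hx
      rw [mem_smul_sylow]
      have h0 : g⁻¹ * (g * x * g⁻¹) * g = x := by group
      rwa [h0]
    have hP2X : (P2 : Subgroup G) ≤ X := by
      intro y hy
      have hz : g⁻¹ * y * g ∈ (P : Subgroup G) := (mem_smul_sylow P g y).1 hy
      have := hgx _ hz
      have h3 : g * (g⁻¹ * y * g) * g⁻¹ = y := by group
      rw [h3] at this
      exact this
    obtain ⟨u, hu⟩ := MulAction.exists_smul_eq X (P2.subtype hP2X) (P.subtype hPX)
    have hconj : ∀ x ∈ (P : Subgroup G), ((u : G) * g) * x * ((u : G) * g)⁻¹ ∈ (P : Subgroup G) := by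
      intro x hx
      have hz := hP2mem x hx
      let z : X := ⟨g * x * g⁻¹, hP2X hz⟩
      have hz' : z ∈ ((P2.subtype hP2X : Sylow 2 X) : Subgroup X) := by
        rw [Sylow.coe_subtype]
        exact Subgroup.mem_subgroupOf.2 hz
      have h5 : u * z * u⁻¹ ∈ ((u • (P2.subtype hP2X) : Sylow 2 X) : Subgroup X) := by
        rw [mem_smul_sylow]
        have h0 : u⁻¹ * (u * z * u⁻¹) * u = z := by group
        rwa [h0]
      rw [hu, Sylow.coe_subtype] at h5
      have h6 : (u * z * u⁻¹ : X).1 ∈ (P : Subgroup G) := Subgroup.mem_subgroupOf.1 h5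
      convert h6 using 1
      show _ = (u : G) * (g * x * g⁻¹) * (u : G)⁻¹
      group
    have hnorm := mem_normalizer_of_conj_subset _ _ hconj
    have hinM0 : (u : G) * g ∈ M0 := M0.mul_mem (hXM0 u.2) hg
    have hinP := hNM0 _ hnorm hinM0
    have h7 : f ((u : G) * g) ∈ Pb := Subgroup.mem_map_of_mem f hinP
    rw [map_mul] at h7
    have h8 : f (u : G) ∈ Pb := u.2
    have h9 := Pb.mul_mem (Pb.inv_mem h8) h7
    simpa using h9
  -- Burnside in `Hb`
  let Q1 : Subgroup Hb := Pb.subgroupOf Hb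
  have hPbp : IsPGroup 2 Pb := P.2.map f
  have hQ1p : IsPGroup 2 Q1 := hPbp.comap_of_injective (Hb.subtype) Hb.subtype_injective
  have hPbidx : ¬ 2 ∣ Pb.index := fun h =>
    P.not_dvd_index (h.trans (Subgroup.index_map_dvd _ hfs))
  have hQ1idx : ¬ 2 ∣ Q1.index := by
    intro h
    apply hPbidx
    have h1 : Q1.index = Pb.relIndex Hb := rfl
    rw [← Subgroup.relIndex_mul_index hPbHb]
    exact Dvd.dvd.mul_right (h1 ▸ h) _
  let S1 : Sylow 2 Hb := hQ1p.toSylow hQ1idx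
  have hS1 : ∀ h : Hb, h ∈ (S1 : Subgroup Hb) ↔ (h : G ⧸ M) ∈ Pb := fun h => by
    show h ∈ (hQ1p.toSylow hQ1idx) ↔ _
    rw [IsPGroup.mem_toSylow]
    exact Subgroup.mem_subgroupOf
  have hrep : ∀ h : Hb, ∃ g ∈ M0, f g = h := fun h => h.2
  have hnorm : Subgroup.normalizer ((S1 : Subgroup Hb) : Set Hb) ≤
      Subgroup.centralizer ((S1 : Subgroup Hb) : Set Hb) := by
    intro h hh
    obtain ⟨g, hg, hgh⟩ := hrep h
    have hmem : (h : G ⧸ M) ∈ Pb := by
      rw [← hgh]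
      apply hsn g hg
      intro x hx
      have hfx : f x ∈ Pb := Subgroup.mem_map_of_mem f hx
      let xb : Hb := ⟨f x, hPbHb hfx⟩
      have h1 : xb ∈ (S1 : Subgroup Hb) := (hS1 xb).2 hfx
      have h2 : h * xb * h⁻¹ ∈ (S1 : Subgroup Hb) := (Subgroup.mem_normalizer_iff.1 hh xb).1 h1
      have h3 := (hS1 _).1 h2
      have h4 : ((h * xb * h⁻¹ : Hb) : G ⧸ M) = f (g * x * g⁻¹) := by
        rw [map_mul, map_mul, map_inv, hgh]
        rfl
      rwa [h4] at h3
    rw [Subgroup.mem_centralizer_iff]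
    intro y hy
    apply Subtype.ext
    exact hcommP _ ((hS1 y).1 hy) _ hmem
  have hB := MonoidHom.ker_transferSylow_isComplement' S1 hnorm
  set L := (MonoidHom.transferSylow S1 hnorm).ker with hL
  have hLcop : (Nat.card L).Coprime 2 :=
    (Nat.Prime.coprime_iff_not_dvd Nat.prime_two).2
      (MonoidHom.not_dvd_card_ker_transferSylow S1 hnorm) |>.symm
  obtain ⟨k, hk⟩ := hQ1p.exists_card_eq
  have hLidx : L.index = 2 ^ k := by
    rw [hB.symm.index_eq_card, ← hk]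
    rfl
  let A : Subgroup (G ⧸ M) := L.map Hb.subtype
  haveI hAn : A.Normal := normal_map_of_complement Hb L hLcop k hLidx
  letI : Fintype (G ⧸ M) := Fintype.ofFinite _
  letI : Fintype A := Fintype.ofFinite _
  have hfix : ∀ a ∈ A, (∀ q ∈ Pb, q * a * q⁻¹ = a) → a = 1 := by
    rintro _ ⟨l, hl, rfl⟩ hq
    obtain ⟨g, hg, hgl⟩ := hrep l
    have hmem : (l : G ⧸ M) ∈ Pb := by
      rw [← hgl]
      apply hsn g hg
      intro x hx
      have hfx : f x ∈ Pb := Subgroup.mem_map_of_mem f hx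
      have h1 := hq (f x) hfx
      have h2 : f (g * x * g⁻¹) = f x := by
        rw [map_mul, map_mul, map_inv, hgl]
        show (l : G ⧸ M) * f x * (l : G ⧸ M)⁻¹ = f x
        have h3 : f x * (l : G ⧸ M) = (l : G ⧸ M) * f x := by
          have : f x * (l : G ⧸ M) * (f x)⁻¹ = (l : G ⧸ M) := h1
          calc f x * (l : G ⧸ M) = (f x * (l : G ⧸ M) * (f x)⁻¹) * f x := by group
            _ = (l : G ⧸ M) * f x := by rw [this]
        rw [← h3]
        group
      rw [h2]; exact hfx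
    have hlS : l ∈ (S1 : Subgroup Hb) := (hS1 l).2 hmem
    have hdis := hB.disjoint
    have : l = 1 := Subgroup.disjoint_def.1 hdis hl hlS
    rw [this]; rfl
  have hAbot : ∀ a ∈ A, a = 1 := by
    intro a ha
    obtain ⟨g, rfl⟩ := hfs a
    refine (QuotientGroup.eq_one_iff g).2 ?_
    rw [hM]
    intro χ hχ
    have hker : ∀ n ∈ M, (χ : G → ℂ) n = (χ : G → ℂ) 1 := fun n hn => (hM n).1 hn χ hχ
    obtain ⟨χb, hχb⟩ := Cfsg.Agent.Lib.Blocks.Kernel.exists_irr_of_kernel (N := M) χ.2 hker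
    have hval : ∀ g' : G, (χ : G → ℂ) g' = (χb : G ⧸ M → ℂ) (f g') := fun g' => congrFun hχb g'
    have hdegb : charDegree (χb : G ⧸ M → ℂ) = charDegree (χ : G → ℂ) := by
      unfold charDegree
      rw [hval 1, map_one]
    have hoddb : ¬ 2 ∣ charDegree (χb : G ⧸ M → ℂ) := by rw [hdegb]; exact hχ
    have h1 := over_of_odd_of_fixed A Pb hPbp hfix χb.2 hoddb (f g) ha
    rw [hval g, h1, hval 1, map_one]
  have hLbot : L = ⊥ := by
    rw [eq_bot_iff]
    intro l hl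
    have := hAbot l (Subgroup.mem_map_of_mem _ hl)
    exact Subgroup.mem_bot.2 (Subtype.ext this)
  have htop : (S1 : Subgroup Hb) = ⊤ := by
    have h1 := hB.sup_eq_top
    rwa [hLbot, bot_sup_eq] at h1
  intro g hg
  have h1 : (⟨f g, Subgroup.mem_map_of_mem f hg⟩ : Hb) ∈ (S1 : Subgroup Hb) := by
    rw [htop]; exact Subgroup.mem_top _
  exact (hS1 _).1 h1

end assembly

section assembly2

variable {G : Type u} [Group G] [Finite G]

theorem complement_of_A (P : Sylow 2 G)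
    (A1 : ∀ χ : IrrCharacter G, ¬ 2 ∣ charDegree (χ : G → ℂ) →
      ∀ u ∈ (⁅(P : Subgroup G), (P : Subgroup G)⁆ : Subgroup G), (χ : G → ℂ) u = (χ : G → ℂ) 1)
    (A2 : ∀ y ∈ Subgroup.normalizer ((P : Subgroup G) : Set G),
      (∀ χ : IrrCharacter G, ¬ 2 ∣ charDegree (χ : G → ℂ) →
        (∀ x ∈ (P : Subgroup G), (χ : G → ℂ) x = (χ : G → ℂ) 1) → (χ : G → ℂ) y = (χ : G → ℂ) 1) →
      y ∈ (P : Subgroup G)) :
    ∃ K : Subgroup G, K.Normal ∧ K ⊓ Subgroup.normalizer ((P : Subgroup G) : Set G) = ⊥ ∧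
      K ⊔ Subgroup.normalizer ((P : Subgroup G) : Set G) = ⊤ := by
  classical
  haveI : Fact (Nat.Prime 2) := ⟨Nat.prime_two⟩
  letI : Fintype G := Fintype.ofFinite G
  letI : Fintype (IrrCharacter G) := Fintype.ofFinite _
  let Ood : Set (IrrCharacter G) := {χ | ¬ 2 ∣ charDegree (χ : G → ℂ)}
  let Ood0 : Set (IrrCharacter G) := {χ | ¬ 2 ∣ charDegree (χ : G → ℂ) ∧
    ∀ x ∈ (P : Subgroup G), (χ : G → ℂ) x = (χ : G → ℂ) 1}
  let M := Cfsg.Agent.Lib.Blocks.Kernel.blockKerSubgroup Ood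
  let M0 := Cfsg.Agent.Lib.Blocks.Kernel.blockKerSubgroup Ood0
  haveI hMn : M.Normal := Cfsg.Agent.Lib.Blocks.Kernel.normal_blockKerSubgroup _
  haveI hM0n : M0.Normal := Cfsg.Agent.Lib.Blocks.Kernel.normal_blockKerSubgroup _
  have hPM0 : (P : Subgroup G) ≤ M0 := fun x hx χ hχ => hχ.2 x hx
  have hMM0 : M ≤ M0 := fun y hy χ hχ => hy χ hχ.1
  have hNM0 : ∀ y ∈ Subgroup.normalizer ((P : Subgroup G) : Set G), y ∈ M0 →
      y ∈ (P : Subgroup G) :=
    fun y hy hy0 => A2 y hy (fun χ hχ hx => hy0 χ ⟨hχ, hx⟩)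
  have hcomm : (⁅(P : Subgroup G), (P : Subgroup G)⁆ : Subgroup G) ≤ M :=
    fun u hu χ hχ => A1 χ hχ u hu
  have hM : ∀ g, g ∈ M ↔ ∀ χ : IrrCharacter G, ¬ 2 ∣ charDegree (χ : G → ℂ) →
      (χ : G → ℂ) g = (χ : G → ℂ) 1 := fun g => Iff.rfl
  have hA := claimA P M M0 hMM0 hPM0 hcomm hNM0 hM
  have hcommM0 : ∀ a ∈ M0, ∀ b ∈ M0, ⁅a, b⁆ ∈ M := by
    intro a ha b hb
    obtain ⟨x, hx, hxa⟩ := hA a ha
    obtain ⟨y, hy, hyb⟩ := hA b hb
    rw [← QuotientGroup.eq_one_iff]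
    have h1 : ⁅x, y⁆ ∈ M := hcomm (Subgroup.commutator_mem_commutator hx hy)
    have h2 : QuotientGroup.mk' M ⁅x, y⁆ = 1 := (QuotientGroup.eq_one_iff _).2 h1
    rw [map_commutatorElement, hxa, hyb, ← map_commutatorElement] at h2
    exact h2
  have hidx : ¬ 2 ∣ M0.index := fun h => P.not_dvd_index (h.trans (Subgroup.index_dvd_of_le hPM0))
  letI : Fintype M0 := Fintype.ofFinite _
  have hdeg : ∀ μ : IrrCharacter M0, charDegree (μ : M0 → ℂ) ≠ 1 → 2 ∣ charDegree (μ : M0 → ℂ) := by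
    intro μ hne
    by_contra hodd
    apply hne
    obtain ⟨χ, hχ, hcl⟩ := exists_odd_over M0 hidx μ.2 hodd
    obtain ⟨Ξ, hΞ, hsplit⟩ := exists_char_add (isCharacter_restrict (irr_isChar χ.2) M0) μ.2 hcl
    have hker : ∀ m : M0, (m : G) ∈ M → (μ : M0 → ℂ) m = (μ : M0 → ℂ) 1 := by
      intro m hm
      apply transfer_ker (irr_isChar μ.2) hΞ hsplit m
      show (χ : G → ℂ) m = (χ : G → ℂ) ((1 : M0) : G)
      rw [OneMemClass.coe_one]
      exact hm χ hχ
    have hcomm2 : commutator M0 ≤ M.comap M0.subtype := by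
      rw [commutator_def, Subgroup.commutator_le]
      intro a _ b _
      exact hcommM0 a a.2 b b.2
    obtain ⟨μ', hμ'⟩ := Cfsg.Agent.Lib.Blocks.Kernel.exists_irr_of_kernel (N := commutator M0) μ.2
      (fun n hn => hker n (hcomm2 hn))
    letI : Fintype (M0 ⧸ commutator M0) := Fintype.ofFinite _
    haveI hAc : IsMulCommutative (⊤ : Subgroup (M0 ⧸ commutator M0)) := by
      refine ⟨⟨fun a b => ?_⟩⟩
      apply Subtype.ext
      show a.1 * b.1 = b.1 * a.1
      exact mul_comm (G := Abelianization M0) a.1 b.1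
    obtain ⟨e, he, hd⟩ := Cfsg.Agent.Lib.Palfy.exists_degree_dvd_index_of_abelian
      (⊤ : Subgroup (M0 ⧸ commutator M0)) μ'.2
    rw [Subgroup.index_top, Nat.dvd_one] at hd
    have h1 : (μ : M0 → ℂ) 1 = ((1 : ℕ) : ℂ) := by
      rw [hμ']
      show (μ' : M0 ⧸ commutator M0 → ℂ) 1 = _
      rw [he, hd]
    exact IsCharacter.charDegree_eq (irr_isChar μ.2) h1
  obtain ⟨K0, hK0n, hK0c, k, hK0i⟩ := Cfsg.Agent.S4456.result (G := M0) 2 Nat.prime_two hdeg
  haveI := hK0n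
  refine ⟨K0.map M0.subtype, normal_map_of_complement M0 K0 hK0c k hK0i, ?_, ?_⟩
  · rw [eq_bot_iff]
    rintro y ⟨⟨a, ha, rfl⟩, hyN⟩
    have hyP : (a : G) ∈ (P : Subgroup G) := hNM0 _ hyN a.2
    have h1 : a ^ Nat.card K0 = 1 := by
      have := pow_card_eq_one' (x := (⟨a, ha⟩ : K0))
      exact congrArg Subtype.val this
    have h1' : (a : G) ^ Nat.card K0 = 1 := congrArg Subtype.val h1
    obtain ⟨j, hj⟩ := P.2 ⟨a, hyP⟩
    have h2 : (a : G) ^ (2 ^ j) = 1 := congrArg Subtype.val hj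
    have h3 : (a : G) ^ Nat.gcd (Nat.card K0) (2 ^ j) = 1 := pow_gcd_eq_one.2 ⟨h1', h2⟩
    have hg : Nat.gcd (Nat.card K0) (2 ^ j) = 1 := Nat.Coprime.pow_right j hK0c
    rw [hg, pow_one] at h3
    exact Subgroup.mem_bot.2 h3
  · have hF := Sylow.normalizer_sup_eq_top' P hPM0
    let Q2 : Subgroup M0 := (P : Subgroup G).subgroupOf M0
    have hsup : K0 ⊔ Q2 = ⊤ := by
      rw [← Subgroup.index_eq_one]
      have h1 : (K0 ⊔ Q2).index ∣ K0.index := Subgroup.index_dvd_of_le le_sup_left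
      have h2 : (K0 ⊔ Q2).index ∣ Q2.index := Subgroup.index_dvd_of_le le_sup_right
      have h3 : Q2.index ∣ (P : Subgroup G).index := by
        show (P : Subgroup G).relIndex M0 ∣ _
        rw [← Subgroup.relIndex_mul_index hPM0]
        exact Dvd.intro _ rfl
      have h4 : ¬ 2 ∣ (K0 ⊔ Q2).index := fun h => P.not_dvd_index (h.trans (h2.trans h3))
      rw [hK0i] at h1
      obtain ⟨j, -, hj⟩ := (Nat.dvd_prime_pow Nat.prime_two).1 h1
      rcases j with _ | j
      · simpa using hj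
      · exfalso
        apply h4
        rw [hj, pow_succ]
        exact Dvd.intro_left _ rfl
    rw [eq_top_iff, ← hF]
    apply sup_le le_sup_right
    intro g hg
    have h1 : (⟨g, hg⟩ : M0) ∈ K0 ⊔ Q2 := by rw [hsup]; exact Subgroup.mem_top _
    have h2 : g ∈ (K0 ⊔ Q2).map M0.subtype := ⟨⟨g, hg⟩, h1, rfl⟩
    rw [Subgroup.map_sup] at h2
    have h5 : Q2.map M0.subtype ≤ Subgroup.normalizer ((P : Subgroup G) : Set G) := by
      rintro _ ⟨a, ha, rfl⟩
      exact Subgroup.le_normalizer (Subgroup.mem_subgroupOf.1 ha)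
    have h6 := sup_le_sup_left h5 (K0.map M0.subtype)
    exact h6 h2

end assembly2


section final

/-- See the statement. -/
theorem result {G : Type*} [Group G] [Finite G] (P : Sylow 2 G) :
    Nat.card (Subgroup.normalizer ((P : Subgroup G) : Set G)) ≤ Nat.card (commutator ↥P) * (∑ᶠ χ : {χ : Cfsg.IrrCharacter G // ¬ 2 ∣ Cfsg.charDegree (χ : G → ℂ)}, Cfsg.charDegree (χ.1 : G → ℂ) ^ 2) ∧
    (Nat.card (Subgroup.normalizer ((P : Subgroup G) : Set G)) = Nat.card (commutator ↥P) * (∑ᶠ χ : {χ : Cfsg.IrrCharacter G // ¬ 2 ∣ Cfsg.charDegree (χ : G → ℂ)}, Cfsg.charDegree (χ.1 : G → ℂ) ^ 2) ↔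
      ∃ K : Subgroup G, K.Normal ∧ K ⊓ Subgroup.normalizer ((P : Subgroup G) : Set G) = ⊥ ∧ K ⊔ Subgroup.normalizer ((P : Subgroup G) : Set G) = ⊤) := by
  classical
  haveI : Fact (Nat.Prime 2) := ⟨Nat.prime_two⟩
  letI : Fintype G := Fintype.ofFinite G
  letI : Fintype (IrrCharacter G) := Fintype.ofFinite _
  have hfin : (∑ᶠ χ : {χ : Cfsg.IrrCharacter G // ¬ 2 ∣ Cfsg.charDegree (χ : G → ℂ)},
      Cfsg.charDegree (χ.1 : G → ℂ) ^ 2) =
      ∑ χ ∈ Finset.univ.filter (fun χ : IrrCharacter G => ¬ 2 ∣ charDegree (χ : G → ℂ)),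
        charDegree (χ : G → ℂ) ^ 2 := by
    rw [finsum_eq_sum_of_fintype]
    exact (Finset.sum_subtype (p := fun χ : IrrCharacter G => ¬ 2 ∣ charDegree (χ : G → ℂ))
      (Finset.univ.filter (fun χ : IrrCharacter G => ¬ 2 ∣ charDegree (χ : G → ℂ)))
      (fun χ => by simp only [Finset.mem_filter, Finset.mem_univ, true_and])
      (fun χ : IrrCharacter G => charDegree (χ : G → ℂ) ^ 2)).symm
  rw [hfin]
  set I := Finset.univ.filter (fun χ : IrrCharacter G => ¬ 2 ∣ charDegree (χ : G → ℂ)) with hI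
  let N := Subgroup.normalizer ((P : Subgroup G) : Set G)
  letI : Fintype N := Fintype.ofFinite _
  letI : Fintype (IrrCharacter N) := Fintype.ofFinite _
  have hPN : (P : Subgroup G) ≤ N := Subgroup.le_normalizer
  let Q : Subgroup N := (P : Subgroup G).subgroupOf N
  haveI hQn : Q.Normal := Subgroup.normal_in_normalizer
  have hQp : IsPGroup 2 Q := P.2.comap_subtype
  have hrel : Q.index ∣ (P : Subgroup G).index := by
    show (P : Subgroup G).relIndex N ∣ _
    rw [← Subgroup.relIndex_mul_index hPN]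
    exact Dvd.intro _ rfl
  have hQidx : ¬ 2 ∣ Q.index := fun h => P.not_dvd_index (h.trans hrel)
  have hNidx : ¬ 2 ∣ N.index := fun h => P.not_dvd_index (h.trans (Subgroup.index_dvd_of_le hPN))
  let R : Subgroup N := ⁅Q, Q⁆
  haveI hRn : R.Normal := Subgroup.commutator_normal Q Q
  letI : Fintype R := Fintype.ofFinite _
  let S : Finset (IrrCharacter N) :=
    Finset.univ.filter fun ψ => ∀ u ∈ R, (ψ : N → ℂ) u = (ψ : N → ℂ) 1
  have hSodd : ∀ ψ ∈ S, ¬ 2 ∣ charDegree (ψ : N → ℂ) := fun ψ hψ =>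
    odd_of_over Q hQidx ψ.2 (Finset.mem_filter.1 hψ).2
  have hsq : ∀ ψ : IrrCharacter N, (ψ : N → ℂ) 1 * (ψ : N → ℂ) 1 =
      ((charDegree (ψ : N → ℂ) ^ 2 : ℕ) : ℂ) := by
    intro ψ
    rw [charDegree_cast' (irr_isChar ψ.2)]
    push_cast
    ring
  have hcard : Nat.card N = Nat.card R * ∑ ψ ∈ S, charDegree (ψ : N → ℂ) ^ 2 := by
    have h1 := sum_over R (1 : N)
    rw [if_pos R.one_mem] at h1
    simp only [hsq] at h1
    have h2 : ((Nat.card R * ∑ ψ ∈ S, charDegree (ψ : N → ℂ) ^ 2 : ℕ) : ℂ) = (Nat.card N : ℂ) := by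
      push_cast
      push_cast at h1
      convert h1 using 3
    exact_mod_cast h2.symm
  have hRmap : R.map N.subtype = ⁅(P : Subgroup G), (P : Subgroup G)⁆ := by
    show (⁅Q, Q⁆ : Subgroup N).map N.subtype = _
    rw [Subgroup.map_commutator]
    have h1 : Q.map N.subtype = (P : Subgroup G) := by
      show ((P : Subgroup G).subgroupOf N).map N.subtype = _
      rw [Subgroup.subgroupOf_map_subtype, inf_of_le_left hPN]
    rw [h1]
  have hRcard : Nat.card R = Nat.card (commutator ↥P) := by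
    have h1 : Nat.card (R.map N.subtype) = Nat.card R :=
      Subgroup.card_map_of_injective N.subtype_injective
    have h2 : Nat.card ((commutator ↥(P : Subgroup G)).map (P : Subgroup G).subtype) =
        Nat.card (commutator ↥(P : Subgroup G)) :=
      Subgroup.card_map_of_injective (P : Subgroup G).subtype_injective
    rw [Subgroup.map_subtype_commutator] at h2
    rw [← h1, hRmap, h2]
    rfl
  have hcore := core_count N hNidx S hSodd
  rw [← hRcard]
  refine ⟨?_, ⟨fun heq => ?_, ?_⟩⟩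
  · show Nat.card N ≤ _
    rw [hcard]
    exact Nat.mul_le_mul_left _ hcore.1
  · -- equality implies a complement
    have hRpos : 0 < Nat.card R := Nat.card_pos
    have hsumeq : ∑ ψ ∈ S, charDegree (ψ : N → ℂ) ^ 2 = ∑ χ ∈ I, charDegree (χ : G → ℂ) ^ 2 := by
      have h1 : Nat.card R * ∑ ψ ∈ S, charDegree (ψ : N → ℂ) ^ 2 =
          Nat.card R * ∑ χ ∈ I, charDegree (χ : G → ℂ) ^ 2 := by
        rw [← hcard]; exact heq
      exact Nat.eq_of_mul_eq_mul_left hRpos h1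
    obtain ⟨ha, hb⟩ := hcore.2 hsumeq
    apply complement_of_A P
    · intro χ hχ u hu
      obtain ⟨ψ, hψ, hval⟩ := ha χ hχ
      have hψ2 := (Finset.mem_filter.1 hψ).2
      rw [← hRmap] at hu
      obtain ⟨r, hr, rfl⟩ := hu
      have h1 := hval r
      have h2 := hval 1
      rw [OneMemClass.coe_one] at h2
      show (χ : G → ℂ) r = _
      rw [h1, h2, hψ2 r hr]
    · intro y hy hall
      let y' : N := ⟨y, hy⟩
      have h1 := sum_over Q y'
      have h2 := sum_over Q (1 : N)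
      rw [if_pos Q.one_mem] at h2
      have h3 : ∀ ψ ∈ (Finset.univ.filter fun ψ : IrrCharacter N =>
          ∀ u ∈ Q, (ψ : N → ℂ) u = (ψ : N → ℂ) 1), (ψ : N → ℂ) 1 * (ψ : N → ℂ) y' =
            (ψ : N → ℂ) 1 * (ψ : N → ℂ) 1 := by
        intro ψ hψ
        have hψQ := (Finset.mem_filter.1 hψ).2
        have hψS : ψ ∈ S := Finset.mem_filter.2 ⟨Finset.mem_univ _, fun u hu =>
          hψQ u (Subgroup.commutator_le_left Q Q hu)⟩
        obtain ⟨χ, hχ, hval⟩ := hb ψ hψS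
        have h4 := hval 1
        rw [OneMemClass.coe_one] at h4
        have hover : ∀ x ∈ (P : Subgroup G), (χ : G → ℂ) x = (χ : G → ℂ) 1 := by
          intro x hx
          have h5 := hval ⟨x, hPN hx⟩
          have h6 : (⟨x, hPN hx⟩ : N) ∈ Q := Subgroup.mem_subgroupOf.2 hx
          show _ = _
          rw [h4, ← hψQ _ h6]
          exact h5
        have h7 := hall χ hχ hover
        have h8 := hval y'
        have h9 : (ψ : N → ℂ) y' = (ψ : N → ℂ) 1 := by
          rw [← h8, ← h4]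
          exact h7
        rw [h9]
      rw [Finset.sum_congr rfl h3] at h1
      rw [h2] at h1
      by_contra hyP
      have hy'Q : y' ∉ Q := fun h => hyP (Subgroup.mem_subgroupOf.1 h)
      rw [if_neg hy'Q] at h1
      exact (Nat.cast_ne_zero.2 Nat.card_pos.ne') h1
  · -- a complement implies equality
    rintro ⟨K, hKn, hKN, hKtop⟩
    letI : Fintype K := Fintype.ofFinite _
    have hfixK : ∀ a ∈ K, (∀ q ∈ (P : Subgroup G), q * a * q⁻¹ = a) → a = 1 := by
      intro a ha hq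
      have hn : a ∈ N := by
        apply mem_normalizer_of_conj_subset
        intro x hx
        have h1 := hq x hx
        have h3 : x * a = a * x := by
          calc x * a = (x * a * x⁻¹) * x := by group
            _ = a * x := by rw [h1]
        have h2 : a * x * a⁻¹ = x := by
          rw [← h3]; group
        rw [h2]; exact hx
      have : a ∈ K ⊓ N := ⟨ha, hn⟩
      rw [hKN] at this
      exact Subgroup.mem_bot.1 this
    have hover : ∀ χ : IrrCharacter G, ¬ 2 ∣ charDegree (χ : G → ℂ) →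
        ∀ k ∈ K, (χ : G → ℂ) k = (χ : G → ℂ) 1 := fun χ hχ =>
      over_of_odd_of_fixed K (P : Subgroup G) P.2 hfixK χ.2 hχ
    let mkN : N →* G ⧸ K := (QuotientGroup.mk' K).comp N.subtype
    have hsurj : Function.Surjective mkN := by
      intro z
      obtain ⟨g, rfl⟩ := QuotientGroup.mk_surjective z
      have hg : g ∈ ((K ⊔ N : Subgroup G) : Set G) := by
        show g ∈ K ⊔ N
        rw [hKtop]; exact Subgroup.mem_top _
      rw [Subgroup.normal_mul] at hg
      obtain ⟨k, hk, n, hn, rfl⟩ := Set.mem_mul.1 hg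
      refine ⟨⟨n, hn⟩, ?_⟩
      show (QuotientGroup.mk n : G ⧸ K) = QuotientGroup.mk (k * n)
      rw [QuotientGroup.eq]
      have h1 : n⁻¹ * (k * n) = n⁻¹ * k * n⁻¹⁻¹ := by group
      rw [h1]
      exact hKn.conj_mem k hk n⁻¹
    have hres : ∀ χ : IrrCharacter G, ¬ 2 ∣ charDegree (χ : G → ℂ) →
        IsIrrCharacter N (fun n : N => (χ : G → ℂ) n) ∧
        ∀ k ∈ K, ∀ n : G, (χ : G → ℂ) (k * n) = (χ : G → ℂ) n := by
      intro χ hχ
      obtain ⟨χb, hχb⟩ := Cfsg.Agent.Lib.Blocks.Kernel.exists_irr_of_kernel (N := K) χ.2 (hover χ hχ)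
      have hval : ∀ g : G, (χ : G → ℂ) g = (χb : G ⧸ K → ℂ) (g : G ⧸ K) := fun g => congrFun hχb g
      constructor
      · have h1 := isIrrCharacter_comp_surjective χb.2 mkN hsurj
        convert h1 using 1
        funext n
        exact hval n
      · intro k hk n
        rw [hval, hval]
        have h2 : ((k * n : G) : G ⧸ K) = (n : G ⧸ K) := by
          rw [QuotientGroup.eq]
          have h1 : (k * n)⁻¹ * n = n⁻¹ * k⁻¹ * n⁻¹⁻¹ := by group
          rw [h1]
          exact hKn.conj_mem _ (K.inv_mem hk) _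
        rw [h2]
    let Φ : IrrCharacter G → IrrCharacter N := fun χ =>
      if h : IsIrrCharacter N (fun n : N => (χ : G → ℂ) n) then ⟨_, h⟩
      else ⟨fun _ => 1, Cfsg.Agent.Lib.Char.Burnside2.isIrrCharacter_one⟩
    have hΦ : ∀ χ : IrrCharacter G, ¬ 2 ∣ charDegree (χ : G → ℂ) →
        ((Φ χ : IrrCharacter N) : N → ℂ) = fun n : N => (χ : G → ℂ) n := by
      intro χ hχ
      show ((if h : IsIrrCharacter N (fun n : N => (χ : G → ℂ) n) then _ else _ : IrrCharacter N) :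
        N → ℂ) = _
      rw [dif_pos (hres χ hχ).1]
    have hdegΦ : ∀ χ : IrrCharacter G, ¬ 2 ∣ charDegree (χ : G → ℂ) →
        charDegree ((Φ χ : IrrCharacter N) : N → ℂ) = charDegree (χ : G → ℂ) := by
      intro χ hχ
      rw [hΦ χ hχ]
      unfold charDegree
      simp
    have hΦS : ∀ χ ∈ I, Φ χ ∈ S := by
      intro χ hχ
      have hχ' := (Finset.mem_filter.1 hχ).2
      refine Finset.mem_filter.2 ⟨Finset.mem_univ _, ?_⟩
      exact over_of_odd Q hQp (Φ χ).2 (by rw [hdegΦ χ hχ']; exact hχ')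
    have hinj : Set.InjOn Φ (I : Set (IrrCharacter G)) := by
      intro χ hχ χ' hχ' hEq
      have h1 := (Finset.mem_filter.1 (Finset.mem_coe.1 hχ)).2
      have h2 := (Finset.mem_filter.1 (Finset.mem_coe.1 hχ')).2
      have h3 : ∀ n : N, (χ : G → ℂ) n = (χ' : G → ℂ) n := by
        intro n
        have h4 := congrFun (hΦ χ h1) n
        have h5 := congrFun (hΦ χ' h2) n
        rw [hEq] at h4
        exact h4.symm.trans h5
      apply Subtype.ext
      funext g
      have hg : g ∈ ((K ⊔ N : Subgroup G) : Set G) := by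
        show g ∈ K ⊔ N
        rw [hKtop]; exact Subgroup.mem_top _
      rw [Subgroup.normal_mul] at hg
      obtain ⟨k, hk, n, hn, rfl⟩ := Set.mem_mul.1 hg
      rw [(hres χ h1).2 k hk n, (hres χ' h2).2 k hk n]
      exact h3 ⟨n, hn⟩
    have hle : ∑ χ ∈ I, charDegree (χ : G → ℂ) ^ 2 ≤ ∑ ψ ∈ S, charDegree (ψ : N → ℂ) ^ 2 := by
      have h1 : ∑ χ ∈ I, charDegree (χ : G → ℂ) ^ 2 =
          ∑ ψ ∈ I.image Φ, charDegree (ψ : N → ℂ) ^ 2 := by
        rw [Finset.sum_image hinj]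
        refine Finset.sum_congr rfl fun χ hχ => ?_
        rw [hdegΦ χ (Finset.mem_filter.1 hχ).2]
      rw [h1]
      apply Finset.sum_le_sum_of_subset
      intro ψ hψ
      obtain ⟨χ, hχ, rfl⟩ := Finset.mem_image.1 hψ
      exact hΦS χ hχ
    show Nat.card N = _
    rw [hcard, le_antisymm hle hcore.1]

end final

end Cfsg.Agent.S4930
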