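import Cfsg.Statements.S4931
import Mathlib
import Cfsg.Agent.Lib.Char.NormExt

set_option autoImplicit false
open Cfsg

namespace Cfsg.Agent.S4931

open scoped Pointwise

open Cfsg.Agent.Lib.Char.Basic Cfsg.Agent.Lib.Char.Ortho Cfsg.Agent.Lib.Char.CliffordCorr
  Cfsg.Agent.Lib.Char.NormExt Cfsg.Agent.Lib.Transfer.Basic

/-- Let G be a finite group, p a prime and P a Sylow p-subgroup of G with normalizer N. Then every irreducible complex character of N of degree not divisible by p is the restriction of an irreducible character of G if and only if there is a normal subgroup K of G with KN = G and K ∩ N = 1. -/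
theorem result {G : Type*} [Group G] [Finite G] (p : ℕ) [Fact p.Prime] (P : Sylow p G) :
    (∀ θ : Cfsg.IrrCharacter ↥(Subgroup.normalizer ((P : Subgroup G) : Set G)), ¬ p ∣ Cfsg.charDegree (θ : ↥(Subgroup.normalizer ((P : Subgroup G) : Set G)) → ℂ) →
        ∃ χ : Cfsg.IrrCharacter G, ∀ x : ↥(Subgroup.normalizer ((P : Subgroup G) : Set G)), (χ : G → ℂ) x = (θ : ↥(Subgroup.normalizer ((P : Subgroup G) : Set G)) → ℂ) x) ↔
      ∃ K : Subgroup G, K.Normal ∧ K ⊔ Subgroup.normalizer ((P : Subgroup G) : Set G) = ⊤ ∧ K ⊓ Subgroup.normalizer ((P : Subgroup G) : Set G) = ⊥ := by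
  classical
  cases nonempty_fintype G
  set N : Subgroup G := Subgroup.normalizer ((P : Subgroup G) : Set G) with hNdef
  constructor
  · intro hyp
    have hPN : (P : Subgroup G) ≤ N := Subgroup.le_normalizer
    -- facts on the index
    have hnp : ¬ p ∣ ((P : Subgroup G).subgroupOf N).index := by
      intro h
      have h1 : ((P : Subgroup G).subgroupOf N).index = (P : Subgroup G).relIndex N := rfl
      have h2 := Subgroup.relIndex_mul_index hPN
      rw [← h1] at h2
      exact P.not_dvd_index (h2 ▸ Dvd.dvd.mul_right h _)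
    -- the normal closure
    let W : Subgroup G := Subgroup.normalClosure ((P : Subgroup G) : Set G)
    haveI hWn : W.Normal := Subgroup.normalClosure_normal
    have hPW : (P : Subgroup G) ≤ W := Subgroup.subset_normalClosure
    let PN : Subgroup N := (P : Subgroup G).subgroupOf N
    haveI hPNn : PN.Normal := Subgroup.normal_in_normalizer
    -- Part A
    have hWN : ∀ x ∈ W, x ∈ N → x ∈ (P : Subgroup G) := by
      intro x hxW hxN
      have h1 : (QuotientGroup.mk' PN) ⟨x, hxN⟩ = 1 := by
        letI : Fintype (N ⧸ PN) := Fintype.ofFinite _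
        apply Cfsg.Agent.Lib.Char.FrobeniusKernel.eq_one_of_forall_irr
        intro β hβ
        let θ : N → ℂ := fun n => β (QuotientGroup.mk' PN n)
        have hθ : IsIrrCharacter N θ := isIrrCharacter_comp_surjective hβ _ (QuotientGroup.mk'_surjective PN)
        have hdeg : ¬ p ∣ charDegree θ := by
          obtain ⟨d, hd, hd0, hdvd⟩ := Cfsg.Agent.Lib.Char.GlaubOver.exists_degree_dvd hβ
          have h2 : charDegree θ = d := by
            apply Cfsg.Agent.Lib.Char.Values.IsCharacter.charDegree_eq (isCharacter_of_isIrrCharacter hθ)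
            simpa [θ] using hd
          rw [h2]
          intro h3
          apply hnp
          have h4 : Nat.card (N ⧸ PN) = PN.index := rfl
          rw [← h4]
          exact h3.trans hdvd
        obtain ⟨χ, hχ⟩ := hyp ⟨θ, hθ⟩ hdeg
        obtain ⟨K, hKn, hK⟩ := Cfsg.Agent.Lib.Char.FrobeniusKernel.exists_kernel (isCharacter_of_isIrrCharacter χ.2)
        have hone : (χ : G → ℂ) 1 = β 1 := by
          have := hχ 1
          simpa [θ] using this
        have hPK : W ≤ K := by
          apply Subgroup.normalClosure_le_normal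
          intro y hy
          rw [SetLike.mem_coe, hK, hone]
          have := hχ ⟨y, hPN hy⟩
          rw [show ((⟨y, hPN hy⟩ : N) : G) = y from rfl] at this
          rw [this]
          show β (QuotientGroup.mk' PN ⟨y, hPN hy⟩) = β 1
          congr 1
          exact (QuotientGroup.eq_one_iff _).mpr hy
        have h2 := (hK x).mp (hPK hxW)
        rw [hone] at h2
        have := hχ ⟨x, hxN⟩
        rw [show ((⟨x, hxN⟩ : N) : G) = x from rfl] at this
        rw [this] at h2
        exact h2
      have h2 : (⟨x, hxN⟩ : N) ∈ PN := (QuotientGroup.eq_one_iff _).mp h1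
      exact h2
    -- Part B
    let C : Subgroup N := ⁅PN, PN⁆
    haveI hCn : C.Normal := inferInstance
    let π₂ : N →* N ⧸ C := QuotientGroup.mk' C
    have hπ₂ : Function.Surjective π₂ := QuotientGroup.mk'_surjective C
    have hCle : C ≤ PN := Subgroup.commutator_le_left PN PN
    let P₂ : Subgroup (N ⧸ C) := PN.map π₂
    haveI hP₂n : P₂.Normal := Subgroup.Normal.map hPNn π₂ hπ₂
    have hP₂ab : ∀ a b : P₂, a * b = b * a := by
      rintro ⟨_, a, ha, rfl⟩ ⟨_, b, hb, rfl⟩
      apply Subtype.ext
      show π₂ a * π₂ b = π₂ b * π₂ a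
      rw [← mul_inv_eq_one, mul_inv_rev, ← mul_assoc, ← map_inv, ← map_inv, ← map_mul, ← map_mul, ← map_mul]
      apply (QuotientGroup.eq_one_iff _).mpr
      have h1 := Subgroup.commutator_mem_commutator ha hb
      rwa [commutatorElement_def] at h1
    have hP₂idx : P₂.index = PN.index := by
      have hker : π₂.ker = C := QuotientGroup.ker_mk' C
      have h1 := Subgroup.index_map PN π₂
      rw [hker, sup_eq_left.mpr hCle, MonoidHom.range_eq_top.mpr hπ₂, Subgroup.index_top, mul_one] at h1
      exact h1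
    have hdeg₂ : ∀ β : N ⧸ C → ℂ, IsIrrCharacter (N ⧸ C) β →
        ¬ p ∣ charDegree (fun n : N => β (π₂ n)) := by
      intro β hβ
      letI : Fintype (N ⧸ C) := Fintype.ofFinite _
      letI : Fintype P₂ := Fintype.ofFinite _
      have hβc := isCharacter_of_isIrrCharacter hβ
      obtain ⟨ϑ, hϑ, hne⟩ := exists_irr_constituent (isCharacter_restrict hβc P₂)
        (by simpa using irr_apply_one_ne_zero hβ)
      obtain ⟨e, he, hedvd⟩ := Cfsg.Agent.Lib.Char.DegreeDvd.exists_degree_ratio P₂ hβ hϑ hne
      rw [irr_one_of_comm hP₂ab hϑ, mul_one] at he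
      have hθ : IsIrrCharacter N (fun n : N => β (π₂ n)) := isIrrCharacter_comp_surjective hβ π₂ hπ₂
      have h2 : charDegree (fun n : N => β (π₂ n)) = e := by
        apply Cfsg.Agent.Lib.Char.Values.IsCharacter.charDegree_eq (isCharacter_of_isIrrCharacter hθ)
        simpa using he
      rw [h2]
      intro h3
      apply hnp
      rw [← hP₂idx]
      exact h3.trans hedvd
    have hext₂ : ∀ β : IrrCharacter (N ⧸ C), ∃ χ : IrrCharacter G, ∀ x : N, (χ : G → ℂ) x = (β : N ⧸ C → ℂ) (π₂ x) := by
      intro β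
      obtain ⟨χ, hχ⟩ := hyp ⟨_, isIrrCharacter_comp_surjective β.2 π₂ hπ₂⟩ (hdeg₂ β β.2)
      exact ⟨χ, hχ⟩
    choose χ₂ hχ₂ using hext₂
    have hker₂ : ∀ β : IrrCharacter (N ⧸ C), ∃ K : Subgroup G, K.Normal ∧ ∀ g, g ∈ K ↔ (χ₂ β : G → ℂ) g = (χ₂ β : G → ℂ) 1 :=
      fun β => Cfsg.Agent.Lib.Char.FrobeniusKernel.exists_kernel (isCharacter_of_isIrrCharacter (χ₂ β).2)
    choose K₂ hK₂n hK₂ using hker₂
    let D : Subgroup G := ⨅ β, K₂ β
    haveI hDn : D.Normal := Subgroup.normal_iInf_normal hK₂n
    have hone₂ : ∀ β : IrrCharacter (N ⧸ C), (χ₂ β : G → ℂ) 1 = (β : N ⧸ C → ℂ) 1 := by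
      intro β
      have := hχ₂ β 1
      simpa using this
    have hCD : ∀ x : N, x ∈ C → (x : G) ∈ D := by
      intro x hx
      rw [Subgroup.mem_iInf]
      intro β
      rw [hK₂, hone₂, hχ₂]
      have h1 : π₂ x = 1 := (QuotientGroup.eq_one_iff _).mpr hx
      rw [h1]
    have hDC : ∀ x : N, (x : G) ∈ D → x ∈ C := by
      intro x hx
      letI : Fintype (N ⧸ C) := Fintype.ofFinite _
      have h1 : π₂ x = 1 := by
        apply Cfsg.Agent.Lib.Char.FrobeniusKernel.eq_one_of_forall_irr
        intro β hβ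
        have h2 := (hK₂ ⟨β, hβ⟩ x).mp ((Subgroup.mem_iInf.mp hx) ⟨β, hβ⟩)
        rw [hone₂, hχ₂] at h2
        exact h2
      exact (QuotientGroup.eq_one_iff _).mp h1
    -- Part C
    let S : Sylow p W := P.subtype hPW
    have hS : (S : Subgroup W) = (P : Subgroup G).subgroupOf W := P.coe_subtype hPW
    have hself : ∀ x : W, x • S = S → x ∈ (S : Subgroup W) := by
      intro x hx
      have h1 : x ∈ Subgroup.normalizer ((S : Subgroup W) : Set W) := Sylow.smul_eq_iff_mem_normalizer.mp hx
      rw [Subgroup.mem_normalizer_iff] at h1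
      have h2 : (x : G) ∈ N := by
        rw [hNdef, Subgroup.mem_normalizer_iff]
        intro y
        constructor
        · intro hy
          have h3 := (h1 ⟨y, hPW hy⟩).mp (by rw [hS]; exact hy)
          rw [hS] at h3
          exact h3
        · intro hy
          have hyW : y ∈ W := by
            have h3 := hWn.conj_mem _ (hPW hy) (x : G)⁻¹
            have h4 : (x : G)⁻¹ * ((x : G) * y * (x : G)⁻¹) * (x : G)⁻¹⁻¹ = y := by group
            rwa [h4] at h3
          have h3 := (h1 ⟨y, hyW⟩).mpr (by rw [hS]; exact hy)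
          rw [hS] at h3
          exact h3
      rw [hS]
      exact hWN x x.2 h2
    let DW : Subgroup W := D.subgroupOf W
    haveI hDW : DW.Normal := Subgroup.Normal.subgroupOf hDn W
    have hcomm : ∀ a ∈ (S : Subgroup W), ∀ b ∈ (S : Subgroup W), a * b * a⁻¹ * b⁻¹ ∈ DW := by
      intro a ha b hb
      rw [hS] at ha hb
      have ha' : (a : G) ∈ (P : Subgroup G) := ha
      have hb' : (b : G) ∈ (P : Subgroup G) := hb
      have h1 : (⟨a, hPN ha'⟩ : N) ∈ PN := ha'
      have h2 : (⟨b, hPN hb'⟩ : N) ∈ PN := hb'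
      have h3 := Subgroup.commutator_mem_commutator h1 h2
      have h4 := hCD _ h3
      exact h4
    have hres := inf_pResidual_le S hself DW hcomm
    have hfrat : (S : Subgroup W) ⊓ pResidual p W ≤ (frattini (S : Subgroup W)).map (S : Subgroup W).subtype := by
      intro y hy
      have hyP : ((y : W) : G) ∈ (P : Subgroup G) := by
        have := hy.1
        rw [hS] at this
        exact this
      have hyD : ((y : W) : G) ∈ D := hres hy
      have hyC : (⟨(y : G), hPN hyP⟩ : N) ∈ C := hDC _ hyD
      -- transport the commutator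
      have h1 : C.map N.subtype = ⁅(P : Subgroup G), (P : Subgroup G)⁆ := by
        rw [Subgroup.map_commutator]
        have h2 : PN.map N.subtype = (P : Subgroup G) := Subgroup.map_subgroupOf_eq_of_le hPN
        rw [h2]
      have h2 : ((y : W) : G) ∈ ⁅(P : Subgroup G), (P : Subgroup G)⁆ := by
        rw [← h1]
        exact ⟨_, hyC, rfl⟩
      have h3 : ⁅(S : Subgroup W), (S : Subgroup W)⁆.map W.subtype = ⁅(P : Subgroup G), (P : Subgroup G)⁆ := by
        rw [Subgroup.map_commutator, hS]
        have h4 : ((P : Subgroup G).subgroupOf W).map W.subtype = (P : Subgroup G) :=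
          Subgroup.map_subgroupOf_eq_of_le hPW
        rw [h4]
      rw [← h3] at h2
      obtain ⟨y', hy', hyy⟩ := h2
      have hyy' : y' = y := Subtype.ext hyy
      rw [hyy'] at hy'
      have h5 : (commutator (S : Subgroup W)).map (S : Subgroup W).subtype = ⁅(S : Subgroup W), (S : Subgroup W)⁆ :=
        Subgroup.map_subtype_commutator _
      rw [← h5] at hy'
      obtain ⟨z, hz, hzy⟩ := hy'
      exact ⟨z, Cfsg.Agent.Lib.PGroup.FrattiniBasis.commutator_le_frattini S.isPGroup' hz, hzy⟩
    have hbot := inf_pResidual_eq_bot S hfrat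
    -- Part D
    haveI hRn : (pResidual p W).Normal := pResidual_normal p W
    let K : Subgroup G := (pResidual p W).map W.subtype
    have hKn : K.Normal := by
      constructor
      rintro _ ⟨r, hr, rfl⟩ g
      let φ : MulAut W := MulAut.conjNormal g
      have h1 : φ r ∈ pResidual p W := by
        have h2 : pResidual p W ≤ (pResidual p W).comap φ.toMonoidHom := by
          rw [pResidual, Subgroup.closure_le]
          intro u hu
          apply Subgroup.subset_closure
          show Nat.Coprime (orderOf (φ u)) p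
          rw [MulEquiv.orderOf_eq]
          exact hu
        exact h2 hr
      refine ⟨φ r, h1, ?_⟩
      simp [φ]
    have hKNbot : K ⊓ N = ⊥ := by
      rw [eq_bot_iff]
      rintro _ ⟨⟨r, hr, rfl⟩, hrN⟩
      have h1 : (r : G) ∈ (P : Subgroup G) := hWN _ r.2 hrN
      have h2 : r ∈ (S : Subgroup W) ⊓ pResidual p W := ⟨by rw [hS]; exact h1, hr⟩
      rw [hbot, Subgroup.mem_bot] at h2
      rw [Subgroup.mem_bot, h2]
      rfl
    have hWle : W ≤ K ⊔ (P : Subgroup G) := by
      intro w hw
      let πR : W →* W ⧸ pResidual p W := QuotientGroup.mk' _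
      have hπR : Function.Surjective πR := QuotientGroup.mk'_surjective _
      have hpg : IsPGroup p (W ⧸ pResidual p W) := isPGroup_quotient_pResidual
      let Sb : Sylow p (W ⧸ pResidual p W) := S.mapSurjective hπR
      have hSb : (Sb : Subgroup (W ⧸ pResidual p W)) = ⊤ := by
        have h1 := Sb.is_maximal' (Q := ⊤) (hpg.to_subgroup ⊤) le_top
        exact h1.symm
      have h1 : πR ⟨w, hw⟩ ∈ (Sb : Subgroup (W ⧸ pResidual p W)) := by
        rw [hSb]
        exact Subgroup.mem_top _
      rw [Sylow.coe_mapSurjective] at h1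
      obtain ⟨s, hs, hs2⟩ := h1
      have h2 : s⁻¹ * ⟨w, hw⟩ ∈ pResidual p W := by
        rw [← QuotientGroup.eq_one_iff]
        show πR (s⁻¹ * ⟨w, hw⟩) = 1
        rw [map_mul, map_inv, hs2, inv_mul_cancel]
      have h3 : (s : G) ∈ (P : Subgroup G) := by
        rw [hS] at hs
        exact hs
      have h4 : ((s⁻¹ * ⟨w, hw⟩ : W) : G) ∈ K := ⟨_, h2, rfl⟩
      have h5 : w = (s : G) * ((s⁻¹ * ⟨w, hw⟩ : W) : G) := by
        simp
      rw [h5]
      exact Subgroup.mul_mem _ (Subgroup.mem_sup_right h3) (Subgroup.mem_sup_left h4)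
    refine ⟨K, hKn, ?_, hKNbot⟩
    rw [eq_top_iff]
    have h1 : Subgroup.normalizer ((P : Subgroup G) : Set G) ⊔ W = ⊤ := Sylow.normalizer_sup_eq_top' P hPW
    rw [← h1, ← hNdef]
    apply sup_le le_sup_right
    exact hWle.trans (sup_le le_sup_left (hPN.trans le_sup_right))
  · rintro ⟨K, hKn, hsup, hinf⟩ θ -
    let f : N →* G ⧸ K := (QuotientGroup.mk' K).comp N.subtype
    have hinj : Function.Injective f := by
      rw [injective_iff_map_eq_one]
      intro x hx
      have h1 : (x : G) ∈ K := (QuotientGroup.eq_one_iff _).mp hx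
      have h2 : (x : G) ∈ K ⊓ N := ⟨h1, x.2⟩
      rw [hinf, Subgroup.mem_bot] at h2
      exact Subtype.ext h2
    have hsurj : Function.Surjective f := by
      intro z
      obtain ⟨g, rfl⟩ := QuotientGroup.mk'_surjective K z
      have hg : g ∈ K ⊔ N := by rw [hsup]; exact Subgroup.mem_top _
      have hg' : g ∈ ((K : Set G) * (N : Set G)) := by
        rw [← Subgroup.normal_mul K N]
        exact hg
      obtain ⟨k, hk, n, hn, rfl⟩ := Set.mem_mul.mp hg'
      refine ⟨⟨n, hn⟩, ?_⟩
      show ((n : G) : G ⧸ K) = ((k * n : G) : G ⧸ K)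
      rw [QuotientGroup.eq]
      have := hKn.conj_mem k hk n⁻¹
      simpa [mul_assoc] using this
    let e : N ≃* G ⧸ K := MulEquiv.ofBijective f ⟨hinj, hsurj⟩
    let φ : G →* N := e.symm.toMonoidHom.comp (QuotientGroup.mk' K)
    have hφ : Function.Surjective φ := e.symm.surjective.comp (QuotientGroup.mk'_surjective K)
    refine ⟨⟨fun g => (θ : N → ℂ) (φ g), isIrrCharacter_comp_surjective θ.2 φ hφ⟩, fun x => ?_⟩
    show (θ : N → ℂ) (e.symm (QuotientGroup.mk' K (x : G))) = _
    have h1 : QuotientGroup.mk' K (x : G) = e x := rfl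
    rw [h1, e.symm_apply_apply]

end Cfsg.Agent.S4931
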