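import Cfsg.Statements.S4937
import Mathlib
import Cfsg.Agent.Lib.Char.GoodCount

set_option autoImplicit false
open Cfsg

namespace Cfsg.Agent.S4937

set_option linter.style.haveILetI false
set_option linter.unusedSectionVars false
set_option linter.unusedVariables false

open Cfsg.Agent.Lib.Blocks.Local Cfsg.Agent.Lib.Char.GoodLift Cfsg.Agent.Lib.Char.DetExt
  Cfsg.Agent.Lib.Char.AlpDade Cfsg.Agent.Lib.Blocks.Regular

universe u

section Aux

variable {G : Type u} [Group G] [Fintype G] {N : Subgroup G} [hN : N.Normal] [Fintype N] {d : ℕ}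
  (ρ₀ : Representation ℂ G (Fin d → ℂ))

/-- The representation restricted to `N`. -/
abbrev rN (N : Subgroup G) (ρ₀ : Representation ℂ G (Fin d → ℂ)) : Representation ℂ N (Fin d → ℂ) :=
  ρ₀.comp N.subtype

/-- The pair of an element. -/
noncomputable def PP (g : G) : G × (EE d)ˣ := (g, MonoidHom.toHomUnits ρ₀ g)

lemma PP_mem (g : G) : PP ρ₀ g ∈ Impl (rN N ρ₀) := by
  intro n
  show ρ₀ g * ρ₀ (n : G) = ρ₀ (g * n * g⁻¹) * ρ₀ g
  rw [← map_mul, ← map_mul]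
  congr 1
  group

lemma PP_mul (g g' : G) : PP ρ₀ (g * g') = PP ρ₀ g * PP ρ₀ g' := by
  apply Prod.ext
  · rfl
  · simp [PP]

lemma PP_one : PP ρ₀ 1 = 1 := by
  apply Prod.ext
  · rfl
  · simp [PP]

lemma PP_pow (g : G) (k : ℕ) : PP ρ₀ (g ^ k) = PP ρ₀ g ^ k := by
  induction k with
  | zero => simp [PP_one]
  | succ k ih => rw [pow_succ, pow_succ, PP_mul, ih]

lemma PP_inv (g : G) : PP ρ₀ g⁻¹ = (PP ρ₀ g)⁻¹ := by
  rw [eq_inv_iff_mul_eq_one, ← PP_mul, inv_mul_cancel, PP_one]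

lemma PP_coe (n : N) : PP ρ₀ (n : G) = hatN (rN N ρ₀) n := by
  apply Prod.ext
  · rfl
  · apply Units.ext
    rfl

lemma scalP_mul_mul (z w : ℂˣ) (A B : G × (EE d)ˣ) :
    scalP G z * A * (scalP G w * B) = scalP G (z * w) * (A * B) := by
  calc scalP G z * A * (scalP G w * B) = scalP G z * (A * scalP G w) * B := by simp only [mul_assoc]
    _ = scalP G z * (scalP G w * A) * B := by rw [← scalP_comm w A]
    _ = _ := by rw [scalP_mul]; simp only [mul_assoc]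

lemma conj_scalP (Q A : G × (EE d)ˣ) (z : ℂˣ) : Q * (scalP G z * A) * Q⁻¹ = scalP G z * (Q * A * Q⁻¹) := by
  calc Q * (scalP G z * A) * Q⁻¹ = (Q * scalP G z) * A * Q⁻¹ := by group
    _ = (scalP G z * Q) * A * Q⁻¹ := by rw [scalP_comm]
    _ = _ := by group

end Aux

/-- Let G be a finite group, p a prime, M a maximal ideal of the algebraic integers containing p, N a normal subgroup of G and P a Sylow p-subgroup of N such that G = N·C_G(P). Let θ be an irreducible character in the principal p-block of N that is the restriction of some irreducible character of G. Then θ is the restriction of an irreducible character χ of G lying in the principal p-block of G such that, for every subgroup J of G containing N, the restriction of χ to J is an irreducible character of J lying in the principal p-block of J. -/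
theorem result {G : Type*} [Group G] [Finite G] (p : ℕ) [Fact p.Prime] (M : Ideal Cfsg.AlgInt) (hM : Cfsg.IsPModular p M) (N : Subgroup G) [N.Normal] (P : Sylow p ↥N)
    (hcov : N ⊔ Subgroup.centralizer (((P : Subgroup ↥N).map N.subtype : Subgroup G) : Set G) = ⊤)
    (θ : Cfsg.IrrCharacter ↥N) (hθ : θ ∈ Cfsg.principalBlock M ↥N)
    (hext : ∃ ψ : Cfsg.IrrCharacter G, ∀ x : ↥N, (ψ : G → ℂ) x = (θ : ↥N → ℂ) x) :
    ∃ χ : Cfsg.IrrCharacter G, χ ∈ Cfsg.principalBlock M G ∧ (∀ x : ↥N, (χ : G → ℂ) x = (θ : ↥N → ℂ) x) ∧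
      ∀ J : Subgroup G, N ≤ J → ∃ ξ : Cfsg.IrrCharacter ↥J, ξ ∈ Cfsg.principalBlock M ↥J ∧ ∀ y : ↥J, (ξ : ↥J → ℂ) y = (χ : G → ℂ) y := by
  classical
  haveI := Fintype.ofFinite G
  haveI : Fintype N := Fintype.ofFinite N
  haveI hMp : M.IsPrime := isPrime_of_isPModular hM
  obtain ⟨ψ, hψ⟩ := hext
  obtain ⟨d, ρ₀, hρ₀, hψρ⟩ := ψ.2
  have hρθ : (θ : N → ℂ) = (rN N ρ₀).character := by
    funext n
    show _ = ρ₀.character n
    rw [hψρ]
    exact (hψ n).symm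
  haveI hρ : (rN N ρ₀).IsIrreducible := isIrreducible_of_character_eq _ θ.2 hρθ.symm
  have hidx : (N ⊔ Subgroup.centralizer (QQ P : Set G)).index = p ^ 0 := by
    rw [hcov]
    simp
  have hcnt : ∀ y : G, ¬ p ∣ orderOf y → ¬ p ∣ cnt p N (y : G ⧸ N) := fun y hy => not_dvd_cnt P hidx hy
  have hregJ : ∀ y : G, ¬ p ∣ orderOf y → y ∈ JJ M N := fun y hy => mem_JJ_of_cnt hM (hcnt y hy)
  obtain ⟨c, e, he, hce⟩ := Nat.exists_eq_pow_mul_and_not_dvd (Nat.card_pos (α := G)).ne' p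
    (Fact.out : p.Prime).ne_one
  have he0 : 0 < e := Nat.pos_of_ne_zero fun h => he (h ▸ dvd_zero p)
  have hscale : ∀ g : JJ M N, ∃ ζ : ℂˣ, ζ ^ e = 1 ∧ IsGood M (rN N ρ₀) (scalP G ζ⁻¹ * PP ρ₀ g) := by
    intro g
    refine exists_good_scale (rN N ρ₀) θ hρθ hθ hM (PP_mem ρ₀ _) g.2 (c := c) he0 ?_
    rw [← hce, ← PP_pow, pow_card_eq_one', PP_one]
  choose ν hν1 hν2 using hscale
  have hgmul : ∀ {A B : G × (EE d)ˣ}, IsGood M (rN N ρ₀) A → IsGood M (rN N ρ₀) B →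
      IsGood M (rN N ρ₀) (A * B) := fun hA hB => IsGood.mul' (rN N ρ₀) θ hρθ hθ hA hB
  have hginv : ∀ {A : G × (EE d)ˣ}, IsGood M (rN N ρ₀) A → IsGood M (rN N ρ₀) A⁻¹ :=
    fun hA => IsGood.inv' (rN N ρ₀) θ hρθ hθ hA
  have huniq : ∀ {A : G × (EE d)ˣ} {ζ ζ' : ℂˣ}, ζ ^ e = 1 → ζ' ^ e = 1 →
      IsGood M (rN N ρ₀) (scalP G ζ⁻¹ * A) → IsGood M (rN N ρ₀) (scalP G ζ'⁻¹ * A) → ζ = ζ' := by
    intro A ζ ζ' h1 h2 h3 h4
    have h5 := hgmul h4 (hginv h3)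
    have h6 : scalP G ζ'⁻¹ * A * (scalP G ζ⁻¹ * A)⁻¹ = (scalP G (ζ'⁻¹ * ζ) : G × (EE d)ˣ) := by
      rw [scalP_mul, scalP_inv, scalP_inv, mul_inv_rev, inv_inv, mul_assoc, mul_inv_cancel_left]
    rw [h6] at h5
    have h7 := IsGood.scal_eq_one (rN N ρ₀) hM h5 he (by rw [mul_pow, inv_pow, h1, h2, inv_one, one_mul])
    have h8 : ζ'⁻¹ * ζ = 1 := h7
    exact (inv_mul_eq_one.1 h8).symm
  -- the homomorphism
  let νh : JJ M N →* ℂˣ := MonoidHom.mk' ν (by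
    intro a b
    have h1 := hgmul (hν2 a) (hν2 b)
    have h2 : scalP G (ν a)⁻¹ * PP ρ₀ (a : G) * (scalP G (ν b)⁻¹ * PP ρ₀ (b : G)) =
        scalP G (ν a * ν b)⁻¹ * PP ρ₀ ((a * b : JJ M N) : G) := by
      rw [Subgroup.coe_mul, PP_mul, mul_inv, scalP_mul_mul]
    rw [h2] at h1
    exact huniq (hν1 _) (by rw [mul_pow, hν1, hν1, one_mul]) (hν2 (a * b)) h1)
  have hνh : ∀ g : JJ M N, νh g = ν g := fun _ => rfl
  have hνN : ∀ n : N, ν ⟨(n : G), le_JJ n.2⟩ = 1 := by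
    intro n
    refine huniq (A := PP ρ₀ (n : G)) (hν1 _) (one_pow e) (hν2 _) ?_
    rw [inv_one, scalP_one, one_mul, PP_coe]
    exact isGood_hatN (rN N ρ₀) θ hρθ hθ n
  have hνinv : ∀ (g : G) (n : JJ M N), νh ⟨g * n * g⁻¹, (normal_JJ (M := M) (N := N)).conj_mem n n.2 g⟩ = νh n := by
    intro g n
    refine huniq (A := PP ρ₀ (g * n * g⁻¹)) (hν1 _) (hν1 _) (hν2 _) ?_
    have h1 := IsGood.conj' (rN N ρ₀) θ hρθ hθ (hν2 n) (PP_mem ρ₀ g)
    have h2 : PP ρ₀ g * (scalP G (ν n)⁻¹ * PP ρ₀ (n : G)) * (PP ρ₀ g)⁻¹ =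
        scalP G (ν n)⁻¹ * PP ρ₀ (g * n * g⁻¹) := by
      rw [PP_mul, PP_mul, PP_inv, conj_scalP]
    rw [h2] at h1
    exact h1
  obtain ⟨a, ha⟩ := index_eq_pow_of_regular (p := p) (JJ M N) hregJ
  have hord : orderOf νh ∣ e := by
    refine orderOf_dvd_of_pow_eq_one ?_
    ext g
    simp [hν1, hνh]
  have hcop : Nat.Coprime (orderOf νh) (JJ M N).index := by
    rw [ha]
    refine Nat.Coprime.coprime_dvd_left hord (Nat.Coprime.pow_right a ?_)
    exact ((Nat.Prime.coprime_iff_not_dvd Fact.out).2 he).symm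
  obtain ⟨μ, hμ, -⟩ := Cfsg.Agent.Lib.Char.DetExt2.exists_ext_hom (JJ M N) νh hνinv hcop
  -- the new representation
  let R' : G →* (EE d)ˣ := MonoidHom.mk' (fun g => (scalP G (μ g)⁻¹ * PP ρ₀ g).2) (by
    intro a b
    show (scalP G (μ (a * b))⁻¹ * PP ρ₀ (a * b)).2 = (scalP G (μ a)⁻¹ * PP ρ₀ a).2 * (scalP G (μ b)⁻¹ * PP ρ₀ b).2
    rw [← Prod.snd_mul, scalP_mul_mul, map_mul μ, mul_inv, PP_mul])
  have hR' : ∀ g, ((g, R' g) : G × (EE d)ˣ) = scalP G (μ g)⁻¹ * PP ρ₀ g := by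
    intro g
    apply Prod.ext
    · exact (one_mul g).symm
    · rfl
  have hμN : ∀ n : N, μ (n : G) = 1 := by
    intro n
    have h1 := hμ ⟨(n : G), le_JJ n.2⟩
    rw [hνh, hνN] at h1
    exact h1
  have hR'N : ∀ n : N, ((R' n : (EE d)ˣ) : EE d) = rN N ρ₀ n := by
    intro n
    show (((scalP G (μ (n : G))⁻¹ * PP ρ₀ (n : G)).2 : (EE d)ˣ) : EE d) = _
    rw [hμN, inv_one, scalP_one, one_mul, PP_coe]
    rfl
  let ρ' : Representation ℂ G (Fin d → ℂ) := (Units.coeHom (EE d)).comp R'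
  have hρ'N : ∀ n : N, ρ' n = rN N ρ₀ n := hR'N
  have hgoodR : ∀ y : G, y ∈ JJ M N → IsGood M (rN N ρ₀) (y, R' y) := by
    intro y hy
    rw [hR']
    have h1 : μ y = ν ⟨y, hy⟩ := hμ ⟨y, hy⟩
    rw [h1]
    exact hν2 ⟨y, hy⟩
  have hconsR : ∀ (y y' : G) (h : y' * y⁻¹ ∈ N),
      ((R' y' : (EE d)ˣ) : EE d) = rN N ρ₀ ⟨y' * y⁻¹, h⟩ * ((R' y : (EE d)ˣ) : EE d) := by
    intro y y' h
    rw [← hR'N ⟨y' * y⁻¹, h⟩, ← Units.val_mul, ← map_mul]
    simp
  have hcompN : ρ'.comp N.subtype = rN N ρ₀ := by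
    ext n : 1
    exact hρ'N n
  haveI hirrN : Representation.IsIrreducible (ρ'.comp N.subtype) := by
    rw [hcompN]
    exact hρ
  haveI hρ'irr : ρ'.IsIrreducible := Cfsg.Agent.Lib.Char.CyclicExt.isIrreducible_of_comp ρ' N.subtype
  refine ⟨⟨ρ'.character, d, ρ', hρ'irr, rfl⟩, ?_, ?_, ?_⟩
  · exact mem_principal_top (rN N ρ₀) hM hcnt R' (fun y hy => hgoodR y (hregJ y hy))
      (fun y y' _ _ h => hconsR y y' h) _ (fun y _ => rfl) (by simp [ρ'.char_one])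
  · intro x
    rw [hρθ]
    show LinearMap.trace ℂ _ (ρ' x) = _
    rw [hρ'N x]
    rfl
  · intro J hNJ
    haveI : Fintype J := Fintype.ofFinite J
    let ρJ : Representation ℂ J (Fin d → ℂ) := ρ'.comp J.subtype
    have hcompJ : ρJ.comp (Subgroup.inclusion hNJ) = rN N ρ₀ := by
      ext n : 1
      exact hρ'N n
    haveI hirrJ' : Representation.IsIrreducible (ρJ.comp (Subgroup.inclusion hNJ)) := by
      rw [hcompJ]
      exact hρ
    haveI hirrJ : ρJ.IsIrreducible := Cfsg.Agent.Lib.Char.CyclicExt.isIrreducible_of_comp ρJ (Subgroup.inclusion hNJ)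
    refine ⟨⟨ρJ.character, d, ρJ, hirrJ, rfl⟩, ?_, fun y => rfl⟩
    exact mem_principal_sub (rN N ρ₀) hM hcnt J hNJ R' (fun y _ hr => hgoodR y (hregJ y hr))
      (fun y y' _ _ _ h => hconsR y y' h) _ (fun y _ => rfl) (by simp [ρJ.char_one])

end Cfsg.Agent.S4937
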