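import Cfsg.Statements.S4989
import Mathlib
import Cfsg.Agent.Lib.Char.GaloisC

set_option autoImplicit false
open Cfsg

namespace Cfsg.Agent.S4989

open Cfsg.Agent.Lib.Char.Galois Cfsg.Agent.Lib.Char.GaloisC in

/-- Let H be a subgroup of the finite group G and χ an irreducible complex character of G. Then the inner product of the restriction of χ to H with itself, (1/#H)·Σ_{h ∈ H} |χ(h)|², is at most 1 + #(Z ∖ H)/#H, where Z is the set of zeros of χ in G. -/
theorem result {G : Type*} [Group G] [Finite G] (H : Subgroup G) (χ : Cfsg.IrrCharacter G) : (Nat.card ↥H : ℝ)⁻¹ * ∑ᶠ h : ↥H, ‖(χ : G → ℂ) h‖ ^ 2 ≤ 1 + (Set.ncard ({x : G | (χ : G → ℂ) x = 0} \ (H : Set G)) : ℝ) / (Nat.card ↥H : ℝ) := by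
  classical
  haveI := Fintype.ofFinite G
  obtain ⟨χ, hχ⟩ := χ
  have hχc : Cfsg.IsCharacter G χ := Cfsg.Agent.Lib.Char.Basic.isCharacter_of_isIrrCharacter hχ
  have hsum := sum_norm_sq_of_isIrr hχ
  let Xf : Finset G := Finset.univ.filter (fun x => x ∉ H ∧ χ x ≠ 0)
  let Zf : Finset G := Finset.univ.filter (fun x => x ∉ H ∧ χ x = 0)
  let Hf : Finset G := Finset.univ.filter (fun x => x ∈ H)
  have hX : ∀ x ∈ Xf, ∀ k : ℕ, k.Coprime (Nat.card G) → x ^ k ∈ Xf := by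
    intro x hx k hk
    simp only [Xf, Finset.mem_filter, Finset.mem_univ, true_and] at hx ⊢
    exact ⟨fun h => hx.1 ((pow_mem_iff_of_coprime H hk x).1 h),
      character_pow_ne_zero hχc hx.2 hk⟩
  have h0 : ∀ x ∈ Xf, χ x ≠ 0 := by
    intro x hx
    simp only [Xf, Finset.mem_filter, Finset.mem_univ, true_and] at hx
    exact hx.2
  have hb := card_le_sum_norm_pow hχc Xf hX h0 2
  -- partition
  have hpart : (Finset.univ : Finset G) = Hf ∪ (Xf ∪ Zf) := by
    ext x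
    simp only [Hf, Xf, Zf, Finset.mem_univ, Finset.mem_union, Finset.mem_filter, true_and, true_iff]
    tauto
  have hd1 : Disjoint Hf (Xf ∪ Zf) := by
    rw [Finset.disjoint_left]
    intro x hx hx2
    simp only [Hf, Xf, Zf, Finset.mem_union, Finset.mem_filter, Finset.mem_univ, true_and] at hx hx2
    tauto
  have hd2 : Disjoint Xf Zf := by
    rw [Finset.disjoint_left]
    intro x hx hx2
    simp only [Xf, Zf, Finset.mem_filter, Finset.mem_univ, true_and] at hx hx2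
    tauto
  have hcard : (Nat.card G : ℝ) = Hf.card + (Xf.card + Zf.card) := by
    rw [Nat.card_eq_fintype_card, ← Finset.card_univ, hpart, Finset.card_union_of_disjoint hd1,
      Finset.card_union_of_disjoint hd2]
    push_cast
    ring
  have hsum2 : (Nat.card G : ℝ) = ∑ x ∈ Hf, ‖χ x‖ ^ 2 + (∑ x ∈ Xf, ‖χ x‖ ^ 2 + ∑ x ∈ Zf, ‖χ x‖ ^ 2) := by
    rw [← hsum, hpart, Finset.sum_union hd1, Finset.sum_union hd2]
  have hZ0 : ∑ x ∈ Zf, ‖χ x‖ ^ 2 = 0 := by
    refine Finset.sum_eq_zero fun x hx => ?_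
    simp only [Zf, Finset.mem_filter, Finset.mem_univ, true_and] at hx
    simp [hx.2]
  have hHf : (Nat.card H : ℝ) = Hf.card := by
    rw [Nat.card_eq_fintype_card, Fintype.card_subtype]
  have hHpos : (0 : ℝ) < Nat.card H := by exact_mod_cast Nat.card_pos
  have hfs : ∑ᶠ h : H, ‖χ (h : G)‖ ^ 2 = ∑ x ∈ Hf, ‖χ x‖ ^ 2 := by
    rw [finsum_eq_sum_of_fintype]
    exact (Finset.sum_subtype Hf (by simp [Hf]) (fun x => ‖χ x‖ ^ 2)).symm
  have hncard : Set.ncard ({x : G | χ x = 0} \ (H : Set G)) = Zf.card := by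
    have : ({x : G | χ x = 0} \ (H : Set G)) = (Zf : Set G) := by
      ext x
      simp only [Zf, Finset.coe_filter, Finset.mem_univ, true_and, Set.mem_sdiff, Set.mem_ofPred_eq, SetLike.mem_coe]
      exact And.comm
    rw [this, Set.ncard_coe_finset]
  show (Nat.card ↥H : ℝ)⁻¹ * ∑ᶠ h : ↥H, ‖χ (h : G)‖ ^ 2 ≤ 1 + (Set.ncard ({x : G | χ x = 0} \ (H : Set G)) : ℝ) / (Nat.card ↥H : ℝ)
  rw [hfs, hncard]
  have hmain : ∑ x ∈ Hf, ‖χ x‖ ^ 2 ≤ (Nat.card H : ℝ) + Zf.card := by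
    rw [hHf]
    linarith
  rw [inv_mul_le_iff₀ hHpos]
  have : (Nat.card H : ℝ) * (1 + (Zf.card : ℝ) / (Nat.card H : ℝ)) = (Nat.card H : ℝ) + Zf.card := by
    rw [mul_add, mul_one, mul_div_cancel₀ _ hHpos.ne']
  rw [this]
  exact hmain

end Cfsg.Agent.S4989
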