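import Cfsg.Statements.S4993
import Mathlib
import Cfsg.Prelude.Def_Characters
import Cfsg.Prelude.Def_Solvable
import Cfsg.Prelude.Def_Blocks
import Cfsg.Agent.Lib.Char.Integrality
import Cfsg.Agent.Lib.Char.Values
import Cfsg.Agent.Lib.Nilpotent.Fitting
import Cfsg.Agent.Lib.S4993.Defs
import Cfsg.Agent.Lib.S4993.Homog
import Cfsg.Agent.Lib.S4993.PrimeStep
import Cfsg.Agent.Lib.S4993.IrrFit
import Cfsg.Agent.Lib.S4993.Part
import Cfsg.Agent.Lib.S4993.Scal
import Cfsg.Agent.Lib.S4993.ScalHab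
import Cfsg.Agent.Lib.S4993.GroupD
import Cfsg.Agent.Lib.S4993.GroupE
import Cfsg.Agent.Lib.S4993.SmallFix
import Cfsg.Agent.Lib.S4993.Section
import Cfsg.Agent.Lib.S4993.Commuting
import Cfsg.Agent.Lib.S4993.SupNormal
import Cfsg.Agent.Lib.S4993.Fit

set_option autoImplicit false
set_option linter.unusedSectionVars false
set_option linter.unusedVariables false
set_option linter.style.haveILetI false

namespace Cfsg.Agent.Lib.S4993

open Cfsg

universe u

section Asm

variable {G : Type u} [Group G]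

/-- One side of the argument. -/
theorem side [Fintype G] {p q : ℕ} [Fact p.Prime] [Fact q.Prime] (hpq : p ≠ q)
    {N : ℕ} (ρ : Representation ℂ G (Fin N → ℂ)) (hN : 0 < N)
    (hab : ∀ U : Subgroup G, U.Normal → (∀ x ∈ U, ∀ y ∈ U, x * y * x⁻¹ * y⁻¹ ∈ MonoidHom.ker ρ) →
      U ≤ scal ρ)
    (F R S : Subgroup G) [R.Normal] [S.Normal] [Fintype F] (hRF : R ≤ F) (hSF : S ≤ F)
    (hF : F ≤ R ⊔ S) (hcomm : ∀ r ∈ R, ∀ s ∈ S, r * s = s * r) (hR : IsPGroup p R)
    (hS : IsPGroup q S) (hirr : IsIrrCharacter F (fun x : F => ρ.character x))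
    (Q' : Subgroup G) (hQ' : IsPGroup q Q') (hLn : (Q' ⊔ F).Normal)
    (hLp : ∀ _h : (Q' ⊔ F).Normal, IsPGroup p (G ⧸ (Q' ⊔ F))) :
    ∃ b ∈ Q', p ^ N.factorization p ≤ (Subgroup.centralizer ({b} : Set G)).relIndex R := by
  classical
  haveI hTn : (scal ρ).Normal := scal_normal ρ
  haveI hKn : (MonoidHom.ker ρ).Normal := MonoidHom.normal_ker ρ
  haveI hLn' : (Q' ⊔ F).Normal := hLn
  obtain ⟨lam, hlam⟩ := exists_lam ρ hN
  have hT : ∀ t ∈ scal ρ, ∀ g : G, t * g * t⁻¹ * g⁻¹ ∈ MonoidHom.ker ρ :=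
    fun t ht g => comm_mem_ker ρ ht g
  have hcm : ∀ x ∈ R, ∀ y ∈ R, x * y * x⁻¹ * y⁻¹ ∈ scal ρ :=
    comm_mem_of_hab R (MonoidHom.ker ρ) (scal ρ) hR (ker_le_scal ρ) hT lam hlam hab
  have hfixT := fix_mem_of_hab R (MonoidHom.ker ρ) (scal ρ) (Q' ⊔ F) hR (ker_le_scal ρ) hT hab hcm
    (hLp hLn)
  -- the subgroup T_R
  haveI hTRn : (scal ρ ⊓ R).Normal := inferInstance
  have hRab : ∀ x ∈ R, ∀ y ∈ R, x * y * x⁻¹ * y⁻¹ ∈ scal ρ ⊓ R := by
    intro x hx y hy
    refine ⟨hcm x hx y hy, ?_⟩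
    exact R.mul_mem (R.mul_mem (R.mul_mem hx hy) (R.inv_mem hx)) (R.inv_mem hy)
  have hfix : ∀ x ∈ R, (∀ b ∈ Q', x * b * x⁻¹ * b⁻¹ ∈ scal ρ ⊓ R) → x ∈ scal ρ ⊓ R := by
    intro x hx hb
    refine ⟨hfixT x hx ?_, hx⟩
    -- the elements commuting with x modulo T form a subgroup
    let π := QuotientGroup.mk' (scal ρ)
    let D : Subgroup G := (Subgroup.centralizer ({π x} : Set (G ⧸ scal ρ))).comap π
    have hmem : ∀ l : G, x * l * x⁻¹ * l⁻¹ ∈ scal ρ → l ∈ D := by
      intro l hl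
      rw [Subgroup.mem_comap, Subgroup.mem_centralizer_iff]
      intro y hy
      rw [Set.mem_singleton_iff] at hy
      subst hy
      have h1 : π (x * l * x⁻¹ * l⁻¹) = 1 := (QuotientGroup.eq_one_iff _).2 hl
      simp only [map_mul, map_inv] at h1
      have h2 : π x * π l = π l * π x := by
        have h3 : π x * π l * (π x)⁻¹ = π l := by
          rw [mul_inv_eq_one] at h1
          exact h1
        exact mul_inv_eq_iff_eq_mul.1 h3
      exact h2
    have hmem' : ∀ l ∈ D, x * l * x⁻¹ * l⁻¹ ∈ scal ρ := by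
      intro l hl
      rw [Subgroup.mem_comap, Subgroup.mem_centralizer_iff] at hl
      have h2 := hl (π x) (Set.mem_singleton _)
      rw [← QuotientGroup.eq_one_iff]
      show π (x * l * x⁻¹ * l⁻¹) = 1
      simp only [map_mul, map_inv]
      rw [h2]
      group
    have hLD : Q' ⊔ F ≤ D := by
      refine sup_le (fun b hb' => hmem b (hb b hb').1) ?_
      refine hF.trans (sup_le (fun r hr => hmem r (hcm x hx r hr)) (fun s hs => hmem s ?_))
      have : x * s * x⁻¹ * s⁻¹ = 1 := by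
        rw [hcomm x hx s hs]
        group
      rw [this]
      exact one_mem _
    exact fun l hl => hmem' l (hLD hl)
  obtain ⟨b, hbQ, hb⟩ := exists_le_index_sq hpq R (scal ρ ⊓ R) inf_le_right hR hRab Q' hQ' hfix
  refine ⟨b, hbQ, ?_⟩
  have hn1 : ρ.character 1 = (N : ℂ) := by simp
  have hpart := part_sq_mul_card_le (χ := ρ.character) F R S (scal ρ ⊓ R) hRF hSF hF hcomm hpq hR hS
    hirr hn1 inf_le_right (fun t ht => norm_character_of_mem_scal ρ ht.1)
  have hpos : 0 < Nat.card ↥(scal ρ ⊓ R) := Nat.card_pos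
  have h1 : (p ^ N.factorization p) ^ 2 * Nat.card ↥(scal ρ ⊓ R) ≤
      ((Subgroup.centralizer ({b} : Set G)).relIndex R) ^ 2 * Nat.card ↥(scal ρ ⊓ R) := by
    calc _ ≤ Nat.card R := hpart
      _ ≤ _ := by rw [mul_comm]; exact hb
  have h2 := Nat.le_of_mul_le_mul_right h1 hpos
  exact (Nat.pow_le_pow_iff_left (by norm_num)).1 h2

/-- Powers of commuting elements of coprime prime power order. -/
theorem centralizer_mul_le {a b : G} [Finite G] (hc : a * b = b * a) {p q : ℕ} [Fact p.Prime]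
    [Fact q.Prime] (hpq : p ≠ q) {i j : ℕ} (ha : orderOf a = p ^ i) (hb : orderOf b = q ^ j) :
    Subgroup.centralizer ({a * b} : Set G) ≤ Subgroup.centralizer ({a} : Set G) := by
  have hcop : Nat.Coprime (orderOf a) (orderOf b) := by
    rw [ha, hb]
    exact Nat.Coprime.pow _ _ ((Nat.coprime_primes Fact.out Fact.out).2 hpq)
  obtain ⟨k, hk1, hk2⟩ := Nat.chineseRemainder hcop 1 0
  have hcomm : Commute a b := hc
  have hg : (a * b) ^ k = a := by
    rw [hcomm.mul_pow]
    have h1 : a ^ k = a := by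
      have := (pow_eq_pow_iff_modEq (x := a)).2 hk1
      simpa using this
    have h2 : b ^ k = 1 := by
      have := (pow_eq_pow_iff_modEq (x := b)).2 hk2
      simpa using this
    rw [h1, h2, mul_one]
  intro x hx
  rw [Subgroup.mem_centralizer_singleton_iff] at hx ⊢
  have : Commute x (a * b) := hx
  have h3 := this.pow_right k
  rw [hg] at h3
  exact h3

theorem orderOf_of_isPGroup {p : ℕ} [Fact p.Prime] {P : Subgroup G} (hP : IsPGroup p P) {a : G}
    (ha : a ∈ P) : ∃ i : ℕ, orderOf a = p ^ i := by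
  obtain ⟨i, hi⟩ := hP ⟨a, ha⟩
  have h1 : a ^ p ^ i = 1 := by
    have := congrArg (Subtype.val) hi
    simpa using this
  obtain ⟨k, -, hk⟩ := (Nat.dvd_prime_pow (Fact.out : p.Prime)).1 (orderOf_dvd_of_pow_eq_one h1)
  exact ⟨k, hk⟩

theorem assembly [Fintype G] (h2 : (Nat.card G).primeFactors.card = 2)
    [hF : (fittingSubgroup G).Normal] (hmeta : Group.IsNilpotent (G ⧸ fittingSubgroup G))
    (χ : IrrCharacter G) (hprim : IsPrim (χ : G → ℂ)) :
    ∃ g : G, charDegree (χ : G → ℂ) ∣ (Subgroup.centralizer ({g} : Set G)).index := by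
  classical
  obtain ⟨p, q, hpq, hset⟩ := Finset.card_eq_two.mp h2
  have hp : p.Prime := Nat.prime_of_mem_primeFactors (by rw [hset]; simp)
  have hq : q.Prime := Nat.prime_of_mem_primeFactors (by rw [hset]; simp)
  haveI : Fact p.Prime := ⟨hp⟩
  haveI : Fact q.Prime := ⟨hq⟩
  have hcard0 : Nat.card G ≠ 0 := Nat.card_pos.ne'
  have hG : ∀ r : ℕ, r.Prime → r ∣ Nat.card G → r = p ∨ r = q := by
    intro r hr hd
    have : r ∈ (Nat.card G).primeFactors := Nat.mem_primeFactors.2 ⟨hr, hd, hcard0⟩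
    rw [hset] at this
    simpa using this
  obtain ⟨N, ρ, hρ, hρχ⟩ := χ.2
  have hχ : (χ : G → ℂ) = ρ.character := hρχ.symm
  have hN1 : ρ.character 1 = (N : ℂ) := by simp
  have hNdvd : N ∣ Nat.card G := by
    haveI : ρ.IsIrreducible := hρ
    simpa using Cfsg.Agent.Lib.Char.Integrality.finrank_dvd_card ρ
  have hNpos : 0 < N := Nat.pos_of_dvd_of_pos hNdvd Nat.card_pos
  have hdeg : charDegree (χ : G → ℂ) = N := by
    rw [hχ]
    exact Cfsg.Agent.Lib.Char.Values.IsCharacter.charDegree_eq ⟨N, ρ, rfl⟩ hN1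
  rw [hdeg]
  have hprim' : IsPrim ρ.character := by rw [← hχ]; exact hprim
  have hirrG : IsIrrCharacter G ρ.character := ⟨N, ρ, hρ, rfl⟩
  set F := fittingSubgroup G with hFdef
  letI : Fintype F := Fintype.ofFinite _
  have hirr : IsIrrCharacter F (fun x : F => ρ.character x) :=
    irr_res_of_nilpotent_quot hirrG hprim' F hmeta
  haveI hRn : (pCore p G).Normal := Cfsg.Agent.Lib.Nilpotent.Fitting.pCore_normal p
  haveI hSn : (pCore q G).Normal := Cfsg.Agent.Lib.Nilpotent.Fitting.pCore_normal q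
  have hRp : IsPGroup p (pCore p G) := Cfsg.Agent.Lib.Nilpotent.Fitting.isPGroup_pCore p
  have hSq : IsPGroup q (pCore q G) := Cfsg.Agent.Lib.Nilpotent.Fitting.isPGroup_pCore q
  have hRF : pCore p G ≤ F := Cfsg.Agent.Lib.Nilpotent.Fitting.pCore_le_fittingSubgroup p
  have hSF : pCore q G ≤ F := Cfsg.Agent.Lib.Nilpotent.Fitting.pCore_le_fittingSubgroup q
  have hFle : F ≤ pCore p G ⊔ pCore q G := fitting_le_sup hG
  have hFle' : F ≤ pCore q G ⊔ pCore p G := by rw [sup_comm]; exact hFle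
  have hcm : ∀ r ∈ pCore p G, ∀ s ∈ pCore q G, r * s = s * r := pCore_comm hpq
  have hcm' : ∀ s ∈ pCore q G, ∀ r ∈ pCore p G, s * r = r * s := fun s hs r hr => (hcm r hr s hs).symm
  obtain ⟨P', Q', hP', hQ', hc, htop⟩ := exists_commuting hpq hG F hmeta
  have hc' : ∀ b ∈ Q', ∀ a ∈ P', b * a = a * b := fun b hb a ha => (hc a ha b hb).symm
  have htop' : Q' ⊔ P' ⊔ F = ⊤ := by rw [sup_comm Q' P']; exact htop
  obtain ⟨hL1, hL2⟩ := sup_normal_of_commuting P' Q' F hP' hc htop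
  obtain ⟨hL3, hL4⟩ := sup_normal_of_commuting Q' P' F hQ' hc' htop'
  have hab := hab_scal ρ hρ hprim'
  obtain ⟨b, hbQ, hb⟩ := side hpq ρ hNpos hab F (pCore p G) (pCore q G) hRF hSF hFle hcm hRp hSq hirr
    Q' hQ' hL1 hL2
  obtain ⟨a, haP, ha⟩ := side hpq.symm ρ hNpos hab F (pCore q G) (pCore p G) hSF hRF hFle' hcm' hSq
    hRp hirr P' hP' hL3 hL4
  refine ⟨a * b, ?_⟩
  obtain ⟨i, hi⟩ := orderOf_of_isPGroup hP' haP
  obtain ⟨j, hj⟩ := orderOf_of_isPGroup hQ' hbQ
  have hab' : a * b = b * a := hc a haP b hbQ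
  have hCa : Subgroup.centralizer ({a * b} : Set G) ≤ Subgroup.centralizer ({a} : Set G) :=
    centralizer_mul_le hab' hpq hi hj
  have hCb : Subgroup.centralizer ({a * b} : Set G) ≤ Subgroup.centralizer ({b} : Set G) := by
    rw [hab']
    exact centralizer_mul_le hab'.symm hpq.symm hj hi
  set C := Subgroup.centralizer ({a * b} : Set G) with hC
  have hidx0 : C.index ≠ 0 := Subgroup.index_ne_zero_of_finite
  have hdvdp : p ^ N.factorization p ∣ C.index := by
    have h1 : (Subgroup.centralizer ({b} : Set G)).relIndex (pCore p G) ∣ C.relIndex (pCore p G) :=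
      Subgroup.relIndex_dvd_of_le_left _ hCb
    have h2 : C.relIndex (pCore p G) ∣ C.index :=
      Cfsg.Agent.Lib.Nilpotent.Fitting.relIndex_dvd_index_of_normal_right C
    refine dvd_trans ?_ (h1.trans h2)
    have h3 : (Subgroup.centralizer ({b} : Set G)).relIndex (pCore p G) ∣ Nat.card (pCore p G) :=
      Subgroup.relIndex_dvd_card _ _
    obtain ⟨e, he⟩ := IsPGroup.iff_card.1 hRp
    rw [he] at h3
    obtain ⟨k, -, hk⟩ := (Nat.dvd_prime_pow hp).1 h3
    rw [hk] at hb ⊢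
    exact pow_dvd_pow _ ((Nat.pow_le_pow_iff_right hp.one_lt).1 hb)
  have hdvdq : q ^ N.factorization q ∣ C.index := by
    have h1 : (Subgroup.centralizer ({a} : Set G)).relIndex (pCore q G) ∣ C.relIndex (pCore q G) :=
      Subgroup.relIndex_dvd_of_le_left _ hCa
    have h2 : C.relIndex (pCore q G) ∣ C.index :=
      Cfsg.Agent.Lib.Nilpotent.Fitting.relIndex_dvd_index_of_normal_right C
    refine dvd_trans ?_ (h1.trans h2)
    have h3 : (Subgroup.centralizer ({a} : Set G)).relIndex (pCore q G) ∣ Nat.card (pCore q G) :=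
      Subgroup.relIndex_dvd_card _ _
    obtain ⟨e, he⟩ := IsPGroup.iff_card.1 hSq
    rw [he] at h3
    obtain ⟨k, -, hk⟩ := (Nat.dvd_prime_pow hq).1 h3
    rw [hk] at ha ⊢
    exact pow_dvd_pow _ ((Nat.pow_le_pow_iff_right hq.one_lt).1 ha)
  refine (Nat.factorization_prime_le_iff_dvd hNpos.ne' hidx0).1 ?_
  intro r hr
  by_cases hrN : r ∣ N
  · rcases hG r hr (hrN.trans hNdvd) with rfl | rfl
    · exact (Nat.Prime.pow_dvd_iff_le_factorization hr hidx0).1 hdvdp
    · exact (Nat.Prime.pow_dvd_iff_le_factorization hr hidx0).1 hdvdq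
  · rw [Nat.factorization_eq_zero_of_not_dvd hrN]
    exact Nat.zero_le _

end Asm

end Cfsg.Agent.Lib.S4993

open Cfsg

namespace Cfsg.Agent.S4993

/-- Let G be a group of odd order whose order has exactly two prime divisors and whose quotient by its Fitting subgroup is nilpotent (G is metanilpotent), and let χ be a primitive irreducible complex character of G (not induced from a character of any proper subgroup). Then χ(1) divides the size of some conjugacy class of G. -/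
theorem result {G : Type*} [Group G] [Fintype G] (hodd : Odd (Nat.card G)) (h2 : (Nat.card G).primeFactors.card = 2) [hF : (Cfsg.fittingSubgroup G).Normal] (hmeta : Group.IsNilpotent (G ⧸ Cfsg.fittingSubgroup G)) (χ : Cfsg.IrrCharacter G) (hprim : ¬ ∃ (H : Subgroup G), H ≠ ⊤ ∧ ∃ θ : ↥H → ℂ, Cfsg.IsCharacter ↥H θ ∧ Cfsg.indFun H θ = (χ : G → ℂ)) : ∃ g : G, Cfsg.charDegree (χ : G → ℂ) ∣ (Subgroup.centralizer ({g} : Set G)).index := by
  exact Cfsg.Agent.Lib.S4993.assembly h2 hmeta χ hprim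

end Cfsg.Agent.S4993
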