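import Cfsg.Statements.S4996
import Mathlib
import Cfsg.Agent.Lib.Char.GaloisC
import Cfsg.Agent.Lib.Char.Values
import Cfsg.Agent.Lib.Char.Ortho

set_option autoImplicit false
open Cfsg

namespace Cfsg.Agent.S4996

open Cfsg.Agent.Lib.Char.GaloisC in

/-- Let N be a normal subgroup of the finite group G and χ an irreducible complex character of G. Then the restriction of χ to N is not irreducible if and only if χ vanishes on some whole coset Nx of N in G. -/
theorem result {G : Type*} [Group G] [Finite G] (N : Subgroup G) [N.Normal] (χ : Cfsg.IrrCharacter G) : ¬ Cfsg.IsIrrCharacter ↥N (fun n : ↥N => (χ : G → ℂ) n) ↔ ∃ x : G, ∀ n : ↥N, (χ : G → ℂ) ((n : G) * x) = 0 := by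
  classical
  haveI := Fintype.ofFinite G
  haveI : Fintype N := Fintype.ofFinite N
  obtain ⟨χ, hχ⟩ := χ
  have hχc : IsCharacter G χ := Cfsg.Agent.Lib.Char.Basic.isCharacter_of_isIrrCharacter hχ
  have hsumG := sum_norm_sq_of_isIrr hχ
  have hχN : IsCharacter N (fun n : N => χ n) := Cfsg.Agent.Lib.Char.Basic.isCharacter_restrict hχc N
  have hNpos : (0 : ℝ) < Nat.card N := by exact_mod_cast Nat.card_pos
  have hGpos : (0 : ℝ) < Nat.card G := by exact_mod_cast Nat.card_pos
  let ψ : G → ℂ := fun g => ((‖χ g‖ ^ 2 : ℝ) : ℂ)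
  have hψ : IsCharacter G ψ := by
    have := Cfsg.Agent.Lib.Char.Basic.isCharacter_mul hχc (Cfsg.Agent.Lib.Char.Ortho.isCharacter_conj hχc)
    have h2 : ψ = χ * fun g => (starRingEnd ℂ) (χ g) := by
      funext g
      simp only [ψ, Pi.mul_apply, Complex.mul_conj, Complex.normSq_eq_norm_sq]
    rw [h2]
    exact this
  let F : G → ℝ := fun g => (Nat.card N : ℝ)⁻¹ * ∑ n : N, ‖χ ((n : G) * g)‖ ^ 2
  have hf : IsCharacter G (fun g => ((F g : ℝ) : ℂ)) := by
    have := isCharacter_avg hψ N
    have h2 : (fun g => ((F g : ℝ) : ℂ)) = fun g => (Nat.card N : ℂ)⁻¹ * ∑ n : N, ψ ((n : G) * g) := by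
      funext g
      simp only [F, ψ]
      push_cast
      rfl
    rw [h2]
    exact this
  have hF0 : ∀ g, 0 ≤ F g := fun g => by
    simp only [F]
    positivity
  have hFzero : ∀ x, F x = 0 ↔ ∀ n : N, χ ((n : G) * x) = 0 := by
    intro x
    simp only [F, mul_eq_zero, inv_eq_zero, hNpos.ne', false_or]
    rw [Finset.sum_eq_zero_iff_of_nonneg (fun _ _ => by positivity)]
    simp
  obtain ⟨k, hk⟩ := Cfsg.Agent.Lib.Char.Basic.exists_degree_of_isCharacter hf
  have hk' : F 1 = k := by exact_mod_cast hk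
  have hFN : ∀ h : N, F h = F 1 := by
    intro h
    simp only [F, mul_one]
    congr 1
    exact Fintype.sum_equiv (Equiv.mulRight h) _ _ (fun n => by simp)
  have hNsum : ∑ n : N, ‖χ (n : G)‖ ^ 2 = (Nat.card N : ℝ) * k := by
    rw [← hk']
    simp only [F, mul_one]
    rw [mul_inv_cancel_left₀ hNpos.ne']
  have hFsumG : ∑ g, F g = (Nat.card G : ℝ) := by
    simp only [F]
    rw [← Finset.mul_sum, Finset.sum_comm]
    have : ∀ n : N, ∑ g : G, ‖χ ((n : G) * g)‖ ^ 2 = Nat.card G := by
      intro n
      rw [← hsumG]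
      exact Fintype.sum_equiv (Equiv.mulLeft (n : G)) _ _ (fun g => by simp)
    simp_rw [this]
    rw [Finset.sum_const, Finset.card_univ, ← Nat.card_eq_fintype_card, nsmul_eq_mul,
      inv_mul_cancel_left₀ hNpos.ne']
  have hiff : IsIrrCharacter N (fun n : N => χ n) ↔ k = 1 := by
    constructor
    · intro h
      have h3 := sum_norm_sq_of_isIrr h
      rw [hNsum] at h3
      have : (k : ℝ) = 1 := by
        have := mul_left_cancel₀ hNpos.ne' (h3.trans (mul_one _).symm)
        exact this
      exact_mod_cast this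
    · rintro rfl
      refine isIrr_of_sum_norm_sq hχN ?_
      rw [hNsum]
      simp
  have hFnorm : ∀ g, ‖((F g : ℝ) : ℂ)‖ = F g := fun g => by
    rw [Complex.norm_real, Real.norm_of_nonneg (hF0 g)]
  rw [hiff]
  constructor
  · intro hk1
    by_contra hne
    push Not at hne
    have hFne : ∀ x, ((F x : ℝ) : ℂ) ≠ 0 := by
      intro x h0
      obtain ⟨n, hn⟩ := hne x
      exact hn (((hFzero x).1 (by exact_mod_cast h0)) n)
    let X : Finset G := Finset.univ.filter (fun x => x ∉ N)
    have hb := card_le_sum_norm_pow hf X (by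
      intro x hx j hj
      simp only [X, Finset.mem_filter, Finset.mem_univ, true_and] at hx ⊢
      exact fun h => hx ((pow_mem_iff_of_coprime N hj x).1 h)) (fun x _ => hFne x) 1
    simp only [pow_one, hFnorm] at hb
    -- split the sums
    let Y : Finset G := Finset.univ.filter (fun x => x ∈ N)
    have hsplit : ∑ g, F g = ∑ g ∈ Y, F g + ∑ g ∈ X, F g := by
      rw [← Finset.sum_filter_add_sum_filter_not Finset.univ (fun x => x ∈ N)]
    have hYcard : (Y.card : ℝ) = Nat.card N := by
      rw [Nat.card_eq_fintype_card, Fintype.card_subtype]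
    have hYsum : ∑ g ∈ Y, F g = (Nat.card N : ℝ) * k := by
      have h1 : ∑ g ∈ Y, F g = ∑ g ∈ Y, F 1 := Finset.sum_congr rfl (fun g hg => by
        simp only [Y, Finset.mem_filter, Finset.mem_univ, true_and] at hg
        exact hFN ⟨g, hg⟩)
      rw [h1, Finset.sum_const, nsmul_eq_mul, hYcard, hk']
    have hcards : (X.card : ℝ) + Y.card = Nat.card G := by
      have := Finset.card_filter_add_card_filter_not (s := (Finset.univ : Finset G)) (fun x => x ∉ N)
      simp only [not_not] at this
      rw [Nat.card_eq_fintype_card, ← Finset.card_univ]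
      exact_mod_cast this
    rw [hFsumG, hYsum] at hsplit
    have hk2 : (k : ℝ) ≤ 1 := by
      have h1 : (Nat.card N : ℝ) * k ≤ Nat.card N * 1 := by
        rw [hYcard] at hcards
        linarith
      exact le_of_mul_le_mul_left h1 hNpos
    have hk3 : 1 ≤ k := by
      by_contra h0
      have hk0 : k = 0 := by omega
      rw [hk0] at hk'
      simp only [Nat.cast_zero] at hk'
      exact hFne 1 (by simp [hk'])
    exact hk1 (le_antisymm (by exact_mod_cast hk2) hk3)
  · rintro ⟨x, hx⟩ hk1
    subst hk1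
    have hFle : ∀ g, F g ≤ 1 := by
      intro g
      have := Cfsg.Agent.Lib.Char.Values.IsCharacter.norm_le hf g
      rw [hFnorm, hFnorm, hk'] at this
      simpa using this
    have hFx := (hFzero x).2 hx
    have hlt : ∑ g, F g < ∑ g : G, (1 : ℝ) :=
      Finset.sum_lt_sum (fun g _ => hFle g) ⟨x, Finset.mem_univ x, by rw [hFx]; norm_num⟩
    rw [hFsumG] at hlt
    simp only [Finset.sum_const, Finset.card_univ, nsmul_eq_mul, mul_one] at hlt
    rw [Nat.card_eq_fintype_card] at hlt
    exact lt_irrefl _ hlt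

end Cfsg.Agent.S4996
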