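import Cfsg.Statements.S5001
import Cfsg.Agent.Lib.Blocks.HeightZero
import Cfsg.Agent.Lib.Blocks.Laradji
import Cfsg.Agent.Lib.Char.Basic
import Cfsg.Agent.Lib.Char.LinearChars

set_option autoImplicit false
open Cfsg

namespace Cfsg.Agent.S5001

open Cfsg.Agent.Lib.Blocks.Local Cfsg.Agent.Lib.Blocks.HeightZero
open scoped ComplexConjugate

/-- Let p be a prime, G a finite group and B a p-block of G (relative to a maximal ideal M of the algebraic integers containing p) with defect group D. Let Z be a central p-subgroup of G contained in D and λ a linear character of Z (a homomorphism to the nonzero complex numbers). Say an irreducible character χ of G lies over λ when χ(z) = χ(1)λ(z) for all z ∈ Z. If some irreducible character in B lying over λ has height zero, then λ extends to a linear character of D. -/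
theorem result {G : Type*} [Group G] [Finite G] (p : ℕ) [Fact p.Prime] (M : Ideal Cfsg.AlgInt) (hM : Cfsg.IsPModular p M) (B : Set (Cfsg.IrrCharacter G)) (hB : Cfsg.IsPBlock M B) (D : Subgroup G) (hD : Cfsg.IsDefectGroup p M B D) (Z : Subgroup G) (hZc : Z ≤ Subgroup.center G) (hZp : IsPGroup p ↥Z) (hZD : Z ≤ D) (lam : ↥Z →* ℂˣ) (χ : Cfsg.IrrCharacter G) (hχ : χ ∈ B) (hover : (∀ z : ↥Z, (χ : G → ℂ) z = (χ : G → ℂ) 1 * (lam z : ℂ))) (h0 : Cfsg.blockHeight p B (χ : G → ℂ) = 0) : (∃ μ : ↥D →* ℂˣ, ∀ z : ↥Z, μ ⟨(z : G), hZD z.2⟩ = lam z) := by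
  classical
  have hMp : M.IsPrime := isPrime_of_isPModular hM
  let _ := Fintype.ofFinite G
  by_contra hno
  push Not at hno
  obtain ⟨y, hy, S, hDS⟩ := id hD
  have hχy : ¬ MemLocalIdeal M ((χ : G → ℂ) y) := by
    have := not_memLocalIdeal_of_defect_class hM hB hy hχ h0 (x := 1) (Commute.one_left y) (k := 0) (by simp)
    simpa using this
  apply hχy
  have hDp : IsPGroup p D := by
    rw [hDS]; exact S.isPGroup'.map _
  have hDc : ∀ d ∈ D, Commute d y := by
    intro d hd
    rw [hDS] at hd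
    obtain ⟨w, -, rfl⟩ := hd
    exact (Subgroup.mem_centralizer_iff.mp w.2 y rfl).symm
  set H : Subgroup G := Subgroup.zpowers y ⊔ D with hH
  have hyH : y ∈ H := Subgroup.mem_sup_left (Subgroup.mem_zpowers y)
  have hDH : D ≤ H := le_sup_right
  have hHc : ∀ h ∈ H, Commute h y := by
    intro h hh
    have hle : H ≤ Subgroup.centralizer ({y} : Set G) := by
      apply sup_le
      · rw [Subgroup.zpowers_le, Subgroup.mem_centralizer_iff]
        intro g hg
        rw [Set.mem_singleton_iff.mp hg]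
      · intro d hd
        rw [Subgroup.mem_centralizer_iff]
        intro g hg
        rw [Set.mem_singleton_iff.mp hg]
        exact (hDc d hd).symm
    exact (Subgroup.mem_centralizer_iff.mp (hle hh) y rfl).symm
  letI : Fintype H := Fintype.ofFinite _
  let yH : H := ⟨y, hyH⟩
  have hycen : ∀ h : H, h * yH = yH * h := by
    intro h
    apply Subtype.ext
    exact hHc h h.2
  have hχH : IsCharacter H (fun h : H => (χ : G → ℂ) h) :=
    Cfsg.Agent.Lib.Char.Basic.isCharacter_restrict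
      (Cfsg.Agent.Lib.Char.Values.IsIrrCharacter.isCharacter χ.2) H
  have hdec := Cfsg.Agent.Lib.Char.Ortho.decomp_eq_sum_classInner hχH
  have hval : (χ : G → ℂ) y = ∑ ψ : IrrCharacter H, classInner (fun h : H => (χ : G → ℂ) h) ψ * (ψ : H → ℂ) yH := by
    have := congrFun hdec yH
    simpa [Finset.sum_apply] using this
  rw [hval]
  apply memLocalIdeal_sum
  intro ψ _
  obtain ⟨m, hm⟩ := Cfsg.Agent.Lib.Char.Ortho.exists_nat_classInner hχH ψ
  by_cases hm0 : m = 0
  · rw [hm, hm0]
    simp only [Nat.cast_zero, zero_mul]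
    exact memLocalIdeal_zero
  rw [hm]
  apply memLocalIdeal_mul_left (memLocalRing_natCast m)
  obtain ⟨ψf, hψf⟩ := ψ
  obtain ⟨n, ρ, hρ, hρe⟩ := id hψf
  haveI := hρ
  simp only
  have hscal : ∀ z : H, (∀ h : H, h * z = z * h) → ∃ a : ℂ, ρ z = a • (LinearMap.id : (Fin n → ℂ) →ₗ[ℂ] (Fin n → ℂ)) := by
    intro z hz
    apply Cfsg.Agent.Lib.Char.Integrality.exists_smul_id_of_commute ρ (ρ z)
    intro g
    show ρ z * ρ g = ρ g * ρ z
    rw [← map_mul, ← map_mul, hz g]
  have hdvd : Module.finrank ℂ (Fin n → ℂ) ∣ (Subgroup.zpowers yH).index := by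
    apply Cfsg.Agent.Lib.Char.Integrality.finrank_dvd_index_of_scalar ρ
    intro z hz
    apply hscal
    intro h
    obtain ⟨k, rfl⟩ := Subgroup.mem_zpowers_iff.mp hz
    exact (Commute.zpow_right (show Commute h yH from hycen h) k)
  have hindex : (Subgroup.zpowers yH).index ∣ Nat.card D := by
    have hsup : Subgroup.zpowers yH ⊔ D.subgroupOf H = ⊤ := by
      apply Subgroup.map_injective H.subtype_injective
      rw [Subgroup.map_sup, MonoidHom.map_zpowers, Subgroup.map_subgroupOf_eq_of_le hDH]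
      rw [← MonoidHom.range_eq_map, Subgroup.range_subtype]
      rfl
    haveI : (Subgroup.zpowers yH).Normal := by
      constructor
      intro z hz g
      obtain ⟨k, rfl⟩ := Subgroup.mem_zpowers_iff.mp hz
      have : g * yH ^ k * g⁻¹ = yH ^ k := by
        have h1 : Commute g (yH ^ k) := Commute.zpow_right (show Commute g yH from hycen g) k
        rw [h1.eq]
        group
      rw [this]
      exact Subgroup.zpow_mem_zpowers yH k
    have h1 : (Subgroup.zpowers yH).relIndex (Subgroup.zpowers yH ⊔ D.subgroupOf H) =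
        (Subgroup.zpowers yH).relIndex (D.subgroupOf H) := Subgroup.relIndex_sup_left _ _
    rw [hsup, Subgroup.relIndex_top_right] at h1
    rw [h1]
    have h2 : Nat.card (D.subgroupOf H) = Nat.card D :=
      Nat.card_congr (Subgroup.subgroupOfEquivOfLe hDH).toEquiv
    rw [← h2]
    exact Subgroup.relIndex_dvd_card _ _
  have hcardD : ∃ k, Nat.card D = p ^ k := IsPGroup.iff_card.mp hDp
  obtain ⟨k, hk⟩ := hcardD
  have hfin : n ∣ p ^ k := by
    have := hdvd.trans hindex
    rw [hk] at this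
    simpa using this
  obtain ⟨j, -, hj⟩ := (Nat.dvd_prime_pow (Fact.out : p.Prime)).mp hfin
  obtain ⟨a, ha⟩ := hscal yH hycen
  have hψy : ψf yH = a * n := by
    rw [← hρe]
    show LinearMap.trace ℂ _ (ρ yH) = _
    rw [ha]
    simp [LinearMap.trace_id]
  have haint : MemLocalRing M a := by
    have hne : Nontrivial (Fin n → ℂ) := Cfsg.Agent.Lib.Char.Integrality.nontrivial_of_isIrreducible ρ
    obtain ⟨v, hv⟩ := exists_ne (0 : Fin n → ℂ)
    have h1 : ρ (yH ^ orderOf yH) v = a ^ orderOf yH • v := by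
      rw [map_pow, ha]
      show ((a • (1 : Module.End ℂ (Fin n → ℂ))) ^ orderOf yH) v = _
      rw [smul_pow, one_pow]
      rfl
    rw [pow_orderOf_eq_one, map_one] at h1
    have h2 : a ^ orderOf yH = 1 := by
      have h3 : (a ^ orderOf yH - 1) • v = 0 := by
        rw [sub_smul, one_smul, ← h1]
        simp
      rcases smul_eq_zero.mp h3 with h4 | h4
      · linear_combination h4
      · exact absurd h4 hv
    exact memLocalRing_of_pow_eq_one (orderOf_pos yH) h2
  rcases Nat.eq_zero_or_pos j with hj0 | hjpos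
  · -- linear case: contradiction
    exfalso
    have hn1 : n = 1 := by rw [hj, hj0, pow_zero]
    subst hn1
    have hψ1 : ψf 1 = 1 := by
      rw [← hρe, Representation.char_one]
      simp
    obtain ⟨φ, hφ⟩ := Cfsg.Agent.Lib.Char.LinearChars.exists_hom_of_isCharacter_one
      (Cfsg.Agent.Lib.Char.Values.IsIrrCharacter.isCharacter hψf) hψ1
    obtain ⟨z, hz⟩ := hno (φ.comp (Subgroup.inclusion hDH))
    apply hz
    apply Units.ext
    let zH : H := ⟨z, hDH (hZD z.2)⟩
    have hzc : (z : G) ∈ Subgroup.center G := hZc z.2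
    have h10 : (χ : G → ℂ) 1 ≠ 0 := Cfsg.Agent.Lib.Char.Ortho.irr_apply_one_ne_zero χ.2
    have hlam : Cfsg.Agent.Lib.Blocks.Laradji.lam (χ : G → ℂ) z = (lam z : ℂ) := by
      rw [Cfsg.Agent.Lib.Blocks.Laradji.lam, hover z]
      field_simp
    have hsum : (∑ h : H, (χ : G → ℂ) h * conj (ψf h)) =
        ((lam z : ℂ) * conj ((φ zH : ℂˣ) : ℂ)) * ∑ h : H, (χ : G → ℂ) h * conj (ψf h) := by
      rw [Finset.mul_sum]
      refine (Fintype.sum_equiv (Equiv.mulLeft zH) _ _ ?_).symm
      intro h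
      have h1 : (χ : G → ℂ) ((zH * h : H) : G) = (lam z : ℂ) * (χ : G → ℂ) h := by
        show (χ : G → ℂ) ((z : G) * h) = _
        rw [Cfsg.Agent.Lib.Blocks.Laradji.irr_mul_central χ.2 hzc, hlam]
      simp only [Equiv.coe_mulLeft]
      rw [h1, hφ]
      simp only [map_mul, Units.val_mul, map_mul]
      ring
    have hinner : classInner (fun h : H => (χ : G → ℂ) h) ψf ≠ 0 := by
      rw [hm]
      exact_mod_cast hm0
    have hsum0 : (∑ h : H, (χ : G → ℂ) h * conj (ψf h)) ≠ 0 := by
      intro h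
      apply hinner
      rw [classInner, h, mul_zero]
    have h1 : (lam z : ℂ) * conj ((φ zH : ℂˣ) : ℂ) = 1 := by
      have := mul_right_cancel₀ hsum0 (by rw [one_mul]; exact hsum : (1:ℂ) * ∑ h : H, (χ : G → ℂ) h * conj (ψf h) = ((lam z : ℂ) * conj ((φ zH : ℂˣ) : ℂ)) * ∑ h : H, (χ : G → ℂ) h * conj (ψf h))
      exact this.symm
    have h2 : conj ((φ zH : ℂˣ) : ℂ) = ((φ zH)⁻¹ : ℂˣ) := by
      have hc := Cfsg.Agent.Lib.Char.Ortho.conj_of_isCharacter
        (Cfsg.Agent.Lib.Char.Values.IsIrrCharacter.isCharacter hψf) zH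
      rw [hφ] at hc
      simpa using hc
    rw [h2] at h1
    have h3 : ((φ zH : ℂˣ) : ℂ) * (((φ zH)⁻¹ : ℂˣ) : ℂ) = 1 := by
      rw [← Units.val_mul, mul_inv_cancel, Units.val_one]
    show ((φ zH : ℂˣ) : ℂ) = _
    calc ((φ zH : ℂˣ) : ℂ) = ((φ zH : ℂˣ) : ℂ) * ((lam z : ℂ) * (((φ zH)⁻¹ : ℂˣ) : ℂ)) := by rw [h1, mul_one]
      _ = (lam z : ℂ) * (((φ zH : ℂˣ) : ℂ) * (((φ zH)⁻¹ : ℂˣ) : ℂ)) := by ring
      _ = (lam z : ℂ) := by rw [h3, mul_one]
  · rw [hψy, hj]
    have hp : ((p ^ j : ℕ) : ℂ) = (p : ℂ) * ((p ^ (j - 1) : ℕ) : ℂ) := by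
      rw [← Nat.cast_mul, ← pow_succ', Nat.sub_add_cancel hjpos]
    rw [hp]
    apply memLocalIdeal_mul_left haint
    exact memLocalIdeal_mul_right (memLocalIdeal_natCast_self hM) (memLocalRing_natCast _)

end Cfsg.Agent.S5001
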