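import Cfsg.Statements.S5008
import Mathlib
import Cfsg.Agent.S0191
import Cfsg.Agent.S0907
import Cfsg.Agent.S4888
import Cfsg.Agent.Lib.Blocks.Principal
import Cfsg.Agent.Lib.Blocks.Osima
import Cfsg.Agent.Lib.Char.LinearChars
import Cfsg.Agent.Lib.Char.Ortho
import Cfsg.Agent.Lib.SmallOrd.PN

set_option autoImplicit false
open Cfsg

namespace Cfsg.Agent.S5008

open Cfsg.Agent.Lib.Blocks.Local Cfsg.Agent.Lib.Blocks.Principal
open scoped ComplexConjugate

/-- Let `G` be a finite group and `p` a prime dividing the size of no vanishing conjugacy class of `G` (a class of an element on which some irreducible complex character takes the value zero). Then `G` has a normal `p`-complement and abelian Sylow `p`-subgroups. The known proof uses the classification of finite simple groups. -/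
theorem result {G : Type*} [Group G] [Finite G] (p : ℕ) [Fact p.Prime]
    (h : ∀ x : G, (∃ χ : Cfsg.IrrCharacter G, (χ : G → ℂ) x = 0) → ¬ p ∣ (Subgroup.centralizer ({x} : Set G)).index) :
    Cfsg.HasNormalPComplement p G ∧ ∀ P : Sylow p G, IsMulCommutative (P : Subgroup G) := by
  classical
  have hpp : p.Prime := Fact.out
  obtain ⟨M, hM⟩ := Cfsg.Agent.Lib.SmallOrd.PN.exists_modular p hpp
  -- members of the principal block vanish nowhere
  have hne : ∀ χ ∈ principalBlock M G, ∀ x : G, (χ : G → ℂ) x ≠ 0 := by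
    intro χ hχ x hx
    have h1 : MemLocalIdeal M (centralChar (fun _ : G => (1 : ℂ)) x - centralChar (χ : G → ℂ) x) := hχ x
    have h2 : centralChar (χ : G → ℂ) x = 0 := by simp [centralChar, hx]
    rw [h2, sub_zero, centralChar_trivChar] at h1
    exact h x ⟨χ, hx⟩ ((memLocalIdeal_natCast_iff hM).1 h1)
  -- so they are linear, by Burnside
  have hdeg : ∀ χ ∈ principalBlock M G, (χ : G → ℂ) 1 = 1 := by
    intro χ hχ
    obtain ⟨n, ρ, hirr, hc⟩ := χ.2
    have h1 : (χ : G → ℂ) 1 = (n : ℂ) := by
      rw [← hc, Representation.char_one]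
      simp
    have hn0 : n ≠ 0 := by
      rintro rfl
      exact hne χ hχ 1 (by rw [h1]; simp)
    have hn : n = 1 := by
      by_contra hn
      have hlt : 1 < Module.finrank ℂ (Fin n → ℂ) := by
        simp only [Module.finrank_fin_fun]
        omega
      haveI := hirr
      obtain ⟨g, hg⟩ := Cfsg.Agent.S0191.result ρ hlt
      exact hne χ hχ g (by rw [← hc]; exact hg)
    rw [h1, hn]
    simp
  refine ⟨?_, ?_⟩
  · refine (Cfsg.Agent.S4888.result p M hM).1 ⟨1, fun χ hχ _ => ?_⟩
    rw [charDegree, hdeg χ hχ]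
    simp
  · intro P
    refine ⟨⟨fun a b => ?_⟩⟩
    by_contra hab
    set c : G := (a : G) * b * (a : G)⁻¹ * (b : G)⁻¹ with hcdef
    have hcP : c ∈ (P : Subgroup G) :=
      (P : Subgroup G).mul_mem ((P : Subgroup G).mul_mem ((P : Subgroup G).mul_mem a.2 b.2)
        ((P : Subgroup G).inv_mem a.2)) ((P : Subgroup G).inv_mem b.2)
    have hc1 : c ≠ 1 := by
      intro hc
      apply hab
      apply Subtype.ext
      show (a : G) * b = b * a
      have h2 : (a : G) * b * (a : G)⁻¹ * (b : G)⁻¹ = 1 := hc
      calc (a : G) * b = ((a : G) * b * (a : G)⁻¹ * (b : G)⁻¹) * (b * a) := by group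
        _ = b * a := by rw [h2, one_mul]
    have hpc : p ∣ orderOf c := by
      obtain ⟨k, hk⟩ := IsPGroup.iff_orderOf.mp P.isPGroup' (⟨c, hcP⟩ : (P : Subgroup G))
      have hk' : orderOf c = p ^ k := by
        rw [← hk]
        exact (Subgroup.orderOf_mk c hcP).symm
      rw [hk']
      refine dvd_pow_self p ?_
      rintro rfl
      exact hc1 (orderOf_eq_one_iff.mp (by simpa using hk'))
    have horth := Cfsg.Agent.S0907.result p M hM (principalBlock M G) (isPBlock_principalBlock M) 1 c
      (by simpa using hpp.one_lt.ne') hpc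
    have hterm : ∀ χ ∈ principalBlock M G, (χ : G → ℂ) 1 * conj ((χ : G → ℂ) c) = 1 := by
      intro χ hχ
      obtain ⟨φ, hφ⟩ := Cfsg.Agent.Lib.Char.LinearChars.exists_hom_of_isCharacter_one
        (χ := (χ : G → ℂ)) (by obtain ⟨n, ρ, -, hc⟩ := χ.2; exact ⟨n, ρ, hc⟩) (hdeg χ hχ)
      have h1 : (χ : G → ℂ) c = 1 := by
        rw [hφ]
        have : φ c = 1 := by
          rw [hcdef]
          simp only [map_mul, map_inv]
          rw [mul_comm (φ (a : G)) (φ (b : G))]
          group
        simp [this]
      rw [h1, hdeg χ hχ]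
      simp
    rw [finsum_mem_congr rfl hterm, Cfsg.Agent.Lib.Blocks.Osima.finsum_mem_eq_sum_filter] at horth
    have hmem : (Finset.univ.filter (· ∈ principalBlock M G)).card ≠ 0 := by
      haveI := isPrime_of_isPModular hM
      cases nonempty_fintype G
      exact Finset.card_ne_zero_of_mem (a := trivChar G)
        (Finset.mem_filter.mpr ⟨Finset.mem_univ _, trivChar_mem_principalBlock⟩)
    rw [Finset.sum_const, nsmul_eq_mul, mul_one] at horth
    exact hmem (by exact_mod_cast horth)

end Cfsg.Agent.S5008
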