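import Cfsg.Statements.S5011
import Mathlib
-- import your own Cfsg.Agent.* helpers here

set_option autoImplicit false
open Cfsg

namespace Cfsg.Agent.S5011

/-- Let G be a finite non-abelian simple group and ρ an irreducible complex representation of G on a space of dimension greater than one (irreducible in the sense that the only subspaces invariant under every ρ(x) are 0 and the whole space). Then for every non-identity element g of G, the centralizer of g does not act irreducibly: there is a non-zero proper subspace invariant under ρ(c) for every c commuting with g. -/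
theorem result {G : Type*} [Group G] [Finite G] [IsSimpleGroup G]
    (hG : ¬ IsMulCommutative G) {V : Type*} [AddCommGroup V] [Module ℂ V] [FiniteDimensional ℂ V]
    (ρ : Representation ℂ G V)
    (hirr : ∀ W : Submodule ℂ V, (∀ x : G, ∀ v ∈ W, ρ x v ∈ W) → W = ⊥ ∨ W = ⊤)
    (hdim : 1 < Module.finrank ℂ V) (g : G) (hg : g ≠ 1) :
    ∃ W : Submodule ℂ V, W ≠ ⊥ ∧ W ≠ ⊤ ∧ ∀ c ∈ Subgroup.centralizer ({g} : Set G), ∀ v ∈ W, ρ c v ∈ W := by
  classical
  have hV : Nontrivial V := Module.nontrivial_of_finrank_pos (R := ℂ) (by omega)
  obtain ⟨μ, hμ⟩ := Module.End.exists_eigenvalue (ρ g)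
  by_cases hWt : Module.End.eigenspace (ρ g) μ = ⊤
  · exfalso
    have hscal : ∀ v, ρ g v = μ • v := by
      intro v
      have hv : v ∈ Module.End.eigenspace (ρ g) μ := by rw [hWt]; trivial
      exact Module.End.mem_eigenspace_iff.mp hv
    let N : Subgroup G :=
      { carrier := {x | ∃ c : ℂ, ∀ v, ρ x v = c • v}
        one_mem' := ⟨1, fun v => by simp⟩
        mul_mem' := by
          rintro x y ⟨c, hc⟩ ⟨d, hd⟩
          refine ⟨c * d, fun v => ?_⟩
          rw [map_mul, Module.End.mul_apply, hd, map_smul, hc, smul_smul, mul_comm]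
        inv_mem' := by
          rintro x ⟨c, hc⟩
          have hc0 : c ≠ 0 := by
            rintro rfl
            obtain ⟨v, hv⟩ := exists_ne (0 : V)
            have h1 : ρ x⁻¹ (ρ x v) = v := by
              rw [← Module.End.mul_apply, ← map_mul]; simp
            rw [hc, zero_smul, map_zero] at h1
            exact hv h1.symm
          refine ⟨c⁻¹, fun v => ?_⟩
          have h1 : ρ x (ρ x⁻¹ v) = v := by
            rw [← Module.End.mul_apply, ← map_mul]; simp
          rw [hc] at h1
          exact (eq_inv_smul_iff₀ hc0).mpr h1 }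
    have hN : N.Normal := by
      constructor
      rintro x ⟨c, hc⟩ h
      refine ⟨c, fun v => ?_⟩
      rw [map_mul, map_mul, Module.End.mul_apply, Module.End.mul_apply, hc, map_smul]
      rw [← Module.End.mul_apply, ← map_mul]
      simp
    have hgN : g ∈ N := ⟨μ, hscal⟩
    rcases IsSimpleGroup.eq_bot_or_eq_top_of_normal N hN with h | h
    · rw [h, Subgroup.mem_bot] at hgN
      exact hg hgN
    · obtain ⟨v, hv⟩ := exists_ne (0 : V)
      have hinv : ∀ x : G, ∀ w ∈ Submodule.span ℂ {v}, ρ x w ∈ Submodule.span ℂ {v} := by
        intro x w hw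
        have hx : x ∈ N := by rw [h]; trivial
        obtain ⟨c, hc⟩ := hx
        rw [hc]
        exact Submodule.smul_mem _ _ hw
      rcases hirr _ hinv with h1 | h1
      · rw [Submodule.span_singleton_eq_bot] at h1
        exact hv h1
      · have h2 : Module.finrank ℂ (Submodule.span ℂ {v}) = 1 := finrank_span_singleton hv
        rw [h1, finrank_top] at h2
        omega
  · refine ⟨_, hμ, hWt, ?_⟩
    intro c hc v hv
    rw [Module.End.mem_eigenspace_iff] at hv ⊢
    have hcg : c * g = g * c := Subgroup.mem_centralizer_singleton_iff.mp hc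
    rw [← Module.End.mul_apply, ← map_mul, ← hcg, map_mul, Module.End.mul_apply, hv, map_smul]

end Cfsg.Agent.S5011
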