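import Cfsg.Statements.S5075
import Cfsg.Agent.Lib.McL.Asm2

set_option autoImplicit false
open Cfsg

namespace Cfsg.Agent.S5075

open Cfsg.Agent.Lib.McL in
/-- Let p be an odd prime, V a finite-dimensional vector space over the field with p elements, and H a group of linear automorphisms of V generated by transvections (elements of order p fixing a hyperplane pointwise) and having no nontrivial normal p-subgroup. Then for some n ≥ 1 there are a decomposition V = V₀ ⊕ V₁ ⊕ ⋯ ⊕ Vₙ into H-invariant subspaces and a decomposition of H as the internal direct product of normal subgroups H₁, …, Hₙ such that Hⱼ acts trivially on every Vᵢ with i ≠ j, and Hⱼ induces on Vⱼ exactly the special linear group of Vⱼ or exactly the isometry group of a non-degenerate alternating form on Vⱼ. -/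
theorem result {p : ℕ} [Fact p.Prime] (hp : Odd p) {V : Type*} [AddCommGroup V] [Module (ZMod p) V] [Finite V]
    (H : Subgroup (V ≃ₗ[ZMod p] V)) (T : Set (V ≃ₗ[ZMod p] V)) (hHT : H = Subgroup.closure T)
    (hT : ∀ t ∈ T, orderOf t = p ∧
      Module.finrank (ZMod p) ↥(LinearMap.ker ((t : V →ₗ[ZMod p] V) - LinearMap.id)) + 1 =
        Module.finrank (ZMod p) V)
    (hOp : Cfsg.pCore p ↥H = ⊥) :
    ∃ (n : ℕ) (W : Fin (n + 1) → Submodule (ZMod p) V) (K : Fin n → Subgroup (V ≃ₗ[ZMod p] V)),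
      1 ≤ n ∧ DirectSum.IsInternal W ∧
      (∀ h ∈ H, ∀ i, (W i).map (h : V →ₗ[ZMod p] V) = W i) ∧
      (∀ j, K j ≤ H ∧ ((K j).subgroupOf H).Normal) ∧ ⨆ j, K j = H ∧
      (∀ j, K j ⊓ (⨆ j' ∈ {j' : Fin n | j' ≠ j}, K j') = ⊥) ∧
      (∀ j j', j ≠ j' → ∀ a ∈ K j, ∀ b ∈ K j', a * b = b * a) ∧
      (∀ j, ∀ h ∈ K j, ∀ i : Fin (n + 1), i ≠ j.succ → ∀ v ∈ W i, h v = v) ∧
      (∀ j, ∃ ρ : ↥(K j) →* (↥(W j.succ) ≃ₗ[ZMod p] ↥(W j.succ)),
        (∀ (h : ↥(K j)) (v : ↥(W j.succ)), ((ρ h v : ↥(W j.succ)) : V) = (h : V ≃ₗ[ZMod p] V) (v : V)) ∧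
        ((ρ.range : Set (↥(W j.succ) ≃ₗ[ZMod p] ↥(W j.succ))) =
            {f : ↥(W j.succ) ≃ₗ[ZMod p] ↥(W j.succ) | LinearMap.det (f : ↥(W j.succ) →ₗ[ZMod p] ↥(W j.succ)) = 1} ∨
          ∃ B : LinearMap.BilinForm (ZMod p) ↥(W j.succ), B.IsAlt ∧ B.Nondegenerate ∧
            (ρ.range : Set (↥(W j.succ) ≃ₗ[ZMod p] ↥(W j.succ))) = {f : ↥(W j.succ) ≃ₗ[ZMod p] ↥(W j.succ) | ∀ x y, B (f x) (f y) = B x y})) := by
  have hp2 : p ≠ 2 := by
    rintro rfl
    exact absurd hp (by decide)
  haveI : Finite (V ≃ₗ[ZMod p] V) := by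
    haveI : NeZero p := ⟨(Fact.out : p.Prime).ne_zero⟩
    exact Finite.of_injective (fun e : V ≃ₗ[ZMod p] V => (e : V → V))
      (fun e e' h => LinearEquiv.ext (congrFun h))
  have hcoreH : ∀ N : Subgroup H, N.Normal → IsPGroup p N → N = ⊥ :=
    Cfsg.Agent.Lib.Basic.PCore.pCore_eq_bot_iff.1 hOp
  have hTflag : ∀ t ∈ T, ∃ q₀ : FlagT H, ∀ v, t v = v + q₀.1.2 v • q₀.1.1 := by
    intro t ht
    obtain ⟨a, f, ha, hf, hfa, hv⟩ := tv_form (hT t ht).1 (hT t ht).2
    have htH : t ∈ H := hHT ▸ Subgroup.subset_closure ht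
    exact ⟨⟨(a, f), ha, hf, hfa, t, htH, hv⟩, hv⟩
  by_cases hemp : IsEmpty (Cp H)
  · -- no transvections at all
    have hTe : T = ∅ := by
      apply Set.eq_empty_of_forall_notMem
      intro t ht
      obtain ⟨q₀, _⟩ := hTflag t ht
      exact hemp.false (Quot.mk _ q₀)
    have hHbot : H = ⊥ := by
      rw [hHT, hTe, Subgroup.closure_empty]
    subst hHbot
    refine ⟨1, Fin.cases ⊤ (fun _ => ⊥), fun _ => ⊥, le_rfl, ?_, ?_, ?_, ?_, ?_, ?_, ?_, ?_⟩
    · rw [DirectSum.isInternal_submodule_iff_iSupIndep_and_iSup_eq_top]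
      constructor
      · intro i
        refine Fin.cases ?_ (fun k => ?_) i
        · refine Disjoint.mono_right (iSup₂_le fun j hj => ?_) disjoint_bot_right
          obtain ⟨k, rfl⟩ := Fin.exists_succ_eq.2 hj
          exact le_rfl
        · exact disjoint_bot_left
      · have h := le_iSup (fun i : Fin (1 + 1) => (Fin.cases ⊤ (fun _ => ⊥) i : Submodule (ZMod p) V)) 0
        exact top_le_iff.1 h
    · intro h hh i
      exact map_stable (H := ⊥) (fun h hh w hw => by rw [Subgroup.mem_bot.1 hh]; exact hw) hh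
    · intro j
      refine ⟨le_rfl, ?_⟩
      rw [Subgroup.bot_subgroupOf]
      infer_instance
    · simp
    · intro j
      exact bot_inf_eq _
    · intro j j' _ a ha b hb
      rw [Subgroup.mem_bot.1 ha, Subgroup.mem_bot.1 hb]
    · intro j h hh i _ v _
      rw [Subgroup.mem_bot.1 hh]
      rfl
    · intro j
      have hsub : ∀ v : ↥(Fin.cases (⊤ : Submodule (ZMod p) V) (fun _ => ⊥) j.succ : Submodule (ZMod p) V), v = 0 :=
        fun v => Subtype.ext (Submodule.mem_bot (ZMod p) |>.1 v.2)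
      have he : ∀ f : ↥(Fin.cases (⊤ : Submodule (ZMod p) V) (fun _ => ⊥) j.succ : Submodule (ZMod p) V) ≃ₗ[ZMod p]
          ↥(Fin.cases (⊤ : Submodule (ZMod p) V) (fun _ => ⊥) j.succ : Submodule (ZMod p) V), f = 1 :=
        fun f => LinearEquiv.ext fun v => (hsub _).trans (hsub _).symm
      refine ⟨1, fun h v => ?_, Or.inl (Set.ext fun f => ⟨fun _ => ?_, fun _ => ⟨1, ?_⟩⟩)⟩
      · have : h.1 = 1 := Subgroup.mem_bot.1 h.2
        rw [this]
        rfl
      · rw [he f]
        exact LinearMap.det_id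
      · rw [he f]
        rfl
  · rw [not_isEmpty_iff] at hemp
    haveI := finite_dual (p := p) (X := V)
    haveI : Finite (Cp H) := Quot.finite _
    let e : Fin (Nat.card (Cp H)) ≃ Cp H := (Finite.equivFin _).symm
    have hC : ∀ c, CompM (gam H c) := gam_comp hHT hTflag hp2 hcoreH
    have hsplit : ∀ c, IsCompl (cen (gam H c)) (annA (gam H c)) := fun c => (hC c).split hp2
    have hstA : ∀ c, ∀ h ∈ H, ∀ w ∈ cen (gam H c), h w ∈ cen (gam H c) := by
      intro c h hh w hw
      induction hw using Submodule.span_induction with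
      | mem v hv =>
        obtain ⟨q, hq, rfl⟩ := hv
        exact mem_cen (gam_act hHT hTflag hh hq)
      | zero => simp
      | add a b _ _ iha ihb => rw [map_add]; exact Submodule.add_mem _ iha ihb
      | smul d a _ iha => rw [map_smul]; exact Submodule.smul_mem _ d iha
    have hstN : ∀ c, ∀ h ∈ H, ∀ w ∈ annA (gam H c), h w ∈ annA (gam H c) := by
      intro c h hh w hw q hq
      have h1 := hw _ (gam_act hHT hTflag (H.inv_mem hh) hq)
      have h2 : (act h⁻¹ q).2 w = q.2 (h w) := by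
        change q.2 ((h⁻¹)⁻¹ w) = q.2 (h w)
        rw [inv_inv]
      rw [← h2]
      exact h1
    refine ⟨Nat.card (Cp H), Fin.cases (⨅ j, annA (gam H (e j))) (fun j => cen (gam H (e j))),
      fun j => genGrp (gam H (e j)), Nat.card_pos, ?_, ?_, ?_, ?_, ?_, ?_, ?_, ?_⟩
    · exact internal_of _ _ (fun j => hsplit (e j))
        (fun i j hij => cen_le_ann (fun h => hij (e.injective h)))
    · intro h hh i
      refine Fin.cases ?_ (fun j => ?_) i
      · refine map_stable (H := H) (fun h hh w hw => ?_) hh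
        have hw' : w ∈ ⨅ j, annA (gam H (e j)) := hw
        change h w ∈ ⨅ j, annA (gam H (e j))
        rw [Submodule.mem_iInf] at hw' ⊢
        exact fun j => hstN _ h hh w (hw' j)
      · exact map_stable (hstA _) hh
    · intro j
      refine ⟨genGrp_le, ⟨fun n hn g => ?_⟩⟩
      rw [Subgroup.mem_subgroupOf] at hn ⊢
      exact genGrp_conj hHT hTflag g.2 hn
    · apply le_antisymm
      · exact iSup_le fun j => genGrp_le
      · refine hHT.le.trans ((Subgroup.closure_le _).2 fun t ht => ?_)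
        obtain ⟨q₀, hq₀⟩ := hTflag t ht
        refine Subgroup.mem_iSup_of_mem (e.symm (Quot.mk _ q₀)) (Subgroup.subset_closure ?_)
        exact ⟨q₀.1, ⟨q₀.2, (e.apply_symm_apply _).symm⟩, hq₀⟩
    · intro j
      rw [eq_bot_iff]
      rintro k ⟨hk1, hk2⟩
      let F : Subgroup (V ≃ₗ[ZMod p] V) :=
        { carrier := {g | ∀ a ∈ cen (gam H (e j)), g a = a}
          mul_mem' := fun {x y} hx hy a ha => by
            rw [LinearEquiv.mul_apply, hy a ha, hx a ha]
          one_mem' := fun a _ => rfl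
          inv_mem' := fun {x} hx a ha => by
            have := inv_apply_apply x a
            rwa [hx a ha] at this }
      have hF : (⨆ j' ∈ {j' : Fin (Nat.card (Cp H)) | j' ≠ j}, genGrp (gam H (e j'))) ≤ F :=
        iSup₂_le fun j' hj' g hg a ha =>
          fix_ann hg a (cen_le_ann (fun h => hj' (e.injective h)) ha)
      have hkF : k ∈ F := hF hk2
      rw [Subgroup.mem_bot]
      ext v
      have hv : v ∈ cen (gam H (e j)) ⊔ annA (gam H (e j)) := by
        rw [(hsplit (e j)).sup_eq_top]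
        trivial
      obtain ⟨a, ha, n, hn, rfl⟩ := Submodule.mem_sup.1 hv
      rw [map_add, hkF a ha, fix_ann hk1 n hn]
      rfl
    · intro j j' hjj a ha b hb
      exact genGrp_comm (fun h => hjj (e.injective h)) ha hb
    · intro j h hh i
      refine Fin.cases ?_ (fun l => ?_) i
      · intro _ v hv
        have hv' : v ∈ ⨅ j, annA (gam H (e j)) := hv
        rw [Submodule.mem_iInf] at hv'
        exact fix_ann hh v (hv' j)
      · intro hl v hv
        have hlj : l ≠ j := fun h => hl (by rw [h])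
        exact fix_ann hh v (cen_le_ann (fun h => hlj (e.injective h).symm) hv)
    · intro j
      exact (hC (e j)).main hp2

end Cfsg.Agent.S5075
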