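import Cfsg.Statements.S5125
import Mathlib
import Cfsg.Prelude.Def_FusionSystem
import Cfsg.Agent.Lib.Fusion.Basic
import Cfsg.Agent.Lib.Fusion.Saturated
import Cfsg.Agent.Lib.Fusion.Chain
import Cfsg.Agent.Lib.Fusion.NormalCR
import Cfsg.Agent.Lib.Coprime.Stability
import Cfsg.Agent.Lib.Basic.PCore

set_option autoImplicit false
open Cfsg

namespace Cfsg.Agent.S5125

open Cfsg.FusionSystem Cfsg.Agent.Lib.Fusion.Basic Cfsg.Agent.Lib.Fusion.Saturated
open Cfsg.Agent.Lib.Fusion.Chain Cfsg.Agent.Lib.Fusion.NormalCR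
open scoped commutatorElement

variable {Ω : Type*} [Group Ω] {S : Subgroup Ω}

/-- A `p'`-automorphism in `Aut_F(P)` acts trivially on a subgroup `U ≤ P` which is weakly closed
with `Aut_F(U)` a `p`-group. -/
theorem fixes_of_coprime {F : FusionSystem S} {p : ℕ} {P U : Subgroup Ω} (hPS : P ≤ S) (hUP : U ≤ P)
    (hU : F.WeaklyClosed U) (hAut : IsPGroup p (F.autGroup U)) {β : MulAut P}
    (hβ : β ∈ F.autGroup P) (hc : (orderOf β).Coprime p) [Finite P] (x : Ω) (hx : x ∈ U) :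
    ((β ⟨x, hUP hx⟩ : P) : Ω) = x := by
  have h1 := res_mem (autGroup_mem_hom hPS hβ) hUP
  have hr := hU.2 _ h1
  let ρ : MulAut U := isoOfRange (F.injective_of_mem h1) hr
  have hρ : ∀ y : U, ((ρ y : U) : Ω) = ((β ⟨y, hUP y.2⟩ : P) : Ω) := fun y => rfl
  have hρA : ρ ∈ F.autGroup U := by
    apply mem_autGroup_of_mem
    have e : U.subtype.comp ρ.toMonoidHom =
        (P.subtype.comp β.toMonoidHom).comp (Subgroup.inclusion hUP) := by
      ext y
      exact hρ y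
    rw [e]
    exact h1
  have hpow : ∀ (k : ℕ) (y : U), (((ρ ^ k) y : U) : Ω) = (((β ^ k) ⟨y, hUP y.2⟩ : P) : Ω) := by
    intro k
    induction k with
    | zero => intro y; rfl
    | succ k ih =>
      intro y
      rw [pow_succ', pow_succ', MulAut.mul_apply, MulAut.mul_apply, hρ]
      have e : (⟨(((ρ ^ k) y : U) : Ω), hUP ((ρ ^ k) y).2⟩ : P) = (β ^ k) ⟨y, hUP y.2⟩ :=
        Subtype.ext (ih y)
      rw [e]
  have hn : ρ ^ orderOf β = 1 := by
    ext y
    rw [hpow, pow_orderOf_eq_one]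
    rfl
  have hn' : (⟨ρ, hρA⟩ : F.autGroup U) ^ orderOf β = 1 := Subtype.ext hn
  obtain ⟨k, hk⟩ := hAut ⟨ρ, hρA⟩
  have h2 := orderOf_dvd_of_pow_eq_one hn'
  have h3 := orderOf_dvd_of_pow_eq_one hk
  have h4 : orderOf (⟨ρ, hρA⟩ : F.autGroup U) = 1 :=
    Nat.eq_one_of_dvd_coprimes (hc.pow_right k) h2 h3
  have h5 : (⟨ρ, hρA⟩ : F.autGroup U) = 1 := orderOf_eq_one_iff.1 h4
  have h6 : ρ = 1 := congrArg Subtype.val h5
  have h7 := hρ ⟨x, hx⟩
  rw [h6] at h7
  exact h7.symm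

/-- Let F be a saturated fusion system over a finite p-group S and Q a subgroup strongly closed in F. If Q has a subgroup Q₁ that is normal in F, with Q/Q₁ abelian and Aut_F(Q₁) a p-group, then Q is normal in F. -/
theorem result {Ω : Type*} [Group Ω] {S : Subgroup Ω} [Finite S] (p : ℕ) [Fact p.Prime] (hS : IsPGroup p S) (F : Cfsg.FusionSystem S) (hF : F.IsSaturated p) (Q Q₁ : Subgroup Ω) (hQ : F.StronglyClosed Q) (hQ₁Q : Q₁ ≤ Q) (hQ₁ : F.IsNormal Q₁) (hab : ⁅Q, Q⁆ ≤ Q₁) (hAut : IsPGroup p ↥(F.autGroup Q₁)) : F.IsNormal Q := by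
  classical
  refine isNormal_of_stronglyClosed_of_le hS hF hQ (fun P hC hR => ?_)
  have hPS := hC.1
  have hQ₁P : Q₁ ≤ P := IsNormal.le_of_centric_radical hS hQ₁ hC hR
  have hQ₁sc := IsNormal.stronglyClosed hQ₁
  refine le_of_normalizer_inf_le hS hPS hQ.1 (StronglyClosed.le_normalizer hQ) ?_
  intro a haQ haN
  have hfinP : Finite P := finite_of_le hPS
  have hPp : IsPGroup p P := isPGroup_of_le hS hPS
  let A := F.autGroup P
  have hfinA : Finite A := finite_autGroup hPS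
  let D : ℕ → Subgroup P := fun i => if i = 0 then Q₁.subgroupOf P else
    if i = 1 then Q.subgroupOf P else ⊤
  have hinv : ∀ i ≤ 2, ∀ α ∈ A, ∀ x ∈ D i, α x ∈ D i := by
    intro i hi α hα x hx
    match i, hi with
    | 0, _ => exact StronglyClosed.aut_mem hQ₁sc hPS hα x hx
    | 1, _ => exact StronglyClosed.aut_mem hQ hPS hα x hx
    | 2, _ => trivial
  have hKn := chainStab_normal A D 2 hinv
  have hKp : IsPGroup p (chainStab A D 2 hinv) := by
    refine Cfsg.Agent.Lib.Coprime.Stability.isPGroup_of_forall_coprime (Fact.out) _ ?_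
    intro γ hγ hc
    apply Subtype.ext
    have hc' : (orderOf (γ : MulAut P)).Coprime p := by rwa [Subgroup.orderOf_coe]
    have hfix := fixes_of_coprime hPS hQ₁P (IsNormal.weaklyClosed hQ₁) hAut γ.2 hc'
    refine eq_one_of_stab_chain hPp
      (D := fun i => if i = 0 then ⊥ else if i = 1 then Q₁.subgroupOf P else
        if i = 2 then Q.subgroupOf P else ⊤) (m := 3) rfl rfl ?_ hc'
    intro i hi x hx
    match i, hi with
    | 0, _ =>
      have hx' : (x : Ω) ∈ Q₁ := hx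
      have h1 := hfix x hx'
      have h2 : (γ : MulAut P) x = x := Subtype.ext h1
      rw [h2]
      simp
    | 1, _ => exact hγ 0 (by omega) x hx
    | 2, _ => exact hγ 1 (by omega) x hx
  have hmem : normConj a haN ∈ A :=
    autInducedBy_le_autGroup hPS (normConj_mem_autInducedBy (hQ.1 haQ) haN)
  have hcore : (⟨normConj a haN, hmem⟩ : A) ∈ pCore p A := by
    refine Cfsg.Agent.Lib.Basic.PCore.le_pCore hKn hKp ?_
    intro i hi x hx
    match i, hi with
    | 0, _ =>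
      have hxQ : (x : Ω) ∈ Q := hx
      have h1 : ⁅(x : Ω)⁻¹, a⁆ ∈ ⁅Q, Q⁆ :=
        Subgroup.commutator_mem_commutator (Q.inv_mem hxQ) haQ
      have h2 := hab h1
      have e : (x : Ω)⁻¹ * (a * x * a⁻¹) = ⁅(x : Ω)⁻¹, a⁆ := by
        rw [commutatorElement_def]
        group
      show (x : Ω)⁻¹ * (a * x * a⁻¹) ∈ Q₁
      rw [e]
      exact h2
    | 1, _ =>
      have h1 : (x : Ω)⁻¹ * a * (x : Ω)⁻¹⁻¹ ∈ Q :=
        StronglyClosed.conj_mem hQ (S.inv_mem (hPS x.2)) haQ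
      have e : (x : Ω)⁻¹ * (a * x * a⁻¹) = ((x : Ω)⁻¹ * a * (x : Ω)⁻¹⁻¹) * a⁻¹ := by group
      show (x : Ω)⁻¹ * (a * x * a⁻¹) ∈ Q
      rw [e]
      exact Q.mul_mem h1 (Q.inv_mem haQ)
  exact mem_of_conj_mem_pCore hC hR (hQ.1 haQ) hcore (fun x => rfl)

end Cfsg.Agent.S5125
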