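import Cfsg.Statements.S5135
import Mathlib
import Cfsg.Agent.Lib.Fusion.GroupSylow
-- import your own Cfsg.Agent.* helpers here

set_option autoImplicit false
open Cfsg

namespace Cfsg.Agent.S5135

/-- Let G be a finite group, S a Sylow p-subgroup and H a normal subgroup of G. Then the fusion system of G/H on the image SH/H of S is the factor system of the fusion system of G on S modulo S ∩ H, read through the quotient map restricted to S: for each subgroup P' of SH/H, the conjugation maps by elements of G/H defined on P' with values in SH/H are exactly the homomorphisms induced by the conjugation maps by elements of G defined on the full preimage of P' in S with values in S. -/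
theorem result {G : Type*} [Group G] [Finite G] (p : ℕ) [Fact p.Prime] (S : Sylow p G) (H : Subgroup G) [H.Normal] : (Cfsg.groupFusionSystem (S : Subgroup G)).IsFactorSystem ((S : Subgroup G) ⊓ H) ((QuotientGroup.mk' H).comp (S : Subgroup G).subtype) (Cfsg.groupFusionSystem ((S : Subgroup G).map (QuotientGroup.mk' H))) := by
  classical
  set θ : (S : Subgroup G) →* G ⧸ H := (QuotientGroup.mk' H).comp (S : Subgroup G).subtype with hθ
  have hθv : ∀ s : (S : Subgroup G), θ s = QuotientGroup.mk (s : G) := fun _ => rfl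
  refine ⟨inf_le_left, ?_, ?_, ?_⟩
  · intro s
    rw [hθv, QuotientGroup.eq_one_iff]
    exact ⟨fun h => ⟨s.2, h⟩, fun h => h.2⟩
  · rw [hθ, MonoidHom.range_comp, Subgroup.range_subtype]
  · intro P' φ'
    constructor
    · rintro ⟨hP', hv, gbar, hg⟩
      obtain ⟨g, rfl⟩ := QuotientGroup.mk_surjective gbar
      set R := Cfsg.FusionSystem.preimageAlong θ P' with hR
      have hRS : R ≤ (S : Subgroup G) := by
        rintro _ ⟨s, -, rfl⟩
        exact s.2
      have hRp : IsPGroup p R := Cfsg.Agent.Lib.Fusion.GroupSylow.isPGroup_of_le_sylow S hRS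
      -- the conjugate of R lies in S ⊔ H
      have hmemR : ∀ x : R, θ ⟨x, hRS x.2⟩ ∈ P' := by
        rintro ⟨_, s, hs, rfl⟩
        exact hs
      have hconj : Cfsg.Agent.Lib.Fusion.GroupSylow.cj g R ≤ (S : Subgroup G) ⊔ H := by
        rw [Cfsg.Agent.Lib.Fusion.GroupSylow.cj_le_iff]
        intro x hx
        have h1 := hv ⟨_, hmemR ⟨x, hx⟩⟩
        rw [hg] at h1
        obtain ⟨s', hs', he⟩ := h1
        have he' : (QuotientGroup.mk s' : G ⧸ H) = QuotientGroup.mk (g * x * g⁻¹) := he
        rw [QuotientGroup.eq] at he'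
        have : g * x * g⁻¹ = s' * (s'⁻¹ * (g * x * g⁻¹)) := by group
        rw [this]
        exact Subgroup.mul_mem _ (Subgroup.mem_sup_left hs') (Subgroup.mem_sup_right he')
      have hSyl : Cfsg.Agent.Lib.Fusion.GroupSylow.IsSylowIn p (S : Subgroup G) ((S : Subgroup G) ⊔ H) := by
        rw [Cfsg.Agent.Lib.Fusion.GroupSylow.isSylowIn_iff_card le_sup_left]
        refine ⟨S.isPGroup', fun T _ hT => ?_⟩
        obtain ⟨Q, hQ⟩ := hT.exists_le_sylow
        have h3 : Nat.card Q = Nat.card S := Nat.card_congr (Sylow.equiv Q S).toEquiv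
        have h2 : Nat.card T ≤ Nat.card Q := Subgroup.card_le_of_le hQ
        exact h2.trans (le_of_eq h3)
      obtain ⟨n, hn, hnle⟩ := hSyl.exists_conj_le hconj (Cfsg.Agent.Lib.Fusion.GroupSylow.isPGroup_cj g hRp)
      have hnorm : (S : Subgroup G) ≤ Subgroup.normalizer (H : Set G) := by
        rw [Subgroup.normalizer_eq_top]
        exact le_top
      obtain ⟨a, ha, b, hb, rfl⟩ := Cfsg.Agent.Lib.Fusion.GroupSylow.exists_mul_of_mem_sup hnorm hn
      have hval : ∀ x ∈ R, (b * g) * x * (b * g)⁻¹ ∈ (S : Subgroup G) := by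
        intro x hx
        have h1 := Cfsg.Agent.Lib.Fusion.GroupSylow.cj_le_iff.mp hnle _
          (Cfsg.Agent.Lib.Fusion.GroupSylow.conj_mem_cj (g := g) hx)
        have h2 : (b * g) * x * (b * g)⁻¹ = a⁻¹ * (a * b * (g * x * g⁻¹) * (a * b)⁻¹) * a := by group
        rw [h2]
        exact (S : Subgroup G).mul_mem ((S : Subgroup G).mul_mem ((S : Subgroup G).inv_mem ha) h1) ha
      refine ⟨hP', Cfsg.conjHom R (b * g), ⟨hRS, fun x => hval x x.2, b * g, fun _ => rfl⟩, hRS,
        fun x => hval x x.2, hmemR, ?_⟩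
      intro x
      rw [hg]
      show (QuotientGroup.mk g : G ⧸ H) * (QuotientGroup.mk (x : G)) * (QuotientGroup.mk g)⁻¹ =
        (QuotientGroup.mk ((b * g) * x * (b * g)⁻¹) : G ⧸ H)
      have hb1 : (QuotientGroup.mk b : G ⧸ H) = 1 := (QuotientGroup.eq_one_iff b).mpr hb
      simp only [QuotientGroup.mk_mul, QuotientGroup.mk_inv, hb1, one_mul, mul_inv_rev, inv_one, mul_one]
    · rintro ⟨hP', φ, ⟨-, hvφ, g, hg⟩, hp, hv, hmem, he⟩
      have key : ∀ y : P', ∃ s : (S : Subgroup G), ∃ h : (s : G) ∈ Cfsg.FusionSystem.preimageAlong θ P',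
          (y : G ⧸ H) = θ s ∧ φ' y = θ ⟨φ ⟨s, h⟩, hv _⟩ := by
        intro y
        obtain ⟨s, hs, hse⟩ := hP' y.2
        have hsS : (⟨s, hs⟩ : (S : Subgroup G)) ∈ P'.comap θ := by
          show θ ⟨s, hs⟩ ∈ P'
          have : θ ⟨s, hs⟩ = y := hse
          rw [this]
          exact y.2
        refine ⟨⟨s, hs⟩, ⟨⟨s, hs⟩, hsS, rfl⟩, hse.symm, ?_⟩
        have h1 := he ⟨s, ⟨⟨s, hs⟩, hsS, rfl⟩⟩
        refine Eq.trans ?_ h1
        congr 1
        exact Subtype.ext hse.symm
      refine ⟨hP', ?_, QuotientGroup.mk g, ?_⟩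
      · intro y
        obtain ⟨s, h, -, h2⟩ := key y
        rw [h2]
        exact ⟨_, (hvφ ⟨s, h⟩), rfl⟩
      · intro y
        obtain ⟨s, h, h1, h2⟩ := key y
        rw [h2, h1]
        show (QuotientGroup.mk (φ ⟨s, h⟩) : G ⧸ H) = _
        rw [hg]
        rfl

end Cfsg.Agent.S5135
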