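import Cfsg.Statements.S5136
import Mathlib
import Cfsg.Agent.Lib.Fusion.Joins
-- import your own Cfsg.Agent.* helpers here

set_option autoImplicit false
open Cfsg

namespace Cfsg.Agent.S5136

section
variable {Ω₁ Ω₂ : Type*} [Group Ω₁] [Group Ω₂] {S₁ : Subgroup Ω₁} {S₂ : Subgroup Ω₂}

theorem mem_fst {P : Subgroup (Ω₁ × Ω₂)} (x : P) : (x : Ω₁ × Ω₂).1 ∈ P.map (MonoidHom.fst Ω₁ Ω₂) :=
  ⟨x, x.2, rfl⟩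

theorem mem_snd {P : Subgroup (Ω₁ × Ω₂)} (x : P) : (x : Ω₁ × Ω₂).2 ∈ P.map (MonoidHom.snd Ω₁ Ω₂) :=
  ⟨x, x.2, rfl⟩

/-- the direct product of two fusion systems -/
def prodSystem (F₁ : Cfsg.FusionSystem S₁) (F₂ : Cfsg.FusionSystem S₂) : Cfsg.FusionSystem (S₁.prod S₂) where
  Hom P := {φ | P ≤ S₁.prod S₂ ∧
      ∃ φ₁ ∈ F₁.Hom (P.map (MonoidHom.fst Ω₁ Ω₂)), ∃ φ₂ ∈ F₂.Hom (P.map (MonoidHom.snd Ω₁ Ω₂)),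
        ∀ (x : P) (h₁ : (x : Ω₁ × Ω₂).1 ∈ P.map (MonoidHom.fst Ω₁ Ω₂))
          (h₂ : (x : Ω₁ × Ω₂).2 ∈ P.map (MonoidHom.snd Ω₁ Ω₂)),
          φ x = (φ₁ ⟨(x : Ω₁ × Ω₂).1, h₁⟩, φ₂ ⟨(x : Ω₁ × Ω₂).2, h₂⟩)}
  le_of_mem := by
    rintro P φ ⟨hP, φ₁, h₁, φ₂, h₂, hφ⟩
    refine ⟨hP, fun x => ?_⟩
    rw [hφ x (mem_fst x) (mem_snd x)]
    exact ⟨(F₁.le_of_mem h₁).2 _, (F₂.le_of_mem h₂).2 _⟩
  injective_of_mem := by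
    rintro P φ ⟨hP, φ₁, h₁, φ₂, h₂, hφ⟩ a b hab
    rw [hφ a (mem_fst a) (mem_snd a), hφ b (mem_fst b) (mem_snd b)] at hab
    have e₁ := F₁.injective_of_mem h₁ (congrArg Prod.fst hab)
    have e₂ := F₂.injective_of_mem h₂ (congrArg Prod.snd hab)
    apply Subtype.ext
    exact Prod.ext (congrArg Subtype.val e₁) (congrArg Subtype.val e₂)
  conj_mem := by
    intro P g hP hg
    have hg' : g.1 ∈ S₁ ∧ g.2 ∈ S₂ := hg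
    have h1 : P.map (MonoidHom.fst Ω₁ Ω₂) ≤ S₁ := by
      rintro _ ⟨x, hx, rfl⟩
      exact (hP hx).1
    have h2 : P.map (MonoidHom.snd Ω₁ Ω₂) ≤ S₂ := by
      rintro _ ⟨x, hx, rfl⟩
      exact (hP hx).2
    refine ⟨hP, Cfsg.conjHom _ g.1, F₁.conj_mem h1 hg'.1, Cfsg.conjHom _ g.2, F₂.conj_mem h2 hg'.2, ?_⟩
    intro x _ _
    rfl
  comp_mem := by
    rintro P Q φ ψ ⟨hP, φ₁, h₁, φ₂, h₂, hφ⟩ ⟨-, ψ₁, k₁, ψ₂, k₂, hψ⟩ h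
    have hc₁ : ∀ y : P.map (MonoidHom.fst Ω₁ Ω₂), φ₁ y ∈ Q.map (MonoidHom.fst Ω₁ Ω₂) := by
      rintro ⟨_, x, hx, rfl⟩
      have := h ⟨x, hx⟩
      rw [hφ ⟨x, hx⟩ (mem_fst _) (mem_snd _)] at this
      exact ⟨_, this, rfl⟩
    have hc₂ : ∀ y : P.map (MonoidHom.snd Ω₁ Ω₂), φ₂ y ∈ Q.map (MonoidHom.snd Ω₁ Ω₂) := by
      rintro ⟨_, x, hx, rfl⟩
      have := h ⟨x, hx⟩
      rw [hφ ⟨x, hx⟩ (mem_fst _) (mem_snd _)] at this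
      exact ⟨_, this, rfl⟩
    refine ⟨hP, _, F₁.comp_mem h₁ k₁ hc₁, _, F₂.comp_mem h₂ k₂ hc₂, ?_⟩
    intro x a₁ a₂
    show ψ (φ.codRestrict Q h x) = _
    rw [hψ _ (mem_fst _) (mem_snd _)]
    have e₁ : ((φ.codRestrict Q h x : Q) : Ω₁ × Ω₂).1 = φ₁ ⟨(x : Ω₁ × Ω₂).1, a₁⟩ := by
      show (φ x).1 = _
      rw [hφ x a₁ a₂]
    have e₂ : ((φ.codRestrict Q h x : Q) : Ω₁ × Ω₂).2 = φ₂ ⟨(x : Ω₁ × Ω₂).2, a₂⟩ := by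
      show (φ x).2 = _
      rw [hφ x a₁ a₂]
    refine Prod.ext ?_ ?_
    · show ψ₁ _ = ψ₁ _
      congr 1
      exact Subtype.ext e₁
    · show ψ₂ _ = ψ₂ _
      congr 1
      exact Subtype.ext e₂
  inv_mem := by
    rintro P φ ⟨hP, φ₁, h₁, φ₂, h₂, hφ⟩
    have hPS : ∀ x : P, φ x ∈ S₁.prod S₂ := by
      intro x
      rw [hφ x (mem_fst x) (mem_snd x)]
      exact ⟨(F₁.le_of_mem h₁).2 _, (F₂.le_of_mem h₂).2 _⟩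
    have hr₁ : φ₁.range = φ.range.map (MonoidHom.fst Ω₁ Ω₂) := by
      ext y
      constructor
      · rintro ⟨⟨_, x, hx, rfl⟩, rfl⟩
        refine ⟨φ ⟨x, hx⟩, ⟨⟨x, hx⟩, rfl⟩, ?_⟩
        rw [hφ ⟨x, hx⟩ (mem_fst _) (mem_snd _)]
        rfl
      · rintro ⟨_, ⟨x, rfl⟩, rfl⟩
        refine ⟨⟨_, mem_fst x⟩, ?_⟩
        show _ = (φ x).1
        rw [hφ x (mem_fst _) (mem_snd _)]
    have hr₂ : φ₂.range = φ.range.map (MonoidHom.snd Ω₁ Ω₂) := by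
      ext y
      constructor
      · rintro ⟨⟨_, x, hx, rfl⟩, rfl⟩
        refine ⟨φ ⟨x, hx⟩, ⟨⟨x, hx⟩, rfl⟩, ?_⟩
        rw [hφ ⟨x, hx⟩ (mem_fst _) (mem_snd _)]
        rfl
      · rintro ⟨_, ⟨x, rfl⟩, rfl⟩
        refine ⟨⟨_, mem_snd x⟩, ?_⟩
        show _ = (φ x).2
        rw [hφ x (mem_fst _) (mem_snd _)]
    obtain ⟨χ₁, hχ₁, eχ₁⟩ := F₁.inv_mem h₁
    obtain ⟨χ₂, hχ₂, eχ₂⟩ := F₂.inv_mem h₂
    obtain ⟨ψ₁, hψ₁, eψ₁⟩ := Cfsg.Agent.Lib.Fusion.Joins.exists_hom_of_eq F₁ hr₁ χ₁ hχ₁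
    obtain ⟨ψ₂, hψ₂, eψ₂⟩ := Cfsg.Agent.Lib.Fusion.Joins.exists_hom_of_eq F₂ hr₂ χ₂ hχ₂
    let ψ : φ.range →* Ω₁ × Ω₂ :=
      (ψ₁.comp ((MonoidHom.fst Ω₁ Ω₂).subgroupMap φ.range)).prod
        (ψ₂.comp ((MonoidHom.snd Ω₁ Ω₂).subgroupMap φ.range))
    refine ⟨ψ, ⟨?_, ψ₁, hψ₁, ψ₂, hψ₂, fun x _ _ => rfl⟩, ?_⟩
    · rintro _ ⟨x, rfl⟩
      exact hPS x
    · intro x
      have a₁ : (φ x).1 = φ₁ ⟨(x : Ω₁ × Ω₂).1, mem_fst x⟩ := by rw [hφ x (mem_fst _) (mem_snd _)]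
      have a₂ : (φ x).2 = φ₂ ⟨(x : Ω₁ × Ω₂).2, mem_snd x⟩ := by rw [hφ x (mem_fst _) (mem_snd _)]
      refine Prod.ext ?_ ?_
      · show ψ₁ ⟨(φ x).1, _⟩ = _
        have h1 : (φ x).1 ∈ φ₁.range := ⟨⟨_, mem_fst x⟩, a₁.symm⟩
        have h2 : (φ x).1 ∈ φ.range.map (MonoidHom.fst Ω₁ Ω₂) := hr₁ ▸ h1
        have e := eψ₁ _ h1 h2
        refine Eq.trans e ?_
        have e' := eχ₁ ⟨(x : Ω₁ × Ω₂).1, mem_fst x⟩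
        refine Eq.trans ?_ e'
        congr 1
        exact Subtype.ext a₁
      · show ψ₂ ⟨(φ x).2, _⟩ = _
        have h1 : (φ x).2 ∈ φ₂.range := ⟨⟨_, mem_snd x⟩, a₂.symm⟩
        have h2 : (φ x).2 ∈ φ.range.map (MonoidHom.snd Ω₁ Ω₂) := hr₂ ▸ h1
        have e := eψ₂ _ h1 h2
        refine Eq.trans e ?_
        have e' := eχ₂ ⟨(x : Ω₁ × Ω₂).2, mem_snd x⟩
        refine Eq.trans ?_ e'
        congr 1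
        exact Subtype.ext a₂

end


/-- Let F₁ and F₂ be fusion systems over finite p-groups S₁ and S₂ (inside ambient groups Ω₁ and Ω₂). Then their direct product exists: there is a fusion system over S₁ × S₂ inside Ω₁ × Ω₂ whose maps with source P ≤ S₁ × S₂ are exactly the restrictions to P of the homomorphisms (x₁, x₂) ↦ (φ₁ x₁, φ₂ x₂) with φ₁ a map of F₁ on the first projection of P and φ₂ a map of F₂ on the second projection. -/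
theorem result {Ω₁ Ω₂ : Type*} [Group Ω₁] [Group Ω₂] {S₁ : Subgroup Ω₁} {S₂ : Subgroup Ω₂} [Finite S₁] [Finite S₂] (p : ℕ) [Fact p.Prime] (h₁ : IsPGroup p S₁) (h₂ : IsPGroup p S₂) (F₁ : Cfsg.FusionSystem S₁) (F₂ : Cfsg.FusionSystem S₂) : ∃ E : Cfsg.FusionSystem (S₁.prod S₂), Cfsg.FusionSystem.IsProductSystem F₁ F₂ E :=
  ⟨prodSystem F₁ F₂, fun _ _ => Iff.rfl⟩

end Cfsg.Agent.S5136
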