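import Cfsg.Statements.S5159
import Mathlib
import Cfsg.Agent.Lib.Fusion.Solvable
import Cfsg.Agent.Lib.Fusion.NormalCR
import Cfsg.Agent.Lib.Fusion.GroupSylow
import Cfsg.Agent.Lib.Fusion.Image
-- import your own Cfsg.Agent.* helpers here

set_option autoImplicit false
open Cfsg

namespace Cfsg.Agent.S5159


open Cfsg.FusionSystem Cfsg.Agent.Lib.Fusion.Basic Cfsg.Agent.Lib.Fusion.Solvable
  Cfsg.Agent.Lib.Fusion.Factor Cfsg.Agent.Lib.Fusion.FactorMorphism
open scoped commutatorElement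

section Flat

variable {Ω : Type*} [Group Ω] {S T : Subgroup Ω} {F : Cfsg.FusionSystem S} {E : Cfsg.FusionSystem T}

/-- The smallest `E`-strongly closed subgroup containing `[A, A]`. -/
def flat (E : Cfsg.FusionSystem T) (A : Subgroup Ω) : Subgroup Ω :=
  sInf {B : Subgroup Ω | E.StronglyClosed B ∧ ⁅A, A⁆ ≤ B}

theorem stronglyClosed_top' : E.StronglyClosed T := ⟨le_rfl, fun _ _ _ hφ x => map_mem_S hφ x⟩

theorem comm_le_of_le {A : Subgroup Ω} (hA : A ≤ T) : ⁅A, A⁆ ≤ T := by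
  rw [Subgroup.commutator_le]
  intro a ha b hb
  exact T.mul_mem (T.mul_mem (T.mul_mem (hA ha) (hA hb)) (T.inv_mem (hA ha))) (T.inv_mem (hA hb))

theorem flat_stronglyClosed {A : Subgroup Ω} (hA : A ≤ T) : E.StronglyClosed (flat E A) := by
  refine ⟨sInf_le ⟨stronglyClosed_top', comm_le_of_le hA⟩, fun R hR φ hφ x => ?_⟩
  refine (Subgroup.mem_sInf).2 fun B hB => ?_
  exact hB.1.2 R (hR.trans (sInf_le hB)) φ hφ x

theorem comm_le_flat {A : Subgroup Ω} : ⁅A, A⁆ ≤ flat E A := le_sInf fun _ hB => hB.2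

theorem flat_le {A B : Subgroup Ω} (hB : E.StronglyClosed B) (hc : ⁅A, A⁆ ≤ B) : flat E A ≤ B :=
  sInf_le ⟨hB, hc⟩

theorem esc_of_fsc (hsub : E.IsSubsystemOf F) {X : Subgroup Ω} (h : F.StronglyClosed X) (hX : X ≤ T) :
    E.StronglyClosed X :=
  ⟨hX, fun R hR φ hφ x => h.2 R hR φ (hsub R hφ) x⟩

/-- Automorphisms in `Aut_F(T)` preserve `flat E A`. -/
theorem flat_aut (hT : T ≤ S) (hinv : E.IsInvariantIn F) {A : Subgroup Ω} (hA : F.StronglyClosed A) (hAT : A ≤ T)
    {α : MulAut T} (hα : α ∈ F.autGroup T) (b : T) (hb : (b : Ω) ∈ flat E A) :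
    ((α b : T) : Ω) ∈ flat E A := by
  obtain ⟨hsub, -, hconj, -⟩ := hinv
  have hαh : T.subtype.comp α.toMonoidHom ∈ F.Hom T := autGroup_mem_hom hT hα
  have hαA : ∀ x : T, (x : Ω) ∈ A → ((α x : T) : Ω) ∈ A := by
    intro x hx
    have h1 := res_mem hαh hAT
    exact hA.2 A le_rfl _ h1 ⟨x, hx⟩
  let C : Subgroup Ω := (((flat E A).subgroupOf T).comap α.toMonoidHom).map T.subtype
  have hmem : ∀ x : T, (x : Ω) ∈ C ↔ ((α x : T) : Ω) ∈ flat E A := by
    intro x
    constructor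
    · rintro ⟨y, hy, hyx⟩
      have : y = x := Subtype.ext hyx
      rw [← this]
      exact hy
    · intro h
      exact ⟨x, h, rfl⟩
  have hCT : C ≤ T := by
    rintro _ ⟨y, -, rfl⟩
    exact y.2
  have hCsc : E.StronglyClosed C := by
    refine ⟨hCT, fun R hR ψ hψ x => ?_⟩
    have hRT : R ≤ T := hR.trans hCT
    have hψT : ψ x ∈ T := map_mem_S hψ x
    obtain ⟨χ, hχ, hag⟩ := hconj R hRT ψ hψ α hα
    have hαx : ((α ⟨x, hRT x.2⟩ : T) : Ω) ∈ (R.subgroupOf T).map (T.subtype.comp α.toMonoidHom) :=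
      ⟨⟨x, hRT x.2⟩, x.2, rfl⟩
    have h1 := hag x hψT hαx
    have hle : (R.subgroupOf T).map (T.subtype.comp α.toMonoidHom) ≤ flat E A := by
      rintro _ ⟨y, hy, rfl⟩
      exact (hmem y).1 (hR hy)
    have h2 := (flat_stronglyClosed hAT).2 _ hle χ hχ ⟨_, hαx⟩
    rw [h1] at h2
    exact (hmem ⟨ψ x, hψT⟩).2 h2
  have hcC : ⁅A, A⁆ ≤ C := by
    rw [Subgroup.commutator_le]
    intro a ha a' ha'
    have hT1 : ⁅a, a'⁆ ∈ T := comm_le_of_le hAT (Subgroup.commutator_mem_commutator ha ha')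
    refine (hmem ⟨_, hT1⟩).2 ?_
    have h3 : α ⟨⁅a, a'⁆, hT1⟩ = ⁅α ⟨a, hAT ha⟩, α ⟨a', hAT ha'⟩⁆ := by
      rw [← map_commutatorElement]
      rfl
    rw [h3]
    exact comm_le_flat (Subgroup.commutator_mem_commutator (hαA _ ha) (hαA _ ha'))
  have hle := flat_le hCsc hcC
  exact (hmem b).1 (hle hb)

theorem flat_fsc (hT : T ≤ S) (hinv : E.IsInvariantIn F) {A : Subgroup Ω} (hA : F.StronglyClosed A) (hAT : A ≤ T) :
    F.StronglyClosed (flat E A) := by
  have hsc := flat_stronglyClosed (E := E) hAT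
  refine ⟨hsc.1.trans hT, fun R hR φ hφ x => ?_⟩
  obtain ⟨α, hα, φ₀, hφ₀, he⟩ := hinv.2.2.2 R (hR.trans hsc.1) φ hφ
  have h1 : φ₀ x ∈ flat E A := hsc.2 R hR φ₀ hφ₀ x
  rw [he x (hsc.1 h1)]
  exact flat_aut hT hinv hA hAT hα _ h1

/-- The iterated flat. -/
def iter (E : Cfsg.FusionSystem T) : ℕ → Subgroup Ω
  | 0 => T
  | k + 1 => flat E (iter E k)

theorem iter_props (hT : T ≤ S) (hinv : E.IsInvariantIn F) (k : ℕ) :
    F.StronglyClosed (iter E k) ∧ iter E k ≤ T := by
  induction k with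
  | zero => exact ⟨hinv.2.1, le_rfl⟩
  | succ k ih =>
    exact ⟨flat_fsc hT hinv ih.1 ih.2, (flat_stronglyClosed ih.2).1⟩

theorem iter_le (hT : T ≤ S) (hinv : E.IsInvariantIn F) (k : ℕ) : iter E (k + 1) ≤ iter E k := by
  obtain ⟨h1, h2⟩ := iter_props (E := E) hT hinv k
  refine flat_le (esc_of_fsc hinv.1 h1 h2) ?_
  exact comm_le_of_le le_rfl

/-- A chain of `E` gives a chain of `F` up to `T`. -/
theorem hasChain_of_invariant (hT : T ≤ S) (hinv : E.IsInvariantIn F) (h : HasChain E T) : HasChain F T := by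
  obtain ⟨n, Q, h0, hn, hst, hSC⟩ := h
  have hle : ∀ k ≤ n, iter E k ≤ Q (n - k) := by
    intro k
    induction k with
    | zero =>
      intro _
      show T ≤ Q (n - 0)
      rw [Nat.sub_zero, hn]
    | succ k ih =>
      intro hk
      have h1 := ih (by omega)
      obtain ⟨m, rfl⟩ : ∃ m, n = m + (k + 1) := ⟨n - (k + 1), by omega⟩
      rw [show m + (k + 1) - (k + 1) = m by omega]
      rw [show m + (k + 1) - k = m + 1 by omega] at h1
      refine flat_le (hSC m (by omega)) ?_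
      exact (Subgroup.commutator_mono h1 h1).trans (hst m (by omega)).2
  have hbot : iter E n = ⊥ := by
    have := hle n le_rfl
    rw [Nat.sub_self, h0] at this
    exact le_bot_iff.1 this
  refine ⟨n, fun i => iter E (n - i), ?_, ?_, fun i hi => ?_, fun i _ => (iter_props hT hinv _).1⟩
  · show iter E (n - 0) = ⊥
    rw [Nat.sub_zero, hbot]
  · show iter E (n - n) = T
    rw [Nat.sub_self]
    rfl
  · have e : n - i = (n - (i + 1)) + 1 := by omega
    show iter E (n - i) ≤ iter E (n - (i + 1)) ∧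
      ⁅iter E (n - (i + 1)), iter E (n - (i + 1))⁆ ≤ iter E (n - i)
    rw [e]
    exact ⟨iter_le hT hinv _, comm_le_flat⟩

end Flat


section Main

variable {Ω : Type*} [Group Ω] {S : Subgroup Ω} {F : Cfsg.FusionSystem S} {T : Subgroup Ω}
variable {Ω' : Type*} [Group Ω'] {S' : Subgroup Ω'} {D : Cfsg.FusionSystem S'} {θ : S →* Ω'}

theorem imageAlong_mono {A B : Subgroup Ω} (h : A ≤ B) : imageAlong θ A ≤ imageAlong θ B := by
  rintro _ ⟨s, hs, rfl⟩
  exact ⟨s, h hs, rfl⟩

theorem image_sup_eq (hTsc : F.StronglyClosed T) (hker : ∀ s : S, θ s = 1 ↔ (s : Ω) ∈ T) {A : Subgroup Ω}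
    (hA : A ≤ S) : imageAlong θ (A ⊔ T) = imageAlong θ A := by
  apply le_antisymm _ (imageAlong_mono le_sup_left)
  rintro _ ⟨s, hs, rfl⟩
  have hs' : (s : Ω) ∈ A ⊔ T := hs
  obtain ⟨a, ha, b, hb, he⟩ := Cfsg.Agent.Lib.Fusion.GroupSylow.exists_mul_of_mem_sup
    (hA.trans (Cfsg.Agent.Lib.Fusion.NormalCR.StronglyClosed.le_normalizer hTsc)) hs'
  have e : s = (⟨a, hA ha⟩ : S) * ⟨b, hTsc.1 hb⟩ := Subtype.ext he
  refine ⟨⟨a, hA ha⟩, ha, ?_⟩
  rw [e, map_mul, (hker ⟨b, hTsc.1 hb⟩).2 hb, mul_one]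

theorem hasChain_image [Finite S] {p : ℕ} [Fact p.Prime] (hS : IsPGroup p S) (hF : F.IsSaturated p)
    (hTsc : F.StronglyClosed T) (hker : ∀ s : S, θ s = 1 ↔ (s : Ω) ∈ T) (hα : F.IsSurjectiveMorphism D θ)
    (h : HasChain F S) : HasChain D S' := by
  obtain ⟨n, A, h0, hn, hst, hSC⟩ := h
  refine ⟨n, fun i => imageAlong θ (A i), ?_, ?_, fun i hi => ⟨imageAlong_mono (hst i hi).1, ?_⟩, fun i hi => ?_⟩
  · show imageAlong θ (A 0) = ⊥
    rw [h0]
    apply le_bot_iff.1
    rintro _ ⟨s, hs, rfl⟩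
    have hs1 : (s : Ω) = 1 := hs
    have : s = 1 := Subtype.ext hs1
    rw [this, map_one]
    exact Subgroup.one_mem _
  · show imageAlong θ (A n) = S'
    rw [hn, ← hα.2.1]
    apply le_antisymm
    · rintro _ ⟨s, -, rfl⟩
      exact ⟨s, rfl⟩
    · rintro _ ⟨s, rfl⟩
      exact ⟨s, s.2, rfl⟩
  · rw [Subgroup.commutator_le]
    rintro _ ⟨s, hs, rfl⟩ _ ⟨t, ht, rfl⟩
    refine ⟨⁅s, t⁆, ?_, map_commutatorElement _ _ _⟩
    exact (hst i hi).2 (Subgroup.commutator_mem_commutator hs ht)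
  · show D.StronglyClosed (imageAlong θ (A i))
    rw [← image_sup_eq hTsc hker (hSC i hi).1]
    refine stronglyClosed_image hα (stronglyClosed_sup hS hF (hSC i hi) hTsc) ?_
    intro z hz
    obtain ⟨h1, h2⟩ := Cfsg.Agent.Lib.Fusion.FactorMorphism.mem_preimage.1 hz
    exact Subgroup.mem_sup_right ((hker ⟨z, h1⟩).1 h2)

theorem hasChain_preimage (hTsc : F.StronglyClosed T) (hker : ∀ s : S, θ s = 1 ↔ (s : Ω) ∈ T)
    (hα : F.IsSurjectiveMorphism D θ) (hT : HasChain F T) (h : HasChain D S') : HasChain F S := by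
  obtain ⟨m, W, h0, hm, hst, hSC⟩ := h
  have key : ∀ j ≤ m, HasChain F (preimageAlong θ (W j)) := by
    intro j
    induction j with
    | zero =>
      intro _
      have : preimageAlong θ (W 0) = T := by
        rw [h0]
        ext x
        constructor
        · intro hx
          obtain ⟨h1, h2⟩ := Cfsg.Agent.Lib.Fusion.FactorMorphism.mem_preimage.1 hx
          exact (hker ⟨x, h1⟩).1 h2
        · intro hx
          refine Cfsg.Agent.Lib.Fusion.FactorMorphism.mem_preimage.2 ⟨hTsc.1 hx, ?_⟩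
          rw [(hker ⟨x, hTsc.1 hx⟩).2 hx]
          exact Subgroup.one_mem _
      rw [this]
      exact hT
    | succ j ih =>
      intro hj
      refine (ih (by omega)).step ?_ ?_ (stronglyClosed_preimage hα.1 (hSC _ hj))
      · intro x hx
        obtain ⟨h1, h2⟩ := Cfsg.Agent.Lib.Fusion.FactorMorphism.mem_preimage.1 hx
        exact Cfsg.Agent.Lib.Fusion.FactorMorphism.mem_preimage.2 ⟨h1, (hst j (by omega)).1 h2⟩
      · rw [Subgroup.commutator_le]
        intro a ha b hb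
        obtain ⟨h1, h2⟩ := Cfsg.Agent.Lib.Fusion.FactorMorphism.mem_preimage.1 ha
        obtain ⟨h3, h4⟩ := Cfsg.Agent.Lib.Fusion.FactorMorphism.mem_preimage.1 hb
        have hmem : ⁅a, b⁆ ∈ S := comm_le_of_le le_rfl (Subgroup.commutator_mem_commutator h1 h3)
        refine Cfsg.Agent.Lib.Fusion.FactorMorphism.mem_preimage.2 ⟨hmem, ?_⟩
        have e : (⟨⁅a, b⁆, hmem⟩ : S) = ⁅(⟨a, h1⟩ : S), (⟨b, h3⟩ : S)⁆ := rfl
        rw [e, map_commutatorElement]
        exact (hst j (by omega)).2 (Subgroup.commutator_mem_commutator h2 h4)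
  have := key m le_rfl
  have e : preimageAlong θ (W m) = S := by
    rw [hm]
    apply le_antisymm (Cfsg.Agent.Lib.Fusion.FactorMorphism.preimage_le θ S')
    intro x hx
    refine Cfsg.Agent.Lib.Fusion.FactorMorphism.mem_preimage.2 ⟨hx, ?_⟩
    rw [← hα.2.1]
    exact ⟨_, rfl⟩
  rwa [e] at this

theorem hasChain_inf {E : Cfsg.FusionSystem T} (hsub : E.IsSubsystemOf F) (hTS : T ≤ S) (h : HasChain F S)
    (hTsc : F.StronglyClosed T) : HasChain E T := by
  obtain ⟨n, A, h0, hn, hst, hSC⟩ := h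
  refine ⟨n, fun i => A i ⊓ T, ?_, ?_, fun i hi => ⟨inf_le_inf_right _ (hst i hi).1, ?_⟩, fun i hi => ?_⟩
  · show A 0 ⊓ T = ⊥
    rw [h0, bot_inf_eq]
  · show A n ⊓ T = T
    rw [hn]
    exact inf_eq_right.2 hTS
  · refine (le_inf ?_ ?_)
    · exact (Subgroup.commutator_mono inf_le_left inf_le_left).trans (hst i hi).2
    · exact comm_le_of_le inf_le_right
  · exact esc_of_fsc hsub (stronglyClosed_inf (hSC i hi) hTsc) inf_le_right

end Main

/-- Let F be a saturated fusion system over a finite p-group S, E a normal subsystem over T, and D the factor system of F modulo T (read through any homomorphism on S with kernel T). Then F is solvable if and only if E and D are solvable (solvable, for a system over a subgroup S: for every subgroup R other than S that is strongly closed in F, the factor system of F modulo R has a nontrivial subgroup normal in it). -/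
theorem result {Ω : Type*} [Group Ω] {S : Subgroup Ω} [Finite S] (p : ℕ) [Fact p.Prime] (hS : IsPGroup p S) (F : Cfsg.FusionSystem S) (hF : F.IsSaturated p) {T : Subgroup Ω} (E : Cfsg.FusionSystem T) (hE : E.IsNormalIn F p) {Ω' : Type*} [Group Ω'] {S' : Subgroup Ω'} (θ : S →* Ω') (D : Cfsg.FusionSystem S') (hD : F.IsFactorSystem T θ D) : F.IsSolvableSystem ↔ (E.IsSolvableSystem ∧ D.IsSolvableSystem) := by
  obtain ⟨⟨hEsat, -, hinv⟩, -⟩ := hE
  have hTsc := hinv.2.1
  have hTS : T ≤ S := hTsc.1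
  haveI : Finite T := finite_of_le hTS
  have hTp : IsPGroup p T := isPGroup_of_le hS hTS
  have hα := isSurjectiveMorphism_of_isFactorSystem hS hF hTsc hD
  have hDsat : D.IsSaturated p := Cfsg.Agent.Lib.Fusion.Image.isSaturated_image hS hF hα
  have hrange : θ.range = S' := hα.2.1
  have hS'f : Finite S' := by
    rw [← hrange]
    exact Finite.Set.finite_range θ
  have hS'p : IsPGroup p S' := by
    have hsurj : Function.Surjective (θ.codRestrict S' hα.1.1) := by
      rintro ⟨y, hy⟩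
      rw [← hrange] at hy
      obtain ⟨s, rfl⟩ := hy
      exact ⟨s, rfl⟩
    exact hS.of_surjective _ hsurj
  constructor
  · intro h
    have hch := hasChain_of_solvable hS hF h
    refine ⟨solvable_of_hasChain hTp hEsat (hasChain_inf hinv.1 hTS hch hTsc),
      solvable_of_hasChain hS'p hDsat (hasChain_image hS hF hTsc hD.2.1 hα hch)⟩
  · rintro ⟨h1, h2⟩
    refine solvable_of_hasChain hS hF (hasChain_preimage hTsc hD.2.1 hα
      (hasChain_of_invariant hTS hinv (hasChain_of_solvable hTp hEsat h1))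
      (hasChain_of_solvable hS'p hDsat h2))

end Cfsg.Agent.S5159
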