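import Cfsg.Statements.S5196
import Mathlib
import Cfsg.Agent.Lib.Fusion.CenterControl

set_option autoImplicit false
universe u
open Cfsg

namespace Cfsg.Agent.S5196

/-- Let p be an odd prime and W a positive characteristic p-functor: W assigns to every finite p-group Q (in a fixed universe) a subgroup W(Q), nontrivial when Q is, carried to W(R) by every isomorphism Q ≅ R; assume also Z(Q) ≤ W(Q) for every finite p-group Q. Suppose W satisfies the local condition: for every finite group G with Sylow p-subgroup P, O_p(G) ∩ Z(G) = O_p(G) ∩ Z(N_G(W(P))). Then W controls weak closure of elements in every saturated fusion system F over a finite p-group S: the centre of the normalizer fusion system of W(S) in F equals the centre of F. (For p = 2 no functor satisfies the local condition, so p is taken odd.) -/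
theorem result {p : ℕ} [Fact p.Prime] (hp : p ≠ 2) (W : ∀ (Q : Type u) [Group Q], Subgroup Q) (hW1 : ∀ (Q : Type u) [Group Q] [Finite Q], IsPGroup p Q → Nontrivial Q → W Q ≠ ⊥) (hW2 : ∀ (Q R : Type u) [Group Q] [Group R] [Finite Q], IsPGroup p Q → ∀ φ : Q ≃* R, (W Q).map φ.toMonoidHom = W R) (hWZ : ∀ (Q : Type u) [Group Q] [Finite Q], IsPGroup p Q → Subgroup.center Q ≤ W Q) (hC : ∀ (G : Type u) [Group G] [Finite G] (P : Sylow p G), Cfsg.pCore p G ⊓ Subgroup.center G = Cfsg.pCore p G ⊓ (Subgroup.center ↥(Subgroup.normalizer (((W ↥(P : Subgroup G)).map (P : Subgroup G).subtype : Subgroup G) : Set G))).map (Subgroup.normalizer (((W ↥(P : Subgroup G)).map (P : Subgroup G).subtype : Subgroup G) : Set G)).subtype) {Ω : Type u} [Group Ω] {S : Subgroup Ω} [Finite S] (hS : IsPGroup p S) (F : Cfsg.FusionSystem S) (hF : F.IsSaturated p) (N : Cfsg.FusionSystem (Cfsg.FusionSystem.normalizerIn S ((W ↥S).map S.subtype))) (hN : F.IsNormalizerSystem ((W ↥S).map S.subtype) N) : N.center = F.center := by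
  classical
  have hW : Cfsg.Agent.Lib.Fusion.GFunctor.IsPFunctor p W := ⟨hW1, hW2⟩
  let Good : ∀ (Ω : Type u) [Group Ω], Subgroup Ω → Ω → Prop := fun _ _ _ _ => True
  have hG : Cfsg.Agent.Lib.Fusion.CenterControl.GoodFamily Good := ⟨fun _ _ _ => trivial, fun _ _ _ => trivial⟩
  have hM : Cfsg.Agent.Lib.Fusion.CenterControl.ModelCond p W Good := by
    intro L _ _ P hcent x hxP _ hxc hxn g
    haveI : Finite (P : Subgroup L) := inferInstance
    have hPp : IsPGroup p (P : Subgroup L) := P.isPGroup'
    have h1 := hC L P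
    have hxO : x ∈ Cfsg.pCore p L :=
      hcent (Subgroup.centralizer_le (Cfsg.Agent.Lib.Basic.PCore.pCore_le_sylow P) hxc)
    have hxN : x ∈ Subgroup.normalizer ((Cfsg.Agent.Lib.Fusion.GFunctor.wOf W (P : Subgroup L) : Subgroup L) : Set L) :=
      Cfsg.Agent.Lib.Fusion.GFunctor.le_normalizer_wOf hW hPp hxP
    have hmem : x ∈ Cfsg.pCore p L ⊓ (Subgroup.center ↥(Subgroup.normalizer (((W ↥(P : Subgroup L)).map (P : Subgroup L).subtype : Subgroup L) : Set L))).map (Subgroup.normalizer (((W ↥(P : Subgroup L)).map (P : Subgroup L).subtype : Subgroup L) : Set L)).subtype := by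
      refine ⟨hxO, ⟨x, hxN⟩, ?_, rfl⟩
      show _ ∈ Subgroup.center _
      rw [Subgroup.mem_center_iff]
      intro k
      apply Subtype.ext
      show (k : L) * x = x * k
      have h2 := hxn k k.2
      calc (k : L) * x = ((k : L) * x * (k : L)⁻¹) * k := by group
        _ = x * k := by rw [h2]
    rw [← h1] at hmem
    have h3 := Subgroup.mem_center_iff.1 hmem.2 g
    rw [h3]
    simp
  apply le_antisymm
  · have hN' : F.IsNormalizerSystem (Cfsg.Agent.Lib.Fusion.GFunctor.wOf W S) N := hN
    exact le_sSup (Cfsg.Agent.Lib.Fusion.CenterControl.isCentral_of_le_center hW hWZ hG hM hS hF hN' le_rfl (fun _ _ => trivial))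
  · exact Cfsg.Agent.Lib.Fusion.CenterControl.center_le_center_normalizer hW hS hN

end Cfsg.Agent.S5196
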