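import Cfsg.Statements.S5197
import Mathlib
import Cfsg.Agent.Lib.Fusion.FocalControl

set_option autoImplicit false
universe u
open Cfsg

namespace Cfsg.Agent.S5197

/-- Let p be a prime and W a positive characteristic p-functor: W assigns to every finite p-group Q (in a fixed universe) a subgroup W(Q), nontrivial when Q is, carried to W(R) by every isomorphism Q ≅ R. Suppose W satisfies the local condition: for every finite group G with Sylow p-subgroup P such that C_G(O_p(G)) ≤ O_p(G), one has O_p(G) ∩ [G, G] = O_p(G) ∩ [N, N] for N = N_G(W(P)). Then W controls transfer in every saturated fusion system F over a finite p-group S: the focal subgroup of F equals the focal subgroup of the normalizer fusion system of W(S) in F. -/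
theorem result {p : ℕ} [Fact p.Prime] (W : ∀ (Q : Type u) [Group Q], Subgroup Q) (hW1 : ∀ (Q : Type u) [Group Q] [Finite Q], IsPGroup p Q → Nontrivial Q → W Q ≠ ⊥) (hW2 : ∀ (Q R : Type u) [Group Q] [Group R] [Finite Q], IsPGroup p Q → ∀ φ : Q ≃* R, (W Q).map φ.toMonoidHom = W R) (hT : ∀ (G : Type u) [Group G] [Finite G] (P : Sylow p G), Subgroup.centralizer ((Cfsg.pCore p G : Subgroup G) : Set G) ≤ Cfsg.pCore p G → Cfsg.pCore p G ⊓ commutator G = Cfsg.pCore p G ⊓ (commutator ↥(Subgroup.normalizer (((W ↥(P : Subgroup G)).map (P : Subgroup G).subtype : Subgroup G) : Set G))).map (Subgroup.normalizer (((W ↥(P : Subgroup G)).map (P : Subgroup G).subtype : Subgroup G) : Set G)).subtype) {Ω : Type u} [Group Ω] {S : Subgroup Ω} [Finite S] (hS : IsPGroup p S) (F : Cfsg.FusionSystem S) (hF : F.IsSaturated p) (N : Cfsg.FusionSystem (Cfsg.FusionSystem.normalizerIn S ((W ↥S).map S.subtype))) (hN : F.IsNormalizerSystem ((W ↥S).map S.subtype) N) : N.focalSubgroup = F.focalSubgroup := by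
  classical
  have hW' : Cfsg.Agent.Lib.Fusion.GFunctor.IsPFunctor p W := ⟨hW1, hW2⟩
  have hTc : Cfsg.Agent.Lib.Fusion.FocalControl.TransferCond p W := hT
  have hN' : F.IsNormalizerSystem (Cfsg.Agent.Lib.Fusion.GFunctor.wOf W S) N := hN
  have hSN := Cfsg.Agent.Lib.Fusion.GFunctor.normalizerIn_wOf hW' hS
  apply le_antisymm
  · refine (Subgroup.closure_le _).2 ?_
    rintro _ ⟨P, φ, x, hφ, rfl⟩
    rw [hN' P] at hφ
    exact Subgroup.subset_closure ⟨P, φ, x, hφ.1, rfl⟩
  · refine (Subgroup.closure_le _).2 ?_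
    rintro _ ⟨P, φ, x, hφ, rfl⟩
    refine Cfsg.Agent.Lib.Fusion.FocalControl.focal_of_normalizer hW' hTc _ Ω S F N.focalSubgroup rfl hS hF ?_ hφ x
    intro P φ hφ x
    refine Subgroup.subset_closure ⟨P, φ, x, ?_, rfl⟩
    rw [hN' P]
    exact hφ

end Cfsg.Agent.S5197
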