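import Cfsg.Statements.S5200
import Cfsg.Agent.Lib.Fusion.CenFix6

set_option autoImplicit false
open Cfsg

namespace Cfsg.Agent.S5200

open Cfsg.FusionSystem Cfsg.Agent.Lib.Fusion.GoodLift Cfsg.Agent.Lib.Fusion.CenFix

/-- Let F be a saturated fusion system over a finite p-group S and E a normal subsystem of F over T whose centralizer in S lies in T: every subgroup Y of C_S(T) such that E is contained in the centralizer fusion system of Y in F satisfies Y ≤ T. Then T·C_S(T)/T is abelian (the commutator subgroup of T·C_S(T) lies in T), and if p is odd then C_S(T) ≤ T. -/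
theorem result {Ω : Type*} [Group Ω] {S : Subgroup Ω} [Finite S] (p : ℕ) [Fact p.Prime] (hS : IsPGroup p S) (F : Cfsg.FusionSystem S) (hF : F.IsSaturated p) {T : Subgroup Ω} (E : Cfsg.FusionSystem T) (hE : E.IsNormalIn F p) (hCE : ∀ Y : Subgroup Ω, Y ≤ Cfsg.FusionSystem.centralizerIn S T → (∀ C : Cfsg.FusionSystem (Cfsg.FusionSystem.centralizerIn S Y), F.IsCentralizerSystem Y C → E.IsSubsystemOf C) → Y ≤ T) : ⁅T ⊔ Cfsg.FusionSystem.centralizerIn S T, T ⊔ Cfsg.FusionSystem.centralizerIn S T⁆ ≤ T ∧ (p ≠ 2 → Cfsg.FusionSystem.centralizerIn S T ≤ T) := by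
  classical
  have hTS : T ≤ S := hE.1.2.2.2.1.1
  have hCC : CC hS hF hE ≤ T := by
    refine hCE _ (CC_le hS hF hE) fun C hC P φ hφ => ?_
    rw [hC P]
    exact cen_CC hS hF hE P hφ
  have hcomm : ∀ c ∈ centralizerIn S T, ∀ d ∈ centralizerIn S T, c * d * c⁻¹ * d⁻¹ ∈ T := by
    intro c hc d hd
    apply hCC
    have hD := Cfsg.Agent.Lib.Fusion.LocalSystems.centralizerSystem_isCentralizerSystem F T hTS
    refine focal_le_CC hS hF hE hD (Subgroup.subset_closure ?_)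
    refine ⟨centralizerIn S T, conjHom _ d, ⟨c⁻¹, inv_mem hc⟩, ?_, ?_⟩
    · exact FusionSystem.conj_mem _ le_rfl hd
    · show _ = (c⁻¹)⁻¹ * (d * c⁻¹ * d⁻¹)
      group
  refine ⟨?_, fun hp2 => ?_⟩
  · rw [Subgroup.commutator_le]
    intro g₁ hg₁ g₂ hg₂
    have hST : T ≤ Subgroup.normalizer ((T : Subgroup Ω) : Set Ω) := Subgroup.le_normalizer
    have hTC : T ≤ Subgroup.normalizer ((centralizerIn S T : Subgroup Ω) : Set Ω) := fun t ht => by
      refine Subgroup.mem_normalizer_iff.2 fun c => ⟨fun hc => ?_, fun hc => ?_⟩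
      · have e : t * c * t⁻¹ = c := by
          rw [Subgroup.mem_centralizer_iff.1 hc.2 t ht]
          group
        rw [e]
        exact hc
      · have h1 := Subgroup.mem_centralizer_iff.1 hc.2 t ht
        have e : t * c * t⁻¹ = c := by
          have h2 : t * (t * c * t⁻¹) = t * c := by
            rw [h1]
            group
          exact mul_left_cancel h2
        rw [← e]
        exact hc
    obtain ⟨t₁, ht₁, c₁, hc₁, rfl⟩ := Cfsg.Agent.Lib.Fusion.GroupSylow.exists_mul_of_mem_sup hTC hg₁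
    obtain ⟨t₂, ht₂, c₂, hc₂, rfl⟩ := Cfsg.Agent.Lib.Fusion.GroupSylow.exists_mul_of_mem_sup hTC hg₂
    have h1 : c₁ * t₂ = t₂ * c₁ := (Subgroup.mem_centralizer_iff.1 hc₁.2 t₂ ht₂).symm
    have h2 : t₁⁻¹ * c₂⁻¹ = c₂⁻¹ * t₁⁻¹ :=
      (Subgroup.mem_centralizer_iff.1 (inv_mem hc₂).2 t₁⁻¹ (inv_mem ht₁))
    have e : (t₁ * c₁) * (t₂ * c₂) * (t₁ * c₁)⁻¹ * (t₂ * c₂)⁻¹ = t₁ * t₂ * (c₁ * c₂ * c₁⁻¹ * c₂⁻¹) * t₁⁻¹ * t₂⁻¹ := by
      simp only [mul_inv_rev, mul_assoc]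
      rw [← mul_assoc c₁ t₂, h1, ← mul_assoc t₁⁻¹ c₂⁻¹, h2]
      simp only [mul_assoc]
    show (t₁ * c₁) * (t₂ * c₂) * (t₁ * c₁)⁻¹ * (t₂ * c₂)⁻¹ ∈ T
    rw [e]
    exact mul_mem (mul_mem (mul_mem (mul_mem ht₁ ht₂) (hcomm c₁ hc₁ c₂ hc₂)) (inv_mem ht₁)) (inv_mem ht₂)
  · intro x hx
    obtain ⟨ζ, hζ, -, h⟩ := exists_mem_CC_odd hp2 hS hF hE hx
    have h1 := hCC h
    have : x = (x * ζ) * ζ⁻¹ := by group
    rw [this]
    exact mul_mem h1 (inv_mem hζ)

end Cfsg.Agent.S5200
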