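import Cfsg.Statements.S5220
import Mathlib
import Cfsg.Agent.Lib.Fusion.GT.GenFusion
-- import your own Cfsg.Agent.* helpers here

set_option autoImplicit false
open Cfsg

namespace Cfsg.Agent.S5220

/-- Let F be a saturated fusion system over a nontrivial finite p-group S, let J(S) be the subgroup generated by the abelian subgroups of S of largest order, and let V be the subgroup generated by the p-th powers of the elements of Z(S). Then F is generated by the centralizer fusion system of V and the normalizer fusion system of J(S): every fusion system over S containing the maps of both contains every map of F. -/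
theorem result {Ω : Type*} [Group Ω] {S : Subgroup Ω} [Finite S] (p : ℕ) [Fact p.Prime] (hS : IsPGroup p S) (F : Cfsg.FusionSystem S) (hF : F.IsSaturated p) (hS1 : S ≠ ⊥) (C : Cfsg.FusionSystem (Cfsg.FusionSystem.centralizerIn S (Cfsg.powerClosure p 1 (S ⊓ Subgroup.centralizer (S : Set Ω))))) (hC : F.IsCentralizerSystem (Cfsg.powerClosure p 1 (S ⊓ Subgroup.centralizer (S : Set Ω))) C) (N : Cfsg.FusionSystem (Cfsg.FusionSystem.normalizerIn S (Cfsg.thompsonSubgroupAOf S))) (hN : F.IsNormalizerSystem (Cfsg.thompsonSubgroupAOf S) N) (E : Cfsg.FusionSystem S) (hCE : C.IsSubsystemOf E) (hNE : N.IsSubsystemOf E) : F.IsSubsystemOf E := by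
  classical
  have e : Cfsg.thompsonSubgroupAOf S = Cfsg.Agent.Lib.PGroup.ZJ.JJ 0 S :=
    Cfsg.Agent.Lib.PGroup.ZJ.thompsonSubgroupAOf_eq S
  intro P φ hφ
  refine Cfsg.Agent.Lib.Fusion.GT.GenFusion.main (p := p)
    (E₀ := E) (V₀ := Cfsg.powerClosure p 1 (S ⊓ Subgroup.centralizer (S : Set Ω))) S F hS hF ⟨?_, ?_, ?_⟩ hφ
  · intro v hv
    have hab : ∀ x ∈ S ⊓ Subgroup.centralizer (S : Set Ω), ∀ y ∈ S ⊓ Subgroup.centralizer (S : Set Ω), x * y = y * x :=
      fun x hx y hy => Subgroup.mem_centralizer_iff.1 hy.2 x hx.1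
    have hv' : v ∈ Cfsg.Agent.Lib.Fusion.GT.GenLocal.agemo p (S ⊓ Subgroup.centralizer (S : Set Ω)) := by
      unfold Cfsg.powerClosure at hv
      refine (Subgroup.closure_le _).2 ?_ hv
      rintro _ ⟨x, hx, rfl⟩
      rw [pow_one]
      exact Cfsg.Agent.Lib.Fusion.GT.GenLocal.pow_mem_agemo hx
    obtain ⟨w, hw, hwv⟩ := Cfsg.Agent.Lib.Fusion.GT.GenLocal.exists_pow_of_mem_agemo hab hv'
    exact ⟨w, hw, hwv.symm⟩
  · intro Q ψ hψ
    exact hCE Q ((hC Q).ge hψ)
  · intro Q ψ hψ
    rw [← e] at hψ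
    exact hNE Q ((hN Q).ge hψ)

end Cfsg.Agent.S5220
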