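import Cfsg.Statements.S5222
import Cfsg.Agent.Lib.Fusion.TateInner
import Cfsg.Agent.Lib.Fusion.KNormalizer
import Mathlib
-- import your own Cfsg.Agent.* helpers here

set_option autoImplicit false
open Cfsg

namespace Cfsg.Agent.S5222

open Cfsg.FusionSystem Cfsg.Agent.Lib.Fusion Cfsg.Agent.Lib
open scoped commutatorElement

theorem aux {Ω : Type*} [Group Ω] {S S₁ Q : Subgroup Ω} (e : S₁ = S) [Finite S] (p : ℕ) [Fact p.Prime]
    (hS : IsPGroup p S) (F : Cfsg.FusionSystem S) (hF : F.IsSaturated p)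
    (hN : ∀ N : Cfsg.FusionSystem (Cfsg.FusionSystem.normalizerIn S S), F.IsNormalizerSystem S N →
      ∀ P : Subgroup Ω, N.Hom P = (Cfsg.innerFusionSystem (Cfsg.FusionSystem.normalizerIn S S)).Hom P)
    (h1 : (commutator ↥S).map S.subtype ≤ Q) (h2 : Q ≤ (frattini ↥S).map S.subtype)
    (N : Cfsg.FusionSystem S₁) (hNQ : ∀ P, N.Hom P = F.normalizerHom Q P)
    (hsat : N.IsSaturated p) (P : Subgroup Ω) :
    N.Hom P = (Cfsg.innerFusionSystem S₁).Hom P := by
  subst e
  have hQS : Q ≤ S₁ := h2.trans (Subgroup.map_subtype_le _)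
  have hC : N.StronglyClosed Q := by
    refine ⟨hQS, fun R hR φ hφ x => ?_⟩
    rw [hNQ] at hφ
    obtain ⟨-, -, -, ψ, -, ha, hm⟩ := hφ
    rw [← ha x]
    exact hm.le ⟨Subgroup.inclusion le_sup_left x, hR x.2, rfl⟩
  have hcomm : ∀ g ∈ S₁, ∀ x ∈ S₁, x⁻¹ * (g * x * g⁻¹) ∈ Q := by
    intro g hg x hx
    apply h1
    refine ⟨⁅(⟨x, hx⟩ : S₁)⁻¹, (⟨g, hg⟩ : S₁)⁆,
      Subgroup.commutator_mem_commutator (Subgroup.mem_top _) (Subgroup.mem_top _), ?_⟩
    simp [commutatorElement_def]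
    group
  have hAut : ∀ φ ∈ N.Hom S₁, ∀ x : S₁, (x : Ω)⁻¹ * φ x ∈ Q := by
    intro φ hφ x
    rw [hNQ] at hφ
    obtain ⟨g, hg, hgc⟩ := TateInner.exists_conj_of_normalizer_inner hN hφ.1
    rw [hgc]
    exact hcomm g hg x x.2
  exact TateInner.hom_eq_inner_of_map_mem_frattini hS hsat (fun hφ x =>
    h2 (FocalClosed.map_mem_of_strongly_closed hS hsat hC hcomm hAut hφ x)) P


/-- Let F be a saturated fusion system over a finite p-group S whose normalizer fusion system of S is the inner fusion system of S (Aut_F(S) is a p-group). Then for every subgroup Q of S with [S, S] ≤ Q ≤ Φ(S), the normalizer fusion system of Q in F is the inner fusion system of N_S(Q) = S. -/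
theorem result {Ω : Type*} [Group Ω] {S : Subgroup Ω} [Finite S] (p : ℕ) [Fact p.Prime] (hS : IsPGroup p S) (F : Cfsg.FusionSystem S) (hF : F.IsSaturated p) (hN : ∀ N : Cfsg.FusionSystem (Cfsg.FusionSystem.normalizerIn S S), F.IsNormalizerSystem S N → ∀ P : Subgroup Ω, N.Hom P = (Cfsg.innerFusionSystem (Cfsg.FusionSystem.normalizerIn S S)).Hom P) (Q : Subgroup Ω) (h1 : (commutator ↥S).map S.subtype ≤ Q) (h2 : Q ≤ (frattini ↥S).map S.subtype) : ∀ N : Cfsg.FusionSystem (Cfsg.FusionSystem.normalizerIn S Q), F.IsNormalizerSystem Q N → ∀ P : Subgroup Ω, N.Hom P = (Cfsg.innerFusionSystem (Cfsg.FusionSystem.normalizerIn S Q)).Hom P := by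
  intro N hE P
  have hQS : Q ≤ S := h2.trans (Subgroup.map_subtype_le _)
  have hQn : ∀ g ∈ S, g ∈ Subgroup.normalizer (Q : Set Ω) := by
    intro g hg
    rw [Subgroup.mem_normalizer_iff]
    have hcomm : ∀ x ∈ S, x⁻¹ * (g * x * g⁻¹) ∈ Q := by
      intro x hx
      apply h1
      refine ⟨⁅(⟨x, hx⟩ : S)⁻¹, (⟨g, hg⟩ : S)⁆,
        Subgroup.commutator_mem_commutator (Subgroup.mem_top _) (Subgroup.mem_top _), ?_⟩
      simp [commutatorElement_def]
      group
    intro x
    constructor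
    · intro hx
      have := Q.mul_mem hx (hcomm x (hQS hx))
      simpa using this
    · intro hx
      have hxS : x ∈ S := by
        have h3 := hQS hx
        have h4 : x = g⁻¹ * (g * x * g⁻¹) * g := by group
        rw [h4]
        exact S.mul_mem (S.mul_mem (S.inv_mem hg) h3) hg
      have h5 := hcomm x hxS
      have h6 := Q.mul_mem hx (Q.inv_mem h5)
      have e : x = (g * x * g⁻¹) * (x⁻¹ * (g * x * g⁻¹))⁻¹ := by group
      rw [e]
      exact h6
  have he : Cfsg.FusionSystem.normalizerIn S Q = S :=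
    le_antisymm inf_le_left (fun g hg => ⟨hg, hQn g hg⟩)
  have hfn : F.IsFullyNormalized Q := by
    refine ⟨hQS, fun Q' _ => ?_⟩
    rw [he]
    exact Nat.card_le_card_of_injective (fun x => (⟨x.1, x.2.1⟩ : S)) (fun a b hab => by
      have := congrArg Subtype.val hab
      exact Subtype.ext this)
  exact aux he p hS F hF hN h1 h2 N hE (KNormalizer.isSaturated_normalizerSystem hS hF hfn hE) P

end Cfsg.Agent.S5222
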