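import Cfsg.Statements.S5223
import Cfsg.Agent.S5083
import Cfsg.Agent.Lib.Fusion.Chain
import Cfsg.Agent.Lib.Coprime.Stability
-- import your own Cfsg.Agent.* helpers here

set_option autoImplicit false
open Cfsg

namespace Cfsg.Agent.S5223

/-- Let F be a saturated fusion system over a finite p-group S. Suppose there are subgroups Q₀ = S, Q₁, …, Qₙ = 1 (not required to be nested) such that for each i < n the focal subgroup of Qᵢ (generated by the elements x⁻¹φ(x), x ∈ Qᵢ, φ a map of F defined on the cyclic group generated by x) lies in Qᵢ₊₁. Then F is the inner fusion system of S. -/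
theorem result {Ω : Type*} [Group Ω] {S : Subgroup Ω} [Finite S] (p : ℕ) [Fact p.Prime] (hS : IsPGroup p S) (F : Cfsg.FusionSystem S) (hF : F.IsSaturated p) (n : ℕ) (Q : Fin (n + 1) → Subgroup Ω) (hQ0 : Q 0 = S) (hQn : Q (Fin.last n) = ⊥) (hstep : ∀ i : Fin n, Subgroup.closure {y : Ω | ∃ x ∈ Q i.castSucc, ∃ φ ∈ F.Hom (Subgroup.zpowers x), y = x⁻¹ * φ ⟨x, Subgroup.mem_zpowers x⟩} ≤ Q i.succ) : ∀ P : Subgroup Ω, F.Hom P = (Cfsg.innerFusionSystem S).Hom P := by
  classical
  have hinner : F = Cfsg.innerFusionSystem S := by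
    refine Cfsg.Agent.S5083.result p hS F hF ?_
    intro P hPS
    have hfinP : Finite P := Cfsg.Agent.Lib.Fusion.Basic.finite_of_le hPS
    have hfinA : Finite (MulAut P) := inferInstance
    refine Cfsg.Agent.Lib.Coprime.Stability.isPGroup_of_forall_coprime Fact.out _ ?_
    intro α hα hc
    have hm := Cfsg.Agent.Lib.Fusion.Basic.autGroup_mem_hom hPS hα
    have hPp : IsPGroup p P := hS.to_le hPS
    -- descending induction along the chain
    have key : ∀ j : ℕ, ∀ hj : j ≤ n, ∀ x : P, (x : Ω) ∈ Q ⟨n - j, by omega⟩ → α x = x := by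
      intro j
      induction j with
      | zero =>
        intro _ x hx
        have e : (⟨n - 0, by omega⟩ : Fin (n + 1)) = Fin.last n := Fin.ext (by simp)
        rw [e, hQn, Subgroup.mem_bot] at hx
        have hx1 : x = 1 := Subtype.ext hx
        rw [hx1, map_one]
      | succ j ih =>
        intro hj x hx
        have hlt : n - (j + 1) < n := by omega
        have hzp : Subgroup.zpowers (x : Ω) ≤ P := (Subgroup.zpowers_le).2 x.2
        have hres := Cfsg.Agent.Lib.Fusion.Basic.res_mem hm hzp
        have h1 := hstep ⟨n - (j + 1), hlt⟩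
        have hmem : (x : Ω)⁻¹ * (P.subtype.comp α.toMonoidHom).comp (Subgroup.inclusion hzp)
            ⟨x, Subgroup.mem_zpowers _⟩ ∈ Q (Fin.succ ⟨n - (j + 1), hlt⟩) :=
          h1 (Subgroup.subset_closure ⟨x, hx, _, hres, rfl⟩)
        have hsucc : (Fin.succ ⟨n - (j + 1), hlt⟩ : Fin (n + 1)) = ⟨n - j, by omega⟩ :=
          Fin.ext (by simp; omega)
        rw [hsucc] at hmem
        set y : P := x⁻¹ * α x with hy
        have hyv : (y : Ω) ∈ Q ⟨n - j, by omega⟩ := hmem
        have hyfix : α y = y := ih (by omega) y hyv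
        have hxy : α x = x * y := by rw [hy]; group
        have h4 := Cfsg.Agent.Lib.Fusion.Chain.pow_apply_eq_mul_pow α hxy hyfix (orderOf α)
        rw [pow_orderOf_eq_one] at h4
        have h5 : y ^ orderOf α = 1 := by
          have : x = x * y ^ orderOf α := h4
          simpa using this.symm
        obtain ⟨a, ha⟩ := hPp y
        have h6 : orderOf y ∣ p ^ a := orderOf_dvd_of_pow_eq_one ha
        have h7 : orderOf y ∣ orderOf α := orderOf_dvd_of_pow_eq_one h5
        have h8 : orderOf y = 1 := Nat.eq_one_of_dvd_coprimes (hc.symm.pow_left a) h6 h7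
        have h9 : y = 1 := orderOf_eq_one_iff.1 h8
        rw [hxy, h9, mul_one]
    ext x
    have h0 : (x : Ω) ∈ S := hPS x.2
    have e0 : (⟨n - n, by omega⟩ : Fin (n + 1)) = 0 := Fin.ext (by simp)
    have := key n le_rfl x (by rw [e0, hQ0]; exact h0)
    simp [this]
  intro P
  rw [← hinner]

end Cfsg.Agent.S5223
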