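import Cfsg.Statements.S5224
import Cfsg.Agent.Lib.Fusion.Tate
import Cfsg.Agent.Lib.PGroup.FrattiniBasis
import Mathlib
-- import your own Cfsg.Agent.* helpers here

set_option autoImplicit false
open Cfsg

namespace Cfsg.Agent.S5224

open Cfsg.FusionSystem Cfsg.Agent.Lib.Fusion Cfsg.Agent.Lib.Fusion.Basic

/-- Tate's Theorem for fusion systems. Let F be a saturated fusion system over a finite p-group S and H a saturated fusion system over S contained in F. Then the following are equivalent: the elementary focal subgroups Φ(S)·foc agree for F and H; the focal subgroups of F and H agree; the hyperfocal subgroups of F and H agree. -/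
theorem result {Ω : Type*} [Group Ω] {S : Subgroup Ω} [Finite S] (p : ℕ) [Fact p.Prime] (hS : IsPGroup p S) (F : Cfsg.FusionSystem S) (hF : F.IsSaturated p) (H : Cfsg.FusionSystem S) (hH : H.IsSaturated p) (hHF : H.IsSubsystemOf F) : (((frattini ↥S).map S.subtype ⊔ F.focalSubgroup) = ((frattini ↥S).map S.subtype ⊔ H.focalSubgroup) ↔ F.focalSubgroup = H.focalSubgroup) ∧ (F.focalSubgroup = H.focalSubgroup ↔ F.hyperfocalSubgroup p = H.hyperfocalSubgroup p) := by
  classical
  -- `hyp(H) ≤ hyp(F)`
  have hle : H.hyperfocalSubgroup p ≤ F.hyperfocalSubgroup p := by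
    refine Hyperfocal.hyperfocal_le fun P hP α hα x => ?_
    have hαF : (α : MulAut P) ∈ F.autGroup P := by
      apply mem_autGroup_of_mem
      exact hHF P (autGroup_mem_hom hP α.2)
    refine Hyperfocal.mem_hyperfocal_of_coprime hP (α := ⟨(α : MulAut P), hαF⟩) ?_ x
    rw [← Subgroup.orderOf_coe] at hα ⊢
    exact hα
  have hfocF := Focal.focal_eq hS hF
  have hfocH := Focal.focal_eq hS hH
  have hcomm : ⁅S, S⁆ ≤ (frattini S).map S.subtype := by
    have h6 : (⊤ : Subgroup S).map S.subtype = S := by
      rw [← MonoidHom.range_eq_map, Subgroup.range_subtype]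
    have h1 : commutator S ≤ frattini S :=
      Cfsg.Agent.Lib.PGroup.FrattiniBasis.commutator_le_frattini hS
    calc ⁅S, S⁆ = (commutator S).map S.subtype := by
          rw [commutator_def, Subgroup.map_commutator, h6]
      _ ≤ _ := Subgroup.map_mono h1
  -- the main implication
  have key : (frattini S).map S.subtype ⊔ F.focalSubgroup =
      (frattini S).map S.subtype ⊔ H.focalSubgroup →
      F.hyperfocalSubgroup p = H.hyperfocalSubgroup p := by
    intro h
    refine le_antisymm ?_ hle
    refine Tate.hyperfocal_le_of_le_frattini_sup hS hF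
      (fun g hg t ht => Hyperfocal.conj_mem_hyperfocal hg ht) hle ?_
    calc F.hyperfocalSubgroup p ≤ (frattini S).map S.subtype ⊔ F.focalSubgroup :=
          le_sup_of_le_right (by rw [hfocF]; exact le_sup_left)
      _ = (frattini S).map S.subtype ⊔ H.focalSubgroup := h
      _ ≤ _ := by
          rw [hfocH]
          exact sup_le le_sup_left (sup_le le_sup_right (hcomm.trans le_sup_left))
  have hback : F.hyperfocalSubgroup p = H.hyperfocalSubgroup p → F.focalSubgroup = H.focalSubgroup := by
    intro h
    rw [hfocF, hfocH, h]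
  refine ⟨⟨fun h => hback (key h), fun h => by rw [h]⟩,
    ⟨fun h => key (by rw [h]), hback⟩⟩

end Cfsg.Agent.S5224
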