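import Cfsg.Statements.S5226
import Cfsg.Agent.Lib.Fusion.Chain
-- import your own Cfsg.Agent.* helpers here

set_option autoImplicit false
open Cfsg

namespace Cfsg.Agent.S5226

/-- Let F be a saturated fusion system over a finite p-group S and Q a subgroup of S. Then Q is normal in F (F equals the normalizer system of Q) if and only if Q is strongly closed in F and admits a central series 1 = Q₀ ≤ Q₁ ≤ ⋯ ≤ Qₙ = Q ([Qᵢ₊₁, Q] ≤ Qᵢ) all of whose proper terms are weakly closed in F. -/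
theorem result {Ω : Type*} [Group Ω] {S : Subgroup Ω} [Finite S] (p : ℕ) [Fact p.Prime] (hS : IsPGroup p S) (F : Cfsg.FusionSystem S) (hF : F.IsSaturated p) (Q : Subgroup Ω) : F.IsNormal Q ↔ F.StronglyClosed Q ∧ ∃ (n : ℕ) (C : Fin (n + 1) → Subgroup Ω), C 0 = ⊥ ∧ C (Fin.last n) = Q ∧ Monotone C ∧ (∀ i : Fin n, ⁅C i.succ, Q⁆ ≤ C i.castSucc) ∧ ∀ i : Fin n, F.WeaklyClosed (C i.castSucc) := by
  classical
  constructor
  · intro hQ
    obtain ⟨n, C, h0, hl, hm, hN, hc⟩ := Cfsg.Agent.Lib.Fusion.Chain.exists_central_chain hS hQ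
    exact ⟨Cfsg.Agent.Lib.Fusion.NormalCR.IsNormal.stronglyClosed hQ, n, C, h0, hl, hm, hc,
      fun i => Cfsg.Agent.Lib.Fusion.Chain.IsNormal.weaklyClosed (hN _)⟩
  · rintro ⟨hQ, n, C, h0, hl, hm, hc, hw⟩
    refine Cfsg.Agent.Lib.Fusion.NormalCR.isNormal_of_stronglyClosed_of_le hS hF hQ ?_
    intro P hC hR
    let E : ℕ → Subgroup Ω := fun j => if hj : j ≤ n then C ⟨j, Nat.lt_succ_of_le hj⟩ else ⊥
    have hE : ∀ (j : ℕ) (hj : j ≤ n), E j = C ⟨j, Nat.lt_succ_of_le hj⟩ := fun j hj => dif_pos hj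
    refine Cfsg.Agent.Lib.Fusion.Chain.le_of_weaklyClosed_series (E := E) (n := n) hS hC hR hQ ?_ ?_
      ?_ ?_ ?_
    · rw [hE 0 (Nat.zero_le n)]
      exact h0
    · rw [hE n le_rfl]
      exact hl
    · intro i j hij hj
      rw [hE j hj, hE i (hij.trans hj)]
      exact hm (Fin.mk_le_mk.2 hij)
    · intro i hi
      rw [hE i hi.le]
      exact hw ⟨i, hi⟩
    · intro i hi
      rw [hE (i + 1) hi, hE i hi.le]
      exact hc ⟨i, hi⟩

end Cfsg.Agent.S5226
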