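import Cfsg.Statements.S5233
import Mathlib
import Cfsg.Agent.Lib.Fusion.GenExtra
import Cfsg.Agent.Lib.Fusion.Transvection
import Cfsg.Agent.Lib.Fusion.Chain
import Cfsg.Agent.Lib.Fusion.Saturated2

set_option autoImplicit false
open Cfsg

namespace Cfsg.Agent.S5233

open Cfsg.FusionSystem Cfsg.Agent.Lib.Fusion.Basic Cfsg.Agent.Lib.Fusion.Saturated
  Cfsg.Agent.Lib.Fusion.Saturated2 Cfsg.Agent.Lib.Fusion.Transvection Cfsg.Agent.Lib.Fusion.NormalCR
  Cfsg.Agent.Lib.Fusion.Chain Cfsg.Agent.Lib.Fusion.GenExtra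
open scoped commutatorElement

section Torus

variable {Ω : Type*} [Group Ω] {S : Subgroup Ω} [Finite S] {F : FusionSystem S} {p : ℕ}
  [hp : Fact p.Prime] {P H Z : Subgroup Ω} {g x z : Ω}

/-- The last case: `H = Ω₁(P)` is abelian of index `p`, `P` does not split over `H`, and `Z = P'` is
moved inside `H`. Then `Aut_F(H)` contains a copy of `SL₂(p)` and its central involution extends to `P`,
which contradicts `g^p ∈ Z`. -/
theorem torus_contra (hS : IsPGroup p S) (hF : F.IsSaturated p) (hP : F.StronglyClosed P)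
    (hodd : p ≠ 2) (hHmem : ∀ y, y ∈ H ↔ y ∈ P ∧ y ^ p = 1)
    (hHab : ∀ a ∈ H, ∀ b ∈ H, a * b = b * a)
    (hZH : Z ≤ H) (hcomm : ∀ a ∈ P, ∀ b ∈ P, ⁅a, b⁆ ∈ Z)
    (hcen : ∀ y ∈ Z, ∀ a ∈ P, y * a = a * y)
    (hgen : ∀ w ∈ Z, w ≠ 1 → ∀ v ∈ Z, ∃ k : ℕ, w ^ k = v)
    (hgP : g ∈ P) (hgp : g ^ p ≠ 1) (hgpZ : g ^ p ∈ Z)
    (hmulpow : ∀ a ∈ P, ∀ b ∈ P, (a * b) ^ p = a ^ p * b ^ p)
    (hxH : x ∈ H) (hgx : ⁅g, x⁆ ≠ 1) (hCH : ∀ a ∈ P, ⁅a, x⁆ = 1 → a ∈ H)
    (hzZ : z ∈ Z) (hz1 : z ≠ 1) (hxZ : x ∉ Z) {ψ : H →* Ω} (hψ : ψ ∈ F.Hom H)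
    (hψx : ψ ⟨x, hxH⟩ = z) : False := by
  classical
  have hPS : P ≤ S := hP.1
  have hHP : H ≤ P := fun y hy => ((hHmem y).1 hy).1
  have hHS : H ≤ S := hHP.trans hPS
  haveI : Finite H := finite_of_le hHS
  have hgS : g ∈ S := hPS hgP
  have hxP : x ∈ P := hHP hxH
  have hzH : z ∈ H := hZH hzZ
  have hexp : ∀ a : H, a ^ p = 1 := fun a => Subtype.ext ((hHmem a).1 a.2).2
  have hV : ∀ a b : H, a * b = b * a := fun a b => Subtype.ext (hHab a a.2 b b.2)
  -- `H` is normal in `S`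
  have hHn : ∀ s ∈ S, ∀ a ∈ H, s * a * s⁻¹ ∈ H := by
    intro s hs a ha
    rw [hHmem]
    obtain ⟨h1, h2⟩ := (hHmem a).1 ha
    refine ⟨StronglyClosed.conj_mem hP hs h1, ?_⟩
    rw [conj_pow, h2]
    simp
  have hSN : ∀ s ∈ S, s ∈ Subgroup.normalizer (H : Set Ω) := by
    intro s hs
    rw [Subgroup.mem_normalizer_iff]
    intro a
    refine ⟨hHn s hs a, fun ha => ?_⟩
    have := hHn s⁻¹ (S.inv_mem hs) _ ha
    simpa [mul_assoc] using this
  have hNS : normalizerIn S H = S := le_antisymm inf_le_left (le_inf le_rfl hSN)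
  have hFN : F.IsFullyNormalized H := by
    refine ⟨hHS, fun Q _ => ?_⟩
    rw [hNS]
    exact card_le_S normalizerIn_le
  have hrec := fullyNormalized_receptive hS hF hFN
  have haut : F.IsFullyAutomized p H := (fullyNormalized_props hS hF hFN).2
  haveI : Finite (F.autGroup H) := finite_autGroup hHS
  -- the transvection `t` and the map `ψ`
  let t : MulAut H := normConj g (hSN g hgS)
  have ht_aut : t ∈ F.autGroup H :=
    autInducedBy_le_autGroup hHS (normConj_mem_autInducedBy hgS _)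
  have ht_val : ∀ a : H, ((t a : H) : Ω) = g * a * g⁻¹ := fun _ => rfl
  have hψval : ∀ a : H, ψ a ∈ H := by
    intro a
    rw [hHmem]
    refine ⟨hP.2 H hHP ψ hψ a, ?_⟩
    rw [← map_pow, hexp, map_one]
  let ψh : MulAut H := autOfHom ψ (F.injective_of_mem hψ) hψval
  have hψh_aut : ψh ∈ F.autGroup H := autOfHom_mem hψ hψval
  let xh : H := ⟨x, hxH⟩
  let zh : H := ⟨z, hzH⟩
  have hψhx : ψh xh = zh := Subtype.ext hψx
  -- maps of `F` on `H` and extensions
  have hφ : ∀ α ∈ F.autGroup H, H.subtype.comp α.toMonoidHom ∈ F.Hom H :=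
    fun α hα => autGroup_mem_hom hHS hα
  have hφr : ∀ α : MulAut H, (H.subtype.comp α.toMonoidHom).range = H := by
    intro α
    ext y
    constructor
    · rintro ⟨a, rfl⟩
      exact (α a).2
    · intro hy
      refine ⟨α⁻¹ ⟨y, hy⟩, ?_⟩
      show ((α (α⁻¹ ⟨y, hy⟩) : H) : Ω) = y
      rw [MulAut.apply_inv_self]
  -- the closure property
  have key1 : ∀ α ∈ F.autGroup H, α * t * α⁻¹ ∈ autInducedBy S H →
      ∀ y : H, (y : Ω) ∈ Z → ((α y : H) : Ω) ∈ Z := by
    intro α hα hconj y hy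
    obtain ⟨s, hs, hsv⟩ := mem_autInducedBy_iff.1 hconj
    obtain ⟨ψ₂, hψ₂, hag⟩ := hrec.2 H _ (hφ α hα) (hφr α)
    have hgE : g ∈ extender S H (H.subtype.comp α.toMonoidHom) := by
      refine extender_closure_mem hgS (hSN g hgS) hs (fun a ha => ?_)
      have h1 := hsv (α a)
      have h2 : (α * t * α⁻¹) (α a) = α (t a) := by
        show α (t (α⁻¹ (α a))) = α (t a)
        rw [MulAut.inv_apply_self]
      rw [h2] at h1
      exact h1
    have hHE : H ≤ extender S H (H.subtype.comp α.toMonoidHom) :=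
      le_extender hHS (fun a => hHS (α a).2)
    have hg₂P : ψ₂ ⟨g, hgE⟩ ∈ P :=
      hP.2 (extender S H (H.subtype.comp α.toMonoidHom) ⊓ P) inf_le_right _
        (res_mem hψ₂ (inf_le_left : extender S H (H.subtype.comp α.toMonoidHom) ⊓ P ≤ _))
        ⟨g, hgE, hgP⟩
    have hw : ⁅g, x⁆ ∈ Z := hcomm g hgP x hxP
    have hwH : ⁅g, x⁆ ∈ H := hZH hw
    have hψ₂H : ∀ (a : Ω) (ha : a ∈ H) , ψ₂ ⟨a, hHE ha⟩ = ((α ⟨a, ha⟩ : H) : Ω) :=
      fun a ha => hag a ha (hHE ha)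
    have e1 : ((α ⟨⁅g, x⁆, hwH⟩ : H) : Ω) = ⁅ψ₂ ⟨g, hgE⟩, ψ₂ ⟨x, hHE hxH⟩⁆ := by
      rw [← hψ₂H, ← map_commutatorElement]
      rfl
    have hαw : ((α ⟨⁅g, x⁆, hwH⟩ : H) : Ω) ∈ Z := by
      rw [e1]
      refine hcomm _ hg₂P _ ?_
      rw [hψ₂H x hxH]
      exact hHP (α _).2
    obtain ⟨k, hk⟩ := hgen _ hw hgx _ hy
    have e2 : y = (⟨⁅g, x⁆, hwH⟩ : H) ^ k := Subtype.ext hk.symm
    rw [e2, map_pow]
    exact Z.pow_mem hαw k
  -- `ψ` moves `z` outside `Z`
  set z' : H := ψh zh with hz'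
  have key2 : (z' : Ω) ∉ Z := by
    intro hz'Z
    have hz'1 : (z' : Ω) ≠ 1 := by
      intro h
      have h1 : z' = 1 := Subtype.ext h
      have h2 : zh = 1 := by
        apply ψh.injective
        rw [map_one]
        exact h1
      exact hz1 (congrArg Subtype.val h2)
    obtain ⟨k, hk⟩ := hgen _ hz'Z hz'1 _ hzZ
    have h1 : z' ^ k = zh := Subtype.ext hk
    have h2 : zh ^ k = xh := by
      apply ψh.injective
      rw [map_pow, hψhx]
      exact h1
    have h3 : z ^ k = x := congrArg Subtype.val h2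
    exact hxZ (h3 ▸ Z.pow_mem hzZ k)
  -- the formulas for `t` and its conjugate
  have htz : t zh = zh := by
    apply Subtype.ext
    show g * z * g⁻¹ = z
    rw [← hcen z hzZ g hgP]
    group
  have hmemz : ∀ a : H, (a : Ω) ∈ Z → a ∈ Subgroup.zpowers zh := by
    intro a ha
    obtain ⟨k, hk⟩ := hgen z hzZ hz1 _ ha
    refine ⟨(k : ℤ), Subtype.ext ?_⟩
    show ((zh ^ (k : ℤ) : H) : Ω) = a
    rw [zpow_natCast]
    exact hk
  have htform : ∀ a : H, a⁻¹ * t a ∈ Subgroup.zpowers zh := by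
    intro a
    apply hmemz
    have h1 : ((a⁻¹ * t a : H) : Ω) = ⁅(a : Ω)⁻¹, g⁆ := by
      show (a : Ω)⁻¹ * (g * a * g⁻¹) = _
      rw [commutatorElement_def]
      group
    rw [h1]
    exact hcomm _ (P.inv_mem (hHP a.2)) _ hgP
  let t' : MulAut H := ψh * t * ψh⁻¹
  have ht'_aut : t' ∈ F.autGroup H :=
    (F.autGroup H).mul_mem ((F.autGroup H).mul_mem hψh_aut ht_aut) ((F.autGroup H).inv_mem hψh_aut)
  have ht'z' : t' z' = z' := by
    show ψh (t (ψh⁻¹ (ψh zh))) = ψh zh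
    rw [MulAut.inv_apply_self, htz]
  have ht'form : ∀ a : H, a⁻¹ * t' a ∈ Subgroup.zpowers z' := by
    intro a
    obtain ⟨n, hn⟩ := htform (ψh⁻¹ a)
    refine ⟨n, ?_⟩
    have e1 : t' a = ψh (t (ψh⁻¹ a)) := rfl
    have e2 : a = ψh (ψh⁻¹ a) := by rw [MulAut.apply_inv_self]
    have e3 := congrArg ψh hn
    rw [map_zpow] at e3
    rw [e1]
    nth_rewrite 1 [e2]
    rw [← map_inv, ← map_mul]
    exact e3
  -- the case distinction
  have hclosure : Subgroup.closure ({t, t'} : Set (MulAut H)) ≤ F.autGroup H := by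
    rw [Subgroup.closure_le]
    rintro τ (rfl | hτ)
    · exact ht_aut
    · rw [Set.mem_singleton_iff] at hτ
      subst hτ
      exact ht'_aut
  have hVp : IsPGroup p H := isPGroup_of_le hS hHS
  -- if `t`, `t'` generate a `p`-group then we are done
  have hpg : IsPGroup p (Subgroup.closure ({t, t'} : Set (MulAut H))) → False := by
    intro hpg
    have hT : IsPGroup p ((Subgroup.closure ({t, t'} : Set (MulAut H))).subgroupOf (F.autGroup H)) :=
      hpg.comap_of_injective _ (Subgroup.subtype_injective _)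
    obtain ⟨-, R, hR⟩ := haut
    obtain ⟨ρ, hρ⟩ := exists_conj_le_sylow R hT
    have hρ' : ∀ τ ∈ Subgroup.closure ({t, t'} : Set (MulAut H)),
        (ρ : MulAut H) * τ * (ρ : MulAut H)⁻¹ ∈ autInducedBy S H := by
      intro τ hτ
      have h1 := hρ ⟨τ, hclosure hτ⟩ hτ
      rw [hR, Subgroup.mem_subgroupOf] at h1
      exact h1
    have ht1 : t ∈ Subgroup.closure ({t, t'} : Set (MulAut H)) :=
      Subgroup.subset_closure (by simp)
    have ht2 : t' ∈ Subgroup.closure ({t, t'} : Set (MulAut H)) :=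
      Subgroup.subset_closure (by simp)
    have h1 := key1 (ρ : MulAut H) ρ.2 (hρ' t ht1)
    have h2 := key1 ((ρ : MulAut H) * ψh) ((F.autGroup H).mul_mem ρ.2 hψh_aut) (by
      have e : ((ρ : MulAut H) * ψh) * t * ((ρ : MulAut H) * ψh)⁻¹ =
          (ρ : MulAut H) * t' * (ρ : MulAut H)⁻¹ := by
        show _ = (ρ : MulAut H) * (ψh * t * ψh⁻¹) * (ρ : MulAut H)⁻¹
        group
      rw [e]
      exact hρ' t' ht2)
    have h3 : (((ρ : MulAut H) z' : H) : Ω) ∈ Z := h2 zh hzZ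
    have h4 : (((ρ : MulAut H) zh : H) : Ω) ∈ Z := h1 zh hzZ
    have h5 : (((ρ : MulAut H) zh : H) : Ω) ≠ 1 := by
      intro h
      have h6 : (ρ : MulAut H) zh = 1 := Subtype.ext h
      have h7 : zh = 1 := by
        apply (ρ : MulAut H).injective
        rw [map_one]
        exact h6
      exact hz1 (congrArg Subtype.val h7)
    obtain ⟨k, hk⟩ := hgen _ h4 h5 _ h3
    have h8 : ((ρ : MulAut H) zh) ^ k = (ρ : MulAut H) z' := Subtype.ext hk
    have h9 : zh ^ k = z' := by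
      apply (ρ : MulAut H).injective
      rw [map_pow]
      exact h8
    have h10 : z ^ k = (z' : Ω) := congrArg Subtype.val h9
    exact key2 (h10 ▸ Z.pow_mem hzZ k)
  by_cases hu : z'⁻¹ * t z' = 1
  · apply hpg
    have hfix : t z' = z' := by
      have := mul_eq_one_iff_eq_inv'.1 hu
      rw [inv_inv] at this
      exact this
    exact isPGroup_closure_pair hV hVp hfix htz htform ht'z' ht'form
  by_cases hv : zh⁻¹ * t' zh = 1
  · apply hpg
    have hfix : t' zh = zh := by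
      have := mul_eq_one_iff_eq_inv'.1 hv
      rw [inv_inv] at this
      exact this
    have := isPGroup_closure_pair (p := p) hV hVp hfix ht'z' ht'form htz htform
    rwa [Set.pair_comm] at this
  -- the torus element
  obtain ⟨δ, hδmem, hδz, hδt⟩ := exists_torus (p := p) hV (hexp zh) (hexp z') htz ht'z' htform ht'form hu hv
  have hδaut : δ ∈ F.autGroup H := hclosure hδmem
  have hδinv : ∀ y : H, (y : Ω) ∈ Z → δ y = y⁻¹ := by
    intro y hy
    obtain ⟨n, rfl⟩ := hmemz y hy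
    show δ (zh ^ n) = (zh ^ n)⁻¹
    rw [map_zpow, hδz, inv_zpow]
  obtain ⟨ψ₃, hψ₃, hag⟩ := hrec.2 H _ (hφ δ hδaut) (hφr δ)
  have hgE : g ∈ extender S H (H.subtype.comp δ.toMonoidHom) := by
    refine extender_closure_mem hgS (hSN g hgS) hgS (fun a ha => ?_)
    have h1 := hδt a
    have h2 := congrArg Subtype.val h1
    exact h2
  have hHE : H ≤ extender S H (H.subtype.comp δ.toMonoidHom) :=
    le_extender hHS (fun a => hHS (δ a).2)
  have hg₁P : ψ₃ ⟨g, hgE⟩ ∈ P :=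
    hP.2 (extender S H (H.subtype.comp δ.toMonoidHom) ⊓ P) inf_le_right _
      (res_mem hψ₃ (inf_le_left : extender S H (H.subtype.comp δ.toMonoidHom) ⊓ P ≤ _))
      ⟨g, hgE, hgP⟩
  set g₁ := ψ₃ ⟨g, hgE⟩ with hg₁
  have hψ₃H : ∀ (a : Ω) (ha : a ∈ H), ψ₃ ⟨a, hHE ha⟩ = ((δ ⟨a, ha⟩ : H) : Ω) :=
    fun a ha => hag a ha (hHE ha)
  -- `g⁻¹ g₁` centralizes `H`
  have hconj : ∀ a : H, g₁ * (δ a : Ω) * g₁⁻¹ = g * (δ a : Ω) * g⁻¹ := by
    intro a
    have h1 : ψ₃ ⟨g * a * g⁻¹, hHE (t a).2⟩ = g₁ * (δ a : Ω) * g₁⁻¹ := by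
      rw [← hψ₃H a a.2, hg₁, ← map_inv, ← map_mul, ← map_mul]
      rfl
    have h2 : ψ₃ ⟨g * a * g⁻¹, hHE (t a).2⟩ = ((δ (t a) : H) : Ω) := hψ₃H _ (t a).2
    rw [← h1, h2, hδt a]
    rfl
  set y := g⁻¹ * g₁ with hy
  have hyP : y ∈ P := P.mul_mem (P.inv_mem hgP) hg₁P
  have hyx : ⁅y, x⁆ = 1 := by
    have h1 := hconj (δ⁻¹ xh)
    rw [MulAut.apply_inv_self] at h1
    have h2 : g₁ * x * g₁⁻¹ = g * x * g⁻¹ := h1
    rw [commutatorElement_eq_one_iff_mul_comm, hy]
    have h3 : g₁ * x = g * x * g⁻¹ * g₁ := by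
      rw [← h2]
      group
    calc g⁻¹ * g₁ * x = g⁻¹ * (g₁ * x) := by group
      _ = g⁻¹ * (g * x * g⁻¹ * g₁) := by rw [h3]
      _ = x * (g⁻¹ * g₁) := by group
  have hyH : y ∈ H := hCH y hyP hyx
  have hyp : y ^ p = 1 := ((hHmem y).1 hyH).2
  have hg₁e : g₁ = g * y := by
    rw [hy]
    group
  have h1 : g₁ ^ p = g ^ p := by
    rw [hg₁e, hmulpow g hgP y hyP, hyp, mul_one]
  have hgpH : g ^ p ∈ H := hZH hgpZ
  have h2 : g₁ ^ p = ψ₃ ⟨g ^ p, hHE hgpH⟩ := by
    rw [hg₁, ← map_pow]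
    rfl
  have h3 : ψ₃ ⟨g ^ p, hHE hgpH⟩ = (g ^ p)⁻¹ := by
    rw [hψ₃H _ hgpH, hδinv ⟨g ^ p, hgpH⟩ hgpZ]
    rfl
  have h4 : g ^ p = (g ^ p)⁻¹ := h1.symm.trans (h2.trans h3)
  have h5 : (g ^ p) ^ 2 = 1 := by
    rw [sq]
    nth_rewrite 1 [h4]
    exact inv_mul_cancel _
  have h6 : (g ^ p) ^ p = 1 := ((hHmem _).1 hgpH).2
  have h7 : orderOf (g ^ p) ∣ 2 := orderOf_dvd_of_pow_eq_one h5
  have h8 : orderOf (g ^ p) ∣ p := orderOf_dvd_of_pow_eq_one h6
  have hcop : Nat.Coprime 2 p := (Nat.coprime_primes Nat.prime_two hp.out).2 (Ne.symm hodd)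
  have h9 : orderOf (g ^ p) = 1 := Nat.eq_one_of_dvd_coprimes hcop h7 h8
  exact hgp (orderOf_eq_one_iff.1 h9)

end Torus

section Main

variable {Ω : Type*} [Group Ω] {S : Subgroup Ω} [Finite S] {F : FusionSystem S} {p : ℕ}
  [hp : Fact p.Prime] {P : Subgroup Ω}

/-- `P'` is strongly closed. -/
theorem stronglyClosed_commutator (hS : IsPGroup p S) (hF : F.IsSaturated p)
    (hP : F.StronglyClosed P) (D : GE p P)
    (h2 : p = 2 → ¬ ∃ (A : Type) (_ : CommGroup A), (∀ a : A, a ^ 2 = 1) ∧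
      Nonempty (↥P ≃* DihedralGroup 4 × A))
    (hodd : p ≠ 2 → ¬ ∃ (E : Type) (_ : Group E) (A : Type) (_ : CommGroup A),
      Cfsg.IsExtraspecial p E ∧ Nat.card E = p ^ 3 ∧ Monoid.exponent E = p ∧ (∀ a : A, a ^ p = 1) ∧
      Nonempty (↥P ≃* E × A)) :
    F.StronglyClosed ((commutator P).map P.subtype) := by
  classical
  have hPS : P ≤ S := hP.1
  haveI : Finite P := finite_of_le hPS
  set Z : Subgroup Ω := (commutator P).map P.subtype with hZdef
  have hZP : Z ≤ P := by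
    rintro _ ⟨a, -, rfl⟩
    exact a.2
  have hmemZ : ∀ a : P, (a : Ω) ∈ Z ↔ a ∈ commutator P := by
    intro a
    constructor
    · rintro ⟨b, hb, hab⟩
      have : b = a := Subtype.ext hab
      rwa [← this]
    · intro h
      exact ⟨a, h, rfl⟩
  have hZS : Z ≤ S := hZP.trans hPS
  -- `Z` is central in `S`
  have hconjZ : ∀ s ∈ S, ∀ a ∈ Z, s * a * s⁻¹ ∈ Z := by
    intro s hs a ha
    have hn : s ∈ Subgroup.normalizer (P : Set Ω) := by
      rw [Subgroup.mem_normalizer_iff]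
      intro b
      refine ⟨fun hb => StronglyClosed.conj_mem hP hs hb, fun hb => ?_⟩
      have := StronglyClosed.conj_mem hP (S.inv_mem hs) hb
      simpa [mul_assoc] using this
    let σ : MulAut P := normConj s hn
    have hchar := (inferInstance : (commutator P).Characteristic)
    have h1 : ∀ b : P, b ∈ commutator P → σ b ∈ commutator P := by
      intro b hb
      have h3 := hchar.fixed σ.symm
      have h4 : σ b ∈ (commutator P).comap σ.symm.toMonoidHom := by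
        show σ.symm (σ b) ∈ commutator P
        simpa using hb
      rwa [h3] at h4
    obtain ⟨b, hb, rfl⟩ := ha
    exact ⟨σ b, h1 b hb, rfl⟩
  have hgenZ : ∀ w ∈ Z, w ≠ 1 → ∀ v ∈ Z, ∃ k : ℕ, w ^ k = v := by
    rintro _ ⟨w, hw, rfl⟩ hw1 _ ⟨v, hv, rfl⟩
    obtain ⟨k, hk⟩ := D.gen hw (fun h => hw1 (by rw [h]; rfl)) hv
    exact ⟨k, congrArg Subtype.val hk⟩
  have hZc : ∀ a ∈ Z, ∀ s ∈ S, a * s = s * a := by
    haveI hN : (Z.subgroupOf S).Normal := ⟨fun n hn s => by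
      rw [Subgroup.mem_subgroupOf] at hn ⊢
      exact hconjZ s s.2 _ hn⟩
    have hne : Z.subgroupOf S ≠ ⊥ := by
      intro h
      apply D.ne_bot
      rw [eq_bot_iff]
      intro a ha
      have h1 : (a : Ω) ∈ Z := (hmemZ a).2 ha
      have h2 : (⟨a, hPS a.2⟩ : S) ∈ Z.subgroupOf S := h1
      rw [h, Subgroup.mem_bot] at h2
      have h4 : ((⟨a, hPS a.2⟩ : S) : Ω) = ((1 : S) : Ω) := congrArg Subtype.val h2
      exact Subtype.ext h4
    have h3 := Cfsg.Agent.Lib.PGroup.Basic.inf_center_ne_bot hS hne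
    rcases Subgroup.bot_or_exists_ne_one (Z.subgroupOf S ⊓ Subgroup.center S) with h4 | ⟨w, hw, hw1⟩
    · exact absurd h4 h3
    · intro a ha s hs
      have hwZ : (w : Ω) ∈ Z := hw.1
      obtain ⟨k, rfl⟩ := hgenZ _ hwZ (fun h => hw1 (Subtype.ext h)) _ ha
      have h5 := (Subgroup.mem_center_iff.1 hw.2) ⟨s, hs⟩
      have h6 : (w : Ω) * s = s * w := (congrArg Subtype.val h5).symm
      exact ((commute_iff_eq _ _).2 h6).pow_left k
  have hCS : centralizerIn S Z = S := by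
    refine le_antisymm inf_le_left (le_inf le_rfl ?_)
    intro s hs
    rw [Subgroup.mem_centralizer_iff]
    intro a ha
    exact hZc a ha s hs
  have hFC : F.IsFullyCentralized Z := by
    refine ⟨hZS, fun Q _ => ?_⟩
    rw [hCS]
    exact card_le_S centralizerIn_le
  have hrecZ := fullyCentralized_receptive hS hF hFC
  refine ⟨hZS, fun R hRZ φ hφ y => ?_⟩
  by_contra hne
  set z : Ω := (y : Ω) with hz
  set x : Ω := φ y with hx
  have hzZ : z ∈ Z := hRZ y.2
  have hz1 : z ≠ 1 := by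
    intro h
    have h1 : y = 1 := Subtype.ext h
    apply hne
    rw [hx, h1, map_one]
    exact Z.one_mem
  have hxP : x ∈ P := hP.2 R (hRZ.trans hZP) φ hφ y
  have hzR : Subgroup.zpowers z ≤ R := by
    rw [Subgroup.zpowers_le]
    exact y.2
  have hφ₀ : φ.comp (Subgroup.inclusion hzR) ∈ F.Hom (Subgroup.zpowers z) := res_mem hφ hzR
  have hφ₀z : (φ.comp (Subgroup.inclusion hzR)) ⟨z, Subgroup.mem_zpowers z⟩ = x := rfl
  have hrange : (φ.comp (Subgroup.inclusion hzR)).range = Subgroup.zpowers x := by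
    refine le_antisymm ?_ ?_
    · rintro _ ⟨⟨_, k, rfl⟩, rfl⟩
      refine ⟨k, ?_⟩
      show x ^ k = _
      rw [← hφ₀z, ← map_zpow]
      rfl
    · rw [Subgroup.zpowers_le]
      exact ⟨_, hφ₀z⟩
  obtain ⟨ρ, hρ, hρr, hρ1, -⟩ := exists_inv hφ₀ hrange
  have hρx : ρ ⟨x, Subgroup.mem_zpowers x⟩ = z := hρ1 ⟨z, Subgroup.mem_zpowers z⟩ _
  have hZz : Subgroup.zpowers z = Z := by
    refine le_antisymm (Subgroup.zpowers_le.2 hzZ) ?_
    intro v hv
    obtain ⟨k, rfl⟩ := hgenZ z hzZ hz1 v hv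
    exact Subgroup.pow_mem _ (Subgroup.mem_zpowers z) k
  obtain ⟨ψ₁, hψ₁, hag⟩ := hrecZ.2 (Subgroup.zpowers x) ρ hρ (by rw [hρr, hZz])
  -- the centralizer of `x` in `P`
  set H₀ : Subgroup Ω := P ⊓ Subgroup.centralizer {x} with hH₀
  have hmemC : ∀ a, a ∈ H₀ ↔ a ∈ P ∧ a * x = x * a := by
    intro a
    rw [hH₀, Subgroup.mem_inf, Subgroup.mem_centralizer_singleton_iff]
  have hH₀E : H₀ ≤ extender S (Subgroup.zpowers x) ρ := by
    intro a ha
    obtain ⟨ha1, ha2⟩ := (hmemC a).1 ha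
    apply centralizerIn_le_extender
    refine Subgroup.mem_inf.2 ⟨hPS ha1, ?_⟩
    rw [Subgroup.mem_centralizer_iff]
    intro b hb
    have hle : Subgroup.zpowers x ≤ Subgroup.centralizer {a} := by
      rw [Subgroup.zpowers_le, Subgroup.mem_centralizer_singleton_iff]
      exact ha2.symm
    have := hle hb
    rw [Subgroup.mem_centralizer_singleton_iff] at this
    exact this
  have hψ : ψ₁.comp (Subgroup.inclusion hH₀E) ∈ F.Hom H₀ := res_mem hψ₁ hH₀E
  set ψ : H₀ →* Ω := ψ₁.comp (Subgroup.inclusion hH₀E) with hψdef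
  have hxH₀ : x ∈ H₀ := (hmemC x).2 ⟨hxP, rfl⟩
  have hψx : ψ ⟨x, hxH₀⟩ = z := by
    have := hag x (Subgroup.mem_zpowers x) (hH₀E hxH₀)
    rw [hρx] at this
    exact this
  have hψP : ∀ a : H₀, ψ a ∈ P := hP.2 H₀ (fun a ha => ((hmemC a).1 ha).1) ψ hψ
  -- in `P`
  let xh : P := ⟨x, hxP⟩
  let zh : P := ⟨z, hZP hzZ⟩
  have hzC : zh ∈ commutator P := (hmemZ zh).1 hzZ
  have hzh1 : zh ≠ 1 := fun h => hz1 (congrArg Subtype.val h)
  have hxC : xh ∉ commutator P := fun h => hne ((hmemZ xh).2 h)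
  have hH : ∀ a : P, a ∈ H₀.subgroupOf P ↔ ⁅a, xh⁆ = 1 := by
    intro a
    rw [Subgroup.mem_subgroupOf, commutatorElement_eq_one_iff_mul_comm, hmemC]
    constructor
    · intro h
      exact Subtype.ext h.2
    · intro h
      exact ⟨a.2, congrArg Subtype.val h⟩
  let ι : H₀.subgroupOf P →* H₀ := MonoidHom.mk' (fun a => ⟨a.1.1, a.2⟩) (fun _ _ => rfl)
  let ψh : H₀.subgroupOf P →* P := (ψ.comp ι).codRestrict P (fun a => hψP _)
  have hψhinj : Function.Injective ψh := by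
    intro a b hab
    have h1 : ψ (ι a) = ψ (ι b) := congrArg Subtype.val hab
    have h2 : ι a = ι b := F.injective_of_mem hψ h1
    have h3 : ((ι a : H₀) : Ω) = ((ι b : H₀) : Ω) := congrArg Subtype.val h2
    exact Subtype.ext (Subtype.ext h3)
  have hxH' : xh ∈ H₀.subgroupOf P := hxH₀
  have hψhx : ψh ⟨xh, hxH'⟩ = zh := Subtype.ext hψx
  obtain ⟨hab, ⟨g, hxg⟩, hZce⟩ := D.main hH hzC hzh1 hxC ψh hψhinj hxH' hψhx
  have hxp : xh ^ p = 1 := by
    have hyp : y ^ p = 1 := by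
      have h3 := D.exp hzC
      have h4 : ((zh ^ p : P) : Ω) = ((1 : P) : Ω) := congrArg Subtype.val h3
      exact Subtype.ext h4
    apply Subtype.ext
    show x ^ p = 1
    rw [hx, ← map_pow, hyp, map_one]
  by_cases hp2 : p = 2
  · subst hp2
    by_cases hg2 : g ^ 2 = 1
    · exact h2 rfl (D.exceptional_two hxg hab hZce hxp hg2)
    · -- replace `g` by `x g`
      have h3 : ∃ k : ℕ, ⁅xh, g⁆ ^ k = g ^ 2 :=
        D.gen (comm_mem_commutator _ _) hxg (D.pow_mem g)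
      obtain ⟨k, hk⟩ := h3
      have hc2 : ⁅xh, g⁆ ^ 2 = 1 := D.exp (comm_mem_commutator _ _)
      have he : g ^ 2 = ⁅xh, g⁆ := by
        rcases Nat.even_or_odd' k with ⟨m, rfl | rfl⟩
        · rw [pow_mul, hc2, one_pow] at hk
          exact absurd hk.symm hg2
        · rw [pow_succ, pow_mul, hc2, one_pow, one_mul] at hk
          exact hk.symm
      have hxinv : xh⁻¹ = xh := inv_eq_of_mul_eq_one_left (by rw [← sq, hxp])
      have hxg' : ⁅xh, xh * g⁆ ≠ 1 := by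
        rw [Cfsg.Agent.Lib.PGroup.Extraspecial.comm_mul_right D.hc, commutatorElement_self, one_mul]
        exact hxg
      have hg' : (xh * g) ^ 2 = 1 := by
        have h4 : xh * g * xh = ⁅xh, g⁆ * g := by
          rw [commutatorElement_def, hxinv]
          group
        calc (xh * g) ^ 2 = xh * g * xh * g := by rw [sq]; group
          _ = ⁅xh, g⁆ * g * g := by rw [h4]
          _ = ⁅xh, g⁆ * g ^ 2 := by rw [sq, mul_assoc]
          _ = ⁅xh, g⁆ ^ 2 := by rw [he, sq]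
          _ = 1 := hc2
      exact h2 rfl (D.exceptional_two hxg' hab hZce hxp hg')
  by_cases hgp : g ^ p = 1
  · exact hodd hp2 (D.exceptional_odd hp2 hxg hab hZce hxp hgp)
  · -- the torus case
    have hiff := D.pow_eq_one_iff hp2 hxg hab hZce hxp hgp
    have hHmem : ∀ y, y ∈ H₀ ↔ y ∈ P ∧ y ^ p = 1 := by
      intro a
      constructor
      · intro ha
        have haP := ((hmemC a).1 ha).1
        refine ⟨haP, ?_⟩
        have h1 : (⟨a, haP⟩ : P) ∈ H₀.subgroupOf P := ha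
        have h2 := (hiff ⟨a, haP⟩).2 ((hH _).1 h1)
        exact congrArg Subtype.val h2
      · rintro ⟨ha, hap⟩
        have h1 := (hiff ⟨a, ha⟩).1 (Subtype.ext hap)
        exact (hH _).2 h1
    have hHab : ∀ a ∈ H₀, ∀ b ∈ H₀, a * b = b * a := by
      intro a ha b hb
      have h1 := (hH ⟨a, ((hmemC a).1 ha).1⟩).1 ha
      have h2 := (hH ⟨b, ((hmemC b).1 hb).1⟩).1 hb
      have h3 := hab _ _ h1 h2
      rw [commutatorElement_eq_one_iff_mul_comm] at h3
      exact congrArg Subtype.val h3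
    have hcommZ : ∀ a ∈ P, ∀ b ∈ P, ⁅a, b⁆ ∈ Z := by
      intro a ha b hb
      exact (hmemZ ⟨_, _⟩).2 (comm_mem_commutator (⟨a, ha⟩ : P) ⟨b, hb⟩)
    have hcen : ∀ y ∈ Z, ∀ a ∈ P, y * a = a * y := fun y hy a ha => hZc y hy a (hPS ha)
    have hZH : Z ≤ H₀ := by
      intro a ha
      exact (hmemC a).2 ⟨hZP ha, hcen a ha x hxP⟩
    have hgx : ⁅(g : Ω), x⁆ ≠ 1 := by
      intro h
      apply hxg
      rw [commutatorElement_eq_one_iff_mul_comm] at h ⊢
      exact Subtype.ext h.symm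
    refine torus_contra hS hF hP hp2 hHmem hHab hZH hcommZ hcen hgenZ g.2
      (fun h => hgp (Subtype.ext h)) ((hmemZ (g ^ p)).2 (D.pow_mem g)) ?_ hxH₀ hgx ?_ hzZ hz1 hne hψ hψx
    · intro a ha b hb
      exact congrArg Subtype.val (D.mul_pow hp2 ⟨a, ha⟩ ⟨b, hb⟩)
    · intro a ha h1
      refine (hH ⟨a, ha⟩).2 ?_
      rw [commutatorElement_eq_one_iff_mul_comm] at h1 ⊢
      exact Subtype.ext h1

end Main

/-- Let F be a saturated fusion system over a finite p-group S and P a subgroup of S strongly closed in F that is generalized extraspecial (its Frattini subgroup equals its commutator subgroup and has order p) and not isomorphic to E × A with A elementary abelian and E dihedral of order 8 (p = 2) or extraspecial of order p³ and exponent p (p odd). Then P is normal in F. -/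
theorem result {Ω : Type*} [Group Ω] {S : Subgroup Ω} [Finite S] (p : ℕ) [Fact p.Prime] (hS : IsPGroup p S) (F : Cfsg.FusionSystem S) (hF : F.IsSaturated p) (P : Subgroup Ω) (hP : F.StronglyClosed P) (hge : frattini ↥P = commutator ↥P ∧ Nat.card ↥(commutator ↥P) = p) (h2 : p = 2 → ¬ ∃ (A : Type) (_ : CommGroup A), (∀ a : A, a ^ 2 = 1) ∧ Nonempty (↥P ≃* DihedralGroup 4 × A)) (hodd : p ≠ 2 → ¬ ∃ (E : Type) (_ : Group E) (A : Type) (_ : CommGroup A), Cfsg.IsExtraspecial p E ∧ Nat.card E = p ^ 3 ∧ Monoid.exponent E = p ∧ (∀ a : A, a ^ p = 1) ∧ Nonempty (↥P ≃* E × A)) : F.IsNormal P := by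
  classical
  haveI : Finite P := finite_of_le hP.1
  have D : GE p P := ⟨isPGroup_of_le hS hP.1, hge.1, hge.2⟩
  have hZ := stronglyClosed_commutator hS hF hP D h2 hodd
  set Z : Subgroup Ω := (commutator P).map P.subtype with hZdef
  refine isNormal_of_series hS hF hP (E := fun i => if i = 0 then ⊥ else if i = 1 then Z else P)
    (n := 2) rfl rfl ?_ ?_
  · intro i hi
    by_cases h0 : i = 0
    · simp only [h0, if_true]
      exact stronglyClosed_bot
    · by_cases h1 : i = 1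
      · simp only [h1, one_ne_zero, if_false, if_true]
        exact hZ
      · simp only [h0, h1, if_false]
        exact hP
  · intro i hi
    have hi' : i = 0 ∨ i = 1 := by omega
    rcases hi' with rfl | rfl
    · simp only [zero_add, one_ne_zero, if_false, if_true]
      rw [Subgroup.commutator_le]
      rintro a ha _ ⟨z, hz, rfl⟩
      have h3 := (Subgroup.mem_center_iff.1 (D.le_center hz)) ⟨a, ha⟩
      have h4 : a * (z : Ω) = z * a := congrArg Subtype.val h3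
      simp only [Subgroup.coe_subtype, Subgroup.mem_bot]
      rw [commutatorElement_eq_one_iff_mul_comm]
      exact h4
    · simp only [Nat.reduceAdd, OfNat.ofNat_ne_zero, OfNat.ofNat_ne_one, one_ne_zero, if_false, if_true]
      rw [Subgroup.commutator_le]
      intro a ha b hb
      exact ⟨⁅(⟨a, ha⟩ : P), ⟨b, hb⟩⁆, comm_mem_commutator _ _, rfl⟩

end Cfsg.Agent.S5233
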