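import Cfsg.Statements.S5245
import Mathlib
import Cfsg.Agent.Lib.Fusion.SplitSystem
import Cfsg.Agent.Lib.Fusion.Saturated
import Cfsg.Agent.Lib.Fusion.TateInner
import Cfsg.Agent.Lib.Fusion.Hyperfocal
import Cfsg.Agent.Lib.Fusion.FocalClosed
-- import your own Cfsg.Agent.* helpers here

set_option autoImplicit false
open Cfsg

namespace Cfsg.Agent.S5245


open Cfsg.FusionSystem Cfsg.Agent.Lib.Fusion.Basic Cfsg.Agent.Lib.Fusion.SplitSystem

theorem main_aux {Ω : Type*} [Group Ω] {S : Subgroup Ω} [Finite S] (p : ℕ) [Fact p.Prime] (hS : IsPGroup p S) (F : Cfsg.FusionSystem S) (hF : F.IsSaturated p)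
    (hsp : ∀ (T : Subgroup Ω) (E : Cfsg.FusionSystem T), E.IsSaturated p → E.IsSubsystemOf F → (T = S ∧ ∀ P : Subgroup Ω, E.Hom P = F.Hom P) ∨ (∀ P : Subgroup Ω, E.Hom P = (Cfsg.innerFusionSystem T).Hom P))
    (α : MulAut S) (hαF : α ∈ F.autGroup S) (hq : (orderOf α).Prime) (hqp : orderOf α ≠ p)
    (hEF : ∀ P : Subgroup Ω, (splitSystem S (Subgroup.zpowers α)).Hom P = F.Hom P) :
    F.IsNormal S ∧ F.focalSubgroup = S ∧ F.hyperfocalSubgroup p = S ∧ ∃ (q : ℕ) (β : MulAut ↥S), q.Prime ∧ q ≠ p ∧ β ∈ F.autGroup S ∧ orderOf β = q ∧ (F.autGroup S : Subgroup (MulAut ↥S)) = Cfsg.Inn ↥S ⊔ Subgroup.zpowers β := by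
  classical
  have hpp : p.Prime := Fact.out
  have hcop : (orderOf α).Coprime p := (Nat.coprime_primes hq hpp).2 hqp
  have hαne : α ≠ 1 := by
    rintro rfl
    rw [orderOf_one] at hq
    exact Nat.not_prime_one hq
  -- normality
  have hnorm : F.IsNormal S := by
    refine ⟨le_rfl, fun P φ hφ => ?_⟩
    rw [← hEF] at hφ
    obtain ⟨hP, γ, hγ, e⟩ := hφ
    have hle : P ⊔ S ≤ S := sup_le hP le_rfl
    refine ⟨(S.subtype.comp (MulEquiv.toMonoidHom γ)).comp (Subgroup.inclusion hle), ?_, fun x => ?_, ?_⟩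
    · rw [← hEF]
      exact ⟨hle, γ, hγ, fun x => rfl⟩
    · exact (e x).symm
    · ext y
      constructor
      · rintro ⟨x, -, rfl⟩
        exact (γ _).2
      · intro hy
        refine ⟨⟨((γ⁻¹ ⟨y, hy⟩ : S) : Ω), le_sup_right (a := P) (γ⁻¹ ⟨y, hy⟩ : S).2⟩, (γ⁻¹ ⟨y, hy⟩ : S).2, ?_⟩
        show ((γ (γ⁻¹ ⟨y, hy⟩) : S) : Ω) = y
        simp
  -- the hyperfocal subgroup
  have hhyp : F.hyperfocalSubgroup p = S := by
    by_contra hne
    set H := F.hyperfocalSubgroup p with hH
    have hle : H ≤ S := Cfsg.Agent.Lib.Fusion.Hyperfocal.hyperfocal_le_S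
    have hcl : F.StronglyClosed H := Cfsg.Agent.Lib.Fusion.Hyperfocal.stronglyClosed_hyperfocal hS hF
    have hmem : ∀ γ : MulAut S, γ ∈ F.autGroup S → ∀ x : S, (x : Ω) ∈ H → ((γ x : S) : Ω) ∈ H :=
      fun γ hγ x hx => Cfsg.Agent.Lib.Fusion.FocalClosed.map_mem_of_stronglyClosed hcl (autGroup_mem_hom le_rfl hγ) x hx
    let α₀ : MulAut H :=
      { toFun := fun x => ⟨α ⟨x, hle x.2⟩, hmem α hαF _ x.2⟩
        invFun := fun x => ⟨α⁻¹ ⟨x, hle x.2⟩, hmem α⁻¹ (inv_mem hαF) _ x.2⟩
        left_inv := fun x => by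
          apply Subtype.ext
          show ((α⁻¹ (α ⟨x, hle x.2⟩) : S) : Ω) = x
          simp
        right_inv := fun x => by
          apply Subtype.ext
          show ((α (α⁻¹ ⟨x, hle x.2⟩) : S) : Ω) = x
          simp
        map_mul' := fun x y => by
          apply Subtype.ext
          show ((α ⟨(x * y : H), hle (x * y).2⟩ : S) : Ω) = ((α ⟨x, hle x.2⟩ * α ⟨y, hle y.2⟩ : S) : Ω)
          rw [← map_mul]
          rfl }
    have hα₀ : ∀ x : H, ((α₀ x : H) : Ω) = α ⟨x, hle x.2⟩ := fun _ => rfl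
    have hpow : ∀ (k : ℕ) (x : H), (((α₀ ^ k) x : H) : Ω) = ((α ^ k) ⟨x, hle x.2⟩ : S) := by
      intro k
      induction k with
      | zero => intro x; rfl
      | succ k ih =>
        intro x
        rw [pow_succ', MulAut.mul_apply, hα₀, pow_succ', MulAut.mul_apply]
        congr 2
        exact Subtype.ext (ih x)
    have hα₀q : α₀ ^ orderOf α = 1 := by
      ext x
      rw [hpow, pow_orderOf_eq_one]
      rfl
    have hα₀ne : α₀ ≠ 1 := by
      intro h1
      apply hαne
      ext y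
      set h : S := y⁻¹ * α y with hh
      have hhH : (h : Ω) ∈ H := by
        have h2 := Cfsg.Agent.Lib.Fusion.Hyperfocal.mem_hyperfocal_of_coprime (F := F) (p := p) (P := S) le_rfl
          (α := ⟨α, hαF⟩) (by rw [Subgroup.orderOf_mk]; exact hcop) y
        exact h2
      have hαh : α h = h := by
        have h2 : α₀ ⟨h, hhH⟩ = ⟨h, hhH⟩ := by rw [h1]; rfl
        exact Subtype.ext (congrArg (fun t : H => (t : Ω)) h2)
      have hαy : α y = y * h := by rw [hh]; group
      have hk : ∀ k : ℕ, (α ^ k) y = y * h ^ k := by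
        intro k
        induction k with
        | zero => simp
        | succ k ih =>
          rw [pow_succ', MulAut.mul_apply, ih, map_mul, map_pow, hαh, hαy, pow_succ']
          group
      have h3 := hk (orderOf α)
      rw [pow_orderOf_eq_one] at h3
      have h4 : h ^ orderOf α = 1 := by
        have : y = y * h ^ orderOf α := h3
        exact (mul_eq_left.1 this.symm)
      have h5 : orderOf h ∣ orderOf α := orderOf_dvd_of_pow_eq_one h4
      obtain ⟨k, hk'⟩ := (IsPGroup.iff_orderOf.1 hS) h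
      rw [hk'] at h5
      have h6 : p ^ k = 1 := Nat.Coprime.eq_one_of_dvd (Nat.Coprime.pow_left k hcop.symm) h5
      have h7 : h = 1 := by
        rw [h6] at hk'
        exact orderOf_eq_one_iff.1 hk'
      have h8 : α y = y := by rw [hαy, h7, mul_one]
      rw [h8]
      rfl
    have hord₀ : (orderOf α₀).Coprime p := by
      have h1 : orderOf α₀ ∣ orderOf α := orderOf_dvd_of_pow_eq_one hα₀q
      exact Nat.Coprime.coprime_dvd_left h1 hcop
    haveI hfH : Finite H := finite_of_le hle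
    have hpH : IsPGroup p H := isPGroup_of_le hS hle
    have hα₀F : α₀ ∈ F.autGroup H := by
      apply mem_autGroup_of_mem
      have e : H.subtype.comp (MulEquiv.toMonoidHom α₀) =
          (S.subtype.comp (MulEquiv.toMonoidHom α)).comp (Subgroup.inclusion hle) := by
        ext x
        rfl
      rw [e]
      exact res_mem (autGroup_mem_hom le_rfl hαF) hle
    obtain ⟨h1, h2, h3⟩ := splitSystem_props hpH hle hα₀F hord₀ hα₀ne
    rcases hsp H _ h1 h2 with h4 | h4
    · exact hne h4.1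
    · exact h3 h4
  have hfoc : F.focalSubgroup = S := by
    refine le_antisymm ?_ ?_
    · refine (Subgroup.closure_le _).2 ?_
      rintro _ ⟨P, φ, x, hφ, rfl⟩
      exact S.mul_mem (S.inv_mem ((F.le_of_mem hφ).1 x.2)) ((F.le_of_mem hφ).2 x)
    · refine hhyp.ge.trans ?_
      refine Cfsg.Agent.Lib.Fusion.Hyperfocal.hyperfocal_le fun P hP a _ x => ?_
      refine Subgroup.subset_closure ⟨P, P.subtype.comp (MulEquiv.toMonoidHom (a : MulAut P)), x,
        autGroup_mem_hom hP a.2, rfl⟩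
  refine ⟨hnorm, hfoc, hhyp, orderOf α, α, hq, hqp, hαF, rfl, ?_⟩
  ext γ
  rw [mem_autGroup_iff le_rfl, ← hEF, ← mem_autGroup_iff le_rfl, autGroup_autSystem]

/-- Let F be an extremely sparse fusion system over a finite p-group S (saturated, not the inner system, and every saturated fusion system over any subgroup T of S contained in F is F itself or the inner system of T). Then S is normal in F, the focal and hyperfocal subgroups of F are both S, and Aut_F(S) is generated by the inner automorphisms of S together with a single automorphism of prime order q ≠ p (F is the fusion system of the semidirect product of S by a cyclic group of prime order). -/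
theorem result {Ω : Type*} [Group Ω] {S : Subgroup Ω} [Finite S] (p : ℕ) [Fact p.Prime] (hS : IsPGroup p S) (F : Cfsg.FusionSystem S) (hF : F.IsSaturated p) (hxs : ¬ (∀ P : Subgroup Ω, F.Hom P = (Cfsg.innerFusionSystem S).Hom P) ∧ ∀ (T : Subgroup Ω) (E : Cfsg.FusionSystem T), E.IsSaturated p → E.IsSubsystemOf F → (T = S ∧ ∀ P : Subgroup Ω, E.Hom P = F.Hom P) ∨ (∀ P : Subgroup Ω, E.Hom P = (Cfsg.innerFusionSystem T).Hom P)) : F.IsNormal S ∧ F.focalSubgroup = S ∧ F.hyperfocalSubgroup p = S ∧ ∃ (q : ℕ) (β : MulAut ↥S), q.Prime ∧ q ≠ p ∧ β ∈ F.autGroup S ∧ orderOf β = q ∧ (F.autGroup S : Subgroup (MulAut ↥S)) = Cfsg.Inn ↥S ⊔ Subgroup.zpowers β := by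
  classical
  obtain ⟨hni, hsp⟩ := hxs
  have hpp : p.Prime := Fact.out
  have h1 : ∃ (Q : Subgroup Ω) (_ : Q ≤ S) (α : MulAut Q), α ∈ F.autGroup Q ∧ (orderOf α).Prime ∧ orderOf α ≠ p := by
    by_contra hcon
    apply hni
    apply Cfsg.Agent.Lib.Fusion.TateInner.hom_eq_inner_of_hyperfocal_le_bot hS hF
    refine Cfsg.Agent.Lib.Fusion.Hyperfocal.hyperfocal_le fun P hP α hc x => ?_
    rw [Subgroup.mem_bot]
    by_contra hne
    haveI hfin : Finite (F.autGroup P) := Cfsg.Agent.Lib.Fusion.Saturated.finite_autGroup hP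
    have hα1 : orderOf α ≠ 1 := by
      intro h
      rw [orderOf_eq_one_iff] at h
      rw [h] at hne
      simp at hne
    have hq : (orderOf α).minFac.Prime := Nat.minFac_prime hα1
    have hdvd : (orderOf α).minFac ∣ orderOf α := Nat.minFac_dvd _
    have hord : orderOf (α ^ (orderOf α / (orderOf α).minFac)) = (orderOf α).minFac :=
      orderOf_pow_orderOf_div (orderOf_pos α).ne' hdvd
    apply hcon
    have e : orderOf ((α : MulAut P) ^ (orderOf α / (orderOf α).minFac)) = (orderOf α).minFac := by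
      have e1 : (α : MulAut P) ^ (orderOf α / (orderOf α).minFac) =
          ((α ^ (orderOf α / (orderOf α).minFac) : F.autGroup P) : MulAut P) := rfl
      rw [e1, Subgroup.orderOf_coe, hord]
    refine ⟨P, hP, (α : MulAut P) ^ (orderOf α / (orderOf α).minFac), Subgroup.pow_mem _ α.2 _, ?_, ?_⟩
    · rw [e]
      exact hq
    · rw [e]
      intro h
      rw [h] at hdvd
      have := Nat.dvd_gcd hdvd (dvd_refl p)
      rw [Nat.Coprime.gcd_eq_one hc] at this
      exact hpp.one_lt.ne' (Nat.dvd_one.1 this)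
  obtain ⟨Q, hQ, α, hαF, hq, hqp⟩ := h1
  have hcop : (orderOf α).Coprime p := (Nat.coprime_primes hq hpp).2 hqp
  have hαne : α ≠ 1 := by
    rintro rfl
    rw [orderOf_one] at hq
    exact Nat.not_prime_one hq
  haveI hfQ : Finite Q := finite_of_le hQ
  obtain ⟨h2, h3, h4⟩ := splitSystem_props (isPGroup_of_le hS hQ) hQ hαF hcop hαne
  rcases hsp Q _ h2 h3 with ⟨rfl, h5⟩ | h5
  · exact main_aux p hS F hF hsp α hαF hq hqp h5
  · exact absurd h5 h4

end Cfsg.Agent.S5245
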