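import Cfsg.Statements.S5251
import Mathlib
import Cfsg.Agent.Lib.Fusion.RadicalConj
import Cfsg.Agent.Lib.Fusion.Chain
-- import your own Cfsg.Agent.* helpers here

set_option autoImplicit false
open Cfsg

namespace Cfsg.Agent.S5251

open Cfsg.FusionSystem Cfsg.Agent.Lib.Fusion.Basic Cfsg.Agent.Lib.Fusion.Saturated
open Cfsg.Agent.Lib.Fusion.NormalCR Cfsg.Agent.Lib.Fusion.Chain Cfsg.Agent.Lib.Fusion.RadicalConj

/-- Let F be a saturated fusion system over a finite p-group S, E a normal subsystem of F over T, and P an F-centric subgroup of S such that P ∩ T is not E-centric. Then some F-conjugate P* of P satisfies Out_S(P*) ∩ O_p(Out_F(P*)) ≠ 1: there is an element of N_S(P*) outside P* whose conjugation action on P* lies in O_p(Aut_F(P*)). In particular P is not both centric and radical in F. -/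
theorem result {Ω : Type*} [Group Ω] {S : Subgroup Ω} [Finite S] (p : ℕ) [Fact p.Prime] (hS : IsPGroup p S) (F : Cfsg.FusionSystem S) (hF : F.IsSaturated p) {T : Subgroup Ω} (E : Cfsg.FusionSystem T) (hE : E.IsNormalIn F p) (P : Subgroup Ω) (hP : F.IsCentric P) (hPT : ¬ E.IsCentric (P ⊓ T)) : (∃ φ ∈ F.Hom P, ∃ x ∈ S ⊓ Subgroup.normalizer (φ.range : Set Ω), x ∉ φ.range ∧ ∃ α ∈ ((Cfsg.pCore p ↥(F.autGroup φ.range)).map (F.autGroup φ.range).subtype : Subgroup (MulAut ↥φ.range)), ∀ y : ↥φ.range, ((α y : ↥φ.range) : Ω) = x * (y : Ω) * x⁻¹) ∧ ¬ F.IsRadical p P := by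
  classical
  obtain ⟨⟨-, -, hsub, hT, -, -⟩, -⟩ := hE
  have hTS : T ≤ S := hT.1
  have hPS : P ≤ S := hP.1
  have hUT : P ⊓ T ≤ T := inf_le_right
  have hUS : P ⊓ T ≤ S := hUT.trans hTS
  obtain ⟨Q₀, hQ₀, hQ₀c⟩ : ∃ Q₀, E.IsConj (P ⊓ T) Q₀ ∧ ¬ centralizerIn T Q₀ ≤ Q₀ := by
    by_contra hcon
    push Not at hcon
    exact hPT ⟨hUT, hcon⟩
  obtain ⟨Us, hconj, hFN⟩ := exists_fullyNormalized (F := F) hUS
  obtain ⟨ρ, hρ, hρv, hρm⟩ := exists_map_to_fullyNormalized hS hF hFN hconj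
  have hPN : P ≤ normalizerIn S (P ⊓ T) := by
    intro x hx
    refine ⟨hPS hx, Subgroup.mem_normalizer_iff.2 fun h => ?_⟩
    have hxT := StronglyClosed.le_normalizer hT (hPS hx)
    have h1 := (Subgroup.mem_normalizer_iff.1 hxT) h
    have h2 : h ∈ P ↔ x * h * x⁻¹ ∈ P := by
      constructor
      · intro hh
        exact P.mul_mem (P.mul_mem hx hh) (P.inv_mem hx)
      · intro hh
        have e : h = x⁻¹ * (x * h * x⁻¹) * x := by group
        rw [e]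
        exact P.mul_mem (P.mul_mem (P.inv_mem hx) hh) hx
    constructor
    · rintro ⟨a, b⟩
      exact ⟨h2.1 a, h1.1 b⟩
    · rintro ⟨a, b⟩
      exact ⟨h2.2 a, h1.2 b⟩
  let φ : P →* Ω := ρ.comp (Subgroup.inclusion hPN)
  have hφ : φ ∈ F.Hom P := res_mem hρ hPN
  have hφT : ∀ x : P, φ x ∈ T → (x : Ω) ∈ T := by
    intro x hx
    obtain ⟨σ, hσ, -, hσa, -⟩ := exists_inv hφ (rfl : φ.range = φ.range)
    have hm : φ x ∈ φ.range := ⟨x, rfl⟩
    have h1 := hT.2 (φ.range ⊓ T) inf_le_right _ (res_mem hσ (inf_le_left : φ.range ⊓ T ≤ φ.range))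
      ⟨φ x, hm, hx⟩
    have h2 : σ ⟨φ x, hm⟩ ∈ T := h1
    rwa [hσa x hm] at h2
  have hPsT : ∀ y ∈ φ.range, y ∈ T → y ∈ Us := by
    rintro _ ⟨x, rfl⟩ hy
    have hxT := hφT x hy
    rw [← hρm]
    exact ⟨Subgroup.inclusion hPN x, Subgroup.mem_subgroupOf.2 ⟨x.2, hxT⟩, rfl⟩
  have hUsPs : Us ≤ φ.range := by
    rw [← hρm]
    rintro _ ⟨u, hu, rfl⟩
    have hu' : (u : Ω) ∈ P ⊓ T := Subgroup.mem_subgroupOf.1 hu
    exact ⟨⟨u, hu'.1⟩, rfl⟩
  have hUsT : Us ≤ T := by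
    rw [← hρm]
    rintro _ ⟨u, hu, rfl⟩
    have hu' : (u : Ω) ∈ P ⊓ T := Subgroup.mem_subgroupOf.1 hu
    exact hT.2 (P ⊓ T) hUT _ (res_mem hρ (fun x hx => ⟨hPS hx.1, (hPN hx.1).2⟩ : P ⊓ T ≤ normalizerIn S (P ⊓ T))) ⟨u, hu'⟩
  -- `C_T(Us)` is not in `Us`
  have hcent : ¬ centralizerIn T Us ≤ Us := by
    intro hle
    apply hQ₀c
    obtain ⟨ψ₀, hψ₀, hψ₀r⟩ := hQ₀
    have hQ₀T : Q₀ ≤ T := hψ₀r ▸ range_le hψ₀
    have hQ₀F : F.IsConj Q₀ Us :=
      Cfsg.Agent.Lib.Fusion.Basic.IsConj.trans (Cfsg.Agent.Lib.Fusion.Basic.IsConj.symm ⟨ψ₀, hsub _ hψ₀, hψ₀r⟩) hconj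
    obtain ⟨ρ', hρ', hr'⟩ := hQ₀F
    obtain ⟨β, hβ, hβag⟩ := (fullyNormalized_receptive hS hF hFN).2 Q₀ ρ' hρ' hr'
    intro c hc
    have hQ₀S : Q₀ ≤ S := hQ₀T.trans hTS
    have hcE : c ∈ extender S Q₀ ρ' := centralizerIn_le_extender ⟨hTS hc.1, hc.2⟩
    have hQ₀E : Q₀ ≤ extender S Q₀ ρ' := le_extender hQ₀S (map_mem_S hρ')
    have h1 := hT.2 (extender S Q₀ ρ' ⊓ T) inf_le_right _ (res_mem hβ inf_le_left) ⟨c, hcE, hc.1⟩
    have h1' : β ⟨c, hcE⟩ ∈ T := h1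
    have h2 : β ⟨c, hcE⟩ ∈ Subgroup.centralizer (Us : Set Ω) := by
      rw [Subgroup.mem_centralizer_iff]
      intro y hy
      rw [← hr'] at hy
      obtain ⟨q, rfl⟩ := hy
      have h3 := hβag q q.2 (hQ₀E q.2)
      rw [← h3, ← map_mul, ← map_mul]
      congr 1
      apply Subtype.ext
      exact (Subgroup.mem_centralizer_iff.1 hc.2 q q.2)
    have h4 : β ⟨c, hcE⟩ ∈ Us := hle ⟨h1', h2⟩
    rw [← hr'] at h4
    obtain ⟨q, hq⟩ := h4
    have h3 := hβag q q.2 (hQ₀E q.2)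
    rw [← h3] at hq
    have h5 := F.injective_of_mem hβ hq
    have h6 : (q : Ω) = c := congrArg Subtype.val h5
    rw [← h6]
    exact q.2
  obtain ⟨c, hcC, hcU⟩ := SetLike.not_le_iff_exists.1 hcent
  have hcPs : c ∉ φ.range := fun h => hcU (hPsT c h hcC.1)
  have hfinS : ∀ {A : Subgroup Ω}, A ≤ S → Finite A := fun h => finite_of_le h
  have hPsS : φ.range ≤ S := range_le hφ
  -- elements of `Ps` normalize `Us`
  have hnUs : ∀ y ∈ φ.range, ∀ u ∈ Us, y * u * y⁻¹ ∈ Us := by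
    intro y hy u hu
    refine hPsT _ (φ.range.mul_mem (φ.range.mul_mem hy (hUsPs hu)) (φ.range.inv_mem hy)) ?_
    exact StronglyClosed.conj_mem hT (hPsS hy) (hUsT hu)
  have hnD : ∀ y ∈ φ.range, ∀ z ∈ centralizerIn T Us, y * z * y⁻¹ ∈ centralizerIn T Us := by
    intro y hy z hz
    refine ⟨StronglyClosed.conj_mem hT (hPsS hy) hz.1, Subgroup.mem_centralizer_iff.2 fun u hu => ?_⟩
    have h1 := hnUs y⁻¹ (φ.range.inv_mem hy) u hu
    have h2 := Subgroup.mem_centralizer_iff.1 hz.2 _ h1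
    simp only [inv_inv] at h2
    calc u * (y * z * y⁻¹) = y * ((y⁻¹ * u * y) * z) * y⁻¹ := by group
      _ = y * (z * (y⁻¹ * u * y)) * y⁻¹ := by rw [h2]
      _ = (y * z * y⁻¹) * u := by group
  have hPsND : φ.range ≤ Subgroup.normalizer (centralizerIn T Us : Set Ω) := by
    intro y hy
    rw [Subgroup.mem_normalizer_iff]
    intro z
    constructor
    · exact hnD y hy z
    · intro hz
      have h1 := hnD y⁻¹ (φ.range.inv_mem hy) _ hz
      have e : y⁻¹ * (y * z * y⁻¹) * y⁻¹⁻¹ = z := by group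
      rwa [e] at h1
  have hDS : centralizerIn T Us ≤ S := fun z hz => hTS hz.1
  have hS₁ : φ.range ⊔ centralizerIn T Us ≤ S := sup_le hPsS hDS
  haveI : Finite ↥(φ.range ⊔ centralizerIn T Us) := finite_of_le hS₁
  obtain ⟨x, hxD, hxN, hxP⟩ : ∃ x ∈ centralizerIn T Us, x ∈ Subgroup.normalizer (φ.range : Set Ω) ∧ x ∉ φ.range := by
    by_contra hcon
    push Not at hcon
    have h1 := le_of_normalizer_inf_le (S := φ.range ⊔ centralizerIn T Us) (p := p) (P := φ.range)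
      (Q := centralizerIn T Us) (hS.to_le hS₁) le_sup_left le_sup_right
      (sup_le hPsND Subgroup.le_normalizer) hcon
    exact hcPs (h1 hcC)
  have hxS : x ∈ S := hDS hxD
  have hPsC : F.IsCentric φ.range :=
    ⟨hPsS, fun Q hc => hP.2 Q (Cfsg.Agent.Lib.Fusion.Basic.IsConj.trans ⟨φ, hφ, rfl⟩ hc)⟩
  haveI : Finite φ.range := finite_of_le hPsS
  have hPsp : IsPGroup p φ.range := isPGroup_of_le hS hPsS
  have hmem : normConj x hxN ∈ F.autGroup φ.range :=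
    autInducedBy_le_autGroup hPsS (normConj_mem_autInducedBy hxS hxN)
  have hcore : (⟨normConj x hxN, hmem⟩ : F.autGroup φ.range) ∈ Cfsg.pCore p (F.autGroup φ.range) := by
    refine mem_pCore_of_stab_chain hPsp
      (D := fun i => if i = 0 then ⊥ else if i = 1 then T.subgroupOf φ.range else ⊤) (m := 2) rfl rfl ?_ ?_
    · intro i hi α hα y hy
      obtain rfl | rfl | rfl : i = 0 ∨ i = 1 ∨ i = 2 := by omega
      · have hy' : y = 1 := hy
        rw [hy', map_one]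
        exact one_mem _
      · exact StronglyClosed.aut_mem hT hPsS hα y hy
      · trivial
    · intro i hi y hy
      obtain rfl | rfl : i = 0 ∨ i = 1 := by omega
      · have hy' : (y : Ω) ∈ T := hy
        have hyUs := hPsT y y.2 hy'
        have h1 := Subgroup.mem_centralizer_iff.1 hxD.2 y hyUs
        have h2 : y⁻¹ * (⟨normConj x hxN, hmem⟩ : F.autGroup φ.range).1 y = 1 := by
          apply Subtype.ext
          show (y : Ω)⁻¹ * (x * y * x⁻¹) = 1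
          rw [← h1]
          group
        rw [h2]
        exact one_mem _
      · show (y : Ω)⁻¹ * (x * y * x⁻¹) ∈ T
        have h1 := StronglyClosed.conj_mem hT (S.inv_mem (hPsS y.2)) hxD.1
        have e : (y : Ω)⁻¹ * (x * y * x⁻¹) = ((y : Ω)⁻¹ * x * ((y : Ω)⁻¹)⁻¹) * x⁻¹ := by group
        rw [e]
        exact T.mul_mem h1 (T.inv_mem hxD.1)
  refine ⟨⟨φ, hφ, x, ⟨hxS, hxN⟩, hxP, normConj x hxN, ⟨⟨_, hmem⟩, hcore, rfl⟩, fun y => rfl⟩, fun hRad => ?_⟩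
  have hRs := isRadical_of_conj hφ rfl hRad
  exact hxP (mem_of_conj_mem_pCore hPsC hRs hxS hcore (fun y => rfl))


end Cfsg.Agent.S5251
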