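import Cfsg.Statements.S5254
import Mathlib
import Cfsg.Agent.Lib.Fusion.AbelianMax

set_option autoImplicit false
open Cfsg

namespace Cfsg.Agent.S5254

/-- Let p be an odd prime, S a finite nonabelian p-group with a unique abelian subgroup A of index p, and F a saturated fusion system over S. Then every F-essential subgroup P is A, or Z(S)⟨x⟩ for some x ∈ S outside A, or (when the second centre Z₂(S) lies in A) Z₂(S)⟨x⟩ for some x ∈ S outside A; and P has index p in its normalizer in S. -/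
theorem result {Ω : Type*} [Group Ω] {S : Subgroup Ω} [Finite S] (p : ℕ) [Fact p.Prime] (hS : IsPGroup p S) (F : Cfsg.FusionSystem S) (hF : F.IsSaturated p) (hp : p ≠ 2) (hna : ¬ IsMulCommutative ↥S) (A : Subgroup Ω) (hA : A ≤ S ∧ IsMulCommutative ↥A ∧ (A.subgroupOf S).index = p) (huniq : ∀ B : Subgroup Ω, B ≤ S → IsMulCommutative ↥B → (B.subgroupOf S).index = p → B = A) (P : Subgroup Ω) (hP : F.IsEssential p P) : (P = A ∨ (∃ x ∈ S, x ∉ A ∧ P = (S ⊓ Subgroup.centralizer (S : Set Ω)) ⊔ Subgroup.zpowers x) ∨ (((upperCentralSeries ↥S 2).map S.subtype) ≤ A ∧ ∃ x ∈ S, x ∉ A ∧ P = ((upperCentralSeries ↥S 2).map S.subtype) ⊔ Subgroup.zpowers x)) ∧ (P.subgroupOf (S ⊓ Subgroup.normalizer (P : Set Ω))).index = p := by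
  classical
  have D : Cfsg.Agent.Lib.Fusion.AbelianMax.Data S A p := ⟨hS, hA.1, fun a ha b hb => congrArg Subtype.val
    (hA.2.1.is_comm.comm (⟨a, ha⟩ : A) ⟨b, hb⟩), hA.2.2⟩
  by_cases hPA : P = A
  · subst hPA
    refine ⟨Or.inl rfl, ?_⟩
    have hN : S ⊓ Subgroup.normalizer (P : Set Ω) = S := by
      refine inf_eq_left.2 fun s hs => Subgroup.mem_normalizer_iff.2 fun h => ?_
      refine ⟨fun hh => D.conj_mem hs hh, fun hh => ?_⟩
      have h1 := D.conj_mem (S.inv_mem hs) hh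
      have e : s⁻¹ * (s * h * s⁻¹) * s⁻¹⁻¹ = h := by group
      rwa [e] at h1
    rw [hN]
    exact hA.2.2
  obtain ⟨x, hx, hxA⟩ := D.exists_x hP.1 hPA
  refine ⟨Or.inr ?_, D.index_normalizer hF hP hx hxA⟩
  by_cases hab : ∀ s ∈ P, ∀ t ∈ P, s * t = t * s
  · exact Or.inl ⟨x, hP.1.1 hx, hxA, D.eq_of_abelian hP.1 hx hxA hab⟩
  · obtain ⟨h1, h2, -⟩ := D.eq_of_nonabelian hF hP hx hxA hab
    exact Or.inr ⟨h1, x, hP.1.1 hx, hxA, h2⟩

end Cfsg.Agent.S5254
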