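import Cfsg.Statements.S5272
import Mathlib
import Cfsg.Agent.Lib.Fusion.GT.Inner
import Cfsg.Agent.Lib.Fusion.GT.FamilyF
-- import your own Cfsg.Agent.* helpers here

set_option autoImplicit false
open Cfsg

namespace Cfsg.Agent.S5272

/-- An axiomatic Glauberman–Thompson nilpotency criterion for fusion systems. Let p be an odd prime, F a saturated fusion system over a finite p-group S, and 𝒜 a nonempty family of abelian subgroups of S. For Q ≤ S write I(Q) for the intersection of the members of 𝒜 contained in Q. Assume (invariance) that for every Q ≤ S containing a member of 𝒜, every F-automorphism of Q maps I(Q) into itself, and (replacement) that for every subgroup B of S of nilpotency class at most 2, if some member of 𝒜 contains [B,B] but not B, then B normalizes some member of 𝒜 that contains [B,B] but not B. Then F is the inner fusion system of S if and only if the normalizer fusion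 system of I(S) in F is the inner fusion system of N_S(I(S)). -/
theorem result {Ω : Type*} [Group Ω] {S : Subgroup Ω} [Finite S] (p : ℕ) [Fact p.Prime] (hS : IsPGroup p ↥S) (F : Cfsg.FusionSystem S) (hF : F.IsSaturated p) (hp : p ≠ 2) (𝒜 : Set (Subgroup Ω)) (h𝒜 : ∀ A ∈ 𝒜, A ≤ S ∧ IsMulCommutative ↥A) (hne : 𝒜.Nonempty) (hinv : ∀ Q : Subgroup Ω, Q ≤ S → (∃ A ∈ 𝒜, A ≤ Q) → ∀ α ∈ F.autGroup Q, ∀ x : ↥Q, (x : Ω) ∈ (⨅ A ∈ {A : Subgroup Ω | A ∈ 𝒜 ∧ A ≤ Q}, A) → (((α : MulAut ↥Q) x : ↥Q) : Ω) ∈ (⨅ A ∈ {A : Subgroup Ω | A ∈ 𝒜 ∧ A ≤ Q}, A)) (hrep : ∀ B : Subgroup Ω, B ≤ S → ⁅⁅B, B⁆, B⁆ = ⊥ → (∃ A ∈ 𝒜, ⁅B, B⁆ ≤ A ∧ ¬ B ≤ A) → ∃ A ∈ 𝒜, ⁅B, B⁆ ≤ A ∧ ¬ B ≤ A ∧ B ≤ Subgroup.normalizer (A : Set Ω)) : (∀ P : Subgroup Ω, F.Hom P = (Cfsg.innerFusionSystem S).Hom P) ↔ ∀ N : Cfsg.FusionSystem (Cfsg.FusionSystem.normalizerIn S (⨅ A ∈ 𝒜, A)), F.IsNormalizerSystem (⨅ A ∈ 𝒜, A) N → ∀ P : Subgroup Ω, N.Hom P = (Cfsg.innerFusionSystem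 (Cfsg.FusionSystem.normalizerIn S (⨅ A ∈ 𝒜, A))).Hom P := by
  classical
  have hAS : ∀ A ∈ 𝒜, A ≤ S := fun A hA => (h𝒜 A hA).1
  have hAc : ∀ A ∈ 𝒜, ∀ x ∈ A, ∀ y ∈ A, x * y = y * x := fun A hA =>
    (Cfsg.Agent.Lib.PGroup.ZJ.PP_zero_iff.2 (h𝒜 A hA).2).1
  have hI := Cfsg.Agent.Lib.Fusion.GT.FamilyF.II_eq_iInf (S := S) hAS
  obtain ⟨A₀, hA₀⟩ := id hne
  have hW : (⨅ A ∈ 𝒜, A) ≤ S := by
    intro x hx
    exact hAS A₀ hA₀ (by
      simp only [Subgroup.mem_iInf] at hx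
      exact hx A₀ hA₀)
  constructor
  · intro h N hN P
    exact Cfsg.Agent.Lib.Fusion.GT.Inner.normalizer_inner hW h hN P
  · intro h P
    have hE := Cfsg.Agent.Lib.Fusion.LocalSystems.normalizerSystem_isNormalizerSystem F _ hW
    have hloc := Cfsg.Agent.Lib.Fusion.GT.Local.localP_of_inner hS hE (h _ hE)
    rw [← hI] at hloc
    have hnil := Cfsg.Agent.Lib.Fusion.GT.FamilyF.nil_of_family_saturated hp hS hF hAS hAc hne
      hinv hrep hloc
    rw [Cfsg.Agent.S5083.result p hS F hF hnil]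

end Cfsg.Agent.S5272
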