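import Cfsg.Statements.S5276
import Cfsg.Agent.Lib.Fusion.FocalClosed
import Cfsg.Agent.Lib.Fusion.Tate
import Cfsg.Agent.Lib.Fusion.LocalSystems
import Mathlib
-- import your own Cfsg.Agent.* helpers here

set_option autoImplicit false
open Cfsg

namespace Cfsg.Agent.S5276

open Cfsg.FusionSystem Cfsg.Agent.Lib.Fusion Cfsg.Agent.Lib
open scoped commutatorElement

/-- Let p be a prime and F a saturated fusion system over a finite p-group S. Then F is the inner fusion system of S if and only if the normalizer fusion system of S itself in F is the inner fusion system (equivalently, Aut_F(S) is induced by S) and the Frattini subgroup Φ(S) is strongly closed in F. -/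
theorem result {Ω : Type*} [Group Ω] {S : Subgroup Ω} [Finite S] (p : ℕ) [Fact p.Prime] (hS : IsPGroup p ↥S) (F : Cfsg.FusionSystem S) (hF : F.IsSaturated p) : (∀ P : Subgroup Ω, F.Hom P = (Cfsg.innerFusionSystem S).Hom P) ↔ (∀ N : Cfsg.FusionSystem (Cfsg.FusionSystem.normalizerIn S S), F.IsNormalizerSystem S N → ∀ P : Subgroup Ω, N.Hom P = (Cfsg.innerFusionSystem (Cfsg.FusionSystem.normalizerIn S S)).Hom P) ∧ F.StronglyClosed ((frattini ↥S).map S.subtype) := by
  classical
  haveI hnorm : ((frattini ↥S)).Normal := inferInstance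
  have hcm : ∀ g ∈ S, ∀ x ∈ (frattini ↥S).map S.subtype, g * x * g⁻¹ ∈ (frattini ↥S).map S.subtype := by
    rintro g hg _ ⟨y, hy, rfl⟩
    refine ⟨⟨g, hg⟩ * y * ⟨g, hg⟩⁻¹, hnorm.conj_mem y hy ⟨g, hg⟩, ?_⟩
    simp
  constructor
  · intro hin
    refine ⟨fun N hN P => ?_, Subgroup.map_subtype_le _, fun R hR φ hφ x => ?_⟩
    · rw [hN P]
      ext φ
      constructor
      · rintro ⟨h1, h2, h3, -⟩
        rw [hin P] at h1
        obtain ⟨-, g, hg, hgc⟩ := h1
        exact ⟨h2, g, Basic.le_normalizerIn le_rfl hg, hgc⟩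
      · rintro ⟨h2, g, hg, hgc⟩
        have h3 : ∀ x : P, φ x ∈ normalizerIn S S := by
          intro x
          rw [hgc x]
          exact Subgroup.mul_mem _ (Subgroup.mul_mem _ hg (h2 x.2)) (Subgroup.inv_mem _ hg)
        have hgS : g ∈ S := hg.1
        have hPS : P ≤ S := h2.trans inf_le_left
        refine ⟨?_, h2, h3, ?_⟩
        · rw [hin P]
          exact ⟨hPS, g, hgS, hgc⟩
        · refine ⟨conjHom (P ⊔ S) g, F.conj_mem (sup_le hPS le_rfl) hgS, fun x => (hgc x).symm, ?_⟩
          ext y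
          constructor
          · rintro ⟨z, hz, rfl⟩
            exact S.mul_mem (S.mul_mem hgS hz) (S.inv_mem hgS)
          · intro hy
            refine ⟨⟨g⁻¹ * y * g, (le_sup_right : S ≤ P ⊔ S)
              (S.mul_mem (S.mul_mem (S.inv_mem hgS) hy) hgS)⟩,
              S.mul_mem (S.mul_mem (S.inv_mem hgS) hy) hgS, ?_⟩
            change g * (g⁻¹ * y * g) * g⁻¹ = y
            group
    · rw [hin R] at hφ
      obtain ⟨-, g, hg, hgc⟩ := hφ
      rw [hgc]
      exact hcm g hg _ (hR x.2)
  · rintro ⟨hN, hC⟩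
    have hA : ∀ φ ∈ F.Hom S, ∃ g ∈ S, ∀ x : S, φ x = g * (x : Ω) * g⁻¹ := by
      intro φ hφ
      have hNS := hN (LocalSystems.normalizerSystem F S le_rfl)
        (LocalSystems.normalizerSystem_isNormalizerSystem F S le_rfl) S
      have hSN : S ≤ normalizerIn S S := Basic.le_normalizerIn le_rfl
      have hm : φ ∈ F.normalizerHom S S := by
        refine ⟨hφ, hSN, fun x => hSN (Basic.map_mem_S hφ x), ?_⟩
        have hle : S ⊔ S ≤ S := sup_le le_rfl le_rfl
        refine ⟨φ.comp (Subgroup.inclusion hle), Basic.res_mem hφ hle, fun x => rfl, ?_⟩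
        have hr : φ.range = S := Basic.range_eq_of_card hφ (Basic.map_mem_S hφ) le_rfl
        ext y
        constructor
        · rintro ⟨z, hz, rfl⟩
          exact Basic.map_mem_S hφ _
        · intro hy
          have hy' : y ∈ φ.range := hr.ge hy
          obtain ⟨z, rfl⟩ := hy'
          exact ⟨⟨z, (le_sup_left : S ≤ S ⊔ S) z.2⟩, z.2, rfl⟩
      have h1 : φ ∈ (LocalSystems.normalizerSystem F S le_rfl).Hom S := hm
      rw [hNS] at h1
      obtain ⟨-, g, hg, hgc⟩ := h1
      exact ⟨g, hg.1, hgc⟩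
    have hcomm : ∀ g ∈ S, ∀ x ∈ S, x⁻¹ * (g * x * g⁻¹) ∈ (frattini ↥S).map S.subtype := by
      intro g hg x hx
      have h1 : ⁅(⟨x, hx⟩ : S)⁻¹, (⟨g, hg⟩ : S)⁆ ∈ frattini ↥S :=
        PGroup.FrattiniBasis.commutator_le_frattini hS (Subgroup.commutator_mem_commutator (Subgroup.mem_top _) (Subgroup.mem_top _))
      refine ⟨_, h1, ?_⟩
      simp [commutatorElement_def]
      group
    have hAut : ∀ φ ∈ F.Hom S, ∀ x : S, (x : Ω)⁻¹ * φ x ∈ (frattini ↥S).map S.subtype := by
      intro φ hφ x
      obtain ⟨g, hg, hgc⟩ := hA φ hφ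
      rw [hgc]
      exact hcomm g hg x x.2
    have hmap := fun {P : Subgroup Ω} {φ : P →* Ω} (hφ : φ ∈ F.Hom P) (x : P) =>
      FocalClosed.map_mem_of_strongly_closed hS hF hC hcomm hAut hφ x
    have hhyp : F.hyperfocalSubgroup p ≤ (frattini ↥S).map S.subtype := by
      refine (Subgroup.closure_le _).2 ?_
      rintro y ⟨P, α, x, hP, -, rfl⟩
      exact hmap (Basic.autGroup_mem_hom hP α.2) x
    have hbot : F.hyperfocalSubgroup p ≤ ⊥ := by
      refine Tate.hyperfocal_le_of_le_frattini_sup hS hF ?_ bot_le (hhyp.trans le_sup_left)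
      intro g _ t ht
      rw [Subgroup.mem_bot] at ht ⊢
      simp [ht]
    intro P
    ext φ
    constructor
    · intro hφ
      obtain ⟨h, hh, hc⟩ := Tate.exists_conj_mod_hyperfocal hS hF hφ
      refine ⟨Basic.source_le hφ, h, hh, fun a => ?_⟩
      have h1 := hbot (hc a)
      rw [Subgroup.mem_bot] at h1
      have h2 : h⁻¹ * φ a * h = a := by
        rw [inv_mul_eq_one] at h1
        exact h1.symm
      rw [← h2]
      group
    · rintro ⟨hP, g, hg, hgc⟩
      have : φ = conjHom P g := by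
        ext x
        exact hgc x
      rw [this]
      exact F.conj_mem hP hg

end Cfsg.Agent.S5276
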