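import Cfsg.Statements.S5286
import Mathlib
import Cfsg.Agent.Lib.Fusion.VirtFree
import Cfsg.Agent.Lib.Fusion.Basic
import Cfsg.Agent.Lib.Fusion.Joins
-- import your own Cfsg.Agent.* helpers here

set_option autoImplicit false
universe u
open Cfsg

namespace Cfsg.Agent.S5286


open Cfsg.Agent.Lib.Fusion.VirtFree Cfsg.Agent.Lib.Fusion.Basic Cfsg.FusionSystem

/-- Partial isomorphisms of a finite group are conjugations in its symmetric group. -/
theorem exists_perm {X : Type*} [Group X] [Finite X] (A : Subgroup X) (φ : A →* X) (hφ : Function.Injective φ) :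
    ∃ g : Equiv.Perm X, ∀ a : A, g * MulAction.toPermHom X X a * g⁻¹ = MulAction.toPermHom X X (φ a) := by
  classical
  obtain ⟨T₁, h₁, -⟩ := A.exists_isComplement_right 1
  obtain ⟨T₂, h₂, -⟩ := φ.range.exists_isComplement_right 1
  have hc₁ := h₁.card_mul_card
  have hc₂ := h₂.card_mul_card
  let e₀ : A ≃* φ.range := MonoidHom.ofInjective hφ
  have hcard : Nat.card A = Nat.card φ.range := Nat.card_congr e₀.toEquiv
  have hpos : 0 < Nat.card φ.range := Nat.card_pos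
  have hT : Nat.card T₁ = Nat.card T₂ := by
    have h3 : Nat.card ((A : Set X)) * Nat.card T₁ = Nat.card ((φ.range : Set X)) * Nat.card T₂ :=
      hc₁.trans hc₂.symm
    have h4 : Nat.card ((A : Set X)) = Nat.card ((φ.range : Set X)) := hcard
    rw [h4] at h3
    exact Nat.eq_of_mul_eq_mul_left hpos h3
  obtain ⟨e₁⟩ : Nonempty (T₁ ≃ T₂) := Finite.card_eq.1 hT
  let E₁ := Equiv.ofBijective _ h₁
  let E₂ := Equiv.ofBijective _ h₂
  let mid : Prod ↥(A : Set X) ↥T₁ ≃ Prod ↥(φ.range : Set X) ↥T₂ := Equiv.prodCongr e₀.toEquiv e₁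
  refine ⟨(E₁.symm.trans mid).trans E₂, fun a => ?_⟩
  have key : ∀ x : X, ((E₁.symm.trans mid).trans E₂) (a * x) = φ a * ((E₁.symm.trans mid).trans E₂) x := by
    intro x
    obtain ⟨⟨b, t⟩, rfl⟩ := E₁.surjective x
    have e1 : (a : X) * E₁ (b, t) = E₁ (⟨(a * ⟨b.1, b.2⟩ : A), (a * ⟨b.1, b.2⟩ : A).2⟩, t) := by
      show (a : X) * ((b : X) * (t : X)) = (a : X) * (b : X) * (t : X)
      rw [mul_assoc]
    rw [e1]
    simp only [Equiv.trans_apply, Equiv.symm_apply_apply]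
    show E₂ (mid _) = (φ a) * E₂ (mid _)
    show ((φ (a * ⟨b.1, b.2⟩) : X) * (e₁ t : X)) = (φ a) * ((φ ⟨b.1, b.2⟩ : X) * (e₁ t : X))
    rw [map_mul, mul_assoc]
  ext x
  have h3 := key (((E₁.symm.trans mid).trans E₂).symm x)
  rw [Equiv.apply_symm_apply] at h3
  show ((E₁.symm.trans mid).trans E₂) (a * ((E₁.symm.trans mid).trans E₂).symm x) = φ a * x
  exact h3

variable {Ω : Type u} [Group Ω] {S : Subgroup Ω}

/-- The index set of the stable letters. -/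
abbrev Idx (F : Cfsg.FusionSystem S) : Type u := Σ P : Subgroup Ω, {φ : P →* Ω // φ ∈ F.Hom P}

/-- The partial map of `↥S` attached to a map of the system. -/
def phiOf (F : Cfsg.FusionSystem S) (i : Idx F) : i.1.subgroupOf S →* S where
  toFun a := ⟨i.2.1 ⟨a.1.1, a.2⟩, (F.le_of_mem i.2.2).2 _⟩
  map_one' := Subtype.ext (map_one i.2.1)
  map_mul' a b := Subtype.ext (map_mul i.2.1 ⟨a.1.1, a.2⟩ ⟨b.1.1, b.2⟩)

theorem phiOf_injective (F : Cfsg.FusionSystem S) (i : Idx F) : Function.Injective (phiOf F i) := by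
  intro a b h
  have h1 := F.injective_of_mem i.2.2 (congrArg Subtype.val h)
  apply Subtype.ext
  apply Subtype.ext
  exact congrArg (fun t : i.1 => (t : Ω)) h1

/-- The data of the construction. -/
noncomputable def dataOf [Finite S] (F : Cfsg.FusionSystem S) : Data S (Equiv.Perm S) (Idx F) where
  lam := MulAction.toPermHom S S
  lam_inj := by
    intro a b h
    have := congrArg (fun f : Equiv.Perm S => f 1) h
    simpa using this
  A i := i.1.subgroupOf S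
  φ i := phiOf F i
  φ_inj i := phiOf_injective F i
  gg i := Classical.choose (exists_perm (i.1.subgroupOf S) (phiOf F i) (phiOf_injective F i))
  gg_spec i := Classical.choose_spec (exists_perm (i.1.subgroupOf S) (phiOf F i) (phiOf_injective F i))

/-- Maps of the system, read on `↥S`. -/
def ClOf (F : Cfsg.FusionSystem S) (P : Subgroup S) (ψ : P →* S) : Prop :=
  ∃ χ ∈ F.Hom (P.map S.subtype), ∀ (x : S) (hx : x ∈ P), χ ⟨x, ⟨x, hx, rfl⟩⟩ = (ψ ⟨x, hx⟩ : Ω)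

theorem map_subtype_le (P : Subgroup S) : P.map S.subtype ≤ S := by
  rintro _ ⟨x, -, rfl⟩
  exact x.2

theorem clOf_conj (F : Cfsg.FusionSystem S) (P : Subgroup S) (s : S) : ClOf F P (Data.conjS P s) :=
  ⟨conjHom _ s, F.conj_mem (map_subtype_le P) s.2, fun _ _ => rfl⟩

theorem clOf_comp (F : Cfsg.FusionSystem S) (P P' : Subgroup S) (ψ : P →* S) (χ : P' →* S) (h : ∀ x, ψ x ∈ P')
    (h₁ : ClOf F P ψ) (h₂ : ClOf F P' χ) : ClOf F P (χ.comp (ψ.codRestrict P' h)) := by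
  obtain ⟨χ₁, hχ₁, he₁⟩ := h₁
  obtain ⟨χ₂, hχ₂, he₂⟩ := h₂
  have hv : ∀ x : P.map S.subtype, χ₁ x ∈ P'.map S.subtype := by
    rintro ⟨_, x, hx, rfl⟩
    have := he₁ x hx
    show χ₁ ⟨S.subtype x, ⟨x, hx, rfl⟩⟩ ∈ _
    have e : χ₁ ⟨S.subtype x, ⟨x, hx, rfl⟩⟩ = (ψ ⟨x, hx⟩ : Ω) := this
    rw [e]
    exact ⟨_, h _, rfl⟩
  refine ⟨χ₂.comp (χ₁.codRestrict _ hv), F.comp_mem hχ₁ hχ₂ hv, fun x hx => ?_⟩
  show χ₂ ⟨χ₁ ⟨x, ⟨x, hx, rfl⟩⟩, _⟩ = ((χ ⟨ψ ⟨x, hx⟩, h _⟩ : S) : Ω)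
  rw [← he₂ _ (h ⟨x, hx⟩)]
  congr 2
  exact he₁ x hx

theorem map_subgroupOf_idx (F : Cfsg.FusionSystem S) (i : Idx F) :
    (i.1.subgroupOf S).map S.subtype = i.1 := by
  rw [Subgroup.map_subgroupOf_eq_of_le (F.le_of_mem i.2.2).1]

theorem clOf_phi (F : Cfsg.FusionSystem S) (i : Idx F) (ψ : i.1.subgroupOf S →* S)
    (hψ : ∀ x, ψ x = phiOf F i x) : ClOf F (i.1.subgroupOf S) ψ := by
  obtain ⟨χ, hχ, he⟩ := Cfsg.Agent.Lib.Fusion.Joins.exists_hom_of_eq F (map_subgroupOf_idx F i).symm i.2.1 i.2.2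
  refine ⟨χ, hχ, fun x hx => ?_⟩
  rw [hψ]
  exact he (x : Ω) hx _

theorem clOf_inv (F : Cfsg.FusionSystem S) (i : Idx F) (ψ : (phiOf F i).range →* S)
    (hψ : ∀ x : (phiOf F i).range, ∃ a : i.1.subgroupOf S, phiOf F i a = x ∧ ψ x = a) :
    ClOf F (phiOf F i).range ψ := by
  have hr : i.2.1.range = (phiOf F i).range.map S.subtype := by
    ext y
    constructor
    · rintro ⟨x, rfl⟩
      refine ⟨⟨i.2.1 x, (F.le_of_mem i.2.2).2 x⟩, ⟨⟨⟨x, (F.le_of_mem i.2.2).1 x.2⟩, x.2⟩, rfl⟩, rfl⟩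
    · rintro ⟨_, ⟨a, rfl⟩, rfl⟩
      exact ⟨⟨a.1.1, a.2⟩, rfl⟩
  obtain ⟨χ, hχ, -, hχe, -⟩ := exists_inv i.2.2 hr
  refine ⟨χ, hχ, fun x hx => ?_⟩
  obtain ⟨a, ha, hae⟩ := hψ ⟨x, hx⟩
  rw [hae]
  have hx' : (x : Ω) = i.2.1 ⟨a.1.1, a.2⟩ := by
    have := congrArg Subtype.val ha
    exact this.symm
  have hmem : i.2.1 ⟨a.1.1, a.2⟩ ∈ (phiOf F i).range.map S.subtype := by
    rw [← hx']
    exact ⟨x, hx, rfl⟩
  have e : (⟨(x : Ω), ⟨x, hx, rfl⟩⟩ : ↥((phiOf F i).range.map S.subtype)) = ⟨_, hmem⟩ := Subtype.ext hx'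
  rw [e, hχe]

/-- Every fusion system F over a finite p-group S, saturated or not, is realized by a possibly infinite group: there are a group G and an injective homomorphism ι of S into G such that the maps of F are exactly the conjugations by elements of G between subgroups of ι(S), every finite subgroup of G is conjugate to a subgroup of ι(S), and G has a free normal subgroup whose index divides (#S)!. -/
theorem result {Ω : Type u} [Group Ω] {S : Subgroup Ω} [Finite S] (p : ℕ) [Fact p.Prime] (hS : IsPGroup p ↥S) (F : Cfsg.FusionSystem S) : ∃ (G : Type u) (_ : Group G) (ι : ↥S →* G), F.IsRealizedBy ι ∧ (∀ H : Subgroup G, Finite ↥H → ∃ g : G, ∀ h ∈ H, g * h * g⁻¹ ∈ ι.range) ∧ ∃ N : Subgroup G, N.Normal ∧ IsFreeGroup ↥N ∧ N.index ∣ (Nat.card ↥S).factorial := by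
  classical
  let D := dataOf F
  refine ⟨D.G, inferInstance, D.iota, ⟨D.iota_injective, ?_⟩, ?_, D.N, inferInstance, D.isFreeGroup_N, ?_⟩
  · intro P hP φ hφ
    constructor
    · intro hm
      let i : Idx F := ⟨P, φ, hm⟩
      refine ⟨⟨D.t i, D.t_mem i⟩, fun x => ?_⟩
      apply Subtype.ext
      have h1 := D.conj_t i ⟨⟨x, hP x.2⟩, x.2⟩
      exact h1.symm
    · rintro ⟨g, hg⟩
      let P₀ : Subgroup S := P.subgroupOf S
      have hP₀ : P₀.map S.subtype = P := Subgroup.map_subgroupOf_eq_of_le hP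
      have hgd := D.gd_of_mem g.2
      have hconj : ∀ x : P₀, (g : D.W) * D.sg x * (g : D.W)⁻¹ = D.sg ⟨φ ⟨x.1.1, x.2⟩, hφ _⟩ := by
        intro x
        have := congrArg Subtype.val (hg ⟨x.1.1, x.2⟩)
        exact this.symm
      obtain ⟨ψ, ⟨χ, hχ, hχe⟩, hψ⟩ := D.conj_closure (ClOf F) (clOf_conj F)
        (fun i ψ h => clOf_phi F i ψ h) (fun i ψ h => clOf_inv F i ψ h) (clOf_comp F) hgd P₀
        (fun x hx => ⟨_, hconj ⟨x, hx⟩⟩)
      obtain ⟨χ', hχ', hχ'e⟩ := Cfsg.Agent.Lib.Fusion.Joins.exists_hom_of_eq F hP₀ χ hχ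
      have e : χ' = φ := by
        ext x
        have hx₀ : (⟨x, hP x.2⟩ : S) ∈ P₀ := x.2
        have hxm : (x : Ω) ∈ P₀.map S.subtype := ⟨⟨x, hP x.2⟩, hx₀, rfl⟩
        rw [hχ'e (x : Ω) hxm x.2]
        have h1 := hχe ⟨x, hP x.2⟩ hx₀
        have h2 := D.sg_injective ((hψ ⟨⟨x, hP x.2⟩, hx₀⟩).symm.trans (hconj ⟨⟨x, hP x.2⟩, hx₀⟩))
        have h3 : χ ⟨(x : Ω), hxm⟩ = ((ψ ⟨⟨x, hP x.2⟩, hx₀⟩ : S) : Ω) := h1
        rw [h3, h2]
      rw [← e]
      exact hχ'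
  · intro H hH
    have hfin : ((H.map D.G.subtype : Subgroup D.W) : Set D.W).Finite := by
      rw [Subgroup.coe_map]
      exact (Set.toFinite (H : Set D.G)).image _
    have hle : H.map D.G.subtype ≤ D.G := by
      rintro _ ⟨x, -, rfl⟩
      exact x.2
    obtain ⟨g, hg, hgH⟩ := D.exists_conj_of_finite _ hle hfin
    refine ⟨(⟨g, hg⟩ : D.G)⁻¹, fun h hh => ?_⟩
    obtain ⟨s, hs⟩ := hgH _ ⟨h, hh, rfl⟩
    refine ⟨s, ?_⟩
    apply Subtype.ext
    show D.sg s = g⁻¹ * (h : D.W) * g⁻¹⁻¹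
    rw [inv_inv]
    exact hs.symm
  · have := D.index_N_dvd
    rwa [Nat.card_perm] at this

end Cfsg.Agent.S5286
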