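import Cfsg.Statements.S5290
import Mathlib
import Cfsg.Agent.Lib.Fusion.Invariant
import Cfsg.Agent.Lib.Fusion.Abelian
-- import your own Cfsg.Agent.* helpers here

set_option autoImplicit false
open Cfsg

namespace Cfsg.Agent.S5290

/-- Let F be a saturated fusion system over a finite p-group S and Q a subgroup of S. Then Q is normal in F (F = N_F(Q)) if and only if the inner fusion system of Q, consisting of the conjugations by elements of Q on subgroups of Q, is a weakly normal subsystem of F (both saturated, Q strongly closed, invariant under F-conjugation, with the Frattini property). -/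
theorem result {Ω : Type*} [Group Ω] {S : Subgroup Ω} [Finite S] (p : ℕ) [Fact p.Prime] (hS : IsPGroup p S)
    (F : Cfsg.FusionSystem S) (hF : F.IsSaturated p)
    (Q : Subgroup Ω) (hQ : Q ≤ S) :
    F.IsNormal Q ↔ (Cfsg.innerFusionSystem Q).IsWeaklyNormalIn F p := by
  classical
  open Cfsg.FusionSystem Cfsg.Agent.Lib.Fusion.Basic Cfsg.Agent.Lib.Fusion.Saturated in
  have hfinQ : Finite Q := Cfsg.Agent.Lib.Fusion.Basic.finite_of_le hQ
  have hQp : IsPGroup p Q := Cfsg.Agent.Lib.Fusion.Basic.isPGroup_of_le hS hQ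
  constructor
  · intro hN
    refine ⟨Cfsg.Agent.Lib.Fusion.Abelian.isSaturated_inner hQp, hF, ?_, Cfsg.Agent.Lib.Fusion.NormalCR.IsNormal.stronglyClosed hN, ?_, ?_⟩
    · rintro P φ ⟨hP, g, hg, h⟩
      have e : φ = conjHom P g := by
        ext x
        exact h x
      rw [e]
      exact F.conj_mem (hP.trans hQ) (hQ hg)
    · -- invariance
      rintro P hPQ φ ⟨hP, g, hg, h⟩ α hα
      refine ⟨conjHom _ ((α ⟨g, hg⟩ : Q) : Ω), ⟨Cfsg.Agent.Lib.Fusion.Invariant.img_le α P, _, (α ⟨g, hg⟩).2, fun x => rfl⟩, fun x hφx hαx => ?_⟩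
      show ((α ⟨g, hg⟩ : Q) : Ω) * ((α ⟨x, hPQ x.2⟩ : Q) : Ω) * ((α ⟨g, hg⟩ : Q) : Ω)⁻¹ = _
      have e : (⟨φ x, hφx⟩ : Q) = ⟨g, hg⟩ * ⟨x, hPQ x.2⟩ * (⟨g, hg⟩ : Q)⁻¹ := Subtype.ext (h x)
      rw [e, map_mul, map_mul, map_inv]
      rfl
    · -- Frattini
      intro P hPQ φ hφ
      obtain ⟨ψ, hψ, hψ1, hψ2⟩ := hN.2 P φ hφ
      obtain ⟨β, hβ, hβe⟩ := Cfsg.Agent.Lib.Fusion.Joins.exists_hom_of_eq F (sup_eq_right.2 hPQ) ψ hψ
      have hr : β.range = Q := by
        apply Cfsg.Agent.Lib.Fusion.Basic.range_eq_of_card hβ _ le_rfl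
        intro x
        have h1 := hβe x (Subgroup.mem_sup_right x.2) x.2
        rw [h1]
        have h2 : ψ ⟨x, Subgroup.mem_sup_right x.2⟩ ∈ (Q.subgroupOf (P ⊔ Q)).map ψ :=
          ⟨_, Subgroup.mem_subgroupOf.2 x.2, rfl⟩
        rwa [hψ2] at h2
      let α : MulAut Q := isoOfRange (F.injective_of_mem hβ) hr
      have hα : α ∈ F.autGroup Q := by
        apply mem_autGroup_of_mem
        have e : Q.subtype.comp α.toMonoidHom = β := by
          ext x
          rfl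
        rwa [e]
      refine ⟨α, hα, P.subtype, ⟨hPQ, 1, one_mem _, fun x => by simp⟩, fun x hx => ?_⟩
      have h1 := hψ1 x
      have h2 := hβe x (Subgroup.mem_sup_left x.2) (hPQ x.2)
      show φ x = β ⟨x, hx⟩
      rw [← h1, h2]
      rfl
  · rintro ⟨-, -, -, hSC, -, hFr⟩
    refine Cfsg.Agent.Lib.Fusion.Invariant.isNormal_of_invariant (E := innerFusionSystem Q) hS hF hSC hFr
      ⟨le_rfl, fun P χ hχ => ?_⟩ (fun α _ x _ => (α x).2)
    obtain ⟨hP, g, hg, h⟩ := hχ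
    have hPQ : P ⊔ Q ≤ Q := sup_le hP le_rfl
    refine ⟨conjHom _ g, ⟨hPQ, g, hg, fun x => rfl⟩, fun x => (h x).symm, ?_⟩
    apply le_antisymm
    · rintro _ ⟨y, hy, rfl⟩
      exact Q.mul_mem (Q.mul_mem hg (Subgroup.mem_subgroupOf.1 hy)) (Q.inv_mem hg)
    · intro x hx
      have hc : g⁻¹ * x * g⁻¹⁻¹ ∈ Q := Q.mul_mem (Q.mul_mem (Q.inv_mem hg) hx) (Q.inv_mem (Q.inv_mem hg))
      refine ⟨⟨g⁻¹ * x * g⁻¹⁻¹, Subgroup.mem_sup_right hc⟩, Subgroup.mem_subgroupOf.2 hc, ?_⟩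
      show g * (g⁻¹ * x * g⁻¹⁻¹) * g⁻¹ = x
      group


end Cfsg.Agent.S5290
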