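import Cfsg.Statements.S5291
import Mathlib
import Cfsg.Agent.Lib.Fusion.Invariant
-- import your own Cfsg.Agent.* helpers here

set_option autoImplicit false
open Cfsg

namespace Cfsg.Agent.S5291

/-- Let F be a saturated fusion system over a finite p-group S and E a weakly normal subsystem of F over a subgroup T. Suppose a subgroup R of T is normal in E (E = N_E(R)), and let R* be the subgroup of T generated by the images of R under all maps of F with source R. Then R* is normal in F (F = N_F(R*)). -/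
theorem result {Ω : Type*} [Group Ω] {S : Subgroup Ω} [Finite S] (p : ℕ) [Fact p.Prime] (hS : IsPGroup p S)
    (F : Cfsg.FusionSystem S) (hF : F.IsSaturated p)
    {T : Subgroup Ω} (E : Cfsg.FusionSystem T) (hE : E.IsWeaklyNormalIn F p)
    (R : Subgroup Ω) (hR : E.IsNormal R) :
    F.IsNormal (Subgroup.closure {x : Ω | ∃ φ ∈ F.Hom R, ∃ r : R, x = φ r}) := by
  classical
  open Cfsg.FusionSystem Cfsg.Agent.Lib.Fusion.Basic Cfsg.Agent.Lib.Fusion.Saturated
    Cfsg.Agent.Lib.Fusion.Invariant Cfsg.Agent.Lib.Fusion.Chain Cfsg.Agent.Lib.Fusion.NormalCR in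
  obtain ⟨hEsat, hFsat, hsub, hT, hinv, hFr⟩ := hE
  have hTS : T ≤ S := hT.1
  haveI : Finite T := finite_of_le hTS
  have hRT : R ≤ T := hR.1
  set Rs := Subgroup.closure {x : Ω | ∃ φ ∈ F.Hom R, ∃ r : R, x = φ r} with hRs
  have hRsT : Rs ≤ T := by
    rw [hRs, Subgroup.closure_le]
    rintro _ ⟨φ, hφ, r, rfl⟩
    exact hT.2 R hRT φ hφ r
  have hrange : ∀ φ ∈ F.Hom R, E.IsNormal φ.range := by
    intro φ hφ
    obtain ⟨α, hα, φ₀, hφ₀, hag⟩ := hFr R hRT φ hφ
    have hv : ∀ x, φ₀ x ∈ R := (IsNormal.stronglyClosed hR).2 R le_rfl φ₀ hφ₀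
    have hr₀ : φ₀.range = R := (IsNormal.weaklyClosed hR).2 φ₀ hφ₀
    have e : φ.range = img α R := by
      apply le_antisymm
      · rintro _ ⟨x, rfl⟩
        rw [hag x (hRT (hv x))]
        exact mem_img α (hv x)
      · rintro _ ⟨y, hy, rfl⟩
        obtain ⟨x, hx⟩ := hr₀.ge (Subgroup.mem_subgroupOf.1 hy)
        refine ⟨x, ?_⟩
        rw [hag x (hRT (hv x))]
        have e2 : (⟨φ₀ x, hRT (hv x)⟩ : T) = y := Subtype.ext hx
        rw [e2]
        rfl
    rw [e]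
    exact isNormal_img hinv hR hα
  have hRsN : E.IsNormal Rs := by
    have hmem := Cfsg.Agent.Lib.Fusion.Joins.sSup_mem_of_sup_closed (S := S) {Q : Subgroup Ω | E.IsNormal Q ∧ Q ≤ Rs}
      ⟨⊥, Cfsg.Agent.Lib.Fusion.Joins.isNormal_bot E, bot_le⟩
      (fun Q hQ => (hQ.2.trans hRsT).trans hTS)
      (fun A hA B hB => ⟨Cfsg.Agent.Lib.Fusion.Joins.isNormal_sup E hA.1 hB.1, sup_le hA.2 hB.2⟩)
    have hle : Rs ≤ sSup {Q : Subgroup Ω | E.IsNormal Q ∧ Q ≤ Rs} := by
      rw [hRs, Subgroup.closure_le]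
      rintro _ ⟨φ, hφ, r, rfl⟩
      have hmemr : φ.range ∈ {Q : Subgroup Ω | E.IsNormal Q ∧ Q ≤ Rs} := by
        refine ⟨hrange φ hφ, ?_⟩
        rintro _ ⟨s, rfl⟩
        exact Subgroup.subset_closure ⟨φ, hφ, s, rfl⟩
      exact (le_sSup hmemr : φ.range ≤ _) ⟨r, rfl⟩
    have heq : sSup {Q : Subgroup Ω | E.IsNormal Q ∧ Q ≤ Rs} = Rs := le_antisymm hmem.2 hle
    rw [heq] at hmem
    exact hmem.1
  refine isNormal_of_invariant hS hF hT hFr hRsN (fun α hα x hx => ?_)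
  have key : ∀ (y : Ω) (hy : y ∈ Rs), ((α ⟨y, hRsT hy⟩ : T) : Ω) ∈ Rs := by
    intro y hy
    induction hy using Subgroup.closure_induction with
    | mem y hy =>
      obtain ⟨φ, hφ, r, rfl⟩ := hy
      refine Subgroup.subset_closure ⟨(T.subtype.comp α.toMonoidHom).comp (φ.codRestrict T (fun z => hT.2 R hRT φ hφ z)), ?_, r, rfl⟩
      exact comp_mem' hφ (autGroup_mem_hom hTS hα) (fun z => hT.2 R hRT φ hφ z) (fun z => rfl)
    | one =>
      have e : (⟨1, hRsT (one_mem _)⟩ : T) = 1 := rfl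
      rw [e, map_one]
      exact one_mem _
    | mul a b ha hb iha ihb =>
      have e : (⟨a * b, hRsT (Rs.mul_mem ha hb)⟩ : T) = ⟨a, hRsT ha⟩ * ⟨b, hRsT hb⟩ := rfl
      rw [e, map_mul]
      exact Rs.mul_mem iha ihb
    | inv a ha iha =>
      have e : (⟨a⁻¹, hRsT (Rs.inv_mem ha)⟩ : T) = (⟨a, hRsT ha⟩ : T)⁻¹ := rfl
      rw [e, map_inv]
      exact Rs.inv_mem iha
  exact key x hx


end Cfsg.Agent.S5291
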