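import Cfsg.Statements.S5294
import Mathlib
import Cfsg.Agent.Lib.Fusion.Gaschutz
import Cfsg.Agent.Lib.Fusion.Chain
import Cfsg.Agent.Lib.Fusion.Joins
-- import your own Cfsg.Agent.* helpers here

set_option autoImplicit false
universe u
open Cfsg

namespace Cfsg.Agent.S5294

open Cfsg.FusionSystem Cfsg.Agent.Lib.Fusion.Basic Cfsg.Agent.Lib.Fusion.Saturated
open Cfsg.Agent.Lib.Fusion.NormalCR Cfsg.Agent.Lib.Fusion.Chain Cfsg.Agent.Lib.Fusion.Gaschutz

/-- The restriction of automorphisms to the centre. -/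
def centerRes (Q : Type*) [Group Q] : MulAut Q →* MulAut (Subgroup.center Q) where
  toFun α :=
    { toFun := fun z => ⟨α z, by
        rw [Subgroup.mem_center_iff]
        intro y
        have h := (Subgroup.mem_center_iff.1 z.2) (α.symm y)
        have h2 := congrArg α h
        simpa using h2⟩
      invFun := fun z => ⟨α.symm z, by
        rw [Subgroup.mem_center_iff]
        intro y
        have h := (Subgroup.mem_center_iff.1 z.2) (α y)
        have h2 := congrArg α.symm h
        simpa using h2⟩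
      left_inv := fun z => by
        apply Subtype.ext
        simp
      right_inv := fun z => by
        apply Subtype.ext
        simp
      map_mul' := fun a b => by
        apply Subtype.ext
        simp }
  map_one' := by
    ext z
    rfl
  map_mul' := by
    intro a b
    ext z
    rfl

/-- The commutative group structure on the centre. -/
@[reducible] def centerCommGroup (Q : Type*) [Group Q] : CommGroup (Subgroup.center Q) :=
  { (inferInstance : Group (Subgroup.center Q)) with
    mul_comm := fun a b => Subtype.ext (Subgroup.mem_center_iff.1 a.2 b.1).symm }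

theorem centerRes_coe {Q : Type*} [Group Q] (α : MulAut Q) (z : Subgroup.center Q) :
    ((centerRes Q α z : Subgroup.center Q) : Q) = α z := rfl

/-- Let F be a saturated fusion system over a finite p-group S whose centre Z(S) lies in the largest subgroup O_p(F) normal in F. Then the centre Z(F) of F is a direct factor of Z(S): there is a subgroup K of Z(S) with Z(F) ∩ K = 1 and Z(F)K = Z(S). -/
theorem result {Ω : Type u} [Group Ω] {S : Subgroup Ω} [Finite S] (p : ℕ) [Fact p.Prime] (hS : IsPGroup p S)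
    (F : Cfsg.FusionSystem S) (hF : F.IsSaturated p) (hZ : (S ⊓ Subgroup.centralizer (S : Set Ω)) ≤ F.core) :
    ∃ K : Subgroup Ω, K ≤ (S ⊓ Subgroup.centralizer (S : Set Ω)) ∧ F.center ⊓ K = ⊥ ∧ F.center ⊔ K = (S ⊓ Subgroup.centralizer (S : Set Ω)) := by
  classical
  set Q := F.core with hQdef
  have hQ : F.IsNormal Q := Cfsg.Agent.Lib.Fusion.Joins.isNormal_core F
  have hQS : Q ≤ S := hQ.1
  have hQSC := IsNormal.stronglyClosed hQ
  have hwc := IsNormal.weaklyClosed hQ
  have hfinQ : Finite Q := finite_of_le hQS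
  have hQp : IsPGroup p Q := isPGroup_of_le hS hQS
  have hFN : F.IsFullyNormalized Q := by
    refine ⟨hQS, fun Q' hc => ?_⟩
    obtain ⟨φ, hφ, rfl⟩ := hc
    rw [hwc.2 φ hφ]
  obtain ⟨-, R, hR⟩ := (fullyNormalized_props hS hF hFN).2
  haveI hfinG : Finite (F.autGroup Q) := finite_autGroup hQS
  let ρ : F.autGroup Q →* MulAut (Subgroup.center Q) := (centerRes Q).comp (F.autGroup Q).subtype
  have hρ : ∀ (g : F.autGroup Q) (z : Subgroup.center Q), ((ρ g z : Subgroup.center Q) : Q) = (g : MulAut Q) z :=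
    fun _ _ => rfl
  have hM : IsPGroup p (Subgroup.center Q) := hQp.to_subgroup _
  have hidx : ((R : Subgroup (F.autGroup Q)).index).Coprime p := by
    have := R.not_dvd_index
    exact ((Nat.Prime.coprime_iff_not_dvd Fact.out).2 this).symm
  letI : CommGroup (Subgroup.center Q) := centerCommGroup Q
  obtain ⟨K, hK1, hK2, hK3⟩ := exists_fixed_complement (M := ↥(Subgroup.center ↥Q)) hM ρ (R : Subgroup (F.autGroup Q)) hidx
  let ι : Subgroup.center Q →* Ω := Q.subtype.comp (Subgroup.center Q).subtype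
  have hι : Function.Injective ι :=
    (Subtype.val_injective).comp (Subtype.val_injective)
  have hmemcenter : ∀ z ∈ (S ⊓ Subgroup.centralizer (S : Set Ω)), ∀ hzQ : z ∈ Q,
      (⟨z, hzQ⟩ : Q) ∈ Subgroup.center Q := by
    intro z hz hzQ
    rw [Subgroup.mem_center_iff]
    intro y
    apply Subtype.ext
    exact (Subgroup.mem_centralizer_iff.1 hz.2 y (hQS y.2))
  -- the fixed points of `Aut_S(Q)` are `Z(S)`
  have h1 : (fixedBy ρ (R : Subgroup (F.autGroup Q))).map ι = S ⊓ Subgroup.centralizer (S : Set Ω) := by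
    apply le_antisymm
    · rintro _ ⟨a, ha, rfl⟩
      refine ⟨hQS a.1.2, Subgroup.mem_centralizer_iff.2 ?_⟩
      intro s hs
      have hsN : s ∈ Subgroup.normalizer (Q : Set Ω) := StronglyClosed.le_normalizer hQSC hs
      have hc1 := normConj_mem_autInducedBy hs hsN
      let c : F.autGroup Q := ⟨normConj s hsN, autInducedBy_le_autGroup hQS hc1⟩
      have hcR : c ∈ (R : Subgroup (F.autGroup Q)) := by
        rw [hR]
        exact hc1
      have h2 := ha c hcR
      have h3 := congrArg (fun w : Subgroup.center Q => ((w : Q) : Ω)) h2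
      have h4 : s * ((a : Q) : Ω) * s⁻¹ = ((a : Q) : Ω) := h3
      show s * ι a = ι a * s
      calc s * ((a : Q) : Ω) = (s * ((a : Q) : Ω) * s⁻¹) * s := by group
        _ = ((a : Q) : Ω) * s := by rw [h4]
    · intro z hz
      have hzQ := hZ hz
      refine ⟨⟨⟨z, hzQ⟩, hmemcenter z hz hzQ⟩, ?_, rfl⟩
      intro g hg
      rw [hR] at hg
      obtain ⟨s, hs, hgs⟩ := mem_autInducedBy_iff.1 hg
      apply Subtype.ext
      apply Subtype.ext
      show (((g : MulAut Q) ⟨z, hzQ⟩ : Q) : Ω) = z
      have h5 : (((g : MulAut Q) ⟨z, hzQ⟩ : Q) : Ω) = s * z * s⁻¹ := hgs ⟨z, hzQ⟩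
      rw [h5, (Subgroup.mem_centralizer_iff.1 hz.2 s hs)]
      group
  -- the fixed points of `Aut_F(Q)` are `Z(F)`
  have hcenterZ : F.center ≤ S ⊓ Subgroup.centralizer (S : Set Ω) := by
    have hC := Cfsg.Agent.Lib.Fusion.Joins.isCentral_center F
    intro z hz
    refine ⟨hC.1 hz, Subgroup.mem_centralizer_iff.2 ?_⟩
    intro s hs
    obtain ⟨ψ, hψ, hψ1, hψ2⟩ := hC.2 S (conjHom S s) (F.conj_mem le_rfl hs)
    have h2 := hψ2 ⟨z, hz⟩
    have h3 := hψ1 ⟨z, hC.1 hz⟩
    have e : Subgroup.inclusion (le_sup_right : F.center ≤ S ⊔ F.center) ⟨z, hz⟩ =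
        Subgroup.inclusion (le_sup_left : S ≤ S ⊔ F.center) ⟨z, hC.1 hz⟩ := rfl
    rw [e, h3] at h2
    have h4 : s * z * s⁻¹ = z := h2
    calc s * z = (s * z * s⁻¹) * s := by group
      _ = z * s := by rw [h4]
  have h2 : (fixedBy ρ ⊤).map ι = F.center := by
    apply le_antisymm
    · apply le_sSup
      refine ⟨?_, fun P φ hφ => ?_⟩
      · rintro _ ⟨a, -, rfl⟩
        exact hQS a.1.2
      · obtain ⟨ψ, hψ, hψ1, hψ2⟩ := hQ.2 P φ hφ
        have hle : P ⊔ (fixedBy ρ ⊤).map ι ≤ P ⊔ Q := by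
          refine sup_le_sup_left ?_ P
          rintro _ ⟨a, -, rfl⟩
          exact a.1.2
        refine ⟨ψ.comp (Subgroup.inclusion hle), res_mem hψ hle, fun x => hψ1 x, ?_⟩
        rintro ⟨_, a, ha, rfl⟩
        -- `ψ` restricted to `Q`
        have hres := res_mem hψ (le_sup_right : Q ≤ P ⊔ Q)
        have hv : ∀ x : Q, (ψ.comp (Subgroup.inclusion (le_sup_right : Q ≤ P ⊔ Q))) x ∈ Q := by
          intro x
          have h9 : ψ (Subgroup.inclusion le_sup_right x) ∈ (Q.subgroupOf (P ⊔ Q)).map ψ :=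
            ⟨_, Subgroup.mem_subgroupOf.2 x.2, rfl⟩
          rw [hψ2] at h9
          exact h9
        have hr := range_eq_of_card hres hv le_rfl
        let α : MulAut Q := isoOfRange (F.injective_of_mem hres) hr
        have hα : α ∈ F.autGroup Q := by
          apply mem_autGroup_of_mem
          have e : Q.subtype.comp α.toMonoidHom = ψ.comp (Subgroup.inclusion (le_sup_right : Q ≤ P ⊔ Q)) := by
            ext x
            rfl
          rwa [e]
        have h3 := ha ⟨α, hα⟩ (Subgroup.mem_top _)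
        have h4 := congrArg (fun w : Subgroup.center Q => ((w : Q) : Ω)) h3
        exact h4
    · intro z hz
      have hC := Cfsg.Agent.Lib.Fusion.Joins.isCentral_center F
      have hzZ := hcenterZ hz
      have hzQ := hZ hzZ
      refine ⟨⟨⟨z, hzQ⟩, hmemcenter z hzZ hzQ⟩, ?_, rfl⟩
      intro g _
      apply Subtype.ext
      apply Subtype.ext
      show (((g : MulAut Q) ⟨z, hzQ⟩ : Q) : Ω) = z
      obtain ⟨ψ, hψ, hψ1, hψ2⟩ := hC.2 Q (Q.subtype.comp (g : MulAut Q).toMonoidHom) (autGroup_mem_hom hQS g.2)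
      have h5 := hψ2 ⟨z, hz⟩
      have h6 := hψ1 ⟨z, hzQ⟩
      have e : Subgroup.inclusion (le_sup_right : F.center ≤ Q ⊔ F.center) ⟨z, hz⟩ =
          Subgroup.inclusion (le_sup_left : Q ≤ Q ⊔ F.center) ⟨z, hzQ⟩ := rfl
      rw [e, h6] at h5
      exact h5
  refine ⟨K.map ι, ?_, ?_, ?_⟩
  · rw [← h1]
    exact Subgroup.map_mono hK1
  · rw [← h2, ← Subgroup.map_inf _ _ _ hι, hK2, Subgroup.map_bot]
  · rw [← h2, ← Subgroup.map_sup, hK3, h1]


end Cfsg.Agent.S5294
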