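import Cfsg.Statements.S5300
import Mathlib
import Cfsg.Agent.Lib.Fusion.OmegaChain
-- import your own Cfsg.Agent.* helpers here

set_option autoImplicit false
universe u
open Cfsg

namespace Cfsg.Agent.S5300

open Cfsg.FusionSystem Cfsg.Agent.Lib.Fusion.Basic Cfsg.Agent.Lib.Fusion.Saturated
open Cfsg.Agent.Lib.Fusion.NormalCR Cfsg.Agent.Lib.Fusion.Chain Cfsg.Agent.Lib.Fusion.OmegaChain
open scoped commutatorElement

theorem conj_eq_of_pow_eq_one {Ω : Type*} [Group Ω] {p : ℕ} [hp : Fact p.Prime] {x s : Ω} (hx : x ^ p = 1)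
    (hs : ∃ a : ℕ, s ^ (p ^ a) = 1) (h : s * x * s⁻¹ ∈ Subgroup.zpowers x) : s * x * s⁻¹ = x := by
  by_cases hne : x = 1
  · subst hne
    simp
  have hord : orderOf x = p := orderOf_eq_prime hx hne
  obtain ⟨k, hk⟩ := h
  have hk' : s * x * s⁻¹ = x ^ k := hk.symm
  have hpow : ∀ j : ℕ, s ^ j * x * (s ^ j)⁻¹ = x ^ (k ^ j) := by
    intro j
    induction j with
    | zero => simp
    | succ j ih =>
      have e : s ^ (j + 1) * x * (s ^ (j + 1))⁻¹ = s * (s ^ j * x * (s ^ j)⁻¹) * s⁻¹ := by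
        rw [pow_succ']
        group
      rw [e, ih, ← conj_zpow, hk', ← zpow_mul, pow_succ']
  obtain ⟨a, ha⟩ := hs
  have h1 := hpow (p ^ a)
  rw [ha] at h1
  simp only [one_mul, inv_one, mul_one] at h1
  have h2 : x ^ (1 : ℤ) = x ^ (k ^ p ^ a) := by simpa using h1
  have h3 := (zpow_eq_zpow_iff_modEq).1 h2
  rw [hord] at h3
  have h4 : ((1 : ℤ) : ZMod p) = ((k ^ p ^ a : ℤ) : ZMod p) := (ZMod.intCast_eq_intCast_iff _ _ _).2 h3
  have h5 : (k : ZMod p) = 1 := by
    have h6 := ZMod.pow_card_pow (p := p) (x := (k : ZMod p)) (n := a)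
    push_cast at h4
    rw [h6] at h4
    exact h4.symm
  have h6 : k ≡ 1 [ZMOD (p : ℤ)] := by
    have : ((k : ℤ) : ZMod p) = ((1 : ℤ) : ZMod p) := by simpa using h5
    exact (ZMod.intCast_eq_intCast_iff _ _ _).1 this
  have h7 := (zpow_eq_zpow_iff_modEq (x := x) (m := k) (n := 1)).2 (by rw [hord]; exact h6)
  rw [hk', h7]
  simp

/-- The elements of `D` with `x ^ n = 1`, when they form a subgroup. -/
def powSub {Ω : Type*} [Group Ω] (D : Subgroup Ω) (n : ℕ)
    (hmul : ∀ x ∈ D, x ^ n = 1 → ∀ y ∈ D, y ^ n = 1 → (x * y) ^ n = 1) : Subgroup Ω where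
  carrier := {x | x ∈ D ∧ x ^ n = 1}
  one_mem' := ⟨one_mem _, one_pow _⟩
  mul_mem' := by
    rintro a b ⟨ha, ha1⟩ ⟨hb, hb1⟩
    exact ⟨mul_mem ha hb, hmul a ha ha1 b hb hb1⟩
  inv_mem' := by
    rintro a ⟨ha, ha1⟩
    exact ⟨inv_mem ha, by rw [inv_pow, ha1, inv_one]⟩

theorem stronglyClosed_powSub {Ω : Type*} [Group Ω] {S : Subgroup Ω} {F : Cfsg.FusionSystem S} {D : Subgroup Ω}
    (hD : F.StronglyClosed D) (n : ℕ)
    (hmul : ∀ x ∈ D, x ^ n = 1 → ∀ y ∈ D, y ^ n = 1 → (x * y) ^ n = 1) :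
    F.StronglyClosed (powSub D n hmul) := by
  refine ⟨fun x hx => hD.1 hx.1, fun R hR φ hφ x => ⟨hD.2 R (fun y hy => (hR hy).1) φ hφ x, ?_⟩⟩
  have h1 : (x : Ω) ^ n = 1 := (hR x.2).2
  have h2 : x ^ n = 1 := Subtype.ext h1
  rw [← map_pow, h2, map_one]

/-- Let F be a saturated fusion system over a finite p-group S. If every cyclic subgroup of the focal subgroup of F of order p (of order 2 or 4 when p = 2) is normal in S, then S is normal in F. -/
theorem result {Ω : Type u} [Group Ω] {S : Subgroup Ω} [Finite S] (p : ℕ) [Fact p.Prime] (hS : IsPGroup p S)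
    (F : Cfsg.FusionSystem S) (hF : F.IsSaturated p)
    (hnorm : ∀ x ∈ F.focalSubgroup, (x ^ p = 1 ∨ (p = 2 ∧ x ^ 4 = 1)) → ∀ s ∈ S, s * x * s⁻¹ ∈ Subgroup.zpowers x) :
    F.IsNormal S := by
  classical
  set D := F.focalSubgroup with hDdef
  have hmemfoc : ∀ (P : Subgroup Ω) (φ : P →* Ω) (x : P), φ ∈ F.Hom P → (x : Ω)⁻¹ * φ x ∈ D :=
    fun P φ x hφ => Subgroup.subset_closure ⟨P, φ, x, hφ, rfl⟩
  have hDS : D ≤ S := by
    refine (Subgroup.closure_le _).2 ?_
    rintro _ ⟨P, φ, x, hφ, rfl⟩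
    exact S.mul_mem (S.inv_mem (source_le hφ x.2)) (map_mem_S hφ x)
  have hDSC : F.StronglyClosed D := by
    refine ⟨hDS, fun R hR φ hφ x => ?_⟩
    have h1 := hmemfoc R φ x hφ
    have e : φ x = (x : Ω) * ((x : Ω)⁻¹ * φ x) := by group
    rw [e]
    exact D.mul_mem (hR x.2) h1
  have hconj : ∀ a ∈ S, ∀ x ∈ S, x⁻¹ * (a * x * a⁻¹) ∈ D := fun a ha x hx =>
    hmemfoc S (conjHom S a) ⟨x, hx⟩ (F.conj_mem le_rfl ha)
  have hsord : ∀ s ∈ S, ∃ a : ℕ, s ^ (p ^ a) = 1 := by
    intro s hs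
    obtain ⟨a, ha⟩ := hS ⟨s, hs⟩
    exact ⟨a, congrArg Subtype.val ha⟩
  have hcent : ∀ x ∈ D, x ^ p = 1 → ∀ s ∈ S, s * x * s⁻¹ = x := fun x hx hx1 s hs =>
    conj_eq_of_pow_eq_one hx1 (hsord s hs) (hnorm x hx (Or.inl hx1) s hs)
  have hcomm₁ : ∀ x ∈ D, x ^ p = 1 → ∀ y ∈ D, x * y = y * x := by
    intro x hx hx1 y hy
    have h1 := hcent x hx hx1 y (hDS hy)
    calc x * y = (y * x * y⁻¹) * y := by rw [h1]
      _ = y * x := by group
  have hmul₁ : ∀ x ∈ D, x ^ p = 1 → ∀ y ∈ D, y ^ p = 1 → (x * y) ^ p = 1 := by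
    intro x hx hx1 y hy hy1
    have hc : Commute x y := hcomm₁ x hx hx1 y hy
    rw [hc.mul_pow, hx1, hy1, one_mul]
  set V₁ := powSub D p hmul₁ with hV₁
  have hV₁SC : F.StronglyClosed V₁ := stronglyClosed_powSub hDSC p hmul₁
  suffices key : ∀ R : Subgroup Ω, F.IsCentric R → F.IsRadical p R → ∀ a ∈ S,
      a ∈ Subgroup.normalizer (R : Set Ω) → a ∈ R by
    refine isNormal_of_stronglyClosed_of_le hS hF ⟨le_rfl, fun R hR φ hφ x => map_mem_S hφ x⟩
      (fun R hC hRad => le_of_normalizer_inf_le hS hC.1 le_rfl ?_ (fun a ha haN => key R hC hRad a ha haN))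
    exact Subgroup.le_normalizer
  intro R hC hRad a ha haN
  have hRS : R ≤ S := hC.1
  by_cases hp2 : p = 2
  · subst hp2
    have hact : ∀ x ∈ D, x ^ 4 = 1 → ∀ s ∈ S, s * x * s⁻¹ = x ∨ s * x * s⁻¹ = x⁻¹ := by
      intro x hx hx4 s hs
      by_cases hx2 : x ^ 2 = 1
      · exact Or.inl (hcent x hx hx2 s hs)
      obtain ⟨k, hk⟩ := hnorm x hx (Or.inr ⟨rfl, hx4⟩) s hs
      have hk' : s * x * s⁻¹ = x ^ k := hk.symm
      have hdiv : k = 4 * (k / 4) + k % 4 := (Int.mul_ediv_add_emod k 4).symm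
      have hxk : x ^ k = x ^ (k % 4) := by
        conv_lhs => rw [hdiv, zpow_add, zpow_mul]
        have : x ^ (4 : ℤ) = 1 := by exact_mod_cast hx4
        rw [this, one_zpow, one_mul]
      have h0 : 0 ≤ k % 4 := Int.emod_nonneg _ (by norm_num)
      have h4 : k % 4 < 4 := Int.emod_lt_of_pos _ (by norm_num)
      have hsq : (s * x * s⁻¹) ^ 2 = s * x ^ 2 * s⁻¹ := by
        rw [conj_pow]
      have hval : s * x * s⁻¹ = x ^ (k % 4) := hk'.trans hxk
      have hback : s * x ^ 2 * s⁻¹ = 1 → x ^ 2 = 1 := by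
        intro h9
        have h2 : x ^ 2 = s⁻¹ * (s * x ^ 2 * s⁻¹) * s := by group
        rw [h2, h9]
        group
      have hcases : k % 4 = 0 ∨ k % 4 = 1 ∨ k % 4 = 2 ∨ k % 4 = 3 := by omega
      rcases hcases with h | h | h | h
      · exfalso
        rw [h, zpow_zero] at hval
        rw [hval, one_pow] at hsq
        exact hx2 (hback hsq.symm)
      · left
        rw [h, zpow_one] at hval
        exact hval
      · exfalso
        rw [h] at hval
        rw [hval] at hsq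
        have h3 : (x ^ (2 : ℤ)) ^ 2 = 1 := by
          rw [← zpow_natCast, ← zpow_mul]
          have : x ^ (4 : ℤ) = 1 := by exact_mod_cast hx4
          exact this
        rw [h3] at hsq
        exact hx2 (hback hsq.symm)
      · right
        rw [h] at hval
        rw [hval]
        have h3 : x ^ (3 : ℤ) * x = 1 := by
          rw [← zpow_add_one]
          exact_mod_cast hx4
        exact eq_inv_of_mul_eq_one_left h3
    have hmul₄ : ∀ x ∈ D, x ^ 4 = 1 → ∀ y ∈ D, y ^ 4 = 1 → (x * y) ^ 4 = 1 := by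
      intro x hx hx1 y hy hy1
      rcases hact x hx hx1 y (hDS hy) with h | h
      · have hc : Commute x y := by
          show x * y = y * x
          calc x * y = (y * x * y⁻¹) * y := by rw [h]
            _ = y * x := by group
        rw [hc.mul_pow, hx1, hy1, one_mul]
      · have h2 : (x * y) ^ 2 = y ^ 2 := by
          have e : y * x = x⁻¹ * y := by
            calc y * x = (y * x * y⁻¹) * y := by group
              _ = x⁻¹ * y := by rw [h]
          calc (x * y) ^ 2 = x * (y * x) * y := by simp only [pow_two, mul_assoc]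
            _ = x * (x⁻¹ * y) * y := by rw [e]
            _ = y ^ 2 := by simp only [pow_two, mul_assoc, mul_inv_cancel_left]
        have e4 : (x * y) ^ 4 = ((x * y) ^ 2) ^ 2 := by
          rw [← pow_mul]
        rw [e4, h2, ← pow_mul]
        exact hy1
    set W := powSub D 4 hmul₄ with hW
    have hWSC : F.StronglyClosed W := stronglyClosed_powSub hDSC 4 hmul₄
    let E : ℕ → Subgroup Ω := fun i => if i = 0 then ⊥ else if i = 1 then V₁ else W
    refine mem_of_omega_chain (E := E) (m := 2) (n := 4) (P := D) hS hC hRad hDSC rfl ?_ (by norm_num)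
      (by decide) ?_ ha haN ?_ ?_
    · intro i hi
      match i, hi with
      | 0, _ => exact stronglyClosed_bot
      | 1, _ => exact hV₁SC
      | 2, _ => exact hWSC
    · intro x hx hx4
      exact ⟨hx, hx4⟩
    · intro i hi x hxR hx
      obtain rfl | rfl : i = 0 ∨ i = 1 := by omega
      · have hx' : x ∈ V₁ := hx
        rw [hcent x hx'.1 hx'.2 a ha]
        simp [E]
      · have hx' : x ∈ W := hx
        rcases hact x hx'.1 hx'.2 a ha with h | h
        · rw [h]
          simp only [inv_mul_cancel]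
          exact one_mem _
        · rw [h]
          refine ⟨D.mul_mem (D.inv_mem hx'.1) (D.inv_mem hx'.1), ?_⟩
          have e : (x⁻¹ * x⁻¹) ^ 2 = (x ^ 4)⁻¹ := by
            group
          rw [e, hx'.2, inv_one]
    · intro x hx
      exact hconj a ha x (hRS hx)
  · let E : ℕ → Subgroup Ω := fun i => if i = 0 then ⊥ else V₁
    refine mem_of_omega_chain (E := E) (m := 1) (n := p) (P := D) hS hC hRad hDSC rfl ?_ dvd_rfl
      (Cfsg.Agent.Lib.PGroup.Critical.prime_dvd_choose_two hp2) ?_ ha haN ?_ ?_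
    · intro i hi
      match i, hi with
      | 0, _ => exact stronglyClosed_bot
      | 1, _ => exact hV₁SC
    · intro x hx hx1
      exact ⟨hx, hx1⟩
    · intro i hi x hxR hx
      obtain rfl : i = 0 := by omega
      have hx' : x ∈ V₁ := hx
      rw [hcent x hx'.1 hx'.2 a ha]
      simp [E]
    · intro x hx
      exact hconj a ha x (hRS hx)


end Cfsg.Agent.S5300
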