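import Cfsg.Statements.S5301
import Mathlib
import Cfsg.Agent.Lib.Fusion.AlperinInduct
import Cfsg.Agent.Lib.Fusion.NormalCR
import Cfsg.Agent.Lib.Fusion.Joins
-- import your own Cfsg.Agent.* helpers here

set_option autoImplicit false
universe u
open Cfsg

namespace Cfsg.Agent.S5301

open Cfsg.FusionSystem Cfsg.Agent.Lib.Fusion.Basic Cfsg.Agent.Lib.Fusion.Saturated
open Cfsg.Agent.Lib.Fusion.AlperinInduct Cfsg.Agent.Lib.Fusion.NormalCR

/-- `S` is normal in `F` as soon as every map extends to an automorphism of `S`. -/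
theorem isNormal_of_forall_extends {Ω : Type*} [Group Ω] {S : Subgroup Ω} [Finite S]
    {F : Cfsg.FusionSystem S}
    (h : ∀ {P : Subgroup Ω} {φ : P →* Ω}, φ ∈ F.Hom P → ∃ ψ ∈ F.Hom S, ∀ (x : Ω) (hx : x ∈ P) (hxS : x ∈ S),
      ψ ⟨x, hxS⟩ = φ ⟨x, hx⟩) : F.IsNormal S := by
  refine ⟨le_rfl, fun P φ hφ => ?_⟩
  have hPS : P ≤ S := source_le hφ
  obtain ⟨ψ, hψ, hag⟩ := h hφ
  have e : S = P ⊔ S := (sup_eq_right.2 hPS).symm
  obtain ⟨ψ', hψ', he⟩ := Cfsg.Agent.Lib.Fusion.Joins.exists_hom_of_eq F e ψ hψ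
  refine ⟨ψ', hψ', fun x => ?_, ?_⟩
  · rw [show ψ' (Subgroup.inclusion le_sup_left x) = ψ ⟨x, hPS x.2⟩ from he x (hPS x.2) _]
    exact hag x x.2 _
  · have hr : ψ.range = S := range_eq_of_card hψ (map_mem_S hψ) le_rfl
    ext y
    constructor
    · rintro ⟨z, hz, rfl⟩
      exact map_mem_S hψ' z
    · intro hy
      rw [← hr] at hy
      obtain ⟨w, hw⟩ := hy
      refine ⟨⟨w, Subgroup.mem_sup_right w.2⟩, ?_, ?_⟩
      · exact w.2
      · rw [← hw]
        exact he w w.2 _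


/-- Let F be a saturated fusion system over a finite p-group S. If for every subgroup P of S that is fully normalized, centric and radical in F the automorphism group that F induces on P has a normal Sylow p-subgroup, then S is normal in F. -/
theorem result {Ω : Type u} [Group Ω] {S : Subgroup Ω} [Finite S] (p : ℕ) [Fact p.Prime] (hS : IsPGroup p S)
    (F : Cfsg.FusionSystem S) (hF : F.IsSaturated p)
    (hcl : ∀ P : Subgroup Ω, F.IsFullyNormalized P → F.IsCentric P → F.IsRadical p P →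
      ∃ R : Sylow p ↥(F.autGroup P), (R : Subgroup ↥(F.autGroup P)).Normal) :
    F.IsNormal S := by
  refine isNormal_of_forall_extends ?_
  have key : ∀ {P : Subgroup Ω} {φ : P →* Ω}, φ ∈ F.Hom P → ∃ ψ ∈ F.Hom S, ∀ (x : Ω) (hx : x ∈ P) (hxS : x ∈ S),
      ψ ⟨x, hxS⟩ = φ ⟨x, hx⟩ := by
    refine alperin_induction hS hF (fun P φ => ∃ ψ ∈ F.Hom S, ∀ (x : Ω) (hx : x ∈ P) (hxS : x ∈ S),
      ψ ⟨x, hxS⟩ = φ ⟨x, hx⟩) ?_ ?_ ?_ ?_
    · rintro P R φ - ⟨ψ, hψ, hag⟩ h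
      exact ⟨ψ, hψ, fun x hx hxS => hag x (h hx) hxS⟩
    · rintro P Q φ χ hφ hχ ⟨ψ₁, hψ₁, hag₁⟩ ⟨ψ₂, hψ₂, hag₂⟩ h
      refine ⟨ψ₂.comp (ψ₁.codRestrict S (map_mem_S hψ₁)), F.comp_mem hψ₁ hψ₂ (map_mem_S hψ₁), fun x hx hxS => ?_⟩
      have h1 : ψ₁ ⟨x, hxS⟩ = φ ⟨x, hx⟩ := hag₁ x hx hxS
      show ψ₂ ⟨ψ₁ ⟨x, hxS⟩, _⟩ = χ ⟨φ ⟨x, hx⟩, h _⟩
      have h2 : (⟨ψ₁ ⟨x, hxS⟩, map_mem_S hψ₁ _⟩ : S) = ⟨φ ⟨x, hx⟩, map_mem_S hφ _⟩ := Subtype.ext h1
      rw [h2]
      exact hag₂ _ _ _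
    · rintro P Q φ ω hφ hω hr hinv ⟨ψ, hψ, hag⟩
      have hψr : ψ.range = S := range_eq_of_card hψ (map_mem_S hψ) le_rfl
      obtain ⟨σ, hσ, hσr, hσ1, hσ2⟩ := exists_inv hψ hψr
      refine ⟨σ, hσ, fun y hy hyS => ?_⟩
      have hyr : y ∈ φ.range := hr ▸ hy
      obtain ⟨x, rfl⟩ := hyr
      have hxS : (x : Ω) ∈ S := source_le hφ x.2
      have h1 := hag x x.2 hxS
      have h2 := hσ1 ⟨x, hxS⟩ (map_mem_S hψ _)
      have e : (⟨ψ ⟨x, hxS⟩, map_mem_S hψ _⟩ : S) = ⟨φ x, hyS⟩ := Subtype.ext h1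
      rw [e] at h2
      rw [h2, hinv x hy]
    · intro P φ hP hφ hr
      have hPS : P = S := by
        rcases hP with h | ⟨hFN, hC, hR⟩
        · exact h
        · have hPS : P ≤ S := hC.1
          by_contra hne
          have hlt : P < S := lt_of_le_of_ne hPS hne
          obtain ⟨g, hg1, hg2⟩ := exists_mem_normalizerIn_of_lt hS hlt
          apply hg2
          obtain ⟨R, hRn⟩ := hcl P hFN hC hR
          obtain ⟨-, R₀, hR₀⟩ := (fullyNormalized_props hS hF hFN).2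
          have hfinA : Finite (F.autGroup P) := finite_autGroup hPS
          have hRR : R₀ = R := by
            obtain ⟨a, ha⟩ := MulAction.exists_smul_eq (F.autGroup P) R R₀
            haveI := hRn
            rw [Sylow.smul_eq_of_normal] at ha
            exact ha.symm
          have hc1 := normConj_mem_autInducedBy hg1.1 hg1.2
          have hmem : normConj g hg1.2 ∈ F.autGroup P := autInducedBy_le_autGroup hPS hc1
          have hR₀mem : (⟨normConj g hg1.2, hmem⟩ : F.autGroup P) ∈ (R₀ : Subgroup (F.autGroup P)) := by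
            rw [hR₀]
            exact hc1
          rw [hRR] at hR₀mem
          have hcore := Cfsg.Agent.Lib.Basic.PCore.le_pCore hRn R.isPGroup' hR₀mem
          exact mem_of_conj_mem_pCore hC hR hg1.1 hcore (fun x => rfl)
      subst hPS
      exact ⟨φ, hφ, fun x _ _ => rfl⟩
  exact fun {P φ} hφ => key hφ

end Cfsg.Agent.S5301
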