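import Cfsg.Statements.S5315
import Mathlib
import Cfsg.Agent.Lib.Fusion.SecondCenter
-- import your own Cfsg.Agent.* helpers here

set_option autoImplicit false
open Cfsg

namespace Cfsg.Agent.S5315

/-- An analogue of Grün's lemma for fusion systems. Let F be a saturated fusion system over a finite p-group S that is perfect in the sense that its hyperfocal subgroup is all of S (F coincides with its p-residual subsystem). Then the second centre of F equals its centre: every fusion system over S/(Z(F) ∩ S) that is the factor system of F modulo its centre Z(F), read through the quotient map, has trivial centre. -/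
theorem result {Ω : Type*} [Group Ω] {S : Subgroup Ω} [Finite S] (p : ℕ) [Fact p.Prime] (hS : IsPGroup p S) (F : Cfsg.FusionSystem S) (hF : F.IsSaturated p)
    (hperf : F.hyperfocalSubgroup p = S)
    (E : Cfsg.FusionSystem (⊤ : Subgroup (↥S ⧸ (F.center).subgroupOf S)))
    (hE : F.IsFactorSystem F.center (QuotientGroup.mk' ((F.center).subgroupOf S)) E) : E.center = ⊥ := by
  classical
  have hZ := Cfsg.Agent.Lib.Fusion.Joins.isCentral_center F
  have hfin : Finite (⊤ : Subgroup (↥S ⧸ (F.center).subgroupOf S)) := inferInstance
  have hW' := Cfsg.Agent.Lib.Fusion.Joins.isCentral_center E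
  have hWC := Cfsg.Agent.Lib.Fusion.SecondCenter.isCentral_of_factor hS hF hperf hZ hE hW'
  have hle : Cfsg.FusionSystem.preimageAlong (QuotientGroup.mk' ((F.center).subgroupOf S)) E.center ≤ F.center :=
    le_sSup hWC
  rw [eq_bot_iff]
  intro y hy
  obtain ⟨s, rfl⟩ := QuotientGroup.mk'_surjective _ y
  have h1 : (s : Ω) ∈ F.center := hle (Cfsg.Agent.Lib.Fusion.FactorMorphism.mem_preimage.2 ⟨s.2, hy⟩)
  exact Subgroup.mem_bot.2 ((hE.2.1 s).2 h1)


end Cfsg.Agent.S5315
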