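import Cfsg.Statements.S5317
import Mathlib
import Cfsg.Agent.Lib.Fusion.PSL2Shape
-- import your own Cfsg.Agent.* helpers here

set_option autoImplicit false
open Cfsg

namespace Cfsg.Agent.S5317

/-- Let F be a finite field of odd order q with q² ≡ 1 mod 16 (so that a Sylow 2-subgroup of PSL(2,q), dihedral of order the 2-part of (q²−1)/2, has order at least 8). Then the 2-fusion system of PSL(2,F) on a Sylow 2-subgroup is simple: saturated, over a nontrivial 2-group, with no normal subsystem other than the trivial one and itself. -/
theorem result {F : Type*} [Field F] [Fintype F] (hodd : Fintype.card F % 2 = 1) (h16 : 16 ∣ Fintype.card F ^ 2 - 1)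
    (S : Sylow 2 (Matrix.ProjectiveSpecialLinearGroup (Fin 2) F)) :
    (Cfsg.groupFusionSystem (S : Subgroup (Matrix.ProjectiveSpecialLinearGroup (Fin 2) F))).IsSimple 2 := Cfsg.Agent.Lib.Fusion.PSL2Shape.isSimple_fusion hodd h16 S

end Cfsg.Agent.S5317
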