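import Cfsg.Statements.S5321
import Mathlib
import Cfsg.Agent.Lib.Fusion.PermFusChkJ2
import Cfsg.Agent.Lib.Sporadic.J2.Group

set_option autoImplicit false
open Cfsg

namespace Cfsg.Agent.S5321

/-- For a finite group G isomorphic to the Hall–Janko group J₂ (as constructed in the problem's definitions), the 2-fusion system of G on a Sylow 2-subgroup is simple: saturated, over a nontrivial 2-group, with no normal subsystem other than the trivial one and itself. -/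
theorem result {G : Type*} [Group G] [Finite G] (hG : Cfsg.Spor.IsoJ2 G) (S : Sylow 2 G) : (Cfsg.groupFusionSystem (S : Subgroup G)).IsSimple 2 := by
  classical
  obtain ⟨e⟩ := hG
  let f : G →* Equiv.Perm (Fin 315) :=
    (Cfsg.Agent.Lib.Sporadic.J2.Group.J315).subtype.comp
      ((Cfsg.Agent.Lib.Sporadic.J2.Group.isoJ).toMonoidHom.comp e.toMonoidHom)
  have hf : Function.Injective f := by
    intro a b hab
    have h1 : (Cfsg.Agent.Lib.Sporadic.J2.Group.isoJ (e a)) = (Cfsg.Agent.Lib.Sporadic.J2.Group.isoJ (e b)) :=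
      Subtype.ext hab
    exact e.injective ((Cfsg.Agent.Lib.Sporadic.J2.Group.isoJ).injective h1)
  have hr : f.range = Cfsg.Agent.Lib.Sporadic.J2.Group.J315 := by
    ext y
    constructor
    · rintro ⟨x, rfl⟩
      exact ((Cfsg.Agent.Lib.Sporadic.J2.Group.isoJ) (e x)).2
    · intro hy
      refine ⟨e.symm ((Cfsg.Agent.Lib.Sporadic.J2.Group.isoJ).symm ⟨y, hy⟩), ?_⟩
      show (((Cfsg.Agent.Lib.Sporadic.J2.Group.isoJ) (e (e.symm ((Cfsg.Agent.Lib.Sporadic.J2.Group.isoJ).symm ⟨y, hy⟩)))) : Equiv.Perm (Fin 315)) = y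
      rw [MulEquiv.apply_symm_apply, MulEquiv.apply_symm_apply]
  have hK : Cfsg.Agent.Lib.Compute.OutFinal.ChainFor 9 511 315 21 2097151 Cfsg.Agent.Lib.Sporadic.J2.Group.J315
      (Cfsg.Agent.Lib.Fusion.PermFusData.J2.lrK.map Prod.fst) :=
    Cfsg.Agent.Lib.Compute.OutFinal.ChainFor.of_fast (d := 9) (by norm_num)
      Cfsg.Agent.Lib.Fusion.PermFusData.J2.chainK (le_refl _)
      (by rw [Cfsg.Agent.Lib.Fusion.PermFusData.J2.ordK, Cfsg.Agent.Lib.Sporadic.J2.Group.card_J315])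
  have c := Cfsg.Agent.Lib.Fusion.PermFusC.fusCert_of_checks hK (by norm_num)
    Cfsg.Agent.Lib.Fusion.PermFusData.J2.hsl Cfsg.Agent.Lib.Fusion.PermFusData.J2.hrl
    Cfsg.Agent.Lib.Fusion.PermFusData.J2.vz Cfsg.Agent.Lib.Fusion.PermFusData.J2.hord
    Cfsg.Agent.Lib.Fusion.PermFusData.J2.hSK Cfsg.Agent.Lib.Fusion.PermFusData.J2.hRS
    Cfsg.Agent.Lib.Fusion.PermFusData.J2.hRN Cfsg.Agent.Lib.Fusion.PermFusData.J2.hzR
    (iz := 0) (by norm_num) Cfsg.Agent.Lib.Fusion.PermFusData.J2.hzm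
    Cfsg.Agent.Lib.Fusion.PermFusData.J2.hzc Cfsg.Agent.Lib.Fusion.PermFusData.J2.hcent
    Cfsg.Agent.Lib.Fusion.PermFusData.J2.hsteps Cfsg.Agent.Lib.Fusion.PermFusData.J2.hts
    Cfsg.Agent.Lib.Fusion.PermFusData.J2.hrules Cfsg.Agent.Lib.Fusion.PermFusData.J2.hs
  exact c.isSimple (k := 7) (m := 4725)
    (by rw [Cfsg.Agent.Lib.Compute.PermCert.chain_card Cfsg.Agent.Lib.Fusion.PermFusData.J2.hsl,
      Cfsg.Agent.Lib.Fusion.PermFusData.J2.hord])
    (by rw [Cfsg.Agent.Lib.Sporadic.J2.Group.card_J315]; norm_num) (by decide) f hf hr S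

end Cfsg.Agent.S5321
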