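import Cfsg.Statements.S5322
import Mathlib
import Cfsg.Agent.Lib.Fusion.PermFusChkJ3
import Cfsg.Agent.Lib.Fusion.PermFusJ3Iso

set_option autoImplicit false
open Cfsg

namespace Cfsg.Agent.S5322

/-- For a finite group G isomorphic to the third Janko group J₃, the 2-fusion system of G on a Sylow 2-subgroup is simple: saturated, over a nontrivial 2-group, with no normal subsystem other than the trivial one and itself. -/
theorem result {G : Type*} [Group G] [Finite G] (hG : Cfsg.Spor.IsoJ3 G) (S : Sylow 2 G) : (Cfsg.groupFusionSystem (S : Subgroup G)).IsSimple 2 := by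
  classical
  obtain ⟨F, _, _, ω, hF, hω, ⟨e⟩⟩ := hG
  obtain ⟨f₀, hf₀, hr₀⟩ := Cfsg.Agent.Lib.Fusion.PermFusJ3Iso.exists_embed hF hω
  let f : G →* Equiv.Perm (Fin 6156) := f₀.comp e.toMonoidHom
  have hf : Function.Injective f := hf₀.comp e.injective
  have hr : f.range = Cfsg.Agent.Lib.Compute.J3.PermPart.P := by
    rw [← hr₀]
    ext y
    constructor
    · rintro ⟨x, rfl⟩
      exact ⟨_, rfl⟩
    · rintro ⟨x, rfl⟩
      refine ⟨e.symm x, ?_⟩
      show f₀ (e (e.symm x)) = _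
      rw [MulEquiv.apply_symm_apply]
  have hK : Cfsg.Agent.Lib.Compute.OutFinal.ChainFor 13 8191 6156 25 33554431 Cfsg.Agent.Lib.Compute.J3.PermPart.P
      (Cfsg.Agent.Lib.Fusion.PermFusData.J3.lrK.map Prod.fst) :=
    Cfsg.Agent.Lib.Compute.OutFinal.ChainFor.of_fast (d := 13) (by norm_num)
      Cfsg.Agent.Lib.Fusion.PermFusData.J3.chainK (le_refl _)
      (by rw [Cfsg.Agent.Lib.Fusion.PermFusData.J3.ordK, Cfsg.Agent.Lib.Compute.J3.Inst.P_card])
  have c := Cfsg.Agent.Lib.Fusion.PermFusC.fusCert_of_checks hK (by norm_num)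
    Cfsg.Agent.Lib.Fusion.PermFusData.J3.hsl Cfsg.Agent.Lib.Fusion.PermFusData.J3.hrl Cfsg.Agent.Lib.Fusion.PermFusData.J3.vz Cfsg.Agent.Lib.Fusion.PermFusData.J3.hord Cfsg.Agent.Lib.Fusion.PermFusData.J3.hSK Cfsg.Agent.Lib.Fusion.PermFusData.J3.hRS Cfsg.Agent.Lib.Fusion.PermFusData.J3.hRN Cfsg.Agent.Lib.Fusion.PermFusData.J3.hzR
    (iz := 0) (by norm_num) Cfsg.Agent.Lib.Fusion.PermFusData.J3.hzm Cfsg.Agent.Lib.Fusion.PermFusData.J3.hzc Cfsg.Agent.Lib.Fusion.PermFusData.J3.hcent Cfsg.Agent.Lib.Fusion.PermFusData.J3.hsteps Cfsg.Agent.Lib.Fusion.PermFusData.J3.hts Cfsg.Agent.Lib.Fusion.PermFusData.J3.hrules Cfsg.Agent.Lib.Fusion.PermFusData.J3.hs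
  exact c.isSimple (k := 7) (m := 392445)
    (by rw [Cfsg.Agent.Lib.Compute.PermCert.chain_card Cfsg.Agent.Lib.Fusion.PermFusData.J3.hsl, Cfsg.Agent.Lib.Fusion.PermFusData.J3.hord])
    (by rw [Cfsg.Agent.Lib.Compute.J3.Inst.P_card]; norm_num) (by decide) f hf hr S

end Cfsg.Agent.S5322
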