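import Cfsg.Statements.S5323
import Mathlib
import Cfsg.Agent.Lib.Fusion.PermFusChkMcL
import Cfsg.Agent.Lib.Fusion.PermFusChkMcL2
import Cfsg.Agent.Lib.Fusion.PermFusChkMcL3
import Cfsg.Agent.Lib.Sporadic.McLOut.Main

set_option autoImplicit false
open Cfsg

namespace Cfsg.Agent.S5323

/-- For a finite group G isomorphic to the McLaughlin group, the 2-fusion system of G on a Sylow 2-subgroup is simple: saturated, over a nontrivial 2-group, with no normal subsystem other than the trivial one and itself. -/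
theorem result {G : Type*} [Group G] [Finite G] (hG : Cfsg.Spor.IsoMcL G) (S : Sylow 2 G) : (Cfsg.groupFusionSystem (S : Subgroup G)).IsSimple 2 := by
  classical
  obtain ⟨e⟩ := hG
  obtain ⟨e2⟩ := Cfsg.Agent.Lib.Sporadic.LeechGroups.exists_iso_McL
  let f : G →* Equiv.Perm (Fin 275) :=
    (Cfsg.Agent.Lib.Sporadic.McLOut.Main.phi).comp (e2.toMonoidHom.comp e.toMonoidHom)
  have hf : Function.Injective f :=
    Cfsg.Agent.Lib.Sporadic.McLOut.Main.hRep.2.comp (e2.injective.comp e.injective)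
  have hr : f.range = Cfsg.Agent.Lib.Sporadic.McLOut.Main.K := by
    ext y
    constructor
    · rintro ⟨x, rfl⟩
      exact ⟨_, rfl⟩
    · rintro ⟨x, rfl⟩
      refine ⟨e.symm (e2.symm x), ?_⟩
      show Cfsg.Agent.Lib.Sporadic.McLOut.Main.phi (e2 (e (e.symm (e2.symm x)))) = _
      rw [MulEquiv.apply_symm_apply, MulEquiv.apply_symm_apply]
  have hK : Cfsg.Agent.Lib.Compute.OutFinal.ChainFor 9 511 275 21 2097151 Cfsg.Agent.Lib.Sporadic.McLOut.Main.K
      (Cfsg.Agent.Lib.Fusion.PermFusData.McL.lrK.map Prod.fst) :=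
    Cfsg.Agent.Lib.Compute.OutFinal.ChainFor.of_fast (d := 9) (by norm_num)
      Cfsg.Agent.Lib.Fusion.PermFusData.McL.chainK Cfsg.Agent.Lib.Sporadic.McLOut.Main.hA.le
      (by rw [Cfsg.Agent.Lib.Fusion.PermFusData.McL.ordK, Cfsg.Agent.Lib.Sporadic.McLOut.Main.card_K])
  have c := Cfsg.Agent.Lib.Fusion.PermFusC.fusCert_of_checks hK (by norm_num)
    Cfsg.Agent.Lib.Fusion.PermFusData.McL.hsl Cfsg.Agent.Lib.Fusion.PermFusData.McL.hrl Cfsg.Agent.Lib.Fusion.PermFusData.McL.vz Cfsg.Agent.Lib.Fusion.PermFusData.McL.hord Cfsg.Agent.Lib.Fusion.PermFusData.McL.hSK Cfsg.Agent.Lib.Fusion.PermFusData.McL.hRS Cfsg.Agent.Lib.Fusion.PermFusData.McL.hRN Cfsg.Agent.Lib.Fusion.PermFusData.McL.hzR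
    (iz := 0) (by norm_num) Cfsg.Agent.Lib.Fusion.PermFusData.McL.hzm Cfsg.Agent.Lib.Fusion.PermFusData.McL.hzc Cfsg.Agent.Lib.Fusion.PermFusData.McL.hcent Cfsg.Agent.Lib.Fusion.PermFusData.McL.hsteps Cfsg.Agent.Lib.Fusion.PermFusData.McL.hts Cfsg.Agent.Lib.Fusion.PermFusData.McL.hrules Cfsg.Agent.Lib.Fusion.PermFusData.McL.hs
  exact c.isSimple (k := 7) (m := 7016625)
    (by rw [Cfsg.Agent.Lib.Compute.PermCert.chain_card Cfsg.Agent.Lib.Fusion.PermFusData.McL.hsl, Cfsg.Agent.Lib.Fusion.PermFusData.McL.hord])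
    (by rw [Cfsg.Agent.Lib.Sporadic.McLOut.Main.card_K]; norm_num) (by decide) f hf hr S

end Cfsg.Agent.S5323
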