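import Cfsg.Statements.S5328
import Cfsg.Agent.Lib.Fusion.BurnsideFree
import Cfsg.Agent.Lib.Fusion.CharTransfer
import Mathlib
-- import your own Cfsg.Agent.* helpers here

set_option autoImplicit false
universe u
open Cfsg

namespace Cfsg.Agent.S5328

open Cfsg.FusionSystem Cfsg.Agent.Lib.Fusion Cfsg.Agent.Lib.Fusion.CharBiset Cfsg.Agent.Lib.Fusion.CharTransfer Cfsg.Agent.Lib.Fusion.Burnside
open MulAction

/-- Every fusion system over a finite p-group S, saturated or not, is realized inside some finite group: there is a finite group G and an injective homomorphism ι of S into G such that the maps of the system are exactly the homomorphisms between subgroups of S that become conjugations by elements of G (the image of S need not be a Sylow p-subgroup of G). -/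
theorem result {Ω : Type u} [Group Ω] {S : Subgroup Ω} [Finite S] (p : ℕ) [Fact p.Prime] (hS : IsPGroup p S) (F : Cfsg.FusionSystem S) : ∃ (G : Type u) (_ : Group G) (_ : Finite G) (ι : ↥S →* G), F.IsRealizedBy ι := by
  classical
  obtain ⟨X, i1, i2, h1, h2, h3⟩ := BurnsideFree.exists_stable_free (G := S × S) (good F)
    (fun g H hH => (conj_transport g H hH).1)
  have h2' : ∀ H₁ ∈ good F, ∀ H₂ ∈ good F, cl F H₁ = cl F H₂ → mark H₁ X = mark H₂ X := by
    rintro _ ⟨Q₁, ρ₁, hρ₁, rfl⟩ _ ⟨Q₂, ρ₂, hρ₂, rfl⟩ hcl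
    refine h2 _ ⟨Q₁, ρ₁, hρ₁, rfl⟩ _ ⟨Q₂, ρ₂, hρ₂, rfl⟩ ?_
    rw [card_graph (Basic.source_le hρ₁) (Basic.map_mem_S hρ₁),
      card_graph (Basic.source_le hρ₂) (Basic.map_mem_S hρ₂)]
    have h4 : Q₂ ∈ cl F (graph (S := S) Q₂ ρ₂) := by
      change F.IsConj _ _
      rw [pr_graph (Basic.source_le hρ₂) (Basic.map_mem_S hρ₂)]
      exact Basic.IsConj.refl (Basic.source_le hρ₂)
    rw [← hcl] at h4
    have h5 : F.IsConj (pr (S := S) (graph Q₁ ρ₁)) Q₂ := h4
    rw [pr_graph (Basic.source_le hρ₁) (Basic.map_mem_S hρ₁)] at h5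
    exact Basic.IsConj.card_eq h5
  -- points fixed by the diagonal of `P`
  have hnon : ∀ (P : Subgroup Ω) (hP : P ≤ S), ∃ ω : X, ∀ x : P,
      ((⟨x, hP x.2⟩ : S), (⟨x, hP x.2⟩ : S)) • ω = ω := by
    intro P hP
    have hg : graph (S := S) P P.subtype ∈ good F := ⟨P, P.subtype, Basic.subtype_mem hP, rfl⟩
    obtain ⟨ω, hω⟩ := (Set.ncard_pos (Set.toFinite _)).1 (h3 _ hg)
    refine ⟨ω, fun x => hω _ ?_⟩
    exact ⟨x.2, rfl⟩
  let R : Set (Equiv.Perm X) :=
    Set.range fun h : S => (MulAction.toPerm (((1 : S), h) : S × S) : Equiv.Perm X)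
  let G : Subgroup (Equiv.Perm X) := Subgroup.centralizer R
  have hmem : ∀ s : S, (MulAction.toPermHom (S × S) X).comp (MonoidHom.inl S S) s ∈ G := by
    intro s y hy
    obtain ⟨h, rfl⟩ := hy
    apply Equiv.ext
    intro ω
    change ((1 : S), h) • ((s, (1 : S)) • ω) = (s, (1 : S)) • (((1 : S), h) • ω)
    rw [smul_smul, smul_smul]
    simp
  let ι : S →* G := ((MulAction.toPermHom (S × S) X).comp (MonoidHom.inl S S)).codRestrict G hmem
  have hι : ∀ (s : S) (ω : X), ((ι s : Equiv.Perm X) : X → X) ω = (s, (1 : S)) • ω := fun _ _ => rfl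
  have hcomm : ∀ (g : G) (h : S) (ω : X), (g : Equiv.Perm X) (((1 : S), h) • ω) =
      ((1 : S), h) • (g : Equiv.Perm X) ω := by
    intro g h ω
    have h4 := Subgroup.mem_centralizer_iff.1 g.2 (MulAction.toPerm (((1 : S), h) : S × S)) ⟨h, rfl⟩
    have h5 := congrArg (fun f : Equiv.Perm X => f ω) h4
    exact h5.symm
  refine ⟨G, inferInstance, inferInstance, ι, ?_, fun P hP φ hφ => ⟨fun hφm => ?_, ?_⟩⟩
  · rw [injective_iff_map_eq_one]
    intro s hs
    obtain ⟨ω, -⟩ := hnon S le_rfl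
    obtain ⟨Q, ρ, hρ, hQ⟩ := h1 ω
    have h4 : (s, (1 : S)) • ω = ω := by
      have h5 := congrArg (fun f : G => ((f : Equiv.Perm X) : X → X) ω) hs
      exact h5
    have h5 : (s, (1 : S)) ∈ stabilizer (S × S) ω := h4
    rw [hQ] at h5
    obtain ⟨h6, h7⟩ := h5
    have h8 : (⟨s, h6⟩ : Q) = 1 := (F.injective_of_mem hρ) (by rw [h7, map_one]; rfl)
    have h9 : ((s : S) : Ω) = 1 := congrArg Subtype.val h8
    exact Subtype.ext h9
  · obtain ⟨f, hfl, hfr⟩ := exists_left_stable h1 h2' hφm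
    have hfG : f ∈ G := by
      intro y hy
      obtain ⟨h, rfl⟩ := hy
      apply Equiv.ext
      intro ω
      exact (hfr h ω).symm
    refine ⟨⟨f, hfG⟩, fun x => ?_⟩
    rw [eq_mul_inv_iff_mul_eq]
    apply Subtype.ext
    apply Equiv.ext
    intro ω
    exact (hfl x ω).symm
  · rintro ⟨g, hg⟩
    obtain ⟨ω, hω⟩ := hnon P hP
    set ω' : X := (g : Equiv.Perm X) ω with hω'
    obtain ⟨Q, ρ, hρ, hQ⟩ := h1 ω'
    have hfix : ∀ x : P, ((⟨φ x, hφ x⟩ : S), (⟨x, hP x.2⟩ : S)) ∈ stabilizer (S × S) ω' := by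
      intro x
      have h4 := hg x
      have h5 : ι ⟨φ x, hφ x⟩ * g = g * ι ⟨x, hP x.2⟩ := by
        rw [h4]
        group
      have h6 := congrArg (fun f : G => ((f : Equiv.Perm X) : X → X) (((1 : S), (⟨x, hP x.2⟩ : S)) • ω)) h5
      have h7 : ((⟨φ x, hφ x⟩ : S), (1 : S)) • (g : Equiv.Perm X) (((1 : S), (⟨x, hP x.2⟩ : S)) • ω) =
          (g : Equiv.Perm X) (((⟨x, hP x.2⟩ : S), (1 : S)) • (((1 : S), (⟨x, hP x.2⟩ : S)) • ω)) := h6
      rw [hcomm, smul_smul, smul_smul] at h7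
      have e1 : ((⟨x, hP x.2⟩ : S), (1 : S)) * ((1 : S), (⟨x, hP x.2⟩ : S)) =
          ((⟨x, hP x.2⟩ : S), (⟨x, hP x.2⟩ : S)) := by simp
      have e2 : ((⟨φ x, hφ x⟩ : S), (1 : S)) * ((1 : S), (⟨x, hP x.2⟩ : S)) =
          ((⟨φ x, hφ x⟩ : S), (⟨x, hP x.2⟩ : S)) := by simp
      rw [e1, e2, hω x] at h7
      exact h7
    have hfix' : ∀ x : P, ∃ h : φ x ∈ Q, ρ ⟨φ x, h⟩ = x := by
      intro x
      have h4 := hfix x
      rw [hQ] at h4
      exact h4
    have hle : φ.range ≤ Q := by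
      rintro _ ⟨x, rfl⟩
      exact (hfix' x).1
    have hρ₁ : ρ.comp (Subgroup.inclusion hle) ∈ F.Hom φ.range := Basic.res_mem hρ hle
    have hr : (ρ.comp (Subgroup.inclusion hle)).range = P := by
      ext y
      constructor
      · rintro ⟨⟨_, x, rfl⟩, rfl⟩
        have h4 := (hfix' x).2
        change ρ ⟨φ x, _⟩ ∈ P
        rw [h4]
        exact x.2
      · intro hy
        refine ⟨⟨φ ⟨y, hy⟩, ⟨y, hy⟩, rfl⟩, (hfix' ⟨y, hy⟩).2⟩
    obtain ⟨ψ, hψ, -, hψ1, -⟩ := Basic.exists_inv hρ₁ hr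
    have e : ψ = φ := by
      ext x
      have h4 := hψ1 ⟨φ x, x, rfl⟩ (by
        change ρ ⟨φ x, _⟩ ∈ P
        rw [(hfix' x).2]
        exact x.2)
      have h5 : (⟨(ρ.comp (Subgroup.inclusion hle)) ⟨φ x, x, rfl⟩, by
        change ρ ⟨φ x, _⟩ ∈ P
        rw [(hfix' x).2]
        exact x.2⟩ : P) = x := Subtype.ext (hfix' x).2
      rw [h5] at h4
      exact h4
    rw [← e]
    exact hψ

end Cfsg.Agent.S5328
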