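import Cfsg.Statements.S5329
import Cfsg.Agent.Lib.Fusion.CharTransfer
import Cfsg.Agent.Lib.Fusion.Focal
import Cfsg.Agent.Lib.Fusion.Normal
import Cfsg.Agent.Lib.Fusion.Joins
import Mathlib
-- import your own Cfsg.Agent.* helpers here

set_option autoImplicit false
open Cfsg

namespace Cfsg.Agent.S5329

open Cfsg.FusionSystem Cfsg.Agent.Lib.Fusion Cfsg.Agent.Lib.Fusion.Basic Cfsg.Agent.Lib.Fusion.CharTransfer

/-- For a saturated fusion system F over a finite p-group S, the focal subgroup and the derived subgroup of S meet the centre Z(F) of the system in the same subgroup: foc(F) ∩ Z(F) = S′ ∩ Z(F). -/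
theorem result {Ω : Type*} [Group Ω] {S : Subgroup Ω} [Finite S] (p : ℕ) [Fact p.Prime] (hS : IsPGroup p S) (F : Cfsg.FusionSystem S) (hF : F.IsSaturated p) : F.focalSubgroup ⊓ F.center = ⁅(S : Subgroup Ω), (S : Subgroup Ω)⁆ ⊓ F.center := by
  classical
  obtain ⟨ι, i1, Q, ρ, hρ, hp, hmain⟩ := exists_stable_transfer (F := F) hS hF
  have hZ : F.IsCentral F.center := Joins.isCentral_center F
  have hZS : F.center ≤ S := hZ.1
  apply le_antisymm
  · rintro z ⟨hzf, hzc⟩
    refine ⟨?_, hzc⟩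
    let π : S →* Abelianization S := Abelianization.of
    let ϕ : ∀ i, (Q i).subgroupOf S →* Abelianization S := fun i =>
      π.comp (rOf (ρ i) (map_mem_S (hρ i)))
    let t : S →* Abelianization S := ∏ i, (ϕ i).transfer
    have ht : ∀ x, t x = ∏ i, (ϕ i).transfer x := fun x => MonoidHom.finset_prod_apply _ _ _
    have hst : ∀ {P : Subgroup Ω} {φ : P →* Ω} (hφ : φ ∈ F.Hom P) (a : P),
        t ⟨a, source_le hφ a.2⟩ = t ⟨φ a, map_mem_S hφ a⟩ := by
      intro P φ hφ a
      rw [ht, ht]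
      exact hmain π hφ a
    -- the focal subgroup lies in the kernel
    have hfoc : F.focalSubgroup ≤ (t.ker).map S.subtype := by
      refine (Subgroup.closure_le _).2 ?_
      rintro _ ⟨P, φ, x, hφ, rfl⟩
      refine ⟨(⟨x, source_le hφ x.2⟩ : S)⁻¹ * ⟨φ x, map_mem_S hφ x⟩, ?_, rfl⟩
      change _ ∈ t.ker
      rw [MonoidHom.mem_ker, map_mul, map_inv, ← hst hφ x, inv_mul_cancel]
    obtain ⟨s, hs, rfl⟩ := hfoc hzf
    have hs1 : t s = 1 := hs
    -- `s` is central
    have hcentral : ∀ g : S, g * s = s * g := by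
      intro g
      have hc : F.IsConjElt (s : Ω) ((g : Ω) * s * (g : Ω)⁻¹) :=
        ⟨conjHom _ (g : Ω), F.conj_mem ((Subgroup.zpowers_le).2 (s.2)) g.2, rfl⟩
      have h2 := Normal.conjElt_eq_of_isCentral hZ hzc hc
      apply Subtype.ext
      calc ((g * s : S) : Ω) = (g : Ω) * s * (g : Ω)⁻¹ * g := by simp
        _ = ((s * g : S) : Ω) := by rw [h2]; rfl
    have hpow : ∀ i, (ϕ i).transfer s = π s ^ ((Q i).subgroupOf S).index := by
      intro i
      have key : ∀ (k : ℕ) (g₀ : S), g₀⁻¹ * s ^ k * g₀ ∈ (Q i).subgroupOf S →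
          g₀⁻¹ * s ^ k * g₀ = s ^ k := by
        intro k g₀ _
        have h3 : Commute g₀ (s ^ k) := ((show Commute g₀ s from hcentral g₀).pow_right k)
        calc g₀⁻¹ * s ^ k * g₀ = g₀⁻¹ * (s ^ k * g₀) := by group
          _ = g₀⁻¹ * (g₀ * s ^ k) := by rw [h3.eq]
          _ = s ^ k := by group
      rw [MonoidHom.transfer_eq_pow (ϕ i) s key, ← map_pow]
      change π _ = _
      congr 1
      apply Subtype.ext
      rw [rOf_coe]
      set x : Q i := ⟨((s ^ ((Q i).subgroupOf S).index : S) : Ω),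
        MonoidHom.transfer_eq_pow_aux s key⟩ with hx
      have hle : Subgroup.zpowers (x : Ω) ≤ Q i := (Subgroup.zpowers_le).2 x.2
      have hc : F.IsConjElt (x : Ω) (ρ i x) :=
        ⟨(ρ i).comp (Subgroup.inclusion hle), res_mem (hρ i) hle, rfl⟩
      have hxZ : (x : Ω) ∈ F.center := by
        change ((s ^ ((Q i).subgroupOf S).index : S) : Ω) ∈ F.center
        rw [Subgroup.coe_pow]
        exact F.center.pow_mem hzc _
      exact Normal.conjElt_eq_of_isCentral hZ hxZ hc
    have h1 : π s ^ (∑ i, ((Q i).subgroupOf S).index) = 1 := by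
      rw [← Finset.prod_pow_eq_pow_sum, ← hs1, ht]
      exact Finset.prod_congr rfl fun i _ => (hpow i).symm
    obtain ⟨n, hn⟩ := hS s
    have h2 : π s ^ p ^ n = 1 := by
      rw [← map_pow, hn, map_one]
    have h3 : π s = 1 := by
      have h4 : orderOf (π s) ∣ p ^ n := orderOf_dvd_of_pow_eq_one h2
      have h5 : orderOf (π s) ∣ ∑ i, ((Q i).subgroupOf S).index := orderOf_dvd_of_pow_eq_one h1
      have hcop : Nat.Coprime (p ^ n) (∑ i, ((Q i).subgroupOf S).index) :=
        Nat.Coprime.pow_left _ ((Nat.Prime.coprime_iff_not_dvd Fact.out).mpr hp)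
      exact orderOf_eq_one_iff.mp (Nat.eq_one_of_dvd_coprimes hcop h4 h5)
    have h4 : s ∈ commutator S := (QuotientGroup.eq_one_iff s).mp h3
    have h5 : (commutator S).map S.subtype = ⁅S, S⁆ := by
      have h6 : (⊤ : Subgroup S).map S.subtype = S := by
        rw [← MonoidHom.range_eq_map, Subgroup.range_subtype]
      rw [commutator_def, Subgroup.map_commutator, h6]
    rw [← h5]
    exact ⟨s, h4, rfl⟩
  · refine inf_le_inf_right _ ?_
    rw [Focal.focal_eq hS hF]
    exact le_sup_right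

end Cfsg.Agent.S5329
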