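import Cfsg.Statements.S5331
import Mathlib
import Cfsg.Agent.Lib.Fusion.Abelian
-- import your own Cfsg.Agent.* helpers here

set_option autoImplicit false
open Cfsg

namespace Cfsg.Agent.S5331

section Algebra

variable {n : ℕ} {a : Fin n → ℕ}

theorem zmod_two_torsion {b : ℕ} (hb : 1 ≤ b) (u : ZMod (2 ^ b)) (h : 2 * u = 0) :
    u = 0 ∨ u = ((2 ^ (b - 1) : ℕ) : ZMod (2 ^ b)) := by
  haveI : NeZero (2 ^ b) := ⟨by positivity⟩
  obtain ⟨c, rfl⟩ : ∃ c, b = c + 1 := ⟨b - 1, by omega⟩
  have h1 : ((2 * u.val : ℕ) : ZMod (2 ^ (c + 1))) = 0 := by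
    push_cast
    rw [ZMod.natCast_zmod_val]
    exact h
  rw [ZMod.natCast_eq_zero_iff] at h1
  have h1' : 2 * 2 ^ c ∣ 2 * u.val := by
    rw [← pow_succ']
    exact h1
  obtain ⟨t, ht⟩ := Nat.dvd_of_mul_dvd_mul_left (by norm_num) h1'
  have hlt : u.val < 2 ^ (c + 1) := ZMod.val_lt u
  have ht2 : t < 2 := by
    by_contra hcon
    push Not at hcon
    have h5 : 2 ^ c * 2 ≤ 2 ^ c * t := Nat.mul_le_mul_left _ hcon
    have h6 : (2 : ℕ) ^ (c + 1) = 2 ^ c * 2 := pow_succ 2 c
    omega
  have hu : u = ((u.val : ℕ) : ZMod (2 ^ (c + 1))) := (ZMod.natCast_zmod_val u).symm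
  interval_cases t
  · left
    rw [hu, ht]
    simp
  · right
    rw [hu, ht]
    simp

theorem zmod_pow_eq_zero {b c : ℕ} (h : b ≤ c) : ((2 ^ c : ℕ) : ZMod (2 ^ b)) = 0 := by
  rw [ZMod.natCast_eq_zero_iff]
  exact pow_dvd_pow 2 h

/-- An additive map of odd order which fixes `w` of order `≤ 2` with `f x = x + w` has `w = 0`. -/
theorem key_one {A : Type*} [AddCommGroup A] (f : A →+ A) {m : ℕ} (hm : Odd m)
    (hfm : ∀ x, f^[m] x = x) {w x : A} (h2 : 2 • w = 0) (hw : f w = w) (hx : f x = x + w) :
    w = 0 := by
  have h : ∀ j : ℕ, f^[j] x = x + j • w := by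
    intro j
    induction j with
    | zero => simp
    | succ j ih =>
      rw [Function.iterate_succ_apply', ih, map_add, hx, map_nsmul, hw, add_assoc, ← succ_nsmul']
  have h1 := h m
  rw [hfm] at h1
  have h2' : m • w = 0 := by
    have := congrArg (fun z => -x + z) h1
    simpa using this.symm
  obtain ⟨t, rfl⟩ := hm
  rw [add_nsmul, mul_comm 2 t, mul_nsmul', h2, nsmul_zero, zero_add, one_nsmul] at h2'
  exact h2'

/-- An automorphism of odd order of a product of cyclic `2`-groups of distinct orders is trivial. -/
theorem fix_of_odd (ha : StrictMono a) (ha1 : ∀ i, 1 ≤ a i)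
    (f : ((i : Fin n) → ZMod (2 ^ a i)) →+ ((i : Fin n) → ZMod (2 ^ a i)))
    (hinj : Function.Injective f) {m : ℕ} (hm : Odd m) (hfm : ∀ x, f^[m] x = x) :
    ∀ x, f x = x := by
  classical
  -- the filtration of the `2`-torsion
  have hU : ∀ (d i : ℕ), i + d = n → ∀ x : ((i : Fin n) → ZMod (2 ^ a i)), 2 • x = 0 →
      (∀ j : Fin n, (j : ℕ) < i → x j = 0) → f x = x := by
    intro d
    induction d with
    | zero =>
      intro i hi x _ hx
      have : x = 0 := by
        funext j
        exact hx j (by have := j.2; omega)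
      rw [this, map_zero]
    | succ d ih =>
      intro i hi x h2x hx
      have hin : i < n := by omega
      let I : Fin n := ⟨i, hin⟩
      by_cases hxI : x I = 0
      · refine ih (i + 1) (by omega) x h2x (fun j hj => ?_)
        rcases Nat.lt_succ_iff_lt_or_eq.1 hj with h | h
        · exact hx j h
        · have : j = I := Fin.ext h
          rw [this]
          exact hxI
      · -- `x` is a multiple of `2 ^ (a I - 1)`
        have hz : ∃ z : ((i : Fin n) → ZMod (2 ^ a i)), x = 2 ^ (a I - 1) • z := by
          refine ⟨fun l => if x l = 0 then 0 else ((2 ^ (a l - a I) : ℕ) : ZMod (2 ^ a l)), ?_⟩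
          funext l
          simp only [Pi.smul_apply]
          by_cases hl : x l = 0
          · simp [hl]
          · simp only [hl, if_false]
            have hlI : I ≤ l := by
              by_contra hcon
              push Not at hcon
              exact hl (hx l hcon)
            have hal : a I ≤ a l := ha.monotone hlI
            have h2l : 2 * x l = 0 := by
              have := congrFun h2x l
              simpa [two_nsmul, two_mul] using this
            rcases zmod_two_torsion (ha1 l) (x l) h2l with h | h
            · exact absurd h hl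
            · rw [h, nsmul_eq_mul]
              push_cast
              rw [← pow_add]
              congr 2
              have := ha1 I
              omega
        obtain ⟨z, hz⟩ := hz
        have hfx : f x = 2 ^ (a I - 1) • f z := by rw [hz, map_nsmul]
        set y := f x with hy
        have h2y : 2 • y = 0 := by rw [hy, ← map_nsmul, h2x, map_zero]
        have hyj : ∀ j : Fin n, (j : ℕ) < i → y j = 0 := by
          intro j hj
          rw [hfx, Pi.smul_apply, nsmul_eq_mul]
          have hjI : j < I := hj
          have := ha hjI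
          have h3 : ((2 ^ (a I - 1) : ℕ) : ZMod (2 ^ a j)) = 0 :=
            zmod_pow_eq_zero (by omega)
          rw [h3, zero_mul]
        have h2xI : 2 * x I = 0 := by
          have := congrFun h2x I
          simpa [two_nsmul, two_mul] using this
        have h2yI : 2 * y I = 0 := by
          have := congrFun h2y I
          simpa [two_nsmul, two_mul] using this
        have hyI : y I ≠ 0 := by
          intro h0
          have h1 : f y = y := by
            refine ih (i + 1) (by omega) y h2y (fun j hj => ?_)
            rcases Nat.lt_succ_iff_lt_or_eq.1 hj with h | h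
            · exact hyj j h
            · have : j = I := Fin.ext h
              rw [this]
              exact h0
          have h2 : y = x := hinj h1
          apply hxI
          rw [← h2]
          exact h0
        have hIe : y I = x I := by
          rcases zmod_two_torsion (ha1 I) (x I) h2xI with h | h
          · exact absurd h hxI
          · rcases zmod_two_torsion (ha1 I) (y I) h2yI with h' | h'
            · exact absurd h' hyI
            · rw [h, h']
        set w := y - x with hw
        have h2w : 2 • w = 0 := by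
          rw [hw, nsmul_sub, h2y, h2x, sub_zero]
        have hfw : f w = w := by
          refine ih (i + 1) (by omega) w h2w (fun j hj => ?_)
          rcases Nat.lt_succ_iff_lt_or_eq.1 hj with h | h
          · simp [hw, hyj j h, hx j h]
          · have : j = I := Fin.ext h
            rw [this]
            simp [hw, hIe]
        have hw0 := key_one f hm hfm h2w hfw (x := x) (by rw [hw]; abel)
        rw [hw, sub_eq_zero] at hw0
        exact hw0
  have h1 : ∀ x : ((i : Fin n) → ZMod (2 ^ a i)), 2 • x = 0 → f x = x := by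
    intro x hx
    exact hU n 0 (by omega) x hx (fun j hj => absurd hj (Nat.not_lt_zero _))
  have h2 : ∀ (k : ℕ) (x : ((i : Fin n) → ZMod (2 ^ a i))), 2 ^ k • x = 0 → f x = x := by
    intro k
    induction k with
    | zero =>
      intro x hx
      have : x = 0 := by simpa using hx
      rw [this, map_zero]
    | succ k ih =>
      intro x hx
      have h3 : f (2 • x) = 2 • x := by
        apply ih
        rw [← mul_nsmul', ← pow_succ]
        exact hx
      have h2w : 2 • (f x - x) = 0 := by
        rw [nsmul_sub, ← map_nsmul, h3, sub_self]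
      have hfw := h1 _ h2w
      have hw0 := key_one f hm hfm h2w hfw (x := x) (by abel)
      rwa [sub_eq_zero] at hw0
  intro x
  apply h2 (∑ i, a i) x
  funext i
  rw [Pi.smul_apply, nsmul_eq_mul]
  have : ((2 ^ (∑ i, a i) : ℕ) : ZMod (2 ^ a i)) = 0 :=
    zmod_pow_eq_zero (Finset.single_le_sum (fun _ _ => Nat.zero_le _) (Finset.mem_univ i))
  rw [this, zero_mul]
  rfl

end Algebra

open Cfsg.FusionSystem Cfsg.Agent.Lib.Fusion.Basic Cfsg.Agent.Lib.Fusion.Saturated Cfsg.Agent.Lib.Fusion.Abelian in
/-- The fusion-theoretic part. -/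
theorem main_aux {Ω : Type*} [Group Ω] {S : Subgroup Ω} [Finite S] (n : ℕ) (a : Fin n → ℕ)
    (ha : StrictMono a) (ha1 : ∀ i, 1 ≤ a i)
    (e : ↥S ≃* Multiplicative ((i : Fin n) → ZMod (2 ^ a i))) (F : Cfsg.FusionSystem S)
    (hF : F.IsSaturated 2) (P : Subgroup Ω) : F.Hom P = (Cfsg.innerFusionSystem S).Hom P := by
  classical
  have hab : ∀ x ∈ S, ∀ y ∈ S, x * y = y * x := by
    intro x hx y hy
    have h1 : e (⟨x, hx⟩ * ⟨y, hy⟩) = e (⟨y, hy⟩ * ⟨x, hx⟩) := by
      rw [map_mul, map_mul, mul_comm]
    have h2 := e.injective h1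
    exact congrArg Subtype.val h2
  have hS : IsPGroup 2 S := by
    intro g
    refine ⟨∑ i, a i, e.injective ?_⟩
    rw [map_pow, map_one]
    show Multiplicative.ofAdd (2 ^ (∑ i, a i) • Multiplicative.toAdd (e g)) = 1
    have : 2 ^ (∑ i, a i) • Multiplicative.toAdd (e g) = 0 := by
      funext i
      rw [Pi.smul_apply, nsmul_eq_mul]
      have h0 : ((2 ^ (∑ i, a i) : ℕ) : ZMod (2 ^ a i)) = 0 :=
        zmod_pow_eq_zero (Finset.single_le_sum (fun _ _ => Nat.zero_le _) (Finset.mem_univ i))
      rw [h0, zero_mul]
      rfl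
    rw [this]
    rfl
  -- `Aut_F(S)` has odd order
  have hfa : Finite (F.autGroup S) := finite_autGroup le_rfl
  obtain ⟨Q, hQ, hQa, -⟩ := hF S le_rfl
  have hQS : Q = S := by
    have hc := Cfsg.Agent.Lib.Fusion.Basic.IsConj.card_eq hQ
    exact Subgroup.eq_of_le_of_card_ge (Cfsg.Agent.Lib.Fusion.Basic.IsConj.le_right hQ) hc.le
  subst hQS
  have hodd : ¬ 2 ∣ (autInducedBy Q Q).relIndex (F.autGroup Q) :=
    (isFullyAutomized_iff hS le_rfl).1 hQa
  have hbot : autInducedBy Q Q = ⊥ := by
    rw [eq_bot_iff]
    intro α hα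
    obtain ⟨g, hg, hgc⟩ := mem_autInducedBy_iff.1 hα
    rw [Subgroup.mem_bot]
    ext y
    rw [hgc y, hab g hg y y.2]
    simp
  rw [hbot, Subgroup.relIndex_bot_left] at hodd
  have hmodd : Odd (Nat.card (F.autGroup Q)) := by
    rw [← Nat.not_even_iff_odd]
    rwa [even_iff_two_dvd]
  -- all automorphisms are trivial
  have htriv : ∀ α ∈ F.autGroup Q, α = 1 := by
    intro α hα
    let f : ((i : Fin n) → ZMod (2 ^ a i)) →+ ((i : Fin n) → ZMod (2 ^ a i)) :=
      { toFun := fun x => Multiplicative.toAdd (e (α (e.symm (Multiplicative.ofAdd x))))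
        map_zero' := by
          show Multiplicative.toAdd (e (α (e.symm 1))) = 0
          simp
        map_add' := fun x y => by
          show Multiplicative.toAdd (e (α (e.symm (Multiplicative.ofAdd x * Multiplicative.ofAdd y)))) = _
          rw [map_mul, map_mul, map_mul]
          rfl }
    have hfinj : Function.Injective f := by
      intro x y hxy
      have h1 := Multiplicative.toAdd.injective hxy
      have h2 := e.injective h1
      have h3 := α.injective h2
      have h4 := e.symm.injective h3
      exact Multiplicative.ofAdd.injective h4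
    have hiter : ∀ (j : ℕ) (x : ((i : Fin n) → ZMod (2 ^ a i))),
        f^[j] x = Multiplicative.toAdd (e ((α ^ j) (e.symm (Multiplicative.ofAdd x)))) := by
      intro j x
      induction j with
      | zero => simp
      | succ j ih =>
        rw [Function.iterate_succ_apply', ih, pow_succ']
        show Multiplicative.toAdd (e (α (e.symm (Multiplicative.ofAdd (Multiplicative.toAdd (e _)))))) = _
        simp [MulAut.mul_apply]
    have hαm : α ^ Nat.card (F.autGroup Q) = 1 := by
      have h1 : (⟨α, hα⟩ : F.autGroup Q) ^ Nat.card (F.autGroup Q) = 1 := pow_card_eq_one'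
      exact congrArg Subtype.val h1
    have hfm : ∀ x, f^[Nat.card (F.autGroup Q)] x = x := by
      intro x
      rw [hiter, hαm]
      simp
    have hfix := fix_of_odd ha ha1 f hfinj hmodd hfm
    ext y
    have h1 := hfix (Multiplicative.toAdd (e y))
    have h2 : e (α (e.symm (e y))) = e y := Multiplicative.toAdd.injective h1
    rw [e.symm_apply_apply] at h2
    have h3 := e.injective h2
    rw [h3]
    rfl
  refine Set.Subset.antisymm (fun φ hφ => ?_) (fun φ hφ => ?_)
  · obtain ⟨β, hβ, hag⟩ := exists_extension hF hab hφ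
    have hPS : P ≤ Q := source_le hφ
    refine ⟨hPS, 1, Q.one_mem, fun x => ?_⟩
    have h1 := htriv _ (autOfTop_mem hβ)
    have h2 : β ⟨x, hPS x.2⟩ = x := by
      have := autOfTop_apply hβ ⟨x, hPS x.2⟩
      rw [h1] at this
      exact this.symm
    rw [← hag x x.2 (hPS x.2), h2]
    simp
  · obtain ⟨hP, g, hg, hgc⟩ := hφ
    have e1 : φ = Cfsg.conjHom P g := by
      ext x
      exact hgc x
    rw [e1]
    exact F.conj_mem hP hg


/-- Let S be a finite abelian 2-group that is a direct product of cyclic groups of pairwise distinct orders 2^{a_1} < 2^{a_2} < ⋯ < 2^{a_n} (all a_i ≥ 1). Then every saturated fusion system over S is the inner one: its maps are exactly the conjugations by elements of S. -/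
theorem result {Ω : Type*} [Group Ω] {S : Subgroup Ω} [Finite S] (n : ℕ) (a : Fin n → ℕ) (ha : StrictMono a) (ha1 : ∀ i, 1 ≤ a i) (e : ↥S ≃* Multiplicative ((i : Fin n) → ZMod (2 ^ a i))) (F : Cfsg.FusionSystem S) (hF : F.IsSaturated 2) (P : Subgroup Ω) : F.Hom P = (Cfsg.innerFusionSystem S).Hom P := by
  exact main_aux n a ha ha1 e F hF P

end Cfsg.Agent.S5331
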