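import Cfsg.Statements.S5521
import Cfsg.Agent.Lib.Compute.M24Tools

set_option autoImplicit false
open Cfsg

namespace Cfsg.Agent.S5521

open Cfsg.Agent.Lib.Compute.M24 Cfsg.Agent.Lib.Compute.Golay Cfsg.Agent.Lib.Compute.GolayFast
open Cfsg.Agent.Lib.Sporadic.GolayCore Cfsg.Agent.Lib.Sporadic.M24Basic Cfsg.Agent.Lib.Sporadic.M24Act

/-- Nontrivial elements fixing the five base points and another point. -/
def fixers : List (List ℕ) := [[0,1,2,3,6,5,4,22,20,12,11,10,9,19,14,18,21,17,15,13,8,16,7,23],[0,1,2,3,4,17,18,12,9,21,7,20,10,16,5,6,22,14,15,11,19,8,13,23],[0,1,2,3,6,14,18,11,16,20,9,13,22,7,17,15,19,5,4,8,10,12,21,23],[0,1,2,3,6,17,15,9,12,16,22,8,11,21,5,4,7,14,18,10,13,20,19,23],[0,1,2,3,13,17,12,18,15,7,21,10,20,22,5,19,16,14,9,8,6,11,4,23],[0,1,2,3,13,14,9,20,7,11,18,6,21,16,17,12,4,5,19,10,8,15,22,23],[0,1,2,3,18,14,6,21,10,22,13,9,20,8,17,4,12,5,15,7,16,19,11,23],[0,1,2,3,19,14,12,8,22,10,15,4,16,21,17,9,6,5,13,11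,20,18,7,23],[0,1,2,3,19,17,9,15,18,22,16,11,8,7,5,13,21,14,12,20,4,10,6,23],[0,1,2,3,7,14,8,12,13,15,10,16,4,6,17,20,21,5,22,18,9,11,19,23],[0,1,2,3,7,17,20,10,11,13,4,18,12,19,5,22,6,14,8,9,16,15,21,23],[0,1,2,3,16,14,10,15,6,12,8,7,19,13,17,11,22,5,21,9,18,20,4,23],[0,1,2,3,12,14,19,7,20,16,4,15,10,11,17,13,18,5,9,21,22,6,8,23],[0,1,2,3,8,17,22,16,21,9,15,6,19,12,5,20,18,14,7,13,10,4,11,23],[0,1,2,3,8,14,7,19,9,4,16,10,15,18,17,22,11,5,20,6,13,21,12,23],[0,1,2,3,11,14,21,6,15,13,22,20,9,12,17,16,8,5,10,19,4,7,18,23],[0,1,2,3,21,17,10,20,8,4,13,12,18,6,5,16,19,14,11,15,22,9,7,23]]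

theorem fixers_ok : fixers.all (fun L => inM24 L && [23, 0, 1, 2, 3].all (fun i => L.getD i 0 == i) && L != idL) = true := by
  decide +kernel

theorem fixers_cover : ∀ q < 24, q ∉ ([23, 0, 1, 2, 3] : List ℕ) → fixers.any (fun L => L.getD q 0 == q) = true := by
  decide +kernel

/-- The first five base points. -/
def e5B : Fin 5 ↪ GolayPt :=
  ⟨![idxPt 23, idxPt 0, idxPt 1, idxPt 2, idxPt 3], by decide⟩

theorem e5B_cases (q : ℕ) (hq : q ∈ ([23, 0, 1, 2, 3] : List ℕ)) : ∃ i, e5B i = idxPt q := by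
  simp only [List.mem_cons, List.not_mem_nil, or_false] at hq
  rcases hq with rfl | rfl | rfl | rfl | rfl
  · exact ⟨0, rfl⟩
  · exact ⟨1, rfl⟩
  · exact ⟨2, rfl⟩
  · exact ⟨3, rfl⟩
  · exact ⟨4, rfl⟩

/-- A nontrivial element fixing the five base points and any further point. -/
theorem exists_fixer (q : GolayPt) (hq : ∀ i, e5B i ≠ q) :
    ∃ σ ∈ Cfsg.M24, σ ≠ 1 ∧ (∀ i, σ (e5B i) = e5B i) ∧ σ q = q := by
  have hq24 := ptIdx_lt q
  have hnot : ptIdx q ∉ ([23, 0, 1, 2, 3] : List ℕ) := by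
    intro h
    obtain ⟨i, hi⟩ := e5B_cases _ h
    rw [idxPt_ptIdx] at hi
    exact hq i hi
  have h1 := fixers_cover _ hq24 hnot
  simp only [List.any_eq_true, beq_iff_eq] at h1
  obtain ⟨L, hL, hLq⟩ := h1
  have h2 := List.all_eq_true.1 fixers_ok L hL
  simp only [Bool.and_eq_true, List.all_eq_true, beq_iff_eq, bne_iff_ne, ne_eq] at h2
  obtain ⟨⟨h3, h4⟩, h5⟩ := h2
  have hv : validL L = true := by
    simp only [inM24, Bool.and_eq_true] at h3
    exact h3.1
  obtain ⟨σ, hσ⟩ := exists_perm_of_validL hv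
  refine ⟨σ, mem_M24_of_inM24 hσ h3, ?_, ?_, ?_⟩
  · rintro rfl
    apply h5
    rw [toL_eq_of_codes hv hσ]
    exact toL_one
  · intro i
    have key : ∀ j ∈ ([23, 0, 1, 2, 3] : List ℕ), σ (idxPt j) = idxPt j := by
      intro j hj
      have hj24 : j < 24 := by
        revert j
        decide
      rw [hσ (idxPt j), ptIdx_idxPt hj24, h4 j hj]
    fin_cases i
    · exact key 23 (by simp)
    · exact key 0 (by simp)
    · exact key 1 (by simp)
    · exact key 2 (by simp)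
    · exact key 3 (by simp)
  · rw [hσ q, hLq, idxPt_ptIdx]

/-- The Mathieu group M₂₄ in its natural action on the 24 coordinate positions of the binary Golay code has minimal base size exactly 7: every set of at most 6 positions is fixed pointwise by some non-identity element of M₂₄, while some set of 7 positions is fixed pointwise only by the identity. -/
theorem result :
    (∀ B : Finset Cfsg.GolayPt, B.card ≤ 6 → ∃ g ∈ Cfsg.M24, g ≠ 1 ∧ ∀ b ∈ B, g b = b) ∧
    (∃ B : Finset Cfsg.GolayPt, B.card = 7 ∧ ∀ g ∈ Cfsg.M24, (∀ b ∈ B, g b = b) → g = 1) := by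
  constructor
  · intro B hB
    obtain ⟨t, hBt, ht⟩ := Finset.exists_superset_card_eq hB (by decide)
    let e := t.equivFinOfCardEq ht
    let x : Fin 6 ↪ GolayPt := ⟨fun i => (e.symm i : GolayPt), fun i j hij => by
      have := Subtype.ext hij
      simpa using this⟩
    let y : Fin 5 ↪ GolayPt := (Fin.castSuccEmb).trans x
    obtain ⟨u, hu, huy⟩ := exists_map_embedding (le_refl 5) e5B y
    have hne : ∀ i, e5B i ≠ (u⁻¹ : P) (x (Fin.last 5)) := by
      intro i hi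
      have h1 : y i = x (Fin.last 5) := by
        rw [← huy, hi]
        simp
      have h2 := x.injective h1
      exact absurd h2 (Fin.ne_of_lt (Fin.castSucc_lt_last i))
    obtain ⟨σ, hσ, hσ1, hσ2, hσ3⟩ := exists_fixer _ hne
    refine ⟨u * σ * u⁻¹, Cfsg.M24.mul_mem (Cfsg.M24.mul_mem hu hσ) (Cfsg.M24.inv_mem hu), ?_, ?_⟩
    · intro h
      apply hσ1
      have h2 : σ = u⁻¹ * (u * σ * u⁻¹) * u := by group
      rw [h2, h]
      group
    · intro b hb
      have hb' := hBt hb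
      have hbx : ∃ i, x i = b := ⟨e ⟨b, hb'⟩, by
        show ((e.symm (e ⟨b, hb'⟩) : t) : GolayPt) = b
        simp⟩
      obtain ⟨i, rfl⟩ := hbx
      refine Fin.lastCases ?_ (fun j => ?_) i
      · rw [Equiv.Perm.mul_apply, Equiv.Perm.mul_apply, hσ3]
        simp
      · have h3 : x j.castSucc = u (e5B j) := (huy j).symm
        rw [h3, Equiv.Perm.mul_apply, Equiv.Perm.mul_apply]
        simp [hσ2 j]
  · refine ⟨ofMask baseMask, by decide +kernel, fun g hg h => ?_⟩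
    exact eq_one_of_fix_base hg h


end Cfsg.Agent.S5521
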