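import Cfsg.Statements.S5562
import Mathlib

set_option autoImplicit false
open Cfsg

namespace Cfsg.Agent.S5562

/-- Let G be a finite group, d an involution of G whose conjugates pairwise have products of odd order, and x any involution of G. Then the conjugacy class of d is the disjoint union, over the conjugates a of d commuting with x, of the sets of conjugates of d commuting with ax: every conjugate of d commutes with ax for exactly one conjugate a of d that commutes with x. -/
theorem result {G : Type*} [Group G] [Finite G] (d : G) (hd : orderOf d = 2)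
    (hodd : ∀ a ∈ conjugatesOf d, ∀ b ∈ conjugatesOf d, Odd (orderOf (a * b)))
    (x : G) (hx : orderOf x = 2) :
    ∀ e ∈ conjugatesOf d,
      ∃! a : G, a ∈ conjugatesOf d ∧ Commute a x ∧ Commute e (a * x) := by
  intro e he
  have hconj : ∀ a ∈ conjugatesOf d, a * a = 1 := by
    intro a ha
    obtain ⟨g, hg⟩ := isConj_iff.1 (show IsConj d a from ha)
    rw [← hg]
    have h2 : d * d = 1 := by rw [← pow_two, ← hd]; exact pow_orderOf_eq_one d
    calc g * d * g⁻¹ * (g * d * g⁻¹) = g * (d * d) * g⁻¹ := by group
      _ = 1 := by rw [h2]; group
  have hcj : ∀ a ∈ conjugatesOf d, ∀ g : G, g * a * g⁻¹ ∈ conjugatesOf d := by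
    intro a ha g
    exact IsConj.trans (show IsConj d a from ha) (isConj_iff.2 ⟨g, rfl⟩)
  have hee := hconj e he
  have hxx : x * x = 1 := by rw [← pow_two, ← hx]; exact pow_orderOf_eq_one x
  have hei : e⁻¹ = e := inv_eq_of_mul_eq_one_left hee
  have hxi : x⁻¹ = x := inv_eq_of_mul_eq_one_left hxx
  set w := e * x with hw
  -- `e` inverts powers of `w`
  have hinv : ∀ n : ℕ, e * w ^ n * e = (w ^ n)⁻¹ := by
    intro n
    have h0 : e * w * e = w⁻¹ := by
      rw [hw, mul_inv_rev, hei, hxi]
      calc e * (e * x) * e = (e * e) * x * e := by group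
        _ = x * e := by rw [hee, one_mul]
    have : e * w ^ n * e = (e * w * e) ^ n := by
      have h1 : (e * w * e) ^ n = e * w ^ n * e⁻¹ := by
        have := conj_pow (a := e) (b := w) (i := n)
        rw [hei] at this ⊢
        exact this
      rw [h1, hei]
    rw [this, h0, inv_pow]
  have hpow_conj : ∀ n : ℕ, w ^ n * e * (w ^ n)⁻¹ = w ^ (2 * n) * e := by
    intro n
    have h1 : (w ^ n)⁻¹ = e * w ^ n * e := (hinv n).symm
    rw [h1]
    calc w ^ n * e * (e * w ^ n * e) = w ^ n * (e * e) * w ^ n * e := by group
      _ = w ^ n * w ^ n * e := by rw [hee]; group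
      _ = w ^ (2 * n) * e := by rw [two_mul, pow_add]
  have hxw : x = e * w := by rw [hw, ← mul_assoc, hee, one_mul]
  have hwe : w * x = e := by
    rw [hw, mul_assoc, hxx, mul_one]
  -- uniqueness
  have huniq : ∀ a ∈ conjugatesOf d, ∀ a' ∈ conjugatesOf d, Commute a x → Commute a' x →
      Commute e (a * x) → Commute e (a' * x) → a = a' := by
    intro a ha a' ha' hax ha'x hea hea'
    have haa := hconj a ha
    have haa' := hconj a' ha'
    set u := a * a' with hu
    have hue : Commute e u := by
      have h1 : u = (a * x) * (a' * x) := by
        rw [hu]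
        calc a * a' = a * a' * (x * x) := by rw [hxx, mul_one]
          _ = a * (a' * x) * x := by group
          _ = a * (x * a') * x := by rw [ha'x.eq]
          _ = (a * x) * (a' * x) := by group
      rw [h1]
      exact hea.mul_right hea'
    set v := e * a with hv
    have hodd_v : Odd (orderOf v) := hodd e he a ha
    have hodd_u : Odd (orderOf u) := hodd a ha a' ha'
    have hau : a * u * a = u⁻¹ := by
      rw [hu, mul_inv_rev, inv_eq_of_mul_eq_one_left haa, inv_eq_of_mul_eq_one_left haa']
      calc a * (a * a') * a = (a * a) * a' * a := by group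
        _ = a' * a := by rw [haa, one_mul]
    have hvu : v * u * v⁻¹ = u⁻¹ := by
      rw [hv, mul_inv_rev, inv_eq_of_mul_eq_one_left haa, hei]
      calc e * a * u * (a * e) = e * (a * u * a) * e := by group
        _ = e * u⁻¹ * e := by rw [hau]
        _ = u⁻¹ * (e * e) := by
            have : Commute e u⁻¹ := hue.inv_right
            rw [this.eq]; group
        _ = u⁻¹ := by rw [hee, mul_one]
    have hv2 : Commute (v * v) u := by
      show v * v * u = u * (v * v)
      have h2 : v * u = u⁻¹ * v := by
        calc v * u = v * u * v⁻¹ * v := by group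
          _ = u⁻¹ * v := by rw [hvu]
      have h3 : v * u⁻¹ = u * v := by
        have h4 : v * u⁻¹ * v⁻¹ = u := by
          have h5 := congrArg (·⁻¹) hvu
          simpa [mul_assoc] using h5
        calc v * u⁻¹ = v * u⁻¹ * v⁻¹ * v := by group
          _ = u * v := by rw [h4]
      calc v * v * u = v * (v * u) := by group
        _ = v * (u⁻¹ * v) := by rw [h2]
        _ = (v * u⁻¹) * v := by group
        _ = u * v * v := by rw [h3]
        _ = u * (v * v) := by group
    obtain ⟨k, hk⟩ := hodd_v
    have hvpow : v = (v * v) ^ (k + 1) := by
      rw [← pow_two, ← pow_mul]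
      have : 2 * (k + 1) = orderOf v + 1 := by omega
      rw [this, pow_succ, pow_orderOf_eq_one, one_mul]
    have hvc : Commute v u := by
      rw [hvpow]
      exact hv2.pow_left _
    have huu : u = u⁻¹ := by
      rw [← hvu, hvc.eq]; group
    have hu2 : u ^ 2 = 1 := by
      rw [pow_two]
      nth_rw 1 [huu]
      exact inv_mul_cancel u
    have hdvd : orderOf u ∣ 2 := orderOf_dvd_of_pow_eq_one hu2
    have hou : orderOf u = 1 := by
      obtain ⟨k', hk'⟩ := hodd_u
      have := Nat.le_of_dvd (by norm_num) hdvd
      omega
    have hu1 : u = 1 := orderOf_eq_one_iff.1 hou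
    rw [hu] at hu1
    have := mul_eq_one_iff_eq_inv.1 hu1
    rwa [inv_eq_of_mul_eq_one_left haa'] at this
  -- existence
  obtain ⟨a, ha, hax, hea⟩ : ∃ a ∈ conjugatesOf d, Commute a x ∧ Commute e (a * x) := by
    rcases Nat.even_or_odd (orderOf w) with hev | hod
    · obtain ⟨m, hm⟩ := hev
      have hm2 : orderOf w = 2 * m := by omega
      have hwm : (w ^ m) * (w ^ m) = 1 := by
        rw [← pow_add, ← hm, pow_orderOf_eq_one]
      have hm0 : m ≠ 0 := by
        intro h0
        have : 0 < orderOf w := by
          rw [orderOf_pos_iff]
          exact isOfFinOrder_of_finite w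
        omega
      have hmo : Odd m := by
        by_contra hne
        rw [Nat.not_odd_iff_even] at hne
        obtain ⟨l, hl⟩ := hne
        -- `e` and its conjugate by `w ^ l` have a product of order 2
        have hc := hcj e he (w ^ l)
        have h1 := hodd e he _ hc
        rw [hpow_conj l] at h1
        have hlm : 2 * l = m := by omega
        rw [hlm] at h1
        have h2 : e * (w ^ m * e) = (w ^ m)⁻¹ := by
          rw [← hinv m]; group
        rw [h2, orderOf_inv] at h1
        have h3 : orderOf (w ^ m) = 2 := by
          apply orderOf_eq_prime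
          · rw [pow_two]; exact hwm
          · intro h4
            have := orderOf_dvd_of_pow_eq_one h4
            have hpos : 0 < m := Nat.pos_of_ne_zero hm0
            have := Nat.le_of_dvd hpos this
            omega
        rw [h3] at h1
        exact absurd h1 (by decide)
      obtain ⟨r, hr⟩ := hmo
      -- the element `a`
      refine ⟨w ^ m * x, ?_, ?_, ?_⟩
      · have h1 : w ^ m * x = w ^ r * e * (w ^ r)⁻¹ := by
          rw [hpow_conj r]
          have h2 : 2 * r = m - 1 := by omega
          have h3 : w ^ m = w ^ (2 * r) * w := by
            rw [← pow_succ]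
            congr 1
          rw [h3, mul_assoc, hwe]
        rw [h1]
        exact hcj e he _
      · -- `w ^ m` is central in the dihedral group
        have hc : Commute x (w ^ m) := by
          have h1 : x * w ^ m * x = (w ^ m)⁻¹ := by
            rw [hxw]
            rw [← hinv m]
            have h2 : w * w ^ m = w ^ m * w := (Commute.refl w).pow_right m
            have h3 : (e * w) * w ^ m * (e * w) = e * w ^ m * (w * e * w) := by
              calc (e * w) * w ^ m * (e * w) = e * (w * w ^ m) * (e * w) := by group
                _ = e * (w ^ m * w) * (e * w) := by rw [h2]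
                _ = e * w ^ m * (w * e * w) := by group
            rw [h3]
            congr 1
            have h4 : e * w * e = w⁻¹ := by
              have := hinv 1
              rwa [pow_one] at this
            have h6 : w * (e * w * e) * e = w * e * w * (e * e) := by group
            rw [hee, mul_one] at h6
            rw [← h6, h4]
            group
          have h5 : (w ^ m)⁻¹ = w ^ m := inv_eq_of_mul_eq_one_left hwm
          rw [h5] at h1
          show x * w ^ m = w ^ m * x
          calc x * w ^ m = (x * w ^ m * x) * x := by rw [mul_assoc, mul_assoc, hxx, mul_one]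
            _ = w ^ m * x := by rw [h1]
        show w ^ m * x * x = x * (w ^ m * x)
        rw [← mul_assoc, ← hc.eq]
      · rw [mul_assoc, hxx, mul_one]
        have h1 := hinv m
        have h5 : (w ^ m)⁻¹ = w ^ m := inv_eq_of_mul_eq_one_left hwm
        rw [h5] at h1
        show e * w ^ m = w ^ m * e
        calc e * w ^ m = (e * w ^ m * e) * e := by rw [mul_assoc, mul_assoc, hee, mul_one]
          _ = w ^ m * e := by rw [h1]
    · obtain ⟨k, hk⟩ := hod
      -- `x` is conjugate to `e`
      have hxc : x ∈ conjugatesOf d := by
        have h1 : x = w ^ k * e * (w ^ k)⁻¹ := by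
          rw [hpow_conj k]
          have h2 : w ^ (2 * k) * w = 1 := by
            rw [← pow_succ]
            have : 2 * k + 1 = orderOf w := by omega
            rw [this, pow_orderOf_eq_one]
          have h3 : w ^ (2 * k) = w⁻¹ := eq_inv_of_mul_eq_one_left h2
          rw [h3, hw, mul_inv_rev, hei, hxi]
          rw [mul_assoc, hee, mul_one]
        rw [h1]
        exact hcj e he _
      refine ⟨x, hxc, Commute.refl x, ?_⟩
      rw [hxx]
      exact Commute.one_right e
  refine ⟨a, ⟨ha, hax, hea⟩, ?_⟩
  rintro a' ⟨ha', ha'x, hea'⟩
  exact huniq a' ha' a ha ha'x hax hea' hea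

end Cfsg.Agent.S5562
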