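import Cfsg.Statements.S5722
import Mathlib
import Cfsg.Agent.Lib.CompLen.Main

set_option autoImplicit false
open Cfsg

namespace Cfsg.Agent.S5722

open Cfsg.Agent.Lib.CompLen in
/-- If a finite group G acts faithfully on a finite set with n points and r orbits, then the composition length of G is at most 4(n − r)/3. Here the composition length is expressed through chains: the conclusion bounds the length l of every chain of subgroups 1 = H₀ < H₁ < ⋯ < H_l = G in which each term is normal in the next (the longest such chains are exactly the composition series). -/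
theorem result {G Ω : Type*} [Group G] [Finite G] [MulAction G Ω] [FaithfulSMul G Ω] [Fintype Ω]
    (l : ℕ) (H : Fin (l + 1) → Subgroup G) (h0 : H 0 = ⊥) (hl : H (Fin.last l) = ⊤)
    (hchain : ∀ i : Fin l, H i.castSucc < H i.succ ∧ ((H i.castSucc).subgroupOf (H i.succ)).Normal) :
    3 * l ≤ 4 * (Fintype.card Ω - Nat.card (Quotient (MulAction.orbitRel G Ω))) := by
  have key : ∀ (k : ℕ) (hk : k ≤ l), ChainFrom (H ⟨l - k, by omega⟩) k := by
    intro k
    induction k with
    | zero =>
      intro _
      have : H ⟨l - 0, by omega⟩ = ⊤ := by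
        rw [← hl]
        congr 1
      rw [this]
      exact ChainFrom.top
    | succ k ih =>
      intro hk
      have h1 := ih (by omega)
      obtain ⟨hlt, hN⟩ := hchain ⟨l - (k + 1), by omega⟩
      have e1 : (⟨l - (k + 1), by omega⟩ : Fin l).castSucc = (⟨l - (k + 1), by omega⟩ : Fin (l + 1)) := rfl
      have e2 : (⟨l - (k + 1), by omega⟩ : Fin l).succ = (⟨l - k, by omega⟩ : Fin (l + 1)) := by
        apply Fin.ext
        simp only [Fin.val_succ]
        omega
      rw [e1, e2] at hlt hN
      refine ChainFrom.step hlt ?_ h1
      intro b hb a ha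
      have h2 := hN.conj_mem ⟨a, hlt.le ha⟩ ha ⟨b, hb⟩
      exact h2
  have h := chain_bd (Ω := Ω) _ _ (key l le_rfl)
  rw [Nat.card_eq_fintype_card (α := Ω)] at h
  have h' : 3 * l + 4 * Nat.card (Quotient (MulAction.orbitRel G Ω)) ≤ 4 * Fintype.card Ω := h
  omega

end Cfsg.Agent.S5722
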