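import Cfsg.Statements.S5729
import Mathlib
-- import your own Cfsg.Agent.* helpers here

set_option autoImplicit false
open Cfsg

namespace Cfsg.Agent.S5729

open MulAction

theorem exists_emb {Ω : Type*} (a b : Ω) (hab : a ≠ b) : ∃ x : Fin 2 ↪ Ω, x 0 = a ∧ x 1 = b := by
  refine ⟨⟨![a, b], ?_⟩, rfl, rfl⟩
  intro i j hij
  fin_cases i <;> fin_cases j <;> simp_all

set_option maxHeartbeats 1000000 in
/-- Let a finite group G act faithfully and transitively on a set with n ≥ 3 points. Then either G is a Frobenius permutation group (Frobenius as a permutation group: transitive, some non-identity element fixes a point, and no non-identity element fixes two points) of order n(n − 1) and exactly |G|/n of its elements are derangements (fix no point), or the number of derangements is greater than |G|/n. -/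
theorem result {G Ω : Type*} [Group G] [Finite G] [MulAction G Ω] [FaithfulSMul G Ω] [Fintype Ω] (htr : MulAction.IsPretransitive G Ω) (hn : 3 ≤ Fintype.card Ω) :
    ((MulAction.IsPretransitive G Ω ∧ (∃ g : G, g ≠ 1 ∧ ∃ ω : Ω, g • ω = ω) ∧ ∀ g : G, g ≠ 1 → Nat.card (MulAction.fixedBy Ω g) ≤ 1) ∧ Nat.card G = Fintype.card Ω * (Fintype.card Ω - 1) ∧ Fintype.card Ω * Nat.card {g : G // ∀ ω : Ω, g • ω ≠ ω} = Nat.card G) ∨
    Nat.card G < Fintype.card Ω * Nat.card {g : G // ∀ ω : Ω, g • ω ≠ ω} := by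
  classical
  haveI := Fintype.ofFinite G
  obtain ⟨a₀⟩ : Nonempty Ω := Fintype.card_pos_iff.mp (by omega)
  set n := Fintype.card Ω with hn_def
  have hnpos : 0 < n := by omega
  let f : G → ℕ := fun g => Nat.card (fixedBy Ω g)
  have hB1 := sum_card_fixedBy_eq_card_orbits_mul_card_group G Ω
  have hB2 := sum_card_fixedBy_eq_card_orbits_mul_card_group G (Ω × Ω)
  simp only [Fintype.card_eq_nat_card] at hB1 hB2
  set r := Nat.card (orbitRel.Quotient G (Ω × Ω)) with hr
  set N := Nat.card G with hN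
  have hq1 : Nat.card (orbitRel.Quotient G Ω) = 1 := by
    have hsub : Subsingleton (orbitRel.Quotient G Ω) := by
      refine ⟨fun x y => ?_⟩
      induction x using Quotient.inductionOn' with
      | h x =>
        induction y using Quotient.inductionOn' with
        | h y =>
          apply Quotient.sound'
          rw [orbitRel_apply]
          exact htr.exists_smul_eq y x
    exact Nat.card_of_subsingleton (Quotient.mk'' a₀)
  have h1 : ∑ g : G, f g = N := by
    rw [hB1, hq1, one_mul]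
  have hfpr : ∀ g : G, Nat.card (fixedBy (Ω × Ω) g) = f g ^ 2 := by
    intro g
    rw [pow_two, ← Nat.card_prod]
    apply Nat.card_congr
    exact
      { toFun := fun x => ⟨⟨x.1.1, congrArg Prod.fst x.2⟩, ⟨x.1.2, congrArg Prod.snd x.2⟩⟩
        invFun := fun y => ⟨(y.1.1, y.2.1), Prod.ext y.1.2 y.2.2⟩
        left_inv := fun _ => rfl
        right_inv := fun _ => rfl }
  have h2 : ∑ g : G, f g ^ 2 = r * N := by
    rw [← hB2]
    exact Finset.sum_congr rfl (fun g _ => (hfpr g).symm)
  have hfle : ∀ g : G, f g ≤ n := by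
    intro g
    have : Nat.card (fixedBy Ω g) ≤ Nat.card Ω := Nat.card_le_card_of_injective _ Subtype.val_injective
    rw [Nat.card_eq_fintype_card (α := Ω)] at this
    exact this
  have hsum : ∑ g : G, (((f g : ℕ) : ℤ) - 1) * (((f g : ℕ) : ℤ) - (n : ℤ)) =
      ((r : ℤ) - 1) * (N : ℤ) := by
    have hexp : ∀ g : G, (((f g : ℕ) : ℤ) - 1) * (((f g : ℕ) : ℤ) - (n : ℤ)) =
        ((f g : ℕ) : ℤ) ^ 2 - ((n : ℤ) + 1) * ((f g : ℕ) : ℤ) + (n : ℤ) := by
      intro g
      ring
    simp_rw [hexp]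
    rw [Finset.sum_add_distrib, Finset.sum_sub_distrib, ← Finset.mul_sum, Finset.sum_const,
      Finset.card_univ, ← Nat.card_eq_fintype_card]
    have e1 : ∑ g : G, ((f g : ℕ) : ℤ) = (N : ℤ) := by
      rw [← h1]
      push_cast
      rfl
    have e2 : ∑ g : G, ((f g : ℕ) : ℤ) ^ 2 = (r : ℤ) * (N : ℤ) := by
      have := congrArg (Nat.cast : ℕ → ℤ) h2
      push_cast at this
      exact this
    rw [e1, e2, nsmul_eq_mul]
    ring
  have hterm : ∀ g : G, (((f g : ℕ) : ℤ) - 1) * (((f g : ℕ) : ℤ) - (n : ℤ)) ≤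
      if f g = 0 then (n : ℤ) else 0 := by
    intro g
    by_cases h : f g = 0
    · simp [h]
    · simp only [h, if_false]
      have h3 : (1 : ℤ) ≤ ((f g : ℕ) : ℤ) := by
        have : 1 ≤ f g := Nat.one_le_iff_ne_zero.mpr h
        exact_mod_cast this
      have h4 : ((f g : ℕ) : ℤ) ≤ (n : ℤ) := by exact_mod_cast hfle g
      nlinarith
  let D : Finset G := Finset.univ.filter (fun g => f g = 0)
  have hfzero : ∀ g : G, f g = 0 ↔ ∀ ω : Ω, g • ω ≠ ω := by
    intro g
    have : f g = 0 ↔ IsEmpty (fixedBy Ω g) := by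
      show Nat.card (fixedBy Ω g) = 0 ↔ _
      rw [Nat.card_eq_zero]
      constructor
      · rintro (h | h)
        · exact h
        · exact absurd (Set.toFinite (fixedBy Ω g)) (Set.not_finite.mpr (Set.infinite_coe_iff.mp h) |>.elim)
      · exact Or.inl
    rw [this]
    constructor
    · intro h ω hω
      exact h.false ⟨ω, hω⟩
    · intro h
      exact ⟨fun x => h x.1 x.2⟩
  have hDcard : Nat.card {g : G // ∀ ω : Ω, g • ω ≠ ω} = D.card :=
    Nat.subtype_card D (fun g => by simp [D, hfzero])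
  rw [hDcard]
  have hsumD : ∑ g : G, (if f g = 0 then (n : ℤ) else 0) = (n : ℤ) * (D.card : ℤ) := by
    rw [Finset.sum_ite, Finset.sum_const, Finset.sum_const_zero, add_zero, nsmul_eq_mul, mul_comm]
  have hle : ((r : ℤ) - 1) * (N : ℤ) ≤ (n : ℤ) * (D.card : ℤ) := by
    rw [← hsum, ← hsumD]
    exact Finset.sum_le_sum (fun g _ => hterm g)
  -- r ≥ 2
  obtain ⟨b₀, hb₀⟩ : ∃ b : Ω, a₀ ≠ b := by
    have : Nontrivial Ω := Fintype.one_lt_card_iff_nontrivial.mp (by omega)
    obtain ⟨b, hb⟩ := exists_ne a₀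
    exact ⟨b, hb.symm⟩
  have hdiff : ∀ a b c d : Ω, a = b → c ≠ d →
      (Quotient.mk'' (a, b) : orbitRel.Quotient G (Ω × Ω)) ≠ Quotient.mk'' (c, d) := by
    intro a b c d hab hcd h
    have h3 := Quotient.eq''.mp h
    rw [orbitRel_apply] at h3
    obtain ⟨g, hg⟩ := h3
    have h4 := congrArg Prod.fst hg
    have h5 := congrArg Prod.snd hg
    simp only [Prod.smul_fst, Prod.smul_snd] at h4 h5
    apply hcd
    apply smul_left_cancel g
    rw [h4, h5, hab]
  have hr2 : 2 ≤ r := by
    have hne := hdiff a₀ a₀ a₀ b₀ rfl hb₀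
    have : 1 < Nat.card (orbitRel.Quotient G (Ω × Ω)) := by
      rw [Finite.one_lt_card_iff_nontrivial]
      exact ⟨⟨_, _, hne⟩⟩
    exact this
  have hNpos : 0 < N := Nat.card_pos
  by_cases hlt : N < n * D.card
  · exact Or.inr hlt
  left
  push Not at hlt
  have hrZ : (2 : ℤ) ≤ (r : ℤ) := by exact_mod_cast hr2
  have hNZ : (0 : ℤ) < (N : ℤ) := by exact_mod_cast hNpos
  have hltZ : (n : ℤ) * (D.card : ℤ) ≤ (N : ℤ) := by exact_mod_cast hlt
  have hr_eq : (r : ℤ) = 2 := by
    by_contra hne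
    have : (3 : ℤ) ≤ (r : ℤ) := by omega
    nlinarith
  have hr_eq' : r = 2 := by exact_mod_cast hr_eq
  have heq : (n : ℤ) * (D.card : ℤ) = (N : ℤ) := by
    rw [hr_eq] at hle
    nlinarith
  have heq' : n * D.card = N := by exact_mod_cast heq
  -- termwise equality
  have hteq : ∀ g ∈ (Finset.univ : Finset G), (((f g : ℕ) : ℤ) - 1) * (((f g : ℕ) : ℤ) - (n : ℤ)) =
      if f g = 0 then (n : ℤ) else 0 := by
    apply (Finset.sum_eq_sum_iff_of_le (fun g _ => hterm g)).mp
    rw [hsum, hsumD, hr_eq, heq]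
    ring
  have hfix1 : ∀ g : G, g ≠ 1 → f g ≤ 1 := by
    intro g hg
    by_contra hcon
    push Not at hcon
    have h3 := hteq g (Finset.mem_univ g)
    have h0 : f g ≠ 0 := by omega
    simp only [h0, if_false] at h3
    have h5 : f g ≠ n := by
      intro h6
      apply hg
      refine FaithfulSMul.eq_of_smul_eq_smul (α := Ω) (fun x => ?_)
      rw [one_smul]
      have huniv : fixedBy Ω g = Set.univ := by
        have hcard : Nat.card (fixedBy Ω g) = Nat.card Ω := by
          rw [Nat.card_eq_fintype_card (α := Ω)]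
          exact h6
        apply Set.eq_of_subset_of_ncard_le (Set.subset_univ _)
        rw [Set.ncard_univ, ← Nat.card_coe_set_eq, hcard]
      have : x ∈ fixedBy Ω g := by rw [huniv]; trivial
      exact this
    have h7 : 2 ≤ f g := hcon
    have h8 : f g < n := lt_of_le_of_ne (hfle g) h5
    have h9 : (1 : ℤ) < ((f g : ℕ) : ℤ) := by exact_mod_cast h7
    have h10 : ((f g : ℕ) : ℤ) < (n : ℤ) := by exact_mod_cast h8
    nlinarith
  have hfix2 : ∀ (g : G) (a b : Ω), a ≠ b → g • a = a → g • b = b → g = 1 := by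
    intro g a b hab ha hb
    by_contra hg
    have h3 : Nat.card (fixedBy Ω g) ≤ 1 := hfix1 g hg
    have h4 : Subsingleton (fixedBy Ω g) := Finite.card_le_one_iff_subsingleton.mp h3
    have h5 : (⟨a, ha⟩ : fixedBy Ω g) = ⟨b, hb⟩ := Subsingleton.elim _ _
    exact hab (congrArg Subtype.val h5)
  have htwo : IsMultiplyPretransitive G Ω 2 := by
    rw [is_two_pretransitive_iff]
    intro a b c d hab hcd
    have hcl : (Quotient.mk'' (c, d) : orbitRel.Quotient G (Ω × Ω)) = Quotient.mk'' (a, b) := by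
      by_contra hne
      have h3 := hdiff a a a b rfl hab
      have h4 := hdiff a a c d rfl hcd
      haveI := Fintype.ofFinite (orbitRel.Quotient G (Ω × Ω))
      have h5 : ({Quotient.mk'' (a, a), Quotient.mk'' (a, b), Quotient.mk'' (c, d)} :
          Finset (orbitRel.Quotient G (Ω × Ω))).card = 3 := by
        rw [Finset.card_eq_three]
        exact ⟨_, _, _, h3, h4, Ne.symm hne, rfl⟩
      have h6 := Finset.card_le_univ ({Quotient.mk'' (a, a), Quotient.mk'' (a, b),
        Quotient.mk'' (c, d)} : Finset (orbitRel.Quotient G (Ω × Ω)))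
      rw [h5, ← Nat.card_eq_fintype_card] at h6
      rw [← hr, hr_eq'] at h6
      omega
    have h3 := Quotient.eq''.mp hcl
    rw [orbitRel_apply] at h3
    obtain ⟨g, hg⟩ := h3
    exact ⟨g, congrArg Prod.fst hg, congrArg Prod.snd hg⟩
  have hemb : ∀ a b : Ω, a ≠ b → ∃ x : Fin 2 ↪ Ω, x 0 = a ∧ x 1 = b := exists_emb
  have hcardG : N = n * (n - 1) := by
    obtain ⟨x, hx0, hx1⟩ := hemb a₀ b₀ hb₀
    have hst : stabilizer G x = ⊥ := by
      rw [eq_bot_iff]
      intro g hg
      rw [Subgroup.mem_bot]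
      have hg' := mem_stabilizer_iff.mp hg
      have e0 : g • (x 0) = x 0 := congrArg (fun y : Fin 2 ↪ Ω => y 0) hg'
      have e1 : g • (x 1) = x 1 := congrArg (fun y : Fin 2 ↪ Ω => y 1) hg'
      exact hfix2 g (x 0) (x 1) (by rw [hx0, hx1]; exact hb₀) e0 e1
    have h1' : (stabilizer G x).index = Nat.card (Fin 2 ↪ Ω) := by
      rw [index_stabilizer, (isPretransitive_iff_orbit_eq_univ x).mp htwo]
      simp
    rw [hst, Subgroup.index_bot, Nat.card_eq_fintype_card (α := Fin 2 ↪ Ω),
      Fintype.card_embedding_eq, Fintype.card_fin] at h1'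
    rw [hN, h1', show (2 : ℕ) = 1 + 1 from rfl, Nat.descFactorial_succ, Nat.descFactorial_one]
    ring
  have hstab : Nat.card (stabilizer G a₀) = n - 1 := by
    have h3 := Subgroup.card_mul_index (stabilizer G a₀)
    rw [index_stabilizer_of_transitive, ← hN, hcardG, Nat.card_eq_fintype_card (α := Ω)] at h3
    exact Nat.eq_of_mul_eq_mul_right hnpos (by rw [h3]; ring)
  obtain ⟨g, hg⟩ : ∃ g : stabilizer G a₀, g ≠ 1 := by
    have h3 : 1 < Nat.card (stabilizer G a₀) := by omega
    have h4 := Finite.one_lt_card_iff_nontrivial.mp h3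
    exact exists_ne 1
  refine ⟨⟨htr, ⟨g, fun h => hg (Subtype.ext h), a₀, g.2⟩, hfix1⟩, hcardG, heq'⟩

end Cfsg.Agent.S5729
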