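import Cfsg.Statements.S5730
import Cfsg.Agent.Lib.Perm.DerangeTwoB

set_option autoImplicit false
set_option linter.style.haveILetI false
open Cfsg

namespace Cfsg.Agent.S5730

open MulAction Cfsg.Agent.Lib.Perm.DerangeTwo
open Cfsg.Agent.Lib.Perm.PrimeDeg

/-- Let a finite group G act faithfully and transitively on a set with n ≥ 7 points. Then either G is a Frobenius permutation group (Frobenius as a permutation group: transitive, some non-identity element fixes a point, and no non-identity element fixes two points) of order n(n − 1)/a with a ∈ {1, 2}, in which case exactly a|G|/n of its elements are derangements, or the number of derangements is at least 2|G|/n. (Equality does occur: PSL₃(2) acting on the 7 points of the Fano plane has exactly 2|G|/7 derangements.) -/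
theorem result {G Ω : Type*} [Group G] [Finite G] [MulAction G Ω] [FaithfulSMul G Ω] [Fintype Ω] (htr : MulAction.IsPretransitive G Ω) (hn : 7 ≤ Fintype.card Ω) :
    (∃ a : ℕ, (a = 1 ∨ a = 2) ∧ (MulAction.IsPretransitive G Ω ∧ (∃ g : G, g ≠ 1 ∧ ∃ ω : Ω, g • ω = ω) ∧ ∀ g : G, g ≠ 1 → Nat.card (MulAction.fixedBy Ω g) ≤ 1) ∧ a * Nat.card G = Fintype.card Ω * (Fintype.card Ω - 1) ∧ Fintype.card Ω * Nat.card {g : G // ∀ ω : Ω, g • ω ≠ ω} = a * Nat.card G) ∨
    2 * Nat.card G ≤ Fintype.card Ω * Nat.card {g : G // ∀ ω : Ω, g • ω ≠ ω} := by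
  classical
  letI := Fintype.ofFinite G
  haveI := htr
  have hcard : 1 < Fintype.card Ω := by omega
  haveI : Nontrivial Ω := Fintype.one_lt_card_iff_nontrivial.mp hcard
  haveI : Nonempty Ω := inferInstance
  by_cases hT : TwoT G Ω
  swap
  · right
    unfold TwoT at hT
    push Not at hT
    obtain ⟨x, y, x', y', hxy, hxy', hno⟩ := hT
    apply two_mul_le_of_sum_sq
    apply sum_sq_ge hxy hxy'
    rintro ⟨g, h1, h2⟩
    exact hno g h1 h2
  obtain ⟨a, b, hab⟩ := exists_pair_ne Ω
  have hGcard := card_eq_mul hT hab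
  have hder := der_formula hT hab
  have hnQ : (7 : ℚ) ≤ Fintype.card Ω := by exact_mod_cast hn
  have hn1Q : ((Fintype.card Ω - 1 : ℕ) : ℚ) = (Fintype.card Ω : ℚ) - 1 := by
    rw [Nat.cast_sub (by omega)]
    norm_num
  by_cases hbot : st G a b = ⊥
  · -- sharply 2-transitive
    left
    have hN1 : Nat.card (st G a b) = 1 := by rw [hbot, Subgroup.card_bot]
    rw [hN1, mul_one] at hGcard
    refine ⟨1, Or.inl rfl, ⟨htr, ?_, ?_⟩, ?_, ?_⟩
    · have h1 := natCard_orbit_mul G a
      have h2 : Nat.card (orbit G a) = Fintype.card Ω := by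
        rw [orbit_eq_univ, Nat.card_coe_set_eq, Set.ncard_univ, Nat.card_eq_fintype_card]
      rw [h2, hGcard] at h1
      have h3 : Nat.card (stabilizer G a) = Fintype.card Ω - 1 :=
        Nat.eq_of_mul_eq_mul_left (by omega) h1
      have h4 : 1 < Nat.card (stabilizer G a) := by omega
      haveI : Nontrivial (stabilizer G a) := Finite.one_lt_card_iff_nontrivial.mp h4
      obtain ⟨g, hg⟩ := exists_ne (1 : stabilizer G a)
      refine ⟨g.1, fun h => hg (Subtype.ext h), a, g.2⟩
    · intro g hg
      by_contra hcon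
      push Not at hcon
      haveI : Nontrivial (fixedBy Ω g) := Finite.one_lt_card_iff_nontrivial.mp hcon
      obtain ⟨x, y, hxy⟩ := exists_pair_ne (fixedBy Ω g)
      have hxy' : x.1 ≠ y.1 := fun h => hxy (Subtype.ext h)
      have h1 : Nat.card (st G x.1 y.1) = 1 := by
        rw [card_st_eq hT hab hxy', hN1]
      have h2 : st G x.1 y.1 = ⊥ := Subgroup.card_eq_one.mp h1
      have h3 : g ∈ st G x.1 y.1 := mem_st.mpr ⟨x.2, y.2⟩
      rw [h2, Subgroup.mem_bot] at h3
      exact hg h3
    · rw [one_mul, hGcard]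
    · rw [one_mul, hGcard]
      congr 1
      have h1 : ∑ g : G, (if g ∈ st G a b then (1 : ℚ) / (fx Ω g : ℚ) else 0) =
          1 / (Fintype.card Ω : ℚ) := by
        rw [Finset.sum_eq_single (1 : G)]
        · rw [if_pos (one_mem _)]
          have h2 : fx Ω (1 : G) = Fintype.card Ω := by
            have h3 : MulAction.fixedBy Ω (1 : G) = Set.univ := by
              ext x
              simp
            rw [fx, h3, Nat.card_coe_set_eq, Set.ncard_univ, Nat.card_eq_fintype_card]
          rw [h2]
        · intro g _ hg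
          rw [if_neg]
          rw [hbot, Subgroup.mem_bot]
          exact hg
        · intro h
          exact absurd (Finset.mem_univ _) h
      rw [h1] at hder
      have hn0 : (Fintype.card Ω : ℚ) ≠ 0 := by linarith
      have h2 : (Nat.card {g : G // ∀ ω : Ω, g • ω ≠ ω} : ℚ) = ((Fintype.card Ω - 1 : ℕ) : ℚ) := by
        rw [hder, hn1Q]
        field_simp
      exact_mod_cast h2
  · right
    have hmain := main_ineq hT hn hab hbot
    have hsum : ∑ g : G, (if g ∈ st G a b then (1 : ℚ) / (fx Ω g : ℚ) else 0) =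
        ∑ k : st G a b, (1 : ℚ) / (fx Ω (k : G) : ℚ) := by
      rw [← Finset.sum_filter]
      apply Finset.sum_subtype
      intro g
      simp
    rw [hsum] at hder
    have h1 : (2 : ℚ) * Nat.card G ≤
        (Fintype.card Ω : ℚ) * Nat.card {g : G // ∀ ω : Ω, g • ω ≠ ω} := by
      rw [hder, hGcard]
      push_cast
      rw [hn1Q]
      have hn0 : (0 : ℚ) ≤ (Fintype.card Ω : ℚ) * ((Fintype.card Ω : ℚ) - 1) := by
        apply mul_nonneg <;> linarith
      have := mul_le_mul_of_nonneg_left hmain hn0
      linarith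
    exact_mod_cast h1

end Cfsg.Agent.S5730
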