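import Cfsg.Statements.S5736
import Cfsg.Agent.Lib.Binary.Main

set_option autoImplicit false
open Cfsg

namespace Cfsg.Agent.S5736

/-- Let F be a finite field with q ≥ 4 elements, q ≠ 5, let G = PSL₂(F) and let H be a proper subgroup of G. Then the action of G on the cosets of H is binary if and only if H is trivial, or q is a power of 2 and H is a Sylow 2-subgroup, or q = 2^a with a odd and H has order 3. Here an action is binary (relational complexity 2) when, for every n ≥ 2 and all n-tuples I, J of points, if for every pair of positions some group element carries the corresponding pair of entries of I to those of J, then a single group element carries I to J. -/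
theorem result {F : Type*} [Field F] [Fintype F] (h4 : 4 ≤ Fintype.card F) (h5 : Fintype.card F ≠ 5)
    (H : Subgroup (Matrix.ProjectiveSpecialLinearGroup (Fin 2) F)) (hH : H ≠ ⊤) :
    (∀ (n : ℕ) (I J : Fin n → Matrix.ProjectiveSpecialLinearGroup (Fin 2) F ⧸ H), 2 ≤ n →
        (∀ i j : Fin n, i ≠ j → ∃ g : Matrix.ProjectiveSpecialLinearGroup (Fin 2) F, g • I i = J i ∧ g • I j = J j) → ∃ g : Matrix.ProjectiveSpecialLinearGroup (Fin 2) F, ∀ i, g • I i = J i) ↔
      (H = ⊥ ∨ ((∃ a : ℕ, Fintype.card F = 2 ^ a) ∧ ∃ P : Sylow 2 (Matrix.ProjectiveSpecialLinearGroup (Fin 2) F), H = P) ∨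
        ((∃ a : ℕ, Odd a ∧ Fintype.card F = 2 ^ a) ∧ Nat.card H = 3)) := by
  have h2of : ∀ a : ℕ, Fintype.card F = 2 ^ a → (2 : F) = 0 := by
    intro a ha
    have h0 : ((Fintype.card F : ℕ) : F) = 0 := Nat.cast_card_eq_zero F
    rw [ha] at h0
    push_cast at h0
    exact eq_zero_of_pow_eq_zero h0
  constructor
  · intro hB
    exact Cfsg.Agent.Lib.Binary.Main.forward h4 h5 hH hB
  · rintro (rfl | ⟨⟨a, ha⟩, P, rfl⟩ | ⟨⟨a, hodd, ha⟩, hcard⟩)
    · exact Cfsg.Agent.Lib.Binary.Core.bin_bot
    · exact Cfsg.Agent.Lib.Binary.Back.bin_sylow (h2of a ha) P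
    · have h2 := h2of a ha
      exact Cfsg.Agent.Lib.Binary.Back.bin_three h2
        (Cfsg.Agent.Lib.Binary.Back.no_root_of_odd hodd ha h2) hcard

end Cfsg.Agent.S5736
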