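import Cfsg.Statements.S5738
import Mathlib
-- import your own Cfsg.Agent.* helpers here

set_option autoImplicit false
open Cfsg

namespace Cfsg.Agent.S5738

variable {F K : Type*} [Field F] [Field K] [Algebra F K]

/-- Left multiplication. -/
abbrev ML (F : Type*) {K : Type*} [Field F] [Field K] [Algebra F K] : K →* Module.End F K :=
  ((Algebra.lmul F K : K →ₐ[F] Module.End F K) : K →* Module.End F K)

theorem ML_apply (c x : K) : ML F c x = c * x := rfl

/-- The semilinear map `x ↦ a σ(x)` as a unit. -/
def theta (a : Kˣ) (σ : K ≃ₐ[F] K) : (Module.End F K)ˣ where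
  val := ML F (a : K) * (σ.toLinearEquiv.toLinearMap : K →ₗ[F] K)
  inv := (σ.symm.toLinearEquiv.toLinearMap : K →ₗ[F] K) * ML F ((a⁻¹ : Kˣ) : K)
  val_inv := by
    ext x
    simp [ML_apply]
  inv_val := by
    ext x
    simp [ML_apply]

theorem theta_val_apply (a : Kˣ) (σ : K ≃ₐ[F] K) (x : K) : (theta a σ).val x = a * σ x := rfl

theorem theta_inv_apply (a : Kˣ) (σ : K ≃ₐ[F] K) (x : K) :
    (theta a σ).inv x = σ.symm (((a⁻¹ : Kˣ) : K) * x) := rfl

/-- Inverse of `theta`. -/
theorem theta_inv (a : Kˣ) (σ : K ≃ₐ[F] K) :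
    (theta a σ)⁻¹ = theta (Units.map (σ.symm : K →* K) a⁻¹) σ.symm := by
  apply Units.ext
  ext x
  change σ.symm (((a⁻¹ : Kˣ) : K) * x) = (Units.map (σ.symm : K →* K) a⁻¹ : Kˣ) * σ.symm x
  simp [map_mul]

/-- Conjugation action of `theta` on multiplications. -/
theorem theta_conj (a : Kˣ) (σ : K ≃ₐ[F] K) (c : Kˣ) :
    theta a σ * (Units.map (ML F) c) * (theta a σ)⁻¹ = Units.map (ML F) (Units.map (σ : K →* K) c) := by
  apply Units.ext
  ext x
  rw [Units.val_mul, Units.val_mul, Module.End.mul_apply, Module.End.mul_apply]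
  change (a : K) * σ ((c : K) * ((theta a σ)⁻¹).val x) = σ (c : K) * x
  change (a : K) * σ ((c : K) * σ.symm (((a⁻¹ : Kˣ) : K) * x)) = σ (c : K) * x
  rw [map_mul, AlgEquiv.apply_symm_apply]
  simp
  field_simp

variable (F K) in
/-- The Singer subgroup. -/
abbrev singer : Subgroup (Module.End F K)ˣ := (Units.map (ML F : K →* Module.End F K)).range

theorem theta_mem_normalizer (a : Kˣ) (σ : K ≃ₐ[F] K) :
    theta a σ ∈ Subgroup.normalizer ((singer F K : Subgroup (Module.End F K)ˣ) : Set (Module.End F K)ˣ) := by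
  rw [Subgroup.mem_normalizer_iff]
  intro h
  constructor
  · rintro ⟨c, rfl⟩
    exact ⟨_, (theta_conj a σ c).symm⟩
  · rintro ⟨c, hc⟩
    refine ⟨Units.map (σ.symm : K →* K) c, ?_⟩
    have h1 := theta_conj (Units.map (σ.symm : K →* K) a⁻¹) σ.symm c
    rw [← theta_inv, hc] at h1
    rw [← h1]
    group

/-- Every element of the normalizer has the form `theta a σ`. -/
theorem exists_theta [Finite K] {g : (Module.End F K)ˣ}
    (hg : g ∈ Subgroup.normalizer ((singer F K : Subgroup (Module.End F K)ˣ) : Set (Module.End F K)ˣ)) :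
    ∃ (a : Kˣ) (σ : K ≃ₐ[F] K), theta a σ = g := by
  classical
  rw [Subgroup.mem_normalizer_iff] at hg
  -- the induced map on `K`
  let φ₀ : K →ₗ[F] K :=
    { toFun := fun c => (g.val * ML F c * g.inv) 1
      map_add' := fun c d => by
        simp only [Module.End.mul_apply, ML_apply, add_mul, map_add]
      map_smul' := fun r c => by
        simp only [Module.End.mul_apply, ML_apply, smul_mul_assoc, map_smul, RingHom.id_apply] }
  have hφ₀ : ∀ c, φ₀ c = (g.val * ML F c * g.inv) 1 := fun _ => rfl
  have hφ : ∀ c : K, g.val * ML F c * g.inv = ML F (φ₀ c) := by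
    intro c
    by_cases hc : c = 0
    · subst hc
      have h0 : ML F (0 : K) = 0 := by
        ext x
        simp [ML_apply]
      have h1 : φ₀ 0 = 0 := map_zero φ₀
      rw [h1, h0]
      simp
    · let u : Kˣ := Units.mk0 c hc
      obtain ⟨c', hc'⟩ := (hg (Units.map (ML F) u)).mp ⟨u, rfl⟩
      have h1 : g.val * ML F c * g.inv = ML F (c' : K) := by
        have := congrArg Units.val hc'
        exact this.symm
      have h2 : φ₀ c = c' := by
        rw [hφ₀, h1, ML_apply, mul_one]
      rw [h2, h1]
  have hinv : g.inv * g.val = 1 := g.inv_val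
  have hval : g.val * g.inv = 1 := g.val_inv
  let φ : K →ₐ[F] K := AlgHom.ofLinearMap φ₀ (by
      rw [hφ₀]
      have : ML F (1 : K) = 1 := map_one _
      rw [this, mul_one, hval]
      rfl) (by
      intro c d
      have h1 : g.val * ML F (c * d) * g.inv = (g.val * ML F c * g.inv) * (g.val * ML F d * g.inv) := by
        rw [map_mul]
        calc g.val * (ML F c * ML F d) * g.inv = g.val * ML F c * (g.inv * g.val) * ML F d * g.inv := by
              rw [hinv]; simp only [mul_one, mul_assoc]
          _ = _ := by simp only [mul_assoc]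
      rw [hφ₀, h1, hφ, hφ, Module.End.mul_apply, ML_apply, ML_apply, mul_one])
  have hφa : ∀ c, φ c = φ₀ c := fun _ => rfl
  have hinj : Function.Injective φ := φ.toRingHom.injective
  have hbij : Function.Bijective φ := ⟨hinj, Finite.injective_iff_surjective.mp hinj⟩
  let σ : K ≃ₐ[F] K := AlgEquiv.ofBijective φ hbij
  have hσ : ∀ c, σ c = φ₀ c := fun _ => rfl
  have ha : g.val 1 ≠ 0 := by
    intro h0
    have h1 : (g.inv * g.val) 1 = 1 := by rw [hinv]; rfl
    rw [Module.End.mul_apply, h0, map_zero] at h1
    exact zero_ne_one h1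
  refine ⟨Units.mk0 _ ha, σ, Units.ext ?_⟩
  ext x
  change g.val 1 * σ x = g.val x
  rw [hσ]
  have h1 : g.val x = (g.val * ML F x * (g.inv * g.val)) 1 := by
    rw [hinv, mul_one, Module.End.mul_apply, ML_apply, mul_one]
  rw [h1, ← mul_assoc, hφ, Module.End.mul_apply, ML_apply, mul_comm]

/-- Let F ⊆ K be finite fields with |F| = q and [K : F] = n ≥ 2, so |K| = q^n. Regard K as an n-dimensional F-vector space; the multiplications by non-zero elements of K form a cyclic subgroup of GL_F(K) of order q^n − 1 acting regularly on the non-zero vectors (a Singer group). Its normaliser in GL_F(K) has order n·(q^n − 1). -/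
theorem result {F K : Type*} [Field F] [Fintype F] [Field K] [Fintype K] [Algebra F K] (n : ℕ) (hn : 2 ≤ n) (hdim : Module.finrank F K = n) :
    Nat.card (Subgroup.normalizer (((Units.map ((Algebra.lmul F K : K →ₐ[F] Module.End F K) : K →* Module.End F K)).range : Subgroup (Module.End F K)ˣ) : Set (Module.End F K)ˣ)) = n * (Fintype.card K - 1) := by
  classical
  have hfd : FiniteDimensional F K := inferInstance
  have hgal : IsGalois F K := inferInstance
  let Θ : Kˣ × (K ≃ₐ[F] K) → Subgroup.normalizer
      (((Units.map ((Algebra.lmul F K : K →ₐ[F] Module.End F K) : K →* Module.End F K)).range :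
        Subgroup (Module.End F K)ˣ) : Set (Module.End F K)ˣ) :=
    fun p => ⟨theta p.1 p.2, theta_mem_normalizer p.1 p.2⟩
  have hbij : Function.Bijective Θ := by
    constructor
    · rintro ⟨a, σ⟩ ⟨b, τ⟩ h
      have h0 : theta a σ = theta b τ := congrArg Subtype.val h
      have h1 : ∀ x, (a : K) * σ x = b * τ x := fun x => by
        have := congrArg (fun u : (Module.End F K)ˣ => u.val x) h0
        exact this
      have hab : a = b := by
        apply Units.ext
        have := h1 1
        simpa using this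
      subst hab
      have hst : σ = τ := by
        ext x
        exact mul_left_cancel₀ a.ne_zero (h1 x)
      rw [hst]
    · rintro ⟨g, hg⟩
      obtain ⟨a, σ, h⟩ := exists_theta hg
      exact ⟨(a, σ), Subtype.ext h⟩
  rw [← Nat.card_congr (Equiv.ofBijective Θ hbij), Nat.card_prod, IsGalois.card_aut_eq_finrank, hdim,
    Nat.card_eq_fintype_card, Fintype.card_units, mul_comm]

end Cfsg.Agent.S5738
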