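import Cfsg.Statements.S5739
import Mathlib

set_option linter.unnecessarySimpa false
-- import your own Cfsg.Agent.* helpers here

set_option autoImplicit false
open Cfsg

namespace Cfsg.Agent.S5739

/-- Let F ⊆ K be finite fields with |F| = q and [K : F] = n ≥ 2, and let M ≤ GL_F(K) be the Singer group of multiplications by non-zero elements of K. If g ∈ GL_F(K) does not normalise M, then the order of M ∩ gMg⁻¹ divides q^r − 1 for some proper divisor r of n. In particular, when n is prime, that order divides q − 1. -/
theorem result {F K : Type*} [Field F] [Fintype F] [Field K] [Fintype K] [Algebra F K] (n : ℕ) (hn : 2 ≤ n) (hdim : Module.finrank F K = n)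
    (g : (Module.End F K)ˣ) (hg : ((Units.map ((Algebra.lmul F K : K →ₐ[F] Module.End F K) : K →* Module.End F K)).range).map (MulAut.conj g).toMonoidHom ≠ (Units.map ((Algebra.lmul F K : K →ₐ[F] Module.End F K) : K →* Module.End F K)).range) :
    ∃ r : ℕ, 1 ≤ r ∧ r ∣ n ∧ r < n ∧ Nat.card ↥(((Units.map ((Algebra.lmul F K : K →ₐ[F] Module.End F K) : K →* Module.End F K)).range).map (MulAut.conj g).toMonoidHom ⊓ (Units.map ((Algebra.lmul F K : K →ₐ[F] Module.End F K) : K →* Module.End F K)).range) ∣ Fintype.card F ^ r - 1 := by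
  classical
  set ℓ : K →ₐ[F] Module.End F K := Algebra.lmul F K with hℓ
  set φ : Kˣ →* (Module.End F K)ˣ := Units.map (ℓ : K →* Module.End F K) with hφ
  have hφc : ∀ u : Kˣ, ((φ u : (Module.End F K)ˣ) : Module.End F K) = ℓ (u : K) := fun u => rfl
  have hℓapp : ∀ x y : K, ℓ x y = x * y := fun x y => rfl
  have hℓinj : Function.Injective ℓ := by
    intro x y h
    have := congrArg (fun f : Module.End F K => f 1) h
    simpa [hℓapp] using this
  have hφinj : Function.Injective φ := by
    intro u v h
    apply Units.ext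
    apply hℓinj
    have := congrArg (fun w : (Module.End F K)ˣ => (w : Module.End F K)) h
    exact this
  set M : Subgroup (Module.End F K)ˣ := φ.range with hM
  set C : (Module.End F K)ˣ →* (Module.End F K)ˣ := (MulAut.conj g).toMonoidHom with hC
  have hCinj : Function.Injective C := (MulAut.conj g).injective
  set S : Subgroup Kˣ := (M.map C).comap φ with hS
  have hcard : Nat.card ↥(M.map C ⊓ M) = Nat.card S := by
    have h1 : S.map φ = M.map C ⊓ M := by
      rw [hS, Subgroup.map_comap_eq, inf_comm]
    rw [← h1, Subgroup.card_map_of_injective hφinj]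
  change ∃ r : ℕ, 1 ≤ r ∧ r ∣ n ∧ r < n ∧ Nat.card ↥(M.map C ⊓ M) ∣ Fintype.card F ^ r - 1
  rw [hcard]
  -- the intermediate field of elements conjugated into `K`
  let T : IntermediateField F K :=
    { carrier := {x | ∃ y : K, ℓ x * (g : Module.End F K) = (g : Module.End F K) * ℓ y}
      mul_mem' := by
        rintro a b ⟨y₁, h₁⟩ ⟨y₂, h₂⟩
        refine ⟨y₁ * y₂, ?_⟩
        rw [map_mul, map_mul, mul_assoc, h₂, ← mul_assoc, h₁, mul_assoc]
      add_mem' := by
        rintro a b ⟨y₁, h₁⟩ ⟨y₂, h₂⟩
        refine ⟨y₁ + y₂, ?_⟩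
        rw [map_add, map_add, add_mul, mul_add, h₁, h₂]
      algebraMap_mem' := by
        intro c
        refine ⟨algebraMap F K c, ?_⟩
        rw [AlgHom.commutes]
        exact (Algebra.commutes c _)
      inv_mem' := by
        rintro a ⟨y, hy⟩
        by_cases ha : a = 0
        · subst ha
          refine ⟨0, ?_⟩
          simp
        have hy0 : y ≠ 0 := by
          rintro rfl
          apply ha
          apply hℓinj
          rw [map_zero] at hy ⊢
          have h2 := congrArg (fun f : Module.End F K => f * ((g⁻¹ : (Module.End F K)ˣ) : Module.End F K)) hy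
          simpa [mul_assoc] using h2
        refine ⟨y⁻¹, ?_⟩
        have h1 : ℓ a⁻¹ * ℓ a = 1 := by
          rw [← map_mul, inv_mul_cancel₀ ha, map_one]
        have h2 : ℓ y * ℓ y⁻¹ = 1 := by
          rw [← map_mul, mul_inv_cancel₀ hy0, map_one]
        calc ℓ a⁻¹ * (g : Module.End F K)
            = ℓ a⁻¹ * (g : Module.End F K) * (ℓ y * ℓ y⁻¹) := by rw [h2, mul_one]
          _ = ℓ a⁻¹ * ((g : Module.End F K) * ℓ y) * ℓ y⁻¹ := by
              simp only [mul_assoc]
          _ = ℓ a⁻¹ * (ℓ a * (g : Module.End F K)) * ℓ y⁻¹ := by rw [hy]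
          _ = (ℓ a⁻¹ * ℓ a) * (g : Module.End F K) * ℓ y⁻¹ := by
              simp only [mul_assoc]
          _ = (g : Module.End F K) * ℓ y⁻¹ := by rw [h1, one_mul] }
  have hTmem : ∀ x, x ∈ T ↔ ∃ y : K, ℓ x * (g : Module.End F K) = (g : Module.End F K) * ℓ y :=
    fun x => Iff.rfl
  set L : IntermediateField F K :=
    IntermediateField.adjoin F ((fun u : Kˣ => (u : K)) '' (S : Set Kˣ)) with hL
  have hSL : ∀ s ∈ S, (s : K) ∈ L := by
    intro s hs
    exact IntermediateField.subset_adjoin F _ ⟨s, hs, rfl⟩
  have hLT : L ≤ T := by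
    rw [hL, IntermediateField.adjoin_le_iff]
    rintro _ ⟨s, hs, rfl⟩
    -- `s ∈ S`: `φ s = g (φ t) g⁻¹`
    obtain ⟨m, ⟨t, rfl⟩, hmt⟩ := hs
    refine ⟨(t : K), ?_⟩
    have h3 : ((φ s : (Module.End F K)ˣ) : Module.End F K) * (g : Module.End F K)
        = (g : Module.End F K) * ((φ t : (Module.End F K)ˣ) : Module.End F K) := by
      rw [← Units.val_mul, ← Units.val_mul, ← hmt]
      simp [hC, MulAut.conj_apply]
    simpa [hφc] using h3
  have hrn : Module.finrank F L * Module.finrank L K = n := by
    rw [Module.finrank_mul_finrank, hdim]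
  have hKfin : Module.Finite F K := Module.Finite.of_finite
  have hrpos : 0 < Module.finrank F L := Module.finrank_pos
  have hnpos : 0 < n := by omega
  refine ⟨Module.finrank F L, hrpos, ⟨_, hrn.symm⟩, ?_, ?_⟩
  · -- `r < n`, otherwise `g` normalises `M`.
    by_contra hlt
    have hr_le : Module.finrank F L ≤ n :=
      Nat.le_of_dvd hnpos ⟨_, hrn.symm⟩
    have hreq : Module.finrank F L = Module.finrank F K := by omega
    have hLtop : L = ⊤ := by
      apply IntermediateField.toSubalgebra_injective
      apply Subalgebra.toSubmodule_injective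
      apply Submodule.eq_top_of_finrank_eq
      exact hreq
    have hTtop : ∀ x : K, x ∈ T := fun x => hLT (by rw [hLtop]; exact IntermediateField.mem_top)
    apply hg
    -- `M ≤ M.map C`, and then equality by cardinality
    have hle : M ≤ M.map C := by
      rintro _ ⟨u, rfl⟩
      obtain ⟨y, hy⟩ := hTtop (u : K)
      have hy0 : y ≠ 0 := by
        rintro rfl
        apply u.ne_zero
        apply hℓinj
        rw [map_zero] at hy ⊢
        have h2 := congrArg (fun f : Module.End F K => f * ((g⁻¹ : (Module.End F K)ˣ) : Module.End F K)) hy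
        simpa [mul_assoc] using h2
      refine ⟨φ (Units.mk0 y hy0), ⟨_, rfl⟩, ?_⟩
      apply Units.ext
      have h4 : (C (φ (Units.mk0 y hy0)) : (Module.End F K)ˣ) * g = g * φ (Units.mk0 y hy0) := by
        simp [hC, MulAut.conj_apply]
      have h5 : φ u * g = g * φ (Units.mk0 y hy0) := by
        apply Units.ext
        simpa [hφc] using hy
      have h6 : C (φ (Units.mk0 y hy0)) = φ u := by
        apply mul_right_cancel (b := g)
        rw [h4, h5]
      rw [h6]
    have hfin0 : Finite (Module.End F K) :=
      Finite.of_injective (fun f : K →ₗ[F] K => (f : K → K)) DFunLike.coe_injective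
    have hfin : Finite (Module.End F K)ˣ :=
      Finite.of_injective (fun u : (Module.End F K)ˣ => (u : Module.End F K)) Units.val_injective
    refine (Subgroup.eq_of_le_of_card_ge hle ?_).symm
    rw [Subgroup.card_map_of_injective hCinj]
  · -- `|S|` divides `q^r - 1`.
    have hLcard : Nat.card L = Fintype.card F ^ Module.finrank F L := by
      rw [Module.natCard_eq_pow_finrank (K := F), Nat.card_eq_fintype_card]
    have h7 : Nat.card Lˣ = Fintype.card F ^ Module.finrank F L - 1 := by
      rw [Nat.card_units, hLcard]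
    rw [← h7]
    -- the embedding of `Lˣ` in `Kˣ`
    set ψ : Lˣ →* Kˣ := Units.map (algebraMap L K : L →* K) with hψ
    have hψinj : Function.Injective ψ := by
      intro a b hab
      apply Units.ext
      apply (algebraMap L K).injective
      exact congrArg (fun w : Kˣ => (w : K)) hab
    have hSle : S ≤ ψ.range := by
      intro s hs
      have hsL := hSL s hs
      have hs0 : (⟨(s : K), hsL⟩ : L) ≠ 0 := by
        intro h
        exact s.ne_zero (congrArg Subtype.val h)
      refine ⟨Units.mk0 _ hs0, ?_⟩
      apply Units.ext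
      rfl
    have h8 : Nat.card S ∣ Nat.card ψ.range := Subgroup.card_dvd_of_le hSle
    have h9 : Nat.card ψ.range = Nat.card Lˣ := by
      rw [MonoidHom.range_eq_map, Subgroup.card_map_of_injective hψinj, Subgroup.card_top]
    rwa [h9] at h8

end Cfsg.Agent.S5739
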