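import Cfsg.Statements.S5746
import Cfsg.Agent.Lib.Compute.G24J2.Main
import Cfsg.Agent.Lib.Compute.G23Main

set_option autoImplicit false
open Cfsg

namespace Cfsg.Agent.S5746

/-- The property transports along isomorphisms. -/
theorem transport {A B : Type*} [Group A] [Group B] (e : B ≃* A)
    (hB : ∃ H : Subgroup B, IsCoatom H ∧ Cfsg.Spor.IsoJ2 H ∧
      ∀ x : B, x ∉ H → IsCoatom ((H ⊓ H.map (MulAut.conj x).toMonoidHom).subgroupOf H)) :
    ∃ H : Subgroup A, IsCoatom H ∧ Cfsg.Spor.IsoJ2 H ∧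
      ∀ x : A, x ∉ H → IsCoatom ((H ⊓ H.map (MulAut.conj x).toMonoidHom).subgroupOf H) := by
  obtain ⟨H, h1, ⟨i⟩, h3⟩ := hB
  have hmem : ∀ (K : Subgroup B) (u : A), u ∈ K.map e.toMonoidHom ↔ e.symm u ∈ K := by
    intro K u
    constructor
    · rintro ⟨w, hw, rfl⟩
      simpa using hw
    · intro hu
      exact ⟨_, hu, by simp⟩
  refine ⟨H.map e.toMonoidHom, (e.mapSubgroup.isCoatom_iff H).mpr h1, ⟨(e.subgroupMap H).symm.trans i⟩, ?_⟩
  intro x' hx'
  have hx : e.symm x' ∉ H := fun h => hx' ((hmem H x').mpr h)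
  have h4 := h3 _ hx
  set x := e.symm x' with hxdef
  have hexx : e x = x' := by simp [hxdef]
  set f := e.subgroupMap H with hf
  have key : ((H.map e.toMonoidHom ⊓ (H.map e.toMonoidHom).map (MulAut.conj x').toMonoidHom).subgroupOf (H.map e.toMonoidHom))
      = f.mapSubgroup ((H ⊓ H.map (MulAut.conj x).toMonoidHom).subgroupOf H) := by
    ext ⟨y, hy⟩
    have hy' : e.symm y ∈ H := (hmem H y).mp hy
    have hfy : f ⟨e.symm y, hy'⟩ = ⟨y, hy⟩ := by
      apply Subtype.ext
      show e (e.symm y) = y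
      simp
    constructor
    · intro hm
      rw [Subgroup.mem_subgroupOf] at hm
      obtain ⟨-, w, hw, hwy⟩ := hm
      refine ⟨⟨e.symm y, hy'⟩, ?_, hfy⟩
      rw [SetLike.mem_coe, Subgroup.mem_subgroupOf]
      refine ⟨hy', e.symm w, (hmem H w).mp hw, ?_⟩
      have h5 : (MulAut.conj x').toMonoidHom w = x' * w * x'⁻¹ := rfl
      have h6 : (MulAut.conj x).toMonoidHom (e.symm w) = x * e.symm w * x⁻¹ := rfl
      have hwy' : x' * w * x'⁻¹ = y := h5 ▸ hwy
      show (MulAut.conj x).toMonoidHom (e.symm w) = e.symm y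
      rw [h6, ← hwy', hxdef]
      simp
    · rintro ⟨⟨z, hz⟩, hzm, hzy⟩
      rw [SetLike.mem_coe, Subgroup.mem_subgroupOf] at hzm
      obtain ⟨-, w, hw, hwz⟩ := hzm
      have hye : y = e z := (congrArg Subtype.val hzy).symm
      rw [Subgroup.mem_subgroupOf]
      refine ⟨hy, e w, ⟨w, hw, rfl⟩, ?_⟩
      have h5 : (MulAut.conj x').toMonoidHom (e w) = x' * e w * x'⁻¹ := rfl
      have h6 : (MulAut.conj x).toMonoidHom w = x * w * x⁻¹ := rfl
      rw [h6] at hwz
      show (MulAut.conj x').toMonoidHom (e w) = y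
      have hwz' : x * w * x⁻¹ = z := hwz
      rw [h5, hye, ← hwz', ← hexx]
      simp
  rw [key]
  exact (f.mapSubgroup.isCoatom_iff _).mpr h4

/-- The Chevalley group G₂(4) (over the field with 4 elements) has a maximal subgroup H isomorphic to the Hall–Janko group J₂ such that for every x outside H the intersection H ∩ xHx⁻¹ is a maximal subgroup of H; that is, the action of G₂(4) on the cosets of H is extremely primitive. -/
theorem result {F : Type*} [Field F] [Fintype F] (hF : Fintype.card F = 4) :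
    ∃ H : Subgroup (Cfsg.Lie.chevG2.group F), IsCoatom H ∧ Cfsg.Spor.IsoJ2 H ∧
      ∀ x : Cfsg.Lie.chevG2.group F, x ∉ H → IsCoatom ((H ⊓ H.map (MulAut.conj x).toMonoidHom).subgroupOf H) := by
  have h1 : Fintype.card Cfsg.Agent.Lib.Compute.GFModel.GF4 = Fintype.card F := by
    rw [hF]
    exact Cfsg.Agent.Lib.Compute.GFModel.card_GF4
  have e := Cfsg.Agent.Lib.Compute.G23.chevEquiv Cfsg.Lie.chevG2 (Cfsg.Agent.Lib.Compute.GFModel.equivOfCard h1)
  have h2 := Cfsg.Agent.Lib.Compute.G24J2.main_GF4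
  exact @transport ↥(Cfsg.Lie.chevG2.group F) Cfsg.Agent.Lib.Compute.G24.L0 (Subgroup.toGroup _) (Subgroup.toGroup _) e h2

end Cfsg.Agent.S5746
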