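import Cfsg.Statements.S5747
import Mathlib
-- import your own Cfsg.Agent.* helpers here

set_option autoImplicit false
open Cfsg

namespace Cfsg.Agent.S5747

section Lists

variable {G Ω : Type*} [Group G] [MulAction G Ω]

/-- Each entry is moved by the elements of `K` fixing the earlier entries. -/
def Irr : Set G → List Ω → Prop
  | _, [] => True
  | K, x :: l => (∃ g ∈ K, g • x ≠ x) ∧ Irr {g ∈ K | g • x = x} l

/-- The elements of `K` fixing all entries. -/
def fxs (K : Set G) (l : List Ω) : Set G := {g ∈ K | ∀ x ∈ l, g • x = x}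

theorem fxs_nil (K : Set G) : fxs K ([] : List Ω) = K := by
  ext g; simp [fxs]

theorem fxs_cons (K : Set G) (x : Ω) (l : List Ω) : fxs {g ∈ K | g • x = x} l = fxs K (x :: l) := by
  ext g
  simp only [fxs, Set.mem_ofPred_eq, List.mem_cons, forall_eq_or_imp]
  tauto

theorem fxs_append (K : Set G) (l₁ l₂ : List Ω) : fxs (fxs K l₁) l₂ = fxs K (l₁ ++ l₂) := by
  ext g
  simp only [fxs, Set.mem_ofPred_eq, List.mem_append]
  constructor
  · rintro ⟨⟨h1, h2⟩, h3⟩
    exact ⟨h1, fun x hx => hx.elim (h2 x) (h3 x)⟩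
  · rintro ⟨h1, h2⟩
    exact ⟨⟨h1, fun x hx => h2 x (Or.inl hx)⟩, fun x hx => h2 x (Or.inr hx)⟩

theorem irr_append (K : Set G) (l₁ l₂ : List Ω) : Irr K (l₁ ++ l₂) ↔ Irr K l₁ ∧ Irr (fxs K l₁) l₂ := by
  induction l₁ generalizing K with
  | nil => simp [Irr, fxs_nil]
  | cons x l ih =>
    simp only [List.cons_append, Irr, ih, fxs_cons]
    tauto

variable (G) in
/-- Irredundant base as a list. -/
def IsB (l : List Ω) : Prop := Irr (Set.univ : Set G) l ∧ ∀ g ∈ fxs (Set.univ : Set G) l, g = 1

open Classical in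
/-- Delete the redundant entries. -/
noncomputable def thin : Set G → List Ω → List Ω
  | _, [] => []
  | K, x :: l =>
    if ∃ g ∈ K, g • x ≠ x then x :: thin {g ∈ K | g • x = x} l else thin {g ∈ K | g • x = x} l

theorem thin_irr (K : Set G) (l : List Ω) : Irr K (thin K l) := by
  induction l generalizing K with
  | nil => simp [thin, Irr]
  | cons x l ih =>
    rw [thin]
    split_ifs with h
    · exact ⟨h, ih _⟩
    · have : {g ∈ K | g • x = x} = K := by
        ext g
        simp only [Set.mem_ofPred_eq, and_iff_left_iff_imp]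
        intro hg
        by_contra hc
        exact h ⟨g, hg, hc⟩
      have h2 := ih {g ∈ K | g • x = x}
      rwa [this] at h2 ⊢

theorem thin_fxs (K : Set G) (l : List Ω) : fxs K (thin K l) = fxs K l := by
  induction l generalizing K with
  | nil => rfl
  | cons x l ih =>
    rw [thin]
    split_ifs with h
    · rw [← fxs_cons, ← fxs_cons, ih]
    · rw [← fxs_cons]
      have : {g ∈ K | g • x = x} = K := by
        ext g
        simp only [Set.mem_ofPred_eq, and_iff_left_iff_imp]
        intro hg
        by_contra hc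
        exact h ⟨g, hg, hc⟩
      have h2 := ih {g ∈ K | g • x = x}
      rwa [this] at h2 ⊢

theorem thin_sublist (K : Set G) (l : List Ω) : (thin K l).Sublist l := by
  induction l generalizing K with
  | nil => simp [thin]
  | cons x l ih =>
    rw [thin]
    split_ifs with h
    · exact List.Sublist.cons_cons x (ih _)
    · exact List.Sublist.cons x (ih _)

theorem irr_of_thin_length (K : Set G) (l : List Ω) (h : (thin K l).length = l.length) : Irr K l := by
  induction l generalizing K with
  | nil => trivial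
  | cons x l ih =>
    rw [thin] at h
    split_ifs at h with hx
    · simp only [List.length_cons, add_left_inj] at h
      exact ⟨hx, ih _ h⟩
    · have := (thin_sublist {g ∈ K | g • x = x} l).length_le
      simp only [List.length_cons] at h
      omega

/-- The exchange step. -/
theorem exchange (hreo : ∀ l l' : List Ω, l.Perm l' → IsB G l → IsB G l') (pre C : List Ω)
    (h : IsB G (pre ++ C)) (a : Ω) (ha : ∃ g ∈ fxs (Set.univ : Set G) pre, g • a ≠ a) :
    ∃ C' : List Ω, C'.length + 1 = C.length ∧ IsB G (pre ++ a :: C') := by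
  classical
  set K := fxs (Set.univ : Set G) pre with hK
  set K₁ : Set G := {g ∈ K | g • a = a} with hK₁
  set C' := thin K₁ C with hC'
  refine ⟨C', ?_, ?_⟩
  swap
  · obtain ⟨h1, h2⟩ := h
    rw [irr_append] at h1
    refine ⟨?_, ?_⟩
    · rw [irr_append]
      exact ⟨h1.1, ha, thin_irr _ _⟩
    · intro g hg
      rw [← fxs_append, ← hK, ← fxs_cons, ← hK₁, hC', thin_fxs] at hg
      apply h2
      rw [← fxs_append, ← hK]
      exact ⟨hg.1.1, hg.2⟩
  -- the two reorderings
  have hbase1 : IsB G (pre ++ a :: C') := by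
    obtain ⟨h1, h2⟩ := h
    rw [irr_append] at h1
    refine ⟨?_, ?_⟩
    · rw [irr_append]
      exact ⟨h1.1, ha, thin_irr _ _⟩
    · intro g hg
      rw [← fxs_append, ← hK, ← fxs_cons, ← hK₁, hC', thin_fxs] at hg
      apply h2
      rw [← fxs_append, ← hK]
      exact ⟨hg.1.1, hg.2⟩
  obtain ⟨E, hE⟩ := (thin_sublist K₁ C).exists_perm_append
  have h2 : IsB G ((pre ++ C') ++ E) := by
    refine hreo _ _ ?_ h
    rw [List.append_assoc]
    exact hE.append_left pre
  have h3 : IsB G ((pre ++ C') ++ [a]) := by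
    refine hreo _ _ ?_ hbase1
    exact List.perm_middle.trans (List.perm_append_singleton a _).symm
  set K' := fxs K C' with hK'
  have hK'eq : fxs (Set.univ : Set G) (pre ++ C') = K' := by
    rw [← fxs_append]
  -- facts
  have hA : ∃ g ∈ K', g • a ≠ a := by
    have := h3.1
    rw [irr_append, hK'eq] at this
    exact this.2.1
  have hB : ∀ g ∈ K', g • a = a → g = 1 := by
    intro g hg hga
    apply h3.2
    rw [← fxs_append, hK'eq]
    refine ⟨hg, fun x hx => ?_⟩
    simp only [List.mem_singleton] at hx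
    rw [hx]; exact hga
  have hEirr : Irr K' E := by
    have := h2.1
    rw [irr_append, hK'eq] at this
    exact this.2
  have hEbase : ∀ g ∈ fxs K' E, g = 1 := by
    intro g hg
    apply h2.2
    rw [← fxs_append, hK'eq]
    exact hg
  have hlen : C.length = C'.length + E.length := by
    have := hE.length_eq
    simpa using this
  -- `E` has exactly one element
  match E, hEirr, hEbase, hlen with
  | [], _, hb, _ =>
    exfalso
    obtain ⟨g, hg, hga⟩ := hA
    have h1 : g = 1 := hb g (by rw [fxs_nil]; exact hg)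
    rw [h1, one_smul] at hga
    exact hga rfl
  | [c], _, _, hl => simpa using hl.symm
  | c₁ :: c₂ :: E', hi, _, _ =>
    exfalso
    obtain ⟨hm1, hm2, -⟩ := hi
    obtain ⟨g₂, hg₂, hg₂c⟩ := hm2
    have hg₂1 : g₂ ≠ 1 := by
      rintro rfl
      rw [one_smul] at hg₂c
      exact hg₂c rfl
    have hg₂a : g₂ • a ≠ a := fun h => hg₂1 (hB g₂ hg₂.1 h)
    have h4 : IsB G ((pre ++ C') ++ [c₁, a]) := by
      refine ⟨?_, ?_⟩
      · rw [irr_append, hK'eq]
        refine ⟨?_, hm1, ⟨g₂, hg₂, hg₂a⟩, trivial⟩
        have := h2.1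
        rw [irr_append] at this
        exact this.1
      · intro g hg
        rw [← fxs_append, hK'eq] at hg
        exact hB g hg.1 (hg.2 a (by simp))
    have h5 : IsB G ((pre ++ C') ++ [a, c₁]) :=
      hreo _ _ ((List.Perm.swap a c₁ []).append_left _) h4
    have h6 := h5.1
    rw [irr_append, hK'eq] at h6
    obtain ⟨g, hg, hgc⟩ := h6.2.2.1
    have : g = 1 := hB g hg.1 hg.2
    rw [this, one_smul] at hgc
    exact hgc rfl

theorem length_eq (hreo : ∀ l l' : List Ω, l.Perm l' → IsB G l → IsB G l') (A : List Ω) :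
    ∀ pre C : List Ω, IsB G (pre ++ C) → Irr (fxs (Set.univ : Set G) pre) A →
      (∀ g ∈ fxs (fxs (Set.univ : Set G) pre) A, g = 1) → A.length = C.length := by
  induction A with
  | nil =>
    intro pre C h _ hb
    rw [fxs_nil] at hb
    have h1 := h.1
    rw [irr_append] at h1
    match C, h1 with
    | [], _ => rfl
    | x :: C', h2 =>
      exfalso
      obtain ⟨g, hg, hgx⟩ := h2.2.1
      rw [hb g hg, one_smul] at hgx
      exact hgx rfl
  | cons a A' ih =>
    intro pre C h hi hb
    obtain ⟨C', hC', hC'b⟩ := exchange hreo pre C h a hi.1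
    have e : fxs (Set.univ : Set G) (pre ++ [a]) = {g ∈ fxs (Set.univ : Set G) pre | g • a = a} := by
      rw [← fxs_append, ← fxs_cons, fxs_nil]
    have := ih (pre ++ [a]) C' (by simpa using hC'b) (by rw [e]; exact hi.2) (by
      rw [e, fxs_cons]
      exact hb)
    simp only [List.length_cons]
    omega

theorem irr_ofFn : ∀ (t : ℕ) (f : Fin t → Ω) (K : Set G), Irr K (List.ofFn f) ↔
    ∀ i, ∃ g ∈ K, (∀ j, j < i → g • f j = f j) ∧ g • f i ≠ f i := by
  intro t
  induction t with
  | zero => intro f K; simp [Irr]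
  | succ t ih =>
    intro f K
    rw [List.ofFn_succ, Irr, ih]
    constructor
    · rintro ⟨⟨g₀, hg₀, hg₀x⟩, h⟩ i
      refine Fin.cases ?_ (fun k => ?_) i
      · exact ⟨g₀, hg₀, fun j hj => absurd hj (Fin.not_lt_zero j), hg₀x⟩
      · obtain ⟨g, hg, hg1, hg2⟩ := h k
        refine ⟨g, hg.1, fun j hj => ?_, hg2⟩
        refine Fin.cases ?_ (fun m hm => ?_) j hj
        · intro _; exact hg.2
        · exact hg1 m (Fin.succ_lt_succ_iff.mp hm)
    · intro h
      refine ⟨?_, fun i => ?_⟩
      · obtain ⟨g, hg, -, hg2⟩ := h 0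
        exact ⟨g, hg, hg2⟩
      · obtain ⟨g, hg, hg1, hg2⟩ := h i.succ
        refine ⟨g, ⟨hg, hg1 0 (Fin.succ_pos i)⟩, fun j hj => hg1 j.succ (Fin.succ_lt_succ_iff.mpr hj), hg2⟩

theorem isB_ofFn {t : ℕ} (f : Fin t → Ω) : IsB G (List.ofFn f) ↔
    ((∀ g : G, (∀ i : Fin t, g • f i = f i) → g = 1) ∧
      ∀ i : Fin t, ∃ g : G, (∀ j : Fin t, j < i → g • f j = f j) ∧ g • f i ≠ f i) := by
  unfold IsB
  rw [irr_ofFn, and_comm]
  refine and_congr ?_ ?_
  · refine forall_congr' fun g => ?_
    simp only [fxs, Set.mem_ofPred_eq, Set.mem_univ, true_and, List.mem_ofFn, forall_exists_index,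
      forall_apply_eq_imp_iff]
  · refine forall_congr' fun i => ?_
    simp only [Set.mem_univ, true_and]

theorem exists_equiv_of_perm {l l' : List Ω} (h : l.Perm l') :
    ∃ e : Fin l.length ≃ Fin l'.length, ∀ i, l'.get (e i) = l.get i := by
  induction h with
  | nil => exact ⟨Equiv.refl _, fun i => rfl⟩
  | cons x _ ih =>
    obtain ⟨e, he⟩ := ih
    refine ⟨(finSuccEquiv _).trans ((Equiv.optionCongr e).trans (finSuccEquiv _).symm), fun i => ?_⟩
    refine Fin.cases ?_ (fun k => ?_) i
    · simp
    · simpa using he k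
  | swap x y l =>
    refine ⟨Equiv.swap 0 1, fun i => ?_⟩
    refine Fin.cases ?_ (fun k => ?_) i
    · simp
    · refine Fin.cases ?_ (fun m => ?_) k
      · simp
      · have h0 : (m.succ.succ : Fin (l.length + 2)) ≠ 0 := Fin.succ_ne_zero _
        have h1 : (m.succ.succ : Fin (l.length + 2)) ≠ 1 := by
          intro h
          have := Fin.succ_injective _ (by simpa using h : m.succ.succ = Fin.succ 0)
          exact Fin.succ_ne_zero _ this
        rw [Equiv.swap_apply_of_ne_of_ne h0 h1]
        simp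
  | trans _ _ ih1 ih2 =>
    obtain ⟨e₁, he₁⟩ := ih1
    obtain ⟨e₂, he₂⟩ := ih2
    exact ⟨e₁.trans e₂, fun i => by rw [Equiv.trans_apply, he₂, he₁]⟩

end Lists

/-- Let a finite group G act on a finite set Ω. An irredundant base is a sequence of points ω₁, …, ω_t whose pointwise stabiliser is trivial and in which each ω_i is moved by some element fixing ω₁, …, ω_{i−1}. Then all irredundant bases have the same length if and only if every reordering of an irredundant base is again an irredundant base. -/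
theorem result {G Ω : Type*} [Group G] [Finite G] [MulAction G Ω] [Fintype Ω] :
    (∀ (t t' : ℕ) (f : Fin t → Ω) (f' : Fin t' → Ω), ((∀ g : G, (∀ i : Fin t, g • f i = f i) → g = 1) ∧ ∀ i : Fin t, ∃ g : G, (∀ j : Fin t, j < i → g • f j = f j) ∧ g • f i ≠ f i) → ((∀ g : G, (∀ i : Fin t', g • f' i = f' i) → g = 1) ∧ ∀ i : Fin t', ∃ g : G, (∀ j : Fin t', j < i → g • f' j = f' j) ∧ g • f' i ≠ f' i) → t = t') ↔
    (∀ (t : ℕ) (f : Fin t → Ω) (σ : Equiv.Perm (Fin t)), ((∀ g : G, (∀ i : Fin t, g • f i = f i) → g = 1) ∧ ∀ i : Fin t, ∃ g : G, (∀ j : Fin t, j < i → g • f j = f j) ∧ g • f i ≠ f i) → ((∀ g : G, (∀ i : Fin t, g • (f ∘ σ) i = (f ∘ σ) i) → g = 1) ∧ ∀ i : Fin t, ∃ g : G, (∀ j : Fin t, j < i → g • (f ∘ σ) j = (f ∘ σ) j) ∧ g • (f ∘ σ) i ≠ (f ∘ σ) i)) := by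
  classical
  constructor
  · -- same lengths imply reorderability
    intro hlen t f σ hf
    have hl : (List.ofFn (f ∘ σ)).Perm (List.ofFn f) := Equiv.Perm.ofFn_comp_perm σ f
    have hbase := (isB_ofFn (G := G) f).mpr hf
    have hfx : fxs (Set.univ : Set G) (List.ofFn (f ∘ σ)) = fxs (Set.univ : Set G) (List.ofFn f) := by
      ext g
      simp only [fxs, Set.mem_ofPred_eq]
      exact and_congr_right fun _ => ⟨fun h x hx => h x (hl.mem_iff.mpr hx), fun h x hx => h x (hl.mem_iff.mp hx)⟩
    let l := thin (Set.univ : Set G) (List.ofFn (f ∘ σ))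
    have hlB : IsB G l := by
      refine ⟨thin_irr _ _, fun g hg => hbase.2 g ?_⟩
      rw [← hfx, ← thin_fxs]
      exact hg
    have hlB' : IsB G (List.ofFn l.get) := by rwa [List.ofFn_get]
    have := hlen _ _ f l.get hf ((isB_ofFn (G := G) l.get).mp hlB')
    have hirr : Irr (Set.univ : Set G) (List.ofFn (f ∘ σ)) := by
      apply irr_of_thin_length
      rw [List.length_ofFn]
      exact this.symm
    refine (isB_ofFn (G := G) (f ∘ σ)).mp ⟨hirr, fun g hg => hbase.2 g ?_⟩
    rw [← hfx]
    exact hg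
  · -- reorderability implies same lengths
    intro hreo t t' f f' hf hf'
    have hreo' : ∀ l l' : List Ω, l.Perm l' → IsB G l → IsB G l' := by
      intro l l' hll' hl
      obtain ⟨e, he⟩ := exists_equiv_of_perm hll'
      have hlen : l'.length = l.length := hll'.length_eq.symm
      let τ : Equiv.Perm (Fin l.length) := (finCongr hlen.symm).trans e.symm
      have h1 : IsB G (List.ofFn l.get) := by rwa [List.ofFn_get]
      have h2 := hreo _ l.get τ ((isB_ofFn (G := G) l.get).mp h1)
      have h3 := (isB_ofFn (G := G) (l.get ∘ τ)).mpr h2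
      have h4 : List.ofFn (l.get ∘ τ) = l' := by
        apply List.ext_get
        · simp [hlen]
        · intro n h5 h6
          simp only [List.get_ofFn, Function.comp]
          rw [← he]
          simp [τ]
          rfl
      rwa [h4] at h3
    have h1 := (isB_ofFn (G := G) f).mpr hf
    have h2 := (isB_ofFn (G := G) f').mpr hf'
    have h3 := length_eq hreo' (List.ofFn f') [] (List.ofFn f) (by simpa using h1)
      (by simpa [fxs_nil] using h2.1) (by simpa [fxs_nil] using h2.2)
    simp only [List.length_ofFn] at h3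
    exact h3.symm

end Cfsg.Agent.S5747
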