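import Cfsg.Statements.S5754
import Mathlib

set_option autoImplicit false
open Cfsg

namespace Cfsg.Agent.S5754

open QuadraticMap

section
variable {F V : Type*} [Field F] [AddCommGroup V] [Module F V]

/-- Expansion of a quadratic form on a combination of three vectors. -/
theorem map_three (Q : QuadraticForm F V) (b : Fin 3 → V) (x : Fin 3 → F) :
    Q (x 0 • b 0 + x 1 • b 1 + x 2 • b 2) =
      Q (b 0) * (x 0 * x 0) + Q (b 1) * (x 1 * x 1) + Q (b 2) * (x 2 * x 2)
        + polar Q (b 0) (b 1) * (x 0 * x 1) + polar Q (b 0) (b 2) * (x 0 * x 2)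
        + polar Q (b 1) (b 2) * (x 1 * x 2) := by
  rw [QuadraticMap.map_add Q, QuadraticMap.map_add Q, QuadraticMap.map_smul, QuadraticMap.map_smul,
    QuadraticMap.map_smul, polar_add_left]
  simp only [polar_smul_left, polar_smul_right, smul_eq_mul]
  ring

/-- Over a finite field, an anisotropic quadratic form lives in dimension at most 2. -/
theorem finrank_le_two [Finite F] [Module.Finite F V] (Q : QuadraticForm F V) (hQ : Q.Anisotropic) :
    Module.finrank F V ≤ 2 := by
  classical
  by_contra hcon
  have h3 : 3 ≤ Module.finrank F V := by omega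
  haveI : Fintype F := Fintype.ofFinite F
  obtain ⟨p, hp⟩ := CharP.exists F
  have hp' : p.Prime := by
    obtain ⟨n, hn, hcard⟩ := FiniteField.card F p
    exact hn.1 |> fun _ => (CharP.char_is_prime F p)
  let bas := Module.finBasis F V
  let b : Fin 3 → V := fun i => bas (Fin.castLE h3 i)
  have hb : LinearIndependent F b :=
    bas.linearIndependent.comp _ (Fin.castLE_injective h3)
  let f : MvPolynomial (Fin 3) F :=
    MvPolynomial.C (Q (b 0)) * (MvPolynomial.X 0 * MvPolynomial.X 0)
      + MvPolynomial.C (Q (b 1)) * (MvPolynomial.X 1 * MvPolynomial.X 1)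
      + MvPolynomial.C (Q (b 2)) * (MvPolynomial.X 2 * MvPolynomial.X 2)
      + MvPolynomial.C (polar Q (b 0) (b 1)) * (MvPolynomial.X 0 * MvPolynomial.X 1)
      + MvPolynomial.C (polar Q (b 0) (b 2)) * (MvPolynomial.X 0 * MvPolynomial.X 2)
      + MvPolynomial.C (polar Q (b 1) (b 2)) * (MvPolynomial.X 1 * MvPolynomial.X 2)
  have hterm : ∀ (a : F) (i j : Fin 3),
      (MvPolynomial.C a * (MvPolynomial.X i * MvPolynomial.X j) :
        MvPolynomial (Fin 3) F).totalDegree ≤ 2 := by
    intro a i j
    refine (MvPolynomial.totalDegree_mul _ _).trans ?_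
    have h1 : (MvPolynomial.C a : MvPolynomial (Fin 3) F).totalDegree = 0 :=
      MvPolynomial.totalDegree_C a
    have h2 : (MvPolynomial.X i * MvPolynomial.X j : MvPolynomial (Fin 3) F).totalDegree ≤ 2 := by
      refine (MvPolynomial.totalDegree_mul _ _).trans ?_
      simp [MvPolynomial.totalDegree_X]
    omega
  have hdeg : f.totalDegree < Fintype.card (Fin 3) := by
    have : f.totalDegree ≤ 2 := by
      refine (MvPolynomial.totalDegree_add _ _).trans (max_le ?_ (hterm _ _ _))
      refine (MvPolynomial.totalDegree_add _ _).trans (max_le ?_ (hterm _ _ _))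
      refine (MvPolynomial.totalDegree_add _ _).trans (max_le ?_ (hterm _ _ _))
      refine (MvPolynomial.totalDegree_add _ _).trans (max_le ?_ (hterm _ _ _))
      refine (MvPolynomial.totalDegree_add _ _).trans (max_le (hterm _ _ _) (hterm _ _ _))
    simpa using lt_of_le_of_lt this (by norm_num)
  have hdvd := char_dvd_card_solutions (K := F) p hdeg
  have hev : ∀ x : Fin 3 → F, MvPolynomial.eval x f = Q (x 0 • b 0 + x 1 • b 1 + x 2 • b 2) := by
    intro x
    rw [map_three]
    simp [f]
  let z : { x : Fin 3 → F // MvPolynomial.eval x f = 0 } := ⟨0, by rw [hev]; simp⟩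
  haveI : Nonempty { x : Fin 3 → F // MvPolynomial.eval x f = 0 } := ⟨z⟩
  have hone : 1 < Fintype.card { x : Fin 3 → F // MvPolynomial.eval x f = 0 } := by
    have hpos : 0 < Fintype.card { x : Fin 3 → F // MvPolynomial.eval x f = 0 } :=
      Fintype.card_pos
    have := Nat.le_of_dvd hpos hdvd
    have := hp'.two_le
    omega
  obtain ⟨y, hy⟩ := Fintype.exists_ne_of_one_lt_card hone z
  have hy0 : Q (y.1 0 • b 0 + y.1 1 • b 1 + y.1 2 • b 2) = 0 := by
    rw [← hev]; exact y.2
  have hv := hQ _ hy0
  have hy' : y.1 = 0 := by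
    have := Fintype.linearIndependent_iff.1 hb y.1 (by rw [Fin.sum_univ_three]; exact hv)
    exact funext this
  exact hy (Subtype.ext hy')

/-- The reflection carrying `w` to `w'`, for an anisotropic form. -/
theorem exists_reflection (Q : QuadraticForm F V) (hQ : Q.Anisotropic) (w w' : V)
    (h : Q w = Q w') : ∃ φ : Q.IsometryEquiv Q, φ w = w' := by
  by_cases hww : w = w'
  · exact ⟨QuadraticMap.IsometryEquiv.refl Q, hww⟩
  have hd : w - w' ≠ 0 := sub_ne_zero.2 hww
  set d := w - w' with hd_def
  have hQd : Q d ≠ 0 := fun h0 => hd (hQ _ h0)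
  let f : V →ₗ[F] F := (Q d)⁻¹ • (polarBilin Q).flip d
  have hf : ∀ x, f x = (Q d)⁻¹ * polar Q x d := by
    intro x
    simp [f, polarBilin]
  have hf2 : f d = 2 := by
    rw [hf, polar_self]
    field_simp
    simp
    ring
  have hiso : ∀ m, Q (Module.reflection hf2 m) = Q m := by
    intro m
    rw [Module.reflection_apply, hf, sub_eq_add_neg, QuadraticMap.map_add Q,
      polar_neg_right, polar_smul_right, polar_comm, QuadraticMap.map_neg, QuadraticMap.map_smul]
    simp only [smul_eq_mul]
    rw [polar_comm]
    have : polar Q m d = polar Q m d := rfl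
    field_simp
    ring
  refine ⟨⟨Module.reflection hf2, hiso⟩, ?_⟩
  change Module.reflection hf2 w = w'
  rw [Module.reflection_apply]
  have hval : f w = 1 := by
    rw [hf]
    have hQdval : Q d = polar Q w d := by
      have h1 : Q (w - w') = Q w + Q w' - polar Q w w' := by
        rw [sub_eq_add_neg, QuadraticMap.map_add Q, QuadraticMap.map_neg, polar_neg_right]
        ring
      have h2 : polar Q w (w - w') = 2 * Q w - polar Q w w' := by
        rw [polar_sub_right, polar_self]
        simp
      rw [hd_def, h1, h2, ← h]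
      ring
    rw [← hQdval]
    exact inv_mul_cancel₀ hQd
  rw [hval, one_smul, hd_def]
  abel

end

/-- Linear-algebra core: two linear maps out of `ι → F` with the same quadratic values are
carried to each other by an isometry. -/
theorem exists_isometry_of_map {F V ι : Type*} [Field F] [Finite F] [AddCommGroup V] [Module F V]
    [Module.Finite F V] [Fintype ι] [DecidableEq ι]
    (Q : QuadraticForm F V) (hQ : Q.Anisotropic) (A A' : (ι → F) →ₗ[F] V)
    (h : ∀ c, Q (A c) = Q (A' c)) :
    ∃ φ : Q.IsometryEquiv Q, ∀ c, φ (A c) = A' c := by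
  classical
  have hker : ∀ c, A c = 0 ↔ A' c = 0 := by
    intro c
    constructor
    · intro h0
      apply hQ
      rw [← h, h0, QuadraticMap.map_zero]
    · intro h0
      apply hQ
      rw [h, h0, QuadraticMap.map_zero]
  have hkereq : LinearMap.ker A = LinearMap.ker A' := by
    ext c
    simp [hker]
  by_cases htop : LinearMap.range A = ⊤
  · -- `A` is surjective: the map `A c ↦ A' c` is a global isometry
    have hsurj : Function.Surjective A := LinearMap.range_eq_top.1 htop
    obtain ⟨g, hg⟩ := LinearMap.exists_rightInverse_of_surjective A htop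
    let ψ : V →ₗ[F] V := A' ∘ₗ g
    have hψ : ∀ c, ψ (A c) = A' c := by
      intro c
      have hg' : A (g (A c)) = A c := by
        have := LinearMap.congr_fun hg (A c)
        simpa using this
      have h0 : A (g (A c) - c) = 0 := by simp [hg']
      have h1 := (hker _).1 h0
      simp only [map_sub, sub_eq_zero] at h1
      exact h1
    have hinj : Function.Injective ψ := by
      rw [← LinearMap.ker_eq_bot, LinearMap.ker_eq_bot']
      intro m hm
      obtain ⟨c, rfl⟩ := hsurj m
      rw [hψ] at hm
      exact (hker c).2 hm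
    have hbij : Function.Bijective ψ :=
      ⟨hinj, LinearMap.injective_iff_surjective.1 hinj⟩
    let e : V ≃ₗ[F] V := LinearEquiv.ofBijective ψ hbij
    refine ⟨⟨e, ?_⟩, ?_⟩
    · intro m
      obtain ⟨c, rfl⟩ := hsurj m
      change Q (ψ (A c)) = Q (A c)
      rw [hψ, h]
    · intro c
      exact hψ c
  · -- the range is a proper subspace, so of dimension at most 1
    have hlt : Module.finrank F (LinearMap.range A) < Module.finrank F V :=
      Submodule.finrank_lt htop
    have h2 := finrank_le_two Q hQ
    have hle : Module.finrank F (LinearMap.range A) ≤ 1 := by omega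
    obtain ⟨v₀, hv₀⟩ := finrank_le_one_iff.1 hle
    by_cases hall : ∀ c, A c = 0
    · refine ⟨QuadraticMap.IsometryEquiv.refl Q, fun c => ?_⟩
      have h1 := (hker c).1 (hall c)
      rw [h1, hall c]
      simp
    · push Not at hall
      obtain ⟨c₀, hc₀⟩ := hall
      obtain ⟨φ, hφ⟩ := exists_reflection Q hQ (A c₀) (A' c₀) (h c₀)
      refine ⟨φ, fun c => ?_⟩
      -- every `A c` is a multiple of `A c₀`
      obtain ⟨t₀, ht₀⟩ := hv₀ ⟨A c₀, LinearMap.mem_range_self A c₀⟩
      obtain ⟨t, ht⟩ := hv₀ ⟨A c, LinearMap.mem_range_self A c⟩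
      have ht₀' : t₀ • (v₀ : V) = A c₀ := congrArg Subtype.val ht₀
      have ht' : t • (v₀ : V) = A c := congrArg Subtype.val ht
      have ht₀ne : t₀ ≠ 0 := by
        rintro rfl
        rw [zero_smul] at ht₀'
        exact hc₀ ht₀'.symm
      have hAc : A c = (t * t₀⁻¹) • A c₀ := by
        rw [← ht', ← ht₀', smul_smul, mul_assoc, inv_mul_cancel₀ ht₀ne, mul_one]
      have hzero : A (c - (t * t₀⁻¹) • c₀) = 0 := by
        rw [map_sub, map_smul, hAc, sub_self]
      have hA' : A' c = (t * t₀⁻¹) • A' c₀ := by
        have := (hker _).1 hzero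
        rw [map_sub, map_smul, sub_eq_zero] at this
        exact this
      rw [hAc, hA', map_smul, hφ]

theorem result {F V : Type*} [Field F] [Finite F] [AddCommGroup V] [Module F V] [Module.Finite F V]
    (Q : QuadraticForm F V) (hQ : Q.Anisotropic) (n : ℕ) (hn : 2 ≤ n) (u u' : Fin n → V)
    (h2 : ∀ i j : Fin n, i ≠ j → ∃ (φ : Q.IsometryEquiv Q) (c : V), φ (u i) + c = u' i ∧ φ (u j) + c = u' j) :
    ∃ (φ : Q.IsometryEquiv Q) (c : V), ∀ i, φ (u i) + c = u' i := by
  classical
  let i₀ : Fin n := ⟨0, by omega⟩
  let a : Fin n → V := fun i => u i - u i₀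
  let a' : Fin n → V := fun i => u' i - u' i₀
  have hdiff : ∀ i j, Q (u i - u j) = Q (u' i - u' j) := by
    intro i j
    by_cases hij : i = j
    · subst hij; simp
    · obtain ⟨φ, c, h1, h3⟩ := h2 i j hij
      have : u' i - u' j = φ (u i - u j) := by
        rw [map_sub, ← h1, ← h3]; abel
      rw [this, QuadraticMap.IsometryEquiv.map_app]
  have hQa : ∀ i, Q (a i) = Q (a' i) := fun i => hdiff i i₀
  have hQab : ∀ i j, Q (a i - a j) = Q (a' i - a' j) := by
    intro i j
    have h1 : a i - a j = u i - u j := by simp [a]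
    have h3 : a' i - a' j = u' i - u' j := by simp [a']
    rw [h1, h3, hdiff]
  have hpolar : ∀ i j, polar Q (a i) (a j) = polar Q (a' i) (a' j) := by
    have hexp : ∀ x y : V, polar Q x y = Q x + Q y - Q (x - y) := by
      intro x y
      have : Q (x - y) = Q x + Q y - polar Q x y := by
        rw [sub_eq_add_neg, QuadraticMap.map_add Q, QuadraticMap.map_neg, polar_neg_right]
        ring
      rw [this]; ring
    intro i j
    rw [hexp, hexp, hQa, hQa, hQab]
  let A : (Fin n → F) →ₗ[F] V := ∑ i, (LinearMap.proj i).smulRight (a i)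
  let A' : (Fin n → F) →ₗ[F] V := ∑ i, (LinearMap.proj i).smulRight (a' i)
  have hA : ∀ c, A c = ∑ i, c i • a i := by
    intro c; simp [A]
  have hA' : ∀ c, A' c = ∑ i, c i • a' i := by
    intro c; simp [A']
  have hpolarsum : ∀ (s : Finset (Fin n)) (c : Fin n → F) (k : Fin n),
      polar Q (∑ i ∈ s, c i • a i) (a k) = polar Q (∑ i ∈ s, c i • a' i) (a' k) := by
    intro s c k
    induction s using Finset.induction_on with
    | empty => simp
    | insert x s hx ih =>
      rw [Finset.sum_insert hx, Finset.sum_insert hx, polar_add_left, polar_add_left, ih,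
        polar_smul_left, polar_smul_left, hpolar]
  have hsum : ∀ (s : Finset (Fin n)) (c : Fin n → F),
      Q (∑ i ∈ s, c i • a i) = Q (∑ i ∈ s, c i • a' i) := by
    intro s c
    induction s using Finset.induction_on with
    | empty => simp
    | insert x s hx ih =>
      rw [Finset.sum_insert hx, Finset.sum_insert hx, QuadraticMap.map_add Q,
        QuadraticMap.map_add Q, ih, QuadraticMap.map_smul, QuadraticMap.map_smul, hQa,
        polar_smul_left, polar_smul_left, polar_comm Q (a x), polar_comm Q (a' x), hpolarsum]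
  obtain ⟨φ, hφ⟩ := exists_isometry_of_map Q hQ A A' (by
    intro c
    rw [hA, hA']
    exact hsum _ c)
  have hφa : ∀ i, φ (a i) = a' i := by
    intro i
    have h1 := hφ (Pi.single i 1)
    rw [hA, hA'] at h1
    simpa [Pi.single_apply, Finset.sum_ite_eq', ite_smul] using h1
  refine ⟨φ, u' i₀ - φ (u i₀), fun i => ?_⟩
  have h1 := hφa i
  simp only [a, a', map_sub] at h1
  rw [← sub_eq_iff_eq_add'.2 (sub_eq_iff_eq_add.1 h1)]
  abel

end Cfsg.Agent.S5754
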