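import Cfsg.Statements.S5885
import Mathlib

set_option autoImplicit false
open Cfsg

namespace Cfsg.Agent.S5885

private lemma three_cycle_lift {G : Type*} [Group G] [Finite G] (n : ℕ)
    (hA : ∀ P : Subgroup (Equiv.Perm (Fin n)), MulAction.IsPreprimitive P (Fin n) → alternatingGroup (Fin n) ≤ P)
    (M : Subgroup G) (hM : IsCoatom M) (hn : M.index = n) [DecidableEq (G ⧸ M)] (x y z : G ⧸ M)
    (hxy : x ≠ y) (hxz : x ≠ z) :
    ∃ g : G, ∀ ω : G ⧸ M, g • ω = (Equiv.swap x y * Equiv.swap x z) ω := by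
  classical
  have hcard : Nat.card (G ⧸ M) = n := hn
  let e : G ⧸ M ≃ Fin n := Finite.equivFinOfCardEq hcard
  let φ : G →* Equiv.Perm (Fin n) :=
    (Equiv.permCongrHom e).toMonoidHom.comp (MulAction.toPermHom G (G ⧸ M))
  have hφ : ∀ (g : G) (ω : G ⧸ M), φ g (e ω) = e (g • ω) := by
    intro g ω
    simp [φ, Equiv.permCongrHom, Equiv.permCongr_apply]
  have hnt : Nontrivial (G ⧸ M) := ⟨x, y, hxy⟩
  have hprim : MulAction.IsPreprimitive G (G ⧸ M) := by
    rw [← MulAction.isCoatom_stabilizer_iff_preprimitive G ((1 : G) : G ⧸ M),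
      MulAction.stabilizer_quotient]
    exact hM
  let f : (G ⧸ M) →ₑ[φ.rangeRestrict] Fin n :=
    { toFun := e
      map_smul' := by
        intro g ω
        exact (hφ g ω).symm }
  have hfsurj : Function.Surjective f := e.surjective
  have hP : MulAction.IsPreprimitive φ.range (Fin n) :=
    MulAction.IsPreprimitive.of_surjective hfsurj
  have hle := hA φ.range hP
  have hmem : (Equiv.swap (e x) (e y) * Equiv.swap (e x) (e z)) ∈ alternatingGroup (Fin n) := by
    rw [Equiv.Perm.mem_alternatingGroup, Equiv.Perm.sign_mul,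
      Equiv.Perm.sign_swap (e.injective.ne hxy), Equiv.Perm.sign_swap (e.injective.ne hxz)]
    simp
  obtain ⟨g, hg⟩ := hle hmem
  refine ⟨g, fun ω => ?_⟩
  apply e.injective
  rw [← hφ, hg]
  simp only [Equiv.Perm.coe_mul, Function.comp_apply]
  rw [e.injective.map_swap, e.injective.map_swap]

/-- Let n be an odd positive integer such that every primitive permutation group of degree n contains the alternating group (so the symmetric and alternating groups are the only primitive groups of degree n). Let G be a finite group, M a maximal subgroup of G of index n, and H a maximal subgroup of M. Then H is a second maximal subgroup of G: H is maximal in every maximal subgroup K of G containing H. -/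
theorem result {G : Type*} [Group G]
    [Finite G] (n : ℕ) (hodd : Odd n)
    (hA : ∀ P : Subgroup (Equiv.Perm (Fin n)), MulAction.IsPreprimitive P (Fin n) → alternatingGroup (Fin n) ≤ P)
    (M : Subgroup G) (hM : IsCoatom M) (hn : M.index = n) (H : Subgroup G) (hHM : H ≤ M)
    (hmax : IsCoatom (H.subgroupOf M)) (K : Subgroup G) (hK : IsCoatom K) (hHK : H ≤ K) :
    IsCoatom (H.subgroupOf K) := by
  classical
  by_cases hKM : K = M
  · subst hKM; exact hmax
  have hMK : ¬ M ≤ K := by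
    intro hle
    have hlt : M < K := lt_of_le_of_ne hle (Ne.symm hKM)
    exact hK.1 (hM.2 K hlt)
  have hKM' : ¬ K ≤ M := by
    intro hle
    have hlt : K < M := lt_of_le_of_ne hle hKM
    exact hM.1 (hK.2 M hlt)
  -- H = K ⊓ M
  have hHle : ∀ x : G, x ∈ K → x ∈ M → x ∈ H := by
    intro x hxK hxM
    have hle : H.subgroupOf M ≤ (K ⊓ M).subgroupOf M := by
      intro y hy
      rw [Subgroup.mem_subgroupOf] at hy ⊢
      exact ⟨hHK hy, y.2⟩
    rcases hle.eq_or_lt with heq | hlt
    · have : (⟨x, hxM⟩ : M) ∈ (K ⊓ M).subgroupOf M := by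
        rw [Subgroup.mem_subgroupOf]
        exact ⟨hxK, hxM⟩
      rw [← heq, Subgroup.mem_subgroupOf] at this
      exact this
    · exfalso
      have htop := hmax.2 _ hlt
      apply hMK
      intro y hy
      have : (⟨y, hy⟩ : M) ∈ (K ⊓ M).subgroupOf M := by rw [htop]; trivial
      rw [Subgroup.mem_subgroupOf] at this
      exact this.1
  refine ⟨?_, ?_⟩
  · intro htop
    rw [Subgroup.subgroupOf_eq_top] at htop
    exact hKM' (htop.trans hHM)
  intro L hHL
  by_contra hLtop
  obtain ⟨l, hlL, hlH⟩ := SetLike.exists_of_lt hHL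
  obtain ⟨k, hkL⟩ : ∃ k : K, k ∉ L := by
    by_contra hcon
    push Not at hcon
    exact hLtop ((Subgroup.eq_top_iff' L).mpr hcon)
  -- the cosets
  have hcoset : ∀ x y : G, ((x : G) : G ⧸ M) = ((y : G) : G ⧸ M) ↔ x⁻¹ * y ∈ M := fun x y =>
    QuotientGroup.eq
  have hHsub : ∀ y : K, (y : G) ∈ H → y ∈ L := by
    intro y hy
    apply hHL.le
    rw [Subgroup.mem_subgroupOf]
    exact hy
  -- F1 : coset equality in K lifts to a relation in L
  have hF : ∀ x y : K, ((x : G) : G ⧸ M) = ((y : G) : G ⧸ M) → x⁻¹ * y ∈ L := by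
    intro x y hxy
    apply hHsub
    have h1 := (hcoset _ _).mp hxy
    apply hHle
    · exact (x⁻¹ * y).2
    · simpa using h1
  have hlM : (l : G) ∉ M := by
    intro hm
    apply hlH
    rw [Subgroup.mem_subgroupOf]
    exact hHle _ l.2 hm
  let B : Set (G ⧸ M) := {ω | ∃ x : K, x ∈ L ∧ ω = ((x : G) : G ⧸ M)}
  have hBK : ∀ x : K, ((x : G) : G ⧸ M) ∈ B ↔ x ∈ L := by
    intro x
    constructor
    · rintro ⟨y, hy, hxy⟩
      have := hF y x hxy.symm
      have h2 := L.mul_mem hy this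
      simpa using h2
    · intro hx
      exact ⟨x, hx, rfl⟩
  -- the three-cycles
  have hlift := three_cycle_lift n hA M hM hn
  -- the element 1 as a point
  have ha : ((1 : G) : G ⧸ M) ∈ B := (hBK 1).mpr L.one_mem
  -- action of H on B
  have hHB : ∀ h ∈ H, ∀ ω ∈ B, h • ω ∈ B := by
    rintro h hh ω ⟨x, hx, rfl⟩
    have hhK : h ∈ K := hHK hh
    refine ⟨⟨h, hhK⟩ * x, L.mul_mem (hHsub ⟨h, hhK⟩ hh) hx, ?_⟩
    simp [MulAction.Quotient.smul_coe]
  let T : Subgroup G :=
    { carrier := {g | g ∈ M ∧ ∀ ω : G ⧸ M, g • ω ∈ B ↔ ω ∈ B}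
      mul_mem' := by
        rintro g g' ⟨hg, hgB⟩ ⟨hg', hgB'⟩
        refine ⟨M.mul_mem hg hg', fun ω => ?_⟩
        rw [mul_smul, hgB, hgB']
      one_mem' := ⟨M.one_mem, fun ω => by simp⟩
      inv_mem' := by
        rintro g ⟨hg, hgB⟩
        refine ⟨M.inv_mem hg, fun ω => ?_⟩
        rw [← hgB (g⁻¹ • ω), smul_inv_smul] }
  have hHT : H ≤ T := by
    intro h hh
    refine ⟨hHM hh, fun ω => ⟨fun hω => ?_, hHB h hh ω⟩⟩
    have := hHB h⁻¹ (H.inv_mem hh) _ hω
    simpa using this
  have hTM : T ≤ M := fun g hg => hg.1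
  -- points
  set u₁ : G ⧸ M := ((k : G) : G ⧸ M) with hu₁
  set u₂ : G ⧸ M := (((k * l : K) : G) : G ⧸ M) with hu₂
  set p : G ⧸ M := ((l : G) : G ⧸ M) with hp
  have hu₁B : u₁ ∉ B := fun h => hkL ((hBK k).mp h)
  have hu₂B : u₂ ∉ B := by
    intro h
    have h1 := (hBK (k * l)).mp h
    have h2 := L.mul_mem h1 (L.inv_mem hlL)
    apply hkL
    simpa using h2
  have hpB : p ∈ B := (hBK l).mpr hlL
  have hu₁₂ : u₁ ≠ u₂ := by
    intro h
    have h1 := (hcoset _ _).mp h
    apply hlM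
    simpa using h1
  have hpu₁ : p ≠ u₁ := fun h => hu₁B (h ▸ hpB)
  have hpu₂ : p ≠ u₂ := fun h => hu₂B (h ▸ hpB)
  have ha1 : ((1 : G) : G ⧸ M) ≠ p := by
    intro h
    have h1 := (hcoset _ _).mp h
    apply hlM
    simpa using h1
  have ha2 : ((1 : G) : G ⧸ M) ≠ u₁ := fun h => hu₁B (h ▸ ha)
  have ha3 : ((1 : G) : G ⧸ M) ≠ u₂ := fun h => hu₂B (h ▸ ha)
  have hfixM : ∀ g : G, g • ((1 : G) : G ⧸ M) = ((1 : G) : G ⧸ M) → g ∈ M := by
    intro g hg
    have h1 : ((g : G) : G ⧸ M) = ((1 : G) : G ⧸ M) := by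
      simpa [MulAction.Quotient.smul_coe] using hg
    have h2 := (hcoset _ _).mp h1.symm
    simpa using h2
  -- T is not all of M
  have hTH : ∀ g ∈ T, g ∈ H := by
    have hle : H.subgroupOf M ≤ T.subgroupOf M := by
      intro y hy
      rw [Subgroup.mem_subgroupOf] at hy ⊢
      exact hHT hy
    rcases hle.eq_or_lt with heq | hlt
    · intro g hg
      have : (⟨g, hTM hg⟩ : M) ∈ T.subgroupOf M := by
        rw [Subgroup.mem_subgroupOf]
        exact hg
      rw [← heq, Subgroup.mem_subgroupOf] at this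
      exact this
    · exfalso
      have htop := hmax.2 _ hlt
      obtain ⟨g, hg⟩ := hlift p u₁ u₂ hpu₁ hpu₂
      have hgfix : g • ((1 : G) : G ⧸ M) = ((1 : G) : G ⧸ M) := by
        rw [hg]
        simp only [Equiv.Perm.coe_mul, Function.comp_apply]
        rw [Equiv.swap_apply_of_ne_of_ne ha1 ha3, Equiv.swap_apply_of_ne_of_ne ha1 ha2]
      have hgM := hfixM g hgfix
      have hgT : g ∈ T := by
        have : (⟨g, hgM⟩ : M) ∈ T.subgroupOf M := by rw [htop]; trivial
        rw [Subgroup.mem_subgroupOf] at this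
        exact this
      have h1 := (hgT.2 p).mpr hpB
      rw [hg] at h1
      simp only [Equiv.Perm.coe_mul, Function.comp_apply, Equiv.swap_apply_left] at h1
      rw [Equiv.swap_apply_of_ne_of_ne (Ne.symm hpu₂) hu₁₂.symm] at h1
      exact hu₂B h1
  -- lifts of three-cycles avoiding B lie in H
  have hcyc : ∀ x y z : G ⧸ M, x ∉ B → y ∉ B → z ∉ B → x ≠ y → x ≠ z → y ≠ z →
      ∃ g ∈ H, ∀ ω, g • ω = (Equiv.swap x y * Equiv.swap x z) ω := by
    intro x y z hx hy hz hxy hxz hyz
    obtain ⟨g, hg⟩ := hlift x y z hxy hxz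
    refine ⟨g, ?_, hg⟩
    apply hTH
    have hBfix : ∀ ω ∈ B, g • ω = ω := by
      intro ω hω
      rw [hg]
      have h1 : ω ≠ x := fun h => hx (h ▸ hω)
      have h2 : ω ≠ y := fun h => hy (h ▸ hω)
      have h3 : ω ≠ z := fun h => hz (h ▸ hω)
      simp only [Equiv.Perm.coe_mul, Function.comp_apply]
      rw [Equiv.swap_apply_of_ne_of_ne h1 h3, Equiv.swap_apply_of_ne_of_ne h1 h2]
    refine ⟨hfixM g (hBfix _ ha), fun ω => ⟨fun h => ?_, fun h => by rw [hBfix ω h]; exact h⟩⟩
    by_contra hω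
    -- g • ω ∈ B, so g fixes g • ω, so ω = g • ω
    have h1 := hBfix _ h
    have h2 : g • ω = ω := smul_left_cancel g h1
    rw [h2] at h
    exact hω h
  by_cases htrans : ∀ w : G ⧸ M, ∃ k' : K, ((k' : G) : G ⧸ M) = w
  · -- K is transitive
    have hpret : MulAction.IsPretransitive K (G ⧸ M) := by
      have h1 : ∀ w : G ⧸ M, ∃ k' : K, k' • ((1 : G) : G ⧸ M) = w := by
        intro w
        obtain ⟨k', hk'⟩ := htrans w
        refine ⟨k', ?_⟩
        rw [← hk']
        change (k' : G) • ((1 : G) : G ⧸ M) = _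
        simp [MulAction.Quotient.smul_coe]
      refine ⟨fun w w' => ?_⟩
      obtain ⟨x, rfl⟩ := h1 w
      obtain ⟨y, rfl⟩ := h1 w'
      refine ⟨y * x⁻¹, ?_⟩
      rw [mul_smul, inv_smul_smul]
    have hstab : MulAction.stabilizer K ((1 : G) : G ⧸ M) = H.subgroupOf K := by
      ext y
      rw [Subgroup.mem_subgroupOf, MulAction.mem_stabilizer_iff]
      constructor
      · intro hy
        exact hHle _ y.2 (hfixM _ hy)
      · intro hy
        have h1 : (y : G) ∈ M := hHM hy
        change (y : G) • ((1 : G) : G ⧸ M) = _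
        rw [MulAction.Quotient.smul_coe]
        rw [QuotientGroup.eq]
        simpa using M.inv_mem h1
    have hindex : (H.subgroupOf K).index = n := by
      rw [← hstab, MulAction.index_stabilizer_of_transitive]
      exact hn
    have hnot2 : L.index ≠ 2 := by
      intro h2
      have hdvd : L.index ∣ (H.subgroupOf K).index := Subgroup.index_dvd_of_le hHL.le
      rw [h2, hindex] at hdvd
      exact (Nat.not_even_iff_odd.mpr hodd) (even_iff_two_dvd.mpr hdvd)
    obtain ⟨k₂, hk₂, hk₂'⟩ : ∃ k₂ : K, k₂ ∉ L ∧ k⁻¹ * k₂ ∉ L := by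
      by_contra hcon
      push Not at hcon
      apply hnot2
      rw [Subgroup.index_eq_two_iff']
      refine ⟨k⁻¹, fun b => ?_⟩
      by_cases hb : b ∈ L
      · refine Or.inr ⟨hb, fun h => hkL ?_⟩
        have := L.mul_mem h (L.inv_mem hb)
        have h3 : k⁻¹ ∈ L := by simpa using this
        simpa using L.inv_mem h3
      · exact Or.inl ⟨hcon b hb, hb⟩
    set v₁ : G ⧸ M := ((k₂ : G) : G ⧸ M) with hv₁
    set v₂ : G ⧸ M := (((k₂ * l : K) : G) : G ⧸ M) with hv₂
    have hv₁B : v₁ ∉ B := fun h => hk₂ ((hBK k₂).mp h)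
    have hv₂B : v₂ ∉ B := by
      intro h
      have h1 := (hBK (k₂ * l)).mp h
      have h2 := L.mul_mem h1 (L.inv_mem hlL)
      apply hk₂
      simpa using h2
    have hv12 : v₁ ≠ v₂ := by
      intro h
      have h1 := (hcoset _ _).mp h
      apply hlM
      simpa using h1
    -- if a coset of k * L' meets the k₂ cosets, contradiction
    have hno : ∀ x y : K, x ∈ L → y ∈ L → (((k * x : K) : G) : G ⧸ M) ≠ (((k₂ * y : K) : G) : G ⧸ M) := by
      intro x y hx hy h
      have h1 := hF _ _ h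
      apply hk₂'
      have h2 : x * ((k * x)⁻¹ * (k₂ * y)) * y⁻¹ = k⁻¹ * k₂ := by group
      rw [← h2]
      exact L.mul_mem (L.mul_mem hx h1) (L.inv_mem hy)
    have hu₂v₁ : u₂ ≠ v₁ := by
      intro h
      apply hno l 1 hlL L.one_mem
      simpa [hu₂, hv₁] using h
    have hu₂v₂ : u₂ ≠ v₂ := hno l l hlL hlL
    have hu₁v₁ : u₁ ≠ v₁ := by
      intro h
      apply hno 1 1 L.one_mem L.one_mem
      simpa [hu₁, hv₁] using h
    have hu₁v₂ : u₁ ≠ v₂ := by
      intro h
      apply hno 1 l L.one_mem hlL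
      simpa [hu₁, hv₂] using h
    obtain ⟨g, hgH, hg⟩ := hcyc v₂ v₁ u₂ hv₂B hv₁B hu₂B hv12.symm hu₂v₂.symm hu₂v₁.symm
    have hgu₁ : g • u₁ = u₁ := by
      rw [hg]
      simp only [Equiv.Perm.coe_mul, Function.comp_apply]
      rw [Equiv.swap_apply_of_ne_of_ne hu₁v₂ hu₁₂, Equiv.swap_apply_of_ne_of_ne hu₁v₂ hu₁v₁]
    have hgu₂ : g • u₂ = v₁ := by
      rw [hg]
      simp only [Equiv.Perm.coe_mul, Function.comp_apply, Equiv.swap_apply_right,
        Equiv.swap_apply_left]
    have hgK : g ∈ K := hHK hgH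
    -- k⁻¹ g k ∈ H
    let gk : K := ⟨g, hgK⟩
    have h1 : k⁻¹ * gk * k ∈ L := by
      have h2 : ((gk * k : K) : G) • ((1 : G) : G ⧸ M) = ((k : G) : G ⧸ M) := by
        have := hgu₁
        simpa [MulAction.Quotient.smul_coe, hu₁] using this
      have h3 := hF k (gk * k) (by simpa [MulAction.Quotient.smul_coe] using h2.symm)
      simpa [mul_assoc] using h3
    have h4 : (((gk * (k * l) : K) : G) : G ⧸ M) = v₁ := by
      have := hgu₂
      simpa [MulAction.Quotient.smul_coe, hu₂] using this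
    apply hno ((k⁻¹ * gk * k) * l) 1 (L.mul_mem h1 hlL) L.one_mem
    have h5 : k * (k⁻¹ * gk * k * l) = gk * (k * l) := by group
    rw [h5, h4]
    simp [hv₁]
  · -- K is not transitive
    push Not at htrans
    obtain ⟨w, hw⟩ := htrans
    have hwB : w ∉ B := by
      rintro ⟨x, _, hx⟩
      exact hw x hx.symm
    have hu₁w : u₁ ≠ w := hw k
    have hu₂w : u₂ ≠ w := hw (k * l)
    obtain ⟨g, hgH, hg⟩ := hcyc u₁ w u₂ hu₁B hwB hu₂B hu₁w hu₁₂ hu₂w.symm
    have hgK : g ∈ K := hHK hgH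
    have h1 : g • u₂ = w := by
      rw [hg]
      simp only [Equiv.Perm.coe_mul, Function.comp_apply, Equiv.swap_apply_right,
        Equiv.swap_apply_left]
    apply hw (⟨g, hgK⟩ * (k * l))
    rw [← h1]
    simp [MulAction.Quotient.smul_coe, hu₂]

end Cfsg.Agent.S5885
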