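import Cfsg.Statements.S5886
import Mathlib
import Cfsg.Agent.Lib.Classical.Spread.Transfer

set_option autoImplicit false
open Cfsg

namespace Cfsg.Agent.S5886

open Cfsg.Agent.Lib.Classical.Spread Module

section
variable {F : Type*} [Field F] {n : ℕ}

/-- A type synonym for the subalgebra, to carry a field structure with no competing instances. -/
def KT (K : Subalgebra F (Matrix (Fin n) (Fin n) F)) : Type _ := K

noncomputable instance (K : Subalgebra F (Matrix (Fin n) (Fin n) F)) : Ring (KT K) :=
  inferInstanceAs (Ring K)

end

/-- Let F be a finite field, n a positive integer and r a prime that divides n with r < n. Let K be a subalgebra of the algebra of n × n matrices over F which is a field of degree r over F (commutative, every non-zero element invertible, of dimension r over F; it contains the scalars). Then the normaliser N of K in GL_n(F) — the invertible F-linear maps that are semilinear over the field K, a group of type ΓL_{n/r}(F_{q^r}) for |F| = q — is a maximal subgroup of GL_n(F), and N ∩ SL_n(F) is a maximal subgroup of SL_n(F). No lower bound on n is assumed.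 -/
theorem result {F : Type*} [Field F]
    [Fintype F] (n r : ℕ) (hr : r.Prime) (hrn : r ∣ n) (hlt : r < n) (K : Subalgebra F (Matrix (Fin n) (Fin n) F))
    (hK : Cfsg.Geo.IsFieldSubalgebra r K) :
    IsCoatom (Cfsg.Geo.subalgebraNormalizer K) ∧
      Cfsg.Geo.IsMaximalIn (Cfsg.Geo.specialLinear (Fin n) F)
        (Cfsg.Geo.subalgebraNormalizer K ⊓ Cfsg.Geo.specialLinear (Fin n) F) := by
  classical
  have hn0 : 0 < n := by
    have := hr.pos
    omega
  have hnt : Nontrivial (Matrix (Fin n) (Fin n) F) := by
    have : Nonempty (Fin n) := ⟨⟨0, hn0⟩⟩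
    infer_instance
  -- the field structure on `K`
  have hfield : IsField (KT K) := by
    refine ⟨⟨0, 1, ?_⟩, ?_, ?_⟩
    · intro h
      have : ((0 : K) : Matrix (Fin n) (Fin n) F) = ((1 : K) : Matrix (Fin n) (Fin n) F) :=
        congrArg Subtype.val h
      simp at this
    · intro a b
      exact Subtype.ext (hK.comm a.1 a.2 b.1 b.2)
    · intro a ha
      have ha' : (a.1 : Matrix (Fin n) (Fin n) F) ≠ 0 := fun h => ha (Subtype.ext h)
      obtain ⟨y, hy, hxy⟩ := hK.inv a.1 a.2 ha'
      exact ⟨⟨y, hy⟩, Subtype.ext hxy⟩
  letI fK : Field (KT K) := hfield.toField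
  -- the algebra structure
  let φ : F →+* KT K :=
    { toFun := fun s => ⟨algebraMap F (Matrix (Fin n) (Fin n) F) s, K.algebraMap_mem s⟩
      map_one' := Subtype.ext (map_one _)
      map_mul' := fun a b => Subtype.ext (map_mul _ a b)
      map_zero' := Subtype.ext (map_zero _)
      map_add' := fun a b => Subtype.ext (map_add _ a b) }
  letI aK : Algebra F (KT K) := φ.toAlgebra
  let ι : KT K →ₐ[F] Matrix (Fin n) (Fin n) F :=
    { toFun := fun a => a.1
      map_one' := rfl
      map_mul' := fun _ _ => rfl
      map_zero' := rfl
      map_add' := fun _ _ => rfl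
      commutes' := fun _ => rfl }
  have hrange : ι.range = K := by
    ext x
    constructor
    · rintro ⟨a, rfl⟩
      exact a.2
    · intro hx
      exact ⟨⟨x, hx⟩, rfl⟩
  letI mK : Module (KT K) (Fin n → F) :=
    Module.compHom _ ((Matrix.toLinAlgEquiv' : Matrix (Fin n) (Fin n) F ≃ₐ[F]
      Module.End F (Fin n → F)).toRingEquiv.toRingHom.comp ι.toRingHom)
  have hι : ∀ (k : KT K) (x : Fin n → F), k • x = (ι k).mulVec x := fun k x => rfl
  haveI tK : IsScalarTower F (KT K) (Fin n → F) := by
    constructor
    intro s k x
    change (ι (s • k)).mulVec x = s • (ι k).mulVec x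
    rw [map_smul, Matrix.smul_mulVec]
  let eK : KT K ≃ₗ[F] K :=
    { toFun := fun a => a
      invFun := fun a => a
      left_inv := fun _ => rfl
      right_inv := fun _ => rfl
      map_add' := fun _ _ => rfl
      map_smul' := fun s a => by
        apply Subtype.ext
        change algebraMap F (Matrix (Fin n) (Fin n) F) s * a.1 = s • a.1
        rw [Algebra.smul_def] }
  have hrk : finrank F (KT K) = r := by
    rw [eK.finrank_eq]
    exact hK.finrank_eq
  haveI hfinK : Finite (KT K) :=
    Finite.of_injective (fun k => (ι k : Matrix (Fin n) (Fin n) F)) (fun a b h => Subtype.ext h)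
  haveI : FiniteDimensional F (KT K) := Module.Finite.of_finite
  haveI : FiniteDimensional (KT K) (Fin n → F) := Module.Finite.of_restrictScalars_finite F (KT K) _
  have hm : 2 ≤ finrank (KT K) (Fin n → F) := by
    have h1 := Module.finrank_mul_finrank F (KT K) (Fin n → F)
    rw [hrk, Module.finrank_pi_fintype] at h1
    simp at h1
    by_contra hlt2
    have : finrank (KT K) (Fin n → F) ≤ 1 := by omega
    have h2 : r * finrank (KT K) (Fin n → F) ≤ r * 1 := Nat.mul_le_mul_left r this
    omega
  haveI : Algebra.IsSeparable F (KT K) := inferInstance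
  have := main_abs (ι := ι) hι (by rw [hrk]; exact hr) hm
  rwa [hrange] at this

end Cfsg.Agent.S5886
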