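import Cfsg.Statements.S5890
import Cfsg.Agent.Lib.PSL2.MaxPgl5

set_option autoImplicit false
open Cfsg

namespace Cfsg.Agent.S5890

open Matrix Matrix.SpecialLinearGroup Subgroup
open scoped MatrixGroups
open Cfsg.Agent.Lib.PSL2.Basic Cfsg.Agent.Lib.PSL2.Members
open Cfsg.Agent.Lib.PSL2.DicksonCor Cfsg.Agent.Lib.PSL2.Overgroups Cfsg.Agent.Lib.PSL2.DihedralMax
open Cfsg.Agent.Lib.PSL2.Solubilizer Cfsg.Agent.Lib.PSL2.MaxOdd Cfsg.Agent.Lib.PSL2.MaxPgl
open Cfsg.Agent.Lib.PSL2.Position Cfsg.Agent.Lib.PSL2.BorelMax Cfsg.Agent.Lib.PSL2.FieldEmbed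
open Cfsg.Agent.Lib.PSL2.FourGroup

section Helpers

variable {F : Type*} [Field F] [Fintype F]

theorem coatom_transfer {M : Subgroup (PG F)} (h : IsCoatom (M0 M)) :
    IsCoatom ((M ⊓ LL F).subgroupOf (LL F)) := by
  have hmem : ∀ u : PSL(2, F), psi u ∈ LL F := fun u => by
    rw [← range_psi]
    exact ⟨u, rfl⟩
  let φ : PSL(2, F) →* LL F := (psi : PSL(2, F) →* PG F).codRestrict (LL F) hmem
  have hφ : Function.Bijective φ := by
    constructor
    · intro a b hab
      exact psi_injective (congrArg Subtype.val hab)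
    · rintro ⟨x, hx⟩
      rw [← range_psi] at hx
      obtain ⟨u, rfl⟩ := hx
      exact ⟨u, rfl⟩
  let e : PSL(2, F) ≃* LL F := MulEquiv.ofBijective φ hφ
  have heq : (M ⊓ LL F).subgroupOf (LL F) = (M0 M).map e.toMonoidHom := by
    ext ⟨x, hx⟩
    rw [Subgroup.mem_subgroupOf]
    have hx' := hx
    rw [← range_psi] at hx'
    obtain ⟨u, rfl⟩ := hx'
    constructor
    · rintro ⟨h1, -⟩
      exact ⟨u, h1, rfl⟩
    · rintro ⟨v, hv, hv'⟩
      have h1 : psi v = psi u := congrArg Subtype.val hv'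
      have h2 := psi_injective h1
      subst h2
      exact ⟨hv, hx⟩
  rw [heq]
  exact (MulEquiv.mapSubgroup e).isCoatom_iff _ |>.2 h

theorem even_case (hev : Even (Fintype.card F)) {M : Subgroup (PG F)} (hM : IsCoatom M) (hML : ¬ LL F ≤ M) :
    IsCoatom (M0 M) := by
  have hq := card_ge_two F
  have h1 := card_PSL2_mul_dd F
  have h3 : dd F = 1 := gcd_two_even (by omega) (Nat.even_iff.1 hev)
  rw [h3, mul_one] at h1
  have hc : Nat.card (PSL(2, F)) = Nat.card (PG F) := by
    rw [card_PGL, h1]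
  have hb : Function.Bijective (psi : PSL(2, F) → PG F) :=
    (Nat.bijective_iff_injective_and_card _).2 ⟨psi_injective, hc⟩
  let e : PSL(2, F) ≃* PG F := MulEquiv.ofBijective psi hb
  have heq : (M0 M).map e.toMonoidHom = M := by
    ext x
    obtain ⟨u, rfl⟩ := hb.2 x
    constructor
    · rintro ⟨v, hv, hv'⟩
      have h4 : psi v = psi u := hv'
      rw [← h4]
      exact hv
    · intro h4
      exact ⟨u, h4, rfl⟩
  have h4 : IsCoatom ((M0 M).map e.toMonoidHom) := by
    rw [heq]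
    exact hM
  exact (MulEquiv.mapSubgroup e).isCoatom_iff _ |>.1 h4

lemma isCoatom_borelP_conj (g : SL(2, F)) : IsCoatom (borelP g) := by
  have h1 := isCoatom_map (MulAut.conj (mkP g)⁻¹) (isCoatom_borelP (F := F))
  have h2 : (borelP (1 : SL(2, F))).map (MulAut.conj (mkP g)⁻¹).toMonoidHom = borelP g := by
    ext z
    obtain ⟨Z, rfl⟩ := mkP_surjective z
    rw [Subgroup.mem_map_equiv, mem_borelP]
    have h3 : (MulAut.conj (mkP g)⁻¹).symm (mkP Z) = mkP (g * Z * g⁻¹) := by
      rw [map_mul, map_mul, map_inv]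
      simp [MulAut.conj_symm_apply]
    rw [h3, mem_borelP]
    unfold Cfsg.Agent.Lib.PSL2.Members.Up Cfsg.Agent.Lib.PSL2.Members.T
    simp
  rwa [h2] at h1

lemma a4_pair : ∃ c₁ c₂ : alternatingGroup (Fin 4), c₁ ^ 3 = 1 ∧ c₂ ^ 3 = 1 ∧ c₁ * c₂ ≠ c₂ * c₁ := by
  refine ⟨⟨Equiv.swap 0 1 * Equiv.swap 1 2, by rw [Equiv.Perm.mem_alternatingGroup]; decide⟩,
    ⟨Equiv.swap 0 1 * Equiv.swap 1 3, by rw [Equiv.Perm.mem_alternatingGroup]; decide⟩, by decide, by decide, by decide⟩

lemma rot_of_cube {k : ℕ} (x : DihedralGroup k) (h : x ^ 3 = 1) : ∃ i, x = DihedralGroup.r i := by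
  cases x with
  | r i => exact ⟨i, rfl⟩
  | sr i =>
    exfalso
    have h1 : DihedralGroup.sr i * DihedralGroup.sr i = (1 : DihedralGroup k) := DihedralGroup.sr_mul_self i
    rw [pow_succ, pow_two, h1, one_mul] at h
    rw [DihedralGroup.one_def] at h
    cases h

theorem no_A4_dihedral {k : ℕ} {H K : Subgroup PSL(2, F)} (hle : H ≤ K) (e : H ≃* alternatingGroup (Fin 4))
    (d : K ≃* DihedralGroup k) : False := by
  let φ : alternatingGroup (Fin 4) →* DihedralGroup k :=
    d.toMonoidHom.comp ((Subgroup.inclusion hle).comp e.symm.toMonoidHom)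
  have hφ : Function.Injective φ :=
    d.injective.comp ((Subgroup.inclusion_injective hle).comp e.symm.injective)
  obtain ⟨c₁, c₂, h1, h2, h3⟩ := a4_pair
  obtain ⟨i, hi⟩ := rot_of_cube (φ c₁) (by rw [← map_pow, h1, map_one])
  obtain ⟨j, hj⟩ := rot_of_cube (φ c₂) (by rw [← map_pow, h2, map_one])
  apply h3
  apply hφ
  rw [map_mul, map_mul, hi, hj, DihedralGroup.r_mul_r, DihedralGroup.r_mul_r, add_comm]

theorem a4_coatom (p : ℕ) [Fact p.Prime] [CharP F p] (hodd : Odd (Fintype.card F)) (h5 : 5 ≤ Fintype.card F)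
    (hq : Fintype.card F = p) (h8 : p % 8 = 3 ∨ p % 8 = 5)
    (h40 : (Fintype.card F).Prime → Fintype.card F % 40 ∉ ({11, 19, 21, 29} : Finset ℕ)) {H : Subgroup PSL(2, F)}
    (e : H ≃* alternatingGroup (Fin 4)) : IsCoatom H := by
  have hpq : (Fintype.card F).Prime := by
    rw [hq]
    exact Fact.out
  have h40' := h40 hpq
  have hcH : Nat.card H = 12 := by
    rw [Nat.card_congr e.toEquiv, Nat.card_eq_fintype_card]
    decide
  have hc := two_mul_card hodd
  have hbig : 5 * (5 ^ 2 - 1) ≤ Fintype.card F * (Fintype.card F ^ 2 - 1) := by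
    apply Nat.mul_le_mul h5
    exact Nat.sub_le_sub_right (Nat.pow_le_pow_left h5 2) 1
  have hq8 : Fintype.card F % 8 = 3 ∨ Fintype.card F % 8 = 5 := by rwa [hq]
  have hq10 : ¬ (Fintype.card F % 10 = 1 ∨ Fintype.card F % 10 = 9) := by
    intro h
    apply h40'
    have : Fintype.card F % 40 = 11 ∨ Fintype.card F % 40 = 19 ∨ Fintype.card F % 40 = 21 ∨ Fintype.card F % 40 = 29 := by
      omega
    simp only [Finset.mem_insert, Finset.mem_singleton]
    exact this
  rcases eq_top_or_exists_le_coatom H with h | ⟨K, hK, hle⟩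
  · exfalso
    rw [h, Subgroup.card_top] at hcH
    rw [hcH] at hc
    norm_num at hbig
    omega
  have hdvd : 12 ∣ Nat.card K := hcH ▸ Subgroup.card_dvd_of_le hle
  rcases coatom_cases_odd p hodd h5 K hK with h | ⟨-, k, -, ⟨d⟩⟩ | ⟨-, -, k, -, ⟨d⟩⟩ |
      ⟨F₀, i1, i2, h0, -⟩ | ⟨F₀, i1, i2, r, hr, -, h0, -⟩ | ⟨h0, -⟩ | ⟨-, -, -, ⟨e'⟩⟩ | ⟨-, h0, -⟩
  · exfalso
    have h24 : 8 ∣ Fintype.card F * (Fintype.card F - 1) := by
      rw [← h]
      obtain ⟨c, hc'⟩ := hdvd
      rw [hc']
      exact ⟨3 * c, by ring⟩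
    have h3 := Nat.mod_eq_zero_of_dvd h24
    rw [Nat.mul_mod] at h3
    have h4 : (Fintype.card F - 1) % 8 = 2 ∨ (Fintype.card F - 1) % 8 = 4 := by omega
    rcases hq8 with h6 | h6 <;> rcases h4 with h7 | h7 <;> rw [h6, h7] at h3 <;> first | omega | skip
  · exact (no_A4_dihedral hle e d).elim
  · exact (no_A4_dihedral hle e d).elim
  · exfalso
    rw [h0] at hpq
    exact Nat.Prime.not_prime_pow (le_refl 2) hpq
  · exfalso
    rw [h0] at hpq
    exact Nat.Prime.not_prime_pow hr.two_le hpq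
  · exact absurd h0 hq10
  · have hcK : Nat.card K = 12 := by
      rw [Nat.card_congr e'.toEquiv, Nat.card_eq_fintype_card]
      decide
    have heq : H = K := Subgroup.eq_of_le_of_card_ge hle (by rw [hcH, hcK])
    rw [heq]
    exact hK
  · exfalso
    omega

theorem pos_coatom (hodd : Odd (Fintype.card F)) {M : Subgroup (PG F)} (hM : IsCoatom M) (hML : ¬ LL F ≤ M)
    {K : Type} [Field K] [Fintype K] (ι : K →+* F) {r : ℕ} (hr : r.Prime) (hro : Odd r)
    (hrc : Fintype.card K ^ r = Fintype.card F) {X : GL (Fin 2) F}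
    (heq : M.map (MulAut.conj (mkG X)).toMonoidHom = pgl ι) : IsCoatom (M0 M) := by
  obtain ⟨Φ, hΦ⟩ := exists_aut X
  have hM0 := M0_conj hΦ M
  rw [heq] at hM0
  have hM' := isCoatom_conj (mkG X) hM
  have hL' := not_le_conj hodd (mkG X) hML
  rw [heq] at hM' hL'
  have hq2 := card_ge_two K
  have hoddK : Odd (Fintype.card K) := by
    rcases Nat.even_or_odd (Fintype.card K) with h' | h'
    · exfalso
      rw [← hrc] at hodd
      exact (Nat.not_odd_iff_even.2 (h'.pow_of_ne_zero hr.ne_zero)) hodd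
    · exact h'
  have hc1 := card_eq_two_mul hodd (not_le_LL hodd hM' hL')
  have hc2 := card_pgl ι
  have hc3 := two_mul_card hoddK
  have hc4 := card_stdPsl ι
  have hcc : Nat.card (M0 (pgl ι)) ≤ Nat.card (stdPsl ι) := by omega
  have heq2 : stdPsl ι = M0 (pgl ι) := Subgroup.eq_of_le_of_card_ge (stdPsl_le_pgl ι) hcc
  have hCo : IsCoatom (stdPsl ι) := by
    by_cases h3 : Fintype.card K = 3
    · refine ⟨stdPsl_ne_top ι hr hrc, fun N hlt => ?_⟩
      by_contra hN
      exact hlt.ne (eq_of_le_stdPsl_three ι hr (Nat.odd_iff.1 hro) hrc h3 hlt.le hN).symm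
    · have h4 : 4 ≤ Fintype.card K := by
        have := Nat.odd_iff.1 hoddK
        omega
      exact isCoatom_stdPsl ι hr hrc h4 (fun _ => Nat.odd_iff.1 hro)
  rw [heq2, hM0] at hCo
  exact (MulEquiv.mapSubgroup Φ).isCoatom_iff _ |>.1 hCo

end Helpers

/-- Let F be a finite field with q ≥ 4 elements, let L ≤ PGL₂(F) be the image of SL₂(F) (a copy of PSL₂(F), of index gcd(2, q − 1)), and let M be a maximal subgroup of PGL₂(F) that does not contain L. Suppose q ∉ {7, 9, 11} and that q is not a prime congruent to ±11 or ±19 modulo 40. Then M ∩ L is a maximal subgroup of L. (For the excluded q there are maximal subgroups of PGL₂(q) — dihedral groups of order 12 and 16 at q = 7, of order 20 and 16 at q = 9, of order 20 at q = 11, and S₄ at the excluded primes — whose intersection with L is not maximal in L.) -/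
theorem result {F : Type*} [Field F]
    [Fintype F] (h4 : 4 ≤ Fintype.card F) (h7 : Fintype.card F ≠ 7) (h9 : Fintype.card F ≠ 9) (h11 : Fintype.card F ≠ 11)
    (h40 : (Fintype.card F).Prime → Fintype.card F % 40 ∉ ({11, 19, 21, 29} : Finset ℕ))
    (M : Subgroup (Matrix.ProjGenLinGroup (Fin 2) F)) (hM : IsCoatom M)
    (hML : ¬ (Matrix.ProjGenLinGroup.mk.comp Matrix.SpecialLinearGroup.toGL).range ≤ M) :
    IsCoatom ((M ⊓ (Matrix.ProjGenLinGroup.mk.comp Matrix.SpecialLinearGroup.toGL).range).subgroupOf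
      (Matrix.ProjGenLinGroup.mk.comp Matrix.SpecialLinearGroup.toGL).range) := by
  classical
  obtain ⟨p, hp, hchar⟩ := exists_char F
  haveI : Fact p.Prime := ⟨hp⟩
  apply coatom_transfer
  rcases Nat.even_or_odd (Fintype.card F) with hev | hodd
  · exact even_case hev hM hML
  · have hoddq := Nat.odd_iff.1 hodd
    have h5 : 5 ≤ Fintype.card F := by omega
    have hgcd : Nat.gcd 2 (Fintype.card F - 1) = 2 := gcd_two_odd hoddq
    have hdd := dd_of_odd hodd
    rcases pgl_cases p hodd h5 hM hML with ⟨A, hA, hd, rfl⟩ | ⟨g, rfl⟩ | ⟨hq, h8, ⟨e⟩, -⟩ |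
        ⟨X, K, iK, iF, ι, r, hr, hro, hrc, heq⟩
    · obtain ⟨w, hw⟩ := exists_inverter hA hd
      rw [M0, comap_NG]
      have hcb := (Cfsg.Agent.Lib.PSL2.MemberCyc.cbar_cyclic hA hd).2
      rw [hgcd] at hcb
      rcases hcb with h | h
      · refine isCoatom_Nz p hA hd hw (t := Fintype.card F + 1) ?_ (Or.inl ⟨rfl, ?_⟩)
        · rw [hdd, mul_comm]
          omega
        · simp only [Finset.mem_insert, Finset.mem_singleton, not_or]
          exact ⟨by omega, h7, h9⟩
      · refine isCoatom_Nz p hA hd hw (t := Fintype.card F - 1) ?_ (Or.inr ⟨rfl, ?_⟩)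
        · rw [hdd, mul_comm]
          omega
        · simp only [Finset.mem_insert, Finset.mem_singleton, not_or]
          refine ⟨by omega, by omega, ?_, h7, h9, h11⟩
          intro hq5
          have hcb2 : Nat.card (cbar A) = 2 := by omega
          have hc4 := card_Nz p hA hd hw
          have hc3 : Nat.card (M0 (NG A)) = Nat.card (Nz A) := by
            rw [M0, comap_NG]
          refine no_klein hodd h5 hM (by omega) ?_
          intro x hx
          have hx' : x ∈ Nz A := by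
            rw [← comap_NG]
            exact hx
          by_cases hxc : x ∈ cbar A
          · have h1 := pow_card_eq_one' (x := (⟨x, hxc⟩ : cbar A))
            rw [hcb2] at h1
            have h2 := congrArg Subtype.val h1
            rw [← pow_two]
            exact h2
          · exact sq_of_not_cbar hA hd hx' hxc
    · rw [M0, comap_BG]
      exact isCoatom_borelP_conj g
    · exact a4_coatom p hodd h5 hq h8 (fun hpr => h40 hpr) e
    · exact pos_coatom hodd hM hML ι hr hro hrc heq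

end Cfsg.Agent.S5890
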