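import Cfsg.Statements.S5891
import Cfsg.Agent.Lib.PSL2.MaxPgl5

set_option autoImplicit false
open Cfsg

namespace Cfsg.Agent.S5891

open Matrix Matrix.SpecialLinearGroup Subgroup
open scoped MatrixGroups
open Cfsg.Agent.Lib.PSL2.Basic Cfsg.Agent.Lib.PSL2.Members
open Cfsg.Agent.Lib.PSL2.DicksonCor Cfsg.Agent.Lib.PSL2.Overgroups Cfsg.Agent.Lib.PSL2.DihedralMax
open Cfsg.Agent.Lib.PSL2.Solubilizer Cfsg.Agent.Lib.PSL2.MaxOdd Cfsg.Agent.Lib.PSL2.MaxPgl

/-- Let F be a finite field of odd order q > 3 and characteristic p, and let M be a maximal subgroup of PGL₂(F) not containing the image L of SL₂(F) (a copy of PSL₂(F) of index 2). Then one of the following holds: |M| = q(q − 1) (M is the stabiliser of a point of the projective line); q ≠ 5 and M is dihedral of order 2(q − 1); M is dihedral of order 2(q + 1); q = p ≡ ±3 (mod 8) and M ≅ S₄; or q = q₀^r for an odd prime r and M ≅ PGL₂(F₀) with |F₀| = q₀. -/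
theorem result {F : Type*} [Field F] [Fintype F]
    (hodd : Odd (Fintype.card F)) (h3 : 3 < Fintype.card F) (M : Subgroup (Matrix.ProjGenLinGroup (Fin 2) F)) (hM : IsCoatom M)
    (hML : ¬ (Matrix.ProjGenLinGroup.mk.comp Matrix.SpecialLinearGroup.toGL).range ≤ M) :
    Nat.card M = Fintype.card F * (Fintype.card F - 1) ∨
    (Fintype.card F ≠ 5 ∧ Nonempty (M ≃* DihedralGroup (Fintype.card F - 1))) ∨
    Nonempty (M ≃* DihedralGroup (Fintype.card F + 1)) ∨
    ((Fintype.card F).Prime ∧ (Fintype.card F % 8 = 3 ∨ Fintype.card F % 8 = 5) ∧ Nonempty (M ≃* Equiv.Perm (Fin 4))) ∨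
    (∃ (F₀ : Type) (_ : Field F₀) (_ : Fintype F₀) (r : ℕ), r.Prime ∧ Odd r ∧ Fintype.card F = Fintype.card F₀ ^ r ∧
        Nonempty (M ≃* Matrix.ProjGenLinGroup (Fin 2) F₀)) := by
  obtain ⟨p, hp, hchar⟩ := exists_char F
  haveI : Fact p.Prime := ⟨hp⟩
  have hoddq := Nat.odd_iff.1 hodd
  have h5 : 5 ≤ Fintype.card F := by omega
  have hgcd : Nat.gcd 2 (Fintype.card F - 1) = 2 := gcd_two_odd hoddq
  have hdd := dd_of_odd hodd
  rcases pgl_cases p hodd h5 hM hML with ⟨A, hA, hd, rfl⟩ | ⟨g, rfl⟩ | ⟨hq, h8, -, ⟨e⟩⟩ |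
      ⟨X, K, iK, iF, ι, r, hr, hro, hrc, heq⟩
  · obtain ⟨w, hw⟩ := exists_inverter hA hd
    obtain ⟨e⟩ := NG_equiv hA hd hw (isCyclic_TG hodd hA hd)
    have hc1 := card_NG hA hd hw
    have hc2 := card_eq_two_mul hodd (not_le_LL hodd hM hML)
    have hc3 : Nat.card (M0 (NG A)) = Nat.card (Nz A) := by
      rw [M0, comap_NG]
    have hc4 := card_Nz p hA hd hw
    have hT : Nat.card (TG A) = 2 * Nat.card (cbar A) := by omega
    have hcb := (Cfsg.Agent.Lib.PSL2.MemberCyc.cbar_cyclic hA hd).2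
    rw [hgcd] at hcb
    rw [hT] at e
    rcases hcb with h | h
    · right; right; left
      have : 2 * Nat.card (cbar A) = Fintype.card F + 1 := by omega
      rw [this] at e
      exact ⟨e⟩
    · right; left
      have h2c : 2 * Nat.card (cbar A) = Fintype.card F - 1 := by omega
      rw [h2c] at e
      refine ⟨?_, ⟨e⟩⟩
      intro hq5
      have hcb2 : Nat.card (cbar A) = 2 := by omega
      refine no_klein hodd h5 hM (by omega) ?_
      intro x hx
      have hx' : x ∈ Nz A := by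
        rw [← comap_NG]
        exact hx
      by_cases hxc : x ∈ cbar A
      · have h1 := pow_card_eq_one' (x := (⟨x, hxc⟩ : cbar A))
        rw [hcb2] at h1
        have h2 := congrArg Subtype.val h1
        rw [← pow_two]
        exact h2
      · exact sq_of_not_cbar hA hd hx' hxc
  · left
    have hc2 := card_eq_two_mul hodd (not_le_LL hodd hM hML)
    have hc3 : Nat.card (M0 (BG g)) = Nat.card (borelP g) := by
      rw [M0, comap_BG]
    have hc4 := card_borelP g
    rw [hdd] at hc4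
    rw [hc2, hc3, mul_comm 2, hc4, mul_comm]
  · right; right; right; left
    rw [hq]
    exact ⟨hp, h8, ⟨e⟩⟩
  · right; right; right; right
    refine ⟨K, iK, iF, r, hr, hro, hrc.symm, ?_⟩
    have e1 : M ≃* M.map (MulAut.conj (mkG X)).toMonoidHom := MulEquiv.subgroupMap (MulAut.conj (mkG X)) M
    rw [heq] at e1
    exact ⟨e1.trans (MonoidHom.ofInjective (pglMap_injective ι)).symm⟩


end Cfsg.Agent.S5891
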