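import Cfsg.Statements.S5894
import Mathlib

set_option autoImplicit false
open Cfsg

namespace Cfsg.Agent.S5894

open Equiv

section
variable {X : Type*} [DecidableEq X]

theorem app_inv (g : Perm X) (x : X) : g (g⁻¹ x) = x := Equiv.apply_symm_apply g x

theorem swap_conj_mem {N : Subgroup (Perm X)} {g : Perm X} (hg : g ∈ N) {x y : X}
    (h : swap x y ∈ N) : swap (g x) (g y) ∈ N := by
  rw [Equiv.swap_apply_apply]
  exact N.mul_mem (N.mul_mem hg h) (N.inv_mem hg)

/-- connecting swap. -/
theorem conn (N : Subgroup (Perm X)) (Y R : X → Prop)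
    (hN : ∀ u v, Y u → Y v → (R u ↔ R v) → swap u v ∈ N)
    {g : Perm X} (hg : g ∈ N) (hgY : ∀ x, Y x → Y (g x)) (x y : X) (hx : Y x) (hy : Y y)
    (hxy : R x ↔ R y) (hdiff : ¬ (R (g x) ↔ R (g y))) :
    ∀ u v, Y u → Y v → swap u v ∈ N := by
  have h0 : swap (g x) (g y) ∈ N := swap_conj_mem hg (hN x y hx hy hxy)
  -- normal form: p, q with R p, ¬ R q
  obtain ⟨p, q, hp, hq, hRp, hRq, hpq⟩ : ∃ p q, Y p ∧ Y q ∧ R p ∧ ¬ R q ∧ swap p q ∈ N := by
    by_cases h : R (g x)
    · exact ⟨g x, g y, hgY x hx, hgY y hy, h, fun h' => hdiff ⟨fun _ => h', fun _ => h⟩, h0⟩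
    · refine ⟨g y, g x, hgY y hy, hgY x hx, ?_, h, by rw [Equiv.swap_comm]; exact h0⟩
      by_contra h'
      exact hdiff ⟨fun h2 => absurd h2 h, fun h2 => absurd h2 h'⟩
  have key : ∀ u v, Y u → Y v → R u → ¬ R v → swap u v ∈ N := by
    intro u v hu hv hRu hRv
    have h1 : swap p u ∈ N := hN p u hp hu ⟨fun _ => hRu, fun _ => hRp⟩
    have h2 : swap q v ∈ N := hN q v hq hv ⟨fun h => absurd h hRq, fun h => absurd h hRv⟩
    have h3 := swap_conj_mem (N.mul_mem h1 h2) hpq
    have hne : ∀ {s t : X}, R s → ¬ R t → s ≠ t := fun hs ht e => ht (e ▸ hs)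
    have e1 : (swap p u * swap q v) p = u := by
      rw [Perm.mul_apply, Equiv.swap_apply_of_ne_of_ne (hne hRp hRq) (hne hRp hRv), Equiv.swap_apply_left]
    have e2 : (swap p u * swap q v) q = v := by
      rw [Perm.mul_apply, Equiv.swap_apply_left,
        Equiv.swap_apply_of_ne_of_ne (hne hRp hRv).symm (hne hRu hRv).symm]
    rwa [e1, e2] at h3
  intro u v hu hv
  by_cases h : R u ↔ R v
  · exact hN u v hu hv h
  · by_cases hu' : R u
    · exact key u v hu hv hu' (fun hv' => h ⟨fun _ => hv', fun _ => hu'⟩)
    · rw [Equiv.swap_comm]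
      refine key v u hv hu ?_ hu'
      by_contra hv'
      exact h ⟨fun h2 => absurd h2 hu', fun h2 => absurd h2 hv'⟩

theorem fix_mem [Finite X] (N : Subgroup (Perm X)) (Y : X → Prop)
    (h : ∀ u v, Y u → Y v → swap u v ∈ N) (g : Perm X) (hg : ∀ x, ¬ Y x → g x = x) : g ∈ N := by
  classical
  have hp : ∀ x, Y (g x) ↔ Y x := by
    intro x
    constructor
    · intro h1
      by_contra h2
      rw [hg x h2] at h1
      exact h2 h1
    · intro h1
      by_contra h2
      have := hg _ h2
      have h3 : g x = x := g.injective this
      rw [h3] at h2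
      exact h2 h1
  have key : ∀ σ : Perm {x // Y x}, Perm.ofSubtype σ ∈ N := by
    intro σ
    induction σ using Equiv.Perm.swap_induction_on with
    | one => simp [N.one_mem]
    | swap_mul f x y _ hf =>
      rw [map_mul, Equiv.Perm.ofSubtype_swap_eq]
      exact N.mul_mem (h _ _ x.2 y.2) hf
  have := key (g.subtypePerm hp)
  rwa [Equiv.Perm.ofSubtype_subtypePerm hp (fun x hx => by
    by_contra h2; exact hx (hg x h2))] at this

theorem swap_pres {A : X → Prop} {u v : X} (h : A u ↔ A v) (x : X) :
    A (swap u v x) ↔ A x := by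
  rw [Equiv.swap_apply_def]
  split_ifs with h1 h2
  · subst h1; exact h.symm
  · subst h2; exact h
  · exact Iff.rfl

/-- stabiliser of a set -/
def stabT (A : X → Prop) : Subgroup (Perm X) where
  carrier := {g | ∀ x, A (g x) ↔ A x}
  one_mem' := fun _ => Iff.rfl
  mul_mem' := fun {g h} hg hh x => (hg (h x)).trans (hh x)
  inv_mem' := fun {g} hg x => by
    have := hg (g⁻¹ x)
    rw [app_inv] at this
    exact this.symm

/-- stabiliser of the partition. -/
def stabK (A : X → Prop) : Subgroup (Perm X) where
  carrier := {g | (∀ x, A (g x) ↔ A x) ∨ (∀ x, A (g x) ↔ ¬ A x)}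
  one_mem' := Or.inl fun _ => Iff.rfl
  mul_mem' := by
    rintro g h (hg | hg) (hh | hh)
    · exact Or.inl fun x => (hg (h x)).trans (hh x)
    · exact Or.inr fun x => (hg (h x)).trans (hh x)
    · exact Or.inr fun x => (hg (h x)).trans (not_congr (hh x))
    · exact Or.inl fun x => (hg (h x)).trans ((not_congr (hh x)).trans not_not)
  inv_mem' := by
    rintro g (hg | hg)
    · refine Or.inl fun x => ?_
      have := hg (g⁻¹ x)
      rw [app_inv] at this
      exact this.symm
    · refine Or.inr fun x => ?_
      have := hg (g⁻¹ x)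
      rw [app_inv] at this
      tauto

theorem stabT_le_stabK (A : X → Prop) : stabT A ≤ stabK A := fun _ hg => Or.inl hg

theorem coatom_subgroupOf {G : Type*} [Group G] {H M : Subgroup G} (hHM : H ≤ M) (hne : ¬ M ≤ H)
    (hmax : ∀ L : Subgroup G, H < L → L ≤ M → L = M) : IsCoatom (H.subgroupOf M) := by
  constructor
  · intro h
    exact hne (Subgroup.subgroupOf_eq_top.mp h)
  · intro N hN
    have hL : H < N.map M.subtype := by
      constructor
      · intro h hh
        exact ⟨⟨h, hHM hh⟩, hN.le (by simpa [Subgroup.mem_subgroupOf] using hh), rfl⟩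
      · intro hle
        obtain ⟨n, hn, hn'⟩ := SetLike.exists_of_lt hN
        apply hn'
        rw [Subgroup.mem_subgroupOf]
        exact hle ⟨n, hn, rfl⟩
    have := hmax _ hL (Subgroup.map_subtype_le N)
    rw [eq_top_iff]
    intro g _
    have hg : (g : G) ∈ N.map M.subtype := by rw [this]; exact g.2
    obtain ⟨n, hn, hn'⟩ := hg
    have : n = g := Subtype.ext hn'
    rwa [← this]

end

/-- For every m ≥ 2 the symmetric group on 2m letters has a maximal subgroup M of index 2m together with a maximal subgroup H of M that is not second maximal: some maximal subgroup K of the symmetric group contains H without H being maximal in K. (One may take M the stabiliser of a letter, H ≅ S_m × S_{m−1} inside it, and K ≅ S_m ≀ S₂ the stabiliser of a partition into two m-sets, with H < S_m × S_m < K.) So the prime-index hypothesis in the second-maximality criterion cannot be relaxed to any even index ≥ 4. -/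
theorem result (m : ℕ) (hm : 2 ≤ m) :
    ∃ M H K : Subgroup (Equiv.Perm (Fin (2 * m))), IsCoatom M ∧ M.index = 2 * m ∧ H ≤ M ∧ IsCoatom (H.subgroupOf M) ∧
      IsCoatom K ∧ H ≤ K ∧ ¬ IsCoatom (H.subgroupOf K) := by
  classical
  let a : Fin (2 * m) := ⟨2 * m - 1, by omega⟩
  let x₀ : Fin (2 * m) := ⟨0, by omega⟩
  let x₁ : Fin (2 * m) := ⟨1, by omega⟩
  let y₀ : Fin (2 * m) := ⟨m, by omega⟩
  let A : Fin (2 * m) → Prop := fun x => x.val < m
  have hAa : ¬ A a := by show ¬ (2 * m - 1 < m); omega
  have hAx₀ : A x₀ := by show 0 < m; omega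
  have hAx₁ : A x₁ := by show 1 < m; omega
  have hAy₀ : ¬ A y₀ := by show ¬ m < m; omega
  have hx₀a : x₀ ≠ a := by intro h; exact hAa (h ▸ hAx₀)
  have hx₀y₀ : x₀ ≠ y₀ := by intro h; exact hAy₀ (h ▸ hAx₀)
  have hx₁y₀ : x₁ ≠ y₀ := by intro h; exact hAy₀ (h ▸ hAx₁)
  have hx₁x₀ : x₁ ≠ x₀ := by intro h; have := congrArg Fin.val h; simp [x₁, x₀] at this
  have hy₀a : y₀ ≠ a := by
    intro h; have := congrArg Fin.val h
    have h' : m = 2 * m - 1 := this
    omega
  let M : Subgroup (Perm (Fin (2 * m))) := MulAction.stabilizer (Perm (Fin (2 * m))) a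
  have hMmem : ∀ g : Perm (Fin (2 * m)), g ∈ M ↔ g a = a := fun g => Iff.rfl
  let H : Subgroup (Perm (Fin (2 * m))) := M ⊓ stabT A
  let K : Subgroup (Perm (Fin (2 * m))) := stabK A
  refine ⟨M, H, K, ?_, ?_, inf_le_left, ?_, ?_, ?_, ?_⟩
  · -- M coatom
    constructor
    · intro h
      have : swap a x₀ ∈ M := by rw [h]; exact Subgroup.mem_top _
      rw [hMmem, Equiv.swap_apply_left] at this
      exact hx₀a this
    · intro L hL
      obtain ⟨g, hgL, hg⟩ := SetLike.exists_of_lt hL
      have hga : g a ≠ a := fun h => hg h
      have hinv : g⁻¹ a ≠ a := by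
        intro h
        apply hga
        conv_lhs => rw [← h]
        rw [app_inv]
      -- y ≠ a, y ≠ g⁻¹ a
      obtain ⟨y, hy1, hy2⟩ : ∃ y : Fin (2 * m), y ≠ a ∧ y ≠ g⁻¹ a := by
        by_cases h : x₀ = g⁻¹ a
        · refine ⟨y₀, hy₀a, ?_⟩
          rw [← h]
          exact hx₀y₀.symm
        · exact ⟨x₀, hx₀a, h⟩
      have hall := conn L (fun _ => True) (fun z => z = a) (by
          intro u v _ _ huv
          apply hL.le
          rw [hMmem]
          by_cases hu : u = a
          · have hv := huv.mp hu
            rw [hu, hv, Equiv.swap_self]; rfl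
          · have hv : v ≠ a := fun h => hu (huv.mpr h)
            exact Equiv.swap_apply_of_ne_of_ne (Ne.symm hu) (Ne.symm hv))
        hgL (fun _ _ => trivial) (g⁻¹ a) y trivial trivial
        ⟨fun h => absurd h hinv, fun h => absurd h hy1⟩
        (by
          show ¬ (g (g⁻¹ a) = a ↔ g y = a)
          rw [app_inv]
          intro h
          have h2 := h.mp rfl
          apply hy2
          apply g.injective
          rw [app_inv]; exact h2)
      rw [eq_top_iff]
      intro g' _
      exact fix_mem L (fun _ => True) (fun u v _ _ => hall u v trivial trivial) g'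
        (fun x hx => absurd trivial hx)
  · -- index
    show (MulAction.stabilizer (Perm (Fin (2 * m))) a).index = 2 * m
    rw [MulAction.index_stabilizer, MulAction.orbit_eq_univ, Set.ncard_univ, Nat.card_fin]
  · -- H coatom in M
    apply coatom_subgroupOf inf_le_left
    · intro hle
      have h1 : swap x₀ y₀ ∈ M := by
        rw [hMmem]; exact Equiv.swap_apply_of_ne_of_ne hx₀a.symm hy₀a.symm |> fun h => by
          first
            | exact h
            | exact Equiv.swap_apply_of_ne_of_ne hx₀a.symm hy₀a.symm
      have h2 := (hle h1).2 x₀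
      rw [Equiv.swap_apply_left] at h2
      exact hAy₀ (h2.mpr hAx₀)
    · intro L hL hLM
      apply le_antisymm hLM
      obtain ⟨g, hgL, hg⟩ := SetLike.exists_of_lt hL
      have hga : g a = a := hLM hgL
      have hgY : ∀ x, x ≠ a → g x ≠ a := by
        intro x hx h
        exact hx (g.injective (h.trans hga.symm))
      have hgT : g ∉ stabT A := fun h => hg ⟨hga, h⟩
      have hN : ∀ u v, u ≠ a → v ≠ a → (A u ↔ A v) → swap u v ∈ L := by
        intro u v hu hv huv
        apply hL.le
        refine ⟨Equiv.swap_apply_of_ne_of_ne hu.symm hv.symm, ?_⟩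
        exact fun x => swap_pres huv x
      have hall : ∀ u v : Fin (2 * m), u ≠ a → v ≠ a → swap u v ∈ L := by
        by_contra hcon
        have hsame : ∀ s t, s ≠ a → t ≠ a → (A s ↔ A t) → (A (g s) ↔ A (g t)) := by
          intro s t hs ht hst
          by_contra hd
          apply hcon
          exact conn L (fun z => z ≠ a) A hN hgL hgY s t hs ht hst hd
        by_cases h0 : A (g x₀)
        · -- all of A goes to A
          have h1 : ∀ s, A s → A (g s) := by
            intro s hs
            have hsa : s ≠ a := fun e => hAa (e ▸ hs)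
            exact (hsame s x₀ hsa hx₀a ⟨fun _ => hAx₀, fun _ => hs⟩).mpr h0
          by_cases h2 : A (g y₀)
          · -- contradiction
            have h3 : g⁻¹ y₀ ≠ a := by
              intro e
              apply hy₀a
              have : g (g⁻¹ y₀) = g a := by rw [e]
              rw [app_inv, hga] at this
              exact this
            by_cases h4 : A (g⁻¹ y₀)
            · have := h1 _ h4
              rw [app_inv] at this
              exact hAy₀ this
            · have := (hsame (g⁻¹ y₀) y₀ h3 hy₀a ⟨fun h => absurd h h4, fun h => absurd h hAy₀⟩).mpr h2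
              rw [app_inv] at this
              exact hAy₀ this
          · apply hgT
            intro x
            refine ⟨fun hx => ?_, h1 x⟩
            by_contra hnx
            by_cases hxa : x = a
            · subst hxa
              rw [hga] at hx
              exact hAa hx
            · have := (hsame x y₀ hxa hy₀a ⟨fun h => absurd h hnx, fun h => absurd h hAy₀⟩).mp hx
              exact h2 this
        · -- A goes to the middle: count
          have h1 : ∀ s, A s → ¬ A (g s) := by
            intro s hs h'
            have hsa : s ≠ a := fun e => hAa (e ▸ hs)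
            exact h0 ((hsame s x₀ hsa hx₀a ⟨fun _ => hAx₀, fun _ => hs⟩).mp h')
          have hc := Finset.card_le_card_of_injOn (s := Finset.Iio y₀) (t := Finset.Ico y₀ a) g
            (by
              intro s hs
              have hs' : s < y₀ := Finset.mem_Iio.mp (Finset.mem_coe.mp hs)
              replace hs' : A s := hs'
              have h2 := h1 s hs'
              have hsa : s ≠ a := fun e => hAa (e ▸ hs')
              have h3 := hgY s hsa
              rw [Finset.mem_coe, Finset.mem_Ico]
              refine ⟨not_lt.mp h2, ?_⟩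
              apply lt_of_le_of_ne _ h3
              show (g s).val ≤ 2 * m - 1
              have := (g s).isLt
              omega)
            (g.injective.injOn)
          rw [Fin.card_Iio, Fin.card_Ico] at hc
          have e1 : (a : ℕ) = 2 * m - 1 := rfl
          have e2 : (y₀ : ℕ) = m := rfl
          omega
      intro g' hg'
      exact fix_mem L (fun z => z ≠ a) hall g' (fun x hx => by
        have : x = a := not_not.mp hx
        rw [this]; exact hg')
  · -- K coatom
    constructor
    · intro h
      have : swap x₀ y₀ ∈ K := by rw [h]; exact Subgroup.mem_top _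
      rcases this with h1 | h1
      · have := h1 x₀
        rw [Equiv.swap_apply_left] at this
        exact hAy₀ (this.mpr hAx₀)
      · have := h1 x₁
        rw [Equiv.swap_apply_of_ne_of_ne hx₁x₀ hx₁y₀] at this
        exact this.mp hAx₁ hAx₁
    · intro L hL
      obtain ⟨g, hgL, hg⟩ := SetLike.exists_of_lt hL
      have hall : ∀ u v : Fin (2 * m), True → True → swap u v ∈ L := by
        by_contra hcon
        have hsame : ∀ s t : Fin (2 * m), (A s ↔ A t) → (A (g s) ↔ A (g t)) := by
          intro s t hst
          by_contra hd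
          apply hcon
          exact conn L (fun _ => True) A (fun u v _ _ huv => hL.le (stabT_le_stabK A (swap_pres huv)))
            hgL (fun _ _ => trivial) s t trivial trivial hst hd
        apply hg
        by_cases h0 : A (g x₀)
        · have h1 : ∀ s, A s → A (g s) := fun s hs =>
            (hsame s x₀ ⟨fun _ => hAx₀, fun _ => hs⟩).mpr h0
          by_cases h2 : A (g y₀)
          · exfalso
            by_cases h4 : A (g⁻¹ y₀)
            · have := h1 _ h4
              rw [app_inv] at this
              exact hAy₀ this
            · have := (hsame (g⁻¹ y₀) y₀ ⟨fun h => absurd h h4, fun h => absurd h hAy₀⟩).mpr h2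
              rw [app_inv] at this
              exact hAy₀ this
          · left
            intro x
            refine ⟨fun hx => ?_, h1 x⟩
            by_contra hnx
            exact h2 ((hsame x y₀ ⟨fun h => absurd h hnx, fun h => absurd h hAy₀⟩).mp hx)
        · have h1 : ∀ s, A s → ¬ A (g s) := fun s hs h' =>
            h0 ((hsame s x₀ ⟨fun _ => hAx₀, fun _ => hs⟩).mp h')
          by_cases h2 : A (g y₀)
          · right
            intro x
            constructor
            · exact fun hx hx' => h1 x hx' hx
            · intro hx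
              exact (hsame x y₀ ⟨fun h => absurd h hx, fun h => absurd h hAy₀⟩).mpr h2
          · exfalso
            by_cases h4 : A (g⁻¹ x₀)
            · have := h1 _ h4
              rw [app_inv] at this
              exact this hAx₀
            · have h5 : ¬ A (g (g⁻¹ x₀)) := fun h6 =>
                h2 ((hsame (g⁻¹ x₀) y₀ ⟨fun h => absurd h h4, fun h => absurd h hAy₀⟩).mp h6)
              rw [app_inv] at h5
              exact h5 hAx₀
      rw [eq_top_iff]
      intro g' _
      exact fix_mem L (fun _ => True) hall g' (fun x hx => absurd trivial hx)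
  · -- H ≤ K
    intro g hg
    exact stabT_le_stabK A hg.2
  · -- not coatom
    intro hc
    have hHK : H ≤ K := fun g hg => stabT_le_stabK A hg.2
    have hlt : H.subgroupOf K < (stabT A).subgroupOf K := by
      constructor
      · intro g hg
        rw [Subgroup.mem_subgroupOf] at hg ⊢
        exact hg.2
      · intro hle
        have hs : swap a y₀ ∈ stabT A :=
          fun x => swap_pres ⟨fun h => absurd h hAa, fun h => absurd h hAy₀⟩ x
        have hs' : swap a y₀ ∈ K := stabT_le_stabK A hs
        have h1 : (⟨swap a y₀, hs'⟩ : K) ∈ (stabT A).subgroupOf K := by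
          rw [Subgroup.mem_subgroupOf]; exact hs
        have h2 := hle h1
        rw [Subgroup.mem_subgroupOf] at h2
        have h3 : swap a y₀ a = a := h2.1
        rw [Equiv.swap_apply_left] at h3
        exact hy₀a h3
    have htop := hc.2 _ hlt
    have hle : K ≤ stabT A := Subgroup.subgroupOf_eq_top.mp htop
    have hrev : Fin.revPerm ∈ K := by
      right
      intro x
      show (Fin.rev x).val < m ↔ ¬ (x.val < m)
      rw [Fin.val_rev]
      have := x.isLt
      omega
    have h1 := (hle hrev) x₀
    have h2 : ¬ A (Fin.revPerm x₀) := by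
      show ¬ ((Fin.rev x₀).val < m)
      rw [Fin.val_rev]
      have : x₀.val = 0 := rfl
      omega
    exact h2 (h1.mpr hAx₀)

end Cfsg.Agent.S5894
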