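import Cfsg.Statements.S5895
import Mathlib
-- import your own Cfsg.Agent.* helpers here

set_option autoImplicit false
open Cfsg

namespace Cfsg.Agent.S5895

open MulAction Projectivization
open scoped LinearAlgebra.Projectivization

section General

variable {F V : Type} [Field F] [AddCommGroup V] [Module F V]

/-- The affine group acts on the space. -/
instance affAct : MulAction (V ≃ᵃ[F] V) V where
  smul g x := g x
  one_smul _ := rfl
  mul_smul _ _ _ := rfl

@[simp] theorem aff_smul (g : V ≃ᵃ[F] V) (x : V) : g • x = g x := rfl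

theorem aff_apply (g : V ≃ᵃ[F] V) (x : V) : g x = g.linear x + g 0 := by
  have := g.map_vadd 0 x
  simpa using this

theorem exists_lin_eq {u v : V} (hu : u ≠ 0) (hv : v ≠ 0) : ∃ A : V ≃ₗ[F] V, A u = v := by
  let f : (F ∙ u) ≃ₗ[F] (F ∙ v) :=
    (LinearEquiv.toSpanNonzeroSingleton F V u hu).symm ≪≫ₗ LinearEquiv.toSpanNonzeroSingleton F V v hv
  have : FiniteDimensional F (F ∙ u) := inferInstance
  obtain ⟨g, hg⟩ := Submodule.exists_linearEquiv_restrict_eq f
  refine ⟨g, ?_⟩
  have h1 := hg ⟨u, Submodule.mem_span_singleton_self u⟩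
  have e1 : (LinearEquiv.toSpanNonzeroSingleton F V u hu).symm ⟨u, Submodule.mem_span_singleton_self u⟩ = 1 := by
    rw [LinearEquiv.symm_apply_eq, LinearEquiv.toSpanNonzeroSingleton_one]
  have e2 : ((f ⟨u, Submodule.mem_span_singleton_self u⟩ : F ∙ v) : V) = v := by
    simp only [f, LinearEquiv.trans_apply, e1, LinearEquiv.toSpanNonzeroSingleton_one]
  rw [← e2, h1]

theorem mem_stab_iff {e : V} (h : e ≠ 0) (A : V ≃ₗ[F] V) :
    A ∈ stabilizer (V ≃ₗ[F] V) (Projectivization.mk F e h) ↔ ∃ c : Fˣ, c • e = A e := by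
  rw [mem_stabilizer_iff, smul_mk, mk_eq_mk_iff]
  rfl

theorem main_general [Finite F] [Finite V] {e₀ e₁ : V} (h₀ : e₀ ≠ 0) (h₁ : e₁ ∉ F ∙ e₀) :
    ∃ M H K : Subgroup (V ≃ᵃ[F] V), IsCoatom M ∧ M.index = Nat.card V ∧ H ≤ M ∧
      IsCoatom (H.subgroupOf M) ∧ IsCoatom K ∧ H ≤ K ∧ ¬ IsCoatom (H.subgroupOf K) := by
  classical
  have : FiniteDimensional F V := Module.Finite.of_finite
  have hne₁ : e₁ ≠ 0 := fun h => h₁ (by rw [h]; exact Submodule.zero_mem _)
  have hnt : Nontrivial V := ⟨⟨e₀, 0, h₀⟩⟩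
  -- the linear group on the projective space
  let pt : ℙ F V := Projectivization.mk F e₀ h₀
  have hntP : Nontrivial (ℙ F V) := by
    refine ⟨⟨pt, Projectivization.mk F e₁ hne₁, ?_⟩⟩
    intro h
    obtain ⟨c, hc⟩ := (mk_eq_mk_iff F _ _ _ _).1 h
    apply h₁
    rw [Submodule.mem_span_singleton]
    exact ⟨((c⁻¹ : Fˣ) : F), by rw [← Units.smul_def]; rw [← hc]; simp⟩
  have hprim : IsPreprimitive (V ≃ₗ[F] V) (ℙ F V) :=
    isPreprimitive_of_is_two_pretransitive (linearEquiv_is_two_pretransitive F V)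
  have hHbar : IsCoatom (stabilizer (V ≃ₗ[F] V) pt) :=
    IsPreprimitive.isCoatom_stabilizer_of_isPreprimitive (V ≃ₗ[F] V) pt
  let lin : (V ≃ᵃ[F] V) →* (V ≃ₗ[F] V) := AffineEquiv.linearHom
  have hlin : Function.Surjective lin := fun A => ⟨A.toAffineEquiv, rfl⟩
  -- the action of the affine group
  have h2 : IsMultiplyPretransitive (V ≃ᵃ[F] V) V 2 := by
    rw [is_two_pretransitive_iff]
    intro a b c d hab hcd
    obtain ⟨A, hA⟩ := exists_lin_eq (F := F) (u := b - a) (v := d - c) (sub_ne_zero.2 hab.symm)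
      (sub_ne_zero.2 hcd.symm)
    refine ⟨AffineEquiv.constVAdd F V c * A.toAffineEquiv * AffineEquiv.constVAdd F V (-a), ?_, ?_⟩
    · simp
    · simp [AffineEquiv.coe_mul, ← sub_eq_neg_add, hA]
  have htrans : IsPretransitive (V ≃ᵃ[F] V) V := isPretransitive_of_is_two_pretransitive
  have hprimV : IsPreprimitive (V ≃ᵃ[F] V) V := isPreprimitive_of_is_two_pretransitive h2
  let M : Subgroup (V ≃ᵃ[F] V) := stabilizer (V ≃ᵃ[F] V) (0 : V)
  have hMmem : ∀ g : V ≃ᵃ[F] V, g ∈ M ↔ g 0 = 0 := fun g => Iff.rfl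
  let K : Subgroup (V ≃ᵃ[F] V) := (stabilizer (V ≃ₗ[F] V) pt).comap lin
  have hKmem : ∀ g : V ≃ᵃ[F] V, g ∈ K ↔ ∃ c : Fˣ, c • e₀ = g.linear e₀ := fun g =>
    mem_stab_iff h₀ (lin g)
  refine ⟨M, M ⊓ K, K, ?_, ?_, inf_le_left, ?_, ?_, inf_le_right, ?_⟩
  · exact IsPreprimitive.isCoatom_stabilizer_of_isPreprimitive (V ≃ᵃ[F] V) (0 : V)
  · rw [index_stabilizer, orbit_eq_univ, Set.ncard_univ]
  · have e : (M ⊓ K).subgroupOf M = (stabilizer (V ≃ₗ[F] V) pt).comap (lin.comp M.subtype) := by
      ext g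
      simp only [Subgroup.mem_subgroupOf, Subgroup.mem_inf, Subgroup.mem_comap, MonoidHom.comp_apply,
        Subgroup.subtype_apply]
      exact ⟨fun h => h.2, fun h => ⟨g.2, h⟩⟩
    rw [e]
    refine Subgroup.isCoatom_comap_of_surjective ?_ hHbar
    intro A
    exact ⟨⟨A.toAffineEquiv, by
      rw [hMmem]
      simp⟩, rfl⟩
  · exact Subgroup.isCoatom_comap_of_surjective hlin hHbar
  · intro hc
    -- the intermediate subgroup
    have hKW : ∀ g ∈ K, ∀ x ∈ (F ∙ e₀), g.linear x ∈ (F ∙ e₀) := by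
      intro g hg x hx
      obtain ⟨c, hc⟩ := (hKmem g).1 hg
      obtain ⟨a, rfl⟩ := Submodule.mem_span_singleton.1 hx
      rw [map_smul, ← hc]
      exact Submodule.smul_mem _ _ (Submodule.smul_of_tower_mem _ _ (Submodule.mem_span_singleton_self _))
    let L : Subgroup (V ≃ᵃ[F] V) :=
      { carrier := {g | g ∈ K ∧ g 0 ∈ (F ∙ e₀)}
        mul_mem' := by
          rintro g h ⟨hg, hg'⟩ ⟨hh, hh'⟩
          refine ⟨K.mul_mem hg hh, ?_⟩
          change g (h 0) ∈ _
          rw [aff_apply g]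
          exact add_mem (hKW g hg _ hh') hg'
        one_mem' := ⟨K.one_mem, Submodule.zero_mem _⟩
        inv_mem' := by
          rintro g ⟨hg, hg'⟩
          refine ⟨K.inv_mem hg, ?_⟩
          have h1 : g (g⁻¹ 0) = 0 := by
            change (g * g⁻¹) 0 = 0
            simp
          rw [aff_apply g] at h1
          have h2 : g⁻¹ 0 = (g⁻¹).linear (- g 0) := by
            have h3 : g.linear (g⁻¹ 0) = - g 0 := eq_neg_of_add_eq_zero_left h1
            rw [← h3]
            have h4 : (g⁻¹).linear * g.linear = 1 := by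
              have := map_mul lin g⁻¹ g
              rw [inv_mul_cancel, map_one] at this
              exact this.symm
            have := LinearEquiv.congr_fun h4 (g⁻¹ 0)
            exact this.symm
          rw [h2]
          exact hKW _ (K.inv_mem hg) _ (neg_mem hg') }
    have hlt : (M ⊓ K).subgroupOf K < L.subgroupOf K := by
      rw [SetLike.lt_iff_le_and_exists]
      constructor
      · rintro g hg
        simp only [Subgroup.mem_subgroupOf, Subgroup.mem_inf] at hg ⊢
        refine ⟨g.2, ?_⟩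
        rw [(hMmem _).1 hg.1]
        exact Submodule.zero_mem _
      · refine ⟨⟨AffineEquiv.constVAdd F V e₀, ?_⟩, ?_, ?_⟩
        · rw [hKmem]
          exact ⟨1, by simp⟩
        · rw [Subgroup.mem_subgroupOf]
          refine ⟨?_, ?_⟩
          · rw [hKmem]
            exact ⟨1, by simp⟩
          · simpa using Submodule.mem_span_singleton_self e₀
        · rw [Subgroup.mem_subgroupOf]
          intro h
          apply h₀
          have := (hMmem _).1 h.1
          simpa using this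
    have htop := hc.2 _ hlt
    have hmem : (⟨AffineEquiv.constVAdd F V e₁, by
        rw [hKmem]
        exact ⟨1, by simp⟩⟩ : K) ∈ L.subgroupOf K := by
      rw [htop]; trivial
    rw [Subgroup.mem_subgroupOf] at hmem
    apply h₁
    simpa using hmem.2

end General

/-- For every prime p and every d ≥ 2 there is a finite group G with a maximal subgroup M of index p^d and a maximal subgroup H of M that is not second maximal in G: some maximal subgroup K of G contains H without H being maximal in K. (One may take G the affine group V ⋊ GL(V) of V = 𝔽_p^d, M = GL(V), H the stabiliser in M of a line W of V, and K = V ⋊ H, with H < W ⋊ H < K.) So the prime-index hypothesis in the second-maximality criterion cannot be relaxed to prime-power index. -/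
theorem result (p d : ℕ) (hp : p.Prime)
    (hd : 2 ≤ d) :
    ∃ (G : Type) (_ : Group G) (_ : Finite G) (M H K : Subgroup G), IsCoatom M ∧ M.index = p ^ d ∧ H ≤ M ∧
      IsCoatom (H.subgroupOf M) ∧ IsCoatom K ∧ H ≤ K ∧ ¬ IsCoatom (H.subgroupOf K) := by
  classical
  haveI := Fact.mk hp
  let i₀ : Fin d := ⟨0, by omega⟩
  let i₁ : Fin d := ⟨1, by omega⟩
  let e₀ : Fin d → ZMod p := Pi.single i₀ 1
  let e₁ : Fin d → ZMod p := Pi.single i₁ 1
  have h₀ : e₀ ≠ 0 := by
    intro h
    have := congrFun h i₀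
    simp [e₀] at this
  have hi : i₁ ≠ i₀ := by simp [i₀, i₁, Fin.ext_iff]
  have h₁ : e₁ ∉ (ZMod p) ∙ e₀ := by
    intro h
    obtain ⟨a, ha⟩ := Submodule.mem_span_singleton.1 h
    have h1 := congrFun ha i₁
    simp [e₀, e₁, hi] at h1
  obtain ⟨M, H, K, h1, h2, h3, h4, h5, h6, h7⟩ :=
    main_general (F := ZMod p) (V := Fin d → ZMod p) h₀ h₁
  have hfin : Finite ((Fin d → ZMod p) ≃ᵃ[ZMod p] (Fin d → ZMod p)) :=
    Finite.of_injective (fun g : (Fin d → ZMod p) ≃ᵃ[ZMod p] (Fin d → ZMod p) =>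
      (g : (Fin d → ZMod p) → (Fin d → ZMod p))) DFunLike.coe_injective
  refine ⟨(Fin d → ZMod p) ≃ᵃ[ZMod p] (Fin d → ZMod p), inferInstance, hfin, M, H, K, h1, ?_, h3,
    h4, h5, h6, h7⟩
  rw [h2]
  simp [Nat.card_eq_fintype_card, ZMod.card]

end Cfsg.Agent.S5895
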