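import Cfsg.Statements.S5896
import Mathlib
import Cfsg.Agent.Lib.Char.Burnside2

set_option autoImplicit false

open Cfsg

namespace Cfsg.Agent.S5896

open SemidirectProduct
open scoped commutatorElement

/-- Permutation of coordinates. -/
def act (S T ι : Type) [Group S] [Group T] [MulAction T ι] : T →* MulAut (ι → S) where
  toFun σ :=
    { toFun := fun f i => f (σ⁻¹ • i)
      invFun := fun f i => f (σ • i)
      left_inv := fun f => by funext i; simp
      right_inv := fun f => by funext i; simp
      map_mul' := fun f g => by funext i; simp }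
  map_one' := by ext f i; simp
  map_mul' := fun σ τ => by ext f i; simp [mul_smul]

/-- The wreath product. -/
abbrev Wr (S T ι : Type) [Group S] [Group T] [MulAction T ι] : Type := (ι → S) ⋊[act S T ι] T

section General

variable {S T ι : Type} [Group S] [Group T] [MulAction T ι]

instance instFiniteWr [Finite S] [Finite T] [Finite ι] : Finite (Wr S T ι) :=
  Finite.of_equiv _ (SemidirectProduct.equivProd (N := ι → S) (G := T) (φ := act S T ι)).symm

/-- The derived series of a product of copies. -/
lemma derivedSeries_pi_le (n : ℕ) :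
    ∀ f ∈ derivedSeries (ι → S) n, ∀ i, f i ∈ derivedSeries S n := by
  induction n with
  | zero => intro f _ i; simp
  | succ n ih =>
    intro f hf i
    have hle : derivedSeries (ι → S) (n + 1) ≤
        (derivedSeries S (n + 1)).comap (Pi.evalMonoidHom (fun _ : ι => S) i) := by
      rw [derivedSeries_succ, Subgroup.commutator_le]
      intro g hg h hh
      have : (⁅g, h⁆ : ι → S) i = ⁅g i, h i⁆ := by simp [commutatorElement_def]
      simp only [Subgroup.mem_comap, Pi.evalMonoidHom_apply, this, derivedSeries_succ]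
      exact Subgroup.commutator_mem_commutator (ih g hg i) (ih h hh i)
    exact hle hf

lemma isSolvable_pi [Group.IsSolvable S] : Group.IsSolvable (ι → S) := by
  obtain ⟨n, hn⟩ := Group.IsSolvable.solvable (G := S)
  refine ⟨n, ?_⟩
  rw [eq_bot_iff]
  intro f hf
  rw [Subgroup.mem_bot]
  funext i
  have := derivedSeries_pi_le n f hf i
  rw [hn, Subgroup.mem_bot] at this
  simpa using this

lemma isSolvable_wr [Group.IsSolvable S] [Group.IsSolvable T] : Group.IsSolvable (Wr S T ι) := by
  haveI := isSolvable_pi (S := S) (ι := ι)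
  exact Group.isSolvable_of_ker_le_range (inl : (ι → S) →* Wr S T ι) (rightHom : Wr S T ι →* T)
    (by rw [SemidirectProduct.range_inl_eq_ker_rightHom])

/-- Commutators of a single-coordinate element with something moving that coordinate. -/
lemma commutator_coord [DecidableEq ι] (τ : (ι → S) ⋊[act S T ι] T) (i : ι)
    (hi : τ.right⁻¹ • i ≠ i) (s : S) :
    (⁅(inl (Pi.mulSingle i s) : (ι → S) ⋊[act S T ι] T), τ⁆).right = 1 ∧
      (⁅(inl (Pi.mulSingle i s) : (ι → S) ⋊[act S T ι] T), τ⁆).left i = s := by
  constructor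
  · rw [commutatorElement_def]
    simp
  · rw [commutatorElement_def]
    simp only [mul_left, mul_right, inv_left, inv_right, left_inl, right_inl, map_one,
      MulAut.one_apply, one_mul, map_inv, MulAut.inv_apply]
    simp only [act]
    simp
    have h1 : (MulEquiv.symm (1 : MulAut (ι → S))) (Pi.mulSingle i s) = Pi.mulSingle i s := rfl
    rw [h1, Pi.mulSingle_eq_of_ne hi]
    simp

/-- The section argument for derived series. -/
lemma derivedSeries_ne_bot_of_section {K H Q : Type} [Group K] [Group H] [Group Q] (d : ℕ)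
    (f : K →* H) (hf : Function.Injective f) (g : K →* Q) (hg : Function.Surjective g)
    (hQ : derivedSeries Q d ≠ ⊥) : derivedSeries H d ≠ ⊥ := by
  intro hH
  apply hQ
  rw [← map_derivedSeries_eq hg d]
  have : derivedSeries K d = ⊥ := by
    have h1 := map_derivedSeries_le_derivedSeries f d
    rw [hH] at h1
    rw [eq_bot_iff]
    intro x hx
    have : f x ∈ (⊥ : Subgroup H) := h1 ⟨x, hx, rfl⟩
    rw [Subgroup.mem_bot] at this
    rw [Subgroup.mem_bot]
    exact hf (by simpa using this)
  rw [this, Subgroup.map_bot]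

/-- The coordinate projection from the base part of a subgroup. -/
def baseSub [DecidableEq ι] (G : Subgroup ((ι → S) ⋊[act S T ι] T)) : Subgroup (ι → S) :=
  G.comap (inl : (ι → S) →* (ι → S) ⋊[act S T ι] T)

lemma baseSub_surj [DecidableEq ι] (G : Subgroup ((ι → S) ⋊[act S T ι] T))
    (τ : (ι → S) ⋊[act S T ι] T) (i : ι) (hi : τ.right⁻¹ • i ≠ i)
    (hG : ∀ s : S, ⁅(inl (Pi.mulSingle i s) : (ι → S) ⋊[act S T ι] T), τ⁆ ∈ G) :
    Function.Surjective
      ((Pi.evalMonoidHom (fun _ : ι => S) i).comp (baseSub G).subtype) := by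
  intro s
  obtain ⟨h1, h2⟩ := commutator_coord τ i hi s
  refine ⟨⟨(⁅(inl (Pi.mulSingle i s) : (ι → S) ⋊[act S T ι] T), τ⁆).left, ?_⟩, h2⟩
  have : (inl (⁅(inl (Pi.mulSingle i s) : (ι → S) ⋊[act S T ι] T), τ⁆).left :
      (ι → S) ⋊[act S T ι] T) = ⁅(inl (Pi.mulSingle i s) : (ι → S) ⋊[act S T ι] T), τ⁆ := by
    ext1
    · rfl
    · simpa using h1.symm
  change (inl _ : (ι → S) ⋊[act S T ι] T) ∈ G
  rw [this]
  exact hG s

/-- The inclusion of the base part. -/
def baseIncl (G : Subgroup ((ι → S) ⋊[act S T ι] T)) [DecidableEq ι] : baseSub G →* G where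
  toFun k := ⟨inl k.1, k.2⟩
  map_one' := by ext1; simp
  map_mul' x y := by ext1; simp

lemma baseIncl_inj (G : Subgroup ((ι → S) ⋊[act S T ι] T)) [DecidableEq ι] :
    Function.Injective (baseIncl G) := by
  intro x y h
  have : (inl x.1 : (ι → S) ⋊[act S T ι] T) = inl y.1 := congrArg Subtype.val h
  exact Subtype.ext (inl_injective this)

end General

/-- The commutator subgroup has derived series shifted by one. -/
lemma map_derivedSeries_commutator (G : Type) [Group G] (n : ℕ) :
    (derivedSeries (commutator G) n).map (commutator G).subtype = derivedSeries G (n + 1) := by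
  induction n with
  | zero =>
    simp only [derivedSeries_zero, zero_add, derivedSeries_one, ← MonoidHom.range_eq_map,
      Subgroup.range_subtype]
  | succ n ih =>
    rw [derivedSeries_succ, Subgroup.map_commutator, ih, derivedSeries_succ G (n + 1)]

lemma exists_solvable (d : ℕ) : ∃ (S : Type) (_ : Group S) (_ : Finite S),
    Group.IsSolvable S ∧ derivedSeries S d ≠ ⊥ := by
  induction d with
  | zero =>
    refine ⟨Equiv.Perm (Fin 2), inferInstance, inferInstance,
      Group.isSolvable_of_comm (by decide), ?_⟩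
    simp only [derivedSeries_zero]
    exact top_ne_bot
  | succ d ih =>
    obtain ⟨S, _, _, hS, hd⟩ := ih
    haveI hT : Group.IsSolvable (Equiv.Perm (Fin 2)) := Group.isSolvable_of_comm (by decide)
    refine ⟨(Fin 2 → S) ⋊[act S (Equiv.Perm (Fin 2)) (Fin 2)] Equiv.Perm (Fin 2), inferInstance,
      instFiniteWr, isSolvable_wr, ?_⟩
    set E := (Fin 2 → S) ⋊[act S (Equiv.Perm (Fin 2)) (Fin 2)] Equiv.Perm (Fin 2) with hE
    rw [← map_derivedSeries_commutator E d]
    intro h
    rw [Subgroup.map_eq_bot_iff_of_injective _ (Subgroup.subtype_injective _)] at h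
    refine derivedSeries_ne_bot_of_section d (baseIncl (commutator E)) (baseIncl_inj _) _
      (baseSub_surj (commutator E) (inr (Equiv.swap 0 1)) 0 (by simp) ?_) hd h
    intro s
    exact Subgroup.commutator_mem_commutator (Subgroup.mem_top _) (Subgroup.mem_top _)

lemma mem_A5 (a b c e : Fin 5) (h1 : a ≠ b) (h2 : c ≠ e) :
    (Equiv.swap a b * Equiv.swap c e) ∈ alternatingGroup (Fin 5) := by
  rw [Equiv.Perm.mem_alternatingGroup, Equiv.Perm.sign_mul, Equiv.Perm.sign_swap h1,
    Equiv.Perm.sign_swap h2]
  rfl

/-- The alternating group on five points is perfect. -/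
lemma commutator_A5 : commutator (alternatingGroup (Fin 5)) = ⊤ := by
  haveI : IsSimpleGroup (alternatingGroup (Fin 5)) := alternatingGroup.isSimpleGroup (by simp)
  have hn : (commutator (alternatingGroup (Fin 5))).Normal := inferInstance
  rcases hn.eq_bot_or_eq_top with h | h
  · exfalso
    have hcomm : ∀ x y : alternatingGroup (Fin 5), x * y = y * x := by
      intro x y
      have : ⁅x, y⁆ ∈ commutator (alternatingGroup (Fin 5)) :=
        Subgroup.commutator_mem_commutator (Subgroup.mem_top _) (Subgroup.mem_top _)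
      rw [h, Subgroup.mem_bot, commutatorElement_eq_one_iff_mul_comm] at this
      exact this
    have hx := mem_A5 0 1 1 2 (by decide) (by decide)
    have hy := mem_A5 0 1 3 4 (by decide) (by decide)
    have h3 : (Equiv.swap (0 : Fin 5) 1 * Equiv.swap 1 2) * (Equiv.swap (0 : Fin 5) 1 * Equiv.swap 3 4)
        = (Equiv.swap (0 : Fin 5) 1 * Equiv.swap 3 4) * (Equiv.swap (0 : Fin 5) 1 * Equiv.swap 1 2) :=
      congrArg Subtype.val (hcomm ⟨_, hx⟩ ⟨_, hy⟩)
    revert h3
    decide
  · exact h

lemma derivedSeries_A5 (n : ℕ) : derivedSeries (alternatingGroup (Fin 5)) n = ⊤ := by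
  induction n with
  | zero => rfl
  | succ n ih => rw [derivedSeries_succ, ih]; exact commutator_A5

/-- A perfect term of the derived series. -/
lemma exists_stable (E : Type) [Group E] [Finite E] :
    ∃ n, derivedSeries E (n + 1) = derivedSeries E n := by
  obtain ⟨n, hn⟩ : ∃ n, ∀ m, Nat.card (derivedSeries E n) ≤ Nat.card (derivedSeries E m) := by
    by_contra h
    push Not at h
    have hlt : ∀ k, ∃ n, Nat.card (derivedSeries E n) + k ≤ Nat.card E := by
      intro k
      induction k with
      | zero => exact ⟨0, by simp⟩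
      | succ k ih =>
        obtain ⟨n, hn⟩ := ih
        obtain ⟨m, hm⟩ := h n
        exact ⟨m, by omega⟩
    obtain ⟨n, hn⟩ := hlt (Nat.card E + 1)
    have := Nat.card_pos (α := E)
    omega
  refine ⟨n, ?_⟩
  have hle : derivedSeries E (n + 1) ≤ derivedSeries E n :=
    derivedSeries_antitone E (Nat.le_succ n)
  exact Subgroup.eq_of_le_of_card_ge hle (hn _)

/-- The point stabilizer in `A₅`. -/
def pointStab : Subgroup (alternatingGroup (Fin 5)) :=
  MulAction.stabilizer (alternatingGroup (Fin 5)) (0 : Fin 5)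

instance instPretransA5 : MulAction.IsPretransitive (alternatingGroup (Fin 5)) (Fin 5) := by
  refine ⟨?_⟩
  have key : ∀ y : Fin 5, ∃ g : alternatingGroup (Fin 5), g • (0 : Fin 5) = y := by
    intro y
    have h2 := mem_A5 0 1 3 4 (by decide) (by decide)
    have h3 := mem_A5 0 2 3 4 (by decide) (by decide)
    have h4 := mem_A5 0 3 1 2 (by decide) (by decide)
    have h5 := mem_A5 0 4 1 2 (by decide) (by decide)
    fin_cases y
    · exact ⟨1, rfl⟩
    · exact ⟨⟨_, h2⟩, by change ((Equiv.swap (0 : Fin 5) 1 * Equiv.swap 3 4 : Equiv.Perm (Fin 5))) (0 : Fin 5) = 1; decide⟩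
    · exact ⟨⟨_, h3⟩, by change ((Equiv.swap (0 : Fin 5) 2 * Equiv.swap 3 4 : Equiv.Perm (Fin 5))) (0 : Fin 5) = 2; decide⟩
    · exact ⟨⟨_, h4⟩, by change ((Equiv.swap (0 : Fin 5) 3 * Equiv.swap 1 2 : Equiv.Perm (Fin 5))) (0 : Fin 5) = 3; decide⟩
    · exact ⟨⟨_, h5⟩, by change ((Equiv.swap (0 : Fin 5) 4 * Equiv.swap 1 2 : Equiv.Perm (Fin 5))) (0 : Fin 5) = 4; decide⟩
  intro x y
  obtain ⟨g, hg⟩ := key x
  obtain ⟨h, hh⟩ := key y
  exact ⟨h * g⁻¹, by rw [mul_smul, ← hg, inv_smul_smul]; exact hh⟩

lemma index_pointStab : pointStab.index = 5 := by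
  have := MulAction.index_stabilizer (alternatingGroup (Fin 5)) (0 : Fin 5)
  rw [pointStab, this, MulAction.orbit_eq_univ]
  simp

lemma card_pointStab : Nat.card pointStab = 12 := by
  have h1 := pointStab.index_mul_card
  rw [index_pointStab, nat_card_alternatingGroup] at h1
  simp [Nat.factorial] at h1
  omega

lemma isCoatom_pointStab : IsCoatom pointStab := by
  refine ⟨fun h => ?_, fun X hX => ?_⟩
  · have := index_pointStab
    rw [h, Subgroup.index_top] at this
    omega
  · have h1 : pointStab.relIndex X * X.index = 5 := by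
      rw [Subgroup.relIndex_mul_index hX.le, index_pointStab]
    have h2 : X.index = 1 ∨ X.index = 5 :=
      (Nat.dvd_prime (by norm_num)).1 ⟨_, by rw [mul_comm]; exact h1.symm⟩
    rcases h2 with h2 | h2
    · exact Subgroup.index_eq_one.1 h2
    · exfalso
      have h3 : pointStab.relIndex X = 1 := by rw [h2] at h1; omega
      rw [Subgroup.relIndex_eq_one] at h3
      exact absurd h3 (not_le_of_gt hX)

lemma isSolvable_pointStab : Group.IsSolvable pointStab :=
  Cfsg.Agent.Lib.Char.Burnside2.isSolvable_of_card_eq Nat.prime_two Nat.prime_three _ pointStab 2 1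
    rfl (by rw [card_pointStab]; norm_num)

theorem result (d : ℕ) :
    ∃ (G : Type) (_ : Group G) (_ : Finite G) (H : Subgroup G), commutator G = ⊤ ∧ IsCoatom H ∧
      Group.IsSolvable H ∧ derivedSeries H d ≠ ⊥ := by
  obtain ⟨S, _, _, hS, hd⟩ := exists_solvable d
  set T := alternatingGroup (Fin 5) with hT
  set E := (Fin 5 → S) ⋊[act S T (Fin 5)] T with hE
  haveI : Finite E := instFiniteWr
  obtain ⟨n, hn⟩ := exists_stable E
  set G := derivedSeries E n with hG
  -- surjection of `G` onto `A₅`
  have hsurj : (G.map (rightHom : E →* T)) = ⊤ := by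
    rw [hG, map_derivedSeries_eq rightHom_surjective n, derivedSeries_A5]
  let φ : G →* T := (rightHom : E →* T).comp G.subtype
  have hφ : Function.Surjective φ := by
    intro t
    have : t ∈ G.map (rightHom : E →* T) := by rw [hsurj]; trivial
    obtain ⟨x, hx, rfl⟩ := this
    exact ⟨⟨x, hx⟩, rfl⟩
  let H : Subgroup G := pointStab.comap φ
  have hGnormal : G.Normal := derivedSeries_normal E n
  have hperf : commutator G = ⊤ := by
    apply Subgroup.map_injective (Subgroup.subtype_injective G)
    rw [commutator_def, Subgroup.map_commutator, ← MonoidHom.range_eq_map, Subgroup.range_subtype]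
    exact hn
  refine ⟨G, inferInstance, inferInstance, H, hperf, ?_, ?_, ?_⟩
  · exact Subgroup.isCoatom_comap_of_surjective hφ isCoatom_pointStab
  · -- solvable
    haveI := isSolvable_pointStab
    haveI := isSolvable_pi (S := S) (ι := Fin 5)
    let ψ : H →* pointStab := φ.subgroupComap pointStab
    let f : baseSub G →* H :=
      { toFun := fun k => ⟨baseIncl G k, by
          change φ (baseIncl G k) ∈ pointStab
          have : φ (baseIncl G k) = 1 := by simp [φ, baseIncl]
          rw [this]; exact one_mem _⟩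
        map_one' := by ext1; simp
        map_mul' := fun x y => by ext1; simp }
    refine Group.isSolvable_of_ker_le_range f ψ ?_
    intro x hx
    have hx1 : φ x.1 = 1 := by
      have h0 : ((ψ x : pointStab) : T) = 1 := by rw [MonoidHom.mem_ker.1 hx]; rfl
      exact h0
    have hx2 : ((x.1 : E)).right = 1 := hx1
    have hx3 : (inl (x.1 : E).left : E) = (x.1 : E) := by
      ext1
      · rfl
      · simpa using hx2.symm
    refine ⟨⟨(x.1 : E).left, ?_⟩, ?_⟩
    · change (inl _ : E) ∈ G
      rw [hx3]; exact x.1.2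
    · apply Subtype.ext; apply Subtype.ext; exact hx3
  · -- derived length
    classical
    -- an element of `G` moving the coordinate `0`
    obtain ⟨t, ht⟩ : ∃ t : T, t⁻¹ • (0 : Fin 5) ≠ 0 := by
      have h1 := mem_A5 0 1 3 4 (by decide) (by decide)
      refine ⟨⟨_, h1⟩, ?_⟩
      change ((Equiv.swap (0 : Fin 5) 1 * Equiv.swap 3 4)⁻¹ : Equiv.Perm (Fin 5)) (0 : Fin 5) ≠ 0
      decide
    obtain ⟨τ, hτ⟩ := hφ t
    have hτ' : (τ : E).right = t := hτ
    have hcomm : ∀ s : S, ⁅(inl (Pi.mulSingle 0 s) : E), (τ : E)⁆ ∈ G := by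
      intro s
      have h1 : (inl (Pi.mulSingle 0 s) : E) * τ * (inl (Pi.mulSingle 0 s) : E)⁻¹ ∈ G :=
        hGnormal.conj_mem _ τ.2 _
      rw [commutatorElement_def]
      exact G.mul_mem h1 (G.inv_mem τ.2)
    have hsurj2 := baseSub_surj G (τ : E) 0 (by rw [hτ']; exact ht) hcomm
    let f : baseSub G →* H :=
      { toFun := fun k => ⟨baseIncl G k, by
          change φ (baseIncl G k) ∈ pointStab
          have : φ (baseIncl G k) = 1 := by simp [φ, baseIncl]
          rw [this]; exact one_mem _⟩
        map_one' := by ext1; simp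
        map_mul' := fun x y => by ext1; simp }
    have hf : Function.Injective f := by
      intro x y h
      exact baseIncl_inj G (congrArg Subtype.val h)
    exact derivedSeries_ne_bot_of_section d f hf _ hsurj2 hd

end Cfsg.Agent.S5896
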