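import Cfsg.Statements.S5901
import Mathlib
-- import your own Cfsg.Agent.* helpers here

set_option autoImplicit false
open Cfsg

namespace Cfsg.Agent.S5901

/-- Let G be a finite group and T ≤ X subgroups with X proper. Suppose the interval [T, X] of the subgroup lattice is complemented (every Y with T ≤ Y ≤ X has some C with T ≤ C ≤ X, Y ⊔ C = X and Y ⊓ C = T), and that X lies in exactly one maximal subgroup M of G. Then every subgroup H of G with H not contained in M and H ⊓ T = 1 has a complement in the subgroup lattice of G: some C with H ⊔ C = G and H ⊓ C = 1. -/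
theorem result {G : Type*} [Group G] [Finite G] (T X M : Subgroup G)
    (hTX : T ≤ X) (hX : X ≠ ⊤)
    (hint : ∀ Y : Subgroup G, T ≤ Y → Y ≤ X → ∃ C : Subgroup G, T ≤ C ∧ C ≤ X ∧ Y ⊔ C = X ∧ Y ⊓ C = T)
    (hM : IsCoatom M) (hXM : X ≤ M) (huniq : ∀ M' : Subgroup G, IsCoatom M' → X ≤ M' → M' = M)
    (H : Subgroup G) (hH : ¬ H ≤ M) (hHT : H ⊓ T = ⊥) :
    ∃ C : Subgroup G, H ⊔ C = ⊤ ∧ H ⊓ C = ⊥ := by
  have hY1 : T ≤ (H ⊓ X) ⊔ T := le_sup_right
  have hY2 : (H ⊓ X) ⊔ T ≤ X := sup_le inf_le_right hTX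
  obtain ⟨C, hTC, hCX, hsup, hinf⟩ := hint _ hY1 hY2
  refine ⟨C, ?_, ?_⟩
  · by_contra hne
    obtain ⟨M', hM', hle⟩ := (eq_top_or_exists_le_coatom (H ⊔ C)).resolve_left hne
    have hXle : X ≤ M' := by
      rw [← hsup]
      apply sup_le
      · apply sup_le
        · exact (inf_le_left.trans le_sup_left).trans hle
        · exact (hTC.trans le_sup_right).trans hle
      · exact le_sup_right.trans hle
    have := huniq M' hM' hXle
    apply hH
    rw [← this]
    exact le_sup_left.trans hle
  · apply le_bot_iff.mp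
    rw [← hHT]
    apply le_inf inf_le_left
    rw [← hinf]
    apply le_inf _ inf_le_right
    exact (le_inf inf_le_left (inf_le_right.trans hCX)).trans le_sup_left

end Cfsg.Agent.S5901
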