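import Cfsg.Statements.S5902
import Mathlib
import Cfsg.Agent.S5901
-- import your own Cfsg.Agent.* helpers here

set_option autoImplicit false
open Cfsg

namespace Cfsg.Agent.S5902

/-- Let G be a finite group, X a subgroup whose own subgroup lattice is complemented, and suppose X lies in exactly one maximal subgroup M of G. Then every subgroup H of G not contained in the normal core of M has a complement in the subgroup lattice of G (some C with H ⊔ C = G and H ⊓ C = 1); in particular the subgroup lattice of G modulo the normal core of M is complemented. -/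
theorem result {G : Type*} [Group G] [Finite G] (X M : Subgroup G)
    (hK : ComplementedLattice (Subgroup X))
    (hM : IsCoatom M) (hXM : X ≤ M) (huniq : ∀ M' : Subgroup G, IsCoatom M' → X ≤ M' → M' = M) :
    (∀ H : Subgroup G, ¬ H ≤ M.normalCore → ∃ C : Subgroup G, H ⊔ C = ⊤ ∧ H ⊓ C = ⊥) ∧
    ComplementedLattice (Subgroup (G ⧸ M.normalCore)) := by
  have hMtop : M ≠ ⊤ := hM.1
  have hXtop : X ≠ ⊤ := by
    intro h
    apply hMtop
    rw [eq_top_iff, ← h]
    exact hXM
  have hint : ∀ Y : Subgroup G, (⊥ : Subgroup G) ≤ Y → Y ≤ X →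
      ∃ C : Subgroup G, (⊥ : Subgroup G) ≤ C ∧ C ≤ X ∧ Y ⊔ C = X ∧ Y ⊓ C = ⊥ := by
    intro Y _ hYX
    obtain ⟨C', hC'⟩ := hK.exists_isCompl (Y.subgroupOf X)
    refine ⟨C'.map X.subtype, bot_le, Subgroup.map_subtype_le _, ?_, ?_⟩
    · have h1 : (Y.subgroupOf X ⊔ C').map X.subtype = X := by
        rw [hC'.sup_eq_top, ← MonoidHom.range_eq_map, Subgroup.range_subtype]
      rw [Subgroup.map_sup, Subgroup.map_subgroupOf_eq_of_le hYX] at h1
      exact h1
    · rw [eq_bot_iff]
      rintro x ⟨hxY, c, hc, rfl⟩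
      have h2 : c ∈ Y.subgroupOf X ⊓ C' := ⟨hxY, hc⟩
      rw [hC'.inf_eq_bot, Subgroup.mem_bot] at h2
      rw [h2]
      exact Subgroup.one_mem _
  have hpart1 : ∀ H : Subgroup G, ¬ H ≤ M.normalCore → ∃ C : Subgroup G, H ⊔ C = ⊤ ∧ H ⊓ C = ⊥ := by
    intro H hH
    obtain ⟨x, hxH, hx⟩ := SetLike.not_le_iff_exists.mp hH
    have hexg : ∃ b : G, b * x * b⁻¹ ∉ M := by
      by_contra hcon
      push Not at hcon
      exact hx hcon
    obtain ⟨b, hb⟩ := hexg
    set φ := (MulAut.conj b).toMonoidHom with hφ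
    have hH' : ¬ H.map φ ≤ M := by
      intro hle
      exact hb (hle ⟨x, hxH, rfl⟩)
    obtain ⟨C', h1, h2⟩ := Cfsg.Agent.S5901.result ⊥ X M bot_le hXtop hint hM hXM huniq (H.map φ) hH' (by simp)
    set ψ := (MulAut.conj b⁻¹).toMonoidHom with hψ
    have hψφ : ∀ K : Subgroup G, (K.map φ).map ψ = K := by
      intro K
      rw [Subgroup.map_map]
      have : ψ.comp φ = MonoidHom.id G := by
        ext z
        simp only [hφ, hψ, MonoidHom.comp_apply, MonoidHom.id_apply]
        show b⁻¹ * (b * z * b⁻¹) * b⁻¹⁻¹ = z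
        group
      rw [this, Subgroup.map_id]
    refine ⟨C'.map ψ, ?_, ?_⟩
    · have h3 := congrArg (Subgroup.map ψ) h1
      rw [Subgroup.map_sup, hψφ] at h3
      rw [h3]
      rw [eq_top_iff]
      intro g _
      exact ⟨b * g * b⁻¹, trivial, by simp [hψ, mul_assoc]⟩
    · have h3 := congrArg (Subgroup.map ψ) h2
      have hinj : Function.Injective ψ := (MulAut.conj b⁻¹).injective
      rw [Subgroup.map_inf _ _ _ hinj, hψφ] at h3
      rw [h3]
      simp
  refine ⟨hpart1, ?_⟩
  refine ⟨?_⟩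
  intro Abar
  set K := M.normalCore with hKdef
  set A := Abar.comap (QuotientGroup.mk' K) with hA
  by_cases hAK : A ≤ K
  · refine ⟨⊤, ?_⟩
    rw [isCompl_iff]
    refine ⟨?_, codisjoint_top_right⟩
    rw [disjoint_top]
    rw [eq_bot_iff]
    intro y hy
    obtain ⟨z, rfl⟩ := QuotientGroup.mk'_surjective K y
    have : z ∈ A := hy
    exact (QuotientGroup.eq_one_iff z).mpr (hAK this)
  · obtain ⟨C, h1, h2⟩ := hpart1 A hAK
    refine ⟨C.map (QuotientGroup.mk' K), ?_⟩
    rw [isCompl_iff]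
    constructor
    · rw [disjoint_iff, eq_bot_iff]
      rintro y ⟨hy1, c, hc, rfl⟩
      have hcA : c ∈ A := hy1
      have : c ∈ A ⊓ C := ⟨hcA, hc⟩
      rw [h2, Subgroup.mem_bot] at this
      rw [this, map_one]
      exact Subgroup.one_mem _
    · rw [codisjoint_iff]
      have h3 := congrArg (Subgroup.map (QuotientGroup.mk' K)) h1
      rw [Subgroup.map_sup, hA, Subgroup.map_comap_eq_self_of_surjective (QuotientGroup.mk'_surjective K)] at h3
      rw [h3, eq_top_iff]
      intro y _
      obtain ⟨z, rfl⟩ := QuotientGroup.mk'_surjective K y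
      exact ⟨z, trivial, rfl⟩

end Cfsg.Agent.S5902
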