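import Cfsg.Statements.S5903
import Mathlib
import Cfsg.Agent.Lib.Basic.Conj
import Cfsg.Agent.S5901
-- import your own Cfsg.Agent.* helpers here

set_option autoImplicit false
open Cfsg

namespace Cfsg.Agent.S5903

open Cfsg.Agent.Lib.Basic.Conj
open scoped Pointwise

section aux

variable {G : Type*} [Group G]

/-- The interval `[N, X]` is complemented when `X/N` has a complemented subgroup lattice. -/
theorem interval_complemented (X N : Subgroup G) (hNX : N ≤ X) [(N.subgroupOf X).Normal]
    (hK : ComplementedLattice (Subgroup (X ⧸ N.subgroupOf X)))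
    (Y : Subgroup G) (hNY : N ≤ Y) (hYX : Y ≤ X) :
    ∃ C : Subgroup G, N ≤ C ∧ C ≤ X ∧ Y ⊔ C = X ∧ Y ⊓ C = N := by
  let N' := N.subgroupOf X
  let q := QuotientGroup.mk' N'
  have hqs : Function.Surjective q := QuotientGroup.mk'_surjective N'
  have hker : q.ker = N' := QuotientGroup.ker_mk' N'
  let Y' := Y.subgroupOf X
  have hNY' : N' ≤ Y' := fun x hx => hNY hx
  obtain ⟨C₀, hC₀⟩ := hK.exists_isCompl (Y'.map q)
  let C' : Subgroup X := C₀.comap q
  have hNC' : N' ≤ C' := by
    intro x hx
    show q x ∈ C₀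
    have : x ∈ q.ker := hker.ge hx
    rw [MonoidHom.mem_ker.mp this]
    exact C₀.one_mem
  have hY'eq : (Y'.map q).comap q = Y' := Subgroup.comap_map_eq_self (hker.le.trans hNY')
  have hsup : Y' ⊔ C' = ⊤ := by
    have h1 : (Y' ⊔ C').map q = ⊤ := by
      rw [Subgroup.map_sup, Subgroup.map_comap_eq_self_of_surjective hqs]
      exact hC₀.sup_eq_top
    have h2 : ((Y' ⊔ C').map q).comap q = Y' ⊔ C' :=
      Subgroup.comap_map_eq_self (hker.le.trans (hNY'.trans le_sup_left))
    rw [← h2, h1, Subgroup.comap_top]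
  have hinf : Y' ⊓ C' = N' := by
    have h1 : Y' ⊓ C' = ((Y'.map q) ⊓ C₀).comap q := by
      rw [Subgroup.comap_inf, hY'eq]
    rw [h1, hC₀.inf_eq_bot]
    exact hker
  have hY : Y'.map X.subtype = Y := by
    rw [Subgroup.subgroupOf_map_subtype]
    exact inf_of_le_left hYX
  refine ⟨C'.map X.subtype, ?_, Subgroup.map_subtype_le _, ?_, ?_⟩
  · intro n hn
    exact ⟨⟨n, hNX hn⟩, hNC' hn, rfl⟩
  · rw [← hY, ← Subgroup.map_sup, hsup, ← MonoidHom.range_eq_map, Subgroup.range_subtype]
  · nth_rewrite 1 [← hY]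
    rw [← Subgroup.map_inf _ _ _ X.subtype_injective, hinf, Subgroup.subgroupOf_map_subtype]
    exact inf_of_le_left hNX

end aux

/-- Let G be a finite simple group, X a subgroup lying in exactly one maximal subgroup M of G, and N a subgroup of prime order with N ≤ X that is central in M. If the subgroup lattice of X/N is complemented, then the subgroup lattice of G is complemented. -/
theorem result {G : Type*} [Group G] [Finite G] [IsSimpleGroup G] (X M N : Subgroup G)
    (hM : IsCoatom M) (hXM : X ≤ M) (huniq : ∀ M' : Subgroup G, IsCoatom M' → X ≤ M' → M' = M)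
    (hNX : N ≤ X) (hN : (Nat.card N).Prime) (hcen : ∀ n ∈ N, ∀ m ∈ M, m * n = n * m)
    [(N.subgroupOf X).Normal] (hK : ComplementedLattice (Subgroup (X ⧸ N.subgroupOf X))) :
    ComplementedLattice (Subgroup G) := by
  classical
  have hsimple : ∀ K : Subgroup G, K.Normal → K = ⊥ ∨ K = ⊤ :=
    fun K hK => IsSimpleGroup.eq_bot_or_eq_top_of_normal K hK
  have hN1 : N ≠ ⊥ := by
    rintro rfl
    rw [Subgroup.card_bot] at hN
    exact Nat.not_prime_one hN
  have hMtop : M ≠ ⊤ := hM.1
  have hXtop : X ≠ ⊤ := fun h => hMtop (top_le_iff.mp (h ▸ hXM))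
  have hZ : Subgroup.center G = ⊥ := by
    rcases hsimple (Subgroup.center G) inferInstance with h | h
    · exact h
    · exfalso
      have hMn : M.Normal := ⟨fun a ha g => by
        have hag : a ∈ Subgroup.center G := h ▸ Subgroup.mem_top a
        have : g * a * g⁻¹ = a := by
          rw [(Subgroup.mem_center_iff.mp hag g)]
          group
        rwa [this]⟩
      rcases hsimple M hMn with h2 | h2
      · apply hN1
        rw [eq_bot_iff, ← h2]
        exact hNX.trans hXM
      · exact hMtop h2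
  refine ⟨fun H => ?_⟩
  by_cases hH1 : H = ⊥
  · subst hH1
    exact ⟨⊤, isCompl_bot_top⟩
  by_cases hH2 : H = ⊤
  · subst hH2
    exact ⟨⊥, isCompl_top_bot⟩
  have hex : ∃ g : G, ¬ (MulAut.conj g • N ≤ H) ∧
      ¬ (MulAut.conj g • N ≤ Subgroup.centralizer (H : Set G)) := by
    by_contra hcon
    push Not at hcon
    let D : Subgroup G := sSup {K | (∃ g : G, K = MulAut.conj g • N) ∧ K ≤ H}
    let E : Subgroup G :=
      sSup {K | (∃ g : G, K = MulAut.conj g • N) ∧ K ≤ Subgroup.centralizer (H : Set G)}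
    have hDH : D ≤ H := sSup_le fun K hK => hK.2
    have hEC : E ≤ Subgroup.centralizer (H : Set G) := sSup_le fun K hK => hK.2
    have hDE : D ⊔ E = ⊤ := by
      have hcl : Subgroup.normalClosure (N : Set G) ≤ D ⊔ E := by
        unfold Subgroup.normalClosure
        rw [Subgroup.closure_le]
        intro y hy
        obtain ⟨a, ha, hc⟩ := Group.mem_conjugatesOfSet_iff.mp hy
        obtain ⟨c, rfl⟩ := isConj_iff.mp hc
        have hmem : c * a * c⁻¹ ∈ MulAut.conj c • N := conj_mem_conj_smul ha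
        by_cases h : MulAut.conj c • N ≤ H
        · exact Subgroup.mem_sup_left
            ((le_sSup (show _ ∈ {K | (∃ g : G, K = MulAut.conj g • N) ∧ K ≤ H} from ⟨⟨c, rfl⟩, h⟩)) hmem)
        · exact Subgroup.mem_sup_right
            ((le_sSup (show _ ∈ {K | (∃ g : G, K = MulAut.conj g • N) ∧
              K ≤ Subgroup.centralizer (H : Set G)} from ⟨⟨c, rfl⟩, hcon c h⟩)) hmem)
      rcases hsimple (Subgroup.normalClosure (N : Set G)) inferInstance with h | h
      · exfalso
        apply hN1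
        rw [eq_bot_iff, ← h]
        exact fun x hx => Subgroup.subset_normalClosure hx
      · rw [h] at hcl
        exact top_le_iff.mp hcl
    have hcomm : ∀ d ∈ D, ∀ e ∈ E, d * e = e * d := fun d hd e he =>
      Subgroup.mem_centralizer_iff.mp (hEC he) d (hDH hd)
    have hDn : D.Normal := by
      rw [← Subgroup.normalizer_eq_top_iff, eq_top_iff, ← hDE]
      apply sup_le Subgroup.le_normalizer
      intro e he
      apply mem_normalizer_of_conj_smul_le
      rintro _ ⟨d, hd, rfl⟩
      have h1 : MulAut.conj e • d = d := by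
        show e * d * e⁻¹ = d
        rw [← hcomm d hd e he]
        group
      show MulAut.conj e • d ∈ D
      rw [h1]
      exact hd
    rcases hsimple D hDn with h1 | h1
    · rw [h1, bot_sup_eq] at hDE
      apply hH1
      rw [eq_bot_iff, ← hZ]
      intro h hh
      rw [Subgroup.mem_center_iff]
      intro g
      have hgE : g ∈ E := hDE ▸ Subgroup.mem_top g
      exact (Subgroup.mem_centralizer_iff.mp (hEC hgE) h hh).symm
    · apply hH2
      exact top_le_iff.mp (h1 ▸ hDH)
  obtain ⟨g, hg1, hg2⟩ := hex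
  let H' := MulAut.conj g⁻¹ • H
  have hH'M : ¬ H' ≤ M := by
    intro hle
    apply hg2
    rintro _ ⟨n, hn, rfl⟩
    rw [Subgroup.mem_centralizer_iff]
    intro h hh
    have h1 : g⁻¹ * h * g ∈ H' := by
      show _ ∈ MulAut.conj g⁻¹ • H
      rw [mem_conj_smul_iff]
      have e : (g⁻¹)⁻¹ * (g⁻¹ * h * g) * g⁻¹ = h := by group
      rw [e]
      exact hh
    have h2 := hcen n hn _ (hle h1)
    show h * (g * n * g⁻¹) = (g * n * g⁻¹) * h
    calc h * (g * n * g⁻¹) = g * ((g⁻¹ * h * g) * n) * g⁻¹ := by group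
      _ = g * (n * (g⁻¹ * h * g)) * g⁻¹ := by rw [h2]
      _ = _ := by group
  have hH'N : H' ⊓ N = ⊥ := by
    have hdvd : Nat.card (H' ⊓ N : Subgroup G) ∣ Nat.card N := Subgroup.card_dvd_of_le inf_le_right
    rcases (Nat.dvd_prime hN).mp hdvd with h | h
    · exact Subgroup.eq_bot_of_card_eq _ h
    · exfalso
      have h3 : H' ⊓ N = N := Subgroup.eq_of_le_of_card_ge inf_le_right (by rw [h])
      apply hg1
      have hNH' : N ≤ H' := inf_eq_right.mp h3
      rintro _ ⟨n, hn, rfl⟩
      have h4 := hNH' hn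
      rw [mem_conj_smul_iff] at h4
      simpa using h4
  obtain ⟨C, hC1, hC2⟩ := Cfsg.Agent.S5901.result N X M hNX hXtop
    (interval_complemented X N hNX hK) hM hXM huniq H' hH'M hH'N
  refine ⟨MulAut.conj g • C, disjoint_iff.mpr ?_, codisjoint_iff.mpr ?_⟩
  · rw [eq_bot_iff]
    rintro x ⟨hx1, hx2⟩
    have hx2' : x ∈ MulAut.conj g • C := hx2
    rw [mem_conj_smul_iff] at hx2'
    have hx3 : g⁻¹ * x * g ∈ H' := by
      show _ ∈ MulAut.conj g⁻¹ • H
      rw [mem_conj_smul_iff]
      have e : (g⁻¹)⁻¹ * (g⁻¹ * x * g) * g⁻¹ = x := by group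
      rw [e]
      exact hx1
    have hx4 : g⁻¹ * x * g ∈ H' ⊓ C := ⟨hx3, hx2'⟩
    rw [hC2] at hx4
    have hx5 : g⁻¹ * x * g = 1 := hx4
    have hx6 : x = g * (g⁻¹ * x * g) * g⁻¹ := by group
    rw [hx6, hx5]
    show g * 1 * g⁻¹ = 1
    group
  · have hle : H' ⊔ C ≤ MulAut.conj g⁻¹ • (H ⊔ MulAut.conj g • C) := by
      apply sup_le
      · exact conj_smul_le_conj_smul.mpr le_sup_left
      · nth_rewrite 1 [← conj_inv_smul_smul g C]
        exact conj_smul_le_conj_smul.mpr le_sup_right
    rw [hC1, top_le_iff] at hle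
    have h2 := congrArg (fun K => MulAut.conj g • K) hle
    simp only [conj_smul_inv_smul] at h2
    rw [h2]
    exact conj_smul_normal

end Cfsg.Agent.S5903
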