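import Cfsg.Statements.S5904
import Mathlib
-- import your own Cfsg.Agent.* helpers here

set_option autoImplicit false
open scoped Pointwise
open Cfsg

namespace Cfsg.Agent.S5904

/-- Let Ω be a finite set with more than two elements and O ⊆ Ω a subset with exactly as many elements as its complement. Then the setwise stabilizer of O in the symmetric group on Ω is not a maximal subgroup (it is properly contained in the stabilizer of the partition {O, Ω ∖ O}, which is proper). -/
theorem result {Ω : Type*} [Fintype Ω] [DecidableEq Ω] (hΩ : 2 < Fintype.card Ω)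
    (O : Set Ω) (hO : Nat.card O = Nat.card ↥Oᶜ) :
    ¬ IsCoatom (MulAction.stabilizer (Equiv.Perm Ω) O) := by
  classical
  intro hco
  -- the subgroup stabilising the partition
  let K : Subgroup (Equiv.Perm Ω) :=
    { carrier := {σ | σ • O = O ∨ σ • O = Oᶜ}
      one_mem' := Or.inl (one_smul _ O)
      mul_mem' := by
        intro a b ha hb
        simp only [Set.mem_ofPred_eq] at ha hb ⊢
        rw [mul_smul]
        rcases hb with hb | hb
        · rw [hb]; exact ha
        · rw [hb, Set.smul_set_compl]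
          rcases ha with ha | ha
          · rw [ha]; exact Or.inr rfl
          · rw [ha, compl_compl]; exact Or.inl rfl
      inv_mem' := by
        intro a ha
        simp only [Set.mem_ofPred_eq] at ha ⊢
        rcases ha with ha | ha
        · left
          rw [inv_smul_eq_iff, ha]
        · right
          have h1 : a⁻¹ • Oᶜ = O := by rw [inv_smul_eq_iff, ha]
          rw [Set.smul_set_compl] at h1
          have h2 := congrArg compl h1
          rw [compl_compl] at h2
          exact h2 }
  have hle : MulAction.stabilizer (Equiv.Perm Ω) O ≤ K := fun σ hσ => Or.inl hσ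
  -- a permutation exchanging O and its complement
  have hfinO : Finite O := Set.toFinite O
  have hfinC : Finite ↥Oᶜ := Set.toFinite _
  obtain ⟨e⟩ : Nonempty (O ≃ ↥Oᶜ) := by
    exact Finite.card_eq.mp hO
  let σ : Equiv.Perm Ω :=
    (Equiv.Set.sumCompl O).symm.trans
      ((Equiv.sumComm O ↥Oᶜ).trans ((Equiv.sumCongr e.symm e).trans (Equiv.Set.sumCompl O)))
  have hσ1 : ∀ x (hx : x ∈ O), σ x = e ⟨x, hx⟩ := by
    intro x hx
    simp [σ, Equiv.Set.sumCompl_symm_apply_of_mem hx]
  have hσ2 : ∀ x (hx : x ∉ O), σ x = e.symm ⟨x, hx⟩ := by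
    intro x hx
    simp [σ, Equiv.Set.sumCompl_symm_apply_of_notMem hx]
  have hσO : σ • O = Oᶜ := by
    ext y
    rw [Set.mem_smul_set]
    constructor
    · rintro ⟨x, hx, rfl⟩
      change σ x ∈ Oᶜ
      rw [hσ1 x hx]
      exact (e ⟨x, hx⟩).2
    · intro hy
      refine ⟨e.symm ⟨y, hy⟩, (e.symm ⟨y, hy⟩).2, ?_⟩
      change σ _ = y
      rw [hσ1 _ (e.symm ⟨y, hy⟩).2]
      simp
  have hσK : σ ∈ K := Or.inr hσO
  have hO2 : 2 ≤ Nat.card O := by
    have h1 : Nat.card O + Nat.card ↥Oᶜ = Fintype.card Ω := by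
      rw [← Nat.card_eq_fintype_card, ← Nat.card_sum]
      exact Nat.card_congr (Equiv.Set.sumCompl O)
    omega
  have hC1 : 1 ≤ Nat.card ↥Oᶜ := by omega
  obtain ⟨a, b, hab⟩ : ∃ a b : O, a ≠ b := by
    haveI : Nontrivial O := Finite.one_lt_card_iff_nontrivial.mp (by omega)
    exact exists_pair_ne _
  obtain ⟨c⟩ : Nonempty ↥Oᶜ := by
    exact (Nat.card_pos_iff.mp (by omega)).1
  -- K is not everything
  have hne : K ≠ ⊤ := by
    intro htop
    have hτ : Equiv.swap (a : Ω) (c : Ω) ∈ K := by rw [htop]; trivial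
    have hb1 : (b : Ω) ≠ (a : Ω) := fun h => hab (Subtype.ext h.symm)
    have hb2 : (b : Ω) ≠ (c : Ω) := by
      intro h
      exact c.2 (h ▸ b.2)
    have hbmem : (b : Ω) ∈ Equiv.swap (a : Ω) (c : Ω) • O := by
      rw [Set.mem_smul_set]
      refine ⟨b, b.2, ?_⟩
      change Equiv.swap (a : Ω) (c : Ω) b = b
      exact Equiv.swap_apply_of_ne_of_ne hb1 hb2
    have hcmem : (c : Ω) ∈ Equiv.swap (a : Ω) (c : Ω) • O := by
      rw [Set.mem_smul_set]
      refine ⟨a, a.2, ?_⟩
      change Equiv.swap (a : Ω) (c : Ω) a = c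
      exact Equiv.swap_apply_left _ _
    rcases hτ with h | h
    · rw [h] at hcmem
      exact c.2 hcmem
    · rw [h] at hbmem
      exact hbmem b.2
  apply hne
  apply hco.2
  refine lt_of_le_of_ne hle ?_
  intro h
  have : σ ∈ MulAction.stabilizer (Equiv.Perm Ω) O := by rw [h]; exact hσK
  have h2 : σ • O = O := this
  rw [hσO] at h2
  -- O has an element and a complement element
  exact c.2 (h2.subset c.2)

end Cfsg.Agent.S5904
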