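import Cfsg.Statements.S5905
import Mathlib
-- import your own Cfsg.Agent.* helpers here

set_option autoImplicit false
open Cfsg

namespace Cfsg.Agent.S5905

/-- Let Ω be a finite set and f : Ω → Fin b a map onto b ≥ 2 labels whose fibres all have the same size a ≥ 2 (a partition of Ω into b blocks of size a, so |Ω| = ab). Then the stabilizer of this partition in the symmetric group on Ω — the permutations g such that x and y lie in the same block exactly when g x and g y do, a group isomorphic to the imprimitive wreath product S_a ≀ S_b — is a maximal subgroup of the symmetric group. -/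
theorem result {Ω : Type*} [Fintype Ω] [DecidableEq Ω] (a b : ℕ) (ha : 2 ≤ a) (hb : 2 ≤ b)
    (f : Ω → Fin b) (hf : ∀ i : Fin b, Nat.card {x : Ω // f x = i} = a) :
    IsCoatom (Subgroup.closure {g : Equiv.Perm Ω | ∀ x y : Ω, f x = f y ↔ f (g x) = f (g y)}) := by
  classical
  let H : Subgroup (Equiv.Perm Ω) :=
    { carrier := {g : Equiv.Perm Ω | ∀ x y : Ω, f x = f y ↔ f (g x) = f (g y)}
      one_mem' := fun x y => Iff.rfl
      mul_mem' := by
        intro g h hg hh x y
        rw [hh x y, hg (h x) (h y)]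
        rfl
      inv_mem' := by
        intro g hg x y
        have := hg (g⁻¹ x) (g⁻¹ y)
        have h1 : ∀ z, g (g⁻¹ z) = z := fun z => by simp
        rw [h1, h1] at this
        exact this.symm }
  have hcl : Subgroup.closure {g : Equiv.Perm Ω | ∀ x y : Ω, f x = f y ↔ f (g x) = f (g y)} = H :=
    Subgroup.closure_eq H
  rw [hcl]
  have hswapH : ∀ x y, f x = f y → Equiv.swap x y ∈ H := by
    intro x y hxy
    have h1 : ∀ z, f (Equiv.swap x y z) = f z := by
      intro z
      by_cases hzx : z = x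
      · subst hzx; rw [Equiv.swap_apply_left, hxy]
      · by_cases hzy : z = y
        · subst hzy; rw [Equiv.swap_apply_right, hxy]
        · rw [Equiv.swap_apply_of_ne_of_ne hzx hzy]
    intro u v
    rw [h1, h1]
  have hb0 : 0 < b := by omega
  have hfib : ∀ i : Fin b, Nontrivial {x : Ω // f x = i} := by
    intro i
    apply Finite.one_lt_card_iff_nontrivial.mp
    rw [hf i]; omega
  constructor
  · intro htop
    let i₀ : Fin b := ⟨0, hb0⟩
    let i₁ : Fin b := ⟨1, by omega⟩
    have hi : i₀ ≠ i₁ := by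
      intro h
      have := congrArg Fin.val h
      simp [i₀, i₁] at this
    obtain ⟨⟨x, hx⟩, ⟨x', hx'⟩, hxx'⟩ := (hfib i₀).exists_pair_ne
    obtain ⟨⟨y, hy⟩, -, -⟩ := (hfib i₁).exists_pair_ne
    have hne : x ≠ x' := fun h => hxx' (Subtype.ext h)
    have hxy : x ≠ y := by
      rintro rfl
      exact hi (hx.symm.trans hy)
    have hmem : Equiv.swap x' y ∈ H := by rw [htop]; trivial
    have h1 := (hmem x x').mp (hx.trans hx'.symm)
    rw [Equiv.swap_apply_of_ne_of_ne hne hxy, Equiv.swap_apply_left, hx, hy] at h1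
    exact hi h1
  · intro K hK
    obtain ⟨g, hgK, hgH⟩ := SetLike.exists_of_lt hK
    -- a swap across blocks
    obtain ⟨p, q, hpq, hsw⟩ : ∃ p q, f p ≠ f q ∧ Equiv.swap p q ∈ K := by
      have hg1 : ¬ ∀ x y : Ω, f x = f y ↔ f (g x) = f (g y) := hgH
      push Not at hg1
      obtain ⟨x, y, hxy⟩ := hg1
      rcases hxy with ⟨h1, h2⟩ | ⟨h1, h2⟩
      · refine ⟨g x, g y, h2, ?_⟩
        rw [Equiv.swap_apply_apply]
        exact Subgroup.mul_mem _ (Subgroup.mul_mem _ hgK (hK.le (hswapH x y h1))) (Subgroup.inv_mem _ hgK)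
      · refine ⟨x, y, h1, ?_⟩
        have h3 : Equiv.swap (g x) (g y) ∈ K := hK.le (hswapH _ _ h2)
        rw [Equiv.swap_apply_apply] at h3
        have h4 : Equiv.swap x y = g⁻¹ * (g * Equiv.swap x y * g⁻¹) * g := by group
        rw [h4]
        exact Subgroup.mul_mem _ (Subgroup.mul_mem _ (Subgroup.inv_mem _ hgK) h3) hgK
    -- coordinates
    obtain ⟨Φ, hΦ⟩ : ∃ Φ : Ω ≃ Fin b × Fin a, ∀ x, (Φ x).1 = f x := by
      let e : ∀ i : Fin b, {x : Ω // f x = i} ≃ Fin a := fun i => Finite.equivFinOfCardEq (hf i)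
      refine ⟨(Equiv.sigmaFiberEquiv f).symm.trans ((Equiv.sigmaCongrRight e).trans
        (Equiv.sigmaEquivProd (Fin b) (Fin a))), fun x => rfl⟩
    -- the move
    have hmove : ∀ u v, f u ≠ f v → ∃ g₀ ∈ H, g₀ p = u ∧ g₀ q = v := by
      intro u v huv
      set i₁ := f p with hi₁
      set i₂ := f q with hi₂
      set k₁ := f u with hk₁
      set k₂ := f v with hk₂
      let π₁ : Equiv.Perm (Fin b) := Equiv.swap i₁ k₁
      have hπ₁ : π₁ i₂ ≠ k₁ := by
        intro h
        have h2 : π₁ i₁ = k₁ := Equiv.swap_apply_left _ _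
        exact hpq (π₁.injective (h2.trans h.symm))
      let π : Equiv.Perm (Fin b) := Equiv.swap k₂ (π₁ i₂) * π₁
      have hπ1 : π i₁ = k₁ := by
        change Equiv.swap k₂ (π₁ i₂) (π₁ i₁) = k₁
        have h2 : π₁ i₁ = k₁ := Equiv.swap_apply_left _ _
        rw [h2]
        exact Equiv.swap_apply_of_ne_of_ne huv hπ₁.symm
      have hπ2 : π i₂ = k₂ := by
        change Equiv.swap k₂ (π₁ i₂) (π₁ i₂) = k₂
        exact Equiv.swap_apply_right _ _
      let σ : Fin b → Equiv.Perm (Fin a) := fun i =>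
        if i = i₁ then Equiv.swap (Φ p).2 (Φ u).2 else Equiv.swap (Φ q).2 (Φ v).2
      let g₀ : Equiv.Perm Ω := Φ.trans ((Equiv.prodShear π σ).trans Φ.symm)
      have hg₀ : ∀ x, Φ (g₀ x) = (π (f x), σ (f x) (Φ x).2) := by
        intro x
        simp only [g₀, Equiv.trans_apply, Equiv.apply_symm_apply, Equiv.prodShear_apply, hΦ]
      have hf₀ : ∀ x, f (g₀ x) = π (f x) := by
        intro x
        rw [← hΦ (g₀ x), hg₀]
      refine ⟨g₀, ?_, ?_, ?_⟩
      · intro x y
        rw [hf₀, hf₀]
        exact π.injective.eq_iff.symm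
      · apply Φ.injective
        rw [hg₀]
        apply Prod.ext
        · change π (f p) = (Φ u).1
          rw [hΦ]; exact hπ1
        · change σ (f p) (Φ p).2 = (Φ u).2
          have : σ (f p) = Equiv.swap (Φ p).2 (Φ u).2 := if_pos rfl
          rw [this, Equiv.swap_apply_left]
      · apply Φ.injective
        rw [hg₀]
        apply Prod.ext
        · change π (f q) = (Φ v).1
          rw [hΦ]; exact hπ2
        · change σ (f q) (Φ q).2 = (Φ v).2
          have : σ (f q) = Equiv.swap (Φ q).2 (Φ v).2 := if_neg (fun h => hpq h.symm)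
          rw [this, Equiv.swap_apply_left]
    have hall : ∀ u v, Equiv.swap u v ∈ K := by
      intro u v
      by_cases huv : f u = f v
      · exact hK.le (hswapH u v huv)
      · obtain ⟨g₀, hg₀, h1, h2⟩ := hmove u v huv
        rw [← h1, ← h2, Equiv.swap_apply_apply]
        exact Subgroup.mul_mem _ (Subgroup.mul_mem _ (hK.le hg₀) hsw) (Subgroup.inv_mem _ (hK.le hg₀))
    rw [eq_top_iff, ← Equiv.Perm.closure_isSwap, Subgroup.closure_le]
    rintro σ ⟨x, y, -, rfl⟩
    exact hall x y

end Cfsg.Agent.S5905
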