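import Cfsg.Statements.S5908
import Mathlib
import Cfsg.Agent.Lib.Compute.SU3Two
-- import your own Cfsg.Agent.* helpers here

set_option autoImplicit false
open Cfsg

namespace Cfsg.Agent.S5908

/-- The subgroup lattice of PSU₃(2) (the solvable group of order 72, realised over the field with 4 elements) is not complemented: some subgroup H has no subgroup X with H ⊔ X = ⊤ and H ⊓ X = ⊥. -/
theorem result {F : Type*} [Field F] [Fintype F] (hF : Fintype.card F = 4) :
    ¬ ComplementedLattice (Subgroup (Cfsg.PSU 3 F 2)) := by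
  classical
  open Cfsg.Agent.Lib.Compute.SU3Two in
  intro hC
  let A : Q8 := QuaternionGroup.a 2
  have hmul : ∀ p q : Q8, (p = 1 ∨ p = A) → (q = 1 ∨ q = A) → (p * q = 1 ∨ p * q = A) := by decide
  have hinv : ∀ p : Q8, (p = 1 ∨ p = A) → (p⁻¹ = 1 ∨ p⁻¹ = A) := by decide
  have hsq : ∀ p : Q8, p ≠ 1 → p = A ∨ p ^ 2 = A := by decide
  have hA : A ≠ 1 := by decide
  have hB : ¬ ((QuaternionGroup.a 1 : Q8) = 1 ∨ (QuaternionGroup.a 1 : Q8) = A) := by decide
  let H : Subgroup (Cfsg.PSU 3 F 2) :=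
    { carrier := {x | pi hF x = 1 ∨ pi hF x = A}
      one_mem' := Or.inl (map_one _)
      mul_mem' := fun {a b} ha hb => by
        change pi hF (a * b) = 1 ∨ pi hF (a * b) = A
        rw [map_mul]
        exact hmul _ _ ha hb
      inv_mem' := fun {a} ha => by
        change pi hF a⁻¹ = 1 ∨ pi hF a⁻¹ = A
        rw [map_inv]
        exact hinv _ ha }
  obtain ⟨X, hX⟩ := hC.exists_isCompl H
  have hall : ∀ x ∈ X, pi hF x = 1 := by
    intro x hx
    by_contra hne
    have key : ∀ y ∈ X, pi hF y = A → False := by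
      intro y hy hyA
      have hmem : y ∈ H ⊓ X := ⟨Or.inr hyA, hy⟩
      rw [hX.inf_eq_bot, Subgroup.mem_bot] at hmem
      rw [hmem, map_one] at hyA
      exact hA hyA.symm
    rcases hsq _ hne with h | h
    · exact key x hx h
    · exact key (x ^ 2) (X.pow_mem hx 2) (by rw [map_pow, h])
  have hXH : X ≤ H := fun x hx => Or.inl (hall x hx)
  have htop : H = ⊤ := by
    rw [← hX.sup_eq_top, sup_eq_left.2 hXH]
  obtain ⟨g, hg⟩ := pi_surj hF (QuaternionGroup.a 1)
  have hgH : g ∈ H := by rw [htop]; trivial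
  have h3 : pi hF g = 1 ∨ pi hF g = A := hgH
  rw [hg] at h3
  exact hB h3

end Cfsg.Agent.S5908
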