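import Cfsg.Statements.S5909
import Mathlib
set_option autoImplicit false
open Cfsg Equiv Equiv.Perm MulAction
open scoped Pointwise
namespace Cfsg.Agent.S5909

universe u
set_option linter.unusedSectionVars false
variable {Ω : Type u} [Fintype Ω] [DecidableEq Ω] {a b : ℕ} {f : Ω → Fin b}

/-- The wreath product: permutations preserving the fibres of `f`. -/
def W (f : Ω → Fin b) : Subgroup (Perm Ω) where
  carrier := {g | ∀ x y, f x = f y ↔ f (g x) = f (g y)}
  mul_mem' := by
    intro g h hg hh x y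
    rw [hh x y, hg (h x) (h y)]
    rfl
  one_mem' := fun _ _ => Iff.rfl
  inv_mem' := by
    intro g hg x y
    have := hg (g⁻¹ x) (g⁻¹ y)
    simpa using this.symm

theorem mem_W {g : Perm Ω} : g ∈ W f ↔ ∀ x y, f x = f y ↔ f (g x) = f (g y) := Iff.rfl

theorem exists_coord (hf : ∀ i : Fin b, Nat.card {x : Ω // f x = i} = a) :
    ∃ e : Ω ≃ Fin b × Fin a, ∀ x, (e x).1 = f x := by
  let e1 : ∀ i, {x : Ω // f x = i} ≃ Fin a := fun i => Finite.equivFinOfCardEq (hf i)
  exact ⟨(Equiv.sigmaFiberEquiv f).symm.trans ((Equiv.sigmaCongrRight e1).trans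
    (Equiv.sigmaEquivProd _ _)), fun x => rfl⟩

/-- A wreath element in coordinates. -/
def wr (e : Ω ≃ Fin b × Fin a) (d : Perm (Fin b)) (c : Fin b → Perm (Fin a)) : Perm Ω :=
  e.trans ((Equiv.prodShear d c).trans e.symm)

theorem wr_apply (e : Ω ≃ Fin b × Fin a) (d : Perm (Fin b)) (c : Fin b → Perm (Fin a)) (x : Ω) :
    wr e d c x = e.symm (d (e x).1, c (e x).1 (e x).2) := rfl

theorem f_wr {e : Ω ≃ Fin b × Fin a} (he : ∀ x, (e x).1 = f x) (d : Perm (Fin b))
    (c : Fin b → Perm (Fin a)) (x : Ω) : f (wr e d c x) = d (f x) := by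
  rw [← he (wr e d c x), wr_apply]
  simp [he]

theorem wr_mem {e : Ω ≃ Fin b × Fin a} (he : ∀ x, (e x).1 = f x) (d : Perm (Fin b))
    (c : Fin b → Perm (Fin a)) : wr e d c ∈ W f := fun x y => by
  rw [f_wr he, f_wr he]
  exact d.injective.eq_iff.symm

/-- The block move sending `z` to `z'` and fixing all the other blocks. -/
def blockMove (e : Ω ≃ Fin b × Fin a) (z z' : Ω) : Perm Ω :=
  wr e (swap (e z).1 (e z').1) (fun j => if j = (e z).1 ∨ j = (e z').1 then swap (e z).2 (e z').2 else 1)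

theorem blockMove_left (e : Ω ≃ Fin b × Fin a) (z z' : Ω) : blockMove e z z' z = z' := by
  simp [blockMove, wr_apply]

theorem blockMove_fix {e : Ω ≃ Fin b × Fin a} (he : ∀ x, (e x).1 = f x) (z z' w : Ω) (h1 : f w ≠ f z)
    (h2 : f w ≠ f z') : blockMove e z z' w = w := by
  rw [blockMove, wr_apply, he, he, he, swap_apply_of_ne_of_ne h1 h2, if_neg (by simp [h1, h2])]
  rw [← he]
  simp

theorem blockMove_mem {e : Ω ≃ Fin b × Fin a} (he : ∀ x, (e x).1 = f x) (z z' : Ω) :
    blockMove e z z' ∈ W f := wr_mem he _ _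

theorem f_swap {r r' : Ω} (h : f r = f r') (w : Ω) : f (swap r r' w) = f w := by
  rw [swap_apply_def]
  split_ifs with h1 h2
  · rw [h1, h]
  · rw [h2, h]
  · rfl

theorem swap_mem {r r' : Ω} (h : f r = f r') : swap r r' ∈ W f := fun x y => by
  rw [f_swap h, f_swap h]

theorem exists_avoid {n : ℕ} (s : Finset (Fin n)) (h : s.card < n) : ∃ j, j ∉ s := by
  by_contra hcon
  push Not at hcon
  have : s = Finset.univ := Finset.eq_univ_iff_forall.mpr hcon
  rw [this] at h
  simp at h

theorem exists_two {e : Ω ≃ Fin b × Fin a} (he : ∀ x, (e x).1 = f x) (ha : 2 ≤ a) (j : Fin b) :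
    ∃ r r', r ≠ r' ∧ f r = j ∧ f r' = j := by
  refine ⟨e.symm (j, ⟨0, by omega⟩), e.symm (j, ⟨1, by omega⟩), ?_, ?_, ?_⟩
  · intro h
    have := e.symm.injective h
    simp at this
  · rw [← he]; simp
  · rw [← he]; simp

/-- Adjust the parity of an element of the wreath product by a transposition of the wreath product. -/
theorem exists_even {g : Perm Ω} (hg : g ∈ W f) {r r' : Ω} (hrr : r ≠ r') (hf : f r = f r') :
    ∃ g' ∈ W f ⊓ alternatingGroup Ω, g' = g ∨ g' = g * swap r r' := by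
  rcases Int.units_eq_one_or (sign g) with h | h
  · exact ⟨g, ⟨hg, h⟩, Or.inl rfl⟩
  · refine ⟨g * swap r r', ⟨(W f).mul_mem hg (swap_mem hf), ?_⟩, Or.inr rfl⟩
    show sign (g * swap r r') = 1
    rw [map_mul, h, sign_swap hrr]
    rfl

theorem O0 {e : Ω ≃ Fin b × Fin a} (he : ∀ x, (e x).1 = f x) (ha : 2 ≤ a) (hb : 2 ≤ b) (x y : Ω) :
    ∃ g ∈ W f ⊓ alternatingGroup Ω, g x = y := by
  obtain ⟨j, hj⟩ := exists_avoid (n := b) {f x} (by simpa using by omega)
  have hj' : j ≠ f x := by simpa using hj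
  obtain ⟨r, r', hrr, hr, hr'⟩ := exists_two he ha j
  obtain ⟨g, hg, h⟩ := exists_even (blockMove_mem he x y) hrr (hr.trans hr'.symm)
  refine ⟨g, hg, ?_⟩
  rcases h with rfl | rfl
  · exact blockMove_left e x y
  · have h1 : r ≠ x := by
      rintro rfl
      exact hj' hr.symm
    have h2 : r' ≠ x := by
      rintro rfl
      exact hj' hr'.symm
    rw [Perm.mul_apply, swap_apply_of_ne_of_ne h1.symm h2.symm, blockMove_left]

theorem O2 {e : Ω ≃ Fin b × Fin a} (he : ∀ x, (e x).1 = f x) (ha : 2 ≤ a) (hb : 2 ≤ b) (x z z' : Ω)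
    (h1 : f z = f x) (h2 : f z' = f x) (h3 : z ≠ x) (h4 : z' ≠ x) :
    ∃ g ∈ W f ⊓ alternatingGroup Ω, g x = x ∧ g z = z' := by
  by_cases hzz : z = z'
  · subst hzz
    exact ⟨1, Subgroup.one_mem _, rfl, rfl⟩
  obtain ⟨j, hj⟩ := exists_avoid (n := b) {f x} (by simpa using by omega)
  have hj' : j ≠ f x := by simpa using hj
  obtain ⟨r, r', hrr, hr, hr'⟩ := exists_two he ha j
  obtain ⟨g, hg, h⟩ := exists_even (swap_mem (h1.trans h2.symm)) hrr (hr.trans hr'.symm)
  have h5 : r ≠ x := by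
    rintro rfl
    exact hj' hr.symm
  have h6 : r' ≠ x := by
    rintro rfl
    exact hj' hr'.symm
  have h7 : r ≠ z := by
    rintro rfl
    exact hj' (hr.symm.trans h1)
  have h8 : r' ≠ z := by
    rintro rfl
    exact hj' (hr'.symm.trans h1)
  refine ⟨g, hg, ?_⟩
  rcases h with rfl | rfl
  · exact ⟨swap_apply_of_ne_of_ne h3.symm h4.symm, swap_apply_left _ _⟩
  · constructor
    · rw [Perm.mul_apply, swap_apply_of_ne_of_ne h5.symm h6.symm, swap_apply_of_ne_of_ne h3.symm h4.symm]
    · rw [Perm.mul_apply, swap_apply_of_ne_of_ne h7.symm h8.symm, swap_apply_left]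

theorem exists_t {e : Ω ≃ Fin b × Fin a} (he : ∀ x, (e x).1 = f x) (ha : 2 ≤ a) (hb : 2 ≤ b)
    (hne : a ≠ 2 ∨ b ≠ 2) (x z : Ω) (hz : f z ≠ f x) :
    ∃ r r', r ≠ r' ∧ f r = f r' ∧ r ≠ x ∧ r' ≠ x ∧ r ≠ z ∧ r' ≠ z := by
  by_cases hb3 : 3 ≤ b
  · obtain ⟨j, hj⟩ := exists_avoid (n := b) {f x, f z} ((Finset.card_le_two).trans_lt (by omega))
    simp only [Finset.mem_insert, Finset.mem_singleton, not_or] at hj
    obtain ⟨r, r', hrr, hr, hr'⟩ := exists_two he ha j
    refine ⟨r, r', hrr, hr.trans hr'.symm, ?_, ?_, ?_, ?_⟩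
    · rintro rfl
      exact hj.1 hr.symm
    · rintro rfl
      exact hj.1 hr'.symm
    · rintro rfl
      exact hj.2 hr.symm
    · rintro rfl
      exact hj.2 hr'.symm
  · have ha3 : 3 ≤ a := by omega
    obtain ⟨i, hi⟩ := exists_avoid (n := a) {(e x).2} (by simpa using by omega)
    obtain ⟨i', hi'⟩ := exists_avoid (n := a) {(e x).2, i} ((Finset.card_le_two).trans_lt (by omega))
    simp only [Finset.mem_singleton] at hi
    simp only [Finset.mem_insert, Finset.mem_singleton, not_or] at hi'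
    have hfr : ∀ k, f (e.symm (f x, k)) = f x := by
      intro k
      rw [← he (e.symm _)]
      simp
    have hne1 : ∀ k, k ≠ (e x).2 → e.symm (f x, k) ≠ x := by
      intro k hk h
      apply hk
      rw [← h]
      simp
    refine ⟨e.symm (f x, i), e.symm (f x, i'), ?_, (hfr i).trans (hfr i').symm, hne1 _ hi, hne1 _ hi'.1, ?_, ?_⟩
    · intro h
      have := e.symm.injective h
      simp only [Prod.mk.injEq, true_and] at this
      exact hi'.2 this.symm
    · intro h
      apply hz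
      rw [← h, hfr]
    · intro h
      apply hz
      rw [← h, hfr]

theorem O1 {e : Ω ≃ Fin b × Fin a} (he : ∀ x, (e x).1 = f x) (ha : 2 ≤ a) (hb : 2 ≤ b)
    (hne : a ≠ 2 ∨ b ≠ 2) (x z z' : Ω) (h1 : f z ≠ f x) (h2 : f z' ≠ f x) :
    ∃ g ∈ W f ⊓ alternatingGroup Ω, g x = x ∧ g z = z' := by
  obtain ⟨r, r', hrr, hfr, h3, h4, h5, h6⟩ := exists_t he ha hb hne x z h1
  obtain ⟨g, hg, h⟩ := exists_even (blockMove_mem he z z') hrr hfr
  have hfix : blockMove e z z' x = x := blockMove_fix he z z' x h1.symm h2.symm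
  refine ⟨g, hg, ?_⟩
  rcases h with rfl | rfl
  · exact ⟨hfix, blockMove_left e z z'⟩
  · constructor
    · rw [Perm.mul_apply, swap_apply_of_ne_of_ne h3.symm h4.symm, hfix]
    · rw [Perm.mul_apply, swap_apply_of_ne_of_ne h5.symm h6.symm, blockMove_left]

/-- Moving a point of a block by an element fixing another point of the block. -/
theorem block_step {K : Subgroup (Perm Ω)} {B : Set Ω} (hB : IsBlock K B) {x z : Ω} (hx : x ∈ B)
    (hz : z ∈ B) {g : Perm Ω} (hg : g ∈ K) (hgx : g x = x) : g z ∈ B := by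
  have h1 : (⟨g, hg⟩ : K) • B = B := hB.smul_eq_of_mem hx (by
    show g x ∈ B
    rw [hgx]
    exact hx)
  rw [← h1]
  exact ⟨z, hz, rfl⟩

theorem primitive {e : Ω ≃ Fin b × Fin a} (he : ∀ x, (e x).1 = f x) (ha : 2 ≤ a) (hb : 2 ≤ b)
    (hne : a ≠ 2 ∨ b ≠ 2) (K : Subgroup (Perm Ω)) (hK : W f ⊓ alternatingGroup Ω ≤ K)
    (hK2 : ¬ K ≤ W f) : IsPreprimitive K Ω := by
  haveI : IsPretransitive K Ω := ⟨fun x y => by
    obtain ⟨g, hg, h⟩ := O0 he ha hb x y
    exact ⟨⟨g, hK hg⟩, h⟩⟩
  let x₀ : Ω := e.symm (⟨0, by omega⟩, ⟨0, by omega⟩)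
  refine IsPreprimitive.of_isTrivialBlock_base x₀ ?_
  intro B hx hB
  by_cases h1 : ∃ z ∈ B, f z ≠ f x₀
  · -- the block is everything
    obtain ⟨z, hz, hzx⟩ := h1
    right
    rw [Set.eq_univ_iff_forall]
    intro w
    by_cases hw : f w ≠ f x₀
    · obtain ⟨g, hg, h2, h3⟩ := O1 he ha hb hne x₀ z w hzx hw
      rw [← h3]
      exact block_step hB hx hz (hK hg) h2
    · push Not at hw
      obtain ⟨g, hg, h2, h3⟩ := O1 he ha hb hne z x₀ w hzx.symm (by rw [hw]; exact hzx.symm)
      rw [← h3]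
      exact block_step hB hz hx (hK hg) h2
  · push Not at h1
    left
    by_contra hsub
    apply hK2
    -- some other point of the block
    have h2 : ∃ z ∈ B, z ≠ x₀ := by
      by_contra hcon
      push Not at hcon
      apply hsub
      intro u hu v hv
      rw [hcon u hu, hcon v hv]
    obtain ⟨z, hz, hzx⟩ := h2
    have hP : ∀ w, f w = f x₀ → w ∈ B := by
      intro w hw
      by_cases hwx : w = x₀
      · rw [hwx]
        exact hx
      obtain ⟨g, hg, h3, h4⟩ := O2 he ha hb x₀ z w (h1 z hz) hw hzx hwx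
      rw [← h4]
      exact block_step hB hx hz (hK hg) h3
    have key : ∀ g ∈ K, ∀ u v, f u = f v → f (g u) = f (g v) := by
      intro g hg u v huv
      obtain ⟨h, hh, hhx⟩ := O0 he ha hb x₀ u
      obtain ⟨k, hk, hkx⟩ := O0 he ha hb x₀ (g u)
      have h3 : f (h⁻¹ v) = f x₀ := by
        have := (mem_W.mp hh.1 (h⁻¹ v) x₀).mpr (by
          rw [hhx, huv]
          simp)
        exact this
      have h4 := hP _ h3
      have h5 : (k⁻¹ * g * h) x₀ = x₀ := by
        rw [Perm.mul_apply, Perm.mul_apply, hhx, ← hkx]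
        simp
      have h6 := block_step hB hx h4 (K.mul_mem (K.mul_mem (K.inv_mem (hK hk)) hg) (hK hh)) h5
      have h7 := h1 _ h6
      have h8 : (k⁻¹ * g * h) (h⁻¹ v) = k⁻¹ (g v) := by
        simp [Perm.mul_apply]
      rw [h8] at h7
      have h9 := (mem_W.mp hk.1 (k⁻¹ (g v)) x₀).mp h7
      rw [hkx] at h9
      simpa using h9.symm
    intro g hg x y
    refine ⟨key g hg x y, fun hxy => ?_⟩
    have := key g⁻¹ (K.inv_mem hg) (g x) (g y) hxy
    simpa using this

/-- The case of blocks of size at least three. -/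
theorem main_three {e : Ω ≃ Fin b × Fin a} (he : ∀ x, (e x).1 = f x) (ha : 3 ≤ a) (hb : 2 ≤ b)
    (K : Subgroup (Perm Ω)) (hK : W f ⊓ alternatingGroup Ω ≤ K)
    (hK2 : ¬ K ≤ W f) : alternatingGroup Ω ≤ K := by
  have hP := primitive he (by omega) hb (Or.inl (by omega)) K hK hK2
  let j : Fin b := ⟨0, by omega⟩
  let r : Fin a → Ω := fun i => e.symm (j, i)
  have hr : ∀ i, f (r i) = j := by
    intro i
    rw [← he]
    simp [r]
  have hinj : Function.Injective r := by
    intro i i' h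
    have := e.symm.injective h
    simpa using this
  let i0 : Fin a := ⟨0, by omega⟩
  let i1 : Fin a := ⟨1, by omega⟩
  let i2 : Fin a := ⟨2, by omega⟩
  have h01 : r i0 ≠ r i1 := fun h => by
    have := hinj h
    simp [i0, i1] at this
  have h02 : r i0 ≠ r i2 := fun h => by
    have := hinj h
    simp [i0, i2] at this
  have h12 : r i1 ≠ r i2 := fun h => by
    have := hinj h
    simp [i1, i2] at this
  have h3 := isThreeCycle_swap_mul_swap_same h01 h02 h12
  refine alternatingGroup_le_of_isPreprimitive_of_isThreeCycle_mem hP h3 (hK ⟨?_, h3.mem_alternatingGroup⟩)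
  exact (W f).mul_mem (swap_mem ((hr _).trans (hr _).symm)) (swap_mem ((hr _).trans (hr _).symm))

theorem exists_bad {K : Subgroup (Perm Ω)} (hK2 : ¬ K ≤ W f) :
    ∃ g ∈ K, ∃ x x', f x = f x' ∧ f (g x) ≠ f (g x') := by
  rw [SetLike.not_le_iff_exists] at hK2
  obtain ⟨g, hg, hgW⟩ := hK2
  rw [mem_W] at hgW
  push Not at hgW
  obtain ⟨x, y, h⟩ := hgW
  by_cases h1 : f x = f y
  · refine ⟨g, hg, x, y, h1, ?_⟩
    rcases h with h | h
    · exact h.2
    · exact absurd h1 h.1
  · have h2 : f (g x) = f (g y) := by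
      rcases h with h | h
      · exact absurd h.1 h1
      · exact h.2
    exact ⟨g⁻¹, K.inv_mem hg, g x, g y, h2, by simpa using h1⟩

theorem dj {p q r s : Ω} (h1 : p ≠ r) (h2 : p ≠ s) (h3 : q ≠ r) (h4 : q ≠ s) :
    Equiv.Perm.Disjoint (swap p q) (swap r s) := fun w => by
  by_cases h5 : w = p
  · right
    subst h5
    exact swap_apply_of_ne_of_ne h1 h2
  by_cases h6 : w = q
  · right
    subst h6
    exact swap_apply_of_ne_of_ne h3 h4
  left
  exact swap_apply_of_ne_of_ne h5 h6

theorem swap_mul_swap_even {p q r s : Ω} (h1 : p ≠ q) (h2 : r ≠ s) :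
    swap p q * swap r s ∈ alternatingGroup Ω := by
  show sign _ = 1
  rw [map_mul, sign_swap h1, sign_swap h2]
  rfl

/-- The case of blocks of size two, at least five blocks. -/
theorem main_two {e : Ω ≃ Fin b × Fin 2} (he : ∀ x, (e x).1 = f x) (hb : 5 ≤ b)
    (K : Subgroup (Perm Ω)) (hK : W f ⊓ alternatingGroup Ω ≤ K)
    (hK2 : ¬ K ≤ W f) : alternatingGroup Ω ≤ K := by
  have hP := primitive he le_rfl (by omega) (Or.inr (by omega)) K hK hK2
  obtain ⟨g, hg, x, x', hxx, hne⟩ := exists_bad hK2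
  have hx' : x ≠ x' := by
    rintro rfl
    exact hne rfl
  let u := g x
  let v := g x'
  let ι : Ω → Ω := fun w => e.symm ((e w).1, swap 0 1 (e w).2)
  have hι : ∀ w, f (ι w) = f w := by
    intro w
    rw [← he (ι w), ← he w]
    simp [ι]
  have hι2 : ∀ w, ι w ≠ w := by
    intro w h
    have h1 : (e (ι w)).2 = (e w).2 := by rw [h]
    have h2 : (e (ι w)).2 = swap 0 1 (e w).2 := by simp [ι]
    rw [h2] at h1
    have key : ∀ i : Fin 2, swap 0 1 i ≠ i := by decide
    exact key _ h1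
  let u' := ι u
  obtain ⟨j, hj⟩ := exists_avoid (n := b) {f x, f (g⁻¹ u')} ((Finset.card_le_two).trans_lt (by omega))
  simp only [Finset.mem_insert, Finset.mem_singleton, not_or] at hj
  obtain ⟨y, y', hyy, hy, hy'⟩ := exists_two he (le_refl 2) j
  let c := g y
  let d := g y'
  have hinj := g.injective
  have hyx : y ≠ x := by
    rintro rfl
    exact hj.1 hy.symm
  have hy'x : y' ≠ x := by
    rintro rfl
    exact hj.1 hy'.symm
  have hyx' : y ≠ x' := by
    rintro rfl
    exact hj.1 (hy.symm.trans hxx.symm)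
  have hy'x' : y' ≠ x' := by
    rintro rfl
    exact hj.1 (hy'.symm.trans hxx.symm)
  have hyu : y ≠ g⁻¹ u' := by
    intro h
    exact hj.2 (by rw [← h, hy])
  have hy'u : y' ≠ g⁻¹ u' := by
    intro h
    exact hj.2 (by rw [← h, hy'])
  have hcu : c ≠ u := fun h => hyx (hinj h)
  have hcv : c ≠ v := fun h => hyx' (hinj h)
  have hdu : d ≠ u := fun h => hy'x (hinj h)
  have hdv : d ≠ v := fun h => hy'x' (hinj h)
  have hcu' : c ≠ u' := fun h => hyu (by
    show y = g⁻¹ u'
    rw [← h]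
    simp [c])
  have hdu' : d ≠ u' := fun h => hy'u (by
    show y' = g⁻¹ u'
    rw [← h]
    simp [d])
  have hcd : c ≠ d := fun h => hyy (hinj h)
  obtain ⟨j', hj'⟩ := exists_avoid (n := b) ({f u, f v, f c, f d} : Finset (Fin b))
    ((Finset.card_le_four).trans_lt (by omega))
  simp only [Finset.mem_insert, Finset.mem_singleton, not_or] at hj'
  obtain ⟨hj1, hj2, hj3, hj4⟩ := hj'
  obtain ⟨z, z', hzz, hz, hz'⟩ := exists_two he (le_refl 2) j'
  have hne2 : ∀ w, f w = j' → w ≠ u ∧ w ≠ v ∧ w ≠ u' ∧ w ≠ c ∧ w ≠ d := by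
    intro w hw
    refine ⟨?_, ?_, ?_, ?_, ?_⟩
    · rintro rfl
      exact hj1 hw.symm
    · rintro rfl
      exact hj2 hw.symm
    · intro h
      apply hj1
      rw [← hw, h]
      exact hι u
    · rintro rfl
      exact hj3 hw.symm
    · rintro rfl
      exact hj4 hw.symm
  obtain ⟨hz1, hz2, hz3, hz4, hz5⟩ := hne2 z hz
  obtain ⟨hz1', hz2', hz3', hz4', hz5'⟩ := hne2 z' hz'
  have hτ : swap x x' * swap y y' ∈ W f ⊓ alternatingGroup Ω :=
    ⟨(W f).mul_mem (swap_mem hxx) (swap_mem (hy.trans hy'.symm)), swap_mul_swap_even hx' hyy⟩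
  have hπ : g * (swap x x' * swap y y') * g⁻¹ = swap u v * swap c d := by
    show _ = swap (g x) (g x') * swap (g y) (g y')
    rw [swap_apply_apply, swap_apply_apply]
    group
  have hπK : swap u v * swap c d ∈ K := by
    rw [← hπ]
    exact K.mul_mem (K.mul_mem hg (hK hτ)) (K.inv_mem hg)
  have huu' : u ≠ u' := (hι2 u).symm
  have hρ : swap u u' * swap z z' ∈ W f ⊓ alternatingGroup Ω :=
    ⟨(W f).mul_mem (swap_mem (hι u).symm) (swap_mem (hz.trans hz'.symm)), swap_mul_swap_even huu' hzz⟩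
  have huv : u ≠ v := by
    rintro h
    exact hne (congrArg f h)
  have hvu' : v ≠ u' := by
    intro h
    apply hne
    show f u = f v
    rw [h]
    exact (hι u).symm
  have h3 := isThreeCycle_swap_mul_swap_same huv huu' hvu'
  have hd1 : Equiv.Perm.Disjoint (swap c d) (swap u u') :=
    dj hcu hcu' hdu hdu'
  have hd2 : Equiv.Perm.Disjoint (swap u v) (swap c d) :=
    dj hcu.symm hdu.symm hcv.symm hdv.symm
  have hd3 : Equiv.Perm.Disjoint (swap u v) (swap z z') :=
    dj hz1.symm hz1'.symm hz2.symm hz2'.symm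
  have hd4 : Equiv.Perm.Disjoint (swap u u') (swap z z') :=
    dj hz1.symm hz1'.symm hz3.symm hz3'.symm
  have hd5 : Equiv.Perm.Disjoint (swap c d) (swap z z') :=
    dj hz4.symm hz4'.symm hz5.symm hz5'.symm
  have hAB : Commute (swap u v * swap u u') (swap c d * swap z z') :=
    ((hd2.mul_right hd3).mul_left ((hd1.symm).mul_right hd4)).commute
  have hmul : swap u v * swap c d * (swap u u' * swap z z') =
      (swap u v * swap u u') * (swap c d * swap z z') := by
    calc swap u v * swap c d * (swap u u' * swap z z')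
        = swap u v * (swap c d * swap u u') * swap z z' := by simp only [mul_assoc]
      _ = swap u v * (swap u u' * swap c d) * swap z z' := by rw [hd1.commute.eq]
      _ = _ := by simp only [mul_assoc]
  have hB2 : (swap c d * swap z z') ^ 2 = 1 := by
    rw [hd5.commute.mul_pow, pow_two, pow_two, swap_mul_self, swap_mul_self, one_mul]
  have hsq : (swap u v * swap u u') ^ 2 ∈ K := by
    have h5 : (swap u v * swap c d * (swap u u' * swap z z')) ^ 2 ∈ K :=
      K.pow_mem (K.mul_mem hπK (hK hρ)) 2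
    rw [hmul, hAB.mul_pow, hB2, mul_one] at h5
    exact h5
  rw [pow_two] at hsq
  exact alternatingGroup_le_of_isPreprimitive_of_isThreeCycle_mem hP h3.isThreeCycle_sq hsq

theorem orbit_mul (G X : Type*) [Group G] [Finite G] [MulAction G X] (x : X) :
    Nat.card (orbit G x) * Nat.card (stabilizer G x) = Nat.card G := by
  rw [← Subgroup.index_mul_card (stabilizer G x), index_stabilizer, Nat.card_coe_set_eq]

theorem card_mul_of_trans (H : Subgroup (Perm Ω)) (hH : ∀ x y, ∃ g ∈ H, g x = y) (x : Ω) :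
    Nat.card Ω * Nat.card (stabilizer H x) = Nat.card H := by
  have h1 := orbit_mul H Ω x
  rwa [show orbit H x = Set.univ from ?_, Nat.card_congr (Equiv.Set.univ Ω)] at h1
  rw [Set.eq_univ_iff_forall]
  intro y
  obtain ⟨g, hg, h⟩ := hH x y
  exact ⟨⟨g, hg⟩, h⟩

theorem simple_dvd {G : Type*} [Group G] [Finite G] [IsSimpleGroup G] (K : Subgroup G) (hne : K ≠ ⊤) :
    Nat.card G ∣ K.index.factorial := by
  rcases IsSimpleGroup.eq_bot_or_eq_top_of_normal K.normalCore K.normalCore_normal with h4 | h4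
  · have h5 : K.normalCore.index ∣ K.index.factorial := by
      rw [Subgroup.normalCore_eq_ker, Subgroup.index_ker, Subgroup.index_eq_card, ← Nat.card_perm]
      exact Subgroup.card_subgroup_dvd_card (toPermHom G (G ⧸ K)).range
    rwa [h4, Subgroup.index_bot] at h5
  · exfalso
    apply hne
    rw [eq_top_iff, ← h4]
    exact K.normalCore_le

theorem card_alt_of {n : ℕ} (hn : Fintype.card Ω = n) (h2 : 2 ≤ n) :
    2 * Nat.card (alternatingGroup Ω) = n.factorial := by
  haveI : Nontrivial Ω := Fintype.one_lt_card_iff_nontrivial.mp (by omega)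
  rw [two_mul_nat_card_alternatingGroup, Nat.card_perm, Nat.card_eq_fintype_card, hn]

/-- Blocks of size two, two blocks: degree 4. -/
theorem main_four {f : Ω → Fin 2} {e : Ω ≃ Fin 2 × Fin 2} (he : ∀ x, (e x).1 = f x)
    (K : Subgroup (Perm Ω)) (hK : W f ⊓ alternatingGroup Ω ≤ K) (hKA : K ≤ alternatingGroup Ω)
    (hK2 : ¬ K ≤ W f) : alternatingGroup Ω ≤ K := by
  have hcard : Fintype.card Ω = 4 := by
    rw [Fintype.card_congr e]
    simp
  have hA := card_alt_of hcard (by omega)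
  have h1 : Nat.card (alternatingGroup Ω) = 12 := by
    have : Nat.factorial 4 = 24 := rfl
    omega
  let x₀ : Ω := e.symm (0, 0)
  have h2 := card_mul_of_trans (W f ⊓ alternatingGroup Ω) (O0 he le_rfl le_rfl) x₀
  rw [Nat.card_eq_fintype_card (α := Ω), hcard] at h2
  have h3 : Nat.card (W f ⊓ alternatingGroup Ω : Subgroup (Perm Ω)) ∣ Nat.card K := Subgroup.card_dvd_of_le hK
  have h4 : Nat.card K ∣ Nat.card (alternatingGroup Ω) := Subgroup.card_dvd_of_le hKA
  have h5 : Nat.card (W f ⊓ alternatingGroup Ω : Subgroup (Perm Ω)) ≠ Nat.card K := by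
    intro h
    have := Subgroup.eq_of_le_of_card_ge hK (le_of_eq h.symm)
    apply hK2
    rw [← this]
    exact inf_le_left
  obtain ⟨t, ht⟩ : 4 ∣ Nat.card (W f ⊓ alternatingGroup Ω : Subgroup (Perm Ω)) := ⟨_, h2.symm⟩
  obtain ⟨s, hs⟩ := h3
  rw [h1] at h4
  have h6 : Nat.card K ≤ 12 := Nat.le_of_dvd (by omega) h4
  have h7 : 0 < Nat.card K := Nat.card_pos
  have h8 : Nat.card K = 12 := by
    rw [ht] at hs h5
    rw [hs] at h4 h6 h7 h5 ⊢
    have ht0 : t ≠ 0 := by
      rintro rfl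
      simp at h7
    have hs0 : s ≠ 1 := by
      rintro rfl
      simp at h5
    have hs0' : s ≠ 0 := by
      rintro rfl
      simp at h7
    have : t * s ≤ 3 := by nlinarith
    have h9 : 4 * t * s ∣ 12 := h4
    have h10 : t * s ∣ 3 := by
      rw [mul_assoc] at h9
      exact Nat.dvd_of_mul_dvd_mul_left (by omega : 0 < 4) h9
    have h11 : t * s = 1 ∨ t * s = 3 := (Nat.dvd_prime Nat.prime_three).mp h10
    rcases h11 with h | h
    · have := Nat.eq_one_of_mul_eq_one_left h
      exact absurd this hs0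
    · rw [mul_assoc, h]
      rfl
  exact (Subgroup.eq_of_le_of_card_ge hKA (by rw [h1, h8])).ge

/-- Blocks of size two, three blocks: degree 6. -/
theorem main_six {f : Ω → Fin 3} {e : Ω ≃ Fin 3 × Fin 2} (he : ∀ x, (e x).1 = f x)
    (hf : ∀ i : Fin 3, Nat.card {x : Ω // f x = i} = 2)
    (K : Subgroup (Perm Ω)) (hK : W f ⊓ alternatingGroup Ω ≤ K) (hKA : K ≤ alternatingGroup Ω)
    (hK2 : ¬ K ≤ W f) : alternatingGroup Ω ≤ K := by
  have hcard : Fintype.card Ω = 6 := by
    rw [Fintype.card_congr e]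
    simp
  have hA := card_alt_of hcard (by omega)
  have h1 : Nat.card (alternatingGroup Ω) = 360 := by
    have : Nat.factorial 6 = 720 := rfl
    omega
  let x₀ : Ω := e.symm (0, 0)
  let z₀ : Ω := e.symm (1, 0)
  have hfx : f x₀ = 0 := by
    rw [← he]
    simp [x₀]
  have hfz : f z₀ = 1 := by
    rw [← he]
    simp [z₀]
  have hxz : f z₀ ≠ f x₀ := by
    rw [hfx, hfz]
    decide
  have h2 := card_mul_of_trans (W f ⊓ alternatingGroup Ω) (O0 he (by omega) (by omega)) x₀
  rw [Nat.card_eq_fintype_card (α := Ω), hcard] at h2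
  -- the stabilizer of a point
  let T := stabilizer (↥(W f ⊓ alternatingGroup Ω : Subgroup (Perm Ω))) x₀
  have h3 := orbit_mul T Ω z₀
  have h4 : orbit T z₀ = {w | f w ≠ f x₀} := by
    ext w
    constructor
    · rintro ⟨g, rfl⟩
      have hgx : (g.1.1 : Perm Ω) x₀ = x₀ := g.2
      intro h
      apply hxz
      have h5 := (mem_W.mp g.1.2.1 z₀ x₀).mpr (by
        rw [hgx]
        exact h)
      exact h5
    · intro hw
      obtain ⟨g, hg, h5, h6⟩ := O1 he (by omega) (by omega) (Or.inr (by omega)) x₀ z₀ w hxz hw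
      exact ⟨⟨⟨g, hg⟩, h5⟩, h6⟩
  have h5 : Nat.card (orbit T z₀) = 4 := by
    rw [h4]
    have h6 : Nat.card {w // f w ≠ f x₀} = 4 := by
      have h7 := Fintype.card_subtype_compl (fun w => f w = f x₀)
      rw [Nat.card_eq_fintype_card]
      have h8 := hf (f x₀)
      rw [Nat.card_eq_fintype_card] at h8
      rw [h7, h8, hcard]
    exact h6
  rw [h5] at h3
  have h6 : Nat.card (W f ⊓ alternatingGroup Ω : Subgroup (Perm Ω)) = 24 * Nat.card (stabilizer T z₀) := by
    rw [← h2]
    change 6 * Nat.card T = _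
    rw [← h3]
    ring
  have h7 : Nat.card (W f ⊓ alternatingGroup Ω : Subgroup (Perm Ω)) ∣ Nat.card K := Subgroup.card_dvd_of_le hK
  have h8 : Nat.card (W f ⊓ alternatingGroup Ω : Subgroup (Perm Ω)) ≠ Nat.card K := by
    intro h
    have := Subgroup.eq_of_le_of_card_ge hK (le_of_eq h.symm)
    apply hK2
    rw [← this]
    exact inf_le_left
  obtain ⟨s, hs⟩ := h7
  -- the simple group
  have hsimp : IsSimpleGroup (alternatingGroup Ω) :=
    alternatingGroup.isSimpleGroup (by rw [Nat.card_eq_fintype_card, hcard]; omega)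
  let K' : Subgroup (alternatingGroup Ω) := K.subgroupOf (alternatingGroup Ω)
  have h9 : Nat.card K' = Nat.card K := Nat.card_congr (Subgroup.subgroupOfEquivOfLe hKA).toEquiv
  have h10 := K'.index_mul_card
  rw [h9, h1] at h10
  by_cases htop : K' = ⊤
  · intro g hg
    have : (⟨g, hg⟩ : alternatingGroup Ω) ∈ K' := by
      rw [htop]
      trivial
    exact this
  exfalso
  have h11 := simple_dvd K' htop
  rw [h1] at h11
  set m := K'.index with hm
  set t := Nat.card (stabilizer T z₀) with ht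
  rw [hs, h6] at h10
  rw [h6] at hs h8
  rw [hs] at h8
  have ht0 : t ≠ 0 := by
    rw [ht]
    exact Nat.card_pos.ne'
  have hs1 : s ≠ 1 := by
    rintro rfl
    simp at h8
  have hs0 : s ≠ 0 := by
    rintro rfl
    simp at h10
  have h12 : m * (t * s) = 15 := by
    have : 24 * (m * (t * s)) = 24 * 15 :=
      calc 24 * (m * (t * s)) = m * (24 * t * s) := by ring
        _ = 360 := h10
        _ = 24 * 15 := by norm_num
    omega
  have h13 : 2 ≤ t * s := by
    have : 1 ≤ t := by omega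
    have : 2 ≤ s := by omega
    nlinarith
  have h14 : m ≤ 7 := by
    by_contra hcon
    push Not at hcon
    nlinarith
  generalize t * s = x at h12 h13
  interval_cases m
  · omega
  · revert h11; decide
  · revert h11; decide
  · revert h11; decide
  · revert h11; decide
  · revert h11; decide
  · omega
  · omega

/-- The core of the theorem. -/
theorem main {e : Ω ≃ Fin b × Fin a} (he : ∀ x, (e x).1 = f x) (hf : ∀ i : Fin b, Nat.card {x : Ω // f x = i} = a)
    (h8 : Fintype.card Ω ≠ 8) (ha : 2 ≤ a) (hb : 2 ≤ b)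
    (K : Subgroup (Perm Ω)) (hK : W f ⊓ alternatingGroup Ω ≤ K) (hKA : K ≤ alternatingGroup Ω)
    (hK2 : ¬ K ≤ W f) : alternatingGroup Ω ≤ K := by
  by_cases ha3 : 3 ≤ a
  · exact main_three he ha3 hb K hK hK2
  obtain rfl : a = 2 := by omega
  by_cases hb5 : 5 ≤ b
  · exact main_two he hb5 K hK hK2
  have hcard : Fintype.card Ω = b * 2 := by
    rw [Fintype.card_congr e]
    simp
  have h4 : b ≠ 4 := by
    rintro rfl
    exact h8 hcard
  have h23 : b = 2 ∨ b = 3 := by omega
  rcases h23 with rfl | rfl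
  · exact main_four he K hK hKA hK2
  · exact main_six he hf K hK hKA hK2

theorem result {Ω : Type*} [Fintype Ω] [DecidableEq Ω] (h8 : Fintype.card Ω ≠ 8) (a b : ℕ) (ha : 2 ≤ a) (hb : 2 ≤ b)
    (f : Ω → Fin b) (hf : ∀ i : Fin b, Nat.card {x : Ω // f x = i} = a) :
    IsCoatom ((Subgroup.closure {g : Equiv.Perm Ω | ∀ x y : Ω, f x = f y ↔ f (g x) = f (g y)} ⊓ alternatingGroup Ω).subgroupOf (alternatingGroup Ω)) := by
  obtain ⟨e, he⟩ := exists_coord hf
  have hcl : Subgroup.closure {g : Equiv.Perm Ω | ∀ x y : Ω, f x = f y ↔ f (g x) = f (g y)} = W f :=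
    Subgroup.closure_eq (W f)
  rw [hcl]
  constructor
  · intro htop
    let j₀ : Fin b := ⟨0, by omega⟩
    let j₁ : Fin b := ⟨1, by omega⟩
    obtain ⟨r, r', hrr, hr, hr'⟩ := exists_two he ha j₀
    obtain ⟨y, _, _, hy, _⟩ := exists_two he ha j₁
    have hne : f y ≠ f r := by
      rw [hy, hr]
      simp [j₀, j₁]
    have hyr : y ≠ r := by
      rintro rfl
      exact hne rfl
    have hyr' : y ≠ r' := by
      rintro rfl
      exact hne (hr'.trans hr.symm)
    have hc := (isThreeCycle_swap_mul_swap_same hrr hyr.symm hyr'.symm).mem_alternatingGroup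
    have : (⟨_, hc⟩ : alternatingGroup Ω) ∈ (W f ⊓ alternatingGroup Ω).subgroupOf (alternatingGroup Ω) := by
      rw [htop]
      trivial
    rw [Subgroup.mem_subgroupOf] at this
    have h1 := (mem_W.mp this.1 r r').mp (hr.trans hr'.symm)
    have h2 : (swap r r' * swap r y) r = y := by
      rw [Perm.mul_apply, swap_apply_left, swap_apply_of_ne_of_ne hyr hyr']
    have h3 : (swap r r' * swap r y) r' = r := by
      rw [Perm.mul_apply, swap_apply_of_ne_of_ne hrr.symm hyr'.symm, swap_apply_right]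
    simp only at h1
    rw [h2, h3] at h1
    exact hne h1
  · intro K' hK'
    let K := K'.map (alternatingGroup Ω).subtype
    have hKA : K ≤ alternatingGroup Ω := by
      rintro _ ⟨g, _, rfl⟩
      exact g.2
    have hK : W f ⊓ alternatingGroup Ω ≤ K := by
      intro p hp
      refine ⟨⟨p, hp.2⟩, hK'.le ?_, rfl⟩
      rw [Subgroup.mem_subgroupOf]
      exact hp
    have hK2 : ¬ K ≤ W f := by
      intro hle
      obtain ⟨g, hg, hgn⟩ := SetLike.exists_of_lt hK'
      apply hgn
      rw [Subgroup.mem_subgroupOf]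
      exact ⟨hle ⟨g, hg, rfl⟩, g.2⟩
    have h := main he hf h8 ha hb K hK hKA hK2
    rw [eq_top_iff]
    intro g _
    obtain ⟨g', hg', h1⟩ := h g.2
    have : g' = g := Subtype.ext h1
    rwa [← this]

end Cfsg.Agent.S5909
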