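import Cfsg.Statements.S5910
import Mathlib

set_option autoImplicit false
open Cfsg

namespace Cfsg.Agent.S5910

open Equiv Equiv.Perm MulAction
open scoped Pointwise

/-- The model set: four pairs. -/
abbrev X := Fin 4 × Bool

/-- Union of two pairs. -/
def vert (i j : Fin 4) : Finset X := {(i, false), (i, true), (j, false), (j, true)}

/-- A transversal of the pairs. -/
def trv (a b c d : Bool) : Finset X := {(0, a), (1, b), (2, c), (3, d)}

/-- The 14 planes of `AG(3,2)`: six unions of two pairs and eight even transversals. -/
def FF : Finset (Finset X) :=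
  {vert 0 1, vert 0 2, vert 0 3, vert 1 2, vert 1 3, vert 2 3,
   trv false false false false, trv false false true true, trv false true false true,
   trv false true true false, trv true false false true, trv true false true false,
   trv true true false false, trv true true true true}

/-- Permuting the pairs. -/
def shiftP (π : Perm (Fin 4)) : Perm X := Equiv.prodCongr π (Equiv.refl _)

/-- Flipping pairs. -/
def flipP (ε : Fin 4 → Bool) : Perm X where
  toFun x := (x.1, xor x.2 (ε x.1))
  invFun x := (x.1, xor x.2 (ε x.1))
  left_inv x := by simp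
  right_inv x := by simp

set_option maxRecDepth 100000 in
theorem d1 : ∀ π : Perm (Fin 4), shiftP π • FF = FF := by decide +kernel

set_option maxRecDepth 100000 in
theorem d2 : ∀ π : Perm (Fin 4), sign (shiftP π) = 1 := by decide +kernel

set_option maxRecDepth 100000 in
theorem d3 : ∀ ε : Fin 4 → Bool, sign (flipP ε) = 1 → flipP ε • FF = FF := by decide +kernel

/-- An even element of `AGL₃(2)` moving the pairs. -/
def g1 : Perm X := swap (0, true) (2, false) * swap (1, true) (3, false)

/-- A three-cycle. -/
def g2 : Perm X := swap (0, false) (0, true) * swap (0, true) (1, false)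

set_option maxRecDepth 100000 in
theorem d4 : g1 • FF = FF := by decide +kernel

set_option maxRecDepth 100000 in
theorem d5 : g2 • FF ≠ FF := by decide +kernel

set_option maxRecDepth 100000 in
theorem d6 : sign g1 = 1 := by decide +kernel

set_option maxRecDepth 100000 in
theorem d7 : sign g2 = 1 := by decide +kernel

set_option maxRecDepth 100000 in
theorem d8 : g1 (0, true) = (2, false) ∧ g1 (0, false) = (0, false) := by decide +kernel

/-- Partition preserving permutations of the model. -/
theorem exists_shift_flip (g : Perm X) (hg : ∀ x y : X, x.1 = y.1 ↔ (g x).1 = (g y).1) :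
    ∃ π ε, g = shiftP π * flipP ε := by
  have hinj : Function.Injective (fun i : Fin 4 => (g (i, false)).1) := by
    intro i j hij
    exact (hg (i, false) (j, false)).mpr hij
  let π : Perm (Fin 4) := Equiv.ofBijective _ (Finite.injective_iff_bijective.mp hinj)
  refine ⟨π, fun i => (g (i, false)).2, ?_⟩
  ext1 ⟨i, b⟩
  apply Prod.ext
  · have h1 : (g (i, b)).1 = (g (i, false)).1 := (hg (i, b) (i, false)).mp rfl
    rw [h1]
    rfl
  · have hne : (g (i, true)).2 ≠ (g (i, false)).2 := by
      intro h
      have h1 : (g (i, true)).1 = (g (i, false)).1 := (hg (i, true) (i, false)).mp rfl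
      have := g.injective (Prod.ext h1 h)
      simp at this
    cases b
    · change _ = xor false (g (i, false)).2
      simp
    · change _ = xor true (g (i, false)).2
      simp only [Bool.true_xor]
      revert hne
      cases (g (i, true)).2 <;> cases (g (i, false)).2 <;> simp

/-- Let Ω be a set with 8 elements and f : Ω → Fin 4 a labelling whose four fibres all have size 2 (a partition of the 8 points into 4 pairs). Then the group of even permutations preserving this partition, (S₂ ≀ S₄) ∩ A₈, is not a maximal subgroup of the alternating group A₈ (it lies in a subgroup isomorphic to the affine group AGL₃(2)). -/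
theorem result {Ω : Type*} [Fintype Ω] [DecidableEq Ω] (h8 : Fintype.card Ω = 8)
    (f : Ω → Fin 4) (hf : ∀ i : Fin 4, Nat.card {x : Ω // f x = i} = 2) :
    ¬ IsCoatom ((Subgroup.closure {g : Equiv.Perm Ω | ∀ x y : Ω, f x = f y ↔ f (g x) = f (g y)} ⊓ alternatingGroup Ω).subgroupOf (alternatingGroup Ω)) := by
  -- the identification with the model
  obtain ⟨e, he⟩ : ∃ e : Ω ≃ X, ∀ x, (e x).1 = f x := by
    have hb : ∀ i, Nonempty ({x // f x = i} ≃ Bool) := fun i =>
      Finite.card_eq.mp (by rw [hf i]; simp)
    let φ := fun i => (hb i).some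
    exact ⟨(Equiv.sigmaFiberEquiv f).symm.trans
      ((Equiv.sigmaCongrRight φ).trans (Equiv.sigmaEquivProd _ _)), fun x => rfl⟩
  -- the partition-preserving subgroup
  let S' : Subgroup (Perm Ω) :=
    { carrier := {g | ∀ x y : Ω, f x = f y ↔ f (g x) = f (g y)}
      mul_mem' := fun {a b} ha hb x y => (hb x y).trans (ha (b x) (b y))
      one_mem' := fun x y => Iff.rfl
      inv_mem' := fun {a} ha x y => by
        have := ha (a⁻¹ x) (a⁻¹ y)
        have h1 : ∀ z, a (a⁻¹ z) = z := fun z => by simp
        rw [h1, h1] at this
        exact this.symm }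
  have hclos : Subgroup.closure {g : Equiv.Perm Ω | ∀ x y : Ω, f x = f y ↔ f (g x) = f (g y)} ≤ S' :=
    (Subgroup.closure_le _).mpr (fun g hg => hg)
  -- the intermediate subgroup
  let K : Subgroup (Perm Ω) := (stabilizer (Perm X) FF).comap (e.permCongrHom.toMonoidHom)
  have hKmem : ∀ g : Perm Ω, g ∈ K ↔ e.permCongr g • FF = FF := fun g => Iff.rfl
  have hcongr : ∀ g : Perm X, e.permCongr (e.symm.permCongr g) = g := by
    intro g
    ext1 x
    simp [Equiv.permCongr_apply]
  have hHK : ∀ g : Perm Ω, g ∈ S' → g ∈ alternatingGroup Ω → g ∈ K := by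
    intro g hg hgA
    rw [mem_alternatingGroup] at hgA
    have hpres : ∀ x y : X, x.1 = y.1 ↔ ((e.permCongr g) x).1 = ((e.permCongr g) y).1 := by
      intro x y
      have := hg (e.symm x) (e.symm y)
      rw [← he, ← he, ← he, ← he] at this
      simpa [Equiv.permCongr_apply] using this
    obtain ⟨π, ε, hπε⟩ := exists_shift_flip _ hpres
    have hs : sign (e.permCongr g) = 1 := by rw [sign_permCongr]; exact hgA
    have hsε : sign (flipP ε) = 1 := by
      rw [hπε, map_mul, d2, one_mul] at hs
      exact hs
    rw [hKmem, hπε, mul_smul, d3 ε hsε, d1]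
  -- the witnesses
  have hg1 : e.symm.permCongr g1 ∈ K := by
    rw [hKmem, hcongr]; exact d4
  have hg1A : e.symm.permCongr g1 ∈ alternatingGroup Ω := by
    rw [mem_alternatingGroup, sign_permCongr]; exact d6
  have hg1S : e.symm.permCongr g1 ∉ S' := by
    intro h
    have h1 := (h (e.symm (0, true)) (e.symm (0, false))).mp (by
      rw [← he, ← he]; simp)
    rw [← he, ← he] at h1
    simp only [Equiv.permCongr_apply, Equiv.symm_symm, Equiv.apply_symm_apply, d8.1, d8.2] at h1
    exact absurd h1 (by decide)
  have hg2A : e.symm.permCongr g2 ∈ alternatingGroup Ω := by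
    rw [mem_alternatingGroup, sign_permCongr]; exact d7
  have hg2K : e.symm.permCongr g2 ∉ K := by
    rw [hKmem, hcongr]; exact d5
  intro hco
  have hlt : (Subgroup.closure {g : Equiv.Perm Ω | ∀ x y : Ω, f x = f y ↔ f (g x) = f (g y)} ⊓
      alternatingGroup Ω).subgroupOf (alternatingGroup Ω) < K.subgroupOf (alternatingGroup Ω) := by
    rw [SetLike.lt_iff_le_and_exists]
    refine ⟨?_, ⟨_, hg1A⟩, ?_, ?_⟩
    · intro x hx
      rw [Subgroup.mem_subgroupOf] at hx ⊢
      exact hHK _ (hclos hx.1) hx.2
    · rw [Subgroup.mem_subgroupOf]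
      exact hg1
    · rw [Subgroup.mem_subgroupOf]
      intro h
      exact hg1S (hclos h.1)
  have htop := hco.2 _ hlt
  have : (⟨_, hg2A⟩ : alternatingGroup Ω) ∈ K.subgroupOf (alternatingGroup Ω) := by
    rw [htop]; trivial
  rw [Subgroup.mem_subgroupOf] at this
  exact hg2K this

end Cfsg.Agent.S5910
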