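import Cfsg.Statements.S5912
import Cfsg.Agent.Lib.Perm.IndexSix
set_option autoImplicit false
open Cfsg

namespace Cfsg.Agent.S5912
open Equiv Equiv.Perm Cfsg.Agent.Lib.Perm.IndexN Cfsg.Agent.Lib.Perm.IndexSix

/-- The symmetric group on a 6-element set Ω has exactly two conjugacy classes of subgroups of index 6: there are two non-conjugate subgroups of index 6 (a point stabilizer and a transitive subgroup isomorphic to S₅), and every subgroup of index 6 is conjugate to one of them. -/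
theorem result {Ω : Type*} [Fintype Ω] [DecidableEq Ω] (h6 : Fintype.card Ω = 6) :
    ∃ H₁ H₂ : Subgroup (Equiv.Perm Ω), H₁.index = 6 ∧ H₂.index = 6 ∧
      (¬ ∃ g : Equiv.Perm Ω, Subgroup.map (MulAut.conj g).toMonoidHom H₁ = H₂) ∧
      ∀ H : Subgroup (Equiv.Perm Ω), H.index = 6 →
        ∃ g : Equiv.Perm Ω, Subgroup.map (MulAut.conj g).toMonoidHom H₁ = H ∨ Subgroup.map (MulAut.conj g).toMonoidHom H₂ = H := by
  obtain ⟨θ, hθ, hcl⟩ := classify h6
  obtain ⟨w₀⟩ : Nonempty Ω := Fintype.card_pos_iff.mp (by omega)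
  refine ⟨MulAction.stabilizer (Perm Ω) w₀, (MulAction.stabilizer (Perm Ω) w₀).comap θ.toMonoidHom,
    by rw [index_stabilizer_perm, h6], ?_, ?_, ?_⟩
  · rw [Subgroup.index_comap_of_surjective _ θ.surjective, index_stabilizer_perm, h6]
  · rintro ⟨g, hg⟩
    rw [map_conj_stab] at hg
    exact comap_stab_ne_stab h6 θ hθ w₀ (g w₀) hg.symm
  · intro H hH
    rcases hcl H hH with ⟨w, rfl⟩ | ⟨w, rfl⟩
    · exact ⟨swap w₀ w, Or.inl (by rw [map_conj_stab, swap_apply_left])⟩
    · refine ⟨θ.symm (swap w₀ w), Or.inr ?_⟩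
      rw [map_conj_comap_stab]
      simp

end Cfsg.Agent.S5912
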