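import Cfsg.Statements.S5913
import Mathlib
-- import your own Cfsg.Agent.* helpers here

set_option autoImplicit false
open Cfsg

namespace Cfsg.Agent.S5913

/-- Let S be a non-abelian simple group and n a natural number. Every normal subgroup N of the direct power S^n (functions Fin n → S) is a subproduct: there is a set T of coordinates such that N consists exactly of the elements whose coordinates outside T are trivial. In particular the minimal normal subgroups of S^n are its n factors. -/
theorem result {S : Type*} [Group S] [IsSimpleGroup S] (hS : ¬ IsMulCommutative S) (n : ℕ)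
    (N : Subgroup (Fin n → S)) [N.Normal] :
    ∃ T : Finset (Fin n), ∀ x : Fin n → S, x ∈ N ↔ ∀ i, i ∉ T → x i = 1 := by
  classical
  refine ⟨Finset.univ.filter (fun i => ∃ x ∈ N, x i ≠ 1), ?_⟩
  intro x
  constructor
  · intro hx i hi
    by_contra h
    exact hi (Finset.mem_filter.mpr ⟨Finset.mem_univ _, x, hx, h⟩)
  · intro hx
    suffices hs : ∀ s : Finset (Fin n), (fun i => if i ∈ s then x i else 1) ∈ N by
      have := hs Finset.univ
      simpa using this
    intro s
    induction s using Finset.induction_on with
    | empty =>
      have : (fun i : Fin n => if i ∈ (∅ : Finset (Fin n)) then x i else 1) = 1 := by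
        funext i; simp
      rw [this]
      exact Subgroup.one_mem _
    | insert i s his ih =>
    have hdecomp : (fun j => if j ∈ insert i s then x j else 1) =
        (fun j => if j ∈ s then x j else 1) * Pi.mulSingle i (x i) := by
      funext j
      by_cases hj : j = i
      · subst hj
        simp [his]
      · simp [hj, Pi.mulSingle_eq_of_ne hj]
    rw [hdecomp]
    apply Subgroup.mul_mem _ ih
    by_cases hi : ∃ y ∈ N, y i ≠ 1
    · obtain ⟨y, hyN, hy⟩ := hi
      -- center of S is trivial
      have hcenter : Subgroup.center S = ⊥ := by
        rcases IsSimpleGroup.eq_bot_or_eq_top_of_normal (Subgroup.center S) inferInstance with h | h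
        · exact h
        · exfalso
          apply hS
          refine ⟨⟨?_⟩⟩
          intro a b
          have : b ∈ Subgroup.center S := by rw [h]; trivial
          exact (Subgroup.mem_center_iff.mp this) a
      have hnc : y i ∉ Subgroup.center S := by
        rw [hcenter, Subgroup.mem_bot]
        exact hy
      rw [Subgroup.mem_center_iff] at hnc
      push Not at hnc
      obtain ⟨a, ha⟩ := hnc
      set K : Subgroup S := N.comap (MonoidHom.mulSingle (fun _ : Fin n => S) i) with hK
      have hKn : K.Normal := by
        refine ⟨fun s hs g => ?_⟩
        rw [hK, Subgroup.mem_comap] at hs ⊢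
        have h1 := Subgroup.Normal.conj_mem (inferInstance : N.Normal) _ hs (Pi.mulSingle i g)
        have h2 : MonoidHom.mulSingle (fun _ : Fin n => S) i (g * s * g⁻¹) =
            Pi.mulSingle i g * MonoidHom.mulSingle (fun _ : Fin n => S) i s * (Pi.mulSingle i g)⁻¹ := by
          simp [Pi.mulSingle_mul, Pi.mulSingle_inv]
        rw [h2]
        exact h1
      have hKne : K ≠ ⊥ := by
        intro hbot
        apply ha
        set c : S := a * y i * a⁻¹ * (y i)⁻¹ with hc
        have hmem : MonoidHom.mulSingle (fun _ : Fin n => S) i c ∈ N := by
          have h1 := Subgroup.Normal.conj_mem (inferInstance : N.Normal) _ hyN (Pi.mulSingle i a)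
          have h2 := Subgroup.mul_mem _ h1 (Subgroup.inv_mem _ hyN)
          have h3 : MonoidHom.mulSingle (fun _ : Fin n => S) i c = Pi.mulSingle i a * y * (Pi.mulSingle i a)⁻¹ * y⁻¹ := by
            funext j
            by_cases hj : j = i
            · subst hj
              simp [hc]
            · simp [Pi.mulSingle_eq_of_ne hj]
          rw [h3]
          exact h2
        have hc1 : c ∈ K := hmem
        rw [hbot, Subgroup.mem_bot] at hc1
        have h4 : a * y i * a⁻¹ = y i := by
          have := mul_inv_eq_one.mp hc1
          exact this
        calc a * y i = a * y i * a⁻¹ * a := by group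
          _ = y i * a := by rw [h4]
      have hKtop : K = ⊤ := (IsSimpleGroup.eq_bot_or_eq_top_of_normal K hKn).resolve_left hKne
      have : x i ∈ K := by rw [hKtop]; trivial
      exact this
    · have hxi : x i = 1 := by
        apply hx
        intro hmem
        exact hi (Finset.mem_filter.mp hmem).2
      rw [hxi, Pi.mulSingle_one]
      exact Subgroup.one_mem _

end Cfsg.Agent.S5913
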