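import Mathlib
import Cfsg.Agent.S5913

set_option autoImplicit false

namespace Cfsg.Agent.S5914

open Subgroup

section Forward

variable {G : Type*} [Group G] [Finite G]

/-- One step of the construction of the direct power. -/
theorem exists_extend (N : Subgroup G) (hNn : N.Normal) (hNne : N ≠ ⊥)
    (hmin : ∀ M : Subgroup G, M.Normal → M ≠ ⊥ → Nat.card N ≤ Nat.card M)
    (hch : ∀ H : Subgroup G, H.Characteristic → H = ⊥ ∨ H = ⊤)
    {k : ℕ} (φ : (Fin k → N) →* G) (hφ : Function.Injective φ) (hn : φ.range.Normal)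
    (hne : φ.range ≠ ⊤) :
    ∃ φ' : (Fin (k + 1) → N) →* G, Function.Injective φ' ∧ φ'.range.Normal ∧ φ.range < φ'.range := by
  -- the characteristic closure of `N`
  have hM : (⨆ σ : MulAut G, N.map σ.toMonoidHom) = ⊤ := by
    refine (hch _ ?_).resolve_left ?_
    · rw [characteristic_iff_le_comap]
      intro ϕ
      refine iSup_le fun σ => ?_
      rintro _ ⟨n, hn, rfl⟩
      rw [Subgroup.mem_comap]
      refine (le_iSup (fun τ : MulAut G => N.map τ.toMonoidHom) (σ.trans ϕ)) ?_
      exact ⟨n, hn, rfl⟩
    · intro hbot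
      apply hNne
      rw [eq_bot_iff, ← hbot]
      refine le_trans ?_ (le_iSup (fun τ : MulAut G => N.map τ.toMonoidHom) (MulEquiv.refl G))
      intro n hn
      exact ⟨n, hn, rfl⟩
  obtain ⟨σ, hσ⟩ : ∃ σ : MulAut G, ¬ N.map σ.toMonoidHom ≤ φ.range := by
    by_contra hcon
    push Not at hcon
    apply hne
    rw [eq_top_iff, ← hM]
    exact iSup_le hcon
  -- the new factor
  set N' : Subgroup G := N.map σ.toMonoidHom with hN'
  have hN'n : N'.Normal := hNn.map _ σ.surjective
  have hcard : Nat.card N' = Nat.card N :=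
    Nat.card_congr (N.equivMapOfInjective σ.toMonoidHom σ.injective).toEquiv.symm
  have hdisj : φ.range ⊓ N' = ⊥ := by
    by_contra hbot
    have h1 := hmin _ (by haveI := hn; haveI := hN'n; exact Subgroup.normal_inf_normal _ _) hbot
    rw [← hcard] at h1
    have h2 := Subgroup.eq_of_le_of_card_ge (inf_le_right : φ.range ⊓ N' ≤ N') h1
    exact hσ (h2 ▸ inf_le_left)
  have hcomm : ∀ (a : Fin k → N) (b : N), Commute (φ a) (σ (b : G)) := by
    intro a b
    exact Subgroup.commute_of_normal_of_disjoint _ _ hn hN'n (disjoint_iff.mpr hdisj) _ _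
      ⟨a, rfl⟩ ⟨b, b.2, rfl⟩
  let φ' : (Fin (k + 1) → N) →* G := MonoidHom.mk' (fun x => φ (Fin.tail x) * σ ((x 0 : N) : G))
    (fun x y => by
      have e1 : Fin.tail (x * y) = Fin.tail x * Fin.tail y := rfl
      have e2 : ((x * y) 0 : N) = x 0 * y 0 := rfl
      rw [e1, e2, map_mul, Subgroup.coe_mul, map_mul]
      have := (hcomm (Fin.tail y) (x 0)).eq
      simp only [mul_assoc]
      rw [← mul_assoc (φ (Fin.tail y)), this, mul_assoc])
  have hφ'apply : ∀ x, φ' x = φ (Fin.tail x) * σ ((x 0 : N) : G) := fun x => rfl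
  have hrange : φ'.range = φ.range ⊔ N' := by
    apply le_antisymm
    · rintro _ ⟨x, rfl⟩
      rw [hφ'apply]
      exact mul_mem (mem_sup_left ⟨_, rfl⟩) (mem_sup_right ⟨_, (x 0).2, rfl⟩)
    · refine sup_le ?_ ?_
      · rintro _ ⟨a, rfl⟩
        refine ⟨Fin.cons 1 a, ?_⟩
        rw [hφ'apply]
        simp [Fin.tail_cons]
      · rintro _ ⟨n, hn, rfl⟩
        refine ⟨Fin.cons ⟨n, hn⟩ 1, ?_⟩
        rw [hφ'apply]
        simp [Fin.tail_cons]
  refine ⟨φ', ?_, ?_, ?_⟩
  · rw [injective_iff_map_eq_one]
    intro x hx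
    rw [hφ'apply] at hx
    have h1 : φ (Fin.tail x) = (σ ((x 0 : N) : G))⁻¹ := eq_inv_of_mul_eq_one_left hx
    have h2 : φ (Fin.tail x) ∈ φ.range ⊓ N' := by
      refine ⟨⟨_, rfl⟩, ?_⟩
      rw [h1]
      exact N'.inv_mem ⟨_, (x 0).2, rfl⟩
    rw [hdisj, Subgroup.mem_bot] at h2
    have h3 : Fin.tail x = 1 := hφ (h2.trans (map_one φ).symm)
    have h4 : σ ((x 0 : N) : G) = 1 := by
      rw [h2, one_mul] at hx
      exact hx
    have h5 : x 0 = 1 := by
      apply Subtype.ext
      have := (map_eq_one_iff _ σ.injective).mp h4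
      simpa using this
    rw [← Fin.cons_self_tail x, h3, h5]
    funext i
    refine Fin.cases ?_ (fun j => ?_) i <;> simp
  · rw [hrange]
    exact Subgroup.sup_normal _ _
  · rw [hrange]
    refine lt_of_le_of_ne le_sup_left ?_
    intro he
    apply hσ
    rw [he]
    exact le_sup_right

/-- The direct power decomposition. -/
theorem exists_power (N : Subgroup G) (hNn : N.Normal) (hNne : N ≠ ⊥)
    (hmin : ∀ M : Subgroup G, M.Normal → M ≠ ⊥ → Nat.card N ≤ Nat.card M)
    (hch : ∀ H : Subgroup G, H.Characteristic → H = ⊥ ∨ H = ⊤) :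
    ∃ (k : ℕ) (φ : (Fin k → N) →* G), Function.Injective φ ∧ Function.Surjective φ := by
  let 𝒮 : Set (Subgroup G) := {K | K.Normal ∧ ∃ (k : ℕ) (φ : (Fin k → N) →* G),
    Function.Injective φ ∧ φ.range = K}
  have hfin : 𝒮.Finite := Set.toFinite _
  have hne : 𝒮.Nonempty := by
    refine ⟨⊥, inferInstance, 0, 1, ?_, ?_⟩
    · intro a b _
      exact Subsingleton.elim _ _
    · exact MonoidHom.range_one
  obtain ⟨K, hK⟩ := hfin.exists_maximal hne
  obtain ⟨hKn, k, φ, hφ, rfl⟩ := hK.1
  by_cases htop : φ.range = ⊤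
  · exact ⟨k, φ, hφ, MonoidHom.range_eq_top.mp htop⟩
  · exfalso
    obtain ⟨φ', h1, h2, h3⟩ := exists_extend N hNn hNne hmin hch φ hφ hKn htop
    exact hK.not_gt ⟨h2, k + 1, φ', h1, rfl⟩ h3

/-- Minimal normal subgroups are simple in the direct power. -/
theorem isSimple_of_power (N : Subgroup G) (hNne : N ≠ ⊥)
    (hmin : ∀ M : Subgroup G, M.Normal → M ≠ ⊥ → Nat.card N ≤ Nat.card M)
    {k : ℕ} (hk : 1 ≤ k) (φ : (Fin k → N) →* G) (hφ : Function.Injective φ)
    (hφs : Function.Surjective φ) : IsSimpleGroup N := by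
  classical
  haveI : Nontrivial N := (Subgroup.nontrivial_iff_ne_bot N).mpr hNne
  refine ⟨fun L hL => ?_⟩
  by_cases hbot : L = ⊥
  · exact Or.inl hbot
  right
  let i₀ : Fin k := ⟨0, hk⟩
  let ι : N →* (Fin k → N) := MonoidHom.mulSingle (fun _ => N) i₀
  have hιinj : Function.Injective ι := fun a b h => by
    have := congrFun h i₀
    simpa [ι] using this
  have hn1 : (L.map ι).Normal := by
    constructor
    rintro _ ⟨l, hl, rfl⟩ x
    refine ⟨x i₀ * l * (x i₀)⁻¹, hL.conj_mem l hl (x i₀), ?_⟩
    funext j
    by_cases hj : j = i₀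
    · subst hj
      simp [ι]
    · simp [ι, Pi.mulSingle_eq_of_ne hj]
  have hn2 : ((L.map ι).map φ).Normal := hn1.map _ hφs
  have hne2 : (L.map ι).map φ ≠ ⊥ := by
    intro h
    rw [Subgroup.map_eq_bot_iff_of_injective _ hφ, Subgroup.map_eq_bot_iff_of_injective _ hιinj] at h
    exact hbot h
  have hcard : Nat.card ((L.map ι).map φ) = Nat.card L := by
    rw [← Nat.card_congr ((L.map ι).equivMapOfInjective φ hφ).toEquiv]
    exact Nat.card_congr (L.equivMapOfInjective ι hιinj).toEquiv.symm
  have h1 := hmin _ hn2 hne2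
  rw [hcard] at h1
  apply Subgroup.eq_top_of_card_eq
  exact le_antisymm (Subgroup.card_le_card_group L) h1

end Forward

section Backward

variable {S : Type*} [Group S] [IsSimpleGroup S] {n : ℕ}

/-- Products over a subset of coordinates. -/
theorem mem_of_mulSingle [DecidableEq (Fin n)] (H : Subgroup (Fin n → S)) (y : Fin n → S)
    (s : Finset (Fin n)) (h : ∀ j ∈ s, Pi.mulSingle j (y j) ∈ H) :
    (fun i => if i ∈ s then y i else 1) ∈ H := by
  induction s using Finset.induction_on with
  | empty =>
    have : (fun i => if i ∈ (∅ : Finset (Fin n)) then y i else 1) = 1 := by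
      funext i; simp
    rw [this]
    exact one_mem _
  | insert a s ha ih =>
    have e : (fun i => if i ∈ insert a s then y i else 1) =
        (fun i => if i ∈ s then y i else 1) * Pi.mulSingle a (y a) := by
      funext i
      by_cases hi : i = a
      · subst hi
        simp [ha]
      · simp [hi, Pi.mulSingle_eq_of_ne hi]
    rw [e]
    exact mul_mem (ih fun j hj => h j (Finset.mem_insert_of_mem hj)) (h a (Finset.mem_insert_self _ _))

/-- Characteristic subgroups of a power of a simple group. -/
theorem char_power (H : Subgroup (Fin n → S)) (hH : ∀ φ : (Fin n → S) ≃* (Fin n → S), ∀ x ∈ H, φ x ∈ H) :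
    H = ⊥ ∨ H = ⊤ := by
  classical
  by_cases hbot : H = ⊥
  · exact Or.inl hbot
  right
  obtain ⟨⟨x, hxH⟩, hx1'⟩ := Subgroup.ne_bot_iff_exists_ne_one.mp hbot
  have hx1 : x ≠ 1 := fun e => hx1' (Subtype.ext e)
  obtain ⟨i, hi⟩ : ∃ i, x i ≠ 1 := by
    by_contra hcon
    push Not at hcon
    exact hx1 (funext hcon)
  haveI hHn : H.Normal := by
    constructor
    intro z hz g
    exact hH (MulAut.conj g) z hz
  by_cases hS : IsMulCommutative S
  · -- abelian case
    have hcomm : ∀ a b : S, a * b = b * a := hS.is_comm.comm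
    -- the coordinate subgroup
    have hcoord : ∀ j, (∃ s : S, s ≠ 1 ∧ Pi.mulSingle j s ∈ H) → ∀ s : S, Pi.mulSingle j s ∈ H := by
      rintro j ⟨s₀, hs₀, hs₀H⟩ s
      have hn : (H.comap (MonoidHom.mulSingle (fun _ => S) j)).Normal := by
        constructor
        intro z hz g
        rw [Subgroup.mem_comap] at hz ⊢
        rw [hcomm g z]
        simpa using hz
      rcases IsSimpleGroup.eq_bot_or_eq_top_of_normal _ hn with h0 | h0
      · exfalso
        apply hs₀
        have : s₀ ∈ H.comap (MonoidHom.mulSingle (fun _ => S) j) := hs₀H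
        rw [h0] at this
        exact this
      · have : s ∈ H.comap (MonoidHom.mulSingle (fun _ => S) j) := by rw [h0]; trivial
        exact this
    -- transvections
    have htrans : ∀ j, j ≠ i → ∀ s : S, Pi.mulSingle j s ∈ H := by
      intro j hj
      refine hcoord j ⟨x i, hi, ?_⟩
      let φ : (Fin n → S) ≃* (Fin n → S) :=
        { toFun := fun y => y * Pi.mulSingle j (y i)
          invFun := fun y => y * Pi.mulSingle j (y i)⁻¹
          left_inv := fun y => by
            funext k
            by_cases hk : k = j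
            · subst hk
              simp [Pi.mulSingle_eq_of_ne hj.symm, hj]
            · simp [Pi.mulSingle_eq_of_ne hk, Pi.mulSingle_eq_of_ne hj.symm]
          right_inv := fun y => by
            funext k
            by_cases hk : k = j
            · subst hk
              simp [Pi.mulSingle_eq_of_ne hj.symm, hj]
            · simp [Pi.mulSingle_eq_of_ne hk, Pi.mulSingle_eq_of_ne hj.symm]
          map_mul' := fun y z => by
            funext k
            by_cases hk : k = j
            · subst hk
              simp only [Pi.mul_apply, Pi.mulSingle_eq_same]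
              calc y k * z k * (y i * z i) = y k * (z k * y i) * z i := by group
                _ = y k * (y i * z k) * z i := by rw [hcomm (z k) (y i)]
                _ = _ := by group
            · simp [Pi.mulSingle_eq_of_ne hk] }
      have h1 : φ x = x * Pi.mulSingle j (x i) := rfl
      have h2 := hH φ x hxH
      rw [h1] at h2
      have h3 := H.mul_mem (H.inv_mem hxH) h2
      simpa using h3
    -- the remaining coordinate
    have hiH : ∀ s : S, Pi.mulSingle i s ∈ H := by
      refine hcoord i ⟨x i, hi, ?_⟩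
      have h1 := mem_of_mulSingle H x (Finset.univ.erase i) (fun j hj =>
        htrans j (Finset.ne_of_mem_erase hj) _)
      have e : Pi.mulSingle i (x i) = (fun k => if k ∈ Finset.univ.erase i then x k else 1)⁻¹ * x := by
        funext k
        by_cases hk : k = i
        · subst hk
          simp
        · simp [hk, Pi.mulSingle_eq_of_ne hk]
      rw [e]
      exact mul_mem (inv_mem h1) hxH
    rw [eq_top_iff]
    intro y _
    have h1 := mem_of_mulSingle H y Finset.univ (fun j _ => by
      by_cases hj : j = i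
      · subst hj; exact hiH _
      · exact htrans j hj _)
    simpa using h1
  · -- nonabelian case
    obtain ⟨T, hT⟩ := Cfsg.Agent.S5913.result hS n H
    have hiT : i ∈ T := by
      by_contra hc
      exact hi ((hT x).mp hxH i hc)
    have hTuniv : ∀ j, j ∈ T := by
      intro j
      by_contra hj
      have hne : ∃ s : S, s ≠ 1 := exists_ne 1
      obtain ⟨s, hs⟩ := hne
      have hy : Pi.mulSingle i s ∈ H := by
        rw [hT]
        intro k hk
        have : k ≠ i := fun h => hk (h ▸ hiT)
        simp [Pi.mulSingle_eq_of_ne this]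
      let φ : (Fin n → S) ≃* (Fin n → S) :=
        { toFun := fun y k => y (Equiv.swap i j k)
          invFun := fun y k => y (Equiv.swap i j k)
          left_inv := fun y => by funext k; simp
          right_inv := fun y => by funext k; simp
          map_mul' := fun y z => rfl }
      have h1 := hH φ _ hy
      rw [hT] at h1
      have h2 : (Pi.mulSingle i s : Fin n → S) (Equiv.swap i j j) = 1 := h1 j hj
      simp at h2
      exact hs h2
    rw [eq_top_iff]
    intro y _
    rw [hT]
    intro j hj
    exact absurd (hTuniv j) hj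

end Backward

/-- A copy of `Fin m`, with no algebraic structure. -/
def Copy (m : ℕ) : Type := Fin m

/-- A non-trivial finite group G is characteristically simple (its only characteristic subgroups are 1 and G) if and only if G is isomorphic to a direct power S^n (n ≥ 1) of some simple group S (possibly cyclic of prime order). -/
theorem result {G : Type*} [Group G] [Finite G] [Nontrivial G] :
    (∀ H : Subgroup G, H.Characteristic → H = ⊥ ∨ H = ⊤) ↔
    ∃ (S : Type) (_ : Group S) (_ : IsSimpleGroup S) (n : ℕ), 1 ≤ n ∧ Nonempty (G ≃* (Fin n → S)) := by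
  constructor
  · intro hch
    -- a normal subgroup of minimal order
    obtain ⟨N, ⟨hNn, hNne⟩, hmin⟩ := Set.exists_min_image
      {M : Subgroup G | M.Normal ∧ M ≠ ⊥} (fun M => Nat.card M) (Set.toFinite _)
      ⟨⊤, inferInstance, top_ne_bot⟩
    obtain ⟨k, φ, hφ, hφs⟩ := exists_power N hNn hNne (fun M hM hM' => hmin M ⟨hM, hM'⟩) hch
    have hk : 1 ≤ k := by
      rcases Nat.eq_zero_or_pos k with rfl | h
      · exfalso
        obtain ⟨a, b, hab⟩ := exists_pair_ne G
        obtain ⟨x, rfl⟩ := hφs a
        obtain ⟨y, rfl⟩ := hφs b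
        exact hab (congrArg φ (Subsingleton.elim x y))
      · exact h
    have hsimple := isSimple_of_power N hNne (fun M hM hM' => hmin M ⟨hM, hM'⟩) hk φ hφ hφs
    -- transfer to `Type`
    let e : Copy (Nat.card N) ≃ N := (Finite.equivFin N).symm
    letI grp : Group (Copy (Nat.card N)) := e.group
    let em : Copy (Nat.card N) ≃* N :=
      { e with
        map_mul' := fun a b => by
          change e (e.symm (e a * e b)) = e a * e b
          simp }
    haveI : IsSimpleGroup (Copy (Nat.card N)) := em.isSimpleGroup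
    refine ⟨Copy (Nat.card N), grp, this, k, hk, ⟨?_⟩⟩
    exact (MulEquiv.ofBijective φ ⟨hφ, hφs⟩).symm.trans (MulEquiv.piCongrRight fun _ => em.symm)
  · rintro ⟨S, _, _, n, -, ⟨e⟩⟩ H hH
    have hchar : ∀ φ : (Fin n → S) ≃* (Fin n → S), ∀ x ∈ H.map e.toMonoidHom,
        φ x ∈ H.map e.toMonoidHom := by
      rintro φ _ ⟨h, hh, rfl⟩
      let ψ : G ≃* G := e.trans (φ.trans e.symm)
      have h1 : h ∈ H.comap ψ.toMonoidHom := by
        rw [hH.fixed ψ]
        exact hh
      refine ⟨ψ h, h1, ?_⟩
      simp [ψ]
    rcases char_power _ hchar with h | h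
    · left
      exact (Subgroup.map_eq_bot_iff_of_injective _ e.injective).mp h
    · right
      apply Subgroup.map_injective (f := e.toMonoidHom) e.injective
      rw [h, Subgroup.map_top_of_surjective _ e.surjective]

end Cfsg.Agent.S5914
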