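import Cfsg.Statements.S5939
import Cfsg.Agent.S0804
import Cfsg.Agent.Lib.PSL2.PolyMax

set_option autoImplicit false
open Cfsg

namespace Cfsg.Agent.S5939

section Aux

open scoped MatrixGroups
open Cfsg.Agent.Lib.PSL2.Basic Cfsg.Agent.Lib.PSL2.PolyMax Cfsg.Agent.Lib.PSL2.DicksonCor

/-- The common part. -/
lemma core {F : Type*} [Field F] [Fintype F] (p : ℕ) [hpp : Fact p.Prime] [CharP F p] {q : ℕ}
    (hF : Fintype.card F = q) (hq5 : q % 5 = 1 ∨ q % 5 = 4) (hq9 : 9 ≤ q) (hodd : q % 2 = 1)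
    (hK : ∀ (K₀ : Type) (_ : Field K₀) (_ : Fintype K₀) (m : ℕ), Fintype.card K₀ ^ m = q →
      Fintype.card K₀ = q ∨ ¬ 5 ∣ Fintype.card K₀ * (Fintype.card K₀ ^ 2 - 1)) :
    ∃ H : Subgroup PSL(2, F), IsCoatom H ∧ Nonempty (H ≃* alternatingGroup (Fin 5)) := by
  have h2 := two_ne_zero_of_card_odd hF hodd
  have hsq : 5 ∣ q * (q ^ 2 - 1) := by
    apply Dvd.dvd.mul_left
    have h3 : q ^ 2 % 5 = 1 := by
      rw [Nat.pow_mod]
      rcases hq5 with h | h <;> rw [h]
    have h4 : q ^ 2 ≥ 1 := Nat.one_le_pow _ _ (by omega)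
    omega
  obtain ⟨H, ⟨e⟩⟩ := (Cfsg.Agent.S0804.result hF).2 hsq
  have hH : Nat.card H = 60 := by rw [Nat.card_congr e.toEquiv, card_alt5]
  refine ⟨H, isCoatom_of p h2 (HasW.of_equiv e hasW_alt5) ?_ ?_ ?_ ?_ ?_, ⟨e⟩⟩
  · intro htop
    have h3 : 360 ≤ Nat.card PSL(2, F) := by
      apply card_PSL2_ge hF hodd
      have h4 : 80 ≤ q ^ 2 - 1 := by
        have : 9 ^ 2 ≤ q ^ 2 := Nat.pow_le_pow_left hq9 2
        omega
      calc 2 * 360 = 9 * 80 := by norm_num
        _ ≤ q * (q ^ 2 - 1) := Nat.mul_le_mul hq9 h4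
    rw [htop, Subgroup.card_top] at hH
    omega
  · rintro K hlt ⟨e'⟩
    obtain ⟨-, h4⟩ := card_eq_of_lt_equiv hlt
    rw [hH, Nat.card_congr e'.toEquiv, card_alt4] at h4
    omega
  · rintro K hlt ⟨e'⟩
    obtain ⟨-, h4⟩ := card_eq_of_lt_equiv hlt
    rw [hH, Nat.card_congr e'.toEquiv, card_perm4] at h4
    omega
  · rintro K hlt ⟨e'⟩
    obtain ⟨-, h4⟩ := card_eq_of_lt_equiv hlt
    rw [hH, Nat.card_congr e'.toEquiv, card_alt5] at h4
    omega
  · rintro K hlt K₀ fK₀ tK₀ m hm h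
    rcases hK K₀ fK₀ tK₀ m (by rw [hm, hF]) with h3 | h3
    · exact eq_top_of_card_eq (by rw [h3, hF]) h
    · exfalso
      apply h3
      have h4 := card_dvd_of_equiv h
      have h5 : 60 ∣ Nat.card K := by
        rw [← hH]
        exact Subgroup.card_dvd_of_le hlt.le
      exact Dvd.dvd.trans (Dvd.dvd.trans (by norm_num) h5) h4

theorem main_aux {F : Type*} [Field F] [Fintype F] (p : ℕ) [hpp : Fact p.Prime] [CharP F p]
    (h : (Fintype.card F = p ∧ (p % 10 = 1 ∨ p % 10 = 9)) ∨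
      (Fintype.card F = p ^ 2 ∧ (p % 10 = 3 ∨ p % 10 = 7))) :
    ∃ H : Subgroup PSL(2, F), IsCoatom H ∧ Nonempty (H ≃* alternatingGroup (Fin 5)) := by
  have hpr := hpp.out
  rcases h with ⟨hF, hp⟩ | ⟨hF, hp⟩
  · refine core p hF (by omega) ?_ (by omega) ?_
    · have h1 := hpr.two_le
      have h3 : p ≠ 1 := hpr.one_lt.ne'
      omega
    · intro K₀ _ _ m hm
      obtain ⟨h1, -⟩ := (Nat.Prime.pow_eq_iff hpr).1 hm
      exact Or.inl h1
  · have hp5 : p % 5 = 2 ∨ p % 5 = 3 := by omega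
    have hq : p ^ 2 % 5 = 4 := by
      rw [Nat.pow_mod]
      rcases hp5 with h | h <;> rw [h]
    refine core p hF (Or.inr hq) ?_ ?_ ?_
    · have : 3 ≤ p := by omega
      have h9 : 3 ^ 2 ≤ p ^ 2 := Nat.pow_le_pow_left this 2
      omega
    · rw [Nat.pow_mod]
      have : p % 2 = 1 := by omega
      rw [this]
    · intro K₀ _ _ m hm
      have hx : Fintype.card K₀ ∣ p ^ 2 := by
        rw [← hm]
        apply dvd_pow_self
        rintro rfl
        rw [pow_zero] at hm
        have h1 := hpr.two_le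
        nlinarith
      obtain ⟨a, ha, hax⟩ := (Nat.dvd_prime_pow hpr).1 hx
      have hK2 := card_ge_two K₀
      have ha' : a = 1 ∨ a = 2 := by
        interval_cases a
        · simp at hax
          omega
        · exact Or.inl rfl
        · exact Or.inr rfl
      rcases ha' with rfl | rfl
      · right
        rw [hax, pow_one]
        intro h5
        rcases (Nat.Prime.dvd_mul (by norm_num : Nat.Prime 5)).1 h5 with h7 | h7
        · omega
        · have h9 : p ^ 2 ≥ 1 := Nat.one_le_pow _ _ hpr.pos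
          omega
      · left
        exact hax

end Aux

/-- Let p be a prime and F a finite field of characteristic p such that either F has p elements and p ≡ ±1 (mod 10), or F has p² elements and p ≡ ±3 (mod 10). Then PSL_2(F) has a maximal subgroup isomorphic to the alternating group A_5. -/
theorem result {F : Type*} [Field F] [Fintype F] (p : ℕ) [Fact p.Prime] [CharP F p] (h : (Fintype.card F = p ∧ (p % 10 = 1 ∨ p % 10 = 9)) ∨ (Fintype.card F = p ^ 2 ∧ (p % 10 = 3 ∨ p % 10 = 7))) : ∃ H : Subgroup (Matrix.ProjectiveSpecialLinearGroup (Fin 2) F), IsCoatom H ∧ Nonempty (H ≃* alternatingGroup (Fin 5)) :=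
  main_aux p h

end Cfsg.Agent.S5939
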