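import Cfsg.Statements.S5940
import Cfsg.Agent.S0802
import Cfsg.Agent.S0803
import Cfsg.Agent.S0804
import Cfsg.Agent.Lib.PSL2.PolyMax

set_option autoImplicit false
open Cfsg

namespace Cfsg.Agent.S5940

section Aux

open scoped MatrixGroups
open Cfsg.Agent.Lib.PSL2.Basic Cfsg.Agent.Lib.PSL2.PolyMax Cfsg.Agent.Lib.PSL2.DicksonCor

theorem main_aux {F : Type*} [Field F] [Fintype F] (p : ℕ) [hpp : Fact p.Prime]
    (hF : Fintype.card F = p) (h5 : 5 ≤ p) (h8 : p % 8 = 3 ∨ p % 8 = 5)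
    (h10 : p % 10 ≠ 1 ∧ p % 10 ≠ 9) :
    ∃ H : Subgroup PSL(2, F), IsCoatom H ∧ Nonempty (H ≃* alternatingGroup (Fin 4)) := by
  have hpr := hpp.out
  have : CharP F p := charP_of_card_prime hpr hF
  have hodd : p % 2 = 1 := by omega
  have h2 := two_ne_zero_of_card_odd hF hodd
  obtain ⟨H, ⟨e⟩⟩ := (Cfsg.Agent.S0802.result p 1 (by rw [hF, pow_one])).2 (by
    rintro ⟨rfl, -⟩
    omega)
  have hH : Nat.card H = 12 := by rw [Nat.card_congr e.toEquiv, card_alt4]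
  have hG : 2 * Nat.card PSL(2, F) = p * (p ^ 2 - 1) := by
    have := card_PSL2_of_two_ne_zero h2
    rwa [hF] at this
  refine ⟨H, isCoatom_of p h2 (HasW.of_equiv e hasW_alt4) ?_ ?_ ?_ ?_ ?_, ⟨e⟩⟩
  · intro htop
    have h3 : 60 ≤ Nat.card PSL(2, F) := by
      apply card_PSL2_ge hF hodd
      have h4 : 24 ≤ p ^ 2 - 1 := by
        have : 5 ^ 2 ≤ p ^ 2 := Nat.pow_le_pow_left h5 2
        omega
      calc 2 * 60 = 5 * 24 := by norm_num
        _ ≤ p * (p ^ 2 - 1) := Nat.mul_le_mul h5 h4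
    rw [htop, Subgroup.card_top] at hH
    omega
  · rintro K hlt ⟨e'⟩
    obtain ⟨-, h4⟩ := card_eq_of_lt_equiv hlt
    rw [hH, Nat.card_congr e'.toEquiv, card_alt4] at h4
    omega
  · rintro K hlt ⟨e'⟩
    exfalso
    have h6 := (Cfsg.Agent.S0803.result hF).1 ⟨K, ⟨e'⟩⟩
    have h16 : p % 16 = 3 ∨ p % 16 = 5 ∨ p % 16 = 11 ∨ p % 16 = 13 := by omega
    rw [Nat.pow_mod] at h6
    rcases h16 with h | h | h | h <;> rw [h] at h6 <;> omega
  · rintro K hlt ⟨e'⟩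
    have h6 := (Cfsg.Agent.S0804.result hF).1 ⟨K, ⟨e'⟩⟩
    rcases (Nat.Prime.dvd_mul (by norm_num : Nat.Prime 5)).1 h6 with h7 | h7
    · have h8 : p = 5 := ((Nat.prime_dvd_prime_iff_eq (by norm_num) hpr).1 h7).symm
      apply Subgroup.eq_top_of_card_eq
      rw [Nat.card_congr e'.toEquiv, card_alt5]
      rw [h8] at hG
      norm_num at hG
      omega
    · exfalso
      have h9 : p ^ 2 ≥ 1 := Nat.one_le_pow _ _ (by omega)
      have h11 : p ^ 2 % 5 = 1 := by omega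
      rw [Nat.pow_mod] at h11
      have h12 : p % 5 < 5 := Nat.mod_lt _ (by norm_num)
      have h13 : p % 5 = 1 ∨ p % 5 = 4 := by
        generalize p % 5 = m at h11 h12 ⊢
        interval_cases m <;> simp_all
      omega
  · rintro K hlt K₀ _ _ m hm h
    rw [hF] at hm
    obtain ⟨h1, -⟩ := (Nat.Prime.pow_eq_iff hpr).1 hm
    exact eq_top_of_card_eq (by rw [h1, hF]) h

end Aux

/-- Let p ≥ 5 be a prime with p ≡ ±3 (mod 8) and p ≢ ±1 (mod 10), and F a field with p elements. Then PSL_2(F) has a maximal subgroup isomorphic to the alternating group A_4. -/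
theorem result {F : Type*} [Field F] [Fintype F] (p : ℕ) [Fact p.Prime] (hF : Fintype.card F = p) (h5 : 5 ≤ p) (h8 : p % 8 = 3 ∨ p % 8 = 5) (h10 : p % 10 ≠ 1 ∧ p % 10 ≠ 9) : ∃ H : Subgroup (Matrix.ProjectiveSpecialLinearGroup (Fin 2) F), IsCoatom H ∧ Nonempty (H ≃* alternatingGroup (Fin 4)) :=
  main_aux p hF h5 h8 h10

end Cfsg.Agent.S5940
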