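import Cfsg.Statements.S5946
import Mathlib
-- import your own Cfsg.Agent.* helpers here

set_option autoImplicit false
open Cfsg

namespace Cfsg.Agent.S5946

/-- Let F ⊆ K be finite fields with [K : F] = n ≥ 2 and regard K as an n-dimensional F-vector space. The Singer group M ≤ GL_F(K) of multiplications by the non-zero elements of K is self-centralizing: every F-linear automorphism of K commuting with all of M lies in M. -/
theorem result {F K : Type*} [Field F] [Fintype F] [Field K] [Fintype K] [Algebra F K] (n : ℕ) (hn : 2 ≤ n) (hdim : Module.finrank F K = n) :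
    Subgroup.centralizer (((Units.map ((Algebra.lmul F K : K →ₐ[F] Module.End F K) : K →* Module.End F K)).range : Subgroup (Module.End F K)ˣ) : Set (Module.End F K)ˣ) = (Units.map ((Algebra.lmul F K : K →ₐ[F] Module.End F K) : K →* Module.End F K)).range := by
  classical
  apply le_antisymm
  · intro φ hφ
    rw [Subgroup.mem_centralizer_iff] at hφ
    have key : ∀ x : K, (φ : Module.End F K) x = x * (φ : Module.End F K) 1 := by
      intro x
      by_cases hx : x = 0
      · simp [hx]
      have h := hφ (Units.map ((Algebra.lmul F K : K →ₐ[F] Module.End F K) : K →* Module.End F K)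
        (Units.mk0 x hx)) ⟨_, rfl⟩
      have h2 := congrArg (fun u : (Module.End F K)ˣ => (u : Module.End F K) 1) h
      simpa using h2.symm
    have h1 : (φ : Module.End F K) 1 ≠ 0 := by
      intro h
      have h3 : ((φ⁻¹ * φ : (Module.End F K)ˣ) : Module.End F K) 1 = 1 := by
        simp
      rw [Units.val_mul, Module.End.mul_apply, h, map_zero] at h3
      exact zero_ne_one h3
    refine ⟨Units.mk0 _ h1, ?_⟩
    ext x
    simp [key x, mul_comm]
  · rintro _ ⟨u, rfl⟩
    rw [Subgroup.mem_centralizer_iff]
    rintro _ ⟨v, rfl⟩
    rw [← map_mul, ← map_mul, mul_comm]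

end Cfsg.Agent.S5946
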